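import Mathlib
import Cfsg.Agent.Lib.H30LinD

/-! Transitive linear groups over GF(2), the case of dimension six. (helper30) -/

set_option autoImplicit false

open Subgroup
open scoped Pointwise

universe u

namespace Cfsg.Agent.Lib.H30LinE

open H30LinA H30LinB H30LinC H30LinD H50Out

variable {V : Type u} [CommGroup V] [Finite V]

/-- No 3-subgroup of order 81 centralizing an element of order three with fixed points. -/
theorem not_81 (hV2 : ∀ v : V, v * v = 1) (hV : Nat.card V = 2 ^ 6)
    (R : Subgroup (MulAut V)) (hR3 : IsPGroup 3 R) {x : MulAut V}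
    (hx : orderOf x = 3) {v : V} (hv : v ≠ 1) (hxv : x v = v) (hc : ∀ r ∈ R, r * x = x * r) :
    Nat.card R ∣ 27 := by
  obtain ⟨A, B, hA, hB, hst, htriv⟩ := split_three hV2 hV hx hv hxv
  have h1 := card_dvd_kerOn R hR3 A (fun r hr => (hst r (hc r hr)).1) (card4 hV2 hA) (c := 2) (by norm_num)
  have h2 := card_dvd_kerOn (kerOn R A) (hR3.to_le (fun k hk => hk.1)) B
    (fun r hr => (hst r (hc r hr.1)).2) (card2 hV2 hB) (c := 1) (by norm_num)
  have h3 : kerOn (kerOn R A) B = ⊥ := by
    rw [eq_bot_iff]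
    intro k hk
    exact htriv k (fun v hv => hk.1.2 v hv) (fun v hv => hk.2 v hv)
  rw [h3, Subgroup.card_bot, mul_one, pow_one] at h2
  exact h1.trans (Nat.mul_dvd_mul_left 9 h2)

/-- elements of prime order at least 5 centralize no large 3-group -/
theorem not_cent (hV2 : ∀ v : V, v * v = 1) (hV : Nat.card V = 2 ^ 6)
    (R : Subgroup (MulAut V)) (hR3 : IsPGroup 3 R) {x : MulAut V} (hxR : x ∈ R)
    (hx : orderOf x = 3) {v : V} (hv : v ≠ 1) (hxv : x v = v) {p : ℕ} [hp : Fact p.Prime] (hp5 : 5 ≤ p)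
    {g : MulAut V} (hg : orderOf g = p) (hc : ∀ r ∈ R, r * g = g * r) : Nat.card R ∣ 9 := by
  haveI : Fact (Nat.Prime 2) := ⟨Nat.prime_two⟩
  haveI : Fact (Nat.Prime 3) := ⟨Nat.prime_three⟩
  obtain ⟨A, B, hA, hB, hst, htriv⟩ := split_three hV2 hV hx hv hxv
  have hgB := (hst g (hc x hxR).symm).2
  have hgp : g ^ p = 1 := by rw [← hg, pow_orderOf_eq_one]
  have hpodd : Odd p := hp.out.odd_of_ne_two (by omega)
  -- g is trivial on B
  have hB1 : ∀ b ∈ B, g b = b := by
    have h1 : restr B ⟨g, hgB⟩ = 1 := by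
      have h2 : orderOf (restr B ⟨g, hgB⟩) ∣ p := by
        apply orderOf_dvd_of_pow_eq_one
        rw [← map_pow]
        have : (⟨g, hgB⟩ : stab B) ^ p = 1 := Subtype.ext hgp
        rw [this, map_one]
      have h3 : orderOf (restr B ⟨g, hgB⟩) ∣ 6 := (_root_.orderOf_dvd_natCard _).trans (card2 hV2 hB)
      rcases (Nat.dvd_prime hp.out).1 h2 with h | h
      · exact orderOf_eq_one_iff.1 h
      · rw [h] at h3
        have h4 := Nat.le_of_dvd (by norm_num) h3
        have h5 := hp.out
        interval_cases p <;> first | omega | (exfalso; revert h5; norm_num)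
    intro b hb
    have := DFunLike.congr_fun h1 ⟨b, hb⟩
    exact congrArg Subtype.val this
  obtain ⟨f, hf, hcf⟩ := card_pow hV (dm g).ker
  obtain ⟨m, hm, hcm⟩ := card_pow hV (dm g).range
  have hfm : f + m = 6 := by
    have h1 := card_ker_range g
    rw [hcf, hcm, hV, ← pow_add] at h1
    exact Nat.pow_right_injective le_rfl h1
  have hfix : Critical2.fixIn g (⊤ : Subgroup V) = (dm g).ker := by
    ext w
    rw [mem_ker, Critical2.mem_fixIn]
    simp
  have h1 := (Critical2.dvd_of_card (p := 2) (by omega) g hg ⊤ (fun _ _ _ _ => Subgroup.mem_top _)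
    (k := 6) (j := f) (by rw [Subgroup.card_top, hV]) (by rw [hfix, hcf])).2
  have hf2 : 2 ≤ f := by
    have h2 : B ≤ (dm g).ker := fun b hb => (mem_ker _ _).2 (hB1 b hb)
    have h3 := Subgroup.card_dvd_of_le h2
    rw [hB, hcf] at h3
    exact (Nat.pow_dvd_pow_iff_le_right (by norm_num)).1 h3
  have hf6 : f ≠ 6 := by
    rintro rfl
    have h2 : (dm g).ker = ⊤ := by
      apply Subgroup.eq_top_of_card_eq
      rw [hcf, hV]
    have h3 : g = 1 := by
      ext w
      have : w ∈ (dm g).ker := h2 ▸ Subgroup.mem_top w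
      exact (mem_ker _ _).1 this
    rw [h3, orderOf_one] at hg
    omega
  have hcases : (f = 2 ∧ m = 4 ∧ p = 5) ∨ (f = 3 ∧ m = 3 ∧ p = 7) := by
    have hpr := hp.out
    have hle := Nat.le_of_dvd (by
      have : 2 ≤ 2 ^ (6 - f) := by
        calc 2 = 2 ^ 1 := by norm_num
          _ ≤ 2 ^ (6 - f) := Nat.pow_le_pow_right (by norm_num) (by omega)
      omega) h1
    interval_cases f
    · norm_num at hle h1
      left
      refine ⟨rfl, by omega, ?_⟩
      interval_cases p <;> first | rfl | (exfalso; revert h1; norm_num; done) | (exfalso; revert hpr; norm_num)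
    · norm_num at hle h1
      right
      refine ⟨rfl, by omega, ?_⟩
      interval_cases p <;> first | rfl | (exfalso; revert h1; norm_num)
    · norm_num at hle; omega
    · norm_num at hle; omega
    · omega
  -- the kernel on the fixed points
  have hKle : Nat.card R ∣ 3 * Nat.card (kerOn R (dm g).ker) := by
    rcases hcases with ⟨rfl, -, -⟩ | ⟨rfl, -, -⟩
    · have := card_dvd_kerOn R hR3 (dm g).ker (fun r hr => stab_ker (hc r hr)) (card2 hV2 hcf) (c := 1) (by norm_num)
      rwa [pow_one] at this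
    · have := card_dvd_kerOn R hR3 (dm g).ker (fun r hr => stab_ker (hc r hr)) (card3 hV2 hcf) (c := 1) (by norm_num)
      rwa [pow_one] at this
  have hirr : ∀ W : Subgroup V, W ≤ (dm g).range → (∀ w ∈ W, g w ∈ W) → W = ⊥ ∨ W = (dm g).range := by
    intro W hW hgW
    obtain ⟨w, hw, hcw⟩ := card_pow hV W
    have hfix : Nat.card (Critical2.fixIn g W) = 2 ^ 0 := by
      rw [pow_zero, Subgroup.card_eq_one, eq_bot_iff]
      intro z hz
      have h2 := disj hV2 hpodd hgp
      rw [← h2]
      exact ⟨(mem_ker _ _).2 hz.2, hW hz.1⟩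
    have h2 := (Critical2.dvd_of_card (p := 2) (by omega) g hg W (zpowers_inv hgW) hcw hfix).2
    rw [Nat.sub_zero] at h2
    have hwm : w ≤ m := by
      have h3 := Subgroup.card_dvd_of_le hW
      rw [hcw, hcm] at h3
      exact (Nat.pow_dvd_pow_iff_le_right (by norm_num)).1 h3
    have hw0 : w = 0 ∨ w = m := by
      rcases hcases with ⟨rfl, rfl, rfl⟩ | ⟨rfl, rfl, rfl⟩
      · interval_cases w <;> first | (left; rfl) | (right; rfl) | (exfalso; revert h2; norm_num)
      · interval_cases w <;> first | (left; rfl) | (right; rfl) | (exfalso; revert h2; norm_num)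
    rcases hw0 with rfl | rfl
    · left; rw [← Subgroup.card_eq_one, hcw, pow_zero]
    · right; exact Subgroup.eq_of_le_of_card_ge hW (by rw [hcw, hcm])
  have hsemi : Nat.card (kerOn R (dm g).ker) ∣ 2 ^ m - 1 := by
    rw [← hcm]
    have hsr : kerOn R (dm g).ker ≤ stab (dm g).range := fun r hr => stab_range (hc r (mem_kerOn.1 hr).1)
    apply card_dvd_semireg _ _ hsr
    intro k hk hk1 w hw hkw
    by_contra hw1
    -- the fixed points of k in the range
    have h2 := hirr ((dm k).ker ⊓ (dm g).range) inf_le_right (by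
      rintro z ⟨hz1, hz2⟩
      refine ⟨(stab_ker (b := g) (a := k) (hc k hk.1).symm z).2 hz1, ?_⟩
      exact (stab_range (b := g) (a := g) rfl z).2 hz2)
    rcases h2 with h2 | h2
    · apply hw1
      have : w ∈ (dm k).ker ⊓ (dm g).range := ⟨(mem_ker _ _).2 hkw, hw⟩
      rw [h2, Subgroup.mem_bot] at this
      exact this
    · apply hk1
      apply eq_one hV2 hpodd hgp (fun v hv => hk.2 v hv)
      intro v hv
      rw [← h2] at hv
      exact (mem_ker _ _).1 hv.1
  have hK3 : Nat.card (kerOn R (dm g).ker) ∣ 3 := by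
    obtain ⟨k, hk⟩ := (IsPGroup.iff_card (p := 3)).mp (hR3.to_le (fun z (hz : z ∈ kerOn R (dm g).ker) => hz.1))
    rw [hk] at hsemi ⊢
    have : k ≤ 1 := by
      by_contra hlt
      push Not at hlt
      have h4 : 3 ^ 2 ∣ 2 ^ m - 1 := (pow_dvd_pow 3 hlt).trans hsemi
      rcases hcases with ⟨rfl, rfl, rfl⟩ | ⟨rfl, rfl, rfl⟩
      · revert h4; norm_num
      · revert h4; norm_num
    calc 3 ^ k ∣ 3 ^ 1 := pow_dvd_pow 3 this
      _ = 3 := by norm_num
  exact hKle.trans (Nat.mul_dvd_mul_left 3 hK3)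

end Cfsg.Agent.Lib.H30LinE
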