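import Mathlib
import Cfsg.Agent.Lib.H30LinE

/-! Transitive linear groups over GF(2): the quotient of the normalizer is solvable. (helper30) -/

set_option autoImplicit false

open Subgroup
open scoped Pointwise

universe u

namespace Cfsg.Agent.Lib.H30LinF

open H30LinA H30LinB H30LinC H30LinD H30LinE H50Out

variable {V : Type u} [CommGroup V] [Finite V]

theorem card6 (hV2 : ∀ v : V, v * v = 1) (hV : Nat.card V = 2 ^ 6) :
    Nat.card (MulAut V) ∣ 20158709760 := by
  have h := card_aut_dvd hV2 (⊤ : Subgroup V) (e := 6) (by rw [Subgroup.card_top, hV])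
  simp only [Fin.prod_univ_succ, Fin.prod_univ_zero] at h
  have e : Nat.card (MulAut V) = Nat.card (MulAut (⊤ : Subgroup V)) :=
    Nat.card_congr (MulAut.congr (Subgroup.topEquiv (G := V)).symm).toEquiv
  rw [e]
  exact h

theorem case_B (hV2 : ∀ v : V, v * v = 1) (hV : Nat.card V = 2 ^ 6)
    (R : Subgroup (MulAut V)) (hR3 : IsPGroup 3 R) (h27 : 27 ∣ Nat.card R) {x : MulAut V} (hxR : x ∈ R)
    (hx : orderOf x = 3) {v : V} (hv : v ≠ 1) (hxv : x v = v) :
    Group.IsSolvable (Subgroup.normalizer (R : Set (MulAut V))) := by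
  haveI : Fact (Nat.Prime 3) := ⟨Nat.prime_three⟩
  have h6 := card6 hV2 hV
  obtain ⟨k, hk⟩ := (IsPGroup.iff_card (p := 3)).mp hR3
  have hk3 : 3 ≤ k := by
    rw [hk] at h27
    exact (Nat.pow_dvd_pow_iff_le_right (by norm_num)).1 (show 3 ^ 3 ∣ 3 ^ k from h27)
  have hk4 : k ≤ 4 := by
    by_contra hlt
    push Not at hlt
    have h1 : 3 ^ 5 ∣ 20158709760 :=
      (pow_dvd_pow 3 hlt).trans (hk ▸ (Subgroup.card_subgroup_dvd_card R).trans h6)
    revert h1; norm_num
  have key : ∀ p : ℕ, p.Prime → 5 ≤ p → ¬ p ∣ Nat.card (Subgroup.normalizer (R : Set (MulAut V))) := by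
    intro p hp hp5 hdvd
    haveI : Fact p.Prime := ⟨hp⟩
    obtain ⟨g, hg⟩ := exists_prime_orderOf_dvd_card' p hdvd
    have hgp : g ^ p = 1 := by
      have := pow_orderOf_eq_one g
      rwa [hg] at this
    by_cases ha : R.normalizerMonoidHom g = 1
    · have h1 : g ∈ R.normalizerMonoidHom.ker := ha
      rw [Subgroup.normalizerMonoidHom_ker] at h1
      have h2 : (g : MulAut V) ∈ Subgroup.centralizer (R : Set (MulAut V)) := h1
      have h3 := not_cent hV2 hV R hR3 hxR hx hv hxv hp5 (g := (g : MulAut V))
        (by rw [Subgroup.orderOf_coe, hg]) (fun r hr => (Subgroup.mem_centralizer_iff.1 h2) r hr)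
      have := h27.trans h3
      revert this; norm_num
    · have hoa : orderOf (R.normalizerMonoidHom g) = p := by
        apply orderOf_eq_prime _ ha
        rw [← map_pow, hgp, map_one]
      have hp3 : p ≠ 3 := by omega
      obtain ⟨j, hj⟩ := (IsPGroup.iff_card (p := 3)).mp
        (hR3.to_subgroup (Critical2.fixIn (R.normalizerMonoidHom g) (⊤ : Subgroup R)))
      have h1 := Critical2.dvd_of_card (p := 3) hp3 _ hoa (⊤ : Subgroup R) (fun _ _ _ _ => Subgroup.mem_top _)
        (k := k) (j := j) (by rw [Subgroup.card_top, hk]) hj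
      have hjk : j ≠ k := by
        rintro rfl
        apply ha
        have h3 : Critical2.fixIn (R.normalizerMonoidHom g) (⊤ : Subgroup R) = ⊤ := by
          apply Subgroup.eq_top_of_card_eq
          rw [hj, hk]
        ext z
        have : z ∈ Critical2.fixIn (R.normalizerMonoidHom g) (⊤ : Subgroup R) := by rw [h3]; exact Subgroup.mem_top z
        exact congrArg (fun t : R => (t : MulAut V) _) this.2
      have hpV : p ∣ 20158709760 := (hdvd.trans (Subgroup.card_subgroup_dvd_card _)).trans h6
      obtain ⟨hjk', hd⟩ := h1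
      have h5 : k - j = 4 ∧ p = 5 := by
        have hi : k - j ≤ 4 := by omega
        have hi0 : k - j ≠ 0 := by omega
        generalize k - j = i at hd hi hi0
        have hle := Nat.le_of_dvd (by
          have : 3 ≤ 3 ^ i := by
            calc 3 = 3 ^ 1 := by norm_num
              _ ≤ 3 ^ i := Nat.pow_le_pow_right (by norm_num) (by omega)
          omega) hd
        interval_cases i
        · norm_num at hle; omega
        · norm_num at hle; omega
        · norm_num at hle hd
          exfalso
          clear hpV
          interval_cases p <;> revert hd hp <;> norm_num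
        · norm_num at hle hd
          exfalso
          have h13 : p ∣ 2 * 13 := hd
          rcases (Nat.Prime.dvd_mul hp).1 h13 with h | h
          · have := Nat.le_of_dvd (by norm_num) h; omega
          · rw [(Nat.prime_dvd_prime_iff_eq hp (by norm_num)).1 h] at hpV
            revert hpV; norm_num
        · refine ⟨rfl, ?_⟩
          norm_num at hd
          have h80 : p ∣ 2 ^ 4 * 5 := hd
          rcases (Nat.Prime.dvd_mul hp).1 h80 with h | h
          · have := hp.dvd_of_dvd_pow h
            have := Nat.le_of_dvd (by norm_num) this; omega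
          · exact (Nat.prime_dvd_prime_iff_eq hp (by norm_num)).1 h
      obtain ⟨h4, rfl⟩ := h5
      have hk' : k = 4 := by omega
      have hj' : j = 0 := by omega
      subst hk' hj'
      -- the centre
      obtain ⟨z, hz⟩ := (IsPGroup.iff_card (p := 3)).mp (hR3.to_subgroup (Subgroup.center R))
      have hfix : Nat.card (Critical2.fixIn (R.normalizerMonoidHom g) (Subgroup.center R)) = 3 ^ 0 := by
        have h2 : Nat.card (Critical2.fixIn (R.normalizerMonoidHom g) (Subgroup.center R)) ∣
            Nat.card (Critical2.fixIn (R.normalizerMonoidHom g) (⊤ : Subgroup R)) :=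
          Subgroup.card_dvd_of_le (fun t ht => ⟨Subgroup.mem_top _, ht.2⟩)
        rw [hj, pow_zero, Nat.dvd_one] at h2
        rw [h2, pow_zero]
      have h2 := (Critical2.dvd_of_card (p := 3) hp3 _ hoa (Subgroup.center R) (by
        intro b _ t ht
        rw [Subgroup.mem_center_iff] at ht ⊢
        intro s
        have h3 := ht (b⁻¹ s)
        have h4 := congrArg b h3
        rwa [map_mul, map_mul, MulAut.apply_inv_self] at h4) hz hfix).2
      rw [Nat.sub_zero] at h2
      have hz4 : z ≤ 4 := by
        have h3 := Subgroup.card_subgroup_dvd_card (Subgroup.center R)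
        rw [hz, hk] at h3
        exact (Nat.pow_dvd_pow_iff_le_right (by norm_num)).1 h3
      have hz0 : z ≠ 0 := by
        rintro rfl
        haveI : Nontrivial R := by
          rw [← Finite.one_lt_card_iff_nontrivial, hk]; norm_num
        haveI := hR3.center_nontrivial
        have h3 : 1 < Nat.card (Subgroup.center R) := Finite.one_lt_card
        rw [hz] at h3
        norm_num at h3
      have hz' : z = 4 := by
        interval_cases z <;> first | rfl | omega | (exfalso; revert h2; norm_num)
      have hcen : Subgroup.center R = ⊤ := by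
        apply Subgroup.eq_top_of_card_eq
        rw [hz, hk, hz']
      have h81 := not_81 hV2 hV R hR3 hx hv hxv (by
        intro r hr
        have h3 : (⟨x, hxR⟩ : R) ∈ Subgroup.center R := hcen ▸ Subgroup.mem_top _
        have h4 := Subgroup.mem_center_iff.1 h3 ⟨r, hr⟩
        exact congrArg Subtype.val h4)
      rw [hk] at h81
      revert h81; norm_num
  -- the order of the normalizer
  have hdiv : Nat.card (Subgroup.normalizer (R : Set (MulAut V))) ∣ 2 ^ 15 * 3 ^ 4 := by
    have h1 : Nat.card (Subgroup.normalizer (R : Set (MulAut V))) ∣ (2 ^ 15 * 3 ^ 4) * 7595 :=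
      (Subgroup.card_subgroup_dvd_card _).trans h6
    refine Nat.Coprime.dvd_of_dvd_mul_right ?_ h1
    apply Nat.Coprime.symm
    apply Nat.coprime_of_dvd
    intro p hp hp1 hp2
    refine key p hp ?_ hp2
    by_contra hlt
    push Not at hlt
    have h2 := hp.two_le
    interval_cases p
    · revert hp1; norm_num
    · revert hp1; norm_num
    · revert hp; norm_num
  obtain ⟨a, b, ha, hb, hab⟩ := (Nat.dvd_mul).1 hdiv
  obtain ⟨i, -, rfl⟩ := (Nat.dvd_prime_pow Nat.prime_two).1 ha
  obtain ⟨l, -, rfl⟩ := (Nat.dvd_prime_pow Nat.prime_three).1 hb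
  exact Burnside.isSolvable_of_card_eq _ 2 3 i l Nat.prime_two Nat.prime_three hab.symm rfl

end Cfsg.Agent.Lib.H30LinF
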