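import Mathlib
import Cfsg.Agent.Lib.H30LinF

/-! Transitive linear groups over GF(2): the quotient of the normalizer is solvable. (helper30) -/

set_option autoImplicit false

open Subgroup
open scoped Pointwise

universe u

namespace Cfsg.Agent.Lib.H30LinG

open H30LinA H30LinB H30LinC H30LinD H30LinE H30LinF H50Out

variable {V : Type u} [CommGroup V] [Finite V]

/-- The factor group of the normalizer of a transitive linear group over GF(2) is solvable. -/
theorem exists_solvable (hV2 : ∀ v : V, v * v = 1) (Y : Subgroup (MulAut V))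
    (htr : ∀ v w : V, v ≠ 1 → w ≠ 1 → ∃ y ∈ Y, y v = w) :
    ∃ N : Subgroup (MulAut V), Group.IsSolvable N ∧
      ∀ g ∈ Subgroup.normalizer (Y : Set (MulAut V)), ∃ y ∈ Y, ∃ m ∈ N, g = y * m := by
  haveI : Fact (Nat.Prime 2) := ⟨Nat.prime_two⟩
  obtain ⟨n, hn⟩ := (IsPGroup.iff_card (p := 2)).mp (show IsPGroup 2 V from fun v =>
    ⟨1, by rw [pow_one, pow_two]; exact hV2 v⟩)
  rcases Nat.lt_or_ge n 2 with h2 | h2
  · refine ⟨⊥, inferInstance, fun g _ => ⟨1, Y.one_mem, 1, (⊥ : Subgroup (MulAut V)).one_mem, ?_⟩⟩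
    rw [one_mul]
    ext v
    rw [MulAut.one_apply]
    by_cases hv : v = 1
    · rw [hv, map_one]
    · by_contra hne
      have h3 : Nat.card V ≤ 2 := by
        rw [hn]
        calc 2 ^ n ≤ 2 ^ 1 := Nat.pow_le_pow_right (by norm_num) (by omega)
          _ = 2 := by norm_num
      have hgv : g v ≠ 1 := fun h => hv ((map_eq_one_iff _ g.injective).1 h)
      have h4 : ({1, v, g v} : Set V).ncard = 3 := by
        rw [Set.ncard_eq_three]
        exact ⟨1, v, g v, fun h => hv h.symm, fun h => hgv h.symm, fun h => hne h.symm, rfl⟩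
      have h5 := Set.ncard_le_card ({1, v, g v} : Set V)
      omega
  have hnt : Nontrivial V := by
    rw [← Finite.one_lt_card_iff_nontrivial, hn]
    exact Nat.one_lt_two_pow (by omega)
  obtain ⟨v0, hv0⟩ := exists_ne (1 : V)
  have hY := card_sub_one_dvd Y htr hv0
  rw [hn] at hY
  by_cases h6 : n = 6
  · subst h6
    haveI : Fact (Nat.Prime 3) := ⟨Nat.prime_three⟩
    obtain ⟨P⟩ := (inferInstance : Nonempty (Sylow 3 Y))
    refine ⟨Subgroup.normalizer (((P : Subgroup Y).map Y.subtype : Subgroup (MulAut V)) : Set (MulAut V)), ?_,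
      fun g hg => frattini Y P hg⟩
    have hRc : Nat.card ↥((P : Subgroup Y).map Y.subtype) = Nat.card (P : Subgroup Y) :=
      Subgroup.card_map_of_injective Y.subtype_injective
    have hR3 : IsPGroup 3 ↥((P : Subgroup Y).map Y.subtype) := P.isPGroup'.map _
    have h9 : 3 ^ 2 ∣ Nat.card (P : Subgroup Y) :=
      P.pow_dvd_card_of_pow_dvd_card (by rw [← hY]; exact Dvd.dvd.mul_right (by norm_num) _)
    by_cases hs : ∀ k ∈ (P : Subgroup Y).map Y.subtype, k ≠ 1 → ∀ v, k v = v → v = 1
    · exact case_A hn _ hR3 (by rw [hRc]; exact h9) hs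
    · push Not at hs
      obtain ⟨k, hk, hk1, v, hkv, hv⟩ := hs
      -- an element of order three
      obtain ⟨e, he⟩ := hR3 ⟨k, hk⟩
      have he' : k ^ 3 ^ e = 1 := congrArg Subtype.val he
      obtain ⟨i, hi⟩ : ∃ i, orderOf k = 3 ^ (i + 1) := by
        obtain ⟨i, -, hi⟩ := (Nat.dvd_prime_pow Nat.prime_three).1 (orderOf_dvd_of_pow_eq_one he')
        rcases i with _ | i
        · rw [pow_zero, orderOf_eq_one_iff] at hi; exact absurd hi hk1
        · exact ⟨i, hi⟩
      have hx : orderOf (k ^ 3 ^ i) = 3 := by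
        rw [orderOf_pow' _ (by positivity), hi, pow_succ, Nat.gcd_eq_right (Dvd.intro _ rfl),
          Nat.mul_div_cancel_left _ (by positivity)]
      have hxv : (k ^ 3 ^ i) v = v := by
        have : ∀ j : ℕ, (k ^ j) v = v := by
          intro j
          induction j with
          | zero => rfl
          | succ j ih => rw [pow_succ, MulAut.mul_apply, hkv, ih]
        exact this _
      have h27 : 3 ^ 3 ∣ Nat.card (P : Subgroup Y) := by
        apply P.pow_dvd_card_of_pow_dvd_card
        have hYv := card_sub_one_dvd Y htr hv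
        rw [hn] at hYv
        rw [← hYv]
        have h3 : 3 ∣ Nat.card (MulAction.stabilizer Y v) := by
          obtain ⟨k', hk', rfl⟩ := hk
          have hmem : k' ∈ MulAction.stabilizer Y v := hkv
          have hmem2 : k' ^ 3 ^ i ∈ MulAction.stabilizer Y v := pow_mem hmem _
          have h4 : orderOf (k' ^ 3 ^ i) = 3 := by
            rw [← Subgroup.orderOf_coe]; exact hx
          have := Subgroup.orderOf_dvd_natCard _ hmem2
          rwa [h4] at this
        have h5 : (3 ^ 3 : ℕ) = 9 * 3 := by norm_num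
        rw [h5]
        exact Nat.mul_dvd_mul (by norm_num) h3
      exact case_B hV2 hn _ hR3 (by rw [hRc]; exact h27) (pow_mem hk _) hx hv hxv
  · obtain ⟨r, hr, hrd, hrz⟩ := exists_zsig h2 h6
    haveI : Fact r.Prime := ⟨hr⟩
    have hr2 : r ≠ 2 := by
      rintro rfl
      have h3 : 2 ∣ 2 ^ n := dvd_pow_self 2 (by omega)
      have h4 : 1 ≤ 2 ^ n := Nat.one_le_two_pow
      omega
    obtain ⟨P⟩ := (inferInstance : Nonempty (Sylow r Y))
    refine ⟨Subgroup.normalizer (((P : Subgroup Y).map Y.subtype : Subgroup (MulAut V)) : Set (MulAut V)), ?_,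
      fun g hg => frattini Y P hg⟩
    have hrY : r ∣ Nat.card Y := by rw [← hY]; exact Dvd.dvd.mul_right hrd _
    have hPne : Nontrivial (P : Subgroup Y) := by
      rw [← Finite.one_lt_card_iff_nontrivial]
      have h3 : r ^ 1 ∣ Nat.card (P : Subgroup Y) := P.pow_dvd_card_of_pow_dvd_card (by rwa [pow_one])
      rw [pow_one] at h3
      have := Nat.le_of_dvd Nat.card_pos h3
      have := hr.two_le
      omega
    haveI := P.isPGroup'.center_nontrivial
    obtain ⟨z, hz⟩ := exists_prime_orderOf_dvd_card' (G := Subgroup.center (P : Subgroup Y)) r (by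
      obtain ⟨e, he⟩ := (IsPGroup.iff_card (p := r)).mp
        (P.isPGroup'.to_subgroup (Subgroup.center (P : Subgroup Y)))
      rw [he]
      have h1 : 1 < Nat.card (Subgroup.center (P : Subgroup Y)) := Finite.one_lt_card
      rw [he] at h1
      exact dvd_pow_self r (by rintro rfl; simp at h1))
    have hz' : orderOf (((z : (P : Subgroup Y)) : Y) : MulAut V) = r := by
      rw [Subgroup.orderOf_coe, Subgroup.orderOf_coe, Subgroup.orderOf_coe, hz]
    refine normalizer_solvable (irr_of_zsig hn hr2 hrz hz') _ ?_ ?_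
    · exact ⟨((z : (P : Subgroup Y)) : Y), (z : (P : Subgroup Y)).2, rfl⟩
    · rintro _ ⟨h, hh, rfl⟩
      have h1 := Subgroup.mem_center_iff.1 z.2 ⟨h, hh⟩
      exact congrArg (fun t : (P : Subgroup Y) => ((t : Y) : MulAut V)) h1

end Cfsg.Agent.Lib.H30LinG
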