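import Mathlib
import Cfsg.Prelude.Def_Transfer
import Cfsg.Agent.Lib.Critical
import Cfsg.Agent.Lib.Extraspecial
import Cfsg.Agent.Lib.KleinAut
import Cfsg.Agent.Lib.CoprimeGen

/-! 2-groups without noncyclic abelian subgroups of order 8 and with a nontrivial automorphism of odd order. (helper30) -/

set_option autoImplicit false

open Subgroup
open scoped commutatorElement

universe u v

namespace Cfsg.Agent.Lib.H30NagA

/-- `P` has a noncyclic abelian subgroup of order 8 -/
def NC (P : Type*) [Group P] : Prop := ∃ A : Subgroup P, IsMulCommutative A ∧ ¬ IsCyclic A ∧ Nat.card A = 8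

theorem NC.map {P Q : Type*} [Group P] [Group Q] (f : P →* Q) (hf : Function.Injective f) (h : NC P) : NC Q := by
  obtain ⟨A, h1, h2, h3⟩ := h
  have e := A.equivMapOfInjective f hf
  refine ⟨A.map f, ?_, ?_, ?_⟩
  · rw [isMulCommutative_iff_of_setLike]
    rintro _ ⟨a, ha, rfl⟩ _ ⟨b, hb, rfl⟩
    rw [← map_mul, ← map_mul, (isMulCommutative_iff_of_setLike.mp h1) a ha b hb]
  · intro hc
    apply h2
    exact isCyclic_of_surjective e.symm e.symm.surjective
  · rw [← h3]; exact (Nat.card_congr e.toEquiv).symm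

theorem NC.of_subgroup {P : Type*} [Group P] {H : Subgroup P} (h : NC H) : NC P :=
  h.map H.subtype (Subtype.val_injective)

theorem not_cyclic_of_two {B : Type*} [Group B] [Finite B] {x y : B} (hx : x ^ 2 = 1) (hy : y ^ 2 = 1)
    (hx1 : x ≠ 1) (hy1 : y ∉ zpowers x) : ¬ IsCyclic B := by
  classical
  intro hc
  haveI := Fintype.ofFinite B
  have h := IsCyclic.card_pow_eq_one_le (α := B) (n := 2) (by norm_num)
  have h2 : ({1, x, y} : Finset B) ⊆ Finset.univ.filter (fun a : B => a ^ 2 = 1) := by
    intro a ha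
    simp only [Finset.mem_insert, Finset.mem_singleton] at ha
    simp only [Finset.mem_filter, Finset.mem_univ, true_and]
    rcases ha with rfl | rfl | rfl
    · simp
    · exact hx
    · exact hy
  have hy0 : y ≠ 1 := fun h => hy1 (by rw [h]; exact one_mem _)
  have hxy : x ≠ y := fun h => hy1 (by rw [← h]; exact mem_zpowers x)
  have h3 : ({1, x, y} : Finset B).card = 3 := by
    rw [Finset.card_eq_three]
    exact ⟨1, x, y, fun h => hx1 h.symm, fun h => hy0 h.symm, hxy, rfl⟩
  have h4 := Finset.card_le_card h2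
  omega

/-- a noncyclic abelian 2-group of order at least 8 has a noncyclic subgroup of order 8 -/
theorem nc_of_abelian {B : Type*} [Group B] [Finite B] (hB : IsPGroup 2 B) (hc : ∀ x y : B, x * y = y * x)
    (hnc : ¬ IsCyclic B) (h8 : 8 ≤ Nat.card B) : NC B := by
  classical
  haveI : Fact (Nat.Prime 2) := ⟨Nat.prime_two⟩
  have hT : IsMulCommutative (⊤ : Subgroup B) := by
    rw [isMulCommutative_iff_of_setLike]; intro a _ b _; exact hc a b
  have hnT : ¬ IsCyclic (⊤ : Subgroup B) := fun h => hnc (isCyclic_of_surjective (Subgroup.topEquiv (G := B)) (Subgroup.topEquiv (G := B)).surjective)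
  obtain ⟨r, x, y, hr, -, -, hx1, hx, hy, hxy⟩ := CoprimeGen.exists_rank_two hT hnT
  have hr2 : r = 2 := by
    obtain ⟨k, hk⟩ := hB x
    have h1 : orderOf x ∣ 2 ^ k := orderOf_dvd_of_pow_eq_one hk
    have h2 : orderOf x = r := by
      haveI : Fact r.Prime := ⟨hr⟩
      exact orderOf_eq_prime hx hx1
    rw [h2] at h1
    exact (Nat.prime_dvd_prime_iff_eq hr Nat.prime_two).mp (hr.dvd_of_dvd_pow h1)
  subst hr2
  set E : Subgroup B := closure {x, y} with hE
  have hxE : x ∈ E := subset_closure (by simp)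
  have hyE : y ∈ E := subset_closure (by simp)
  have hEc : Nat.card E ≤ 4 := by
    have h1 : ∀ e ∈ E, e ∈ ({1, x, y, x * y} : Finset B) := by
      intro e he
      rw [hE] at he
      induction he using closure_induction with
      | mem a ha =>
        rcases ha with rfl | rfl <;> simp
      | one => simp
      | mul a b _ _ ha hb =>
        simp only [Finset.mem_insert, Finset.mem_singleton] at ha hb ⊢
        have h1 : x * x = 1 := by rw [← pow_two]; exact hx
        have h2 : y * y = 1 := by rw [← pow_two]; exact hy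
        have h3 := hc x y
        rcases ha with rfl | rfl | rfl | rfl <;> rcases hb with rfl | rfl | rfl | rfl
        · simp
        · simp
        · simp
        · simp
        · simp
        · simp [h1]
        · simp
        · right; right; left; rw [← mul_assoc, h1, one_mul]
        · simp
        · right; right; right; exact h3.symm
        · simp [h2]
        · right; left; rw [h3, ← mul_assoc, h2, one_mul]
        · simp
        · right; right; left
          rw [h3, mul_assoc, h1, mul_one]
        · right; left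
          rw [mul_assoc, h2, mul_one]
        · left
          rw [mul_assoc, ← mul_assoc y x y, ← h3, mul_assoc x y y, h2, mul_one, h1]
      | inv a _ ha =>
        simp only [Finset.mem_insert, Finset.mem_singleton] at ha ⊢
        have h1 : x⁻¹ = x := by rw [inv_eq_iff_mul_eq_one, ← pow_two]; exact hx
        have h2 : y⁻¹ = y := by rw [inv_eq_iff_mul_eq_one, ← pow_two]; exact hy
        rcases ha with rfl | rfl | rfl | rfl
        · simp
        · right; left; exact h1
        · right; right; left; exact h2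
        · right; right; right; rw [mul_inv_rev, h1, h2]; exact (hc x y).symm
    have h2 : Nat.card E ≤ ({1, x, y, x * y} : Finset B).card := by
      rw [← Fintype.card_coe, ← Nat.card_eq_fintype_card]
      exact Nat.card_le_card_of_injective (fun e : E => (⟨e, h1 e e.2⟩ : ({1, x, y, x * y} : Finset B)))
        (fun a b hab => Subtype.ext (by simpa using hab))
    exact h2.trans Finset.card_le_four
  obtain ⟨k, hk⟩ := (IsPGroup.iff_card.mp hB)
  obtain ⟨m, hm⟩ := (IsPGroup.iff_card.mp (hB.to_subgroup E))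
  have hm2 : m ≤ 3 := by
    by_contra h
    have h1 : 2 ^ 4 ≤ 2 ^ m := Nat.pow_le_pow_right (by norm_num) (by omega)
    omega
  have hk3 : 3 ≤ k := by
    by_contra h
    have h1 : 2 ^ k ≤ 2 ^ 2 := Nat.pow_le_pow_right (by norm_num) (by omega)
    omega
  obtain ⟨A, hA1, hA2⟩ := Sylow.exists_subgroup_card_pow_prime_le 2 (n := m) (m := 3)
    (by rw [hk]; exact pow_dvd_pow 2 hk3) E hm hm2
  refine ⟨A, ?_, ?_, by rw [hA1]; norm_num⟩
  · rw [isMulCommutative_iff_of_setLike]; intro a _ b _; exact hc a b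
  · apply not_cyclic_of_two (x := (⟨x, hA2 hxE⟩ : A)) (y := ⟨y, hA2 hyE⟩)
    · exact Subtype.ext hx
    · exact Subtype.ext hy
    · intro h; exact hx1 (congrArg Subtype.val h)
    · rintro ⟨n, hn⟩
      apply hxy
      exact ⟨n, by have := congrArg Subtype.val hn; simpa using this⟩

open Extraspecial

variable {K : Type u} [Group K] {z : K}

theorem pow_four (h : XS 2 K z) (x : K) : x ^ 4 = 1 := by
  have h1 : x ^ 4 = (x ^ 2) ^ 2 := by rw [← pow_mul]
  rw [h1]
  rcases h.two_cases (h.pow x) with h2 | h2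
  · rw [h2, one_pow]
  · rw [h2, h.z_sq]

theorem isPGroup (h : XS 2 K z) : IsPGroup 2 K := fun x => ⟨2, pow_four h x⟩

theorem nc_of_pair [Finite K] (h : XS 2 K z) {x u : K} (hx : x ∉ zpowers z) (hxu : x * u = u * x)
    (hu : u ∉ zpowers z) (hux : u * x⁻¹ ∉ zpowers z) : NC K := by
  classical
  haveI : Fact (Nat.Prime 2) := ⟨Nat.prime_two⟩
  have hzc : ∀ y : K, y * z = z * y := mem_center_iff.mp h.cen
  set A₁ : Subgroup K := closure {x, z} with hA₁
  set A : Subgroup K := closure {x, z, u} with hA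
  have hcomm : ∀ a ∈ ({x, z, u} : Set K), ∀ b ∈ ({x, z, u} : Set K), a * b = b * a := by
    intro a ha b hb
    simp only [Set.mem_insert_iff, Set.mem_singleton_iff] at ha hb
    rcases ha with rfl | rfl | rfl <;> rcases hb with rfl | rfl | rfl
    · rfl
    · exact hzc _
    · exact hxu
    · exact (hzc _).symm
    · rfl
    · exact (hzc _).symm
    · exact hxu.symm
    · exact hzc _
    · rfl
  have hAc : ∀ a b : A, a * b = b * a := by
    intro a b
    have := Subgroup.isMulCommutative_closure hcomm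
    exact Subtype.ext ((isMulCommutative_iff_of_setLike.mp this) a a.2 b b.2)
  have h1 : ∀ a ∈ A₁, a ∈ zpowers z ∨ a * x⁻¹ ∈ zpowers z := by
    intro a ha
    rw [hA₁] at ha
    induction ha using closure_induction with
    | mem a ha =>
      rcases ha with rfl | rfl
      · right; rw [mul_inv_cancel]; exact one_mem _
      · left; exact mem_zpowers _
    | one => left; exact one_mem _
    | mul a b _ _ ha hb =>
      rcases ha with ha | ha <;> rcases hb with hb | hb
      · left; exact mul_mem ha hb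
      · right; rw [mul_assoc]; exact mul_mem ha hb
      · right
        have h2 : a * b * x⁻¹ = (a * x⁻¹) * b := by
          obtain ⟨k, rfl⟩ := hb
          have h3 := (h.commute k x⁻¹).eq
          simp only at h3 ⊢
          rw [mul_assoc, h3, mul_assoc]
        rw [h2]; exact mul_mem ha hb
      · left
        obtain ⟨k, hk⟩ := ha
        obtain ⟨l, hl⟩ := hb
        simp only at hk hl
        have h2 : a = z ^ k * x := by rw [hk]; group
        have h3 : b = z ^ l * x := by rw [hl]; group
        have h4 : a * b = z ^ k * z ^ l * x ^ 2 := by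
          rw [h2, h3, mul_assoc (z ^ k) x, ← mul_assoc x, ← (h.commute l x).eq, pow_two]
          simp only [mul_assoc]
        rw [h4]
        exact mul_mem (mul_mem ⟨k, rfl⟩ ⟨l, rfl⟩) (h.pow x)
    | inv a _ ha =>
      rcases ha with ha | ha
      · left; exact inv_mem ha
      · right
        obtain ⟨k, hk⟩ := ha
        simp only at hk
        have h2 : a = z ^ k * x := by rw [hk]; group
        have h4 : a⁻¹ * x⁻¹ = (x ^ 2)⁻¹ * (z ^ k)⁻¹ := by
          rw [h2, mul_inv_rev, mul_assoc, ← zpow_neg, (h.commute (-k) x⁻¹).eq, ← mul_assoc, pow_two, mul_inv_rev]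
        rw [h4]
        exact mul_mem (inv_mem (h.pow x)) (inv_mem ⟨k, rfl⟩)
  have huA₁ : u ∉ A₁ := fun hu1 => (h1 u hu1).elim hu hux
  have hz1 : zpowers z < A₁ := by
    rw [lt_iff_le_and_ne]
    refine ⟨by rw [zpowers_le]; exact subset_closure (by simp), fun he => hx ?_⟩
    rw [he]; exact subset_closure (by simp)
  have hA1 : A₁ < A := by
    rw [lt_iff_le_and_ne]
    refine ⟨closure_mono (by intro a ha; simp only [Set.mem_insert_iff, Set.mem_singleton_iff] at ha ⊢; tauto), fun he => huA₁ ?_⟩
    rw [he]; exact subset_closure (by simp)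
  have hc0 : Nat.card (zpowers z) = 2 := by rw [Nat.card_zpowers, h.ord]
  have hstep : ∀ B C : Subgroup K, B < C → 2 * Nat.card B ≤ Nat.card C := by
    intro B C hBC
    obtain ⟨k, hk⟩ := Subgroup.card_dvd_of_le hBC.le
    have h2 : k ≠ 1 := by
      rintro rfl
      exact hBC.ne (Subgroup.eq_of_le_of_card_ge hBC.le (by rw [hk, mul_one]))
    have h3 : k ≠ 0 := by
      rintro rfl
      have := Nat.card_pos (α := C)
      omega
    rw [hk, mul_comm]
    exact Nat.mul_le_mul_left _ (by omega)
  have h8 : 8 ≤ Nat.card A := by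
    have := hstep _ _ hz1
    have := hstep _ _ hA1
    omega
  refine NC.of_subgroup (H := A) (nc_of_abelian ((isPGroup h).to_subgroup A) hAc ?_ h8)
  intro hcy
  obtain ⟨g, hg⟩ := hcy
  have h2 : orderOf g = Nat.card A := orderOf_eq_card_of_forall_mem_zpowers hg
  have h3 : orderOf g ∣ 4 := orderOf_dvd_of_pow_eq_one (Subtype.ext (pow_four h g))
  have := Nat.le_of_dvd (by norm_num) h3
  omega

theorem XS_quaternion : ∃ z : QuaternionGroup 2, XS 2 (QuaternionGroup 2) z ∧
    (¬ ∃ x : QuaternionGroup 2, x ∉ zpowers z ∧ x ^ 2 = 1) ∧ ∃ x y : QuaternionGroup 2, x * y ≠ y * x := by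
  refine ⟨.a 2, ⟨?_, ?_, ?_, ?_, ?_⟩, ?_, ⟨.a 1, .xa 0, by decide⟩⟩
  · haveI : Fact (Nat.Prime 2) := ⟨Nat.prime_two⟩
    exact orderOf_eq_prime (by decide) (by decide)
  · rw [mem_center_iff]; decide
  · intro x y
    have : ∀ x y : QuaternionGroup 2, ⁅x, y⁆ = 1 ∨ ⁅x, y⁆ = .a 2 := by decide
    rcases this x y with h | h
    · rw [h]; exact one_mem _
    · rw [h]; exact mem_zpowers _
  · intro x
    have : ∀ x : QuaternionGroup 2, x ^ 2 = 1 ∨ x ^ 2 = .a 2 := by decide
    rcases this x with h | h
    · rw [h]; exact one_mem _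
    · rw [h]; exact mem_zpowers _
  · intro x hx
    rw [mem_center_iff] at hx
    have : ∀ x : QuaternionGroup 2, (∀ y, y * x = x * y) → x = 1 ∨ x = .a 2 := by decide
    rcases this x hx with h | h
    · rw [h]; exact one_mem _
    · rw [h]; exact mem_zpowers _
  · rintro ⟨x, hx, hx2⟩
    have : ∀ x : QuaternionGroup 2, x ^ 2 = 1 → x = 1 ∨ x = .a 2 := by decide
    rcases this x hx2 with h | h
    · rw [h] at hx; exact hx (one_mem _)
    · rw [h] at hx; exact hx (mem_zpowers _)

theorem q8_of_XS [Finite K] (h : XS 2 K z) (φ : MulAut K) (hφ : (orderOf φ).Coprime 2) (hφ1 : φ ≠ 1)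
    (hφz : φ z = z) (hn : ¬ NC K) : Nonempty (K ≃* QuaternionGroup 2) := by
  classical
  haveI : Fact (Nat.Prime 2) := ⟨Nat.prime_two⟩
  have hK := isPGroup h
  have hzfix : ∀ w ∈ zpowers z, φ w = w := by
    rintro _ ⟨k, rfl⟩
    simp only [map_zpow, hφz]
  have hfix : ∀ a : MulAut K, (orderOf a).Coprime 2 → a z = z → ∀ x : K, x⁻¹ * a x ∈ zpowers z → a x = x := by
    intro a ha haz x hx
    apply Critical.fixed_of_fixed hK a ha
    obtain ⟨k, hk⟩ := hx
    simp only at hk
    rw [← hk, map_zpow, haz]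
  have hcl1 : ∀ x : K, φ x ≠ x → ⁅x, φ x⁆ = z := by
    intro x hx
    rcases h.two_cases (h.comm x (φ x)) with h1 | h1
    · exfalso
      apply hn
      apply nc_of_pair h (x := x) (u := φ x)
      · intro hx1; exact hx (hzfix x hx1)
      · exact commutatorElement_eq_one_iff_mul_comm.mp h1
      · intro hx1
        exact hx (φ.injective (hzfix _ hx1))
      · intro hx1
        apply hx
        apply hfix φ hφ hφz
        obtain ⟨k, hk⟩ := hx1
        simp only at hk
        refine ⟨k, ?_⟩
        simp only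
        have h2 : φ x = z ^ k * x := by rw [hk]; group
        rw [h2, (h.commute k x).eq]; group
    · exact h1
  obtain ⟨x, hx⟩ : ∃ x, φ x ≠ x := by
    by_contra hne
    push Not at hne
    exact hφ1 (MulEquiv.ext hne)
  set y := φ x with hy
  have hxy : ⁅x, y⁆ = z := hcl1 x hx
  have hy1 : φ y ≠ y := fun h1 => hx (φ.injective h1)
  have hyw : ⁅y, φ y⁆ = z := hcl1 y hy1
  have hxz : x ∉ zpowers z := fun h1 => hx (hzfix x h1)
  have hcen : ∀ u ∈ centralizer ({x, y} : Set K), u ∈ zpowers z := by
    intro u hu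
    by_contra hu1
    have hux := mem_centralizer_iff.mp hu x (by simp)
    have huy := mem_centralizer_iff.mp hu y (by simp)
    apply hn
    apply nc_of_pair h (x := x) (u := u) hxz hux hu1
    rintro ⟨k, hk⟩
    simp only at hk
    have h2 : u = z ^ k * x := by rw [hk]; group
    rw [h2] at huy
    have h3 : x * y = y * x := by
      have h4 : y * (z ^ k * x) = z ^ k * (y * x) := by
        rw [← mul_assoc, ← (h.commute k y).eq, mul_assoc]
      rw [h4, mul_assoc] at huy
      exact (mul_left_cancel huy).symm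
    have h5 := commutatorElement_eq_one_iff_mul_comm.mpr h3
    rw [hxy] at h5
    exact h.z_ne_one h5
  have hzz : ∀ k : ℤ, (z ^ k) ^ 2 = 1 := by
    intro k
    rw [← zpow_natCast, ← zpow_mul, mul_comm, zpow_mul, zpow_natCast, h.z_sq, one_zpow]
  have hzsq : ∀ (k : ℤ) (u : K), (z ^ k * u) ^ 2 = u ^ 2 := by
    intro k u
    rw [(h.commute k u).mul_pow, hzz, one_mul]
  have hpar : ∀ (u : K) (hu : u ^ 2 ∈ zpowers z) (i : ℤ), u ^ i ∈ zpowers z ∨ ∃ k : ℤ, u ^ i = z ^ k * u := by
    intro u hu i
    rcases Int.even_or_odd' i with ⟨m, rfl | rfl⟩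
    · left
      rw [zpow_mul]
      exact zpow_mem (by exact_mod_cast hu) m
    · right
      rw [zpow_add, zpow_mul, zpow_one]
      obtain ⟨k, hk⟩ : u ^ (2 : ℤ) ∈ zpowers z := by exact_mod_cast hu
      simp only at hk
      exact ⟨k * m, by rw [← hk, zpow_mul]⟩
  have hx4 : (x ^ 2) ^ 2 = 1 := by rw [← pow_mul]; exact pow_four h x
  have hy2 : y ^ 2 = x ^ 2 := by rw [hy, ← map_pow, hzfix _ (h.pow x)]
  have hw2 : (φ y) ^ 2 = x ^ 2 := by rw [← map_pow, hy2, hzfix _ (h.pow x)]
  -- shape of elements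
  have hshape : ∀ u : K, u ∈ zpowers z ∨ (∃ k : ℤ, u = z ^ k * x) ∨ (∃ k : ℤ, u = z ^ k * y) ∨ ∃ k : ℤ, u = z ^ k * (x * y) := by
    intro u
    obtain ⟨i, j, c, hc, rfl⟩ := h.exists_eq hxy u
    obtain ⟨m, hm⟩ := hcen c hc
    simp only at hm
    subst hm
    have hmove : ∀ v : K, v * z ^ m = z ^ m * v := fun v => (h.commute m v).eq.symm
    rw [hmove]
    rcases hpar x (h.pow x) i with h1 | ⟨k, h1⟩ <;> rcases hpar y (h.pow y) j with h2 | ⟨l, h2⟩
    · left; exact mul_mem ⟨m, rfl⟩ (mul_mem h1 h2)
    · right; right; left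
      obtain ⟨k, hk⟩ := h1
      simp only at hk
      exact ⟨m + k + l, by rw [h2, ← hk, zpow_add, zpow_add]; simp only [mul_assoc]⟩
    · right; left
      obtain ⟨l, hl⟩ := h2
      simp only at hl
      refine ⟨m + k + l, ?_⟩
      rw [h1, ← hl, zpow_add, zpow_add, mul_assoc (z ^ k) x, ← (h.commute l x).eq]
      simp only [mul_assoc]
    · right; right; right
      refine ⟨m + k + l, ?_⟩
      rw [h1, h2, zpow_add, zpow_add, mul_assoc (z ^ k) x, ← mul_assoc x, ← (h.commute l x).eq]
      simp only [mul_assoc]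
  have hxyc : ¬ (x * y = y * x) := by
    intro h1
    have h5 := commutatorElement_eq_one_iff_mul_comm.mpr h1
    rw [hxy] at h5
    exact h.z_ne_one h5
  have hw : ∃ k : ℤ, φ y = z ^ k * (x * y) := by
    rcases hshape (φ y) with h1 | ⟨k, h1⟩ | ⟨k, h1⟩ | h1
    · exfalso
      exact hy1 (φ.injective (hzfix _ h1))
    · exfalso
      -- `φ² x ∈ x ⟨z⟩`
      have h2 : (φ ^ 2) x = x := by
        apply hfix (φ ^ 2)
        · exact Nat.Coprime.coprime_dvd_left (orderOf_pow_dvd 2) hφ
        · rw [pow_two, MulAut.mul_apply, hφz, hφz]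
        · rw [pow_two, MulAut.mul_apply, ← hy, h1, (h.commute k x).eq]
          exact ⟨k, by simp only; group⟩
      apply hx
      obtain ⟨m, hm⟩ : ∃ m, orderOf φ = 2 * m + 1 := by
        have : Odd (orderOf φ) := by
          rw [← Nat.not_even_iff_odd]
          intro he
          have h3 := Nat.dvd_gcd he.two_dvd (dvd_refl 2)
          rw [hφ] at h3
          omega
        exact this
      have h3 : ∀ n : ℕ, ((φ ^ 2) ^ n) x = x := by
        intro n
        induction n with
        | zero => simp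
        | succ n ih => rw [pow_succ, MulAut.mul_apply, h2, ih]
      have h4 : (φ ^ (2 * m + 1)) x = x := by rw [← hm, pow_orderOf_eq_one, MulAut.one_apply]
      rw [pow_succ', pow_mul, MulAut.mul_apply, h3 m] at h4
      exact h4
    · exfalso
      have h2 : ⁅y, φ y⁆ = 1 := by
        rw [commutatorElement_eq_one_iff_mul_comm, h1, ← mul_assoc, ← (h.commute k y).eq, mul_assoc]
      rw [hyw] at h2
      exact h.z_ne_one h2
    · exact h1
  obtain ⟨k, hk⟩ := hw
  have hx2 : x ^ 2 = z := by
    have h1 : (φ y) ^ 2 = x ^ 2 * x ^ 2 * z := by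
      rw [hk, hzsq, h.sq_mul, hy2, hxy]
    rw [hw2, ← pow_two, hx4, one_mul] at h1
    exact h1
  have hno : ¬ ∃ u : K, u ∉ zpowers z ∧ u ^ 2 = 1 := by
    rintro ⟨u, hu, hu2⟩
    rcases hshape u with h1 | ⟨k, h1⟩ | ⟨k, h1⟩ | ⟨k, h1⟩
    · exact hu h1
    · rw [h1, hzsq, hx2] at hu2; exact h.z_ne_one hu2
    · rw [h1, hzsq, hy2, hx2] at hu2; exact h.z_ne_one hu2
    · rw [h1, hzsq, h.sq_mul, hy2, hx2, hxy] at hu2
      apply h.z_ne_one
      rw [← pow_two, h.z_sq, one_mul] at hu2
      exact hu2
  obtain ⟨z', h', hno', hc'⟩ := XS_quaternion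
  obtain ⟨e, -⟩ := iso_of_not h h' hno hno' ⟨x, y, hxyc⟩ hc'
  exact ⟨e⟩

end Cfsg.Agent.Lib.H30NagA
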