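import Mathlib
import Cfsg.Agent.Lib.H30NagA
import Cfsg.Agent.Lib.NarrowAut
import Cfsg.Agent.Lib.H32PGroup

/-! A 2-group without noncyclic abelian subgroups of order 8 and with a nontrivial automorphism of odd
order is a four group or quaternion of order 8. (helper30) -/

set_option autoImplicit false

open Subgroup
open scoped commutatorElement

universe u v

namespace Cfsg.Agent.Lib.H30NagB

open H30NagA

theorem klein_order {V : Type*} [Group V] (hV : IsKleinFour V) {ψ : MulAut V} (h : (orderOf ψ).Coprime 2)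
    (h1 : ψ ≠ 1) : orderOf ψ = 3 := by
  haveI := KleinAut.finite_of_klein hV
  have h2 : orderOf ψ ∣ 6 := by rw [← KleinAut.card_mulAut hV]; exact orderOf_dvd_natCard ψ
  have h3 : orderOf ψ ∣ 3 := Nat.Coprime.dvd_of_dvd_mul_left h (by simpa using h2)
  rcases (Nat.dvd_prime Nat.prime_three).mp h3 with h4 | h4
  · exact absurd (orderOf_eq_one_iff.mp h4) h1
  · exact h4

theorem klein_irr {V : Type*} [Group V] (hV : IsKleinFour V) {ψ : MulAut V} (hψ : orderOf ψ = 3)
    (L : Subgroup V) (hL : L ≠ ⊥) (hinv : ∀ l ∈ L, ψ l ∈ L) : L = ⊤ := by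
  haveI := KleinAut.finite_of_klein hV
  have h1 : Nat.card L ∣ 2 ^ 2 := by
    have := Subgroup.card_subgroup_dvd_card L
    rw [hV.card_four] at this
    exact this
  obtain ⟨k, hk, hk2⟩ := (Nat.dvd_prime_pow Nat.prime_two).mp h1
  have h3 : k ≠ 0 := by
    rintro rfl
    exact hL (Subgroup.card_eq_one.mp hk2)
  have h4 : k ≠ 1 := by
    rintro rfl
    obtain ⟨⟨l, hl⟩, hl1'⟩ := Subgroup.ne_bot_iff_exists_ne_one.mp hL
    have hl1 : l ≠ 1 := fun h => hl1' (Subtype.ext h)
    have h5 : ∀ m ∈ L, m ≠ 1 → m = l := by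
      intro m hm hm1
      have h6 : Nat.card L = 2 := by rw [hk2]; norm_num
      obtain ⟨a, b, hab, huniv⟩ := Nat.card_eq_two_iff.mp h6
      have h7 : ∀ x : L, x = a ∨ x = b := fun x => by
        have : x ∈ ({a, b} : Set L) := by rw [huniv]; trivial
        simpa using this
      rcases h7 1 with h8 | h8 <;> rcases h7 ⟨l, hl⟩ with h9 | h9 <;> rcases h7 ⟨m, hm⟩ with h10 | h10
      all_goals first
        | exact congrArg Subtype.val (h10.trans h9.symm)
        | exact absurd (congrArg Subtype.val (h9.trans h8.symm)) hl1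
        | exact absurd (congrArg Subtype.val (h10.trans h8.symm)) hm1
    have h8 := h5 (ψ l) (hinv l hl) (fun h => hl1 (by simpa using h))
    exact hl1 ((KleinAut.fpf_of_orderOf hV hψ).1 l h8)
  have h5 : k = 2 := by omega
  apply Subgroup.eq_top_of_card_eq
  rw [hk2, h5, hV.card_four]
  norm_num

theorem klein_of_card {V : Type*} [Group V] [Finite V] (h4 : Nat.card V = 4) (hc : ¬ IsCyclic V) : IsKleinFour V := by
  refine ⟨h4, ?_⟩
  apply Nat.dvd_antisymm
  · apply Monoid.exponent_dvd_of_forall_pow_eq_one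
    intro g
    have h1 : orderOf g ∣ 2 ^ 2 := by
      have := orderOf_dvd_natCard g
      rw [h4] at this
      exact this
    obtain ⟨k, hk, hk2⟩ := (Nat.dvd_prime_pow Nat.prime_two).mp h1
    have h2 : k ≠ 2 := by
      rintro rfl
      apply hc
      exact isCyclic_of_orderOf_eq_card g (by rw [hk2, h4]; norm_num)
    apply orderOf_dvd_iff_pow_eq_one.mp
    rw [hk2]
    calc 2 ^ k ∣ 2 ^ 1 := pow_dvd_pow 2 (by omega)
      _ = 2 := by norm_num
  · rw [Nat.Prime.dvd_iff_not_coprime Nat.prime_two]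
    intro hcop
    haveI : Nontrivial V := Finite.one_lt_card_iff_nontrivial.mp (by omega)
    obtain ⟨g, hg⟩ := exists_ne (1 : V)
    have h1 : orderOf g ∣ Monoid.exponent V := Monoid.order_dvd_exponent g
    have h2 : orderOf g ∣ 2 ^ 2 := by
      have := orderOf_dvd_natCard g
      rw [h4] at this
      exact this
    have h3 : orderOf g ∣ 1 := by
      have h5 : (2 ^ 2).Coprime (Monoid.exponent V) := Nat.Coprime.pow_left 2 hcop
      rw [← h5]
      exact Nat.dvd_gcd h2 h1
    exact hg (orderOf_eq_one_iff.mp (Nat.dvd_one.mp h3))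

/-- an automorphism of odd order of a cyclic 2-group is trivial -/
theorem eq_one_of_cyclic {V : Type*} [Group V] [Finite V] (hV : IsPGroup 2 V) (hc : IsCyclic V) {ψ : MulAut V}
    (h : (orderOf ψ).Coprime 2) : ψ = 1 := by
  haveI : Fact (Nat.Prime 2) := ⟨Nat.prime_two⟩
  obtain ⟨k, hk⟩ := IsPGroup.iff_card.mp hV
  have h1 : orderOf ψ ∣ Nat.card (MulAut V) := orderOf_dvd_natCard ψ
  rw [IsCyclic.card_mulAut, hk] at h1
  have h2 : ∃ m, Nat.totient (2 ^ k) = 2 ^ m := by
    rcases Nat.eq_zero_or_pos k with rfl | hk0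
    · exact ⟨0, by simp⟩
    · exact ⟨k - 1, by rw [Nat.totient_prime_pow Nat.prime_two hk0]; simp⟩
  obtain ⟨m, hm⟩ := h2
  rw [hm] at h1
  have h3 : orderOf ψ ∣ 1 := by
    have h5 : (orderOf ψ).Coprime (2 ^ m) := Nat.Coprime.pow_right m h
    rw [← h5]
    exact Nat.dvd_gcd dvd_rfl h1
  exact orderOf_eq_one_iff.mp (Nat.dvd_one.mp h3)

section

variable {P : Type u} [Group P] [Finite P]

/-- a normal four group with an invariant action of order 3 is central -/
theorem central_of_klein (hP : IsPGroup 2 P) (φ : MulAut P) (K : Subgroup P) [hKn : K.Normal]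
    (hV : IsKleinFour K) (ψ : MulAut K) (hψφ : ∀ x : K, ((ψ x : K) : P) = φ x)
    (hψ : orderOf ψ = 3) : K ≤ center P := by
  haveI : Fact (Nat.Prime 2) := ⟨Nat.prime_two⟩
  have hK1 : (⊥ : Subgroup P) < K := by
    rw [bot_lt_iff_ne_bot]
    intro h
    have := hV.card_four
    rw [h, Subgroup.card_bot] at this
    omega
  obtain ⟨d, hd, hd1, hd2⟩ := H32PGroup.exists_central_mod hP ⊥ K hK1
  have hL := klein_irr hV hψ ((center P).subgroupOf K) (by
    intro h
    apply hd1
    have h1 : (⟨d, hd⟩ : K) ∈ (center P).subgroupOf K := by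
      rw [mem_subgroupOf, mem_center_iff]
      intro g
      have h2 := hd2 g
      rw [mem_bot, mul_inv_eq_one, mul_inv_eq_iff_eq_mul] at h2
      exact h2
    rw [h, mem_bot] at h1
    rw [mem_bot]
    exact congrArg Subtype.val h1) (by
    intro l hl
    rw [mem_subgroupOf, mem_center_iff] at hl ⊢
    intro g
    rw [hψφ]
    have h1 := congrArg φ (hl (φ.symm g))
    simpa using h1)
  intro k hk
  have h1 : (⟨k, hk⟩ : K) ∈ (center P).subgroupOf K := by rw [hL]; trivial
  exact h1

theorem quot_ne_one {K : Type*} [Group K] [Finite K] (hK : IsPGroup 2 K) (e : K ≃* QuaternionGroup 2)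
    (ψ : MulAut K) (hψ : (orderOf ψ).Coprime 2) (hψ1 : ψ ≠ 1) : KleinAut.quotAut K ψ ≠ 1 := by
  haveI : Fact (Nat.Prime 2) := ⟨Nat.prime_two⟩
  intro h
  rw [KleinAut.quotAut_eq_one_iff] at h
  apply hψ1
  ext k
  rw [MulAut.one_apply]
  apply Critical.fixed_of_fixed hK ψ hψ
  have h2 : Nat.card (center K) = 2 := by
    rw [Nat.card_congr (Subgroup.centerCongr e).toEquiv, KleinAut.q8_card_center]
  have h3 : ∀ c ∈ center K, ψ c = c := by
    intro c hc
    have h4 : ψ c ∈ center K := by
      rw [mem_center_iff] at hc ⊢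
      intro g
      have := congrArg ψ (hc (ψ.symm g))
      simpa using this
    by_cases hc1 : c = 1
    · rw [hc1, map_one]
    obtain ⟨a, b, hab, huniv⟩ := Nat.card_eq_two_iff.mp h2
    have h7 : ∀ x : center K, x = a ∨ x = b := fun x => by
      have : x ∈ ({a, b} : Set (center K)) := by rw [huniv]; trivial
      simpa using this
    have hψc1 : ψ c ≠ 1 := fun h => hc1 (by simpa using h)
    rcases h7 1 with h8 | h8 <;> rcases h7 ⟨c, hc⟩ with h9 | h9 <;> rcases h7 ⟨ψ c, h4⟩ with h10 | h10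
    all_goals first
      | exact congrArg Subtype.val (h10.trans h9.symm)
      | exact absurd (congrArg Subtype.val (h9.trans h8.symm)) hc1
      | exact absurd (congrArg Subtype.val (h10.trans h8.symm)) hψc1
  exact h3 _ (h k)

/-- on a normal quaternion group with an invariant nontrivial action of odd order only inner automorphisms are induced -/
theorem inner_of_q8 (hP : IsPGroup 2 P) (φ : MulAut P) (K : Subgroup P) [hKn : K.Normal]
    (e : K ≃* QuaternionGroup 2) (ψ : MulAut K) (hψφ : ∀ x : K, ((ψ x : K) : P) = φ x)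
    (hψ : (orderOf ψ).Coprime 2) (hψ1 : ψ ≠ 1) (g : P) : ∃ q ∈ K, q⁻¹ * g ∈ centralizer (K : Set P) := by
  haveI : Fact (Nat.Prime 2) := ⟨Nat.prime_two⟩
  have hV := KleinAut.q8_quot_klein e
  set ψq := KleinAut.quotAut K ψ with hψq
  have hψq1 : ψq ≠ 1 := quot_ne_one (hP.to_subgroup K) e ψ hψ hψ1
  have hψq3 : orderOf ψq = 3 := klein_order hV (Nat.Coprime.coprime_dvd_left (orderOf_map_dvd _ _) hψ) hψq1
  -- the centre of K in P
  set Z : Subgroup P := (center K).map K.subtype with hZ
  have hZc : ∀ (a : MulAut P) (b : MulAut K) (_ : ∀ x : K, ((b x : K) : P) = a x), ∀ x ∈ Z, a x ∈ Z := by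
    rintro a b hab _ ⟨x, hx, rfl⟩
    refine ⟨b x, ?_, hab x⟩
    rw [SetLike.mem_coe, mem_center_iff] at hx ⊢
    intro g
    have := congrArg b (hx (b.symm g))
    simpa using this
  haveI hZn : Z.Normal := ⟨fun x hx g => hZc (MulAut.conj g) (MulAut.conjNormal g) (fun x => by
    rw [MulAut.conjNormal_apply]; rfl) x hx⟩
  have hZK : Z < K := by
    rw [lt_iff_le_and_ne]
    refine ⟨map_subtype_le _, fun h => ?_⟩
    have h1 : center K = ⊤ := by
      rw [eq_top_iff]
      intro x _
      have hx : (x : P) ∈ Z := by rw [h]; exact x.2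
      obtain ⟨y, hy, hyx⟩ := hx
      rw [← (Subtype.ext hyx : y = x)]; exact hy
    have h2 := hV.card_four
    rw [h1] at h2
    have h3 : Nat.card (K ⧸ (⊤ : Subgroup K)) = 1 := by rw [← Subgroup.index_eq_card]; simp
    omega
  obtain ⟨d, hd, hd1, hd2⟩ := H32PGroup.exists_central_mod hP Z K hZK
  let L : Subgroup K := ((center (P ⧸ Z)).comap (QuotientGroup.mk' Z)).subgroupOf K
  have hLmem : ∀ x : K, x ∈ L ↔ ∀ g : P, g * x * g⁻¹ * (x : P)⁻¹ ∈ Z := by
    intro x
    constructor
    · intro hx g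
      have h1 : (QuotientGroup.mk' Z (x : P)) ∈ center (P ⧸ Z) := hx
      rw [mem_center_iff] at h1
      rw [← QuotientGroup.eq_one_iff]
      have h2 := h1 (QuotientGroup.mk' Z g)
      simp only [QuotientGroup.mk'_apply] at h2
      rw [QuotientGroup.mk_mul, QuotientGroup.mk_mul, QuotientGroup.mk_mul, h2, QuotientGroup.mk_inv, QuotientGroup.mk_inv]
      group
    · intro hx
      show (QuotientGroup.mk' Z (x : P)) ∈ center (P ⧸ Z)
      rw [mem_center_iff]
      intro g
      induction g using QuotientGroup.induction_on with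
      | H g =>
        have h1 := hx g
        rw [← QuotientGroup.eq_one_iff, QuotientGroup.mk_mul, QuotientGroup.mk_mul, QuotientGroup.mk_mul,
          QuotientGroup.mk_inv, QuotientGroup.mk_inv, mul_inv_eq_one, mul_inv_eq_iff_eq_mul] at h1
        exact h1
  have hLinv : ∀ x ∈ L, ψ x ∈ L := by
    intro x hx
    rw [hLmem] at hx ⊢
    intro g
    have h1 := hZc φ ψ hψφ _ (hx (φ.symm g))
    rw [hψφ]
    simpa using h1
  have hZL : center K ≤ L := by
    intro x hx
    rw [hLmem]
    intro g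
    have hxZ : (x : P) ∈ Z := ⟨x, hx, rfl⟩
    exact mul_mem (hZn.conj_mem _ hxZ g) (inv_mem hxZ)
  have hLtop : L.map (QuotientGroup.mk' (center K)) = ⊤ := by
    apply klein_irr hV hψq3
    · intro h
      rw [Subgroup.map_eq_bot_iff, QuotientGroup.ker_mk'] at h
      apply hd1
      have h1 : (⟨d, hd⟩ : K) ∈ L := (hLmem _).mpr hd2
      exact ⟨⟨d, hd⟩, h h1, rfl⟩
    · rintro _ ⟨x, hx, rfl⟩
      exact ⟨ψ x, hLinv x hx, rfl⟩
  have hLt : L = ⊤ := by
    rw [eq_top_iff]
    intro x _
    have h1 : (QuotientGroup.mk' (center K)) x ∈ L.map (QuotientGroup.mk' (center K)) := by rw [hLtop]; trivial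
    obtain ⟨y, hy, hyx⟩ := h1
    have h2 : y⁻¹ * x ∈ center K := QuotientGroup.eq.mp hyx
    have h3 := mul_mem hy (hZL h2)
    simpa using h3
  obtain ⟨q, hq⟩ := KleinAut.q8_inner_of_central e (MulAut.conjNormal g) (by
    intro x
    have h1 : x ∈ L := by rw [hLt]; trivial
    have h2 := (hLmem x).mp h1 g
    obtain ⟨y, hy, hyx⟩ := h2
    have h3 : (MulAut.conjNormal g x) * x⁻¹ = y := by
      apply Subtype.ext
      rw [Subgroup.coe_mul, MulAut.conjNormal_apply, Subgroup.coe_inv]
      exact hyx.symm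
    have h4 : x⁻¹ * (MulAut.conjNormal g x) = x⁻¹ * y * x := by rw [← h3]; group
    rw [h4]
    have h5 : x⁻¹ * y * x = y := by
      rw [mul_assoc, ← (mem_center_iff.mp hy x)]; group
    rw [h5]; exact hy)
  refine ⟨q, q.2, ?_⟩
  rw [mem_centralizer_iff]
  intro k hk
  have h2 := congrArg Subtype.val (hq ⟨k, hk⟩)
  rw [MulAut.conjNormal_apply] at h2
  simp only [Subgroup.coe_mul, Subgroup.coe_inv] at h2
  have h3 : g * k = (q : P) * k * (q : P)⁻¹ * g := by rw [← h2]; group
  rw [mul_assoc, h3]; group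

end

end Cfsg.Agent.Lib.H30NagB
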