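import Mathlib
import Cfsg.Agent.Lib.H30NagB

/-! A 2-group without noncyclic abelian subgroups of order 8 and with a nontrivial automorphism of odd
order is a four group or quaternion of order 8. (helper30) -/

set_option autoImplicit false

open Subgroup
open scoped commutatorElement

universe u v

namespace Cfsg.Agent.Lib.H30NagC

open H30NagA H30NagB Extraspecial

/-- class 2 with central squares and no noncyclic abelian subgroup of order 8: the centre has order 2 -/
theorem xs_of_class2 {K : Type u} [Group K] [Finite K] (hK : IsPGroup 2 K) (hcomm : ∀ x y : K, ⁅x, y⁆ ∈ center K)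
    (hsq : ∀ x : K, x ^ 2 ∈ center K) (hn : ¬ NC K) (hna : ∃ x y : K, x * y ≠ y * x) : ∃ z, XS 2 K z := by
  classical
  haveI : Fact (Nat.Prime 2) := ⟨Nat.prime_two⟩
  set Z := center K with hZ
  obtain ⟨x₀, y₀, hxy₀⟩ := hna
  haveI : Nontrivial K := ⟨x₀, y₀, fun h => hxy₀ (by rw [h])⟩
  have hZnt : Nontrivial Z := hK.center_nontrivial
  have hZp : IsPGroup 2 Z := hK.to_subgroup Z
  obtain ⟨n, hn0, hZcard⟩ := hZp.nontrivial_iff_card.mp hZnt
  -- odd powers
  have hpar : ∀ (b : K) (i : ℤ), b ^ i ∈ Z ∨ b ^ i * b⁻¹ ∈ Z := by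
    intro b i
    rcases Int.even_or_odd' i with ⟨m, rfl | rfl⟩
    · left
      rw [zpow_mul]
      exact zpow_mem (by exact_mod_cast hsq b) m
    · right
      have : b ^ (2 * m + 1) * b⁻¹ = (b ^ (2 : ℤ)) ^ m := by
        rw [← zpow_mul, zpow_add, zpow_one, mul_assoc, mul_inv_cancel, mul_one]
      rw [this]
      exact zpow_mem (by exact_mod_cast hsq b) m
  -- the key step
  have key : n ≠ 1 → ∀ x : K, x ∉ Z → ∃ ζ ∈ Z, Z ≤ zpowers ((x * ζ) ^ 2) := by
    intro hn1 x hx
    have h4 : 4 ≤ Nat.card Z := by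
      rw [hZcard]
      calc 4 = 2 ^ 2 := by norm_num
        _ ≤ 2 ^ n := Nat.pow_le_pow_right (by norm_num) (by omega)
    set B : Subgroup K := Z ⊔ zpowers x with hB
    have hxB : x ∈ B := mem_sup_right (mem_zpowers x)
    have hform : ∀ b ∈ B, b ∈ Z ∨ ∃ ζ ∈ Z, b = x * ζ := by
      intro b hb
      rw [hB, mem_sup_of_normal_left] at hb
      obtain ⟨ζ, hζ, w, ⟨i, rfl⟩, rfl⟩ := hb
      simp only
      rcases hpar x i with h1 | h1
      · left; exact mul_mem hζ h1
      · right
        refine ⟨ζ * (x ^ i * x⁻¹), mul_mem hζ h1, ?_⟩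
        rw [← mul_assoc, mem_center_iff.mp hζ x, mul_assoc, mem_center_iff.mp h1 x]
        group
    have hBc : ∀ a b : B, a * b = b * a := by
      intro a b
      apply Subtype.ext
      show (a : K) * b = b * a
      rcases hform a a.2 with h1 | ⟨ζ, hζ, h1⟩
      · exact (mem_center_iff.mp h1 b).symm
      · rcases hform b b.2 with h2 | ⟨η, hη, h2⟩
        · exact mem_center_iff.mp h2 a
        · rw [h1, h2]
          have e1 := mem_center_iff.mp hζ
          have e2 := mem_center_iff.mp hη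
          calc x * ζ * (x * η) = x * (ζ * x) * η := by group
            _ = x * (x * ζ) * η := by rw [← e1 x]
            _ = x * x * (ζ * η) := by group
            _ = x * x * (η * ζ) := by rw [e2 ζ]
            _ = x * (x * η) * ζ := by group
            _ = x * (η * x) * ζ := by rw [e2 x]
            _ = x * η * (x * ζ) := by group
    have hZB : Z < B := by
      rw [lt_iff_le_and_ne]
      exact ⟨le_sup_left, fun h => hx (by rw [h]; exact hxB)⟩
    have h8 : 8 ≤ Nat.card B := by
      obtain ⟨k, hk⟩ := Subgroup.card_dvd_of_le hZB.le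
      have h2 : k ≠ 1 := by
        rintro rfl
        exact hZB.ne (Subgroup.eq_of_le_of_card_ge hZB.le (by rw [hk, mul_one]))
      have h3 : k ≠ 0 := by
        rintro rfl
        have := Nat.card_pos (α := B)
        omega
      have h5 : 2 ≤ k := by omega
      have := Nat.mul_le_mul h4 h5
      omega
    have hBcyc : IsCyclic B := by
      by_contra hc
      exact hn (NC.of_subgroup (nc_of_abelian (hK.to_subgroup B) hBc hc h8))
    obtain ⟨b, hb⟩ := hBcyc
    have hbZ : (b : K) ∉ Z := by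
      intro h
      apply hx
      obtain ⟨i, hi⟩ := hb ⟨x, hxB⟩
      have := congrArg Subtype.val hi
      simp only [Subgroup.coe_zpow] at this
      rw [← this]
      exact zpow_mem h i
    obtain ⟨ζ, hζ, hbx⟩ := (hform b b.2).resolve_left hbZ
    refine ⟨ζ, hζ, ?_⟩
    intro u hu
    obtain ⟨i, hi⟩ := hb ⟨u, hZB.le hu⟩
    have hi' : (b : K) ^ i = u := by
      have := congrArg Subtype.val hi
      simpa using this
    rcases Int.even_or_odd' i with ⟨m, rfl | rfl⟩
    · refine ⟨m, ?_⟩
      simp only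
      rw [← hi', ← hbx, zpow_mul]
      norm_cast
    · exfalso
      apply hbZ
      have h1 : (b : K) = ((b : K) ^ (2 * m))⁻¹ * u := by
        rw [← hi', zpow_add, zpow_one]; group
      rw [h1]
      refine mul_mem (inv_mem ?_) hu
      rw [zpow_mul]
      exact zpow_mem (by exact_mod_cast hsq b) m
  have hn1 : n = 1 := by
    by_contra hn1
    have hx₀ : x₀ ∉ Z := fun h => hxy₀ ((mem_center_iff.mp h y₀).symm)
    obtain ⟨ζ, hζ, hx⟩ := key hn1 x₀ hx₀
    set x := x₀ * ζ with hxdef
    have hxy : x * y₀ ≠ y₀ * x := by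
      intro h
      apply hxy₀
      rw [hxdef] at h
      have e1 := mem_center_iff.mp hζ
      have h2 : x₀ * y₀ * ζ = y₀ * x₀ * ζ := by
        calc x₀ * y₀ * ζ = x₀ * (y₀ * ζ) := by group
          _ = x₀ * ζ * y₀ := by rw [e1 y₀]; group
          _ = y₀ * (x₀ * ζ) := h
          _ = y₀ * x₀ * ζ := by group
      exact mul_right_cancel h2
    obtain ⟨m, hm⟩ := hx (hsq y₀)
    simp only at hm
    set a := (x ^ m)⁻¹ with ha
    set w := a * y₀ with hw
    have hwZ : w ∉ Z := by
      intro h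
      have h1 := mem_center_iff.mp h x
      apply hxy
      have h2 : x * a = a * x := by rw [ha]; group
      have h3 : a * (x * y₀) = a * (y₀ * x) := by
        calc a * (x * y₀) = (a * x) * y₀ := by group
          _ = x * (a * y₀) := by rw [← h2]; group
          _ = (a * y₀) * x := h1
          _ = a * (y₀ * x) := by group
      exact mul_left_cancel h3
    -- `w² = [y₀, a]`
    have hc : ⁅y₀, a⁆ ∈ Z := hcomm y₀ a
    have ha2 : a ^ 2 = ((x ^ 2) ^ m)⁻¹ := by
      rw [ha, inv_pow]
      congr 1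
      rw [← zpow_natCast, ← zpow_natCast, ← zpow_mul, ← zpow_mul, mul_comm]
    have hw2 : w ^ 2 = ⁅y₀, a⁆ := by
      have e1 := mem_center_iff.mp hc
      have h1 : y₀ * a = ⁅y₀, a⁆ * (a * y₀) := by rw [commutatorElement_def]; group
      have h2 : w ^ 2 = ⁅y₀, a⁆ * (a ^ 2 * y₀ ^ 2) := by
        calc w ^ 2 = a * (y₀ * a) * y₀ := by rw [hw, pow_two]; group
          _ = a * ⁅y₀, a⁆ * (a * y₀ * y₀) := by rw [h1]; group
          _ = ⁅y₀, a⁆ * a * (a * y₀ * y₀) := by rw [e1 a]
          _ = ⁅y₀, a⁆ * (a ^ 2 * y₀ ^ 2) := by rw [pow_two, pow_two]; group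
      rw [h2, ha2, hm, inv_mul_cancel, mul_one]
    have hw4 : (w ^ 2) ^ 2 = 1 := by
      rw [hw2]
      -- `[y, a]² = [y², a]`
      have e1 := mem_center_iff.mp hc
      have h1 : y₀ * a = ⁅y₀, a⁆ * (a * y₀) := by rw [commutatorElement_def]; group
      have h2 : y₀ ^ 2 * a = ⁅y₀, a⁆ ^ 2 * (a * y₀ ^ 2) := by
        calc y₀ ^ 2 * a = y₀ * (y₀ * a) := by rw [pow_two]; group
          _ = y₀ * ⁅y₀, a⁆ * (a * y₀) := by rw [h1]; group
          _ = ⁅y₀, a⁆ * (y₀ * a) * y₀ := by rw [e1 y₀]; group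
          _ = ⁅y₀, a⁆ * (⁅y₀, a⁆ * (a * y₀)) * y₀ := by rw [← h1]
          _ = ⁅y₀, a⁆ ^ 2 * (a * y₀ ^ 2) := by rw [pow_two, pow_two]; group
      have h3 := mem_center_iff.mp (hsq y₀) a
      rw [h3] at h2
      have h4 : (1 : K) * (y₀ ^ 2 * a) = ⁅y₀, a⁆ ^ 2 * (y₀ ^ 2 * a) := by rw [one_mul, ← h2]
      exact (mul_right_cancel h4).symm
    obtain ⟨η, hη, hwη⟩ := key hn1 w hwZ
    have hη' : (w * η) ^ 2 = w ^ 2 * η ^ 2 := by
      have : Commute w η := mem_center_iff.mp hη w
      exact this.mul_pow 2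
    have hηcard : η ^ (2 ^ n) = 1 := by
      have h1 : (⟨η, hη⟩ : Z) ^ Nat.card Z = 1 := pow_card_eq_one'
      rw [hZcard] at h1
      simpa using congrArg Subtype.val h1
    have h1 : ((w * η) ^ 2) ^ (2 ^ (n - 1)) = 1 := by
      rw [hη']
      have hcm : Commute (w ^ 2) (η ^ 2) := by
        have : Commute w η := mem_center_iff.mp hη w
        exact this.pow_pow 2 2
      rw [hcm.mul_pow]
      have e1 : (2 : ℕ) ^ (n - 1) = 2 * 2 ^ (n - 2) := by
        rw [← pow_succ']; congr 1; omega
      have e2 : (w ^ 2) ^ 2 ^ (n - 1) = 1 := by rw [e1, pow_mul, hw4, one_pow]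
      have e3 : (η ^ 2) ^ 2 ^ (n - 1) = 1 := by
        rw [← pow_mul, ← pow_succ', Nat.sub_add_cancel (by omega)]; exact hηcard
      rw [e2, e3, mul_one]
    have h2 : Nat.card Z ≤ Nat.card (zpowers ((w * η) ^ 2)) :=
      Subgroup.card_le_of_le hwη
    rw [Nat.card_zpowers, hZcard] at h2
    have h3 := Nat.le_of_dvd (by positivity) (orderOf_dvd_of_pow_eq_one h1)
    have h4 : 2 ^ (n - 1) < 2 ^ n := Nat.pow_lt_pow_right (by norm_num) (by omega)
    omega
  subst hn1
  rw [pow_one] at hZcard
  obtain ⟨z, hz⟩ := exists_ne (1 : Z)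
  have hz1 : (z : K) ≠ 1 := fun h => hz (Subtype.ext h)
  have hz2 : (z : K) ^ 2 = 1 := by
    have h1 : z ^ Nat.card Z = 1 := pow_card_eq_one'
    rw [hZcard] at h1
    simpa using congrArg Subtype.val h1
  have hle : center K ≤ zpowers (z : K) := by
    intro c hc
    have h1 : orderOf (z : K) = 2 := orderOf_eq_prime hz2 hz1
    have h2 : zpowers (z : K) = Z := by
      apply Subgroup.eq_of_le_of_card_ge
      · rw [zpowers_le]; exact z.2
      · rw [Nat.card_zpowers, h1, hZcard]
    rw [h2]; exact hc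
  refine ⟨z, orderOf_eq_prime hz2 hz1, z.2, fun x y => hle (hcomm x y), fun x => hle (hsq x), hle⟩

theorem four_or_q8 {P : Type u} [Group P] [Finite P] (hP : IsPGroup 2 P) (φ : MulAut P)
    (hφ : (orderOf φ).Coprime 2) (hφ1 : φ ≠ 1) (hn : ¬ NC P) :
    IsKleinFour P ∨ Nonempty (P ≃* QuaternionGroup 2) := by
  classical
  haveI : Fact (Nat.Prime 2) := ⟨Nat.prime_two⟩
  obtain ⟨K, hKc, hF, hKP, hC, hpow⟩ := Critical.exists_critical hP
  haveI hKn : K.Normal := Subgroup.normal_of_characteristic K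
  set ψ := NarrowAut.restrictAut K φ with hψdef
  have hψφ : ∀ x : K, ((ψ x : K) : P) = φ x := fun x => NarrowAut.restrictAut_apply K φ x
  have hψ : (orderOf ψ).Coprime 2 := Nat.Coprime.coprime_dvd_left (orderOf_map_dvd _ φ) hφ
  have hψ1 : ψ ≠ 1 := by
    intro h
    apply hφ1
    apply Critical.eq_one_of_self_centralizing hP K hKn hC φ hφ
    intro x hx
    have h1 := hψφ ⟨x, hx⟩
    rw [h] at h1
    exact h1.symm
  have hnK : ¬ NC K := fun h => hn h.of_subgroup
  have hKp : IsPGroup 2 K := hP.to_subgroup K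
  by_cases hKa : ∀ x y : K, x * y = y * x
  · have hcy : ¬ IsCyclic K := fun h => hψ1 (eq_one_of_cyclic hKp h hψ)
    have h8 : Nat.card K < 8 := by
      by_contra h
      push Not at h
      exact hnK (nc_of_abelian hKp hKa hcy h)
    obtain ⟨k, hk⟩ := IsPGroup.iff_card.mp hKp
    have hk3 : k < 3 := by
      by_contra h
      have : 2 ^ 3 ≤ 2 ^ k := Nat.pow_le_pow_right (by norm_num) (by omega)
      omega
    have hk2 : k = 2 := by
      rcases (by omega : k = 0 ∨ k = 1 ∨ k = 2) with rfl | rfl | rfl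
      · exfalso
        apply hcy
        haveI : Subsingleton K := (Nat.card_eq_one_iff_unique.mp (by rw [hk, pow_zero])).1
        exact isCyclic_of_subsingleton
      · exfalso
        apply hcy
        exact isCyclic_of_prime_card (p := 2) (by rw [hk, pow_one])
      · rfl
    have hV : IsKleinFour K := klein_of_card (by rw [hk, hk2]; norm_num) hcy
    have hc := central_of_klein hP φ K hV ψ hψφ (klein_order hV hψ hψ1)
    have htop : K = ⊤ := by
      rw [eq_top_iff]
      intro g _
      apply hC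
      rw [mem_centralizer_iff]
      intro k hk
      exact (mem_center_iff.mp (hc hk) g).symm
    left
    subst htop
    have e : (⊤ : Subgroup P) ≃* P := Subgroup.topEquiv
    refine ⟨?_, ?_⟩
    · rw [← Nat.card_congr e.toEquiv]; exact hV.card_four
    · rw [← Monoid.exponent_eq_of_mulEquiv e]; exact hV.exponent_two
  · push Not at hKa
    have hcK : ∀ x : K, (x : P) ∈ centralizer (K : Set P) → x ∈ center K := by
      intro x hx
      rw [mem_center_iff]
      intro g
      exact Subtype.ext (mem_centralizer_iff.mp hx g g.2)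
    obtain ⟨z, hz⟩ := xs_of_class2 hKp (by
      intro x y
      apply hcK
      have h1 : ⁅(x : P), (y : P)⁆ ∈ ⁅K, (⊤ : Subgroup P)⁆ := commutator_mem_commutator x.2 (mem_top _)
      exact (hKP h1).2) (fun x => hcK _ (by simpa using hpow x x.2)) hnK hKa
    have hψz : ψ z = z := by
      have h1 : ψ z ∈ center K := by
        have hc := hz.cen
        rw [mem_center_iff] at hc ⊢
        intro g
        have := congrArg ψ (hc (ψ.symm g))
        simpa using this
      rcases hz.two_cases (hz.center_le h1) with h2 | h2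
      · exact absurd (by simpa using h2) hz.z_ne_one
      · exact h2
    obtain ⟨e⟩ := q8_of_XS hz ψ hψ hψ1 hψz hnK
    have htop : K = ⊤ := by
      rw [eq_top_iff]
      intro g _
      obtain ⟨q, hq, hqg⟩ := inner_of_q8 hP φ K e ψ hψφ hψ hψ1 g
      have h2 := mul_mem hq (hC hqg)
      simpa using h2
    right
    subst htop
    exact ⟨Subgroup.topEquiv.symm.trans e⟩

end Cfsg.Agent.Lib.H30NagC
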