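import Mathlib
import Cfsg.Agent.Lib.H30NagC
import Cfsg.Agent.Lib.FrattiniQuot
import Cfsg.Agent.Lib.H70Frattini
import Cfsg.Agent.Lib.CoprimeAction2

/-! 2-groups in which every proper invariant subgroup has no noncyclic abelian subgroup of order 8. (helper30) -/

set_option autoImplicit false

open Subgroup
open scoped commutatorElement

universe u v

namespace Cfsg.Agent.Lib.H30NagD

open H30NagA H30NagB H30NagC Extraspecial

theorem abs_version {P : Type u} [Group P] [Finite P] (hP : IsPGroup 2 P) (A : Subgroup (MulAut P))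
    (hA : (Nat.card A).Coprime 2)
    (hGA : Subgroup.closure {x : P | ∃ g : P, ∃ a ∈ A, x = g⁻¹ * a g} = ⊤)
    (hchar : ∀ K : Subgroup P, K.Characteristic → K ≠ ⊤ → ¬ NC K) (hNC : NC P) :
    (∀ x y : P, x * y = y * x) ∨ (Cfsg.IsExtraspecial 2 P ∧ 32 ≤ Nat.card P) ∨
      (Cfsg.IsSpecial 2 P ∧ Nat.card (center P) = 4) := by
  classical
  haveI : Fact (Nat.Prime 2) := ⟨Nat.prime_two⟩
  by_cases hna : ∀ x y : P, x * y = y * x
  · exact Or.inl hna
  right
  push Not at hna
  have hAo : ∀ a ∈ A, (orderOf a).Coprime 2 := by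
    intro a ha
    refine Nat.Coprime.coprime_dvd_left ?_ hA
    have : orderOf (⟨a, ha⟩ : A) ∣ Nat.card A := orderOf_dvd_natCard _
    rwa [Subgroup.orderOf_mk] at this
  obtain ⟨K, hKc, hF, hKP, hC, hpow⟩ := Critical.exists_critical hP
  haveI hKn : K.Normal := Subgroup.normal_of_characteristic K
  have hKtop : K = ⊤ := by
    by_contra hKt
    have hnK := hchar K hKc hKt
    obtain ⟨a, ha, ha1⟩ : ∃ a ∈ A, a ≠ 1 := by
      by_contra hne
      push Not at hne
      apply hKt
      have h1 : Subgroup.closure {x : P | ∃ g : P, ∃ a ∈ A, x = g⁻¹ * a g} ≤ K := by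
        rw [closure_le]
        rintro _ ⟨g, a, ha, rfl⟩
        rw [hne a ha, MulAut.one_apply, inv_mul_cancel]
        exact one_mem _
      rw [hGA] at h1
      exact top_le_iff.mp h1
    set ψ := NarrowAut.restrictAut K a with hψdef
    have hψφ : ∀ x : K, ((ψ x : K) : P) = a x := fun x => NarrowAut.restrictAut_apply K a x
    have hψ : (orderOf ψ).Coprime 2 := Nat.Coprime.coprime_dvd_left (orderOf_map_dvd _ a) (hAo a ha)
    have hψ1 : ψ ≠ 1 := by
      intro h
      apply ha1
      apply Critical.eq_one_of_self_centralizing hP K hKn hC a (hAo a ha)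
      intro x hx
      have h1 := hψφ ⟨x, hx⟩
      rw [h] at h1
      exact h1.symm
    apply hKt
    rcases four_or_q8 (hP.to_subgroup K) ψ hψ hψ1 hnK with hV | ⟨⟨e⟩⟩
    · have hc := central_of_klein hP a K hV ψ hψφ (klein_order hV hψ hψ1)
      rw [eq_top_iff]
      intro g _
      apply hC
      rw [mem_centralizer_iff]
      intro k hk
      exact (mem_center_iff.mp (hc hk) g).symm
    · rw [eq_top_iff]
      intro g _
      obtain ⟨q, hq, hqg⟩ := inner_of_q8 hP a K e ψ hψφ hψ hψ1 g
      have h2 := mul_mem hq (hC hqg)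
      simpa using h2
  have hcen : ∀ x : P, x ∈ centralizer (K : Set P) → x ∈ center P := by
    intro x hx
    rw [mem_center_iff]
    intro g
    exact mem_centralizer_iff.mp hx g (by rw [hKtop]; trivial)
  have hcomm : ∀ x y : P, ⁅x, y⁆ ∈ center P := by
    intro x y
    apply hcen
    exact (hKP (commutator_mem_commutator (by rw [hKtop]; trivial) (mem_top _))).2
  have hsq : ∀ x : P, x ^ 2 ∈ center P := fun x => hcen _ (hpow x (by rw [hKtop]; trivial))
  obtain ⟨x₀, y₀, hxy₀⟩ := hna
  have hne : center P ≠ ⊤ := by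
    intro h
    apply hxy₀
    have h1 : x₀ ∈ center P := by rw [h]; trivial
    exact (mem_center_iff.mp h1 y₀).symm
  have hnZ : ¬ NC (center P) := hchar _ inferInstance hne
  have hZp : IsPGroup 2 (center P) := hP.to_subgroup _
  have hZc : ∀ a b : center P, a * b = b * a := fun a b => Subtype.ext ((mem_center_iff.mp b.2 a))
  have hcomle : commutator P ≤ center P := by
    rw [commutator_def, commutator_le]
    intro x _ y _
    exact hcomm x y
  have hFle : frattini P ≤ center P := FrattiniQuot.frattini_le_of_squares _ hsq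
  have hCF : commutator P ≤ frattini P := H70Frattini.commutator_le_frattini hP
  -- squares of elements of the commutator subgroup
  have hcom2 : ∀ c ∈ commutator P, c ^ 2 = 1 := by
    intro c hc
    rw [commutator_def] at hc
    rw [Subgroup.commutator_def] at hc
    have hgen : ∀ c ∈ Subgroup.closure {g | ∃ g₁ ∈ (⊤ : Subgroup P), ∃ g₂ ∈ (⊤ : Subgroup P), ⁅g₁, g₂⁆ = g},
        c ∈ center P ∧ c ^ 2 = 1 := by
      intro c hc
      induction hc using closure_induction with
      | mem c hc =>
        obtain ⟨x, -, y, -, rfl⟩ := hc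
        refine ⟨hcomm x y, ?_⟩
        have e1 := mem_center_iff.mp (hcomm x y)
        have h1 : x * y = ⁅x, y⁆ * (y * x) := by rw [commutatorElement_def]; group
        have h2 : x ^ 2 * y = ⁅x, y⁆ ^ 2 * (y * x ^ 2) := by
          calc x ^ 2 * y = x * (x * y) := by rw [pow_two]; group
            _ = x * ⁅x, y⁆ * (y * x) := by rw [h1]; group
            _ = ⁅x, y⁆ * (x * y) * x := by rw [e1 x]; group
            _ = ⁅x, y⁆ * (⁅x, y⁆ * (y * x)) * x := by rw [← h1]
            _ = ⁅x, y⁆ ^ 2 * (y * x ^ 2) := by rw [pow_two, pow_two]; group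
        have h3 := mem_center_iff.mp (hsq x) y
        rw [h3] at h2
        have h4 : (1 : P) * (x ^ 2 * y) = ⁅x, y⁆ ^ 2 * (x ^ 2 * y) := by rw [one_mul, ← h2]
        exact (mul_right_cancel h4).symm
      | one => exact ⟨one_mem _, one_pow _⟩
      | mul a b _ _ ha hb =>
        refine ⟨mul_mem ha.1 hb.1, ?_⟩
        have hab : Commute a b := mem_center_iff.mp hb.1 a
        rw [hab.mul_pow, ha.2, hb.2, mul_one]
      | inv a _ ha =>
        refine ⟨inv_mem ha.1, ?_⟩
        rw [inv_pow, ha.2, inv_one]
    exact (hgen c hc).2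
  have hc1 : commutator P ≠ ⊥ := by
    intro h
    apply hxy₀
    have h1 : ⁅x₀, y₀⁆ ∈ commutator P := commutator_mem_commutator (mem_top _) (mem_top _)
    rw [h, mem_bot] at h1
    exact commutatorElement_eq_one_iff_mul_comm.mp h1
  have hspec : center P ≤ commutator P → Cfsg.IsSpecial 2 P := by
    intro h
    have h1 : commutator P = center P := le_antisymm hcomle h
    exact ⟨hP, le_antisymm hFle (h1 ▸ hCF), h1⟩
  have hfixcase : (∀ a ∈ A, ∀ z ∈ center P, a z = z) → center P ≤ commutator P := by
    intro h z hz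
    apply Critical.mem_commutator_of_fixed hP A hA hGA
    intro a ha
    rw [h a ha z hz, inv_mul_cancel]
    exact one_mem _
  by_cases hcy : IsCyclic (center P)
  · left
    have hfix : ∀ a ∈ A, ∀ z ∈ center P, a z = z := by
      intro a ha z hz
      have h1 := eq_one_of_cyclic hZp hcy (ψ := NarrowAut.restrictAut (center P) a)
        (Nat.Coprime.coprime_dvd_left (orderOf_map_dvd _ a) (hAo a ha))
      have h2 := NarrowAut.restrictAut_apply (center P) a ⟨z, hz⟩
      rw [h1] at h2
      exact h2.symm
    have hle := hfixcase hfix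
    have hsp := hspec hle
    have hcard : Nat.card (center P) = 2 := by
      obtain ⟨g, hg⟩ := hcy
      have h1 : orderOf g = Nat.card (center P) := orderOf_eq_card_of_forall_mem_zpowers hg
      have h2 : orderOf g ∣ 2 := orderOf_dvd_of_pow_eq_one (Subtype.ext (by
        simpa using hcom2 g (hle g.2)))
      rw [h1] at h2
      rcases (Nat.dvd_prime Nat.prime_two).mp h2 with h3 | h3
      · exfalso
        apply hc1
        rw [eq_bot_iff]
        refine hcomle.trans ?_
        rw [(Subgroup.card_eq_one).mp h3]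
      · exact h3
    refine ⟨⟨hsp, hcard⟩, ?_⟩
    obtain ⟨z, hz⟩ := XS.of_extraspecial (p := 2) ⟨hsp, hcard⟩
    obtain ⟨n, hn, hn1⟩ := hz.exists_card
    have hn1' := hn1 ⟨x₀, y₀, hxy₀⟩
    have hn2 : n ≠ 1 := by
      rintro rfl
      obtain ⟨B, hB1, hB2, hB3⟩ := hNC
      have hBt : B = ⊤ := by
        apply Subgroup.eq_top_of_card_eq
        rw [hB3, hn]; norm_num
      apply hxy₀
      exact (isMulCommutative_iff_of_setLike.mp hB1) x₀ (by rw [hBt]; trivial) y₀ (by rw [hBt]; trivial)
    rw [hn]
    calc 32 = 2 ^ (2 * 2 + 1) := by norm_num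
      _ ≤ 2 ^ (2 * n + 1) := Nat.pow_le_pow_right (by norm_num) (by omega)
  · right
    have h8 : Nat.card (center P) < 8 := by
      by_contra h
      push Not at h
      exact hnZ (nc_of_abelian hZp hZc hcy h)
    obtain ⟨k, hk⟩ := IsPGroup.iff_card.mp hZp
    have hk3 : k < 3 := by
      by_contra h
      have : 2 ^ 3 ≤ 2 ^ k := Nat.pow_le_pow_right (by norm_num) (by omega)
      omega
    have hk2 : k = 2 := by
      rcases (by omega : k = 0 ∨ k = 1 ∨ k = 2) with rfl | rfl | rfl
      · exfalso
        apply hcy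
        haveI : Subsingleton (center P) := (Nat.card_eq_one_iff_unique.mp (by rw [hk, pow_zero])).1
        exact isCyclic_of_subsingleton
      · exfalso
        apply hcy
        exact isCyclic_of_prime_card (p := 2) (by rw [hk, pow_one])
      · rfl
    have hZ4 : Nat.card (center P) = 4 := by rw [hk, hk2]; norm_num
    refine ⟨?_, hZ4⟩
    have hV : IsKleinFour (center P) := klein_of_card hZ4 hcy
    apply hspec
    by_cases hfix : ∀ a ∈ A, ∀ z ∈ center P, a z = z
    · exact hfixcase hfix
    · push Not at hfix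
      obtain ⟨a, ha, z, hz, haz⟩ := hfix
      have hψ : (orderOf (NarrowAut.restrictAut (center P) a)).Coprime 2 :=
        Nat.Coprime.coprime_dvd_left (orderOf_map_dvd _ a) (hAo a ha)
      have hψ1 : NarrowAut.restrictAut (center P) a ≠ 1 := by
        intro h
        apply haz
        have h2 := NarrowAut.restrictAut_apply (center P) a ⟨z, hz⟩
        rw [h] at h2
        exact h2.symm
      have h1 := klein_irr hV (klein_order hV hψ hψ1) ((commutator P).subgroupOf (center P)) (by
        intro h
        apply hc1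
        rw [eq_bot_iff]
        intro c hc
        have h2 : (⟨c, hcomle hc⟩ : center P) ∈ (commutator P).subgroupOf (center P) := hc
        rw [h, mem_bot] at h2
        rw [mem_bot]
        exact congrArg Subtype.val h2) (by
        intro l hl
        rw [mem_subgroupOf] at hl ⊢
        rw [NarrowAut.restrictAut_apply]
        have h3 : (commutator P).map a.toMonoidHom = commutator P := (characteristic_iff_map_eq.mp inferInstance) a
        rw [← h3]
        exact ⟨_, hl, rfl⟩)
      intro c hc
      have h2 : (⟨c, hc⟩ : center P) ∈ (commutator P).subgroupOf (center P) := by rw [h1]; trivial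
      exact h2

end Cfsg.Agent.Lib.H30NagD
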