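import Mathlib
import Cfsg.Agent.Lib.H30NagD

/-! Thompson's lemma on minimal solvable groups with a noncyclic abelian subgroup of order 8:
the case of a normal Sylow 2-subgroup. (helper30) -/

set_option autoImplicit false

open Subgroup
open scoped commutatorElement

universe u v

namespace Cfsg.Agent.Lib.H30NagE

open H30NagA H30NagB H30NagC H30NagD Extraspecial

variable {S : Type u} [Group S] [Finite S]

theorem exists_sq_mem {C N : Subgroup S} {c : S} (hc : c ∈ C) (hcN : c ∉ N) (h2 : ∃ k : ℕ, c ^ 2 ^ k = 1) :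
    ∃ d ∈ C, d ∉ N ∧ d ^ 2 ∈ N := by
  classical
  have hex : ∃ k : ℕ, c ^ 2 ^ k ∈ N := by
    obtain ⟨k, hk⟩ := h2
    exact ⟨k, by rw [hk]; exact one_mem _⟩
  have h1 := Nat.find_spec hex
  have h0 : Nat.find hex ≠ 0 := by
    intro h
    rw [h, pow_zero, pow_one] at h1
    exact hcN h1
  obtain ⟨m, hm⟩ := Nat.exists_eq_succ_of_ne_zero h0
  refine ⟨c ^ 2 ^ m, pow_mem hc _, Nat.find_min hex (by omega), ?_⟩
  rw [hm] at h1
  rw [← pow_mul, ← pow_succ]
  exact h1

/-- the action of `S` on a normal subgroup of the normal subgroup `X` -/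
noncomputable def act (X N : Subgroup S) (hN : N ≤ X) [N.Normal] : S →* MulAut (N.subgroupOf X) :=
  (MulAut.congr (subgroupOfEquivOfLe hN).symm).toMonoidHom.comp MulAut.conjNormal

theorem act_apply (X N : Subgroup S) (hN : N ≤ X) [N.Normal] (s : S) (x : N.subgroupOf X) :
    (((act X N hN s x : N.subgroupOf X) : X) : S) = s * (x : X) * s⁻¹ := rfl

theorem nc_of_comm {X : Subgroup S} (hX : IsPGroup 2 X) (X₀ : Subgroup S) (hX₀ : X₀ ≤ X)
    (hc : ∀ a ∈ X₀, ∀ b ∈ X₀, a * b = b * a) (hcy : ¬ IsCyclic X₀) (h8 : 8 ≤ Nat.card X₀) : NC X₀ :=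
  nc_of_abelian (hX.to_le hX₀) (fun a b => Subtype.ext (hc a a.2 b b.2)) hcy h8

theorem NC.mono {A B : Subgroup S} (h : A ≤ B) (hA : NC A) : NC B :=
  NC.map (Subgroup.inclusion h) (Subgroup.inclusion_injective h) hA

theorem step_card {B C : Subgroup S} (hBC : B < C) : 2 * Nat.card B ≤ Nat.card C := by
  obtain ⟨k, hk⟩ := Subgroup.card_dvd_of_le hBC.le
  have h2 : k ≠ 1 := by
    rintro rfl
    exact hBC.ne (Subgroup.eq_of_le_of_card_ge hBC.le (by rw [hk, mul_one]))
  have h3 : k ≠ 0 := by
    rintro rfl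
    have := Nat.card_pos (α := C)
    omega
  rw [hk, mul_comm]
  exact Nat.mul_le_mul_left _ (by omega)

theorem norm_sup {N H : Subgroup S} [hN : N.Normal] {d : S} (h : ∀ k ∈ H, k * d * k⁻¹ ∈ N ⊔ zpowers d) :
    H ≤ normalizer ((N ⊔ zpowers d : Subgroup S) : Set S) := by
  have key : ∀ k ∈ H, ∀ x ∈ N ⊔ zpowers d, k * x * k⁻¹ ∈ N ⊔ zpowers d := by
    intro k hk x hx
    rw [mem_sup_of_normal_left] at hx
    obtain ⟨n, hn, _, ⟨i, rfl⟩, rfl⟩ := hx
    have h1 : k * (n * d ^ i) * k⁻¹ = (k * n * k⁻¹) * (k * d * k⁻¹) ^ i := by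
      rw [conj_zpow]; group
    simp only
    rw [h1]
    exact mul_mem (mem_sup_left (hN.conj_mem n hn k)) (zpow_mem (h k hk) i)
  intro k hk
  rw [mem_normalizer_iff]
  intro x
  refine ⟨key k hk x, fun hx => ?_⟩
  have := key k⁻¹ (inv_mem hk) _ hx
  simpa [mul_assoc] using this

theorem klein_not_cyclic {V : Type*} [Group V] (hV : IsKleinFour V) : ¬ IsCyclic V := by
  haveI := KleinAut.finite_of_klein hV
  rintro ⟨g, hg⟩
  have h1 : orderOf g = Nat.card V := orderOf_eq_card_of_forall_mem_zpowers hg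
  have h2 : orderOf g ∣ 2 := by rw [← hV.exponent_two]; exact Monoid.order_dvd_exponent g
  rw [h1, hV.card_four] at h2
  omega

theorem normal_case {X H : Subgroup S} [hXn : X.Normal] (hX : IsPGroup 2 X) (hH : Odd (Nat.card H))
    (hXH : X ⊔ H = ⊤)
    (hinv : ∀ X₀ : Subgroup S, X₀ ≤ X → H ≤ normalizer (X₀ : Set S) → X₀ ≠ X → ¬ NC X₀) (hNC : NC X) :
    IsMulCommutative X ∨ (Cfsg.IsExtraspecial 2 X ∧ 32 ≤ Nat.card X) ∨
      (∃ X₀ : Subgroup S, X₀ ≤ X ∧ X₀.relIndex X = 2 ∧ Nonempty (X₀ ≃* QuaternionGroup 2) ∧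
        X₀ ⊔ (X ⊓ centralizer (X₀ : Set S)) = X) ∨
      (Cfsg.IsSpecial 2 X ∧ Nat.card (center X) = 4) := by
  classical
  haveI : Fact (Nat.Prime 2) := ⟨Nat.prime_two⟩
  have hcopH : (Nat.card H).Coprime 2 := by
    rw [Nat.coprime_comm]; exact Nat.coprime_two_left.mpr hH
  have hcop : (Nat.card H).Coprime (Nat.card X) := by
    obtain ⟨k, hk⟩ := IsPGroup.iff_card.mp hX
    rw [hk]
    exact Nat.Coprime.pow_right k hcopH
  haveI : Group.IsNilpotent X := hX.isNilpotent
  have hsolv : Group.IsSolvable X := inferInstance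
  have hHX : H ≤ normalizer (X : Set S) := by rw [Subgroup.normalizer_eq_top]; exact le_top
  set N : Subgroup S := ⁅X, H⁆ with hNdef
  have hNX : N ≤ X := le_normalizer_iff_commutator_le_left.mp hHX
  have hsup := CoprimeAction2.commutator_sup_centralizer hHX hcop (Or.inr hsolv)
  have hNN := CoprimeAction2.commutator_commutator hHX hcop (Or.inr hsolv)
  have hNn : N.Normal := by
    rw [← Subgroup.normalizer_eq_top_iff, ← top_le_iff, ← hXH]
    exact sup_le (normalizer_commutator_ge_left X H) (normalizer_commutator_ge_right X H)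
  by_cases hN1 : N = ⊥
  · -- trivial action
    left
    have hHc : X ≤ centralizer (H : Set S) := commutator_eq_bot_iff_le_centralizer.mp hN1
    obtain ⟨A, hA1, hA2, hA3⟩ := hNC
    set A' := A.map X.subtype with hA'
    have hA'X : A' ≤ X := map_subtype_le _
    have e : A ≃* A' := A.equivMapOfInjective _ X.subtype_injective
    have hA'c : IsMulCommutative A' := by
      rw [isMulCommutative_iff_of_setLike]
      rintro _ ⟨a, ha, rfl⟩ _ ⟨b, hb, rfl⟩
      rw [← map_mul, ← map_mul, (isMulCommutative_iff_of_setLike.mp hA1) a ha b hb]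
    by_cases hA'eq : A' = X
    · rw [← hA'eq]; exact hA'c
    · exfalso
      apply hinv A' hA'X _ hA'eq
      · refine ⟨⊤, ?_, ?_, ?_⟩
        · rw [isMulCommutative_iff_of_setLike]
          intro a _ b _
          exact Subtype.ext ((isMulCommutative_iff_of_setLike.mp hA'c) a a.2 b b.2)
        · intro hc
          apply hA2
          exact isCyclic_of_surjective ((Subgroup.topEquiv (G := A')).trans e.symm)
            ((Subgroup.topEquiv (G := A')).trans e.symm).surjective
        · rw [Nat.card_congr (Subgroup.topEquiv (G := A')).toEquiv, ← hA3]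
          exact (Nat.card_congr e.toEquiv).symm
      · intro h hh
        rw [mem_normalizer_iff]
        have hcm : ∀ a ∈ X, h * a * h⁻¹ = a := by
          intro a ha
          have := mem_centralizer_iff.mp (hHc ha) h hh
          rw [this]; group
        intro a
        constructor
        · intro ha; rw [hcm a (hA'X ha)]; exact ha
        · intro ha
          have h1 : h * a * h⁻¹ ∈ X := hA'X ha
          have h2 : a ∈ X := by
            have := hXn.conj_mem _ h1 h⁻¹
            simpa [mul_assoc] using this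
          rw [hcm a h2] at ha; exact ha
  -- some element of `H` acts nontrivially on `N`
  obtain ⟨h, hh, hhN⟩ : ∃ h ∈ H, ¬ (∀ n ∈ N, h * n * h⁻¹ = n) := by
    by_contra hne
    push Not at hne
    apply hN1
    rw [hNdef, ← hNN, commutator_eq_bot_iff_le_centralizer]
    intro n hn
    rw [mem_centralizer_iff]
    intro h hh
    have := hne h hh n hn
    rw [mul_inv_eq_iff_eq_mul] at this
    exact this
  have hho : (orderOf h).Coprime 2 := by
    refine Nat.Coprime.coprime_dvd_left ?_ hcopH
    have : orderOf (⟨h, hh⟩ : H) ∣ Nat.card H := orderOf_dvd_natCard _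
    rwa [Subgroup.orderOf_mk] at this
  by_cases hNeq : N = X
  · -- the main case: transfer to automorphisms
    set A : Subgroup (MulAut X) := H.map (MulAut.conjNormal : S →* MulAut X) with hAdef
    have hA : (Nat.card A).Coprime 2 := by
      refine Nat.Coprime.coprime_dvd_left ?_ hcopH
      exact Subgroup.card_map_dvd _ _
    have hGA : Subgroup.closure {x : X | ∃ g : X, ∃ a ∈ A, x = g⁻¹ * a g} = ⊤ := by
      set T := Subgroup.closure {x : X | ∃ g : X, ∃ a ∈ A, x = g⁻¹ * a g} with hT
      have h1 : N ≤ T.map X.subtype := by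
        rw [hNdef, commutator_le]
        intro g hg k hk
        refine ⟨(⟨g, hg⟩ : X)⁻¹⁻¹ * (MulAut.conjNormal k : MulAut X) (⟨g, hg⟩ : X)⁻¹, ?_, ?_⟩
        · exact subset_closure ⟨_, _, ⟨k, hk, rfl⟩, rfl⟩
        · simp only [Subgroup.coe_subtype, Subgroup.coe_mul, Subgroup.coe_inv, MulAut.conjNormal_apply, inv_inv]
          rw [commutatorElement_def]; group
      rw [hNeq] at h1
      rw [eq_top_iff]
      intro x _
      obtain ⟨y, hy, hyx⟩ := h1 x.2
      rw [← (Subtype.ext hyx : y = x)]; exact hy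
    have hchar : ∀ K : Subgroup X, K.Characteristic → K ≠ ⊤ → ¬ NC K := by
      intro K hK hKt hNK
      have hKn : (K.map X.subtype).Normal := inferInstance
      apply hinv (K.map X.subtype) (map_subtype_le _)
      · rw [Subgroup.normalizer_eq_top]; exact le_top
      · intro h1
        apply hKt
        rw [eq_top_iff]
        intro x _
        have hx : (x : S) ∈ K.map X.subtype := by rw [h1]; exact x.2
        obtain ⟨y, hy, hyx⟩ := hx
        rw [← (Subtype.ext hyx : y = x)]; exact hy
      · have e := K.equivMapOfInjective _ X.subtype_injective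
        exact NC.map e.toMonoidHom e.injective hNK
    rcases abs_version hX A hA hGA hchar hNC with h1 | h1 | h1
    · left
      rw [isMulCommutative_iff_of_setLike]
      intro a ha b hb
      exact congrArg Subtype.val (h1 ⟨a, ha⟩ ⟨b, hb⟩)
    · right; left; exact h1
    · right; right; right; exact h1
  -- `N < X`
  have hNH : H ≤ normalizer (N : Set S) := by rw [Subgroup.normalizer_eq_top]; exact le_top
  have hnN : ¬ NC N := hinv N hNX hNH hNeq
  have hNp : IsPGroup 2 N := hX.to_le hNX
  set φ : MulAut N := MulAut.conjNormal h with hφdef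
  have hφ : (orderOf φ).Coprime 2 := Nat.Coprime.coprime_dvd_left (orderOf_map_dvd _ h) hho
  have hφ1 : φ ≠ 1 := by
    intro h1
    apply hhN
    intro n hn
    have h2 := congrArg (fun f : MulAut N => ((f ⟨n, hn⟩ : N) : S)) h1
    simp only [hφdef, MulAut.conjNormal_apply, MulAut.one_apply] at h2
    exact h2
  -- action on `N.subgroupOf X`
  set ψ := act X N hNX h with hψdef
  set φX : MulAut X := MulAut.conjNormal h with hφX
  have hψφ : ∀ x : N.subgroupOf X, ((ψ x : N.subgroupOf X) : X) = φX x := by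
    intro x
    apply Subtype.ext
    rw [hψdef, act_apply, hφX, MulAut.conjNormal_apply]
  have hψ : (orderOf ψ).Coprime 2 := Nat.Coprime.coprime_dvd_left (orderOf_map_dvd _ h) hho
  have hψ1 : ψ ≠ 1 := by
    intro h1
    apply hhN
    intro n hn
    have h2 := act_apply X N hNX h ⟨⟨n, hNX hn⟩, hn⟩
    rw [← hψdef, h1] at h2
    exact h2.symm
  have eN : N.subgroupOf X ≃* N := subgroupOfEquivOfLe hNX
  have h2el : ∀ x ∈ X, ∃ k : ℕ, x ^ 2 ^ k = 1 := by
    intro x hx
    obtain ⟨k, hk⟩ := hX ⟨x, hx⟩
    exact ⟨k, by simpa using congrArg Subtype.val hk⟩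
  rcases four_or_q8 hNp φ hφ hφ1 hnN with hV | ⟨⟨e⟩⟩
  · -- `N` is a four group
    left
    have hφ3 := klein_order hV hφ hφ1
    have hV' : IsKleinFour (N.subgroupOf X) := ⟨by rw [Nat.card_congr eN.toEquiv]; exact hV.card_four, by
      rw [Monoid.exponent_eq_of_mulEquiv eN]; exact hV.exponent_two⟩
    have hcen := central_of_klein hX φX (N.subgroupOf X) hV' ψ hψφ (klein_order hV' hψ hψ1)
    have hNc : ∀ n ∈ N, ∀ x ∈ X, x * n = n * x := by
      intro n hn x hx
      have h1 : (⟨n, hNX hn⟩ : X) ∈ N.subgroupOf X := hn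
      have h2 := mem_center_iff.mp (hcen h1) ⟨x, hx⟩
      exact congrArg Subtype.val h2
    obtain ⟨c, hc, hcN⟩ : ∃ c ∈ X ⊓ centralizer (H : Set S), c ∉ N := by
      by_contra hne
      push Not at hne
      apply hNeq
      apply le_antisymm hNX
      rw [← hsup]
      exact sup_le le_rfl hne
    obtain ⟨d, hd, hdN, hd2⟩ := exists_sq_mem hc hcN (h2el c hc.1)
    have hd2' : d ^ 2 = 1 := by
      have h1 : φ ⟨d ^ 2, hd2⟩ = ⟨d ^ 2, hd2⟩ := by
        apply Subtype.ext
        rw [hφdef, MulAut.conjNormal_apply]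
        have h2 := mem_centralizer_iff.mp (pow_mem hd.2 2) h hh
        simp only
        rw [h2]; group
      have h2 := (KleinAut.fpf_of_orderOf hV hφ3).1 _ h1
      exact congrArg Subtype.val h2
    set X₀ : Subgroup S := N ⊔ zpowers d with hX₀
    have hX₀X : X₀ ≤ X := sup_le hNX (by rw [zpowers_le]; exact hd.1)
    have hX₀c : ∀ a ∈ X₀, ∀ b ∈ X₀, a * b = b * a := by
      intro a ha b hb
      rw [hX₀, mem_sup_of_normal_left] at ha hb
      obtain ⟨n, hn, _, ⟨i, rfl⟩, rfl⟩ := ha
      obtain ⟨m, hm, _, ⟨j, rfl⟩, rfl⟩ := hb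
      simp only
      have e1 : d ^ i * m = m * d ^ i := hNc m hm _ (zpow_mem (mem_inf.mp hd).1 i)
      have e2 : d ^ j * n = n * d ^ j := hNc n hn _ (zpow_mem (mem_inf.mp hd).1 j)
      have e3 : n * m = m * n := hNc m hm n (hNX hn)
      calc n * d ^ i * (m * d ^ j) = n * (d ^ i * m) * d ^ j := by group
        _ = (n * m) * (d ^ i * d ^ j) := by rw [e1]; group
        _ = (m * n) * (d ^ j * d ^ i) := by rw [e3, ← zpow_add, ← zpow_add, add_comm]
        _ = m * (n * d ^ j) * d ^ i := by group
        _ = m * d ^ j * (n * d ^ i) := by rw [← e2]; group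
    have hNX₀ : N < X₀ := by
      rw [lt_iff_le_and_ne]
      refine ⟨le_sup_left, fun h1 => hdN ?_⟩
      rw [h1]; exact mem_sup_right (mem_zpowers d)
    have h8 : 8 ≤ Nat.card X₀ := by
      have := step_card hNX₀
      rw [hV.card_four] at this
      omega
    have hcy : ¬ IsCyclic X₀ := by
      intro hc1
      have h1 : IsCyclic N := by
        have := isCyclic_of_injective (Subgroup.inclusion hNX₀.le) (Subgroup.inclusion_injective hNX₀.le)
        exact this
      exact klein_not_cyclic hV h1
    have hX₀eq : X₀ = X := by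
      by_contra hne
      apply hinv X₀ hX₀X _ hne (nc_of_comm hX X₀ hX₀X hX₀c hcy h8)
      apply norm_sup
      intro k hk
      have h4 : k * d * k⁻¹ = d := by
        rw [mem_centralizer_iff.mp (mem_inf.mp hd).2 k hk]; group
      rw [h4]
      exact mem_sup_right (mem_zpowers d)
    rw [isMulCommutative_iff_of_setLike, ← hX₀eq]
    exact hX₀c
  · -- `N` is quaternion
    right; right; left
    have eX : N.subgroupOf X ≃* QuaternionGroup 2 := eN.trans e
    have hin := inner_of_q8 hX φX (N.subgroupOf X) eX ψ hψφ hψ hψ1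
    have hDN : ∀ x ∈ X, ∃ q ∈ N, q⁻¹ * x ∈ X ⊓ centralizer (N : Set S) := by
      intro x hx
      obtain ⟨q, hq, hqx⟩ := hin ⟨x, hx⟩
      refine ⟨q, hq, mem_inf.mpr ⟨mul_mem (inv_mem q.2) hx, ?_⟩⟩
      rw [mem_centralizer_iff] at hqx ⊢
      intro n hn
      have := hqx ⟨n, hNX hn⟩ hn
      exact congrArg Subtype.val this
    obtain ⟨c, hc, hcN⟩ : ∃ c ∈ X ⊓ centralizer (N : Set S), c ∉ N := by
      by_contra hne
      push Not at hne
      apply hNeq
      apply le_antisymm hNX
      intro x hx
      obtain ⟨q, hq, hqx⟩ := hDN x hx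
      have := mul_mem hq (hne _ hqx)
      simpa using this
    obtain ⟨d, hd, hdN, hd2⟩ := exists_sq_mem hc hcN (h2el c (mem_inf.mp hc).1)
    have hdX := (mem_inf.mp hd).1
    have hdC := mem_centralizer_iff.mp (mem_inf.mp hd).2
    set X₀ : Subgroup S := N ⊔ zpowers d with hX₀
    have hX₀X : X₀ ≤ X := sup_le hNX (by rw [zpowers_le]; exact hdX)
    -- the element of order 4
    set i : S := ((e.symm (.a 1) : N) : S) with hi
    have hiN : i ∈ N := (e.symm (.a 1) : N).2
    have hdi : i * d = d * i := hdC i hiN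
    have hi4 : i ^ 4 = 1 := by
      have : (e.symm (.a 1) : N) ^ 4 = 1 := by
        rw [← map_pow, (by decide : (QuaternionGroup.a 1 : QuaternionGroup 2) ^ 4 = 1), map_one]
      exact congrArg Subtype.val this
    have hi2 : i ^ 2 ≠ 1 := by
      intro h1
      have h2 : (e.symm (.a 1) : N) ^ 2 = 1 := Subtype.ext h1
      rw [← map_pow, MulEquiv.map_eq_one_iff] at h2
      revert h2
      decide
    have hio : orderOf i = 4 := by
      have := orderOf_eq_prime_pow (p := 2) (n := 1) (x := i) (by simpa using hi2) (by simpa using hi4)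
      simpa using this
    have hd4 : d ^ 4 = 1 := by
      -- `d² ∈ Z(N)`
      have h1 : ∀ w : QuaternionGroup 2, w * e ⟨d ^ 2, hd2⟩ = e ⟨d ^ 2, hd2⟩ * w := by
        intro w
        obtain ⟨v, rfl⟩ := e.surjective w
        rw [← map_mul, ← map_mul]
        congr 1
        apply Subtype.ext
        have h2 : Commute (v : S) d := hdC v v.2
        exact (h2.pow_right 2)
      rcases (KleinAut.q8_center _).mp h1 with h2 | h2
      · have h3 : (⟨d ^ 2, hd2⟩ : N) = 1 := (MulEquiv.map_eq_one_iff e).mp h2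
        have h4 : d ^ 2 = 1 := congrArg Subtype.val h3
        rw [(by norm_num : 4 = 2 * 2), pow_mul, h4, one_pow]
      · have h3 : (⟨d ^ 2, hd2⟩ : N) ^ 2 = 1 := by
          apply e.injective
          rw [map_pow, h2, map_one]; decide
        have h4 : (d ^ 2) ^ 2 = 1 := congrArg Subtype.val h3
        rw [(by norm_num : 4 = 2 * 2), pow_mul]; exact h4
    set B : Subgroup S := closure {i, d} with hB
    have hBX₀ : B ≤ X₀ := by
      rw [hB, closure_le]
      rintro x (rfl | rfl)
      · exact mem_sup_left hiN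
      · exact mem_sup_right (mem_zpowers _)
    have hBc : ∀ a ∈ B, ∀ b ∈ B, a * b = b * a := by
      have := Subgroup.isMulCommutative_closure (k := ({i, d} : Set S)) (by
        rintro a (rfl | rfl) b (rfl | rfl)
        · rfl
        · exact hdi
        · exact hdi.symm
        · rfl)
      exact isMulCommutative_iff_of_setLike.mp this
    have hB4 : ∀ b ∈ B, b ^ 4 = 1 := by
      intro b hb
      rw [hB] at hb
      induction hb using closure_induction with
      | mem b hb =>
        rcases hb with rfl | rfl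
        · exact hi4
        · exact hd4
      | one => exact one_pow 4
      | mul a b ha hb ha' hb' =>
        have hab : Commute a b := hBc a ha b hb
        rw [hab.mul_pow, ha', hb', mul_one]
      | inv a _ ha => rw [inv_pow, ha, inv_one]
    have hiB : zpowers i < B := by
      rw [lt_iff_le_and_ne]
      refine ⟨by rw [zpowers_le]; exact subset_closure (by simp), fun h1 => hdN ?_⟩
      have h2 : d ∈ B := subset_closure (by simp)
      rw [← h1] at h2
      exact (zpowers_le.mpr hiN) h2
    have h8 : 8 ≤ Nat.card B := by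
      have := step_card hiB
      rw [Nat.card_zpowers, hio] at this
      omega
    have hcy : ¬ IsCyclic B := by
      rintro ⟨g, hg⟩
      have h1 : orderOf g = Nat.card B := orderOf_eq_card_of_forall_mem_zpowers hg
      have h2 : orderOf g ∣ 4 := orderOf_dvd_of_pow_eq_one (Subtype.ext (hB4 g g.2))
      have := Nat.le_of_dvd (by norm_num) h2
      omega
    have hX₀eq : X₀ = X := by
      by_contra hne
      apply hinv X₀ hX₀X _ hne (NC.mono hBX₀ (nc_of_comm hX B (hBX₀.trans hX₀X) hBc hcy h8))
      apply norm_sup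
      intro k hk
      have h4 : k * d * k⁻¹ = ⁅d, k⁆⁻¹ * d := by rw [commutatorElement_def]; group
      rw [h4]
      exact mul_mem (mem_sup_left (inv_mem (commutator_mem_commutator hdX hk))) (mem_sup_right (mem_zpowers d))
    refine ⟨N, hNX, ?_, ⟨e⟩, ?_⟩
    · show (N.subgroupOf X).index = 2
      rw [Subgroup.index_eq_two_iff]
      refine ⟨⟨d, hdX⟩, fun b => ?_⟩
      have hb : (b : S) ∈ X₀ := by rw [hX₀eq]; exact b.2
      rw [hX₀, mem_sup_of_normal_left] at hb
      obtain ⟨n, hn, _, ⟨j, rfl⟩, hnj⟩ := hb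
      simp only at hnj
      rw [mem_subgroupOf, mem_subgroupOf, Subgroup.coe_mul, ← hnj]
      simp only
      have hpar : ∀ m : ℤ, d ^ (2 * m) ∈ N := by
        intro m
        rw [zpow_mul]
        exact zpow_mem (by exact_mod_cast hd2) m
      have hodd : ∀ m : ℤ, d ^ (2 * m + 1) ∉ N := by
        intro m h1
        apply hdN
        have h2 : d = (d ^ (2 * m))⁻¹ * d ^ (2 * m + 1) := by rw [zpow_add, zpow_one]; group
        rw [h2]
        exact mul_mem (inv_mem (hpar m)) h1
      have hmul : ∀ t : S, n * t ∈ N ↔ t ∈ N := fun t => Subgroup.mul_mem_cancel_left N hn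
      rw [mul_assoc, hmul, hmul, ← zpow_add_one]
      rcases Int.even_or_odd' j with ⟨m, rfl | rfl⟩
      · right
        exact ⟨hpar m, hodd m⟩
      · left
        refine ⟨?_, hodd m⟩
        have h2 : (2 * m + 1 + 1 : ℤ) = 2 * (m + 1) := by ring
        rw [h2]
        exact hpar (m + 1)
    · apply le_antisymm (sup_le hNX inf_le_left)
      rw [← hX₀eq]
      refine sup_le le_sup_left ?_
      rw [zpowers_le, hX₀eq]
      exact mem_sup_right hd

end Cfsg.Agent.Lib.H30NagE
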