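import Mathlib
import Cfsg.Prelude.Def_Local
import Cfsg.Agent.Lib.H30NagE
import Cfsg.Agent.Lib.Fitting
import Cfsg.Agent.Lib.Cores
import Cfsg.Agent.Lib.PCoreTools
import Cfsg.Agent.Lib.HallPi
import Cfsg.Agent.Lib.SubgroupTools

/-! Thompson's lemma on minimal solvable groups with a noncyclic abelian subgroup of order 8. (helper30) -/

set_option autoImplicit false

open Subgroup
open scoped commutatorElement

universe u v

namespace Cfsg.Agent.Lib.H30NagF

open H30NagA H30NagB H30NagC H30NagD H30NagE Extraspecial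

theorem dec1 : ∀ i w v : QuaternionGroup 2, i * i ≠ 1 → w * i ≠ i * w → v * i ≠ i * v →
    v = w ∨ v = w * .a 2 ∨ v = w * i ∨ v = w * i⁻¹ := by decide +kernel

theorem dec2 : ∀ i w x : QuaternionGroup 2, i * i ≠ 1 → w * i ≠ i * w →
    (x = 1 ∨ x = i ∨ x = i * i ∨ x = i * i * i) ∨ (x = w ∨ x = i * w ∨ x = i * i * w ∨ x = i * i * i * w) := by
  decide +kernel

theorem dec3 : ∀ i : QuaternionGroup 2, i * i ≠ 1 → ∃ w : QuaternionGroup 2, w * i ≠ i * w := by decide +kernel

theorem dec4 : ∀ i : QuaternionGroup 2, i * i = 1 → ∀ w, i * w = w * i := by decide +kernel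

theorem a2_central : (.a 2 : QuaternionGroup 2) ∈ center (QuaternionGroup 2) := by
  rw [mem_center_iff]; decide

theorem q8_aut (θ : MulAut (QuaternionGroup 2)) {i : QuaternionGroup 2} (hi : i * i ≠ 1) (hθi : θ i = i)
    (hθ : ∀ x, θ (θ x) = x) (x : QuaternionGroup 2) : x⁻¹ * θ x ∈ center (QuaternionGroup 2) := by
  obtain ⟨w, hw⟩ := dec3 i hi
  have hv : θ w * i ≠ i * θ w := by
    intro h
    apply hw
    apply θ.injective
    rw [map_mul, map_mul, hθi, h]
  have hw' : θ w = w ∨ θ w = w * .a 2 := by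
    rcases dec1 i w (θ w) hi hw hv with h | h | h | h
    · exact Or.inl h
    · exact Or.inr h
    · exfalso
      have h1 := hθ w
      rw [h, map_mul, hθi, h, mul_assoc] at h1
      exact hi (mul_left_cancel (h1.trans (mul_one w).symm))
    · exfalso
      have h1 := hθ w
      rw [h, map_mul, map_inv, hθi, h, mul_assoc] at h1
      have h2 : i⁻¹ * i⁻¹ = 1 := mul_left_cancel (h1.trans (mul_one w).symm)
      apply hi
      rw [← mul_inv_rev, inv_eq_one] at h2
      exact h2
  have hwc : w⁻¹ * θ w ∈ center (QuaternionGroup 2) := by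
    rcases hw' with h | h
    · rw [h, inv_mul_cancel]; exact one_mem _
    · rw [h, inv_mul_cancel_left]; exact a2_central
  rcases dec2 i w x hi hw with (h | h | h | h) | (h | h | h | h)
  · rw [h]; simp
  · rw [h, hθi, inv_mul_cancel]; exact one_mem _
  · rw [h, map_mul, hθi, inv_mul_cancel]; exact one_mem _
  · rw [h, map_mul, map_mul, hθi, inv_mul_cancel]; exact one_mem _
  · rw [h]; exact hwc
  · rw [h, map_mul, hθi]
    have : (i * w)⁻¹ * (i * θ w) = w⁻¹ * θ w := by group
    rw [this]; exact hwc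
  · rw [h, map_mul, map_mul, hθi]
    have : (i * i * w)⁻¹ * (i * i * θ w) = w⁻¹ * θ w := by group
    rw [this]; exact hwc
  · rw [h, map_mul, map_mul, map_mul, hθi]
    have : (i * i * i * w)⁻¹ * (i * i * i * θ w) = w⁻¹ * θ w := by group
    rw [this]; exact hwc

variable {S : Type u} [Group S] [Finite S]

/-- if `C_S(P) ≤ P` with `P` a four group, there is no abelian subgroup of order 8 -/
theorem no_klein {P A : Subgroup S} [hPn : P.Normal] (hC : centralizer (P : Set S) ≤ P) (hV : IsKleinFour P)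
    (hA : IsMulCommutative A) (hA8 : Nat.card A = 8) : False := by
  have hAc := isMulCommutative_iff_of_setLike.mp hA
  let f : A →* MulAut P := (MulAut.conjNormal : S →* MulAut P).comp A.subtype
  have h1 : f.ker.index ∣ 6 := KleinAut.index_ker_dvd hV f
  have h2 : f.ker.index ∣ 8 := by rw [← hA8]; exact Subgroup.index_dvd_card _
  have h3 : f.ker.index ∣ 2 := by
    have := Nat.dvd_gcd h1 h2
    simpa using this
  have h4 : Nat.card f.ker * f.ker.index = 8 := by rw [Subgroup.card_mul_index, hA8]
  have h5 : 4 ≤ Nat.card f.ker := by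
    have := Nat.le_of_dvd (by norm_num) h3
    by_contra hlt
    push Not at hlt
    have : Nat.card f.ker * f.ker.index ≤ 3 * 2 := Nat.mul_le_mul (by omega) this
    omega
  have h6 : f.ker.map A.subtype ≤ P := by
    rintro _ ⟨a, ha, rfl⟩
    apply hC
    rw [mem_centralizer_iff]
    intro p hp
    have h7 := congrArg (fun φ : MulAut P => ((φ ⟨p, hp⟩ : P) : S)) (show f a = 1 from ha)
    simp only [f, MonoidHom.comp_apply, MulAut.conjNormal_apply, MulAut.one_apply] at h7
    have h8 : (a : S) * p * (a : S)⁻¹ = p := h7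
    rw [mul_inv_eq_iff_eq_mul] at h8
    exact h8.symm
  have h7 : f.ker.map A.subtype = P := by
    apply Subgroup.eq_of_le_of_card_ge h6
    rw [Subgroup.card_map_of_injective A.subtype_injective, hV.card_four]
    exact h5
  have h8 : A ≤ P := by
    intro a ha
    apply hC
    rw [mem_centralizer_iff]
    intro p hp
    have hpA : p ∈ A := by
      have hp' : p ∈ f.ker.map A.subtype := by rw [h7]; exact hp
      exact (map_subtype_le _) hp'
    exact hAc p hpA a ha
  have h9 := Subgroup.card_le_of_le h8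
  rw [hA8, hV.card_four] at h9
  omega

/-- if `C_S(P) ≤ P` with `P` quaternion of order 8, there is no noncyclic abelian subgroup of order 8 -/
theorem no_q8 {P A : Subgroup S} [hPn : P.Normal] (hC : centralizer (P : Set S) ≤ P) (e : P ≃* QuaternionGroup 2)
    (hA : IsMulCommutative A) (hAcy : ¬ IsCyclic A) (hA8 : Nat.card A = 8) : False := by
  haveI : Fact (Nat.Prime 2) := ⟨Nat.prime_two⟩
  have hAc := isMulCommutative_iff_of_setLike.mp hA
  have hV := KleinAut.q8_quot_klein e
  have hP8 : Nat.card P = 8 := by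
    rw [Nat.card_congr e.toEquiv, Nat.card_eq_fintype_card, QuaternionGroup.card]
  -- elements acting trivially modulo the centre
  have htriv : ∀ a : S, (∀ x : P, x⁻¹ * (MulAut.conjNormal a : MulAut P) x ∈ center P) → a ∈ P := by
    intro a ha
    obtain ⟨q, hq⟩ := KleinAut.q8_inner_of_central e (MulAut.conjNormal a) ha
    have h1 : (q : S)⁻¹ * a ∈ centralizer (P : Set S) := by
      rw [mem_centralizer_iff]
      intro k hk
      have h2 := congrArg Subtype.val (hq ⟨k, hk⟩)
      rw [MulAut.conjNormal_apply] at h2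
      simp only [Subgroup.coe_mul, Subgroup.coe_inv] at h2
      have h3 : a * k = (q : S) * k * (q : S)⁻¹ * a := by rw [← h2]; group
      rw [mul_assoc, h3]; group
    have := mul_mem q.2 (hC h1)
    simpa using this
  let f : A →* MulAut (P ⧸ center P) := (KleinAut.quotAut P).comp ((MulAut.conjNormal : S →* MulAut P).comp A.subtype)
  have h1 : f.ker.index ∣ 6 := KleinAut.index_ker_dvd hV f
  have h2 : f.ker.index ∣ 8 := by rw [← hA8]; exact Subgroup.index_dvd_card _
  have h3 : f.ker.index ∣ 2 := by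
    have := Nat.dvd_gcd h1 h2
    simpa using this
  have h4 : Nat.card f.ker * f.ker.index = 8 := by rw [Subgroup.card_mul_index, hA8]
  have h6 : ∀ a : A, a ∈ f.ker → (a : S) ∈ P := by
    intro a ha
    apply htriv
    exact (KleinAut.quotAut_eq_one_iff _).mp ha
  rcases (Nat.dvd_prime Nat.prime_two).mp h3 with h5 | h5
  · -- `A ≤ P`
    have h7 : A ≤ P := by
      intro a ha
      apply h6 ⟨a, ha⟩
      rw [Subgroup.index_eq_one.mp h5]; trivial
    have h8 : A = P := Subgroup.eq_of_le_of_card_ge h7 (by rw [hA8, hP8])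
    have h9 : ∀ x y : QuaternionGroup 2, x * y = y * x := by
      intro x y
      obtain ⟨u, rfl⟩ := e.surjective x
      obtain ⟨v, rfl⟩ := e.surjective y
      rw [← map_mul, ← map_mul]
      congr 1
      exact Subtype.ext (hAc u (by rw [h8]; exact u.2) v (by rw [h8]; exact v.2))
    have := h9 (.a 1) (.xa 0)
    revert this
    decide
  · -- an element of `A` outside `P`
    obtain ⟨a, ha⟩ : ∃ a : A, a ∉ f.ker := by
      by_contra hne
      push Not at hne
      have : f.ker = ⊤ := by rw [eq_top_iff]; intro a _; exact hne a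
      rw [this, Subgroup.index_top] at h5
      omega
    have hsqk : ∀ b : A, b ^ 2 ∈ f.ker := fun b => by
      have := Subgroup.pow_index_mem f.ker b
      rwa [h5] at this
    have ha2P : (a : S) ^ 2 ∈ P := by
      have := h6 _ (hsqk a)
      simpa using this
    have haP : (a : S) ∉ P := by
      intro haP
      apply ha
      show f a = 1
      rw [MonoidHom.comp_apply, KleinAut.quotAut_eq_one_iff]
      intro x
      -- inner automorphisms are trivial modulo the centre
      have h8 : ∀ u v : QuaternionGroup 2, u⁻¹ * (v * u * v⁻¹) = 1 ∨ u⁻¹ * (v * u * v⁻¹) = .a 2 := by decide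
      have h9 : e (x⁻¹ * (MulAut.conjNormal (a : S) : MulAut P) x) ∈ center (QuaternionGroup 2) := by
        have h10 : (MulAut.conjNormal (a : S) : MulAut P) x = ⟨a, haP⟩ * x * (⟨a, haP⟩ : P)⁻¹ := by
          apply Subtype.ext
          rw [MulAut.conjNormal_apply]; rfl
        rw [h10, map_mul, map_mul, map_mul, map_inv, map_inv]
        rcases h8 (e x) (e ⟨a, haP⟩) with h11 | h11
        · rw [h11]; exact one_mem _
        · rw [h11]; exact a2_central
      rw [mem_center_iff] at h9 ⊢
      intro g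
      apply e.injective
      have := h9 (e g)
      rw [← map_mul, ← map_mul] at this
      exact this
    -- an element `i` of order 4 in `A ∩ P`
    have hker4 : Nat.card f.ker = 4 := by rw [h5] at h4; omega
    obtain ⟨i, hi, hi2⟩ : ∃ i : A, i ∈ f.ker ∧ i ^ 2 ≠ 1 := by
      by_contra hne
      push Not at hne
      -- `Q₈` has only two elements with square 1
      have h8 : ∀ i : f.ker, e ⟨((i : A) : S), h6 i i.2⟩ = 1 ∨ e ⟨((i : A) : S), h6 i i.2⟩ = .a 2 := by
        intro i
        have h9 : e ⟨((i : A) : S), h6 i i.2⟩ ^ 2 = 1 := by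
          rw [← map_pow]
          have : (⟨((i : A) : S), h6 i i.2⟩ : P) ^ 2 = 1 := by
            apply Subtype.ext
            have := congrArg Subtype.val (hne i i.2)
            simpa using this
          rw [this, map_one]
        have h10 : ∀ x : QuaternionGroup 2, x ^ 2 = 1 → x = 1 ∨ x = .a 2 := by decide
        exact h10 _ h9
      have h9 : Nat.card f.ker ≤ Nat.card ({1, .a 2} : Finset (QuaternionGroup 2)) := by
        apply Nat.card_le_card_of_injective
          (fun i : f.ker => (⟨e ⟨((i : A) : S), h6 i i.2⟩, by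
            rcases h8 i with h | h
            · rw [h]; simp
            · rw [h]; simp⟩ : ({1, .a 2} : Finset (QuaternionGroup 2))))
        intro i j hij
        have h10 : e ⟨((i : A) : S), h6 i i.2⟩ = e ⟨((j : A) : S), h6 j j.2⟩ := by simpa using hij
        have h11 := e.injective h10
        exact Subtype.ext (Subtype.ext (by simpa using h11))
      rw [hker4, Nat.card_eq_fintype_card, Fintype.card_coe] at h9
      have h10 : ({1, .a 2} : Finset (QuaternionGroup 2)).card ≤ 2 := Finset.card_le_two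
      omega
    set i' : P := ⟨((i : A) : S), h6 i hi⟩ with hi'
    have hii : e i' * e i' ≠ 1 := by
      intro h
      rw [← map_mul, MulEquiv.map_eq_one_iff] at h
      apply hi2
      rw [pow_two]
      apply Subtype.ext
      have h1 := congrArg Subtype.val h
      exact h1
    -- `a` has order 8
    have ha4 : a ^ 4 ≠ 1 := by
      intro ha4
      apply haP
      apply htriv
      set θ : MulAut P := MulAut.conjNormal (a : S) with hθ
      set b : P := ⟨(a : S) ^ 2, ha2P⟩ with hb
      have hbb : e b * e b = 1 := by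
        rw [← map_mul, MulEquiv.map_eq_one_iff]
        apply Subtype.ext
        show (a : S) ^ 2 * (a : S) ^ 2 = 1
        rw [← pow_add]
        exact_mod_cast ha4
      have hbc : ∀ x : P, b * x = x * b := by
        intro x
        apply e.injective
        rw [map_mul, map_mul]
        exact dec4 _ hbb _
      have hθθ : ∀ x : P, θ (θ x) = x := by
        intro x
        apply Subtype.ext
        rw [hθ, MulAut.conjNormal_apply, MulAut.conjNormal_apply]
        have h1 := congrArg Subtype.val (hbc x)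
        simp only [hb, Subgroup.coe_mul] at h1
        have h2 : (a : S) * ((a : S) * x * (a : S)⁻¹) * (a : S)⁻¹ = (a : S) ^ 2 * x * ((a : S) ^ 2)⁻¹ := by
          rw [pow_two]; group
        rw [h2, h1]; group
      have hθi : θ i' = i' := by
        apply Subtype.ext
        rw [hθ, MulAut.conjNormal_apply]
        have h1 : (a : S) * (i : S) = i * a := hAc a a.2 i i.2
        show (a : S) * (i : S) * (a : S)⁻¹ = i
        rw [h1]; group
      have h1 := q8_aut (MulAut.congr e θ) (i := e i') hii (by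
        show e (θ (e.symm (e i'))) = e i'
        rw [e.symm_apply_apply, hθi]) (by
        intro x
        show e (θ (e.symm (e (θ (e.symm x))))) = x
        rw [e.symm_apply_apply, hθθ, e.apply_symm_apply])
      intro x
      have h2 := h1 (e x)
      have h3 : (e x)⁻¹ * (MulAut.congr e θ) (e x) = e (x⁻¹ * θ x) := by
        show (e x)⁻¹ * e (θ (e.symm (e x))) = _
        rw [e.symm_apply_apply, ← map_inv, ← map_mul]
      rw [h3] at h2
      rw [mem_center_iff] at h2 ⊢
      intro g
      apply e.injective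
      have := h2 (e g)
      rw [← map_mul, ← map_mul] at this
      exact this
    apply hAcy
    apply isCyclic_of_orderOf_eq_card a
    have h8 : orderOf a ∣ 2 ^ 3 := by
      have := orderOf_dvd_natCard a
      rw [hA8] at this
      exact this
    obtain ⟨k, hk, hk2⟩ := (Nat.dvd_prime_pow Nat.prime_two).mp h8
    have hk3 : k = 3 := by
      by_contra hne
      apply ha4
      rw [← orderOf_dvd_iff_pow_eq_one, hk2]
      calc 2 ^ k ∣ 2 ^ 2 := pow_dvd_pow 2 (by omega)
        _ = 4 := by norm_num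
    rw [hk2, hk3, hA8]; norm_num

theorem main [hsol : Group.IsSolvable S] (hO : Cfsg.pPrimeCore 2 S = ⊥)
    (h8 : ∃ A : Subgroup S, IsMulCommutative ↥A ∧ ¬ IsCyclic ↥A ∧ Nat.card ↥A = 8)
    (hmin : ∀ R : Subgroup S, R ≠ ⊤ → (∃ k : ℕ, R.index = 2 ^ k) →
      ¬ ∃ A : Subgroup S, A ≤ R ∧ IsMulCommutative ↥A ∧ ¬ IsCyclic ↥A ∧ Nat.card ↥A = 8)
    (X : Sylow 2 S) :
    (X : Subgroup S).Normal ∧
      (IsMulCommutative ↥(X : Subgroup S) ∨
        (Cfsg.IsExtraspecial 2 ↥(X : Subgroup S) ∧ 32 ≤ Nat.card ↥(X : Subgroup S)) ∨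
        (∃ (X₀ : Subgroup S) (k : ℕ), X₀ ≤ (X : Subgroup S) ∧ X₀.relIndex (X : Subgroup S) = 2 ∧
          Nonempty (↥X₀ ≃* QuaternionGroup (2 ^ (k + 1))) ∧ X₀ ⊔ ((X : Subgroup S) ⊓ Subgroup.centralizer (X₀ : Set S)) = (X : Subgroup S)) ∨
        (Cfsg.IsSpecial 2 ↥(X : Subgroup S) ∧ Nat.card ↥(Subgroup.center ↥(X : Subgroup S)) = 4)) := by
  classical
  haveI : Fact (Nat.Prime 2) := ⟨Nat.prime_two⟩
  set P := Cfsg.pCore 2 S with hPdef
  haveI hPn : P.Normal := PCoreTools.pCore_normal' 2 S
  have hPp : IsPGroup 2 P := Cores.isPGroup_pCore 2 S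
  have hC : centralizer (P : Set S) ≤ P := Fitting.centralizer_pCore_le_of_solvable 2 hO
  obtain ⟨H, hH1, hH2⟩ := HallPi.exists_isPiHall (G := S) {q | q ≠ 2}
  have hHodd : Odd (Nat.card H) := by
    rw [← Nat.not_even_iff_odd, even_iff_two_dvd]
    intro h
    exact hH1 2 Nat.prime_two h rfl
  have hHidx : ∃ k : ℕ, H.index = 2 ^ k := by
    have h0 : H.index ≠ 0 := Subgroup.index_ne_zero_of_finite
    refine ⟨H.index.primeFactorsList.length, ?_⟩
    apply Nat.eq_prime_pow_of_unique_prime_dvd h0
    intro d hd hdv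
    by_contra hne
    exact hH2 d hd hne hdv
  obtain ⟨kH, hkH⟩ := hHidx
  have hpow : ∀ R : Subgroup S, H ≤ R → ∃ k : ℕ, R.index = 2 ^ k := by
    intro R hR
    have h1 : R.index ∣ 2 ^ kH := by rw [← hkH]; exact Subgroup.index_dvd_of_le hR
    obtain ⟨k, -, hk⟩ := (Nat.dvd_prime_pow Nat.prime_two).mp h1
    exact ⟨k, hk⟩
  have hNCmap : ∀ R : Subgroup S, NC R → ∃ A : Subgroup S, A ≤ R ∧ IsMulCommutative ↥A ∧ ¬ IsCyclic ↥A ∧ Nat.card ↥A = 8 := by
    rintro R ⟨A, hA1, hA2, hA3⟩
    have e : A ≃* A.map R.subtype := A.equivMapOfInjective _ R.subtype_injective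
    refine ⟨A.map R.subtype, map_subtype_le _, ?_, ?_, ?_⟩
    · rw [isMulCommutative_iff_of_setLike]
      rintro _ ⟨a, ha, rfl⟩ _ ⟨b, hb, rfl⟩
      rw [← map_mul, ← map_mul, (isMulCommutative_iff_of_setLike.mp hA1) a ha b hb]
    · intro hc
      exact hA2 (isCyclic_of_surjective e.symm e.symm.surjective)
    · rw [← hA3]; exact (Nat.card_congr e.toEquiv).symm
  have hcop2 : ∀ Y : Subgroup S, IsPGroup 2 Y → (Nat.card Y).Coprime (Nat.card H) := by
    intro Y hY
    obtain ⟨k, hk⟩ := IsPGroup.iff_card.mp hY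
    rw [hk]
    exact Nat.Coprime.pow_left k (Nat.coprime_two_left.mpr hHodd)
  have htop : P ⊔ H = ⊤ := by
    by_contra hne
    have hnP : ¬ NC P := by
      intro hNP
      obtain ⟨A, hA0, hA1, hA2, hA3⟩ := hNCmap P hNP
      exact hmin (P ⊔ H) hne (hpow _ le_sup_right) ⟨A, hA0.trans le_sup_left, hA1, hA2, hA3⟩
    -- `H` acts nontrivially
    obtain ⟨h, hh, hhP⟩ : ∃ h ∈ H, ¬ (∀ n ∈ P, h * n * h⁻¹ = n) := by
      by_contra hcon
      push Not at hcon
      have h1 : H ≤ P := by
        intro h hh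
        apply hC
        rw [mem_centralizer_iff]
        intro n hn
        have := hcon h hh n hn
        rw [mul_inv_eq_iff_eq_mul] at this
        exact this.symm
      have h2 : H = ⊥ := by
        have h3 := SubgroupTools.inf_eq_bot_of_coprime' (hcop2 P hPp)
        rw [inf_eq_right.mpr h1] at h3
        exact h3
      apply hne
      have h4 : IsPGroup 2 (⊤ : Subgroup S) := by
        apply IsPGroup.of_card (n := kH)
        rw [Subgroup.card_top, ← hkH, h2, Subgroup.index_bot]
      have h5 : (⊤ : Subgroup S) ≤ P := Cores.le_pCore inferInstance h4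
      rw [top_le_iff.mp h5, top_sup_eq]
    have hho : (orderOf h).Coprime 2 := by
      have h1 : orderOf (⟨h, hh⟩ : H) ∣ Nat.card H := orderOf_dvd_natCard _
      rw [Subgroup.orderOf_mk] at h1
      rw [Nat.coprime_comm, Nat.coprime_two_left]
      exact Odd.of_dvd_nat hHodd h1
    set φ : MulAut P := MulAut.conjNormal h with hφdef
    have hφ : (orderOf φ).Coprime 2 := Nat.Coprime.coprime_dvd_left (orderOf_map_dvd _ h) hho
    have hφ1 : φ ≠ 1 := by
      intro h1
      apply hhP
      intro n hn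
      have h2 := congrArg (fun f : MulAut P => ((f ⟨n, hn⟩ : P) : S)) h1
      simp only [hφdef, MulAut.conjNormal_apply, MulAut.one_apply] at h2
      exact h2
    obtain ⟨A, hA1, hA2, hA3⟩ := h8
    rcases four_or_q8 hPp φ hφ hφ1 hnP with hV | ⟨⟨e⟩⟩
    · exact no_klein hC hV hA1 hA3
    · exact no_q8 hC e hA1 hA2 hA3
  -- `X = P`
  have hPH : Nat.card P * Nat.card H = Nat.card S := by
    rw [← SubgroupTools.card_sup_of_coprime (by rw [Subgroup.normalizer_eq_top]; exact le_top) (hcop2 P hPp), htop,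
      Subgroup.card_top]
  have hYP : ∀ Y : Subgroup S, IsPGroup 2 Y → Y ≤ P := by
    intro Y hY
    obtain ⟨Q, hQ⟩ := hY.exists_le_sylow
    have h1 : P ≤ Q := Cores.pCore_le_sylow Q
    have h2 : Nat.card (Q : Subgroup S) ∣ Nat.card P := by
      apply Nat.Coprime.dvd_of_dvd_mul_right (hcop2 Q Q.isPGroup')
      rw [hPH]
      exact Subgroup.card_subgroup_dvd_card _
    have h3 : P = Q := Subgroup.eq_of_le_of_card_ge h1 (Nat.le_of_dvd Nat.card_pos h2)
    rw [h3]; exact hQ
  have hXP : (X : Subgroup S) = P := le_antisymm (hYP X X.isPGroup') (Cores.pCore_le_sylow X)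
  rw [hXP]
  refine ⟨hPn, ?_⟩
  have hNCP : NC P := by
    obtain ⟨A, hA1, hA2, hA3⟩ := h8
    have hAp : IsPGroup 2 A := IsPGroup.of_card (n := 3) (by rw [hA3]; norm_num)
    refine NC.mono (hYP A hAp) ⟨⊤, ?_, ?_, ?_⟩
    · rw [isMulCommutative_iff_of_setLike]
      intro a _ b _
      exact Subtype.ext ((isMulCommutative_iff_of_setLike.mp hA1) a a.2 b b.2)
    · intro hc
      exact hA2 (isCyclic_of_surjective (Subgroup.topEquiv (G := A)) (Subgroup.topEquiv (G := A)).surjective)
    · rw [Nat.card_congr (Subgroup.topEquiv (G := A)).toEquiv, hA3]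
  have hinv : ∀ X₀ : Subgroup S, X₀ ≤ P → H ≤ normalizer (X₀ : Set S) → X₀ ≠ P → ¬ NC X₀ := by
    intro X₀ hX₀ hn hne hNX
    obtain ⟨A, hA0, hA1, hA2, hA3⟩ := hNCmap X₀ hNX
    apply hmin (X₀ ⊔ H) _ (hpow _ le_sup_right) ⟨A, hA0.trans le_sup_left, hA1, hA2, hA3⟩
    intro h1
    have h2 := SubgroupTools.card_sup_of_coprime hn (hcop2 X₀ (hPp.to_le hX₀))
    rw [h1, Subgroup.card_top, ← hPH] at h2
    have h3 : Nat.card P = Nat.card X₀ := Nat.eq_of_mul_eq_mul_right Nat.card_pos h2
    exact hne (Subgroup.eq_of_le_of_card_ge hX₀ h3.le)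
  rcases normal_case hPp hHodd htop hinv hNCP with h | h | ⟨X₀, h1, h2, h3, h4⟩ | h
  · exact Or.inl h
  · exact Or.inr (Or.inl h)
  · exact Or.inr (Or.inr (Or.inl ⟨X₀, 0, h1, h2, by simpa using h3, h4⟩))
  · exact Or.inr (Or.inr (Or.inr h))

end Cfsg.Agent.Lib.H30NagF
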