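import Cfsg.Agent.Lib.H30SOc
import Cfsg.Agent.Lib.NFQuat
import Cfsg.Agent.Lib.CoprimeGen
import Cfsg.Agent.Lib.BG03o
import Cfsg.Agent.Lib.FrobAction

/-!
Closure of the structure predicate, and normal subgroups on which a noncyclic elementary abelian group
cannot act faithfully.
-/

set_option autoImplicit false

namespace Cfsg.Agent.Lib.H30SO

open Subgroup Cfsg.Agent.Lib.SubgroupTools
open scoped Pointwise commutatorElement

universe u v

section closure

variable {G : Type u} [Group G] {H : Type v} [Group H] {p : ℕ}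

/-- restriction of a homomorphism which is injective on `X` -/
noncomputable def equivMap (f : G →* H) (X : Subgroup G) (h : X ⊓ f.ker = ⊥) : X ≃* X.map f := by
  have hinj : Function.Injective (f.comp X.subtype) := by
    rw [← MonoidHom.ker_eq_bot_iff, eq_bot_iff]
    intro x hx
    rw [Subgroup.mem_bot]
    apply Subtype.ext
    rw [Subgroup.coe_one, ← Subgroup.mem_bot, ← h]
    exact Subgroup.mem_inf.2 ⟨x.2, hx⟩
  exact (MonoidHom.ofInjective hinj).trans (MulEquiv.subgroupCongr (by
    rw [MonoidHom.range_comp, Subgroup.range_subtype]))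

theorem Str.of_equiv {X : Subgroup G} {Y : Subgroup H} (e : X ≃* Y) (h : Str p X) : Str p Y := by
  rcases h with h | ⟨h1, h2⟩ | ⟨h1, ⟨f⟩⟩
  · left
    exact isCyclic_of_surjective e e.surjective
  · right; left
    constructor
    · intro a ha b hb
      obtain ⟨a', ha'⟩ := e.surjective ⟨a, ha⟩
      obtain ⟨b', hb'⟩ := e.surjective ⟨b, hb⟩
      have h3 : a' * b' = b' * a' := Subtype.ext (h1 a' a'.2 b' b'.2)
      have h4 := congrArg e h3
      rw [map_mul, map_mul, ha', hb'] at h4
      exact congrArg Subtype.val h4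
    · intro a ha
      obtain ⟨a', ha'⟩ := e.surjective ⟨a, ha⟩
      have h3 : a' ^ p = 1 := Subtype.ext (h2 a' a'.2)
      have h4 := congrArg e h3
      rw [map_pow, map_one, ha'] at h4
      exact congrArg Subtype.val h4
  · right; right
    exact ⟨h1, ⟨e.symm.trans f⟩⟩

theorem dq1 : ∀ x : QuaternionGroup 2, x * x = 1 ∨ x * x = .a 2 := by decide +kernel
theorem dq2 : ∀ x y : QuaternionGroup 2, x * y = y * x ∨ x * y = .a 2 * (y * x) := by decide +kernel
theorem dq3 : ∀ x : QuaternionGroup 2, x ≠ 1 → x = .a 2 ∨ x * x = .a 2 := by decide +kernel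

theorem Str.map {X : Subgroup G} (f : G →* H) (h : Str p X) : Str p (X.map f) := by
  rcases h with h | ⟨h1, h2⟩ | ⟨h1, ⟨e⟩⟩
  · left
    exact isCyclic_of_surjective (f.subgroupMap X) (f.subgroupMap_surjective X)
  · right; left
    constructor
    · rintro _ ⟨a, ha, rfl⟩ _ ⟨b, hb, rfl⟩
      rw [← map_mul, h1 a ha b hb, map_mul]
    · rintro _ ⟨a, ha, rfl⟩
      rw [← map_pow, h2 a ha, map_one]
  · subst h1
    by_cases hk : X ⊓ f.ker = ⊥
    · exact Str.of_equiv (equivMap f X hk) (Or.inr (Or.inr ⟨rfl, ⟨e⟩⟩))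
    · right; left
      -- the involution lies in the kernel
      obtain ⟨⟨w, hw⟩, hw1⟩ := Subgroup.ne_bot_iff_exists_ne_one.1 hk
      have hw1' : w ≠ 1 := fun h => hw1 (Subtype.ext h)
      obtain ⟨hwX, hwk⟩ := Subgroup.mem_inf.1 hw
      have hz : f ((e.symm (.a 2) : X) : G) = 1 := by
        have h3 : e ⟨w, hwX⟩ ≠ 1 := by
          intro h4
          have h5 : (⟨w, hwX⟩ : X) = 1 := by apply e.injective; rw [h4, map_one]
          exact hw1' (congrArg Subtype.val h5)
        rcases dq3 _ h3 with h4 | h4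
        · rw [← h4, MulEquiv.symm_apply_apply]; exact hwk
        · rw [← h4, map_mul, MulEquiv.symm_apply_apply]
          change f (w * w) = 1
          rw [map_mul, MonoidHom.mem_ker.1 hwk, one_mul]
      constructor
      · rintro _ ⟨a, ha, rfl⟩ _ ⟨b, hb, rfl⟩
        rw [← map_mul, ← map_mul]
        rcases dq2 (e ⟨a, ha⟩) (e ⟨b, hb⟩) with h4 | h4
        · rw [← map_mul, ← map_mul] at h4
          have h5 := congrArg Subtype.val (e.injective h4)
          change a * b = b * a at h5
          rw [h5]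
        · have h5 : (⟨a, ha⟩ : X) * ⟨b, hb⟩ = e.symm (.a 2) * (⟨b, hb⟩ * ⟨a, ha⟩) := by
            apply e.injective
            rw [map_mul, map_mul, map_mul, MulEquiv.apply_symm_apply, h4]
          have h6 := congrArg (fun x : X => f (x : G)) h5
          change f (a * b) = f (((e.symm (.a 2) : X) : G) * (b * a)) at h6
          rw [h6, map_mul, hz, one_mul]
      · rintro _ ⟨a, ha, rfl⟩
        rw [pow_two, ← map_mul]
        rcases dq1 (e ⟨a, ha⟩) with h4 | h4
        · rw [← map_mul, ← map_one e] at h4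
          have h5 := congrArg Subtype.val (e.injective h4)
          change a * a = 1 at h5
          rw [h5, map_one]
        · have h5 : (⟨a, ha⟩ : X) * ⟨a, ha⟩ = e.symm (.a 2) := by
            apply e.injective
            rw [map_mul, MulEquiv.apply_symm_apply, h4]
          have h6 := congrArg (fun x : X => f (x : G)) h5
          change f (a * a) = f ((e.symm (.a 2) : X) : G) at h6
          rw [h6, hz]

theorem card_of_quat {X : Subgroup G} (e : X ≃* QuaternionGroup 2) : Nat.card X = 8 := by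
  rw [Nat.card_congr e.toEquiv]
  simpa using card_quat 1

theorem Str.mono [hp : Fact p.Prime] {X Y : Subgroup G} (hYX : Y ≤ X) (h : Str p X) : Str p Y := by
  rcases h with h | ⟨h1, h2⟩ | ⟨h1, ⟨e⟩⟩
  · left
    exact isCyclic_of_injective (Subgroup.inclusion hYX) (Subgroup.inclusion_injective hYX)
  · right; left
    exact ⟨fun a ha b hb => h1 a (hYX ha) b (hYX hb), fun a ha => h2 a (hYX ha)⟩
  · subst h1
    have hX8 := card_of_quat e
    haveI : Finite X := Nat.finite_of_card_ne_zero (by rw [hX8]; norm_num)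
    haveI : Finite Y := Finite.of_injective _ (Subgroup.inclusion_injective hYX)
    have hX2 : IsPGroup 2 X := IsPGroup.of_card (n := 3) (by rw [hX8]; norm_num)
    have hY2 : IsPGroup 2 Y := hX2.to_le hYX
    rcases UniqueInvolution.isCyclic_or_quaternion hY2 (by
      intro x y hx hy
      have hx' : orderOf (e ⟨x, hYX x.2⟩) = 2 := by
        rw [MulEquiv.orderOf_eq, Subgroup.orderOf_mk, Subgroup.orderOf_coe, hx]
      have hy' : orderOf (e ⟨y, hYX y.2⟩) = 2 := by
        rw [MulEquiv.orderOf_eq, Subgroup.orderOf_mk, Subgroup.orderOf_coe, hy]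
      have h3 := (H55Quat.eq_of_orderOf_two 2 hx').trans (H55Quat.eq_of_orderOf_two 2 hy').symm
      have h5 := congrArg Subtype.val (e.injective h3)
      have h4 : x = y := Subtype.ext h5
      rw [h4]; exact mem_zpowers y) with h3 | ⟨-, n, hn, ⟨e'⟩⟩
    · exact Or.inl h3
    · right; right
      refine ⟨rfl, ?_⟩
      have h4 : Nat.card Y ≤ 8 := by
        rw [← hX8]; exact Nat.le_of_dvd Nat.card_pos (Subgroup.card_dvd_of_le hYX)
      rw [Nat.card_congr e'.toEquiv, card_quat] at h4
      have hn1 : n = 1 := by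
        by_contra hcon
        have h5 : 2 ^ 2 ≤ 2 ^ n := Nat.pow_le_pow_right (by norm_num) (by omega)
        omega
      subst hn1
      exact ⟨e'⟩

end closure

/-- the structure of the Sylow subgroups -/
theorem sylow_str {G : Type u} [Group G] [Finite G] {p : ℕ} [hp : Fact p.Prime]
    [hs : Group.IsSolvable G] (hB : Bp p G) (P : Sylow p G) : Str p (P : Subgroup G) := by
  set K := pPrimeCore p G with hK
  haveI hKn : K.Normal := Fitting.normal_pPrimeCore p
  have hKc : (Nat.card K).Coprime p := Fitting.coprime_card_pPrimeCore p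
  set f := QuotientGroup.mk' K with hf
  have hker : f.ker = K := QuotientGroup.ker_mk' K
  have hBq : Bp p (G ⧸ K) := hB.of_surjective f (QuotientGroup.mk'_surjective K) (by
    rw [hker]
    intro h
    exact (Nat.Prime.coprime_iff_not_dvd hp.out).1 hKc.symm h)
  have hinf : (P : Subgroup G) ⊓ f.ker = ⊥ := by
    rw [hker]
    apply inf_eq_bot_of_coprime'
    obtain ⟨k, hk⟩ := P.2.exists_card_eq
    rw [hk]
    exact Nat.Coprime.pow_left k hKc.symm
  have h1 := struct_aux hBq (Fitting.pPrimeCore_quotient_pPrimeCore p)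
    (P.mapSurjective (QuotientGroup.mk'_surjective K))
  exact Str.of_equiv (equivMap f P hinf).symm h1

section faithful

variable {H : Type u} [Group H] {s : ℕ} [hs : Fact s.Prime]

/-- an independent pair of elements of order `s` -/
theorem exists_pair [Finite H] {S : Subgroup H} (hc : ∀ a ∈ S, ∀ b ∈ S, a * b = b * a)
    (hexp : ∀ a ∈ S, a ^ s = 1) (hnc : ¬ IsCyclic S) :
    ∃ x ∈ S, ∃ y ∈ S, orderOf x = s ∧ orderOf y = s ∧ y ∉ zpowers x := by
  obtain ⟨r, x, y, hr, hx, hy, hx1, hxr, hyr, hyx⟩ := CoprimeGen.exists_rank_two (isMulComm_of hc) hnc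
  refine ⟨x, hx, y, hy, orderOf_eq_prime (hexp x hx) hx1, orderOf_eq_prime (hexp y hy) ?_, hyx⟩
  rintro rfl
  exact hyx (one_mem _)

theorem eq_of_mem_zpowers {x y : H} (hx : orderOf x = s) (hy : orderOf y = s) (h : x ∈ zpowers y) :
    y ∈ zpowers x := by
  haveI : Finite (zpowers y) := Nat.finite_of_card_ne_zero (by
    rw [Nat.card_zpowers, hy]; exact hs.out.ne_zero)
  have h1 : zpowers x = zpowers y := Subgroup.eq_of_le_of_card_ge (zpowers_le.2 h) (by
    rw [Nat.card_zpowers, Nat.card_zpowers, hx, hy])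
  rw [h1]; exact mem_zpowers y

/-- an elementary abelian noncyclic group does not act faithfully on a cyclic normal subgroup -/
theorem not_faithful_cyclic (hB : Bp s H) {S D : Subgroup H} [hDn : D.Normal] (hD : IsCyclic D)
    {x y : H} (hxS : x ∈ S) (hyS : y ∈ S) (hx : orderOf x = s) (hy : orderOf y = s)
    (hxy : y ∉ zpowers x) : S ⊓ centralizer (D : Set H) ≠ ⊥ := by
  obtain ⟨g, hg⟩ := hB (zpowers x) (zpowers y)
    (IsPGroup.of_card (n := 1) (by rw [Nat.card_zpowers, hx, pow_one]))
    (IsPGroup.of_card (n := 1) (by rw [Nat.card_zpowers, hy, pow_one])) inferInstance inferInstance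
    (by rw [Nat.card_zpowers, Nat.card_zpowers, hx, hy])
  have h1 : g * x * g⁻¹ ∈ zpowers y := by
    rw [← hg, mem_conj_smul]
    have : g⁻¹ * (g * x * g⁻¹) * g = x := by group
    rw [this]; exact mem_zpowers x
  have h2 : ⁅g, x⁆ ∈ centralizer (D : Set H) := by
    have := BG03o.commutator_le_centralizer_of_cyclic (C := D) (N := ⊤) hD
      (by rw [normalizer_eq_top_iff.2 hDn])
    exact this (commutator_mem_commutator (mem_top g) (mem_top x))
  have h3 : ⁅g, x⁆ ∈ S := by
    rw [commutatorElement_def]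
    exact S.mul_mem ((zpowers_le.2 hyS) h1) (S.inv_mem hxS)
  intro hbot
  have h4 : ⁅g, x⁆ ∈ S ⊓ centralizer (D : Set H) := Subgroup.mem_inf.2 ⟨h3, h2⟩
  rw [hbot, Subgroup.mem_bot, commutatorElement_def, mul_inv_eq_one] at h4
  rw [h4] at h1
  exact hxy (eq_of_mem_zpowers hx hy h1)

theorem not_faithful_quat [Finite H] (hs2 : s ≠ 2) {S D : Subgroup H} [hDn : D.Normal]
    (e : D ≃* QuaternionGroup 2) (hSp : IsPGroup s S) (hnc : ¬ IsCyclic S) :
    S ⊓ centralizer (D : Set H) ≠ ⊥ := by
  intro hbot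
  set f : H →* MulAut D := MulAut.conjNormal with hf
  have hker : S ⊓ f.ker = ⊥ := by
    rw [eq_bot_iff, ← hbot]
    refine inf_le_inf le_rfl ?_
    intro g hg
    rw [mem_centralizer_iff]
    intro d hd
    have h1 : f g ⟨d, hd⟩ = ⟨d, hd⟩ := by rw [MonoidHom.mem_ker.1 hg]; rfl
    have h2 := congrArg Subtype.val h1
    rw [hf, MulAut.conjNormal_apply] at h2
    change g * d * g⁻¹ = d at h2
    rw [mul_inv_eq_iff_eq_mul] at h2
    exact h2.symm
  have h1 : Nat.card S ∣ 24 := by
    have h2 : Nat.card S = Nat.card (S.map f) := Nat.card_congr (equivMap f S hker).toEquiv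
    rw [h2]
    refine (Subgroup.card_subgroup_dvd_card _).trans ?_
    rw [Nat.card_congr (MulAut.congr e).toEquiv]
    exact NFQuat.dvd_card_mulAut_q8
  obtain ⟨k, hk⟩ := hSp.exists_card_eq
  have hk2 : 2 ≤ k := by
    by_contra hcon
    apply hnc
    have : k = 0 ∨ k = 1 := by omega
    rcases this with rfl | rfl
    · rw [pow_zero] at hk
      haveI : Subsingleton S := (Nat.card_eq_one_iff_unique.1 hk).1
      exact isCyclic_of_subsingleton
    · rw [pow_one] at hk
      exact isCyclic_of_prime_card hk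
  have h2 : s ^ 2 ∣ 24 := (pow_dvd_pow s hk2).trans (hk ▸ h1)
  have h3 : s ∣ 24 := (dvd_pow_self s two_ne_zero).trans h2
  have h4 : s ∣ 2 ^ 3 * 3 := by simpa using h3
  rcases (Nat.Prime.dvd_mul hs.out).1 h4 with h5 | h5
  · exact hs2 ((Nat.prime_dvd_prime_iff_eq hs.out Nat.prime_two).1 (hs.out.dvd_of_dvd_pow h5))
  · have h6 : s = 3 := (Nat.prime_dvd_prime_iff_eq hs.out Nat.prime_three).1 h5
    subst h6
    revert h2; decide

end faithful

end Cfsg.Agent.Lib.H30SO
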