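import Cfsg.Agent.Lib.H30SOd

/-!
A normal abelian subgroup of a linear group transitive on points acts freely; consequence:
noncyclic elementary abelian Sylow subgroups are normal.
-/

set_option autoImplicit false

namespace Cfsg.Agent.Lib.H30SO

open Subgroup Cfsg.Agent.Lib.SubgroupTools Cfsg.Agent.Lib.FrobAction
open scoped Pointwise commutatorElement

universe u v

section action

variable {H : Type u} [Group H] [Finite H] {V : Type v} [CommGroup V]

/-- the stabilizer of `v` inside `D` -/
def stb (act : H →* MulAut V) (D : Subgroup H) (v : V) : Subgroup H where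
  carrier := {d | d ∈ D ∧ act d v = v}
  mul_mem' := fun {a b} ha hb => ⟨D.mul_mem ha.1 hb.1, by
    rw [map_mul, MulAut.mul_apply, hb.2, ha.2]⟩
  one_mem' := ⟨one_mem _, by rw [map_one]; rfl⟩
  inv_mem' := fun {a} ha => ⟨D.inv_mem ha.1, by
    have h1 := (act a).symm_apply_apply v
    rw [ha.2] at h1
    rw [map_inv]; exact h1⟩

theorem mem_stb {act : H →* MulAut V} {D : Subgroup H} {v : V} {d : H} :
    d ∈ stb act D v ↔ d ∈ D ∧ act d v = v := Iff.rfl

/-- a normal abelian subgroup of a faithful linear group transitive on subgroups of prime order acts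
freely -/
theorem isFPF_of_transitive (act : H →* MulAut V) (hinj : Function.Injective act)
    (htr : ∀ v w : V, v ≠ 1 → w ≠ 1 → ∃ h : H, zpowers (act h v) = zpowers w)
    (D : Subgroup H) [hDn : D.Normal] (hD : ∀ a ∈ D, ∀ b ∈ D, a * b = b * a) :
    IsFPF (act.comp D.subtype) := by
  -- all the stabilizers have the same order
  have hfix : ∀ (a : H) (v w : V), zpowers v = zpowers w → act a v = v → act a w = w := by
    intro a v w hvw hv
    have h1 : w ∈ zpowers v := hvw ▸ mem_zpowers w
    obtain ⟨k, rfl⟩ := h1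
    change act a (v ^ k) = v ^ k
    rw [map_zpow, hv]
  have hcard : ∀ v w : V, v ≠ 1 → w ≠ 1 → Nat.card (stb act D v) = Nat.card (stb act D w) := by
    intro v w hv hw
    obtain ⟨h, hh⟩ := htr v w hv hw
    have h1 : stb act D w = MulAut.conj h • stb act D v := by
      ext d
      rw [mem_conj_smul, mem_stb, mem_stb]
      constructor
      · rintro ⟨hd, hdw⟩
        refine ⟨by simpa using hDn.conj_mem d hd h⁻¹, ?_⟩
        have h2 := hfix d w (act h v) hh.symm hdw
        rw [map_mul, map_mul, MulAut.mul_apply, MulAut.mul_apply, h2, ← MulAut.mul_apply, ← map_mul,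
          inv_mul_cancel, map_one]
        rfl
      · rintro ⟨hd, hdv⟩
        have hd' : d ∈ D := by
          have := hDn.conj_mem _ hd h
          have h3 : h * (h⁻¹ * d * h) * h⁻¹ = d := by group
          rwa [h3] at this
        refine ⟨hd', hfix d (act h v) w hh ?_⟩
        have h3 : d = h * (h⁻¹ * d * h) * h⁻¹ := by group
        have h5 : act h⁻¹ (act h v) = v := by
          rw [← MulAut.mul_apply, ← map_mul, inv_mul_cancel, map_one]; rfl
        rw [h3, map_mul, map_mul, MulAut.mul_apply, MulAut.mul_apply, h5, hdv]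
    rw [h1, card_conj_smul]
  have heqle : ∀ v w : V, v ≠ 1 → w ≠ 1 → stb act D v ≤ stb act D w → stb act D v = stb act D w :=
    fun v w hv hw hle => Subgroup.eq_of_le_of_card_ge hle (hcard v w hv hw).symm.le
  have hcomm : ∀ a ∈ D, ∀ b ∈ D, ∀ v : V, act a (act b v) = act b (act a v) := by
    intro a ha b hb v
    rw [← MulAut.mul_apply, ← MulAut.mul_apply, ← map_mul, ← map_mul, hD a ha b hb]
  have key : ∀ v w : V, v ≠ 1 → w ≠ 1 → stb act D v = stb act D w := by
    intro v w hv hw
    by_contra hne
    have hnle : ¬ stb act D v ≤ stb act D w := fun h => hne (heqle v w hv hw h)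
    rw [SetLike.not_le_iff_exists] at hnle
    obtain ⟨b, hbv, hbw⟩ := hnle
    rw [mem_stb] at hbv hbw
    have hbw' : act b w ≠ w := fun h => hbw ⟨hbv.1, h⟩
    have hu : v * w ≠ 1 := by
      intro h1
      apply hbw'
      have h2 : w = v⁻¹ := eq_inv_of_mul_eq_one_right h1
      rw [h2, map_inv, hbv.2]
    have hx : w⁻¹ * act b w ≠ 1 := by
      rw [Ne, inv_mul_eq_one]; exact fun h => hbw' h.symm
    have h1 : stb act D (v * w) = stb act D (w⁻¹ * act b w) := by
      apply heqle _ _ hu hx
      intro c hc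
      rw [mem_stb] at hc ⊢
      refine ⟨hc.1, ?_⟩
      have h2 : w⁻¹ * act b w = (v * w)⁻¹ * act b (v * w) := by
        rw [map_mul, hbv.2, mul_inv_rev, mul_assoc, inv_mul_cancel_left]
      rw [h2, map_mul, map_inv, hc.2, hcomm c hc.1 b hbv.1, hc.2]
    have h2 : stb act D w = stb act D (w⁻¹ * act b w) := by
      apply heqle _ _ hw hx
      intro c hc
      rw [mem_stb] at hc ⊢
      refine ⟨hc.1, ?_⟩
      rw [map_mul, map_inv, hc.2, hcomm c hc.1 b hbv.1, hc.2]
    have h3 : stb act D w ≤ stb act D v := by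
      intro c hc
      have hc' : c ∈ stb act D (v * w) := by rw [h1, ← h2]; exact hc
      rw [mem_stb] at hc hc' ⊢
      refine ⟨hc.1, ?_⟩
      have h4 := hc'.2
      rw [map_mul, hc.2] at h4
      exact mul_right_cancel h4
    exact hne (heqle w v hw hv h3).symm
  rintro ⟨d, hd⟩ hd1 v hv
  by_contra hv1
  apply hd1
  apply Subtype.ext
  apply hinj
  rw [Subgroup.coe_one, map_one]
  ext w
  by_cases hw : w = 1
  · rw [hw, map_one]; rfl
  · have h1 : d ∈ stb act D v := ⟨hd, hv⟩
    rw [key v w hv1 hw] at h1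
    exact h1.2

end action

end Cfsg.Agent.Lib.H30SO
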