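import Cfsg.Agent.Lib.H30SOe

/-!
Noncyclic elementary abelian Sylow subgroups are normal.
-/

set_option autoImplicit false

namespace Cfsg.Agent.Lib.H30SO

open Subgroup Cfsg.Agent.Lib.SubgroupTools Cfsg.Agent.Lib.FrobAction
open scoped Pointwise commutatorElement

universe u v

section kn

variable {G : Type u} [Group G]

/-- the centralizer of a normal subgroup, as the kernel of the conjugation action -/
def KN (N : Subgroup G) [N.Normal] : Subgroup G := (MulAut.conjNormal : G →* MulAut N).ker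

instance KN_normal (N : Subgroup G) [N.Normal] : (KN N).Normal := by unfold KN; infer_instance

theorem mem_KN {N : Subgroup G} [N.Normal] {g : G} : g ∈ KN N ↔ ∀ n ∈ N, g * n * g⁻¹ = n := by
  unfold KN
  rw [MonoidHom.mem_ker]
  constructor
  · intro h n hn
    have h1 : (MulAut.conjNormal g : MulAut N) ⟨n, hn⟩ = ⟨n, hn⟩ := by rw [h]; rfl
    have h2 := congrArg Subtype.val h1
    rwa [MulAut.conjNormal_apply] at h2
  · intro h
    ext n
    rw [MulAut.conjNormal_apply]
    exact h n n.2

theorem KN_eq_centralizer (N : Subgroup G) [N.Normal] : KN N = centralizer (N : Set G) := by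
  ext g
  rw [mem_KN, mem_centralizer_iff]
  constructor
  · intro h n hn
    exact ((mul_inv_eq_iff_eq_mul.1 (h n hn))).symm
  · intro h n hn
    rw [mul_inv_eq_iff_eq_mul]; exact (h n hn).symm

/-- the induced faithful action -/
def actq (N : Subgroup G) [N.Normal] : G ⧸ KN N →* MulAut N :=
  QuotientGroup.kerLift (MulAut.conjNormal : G →* MulAut N)

theorem actq_injective (N : Subgroup G) [N.Normal] : Function.Injective (actq N) :=
  QuotientGroup.kerLift_injective _

theorem actq_mk (N : Subgroup G) [N.Normal] (g : G) (n : N) :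
    ((actq N (QuotientGroup.mk' (KN N) g) n : N) : G) = g * n * g⁻¹ := by
  change ((MulAut.conjNormal g : MulAut N) n : G) = _
  rw [MulAut.conjNormal_apply]

theorem centralizer_normal (N : Subgroup G) [N.Normal] : (centralizer (N : Set G)).Normal := by
  rw [← KN_eq_centralizer]; infer_instance

/-- a normal abelian subgroup of `G / C_G(N)`, `N` elementary abelian normal, acts freely on `N` and is
cyclic -/
theorem normal_comm_free [Finite G] {t : ℕ} [ht : Fact t.Prime] (hB : Bp t G) (N : Subgroup G)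
    [hN : N.Normal] (hNc : ∀ a ∈ N, ∀ b ∈ N, a * b = b * a) (hNe : ∀ a ∈ N, a ^ t = 1) (hN1 : N ≠ ⊥)
    (D : Subgroup (G ⧸ KN N)) [hDn : D.Normal] (hD : ∀ a ∈ D, ∀ b ∈ D, a * b = b * a) :
    IsCyclic D ∧ ∀ g : G, QuotientGroup.mk' (KN N) g ∈ D → g ∉ KN N → ∀ n ∈ N, n ≠ 1 →
      g * n * g⁻¹ ≠ n := by
  classical
  letI hcg : CommGroup N := { (inferInstance : Group N) with
    mul_comm := fun a b => Subtype.ext (hNc a a.2 b b.2) }
  have htr : ∀ v w : N, v ≠ 1 → w ≠ 1 → ∃ h : G ⧸ KN N, zpowers (actq N h v) = zpowers w := by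
    intro v w hv hw
    have hvo : orderOf (v : G) = t := orderOf_eq_prime (hNe v v.2) (fun h => hv (Subtype.ext h))
    have hwo : orderOf (w : G) = t := orderOf_eq_prime (hNe w w.2) (fun h => hw (Subtype.ext h))
    obtain ⟨g, hg⟩ := hB (zpowers (v : G)) (zpowers (w : G))
      (IsPGroup.of_card (n := 1) (by rw [Nat.card_zpowers, hvo, pow_one]))
      (IsPGroup.of_card (n := 1) (by rw [Nat.card_zpowers, hwo, pow_one])) inferInstance inferInstance
      (by rw [Nat.card_zpowers, Nat.card_zpowers, hvo, hwo])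
    refine ⟨QuotientGroup.mk' (KN N) g, ?_⟩
    have h1 : g * v * g⁻¹ ∈ zpowers (w : G) := by
      rw [← hg, mem_conj_smul]
      have : g⁻¹ * (g * (v : G) * g⁻¹) * g = v := by group
      rw [this]; exact mem_zpowers _
    obtain ⟨k, hk⟩ := h1
    have hle : zpowers (actq N (QuotientGroup.mk' (KN N) g) v) ≤ zpowers w := by
      rw [zpowers_le]
      refine ⟨k, Subtype.ext ?_⟩
      rw [actq_mk]
      exact hk
    apply Subgroup.eq_of_le_of_card_ge hle
    rw [Nat.card_zpowers, Nat.card_zpowers, MulEquiv.orderOf_eq, ← Subgroup.orderOf_coe w,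
      ← Subgroup.orderOf_coe v, hvo, hwo]
  have hfpf := isFPF_of_transitive (actq N) (actq_injective N) htr D hD
  haveI hnt : Nontrivial N := (Subgroup.nontrivial_iff_ne_bot N).2 hN1
  constructor
  · exact isCyclic_of_comm hfpf (fun a b => Subtype.ext (hD a a.2 b b.2))
  · intro g hg hgK n hn hn1 hgn
    apply hn1
    have h1 := hfpf ⟨QuotientGroup.mk' (KN N) g, hg⟩ (by
      intro h
      apply hgK
      have h2 := congrArg Subtype.val h
      exact (QuotientGroup.eq_one_iff g).1 h2) ⟨n, hn⟩ (by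
      apply Subtype.ext
      change ((actq N (QuotientGroup.mk' (KN N) g) ⟨n, hn⟩ : N) : G) = n
      rw [actq_mk]; exact hgn)
    exact congrArg Subtype.val h1

end kn

/-- a faithful action on some `O_t(H)` -/
theorem exists_faithful {H : Type u} [Group H] [Finite H] {s : ℕ} [hs : Fact s.Prime]
    [hsol : Group.IsSolvable H] (hB : Bp s H) (hO : pCore s H = ⊥) {S : Subgroup H}
    (hexp : ∀ a ∈ S, a ^ s = 1) {x : H} (hx : orderOf x = s) :
    ∃ t : ℕ, t.Prime ∧ t ≠ s ∧ S ⊓ centralizer (pCore t H : Set H) = ⊥ := by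
  by_contra hcon
  push Not at hcon
  have hx' : ∀ t : ℕ, t.Prime → x ∈ centralizer (pCore t H : Set H) := by
    intro t ht
    by_cases hts : t = s
    · rw [hts, hO, mem_centralizer_iff]
      intro y hy
      rw [SetLike.mem_coe, Subgroup.mem_bot] at hy
      rw [hy, one_mul, mul_one]
    · haveI : (pCore t H).Normal := Fitting.normal_pCore t
      haveI := centralizer_normal (pCore t H)
      obtain ⟨⟨w, hw⟩, hw1⟩ := Subgroup.ne_bot_iff_exists_ne_one.1 (hcon t ht hts)
      have hw1' : w ≠ 1 := fun h => hw1 (Subtype.ext h)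
      obtain ⟨hwS, hwC⟩ := Subgroup.mem_inf.1 hw
      have hwo : orderOf w = s := orderOf_eq_prime (hexp w hwS) hw1'
      exact hB.mem_of_orderOf_eq (k := 1) hwC (by rw [hwo, pow_one]) (by rw [hx, pow_one])
  have h1 : x ∈ centralizer (fittingSubgroup H : Set H) := by
    have h2 : fittingSubgroup H ≤ centralizer {x} := by
      rw [Cores.fittingSubgroup_eq_iSup]
      apply iSup_le
      intro p y hy
      rw [mem_centralizer_singleton_iff]
      exact (mem_centralizer_iff.1 (hx' p p.2) y hy)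
    rw [mem_centralizer_iff]
    intro y hy
    exact mem_centralizer_singleton_iff.1 (h2 hy)
  have h2 := Fitting.centralizer_fittingSubgroup_le h1
  have h3 := Cores.coprime_index_pCore_fitProd (G := H) ⟨s, hs.out⟩
  rw [← Cores.fittingSubgroup_eq_fitProd] at h3
  change ((pCore s H).relIndex (fittingSubgroup H)).Coprime s at h3
  rw [hO, Subgroup.relIndex_bot_left] at h3
  apply (Nat.Prime.coprime_iff_not_dvd hs.out).1 h3.symm
  have h4 := orderOf_dvd_natCard (⟨x, h2⟩ : fittingSubgroup H)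
  rwa [Subgroup.orderOf_mk, hx] at h4

/-- the core of the argument: an elementary abelian noncyclic normal-closed subgroup acts faithfully on
an `O_t` only if the latter is elementary abelian noncyclic -/
theorem str_of_faithful {H : Type u} [Group H] [Finite H] {s t : ℕ} [hs : Fact s.Prime] [ht : Fact t.Prime]
    (hB : Bp s H) (hts : t ≠ s) {S D : Subgroup H} [D.Normal]
    (hSc : ∀ a ∈ S, ∀ b ∈ S, a * b = b * a) (hSe : ∀ a ∈ S, a ^ s = 1)
    (hnc : ¬ IsCyclic S) (hD : Str t D) (hfaith : S ⊓ centralizer (D : Set H) = ⊥) :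
    (∀ a ∈ D, ∀ b ∈ D, a * b = b * a) ∧ (∀ a ∈ D, a ^ t = 1) ∧ ¬ IsCyclic D := by
  obtain ⟨x, hxS, y, hyS, hx, hy, hxy⟩ := exists_pair hSc hSe hnc
  have hDnc : ¬ IsCyclic D := fun h => not_faithful_cyclic hB h hxS hyS hx hy hxy hfaith
  rcases hD with h | ⟨h1, h2⟩ | ⟨h1, ⟨e⟩⟩
  · exact absurd h hDnc
  · exact ⟨h1, h2, hDnc⟩
  · exact absurd hfaith (not_faithful_quat (fun h => hts (h1.trans h.symm)) e
      (SubgroupTools.isPGroup_of_forall_pow_eq_one hSe) hnc)

/-- **a noncyclic elementary abelian Sylow subgroup is normal** -/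
theorem normal_of_elementary {G : Type u} [Group G] [Finite G] [hsol : Group.IsSolvable G]
    (hB : ∀ p : ℕ, p.Prime → Bp p G) {s : ℕ} [hs : Fact s.Prime] (S : Sylow s G)
    (hSc : ∀ a ∈ (S : Subgroup G), ∀ b ∈ (S : Subgroup G), a * b = b * a)
    (hSe : ∀ a ∈ (S : Subgroup G), a ^ s = 1) (hnc : ¬ IsCyclic (S : Subgroup G)) :
    (S : Subgroup G) = pCore s G := by
  have hBs := hB s hs.out
  obtain ⟨x, hxS, y, hyS, hx, hy, hxy⟩ := exists_pair hSc hSe hnc
  by_cases hO : pCore s G = ⊥
  swap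
  · apply le_antisymm _ (Cores.pCore_le_sylow S)
    haveI : (pCore s G).Normal := Fitting.normal_pCore s
    have hd : s ∣ Nat.card (pCore s G) := by
      obtain ⟨k, hk⟩ := (Cores.isPGroup_pCore s G).exists_card_eq
      rw [hk]
      apply dvd_pow_self
      rintro rfl
      rw [pow_zero, Subgroup.card_eq_one] at hk
      exact hO hk
    intro a ha
    by_cases ha1 : a = 1
    · rw [ha1]; exact one_mem _
    · exact hBs.mem_of_dvd hd (orderOf_eq_prime (hSe a ha) ha1)
  exfalso
  obtain ⟨t, ht, hts, hfaith⟩ := exists_faithful hBs hO hSe hx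
  haveI : Fact t.Prime := ⟨ht⟩
  set N := pCore t G with hN
  haveI hNn : N.Normal := Fitting.normal_pCore t
  obtain ⟨T⟩ : Nonempty (Sylow t G) := inferInstance
  have hNT : N ≤ T := Cores.pCore_le_sylow T
  have hBt := hB t ht
  obtain ⟨hNc, hNe, hNnc⟩ := str_of_faithful hBs hts hSc hSe hnc ((sylow_str hBt T).mono hNT) hfaith
  have hN1 : N ≠ ⊥ := by
    intro h
    apply hNnc
    rw [h]; infer_instance
  -- the quotient
  set f := QuotientGroup.mk' (KN N) with hf
  have hfs : Function.Surjective f := QuotientGroup.mk'_surjective _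
  have hker : f.ker = centralizer (N : Set G) := by rw [hf, QuotientGroup.ker_mk', KN_eq_centralizer]
  have hSker : (S : Subgroup G) ⊓ f.ker = ⊥ := by rw [hker]; exact hfaith
  have hsker : ¬ s ∣ Nat.card f.ker := by
    intro h
    have h1 : x ∈ f.ker := hBs.mem_of_dvd h hx
    have h2 : x ∈ (S : Subgroup G) ⊓ f.ker := Subgroup.mem_inf.2 ⟨hxS, h1⟩
    rw [hSker, Subgroup.mem_bot] at h2
    rw [h2, orderOf_one] at hx
    exact hs.out.one_lt.ne hx
  have hBs' : Bp s (G ⧸ KN N) := hBs.of_surjective f hfs hsker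
  haveI hsol' : Group.IsSolvable (G ⧸ KN N) := inferInstance
  set S' : Sylow s (G ⧸ KN N) := S.mapSurjective hfs with hS'
  have hS'e : (S' : Subgroup (G ⧸ KN N)) = (S : Subgroup G).map f := rfl
  have hS'c : ∀ a ∈ (S' : Subgroup (G ⧸ KN N)), ∀ b ∈ (S' : Subgroup (G ⧸ KN N)), a * b = b * a := by
    rintro _ ⟨a, ha, rfl⟩ _ ⟨b, hb, rfl⟩
    rw [← map_mul, hSc a ha b hb, map_mul]
  have hS'x : ∀ a ∈ (S' : Subgroup (G ⧸ KN N)), a ^ s = 1 := by
    rintro _ ⟨a, ha, rfl⟩
    rw [← map_pow, hSe a ha, map_one]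
  have hS'nc : ¬ IsCyclic (S' : Subgroup (G ⧸ KN N)) := by
    intro h
    apply hnc
    haveI : IsCyclic ((S : Subgroup G).map f) := h
    exact isCyclic_of_surjective (equivMap f S hSker).symm (equivMap f S hSker).symm.surjective
  have hx' : orderOf (f x) = s := by
    apply orderOf_eq_prime
    · rw [← map_pow, hSe x hxS, map_one]
    · intro h1
      have h2 : x ∈ (S : Subgroup G) ⊓ f.ker := Subgroup.mem_inf.2 ⟨hxS, h1⟩
      rw [hSker, Subgroup.mem_bot] at h2
      rw [h2, orderOf_one] at hx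
      exact hs.out.one_lt.ne hx
  by_cases hO' : pCore s (G ⧸ KN N) = ⊥
  · obtain ⟨r, hr, hrs, hfaith'⟩ := exists_faithful hBs' hO' hS'x hx'
    haveI : Fact r.Prime := ⟨hr⟩
    haveI hDn : (pCore r (G ⧸ KN N)).Normal := Fitting.normal_pCore r
    obtain ⟨R⟩ : Nonempty (Sylow r G) := inferInstance
    have hstr : Str r (pCore r (G ⧸ KN N)) :=
      ((sylow_str (hB r hr) R).map f).mono (Cores.pCore_le_sylow (R.mapSurjective hfs))
    obtain ⟨hDc, -, hDnc⟩ := str_of_faithful hBs' hrs hS'c hS'x hS'nc hstr hfaith'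
    exact hDnc (normal_comm_free hBt N hNc hNe hN1 _ hDc).1
  · haveI hDn : (pCore s (G ⧸ KN N)).Normal := Fitting.normal_pCore s
    have hle : pCore s (G ⧸ KN N) ≤ S' := Cores.pCore_le_sylow S'
    have hd : s ∣ Nat.card (pCore s (G ⧸ KN N)) := by
      obtain ⟨k, hk⟩ := (Cores.isPGroup_pCore s (G ⧸ KN N)).exists_card_eq
      rw [hk]
      apply dvd_pow_self
      rintro rfl
      rw [pow_zero, Subgroup.card_eq_one] at hk
      exact hO' hk
    have heq : pCore s (G ⧸ KN N) = S' := by
      apply le_antisymm hle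
      intro a ha
      by_cases ha1 : a = 1
      · rw [ha1]; exact one_mem _
      · exact hBs'.mem_of_dvd hd (orderOf_eq_prime (hS'x a ha) ha1)
    apply hS'nc
    rw [← heq]
    exact (normal_comm_free hBt N hNc hNe hN1 _ (fun a ha b hb => hS'c a (hle ha) b (hle hb))).1

end Cfsg.Agent.Lib.H30SO
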