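import Cfsg.Agent.Lib.H30SOf
import Cfsg.Agent.Lib.H32Cores

/-!
The normal abelian Hall subgroup generated by the noncyclic elementary abelian Sylow subgroups.
-/

set_option autoImplicit false

namespace Cfsg.Agent.Lib.H30SO

open Subgroup Cfsg.Agent.Lib.SubgroupTools
open scoped Pointwise commutatorElement

universe u v

/-- the primes with noncyclic elementary abelian Sylow subgroups -/
def piE (G : Type u) [Group G] : Set ℕ := {p | p.Prime ∧ ∃ P : Sylow p G,
  ¬ IsCyclic (P : Subgroup G) ∧ (∀ a ∈ (P : Subgroup G), ∀ b ∈ (P : Subgroup G), a * b = b * a) ∧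
    ∀ a ∈ (P : Subgroup G), a ^ p = 1}

def EE (G : Type u) [Group G] : Subgroup G := Cfsg.piCore (piE G) G

instance EE_normal (G : Type u) [Group G] : (EE G).Normal := by unfold EE; infer_instance

variable {G : Type u} [Group G] [Finite G]

theorem piE_spec [hsol : Group.IsSolvable G] (hB : ∀ p : ℕ, p.Prime → Bp p G) {t : ℕ}
    [ht' : Fact t.Prime] (ht : t ∈ piE G) :
    (∀ P : Sylow t G, (P : Subgroup G) = pCore t G) ∧ ¬ IsCyclic (pCore t G) ∧
      (∀ a ∈ pCore t G, ∀ b ∈ pCore t G, a * b = b * a) ∧ ∀ a ∈ pCore t G, a ^ t = 1 := by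
  obtain ⟨-, P, hnc, hc, he⟩ := ht
  have h1 := normal_of_elementary hB P hc he hnc
  refine ⟨fun Q => ?_, h1 ▸ hnc, h1 ▸ hc, h1 ▸ he⟩
  symm
  apply Subgroup.eq_of_le_of_card_ge (Cores.pCore_le_sylow Q)
  rw [← h1, Q.card_eq_multiplicity, P.card_eq_multiplicity]

theorem le_pCore_of_piE [hsol : Group.IsSolvable G] (hB : ∀ p : ℕ, p.Prime → Bp p G) {t : ℕ}
    [ht' : Fact t.Prime] (ht : t ∈ piE G) {T : Subgroup G} (hT : IsPGroup t T) : T ≤ pCore t G := by
  obtain ⟨P, hP⟩ := hT.exists_le_sylow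
  rw [← (piE_spec hB ht).1 P]; exact hP

theorem pCore_le_EE {t : ℕ} [ht' : Fact t.Prime] (ht : t ∈ piE G) : pCore t G ≤ EE G := by
  apply H32Cores.le_piCore (Fitting.normal_pCore t)
  intro q hq hqd
  obtain ⟨k, hk⟩ := (Cores.isPGroup_pCore t G).exists_card_eq
  rw [hk] at hqd
  have h1 := (Nat.prime_dvd_prime_iff_eq hq ht'.out).1 (hq.dvd_of_dvd_pow hqd)
  rw [h1]; exact ht

theorem mem_piE_of_dvd {q : ℕ} (hq : q.Prime) (h : q ∣ Nat.card (EE G)) : q ∈ piE G :=
  H32Cores.piCore_primes (piE G) G q hq h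

/-- a subgroup `Y` contains a subgroup `X` of `EE` as soon as it contains the `q`-subgroups of `X`,
`q ∈ piE` -/
theorem le_of_forall {X Y : Subgroup G} (hX : X ≤ EE G)
    (h : ∀ (q : ℕ) [Fact q.Prime], q ∈ piE G → ∀ P : Subgroup G, P ≤ X → IsPGroup q P → P ≤ Y) :
    X ≤ Y := by
  rw [← subgroupOf_eq_top]
  apply Cores.eq_top_of_forall_sylow_le
  intro q hq P
  by_cases hqE : q ∈ piE G
  · have h1 := h q hqE ((P : Subgroup X).map X.subtype) (map_subtype_le _) (P.2.map _)
    intro x hx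
    rw [mem_subgroupOf]
    exact h1 (mem_map_of_mem _ hx)
  · have hP : (P : Subgroup X) = ⊥ := by
      obtain ⟨k, hk⟩ := P.2.exists_card_eq
      rw [← Subgroup.card_eq_one, hk]
      rcases Nat.eq_zero_or_pos k with rfl | hk0
      · exact pow_zero q
      · exfalso
        apply hqE
        apply mem_piE_of_dvd hq.out
        refine (dvd_pow_self q hk0.ne').trans ?_
        rw [← hk]
        exact (Subgroup.card_subgroup_dvd_card _).trans (Subgroup.card_dvd_of_le hX)
    rw [hP]; exact bot_le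

theorem EE_comm [hsol : Group.IsSolvable G] (hB : ∀ p : ℕ, p.Prime → Bp p G) :
    ∀ a ∈ EE G, ∀ b ∈ EE G, a * b = b * a := by
  have h1 : ∀ (t : ℕ) [Fact t.Prime], t ∈ piE G → EE G ≤ centralizer (pCore t G : Set G) := by
    intro t ht' ht
    apply le_of_forall le_rfl
    intro q hq hqE P hPX hP
    have hP' := le_pCore_of_piE hB hqE hP
    refine hP'.trans ?_
    intro x hx
    rw [mem_centralizer_iff]
    intro y hy
    by_cases hqt : q = t
    · subst hqt
      exact (piE_spec hB hqE).2.2.1 y hy x hx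
    · haveI : (pCore q G).Normal := Fitting.normal_pCore q
      haveI : (pCore t G).Normal := Fitting.normal_pCore t
      have hdis : Disjoint (pCore t G) (pCore q G) := by
        rw [disjoint_iff]
        apply inf_eq_bot_of_coprime'
        obtain ⟨k, hk⟩ := (Cores.isPGroup_pCore t G).exists_card_eq
        obtain ⟨l, hl⟩ := (Cores.isPGroup_pCore q G).exists_card_eq
        rw [hk, hl]
        exact Nat.Coprime.pow _ _ ((Nat.coprime_primes ht'.out hq.out).2 fun h => hqt h.symm)
      exact Subgroup.commute_of_normal_of_disjoint _ _ inferInstance inferInstance hdis y x hy hx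
  have h2 : EE G ≤ centralizer (EE G : Set G) := by
    apply le_of_forall le_rfl
    intro q hq hqE P hPX hP
    have hP' := le_pCore_of_piE hB hqE hP
    refine hP'.trans ?_
    rw [Subgroup.le_centralizer_iff]
    exact h1 q hqE
  intro a ha b hb
  exact (mem_centralizer_iff.1 (h2 hb) a ha)

theorem EE_coprime [hsol : Group.IsSolvable G] (hB : ∀ p : ℕ, p.Prime → Bp p G) :
    (Nat.card (EE G)).Coprime (EE G).index := by
  by_contra hcon
  obtain ⟨q, hq, h1, h2⟩ := Nat.Prime.not_coprime_iff_dvd.1 hcon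
  haveI : Fact q.Prime := ⟨hq⟩
  have hqE := mem_piE_of_dvd hq h1
  obtain ⟨P⟩ : Nonempty (Sylow q G) := inferInstance
  have hP : (P : Subgroup G) ≤ EE G := by rw [(piE_spec hB hqE).1 P]; exact pCore_le_EE hqE
  exact P.not_dvd_index (h2.trans (Subgroup.index_dvd_of_le hP))

/-- data for the final reduction -/
theorem final_data (R : Subgroup G) [R.Normal]
    (h : ∀ (q : ℕ) [Fact q.Prime] (P : Sylow q G), (P : Subgroup G) ≤ R ∨
      (¬ q ∣ Nat.card R ∧ IsCyclic (P : Subgroup G))) :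
    (Nat.card R).Coprime R.index ∧ IsZGroup (G ⧸ R) := by
  constructor
  · by_contra hcon
    obtain ⟨q, hq, h1, h2⟩ := Nat.Prime.not_coprime_iff_dvd.1 hcon
    haveI : Fact q.Prime := ⟨hq⟩
    obtain ⟨P⟩ : Nonempty (Sylow q G) := inferInstance
    rcases h q P with h3 | h3
    · exact P.not_dvd_index (h2.trans (Subgroup.index_dvd_of_le h3))
    · exact h3.1 h1
  · refine ⟨fun q hq Q => ?_⟩
    haveI : Fact q.Prime := ⟨hq⟩
    obtain ⟨P, rfl⟩ := Sylow.mapSurjective_surjective (QuotientGroup.mk'_surjective R) q Q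
    rcases h q P with h3 | h3
    · have h4 : (P : Subgroup G).map (QuotientGroup.mk' R) = ⊥ := by
        rw [Subgroup.map_eq_bot_iff, QuotientGroup.ker_mk']; exact h3
      show IsCyclic ((P : Subgroup G).map (QuotientGroup.mk' R))
      rw [h4]; infer_instance
    · haveI := h3.2
      exact isCyclic_of_surjective ((QuotientGroup.mk' R).subgroupMap P)
        ((QuotientGroup.mk' R).subgroupMap_surjective P)

/-- a Sylow subgroup for a prime outside `piE` is cyclic or quaternion -/
theorem cyclic_or_quat [hsol : Group.IsSolvable G] (hB : ∀ p : ℕ, p.Prime → Bp p G) {q : ℕ}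
    [hq : Fact q.Prime] (hqE : q ∉ piE G) (P : Sylow q G) :
    IsCyclic (P : Subgroup G) ∨ (q = 2 ∧ Nonempty ((P : Subgroup G) ≃* QuaternionGroup 2)) := by
  rcases sylow_str (hB q hq.out) P with h | h | h
  · exact Or.inl h
  · left
    by_contra hnc
    exact hqE ⟨hq.out, P, hnc, h.1, h.2⟩
  · exact Or.inr h

section quat

theorem orderOf_four {u : QuaternionGroup 2} (h : u * u ≠ 1) : orderOf u = 2 ^ 2 := by
  apply orderOf_eq_prime_pow
  · rw [pow_one, pow_two]; exact h
  · revert u; decide +kernel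

omit [Finite G] in
theorem quat_le_of_mem (hB : Bp 2 G) {X : Subgroup G} (e : X ≃* QuaternionGroup 2) {N : Subgroup G}
    [hN : N.Normal] (hy : ∃ y ∈ N, orderOf y = 2 ^ 2) : X ≤ N := by
  obtain ⟨y, hyN, hyo⟩ := hy
  have h1 : ∀ u : QuaternionGroup 2, u * u ≠ 1 → ((e.symm u : X) : G) ∈ N := fun u hu =>
    hB.mem_of_orderOf_eq hyN hyo (by rw [Subgroup.orderOf_coe, MulEquiv.orderOf_eq, orderOf_four hu])
  have h2 : ∀ u : QuaternionGroup 2, ∃ v w : QuaternionGroup 2, v * v ≠ 1 ∧ w * w ≠ 1 ∧ (u = v ∨ u = v * w) := by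
    decide +kernel
  intro x hx
  obtain ⟨u, hu⟩ := e.symm.surjective ⟨x, hx⟩
  obtain ⟨v, w, hv, hw, h3⟩ := h2 u
  have hxu : x = ((e.symm u : X) : G) := by rw [hu]
  rw [hxu]
  rcases h3 with rfl | rfl
  · exact h1 _ hv
  · rw [map_mul, Subgroup.coe_mul]; exact N.mul_mem (h1 _ hv) (h1 _ hw)

theorem le_of_relIndex {p : ℕ} [hp : Fact p.Prime] {P N F : Subgroup G} [N.Normal] (hPF : P ≤ F)
    (hP : IsPGroup p P) (h : (N.relIndex F).Coprime p) : P ≤ N := by
  set f := QuotientGroup.mk' N with hf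
  have h1 : N.relIndex F = Nat.card (F.map f) := by
    rw [← Subgroup.relIndex_ker, hf, QuotientGroup.ker_mk']
  obtain ⟨k, hk⟩ := (hP.map f).exists_card_eq
  have h2 : p ^ k ∣ N.relIndex F := by rw [← hk, h1]; exact Subgroup.card_dvd_of_le (map_mono hPF)
  have h3 : P.map f = ⊥ := by
    rw [← Subgroup.card_eq_one, hk]
    rcases Nat.eq_zero_or_pos k with rfl | hk0
    · exact pow_zero p
    · exfalso
      exact (Nat.Prime.coprime_iff_not_dvd hp.out).1 h.symm ((dvd_pow_self p hk0.ne').trans h2)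
  rwa [Subgroup.map_eq_bot_iff, hf, QuotientGroup.ker_mk'] at h3

theorem dq4 : ∀ w : QuaternionGroup 2, w * .xa 0 = .xa 0 * w → w * w ≠ 1 →
    (w * (QuaternionGroup.a 1)⁻¹) * (w * (QuaternionGroup.a 1)⁻¹) ≠ 1 := by decide +kernel

theorem dq5 : ∀ w : QuaternionGroup 2, w * w = 1 → ∀ v, v * w = w * v := by decide +kernel

/-- a quaternion Sylow subgroup is normal if the `O_q(G)`, `q` odd, are cyclic -/
theorem quat_le_pCore [hsol : Group.IsSolvable G] (hB : Bp 2 G) (T : Sylow 2 G)
    (e : (T : Subgroup G) ≃* QuaternionGroup 2)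
    (hcyc : ∀ q : ℕ, q.Prime → q ≠ 2 → IsCyclic (pCore q G)) : (T : Subgroup G) ≤ pCore 2 G := by
  by_contra hcon
  haveI : (pCore 2 G).Normal := Fitting.normal_pCore 2
  have hno : ∀ y ∈ pCore 2 G, orderOf y ≠ 2 ^ 2 := fun y hy hyo => hcon (quat_le_of_mem hB e ⟨y, hy, hyo⟩)
  have hOT : pCore 2 G ≤ T := Cores.pCore_le_sylow T
  -- `T` centralizes `O_2(G)`
  have h2 : (T : Subgroup G) ≤ centralizer (pCore 2 G : Set G) := by
    intro x hx
    rw [mem_centralizer_iff]
    intro y hy
    have hyy : e ⟨y, hOT hy⟩ * e ⟨y, hOT hy⟩ = 1 := by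
      by_contra h3
      apply hno y hy
      rw [← orderOf_four h3, MulEquiv.orderOf_eq, Subgroup.orderOf_mk]
    have h4 := dq5 _ hyy (e ⟨x, hx⟩)
    rw [← map_mul, ← map_mul] at h4
    exact (congrArg Subtype.val (e.injective h4)).symm
  -- `T` is contained in the commutator subgroup
  have h3 : (T : Subgroup G) ≤ ⁅(⊤ : Subgroup G), ⊤⁆ := by
    apply quat_le_of_mem hB e
    set x : G := ((e.symm (.a 1) : (T : Subgroup G)) : G) with hx
    set y : G := ((e.symm (.xa 0) : (T : Subgroup G)) : G) with hy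
    have hxo : orderOf x = 2 ^ 2 := by
      rw [hx, Subgroup.orderOf_coe, MulEquiv.orderOf_eq]; exact orderOf_four (by decide)
    have hyo : orderOf y = 2 ^ 2 := by
      rw [hy, Subgroup.orderOf_coe, MulEquiv.orderOf_eq]; exact orderOf_four (by decide)
    obtain ⟨g, hg⟩ := hB (zpowers x) (zpowers y) (IsPGroup.of_card (by rw [Nat.card_zpowers, hxo]))
      (IsPGroup.of_card (by rw [Nat.card_zpowers, hyo])) inferInstance inferInstance
      (by rw [Nat.card_zpowers, Nat.card_zpowers, hxo, hyo])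
    have h1 : g * x * g⁻¹ ∈ zpowers y := by
      rw [← hg, mem_conj_smul]
      have : g⁻¹ * (g * x * g⁻¹) * g = x := by group
      rw [this]; exact mem_zpowers x
    have hyT : y ∈ (T : Subgroup G) := Subtype.prop _
    have hwT : g * x * g⁻¹ ∈ (T : Subgroup G) := (zpowers_le.2 hyT) h1
    refine ⟨⁅g, x⁆, commutator_mem_commutator (mem_top g) (mem_top x), ?_⟩
    have hcT : ⁅g, x⁆ ∈ (T : Subgroup G) := by
      rw [commutatorElement_def]
      exact (T : Subgroup G).mul_mem hwT ((T : Subgroup G).inv_mem (Subtype.prop _))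
    have h5 : e ⟨⁅g, x⁆, hcT⟩ = e ⟨g * x * g⁻¹, hwT⟩ * (QuaternionGroup.a 1)⁻¹ := by
      have h6 : (⟨⁅g, x⁆, hcT⟩ : (T : Subgroup G)) = ⟨g * x * g⁻¹, hwT⟩ * (e.symm (.a 1))⁻¹ :=
        Subtype.ext (commutatorElement_def g x)
      rw [h6, map_mul, map_inv, MulEquiv.apply_symm_apply]
    have h6 : orderOf (e ⟨⁅g, x⁆, hcT⟩) = 2 ^ 2 := by
      rw [h5]
      apply orderOf_four
      apply dq4
      · have h7 : (⟨g * x * g⁻¹, hwT⟩ : (T : Subgroup G)) * e.symm (.xa 0) =
            e.symm (.xa 0) * ⟨g * x * g⁻¹, hwT⟩ := by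
          apply Subtype.ext
          obtain ⟨k, hk⟩ := h1
          change g * x * g⁻¹ * y = y * (g * x * g⁻¹)
          rw [← hk]
          exact ((Commute.refl y).zpow_left k).eq
        have h8 := congrArg e h7
        rwa [map_mul, map_mul, MulEquiv.apply_symm_apply] at h8
      · intro h7
        rw [← map_mul, ← map_one e] at h7
        have h8 : (g * x * g⁻¹) * (g * x * g⁻¹) = 1 := congrArg Subtype.val (e.injective h7)
        have h9 : g * (x * x) * g⁻¹ = 1 := by rw [← h8]; group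
        rw [conj_eq_one_iff] at h9
        have h10 : orderOf x ∣ 2 := orderOf_dvd_of_pow_eq_one (by rw [pow_two]; exact h9)
        rw [hxo] at h10
        revert h10; decide
    rwa [MulEquiv.orderOf_eq, Subgroup.orderOf_mk] at h6
  -- `T` centralizes the Fitting subgroup
  have h4 : ∀ q : ℕ, q.Prime → (T : Subgroup G) ≤ centralizer (pCore q G : Set G) := by
    intro q hq
    by_cases hq2 : q = 2
    · rw [hq2]; exact h2
    · haveI : (pCore q G).Normal := Fitting.normal_pCore q
      exact h3.trans (BG03o.commutator_le_centralizer_of_cyclic (C := pCore q G) (N := ⊤)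
        (hcyc q hq hq2) (by rw [normalizer_eq_top_iff.2 inferInstance]))
  have h5 : (T : Subgroup G) ≤ centralizer (fittingSubgroup G : Set G) := by
    rw [Subgroup.le_centralizer_iff, Cores.fittingSubgroup_eq_iSup]
    apply iSup_le
    intro p
    rw [Subgroup.le_centralizer_iff]
    exact h4 p p.2
  have h6 := h5.trans Fitting.centralizer_fittingSubgroup_le
  have h7 := Cores.coprime_index_pCore_fitProd (G := G) ⟨2, Nat.prime_two⟩
  rw [← Cores.fittingSubgroup_eq_fitProd] at h7
  exact hcon (le_of_relIndex h6 T.2 h7)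

end quat

end Cfsg.Agent.Lib.H30SO
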