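import Mathlib

/-!
Counting zeros of quadratic maps.
-/

set_option autoImplicit false

namespace Cfsg.Agent.Lib.H30SX

universe u

/-- Gauss sum identity. -/
theorem gauss {V : Type u} [Group V] [Fintype V] [DecidableEq V] (F : V → ℤ) (Q : V → V → ℤ)
    (hF : ∀ x u, F (x * u) = F x * F u * Q x u) (hF2 : ∀ x, F x * F x = 1)
    (hG : ∀ x y u, Q (x * y) u = Q x u * Q y u) (hG1 : ∀ x u, Q x u = 1 ∨ Q x u = -1) :
    (∑ x, F x) ^ 2 = (Fintype.card V : ℤ) * ∑ u with (∀ x, Q x u = 1), F u := by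
  classical
  have h1 : (∑ x, F x) ^ 2 = ∑ u, F u * ∑ x, Q x u := by
    rw [pow_two, Finset.sum_mul_sum]
    have h2 : ∀ x : V, ∑ y, F x * F y = ∑ u, F u * Q x u := by
      intro x
      rw [← Equiv.sum_comp (Equiv.mulLeft x) (fun y => F x * F y)]
      refine Finset.sum_congr rfl fun u _ => ?_
      rw [Equiv.coe_mulLeft, hF, ← mul_assoc, ← mul_assoc, hF2, one_mul]
    rw [Finset.sum_congr rfl fun x _ => h2 x, Finset.sum_comm]
    refine Finset.sum_congr rfl fun u _ => ?_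
    rw [Finset.mul_sum]
  rw [h1, Finset.mul_sum, Finset.sum_filter]
  refine Finset.sum_congr rfl fun u _ => ?_
  split_ifs with h
  · rw [Finset.sum_congr rfl fun x _ => h x, Finset.sum_const, Finset.card_univ, mul_comm]
    simp
  · push Not at h
    obtain ⟨x0, hx0⟩ := h
    have hx0' : Q x0 u = -1 := (hG1 x0 u).resolve_left hx0
    have h3 : ∑ x, Q x u = -∑ x, Q x u := by
      conv_lhs => rw [← Equiv.sum_comp (Equiv.mulLeft x0) (fun x => Q x u)]
      rw [← Finset.sum_neg_distrib]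
      refine Finset.sum_congr rfl fun x _ => ?_
      rw [Equiv.coe_mulLeft, hG, hx0', neg_one_mul]
    have h4 : ∑ x, Q x u = 0 := by linarith
    rw [h4, mul_zero]

theorem dvd_of_sq {n k : ℕ} {S T : ℤ} (h : S ^ 2 = (2 ^ n : ℤ) * T) (hk : 2 * k ≤ n + 1) : (2 ^ k : ℤ) ∣ S := by
  rcases Nat.eq_zero_or_pos k with rfl | hk0
  · simp
  by_cases hS : S = 0
  · rw [hS]; exact dvd_zero _
  have h1 : (2 : ℤ) ^ (2 * k - 1) ∣ S ^ 2 := by
    rw [h]
    exact (pow_dvd_pow 2 (by omega)).trans (dvd_mul_right _ _)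
  have h2 : (2 : ℕ) ^ (2 * k - 1) ∣ S.natAbs ^ 2 := by
    rw [← Int.natAbs_pow]
    have := Int.natAbs_dvd_natAbs.2 h1
    rwa [Int.natAbs_pow] at this
  have h3 : (2 : ℕ) ^ k ∣ S.natAbs := by
    have hne : S.natAbs ≠ 0 := by rwa [Int.natAbs_ne_zero]
    rw [Nat.Prime.pow_dvd_iff_le_factorization Nat.prime_two (pow_ne_zero 2 hne), Nat.factorization_pow] at h2
    rw [Nat.Prime.pow_dvd_iff_le_factorization Nat.prime_two hne]
    simp only [Finsupp.smul_apply, smul_eq_mul] at h2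
    omega
  have h4 := Int.natCast_dvd.2 h3
  simpa using h4

end Cfsg.Agent.Lib.H30SX
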