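import Cfsg.Agent.Lib.H30SXa
import Cfsg.Agent.Lib.UniqueInvolution
import Cfsg.Agent.Lib.H30SOc

/-!
Special 2-groups without normal elementary abelian subgroups of order 8.
-/

set_option autoImplicit false

namespace Cfsg.Agent.Lib.H30SX

open Subgroup

universe u

variable {X : Type u} [Group X]

/-- special 2-groups (centre `Z`) with no normal `E₈` -/
structure Sp (Z : Subgroup X) : Prop where
  cen : ∀ a ∈ Z, ∀ x, a * x = x * a
  sq : ∀ x, x * x ∈ Z
  cm : ∀ x y, x * y * x⁻¹ * y⁻¹ ∈ Z
  two : ∀ a ∈ Z, a * a = 1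
  max : ∀ x, (∀ y, x * y = y * x) → x ∈ Z
  e8 : ∀ E : Subgroup X, Z ≤ E → (∀ a ∈ E, ∀ b ∈ E, a * b = b * a) → (∀ a ∈ E, a * a = 1) →
    Nat.card E ≤ 4

/-- commutator -/
def cc (x u : X) : X := x⁻¹ * u * x * u⁻¹

namespace Sp

variable {Z : Subgroup X} (h : Sp Z)
include h

theorem cc_mem (x u : X) : cc x u ∈ Z := by
  have := h.cm x⁻¹ u
  rwa [inv_inv] at this

theorem mul_sq (x u : X) : (x * u) * (x * u) = (x * x) * (u * u) * cc x u := by
  have h1 : (x * u) * (x * u) = (x * x) * (cc x u * (u * u)) := by unfold cc; group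
  rw [h1, h.cen _ (h.cc_mem x u), ← mul_assoc]

theorem cc_mul (x y u : X) : cc (x * y) u = cc x u * cc y u := by
  have h1 : cc (x * y) u = y⁻¹ * cc x u * (u * y * u⁻¹) := by unfold cc; group
  rw [h1, ← h.cen _ (h.cc_mem x u)]
  unfold cc; group

theorem cc_symm (x u : X) : cc x u = cc u x := by
  have h1 : cc u x = u⁻¹ * (x * u * x⁻¹) := by unfold cc; group
  have h2 : (cc x u)⁻¹ = u * (x⁻¹ * u⁻¹ * x) := by unfold cc; group
  have h3 : cc x u = (cc x u)⁻¹ := by
    rw [eq_inv_iff_mul_eq_one]; exact h.two _ (h.cc_mem x u)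
  -- both measure the same commutator
  have h4 : cc x u * cc u x = 1 := by
    have e1 : cc x u * (u * x) = x⁻¹ * u * x * x := by unfold cc; group
    have e2 : cc u x * (x * u) = u⁻¹ * x * u * u := by unfold cc; group
    -- use squares
    have e3 := h.mul_sq x u
    have e4 := h.mul_sq u x
    have e5 : (u * x) * (u * x) = x * ((u * x) * (u * x)) * x⁻¹ := by
      rw [← h.cen _ (h.sq (u * x)) x]; group
    have e6 : x * ((u * x) * (u * x)) * x⁻¹ = (x * u) * (x * u) := by group
    rw [e6, e3, e4, h.cen _ (h.sq u)] at e5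
    have e7 : cc u x = cc x u := mul_left_cancel e5
    rw [e7]; exact h.two _ (h.cc_mem x u)
  rw [h3]
  exact inv_eq_of_mul_eq_one_right h4

theorem cc_right (x u v : X) : cc x (u * v) = cc x u * cc x v := by
  rw [h.cc_symm, h.cc_mul, h.cc_symm u, h.cc_symm v]

theorem cc_cen {a : X} (ha : a ∈ Z) (x : X) : cc a x = 1 := by
  unfold cc
  rw [mul_assoc, mul_assoc, ← mul_assoc x, ← h.cen a ha (x), mul_assoc a, mul_inv_cancel, mul_one,
    inv_mul_cancel]

theorem cc_self (x : X) : cc x x = 1 := by unfold cc; group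

theorem comm_iff (x u : X) : cc x u = 1 ↔ x * u = u * x := by
  unfold cc
  rw [mul_inv_eq_one, mul_assoc, inv_mul_eq_iff_eq_mul]
  exact eq_comm

theorem normal : Z.Normal := ⟨fun a ha g => by rw [← h.cen a ha, mul_inv_cancel_right]; exact ha⟩

theorem mul_cen_sq {a : X} (ha : a ∈ Z) (x : X) : (x * a) * (x * a) = x * x := by
  rw [h.mul_sq, h.two a ha, mul_one, h.cc_symm, h.cc_cen ha, mul_one]

/-- any set of commuting involutions together with `Z` generates an elementary abelian group -/
theorem closure_facts {t s : X} (ht : t * t = 1) (hs : s * s = 1) (hts : t * s = s * t) :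
    ∃ E : Subgroup X, Z ≤ E ∧ t ∈ E ∧ s ∈ E ∧ (∀ a ∈ E, ∀ b ∈ E, a * b = b * a) ∧
      (∀ a ∈ E, a * a = 1) := by
  set S : Set X := (Z : Set X) ∪ {t, s} with hS
  have hcomm : ∀ a ∈ S, ∀ b ∈ S, a * b = b * a := by
    rintro a (ha | ha | ha) b (hb | hb | hb)
    · exact h.cen a ha b
    · exact h.cen a ha b
    · exact h.cen a ha b
    · exact (h.cen b hb a).symm
    · rw [ha, hb]
    · rw [ha, hb, hts]
    · exact (h.cen b hb a).symm
    · rw [ha, hb, hts]
    · rw [ha, hb]
  have hcl : ∀ a ∈ closure S, ∀ b ∈ closure S, a * b = b * a := by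
    intro a ha b hb
    have h1 := isMulCommutative_iff_of_setLike.1 (Subgroup.isMulCommutative_closure hcomm)
    exact h1 a ha b hb
  refine ⟨closure S, fun a ha => subset_closure (Or.inl ha), subset_closure (Or.inr (Or.inl rfl)),
    subset_closure (Or.inr (Or.inr rfl)), hcl, ?_⟩
  intro a ha
  induction ha using closure_induction with
  | mem x hx =>
    rcases hx with hx | hx | hx
    · exact h.two x hx
    · rw [hx, ht]
    · rw [hx, hs]
  | one => exact mul_one 1
  | mul x y hx hy h1 h2 =>
    have := hcl x hx y hy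
    calc x * y * (x * y) = x * (y * x) * y := by group
      _ = x * (x * y) * y := by rw [this]
      _ = (x * x) * (y * y) := by group
      _ = 1 := by rw [h1, h2, mul_one]
  | inv x hx h1 => rw [← mul_inv_rev, h1, inv_one]

end Sp

/-- the case of a centre of order two, no further involution -/
theorem quat_of_unique [Finite X] {Z : Subgroup X} (h : Sp Z) (hX : IsPGroup 2 X) (hZ : Nat.card Z = 2)
    (hna : ∃ x y : X, x * y ≠ y * x) (hno : ∀ t : X, t * t = 1 → t ∈ Z) :
    Nonempty (X ≃* QuaternionGroup 2) := by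
  haveI : Fact (Nat.Prime 2) := ⟨Nat.prime_two⟩
  rcases UniqueInvolution.isCyclic_or_quaternion hX (by
    intro x y hx hy
    have hx2 : x * x = 1 := by rw [← pow_two, ← hx, pow_orderOf_eq_one]
    have hy2 : y * y = 1 := by rw [← pow_two, ← hy, pow_orderOf_eq_one]
    have h1 : zpowers x = Z := Subgroup.eq_of_le_of_card_ge (zpowers_le.2 (hno x hx2)) (by
      rw [Nat.card_zpowers, hx, hZ])
    rw [h1]; exact hno y hy2) with h1 | ⟨-, n, hn, ⟨e⟩⟩
  · exfalso
    obtain ⟨x, y, hxy⟩ := hna
    exact hxy (h1.commGroup.mul_comm x y)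
  · haveI : NeZero (2 ^ n) := ⟨by positivity⟩
    have h2 : ∀ x : X, x ^ 4 = 1 := by
      intro x
      have : x ^ 4 = (x * x) * (x * x) := by rw [show (4 : ℕ) = 2 * 2 by norm_num, pow_mul, pow_two, pow_two]
      rw [this]; exact h.two _ (h.sq x)
    have h3 : (QuaternionGroup.a 1 : QuaternionGroup (2 ^ n)) ^ 4 = 1 := by
      have := congrArg e (h2 (e.symm (.a 1)))
      rwa [map_pow, map_one, MulEquiv.apply_symm_apply] at this
    have h4 : 2 * 2 ^ n ∣ 4 := by
      have h5 := orderOf_dvd_of_pow_eq_one h3
      rwa [QuaternionGroup.orderOf_a_one] at h5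
    have h5 := Nat.le_of_dvd (by norm_num) h4
    have hn1 : n = 1 := by
      by_contra hcon
      have h6 : 2 ^ 2 ≤ 2 ^ n := Nat.pow_le_pow_right (by norm_num) (by omega)
      omega
    subst hn1
    exact ⟨e⟩

/-- the case of a centre of order two with a noncentral involution -/
theorem card_of_invol [Finite X] {Z : Subgroup X} (h : Sp Z) (hZ : Nat.card Z = 2) {t : X}
    (ht : t * t = 1) (htZ : t ∉ Z) :
    (Nat.card X = 32 ∧ Nat.card {x : X // orderOf x = 2} = 11) ∨
      ∃ w : X, w ∉ Z ∧ w * w ≠ 1 ∧ ∀ x, x * x ≠ 1 → w⁻¹ * x ∈ Z := by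
  classical
  haveI : Fintype X := Fintype.ofFinite X
  haveI : Finite Z := inferInstance
  -- the involution `z`
  obtain ⟨z, hzZ, hz1, hZe⟩ : ∃ z ∈ Z, z ≠ 1 ∧ ∀ a ∈ Z, a = 1 ∨ a = z := by
    obtain ⟨⟨z, hz⟩, hz1, hall⟩ := (Nat.card_eq_two_iff' (1 : Z)).1 hZ
    refine ⟨z, hz, fun h => hz1 (Subtype.ext h), fun a ha => ?_⟩
    by_cases ha1 : a = 1
    · exact Or.inl ha1
    · right
      have := hall ⟨a, ha⟩ (fun h => ha1 (congrArg Subtype.val h))
      exact congrArg Subtype.val this
  set ε : X → ℤ := fun y => if y = 1 then 1 else -1 with hε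
  have hε1 : ε 1 = 1 := by simp [hε]
  have hεz : ε z = -1 := by simp [hε, hz1]
  have hzz : z * z = 1 := h.two z hzZ
  have hεm : ∀ a ∈ Z, ∀ b ∈ Z, ε (a * b) = ε a * ε b := by
    intro a ha b hb
    rcases hZe a ha with rfl | rfl <;> rcases hZe b hb with rfl | rfl
    · rw [mul_one, hε1]; norm_num
    · rw [one_mul, hε1, one_mul]
    · rw [mul_one, hε1, mul_one]
    · rw [hzz, hε1, hεz]; norm_num
  have hε2 : ∀ y, ε y = 1 ∨ ε y = -1 := by
    intro y; simp only [hε]; split_ifs <;> simp
  set F : X → ℤ := fun x => ε (x * x) with hF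
  set Q : X → X → ℤ := fun x u => ε (cc x u) with hQ
  have hg := gauss F Q (by
    intro x u
    simp only [hF, hQ]
    rw [h.mul_sq, hεm _ (Z.mul_mem (h.sq x) (h.sq u)) _ (h.cc_mem x u), hεm _ (h.sq x) _ (h.sq u)])
    (by intro x; rcases hε2 (x * x) with h1 | h1 <;> simp [hF, h1])
    (by intro x y u; simp only [hQ]; rw [h.cc_mul, hεm _ (h.cc_mem x u) _ (h.cc_mem y u)])
    (by intro x u; exact hε2 _)
  have hR : (Finset.univ.filter fun u : X => ∀ x, Q x u = 1) = {1, z} := by
    ext u
    simp only [Finset.mem_filter, Finset.mem_univ, true_and, Finset.mem_insert, Finset.mem_singleton]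
    constructor
    · intro hu
      apply hZe
      apply h.max
      intro y
      have h1 := hu y
      simp only [hQ, hε] at h1
      by_cases h2 : cc y u = 1
      · exact ((h.comm_iff y u).1 h2).symm
      · rw [if_neg h2] at h1; exact absurd h1 (by norm_num)
    · intro hu x
      have huZ : u ∈ Z := by rcases hu with rfl | rfl; exacts [one_mem _, hzZ]
      simp only [hQ]
      rw [h.cc_symm, h.cc_cen huZ, hε1]
  rw [hR, Finset.sum_pair hz1.symm] at hg
  have hF1 : F 1 = 1 := by simp only [hF]; rw [mul_one, hε1]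
  have hFz : F z = 1 := by simp only [hF]; rw [hzz, hε1]
  rw [hF1, hFz] at hg
  -- the centralizer of `t`
  set Yf : Finset X := Finset.univ.filter fun y => t * y = y * t with hYf
  have hcct : ∀ w, ¬ t * w = w * t → cc w t = z := by
    intro w hw
    rcases hZe _ (h.cc_mem w t) with h1 | h1
    · exact absurd ((h.comm_iff w t).1 h1).symm hw
    · exact h1
  have hsumN : ∑ x ∈ Yfᶜ, F x = 0 := by
    have h1 : ∑ x ∈ Yfᶜ, F x = ∑ x ∈ Yfᶜ, F (x * t) := by
      symm
      refine Finset.sum_nbij' (fun x => x * t) (fun x => x * t) ?_ ?_ ?_ ?_ ?_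
      · intro x hx
        simp only [hYf, Finset.mem_compl, Finset.mem_filter, Finset.mem_univ, true_and] at hx ⊢
        intro h2; apply hx
        rw [← mul_assoc] at h2
        exact mul_right_cancel h2
      · intro x hx
        simp only [hYf, Finset.mem_compl, Finset.mem_filter, Finset.mem_univ, true_and] at hx ⊢
        intro h2; apply hx
        rw [← mul_assoc] at h2
        exact mul_right_cancel h2
      · intro x _; rw [mul_assoc, ht, mul_one]
      · intro x _; rw [mul_assoc, ht, mul_one]
      · intro x _; rfl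
    have h2 : ∀ x ∈ Yfᶜ, F (x * t) = - F x := by
      intro x hx
      simp only [hYf, Finset.mem_compl, Finset.mem_filter, Finset.mem_univ, true_and] at hx
      simp only [hF]
      rw [h.mul_sq, ht, mul_one, hcct x hx, hεm _ (h.sq x) _ hzZ, hεz]; ring
    rw [Finset.sum_congr rfl h2, Finset.sum_neg_distrib] at h1
    linarith
  -- involutions commuting with `t`
  have hYinv : ∀ y, t * y = y * t → y * y = 1 → y = 1 ∨ y = z ∨ y = t ∨ y = t * z := by
    intro y hty hy
    by_contra hcon
    push Not at hcon
    obtain ⟨hy1, hyz, hyt, hytz⟩ := hcon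
    obtain ⟨E, hZE, htE, hyE, hEc, hE2⟩ := h.closure_facts ht hy hty
    have h4 := h.e8 E hZE hEc hE2
    have hzt : z ≠ t := fun h => htZ (h ▸ hzZ)
    have h1t : (1 : X) ≠ t := fun h => htZ (h ▸ one_mem _)
    have h5 : ({1, z, t, t * z, y} : Finset X).card = 5 := by
      rw [Finset.card_insert_of_notMem, Finset.card_insert_of_notMem, Finset.card_insert_of_notMem,
        Finset.card_insert_of_notMem, Finset.card_singleton]
      · rw [Finset.mem_singleton]; exact hytz.symm
      · simp only [Finset.mem_insert, Finset.mem_singleton, not_or]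
        exact ⟨fun h => hz1 (by simpa using h.symm), hyt.symm⟩
      · simp only [Finset.mem_insert, Finset.mem_singleton, not_or]
        exact ⟨hzt, fun h => h1t (mul_right_cancel (by rw [one_mul]; exact h)), hyz.symm⟩
      · simp only [Finset.mem_insert, Finset.mem_singleton, not_or]
        refine ⟨hz1.symm, h1t, fun h => ?_, hy1.symm⟩
        apply hzt
        have h6 : t * (t * z) = t := by rw [← h, mul_one]
        rw [← mul_assoc, ht, one_mul] at h6
        exact h6
    have h6 : ({1, z, t, t * z, y} : Finset X).card ≤ Nat.card E := by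
      rw [show Nat.card E = Nat.card (E : Set X) from rfl, Nat.card_eq_card_toFinset]
      apply Finset.card_le_card
      intro a ha
      simp only [Finset.mem_insert, Finset.mem_singleton] at ha
      rw [Set.mem_toFinset]
      rcases ha with rfl | rfl | rfl | rfl | rfl
      · exact one_mem E
      · exact hZE hzZ
      · exact htE
      · exact E.mul_mem htE (hZE hzZ)
      · exact hyE
    omega
  have hsumY : ∑ x ∈ Yf, F x = 8 - Yf.card := by
    have h1 : ∀ x ∈ Yf, F x = (if x ∈ ({1, z, t, t * z} : Finset X) then 2 else 0) - 1 := by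
      intro x hx
      simp only [hYf, Finset.mem_filter, Finset.mem_univ, true_and] at hx
      simp only [hF, hε]
      by_cases hx2 : x * x = 1
      · rw [if_pos hx2, if_pos]
        · norm_num
        · simp only [Finset.mem_insert, Finset.mem_singleton]
          exact hYinv x hx hx2
      · rw [if_neg hx2, if_neg]
        · norm_num
        · simp only [Finset.mem_insert, Finset.mem_singleton]
          rintro (rfl | rfl | rfl | rfl)
          · exact hx2 (mul_one 1)
          · exact hx2 hzz
          · exact hx2 ht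
          · exact hx2 (by rw [h.mul_cen_sq hzZ, ht])
    rw [Finset.sum_congr rfl h1, Finset.sum_sub_distrib, Finset.sum_ite_mem]
    have h2 : Yf ∩ ({1, z, t, t * z} : Finset X) = {1, z, t, t * z} := by
      rw [Finset.inter_eq_right]
      intro a ha
      simp only [Finset.mem_insert, Finset.mem_singleton] at ha
      simp only [hYf, Finset.mem_filter, Finset.mem_univ, true_and]
      rcases ha with rfl | rfl | rfl | rfl
      · rw [mul_one, one_mul]
      · exact (h.cen _ hzZ t).symm
      · rfl
      · rw [mul_assoc, h.cen z hzZ t]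
    have hzt : z ≠ t := fun h => htZ (h ▸ hzZ)
    have h1t : (1 : X) ≠ t := fun h => htZ (h ▸ one_mem _)
    have h3 : ({1, z, t, t * z} : Finset X).card = 4 := by
      rw [Finset.card_insert_of_notMem, Finset.card_insert_of_notMem, Finset.card_insert_of_notMem,
        Finset.card_singleton]
      · rw [Finset.mem_singleton]; exact fun h => hz1 (by simpa using h.symm)
      · simp only [Finset.mem_insert, Finset.mem_singleton, not_or]
        exact ⟨hzt, fun h => h1t (mul_right_cancel (by rw [one_mul]; exact h))⟩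
      · simp only [Finset.mem_insert, Finset.mem_singleton, not_or]
        refine ⟨hz1.symm, h1t, fun h => ?_⟩
        apply hzt
        have h6 : t * (t * z) = t := by rw [← h, mul_one]
        rw [← mul_assoc, ht, one_mul] at h6
        exact h6
    rw [h2, Finset.sum_const, Finset.sum_const, h3]
    simp only [nsmul_eq_mul]
    push_cast; ring
  have hsum : ∑ x, F x = 8 - Yf.card := by
    rw [← Finset.sum_add_sum_compl Yf, hsumN, hsumY, add_zero]
  -- `|X| = 2 |Y|`
  have hcardX : Fintype.card X = 2 * Yf.card := by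
    obtain ⟨g, hg⟩ : ∃ g, ¬ t * g = g * t := by
      by_contra hcon
      push Not at hcon
      exact htZ (h.max t hcon)
    have h1 : Yfᶜ.card = Yf.card := by
      symm
      refine Finset.card_bij' (fun x _ => g * x) (fun x _ => g⁻¹ * x) ?_ ?_ ?_ ?_
      · intro x hx
        simp only [hYf, Finset.mem_compl, Finset.mem_filter, Finset.mem_univ, true_and] at hx ⊢
        intro h2
        apply hg
        have h3 : t * g * x = g * t * x := by rw [mul_assoc, h2, mul_assoc, ← hx, ← mul_assoc]
        exact mul_right_cancel h3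
      · intro x hx
        simp only [hYf, Finset.mem_compl, Finset.mem_filter, Finset.mem_univ, true_and] at hx ⊢
        have h2 : cc (g⁻¹ * x) t = 1 := by
          have h3 : cc (g * (g⁻¹ * x)) t = cc g t * cc (g⁻¹ * x) t := h.cc_mul _ _ _
          rw [mul_inv_cancel_left, hcct x hx, hcct g hg] at h3
          exact (mul_eq_left.1 h3.symm)
        exact ((h.comm_iff _ _).1 h2).symm
      · intro x _; exact inv_mul_cancel_left g x
      · intro x _; exact mul_inv_cancel_left g x
    rw [← Finset.card_add_card_compl Yf, h1]; ring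
  rw [hsum, hcardX] at hg
  push_cast at hg
  set k := Yf.card with hk
  have hk0 : k = 4 ∨ k = 16 := by
    have h1 : ((k : ℤ) - 4) * (k - 16) = 0 := by linarith
    rcases mul_eq_zero.1 h1 with h2 | h2
    · left; omega
    · right; omega
  -- number of solutions of `x² = 1`
  set Nf : Finset X := Finset.univ.filter fun x => x * x = 1 with hNf
  have hN : 2 * (Nf.card : ℤ) - Fintype.card X = 8 - k := by
    rw [← hsum]
    have h1 : ∀ x : X, F x = (if x * x = 1 then 2 else 0) - 1 := by
      intro x
      simp only [hF, hε]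
      split_ifs <;> norm_num
    rw [Finset.sum_congr rfl fun x _ => h1 x, Finset.sum_sub_distrib, ← Finset.sum_filter,
      Finset.sum_const, Finset.sum_const]
    simp only [nsmul_eq_mul, Finset.card_univ]
    push_cast; ring
  rw [hcardX] at hN
  push_cast at hN
  rcases hk0 with hk4 | hk16
  · right
    have hN6 : Nf.card = 6 := by omega
    have hX8 : Fintype.card X = 8 := by omega
    have h1 : Nfᶜ.card = 2 := by rw [Finset.card_compl, hN6, hX8]
    obtain ⟨w, w', hww, hpair⟩ := Finset.card_eq_two.1 h1
    have hw : w * w ≠ 1 := by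
      have : w ∈ Nfᶜ := by rw [hpair]; simp
      simpa [hNf] using this
    have hwz : w * z ≠ w := fun h => hz1 (by simpa using h)
    have hw' : w' = w * z := by
      have h2 : w * z ∈ Nfᶜ := by
        simp only [hNf, Finset.mem_compl, Finset.mem_filter, Finset.mem_univ, true_and]
        rw [h.mul_cen_sq hzZ]; exact hw
      rw [hpair] at h2
      simp only [Finset.mem_insert, Finset.mem_singleton] at h2
      exact (h2.resolve_left hwz).symm
    refine ⟨w, fun hwZ => hw (h.two w hwZ), hw, fun x hx => ?_⟩
    have h2 : x ∈ Nfᶜ := by simpa [hNf] using hx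
    rw [hpair, hw'] at h2
    simp only [Finset.mem_insert, Finset.mem_singleton] at h2
    rcases h2 with rfl | rfl
    · rw [inv_mul_cancel]; exact one_mem _
    · rw [inv_mul_cancel_left]; exact hzZ
  · left
    have hN12 : Nf.card = 12 := by omega
    refine ⟨by rw [Nat.card_eq_fintype_card]; omega, ?_⟩
    have h1 : (Finset.univ.filter fun x : X => orderOf x = 2) = Nf.erase 1 := by
      ext x
      simp only [hNf, Finset.mem_filter, Finset.mem_univ, true_and, Finset.mem_erase]
      rw [orderOf_eq_prime_iff, pow_two]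
      exact and_comm
    rw [Nat.card_eq_fintype_card, Fintype.card_subtype, h1, Finset.card_erase_of_mem, hN12]
    simp [hNf]

end Cfsg.Agent.Lib.H30SX
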