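import Cfsg.Agent.Lib.H30SXb

/-!
Special 2-groups with centre of order four and exactly three involutions.
-/

set_option autoImplicit false

namespace Cfsg.Agent.Lib.H30SX

open Subgroup

universe u

variable {X : Type u} [Group X]

theorem mem_zpowers_two {y a : X} (hy : y * y = 1) : a ∈ zpowers y ↔ a = 1 ∨ a = y := by
  constructor
  · rintro ⟨k, rfl⟩
    change y ^ k = 1 ∨ y ^ k = y
    rcases Int.even_or_odd' k with ⟨j, rfl | rfl⟩
    · left; rw [zpow_mul, zpow_ofNat, pow_two, hy, one_zpow]
    · right; rw [zpow_add, zpow_mul, zpow_ofNat, pow_two, hy, one_zpow, one_mul, zpow_one]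
  · rintro (rfl | rfl)
    · exact one_mem _
    · exact mem_zpowers _

theorem Sp.mem_of_sq [Finite X] {Z : Subgroup X} (h : Sp Z) (hZ : Nat.card Z = 4) {t : X} (ht : t * t = 1) : t ∈ Z := by
  obtain ⟨E, hZE, htE, -, hEc, hE2⟩ := h.closure_facts ht ht rfl
  have h1 := h.e8 E hZE hEc hE2
  have h2 : Z = E := Subgroup.eq_of_le_of_card_ge hZE (by rw [hZ]; exact h1)
  rw [h2]; exact htE

/-- two noncentral elements in different cosets generate modulo `Z` if `|X/Z| ≤ 4` -/
theorem Sp.eq_top [Finite X] {Z : Subgroup X} (h : Sp Z) (hle : Z.index ≤ 4) {K : Subgroup X} (hZK : Z ≤ K)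
    {a b : X} (ha : a ∈ K) (hb : b ∈ K) (hab : cc a b ≠ 1) : K = ⊤ := by
  classical
  haveI := h.normal
  have haZ : a ∉ Z := fun h1 => hab (h.cc_cen h1 b)
  have hbZ : b ∉ Z := fun h1 => hab (by rw [h.cc_symm, h.cc_cen h1])
  have habZ : a⁻¹ * b ∉ Z := by
    intro h1
    apply hab
    have h2 : b = a * (a⁻¹ * b) := by group
    rw [h2, h.cc_right, Sp.cc_self h, one_mul, h.cc_symm, h.cc_cen h1]
  rw [← Subgroup.index_eq_one]
  -- the relative index of `Z` in `K` is at least three
  have h3 : 3 ≤ Z.relIndex K := by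
    have e1 : ((1 : K) : K ⧸ Z.subgroupOf K) ≠ ((⟨a, ha⟩ : K) : K ⧸ Z.subgroupOf K) := by
      rw [Ne, QuotientGroup.eq, inv_one, one_mul, mem_subgroupOf]; exact haZ
    have e2 : ((1 : K) : K ⧸ Z.subgroupOf K) ≠ ((⟨b, hb⟩ : K) : K ⧸ Z.subgroupOf K) := by
      rw [Ne, QuotientGroup.eq, inv_one, one_mul, mem_subgroupOf]; exact hbZ
    have e3 : ((⟨a, ha⟩ : K) : K ⧸ Z.subgroupOf K) ≠ ((⟨b, hb⟩ : K) : K ⧸ Z.subgroupOf K) := by
      rw [Ne, QuotientGroup.eq, mem_subgroupOf]; exact habZ
    have h4 : ({((1 : K) : K ⧸ Z.subgroupOf K), ((⟨a, ha⟩ : K) : K ⧸ Z.subgroupOf K),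
        ((⟨b, hb⟩ : K) : K ⧸ Z.subgroupOf K)} : Finset (K ⧸ Z.subgroupOf K)).card = 3 :=
      Finset.card_eq_three.2 ⟨_, _, _, e1, e2, e3, rfl⟩
    have := Fintype.ofFinite (K ⧸ Z.subgroupOf K)
    rw [Subgroup.relIndex, Subgroup.index_eq_card, Nat.card_eq_fintype_card, ← h4]
    exact Finset.card_le_univ _
  have h5 := Subgroup.relIndex_mul_index hZK
  have h6 : 0 < K.index := Nat.pos_of_ne_zero Subgroup.index_ne_zero_of_finite
  by_contra hne
  have h7 : 2 ≤ K.index := by omega
  have h8 : 3 * 2 ≤ Z.relIndex K * K.index := Nat.mul_le_mul h3 h7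
  omega

theorem card_of_four [Finite X] {Z : Subgroup X} (h : Sp Z) (hX : IsPGroup 2 X) (hZ : Nat.card Z = 4)
    (hfull : ∀ z ∈ Z, ∃ x y : X, cc x y ≠ 1 ∧ cc x y ≠ z)
    (A : Subgroup (MulAut X)) (hA : Odd (Nat.card A)) (hAZ : ∀ φ ∈ A, ∀ z ∈ Z, φ z ∈ Z)
    (hfix : ∀ w : X, w ∉ Z → ∃ φ ∈ A, w⁻¹ * φ w ∉ Z) : Nat.card X = 64 := by
  classical
  haveI : Fact (Nat.Prime 2) := ⟨Nat.prime_two⟩
  haveI := h.normal
  set V := X ⧸ Z with hV
  haveI : Fintype X := Fintype.ofFinite X
  haveI : Fintype V := Fintype.ofFinite V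
  obtain ⟨n, hn⟩ := (hX.to_quotient Z).exists_card_eq
  have hcardV : Fintype.card V = 2 ^ n := by rw [← Nat.card_eq_fintype_card]; exact hn
  have hindex : Z.index = 2 ^ n := hn
  have hXc : Nat.card X = 4 * 2 ^ n := by rw [← hZ, ← hindex, Subgroup.card_mul_index]
  set sq : V → X := fun v => v.out * v.out with hsq
  have hsq_mk : ∀ x : X, sq (x : V) = x * x := by
    intro x
    obtain ⟨a, ha⟩ := QuotientGroup.mk_out_eq_mul Z x
    simp only [hsq]
    rw [ha]; exact h.mul_cen_sq a.2 x
  have hcc_mk : ∀ x u : X, cc (x : V).out (u : V).out = cc x u := by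
    intro x u
    obtain ⟨a, ha⟩ := QuotientGroup.mk_out_eq_mul Z x
    obtain ⟨b, hb⟩ := QuotientGroup.mk_out_eq_mul Z u
    rw [ha, hb, h.cc_mul, h.cc_cen a.2, mul_one, h.cc_right, h.cc_symm x b, h.cc_cen b.2, mul_one]
  have hsqZ : ∀ v, sq v ∈ Z := fun v => h.sq _
  have hsq1 : ∀ v, sq v = 1 ↔ v = 1 := by
    intro v
    induction v using QuotientGroup.induction_on with
    | H x =>
      rw [hsq_mk, QuotientGroup.eq_one_iff]
      exact ⟨fun h1 => h.mem_of_sq hZ h1, fun h1 => h.two x h1⟩
  -- the fibres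
  set nn : X → ℕ := fun y => (Finset.univ.filter fun v : V => sq v = y).card with hnn
  set Zf : Finset X := Finset.univ.filter fun y => y ∈ Z ∧ y ≠ 1 with hZf
  have hZfc : Zf.card = 3 := by
    have h1 : Zf = (Finset.univ.filter fun y => y ∈ Z).erase 1 := by
      ext y; simp only [hZf, Finset.mem_filter, Finset.mem_univ, true_and, Finset.mem_erase]; exact and_comm
    have h2 : (Finset.univ.filter fun y => y ∈ Z).card = 4 := by
      rw [← hZ, show Nat.card Z = Nat.card (Z : Set X) from rfl, Nat.card_eq_card_toFinset]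
      congr 1
      ext y; simp
    rw [h1, Finset.card_erase_of_mem, h2]
    simp [one_mem]
  have hsumn : ∑ y ∈ Zf, nn y = 2 ^ n - 1 := by
    have h1 : (Finset.univ.erase (1 : V)).card = 2 ^ n - 1 := by
      rw [Finset.card_erase_of_mem (Finset.mem_univ _), Finset.card_univ, hcardV]
    rw [← h1, Finset.card_eq_sum_card_fiberwise (f := sq) (t := Zf)]
    · refine Finset.sum_congr rfl fun y hy => ?_
      simp only [hnn]
      congr 1
      ext v
      simp only [Finset.mem_filter, Finset.mem_univ, true_and, Finset.mem_erase]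
      constructor
      · rintro rfl
        simp only [hZf, Finset.mem_filter, Finset.mem_univ, true_and] at hy
        refine ⟨⟨fun hv => hy.2 ((hsq1 v).2 hv), trivial⟩, rfl⟩
      · exact fun h1 => h1.2
    · intro v hv
      simp only [Finset.coe_erase, Finset.coe_univ, Set.mem_diff, Set.mem_univ, true_and,
        Set.mem_singleton_iff] at hv
      simp only [hZf, Finset.coe_filter, Finset.mem_univ, true_and, Set.mem_setOf_eq]
      exact ⟨hsqZ v, fun h1 => hv ((hsq1 v).1 h1)⟩
  -- the Gauss sums
  have hS : ∀ y ∈ Z, y ≠ 1 → ∃ T : ℤ, (2 * (nn y : ℤ) + 2 - 2 ^ n) ^ 2 = (2 ^ n : ℤ) * T := by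
    intro y hy hy1
    have hyy := h.two y hy
    set ε : X → ℤ := fun a => if a = 1 ∨ a = y then 1 else -1 with hε
    have hε2 : ∀ a, ε a = 1 ∨ ε a = -1 := by
      intro a; simp only [hε]; split_ifs <;> simp
    have hindex2 : ((zpowers y).subgroupOf Z).index = 2 := by
      have h1 := Subgroup.card_mul_index ((zpowers y).subgroupOf Z)
      have h2 : Nat.card ((zpowers y).subgroupOf Z) = 2 := by
        rw [SubgroupTools.card_subgroupOf_of_le (zpowers_le.2 hy), Nat.card_zpowers]
        exact orderOf_eq_prime (by rw [pow_two]; exact hyy) hy1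
      rw [h2, hZ] at h1
      omega
    have hεm : ∀ a ∈ Z, ∀ b ∈ Z, ε (a * b) = ε a * ε b := by
      intro a ha b hb
      have h1 := Subgroup.mul_mem_iff_of_index_two hindex2 (a := ⟨a, ha⟩) (b := ⟨b, hb⟩)
      simp only [mem_subgroupOf, Subgroup.coe_mul, mem_zpowers_two hyy] at h1
      simp only [hε]
      by_cases h2 : a = 1 ∨ a = y <;> by_cases h3 : b = 1 ∨ b = y <;>
        simp only [h2, h3, iff_true, iff_false, not_true_eq_false, not_false_eq_true, true_iff,
          false_iff, iff_self] at h1 <;> simp [h1, h2, h3]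
    have hg := gauss (V := V) (fun v => ε (sq v)) (fun v w => ε (cc v.out w.out)) (by
      intro x u
      induction x using QuotientGroup.induction_on with
      | H x =>
        induction u using QuotientGroup.induction_on with
        | H u =>
          change ε (sq ((x * u : X) : V)) = _
          rw [hsq_mk, hsq_mk, hsq_mk, hcc_mk, h.mul_sq,
            hεm _ (Z.mul_mem (h.sq x) (h.sq u)) _ (h.cc_mem x u), hεm _ (h.sq x) _ (h.sq u)])
      (by intro v; rcases hε2 (sq v) with h1 | h1 <;> simp [h1])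
      (by
        intro x z u
        induction x using QuotientGroup.induction_on with
        | H x =>
          induction z using QuotientGroup.induction_on with
          | H z =>
            induction u using QuotientGroup.induction_on with
            | H u =>
              change ε (cc ((x * z : X) : V).out _) = _
              rw [hcc_mk, hcc_mk, hcc_mk, h.cc_mul, hεm _ (h.cc_mem x u) _ (h.cc_mem z u)])
      (by intro x u; exact hε2 _)
    have hsum : ∑ v, ε (sq v) = 2 * (nn y : ℤ) + 2 - 2 ^ n := by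
      have h1 : ∀ v : V, ε (sq v) = (if sq v = 1 then 2 else 0) + (if sq v = y then 2 else 0) - 1 := by
        intro v
        simp only [hε]
        by_cases h2 : sq v = 1
        · rw [if_pos (Or.inl h2), if_pos h2, if_neg (by rw [h2]; exact hy1.symm)]; norm_num
        · by_cases h3 : sq v = y
          · rw [if_pos (Or.inr h3), if_neg h2, if_pos h3]; norm_num
          · rw [if_neg (by tauto), if_neg h2, if_neg h3]; norm_num
      rw [Finset.sum_congr rfl fun v _ => h1 v, Finset.sum_sub_distrib, Finset.sum_add_distrib,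
        ← Finset.sum_filter, ← Finset.sum_filter, Finset.sum_const, Finset.sum_const, Finset.sum_const]
      have h2 : (Finset.univ.filter fun v : V => sq v = 1) = {1} := by
        ext v; simp only [Finset.mem_filter, Finset.mem_univ, true_and, Finset.mem_singleton]; exact hsq1 v
      rw [h2, Finset.card_singleton, Finset.card_univ, hcardV]
      simp only [nsmul_eq_mul, hnn]
      push_cast; ring
    rw [hsum, hcardV] at hg
    push_cast at hg
    exact ⟨_, hg⟩
  have hodd : ∀ k : ℕ, 2 * k ≤ n + 1 → ∀ y ∈ Z, y ≠ 1 → (2 ^ k : ℤ) ∣ 2 * (nn y : ℤ) + 2 - 2 ^ n := by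
    intro k hk y hy hy1
    obtain ⟨T, hT⟩ := hS y hy hy1
    exact dvd_of_sq hT hk
  have hn1 : 1 ≤ 2 ^ n := Nat.one_le_two_pow
  -- `n ≤ 4`
  have hn4 : n ≤ 4 := by
    by_contra hcon
    have h1 : ∀ y ∈ Zf, (8 : ℤ) ∣ 2 * (nn y : ℤ) + 2 - 2 ^ n := by
      intro y hy
      simp only [hZf, Finset.mem_filter, Finset.mem_univ, true_and] at hy
      have := hodd 3 (by omega) y hy.1 hy.2
      norm_num at this
      exact this
    have h2 : (8 : ℤ) ∣ ∑ y ∈ Zf, (2 * (nn y : ℤ) + 2 - 2 ^ n) := Finset.dvd_sum h1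
    have h3 : ∑ y ∈ Zf, (2 * (nn y : ℤ) + 2 - 2 ^ n) = 4 - 2 ^ n := by
      rw [Finset.sum_sub_distrib, Finset.sum_add_distrib, ← Finset.mul_sum, Finset.sum_const,
        Finset.sum_const, hZfc]
      have h4 : ∑ y ∈ Zf, (nn y : ℤ) = 2 ^ n - 1 := by
        have := congrArg (fun m : ℕ => (m : ℤ)) hsumn
        rw [Nat.cast_sum, Nat.cast_sub hn1] at this
        simpa using this
      rw [h4]
      simp only [nsmul_eq_mul]
      push_cast; ring
    rw [h3] at h2
    have h4 : (8 : ℤ) ∣ 2 ^ n := by
      have : (2 : ℤ) ^ 3 ∣ 2 ^ n := pow_dvd_pow 2 (by omega)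
      norm_num at this
      exact this
    have h5 := dvd_add h2 h4
    norm_num at h5
  -- `n ≥ 3`
  have hn3 : 3 ≤ n := by
    by_contra hcon
    have hle : Z.index ≤ 4 := by
      rw [hindex]
      calc 2 ^ n ≤ 2 ^ 2 := Nat.pow_le_pow_right (by norm_num) (by omega)
        _ = 4 := by norm_num
    obtain ⟨a, b, hab1, -⟩ := hfull 1 (one_mem _)
    set y0 := cc a b with hy0
    have hy0Z : y0 ∈ Z := h.cc_mem a b
    have hy02 := h.two y0 hy0Z
    -- the subgroup of `x` with `cc x w ∈ ⟨y0⟩`
    let KK : X → Subgroup X := fun w =>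
      { carrier := {x | cc x w ∈ zpowers y0}
        mul_mem' := fun {p q} hp hq => by
          show cc (p * q) w ∈ zpowers y0
          rw [h.cc_mul]; exact mul_mem hp hq
        one_mem' := by
          show cc 1 w ∈ zpowers y0
          rw [h.cc_cen (one_mem _)]; exact one_mem _
        inv_mem' := fun {p} hp => by
          show cc p⁻¹ w ∈ zpowers y0
          have h1 : cc p⁻¹ w * cc p w = 1 := by
            rw [← h.cc_mul, inv_mul_cancel, h.cc_cen (one_mem _)]
          rw [eq_inv_of_mul_eq_one_left h1]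
          exact inv_mem hp }
    have hKK : ∀ w x, x ∈ KK w ↔ cc x w ∈ zpowers y0 := fun w x => Iff.rfl
    have hZK : ∀ w, Z ≤ KK w := fun w x hx => by
      rw [hKK, h.cc_cen hx]; exact one_mem _
    have ha : KK a = ⊤ := h.eq_top hle (hZK a) (a := a) (b := b)
      (by rw [hKK, h.cc_self]; exact one_mem _) (by rw [hKK, h.cc_symm]; exact mem_zpowers _) hab1
    have hb : KK b = ⊤ := h.eq_top hle (hZK b) (a := a) (b := b)
      (by rw [hKK]; exact mem_zpowers _) (by rw [hKK, h.cc_self]; exact one_mem _) hab1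
    obtain ⟨x, w, h1, h2⟩ := hfull y0 hy0Z
    have hw : KK w = ⊤ := h.eq_top hle (hZK w) (a := a) (b := b)
      (by
        rw [hKK, h.cc_symm, ← hKK, ha]; exact mem_top _)
      (by
        rw [hKK, h.cc_symm, ← hKK, hb]; exact mem_top _) hab1
    have h3 : x ∈ KK w := by rw [hw]; exact mem_top _
    rw [hKK, mem_zpowers_two hy02] at h3
    rcases h3 with h3 | h3
    · exact h1 h3
    · exact h2 h3
  -- `n ≠ 3`
  have hn3' : n ≠ 3 := by
    intro hn3
    subst hn3
    have hnodd : ∀ y ∈ Zf, Odd (nn y) := by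
      intro y hy
      simp only [hZf, Finset.mem_filter, Finset.mem_univ, true_and] at hy
      have := hodd 2 (by norm_num) y hy.1 hy.2
      norm_num at this
      rw [Nat.odd_iff]
      omega
    have hs7 : ∑ y ∈ Zf, nn y = 7 := by rw [hsumn]; norm_num
    obtain ⟨y1, y2, y3, h12, h13, h23, hZf3⟩ := Finset.card_eq_three.1 hZfc
    rw [hZf3, Finset.sum_insert (by simp [h12, h13]), Finset.sum_pair h23] at hs7
    have ho1 := hnodd y1 (by rw [hZf3]; simp)
    have ho2 := hnodd y2 (by rw [hZf3]; simp)
    have ho3 := hnodd y3 (by rw [hZf3]; simp)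
    -- the elements with `nn y = 1`
    set P1 : Finset X := Zf.filter fun y => nn y = 1 with hP1
    have hP1c : P1.Nonempty ∧ P1.card ≤ 2 := by
      constructor
      · by_contra hemp
        rw [Finset.not_nonempty_iff_eq_empty] at hemp
        have e : ∀ y ∈ Zf, nn y ≠ 1 := by
          intro y hy h1
          have : y ∈ P1 := by rw [hP1, Finset.mem_filter]; exact ⟨hy, h1⟩
          rw [hemp] at this; simp at this
        have e1 := e y1 (by rw [hZf3]; simp)
        have e2 := e y2 (by rw [hZf3]; simp)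
        have e3 := e y3 (by rw [hZf3]; simp)
        rw [Nat.odd_iff] at ho1 ho2 ho3
        omega
      · by_contra hcon
        have h1 : P1 = Zf := Finset.eq_of_subset_of_card_le (Finset.filter_subset _ _) (by omega)
        have e : ∀ y ∈ Zf, nn y = 1 := by
          intro y hy
          rw [← h1, hP1, Finset.mem_filter] at hy
          exact hy.2
        have e1 := e y1 (by rw [hZf3]; simp)
        have e2 := e y2 (by rw [hZf3]; simp)
        have e3 := e y3 (by rw [hZf3]; simp)
        omega
    obtain ⟨⟨y, hy⟩, hP1c⟩ := hP1c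
    -- `A` preserves the counts
    have hnA : ∀ φ ∈ A, ∀ y, nn (φ y) = nn y := by
      intro φ hφ y
      have hφZ : Z ≤ Z.comap φ.toMonoidHom := fun z hz => hAZ φ hφ z hz
      have hφZ' : ∀ z, φ z ∈ Z → z ∈ Z := by
        intro z hz
        have := hAZ φ⁻¹ (A.inv_mem hφ) _ hz
        rwa [← MulAut.mul_apply, inv_mul_cancel, MulAut.one_apply] at this
      simp only [hnn]
      symm
      refine Finset.card_bij (fun v _ => ((φ v.out : X) : V)) ?_ ?_ ?_
      · intro v hv
        simp only [Finset.mem_filter, Finset.mem_univ, true_and] at hv ⊢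
        rw [hsq_mk, ← map_mul]
        exact congrArg φ hv
      · intro v _ w _ hvw
        rw [QuotientGroup.eq, ← map_inv, ← map_mul] at hvw
        have h1 := hφZ' _ hvw
        rw [← QuotientGroup.eq, QuotientGroup.out_eq', QuotientGroup.out_eq'] at h1
        exact h1
      · intro w hw
        simp only [Finset.mem_filter, Finset.mem_univ, true_and] at hw
        have e1 : φ (φ⁻¹ w.out) = w.out := by rw [← MulAut.mul_apply, mul_inv_cancel, MulAut.one_apply]
        refine ⟨((φ⁻¹ w.out : X) : V), ?_, ?_⟩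
        · simp only [Finset.mem_filter, Finset.mem_univ, true_and]
          rw [hsq_mk]
          apply φ.injective
          rw [map_mul, e1]; exact hw
        · obtain ⟨a, ha⟩ := QuotientGroup.mk_out_eq_mul Z (φ⁻¹ w.out)
          rw [ha, map_mul, e1]
          conv_rhs => rw [← QuotientGroup.out_eq' w]
          rw [eq_comm, QuotientGroup.eq, inv_mul_cancel_left]
          exact hAZ φ hφ _ a.2
    have hP1A : ∀ φ ∈ A, ∀ y ∈ P1, φ y ∈ P1 := by
      intro φ hφ y hy
      simp only [hP1, hZf, Finset.mem_filter, Finset.mem_univ, true_and] at hy ⊢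
      refine ⟨⟨hAZ φ hφ y hy.1.1, fun h1 => hy.1.2 ?_⟩, by rw [hnA φ hφ]; exact hy.2⟩
      apply φ.injective; rw [h1, map_one]
    have hyfix : ∀ φ ∈ A, φ y = y := by
      intro φ hφ
      have hoddφ : Odd (orderOf φ) := by
        have h1 : orderOf (⟨φ, hφ⟩ : A) ∣ Nat.card A := orderOf_dvd_natCard _
        rw [Subgroup.orderOf_mk] at h1
        exact Odd.of_dvd_nat hA h1
      by_contra hne
      have h1 := hP1A φ hφ y hy
      have h2 := hP1A φ hφ _ h1
      have h3 : φ (φ y) = y := by
        by_contra hne2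
        have h4 : ({y, φ y, φ (φ y)} : Finset X) ⊆ P1 := by
          intro a ha
          simp only [Finset.mem_insert, Finset.mem_singleton] at ha
          rcases ha with rfl | rfl | rfl
          · exact hy
          · exact h1
          · exact h2
        have h5 := Finset.card_le_card h4
        rw [Finset.card_eq_three.2 ⟨y, φ y, φ (φ y), fun h => hne h.symm, fun h => hne2 h.symm,
          fun h => hne (φ.injective h.symm), rfl⟩] at h5
        omega
      obtain ⟨m, hm⟩ := hoddφ
      have h4 : ∀ j : ℕ, (φ ^ (2 * j)) y = y := by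
        intro j
        induction j with
        | zero => rfl
        | succ j ih =>
          rw [mul_add, pow_add, MulAut.mul_apply, mul_one, pow_two, MulAut.mul_apply, h3, ih]
      have h5 : (φ ^ orderOf φ) y = φ y := by
        rw [hm, pow_succ', MulAut.mul_apply, h4]
      rw [pow_orderOf_eq_one, MulAut.one_apply] at h5
      exact hne h5.symm
    -- the unique coset with square `y`
    have hy1 : nn y = 1 := by rw [hP1, Finset.mem_filter] at hy; exact hy.2
    obtain ⟨v, hv⟩ := Finset.card_eq_one.1 hy1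
    have hvy : sq v = y := by
      have : v ∈ Finset.univ.filter fun v : V => sq v = y := by rw [hv]; simp
      simpa using this
    have hvZ : v.out ∉ Z := by
      intro h1
      simp only [hP1, hZf, Finset.mem_filter, Finset.mem_univ, true_and] at hy
      apply hy.1.2
      rw [← hvy]; exact h.two _ h1
    obtain ⟨φ, hφ, hφv⟩ := hfix _ hvZ
    apply hφv
    have h1 : ((φ v.out : X) : V) = v := by
      have : ((φ v.out : X) : V) ∈ Finset.univ.filter fun v : V => sq v = y := by
        simp only [Finset.mem_filter, Finset.mem_univ, true_and]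
        rw [hsq_mk, ← map_mul]
        change φ (sq v) = y
        rw [hvy, hyfix φ hφ]
      rw [hv, Finset.mem_singleton] at this
      exact this
    rw [← QuotientGroup.eq, h1, QuotientGroup.out_eq']
  have : n = 4 := by omega
  rw [hXc, this]; norm_num

end Cfsg.Agent.Lib.H30SX
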