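import Cfsg.Agent.Lib.H30SXc
import Cfsg.Agent.Lib.Critical
import Cfsg.Agent.Lib.H32PGroup

/-!
A 2-group with an odd order group of automorphisms and a homocyclic normal subgroup `D = 4 × 4`.
-/

set_option autoImplicit false

namespace Cfsg.Agent.Lib.H30SX

open Subgroup

universe u

variable {X : Type u} [Group X]

theorem odd_fix {φ : MulAut X} (h : Odd (orderOf φ)) {x : X} (hx : φ (φ x) = x) : φ x = x := by
  obtain ⟨m, hm⟩ := h
  have h4 : ∀ j : ℕ, (φ ^ (2 * j)) x = x := by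
    intro j
    induction j with
    | zero => rfl
    | succ j ih =>
      rw [mul_add, pow_add, MulAut.mul_apply, mul_one, pow_two, MulAut.mul_apply, hx, ih]
  have h5 : (φ ^ orderOf φ) x = φ x := by
    rw [hm, pow_succ', MulAut.mul_apply, h4]
  rw [pow_orderOf_eq_one, MulAut.one_apply] at h5
  exact h5.symm

/-- a normal `A`-invariant subgroup of order four is central -/
theorem central_of_card_four [Finite X] (hX : IsPGroup 2 X) (A : Subgroup (MulAut X))
    (hgen : Subgroup.closure {g : X | ∃ φ ∈ A, ∃ x : X, g = x⁻¹ * φ x} = ⊤)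
    {U : Subgroup X} (hU : U.Normal) (hUA : ∀ φ ∈ A, ∀ u ∈ U, φ u ∈ U) (hcard : Nat.card U = 4)
    (hexp : ∀ u ∈ U, u * u = 1) : U ≤ center X := by
  classical
  haveI : Fact (Nat.Prime 2) := ⟨Nat.prime_two⟩
  by_contra hcon
  rw [SetLike.not_le_iff_exists] at hcon
  obtain ⟨u, huU, huZ⟩ := hcon
  have hne : U ≠ ⊥ := by
    intro h; rw [h, Subgroup.card_bot] at hcard; omega
  obtain ⟨u1, hu1U, hu11, hu1Z⟩ := H32PGroup.exists_mem_center_of_normal hX U hne
  have hu1c : ∀ x, u1 * x = x * u1 := fun x => (mem_center_iff.1 hu1Z x).symm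
  have hu1u : u ≠ u1 := fun h => huZ (h ▸ hu1Z)
  have hu1' : u ≠ 1 := fun h => huZ (h ▸ one_mem _)
  have huu1 : u * u1 ∉ center X := by
    intro h
    apply huZ
    have := mul_mem h (inv_mem hu1Z)
    rwa [mul_inv_cancel_right] at this
  -- `U = {1, u1, u, u u1}`
  have hUe : ∀ a ∈ U, a = 1 ∨ a = u1 ∨ a = u ∨ a = u * u1 := by
    intro a ha
    by_contra hno
    push Not at hno
    obtain ⟨h1, h2, h3, h4⟩ := hno
    have h5 : ({1, u1, u, u * u1, a} : Finset X).card = 5 := by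
      rw [Finset.card_insert_of_notMem, Finset.card_insert_of_notMem, Finset.card_insert_of_notMem,
        Finset.card_insert_of_notMem, Finset.card_singleton]
      · rw [Finset.mem_singleton]; exact h4.symm
      · simp only [Finset.mem_insert, Finset.mem_singleton, not_or]
        exact ⟨fun h => hu11 (by simpa using h.symm), h3.symm⟩
      · simp only [Finset.mem_insert, Finset.mem_singleton, not_or]
        exact ⟨hu1u.symm, fun h => hu1' (by simpa using h.symm), h2.symm⟩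
      · simp only [Finset.mem_insert, Finset.mem_singleton, not_or]
        exact ⟨hu11.symm, hu1'.symm, fun h => huu1 (h ▸ one_mem _), h1.symm⟩
    have h6 : ({1, u1, u, u * u1, a} : Finset X).card ≤ Nat.card U := by
      haveI : Fintype (U : Set X) := Fintype.ofFinite _
      rw [show Nat.card U = Nat.card (U : Set X) from rfl, Nat.card_eq_card_toFinset]
      apply Finset.card_le_card
      intro b hb
      simp only [Finset.mem_insert, Finset.mem_singleton] at hb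
      rw [Set.mem_toFinset]
      rcases hb with rfl | rfl | rfl | rfl | rfl
      · exact one_mem U
      · exact hu1U
      · exact huU
      · exact U.mul_mem huU hu1U
      · exact ha
    omega
  have hZU : ∀ a ∈ U, a ∈ center X → a = 1 ∨ a = u1 := by
    intro a ha haZ
    rcases hUe a ha with h | h | h | h
    · exact Or.inl h
    · exact Or.inr h
    · exact absurd (h ▸ haZ) huZ
    · exact absurd (h ▸ haZ) huu1
  have hnZU : ∀ a ∈ U, a ∉ center X → a = u ∨ a = u * u1 := by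
    intro a ha haZ
    rcases hUe a ha with h | h | h | h
    · exact absurd (h ▸ one_mem _) haZ
    · exact absurd (h ▸ hu1Z) haZ
    · exact Or.inl h
    · exact Or.inr h
  have hcen : ∀ φ ∈ A, ∀ a, a ∈ center X → φ a ∈ center X := by
    intro φ _ a ha
    rw [mem_center_iff] at ha ⊢
    intro g
    have := congrArg φ (ha (φ.symm g))
    rwa [map_mul, map_mul, MulEquiv.apply_symm_apply] at this
  have hcen' : ∀ φ ∈ A, ∀ a, φ a ∈ center X → a ∈ center X := by
    intro φ hφ a ha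
    have := hcen φ⁻¹ (inv_mem hφ) _ ha
    rwa [← MulAut.mul_apply, inv_mul_cancel, MulAut.one_apply] at this
  have hφu1 : ∀ φ ∈ A, φ u1 = u1 := by
    intro φ hφ
    rcases hZU _ (hUA φ hφ u1 hu1U) (hcen φ hφ u1 hu1Z) with h | h
    · exfalso; apply hu11; apply φ.injective; rw [h, map_one]
    · exact h
  -- the generators centralize `u`
  have hconj : ∀ x : X, x * u * x⁻¹ = u ∨ x * u * x⁻¹ = u * u1 := by
    intro x
    apply hnZU _ (hU.conj_mem u huU x)
    intro h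
    apply huZ
    have h2 : (center X).Normal := inferInstance
    have := h2.conj_mem _ h x⁻¹
    have h3 : x⁻¹ * (x * u * x⁻¹) * x⁻¹⁻¹ = u := by group
    rwa [h3] at this
  have hle : (⊤ : Subgroup X) ≤ centralizer {u} := by
    rw [← hgen, closure_le]
    rintro _ ⟨φ, hφ, x, rfl⟩
    rw [SetLike.mem_coe, mem_centralizer_singleton_iff]
    have hφu : φ u = u ∨ φ u = u * u1 := hnZU _ (hUA φ hφ u huU) (fun h => huZ (hcen' φ hφ u h))
    have h1 : φ (x * u * x⁻¹) = φ x * φ u * (φ x)⁻¹ := by rw [map_mul, map_mul, map_inv]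
    have key : φ x * u * (φ x)⁻¹ = x * u * x⁻¹ := by
      have e1 : φ x * φ u * (φ x)⁻¹ = φ x * u * (φ x)⁻¹ * (u⁻¹ * φ u) := by
        rcases hφu with h | h
        · rw [h]; group
        · rw [h, inv_mul_cancel_left, mul_assoc, mul_assoc, hu1c]; group
      have e2 : φ (x * u * x⁻¹) = x * u * x⁻¹ * (u⁻¹ * φ u) := by
        rcases hconj x with h | h
        · rw [h]; group
        · rw [h, map_mul, hφu1 φ hφ]
          rcases hφu with h' | h'
          · rw [h']; group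
          · rw [h']; group
      rw [h1, e1] at e2
      exact mul_right_cancel e2
    calc x⁻¹ * φ x * u = x⁻¹ * (φ x * u * (φ x)⁻¹) * φ x := by group
      _ = x⁻¹ * (x * u * x⁻¹) * φ x := by rw [key]
      _ = u * (x⁻¹ * φ x) := by group
  apply huZ
  rw [mem_center_iff]
  intro g
  exact (mem_centralizer_singleton_iff.1 (hle (mem_top g)))

/-- the setting: `D` homocyclic of type `4 × 4` -/
structure HD (A : Subgroup (MulAut X)) (D Z : Subgroup X) (ρ : MulAut X) : Prop where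
  pgrp : IsPGroup 2 X
  odd : Odd (Nat.card A)
  gen : Subgroup.closure {g : X | ∃ φ ∈ A, ∃ x : X, g = x⁻¹ * φ x} = ⊤
  e8 : ∀ E : Subgroup X, E.Normal → (∀ a ∈ E, ∀ b ∈ E, a * b = b * a) → (∀ a ∈ E, a * a = 1) →
    Nat.card E ≤ 4
  Dn : D.Normal
  DA : ∀ φ ∈ A, ∀ d ∈ D, φ d ∈ D
  Dc : ∀ a ∈ D, ∀ b ∈ D, a * b = b * a
  hZ : ∀ d, d ∈ Z ↔ d ∈ D ∧ d * d = 1
  Zcard : Nat.card Z = 4
  D4 : ∀ d ∈ D, d * d ∈ Z
  Dsq : ∀ z ∈ Z, ∃ d ∈ D, d * d = z
  ρA : ρ ∈ A
  ρfix : ∀ z ∈ Z, ρ z = z → z = 1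

/-- commutator -/
def dd (x d : X) : X := x * d * x⁻¹ * d⁻¹

namespace HD

variable {A : Subgroup (MulAut X)} {D Z : Subgroup X} {ρ : MulAut X} (h : HD A D Z ρ)
include h

theorem oddφ [Finite X] {φ : MulAut X} (hφ : φ ∈ A) : Odd (orderOf φ) := by
  have h1 : orderOf (⟨φ, hφ⟩ : A) ∣ Nat.card A := orderOf_dvd_natCard _
  rw [Subgroup.orderOf_mk] at h1
  exact Odd.of_dvd_nat h.odd h1

theorem ZD : Z ≤ D := fun _ hz => ((h.hZ _).1 hz).1

theorem Ztwo : ∀ z ∈ Z, z * z = 1 := fun _ hz => ((h.hZ _).1 hz).2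

theorem ZA : ∀ φ ∈ A, ∀ z ∈ Z, φ z ∈ Z := fun φ hφ z hz =>
  (h.hZ _).2 ⟨h.DA φ hφ z (h.ZD hz), by rw [← map_mul, h.Ztwo z hz, map_one]⟩

theorem Zn : Z.Normal := ⟨fun z hz g => (h.hZ _).2 ⟨h.Dn.conj_mem z (h.ZD hz) g, by
  have : g * z * g⁻¹ * (g * z * g⁻¹) = g * (z * z) * g⁻¹ := by group
  rw [this, h.Ztwo z hz, mul_one, mul_inv_cancel]⟩⟩

theorem Zcen [Finite X] : ∀ z ∈ Z, ∀ x, z * x = x * z := by
  intro z hz x
  exact (mem_center_iff.1 (central_of_card_four h.pgrp A h.gen h.Zn h.ZA h.Zcard h.Ztwo hz) x).symm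

theorem dd_mem [Finite X] (x : X) {d : X} (hd : d ∈ D) : dd x d ∈ Z := by
  have h1 : x * d * x⁻¹ ∈ D := h.Dn.conj_mem d hd x
  refine (h.hZ _).2 ⟨D.mul_mem h1 (D.inv_mem hd), ?_⟩
  unfold dd
  have h2 : x * d * x⁻¹ * d⁻¹ * (x * d * x⁻¹ * d⁻¹) = (x * (d * d) * x⁻¹) * (d⁻¹ * d⁻¹) := by
    rw [h.Dc _ h1 _ (D.inv_mem hd)]
    have h3 := h.Dc _ h1 _ (D.inv_mem hd)
    calc d⁻¹ * (x * d * x⁻¹) * (d⁻¹ * (x * d * x⁻¹)) = (d⁻¹ * (x * d * x⁻¹)) * ((x * d * x⁻¹) * d⁻¹) := by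
          rw [h3]
      _ = d⁻¹ * (x * (d * d) * x⁻¹) * d⁻¹ := by group
      _ = (x * (d * d) * x⁻¹) * d⁻¹ * d⁻¹ := by
          rw [h.Dc _ (D.inv_mem hd) _ (h.Dn.conj_mem _ (D.mul_mem hd hd) x)]
      _ = _ := by rw [mul_assoc]
  rw [h2, ← h.Zcen _ (h.D4 d hd) x]
  group

theorem dd_mul [Finite X] (x y : X) {d : X} (hd : d ∈ D) : dd (x * y) d = dd x d * dd y d := by
  have h1 : dd (x * y) d = x * dd y d * (d * x⁻¹ * d⁻¹) := by unfold dd; group
  rw [h1, ← h.Zcen _ (h.dd_mem y hd) x, mul_assoc, h.Zcen _ (h.dd_mem y hd)]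
  unfold dd; group

theorem dd_right [Finite X] (x : X) {d e : X} (hd : d ∈ D) (he : e ∈ D) : dd x (d * e) = dd x d * dd x e := by
  have h1 : dd x (d * e) = dd x d * (d * dd x e * d⁻¹) := by unfold dd; group
  rw [h1, ← h.Zcen _ (h.dd_mem x he) d, mul_inv_cancel_right]

theorem dd_Z [Finite X] (x : X) {z : X} (hz : z ∈ Z) : dd x z = 1 := by
  unfold dd; rw [← h.Zcen z hz x]; group

omit h in
theorem dd_one (d : X) : dd 1 d = 1 := by unfold dd; group

omit h in
theorem map_dd (φ : MulAut X) (x d : X) : φ (dd x d) = dd (φ x) (φ d) := by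
  unfold dd; rw [map_mul, map_mul, map_mul, map_inv, map_inv]

theorem rho_sq_ne [Finite X] {z : X} (hz : z ∈ Z) (hz1 : z ≠ 1) : ρ (ρ z) ≠ z := fun h1 =>
  hz1 (h.ρfix z hz (odd_fix (h.oddφ h.ρA) h1))

/-- `Z = {1, z, ρ z, ρ² z}` -/
theorem Z_cases [Finite X] {z : X} (hz : z ∈ Z) (hz1 : z ≠ 1) :
    ∀ a ∈ Z, a = 1 ∨ a = z ∨ a = ρ z ∨ a = ρ (ρ z) := by
  classical
  intro a ha
  by_contra hno
  push Not at hno
  obtain ⟨h1, h2, h3, h4⟩ := hno
  have hρz := h.ZA ρ h.ρA z hz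
  have hρρz := h.ZA ρ h.ρA _ hρz
  have e1 : ρ z ≠ z := fun h1 => hz1 (h.ρfix z hz h1)
  have e2 : ρ (ρ z) ≠ z := h.rho_sq_ne hz hz1
  have e3 : ρ z ≠ 1 := fun h => hz1 (ρ.injective (by rw [h, map_one]))
  have e4 : ρ (ρ z) ≠ 1 := fun h => e3 (ρ.injective (by rw [h, map_one]))
  have e5 : ρ (ρ z) ≠ ρ z := fun h => e1 (ρ.injective h)
  have h5 : ({1, z, ρ z, ρ (ρ z), a} : Finset X).card = 5 := by
    rw [Finset.card_insert_of_notMem, Finset.card_insert_of_notMem, Finset.card_insert_of_notMem,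
      Finset.card_insert_of_notMem, Finset.card_singleton]
    · rw [Finset.mem_singleton]; exact h4.symm
    · simp only [Finset.mem_insert, Finset.mem_singleton, not_or]
      exact ⟨e5.symm, h3.symm⟩
    · simp only [Finset.mem_insert, Finset.mem_singleton, not_or]
      exact ⟨e1.symm, e2.symm, h2.symm⟩
    · simp only [Finset.mem_insert, Finset.mem_singleton, not_or]
      exact ⟨hz1.symm, e3.symm, e4.symm, h1.symm⟩
  have h6 : ({1, z, ρ z, ρ (ρ z), a} : Finset X).card ≤ Nat.card Z := by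
    haveI : Fintype (Z : Set X) := Fintype.ofFinite _
    rw [show Nat.card Z = Nat.card (Z : Set X) from rfl, Nat.card_eq_card_toFinset]
    apply Finset.card_le_card
    intro b hb
    simp only [Finset.mem_insert, Finset.mem_singleton] at hb
    rw [Set.mem_toFinset]
    rcases hb with rfl | rfl | rfl | rfl | rfl
    · exact one_mem Z
    · exact hz
    · exact hρz
    · exact hρρz
    · exact ha
  have h7 := h.Zcard
  omega

theorem rho3_Z [Finite X] {z : X} (hz : z ∈ Z) : ρ (ρ (ρ z)) = z := by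
  by_cases hz1 : z = 1
  · rw [hz1, map_one, map_one, map_one]
  have hρz := h.ZA ρ h.ρA z hz
  have hρρz := h.ZA ρ h.ρA _ hρz
  have e1 : ρ z ≠ z := fun h1 => hz1 (h.ρfix z hz h1)
  have e3 : ρ z ≠ 1 := fun h => hz1 (ρ.injective (by rw [h, map_one]))
  have e4 : ρ (ρ z) ≠ 1 := fun h => e3 (ρ.injective (by rw [h, map_one]))
  rcases h.Z_cases hz hz1 _ (h.ZA ρ h.ρA _ hρρz) with h1 | h1 | h1 | h1
  · exfalso; exact e4 (ρ.injective (by rw [h1, map_one]))
  · exact h1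
  · exfalso; exact h.rho_sq_ne hz hz1 (ρ.injective h1)
  · exfalso; exact e1 (ρ.injective (ρ.injective h1))

theorem rho_prod_Z [Finite X] {z : X} (hz : z ∈ Z) : z * ρ z * ρ (ρ z) = 1 := by
  have hρz := h.ZA ρ h.ρA z hz
  have hρρz := h.ZA ρ h.ρA _ hρz
  apply h.ρfix _ (Z.mul_mem (Z.mul_mem hz hρz) hρρz)
  rw [map_mul, map_mul, h.rho3_Z hz, ← h.Zcen z hz, ← mul_assoc]

/-- an automorphism in `A` trivial on `Z` is trivial on `D` -/
theorem fix_D [Finite X] {φ : MulAut X} (hφ : φ ∈ A) (hfix : ∀ z ∈ Z, φ z = z) {d : X} (hd : d ∈ D) :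
    φ d = d := by
  haveI : Fact (Nat.Prime 2) := ⟨Nat.prime_two⟩
  apply Critical.fixed_of_fixed h.pgrp φ
  · exact Nat.coprime_two_right.2 (h.oddφ hφ)
  · apply hfix
    refine (h.hZ _).2 ⟨D.mul_mem (D.inv_mem hd) (h.DA φ hφ d hd), ?_⟩
    have h1 : d⁻¹ * φ d * (d⁻¹ * φ d) = (d * d)⁻¹ * φ (d * d) := by
      rw [h.Dc _ (D.inv_mem hd) _ (h.DA φ hφ d hd), map_mul, mul_inv_rev]
      have h2 := h.Dc _ (h.DA φ hφ d hd) _ (D.inv_mem hd)
      calc φ d * d⁻¹ * (φ d * d⁻¹) = d⁻¹ * φ d * (φ d * d⁻¹) := by rw [h2]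
        _ = d⁻¹ * (φ d * φ d * d⁻¹) := by group
        _ = d⁻¹ * (d⁻¹ * (φ d * φ d)) := by
          rw [h.Dc _ (D.mul_mem (h.DA φ hφ d hd) (h.DA φ hφ d hd)) _ (D.inv_mem hd)]
        _ = _ := by group
    rw [h1, hfix _ (h.D4 d hd), inv_mul_cancel]

theorem rho3_D [Finite X] {d : X} (hd : d ∈ D) : ρ (ρ (ρ d)) = d := by
  have h1 : ρ ^ 3 ∈ A := pow_mem h.ρA 3
  have h2 : ∀ x, (ρ ^ 3) x = ρ (ρ (ρ x)) := fun x => by
    rw [pow_succ', pow_two, MulAut.mul_apply, MulAut.mul_apply]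
  rw [← h2]
  exact h.fix_D h1 (fun z hz => by rw [h2]; exact h.rho3_Z hz) hd

/-- F2: an element of `X` whose action on `D` commutes with `ρ` centralizes `D` -/
theorem F2 [Finite X] {y : X} (hy : ∀ d ∈ D, dd (ρ y) d = dd y d) : ∀ d ∈ D, dd y d = 1 := by
  classical
  -- iterate
  have h1 : ∀ d ∈ D, dd (ρ (ρ y)) d = dd y d := by
    intro d hd
    obtain ⟨e, he, rfl⟩ : ∃ e ∈ D, ρ e = d := ⟨ρ (ρ d), h.DA ρ h.ρA _ (h.DA ρ h.ρA _ hd), h.rho3_D hd⟩
    rw [← map_dd, hy e he, map_dd, hy _ hd]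
  -- every `φ ∈ A` acts on `D` as a power of `ρ`
  have h2 : ∀ φ ∈ A, ∀ d ∈ D, dd (φ y) d = dd y d := by
    intro φ hφ
    -- pick `z ≠ 1`
    obtain ⟨z, hz, hz1⟩ : ∃ z ∈ Z, z ≠ 1 := by
      by_contra hcon
      push Not at hcon
      have : Z = ⊥ := by rw [Subgroup.eq_bot_iff_forall]; exact hcon
      have h3 := h.Zcard
      rw [this, Subgroup.card_bot] at h3; omega
    have hρz := h.ZA ρ h.ρA z hz
    have hρρz := h.ZA ρ h.ρA _ hρz
    -- an element of `A` fixing `z` fixes `Z`, hence `D`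
    have hst : ∀ ψ ∈ A, ψ z = z → ∀ d ∈ D, ψ d = d := by
      intro ψ hψ hψz d hd
      refine h.fix_D hψ ?_ hd
      have e0 : ρ z ≠ 1 := fun h => hz1 (ρ.injective (by rw [h, map_one]))
      have e1 : ρ z ≠ z := fun h1 => hz1 (h.ρfix z hz h1)
      have hψρ : ψ (ρ z) = ρ z := by
        rcases h.Z_cases hz hz1 _ (h.ZA ψ hψ _ hρz) with h3 | h3 | h3 | h3
        · exact absurd (ψ.injective (by rw [h3, map_one])) e0
        · exact absurd (ψ.injective (by rw [h3, hψz])) e1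
        · exact h3
        · apply odd_fix (h.oddφ hψ)
          rw [h3]
          have e4 : ρ (ρ z) = (z * ρ z)⁻¹ := eq_inv_of_mul_eq_one_right (h.rho_prod_Z hz)
          have e5 : ψ (ρ (ρ z)) = (z * ρ (ρ z))⁻¹ := by rw [e4, map_inv, map_mul, hψz, h3, ← e4]
          rw [e5, inv_eq_iff_mul_eq_one]
          calc z * ρ (ρ z) * ρ z = z * (ρ (ρ z) * ρ z) := by group
            _ = z * (ρ z * ρ (ρ z)) := by rw [h.Zcen _ hρρz]
            _ = z * ρ z * ρ (ρ z) := by group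
            _ = 1 := h.rho_prod_Z hz
      intro a ha
      rcases h.Z_cases hz hz1 a ha with rfl | rfl | rfl | rfl
      · exact map_one ψ
      · exact hψz
      · exact hψρ
      · have e4 : ρ (ρ z) = (z * ρ z)⁻¹ := eq_inv_of_mul_eq_one_right (h.rho_prod_Z hz)
        rw [e4, map_inv, map_mul, hψz, hψρ]
    intro d hd
    have gen1 : ∀ θ ∈ A, (∀ d ∈ D, dd (θ y) d = dd y d) → φ z = θ z → dd (φ y) d = dd y d := by
      intro θ hθ hθy hφz
      have e1 : ∀ e ∈ D, (θ⁻¹ * φ) e = e := hst _ (A.mul_mem (A.inv_mem hθ) hφ) (by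
        rw [MulAut.mul_apply, hφz, ← MulAut.mul_apply, inv_mul_cancel, MulAut.one_apply])
      have e2 : ∀ x, θ ((θ⁻¹ * φ) x) = φ x := fun x => by
        rw [← MulAut.mul_apply, mul_inv_cancel_left]
      have e3 : ∀ e ∈ D, φ e = θ e := fun e he => by rw [← e2, e1 e he]
      -- `d = φ e`
      set e := φ⁻¹ d with he
      have heD : e ∈ D := h.DA _ (A.inv_mem hφ) d hd
      have hde : d = φ e := by rw [he, ← MulAut.mul_apply, mul_inv_cancel, MulAut.one_apply]
      rw [hde, ← map_dd, e3 _ (h.ZD (h.dd_mem y heD)), map_dd, ← e3 e heD]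
      exact hθy _ (hde ▸ hd)
    rcases h.Z_cases hz hz1 _ (h.ZA φ hφ _ hz) with h3 | h3 | h3 | h3
    · exact absurd (φ.injective (by rw [h3, map_one])) hz1
    · exact gen1 1 (one_mem _) (fun _ _ => rfl) h3
    · exact gen1 ρ h.ρA hy h3
    · exact gen1 (ρ * ρ) (A.mul_mem h.ρA h.ρA) (fun d hd => h1 d hd) h3
  -- norm argument
  intro d hd
  haveI : Fintype A := Fintype.ofFinite A
  letI : CommGroup (center X) := { (inferInstance : Group (center X)) with
    mul_comm := fun a b => Subtype.ext (mem_center_iff.1 b.2 a) }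
  let δ : MulAut X → (X →* center X) := fun φ =>
    { toFun := fun x => ⟨dd (φ x) d, mem_center_iff.2 fun g => (h.Zcen _ (h.dd_mem _ hd) g).symm⟩
      map_one' := Subtype.ext (by
        show dd (φ 1) d = 1
        rw [map_one]; exact dd_one d)
      map_mul' := fun a b => Subtype.ext (by
        show dd (φ (a * b)) d = dd (φ a) d * dd (φ b) d
        rw [map_mul, h.dd_mul _ _ hd]) }
  have hδ : ∀ φ x, ((δ φ x : center X) : X) = dd (φ x) d := fun _ _ => rfl
  let ν : X →* center X := ∏ a : A, δ (a : MulAut X)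
  have hν : ∀ x, ν x = ∏ a : A, δ (a : MulAut X) x := by
    intro x; simp only [ν, MonoidHom.finsetProd_apply]
  have hinv : ∀ φ ∈ A, ∀ x, ν (φ x) = ν x := by
    intro φ hφ x
    rw [hν, hν]
    refine Fintype.prod_equiv (Equiv.mulRight (⟨φ, hφ⟩ : A)) _ _ ?_
    intro a
    rfl
  have hker : (⊤ : Subgroup X) ≤ ν.ker := by
    rw [← h.gen, closure_le]
    rintro _ ⟨φ, hφ, x, rfl⟩
    rw [SetLike.mem_coe, MonoidHom.mem_ker, map_mul, map_inv, hinv φ hφ, inv_mul_cancel]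
  have h3 : ν y = 1 := hker (mem_top y)
  rw [hν] at h3
  have h4 : ∀ a : A, δ (a : MulAut X) y = δ 1 y := fun a => Subtype.ext (by
    rw [hδ, hδ]; exact h2 a a.2 d hd)
  rw [Finset.prod_congr rfl fun a _ => h4 a, Finset.prod_const, Finset.card_univ,
    ← Nat.card_eq_fintype_card] at h3
  obtain ⟨m, hm⟩ := h.odd
  have h5 := congrArg Subtype.val h3
  rw [Subgroup.coe_pow, hδ, hm, pow_succ, pow_mul, pow_two] at h5
  change (dd y d * dd y d) ^ m * dd y d = 1 at h5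
  rw [h.Ztwo _ (h.dd_mem y hd), one_pow, one_mul] at h5
  exact h5

end HD

end Cfsg.Agent.Lib.H30SX
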