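import Cfsg.Agent.Lib.H30SXd

/-!
The maximal `ρ`-invariant normal abelian subgroup containing `D`.
-/

set_option autoImplicit false

namespace Cfsg.Agent.Lib.H30SX

open Subgroup

universe u

variable {X : Type u} [Group X]

namespace HD

variable {A : Subgroup (MulAut X)} {D Z : Subgroup X} {ρ : MulAut X} (h : HD A D Z ρ)
include h

theorem rho_prod_D [Finite X] {d : X} (hd : d ∈ D) : d * ρ d * ρ (ρ d) = 1 := by
  have h1 := h.DA ρ h.ρA d hd
  have h2 := h.DA ρ h.ρA _ h1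
  have hsq : d * ρ d * ρ (ρ d) * (d * ρ d * ρ (ρ d)) = (d * d) * ρ (d * d) * ρ (ρ (d * d)) := by
    rw [map_mul, map_mul]
    have c1 := h.Dc _ hd _ h1
    have c2 := h.Dc _ hd _ h2
    have c3 := h.Dc _ h1 _ h2
    calc d * ρ d * ρ (ρ d) * (d * ρ d * ρ (ρ d)) = d * ρ d * (ρ (ρ d) * d) * ρ d * ρ (ρ d) := by group
      _ = d * (ρ d * d) * (ρ (ρ d) * ρ d) * ρ (ρ d) := by rw [← c2]; group
      _ = d * d * ρ d * (ρ d * ρ (ρ d)) * ρ (ρ d) := by rw [← c1, ← c3]; group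
      _ = _ := by group
  have hw : d * ρ d * ρ (ρ d) ∈ Z := (h.hZ _).2 ⟨D.mul_mem (D.mul_mem hd h1) h2, by
    rw [hsq]; exact h.rho_prod_Z (h.D4 d hd)⟩
  apply h.ρfix _ hw
  rw [map_mul, map_mul, h.rho3_D hd, h.Dc _ (D.mul_mem h1 h2) _ hd, mul_assoc]

theorem gam [Finite X] {x d0 : X} (hd0 : d0 ∈ D) (hd0Z : d0 ∉ Z) (hx : dd x d0 = 1) :
    ∀ d ∈ D, dd x d = 1 := by
  have h1 := h.DA ρ h.ρA d0 hd0
  have h2 := h.DA ρ h.ρA _ h1
  -- the product over the orbit centralizes `D`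
  have hw : ∀ d ∈ D, dd (x * ρ x * ρ (ρ x)) d = 1 := by
    apply h.F2
    intro d hd
    have hd1 := h.DA ρ h.ρA d hd
    have hd2 := h.DA ρ h.ρA _ hd1
    have e1 : dd (ρ (ρ (ρ x))) d = dd x d := by
      conv_lhs => rw [← h.rho3_D hd]
      rw [← map_dd, ← map_dd, ← map_dd, h.rho3_Z (h.dd_mem x hd)]
    rw [map_mul, map_mul, h.dd_mul _ _ hd, h.dd_mul _ _ hd, e1, h.dd_mul _ _ hd, h.dd_mul _ _ hd,
      ← h.Zcen _ (h.dd_mem x hd), mul_assoc]
  -- `(*)`
  have star : dd x d0 * ρ (dd x (ρ (ρ d0))) * ρ (ρ (dd x (ρ d0))) = 1 := by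
    have := hw d0 hd0
    rw [h.dd_mul _ _ hd0, h.dd_mul _ _ hd0] at this
    have e1 : dd (ρ x) d0 = ρ (dd x (ρ (ρ d0))) := by rw [map_dd, h.rho3_D hd0]
    have e2 : dd (ρ (ρ x)) d0 = ρ (ρ (dd x (ρ d0))) := by rw [map_dd, map_dd, h.rho3_D hd0]
    rw [e1, e2] at this
    exact this
  have hprod : dd x (ρ d0) * dd x (ρ (ρ d0)) = 1 := by
    have e1 : dd x (d0 * ρ d0 * ρ (ρ d0)) = dd x d0 * dd x (ρ d0) * dd x (ρ (ρ d0)) := by
      rw [h.dd_right x (D.mul_mem hd0 h1) h2, h.dd_right x hd0 h1]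
    rw [h.rho_prod_D hd0, hx, one_mul] at e1
    rw [← e1]; unfold dd; group
  set f := dd x (ρ d0) with hf
  have hfZ : f ∈ Z := h.dd_mem x h1
  have hf' : dd x (ρ (ρ d0)) = f := by
    have := eq_inv_of_mul_eq_one_right hprod
    rw [this, inv_eq_iff_mul_eq_one]; exact h.Ztwo f hfZ
  rw [hx, one_mul, hf'] at star
  have hf1 : f = 1 := by
    have := h.rho_prod_Z hfZ
    rwa [mul_assoc, star, mul_one] at this
  rw [hf1] at hf'
  -- every `d` is in one of the cosets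
  have hz1 : d0 * d0 ≠ 1 := fun h3 => hd0Z ((h.hZ _).2 ⟨hd0, h3⟩)
  have key : ∀ e ∈ D, dd x e = 1 → ∀ d ∈ D, d * d = e * e → dd x d = 1 := by
    intro e he hxe d hd hde
    have h3 : e⁻¹ * d ∈ Z := (h.hZ _).2 ⟨D.mul_mem (D.inv_mem he) hd, by
      have := h.Dc _ (D.inv_mem he) _ hd
      calc e⁻¹ * d * (e⁻¹ * d) = e⁻¹ * (d * e⁻¹) * d := by group
        _ = e⁻¹ * e⁻¹ * (d * d) := by rw [← this]; group
        _ = 1 := by rw [hde]; group⟩
    have h4 : d = e * (e⁻¹ * d) := by group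
    rw [h4, h.dd_right x he (h.ZD h3), hxe, h.dd_Z x h3, one_mul]
  intro d hd
  rcases h.Z_cases (h.D4 d0 hd0) hz1 _ (h.D4 d hd) with h3 | h3 | h3 | h3
  · exact h.dd_Z x ((h.hZ _).2 ⟨hd, h3⟩)
  · exact key d0 hd0 hx d hd h3
  · exact key (ρ d0) h1 (hf ▸ hf1) d hd (by rw [h3, map_mul])
  · exact key (ρ (ρ d0)) h2 hf' d hd (by rw [h3, map_mul, map_mul])

end HD

/-- being a square in `B` -/
def Sq (B : Subgroup X) (b : X) : Prop := ∃ c ∈ B, c * c = b

/-- maximal invariant abelian -/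
structure HB (A : Subgroup (MulAut X)) (D Z : Subgroup X) (ρ : MulAut X) (B : Subgroup X) : Prop where
  hd : HD A D Z ρ
  Bn : B.Normal
  Bc : ∀ a ∈ B, ∀ b ∈ B, a * b = b * a
  Bρ : ∀ b ∈ B, ρ b ∈ B
  DB : D ≤ B
  Bmax : ∀ C : Subgroup X, C.Normal → (∀ a ∈ C, ∀ b ∈ C, a * b = b * a) → (∀ c ∈ C, ρ c ∈ C) →
    B ≤ C → C ≤ B

theorem HD.exists_HB [Finite X] {A : Subgroup (MulAut X)} {D Z : Subgroup X} {ρ : MulAut X}
    (h : HD A D Z ρ) : ∃ B, HB A D Z ρ B := by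
  obtain ⟨B, hDB, hB⟩ := Finite.exists_le_maximal (a := D)
    (p := fun C : Subgroup X => C.Normal ∧ (∀ a ∈ C, ∀ b ∈ C, a * b = b * a) ∧ ∀ c ∈ C, ρ c ∈ C)
    ⟨h.Dn, h.Dc, fun c hc => h.DA ρ h.ρA c hc⟩
  exact ⟨B, h, hB.prop.1, hB.prop.2.1, hB.prop.2.2, hDB, fun C h1 h2 h3 h4 => hB.le_of_ge ⟨h1, h2, h3⟩ h4⟩

namespace HB

variable [Finite X] {A : Subgroup (MulAut X)} {D Z : Subgroup X} {ρ : MulAut X} {B : Subgroup X}
  (h : HB A D Z ρ B)
include h

theorem mul4 {a b : X} (ha : a ∈ B) (hb : b ∈ B) : (a * b) * (a * b) = (a * a) * (b * b) := by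
  calc a * b * (a * b) = a * (b * a) * b := by group
    _ = a * (a * b) * b := by rw [h.Bc b hb a ha]
    _ = _ := by group

theorem ZB : Z ≤ B := h.hd.ZD.trans h.DB

theorem mem_Z {b : X} (hb : b ∈ B) (hbb : b * b = 1) : b ∈ Z := by
  -- the elements of order two of `B` form a normal elementary abelian subgroup
  let Ω : Subgroup X :=
    { carrier := {b | b ∈ B ∧ b * b = 1}
      mul_mem' := fun {a b} ha hb => ⟨B.mul_mem ha.1 hb.1, by rw [h.mul4 ha.1 hb.1, ha.2, hb.2, mul_one]⟩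
      one_mem' := ⟨one_mem _, mul_one 1⟩
      inv_mem' := fun {a} ha => ⟨B.inv_mem ha.1, by rw [← mul_inv_rev, ha.2, inv_one]⟩ }
  have h1 : Nat.card Ω ≤ 4 := by
    apply h.hd.e8
    · constructor
      rintro a ⟨ha1, ha2⟩ g
      refine ⟨h.Bn.conj_mem a ha1 g, ?_⟩
      have : g * a * g⁻¹ * (g * a * g⁻¹) = g * (a * a) * g⁻¹ := by group
      rw [this, ha2]; group
    · exact fun a ha b hb => h.Bc a ha.1 b hb.1
    · exact fun a ha => ha.2
  have h2 : Z ≤ Ω := fun z hz => ⟨h.ZB hz, h.hd.Ztwo z hz⟩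
  have h3 : Z = Ω := Subgroup.eq_of_le_of_card_ge h2 (by rw [h.hd.Zcard]; exact h1)
  rw [h3]; exact ⟨hb, hbb⟩

theorem mem_D {b : X} (hb : b ∈ B) (hbb : (b * b) * (b * b) = 1) : b ∈ D := by
  obtain ⟨d, hd, hdb⟩ := h.hd.Dsq _ (h.mem_Z (B.mul_mem hb hb) hbb)
  have h1 : b * d⁻¹ ∈ Z := by
    apply h.mem_Z (B.mul_mem hb (B.inv_mem (h.DB hd)))
    rw [h.mul4 hb (B.inv_mem (h.DB hd)), ← mul_inv_rev, hdb, mul_inv_cancel]
  have := D.mul_mem (h.hd.ZD h1) hd
  rwa [inv_mul_cancel_right] at this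

theorem fix_B {φ : MulAut X} (hφ : φ ∈ A) (hφB : ∀ b ∈ B, φ b ∈ B) (hfix : ∀ z ∈ Z, φ z = z) :
    ∀ b ∈ B, φ b = b := by
  haveI : Fact (Nat.Prime 2) := ⟨Nat.prime_two⟩
  have key : ∀ n : ℕ, ∀ b ∈ B, b ^ (2 ^ n) = 1 → φ b = b := by
    intro n
    induction n with
    | zero => intro b hb h1; rw [pow_zero, pow_one] at h1; rw [h1, map_one]
    | succ n ih =>
      intro b hb h1
      have h2 : φ (b * b) = b * b := by
        apply ih _ (B.mul_mem hb hb)
        rw [← pow_two, ← pow_mul, ← pow_succ']; exact h1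
      apply Critical.fixed_of_fixed h.hd.pgrp φ
      · exact Nat.coprime_two_right.2 (h.hd.oddφ hφ)
      · apply hfix
        apply h.mem_Z (B.mul_mem (B.inv_mem hb) (hφB b hb))
        rw [h.mul4 (B.inv_mem hb) (hφB b hb), ← map_mul, h2]; group
  intro b hb
  obtain ⟨k, hk⟩ := IsPGroup.iff_orderOf.1 h.hd.pgrp b
  exact key k b hb (by rw [← hk, pow_orderOf_eq_one])

theorem rho3 {b : X} (hb : b ∈ B) : ρ (ρ (ρ b)) = b := by
  have h1 : ρ ^ 3 ∈ A := pow_mem h.hd.ρA 3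
  have h2 : ∀ x, (ρ ^ 3) x = ρ (ρ (ρ x)) := fun x => by
    rw [pow_succ', pow_two, MulAut.mul_apply, MulAut.mul_apply]
  rw [← h2]
  exact h.fix_B h1 (fun b hb => by rw [h2]; exact h.Bρ _ (h.Bρ _ (h.Bρ _ hb)))
    (fun z hz => by rw [h2]; exact h.hd.rho3_Z hz) b hb

/-- `ρ` is fixed point free on `B` -/
theorem rho_free {b : X} (hb : b ∈ B) (hρ : ρ b = b) : b = 1 := by
  haveI : Fact (Nat.Prime 2) := ⟨Nat.prime_two⟩
  have key : ∀ n : ℕ, ∀ b ∈ B, ρ b = b → b ^ (2 ^ n) = 1 → b = 1 := by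
    intro n
    induction n with
    | zero => intro b hb _ h1; rwa [pow_zero, pow_one] at h1
    | succ n ih =>
      intro b hb hρ h1
      have h2 : b * b = 1 := by
        apply ih _ (B.mul_mem hb hb) (by rw [map_mul, hρ])
        rw [← pow_two, ← pow_mul, ← pow_succ']; exact h1
      exact h.hd.ρfix _ (h.mem_Z hb h2) hρ
  obtain ⟨k, hk⟩ := IsPGroup.iff_orderOf.1 h.hd.pgrp b
  exact key k b hb hρ (by rw [← hk, pow_orderOf_eq_one])

theorem rho_prod {b : X} (hb : b ∈ B) : b * ρ b * ρ (ρ b) = 1 := by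
  have h1 := h.Bρ _ hb
  have h2 := h.Bρ _ h1
  apply h.rho_free (B.mul_mem (B.mul_mem hb h1) h2)
  rw [map_mul, map_mul, h.rho3 hb, h.Bc _ (B.mul_mem h1 h2) _ hb, mul_assoc]

theorem sq_one : Sq B 1 := ⟨1, one_mem _, mul_one 1⟩

theorem sq_mul {a b : X} (ha : Sq B a) (hb : Sq B b) : Sq B (a * b) := by
  obtain ⟨c, hc, rfl⟩ := ha
  obtain ⟨d, hd, rfl⟩ := hb
  exact ⟨c * d, B.mul_mem hc hd, h.mul4 hc hd⟩

theorem sq_inv {a : X} (ha : Sq B a) : Sq B a⁻¹ := by
  obtain ⟨c, hc, rfl⟩ := ha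
  exact ⟨c⁻¹, B.inv_mem hc, by rw [mul_inv_rev]⟩

theorem sq_rho {a : X} (ha : Sq B a) : Sq B (ρ a) := by
  obtain ⟨c, hc, rfl⟩ := ha
  exact ⟨ρ c, h.Bρ c hc, by rw [map_mul]⟩

theorem sq_Z {z : X} (hz : z ∈ Z) : Sq B z := by
  obtain ⟨d, hd, hdz⟩ := h.hd.Dsq z hz
  exact ⟨d, h.DB hd, hdz⟩

theorem sq_mem {a : X} (ha : Sq B a) : a ∈ B := by
  obtain ⟨c, hc, rfl⟩ := ha
  exact B.mul_mem hc hc

/-- `b` and `ρ b` are different modulo squares -/
theorem not_sq_rho {b : X} (hb : b ∈ B) (hs : Sq B (b⁻¹ * ρ b)) : Sq B b := by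
  obtain ⟨c, hc, hcb⟩ := hs
  have h1 : ρ b = b * (c * c) := by rw [hcb, mul_inv_cancel_left]
  have h2 : ρ (ρ b) = b * (c * c) * (ρ c * ρ c) := by rw [h1, map_mul, map_mul, h1]
  have h3 := h.rho_prod hb
  have hρc := h.Bρ c hc
  refine ⟨(b * (c * c) * ρ c)⁻¹, B.inv_mem (B.mul_mem (B.mul_mem hb (B.mul_mem hc hc)) hρc), ?_⟩
  rw [← mul_inv_rev, inv_eq_iff_mul_eq_one]
  rw [h2, h1] at h3
  have e1 : b * (c * c) * ρ c * (b * (c * c) * ρ c) = b * (c * c) * (b * (c * c) * (ρ c * ρ c)) := by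
    have := h.Bc _ hρc _ (B.mul_mem hb (B.mul_mem hc hc))
    calc b * (c * c) * ρ c * (b * (c * c) * ρ c) = b * (c * c) * (ρ c * (b * (c * c))) * ρ c := by group
      _ = b * (c * c) * (b * (c * c) * ρ c) * ρ c := by rw [this]
      _ = _ := by group
  rw [e1, h.Bc _ (B.mul_mem (B.mul_mem hb (B.mul_mem hc hc)) (B.mul_mem (B.mul_mem hb (B.mul_mem hc hc))
    (B.mul_mem hρc hρc))) _ hb, ← mul_assoc]
  exact h3

/-- `B / B²` has order four -/
theorem sq_cases {b : X} (hb : b ∈ B) (hbs : ¬ Sq B b) {a : X} (ha : a ∈ B) :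
    Sq B a ∨ Sq B (b⁻¹ * a) ∨ Sq B ((ρ b)⁻¹ * a) ∨ Sq B ((ρ (ρ b))⁻¹ * a) := by
  classical
  letI : CommGroup B := { (inferInstance : Group B) with
    mul_comm := fun a b => Subtype.ext (h.Bc a a.2 b b.2) }
  let q : B →* B := powMonoidHom 2
  have hq : ∀ x : B, q x = x * x := fun x => pow_two x
  have hrange : ∀ x : B, x ∈ q.range ↔ Sq B (x : X) := by
    intro x
    constructor
    · rintro ⟨c, hc⟩
      exact ⟨c, c.2, by rw [← hc, hq]; rfl⟩
    · rintro ⟨c, hc, hcx⟩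
      exact ⟨⟨c, hc⟩, by rw [hq]; exact Subtype.ext hcx⟩
  have hker : Nat.card q.ker = 4 := by
    have h1 : q.ker.map B.subtype = Z := by
      ext x
      constructor
      · rintro ⟨y, hy, rfl⟩
        have h2 : q y = 1 := hy
        rw [hq] at h2
        exact h.mem_Z y.2 (congrArg Subtype.val h2)
      · intro hx
        refine ⟨⟨x, h.ZB hx⟩, ?_, rfl⟩
        show q ⟨x, h.ZB hx⟩ = 1
        rw [hq]; exact Subtype.ext (h.hd.Ztwo x hx)
    rw [← h.hd.Zcard, ← h1, Subgroup.card_map_of_injective B.subtype_injective]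
  have hindex : q.range.index = 4 := by
    have h1 : Nat.card q.range * q.range.index = Nat.card B := Subgroup.card_mul_index _
    have h2 : Nat.card q.ker * q.ker.index = Nat.card B := Subgroup.card_mul_index _
    rw [Subgroup.index_ker, hker] at h2
    have h3 : 0 < Nat.card q.range := Nat.card_pos
    have h4 : Nat.card q.range * q.range.index = Nat.card q.range * 4 := by rw [h1, ← h2]; ring
    exact Nat.eq_of_mul_eq_mul_left h3 h4
  by_contra hno
  push Not at hno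
  obtain ⟨n1, n2, n3, n4⟩ := hno
  have hρb := h.Bρ b hb
  have hρρb := h.Bρ _ hρb
  have m1 : ¬ Sq B (ρ b) := fun h1 => hbs (by have := h.sq_rho (h.sq_rho h1); rwa [h.rho3 hb] at this)
  have m2 : ¬ Sq B (ρ (ρ b)) := fun h1 => hbs (by have := h.sq_rho h1; rwa [h.rho3 hb] at this)
  have m3 : ¬ Sq B (b⁻¹ * ρ b) := fun h1 => hbs (h.not_sq_rho hb h1)
  have m4 : ¬ Sq B ((ρ b)⁻¹ * ρ (ρ b)) := fun h1 => m1 (h.not_sq_rho hρb h1)
  have m5 : ¬ Sq B (b⁻¹ * ρ (ρ b)) := by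
    intro h1
    apply m2
    apply h.not_sq_rho hρρb
    rw [h.rho3 hb]
    have := h.sq_inv h1
    rwa [mul_inv_rev, inv_inv] at this
  have hne : ∀ x y : B, ¬ Sq B ((x : X)⁻¹ * y) → ((x : B) : B ⧸ q.range) ≠ ((y : B) : B ⧸ q.range) := by
    intro x y hxy h1
    rw [QuotientGroup.eq, hrange] at h1
    exact hxy h1
  have h5 : ({((1 : B) : B ⧸ q.range), ((⟨b, hb⟩ : B) : B ⧸ q.range), ((⟨ρ b, hρb⟩ : B) : B ⧸ q.range),
      ((⟨ρ (ρ b), hρρb⟩ : B) : B ⧸ q.range), ((⟨a, ha⟩ : B) : B ⧸ q.range)} : Finset (B ⧸ q.range)).card = 5 := by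
    rw [Finset.card_insert_of_notMem, Finset.card_insert_of_notMem, Finset.card_insert_of_notMem,
      Finset.card_insert_of_notMem, Finset.card_singleton]
    · rw [Finset.mem_singleton]; exact hne _ _ n4
    · simp only [Finset.mem_insert, Finset.mem_singleton, not_or]
      exact ⟨hne _ _ m4, hne _ _ n3⟩
    · simp only [Finset.mem_insert, Finset.mem_singleton, not_or]
      exact ⟨hne _ _ m3, hne _ _ m5, hne _ _ n2⟩
    · simp only [Finset.mem_insert, Finset.mem_singleton, not_or]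
      refine ⟨hne _ _ ?_, hne _ _ ?_, hne _ _ ?_, hne _ _ ?_⟩
      · rw [Subgroup.coe_one, inv_one, one_mul]; exact hbs
      · rw [Subgroup.coe_one, inv_one, one_mul]; exact m1
      · rw [Subgroup.coe_one, inv_one, one_mul]; exact m2
      · rw [Subgroup.coe_one, inv_one, one_mul]; exact n1
  haveI : Fintype (B ⧸ q.range) := Fintype.ofFinite _
  have h6 := Finset.card_le_univ ({((1 : B) : B ⧸ q.range), ((⟨b, hb⟩ : B) : B ⧸ q.range),
    ((⟨ρ b, hρb⟩ : B) : B ⧸ q.range), ((⟨ρ (ρ b), hρρb⟩ : B) : B ⧸ q.range),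
    ((⟨a, ha⟩ : B) : B ⧸ q.range)} : Finset (B ⧸ q.range))
  rw [h5] at h6
  have h7 : Nat.card (B ⧸ q.range) = 4 := hindex
  rw [Nat.card_eq_fintype_card] at h7
  omega

/-- an involution outside `B` with `[X,s] ≤ Z` gives a normal `E₈` -/
theorem no_invol {s : X} (hsB : s ∉ B) (hs : s * s = 1) (hsx : ∀ x, x * s * x⁻¹ * s⁻¹ ∈ Z) : False := by
  classical
  have hc : ∀ z ∈ Z, z * s = s * z := fun z hz => h.hd.Zcen z hz s
  have hsn : zpowers s ≤ normalizer (Z : Set X) := by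
    rw [normalizer_eq_top_iff.2 h.hd.Zn]; exact le_top
  have hmem : ∀ a, a ∈ Z ⊔ zpowers s ↔ ∃ z ∈ Z, a = z ∨ a = z * s := by
    intro a
    rw [SubgroupTools.mem_sup_of_le_normalizer hsn]
    constructor
    · rintro ⟨z, hz, y, hy, rfl⟩
      rcases (mem_zpowers_two hs).1 hy with rfl | rfl
      · exact ⟨z, hz, Or.inl (mul_one z)⟩
      · exact ⟨z, hz, Or.inr rfl⟩
    · rintro ⟨z, hz, rfl | rfl⟩
      · exact ⟨_, hz, 1, one_mem _, mul_one _⟩
      · exact ⟨_, hz, s, mem_zpowers s, rfl⟩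
  have h1 : Nat.card (Z ⊔ zpowers s : Subgroup X) ≤ 4 := by
    apply h.hd.e8
    · constructor
      intro a ha g
      rw [hmem] at ha ⊢
      obtain ⟨z, hz, rfl | rfl⟩ := ha
      · exact ⟨_, h.hd.Zn.conj_mem _ hz g, Or.inl rfl⟩
      · refine ⟨g * z * g⁻¹ * (g * s * g⁻¹ * s⁻¹), Z.mul_mem (h.hd.Zn.conj_mem _ hz g) (hsx g), Or.inr ?_⟩
        group
    · intro a ha b hb
      rw [hmem] at ha hb
      obtain ⟨z, hz, rfl | rfl⟩ := ha <;> obtain ⟨w, hw, rfl | rfl⟩ := hb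
      · exact h.hd.Zcen _ hz _
      · exact h.hd.Zcen _ hz _
      · exact (h.hd.Zcen _ hw _).symm
      · calc z * s * (w * s) = z * (s * w) * s := by group
          _ = z * (w * s) * s := by rw [hc w hw]
          _ = (z * w) * (s * s) := by group
          _ = (w * z) * (s * s) := by rw [h.hd.Zcen z hz w]
          _ = w * (z * s) * s := by group
          _ = w * (s * z) * s := by rw [hc z hz]
          _ = w * s * (z * s) := by group
    · intro a ha
      rw [hmem] at ha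
      obtain ⟨z, hz, rfl | rfl⟩ := ha
      · exact h.hd.Ztwo _ hz
      · calc z * s * (z * s) = z * (s * z) * s := by group
          _ = z * (z * s) * s := by rw [hc z hz]
          _ = (z * z) * (s * s) := by group
          _ = 1 := by rw [h.hd.Ztwo z hz, hs, mul_one]
  have h2 : Z = Z ⊔ zpowers s := Subgroup.eq_of_le_of_card_ge le_sup_left (by rw [h.hd.Zcard]; exact h1)
  apply hsB
  apply h.ZB
  rw [h2]
  exact (le_sup_right : zpowers s ≤ _) (mem_zpowers s)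

/-- `C_X(B) = B` -/
theorem self_centralizing {x : X} (hx : ∀ b ∈ B, x * b = b * x) : x ∈ B := by
  classical
  haveI := h.Bn
  by_contra hxB
  haveI : Fact (Nat.Prime 2) := ⟨Nat.prime_two⟩
  have hBC : B < centralizer (B : Set X) := by
    refine lt_of_le_of_ne (fun b hb => ?_) ?_
    · rw [mem_centralizer_iff]; intro y hy; exact h.Bc y hy b hb
    · intro h1
      apply hxB
      rw [h1, mem_centralizer_iff]
      intro y hy; exact (hx y hy).symm
  obtain ⟨d, hdC, hdB, hdg⟩ := H32PGroup.exists_central_mod h.hd.pgrp B (centralizer (B : Set X)) hBC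
  rw [mem_centralizer_iff] at hdC
  -- a power of `d` of order two modulo `B`
  obtain ⟨t, htC, htB, htt, htg⟩ : ∃ t, (∀ b ∈ B, t * b = b * t) ∧ t ∉ B ∧ t * t ∈ B ∧
      ∀ g, g * t * g⁻¹ * t⁻¹ ∈ B := by
    have hex : ∃ j, d ^ (2 ^ j) ∈ B := by
      obtain ⟨k, hk⟩ := IsPGroup.iff_orderOf.1 h.hd.pgrp d
      exact ⟨k, by rw [← hk, pow_orderOf_eq_one]; exact one_mem _⟩
    have hj := Nat.find_spec hex
    have hj0 : Nat.find hex ≠ 0 := by
      intro h0
      rw [h0, pow_zero, pow_one] at hj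
      exact hdB hj
    obtain ⟨i, hi⟩ := Nat.exists_eq_succ_of_ne_zero hj0
    have hiB : d ^ (2 ^ i) ∉ B := Nat.find_min hex (by omega)
    refine ⟨d ^ (2 ^ i), ?_, hiB, ?_, ?_⟩
    · intro b hb
      exact ((Commute.pow_left (show Commute d b from (hdC b hb).symm) _)).eq
    · rw [← pow_two, ← pow_mul, ← pow_succ, ← Nat.succ_eq_add_one, ← hi]; exact hj
    · intro g
      have h1 : ∀ m : ℕ, g * d ^ m * g⁻¹ * (d ^ m)⁻¹ ∈ B := by
        intro m
        have h2 : (QuotientGroup.mk' B (g * d * g⁻¹)) = QuotientGroup.mk' B d := by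
          rw [QuotientGroup.mk'_apply, QuotientGroup.mk'_apply, eq_comm, QuotientGroup.eq]
          have := h.Bn.conj_mem _ (hdg g) d⁻¹
          have h3 : d⁻¹ * (g * d * g⁻¹ * d⁻¹) * d⁻¹⁻¹ = d⁻¹ * (g * d * g⁻¹) := by group
          rwa [h3] at this
        have h3 : QuotientGroup.mk' B (g * d ^ m * g⁻¹ * (d ^ m)⁻¹) = 1 := by
          rw [← conj_pow, map_mul, map_pow, h2, map_inv, map_pow, mul_inv_cancel]
        exact (QuotientGroup.eq_one_iff _).1 h3
      exact h1 _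
  -- the subgroup `T`
  let T : Subgroup X :=
    { carrier := {t | (∀ b ∈ B, t * b = b * t) ∧ t * t ∈ B ∧ ∀ g, g * t * g⁻¹ * t⁻¹ ∈ B}
      mul_mem' := by
        rintro s t ⟨hs1, hs2, hs3⟩ ⟨ht1, ht2, ht3⟩
        refine ⟨fun b hb => by rw [mul_assoc, ht1 b hb, ← mul_assoc, hs1 b hb, mul_assoc], ?_, fun g => ?_⟩
        · have h1 : s * t * (s * t) = s * (t * s * t⁻¹ * s⁻¹) * s * (t * t) := by group
          rw [h1, hs1 _ (hs3 t), mul_assoc, mul_assoc]
          exact B.mul_mem (hs3 t) (by rw [← mul_assoc]; exact B.mul_mem hs2 ht2)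
        · have h1 : g * (s * t) * g⁻¹ * (s * t)⁻¹ =
              (g * s * g⁻¹ * s⁻¹) * (s * (g * t * g⁻¹ * t⁻¹) * s⁻¹) := by group
          rw [h1]
          exact B.mul_mem (hs3 g) (h.Bn.conj_mem _ (ht3 g) s)
      one_mem' := ⟨fun b _ => by rw [one_mul, mul_one], by rw [mul_one]; exact one_mem _, fun g => by
        have : g * 1 * g⁻¹ * 1⁻¹ = 1 := by group
        rw [this]; exact one_mem _⟩
      inv_mem' := by
        rintro s ⟨hs1, hs2, hs3⟩
        refine ⟨fun b hb => ?_, ?_, fun g => ?_⟩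
        · have := hs1 b hb
          calc s⁻¹ * b = s⁻¹ * (b * s) * s⁻¹ := by group
            _ = s⁻¹ * (s * b) * s⁻¹ := by rw [this]
            _ = b * s⁻¹ := by group
        · rw [← mul_inv_rev]; exact B.inv_mem hs2
        · have h1 : g * s⁻¹ * g⁻¹ * s⁻¹⁻¹ = s⁻¹ * (s * (g * s * g⁻¹)⁻¹) * s := by group
          rw [h1]
          have h2 := h.Bn.conj_mem _ (B.inv_mem (hs3 g)) s⁻¹
          have h3 : s⁻¹ * (g * s * g⁻¹ * s⁻¹)⁻¹ * s⁻¹⁻¹ = s⁻¹ * (s * (g * s * g⁻¹)⁻¹) * s := by group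
          rwa [h3] at h2 }
  have hT : ∀ t, t ∈ T ↔ (∀ b ∈ B, t * b = b * t) ∧ t * t ∈ B ∧ ∀ g, g * t * g⁻¹ * t⁻¹ ∈ B :=
    fun _ => Iff.rfl
  have hBT : B ≤ T := fun b hb => (hT b).2 ⟨fun c hc => h.Bc b hb c hc, B.mul_mem hb hb, fun g =>
    B.mul_mem (h.Bn.conj_mem b hb g) (B.inv_mem hb)⟩
  have hTρ : ∀ t ∈ T, ρ t ∈ T := by
    intro t ht
    rw [hT] at ht ⊢
    refine ⟨fun b hb => ?_, ?_, fun g => ?_⟩
    · have h1 := congrArg ρ (ht.1 _ (h.Bρ _ (h.Bρ _ hb)))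
      rwa [map_mul, map_mul, h.rho3 hb] at h1
    · rw [← map_mul]; exact h.Bρ _ ht.2.1
    · have h1 := h.Bρ _ (ht.2.2 (ρ.symm g))
      rwa [map_mul, map_mul, map_mul, map_inv, map_inv, MulEquiv.apply_symm_apply] at h1
  have hTn : T.Normal := by
    constructor
    intro t ht g
    have h1 : g * t * g⁻¹ = (g * t * g⁻¹ * t⁻¹) * t := by group
    rw [h1]
    exact T.mul_mem (hBT (((hT t).1 ht).2.2 g)) ht
  -- commutators of `T` lie in `Z`
  have hTc : ∀ s ∈ T, ∀ t ∈ T, dd s t ∈ Z := by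
    intro s hs t ht
    rw [hT] at hs ht
    have hcB : dd s t ∈ B := ht.2.2 s
    apply h.mem_Z hcB
    have h1 : s * s * t = t * (s * s) := (ht.1 _ hs.2.1).symm
    have h2 : dd s t * t = s * t * s⁻¹ := by unfold dd; group
    have h3 : dd s t * dd s t * t = s * s * t * s⁻¹ * s⁻¹ := by
      calc dd s t * dd s t * t = dd s t * (dd s t * t) := by group
        _ = dd s t * (s * t * s⁻¹) := by rw [h2]
        _ = (dd s t * s) * (t * s⁻¹) := by group
        _ = (s * dd s t) * (t * s⁻¹) := by rw [hs.1 _ hcB]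
        _ = s * (dd s t * t) * s⁻¹ := by group
        _ = s * (s * t * s⁻¹) * s⁻¹ := by rw [h2]
        _ = _ := by group
    have h4 : s * s * t * s⁻¹ * s⁻¹ = t := by rw [h1]; group
    rw [h4] at h3
    exact (mul_eq_right.1 h3)
  -- case alpha
  by_cases hα : ∃ t ∈ T, t ∉ B ∧ Sq B (t * t)
  · obtain ⟨t, ht, htB, b, hb, hbt⟩ := hα
    have htT := (hT t).1 ht
    have hcomm : t * b⁻¹ = b⁻¹ * t := htT.1 _ (B.inv_mem hb)
    refine h.no_invol (s := t * b⁻¹) ?_ ?_ ?_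
    · intro h1
      apply htB
      have := B.mul_mem h1 hb
      rwa [inv_mul_cancel_right] at this
    · calc t * b⁻¹ * (t * b⁻¹) = t * (b⁻¹ * t) * b⁻¹ := by group
        _ = t * (t * b⁻¹) * b⁻¹ := by rw [hcomm]
        _ = (t * t) * (b * b)⁻¹ := by group
        _ = 1 := by rw [hbt, mul_inv_cancel]
    · intro g
      set s := t * b⁻¹ with hs
      have hsT : s ∈ T := T.mul_mem ht (hBT (B.inv_mem hb))
      have hss : s * s = 1 := by
        calc s * s = t * (b⁻¹ * t) * b⁻¹ := by rw [hs]; group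
          _ = t * s * b⁻¹ := by rw [hcomm]
          _ = (t * t) * (b * b)⁻¹ := by rw [hs]; group
          _ = 1 := by rw [hbt, mul_inv_cancel]
      have hsT' := (hT s).1 hsT
      have hc := hsT'.2.2 g
      apply h.mem_Z hc
      -- `(g s g⁻¹)² = 1` and `g s g⁻¹ = c s` with `c ∈ B` commuting with `s`
      set c := g * s * g⁻¹ * s⁻¹ with hcd
      have h1 : c * s = g * s * g⁻¹ := by rw [hcd]; group
      have h2 : c * s * (c * s) = 1 := by
        rw [h1]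
        have : g * s * g⁻¹ * (g * s * g⁻¹) = g * (s * s) * g⁻¹ := by group
        rw [this, hss]; group
      calc c * c = c * (c * (s * s)) := by rw [hss, mul_one]
        _ = c * (c * s) * s := by group
        _ = c * (s * c) * s := by rw [hsT'.1 c hc]
        _ = c * s * (c * s) := by group
        _ = 1 := h2
  · push Not at hα
    -- `T` is abelian
    have hinB : ∀ t ∈ T, Sq B (t * t) → t ∈ B := by
      intro t ht hs
      by_contra htB
      exact hα t ht htB hs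
    -- squares are multiplicative modulo `Z`
    have hsqm : ∀ s ∈ T, ∀ t ∈ T, Sq B ((s * s) * (t * t)) → s * t ∈ B := by
      intro s hs t ht hsq
      apply hinB _ (T.mul_mem hs ht)
      have hs' := (hT s).1 hs
      have h1 : s * t * (s * t) = (s * s) * (t * t) * dd t s := by
        have h2 : s * t * (s * t) = s * (dd t s * s) * (t * t) := by unfold dd; group
        rw [h2, ← h.hd.Zcen _ (hTc t ht s hs) (s * s * (t * t)), h.hd.Zcen _ (hTc t ht s hs) s]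
        calc s * (s * dd t s) * (t * t) = s * s * (dd t s * (t * t)) := by group
          _ = s * s * ((t * t) * dd t s) := by rw [h.hd.Zcen _ (hTc t ht s hs)]
          _ = s * s * (t * t) * dd t s := by group
          _ = dd t s * (s * s * (t * t)) := by rw [h.hd.Zcen _ (hTc t ht s hs)]
      rw [h1]
      exact h.sq_mul hsq (h.sq_Z (hTc t ht s hs))
    have hinvsq : ∀ s ∈ T, ∀ t ∈ T, Sq B ((s * s)⁻¹ * (t * t)) → s⁻¹ * t ∈ B := by
      intro s hs t ht hsq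
      apply hsqm _ (T.inv_mem hs) _ ht
      rwa [← mul_inv_rev]
    -- `u` commutes with `ρ u`
    have hddm : ∀ a b c : X, a ∈ T → b ∈ T → c ∈ T → dd (a * b) c = dd a c * dd b c := by
      intro a b c ha hb hc
      have h1 : dd (a * b) c = a * dd b c * (c * a⁻¹ * c⁻¹) := by unfold dd; group
      rw [h1, ← h.hd.Zcen _ (hTc b hb c hc) a, mul_assoc, h.hd.Zcen _ (hTc b hb c hc)]
      unfold dd; group
    have hself : ∀ u ∈ T, u * ρ u = ρ u * u := by
      intro u hu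
      have h1 := hTρ u hu
      have h2 := hTρ _ h1
      have hw : u * ρ u * ρ (ρ u) ∈ B := by
        apply hsqm _ (T.mul_mem hu h1) _ h2
        have e1 : u * ρ u * (u * ρ u) = (u * u) * (ρ u * ρ u) * dd (ρ u) u := by
          have e2 : u * ρ u * (u * ρ u) = u * (dd (ρ u) u * u) * (ρ u * ρ u) := by unfold dd; group
          have hz := hTc _ h1 u hu
          rw [e2, h.hd.Zcen _ hz u]
          calc u * (u * dd (ρ u) u) * (ρ u * ρ u) = u * u * (dd (ρ u) u * (ρ u * ρ u)) := by group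
            _ = _ := by rw [h.hd.Zcen _ hz]; group
        rw [e1]
        have hz := hTc _ h1 u hu
        have e3 : u * u * (ρ u * ρ u) * dd (ρ u) u * (ρ (ρ u) * ρ (ρ u)) =
            dd (ρ u) u * ((u * u) * ρ (u * u) * ρ (ρ (u * u))) := by
          rw [← h.hd.Zcen _ hz (u * u * (ρ u * ρ u)), map_mul, map_mul]
          group
        rw [e3, h.rho_prod ((hT u).1 hu).2.1, mul_one]
        exact h.sq_Z hz
      set c := dd u (ρ u) with hc
      have hcZ : c ∈ Z := hTc u hu _ h1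
      have hρc : ρ c = c := by
        rw [hc, HD.map_dd]
        have hdw : dd (u * ρ u * ρ (ρ u)) (ρ u) = 1 := by
          have := ((hT _).1 h1).1 _ hw
          unfold dd
          rw [← this]; group
        rw [hddm _ _ _ (T.mul_mem hu h1) h2 h1, hddm _ _ _ hu h1 h1] at hdw
        have e1 : dd (ρ u) (ρ u) = 1 := by unfold dd; group
        rw [e1, mul_one] at hdw
        have e2 : dd (ρ (ρ u)) (ρ u) = (dd u (ρ u))⁻¹ := eq_inv_of_mul_eq_one_right hdw
        have e3 : dd (ρ u) (ρ (ρ u)) = (dd (ρ (ρ u)) (ρ u))⁻¹ := by unfold dd; group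
        rw [e3, e2, inv_inv]
      have h3 := h.hd.ρfix c hcZ hρc
      rw [hc] at h3
      unfold dd at h3
      rw [mul_inv_eq_one, mul_inv_eq_iff_eq_mul] at h3
      exact h3
    have hself2 : ∀ u ∈ T, u * ρ (ρ u) = ρ (ρ u) * u := by
      intro u hu
      have h1 := hTρ u hu
      have h2 := hTρ _ h1
      -- apply to `ρ ρ u`, using that `ρ³ u ∈ u B`
      have e1 := hself _ h2
      have e2 : (ρ (ρ (ρ u)))⁻¹ * u ∈ B := by
        apply hinvsq _ (hTρ _ h2) _ hu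
        rw [← map_mul, ← map_mul, ← map_mul, h.rho3 ((hT u).1 hu).2.1, inv_mul_cancel]
        exact h.sq_one
      have e3 : u = ρ (ρ (ρ u)) * ((ρ (ρ (ρ u)))⁻¹ * u) := by group
      have e4 := ((hT _).1 h2).1 _ e2
      calc u * ρ (ρ u) = ρ (ρ (ρ u)) * (((ρ (ρ (ρ u)))⁻¹ * u) * ρ (ρ u)) := by
            conv_lhs => rw [e3]
            group
        _ = ρ (ρ (ρ u)) * (ρ (ρ u) * ((ρ (ρ (ρ u)))⁻¹ * u)) := by rw [e4]
        _ = (ρ (ρ (ρ u)) * ρ (ρ u)) * ((ρ (ρ (ρ u)))⁻¹ * u) := by group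
        _ = (ρ (ρ u) * ρ (ρ (ρ u))) * ((ρ (ρ (ρ u)))⁻¹ * u) := by rw [e1]
        _ = ρ (ρ u) * u := by group
    have hTab : ∀ u ∈ T, ∀ v ∈ T, u * v = v * u := by
      intro u hu v hv
      have hfin : ∀ p ∈ T, u * p = p * u → p⁻¹ * v ∈ B → u * v = v * u := by
        intro p hp hup hpv
        have e1 := ((hT u).1 hu).1 _ hpv
        calc u * v = u * p * (p⁻¹ * v) := by group
          _ = p * u * (p⁻¹ * v) := by rw [hup]
          _ = p * (u * (p⁻¹ * v)) := by group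
          _ = p * ((p⁻¹ * v) * u) := by rw [e1]
          _ = v * u := by group
      by_cases huB : u ∈ B
      · exact (((hT v).1 hv).1 u huB).symm
      have hns : ¬ Sq B (u * u) := fun hs => huB (hinB u hu hs)
      rcases h.sq_cases ((hT u).1 hu).2.1 hns ((hT v).1 hv).2.1 with h1 | h1 | h1 | h1
      · exact ((hT u).1 hu).1 v (hinB v hv h1)
      · exact hfin u hu rfl (hinvsq u hu v hv h1)
      · rw [map_mul] at h1
        exact hfin _ (hTρ u hu) (hself u hu) (hinvsq _ (hTρ u hu) v hv h1)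
      · rw [map_mul, map_mul] at h1
        exact hfin _ (hTρ _ (hTρ u hu)) (hself2 u hu) (hinvsq _ (hTρ _ (hTρ u hu)) v hv h1)
    exact htB (h.Bmax T hTn hTab hTρ hBT ((hT t).2 ⟨htC, htt, htg⟩))

end HB

end Cfsg.Agent.Lib.H30SX
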