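import Cfsg.Agent.Lib.H30SXe

/-!
`B = D`, and the structure of `X` in the homocyclic case.
-/

set_option autoImplicit false

namespace Cfsg.Agent.Lib.H30SX

open Subgroup

universe u

variable {X : Type u} [Group X]

namespace HB

variable [Finite X] {A : Subgroup (MulAut X)} {D Z : Subgroup X} {ρ : MulAut X} {B : Subgroup X}
  (h : HB A D Z ρ B)
include h

theorem dd_memB (x : X) {b : X} (hb : b ∈ B) : dd x b ∈ B := B.mul_mem (h.Bn.conj_mem b hb x) (B.inv_mem hb)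

theorem dd_B {a b : X} (ha : a ∈ B) (hb : b ∈ B) : dd a b = 1 := by
  unfold dd; rw [h.Bc a ha b hb]; group

/-- if `ℓ² ∈ B` then `ℓ` inverts `[ℓ, b]` -/
theorem inverts {l : X} (hl : l * l ∈ B) {b : X} (hb : b ∈ B) : l * dd l b * l⁻¹ = (dd l b)⁻¹ := by
  have h1 : l * l * b = b * (l * l) := h.Bc _ hl _ hb
  have h2 : l * dd l b * l⁻¹ * dd l b = (l * l * b) * l⁻¹ * l⁻¹ * b⁻¹ := by unfold dd; group
  rw [h1] at h2
  apply eq_inv_of_mul_eq_one_left
  rw [h2]; group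

theorem beta {l : X} (hl : l * l ∈ B) (hlD : ∀ d ∈ D, l * d = d * l) {b : X} (hb : b ∈ B) : dd l b ∈ Z := by
  haveI : Fact (Nat.Prime 2) := ⟨Nat.prime_two⟩
  set c := dd l b with hc
  have hcB : c ∈ B := h.dd_memB l hb
  have hinv : l * c * l⁻¹ = c⁻¹ := h.inverts hl hb
  apply h.mem_Z hcB
  by_contra hcc
  have h1 : c ^ 2 ≠ 1 := by rw [pow_two]; exact hcc
  obtain ⟨y, hy, hyo⟩ := H30SO.exists_pow_orderOf (p := 2) (X := zpowers c)
    (h.hd.pgrp.to_subgroup _) (mem_zpowers c) h1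
  obtain ⟨k, rfl⟩ := hy
  change orderOf (c ^ k) = 2 ^ 2 at hyo
  have hyB : c ^ k ∈ B := B.zpow_mem hcB k
  have hyD : c ^ k ∈ D := by
    apply h.mem_D hyB
    have : (c ^ k) ^ 4 = 1 := by rw [show (4 : ℕ) = 2 ^ 2 by norm_num, ← hyo, pow_orderOf_eq_one]
    rw [← this]; group
  have h2 : l * c ^ k * l⁻¹ = (c ^ k)⁻¹ := by rw [← conj_zpow, hinv, inv_zpow]
  have h3 : l * c ^ k * l⁻¹ = c ^ k := by rw [hlD _ hyD, mul_inv_cancel_right]
  rw [h3] at h2
  have h4 : (c ^ k) ^ 2 = 1 := by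
    rw [pow_two]; exact mul_eq_one_iff_eq_inv.2 h2
  have h5 := orderOf_dvd_of_pow_eq_one h4
  rw [hyo] at h5
  revert h5; decide

theorem dd_mulB {x y b : X} (hy : dd y b ∈ Z) : dd (x * y) b = dd x b * dd y b := by
  have h1 : dd (x * y) b = x * dd y b * (b * x⁻¹ * b⁻¹) := by unfold dd; group
  rw [h1, ← h.hd.Zcen _ hy x, mul_assoc, h.hd.Zcen _ hy]
  unfold dd; group

theorem dd_rightB {x b c : X} (hc : dd x c ∈ Z) : dd x (b * c) = dd x b * dd x c := by
  have h1 : dd x (b * c) = dd x b * (b * dd x c * b⁻¹) := by unfold dd; group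
  rw [h1, ← h.hd.Zcen _ hc b, mul_inv_cancel_right]

theorem dd_sq {x b : X} (hb : dd x b ∈ Z) : dd x (b * b) = 1 := by
  rw [h.dd_rightB hb]; exact h.hd.Ztwo _ hb

omit h [Finite X] in
theorem comm_of_dd {x b : X} (hx : dd x b = 1) : x * b = b * x := by
  unfold dd at hx
  rwa [mul_inv_eq_one, mul_inv_eq_iff_eq_mul] at hx

omit h [Finite X] in
theorem dd_of_comm {x b : X} (hx : x * b = b * x) : dd x b = 1 := by
  unfold dd
  rwa [mul_inv_eq_one, mul_inv_eq_iff_eq_mul]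

theorem final_contra {l : X} (hlB : l ∉ B) (hl2 : l * l ∈ B) (hlx : ∀ x, x * l * x⁻¹ * l⁻¹ ∈ B)
    (hlD : ∀ d ∈ D, l * d = d * l) (hC : ∀ b ∈ B, l * b = b * l → Sq B b) : False := by
  classical
  have hβ : ∀ b ∈ B, dd l b ∈ Z := fun b hb => h.beta hl2 hlD hb
  letI : CommGroup B := { (inferInstance : Group B) with
    mul_comm := fun a b => Subtype.ext (h.Bc a a.2 b b.2) }
  let q : B →* B := powMonoidHom 2
  have hq : ∀ x : B, q x = x * x := fun x => pow_two x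
  let θ : B →* B :=
    { toFun := fun b => b * b * ⟨dd l b, h.ZB (hβ b b.2)⟩
      map_one' := by
        apply Subtype.ext
        show (1 : X) * 1 * dd l 1 = 1
        unfold dd; group
      map_mul' := fun a b => by
        have e1 : (⟨dd l ((a * b : B) : X), h.ZB (hβ _ (a * b).2)⟩ : B) =
            ⟨dd l a, h.ZB (hβ a a.2)⟩ * ⟨dd l b, h.ZB (hβ b b.2)⟩ :=
          Subtype.ext (h.dd_rightB (hβ b b.2))
        rw [e1]
        have e2 : a * b * (a * b) = (a * a) * (b * b) := mul_mul_mul_comm a b a b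
        rw [e2, mul_mul_mul_comm] }
  have hθ : ∀ b : B, ((θ b : B) : X) = b * b * dd l b := fun _ => rfl
  -- kernels
  have hkerθ : ∀ b : B, θ b = 1 → (b : X) ∈ Z := by
    intro b hb
    have h1 : (b : X) * b * dd l b = 1 := by rw [← hθ, hb]; rfl
    have h2 : (b : X) * b = (dd l b)⁻¹ := eq_inv_of_mul_eq_one_left h1
    have h3 : (b : X) * b ∈ Z := h2 ▸ Z.inv_mem (hβ b b.2)
    have h4 : (b : X) ∈ D := h.mem_D b.2 (h.hd.Ztwo _ h3)
    rw [dd_of_comm (hlD _ h4), mul_one] at h1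
    exact h.mem_Z b.2 h1
  have hcardker : ∀ f : B →* B, (∀ b : B, f b = 1 ↔ (b : X) ∈ Z) → f.range.index = 4 := by
    intro f hf
    have hker : Nat.card f.ker = 4 := by
      have h1 : f.ker.map B.subtype = Z := by
        ext x
        constructor
        · rintro ⟨y, hy, rfl⟩
          exact (hf y).1 hy
        · intro hx
          exact ⟨⟨x, h.ZB hx⟩, (hf _).2 hx, rfl⟩
      rw [← h.hd.Zcard, ← h1, Subgroup.card_map_of_injective B.subtype_injective]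
    have h1 : Nat.card f.range * f.range.index = Nat.card B := Subgroup.card_mul_index _
    have h2 : Nat.card f.ker * f.ker.index = Nat.card B := Subgroup.card_mul_index _
    rw [Subgroup.index_ker, hker] at h2
    have h4 : Nat.card f.range * f.range.index = Nat.card f.range * 4 := by rw [h1, ← h2]; ring
    exact Nat.eq_of_mul_eq_mul_left Nat.card_pos h4
  have hiq := hcardker q (fun b => by
    rw [hq]
    exact ⟨fun h1 => h.mem_Z b.2 (congrArg Subtype.val h1), fun h1 => Subtype.ext (h.hd.Ztwo _ h1)⟩)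
  have hiθ := hcardker θ (fun b => ⟨hkerθ b, fun h1 => Subtype.ext (by
    rw [hθ, h.hd.Ztwo _ h1, dd_of_comm (hlD _ (h.hd.ZD h1)), mul_one]; rfl)⟩)
  have hle : θ.range ≤ q.range := by
    rintro _ ⟨b, rfl⟩
    obtain ⟨c, hc, hcb⟩ := h.sq_mul ⟨(b : X), b.2, rfl⟩ (h.sq_Z (hβ b b.2))
    exact ⟨⟨c, hc⟩, by rw [hq]; exact Subtype.ext (hcb.trans (hθ b).symm)⟩
  have heq : θ.range = q.range := by
    apply Subgroup.eq_of_le_of_card_ge hle
    have h1 := Subgroup.card_mul_index θ.range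
    have h2 := Subgroup.card_mul_index q.range
    rw [hiθ] at h1; rw [hiq] at h2
    omega
  -- solve for `b`
  obtain ⟨c, hc, hcl⟩ := h.sq_inv (hC _ hl2 (by group))
  have h1 : (⟨(l * l)⁻¹, B.inv_mem hl2⟩ : B) ∈ q.range := ⟨⟨c, hc⟩, by rw [hq]; exact Subtype.ext hcl⟩
  rw [← heq] at h1
  obtain ⟨⟨b, hb⟩, hbl⟩ := h1
  have hbl' : b * b * dd l b = (l * l)⁻¹ := congrArg Subtype.val hbl
  have hconj : ∀ a ∈ B, l⁻¹ * a * l = dd l a * a := by
    intro a ha
    have hz := hβ a ha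
    have e1 : l * a * l⁻¹ = dd l a * a := by unfold dd; group
    have e2 : l * (dd l a * a) * l⁻¹ = a := by
      calc l * (dd l a * a) * l⁻¹ = (l * dd l a) * a * l⁻¹ := by group
        _ = (dd l a * l) * a * l⁻¹ := by rw [h.hd.Zcen _ hz l]
        _ = dd l a * (l * a * l⁻¹) := by group
        _ = (dd l a * dd l a) * a := by rw [e1]; group
        _ = a := by rw [h.hd.Ztwo _ hz, one_mul]
    calc l⁻¹ * a * l = l⁻¹ * (l * (dd l a * a) * l⁻¹) * l := by rw [e2]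
      _ = dd l a * a := by group
  have hss : l * b * (l * b) = 1 := by
    calc l * b * (l * b) = l * l * (l⁻¹ * b * l) * b := by group
      _ = l * l * (dd l b * b * b) := by rw [hconj b hb]; group
      _ = l * l * (b * b * dd l b) := by
          rw [mul_assoc (dd l b), h.hd.Zcen _ (hβ b hb) (b * b)]
      _ = 1 := by rw [hbl', mul_inv_cancel]
  have hsB : l * b ∉ B := fun h1 => hlB (by
    have := B.mul_mem h1 (B.inv_mem hb)
    rwa [mul_inv_cancel_right] at this)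
  refine h.no_invol hsB hss fun x => ?_
  have hcB : x * (l * b) * x⁻¹ * (l * b)⁻¹ ∈ B := by
    have e1 : x * (l * b) * x⁻¹ * (l * b)⁻¹ = (x * l * x⁻¹ * l⁻¹) * (l * (x * b * x⁻¹ * b⁻¹) * l⁻¹) := by group
    rw [e1]
    exact B.mul_mem (hlx x) (h.Bn.conj_mem _ (h.dd_memB x hb) l)
  set c' := x * (l * b) * x⁻¹ * (l * b)⁻¹ with hc'
  have e1 : c' * (l * b) = x * (l * b) * x⁻¹ := by rw [hc']; group
  have e2 : c' * (l * b) * (c' * (l * b)) = 1 := by
    rw [e1]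
    have : x * (l * b) * x⁻¹ * (x * (l * b) * x⁻¹) = x * (l * b * (l * b)) * x⁻¹ := by group
    rw [this, hss]; group
  have e3 : c' * c' * dd l c' = 1 := by
    have e4 : (l * b) * c' * (l * b)⁻¹ = dd l c' * c' := by
      calc (l * b) * c' * (l * b)⁻¹ = l * (b * c' * b⁻¹) * l⁻¹ := by group
        _ = l * c' * l⁻¹ := by rw [h.Bc b hb c' hcB, mul_inv_cancel_right]
        _ = dd l c' * c' := by unfold dd; group
    calc c' * c' * dd l c' = c' * (dd l c' * c') := by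
          rw [mul_assoc, h.hd.Zcen _ (hβ c' hcB) c']
      _ = c' * ((l * b) * c' * (l * b)⁻¹) := by rw [e4]
      _ = c' * (l * b) * (c' * (l * b)) * (l * b * (l * b))⁻¹ := by group
      _ = 1 := by rw [e2, hss]; group
  exact hkerθ ⟨c', hcB⟩ (Subtype.ext e3)

/-- Step alpha -/
theorem alpha {l : X} (hl : l * l ∈ B) (hnc : ∃ d ∈ D, dd l d ≠ 1) {b : X} (hb : b ∈ B)
    (hbD : b * b ∈ D) (hbZ : b * b ∉ Z) : dd l b * (b * b) ∈ Z ∧ dd l b ∈ D := by
  have hgam : ∀ d ∈ D, d ∉ Z → dd l d ≠ 1 := by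
    intro d hd hdZ h1
    obtain ⟨e, he, hne⟩ := hnc
    exact hne (h.hd.gam hd hdZ h1 e he)
  set c := dd l b with hc
  have hcB : c ∈ B := h.dd_memB l hb
  have hinv : l * c * l⁻¹ = c⁻¹ := h.inverts hl hb
  have hcc : c * c = dd l (b * b) := by
    have e1 : c * b = l * b * l⁻¹ := by rw [hc]; unfold dd; group
    have e2 : c * c * (b * b) = l * (b * b) * l⁻¹ := by
      rw [← h.mul4 hcB hb, e1]; group
    unfold dd
    rw [← e2, mul_inv_cancel_right]
  have hcZ : c * c ∈ Z := by rw [hcc]; exact h.hd.dd_mem l hbD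
  have hcD : c ∈ D := h.mem_D hcB (h.hd.Ztwo _ hcZ)
  refine ⟨?_, hcD⟩
  by_contra hno
  apply hgam (c * (b * b)) (D.mul_mem hcD hbD) hno
  rw [h.hd.dd_right l hcD hbD, ← hcc]
  have e3 : dd l c = c * c := by
    have e4 : dd l c = (c * c)⁻¹ := by
      have : dd l c = l * c * l⁻¹ * c⁻¹ := rfl
      rw [this, hinv, mul_inv_rev]
    rw [e4, inv_eq_iff_mul_eq_one]; exact h.hd.Ztwo _ hcZ
  rw [e3]; exact h.hd.Ztwo _ hcZ

/-- an element commuting with the representatives of `B / B²` and with squares lies in `B` -/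
theorem mem_B_of_reps {l b : X} (hb : b ∈ B) (hbs : ¬ Sq B b) (hβ : ∀ a ∈ B, dd l a ∈ Z)
    (h1 : l * b = b * l) (h2 : l * ρ b = ρ b * l) (h3 : l * ρ (ρ b) = ρ (ρ b) * l) : l ∈ B := by
  apply h.self_centralizing
  intro a ha
  have hsq : ∀ p, p ∈ B → l * p = p * l → Sq B (p⁻¹ * a) → l * a = a * l := by
    intro p hp hlp hs
    obtain ⟨c, hc, hcp⟩ := hs
    have e1 : a = p * (c * c) := by rw [hcp]; group
    have e2 : l * (c * c) = c * c * l := comm_of_dd (h.dd_sq (hβ c hc))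
    rw [e1, ← mul_assoc, hlp, mul_assoc, e2]; group
  rcases h.sq_cases hb hbs ha with h4 | h4 | h4 | h4
  · exact hsq 1 (one_mem _) (by rw [mul_one, one_mul]) (by rwa [inv_one, one_mul])
  · exact hsq b hb h1 h4
  · exact hsq _ (h.Bρ b hb) h2 h4
  · exact hsq _ (h.Bρ _ (h.Bρ b hb)) h3 h4

theorem B_le_D (hna : ∃ x y : X, x * y ≠ y * x) : B ≤ D := by
  classical
  haveI := h.Bn
  haveI : Fact (Nat.Prime 2) := ⟨Nat.prime_two⟩
  by_contra hBD
  have hBtop : B < ⊤ := by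
    rw [lt_top_iff_ne_top]
    intro h1
    obtain ⟨x, y, hxy⟩ := hna
    exact hxy (h.Bc x (h1 ▸ mem_top x) y (h1 ▸ mem_top y))
  obtain ⟨d, -, hdB, hdg⟩ := H32PGroup.exists_central_mod h.hd.pgrp B ⊤ hBtop
  obtain ⟨m, hmB, hmm, hmg⟩ : ∃ t, t ∉ B ∧ t * t ∈ B ∧ ∀ g, g * t * g⁻¹ * t⁻¹ ∈ B := by
    have hex : ∃ j, d ^ (2 ^ j) ∈ B := by
      obtain ⟨k, hk⟩ := IsPGroup.iff_orderOf.1 h.hd.pgrp d
      exact ⟨k, by rw [← hk, pow_orderOf_eq_one]; exact one_mem _⟩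
    have hj := Nat.find_spec hex
    have hj0 : Nat.find hex ≠ 0 := by
      intro h0
      rw [h0, pow_zero, pow_one] at hj
      exact hdB hj
    obtain ⟨i, hi⟩ := Nat.exists_eq_succ_of_ne_zero hj0
    have hiB : d ^ (2 ^ i) ∉ B := Nat.find_min hex (by omega)
    refine ⟨d ^ (2 ^ i), hiB, ?_, ?_⟩
    · rw [← pow_two, ← pow_mul, ← pow_succ, ← Nat.succ_eq_add_one, ← hi]; exact hj
    · intro g
      have h1 : ∀ m : ℕ, g * d ^ m * g⁻¹ * (d ^ m)⁻¹ ∈ B := by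
        intro m
        have h2 : (QuotientGroup.mk' B (g * d * g⁻¹)) = QuotientGroup.mk' B d := by
          rw [QuotientGroup.mk'_apply, QuotientGroup.mk'_apply, eq_comm, QuotientGroup.eq]
          have := h.Bn.conj_mem _ (hdg g) d⁻¹
          have h3 : d⁻¹ * (g * d * g⁻¹ * d⁻¹) * d⁻¹⁻¹ = d⁻¹ * (g * d * g⁻¹) := by group
          rwa [h3] at this
        have h3 : QuotientGroup.mk' B (g * d ^ m * g⁻¹ * (d ^ m)⁻¹) = 1 := by
          rw [← conj_pow, map_mul, map_pow, h2, map_inv, map_pow, mul_inv_cancel]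
        exact (QuotientGroup.eq_one_iff _).1 h3
      exact h1 _
  -- the subgroup `T`
  let T : Subgroup X :=
    { carrier := {t | t * t ∈ B ∧ ∀ g, g * t * g⁻¹ * t⁻¹ ∈ B}
      mul_mem' := by
        rintro s t ⟨hs2, hs3⟩ ⟨ht2, ht3⟩
        refine ⟨?_, fun g => ?_⟩
        · have h1 : s * t * (s * t) = (s * (t * s * t⁻¹ * s⁻¹) * s⁻¹) * (s * s) * (t * t) := by group
          rw [h1]
          exact B.mul_mem (B.mul_mem (h.Bn.conj_mem _ (hs3 t) s) hs2) ht2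
        · have h1 : g * (s * t) * g⁻¹ * (s * t)⁻¹ =
              (g * s * g⁻¹ * s⁻¹) * (s * (g * t * g⁻¹ * t⁻¹) * s⁻¹) := by group
          rw [h1]
          exact B.mul_mem (hs3 g) (h.Bn.conj_mem _ (ht3 g) s)
      one_mem' := ⟨by rw [mul_one]; exact one_mem _, fun g => by
        have : g * 1 * g⁻¹ * 1⁻¹ = 1 := by group
        rw [this]; exact one_mem _⟩
      inv_mem' := by
        rintro s ⟨hs2, hs3⟩
        refine ⟨?_, fun g => ?_⟩
        · rw [← mul_inv_rev]; exact B.inv_mem hs2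
        · have h2 := h.Bn.conj_mem _ (B.inv_mem (hs3 g)) s⁻¹
          have h3 : s⁻¹ * (g * s * g⁻¹ * s⁻¹)⁻¹ * s⁻¹⁻¹ = g * s⁻¹ * g⁻¹ * s⁻¹⁻¹ := by group
          rwa [h3] at h2 }
  have hT : ∀ t, t ∈ T ↔ t * t ∈ B ∧ ∀ g, g * t * g⁻¹ * t⁻¹ ∈ B := fun _ => Iff.rfl
  have hTρ : ∀ t ∈ T, ρ t ∈ T := by
    intro t ht
    rw [hT] at ht ⊢
    refine ⟨?_, fun g => ?_⟩
    · rw [← map_mul]; exact h.Bρ _ ht.1
    · have h1 := h.Bρ _ (ht.2 (ρ.symm g))
      rwa [map_mul, map_mul, map_mul, map_inv, map_inv, MulEquiv.apply_symm_apply] at h1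
  have hmT : m ∈ T := (hT m).2 ⟨hmm, hmg⟩
  have hm1 := hTρ m hmT
  have hm2 := hTρ _ hm1
  -- `ρ³` is trivial modulo `B`
  have hρ3 : m⁻¹ * ρ (ρ (ρ m)) ∈ B := by
    apply h.self_centralizing
    intro b hb
    have e1 : ρ (ρ (ρ m)) * b * (ρ (ρ (ρ m)))⁻¹ = m * b * m⁻¹ := by
      have e2 := h.rho3 (h.Bn.conj_mem b hb m)
      rw [← e2]
      conv_lhs => rw [← h.rho3 hb]
      simp only [map_mul, map_inv]
    calc m⁻¹ * ρ (ρ (ρ m)) * b = m⁻¹ * (ρ (ρ (ρ m)) * b * (ρ (ρ (ρ m)))⁻¹) * ρ (ρ (ρ m)) := by group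
      _ = m⁻¹ * (m * b * m⁻¹) * ρ (ρ (ρ m)) := by rw [e1]
      _ = b * (m⁻¹ * ρ (ρ (ρ m))) := by group
  set w := m * ρ m * ρ (ρ m) with hw
  have hwT : w ∈ T := T.mul_mem (T.mul_mem hmT hm1) hm2
  by_cases hwB : w ∈ B
  · -- `m` centralizes `D`
    have hmD : ∀ d ∈ D, m * d = d * m := by
      by_contra hcon
      push Not at hcon
      obtain ⟨e, he, hne⟩ := hcon
      have hncm : ∃ d ∈ D, dd m d ≠ 1 := ⟨e, he, fun h1 => hne (comm_of_dd h1)⟩
      have hncρ : ∀ y, (∃ d ∈ D, dd y d ≠ 1) → ∃ d ∈ D, dd (ρ y) d ≠ 1 := by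
        rintro y ⟨d, hd, hyd⟩
        refine ⟨ρ d, h.hd.DA ρ h.hd.ρA d hd, fun h1 => hyd ?_⟩
        rw [← HD.map_dd] at h1
        exact ρ.injective (by rw [h1, map_one])
      have hncρm := hncρ m hncm
      have hncmm : ∃ d ∈ D, dd (m * ρ m) d ≠ 1 := by
        by_contra hcon
        push Not at hcon
        obtain ⟨d, hd, hyd⟩ := hncρ _ hncρm
        apply hyd
        have e1 : dd w d = 1 := h.dd_B hwB (h.DB hd)
        rw [hw, h.hd.dd_mul _ _ hd, hcon d hd, one_mul] at e1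
        exact e1
      -- an element `b` with `b²` in `D \ Z`
      obtain ⟨b, hb, hbD, hbZ⟩ : ∃ b ∈ B, b * b ∈ D ∧ b * b ∉ Z := by
        rw [SetLike.not_le_iff_exists] at hBD
        obtain ⟨b0, hb0, hb0D⟩ := hBD
        have hex : ∃ j, b0 ^ (2 ^ j) ∈ D := by
          obtain ⟨k, hk⟩ := IsPGroup.iff_orderOf.1 h.hd.pgrp b0
          exact ⟨k, by rw [← hk, pow_orderOf_eq_one]; exact one_mem _⟩
        have hj := Nat.find_spec hex
        have hj0 : Nat.find hex ≠ 0 := by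
          intro h0
          rw [h0, pow_zero, pow_one] at hj
          exact hb0D hj
        obtain ⟨i, hi⟩ := Nat.exists_eq_succ_of_ne_zero hj0
        have hiD : b0 ^ (2 ^ i) ∉ D := Nat.find_min hex (by omega)
        have hiB : b0 ^ (2 ^ i) ∈ B := B.pow_mem hb0 _
        refine ⟨b0 ^ (2 ^ i), hiB, ?_, fun h1 => hiD (h.mem_D hiB (h.hd.Ztwo _ h1))⟩
        rw [← pow_two, ← pow_mul, ← pow_succ, ← Nat.succ_eq_add_one, ← hi]; exact hj
      obtain ⟨p1, -⟩ := h.alpha ((hT m).1 hmT).1 hncm hb hbD hbZ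
      obtain ⟨q1, q2⟩ := h.alpha ((hT _).1 hm1).1 hncρm hb hbD hbZ
      obtain ⟨r1, -⟩ := h.alpha ((hT _).1 (T.mul_mem hmT hm1)).1 hncmm hb hbD hbZ
      have e1 : dd (m * ρ m) b = dd m (dd (ρ m) b) * dd (ρ m) b * dd m b := by unfold dd; group
      have e2 : dd m (dd (ρ m) b) ∈ Z := h.hd.dd_mem m q2
      apply hbZ
      have e3 : (b * b)⁻¹ = (dd m (dd (ρ m) b))⁻¹ * (dd (ρ m) b * (b * b))⁻¹ * (dd m b * (b * b))⁻¹ *
          (dd (m * ρ m) b * (b * b)) := by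
        set z0 := dd m (dd (ρ m) b) with hz0
        set y := dd (ρ m) b with hy
        set x := dd m b with hx
        have hxB : x ∈ B := h.dd_memB m hb
        have hyB : y ∈ B := h.dd_memB _ hb
        have hz0B : z0 ∈ B := h.ZB e2
        have hbb : b * b ∈ B := B.mul_mem hb hb
        rw [e1]
        letI : CommGroup B := { (inferInstance : Group B) with
          mul_comm := fun a b => Subtype.ext (h.Bc a a.2 b b.2) }
        have e4 : ∀ a b c d : B, d⁻¹ = a⁻¹ * (b * d)⁻¹ * (c * d)⁻¹ * (a * b * c * d) := by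
          intro a b c d
          have e5 : a * b * c * d = c * d * (b * d) * a * d⁻¹ := by
            rw [eq_mul_inv_iff_mul_eq]; ac_rfl
          rw [e5]; group
        exact congrArg Subtype.val (e4 ⟨z0, hz0B⟩ ⟨y, hyB⟩ ⟨x, hxB⟩ ⟨b * b, hbb⟩)
      rw [← inv_inv (b * b), e3]
      exact Z.inv_mem (Z.mul_mem (Z.mul_mem (Z.mul_mem (Z.inv_mem e2) (Z.inv_mem q1)) (Z.inv_mem p1)) r1)
    have hρmD : ∀ y, (∀ d ∈ D, y * d = d * y) → ∀ d ∈ D, ρ y * d = d * ρ y := by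
      intro y hy d hd
      have e1 := congrArg ρ (hy _ (h.hd.DA ρ h.hd.ρA _ (h.hd.DA ρ h.hd.ρA d hd)))
      rwa [map_mul, map_mul, h.hd.rho3_D hd] at e1
    have hβm : ∀ a ∈ B, dd m a ∈ Z := fun a ha => h.beta hmm hmD ha
    have hβρm : ∀ a ∈ B, dd (ρ m) a ∈ Z := fun a ha => h.beta ((hT _).1 hm1).1 (hρmD m hmD) ha
    have hβρρm : ∀ a ∈ B, dd (ρ (ρ m)) a ∈ Z := fun a ha =>
      h.beta ((hT _).1 hm2).1 (hρmD _ (hρmD m hmD)) ha
    refine h.final_contra hmB hmm hmg hmD ?_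
    intro b hb hmb
    by_contra hns
    have hρb := h.Bρ b hb
    have hρρb := h.Bρ _ hρb
    set z := dd m (ρ b) with hz
    have hzZ : z ∈ Z := hβm _ hρb
    have hz2 : dd m (ρ (ρ b)) = z := by
      have e1 : dd m (b * ρ b * ρ (ρ b)) = 1 := by rw [h.rho_prod hb]; unfold dd; group
      rw [h.dd_rightB (hβm _ hρρb), h.dd_rightB (hβm _ hρb), dd_of_comm hmb, one_mul] at e1
      have := eq_inv_of_mul_eq_one_right e1
      rw [this, inv_eq_iff_mul_eq_one]; exact h.hd.Ztwo z hzZ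
    have hz1 : z = 1 := by
      have e1 : dd (ρ m) b = ρ z := by
        rw [← hz2, HD.map_dd, h.rho3 hb]
      have e2 : dd (ρ (ρ m)) b = ρ (ρ z) := by
        rw [hz, HD.map_dd, HD.map_dd, h.rho3 hb]
      have e3 : dd w b = 1 := h.dd_B hwB hb
      rw [hw, h.dd_mulB (hβρρm b hb), h.dd_mulB (hβρm b hb), dd_of_comm hmb, one_mul, e1, e2] at e3
      have e4 := h.hd.rho_prod_Z hzZ
      rwa [mul_assoc, e3, mul_one] at e4
    exact hmB (h.mem_B_of_reps hb hns hβm hmb (comm_of_dd hz1) (comm_of_dd (hz2.trans hz1)))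
  · -- `ρ w ≡ w` modulo `B`
    have hρw : w⁻¹ * ρ w ∈ B := by
      have e1 : w⁻¹ * ρ w = ((ρ m * ρ (ρ m))⁻¹ * m⁻¹ * ((ρ m * ρ (ρ m))⁻¹)⁻¹ * m⁻¹⁻¹) *
          (m⁻¹ * ρ (ρ (ρ m))) := by
        rw [hw]; simp only [map_mul]; group
      rw [e1]
      exact B.mul_mem (((hT _).1 (T.inv_mem hmT)).2 _) hρ3
    have hwD : ∀ d ∈ D, w * d = d * w := by
      have e1 : ∀ d ∈ D, dd w d = 1 := by
        apply h.hd.F2
        intro d hd
        have e2 : ρ w = w * (w⁻¹ * ρ w) := by group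
        rw [e2, h.hd.dd_mul _ _ hd, h.dd_B hρw (h.DB hd), mul_one]
      exact fun d hd => comm_of_dd (e1 d hd)
    have hβw : ∀ a ∈ B, dd w a ∈ Z := fun a ha => h.beta ((hT _).1 hwT).1 hwD ha
    refine h.final_contra hwB ((hT w).1 hwT).1 ((hT w).1 hwT).2 hwD ?_
    intro b hb hwb
    by_contra hns
    have hρ : ∀ a ∈ B, w * a = a * w → w * ρ a = ρ a * w := by
      intro a ha hwa
      have e1 : ρ w * ρ a = ρ a * ρ w := by rw [← map_mul ρ w a, ← map_mul ρ a w, hwa]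
      have e3 := h.Bc _ hρw _ (h.Bρ a ha)
      generalize hu : w⁻¹ * ρ w = u at e3
      have e2 : ρ w = w * u := by rw [← hu]; group
      rw [e2, mul_assoc w, e3, ← mul_assoc, ← mul_assoc] at e1
      exact mul_right_cancel e1
    exact hwB (h.mem_B_of_reps hb hns hβw hwb (hρ b hb hwb) (hρ _ (h.Bρ b hb) (hρ b hb hwb)))

end HB

end Cfsg.Agent.Lib.H30SX
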