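import Cfsg.Agent.Lib.H30SXf
import Cfsg.Agent.Lib.H30SXc
import Cfsg.Agent.Lib.Critical

/-!
Assembly of the three cases.
-/

set_option autoImplicit false

namespace Cfsg.Agent.Lib.H30SX

open Subgroup
open scoped commutatorElement

universe u

variable {X : Type u} [Group X]

theorem four_cases [Finite X] {Z : Subgroup X} (hZ : Nat.card Z ≤ 4) {a b : X} (ha : a ∈ Z) (hb : b ∈ Z)
    (ha2 : a * a = 1) (ha1 : a ≠ 1) (hb1 : b ≠ 1) (hab : a ≠ b) :
    Nat.card Z = 4 ∧ ∀ c ∈ Z, c = 1 ∨ c = a ∨ c = b ∨ c = a * b := by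
  classical
  haveI : Fintype X := Fintype.ofFinite X
  let S : Finset X := {1, a, b, a * b}
  have hcS : S.card = 4 := by
    have h1 : a * b ≠ 1 := fun h => hab (by
      have h3 : b = a⁻¹ := eq_inv_of_mul_eq_one_right h
      rw [h3]; exact eq_inv_of_mul_eq_one_left ha2)
    have h2 : a * b ≠ a := fun h => hb1 (by simpa using h)
    have h3 : a * b ≠ b := fun h => ha1 (by simpa using h)
    rw [Finset.card_insert_of_notMem, Finset.card_insert_of_notMem, Finset.card_insert_of_notMem,
      Finset.card_singleton]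
    · rw [Finset.mem_singleton]; exact fun h => h3 h.symm
    · rw [Finset.mem_insert, Finset.mem_singleton]
      push Not
      exact ⟨hab, fun h => h2 h.symm⟩
    · simp only [Finset.mem_insert, Finset.mem_singleton]
      push Not
      exact ⟨ha1.symm, hb1.symm, h1.symm⟩
  have hSZ : (S : Set X) ⊆ Z := by
    intro x hx
    have hx' : x ∈ S := hx
    simp only [S, Finset.mem_insert, Finset.mem_singleton] at hx'
    rcases hx' with rfl | rfl | rfl | rfl
    · exact one_mem _
    · exact ha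
    · exact hb
    · exact Z.mul_mem ha hb
  have hcZ : (Z : Set X).ncard ≤ 4 := by rw [← Nat.card_coe_set_eq]; exact hZ
  have hSn : (S : Set X).ncard = 4 := by rw [Set.ncard_coe_finset, hcS]
  have heq : (S : Set X) = Z := Set.eq_of_subset_of_ncard_le hSZ (by rw [hSn]; exact hcZ) (Set.toFinite _)
  refine ⟨?_, ?_⟩
  · have : Nat.card Z = (Z : Set X).ncard := rfl
    rw [this, ← heq, hSn]
  · intro c hc
    have : c ∈ (S : Set X) := by rw [heq]; exact hc
    have hx' : c ∈ S := this
    simpa only [S, Finset.mem_insert, Finset.mem_singleton] using hx'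

namespace HD

variable [Finite X] {A : Subgroup (MulAut X)} {D Z : Subgroup X} {ρ : MulAut X} (h : HD A D Z ρ)
include h

theorem selfc (hna : ∃ x y : X, x * y ≠ y * x) {x : X} (hx : ∀ d ∈ D, x * d = d * x) : x ∈ D := by
  obtain ⟨B, hB⟩ := h.exists_HB
  have h1 := hB.B_le_D hna
  exact h1 (hB.self_centralizing fun b hb => hx b (h1 hb))

theorem exists_d0 : ∃ d ∈ D, d ∉ Z := by
  classical
  obtain ⟨z, hz, hz1⟩ : ∃ z ∈ Z, z ≠ 1 := by
    by_contra hcon
    push Not at hcon
    have h1 : Z = ⊥ := by rw [eq_bot_iff]; intro x hx; rw [mem_bot]; exact hcon x hx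
    have := h.Zcard
    rw [h1, Subgroup.card_bot] at this
    omega
  obtain ⟨d, hd, hdz⟩ := h.Dsq z hz
  exact ⟨d, hd, fun h1 => hz1 (by rw [← hdz]; exact h.Ztwo d h1)⟩

theorem sq_mem (hna : ∃ x y : X, x * y ≠ y * x) (x : X) : x * x ∈ Z := by
  obtain ⟨d0, hd0, hd0Z⟩ := h.exists_d0
  have h1 : ∀ d ∈ D, dd (x * x) d = 1 := by
    apply h.gam hd0 hd0Z
    rw [h.dd_mul _ _ hd0]
    exact h.Ztwo _ (h.dd_mem x hd0)
  have h2 : x * x ∈ D := h.selfc hna fun d hd => HB.comm_of_dd (h1 d hd)
  by_contra hno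
  have h3 : x ∈ D := by
    apply h.selfc hna
    intro d hd
    apply HB.comm_of_dd
    apply h.gam h2 hno _ d hd
    unfold dd; group
  exact hno (h.D4 x h3)

theorem sp (hna : ∃ x y : X, x * y ≠ y * x) : Sp Z := by
  have hcm : ∀ x y : X, x * y * x⁻¹ * y⁻¹ ∈ Z := by
    intro x y
    have e1 : x * y * x⁻¹ * y⁻¹ = (x * x) * (x⁻¹ * y * (x⁻¹ * y)) * (y * y)⁻¹ := by group
    rw [e1]
    exact Z.mul_mem (Z.mul_mem (h.sq_mem hna _) (h.sq_mem hna _)) (Z.inv_mem (h.sq_mem hna _))
  refine ⟨h.Zcen, h.sq_mem hna, hcm, h.Ztwo, ?_, ?_⟩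
  · intro x hx
    have hxD : x ∈ D := h.selfc hna fun d _ => hx d
    by_contra hno
    obtain ⟨a, b, hab⟩ := hna
    have hall : ∀ y, y ∈ D := fun y => by
      apply h.selfc ⟨a, b, hab⟩
      intro d hd
      apply HB.comm_of_dd
      exact h.gam hxD hno (HB.dd_of_comm (hx y).symm) d hd
    exact hab (h.Dc a (hall a) b (hall b))
  · intro E hZE hEc hE2
    apply h.e8 E _ hEc hE2
    refine ⟨fun e he g => ?_⟩
    have e1 : g * e * g⁻¹ = (g * e * g⁻¹ * e⁻¹) * e := by group
    rw [e1]
    exact E.mul_mem (hZE (hcm g e)) he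

theorem le_comm (hna : ∃ x y : X, x * y ≠ y * x) : Z ≤ commutator X := by
  obtain ⟨d0, hd0, hd0Z⟩ := h.exists_d0
  obtain ⟨y, hy⟩ : ∃ y, y ∉ D := by
    by_contra hcon
    push Not at hcon
    obtain ⟨a, b, hab⟩ := hna
    exact hab (h.Dc a (hcon a) b (hcon b))
  have hne : dd y d0 ≠ 1 := fun h1 => hy (h.selfc hna fun d hd => HB.comm_of_dd (h.gam hd0 hd0Z h1 d hd))
  have hdc : ∀ a b : X, dd a b ∈ commutator X := fun a b => by
    have : dd a b = ⁅a, b⁆ := rfl
    rw [this]
    exact commutator_mem_commutator (mem_top a) (mem_top b)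
  have hch : ∀ c ∈ commutator X, ρ c ∈ commutator X := fun c hc =>
    characteristic_iff_le_comap.1 (inferInstance : (commutator X).Characteristic) ρ hc
  intro z hz
  rcases h.Z_cases (h.dd_mem y hd0) hne z hz with h1 | h1 | h1 | h1
  · rw [h1]; exact one_mem _
  · rw [h1]; exact hdc _ _
  · rw [h1]; exact hch _ (hdc _ _)
  · rw [h1]; exact hch _ (hch _ (hdc _ _))

end HD

/-- the end of the proof -/
theorem main_of_Sp [Finite X] (hX : IsPGroup 2 X) (hna : ∃ x y : X, x * y ≠ y * x)
    (A : Subgroup (MulAut X)) (hA : Odd (Nat.card A))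
    (hXA : Subgroup.closure {g : X | ∃ φ ∈ A, ∃ x : X, g = x⁻¹ * φ x} = ⊤)
    {Z : Subgroup X} (h : Sp Z) (hcomm : Z ≤ commutator X) (hcard : Nat.card Z ≤ 4) :
    Nonempty (X ≃* QuaternionGroup 2) ∨
      (Cfsg.IsSpecial 2 X ∧ Nat.card X = 64 ∧ Nat.card {x : X // orderOf x = 2} = 3 ∧
        ∀ x : X, orderOf x = 2 → x ∈ Subgroup.center X) ∨
      (Cfsg.IsExtraspecial 2 X ∧ Nat.card X = 32 ∧ Nat.card {x : X // orderOf x = 2} = 11) := by
  classical
  haveI : Fact (Nat.Prime 2) := ⟨Nat.prime_two⟩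
  have hcen : Z = center X := by
    apply le_antisymm
    · intro a ha
      rw [mem_center_iff]
      exact fun g => (h.cen a ha g).symm
    · intro a ha
      rw [mem_center_iff] at ha
      exact h.max a fun y => (ha y).symm
  have hcommZ : commutator X = Z := by
    apply le_antisymm _ hcomm
    rw [commutator_def, commutator_le]
    intro a _ b _
    exact h.cm a b
  have hsp : Cfsg.IsSpecial 2 X := by
    refine ⟨hX, ?_, ?_⟩
    · apply le_antisymm
      · rw [← hcen]
        apply FrattiniQuot.frattini_le_of_squares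
        intro a
        rw [pow_two]; exact h.sq a
      · rw [← hcen, ← hcommZ]
        exact H70Frattini.commutator_le_frattini hX
    · rw [hcommZ, hcen]
  have hAZ : ∀ φ ∈ A, ∀ z ∈ Z, φ z ∈ Z := by
    intro φ _ z hz
    rw [hcen] at hz ⊢
    exact characteristic_iff_le_comap.1 (inferInstance : (center X).Characteristic) φ hz
  have hXA' : Subgroup.closure {x : X | ∃ g : X, ∃ a ∈ A, x = g⁻¹ * a g} = ⊤ := by
    rw [← hXA]
    congr 1
    ext x
    constructor
    · rintro ⟨g, a, ha, rfl⟩; exact ⟨a, ha, g, rfl⟩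
    · rintro ⟨a, ha, g, rfl⟩; exact ⟨g, a, ha, rfl⟩
  have hfix : ∀ w : X, w ∉ Z → ∃ φ ∈ A, w⁻¹ * φ w ∉ Z := by
    intro w hw
    by_contra hcon
    push Not at hcon
    apply hw
    rw [← hcommZ]
    apply Critical.mem_commutator_of_fixed hX A (Nat.coprime_two_right.2 hA) hXA'
    intro a ha
    rw [hcommZ]
    exact hcon a ha
  obtain ⟨n, hn⟩ := (hX.to_subgroup Z).exists_card_eq
  have hn2 : n ≤ 2 := by
    by_contra h3
    have : 2 ^ 3 ≤ 2 ^ n := Nat.pow_le_pow_right (by norm_num) (by omega)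
    omega
  interval_cases n
  · -- trivial
    exfalso
    have h1 : Z = ⊥ := Subgroup.card_eq_one.1 (by rw [hn]; norm_num)
    obtain ⟨x, y, hxy⟩ := hna
    apply hxy
    have h2 := h.cm x y
    rw [h1, mem_bot] at h2
    exact HB.comm_of_dd h2
  · -- order two
    have hn' : Nat.card Z = 2 := by rw [hn]; norm_num
    by_cases hno : ∀ t : X, t * t = 1 → t ∈ Z
    · left; exact quat_of_unique h hX hn' hna hno
    · right; right
      push Not at hno
      obtain ⟨t, ht, htZ⟩ := hno
      rcases card_of_invol h hn' ht htZ with ⟨h1, h2⟩ | ⟨w, hw, hw2, hall⟩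
      · exact ⟨⟨hsp, by rw [← hcen]; exact hn'⟩, h1, h2⟩
      · exfalso
        obtain ⟨φ, hφ, hφw⟩ := hfix w hw
        apply hφw
        apply hall
        intro h1
        apply hw2
        rw [← map_mul] at h1
        exact (map_eq_one_iff φ φ.injective).1 h1
  · -- order four
    have hn' : Nat.card Z = 4 := by rw [hn]; norm_num
    right; left
    have hfull : ∀ z ∈ Z, ∃ x y : X, cc x y ≠ 1 ∧ cc x y ≠ z := by
      intro z hz
      by_contra hcon
      push Not at hcon
      have h1 : commutator X ≤ zpowers z := by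
        rw [commutator_def, commutator_le]
        intro a _ b _
        have h2 : ⁅a, b⁆ = cc a⁻¹ b := by unfold cc; rw [commutatorElement_def, inv_inv]
        rw [h2]
        by_cases h3 : cc a⁻¹ b = 1
        · rw [h3]; exact one_mem _
        · rw [hcon _ _ h3]; exact mem_zpowers z
      rw [hcommZ] at h1
      have h2 : Nat.card Z ≤ Nat.card (zpowers z) := Subgroup.card_le_of_le h1
      rw [hn', Nat.card_zpowers] at h2
      have h3 : orderOf z ∣ 2 := orderOf_dvd_of_pow_eq_one (by rw [pow_two]; exact h.two z hz)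
      have := Nat.le_of_dvd (by norm_num) h3
      omega
    have h64 := card_of_four h hX hn' hfull A hA hAZ hfix
    have hinv : ∀ x : X, orderOf x = 2 → x ∈ Z := by
      intro x hx
      apply h.mem_of_sq hn'
      rw [← pow_two, ← hx, pow_orderOf_eq_one]
    refine ⟨hsp, h64, ?_, fun x hx => hcen ▸ hinv x hx⟩
    have e1 : Nat.card {x : X // orderOf x = 2} = Nat.card {x : Z // x ≠ 1} := by
      apply Nat.card_congr
      refine ⟨fun x => ⟨⟨x.1, hinv x.1 x.2⟩, fun h1 => ?_⟩, fun x => ⟨x.1.1, ?_⟩, fun _ => rfl, fun _ => rfl⟩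
      · have h2 : x.1 = 1 := congrArg Subtype.val h1
        have h3 := x.2
        rw [h2, orderOf_one] at h3
        omega
      · apply orderOf_eq_prime
        · rw [pow_two]; exact h.two _ x.1.2
        · intro h1; exact x.2 (Subtype.ext h1)
    rw [e1]
    haveI : Fintype Z := Fintype.ofFinite Z
    have h5 : Nat.card {x : Z // x ≠ 1} = Nat.card Z - 1 := by
      rw [Nat.card_eq_fintype_card, Nat.card_eq_fintype_card]
      have := Fintype.card_subtype_compl (α := Z) (fun x => x = 1)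
      rw [Fintype.card_subtype_eq] at this
      exact this
    rw [h5, hn']

end Cfsg.Agent.Lib.H30SX
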