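import Cfsg.Agent.Lib.H30SXg

/-!
The three cases for the action on the centre of a critical subgroup.
-/

set_option autoImplicit false

namespace Cfsg.Agent.Lib.H30SX

open Subgroup
open scoped commutatorElement

universe u

variable {X : Type u} [Group X]

/-- no normal `E₈` -/
theorem e8_of_hscn [Finite X] (hX : IsPGroup 2 X)
    (hscn : ¬ ∃ A : Subgroup X, A.Normal ∧ Subgroup.centralizer (A : Set X) = A ∧
      ∃ E : Subgroup X, E ≤ A ∧ Cfsg.IsElementaryAbelian 2 E ∧ Nat.card E = 8)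
    (E : Subgroup X) (hE : E.Normal) (hEc : ∀ a ∈ E, ∀ b ∈ E, a * b = b * a)
    (hE2 : ∀ a ∈ E, a * a = 1) : Nat.card E ≤ 4 := by
  classical
  haveI : Fact (Nat.Prime 2) := ⟨Nat.prime_two⟩
  by_contra hcon
  obtain ⟨n, hn⟩ := (hX.to_subgroup E).exists_card_eq
  have hn3 : 3 ≤ n := by
    by_contra h3
    have : 2 ^ n ≤ 2 ^ 2 := Nat.pow_le_pow_right (by norm_num) (by omega)
    omega
  obtain ⟨F, hF⟩ := Sylow.exists_subgroup_card_pow_prime (G := E) 2 (n := 3) (by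
    rw [hn]; exact pow_dvd_pow 2 hn3)
  obtain ⟨B, hEB, hBn, -, hBs⟩ := PGroupOdd.exists_scn hX hE (isMulCommutative_iff_of_setLike.2 hEc)
  apply hscn
  have hFE : F.map E.subtype ≤ E := by
    rintro _ ⟨y, -, rfl⟩; exact y.2
  refine ⟨B, hBn, hBs, F.map E.subtype, hFE.trans hEB, ⟨?_, ?_⟩, ?_⟩
  · exact isMulCommutative_iff_of_setLike.2 fun a ha b hb => hEc a (hFE ha) b (hFE hb)
  · intro a ha; rw [pow_two]; exact hE2 a (hFE ha)
  · rw [Subgroup.card_map_of_injective E.subtype_injective, hF]; norm_num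

/-- class two: with `V = Z(H)` central one gets `V ⊇ [X,X]` and the squares -/
theorem class_two [Finite X] {H V : Subgroup X} (hVH : ∀ v, v ∈ V ↔ ∀ x ∈ H, v * x = x * v)
    (hVleH : V ≤ H) (hHX : ∀ x ∈ H, ∀ g : X, x * g * x⁻¹ * g⁻¹ ∈ V) (hsq : ∀ x ∈ H, x * x ∈ V)
    (hVc : ∀ v ∈ V, ∀ x : X, v * x = x * v) :
    (∀ x y : X, x * y * x⁻¹ * y⁻¹ ∈ V) ∧ (∀ x : X, x * x ∈ V) := by
  have hHX' : ∀ x ∈ H, ∀ g : X, g * x * g⁻¹ * x⁻¹ ∈ V := by
    intro x hx g
    have h1 := V.inv_mem (hHX x hx g)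
    have h2 : (x * g * x⁻¹ * g⁻¹)⁻¹ = g * x * g⁻¹ * x⁻¹ := by group
    rwa [h2] at h1
  -- `g ↦ [g, x]` is a homomorphism into the abelian group `V` for `x ∈ H`
  have hmul : ∀ x ∈ H, ∀ a b : X, dd (a * b) x = dd a x * dd b x := by
    intro x hx a b
    have hb : dd b x ∈ V := hHX' x hx b
    have h1 : dd (a * b) x = a * dd b x * (x * a⁻¹ * x⁻¹) := by unfold dd; group
    rw [h1, ← hVc _ hb a, mul_assoc, hVc _ hb]
    unfold dd; group
  have hVcomm : ∀ v ∈ V, ∀ w : X, v * w = w * v := hVc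
  have hddV : ∀ x ∈ H, ∀ a, dd a x ∈ V := fun x hx a => hHX' x hx a
  have hinv : ∀ x ∈ H, ∀ a : X, dd a⁻¹ x = (dd a x)⁻¹ := by
    intro x hx a
    rw [eq_inv_iff_mul_eq_one, ← hmul x hx, inv_mul_cancel]
    unfold dd; group
  have hddr : ∀ x ∈ H, ∀ a : X, dd a (x * x) = dd a x * dd a x := by
    intro x hx a
    have h1 : dd a (x * x) = dd a x * (x * dd a x * x⁻¹) := by unfold dd; group
    rw [h1, ← hVc _ (hddV x hx a) x, mul_inv_cancel_right]
  refine ⟨?_, ?_⟩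
  · intro a b
    rw [hVH]
    intro x hx
    apply HB.comm_of_dd
    have h1 : dd (a * b * a⁻¹ * b⁻¹) x = dd a x * dd b x * (dd a x)⁻¹ * (dd b x)⁻¹ := by
      rw [hmul x hx, hmul x hx, hmul x hx, hinv x hx, hinv x hx]
    rw [h1, hVc _ (hddV x hx a) (dd b x)]; group
  · intro a
    rw [hVH]
    intro x hx
    apply HB.comm_of_dd
    rw [hmul x hx, ← hddr x hx]
    apply HB.dd_of_comm
    exact (hVc _ (hsq x hx) a).symm

/-- central case -/
theorem sp_of_central [Finite X]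
    (hE8 : ∀ E : Subgroup X, E.Normal → (∀ a ∈ E, ∀ b ∈ E, a * b = b * a) → (∀ a ∈ E, a * a = 1) →
      Nat.card E ≤ 4)
    {H V : Subgroup X} (hVH : ∀ v, v ∈ V ↔ ∀ x ∈ H, v * x = x * v)
    (hVleH : V ≤ H) (hHX : ∀ x ∈ H, ∀ g : X, x * g * x⁻¹ * g⁻¹ ∈ V) (hsq : ∀ x ∈ H, x * x ∈ V)
    (hVc : ∀ v ∈ V, ∀ x : X, v * x = x * v) (hVX : V ≤ commutator X) : Sp V := by
  obtain ⟨hcm, hs⟩ := class_two hVH hVleH hHX hsq hVc
  have hmul : ∀ x a b : X, dd (a * b) x = dd a x * dd b x := by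
    intro x a b
    have hb : dd b x ∈ V := hcm b x
    have h1 : dd (a * b) x = a * dd b x * (x * a⁻¹ * x⁻¹) := by unfold dd; group
    rw [h1, ← hVc _ hb a, mul_assoc, hVc _ hb]
    unfold dd; group
  have htwo : ∀ v ∈ V, v * v = 1 := by
    -- the commutator subgroup has exponent two
    have hK : commutator X ≤ (
        { carrier := {v | v ∈ V ∧ v * v = 1}
          mul_mem' := fun {a b} ha hb => ⟨V.mul_mem ha.1 hb.1, by
            calc a * b * (a * b) = a * (b * a) * b := by group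
              _ = a * (a * b) * b := by rw [hVc b hb.1 a]
              _ = (a * a) * (b * b) := by group
              _ = 1 := by rw [ha.2, hb.2, mul_one]⟩
          one_mem' := ⟨one_mem _, mul_one 1⟩
          inv_mem' := fun {a} ha => ⟨V.inv_mem ha.1, by rw [← mul_inv_rev, ha.2, inv_one]⟩ } : Subgroup X) := by
      rw [commutator_def, commutator_le]
      intro a _ b _
      refine ⟨hcm a b, ?_⟩
      change dd a b * dd a b = 1
      rw [← hmul]
      exact HB.dd_of_comm (hVc _ (hs a) b)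
    intro v hv
    exact (hK (hVX hv)).2
  refine ⟨hVc, hs, hcm, htwo, ?_, ?_⟩
  · intro x hx
    rw [hVH]
    exact fun y _ => hx y
  · intro E hVE hEc hE2
    apply hE8 E _ hEc hE2
    refine ⟨fun e he g => ?_⟩
    have e1 : g * e * g⁻¹ = (g * e * g⁻¹ * e⁻¹) * e := by group
    rw [e1]
    exact E.mul_mem (hVE (hcm g e)) he

/-- a nontrivial odd automorphism of a four-group has no fixed points -/
theorem fpf_of_ne [Finite X] {Z : Subgroup X} (hZ : Nat.card Z ≤ 4) (hZ2 : ∀ z ∈ Z, z * z = 1)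
    {φ : MulAut X} (hφ : Odd (orderOf φ)) (hφZ : ∀ z ∈ Z, φ z ∈ Z) {z : X} (hz : z ∈ Z) (hzφ : φ z ≠ z) :
    ∀ t ∈ Z, φ t = t → t = 1 := by
  intro t ht htφ
  by_contra ht1
  have hz1 : z ≠ 1 := fun h => hzφ (by rw [h, map_one])
  have hzt : t ≠ z := fun h => hzφ (by rw [← h, htφ])
  obtain ⟨-, hc⟩ := four_cases hZ ht hz (hZ2 t ht) ht1 hz1 hzt
  rcases hc _ (hφZ z hz) with h1 | h1 | h1 | h1
  · exact hz1 ((map_eq_one_iff φ φ.injective).1 h1)
  · exact hzt (φ.injective (by rw [h1, htφ]))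
  · exact hzφ h1
  · apply hzφ
    apply odd_fix hφ
    rw [h1, map_mul, htφ, h1, ← mul_assoc, hZ2 t ht, one_mul]

/-- coprime action on an abelian 2-group -/
theorem fix_of_fix_omega [Finite X] (hX : IsPGroup 2 X) {V : Subgroup X}
    (hVc : ∀ a ∈ V, ∀ b ∈ V, a * b = b * a) {φ : MulAut X} (hφ : Odd (orderOf φ))
    (hφV : ∀ v ∈ V, φ v ∈ V) (hfix : ∀ v ∈ V, v * v = 1 → φ v = v) : ∀ v ∈ V, φ v = v := by
  haveI : Fact (Nat.Prime 2) := ⟨Nat.prime_two⟩
  have key : ∀ n : ℕ, ∀ b ∈ V, b ^ (2 ^ n) = 1 → φ b = b := by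
    intro n
    induction n with
    | zero => intro b hb h1; rw [pow_zero, pow_one] at h1; rw [h1, map_one]
    | succ n ih =>
      intro b hb h1
      have h2 : φ (b * b) = b * b := by
        apply ih _ (V.mul_mem hb hb)
        rw [← pow_two, ← pow_mul, ← pow_succ']; exact h1
      apply Critical.fixed_of_fixed hX φ (Nat.coprime_two_right.2 hφ)
      apply hfix _ (V.mul_mem (V.inv_mem hb) (hφV b hb))
      have h3 := hφV b hb
      rw [map_mul] at h2
      calc b⁻¹ * φ b * (b⁻¹ * φ b) = b⁻¹ * (φ b * b⁻¹) * φ b := by group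
        _ = b⁻¹ * (b⁻¹ * φ b) * φ b := by rw [hVc _ h3 _ (V.inv_mem hb)]
        _ = (b * b)⁻¹ * (φ b * φ b) := by group
        _ = 1 := by rw [h2, inv_mul_cancel]
  intro b hb
  obtain ⟨k, hk⟩ := IsPGroup.iff_orderOf.1 hX b
  exact key k b hb (by rw [← hk, pow_orderOf_eq_one])

theorem main [Finite X] (hX : IsPGroup 2 X) (hna : ∃ x y : X, x * y ≠ y * x)
    (hE8 : ∀ E : Subgroup X, E.Normal → (∀ a ∈ E, ∀ b ∈ E, a * b = b * a) → (∀ a ∈ E, a * a = 1) →
      Nat.card E ≤ 4)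
    (A : Subgroup (MulAut X)) (hA : Odd (Nat.card A))
    (hXA : Subgroup.closure {g : X | ∃ φ ∈ A, ∃ x : X, g = x⁻¹ * φ x} = ⊤) :
    Nonempty (X ≃* QuaternionGroup 2) ∨
      (Cfsg.IsSpecial 2 X ∧ Nat.card X = 64 ∧ Nat.card {x : X // orderOf x = 2} = 3 ∧
        ∀ x : X, orderOf x = 2 → x ∈ Subgroup.center X) ∨
      (Cfsg.IsExtraspecial 2 X ∧ Nat.card X = 32 ∧ Nat.card {x : X // orderOf x = 2} = 11) := by
  classical
  haveI : Fact (Nat.Prime 2) := ⟨Nat.prime_two⟩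
  have hoddφ : ∀ φ ∈ A, Odd (orderOf φ) := by
    intro φ hφ
    have h1 : orderOf (⟨φ, hφ⟩ : A) ∣ Nat.card A := orderOf_dvd_natCard _
    rw [Subgroup.orderOf_mk] at h1
    exact Odd.of_dvd_nat hA h1
  have hXA' : Subgroup.closure {x : X | ∃ g : X, ∃ a ∈ A, x = g⁻¹ * a g} = ⊤ := by
    rw [← hXA]
    congr 1
    ext x
    constructor
    · rintro ⟨g, a, ha, rfl⟩; exact ⟨a, ha, g, rfl⟩
    · rintro ⟨a, ha, g, rfl⟩; exact ⟨g, a, ha, rfl⟩
  obtain ⟨H, hHc, -, hHX, hCH, hHsq⟩ := Critical.exists_critical hX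
  have hHn : H.Normal := Subgroup.normal_of_characteristic H
  set V : Subgroup X := centralizer (H : Set X) with hV
  have hVn : V.Normal := inferInstance
  have hVH : ∀ v, v ∈ V ↔ ∀ x ∈ H, v * x = x * v := by
    intro v
    rw [hV, mem_centralizer_iff]
    exact forall₂_congr fun _ _ => eq_comm
  have hVc : ∀ a ∈ V, ∀ b ∈ V, a * b = b * a := fun a ha b hb => (hVH a).1 ha b (hCH hb)
  have hVchar : ∀ φ : MulAut X, ∀ v ∈ V, φ v ∈ V := by
    intro φ v hv
    rw [hVH] at hv ⊢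
    intro x hx
    have h1 : φ.symm x ∈ H := characteristic_iff_le_comap.1 hHc φ.symm hx
    have h2 := congrArg φ (hv _ h1)
    simpa using h2
  have hHX1 : ∀ x ∈ H, ∀ g : X, x * g * x⁻¹ * g⁻¹ ∈ V := fun x hx g =>
    (hHX (commutator_mem_commutator hx (mem_top g))).2
  have hsq : ∀ x ∈ H, x * x ∈ V := fun x hx => by rw [← pow_two]; exact hHsq x hx
  have hna1 : ∃ c ∈ commutator X, c ≠ 1 := by
    obtain ⟨x, y, hxy⟩ := hna
    refine ⟨⁅x, y⁆, commutator_mem_commutator (mem_top x) (mem_top y), fun h1 => hxy ?_⟩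
    exact commutatorElement_eq_one_iff_mul_comm.1 h1
  by_cases hT1 : ∀ φ ∈ A, ∀ v ∈ V, φ v = v
  · -- trivial action
    have hVle := Critical.central_of_fixed A hXA' V hVn hT1
    have hVcen : ∀ v ∈ V, ∀ x : X, v * x = x * v := fun v hv x => (mem_center_iff.1 (hVle hv) x).symm
    have hVX : V ≤ commutator X := by
      intro v hv
      apply Critical.mem_commutator_of_fixed hX A (Nat.coprime_two_right.2 hA) hXA'
      intro a ha
      rw [hT1 a ha v hv, inv_mul_cancel]; exact one_mem _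
    have hsp := sp_of_central hE8 hVH hCH hHX1 hsq hVcen hVX
    exact main_of_Sp hX hna A hA hXA hsp hVX (hE8 V hVn hVc hsp.two)
  push Not at hT1
  obtain ⟨ρ, hρA, v0, hv0, hρv0⟩ := hT1
  by_cases hT2 : ∀ v ∈ V, v * v = 1
  · -- elementary abelian
    have hcard := hE8 V hVn hVc hT2
    have hfpf := fpf_of_ne hcard hT2 (hoddφ ρ hρA) (hVchar ρ) hv0 hρv0
    have hv01 : v0 ≠ 1 := fun h => hρv0 (by rw [h, map_one])
    have hρv01 : ρ v0 ≠ 1 := fun h => hv01 ((map_eq_one_iff ρ ρ.injective).1 h)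
    obtain ⟨hcard4, -⟩ := four_cases hcard hv0 (hVchar ρ v0 hv0) (hT2 v0 hv0) hv01 hρv01 hρv0.symm
    have hVle := central_of_card_four hX A hXA hVn (fun φ _ => hVchar φ) hcard4 hT2
    have hVcen : ∀ v ∈ V, ∀ x : X, v * x = x * v := fun v hv x => (mem_center_iff.1 (hVle hv) x).symm
    obtain ⟨hcm, -⟩ := class_two hVH hCH hHX1 hsq hVcen
    have hcommV : commutator X ≤ V := by
      rw [commutator_def, commutator_le]
      intro a _ b _
      exact hcm a b
    have hVX : V ≤ commutator X := by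
      obtain ⟨c, hc, hc1⟩ := hna1
      have hcV := hcommV hc
      have hρc : ρ c ∈ commutator X :=
        characteristic_iff_le_comap.1 (inferInstance : (commutator X).Characteristic) ρ hc
      have h1 : ρ c ≠ 1 := fun h => hc1 ((map_eq_one_iff ρ ρ.injective).1 h)
      have h2 : c ≠ ρ c := fun h => hc1 (hfpf c hcV h.symm)
      obtain ⟨-, hcc⟩ := four_cases hcard hcV (hcommV hρc) (hT2 c hcV) hc1 h1 h2
      intro v hv
      rcases hcc v hv with h3 | h3 | h3 | h3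
      · rw [h3]; exact one_mem _
      · rw [h3]; exact hc
      · rw [h3]; exact hρc
      · rw [h3]; exact mul_mem hc hρc
    have hsp := sp_of_central hE8 hVH hCH hHX1 hsq hVcen hVX
    exact main_of_Sp hX hna A hA hXA hsp hVX hcard
  · -- homocyclic case
    push Not at hT2
    obtain ⟨v1, hv1, hv11⟩ := hT2
    have hmul4 : ∀ a ∈ V, ∀ b ∈ V, (a * b) * (a * b) = (a * a) * (b * b) := by
      intro a ha b hb
      calc a * b * (a * b) = a * (b * a) * b := by group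
        _ = a * (a * b) * b := by rw [hVc b hb a ha]
        _ = _ := by group
    let Z : Subgroup X :=
      { carrier := {v | v ∈ V ∧ v * v = 1}
        mul_mem' := fun {a b} ha hb => ⟨V.mul_mem ha.1 hb.1, by
          rw [hmul4 a ha.1 b hb.1, ha.2, hb.2, mul_one]⟩
        one_mem' := ⟨one_mem _, mul_one 1⟩
        inv_mem' := fun {a} ha => ⟨V.inv_mem ha.1, by rw [← mul_inv_rev, ha.2, inv_one]⟩ }
    have hZ : ∀ v, v ∈ Z ↔ v ∈ V ∧ v * v = 1 := fun _ => Iff.rfl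
    let D : Subgroup X :=
      { carrier := {v | v ∈ V ∧ v * v ∈ Z}
        mul_mem' := fun {a b} ha hb => ⟨V.mul_mem ha.1 hb.1, by
          show a * b * (a * b) ∈ Z
          rw [hmul4 a ha.1 b hb.1]; exact Z.mul_mem ha.2 hb.2⟩
        one_mem' := ⟨one_mem _, by show (1 : X) * 1 ∈ Z; rw [mul_one]; exact one_mem _⟩
        inv_mem' := fun {a} ha => ⟨V.inv_mem ha.1, by
          show a⁻¹ * a⁻¹ ∈ Z
          rw [← mul_inv_rev]; exact Z.inv_mem ha.2⟩ }
    have hD : ∀ v, v ∈ D ↔ v ∈ V ∧ v * v ∈ Z := fun _ => Iff.rfl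
    have hZn : Z.Normal := ⟨fun z hz g => ⟨hVn.conj_mem z hz.1 g, by
      have : g * z * g⁻¹ * (g * z * g⁻¹) = g * (z * z) * g⁻¹ := by group
      show g * z * g⁻¹ * (g * z * g⁻¹) = 1
      rw [this, hz.2, mul_one, mul_inv_cancel]⟩⟩
    have hDn : D.Normal := ⟨fun z hz g => ⟨hVn.conj_mem z hz.1 g, by
      have : g * z * g⁻¹ * (g * z * g⁻¹) = g * (z * z) * g⁻¹ := by group
      show g * z * g⁻¹ * (g * z * g⁻¹) ∈ Z
      rw [this]; exact hZn.conj_mem _ hz.2 g⟩⟩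
    have hZchar : ∀ φ : MulAut X, ∀ z ∈ Z, φ z ∈ Z := fun φ z hz =>
      ⟨hVchar φ z hz.1, by rw [← map_mul, hz.2, map_one]⟩
    have hZle : Nat.card Z ≤ 4 := hE8 Z hZn (fun a ha b hb => hVc a ha.1 b hb.1) (fun a ha => ha.2)
    have hZ2 : ∀ z ∈ Z, z * z = 1 := fun z hz => hz.2
    -- `ρ` is nontrivial on `Z`
    obtain ⟨z0, hz0, hρz0⟩ : ∃ z ∈ Z, ρ z ≠ z := by
      by_contra hcon
      push Not at hcon
      exact hρv0 (fix_of_fix_omega hX hVc (hoddφ ρ hρA) (hVchar ρ) (fun v hv hvv => hcon v ⟨hv, hvv⟩) v0 hv0)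
    have hfpf := fpf_of_ne hZle hZ2 (hoddφ ρ hρA) (hZchar ρ) hz0 hρz0
    have hz01 : z0 ≠ 1 := fun h => hρz0 (by rw [h, map_one])
    have hρz01 : ρ z0 ≠ 1 := fun h => hz01 ((map_eq_one_iff ρ ρ.injective).1 h)
    obtain ⟨hcard4, -⟩ := four_cases hZle hz0 (hZchar ρ z0 hz0) (hZ2 z0 hz0) hz01 hρz01 hρz0.symm
    -- an element of order four
    obtain ⟨y, hyV, hyo⟩ := H30SO.exists_pow_orderOf (p := 2) (X := V) (hX.to_subgroup _) hv1
      (by rw [pow_two]; exact hv11)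
    have hy1 : y * y ≠ 1 := by
      intro h1
      have h5 := orderOf_dvd_of_pow_eq_one ((pow_two y).trans h1)
      rw [hyo] at h5
      revert h5; decide
    have hyZ : y * y ∈ Z := by
      refine ⟨V.mul_mem hyV hyV, ?_⟩
      have : y * y * (y * y) = y ^ (2 ^ 2) := by
        rw [← pow_two y, ← pow_add, show (2 : ℕ) + 2 = 2 ^ 2 by norm_num]
      rw [this, ← hyo, pow_orderOf_eq_one]
    have hyD : y ∈ D := ⟨hyV, hyZ⟩
    have hDA : ∀ φ : MulAut X, ∀ d ∈ D, φ d ∈ D := fun φ d hd =>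
      ⟨hVchar φ d hd.1, by
        show φ d * φ d ∈ Z
        rw [← map_mul]; exact hZchar φ _ hd.2⟩
    have hDsq : ∀ z ∈ Z, ∃ d ∈ D, d * d = z := by
      have h1 : ρ (y * y) ≠ 1 := fun h => hy1 ((map_eq_one_iff ρ ρ.injective).1 h)
      have h2 : y * y ≠ ρ (y * y) := fun h => hy1 (hfpf _ hyZ h.symm)
      obtain ⟨-, hcc⟩ := four_cases hZle hyZ (hZchar ρ _ hyZ) (hZ2 _ hyZ) hy1 h1 h2
      have hρy := hDA ρ y hyD
      intro z hz
      rcases hcc z hz with h3 | h3 | h3 | h3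
      · exact ⟨1, one_mem _, by rw [h3, mul_one]⟩
      · exact ⟨y, hyD, h3.symm⟩
      · exact ⟨ρ y, hρy, by rw [h3, map_mul]⟩
      · exact ⟨y * ρ y, D.mul_mem hyD hρy, by rw [h3, hmul4 y hyV _ hρy.1, map_mul]⟩
    have hHD : HD A D Z ρ :=
      { pgrp := hX
        odd := hA
        gen := hXA
        e8 := hE8
        Dn := hDn
        DA := fun φ _ => hDA φ
        Dc := fun a ha b hb => hVc a ha.1 b hb.1
        hZ := fun d => ⟨fun hd => ⟨⟨hd.1, by
            have : d * d = 1 := hd.2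
            show d * d ∈ Z
            rw [this]; exact one_mem _⟩, hd.2⟩, fun hd => ⟨hd.1.1, hd.2⟩⟩
        Zcard := hcard4
        D4 := fun d hd => hd.2
        Dsq := hDsq
        ρA := hρA
        ρfix := hfpf }
    exact main_of_Sp hX hna A hA hXA (hHD.sp hna) (hHD.le_comm hna) hZle

end Cfsg.Agent.Lib.H30SX
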