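import Mathlib
import Cfsg.Agent.Lib.H30TIa
import Cfsg.Agent.Lib.CFCore
import Cfsg.Agent.Lib.CharPIff
import Cfsg.Agent.Lib.H30OutC
import Cfsg.Prelude.Def_Local
import Cfsg.Prelude.Def_Transfer

/-! Abelian TI-subgroups of groups of characteristic 2 (helper30). -/

set_option autoImplicit false

open Subgroup Cfsg
open scoped commutatorElement

universe u

namespace Cfsg.Agent.Lib.H30TIb

open H30TIa H30OutC

variable {X : Type u} [Group X] [Finite X]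

theorem comm_conj_sub {P A : Subgroup X} (hP : IsPGroup 2 P) (hAP : A ≤ P) (hA : TI A)
    (hAc : ∀ x ∈ A, ∀ y ∈ A, x * y = y * x) {a : X} (ha : a ∈ A) (hb : a * a ≠ 1) :
    ∀ q ∈ P, ∀ x ∈ A, ∀ y ∈ A, (q * x * q⁻¹) * y = y * (q * x * q⁻¹) := by
  intro q hq x hx y hy
  have hA' : TI (A.subgroupOf P) := by
    intro h a ha h1 h2 x hx
    exact hA h a ha (fun h3 => h1 (Subtype.ext h3)) h2 x hx
  have := comm_conj hP hA' (fun x hx y hy => Subtype.ext (hAc x hx y hy)) (a := ⟨a, hAP ha⟩) ha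
    (fun h => hb (congrArg Subtype.val h)) ⟨q, hq⟩ ⟨x, hAP hx⟩ ⟨y, hAP hy⟩ hx hy
  exact congrArg Subtype.val this

/-- elements acting trivially on the Frattini quotient of `O_2(X)` -/
theorem mem_of_frattini {Q : Subgroup X} [hQn : Q.Normal] (hQ2 : IsPGroup 2 Q) (hQ : Q = pCore 2 X)
    (hC : Subgroup.centralizer (Q : Set X) ≤ Q) {b : X}
    (hb : ∀ s : Q, s⁻¹ * MulAut.conjNormal b s ∈ frattini Q) : b ∈ Q := by
  let c : X →* MulAut Q := MulAut.conjNormal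
  let C : Subgroup X := ((Th Q).comp c).ker
  have hCm : ∀ x, x ∈ C ↔ c x ∈ Kt (frattini Q) := by
    intro x
    rw [← mem_ker_Th]; rfl
  have hC2 : IsPGroup 2 C := by
    intro x
    obtain ⟨k, hk⟩ := Kt_two hQ2 ⟨c x, (hCm x).1 x.2⟩
    have hk' : c ((x : X) ^ 2 ^ k) = 1 := by
      rw [map_pow]; exact congrArg Subtype.val hk
    have h1 : (x : X) ^ 2 ^ k ∈ Q := by
      apply hC
      rw [Subgroup.mem_centralizer_iff]
      intro q hq
      have h2 := congrArg Subtype.val (DFunLike.congr_fun hk' ⟨q, hq⟩)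
      rw [MulAut.conjNormal_apply] at h2
      have h3 : (x : X) ^ 2 ^ k * q * ((x : X) ^ 2 ^ k)⁻¹ = q := h2
      rw [mul_inv_eq_iff_eq_mul] at h3
      exact h3.symm
    obtain ⟨l, hl⟩ := hQ2 ⟨_, h1⟩
    refine ⟨k + l, Subtype.ext ?_⟩
    have := congrArg Subtype.val hl
    rw [pow_add, pow_mul]
    exact this
  have h1 : C ≤ pCore 2 X := CFCore.le_pCore inferInstance hC2
  rw [hQ]
  exact h1 ((hCm b).2 hb)

variable {A : Subgroup X}

theorem ti_of (hti : ∀ h : X, A.map (MulAut.conj h).toMonoidHom = A ∨ A.map (MulAut.conj h).toMonoidHom ⊓ A = ⊥) :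
    TI A := by
  intro h a ha h1 h2 x hx
  rcases hti h with h3 | h3
  · rw [← h3]; exact ⟨x, hx, rfl⟩
  · exfalso
    have h4 : h * a * h⁻¹ ∈ A.map (MulAut.conj h).toMonoidHom ⊓ A := ⟨⟨a, ha, rfl⟩, h2⟩
    rw [h3, mem_bot, conj_eq_one_iff] at h4
    exact h1 h4

/-- squares lie in `O_2(X)` -/
theorem sq_mem {Q : Subgroup X} [hQn : Q.Normal] (hQ2 : IsPGroup 2 Q) (hQ : Q = pCore 2 X)
    (hC : Subgroup.centralizer (Q : Set X) ≤ Q) (hA : TI A) (hA2 : IsPGroup 2 A)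
    (hAc : ∀ x ∈ A, ∀ y ∈ A, x * y = y * x) {a : X} (ha : a ∈ A) : a * a ∈ Q := by
  haveI : Fact (Nat.Prime 2) := ⟨Nat.prime_two⟩
  by_cases hb : a * a = 1
  · rw [hb]; exact Q.one_mem
  have hP : IsPGroup 2 ↥(Q ⊔ A) := hQ2.to_sup_of_normal_left hA2
  have hcc := comm_conj_sub hP le_sup_right hA hAc ha hb
  have h1 : (a * a)⁻¹ ∈ Q := by
    apply mem_of_frattini hQ2 hQ hC
    intro s
    -- (a²)⁻¹ s a² = u² s with u = a⁻¹ s a s⁻¹
    have hu : a⁻¹ * (s : X) * a * (s : X)⁻¹ ∈ Q := by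
      have := hQn.conj_mem s s.2 a⁻¹
      rw [inv_inv] at this
      exact Q.mul_mem this (Q.inv_mem s.2)
    have hcomm := hcc (s : X) (Subgroup.mem_sup_left s.2) a ha a⁻¹ (A.inv_mem ha)
    -- s a s⁻¹ commutes with a⁻¹
    have hk : (⟨a⁻¹ * (s : X) * a * (s : X)⁻¹, hu⟩ : Q) ^ 2 ∈ frattini Q := H70Frattini.pow_mem_frattini hQ2 _
    have e : s⁻¹ * MulAut.conjNormal (a * a)⁻¹ s = s⁻¹ * (⟨a⁻¹ * (s : X) * a * (s : X)⁻¹, hu⟩ : Q) ^ 2 * s⁻¹⁻¹ := by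
      apply Subtype.ext
      rw [Subgroup.coe_mul, MulAut.conjNormal_apply, Subgroup.coe_mul, Subgroup.coe_mul, pow_two, Subgroup.coe_mul]
      simp only [Subgroup.coe_inv, inv_inv]
      have h2 : a⁻¹ * (s : X) * a * (s : X)⁻¹ * (a⁻¹ * (s : X) * a * (s : X)⁻¹) = (a * a)⁻¹ * (s : X) * (a * a) * (s : X)⁻¹ := by
        calc a⁻¹ * (s : X) * a * (s : X)⁻¹ * (a⁻¹ * (s : X) * a * (s : X)⁻¹)
            = a⁻¹ * (((s : X) * a * (s : X)⁻¹) * a⁻¹) * ((s : X) * a * (s : X)⁻¹) := by group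
          _ = a⁻¹ * (a⁻¹ * ((s : X) * a * (s : X)⁻¹)) * ((s : X) * a * (s : X)⁻¹) := by rw [hcomm]
          _ = _ := by group
      rw [h2]; group
    rw [e]
    exact Subgroup.Normal.conj_mem inferInstance _ hk _
  have := Q.inv_mem h1
  rwa [inv_inv] at this

/-- conjugates of elements of `A ∩ Q` commute -/
theorem inter_comm {Q : Subgroup X} [hQn : Q.Normal] (hQ2 : IsPGroup 2 Q) (hA : TI A) (hA2 : IsPGroup 2 A)
    (hAc : ∀ x ∈ A, ∀ y ∈ A, x * y = y * x) {a₀ : X} (ha₀ : a₀ ∈ A) (ha₀Q : a₀ ∈ Q)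
    (h4 : a₀ * a₀ ≠ 1) (x : X) {D E : X} (hD : D ∈ A) (hDQ : D ∈ Q) (hE : E ∈ A) (hEQ : E ∈ Q) :
    (x * D * x⁻¹) * E = E * (x * D * x⁻¹) := by
  haveI : Fact (Nat.Prime 2) := ⟨Nat.prime_two⟩
  have hP : IsPGroup 2 ↥(Q ⊔ A) := hQ2.to_sup_of_normal_left hA2
  have hcc := comm_conj_sub hP le_sup_right hA hAc ha₀ h4
  -- an involution
  obtain ⟨t, ht, htQ, htt, ht1⟩ : ∃ t ∈ A, t ∈ Q ∧ t * t = 1 ∧ t ≠ 1 := by
    have h1 : IsPGroup 2 ↥(A ⊓ Q) := hA2.to_le inf_le_left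
    obtain ⟨n, hn⟩ := (IsPGroup.iff_card (p := 2)).mp h1
    haveI : Nontrivial ↥(A ⊓ Q) := ⟨⟨⟨a₀, ha₀, ha₀Q⟩, 1, fun h => h4 (by
      have : a₀ = 1 := congrArg Subtype.val h
      rw [this, one_mul])⟩⟩
    have h2 : 1 < Nat.card ↥(A ⊓ Q) := Finite.one_lt_card
    obtain ⟨t, ht⟩ := exists_prime_orderOf_dvd_card' (G := ↥(A ⊓ Q)) 2 (by
      rw [hn] at h2 ⊢
      exact dvd_pow_self 2 (by rintro rfl; simp at h2))
    have h3 : t ^ 2 = 1 := by rw [← ht, pow_orderOf_eq_one]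
    rw [pow_two] at h3
    refine ⟨t, t.2.1, t.2.2, congrArg Subtype.val h3, ?_⟩
    intro h5
    have : t = 1 := Subtype.ext h5
    rw [this, orderOf_one] at ht
    omega
  -- normalizing property
  have key : ∀ x D : X, D ∈ A → D ∈ Q → ∀ y ∈ A, (x * D * x⁻¹) * y * (x * D * x⁻¹)⁻¹ ∈ A := by
    intro x D hD hDQ
    by_contra hcon
    obtain ⟨c, hc⟩ : ∃ c, c = x * D * x⁻¹ := ⟨_, rfl⟩
    rw [← hc] at hcon
    have hnot : ∀ a ∈ A, a ≠ 1 → c * a * c⁻¹ ∉ A := fun a ha h1 h2 => hcon (hA c a ha h1 h2)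
    have hcQ : c ∈ Q := hc ▸ hQn.conj_mem _ hDQ x
    have hrel : ∀ β ∈ A, β ∈ Q → c * c * β * (c * c)⁻¹ = (c * β * c⁻¹) * (c * β * c⁻¹) * β⁻¹ := by
      intro β hβ hβQ
      -- β⁻¹ c β commutes with c
      have h1 : (β⁻¹ * c * β) * c = c * (β⁻¹ * c * β) := by
        have h2 := hcc (x⁻¹ * β⁻¹ * x) (Subgroup.mem_sup_left (by
          have := hQn.conj_mem _ (Q.inv_mem hβQ) x⁻¹
          rwa [inv_inv] at this)) D hD D hD
        calc (β⁻¹ * c * β) * c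
            = x * ((x⁻¹ * β⁻¹ * x) * D * (x⁻¹ * β⁻¹ * x)⁻¹ * D) * x⁻¹ := by rw [hc]; group
          _ = x * (D * ((x⁻¹ * β⁻¹ * x) * D * (x⁻¹ * β⁻¹ * x)⁻¹)) * x⁻¹ := by rw [h2]
          _ = _ := by rw [hc]; group
      -- c β c⁻¹ commutes with β
      have h2 := hcc c (Subgroup.mem_sup_left hcQ) β hβ β⁻¹ (A.inv_mem hβ)
      have h3 : c * (β⁻¹ * c * β * c⁻¹) * c⁻¹ = β⁻¹ * c * β * c⁻¹ := by
        calc c * (β⁻¹ * c * β * c⁻¹) * c⁻¹ = (c * (β⁻¹ * c * β)) * c⁻¹ * c⁻¹ := by group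
          _ = _ := by rw [← h1]; group
      calc c * c * β * (c * c)⁻¹
          = (c * β * c⁻¹) * (c * (β⁻¹ * c * β * c⁻¹) * c⁻¹) := by group
        _ = (c * β * c⁻¹) * (β⁻¹ * c * β * c⁻¹) := by rw [h3]
        _ = (c * β * c⁻¹) * (β⁻¹ * (c * β * c⁻¹)) := by simp only [mul_assoc]
        _ = (c * β * c⁻¹) * ((c * β * c⁻¹) * β⁻¹) := by rw [h2]
        _ = _ := by simp only [mul_assoc]
    -- c² normalizes A
    have hcc2 : ∀ y ∈ A, (c * c) * y * (c * c)⁻¹ ∈ A := by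
      apply hA _ t ht ht1
      rw [hrel t ht htQ]
      have : (c * t * c⁻¹) * (c * t * c⁻¹) = 1 := by
        calc (c * t * c⁻¹) * (c * t * c⁻¹) = c * (t * t) * c⁻¹ := by group
          _ = 1 := by rw [htt]; group
      rw [this, one_mul]
      exact A.inv_mem ht
    have h5 := hcc2 a₀ ha₀
    rw [hrel a₀ ha₀ ha₀Q] at h5
    have h6 : c * (a₀ * a₀) * c⁻¹ ∈ A := by
      have := A.mul_mem h5 ha₀
      rw [inv_mul_cancel_right] at this
      have e : (c * a₀ * c⁻¹) * (c * a₀ * c⁻¹) = c * (a₀ * a₀) * c⁻¹ := by group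
      rwa [e] at this
    exact hnot _ (A.mul_mem ha₀ ha₀) h4 h6
  -- final step
  by_contra hne
  have h1 : (x * D * x⁻¹) * E * (x * D * x⁻¹)⁻¹ * E⁻¹ ∈ A :=
    A.mul_mem (key x D hD hDQ E hE) (A.inv_mem hE)
  have h2 : x⁻¹ * ((x * D * x⁻¹) * E * (x * D * x⁻¹)⁻¹ * E⁻¹) * x ∈ A := by
    have h3 := key x⁻¹ E hE hEQ D⁻¹ (A.inv_mem hD)
    have h4 := A.mul_mem hD h3
    have e' : D * (x⁻¹ * E * x⁻¹⁻¹ * D⁻¹ * (x⁻¹ * E * x⁻¹⁻¹)⁻¹) =
      x⁻¹ * ((x * D * x⁻¹) * E * (x * D * x⁻¹)⁻¹ * E⁻¹) * x := by group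
    rwa [e'] at h4
  have h3 : (x * D * x⁻¹) * E * (x * D * x⁻¹)⁻¹ * E⁻¹ ≠ 1 := by
    intro h
    rw [mul_inv_eq_one, mul_inv_eq_iff_eq_mul] at h
    exact hne h
  have h5 : ∀ z ∈ A, x * z * x⁻¹ ∈ A := by
    have := hA.inv h1 h3 (h := x⁻¹) (by rw [inv_inv]; exact h2)
    intro z hz
    have := this z hz
    rwa [inv_inv] at this
  exact hne (hAc _ (h5 _ hD) _ hE)

theorem main (hX : Cfsg.generalizedFittingSubgroup X = Cfsg.pCore 2 X) (A : Subgroup X) (hA2 : IsPGroup 2 ↥A)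
    (hAa : IsMulCommutative ↥A)
    (hti : ∀ h : X, A.map (MulAut.conj h).toMonoidHom = A ∨ A.map (MulAut.conj h).toMonoidHom ⊓ A = ⊥) :
    Subgroup.closure ((fun a : X => a ^ 2) '' (A : Set X)) ≤ Cfsg.pCore 2 X ∧
      (¬ Cfsg.IsElementaryAbelian 2 (Subgroup.closure ((fun a : X => a ^ 2) '' (A : Set X))) →
        IsMulCommutative ↥(Subgroup.normalClosure ((fun a : X => a ^ 2) '' (A : Set X)))) := by
  haveI : Fact (Nat.Prime 2) := ⟨Nat.prime_two⟩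
  haveI : (pCore 2 X).Normal := inferInstance
  have hQ2 : IsPGroup 2 (pCore 2 X) := Cores.isPGroup_pCore 2 X
  have hC : Subgroup.centralizer (pCore 2 X : Set X) ≤ pCore 2 X := (CharPIff.genFitting_eq_pCore_iff).1 hX
  have hA := ti_of hti
  have hAc : ∀ x ∈ A, ∀ y ∈ A, x * y = y * x := isMulCommutative_iff_of_setLike.mp hAa
  have hsq : ∀ a ∈ A, a * a ∈ pCore 2 X := fun a ha => sq_mem hQ2 rfl hC hA hA2 hAc ha
  refine ⟨?_, ?_⟩
  · rw [Subgroup.closure_le]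
    rintro _ ⟨a, ha, rfl⟩
    change a ^ 2 ∈ pCore 2 X
    rw [pow_two]; exact hsq a ha
  · intro hne
    obtain ⟨a, ha, h4⟩ : ∃ a ∈ A, a * a * (a * a) ≠ 1 := by
      by_contra hcon
      push Not at hcon
      apply hne
      have hcom : ∀ x ∈ (fun a : X => a ^ 2) '' (A : Set X), ∀ y ∈ (fun a : X => a ^ 2) '' (A : Set X), x * y = y * x := by
        rintro _ ⟨a, ha, rfl⟩ _ ⟨b, hb, rfl⟩
        exact hAc _ (A.pow_mem ha 2) _ (A.pow_mem hb 2)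
      refine ⟨Subgroup.isMulCommutative_closure hcom, ?_⟩
      intro x hx
      have hxA : ∀ x ∈ Subgroup.closure ((fun a : X => a ^ 2) '' (A : Set X)), x ∈ A := by
        intro x hx
        refine (Subgroup.closure_le A).2 ?_ hx
        rintro _ ⟨a, ha, rfl⟩
        exact A.pow_mem ha 2
      induction hx using Subgroup.closure_induction with
      | mem x hx =>
        obtain ⟨a, ha, rfl⟩ := hx
        have := hcon a ha
        change (a ^ 2) ^ 2 = 1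
        rw [pow_two, pow_two]; exact this
      | one => rw [one_pow]
      | mul x y hx' hy' h1 h2 =>
        have h3 : Commute x y := hAc x (hxA x hx') y (hxA y hy')
        rw [h3.mul_pow, h1, h2, one_mul]
      | inv x _ h1 => rw [inv_pow, h1, inv_one]
    unfold Subgroup.normalClosure
    apply Subgroup.isMulCommutative_closure
    intro x hx y hy
    rw [Group.mem_conjugatesOfSet_iff] at hx hy
    obtain ⟨_, ⟨d, hd, rfl⟩, hdx⟩ := hx
    obtain ⟨_, ⟨e, he, rfl⟩, hey⟩ := hy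
    obtain ⟨g, rfl⟩ := isConj_iff.1 hdx
    obtain ⟨h, rfl⟩ := isConj_iff.1 hey
    have h1 := inter_comm hQ2 hA hA2 hAc (A.mul_mem ha ha) (hsq a ha) h4 (h⁻¹ * g)
      (A.mul_mem hd hd) (hsq d hd) (A.mul_mem he he) (hsq e he)
    simp only [pow_two]
    generalize d * d = D at h1 ⊢
    generalize e * e = E at h1 ⊢
    calc g * D * g⁻¹ * (h * E * h⁻¹) = h * (h⁻¹ * g * D * (h⁻¹ * g)⁻¹ * E) * h⁻¹ := by group
      _ = h * E * h⁻¹ * (g * D * g⁻¹) := by rw [h1]; group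

end Cfsg.Agent.Lib.H30TIb
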