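import Mathlib
import Cfsg.Agent.Lib.PSLSylow
import Cfsg.Agent.Lib.GLBruhat

set_option autoImplicit false

/-!
`SL_n(2)`: the Sylow 2-subgroups are self-normalizing, and two Sylow 2-subgroups meeting trivially a given one
are conjugate in it (helper31).
-/

namespace Cfsg.Agent.Lib.H31FL

open Matrix Cfsg Cfsg.Agent.Lib.PSLAut Cfsg.Agent.Lib.GLBruhat

variable {n : ℕ}

lemma zmod2_eq_one {a : ZMod 2} (h : a ≠ 0) : a = 1 := by
  revert a; decide

/-- the determinant-one matrix of an invertible matrix over the field of two elements -/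
def ofGL (g : GL (Fin n) (ZMod 2)) : SpecialLinearGroup (Fin n) (ZMod 2) :=
  ⟨g.1, zmod2_eq_one ((Matrix.isUnit_iff_isUnit_det _).1 g.isUnit).ne_zero⟩

lemma ofGL_mul (g h : GL (Fin n) (ZMod 2)) : ofGL (g * h) = ofGL g * ofGL h := rfl

lemma ofGL_toGL (g : SpecialLinearGroup (Fin n) (ZMod 2)) : ofGL (SpecialLinearGroup.toGL g) = g := by
  apply Subtype.ext; rfl

/-- permutation matrices -/
def pm (n : ℕ) (σ : Equiv.Perm (Fin n)) : SpecialLinearGroup (Fin n) (ZMod 2) := ofGL (permGL n (ZMod 2) σ)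

lemma pm_inv (σ : Equiv.Perm (Fin n)) : (pm n σ)⁻¹ = pm n σ⁻¹ := by
  rw [inv_eq_iff_mul_eq_one]
  rw [pm, pm, ← ofGL_mul, ← map_mul, mul_inv_cancel, map_one]
  rfl

lemma pm_conj (σ : Equiv.Perm (Fin n)) (M : SpecialLinearGroup (Fin n) (ZMod 2)) (i j : Fin n) :
    (pm n σ * M * (pm n σ)⁻¹).1 i j = M.1 (σ⁻¹ i) (σ⁻¹ j) := by
  rw [pm_inv]
  have h1 : (pm n σ * M * pm n σ⁻¹).1 i j = (((permGL n (ZMod 2) σ : GL (Fin n) (ZMod 2)) : Matrix (Fin n) (Fin n) (ZMod 2)) * M.1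
      * ((permGL n (ZMod 2) σ⁻¹ : GL (Fin n) (ZMod 2)) : Matrix (Fin n) (Fin n) (ZMod 2))) i j := rfl
  rw [h1, mul_permGL, permGL_mul]

lemma ofGL_isUT {u : GL (Fin n) (ZMod 2)} (hu : u ∈ upperTriangularGL n (ZMod 2)) : IsUT (ofGL u).1 := by
  have hu' : (u : Matrix (Fin n) (Fin n) (ZMod 2)).BlockTriangular id := hu
  refine ⟨fun i => ?_, fun i j hij => hu' hij⟩
  apply zmod2_eq_one
  have hd : (u : Matrix (Fin n) (Fin n) (ZMod 2)).det ≠ 0 := ((Matrix.isUnit_iff_isUnit_det _).1 u.isUnit).ne_zero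
  rw [Matrix.det_of_isUpperTriangular hu'] at hd
  exact (Finset.prod_ne_zero_iff.1 hd) i (Finset.mem_univ i)

theorem bruhatSL (g : SpecialLinearGroup (Fin n) (ZMod 2)) :
    ∃ w : Equiv.Perm (Fin n), ∃ u ∈ UT n (ZMod 2), ∃ v ∈ UT n (ZMod 2), g = u * pm n w * v := by
  obtain ⟨w, u, hu, v, hv, h⟩ := bruhat (SpecialLinearGroup.toGL g)
  refine ⟨w, ofGL u, ofGL_isUT hu, ofGL v, ofGL_isUT hv, ?_⟩
  rw [← ofGL_toGL g, h]
  rfl

/-- the transvection `1 + E_ij` is mapped to `1 + E_{wi,wj}` -/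
lemma pm_tv (w : Equiv.Perm (Fin n)) {i j : Fin n} (h : i ≠ j) :
    pm n w * SpecialLinearGroup.transvection h (1 : ZMod 2) * (pm n w)⁻¹ =
      SpecialLinearGroup.transvection (fun h' => h (w.injective h') : w i ≠ w j) (1 : ZMod 2) := by
  ext a b
  rw [pm_conj]
  have e1 : ∀ {x y : Fin n} (hxy : x ≠ y) (c d : Fin n),
      (SpecialLinearGroup.transvection hxy (1 : ZMod 2)).1 c d = (if c = d then 1 else 0) + (if x = c ∧ y = d then 1 else 0) := by
    intro x y hxy c d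
    have : (SpecialLinearGroup.transvection hxy (1 : ZMod 2)).1 = 1 + Matrix.single x y 1 := rfl
    rw [this, Matrix.add_apply, Matrix.one_apply, Matrix.single_apply]
  have e2 := e1 (fun h' => h (w.injective h') : w i ≠ w j) a b
  have e3 := e1 h (w⁻¹ a) (w⁻¹ b)
  refine e3.trans (Eq.trans ?_ e2.symm)
  have c1 : (w⁻¹ a = w⁻¹ b) ↔ a = b := w⁻¹.injective.eq_iff
  have c2 : (i = w⁻¹ a) ↔ w i = a := by
    constructor
    · rintro rfl; simp
    · rintro rfl; simp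
  have c3 : (j = w⁻¹ b) ↔ w j = b := by
    constructor
    · rintro rfl; simp
    · rintro rfl; simp
  simp only [c1, c2, c3]

lemma isUT_tv {i j : Fin n} (h : i ≠ j) : SpecialLinearGroup.transvection h (1 : ZMod 2) ∈ UT n (ZMod 2) ↔ i < j := by
  constructor
  · intro hh
    by_contra hc
    have h1 := hh.2 i j (lt_of_le_of_ne (not_lt.1 hc) h.symm)
    have h2 : (SpecialLinearGroup.transvection h (1 : ZMod 2)).1 i j = 1 := by
      have : (SpecialLinearGroup.transvection h (1 : ZMod 2)).1 = 1 + Matrix.single i j 1 := rfl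
      rw [this, Matrix.add_apply, Matrix.one_apply_ne h, Matrix.single_apply_same, zero_add]
    rw [h2] at h1
    exact one_ne_zero h1
  · intro hh
    exact isUT_transvection hh 1

lemma tv_ne_one {i j : Fin n} (h : i ≠ j) : SpecialLinearGroup.transvection h (1 : ZMod 2) ≠ 1 := by
  intro h1
  have h2 : (SpecialLinearGroup.transvection h (1 : ZMod 2)).1 i j = 1 := by
    have : (SpecialLinearGroup.transvection h (1 : ZMod 2)).1 = 1 + Matrix.single i j 1 := rfl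
    rw [this, Matrix.add_apply, Matrix.one_apply_ne h, Matrix.single_apply_same, zero_add]
  rw [h1] at h2
  have h3 : (1 : Matrix (Fin n) (Fin n) (ZMod 2)) i j = 1 := h2
  rw [Matrix.one_apply_ne h] at h3
  exact zero_ne_one h3

/-- a permutation whose matrix normalizes `UT` is trivial -/
lemma perm_of_norm {w : Equiv.Perm (Fin n)} (h : ∀ x ∈ UT n (ZMod 2), pm n w * x * (pm n w)⁻¹ ∈ UT n (ZMod 2)) : w = 1 := by
  have hm : StrictMono w := by
    intro i j hij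
    have h1 := h _ ((isUT_tv hij.ne).2 hij)
    rw [pm_tv] at h1
    exact (isUT_tv _).1 h1
  have hm' : StrictMono (id : Fin n → Fin n) := strictMono_id
  have : (w : Fin n → Fin n) = id := by
    apply hm.range_inj hm' |>.1
    rw [w.surjective.range_eq, Set.range_id]
  ext i
  rw [show w i = i from congrFun this i]
  rfl

lemma anti_of_inf {w : Equiv.Perm (Fin n)}
    (h : ∀ x ∈ UT n (ZMod 2), pm n w * x * (pm n w)⁻¹ ∈ UT n (ZMod 2) → x = 1) : StrictAnti w := by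
  intro i j hij
  by_contra hc
  have h1 : w i < w j := lt_of_le_of_ne (not_lt.1 hc) (fun h' => hij.ne (w.injective h'))
  have h2 := h _ ((isUT_tv hij.ne).2 hij) (by rw [pm_tv]; exact (isUT_tv _).2 h1)
  exact tv_ne_one _ h2

lemma anti_unique {w w' : Equiv.Perm (Fin n)} (h : StrictAnti w) (h' : StrictAnti w') : w = w' := by
  have h1 : StrictMono (fun i => w (Fin.rev i)) := fun i j hij => h (Fin.rev_lt_rev.2 hij)
  have h1' : StrictMono (fun i => w' (Fin.rev i)) := fun i j hij => h' (Fin.rev_lt_rev.2 hij)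
  have h2 : (fun i => w (Fin.rev i)) = (fun i => w' (Fin.rev i)) := by
    apply h1.range_inj h1' |>.1
    have e1 : Function.Surjective (fun i : Fin n => w (Fin.rev i)) := w.surjective.comp Fin.rev_surjective
    have e2 : Function.Surjective (fun i : Fin n => w' (Fin.rev i)) := w'.surjective.comp Fin.rev_surjective
    rw [e1.range_eq, e2.range_eq]
  ext i
  have := congrFun h2 (Fin.rev i)
  simp only [Fin.rev_rev] at this
  rw [this]

/-- self-normalizing -/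
theorem norm_UT {g : SpecialLinearGroup (Fin n) (ZMod 2)} (h : ∀ x ∈ UT n (ZMod 2), g * x * g⁻¹ ∈ UT n (ZMod 2)) :
    g ∈ UT n (ZMod 2) := by
  obtain ⟨w, u, hu, v, hv, rfl⟩ := bruhatSL g
  have hw : w = 1 := by
    apply perm_of_norm
    intro x hx
    have h1 := h (v⁻¹ * x * v) (mul_mem (mul_mem (inv_mem hv) hx) hv)
    have h2 : u⁻¹ * (u * pm n w * v * (v⁻¹ * x * v) * (u * pm n w * v)⁻¹) * u ∈ UT n (ZMod 2) :=
      mul_mem (mul_mem (inv_mem hu) h1) hu
    have h3 : u⁻¹ * (u * pm n w * v * (v⁻¹ * x * v) * (u * pm n w * v)⁻¹) * u = pm n w * x * (pm n w)⁻¹ := by group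
    rwa [h3] at h2
  rw [hw]
  have : pm n 1 = 1 := by
    rw [pm, map_one]; rfl
  rw [this, mul_one]
  exact mul_mem hu hv

/-- opposite Sylow subgroups -/
theorem opp_UT {g g' : SpecialLinearGroup (Fin n) (ZMod 2)}
    (h : ∀ x ∈ UT n (ZMod 2), g * x * g⁻¹ ∈ UT n (ZMod 2) → x = 1)
    (h' : ∀ x ∈ UT n (ZMod 2), g' * x * g'⁻¹ ∈ UT n (ZMod 2) → x = 1) :
    ∃ u ∈ UT n (ZMod 2), ∃ v ∈ UT n (ZMod 2), g' = u * g * v := by
  have key : ∀ g : SpecialLinearGroup (Fin n) (ZMod 2), (∀ x ∈ UT n (ZMod 2), g * x * g⁻¹ ∈ UT n (ZMod 2) → x = 1) →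
      ∃ w : Equiv.Perm (Fin n), StrictAnti w ∧ ∃ u ∈ UT n (ZMod 2), ∃ v ∈ UT n (ZMod 2), g = u * pm n w * v := by
    intro g hg
    obtain ⟨w, u, hu, v, hv, rfl⟩ := bruhatSL g
    refine ⟨w, ?_, u, hu, v, hv, rfl⟩
    apply anti_of_inf
    intro x hx hx'
    have h1 : u * pm n w * v * (v⁻¹ * x * v) * (u * pm n w * v)⁻¹ = u * (pm n w * x * (pm n w)⁻¹) * u⁻¹ := by group
    have h2 := hg (v⁻¹ * x * v) (mul_mem (mul_mem (inv_mem hv) hx) hv) (by
      rw [h1]; exact mul_mem (mul_mem hu hx') (inv_mem hu))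
    have h3 : x = v * (v⁻¹ * x * v) * v⁻¹ := by group
    rw [h3, h2]; group
  obtain ⟨w, hw, u, hu, v, hv, rfl⟩ := key g h
  obtain ⟨w', hw', u', hu', v', hv', rfl⟩ := key g' h'
  obtain rfl := anti_unique hw hw'
  refine ⟨u' * u⁻¹, mul_mem hu' (inv_mem hu), v⁻¹ * v', mul_mem (inv_mem hv) hv', ?_⟩
  group

section main

variable {G : Type*} [Group G] [Finite G]

open scoped Pointwise

theorem sylow_data {N : Subgroup G} [N.Normal] (hidx : N.index = 2)
    (φ : SpecialLinearGroup (Fin n) (ZMod 2) →* G) (hφ : Function.Injective φ) (hr : φ.range = N) (H : Sylow 2 G) :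
    (∃ t ∈ (H : Subgroup G), t ∉ N) ∧ ∃ l : SpecialLinearGroup (Fin n) (ZMod 2), ∀ y, φ y ∈ (H : Subgroup G) ↔ l⁻¹ * y * l ∈ UT n (ZMod 2) := by
  classical
  have : Fact (Nat.Prime 2) := ⟨Nat.prime_two⟩
  set P0 : Sylow 2 (SpecialLinearGroup (Fin n) (ZMod 2)) := SylUT n (ZMod 2) 2 with hP0
  have hcN : Nat.card N = Nat.card (SpecialLinearGroup (Fin n) (ZMod 2)) := by
    rw [← hr]; exact (Nat.card_congr (MonoidHom.ofInjective hφ).toEquiv).symm
  have hcG : Nat.card G = 2 * Nat.card (SpecialLinearGroup (Fin n) (ZMod 2)) := by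
    rw [← hcN, ← hidx, mul_comm, Subgroup.card_mul_index]
  have hLpos : Nat.card (SpecialLinearGroup (Fin n) (ZMod 2)) ≠ 0 := Nat.card_pos.ne'
  have hcH : Nat.card H = 2 * Nat.card P0 := by
    rw [Sylow.card_eq_multiplicity, Sylow.card_eq_multiplicity, hcG, Nat.factorization_mul (by norm_num) hLpos,
      Finsupp.add_apply, Nat.Prime.factorization_self Nat.prime_two, pow_add, pow_one]
  set Pc := (H : Subgroup G).comap φ with hPc
  have hPcp : IsPGroup 2 Pc := H.2.comap_of_injective φ hφ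
  obtain ⟨Q, hQ⟩ := hPcp.exists_le_sylow
  have hcQ : Nat.card Q = Nat.card P0 := by
    rw [Sylow.card_eq_multiplicity, Sylow.card_eq_multiplicity]
  have hPcc : Nat.card Pc = Nat.card ((H : Subgroup G) ⊓ N : Subgroup G) := by
    have h1 : Pc.map φ = (H : Subgroup G) ⊓ N := by
      rw [hPc, Subgroup.map_comap_eq, hr, inf_comm]
    rw [← h1]
    exact Nat.card_congr (Pc.equivMapOfInjective φ hφ).toEquiv
  have hrel : ((H : Subgroup G) ⊓ N).relIndex (H : Subgroup G) ∣ 2 := by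
    have h0 : N.relIndex (H : Subgroup G) ∣ N.index := Subgroup.relIndex_dvd_index_of_normal N _
    rw [hidx] at h0
    rw [Subgroup.inf_relIndex_left]
    exact h0
  have hmul := Subgroup.relIndex_mul_relIndex ⊥ ((H : Subgroup G) ⊓ N) (H : Subgroup G) bot_le inf_le_left
  rw [Subgroup.relIndex_bot_left, Subgroup.relIndex_bot_left] at hmul
  have hle2 : ((H : Subgroup G) ⊓ N).relIndex (H : Subgroup G) ≤ 2 := Nat.le_of_dvd (by norm_num) hrel
  have hcPc : Nat.card P0 ≤ Nat.card Pc := by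
    rw [hPcc]
    have h2 : Nat.card (H : Subgroup G) = 2 * Nat.card P0 := hcH
    nlinarith [Nat.zero_le (Nat.card ((H : Subgroup G) ⊓ N : Subgroup G))]
  have hPQ : Pc = (Q : Subgroup _) := by
    apply Subgroup.eq_of_le_of_card_ge hQ
    exact hcQ.le.trans hcPc
  constructor
  · by_contra hcon
    push Not at hcon
    have h1 : (H : Subgroup G) ⊓ N = (H : Subgroup G) := inf_eq_left.2 hcon
    have h3 : Nat.card Pc = Nat.card P0 := by rw [hPQ]; exact hcQ
    have h2 : Nat.card (H : Subgroup G) = 2 * Nat.card P0 := hcH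
    rw [hPcc, h1, h2] at h3
    have : 0 < Nat.card P0 := Nat.card_pos
    omega
  · obtain ⟨l, hl⟩ := MulAction.exists_smul_eq (SpecialLinearGroup (Fin n) (ZMod 2)) P0 Q
    refine ⟨l, fun y => ?_⟩
    have h1 : φ y ∈ (H : Subgroup G) ↔ y ∈ (Q : Subgroup _) := by
      rw [← hPQ]; rfl
    rw [h1, ← hl, Sylow.coe_subgroup_smul, Subgroup.mem_pointwise_smul_iff_inv_smul_mem]
    have h2 : (MulAut.conj l)⁻¹ • y = l⁻¹ * y * l := by
      rw [← map_inv, MulAut.smul_def, MulAut.conj_apply, inv_inv]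
    rw [h2]
    rfl

theorem main {N : Subgroup G} [N.Normal] (hidx : N.index = 2)
    (φ : SpecialLinearGroup (Fin n) (ZMod 2) →* G) (hφ : Function.Injective φ) (hr : φ.range = N) (H : Sylow 2 G) (x : G) :
    (H : Subgroup G) ⊓ MulAut.conj x • (H : Subgroup G) ≠ ⊥ := by
  intro hbot
  obtain ⟨⟨t, htH, htN⟩, l0, hl0⟩ := sylow_data hidx φ hφ hr H
  have hmemc : ∀ (z y : G), y ∈ ((z • H : Sylow 2 G) : Subgroup G) ↔ z⁻¹ * y * z ∈ (H : Subgroup G) := by
    intro z y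
    rw [Sylow.coe_subgroup_smul, Subgroup.mem_pointwise_smul_iff_inv_smul_mem, ← map_inv, MulAut.smul_def,
      MulAut.conj_apply, inv_inv]
  obtain ⟨⟨t2, ht2H, ht2N⟩, l2, hl2⟩ := sylow_data hidx φ hφ hr (x • H)
  obtain ⟨-, l3, hl3⟩ := sylow_data hidx φ hφ hr ((t * x) • H)
  have hb : ∀ y ∈ (H : Subgroup G), y ∈ ((x • H : Sylow 2 G) : Subgroup G) → y = 1 := by
    intro y hy hy'
    have : y ∈ (H : Subgroup G) ⊓ MulAut.conj x • (H : Subgroup G) := ⟨hy, hy'⟩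
    rw [hbot] at this
    exact Subgroup.mem_bot.1 this
  have o1 : ∀ z ∈ UT n (ZMod 2), (l0⁻¹ * l2) * z * (l0⁻¹ * l2)⁻¹ ∈ UT n (ZMod 2) → z = 1 := by
    intro z hz hz'
    have h1 : φ (l2 * z * l2⁻¹) ∈ (H : Subgroup G) := by
      rw [hl0]
      have : l0⁻¹ * (l2 * z * l2⁻¹) * l0 = (l0⁻¹ * l2) * z * (l0⁻¹ * l2)⁻¹ := by group
      rw [this]; exact hz'
    have h2 : φ (l2 * z * l2⁻¹) ∈ ((x • H : Sylow 2 G) : Subgroup G) := by
      rw [hl2]
      have : l2⁻¹ * (l2 * z * l2⁻¹) * l2 = z := by group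
      rw [this]; exact hz
    have h3 := hb _ h1 h2
    have h4 : l2 * z * l2⁻¹ = 1 := hφ (by rw [h3, map_one])
    have h5 : z = l2⁻¹ * (l2 * z * l2⁻¹) * l2 := by group
    rw [h5, h4]; group
  have o3 : ∀ z ∈ UT n (ZMod 2), (l0⁻¹ * l3) * z * (l0⁻¹ * l3)⁻¹ ∈ UT n (ZMod 2) → z = 1 := by
    intro z hz hz'
    have h1 : φ (l3 * z * l3⁻¹) ∈ (H : Subgroup G) := by
      rw [hl0]
      have : l0⁻¹ * (l3 * z * l3⁻¹) * l0 = (l0⁻¹ * l3) * z * (l0⁻¹ * l3)⁻¹ := by group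
      rw [this]; exact hz'
    have h2 : φ (l3 * z * l3⁻¹) ∈ (((t * x) • H : Sylow 2 G) : Subgroup G) := by
      rw [hl3]
      have : l3⁻¹ * (l3 * z * l3⁻¹) * l3 = z := by group
      rw [this]; exact hz
    have h3 : t⁻¹ * φ (l3 * z * l3⁻¹) * t = 1 := by
      apply hb
      · exact mul_mem (mul_mem (inv_mem htH) h1) htH
      · rw [hmemc] at h2 ⊢
        have : x⁻¹ * (t⁻¹ * φ (l3 * z * l3⁻¹) * t) * x = (t * x)⁻¹ * φ (l3 * z * l3⁻¹) * (t * x) := by group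
        rw [this]; exact h2
    have h3' : φ (l3 * z * l3⁻¹) = 1 := by
      have : φ (l3 * z * l3⁻¹) = t * (t⁻¹ * φ (l3 * z * l3⁻¹) * t) * t⁻¹ := by group
      rw [this, h3]; group
    have h4 : l3 * z * l3⁻¹ = 1 := hφ (by rw [h3', map_one])
    have h5 : z = l3⁻¹ * (l3 * z * l3⁻¹) * l3 := by group
    rw [h5, h4]; group
  obtain ⟨u, hu, v, hv, huv⟩ := opp_UT o1 o3
  have hl3' : l3 = l0 * u * l0⁻¹ * l2 * v := by
    have : l3 = l0 * (l0⁻¹ * l3) := by group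
    rw [this, huv]; group
  set h := φ (l0 * u * l0⁻¹) with hh
  have hhH : h ∈ (H : Subgroup G) := by
    rw [hh, hl0]
    have : l0⁻¹ * (l0 * u * l0⁻¹) * l0 = u := by group
    rw [this]; exact hu
  have hhN : h ∈ N := by rw [← hr]; exact ⟨_, rfl⟩
  set s := h⁻¹ * t with hs
  have hsH : s ∈ (H : Subgroup G) := mul_mem (inv_mem hhH) htH
  have hsN : s ∉ N := by
    intro h1
    apply htN
    have : t = h * s := by rw [hs]; group
    rw [this]; exact mul_mem hhN h1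
  -- `s` normalizes `H2 ∩ N`
  have hnorm : ∀ y ∈ ((x • H : Sylow 2 G) : Subgroup G), y ∈ N → s * y * s⁻¹ ∈ ((x • H : Sylow 2 G) : Subgroup G) := by
    intro y hy hyN
    have h1 : t * y * t⁻¹ ∈ (((t * x) • H : Sylow 2 G) : Subgroup G) := by
      rw [hmemc] at hy ⊢
      have : (t * x)⁻¹ * (t * y * t⁻¹) * (t * x) = x⁻¹ * y * x := by group
      rw [this]; exact hy
    have h2 : t * y * t⁻¹ ∈ N := ‹N.Normal›.conj_mem y hyN t
    rw [← hr] at h2
    obtain ⟨z, hz⟩ := h2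
    rw [← hz, hl3] at h1
    have h3 : s * y * s⁻¹ = φ ((l0 * u * l0⁻¹)⁻¹ * z * (l0 * u * l0⁻¹)) := by
      rw [map_mul, map_mul, map_inv, hz, ← hh, hs]; group
    rw [h3, hl2]
    rw [hl3'] at h1
    have h4 : l2⁻¹ * ((l0 * u * l0⁻¹)⁻¹ * z * (l0 * u * l0⁻¹)) * l2 =
        v * ((l0 * u * l0⁻¹ * l2 * v)⁻¹ * z * (l0 * u * l0⁻¹ * l2 * v)) * v⁻¹ := by group
    rw [h4]
    exact mul_mem (mul_mem hv h1) (inv_mem hv)
  have hsH2 : s ∈ ((x • H : Sylow 2 G) : Subgroup G) := by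
    have h1 : s * t2 ∈ N := by
      rw [Subgroup.mul_mem_iff_of_index_two hidx]
      exact ⟨fun h => absurd h hsN, fun h => absurd h ht2N⟩
    have h1' := h1
    rw [← hr] at h1
    obtain ⟨z, hz⟩ := h1
    have h2 : l2⁻¹ * z * l2 ∈ UT n (ZMod 2) := by
      apply norm_UT
      intro y hy
      have h3 : φ (l2 * y * l2⁻¹) ∈ ((x • H : Sylow 2 G) : Subgroup G) := by
        rw [hl2]
        have : l2⁻¹ * (l2 * y * l2⁻¹) * l2 = y := by group
        rw [this]; exact hy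
      have h4 : φ (l2 * y * l2⁻¹) ∈ N := by rw [← hr]; exact ⟨_, rfl⟩
      have h5 : t2 * φ (l2 * y * l2⁻¹) * t2⁻¹ ∈ ((x • H : Sylow 2 G) : Subgroup G) :=
        mul_mem (mul_mem ht2H h3) (inv_mem ht2H)
      have h6 := hnorm _ h5 (‹N.Normal›.conj_mem _ h4 t2)
      have h7 : s * (t2 * φ (l2 * y * l2⁻¹) * t2⁻¹) * s⁻¹ = φ (z * (l2 * y * l2⁻¹) * z⁻¹) := by
        rw [map_mul φ (z * (l2 * y * l2⁻¹)) z⁻¹, map_mul φ z (l2 * y * l2⁻¹), map_inv, hz]; group
      rw [h7, hl2] at h6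
      have h8 : l2⁻¹ * z * l2 * y * (l2⁻¹ * z * l2)⁻¹ = l2⁻¹ * (z * (l2 * y * l2⁻¹) * z⁻¹) * l2 := by group
      rw [h8]; exact h6
    rw [← hl2, hz] at h2
    have h9 : s = s * t2 * t2⁻¹ := by group
    rw [h9]
    exact mul_mem h2 (inv_mem ht2H)
  have := hb s hsH hsH2
  exact hsN (this ▸ N.one_mem)

end main

end Cfsg.Agent.Lib.H31FL
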