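import Mathlib
import Cfsg.Agent.Lib.H31PGV8

/-! The P(G,V)-theorem: minimal counterexample (helper31). -/

set_option autoImplicit false

namespace Cfsg.Agent.Lib.H31PGV9

open Subgroup
open Cfsg.Agent.Lib.H31PGV1 Cfsg.Agent.Lib.H31PGV2 Cfsg.Agent.Lib.H31PGV8

universe u w

/-- The statement, with a bound. -/
def PP (n : ℕ) : Prop := ∀ {G : Type u} [Group G] [Finite G] {V : Type w} [AddCommGroup V] [Finite V]
  (p : ℕ) [Fact p.Prime] (_ : ∀ v : V, p • v = 0) (ρ : G →* AddMonoid.End V) (K A : Subgroup G)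
  (_ : Cfsg.IsComponent K) (_ : ∀ a ∈ A, ∀ b ∈ A, a * b = b * a) (_ : ∀ a ∈ A, a ^ p = 1)
  (_ : BO ρ A), Nat.card A + Nat.card V ≤ n → A ≤ normalizer (K : Set G) ∨ ∀ k ∈ K, ρ k = 1

theorem isPGroup_of {G : Type*} [Group G] {A : Subgroup G} {p : ℕ} (h : ∀ a ∈ A, a ^ p = 1) : IsPGroup p A := by
  intro ⟨x, hx⟩
  refine ⟨1, ?_⟩
  apply Subtype.ext
  simp only [pow_one, SubmonoidClass.mk_pow, OneMemClass.coe_one]
  exact h x hx

theorem step {n : ℕ} (IH : ∀ m < n, PP.{u, w} m) {G : Type u} [Group G] [Finite G] {V : Type w}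
    [AddCommGroup V] [Finite V]
    (p : ℕ) [hpf : Fact p.Prime] (hpV : ∀ v : V, p • v = 0) (ρ : G →* AddMonoid.End V) (K A : Subgroup G)
    (hK : Cfsg.IsComponent K) (hab : ∀ a ∈ A, ∀ b ∈ A, a * b = b * a) (hexp : ∀ a ∈ A, a ^ p = 1)
    (hA : BO ρ A) (hn : Nat.card A + Nat.card V ≤ n) (htop : K ⊔ A = ⊤) :
    A ≤ normalizer (K : Set G) ∨ ∀ k ∈ K, ρ k = 1 := by
  by_contra hcon
  push Not at hcon
  obtain ⟨hAN, hKne⟩ := hcon
  have hKne' : ¬ ∀ k ∈ K, ρ k = 1 := by
    push Not; exact hKne
  have qs : QS K := qs_of hK.2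
  have hcommK : ∀ a : G, a ∉ normalizer (K : Set G) → ∀ k ∈ K, ∀ l ∈ K, k * (a * l * a⁻¹) = (a * l * a⁻¹) * k := by
    intro a ha k hk l hl
    have h1 : Cfsg.IsComponent (K.map (MulAut.conj a).toMonoidHom) := Components.isComponent_conj a hK
    have h2 : K ≠ K.map (MulAut.conj a).toMonoidHom := by
      intro h
      apply ha
      apply mem_normalizer_of_inv
      intro k hk
      rw [h]
      exact ⟨k, hk, rfl⟩
    have h3 := Components.components_commute hK h1 h2
    have h4 := mem_centralizer_iff.mp (h3 hk) (a * l * a⁻¹) ⟨l, hl, rfl⟩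
    exact h4.symm
  -- quadratic-type lemma: commuting image
  have hker : ∀ (V' : Type w) [AddCommGroup V'] (σ : G →* AddMonoid.End V'),
      (∀ k ∈ K, ∀ l ∈ K, σ k * σ l = σ l * σ k) → ∀ k ∈ K, σ k = 1 := by
    intro V' _ σ h
    exact qs.map_eq_one σ h
  -- if (ρ k - 1)(ρ l - 1) = 0 for k, l ∈ K then ρ K = 1
  have hquad : (∀ k ∈ K, ∀ l ∈ K, ∀ v : V, ρ k (ρ l v - v) = ρ l v - v) → False := by
    intro h
    apply hKne'
    apply hker V ρ
    intro k hk l hl
    ext v
    change ρ k (ρ l v) = ρ l (ρ k v)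
    have h1 := h k hk l hl v
    have h2 := h l hl k hk v
    rw [map_sub, sub_eq_iff_eq_add] at h1 h2
    rw [h1, h2]; abel
  -- step 1 : invariant proper subspaces
  have h1 : ∀ W : AddSubgroup V, W ≠ ⊤ → (∀ g : G, ∀ v ∈ W, ρ g v ∈ W) → ∀ k ∈ K, ∀ v ∈ W, ρ k v = v := by
    intro W hWt hW k hk v hv
    have hlt : Nat.card W < Nat.card V := by
      by_contra hge
      push Not at hge
      exact hWt (AddSubgroup.eq_top_of_le_card W hge)
    rcases IH (Nat.card A + Nat.card W) (by omega) p (fun w => Subtype.ext (by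
        rw [AddSubgroup.coe_nsmul]; exact hpV w)) (rW ρ W hW) K A hK hab hexp (BO_rW ρ W hW hA) le_rfl with h | h
    · exact absurd h hAN
    · have := congrArg (fun f : AddMonoid.End W => ((f ⟨v, hv⟩ : W) : V)) (h k hk)
      exact this
  -- U
  let U : AddSubgroup V :=
    { carrier := {v | ∀ g : G, ∀ k ∈ K, ρ k (ρ g v) = ρ g v}
      zero_mem' := by intro g k _; rw [map_zero, map_zero]
      add_mem' := by
        intro x y hx hy g k hk
        rw [map_add, map_add, hx g k hk, hy g k hk]
      neg_mem' := by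
        intro x hx g k hk
        rw [map_neg, map_neg, hx g k hk] }
  have hUG : ∀ g : G, ∀ v ∈ U, ρ g v ∈ U := by
    intro g v hv g' k hk
    rw [← rho_mul ρ g' g]
    exact hv _ k hk
  have hUK : ∀ k ∈ K, ∀ v ∈ U, ρ k v = v := by
    intro k hk v hv
    have := hv 1 k hk
    rwa [rho_one] at this
  have hWU : ∀ W : AddSubgroup V, W ≠ ⊤ → (∀ g : G, ∀ v ∈ W, ρ g v ∈ W) → W ≤ U := by
    intro W hWt hW v hv g k hk
    exact h1 W hWt hW k hk _ (hW g v hv)
  -- K nontrivial on V/U
  set σ := rQ ρ U hUG with hσ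
  have hσK : ¬ ∀ k ∈ K, σ k = 1 := by
    intro h
    apply hquad
    intro k hk l hl v
    apply hUK k hk
    have h2 := congrArg (fun f : AddMonoid.End (V ⧸ U) => f ((v : V) : V ⧸ U)) (h l hl)
    change ((ρ l v : V) : V ⧸ U) = ((v : V) : V ⧸ U) at h2
    have h3 := QuotientAddGroup.eq.mp h2.symm
    rwa [neg_add_eq_sub] at h3
  have hσK' : ¬ ∀ k ∈ K, ∀ l ∈ K, σ k * σ l = σ l * σ k := by
    intro h
    exact hσK (hker _ σ h)
  -- X = V
  set X : AddSubgroup V := AddSubgroup.closure {x | ∃ g : G, ∃ k ∈ K, ∃ v : V, x = ρ g (ρ k v - v)} with hX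
  have hXt : X = ⊤ := by
    by_contra hne
    have hXG : ∀ g : G, ∀ v ∈ X, ρ g v ∈ X := by
      intro g v hv
      refine AddSubgroup.closure_induction (p := fun v _ => ρ g v ∈ X) ?_ ?_ ?_ ?_ hv
      · rintro x ⟨g', k, hk, v, rfl⟩
        apply AddSubgroup.subset_closure
        exact ⟨g * g', k, hk, v, (rho_mul ρ g g' _).symm⟩
      · rw [map_zero]; exact zero_mem _
      · intro x y _ _ hx hy
        rw [map_add]; exact add_mem hx hy
      · intro x _ hx
        rw [map_neg]; exact neg_mem hx
    have h2 := h1 X hne hXG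
    apply hquad
    intro k hk l hl v
    apply h2 k hk
    apply AddSubgroup.subset_closure
    exact ⟨1, l, hl, v, (rho_one ρ _).symm⟩
  -- C_A(V/U) = C_A(V)
  have hCA : ∀ a ∈ A, σ a = 1 → ρ a = 1 := by
    intro a ha hσa
    have haU : ∀ v : V, ρ a v - v ∈ U := by
      intro v
      have h2 := congrArg (fun f : AddMonoid.End (V ⧸ U) => f ((v : V) : V ⧸ U)) hσa
      change ((ρ a v : V) : V ⧸ U) = ((v : V) : V ⧸ U) at h2
      have h3 := QuotientAddGroup.eq.mp h2.symm
      rwa [neg_add_eq_sub] at h3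
    have haN : a ∈ normalizer (K : Set G) := by
      by_contra haN
      apply hσK'
      intro k hk l hl
      have h2 := hcommK a haN k hk l hl
      have h3 : σ (a * l * a⁻¹) = σ l := by
        have h4 : σ a⁻¹ = 1 := by
          have h5 : σ a⁻¹ * σ a = 1 := by rw [← map_mul, inv_mul_cancel, map_one]
          rw [hσa, mul_one] at h5
          exact h5
        rw [map_mul, map_mul, hσa, h4, one_mul, mul_one]
      rw [← h3, ← map_mul, ← map_mul, h2]
    have hac : ∀ k ∈ K, a * k = k * a := by
      by_contra hnc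
      push Not at hnc
      apply hσK
      have hle : K ≤ σ.ker := by
        apply qs.eq_of_comm_mem (fun k hk => (mem_normalizer_iff.mp haN k).mp hk) hnc
        · intro k hk m hm
          rw [MonoidHom.mem_ker] at hm ⊢
          rw [map_mul, map_mul, hm, mul_one, ← map_mul, mul_inv_cancel, map_one]
        · intro k hk
          rw [MonoidHom.mem_ker]
          have h4 : σ a⁻¹ = 1 := by
            have h5 : σ a⁻¹ * σ a = 1 := by rw [← map_mul, inv_mul_cancel, map_one]
            rw [hσa, mul_one] at h5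
            exact h5
          rw [map_mul, map_mul, map_mul, hσa, h4, one_mul, mul_one, ← map_mul, mul_inv_cancel, map_one]
      exact fun k hk => hle hk
    have hacG : ∀ g : G, a * g = g * a := by
      intro g
      have hle : K ⊔ A ≤ centralizer {a} := by
        apply sup_le
        · intro k hk
          rw [mem_centralizer_singleton_iff]
          exact (hac k hk).symm
        · intro b hb
          rw [mem_centralizer_singleton_iff]
          exact hab b hb a ha
      rw [htop] at hle
      have := hle (mem_top g)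
      rw [mem_centralizer_singleton_iff] at this
      exact this.symm
    have hfix : X ≤ fx ρ (zpowers a) := by
      rw [hX, AddSubgroup.closure_le]
      rintro x ⟨g, k, hk, v, rfl⟩
      have h2 : ρ a (ρ g (ρ k v - v)) = ρ g (ρ k v - v) := by
        rw [← rho_mul, hacG g, rho_mul]
        congr 1
        have h3 := hUK k hk _ (haU v)
        rw [map_sub, ← rho_mul, ← hac k hk, rho_mul] at h3
        rw [map_sub]
        rw [sub_eq_sub_iff_add_eq_add] at h3 ⊢
        rw [h3, add_comm]
      have h3 : zpowers a ≤ stab ρ (ρ g (ρ k v - v)) := by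
        rw [zpowers_le]; exact h2
      exact fun b hb => h3 hb
    ext v
    have : v ∈ X := by rw [hXt]; trivial
    exact hfix this a (mem_zpowers a)
  -- Timmesfeld
  obtain ⟨M, hMA, hMq, hMBO, hMf⟩ := timmesfeld ρ hab hA
  have hAne : fx ρ A ≠ ⊤ := by
    intro h
    -- A trivial on V; then [K, A] trivial...
    apply hAN
    intro a ha
    by_contra haN
    apply hKne'
    apply hker V ρ
    intro k hk l hl
    have h2 := hcommK a haN k hk l hl
    have hρa : ∀ b ∈ A, ρ b = 1 := by
      intro b hb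
      ext v
      have : v ∈ fx ρ A := by rw [h]; trivial
      exact this b hb
    have h3 : ρ (a * l * a⁻¹) = ρ l := by
      rw [map_mul, map_mul, hρa a ha, hρa a⁻¹ (inv_mem ha), one_mul, mul_one]
    rw [← h3, ← map_mul, ← map_mul, h2]
  have hMne : ∃ m ∈ M, ρ m ≠ 1 := by
    by_contra hcon
    push Not at hcon
    have h2 : fx ρ M = ⊤ := by
      rw [eq_top_iff]
      intro v _ m hm
      rw [hcon m hm]; rfl
    rw [h2] at hMf
    apply cm_sup_ne_top ρ hpV (isPGroup_of hexp) hAne
      (fun a ha f hf b hb => by rw [hf a ha]; exact hf b hb)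
    exact top_le_iff.mp hMf
  -- the dichotomy
  have hdich : (∀ x ∈ A, ∀ y ∈ A, ∀ v : V, ρ x (ρ y v - v) = ρ y v - v) ∨
      ∃ b ∈ A, b ∈ normalizer (K : Set G) ∧ ρ b ≠ 1 ∧ ∀ y ∈ A, ∀ v : V, ρ b (ρ y v - v) = ρ y v - v := by
    by_cases hMeq : M = A
    · left
      intro x hx y hy v
      exact hMq x (by rw [hMeq]; exact hx) y hy v
    · right
      have hlt : Nat.card M < Nat.card A := by
        by_contra hge
        push Not at hge
        exact hMeq (Subgroup.eq_of_le_of_card_ge hMA hge)
      rcases IH (Nat.card M + Nat.card V) (by omega) p hpV ρ K M hK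
        (fun a ha b hb => hab a (hMA ha) b (hMA hb)) (fun a ha => hexp a (hMA ha)) hMBO le_rfl with h | h
      · obtain ⟨m, hm, hm1⟩ := hMne
        exact ⟨m, hMA hm, h hm, hm1, fun y hy v => hMq m hm y hy v⟩
      · exact absurd h hKne'
  -- the endgame
  set φ : G →* (AddMonoid.End (V ⧸ U))ˣ := σ.toHomUnits with hφ
  have hφσ : ∀ g : G, ((φ g : (AddMonoid.End (V ⧸ U))ˣ) : AddMonoid.End (V ⧸ U)) = σ g := fun g => rfl
  have hφv : ∀ (g : G) (v : V), φ g • ((v : V) : V ⧸ U) = ((ρ g v : V) : V ⧸ U) := fun g v => rfl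
  have hφ1 : ∀ g : G, φ g = 1 → σ g = 1 := by
    intro g h
    rw [← hφσ, h]; rfl
  have hfinE : Finite (AddMonoid.End (V ⧸ U)) := by
    have : Function.Injective (fun f : AddMonoid.End (V ⧸ U) => (f : (V ⧸ U) → (V ⧸ U))) :=
      fun f g h => DFunLike.coe_injective h
    exact Finite.of_injective _ this
  have hcfg : Cfg (V ⧸ U) p (K.map φ) (A.map φ) :=
    { hp := by
        intro q
        obtain ⟨v, rfl⟩ := QuotientAddGroup.mk_surjective q
        rw [← QuotientAddGroup.mk_nsmul, hpV]; rfl
      faith := by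
        intro g hg
        apply Units.ext
        ext q
        exact hg q
      qs := by
        apply qs_of
        have : Nontrivial (K.map φ) := by
          rw [Subgroup.nontrivial_iff_ne_bot]
          intro h
          apply hσK
          intro k hk
          apply hφ1
          have : φ k ∈ K.map φ := ⟨k, hk, rfl⟩
          rw [h] at this
          exact this
        exact Components.quasisimple_of_surjective hK.2 (φ.subgroupMap K) (φ.subgroupMap_surjective K)
      comm := by
        rintro _ ⟨a, ha, rfl⟩ haN _ ⟨k, hk, rfl⟩ _ ⟨l, hl, rfl⟩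
        have haN' : a ∉ normalizer (K : Set G) := by
          intro h
          apply haN
          apply mem_normalizer_of_inv
          rintro _ ⟨k', hk', rfl⟩
          refine ⟨a * k' * a⁻¹, (mem_normalizer_iff.mp h k').mp hk', ?_⟩
          rw [map_mul, map_mul, map_inv]
        have h2 := hcommK a haN' k hk l hl
        rw [← map_inv, ← map_mul, ← map_mul, ← map_mul, ← map_mul, h2]
      abel := by
        rintro _ ⟨a, ha, rfl⟩ _ ⟨b, hb, rfl⟩
        rw [← map_mul, ← map_mul, hab a ha b hb]
      expo := by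
        rintro _ ⟨a, ha, rfl⟩
        rw [← map_pow, hexp a ha, map_one]
      irr := by
        intro W hWK hWA
        set W' : AddSubgroup V := W.comap (QuotientAddGroup.mk' U) with hW'
        have hmem : ∀ v : V, v ∈ W' ↔ ((v : V) : V ⧸ U) ∈ W := fun v => Iff.rfl
        have hWG : ∀ g : G, ∀ v ∈ W', ρ g v ∈ W' := by
          intro g v hv
          -- stabiliser of W'
          let T : Subgroup G :=
            { carrier := {g | ∀ v ∈ W', ρ g v ∈ W'}
              one_mem' := by intro v hv; rw [rho_one]; exact hv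
              mul_mem' := by
                intro x y hx hy v hv
                rw [rho_mul]; exact hx _ (hy v hv)
              inv_mem' := by
                intro x hx v hv
                -- finite: the map is bijective on W'
                have hinj : Function.Injective (fun w : W' => (⟨ρ x w, hx w w.2⟩ : W')) := by
                  intro a b hab'
                  have h2 : ρ x (a : V) = ρ x (b : V) := congrArg (fun z : W' => (z : V)) hab'
                  have h3 := congrArg (ρ x⁻¹) h2
                  rw [rho_inv_rho, rho_inv_rho] at h3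
                  exact Subtype.ext h3
                obtain ⟨w, hw⟩ := (Finite.injective_iff_surjective.mp hinj) ⟨v, hv⟩
                have h2 : ρ x (w : V) = v := congrArg (fun z : W' => (z : V)) hw
                rw [← h2, rho_inv_rho]
                exact w.2 }
          have hle : K ⊔ A ≤ T := by
            apply sup_le
            · intro k hk v hv
              rw [hmem] at hv ⊢
              rw [← hφv]
              exact hWK _ ⟨k, hk, rfl⟩ _ hv
            · intro k hk v hv
              rw [hmem] at hv ⊢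
              rw [← hφv]
              exact hWA _ ⟨k, hk, rfl⟩ _ hv
          rw [htop] at hle
          exact hle (mem_top g) v hv
        by_cases hWt : W' = ⊤
        · right
          rw [eq_top_iff]
          intro q _
          obtain ⟨v, rfl⟩ := QuotientAddGroup.mk_surjective q
          rw [← hmem, hWt]; trivial
        · left
          rw [eq_bot_iff]
          intro q hq
          obtain ⟨v, rfl⟩ := QuotientAddGroup.mk_surjective q
          rw [AddSubgroup.mem_bot, QuotientAddGroup.eq_zero_iff]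
          exact hWU W' hWt hWG hq
      off := by
        set A0 : Subgroup G := A ⊓ φ.ker with hA0
        have hA0f : fx ρ A0 = ⊤ := by
          rw [eq_top_iff]
          intro v _ a ha
          have h2 := (mem_inf.1 ha)
          rw [hCA a h2.1 (hφ1 a h2.2)]; rfl
        have h2 := hA A0 inf_le_left
        unfold ms at h2
        have hVcard : Nat.card (fx ρ A0) = Nat.card V := by
          rw [hA0f]; exact AddSubgroup.card_top
        rw [hVcard] at h2
        have h3 : Nat.card V = Nat.card (V ⧸ U) * Nat.card U :=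
          AddSubgroup.card_eq_card_quotient_mul_card_addSubgroup U
        have h4 : Nat.card A ≤ Nat.card (A.map φ) * Nat.card A0 := by
          rw [← Nat.card_prod]
          have hex : ∀ y : A.map φ, ∃ a : G, a ∈ A ∧ φ a = y := fun y => by
            obtain ⟨a, ha, hay⟩ := y.2
            exact ⟨a, ha, hay⟩
          choose sec hsecA hsec using hex
          apply Nat.card_le_card_of_injective (fun a : A =>
            ((⟨φ a, ⟨a, a.2, rfl⟩⟩ : A.map φ), (⟨(sec ⟨φ a, ⟨a, a.2, rfl⟩⟩)⁻¹ * a,
              mem_inf.2 ⟨mul_mem (inv_mem (hsecA _)) a.2, by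
                rw [MonoidHom.mem_ker, map_mul, map_inv, hsec, inv_mul_cancel]⟩⟩ : A0)))
          intro a b hab'
          have e1 : (⟨φ a, ⟨a, a.2, rfl⟩⟩ : A.map φ) = ⟨φ b, ⟨b, b.2, rfl⟩⟩ := congrArg Prod.fst hab'
          have e2 : (sec ⟨φ a, ⟨a, a.2, rfl⟩⟩)⁻¹ * (a : G) = (sec ⟨φ b, ⟨b, b.2, rfl⟩⟩)⁻¹ * (b : G) :=
            congrArg (fun z : (A.map φ) × A0 => (z.2 : G)) hab'
          rw [e1] at e2
          exact Subtype.ext (mul_left_cancel e2)
        have h5 : Nat.card (fx ρ A) ≤ Nat.card {q : V ⧸ U // ∀ a ∈ A.map φ, a • q = q} * Nat.card U := by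
          rw [← Nat.card_prod]
          apply Nat.card_le_card_of_injective (fun v : fx ρ A =>
            ((⟨((v : V) : V ⧸ U), by
              rintro _ ⟨a, ha, rfl⟩
              rw [hφv, v.2 a ha]⟩ : {q : V ⧸ U // ∀ a ∈ A.map φ, a • q = q}),
             (⟨-(((v : V) : V ⧸ U).out) + (v : V), by
              rw [← QuotientAddGroup.eq]
              exact QuotientAddGroup.out_eq' _⟩ : U)))
          intro a b hab'
          have e1 : ((a : V) : V ⧸ U) = ((b : V) : V ⧸ U) :=
            congrArg (fun z : {q : V ⧸ U // ∀ a ∈ A.map φ, a • q = q} × U => (z.1 : V ⧸ U)) hab'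
          have e2 : -(((a : V) : V ⧸ U).out) + (a : V) = -(((b : V) : V ⧸ U).out) + (b : V) :=
            congrArg (fun z : {q : V ⧸ U // ∀ a ∈ A.map φ, a • q = q} × U => (z.2 : V)) hab'
          rw [e1] at e2
          exact Subtype.ext (add_left_cancel e2)
        rw [h3] at h2
        have hA0p : 0 < Nat.card A0 := Nat.card_pos
        have hUp : 0 < Nat.card U := Nat.card_pos
        have h6 : (Nat.card A0 * Nat.card U) * Nat.card (V ⧸ U) ≤ (Nat.card A0 * Nat.card U) *
            (Nat.card (A.map φ) * Nat.card {q : V ⧸ U // ∀ a ∈ A.map φ, a • q = q}) := by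
          calc (Nat.card A0 * Nat.card U) * Nat.card (V ⧸ U)
              = Nat.card A0 * (Nat.card (V ⧸ U) * Nat.card U) := by ring
            _ ≤ Nat.card A * Nat.card (fx ρ A) := h2
            _ ≤ (Nat.card (A.map φ) * Nat.card A0) *
                (Nat.card {q : V ⧸ U // ∀ a ∈ A.map φ, a • q = q} * Nat.card U) := Nat.mul_le_mul h4 h5
            _ = _ := by ring
        exact Nat.le_of_mul_le_mul_left h6 (Nat.mul_pos hA0p hUp) }
  have hend := H31PGV7.endgame hcfg (by
    rcases hdich with h | ⟨b, hb, hbN, hb1, hq⟩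
    · left
      rintro _ ⟨x, hx, rfl⟩ _ ⟨y, hy, rfl⟩ q
      obtain ⟨v, rfl⟩ := QuotientAddGroup.mk_surjective q
      have := h x hx y hy v
      rw [hφv, ← QuotientAddGroup.mk_sub, hφv, this]
    · right
      refine ⟨φ b, ⟨b, hb, rfl⟩, ?_, ?_, ?_⟩
      · apply mem_normalizer_of_inv
        rintro _ ⟨k', hk', rfl⟩
        refine ⟨b * k' * b⁻¹, (mem_normalizer_iff.mp hbN k').mp hk', ?_⟩
        rw [map_mul, map_mul, map_inv]
      · intro h
        exact hb1 (hCA b hb (hφ1 b h))
      · rintro _ ⟨y, hy, rfl⟩ q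
        obtain ⟨v, rfl⟩ := QuotientAddGroup.mk_surjective q
        have := hq y hy v
        rw [hφv, ← QuotientAddGroup.mk_sub, hφv, this])
  -- contradiction
  rw [SetLike.not_le_iff_exists] at hAN
  obtain ⟨a, ha, haN⟩ := hAN
  apply hσK'
  have h2 : φ a ∈ normalizer ((K.map φ : Subgroup _) : Set (AddMonoid.End (V ⧸ U))ˣ) := hend ⟨a, ha, rfl⟩
  intro k hk l hl
  -- l̄ = a l' a⁻¹ for some l' ∈ K
  have h3 : (φ a)⁻¹ * φ l * (φ a) ∈ K.map φ := by
    have := (mem_normalizer_iff.mp (inv_mem h2) (φ l)).mp ⟨l, hl, rfl⟩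
    rwa [inv_inv] at this
  obtain ⟨l', hl', hl'e⟩ := h3
  have h4 : φ l = φ (a * l' * a⁻¹) := by
    rw [map_mul, map_mul, map_inv, hl'e]; group
  have h5 : σ l = σ (a * l' * a⁻¹) := by
    rw [← hφσ, ← hφσ, h4]
  rw [h5, ← map_mul, ← map_mul, hcommK a haN k hk l' hl']

theorem PP_all : ∀ n : ℕ, PP.{u, w} n := by
  intro n
  induction n using Nat.strong_induction_on with
  | _ n IH =>
  intro G _ _ V _ _ p _ hpV ρ K A hK hab hexp hA hn
  -- restrict to K ⊔ A
  set H : Subgroup G := K ⊔ A with hH
  have hKH : K ≤ H := le_sup_left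
  have hAH : A ≤ H := le_sup_right
  have hKc : Cfsg.IsComponent (K.subgroupOf H) := Components.isComponent_subgroupOf hKH hK
  have hcardA : ∀ B : Subgroup H, Nat.card (B.map H.subtype) = Nat.card B := by
    intro B
    exact Nat.card_congr (B.equivMapOfInjective _ H.subtype_injective).symm.toEquiv
  have hfx : ∀ B : Subgroup H, fx (ρ.comp H.subtype) B = fx ρ (B.map H.subtype) := by
    intro B
    ext v
    constructor
    · rintro h _ ⟨b, hb, rfl⟩
      exact h b hb
    · intro h b hb
      exact h _ ⟨b, hb, rfl⟩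
  have hms : ∀ B : Subgroup H, ms (ρ.comp H.subtype) B = ms ρ (B.map H.subtype) := by
    intro B
    unfold ms
    rw [hfx, hcardA]
  have hAmap : (A.subgroupOf H).map H.subtype = A := by
    rw [subgroupOf_map_subtype, inf_eq_left.mpr hAH]
  have hBO : BO (ρ.comp H.subtype) (A.subgroupOf H) := by
    intro B hB
    rw [hms, hms, hAmap]
    apply hA
    rw [← hAmap]
    exact map_mono hB
  have hcA : Nat.card (A.subgroupOf H) = Nat.card A := by
    rw [← hcardA, hAmap]
  rcases step IH p hpV (ρ.comp H.subtype) (K.subgroupOf H) (A.subgroupOf H) hKc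
    (fun a ha b hb => Subtype.ext (hab a ha b hb)) (fun a ha => Subtype.ext (hexp a ha)) hBO
    (by rw [hcA]; exact hn) (by
      rw [← subgroupOf_sup hKH hAH]
      exact subgroupOf_self _) with h | h
  · left
    intro a ha
    apply mem_normalizer_of_inv
    intro k hk
    have h1 : (⟨a, hAH ha⟩ : H) ∈ normalizer ((K.subgroupOf H : Subgroup H) : Set H) := h (by
      rw [mem_subgroupOf]; exact ha)
    exact (mem_normalizer_iff.mp h1 ⟨k, hKH hk⟩).mp (by
      change (⟨k, hKH hk⟩ : H) ∈ K.subgroupOf H
      rw [mem_subgroupOf]; exact hk)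
  · right
    intro k hk
    exact h ⟨k, hKH hk⟩ (by rw [mem_subgroupOf]; exact hk)

end Cfsg.Agent.Lib.H31PGV9
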