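import Mathlib

/-!
# The integer vectors for the principal 2-block (Sylow 2-subgroup of order 8, automizer of order 21)
(helper32)
-/

set_option autoImplicit false

namespace Cfsg.Agent.Lib.H32E8b

variable {I : Type*} [DecidableEq I]

theorem small (B : Finset I) (d : I → ℕ) (hd0 : ∀ i ∈ B, 0 < d i) (f : I → ℤ)
    (n : ∑ i ∈ B, f i ^ 2 = 4) (e : ∑ i ∈ B, f i * d i = 0) {i : I} (hi : i ∈ B) :
    f i = 0 ∨ f i = 1 ∨ f i = -1 := by
  by_contra hcon
  push Not at hcon
  obtain ⟨h0, h1, h2⟩ := hcon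
  have h4 : 4 ≤ f i ^ 2 := by
    rcases lt_or_gt_of_ne h0 with h | h
    · have : f i ≤ -2 := by omega
      nlinarith
    · have : 2 ≤ f i := by omega
      nlinarith
  rw [← Finset.add_sum_erase _ _ hi] at n e
  have h5 : ∑ j ∈ B.erase i, f j ^ 2 = 0 := by
    have := Finset.sum_nonneg (s := B.erase i) (f := fun j => f j ^ 2) (fun j _ => sq_nonneg _)
    linarith
  have h6 : ∀ j ∈ B.erase i, f j = 0 := by
    intro j hj
    have := (Finset.sum_eq_zero_iff_of_nonneg (fun j _ => sq_nonneg (f j))).1 h5 j hj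
    exact pow_eq_zero_iff (two_ne_zero) |>.1 this
  have h7 : ∑ j ∈ B.erase i, f j * (d j : ℤ) = 0 :=
    Finset.sum_eq_zero fun j hj => by rw [h6 j hj, zero_mul]
  rw [h7, add_zero] at e
  rcases mul_eq_zero.1 e with h | h
  · exact h0 h
  · have := hd0 i hi
    omega

/-- arithmetic of the case of two common constituents -/
theorem arith2 {u v w : ℤ} (hu : u ≠ 0) (hv : v ≠ 0) (hw : w ≠ 0) (h1 : 1 + u = v + w)
    (h2 : 1 + 1 / (u : ℚ) = 1 / (v : ℚ) + 1 / (w : ℚ)) : u = -1 ∨ v = 1 ∨ w = 1 := by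
  have hu' : (u : ℚ) ≠ 0 := by exact_mod_cast hu
  have hv' : (v : ℚ) ≠ 0 := by exact_mod_cast hv
  have hw' : (w : ℚ) ≠ 0 := by exact_mod_cast hw
  field_simp at h2
  have h3 : (v * w * (u + 1) : ℤ) = u * (v + w) := by
    have : ((v * w * (u + 1) : ℤ) : ℚ) = ((u * (v + w) : ℤ) : ℚ) := by
      push_cast
      linarith
    exact_mod_cast this
  have h4 : (u + 1) * ((1 - v) * (1 - w)) = 0 := by
    have e1 : u = v + w - 1 := by linarith
    subst e1
    ring_nf at h3 ⊢
    linarith
  rcases mul_eq_zero.1 h4 with h | h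
  · left; omega
  · rcases mul_eq_zero.1 h with h | h
    · right; left; omega
    · right; right; omega

/-- arithmetic of the case of one common constituent -/
theorem arith1 {u v : ℤ} (hu : u ≠ 0) (hv : v ≠ 0) (he : 1 + u - v ≠ 0)
    (h2 : 1 + 4 / (u : ℚ) = 4 / (v : ℚ) + 1 / ((1 + u - v : ℤ) : ℚ)) (hu8 : (8 : ℤ) ∣ u - 2)
    (hv8 : (8 : ℤ) ∣ v - 2) (hu14 : u < 0 → u ≤ -14) : u = v := by
  have hu' : (u : ℚ) ≠ 0 := by exact_mod_cast hu
  have hv' : (v : ℚ) ≠ 0 := by exact_mod_cast hv
  have he' : ((1 + u - v : ℤ) : ℚ) ≠ 0 := by exact_mod_cast he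
  have h3 : (u - v) * ((u + 4) * (v - 4) + 12) = 0 := by
    have h4 : ((u - v) * ((u + 4) * (v - 4) + 12) : ℚ) = 0 := by
      have e1 : ((1 + u - v : ℤ) : ℚ) = 1 + u - v := by push_cast; ring
      rw [e1] at h2 he'
      field_simp at h2
      ring_nf at h2 ⊢
      linarith
    exact_mod_cast h4
  rcases mul_eq_zero.1 h3 with h | h
  · omega
  · obtain ⟨a, ha⟩ := hu8
    obtain ⟨b, hb⟩ := hv8
    have hdvd : (u + 4) ∣ 12 := ⟨-(v - 4), by linarith⟩
    have hle : (u + 4) ≤ 12 := Int.le_of_dvd (by norm_num) hdvd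
    have hge : -12 ≤ (u + 4) := by
      have := Int.le_of_dvd (by norm_num) ((neg_dvd).2 hdvd)
      omega
    have ha1 : a ≤ 0 := by omega
    have ha2 : -2 ≤ a := by omega
    interval_cases a
    · have : u = -14 := by omega
      subst this
      omega
    · omega
    · have : u = 2 := by omega
      subst this
      omega

/-- support pattern -/
def pat (c0 c1 c2 : I → ℤ) (i : I) : Bool × Bool × Bool :=
  (decide (c0 i ≠ 0), decide (c1 i ≠ 0), decide (c2 i ≠ 0))

theorem dec (B : Finset I) (c0 c1 c2 : I → ℤ) {R : Type*} [AddCommMonoid R] (g : I → R) :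
    ∑ i ∈ B, g i =
      (∑ i ∈ B with pat c0 c1 c2 i = (true, true, true), g i +
        ∑ i ∈ B with pat c0 c1 c2 i = (true, true, false), g i +
        (∑ i ∈ B with pat c0 c1 c2 i = (true, false, true), g i +
        ∑ i ∈ B with pat c0 c1 c2 i = (true, false, false), g i)) +
      (∑ i ∈ B with pat c0 c1 c2 i = (false, true, true), g i +
        ∑ i ∈ B with pat c0 c1 c2 i = (false, true, false), g i +
        (∑ i ∈ B with pat c0 c1 c2 i = (false, false, true), g i +
        ∑ i ∈ B with pat c0 c1 c2 i = (false, false, false), g i)) := by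
  rw [← Finset.sum_fiberwise B (pat c0 c1 c2) g]
  simp only [Fintype.sum_prod_type, Fintype.sum_bool]

theorem combi (B : Finset I) (o : I) (ho : o ∈ B) (d : I → ℕ) (hd0 : ∀ i ∈ B, 0 < d i)
    (hd : ∀ i ∈ B, d i = 1 → i = o) (hdo : d o = 1) (bar : I → I) (hbB : ∀ i ∈ B, bar i ∈ B)
    (hbd : ∀ i ∈ B, d (bar i) = d i) (c0 c1 c2 : I → ℤ)
    (h0o : c0 o = 1) (h1o : c1 o = 0) (h2o : c2 o = 0)
    (hb0 : ∀ i ∈ B, c0 (bar i) = c0 i) (hb1 : ∀ i ∈ B, c1 (bar i) = c2 i)
    (hb2 : ∀ i ∈ B, c2 (bar i) = c1 i)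
    (n00 : ∑ i ∈ B, c0 i ^ 2 = 4) (n11 : ∑ i ∈ B, c1 i ^ 2 = 4) (n22 : ∑ i ∈ B, c2 i ^ 2 = 4)
    (n01 : ∑ i ∈ B, c0 i * c1 i = 2) (n02 : ∑ i ∈ B, c0 i * c2 i = 2)
    (n12 : ∑ i ∈ B, c1 i * c2 i = 2)
    (e0 : ∑ i ∈ B, c0 i * d i = 0) (e1 : ∑ i ∈ B, c1 i * d i = 0) (e2 : ∑ i ∈ B, c2 i * d i = 0)
    (k01 : ∑ i ∈ B, (((c0 i + c1 i + c2 i) ^ 2 * c0 i : ℤ) : ℚ) / d i =
      ∑ i ∈ B, (((c0 i + c1 i + c2 i) ^ 2 * c1 i : ℤ) : ℚ) / d i)
    (hS : ∀ i ∈ B, ∃ m : ℕ, (d i : ℤ) + 7 * (c0 i + c1 i + c2 i) = 8 * m) : False := by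
  have s0 := fun i hi => small B d hd0 c0 n00 e0 (i := i) hi
  have s1 := fun i hi => small B d hd0 c1 n11 e1 (i := i) hi
  have s2 := fun i hi => small B d hd0 c2 n22 e2 (i := i) hi
  have s01 := fun i hi => small B d hd0 (fun i => c0 i - c1 i) (by
    have : ∀ i ∈ B, (c0 i - c1 i) ^ 2 = c0 i ^ 2 + c1 i ^ 2 - 2 * (c0 i * c1 i) := fun i _ => by ring
    rw [Finset.sum_congr rfl this, Finset.sum_sub_distrib, Finset.sum_add_distrib,
      ← Finset.mul_sum, n00, n11, n01]; norm_num) (by
    have : ∀ i ∈ B, (c0 i - c1 i) * (d i : ℤ) = c0 i * d i - c1 i * d i := fun i _ => by ring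
    rw [Finset.sum_congr rfl this, Finset.sum_sub_distrib, e0, e1]; norm_num) (i := i) hi
  have s02 := fun i hi => small B d hd0 (fun i => c0 i - c2 i) (by
    have : ∀ i ∈ B, (c0 i - c2 i) ^ 2 = c0 i ^ 2 + c2 i ^ 2 - 2 * (c0 i * c2 i) := fun i _ => by ring
    rw [Finset.sum_congr rfl this, Finset.sum_sub_distrib, Finset.sum_add_distrib,
      ← Finset.mul_sum, n00, n22, n02]; norm_num) (by
    have : ∀ i ∈ B, (c0 i - c2 i) * (d i : ℤ) = c0 i * d i - c2 i * d i := fun i _ => by ring
    rw [Finset.sum_congr rfl this, Finset.sum_sub_distrib, e0, e2]; norm_num) (i := i) hi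
  have s12 := fun i hi => small B d hd0 (fun i => c1 i - c2 i) (by
    have : ∀ i ∈ B, (c1 i - c2 i) ^ 2 = c1 i ^ 2 + c2 i ^ 2 - 2 * (c1 i * c2 i) := fun i _ => by ring
    rw [Finset.sum_congr rfl this, Finset.sum_sub_distrib, Finset.sum_add_distrib,
      ← Finset.mul_sum, n11, n22, n12]; norm_num) (by
    have : ∀ i ∈ B, (c1 i - c2 i) * (d i : ℤ) = c1 i * d i - c2 i * d i := fun i _ => by ring
    rw [Finset.sum_congr rfl this, Finset.sum_sub_distrib, e1, e2]; norm_num) (i := i) hi
  -- signs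
  obtain ⟨sg, hsg⟩ : ∃ sg : I → ℤ, ∀ i, sg i = if 0 ≤ c0 i + c1 i + c2 i then 1 else -1 :=
    ⟨_, fun _ => rfl⟩
  have sg1 : ∀ i, sg i = 1 ∨ sg i = -1 := fun i => by rw [hsg]; split_ifs <;> simp
  have sgsq : ∀ i, sg i * sg i = 1 := fun i => by rcases sg1 i with h | h <;> rw [h] <;> norm_num
  have q0 : ∀ i ∈ B, c0 i ≠ 0 → c0 i = sg i := by
    intro i hi h
    have a0 := s0 i hi; have a1 := s1 i hi; have a2 := s2 i hi
    have a01 := s01 i hi; have a02 := s02 i hi; have a12 := s12 i hi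
    rw [hsg]
    split_ifs <;> omega
  have q1 : ∀ i ∈ B, c1 i ≠ 0 → c1 i = sg i := by
    intro i hi h
    have a0 := s0 i hi; have a1 := s1 i hi; have a2 := s2 i hi
    have a01 := s01 i hi; have a02 := s02 i hi; have a12 := s12 i hi
    rw [hsg]
    split_ifs <;> omega
  have q2 : ∀ i ∈ B, c2 i ≠ 0 → c2 i = sg i := by
    intro i hi h
    have a0 := s0 i hi; have a1 := s1 i hi; have a2 := s2 i hi
    have a01 := s01 i hi; have a02 := s02 i hi; have a12 := s12 i hi
    rw [hsg]
    split_ifs <;> omega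
  clear s0 s1 s2 s01 s02 s12
  -- fibres
  obtain ⟨F, hF⟩ : ∃ F : Bool → Bool → Bool → Finset I, ∀ a b c, F a b c =
    B.filter (fun i => pat c0 c1 c2 i = (a, b, c)) := ⟨_, fun _ _ _ => rfl⟩
  have mF : ∀ {a b c i}, i ∈ F a b c → i ∈ B ∧ c0 i = (if a then sg i else 0) ∧
      c1 i = (if b then sg i else 0) ∧ c2 i = (if c then sg i else 0) := by
    intro a b c i hi
    rw [hF, Finset.mem_filter] at hi
    obtain ⟨hi, hp⟩ := hi
    simp only [pat, Prod.mk.injEq] at hp
    obtain ⟨ha, hb, hc⟩ := hp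
    refine ⟨hi, ?_, ?_, ?_⟩
    · cases a
      · simp only [decide_eq_false_iff_not, not_not] at ha; simpa using ha
      · simp only [decide_eq_true_eq] at ha; simpa using q0 i hi ha
    · cases b
      · simp only [decide_eq_false_iff_not, not_not] at hb; simpa using hb
      · simp only [decide_eq_true_eq] at hb; simpa using q1 i hi hb
    · cases c
      · simp only [decide_eq_false_iff_not, not_not] at hc; simpa using hc
      · simp only [decide_eq_true_eq] at hc; simpa using q2 i hi hc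
  have Fm : ∀ {i}, i ∈ B → ∀ {a b c : Bool}, (decide (c0 i ≠ 0) = a) → (decide (c1 i ≠ 0) = b) →
      (decide (c2 i ≠ 0) = c) → i ∈ F a b c := by
    intro i hi a b c ha hb hc
    rw [hF, Finset.mem_filter]
    exact ⟨hi, by simp only [pat, ha, hb, hc]⟩
  have v00 : ∀ a b c, ∑ i ∈ F a b c, c0 i ^ 2 = if a then ((F a b c).card : ℤ) else 0 := by
    intro a b c
    rw [Finset.sum_congr rfl (g := fun _ => if a then (1 : ℤ) else 0) (fun i hi => by
      rw [(mF hi).2.1, sq]; cases a <;> simp [sgsq])]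
    cases a <;> simp
  have v11 : ∀ a b c, ∑ i ∈ F a b c, c1 i ^ 2 = if b then ((F a b c).card : ℤ) else 0 := by
    intro a b c
    rw [Finset.sum_congr rfl (g := fun _ => if b then (1 : ℤ) else 0) (fun i hi => by
      rw [(mF hi).2.2.1, sq]; cases b <;> simp [sgsq])]
    cases b <;> simp
  have v01 : ∀ a b c, ∑ i ∈ F a b c, c0 i * c1 i = if a && b then ((F a b c).card : ℤ) else 0 := by
    intro a b c
    rw [Finset.sum_congr rfl (g := fun _ => if a && b then (1 : ℤ) else 0) (fun i hi => by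
      rw [(mF hi).2.1, (mF hi).2.2.1]; cases a <;> cases b <;> simp [sgsq])]
    cases a <;> cases b <;> simp
  have v02 : ∀ a b c, ∑ i ∈ F a b c, c0 i * c2 i = if a && c then ((F a b c).card : ℤ) else 0 := by
    intro a b c
    rw [Finset.sum_congr rfl (g := fun _ => if a && c then (1 : ℤ) else 0) (fun i hi => by
      rw [(mF hi).2.1, (mF hi).2.2.2]; cases a <;> cases c <;> simp [sgsq])]
    cases a <;> cases c <;> simp
  have v12 : ∀ a b c, ∑ i ∈ F a b c, c1 i * c2 i = if b && c then ((F a b c).card : ℤ) else 0 := by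
    intro a b c
    rw [Finset.sum_congr rfl (g := fun _ => if b && c then (1 : ℤ) else 0) (fun i hi => by
      rw [(mF hi).2.2.1, (mF hi).2.2.2]; cases b <;> cases c <;> simp [sgsq])]
    cases b <;> cases c <;> simp
  have w0 : ∀ a b c, ∑ i ∈ F a b c, c0 i * d i = if a then ∑ i ∈ F a b c, sg i * (d i : ℤ) else 0 := by
    intro a b c
    rw [Finset.sum_congr rfl (g := fun i => if a then sg i * (d i : ℤ) else 0) (fun i hi => by
      rw [(mF hi).2.1]; cases a <;> simp)]
    cases a <;> simp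
  have w1 : ∀ a b c, ∑ i ∈ F a b c, c1 i * d i = if b then ∑ i ∈ F a b c, sg i * (d i : ℤ) else 0 := by
    intro a b c
    rw [Finset.sum_congr rfl (g := fun i => if b then sg i * (d i : ℤ) else 0) (fun i hi => by
      rw [(mF hi).2.2.1]; cases b <;> simp)]
    cases b <;> simp
  have sgc : ∀ i, (sg i : ℚ) * sg i = 1 := fun i => by exact_mod_cast sgsq i
  have u0 : ∀ a b c, ∑ i ∈ F a b c, (((c0 i + c1 i + c2 i) ^ 2 * c0 i : ℤ) : ℚ) / d i =
      if a then ((if a then (1 : ℚ) else 0) + (if b then 1 else 0) + (if c then 1 else 0)) ^ 2 *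
        ∑ i ∈ F a b c, (sg i : ℚ) / d i else 0 := by
    intro a b c
    rw [Finset.sum_congr rfl (g := fun i => if a then ((if a then (1 : ℚ) else 0) +
        (if b then 1 else 0) + (if c then 1 else 0)) ^ 2 * ((sg i : ℚ) / d i) else 0) (fun i hi => by
      rw [(mF hi).2.1, (mF hi).2.2.1, (mF hi).2.2.2]
      have := sgc i
      have h3 : (sg i : ℚ) ^ 3 = sg i := by rw [pow_succ, sq, this, one_mul]
      cases a <;> cases b <;> cases c <;> simp <;> ring_nf <;> simp [h3] <;> ring)]
    cases a <;> simp [Finset.mul_sum]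
  have u1 : ∀ a b c, ∑ i ∈ F a b c, (((c0 i + c1 i + c2 i) ^ 2 * c1 i : ℤ) : ℚ) / d i =
      if b then ((if a then (1 : ℚ) else 0) + (if b then 1 else 0) + (if c then 1 else 0)) ^ 2 *
        ∑ i ∈ F a b c, (sg i : ℚ) / d i else 0 := by
    intro a b c
    rw [Finset.sum_congr rfl (g := fun i => if b then ((if a then (1 : ℚ) else 0) +
        (if b then 1 else 0) + (if c then 1 else 0)) ^ 2 * ((sg i : ℚ) / d i) else 0) (fun i hi => by
      rw [(mF hi).2.1, (mF hi).2.2.1, (mF hi).2.2.2]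
      have := sgc i
      have h3 : (sg i : ℚ) ^ 3 = sg i := by rw [pow_succ, sq, this, one_mul]
      cases a <;> cases b <;> cases c <;> simp <;> ring_nf <;> simp [h3] <;> ring)]
    cases b <;> simp [Finset.mul_sum]
  rw [dec B c0 c1 c2] at n00 n11 n01 n02 n12 e0 e1 k01
  rw [dec B c0 c1 c2 (fun i => (((c0 i + c1 i + c2 i) ^ 2 * c1 i : ℤ) : ℚ) / d i)] at k01
  simp only [← hF, v00, v11, v01, v02, v12, w0, w1, u0, u1] at n00 n11 n01 n02 n12 e0 e1 k01
  simp only [if_true, Bool.and_true, Bool.and_false, Bool.false_eq_true, if_false, add_zero, zero_add]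
    at n00 n11 n01 n02 n12 e0 e1 k01
  have hoF : o ∈ F true false false := Fm ho (by simp [h0o]) (by simp [h1o]) (by simp [h2o])
  have hone : ∀ {a b c i}, i ∈ F a b c → i ≠ o → d i ≠ 1 := fun hi hio h => hio (hd _ (mF hi).1 h)
  have sgo : sg o = 1 := by rw [hsg, h0o, h1o, h2o]; norm_num
  have Dne : ∀ i ∈ B, sg i * (d i : ℤ) ≠ 0 := by
    intro i hi h
    have h2 := hd0 i hi
    rcases mul_eq_zero.1 h with h | h
    · rcases sg1 i with h1 | h1 <;> omega
    · omega
  have rq : ∀ i ∈ B, (sg i : ℚ) / d i = 1 / ((sg i * (d i : ℤ) : ℤ) : ℚ) := by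
    intro i hi
    have h2 := hd0 i hi
    have h3 : (d i : ℚ) ≠ 0 := by exact_mod_cast h2.ne'
    rcases sg1 i with h1 | h1
    · rw [h1]; push_cast; rw [one_mul]
    · rw [h1]; push_cast
      rw [neg_one_mul]
      field_simp
  have c100 : 0 < (F true false false).card := Finset.card_pos.2 ⟨o, hoF⟩
  have ctt : (F true true true).card = 1 ∨ (F true true true).card = 2 := by omega
  rcases ctt with hT | hT
  · -- one common constituent
    obtain ⟨a, ha⟩ := Finset.card_eq_one.1 hT
    obtain ⟨b, hb⟩ := Finset.card_eq_one.1 (show (F true true false).card = 1 by omega)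
    obtain ⟨b', hb'⟩ := Finset.card_eq_one.1 (show (F true false true).card = 1 by omega)
    obtain ⟨g, hg⟩ := Finset.card_eq_one.1 (show (F false true true).card = 1 by omega)
    obtain ⟨o', ho'⟩ := Finset.card_eq_one.1 (show (F true false false).card = 1 by omega)
    obtain ⟨e, he⟩ := Finset.card_eq_one.1 (show (F false true false).card = 1 by omega)
    have hoo : o = o' := by rw [ho', Finset.mem_singleton] at hoF; exact hoF
    subst hoo
    have hbF : b ∈ F true true false := by rw [hb]; exact Finset.mem_singleton_self _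
    have hgF : g ∈ F false true true := by rw [hg]; exact Finset.mem_singleton_self _
    have heF : e ∈ F false true false := by rw [he]; exact Finset.mem_singleton_self _
    obtain ⟨hbB', hb0', hb1', hb2'⟩ := mF hbF
    obtain ⟨hgB, hg0, hg1, hg2⟩ := mF hgF
    obtain ⟨heB, he0, he1, he2⟩ := mF heF
    simp only [if_true, Bool.false_eq_true, if_false] at hb0' hb1' hb2' hg0 hg1 hg2 he0 he1 he2
    have hbar : bar b ∈ F true false true := by
      apply Fm (hbB b hbB')
      · rw [hb0 b hbB', hb0']; rcases sg1 b with h | h <;> simp [h]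
      · rw [hb1 b hbB', hb2']; simp
      · rw [hb2 b hbB', hb1']; rcases sg1 b with h | h <;> simp [h]
    have hbb' : bar b = b' := by rw [hb', Finset.mem_singleton] at hbar; exact hbar
    have hdb : d b' = d b := by rw [← hbb', hbd b hbB']
    have hsb : sg b' = sg b := by
      rw [hsg, hsg, ← hbb', hb0 b hbB', hb1 b hbB', hb2 b hbB']
      congr 2
      ring
    rw [ha, hb, hb', hg, ho', he] at k01
    rw [ha, hb, hb', ho'] at e0
    rw [ha, hb, hg, he] at e1
    simp only [Finset.sum_singleton] at k01 e0 e1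
    rw [hdb, hsb, sgo, hdo] at e0 k01
    rw [rq b hbB', rq g hgB, rq e heB] at k01
    have hED : sg e * (d e : ℤ) = 1 + sg b * (d b : ℤ) - sg g * (d g : ℤ) := by
      push_cast at e0
      linarith
    have huv : sg b * (d b : ℤ) = sg g * (d g : ℤ) := by
      apply arith1 (Dne b hbB') (Dne g hgB)
      · rw [← hED]; exact Dne e heB
      · rw [← hED, div_eq_mul_one_div (4 : ℚ), div_eq_mul_one_div (4 : ℚ) ((sg g * (d g : ℤ) : ℤ) : ℚ)]
        generalize 1 / ((sg b * (d b : ℤ) : ℤ) : ℚ) = X at k01 ⊢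
        generalize 1 / ((sg g * (d g : ℤ) : ℤ) : ℚ) = Y at k01 ⊢
        generalize 1 / ((sg e * (d e : ℤ) : ℤ) : ℚ) = Z at k01 ⊢
        generalize (sg a : ℚ) / d a = W at k01
        norm_num at k01
        linarith
      · obtain ⟨m, hm⟩ := hS b hbB'
        rw [hb0', hb1', hb2'] at hm
        rcases sg1 b with h | h
        · rw [h] at hm ⊢; omega
        · rw [h] at hm ⊢; omega
      · obtain ⟨m, hm⟩ := hS g hgB
        rw [hg0, hg1, hg2] at hm
        rcases sg1 g with h | h
        · rw [h] at hm ⊢; omega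
        · rw [h] at hm ⊢; omega
      · intro hneg
        obtain ⟨m, hm⟩ := hS b hbB'
        rw [hb0', hb1', hb2'] at hm
        rcases sg1 b with h | h
        · rw [h] at hneg; omega
        · rw [h] at hm ⊢; omega
    have hde : sg e * (d e : ℤ) = 1 := by rw [hED, huv]; ring
    have hde1 : d e = 1 := by
      rcases sg1 e with h | h
      · rw [h] at hde; omega
      · rw [h] at hde; omega
    apply hone heF _ hde1
    rintro rfl
    rw [h0o] at he0
    exact one_ne_zero he0
  · -- two common constituents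
    have h110 : F true true false = ∅ := Finset.card_eq_zero.1 (by omega)
    have h101 : F true false true = ∅ := Finset.card_eq_zero.1 (by omega)
    have h011 : F false true true = ∅ := Finset.card_eq_zero.1 (by omega)
    have c2' : (F true false false).card = 2 := by omega
    obtain ⟨g, h, hgh, hQ1⟩ := Finset.card_eq_two.1 (show (F false true false).card = 2 by omega)
    obtain ⟨c, hc⟩ := Finset.card_eq_one.1 (show ((F true false false).erase o).card = 1 by
      rw [Finset.card_erase_of_mem hoF, c2'])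
    have hcm : c ∈ (F true false false).erase o := by rw [hc]; exact Finset.mem_singleton_self _
    rw [Finset.mem_erase] at hcm
    obtain ⟨hco, hcF⟩ := hcm
    have sum100 : ∀ {R : Type} [AddCommMonoid R] (φ : I → R),
        ∑ i ∈ F true false false, φ i = φ o + φ c := by
      intro R _ φ
      rw [← Finset.add_sum_erase _ _ hoF, hc, Finset.sum_singleton]
    have hgF : g ∈ F false true false := by rw [hQ1]; simp
    have hhF : h ∈ F false true false := by rw [hQ1]; simp
    rw [h110, h101, h011, sum100, hQ1, Finset.sum_pair hgh] at k01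
    rw [h110, h101, sum100] at e0
    rw [h110, h011, hQ1, Finset.sum_pair hgh] at e1
    simp only [Finset.sum_empty, add_zero, zero_add, mul_zero] at k01 e0 e1
    rw [sgo, hdo] at e0 k01
    rw [rq c (mF hcF).1, rq g (mF hgF).1, rq h (mF hhF).1] at k01
    have hne : ∀ {i}, i ∈ F false true false → i ≠ o := by
      rintro i hi rfl
      have := (mF hi).2.1
      rw [h0o] at this
      simp at this
    have key := arith2 (Dne c (mF hcF).1) (Dne g (mF hgF).1) (Dne h (mF hhF).1)
      (by push_cast at e0; linarith) (by push_cast at k01 ⊢; linarith)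
    rcases key with hk | hk | hk
    · apply hone hcF hco
      rcases sg1 c with h' | h'
      · rw [h'] at hk; omega
      · rw [h'] at hk; omega
    · apply hone hgF (hne hgF)
      rcases sg1 g with h' | h'
      · rw [h'] at hk; omega
      · rw [h'] at hk; omega
    · apply hone hhF (hne hhF)
      rcases sg1 h with h' | h'
      · rw [h'] at hk; omega
      · rw [h'] at hk; omega

end Cfsg.Agent.Lib.H32E8b
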