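import Mathlib
import Cfsg.Agent.Lib.Cores
import Cfsg.Agent.Lib.Fitting
import Cfsg.Agent.Lib.TransferApps2
import Cfsg.Agent.Lib.SmallSimple

/-!
# Solvable groups with a central involution and elementary abelian Sylow 2-subgroup of order 8
(helper32)
-/

set_option autoImplicit false
set_option linter.all false

namespace Cfsg.Agent.Lib.H32E8d

open Cfsg Cfsg.Agent.Lib Subgroup

universe u

section fix

variable {X : Type u} [Group X] [Finite X]

/-- an automorphism of prime order of a group of order 8 with a nontrivial fixed point -/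
theorem fix_aut {V : Type u} [Group V] [Finite V] (h8 : Nat.card V = 8) {a : MulAut V} {q : ℕ}
    [hq : Fact q.Prime] (hq2 : q ≠ 2) (haq : a ^ q = 1) (ha : a ≠ 1) {z : V} (hz1 : z ≠ 1) (hz : a z = z) :
    q = 3 ∧ ∀ v, a v = v → v = 1 ∨ v = z := by
  classical
  have hR : IsPGroup q (zpowers a) := by
    intro x
    refine ⟨1, ?_⟩
    obtain ⟨k, hk⟩ := x.2
    apply Subtype.ext
    rw [pow_one, Subgroup.coe_pow, ← hk]
    show (a ^ k) ^ q = 1
    rw [← zpow_natCast, ← zpow_mul, mul_comm, zpow_mul, zpow_natCast, haq, one_zpow]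
  have hfix : ∀ v, v ∈ TransferApps2.fixedSubgroup (zpowers a) ↔ a v = v := by
    intro v
    rw [TransferApps2.mem_fixedSubgroup]
    constructor
    · intro h; exact h a (mem_zpowers a)
    · intro h b hb
      have h1 : zpowers a ≤ MulAction.stabilizer (MulAut V) v := by
        rw [zpowers_le]; exact h
      exact h1 hb
  obtain ⟨F, hF⟩ : ∃ F, F = TransferApps2.fixedSubgroup (zpowers a) := ⟨_, rfl⟩
  have hmod := TransferApps2.card_modEq_fixedSubgroup (zpowers a) hR
  rw [← hF, h8] at hmod
  rw [← hF] at hfix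
  have hd : Nat.card F ∣ 8 := by rw [← h8]; exact card_subgroup_dvd_card F
  have hd1 : Nat.card F ≠ 1 := by
    intro h
    have h1 := eq_bot_of_card_eq F h
    have h2 := (hfix z).2 hz
    rw [h1, mem_bot] at h2
    exact hz1 h2
  have hd8 : Nat.card F ≠ 8 := by
    intro h
    apply ha
    have h1 : F = ⊤ := eq_top_of_card_eq F (by rw [h, h8])
    ext v
    exact (hfix v).1 (by rw [h1]; trivial)
  have hle : Nat.card F ≤ 8 := Nat.le_of_dvd (by norm_num) hd
  have hdv : q ∣ 8 - Nat.card F := (Nat.modEq_iff_dvd' hle).1 hmod.symm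
  have h24 : Nat.card F = 2 ∨ Nat.card F = 4 := by
    have h8' : Nat.card F ∈ Nat.divisors 8 := Nat.mem_divisors.2 ⟨hd, by norm_num⟩
    have : Nat.divisors 8 = {1, 2, 4, 8} := by decide
    rw [this] at h8'
    simp only [Finset.mem_insert, Finset.mem_singleton] at h8'
    omega
  rcases h24 with h | h
  · rw [h] at hdv
    have hq6 : q ∣ 2 * 3 := by simpa using hdv
    have hq3 : q = 3 := by
      rcases (Nat.Prime.dvd_mul hq.out).1 hq6 with h' | h'
      · exact absurd ((Nat.prime_dvd_prime_iff_eq hq.out Nat.prime_two).1 h') hq2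
      · exact (Nat.prime_dvd_prime_iff_eq hq.out Nat.prime_three).1 h'
    refine ⟨hq3, fun v hv => ?_⟩
    by_contra hcon
    push Not at hcon
    have h3 : ({1, z, v} : Finset V) ⊆ (Set.toFinite (F : Set V)).toFinset := by
      intro x hx
      simp only [Finset.mem_insert, Finset.mem_singleton] at hx
      rw [Set.Finite.mem_toFinset]
      rcases hx with rfl | rfl | rfl
      · exact F.one_mem
      · exact (hfix _).2 hz
      · exact (hfix _).2 hv
    have h4 := Finset.card_le_card h3
    have h5 : (Set.toFinite (F : Set V)).toFinset.card = 2 := by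
      rw [← h, ← Set.ncard_eq_toFinset_card]; rfl
    rw [h5, Finset.card_insert_of_notMem (by
      simp only [Finset.mem_insert, Finset.mem_singleton]; push Not; exact ⟨hz1.symm, hcon.1.symm⟩),
      Finset.card_insert_of_notMem (by simp only [Finset.mem_singleton]; exact hcon.2.symm),
      Finset.card_singleton] at h4
    omega
  · rw [h] at hdv
    have hq4 : q ∣ 2 ^ 2 := by simpa using hdv
    exact absurd ((Nat.prime_dvd_prime_iff_eq hq.out Nat.prime_two).1 (hq.out.dvd_of_dvd_pow hq4)) hq2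

/-- ambient version -/
theorem fix_amb {T : Subgroup X} (h8 : Nat.card T = 8) {x : X} (hxT : x ∈ normalizer (T : Set X))
    (hxC : x ∉ centralizer (T : Set X)) {q : ℕ} [hq : Fact q.Prime] (hq2 : q ≠ 2)
    (hxq : x ^ q ∈ centralizer (T : Set X)) {z : X} (hzT : z ∈ T) (hz1 : z ≠ 1) (hz : x * z = z * x) :
    q = 3 ∧ ∀ v ∈ T, x * v = v * x → v = 1 ∨ v = z := by
  set n : normalizer (T : Set X) := ⟨x, hxT⟩ with hn
  have hker : ∀ m : normalizer (T : Set X), T.normalizerMonoidHom m = 1 ↔
      (m : X) ∈ centralizer (T : Set X) := by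
    intro m
    rw [← MonoidHom.mem_ker, normalizerMonoidHom_ker, mem_subgroupOf]
  have h1 : (T.normalizerMonoidHom n) ^ q = 1 := by
    rw [← map_pow, hker]; exact hxq
  have h2 : T.normalizerMonoidHom n ≠ 1 := by
    rw [Ne, hker]; exact hxC
  have hval : ∀ v : T, ((T.normalizerMonoidHom n v : T) : X) = x * v * x⁻¹ := fun v => rfl
  have hfx : ∀ v : T, T.normalizerMonoidHom n v = v ↔ x * v = v * x := by
    intro v
    rw [← Subtype.coe_inj, hval, mul_inv_eq_iff_eq_mul]
  obtain ⟨h3, h4⟩ := fix_aut h8 hq2 h1 h2 (z := ⟨z, hzT⟩) (fun h => hz1 (congrArg Subtype.val h))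
    ((hfx _).2 hz)
  refine ⟨h3, fun v hv hvx => ?_⟩
  rcases h4 ⟨v, hv⟩ ((hfx _).2 hvx) with h | h
  · left; exact congrArg Subtype.val h
  · right; exact congrArg Subtype.val h

end fix

section quot

variable {X : Type u} [Group X] [Finite X]

theorem normal_sylow [Group.IsSolvable X] (hO : pPrimeCore 2 X = ⊥) (P : Sylow 2 X)
    (hPc : ∀ a ∈ (P : Subgroup X), ∀ b ∈ (P : Subgroup X), a * b = b * a) :
    (P : Subgroup X).Normal ∧ centralizer ((P : Subgroup X) : Set X) ≤ P := by
  have h1 : pCore 2 X ≤ P := Cores.pCore_le_sylow P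
  have h2 : centralizer (pCore 2 X : Set X) ≤ pCore 2 X := Fitting.centralizer_pCore_le_of_solvable 2 hO
  have h3 : (P : Subgroup X) ≤ pCore 2 X := by
    intro a ha
    apply h2
    rw [mem_centralizer_iff]
    intro b hb
    exact hPc b (h1 hb) a ha
  have h4 : (P : Subgroup X) = pCore 2 X := le_antisymm h3 h1
  rw [h4]
  exact ⟨inferInstance, h2⟩

theorem quot_data [Group.IsSolvable X] (hO : pPrimeCore 2 X = ⊥) (P : Sylow 2 X)
    (hPc : ∀ a ∈ (P : Subgroup X), ∀ b ∈ (P : Subgroup X), a * b = b * a)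
    (h8 : Nat.card (P : Subgroup X) = 8) {t : X} (htP : t ∈ (P : Subgroup X)) (ht1 : t ≠ 1)
    (htc : ∀ x, x * t = t * x) {y : X} (hyo : Odd (orderOf y)) {s : X} (hs : s ∈ (P : Subgroup X))
    (hys : y * s ≠ s * y) :
    (P : Subgroup X).Normal ∧ Nat.card X = 24 ∧ Nat.card (centralizer ({y} : Set X)) = 6 ∧ y ^ 3 = 1 ∧
      y ∉ (P : Subgroup X) ∧ ¬ IsConj y y⁻¹ ∧ ∀ u : X, u * u = 1 → u ∈ (P : Subgroup X) := by
  obtain ⟨hPn, hPC⟩ := normal_sylow hO P hPc
  have hPN : ∀ x, x ∈ normalizer ((P : Subgroup X) : Set X) := fun x => by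
    rw [normalizer_eq_top (H := (P : Subgroup X))]; trivial
  have hPc' : (P : Subgroup X) ≤ centralizer ((P : Subgroup X) : Set X) := by
    intro a ha
    rw [mem_centralizer_iff]
    intro b hb
    exact hPc b hb a ha
  have key : ∀ (q : ℕ) (hq : q.Prime), q ≠ 2 → ∀ u : X, u ∉ (P : Subgroup X) → u ^ q = 1 →
      q = 3 ∧ ∀ v ∈ (P : Subgroup X), u * v = v * u → v = 1 ∨ v = t := by
    intro q hq hq2 u hu huq
    have := Fact.mk hq
    exact fix_amb h8 (hPN u) (fun h => hu (hPC h)) hq2 (by rw [huq]; exact one_mem _) htP ht1 (htc u)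
  have hyP : y ∉ (P : Subgroup X) := fun h => hys (hPc y h s hs)
  have hnd : ¬ 2 ∣ (P : Subgroup X).index := P.not_dvd_index
  have hcard : Nat.card X = 8 * (P : Subgroup X).index := by
    rw [← h8, card_mul_index]
  have hord : ∀ q : ℕ, q.Prime → q ≠ 2 → ∀ u : X, orderOf u = q → u ∉ (P : Subgroup X) := by
    intro q hq hq2 u hu h
    have h1 : orderOf (⟨u, h⟩ : (P : Subgroup X)) ∣ 8 := by rw [← h8]; exact orderOf_dvd_natCard _
    rw [Subgroup.orderOf_mk, hu] at h1
    have h2 : q ∣ 2 ^ 3 := by simpa using h1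
    exact hq2 ((Nat.prime_dvd_prime_iff_eq hq Nat.prime_two).1 (hq.dvd_of_dvd_pow h2))
  have hpow := Nat.eq_prime_pow_of_unique_prime_dvd (n := (P : Subgroup X).index) (p := 3)
    (index_ne_zero_of_finite) (by
      intro q hq hqd
      have hq2 : q ≠ 2 := by rintro rfl; exact hnd hqd
      have := Fact.mk hq
      obtain ⟨u, hu⟩ := exists_prime_orderOf_dvd_card' (G := X) q (hqd.trans (Subgroup.index_dvd_card _))
      exact (key q hq hq2 u (hord q hq hq2 u hu) (by rw [← hu, pow_orderOf_eq_one])).1)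
  obtain ⟨k, hk⟩ : ∃ k, k = (P : Subgroup X).index.primeFactorsList.length := ⟨_, rfl⟩
  rw [← hk] at hpow
  have hk1 : k ≠ 0 := by
    rintro rfl
    rw [pow_zero, index_eq_one] at hpow
    exact hyP (by rw [hpow]; trivial)
  -- `k = 1`
  have hk' : k = 1 := by
    have h3 : Fact (Nat.Prime 3) := ⟨Nat.prime_three⟩
    obtain ⟨R⟩ : Nonempty (Sylow 3 X) := inferInstance
    have hR : Nat.card R = 3 ^ k := by
      rw [R.card_eq_multiplicity, hcard, hpow]
      congr 1
      rw [show (8 : ℕ) = 2 ^ 3 by norm_num, Nat.factorization_mul (by norm_num) (pow_ne_zero _ (by norm_num)),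
        Nat.Prime.factorization_pow Nat.prime_two, Nat.Prime.factorization_pow Nat.prime_three]
      simp
    obtain ⟨v, hv, hv1, hvt⟩ : ∃ v ∈ (P : Subgroup X), v ≠ 1 ∧ v ≠ t := by
      by_contra hcon
      push Not at hcon
      have h1 : ((P : Subgroup X) : Set X) ⊆ ({1, t} : Set X) := by
        intro v hv
        by_cases h : v = 1
        · left; exact h
        · right; exact hcon v hv h
      have h2 := Set.ncard_le_ncard h1 (Set.toFinite _)
      have h3 : ((P : Subgroup X) : Set X).ncard = 8 := h8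
      have h4 : ({1, t} : Set X).ncard ≤ 2 := Set.ncard_insert_le _ _ |>.trans (by simp)
      omega
    have hinj : Function.Injective (fun r : R => (⟨(r : X) * v * (r : X)⁻¹, hPn.conj_mem v hv r⟩ :
        (P : Subgroup X))) := by
      intro r r' h
      have h1 : (r : X) * v * (r : X)⁻¹ = (r' : X) * v * (r' : X)⁻¹ := congrArg Subtype.val h
      by_contra hne
      obtain ⟨z, hz⟩ : ∃ z : R, z = r'⁻¹ * r := ⟨_, rfl⟩
      have hz1 : z ≠ 1 := by
        rw [hz]; intro h'; exact hne (inv_mul_eq_one.1 h').symm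
      have hzv : (z : X) * v = v * z := by
        rw [hz, Subgroup.coe_mul, Subgroup.coe_inv]
        have : (r' : X)⁻¹ * ((r : X) * v * (r : X)⁻¹) * r = (r' : X)⁻¹ * ((r' : X) * v * (r' : X)⁻¹) * r := by
          rw [h1]
        calc (r' : X)⁻¹ * r * v = (r' : X)⁻¹ * ((r : X) * v * (r : X)⁻¹) * r := by group
          _ = _ := this
          _ = _ := by group
      -- a power of order 3
      have h3z : 3 ∣ orderOf (z : X) := by
        rw [Subgroup.orderOf_coe]
        exact R.isPGroup'.dvd_orderOf hz1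
      have hu : orderOf ((z : X) ^ (orderOf (z : X) / 3)) = 3 :=
        orderOf_pow_orderOf_div (orderOf_pos _).ne' h3z
      have huv : (z : X) ^ (orderOf (z : X) / 3) * v = v * (z : X) ^ (orderOf (z : X) / 3) :=
        (Commute.pow_left (show Commute (z : X) v from hzv) _).eq
      rcases (key 3 Nat.prime_three (by norm_num) _ (hord 3 Nat.prime_three (by norm_num) _ hu)
        (orderOf_dvd_iff_pow_eq_one.1 (by rw [hu]))).2 v hv huv with h | h
      · exact hv1 h
      · exact hvt h
    have hle := Nat.card_le_card_of_injective _ hinj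
    rw [h8, show Nat.card ↥R = 3 ^ k from hR] at hle
    have h2 : k < 2 := by
      by_contra h
      have : 3 ^ 2 ≤ 3 ^ k := Nat.pow_le_pow_right (by norm_num) (by omega)
      omega
    omega
  rw [hk', pow_one] at hpow
  have h24 : Nat.card X = 24 := by rw [hcard, hpow]
  have hP3 : ∀ u : X, u ^ 3 ∈ (P : Subgroup X) := by
    intro u
    rw [← hpow]
    exact Subgroup.pow_index_mem _ _
  have hy3 : y ^ 3 = 1 := by
    have h1 : (y ^ 3) ^ 8 = 1 := by
      have h2 : (⟨y ^ 3, hP3 y⟩ : (P : Subgroup X)) ^ 8 = 1 := by rw [← h8]; exact pow_card_eq_one'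
      exact congrArg Subtype.val h2
    rw [← pow_mul] at h1
    have h2 : orderOf y ∣ 3 * 8 := orderOf_dvd_of_pow_eq_one h1
    have h3 : Nat.Coprime (orderOf y) 8 := by
      rw [show (8 : ℕ) = 2 ^ 3 by norm_num]
      exact Nat.Coprime.pow_right _ (Nat.coprime_two_right.2 hyo)
    exact orderOf_dvd_iff_pow_eq_one.1 (h3.dvd_of_dvd_mul_right h2)
  have hyfix := (key 3 Nat.prime_three (by norm_num) y hyP hy3).2
  refine ⟨hPn, h24, ?_, hy3, hyP, ?_, ?_⟩
  · have h1 : (P : Subgroup X).relIndex (centralizer ({y} : Set X)) ∣ 3 := by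
      rw [← hpow]; exact relIndex_dvd_index_of_normal _ _
    have h2 : (P : Subgroup X).relIndex (centralizer ({y} : Set X)) ≠ 1 := by
      intro h
      rw [relIndex_eq_one] at h
      exact hyP (h (mem_centralizer_singleton_iff.2 rfl))
    have h3 : (P : Subgroup X).relIndex (centralizer ({y} : Set X)) = 3 :=
      ((Nat.dvd_prime Nat.prime_three).1 h1).resolve_left h2
    have h4 : Nat.card ↥((P : Subgroup X) ⊓ centralizer ({y} : Set X)) = 2 := by
      have h5 : (((P : Subgroup X) ⊓ centralizer ({y} : Set X) : Subgroup X) : Set X) = {1, t} := by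
        ext v
        simp only [SetLike.mem_coe, mem_inf, mem_centralizer_singleton_iff, Set.mem_insert_iff,
          Set.mem_singleton_iff]
        constructor
        · rintro ⟨hv, hvy⟩
          exact hyfix v hv hvy.symm
        · rintro (rfl | rfl)
          · exact ⟨one_mem _, by rw [one_mul, mul_one]⟩
          · exact ⟨htP, (htc y).symm⟩
      have h6 : (((P : Subgroup X) ⊓ centralizer ({y} : Set X) : Subgroup X) : Set X).ncard = 2 := by
        rw [h5]; exact Set.ncard_pair ht1.symm
      exact h6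
    rw [← SmallSimple.relIndex_mul_card_inf (P : Subgroup X) (centralizer ({y} : Set X)), h3, h4]
  · intro hc
    obtain ⟨b, hb⟩ := isConj_iff.1 hc
    have hcomm : ∀ p q : X ⧸ (P : Subgroup X), p * q = q * p := by
      have h1 : Nat.card (X ⧸ (P : Subgroup X)) = 3 := by
        rw [← hpow]; rfl
      have := Fact.mk Nat.prime_three
      have hcyc : IsCyclic (X ⧸ (P : Subgroup X)) := isCyclic_of_prime_card h1
      intro p q
      letI := hcyc.commGroup
      exact mul_comm p q
    have h1 : (b * y * b⁻¹ : X) * y⁻¹ ∈ (P : Subgroup X) := by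
      rw [← QuotientGroup.eq_one_iff]
      have h2 := hcomm (b : X ⧸ (P : Subgroup X)) (y : X ⧸ (P : Subgroup X))
      rw [QuotientGroup.mk_mul, QuotientGroup.mk_mul, QuotientGroup.mk_mul, h2, QuotientGroup.mk_inv,
        QuotientGroup.mk_inv]
      group
    rw [hb] at h1
    apply hyP
    have h2 : y = y ^ 3 * (y⁻¹ * y⁻¹) := by group
    rw [h2]
    exact mul_mem (hP3 y) h1
  · intro u hu
    have : u = u ^ 3 := by
      rw [pow_succ, sq, hu, one_mul]
    rw [this]
    exact hP3 u

end quot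

end Cfsg.Agent.Lib.H32E8d
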