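import Mathlib

/-!
# Rank of the reduction of a matrix, rank of `1 - P` for an involutory permutation (helper32)
-/

set_option autoImplicit false

namespace Cfsg.Agent.Lib.H32Sig1

open Matrix

theorem rank_triple_le {K : Type*} [Field K] {l m n o : Type*} [Fintype l] [Fintype m] [Fintype n] [Fintype o]
    (L : Matrix l m K) (A : Matrix m n K) (C : Matrix n o K) : (L * A * C).rank ≤ A.rank :=
  (Matrix.rank_mul_le_left _ _).trans (Matrix.rank_mul_le_right _ _)

theorem exists_triple {F : Type*} [Field F] {m n : Type*} [Fintype m] [Fintype n] [DecidableEq m] [DecidableEq n]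
    (A : Matrix m n F) : ∃ (L : Matrix (Fin A.rank) m F) (C : Matrix n (Fin A.rank) F), L * A * C = 1 := by
  classical
  let b := Module.finBasis F (LinearMap.range A.mulVecLin)
  have hc : ∀ i, ∃ c : n → F, A.mulVec c = ((b i : LinearMap.range A.mulVecLin) : m → F) := by
    intro i
    obtain ⟨c, hc⟩ := (b i).2
    exact ⟨c, hc⟩
  choose c hc using hc
  let C : Matrix n (Fin A.rank) F := Matrix.of fun j i => c i j
  have hW : ∀ i, (A * C).col i = ((b i : LinearMap.range A.mulVecLin) : m → F) := by
    intro i
    rw [← hc i]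
    funext j
    simp only [Matrix.col, Matrix.mul_apply, Matrix.mulVec, dotProduct, Matrix.of_apply, C, Matrix.transpose_apply]
  have hli : LinearIndependent F (A * C).col := by
    have h1 : (A * C).col = fun i => ((b i : LinearMap.range A.mulVecLin) : m → F) := funext hW
    rw [h1]
    exact b.linearIndependent.map' (LinearMap.range A.mulVecLin).subtype (Submodule.ker_subtype _)
  have hinj : Function.Injective (A * C).mulVec := Matrix.mulVec_injective_iff.2 hli
  obtain ⟨g, hg⟩ := LinearMap.exists_leftInverse_of_injective (A * C).mulVecLin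
    (LinearMap.ker_eq_bot.2 hinj)
  refine ⟨LinearMap.toMatrix' g, C, ?_⟩
  have h2 := congrArg LinearMap.toMatrix' hg
  rw [LinearMap.toMatrix'_comp, LinearMap.toMatrix'_id] at h2
  have h3 : LinearMap.toMatrix' (A * C).mulVecLin = A * C := LinearMap.toMatrix'_toLin' (A * C)
  rw [h3] at h2
  rw [Matrix.mul_assoc]
  exact h2

theorem rank_map_le {R K F : Type*} [CommRing R] [Field K] [Field F] (φ : R →+* K) (ψ : R →+* F)
    (hψ : Function.Surjective ψ) (h : ∀ r, φ r = 0 → ψ r = 0) {m n : Type*} [Fintype m] [Fintype n]
    [DecidableEq m] [DecidableEq n] (A : Matrix m n R) : (A.map ψ).rank ≤ (A.map φ).rank := by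
  classical
  obtain ⟨r, hr⟩ : ∃ r, r = (A.map ψ).rank := ⟨_, rfl⟩
  obtain ⟨L, C, hLC⟩ : ∃ (L : Matrix (Fin r) m F) (C : Matrix n (Fin r) F), L * (A.map ψ) * C = 1 := by
    rw [hr]; exact exists_triple (A.map ψ)
  let L' : Matrix (Fin r) m R := L.map (Function.surjInv hψ)
  let C' : Matrix n (Fin r) R := C.map (Function.surjInv hψ)
  have hL' : L'.map ψ = L := by
    ext i j; simp [L', Function.surjInv_eq hψ]
  have hC' : C'.map ψ = C := by
    ext i j; simp [C', Function.surjInv_eq hψ]
  have h1 : (L' * A * C').map ψ = 1 := by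
    rw [Matrix.map_mul, Matrix.map_mul, hL', hC', hLC]
  have h2 : ψ (L' * A * C').det = 1 := by
    rw [RingHom.map_det]
    have : (RingHom.mapMatrix ψ) (L' * A * C') = 1 := h1
    rw [this, Matrix.det_one]
  have h3 : φ (L' * A * C').det ≠ 0 := by
    intro h0
    rw [h _ h0] at h2
    exact zero_ne_one h2
  have h4 : ((L' * A * C').map φ).det ≠ 0 := by
    rw [RingHom.map_det] at h3
    exact h3
  have h5 : ((L' * A * C').map φ).rank = r := by
    rw [Matrix.rank_of_isUnit _ ((Matrix.isUnit_iff_isUnit_det _).2 (isUnit_iff_ne_zero.2 h4)), Fintype.card_fin]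
  rw [Matrix.map_mul, Matrix.map_mul] at h5
  rw [← hr, ← h5]
  exact rank_triple_le _ _ _

/-- the matrix `1 - P_π` -/
def oneSub (K : Type*) [Field K] {Y : Type*} [DecidableEq Y] (π : Y → Y) : Matrix Y Y K :=
  Matrix.of fun i j => (if i = j then 1 else 0) - (if π i = j then 1 else 0)

theorem oneSub_mulVec (K : Type*) [Field K] {Y : Type*} [Fintype Y] [DecidableEq Y] (π : Y → Y) (f : Y → K) (y : Y) :
    (oneSub K π).mulVec f y = f y - f (π y) := by
  simp [oneSub, Matrix.mulVec, dotProduct, sub_mul, Finset.sum_sub_distrib]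

theorem oneSub_mul_apply (K : Type*) [Field K] {Y : Type*} [Fintype Y] [DecidableEq Y] {n : Type*} (π : Y → Y)
    (A : Matrix Y n K) (y : Y) (j : n) : (oneSub K π * A) y j = A y j - A (π y) j := by
  simp [oneSub, Matrix.mul_apply, sub_mul, Finset.sum_sub_distrib]

theorem two_mul_rank (K : Type*) [Field K] {Y : Type*} [Fintype Y] [DecidableEq Y] (π : Y → Y)
    (hπ : ∀ y, π (π y) = y) :
    2 * (oneSub K π).rank + (Finset.univ.filter fun y => π y = y).card = Fintype.card Y := by
  classical
  let e : Y → ℕ := fun y => (Fintype.equivFin Y y : ℕ)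
  have he : ∀ a b, e a = e b → a = b := fun a b h => (Fintype.equivFin Y).injective (Fin.ext h)
  let P : Finset Y := Finset.univ.filter fun y => e y < e (π y)
  let N : Finset Y := Finset.univ.filter fun y => e (π y) < e y
  let Fx : Finset Y := Finset.univ.filter fun y => π y = y
  have hPN : P.card = N.card := by
    apply Finset.card_bij (fun y _ => π y)
    · intro y hy
      simp only [P, N, Finset.mem_filter, Finset.mem_univ, true_and] at hy ⊢
      rw [hπ]; exact hy
    · intro a _ b _ h
      rw [← hπ a, h, hπ]
    · intro b hb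
      refine ⟨π b, ?_, hπ b⟩
      simp only [P, N, Finset.mem_filter, Finset.mem_univ, true_and] at hb ⊢
      rw [hπ]; exact hb
  have hcard : Fintype.card Y = P.card + N.card + Fx.card := by
    have h1 : (Finset.univ : Finset Y) = (P ∪ N) ∪ Fx := by
      ext y
      simp only [P, N, Fx, Finset.mem_univ, Finset.mem_union, Finset.mem_filter, true_and, true_iff]
      rcases lt_trichotomy (e y) (e (π y)) with h | h | h
      · left; left; exact h
      · right; exact (he _ _ h).symm
      · left; right; exact h
    rw [← Finset.card_univ, h1, Finset.card_union_of_disjoint, Finset.card_union_of_disjoint]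
    · rw [Finset.disjoint_left]
      intro y hy hy'
      simp only [P, N, Finset.mem_filter, Finset.mem_univ, true_and] at hy hy'
      omega
    · rw [Finset.disjoint_left]
      intro y hy hy'
      simp only [P, N, Fx, Finset.mem_filter, Finset.mem_univ, true_and, Finset.mem_union] at hy hy'
      rw [hy'] at hy
      omega
  have hle : (oneSub K π).rank ≤ P.card := by
    let V : Matrix P Y K := Matrix.of fun i j => oneSub K π (i : Y) j
    let U : Matrix Y P K := Matrix.of fun i j => (if i = (j : Y) then 1 else 0) - (if π i = (j : Y) then 1 else 0)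
    have hUV : oneSub K π = U * V := by
      ext y j
      rw [Matrix.mul_apply]
      have h1 : ∀ (z : Y) , (∑ x : P, (if z = (x : Y) then (1 : K) else 0) * oneSub K π (x : Y) j) =
          if z ∈ P then oneSub K π z j else 0 := by
        intro z
        by_cases hz : z ∈ P
        · rw [if_pos hz, Finset.sum_eq_single (⟨z, hz⟩ : P)]
          · simp
          · intro b _ hb
            rw [if_neg, zero_mul]
            rintro rfl
            exact hb rfl
          · simp
        · rw [if_neg hz]
          apply Finset.sum_eq_zero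
          intro x _
          rw [if_neg, zero_mul]
          rintro rfl
          exact hz x.2
      simp only [U, V, Matrix.of_apply, sub_mul, Finset.sum_sub_distrib]
      rw [h1, h1]
      by_cases hy : y ∈ P
      · have hy2 : π y ∉ P := by
          simp only [P, Finset.mem_filter, Finset.mem_univ, true_and] at hy ⊢
          rw [hπ]; omega
        rw [if_pos hy, if_neg hy2, sub_zero]
      · rw [if_neg hy, zero_sub]
        by_cases hy2 : π y ∈ P
        · rw [if_pos hy2]
          simp only [oneSub, Matrix.of_apply, hπ]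
          ring
        · rw [if_neg hy2]
          have hfix : π y = y := by
            simp only [P, Finset.mem_filter, Finset.mem_univ, true_and, hπ] at hy hy2
            exact he _ _ (by omega)
          simp [oneSub, hfix]
    rw [hUV]
    refine (Matrix.rank_mul_le_left _ _).trans ?_
    refine (Matrix.rank_le_card_width _).trans ?_
    rw [Fintype.card_coe]
  have hge : P.card ≤ (oneSub K π).rank := by
    let L : Matrix P Y K := Matrix.of fun i j => if (i : Y) = j then 1 else 0
    let C : Matrix Y P K := Matrix.of fun i j => if i = (j : Y) then 1 else 0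
    have h1 : L * oneSub K π * C = 1 := by
      ext i j
      rw [Matrix.mul_assoc, Matrix.mul_apply]
      have h2 : ∀ x : Y, (oneSub K π * C) x j = C x j - C (π x) j := fun x => oneSub_mul_apply K π C x j
      simp only [h2, L, C, Matrix.of_apply, ite_mul, one_mul, zero_mul, Finset.sum_ite_eq, Finset.mem_univ, if_true]
      have hi : π (i : Y) ∉ P := by
        have := i.2
        simp only [P, Finset.mem_filter, Finset.mem_univ, true_and] at this ⊢
        rw [hπ]; omega
      rw [if_neg (c := π (i : Y) = (j : Y)), sub_zero]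
      · rw [Matrix.one_apply]
        by_cases hij : i = j
        · rw [if_pos hij, if_pos (by rw [hij])]
        · rw [if_neg hij, if_neg (fun h => hij (Subtype.ext h))]
      · intro h
        rw [h] at hi
        exact hi j.2
    have h3 := rank_triple_le L (oneSub K π) C
    rw [h1, Matrix.rank_one, Fintype.card_coe] at h3
    exact h3
  have : (oneSub K π).rank = P.card := le_antisymm hle hge
  rw [this, hcard]
  have : Fx = Finset.univ.filter fun y => π y = y := rfl
  rw [← this]
  omega

theorem rank_split {F : Type*} [Field F] {X : Type*} [Fintype X] [DecidableEq X] (A E : Matrix X X F) :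
    A.rank ≤ (A * E).rank + (A * (1 - E)).rank := by
  have h1 : LinearMap.range A.mulVecLin ≤
      LinearMap.range (A * E).mulVecLin ⊔ LinearMap.range (A * (1 - E)).mulVecLin := by
    rintro _ ⟨x, rfl⟩
    have h2 : A.mulVecLin x = (A * E).mulVecLin x + (A * (1 - E)).mulVecLin x := by
      rw [Matrix.mulVecLin_apply, Matrix.mulVecLin_apply, Matrix.mulVecLin_apply, ← Matrix.add_mulVec,
        Matrix.mul_sub, Matrix.mul_one, add_sub_cancel]
    rw [h2]
    exact Submodule.add_mem_sup ⟨x, rfl⟩ ⟨x, rfl⟩
  exact (Submodule.finrank_mono h1).trans (Submodule.finrank_add_le_finrank_add_finrank _ _)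

theorem key {F : Type*} [Field F] (h2F : (2 : F) = 0) {X : Type*} [Fintype X] [DecidableEq X] (s : X → X)
    (hs : ∀ K, s (s K) = K) (Eb : Matrix X X F) (hSEb : oneSub F s * Eb = Eb * oneSub F s) (n : ℕ)
    (hr1 : Eb.rank ≤ n) (hr2 : n ≤ 2 * (oneSub F s * Eb).rank) (v : X → F)
    (j : X) (hvj : ∀ K, v K = Eb K j) (hvs : ∀ K, v (s K) = v K) :
    ∃ u : X → F, ∀ K, v K = u K - u (s K) := by
  have hvW : v ∈ LinearMap.range Eb.mulVecLin := by
    refine ⟨Pi.single j 1, ?_⟩
    funext K
    rw [Matrix.mulVecLin_apply, Matrix.mulVec_single_one, hvj]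
    rfl
  let W : Submodule F (X → F) := LinearMap.range Eb.mulVecLin
  let T : (X → F) →ₗ[F] (X → F) := (oneSub F s).mulVecLin
  have hTW : ∀ w ∈ W, T w ∈ W := by
    rintro _ ⟨x, rfl⟩
    refine ⟨T x, ?_⟩
    show Eb.mulVec ((oneSub F s).mulVec x) = (oneSub F s).mulVec (Eb.mulVec x)
    rw [Matrix.mulVec_mulVec, Matrix.mulVec_mulVec, hSEb]
  let TW : W →ₗ[F] W := T.restrict hTW
  have hTT : ∀ x, T (T x) = 0 := by
    intro x
    funext K
    show (oneSub F s).mulVec ((oneSub F s).mulVec x) K = 0
    rw [oneSub_mulVec, oneSub_mulVec, oneSub_mulVec, hs]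
    linear_combination (x K - x (s K)) * h2F
  have hdimW : Module.finrank F W ≤ n := hr1
  have hrTW : n ≤ 2 * Module.finrank F (LinearMap.range TW) := by
    have h1 : Module.finrank F (LinearMap.range TW) = (oneSub F s * Eb).rank := by
      have h2 : (LinearMap.range TW).map W.subtype = LinearMap.range (oneSub F s * Eb).mulVecLin := by
        ext v
        constructor
        · rintro ⟨w, ⟨⟨w', ⟨x, rfl⟩⟩, rfl⟩, rfl⟩
          refine ⟨x, ?_⟩
          show (oneSub F s * Eb).mulVec x = (oneSub F s).mulVec (Eb.mulVec x)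
          rw [Matrix.mulVec_mulVec]
        · rintro ⟨x, rfl⟩
          refine ⟨TW ⟨Eb.mulVec x, ⟨x, rfl⟩⟩, ⟨_, rfl⟩, ?_⟩
          show (oneSub F s).mulVec (Eb.mulVec x) = (oneSub F s * Eb).mulVec x
          rw [Matrix.mulVec_mulVec]
      rw [Matrix.rank, ← h2]
      exact (Submodule.finrank_map_subtype_eq W (LinearMap.range TW)).symm
    rw [h1]; exact hr2
  have hker : LinearMap.range TW ≤ LinearMap.ker TW := by
    rintro _ ⟨w, rfl⟩
    rw [LinearMap.mem_ker]
    apply Subtype.ext
    exact hTT _
  have hrn := LinearMap.finrank_range_add_finrank_ker TW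
  have hker_eq : LinearMap.range TW = LinearMap.ker TW := by
    apply Submodule.eq_of_le_of_finrank_le hker
    omega
  have hvT : (⟨v, hvW⟩ : W) ∈ LinearMap.ker TW := by
    rw [LinearMap.mem_ker]
    apply Subtype.ext
    funext K
    show (oneSub F s).mulVec v K = 0
    rw [oneSub_mulVec, hvs, sub_self]
  rw [← hker_eq] at hvT
  obtain ⟨u, hu⟩ := hvT
  refine ⟨u, fun K => ?_⟩
  have h1 := congrArg (fun w : W => (w : X → F) K) hu
  rw [← oneSub_mulVec F s (u : X → F) K]
  exact h1.symm

end Cfsg.Agent.Lib.H32Sig1
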