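import Cfsg.Prelude
import Cfsg.Agent.Lib.H32Sig1
import Cfsg.Agent.Lib.BlockPow
import Cfsg.Agent.Lib.BlockAlg
import Cfsg.Agent.Lib.BlockIdem

/-!
# A `2`-block stable under an involutory power map contains a fixed character (helper32)
-/

set_option autoImplicit false

namespace Cfsg.Agent.Lib.H32Sig2

open Cfsg Cfsg.Agent.Lib.BlockRing Cfsg.Agent.Lib.BlockGA Cfsg.Agent.Lib.BlockIdem
open Cfsg.Agent.Lib.BlockAlg Cfsg.Agent.Lib.BlockPow Cfsg.Agent.Lib.CharBasic
open Cfsg.Agent.Lib.H32Sig1
open scoped ComplexConjugate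

universe u

theorem sum_sub_comp {F : Type*} [Field F] {X : Type*} [Fintype X] (s : X → X) (hs : ∀ K, s (s K) = K)
    (f : X → F) : ∑ K : X, (f K - f (s K)) = 0 := by
  let e : Equiv.Perm X := ⟨s, s, hs, hs⟩
  have h2 := Equiv.sum_comp e f
  have h3 : ∑ K : X, f (s K) = ∑ K : X, f K := h2
  rw [Finset.sum_sub_distrib, h3, sub_self]

section red

variable {M : Ideal AlgInt} [hMm : M.IsMaximal]

theorem red_zero' : red M (0 : ℂ) = 0 := red_eq_zero idl_zero

theorem red_one' : red M (1 : ℂ) = 1 := by
  have h := red_coe (M := M) (1 : AlgInt)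
  rw [map_one] at h
  exact_mod_cast h

/-- reduction as a ring homomorphism -/
noncomputable def redHom (M : Ideal AlgInt) [M.IsMaximal] : locRing M →+* Kf M where
  toFun z := red M (z : ℂ)
  map_one' := by
    show red M ((1 : locRing M) : ℂ) = 1
    rw [OneMemClass.coe_one]; exact red_one'
  map_mul' z w := red_mul z.2 w.2
  map_zero' := by
    show red M ((0 : locRing M) : ℂ) = 0
    rw [ZeroMemClass.coe_zero]; exact red_zero'
  map_add' z w := red_add z.2 w.2

theorem redHom_apply (z : locRing M) : redHom M z = red M (z : ℂ) := rfl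

theorem redHom_surjective : Function.Surjective (redHom M) := fun c =>
  ⟨⟨lft c, loc_lft c⟩, red_lft c⟩

variable {m n o : Type*} [Fintype m] [Fintype n] [Fintype o] [DecidableEq m] [DecidableEq n] [DecidableEq o]

/-- a local valued matrix over the local ring -/
def toLoc (A : Matrix m n ℂ) (hA : ∀ i j, MemLocalRing M (A i j)) : Matrix m n (locRing M) :=
  Matrix.of fun i j => ⟨A i j, hA i j⟩

omit [Fintype m] [Fintype n] [DecidableEq m] [DecidableEq n] in
theorem toLoc_red (A : Matrix m n ℂ) (hA : ∀ i j, MemLocalRing M (A i j)) :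
    (toLoc A hA).map (redHom M) = A.map (red M) := rfl

omit [Fintype m] [Fintype n] [DecidableEq m] [DecidableEq n] in
theorem toLoc_sub (A : Matrix m n ℂ) (hA : ∀ i j, MemLocalRing M (A i j)) :
    (toLoc A hA).map (locRing M).subtype = A := rfl

theorem rank_red_le (A : Matrix m n ℂ) (hA : ∀ i j, MemLocalRing M (A i j)) :
    (A.map (red M)).rank ≤ A.rank := by
  have h := rank_map_le (locRing M).subtype (redHom M) redHom_surjective
    (fun r hr => by
      have h0 : (r : ℂ) = 0 := hr
      rw [redHom_apply, h0, red_zero']) (toLoc A hA)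
  rw [toLoc_red, toLoc_sub] at h
  exact h

theorem red_mul_mat (A : Matrix m n ℂ) (hA : ∀ i j, MemLocalRing M (A i j)) (B : Matrix n o ℂ)
    (hB : ∀ i j, MemLocalRing M (B i j)) :
    (A * B).map (red M) = A.map (red M) * B.map (red M) := by
  ext i j
  rw [Matrix.map_apply, Matrix.mul_apply, Matrix.mul_apply, red_sum fun k _ => loc_mul (hA i k) (hB k j)]
  exact Finset.sum_congr rfl fun k _ => red_mul (hA i k) (hB k j)

theorem red_oneSub {Y : Type*} [DecidableEq Y] (π : Y → Y) :
    (oneSub ℂ π).map (red M) = oneSub (Kf M) π := by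
  have := hMm.isPrime
  ext i j
  rw [Matrix.map_apply]
  simp only [oneSub, Matrix.of_apply]
  rw [red_sub (by split_ifs; exacts [loc_one, loc_zero]) (by split_ifs; exacts [loc_one, loc_zero])]
  congr 1
  · split_ifs
    · exact red_one'
    · exact red_zero'
  · split_ifs
    · exact red_one'
    · exact red_zero'

theorem loc_oneSub {Y : Type*} [DecidableEq Y] (π : Y → Y) (i j : Y) : MemLocalRing M (oneSub ℂ π i j) := by
  have := hMm.isPrime
  simp only [oneSub, Matrix.of_apply]
  apply loc_sub <;> split_ifs <;> first | exact loc_one | exact loc_zero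

end red

section main

variable {G : Type u} [Group G] [Finite G] {M : Ideal AlgInt}

open scoped Classical in
theorem coeff_eq_sum {z : GA G} (hz : z ∈ Subalgebra.center ℂ (GA G)) (g : G) :
    z.coeff g = ∑ χ : IrrCharacter G, ((Nat.card G : ℂ)⁻¹ * ((χ : G → ℂ) 1 * conj ((χ : G → ℂ) g))) *
      omega (χ : G → ℂ) z := by
  have h : z = ∑ χ : IrrCharacter G, omega (χ : G → ℂ) z • eB {χ} := by
    apply center_ext hz
    · exact Subalgebra.sum_mem _ fun χ _ => Subalgebra.smul_mem _ (eB_mem_center _) _
    · intro ψ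
      rw [omega_sum, Finset.sum_eq_single ψ]
      · rw [omega_smul, omega_eB_mem (Set.mem_singleton ψ), mul_one]
      · intro χ _ hχ
        rw [omega_smul, omega_eB_not_mem (by simpa using Ne.symm hχ), mul_zero]
      · intro h; exact absurd (Finset.mem_univ _) h
  conv_lhs => rw [h]
  rw [coeff_finset_sum]
  refine Finset.sum_congr rfl fun χ _ => ?_
  rw [MonoidAlgebra.coeff_smul, Finsupp.smul_apply, coeff_eB, blockCoeff_eq_sum, smul_eq_mul]
  rw [Finset.sum_eq_single χ]
  · rw [if_pos (Set.mem_singleton χ)]; ring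
  · intro ψ _ hψ
    rw [if_neg (by simpa using hψ)]
  · intro h; exact absurd (Finset.mem_univ _) h

/-- class power map -/
noncomputable def clsPow (k : ℕ) (K : ConjClasses G) : ConjClasses G := ConjClasses.mk (Quotient.out K ^ k)

omit [Finite G] in
theorem mk_out (K : ConjClasses G) : ConjClasses.mk (Quotient.out K) = K := Quotient.out_eq K

omit [Finite G] in
theorem isConj_pow {g h : G} (k : ℕ) (hc : IsConj g h) : IsConj (g ^ k) (h ^ k) := by
  obtain ⟨c, hc⟩ := isConj_iff.1 hc
  rw [isConj_iff]
  exact ⟨c, by rw [← hc, conj_pow]⟩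

omit [Finite G] in
theorem clsPow_mk (k : ℕ) (g : G) : clsPow k (ConjClasses.mk g) = ConjClasses.mk (g ^ k) := by
  rw [clsPow, ConjClasses.mk_eq_mk_iff_isConj]
  apply isConj_pow
  rw [← ConjClasses.mk_eq_mk_iff_isConj, mk_out]

omit [Finite G] in
theorem out_clsPow (k : ℕ) (K : ConjClasses G) : IsConj (Quotient.out (clsPow k K)) (Quotient.out K ^ k) := by
  rw [← ConjClasses.mk_eq_mk_iff_isConj, mk_out, ← clsPow_mk, mk_out]

omit [Finite G] in
theorem clsPow_invol {k : ℕ} (hk2 : ∀ g : G, (g ^ k) ^ k = g) (K : ConjClasses G) :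
    clsPow k (clsPow k K) = K := by
  obtain ⟨g, rfl⟩ := ConjClasses.mk_surjective K
  rw [clsPow_mk, clsPow_mk, hk2]

open scoped Classical in
/-- **A `2`-block stable under the power map `g ↦ g^k`, `k² ≡ 1`, contains a fixed character.** -/
theorem exists_fixed (hM : IsPModular 2 M) {k : ℕ} (hk : k.Coprime (Nat.card G))
    (hk2 : ∀ g : G, (g ^ k) ^ k = g) {B : Set (IrrCharacter G)} (hB : IsPBlock M B)
    (hst : ∀ χ ∈ B, powIrr hk χ ∈ B) : ∃ χ ∈ B, powIrr hk χ = χ := by
  by_contra hno
  push Not at hno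
  haveI := Fintype.ofFinite G
  haveI hMm := isMax hM
  haveI hMp := isPrime hM
  haveI : Fintype (ConjClasses G) := Fintype.ofFinite _
  let X := ConjClasses G
  let I := IrrCharacter G
  let σ : I → I := powIrr hk
  have hσ : ∀ χ, σ (σ χ) = χ := fun χ => by
    apply Subtype.ext
    funext g
    show (χ : G → ℂ) ((g ^ k) ^ k) = (χ : G → ℂ) g
    rw [hk2]
  have hstiff : ∀ χ, σ χ ∈ B ↔ χ ∈ B := fun χ =>
    ⟨fun h => by have := hst _ h; rwa [show powIrr hk (σ χ) = χ from hσ χ] at this, hst χ⟩
  let s : X → X := clsPow k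
  have hs : ∀ K, s (s K) = K := clsPow_invol hk2
  let U : Matrix X I ℂ := Matrix.of fun K χ =>
    (Nat.card G : ℂ)⁻¹ * ((χ : G → ℂ) 1 * conj ((χ : G → ℂ) (Quotient.out K)))
  let V : Matrix I X ℂ := Matrix.of fun χ L => centralChar (χ : G → ℂ) (Quotient.out L)
  -- U * V = 1
  have hUV : U * V = 1 := by
    ext K L
    rw [Matrix.mul_apply]
    have h1 := coeff_eq_sum (classSum_mem_center (Quotient.out L : G)) (Quotient.out K)
    have h2 : ∑ χ : I, U K χ * V χ L = (classSum (Quotient.out L : G)).coeff (Quotient.out K) := by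
      rw [h1]
      refine Finset.sum_congr rfl fun χ _ => ?_
      rw [omega_classSum χ.2.isClassFunction]
      rfl
    rw [h2, Matrix.one_apply, coeff_classSum]
    by_cases h : K = L
    · rw [if_pos h, if_pos (by rw [h])]
    · rw [if_neg h, if_neg]
      intro hc
      apply h
      rw [← ConjClasses.mk_eq_mk_iff_isConj, mk_out, mk_out] at hc
      exact hc.symm
  have hcard : Fintype.card X = Fintype.card I := by
    have h1 := CharBasic.card_irr (G := G)
    rw [← Nat.card_eq_fintype_card, ← Nat.card_eq_fintype_card]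
    exact h1.symm
  have hVU : V * U = 1 := (Matrix.mul_eq_one_comm_of_equiv (Fintype.equivOfCardEq hcard)).1 hUV
  -- intertwining
  have hU : ∀ K χ, U (s K) χ = U K (σ χ) := by
    intro K χ
    show (Nat.card G : ℂ)⁻¹ * ((χ : G → ℂ) 1 * conj ((χ : G → ℂ) (Quotient.out (clsPow k K)))) =
      (Nat.card G : ℂ)⁻¹ * ((χ : G → ℂ) (1 ^ k) * conj ((χ : G → ℂ) (Quotient.out K ^ k)))
    rw [one_pow, χ.2.isClassFunction.conj_eq (out_clsPow k K)]
  have hSU : oneSub ℂ s * U = U * oneSub ℂ σ := by
    ext K χ
    rw [oneSub_mul_apply, hU, Matrix.mul_apply]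
    have h1 : ∑ ψ : I, U K ψ * (if ψ = χ then 1 else 0) = U K χ := by
      rw [Finset.sum_eq_single χ]
      · rw [if_pos rfl, mul_one]
      · intro ψ _ hψ
        rw [if_neg hψ, mul_zero]
      · intro h; exact absurd (Finset.mem_univ _) h
    have h2 : ∑ ψ : I, U K ψ * (if σ ψ = χ then 1 else 0) = U K (σ χ) := by
      rw [Finset.sum_eq_single (σ χ)]
      · rw [if_pos (hσ χ), mul_one]
      · intro ψ _ hψ
        rw [if_neg, mul_zero]
        rintro rfl
        exact hψ (hσ ψ).symm
      · intro h; exact absurd (Finset.mem_univ _) h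
    rw [← h1, ← h2, ← Finset.sum_sub_distrib]
    refine Finset.sum_congr rfl fun ψ _ => ?_
    simp only [oneSub, Matrix.of_apply]
    rw [mul_sub]
  -- the projection
  let D : Matrix I I ℂ := Matrix.diagonal fun χ => if χ ∈ B then 1 else 0
  let E : Matrix X X ℂ := U * D * V
  have hEent : ∀ K L, E K L = (eB B * classSum (Quotient.out L : G)).coeff (Quotient.out K) := by
    intro K L
    rw [coeff_eq_sum (Subalgebra.mul_mem _ (eB_mem_center B) (classSum_mem_center _))]
    show (U * D * V) K L = _
    rw [Matrix.mul_apply]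
    refine Finset.sum_congr rfl fun χ _ => ?_
    rw [Matrix.mul_diagonal, omega_mul χ.2 (eB_mem_center B), omega_classSum χ.2.isClassFunction, omega_eB]
    show (Nat.card G : ℂ)⁻¹ * ((χ : G → ℂ) 1 * conj ((χ : G → ℂ) (Quotient.out K))) * _ *
      centralChar (χ : G → ℂ) (Quotient.out L) = _
    ring
  have hEloc : ∀ K L, MemLocalRing M (E K L) := by
    intro K L
    rw [hEent]
    exact locA_mul (locA_eB hB) (locA_classSum _) _
  have hDD : D * D = D := by
    rw [Matrix.diagonal_mul_diagonal]
    congr 1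
    funext χ
    split_ifs <;> simp
  have hEE : E * E = E := by
    show U * D * V * (U * D * V) = U * D * V
    calc U * D * V * (U * D * V) = U * D * (V * U) * D * V := by simp only [Matrix.mul_assoc]
      _ = U * D * V := by rw [hVU, Matrix.mul_one, Matrix.mul_assoc U D D, hDD]
  have hDσ : oneSub ℂ σ * D = D * oneSub ℂ σ := by
    ext χ ψ
    rw [Matrix.mul_diagonal, Matrix.diagonal_mul]
    simp only [oneSub, Matrix.of_apply]
    by_cases h1 : χ = ψ
    · subst h1
      by_cases h2 : χ ∈ B <;> simp [h2]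
    · by_cases h2 : σ χ = ψ
      · subst h2
        by_cases h3 : χ ∈ B
        · simp [h3, (hstiff χ).2 h3]
        · have h4 : σ χ ∉ B := fun h => h3 ((hstiff χ).1 h)
          simp [h3, h4]
      · simp [h1, h2]
  have hSE : oneSub ℂ s * E = E * oneSub ℂ s := by
    have h1 : oneSub ℂ s = U * oneSub ℂ σ * V := by
      rw [← hSU, Matrix.mul_assoc, hUV, Matrix.mul_one]
    calc oneSub ℂ s * E = (oneSub ℂ s * U) * D * V := by
          show oneSub ℂ s * (U * D * V) = _
          simp only [Matrix.mul_assoc]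
      _ = U * (oneSub ℂ σ * D) * V := by rw [hSU]; simp only [Matrix.mul_assoc]
      _ = U * (D * oneSub ℂ σ) * V := by rw [hDσ]
      _ = U * D * (V * U) * oneSub ℂ σ * V := by rw [hVU, Matrix.mul_one]; simp only [Matrix.mul_assoc]
      _ = E * (U * oneSub ℂ σ * V) := by
          show _ = U * D * V * (U * oneSub ℂ σ * V)
          simp only [Matrix.mul_assoc]
      _ = E * oneSub ℂ s := by rw [← h1]
  -- ranks over ℂ
  have hrE : E.rank ≤ B.ncard := by
    have h1 : E.rank ≤ D.rank := rank_triple_le _ _ _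
    refine h1.trans ?_
    rw [Matrix.rank_diagonal, Fintype.card_subtype, Set.ncard_eq_toFinset_card']
    apply Finset.card_le_card
    intro χ hχ
    simp only [Finset.mem_filter, Finset.mem_univ, true_and] at hχ
    simp only [Set.mem_toFinset]
    by_contra h
    simp [h] at hχ
  let σ' : I → I := fun χ => if χ ∈ B then χ else σ χ
  have hσ' : ∀ χ, σ' (σ' χ) = χ := by
    intro χ
    by_cases h : χ ∈ B
    · simp [σ', h]
    · have h4 : σ χ ∉ B := fun h' => h ((hstiff χ).1 h')
      simp [σ', h, h4, hσ]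
  have hr2 : (oneSub ℂ s * (1 - E)).rank ≤ (oneSub ℂ σ').rank := by
    have h1 : oneSub ℂ s * (1 - E) = U * oneSub ℂ σ' * V := by
      have h2 : (1 : Matrix X X ℂ) - E = U * (1 - D) * V := by
        show (1 : Matrix X X ℂ) - U * D * V = U * (1 - D) * V
        rw [Matrix.mul_sub, Matrix.mul_one, Matrix.sub_mul, hUV]
      have h3 : oneSub ℂ σ * (1 - D) = oneSub ℂ σ' := by
        ext χ ψ
        rw [Matrix.mul_sub, Matrix.mul_one, Matrix.sub_apply, Matrix.mul_diagonal]
        simp only [oneSub, Matrix.of_apply]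
        by_cases h3 : χ ∈ B
        · have h5 : σ' χ = χ := if_pos h3
          simp only [h5]
          by_cases h1 : χ = ψ
          · subst h1; simp [h3]
          · by_cases h2 : σ χ = ψ
            · subst h2; simp [(hstiff χ).2 h3, h1]
            · simp [h1, h2]
        · have h5 : σ' χ = σ χ := if_neg h3
          simp only [h5]
          have h4 : σ χ ∉ B := fun h' => h3 ((hstiff χ).1 h')
          by_cases h1 : χ = ψ
          · subst h1; simp [h3]
          · by_cases h2 : σ χ = ψ
            · subst h2; simp [h4]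
            · simp [h1, h2]
      rw [h2, ← Matrix.mul_assoc, ← Matrix.mul_assoc, hSU, Matrix.mul_assoc U, h3]
    rw [h1]
    exact rank_triple_le _ _ _
  have hcs : 2 * (oneSub ℂ s).rank + (Finset.univ.filter fun y : X => s y = y).card = Fintype.card X :=
    two_mul_rank ℂ s hs
  have hcσ : 2 * (oneSub ℂ σ).rank + (Finset.univ.filter fun y : I => σ y = y).card = Fintype.card I :=
    two_mul_rank ℂ σ hσ
  have hcσ' : 2 * (oneSub ℂ σ').rank + (Finset.univ.filter fun y : I => σ' y = y).card = Fintype.card I :=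
    two_mul_rank ℂ σ' hσ'
  have hcsF : 2 * (oneSub (Kf M) s).rank + (Finset.univ.filter fun y : X => s y = y).card = Fintype.card X :=
    two_mul_rank (Kf M) s hs
  have hrs : (oneSub ℂ s).rank = (oneSub ℂ σ).rank := by
    apply le_antisymm
    · have h1 : oneSub ℂ s = U * oneSub ℂ σ * V := by
        rw [← hSU, Matrix.mul_assoc, hUV, Matrix.mul_one]
      rw [h1]
      exact rank_triple_le _ _ _
    · have h1 : oneSub ℂ σ = V * oneSub ℂ s * U := by
        rw [Matrix.mul_assoc, hSU, ← Matrix.mul_assoc, hVU, Matrix.one_mul]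
      rw [h1]
      exact rank_triple_le _ _ _
  have hfix : (Finset.univ.filter fun y : I => σ' y = y).card =
      B.ncard + (Finset.univ.filter fun y : I => σ y = y).card := by
    have h1 : (Finset.univ.filter fun y : I => σ' y = y) =
        B.toFinset ∪ (Finset.univ.filter fun y : I => σ y = y) := by
      ext χ
      simp only [Finset.mem_filter, Finset.mem_univ, true_and, Finset.mem_union, Set.mem_toFinset, σ']
      by_cases h : χ ∈ B
      · simp [h]
      · simp [h]
    rw [h1, Finset.card_union_of_disjoint, Set.ncard_eq_toFinset_card']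
    rw [Finset.disjoint_left]
    intro χ hχ hχ'
    simp only [Finset.mem_filter, Finset.mem_univ, true_and, Set.mem_toFinset] at hχ hχ'
    exact hno χ hχ hχ'
  -- reduction
  let Eb : Matrix X X (Kf M) := E.map (red M)
  have hrEb : Eb.rank ≤ B.ncard := (rank_red_le E hEloc).trans hrE
  have hEbEb : Eb * Eb = Eb := by
    rw [← red_mul_mat E hEloc E hEloc, hEE]
  have hSEb : oneSub (Kf M) s * Eb = Eb * oneSub (Kf M) s := by
    rw [← red_oneSub, ← red_mul_mat _ (loc_oneSub s) E hEloc, ← red_mul_mat E hEloc _ (loc_oneSub s), hSE]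
  have h1E : ∀ K L, MemLocalRing M ((1 - E) K L) := by
    intro K L
    rw [Matrix.sub_apply]
    apply loc_sub _ (hEloc K L)
    rw [Matrix.one_apply]
    split_ifs
    · exact loc_one
    · exact loc_zero
  have h1Eb : (1 - E).map (red M) = 1 - Eb := by
    ext K L
    rw [Matrix.map_apply, Matrix.sub_apply, Matrix.sub_apply, red_sub _ (hEloc K L)]
    · rw [Matrix.one_apply, Matrix.one_apply]
      split_ifs
      · rw [red_one']; rfl
      · rw [red_zero']; rfl
    · rw [Matrix.one_apply]
      split_ifs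
      · exact loc_one
      · exact loc_zero
  have hr3 : (oneSub (Kf M) s * (1 - Eb)).rank ≤ (oneSub ℂ σ').rank := by
    rw [← h1Eb, ← red_oneSub, ← red_mul_mat _ (loc_oneSub s) _ h1E]
    refine (rank_red_le _ fun K L => ?_).trans hr2
    rw [Matrix.mul_apply]
    exact loc_sum fun J _ => loc_mul (loc_oneSub s K J) (h1E J L)
  have hr4 : (oneSub (Kf M) s).rank ≤ (oneSub (Kf M) s * Eb).rank + (oneSub (Kf M) s * (1 - Eb)).rank :=
    rank_split _ _
  have hr5 : B.ncard ≤ 2 * (oneSub (Kf M) s * Eb).rank := by omega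
  have hchar : CharP (Kf M) 2 := charP_Kf hM
  have h2F : (2 : Kf M) = 0 := by
    have := CharP.cast_eq_zero (Kf M) 2
    exact_mod_cast this
  -- the block idempotent
  let v : X → Kf M := fun K => red M (blockCoeff B (Quotient.out K))
  have hvj : ∀ K, v K = Eb K (ConjClasses.mk 1) := by
    intro K
    show red M (blockCoeff B (Quotient.out K)) = red M (E K (ConjClasses.mk 1))
    rw [hEent]
    have h1 : (Quotient.out (ConjClasses.mk (1 : G)) : G) = 1 := by
      have h2 := mk_out (ConjClasses.mk (1 : G))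
      rw [ConjClasses.mk_eq_mk_iff_isConj] at h2
      exact isConj_one_left.1 h2
    have h3 : classSum (1 : G) = 1 := by
      ext g
      rw [coeff_classSum, BrauerMap.one_coeff]
      by_cases h : g = 1
      · rw [if_pos h, if_pos (by rw [h])]
      · rw [if_neg h, if_neg]
        intro hc
        exact h (isConj_one_left.1 hc.symm)
    rw [h1, h3, mul_one, coeff_eB]
  have hloc : ∀ g : G, MemLocalRing M (blockCoeff B g) := loc_blockCoeff hB
  have hvs : ∀ K, v (s K) = v K := by
    intro K
    show red M (blockCoeff B (Quotient.out (clsPow k K))) = red M (blockCoeff B (Quotient.out K))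
    rw [(isClassFunction_blockCoeff B).conj_eq (out_clsPow k K)]
    congr 1
    rw [blockCoeff_eq_sum, blockCoeff_eq_sum]
    congr 1
    let e : Equiv.Perm I := ⟨σ, σ, hσ, hσ⟩
    rw [← Equiv.sum_comp e]
    refine Finset.sum_congr rfl fun χ _ => ?_
    show (if σ χ ∈ B then (σ χ : G → ℂ) 1 * conj ((σ χ : G → ℂ) (Quotient.out K ^ k)) else 0) = _
    have h1 : (σ χ : G → ℂ) 1 = (χ : G → ℂ) 1 := by
      show (χ : G → ℂ) (1 ^ k) = _; rw [one_pow]
    have h2 : (σ χ : G → ℂ) (Quotient.out K ^ k) = (χ : G → ℂ) (Quotient.out K) := by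
      show (χ : G → ℂ) ((Quotient.out K ^ k) ^ k) = _; rw [hk2]
    rw [h1, h2]
    by_cases h : χ ∈ B
    · rw [if_pos h, if_pos ((hstiff χ).2 h)]
    · rw [if_neg h, if_neg fun h' => h ((hstiff χ).1 h')]
  obtain ⟨u, hu2⟩ := key h2F s hs Eb hSEb B.ncard hrEb hr5 v _ hvj hvs
  -- the central character
  obtain ⟨χ, hχ⟩ := isPBlock_nonempty hB
  let lam : X → Kf M := fun K => red M (centralChar (χ : G → ℂ) (Quotient.out K))
  have hlams : ∀ K, lam (s K) = lam K := by
    intro K
    show red M (centralChar (χ : G → ℂ) (Quotient.out (clsPow k K))) = red M (centralChar (χ : G → ℂ) (Quotient.out K))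
    rw [centralChar_conj χ.2.isClassFunction (out_clsPow k K), ← centralChar_pow hk]
    exact (red_eq_iff (loc_centralChar (powIrr hk χ).2 _) (loc_centralChar χ.2 _)).2
      (sameBlock_of_mem hB (hst χ hχ) hχ _)
  have hone : ∑ K : X, v K * lam K = 1 := by
    have h1 := omega_eq_sum χ.2.isClassFunction (eB_mem_center B)
    rw [omega_eB_mem hχ] at h1
    simp only [coeff_eB] at h1
    have h2 := congrArg (red M) h1
    rw [red_one', red_sum (f := fun K : X => blockCoeff B (Quotient.out K) * centralChar (χ : G → ℂ) (Quotient.out K)) fun K _ => loc_mul (hloc _) (loc_centralChar χ.2 _)] at h2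
    rw [h2]
    refine Finset.sum_congr rfl fun K _ => ?_
    rw [red_mul (hloc _) (loc_centralChar χ.2 _)]
  have hzero : ∑ K : X, v K * lam K = 0 := by
    have h1 : ∀ K : X, v K * lam K = u K * lam K - u (s K) * lam (s K) := by
      intro K
      rw [hu2 K, hlams K, sub_mul]
    rw [Finset.sum_congr rfl fun K _ => h1 K]
    exact sum_sub_comp s hs (fun K => u K * lam K)
  rw [hone] at hzero
  exact one_ne_zero hzero

end main

end Cfsg.Agent.Lib.H32Sig2
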