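import Cfsg.Prelude
import Cfsg.Agent.Lib.InvolBlock
import Cfsg.Agent.Lib.BlockKul
import Cfsg.Agent.Lib.BlockPow
import Cfsg.Agent.Lib.DefZeroCount

/-!
# Fixed characters of `2`-defect zero from inverted elements of odd order (helper32)
-/

set_option autoImplicit false

namespace Cfsg.Agent.Lib.H32Sig3

open Cfsg Cfsg.Agent.Lib.BlockRing Cfsg.Agent.Lib.BlockGA Cfsg.Agent.Lib.BlockIdem
open Cfsg.Agent.Lib.BlockPow Cfsg.Agent.Lib.CharBasic Cfsg.Agent.Lib.InvolBlock
open Cfsg.Agent.Lib.BlockKul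
open scoped ComplexConjugate

universe u
variable {G : Type u} [Group G] [Finite G]

/-- two elements with trivial square whose product is a `2`-element lie in a common `2`-subgroup -/
theorem commute_of_abelian (hab : ∀ Q : Subgroup G, IsPGroup 2 Q → ∀ a ∈ Q, ∀ b ∈ Q, a * b = b * a)
    {a b : G} (ha : a * a = 1) (hb : b * b = 1) {j : ℕ} (hj : orderOf (a * b) = 2 ^ j) :
    a * b = b * a := by
  have : Fact (Nat.Prime 2) := ⟨Nat.prime_two⟩
  have hai : a⁻¹ = a := inv_eq_of_mul_eq_one_right ha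
  have hbi : b⁻¹ = b := inv_eq_of_mul_eq_one_right hb
  have h1 : IsPGroup 2 (Subgroup.zpowers (a * b)) := by
    apply IsPGroup.of_card (n := j)
    rw [Nat.card_zpowers, hj]
  have h2 : IsPGroup 2 (Subgroup.zpowers a) := by
    rintro ⟨x, k, rfl⟩
    refine ⟨1, Subtype.ext ?_⟩
    show (a ^ k) ^ (2 ^ 1) = 1
    rw [pow_one, ← zpow_natCast, ← zpow_mul, mul_comm, zpow_mul, zpow_natCast, sq, ha, one_zpow]
  have hinv : a * (a * b) * a⁻¹ = (a * b)⁻¹ := by
    rw [mul_inv_rev, hai, hbi, ← mul_assoc, ha, one_mul]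
  have h3 : Subgroup.zpowers a ≤ Subgroup.normalizer (Subgroup.zpowers (a * b) : Set G) := by
    rw [Subgroup.zpowers_le, Subgroup.mem_normalizer_iff]
    intro x
    have key : ∀ x, x ∈ Subgroup.zpowers (a * b) → a * x * a⁻¹ ∈ Subgroup.zpowers (a * b) := by
      rintro _ ⟨k, rfl⟩
      show a * (a * b) ^ k * a⁻¹ ∈ _
      rw [← conj_zpow, hinv]
      exact Subgroup.zpow_mem _ (Subgroup.inv_mem _ (Subgroup.mem_zpowers _)) k
    refine ⟨key x, fun hx => ?_⟩
    have h4 := key _ hx
    have e : a * (a * x * a⁻¹) * a⁻¹ = x := by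
      rw [hai]
      calc a * (a * x * a) * a = (a * a) * x * (a * a) := by group
        _ = x := by rw [ha]; group
    rwa [e] at h4
  have h5 := IsPGroup.to_sup_of_normal_right' h2 h1 h3
  have ha' : a ∈ Subgroup.zpowers a ⊔ Subgroup.zpowers (a * b) :=
    (le_sup_left : Subgroup.zpowers a ≤ _) (Subgroup.mem_zpowers a)
  have hab' : a * b ∈ Subgroup.zpowers a ⊔ Subgroup.zpowers (a * b) :=
    (le_sup_right : Subgroup.zpowers (a * b) ≤ _) (Subgroup.mem_zpowers _)
  have hb' : b ∈ Subgroup.zpowers a ⊔ Subgroup.zpowers (a * b) := by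
    have h6 := Subgroup.mul_mem _ (Subgroup.inv_mem _ ha') hab'
    rwa [inv_mul_cancel_left] at h6
  exact hab _ h5 a ha' b hb'

theorem odd_count (hab : ∀ Q : Subgroup G, IsPGroup 2 Q → ∀ a ∈ Q, ∀ b ∈ Q, a * b = b * a)
    {u y : G} (hu : u * u = 1) (hinv : u * y * u⁻¹ = y⁻¹)
    (hodd : ¬ 2 ∣ Nat.card (Subgroup.centralizer ({y} : Set G))) :
    Odd (Nat.card {t : G // t * t = 1 ∧ ∃ j : ℕ, orderOf (t⁻¹ * y) = 2 ^ j}) := by
  classical
  have : Fact (Nat.Prime 2) := ⟨Nat.prime_two⟩
  have := Fintype.ofFinite G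
  have hui : u⁻¹ = u := inv_eq_of_mul_eq_one_right hu
  have huy : u * y * u = y⁻¹ := by rw [← hinv, hui]
  have hpres : ∀ t : G, (t * t = 1 ∧ ∃ j : ℕ, orderOf (t⁻¹ * y) = 2 ^ j) →
      (u * t * u) * (u * t * u) = 1 ∧ ∃ j : ℕ, orderOf ((u * t * u)⁻¹ * y) = 2 ^ j := by
    rintro t ⟨ht, j, hj⟩
    have hti : t⁻¹ = t := inv_eq_of_mul_eq_one_right ht
    refine ⟨?_, j, ?_⟩
    · calc (u * t * u) * (u * t * u) = u * t * (u * u) * t * u := by group
        _ = u * (t * t) * u := by rw [hu]; group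
        _ = 1 := by rw [ht, mul_one, hu]
    · have e1 : (u * t * u)⁻¹ * y = (u * t⁻¹) * (t⁻¹ * y)⁻¹ * (u * t⁻¹)⁻¹ := by
        have h1 : (u * t * u)⁻¹ * y = u * t * u * y := by
          rw [mul_inv_rev, mul_inv_rev, hui, hti]; group
        rw [h1]
        have h2 : (u * t⁻¹) * (t⁻¹ * y)⁻¹ * (u * t⁻¹)⁻¹ = u * t⁻¹ * y⁻¹ * t * t * u⁻¹ := by group
        rw [h2, hui, hti, ← huy]
        calc u * t * u * y = u * t * u * y * (u * u) := by rw [hu, mul_one]
          _ = u * t * (u * y * u) * 1 * u := by group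
          _ = u * t * (u * y * u) * t * t * u := by rw [← ht]; group
      rw [e1]
      have h3 := orderOf_injective (MulAut.conj (u * t⁻¹)).toMonoidHom (MulAut.conj _).injective
        (t⁻¹ * y)⁻¹
      have h4 : (MulAut.conj (u * t⁻¹)).toMonoidHom (t⁻¹ * y)⁻¹ =
        (u * t⁻¹) * (t⁻¹ * y)⁻¹ * (u * t⁻¹)⁻¹ := rfl
      rw [h4] at h3
      rw [h3, orderOf_inv, hj]
  let X := {t : G // t * t = 1 ∧ ∃ j : ℕ, orderOf (t⁻¹ * y) = 2 ^ j}
  let f : Function.End X := fun t => ⟨u * t.1 * u, hpres _ t.2⟩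
  have hf : f ^ 2 ^ 1 = 1 := by
    funext t
    apply Subtype.ext
    show u * (u * t.1 * u) * u = t.1
    calc u * (u * t.1 * u) * u = (u * u) * t.1 * (u * u) := by group
      _ = t.1 := by rw [hu]; group
  have hmod := Equiv.Perm.card_fixedPoints_modEq (α := X) hf
  have huX : u * u = 1 ∧ ∃ j : ℕ, orderOf (u⁻¹ * y) = 2 ^ j := by
    refine ⟨hu, ?_⟩
    have h1 : (u⁻¹ * y) ^ 2 = 1 := by
      rw [sq, hui]
      calc u * y * (u * y) = (u * y * u) * y := by group
        _ = 1 := by rw [huy]; group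
    obtain ⟨j, -, hj⟩ := (Nat.dvd_prime_pow Nat.prime_two).1
      (show orderOf (u⁻¹ * y) ∣ 2 ^ 1 by rw [pow_one]; exact orderOf_dvd_of_pow_eq_one h1)
    exact ⟨j, hj⟩
  have hfix : Fintype.card (Function.fixedPoints f) = 1 := by
    rw [Fintype.card_eq_one_iff]
    refine ⟨⟨⟨u, huX⟩, ?_⟩, ?_⟩
    · apply Subtype.ext
      show u * u * u = u
      rw [hu, one_mul]
    · rintro ⟨⟨t, ht, j, hj⟩, hfx⟩
      have h1 : u * t * u = t := congrArg Subtype.val hfx
      apply Subtype.ext
      apply Subtype.ext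
      show t = u
      have hti : t⁻¹ = t := inv_eq_of_mul_eq_one_right ht
      have hcomm : u * t = t * u := by
        calc u * t = u * t * (u * u) := by rw [hu, mul_one]
          _ = (u * t * u) * u := by group
          _ = t * u := by rw [h1]
      have hs2 : (t * u) * (t * u) = 1 := by
        calc (t * u) * (t * u) = t * (u * t) * u := by group
          _ = (t * t) * (u * u) := by rw [hcomm]; group
          _ = 1 := by rw [ht, hu, mul_one]
      have huy2 : (u * y) * (u * y) = 1 := by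
        calc u * y * (u * y) = (u * y * u) * y := by group
          _ = 1 := by rw [huy]; group
      have hj' : orderOf ((t * u) * (u * y)) = 2 ^ j := by
        rw [← hj]
        congr 1
        rw [hti]
        calc t * u * (u * y) = t * (u * u) * y := by group
          _ = t * y := by rw [hu, mul_one]
      have h2 := commute_of_abelian hab hs2 huy2 hj'
      -- t * u commutes with u and u * y, hence with y
      have h3 : (t * u) * u = u * (t * u) := by
        rw [← mul_assoc, hcomm]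
      have h4 : (t * u) * y = y * (t * u) := by
        have e1 : u * (t * u * y) = u * (y * (t * u)) := by
          calc u * (t * u * y) = (u * (t * u)) * y := by group
            _ = ((t * u) * u) * y := by rw [h3]
            _ = (t * u) * (u * y) := by group
            _ = (u * y) * (t * u) := h2
            _ = u * (y * (t * u)) := by group
        exact mul_left_cancel e1
      have h5 : t * u = 1 := by
        by_contra hne
        apply hodd
        have h6 : orderOf (t * u) = 2 := orderOf_eq_prime (by rw [sq, hs2]) hne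
        have h7 : t * u ∈ Subgroup.centralizer ({y} : Set G) := by
          rw [Subgroup.mem_centralizer_singleton_iff]
          exact h4
        rw [← h6]
        exact Subgroup.orderOf_dvd_natCard _ h7
      calc t = t * (u * u) := by rw [hu, mul_one]
        _ = (t * u) * u := by group
        _ = u := by rw [h5, one_mul]
  rw [hfix] at hmod
  rw [Nat.card_eq_fintype_card, Nat.odd_iff]
  exact hmod

/-- the characters of `2`-defect zero -/
def dz (G : Type u) [Group G] [Finite G] : Set (IrrCharacter G) :=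
  {χ | (charDegree (χ : G → ℂ)).factorization 2 = (Nat.card G).factorization 2}

theorem mem_dz {χ : IrrCharacter G} : χ ∈ dz G ↔
    (charDegree (χ : G → ℂ)).factorization 2 = (Nat.card G).factorization 2 := Iff.rfl

variable {M : Ideal AlgInt}

theorem loc_term (hM : IsPModular 2 M) {χ : IrrCharacter G} (hχ : χ ∈ dz G) (g : G) :
    MemLocalRing M ((Nat.card G : ℂ)⁻¹ * ((χ : G → ℂ) 1 * conj ((χ : G → ℂ) g))) := by
  have := isPrime hM
  have h1 : MemLocalRing M ((charDegree (χ : G → ℂ) : ℂ) / (Nat.card G : ℂ)) := by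
    rw [loc_div_natCast_iff hM (DefectZero.charDegree_pos χ.2).ne' Nat.card_pos.ne']
    exact (mem_dz.1 hχ).ge
  rw [DefectZero.charDegree_eq χ.2.isCharacter] at h1
  have h2 := loc_mul h1 (BlockDefect.loc_conj_value χ.2.isCharacter g (M := M))
  convert h2 using 1
  ring

theorem locA_dz (hM : IsPModular 2 M) : LocA M (eB (dz G)) := by
  classical
  have := isPrime hM
  intro g
  rw [coeff_eB, blockCoeff_eq_sum, Finset.mul_sum]
  refine loc_sum fun χ _ => ?_
  split_ifs with h
  · exact loc_term hM h g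
  · rw [mul_zero]; exact loc_zero

theorem omega_one_of_vanish {χ : IrrCharacter G} (hχ : χ ∈ dz G) {z : GA G} (hz1 : z.coeff 1 = 1)
    (hz : ∀ g : G, g ≠ 1 → z.coeff g ≠ 0 → 2 ∣ orderOf g) : omega (χ : G → ℂ) z = 1 := by
  classical
  have := Fintype.ofFinite G
  rw [omega, lin_apply, Finset.sum_eq_single (1 : G), hz1, one_mul, div_self χ.2.one_ne_zero]
  · intro g _ hg
    by_cases h0 : z.coeff g = 0
    · rw [h0, zero_mul]
    · rw [DefZeroCount.vanish Nat.prime_two χ.2 (mem_dz.1 hχ).ge (hz g hg h0), mul_zero]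
  · intro h; exact absurd (Finset.mem_univ _) h

theorem pSum_mem_center : pSum 2 G ∈ Subalgebra.center ℂ (GA G) := by
  classical
  apply ofFun_mem_center
  intro g h
  have h3 := orderOf_injective (MulAut.conj h).toMonoidHom (MulAut.conj _).injective g
  have h4 : (MulAut.conj h).toMonoidHom g = h * g * h⁻¹ := rfl
  rw [h4] at h3
  show (if ∃ k, orderOf (h * g * h⁻¹) = 2 ^ k then (1 : ℂ) else 0) =
    if ∃ k, orderOf g = 2 ^ k then (1 : ℂ) else 0
  rw [h3]

theorem omega_sq1 {χ : IrrCharacter G} (hχ : χ ∈ dz G) : omega (χ : G → ℂ) (sq1 G) = 1 := by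
  classical
  apply omega_one_of_vanish hχ
  · rw [coeff_sq1, if_pos (mul_one 1)]
  · intro g hg h
    rw [coeff_sq1] at h
    have h1 : g * g = 1 := by
      by_contra hne
      rw [if_neg hne] at h
      exact h rfl
    rw [orderOf_eq_prime (p := 2) (by rw [sq, h1]) hg]

theorem omega_pSum {χ : IrrCharacter G} (hχ : χ ∈ dz G) : omega (χ : G → ℂ) (pSum 2 G) = 1 := by
  classical
  apply omega_one_of_vanish hχ
  · rw [pSum, coeff_ofFun, if_pos ⟨0, by rw [orderOf_one, pow_zero]⟩]
  · intro g hg h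
    rw [pSum, coeff_ofFun] at h
    have h1 : ∃ k : ℕ, orderOf g = 2 ^ k := by
      by_contra hne
      rw [if_neg hne] at h
      exact h rfl
    obtain ⟨k, hk⟩ := h1
    rw [hk]
    apply dvd_pow_self
    rintro rfl
    rw [pow_zero, orderOf_eq_one_iff] at hk
    exact hg hk

theorem mul_eq_eB : eB (dz G) * sq1 G * pSum 2 G = eB (dz G) := by
  classical
  apply center_ext (Subalgebra.mul_mem _ (Subalgebra.mul_mem _ (eB_mem_center _) sq1_mem_center)
    pSum_mem_center) (eB_mem_center _)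
  intro χ
  rw [omega_mul χ.2 (Subalgebra.mul_mem _ (eB_mem_center _) sq1_mem_center),
    omega_mul χ.2 (eB_mem_center _)]
  by_cases h : χ ∈ dz G
  · rw [omega_sq1 h, omega_pSum h, mul_one, mul_one]
  · rw [omega_eB_not_mem h, zero_mul, zero_mul]

theorem coeff_congr_dz (hM : IsPModular 2 M) (y : G) :
    MemLocalIdeal M ((sq1 G * pSum 2 G).coeff y - blockCoeff (dz G) y) := by
  classical
  have := Fintype.ofFinite G
  have := isPrime hM
  have hc : sq1 G - eB (dz G) * sq1 G ∈ Subalgebra.center ℂ (GA G) :=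
    Subalgebra.sub_mem _ sq1_mem_center (Subalgebra.mul_mem _ (eB_mem_center _) sq1_mem_center)
  have h1 := idlA_mul_pSum hM hc (locA_sub locA_sq1 (locA_mul (locA_dz hM) locA_sq1)) (by
    intro χ
    rw [omega_sub, omega_mul χ.2 (eB_mem_center _)]
    by_cases h : χ ∈ dz G
    · rw [omega_eB_mem h, one_mul, sub_self]; exact idl_zero
    · rw [omega_eB_not_mem h, zero_mul, sub_zero]
      by_contra hcon
      exact h (defectZero_of_omega hM χ hcon)) y
  rw [sub_mul, mul_eq_eB, MonoidAlgebra.coeff_sub, Finsupp.sub_apply, coeff_eB] at h1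
  exact h1

theorem coeff_count (y : G) : (sq1 G * pSum 2 G).coeff y =
    (Nat.card {t : G // t * t = 1 ∧ ∃ j : ℕ, orderOf (t⁻¹ * y) = 2 ^ j} : ℂ) := by
  classical
  have := Fintype.ofFinite G
  rw [coeff_mul_fintype, Nat.card_eq_fintype_card, Fintype.card_subtype, Finset.card_filter]
  push_cast
  refine Finset.sum_congr rfl fun t _ => ?_
  rw [coeff_sq1, pSum, coeff_ofFun]
  by_cases h1 : t * t = 1
  · by_cases h2 : ∃ j : ℕ, orderOf (t⁻¹ * y) = 2 ^ j
    · rw [if_pos h1, if_pos h2, if_pos ⟨h1, h2⟩, mul_one]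
    · rw [if_neg h2, mul_zero, if_neg (fun h => h2 h.2)]
  · rw [if_neg h1, zero_mul, if_neg (fun h => h1 h.1)]

theorem charDegree_powIrr {k : ℕ} (hk : k.Coprime (Nat.card G)) (χ : IrrCharacter G) :
    charDegree (powIrr hk χ : G → ℂ) = charDegree (χ : G → ℂ) := by
  have h1 := DefectZero.charDegree_eq (powIrr hk χ).2.isCharacter
  have h2 := DefectZero.charDegree_eq χ.2.isCharacter
  rw [powIrr_apply, one_pow, ← h2] at h1
  exact_mod_cast h1

/-- A real element `y` of odd order with centraliser of odd order in a group with abelian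
`2`-subgroups: there is a `σ`-fixed character of `2`-defect zero. -/
theorem exists_defectZero_fixed (hM : IsPModular 2 M)
    (hab : ∀ Q : Subgroup G, IsPGroup 2 Q → ∀ a ∈ Q, ∀ b ∈ Q, a * b = b * a)
    {k : ℕ} (hk : k.Coprime (Nat.card G)) (hk2 : ∀ g : G, (g ^ k) ^ k = g)
    {u y : G} (hu : u * u = 1) (hinv : u * y * u⁻¹ = y⁻¹)
    (hodd : ¬ 2 ∣ Nat.card (Subgroup.centralizer ({y} : Set G))) (hy : y ^ k = y⁻¹) :
    ∃ χ ∈ dz G, powIrr hk χ = χ := by
  classical
  have := isPrime hM
  by_contra hcon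
  push Not at hcon
  have h1 := coeff_congr_dz hM y
  rw [coeff_count] at h1
  have h2 := odd_count hab hu hinv hodd
  have h3 : ¬ MemLocalIdeal M
      (Nat.card {t : G // t * t = 1 ∧ ∃ j : ℕ, orderOf (t⁻¹ * y) = 2 ^ j} : ℂ) := by
    rw [idl_natCast_iff hM]
    intro h4
    exact (Nat.not_even_iff_odd.2 h2) (even_iff_two_dvd.2 h4)
  apply h3
  rw [idl_congr h1]
  have hinv2 : ∀ χ : IrrCharacter G, powIrr hk (powIrr hk χ) = χ :=
    powIrr_powIrr hk hk fun g => by rw [pow_mul]; exact hk2 g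
  have hmem : ∀ χ : IrrCharacter G, powIrr hk χ ∈ dz G ↔ χ ∈ dz G := by
    intro χ
    rw [mem_dz, mem_dz, charDegree_powIrr]
  have hval : ∀ χ : IrrCharacter G, (powIrr hk χ : G → ℂ) y = (χ : G → ℂ) y := by
    intro χ
    rw [powIrr_apply, hy, ← hinv]
    exact χ.2.isClassFunction y u
  have h5 := idl_sum_invol hM (powIrr hk) hinv2
    (fun χ => if χ ∈ dz G then (Nat.card G : ℂ)⁻¹ * ((χ : G → ℂ) 1 * conj ((χ : G → ℂ) y)) else 0)
    (by
      intro χ
      simp only [hmem, hval]
      rw [powIrr_apply, one_pow])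
    (by
      intro χ
      split_ifs with h
      · exact loc_term hM h y
      · exact loc_zero)
  have h6 : ∑ χ ∈ Finset.univ.filter (fun χ : IrrCharacter G => powIrr hk χ = χ),
      (if χ ∈ dz G then (Nat.card G : ℂ)⁻¹ * ((χ : G → ℂ) 1 * conj ((χ : G → ℂ) y)) else 0) = 0 := by
    apply Finset.sum_eq_zero
    intro χ hχ
    rw [if_neg]
    intro h
    exact hcon χ h (Finset.mem_filter.1 hχ).2
  rw [h6, sub_zero] at h5
  rw [blockCoeff_eq_sum, Finset.mul_sum]
  convert h5 using 2 with χ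
  split_ifs <;> simp

end Cfsg.Agent.Lib.H32Sig3
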