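import Cfsg.Prelude
import Cfsg.Agent.Lib.H32Sig2
import Cfsg.Agent.Lib.H32Sig3
import Cfsg.Agent.Lib.H16CD
import Cfsg.Agent.Lib.BlockHom
import Cfsg.Agent.Lib.BlockInd
import Cfsg.Agent.Lib.BlockThird
import Cfsg.Agent.Lib.Contrib2

/-!
# A stable nonprincipal `2`-block from an inverted element of odd order (helper32)
-/

set_option autoImplicit false

namespace Cfsg.Agent.Lib.H32Sig4

open Cfsg Cfsg.Agent.Lib.BlockRing Cfsg.Agent.Lib.BlockGA Cfsg.Agent.Lib.BlockIdem
open Cfsg.Agent.Lib.BlockPow Cfsg.Agent.Lib.CharBasic Cfsg.Agent.Lib.BlockDefect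
open Cfsg.Agent.Lib.H32Sig3
open scoped ComplexConjugate

universe u

section group

variable {G : Type u} [Group G] [Finite G]

/-- `2`-subgroups of the quotient by a `2`-subgroup -/
theorem quot_abelian (hab : ∀ Q : Subgroup G, IsPGroup 2 Q → ∀ a ∈ Q, ∀ b ∈ Q, a * b = b * a)
    (D : Subgroup G) [D.Normal] (hD : IsPGroup 2 D) :
    ∀ Q : Subgroup (G ⧸ D), IsPGroup 2 Q → ∀ a ∈ Q, ∀ b ∈ Q, a * b = b * a := by
  have : Fact (Nat.Prime 2) := ⟨Nat.prime_two⟩
  intro Q hQ a ha b hb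
  obtain ⟨x, rfl⟩ := QuotientGroup.mk_surjective a
  obtain ⟨y, rfl⟩ := QuotientGroup.mk_surjective b
  have h1 : IsPGroup 2 (Q.comap (QuotientGroup.mk' D)) := by
    apply IsPGroup.comap_of_ker_isPGroup hQ
    rw [QuotientGroup.ker_mk']
    exact hD
  have h2 := hab _ h1 x ha y hb
  rw [← QuotientGroup.mk_mul, ← QuotientGroup.mk_mul, h2]

/-- centraliser of odd order in the quotient -/
theorem quot_centralizer (D : Subgroup G) [D.Normal] (hD : IsPGroup 2 D) (hDc : D ≤ Subgroup.center G)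
    {y : G} (hy : Odd (orderOf y)) (hmax : ∀ x : G, x * y = y * x → x ^ 2 ∈ D → x ∈ D) :
    ¬ 2 ∣ Nat.card (Subgroup.centralizer ({(y : G ⧸ D)} : Set (G ⧸ D))) := by
  have : Fact (Nat.Prime 2) := ⟨Nat.prime_two⟩
  intro h2
  obtain ⟨⟨a, ha⟩, hao⟩ := exists_prime_orderOf_dvd_card' 2 h2
  rw [← Subgroup.orderOf_coe] at hao
  change orderOf a = 2 at hao
  obtain ⟨x, rfl⟩ := QuotientGroup.mk_surjective a
  have hx2 : x ^ 2 ∈ D := by
    have h3 := pow_orderOf_eq_one (x : G ⧸ D)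
    rw [hao, ← QuotientGroup.mk_pow] at h3
    exact (QuotientGroup.eq_one_iff _).1 h3
  rw [Subgroup.mem_centralizer_singleton_iff, ← QuotientGroup.mk_mul, ← QuotientGroup.mk_mul] at ha
  have h4 : (y * x)⁻¹ * (x * y) ∈ D := QuotientGroup.eq.1 ha.symm
  obtain ⟨d, hd⟩ : ∃ d, d = (y * x)⁻¹ * (x * y) := ⟨_, rfl⟩
  rw [← hd] at h4
  have hdc := Subgroup.mem_center_iff.1 (hDc h4)
  have h5 : x * y * x⁻¹ = y * d := by
    calc x * y * x⁻¹ = (y * x) * d * x⁻¹ := by rw [hd]; group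
      _ = y * (x * d) * x⁻¹ := by group
      _ = y * (d * x) * x⁻¹ := by rw [hdc x]
      _ = y * d := by group
  have h6 : d ^ orderOf y = 1 := by
    have h7 : (y * d) ^ orderOf y = 1 := by
      rw [← h5, conj_pow, pow_orderOf_eq_one]; group
    have hc : Commute y d := hdc y
    rwa [hc.mul_pow, pow_orderOf_eq_one, one_mul] at h7
  have h7 : d = 1 := by
    obtain ⟨j, hj⟩ := hD ⟨d, h4⟩
    have hj' : d ^ 2 ^ j = 1 := congrArg Subtype.val hj
    have h8 : orderOf d ∣ Nat.gcd (orderOf y) (2 ^ j) :=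
      Nat.dvd_gcd (orderOf_dvd_of_pow_eq_one h6) (orderOf_dvd_of_pow_eq_one hj')
    have h9 : Nat.gcd (orderOf y) (2 ^ j) = 1 :=
      (Nat.Coprime.pow_right j (Nat.coprime_two_right.2 hy))
    rw [h9, Nat.dvd_one, orderOf_eq_one_iff] at h8
    exact h8
  have h8 : x * y = y * x := by
    rw [h7, mul_one] at h5
    calc x * y = x * y * x⁻¹ * x := by group
      _ = y * x := by rw [h5]
  have h9 := hmax x h8 hx2
  have h10 : (x : G ⧸ D) = 1 := (QuotientGroup.eq_one_iff _).2 h9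
  rw [h10, orderOf_one] at hao
  omega

theorem factorization_two_mul {n : ℕ} (hn : n ≠ 0) : (2 * n).factorization 2 = n.factorization 2 + 1 := by
  rw [Nat.factorization_mul (by norm_num) hn, Finsupp.add_apply, Nat.Prime.factorization_self Nat.prime_two,
    add_comm]

/-- A Sylow `2`-subgroup of `C(y)` centralised by `t`, where `t` inverts `y`. -/
theorem exists_sylow (hab : ∀ Q : Subgroup G, IsPGroup 2 Q → ∀ a ∈ Q, ∀ b ∈ Q, a * b = b * a)
    {t y : G} (ht : t * t = 1) (hinv : t * y * t⁻¹ = y⁻¹) (hy1 : y ≠ 1) (hyo : Odd (orderOf y)) :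
    ∃ D : Subgroup G, IsPGroup 2 D ∧ D ≤ Subgroup.centralizer ({y} : Set G) ∧ (∀ d ∈ D, t * d = d * t) ∧
      t ∉ D ∧ ∀ R : Subgroup G, IsPGroup 2 R → R ≤ Subgroup.centralizer ({y} : Set G) → D ≤ R → R = D := by
  classical
  have : Fact (Nat.Prime 2) := ⟨Nat.prime_two⟩
  have hti : t⁻¹ = t := inv_eq_of_mul_eq_one_right ht
  have hyy : y⁻¹ ≠ y := by
    intro h
    apply hy1
    have h1 : y ^ 2 = 1 := by rw [sq]; nth_rewrite 1 [← h]; rw [inv_mul_cancel]
    have h2 : orderOf y ∣ Nat.gcd (orderOf y) 2 := Nat.dvd_gcd dvd_rfl (orderOf_dvd_of_pow_eq_one h1)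
    have h3 : Nat.gcd (orderOf y) 2 = 1 := Nat.coprime_two_right.2 hyo
    rw [h3, Nat.dvd_one, orderOf_eq_one_iff] at h2
    exact h2
  let N : Subgroup G :=
    { carrier := {g | g * y * g⁻¹ = y ∨ g * y * g⁻¹ = y⁻¹}
      one_mem' := Or.inl (by group)
      mul_mem' := by
        intro a b ha hb
        have e : a * b * y * (a * b)⁻¹ = a * (b * y * b⁻¹) * a⁻¹ := by group
        have e2 : a * y⁻¹ * a⁻¹ = (a * y * a⁻¹)⁻¹ := by group
        show a * b * y * (a * b)⁻¹ = y ∨ a * b * y * (a * b)⁻¹ = y⁻¹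
        rw [e]
        rcases hb with hb | hb
        · rw [hb]; exact ha
        · rw [hb, e2]
          rcases ha with ha | ha
          · right; rw [ha]
          · left; rw [ha, inv_inv]
      inv_mem' := by
        intro a ha
        show a⁻¹ * y * a⁻¹⁻¹ = y ∨ a⁻¹ * y * a⁻¹⁻¹ = y⁻¹
        rcases ha with ha | ha
        · left
          calc a⁻¹ * y * a⁻¹⁻¹ = a⁻¹ * (a * y * a⁻¹) * a⁻¹⁻¹ := by rw [ha]
            _ = y := by group
        · right
          calc a⁻¹ * y * a⁻¹⁻¹ = a⁻¹ * (y⁻¹)⁻¹ * a⁻¹⁻¹ := by group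
            _ = a⁻¹ * (a * y * a⁻¹)⁻¹ * a⁻¹⁻¹ := by rw [ha]
            _ = y⁻¹ := by group }
  have hNmem : ∀ g, g ∈ N ↔ (g * y * g⁻¹ = y ∨ g * y * g⁻¹ = y⁻¹) := fun g => Iff.rfl
  obtain ⟨C, hC⟩ : ∃ C, C = Subgroup.centralizer ({y} : Set G) := ⟨_, rfl⟩
  have hCmem : ∀ g, g ∈ C ↔ g * y * g⁻¹ = y := by
    intro g
    rw [hC, Subgroup.mem_centralizer_singleton_iff, mul_inv_eq_iff_eq_mul]
  have htN : t ∈ N := (hNmem t).2 (Or.inr hinv)
  have hxor : ∀ b ∈ N, Xor (b * t ∈ C) (b ∈ C) := by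
    intro b hb
    have e : b * t * y * (b * t)⁻¹ = (b * y * b⁻¹)⁻¹ := by
      calc b * t * y * (b * t)⁻¹ = b * (t * y * t⁻¹) * b⁻¹ := by group
        _ = (b * y * b⁻¹)⁻¹ := by rw [hinv]; group
    rcases (hNmem b).1 hb with h | h
    · right
      refine ⟨(hCmem b).2 h, fun h2 => ?_⟩
      rw [hCmem, e, h] at h2
      exact hyy h2
    · left
      refine ⟨(hCmem _).2 (by rw [e, h, inv_inv]), fun h2 => ?_⟩
      rw [hCmem, h] at h2
      exact hyy h2
  have hCN : C ≤ N := fun g hg => (hNmem g).2 (Or.inl ((hCmem g).1 hg))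
  have hrel : C.relIndex N = 2 := Subgroup.relIndex_eq_two_iff.2 ⟨t, htN, hxor⟩
  have hT : IsPGroup 2 (Subgroup.zpowers t) := by
    rintro ⟨x, k, rfl⟩
    refine ⟨1, Subtype.ext ?_⟩
    show (t ^ k) ^ (2 ^ 1) = 1
    rw [pow_one, ← zpow_natCast, ← zpow_mul, mul_comm, zpow_mul, zpow_natCast, sq, ht, one_zpow]
  obtain ⟨E, hE, hTE⟩ := sylIn_exists_ge (p := 2) ((Subgroup.zpowers_le).2 htN) hT
  have hEp := sylIn_isPGroup hE
  have hEN := sylIn_le hE
  have htE : t ∈ E := hTE (Subgroup.mem_zpowers t)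
  have hrelE : C.relIndex E = 2 :=
    Subgroup.relIndex_eq_two_iff.2 ⟨t, htE, fun b hb => hxor b (hEN hb)⟩
  have hcN : Nat.card N = 2 * Nat.card C := by
    have h1 := (C.subgroupOf N).card_mul_index
    have h2 : (C.subgroupOf N).index = 2 := hrel
    rw [h2, Nat.card_congr (Subgroup.subgroupOfEquivOfLe hCN).toEquiv] at h1
    omega
  have hcE : Nat.card E = 2 * Nat.card (E ⊓ C : Subgroup G) := by
    have h1 := (C.subgroupOf E).card_mul_index
    have h2 : (C.subgroupOf E).index = 2 := hrelE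
    have h3 : Nat.card (C.subgroupOf E) = Nat.card (E ⊓ C : Subgroup G) := by
      rw [← Subgroup.inf_subgroupOf_left]
      exact Nat.card_congr (Subgroup.subgroupOfEquivOfLe inf_le_left).toEquiv
    rw [h2, h3] at h1
    omega
  have hEcard := sylIn_card hE
  have hfac : (Nat.card N).factorization 2 = (Nat.card C).factorization 2 + 1 := by
    rw [hcN, factorization_two_mul Nat.card_pos.ne']
  have hDcard : Nat.card (E ⊓ C : Subgroup G) = 2 ^ (Nat.card C).factorization 2 := by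
    rw [hcE, hfac, pow_succ] at hEcard
    omega
  have htC : t ∉ C := by
    intro h
    rw [hCmem, hinv] at h
    exact hyy h
  refine ⟨E ⊓ C, hEp.to_le inf_le_left, by rw [← hC]; exact inf_le_right,
    fun d hd => hab E hEp t htE d hd.1, fun h => htC h.2, ?_⟩
  intro R hR hRC hDR
  rw [← hC] at hRC
  symm
  apply Subgroup.eq_of_le_of_card_ge hDR
  rw [hDcard]
  obtain ⟨n, hn⟩ := IsPGroup.iff_card.1 hR
  rw [hn]
  have h1 : 2 ^ n ∣ Nat.card C := by
    rw [← hn]; exact Subgroup.card_dvd_of_le hRC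
  exact Nat.pow_le_pow_right (by norm_num) ((Nat.prime_two.pow_dvd_iff_le_factorization Nat.card_pos.ne').1 h1)

end group

section induced

variable {G : Type u} [Group G] [Finite G] {p : ℕ} {M : Ideal AlgInt}

theorem isConj_pow_iff {k : ℕ} (hk : k.Coprime (Nat.card G)) {g h : G} :
    IsConj g h ↔ IsConj (g ^ k) (h ^ k) := by
  obtain ⟨l, -, hl⟩ := exists_inv hk
  constructor
  · exact fun h => H32Sig2.isConj_pow k h
  · intro h
    have := H32Sig2.isConj_pow l h
    rwa [← pow_mul, ← pow_mul, hl, hl] at this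

theorem inducedCentralChar_pow {H : Subgroup G} {k : ℕ} (hk : k.Coprime (Nat.card G))
    (hkH : k.Coprime (Nat.card H)) (ξ : IrrCharacter H) (g : G) :
    inducedCentralChar H (powIrr hkH ξ : H → ℂ) g = inducedCentralChar H (ξ : H → ℂ) (g ^ k) := by
  obtain ⟨l, -, hl⟩ := exists_inv hkH
  unfold inducedCentralChar
  apply finsum_mem_eq_of_bijOn (fun h : H => h ^ k)
  · refine ⟨?_, ?_, ?_⟩
    · intro h hh
      show IsConj (g ^ k) ((h ^ k : H) : G)
      rw [Subgroup.coe_pow]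
      exact (isConj_pow_iff hk).1 hh
    · intro a _ b _ hab
      have hab' : a ^ k = b ^ k := hab
      rw [← hl a, pow_mul, hab', ← pow_mul, hl]
    · intro h hh
      refine ⟨h ^ l, ?_, ?_⟩
      · show IsConj g ((h ^ l : H) : G)
        rw [isConj_pow_iff hk, ← Subgroup.coe_pow, ← pow_mul, mul_comm, hl]
        exact hh
      · show (h ^ l) ^ k = h
        rw [← pow_mul, mul_comm, hl]
  · intro h _
    rw [powIrr_apply, powIrr_apply, one_pow]

theorem induced_pow [M.IsPrime] {H : Subgroup G} {k : ℕ} (hk : k.Coprime (Nat.card G))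
    (hkH : k.Coprime (Nat.card H)) {b : Set (IrrCharacter H)} {B : Set (IrrCharacter G)}
    (h : IsInducedBlock M H b B) : IsInducedBlock M H (powIrr hkH '' b) (powIrr hk '' B) := by
  refine ⟨isPBlock_image hkH h.1, isPBlock_image hk h.2.1, ?_⟩
  rintro _ ⟨ξ, hξ, rfl⟩ _ ⟨χ, hχ, rfl⟩ g
  rw [inducedCentralChar_pow hk]
  have h1 : centralChar (powIrr hk χ : G → ℂ) g = centralChar (χ : G → ℂ) (g ^ k) := centralChar_pow hk g
  rw [h1]
  exact h.2.2 ξ hξ χ hχ _

theorem stable_of_induced [M.IsPrime] {H : Subgroup G} {k : ℕ} (hk : k.Coprime (Nat.card G))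
    (hkH : k.Coprime (Nat.card H)) {b : Set (IrrCharacter H)} {B : Set (IrrCharacter G)}
    (h : IsInducedBlock M H b B) (hb : powIrr hkH '' b = b) : powIrr hk '' B = B := by
  have h1 := induced_pow hk hkH h
  rw [hb] at h1
  exact BlockInd.induced_unique h1 h

end induced

section main

variable {G : Type u} [Group G] [Finite G] {M : Ideal AlgInt}

/-- the degree of an inflated character -/
theorem charDegree_inflate (D : Subgroup G) [D.Normal] (ψ : IrrCharacter (G ⧸ D)) (θ : IrrCharacter G)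
    (h : ∀ g : G, (θ : G → ℂ) g = (ψ : G ⧸ D → ℂ) (g : G ⧸ D)) :
    charDegree (θ : G → ℂ) = charDegree (ψ : G ⧸ D → ℂ) := by
  have h1 := DefectZero.charDegree_eq θ.2.isCharacter
  have h2 := DefectZero.charDegree_eq ψ.2.isCharacter
  rw [h, QuotientGroup.mk_one, ← h2] at h1
  exact_mod_cast h1

/-- the local block -/
theorem exists_local (hM : IsPModular 2 M)
    (hab : ∀ Q : Subgroup G, IsPGroup 2 Q → ∀ a ∈ Q, ∀ b ∈ Q, a * b = b * a)
    {k : ℕ} (hk : k.Coprime (Nat.card G)) (hk2 : ∀ g : G, (g ^ k) ^ k = g)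
    {D : Subgroup G} (hD : IsPGroup 2 D) (hDc : D ≤ Subgroup.center G)
    {t y : G} (ht : t * t = 1) (hinv : t * y * t⁻¹ = y⁻¹) (hyo : Odd (orderOf y)) (hy : y ^ k = y⁻¹)
    (hmax : ∀ x : G, x * y = y * x → x ^ 2 ∈ D → x ∈ D) :
    ∃ b : Set (IrrCharacter G), IsPBlock M b ∧ powIrr hk '' b = b ∧ IsDefectGroup 2 M b D := by
  classical
  have := isPrime hM
  have hn : D.Normal := ⟨fun z hz g => by
    rw [(Subgroup.mem_center_iff.1 (hDc hz) g), mul_inv_cancel_right]; exact hz⟩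
  have hcardmul : Nat.card G = Nat.card (G ⧸ D) * Nat.card D := Subgroup.card_eq_card_quotient_mul_card_subgroup D
  have hkQ : k.Coprime (Nat.card (G ⧸ D)) := by
    rw [hcardmul] at hk
    exact Nat.Coprime.coprime_mul_right_right hk
  have hkQ2 : ∀ g : G ⧸ D, (g ^ k) ^ k = g := by
    intro g
    obtain ⟨x, rfl⟩ := QuotientGroup.mk_surjective g
    rw [← QuotientGroup.mk_pow, ← QuotientGroup.mk_pow, hk2]
  obtain ⟨ψ, hψ, hψfix⟩ := exists_defectZero_fixed hM (quot_abelian hab D hD) hkQ hkQ2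
    (u := (t : G ⧸ D)) (y := (y : G ⧸ D))
    (by rw [← QuotientGroup.mk_mul, ht, QuotientGroup.mk_one])
    (by rw [← QuotientGroup.mk_inv, ← QuotientGroup.mk_mul, ← QuotientGroup.mk_mul, hinv,
      QuotientGroup.mk_inv])
    (quot_centralizer D hD hDc hyo hmax)
    (by rw [← QuotientGroup.mk_pow, hy, QuotientGroup.mk_inv])
  let θ : IrrCharacter G := ⟨fun g => (ψ : G ⧸ D → ℂ) (g : G ⧸ D), ψ.2.inflate D⟩
  have hθ : ∀ g : G, (θ : G → ℂ) g = (ψ : G ⧸ D → ℂ) (g : G ⧸ D) := fun g => rfl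
  have hθfix : powIrr hk θ = θ := by
    apply Subtype.ext
    funext g
    rw [powIrr_apply, hθ, hθ, QuotientGroup.mk_pow]
    have h1 := congrFun (congrArg Subtype.val hψfix) (g : G ⧸ D)
    exact h1
  refine ⟨blockOf M (θ : G → ℂ), isPBlock_blockOf θ, ?_, ?_⟩
  · rw [image_blockOf, hθfix]
  · apply H16CD.isDefectGroup_of hM hD hDc (isPBlock_blockOf θ) (mem_blockOf_self θ)
    · intro z hz
      have e1 : (z : G ⧸ D) = ((1 : G) : G ⧸ D) := by
        rw [(QuotientGroup.eq_one_iff z).2 hz, QuotientGroup.mk_one]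
      rw [hθ, hθ, e1]
    · rw [charDegree_inflate D ψ θ hθ, mem_dz.1 hψ, hcardmul,
        Nat.factorization_mul Nat.card_pos.ne' Nat.card_pos.ne', Finsupp.add_apply]

/-- the stable nonprincipal block -/
theorem exists_block (hM : IsPModular 2 M)
    (hab : ∀ Q : Subgroup G, IsPGroup 2 Q → ∀ a ∈ Q, ∀ b ∈ Q, a * b = b * a)
    {k : ℕ} (hk : k.Coprime (Nat.card G)) (hk2 : ∀ g : G, (g ^ k) ^ k = g)
    {t y : G} (ht : t * t = 1) (hinv : t * y * t⁻¹ = y⁻¹) (hy1 : y ≠ 1) (hyo : Odd (orderOf y))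
    (hy : y ^ k = y⁻¹) :
    ∃ B : Set (IrrCharacter G), IsPBlock M B ∧ powIrr hk '' B = B ∧ B ≠ principalBlock M G := by
  classical
  have hMp := isPrime hM
  have : Fact (Nat.Prime 2) := ⟨Nat.prime_two⟩
  obtain ⟨D, hD, hDy, hDt, htD, hmax⟩ := exists_sylow hab ht hinv hy1 hyo
  obtain ⟨H, hH⟩ : ∃ H, H = Subgroup.centralizer (D : Set G) := ⟨_, rfl⟩
  have hDH : D ≤ H := by
    rw [hH]
    intro d hd
    rw [Subgroup.mem_centralizer_iff]
    intro e he
    exact hab D hD e he d hd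
  have htH : t ∈ H := by
    rw [hH, Subgroup.mem_centralizer_iff]
    intro d hd
    exact (hDt d hd).symm
  have hyH : y ∈ H := by
    rw [hH, Subgroup.mem_centralizer_iff]
    intro d hd
    exact Subgroup.mem_centralizer_singleton_iff.1 (hDy hd)
  have hkH : k.Coprime (Nat.card H) := Nat.Coprime.coprime_dvd_right (Subgroup.card_subgroup_dvd_card H) hk
  have hD' : IsPGroup 2 (D.subgroupOf H) := hD.of_equiv (Subgroup.subgroupOfEquivOfLe hDH).symm
  have habH : ∀ Q : Subgroup H, IsPGroup 2 Q → ∀ a ∈ Q, ∀ b ∈ Q, a * b = b * a := by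
    intro Q hQ a ha b hb
    apply Subtype.ext
    exact hab (Q.map H.subtype) (hQ.map _) a (Subgroup.mem_map_of_mem _ ha) b (Subgroup.mem_map_of_mem _ hb)
  have hDc : D.subgroupOf H ≤ Subgroup.center H := by
    intro d hd
    rw [Subgroup.mem_center_iff]
    intro g
    apply Subtype.ext
    have hg : (g : G) ∈ Subgroup.centralizer (D : Set G) := hH ▸ g.2
    rw [Subgroup.mem_centralizer_iff] at hg
    exact (hg d hd).symm
  obtain ⟨b, hb, hbst, hbD⟩ := exists_local (G := H) hM habH hkH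
    (fun g => Subtype.ext (by rw [Subgroup.coe_pow, Subgroup.coe_pow]; exact hk2 g)) hD' hDc
    (t := ⟨t, htH⟩) (y := ⟨y, hyH⟩) (Subtype.ext ht) (Subtype.ext hinv)
    (by rw [← Subgroup.orderOf_coe]; exact hyo) (Subtype.ext hy) (by
      rintro ⟨x, hx⟩ hxy hx2
      have hxy' : x * y = y * x := congrArg Subtype.val hxy
      have hx2' : x ^ 2 ∈ D := hx2
      show x ∈ D
      obtain ⟨j, hj⟩ := hD ⟨x ^ 2, hx2'⟩
      have hj' : (x ^ 2) ^ 2 ^ j = 1 := congrArg Subtype.val hj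
      have hX : IsPGroup 2 (Subgroup.zpowers x) := by
        obtain ⟨i, -, hi⟩ := (Nat.dvd_prime_pow Nat.prime_two).1
          (show orderOf x ∣ 2 ^ (j + 1) by
            rw [pow_succ, mul_comm]
            apply orderOf_dvd_of_pow_eq_one
            rw [pow_mul, hj'])
        apply IsPGroup.of_card (n := i)
        rw [Nat.card_zpowers, hi]
      have hXD : Subgroup.zpowers x ≤ Subgroup.normalizer (D : Set G) := by
        refine le_trans ?_ (Subgroup.centralizer_le_normalizer _)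
        rw [Subgroup.zpowers_le, ← hH]
        exact hx
      have h1 := IsPGroup.to_sup_of_normal_right' hX hD hXD
      have h2 := hmax _ h1 (sup_le (by
        rw [Subgroup.zpowers_le, Subgroup.mem_centralizer_singleton_iff]; exact hxy') hDy) le_sup_right
      rw [← h2]
      exact (le_sup_left : Subgroup.zpowers x ≤ _) (Subgroup.mem_zpowers x))
  obtain ⟨B, hB⟩ := BlockHom.inducedBlockDefined hM hD hDH (by rw [hH])
    (by rw [hH]; exact Subgroup.centralizer_le_normalizer _) hb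
  refine ⟨B, hB.2.1, stable_of_induced hk hkH hB hbst, ?_⟩
  rw [Ne, ← BlockThird.induced_principal_iff hM hB]
  intro hbp
  have h1 := defectGroup_card hM hb hbD
  rw [hbp, Contrib2.blockDefect_principal hM, Nat.card_congr (Subgroup.subgroupOfEquivOfLe hDH).toEquiv] at h1
  -- `D ⊔ ⟨t⟩` is a bigger `2`-subgroup
  have hX : IsPGroup 2 (Subgroup.zpowers t) := by
    rintro ⟨x, k, rfl⟩
    refine ⟨1, Subtype.ext ?_⟩
    show (t ^ k) ^ (2 ^ 1) = 1
    rw [pow_one, ← zpow_natCast, ← zpow_mul, mul_comm, zpow_mul, zpow_natCast, sq, ht, one_zpow]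
  have hXD : Subgroup.zpowers t ≤ Subgroup.normalizer (D : Set G) := by
    refine le_trans ?_ (Subgroup.centralizer_le_normalizer _)
    rw [Subgroup.zpowers_le, ← hH]
    exact htH
  have h2 := IsPGroup.to_sup_of_normal_right' hX hD hXD
  obtain ⟨n, hn⟩ := IsPGroup.iff_card.1 h2
  have h3 : 2 ^ n ∣ Nat.card H := by
    rw [← hn]
    exact Subgroup.card_dvd_of_le (sup_le ((Subgroup.zpowers_le).2 htH) hDH)
  have h4 := (Nat.prime_two.pow_dvd_iff_le_factorization Nat.card_pos.ne').1 h3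
  have h5 : D < Subgroup.zpowers t ⊔ D := by
    refine lt_of_le_of_ne le_sup_right fun h => htD ?_
    rw [h]
    exact (le_sup_left : Subgroup.zpowers t ≤ _) (Subgroup.mem_zpowers t)
  have h6 : Nat.card D < Nat.card (Subgroup.zpowers t ⊔ D : Subgroup G) := by
    refine lt_of_le_of_ne (Subgroup.card_le_of_le h5.le) fun h => ?_
    exact h5.ne (Subgroup.eq_of_le_of_card_ge h5.le h.ge)
  rw [hn, h1] at h6
  have h7 := (Nat.pow_lt_pow_iff_right (by norm_num : 1 < 2)).1 h6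
  omega

end main

end Cfsg.Agent.Lib.H32Sig4
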