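import Cfsg.Agent.Lib.Subnormal
import Cfsg.Agent.Lib.ZipperH72

set_option autoImplicit false

/-!
# Bartels' generalisation of the zipper lemma (helper70)

If a subgroup `T` with normal closure `G` is subnormal in all maximal subgroups containing it with at most one
exception, then `T` lies in at most one maximal subgroup.
-/

namespace Cfsg.Agent.Lib.H70Bartels

open Subgroup Pointwise

universe u

section pingpong

variable {α : Type*}

/-- Elements obtained from `t i` by alternating words. -/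
inductive W (t : Bool → α) (E : Bool → Set (Equiv.Perm α)) : ℕ → Bool → α → Prop
  | zero (i : Bool) : W t E 0 i (t i)
  | step {l : ℕ} {i : Bool} {u : α} {y : Equiv.Perm α} (h : W t E l i u) (hy : y ∈ E (!i)) :
      W t E (l + 1) (!i) (y u)

variable [Finite α] (t : Bool → α) (E : Bool → Set (Equiv.Perm α)) (n : α → α → Prop)

theorem pingpong (ht : t true ≠ t false) (hE : ∀ i, (E i).Nonempty) (hinv : ∀ i, ∀ y ∈ E i, y⁻¹ ∈ E i)
    (hfix : ∀ i, ∀ y ∈ E i, y (t i) = t i)
    (h1 : ∀ i v, ¬ n (t i) v)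
    (h2 : ∀ i, ∀ y ∈ E i, ∀ u v, u ≠ t i → v ≠ t i → (n (y u) (y v) ↔ n u v))
    (h3 : ∀ i, ∀ y ∈ E i, ∀ u, u ≠ t i → ¬ n u (t i) → n (y u) (t i)) : False := by
  have ht' : ∀ i, t i ≠ t (!i) := by
    intro i; cases i
    · exact fun h => ht h.symm
    · exact ht
  -- the basic formula
  have hform : ∀ i, ∀ y ∈ E i, ∀ u, u ≠ t i → ¬ n u (t i) →
      {v | n (y u) v} = insert (t i) (y '' {v | n u v}) := by
    intro i y hy u hu hn
    ext v
    simp only [Set.mem_ofPred_eq, Set.mem_insert_iff, Set.mem_image]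
    constructor
    · intro hv
      by_cases hvt : v = t i
      · exact Or.inl hvt
      · right
        refine ⟨y⁻¹ v, ?_, by simp⟩
        have hw : y⁻¹ v ≠ t i := by
          intro h
          apply hvt
          have : v = y (t i) := by rw [← h]; simp
          rw [this, hfix i y hy]
        have := (h2 i y hy u (y⁻¹ v) hu hw).mp
        apply this
        simpa using hv
    · rintro (rfl | ⟨w, hw, rfl⟩)
      · exact h3 i y hy u hu hn
      · have hwt : w ≠ t i := by rintro rfl; exact hn hw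
        exact (h2 i y hy u w hu hwt).mpr hw
  have hcard : ∀ i, ∀ y ∈ E i, ∀ u, u ≠ t i → ¬ n u (t i) →
      {v | n (y u) v}.ncard = {v | n u v}.ncard + 1 := by
    intro i y hy u hu hn
    rw [hform i y hy u hu hn, Set.ncard_insert_of_notMem _ (Set.toFinite _),
      Set.ncard_image_of_injective _ y.injective]
    rintro ⟨w, hw, hwt⟩
    have : w = t i := y.injective (hwt.trans (hfix i y hy).symm)
    rw [this] at hw
    exact hn hw
  have h0 : ∀ i, {v | n (t i) v}.ncard = 0 := by
    intro i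
    have : {v | n (t i) v} = ∅ := by
      ext v; simp [h1 i v]
    rw [this, Set.ncard_empty]
  have main : ∀ N : ℕ, (∀ l ≤ N, ∀ i u, W t E l i u → {v | n u v}.ncard = l) ∧
      (∀ l k, k + l ≤ N → ∀ i s v, W t E k i s → W t E l (!i) v → ¬ n v s) := by
    intro N
    induction N with
    | zero =>
      refine ⟨?_, ?_⟩
      · intro l hl i u hw
        obtain rfl : l = 0 := by omega
        cases hw
        exact h0 i
      · intro l k hkl i s v hs hv
        obtain rfl : l = 0 := by omega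
        cases hv
        exact h1 _ s
    | succ N ih =>
      obtain ⟨ihZ, ihC⟩ := ih
      -- elements of positive length or other type are not `t j`
      have hne : ∀ l ≤ N, ∀ j w, W t E l (!j) w → w ≠ t j := by
        intro l hl j w hw hwt
        rcases Nat.eq_zero_or_pos l with rfl | hpos
        · cases hw
          exact ht' j hwt.symm
        · have := ihZ l hl _ _ hw
          rw [hwt, h0] at this
          omega
      have hZ : ∀ l ≤ N + 1, ∀ i u, W t E l i u → {v | n u v}.ncard = l := by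
        intro l hl i u hw
        rcases Nat.lt_or_ge N l with hlt | hge
        · obtain rfl : l = N + 1 := by omega
          cases hw with
          | @step _ i u y h hy =>
            have hW' : W t E N (!(!i)) u := by rw [Bool.not_not]; exact h
            rw [hcard (!i) y hy u (hne N le_rfl (!i) u hW')
              (ihC N 0 (by omega) (!i) _ _ (W.zero _) hW'), ihZ N le_rfl _ _ h]
        · exact ihZ l hge i u hw
      refine ⟨hZ, ?_⟩
      intro l
      induction l with
      | zero =>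
        intro k hkl i s v hs hv
        cases hv
        exact h1 _ s
      | succ l ihl =>
        intro k hkl i s v hs hv
        generalize hj : (!i) = j at hv
        cases hv with
        | @step _ i' w y h hy =>
          have hii : i' = i := by
            have := congrArg (fun b => !b) hj
            simpa using this.symm
          subst hii
          have hW' : W t E l (!(!i')) w := by rw [Bool.not_not]; exact h
          have hw1 : w ≠ t (!i') := hne l (by omega) (!i') w hW'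
          have hw2 : ¬ n w (t (!i')) := ihC l 0 (by omega) (!i') _ _ (W.zero _) hW'
          intro hns
          have hmem : s ∈ {v | n (y w) v} := hns
          rw [hform (!i') y hy w hw1 hw2] at hmem
          rcases hmem with hst | ⟨s', hs', rfl⟩
          · rcases Nat.eq_zero_or_pos k with rfl | hpos
            · cases hs
              exact ht' i' hst
            · have := hZ k (by omega) _ _ hs
              rw [hst, h0] at this
              omega
          · have hW2 : W t E (k + 1) (!i') s' := by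
              have := W.step hs (hinv _ y hy)
              simpa using this
            exact ihl (k + 1) (by omega) (!i') s' w hW2 hW' hs'
  have hex : ∀ l : ℕ, ∃ i u, W t E l i u := by
    intro l
    induction l with
    | zero => exact ⟨true, t true, W.zero true⟩
    | succ l ih =>
      obtain ⟨i, u, hu⟩ := ih
      obtain ⟨y, hy⟩ := hE (!i)
      exact ⟨!i, y u, W.step hu hy⟩
  obtain ⟨i, u, hu⟩ := hex (Nat.card α + 1)
  have h4 := (main (Nat.card α + 1)).1 _ le_rfl i u hu
  have h5 : {v | n u v}.ncard ≤ Nat.card α := by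
    rw [← Set.ncard_univ]
    exact Set.ncard_le_ncard (Set.subset_univ _) Set.finite_univ
  omega

end pingpong


section sn

variable {G : Type u} [Group G]

theorem sn_self (A : Subgroup G) : (A.subgroupOf A).IsSubnormal := by
  rw [Subgroup.subgroupOf_self]; exact IsSubnormal.top

theorem sn_trans {A B C : Subgroup G} (hAB : A ≤ B) (hBC : B ≤ C) (h1 : (A.subgroupOf B).IsSubnormal)
    (h2 : (B.subgroupOf C).IsSubnormal) : (A.subgroupOf C).IsSubnormal :=
  IsSubnormal.trans (Subgroup.comap_mono hAB) (ZipperH72.snIn_comap hBC h1) h2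

theorem sn_sSup [Finite G] (S : Set (Subgroup G)) (R : Subgroup G) (hle : ∀ U ∈ S, U ≤ R)
    (h : ∀ U ∈ S, (U.subgroupOf R).IsSubnormal) : ((sSup S).subgroupOf R).IsSubnormal := by
  have h1 : ((sSup S).subgroupOf R) = sSup ((fun U : Subgroup G => U.subgroupOf R) '' S) := by
    apply le_antisymm
    · intro x hx
      have hx' : (x : G) ∈ sSup S := hx
      have h2 : sSup S ≤ (sSup ((fun U : Subgroup G => U.subgroupOf R) '' S)).map R.subtype := by
        refine sSup_le fun U hU => ?_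
        rw [← Subgroup.map_subgroupOf_eq_of_le (hle U hU)]
        exact Subgroup.map_mono (le_sSup ⟨U, hU, rfl⟩)
      obtain ⟨y, hy, hyx⟩ := h2 hx'
      have : y = x := R.subtype_injective hyx
      rw [← this]; exact hy
    · refine sSup_le ?_
      rintro _ ⟨U, hU, rfl⟩
      exact Subgroup.comap_mono (le_sSup hU)
  rw [h1]
  apply Subnormal.isSubnormal_sSup
  rintro _ ⟨U, hU, rfl⟩
  exact h U hU

theorem sn_sup [Finite G] {A B R : Subgroup G} (hA : A ≤ R) (hB : B ≤ R)
    (h1 : (A.subgroupOf R).IsSubnormal) (h2 : (B.subgroupOf R).IsSubnormal) :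
    ((A ⊔ B).subgroupOf R).IsSubnormal := by
  rw [Subgroup.subgroupOf_sup hA hB]
  exact Subnormal.isSubnormal_sup h1 h2

theorem card_conj (g : G) (U : Subgroup G) : Nat.card (MulAut.conj g • U : Subgroup G) = Nat.card U := by
  exact (Nat.card_congr (Subgroup.equivSMul (MulAut.conj g) U).toEquiv).symm

theorem conj_coatom {M : Subgroup G} (hM : IsCoatom M) (g : G) : IsCoatom (MulAut.conj g • M) := by
  refine ⟨?_, ?_⟩
  · intro h
    apply hM.1
    have : M = MulAut.conj g⁻¹ • (⊤ : Subgroup G) := by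
      rw [← h, ← mul_smul, ← map_mul, inv_mul_cancel, map_one, one_smul]
    rw [this]
    ext x; simp [Subgroup.mem_pointwise_smul_iff_inv_smul_mem]
  · intro B hB
    have h1 : M < MulAut.conj g⁻¹ • B := by
      refine lt_of_le_of_ne ?_ ?_
      · rw [map_inv, Subgroup.subset_pointwise_smul_iff, inv_inv]; exact hB.le
      · rintro h
        apply hB.ne
        rw [h, ← mul_smul, ← map_mul, mul_inv_cancel, map_one, one_smul]
    have h2 := hM.2 _ h1
    have : B = MulAut.conj g • (⊤ : Subgroup G) := by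
      rw [← h2, ← mul_smul, ← map_mul, mul_inv_cancel, map_one, one_smul]
    rw [this]
    ext x; simp [Subgroup.mem_pointwise_smul_iff_inv_smul_mem]

theorem smul_eq_of_mem_normalizer {g : G} {H : Subgroup G} (hg : g ∈ normalizer (H : Set G)) :
    MulAut.conj g • H = H := by
  ext x
  rw [Subgroup.mem_pointwise_smul_iff_inv_smul_mem]
  rw [← map_inv]
  have := (mem_normalizer_iff.mp (inv_mem hg)) x
  simpa using this.symm

theorem mem_normalizer_of_smul_eq {g : G} {H : Subgroup G} (h : MulAut.conj g • H = H) :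
    g ∈ normalizer (H : Set G) := by
  rw [mem_normalizer_iff]
  intro x
  constructor
  · intro hx
    rw [← h]
    exact ⟨x, hx, rfl⟩
  · intro hx
    rw [← h] at hx
    obtain ⟨y, hy, hyx⟩ := hx
    have : y = x := by
      have := hyx
      simpa using this
    rwa [← this]

theorem conj_smul_self {g : G} {H : Subgroup G} (hg : g ∈ H) : MulAut.conj g • H = H :=
  smul_eq_of_mem_normalizer (Subgroup.le_normalizer hg)

theorem normalClosure_le_of_le {A N : Subgroup G} (hA : normalClosure (A : Set G) = ⊤) (hN : N.Normal)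
    (h : A ≤ N) : N = ⊤ := by
  rw [← top_le_iff, ← hA]
  exact normalClosure_le_normal h

theorem normalClosure_mono_top {A B : Subgroup G} (hA : normalClosure (A : Set G) = ⊤) (h : A ≤ B) :
    normalClosure (B : Set G) = ⊤ := by
  rw [← top_le_iff, ← hA]
  exact normalClosure_mono h

theorem normalClosure_conj_top {A : Subgroup G} (hA : normalClosure (A : Set G) = ⊤) (g : G) :
    normalClosure ((MulAut.conj g • A : Subgroup G) : Set G) = ⊤ := by
  rw [← top_le_iff, ← hA]
  apply normalClosure_le_normal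
  intro a ha
  have h1 : g * a * g⁻¹ ∈ normalClosure ((MulAut.conj g • A : Subgroup G) : Set G) :=
    subset_normalClosure ⟨a, ha, rfl⟩
  have h2 := (inferInstance : (normalClosure ((MulAut.conj g • A : Subgroup G) : Set G)).Normal).conj_mem
    _ h1 g⁻¹
  simpa [mul_assoc] using h2

end sn


section main

variable {G : Type u} [Group G]

/-- `U` is subnormal in every maximal subgroup containing it, except possibly `E`. -/
def Ex (U E : Subgroup G) : Prop :=
  ∀ F : Subgroup G, IsCoatom F → F ≠ E → U ≤ F → (U.subgroupOf F).IsSubnormal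

theorem Ex.conj {U E : Subgroup G} (h : Ex U E) (g : G) :
    Ex (MulAut.conj g • U) (MulAut.conj g • E) := by
  intro F hF hne hle
  have h1 : U ≤ MulAut.conj g⁻¹ • F := by
    rw [map_inv, Subgroup.subset_pointwise_smul_iff, inv_inv]; exact hle
  have h2 : MulAut.conj g⁻¹ • F ≠ E := by
    rintro rfl
    apply hne
    rw [← mul_smul, ← map_mul, mul_inv_cancel, map_one, one_smul]
  exact ZipperH72.snIn_conj U F g (h _ (conj_coatom hF _) h2 h1)

/-- The pair (conjugate of `T`, corresponding conjugate of `M`). -/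
def Ph (T M U E : Subgroup G) : Prop := ∃ g : G, U = MulAut.conj g • T ∧ E = MulAut.conj g • M

theorem Ph.conj {T M U E : Subgroup G} (h : Ph T M U E) (x : G) :
    Ph T M (MulAut.conj x • U) (MulAut.conj x • E) := by
  obtain ⟨g, rfl, rfl⟩ := h
  exact ⟨x * g, by rw [map_mul, mul_smul], by rw [map_mul, mul_smul]⟩

/-- The situation of the main argument. -/
structure Sit (T M : Subgroup G) : Prop where
  cl : normalClosure (T : Set G) = ⊤
  coM : IsCoatom M
  le : T ≤ M
  nsn : ¬ (T.subgroupOf M).IsSubnormal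
  ex : Ex T M
  /-- the uniqueness statement coming from induction -/
  uniq : ∀ (g₁ g₂ : G) (E K : Subgroup G), IsCoatom E → IsCoatom K → E ≠ K →
    MulAut.conj g₁ • T ≤ E → MulAut.conj g₁ • T ≤ K → MulAut.conj g₂ • T ≤ E → MulAut.conj g₂ • T ≤ K →
    Ex (MulAut.conj g₁ • T) E → Ex (MulAut.conj g₂ • T) E → MulAut.conj g₁ • T = MulAut.conj g₂ • T

namespace Sit

variable {T M : Subgroup G} (S : Sit T M)

include S

theorem ph_coatom {U E : Subgroup G} (h : Ph T M U E) : IsCoatom E := by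
  obtain ⟨g, rfl, rfl⟩ := h
  exact conj_coatom S.coM g

theorem ph_le {U E : Subgroup G} (h : Ph T M U E) : U ≤ E := by
  obtain ⟨g, rfl, rfl⟩ := h
  exact Subgroup.pointwise_smul_le_pointwise_smul_iff.mpr S.le

theorem ph_ex {U E : Subgroup G} (h : Ph T M U E) : Ex U E := by
  obtain ⟨g, rfl, rfl⟩ := h
  exact S.ex.conj g

theorem ph_nsn {U E : Subgroup G} (h : Ph T M U E) : ¬ (U.subgroupOf E).IsSubnormal := by
  obtain ⟨g, rfl, rfl⟩ := h
  intro h1
  apply S.nsn
  have h2 := ZipperH72.snIn_conj (MulAut.conj g • T) M g⁻¹ (by rw [inv_inv]; exact h1)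
  rwa [← mul_smul, ← map_mul, inv_mul_cancel, map_one, one_smul] at h2

theorem ph_unique {U E E' : Subgroup G} (h : Ph T M U E) (h' : Ph T M U E') : E = E' := by
  by_contra hne
  exact S.ph_nsn h' (S.ph_ex h E' (S.ph_coatom h') (Ne.symm hne) (S.ph_le h'))

theorem coatom_not_normal {R U E : Subgroup G} (hR : IsCoatom R) (h : Ph T M U E) (hU : U ≤ R) :
    normalizer (R : Set G) = R := by
  rcases hR.le_iff.mp (Subgroup.le_normalizer (H := R)) with h1 | h1
  · exfalso
    have hn : R.Normal := Subgroup.normalizer_eq_top_iff.mp h1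
    obtain ⟨g, rfl, -⟩ := h
    exact hR.1 (normalClosure_le_of_le (normalClosure_conj_top S.cl g) hn hU)
  · exact h1

/-- uniqueness in terms of `Ph` -/
theorem uniq' {U V R K : Subgroup G} (hU : Ph T M U R) (hV : Ph T M V R) (hK : IsCoatom K) (hne : R ≠ K)
    (hUK : U ≤ K) (hVK : V ≤ K) : U = V := by
  have hRc := S.ph_coatom hU
  have h1 := S.ph_le hU
  have h2 := S.ph_le hV
  have h3 := S.ph_ex hU
  have h4 := S.ph_ex hV
  obtain ⟨g₁, rfl, -⟩ := hU
  obtain ⟨g₂, rfl, -⟩ := hV
  exact S.uniq g₁ g₂ R K hRc hK hne h1 hUK h2 hVK h3 h4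

end Sit

/-- conjugates of `T` contained in both `K` and `L` -/
def Fam (T K L : Subgroup G) : Set (Subgroup G) :=
  {U | (∃ g : G, U = MulAut.conj g • T) ∧ U ≤ K ∧ U ≤ L}

theorem Fam.smul {T K L : Subgroup G} {U : Subgroup G} (hU : ∃ g : G, U = MulAut.conj g • T) (x : G) :
    ∃ g : G, MulAut.conj x • U = MulAut.conj g • T := by
  obtain ⟨g, rfl⟩ := hU
  exact ⟨x * g, by rw [map_mul, mul_smul]⟩

theorem ph_of {T M U : Subgroup G} (hU : ∃ g : G, U = MulAut.conj g • T) : ∃ E, Ph T M U E := by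
  obtain ⟨g, rfl⟩ := hU
  exact ⟨MulAut.conj g • M, g, rfl, rfl⟩

theorem ph_fam {T M U E : Subgroup G} (h : Ph T M U E) : ∃ g : G, U = MulAut.conj g • T := by
  obtain ⟨g, rfl, rfl⟩ := h; exact ⟨g, rfl⟩

variable [Finite G]

/-- The two "ping-pong players" obtained at a maximal intersection. -/
theorem star {T M : Subgroup G} (S : Sit T M) {K L : Subgroup G} (hK : IsCoatom K) (hL : IsCoatom L)
    (hKL : K ≠ L) (X : Subgroup G) (hX : X = sSup (Fam T K L)) (hne : (Fam T K L).Nonempty)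
    (hmax : ∀ E F : Subgroup G, IsCoatom E → IsCoatom F → E ≠ F → X ≤ E → X ≤ F → Fam T E F = Fam T K L)
    {Q R : Subgroup G} (hQ : IsCoatom Q) (hNQ : normalizer (X : Set G) ≤ Q) (hR : IsCoatom R) (hXR : X ≤ R)
    (hRQ : R ≠ Q) :
    ∃ TR ∈ Fam T K L, Ph T M TR R ∧ ∃ x ∈ R, MulAut.conj x • TR ≠ TR ∧
      ∀ U : Subgroup G, (U ∈ Fam T K L ∧ U ≠ TR) ↔
        (MulAut.conj x • U ∈ Fam T K L ∧ MulAut.conj x • U ≠ TR) := by
  classical
  have hXQ : X ≤ Q := Subgroup.le_normalizer.trans hNQ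
  have hXK : X ≤ K := by rw [hX]; exact sSup_le fun U hU => hU.2.1
  have hXL : X ≤ L := by rw [hX]; exact sSup_le fun U hU => hU.2.2
  have hRQf : Fam T R Q = Fam T K L := hmax R Q hR hQ hRQ hXR hXQ
  have hmemX : ∀ U, U ∈ Fam T K L → U ≤ X := fun U hU => by rw [hX]; exact le_sSup hU
  -- uniqueness inside the family
  have F2 : ∀ U V, U ∈ Fam T K L → V ∈ Fam T K L → Ph T M U R → Ph T M V R → U = V := by
    intro U V hU hV h1 h2
    by_cases hRK : R = K
    · have hRL : R ≠ L := by rw [hRK]; exact hKL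
      exact S.uniq' h1 h2 hL hRL hU.2.2 hV.2.2
    · exact S.uniq' h1 h2 hK hRK hU.2.1 hV.2.1
  -- the family of subnormal conjugates in `R`
  let TR' : Set (Subgroup G) := {U | (∃ g : G, U = MulAut.conj g • T) ∧ U ≤ R ∧ ¬ Ph T M U R}
  have hTRle : ∀ U ∈ TR', U ≤ R := fun U hU => hU.2.1
  have hTRsn : ∀ U ∈ TR', (U.subgroupOf R).IsSubnormal := by
    intro U hU
    obtain ⟨E, hE⟩ := ph_of (M := M) hU.1
    have hER : R ≠ E := by rintro rfl; exact hU.2.2 hE
    exact S.ph_ex hE R hR hER hU.2.1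
  have hTRconj : ∀ U ∈ TR', ∀ g ∈ R, MulAut.conj g • U ∈ TR' := by
    intro U hU g hg
    refine ⟨Fam.smul (K := K) (L := L) hU.1 g, ?_, ?_⟩
    · rw [← conj_smul_self hg]
      exact Subgroup.pointwise_smul_le_pointwise_smul_iff.mpr hU.2.1
    · intro h
      apply hU.2.2
      have h2 := h.conj g⁻¹
      rw [← mul_smul, ← map_mul, inv_mul_cancel, map_one, one_smul, conj_smul_self (inv_mem hg)] at h2
      exact h2
  have hinvfam : ∀ (F : Set (Subgroup G)), (∀ U ∈ F, ∀ g ∈ R, MulAut.conj g • U ∈ F) →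
      R ≤ normalizer ((sSup F : Subgroup G) : Set G) := by
    intro F hF
    rw [Subgroup.le_normalizer_iff]
    intro g hg
    suffices hsuff : sSup F ≤ (sSup F).comap (MulAut.conj g).toMonoidHom by
      intro k hk
      exact hsuff hk
    refine sSup_le fun B hB => ?_
    intro b hb
    exact le_sSup (hF B hB g hg) ⟨b, hb, rfl⟩
  -- (a)
  obtain ⟨TR, hTRmem, hTRph⟩ : ∃ TR ∈ Fam T K L, Ph T M TR R := by
    by_contra hcon
    push Not at hcon
    have hsub : Fam T K L ⊆ TR' := fun U hU => ⟨hU.1, (hmemX U hU).trans hXR, hcon U hU⟩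
    rcases Set.eq_or_ssubset_of_subset hsub with heq | hss
    · have h1 : R ≤ normalizer (X : Set G) := by
        rw [hX, heq]
        exact hinvfam TR' hTRconj
      rcases hR.le_iff.mp (h1.trans hNQ) with h2 | h2
      · exact hQ.1 h2
      · exact hRQ h2.symm
    · obtain ⟨X', hX', hX'0, hX'n⟩ := Subnormal.exists_normalizing_member_subgroup R TR' (Fam T K L)
        hTRle hTRsn hTRconj hss
      apply hX'0
      rw [← hRQf]
      rw [← hX] at hX'n
      exact ⟨hX'.1, hX'.2.1, hX'n.trans hNQ⟩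
  let Y : Set (Subgroup G) := {U | U ∈ Fam T K L ∧ U ≠ TR}
  have hYsub : Y ⊆ TR' := by
    intro U hU
    refine ⟨hU.1.1, (hmemX U hU.1).trans hXR, ?_⟩
    intro h
    exact hU.2 (F2 U TR hU.1 hTRmem h hTRph)
  have hPX : sSup Y ≤ X := sSup_le fun U hU => hmemX U hU.1
  have hPsn : ((sSup Y).subgroupOf R).IsSubnormal := sn_sSup Y R (fun U hU => hTRle U (hYsub hU))
    (fun U hU => hTRsn U (hYsub hU))
  have hTRP : ¬ TR ≤ sSup Y := by
    intro h
    have h1 : (TR.subgroupOf Q).IsSubnormal := S.ph_ex hTRph Q hQ hRQ.symm ((hmemX TR hTRmem).trans hXQ)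
    have h2 : (TR.subgroupOf (sSup Y)).IsSubnormal :=
      Subnormal.isSubnormal_subgroupOf_of_le (hPX.trans hXQ) h1
    exact S.ph_nsn hTRph (sn_trans h (hPX.trans hXR) h2 hPsn)
  have hYiff : ∀ U : Subgroup G, U ∈ Y ↔ (∃ g : G, U = MulAut.conj g • T) ∧ U ≤ sSup Y := by
    intro U
    constructor
    · intro hU
      exact ⟨hU.1.1, le_sSup hU⟩
    · rintro ⟨h1, h2⟩
      refine ⟨⟨h1, (h2.trans hPX).trans hXK, (h2.trans hPX).trans hXL⟩, ?_⟩
      rintro rfl
      exact hTRP h2
  obtain ⟨x, hxR, hxP, hxQ⟩ : ∃ x ∈ R, x ∈ normalizer ((sSup Y : Subgroup G) : Set G) ∧ x ∉ Q := by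
    rcases Set.eq_or_ssubset_of_subset hYsub with heq | hss
    · have h1 : R ≤ normalizer ((sSup Y : Subgroup G) : Set G) := by
        rw [heq]
        exact hinvfam TR' hTRconj
      have h2 : ¬ R ≤ Q := by
        intro h
        rcases hR.le_iff.mp h with h3 | h3
        · exact hQ.1 h3
        · exact hRQ h3.symm
      obtain ⟨x, hx, hxQ⟩ := SetLike.not_le_iff_exists.mp h2
      exact ⟨x, hx, h1 hx, hxQ⟩
    · obtain ⟨X', hX', hX'0, hX'n⟩ := Subnormal.exists_normalizing_member_subgroup R TR' Y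
        hTRle hTRsn hTRconj hss
      have h2 : ¬ X' ≤ Q := by
        intro h
        have h3 : X' ∈ Fam T K L := by
          rw [← hRQf]
          exact ⟨hX'.1, hX'.2.1, h⟩
        apply hX'0
        refine ⟨h3, ?_⟩
        rintro rfl
        exact hX'.2.2 hTRph
      obtain ⟨x, hx, hxQ⟩ := SetLike.not_le_iff_exists.mp h2
      exact ⟨x, hX'.2.1 hx, hX'n hx, hxQ⟩
  refine ⟨TR, hTRmem, hTRph, x, hxR, ?_, ?_⟩
  · intro hcon
    apply hxQ
    apply hNQ
    have hXeq : X = sSup Y ⊔ TR := by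
      apply le_antisymm
      · rw [hX]
        refine sSup_le fun U hU => ?_
        by_cases h : U = TR
        · rw [h]; exact le_sup_right
        · have hUY : U ∈ Y := ⟨hU, h⟩
          exact (le_sSup hUY).trans le_sup_left
      · exact sup_le hPX (hmemX TR hTRmem)
    rw [hXeq]
    exact Subnormal.normalizer_inf_le_normalizer_sup _ _ ⟨hxP, mem_normalizer_of_smul_eq hcon⟩
  · intro U
    have h1 : MulAut.conj x • (sSup Y) = sSup Y := smul_eq_of_mem_normalizer hxP
    have h2 : (U ∈ Fam T K L ∧ U ≠ TR) ↔ U ∈ Y := Iff.rfl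
    have h3 : (MulAut.conj x • U ∈ Fam T K L ∧ MulAut.conj x • U ≠ TR) ↔ MulAut.conj x • U ∈ Y := Iff.rfl
    rw [h2, h3, hYiff, hYiff]
    constructor
    · rintro ⟨h4, h5⟩
      refine ⟨Fam.smul (K := K) (L := L) h4 x, ?_⟩
      rw [← h1]
      exact Subgroup.pointwise_smul_le_pointwise_smul_iff.mpr h5
    · rintro ⟨h4, h5⟩
      refine ⟨?_, ?_⟩
      · have := Fam.smul (K := K) (L := L) h4 x⁻¹
        rwa [← mul_smul, ← map_mul, inv_mul_cancel, map_one, one_smul] at this
      · rw [← h1] at h5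
        exact Subgroup.pointwise_smul_le_pointwise_smul_iff.mp h5


/-- The permutation of the family induced by conjugation by a player. -/
noncomputable def plPerm (F : Set (Subgroup G)) (TR : Subgroup G) (hTR : TR ∈ F) (x : G)
    (hx : ∀ U : Subgroup G, (U ∈ F ∧ U ≠ TR) ↔ (MulAut.conj x • U ∈ F ∧ MulAut.conj x • U ≠ TR)) :
    Equiv.Perm F := by
  classical
  have hx' : ∀ U : Subgroup G, (U ∈ F ∧ U ≠ TR) → (MulAut.conj x⁻¹ • U ∈ F ∧ MulAut.conj x⁻¹ • U ≠ TR) := by
    intro U hU
    apply (hx _).mpr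
    rwa [← mul_smul, ← map_mul, mul_inv_cancel, map_one, one_smul]
  exact
  { toFun := fun U => if h : (U : Subgroup G) = TR then ⟨TR, hTR⟩ else
      ⟨MulAut.conj x • (U : Subgroup G), ((hx U).mp ⟨U.2, h⟩).1⟩
    invFun := fun U => if h : (U : Subgroup G) = TR then ⟨TR, hTR⟩ else
      ⟨MulAut.conj x⁻¹ • (U : Subgroup G), (hx' U ⟨U.2, h⟩).1⟩
    left_inv := by
      intro U
      by_cases h : (U : Subgroup G) = TR
      · simp only [h, dite_true]
        exact Subtype.ext h.symm
      · have h2 := ((hx U).mp ⟨U.2, h⟩).2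
        simp only [h, dite_false, h2]
        apply Subtype.ext
        simp only
        rw [← mul_smul, ← map_mul, inv_mul_cancel, map_one, one_smul]
    right_inv := by
      intro U
      by_cases h : (U : Subgroup G) = TR
      · simp only [h, dite_true]
        exact Subtype.ext h.symm
      · have h2 := (hx' U ⟨U.2, h⟩).2
        simp only [h, dite_false, h2]
        apply Subtype.ext
        simp only
        rw [← mul_smul, ← map_mul, mul_inv_cancel, map_one, one_smul] }

theorem plPerm_self (F : Set (Subgroup G)) (TR : Subgroup G) (hTR : TR ∈ F) (x : G)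
    (hx : ∀ U : Subgroup G, (U ∈ F ∧ U ≠ TR) ↔ (MulAut.conj x • U ∈ F ∧ MulAut.conj x • U ≠ TR)) :
    plPerm F TR hTR x hx ⟨TR, hTR⟩ = ⟨TR, hTR⟩ := by
  classical
  simp [plPerm]

theorem plPerm_apply (F : Set (Subgroup G)) (TR : Subgroup G) (hTR : TR ∈ F) (x : G)
    (hx : ∀ U : Subgroup G, (U ∈ F ∧ U ≠ TR) ↔ (MulAut.conj x • U ∈ F ∧ MulAut.conj x • U ≠ TR))
    (U : F) (hU : U ≠ ⟨TR, hTR⟩) :
    ((plPerm F TR hTR x hx U : F) : Subgroup G) = MulAut.conj x • (U : Subgroup G) := by
  classical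
  have h : (U : Subgroup G) ≠ TR := fun h => hU (Subtype.ext h)
  simp [plPerm, h]

/-- the "players" at `R` -/
def Good (F : Set (Subgroup G)) (TR R : Subgroup G) (x : G) : Prop :=
  x ∈ R ∧ MulAut.conj x • TR ≠ TR ∧
    ∀ U : Subgroup G, (U ∈ F ∧ U ≠ TR) ↔ (MulAut.conj x • U ∈ F ∧ MulAut.conj x • U ≠ TR)

theorem Good.inv {F : Set (Subgroup G)} {TR R : Subgroup G} {x : G} (h : Good F TR R x) :
    Good F TR R x⁻¹ := by
  refine ⟨inv_mem h.1, ?_, ?_⟩
  · intro h2
    apply h.2.1
    conv_lhs => rw [← h2]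
    rw [← mul_smul, ← map_mul, mul_inv_cancel, map_one, one_smul]
  · intro U
    have := h.2.2 (MulAut.conj x⁻¹ • U)
    rw [← mul_smul, ← map_mul, mul_inv_cancel, map_one, one_smul] at this
    exact this.symm

theorem twoPlayers {T M : Subgroup G} (S : Sit T M) {K L : Subgroup G} (hK : IsCoatom K) (hL : IsCoatom L)
    (hKL : K ≠ L) (T₁ T₂ R₁ R₂ : Subgroup G) (hT₁ : T₁ ∈ Fam T K L) (hT₂ : T₂ ∈ Fam T K L)
    (hP₁ : Ph T M T₁ R₁) (hP₂ : Ph T M T₂ R₂) (hX₁ : ∀ U ∈ Fam T K L, U ≤ R₁) (hX₂ : ∀ U ∈ Fam T K L, U ≤ R₂)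
    (hR : R₁ ≠ R₂) (x₁ x₂ : G) (hg₁ : Good (Fam T K L) T₁ R₁ x₁) (hg₂ : Good (Fam T K L) T₂ R₂ x₂) :
    False := by
  classical
  let F := Fam T K L
  have : Finite F := inferInstance
  let tt : Bool → Subgroup G := fun b => if b then T₁ else T₂
  let RR : Bool → Subgroup G := fun b => if b then R₁ else R₂
  have htt : ∀ b, tt b ∈ F := by intro b; cases b <;> simp [tt, F, hT₁, hT₂]
  have hPh : ∀ b, Ph T M (tt b) (RR b) := by intro b; cases b <;> simp [tt, RR, hP₁, hP₂]
  have hXR : ∀ b, ∀ U ∈ F, U ≤ RR b := by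
    intro b; cases b
    · exact hX₂
    · exact hX₁
  let t : Bool → F := fun b => ⟨tt b, htt b⟩
  let E : Bool → Set (Equiv.Perm F) := fun b => {y | ∃ x, ∃ h : Good F (tt b) (RR b) x,
    y = plPerm F (tt b) (htt b) x h.2.2}
  let n : F → F → Prop := fun U V => ∃ E', Ph T M (U : Subgroup G) E' ∧ ¬ (V : Subgroup G) ≤ E'
  have F2 : ∀ R U V, U ∈ F → V ∈ F → Ph T M U R → Ph T M V R → U = V := by
    intro R U V hU hV h1 h2
    by_cases hRK : R = K
    · have hRL : R ≠ L := by rw [hRK]; exact hKL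
      exact S.uniq' h1 h2 hL hRL hU.2.2 hV.2.2
    · exact S.uniq' h1 h2 hK hRK hU.2.1 hV.2.1
  refine pingpong t E n ?_ ?_ ?_ ?_ ?_ ?_ ?_
  · intro h
    have h2 : T₁ = T₂ := congrArg Subtype.val h
    apply hR
    rw [← h2] at hP₂
    exact S.ph_unique hP₁ hP₂
  · intro b
    cases b
    · exact ⟨_, x₂, hg₂, rfl⟩
    · exact ⟨_, x₁, hg₁, rfl⟩
  · rintro b _ ⟨x, hx, rfl⟩
    refine ⟨x⁻¹, hx.inv, ?_⟩
    rw [inv_eq_iff_mul_eq_one]
    ext U
    by_cases hU : U = ⟨tt b, htt b⟩
    · rw [hU, Equiv.Perm.mul_apply, plPerm_self, plPerm_self]; rfl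
    · rw [Equiv.Perm.mul_apply]
      have h1 := plPerm_apply F (tt b) (htt b) x⁻¹ hx.inv.2.2 U hU
      have h2 : plPerm F (tt b) (htt b) x⁻¹ hx.inv.2.2 U ≠ ⟨tt b, htt b⟩ := by
        intro h
        apply hU
        have h3 := plPerm_self F (tt b) (htt b) x⁻¹ hx.inv.2.2
        exact (plPerm F (tt b) (htt b) x⁻¹ hx.inv.2.2).injective (h.trans h3.symm)
      rw [plPerm_apply F (tt b) (htt b) x hx.2.2 _ h2, h1, ← mul_smul, ← map_mul, mul_inv_cancel, map_one,
        one_smul]
      rfl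
  · rintro b _ ⟨x, hx, rfl⟩
    exact plPerm_self _ _ _ _ _
  · rintro b V ⟨E', hE', hV⟩
    have h1 : E' = RR b := S.ph_unique hE' (hPh b)
    rw [h1] at hV
    exact hV (hXR b V V.2)
  · rintro b _ ⟨x, hx, rfl⟩ U V hU hV
    have h1 := plPerm_apply F (tt b) (htt b) x hx.2.2 U hU
    have h2 := plPerm_apply F (tt b) (htt b) x hx.2.2 V hV
    constructor
    · rintro ⟨E', hE', hVE⟩
      rw [h1] at hE'
      rw [h2] at hVE
      refine ⟨MulAut.conj x⁻¹ • E', ?_, ?_⟩
      · have := hE'.conj x⁻¹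
        rwa [← mul_smul, ← map_mul, inv_mul_cancel, map_one, one_smul] at this
      · intro h
        apply hVE
        have := Subgroup.pointwise_smul_le_pointwise_smul_iff (a := MulAut.conj x) |>.mpr h
        rwa [← mul_smul (MulAut.conj x), ← map_mul, mul_inv_cancel, map_one, one_smul] at this
    · rintro ⟨E', hE', hVE⟩
      refine ⟨MulAut.conj x • E', ?_, ?_⟩
      · rw [h1]; exact hE'.conj x
      · rw [h2]
        intro h
        exact hVE (Subgroup.pointwise_smul_le_pointwise_smul_iff.mp h)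
  · rintro b _ ⟨x, hx, rfl⟩ U hU hn
    by_contra hcon
    have h1 := plPerm_apply F (tt b) (htt b) x hx.2.2 U hU
    have hUne : (U : Subgroup G) ≠ tt b := fun h => hU (Subtype.ext h)
    obtain ⟨EU, hEU⟩ := ph_of (M := M) U.2.1
    have h2 : tt b ≤ EU := by
      by_contra h
      exact hn ⟨EU, hEU, h⟩
    have h3 : tt b ≤ MulAut.conj x • EU := by
      by_contra h
      exact hcon ⟨MulAut.conj x • EU, by rw [h1]; exact hEU.conj x, h⟩
    have h4 : MulAut.conj x • tt b ≤ MulAut.conj x • EU :=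
      Subgroup.pointwise_smul_le_pointwise_smul_iff.mpr h2
    have h5 : RR b ≠ MulAut.conj x • EU := by
      intro h
      have h6 := hEU.conj x
      rw [← h] at h6
      have h7 := (hx.2.2 U).mp ⟨U.2, hUne⟩
      exact h7.2 (F2 _ _ _ h7.1 (htt b) h6 (hPh b))
    have h8 : Ph T M (MulAut.conj x • tt b) (RR b) := by
      have := (hPh b).conj x
      rwa [conj_smul_self hx.1] at this
    exact hx.2.1 (S.uniq' h8 (hPh b) (conj_coatom (S.ph_coatom hEU) x) h5 h4 h3)

/-- A subgroup `T` of a finite group `G` whose normal closure is `G` and which is subnormal in all maximal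
subgroups containing it, with at most one exception, lies in at most one maximal subgroup. -/
theorem bartels_aux (n : ℕ) : ∀ (T M : Subgroup G), Nat.card G - Nat.card T = n →
    normalClosure (T : Set G) = ⊤ → Ex T M →
    ∀ K L : Subgroup G, IsCoatom K → IsCoatom L → T ≤ K → T ≤ L → K = L := by
  classical
  induction n using Nat.strong_induction_on with
  | _ n ih =>
  intro T M hn hcl hex K₀ L₀ hK₀ hL₀ hTK₀ hTL₀
  by_contra hKL₀
  -- uniqueness from induction
  have huniq : ∀ (g₁ g₂ : G) (E K : Subgroup G), IsCoatom E → IsCoatom K → E ≠ K →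
    MulAut.conj g₁ • T ≤ E → MulAut.conj g₁ • T ≤ K → MulAut.conj g₂ • T ≤ E → MulAut.conj g₂ • T ≤ K →
    Ex (MulAut.conj g₁ • T) E → Ex (MulAut.conj g₂ • T) E →
      MulAut.conj g₁ • T = MulAut.conj g₂ • T := by
    intro g₁ g₂ E K hE hK hEK h1 h2 h3 h4 h5 h6
    by_contra hne
    have hlt : MulAut.conj g₁ • T < MulAut.conj g₁ • T ⊔ MulAut.conj g₂ • T := by
      refine lt_of_le_of_ne le_sup_left ?_
      intro h
      apply hne
      have h7 : MulAut.conj g₂ • T ≤ MulAut.conj g₁ • T := by rw [h]; exact le_sup_right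
      refine (Subgroup.eq_of_le_of_card_ge h7 ?_).symm
      rw [card_conj, card_conj]
    have hcard : Nat.card T < Nat.card (MulAut.conj g₁ • T ⊔ MulAut.conj g₂ • T : Subgroup G) := by
      rw [← card_conj g₁ T]
      exact Set.ncard_lt_ncard hlt (Set.toFinite _)
    have hle : Nat.card (MulAut.conj g₁ • T ⊔ MulAut.conj g₂ • T : Subgroup G) ≤ Nat.card G :=
      Subgroup.card_le_card_group _
    refine hEK (ih (Nat.card G - Nat.card (MulAut.conj g₁ • T ⊔ MulAut.conj g₂ • T : Subgroup G))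
      (by omega) _ E rfl (normalClosure_mono_top (normalClosure_conj_top hcl g₁) le_sup_left) ?_ E K hE hK
      (sup_le h1 h3) (sup_le h2 h4))
    intro F hF hFE hWF
    exact sn_sup (le_sup_left.trans hWF) (le_sup_right.trans hWF)
      (h5 F hF hFE (le_sup_left.trans hWF)) (h6 F hF hFE (le_sup_right.trans hWF))
  by_cases hz : ∀ F : Subgroup G, IsCoatom F → T ≤ F → (T.subgroupOf F).IsSubnormal
  · -- the zipper case
    have hnsn : ¬ T.IsSubnormal := by
      intro h
      rcases h.lt_normal with h1 | ⟨N, hN, hTN, hNlt⟩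
      · apply hK₀.1
        rw [← top_le_iff, ← h1]; exact hTK₀
      · exact hNlt.ne (normalClosure_le_of_le hcl hN hTN)
    obtain ⟨M', -, -, hM'⟩ := ZipperH72.zipper T hnsn (by
      intro X hTX hX
      obtain ⟨F, hF, hXF⟩ := (eq_top_or_exists_le_coatom X).resolve_left hX
      exact Subnormal.isSubnormal_subgroupOf_of_le hXF (hz F hF (hTX.trans hXF)))
    exact hKL₀ ((hM' K₀ hK₀ hTK₀).trans (hM' L₀ hL₀ hTL₀).symm)
  · push Not at hz
    obtain ⟨F₀, hF₀, hTF₀, hF₀n⟩ := hz
    have hFM : F₀ = M := by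
      by_contra h
      exact hF₀n (hex F₀ hF₀ h hTF₀)
    subst hFM
    have S : Sit T F₀ := ⟨hcl, hF₀, hTF₀, hF₀n, hex, huniq⟩
    -- choose the maximal pair
    let P := {p : Subgroup G × Subgroup G // IsCoatom p.1 ∧ IsCoatom p.2 ∧ p.1 ≠ p.2}
    have : Nonempty P := ⟨⟨(K₀, L₀), hK₀, hL₀, hKL₀⟩⟩
    obtain ⟨⟨⟨K, L⟩, hK, hL, hKL⟩, hmax⟩ := Finite.exists_max (fun p : P => (Fam T p.1.1 p.1.2).ncard)
    have hK' : IsCoatom K := hK
    have hL' : IsCoatom L := hL
    have hKL' : K ≠ L := hKL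
    have hne : (Fam T K L).Nonempty := by
      have h1 := hmax ⟨(K₀, L₀), hK₀, hL₀, hKL₀⟩
      simp only at h1
      have h2 : (Fam T K₀ L₀).Nonempty :=
        ⟨T, ⟨1, by rw [map_one, one_smul]⟩, hTK₀, hTL₀⟩
      have h3 : 0 < (Fam T K₀ L₀).ncard := (Set.ncard_pos (Set.toFinite _)).mpr h2
      exact (Set.ncard_pos (Set.toFinite _)).mp (lt_of_lt_of_le h3 h1)
    obtain ⟨X, hX⟩ : ∃ X : Subgroup G, X = sSup (Fam T K L) := ⟨_, rfl⟩
    have hmemX : ∀ U ∈ Fam T K L, U ≤ X := fun U hU => by rw [hX]; exact le_sSup hU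
    have hXK : X ≤ K := by rw [hX]; exact sSup_le fun U hU => hU.2.1
    have hXL : X ≤ L := by rw [hX]; exact sSup_le fun U hU => hU.2.2
    have hmax' : ∀ E F : Subgroup G, IsCoatom E → IsCoatom F → E ≠ F → X ≤ E → X ≤ F →
        Fam T E F = Fam T K L := by
      intro E F hE hF hEF hXE hXF
      symm
      apply Set.eq_of_subset_of_ncard_le
      · intro U hU
        exact ⟨hU.1, (hmemX U hU).trans hXE, (hmemX U hU).trans hXF⟩
      · exact hmax ⟨(E, F), hE, hF, hEF⟩
      · exact Set.toFinite _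
    obtain ⟨U₀, hU₀⟩ := hne
    have hNX : normalizer (X : Set G) ≠ ⊤ := by
      intro h
      have hXn : X.Normal := Subgroup.normalizer_eq_top_iff.mp h
      obtain ⟨g, hg⟩ := hU₀.1
      have hle : MulAut.conj g • T ≤ X := by rw [← hg]; exact hmemX U₀ hU₀
      have := normalClosure_le_of_le (normalClosure_conj_top hcl g) hXn hle
      apply hK'.1
      rw [← top_le_iff, ← this]
      exact hXK
    obtain ⟨Q, hQ, hNQ⟩ := (eq_top_or_exists_le_coatom (normalizer (X : Set G))).resolve_left hNX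
    have hXQ : X ≤ Q := Subgroup.le_normalizer.trans hNQ
    -- the final contradiction given two distinct players
    have fin : ∀ R₁ R₂ Q₁ Q₂ : Subgroup G, IsCoatom R₁ → IsCoatom R₂ → IsCoatom Q₁ → IsCoatom Q₂ →
        normalizer (X : Set G) ≤ Q₁ → normalizer (X : Set G) ≤ Q₂ → X ≤ R₁ → X ≤ R₂ → R₁ ≠ Q₁ → R₂ ≠ Q₂ →
        R₁ ≠ R₂ → False := by
      intro R₁ R₂ Q₁ Q₂ hR₁ hR₂ hQ₁ hQ₂ hN₁ hN₂ hX₁ hX₂ hne₁ hne₂ hne
      obtain ⟨T₁, hT₁, hP₁, x₁, hx₁, hx₁', hx₁''⟩ := star S hK' hL' hKL' X hX ⟨U₀, hU₀⟩ hmax' hQ₁ hN₁ hR₁ hX₁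
        hne₁
      obtain ⟨T₂, hT₂, hP₂, x₂, hx₂, hx₂', hx₂''⟩ := star S hK' hL' hKL' X hX ⟨U₀, hU₀⟩ hmax' hQ₂ hN₂ hR₂ hX₂
        hne₂
      exact twoPlayers S hK' hL' hKL' T₁ T₂ R₁ R₂ hT₁ hT₂ hP₁ hP₂ (fun U hU => (hmemX U hU).trans hX₁)
        (fun U hU => (hmemX U hU).trans hX₂) hne x₁ x₂ ⟨hx₁, hx₁', hx₁''⟩ ⟨hx₂, hx₂', hx₂''⟩
    obtain ⟨R, hR, hXR, hRQ⟩ : ∃ R : Subgroup G, IsCoatom R ∧ X ≤ R ∧ R ≠ Q := by
      by_cases h : K = Q
      · exact ⟨L, hL', hXL, by rw [← h]; exact hKL'.symm⟩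
      · exact ⟨K, hK', hXK, h⟩
    by_cases hthird : ∃ R' : Subgroup G, IsCoatom R' ∧ X ≤ R' ∧ R' ≠ Q ∧ R' ≠ R
    · obtain ⟨R', hR', hXR', hR'Q, hR'R⟩ := hthird
      exact fin R R' Q Q hR hR' hQ hQ hNQ hNQ hXR hXR' hRQ hR'Q hR'R.symm
    · push Not at hthird
      have hNR : normalizer (X : Set G) ≤ R := by
        intro g hg
        have h1 : MulAut.conj g • X = X := smul_eq_of_mem_normalizer hg
        have h2 : X ≤ MulAut.conj g • R := by
          conv_lhs => rw [← h1]
          exact Subgroup.pointwise_smul_le_pointwise_smul_iff.mpr hXR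
        have h3 : MulAut.conj g • R ≠ Q := by
          intro h
          apply hRQ
          have h4 : MulAut.conj g⁻¹ • Q = Q := conj_smul_self (inv_mem (hNQ hg))
          rw [← h4, ← h, ← mul_smul, ← map_mul, inv_mul_cancel, map_one, one_smul]
        have h5 := hthird _ (conj_coatom hR g) h2 h3
        have h6 : g ∈ normalizer (R : Set G) := mem_normalizer_of_smul_eq h5
        obtain ⟨E', hE'⟩ := ph_of (M := F₀) hU₀.1
        rwa [S.coatom_not_normal hR hE' ((hmemX U₀ hU₀).trans hXR)] at h6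
      exact fin R Q Q R hR hQ hQ hR hNQ hNR hXR hXQ hRQ hRQ.symm hRQ

theorem bartels (T M : Subgroup G) (hcl : normalClosure (T : Set G) = ⊤) (hex : Ex T M)
    {K L : Subgroup G} (hK : IsCoatom K) (hL : IsCoatom L) (hTK : T ≤ K) (hTL : T ≤ L) : K = L :=
  bartels_aux _ T M rfl hcl hex K L hK hL hTK hTL

end main


section closure

variable {G : Type u} [Group G]

theorem eq_top_of_sn {A C : Subgroup G} (hA : normalClosure (A : Set G) = ⊤) (h : C.IsSubnormal)
    (hAC : A ≤ C) : C = ⊤ := by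
  rcases h.lt_normal with h1 | ⟨N, hN, hCN, hNlt⟩
  · exact h1
  · exact absurd (normalClosure_le_of_le hA hN (hAC.trans hCN)) hNlt.ne

variable [Finite G]

/-- the subnormal closure of `A` in `F` -/
theorem exists_snClosure {A F : Subgroup G} (hAF : A ≤ F) :
    ∃ H : Subgroup G, A ≤ H ∧ H ≤ F ∧ (H.subgroupOf F).IsSubnormal ∧
      normalClosure ((A.subgroupOf H : Subgroup H) : Set H) = ⊤ := by
  classical
  let P := {H : Subgroup G // A ≤ H ∧ H ≤ F ∧ (H.subgroupOf F).IsSubnormal}
  have : Nonempty P := ⟨⟨F, hAF, le_rfl, sn_self F⟩⟩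
  obtain ⟨⟨H, hAH, hHF, hsn⟩, hmin⟩ := Finite.exists_min (fun p : P => Nat.card p.1)
  refine ⟨H, hAH, hHF, hsn, ?_⟩
  let N : Subgroup H := normalClosure ((A.subgroupOf H : Subgroup H) : Set H)
  have hN1 : N.map H.subtype ≤ H := Subgroup.map_subtype_le N
  have hAN : A ≤ N.map H.subtype := by
    intro a ha
    exact ⟨⟨a, hAH ha⟩, subset_normalClosure (Subgroup.mem_subgroupOf.mpr ha), rfl⟩
  have hNs : (N.map H.subtype).subgroupOf H = N := Subgroup.comap_map_eq_self_of_injective H.subtype_injective N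
  have hNsn : ((N.map H.subtype).subgroupOf H).IsSubnormal := by
    rw [hNs]
    exact Subgroup.Normal.isSubnormal normalClosure_normal
  have hNF : ((N.map H.subtype).subgroupOf F).IsSubnormal := sn_trans hN1 hHF hNsn hsn
  have hc := hmin ⟨N.map H.subtype, hAN, hN1.trans hHF, hNF⟩
  have heq : N.map H.subtype = H := Subgroup.eq_of_le_of_card_ge hN1 hc
  have : N = ⊤ := by
    rw [← hNs, heq, Subgroup.subgroupOf_self]
  exact this

theorem bartels_max (A : Subgroup G) (hA : normalClosure (A : Set G) = ⊤) (hAG : A ≠ ⊤) :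
    sSup {H : Subgroup G | A ≤ H ∧ H ≠ ⊤ ∧
        normalClosure ((A.subgroupOf H : Subgroup ↥H) : Set ↥H) = ⊤} = ⊤ ∨
      ∃! M : Subgroup G, IsCoatom M ∧ A ≤ M := by
  classical
  by_cases hY : sSup {H : Subgroup G | A ≤ H ∧ H ≠ ⊤ ∧
        normalClosure ((A.subgroupOf H : Subgroup ↥H) : Set ↥H) = ⊤} = ⊤
  · exact Or.inl hY
  · right
    obtain ⟨M, hM, hYM⟩ := (eq_top_or_exists_le_coatom _).resolve_left hY
    have key : ∀ K : Subgroup G, IsCoatom K → A ≤ K → K = M := by
      intro K hK hAK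
      by_contra hKM
      let P := {p : Subgroup G × Subgroup G // IsCoatom p.1 ∧ p.1 ≠ M ∧ A ≤ p.2 ∧ p.2 ≤ p.1 ∧
        (p.2.subgroupOf p.1).IsSubnormal ∧ normalClosure ((A.subgroupOf p.2 : Subgroup ↥p.2) : Set ↥p.2) = ⊤}
      have : Nonempty P := by
        obtain ⟨H, h1, h2, h3, h4⟩ := exists_snClosure hAK
        exact ⟨⟨(K, H), hK, hKM, h1, h2, h3, h4⟩⟩
      obtain ⟨⟨⟨K', B⟩, hK', hK'M, hAB, hBK', hBsn, hBcl⟩, hmax⟩ :=
        Finite.exists_max (fun p : P => Nat.card p.1.2)
      simp only at hK' hK'M hAB hBK' hBsn hBcl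
      have hBtop : B ≠ ⊤ := by
        rintro rfl
        exact hK'.1 (top_le_iff.mp hBK')
      have hBmem : B ∈ {H : Subgroup G | A ≤ H ∧ H ≠ ⊤ ∧
        normalClosure ((A.subgroupOf H : Subgroup ↥H) : Set ↥H) = ⊤} := ⟨hAB, hBtop, hBcl⟩
      have hBM : B ≤ M := (le_sSup hBmem).trans hYM
      have hex : Ex B M := by
        intro F hF hFM hBF
        obtain ⟨H, h1, h2, h3, h4⟩ := exists_snClosure (hAB.trans hBF)
        have h5 : (H.subgroupOf B).IsSubnormal := Subnormal.isSubnormal_subgroupOf_of_le hBF h3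
        have h6 : H.subgroupOf B = ⊤ := eq_top_of_sn hBcl h5 (Subgroup.comap_mono h1)
        have h7 : B ≤ H := Subgroup.subgroupOf_eq_top.mp h6
        have h8 := hmax ⟨(F, H), hF, hFM, h1, h2, h3, h4⟩
        have h9 : B = H := Subgroup.eq_of_le_of_card_ge h7 h8
        rw [h9]; exact h3
      exact hK'M (bartels B M (normalClosure_mono_top hA hAB) hex hK' hM hBK' hBM)
    obtain ⟨M', hM', hAM'⟩ := (eq_top_or_exists_le_coatom A).resolve_left hAG
    have hM'M := key M' hM' hAM'
    subst hM'M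
    exact ⟨M', ⟨hM', hAM'⟩, fun K hK => key K hK.1 hK.2⟩

end closure

end Cfsg.Agent.Lib.H70Bartels
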