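import Mathlib
import Cfsg.Agent.Lib.H70Bartels

/-!
# Iterated commutators with an automorphism generate (helper2)
-/

set_option autoImplicit false

namespace Cfsg.Agent.Lib.IterComm

open Subgroup

universe u

theorem iter_gen_aux (n : ℕ) : ∀ (Γ : Type u) [Group Γ] [Finite Γ] (a : Γ), Nat.card Γ = n →
    normalClosure ({a} : Set Γ) = ⊤ → ∀ k : ℕ,
    closure ({a} ∪ Set.range ((fun c : Γ => c * a * c⁻¹ * a⁻¹)^[k])) = ⊤ := by
  induction n using Nat.strong_induction_on with
  | _ n ih =>
  intro Γ _ _ a hn ha k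
  by_contra hL
  set L := closure ({a} ∪ Set.range ((fun c : Γ => c * a * c⁻¹ * a⁻¹)^[k])) with hLdef
  have haL : a ∈ L := Subgroup.subset_closure (Or.inl rfl)
  have hkL : ∀ c, (fun c : Γ => c * a * c⁻¹ * a⁻¹)^[k] c ∈ L := fun c =>
    Subgroup.subset_closure (Or.inr ⟨c, rfl⟩)
  have hAL : zpowers a ≤ L := by rw [zpowers_le]; exact haL
  have hAtop : zpowers a ≠ ⊤ := fun h => hL (top_le_iff.mp (h ▸ hAL))
  have hAn : normalClosure ((zpowers a : Subgroup Γ) : Set Γ) = ⊤ := by
    rw [eq_top_iff, ← ha]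
    exact normalClosure_mono (by rw [Set.singleton_subset_iff]; exact mem_zpowers a)
  rcases Cfsg.Agent.Lib.H70Bartels.bartels_max (zpowers a) hAn hAtop with h1 | ⟨M, ⟨hM, hAM⟩, huniq⟩
  · apply hL
    rw [eq_top_iff, ← h1]
    refine sSup_le ?_
    rintro H ⟨hAH, hHtop, hH⟩
    have haH : a ∈ H := hAH (mem_zpowers a)
    have hcard : Nat.card H < n := by
      rw [← hn]
      refine lt_of_le_of_ne (Subgroup.card_le_card_group H) ?_
      intro h
      exact hHtop (Subgroup.eq_top_of_card_eq H h)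
    have h2 : normalClosure ({(⟨a, haH⟩ : H)} : Set H) = ⊤ := by
      rw [eq_top_iff, ← hH]
      apply Subgroup.normalClosure_le_normal
      rintro ⟨x, hx⟩ hxA
      rw [SetLike.mem_coe, mem_subgroupOf] at hxA
      obtain ⟨m, hm⟩ := hxA
      have h3 : (⟨x, hx⟩ : H) = (⟨a, haH⟩ : H) ^ m := Subtype.ext hm.symm
      rw [h3]
      exact zpow_mem (subset_normalClosure (Set.mem_singleton _)) m
    have h3 := ih _ hcard H ⟨a, haH⟩ rfl h2 k
    intro x hx
    have h4 : (⟨x, hx⟩ : H) ∈ closure ({(⟨a, haH⟩ : H)} ∪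
      Set.range ((fun c : H => c * (⟨a, haH⟩ : H) * c⁻¹ * (⟨a, haH⟩ : H)⁻¹)^[k])) := by rw [h3]; trivial
    have h5 : closure ({(⟨a, haH⟩ : H)} ∪
      Set.range ((fun c : H => c * (⟨a, haH⟩ : H) * c⁻¹ * (⟨a, haH⟩ : H)⁻¹)^[k])) ≤ L.comap H.subtype := by
      rw [closure_le]
      have h6 : ∀ (j : ℕ) (c : H), (((fun c : H => c * (⟨a, haH⟩ : H) * c⁻¹ * (⟨a, haH⟩ : H)⁻¹)^[j] c : H) : Γ) =
          (fun c : Γ => c * a * c⁻¹ * a⁻¹)^[j] (c : Γ) := by
        intro j
        induction j with
        | zero => intro c; rfl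
        | succ j ihj =>
          intro c
          rw [Function.iterate_succ_apply, Function.iterate_succ_apply, ihj]
          rfl
      rintro y (hy | ⟨c, rfl⟩)
      · rw [Set.mem_singleton_iff] at hy
        subst hy
        exact haL
      · show (((fun c : H => c * (⟨a, haH⟩ : H) * c⁻¹ * (⟨a, haH⟩ : H)⁻¹)^[k] c : H) : Γ) ∈ L
        rw [h6]
        exact hkL _
    exact h5 h4
  · have hLM : L ≤ M := by
      obtain ⟨M', hM', hLM'⟩ := (eq_top_or_exists_le_coatom L).resolve_left hL
      rw [← huniq M' ⟨hM', hAL.trans hLM'⟩]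
      exact hLM'
    have hMn : normalizer (M : Set Γ) = M := by
      rcases hM.le_iff.mp (le_normalizer : M ≤ normalizer (M : Set Γ)) with h2 | h2
      · exfalso
        haveI : M.Normal := normalizer_eq_top_iff.mp h2
        have h3 : normalClosure ({a} : Set Γ) ≤ M :=
          Subgroup.normalClosure_le_normal (by rw [Set.singleton_subset_iff]; exact hLM haL)
        rw [ha] at h3
        exact hM.1 (top_le_iff.mp h3)
      · exact h2
    have hstep : ∀ c : Γ, c * a * c⁻¹ * a⁻¹ ∈ M → c ∈ M := by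
      intro c hc
      have h2 : c * a * c⁻¹ ∈ M := by
        have := M.mul_mem hc (hLM haL)
        rwa [inv_mul_cancel_right] at this
      have h3 : M.comap (MulAut.conj c).toMonoidHom = M := by
        apply huniq
        refine ⟨?_, ?_⟩
        · exact (OrderIso.isCoatom_iff (MulEquiv.comapSubgroup (MulAut.conj c)) M).mpr hM
        · rw [zpowers_le]
          exact h2
      rw [← hMn, mem_normalizer_iff]
      intro h
      have h4 : h ∈ M ↔ h ∈ M.comap (MulAut.conj c).toMonoidHom := by rw [h3]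
      exact h4
    have hall : ∀ (j : ℕ) (c : Γ), (fun c : Γ => c * a * c⁻¹ * a⁻¹)^[j] c ∈ M → c ∈ M := by
      intro j
      induction j with
      | zero => intro c hc; exact hc
      | succ j ihj =>
        intro c hc
        rw [Function.iterate_succ_apply] at hc
        exact hstep c (ihj _ hc)
    apply hM.1
    rw [eq_top_iff]
    intro c _
    exact hall k c (hLM (hkL c))

theorem iter_gen {Γ : Type u} [Group Γ] [Finite Γ] (a : Γ)
    (ha : normalClosure ({a} : Set Γ) = ⊤) (k : ℕ) :
    closure ({a} ∪ Set.range ((fun c : Γ => c * a * c⁻¹ * a⁻¹)^[k])) = ⊤ :=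
  iter_gen_aux _ Γ a rfl ha k

/-- **S3927** -/
theorem main {G : Type u} [Group G] [Finite G] (α : MulAut G)
    (hG : closure (Set.range (fun c : G => c * (α c)⁻¹)) = ⊤) (k : ℕ) (hk : 1 ≤ k) :
    closure (Set.range ((fun c : G => c * (α c)⁻¹)^[k])) = ⊤ := by
  let N : Subgroup (MulAut G) := zpowers α
  let φ : N →* MulAut G := N.subtype
  let a : G ⋊[φ] N := SemidirectProduct.inr ⟨α, mem_zpowers α⟩
  haveI : Finite (G ⋊[φ] N) := Finite.of_equiv _ (SemidirectProduct.equivProd (φ := φ)).symm
  have haut : ∀ g : G, a * SemidirectProduct.inl g * a⁻¹ = SemidirectProduct.inl (α g) := by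
    intro g
    rw [← map_inv]
    exact (SemidirectProduct.inl_aut (φ := φ) ⟨α, mem_zpowers α⟩ g).symm
  have hθ : ∀ g : G, (SemidirectProduct.inl g : G ⋊[φ] N) * a * (SemidirectProduct.inl g)⁻¹ * a⁻¹ =
      SemidirectProduct.inl (g * (α g)⁻¹) := by
    intro g
    rw [map_mul, map_inv, ← haut]
    group
  have hna : normalClosure ({a} : Set (G ⋊[φ] N)) = ⊤ := by
    have haK : a ∈ normalClosure ({a} : Set (G ⋊[φ] N)) := subset_normalClosure rfl
    have h1 : closure (Set.range (fun c : G => c * (α c)⁻¹)) ≤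
        (normalClosure ({a} : Set (G ⋊[φ] N))).comap SemidirectProduct.inl := by
      rw [closure_le]
      rintro _ ⟨c, rfl⟩
      show (SemidirectProduct.inl (c * (α c)⁻¹) : G ⋊[φ] N) ∈ normalClosure ({a} : Set (G ⋊[φ] N))
      rw [← hθ]
      exact mul_mem (Subgroup.normalClosure_normal.conj_mem a haK _) (inv_mem haK)
    rw [hG] at h1
    rw [eq_top_iff]
    intro x _
    rw [← SemidirectProduct.inl_left_mul_inr_right x]
    refine mul_mem (h1 (mem_top x.left)) ?_
    obtain ⟨m, hm⟩ := x.right.2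
    have h2 : x.right = (⟨α, mem_zpowers α⟩ : N) ^ m := Subtype.ext hm.symm
    rw [h2, map_zpow]
    exact zpow_mem haK m
  have hgen := iter_gen a hna k
  have hθ' : ∀ c : G ⋊[φ] N, c * a * c⁻¹ * a⁻¹ = SemidirectProduct.inl (c.left * (α c.left)⁻¹) := by
    intro c
    rw [← hθ]
    have h1 : (SemidirectProduct.inr c.right : G ⋊[φ] N) * a = a * SemidirectProduct.inr c.right := by
      rw [← map_mul, ← map_mul]
      congr 1
      apply Subtype.ext
      obtain ⟨m, hm⟩ := c.right.2
      show (c.right : MulAut G) * α = α * (c.right : MulAut G)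
      rw [← hm]
      exact (Commute.zpow_self α m).eq
    have h2 : c = SemidirectProduct.inl c.left * SemidirectProduct.inr c.right :=
      (SemidirectProduct.inl_left_mul_inr_right c).symm
    have h3 : c * a * c⁻¹ = (SemidirectProduct.inl c.left : G ⋊[φ] N) * a * (SemidirectProduct.inl c.left)⁻¹ := by
      conv_lhs => rw [h2]
      rw [mul_inv_rev, mul_assoc (SemidirectProduct.inl c.left), h1]
      group
    rw [h3]
  have hit : ∀ (j : ℕ) (x : G), (fun c : G ⋊[φ] N => c * a * c⁻¹ * a⁻¹)^[j] (SemidirectProduct.inl x) =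
      SemidirectProduct.inl ((fun c : G => c * (α c)⁻¹)^[j] x) := by
    intro j
    induction j with
    | zero => intro x; rfl
    | succ j ihj =>
      intro x
      rw [Function.iterate_succ_apply, Function.iterate_succ_apply, hθ, ihj]
  have hinv : ∀ (β : N) (h : G), h ∈ closure (Set.range ((fun c : G => c * (α c)⁻¹)^[k])) →
      (β : MulAut G) h ∈ closure (Set.range ((fun c : G => c * (α c)⁻¹)^[k])) := by
    intro β h hh
    have hcomm : ∀ x, (β : MulAut G) (α x) = α ((β : MulAut G) x) := by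
      intro x
      obtain ⟨m, hm⟩ := β.2
      rw [← hm]
      exact DFunLike.congr_fun (Commute.zpow_self α m).eq x
    have hcomm' : ∀ (j : ℕ) (x : G), (β : MulAut G) ((fun c : G => c * (α c)⁻¹)^[j] x) =
        (fun c : G => c * (α c)⁻¹)^[j] ((β : MulAut G) x) := by
      intro j
      induction j with
      | zero => intro x; rfl
      | succ j ihj =>
        intro x
        rw [Function.iterate_succ_apply, Function.iterate_succ_apply, ihj]
        congr 1
        simp only [map_mul, map_inv, hcomm]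
    have h1 : closure (Set.range ((fun c : G => c * (α c)⁻¹)^[k])) ≤
        (closure (Set.range ((fun c : G => c * (α c)⁻¹)^[k]))).comap (β : MulAut G).toMonoidHom := by
      rw [closure_le]
      rintro _ ⟨c, rfl⟩
      show (β : MulAut G) ((fun c : G => c * (α c)⁻¹)^[k] c) ∈ closure (Set.range ((fun c : G => c * (α c)⁻¹)^[k]))
      rw [hcomm']
      exact Subgroup.subset_closure ⟨_, rfl⟩
    exact h1 hh
  let P : Subgroup (G ⋊[φ] N) :=
    { carrier := {x | x.left ∈ closure (Set.range ((fun c : G => c * (α c)⁻¹)^[k]))}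
      one_mem' := by
        show (1 : G ⋊[φ] N).left ∈ closure (Set.range ((fun c : G => c * (α c)⁻¹)^[k]))
        rw [SemidirectProduct.one_left]
        exact one_mem _
      mul_mem' := by
        intro x y hx hy
        simp only [Set.mem_ofPred_eq, SemidirectProduct.mul_left] at hx hy ⊢
        exact mul_mem hx (hinv x.right _ hy)
      inv_mem' := by
        intro x hx
        simp only [Set.mem_ofPred_eq, SemidirectProduct.inv_left] at hx ⊢
        exact hinv (x.right⁻¹) _ (inv_mem hx) }
  have hmemP : ∀ x : G ⋊[φ] N, x ∈ P ↔ x.left ∈ closure (Set.range ((fun c : G => c * (α c)⁻¹)^[k])) :=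
    fun _ => Iff.rfl
  have hP : (⊤ : Subgroup (G ⋊[φ] N)) ≤ P := by
    rw [← hgen, closure_le]
    rintro x (hx | ⟨c, rfl⟩)
    · rw [Set.mem_singleton_iff] at hx
      rw [hx, SetLike.mem_coe, hmemP]
      have : a.left = 1 := rfl
      rw [this]
      exact Subgroup.one_mem _
    · obtain ⟨j, rfl⟩ : ∃ j, k = j + 1 := ⟨k - 1, by omega⟩
      rw [SetLike.mem_coe, hmemP, Function.iterate_succ_apply]
      have h1 : (fun c : G ⋊[φ] N => c * a * c⁻¹ * a⁻¹) c = SemidirectProduct.inl (c.left * (α c.left)⁻¹) := hθ' c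
      rw [hθ', hit, SemidirectProduct.left_inl]
      exact Subgroup.subset_closure ⟨c.left, by rw [Function.iterate_succ_apply]⟩
  rw [eq_top_iff]
  intro g _
  exact hP (mem_top (SemidirectProduct.inl g))

end Cfsg.Agent.Lib.IterComm
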