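import Mathlib
import Cfsg.Agent.Lib.IterComm

/-! Elements of odd order inverted by an involutory endomorphism: basic facts. -/

set_option autoImplicit false

namespace Cfsg.Agent.Lib.H33B

open Subgroup

/-- Elements of odd order inverted by `a`. -/
def Iset {G : Type*} [Group G] (a : G →* G) : Set G := {g | Odd (orderOf g) ∧ a g = g⁻¹}

theorem one_mem {G : Type*} [Group G] (a : G →* G) : (1 : G) ∈ Iset a := by
  refine ⟨?_, ?_⟩
  · rw [orderOf_one]; exact odd_one
  · rw [map_one, inv_one]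

theorem exists_e (n : ℕ) (hn : n ≠ 0) : ∃ k m e : ℕ, n = 2 ^ k * m ∧ Odd m ∧ 2 ^ k ∣ e ∧
    e ≡ 1 [MOD m] := by
  obtain ⟨k, m, hm, hnm⟩ := Nat.exists_eq_two_pow_mul_odd hn
  have hc : Nat.Coprime (2 ^ k) m := Nat.Coprime.pow_left k (Nat.coprime_two_left.2 hm)
  obtain ⟨e, he1, he2⟩ := Nat.chineseRemainder hc 0 1
  exact ⟨k, m, e, hnm, hm, (Nat.modEq_zero_iff_dvd).1 he1, he2⟩

/-- `e`-th power has odd order, when `card ∣ 2^k * m`. -/
theorem odd_pow {G : Type*} [Group G] [Finite G] {k m e : ℕ} (hc : Nat.card G ∣ 2 ^ k * m)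
    (hm : Odd m) (he : 2 ^ k ∣ e) (g : G) : Odd (orderOf (g ^ e)) := by
  have h : (g ^ e) ^ m = 1 := by
    rw [← pow_mul]
    obtain ⟨r, rfl⟩ := he
    have : g ^ (2 ^ k * m) = 1 := by
      obtain ⟨s, hs⟩ := hc
      rw [hs, pow_mul, pow_card_eq_one', one_pow]
    rw [show 2 ^ k * r * m = (2 ^ k * m) * r by ring, pow_mul, this, one_pow]
  exact hm.of_dvd_nat (orderOf_dvd_of_pow_eq_one h)

theorem pow_e_of_odd {G : Type*} [Group G] [Finite G] {k m e : ℕ} (hc : Nat.card G ∣ 2 ^ k * m)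
    (he : e ≡ 1 [MOD m]) {g : G} (hg : Odd (orderOf g)) : g ^ e = g := by
  have h1 : orderOf g ∣ m := by
    have : orderOf g ∣ 2 ^ k * m := (orderOf_dvd_natCard g).trans hc
    exact (Nat.Coprime.pow_right k (Nat.coprime_two_right.2 hg)).dvd_of_dvd_mul_left this
  have h2 : e ≡ 1 [MOD orderOf g] := he.of_dvd h1
  have := pow_eq_pow_iff_modEq.2 h2
  rw [this, pow_one]

theorem two_of_pow_e {G : Type*} [Group G] [Finite G] {k m e : ℕ} (hc : Nat.card G ∣ 2 ^ k * m)
    (he : e ≡ 1 [MOD m]) {g : G} (hg : g ^ e = 1) : g ^ (2 ^ k) = 1 := by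
  have h1 : 2 ^ k * e ≡ 2 ^ k * 1 [MOD 2 ^ k * m] := Nat.ModEq.mul_left' (2 ^ k) he
  have h2 : orderOf g ∣ 2 ^ k * m := (orderOf_dvd_natCard g).trans hc
  have h3 := pow_eq_pow_iff_modEq.2 (h1.of_dvd h2)
  rw [mul_one] at h3
  rw [← h3, mul_comm, pow_mul, hg, one_pow]

theorem inv_mul_mem {G : Type*} [Group G] (a : G →* G) (ha : ∀ g, a (a g) = g) (g : G) :
    a (g * (a g)⁻¹) = (g * (a g)⁻¹)⁻¹ := by
  rw [map_mul, map_inv, ha, mul_inv_rev, inv_inv]

theorem a_pow {G : Type*} [Group G] (a : G →* G) {w : G} (h : a w = w⁻¹) (e : ℕ) :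
    a (w ^ e) = (w ^ e)⁻¹ := by
  rw [map_pow, h, inv_pow]

/-- Generation. -/
theorem closure_eq {G : Type*} [Group G] [Finite G] (α : MulAut G) (ha : ∀ g, α (α g) = g)
    (hG : closure (Set.range (fun c : G => c * (α c)⁻¹)) = ⊤) :
    closure (Iset (α : G →* G)) = ⊤ := by
  obtain ⟨k, m, e, hn, hm, he1, he2⟩ := exists_e (Nat.card G) Nat.card_pos.ne'
  have key := IterComm.main α hG (k + 1) (by omega)
  rw [eq_top_iff, ← key, closure_le]
  rintro _ ⟨c, rfl⟩
  apply Subgroup.subset_closure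
  have h1 : ∀ (j : ℕ) (u : G), α u = u⁻¹ → (fun c : G => c * (α c)⁻¹)^[j] u = u ^ (2 ^ j) := by
    intro j
    induction j with
    | zero => intro u _; simp
    | succ j ih =>
      intro u hu
      rw [Function.iterate_succ_apply', ih u hu]
      rw [map_pow, hu, inv_pow, inv_inv, ← pow_add]
      congr 1
      ring
  have h2 : α (c * (α c)⁻¹) = (c * (α c)⁻¹)⁻¹ := by
    rw [map_mul, map_inv, ha, mul_inv_rev, inv_inv]
  rw [Function.iterate_succ_apply, h1 k _ h2]
  refine ⟨odd_pow (k := k) (m := m) (by rw [hn]) hm (dvd_refl _) _, ?_⟩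
  show α (_ ^ _) = _
  rw [map_pow, h2, inv_pow]

section quot

variable {G : Type*} [Group G] (a : G →* G) (N : Subgroup G) [N.Normal]
  (hN : ∀ n ∈ N, a n ∈ N)

/-- The induced map on the quotient. -/
def qa : G ⧸ N →* G ⧸ N := QuotientGroup.map N N a (fun n hn => hN n hn)

@[simp] theorem qa_mk (g : G) : qa a N hN (g : G ⧸ N) = (a g : G ⧸ N) := rfl

include hN in
theorem qa_invol (ha : ∀ g, a (a g) = g) (q : G ⧸ N) : qa a N hN (qa a N hN q) = q := by
  induction q using QuotientGroup.induction_on with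
  | H g => rw [qa_mk, qa_mk, ha]

include hN in
theorem mk_mem {x : G} (hx : x ∈ Iset a) : (x : G ⧸ N) ∈ Iset (qa a N hN) := by
  refine ⟨hx.1.of_dvd_nat (orderOf_map_dvd (QuotientGroup.mk' N) x), ?_⟩
  rw [qa_mk, hx.2]; rfl

include hN in
theorem exists_lift [Finite G] (ha : ∀ g, a (a g) = g) {q : G ⧸ N} (hq : q ∈ Iset (qa a N hN)) :
    ∃ x ∈ Iset a, (x : G ⧸ N) = q := by
  obtain ⟨k, m, e, hn, hm, he1, he2⟩ := exists_e (Nat.card G) Nat.card_pos.ne'
  obtain ⟨j, hj⟩ := hq.1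
  -- y = q ^ (j+1), y^2 = q
  have hy2 : q ^ (j + 1) * q ^ (j + 1) = q := by
    rw [← pow_add, show j + 1 + (j + 1) = (2 * j + 1) + 1 by ring, pow_succ, ← hj,
      pow_orderOf_eq_one, one_mul]
  have hyi : qa a N hN (q ^ (j + 1)) = (q ^ (j + 1))⁻¹ := by rw [map_pow, hq.2, inv_pow]
  obtain ⟨g, hg⟩ := QuotientGroup.mk_surjective (q ^ (j + 1))
  refine ⟨(g * (a g)⁻¹) ^ e, ⟨odd_pow (k := k) (m := m) (by rw [hn]) hm he1 _,
    a_pow a (inv_mul_mem a ha g) e⟩, ?_⟩
  have h1 : ((g * (a g)⁻¹ : G) : G ⧸ N) = q := by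
    rw [QuotientGroup.mk_mul, QuotientGroup.mk_inv, ← qa_mk a N hN g, hg, hyi, inv_inv, hy2]
  rw [QuotientGroup.mk_pow, h1]
  have hd : Nat.card (G ⧸ N) ∣ 2 ^ k * m := by rw [← hn]; exact Subgroup.card_quotient_dvd_card N
  exact pow_e_of_odd hd he2 hq.1

include hN in
theorem card_le [Finite G] (ha : ∀ g, a (a g) = g) :
    Nat.card (Iset (qa a N hN)) ≤ Nat.card (Iset a) := by
  apply Nat.card_le_card_of_surjective (fun x : Iset a => (⟨(x : G), mk_mem a N hN x.2⟩ :
    Iset (qa a N hN)))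
  rintro ⟨q, hq⟩
  obtain ⟨x, hx, hxq⟩ := exists_lift a N hN ha hq
  exact ⟨⟨x, hx⟩, Subtype.ext hxq⟩

include hN in
theorem closure_quot (hG : closure (Iset a) = ⊤) : closure (Iset (qa a N hN)) = ⊤ := by
  rw [eq_top_iff]
  intro q _
  obtain ⟨g, rfl⟩ := QuotientGroup.mk_surjective q
  have hg : g ∈ closure (Iset a) := by rw [hG]; trivial
  have h1 : (QuotientGroup.mk' N) g ∈ (closure (Iset a)).map (QuotientGroup.mk' N) :=
    mem_map_of_mem _ hg
  rw [MonoidHom.map_closure] at h1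
  refine closure_mono ?_ h1
  rintro _ ⟨x, hx, rfl⟩
  exact mk_mem a N hN hx

include hN in
/-- If no two elements of `Iset a` are identified, `N` is central. -/
theorem le_center [Finite G] (ha : ∀ g, a (a g) = g) (hG : closure (Iset a) = ⊤)
    (hinj : ∀ x ∈ Iset a, ∀ x' ∈ Iset a, (x : G ⧸ N) = (x' : G ⧸ N) → x = x') :
    N ≤ center G := by
  obtain ⟨k, m, e, hn, hm, he1, he2⟩ := exists_e (Nat.card G) Nat.card_pos.ne'
  have hcd : Nat.card G ∣ 2 ^ k * m := by rw [hn]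
  -- the main fact
  have key : ∀ x ∈ Iset a, ∀ n ∈ N, (n * x * (a n)⁻¹) ^ e = x := by
    intro x hx n hnN
    obtain ⟨j, hj⟩ := hx.1
    have hy2 : x ^ (j + 1) * x ^ (j + 1) = x := by
      rw [← pow_add, show j + 1 + (j + 1) = (2 * j + 1) + 1 by ring, pow_succ, ← hj,
        pow_orderOf_eq_one, one_mul]
    have hyi : a (x ^ (j + 1)) = (x ^ (j + 1))⁻¹ := by rw [map_pow, hx.2, inv_pow]
    set y := x ^ (j + 1) with hy
    have h1 : n * x * (a n)⁻¹ = (n * y) * (a (n * y))⁻¹ := by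
      rw [map_mul, hyi, mul_inv_rev, inv_inv]
      rw [← hy2]; group
    have h2 : (n * x * (a n)⁻¹) ^ e ∈ Iset a := by
      rw [h1]
      exact ⟨odd_pow hcd hm he1 _, a_pow a (inv_mul_mem a ha _) e⟩
    refine hinj _ h2 _ hx ?_
    have h3 : ((n * x * (a n)⁻¹ : G) : G ⧸ N) = (x : G ⧸ N) := by
      have e1 : ((n : G) : G ⧸ N) = 1 := (QuotientGroup.eq_one_iff n).2 hnN
      have e2 : ((a n : G) : G ⧸ N) = 1 := (QuotientGroup.eq_one_iff _).2 (hN n hnN)
      rw [QuotientGroup.mk_mul, QuotientGroup.mk_mul, QuotientGroup.mk_inv, e1, e2, one_mul,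
        inv_one, mul_one]
    rw [QuotientGroup.mk_pow, h3, ← QuotientGroup.mk_pow, pow_e_of_odd hcd he2 hx.1]
  -- x commutes with n * x * (a n)⁻¹
  have hcomm : ∀ x ∈ Iset a, ∀ n ∈ N, Commute x (n * x * (a n)⁻¹) := by
    intro x hx n hnN
    have := key x hx n hnN
    have h1 : Commute ((n * x * (a n)⁻¹) ^ e) (n * x * (a n)⁻¹) :=
      (Commute.refl (n * x * (a n)⁻¹)).pow_left e
    rwa [this] at h1
  -- the element n * (a n)⁻¹ commutes with x
  have hc1 : ∀ x ∈ Iset a, ∀ n ∈ N, Commute x (n * (a n)⁻¹) := by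
    intro x hx n hnN
    obtain ⟨j, hj⟩ := hx.1
    have hy2 : x ^ (j + 1) * x ^ (j + 1) = x := by
      rw [← pow_add, show j + 1 + (j + 1) = (2 * j + 1) + 1 by ring, pow_succ, ← hj,
        pow_orderOf_eq_one, one_mul]
    have hyi : a (x ^ (j + 1)) = (x ^ (j + 1))⁻¹ := by rw [map_pow, hx.2, inv_pow]
    have hyx : Commute (x ^ (j + 1)) x := (Commute.refl x).pow_left _
    set y := x ^ (j + 1) with hy
    have hn1 : y * n * y⁻¹ ∈ N := ‹N.Normal›.conj_mem n hnN y
    have h2 := hcomm x hx _ hn1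
    -- (y n y⁻¹) x (a (y n y⁻¹))⁻¹ = y n y⁻¹ x y⁻¹ (a n)⁻¹ y = y n (a n)⁻¹ y
    have h3 : y * n * y⁻¹ * x * (a (y * n * y⁻¹))⁻¹ = y * (n * (a n)⁻¹) * y := by
      rw [map_mul, map_mul, map_inv, hyi]
      rw [← hy2]; group
    rw [h3] at h2
    -- x commutes with y * c * y, and y
    have h4 : Commute x (y⁻¹ * (y * (n * (a n)⁻¹) * y) * y⁻¹) :=
      ((hyx.symm.inv_right).mul_right h2).mul_right hyx.symm.inv_right
    have h5 : y⁻¹ * (y * (n * (a n)⁻¹) * y) * y⁻¹ = n * (a n)⁻¹ := by group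
    rwa [h5] at h4
  have hZ : ∀ n ∈ N, n * (a n)⁻¹ ∈ center G := by
    intro n hnN
    rw [mem_center_iff]
    intro g
    have hg : g ∈ closure (Iset a) := by rw [hG]; trivial
    induction hg using closure_induction with
    | mem x hx => exact hc1 x hx n hnN
    | one => simp
    | mul x y _ _ hx hy => rw [mul_assoc, hy, ← mul_assoc, hx, mul_assoc]
    | inv x _ hx =>
      have : Commute x (n * (a n)⁻¹) := hx
      exact this.inv_left
  intro n hnN
  -- n commutes with every x in Iset a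
  have hfin : ∀ x ∈ Iset a, Commute x n := by
    intro x hx
    set c := n * (a n)⁻¹ with hc
    have hcZ := mem_center_iff.1 (hZ n hnN)
    rw [← hc] at hcZ
    have h1 := hcomm x hx n hnN
    -- n x (a n)⁻¹ = n x n⁻¹ c
    have h2 : n * x * (a n)⁻¹ = n * x * n⁻¹ * c := by rw [hc]; group
    rw [h2] at h1
    have h3 : Commute x (n * x * n⁻¹) := by
      have hcc : Commute x c⁻¹ := by
        have : Commute x c := hcZ x
        exact this.inv_right
      have := h1.mul_right hcc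
      rwa [mul_assoc, mul_inv_cancel, mul_one] at this
    -- (n x n⁻¹ c)^e = x; c^e = 1
    have hce : c ^ e = 1 := by
      have := key 1 (one_mem a) n hnN
      rwa [mul_one, ← hc] at this
    have h4 := key x hx n hnN
    rw [h2] at h4
    have h5 : (n * x * n⁻¹ * c) ^ e = (n * x * n⁻¹) ^ e * c ^ e :=
      Commute.mul_pow (hcZ _) e
    have h6 : (n * x * n⁻¹) ^ e = n * x * n⁻¹ := by
      rw [conj_pow, pow_e_of_odd hcd he2 hx.1]
    rw [h5, hce, mul_one, h6] at h4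
    have : n * x = x * n := by
      calc n * x = n * x * n⁻¹ * n := by group
        _ = x * n := by rw [h4]
    exact this.symm
  rw [mem_center_iff]
  intro g
  have hg : g ∈ closure (Iset a) := by rw [hG]; trivial
  induction hg using closure_induction with
  | mem x hx => exact hfin x hx
  | one => simp
  | mul x y _ _ hx hy => rw [mul_assoc, hy, ← mul_assoc, hx, mul_assoc]
  | inv x _ hx =>
    have : Commute x n := hx
    exact this.inv_left

include hN in
theorem card_lt [Finite G] (ha : ∀ g, a (a g) = g) (hG : closure (Iset a) = ⊤)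
    (hNZ : ¬ N ≤ center G) : Nat.card (Iset (qa a N hN)) < Nat.card (Iset a) := by
  rcases lt_or_eq_of_le (card_le a N hN ha) with h | h
  · exact h
  · exfalso
    apply hNZ
    apply le_center a N hN ha hG
    intro x hx x' hx' hxx
    set φ : Iset a → Iset (qa a N hN) := fun x => ⟨(x : G), mk_mem a N hN x.2⟩ with hφ
    have hsurj : Function.Surjective φ := by
      rintro ⟨q, hq⟩
      obtain ⟨x, hx, hxq⟩ := exists_lift a N hN ha hq
      exact ⟨⟨x, hx⟩, Subtype.ext hxq⟩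
    have hbij : Function.Bijective φ := by
      rw [Nat.bijective_iff_surjective_and_card]
      exact ⟨hsurj, h.symm⟩
    have := hbij.1 (a₁ := ⟨x, hx⟩) (a₂ := ⟨x', hx'⟩) (Subtype.ext hxx)
    exact congrArg Subtype.val this

end quot

end Cfsg.Agent.Lib.H33B
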