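import Mathlib
import Cfsg.Agent.Lib.H33B1

/-! Schur bounds. -/

set_option autoImplicit false

namespace Cfsg.Agent.Lib.H33B

open Subgroup
open scoped commutatorElement

theorem card_commutatorSet_le (G : Type*) [Group G] [Finite G] :
    Nat.card (commutatorSet G) ≤ (center G).index ^ 2 := by
  have h1 : ∀ g : G, ∃ z ∈ center G, ((g : G ⧸ center G)).out = g * z := by
    intro g
    obtain ⟨z, hz⟩ := QuotientGroup.mk_out_eq_mul (center G) g
    exact ⟨z, z.2, hz⟩
  let F : (G ⧸ center G) × (G ⧸ center G) → commutatorSet G :=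
    fun q => ⟨⁅q.1.out, q.2.out⁆, commutator_mem_commutatorSet _ _⟩
  have hF : Function.Surjective F := by
    rintro ⟨_, g, h, rfl⟩
    refine ⟨((g : G ⧸ center G), (h : G ⧸ center G)), ?_⟩
    apply Subtype.ext
    simp only [F]
    obtain ⟨z, hz, hgz⟩ := h1 g
    obtain ⟨w, hw, hhw⟩ := h1 h
    rw [hgz, hhw]
    have hz' := mem_center_iff.1 hz
    have hw' := mem_center_iff.1 hw
    rw [commutatorElement_def, commutatorElement_def]
    calc g * z * (h * w) * (g * z)⁻¹ * (h * w)⁻¹
        = g * (z * h) * w * z⁻¹ * g⁻¹ * w⁻¹ * h⁻¹ := by group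
      _ = g * (h * z) * w * z⁻¹ * g⁻¹ * w⁻¹ * h⁻¹ := by rw [hz' h]
      _ = g * h * (z * w) * z⁻¹ * g⁻¹ * w⁻¹ * h⁻¹ := by group
      _ = g * h * (w * z) * z⁻¹ * g⁻¹ * w⁻¹ * h⁻¹ := by rw [hw' z]
      _ = g * h * (w * g⁻¹) * w⁻¹ * h⁻¹ := by group
      _ = g * h * (g⁻¹ * w) * w⁻¹ * h⁻¹ := by rw [hw' g⁻¹]
      _ = g * h * g⁻¹ * h⁻¹ := by group
  have := Nat.card_le_card_of_surjective F hF
  rw [Nat.card_prod] at this
  rw [pow_two]
  exact this

theorem schur (b : ℕ) : ∃ h : ℕ, ∀ (G : Type) [Group G] [Finite G], (center G).index ≤ b →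
    Nat.card (commutator G) ≤ h := by
  refine ⟨∑ i ∈ Finset.range (b ^ 2 + 1), cardCommutatorBound i, ?_⟩
  intro G _ _ hG
  have h1 := card_commutator_le_of_finite_commutatorSet G
  refine h1.trans ?_
  apply Finset.single_le_sum (f := fun i => cardCommutatorBound i) (fun i _ => Nat.zero_le _)
  rw [Finset.mem_range]
  have h2 := card_commutatorSet_le G
  have h3 : (center G).index ^ 2 ≤ b ^ 2 := Nat.pow_le_pow_left hG 2
  omega

theorem index_commutator_le {G : Type*} [Group G] [Finite G] (a : G →* G) (ha : ∀ g, a (a g) = g)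
    (hG : closure (Iset a) = ⊤) : (commutator G).index ≤ Nat.card (Iset a) := by
  have hN : ∀ n ∈ commutator G, a n ∈ commutator G := by
    intro n hn
    have h1 : a n ∈ (commutator G).map a := mem_map_of_mem _ hn
    rw [commutator_def, map_commutator] at h1
    rw [commutator_def]
    exact commutator_mono le_top le_top h1
  have h1 := closure_quot a (commutator G) hN hG
  have hcm : ∀ p q : G ⧸ commutator G, p * q = q * p := fun p q =>
    mul_comm (G := Abelianization G) p q
  have h2 : ∀ q : G ⧸ commutator G, q ∈ Iset (qa a (commutator G) hN) := by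
    intro q
    have hq : q ∈ closure (Iset (qa a (commutator G) hN)) := by rw [h1]; trivial
    induction hq using closure_induction with
    | mem x hx => exact hx
    | one => exact one_mem _
    | mul x y _ _ hx hy =>
      refine ⟨(hx.1.mul hy.1).of_dvd_nat (Commute.orderOf_mul_dvd_mul_orderOf (show Commute x y from hcm x y)), ?_⟩
      rw [map_mul, hx.2, hy.2, mul_inv_rev, hcm]
    | inv x _ hx =>
      refine ⟨by rw [orderOf_inv]; exact hx.1, ?_⟩
      rw [map_inv, hx.2]
  have h3 : Nat.card (G ⧸ commutator G) ≤ Nat.card (Iset (qa a (commutator G) hN)) := by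
    apply Nat.card_le_card_of_injective
      (fun q => (⟨q, h2 q⟩ : Iset (qa a (commutator G) hN)))
    intro p q h
    exact congrArg Subtype.val h
  exact h3.trans (card_le a _ hN ha)

theorem card_le_of_index (b m : ℕ) : ∃ B : ℕ, ∀ (G : Type) [Group G] [Finite G] (a : G →* G),
    (∀ g, a (a g) = g) → closure (Iset a) = ⊤ → Nat.card (Iset a) ≤ m → (center G).index ≤ b →
    Nat.card G ≤ B := by
  obtain ⟨h, hh⟩ := schur b
  refine ⟨h * m, ?_⟩
  intro G _ _ a ha hG hm hb
  rw [← (commutator G).card_mul_index]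
  exact Nat.mul_le_mul (hh G hb) ((index_commutator_le a ha hG).trans hm)

end Cfsg.Agent.Lib.H33B
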