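import Mathlib
import Cfsg.Agent.Lib.H33B1

/-! A Brauer-Fowler count for an involutory endomorphism. -/

set_option autoImplicit false

namespace Cfsg.Agent.Lib.H33B

open Subgroup

section
variable {V : Type*} [Group V] (b : V →* V)

theorem psi_fiber [Fintype V] [DecidableEq V] (s : Finset V) (t : V) :
    (s.filter (fun v => v * (b v)⁻¹ = t)).card ≤
      (Finset.univ.filter (fun v => b v = v)).card := by
  rcases (s.filter (fun v => v * (b v)⁻¹ = t)).eq_empty_or_nonempty with h | ⟨v0, h0⟩
  · rw [h]; simp
  · rw [Finset.mem_filter] at h0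
    apply Finset.card_le_card_of_injOn (fun v => v0⁻¹ * v)
    · intro v hv
      rw [Finset.mem_coe, Finset.mem_filter] at hv
      rw [Finset.mem_coe, Finset.mem_filter]
      refine ⟨Finset.mem_univ _, ?_⟩
      have h1 : v * (b v)⁻¹ = v0 * (b v0)⁻¹ := by rw [hv.2, h0.2]
      show b (v0⁻¹ * v) = v0⁻¹ * v
      rw [map_mul, map_inv]
      have h2 : v = v0 * (b v0)⁻¹ * b v := by rw [← h1]; group
      calc (b v0)⁻¹ * b v = v0⁻¹ * (v0 * (b v0)⁻¹ * b v) := by group
        _ = v0⁻¹ * v := by rw [← h2]
    · intro v _ w _ h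
      exact mul_left_cancel h

theorem A_card [Fintype V] [DecidableEq V] (u : V) :
    (Finset.univ.filter (fun v => b (v⁻¹ * u * v) = (v⁻¹ * u * v)⁻¹)).card ≤
      (Finset.univ.filter (fun v => b v = v)).card *
        (Finset.univ.filter (fun v => u * v = v * u)).card := by
  set A := Finset.univ.filter (fun v => b (v⁻¹ * u * v) = (v⁻¹ * u * v)⁻¹) with hA
  have h1 : A.card ≤ (Finset.univ.filter (fun v => b v = v)).card *
      (A.image (fun v => v * (b v)⁻¹)).card :=
    Finset.card_le_mul_card_image A _ (fun t _ => psi_fiber b A t)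
  refine h1.trans (Nat.mul_le_mul_left _ ?_)
  rcases A.eq_empty_or_nonempty with h | ⟨v0, h0⟩
  · rw [h]; simp
  · have key : ∀ v ∈ A, (v * (b v)⁻¹) * b u * (v * (b v)⁻¹)⁻¹ = u⁻¹ := by
      intro v hv
      rw [hA, Finset.mem_filter] at hv
      have h2 := hv.2
      rw [map_mul, map_mul, map_inv] at h2
      calc (v * (b v)⁻¹) * b u * (v * (b v)⁻¹)⁻¹ = v * ((b v)⁻¹ * b u * b v) * v⁻¹ := by group
        _ = v * (v⁻¹ * u * v)⁻¹ * v⁻¹ := by rw [h2]
        _ = u⁻¹ := by group
    apply Finset.card_le_card_of_injOn (fun g => g * (v0 * (b v0)⁻¹)⁻¹)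
    · intro g hg
      rw [Finset.mem_coe, Finset.mem_image] at hg
      obtain ⟨v, hv, rfl⟩ := hg
      rw [Finset.mem_coe, Finset.mem_filter]
      refine ⟨Finset.mem_univ _, ?_⟩
      have e1 := key v hv
      have e2 := key v0 h0
      set p := v * (b v)⁻¹
      set q := v0 * (b v0)⁻¹
      show u * (p * q⁻¹) = p * q⁻¹ * u
      have e3 : b u = q⁻¹ * u⁻¹ * q := by rw [← e2]; group
      have e4 : b u = p⁻¹ * u⁻¹ * p := by rw [← e1]; group
      have e5 : q⁻¹ * u⁻¹ * q = p⁻¹ * u⁻¹ * p := by rw [← e3, e4]
      have e6 : q⁻¹ * u * q = p⁻¹ * u * p := by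
        have := congrArg (·⁻¹) e5
        simpa [mul_assoc] using this
      calc u * (p * q⁻¹) = p * (p⁻¹ * u * p) * q⁻¹ := by group
        _ = p * (q⁻¹ * u * q) * q⁻¹ := by rw [e6]
        _ = p * q⁻¹ * u := by group
    · intro v _ w _ h
      exact mul_right_cancel h

theorem bf_aux [Fintype V] [DecidableEq V] (hb : ∀ v, b (b v) = v) (c : ℕ)
    (hc : (Finset.univ.filter (fun v => b v = v)).card ≤ c)
    (hbig : 2 * c < Fintype.card V)
    (hbad : ∀ u : V, u ≠ 1 → b u = u⁻¹ →
      2 * c ^ 2 * (Finset.univ.filter (fun v => u * v = v * u)).card < Fintype.card V) : False := by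
  set n := Fintype.card V with hn
  set S : Finset V := Finset.univ.image (fun v => v * (b v)⁻¹) with hS
  have hSinv : ∀ s ∈ S, b s = s⁻¹ := by
    intro s hs
    rw [hS, Finset.mem_image] at hs
    obtain ⟨v, _, rfl⟩ := hs
    exact inv_mul_mem b hb v
  have hScard : n ≤ c * S.card := by
    have := Finset.card_le_mul_card_image (f := fun v => v * (b v)⁻¹) (Finset.univ : Finset V) c
      (fun t _ => (psi_fiber b Finset.univ t).trans hc)
    rwa [Finset.card_univ] at this
  set P : Finset (V × V) := Finset.univ ×ˢ S with hP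
  set f : V × V → V := fun p => p.1 * p.2 * p.1⁻¹ with hf
  have hPcard : P.card = n * S.card := by
    rw [hP, Finset.card_product, Finset.card_univ]
  have hsum : P.card = ∑ u ∈ (Finset.univ : Finset V), (P.filter (fun p => f p = u)).card :=
    Finset.card_eq_sum_card_fiberwise (fun p _ => Finset.mem_univ _)
  -- fibres
  have hfib1 : (P.filter (fun p => f p = 1)).card ≤ n := by
    rw [hn, ← Finset.card_univ]
    apply Finset.card_le_card_of_injOn (fun p => p.1) (fun p _ => Finset.mem_coe.2 (Finset.mem_univ _))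
    intro p hp q hq h
    rw [Finset.mem_coe, Finset.mem_filter] at hp hq
    have h1 : p.2 = 1 := by
      have := hp.2
      simp only [hf] at this
      have e : p.2 = p.1⁻¹ * (p.1 * p.2 * p.1⁻¹) * p.1 := by group
      rw [e, this]; group
    have h2 : q.2 = 1 := by
      have := hq.2
      simp only [hf] at this
      have e : q.2 = q.1⁻¹ * (q.1 * q.2 * q.1⁻¹) * q.1 := by group
      rw [e, this]; group
    exact Prod.ext h (h1.trans h2.symm)
  have hfib : ∀ u : V, u ≠ 1 → 2 * c * (P.filter (fun p => f p = u)).card ≤ n := by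
    intro u hu
    rcases (P.filter (fun p => f p = u)).eq_empty_or_nonempty with h | ⟨p0, h0⟩
    · rw [h]; simp
    · rw [Finset.mem_filter, hP, Finset.mem_product] at h0
      obtain ⟨⟨_, hs0⟩, hfu⟩ := h0
      simp only [hf] at hfu
      have hs1 : p0.2 ≠ 1 := by
        intro h
        apply hu
        rw [← hfu, h]; group
      have h1 := hbad p0.2 hs1 (hSinv _ hs0)
      -- centralizers of conjugates
      have h2 : (Finset.univ.filter (fun v => u * v = v * u)).card ≤
          (Finset.univ.filter (fun v => p0.2 * v = v * p0.2)).card := by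
        apply Finset.card_le_card_of_injOn (fun v => p0.1⁻¹ * v * p0.1)
        · intro v hv
          rw [Finset.mem_coe, Finset.mem_filter] at hv ⊢
          refine ⟨Finset.mem_univ _, ?_⟩
          have e := hv.2
          have e1 : p0.2 = p0.1⁻¹ * u * p0.1 := by rw [← hfu]; group
          show p0.2 * (p0.1⁻¹ * v * p0.1) = (p0.1⁻¹ * v * p0.1) * p0.2
          rw [e1]
          calc p0.1⁻¹ * u * p0.1 * (p0.1⁻¹ * v * p0.1) = p0.1⁻¹ * (u * v) * p0.1 := by group
            _ = p0.1⁻¹ * (v * u) * p0.1 := by rw [e]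
            _ = _ := by group
        · intro v _ w _ h
          exact mul_left_cancel (mul_right_cancel h)
      have h3 : (P.filter (fun p => f p = u)).card ≤
          (Finset.univ.filter (fun v => b (v⁻¹ * u * v) = (v⁻¹ * u * v)⁻¹)).card := by
        apply Finset.card_le_card_of_injOn (fun p => p.1)
        · intro p hp
          rw [Finset.mem_coe, Finset.mem_filter, hP, Finset.mem_product] at hp
          obtain ⟨⟨_, hs⟩, hpu⟩ := hp
          simp only [hf] at hpu
          rw [Finset.mem_coe, Finset.mem_filter]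
          refine ⟨Finset.mem_univ _, ?_⟩
          have e : p.1⁻¹ * u * p.1 = p.2 := by rw [← hpu]; group
          show b (p.1⁻¹ * u * p.1) = (p.1⁻¹ * u * p.1)⁻¹
          rw [e]
          exact hSinv _ hs
        · intro p hp q hq h
          rw [Finset.mem_coe, Finset.mem_filter] at hp hq
          have e1 := hp.2
          have e2 := hq.2
          simp only [hf] at e1 e2
          have h' : p.1 = q.1 := h
          refine Prod.ext h' ?_
          rw [h'] at e1
          exact mul_left_cancel (mul_right_cancel (e1.trans e2.symm))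
      have h4 := A_card b u
      set F := (Finset.univ.filter (fun v => b v = v)).card
      set Cu := (Finset.univ.filter (fun v => u * v = v * u)).card
      set Cs := (Finset.univ.filter (fun v => p0.2 * v = v * p0.2)).card
      have h5 : (P.filter (fun p => f p = u)).card ≤ c * Cs :=
        (h3.trans h4).trans (Nat.mul_le_mul hc h2)
      calc 2 * c * (P.filter (fun p => f p = u)).card ≤ 2 * c * (c * Cs) :=
            Nat.mul_le_mul_left _ h5
        _ = 2 * c ^ 2 * Cs := by ring
        _ ≤ n := h1.le
  have htot : 2 * c * P.card ≤ 2 * c * n + n * n := by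
    rw [hsum, Finset.mul_sum, ← Finset.add_sum_erase _ _ (Finset.mem_univ (1 : V))]
    refine Nat.add_le_add (Nat.mul_le_mul_left _ hfib1) ?_
    calc ∑ x ∈ Finset.univ.erase (1 : V), 2 * c * (P.filter (fun p => f p = x)).card
        ≤ ∑ x ∈ Finset.univ.erase (1 : V), n :=
          Finset.sum_le_sum (fun u hu => hfib u (Finset.ne_of_mem_erase hu))
      _ = (Finset.univ.erase (1 : V)).card * n := by rw [Finset.sum_const, smul_eq_mul]
      _ ≤ n * n := by
        apply Nat.mul_le_mul_right
        exact (Finset.card_le_card (Finset.erase_subset _ _)).trans (by rw [Finset.card_univ])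
  have hlow : 2 * n * n ≤ 2 * c * P.card := by
    rw [hPcard]
    calc 2 * n * n ≤ 2 * n * (c * S.card) := Nat.mul_le_mul_left _ hScard
      _ = 2 * c * (n * S.card) := by ring
  have h6 : 2 * n * n ≤ 2 * c * n + n * n := hlow.trans htot
  have hnpos : 0 < n := Fintype.card_pos
  nlinarith

theorem bf [Finite V] (hb : ∀ v, b (b v) = v) (c : ℕ) (hc : Nat.card {v // b v = v} ≤ c)
    (hbig : 2 * c < Nat.card V) :
    ∃ u : V, u ≠ 1 ∧ b u = u⁻¹ ∧ Nat.card V ≤ 2 * c ^ 2 * Nat.card (centralizer ({u} : Set V)) := by
  classical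
  haveI := Fintype.ofFinite V
  by_contra hcon
  push Not at hcon
  rw [Nat.card_eq_fintype_card] at hbig
  refine bf_aux b hb c ?_ hbig ?_
  · rw [Nat.card_eq_fintype_card, Fintype.card_subtype] at hc
    exact hc
  · intro u hu hbu
    have h1 := hcon u hu hbu
    have h2 : Nat.card (centralizer ({u} : Set V)) =
        (Finset.univ.filter (fun v => u * v = v * u)).card := by
      rw [Nat.card_eq_fintype_card]
      rw [← Fintype.card_subtype]
      apply Fintype.card_congr
      apply Equiv.subtypeEquivRight
      intro x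
      rw [mem_centralizer_singleton_iff]
      exact eq_comm
    rw [h2, Nat.card_eq_fintype_card] at h1
    exact h1
end

end Cfsg.Agent.Lib.H33B
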