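import Mathlib
import Cfsg.Agent.Lib.H33B1
import Cfsg.Agent.Lib.H33B2
import Cfsg.Agent.Lib.H33B3

/-! Bounded order from the number of inverted elements of odd order. -/

set_option autoImplicit false

namespace Cfsg.Agent.Lib.H33B

open Subgroup

theorem mem_center_of {G : Type*} [Group G] (a : G →* G) (hG : closure (Iset a) = ⊤) {v : G}
    (h : ∀ x ∈ Iset a, Commute v x) : v ∈ center G := by
  rw [mem_center_iff]
  intro g
  have hg : g ∈ closure (Iset a) := by rw [hG]; trivial
  induction hg using closure_induction with
  | mem x hx => exact (h x hx).symm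
  | one => simp
  | mul x y _ _ hx hy => rw [mul_assoc, hy, ← mul_assoc, hx, mul_assoc]
  | inv x _ hx =>
    have : Commute x v := hx
    exact this.inv_left

theorem conj_mem_Iset {G : Type*} [Group G] (a : G →* G) {v x : G} (hv : a v = v)
    (hx : x ∈ Iset a) : v * x * v⁻¹ ∈ Iset a := by
  refine ⟨?_, ?_⟩
  · have : orderOf (v * x * v⁻¹) = orderOf x := orderOf_injective (MulAut.conj v).toMonoidHom
      (MulAut.conj v).injective x
    rw [this]; exact hx.1
  · rw [map_mul, map_mul, map_inv, hv, hx.2]; group

theorem fix_card {G : Type*} [Group G] [Finite G] (a : G →* G) (hG : closure (Iset a) = ⊤)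
    (m : ℕ) (hm : Nat.card (Iset a) ≤ m) (V : Subgroup G) (hV : V ⊓ center G = ⊥) :
    Nat.card {v : V // a v = v} ≤ m ^ m := by
  let F : {v : V // a v = v} → (Iset a → Iset a) := fun v x =>
    ⟨v.1 * x.1 * (v.1 : G)⁻¹, conj_mem_Iset a v.2 x.2⟩
  have hF : Function.Injective F := by
    intro v w h
    have h1 : ((w.1 : G))⁻¹ * v.1 ∈ V ⊓ center G := by
      refine ⟨V.mul_mem (V.inv_mem w.1.2) v.1.2, ?_⟩
      apply mem_center_of a hG
      intro x hx
      have h2 := congrFun h ⟨x, hx⟩
      have h3 : (v.1 : G) * x * (v.1 : G)⁻¹ = w.1 * x * (w.1 : G)⁻¹ := congrArg Subtype.val h2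
      show (w.1 : G)⁻¹ * v.1 * x = x * ((w.1 : G)⁻¹ * v.1)
      calc (w.1 : G)⁻¹ * v.1 * x = (w.1 : G)⁻¹ * (v.1 * x * (v.1 : G)⁻¹) * v.1 := by group
        _ = (w.1 : G)⁻¹ * (w.1 * x * (w.1 : G)⁻¹) * v.1 := by rw [h3]
        _ = _ := by group
    rw [hV, mem_bot] at h1
    have h2 : (v.1 : G) = w.1 := by
      rw [inv_mul_eq_one] at h1
      exact h1.symm
    exact Subtype.ext (Subtype.ext h2)
  have h1 := Nat.card_le_card_of_injective F hF
  rw [Nat.card_fun] at h1
  refine h1.trans ?_
  have hpos : 1 ≤ Nat.card (Iset a) := by
    haveI : Nonempty (Iset a) := ⟨⟨1, one_mem a⟩⟩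
    exact Nat.card_pos
  calc (Nat.card (Iset a)) ^ (Nat.card (Iset a)) ≤ m ^ (Nat.card (Iset a)) :=
        Nat.pow_le_pow_left hm _
    _ ≤ m ^ m := Nat.pow_le_pow_right (by omega) hm

theorem index_normalCore_le {G : Type*} [Group G] [Finite G] (K : Subgroup G) :
    K.normalCore.index ≤ (K.index).factorial := by
  rw [normalCore_eq_ker, index_ker]
  have h1 : Nat.card (MulAction.toPermHom G (G ⧸ K)).range ≤ Nat.card (Equiv.Perm (G ⧸ K)) :=
    Nat.card_le_card_of_injective (fun x => (x : Equiv.Perm (G ⧸ K))) Subtype.val_injective
  rw [Nat.card_perm] at h1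
  exact h1

theorem card_le_index_of_disjoint {G : Type*} [Group G] [Finite G] (V K : Subgroup G)
    (h : K ⊓ V = ⊥) : Nat.card V ≤ K.index := by
  apply Nat.card_le_card_of_injective (fun v : V => ((v : G) : G ⧸ K))
  intro v w hvw
  have h1 : (v : G)⁻¹ * w ∈ K := QuotientGroup.eq.1 hvw
  have h2 : (v : G)⁻¹ * w ∈ K ⊓ V := ⟨h1, V.mul_mem (V.inv_mem v.2) w.2⟩
  rw [h, mem_bot, inv_mul_eq_one] at h2
  exact Subtype.ext h2

/-- restriction -/
def ra {H : Type*} [Group H] (b : H →* H) (V : Subgroup H) (hV : ∀ v ∈ V, b v ∈ V) : V →* V where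
  toFun v := ⟨b v, hV v v.2⟩
  map_one' := Subtype.ext (map_one b)
  map_mul' x y := Subtype.ext (map_mul b (x : H) (y : H))

theorem cardV (m B : ℕ) : ∃ B2 : ℕ, ∀ (H : Type) [Group H] [Finite H] (b : H →* H),
    (∀ g, b (b g) = g) → closure (Iset b) = ⊤ → Nat.card (Iset b) ≤ m → center H = ⊥ →
    ∀ V : Subgroup H, V.Normal → (∀ v ∈ V, b v ∈ V) → V ≠ ⊥ →
    (∀ W : Subgroup H, W.Normal → (∀ w ∈ W, b w ∈ W) → W ≤ V → W = ⊥ ∨ W = V) →
    V.index ≤ B → Nat.card V ≤ B2 := by
  set c := m ^ m with hc
  refine ⟨c * c + c * m + 2 * c + (2 * c ^ 2 * B).factorial, ?_⟩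
  intro H _ _ b hb hG hm hZ V hVn hVb hV1 hmin hVB
  haveI := hVn
  have hfix : Nat.card {v : V // ra b V hVb v = v} ≤ c := by
    have h1 := fix_card b hG m hm V (by rw [hZ, inf_bot_eq])
    have h2 : Nat.card {v : V // ra b V hVb v = v} = Nat.card {v : V // b v = v} := by
      apply Nat.card_congr
      apply Equiv.subtypeEquivRight
      intro v
      exact ⟨fun h => congrArg Subtype.val h, fun h => Subtype.ext h⟩
    rw [h2]; exact h1
  have hrb : ∀ v : V, ra b V hVb (ra b V hVb v) = v := fun v => Subtype.ext (hb v)
  by_cases hab : ∀ x ∈ V, ∀ y ∈ V, x * y = y * x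
  · -- abelian case
    classical
    haveI := Fintype.ofFinite V
    have hF : (Finset.univ.filter (fun v : V => ra b V hVb v = v)).card ≤ c := by
      rw [Nat.card_eq_fintype_card, Fintype.card_subtype] at hfix
      exact hfix
    set S : Finset V := Finset.univ.image (fun v => v * (ra b V hVb v)⁻¹) with hS
    have hScard : Nat.card V ≤ c * S.card := by
      have := Finset.card_le_mul_card_image (f := fun v => v * (ra b V hVb v)⁻¹)
        (Finset.univ : Finset V) c (fun t _ => (psi_fiber (ra b V hVb) Finset.univ t).trans hF)
      rwa [Finset.card_univ, ← Nat.card_eq_fintype_card] at this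
    have hSinv : ∀ s ∈ S, b s = (s : H)⁻¹ := by
      intro s hs
      rw [hS, Finset.mem_image] at hs
      obtain ⟨v, _, rfl⟩ := hs
      exact congrArg Subtype.val (inv_mul_mem (ra b V hVb) hrb v)
    -- the subgroup of involutions
    let W : Subgroup H :=
      { carrier := {x | x ∈ V ∧ x * x = 1}
        one_mem' := ⟨V.one_mem, one_mul 1⟩
        mul_mem' := by
          rintro x y ⟨hx, hx2⟩ ⟨hy, hy2⟩
          refine ⟨V.mul_mem hx hy, ?_⟩
          calc x * y * (x * y) = x * (y * x) * y := by group
            _ = x * (x * y) * y := by rw [hab y hy x hx]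
            _ = (x * x) * (y * y) := by group
            _ = 1 := by rw [hx2, hy2, one_mul]
        inv_mem' := by
          rintro x ⟨hx, hx2⟩
          refine ⟨V.inv_mem hx, ?_⟩
          rw [← mul_inv_rev, hx2, inv_one] }
    have hWn : W.Normal := by
      refine ⟨?_⟩
      rintro x ⟨hx, hx2⟩ g
      refine ⟨hVn.conj_mem x hx g, ?_⟩
      calc g * x * g⁻¹ * (g * x * g⁻¹) = g * (x * x) * g⁻¹ := by group
        _ = 1 := by rw [hx2]; group
    have hWb : ∀ w ∈ W, b w ∈ W := by
      rintro w ⟨hw, hw2⟩
      exact ⟨hVb w hw, by rw [← map_mul, hw2, map_one]⟩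
    have hWV : W ≤ V := fun x hx => hx.1
    rcases hmin W hWn hWb hWV with h | h
    · -- all elements of V have odd order
      have hodd : ∀ v ∈ V, Odd (orderOf v) := by
        intro v hv
        by_contra hne
        rw [Nat.not_odd_iff_even] at hne
        obtain ⟨r, hr⟩ := hne
        have hrpos : 0 < orderOf v := orderOf_pos v
        have h1 : v ^ r ∈ W := by
          refine ⟨V.pow_mem hv r, ?_⟩
          rw [← pow_add, ← hr, pow_orderOf_eq_one]
        rw [h, mem_bot] at h1
        have := Nat.le_of_dvd (by omega) (orderOf_dvd_of_pow_eq_one h1)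
        omega
      have hSm : S.card ≤ m := by
        refine le_trans ?_ hm
        have h1 : S.card = Nat.card S := by rw [Nat.card_eq_fintype_card, Fintype.card_coe]
        rw [h1]
        apply Nat.card_le_card_of_injective
          (fun x : S => (⟨((x : V) : H), hodd _ x.1.2, hSinv _ x.2⟩ : Iset b))
        intro x y hxy
        have h2 : ((x : V) : H) = ((y : V) : H) := congrArg (fun z : Iset b => (z : H)) hxy
        exact Subtype.ext (Subtype.ext h2)
      have : Nat.card V ≤ c * m := hScard.trans (Nat.mul_le_mul_left _ hSm)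
      omega
    · have hSc : S.card ≤ c := by
        refine le_trans (Finset.card_le_card ?_) hF
        intro s hs
        rw [Finset.mem_filter]
        refine ⟨Finset.mem_univ _, ?_⟩
        have h1 : (s : H) ∈ W := by rw [h]; exact s.2
        apply Subtype.ext
        show b s = s
        rw [hSinv s hs]
        exact inv_eq_of_mul_eq_one_left h1.2
      have : Nat.card V ≤ c * c := hScard.trans (Nat.mul_le_mul_left _ hSc)
      omega
  · -- nonabelian case
    have hZV : V ⊓ centralizer (V : Set H) = ⊥ := by
      have hn : (V ⊓ centralizer (V : Set H)).Normal := by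
        haveI : (centralizer (V : Set H)).Normal := inferInstance
        exact inferInstance
      have hbz : ∀ w ∈ V ⊓ centralizer (V : Set H), b w ∈ V ⊓ centralizer (V : Set H) := by
        rintro w ⟨hw, hw2⟩
        refine ⟨hVb w hw, ?_⟩
        show b w ∈ centralizer (V : Set H)
        rw [mem_centralizer_iff]
        intro v hv
        have h1 := mem_centralizer_iff.1 hw2 (b v) (hVb v hv)
        have h2 := congrArg b h1
        rw [map_mul, map_mul, hb] at h2
        exact h2
      rcases hmin _ hn hbz inf_le_left with h | h
      · exact h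
      · exfalso
        apply hab
        intro x hx y hy
        have : y ∈ V ⊓ centralizer (V : Set H) := by rw [h]; exact hy
        exact mem_centralizer_iff.1 this.2 x hx
    by_cases hbig : 2 * c < Nat.card V
    · obtain ⟨u, hu1, hbu, hcard⟩ := bf (ra b V hVb) hrb c hfix hbig
      have hbu' : b (u : H) = (u : H)⁻¹ := congrArg Subtype.val hbu
      -- normal closure
      have hUV : normalClosure ({(u : H)} : Set H) ≤ V := by
        refine normalClosure_le_normal ?_
        rw [Set.singleton_subset_iff]
        exact u.2
      have hUb : ∀ w ∈ normalClosure ({(u : H)} : Set H),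
          b w ∈ normalClosure ({(u : H)} : Set H) := by
        intro w hw
        have h1 : normalClosure ({(u : H)} : Set H) ≤
            (normalClosure ({(u : H)} : Set H)).comap b := by
          haveI : ((normalClosure ({(u : H)} : Set H)).comap b).Normal := inferInstance
          refine normalClosure_le_normal ?_
          rw [Set.singleton_subset_iff]
          show b (u : H) ∈ normalClosure ({(u : H)} : Set H)
          rw [hbu']
          exact inv_mem (subset_normalClosure (Set.mem_singleton _))
        exact h1 hw
      have hU : normalClosure ({(u : H)} : Set H) = V := by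
        rcases hmin (normalClosure ({(u : H)} : Set H)) normalClosure_normal hUb hUV with h | h
        · exfalso
          apply hu1
          have : (u : H) ∈ normalClosure ({(u : H)} : Set H) :=
            subset_normalClosure (Set.mem_singleton _)
          rw [h, mem_bot] at this
          exact Subtype.ext this
        · exact h
      set C := centralizer ({(u : H)} : Set H) with hC
      have hCidx : C.index ≤ 2 * c ^ 2 * B := by
        have h1 : Nat.card (centralizer ({u} : Set V)) ≤ Nat.card C := by
          apply Nat.card_le_card_of_injective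
            (fun x : centralizer ({u} : Set V) => (⟨((x : V) : H), by
              rw [hC, mem_centralizer_singleton_iff]
              have := mem_centralizer_singleton_iff.1 x.2
              exact congrArg Subtype.val this⟩ : C))
          intro x y hxy
          have h2 : ((x : V) : H) = ((y : V) : H) := congrArg (fun z : C => (z : H)) hxy
          exact Subtype.ext (Subtype.ext h2)
        have h2 : C.index * Nat.card C = Nat.card V * V.index := by
          rw [C.index_mul_card, V.card_mul_index]
        have h3 : C.index * Nat.card C ≤ (2 * c ^ 2 * B) * Nat.card C := by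
          rw [h2]
          calc Nat.card V * V.index ≤ (2 * c ^ 2 * Nat.card (centralizer ({u} : Set V))) * B :=
                Nat.mul_le_mul hcard hVB
            _ ≤ (2 * c ^ 2 * Nat.card C) * B := by
                apply Nat.mul_le_mul_right
                exact Nat.mul_le_mul_left _ h1
            _ = (2 * c ^ 2 * B) * Nat.card C := by ring
        exact Nat.le_of_mul_le_mul_right h3 Nat.card_pos
      have hcore : C.normalCore ⊓ V = ⊥ := by
        rw [eq_bot_iff, ← hZV]
        intro k hk
        refine ⟨hk.2, ?_⟩
        show k ∈ centralizer (V : Set H)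
        -- k centralizes V
        have h1 : V ≤ centralizer (C.normalCore : Set H) := by
          rw [← hU]
          refine normalClosure_le_normal ?_
          rw [Set.singleton_subset_iff]
          show (u : H) ∈ centralizer (C.normalCore : Set H)
          rw [mem_centralizer_iff]
          intro g hg
          have h2 : g ∈ C := normalCore_le C hg
          rw [hC, mem_centralizer_singleton_iff] at h2
          exact h2
        rw [mem_centralizer_iff]
        intro v hv
        exact (mem_centralizer_iff.1 (h1 hv) k hk.1).symm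
      have h1 := card_le_index_of_disjoint V C.normalCore hcore
      have h2 := index_normalCore_le C
      have h3 : C.index.factorial ≤ (2 * c ^ 2 * B).factorial := Nat.factorial_le hCidx
      omega
    · omega

end Cfsg.Agent.Lib.H33B
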