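import Mathlib
import Cfsg.Agent.Lib.H33B4

/-! The main induction. -/

set_option autoImplicit false

namespace Cfsg.Agent.Lib.H33B

open Subgroup

theorem center_inv {G : Type*} [Group G] (a : G →* G) (ha : ∀ g, a (a g) = g) :
    ∀ z ∈ center G, a z ∈ center G := by
  intro z hz
  rw [mem_center_iff] at hz ⊢
  intro g
  have h := congrArg a (hz (a g))
  rwa [map_mul, map_mul, ha] at h

/-- Preimage in `G` of a nontrivial normal invariant subgroup of `G ⧸ Z`. -/
theorem preimage_facts {G : Type*} [Group G] [Finite G] (a : G →* G) (ha : ∀ g, a (a g) = g)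
    (hG : closure (Iset a) = ⊤) (V : Subgroup (G ⧸ center G)) (hVn : V.Normal)
    (hVb : ∀ v ∈ V, qa a (center G) (center_inv a ha) v ∈ V) (hV1 : V ≠ ⊥) :
    ∃ (N : Subgroup G) (_ : N.Normal) (hN : ∀ n ∈ N, a n ∈ N),
      Nat.card (Iset (qa a N hN)) < Nat.card (Iset a) ∧ Nat.card (G ⧸ N) = V.index := by
  refine ⟨V.comap (QuotientGroup.mk' (center G)), inferInstance, ?_, ?_, ?_⟩
  · intro n hn
    exact hVb _ hn
  · haveI : (V.comap (QuotientGroup.mk' (center G))).Normal := inferInstance
    apply card_lt a _ _ ha hG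
    intro hle
    apply hV1
    rw [eq_bot_iff]
    intro v hv
    obtain ⟨g, rfl⟩ := QuotientGroup.mk_surjective v
    have h1 : g ∈ center G := hle hv
    rw [mem_bot]
    exact (QuotientGroup.eq_one_iff g).2 h1
  · show (V.comap (QuotientGroup.mk' (center G))).index = V.index
    exact index_comap_of_surjective V (QuotientGroup.mk'_surjective (center G))

theorem bd (m : ℕ) : ∃ B : ℕ, ∀ (G : Type) [Group G] [Finite G] (a : G →* G),
    (∀ g, a (a g) = g) → closure (Iset a) = ⊤ → Nat.card (Iset a) ≤ m → Nat.card G ≤ B := by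
  induction m with
  | zero =>
    refine ⟨0, ?_⟩
    intro G _ _ a _ _ hm
    exfalso
    haveI : Nonempty (Iset a) := ⟨⟨1, one_mem a⟩⟩
    have : 0 < Nat.card (Iset a) := Nat.card_pos
    omega
  | succ m ih =>
    obtain ⟨B, hB⟩ := ih
    obtain ⟨B1, hB1⟩ := card_le_of_index B (m + 1)
    obtain ⟨B2, hB2⟩ := cardV (m + 1) B
    obtain ⟨B3, hB3⟩ := card_le_of_index (B1 + B2 * B + 1) (m + 1)
    refine ⟨B3, ?_⟩
    intro G _ _ a ha hG hm
    apply hB3 G a ha hG hm
    set b := qa a (center G) (center_inv a ha) with hb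
    have hbb : ∀ q, b (b q) = q := qa_invol a _ _ ha
    have hbG : closure (Iset b) = ⊤ := closure_quot a _ _ hG
    have hbm : Nat.card (Iset b) ≤ m + 1 := (card_le a _ _ ha).trans hm
    show Nat.card (G ⧸ center G) ≤ _
    have hprop : ∀ V : Subgroup (G ⧸ center G), V.Normal → (∀ v ∈ V, b v ∈ V) → V ≠ ⊥ →
        V.index ≤ B := by
      intro V hVn hVb hV1
      obtain ⟨N, hNn, hN, h1, h2⟩ := preimage_facts a ha hG V hVn hVb hV1
      rw [← h2]
      exact hB (G ⧸ N) (qa a N hN) (qa_invol a N hN ha) (closure_quot a N hN hG) (by omega)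
    by_cases hZ : center (G ⧸ center G) = ⊥
    · by_cases hsub : (⊤ : Subgroup (G ⧸ center G)) = ⊥
      · have : Nat.card (G ⧸ center G) = 1 := by
          rw [← Subgroup.card_top, hsub, Subgroup.card_bot]
        omega
      · let S : Set (Subgroup (G ⧸ center G)) := {V | V.Normal ∧ (∀ v ∈ V, b v ∈ V) ∧ V ≠ ⊥}
        have hS : S.Nonempty := ⟨⊤, inferInstance, fun _ _ => mem_top _, hsub⟩
        obtain ⟨V, ⟨hVn, hVb, hV1⟩, hVmin⟩ := WellFounded.has_min wellFounded_lt S hS
        have hi := hprop V hVn hVb hV1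
        have hc : Nat.card V ≤ B2 := by
          refine hB2 (G ⧸ center G) b hbb hbG hbm hZ V hVn hVb hV1 ?_ hi
          intro W hWn hWb hWV
          by_cases hW1 : W = ⊥
          · exact Or.inl hW1
          · right
            by_contra hne
            exact hVmin W ⟨hWn, hWb, hW1⟩ (lt_of_le_of_ne hWV hne)
        rw [← V.card_mul_index]
        have := Nat.mul_le_mul hc hi
        omega
    · have hi := hprop (center (G ⧸ center G)) inferInstance (center_inv b hbb) hZ
      have := hB1 (G ⧸ center G) b hbb hbG hbm hi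
      omega

theorem main : ∃ f : ℕ → ℕ, ∀ (G : Type) [Group G] [Finite G] [Nontrivial G] (α : MulAut G),
    orderOf α = 2 → Subgroup.closure (Set.range (fun c : G => c * (α c)⁻¹)) = ⊤ →
      Nat.card G ≤ f (Nat.card {g : G // Odd (orderOf g) ∧ α g = g⁻¹}) := by
  choose f hf using bd
  refine ⟨f, ?_⟩
  intro G _ _ _ α hα hG
  have ha : ∀ g, α (α g) = g := by
    intro g
    have h1 : α ^ 2 = 1 := by rw [← hα]; exact pow_orderOf_eq_one α
    have h2 : (α ^ 2) g = g := by rw [h1]; rfl
    rwa [pow_two, MulAut.mul_apply] at h2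
  exact hf _ G (α : G →* G) ha (closure_eq α ha hG) le_rfl

end Cfsg.Agent.Lib.H33B
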