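import Cfsg.Agent.Lib.PGroupRank
import Cfsg.Agent.Lib.H70Frattini

/-!
`p`-groups (`p` odd) all of whose elements of order `p` are central: `x ^ p = y ^ p` implies
`(x⁻¹ y) ^ p = 1`, and the resulting bound for the index of a subgroup containing all `p`-th powers
(helper33, for S4404).
-/

set_option autoImplicit false

namespace Cfsg.Agent.Lib.H33T3a

open Subgroup Cfsg
open Cfsg.Agent.Lib.PGroupOdd Cfsg.Agent.Lib.PGroupRank

universe u

theorem pow_aux {p : ℕ} [hp : Fact p.Prime] (hp2 : p ≠ 2) : ∀ (n : ℕ) (C : Type u) [Group C] [Finite C],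
    Nat.card C = n → IsPGroup p C → (∀ w : C, w ^ p = 1 → w ∈ center C) →
    ∀ x y : C, x ^ p = y ^ p → (x⁻¹ * y) ^ p = 1 := by
  intro n
  induction n using Nat.strong_induction_on with
  | _ n ih =>
    intro C _ _ hn hC hcen x y hxy
    by_cases hcomm : Commute x y
    · rw [(hcomm.inv_left).mul_pow, inv_pow, hxy]; simp
    set K : Subgroup C := closure {x, y⁻¹ * x * y} with hK
    have hxK : x ∈ K := subset_closure (by simp)
    have hyK : y⁻¹ * x * y ∈ K := subset_closure (by simp)
    have hKtop : K ≠ ⊤ := by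
      intro hKt
      apply hcomm
      have h1 : zpowers x ⊔ frattini C = ⊤ := by
        rw [eq_top_iff, ← hKt, hK, closure_le]
        rintro z (rfl | hz)
        · exact mem_sup_left (mem_zpowers z)
        · rw [Set.mem_singleton_iff] at hz
          rw [hz]
          have h2 : x⁻¹ * y⁻¹ * x * y ∈ frattini C := by
            apply H70Frattini.commutator_le_frattini hC
            have := commutator_mem_commutator (mem_top (x⁻¹)) (mem_top (y⁻¹))
            rw [commutatorElement_def, inv_inv, inv_inv] at this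
            exact this
          have h3 : y⁻¹ * x * y = x * (x⁻¹ * y⁻¹ * x * y) := by group
          rw [h3]
          exact mul_mem (mem_sup_left (mem_zpowers x)) (mem_sup_right h2)
      have h2 := frattini_nongenerating h1
      have h3 : y ∈ zpowers x := by rw [h2]; trivial
      obtain ⟨k, rfl⟩ := mem_zpowers_iff.1 h3
      exact (Commute.refl x).zpow_right k
    have hlt : Nat.card K < n := by
      rw [← hn]
      exact lt_of_le_of_ne (Subgroup.card_le_card_group K) (fun h => hKtop (Subgroup.eq_top_of_card_eq K h))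
    have h1 := ih (Nat.card K) hlt K rfl (hC.to_subgroup K) (fun w hw => by
      rw [mem_center_iff]
      intro g
      have := mem_center_iff.1 (hcen (w : C) (by rw [← SubmonoidClass.coe_pow, hw]; rfl)) (g : C)
      exact Subtype.ext this) ⟨x, hxK⟩ ⟨y⁻¹ * x * y, hyK⟩ (by
        apply Subtype.ext
        rw [SubmonoidClass.coe_pow, SubmonoidClass.coe_pow]
        change x ^ p = (y⁻¹ * x * y) ^ p
        have h5 : (y⁻¹ * x * y) ^ p = y⁻¹ * x ^ p * y := by
          have := conj_pow (i := p) (a := y⁻¹) (b := x)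
          rwa [inv_inv] at this
        rw [h5, hxy]
        have : Commute (y ^ p) y := (Commute.refl y).pow_left p
        rw [mul_assoc, this.eq]
        group)
    have h2 : (x⁻¹ * (y⁻¹ * x * y)) ^ p = 1 := by
      have := congrArg (Subtype.val) h1
      rw [SubmonoidClass.coe_pow] at this
      exact this
    set c := x⁻¹ * (y⁻¹ * x * y) with hc
    have hcc := hcen c h2
    have hcx : Commute c x := (mem_center_iff.1 hcc x).symm
    have hcy : Commute c y := (mem_center_iff.1 hcc y).symm
    have h4 : c = y⁻¹ * x * y * x⁻¹ := by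
      have h5 : x * c * x⁻¹ = c := by rw [← hcx.eq]; group
      rw [← h5, hc]; group
    have h3 : y * x⁻¹ = x⁻¹ * y * c := by
      rw [h4]; group
    rw [mul_pow_of_comm h3 hcx.inv_right hcy, inv_pow, hxy, pow_choose_two_eq_one hp.out hp2 h2]
    simp

/-- counting: a subgroup containing all `p`-th powers has index at most the number of solutions of `w ^ p = 1`. -/
theorem card_le {p : ℕ} [hp : Fact p.Prime] (hp2 : p ≠ 2) {C : Type u} [Group C] [Finite C] (hC : IsPGroup p C)
    (hcen : ∀ w : C, w ^ p = 1 → w ∈ center C) (V N : Subgroup C) (hV : ∀ w : C, w ^ p = 1 → w ∈ V)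
    (hN : ∀ w : C, w ^ p ∈ N) : Nat.card C ≤ Nat.card V * Nat.card N := by
  classical
  let _ := Fintype.ofFinite C
  have h1 := Finset.card_le_mul_card_image (f := fun x : C => x ^ p) (s := Finset.univ) (Nat.card V) (by
    intro a ha
    obtain ⟨x0, _, rfl⟩ := Finset.mem_image.1 ha
    have h2 : (Finset.univ.filter (fun x : C => x ^ p = x0 ^ p)) ⊆
        (Finset.univ.filter (fun w : C => w ∈ V)).image (fun w => x0 * w) := by
      intro x hx
      rw [Finset.mem_filter] at hx
      rw [Finset.mem_image]
      refine ⟨x0⁻¹ * x, ?_, by group⟩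
      rw [Finset.mem_filter]
      exact ⟨Finset.mem_univ _, hV _ (pow_aux hp2 _ C rfl hC hcen x0 x hx.2.symm)⟩
    refine (Finset.card_le_card h2).trans (Finset.card_image_le.trans ?_)
    rw [Nat.card_eq_fintype_card, Fintype.card_subtype])
  rw [Finset.card_univ, ← Nat.card_eq_fintype_card] at h1
  refine h1.trans (Nat.mul_le_mul_left _ ?_)
  have h3 : (Finset.univ.image (fun x : C => x ^ p)) ⊆ Finset.univ.filter (fun w : C => w ∈ N) := by
    intro x hx
    obtain ⟨y, _, rfl⟩ := Finset.mem_image.1 hx
    rw [Finset.mem_filter]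
    exact ⟨Finset.mem_univ _, hN y⟩
  refine (Finset.card_le_card h3).trans ?_
  rw [Nat.card_eq_fintype_card, Fintype.card_subtype]

theorem card_subgroupOf_le {R : Type u} [Group R] [Finite R] (V C : Subgroup R) :
    Nat.card (V.subgroupOf C) ≤ Nat.card V := by
  refine Nat.card_le_card_of_injective (fun w => (⟨((w : C) : R), mem_subgroupOf.1 w.2⟩ : V)) ?_
  intro a b h
  have h1 := congrArg (Subtype.val) h
  exact Subtype.ext (Subtype.ext h1)

/-- the same for a subgroup `C` of a group. -/
theorem card_le' {p : ℕ} [hp : Fact p.Prime] (hp2 : p ≠ 2) {R : Type u} [Group R] [Finite R] {C V N : Subgroup R}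
    (hC : IsPGroup p C) (hcen : ∀ w ∈ C, w ^ p = 1 → ∀ u ∈ C, u * w = w * u)
    (hV : ∀ w ∈ C, w ^ p = 1 → w ∈ V) (hN : ∀ w ∈ C, w ^ p ∈ N) : Nat.card C ≤ Nat.card V * Nat.card N := by
  have h := card_le hp2 hC (fun w hw => by
    rw [mem_center_iff]
    intro u
    exact Subtype.ext (hcen w w.2 (by rw [← SubmonoidClass.coe_pow, hw]; rfl) u u.2)) (V.subgroupOf C) (N.subgroupOf C)
    (fun w hw => by
      rw [mem_subgroupOf]
      exact hV w w.2 (by rw [← SubmonoidClass.coe_pow, hw]; rfl))
    (fun w => by
      rw [mem_subgroupOf, SubmonoidClass.coe_pow]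
      exact hN w w.2)
  exact h.trans (Nat.mul_le_mul (card_subgroupOf_le V C) (card_subgroupOf_le N C))

end Cfsg.Agent.Lib.H33T3a
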