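import Cfsg.Agent.Lib.H33T3a
import Cfsg.Agent.S0636

/-!
The `3`-group core of S4404 (helper33): a finite `3`-group `R` with an elementary abelian subgroup of
order `27` and subgroups `B ⊴ A`, `|A : B| = 3`, `x ∈ A ∖ B` lying in all conjugates `g B g⁻¹`, `g ∉ A`, has an
elementary abelian subgroup `F` of order `27` with `|F ∩ B| ≥ 9`.
-/

set_option autoImplicit false

namespace Cfsg.Agent.Lib.H33T3b

open Subgroup Cfsg
open Cfsg.Agent.Lib.PGroupOdd Cfsg.Agent.Lib.PGroupRank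

universe u

section helpers
variable {R : Type u} [Group R] [Finite R]

theorem mul_card_le {p : ℕ} [hp : Fact p.Prime] (hR : IsPGroup p R) {K L : Subgroup R} (hKL : K ≤ L)
    (hne : ∃ x ∈ L, x ∉ K) : p * Nat.card K ≤ Nat.card L := by
  have h1 := SubgroupTools.card_mul_relIndex_of_le hKL
  have h2 : K.relIndex L ≠ 1 := by
    intro h
    obtain ⟨x, hxL, hxK⟩ := hne
    exact hxK ((relIndex_eq_one.1 h) hxL)
  obtain ⟨n, hn⟩ := IsPGroup.iff_card.1 (hR.to_subgroup L)
  have h3 : K.relIndex L ∣ p ^ n := by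
    rw [← hn, ← h1]
    exact dvd_mul_left _ _
  obtain ⟨m, _, hm⟩ := (Nat.dvd_prime_pow hp.out).1 h3
  have hm0 : m ≠ 0 := by
    rintro rfl
    exact h2 (by rw [hm, pow_zero])
  have h4 : p ≤ K.relIndex L := by
    rw [hm]
    exact Nat.le_self_pow hm0 p
  calc p * Nat.card K ≤ K.relIndex L * Nat.card K := Nat.mul_le_mul_right _ h4
    _ = Nat.card L := by rw [mul_comm, h1]

theorem comm_mem_of_card_le {p : ℕ} [hp : Fact p.Prime] (hR : IsPGroup p R) {C A : Subgroup R} (hC : C.Normal)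
    (hA : A.Normal) (hCA : C ≤ A) (h : Nat.card A ≤ p * Nat.card C) (g : R) {u : R} (hu : u ∈ A) :
    g * u * g⁻¹ * u⁻¹ ∈ C := by
  by_cases hAC : A ≤ C
  · exact C.mul_mem (hAC (hA.conj_mem u hu g)) (C.inv_mem (hAC hu))
  · have h1 : ∃ x ∈ A, x ∉ C := by
      by_contra hcon
      push Not at hcon
      exact hAC hcon
    have h2 := mul_card_le hR hCA h1
    have h3 := SubgroupTools.card_mul_relIndex_of_le hCA
    have h4 : C.relIndex A = p := by
      have h5 : Nat.card C * C.relIndex A = Nat.card C * p := by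
        rw [h3, mul_comm (Nat.card C) p]
        omega
      exact Nat.eq_of_mul_eq_mul_left Nat.card_pos h5
    have h6 : Nat.card (A.map (QuotientGroup.mk' C)) = p := by
      rw [← Subgroup.relIndex_ker, QuotientGroup.ker_mk', h4]
    have h7 : (A.map (QuotientGroup.mk' C)).Normal := hA.map _ (QuotientGroup.mk'_surjective C)
    have h8 := le_center_of_card_eq_prime (hR.to_quotient C) h7 h6
    have h9 := mem_center_iff.1 (h8 (mem_map_of_mem (QuotientGroup.mk' C) hu)) (QuotientGroup.mk' C g)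
    rw [← QuotientGroup.eq_one_iff]
    change QuotientGroup.mk' C (g * u * g⁻¹ * u⁻¹) = 1
    rw [map_mul, map_mul, map_mul, h9, map_inv, map_inv]
    group

theorem q3 {Q : Type u} [Group Q] (h : Nat.card Q = 3) {x : Q} (hx : x ≠ 1) (a : Q) : a = 1 ∨ a = x ∨ a = x⁻¹ := by
  have hp : Fact (Nat.Prime 3) := ⟨Nat.prime_three⟩
  have h1 : a ∈ zpowers x := mem_zpowers_of_prime_card h hx
  obtain ⟨k, rfl⟩ := mem_zpowers_iff.1 h1
  have h3 : x ^ (3 : ℤ) = 1 := by
    have : x ^ 3 = 1 := by rw [← h]; exact pow_card_eq_one'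
    exact_mod_cast this
  have h4 : k = 3 * (k / 3) + k % 3 := (Int.mul_ediv_add_emod k 3).symm
  rw [h4, zpow_add, zpow_mul, h3, one_zpow, one_mul]
  have h5 : k % 3 = 0 ∨ k % 3 = 1 ∨ k % 3 = 2 := by omega
  rcases h5 with h5 | h5 | h5 <;> rw [h5]
  · left; exact zpow_zero x
  · right; left; exact zpow_one x
  · right; right
    rw [eq_inv_iff_mul_eq_one]
    calc x ^ (2 : ℤ) * x = x ^ (3 : ℤ) := by rw [← zpow_add_one]; rfl
      _ = 1 := h3

omit [Finite R] in
theorem index3 {A B : Subgroup R} (hn : ∀ a ∈ A, ∀ b ∈ B, a * b * a⁻¹ ∈ B) (h3 : B.relIndex A = 3)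
    {x : R} (hxA : x ∈ A) (hxB : x ∉ B) {a : R} (ha : a ∈ A) : a ∈ B ∨ a * x⁻¹ ∈ B ∨ a * x ∈ B := by
  have hN : (B.subgroupOf A).Normal := ⟨fun b hb g => by
    rw [mem_subgroupOf] at hb ⊢
    exact hn g g.2 b hb⟩
  have hc : Nat.card (A ⧸ B.subgroupOf A) = 3 := h3
  have hx1 : (QuotientGroup.mk (⟨x, hxA⟩ : A) : A ⧸ B.subgroupOf A) ≠ 1 := by
    rw [Ne, QuotientGroup.eq_one_iff, mem_subgroupOf]
    exact hxB
  rcases q3 hc hx1 (QuotientGroup.mk (⟨a, ha⟩ : A)) with h | h | h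
  · left
    rwa [QuotientGroup.eq_one_iff, mem_subgroupOf] at h
  · right; left
    have h2 : (QuotientGroup.mk ((⟨a, ha⟩ : A) * (⟨x, hxA⟩ : A)⁻¹) : A ⧸ B.subgroupOf A) = 1 := by
      rw [QuotientGroup.mk_mul, QuotientGroup.mk_inv, h, mul_inv_cancel]
    rwa [QuotientGroup.eq_one_iff, mem_subgroupOf] at h2
  · right; right
    have h2 : (QuotientGroup.mk ((⟨a, ha⟩ : A) * (⟨x, hxA⟩ : A)) : A ⧸ B.subgroupOf A) = 1 := by
      rw [QuotientGroup.mk_mul, h, inv_mul_cancel]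
    rwa [QuotientGroup.eq_one_iff, mem_subgroupOf] at h2

/-- an elementary abelian subgroup of `A` meets `B` in index at most `|A : B|`. -/
theorem card_le_relIndex {A B F : Subgroup R} {k : ℕ} (h : B.relIndex A ≤ k) (hF : F ≤ A) :
    Nat.card F ≤ k * Nat.card (F ⊓ B : Subgroup R) := by
  have h1 : B.relIndex F ≤ B.relIndex A := relIndex_le_of_le_right hF (fun h => index_ne_zero_of_finite (H := B.subgroupOf A) h)
  have h2 : Nat.card (F ⊓ B : Subgroup R) * (F ⊓ B).relIndex F = Nat.card F :=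
    SubgroupTools.card_mul_relIndex_of_le inf_le_left
  have h3 : (F ⊓ B).relIndex F = B.relIndex F := inf_relIndex_left F B
  rw [← h2, h3, mul_comm]
  exact Nat.mul_le_mul_right _ (h1.trans h)

end helpers

end Cfsg.Agent.Lib.H33T3b
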