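import Cfsg.Agent.Lib.H33T3b

/-! The `3`-group core of S4404 (helper33), continued. -/

set_option autoImplicit false

namespace Cfsg.Agent.Lib.H33T3c

open Subgroup Cfsg
open Cfsg.Agent.Lib.PGroupOdd Cfsg.Agent.Lib.PGroupRank Cfsg.Agent.Lib.H33T3b

universe u

variable {R : Type u} [Group R] [Finite R] {A B : Subgroup R} {x : R}

structure Core (A B : Subgroup R) (x : R) : Prop where
  hR : IsPGroup 3 R
  hBA : B ≤ A
  hcomm : ∀ a ∈ A, ∀ b ∈ A, a * b * a⁻¹ * b⁻¹ ∈ B
  hcube : ∀ a ∈ A, a ^ 3 ∈ B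
  hidx : B.relIndex A ≤ 3
  hxA : x ∈ A
  hxB : x ∉ B
  hx : ∀ g ∉ A, g * x * g⁻¹ ∈ B

theorem Core.conjB (h : Core A B x) {a b : R} (ha : a ∈ A) (hb : b ∈ B) : a * b * a⁻¹ ∈ B := by
  have h1 := B.mul_mem (h.hcomm a ha b (h.hBA hb)) hb
  rwa [inv_mul_cancel_right] at h1

theorem Core.x_core (h : Core A B x) : x ∈ A.normalCore := by
  intro b
  by_cases hb : b ∈ A
  · exact A.mul_mem (A.mul_mem hb h.hxA) (A.inv_mem hb)
  · exact h.hBA (h.hx b hb)

theorem Core.conj_x_core (h : Core A B x) (g : R) : g * x * g⁻¹ ∈ A.normalCore :=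
  (normalCore_normal A).conj_mem x h.x_core g

/-- elements of the core of `A` whose conjugates by a list lie in `B` -/
def KL (A B : Subgroup R) (l : List R) : Subgroup R where
  carrier := {u | u ∈ A.normalCore ∧ ∀ g ∈ l, g⁻¹ * u * g ∈ B}
  one_mem' := ⟨one_mem _, fun g _ => by simp⟩
  mul_mem' := by
    rintro a b ⟨ha, ha'⟩ ⟨hb, hb'⟩
    refine ⟨mul_mem ha hb, fun g hg => ?_⟩
    have := B.mul_mem (ha' g hg) (hb' g hg)
    rwa [show g⁻¹ * a * g * (g⁻¹ * b * g) = g⁻¹ * (a * b) * g by group] at this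
  inv_mem' := by
    rintro a ⟨ha, ha'⟩
    refine ⟨inv_mem ha, fun g hg => ?_⟩
    have := B.inv_mem (ha' g hg)
    rwa [show (g⁻¹ * a * g)⁻¹ = g⁻¹ * a⁻¹ * g by group] at this

theorem mem_KL {l : List R} {u : R} : u ∈ KL A B l ↔ u ∈ A.normalCore ∧ ∀ g ∈ l, g⁻¹ * u * g ∈ B := Iff.rfl

theorem Core.card_KL (h : Core A B x) : ∀ l : List R, l.Pairwise (fun g k => g⁻¹ * k ∉ A) →
    3 ^ l.length * Nat.card (KL A B l) ≤ Nat.card (A.normalCore : Subgroup R) := by
  have hp3 : Fact (Nat.Prime 3) := ⟨Nat.prime_three⟩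
  intro l
  induction l with
  | nil =>
    intro _
    rw [List.length_nil, pow_zero, one_mul]
    exact Subgroup.card_le_of_le (fun u hu => (mem_KL.1 hu).1)
  | cons g l ih =>
    intro hl
    rw [List.pairwise_cons] at hl
    refine le_trans ?_ (ih hl.2)
    rw [List.length_cons, pow_succ, mul_assoc]
    refine Nat.mul_le_mul_left _ ?_
    refine mul_card_le h.hR (fun u hu => ?_) ⟨g * x * g⁻¹, ?_, ?_⟩
    · rw [mem_KL] at hu ⊢
      exact ⟨hu.1, fun k hk => hu.2 k (List.mem_cons_of_mem _ hk)⟩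
    · rw [mem_KL]
      refine ⟨h.conj_x_core g, fun k hk => ?_⟩
      have h1 : k⁻¹ * g ∉ A := by
        intro h2
        apply hl.1 k hk
        have := A.inv_mem h2
        rwa [mul_inv_rev, inv_inv] at this
      have h2 := h.hx _ h1
      rwa [show k⁻¹ * g * x * (k⁻¹ * g)⁻¹ = k⁻¹ * (g * x * g⁻¹) * k by group] at h2
    · rw [mem_KL]
      rintro ⟨_, h2⟩
      apply h.hxB
      have := h2 g List.mem_cons_self
      rwa [show g⁻¹ * (g * x * g⁻¹) * g = x by group] at this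

theorem exists_list (A : Subgroup R) : ∀ n ≤ A.index, ∃ l : List R, l.length = n ∧ l.Pairwise (fun g k => g⁻¹ * k ∉ A) := by
  intro n
  induction n with
  | zero => intro _; exact ⟨[], rfl, List.Pairwise.nil⟩
  | succ n ih =>
    intro hn
    obtain ⟨l, hl, hlp⟩ := ih (by omega)
    have h1 : ∃ g : R, ∀ k ∈ l, g⁻¹ * k ∉ A := by
      by_contra hcon
      push Not at hcon
      have h2 : Function.Surjective (fun i : Fin l.length => (QuotientGroup.mk (l.get i) : R ⧸ A)) := by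
        intro q
        obtain ⟨g, rfl⟩ := QuotientGroup.mk_surjective q
        obtain ⟨k, hk, hk'⟩ := hcon g
        obtain ⟨i, hi⟩ := List.mem_iff_get.1 hk
        refine ⟨i, ?_⟩
        change (QuotientGroup.mk (l.get i) : R ⧸ A) = _
        rw [hi]
        exact (QuotientGroup.eq.2 hk').symm
      have h3 := Nat.card_le_card_of_surjective _ h2
      rw [Nat.card_fin] at h3
      change A.index ≤ _ at h3
      omega
    obtain ⟨g, hg⟩ := h1
    exact ⟨g :: l, by rw [List.length_cons, hl], List.pairwise_cons.2 ⟨hg, hlp⟩⟩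

theorem Core.core_le_KL (h : Core A B x) (l : List R) : B.normalCore ≤ KL A B l := by
  intro u hu
  rw [mem_KL]
  refine ⟨fun b => h.hBA (hu b), fun g _ => ?_⟩
  have := hu g⁻¹
  rwa [inv_inv] at this

theorem Core.card_ge (h : Core A B x) {n : ℕ} (hn : n ≤ A.index) :
    3 ^ n * Nat.card (B.normalCore : Subgroup R) ≤ Nat.card (A.normalCore : Subgroup R) := by
  obtain ⟨l, hl, hlp⟩ := exists_list A n hn
  refine le_trans ?_ (h.card_KL l hlp)
  rw [hl]
  exact Nat.mul_le_mul_left _ (Subgroup.card_le_of_le (h.core_le_KL l))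

theorem Core.cube_core (h : Core A B x) {u : R} (hu : u ∈ A.normalCore) : u ^ 3 ∈ B.normalCore := by
  intro b
  have := h.hcube _ (hu b)
  rwa [conj_pow] at this

theorem Core.comm_core (h : Core A B x) {u v : R} (hu : u ∈ A.normalCore) (hv : v ∈ A.normalCore) :
    u * v * u⁻¹ * v⁻¹ ∈ B.normalCore := by
  intro b
  have := h.hcomm _ (hu b) _ (hv b)
  rwa [show b * u * b⁻¹ * (b * v * b⁻¹) * (b * u * b⁻¹)⁻¹ * (b * v * b⁻¹)⁻¹ = b * (u * v * u⁻¹ * v⁻¹) * b⁻¹ by group]
    at this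

/-- the normal core of `A` is not cyclic -/
theorem Core.not_cyclic (h : Core A B x) (hA : A ≠ ⊤) : ¬ IsCyclic (A.normalCore : Subgroup R) := by
  intro hc
  have h2 : 2 ≤ A.index := by
    have h0 : A.index ≠ 0 := index_ne_zero_of_finite
    have h1 : A.index ≠ 1 := fun h => hA (index_eq_one.1 h)
    omega
  have h3 := h.card_ge h2
  obtain ⟨u, hu⟩ := hc.exists_generator
  have hz : zpowers (u : R) = A.normalCore := by
    apply le_antisymm
    · rw [zpowers_le]; exact u.2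
    · intro v hv
      obtain ⟨k, hk⟩ := mem_zpowers_iff.1 (hu ⟨v, hv⟩)
      rw [mem_zpowers_iff]
      exact ⟨k, by rw [← SubgroupClass.coe_zpow, hk]⟩
  have h4 : zpowers ((u : R) ^ 3) ≤ B.normalCore := by
    rw [zpowers_le]; exact h.cube_core u.2
  have h5 := Subgroup.card_le_of_le h4
  rw [Nat.card_zpowers, orderOf_pow] at h5
  have h6 : Nat.card (A.normalCore : Subgroup R) = orderOf (u : R) := by
    rw [← Nat.card_zpowers, hz]
  rw [h6] at h3
  have h7 : Nat.gcd (orderOf (u : R)) 3 ≤ 3 := Nat.gcd_le_right _ (by norm_num)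
  have h8 : 0 < orderOf (u : R) := orderOf_pos _
  have h9 : orderOf (u : R) ≤ 3 * (orderOf (u : R) / Nat.gcd (orderOf (u : R)) 3) := by
    have h10 := Nat.div_mul_cancel (Nat.gcd_dvd_left (orderOf (u : R)) 3)
    calc orderOf (u : R) = orderOf (u : R) / Nat.gcd (orderOf (u : R)) 3 * Nat.gcd (orderOf (u : R)) 3 := h10.symm
      _ ≤ orderOf (u : R) / Nat.gcd (orderOf (u : R)) 3 * 3 := Nat.mul_le_mul_left _ h7
      _ = _ := mul_comm _ _
  omega

end Cfsg.Agent.Lib.H33T3c
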