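import Cfsg.Agent.Lib.PGroupRank
import Cfsg.Agent.Lib.OddBaseF

/-! Index of the centralizer of an elementary abelian subgroup (helper33, for S4404). -/

set_option autoImplicit false

namespace Cfsg.Agent.Lib.H33T3m

open Subgroup Cfsg
open Cfsg.Agent.Lib.PGroupRank

universe u

variable {G : Type u} [Group G] [Finite G]

theorem relIndex_centralizer_dvd {V H : Subgroup G} {r k : ℕ} [hr : Fact r.Prime] (hV : IsElementaryAbelian r V)
    (hc : Nat.card V = r ^ k) (hH : H ≤ normalizer (V : Set G)) :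
    (centralizer (V : Set G)).relIndex H ∣ ∏ i : Fin k, (r ^ k - r ^ (i : ℕ)) := by
  have h1 : Nat.card (MulAut V) ∣ ∏ i : Fin k, (r ^ k - r ^ (i : ℕ)) := by
    rw [isElementaryAbelian_iff] at hV
    refine OddBaseF.card_mulAut_dvd (X := V) (fun x y => Subtype.ext (hV.1 x x.2 y y.2)) (fun x => ?_) hc
    apply Subtype.ext
    rw [SubmonoidClass.coe_pow]
    exact hV.2 x x.2
  refine dvd_trans ?_ h1
  let φ : H →* MulAut V := (V.normalizerMonoidHom).comp (inclusion hH)
  have hk : φ.ker = (centralizer (V : Set G)).subgroupOf H := by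
    ext u
    rw [MonoidHom.mem_ker, mem_subgroupOf, mem_centralizer_iff]
    constructor
    · intro hu v hv
      have h2 := congrArg (fun f : MulAut V => ((f ⟨v, hv⟩ : V) : G)) hu
      have h3 : (u : G) * v * (u : G)⁻¹ = v := h2
      have := congrArg (· * (u : G)) h3
      simp only [inv_mul_cancel_right] at this
      exact this.symm
    · intro hu
      ext v
      change (u : G) * v * (u : G)⁻¹ = v
      rw [← hu v v.2, mul_inv_cancel_right]
  have h4 : (centralizer (V : Set G)).relIndex H = φ.ker.index := by rw [hk]; rfl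
  rw [h4, index_ker]
  exact Subgroup.card_subgroup_dvd_card _

/-- for a `p`-subgroup the index is a power of `p`. -/
theorem relIndex_pow {p : ℕ} [hp : Fact p.Prime] {K H : Subgroup G} (hH : IsPGroup p H) :
    ∃ m, K.relIndex H = p ^ m := by
  obtain ⟨n, hn⟩ := IsPGroup.iff_card.1 hH
  have h1 : K.relIndex H ∣ p ^ n := by
    rw [← hn]
    exact index_dvd_card (K.subgroupOf H)
  obtain ⟨m, _, hm⟩ := (Nat.dvd_prime_pow hp.out).1 h1
  exact ⟨m, hm⟩

/-- `3`-groups act on elementary abelian groups of order `4`, `8` and `9` with centralizer of index at most `3`. -/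
theorem relIndex_le_three {V H : Subgroup G} {r k : ℕ} [hr : Fact r.Prime] (hV : IsElementaryAbelian r V)
    (hc : Nat.card V = r ^ k) (hH : H ≤ normalizer (V : Set G)) (hp : IsPGroup 3 H)
    (h9 : ¬ 9 ∣ ∏ i : Fin k, (r ^ k - r ^ (i : ℕ))) : (centralizer (V : Set G)).relIndex H ≤ 3 := by
  have hp3 : Fact (Nat.Prime 3) := ⟨Nat.prime_three⟩
  obtain ⟨m, hm⟩ := relIndex_pow (K := centralizer (V : Set G)) hp
  have h1 := relIndex_centralizer_dvd hV hc hH
  rw [hm] at h1 ⊢
  have h2 : m < 2 := by
    by_contra hcon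
    push Not at hcon
    exact h9 (dvd_trans (pow_dvd_pow 3 hcon) h1)
  calc 3 ^ m ≤ 3 ^ 1 := Nat.pow_le_pow_right (by norm_num) (by omega)
    _ = 3 := by norm_num

end Cfsg.Agent.Lib.H33T3m
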