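import Cfsg.Agent.Lib.H33T3c
import Cfsg.Agent.Lib.H33T3m

/-! The `3`-group core of S4404 (helper33), main argument. -/

set_option autoImplicit false

namespace Cfsg.Agent.Lib.H33T3d

open Subgroup Cfsg
open Cfsg.Agent.Lib.PGroupOdd Cfsg.Agent.Lib.PGroupRank Cfsg.Agent.Lib.H33T3b Cfsg.Agent.Lib.H33T3c

universe u

variable {R : Type u} [Group R] [Finite R] {A B : Subgroup R} {x : R}

/-- the centralizer in the core of `A` of a normal subgroup of order `9`. -/
structure Data (A B : Subgroup R) (x : R) (V C : Subgroup R) : Prop where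
  core : Core A B x
  Vn : V.Normal
  Vle : V ≤ A.normalCore
  Ve : IsElementaryAbelian 3 V
  Vc : Nat.card V = 9
  Cdef : C = A.normalCore ⊓ centralizer (V : Set R)
  omega : ∀ w ∈ C, w ^ 3 = 1 → w ∈ V
  count : ∀ N : Subgroup R, (∀ w ∈ C, w ^ 3 ∈ N) → Nat.card C ≤ 9 * Nat.card N
  idx : Nat.card (A.normalCore : Subgroup R) ≤ 3 * Nat.card C

theorem Data.normal {V C : Subgroup R} (d : Data A B x V C) : C.Normal := by
  rw [d.Cdef]
  have := d.Vn
  have h1 : (centralizer (V : Set R)).Normal := inferInstance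
  exact normal_inf_normal _ _

theorem Data.comm {V C : Subgroup R} (d : Data A B x V C) {v c : R} (hv : v ∈ V) (hc : c ∈ C) : v * c = c * v := by
  rw [d.Cdef, mem_inf, mem_centralizer_iff] at hc
  exact hc.2 v hv

theorem exists_data (h : Core A B x) (hA : A ≠ ⊤)
    (hno : ∀ F : Subgroup R, F ≤ A → IsElementaryAbelian 3 F → Nat.card F ≠ 27) :
    ∃ V C : Subgroup R, Data A B x V C := by
  have hp3 : Fact (Nat.Prime 3) := ⟨Nat.prime_three⟩
  obtain ⟨V, hVle, hVn, hVe, hVc⟩ := Cfsg.Agent.S0636.result (p := 3) (by norm_num) h.hR A.normalCore (h.not_cyclic hA)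
  have hVc' : Nat.card V = 9 := by rw [hVc]; norm_num
  have hcomm : ∀ w ∈ A.normalCore ⊓ centralizer (V : Set R), ∀ v ∈ V, v * w = w * v := by
    intro w hw v hv
    rw [mem_inf, mem_centralizer_iff] at hw
    exact hw.2 v hv
  have hom : ∀ w ∈ A.normalCore ⊓ centralizer (V : Set R), w ^ 3 = 1 → w ∈ V := by
    intro w hw hw3
    by_contra hwV
    have h1 : IsElementaryAbelian 3 (V ⊔ zpowers w) :=
      isElementaryAbelian_sup hVe (isElementaryAbelian_zpowers hw3) (by
        rw [zpowers_le]; exact (mem_inf.1 hw).2)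
    have h2 : Nat.card ↥(V ⊔ zpowers w) = 3 * Nat.card V := card_sup_zpowers hVn hwV (by rw [hw3]; exact one_mem _)
    refine hno _ ?_ h1 (by rw [h2, hVc'])
    rw [sup_le_iff, zpowers_le]
    exact ⟨hVle.trans (normalCore_le A), normalCore_le A (mem_inf.1 hw).1⟩
  refine ⟨V, A.normalCore ⊓ centralizer (V : Set R), h, hVn, hVle, hVe, hVc', rfl, hom, ?_, ?_⟩
  · intro N hN
    rw [← hVc']
    exact H33T3a.card_le' (p := 3) (by norm_num) (h.hR.to_subgroup _) (fun w hw hw3 u hu =>
      (hcomm u hu w (hom w hw hw3)).symm) hom hN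
  · exact card_le_relIndex (A := A.normalCore) (H33T3m.relIndex_le_three hVe hVc (fun g _ => by
      rw [normalizer_eq_top_iff.2 hVn]; trivial) (h.hR.to_subgroup _)
      (by simp only [Fin.prod_univ_succ, Fin.prod_univ_zero]; norm_num)) le_rfl

section idx3
variable {V C : Subgroup R}

theorem Data.card_C_le (d : Data A B x V C) : Nat.card C ≤ 9 * Nat.card (B.normalCore ⊓ C : Subgroup R) := by
  apply d.count
  intro w hw
  have h1 := hw
  rw [d.Cdef] at h1
  exact mem_inf.2 ⟨d.core.cube_core (mem_inf.1 h1).1, C.pow_mem hw 3⟩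

theorem Data.index_eq (d : Data A B x V C) (hA : A ≠ ⊤) : A.index = 3 := by
  have hp3 : Fact (Nat.Prime 3) := ⟨Nat.prime_three⟩
  obtain ⟨n, hn⟩ := IsPGroup.iff_card.1 d.core.hR
  have h0 : A.index ∣ 3 ^ n := by rw [← hn]; exact A.index_dvd_card
  obtain ⟨m, _, hm⟩ := (Nat.dvd_prime_pow Nat.prime_three).1 h0
  have hm0 : m ≠ 0 := by
    rintro rfl
    rw [pow_zero] at hm
    exact hA (index_eq_one.1 hm)
  have hm2 : m < 2 := by
    by_contra hcon
    push Not at hcon
    have h1 : 4 ≤ A.index := by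
      rw [hm]
      calc 4 ≤ 3 ^ 2 := by norm_num
        _ ≤ 3 ^ m := Nat.pow_le_pow_right (by norm_num) hcon
    have h2 := d.core.card_ge h1
    have h3 := d.card_C_le
    have h4 := d.idx
    have h5 : Nat.card (B.normalCore ⊓ C : Subgroup R) ≤ Nat.card (B.normalCore : Subgroup R) :=
      Subgroup.card_le_of_le inf_le_left
    have h6 : 0 < Nat.card (B.normalCore : Subgroup R) := Nat.card_pos
    omega
  have hm1 : m = 1 := by omega
  rw [hm, hm1, pow_one]

theorem Data.normalA (d : Data A B x V C) (hA : A ≠ ⊤) : A.Normal := by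
  have h1 := d.index_eq hA
  apply normal_of_index_eq_minFac_card
  rw [h1]
  obtain ⟨n, hn⟩ := IsPGroup.iff_card.1 (d.core.hR)
  rw [hn]
  have hn0 : n ≠ 0 := by
    rintro rfl
    rw [pow_zero] at hn
    have := A.index_dvd_card
    rw [h1, hn] at this
    omega
  exact (Nat.Prime.pow_minFac Nat.prime_three hn0).symm

/-- everything in the index three case -/
structure Data3 (A B : Subgroup R) (x : R) (V C : Subgroup R) (f : R) : Prop where
  d : Data A B x V C
  hA : A.index = 3
  An : A.Normal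
  f3 : f ^ 3 = 1
  fA : f ∉ A

variable {f : R}

theorem Data3.core_eq (e : Data3 A B x V C f) : A.normalCore = A := by
  have := e.An
  exact normalCore_eq_self A

theorem Data3.cards (e : Data3 A B x V C f) : B.normalCore ≤ C ∧ Nat.card C = 9 * Nat.card (B.normalCore : Subgroup R) := by
  have h1 := e.d.core.card_ge (n := 3) (by rw [e.hA])
  have h3 := e.d.card_C_le
  have h4 := e.d.idx
  have h5 : Nat.card (B.normalCore ⊓ C : Subgroup R) ≤ Nat.card (B.normalCore : Subgroup R) :=
    Subgroup.card_le_of_le inf_le_left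
  have h6 : 0 < Nat.card (B.normalCore : Subgroup R) := Nat.card_pos
  have h7 : Nat.card (B.normalCore ⊓ C : Subgroup R) = Nat.card (B.normalCore : Subgroup R) := by omega
  refine ⟨?_, by omega⟩
  have h8 : (B.normalCore ⊓ C : Subgroup R) = B.normalCore :=
    Subgroup.eq_of_le_of_card_ge inf_le_left (by omega)
  rw [← h8]
  exact inf_le_right

theorem Data3.ff (e : Data3 A B x V C f) : f⁻¹ = f * f := by
  rw [inv_eq_iff_mul_eq_one, ← e.f3, pow_succ, pow_two, mul_assoc]

theorem Data3.decomp (e : Data3 A B x V C f) (g : R) : g ∈ A ∨ g * f⁻¹ ∈ A ∨ g * f ∈ A := by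
  have h1 : A.relIndex ⊤ = 3 := by rw [relIndex_top_right]; exact e.hA
  exact index3 (A := ⊤) (B := A) (fun a _ b hb => e.An.conj_mem b hb a) h1 (mem_top f) e.fA (mem_top g)

theorem Data3.mem_B0 (e : Data3 A B x V C f) {u : R} (h0 : u ∈ B) (h1 : f * u * f⁻¹ ∈ B) (h2 : f⁻¹ * u * f ∈ B) :
    u ∈ B.normalCore := by
  intro g
  rcases e.decomp g with h | h | h
  · exact e.d.core.conjB h h0
  · have := e.d.core.conjB h h1
    rwa [show g * f⁻¹ * (f * u * f⁻¹) * (g * f⁻¹)⁻¹ = g * u * g⁻¹ by group] at this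
  · have := e.d.core.conjB h h2
    rwa [show g * f * (f⁻¹ * u * f) * (g * f)⁻¹ = g * u * g⁻¹ by group] at this

theorem Data3.comm_mem (e : Data3 A B x V C f) (g : R) {u : R} (hu : u ∈ A) : g * u * g⁻¹ * u⁻¹ ∈ C := by
  have hp3 : Fact (Nat.Prime 3) := ⟨Nat.prime_three⟩
  have h1 : C ≤ A := by
    rw [e.d.Cdef, e.core_eq]; exact inf_le_left
  refine comm_mem_of_card_le e.d.core.hR e.d.normal e.An h1 ?_ g hu
  have := e.d.idx
  rwa [e.core_eq] at this

end idx3

end Cfsg.Agent.Lib.H33T3d
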