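import Cfsg.Agent.Lib.H33T3d

/-! The `3`-group core of S4404 (helper33), the index three case. -/

set_option autoImplicit false

namespace Cfsg.Agent.Lib.H33T3e

open Subgroup Cfsg
open Cfsg.Agent.Lib.PGroupOdd Cfsg.Agent.Lib.PGroupRank Cfsg.Agent.Lib.H33T3b Cfsg.Agent.Lib.H33T3c
open Cfsg.Agent.Lib.H33T3d

universe u

variable {R : Type u} [Group R] [Finite R] {A B : Subgroup R} {x : R} {V C : Subgroup R} {f : R}

/-- the elements of the final configuration -/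
structure Fin3 (A B : Subgroup R) (x : R) (V C : Subgroup R) (f c w : R) : Prop where
  e : Data3 A B x V C f
  c1 : c ≠ 1
  c3 : c ^ 3 = 1
  cB : c ∈ B
  cf : f * c * f⁻¹ = c
  w3 : w ^ 3 = 1
  wA : w ∈ A
  wB : w ∉ B
  wf : f * w * f⁻¹ = w
  wx : w * x⁻¹ ∈ B

variable {c w : R}

theorem conj_inv {f c : R} (h : f * c * f⁻¹ = c) : f⁻¹ * c * f = c := by
  calc f⁻¹ * c * f = f⁻¹ * (f * c * f⁻¹) * f := by rw [h]
    _ = c := by group

theorem Fin3.x2B (t : Fin3 A B x V C f c w) : f * x * f⁻¹ ∈ B := t.e.d.core.hx f t.e.fA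

theorem Fin3.x3B (t : Fin3 A B x V C f c w) : f⁻¹ * x * f ∈ B := by
  have := t.e.d.core.hx f⁻¹ (fun h => t.e.fA (by simpa using A.inv_mem h))
  rwa [inv_inv] at this

theorem Fin3.fx2 (t : Fin3 A B x V C f c w) : f * (f * x * f⁻¹) * f⁻¹ = f⁻¹ * x * f := by
  have h1 := t.e.ff
  have h2 : f = f⁻¹ * f⁻¹ := by
    calc f = (f * f * f⁻¹) := by group
      _ = f⁻¹ * f⁻¹ := by rw [← h1]
  calc f * (f * x * f⁻¹) * f⁻¹ = (f * f) * x * (f⁻¹ * f⁻¹) := by group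
    _ = f⁻¹ * x * f := by rw [← h1, ← h2]

theorem Fin3.fx3 (t : Fin3 A B x V C f c w) : f⁻¹ * (f⁻¹ * x * f) * f = f * x * f⁻¹ := by
  rw [← t.fx2]; group

theorem Fin3.mem_core (t : Fin3 A B x V C f c w) :
    w * (x * (f * x * f⁻¹) * (f⁻¹ * x * f))⁻¹ ∈ B.normalCore := by
  have hx2 := t.x2B
  have hx3 := t.x3B
  have h1 := t.fx2
  have h2 := t.fx3
  have hwx := t.wx
  have hwf := t.wf
  have hwf' := conj_inv t.wf
  have hwA := t.wA
  have hB := t.e.d.core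
  generalize hX2 : f * x * f⁻¹ = x2 at *
  generalize hX3 : f⁻¹ * x * f = x3 at *
  apply t.e.mem_B0
  · have := B.mul_mem (hB.conjB hwA (B.mul_mem (B.inv_mem hx3) (B.inv_mem hx2))) hwx
    rwa [show w * (x3⁻¹ * x2⁻¹) * w⁻¹ * (w * x⁻¹) = w * (x * x2 * x3)⁻¹ by group] at this
  · have h3 : f * (w * (x * x2 * x3)⁻¹) * f⁻¹ = w * x⁻¹ * (x3⁻¹ * x2⁻¹) := by
      calc f * (w * (x * x2 * x3)⁻¹) * f⁻¹
          = (f * w * f⁻¹) * ((f * x * f⁻¹) * (f * x2 * f⁻¹) * (f * x3 * f⁻¹))⁻¹ := by group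
        _ = w * (x2 * x3 * (f * x3 * f⁻¹))⁻¹ := by rw [hwf, hX2, h1]
        _ = w * (x2 * x3 * x)⁻¹ := by rw [← hX3]; group
        _ = _ := by group
    rw [h3]
    exact B.mul_mem hwx (B.mul_mem (B.inv_mem hx3) (B.inv_mem hx2))
  · have h3 : f⁻¹ * (w * (x * x2 * x3)⁻¹) * f = (w * x2⁻¹ * w⁻¹) * (w * x⁻¹) * x3⁻¹ := by
      calc f⁻¹ * (w * (x * x2 * x3)⁻¹) * f
          = (f⁻¹ * w * f) * ((f⁻¹ * x * f) * (f⁻¹ * x2 * f) * (f⁻¹ * x3 * f))⁻¹ := by group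
        _ = w * (x3 * (f⁻¹ * x2 * f) * x2)⁻¹ := by rw [hwf', hX3, h2]
        _ = w * (x3 * x * x2)⁻¹ := by
            have : f⁻¹ * x2 * f = x := by rw [← hX2]; group
            rw [this]
        _ = _ := by group
    rw [h3]
    exact B.mul_mem (B.mul_mem (hB.conjB hwA (B.inv_mem hx2)) hwx) (B.inv_mem hx3)

theorem Fin3.x_mem (t : Fin3 A B x V C f c w) : x ∈ A.normalCore := t.e.d.core.x_core

theorem Fin3.x2C (t : Fin3 A B x V C f c w) : f * x * f⁻¹ * x⁻¹ ∈ C := t.e.comm_mem f t.e.d.core.hxA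

theorem Fin3.x3C (t : Fin3 A B x V C f c w) : f⁻¹ * x * f * x⁻¹ ∈ C := by
  have := t.e.comm_mem f⁻¹ t.e.d.core.hxA
  rwa [inv_inv] at this

theorem Fin3.wC (t : Fin3 A B x V C f c w) : w ∈ C := by
  have h1 := t.e.cards.1 t.mem_core
  have h2 := t.x2C
  have h3 := t.x3C
  have h4 : x ^ 3 ∈ C := t.e.cards.1 (t.e.d.core.cube_core t.x_mem)
  have hCn := t.e.d.normal
  generalize hX2 : f * x * f⁻¹ = x2 at *
  generalize hX3 : f⁻¹ * x * f = x3 at *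
  have h5 : x * x2 * x3 ∈ C := by
    have := C.mul_mem (C.mul_mem (hCn.conj_mem _ h2 x) (hCn.conj_mem _ h3 (x ^ 2))) h4
    rwa [show x * (x2 * x⁻¹) * x⁻¹ * (x ^ 2 * (x3 * x⁻¹) * (x ^ 2)⁻¹) * x ^ 3 = x * x2 * x3 by group] at this
  have := C.mul_mem h1 h5
  rwa [inv_mul_cancel_right] at this

theorem Fin3.wV (t : Fin3 A B x V C f c w) : w ∈ V := t.e.d.omega w t.wC t.w3

theorem Fin3.cP (t : Fin3 A B x V C f c w) : c ∈ B.normalCore :=
  t.e.mem_B0 t.cB (by rw [t.cf]; exact t.cB) (by rw [conj_inv t.cf]; exact t.cB)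

theorem Fin3.cV (t : Fin3 A B x V C f c w) : c ∈ V := t.e.d.omega c (t.e.cards.1 t.cP) t.c3

theorem Fin3.cyclic (t : Fin3 A B x V C f c w) : IsCyclic (B.normalCore : Subgroup R) := by
  have hp3 : Fact (Nat.Prime 3) := ⟨Nat.prime_three⟩
  have hR := t.e.d.core.hR
  have h1 : 3 * Nat.card (V ⊓ B.normalCore : Subgroup R) ≤ Nat.card V :=
    mul_card_le hR inf_le_left ⟨w, t.wV, fun h => t.wB (normalCore_le B (mem_inf.1 h).2)⟩
  have h2 : 3 * Nat.card (⊥ : Subgroup R) ≤ Nat.card (V ⊓ B.normalCore : Subgroup R) :=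
    mul_card_le hR bot_le ⟨c, mem_inf.2 ⟨t.cV, t.cP⟩, fun h => t.c1 (mem_bot.1 h)⟩
  rw [card_bot] at h2
  rw [t.e.d.Vc] at h1
  have h3 : Nat.card (V ⊓ B.normalCore : Subgroup R) = 3 := by omega
  refine isCyclic_of_unique (p := 3) (by norm_num) _ (B.normalCore : Subgroup R) rfl (hR.to_subgroup _)
    ((V ⊓ B.normalCore).subgroupOf B.normalCore) ?_ ?_
  · rw [Nat.card_congr (subgroupOfEquivOfLe (inf_le_right : V ⊓ B.normalCore ≤ B.normalCore)).toEquiv, h3]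
  · intro q hq
    rw [mem_subgroupOf]
    refine mem_inf.2 ⟨t.e.d.omega _ (t.e.cards.1 q.2) ?_, q.2⟩
    rw [← SubmonoidClass.coe_pow, hq]; rfl

theorem exists_gen {K : Subgroup R} (h : IsCyclic K) : ∃ g ∈ K, zpowers g = K := by
  obtain ⟨u, hu⟩ := h.exists_generator
  refine ⟨u, u.2, le_antisymm ?_ ?_⟩
  · rw [zpowers_le]; exact u.2
  · intro v hv
    obtain ⟨k, hk⟩ := mem_zpowers_iff.1 (hu ⟨v, hv⟩)
    rw [mem_zpowers_iff]
    exact ⟨k, by rw [← SubgroupClass.coe_zpow, hk]⟩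

/-- `x` and `f x f⁻¹` act in the same way on the cyclic group `B.normalCore` -/
theorem Fin3.comm_y (t : Fin3 A B x V C f c w) {q : R} (hq : q ∈ B.normalCore) :
    q * (x * (f * x * f⁻¹)⁻¹) = (x * (f * x * f⁻¹)⁻¹) * q := by
  obtain ⟨g, hg, hgen⟩ := exists_gen t.cyclic
  have hn : (B.normalCore : Subgroup R).Normal := normalCore_normal B
  have h1 : x * g * x⁻¹ ∈ zpowers g := by rw [hgen]; exact hn.conj_mem g hg x
  obtain ⟨a, ha⟩ := mem_zpowers_iff.1 h1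
  have h2 : ∀ q ∈ B.normalCore, x * q * x⁻¹ = q ^ a := by
    intro q hq
    rw [← hgen] at hq
    obtain ⟨k, rfl⟩ := mem_zpowers_iff.1 hq
    rw [← conj_zpow, ← ha, ← zpow_mul, ← zpow_mul, mul_comm]
  have h3 : ∀ q ∈ B.normalCore, (f * x * f⁻¹) * q * (f * x * f⁻¹)⁻¹ = q ^ a := by
    intro q hq
    have h4 : f⁻¹ * q * f ∈ B.normalCore := by
      have := hn.conj_mem q hq f⁻¹
      rwa [inv_inv] at this
    calc (f * x * f⁻¹) * q * (f * x * f⁻¹)⁻¹ = f * (x * (f⁻¹ * q * f) * x⁻¹) * f⁻¹ := by group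
      _ = f * ((f⁻¹ * q * f) ^ a) * f⁻¹ := by rw [h2 _ h4]
      _ = (f * (f⁻¹ * q * f) * f⁻¹) ^ a := by rw [conj_zpow]
      _ = q ^ a := by congr 1; group
  generalize hX2 : f * x * f⁻¹ = x2 at *
  have h5 : x2⁻¹ * q * x2 ∈ B.normalCore := by
    have := hn.conj_mem q hq x2⁻¹
    rwa [inv_inv] at this
  have h6 : x * (x2⁻¹ * q * x2) * x⁻¹ = q := by
    rw [h2 _ h5, ← h3 _ h5]; group
  calc q * (x * x2⁻¹) = (x * (x2⁻¹ * q * x2) * x⁻¹) * (x * x2⁻¹) := by rw [h6]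
    _ = (x * x2⁻¹) * q := by group

theorem Fin3.yC (t : Fin3 A B x V C f c w) : x * (f * x * f⁻¹)⁻¹ ∈ C := by
  have := C.inv_mem t.x2C
  rwa [show (f * x * f⁻¹ * x⁻¹)⁻¹ = x * (f * x * f⁻¹)⁻¹ by group] at this

theorem Fin3.y_not (t : Fin3 A B x V C f c w) : x * (f * x * f⁻¹)⁻¹ ∉ B.normalCore ⊔ zpowers w := by
  intro hy
  have hn : (B.normalCore : Subgroup R).Normal := normalCore_normal B
  rw [mem_sup_of_normal_left] at hy
  obtain ⟨q, hq, z, hz, hqz⟩ := hy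
  have hzf : f * z * f⁻¹ = z := by
    obtain ⟨k, rfl⟩ := mem_zpowers_iff.1 hz
    rw [← conj_zpow, t.wf]
  have h1 : f * (x * (f * x * f⁻¹)⁻¹) * f⁻¹ ∈ B := by
    have := B.mul_mem t.x2B (B.inv_mem t.x3B)
    rw [← t.fx2] at this
    rwa [show f * x * f⁻¹ * (f * (f * x * f⁻¹) * f⁻¹)⁻¹ = f * (x * (f * x * f⁻¹)⁻¹) * f⁻¹ by group] at this
  rw [← hqz, show f * (q * z) * f⁻¹ = (f * q * f⁻¹) * (f * z * f⁻¹) by group, hzf] at h1
  have h2 : f * q * f⁻¹ ∈ B := hq f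
  have h3 : z ∈ B := (B.mul_mem_cancel_left h2).1 h1
  have h4 : z = 1 := by
    by_contra hz1
    have hp3 : Fact (Nat.Prime 3) := ⟨Nat.prime_three⟩
    have h5 : Nat.card (zpowers w) = 3 := by
      rw [Nat.card_zpowers]
      exact orderOf_eq_prime t.w3 (fun h => t.wB (by rw [h]; exact one_mem _))
    have h6 := eq_zpowers_of_card_eq_prime (p := 3) h5 hz hz1
    have h7 : w ∈ zpowers z := by rw [h6]; exact mem_zpowers w
    have h8 : zpowers z ≤ B := by rw [zpowers_le]; exact h3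
    exact t.wB (h8 h7)
  rw [h4, mul_one] at hqz
  have h9 : x * (f * x * f⁻¹)⁻¹ ∈ B := by rw [← hqz]; exact normalCore_le B hq
  apply t.e.d.core.hxB
  have := B.mul_mem h9 t.x2B
  rwa [inv_mul_cancel_right] at this

end Cfsg.Agent.Lib.H33T3e
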