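import Cfsg.Agent.Lib.H33T3e

/-! The `3`-group core of S4404 (helper33), conclusion. -/

set_option autoImplicit false

namespace Cfsg.Agent.Lib.H33T3f

open Subgroup Cfsg
open Cfsg.Agent.Lib.PGroupOdd Cfsg.Agent.Lib.PGroupRank Cfsg.Agent.Lib.H33T3b Cfsg.Agent.Lib.H33T3c
open Cfsg.Agent.Lib.H33T3d Cfsg.Agent.Lib.H33T3e

universe u

variable {R : Type u} [Group R] [Finite R] {A B : Subgroup R} {x : R} {V C : Subgroup R} {f c w : R}

theorem fin3_gen_eq (t : Fin3 A B x V C f c w) :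
    B.normalCore ⊔ zpowers w ⊔ zpowers (x * (f * x * f⁻¹)⁻¹) = C := by
  have hp3 : Fact (Nat.Prime 3) := ⟨Nat.prime_three⟩
  have hR := t.e.d.core.hR
  have h1 : 3 * Nat.card (B.normalCore : Subgroup R) ≤ Nat.card (B.normalCore ⊔ zpowers w : Subgroup R) :=
    mul_card_le hR le_sup_left ⟨w, mem_sup_right (mem_zpowers w), fun h => t.wB (normalCore_le B h)⟩
  have h2 : 3 * Nat.card (B.normalCore ⊔ zpowers w : Subgroup R) ≤
      Nat.card (B.normalCore ⊔ zpowers w ⊔ zpowers (x * (f * x * f⁻¹)⁻¹) : Subgroup R) :=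
    mul_card_le hR le_sup_left ⟨x * (f * x * f⁻¹)⁻¹, mem_sup_right (mem_zpowers _), t.y_not⟩
  have h3 := t.e.cards.2
  apply Subgroup.eq_of_le_of_card_ge
  · rw [sup_le_iff, sup_le_iff, zpowers_le, zpowers_le]
    exact ⟨⟨t.e.cards.1, t.wC⟩, t.yC⟩
  · omega

theorem fin3_comm_C (t : Fin3 A B x V C f c w) : ∀ a ∈ C, ∀ b ∈ C, a * b = b * a := by
  have hgen := (fin3_gen_eq t)
  -- P₀ is commutative
  obtain ⟨g, hg, hgen0⟩ := exists_gen t.cyclic
  have hP : ∀ a ∈ B.normalCore, ∀ b ∈ B.normalCore, a * b = b * a := by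
    intro a ha b hb
    rw [← hgen0] at ha hb
    obtain ⟨i, rfl⟩ := mem_zpowers_iff.1 ha
    obtain ⟨j, rfl⟩ := mem_zpowers_iff.1 hb
    rw [← zpow_add, ← zpow_add, add_comm]
  have hw : ∀ a ∈ C, w * a = a * w := fun a ha => t.e.d.comm t.wV ha
  have h1 : C ≤ centralizer (B.normalCore : Set R) := by
    conv_lhs => rw [← hgen]
    rw [sup_le_iff, sup_le_iff, zpowers_le, zpowers_le]
    refine ⟨⟨fun a ha => ?_, ?_⟩, ?_⟩
    · rw [mem_centralizer_iff]; exact fun b hb => hP b hb a ha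
    · rw [mem_centralizer_iff]; exact fun b hb => (hw b (t.e.cards.1 hb)).symm
    · rw [mem_centralizer_iff]; exact fun b hb => t.comm_y hb
  have h2 : C ≤ centralizer {x * (f * x * f⁻¹)⁻¹} := by
    conv_lhs => rw [← hgen]
    rw [sup_le_iff, sup_le_iff, zpowers_le, zpowers_le]
    refine ⟨⟨fun a ha => ?_, ?_⟩, ?_⟩
    · rw [mem_centralizer_singleton_iff]; exact t.comm_y ha
    · rw [mem_centralizer_singleton_iff]; exact hw _ t.yC
    · rw [mem_centralizer_singleton_iff]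
  have h3 : C ≤ centralizer (C : Set R) := by
    conv_lhs => rw [← hgen]
    rw [sup_le_iff, sup_le_iff, zpowers_le, zpowers_le]
    refine ⟨⟨fun a ha => ?_, ?_⟩, ?_⟩
    · rw [mem_centralizer_iff]
      intro b hb
      exact (mem_centralizer_iff.1 (h1 hb) a ha).symm
    · rw [mem_centralizer_iff]; exact fun b hb => (hw b hb).symm
    · rw [mem_centralizer_iff]
      intro b hb
      exact (mem_centralizer_singleton_iff.1 (h2 hb))
  intro a ha b hb
  exact mem_centralizer_iff.1 (h3 hb) a ha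

theorem fin3_false (t : Fin3 A B x V C f c w) : False := by
  have hp3 : Fact (Nat.Prime 3) := ⟨Nat.prime_three⟩
  have hR := t.e.d.core.hR
  have hn : (B.normalCore : Subgroup R).Normal := normalCore_normal B
  obtain ⟨g, hg, hgen⟩ := exists_gen t.cyclic
  -- order of `g`
  have hg1 : g ≠ 1 := by
    rintro rfl
    have h1 := t.cP
    rw [← hgen, zpowers_one_eq_bot, mem_bot] at h1
    exact t.c1 h1
  obtain ⟨m, hm⟩ := (IsPGroup.iff_orderOf.1 hR) g
  have hm0 : m ≠ 0 := by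
    rintro rfl
    rw [pow_zero, orderOf_eq_one_iff] at hm
    exact hg1 hm
  obtain ⟨m, rfl⟩ := Nat.exists_eq_succ_of_ne_zero hm0
  have ho3 : orderOf (g ^ 3) = 3 ^ m := by
    rw [orderOf_pow_of_dvd (by norm_num) (by rw [hm]; exact dvd_pow_self 3 (Nat.succ_ne_zero m)), hm]
    rw [pow_succ, Nat.mul_div_cancel _ (by norm_num)]
  have hcP : Nat.card (B.normalCore : Subgroup R) = 3 ^ (m + 1) := by
    rw [← hgen, Nat.card_zpowers, hm]
  have hcN : Nat.card (zpowers (g ^ 3)) = 3 ^ m := by rw [Nat.card_zpowers, ho3]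
  have hNP : zpowers (g ^ 3) ≤ B.normalCore := by
    rw [zpowers_le]; exact pow_mem hg 3
  have hcube : ∀ q ∈ B.normalCore, q ^ 3 ∈ zpowers (g ^ 3) := by
    intro q hq
    rw [← hgen] at hq
    obtain ⟨k, rfl⟩ := mem_zpowers_iff.1 hq
    rw [mem_zpowers_iff]
    refine ⟨k, ?_⟩
    rw [← zpow_natCast, ← zpow_natCast, ← zpow_mul, ← zpow_mul, mul_comm]
  have hNn : (zpowers (g ^ 3)).Normal := ⟨fun n hn' h => by
    obtain ⟨k, rfl⟩ := mem_zpowers_iff.1 hn'
    rw [← conj_zpow]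
    apply zpow_mem
    rw [← conj_pow]
    exact hcube _ (hn.conj_mem g hg h)⟩
  have hcen : ∀ (h : R) {q : R}, q ∈ B.normalCore → h * q * h⁻¹ * q⁻¹ ∈ zpowers (g ^ 3) := by
    intro h q hq
    refine comm_mem_of_card_le hR hNn hn hNP ?_ h hq
    rw [hcP, hcN, pow_succ, mul_comm]
  -- the cube of `y`
  have hy : (x * (f * x * f⁻¹)⁻¹) ^ 3 ∈ zpowers (g ^ 3) := by
    have hx2 : (f * x * f⁻¹) ∈ A.normalCore := t.e.d.core.conj_x_core f
    have hc0 : f * x * f⁻¹ * x⁻¹ * (f * x * f⁻¹)⁻¹ * x ∈ B.normalCore := by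
      have := t.e.d.core.comm_core hx2 (inv_mem t.x_mem)
      rwa [inv_inv] at this
    have hx3 : x ^ 3 ∈ B.normalCore := t.e.d.core.cube_core t.x_mem
    have h1 : f * x ^ 3 * f⁻¹ * (x ^ 3)⁻¹ ∈ zpowers (g ^ 3) := hcen f hx3
    have h2 : (f * x * f⁻¹) ^ 3 = f * x ^ 3 * f⁻¹ := conj_pow
    rw [← h2] at h1
    generalize hX2 : f * x * f⁻¹ = x2 at *
    set c0 := x2 * x⁻¹ * x2⁻¹ * x with hc0d
    let π := QuotientGroup.mk' (zpowers (g ^ 3))
    have hπ : ∀ u : R, π u = 1 ↔ u ∈ zpowers (g ^ 3) := fun u => QuotientGroup.eq_one_iff u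
    have hcom : ∀ h : R, Commute (π c0) (π h) := by
      intro h
      have h3 := (hπ _).2 (hcen h hc0)
      rw [map_mul, map_mul, map_mul, map_inv, map_inv] at h3
      have h4 : π h * π c0 = π c0 * π h := by
        have := congrArg (fun z => z * π c0 * π h) h3
        simp only [inv_mul_cancel_right, one_mul] at this
        exact this
      exact h4.symm
    have hc3 : (π c0) ^ 3 = 1 := by
      rw [← map_pow]; exact (hπ _).2 (hcube _ hc0)
    have h5 : π x2⁻¹ * π x = π x * π x2⁻¹ * π c0 := by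
      rw [← map_mul, ← map_mul, ← map_mul]
      congr 1
      rw [hc0d]; group
    have h6 := mul_pow_of_comm h5 (hcom x) (hcom x2⁻¹) 3
    have h7 : Nat.choose 3 2 = 3 := by decide
    rw [h7, hc3, mul_one] at h6
    rw [← hπ, map_pow, map_mul, h6, map_inv, inv_pow, ← map_pow, ← map_pow]
    have h8 := (hπ _).2 h1
    rw [map_mul, map_inv] at h8
    have h9 : π (x2 ^ 3) = π (x ^ 3) := by
      have := congrArg (fun z => z * π (x ^ 3)) h8
      simp only [inv_mul_cancel_right, one_mul] at this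
      exact this
    rw [h9, mul_inv_cancel]
  -- all cubes of elements of `C`
  let T : Subgroup R :=
    { carrier := {u | u ∈ C ∧ u ^ 3 ∈ zpowers (g ^ 3)}
      one_mem' := ⟨one_mem _, by rw [one_pow]; exact one_mem _⟩
      mul_mem' := by
        rintro a b ⟨ha, ha'⟩ ⟨hb, hb'⟩
        refine ⟨mul_mem ha hb, ?_⟩
        have : Commute a b := (fin3_comm_C t) a ha b hb
        rw [this.mul_pow]
        exact mul_mem ha' hb'
      inv_mem' := by
        rintro a ⟨ha, ha'⟩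
        refine ⟨inv_mem ha, ?_⟩
        rw [inv_pow]
        exact inv_mem ha' }
  have hT : C ≤ T := by
    conv_lhs => rw [← (fin3_gen_eq t)]
    rw [sup_le_iff, sup_le_iff, zpowers_le, zpowers_le]
    exact ⟨⟨fun q hq => ⟨t.e.cards.1 hq, hcube q hq⟩, ⟨t.wC, by rw [t.w3]; exact one_mem _⟩⟩, ⟨t.yC, hy⟩⟩
  have h1 := t.e.d.count (zpowers (g ^ 3)) (fun u hu => (hT hu).2)
  have h2 := t.e.cards.2
  rw [hcP] at h2
  rw [hcN] at h1
  have h3 : 0 < 3 ^ m := by positivity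
  rw [pow_succ] at h2
  omega

/-- **The core lemma**. -/
theorem core_main (h : Core A B x) {E : Subgroup R} (hE : IsElementaryAbelian 3 E) (hEc : Nat.card E = 27) :
    ∃ F : Subgroup R, IsElementaryAbelian 3 F ∧ Nat.card F = 27 ∧ 9 ≤ Nat.card (F ⊓ B : Subgroup R) := by
  have hp3 : Fact (Nat.Prime 3) := ⟨Nat.prime_three⟩
  by_cases hno : ∃ F : Subgroup R, F ≤ A ∧ IsElementaryAbelian 3 F ∧ Nat.card F = 27
  · obtain ⟨F, hFA, hF, hFc⟩ := hno
    refine ⟨F, hF, hFc, ?_⟩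
    have := card_le_relIndex h.hidx hFA
    omega
  push Not at hno
  have hEA : ¬ E ≤ A := fun h => hno E h hE hEc
  have hA : A ≠ ⊤ := by
    rintro rfl
    exact hEA le_top
  obtain ⟨V, C, d⟩ := exists_data h hA hno
  have hi := d.index_eq hA
  obtain ⟨f, hfE, hfA⟩ := Set.not_subset.1 hEA
  have hE' := isElementaryAbelian_iff.1 hE
  have e : Data3 A B x V C f := ⟨d, hi, d.normalA hA, hE'.2 f hfE, hfA⟩
  by_cases h9 : 9 ≤ Nat.card (E ⊓ B : Subgroup R)
  · exact ⟨E, hE, hEc, h9⟩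
  exfalso
  -- `E ⊓ A` has order at least `9`
  have h1 : Nat.card E ≤ 3 * Nat.card (E ⊓ A : Subgroup R) :=
    card_le_relIndex (A := ⊤) (by rw [relIndex_top_right, hi]) le_top
  have h2 : Nat.card (E ⊓ A : Subgroup R) ≤ 3 * Nat.card (E ⊓ A ⊓ B : Subgroup R) :=
    card_le_relIndex h.hidx inf_le_right
  have h3 : E ⊓ A ⊓ B ≤ E ⊓ B := inf_le_inf_right B inf_le_left
  have h4 := Subgroup.card_le_of_le h3
  -- `c`
  have h5 : ∃ c ∈ E ⊓ A ⊓ B, c ≠ 1 := by
    by_contra hcon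
    push Not at hcon
    have h6 : E ⊓ A ⊓ B = ⊥ := by
      rw [eq_bot_iff]
      intro c hc
      exact mem_bot.2 (hcon c hc)
    rw [h6, card_bot] at h2
    omega
  obtain ⟨c, hc, hc1⟩ := h5
  have h6 : ∃ w ∈ E ⊓ A, w ∉ B := by
    by_contra hcon
    push Not at hcon
    have h7 : E ⊓ A ≤ E ⊓ B := fun w hw => mem_inf.2 ⟨(mem_inf.1 hw).1, hcon w hw⟩
    have := Subgroup.card_le_of_le h7
    omega
  obtain ⟨w, hw, hwB⟩ := h6
  have hcE := (mem_inf.1 (mem_inf.1 hc).1).1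
  have hcB := (mem_inf.1 hc).2
  have hwE := (mem_inf.1 hw).1
  have hwA := (mem_inf.1 hw).2
  have hconj : ∀ a ∈ E, f * a * f⁻¹ = a := by
    intro a ha
    rw [hE'.1 f hfE a ha, mul_inv_cancel_right]
  have h33 : B.relIndex A = 3 := by
    have h7 : B.relIndex A ≠ 1 := fun h8 => h.hxB ((relIndex_eq_one.1 h8) h.hxA)
    obtain ⟨m, hm⟩ := H33T3m.relIndex_pow (K := B) (h.hR.to_subgroup A)
    have h8 := h.hidx
    rw [hm] at h8 h7 ⊢
    have h9 : m ≠ 0 := by
      rintro rfl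
      exact h7 (pow_zero 3)
    have h10 : m < 2 := by
      by_contra hcon
      push Not at hcon
      have : 3 ^ 2 ≤ 3 ^ m := Nat.pow_le_pow_right (by norm_num) hcon
      omega
    have : m = 1 := by omega
    rw [this, pow_one]
  rcases index3 (fun a ha b hb => h.conjB ha hb) h33 h.hxA h.hxB hwA with h7 | h7 | h7
  · exact hwB h7
  · exact fin3_false (c := c) (w := w) ⟨e, hc1, hE'.2 c hcE, hcB, hconj c hcE, hE'.2 w hwE, hwA, hwB, hconj w hwE, h7⟩
  · -- replace `w` by its inverse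
    refine fin3_false (c := c) (w := w⁻¹) ⟨e, hc1, hE'.2 c hcE, hcB, hconj c hcE, hE'.2 _ (inv_mem hwE),
      A.inv_mem hwA, fun h8 => hwB (by simpa using B.inv_mem h8), hconj _ (inv_mem hwE), ?_⟩
    -- `w⁻¹ x⁻¹ = (x w)⁻¹` and `x w ≡ w x`
    have h8 := B.mul_mem (h.hcomm x h.hxA w hwA) h7
    have h9 : x * w * x⁻¹ * w⁻¹ * (w * x) = x * w := by group
    rw [h9] at h8
    have := B.inv_mem h8
    rwa [mul_inv_rev] at this

end Cfsg.Agent.Lib.H33T3f
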