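import Cfsg.Agent.Lib.H33T3f

/-! Action of elements on a normal elementary abelian `2`-subgroup (helper33, for S4404). -/

set_option autoImplicit false

namespace Cfsg.Agent.Lib.H33T3g

open Subgroup Cfsg
open Cfsg.Agent.Lib.PGroupRank Cfsg.Agent.Lib.H33T3m

universe u

section quot
variable {G : Type u} [Group G] [Finite G]

theorem centralizer_subgroupOf_normal {V H : Subgroup G} (hH : H ≤ normalizer (V : Set G)) :
    ((centralizer (V : Set G)).subgroupOf H).Normal := by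
  refine ⟨fun b hb g => ?_⟩
  rw [mem_subgroupOf, mem_centralizer_iff] at hb ⊢
  intro v hv
  have hg := hH g.2
  rw [mem_normalizer_iff''] at hg
  have h1 : (g : G)⁻¹ * v * g ∈ V := (hg v).1 hv
  have h2 := hb _ h1
  change v * ((g : G) * b * (g : G)⁻¹) = ((g : G) * b * (g : G)⁻¹) * v
  calc v * ((g : G) * b * (g : G)⁻¹) = g * (((g : G)⁻¹ * v * g) * b) * (g : G)⁻¹ := by group
    _ = g * (b * ((g : G)⁻¹ * v * g)) * (g : G)⁻¹ := by rw [h2]
    _ = _ := by group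

theorem comm_of_card {Q : Type u} [Group Q] {m : ℕ} (hm : m ≤ 2) (h : Nat.card Q = 3 ^ m) (a b : Q) :
    a * b = b * a := by
  have hp3 : Fact (Nat.Prime 3) := ⟨Nat.prime_three⟩
  have : Finite Q := Nat.finite_of_card_ne_zero (by rw [h]; positivity)
  interval_cases m
  · rw [pow_zero, Nat.card_eq_one_iff_unique] at h
    have := h.1
    exact Subsingleton.elim _ _
  · rw [pow_one] at h
    have := isCyclic_of_prime_card h
    exact IsCyclic.commGroup.mul_comm a b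
  · exact IsPGroup.commutative_of_card_eq_prime_sq h a b

theorem comm_mem {V H : Subgroup G} (hH : H ≤ normalizer (V : Set G)) (hp : IsPGroup 3 H)
    (h : (centralizer (V : Set G)).relIndex H ≤ 9) : ∀ a ∈ H, ∀ b ∈ H, a * b * a⁻¹ * b⁻¹ ∈ centralizer (V : Set G) := by
  have hp3 : Fact (Nat.Prime 3) := ⟨Nat.prime_three⟩
  obtain ⟨m, hm⟩ := relIndex_pow (K := centralizer (V : Set G)) hp
  have hm2 : m ≤ 2 := by
    by_contra hcon
    push Not at hcon
    have : 3 ^ 3 ≤ 3 ^ m := Nat.pow_le_pow_right (by norm_num) hcon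
    omega
  have hn := centralizer_subgroupOf_normal hH
  have hc : Nat.card (H ⧸ (centralizer (V : Set G)).subgroupOf H) = 3 ^ m := hm
  intro a ha b hb
  have h1 := comm_of_card hm2 hc (QuotientGroup.mk ⟨a, ha⟩) (QuotientGroup.mk ⟨b, hb⟩)
  have h2 : (QuotientGroup.mk ((⟨a, ha⟩ : H) * ⟨b, hb⟩ * (⟨a, ha⟩ : H)⁻¹ * (⟨b, hb⟩ : H)⁻¹) :
      H ⧸ (centralizer (V : Set G)).subgroupOf H) = 1 := by
    rw [QuotientGroup.mk_mul, QuotientGroup.mk_mul, QuotientGroup.mk_mul, h1, QuotientGroup.mk_inv, QuotientGroup.mk_inv]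
    group
  rwa [QuotientGroup.eq_one_iff, mem_subgroupOf] at h2

theorem cube_mem {V H : Subgroup G} (hH : H ≤ normalizer (V : Set G)) (hp : IsPGroup 3 H)
    (h : (centralizer (V : Set G)).relIndex H ≤ 3) : ∀ a ∈ H, a ^ 3 ∈ centralizer (V : Set G) := by
  have hp3 : Fact (Nat.Prime 3) := ⟨Nat.prime_three⟩
  obtain ⟨m, hm⟩ := relIndex_pow (K := centralizer (V : Set G)) hp
  have hm2 : m ≤ 1 := by
    by_contra hcon
    push Not at hcon
    have : 3 ^ 2 ≤ 3 ^ m := Nat.pow_le_pow_right (by norm_num) hcon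
    omega
  have hn := centralizer_subgroupOf_normal hH
  have hc : Nat.card (H ⧸ (centralizer (V : Set G)).subgroupOf H) = 3 ^ m := hm
  intro a ha
  have h2 : (QuotientGroup.mk ((⟨a, ha⟩ : H) ^ 3) : H ⧸ (centralizer (V : Set G)).subgroupOf H) = 1 := by
    rw [QuotientGroup.mk_pow]
    apply orderOf_dvd_iff_pow_eq_one.1
    refine (_root_.orderOf_dvd_natCard _).trans ?_
    rw [hc]
    simpa using pow_dvd_pow 3 hm2
  rw [QuotientGroup.eq_one_iff, mem_subgroupOf] at h2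
  exact h2

end quot

variable {G : Type u} [Group G] {M : Subgroup G}

structure Act (M : Subgroup G) : Prop where
  n : M.Normal
  el : IsElementaryAbelian 2 M

theorem Act.comm (h : Act M) {a b : G} (ha : a ∈ M) (hb : b ∈ M) : a * b = b * a :=
  (isElementaryAbelian_iff.1 h.el).1 a ha b hb

theorem Act.sq (h : Act M) {a : G} (ha : a ∈ M) : a * a = 1 := by
  rw [← pow_two]; exact (isElementaryAbelian_iff.1 h.el).2 a ha

/-- `[M, g]` -/
def Wc (M : Subgroup G) (h : Act M) (g : G) : Subgroup G where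
  carrier := {w | ∃ m ∈ M, g * m * g⁻¹ * m⁻¹ = w}
  one_mem' := ⟨1, one_mem _, by group⟩
  mul_mem' := by
    rintro _ _ ⟨m, hm, rfl⟩ ⟨n, hn, rfl⟩
    refine ⟨m * n, mul_mem hm hn, ?_⟩
    have h1 : g * n * g⁻¹ * n⁻¹ ∈ M := M.mul_mem (h.n.conj_mem n hn g) (M.inv_mem hn)
    have h2 := h.comm h1 (M.inv_mem hm)
    calc g * (m * n) * g⁻¹ * (m * n)⁻¹ = g * m * g⁻¹ * ((g * n * g⁻¹ * n⁻¹) * m⁻¹) := by group
      _ = g * m * g⁻¹ * (m⁻¹ * (g * n * g⁻¹ * n⁻¹)) := by rw [h2]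
      _ = _ := by group
  inv_mem' := by
    rintro _ ⟨m, hm, rfl⟩
    refine ⟨m⁻¹, inv_mem hm, ?_⟩
    have h1 : g * m⁻¹ * g⁻¹ ∈ M := h.n.conj_mem _ (M.inv_mem hm) g
    have h2 := h.comm h1 hm
    rw [inv_inv, h2]; group

theorem mem_Wc {h : Act M} {g w : G} : w ∈ Wc M h g ↔ ∃ m ∈ M, g * m * g⁻¹ * m⁻¹ = w := Iff.rfl

theorem Wc_le {h : Act M} {g : G} : Wc M h g ≤ M := by
  rintro _ ⟨m, hm, rfl⟩
  exact M.mul_mem (h.n.conj_mem m hm g) (M.inv_mem hm)

theorem mem_Wc_conj {h : Act M} {g k w : G} : w ∈ Wc M h (k * g * k⁻¹) ↔ k⁻¹ * w * k ∈ Wc M h g := by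
  constructor
  · rintro ⟨m, hm, rfl⟩
    refine ⟨k⁻¹ * m * k, ?_, by group⟩
    have := h.n.conj_mem m hm k⁻¹
    rwa [inv_inv] at this
  · rintro ⟨m, hm, hw⟩
    refine ⟨k * m * k⁻¹, h.n.conj_mem m hm k, ?_⟩
    calc k * g * k⁻¹ * (k * m * k⁻¹) * (k * g * k⁻¹)⁻¹ * (k * m * k⁻¹)⁻¹
        = k * (g * m * g⁻¹ * m⁻¹) * k⁻¹ := by group
      _ = k * (k⁻¹ * w * k) * k⁻¹ := by rw [hw]
      _ = w := by group

theorem Wc_norm {h : Act M} {g w : G} (hw : w ∈ Wc M h g) : g * w * g⁻¹ ∈ Wc M h g := by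
  have h1 : Wc M h (g * g * g⁻¹) = Wc M h g := by rw [mul_inv_cancel_right]
  rw [← h1, mem_Wc_conj]
  rwa [show g⁻¹ * (g * w * g⁻¹) * g = w by group]

theorem map_conj_Wc {h : Act M} {g k : G} : (Wc M h g).map (MulAut.conj k).toMonoidHom = Wc M h (k * g * k⁻¹) := by
  ext w
  rw [mem_Wc_conj, mem_map]
  constructor
  · rintro ⟨v, hv, rfl⟩
    change k⁻¹ * (k * v * k⁻¹) * k ∈ _
    rwa [show k⁻¹ * (k * v * k⁻¹) * k = v by group]
  · intro hw
    refine ⟨_, hw, ?_⟩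
    change k * (k⁻¹ * w * k) * k⁻¹ = w
    group

theorem card_Wc_conj {h : Act M} {g k : G} : Nat.card (Wc M h (k * g * k⁻¹)) = Nat.card (Wc M h g) := by
  rw [← map_conj_Wc]
  exact Subgroup.card_map_of_injective (MulAut.conj k).injective

/-- `x` acts on `M` as an element of order `3` with commutator a four-group. -/
structure Good (M : Subgroup G) (h : Act M) (x : G) : Prop where
  cube : x ^ 3 ∈ centralizer (M : Set G)
  four : Nat.card (Wc M h x) = 4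

theorem fix_eq_one {h : Act M} {x : G} (hx : x ^ 3 ∈ centralizer (M : Set G)) {w : G} (hw : w ∈ Wc M h x)
    (hxw : x * w * x⁻¹ = w) : w = 1 := by
  obtain ⟨m, hm, rfl⟩ := hw
  have hw := Wc_le (h := h) (g := x) ⟨m, hm, rfl⟩
  set w := x * m * x⁻¹ * m⁻¹ with hwd
  have h1 : x * m * x⁻¹ = w * m := by rw [hwd]; group
  have h2 : x * (x * m * x⁻¹) * x⁻¹ = m := by
    rw [h1, show x * (w * m) * x⁻¹ = (x * w * x⁻¹) * (x * m * x⁻¹) by group, hxw, h1, ← mul_assoc, h.sq hw, one_mul]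
  have h3 : x * (x * (x * m * x⁻¹) * x⁻¹) * x⁻¹ = m := by
    have h4 : x ^ 3 * m * (x ^ 3)⁻¹ = m := by
      rw [← mem_centralizer_iff.1 hx m hm, mul_inv_cancel_right]
    calc x * (x * (x * m * x⁻¹) * x⁻¹) * x⁻¹ = x ^ 3 * m * (x ^ 3)⁻¹ := by
          rw [show x ^ 3 = x * x * x by rw [pow_succ, pow_two]]; group
      _ = m := h4
  rw [h2, h1] at h3
  exact mul_eq_right.1 h3

end Cfsg.Agent.Lib.H33T3g
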