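import Cfsg.Agent.Lib.H33T3g

/-! Pairs of good elements in a `3`-group and the case of `3`-rank at least `3` (helper33, for S4404). -/

set_option autoImplicit false

namespace Cfsg.Agent.Lib.H33T3h

open Subgroup Cfsg
open Cfsg.Agent.Lib.PGroupRank Cfsg.Agent.Lib.H33T3m Cfsg.Agent.Lib.H33T3g Cfsg.Agent.Lib.H33T3c

universe u

variable {G : Type u} [Group G] {M : Subgroup G}

theorem el_sub {h : Act M} {V : Subgroup G} (hV : V ≤ M) : IsElementaryAbelian 2 V :=
  IsElementaryAbelian.mono h.el hV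

theorem le_normalizer_of_conj [Finite G] {H V : Subgroup G} (h : ∀ g ∈ H, ∀ v ∈ V, g * v * g⁻¹ ∈ V) :
    H ≤ normalizer (V : Set G) := by
  intro g hg
  rw [mem_normalizer_iff]
  intro v
  refine ⟨h g hg v, fun hv => ?_⟩
  have := h g⁻¹ (inv_mem hg) _ hv
  rwa [show g⁻¹ * (g * v * g⁻¹) * g⁻¹⁻¹ = v by group] at this

/-- every element of `[M, z]` is `[z, v]` with `v ∈ [M, z]`. -/
theorem Good.surj [Finite G] {h : Act M} {z : G} (hz : z ^ 3 ∈ centralizer (M : Set G)) {w : G} (hw : w ∈ Wc M h z) :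
    ∃ v ∈ Wc M h z, z * v * z⁻¹ * v⁻¹ = w := by
  let φ : Wc M h z → Wc M h z := fun v => ⟨z * v * z⁻¹ * (v : G)⁻¹, v, Wc_le v.2, rfl⟩
  have hφ : Function.Injective φ := by
    intro a b hab
    have h1 : z * a * z⁻¹ * (a : G)⁻¹ = z * b * z⁻¹ * (b : G)⁻¹ := congrArg Subtype.val hab
    have h2 : (b : G)⁻¹ * a = 1 := by
      apply fix_eq_one hz (mul_mem (inv_mem b.2) a.2)
      have h3 : (z * b * z⁻¹)⁻¹ * (z * a * z⁻¹) = (b : G)⁻¹ * a := by
        have h4 : z * a * z⁻¹ = z * b * z⁻¹ * (b : G)⁻¹ * a := by rw [← h1]; group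
        rw [h4]; group
      calc z * ((b : G)⁻¹ * a) * z⁻¹ = (z * b * z⁻¹)⁻¹ * (z * a * z⁻¹) := by group
        _ = _ := h3
    exact Subtype.ext (inv_mul_eq_one.1 h2).symm
  have hs := Finite.injective_iff_surjective.1 hφ
  obtain ⟨v, hv⟩ := hs ⟨w, hw⟩
  exact ⟨v, v.2, congrArg Subtype.val hv⟩

theorem Good.pair [Finite G] {h : Act M} {P : Subgroup G} (hP : IsPGroup 3 P) {y z : G} (hyP : y ∈ P) (hzP : z ∈ P)
    (hy : Good M h y) (hz : Good M h z) : Wc M h y = Wc M h z ∨ ∀ w ∈ Wc M h z, y * w * y⁻¹ = w := by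
  set V := Wc M h y ⊔ Wc M h z with hV
  have hVM : V ≤ M := sup_le Wc_le Wc_le
  set L : Subgroup G := closure {y, z} with hL
  have hLP : L ≤ P := by
    rw [hL, closure_le]
    rintro a (rfl | ha)
    · exact hyP
    · rw [Set.mem_singleton_iff] at ha; rw [ha]; exact hzP
  have hLp : IsPGroup 3 L := hP.to_le hLP
  -- `L` normalizes `V`
  have hgen : ∀ g, Wc M h g ≤ V → g ∈ normalizer (V : Set G) := by
    intro g hg
    rw [mem_normalizer_iff]
    intro v
    have hmov : ∀ v ∈ V, g * v * g⁻¹ ∈ V := by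
      intro v hv
      have := V.mul_mem (hg ⟨v, hVM hv, rfl⟩) hv
      rwa [inv_mul_cancel_right] at this
    refine ⟨hmov v, fun hv => ?_⟩
    -- finite: conjugation is injective on `V`
    let φ : V → V := fun u => ⟨g * u * g⁻¹, hmov u u.2⟩
    have hφ : Function.Injective φ := by
      intro a b hab
      have h1 : g * (a : G) * g⁻¹ = g * (b : G) * g⁻¹ := congrArg Subtype.val hab
      exact Subtype.ext (mul_left_cancel (mul_right_cancel h1))
    obtain ⟨u, hu⟩ := (Finite.injective_iff_surjective.1 hφ) ⟨g * v * g⁻¹, hv⟩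
    have h2 : g * (u : G) * g⁻¹ = g * v * g⁻¹ := congrArg Subtype.val hu
    have h3 : (u : G) = v := mul_left_cancel (mul_right_cancel h2)
    rw [← h3]; exact u.2
  have hLN : L ≤ normalizer (V : Set G) := by
    rw [hL, closure_le]
    rintro a (rfl | ha)
    · exact hgen _ le_sup_left
    · rw [Set.mem_singleton_iff] at ha; rw [ha]; exact hgen _ le_sup_right
  -- the order of `V`
  have hcomm : Wc M h z ≤ normalizer (Wc M h y : Set G) := by
    apply le_normalizer_of_conj
    intro g hg v hv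
    rwa [h.comm (Wc_le hg) (Wc_le hv), mul_inv_cancel_right]
  have hc := SubgroupTools.card_sup_mul_card_inf hcomm
  rw [← hV, hy.four, hz.four] at hc
  have hcV : ∃ k, k ≤ 4 ∧ Nat.card V = 2 ^ k := by
    have h1 : Nat.card V ∣ 2 ^ 4 := by
      rw [show (2 : ℕ) ^ 4 = 4 * 4 by norm_num, ← hc]
      exact dvd_mul_right _ _
    obtain ⟨k, hk, hk'⟩ := (Nat.dvd_prime_pow Nat.prime_two).1 h1
    exact ⟨k, hk, hk'⟩
  obtain ⟨k, hk4, hk⟩ := hcV
  have hel : IsElementaryAbelian 2 V := IsElementaryAbelian.mono h.el hVM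
  have hp2 : Fact (Nat.Prime 2) := ⟨Nat.prime_two⟩
  have hp3 : Fact (Nat.Prime 3) := ⟨Nat.prime_three⟩
  have hidx : (centralizer (V : Set G)).relIndex L ≤ 9 := by
    obtain ⟨m, hm⟩ := relIndex_pow (K := centralizer (V : Set G)) hLp
    have h1 := relIndex_centralizer_dvd hel hk hLN
    rw [hm] at h1 ⊢
    have h2 : m < 3 := by
      by_contra hcon
      push Not at hcon
      have h3 := dvd_trans (pow_dvd_pow 3 hcon) h1
      clear_value V
      interval_cases k <;> simp only [Fin.prod_univ_succ, Fin.prod_univ_zero] at h3 <;> revert h3 <;> decide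
    calc 3 ^ m ≤ 3 ^ 2 := Nat.pow_le_pow_right (by norm_num) (by omega)
      _ = 9 := by norm_num
  have hcom := comm_mem hLN hLp hidx y⁻¹ (inv_mem (subset_closure (by simp))) z⁻¹
    (inv_mem (subset_closure (by simp)))
  rw [inv_inv, inv_inv] at hcom
  -- `y` normalizes `[M, z]`
  have hyz : ∀ w ∈ Wc M h z, y * w * y⁻¹ ∈ Wc M h z := by
    intro w hw
    obtain ⟨v, hv, rfl⟩ := Good.surj hz.cube hw
    have hvV : v ∈ V := (le_sup_right : Wc M h z ≤ V) hv
    have h1 : (y⁻¹ * z⁻¹ * y * z) * v * (y⁻¹ * z⁻¹ * y * z)⁻¹ = v := by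
      rw [← mem_centralizer_iff.1 hcom v hvV, mul_inv_cancel_right]
    refine ⟨y * v * y⁻¹, h.n.conj_mem v (Wc_le hv) y, ?_⟩
    calc z * (y * v * y⁻¹) * z⁻¹ * (y * v * y⁻¹)⁻¹
        = z * y * v * (z * y)⁻¹ * (y * v⁻¹ * y⁻¹) := by group
      _ = z * y * ((y⁻¹ * z⁻¹ * y * z) * v * (y⁻¹ * z⁻¹ * y * z)⁻¹) * (z * y)⁻¹ * (y * v⁻¹ * y⁻¹) := by rw [h1]
      _ = y * (z * v * z⁻¹ * v⁻¹) * y⁻¹ := by group
  -- the intersection
  have hD : ∀ w ∈ Wc M h z, y * w * y⁻¹ * w⁻¹ ∈ Wc M h y ⊓ Wc M h z := fun w hw =>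
    mem_inf.2 ⟨⟨w, Wc_le hw, rfl⟩, mul_mem (hyz w hw) (inv_mem hw)⟩
  have hD4 : Nat.card (Wc M h y ⊓ Wc M h z : Subgroup G) ∣ 2 ^ 2 := by
    have := Subgroup.card_dvd_of_le (inf_le_left : Wc M h y ⊓ Wc M h z ≤ Wc M h y)
    rwa [hy.four] at this
  obtain ⟨j, hj, hj'⟩ := (Nat.dvd_prime_pow Nat.prime_two).1 hD4
  interval_cases j
  · right
    intro w hw
    have h1 := hD w hw
    have h2 : (Wc M h y ⊓ Wc M h z : Subgroup G) = ⊥ := Subgroup.card_eq_one.1 (by rw [hj', pow_zero])
    rw [h2, mem_bot] at h1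
    exact mul_inv_eq_one.1 h1
  · exfalso
    -- the nontrivial element of the intersection is fixed by `y`
    have h1 : Nat.card (Wc M h y ⊓ Wc M h z : Subgroup G) = 2 := by rw [hj']; norm_num
    have h2 : (Wc M h y ⊓ Wc M h z : Subgroup G) ≠ ⊥ := by
      intro h3
      rw [h3, card_bot] at h1
      omega
    obtain ⟨v', hv1'⟩ := ne_bot_iff_exists_ne_one.1 h2
    obtain ⟨v, hv⟩ := v'
    have hv1 : v ≠ 1 := fun h => hv1' (Subtype.ext h)
    have hvv := mem_inf.1 hv
    have h4 : y * v * y⁻¹ ∈ Wc M h y ⊓ Wc M h z := mem_inf.2 ⟨Wc_norm hvv.1, hyz v hvv.2⟩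
    have h5 : y * v * y⁻¹ = v := by
      have h6 : zpowers v = Wc M h y ⊓ Wc M h z :=
        eq_zpowers_of_card_eq_prime (p := 2) h1 hv hv1
      rw [← h6] at h4
      obtain ⟨i, hi⟩ := mem_zpowers_iff.1 h4
      have h7 : v ^ (2 : ℤ) = 1 := by
        have := h.sq (Wc_le hvv.1)
        rw [zpow_two]; exact this
      rcases Int.even_or_odd i with ⟨r, hr⟩ | ⟨r, hr⟩
      · exfalso
        rw [hr, ← two_mul, zpow_mul, h7, one_zpow] at hi
        apply hv1
        have h8 : y * v * y⁻¹ = 1 := hi.symm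
        have : v = y⁻¹ * (y * v * y⁻¹) * y := by group
        rw [this, h8]; simp
      · rw [hr, zpow_add, zpow_mul, h7, one_zpow, one_mul, zpow_one] at hi
        exact hi.symm
    exact hv1 (fix_eq_one hy.cube hvv.1 h5)
  · left
    have h1 : Nat.card (Wc M h y ⊓ Wc M h z : Subgroup G) = 4 := by rw [hj']; norm_num
    have h2 : (Wc M h y ⊓ Wc M h z : Subgroup G) = Wc M h y :=
      Subgroup.eq_of_le_of_card_ge inf_le_left (by rw [h1, hy.four])
    have h3 : (Wc M h y ⊓ Wc M h z : Subgroup G) = Wc M h z :=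
      Subgroup.eq_of_le_of_card_ge inf_le_right (by rw [h1, hz.four])
    rw [← h2, h3]


/-- **The case of `3`-rank at least three.** -/
theorem Good.main [Finite G] {h : Act M} {P : Subgroup G} (hP : IsPGroup 3 P) {x : G} (hxP : x ∈ P)
    (hx : Good M h x) {E : Subgroup G} (hEP : E ≤ P) (hE : IsElementaryAbelian 3 E) (hEc : Nat.card E = 27) :
    ∃ F : Subgroup G, IsElementaryAbelian 3 F ∧ Nat.card F = 27 ∧
      9 ≤ Nat.card (F ⊓ centralizer (Wc M h x : Set G) : Subgroup G) := by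
  have hp2 : Fact (Nat.Prime 2) := ⟨Nat.prime_two⟩
  have hp3 : Fact (Nat.Prime 3) := ⟨Nat.prime_three⟩
  set W := Wc M h x with hW
  set N : Subgroup G := normalizer (W : Set G) ⊓ P with hN
  set Z : Subgroup G := centralizer (W : Set G) ⊓ P with hZ
  have hNW : N ≤ normalizer (W : Set G) := inf_le_left
  have hNp : IsPGroup 3 N := hP.to_le inf_le_right
  have hidx : (centralizer (W : Set G)).relIndex N ≤ 3 :=
    relIndex_le_three (r := 2) (k := 2) (el_sub (h := h) Wc_le) (by rw [hx.four]; norm_num) hNW hNp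
      (by simp only [Fin.prod_univ_succ, Fin.prod_univ_zero]; norm_num)
  have hZN : Z ≤ N := inf_le_inf_right P (centralizer_le_normalizer _)
  have hcore : Core (N.subgroupOf P) (Z.subgroupOf P) ⟨x, hxP⟩ := by
    refine ⟨hP, ?_, ?_, ?_, ?_, ?_, ?_, ?_⟩
    · exact subgroupOf_mono P hZN
    · intro a ha b hb
      rw [mem_subgroupOf] at ha hb ⊢
      exact mem_inf.2 ⟨comm_mem hNW hNp (by omega) a ha b hb,
        P.mul_mem (P.mul_mem (P.mul_mem a.2 b.2) (P.inv_mem a.2)) (P.inv_mem b.2)⟩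
    · intro a ha
      rw [mem_subgroupOf] at ha ⊢
      exact mem_inf.2 ⟨cube_mem hNW hNp hidx a ha, P.pow_mem a.2 3⟩
    · rw [relIndex_subgroupOf inf_le_right]
      have h1 : Z.relIndex N = (centralizer (W : Set G)).relIndex N := by
        rw [← inf_relIndex_right Z N, ← inf_relIndex_right (centralizer (W : Set G)) N]
        congr 1
        rw [hZ, hN]
        ext g
        simp only [mem_inf]
        tauto
      rw [h1]; exact hidx
    · rw [mem_subgroupOf]
      refine mem_inf.2 ⟨?_, hxP⟩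
      rw [mem_normalizer_iff'']
      intro w
      rw [hW, ← mem_Wc_conj (h := h) (g := x) (k := x), mul_inv_cancel_right]
    · rw [mem_subgroupOf]
      intro hxZ
      have h1 := (mem_inf.1 hxZ).1
      have h2 : W ≠ ⊥ := by
        intro h3
        have := hx.four
        rw [← hW, h3, card_bot] at this
        omega
      obtain ⟨v', hv1'⟩ := ne_bot_iff_exists_ne_one.1 h2
      apply hv1'
      apply Subtype.ext
      apply fix_eq_one hx.cube v'.2
      have := mem_centralizer_iff.1 h1 v' v'.2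
      change x * (v' : G) * x⁻¹ = v'
      rw [← this, mul_inv_cancel_right]
    · intro g hg
      rw [mem_subgroupOf] at hg ⊢
      change (g : G) * x * (g : G)⁻¹ ∈ Z
      have hgx : Good M h ((g : G) * x * (g : G)⁻¹) := by
        refine ⟨?_, by rw [card_Wc_conj, hx.four]⟩
        rw [conj_pow]
        have : (centralizer (M : Set G)).Normal := by
          have := h.n
          infer_instance
        exact this.conj_mem _ hx.cube _
      rcases Good.pair hP (P.mul_mem (P.mul_mem g.2 hxP) (P.inv_mem g.2)) hxP hgx hx with h1 | h1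
      · exfalso
        apply hg
        refine mem_inf.2 ⟨?_, g.2⟩
        rw [mem_normalizer_iff'']
        intro w
        rw [← hW] at h1
        rw [← mem_Wc_conj (h := h) (g := x) (k := (g : G)), h1]
      · refine mem_inf.2 ⟨?_, P.mul_mem (P.mul_mem g.2 hxP) (P.inv_mem g.2)⟩
        rw [mem_centralizer_iff]
        intro w hw
        have := h1 w hw
        rw [mul_inv_eq_iff_eq_mul] at this
        exact this.symm
  obtain ⟨F, hF, hFc, hF9⟩ := H33T3f.core_main hcore (E := E.subgroupOf P) (by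
      rw [isElementaryAbelian_iff] at hE ⊢
      refine ⟨fun a ha b hb => Subtype.ext (hE.1 a ha b hb), fun a ha => Subtype.ext ?_⟩
      rw [SubmonoidClass.coe_pow]
      exact hE.2 a ha) (by rw [SubgroupTools.card_subgroupOf_of_le hEP, hEc])
  refine ⟨F.map P.subtype, IsElementaryAbelian.map hF _, ?_, ?_⟩
  · rw [Subgroup.card_map_of_injective P.subtype_injective, hFc]
  · have h1 : (F ⊓ Z.subgroupOf P).map P.subtype ≤ F.map P.subtype ⊓ centralizer (W : Set G) := by
      rintro _ ⟨a, ha, rfl⟩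
      have ha' := mem_inf.1 ha
      refine mem_inf.2 ⟨mem_map_of_mem _ ha'.1, ?_⟩
      have := mem_subgroupOf.1 ha'.2
      exact (mem_inf.1 this).1
    have h2 := Subgroup.card_le_of_le h1
    rw [Subgroup.card_map_of_injective P.subtype_injective] at h2
    omega

end Cfsg.Agent.Lib.H33T3h
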