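import Cfsg.Agent.Lib.H33T3h
import Cfsg.Agent.Lib.CriticalOdd
import Cfsg.Agent.Lib.CoprimeAction2

/-! The case of a `p`-group, `p ≥ 5`, normalized by a good element (helper33, for S4404). -/

set_option autoImplicit false

namespace Cfsg.Agent.Lib.H33T3i

open Subgroup Cfsg
open Cfsg.Agent.Lib.PGroupRank Cfsg.Agent.Lib.H33T3m Cfsg.Agent.Lib.H33T3g Cfsg.Agent.Lib.H33T3h

universe u

theorem commute_of_five {K : Type u} [Group K] {j x : K} (hj : j ^ 5 = 1) (hx : x ^ 3 = 1)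
    (h : x * j * x⁻¹ ∈ zpowers j) : x * j * x⁻¹ = j := by
  by_cases hj1 : j = 1
  · rw [hj1]; group
  have hp5 : Fact (Nat.Prime 5) := ⟨Nat.prime_five⟩
  have ho : orderOf j = 5 := orderOf_eq_prime hj hj1
  obtain ⟨a, ha⟩ := mem_zpowers_iff.1 h
  have h1 : x * (x * j * x⁻¹) * x⁻¹ = j ^ (a * a) := by
    rw [← ha, ← conj_zpow, ← ha, zpow_mul]
  have h2 : x * (x * (x * j * x⁻¹) * x⁻¹) * x⁻¹ = j ^ (a * a * a) := by
    rw [h1, ← conj_zpow, ← ha, ← zpow_mul]
    congr 1; ring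
  have h3 : x * (x * (x * j * x⁻¹) * x⁻¹) * x⁻¹ = j := by
    calc x * (x * (x * j * x⁻¹) * x⁻¹) * x⁻¹ = x ^ 3 * j * (x ^ 3)⁻¹ := by
          rw [show x ^ 3 = x * x * x by rw [pow_succ, pow_two]]; group
      _ = j := by rw [hx]; group
  rw [h3] at h2
  have h4 : (5 : ℤ) ∣ a * a * a - 1 := by
    have h5 : j ^ (a * a * a - 1) = 1 := by
      rw [zpow_sub, ← h2, zpow_one, mul_inv_cancel]
    have := orderOf_dvd_iff_zpow_eq_one.2 h5
    rwa [ho] at this
  have h6 : (5 : ℤ) ∣ a - 1 := by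
    have h7 : a % 5 = 0 ∨ a % 5 = 1 ∨ a % 5 = 2 ∨ a % 5 = 3 ∨ a % 5 = 4 := by omega
    have h8 : (a * a * a) % 5 = ((a % 5) * (a % 5) % 5 * (a % 5)) % 5 := by
      rw [Int.mul_emod, Int.mul_emod a a]
    have h9 : (a * a * a) % 5 = 1 := by omega
    rcases h7 with h | h | h | h | h <;> rw [h] at h8 <;> norm_num at h8 <;> omega
  obtain ⟨b, hb⟩ := h6
  have h10 : a = 5 * b + 1 := by omega
  rw [← ha, h10, zpow_add, zpow_mul, zpow_one]
  have : j ^ (5 : ℤ) = 1 := by exact_mod_cast hj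
  rw [this, one_zpow, one_mul]

variable {G : Type u} [Group G] {M : Subgroup G}

theorem norm_of_Wc_le [Finite G] {h : Act M} {V : Subgroup G} (hVM : V ≤ M) {g : G} (hg : Wc M h g ≤ V) :
    g ∈ normalizer (V : Set G) := by
  rw [mem_normalizer_iff]
  intro v
  have hmov : ∀ v ∈ V, g * v * g⁻¹ ∈ V := by
    intro v hv
    have := V.mul_mem (hg ⟨v, hVM hv, rfl⟩) hv
    rwa [inv_mul_cancel_right] at this
  refine ⟨hmov v, fun hv => ?_⟩
  let φ : V → V := fun u => ⟨g * u * g⁻¹, hmov u u.2⟩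
  have hφ : Function.Injective φ := by
    intro a b hab
    have h1 : g * (a : G) * g⁻¹ = g * (b : G) * g⁻¹ := congrArg Subtype.val hab
    exact Subtype.ext (mul_left_cancel (mul_right_cancel h1))
  obtain ⟨u, hu⟩ := (Finite.injective_iff_surjective.1 hφ) ⟨g * v * g⁻¹, hv⟩
  have h2 : g * (u : G) * g⁻¹ = g * v * g⁻¹ := congrArg Subtype.val hu
  have h3 : (u : G) = v := mul_left_cancel (mul_right_cancel h2)
  rw [← h3]; exact u.2

theorem Wc_le_comm {h : Act M} {L : Subgroup G} {g : G} (hg : g ∈ L) : Wc M h g ≤ ⁅M, L⁆ := by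
  rintro _ ⟨m, hm, rfl⟩
  rw [commutator_comm]
  exact commutator_mem_commutator hg hm

/-- `|V| = |[M, x]| |C_V(x)|` when `[M, x] ≤ V ≤ M`. -/
theorem card_fix [Finite G] {h : Act M} {x : G} (hx : Good M h x) {V : Subgroup G} (hVM : V ≤ M) (hWV : Wc M h x ≤ V) :
    Nat.card V = 4 * Nat.card (V ⊓ centralizer {x} : Subgroup G) := by
  let φ : V →* G :=
    { toFun := fun v => x * v * x⁻¹ * (v : G)⁻¹
      map_one' := by simp
      map_mul' := by
        intro a b
        have h1 : x * (b : G) * x⁻¹ * (b : G)⁻¹ ∈ M :=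
          M.mul_mem (h.n.conj_mem _ (hVM b.2) x) (M.inv_mem (hVM b.2))
        have h2 := h.comm h1 (M.inv_mem (hVM a.2))
        calc x * ((a * b : V) : G) * x⁻¹ * ((a * b : V) : G)⁻¹
            = x * (a : G) * x⁻¹ * ((x * (b : G) * x⁻¹ * (b : G)⁻¹) * (a : G)⁻¹) := by
              rw [Subgroup.coe_mul]; group
          _ = x * (a : G) * x⁻¹ * ((a : G)⁻¹ * (x * (b : G) * x⁻¹ * (b : G)⁻¹)) := by rw [h2]
          _ = _ := by group }
  have hr : φ.range = Wc M h x := by
    ext w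
    rw [MonoidHom.mem_range]
    constructor
    · rintro ⟨v, rfl⟩
      exact ⟨v, hVM v.2, rfl⟩
    · intro hw
      obtain ⟨v, hv, hvw⟩ := Good.surj hx.cube hw
      exact ⟨⟨v, hWV hv⟩, hvw⟩
  have hk : φ.ker = (V ⊓ centralizer {x} : Subgroup G).subgroupOf V := by
    ext v
    rw [MonoidHom.mem_ker, mem_subgroupOf, mem_inf, mem_centralizer_singleton_iff]
    change x * (v : G) * x⁻¹ * (v : G)⁻¹ = 1 ↔ _
    rw [mul_inv_eq_one, mul_inv_eq_iff_eq_mul]
    constructor
    · intro h1; exact ⟨v.2, h1.symm⟩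
    · intro h1; exact h1.2.symm
  have h1 := card_mul_index φ.ker
  rw [index_ker, hr, hx.four, hk, SubgroupTools.card_subgroupOf_of_le inf_le_left] at h1
  omega


theorem no16 [Finite G] {h : Act M} {p : ℕ} [hp : Fact p.Prime] (hp5 : 5 ≤ p) {P : Subgroup G} (hP : IsPGroup p P)
    {x : G} (hx : Good M h x) (hxP : zpowers x ≤ normalizer (P : Set G)) {L V : Subgroup G}
    (hodd : (Nat.card L).Coprime (Nat.card M))
    (hL : L ≤ P ⊔ zpowers x) (hxL : x ∈ L) (hVM : V ≤ M) (hLV : L ≤ normalizer (V : Set G)) (hVL : V ≤ ⁅M, L⁆)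
    (hWV : Wc M h x ≤ V) (hc : Nat.card V = 16) : False := by
  have hp2 : Fact (Nat.Prime 2) := ⟨Nat.prime_two⟩
  have := h.n
  have hcomM : IsMulCommutative M := h.el.1
  -- no fixed points
  have hfix := CoprimeAction2.inf_commutator_eq_bot_of_abelian (A := L) (V := M)
    (by rw [normalizer_eq_top_iff.2 h.n]; exact le_top) hodd
  have claim1 : ∀ v ∈ V, v ∈ centralizer ((L ⊓ P : Subgroup G) : Set G) → x * v * x⁻¹ = v → v = 1 := by
    intro v hv hvJ hxv
    have h1 : v ∈ (M ⊓ centralizer (L : Set G)) ⊓ ⁅M, L⁆ := by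
      refine mem_inf.2 ⟨mem_inf.2 ⟨hVM hv, ?_⟩, hVL hv⟩
      rw [mem_centralizer_iff]
      intro l hl
      obtain ⟨q, hq, z, hz, hqz⟩ := (SubgroupTools.mem_sup_of_le_normalizer hxP).1 (hL hl)
      have hzL : z ∈ L := (zpowers_le.2 hxL) hz
      have hqL : q ∈ L := by
        have : q = l * z⁻¹ := by rw [← hqz]; group
        rw [this]; exact mul_mem hl (inv_mem hzL)
      have h2 : q * v = v * q := mem_centralizer_iff.1 hvJ q (mem_inf.2 ⟨hqL, hq⟩)
      have h3 : z * v = v * z := by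
        have h4 : x * v = v * x := mul_inv_eq_iff_eq_mul.1 hxv
        have h5 : v ∈ centralizer (zpowers x : Set G) := by
          rw [mem_centralizer_iff]
          intro y hy
          obtain ⟨i, rfl⟩ := mem_zpowers_iff.1 hy
          exact ((show Commute x v from h4).zpow_left i).eq
        exact mem_centralizer_iff.1 h5 z hz
      rw [← hqz, mul_assoc, h3, ← mul_assoc, h2, mul_assoc]
    rw [hfix, mem_bot] at h1
    exact h1
  have hcx := card_fix hx hVM hWV
  rw [hc] at hcx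
  have hcx4 : Nat.card (V ⊓ centralizer {x} : Subgroup G) = 4 := by omega
  set J : Subgroup G := L ⊓ P with hJ
  have hJp : IsPGroup p J := hP.to_le inf_le_right
  have hJL : J ≤ L := inf_le_left
  have hJV : J ≤ normalizer (V : Set G) := hJL.trans hLV
  -- the fixed points of `J`
  set K : Subgroup G := V ⊓ centralizer (J : Set G) with hK
  have hmod : 16 ≡ Nat.card K [MOD p] := by
    have := CriticalOdd.card_modEq_centralizer hJp hJV
    rwa [hc] at this
  have hKV : K ≠ V := by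
    intro hKV
    have h2 : (V ⊓ centralizer {x} : Subgroup G) ≠ ⊥ := by
      intro h3
      rw [h3, card_bot] at hcx4
      omega
    obtain ⟨v', hv1'⟩ := ne_bot_iff_exists_ne_one.1 h2
    obtain ⟨v, hv⟩ := v'
    apply hv1'
    apply Subtype.ext
    have hvV := (mem_inf.1 hv).1
    refine claim1 v hvV ?_ ?_
    · rw [← hKV] at hvV
      exact (mem_inf.1 hvV).2
    · have := mem_centralizer_singleton_iff.1 (mem_inf.1 hv).2
      rw [mul_inv_eq_iff_eq_mul]; exact this.symm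
  have hconjK : ∀ v ∈ K, x * v * x⁻¹ ∈ K := by
    intro v hv
    have hvv := mem_inf.1 hv
    refine mem_inf.2 ⟨(mem_normalizer_iff.1 (hLV hxL) v).1 hvv.1, ?_⟩
    rw [mem_centralizer_iff]
    intro j hj
    have hj' : x⁻¹ * j * x ∈ J := by
      refine mem_inf.2 ⟨L.mul_mem (L.mul_mem (L.inv_mem hxL) (hJL hj)) hxL, ?_⟩
      exact (mem_normalizer_iff''.1 (hxP (mem_zpowers x)) j).1 (mem_inf.1 hj).2
    have h2 := mem_centralizer_iff.1 hvv.2 _ hj'
    calc j * (x * v * x⁻¹) = x * ((x⁻¹ * j * x) * v) * x⁻¹ := by group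
      _ = x * (v * (x⁻¹ * j * x)) * x⁻¹ := by rw [h2]
      _ = _ := by group
  have hKd : Nat.card K ∣ 2 ^ 4 := by
    have := Subgroup.card_dvd_of_le (inf_le_left : K ≤ V)
    rwa [hc] at this
  obtain ⟨i, hi, hi'⟩ := (Nat.dvd_prime_pow Nat.prime_two).1 hKd
  have hpd : ∀ {n : ℕ}, 16 ≡ n [MOD p] → n ≤ 16 → p ∣ 16 - n := fun hn hle =>
    (Nat.modEq_iff_dvd' hle).1 hn.symm
  interval_cases i
  · -- trivial fixed points: `p = 5`
    rw [hi'] at hmod
    have h1 := hpd hmod (by norm_num)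
    have h2 : p ∣ 3 * 5 := by
      rwa [show 16 - 2 ^ 0 = 3 * 5 by norm_num] at h1
    have h3 : p = 5 := by
      rcases hp.out.dvd_mul.1 h2 with h3 | h3
      · have := (Nat.prime_dvd_prime_iff_eq hp.out Nat.prime_three).1 h3
        omega
      · exact (Nat.prime_dvd_prime_iff_eq hp.out Nat.prime_five).1 h3
    subst h3
    have hel : IsElementaryAbelian 2 V := IsElementaryAbelian.mono h.el hVM
    have hρ := relIndex_centralizer_dvd (k := 4) hel (by rw [hc]; norm_num) hJV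
    obtain ⟨m, hm⟩ := relIndex_pow (K := centralizer (V : Set G)) hJp
    have hm1 : m ≤ 1 := by
      by_contra hcon
      push Not at hcon
      have h4 := dvd_trans (pow_dvd_pow 5 hcon) (hm ▸ hρ)
      simp only [Fin.prod_univ_succ, Fin.prod_univ_zero] at h4
      revert h4
      decide
    have hm0 : m ≠ 0 := by
      rintro rfl
      rw [pow_zero, relIndex_eq_one] at hm
      apply hKV
      rw [hK, inf_eq_left]
      exact le_centralizer_iff.1 hm
    have hm' : (centralizer (V : Set G)).relIndex J = 5 := by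
      rw [hm, show m = 1 by omega, pow_one]
    let ψ := V.normalizerMonoidHom
    have hψ : ∀ (g : normalizer (V : Set G)) (v : V), ((ψ g v : V) : G) = (g : G) * v * (g : G)⁻¹ := fun g v => rfl
    have hJb : Nat.card ((J.subgroupOf (normalizer (V : Set G))).map ψ) = 5 := by
      rw [← relIndex_ker, normalizerMonoidHom_ker, relIndex_subgroupOf hJV, hm']
    have hxN : x ∈ normalizer (V : Set G) := hLV hxL
    have hxb3 : (ψ ⟨x, hxN⟩) ^ 3 = 1 := by
      rw [← map_pow]
      ext v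
      rw [hψ]
      have h4 := mem_centralizer_iff.1 hx.cube v (hVM v.2)
      change x ^ 3 * (v : G) * (x ^ 3)⁻¹ = v
      rw [← h4, mul_inv_cancel_right]
    have key : ∀ j ∈ J, ∀ v ∈ V, (x * j * x⁻¹) * v * (x * j * x⁻¹)⁻¹ = j * v * j⁻¹ := by
      intro j hj v hv
      have hxj : x * j * x⁻¹ ∈ J := by
        refine mem_inf.2 ⟨L.mul_mem (L.mul_mem hxL (hJL hj)) (L.inv_mem hxL), ?_⟩
        exact (mem_normalizer_iff.1 (hxP (mem_zpowers x)) j).1 (mem_inf.1 hj).2
      have hjb : ψ ⟨j, hJV hj⟩ ∈ (J.subgroupOf (normalizer (V : Set G))).map ψ := mem_map_of_mem _ hj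
      have hxjb : ψ ⟨x * j * x⁻¹, hJV hxj⟩ ∈ (J.subgroupOf (normalizer (V : Set G))).map ψ := mem_map_of_mem _ hxj
      have h5 : ψ ⟨x * j * x⁻¹, hJV hxj⟩ = ψ ⟨x, hxN⟩ * ψ ⟨j, hJV hj⟩ * (ψ ⟨x, hxN⟩)⁻¹ := by
        rw [← map_mul, ← map_inv, ← map_mul]; rfl
      have h6 : ψ ⟨x, hxN⟩ * ψ ⟨j, hJV hj⟩ * (ψ ⟨x, hxN⟩)⁻¹ = ψ ⟨j, hJV hj⟩ := by
        by_cases hj1 : ψ ⟨j, hJV hj⟩ = 1
        · rw [hj1]; group
        · have h7 := eq_zpowers_of_card_eq_prime (p := 5) hJb hjb hj1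
          apply commute_of_five ?_ hxb3
          · rw [h7, ← h5]; exact hxjb
          · have h8 : orderOf (ψ ⟨j, hJV hj⟩) ∣ 5 := by
              have := Subgroup.orderOf_dvd_natCard _ hjb
              rwa [hJb] at this
            exact orderOf_dvd_iff_pow_eq_one.1 h8
      rw [h6] at h5
      have h9 := congrArg (fun f : MulAut V => ((f ⟨v, hv⟩ : V) : G)) h5
      exact h9
    have hJC : J ≤ normalizer ((V ⊓ centralizer {x} : Subgroup G) : Set G) := by
      apply le_normalizer_of_conj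
      intro j hj v hv
      have hvv := mem_inf.1 hv
      refine mem_inf.2 ⟨(mem_normalizer_iff.1 (hJV hj) v).1 hvv.1, ?_⟩
      rw [mem_centralizer_singleton_iff]
      have h4 := mem_centralizer_singleton_iff.1 hvv.2
      have h5 : x * v * x⁻¹ = v := by rw [← h4]; group
      have h6 : x * (j * v * j⁻¹) * x⁻¹ = j * v * j⁻¹ := by
        calc x * (j * v * j⁻¹) * x⁻¹ = (x * j * x⁻¹) * (x * v * x⁻¹) * (x * j * x⁻¹)⁻¹ := by group
          _ = (x * j * x⁻¹) * v * (x * j * x⁻¹)⁻¹ := by rw [h5]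
          _ = _ := key j hj v hvv.1
      rw [mul_inv_eq_iff_eq_mul] at h6
      exact h6.symm
    have h10 := CriticalOdd.card_modEq_centralizer hJp hJC
    rw [hcx4] at h10
    have h11 : (V ⊓ centralizer {x}) ⊓ centralizer (J : Set G) ≤ K := by
      intro v hv
      exact mem_inf.2 ⟨(mem_inf.1 (mem_inf.1 hv).1).1, (mem_inf.1 hv).2⟩
    have h12 := Subgroup.card_le_of_le h11
    rw [hi', pow_zero] at h12
    have h13 : 0 < Nat.card ↥((V ⊓ centralizer {x}) ⊓ centralizer (J : Set G)) := Nat.card_pos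
    have h14 : Nat.card ↥((V ⊓ centralizer {x}) ⊓ centralizer (J : Set G)) = 1 := by omega
    rw [h14] at h10
    exact absurd h10 (by decide)
  · -- order two
    have h1 : Nat.card K = 2 := by rw [hi']; norm_num
    have h2 : K ≠ ⊥ := by
      intro h3
      rw [h3, card_bot] at h1
      omega
    obtain ⟨v', hv1'⟩ := ne_bot_iff_exists_ne_one.1 h2
    obtain ⟨v, hv⟩ := v'
    have hv1 : v ≠ 1 := fun h => hv1' (Subtype.ext h)
    apply hv1
    refine claim1 v (mem_inf.1 hv).1 (mem_inf.1 hv).2 ?_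
    have h4 := hconjK v hv
    have h6 : zpowers v = K := eq_zpowers_of_card_eq_prime (p := 2) h1 hv hv1
    rw [← h6] at h4
    obtain ⟨i, hi⟩ := mem_zpowers_iff.1 h4
    have h7 : v ^ (2 : ℤ) = 1 := by
      have := h.sq (hVM (mem_inf.1 hv).1)
      rw [zpow_two]; exact this
    rcases Int.even_or_odd i with ⟨r, hr⟩ | ⟨r, hr⟩
    · exfalso
      rw [hr, ← two_mul, zpow_mul, h7, one_zpow] at hi
      apply hv1
      have h8 : x * v * x⁻¹ = 1 := hi.symm
      have : v = x⁻¹ * (x * v * x⁻¹) * x := by group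
      rw [this, h8]; simp
    · rw [hr, zpow_add, zpow_mul, h7, one_zpow, one_mul, zpow_one] at hi
      exact hi.symm
  · exfalso
    rw [hi'] at hmod
    have h1 := hpd hmod (by norm_num)
    have h2 : p ∣ 2 ^ 2 * 3 := by
      rwa [show 16 - 2 ^ 2 = 2 ^ 2 * 3 by norm_num] at h1
    rcases hp.out.dvd_mul.1 h2 with h3 | h3
    · have := (Nat.prime_dvd_prime_iff_eq hp.out Nat.prime_two).1 (hp.out.dvd_of_dvd_pow h3)
      omega
    · have := (Nat.prime_dvd_prime_iff_eq hp.out Nat.prime_three).1 h3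
      omega
  · exfalso
    rw [hi'] at hmod
    have h1 := hpd hmod (by norm_num)
    have h2 : p ∣ 2 ^ 3 := by
      rwa [show 16 - 2 ^ 3 = 2 ^ 3 by norm_num] at h1
    have := (Nat.prime_dvd_prime_iff_eq hp.out Nat.prime_two).1 (hp.out.dvd_of_dvd_pow h2)
    omega
  · exact hKV (Subgroup.eq_of_le_of_card_ge inf_le_left (by rw [hc, hi']; norm_num))

end Cfsg.Agent.Lib.H33T3i
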