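import Cfsg.Agent.Lib.H33T3i

/-! The case of a `p`-group, `p ≥ 5`, normalized by a good element, continued (helper33, for S4404). -/

set_option autoImplicit false

namespace Cfsg.Agent.Lib.H33T3j

open Subgroup Cfsg
open Cfsg.Agent.Lib.PGroupRank Cfsg.Agent.Lib.H33T3m Cfsg.Agent.Lib.H33T3g Cfsg.Agent.Lib.H33T3h
open Cfsg.Agent.Lib.H33T3i

universe u

variable {G : Type u} [Group G] {M : Subgroup G}

theorem Good.conj {h : Act M} {x : G} (hx : Good M h x) (g : G) : Good M h (g * x * g⁻¹) := by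
  refine ⟨?_, by rw [card_Wc_conj, hx.four]⟩
  rw [conj_pow]
  have : (centralizer (M : Set G)).Normal := by
    have := h.n
    infer_instance
  exact this.conj_mem _ hx.cube _

/-- two four-groups `[M, x]`, `[M, y]`. -/
theorem card_two [Finite G] {h : Act M} {A B : Subgroup G} (hA : A ≤ M) (hB : B ≤ M) :
    Nat.card (A ⊔ B : Subgroup G) * Nat.card (A ⊓ B : Subgroup G) = Nat.card A * Nat.card B := by
  apply SubgroupTools.card_sup_mul_card_inf
  apply le_normalizer_of_conj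
  intro g hg v hv
  rwa [h.comm (hB hg) (hA hv), mul_inv_cancel_right]

/-- **The invariant subgroup of order `4` or `8`.** -/
theorem exists_U [Finite G] {h : Act M} {p : ℕ} [hp : Fact p.Prime] (hp5 : 5 ≤ p) {P : Subgroup G} (hP : IsPGroup p P)
    {x : G} (hx : Good M h x) (hx3 : IsPGroup 3 (zpowers x)) (hxP : zpowers x ≤ normalizer (P : Set G)) :
    ∃ U : Subgroup G, U ≤ M ∧ Wc M h x ≤ U ∧ P ≤ normalizer (U : Set G) ∧ (Nat.card U = 4 ∨ Nat.card U = 8) := by
  have hp3 : Fact (Nat.Prime 3) := ⟨Nat.prime_three⟩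
  have hp2 : Fact (Nat.Prime 2) := ⟨Nat.prime_two⟩
  set W := Wc M h x with hW
  -- the order of `P⟨x⟩` is odd
  have hodd : ∀ L : Subgroup G, L ≤ P ⊔ zpowers x → (Nat.card L).Coprime (Nat.card M) := by
    intro L hL
    obtain ⟨a, ha⟩ := IsPGroup.iff_card.1 hP
    obtain ⟨b, hb⟩ := IsPGroup.iff_card.1 hx3
    obtain ⟨c, hc⟩ := IsPGroup.iff_card.1 (IsElementaryAbelian.isPGroup h.el)
    have h1 : Nat.card L ∣ p ^ a * 3 ^ b := by
      refine (Subgroup.card_dvd_of_le hL).trans ?_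
      have := SubgroupTools.card_sup_mul_card_inf hxP
      rw [← ha, ← hb, ← this]
      exact dvd_mul_right _ _
    rw [hc]
    apply Nat.Coprime.coprime_dvd_left h1
    apply Nat.Coprime.mul_left
    · apply Nat.Coprime.pow
      rw [Nat.coprime_primes hp.out Nat.prime_two]; omega
    · apply Nat.Coprime.pow
      decide
  -- closure lemma
  have key : ∀ (S : Set G) (V : Subgroup G), x ∈ S → (∀ g ∈ S, ∃ a ∈ P, g = a * x * a⁻¹) → V ≤ M →
      (∀ g ∈ S, Wc M h g ≤ V) → V ≤ ⁅M, closure S⁆ → Nat.card V ≠ 16 := by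
    intro S V hxS hS hVM hSV hVS hc
    have hL : closure S ≤ P ⊔ zpowers x := by
      rw [closure_le]
      intro g hg
      obtain ⟨a, ha, rfl⟩ := hS g hg
      exact mul_mem (mul_mem (mem_sup_left ha) (mem_sup_right (mem_zpowers x))) (inv_mem (mem_sup_left ha))
    refine no16 hp5 hP hx hxP (hodd _ hL) hL (subset_closure hxS) hVM ?_ hVS (hSV x hxS) hc
    rw [closure_le]
    intro g hg
    exact norm_of_Wc_le hVM (hSV g hg)
  -- the conjugates
  have hWa : ∀ a : G, Nat.card (Wc M h (a * x * a⁻¹)) = 4 := fun a => by rw [card_Wc_conj, hx.four]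
  have hpair : ∀ a ∈ P, Nat.card (W ⊔ Wc M h (a * x * a⁻¹) : Subgroup G) ≠ 16 := by
    intro a ha
    refine key {x, a * x * a⁻¹} _ (by simp) ?_ (sup_le Wc_le Wc_le) ?_ ?_
    · rintro g (rfl | hg)
      · exact ⟨1, one_mem _, by group⟩
      · rw [Set.mem_singleton_iff] at hg; exact ⟨a, ha, hg⟩
    · rintro g (rfl | hg)
      · exact le_sup_left
      · rw [Set.mem_singleton_iff] at hg; rw [hg]; exact le_sup_right
    · exact sup_le (Wc_le_comm (subset_closure (by simp))) (Wc_le_comm (subset_closure (by simp)))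
  have hcd : ∀ a ∈ P, 2 ≤ Nat.card (W ⊓ Wc M h (a * x * a⁻¹) : Subgroup G) := by
    intro a ha
    have h1 := card_two (h := h) (A := W) (B := Wc M h (a * x * a⁻¹)) Wc_le Wc_le
    rw [hW, hx.four, hWa a, ← hW] at h1
    have h2 := hpair a ha
    by_contra hcon
    have h3 : Nat.card (W ⊓ Wc M h (a * x * a⁻¹) : Subgroup G) = 1 := by
      have : 0 < Nat.card (W ⊓ Wc M h (a * x * a⁻¹) : Subgroup G) := Nat.card_pos
      omega
    rw [h3] at h1
    omega
  -- invariance criterion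
  have hinv : ∀ U : Subgroup G, U ≤ M → (∀ a ∈ P, Wc M h (a * x * a⁻¹) ≤ U) →
      (∃ S : Set G, (∀ g ∈ S, g ∈ P) ∧ U = ⨆ g ∈ S, Wc M h (g * x * g⁻¹)) → P ≤ normalizer (U : Set G) := by
    rintro U hUM hU ⟨S, hS, rfl⟩
    have hle : ∀ c ∈ P, (⨆ g ∈ S, Wc M h (g * x * g⁻¹)).map (MulAut.conj c).toMonoidHom ≤
        ⨆ g ∈ S, Wc M h (g * x * g⁻¹) := by
      intro c hc
      rw [Subgroup.map_iSup]
      refine iSup_le fun g => ?_
      rw [Subgroup.map_iSup]
      refine iSup_le fun hg => ?_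
      rw [map_conj_Wc, show c * (g * x * g⁻¹) * c⁻¹ = (c * g) * x * (c * g)⁻¹ by group]
      exact hU _ (mul_mem hc (hS g hg))
    apply le_normalizer_of_conj
    intro c hc v hv
    exact hle c hc (mem_map_of_mem _ hv)
  by_cases h1 : ∀ a ∈ P, Wc M h (a * x * a⁻¹) ≤ W
  · refine ⟨W, Wc_le, le_rfl, ?_, Or.inl hx.four⟩
    apply hinv W Wc_le h1 ⟨{1}, by simp, ?_⟩
    simp [hW]
  push Not at h1
  obtain ⟨a, ha, haW⟩ := h1
  have h2 := card_two (h := h) (A := W) (B := Wc M h (a * x * a⁻¹)) Wc_le Wc_le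
  rw [hW, hx.four, hWa a, ← hW] at h2
  have h3 := hcd a ha
  have h4 : Nat.card (W ⊓ Wc M h (a * x * a⁻¹) : Subgroup G) = 2 := by
    have h5 : Nat.card (W ⊓ Wc M h (a * x * a⁻¹) : Subgroup G) ∣ 2 ^ 2 := by
      have := Subgroup.card_dvd_of_le (inf_le_right : W ⊓ Wc M h (a * x * a⁻¹) ≤ _)
      rwa [hWa a] at this
    obtain ⟨j, hj, hj'⟩ := (Nat.dvd_prime_pow Nat.prime_two).1 h5
    have h6 : Nat.card (W ⊓ Wc M h (a * x * a⁻¹) : Subgroup G) ≠ 4 := by
      intro h7
      have h8 : (W ⊓ Wc M h (a * x * a⁻¹) : Subgroup G) = Wc M h (a * x * a⁻¹) :=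
        Subgroup.eq_of_le_of_card_ge inf_le_right (by rw [h7, hWa a])
      exact haW (inf_eq_right.1 h8)
    interval_cases j <;> omega
  rw [h4] at h2
  set V := W ⊔ Wc M h (a * x * a⁻¹) with hV
  have hV8 : Nat.card V = 8 := by omega
  have hVM : V ≤ M := sup_le Wc_le Wc_le
  by_cases h5 : ∀ b ∈ P, Wc M h (b * x * b⁻¹) ≤ V
  · refine ⟨V, hVM, le_sup_left, ?_, Or.inr hV8⟩
    apply hinv V hVM h5 ⟨{1, a}, ?_, ?_⟩
    · rintro g (rfl | hg)
      · exact one_mem _
      · rw [Set.mem_singleton_iff] at hg; rw [hg]; exact ha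
    · rw [iSup_insert, iSup_singleton, hV, hW]
      simp
  exfalso
  push Not at h5
  obtain ⟨b, hb, hbV⟩ := h5
  have h6 := card_two (h := h) (A := V) (B := Wc M h (b * x * b⁻¹)) hVM Wc_le
  rw [hV8, hWa b] at h6
  have h7 : 2 ≤ Nat.card (V ⊓ Wc M h (b * x * b⁻¹) : Subgroup G) :=
    (hcd b hb).trans (Subgroup.card_le_of_le (inf_le_inf_right _ le_sup_left))
  have h8 : Nat.card (V ⊓ Wc M h (b * x * b⁻¹) : Subgroup G) = 2 := by
    have h9 : Nat.card (V ⊓ Wc M h (b * x * b⁻¹) : Subgroup G) ∣ 2 ^ 2 := by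
      have := Subgroup.card_dvd_of_le (inf_le_right : V ⊓ Wc M h (b * x * b⁻¹) ≤ _)
      rwa [hWa b] at this
    obtain ⟨j, hj, hj'⟩ := (Nat.dvd_prime_pow Nat.prime_two).1 h9
    have h10 : Nat.card (V ⊓ Wc M h (b * x * b⁻¹) : Subgroup G) ≠ 4 := by
      intro h11
      have h12 : (V ⊓ Wc M h (b * x * b⁻¹) : Subgroup G) = Wc M h (b * x * b⁻¹) :=
        Subgroup.eq_of_le_of_card_ge inf_le_right (by rw [h11, hWa b])
      exact hbV (inf_eq_right.1 h12)
    interval_cases j <;> omega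
  rw [h8] at h6
  refine key {x, a * x * a⁻¹, b * x * b⁻¹} (V ⊔ Wc M h (b * x * b⁻¹)) (by simp) ?_ (sup_le hVM Wc_le) ?_ ?_ (by omega)
  · rintro g (rfl | rfl | hg)
    · exact ⟨1, one_mem _, by group⟩
    · exact ⟨a, ha, rfl⟩
    · rw [Set.mem_singleton_iff] at hg; exact ⟨b, hb, hg⟩
  · rintro g (rfl | rfl | hg)
    · exact le_sup_left.trans le_sup_left
    · exact le_sup_right.trans le_sup_left
    · rw [Set.mem_singleton_iff] at hg; rw [hg]; exact le_sup_right
  · exact sup_le (sup_le (Wc_le_comm (subset_closure (by simp))) (Wc_le_comm (subset_closure (by simp))))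
      (Wc_le_comm (subset_closure (by simp)))

/-- the case `p ≥ 5`. -/
theorem Good.main5 [Finite G] {h : Act M} {p : ℕ} [hp : Fact p.Prime] (hp5 : 5 ≤ p) {P : Subgroup G} (hP : IsPGroup p P)
    {x : G} (hx : Good M h x) (hx3 : IsPGroup 3 (zpowers x)) (hxP : zpowers x ≤ normalizer (P : Set G))
    {E : Subgroup G} (hEP : E ≤ P) (hEc : Nat.card E = p ^ 3) :
    p ^ 2 ≤ Nat.card (E ⊓ centralizer (Wc M h x : Set G) : Subgroup G) := by
  have hp2 : Fact (Nat.Prime 2) := ⟨Nat.prime_two⟩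
  obtain ⟨U, hUM, hWU, hPU, hU⟩ := exists_U hp5 hP hx hx3 hxP
  have hel : IsElementaryAbelian 2 U := IsElementaryAbelian.mono h.el hUM
  have hEp : IsPGroup p E := hP.to_le hEP
  have hidx : (centralizer (U : Set G)).relIndex E ≤ p := by
    obtain ⟨m, hm⟩ := relIndex_pow (K := centralizer (U : Set G)) hEp
    have h1 : (centralizer (U : Set G)).relIndex E ∣ 168 := by
      rcases hU with hU | hU
      · have h2 := relIndex_centralizer_dvd (k := 2) hel (by rw [hU]; norm_num) (hEP.trans hPU)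
        simp only [Fin.prod_univ_succ, Fin.prod_univ_zero] at h2
        exact h2.trans (by decide)
      · have h2 := relIndex_centralizer_dvd (k := 3) hel (by rw [hU]; norm_num) (hEP.trans hPU)
        simp only [Fin.prod_univ_succ, Fin.prod_univ_zero] at h2
        exact h2.trans (by decide)
    rw [hm] at h1 ⊢
    have h3 : m ≤ 1 := by
      by_contra hcon
      push Not at hcon
      have h4 : p ^ 2 ∣ 168 := dvd_trans (pow_dvd_pow p hcon) h1
      have h5 : p ^ 2 ≤ 168 := Nat.le_of_dvd (by norm_num) h4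
      have h6 : p ≤ 12 := by
        by_contra h7
        push Not at h7
        have : 13 ^ 2 ≤ p ^ 2 := Nat.pow_le_pow_left h7 2
        omega
      interval_cases p <;> revert h4 <;> decide
    calc p ^ m ≤ p ^ 1 := Nat.pow_le_pow_right hp.out.pos h3
      _ = p := pow_one p
  have h1 := SubgroupTools.card_mul_relIndex (centralizer (U : Set G)) E
  rw [hEc, inf_comm] at h1
  have h2 : p ^ 2 ≤ Nat.card (E ⊓ centralizer (U : Set G) : Subgroup G) := by
    have h3 : p ^ 2 * p ≤ Nat.card (E ⊓ centralizer (U : Set G) : Subgroup G) * p := by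
      calc p ^ 2 * p = Nat.card (E ⊓ centralizer (U : Set G) : Subgroup G) * (centralizer (U : Set G)).relIndex E := by
            rw [h1]; ring
        _ ≤ _ := Nat.mul_le_mul_left _ hidx
    exact Nat.le_of_mul_le_mul_right h3 hp.out.pos
  refine h2.trans (Subgroup.card_le_of_le (inf_le_inf_left _ ?_))
  exact centralizer_le hWU

end Cfsg.Agent.Lib.H33T3j
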