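import Cfsg.Agent.Lib.H33T3j
import Cfsg.Agent.S1450
import Cfsg.Agent.S0005
import Cfsg.Agent.Lib.CoprimeAction

/-! Assembly of S4404 (helper33). -/

set_option autoImplicit false

namespace Cfsg.Agent.Lib.H33T3k

open Subgroup Cfsg
open Cfsg.Agent.Lib.PGroupRank Cfsg.Agent.Lib.H33T3m Cfsg.Agent.Lib.H33T3g Cfsg.Agent.Lib.H33T3h
open Cfsg.Agent.Lib.H33T3i Cfsg.Agent.Lib.H33T3j

universe u

variable {G : Type u} [Group G] {M : Subgroup G}

theorem Wc_eq [Finite G] {h : Act M} {x : G} : ⁅zpowers x, M⁆ = Wc M h x := by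
  apply le_antisymm
  · have hxN : x ∈ normalizer (Wc M h x : Set G) := norm_of_Wc_le Wc_le le_rfl
    let T : Subgroup G :=
      { carrier := {g | g ∈ normalizer (Wc M h x : Set G) ∧ ∀ m ∈ M, g * m * g⁻¹ * m⁻¹ ∈ Wc M h x}
        one_mem' := ⟨one_mem _, fun m _ => by simp⟩
        mul_mem' := by
          rintro a b ⟨ha, ha'⟩ ⟨hb, hb'⟩
          refine ⟨mul_mem ha hb, fun m hm => ?_⟩
          have h1 := (mem_normalizer_iff.1 ha _).1 (hb' m hm)
          have h2 := mul_mem h1 (ha' m hm)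
          rwa [show a * (b * m * b⁻¹ * m⁻¹) * a⁻¹ * (a * m * a⁻¹ * m⁻¹) = a * b * m * (a * b)⁻¹ * m⁻¹ by group] at h2
        inv_mem' := by
          rintro a ⟨ha, ha'⟩
          refine ⟨inv_mem ha, fun m hm => ?_⟩
          have h1 := (mem_normalizer_iff.1 (inv_mem ha) _).1 (inv_mem (ha' m hm))
          rwa [show a⁻¹ * (a * m * a⁻¹ * m⁻¹)⁻¹ * a⁻¹⁻¹ = a⁻¹ * m * a⁻¹⁻¹ * m⁻¹ by group] at h1 }
    have hT : zpowers x ≤ T := by
      rw [zpowers_le]
      exact ⟨hxN, fun m hm => ⟨m, hm, rfl⟩⟩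
    rw [commutator_le]
    intro g hg m hm
    exact (hT hg).2 m hm
  · rintro _ ⟨m, hm, rfl⟩
    exact commutator_mem_commutator (mem_zpowers x) hm

theorem not_cyclic {r : ℕ} [Finite G] (hr : 0 < r) {F C : Subgroup G} (hF : IsElementaryAbelian r F)
    (hc : r < Nat.card (F ⊓ C : Subgroup G)) : ¬ IsCyclic (F ⊓ C : Subgroup G) := by
  intro hcyc
  obtain ⟨g, hg, hgen⟩ := H33T3e.exists_gen hcyc
  rw [← hgen, Nat.card_zpowers] at hc
  have h1 : g ^ r = 1 := (isElementaryAbelian_iff.1 hF).2 g (mem_inf.1 hg).1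
  have := orderOf_le_of_pow_eq_one hr h1
  omega

/-- an odd order solvable group with `3`-rank at most two has an `x`-invariant Sylow `p`-subgroup, `p ≥ 5`. -/
theorem exists_invariant [Finite G] [Group.IsSolvable G] (hr : PRankLE 3 2 G) {x : G} (hx3 : IsPGroup 3 (zpowers x))
    (hx1 : x ≠ 1) {p : ℕ} [hp : Fact p.Prime] (hp5 : 5 ≤ p) :
    ∃ P : Sylow p G, zpowers x ≤ normalizer ((P : Subgroup G) : Set G) := by
  have hp3 : Fact (Nat.Prime 3) := ⟨Nat.prime_three⟩
  obtain ⟨k, m, hm, hk⟩ := Nat.exists_eq_two_pow_mul_odd (n := Nat.card G) Nat.card_pos.ne'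
  have hm2 : m.Coprime (2 ^ k) := (Nat.coprime_two_right.2 hm).pow_right k
  obtain ⟨b, hb⟩ := IsPGroup.iff_card.1 hx3
  obtain ⟨H, hHc, hxH⟩ := Cfsg.Agent.S0005.result m (2 ^ k) (by rw [hk, mul_comm]) hm2 (zpowers x) (by
    rw [hb]
    apply Nat.Coprime.pow
    decide)
  have hHodd : Odd (Nat.card H) := by rw [hHc]; exact hm
  have hHx : 3 ∣ Nat.card H := by
    have h1 : 3 ∣ Nat.card (zpowers x) := by
      rw [hb]
      apply dvd_pow_self
      rintro rfl
      rw [pow_zero, Nat.card_zpowers, orderOf_eq_one_iff] at hb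
      exact hx1 hb
    exact h1.trans (Subgroup.card_dvd_of_le hxH)
  have hHsol : Group.IsSolvable H := inferInstance
  have h1450 := (Cfsg.Agent.S1450.result hHodd 3 hHx (PRankLE.subgroup hr H)).2.1 (Or.inl rfl)
  obtain ⟨P3, N, hN, hcompl⟩ := h1450
  set R : Subgroup G := N.map H.subtype with hR
  have hRH : R ≤ H := map_subtype_le _
  have hRsub : R.subgroupOf H = N := by
    rw [hR, subgroupOf, comap_map_eq_self_of_injective H.subtype_injective]
  have hRN : H ≤ normalizer (R : Set G) := by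
    rw [← normal_subgroupOf_iff_le_normalizer hRH, hRsub]
    exact hN
  -- the index of `R` in `H`
  obtain ⟨c, hc⟩ := IsPGroup.iff_card.1 P3.2
  have hRidx : R.relIndex H = 3 ^ c := by
    rw [relIndex, hRsub]
    have h1 := hcompl.symm.index_eq_card
    rw [h1, hc]
  have hN3 : ¬ 3 ∣ Nat.card N := by
    have h2 : (P3 : Subgroup H).index = Nat.card N := hcompl.index_eq_card
    rw [← h2]
    exact P3.not_dvd_index
  have hRc : Nat.card R = Nat.card N := Subgroup.card_map_of_injective H.subtype_injective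
  have hcop : (Nat.card (zpowers x)).Coprime (Nat.card R) := by
    rw [hb, hRc]
    apply Nat.Coprime.pow_left
    exact (Nat.Prime.coprime_iff_not_dvd Nat.prime_three).2 hN3
  obtain ⟨P, hPR, hPp, hPi, hPx⟩ := CoprimeAction.exists_invariant_sylow (hxH.trans hRN) hcop
    (Or.inr inferInstance) p
  -- `P` is a Sylow subgroup of `G`
  have hidx : ¬ p ∣ P.index := by
    have h1 := relIndex_mul_relIndex P R H hPR hRH
    have h2 := relIndex_mul_index (hPR.trans hRH)
    have h3 : H.index = 2 ^ k := by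
      have h4 := H.card_mul_index
      rw [hHc, hk, mul_comm (2 ^ k) m] at h4
      exact Nat.eq_of_mul_eq_mul_left (by rw [← hHc]; exact Nat.card_pos) h4
    rw [← h2, ← h1, h3, hRidx]
    intro hdvd
    rcases hp.out.dvd_mul.1 hdvd with h5 | h5
    · rcases hp.out.dvd_mul.1 h5 with h6 | h6
      · exact hPi h6
      · have := (Nat.prime_dvd_prime_iff_eq hp.out Nat.prime_three).1 (hp.out.dvd_of_dvd_pow h6)
        omega
    · have := (Nat.prime_dvd_prime_iff_eq hp.out Nat.prime_two).1 (hp.out.dvd_of_dvd_pow h5)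
      omega
  exact ⟨hPp.toSylow hidx, hPx⟩

theorem main [Finite G] [Group.IsSolvable G] (M : Subgroup G) [M.Normal] (hM : IsElementaryAbelian 2 M)
    (p : ℕ) (hp : p.Prime) (hp2 : p ≠ 2) (E : Subgroup G) (hE : IsElementaryAbelian p E) (hE3 : Nat.card ↥E = p ^ 3)
    (Q : Subgroup G) (hQc : IsCyclic ↥Q) (hQ3 : IsPGroup 3 ↥Q)
    (hQ1 : ∀ x ∈ Q, x ^ 3 ∈ Subgroup.centralizer (M : Set G)) (hQM : Nat.card ↥⁅Q, M⁆ = 4) :
    ∃ (r : ℕ) (F : Subgroup G), r.Prime ∧ r ≠ 2 ∧ IsElementaryAbelian r F ∧ Nat.card ↥F = r ^ 3 ∧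
      ¬ IsCyclic ↥(F ⊓ Subgroup.centralizer ((⁅Q, M⁆ : Subgroup G) : Set G)) := by
  have hpf : Fact p.Prime := ⟨hp⟩
  have hp3 : Fact (Nat.Prime 3) := ⟨Nat.prime_three⟩
  have h : Act M := ⟨inferInstance, hM⟩
  obtain ⟨x, hxQ, rfl⟩ := H33T3e.exists_gen hQc
  have hx : Good M h x := ⟨hQ1 x hxQ, by rw [← Wc_eq, hQM]⟩
  rw [Wc_eq (h := h)]
  by_cases hr : PRankLE 3 2 G
  · -- `p ≥ 5`
    have hp3' : p ≠ 3 := by
      rintro rfl
      have := pRankLE_iff.1 hr E hE
      rw [hE3] at this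
      norm_num at this
    have hp5 : 5 ≤ p := by
      have h2 := hp.two_le
      rcases Nat.lt_or_ge p 5 with h5 | h5
      · interval_cases p
        · exact absurd rfl hp2
        · exact absurd rfl hp3'
        · exact absurd hp (by decide)
      · exact h5
    have hx1 : x ≠ 1 := by
      rintro rfl
      rw [zpowers_one_eq_bot, commutator_bot_left, card_bot] at hQM
      omega
    obtain ⟨P, hP⟩ := exists_invariant hr hQ3 hx1 hp5
    obtain ⟨P', hP'⟩ := (IsElementaryAbelian.isPGroup hE).exists_le_sylow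
    obtain ⟨g, hg⟩ := MulAction.exists_smul_eq G P' P
    have h1 : E.map (MulAut.conj g).toMonoidHom ≤ (P : Subgroup G) := by
      rw [← hg]
      exact Subgroup.map_mono hP'
    have h2 : Nat.card (E.map (MulAut.conj g).toMonoidHom) = p ^ 3 := by
      rw [Subgroup.card_map_of_injective (MulAut.conj g).injective, hE3]
    have h3 := Good.main5 hp5 P.2 hx hQ3 hP h1 h2
    refine ⟨p, E.map (MulAut.conj g).toMonoidHom, hp, hp2, IsElementaryAbelian.map hE _, h2, ?_⟩
    refine not_cyclic hp.pos (IsElementaryAbelian.map hE _) (lt_of_lt_of_le ?_ h3)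
    calc p = p ^ 1 := (pow_one p).symm
      _ < p ^ 2 := Nat.pow_lt_pow_right hp.one_lt (by norm_num)
  · obtain ⟨P, hP⟩ := hQ3.exists_le_sylow
    rw [← pRankLE_sylow_iff P, not_pRankLE_subgroup_iff] at hr
    obtain ⟨A, hAP, hA, hAc⟩ := hr
    obtain ⟨F, hF, hFc, hF9⟩ := Good.main P.2 (hP (mem_zpowers x)) hx hAP hA (by rw [hAc]; norm_num)
    exact ⟨3, F, Nat.prime_three, by norm_num, hF, by rw [hFc]; norm_num, not_cyclic (by norm_num) hF (by omega)⟩

end Cfsg.Agent.Lib.H33T3k
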