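import Mathlib
import Cfsg.Agent.Lib.ZJThm

/-!
# The axiomatic Glauberman argument: `I(T) ∩ B` is normal (helper34)
-/

set_option autoImplicit false

universe u v

namespace Cfsg.Agent.Lib.H34AxGrp

open Subgroup Cfsg.Agent.Lib.ThompsonJ Cfsg.Agent.Lib.RelSylow Cfsg.Agent.Lib.GlaubRepl3
  Cfsg.Agent.Lib.PStab Cfsg.Agent.Lib.FactorizeQuot Cfsg.Agent.Lib.ReplacementElem Cfsg.Agent.Lib.ZJThm
open scoped commutatorElement

variable {G : Type u} [Group G] {p : ℕ}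

/-- the intersection of the members of `𝒜` contained in `Q` -/
def IA (𝒜 : Set (Subgroup G)) (Q : Subgroup G) : Subgroup G := ⨅ A ∈ {A : Subgroup G | A ∈ 𝒜 ∧ A ≤ Q}, A

theorem mem_IA {𝒜 : Set (Subgroup G)} {Q : Subgroup G} {x : G} : x ∈ IA 𝒜 Q ↔ ∀ A ∈ 𝒜, A ≤ Q → x ∈ A := by
  unfold IA
  simp only [Subgroup.mem_iInf]
  exact ⟨fun h A hA hQ => h A ⟨hA, hQ⟩, fun h A hA => h A hA.1 hA.2⟩

theorem IA_le {𝒜 : Set (Subgroup G)} {Q A : Subgroup G} (hA : A ∈ 𝒜) (h : A ≤ Q) : IA 𝒜 Q ≤ A :=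
  fun _ hx => mem_IA.1 hx A hA h

theorem le_IA {𝒜 : Set (Subgroup G)} {Q B : Subgroup G} (h : ∀ A ∈ 𝒜, A ≤ Q → B ≤ A) : B ≤ IA 𝒜 Q :=
  fun _ hx => mem_IA.2 fun A hA hQ => h A hA hQ hx

theorem IA_anti {𝒜 : Set (Subgroup G)} {Q R : Subgroup G} (h : Q ≤ R) : IA 𝒜 R ≤ IA 𝒜 Q :=
  le_IA fun _ hA hQ => IA_le hA (hQ.trans h)

/-- the hypotheses on the family -/
structure Ax (T : Subgroup G) (𝒜 : Set (Subgroup G)) : Prop where
  le : ∀ A ∈ 𝒜, A ≤ T
  comm : ∀ A ∈ 𝒜, IsMulCommutative ↥A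
  ne : 𝒜.Nonempty
  inv : ∀ Q : Subgroup G, Q ≤ T → (∃ A ∈ 𝒜, A ≤ Q) → normalizer (Q : Set G) ≤ normalizer (IA 𝒜 Q : Set G)
  rep : ∀ B : Subgroup G, B ≤ T → ⁅⁅B, B⁆, B⁆ = ⊥ → (∃ A ∈ 𝒜, ⁅B, B⁆ ≤ A ∧ ¬ B ≤ A) →
    ∃ A ∈ 𝒜, ⁅B, B⁆ ≤ A ∧ ¬ B ≤ A ∧ B ≤ normalizer (A : Set G)

theorem Ax.inf_normal [Finite G] [Fact p.Prime] {T : Subgroup G} {𝒜 : Set (Subgroup G)} (hA : Ax T 𝒜) (hS : IsSyl p T ⊤)
    (hst : ∀ (V : Subgroup G) [V.Normal], IsPGroup p V → Cfsg.IsPStableOn p V) :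
    ∀ (n : ℕ) (B : Subgroup G), B.Normal → IsPGroup p B → Nat.card B ≤ n → (IA 𝒜 T ⊓ B).Normal := by
  intro n
  induction n with
  | zero =>
    intro B _ _ hn
    exact absurd hn (not_le.2 Nat.card_pos)
  | succ n ih =>
    intro B hBn hBp hcard
    set Z := IA 𝒜 T with hZ
    have hBS : B ≤ T := by
      obtain ⟨Q, hQ⟩ := hS.toSylow
      rw [← hQ]
      exact hBp.le_sylow_of_normal Q
    obtain ⟨A₀, hA₀⟩ := hA.ne
    have hZA : ∀ A ∈ 𝒜, Z ≤ A := fun A h => IA_le h (hA.le A h)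
    have hZn : T ≤ normalizer (Z : Set G) := le_normalizer.trans (hA.inv T le_rfl ⟨A₀, hA₀, hA.le _ hA₀⟩)
    have hZc : ⁅Z, Z⁆ = ⊥ := by
      have h1 := hA.comm A₀ hA₀
      rw [← commutator_self_eq_bot_iff] at h1
      rw [eq_bot_iff, ← h1]
      exact commutator_mono (hZA A₀ hA₀) (hZA A₀ hA₀)
    by_cases hB1 : normalClosure ((Z ⊓ B : Subgroup G) : Set G) = B
    swap
    · have hle : normalClosure ((Z ⊓ B : Subgroup G) : Set G) ≤ B :=
        normalClosure_le_normal (inf_le_right : Z ⊓ B ≤ B)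
      have hlt : Nat.card (normalClosure ((Z ⊓ B : Subgroup G) : Set G)) < Nat.card B := by
        refine lt_of_le_of_ne (Subgroup.card_le_of_le hle) ?_
        intro h
        exact hB1 (Subgroup.eq_of_le_of_card_ge hle h.ge)
      have h1 := ih _ normalClosure_normal (hBp.to_le hle) (by omega)
      have h2 : Z ⊓ normalClosure ((Z ⊓ B : Subgroup G) : Set G) = Z ⊓ B := by
        apply le_antisymm
        · exact le_inf inf_le_left (inf_le_right.trans hle)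
        · exact le_inf inf_le_left subset_normalClosure
      rwa [h2] at h1
    by_cases hBbot : B = ⊥
    · rw [hBbot, inf_bot_eq]; infer_instance
    -- the derived subgroup
    have hnil : Group.IsNilpotent B := hBp.isNilpotent
    have hDne : ⁅B, B⁆ ≠ B := fun h => hBbot (eq_bot_of_le_commutator hnil le_rfl h.ge)
    have hDlt : Nat.card (⁅B, B⁆ : Subgroup G) < Nat.card B := by
      refine lt_of_le_of_ne (Subgroup.card_le_of_le (commutator_le_self B)) ?_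
      intro h
      exact hDne (Subgroup.eq_of_le_of_card_ge (commutator_le_self B) h.ge)
    have hN0 : (Z ⊓ ⁅B, B⁆).Normal :=
      ih _ inferInstance (hBp.to_le (commutator_le_self B)) (by omega)
    have hBBle : ⁅B, B⁆ ≤ Z ⊓ ⁅B, B⁆ := by
      have key : B ≤ {x : G | ∀ y ∈ B, ⁅x, y⁆ ∈ Z ⊓ ⁅B, B⁆} := by
        intro x hx
        have hx' : x ∈ normalClosure ((Z ⊓ B : Subgroup G) : Set G) := by rw [hB1]; exact hx
        refine closure_induction (p := fun x _ => ∀ y ∈ B, ⁅x, y⁆ ∈ Z ⊓ ⁅B, B⁆) ?_ ?_ ?_ ?_ hx'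
        · intro x hx y hy
          obtain ⟨z, hz, hzx⟩ := Group.mem_conjugatesOfSet_iff.1 hx
          obtain ⟨g, hg⟩ := isConj_iff.1 hzx
          rw [← hg]
          have e1 : ⁅g * z * g⁻¹, y⁆ = g * ⁅z, g⁻¹ * y * g⁆ * g⁻¹ := by
            simp only [commutatorElement_def]; group
          rw [e1]
          apply hN0.conj_mem
          have hy' : g⁻¹ * y * g ∈ B := by
            have := hBn.conj_mem y hy g⁻¹
            simpa using this
          refine ⟨?_, commutator_mem_commutator hz.2 hy'⟩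
          rw [commutatorElement_def]
          have h5 := (mem_normalizer_iff.1 (hZn (hBS hy')) z⁻¹).1 (inv_mem hz.1)
          have h6 := Z.mul_mem hz.1 h5
          have e2 : z * ((g⁻¹ * y * g) * z⁻¹ * (g⁻¹ * y * g)⁻¹) = z * (g⁻¹ * y * g) * z⁻¹ * (g⁻¹ * y * g)⁻¹ := by
            group
          rwa [e2] at h6
        · intro y _
          rw [commutatorElement_one_left]; exact one_mem _
        · intro x x' _ _ h1 h2 y hy
          have e : ⁅x * x', y⁆ = x * ⁅x', y⁆ * x⁻¹ * ⁅x, y⁆ := by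
            simp only [commutatorElement_def]; group
          rw [e]
          exact mul_mem (hN0.conj_mem _ (h2 y hy) x) (h1 y hy)
        · intro x _ h1 y hy
          have e : ⁅x⁻¹, y⁆ = x⁻¹ * ⁅x, y⁆⁻¹ * (x⁻¹)⁻¹ := by
            simp only [commutatorElement_def]; group
          rw [e]
          exact hN0.conj_mem _ (inv_mem (h1 y hy)) _
      rw [commutator_le]
      intro x hx y hy
      exact key hx y hy
    have hBBZ : ⁅B, B⁆ ≤ Z := hBBle.trans inf_le_left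
    -- class 2
    have hB2 : ⁅⁅B, B⁆, B⁆ = ⊥ := by
      rw [commutator_eq_bot_iff_le_centralizer, le_centralizer_iff]
      have h3 : B ≤ centralizer ((⁅B, B⁆ : Subgroup G) : Set G) := by
        have hcn : (centralizer ((⁅B, B⁆ : Subgroup G) : Set G)).Normal := inferInstance
        refine hB1.symm.le.trans (normalClosure_le_normal ?_)
        intro z hz
        rw [SetLike.mem_coe]
        have hz1 : z ∈ Z := hz.1
        have h4 := commutator_eq_bot_iff_le_centralizer.1 hZc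
        exact centralizer_le hBBZ (h4 hz1)
      exact h3
    by_cases hall : ∀ A ∈ 𝒜, B ≤ A
    · have hBZ : B ≤ Z := le_IA fun A h _ => hall A h
      rw [inf_eq_right.2 hBZ]; exact hBn
    push Not at hall
    obtain ⟨A₁, hA₁, hBA₁⟩ := hall
    obtain ⟨A, hAA, hBA, hnBA, hNA⟩ := hA.rep B hBS hB2 ⟨A₁, hA₁, hBBZ.trans (hZA A₁ hA₁), hBA₁⟩
    exfalso
    apply hnBA
    -- `A` acts quadratically on `B`
    have hquad : ⁅⁅B, A⁆, A⁆ = ⊥ := by
      have h1 : ⁅B, A⁆ ≤ A := le_normalizer_iff_commutator_le_right.1 hNA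
      have h2 := hA.comm A hAA
      rw [← commutator_self_eq_bot_iff] at h2
      rw [eq_bot_iff, ← h2]
      exact commutator_mono h1 le_rfl
    have hAL : A ≤ Dcore p (centralizer (B : Set G)) := by
      intro a ha
      have h3 := hst B hBp
      rw [isPStableOn_iff] at h3
      apply h3
      rw [eq_bot_iff, ← hquad]
      exact commutator_zpowers_quad_le ha
    set L := Dcore p (centralizer (B : Set G)) with hL
    set Q := T ⊓ L with hQ
    have hAQ : A ≤ Q := le_inf (hA.le A hAA) hAL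
    have hXn := hA.inv Q inf_le_left ⟨A, hAA, hAQ⟩
    set X := IA 𝒜 Q with hX
    have hZX : Z ≤ X := IA_anti inf_le_left
    have hBX : B ≤ X := by
      rw [← hB1, normalClosure, closure_le]
      intro x hx
      obtain ⟨z, hz, hzx⟩ := Group.mem_conjugatesOfSet_iff.1 hx
      obtain ⟨g, hg⟩ := isConj_iff.1 hzx
      obtain ⟨c, hc, l, hl, hgl⟩ := Dcore_frattini (centralizer (B : Set G)) hS g⁻¹
      have hg' : g = l⁻¹ * c⁻¹ := by rw [← mul_inv_rev, ← hgl, inv_inv]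
      have hcz : c⁻¹ * z * c = z := by
        have h5 := mem_centralizer_iff.1 hc z hz.2
        rw [mul_assoc, h5]; group
      have h7 := (mem_normalizer_iff.1 (inv_mem (hXn hl)) z).1 (hZX hz.1)
      rw [← hg, hg']
      have e : l⁻¹ * c⁻¹ * z * (l⁻¹ * c⁻¹)⁻¹ = l⁻¹ * (c⁻¹ * z * c) * l⁻¹⁻¹ := by group
      rw [e, hcz]; exact h7
    exact hBX.trans (IA_le hAA hAQ)

theorem Ax.normal [Finite G] [Fact p.Prime] {T : Subgroup G} {𝒜 : Set (Subgroup G)} (hA : Ax T 𝒜) (hS : IsSyl p T ⊤)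
    (hc : centralizer (Cfsg.pCore p G : Set G) ≤ Cfsg.pCore p G)
    (hst : ∀ (V : Subgroup G) [V.Normal], IsPGroup p V → Cfsg.IsPStableOn p V) :
    (IA 𝒜 T).Normal := by
  have hOS : Cfsg.pCore p G ≤ T := by
    obtain ⟨Q, hQ⟩ := hS.toSylow
    rw [← hQ]
    exact isPGroup_pCore.le_sylow_of_normal Q
  obtain ⟨A₀, hA₀⟩ := hA.ne
  have hZn : T ≤ normalizer (IA 𝒜 T : Set G) := le_normalizer.trans (hA.inv T le_rfl ⟨A₀, hA₀, hA.le _ hA₀⟩)
  have hZO : IA 𝒜 T ≤ Cfsg.pCore p G := by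
    apply le_pCore_of_quadratic hc (hst _ isPGroup_pCore)
    have h1 : ⁅Cfsg.pCore p G, IA 𝒜 T⁆ ≤ IA 𝒜 T :=
      le_normalizer_iff_commutator_le_right.1 (hOS.trans hZn)
    have h2 := hA.comm A₀ hA₀
    rw [← commutator_self_eq_bot_iff] at h2
    rw [eq_bot_iff, ← h2]
    exact commutator_mono (h1.trans (IA_le hA₀ (hA.le _ hA₀))) (IA_le hA₀ (hA.le _ hA₀))
  have h := hA.inf_normal hS hst _ (Cfsg.pCore p G) inferInstance isPGroup_pCore le_rfl
  rwa [inf_eq_left.2 hZO] at h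

end Cfsg.Agent.Lib.H34AxGrp
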