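import Mathlib
import Cfsg.Agent.Lib.H34CfpFus3

/-!
# Normal subsystems with small centralizer, odd primes (helper34)
-/

set_option autoImplicit false

universe u

namespace Cfsg.Agent.Lib.H34CfpFus

open Cfsg Cfsg.FusionSystem Cfsg.Agent.Lib.FusionBasic Cfsg.Agent.Lib.FusionSat Cfsg.Agent.Lib.FusionNormal
  Cfsg.Agent.Lib.FusionInvar Cfsg.Agent.Lib.FusionTools Cfsg.Agent.Lib.FusionPP Cfsg.Agent.Lib.FusionStrong
  Cfsg.Agent.Lib.FusionSys Cfsg.Agent.Lib.FusionFrat Cfsg.Agent.Lib.FusionPrime Cfsg.Agent.Lib.FusionTC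
  Cfsg.Agent.Lib.FusionClosed Cfsg.Agent.Lib.FusionStab Cfsg.Agent.Lib.FusionZeta

variable {Ω : Type u} [Group Ω] {S T : Subgroup Ω} {F : FusionSystem S} {E : FusionSystem T} {P Q R U M X Y Z : Subgroup Ω}
  {a b f g : Ω → Ω} {p n : ℕ}

theorem exists_max {α : Type*} (q : α → Prop) (m : α → ℕ) (B : ℕ) (hB : ∀ a, q a → m a ≤ B) (h : ∃ a, q a) :
    ∃ a, q a ∧ ∀ b, q b → m b ≤ m a := by
  classical
  by_contra hcon
  push Not at hcon
  have key : ∀ k : ℕ, ∃ a, q a ∧ k ≤ m a := by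
    intro k
    induction k with
    | zero => obtain ⟨a, ha⟩ := h; exact ⟨a, ha, Nat.zero_le _⟩
    | succ k ih =>
      obtain ⟨a, ha, hk⟩ := ih
      obtain ⟨b, hb, hlt⟩ := hcon a ha
      exact ⟨b, hb, by omega⟩
  obtain ⟨a, ha, hk⟩ := key (B + 1)
  have := hB a ha
  omega

theorem tc_top [Finite S] (hT : F.StronglyClosed T) : TC F T T := by
  refine ⟨le_rfl, fun Q hQ => ?_⟩
  obtain ⟨f, hf⟩ := isConj_iff_fiso.1 hQ
  have hQT : Q ≤ T := le_of_fiso hT le_rfl hf
  have hTf : Finite T := finite_of_le hT.1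
  have : Q = T := Subgroup.eq_of_le_of_card_ge hQT hf.card_eq.le
  subst this
  exact centralizerIn_le _ _

/-- `J(P)` is `T`-centric. -/
theorem tc_J [Finite S] [Fact p.Prime] (hS : IsPGroup p S) (hF : F.IsSaturated p) (hEs : E.IsSaturated p)
    (hE : Inv E F) (hTC : TC F T P) (hP : F.IsFullyNormalized P) (hJ : thompsonSubgroupAOf (normalizerIn T P) ≤ P) :
    TC F T (thompsonSubgroupAOf P) := by
  have hT := hE.closed
  have hTS := hT.1
  have hTp := isPGroup_of_le hS hTS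
  have hTf : Finite T := finite_of_le hTS
  have hPT := hTC.1
  have hPS := hP.1
  have hNT : normalizerIn T P ≤ T := normalizerIn_le T P
  have hNf : Finite (normalizerIn T P) := finite_of_le (hNT.trans hTS)
  have hPN : P ≤ normalizerIn T P := le_normalizerIn hPT
  have hJeq : thompsonSubgroupAOf P = thompsonSubgroupAOf (normalizerIn T P) := FusionJ.J_eq_of_le hPN hJ
  have hRP : thompsonSubgroupAOf P ≤ P := FusionJ.J_le P
  have hPnR : P ≤ Subgroup.normalizer (thompsonSubgroupAOf P : Set Ω) :=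
    le_trans Subgroup.le_normalizer (FusionJ.normalizer_le P)
  obtain ⟨R', ψ, hR', hψ, hψN, hψN'⟩ := exists_fullyNormalized_map hS hF (hRP.trans hPS)
  have hPNR : P ≤ normalizerIn S (thompsonSubgroupAOf P) := le_inf hPS hPnR
  obtain ⟨P', hP'⟩ := (hψN.restrict hPNR).exists_iso
  have hP'TC : TC F T P' := hTC.conj hT hP'.isConj
  have hR'J : R' = thompsonSubgroupAOf P' := by
    ext y
    constructor
    · intro hy
      obtain ⟨x, hx, rfl⟩ := hψ.mem_iff.1 hy
      exact (FusionJ.mem_J_iff hP' (hRP hx)).1 hx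
    · intro hy
      obtain ⟨x, hx, rfl⟩ := hP'.mem_iff.1 (FusionJ.J_le P' hy)
      exact hψ.mem ((FusionJ.mem_J_iff hP' hx).2 hy)
  have hP'f : Finite P' := finite_of_le hP'.le_right
  have hR'P' : R' ≤ P' := by rw [hR'J]; exact FusionJ.J_le P'
  have hP'T : P' ≤ T := hP'TC.1
  have hP'n : P' ≤ Subgroup.normalizer (R' : Set Ω) := by
    rw [hR'J]; exact le_trans Subgroup.le_normalizer (FusionJ.normalizer_le P')
  have hCP' : centralizerIn T R' ≤ P' := by
    by_contra hne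
    have hn : P' ≤ Subgroup.normalizer (centralizerIn T R' : Set Ω) := by
      have key : ∀ s ∈ P', ∀ y ∈ centralizerIn T R', s * y * s⁻¹ ∈ centralizerIn T R' := by
        intro s hs y hy
        have hsT := hP'T hs
        refine ⟨T.mul_mem (T.mul_mem hsT hy.1) (T.inv_mem hsT), ?_⟩
        show s * y * s⁻¹ ∈ _
        refine mem_centralizer_iff'.2 fun z hz => ?_
        have h1 := (Subgroup.mem_normalizer_iff.1 (Subgroup.inv_mem _ (hP'n hs)) z).1 hz
        have h2 := mem_centralizer_iff'.1 hy.2 _ h1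
        calc s * y * s⁻¹ * z * (s * y * s⁻¹)⁻¹ = s * (y * (s⁻¹ * z * s⁻¹⁻¹) * y⁻¹) * s⁻¹ := by group
          _ = z := by rw [h2]; group
      intro s hs
      refine Subgroup.mem_normalizer_iff.2 fun y => ⟨key s hs y, fun hy => ?_⟩
      have := key s⁻¹ (P'.inv_mem hs) _ hy
      have e : s⁻¹ * (s * y * s⁻¹) * s⁻¹⁻¹ = y := by group
      rwa [e] at this
    have hlt : P' < P' ⊔ centralizerIn T R' := lt_of_le_of_ne le_sup_left fun h => hne
      ((le_sup_right : centralizerIn T R' ≤ P' ⊔ centralizerIn T R').trans h.ge)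
    have hMT : P' ⊔ centralizerIn T R' ≤ T := sup_le hP'T (centralizerIn_le _ _)
    have hlt2 := lt_normalizerIn hTp hMT hlt
    obtain ⟨y, hy, hyP⟩ := SetLike.exists_of_lt hlt2
    obtain ⟨x, hx, c, hc, hxc⟩ : ∃ x ∈ P', ∃ c ∈ centralizerIn T R', y = x * c := by
      have h1 : y ∈ ((P' ⊔ centralizerIn T R' : Subgroup Ω) : Set Ω) := hy.1
      rw [Subgroup.coe_mul_of_left_le_normalizer_right P' (centralizerIn T R') hn] at h1
      obtain ⟨x, hx, c, hc, h2⟩ := h1
      exact ⟨x, hx, c, hc, h2.symm⟩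
    have hcP : c ∉ P' := fun h => hyP (by rw [hxc]; exact P'.mul_mem hx h)
    have hcn : c ∈ Subgroup.normalizer (P' : Set Ω) := by
      have h1 : c = x⁻¹ * y := by rw [hxc]; group
      rw [h1]
      exact Subgroup.mul_mem _ (Subgroup.inv_mem _ (Subgroup.le_normalizer hx)) hy.2
    obtain ⟨θ, hθ, hθN, hθN'⟩ := exists_map_to_fullyNormalized hS hF hP (isConj_symm hP'.isConj)
    have hcN : c ∈ normalizerIn S P' := ⟨hTS hc.1, hcn⟩
    have hθc : θ c ∈ normalizerIn T P := map_normalizer_inf hT hθN hθN' c ⟨hc.1, hcn⟩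
    have hP'N : P' ≤ normalizerIn S P' := le_normalizerIn hP'.le_right
    have h3 : θ c ∈ thompsonSubgroupAOf (normalizerIn T P) := by
      refine FusionJ.centralizer_le _ ⟨hθc, mem_centralizer_iff'.2 fun z hz => ?_⟩
      rw [← hJeq] at hz
      obtain ⟨w, hw, rfl⟩ := hθ.mem_iff.1 (hRP hz)
      have hw2 : w ∈ R' := by rw [hR'J]; exact (FusionJ.mem_J_iff hθ hw).2 hz
      rw [← hθN.map_conj hcN (hP'N hw), mem_centralizer_iff'.1 hc.2 w hw2]
    obtain ⟨w, hw, hwc⟩ := hθ.mem_iff.1 (hJ h3)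
    have := hθN.inj (hP'N hw) hcN hwc
    exact hcP (this ▸ hw)
  have hCR' : centralizerIn T R' ≤ R' := by
    intro c hc
    rw [hR'J]
    refine FusionJ.centralizer_le P' ⟨hCP' hc, ?_⟩
    rw [← hR'J]; exact hc.2
  have hR'T : R' ≤ T := hR'P'.trans hP'T
  have hR'En := fullyNormalized_sub hS hF hT hE.sub hR'T hR'
  have hR'Ec := fullyCentralized_of_fullyNormalized hTp hEs hR'En
  have h1 := (centric_iff_tc hE).1 ((isCentric_iff_of_fullyCentralized hR'Ec).2 hCR')
  exact h1.conj hT (isConj_symm hψ.isConj)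

/-- the fixed points of the good automorphisms at `J(T)` -/
def C0 (F : FusionSystem S) (E : FusionSystem T) (p : ℕ) : Subgroup Ω where
  carrier := {c | c ∈ centralizerIn S T ∧ ∀ a, Good F E p (thompsonSubgroupAOf T) a → a c = c}
  one_mem' := ⟨Subgroup.one_mem _, fun a ha => ha.pp.map.map_one⟩
  mul_mem' := by
    rintro x y ⟨hx, hx'⟩ ⟨hy, hy'⟩
    refine ⟨Subgroup.mul_mem _ hx hy, fun a ha => ?_⟩
    have hle : centralizerIn S T ≤ thompsonSubgroupAOf T ⊔ centralizerIn S (thompsonSubgroupAOf T) :=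
      (cent_le_of_le (FusionJ.J_le T)).trans le_sup_right
    rw [ha.pp.map.map_mul (hle hx) (hle hy), hx' a ha, hy' a ha]
  inv_mem' := by
    rintro x ⟨hx, hx'⟩
    refine ⟨Subgroup.inv_mem _ hx, fun a ha => ?_⟩
    have hle : centralizerIn S T ≤ thompsonSubgroupAOf T ⊔ centralizerIn S (thompsonSubgroupAOf T) :=
      (cent_le_of_le (FusionJ.J_le T)).trans le_sup_right
    rw [ha.pp.map.map_inv (hle hx), hx' a ha]

theorem C0_le : C0 F E p ≤ centralizerIn S T := fun _ h => h.1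

theorem fullyNormalized_JT [Finite S] (hT : F.StronglyClosed T) : F.IsFullyNormalized (thompsonSubgroupAOf T) :=
  fullyNormalized_of_normalizes ((FusionJ.J_le T).trans hT.1)
    ((normalizes_of_stronglyClosed hT).trans (FusionJ.normalizer_le T))

theorem C0_tinv [Finite S] [Fact p.Prime] (hS : IsPGroup p S) (hF : F.IsSaturated p) (hE : Inv E F) :
    Tinv F T (C0 F E p) := by
  intro b hb c hc
  have hT := hE.closed
  have hTS := hT.1
  have hTf : Finite T := finite_of_le hTS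
  obtain ⟨J, hJ⟩ : ∃ J, J = thompsonSubgroupAOf T := ⟨_, rfl⟩
  have hJT : J ≤ T := by rw [hJ]; exact FusionJ.J_le T
  have hJn : F.IsFullyNormalized J := by rw [hJ]; exact fullyNormalized_JT hT
  have hJS : J ≤ S := hJT.trans hTS
  have hTle : T ≤ T ⊔ centralizerIn S T := le_sup_left
  have hCle : centralizerIn S T ≤ T ⊔ centralizerIn S T := le_sup_right
  have hbT : ∀ x ∈ T, b x ∈ T := fun x hx => StronglyClosed.map_mem F hT hb.1 (hTle hx) hx
  have hbTi : FIso F T T b := fiso_restrict hb.1 hTle hbT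
  have hbc : b c ∈ centralizerIn S T := mem_cent_of_fmap hbTi hb.1 hTle (hCle hc.1) hc.1
  refine ⟨hbc, fun a ha => ?_⟩
  rw [← hJ] at ha
  have hbJ : ∀ x ∈ J, b x ∈ J := fun x hx => by
    rw [hJ] at hx ⊢
    exact (FusionJ.mem_J_iff hbTi (FusionJ.J_le T hx)).1 hx
  have hbJi : FIso F J J b := fiso_restrict hb.1 (hJT.trans hTle) hbJ
  obtain ⟨k, hk, hk1, hk2⟩ := exists_extension_centralizer (receptive_of_fullyNormalized hS hF hJn) hbJi
  have hJQ : J ≤ J ⊔ centralizerIn S J := le_sup_left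
  have hCQ : centralizerIn S J ≤ J ⊔ centralizerIn S J := le_sup_right
  have hki : FIso F (J ⊔ centralizerIn S J) (J ⊔ centralizerIn S J) k := hk.fiso_of_card hk.le
    (map_sup_mem hk (fun x hx => hJQ (by rw [hk1 x hx]; exact hbJ x hx)) (fun x hx => hCQ (hk2 x hx))) le_rfl
  have hkJ : FIso F J J k := fiso_restrict hk hJQ (fun x hx => by rw [hk1 x hx]; exact hbJ x hx)
  obtain ⟨k', hk', e1, e2⟩ := hki.symm
  have hk'J : FIso F J J k' := fiso_restrict hk'.1 hJQ (fun x hx => by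
    obtain ⟨y, hy, rfl⟩ := hkJ.mem_iff.1 hx
    rw [e1 y (hJQ hy)]; exact hy)
  have hcJ : c ∈ centralizerIn S J := cent_le_of_le hJT hc.1
  have hbcJ : b c ∈ centralizerIn S J := cent_le_of_le hJT hbc
  have hkc : k c ∈ centralizerIn S J := hk2 c hcJ
  -- the transported good automorphism
  have hgood : Good F E p J (fun y => k' (a (k y))) := by
    refine ⟨?_, ha.pp.transport hk' hki (fun x hx => e2 x hx) (fun y hy => e1 y hy), fun x hx => ?_, fun d hd => ?_⟩
    · exact (FusionFrat.Inv.strong hE).transport hJT hk'J (fun x hx => e2 x (hJQ hx)) (ha.iso hJT hTS)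
    · exact hk'J.mem (ha.maps _ (hkJ.mem hx))
    · show d⁻¹ * k' (a (k d)) ∈ J
      have h1 := ha.mod (k d) (hk2 d hd)
      have h2 := hk'J.mem h1
      have h3 : k d ∈ J ⊔ centralizerIn S J := hki.mem (hCQ hd)
      rw [hk'.1.map_mul (Subgroup.inv_mem _ h3) (ha.pp.mem h3), hk'.1.map_inv h3, e1 d (hCQ hd)] at h2
      exact h2
  have h1 := hc.2 _ (hJ ▸ hgood)
  have h1' : k' (a (k c)) = c := h1
  have hkcQ := hCQ hkc
  have hakc : a (k c) = k c := by
    rw [← e2 _ (ha.pp.mem hkcQ), h1']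
  -- compare `k c` and `b c`
  have hzle : Subgroup.zpowers (k c) ≤ centralizerIn S J := by rw [Subgroup.zpowers_le]; exact hkc
  have hdom : Subgroup.zpowers (k c) ⊔ J ≤ J ⊔ centralizerIn S J := sup_le (hzle.trans hCQ) hJQ
  have hk'z : ∀ j : ℤ, k' ((k c) ^ j) = c ^ j := fun j => by
    rw [hk'.1.map_zpow hkcQ, e1 c (hCQ hcJ)]
  have s1 : FMap F (Subgroup.zpowers (k c) ⊔ J) k' := hk'.1.restrict hdom
  have s1m : ∀ x ∈ Subgroup.zpowers (k c) ⊔ J, k' x ∈ T ⊔ centralizerIn S T := map_sup_mem s1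
    (fun x hx => by
      obtain ⟨j, rfl⟩ := Subgroup.mem_zpowers_iff.1 hx
      rw [hk'z]; exact Subgroup.zpow_mem _ (hCle hc.1) j)
    (fun x hx => hTle (hJT (hk'J.mem hx)))
  have s2 : FMap F (Subgroup.zpowers (k c) ⊔ J) (fun x => b (k' x)) := s1.comp hb.1 s1m
  have hJid : ∀ x ∈ J, b (k' x) = x := fun x hx => by
    rw [← hk1 _ (hk'J.mem hx), e2 x (hJQ hx)]
  have hm : FMap (centSys F J hJS) (Subgroup.zpowers (k c)) (fun x => b (k' x)) := by
    refine fmap_centSys.2 ⟨hzle, fun x hx => ?_, _, s2, fun _ _ => rfl, hJid⟩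
    obtain ⟨j, rfl⟩ := Subgroup.mem_zpowers_iff.1 hx
    show b (k' ((k c) ^ j)) ∈ _
    rw [hk'z, hb.1.map_zpow (hCle hc.1)]
    exact Subgroup.zpow_mem _ hbcJ j
  have hzeta := zeta_const hS hF (fullyCentralized_of_fullyNormalized hS hF hJn) ha.pp ha.maps ha.mod _ _ hm (k c)
    (Subgroup.mem_zpowers _)
  have h2 : (b (k' (k c)))⁻¹ * a (b (k' (k c))) = (k c)⁻¹ * a (k c) := hzeta
  rw [e1 c (hCQ hcJ), hakc, inv_mul_cancel] at h2
  exact (inv_mul_eq_one.1 h2).symm

end Cfsg.Agent.Lib.H34CfpFus
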