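import Mathlib
import Cfsg.Agent.Lib.H34CfpFus4

/-!
# Normal subsystems with small centralizer, odd primes: conclusion (helper34)
-/

set_option autoImplicit false

universe u

namespace Cfsg.Agent.Lib.H34CfpFus

open Cfsg Cfsg.FusionSystem Cfsg.Agent.Lib.FusionBasic Cfsg.Agent.Lib.FusionSat Cfsg.Agent.Lib.FusionNormal
  Cfsg.Agent.Lib.FusionInvar Cfsg.Agent.Lib.FusionTools Cfsg.Agent.Lib.FusionPP Cfsg.Agent.Lib.FusionStrong
  Cfsg.Agent.Lib.FusionSys Cfsg.Agent.Lib.FusionFrat Cfsg.Agent.Lib.FusionPrime Cfsg.Agent.Lib.FusionTC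
  Cfsg.Agent.Lib.FusionClosed Cfsg.Agent.Lib.FusionStab Cfsg.Agent.Lib.FusionZeta

variable {Ω : Type u} [Group Ω] {S T : Subgroup Ω} {F : FusionSystem S} {E : FusionSystem T} {P Q R U M X Y Z : Subgroup Ω}
  {a b f g : Ω → Ω} {p n : ℕ}

/-- a `T`-centric subgroup with a `p'`-automorphism in `E` not extending to a map fixing `Y` -/
def Bad (F : FusionSystem S) (E : FusionSystem T) (p : ℕ) (Y R : Subgroup Ω) : Prop :=
  TC F T R ∧ ∃ α, PP F p R α ∧ FMap E R α ∧ ¬ Fix F Y R α

theorem fix_mono (h : Fix F Y P f) (hZ : Z ≤ Y) : Fix F Z P f := by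
  obtain ⟨k, h1, h2, h3⟩ := h
  exact ⟨k, h1.restrict (sup_le_sup_left hZ _), h2, fun y hy => h3 y (hZ hy)⟩

/-- Above the bad subgroups all maps of `E` extend. -/
theorem fix_of_card [Finite S] [Fact p.Prime] (hS : IsPGroup p S) (hEs : E.IsSaturated p)
    (hE : Inv E F) (hY : Y ≤ centralizerIn S T) (hn : ∀ R, Bad F E p Y R → Nat.card R ≤ n) :
    ∀ P f, FMap E P f → n < Nat.card P → Fix F Y P f := by
  have hT := hE.closed
  have hTS := hT.1
  have hTp := isPGroup_of_le hS hTS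
  have hTfin : Finite T := finite_of_le hTS
  have hYS : Y ≤ S := hY.trans (centralizerIn_le S T)
  have hYT : ∀ t ∈ T, ∀ y ∈ Y, t * y * t⁻¹ = y := fun t ht y hy => by
    have := (hY hy).2 t ht
    rw [this, mul_inv_cancel_right]
  refine rep_induction hTp hEs (fun P f => n < Nat.card P → Fix F Y P f) ?_ ?_ ?_ ?_ ?_
  · exact fun P f g _ hfg h h1 => fix_congr (h h1) hfg
  · intro P Q f hf hPQ h h1
    have : Finite Q := finite_of_le hf.le
    exact fix_restr (h (h1.trans_le (Nat.card_le_card_of_injective _ (Subgroup.inclusion_injective hPQ)))) hPQ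
  · intro P Q f g hf _ h1 h2 h3
    exact fix_comp (fun x hx => hf.mem hx) (h1 h3) (h2 (by rw [← hf.card_eq]; exact h3))
  · intro P Q f g hf _ hgf h1 h2
    exact fix_inv (fun y hy => hf.mem_iff.1 hy) hgf (h1 (by rw [hf.card_eq]; exact h2))
  · intro P hPT
    obtain ⟨Q, hPQ, hQ⟩ := exists_fullyNormalized_conj E hPT
    have hQT := hQ.1
    refine ⟨Q, hPQ, hQ, fun f hf hbig hnQ => ?_⟩
    by_cases hTC : TC F T Q
    · have hQa := fullyAutomized_of_fullyNormalized hTp hEs hQ
      refine fiso_induction hQa (fun f => Fix F Y Q f) (fun f g h hfg => fix_congr h hfg) ?_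
        (fun f g hf _ h1 h2 => fix_comp (fun x hx => hf.mem hx) h1 h2)
        (fun f g hf _ h1 hgf _ => fix_inv (fun y hy => hf.mem_iff.1 hy) hgf h1) ?_ f hf
      · intro t ht
        exact ⟨fun x => t * x * t⁻¹, fmap_conj F (sup_le (hQT.trans hTS) hYS) (hTS ht.1), fun _ _ => rfl,
          fun y hy => hYT t ht.1 y hy⟩
      · intro φ hφ
        by_contra hcon
        have := hn Q ⟨hTC, φ, pp_sub hE.sub hφ, hφ.1.1, hcon⟩
        omega
    · have hQr := receptive_of_fullyNormalized hTp hEs hQ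
      have hQfc := fullyCentralized_of_fullyNormalized hTp hEs hQ
      have hnc : ¬ centralizerIn T Q ≤ Q := fun h => by
        have h1 := (isCentric_iff_of_fullyCentralized hQfc).2 h
        exact hTC ((centric_iff_tc hE).1 h1)
      obtain ⟨g, hg, hg1, -⟩ := exists_extension_centralizer hQr hf
      have hlt : Q < Q ⊔ centralizerIn T Q := lt_of_le_of_ne le_sup_left fun h => hnc
        ((le_sup_right : centralizerIn T Q ≤ Q ⊔ centralizerIn T Q).trans h.ge)
      have : Finite ↥(Q ⊔ centralizerIn T Q) := finite_of_le hg.le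
      have hc := card_lt hlt
      exact fix_congr (fix_restr (hbig _ g hc hg (hnQ.trans hc)) le_sup_left) hg1

/-- Transport of bad subgroups. -/
theorem bad_transport [Finite S] [Fact p.Prime] (hS : IsPGroup p S) (hF : F.IsSaturated p)
    (hE : Inv E F) (hY : Y ≤ centralizerIn S T) (hYinv : Tinv F T Y)
    (hn : ∀ P f, FMap E P f → n < Nat.card P → Fix F Y P f) (hR : Bad F E p Y R) (hnR : n < Nat.card (normalizerIn T R))
    (hR' : F.IsFullyNormalized Q) (hRQ : F.IsConj R Q) : Bad F E p Y Q := by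
  have hT := hE.closed
  have hTS := hT.1
  have hTfin : Finite T := finite_of_le hTS
  have hstr := FusionFrat.Inv.strong hE
  obtain ⟨hTC, α, hα, hαE, hαf⟩ := hR
  have hRT := hTC.1
  have hTCQ := hTC.conj hT hRQ
  obtain ⟨ρ, hρ, hρN, hρN'⟩ := exists_map_to_fullyNormalized hS hF hR' hRQ
  obtain ⟨ρ', hρ', e1, e2⟩ := hρ.symm
  have hNN : normalizerIn T R ≤ normalizerIn S R := inf_le_inf_right _ hTS
  have hNT : normalizerIn T R ≤ T := normalizerIn_le T R
  obtain ⟨β, η, hβ, hη, h1⟩ := hE.frattini hNT (hρN.restrict hNN)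
  have hRN : R ≤ normalizerIn T R := le_normalizerIn hRT
  have hηR : FMap E R η := hη.restrict hRN
  obtain ⟨R'', hR''⟩ := hηR.exists_iso
  have hR''T : R'' ≤ T := hR''.le_right
  have hβR : FIso F R'' Q β := by
    refine ⟨hβ.1.restrict hR''T, fun y => ⟨fun hy => ?_, ?_⟩⟩
    · obtain ⟨x, hx, rfl⟩ := hρ.mem_iff.1 hy
      exact ⟨η x, hR''.mem hx, (h1 x (hRN hx)).symm⟩
    · rintro ⟨z, hz, rfl⟩
      obtain ⟨x, hx, rfl⟩ := hR''.mem_iff.1 hz
      rw [← h1 x (hRN hx)]; exact hρ.mem hx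
  obtain ⟨γ, hγ, hγ1, hγ2⟩ := exists_aut_ext hS hF hT hβ
  obtain ⟨γ', hγ', g1, g2⟩ := hγ.symm
  have hTle : T ≤ T ⊔ centralizerIn S T := le_sup_left
  have hYle : Y ≤ T ⊔ centralizerIn S T := hY.trans le_sup_right
  have hαi : FIso E R R α := hαE.fiso_of_card hRT (fun x hx => hα.mem hx) le_rfl
  refine ⟨hTCQ, fun y => ρ (α (ρ' y)), hα.transport hρ hρ' e1 e2, hstr.transport hRT hρ e1 hαi, fun hfix => hαf ?_⟩
  -- transport back
  have hQT : Q ≤ T := hTCQ.1
  have hγQ : FIso F Q R'' γ' := by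
    refine ⟨hγ'.1.restrict (hQT.trans hTle), fun y => ⟨fun hy => ?_, ?_⟩⟩
    · exact ⟨β y, hβR.mem hy, by rw [← hγ1 y (hR''T hy), g1 y (hTle (hR''T hy))]⟩
    · rintro ⟨z, hz, rfl⟩
      obtain ⟨w, hw, rfl⟩ := hβR.mem_iff.1 hz
      rw [← hγ1 w (hR''T hw), g1 w (hTle (hR''T hw))]; exact hw
  have hfix2 : Fix F Y R'' (fun y => γ' (ρ (α (ρ' (γ y))))) := by
    refine fix_transport (Y := Y) (Z := Y) (a := fun y => ρ (α (ρ' y))) (g := γ) hγQ (hγ'.1.restrict (sup_le (hQT.trans hTle) hYle)) ?_ ?_ ?_ hfix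
    · intro z
      constructor
      · intro hz
        exact ⟨γ z, hYinv γ hγ z hz, g1 z (hYle hz)⟩
      · rintro ⟨y, hy, rfl⟩
        exact hYinv γ' hγ' y hy
    · intro x hx
      exact hρ.mem (hα.mem (hρ'.mem hx))
    · intro x hx
      exact g2 x (hTle (hQT hx))
  obtain ⟨η', hη', f1, f2⟩ := hR''.symm
  have hfη : Fix F Y R η := fix_restr (hn _ η hη hnR) hRN
  have hfη' : Fix F Y R'' η' := fix_inv (fun y hy => hR''.mem_iff.1 hy) (fun x hx => f1 x hx) hfη
  have hγρ : ∀ x ∈ R, γ (η x) = ρ x := fun x hx => by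
    rw [hγ1 _ (hR''T (hR''.mem hx)), h1 x (hRN hx)]
  have hm : ∀ x ∈ R'', γ' (ρ (α (ρ' (γ x)))) ∈ R'' := by
    intro x hx
    obtain ⟨y, hy, rfl⟩ := hR''.mem_iff.1 hx
    rw [hγρ y hy, e1 y hy]
    exact hγQ.mem (hρ.mem (hα.mem hy))
  have hc1 : Fix F Y R (fun x => γ' (ρ (α (ρ' (γ (η x)))))) :=
    fix_comp (f := η) (g := fun y => γ' (ρ (α (ρ' (γ y))))) (fun x hx => hR''.mem hx) hfη hfix2
  refine fix_congr (fix_comp (Q := R'') (f := fun x => γ' (ρ (α (ρ' (γ (η x)))))) (g := η')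
    (fun x hx => hm _ (hR''.mem hx)) hc1 hfη') ?_
  intro x hx
  show η' (γ' (ρ (α (ρ' (γ (η x)))))) = α x
  rw [hγρ x hx, e1 x hx, ← hγρ _ (hα.mem hx), g1 _ (hTle (hR''T (hR''.mem (hα.mem hx)))), f1 _ (hα.mem hx)]

/-- `J(T)` is not bad for the fixed points of the good automorphisms at `J(T)`. -/
theorem not_bad_JT [Finite S] [Fact p.Prime] (hS : IsPGroup p S) (hF : F.IsSaturated p) (hEs : E.IsSaturated p)
    (hE : Inv E F) (hx : Ext E F) : ¬ Bad F E p (C0 F E p) (thompsonSubgroupAOf T) := by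
  rintro ⟨hTC, α, hα, hαE, hαf⟩
  obtain ⟨a, ha, h1⟩ := exists_good hS hF hEs hE hx hTC hα hαE
  apply hαf
  refine ⟨a, ha.pp.map.restrict (sup_le_sup_left (C0_le.trans (cent_le_of_le hTC.1)) _), h1, fun y hy => hy.2 a ha⟩

/-- There are no bad subgroups. -/
theorem no_bad [Finite S] [Fact p.Prime] (hp : p ≠ 2) (hS : IsPGroup p S) (hF : F.IsSaturated p) (hEs : E.IsSaturated p)
    (hE : Inv E F) (hx : Ext E F) : ∀ R, ¬ Bad F E p (C0 F E p) R := by
  have hT := hE.closed
  have hTS := hT.1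
  have hTp := isPGroup_of_le hS hTS
  have hTf : Finite T := finite_of_le hTS
  have hYT : C0 F E p ≤ centralizerIn S T := C0_le
  have hYinv : Tinv F T (C0 F E p) := C0_tinv hS hF hE
  have cardle : ∀ {R : Subgroup Ω}, R ≤ T → Nat.card R ≤ Nat.card T := fun hR =>
    Nat.card_le_card_of_injective _ (Subgroup.inclusion_injective hR)
  intro R₀ hR₀
  obtain ⟨P₀, hP₀, hmax₀⟩ := exists_max (fun R => Bad F E p (C0 F E p) R) (fun R => Nat.card R) (Nat.card T)
    (fun R hR => cardle hR.1.1) ⟨R₀, hR₀⟩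
  have hclaim := fix_of_card (n := Nat.card P₀) hS hEs hE hYT hmax₀
  have hTn : normalizerIn T T = T := inf_eq_left.2 Subgroup.le_normalizer
  have hnorm : ∀ R : Subgroup Ω, R ≤ T → R ≠ T → R < normalizerIn T R := fun R hR hne =>
    lt_normalizerIn hTp le_rfl (lt_of_le_of_ne hR hne)
  -- the class of subgroups considered
  obtain ⟨R, ⟨hRb, hRs⟩, hRmax⟩ := exists_max
    (fun R => Bad F E p (C0 F E p) R ∧ (R = T ∨ Nat.card P₀ < Nat.card (normalizerIn T R)))
    (fun R => Nat.card (normalizerIn T R) * (Nat.card T + 1) + Nat.card R) (Nat.card T * (Nat.card T + 1) + Nat.card T)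
    (fun R hR => Nat.add_le_add (Nat.mul_le_mul_right _ (cardle (normalizerIn_le T R))) (cardle hR.1.1.1))
    ⟨P₀, hP₀, by
      by_cases h : P₀ = T
      · exact Or.inl h
      · have : Finite ↥(normalizerIn T P₀) := finite_of_le ((normalizerIn_le T P₀).trans hTS)
        exact Or.inr (card_lt (hnorm P₀ hP₀.1.1 h))⟩
  -- pass to a fully normalized conjugate
  obtain ⟨P, hPb, hPs, hPn, hPmax⟩ : ∃ P, Bad F E p (C0 F E p) P ∧
      (P = T ∨ Nat.card P₀ < Nat.card (normalizerIn T P)) ∧ F.IsFullyNormalized P ∧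
      ∀ Q, Bad F E p (C0 F E p) Q → (Q = T ∨ Nat.card P₀ < Nat.card (normalizerIn T Q)) →
        Nat.card (normalizerIn T Q) * (Nat.card T + 1) + Nat.card Q ≤
        Nat.card (normalizerIn T P) * (Nat.card T + 1) + Nat.card P := by
    rcases hRs with h | h
    · refine ⟨R, hRb, Or.inl h, ?_, fun Q h1 h2 => hRmax Q ⟨h1, h2⟩⟩
      rw [h]; exact fullyNormalized_of_stronglyClosed hT
    · obtain ⟨Q, ρ, hQ, hρ, hρN, hρN'⟩ := exists_fullyNormalized_map hS hF (hRb.1.1.trans hTS)
      have hQb := bad_transport hS hF hE hYT hYinv hclaim hRb h hQ hρ.isConj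
      have hcard : Nat.card (normalizerIn T R) ≤ Nat.card (normalizerIn T Q) :=
        (hρN.restrict (inf_le_inf_right _ hTS)).card_image_le (map_normalizer_inf hT hρN hρN')
          ((normalizerIn_le T Q).trans hTS)
      refine ⟨Q, hQb, Or.inr (h.trans_le hcard), hQ, fun Q' h1 h2 => (hRmax Q' ⟨h1, h2⟩).trans ?_⟩
      have := hρ.card_eq
      exact Nat.add_le_add (Nat.mul_le_mul_right _ hcard) this.le
  have hTC := hPb.1
  have hPT := hTC.1
  have hPf : Finite P := finite_of_le (hPT.trans hTS)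
  have hNf : Finite ↥(normalizerIn T P) := finite_of_le ((normalizerIn_le T P).trans hTS)
  have hPc := fullyCentralized_of_fullyNormalized hS hF hPn
  have hPQ : P ≤ P ⊔ centralizerIn S P := le_sup_left
  have hYC : C0 F E p ≤ centralizerIn S P := hYT.trans (cent_le_of_le hPT)
  obtain ⟨-, α, hα, hαE, hαf⟩ := hPb
  obtain ⟨a, ha, ha1⟩ := exists_good hS hF hEs hE hx hTC hα hαE
  obtain ⟨c, hc, hac⟩ : ∃ c ∈ C0 F E p, a c ≠ c := by
    by_contra hcon
    push Not at hcon
    exact hαf ⟨a, ha.pp.map.restrict (sup_le_sup_left hYC _), ha1, hcon⟩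
  obtain ⟨a', b, ha', hac', hb, hba, hbJ⟩ := glau hp hS hF hEs hE hTC hPn hc.1 ha hac
  obtain ⟨J, hJ⟩ : ∃ J, J = thompsonSubgroupAOf (normalizerIn T P) := ⟨_, rfl⟩
  have hJN : J ≤ normalizerIn T P := by rw [hJ]; exact FusionJ.J_le _
  have hJT : J ≤ T := hJN.trans (normalizerIn_le T P)
  have hNJ : normalizerIn T P ≤ Subgroup.normalizer (J : Set Ω) := by
    rw [hJ]; exact le_trans Subgroup.le_normalizer (FusionJ.normalizer_le _)
  rw [← hJ] at hb hbJ
  have hPN : P ≤ normalizerIn T P := le_normalizerIn hPT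
  have hPcard : P ≠ T → Nat.card P₀ < Nat.card (normalizerIn T P) := fun h => hPs.resolve_left h
  by_cases hJP : J ≤ P
  · -- `J(N_T(P)) ≤ P`
    have hJeq : thompsonSubgroupAOf P = J := by
      rw [hJ]; rw [hJ] at hJP; exact FusionJ.J_eq_of_le hPN hJP
    have hJTC : TC F T J := by
      rw [← hJeq]
      rw [hJ] at hJP
      exact tc_J hS hF hEs hE hTC hPn hJP
    have ha'J : ∀ x ∈ J, a' x ∈ J := fun x hx => by
      rw [← hba x (hJP hx)]; exact hbJ x hx
    have hZJ : P ⊓ centralizerIn S P ≤ J := by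
      rintro x ⟨hx1, hx2⟩
      rw [← hJeq]
      exact FusionJ.centralizer_le P ⟨hx1, Subgroup.centralizer_le (FusionJ.J_le P) hx2.2⟩
    have hJb : ¬ Bad F E p (C0 F E p) J := by
      by_cases hN : normalizerIn T P = T
      · rw [hJ, hN]; exact not_bad_JT hS hF hEs hE hx
      · intro hbad
        have hNT : normalizerIn T P < T := lt_of_le_of_ne (normalizerIn_le T P) hN
        have hPne : P ≠ T := fun h => hN (by rw [h]; exact hTn)
        have h2 := lt_normalizerIn hTp le_rfl hNT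
        have h3 : normalizerIn T (normalizerIn T P) ≤ normalizerIn T J := by
          intro x hx
          refine ⟨hx.1, ?_⟩
          rw [hJ]; exact FusionJ.normalizer_le _ hx.2
        have hf2 : Finite ↥(normalizerIn T (normalizerIn T P)) := finite_of_le ((normalizerIn_le T _).trans hTS)
        have hf3 : Finite ↥(normalizerIn T J) := finite_of_le ((normalizerIn_le T _).trans hTS)
        have h4 : Nat.card (normalizerIn T P) < Nat.card (normalizerIn T J) :=
          (card_lt h2).trans_le (Nat.card_le_card_of_injective _ (Subgroup.inclusion_injective h3))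
        have h5 := hPmax J hbad (Or.inr ((hPcard hPne).trans h4))
        have h6 := cardle hPT
        have h7 : (Nat.card (normalizerIn T P) + 1) * (Nat.card T + 1) ≤
            Nat.card (normalizerIn T J) * (Nat.card T + 1) := Nat.mul_le_mul_right _ h4
        have h8 : (Nat.card (normalizerIn T P) + 1) * (Nat.card T + 1) =
            Nat.card (normalizerIn T P) * (Nat.card T + 1) + (Nat.card T + 1) := by ring
        omega
    have hfix : Fix F (C0 F E p) J a' := by
      by_contra hcon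
      exact hJb ⟨hJTC, a', ha'.pp.restrict (hJP.trans hPQ) ha'J, ha'.fmap.restrict hJP, hcon⟩
    exact hac' (comp_fix hS hF hEs hE hx hTC hPn ha' hJP hJTC ha'J hZJ hc.1
      (fix_mono hfix (by rw [Subgroup.zpowers_le]; exact hc)))
  · -- `P < P J(N_T(P))`
    have hRT : P ⊔ J ≤ T := sup_le hPT hJT
    have hRN : P ⊔ J ≤ normalizerIn T P := sup_le hPN hJN
    have hRf : Finite ↥(P ⊔ J) := finite_of_le (hRT.trans hTS)
    have hRTC : TC F T (P ⊔ J) := hTC.mono hT le_sup_left hRT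
    have hlt : P < P ⊔ J := lt_of_le_of_ne le_sup_left fun h => hJP
      ((le_sup_right : J ≤ P ⊔ J).trans h.ge)
    have hbP : FMap E P b := ha'.fmap.congr fun x hx => (hba x hx).symm
    have hbE : FMap E (P ⊔ J) b := pp_E hS hF hEs hE hTC hPn le_sup_left hRN hb hbP
      (fun x hx => by rw [hba x hx]; exact ha'.maps x hx)
    have hRb : ¬ Bad F E p (C0 F E p) (P ⊔ J) := by
      intro hbad
      have hPne : P ≠ T := by
        intro h
        apply hJP
        rw [h]; exact hJT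
      have h3 : normalizerIn T P ≤ normalizerIn T (P ⊔ J) := by
        intro x hx
        refine ⟨hx.1, ?_⟩
        have h4 : x ∈ Subgroup.normalizer (P : Set Ω) ⊓ Subgroup.normalizer (J : Set Ω) := ⟨hx.2, hNJ hx⟩
        exact Subgroup.normalizer_inf_normalizer_le_normalizer_sup _ _ h4
      have hf3 : Finite ↥(normalizerIn T (P ⊔ J)) := finite_of_le ((normalizerIn_le T _).trans hTS)
      have h4 : Nat.card (normalizerIn T P) ≤ Nat.card (normalizerIn T (P ⊔ J)) :=
        Nat.card_le_card_of_injective _ (Subgroup.inclusion_injective h3)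
      have h5 := hPmax _ hbad (Or.inr ((hPcard hPne).trans_le h4))
      have h6 := card_lt hlt
      have h7 : Nat.card (normalizerIn T P) * (Nat.card T + 1) ≤
          Nat.card (normalizerIn T (P ⊔ J)) * (Nat.card T + 1) := Nat.mul_le_mul_right _ h4
      omega
    have hfix : Fix F (C0 F E p) (P ⊔ J) b := by
      by_contra hcon
      exact hRb ⟨hRTC, b, hb, hbE, hcon⟩
    have hfixP : Fix F (C0 F E p) P a' := fix_congr (fix_restr hfix le_sup_left) hba
    exact hac' (fixed_of_fix hS hF hPc ha'.pp ha'.maps ha'.mod hYC hfixP c hc)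

/-- `E` is centralized by the fixed points of the good automorphisms at `J(T)`. -/
theorem cen_C0 [Finite S] [Fact p.Prime] (hp : p ≠ 2) (hS : IsPGroup p S) (hF : F.IsSaturated p) (hEs : E.IsSaturated p)
    (hE : Inv E F) (hx : Ext E F) : Cen F E (C0 F E p) := by
  refine ⟨C0_le, fun P f hf => ?_⟩
  have hPf : Finite P := finite_of_le (sub_fmap hE.sub hf).le
  exact fix_of_card (n := 0) hS hEs hE C0_le (fun R hR => (no_bad hp hS hF hEs hE hx R hR).elim) P f hf Nat.card_pos

/-- **Main theorem.** -/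
theorem cent_le [Finite S] [Fact p.Prime] (hS : IsPGroup p S) (hF : F.IsSaturated p) (hEs : E.IsSaturated p)
    (hE : Inv E F) (h : C0 F E p ≤ T) : centralizerIn S T ≤ T := by
  have hT := hE.closed
  have hTS := hT.1
  have hTf : Finite T := finite_of_le hTS
  intro c hc
  have hJn := fullyNormalized_JT (T := T) hT
  have hTn : normalizerIn T T = T := inf_eq_left.2 Subgroup.le_normalizer
  have hTCJ : TC F T (thompsonSubgroupAOf T) := tc_J hS hF hEs hE (tc_top hT) (fullyNormalized_of_stronglyClosed hT)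
    (by rw [hTn]; exact FusionJ.J_le T)
  have hN : T ≤ normalizerIn T (thompsonSubgroupAOf T) :=
    le_inf le_rfl (le_trans Subgroup.le_normalizer (FusionJ.normalizer_le T))
  obtain ⟨z, hzJ, hzC, hzT, hza⟩ := avgF hS hF hEs hE hTCJ hJn hc
  have hzTT : z ∈ T := hTCJ.1 hzJ
  have hzCT : z ∈ centralizerIn S T := ⟨hTS hzTT, fun t ht => hzT t (hN ht)⟩
  have hcz : c * z ∈ C0 F E p := ⟨Subgroup.mul_mem _ hc hzCT, fun a ha => hza a ha⟩
  have := T.mul_mem (h hcz) (T.inv_mem hzTT)
  rwa [mul_inv_cancel_right] at this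

end Cfsg.Agent.Lib.H34CfpFus
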