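import Mathlib
set_option autoImplicit false

/-!
# Shift sequences in `p`-groups (Sims, Glauberman) (helper34)

`φ` an automorphism of a finite group, `P` a subgroup with `P ∩ φ(P)` normal of index `p` in `φ(P)`, and no
nontrivial normal subgroup of `P` invariant under `φ`.
-/

namespace Cfsg.Agent.Lib.H34Shift
open Subgroup
open scoped Pointwise commutatorElement

variable {G : Type*} [Group G]

theorem card_smul' (φ : MulAut G) (H : Subgroup G) : Nat.card ↥(φ • H) = Nat.card ↥H :=
  (Nat.card_congr (Subgroup.equivSMul φ H).toEquiv).symm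

/-- descending chain -/
def E (φ : MulAut G) (P : Subgroup G) : ℕ → Subgroup G
  | 0 => P
  | m + 1 => E φ P m ⊓ φ • E φ P m

theorem E_succ_le (φ : MulAut G) (P : Subgroup G) (m : ℕ) : E φ P (m + 1) ≤ E φ P m := inf_le_left
theorem E_succ_le' (φ : MulAut G) (P : Subgroup G) (m : ℕ) : E φ P (m + 1) ≤ φ • E φ P m := inf_le_right

theorem E_anti (φ : MulAut G) (P : Subgroup G) {m k : ℕ} (h : m ≤ k) : E φ P k ≤ E φ P m := by
  induction h with
  | refl => exact le_rfl
  | step _ ih => exact (E_succ_le φ P _).trans ih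

theorem E_le (φ : MulAut G) (P : Subgroup G) (m : ℕ) : E φ P m ≤ P := E_anti φ P (Nat.zero_le m)

/-- the hypotheses -/
structure Hyp [Finite G] (φ : MulAut G) (P : Subgroup G) (p : ℕ) : Prop where
  hp : p.Prime
  hN : ((P ⊓ φ • P).subgroupOf (φ • P)).Normal
  hidx : (P ⊓ φ • P).relIndex (φ • P) = p
  h1 : ∀ Q : Subgroup G, Q ≤ P → (Q.subgroupOf P).Normal → φ • Q = Q → Q = ⊥

variable [Finite G] {φ : MulAut G} {P : Subgroup G} {p : ℕ}

theorem eq_of_smul_le {H : Subgroup G} (h : φ • H ≤ H) : φ • H = H := by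
  apply SetLike.coe_injective
  apply Set.eq_of_subset_of_ncard_le h _ (Set.toFinite _)
  rw [← Nat.card_coe_set_eq, ← Nat.card_coe_set_eq]
  exact (card_smul' φ H).symm.le

theorem isPGroup (h : Hyp φ P p) : IsPGroup p ↥P := by
  have := Fact.mk h.hp
  have := h.hN
  set S : Set G := {x | x ∈ P ∧ (orderOf x).Coprime p} with hS
  set H := closure S with hH
  have hHP : H ≤ P := by
    rw [hH, closure_le]
    intro x hx
    exact hx.1
  have hinv : φ • H = H := by
    apply eq_of_smul_le
    rw [hH, Subgroup.smul_closure, closure_le]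
    rintro _ ⟨x, hx, rfl⟩
    apply Subgroup.subset_closure
    have hx1 : φ • x ∈ φ • P := Subgroup.smul_mem_pointwise_smul x φ P hx.1
    have hord : orderOf (φ • x) = orderOf x := MulEquiv.orderOf_eq φ x
    have hcop : (orderOf (φ • x)).Coprime p := by rw [hord]; exact hx.2
    refine ⟨?_, hcop⟩
    have h2 : (⟨φ • x, hx1⟩ : ↥(φ • P)) ^ p ∈ (P ⊓ φ • P).subgroupOf (φ • P) := by
      have := Subgroup.pow_index_mem ((P ⊓ φ • P).subgroupOf (φ • P)) (⟨φ • x, hx1⟩ : ↥(φ • P))
      have hi : ((P ⊓ φ • P).subgroupOf (φ • P)).index = p := h.hidx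
      rwa [hi] at this
    have h3 : (φ • x) ^ p ∈ P := (Subgroup.mem_subgroupOf.1 h2).1
    -- `φ • x` is a power of `(φ • x) ^ p`
    obtain ⟨k, hk⟩ := exists_pow_eq_self_of_coprime (x := φ • x) hcop.symm
    have h4 := P.pow_mem h3 k
    rw [hk] at h4
    exact h4
  have hnorm : (H.subgroupOf P).Normal := by
    constructor
    intro n hn q
    rw [Subgroup.mem_subgroupOf] at hn ⊢
    have hconj : (MulAut.conj (q : G)) • H ≤ H := by
      rw [hH, Subgroup.smul_closure, closure_le]
      rintro _ ⟨x, hx, rfl⟩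
      apply Subgroup.subset_closure
      refine ⟨?_, ?_⟩
      · change (q : G) * x * (q : G)⁻¹ ∈ P
        exact P.mul_mem (P.mul_mem q.2 hx.1) (P.inv_mem q.2)
      · have : orderOf ((MulAut.conj (q : G)) • x) = orderOf x := MulEquiv.orderOf_eq (MulAut.conj (q : G)) x
        show (orderOf ((MulAut.conj (q : G)) • x)).Coprime p
        rw [this]; exact hx.2
    exact hconj (Subgroup.smul_mem_pointwise_smul (n : G) (MulAut.conj (q : G)) H hn)
  have hbot := h.h1 H hHP hnorm hinv
  -- no nontrivial elements of order prime to `p`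
  rw [IsPGroup.iff_card]
  by_contra hcon
  have h0 : Nat.card ↥P ≠ 0 := Nat.card_pos.ne'
  obtain ⟨q, hq, hqd, hqp⟩ : ∃ q : ℕ, q.Prime ∧ q ∣ Nat.card ↥P ∧ q ≠ p := by
    by_contra hall
    push Not at hall
    apply hcon
    exact ⟨_, Nat.eq_prime_pow_of_unique_prime_dvd h0 (fun {d} hd hdd => hall d hd hdd)⟩
  have := Fact.mk hq
  obtain ⟨x, hx⟩ := exists_prime_orderOf_dvd_card' (G := ↥P) q hqd
  have hx1 : (x : G) ∈ H := by
    apply Subgroup.subset_closure
    refine ⟨x.2, ?_⟩
    rw [Subgroup.orderOf_coe, hx]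
    exact (Nat.coprime_primes hq h.hp).2 hqp
  rw [hbot, Subgroup.mem_bot] at hx1
  have : x = 1 := Subtype.ext hx1
  rw [this, orderOf_one] at hx
  exact hq.one_lt.ne hx

omit [Finite G] in
theorem isPGroup_smul {H : Subgroup G} (hH : IsPGroup p ↥H) (ψ : MulAut G) : IsPGroup p ↥(ψ • H) :=
  hH.of_equiv (Subgroup.equivSMul ψ H)

theorem isPGroup_E (h : Hyp φ P p) (m : ℕ) : IsPGroup p ↥(E φ P m) :=
  (isPGroup h).to_le (E_le φ P m)

theorem le_normalizer_of_relIndex (hp : p.Prime) {A W : Subgroup G} (hW : IsPGroup p ↥W)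
    (hi : A.relIndex W = p) : W ≤ Subgroup.normalizer ((A ⊓ W : Subgroup G) : Set G) := by
  have := Fact.mk hp
  have h1 : (A.subgroupOf W).Normal := by
    apply Subgroup.normal_of_index_eq_minFac_card
    have h2 : (A.subgroupOf W).index = p := hi
    rw [h2]
    obtain ⟨n, hn⟩ := IsPGroup.iff_card.1 hW
    rw [hn]
    have hn0 : n ≠ 0 := by
      rintro rfl
      have : p ∣ Nat.card ↥W := by rw [← h2]; exact Subgroup.index_dvd_card _
      rw [hn, pow_zero, Nat.dvd_one] at this
      exact hp.one_lt.ne' this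
    rw [Nat.Prime.pow_minFac hp hn0]
  intro w hw
  rw [Subgroup.mem_normalizer_iff]
  intro a
  constructor
  · rintro ⟨ha, haW⟩
    have := h1.conj_mem ⟨a, haW⟩ (Subgroup.mem_subgroupOf.2 ha) ⟨w, hw⟩
    exact ⟨Subgroup.mem_subgroupOf.1 this, W.mul_mem (W.mul_mem hw haW) (W.inv_mem hw)⟩
  · rintro ⟨ha, haW⟩
    have haW' : a ∈ W := by
      have := W.mul_mem (W.mul_mem (W.inv_mem hw) haW) hw
      have e : w⁻¹ * (w * a * w⁻¹) * w = a := by group
      rwa [e] at this
    have := h1.conj_mem ⟨w * a * w⁻¹, haW⟩ (Subgroup.mem_subgroupOf.2 ha) ⟨w⁻¹, W.inv_mem hw⟩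
    have h3 := Subgroup.mem_subgroupOf.1 this
    have e : w⁻¹ * (w * a * w⁻¹) * w⁻¹⁻¹ = a := by group
    refine ⟨?_, haW'⟩
    have h4 : w⁻¹ * (w * a * w⁻¹) * w⁻¹⁻¹ ∈ A := h3
    rwa [e] at h4

theorem relIndex_of_le {A W : Subgroup G} (h : A ≤ W) : A.relIndex W * Nat.card ↥A = Nat.card ↥W := by
  have h1 := Subgroup.relIndex_mul_relIndex ⊥ A W bot_le h
  rw [Subgroup.relIndex_bot_left, Subgroup.relIndex_bot_left] at h1
  rw [mul_comm]; exact h1

theorem step (hp : p.Prime) {A B W : Subgroup G} (hW : IsPGroup p ↥W) (hA : A ≤ W) (hB : B ≤ W)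
    (hAi : A.relIndex W = p) (hBi : B.relIndex W = p) (hne : A ≠ B) :
    (A ⊓ B).relIndex B = p ∧ A ⊔ B = W := by
  have := Fact.mk hp
  have hcA := relIndex_of_le hA
  have hcB := relIndex_of_le hB
  rw [hAi] at hcA
  rw [hBi] at hcB
  have hcard : Nat.card ↥A = Nat.card ↥B := by
    have h1 : p * Nat.card ↥A = p * Nat.card ↥B := by rw [hcA, hcB]
    exact Nat.eq_of_mul_eq_mul_left hp.pos h1
  have hnle : ¬ B ≤ A := by
    intro hle
    exact hne (Subgroup.eq_of_le_of_card_ge hle hcard.le).symm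
  constructor
  · rw [Subgroup.inf_relIndex_right]
    have h1 : A.relIndex B ≤ p := by
      rw [← hAi]
      exact Subgroup.relIndex_le_of_le_right hB (by rw [hAi]; exact hp.ne_zero)
    have h2 : A.relIndex B ≠ 1 := by
      rw [Ne, Subgroup.relIndex_eq_one]; exact hnle
    have h3 : A.relIndex B ∣ Nat.card ↥B := Subgroup.relIndex_dvd_card _ _
    obtain ⟨n, hn⟩ := IsPGroup.iff_card.1 (hW.to_le hB)
    rw [hn] at h3
    obtain ⟨k, -, hk⟩ := (Nat.dvd_prime_pow hp).1 h3
    have hk0 : k ≠ 0 := by rintro rfl; exact h2 (by simpa using hk)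
    have h4 : p ≤ A.relIndex B := by
      rw [hk]; exact Nat.le_self_pow hk0 p
    exact le_antisymm h1 h4
  · have h1 : A.relIndex (A ⊔ B) * (A ⊔ B).relIndex W = p := by
      rw [Subgroup.relIndex_mul_relIndex _ _ _ le_sup_left (sup_le hA hB), hAi]
    have h2 : A.relIndex (A ⊔ B) ≠ 1 := by
      rw [Ne, Subgroup.relIndex_eq_one]
      intro hle
      exact hnle (le_sup_right.trans hle)
    have h3 : (A ⊔ B).relIndex W = 1 := by
      rcases (Nat.dvd_prime hp).1 (Dvd.intro _ h1) with h4 | h4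
      · exact absurd h4 h2
      · rw [h4] at h1
        exact Nat.eq_of_mul_eq_mul_left hp.pos (by rw [h1, mul_one])
    exact le_antisymm (sup_le hA hB) (Subgroup.relIndex_eq_one.1 h3)

theorem exists_inv (φ : MulAut G) (P : Subgroup G) : ∃ m, φ • E φ P m = E φ P m := by
  by_contra hcon
  push Not at hcon
  have h1 : ∀ m, Nat.card ↥(E φ P (m + 1)) < Nat.card ↥(E φ P m) := by
    intro m
    have hle := E_succ_le φ P m
    rcases (Nat.card_mono (Set.toFinite _) hle).lt_or_eq with h2 | h2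
    · exact h2
    · exfalso
      have h3 : E φ P (m + 1) = E φ P m := Subgroup.eq_of_le_of_card_ge hle h2.ge
      apply hcon m
      have h4 : E φ P m ≤ φ • E φ P m := by rw [← h3]; exact h3 ▸ E_succ_le' φ P m
      exact (Subgroup.eq_of_le_of_card_ge h4 (card_smul' φ _).le).symm
  have h2 : ∀ m, Nat.card ↥(E φ P m) + m ≤ Nat.card ↥(E φ P 0) := by
    intro m
    induction m with
    | zero => simp
    | succ m ih => have := h1 m; omega
  have h3 := h2 (Nat.card ↥(E φ P 0))
  have h4 : 0 < Nat.card ↥(E φ P (Nat.card ↥(E φ P 0))) := Nat.card_pos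
  omega

open Classical in
/-- the length -/
noncomputable def len (φ : MulAut G) (P : Subgroup G) : ℕ := Nat.find (exists_inv φ P)

theorem len_spec (φ : MulAut G) (P : Subgroup G) : φ • E φ P (len φ P) = E φ P (len φ P) := by
  classical
  unfold len
  exact Nat.find_spec (exists_inv φ P)

theorem len_min {m : ℕ} (hm : m < len φ P) : φ • E φ P m ≠ E φ P m := by
  classical
  unfold len at hm
  exact Nat.find_min (exists_inv φ P) hm

theorem relIndex_smul (ψ : MulAut G) (A B : Subgroup G) (h : A ≤ B) : (ψ • A).relIndex (ψ • B) = A.relIndex B := by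
  have h1 := relIndex_of_le h
  have h2 := relIndex_of_le (Subgroup.pointwise_smul_le_pointwise_smul_iff (a := ψ) |>.2 h)
  rw [card_smul', card_smul', ← h1] at h2
  exact Nat.eq_of_mul_eq_mul_right Nat.card_pos h2

theorem relIndex_E (h : Hyp φ P p) {m : ℕ} (hm : m < len φ P) :
    (E φ P (m + 1)).relIndex (φ • E φ P m) = p ∧ (E φ P (m + 1)).relIndex (E φ P m) = p := by
  have conv : ∀ k : ℕ, (E φ P (k + 1)).relIndex (φ • E φ P k) = p →
      (E φ P (k + 1)).relIndex (E φ P k) = p := by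
    intro k hk
    have h1 := relIndex_of_le (E_succ_le' φ P k)
    have h2 := relIndex_of_le (E_succ_le φ P k)
    rw [hk, card_smul', ← h2] at h1
    exact (Nat.eq_of_mul_eq_mul_right Nat.card_pos h1).symm
  suffices hs : (E φ P (m + 1)).relIndex (φ • E φ P m) = p from ⟨hs, conv m hs⟩
  induction m with
  | zero => exact h.hidx
  | succ m ih =>
    have h1 := ih (by omega)
    have h2 : (φ • E φ P (m + 1)).relIndex (φ • E φ P m) = p := by
      rw [relIndex_smul _ _ _ (E_succ_le φ P m)]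
      exact conv m h1
    exact (step h.hp (isPGroup_smul (isPGroup_E h m) φ) (E_succ_le' φ P m)
      (Subgroup.pointwise_smul_le_pointwise_smul_iff.2 (E_succ_le φ P m)) h1 h2 (len_min hm).symm).1

theorem sup_E (h : Hyp φ P p) {m : ℕ} (hm : m + 1 < len φ P) :
    E φ P (m + 1) ⊔ φ • E φ P (m + 1) = φ • E φ P m := by
  have h1 := (relIndex_E h (show m < len φ P by omega)).1
  have h2 : (φ • E φ P (m + 1)).relIndex (φ • E φ P m) = p := by
    rw [relIndex_smul _ _ _ (E_succ_le φ P m)]
    exact (relIndex_E h (show m < len φ P by omega)).2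
  exact (step h.hp (isPGroup_smul (isPGroup_E h m) φ) (E_succ_le' φ P m)
      (Subgroup.pointwise_smul_le_pointwise_smul_iff.2 (E_succ_le φ P m)) h1 h2 (len_min hm).symm).2

theorem smul_le_normalizer {D K : Subgroup G} (ψ : MulAut G) (hD : ψ • D = D)
    (hK : K ≤ Subgroup.normalizer (D : Set G)) : ψ • K ≤ Subgroup.normalizer (D : Set G) := by
  intro x hx
  have hk' := hK (Subgroup.mem_pointwise_smul_iff_inv_smul_mem.1 hx)
  rw [Subgroup.mem_normalizer_iff] at hk' ⊢
  intro a
  have key : ∀ b : G, b ∈ D ↔ ψ⁻¹ • b ∈ D := by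
    intro b
    constructor
    · intro hb
      rw [← hD] at hb
      exact (Subgroup.mem_pointwise_smul_iff_inv_smul_mem).1 hb
    · intro hb
      rw [← hD]
      exact (Subgroup.mem_pointwise_smul_iff_inv_smul_mem).2 hb
  have e : ψ⁻¹ • (x * a * x⁻¹) = (ψ⁻¹ • x) * (ψ⁻¹ • a) * (ψ⁻¹ • x)⁻¹ := by
    rw [smul_mul', smul_mul', smul_inv']
  rw [key a, hk', key (_ * a * _), e]

theorem E_len (h : Hyp φ P p) : E φ P (len φ P) = ⊥ := by
  set D := E φ P (len φ P) with hD
  have hinv := len_spec φ P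
  have hinv' : φ⁻¹ • D = D := by
    rw [inv_smul_eq_iff]; exact hinv.symm
  have key : ∀ j, j ≤ len φ P → E φ P (len φ P - j) ≤ Subgroup.normalizer (D : Set G) := by
    intro j
    induction j with
    | zero => intro _; exact Subgroup.le_normalizer
    | succ j ih =>
      intro hj
      have ih' := ih (by omega)
      set k := len φ P - (j + 1) with hk
      have hk1 : len φ P - j = k + 1 := by omega
      rw [hk1] at ih'
      by_cases hj0 : j = 0
      · have hkl : k + 1 = len φ P := by omega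
        have h1 := (relIndex_E h (show k < len φ P by omega)).2
        have h2 := le_normalizer_of_relIndex h.hp (isPGroup_E h k) h1
        have h3 : E φ P (k + 1) ⊓ E φ P k = D := by
          rw [inf_eq_left.2 (E_succ_le φ P k), hkl]
        rwa [h3] at h2
      · have h1 := sup_E h (show k + 1 < len φ P by omega)
        have h2 : φ • E φ P k ≤ Subgroup.normalizer (D : Set G) := by
          rw [← h1]
          exact sup_le ih' (smul_le_normalizer φ hinv ih')
        have h3 := smul_le_normalizer φ⁻¹ hinv' h2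
        rwa [inv_smul_smul] at h3
  have h0 := key (len φ P) le_rfl
  rw [Nat.sub_self] at h0
  apply h.h1 D (E_le φ P _) _ hinv
  constructor
  intro n hn q
  rw [Subgroup.mem_subgroupOf] at hn ⊢
  exact (Subgroup.mem_normalizer_iff.1 (h0 q.2) (n : G)).1 hn

theorem len_pos (h : Hyp φ P p) : 0 < len φ P := by
  rw [Nat.pos_iff_ne_zero]
  intro h0
  have h1 := len_spec φ P
  rw [h0] at h1
  have h2 := h.hidx
  have h3 : φ • P = P := h1
  rw [h3, inf_idem, Subgroup.relIndex_self] at h2
  exact h.hp.one_lt.ne h2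

theorem card_E (h : Hyp φ P p) {j : ℕ} (hj : j ≤ len φ P) : Nat.card ↥(E φ P (len φ P - j)) = p ^ j := by
  induction j with
  | zero => rw [Nat.sub_zero, E_len h]; simp
  | succ j ih =>
    have h1 := (relIndex_E h (show len φ P - (j + 1) < len φ P by omega)).2
    have h2 := relIndex_of_le (E_succ_le φ P (len φ P - (j + 1)))
    have h3 : len φ P - (j + 1) + 1 = len φ P - j := by omega
    rw [h3] at h1 h2
    rw [h1, ih (by omega)] at h2
    rw [← h2, pow_succ, mul_comm]

/-! ### the shift sequence -/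

/-- shifted element -/
def X (φ : MulAut G) (x : G) (i : ℤ) : G := (φ ^ i) x

/-- segments -/
def Seg (φ : MulAut G) (x : G) (a b : ℤ) : Subgroup G := Subgroup.closure (X φ x '' Set.Icc a b)

omit [Finite G] in
theorem X_add (φ : MulAut G) (x : G) (i k : ℤ) : X φ x (i + k) = (φ ^ k) (X φ x i) := by
  unfold X
  rw [add_comm, zpow_add, MulAut.mul_apply]

omit [Finite G] in
theorem X_mem (φ : MulAut G) (x : G) {a b k : ℤ} (h1 : a ≤ k) (h2 : k ≤ b) : X φ x k ∈ Seg φ x a b :=
  Subgroup.subset_closure ⟨k, ⟨h1, h2⟩, rfl⟩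

omit [Finite G] in
theorem smul_Seg (φ : MulAut G) (x : G) (a b k : ℤ) : (φ ^ k) • Seg φ x a b = Seg φ x (a + k) (b + k) := by
  unfold Seg
  rw [Subgroup.smul_closure]
  congr 1
  ext y
  constructor
  · rintro ⟨_, ⟨i, hi, rfl⟩, rfl⟩
    refine ⟨i + k, ⟨by linarith [hi.1], by linarith [hi.2]⟩, ?_⟩
    exact X_add φ x i k
  · rintro ⟨i, hi, rfl⟩
    refine ⟨X φ x (i - k), ⟨i - k, ⟨by linarith [hi.1], by linarith [hi.2]⟩, rfl⟩, ?_⟩
    have := X_add φ x (i - k) k
    rw [sub_add_cancel] at this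
    exact this.symm

omit [Finite G] in
theorem Seg_mono (φ : MulAut G) (x : G) {a b a' b' : ℤ} (h1 : a' ≤ a) (h2 : b ≤ b') :
    Seg φ x a b ≤ Seg φ x a' b' :=
  Subgroup.closure_mono (Set.image_mono (Set.Icc_subset_Icc h1 h2))

omit [Finite G] in
theorem Seg_empty (φ : MulAut G) (x : G) {a b : ℤ} (h : b < a) : Seg φ x a b = ⊥ := by
  unfold Seg
  rw [Set.Icc_eq_empty (not_le.2 h), Set.image_empty, Subgroup.closure_empty]

theorem E_eq_Seg (h : Hyp φ P p) {x : G} (hx : x ∈ E φ P (len φ P - 1)) (hx1 : x ≠ 1) {l : ℕ}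
    (hl : l ≤ len φ P) : E φ P (len φ P - l) = Seg φ x (1 - l) 0 := by
  have hp := h.hp
  induction l with
  | zero => rw [Nat.sub_zero, E_len h, Seg_empty φ x (by norm_num)]
  | succ l ih =>
    have ih' := ih (by omega)
    rcases Nat.eq_zero_or_pos l with hl0 | hl0
    · subst hl0
      have h1 : Seg φ x (1 - ((0 + 1 : ℕ) : ℤ)) 0 = Subgroup.zpowers x := by
        unfold Seg
        have e : Set.Icc (1 - ((0 + 1 : ℕ) : ℤ)) 0 = {0} := by
          norm_num
        rw [e, Set.image_singleton, Subgroup.zpowers_eq_closure]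
        congr 1
      rw [h1]
      symm
      apply Subgroup.eq_of_le_of_card_ge
      · rw [Subgroup.zpowers_le]; exact hx
      · have h2 : Nat.card ↥(E φ P (len φ P - (0 + 1))) = p := by
          rw [card_E h (by omega)]; simp
        have h3 : Nat.card ↥(Subgroup.zpowers x) ∣ p := by
          rw [← h2]; exact Subgroup.card_dvd_of_le (by rw [Subgroup.zpowers_le]; exact hx)
        rw [h2]
        rcases (Nat.dvd_prime hp).1 h3 with h4 | h4
        · exfalso
          rw [Nat.card_zpowers, orderOf_eq_one_iff] at h4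
          exact hx1 h4
        · exact h4.ge
    · have h1 := sup_E h (show len φ P - (l + 1) + 1 < len φ P by omega)
      have h2 : len φ P - (l + 1) + 1 = len φ P - l := by omega
      rw [h2] at h1
      have h3 : E φ P (len φ P - (l + 1)) = φ⁻¹ • E φ P (len φ P - l) ⊔ E φ P (len φ P - l) := by
        have h4 := congrArg (fun H : Subgroup G => φ⁻¹ • H) h1
        simp only [inv_smul_smul, Subgroup.smul_sup] at h4
        exact h4.symm
      rw [h3, ih']
      have h5 : φ⁻¹ • Seg φ x (1 - (l : ℤ)) 0 = Seg φ x (1 - (l : ℤ) + (-1)) (0 + (-1)) := by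
        rw [← smul_Seg, zpow_neg_one]
      rw [h5]
      unfold Seg
      rw [← Subgroup.closure_union, ← Set.image_union]
      congr 2
      ext k
      simp only [Set.mem_union, Set.mem_Icc]
      push_cast
      constructor
      · rintro (h6 | h6) <;> constructor <;> omega
      · intro h6
        by_cases h7 : k ≤ -1
        · left; constructor <;> omega
        · right; constructor <;> omega

section main

variable (h : Hyp φ P p) {x : G} (hx : x ∈ E φ P (len φ P - 1)) (hx1 : x ≠ 1)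
include h hx hx1

theorem comm_mem {l : ℕ} (hl1 : 1 ≤ l) (hl : l + 1 ≤ len φ P) (i : ℤ) :
    ⁅X φ x i, X φ x (i + l)⁆ ∈ Seg φ x (i + 1) (i + l - 1) := by
  -- first for `i = -l`
  have key : ⁅X φ x (-l), X φ x 0⁆ ∈ Seg φ x (-l + 1) (-1) := by
    set m := len φ P - (l + 1) with hm
    have e1 : m + 1 = len φ P - l := by omega
    have hW := E_eq_Seg h hx hx1 hl
    have hB := E_eq_Seg h hx hx1 (show l ≤ len φ P by omega)
    have hC := E_eq_Seg h hx hx1 (show l - 1 ≤ len φ P by omega)
    have e2 : len φ P - (l - 1) = m + 1 + 1 := by omega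
    rw [← hm] at hW
    rw [← e1] at hB
    rw [e2] at hC
    have hr := relIndex_E h (show m < len φ P by omega)
    have hnB := le_normalizer_of_relIndex h.hp (isPGroup_E h m) hr.2
    rw [inf_eq_left.2 (E_succ_le φ P m)] at hnB
    have hnA : E φ P m ≤ Subgroup.normalizer ((φ⁻¹ • E φ P (m + 1) : Subgroup G) : Set G) := by
      have h1 : (φ⁻¹ • E φ P (m + 1)).relIndex (E φ P m) = p := by
        have := relIndex_smul φ⁻¹ _ _ (E_succ_le' φ P m)
        rw [inv_smul_smul] at this
        rw [this]; exact hr.1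
      have h2 : φ⁻¹ • E φ P (m + 1) ≤ E φ P m := by
        have := Subgroup.pointwise_smul_le_pointwise_smul_iff (a := φ⁻¹) |>.2 (E_succ_le' φ P m)
        rwa [inv_smul_smul] at this
      have h3 := le_normalizer_of_relIndex h.hp (isPGroup_E h m) h1
      rwa [inf_eq_left.2 h2] at h3
    have hAB : φ⁻¹ • E φ P (m + 1) ⊓ E φ P (m + 1) = Seg φ x (-l + 1) (-1) := by
      have h1 : φ⁻¹ • E φ P (m + 1 + 1) = φ⁻¹ • E φ P (m + 1) ⊓ E φ P (m + 1) := by
        show φ⁻¹ • (E φ P (m + 1) ⊓ φ • E φ P (m + 1)) = _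
        rw [Subgroup.smul_inf, inv_smul_smul]
      rw [← h1, hC]
      have h2 := smul_Seg φ x (1 - ((l - 1 : ℕ) : ℤ)) 0 (-1)
      rw [zpow_neg_one] at h2
      rw [h2]
      congr 1
      omega
    rw [← hAB]
    have hX0 : X φ x 0 ∈ E φ P (m + 1) := by
      rw [hB]; exact X_mem φ x (by omega) le_rfl
    have hXl : X φ x (-l) ∈ φ⁻¹ • E φ P (m + 1) := by
      rw [hB]
      have h2 := smul_Seg φ x (1 - (l : ℤ)) 0 (-1)
      rw [zpow_neg_one] at h2
      rw [h2]
      exact X_mem φ x (by omega) (by omega)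
    have hX0W : X φ x 0 ∈ E φ P m := E_succ_le φ P m hX0
    have hXlW : X φ x (-l) ∈ E φ P m := by
      rw [hW]; exact X_mem φ x (by push_cast; omega) (by omega)
    rw [commutatorElement_def]
    constructor
    · have h1 := (Subgroup.mem_normalizer_iff.1 (hnA hX0W) (X φ x (-l))⁻¹).1 (Subgroup.inv_mem _ hXl)
      have := Subgroup.mul_mem _ hXl h1
      have e : X φ x (-l) * (X φ x 0 * (X φ x (-l))⁻¹ * (X φ x 0)⁻¹) =
        X φ x (-l) * X φ x 0 * (X φ x (-l))⁻¹ * (X φ x 0)⁻¹ := by group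
      rw [e] at this
      exact this
    · have h1 := (Subgroup.mem_normalizer_iff.1 (hnB hXlW) (X φ x 0)).1 hX0
      exact Subgroup.mul_mem _ h1 (Subgroup.inv_mem _ hX0)
  have h2 := Subgroup.smul_mem_pointwise_smul _ (φ ^ (i + l)) _ key
  rw [smul_Seg] at h2
  have e1 : (φ ^ (i + (l : ℤ))) • ⁅X φ x (-l), X φ x 0⁆ = ⁅X φ x i, X φ x (i + l)⁆ := by
    show (φ ^ (i + (l : ℤ))) ⁅X φ x (-l), X φ x 0⁆ = _
    rw [map_commutatorElement, ← X_add, ← X_add]
    congr 2
    · ring
    · ring
  rw [e1] at h2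
  have e2 : (-(l : ℤ) + 1 + (i + l)) = i + 1 := by ring
  have e3 : (-1 + (i + (l : ℤ))) = i + l - 1 := by ring
  rwa [e2, e3] at h2

end main

end Cfsg.Agent.Lib.H34Shift
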