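import Cfsg.Agent.Lib.H34Shift
set_option autoImplicit false

/-!
# Shift sequences in `p`-groups, the bound `2t ≤ 3r` (helper34)
-/

namespace Cfsg.Agent.Lib.H34Shift
open Subgroup
open scoped Pointwise commutatorElement

variable {G : Type*} [Group G] [Finite G] {φ : MulAut G} {P : Subgroup G} {p : ℕ}

omit [Finite G] in
theorem commute_Seg {x y : G} {a b : ℤ} (h : ∀ k, a ≤ k → k ≤ b → Commute y (X φ x k)) {c : G}
    (hc : c ∈ Seg φ x a b) : Commute y c := by
  have h1 : Seg φ x a b ≤ Subgroup.centralizer ({y} : Set G) := by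
    unfold Seg
    rw [Subgroup.closure_le]
    rintro _ ⟨k, ⟨hk1, hk2⟩, rfl⟩
    rw [SetLike.mem_coe, Subgroup.mem_centralizer_singleton_iff]
    exact (h k hk1 hk2).eq.symm
  exact ((Subgroup.mem_centralizer_singleton_iff.1 (h1 hc))).symm

omit [Finite G] in
theorem commute_shift {x : G} {i j : ℤ} (h : Commute (X φ x i) (X φ x j)) (k : ℤ) :
    Commute (X φ x (i + k)) (X φ x (j + k)) := by
  rw [X_add, X_add]
  exact h.map (φ ^ k)

omit [Finite G] in
/-- commuting within distance `< r` -/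
theorem commute_of_lt {x : G} {r : ℤ} (hr : ∀ d : ℤ, 0 ≤ d → d < r → Commute (X φ x 0) (X φ x d)) {i j : ℤ}
    (h1 : i - j < r) (h2 : j - i < r) : Commute (X φ x i) (X φ x j) := by
  rcases le_total i j with hij | hij
  · have := commute_shift (hr (j - i) (by omega) h2) i
    rwa [zero_add, sub_add_cancel] at this
  · have := commute_shift (hr (i - j) (by omega) h1) j
    rw [zero_add, sub_add_cancel] at this
    exact this.symm

omit [Finite G] in
theorem decomp_left {x : G} {a b : ℤ} (hab : a ≤ b) (hcomm : ∀ k, a ≤ k → k ≤ b → Commute (X φ x a) (X φ x k))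
    {c : G} (hc : c ∈ Seg φ x a b) : ∃ n : ℤ, ∃ w ∈ Seg φ x (a + 1) b, c = X φ x a ^ n * w := by
  have hw : ∀ w ∈ Seg φ x (a + 1) b, Commute (X φ x a) w := fun w hw =>
    commute_Seg (fun k h1 h2 => hcomm k (by omega) h2) hw
  unfold Seg at hc
  induction hc using Subgroup.closure_induction with
  | mem y hy =>
    obtain ⟨k, ⟨hk1, hk2⟩, rfl⟩ := hy
    rcases hk1.eq_or_lt with h1 | h1
    · refine ⟨1, 1, Subgroup.one_mem _, ?_⟩
      rw [h1]; simp
    · exact ⟨0, X φ x k, X_mem φ x (by omega) hk2, by simp⟩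
  | one => exact ⟨0, 1, Subgroup.one_mem _, by simp⟩
  | mul y z _ _ hy hz =>
    obtain ⟨n, w, hw1, rfl⟩ := hy
    obtain ⟨m, v, hv1, rfl⟩ := hz
    refine ⟨n + m, w * v, Subgroup.mul_mem _ hw1 hv1, ?_⟩
    rw [zpow_add]
    have := ((hw w hw1).zpow_left m).eq
    calc X φ x a ^ n * w * (X φ x a ^ m * v) = X φ x a ^ n * (w * X φ x a ^ m) * v := by group
      _ = X φ x a ^ n * (X φ x a ^ m * w) * v := by rw [this]
      _ = _ := by group
  | inv y _ hy =>
    obtain ⟨n, w, hw1, rfl⟩ := hy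
    refine ⟨-n, w⁻¹, Subgroup.inv_mem _ hw1, ?_⟩
    have := (((hw w hw1).zpow_left (-n)).inv_right).eq
    rw [mul_inv_rev, ← zpow_neg, this]

omit [Finite G] in
theorem decomp_right {x : G} {a b : ℤ} (hab : a ≤ b) (hcomm : ∀ k, a ≤ k → k ≤ b → Commute (X φ x b) (X φ x k))
    {c : G} (hc : c ∈ Seg φ x a b) : ∃ n : ℤ, ∃ w ∈ Seg φ x a (b - 1), c = X φ x b ^ n * w := by
  have hw : ∀ w ∈ Seg φ x a (b - 1), Commute (X φ x b) w := fun w hw =>
    commute_Seg (fun k h1 h2 => hcomm k h1 (by omega)) hw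
  unfold Seg at hc
  induction hc using Subgroup.closure_induction with
  | mem y hy =>
    obtain ⟨k, ⟨hk1, hk2⟩, rfl⟩ := hy
    rcases hk2.eq_or_lt with h1 | h1
    · refine ⟨1, 1, Subgroup.one_mem _, ?_⟩
      rw [h1]; simp
    · exact ⟨0, X φ x k, X_mem φ x hk1 (by omega), by simp⟩
  | one => exact ⟨0, 1, Subgroup.one_mem _, by simp⟩
  | mul y z _ _ hy hz =>
    obtain ⟨n, w, hw1, rfl⟩ := hy
    obtain ⟨m, v, hv1, rfl⟩ := hz
    refine ⟨n + m, w * v, Subgroup.mul_mem _ hw1 hv1, ?_⟩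
    rw [zpow_add]
    have := ((hw w hw1).zpow_left m).eq
    calc X φ x b ^ n * w * (X φ x b ^ m * v) = X φ x b ^ n * (w * X φ x b ^ m) * v := by group
      _ = X φ x b ^ n * (X φ x b ^ m * w) * v := by rw [this]
      _ = _ := by group
  | inv y _ hy =>
    obtain ⟨n, w, hw1, rfl⟩ := hy
    refine ⟨-n, w⁻¹, Subgroup.inv_mem _ hw1, ?_⟩
    have := (((hw w hw1).zpow_left (-n)).inv_right).eq
    rw [mul_inv_rev, ← zpow_neg, this]

section main

variable (h : Hyp φ P p) {x : G} (hx : x ∈ E φ P (len φ P - 1)) (hx1 : x ≠ 1)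
include h hx hx1

theorem orderOf_X (i : ℤ) : orderOf (X φ x i) = p := by
  have h1 : orderOf (X φ x i) = orderOf x := MulEquiv.orderOf_eq (φ ^ i) x
  rw [h1]
  have h2 : Nat.card ↥(E φ P (len φ P - 1)) = p := by
    rw [card_E h (len_pos h)]; simp
  have h3 : orderOf x ∣ p := by
    rw [← h2, ← Nat.card_zpowers]
    exact Subgroup.card_dvd_of_le (by rw [Subgroup.zpowers_le]; exact hx)
  rcases (Nat.dvd_prime h.hp).1 h3 with h4 | h4
  · exact absurd (orderOf_eq_one_iff.1 h4) hx1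
  · exact h4

theorem commute_of_zpow {i : ℤ} {n : ℤ} {y : G} (hn : X φ x i ^ n ≠ 1) (hy : Commute y (X φ x i ^ n)) :
    Commute y (X φ x i) := by
  have ho := orderOf_X h hx hx1 i
  have h1 : ¬ (p : ℤ) ∣ n := by
    intro hd
    apply hn
    rw [← ho] at hd
    exact orderOf_dvd_iff_zpow_eq_one.1 hd
  have h2 : IsCoprime (p : ℤ) n :=
    (Prime.coprime_iff_not_dvd (Nat.prime_iff_prime_int.1 h.hp)).2 h1
  obtain ⟨u, v, huv⟩ := h2
  have h3 : X φ x i = (X φ x i ^ n) ^ v := by
    have h4 : X φ x i = X φ x i ^ (u * p + v * n) := by rw [huv, zpow_one]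
    have h5 : X φ x i ^ (u * (p : ℤ)) = 1 := by
      rw [← orderOf_dvd_iff_zpow_eq_one, ho]
      exact Dvd.intro_left u rfl
    rw [zpow_add, h5, one_mul, mul_comm v n, zpow_mul] at h4
    exact h4
  rw [h3]
  exact hy.zpow_right v

theorem bound_left {r : ℕ} (hr1 : 1 ≤ r) (hr : ∀ d : ℤ, 0 ≤ d → d < r → Commute (X φ x 0) (X φ x d))
    (hnc : ¬ Commute (X φ x 0) (X φ x r)) {a : ℕ} (ha1 : 1 ≤ a) (har : a < r)
    (hc : ⁅X φ x 0, X φ x r⁆ ∈ Seg φ x a (r - 1)) (hc' : ⁅X φ x 0, X φ x r⁆ ∉ Seg φ x (a + 1) (r - 1))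
    : len φ P ≤ a + r := by
  by_contra hcon
  push Not at hcon
  set c := ⁅X φ x 0, X φ x r⁆ with hcdef
  set y := X φ x (a + r) with hy
  have hz := comm_mem h hx hx1 (show 1 ≤ a + r by omega) (show a + r + 1 ≤ len φ P by omega) 0
  simp only [zero_add, Nat.cast_add] at hz
  set z := ⁅X φ x 0, X φ x (a + r)⁆ with hzdef
  -- `X r` commutes with `z`
  have h1 : Commute (X φ x r) z := commute_Seg (fun k h1 h2 => commute_of_lt hr (by omega) (by omega)) hz
  have h2 : Commute y (X φ x r) := commute_of_lt hr (by omega) (by omega)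
  have h3 : Commute z c := by
    refine commute_Seg (fun k h1 h2 => ?_) hc
    exact (commute_Seg (fun l h3 h4 => commute_of_lt hr (by omega) (by omega)) hz).symm
  have h4 : y * X φ x 0 * y⁻¹ = z⁻¹ * X φ x 0 := by
    rw [hzdef, ← hy, commutatorElement_def]; group
  have h5 : Commute y c := by
    have e1 : y * c * y⁻¹ = z⁻¹ * c * z := by
      have e2 : y * c * y⁻¹ = ⁅y * X φ x 0 * y⁻¹, y * X φ x r * y⁻¹⁆ := by
        rw [hcdef, commutatorElement_def, commutatorElement_def]; group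
      have e3 : y * X φ x r * y⁻¹ = X φ x r := by rw [h2.eq]; group
      rw [e2, e3, h4, commutatorElement_def, hcdef, commutatorElement_def]
      have e4 : z⁻¹ * X φ x 0 * X φ x r * (z⁻¹ * X φ x 0)⁻¹ * (X φ x r)⁻¹ =
        z⁻¹ * X φ x 0 * X φ x r * (X φ x 0)⁻¹ * (z * (X φ x r)⁻¹) := by group
      rw [e4, (h1.symm.inv_right).eq]
      group
    have e5 : z⁻¹ * c * z = c := by
      rw [mul_assoc, ← h3.eq]; group
    rw [e5] at e1
    exact mul_inv_eq_iff_eq_mul.1 e1
  obtain ⟨n, w, hw, hcw⟩ := decomp_left (show (a : ℤ) ≤ r - 1 by omega)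
    (fun k h1 h2 => commute_of_lt hr (by omega) (by omega)) hc
  have hn : X φ x a ^ n ≠ 1 := by
    intro h0
    rw [h0, one_mul] at hcw
    exact hc' (hcw ▸ hw)
  have h6 : Commute y w := commute_Seg (fun k h1 h2 => commute_of_lt hr (by omega) (by omega)) hw
  have h7 : Commute y (X φ x a ^ n) := by
    have : X φ x a ^ n = c * w⁻¹ := by rw [hcw]; group
    rw [this]
    exact h5.mul_right h6.inv_right
  have h8 := commute_of_zpow h hx hx1 hn h7
  have h9 := commute_shift h8 (-a)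
  rw [show (a : ℤ) + r + -a = r by ring, show (a : ℤ) + -a = 0 by ring] at h9
  exact hnc h9.symm

theorem bound_right {r : ℕ} (hr1 : 1 ≤ r) (hr : ∀ d : ℤ, 0 ≤ d → d < r → Commute (X φ x 0) (X φ x d))
    (hnc : ¬ Commute (X φ x 0) (X φ x r)) {a b : ℕ} (ha1 : 1 ≤ a) (hab : a ≤ b) (har : b < r)
    (hc : ⁅X φ x 0, X φ x r⁆ ∈ Seg φ x a b) (hc' : ⁅X φ x 0, X φ x r⁆ ∉ Seg φ x a (b - 1))
    : len φ P + b ≤ 2 * r := by
  by_contra hcon
  push Not at hcon
  set c := ⁅X φ x 0, X φ x r⁆ with hcdef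
  set y := X φ x (b - r) with hy
  have hz := comm_mem h hx hx1 (show 1 ≤ 2 * r - b by omega) (show 2 * r - b + 1 ≤ len φ P by omega) (b - r)
  rw [show (b : ℤ) - r + ((2 * r - b : ℕ) : ℤ) = r by omega] at hz
  set z := ⁅X φ x (b - r), X φ x r⁆ with hzdef
  have h1 : Commute (X φ x 0) z := commute_Seg (fun k h1 h2 => commute_of_lt hr (by omega) (by omega)) hz
  have h2 : Commute y (X φ x 0) := commute_of_lt hr (by omega) (by omega)
  have h3 : Commute z c := by
    refine commute_Seg (fun k h1 h2 => ?_) hc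
    exact (commute_Seg (fun l h3 h4 => commute_of_lt hr (by omega) (by omega)) hz).symm
  have h4 : y * X φ x r * y⁻¹ = z * X φ x r := by
    rw [hzdef, ← hy, commutatorElement_def]; group
  have h5 : Commute y c := by
    have e1 : y * c * y⁻¹ = z * c * z⁻¹ := by
      have e2 : y * c * y⁻¹ = ⁅y * X φ x 0 * y⁻¹, y * X φ x r * y⁻¹⁆ := by
        rw [hcdef, commutatorElement_def, commutatorElement_def]; group
      have e3 : y * X φ x 0 * y⁻¹ = X φ x 0 := by rw [h2.eq]; group
      rw [e2, e3, h4, commutatorElement_def, hcdef, commutatorElement_def]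
      have e4 : X φ x 0 * (z * X φ x r) * (X φ x 0)⁻¹ * (z * X φ x r)⁻¹ =
        (X φ x 0 * z) * X φ x r * (X φ x 0)⁻¹ * (X φ x r)⁻¹ * z⁻¹ := by group
      rw [e4, h1.eq]
      group
    have e5 : z * c * z⁻¹ = c := by
      rw [h3.eq]; group
    rw [e5] at e1
    exact mul_inv_eq_iff_eq_mul.1 e1
  obtain ⟨n, w, hw, hcw⟩ := decomp_right (show (a : ℤ) ≤ b by omega)
    (fun k h1 h2 => commute_of_lt hr (by omega) (by omega)) hc
  have hn : X φ x b ^ n ≠ 1 := by
    intro h0
    rw [h0, one_mul] at hcw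
    exact hc' (hcw ▸ hw)
  have h6 : Commute y w := commute_Seg (fun k h1 h2 => commute_of_lt hr (by omega) (by omega)) hw
  have h7 : Commute y (X φ x b ^ n) := by
    have : X φ x b ^ n = c * w⁻¹ := by rw [hcw]; group
    rw [this]
    exact h5.mul_right h6.inv_right
  have h8 := commute_of_zpow h hx hx1 hn h7
  have h9 := commute_shift h8 (r - b)
  rw [show (b : ℤ) - r + (r - b) = 0 by ring, show (b : ℤ) + (r - b) = r by ring] at h9
  exact hnc h9

theorem bound {r : ℕ} (hr1 : 1 ≤ r) (hrt : r < len φ P)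
    (hr : ∀ d : ℤ, 0 ≤ d → d < r → Commute (X φ x 0) (X φ x d))
    (hnc : ¬ Commute (X φ x 0) (X φ x r)) : 2 * len φ P ≤ 3 * r := by
  have hc := comm_mem h hx hx1 hr1 (show r + 1 ≤ len φ P by omega) 0
  rw [zero_add, zero_add] at hc
  have hc1 : ⁅X φ x 0, X φ x r⁆ ≠ 1 := by
    rw [Ne, commutatorElement_eq_one_iff_commute]; exact hnc
  set c := ⁅X φ x 0, X φ x r⁆ with hcdef
  obtain ⟨a, ha1, har, hca, hca'⟩ : ∃ a : ℕ, 1 ≤ a ∧ a < r ∧ c ∈ Seg φ x a (r - 1) ∧
      c ∉ Seg φ x (a + 1) (r - 1) := by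
    by_contra hcon
    push Not at hcon
    have key : ∀ a : ℕ, 1 ≤ a → a ≤ r → c ∈ Seg φ x a (r - 1) := by
      intro a
      induction a with
      | zero => intro h0; omega
      | succ a ih =>
        intro _ h2
        by_cases ha : a = 0
        · subst ha; simpa using hc
        · have := hcon a (by omega) (by omega) (ih (by omega) (by omega))
          push_cast; exact this
    have h1 := key r hr1 le_rfl
    rw [Seg_empty φ x (by omega), Subgroup.mem_bot] at h1
    exact hc1 h1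
  obtain ⟨b, hab, hbr, hcb, hcb'⟩ : ∃ b : ℕ, a ≤ b ∧ b < r ∧ c ∈ Seg φ x a b ∧
      c ∉ Seg φ x a (b - 1) := by
    by_contra hcon
    push Not at hcon
    have key : ∀ j : ℕ, j + a ≤ r → c ∈ Seg φ x a (r - 1 - j) := by
      intro j
      induction j with
      | zero => intro _; simpa using hca
      | succ j ih =>
        intro h2
        have h3 := ih (by omega)
        have h4 := hcon (r - 1 - j) (by omega) (by omega) (by
          rw [show ((r - 1 - j : ℕ) : ℤ) = r - 1 - j by omega]; exact h3)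
        rw [show ((r - 1 - j : ℕ) : ℤ) = r - 1 - j by omega] at h4
        push_cast
        rw [show (r : ℤ) - 1 - (j + 1) = r - 1 - j - 1 by ring]
        exact h4
    have h1 := key (r - a) (by omega)
    rw [Seg_empty φ x (by omega), Subgroup.mem_bot] at h1
    exact hc1 h1
  have b1 := bound_left h hx hx1 hr1 hr hnc ha1 har hca hca'
  have b2 := bound_right h hx hx1 hr1 hr hnc ha1 hab hbr hcb hcb'
  omega

theorem exists_r : ∃ r : ℕ, 1 ≤ r ∧ r ≤ len φ P ∧ 2 * len φ P ≤ 3 * r ∧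
    (∀ d : ℤ, 0 ≤ d → d < r → Commute (X φ x 0) (X φ x d)) := by
  classical
  have hex : ∃ r : ℕ, 1 ≤ r ∧ (r = len φ P ∨ ¬ Commute (X φ x 0) (X φ x r)) :=
    ⟨len φ P, len_pos h, Or.inl rfl⟩
  set r := Nat.find hex with hrdef
  obtain ⟨hr1, hr2⟩ := Nat.find_spec hex
  have hle : r ≤ len φ P := Nat.find_min' hex ⟨len_pos h, Or.inl rfl⟩
  have hcomm : ∀ d : ℤ, 0 ≤ d → d < r → Commute (X φ x 0) (X φ x d) := by
    intro d hd0 hdr
    obtain ⟨d, rfl⟩ := Int.eq_ofNat_of_zero_le hd0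
    by_cases hd : d = 0
    · subst hd; exact Commute.refl _
    · have := Nat.find_min hex (m := d) (by omega)
      push Not at this
      exact (this (by omega)).2
  refine ⟨r, hr1, hle, ?_, hcomm⟩
  by_cases hrl : r = len φ P
  · omega
  · exact bound h hx hx1 hr1 (by omega) hcomm (hr2.resolve_left hrl)

end main

theorem final (h : Hyp φ P p) (n : ℕ) (hn : 1 ≤ n) (K : Subgroup G)
    (hK : K = ⨆ i ∈ Finset.range (n + 1), φ ^ i • P)
    (h2 : P ⊓ (Subgroup.center K).map K.subtype = ⊥) :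
    ∃ t : ℕ, Nat.card P = p ^ t ∧ 1 ≤ t ∧ t ≤ 3 * n ∧ t ≠ 3 * n - 1 := by
  have ht := len_pos h
  obtain ⟨x, hx, hx1⟩ : ∃ x ∈ E φ P (len φ P - 1), x ≠ 1 := by
    by_contra hcon
    push Not at hcon
    have h1 : E φ P (len φ P - 1) = ⊥ := by
      rw [eq_bot_iff]; intro y hy; exact Subgroup.mem_bot.2 (hcon y hy)
    have h3 := card_E h ht
    rw [show len φ P - (0 + 1) = len φ P - 1 by omega] at h3
    rw [h1] at h3
    simp only [Subgroup.card_bot, zero_add, pow_one] at h3
    exact h.hp.one_lt.ne h3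
  obtain ⟨r, hr1, hrt, hb, hr⟩ := exists_r h hx hx1
  have hcard := card_E h (le_refl (len φ P))
  rw [Nat.sub_self] at hcard
  have hPS := E_eq_Seg h hx hx1 (le_refl (len φ P))
  rw [Nat.sub_self] at hPS
  have hP : P = Seg φ x (1 - len φ P) 0 := hPS
  have hKle : K ≤ Subgroup.centralizer ({X φ x (r - len φ P)} : Set G) ∨ 2 * r ≤ n + len φ P := by
    by_cases hcase : 2 * r ≤ n + len φ P
    · exact Or.inr hcase
    · left
      rw [hK]
      refine iSup₂_le ?_
      intro i hi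
      have hi' : i ≤ n := by simpa [Nat.lt_succ_iff] using hi
      have e : φ ^ i • P = Seg φ x (1 - len φ P + i) (0 + i) := by
        conv_lhs => rw [hP]
        rw [← smul_Seg]
        rw [zpow_natCast]
      rw [e]
      intro y hy
      rw [Subgroup.mem_centralizer_singleton_iff]
      have := commute_Seg (y := X φ x (r - len φ P))
        (fun k h1 h3 => commute_of_lt hr (by omega) (by omega)) hy
      exact this.eq.symm
  have h2r : 2 * r ≤ n + len φ P := by
    rcases hKle with hKle | h3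
    · exfalso
      have hXP : X φ x (r - len φ P) ∈ P := by
        have : X φ x (r - len φ P) ∈ Seg φ x (1 - len φ P) 0 := X_mem φ x (by omega) (by omega)
        rw [← hP] at this
        exact this
      have hPK : P ≤ K := by
        rw [hK]
        have := le_iSup₂ (f := fun (i : ℕ) (_ : i ∈ Finset.range (n + 1)) => φ ^ i • P) 0 (by simp)
        simpa using this
      have hmem : X φ x (r - len φ P) ∈ P ⊓ (Subgroup.center K).map K.subtype := by
        refine ⟨hXP, ⟨⟨X φ x (r - len φ P), hPK hXP⟩, ?_, rfl⟩⟩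
        rw [SetLike.mem_coe, Subgroup.mem_center_iff]
        intro k
        apply Subtype.ext
        exact (Subgroup.mem_centralizer_singleton_iff.1 (hKle k.2))
      rw [h2, Subgroup.mem_bot] at hmem
      have ho := orderOf_X h hx hx1 (r - len φ P)
      rw [hmem, orderOf_one] at ho
      exact h.hp.one_lt.ne ho
    · exact h3
  exact ⟨len φ P, hcard, ht, by omega, by omega⟩

end Cfsg.Agent.Lib.H34Shift
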