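import Cfsg.Prelude.Def_ConjugacyFunctors
import Cfsg.Agent.Lib.Alperin
import Cfsg.Agent.Lib.SubgroupTools

/-!
# Local to global strong fusion for pairs of conjugacy functors (helper34)
-/

set_option autoImplicit false
set_option linter.unusedSectionVars false

namespace Cfsg.Agent.Lib.H34StrongFusion

open Cfsg Subgroup Cfsg.Agent.Lib.Alperin
open scoped Pointwise

variable {G : Type*} [Group G]

/-! ### right conjugation of subgroups -/

/-- `H ^ g = g⁻¹ H g` -/
def up (H : Subgroup G) (g : G) : Subgroup G := MulAut.conj g⁻¹ • H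

theorem mem_up {H : Subgroup G} {g x : G} : x ∈ up H g ↔ g * x * g⁻¹ ∈ H := by
  unfold up
  rw [Subgroup.mem_pointwise_smul_iff_inv_smul_mem, ← map_inv, MulAut.smul_def, MulAut.conj_apply,
    inv_inv]

theorem up_mul (H : Subgroup G) (a b : G) : up H (a * b) = up (up H a) b := by
  unfold up
  rw [mul_inv_rev, map_mul, mul_smul]

theorem up_one (H : Subgroup G) : up H 1 = H := by
  unfold up
  rw [inv_one, map_one, one_smul]

theorem up_le_up {H K : Subgroup G} {g : G} : up H g ≤ up K g ↔ H ≤ K :=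
  Subgroup.pointwise_smul_le_pointwise_smul_iff

theorem card_up (H : Subgroup G) (g : G) : Nat.card ↥(up H g) = Nat.card ↥H := card_smul _ _

theorem coe_up (H : Subgroup G) (g : G) : ((up H g : Subgroup G) : Set G) = cset g (H : Set G) :=
  (cset_coe g H).symm

theorem up_normalizer (H : Subgroup G) (g : G) :
    up (normalizer (H : Set G)) g = normalizer ((up H g : Subgroup G) : Set G) :=
  smul_normalizer _ _

theorem up_eq {H : Subgroup G} {g : G} (h : g ∈ normalizer (H : Set G)) : up H g = H :=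
  conj_smul_eq_of_mem_normalizer (inv_mem h)

theorem mem_normalizer_of_up_eq {H : Subgroup G} {g : G} (h : up H g = H) :
    g ∈ normalizer (H : Set G) :=
  inv_mem_iff.mp (mem_normalizer_of_conj_smul_eq h)

theorem up_isPGroup {p : ℕ} {H : Subgroup G} (h : IsPGroup p ↥H) (g : G) : IsPGroup p ↥(up H g) :=
  h.map _

theorem up_inf (H K : Subgroup G) (g : G) : up (H ⊓ K) g = up H g ⊓ up K g :=
  Subgroup.smul_inf _ _ _

theorem up_relIndex (H K : Subgroup G) (g : G) : (up H g).relIndex (up K g) = H.relIndex K :=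
  Subgroup.relIndex_pointwise_smul _ _ _

theorem up_inv_le {H K : Subgroup G} {g : G} : up H g ≤ K ↔ H ≤ up K g⁻¹ := by
  rw [← up_le_up (g := g⁻¹), ← up_mul, mul_inv_cancel, up_one]

theorem up_centralizer (H : Subgroup G) (g : G) :
    up (centralizer (H : Set G)) g = centralizer ((up H g : Subgroup G) : Set G) := by
  ext x
  rw [mem_up, mem_centralizer_iff, mem_centralizer_iff]
  constructor
  · intro h y hy
    rw [SetLike.mem_coe, mem_up] at hy
    have h1 := h _ hy
    have h2 : g * (y * x) * g⁻¹ = g * (x * y) * g⁻¹ := by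
      calc g * (y * x) * g⁻¹ = g * y * g⁻¹ * (g * x * g⁻¹) := by group
        _ = g * x * g⁻¹ * (g * y * g⁻¹) := h1
        _ = g * (x * y) * g⁻¹ := by group
    exact mul_left_cancel (mul_right_cancel h2)
  · intro h y hy
    have h3 : g⁻¹ * y * g ∈ ((up H g : Subgroup G) : Set G) := by
      rw [SetLike.mem_coe, mem_up]
      have : g * (g⁻¹ * y * g) * g⁻¹ = y := by group
      rw [this]; exact hy
    have h4 := h _ h3
    calc y * (g * x * g⁻¹) = g * (g⁻¹ * y * g * x) * g⁻¹ := by group
      _ = g * (x * (g⁻¹ * y * g)) * g⁻¹ := by rw [h4]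
      _ = g * x * g⁻¹ * y := by group

theorem relIndex_sup_of_normalizes [Finite G] {T C : Subgroup G} (h : T ≤ normalizer (C : Set G)) :
    T.relIndex C = T.relIndex (T ⊔ C) := by
  have h1 := SubgroupTools.card_sup_mul_card_inf h
  have h2 := SubgroupTools.card_mul_relIndex T C
  have h3 := SubgroupTools.card_mul_relIndex_of_le (le_sup_left : T ≤ T ⊔ C)
  rw [sup_comm C T, inf_comm C T, ← h2, ← h3] at h1
  have h4 : Nat.card ↥T * Nat.card ↥(T ⊓ C : Subgroup G) * T.relIndex (T ⊔ C) =
      Nat.card ↥T * Nat.card ↥(T ⊓ C : Subgroup G) * T.relIndex C := by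
    calc _ = Nat.card ↥T * T.relIndex (T ⊔ C) * Nat.card ↥(T ⊓ C : Subgroup G) := by ring
      _ = _ := by rw [h1]; ring
  exact (Nat.eq_of_mul_eq_mul_left (Nat.mul_pos Nat.card_pos Nat.card_pos) h4).symm

/-! ### chains -/

/-- A chain of conjugations of `X` inside `T` by elements of `K`. -/
def Ch (K : Set G) (T : Subgroup G) : Set G → List G → Prop
  | X, [] => X ⊆ T
  | X, b :: l => X ⊆ T ∧ b ∈ K ∧ Ch K T (cset b X) l

theorem Ch.start {K : Set G} {T : Subgroup G} {X : Set G} {l : List G} (h : Ch K T X l) : X ⊆ T := by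
  cases l with
  | nil => exact h
  | cons b l => exact h.1

theorem Ch.finish {K : Set G} {T : Subgroup G} {l : List G} : ∀ {X : Set G}, Ch K T X l →
    cset l.prod X ⊆ T := by
  induction l with
  | nil => intro X h; rw [List.prod_nil, cset_one]; exact h
  | cons b l ih =>
    intro X h
    rw [List.prod_cons, cset_mul]
    exact ih h.2.2

theorem Ch.mono {K : Set G} {T : Subgroup G} {l : List G} : ∀ {X Y : Set G}, X ⊆ Y → Ch K T Y l →
    Ch K T X l := by
  induction l with
  | nil => intro X Y h h1; exact h.trans h1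
  | cons b l ih =>
    intro X Y h h1
    exact ⟨h.trans h1.1, h1.2.1, ih (cset_mono h) h1.2.2⟩

theorem Ch.append {K : Set G} {T : Subgroup G} {l l' : List G} : ∀ {X : Set G}, Ch K T X l →
    Ch K T (cset l.prod X) l' → Ch K T X (l ++ l') := by
  induction l with
  | nil => intro X _ h1; rw [List.prod_nil, cset_one] at h1; exact h1
  | cons b l ih =>
    intro X h h1
    rw [List.prod_cons, cset_mul] at h1
    exact ⟨h.1, h.2.1, ih h.2.2 h1⟩

theorem Ch.reverse {K : Set G} (hK : ∀ b ∈ K, b⁻¹ ∈ K) {T : Subgroup G} {l : List G} :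
    ∀ {X : Set G}, Ch K T X l → Ch K T (cset l.prod X) (l.map (fun b => b⁻¹)).reverse := by
  induction l with
  | nil => intro X h; rw [List.prod_nil, cset_one]; exact h
  | cons b l ih =>
    intro X h
    rw [List.map_cons, List.reverse_cons, List.prod_cons, cset_mul]
    refine (ih h.2.2).append ?_
    have h1 : cset ((l.map (fun b => b⁻¹)).reverse).prod (cset l.prod (cset b X)) = cset b X := by
      rw [← List.prod_inv_reverse, ← cset_mul, mul_inv_cancel, cset_one]
    rw [h1]
    refine ⟨h.2.2.start, hK b h.2.1, ?_⟩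
    change cset b⁻¹ (cset b X) ⊆ T
    rw [← cset_mul, mul_inv_cancel, cset_one]
    exact h.1

theorem Ch.mem {K : Set G} {T : Subgroup G} {l : List G} : ∀ {X : Set G}, Ch K T X l →
    ∀ b ∈ l, b ∈ K := by
  induction l with
  | nil => intro X _ b hb; simp at hb
  | cons c l ih =>
    intro X h b hb
    rcases List.mem_cons.mp hb with h1 | h1
    · rw [h1]; exact h.2.1
    · exact ih h.2.2 b h1

theorem ch_iff {K : Set G} {T : Subgroup G} {l : List G} : ∀ {X : Set G}, Ch K T X l ↔
    (∀ b ∈ l, b ∈ K) ∧ ∀ k : ℕ, k ≤ l.length → cset (l.take k).prod X ⊆ T := by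
  induction l with
  | nil =>
    intro X
    constructor
    · intro h
      refine ⟨by simp, fun k _ => ?_⟩
      rw [List.take_nil, List.prod_nil, cset_one]; exact h
    · rintro ⟨-, h⟩
      have := h 0 le_rfl
      rw [List.take_nil, List.prod_nil, cset_one] at this; exact this
  | cons b l ih =>
    intro X
    constructor
    · intro h
      refine ⟨h.mem, fun k hk => ?_⟩
      cases k with
      | zero => rw [List.take_zero, List.prod_nil, cset_one]; exact h.1
      | succ k =>
        rw [List.take_succ_cons, List.prod_cons, cset_mul]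
        exact (ih.mp h.2.2).2 k (by simpa using hk)
    · rintro ⟨h1, h2⟩
      refine ⟨?_, h1 b (by simp), ih.mpr ⟨fun c hc => h1 c (by simp [hc]), fun k hk => ?_⟩⟩
      · have := h2 0 (Nat.zero_le _)
        rwa [List.take_zero, List.prod_nil, cset_one] at this
      · have := h2 (k + 1) (by simpa using hk)
        rwa [List.take_succ_cons, List.prod_cons, cset_mul] at this

/-- `a` is good for `X`. -/
def Good (K : Set G) (T : Subgroup G) (X : Set G) (a : G) : Prop :=
  ∃ c ∈ centralizer X, ∃ l : List G, Ch K T X l ∧ a = c * l.prod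

theorem cset_of_mem_centralizer {X : Set G} {c : G} (hc : c ∈ centralizer X) : cset c X = X := by
  have h1 : ∀ x ∈ X, c⁻¹ * x * c = x := by
    intro x hx
    have := mem_centralizer_iff.mp hc x hx
    rw [mul_assoc, this]; group
  ext y
  constructor
  · rintro ⟨x, hx, rfl⟩
    change c⁻¹ * x * c ∈ X
    rw [h1 x hx]; exact hx
  · intro hy
    exact ⟨y, hy, h1 y hy⟩

theorem Good.cset_eq {X : Set G} {a : G} {c : G} (hc : c ∈ centralizer X) {b : G} (h : a = c * b) :
    cset a X = cset b X := by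
  rw [h, cset_mul, cset_of_mem_centralizer hc]

theorem Good.mono {K : Set G} {T : Subgroup G} {X Y : Set G} {a : G} (h : X ⊆ Y)
    (hg : Good K T Y a) : Good K T X a := by
  obtain ⟨c, hc, l, hl, rfl⟩ := hg
  exact ⟨c, centralizer_le h hc, l, hl.mono h, rfl⟩

theorem Good.trans {K : Set G} {T : Subgroup G} {X : Set G} {a b : G} (h1 : Good K T X a)
    (h2 : Good K T (cset a X) b) : Good K T X (a * b) := by
  obtain ⟨c, hc, l, hl, rfl⟩ := h1
  rw [cset_mul, cset_of_mem_centralizer hc] at h2
  obtain ⟨d, hd, l', hl', rfl⟩ := h2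
  refine ⟨c * (l.prod * d * l.prod⁻¹), mul_mem hc ?_, l ++ l', hl.append hl', ?_⟩
  · rw [mem_centralizer_iff]
    intro x hx
    have h3 := mem_centralizer_iff.mp hd (l.prod⁻¹ * x * l.prod) ⟨x, hx, rfl⟩
    calc x * (l.prod * d * l.prod⁻¹) = l.prod * (l.prod⁻¹ * x * l.prod * d) * l.prod⁻¹ := by group
      _ = l.prod * (d * (l.prod⁻¹ * x * l.prod)) * l.prod⁻¹ := by rw [h3]
      _ = l.prod * d * l.prod⁻¹ * x := by group
  · rw [List.prod_append]; group

theorem Good.symm {K : Set G} (hK : ∀ b ∈ K, b⁻¹ ∈ K) {T : Subgroup G} {X : Set G} {a : G}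
    (h : Good K T X a) : Good K T (cset a X) a⁻¹ := by
  obtain ⟨c, hc, l, hl, rfl⟩ := h
  rw [cset_mul, cset_of_mem_centralizer hc]
  refine ⟨l.prod⁻¹ * c⁻¹ * l.prod, ?_, _, hl.reverse hK, ?_⟩
  · rw [mem_centralizer_iff]
    rintro _ ⟨x, hx, rfl⟩
    have h3 := mem_centralizer_iff.mp (inv_mem hc) x hx
    calc l.prod⁻¹ * x * l.prod * (l.prod⁻¹ * c⁻¹ * l.prod) = l.prod⁻¹ * (x * c⁻¹) * l.prod := by group
      _ = l.prod⁻¹ * (c⁻¹ * x) * l.prod := by rw [h3]
      _ = l.prod⁻¹ * c⁻¹ * l.prod * (l.prod⁻¹ * x * l.prod) := by group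
  · rw [← List.prod_inv_reverse]; group

theorem Good.of_cent {K : Set G} {T : Subgroup G} {X : Set G} {c : G} (hX : X ⊆ T)
    (hc : c ∈ centralizer X) : Good K T X c := ⟨c, hc, [], hX, by simp⟩

theorem Good.of_mem {K : Set G} {T : Subgroup G} {X : Set G} {b : G} (hX : X ⊆ T)
    (hb : b ∈ K) (hbX : cset b X ⊆ T) : Good K T X b :=
  ⟨1, one_mem _, [b], ⟨hX, hb, hbX⟩, by simp⟩

/-- going from chains for `(K', T')` to goodness for `(K, T)`. -/
theorem Good.lift {K K' : Set G} {T T' : Subgroup G} (hTT : T' ≤ T) {X0 : Subgroup G}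
    (h : ∀ (Y : Subgroup G), (∃ g, Y = up X0 g) → Y ≤ T' → ∀ b ∈ K', up Y b ≤ T' →
      Good K T (Y : Set G) b) {a : G} (ha : Good K' T' (X0 : Set G) a) :
    Good K T (X0 : Set G) a := by
  obtain ⟨c, hc, l, hl, rfl⟩ := ha
  have hX0 : (X0 : Set G) ⊆ T' := hl.start
  refine (Good.of_cent (hX0.trans hTT) hc).trans ?_
  rw [cset_of_mem_centralizer hc]
  have key : ∀ (l : List G) (Y : Subgroup G), (∃ g, Y = up X0 g) → Ch K' T' (Y : Set G) l →
      Good K T (Y : Set G) l.prod := by
    intro l
    induction l with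
    | nil =>
      intro Y _ hY
      rw [List.prod_nil]
      exact Good.of_cent (fun y hy => hTT (hY hy)) (one_mem _)
    | cons b l ih =>
      rintro Y ⟨g, hg⟩ ⟨h1, h2, h3⟩
      rw [List.prod_cons]
      rw [← coe_up] at h3
      refine (h Y ⟨g, hg⟩ h1 b h2 h3.start).trans ?_
      rw [← coe_up]
      exact ih (up Y b) ⟨g * b, by rw [hg, up_mul]⟩ h3
  exact key l X0 ⟨1, (up_one X0).symm⟩ hl

/-! ### fully normalized subgroups -/

section FN

variable [Finite G] {p : ℕ} [hp : Fact p.Prime]

/-- `Y` is fully normalized in `P` -/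
def FN (P : Sylow p G) (Y : Subgroup G) : Prop :=
  ¬ p ∣ ((P : Subgroup G) ⊓ normalizer (Y : Set G)).relIndex (normalizer (Y : Set G))

/-- a `p`-subgroup of `N` can be conjugated in `N` into a Sylow subgroup of `N` -/
theorem exists_conj_le {N S A : Subgroup G} (hSN : S ≤ N) (hS : IsPGroup p ↥S)
    (hSi : ¬ p ∣ S.relIndex N) (hAN : A ≤ N) (hA : IsPGroup p ↥A) : ∃ n ∈ N, up A n ≤ S := by
  have h1 : IsPGroup p ↥(A.subgroupOf N) := hA.comap_subtype
  obtain ⟨R, hR⟩ := h1.exists_le_sylow
  have h2 : IsPGroup p ↥(S.subgroupOf N) := hS.comap_subtype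
  obtain ⟨n, hn⟩ := MulAction.exists_smul_eq ↥N R (h2.toSylow hSi)
  refine ⟨(n : G)⁻¹, inv_mem n.2, ?_⟩
  intro x hx
  rw [mem_up, inv_inv] at hx
  have hxN : x ∈ N := by
    have := mul_mem (mul_mem n.2 (hAN hx)) (inv_mem n.2)
    have e : (n : G) * ((n : G)⁻¹ * x * n) * (n : G)⁻¹ = x := by group
    rwa [e] at this
  have h3 : (⟨x, hxN⟩ : ↥N) ∈ (n • R : Sylow p ↥N) := by
    refine ⟨⟨_, hAN hx⟩, hR (mem_subgroupOf.mpr hx), ?_⟩
    ext
    change (n : G) * ((n : G)⁻¹ * x * n) * (n : G)⁻¹ = x
    group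
  rw [hn] at h3
  exact mem_subgroupOf.mp h3

theorem exists_FN (P : Sylow p G) (X : Subgroup G) (hX : X ≤ P) :
    ∃ g : G, up X g ≤ P ∧ FN P (up X g) ∧ up ((P : Subgroup G) ⊓ normalizer (X : Set G)) g ≤ P := by
  obtain ⟨R, hR1, hR2⟩ := exists_sylow_inf (p := p) (normalizer (X : Set G))
    ((P : Subgroup G) ⊓ normalizer (X : Set G)) inf_le_right P.2.to_inf_left
  obtain ⟨g, hg⟩ := MulAction.exists_smul_eq G R P
  have hPg : (P : Subgroup G) = up (R : Subgroup G) g⁻¹ := by
    unfold up
    rw [inv_inv, ← hg]; rfl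
  refine ⟨g⁻¹, ?_, ?_, ?_⟩
  · rw [hPg, up_le_up]
    exact (le_inf hX le_normalizer).trans hR1
  · unfold FN
    rw [← up_normalizer, hPg, ← up_inf, up_relIndex]
    exact hR2
  · refine le_trans (up_le_up.mpr hR1) ?_
    rw [hPg]

theorem exists_up_le (P : Sylow p G) {X Y : Subgroup G} (hY : Y ≤ P) (hFN : FN P Y) {h : G}
    (hXY : up X h = Y) : ∃ g : G, up X g = Y ∧ up ((P : Subgroup G) ⊓ normalizer (X : Set G)) g ≤ P := by
  have h1 : up ((P : Subgroup G) ⊓ normalizer (X : Set G)) h ≤ normalizer (Y : Set G) := by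
    rw [← hXY, ← up_normalizer, up_le_up]
    exact inf_le_right
  obtain ⟨n, hn, hle⟩ := exists_conj_le (p := p) (N := normalizer (Y : Set G))
    (S := (P : Subgroup G) ⊓ normalizer (Y : Set G)) inf_le_right P.2.to_inf_left hFN h1
    (up_isPGroup P.2.to_inf_left h)
  refine ⟨h * n, ?_, ?_⟩
  · rw [up_mul, hXY, up_eq hn]
  · rw [up_mul]
    exact hle.trans inf_le_left

end FN

/-! ### The main theorem -/

section Main

variable [Finite G] {p : ℕ} [hp : Fact p.Prime]

/-- allowed factors -/
def KK (W V : Subgroup G → Subgroup G) (T : Subgroup G) : Set G :=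
  {b | b ∈ normalizer ((W T : Subgroup G) : Set G) ∨ b ∈ centralizer ((V T : Subgroup G) : Set G)}

theorem KK_inv {W V : Subgroup G → Subgroup G} {T : Subgroup G} : ∀ b ∈ KK W V T, b⁻¹ ∈ KK W V T := by
  rintro b (h | h)
  · exact Or.inl (inv_mem h)
  · exact Or.inr (inv_mem h)

theorem functor_up {W : Subgroup G → Subgroup G} (hW : IsConjugacyFunctor p W) {T : Subgroup G}
    (hT : IsPGroup p ↥T) (g : G) : W (up T g) = up (W T) g := (hW T hT).2.2 g⁻¹

theorem inf_centralizer_mono {P T H : Subgroup G} (hTP : T ≤ P)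
    (h : P ⊓ centralizer (P : Set G) ≤ H) (hHT : H ≤ T) :
    P ⊓ centralizer (P : Set G) ≤ T ⊓ centralizer (T : Set G) :=
  le_inf (h.trans hHT) (inf_le_right.trans (centralizer_le hTP))

theorem main (P : Sylow p G) (hP1 : (P : Subgroup G) ≠ ⊥) (W V : Subgroup G → Subgroup G)
    (hW : IsConjugacyFunctor p W) (hV : IsConjugacyFunctor p V)
    (hWZ : ∀ H : Subgroup G, IsPGroup p ↥H → H ⊓ centralizer (H : Set G) ≤ W H)
    (hVmono : ∀ H K : Subgroup G, IsPGroup p ↥H → IsPGroup p ↥K → H ≠ ⊥ → K ≠ ⊥ →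
      H ⊓ centralizer (H : Set G) ≤ K ⊓ centralizer (K : Set G) → V H ≤ V K)
    (hloc : ∀ H : Subgroup G, (P : Subgroup G) ⊓ centralizer ((P : Subgroup G) : Set G) ≤ H →
      H ≤ (P : Subgroup G) → FN P H → ∀ (X : Subgroup G) (a : G),
      X ≤ (P : Subgroup G) ⊓ normalizer (H : Set G) → a ∈ normalizer (H : Set G) →
      up X a ≤ (P : Subgroup G) ⊓ normalizer (H : Set G) →
      Good (KK W V ((P : Subgroup G) ⊓ normalizer (H : Set G)))
        ((P : Subgroup G) ⊓ normalizer (H : Set G)) (X : Set G) a) :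
    ∀ (m : ℕ) (X : Subgroup G), X ≤ P → Nat.card ↥(P : Subgroup G) - Nat.card ↥X = m →
      ∀ a : G, up X a ≤ P → Good (KK W V P) P (X : Set G) a := by
  have hZ1 : (P : Subgroup G) ⊓ centralizer ((P : Subgroup G) : Set G) ≠ ⊥ := by
    have hnt : Nontrivial ↥(P : Subgroup G) := (Subgroup.nontrivial_iff_ne_bot _).mpr hP1
    have hcn : Nontrivial (center ↥(P : Subgroup G)) := P.2.center_nontrivial
    intro h
    obtain ⟨⟨z, hz⟩, hne⟩ := exists_ne (1 : center ↥(P : Subgroup G))
    have h1 : (z : G) ∈ (P : Subgroup G) ⊓ centralizer ((P : Subgroup G) : Set G) := by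
      refine mem_inf.mpr ⟨z.2, ?_⟩
      rw [mem_centralizer_iff]
      intro y hy
      exact congrArg Subtype.val (mem_center_iff.mp hz ⟨y, hy⟩)
    rw [h, mem_bot] at h1
    apply hne
    ext
    exact h1
  -- `C_G(V T) ≤ C_G(V P)`
  have hCV : ∀ T : Subgroup G, T ≤ P → (P : Subgroup G) ⊓ centralizer ((P : Subgroup G) : Set G) ≤ T →
      centralizer ((V T : Subgroup G) : Set G) ≤ centralizer ((V P : Subgroup G) : Set G) := by
    intro T hTP hZT
    apply centralizer_le
    refine hVmono P T P.2 (P.2.to_le hTP) hP1 ?_ (inf_centralizer_mono hTP hZT le_rfl)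
    intro h
    rw [h, le_bot_iff] at hZT
    exact hZ1 hZT
  intro m
  induction m using Nat.strong_induction_on with
  | _ m IH =>
  intro X hXP hm a haX
  have hcardle : ∀ A : Subgroup G, A ≤ P → Nat.card ↥A ≤ Nat.card ↥(P : Subgroup G) :=
    fun A hA => Subgroup.card_le_of_le hA
  -- outer induction hypothesis
  have OIH : ∀ A : Subgroup G, A ≤ P → Nat.card ↥X < Nat.card ↥A → ∀ b : G, up A b ≤ P →
      Good (KK W V P) P (A : Set G) b := by
    intro A hA hlt b hb
    exact IH _ (by have := hcardle A hA; have := hcardle X hXP; omega) A hA rfl b hb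
  rcases hXP.eq_or_lt with hXeq | hXlt
  · -- `X = P`
    have h1 : up X a = X := by
      apply Subgroup.eq_of_le_of_card_ge
      · rw [hXeq] at haX ⊢; exact haX
      · rw [card_up]
    have h2 : up (W P) a = W P := by
      rw [← functor_up hW P.2 a, ← hXeq, h1]
    refine Good.of_mem hXP (Or.inl (mem_normalizer_of_up_eq h2)) ?_
    rw [← coe_up]; exact haX
  -- Claim 2
  have claim2 : ∀ (k : ℕ) (T : Subgroup G), T ≤ P → Nat.card ↥(P : Subgroup G) - Nat.card ↥T = k →
      ∀ Y : Subgroup G, Y ≤ T → Nat.card ↥Y = Nat.card ↥X →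
      (∀ g, up Y g ≤ P → (P : Subgroup G) ⊓ centralizer ((up Y g : Subgroup G) : Set G) ≤ up Y g) →
      ∀ b ∈ normalizer ((W T : Subgroup G) : Set G), up Y b ≤ T →
      Good (KK W V P) P (Y : Set G) b := by
    intro k
    induction k using Nat.strong_induction_on with
    | _ k IH2 =>
    intro T hTP hk Y hYT hYc hcent b hb hbY
    have hTp : IsPGroup p ↥T := P.2.to_le hTP
    rcases hTP.eq_or_lt with hTeq | hTlt
    · refine Good.of_mem (hYT.trans hTP) (Or.inl (hTeq ▸ hb)) ?_
      rw [← coe_up]; exact hbY.trans hTP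
    · set H := W T with hH
      have hHT : H ≤ T := (hW T hTp).1
      have hHP : H ≤ P := hHT.trans hTP
      obtain ⟨g, hg1, hg2, hg3⟩ := exists_FN P H hHP
      set R := (P : Subgroup G) ⊓ normalizer (H : Set G) with hR
      -- `N_P(T) ≤ N_P(H)`
      have hTR : T < R := by
        have h1 := lt_inf_normalizer (p := p) (P : Subgroup G) T P.2 hTlt
        refine lt_of_lt_of_le h1 (le_inf inf_le_left ?_)
        intro x hx
        apply mem_normalizer_of_up_eq
        rw [hH, ← functor_up hW hTp, up_eq hx.2]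
      have hRP : R ≤ P := inf_le_left
      have hYcard : Nat.card ↥Y ≤ Nat.card ↥T := Subgroup.card_le_of_le hYT
      have hTRc : Nat.card ↥T < Nat.card ↥R := card_lt_of_lt hTR
      have hgR : Good (KK W V P) P (R : Set G) g := OIH R hRP (by omega) g hg3
      set H' := up H g with hH'
      have hT'P : up T g ≤ P := (up_le_up.mpr hTR.le).trans hg3
      have hWT' : W (up T g) = H' := functor_up hW hTp g
      set X' := up Y g with hX'
      have hX'T' : X' ≤ up T g := up_le_up.mpr hYT
      have hX'P : X' ≤ P := hX'T'.trans hT'P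
      have hZX' : (P : Subgroup G) ⊓ centralizer ((P : Subgroup G) : Set G) ≤ X' := by
        refine le_trans ?_ (hcent g hX'P)
        exact inf_le_inf_left _ (centralizer_le hX'P)
      have hZH' : (P : Subgroup G) ⊓ centralizer ((P : Subgroup G) : Set G) ≤ H' := by
        rw [← hWT']
        refine le_trans ?_ (hWZ _ (up_isPGroup hTp g))
        exact inf_centralizer_mono hT'P (hZX'.trans hX'T') le_rfl
      set T1 := (P : Subgroup G) ⊓ normalizer (H' : Set G) with hT1
      have hRT1 : up R g ≤ T1 := by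
        refine le_inf hg3 ?_
        rw [hH', ← up_normalizer, up_le_up]
        exact inf_le_right
      have hT1c : Nat.card ↥T < Nat.card ↥T1 := by
        refine lt_of_lt_of_le hTRc ?_
        rw [← card_up R g]
        exact Subgroup.card_le_of_le hRT1
      have hX'T1 : X' ≤ T1 := (up_le_up.mpr (hYT.trans hTR.le)).trans hRT1
      set b' := g⁻¹ * b * g with hb'
      have hb'N : b' ∈ normalizer (H' : Set G) := by
        rw [hH', ← up_normalizer, mem_up]
        have : g * b' * g⁻¹ = b := by rw [hb']; group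
        rw [this]; exact hb
      have hX'b' : up X' b' = up (up Y b) g := by
        rw [hX', ← up_mul, ← up_mul]
        congr 1
        rw [hb']; group
      have hX'b'T1 : up X' b' ≤ T1 := by
        rw [hX'b']
        exact (up_le_up.mpr (hbY.trans hTR.le)).trans hRT1
      have hloc' := hloc H' hZH' hg1 hg2 X' b' hX'T1 hb'N hX'b'T1
      have hT1P : T1 ≤ P := inf_le_left
      have hgood' : Good (KK W V P) P (X' : Set G) b' := by
        refine Good.lift hT1P ?_ hloc'
        rintro Y2 ⟨c, hc⟩ hY2T1 d hd hdY2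
        rcases hd with hd | hd
        · have hcard1 := hcardle T1 hT1P
          have hcard2 := hcardle T hTP
          refine IH2 _ (by omega) T1 hT1P rfl Y2 hY2T1 ?_ ?_ d hd hdY2
          · rw [hc, hX', card_up, card_up, hYc]
          · intro e he
            rw [hc, hX', ← up_mul, ← up_mul] at he ⊢
            exact hcent _ he
        · refine Good.of_mem (hY2T1.trans hT1P) (Or.inr ?_) ?_
          · exact hCV T1 hT1P (hZX'.trans hX'T1) hd
          · rw [← coe_up]; exact hdY2.trans hT1P
      -- assemble `b = g b' g⁻¹`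
      have h1 : Good (KK W V P) P (Y : Set G) g := hgR.mono (hYT.trans hTR.le)
      have h2 : Good (KK W V P) P (Y : Set G) (g * b') := by
        refine h1.trans ?_
        rw [← coe_up]; exact hgood'
      have h3 : Good (KK W V P) P ((up Y b : Subgroup G) : Set G) g :=
        hgR.mono (hbY.trans hTR.le)
      have h4 := h3.symm KK_inv
      rw [← coe_up, ← hX'b'] at h4
      have h5 : Good (KK W V P) P (Y : Set G) (g * b' * g⁻¹) := by
        refine h2.trans ?_
        rw [cset_mul, ← coe_up, ← coe_up]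
        exact h4
      have h6 : g * b' * g⁻¹ = b := by rw [hb']; group
      rwa [h6] at h5
  -- Step 1: reduce to `N_G(Y)`, `Y` fully normalized
  obtain ⟨h, hY1, hY2, -⟩ := exists_FN P X hXP
  set Y := up X h with hYd
  have hYc : Nat.card ↥Y = Nat.card ↥X := card_up X h
  obtain ⟨g1, hg1, hg1'⟩ := exists_up_le P hY1 hY2 (X := X) (h := h) rfl
  obtain ⟨g2, hg2, hg2'⟩ := exists_up_le P hY1 hY2 (X := up X a) (h := a⁻¹ * h)
    (by rw [← up_mul, mul_inv_cancel_left])
  have hXac : Nat.card ↥(up X a) = Nat.card ↥X := card_up X a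
  have hXalt : up X a < P := by
    refine lt_of_le_of_ne haX ?_
    intro h3
    have h4 := card_lt_of_lt hXlt
    rw [← hXac, h3] at h4
    exact lt_irrefl _ h4
  have hgood1 : Good (KK W V P) P (X : Set G) g1 := by
    have h3 := lt_inf_normalizer (p := p) (P : Subgroup G) X P.2 hXlt
    exact (OIH _ inf_le_left (card_lt_of_lt h3) g1 hg1').mono h3.le
  have hgood2 : Good (KK W V P) P ((up X a : Subgroup G) : Set G) g2 := by
    have h3 := lt_inf_normalizer (p := p) (P : Subgroup G) (up X a) P.2 hXalt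
    exact (OIH _ inf_le_left (hXac ▸ card_lt_of_lt h3) g2 hg2').mono h3.le
  set n := g1⁻¹ * a * g2 with hn
  have hnY : n ∈ normalizer (Y : Set G) := by
    apply mem_normalizer_of_up_eq
    conv_lhs => rw [← hg1]
    rw [← up_mul, ← hg2, ← up_mul]
    congr 1
    rw [hn]; group
  suffices hgoodn : Good (KK W V P) P (Y : Set G) n by
    have h3 : Good (KK W V P) P (X : Set G) (g1 * n) := by
      refine hgood1.trans ?_
      rw [← coe_up, hg1]; exact hgoodn
    have h4 := hgood2.symm KK_inv
    rw [← coe_up, hg2] at h4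
    have h5 : Good (KK W V P) P (X : Set G) (g1 * n * g2⁻¹) := by
      refine h3.trans ?_
      rw [cset_mul, ← coe_up, ← coe_up, hg1, up_eq hnY]
      exact h4
    have h6 : g1 * n * g2⁻¹ = a := by rw [hn]; group
    rwa [h6] at h5
  -- Step 2
  have hYlt : Y < P := by
    refine lt_of_le_of_ne hY1 ?_
    intro h3
    have h4 := card_lt_of_lt hXlt
    rw [← hYc, h3] at h4
    exact lt_irrefl _ h4
  set T := (P : Subgroup G) ⊓ normalizer (Y : Set G) with hT
  have hYT : Y ≤ T := le_inf hY1 le_normalizer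
  have hCN : centralizer (Y : Set G) ≤ normalizer (Y : Set G) := by
    intro x hx
    apply mem_normalizer_of_up_eq
    apply SetLike.coe_injective
    rw [coe_up]
    exact cset_of_mem_centralizer hx
  -- `C_P(Y)` is Sylow in `C_G(Y)`
  set S0 := (P : Subgroup G) ⊓ centralizer (Y : Set G) with hS0
  have hS0p : IsPGroup p ↥S0 := P.2.to_inf_left
  have hS0i : ¬ p ∣ S0.relIndex (centralizer (Y : Set G)) := by
    intro hd
    apply hY2
    -- `[C : T ∩ C]` divides `[N : T]`
    have h3 : S0.relIndex (centralizer (Y : Set G)) ∣ T.relIndex (normalizer (Y : Set G)) := by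
      have h4 : S0 = T ⊓ centralizer (Y : Set G) := by
        rw [hS0, hT, inf_assoc, inf_eq_right.mpr hCN]
      have hTC : T ≤ normalizer ((centralizer (Y : Set G) : Subgroup G) : Set G) := by
        intro x hx
        apply mem_normalizer_of_up_eq
        rw [up_centralizer, up_eq hx.2]
      rw [h4, inf_relIndex_right, relIndex_sup_of_normalizes hTC]
      rw [← relIndex_mul_relIndex T (T ⊔ centralizer (Y : Set G)) (normalizer (Y : Set G))
        le_sup_left (sup_le inf_le_right hCN)]
      exact Dvd.intro _ rfl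
    exact hd.trans h3
  by_cases hcentY : S0 ≤ Y
  · -- centric case
    have hcent : ∀ g, up Y g ≤ P →
        (P : Subgroup G) ⊓ centralizer ((up Y g : Subgroup G) : Set G) ≤ up Y g := by
      intro g _
      set D := (P : Subgroup G) ⊓ centralizer ((up Y g : Subgroup G) : Set G) with hD
      have hDp : IsPGroup p ↥(up D g⁻¹) := up_isPGroup P.2.to_inf_left _
      have hDC : up D g⁻¹ ≤ centralizer (Y : Set G) := by
        intro x hx
        rw [mem_up, inv_inv] at hx
        rw [mem_centralizer_iff]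
        intro y hy
        have h3 : g⁻¹ * y * g ∈ ((up Y g : Subgroup G) : Set G) := by
          rw [SetLike.mem_coe, mem_up]
          have : g * (g⁻¹ * y * g) * g⁻¹ = y := by group
          rw [this]; exact hy
        have h4 := mem_centralizer_iff.mp hx.2 _ h3
        calc y * x = g * (g⁻¹ * y * g * (g⁻¹ * x * g)) * g⁻¹ := by group
          _ = g * (g⁻¹ * x * g * (g⁻¹ * y * g)) * g⁻¹ := by rw [h4]
          _ = x * y := by group
      obtain ⟨c, hc, hcle⟩ := exists_conj_le (p := p) (N := centralizer (Y : Set G)) (S := S0)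
        inf_le_right hS0p hS0i hDC hDp
      have h3 : up D g⁻¹ ≤ Y := by
        rw [← up_le_up (g := c), up_eq (hCN hc)]
        exact hcle.trans hcentY
      rw [← up_le_up (g := g⁻¹), ← up_mul, mul_inv_cancel, up_one]
      exact h3
    have hZY : (P : Subgroup G) ⊓ centralizer ((P : Subgroup G) : Set G) ≤ Y :=
      le_trans (inf_le_inf_left _ (centralizer_le hY1)) hcentY
    have hTP : T ≤ P := inf_le_left
    have hloc' := hloc Y hZY hY1 hY2 Y n hYT hnY (by rw [up_eq hnY]; exact hYT)
    refine Good.lift hTP ?_ hloc'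
    rintro Y2 ⟨c, hc⟩ hY2T d hd hdY2
    rcases hd with hd | hd
    · refine claim2 _ T hTP rfl Y2 hY2T ?_ ?_ d hd hdY2
      · rw [hc, card_up, hYc]
      · intro e he
        rw [hc, ← up_mul] at he ⊢
        exact hcent _ he
    · refine Good.of_mem (hY2T.trans hTP) (Or.inr (hCV T hTP (hZY.trans hYT) hd)) ?_
      rw [← coe_up]; exact hdY2.trans hTP
  · -- non-centric case
    have hS0N : up S0 n⁻¹ ≤ centralizer (Y : Set G) := by
      have h3 : up (centralizer (Y : Set G)) n⁻¹ = centralizer (Y : Set G) := by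
        rw [up_centralizer, up_eq (inv_mem hnY)]
      rw [← h3, up_le_up]
      exact inf_le_right
    obtain ⟨c, hc, hcle⟩ := exists_conj_le (p := p) (N := centralizer (Y : Set G)) (S := S0)
        inf_le_right hS0p hS0i hS0N (up_isPGroup hS0p _)
    have h3 : up S0 (n⁻¹ * c) = S0 := by
      apply Subgroup.eq_of_le_of_card_ge
      · rw [up_mul]; exact hcle
      · rw [card_up]
    have hm : c⁻¹ * n ∈ normalizer (S0 : Set G) := by
      have h4 := inv_mem (mem_normalizer_of_up_eq h3)
      rwa [mul_inv_rev, inv_inv] at h4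
    have hmY : c⁻¹ * n ∈ normalizer (Y : Set G) := mul_mem (inv_mem (hCN hc)) hnY
    set Y1 := Y ⊔ S0 with hY1d
    have hY1P : Y1 ≤ P := sup_le hY1 inf_le_left
    have hY1up : up Y1 (c⁻¹ * n) = Y1 := by
      have h4 : up Y1 (c⁻¹ * n) = up Y (c⁻¹ * n) ⊔ up S0 (c⁻¹ * n) := Subgroup.smul_sup _ _ _
      rw [h4, up_eq hmY, up_eq hm]
    have hYY1 : Y < Y1 := by
      refine lt_of_le_of_ne le_sup_left ?_
      intro h4
      apply hcentY
      rw [h4]; exact le_sup_right
    have h4 := OIH Y1 hY1P (hYc ▸ card_lt_of_lt hYY1) (c⁻¹ * n) (by rw [hY1up]; exact hY1P)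
    have h5 : Good (KK W V P) P (Y : Set G) (c * (c⁻¹ * n)) := by
      refine (Good.of_cent hY1 hc).trans ?_
      rw [cset_of_mem_centralizer hc]
      exact h4.mono hYY1.le
    rwa [mul_inv_cancel_left] at h5

end Main

/-! ### transport -/

section Transport

theorem cset_conj (g b : G) (X : Set G) : cset (g⁻¹ * b * g) (cset g X) = cset g (cset b X) := by
  rw [← cset_mul, ← cset_mul]
  congr 1
  group

theorem Ch.conj {K : Set G} {T : Subgroup G} (g : G) {l : List G} : ∀ {X : Set G}, Ch K T X l →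
    Ch (cset g K) (up T g) (cset g X) (l.map (fun b => g⁻¹ * b * g)) := by
  induction l with
  | nil =>
    intro X h
    change cset g X ⊆ ((up T g : Subgroup G) : Set G)
    rw [coe_up]
    exact cset_mono h
  | cons b l ih =>
    intro X h
    refine ⟨?_, ⟨b, h.2.1, rfl⟩, ?_⟩
    · rw [coe_up]; exact cset_mono h.1
    · rw [cset_conj]
      exact ih h.2.2

theorem prod_map_conj (g : G) (l : List G) : (l.map (fun b => g⁻¹ * b * g)).prod = g⁻¹ * l.prod * g := by
  induction l with
  | nil => simp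
  | cons b l ih => rw [List.map_cons, List.prod_cons, List.prod_cons, ih]; group

theorem Good.conj {K : Set G} {T : Subgroup G} {X : Set G} {a : G} (g : G) (h : Good K T X a) :
    Good (cset g K) (up T g) (cset g X) (g⁻¹ * a * g) := by
  obtain ⟨c, hc, l, hl, rfl⟩ := h
  refine ⟨g⁻¹ * c * g, ?_, _, hl.conj g, ?_⟩
  · rw [mem_centralizer_iff]
    rintro _ ⟨x, hx, rfl⟩
    have h3 := mem_centralizer_iff.mp hc x hx
    calc g⁻¹ * x * g * (g⁻¹ * c * g) = g⁻¹ * (x * c) * g := by group
      _ = g⁻¹ * (c * x) * g := by rw [h3]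
      _ = g⁻¹ * c * g * (g⁻¹ * x * g) := by group
  · rw [prod_map_conj]; group

theorem Ch.monoK {K K' : Set G} (hK : K ⊆ K') {T : Subgroup G} {l : List G} : ∀ {X : Set G},
    Ch K T X l → Ch K' T X l := by
  induction l with
  | nil => intro X h; exact h
  | cons b l ih => intro X h; exact ⟨h.1, hK h.2.1, ih h.2.2⟩

theorem Good.monoK {K K' : Set G} (hK : K ⊆ K') {T : Subgroup G} {X : Set G} {a : G}
    (h : Good K T X a) : Good K' T X a := by
  obtain ⟨c, hc, l, hl, rfl⟩ := h
  exact ⟨c, hc, l, hl.monoK hK, rfl⟩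

theorem cset_KK [Finite G] {p : ℕ} [Fact p.Prime] {W V : Subgroup G → Subgroup G} (hW : IsConjugacyFunctor p W)
    (hV : IsConjugacyFunctor p V) {T : Subgroup G} (hT : IsPGroup p ↥T) (g : G) :
    cset g (KK W V T) ⊆ KK W V (up T g) := by
  rintro _ ⟨b, hb, rfl⟩
  rcases hb with hb | hb
  · left
    rw [functor_up hW hT, ← up_normalizer, mem_up]
    have : g * (g⁻¹ * b * g) * g⁻¹ = b := by group
    rw [this]; exact hb
  · right
    rw [functor_up hV hT, ← up_centralizer, mem_up]
    have : g * (g⁻¹ * b * g) * g⁻¹ = b := by group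
    rw [this]; exact hb

end Transport

end Cfsg.Agent.Lib.H34StrongFusion
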