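import Cfsg.Agent.Lib.H34ZQ
import Cfsg.Agent.Lib.LocBase
import Cfsg.Agent.Lib.Involve
import Cfsg.Agent.Lib.BinPslE

/-!
# Elementary abelian 2-groups acting on central extensions of `PSL₂(3^odd)` in an `S₃`-free group (helper34)
-/

set_option autoImplicit false
set_option linter.unusedSectionVars false

namespace Cfsg.Agent.Lib.H34ZL

open Subgroup Cfsg.Agent.Lib.LocBase Cfsg.Agent.Lib.H34ZQ Cfsg.Agent.Lib.H34SolvOff

section s3
variable {G : Type*} [Group G] [Finite G]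

theorem perm3 : ∀ α β γ : Equiv.Perm (Fin 3), α ≠ 1 → α * α = 1 → β ≠ 1 → β * β * β = 1 →
    γ = 1 ∨ γ = β ∨ γ = β * β ∨ γ = α ∨ γ = α * β ∨ γ = α * (β * β) := by decide +kernel

theorem perm3_odd : ∀ β : Equiv.Perm (Fin 3), β ≠ 1 → β * β ≠ 1 → β * β * β = 1 := by decide +kernel

/-- In an `S₃`-free group, an involution normalizing a group of order four which is normalized, but not centralized, by an
element of odd order, centralizes it. -/
theorem four_comm (hS3 : ¬ Cfsg.Involves (Equiv.Perm (Fin 3)) G) {P : Subgroup G} (hP : Nat.card P = 4)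
    {h : G} (hh : h ∈ normalizer (P : Set G)) (hho : Odd (orderOf h)) (hhn : ∃ p ∈ P, h * p ≠ p * h)
    {a : G} (ha : a ∈ normalizer (P : Set G)) (ha2 : a * a = 1) : ∀ p ∈ P, a * p = p * a := by
  classical
  by_contra hcon
  push Not at hcon
  apply hS3
  have hcard : Nat.card {w : P // w ≠ 1} = 3 := by
    have _ := Fintype.ofFinite P
    have h1 : Nat.card {w : P // w ≠ 1} = Nat.card P - 1 := by
      rw [Nat.card_eq_fintype_card, Fintype.card_subtype_compl, Fintype.card_subtype_eq, Nat.card_eq_fintype_card]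
    omega
  have hfin : Finite {w : P // w ≠ 1} := inferInstance
  obtain ⟨e⟩ : Nonempty ({w : P // w ≠ 1} ≃ Fin 3) := by
    have _ := Fintype.ofFinite {w : P // w ≠ 1}
    exact ⟨Fintype.equivFinOfCardEq (by rw [← Nat.card_eq_fintype_card]; exact hcard)⟩
  let κ : normalizer (P : Set G) →* MulAut P := P.normalizerMonoidHom
  have hκ : ∀ (g : normalizer (P : Set G)) (w : P), ((κ g w : P) : G) = g * w * (g : G)⁻¹ := fun g w => rfl
  let τ : MulAut P →* Equiv.Perm {w : P // w ≠ 1} :=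
    MonoidHom.mk' (fun f => Equiv.Perm.subtypePerm (f.toEquiv : Equiv.Perm P) (fun w => by
      show f w ≠ 1 ↔ w ≠ 1
      rw [not_iff_not]
      exact map_eq_one_iff f f.injective)) (by
      intro f g
      ext w
      rfl)
  have hτ : ∀ f w, ((τ f w : {w : P // w ≠ 1}) : P) = f w := fun f w => rfl
  let μ : Equiv.Perm {w : P // w ≠ 1} ≃* Equiv.Perm (Fin 3) :=
    MulEquiv.mk' e.permCongr (by
      intro x y
      ext i
      simp [Equiv.permCongr_apply])
  let f : normalizer (P : Set G) →* Equiv.Perm (Fin 3) := (μ.toMonoidHom.comp τ).comp κ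
  have hf1 : ∀ g : normalizer (P : Set G), f g = 1 ↔ ∀ p ∈ P, (g : G) * p = p * g := by
    intro g
    have h1 : f g = 1 ↔ τ (κ g) = 1 := by
      show μ (τ (κ g)) = 1 ↔ _
      exact map_eq_one_iff μ μ.injective
    rw [h1]
    constructor
    · intro h2 p hp
      by_cases hp1 : p = 1
      · rw [hp1, mul_one, one_mul]
      · have h3 := congrArg (fun (s : Equiv.Perm {w : P // w ≠ 1}) => ((s ⟨⟨p, hp⟩, fun h => hp1 (congrArg Subtype.val h)⟩ : {w : P // w ≠ 1}) : P)) h2
        have h4 := congrArg Subtype.val h3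
        have h5 : (g : G) * p * (g : G)⁻¹ = p := h4
        exact mul_inv_eq_iff_eq_mul.mp h5
    · intro h2
      ext w
      show (g : G) * w * (g : G)⁻¹ = w
      rw [h2 w (Subtype.coe_prop _), mul_inv_cancel_right]
  refine Involve.involves_of_hom f ?_
  set α := f ⟨a, ha⟩ with hα
  set β := f ⟨h, hh⟩ with hβ
  have hα1 : α ≠ 1 := by
    rw [hα, Ne, hf1]
    push Not
    exact hcon
  have hα2 : α * α = 1 := by
    rw [hα, ← map_mul]
    have : (⟨a, ha⟩ * ⟨a, ha⟩ : normalizer (P : Set G)) = 1 := Subtype.ext ha2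
    rw [this, map_one]
  have hβ1 : β ≠ 1 := by
    rw [hβ, Ne, hf1]
    push Not
    exact hhn
  have hβo : Odd (orderOf β) := by
    have h1 : orderOf β ∣ orderOf (⟨h, hh⟩ : normalizer (P : Set G)) := orderOf_map_dvd f _
    rw [Subgroup.orderOf_mk] at h1
    exact hho.of_dvd_nat h1
  have hβ2 : β * β ≠ 1 := by
    intro h2
    have h3 : orderOf β ∣ 2 := orderOf_dvd_of_pow_eq_one (by rw [pow_two]; exact h2)
    rcases (Nat.dvd_prime Nat.prime_two).mp h3 with h4 | h4
    · exact hβ1 (orderOf_eq_one_iff.mp h4)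
    · rw [h4] at hβo
      exact absurd hβo (by decide)
  have hβ3 := perm3_odd β hβ1 hβ2
  intro γ
  rcases perm3 α β γ hα1 hα2 hβ1 hβ3 with h0 | h0 | h0 | h0 | h0 | h0
  · exact ⟨1, by rw [map_one, h0]⟩
  · exact ⟨_, h0.symm⟩
  · exact ⟨⟨h, hh⟩ * ⟨h, hh⟩, by rw [map_mul, h0]⟩
  · exact ⟨_, h0.symm⟩
  · exact ⟨⟨a, ha⟩ * ⟨h, hh⟩, by rw [map_mul, h0]⟩
  · exact ⟨⟨a, ha⟩ * (⟨h, hh⟩ * ⟨h, hh⟩), by rw [map_mul, map_mul, h0]⟩

/-- Burnside: a perfect group with abelian Sylow 2-subgroup `P ≠ 1` has an odd order element normalizing, but not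
centralizing `P` -/
theorem exists_odd_norm {X P : Subgroup G} (hX : ⁅X, X⁆ = X) (hP : IsSyl 2 P X) (hP1 : P ≠ ⊥)
    (hPc : ∀ x ∈ P, ∀ y ∈ P, x * y = y * x) :
    ∃ h ∈ X, h ∈ normalizer (P : Set G) ∧ Odd (orderOf h) ∧ ∃ p ∈ P, h * p ≠ p * h := by
  classical
  have h2p : Fact (Nat.Prime 2) := ⟨Nat.prime_two⟩
  obtain ⟨Q, hQ⟩ := hP.exists_sylow'
  have hfi : (Q : Subgroup X).FiniteIndex := inferInstance
  have hQc : ∀ x ∈ (Q : Subgroup X), ∀ y ∈ (Q : Subgroup X), x * y = y * x := by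
    intro x hx y hy
    apply Subtype.ext
    exact hPc x (by rw [← hQ]; exact ⟨x, hx, rfl⟩) y (by rw [← hQ]; exact ⟨y, hy, rfl⟩)
  have hnc : ¬ normalizer ((Q : Subgroup X) : Set X) ≤ centralizer ((Q : Subgroup X) : Set X) := by
    intro hle
    have h1 := MonoidHom.ker_transferSylow_isComplement' Q hle
    -- the transfer is trivial
    have h3 : commutator X ≤ (MonoidHom.transferSylow Q hle).ker := by
      rw [_root_.commutator_def, Subgroup.commutator_le]
      intro x _ y _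
      rw [MonoidHom.mem_ker, map_commutatorElement, commutatorElement_eq_one_iff_mul_comm]
      apply Subtype.ext
      exact hQc _ (Subtype.coe_prop _) _ (Subtype.coe_prop _)
    have h4 : commutator X = ⊤ := by
      rw [_root_.commutator_def]
      apply Subgroup.map_injective X.subtype_injective
      rw [Subgroup.map_commutator, ← MonoidHom.range_eq_map, Subgroup.range_subtype, hX]
    rw [h4, top_le_iff] at h3
    rw [h3] at h1
    have h5 : (Q : Subgroup X) = ⊥ := by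
      have := h1.disjoint
      rw [disjoint_iff, top_inf_eq] at this
      exact this
    apply hP1
    rw [← hQ, h5, Subgroup.map_bot]
  obtain ⟨g, hg, hgc⟩ : ∃ g ∈ normalizer ((Q : Subgroup X) : Set X), g ∉ centralizer ((Q : Subgroup X) : Set X) := by
    by_contra hcon
    push Not at hcon
    exact hnc hcon
  -- normalizing and not centralizing in G
  have hgN : (g : G) ∈ normalizer (P : Set G) := by
    apply mem_normalizer_of_map_conj_le
    rintro _ ⟨_, hy, rfl⟩
    rw [SetLike.mem_coe, ← hQ] at hy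
    obtain ⟨y, hy, rfl⟩ := hy
    rw [← hQ]
    exact ⟨g * y * g⁻¹, (mem_normalizer_iff.mp hg y).mp hy, rfl⟩
  have hgn : ∃ p ∈ P, (g : G) * p ≠ p * g := by
    rw [mem_centralizer_iff] at hgc
    push Not at hgc
    obtain ⟨p, hp, hne⟩ := hgc
    refine ⟨p, by rw [← hQ]; exact ⟨p, hp, rfl⟩, ?_⟩
    intro h
    exact hne (Subtype.ext h.symm)
  -- odd part
  obtain ⟨k, r, hr, hkr⟩ := Nat.exists_eq_two_pow_mul_odd (orderOf_pos (g : G)).ne'
  have hcop : Nat.Coprime (2 ^ k) r := (Nat.coprime_two_left.mpr hr).pow_left k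
  -- the two-part lies in P
  have h2part : (g : G) ^ r ∈ P := by
    have h1 : IsPGroup 2 ↥(P ⊔ zpowers ((g : G) ^ r)) := by
      rw [sup_comm]
      apply IsPGroup.to_sup_of_normal_right'
      · intro z
        refine ⟨k, ?_⟩
        obtain ⟨z, hz⟩ := z
        obtain ⟨j, rfl⟩ := mem_zpowers_iff.mp hz
        apply Subtype.ext
        show (((g : G) ^ r) ^ j) ^ (2 ^ k) = 1
        rw [← zpow_natCast, ← zpow_mul, mul_comm j, zpow_mul, zpow_natCast, ← pow_mul, mul_comm r, ← hkr, pow_orderOf_eq_one,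
          one_zpow]
      · exact hP.pgroup
      · rw [zpowers_le]
        exact pow_mem hgN r
    have h2 := hP.eq_of_le h1 (sup_le hP.le (by rw [zpowers_le]; exact pow_mem g.2 r)) le_sup_left
    have h3 : (g : G) ^ r ∈ P ⊔ zpowers ((g : G) ^ r) := (le_sup_right : _ ≤ P ⊔ _) (mem_zpowers _)
    rw [h2]
    exact h3
  refine ⟨(g : G) ^ (2 ^ k), pow_mem g.2 _, pow_mem hgN _, ?_, ?_⟩
  · rw [orderOf_pow' (g : G) (pow_ne_zero _ two_ne_zero), hkr, Nat.gcd_mul_right_left,
      Nat.mul_div_cancel_left _ (by positivity)]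
    exact hr
  · by_contra hcon
    push Not at hcon
    obtain ⟨p, hp, hne⟩ := hgn
    apply hne
    have c1 : Commute p ((g : G) ^ r) := hPc p hp _ h2part
    have c2 : Commute p ((g : G) ^ (2 ^ k)) := (hcon p hp).symm
    have hb := Nat.gcd_eq_gcd_ab (2 ^ k) r
    rw [hcop] at hb
    have h2 : (g : G) = ((g : G) ^ (2 ^ k)) ^ (Nat.gcdA (2 ^ k) r) * ((g : G) ^ r) ^ (Nat.gcdB (2 ^ k) r) := by
      rw [← zpow_natCast, ← zpow_natCast, ← zpow_mul, ← zpow_mul, ← zpow_add, ← hb]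
      simp
    have c3 : Commute p (g : G) := by
      rw [h2]
      exact (c2.zpow_right _).mul_right (c1.zpow_right _)
    exact c3.symm

end s3

section psl
variable {G : Type*} [Group G] [Finite G]
variable {F : Type} [Field F] [Fintype F]

local notation "PSL2" => Matrix.ProjectiveSpecialLinearGroup (Fin 2) F

theorem arith {n : ℕ} (hn : 1 ≤ n) : 27 ≤ 3 ^ (2 * n + 1) ∧ 3 ^ (2 * n + 1) % 8 = 3 := by
  constructor
  · calc 27 = 3 ^ 3 := by norm_num
      _ ≤ _ := Nat.pow_le_pow_right (by norm_num) (by omega)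
  · rw [pow_succ, pow_mul, Nat.mul_mod, Nat.pow_mod]
    norm_num

theorem simple_psl {n : ℕ} (hn : 1 ≤ n) (hF : Fintype.card F = 3 ^ (2 * n + 1)) : IsSimpleGroup PSL2 :=
  Matrix.ProjectiveSpecialLinearGroup.rank_two_simple (by
    have := (arith hn).1
    rw [Nat.card_eq_fintype_card, hF]; omega)

theorem card_psl {n : ℕ} (hn : 1 ≤ n) (hF : Fintype.card F = 3 ^ (2 * n + 1)) :
    ∃ m, Odd m ∧ Nat.card PSL2 = 4 * m := by
  obtain ⟨h1, h2⟩ := arith hn
  have h3 := MobCount.card_P2 (F := F) rfl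
  rw [hF] at h3
  obtain ⟨k, hk⟩ : ∃ k, 3 ^ (2 * n + 1) = 8 * k + 3 := ⟨3 ^ (2 * n + 1) / 8, by omega⟩
  rw [hk] at h3
  have h4 : Nat.gcd 2 (8 * k + 3 - 1) = 2 := by
    apply Nat.gcd_eq_left
    omega
  rw [h4] at h3
  refine ⟨(8 * k + 3) * ((4 * k + 1) * (2 * k + 1)), ?_, ?_⟩
  · exact (by exact ⟨4 * k + 1, by ring⟩ : Odd (8 * k + 3)).mul ((by exact ⟨2 * k, by ring⟩ : Odd (4 * k + 1)).mul ⟨k, rfl⟩)
  · have h5 : (8 * k + 3) ^ 2 - 1 = 8 * ((4 * k + 1) * (2 * k + 1)) := by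
      have : (8 * k + 3) ^ 2 = 8 * ((4 * k + 1) * (2 * k + 1)) + 1 := by ring
      omega
    rw [h5] at h3
    have h6 : 2 * Nat.card (MobCount.P2 F) = 2 * (4 * ((8 * k + 3) * ((4 * k + 1) * (2 * k + 1)))) := by
      rw [h3]; ring
    exact Nat.eq_of_mul_eq_mul_left two_pos h6

theorem not_comm_psl {n : ℕ} (hn : 1 ≤ n) (hF : Fintype.card F = 3 ^ (2 * n + 1)) : ¬ IsMulCommutative PSL2 := by
  intro h
  have hs := simple_psl hn hF
  obtain ⟨m, hm, hc⟩ := card_psl (F := F) hn hF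
  -- a simple abelian group has prime order
  have h1 : (Nat.card PSL2).Prime := by
    let _ : CommGroup PSL2 := { (inferInstance : Group PSL2) with mul_comm := fun a b => h.1.comm a b }
    exact IsSimpleGroup.prime_card (α := PSL2)
  rw [hc] at h1
  have h2 : 4 * m = 2 := (Nat.prime_dvd_prime_iff_eq Nat.prime_two h1).mp ⟨2 * m, by ring⟩ |>.symm
  omega

theorem psl2_case (hS3 : ¬ Cfsg.Involves (Equiv.Perm (Fin 3)) G) {n : ℕ} (hn : 1 ≤ n)
    (hF : Fintype.card F = 3 ^ (2 * n + 1)) {X : Subgroup G} (hX : QS X PSL2) {A : Subgroup G}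
    (hA2 : ∀ a ∈ A, a * a = 1) (hAX : A ≤ normalizer (X : Set G)) (hNI : NI A) :
    ∀ a ∈ A, ∀ x ∈ X, a * x = x * a := by
  classical
  have h2p : Fact (Nat.Prime 2) := ⟨Nat.prime_two⟩
  have hs := simple_psl hn hF
  have hnc := not_comm_psl hn hF
  obtain ⟨m, hm, hcS⟩ := card_psl (F := F) hn hF
  obtain ⟨hq27, hq8⟩ := arith hn
  obtain ⟨φ, h1, h2, h3⟩ := hX.mk' hnc
  have hAp : IsPGroup 2 A := fun a => ⟨1, by rw [pow_one, pow_two]; exact Subtype.ext (hA2 a a.2)⟩
  have hAXc : ∀ a ∈ A, ∀ x ∈ X, a * x * a⁻¹ ∈ X := fun a ha x hx => (mem_normalizer_iff.mp (hAX ha) x).mp hx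
  -- the kernel
  have hkodd : Odd (Nat.card φ.ker) := by
    by_contra hcon
    rw [Nat.not_odd_iff_even] at hcon
    obtain ⟨z, hz⟩ := exists_prime_orderOf_dvd_card' (G := φ.ker) 2 hcon.two_dvd
    have h4 := h3 z z.2
    rw [Subgroup.orderOf_coe, hz] at h4
    exact absurd h4 (by decide)
  have hcX : ∃ m', Odd m' ∧ Nat.card X = 4 * m' := by
    have h4 := Subgroup.card_eq_card_quotient_mul_card_subgroup φ.ker
    rw [Nat.card_congr (QuotientGroup.quotientKerEquivOfSurjective φ h1).toEquiv, hcS] at h4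
    exact ⟨m * Nat.card φ.ker, hm.mul hkodd, by rw [h4]; ring⟩
  obtain ⟨m', hm', hcX⟩ := hcX
  -- Sylow subgroup
  have hsupN : A ⊔ X ≤ normalizer (X : Set G) := sup_le hAX le_normalizer
  obtain ⟨T, hT, hAT⟩ := exists_isSyl_ge (A := A) (H := A ⊔ X) hAp le_sup_left
  have hP := hT.inf_normal le_sup_right hsupN
  obtain ⟨P, hPdef⟩ : ∃ P, P = T ⊓ X := ⟨_, rfl⟩
  rw [← hPdef] at hP
  have hAP : A ≤ normalizer (P : Set G) := by
    rw [hPdef]
    exact le_normalizer_inf (hAT.trans le_normalizer) hAX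
  have hPc4 : Nat.card P = 4 := by
    have h4 : Nat.card P * P.relIndex X = Nat.card X := by
      have := relIndex_mul_relIndex (⊥ : Subgroup G) P X bot_le hP.le
      rwa [relIndex_bot_left, relIndex_bot_left] at this
    obtain ⟨k, hk⟩ := IsPGroup.iff_card.mp hP.pgroup
    have h5 : ¬ 2 ∣ P.relIndex X := hP.ndvd
    rw [hcX, hk] at h4
    have h6 : 2 ^ k ∣ 4 := by
      have h7 : 2 ^ k ∣ 4 * m' := ⟨_, h4.symm⟩
      exact (Nat.Coprime.dvd_of_dvd_mul_right ((Nat.coprime_two_left.mpr hm').pow_left k) h7)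
    have h8 : 4 ∣ 2 ^ k := by
      have h7 : 4 ∣ 2 ^ k * P.relIndex X := ⟨m', h4⟩
      have h9 : Nat.Coprime 4 (P.relIndex X) := by
        have : (4 : ℕ) = 2 ^ 2 := rfl
        rw [this]
        exact (((Nat.Prime.coprime_iff_not_dvd Nat.prime_two).mpr h5)).pow_left 2
      exact h9.dvd_of_dvd_mul_right h7
    rw [hk]
    exact Nat.dvd_antisymm h6 h8
  have hPcomm : ∀ x ∈ P, ∀ y ∈ P, x * y = y * x := by
    have h4 : Nat.card P = 2 ^ 2 := hPc4
    have h5 := IsPGroup.isMulCommutative_of_card_eq_prime_sq h4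
    intro x hx y hy
    exact congrArg Subtype.val (h5.1.comm (⟨x, hx⟩ : P) ⟨y, hy⟩)
  have hP1 : P ≠ ⊥ := by
    intro h
    rw [h, Subgroup.card_bot] at hPc4
    omega
  obtain ⟨h, hhX, hhN, hho, hhn⟩ := exists_odd_norm hX.perf hP hP1 hPcomm
  -- A centralizes P
  have hAPc : ∀ a ∈ A, ∀ p ∈ P, a * p = p * a := fun a ha =>
    four_comm hS3 hPc4 hhN hho hhn (hAP ha) (hA2 a ha)
  -- two involutions
  obtain ⟨t, htP, htn⟩ := hhn
  obtain ⟨t', ht'⟩ : ∃ t', t' = h * t * h⁻¹ := ⟨_, rfl⟩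
  have ht'P : t' ∈ P := by rw [ht']; exact (mem_normalizer_iff.mp hhN t).mp htP
  have htt' : t ≠ t' := by
    intro e
    apply htn
    rw [ht'] at e
    have := e.symm
    rwa [mul_inv_eq_iff_eq_mul] at this
  have ht1 : t ≠ 1 := by
    rintro rfl
    apply htn
    rw [mul_one, one_mul]
  have ht'1 : t' ≠ 1 := by
    intro e
    apply ht1
    rw [ht'] at e
    have : t = h⁻¹ * (h * t * h⁻¹) * h := by group
    rw [this, e]; group
  have htt : t * t = 1 := by
    by_contra hcon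
    have ho : orderOf t = 4 := by
      have h4 : orderOf (⟨t, htP⟩ : P) ∣ 4 := by rw [← hPc4]; exact orderOf_dvd_natCard _
      rw [Subgroup.orderOf_mk] at h4
      have h5 : orderOf t ∣ 2 ^ 2 := h4
      rw [Nat.dvd_prime_pow Nat.prime_two] at h5
      obtain ⟨j, hj, hj'⟩ := h5
      interval_cases j
      · exact absurd (orderOf_eq_one_iff.mp hj') ht1
      · exfalso
        apply hcon
        have := pow_orderOf_eq_one t
        rw [hj', pow_one, pow_two] at this
        exact this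
      · exact hj'
    have hz : zpowers t = P := Subgroup.eq_of_le_of_card_ge (by rw [zpowers_le]; exact htP) (by
      rw [Nat.card_zpowers, ho, hPc4])
    have ho' : orderOf t' = 4 := by
      rw [ht', ← ho]; exact (MulAut.conj h).orderOf_eq t
    have h6 : t' = t⁻¹ := by
      rw [← hz, ← (isOfFinOrder_of_finite t).mem_powers_iff_mem_zpowers] at ht'P
      obtain ⟨j, hj⟩ := ht'P
      have hj' : t ^ j = t' := hj
      have h7 : t ^ (j % 4) = t' := by rw [← hj', ← ho, pow_mod_orderOf]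
      have h8 : j % 4 < 4 := Nat.mod_lt _ (by norm_num)
      have ht4 : t ^ 4 = 1 := by rw [← ho]; exact pow_orderOf_eq_one t
      interval_cases (j % 4)
      · exact absurd h7.symm (by rw [pow_zero]; exact ht'1)
      · exact absurd (by rw [← h7, pow_one]) htt'
      · exfalso
        have h9 : t' ^ 2 = 1 := by rw [← h7, ← pow_mul]; exact ht4
        have h10 : orderOf t' ∣ 2 := orderOf_dvd_of_pow_eq_one h9
        rw [ho'] at h10
        omega
      · rw [← h7]
        exact eq_inv_of_mul_eq_one_left (by rw [← pow_succ]; exact ht4)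
    have h7 : h * t * h⁻¹ = t⁻¹ := by rw [← ht', h6]
    have h8 : (h * h) * t * (h * h)⁻¹ = t := by
      calc (h * h) * t * (h * h)⁻¹ = h * (h * t * h⁻¹) * h⁻¹ := by group
        _ = h * t⁻¹ * h⁻¹ := by rw [h7]
        _ = (h * t * h⁻¹)⁻¹ := by group
        _ = t := by rw [h7, inv_inv]
    have h9 : Commute (h ^ 2) t := by rw [pow_two]; exact mul_inv_eq_iff_eq_mul.mp h8
    have h10 : Commute h t := by
      obtain ⟨k, hk⟩ := exists_pow_eq_self_of_coprime (x := h) (n := 2) (Nat.coprime_two_left.mpr hho)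
      rw [← hk]
      exact h9.pow_left k
    exact htn h10
  have ht't' : t' * t' = 1 := by
    have : t' * t' = h * (t * t) * h⁻¹ := by rw [ht']; group
    rw [this, htt]; group
  have htX : t ∈ X := hP.le htP
  have ht'X : t' ∈ X := hP.le ht'P
  have hker1 : ∀ u : X, (u : G) * u = 1 → φ u = 1 → u = 1 := by
    intro u hu hφ
    have h4 := h3 u hφ
    have h5 : orderOf u ∣ 2 := orderOf_dvd_of_pow_eq_one (by rw [pow_two]; exact Subtype.ext hu)
    rcases (Nat.dvd_prime Nat.prime_two).mp h5 with h6 | h6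
    · exact orderOf_eq_one_iff.mp h6
    · rw [h6] at h4
      exact absurd h4 (by decide)
  have hq_odd : Odd (Fintype.card F) := by
    rw [hF]
    exact Odd.pow (by decide)
  -- the subgroup centralized by A
  obtain ⟨M, hMdef⟩ : ∃ M : Subgroup X, M = (centralizer (A : Set G)).subgroupOf X := ⟨_, rfl⟩
  have hM : ∀ x : X, x ∈ M ↔ ∀ a ∈ A, a * x = x * a := by
    intro x
    rw [hMdef, mem_subgroupOf, mem_centralizer_iff]
    rfl
  have hinjP : Function.Injective (fun p : P => φ ⟨p, hP.le p.2⟩) := by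
    intro a b hab
    have h4 : φ (⟨a, hP.le a.2⟩ * (⟨b, hP.le b.2⟩)⁻¹) = 1 := by
      rw [map_mul, map_inv]
      exact mul_inv_eq_one.mpr hab
    have h5 := h3 _ h4
    have h6 : (a : G) * (b : G)⁻¹ ∈ P := mul_mem a.2 (inv_mem b.2)
    obtain ⟨k, hk⟩ := hP.pgroup ⟨_, h6⟩
    have h7' : ((a : G) * (b : G)⁻¹) ^ (2 ^ k) = 1 := congrArg Subtype.val hk
    have h7 : ((⟨a, hP.le a.2⟩ : X) * (⟨b, hP.le b.2⟩)⁻¹) ^ (2 ^ k) = 1 := Subtype.ext h7'
    have h8 := orderOf_dvd_of_pow_eq_one h7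
    have h9 : Nat.Coprime (orderOf ((⟨a, hP.le a.2⟩ : X) * (⟨b, hP.le b.2⟩)⁻¹)) (2 ^ k) :=
      ((Nat.coprime_two_right).mpr h5).pow_right k
    have h10 := Nat.Coprime.eq_one_of_dvd h9 h8
    rw [orderOf_eq_one_iff, mul_inv_eq_one] at h10
    have h11 : (a : G) = b := congrArg X.subtype h10
    exact Subtype.ext h11
  have key : ∀ u : X, (u : G) ∈ P → (u : G) * u = 1 → u ≠ 1 → BinPslE.cen (φ u) ≤ M.map φ := by
    intro u huP huu hu1
    have hφu1 : φ u ≠ 1 := fun e => hu1 (hker1 u huu e)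
    have hφuu : φ u * φ u = 1 := by
      rw [← map_mul]
      have : u * u = 1 := Subtype.ext huu
      rw [this, map_one]
    obtain ⟨hc4, hcc, xb, hxb, hxbo⟩ := BinPslE.cen_facts hq_odd (by rw [hF]; omega) hφu1 hφuu
    -- card = q + 1
    obtain ⟨k, hk⟩ : ∃ k, 3 ^ (2 * n + 1) = 8 * k + 3 := ⟨3 ^ (2 * n + 1) / 8, by omega⟩
    have hcq : Nat.card (BinPslE.cen (φ u)) = 4 * (2 * k + 1) := by
      rw [hF, hk] at hcc
      rcases hcc with h4 | h4 <;> omega
    have hoxb : orderOf xb = 2 * (2 * k + 1) := by omega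
    -- lifting commutation
    have hlift : ∀ y : X, φ y * φ u = φ u * φ y → y * u = u * y := by
      intro y hy
      have h4 : φ (y * u * y⁻¹ * u⁻¹) = 1 := by
        rw [map_mul, map_mul, map_mul, map_inv, map_inv, hy]; group
      have h5 := (h2 _).mp h4 u
      have huu' : u * u = 1 := Subtype.ext huu
      have hui : u⁻¹ = u := inv_eq_of_mul_eq_one_left huu'
      have h6 : (y * u * y⁻¹ * u⁻¹) * (y * u * y⁻¹ * u⁻¹) = 1 := by
        calc (y * u * y⁻¹ * u⁻¹) * (y * u * y⁻¹ * u⁻¹) = (y * u * y⁻¹) * (u⁻¹ * (y * u * y⁻¹ * u⁻¹)) := by group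
          _ = (y * u * y⁻¹) * (u * (y * u * y⁻¹ * u⁻¹)) := by rw [hui]
          _ = (y * u * y⁻¹) * ((y * u * y⁻¹ * u⁻¹) * u) := by rw [h5]
          _ = y * (u * u) * y⁻¹ := by group
          _ = 1 := by rw [huu']; group
      have h7 := hker1 _ (congrArg Subtype.val h6) h4
      rw [mul_inv_eq_one, mul_inv_eq_iff_eq_mul] at h7
      exact h7
    -- O
    obtain ⟨Ob, hOb⟩ : ∃ Ob : Subgroup PSL2, Ob = zpowers (xb ^ 2) := ⟨_, rfl⟩
    have hObc : Nat.card Ob = 2 * k + 1 := by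
      rw [hOb, Nat.card_zpowers, orderOf_pow' xb two_ne_zero, hoxb, Nat.gcd_mul_right_left,
        Nat.mul_div_cancel_left _ two_pos]
    have hObcen : Ob ≤ BinPslE.cen (φ u) := by
      rw [hOb, zpowers_le]; exact pow_mem hxb 2
    have hOdd : ∀ w ∈ BinPslE.cen (φ u), Odd (orderOf w) → w ∈ Ob := by
      intro w hw hwo
      have hidx : (zpowers (⟨xb, hxb⟩ : BinPslE.cen (φ u))).index = 2 := by
        have h4 := Subgroup.card_mul_index (zpowers (⟨xb, hxb⟩ : BinPslE.cen (φ u)))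
        rw [Nat.card_zpowers, Subgroup.orderOf_mk, hoxb, hcq] at h4
        have h5 : 0 < 2 * (2 * k + 1) := by omega
        exact Nat.eq_of_mul_eq_mul_left h5 (by rw [h4]; ring)
      have h4 : (⟨w, hw⟩ : BinPslE.cen (φ u)) ^ 2 ∈ zpowers (⟨xb, hxb⟩ : BinPslE.cen (φ u)) :=
        Subgroup.sq_mem_of_index_two hidx _
      obtain ⟨j, hj⟩ := mem_zpowers_iff.mp h4
      have hj' : xb ^ j = w ^ 2 := congrArg Subtype.val hj
      obtain ⟨i, hi⟩ := exists_pow_eq_self_of_coprime (x := w) (n := 2) (Nat.coprime_two_left.mpr hwo)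
      -- w = (w^2)^i
      have h5 : w ^ 2 ∈ Ob := by
        have h6 : w ^ 2 = (xb ^ 2) ^ (j * i) := by
          calc w ^ 2 = ((w ^ 2) ^ i) ^ 2 := by rw [hi]
            _ = ((xb ^ j) ^ i) ^ 2 := by rw [hj']
            _ = (xb ^ 2) ^ (j * i) := by
              rw [← zpow_natCast, ← zpow_natCast, ← zpow_natCast, ← zpow_mul, ← zpow_mul, ← zpow_mul]
              congr 1
              push_cast
              ring
        rw [h6, hOb]
        exact zpow_mem (mem_zpowers _) _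
      rw [← hi]
      exact pow_mem h5 i
    obtain ⟨O, hO⟩ : ∃ O : Subgroup G, O = (Ob.comap φ).map X.subtype := ⟨_, rfl⟩
    have hOmem : ∀ y, y ∈ O ↔ ∃ hy : y ∈ X, φ ⟨y, hy⟩ ∈ Ob := by
      intro y
      rw [hO]
      constructor
      · rintro ⟨z, hz, rfl⟩
        exact ⟨z.2, hz⟩
      · rintro ⟨hy, h4⟩
        exact ⟨⟨y, hy⟩, h4, rfl⟩
    have hOcard : Odd (Nat.card O) := by
      by_contra hcon
      rw [Nat.not_odd_iff_even] at hcon
      obtain ⟨z, hz⟩ := exists_prime_orderOf_dvd_card' (G := O) 2 hcon.two_dvd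
      obtain ⟨hzX, hzO⟩ := (hOmem z).mp z.2
      have hzz : (z : G) * z = 1 := by
        have := pow_orderOf_eq_one z
        rw [hz, pow_two] at this
        exact congrArg Subtype.val this
      have h4 : φ ⟨z, hzX⟩ = 1 := by
        have h5 : orderOf (⟨φ ⟨z, hzX⟩, hzO⟩ : Ob) ∣ Nat.card Ob := orderOf_dvd_natCard _
        rw [Subgroup.orderOf_mk, hObc] at h5
        have h6 : orderOf (φ ⟨z, hzX⟩) ∣ 2 := by
          apply orderOf_dvd_of_pow_eq_one
          rw [← map_pow, ← map_one φ]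
          congr 1
          apply Subtype.ext
          show (z : G) ^ 2 = 1
          rw [pow_two, hzz]
        rcases (Nat.dvd_prime Nat.prime_two).mp h6 with h7 | h7
        · exact orderOf_eq_one_iff.mp h7
        · rw [h7] at h5
          omega
      have h5 := hker1 ⟨z, hzX⟩ hzz h4
      have h6' : (z : G) = 1 := congrArg X.subtype h5
      have h6 : z = 1 := Subtype.ext h6'
      rw [h6, orderOf_one] at hz
      omega
    have hOs : Group.IsSolvable O := by
      let ψ : O →* Ob := MonoidHom.mk' (fun y => ⟨φ ⟨y, ((hOmem y).mp y.2).1⟩, ((hOmem y).mp y.2).2⟩) (by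
        intro a b
        apply Subtype.ext
        show φ ⟨((a * b : O) : G), _⟩ = φ ⟨a, _⟩ * φ ⟨b, _⟩
        rw [← map_mul]
        rfl)
      have hOb' : Group.IsSolvable Ob := by
        apply Group.isSolvable_of_comm
        intro a b
        apply Subtype.ext
        have ha : (a : PSL2) ∈ zpowers (xb ^ 2) := hOb.le a.2
        have hb : (b : PSL2) ∈ zpowers (xb ^ 2) := hOb.le b.2
        obtain ⟨i, hi⟩ := mem_zpowers_iff.mp ha
        obtain ⟨j, hj⟩ := mem_zpowers_iff.mp hb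
        show (a : PSL2) * b = b * a
        rw [← hi, ← hj, ← zpow_add, ← zpow_add, add_comm]
      have hker' : Group.IsSolvable ψ.ker := by
        apply Group.isSolvable_of_comm
        intro a b
        apply Subtype.ext
        apply Subtype.ext
        have h4 : φ ⟨(a : O), ((hOmem (a : O)).mp (a : O).2).1⟩ = 1 := congrArg Subtype.val a.2
        have h5 := (h2 _).mp h4 ⟨(b : O), ((hOmem (b : O)).mp (b : O).2).1⟩
        have h6 : (((a : O) : G)) * ((b : O) : G) = ((b : O) : G) * ((a : O) : G) := congrArg X.subtype h5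
        exact h6
      exact Group.isSolvable_of_ker_le_range ψ.ker.subtype ψ (by rw [Subgroup.range_subtype])
    have hOA : ∀ b ∈ A, ∀ x ∈ O, b * x * b⁻¹ ∈ O := by
      intro b hb x hx
      rw [hOmem] at hx ⊢
      obtain ⟨hxX, hx⟩ := hx
      refine ⟨hAXc b hb x hxX, ?_⟩
      apply hOdd
      · rw [BinPslE.mem_cen, ← map_mul, ← map_mul]
        congr 1
        apply Subtype.ext
        have h4 : (x : G) * u = u * x := by
          have := hlift ⟨x, hxX⟩ (BinPslE.mem_cen.mp (hObcen hx))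
          exact congrArg Subtype.val this
        have h5 := hAPc b hb u huP
        have h6 : Commute (b * x * b⁻¹) (u : G) := by
          have e1 : (u : G) = b * u * b⁻¹ := by rw [h5, mul_inv_cancel_right]
          rw [e1]
          exact (Commute.conj_iff b).mpr h4
        exact h6
      · have h4 : Odd (orderOf (x : G)) := by
          have h5 : x ∈ O := (hOmem x).mpr ⟨hxX, hx⟩
          have h6 : orderOf (⟨x, h5⟩ : O) ∣ Nat.card O := orderOf_dvd_natCard _
          rw [Subgroup.orderOf_mk] at h6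
          exact hOcard.of_dvd_nat h6
        have h5 : orderOf (b * x * b⁻¹) = orderOf x := (MulAut.conj b).orderOf_eq x
        have h6 : orderOf (φ ⟨b * x * b⁻¹, hAXc b hb x hxX⟩) ∣ orderOf (⟨b * x * b⁻¹, hAXc b hb x hxX⟩ : X) :=
          orderOf_map_dvd φ _
        rw [Subgroup.orderOf_mk, h5] at h6
        exact h4.of_dvd_nat h6
    have hAO : ∀ a ∈ A, ∀ x ∈ O, a * x * a⁻¹ = x := by
      by_contra hcon
      push Not at hcon
      obtain ⟨x, hxO, hx1, hxi, hxc⟩ := exists_inverted A O hA2 hOcard hOs hOA hcon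
      refine hNI x hx1 ?_ hxi hxc
      have h6 : orderOf (⟨x, hxO⟩ : O) ∣ Nat.card O := orderOf_dvd_natCard _
      rw [Subgroup.orderOf_mk] at h6
      exact hOcard.of_dvd_nat h6
    -- conclusion
    obtain ⟨Pb, hPb⟩ : ∃ Pb : Subgroup PSL2, Pb = (P.subgroupOf X).map φ := ⟨_, rfl⟩
    have hPbc : Nat.card Pb = 4 := by
      rw [← hPc4, hPb]
      symm
      refine Nat.card_eq_of_bijective (fun p : P => (⟨φ ⟨p, hP.le p.2⟩, ⟨p, hP.le p.2⟩, p.2, rfl⟩ : (P.subgroupOf X).map φ)) ⟨?_, ?_⟩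
      · intro a b hab
        exact hinjP (congrArg Subtype.val hab)
      · rintro ⟨_, y, hy, rfl⟩
        exact ⟨⟨y, hy⟩, rfl⟩
    have hPbM : Pb ≤ M.map φ := by
      rw [hPb]
      apply Subgroup.map_mono
      intro y hy
      rw [hM]
      intro a ha
      exact hAPc a ha y hy
    have hPbcen : Pb ≤ BinPslE.cen (φ u) := by
      rw [hPb]
      rintro _ ⟨y, hy, rfl⟩
      rw [BinPslE.mem_cen, ← map_mul, ← map_mul]
      congr 1
      exact Subtype.ext (hPcomm y hy u huP)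
    have hObM : Ob ≤ M.map φ := by
      intro w hw
      obtain ⟨y, rfl⟩ := h1 w
      refine ⟨y, ?_, rfl⟩
      rw [SetLike.mem_coe, hM]
      intro a ha
      have := hAO a ha y ((hOmem y).mpr ⟨y.2, hw⟩)
      exact mul_inv_eq_iff_eq_mul.mp this
    have hsup : Pb ⊔ Ob = BinPslE.cen (φ u) := by
      apply Subgroup.eq_of_le_of_card_ge (sup_le hPbcen hObcen)
      rw [hcq]
      apply Nat.le_of_dvd Nat.card_pos
      apply Nat.Coprime.mul_dvd_of_dvd_of_dvd
      · have : (4 : ℕ) = 2 ^ 2 := rfl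
        rw [this]
        exact (Nat.coprime_two_left.mpr ⟨k, rfl⟩).pow_left 2
      · rw [← hPbc]; exact Subgroup.card_dvd_of_le le_sup_left
      · rw [← hObc]; exact Subgroup.card_dvd_of_le le_sup_right
    rw [← hsup]
    exact sup_le hPbM hObM
  have hM1 := key ⟨t, htX⟩ htP htt (fun e => ht1 (congrArg Subtype.val e))
  have hM2 := key ⟨t', ht'X⟩ ht'P ht't' (fun e => ht'1 (congrArg Subtype.val e))
  have hMtop : M.map φ = ⊤ := by
    have e1 : φ ⟨t, htX⟩ ≠ 1 := fun e => ht1 (congrArg Subtype.val (hker1 ⟨t, htX⟩ htt e))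
    have e2 : φ ⟨t', ht'X⟩ ≠ 1 := fun e => ht'1 (congrArg Subtype.val (hker1 ⟨t', ht'X⟩ ht't' e))
    have e3 : φ ⟨t, htX⟩ * φ ⟨t, htX⟩ = 1 := by
      rw [← map_mul, ← map_one φ]; congr 1; exact Subtype.ext htt
    have e4 : φ ⟨t', ht'X⟩ * φ ⟨t', ht'X⟩ = 1 := by
      rw [← map_mul, ← map_one φ]; congr 1; exact Subtype.ext ht't'
    have e5 : φ ⟨t, htX⟩ ≠ φ ⟨t', ht'X⟩ := fun e =>
      htt' (congrArg Subtype.val (@hinjP ⟨t, htP⟩ ⟨t', ht'P⟩ e))
    rcases BinPslE.two_cent hq_odd (by rw [hF]; omega) e1 e3 e2 e4 e5 (M.map φ) hM1 hM2 with h4 | h4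
    · exact h4
    · exfalso
      have := h4.2.2
      rw [hF] at this
      omega
  -- final
  intro a ha
  apply comm_of_central hX.perf a
  intro x hx
  have h4 : φ ⟨x, hx⟩ ∈ M.map φ := by rw [hMtop]; trivial
  obtain ⟨y, hy, hyx⟩ := h4
  have h5 : φ (y⁻¹ * ⟨x, hx⟩) = 1 := by rw [map_mul, map_inv, hyx, inv_mul_cancel]
  obtain ⟨z, hz⟩ : ∃ z, z = y⁻¹ * (⟨x, hx⟩ : X) := ⟨_, rfl⟩
  rw [← hz, h2] at h5
  have hxe : (x : G) = y * z := by
    have : (⟨x, hx⟩ : X) = y * z := by rw [hz]; group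
    exact congrArg Subtype.val this
  have hya : a * (y : G) * a⁻¹ = y := by
    rw [(hM y).mp hy a ha, mul_inv_cancel_right]
  have hai : a⁻¹ = a := inv_eq_of_mul_eq_one_left (hA2 a ha)
  -- `a z a⁻¹` is central in `X`
  have hza : ∀ w : X, (⟨a * z * a⁻¹, hAXc a ha z z.2⟩ : X) * w = w * ⟨a * z * a⁻¹, hAXc a ha z z.2⟩ := by
    intro w
    apply Subtype.ext
    show (a * z * a⁻¹) * w = w * (a * z * a⁻¹)
    have h6 := congrArg Subtype.val (h5 ⟨a * w * a⁻¹, hAXc a ha w w.2⟩)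
    have h7 : (z : G) * (a * w * a⁻¹) = (a * w * a⁻¹) * z := h6
    have h8 : (a * z * a⁻¹) * w = a * (z * (a * w * a⁻¹)) * a⁻¹ := by
      have : a * (z * (a * w * a⁻¹)) * a⁻¹ = (a * z * a⁻¹) * ((a * a) * w * (a * a)⁻¹) := by group
      rw [this, hA2 a ha]; group
    have h9 : w * (a * z * a⁻¹) = a * ((a * w * a⁻¹) * z) * a⁻¹ := by
      have : a * ((a * w * a⁻¹) * z) * a⁻¹ = ((a * a) * w * (a * a)⁻¹) * (a * z * a⁻¹) := by group
      rw [this, hA2 a ha]; group
    rw [h8, h9, h7]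
  have h10 : φ (⟨a * x * a⁻¹, hAXc a ha x hx⟩ * (⟨x, hx⟩ : X)⁻¹) = 1 := by
    have e1 : (⟨a * x * a⁻¹, hAXc a ha x hx⟩ : X) = y * ⟨a * z * a⁻¹, hAXc a ha z z.2⟩ := by
      apply Subtype.ext
      show a * x * a⁻¹ = y * (a * z * a⁻¹)
      rw [hxe]
      calc a * (y * z) * a⁻¹ = (a * y * a⁻¹) * (a * z * a⁻¹) := by group
        _ = _ := by rw [hya]
    rw [e1, map_mul, map_mul, (h2 _).mpr hza, mul_one, map_inv, hyx, mul_inv_cancel]
  refine ⟨mul_mem (hAXc a ha x hx) (inv_mem hx), ?_⟩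
  intro w hw
  exact congrArg Subtype.val ((h2 _).mp h10 ⟨w, hw⟩)

end psl

end Cfsg.Agent.Lib.H34ZL
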