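import Cfsg.Agent.Lib.H34ZQ
import Cfsg.Agent.Lib.H34ZSz
import Cfsg.Agent.Lib.LMinSz
import Cfsg.Agent.S2904

/-!
# Elementary abelian 2-groups acting on central extensions of Suzuki groups and on modules (helper34)
-/

set_option autoImplicit false
set_option linter.unusedSectionVars false

open scoped LinearAlgebra.Projectivization Matrix

namespace Cfsg.Agent.Lib.H34ZM

open Subgroup
open Cfsg.Agent.Lib.SuzukiOvoid Cfsg.Agent.Lib.SuzukiGroup Cfsg.Agent.Lib.SuzukiFin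
  Cfsg.Agent.Lib.SuzukiStab Cfsg.Agent.Lib.SuzukiSyl Cfsg.Agent.Lib.SuzukiPts
  Cfsg.Agent.Lib.SuzukiTor Cfsg.Agent.Lib.SuzukiNoFix
  Cfsg.Agent.Lib.SuzukiCount Cfsg.Agent.Lib.SuzukiTori Cfsg.Agent.Lib.SuzukiStr
  Cfsg.Agent.Lib.H34ZQ Cfsg.Agent.Lib.H34SolvOff

/-- a primitive prime divisor -/
theorem zsig {n : ℕ} (hn : 2 ≤ n) : ∃ r : ℕ, r.Prime ∧ r ∣ 2 ^ (2 * n) + 1 ∧ r ≠ 2 ∧ ∀ k, 0 < k → r ∣ 2 ^ k - 1 → 4 * n ≤ k := by
  obtain ⟨r, hr, h1, h2⟩ := Cfsg.Agent.S2904.result 2 (4 * n) one_lt_two (by omega) (by omega) (by rintro ⟨h1, -⟩; omega)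
  have hp1 : 1 ≤ 2 ^ (2 * n) := Nat.one_le_pow _ _ two_pos
  have hfac : 2 ^ (4 * n) - 1 = (2 ^ (2 * n) + 1) * (2 ^ (2 * n) - 1) := by
    rw [show 4 * n = 2 * n * 2 by ring, pow_mul, pow_two]
    obtain ⟨k, hk⟩ := Nat.exists_eq_add_of_le hp1
    rw [hk]
    simp
    ring_nf
    omega
  refine ⟨r, hr, ?_, ?_, ?_⟩
  · rw [hfac] at h1
    rcases (Nat.Prime.dvd_mul hr).mp h1 with h3 | h3
    · exact h3
    · exact absurd h3 (h2 (2 * n) (by omega) (by omega))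
  · rintro rfl
    have h3 : 2 ∣ 2 ^ (4 * n) := dvd_pow_self 2 (by omega)
    have h4 : 1 ≤ 2 ^ (4 * n) := Nat.one_le_pow _ _ two_pos
    have h5 := (Nat.dvd_sub_iff_right h4 h3).mp h1
    omega
  · intro k hk h
    by_contra hcon
    push Not at hcon
    exact h2 k hk hcon h

section sz
variable {F : Type} [Field F] [CharP F 2] (θ : F ≃+* F) (hθ : ∀ x, θ (θ x) = x ^ 2)
  (hne : ∃ x, θ x ≠ x ^ 2)
variable [Finite F]
include hθ hne

/-- involutions are conjugate to `Ug 0 1` -/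
theorem exists_conj {t : Gz θ} (htt : t * t = 1) (ht1 : t ≠ 1) : ∃ k : Gz θ, t = k * Ug θ hθ 0 1 * k⁻¹ := by
  have ht : orderOf t = 2 := orderOf_eq_prime (by rw [pow_two]; exact htt) ht1
  obtain ⟨p, hp⟩ := exists_Up θ hθ hne ht
  obtain ⟨k, rfl⟩ := exists_to θ hθ p
  obtain ⟨c, hc⟩ := LMinSz.conj_mem_Z θ hθ hne htt hp
  have hc0 : c ≠ 0 := by
    rintro rfl
    rw [Ug_zero] at hc
    apply ht1
    have : t = k * (k⁻¹ * t * k) * k⁻¹ := by group
    rw [this, hc]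
    group
  obtain ⟨x, hx⟩ := mulθ_surj θ hθ c
  have hx0 : x ≠ 0 := by
    rintro rfl
    apply hc0
    rw [← hx, zero_mul]
  obtain ⟨κ, hκ⟩ : ∃ κ : Fˣ, (κ : F) = x := ⟨Units.mk0 x hx0, rfl⟩
  have h1 := Hg_conj θ hθ κ 0 1
  rw [mul_zero, mul_one, hκ, hx, ← hc] at h1
  refine ⟨k * Hg θ hθ κ, ?_⟩
  calc t = k * (k⁻¹ * t * k) * k⁻¹ := by group
    _ = _ := by rw [← h1]; group

theorem exists_inv {m : ℕ} (hm : 1 ≤ m) (hF : Nat.card F = 2 ^ (2 * m + 1)) {r : ℕ} (hr : r.Prime)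
    (hrq : r ∣ Nat.card F ^ 2 + 1) {t : Gz θ} (htt : t * t = 1) (ht1 : t ≠ 1) :
    ∃ g : Gz θ, orderOf g = r ∧ t * g * t⁻¹ = g⁻¹ := by
  have hrF : Fact r.Prime := ⟨hr⟩
  have hr2 : r ≠ 2 := odd_of_dvd hrq
  obtain ⟨h, hh⟩ := exists_prime_orderOf_dvd_card' (G := Gz θ) r (by
    rw [card_G θ hθ hne]
    exact (Dvd.dvd.mul_left hrq _).mul_right _)
  have h1 : h ≠ 1 := by
    rintro rfl
    rw [orderOf_one] at hh
    exact hr.one_lt.ne hh
  obtain ⟨u, hu, hinv⟩ := LMinSz.exists_inverting θ hθ hne hm hF (h := h) (by rw [hh]; exact hr.odd_of_ne_two hr2) h1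
  have huu : u * u = 1 := by rw [← pow_two, ← hu]; exact pow_orderOf_eq_one u
  have hui : u⁻¹ = u := inv_eq_of_mul_eq_one_left huu
  have hu1 : u ≠ 1 := by rintro rfl; rw [orderOf_one] at hu; omega
  obtain ⟨a, ha⟩ := exists_conj θ hθ hne htt ht1
  obtain ⟨b, hb⟩ := exists_conj θ hθ hne huu hu1
  refine ⟨(a * b⁻¹) * h * (a * b⁻¹)⁻¹, ?_, ?_⟩
  · rw [← hh]; exact (MulAut.conj (a * b⁻¹)).orderOf_eq h
  · have e1 : t = (a * b⁻¹) * u * (a * b⁻¹)⁻¹ := by
      conv_lhs => rw [ha]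
      conv_rhs => rw [hb]
      group
    have e2 : u * h * u⁻¹ = h⁻¹ := by rw [hui]; exact hinv
    have e3 : t * ((a * b⁻¹) * h * (a * b⁻¹)⁻¹) * t⁻¹ = (a * b⁻¹) * (u * h * u⁻¹) * (a * b⁻¹)⁻¹ := by
      rw [e1]; group
    rw [e3, e2]; group

variable {G : Type*} [Group G] [Finite G]

theorem exists_z {m : ℕ} (hF : Nat.card F = 2 ^ (2 * m + 1)) {X : Subgroup G} (hX : ⁅X, X⁆ = X) {φ : X →* Gz θ}
    (h1 : Function.Surjective φ) (h2 : ∀ x, φ x = 1 ↔ ∀ y : X, x * y = y * x) (h3 : ∀ x, φ x = 1 → Odd (orderOf x))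
    {s : G} (hs2 : s * s = 1) (hs : ∀ x ∈ X, s * x * s⁻¹ ∈ X) :
    ∃ z : X, z * z = 1 ∧ ∀ x ∈ X, s * x * s⁻¹ = z * x * (z : G)⁻¹ := by
  have hsi : s⁻¹ = s := inv_eq_of_mul_eq_one_left hs2
  let κ : X →* X := MonoidHom.mk' (fun x => ⟨s * x * s⁻¹, hs x x.2⟩) (fun x y => Subtype.ext (by
    show s * (x * y) * s⁻¹ = (s * x * s⁻¹) * (s * y * s⁻¹)
    group))
  have hκ : ∀ x : X, ((κ x : X) : G) = s * x * s⁻¹ := fun x => rfl
  have hκκ : ∀ x : X, κ (κ x) = x := by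
    intro x
    apply Subtype.ext
    rw [hκ, hκ]
    calc s * (s * x * s⁻¹) * s⁻¹ = (s * s) * x * (s * s)⁻¹ := by group
      _ = x := by rw [hs2]; group
  have hker : φ.ker ≤ (φ.comp κ).ker := by
    intro x hx
    rw [MonoidHom.mem_ker] at hx ⊢
    rw [MonoidHom.comp_apply, h2]
    intro y
    have := (h2 x).mp hx (κ y)
    have h4 := congrArg κ this
    rw [map_mul, map_mul, hκκ] at h4
    exact h4
  let σ : Gz θ →* Gz θ := (φ.liftOfSurjective h1) ⟨φ.comp κ, hker⟩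
  have hσ : ∀ x, σ (φ x) = φ (κ x) := fun x => MonoidHom.liftOfRightInverse_comp_apply _ _ _ ⟨φ.comp κ, hker⟩ x
  have hσσ : ∀ g, σ (σ g) = g := by
    intro g
    obtain ⟨x, rfl⟩ := h1 g
    rw [hσ, hσ, hκκ]
  let σ' : MulAut (Gz θ) := { toFun := σ, invFun := σ, left_inv := hσσ, right_inv := hσσ, map_mul' := map_mul σ }
  obtain ⟨zb, hzb, hzc⟩ := H34ZSz.aut_inner θ hθ hne hF σ' hσσ
  obtain ⟨x0, hx0⟩ := h1 zb
  have h4 : φ (x0 * x0) = 1 := by rw [map_mul, hx0, hzb]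
  obtain ⟨j, hj⟩ := h3 _ h4
  obtain ⟨z, hz⟩ : ∃ z, z = x0 ^ orderOf (x0 * x0) := ⟨_, rfl⟩
  have hzz : z * z = 1 := by
    rw [hz, ← (Commute.refl x0).mul_pow, pow_orderOf_eq_one]
  have hφz : φ z = zb := by
    rw [hz, hj, map_pow, hx0, pow_add, pow_one, pow_mul, pow_two, hzb, one_pow, one_mul]
  refine ⟨z, hzz, ?_⟩
  have h5 := comm_of_central hX ((z : G)⁻¹ * s) (by
    intro x hx
    have e1 : (z : G)⁻¹ * s * x * ((z : G)⁻¹ * s)⁻¹ * x⁻¹ = ((z⁻¹ * κ ⟨x, hx⟩ * z * (⟨x, hx⟩ : X)⁻¹ : X) : G) := by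
      show _ = (z : G)⁻¹ * (s * x * s⁻¹) * z * x⁻¹
      group
    have e2 : φ (z⁻¹ * κ ⟨x, hx⟩ * z * (⟨x, hx⟩ : X)⁻¹) = 1 := by
      have h6 : σ (φ ⟨x, hx⟩) = zb * φ ⟨x, hx⟩ * zb⁻¹ := hzc _
      rw [map_mul, map_mul, map_mul, map_inv, map_inv, ← hσ, h6, hφz]
      group
    rw [h2] at e2
    refine ⟨by rw [e1]; exact Subtype.coe_prop _, ?_⟩
    intro y hy
    rw [e1]
    exact congrArg Subtype.val (e2 ⟨y, hy⟩))
  intro x hx
  have h6 := h5 x hx
  calc s * x * s⁻¹ = z * ((z : G)⁻¹ * s * x) * s⁻¹ := by group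
    _ = z * (x * ((z : G)⁻¹ * s)) * s⁻¹ := by rw [h6]
    _ = _ := by group

theorem card_le {T : Subgroup (Gz θ)} (hT : ∀ t ∈ T, t * t = 1) : Nat.card T ≤ Nat.card F := by
  have hTp : IsPGroup 2 T := fun t => ⟨1, by rw [pow_one, pow_two]; exact Subtype.ext (hT t t.2)⟩
  obtain ⟨p, hp⟩ := two_group_le θ hθ hne hTp
  obtain ⟨k, rfl⟩ := exists_to θ hθ p
  rw [← card_Z θ hθ]
  refine Nat.card_le_card_of_injective (fun t : T => (⟨k⁻¹ * t * k, LMinSz.conj_mem_Z θ hθ hne (hT t t.2) (hp t.2)⟩ : ZSub θ hθ)) ?_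
  intro a b h
  have h1 := congrArg Subtype.val h
  exact Subtype.ext (mul_left_cancel (mul_right_cancel h1))

theorem not_comm : ¬ IsMulCommutative (Gz θ) := by
  intro h
  have h1 := SuzukiGroup.perfect θ hθ hne
  have h2 : commutator (Gz θ) = ⊥ := by
    rw [commutator_eq_bot_iff_center_eq_top, eq_top_iff]
    intro g _
    rw [Subgroup.mem_center_iff]
    intro k
    exact h.1.comm k g
  have h3 := SuzukiGroup.simple θ hθ hne
  have h4 := h3.exists_pair_ne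
  obtain ⟨a, b, hab⟩ := h4
  apply hab
  rw [h2] at h1
  have h5 : a ∈ (⊥ : Subgroup (Gz θ)) := h1 ▸ mem_top a
  have h6 : b ∈ (⊥ : Subgroup (Gz θ)) := h1 ▸ mem_top b
  rw [mem_bot] at h5 h6
  rw [h5, h6]

theorem center_bot : Subgroup.center (Gz θ) = ⊥ := by
  have h3 := SuzukiGroup.simple θ hθ hne
  rcases (inferInstance : (Subgroup.center (Gz θ)).Normal).eq_bot_or_eq_top with h4 | h4
  · exact h4
  · exfalso
    apply not_comm θ hθ hne
    exact ⟨⟨fun a b => ((Subgroup.mem_center_iff.mp (h4 ▸ Subgroup.mem_top b : b ∈ Subgroup.center (Gz θ))) a)⟩⟩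

theorem card_bound {m : ℕ} (hF : Nat.card F = 2 ^ (2 * m + 1)) {X : Subgroup G} (hX : ⁅X, X⁆ = X) {φ : X →* Gz θ}
    (h1 : Function.Surjective φ) (h2 : ∀ x, φ x = 1 ↔ ∀ y : X, x * y = y * x) (h3 : ∀ x, φ x = 1 → Odd (orderOf x))
    {A : Subgroup G} (hA2 : ∀ a ∈ A, a * a = 1) (hA : ∀ a ∈ A, ∀ x ∈ X, a * x * a⁻¹ ∈ X) :
    Nat.card A ≤ Nat.card F * Nat.card ↥(A ⊓ centralizer (X : Set G)) := by
  classical
  have hcen : ∀ g : Gz θ, (∀ h, g * h * g⁻¹ = h) → g = 1 := by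
    intro g hg
    have hgc : g ∈ Subgroup.center (Gz θ) := by
      rw [Subgroup.mem_center_iff]
      intro h
      have := hg h
      rw [mul_inv_eq_iff_eq_mul] at this
      exact this.symm
    rwa [center_bot θ hθ hne, Subgroup.mem_bot] at hgc
  have hz : ∀ a : A, ∃ g : Gz θ, g * g = 1 ∧ ∀ x : X, φ ⟨a * x * (a : G)⁻¹, hA a a.2 x x.2⟩ = g * φ x * g⁻¹ := by
    intro a
    obtain ⟨z, hzz, hz⟩ := exists_z θ hθ hne hF hX h1 h2 h3 (hA2 a a.2) (hA a a.2)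
    refine ⟨φ z, by rw [← map_mul, hzz, map_one], fun x => ?_⟩
    rw [← map_mul, ← map_inv, ← map_mul]
    congr 1
    exact Subtype.ext (hz x x.2)
  choose f hf1 hf2 using hz
  have huniq : ∀ g g' : Gz θ, (∀ x : X, g * φ x * g⁻¹ = g' * φ x * g'⁻¹) → g = g' := by
    intro g g' h
    have := hcen (g'⁻¹ * g) (by
      intro k
      obtain ⟨x, rfl⟩ := h1 k
      calc g'⁻¹ * g * φ x * (g'⁻¹ * g)⁻¹ = g'⁻¹ * (g * φ x * g⁻¹) * g' := by group
        _ = g'⁻¹ * (g' * φ x * g'⁻¹) * g' := by rw [h]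
        _ = φ x := by group)
    exact (inv_mul_eq_one.mp this).symm
  let ψ : A →* Gz θ := MonoidHom.mk' f (by
    intro a b
    apply huniq
    intro x
    rw [← hf2]
    have e1 : (⟨((a * b : A) : G) * x * ((a * b : A) : G)⁻¹, hA (a * b : A) (a * b : A).2 x x.2⟩ : X) =
        ⟨a * (⟨b * x * (b : G)⁻¹, hA b b.2 x x.2⟩ : X) * (a : G)⁻¹, hA a a.2 _ (Subtype.coe_prop _)⟩ := by
      apply Subtype.ext
      show ((a : G) * b) * x * ((a : G) * b)⁻¹ = a * (b * x * (b : G)⁻¹) * (a : G)⁻¹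
      group
    rw [e1, hf2, hf2]
    group)
  have hψ : ∀ a, ψ a = f a := fun a => rfl
  have hr : Nat.card ψ.range ≤ Nat.card F := by
    apply card_le θ hθ hne
    rintro _ ⟨a, rfl⟩
    exact hf1 a
  have hk : Nat.card ψ.ker ≤ Nat.card ↥(A ⊓ centralizer (X : Set G)) := by
    refine Nat.card_le_card_of_injective (fun a : ψ.ker => (⟨((a : A) : G), (a : A).2, ?_⟩ : ↥(A ⊓ centralizer (X : Set G)))) ?_
    · have ha : f a = 1 := a.2
      have h5 := comm_of_central hX (a : G) (by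
        intro x hx
        have e2 : φ (⟨(a : G) * x * (a : G)⁻¹, hA (a : A) (a : A).2 x hx⟩ * (⟨x, hx⟩ : X)⁻¹) = 1 := by
          rw [map_mul, map_inv]
          have := hf2 a ⟨x, hx⟩
          rw [ha] at this
          rw [this]; group
        rw [h2] at e2
        refine ⟨mul_mem (hA (a : A) (a : A).2 x hx) (inv_mem hx), ?_⟩
        intro y hy
        exact congrArg Subtype.val (e2 ⟨y, hy⟩))
      show ((a : A) : G) ∈ centralizer (X : Set G)
      rw [mem_centralizer_iff]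
      intro x hx
      exact (h5 x hx).symm
    · intro a b h
      have h' := congrArg (Subtype.val (p := fun g => g ∈ A ⊓ centralizer (X : Set G))) h
      exact Subtype.ext (Subtype.ext h')
  have hc := Subgroup.card_eq_card_quotient_mul_card_subgroup ψ.ker
  rw [Nat.card_congr (QuotientGroup.quotientKerEquivRange ψ).toEquiv] at hc
  rw [hc]
  exact Nat.mul_le_mul hr hk

theorem inverted {m : ℕ} (hm : 1 ≤ m) (hF : Nat.card F = 2 ^ (2 * m + 1)) {X : Subgroup G} (hX : ⁅X, X⁆ = X) {φ : X →* Gz θ}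
    (h1 : Function.Surjective φ) (h2 : ∀ x, φ x = 1 ↔ ∀ y : X, x * y = y * x) (h3 : ∀ x, φ x = 1 → Odd (orderOf x))
    {s : G} (hs2 : s * s = 1) (hs : ∀ x ∈ X, s * x * s⁻¹ ∈ X) (hsc : ∃ x ∈ X, s * x ≠ x * s) {r : ℕ} (hr : r.Prime)
    (hrq : r ∣ Nat.card F ^ 2 + 1) : ∃ y ∈ X, orderOf y = r ∧ s * y * s⁻¹ = y⁻¹ := by
  obtain ⟨z, hzz, hz⟩ := exists_z θ hθ hne hF hX h1 h2 h3 hs2 hs
  have hr2 : r ≠ 2 := by
    have hrF : Fact r.Prime := ⟨hr⟩
    exact odd_of_dvd hrq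
  have hz1 : φ z ≠ 1 := by
    intro h
    have h4 := h3 z h
    have h5 : orderOf z ∣ 2 := orderOf_dvd_of_pow_eq_one (by rw [pow_two]; exact hzz)
    rcases (Nat.dvd_prime Nat.prime_two).mp h5 with h6 | h6
    · rw [orderOf_eq_one_iff] at h6
      obtain ⟨x, hx, hne⟩ := hsc
      apply hne
      have := hz x hx
      rw [h6] at this
      rw [mul_inv_eq_iff_eq_mul] at this
      rw [this]; simp
    · rw [h6] at h4
      exact absurd h4 (by decide)
  obtain ⟨g, hg, hgi⟩ := exists_inv θ hθ hne hm hF hr hrq (by rw [← map_mul, hzz, map_one] : φ z * φ z = 1) hz1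
  obtain ⟨x, hx⟩ := h1 g
  obtain ⟨y, hy⟩ : ∃ y, y = x⁻¹ * (z * x * z⁻¹) := ⟨_, rfl⟩
  have hyi : z * y * z⁻¹ = y⁻¹ := by
    have : z * y * z⁻¹ = (z * x * z⁻¹)⁻¹ * ((z * z) * x * (z * z)⁻¹) := by rw [hy]; group
    rw [this, hzz, hy]; group
  have hφy : φ y = (g ^ 2)⁻¹ := by
    rw [hy, map_mul, map_mul, map_mul, map_inv, map_inv, hx, hgi]; group
  have hor : orderOf (φ y) = r := by
    rw [hφy, orderOf_inv]
    have hcop : Nat.Coprime (orderOf g) 2 := by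
      rw [hg]; exact (Nat.coprime_primes hr Nat.prime_two).mpr hr2
    rw [hcop.orderOf_pow, hg]
  have hdvd : r ∣ orderOf y := hor ▸ orderOf_map_dvd φ y
  refine ⟨y ^ (orderOf y / r), ?_, ?_, ?_⟩
  · exact pow_mem y.2 _
  · have := orderOf_pow_orderOf_div (orderOf_pos y).ne' hdvd
    rw [← Subgroup.coe_pow, Subgroup.orderOf_coe]
    exact this
  · have h5 := hz (y ^ (orderOf y / r) : X) (Subtype.coe_prop _)
    rw [Subgroup.coe_pow] at h5
    rw [h5]
    have h6 : z * y ^ (orderOf y / r) * z⁻¹ = (y ^ (orderOf y / r))⁻¹ := by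
      rw [← conj_pow, hyi, inv_pow]
    have h7 := congrArg Subtype.val h6
    exact h7

end sz

/-- the module bound -/
theorem fix_bound {V : Type*} [Group V] [Finite V] (hVc : ∀ u v : V, u * v = v * u) (hV2 : ∀ v : V, v * v = 1)
    {B₁ B : Subgroup (MulAut V)} (hB : B₁ ≤ B) (hB₁ : IsPGroup 2 B₁) {b x : MulAut V} (hb : b ∈ B)
    (hbx : b * x * b⁻¹ = x⁻¹) (hc : ∀ c ∈ B₁, c * x * c⁻¹ = x) {r k : ℕ} (hr : r.Prime) (hr2 : r ≠ 2) (hx : orderOf x = r)
    (hk : ∀ j, 0 < j → r ∣ 2 ^ j - 1 → 2 * k ≤ j) :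
    2 ^ k * Nat.card (fixSub B) ≤ Nat.card (fixSub B₁) := by
  classical
  have hrF : Fact r.Prime := ⟨hr⟩
  have hxo : Odd (orderOf x) := by rw [hx]; exact hr.odd_of_ne_two hr2
  have hx1 : x ≠ 1 := by rintro rfl; rw [orderOf_one] at hx; exact hr.one_lt.ne hx
  set W : Subgroup V := (delta hVc x).range ⊓ fixSub B₁ with hW
  have hle : fixSub B ≤ fixSub B₁ := fixSub_anti hB
  have hxfix : ∀ v ∈ fixSub B₁, x v ∈ fixSub B₁ := by
    intro v hv c hc'
    have h1 : c * x = x * c := by rw [← mul_inv_eq_iff_eq_mul]; exact hc c hc'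
    show (c * x) v = x v
    rw [h1, MulAut.mul_apply, hv c hc']
  have hWx : ∀ w ∈ W, x w ∈ W := fun w hw =>
    ⟨delta_range_inv hVc x x (by group) w hw.1, hxfix w hw.2⟩
  have hfpf : ∀ w ∈ W, x w = w → w = 1 := fun w hw h => delta_range_fpf hVc hV2 x hxo w hw.1 h
  have hWne : W ≠ ⊥ := by
    obtain ⟨v, hv, hxv⟩ := pxq hVc hV2 x hxo hx1 B₁ hB₁ hc
    intro h
    have h1 : delta hVc x v ∈ W := ⟨⟨v, rfl⟩, by
      rw [delta_apply]; exact (fixSub B₁).mul_mem ((fixSub B₁).inv_mem hv) (hxfix v hv)⟩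
    rw [h, Subgroup.mem_bot, delta_apply, inv_mul_eq_one] at h1
    exact hxv h1.symm
  set C : Subgroup V := W ⊓ fixSub B with hC
  have hcross : ∀ v ∈ C, x v ∈ C → v = 1 := by
    intro v hv hxv
    have h1 : b v = v := hv.2 b hb
    have h2 : b (x v) = x v := hxv.2 b hb
    have h4 : b * x = x⁻¹ * b := by rw [← hbx]; group
    have h5 : b (x v) = x⁻¹ v := by
      show (b * x) v = x⁻¹ v
      rw [h4, MulAut.mul_apply, h1]
    have h6 : x (x v) = v := by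
      rw [← h2, h5]
      show (x * x⁻¹) v = v
      rw [mul_inv_cancel]; rfl
    exact hfpf v hv.1 (sq_fix x hxo v h6)
  have hsq : Nat.card C * Nat.card C ≤ Nat.card W := by
    rw [← Nat.card_prod]
    refine Nat.card_le_card_of_injective
      (fun p : C × C => (⟨p.1 * x p.2, W.mul_mem p.1.2.1 (hWx _ p.2.2.1)⟩ : W)) ?_
    rintro ⟨⟨a, ha⟩, ⟨c, hc'⟩⟩ ⟨⟨a', ha'⟩, ⟨c', hc''⟩⟩ h
    have h1 : a * x c = a' * x c' := congrArg Subtype.val h
    have h2 : x (c * c'⁻¹) = a⁻¹ * a' := by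
      rw [map_mul, map_inv]
      calc x c * (x c')⁻¹ = a⁻¹ * (a * x c) * (x c')⁻¹ := by group
        _ = a⁻¹ * (a' * x c') * (x c')⁻¹ := by rw [h1]
        _ = _ := by group
    have h3' : c * c'⁻¹ = 1 := hcross _ (C.mul_mem hc' (C.inv_mem hc'')) (by
      rw [h2]; exact C.mul_mem (C.inv_mem ha) ha')
    have h4 : c = c' := mul_inv_eq_one.mp h3'
    subst h4
    have h5 : a = a' := mul_right_cancel h1
    subst h5
    rfl
  have hidx : Nat.card C * C.relIndex W = Nat.card W := by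
    have := Subgroup.relIndex_mul_relIndex (⊥ : Subgroup V) C W bot_le inf_le_left
    rwa [Subgroup.relIndex_bot_left, Subgroup.relIndex_bot_left] at this
  have hrr : (fixSub B).relIndex W ≤ (fixSub B).relIndex (fixSub B₁) := by
    refine Subgroup.relIndex_le_of_le_right inf_le_right ?_
    exact Subgroup.FiniteIndex.index_ne_zero (H := (fixSub B).subgroupOf (fixSub B₁))
  have hCr : C.relIndex W = (fixSub B).relIndex W := by
    rw [hC, inf_comm, Subgroup.inf_relIndex_right]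
  have hmul : Nat.card (fixSub B) * (fixSub B).relIndex (fixSub B₁) = Nat.card (fixSub B₁) := by
    have := Subgroup.relIndex_mul_relIndex (⊥ : Subgroup V) (fixSub B) (fixSub B₁) bot_le hle
    rwa [Subgroup.relIndex_bot_left, Subgroup.relIndex_bot_left] at this
  -- |W| is large
  have hV2p : IsPGroup 2 V := fun v => ⟨1, by rw [pow_one, pow_two]; exact hV2 v⟩
  have h2p : Fact (Nat.Prime 2) := ⟨Nat.prime_two⟩
  obtain ⟨w, hw⟩ := IsPGroup.iff_card.mp (hV2p.to_subgroup W)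
  have hw0 : 0 < w := by
    rcases Nat.eq_zero_or_pos w with h | h
    · exfalso
      rw [h, pow_zero] at hw
      exact hWne (Subgroup.card_eq_one.mp hw)
    · exact h
  have hmod : r ∣ 2 ^ w - 1 := by
    have := Fintype.ofFinite W
    let f : Function.End W := fun w => ⟨x w, hWx w w.2⟩
    have hfn : ∀ (n : ℕ) (v : W), (((f ^ n : Function.End W) v : W) : V) = (x ^ n) v := by
      intro n
      induction n with
      | zero => intro v; rfl
      | succ n ih =>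
        intro v
        rw [pow_succ', pow_succ', MulAut.mul_apply, ← ih]
        rfl
    have hf1 : f ^ r ^ 1 = 1 := by
      funext v
      apply Subtype.ext
      rw [hfn, pow_one, ← hx, pow_orderOf_eq_one]
      rfl
    have h1 := Equiv.Perm.card_fixedPoints_modEq hf1
    have h2 : Fintype.card (Function.fixedPoints f) = 1 := by
      rw [Fintype.card_eq_one_iff]
      refine ⟨⟨1, Subtype.ext (map_one x)⟩, ?_⟩
      rintro ⟨v, hv⟩
      apply Subtype.ext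
      apply Subtype.ext
      exact hfpf v v.2 (congrArg Subtype.val hv)
    rw [h2, ← Nat.card_eq_fintype_card, hw] at h1
    exact (Nat.modEq_iff_dvd' (Nat.one_le_pow _ _ two_pos)).mp h1.symm
  have hkw := hk w hw0 hmod
  have hW4 : 2 ^ k * 2 ^ k ≤ Nat.card W := by
    rw [hw, ← pow_add]
    exact Nat.pow_le_pow_right two_pos (by omega)
  have h6 : 2 ^ k ≤ C.relIndex W := by
    by_contra hcon
    push Not at hcon
    have h7 : Nat.card C * Nat.card C * (C.relIndex W * C.relIndex W) < Nat.card W * (2 ^ k * 2 ^ k) := by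
      have h8 : C.relIndex W * C.relIndex W < 2 ^ k * 2 ^ k := Nat.mul_self_lt_mul_self hcon
      have h9 : 0 < Nat.card W := Nat.card_pos
      calc _ ≤ Nat.card W * (C.relIndex W * C.relIndex W) := Nat.mul_le_mul_right _ hsq
        _ < _ := Nat.mul_lt_mul_of_pos_left h8 h9
    have h8 : Nat.card C * Nat.card C * (C.relIndex W * C.relIndex W) = Nat.card W * Nat.card W := by
      rw [← hidx]; ring
    rw [h8] at h7
    exact absurd (Nat.mul_le_mul_left (Nat.card W) hW4) (not_le.mpr h7)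
  calc 2 ^ k * Nat.card (fixSub B) ≤ (fixSub B).relIndex (fixSub B₁) * Nat.card (fixSub B) :=
        Nat.mul_le_mul_right _ ((h6.trans hCr.le).trans hrr)
    _ = Nat.card (fixSub B₁) := by rw [mul_comm, hmul]

end Cfsg.Agent.Lib.H34ZM
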