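import Cfsg.Agent.Lib.PSUMain
import Cfsg.Agent.Lib.PSUOut

/-!
# S2212, piece U2a: automorphisms of odd order centralizing the involutions of a Sylow 2-subgroup
-/

set_option autoImplicit false

namespace Cfsg.Agent.Lib.H37U2a

open Cfsg Cfsg.Agent.Lib.PSUAut Matrix Cfsg.Agent.Lib.UnBridge Cfsg.Agent.Lib.UnTrans Cfsg.Agent.Lib.HermMat

theorem inndiag_of_odd {F : Type} [Field F] [Fintype F] {q n : ℕ} (hqn : q = 2 ^ n) (hn : 2 ≤ n) (hF : Fintype.card F = q ^ 2)
    (β : MulAut (Cfsg.PSU 3 F q)) (hβ : Odd (orderOf β)) (P : Sylow 2 (Cfsg.PSU 3 F q))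
    (h : ∀ x ∈ P, x * x = 1 → β x = x) : Cfsg.IsInnerDiagonalAutPSU β := by
  have h4 : 4 ≤ q := by
    rw [hqn]
    calc 4 = 2 ^ 2 := by norm_num
      _ ≤ 2 ^ n := Nat.pow_le_pow_right (by norm_num) hn
  haveI : Fact (Nat.Prime 2) := ⟨Nat.prime_two⟩
  haveI : CharP F 2 := by
    obtain ⟨p, hp⟩ := CharP.exists F
    haveI : Fact p.Prime := ⟨CharP.char_is_prime F p⟩
    obtain ⟨k, hpp, hk⟩ := FiniteField.card F p
    have h5 : p ∣ 2 := by
      apply hpp.dvd_of_dvd_pow (n := n * 2)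
      rw [pow_mul, ← hqn, ← hF, hk]
      exact dvd_pow_self p k.2.ne'
    have h6 : p = 2 := (Nat.prime_dvd_prime_iff_eq hpp Nat.prime_two).1 h5
    rw [← h6]; exact hp
  have h2 : ∀ x : F, x + x = 0 := CharTwo.add_self_eq_zero
  obtain ⟨g, σ, rfl⟩ := aut_psu (by norm_num) (fun _ => by omega) hF β
  have hpq : 2 ∣ q := by rw [hqn]; exact dvd_pow_self 2 (by omega)
  obtain ⟨v, hv0, hv, -⟩ := exists_fixed_vector hF (p := 2) hpq (n := 3) (by norm_num) ⊥ IsPGroup.of_bot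
  -- transvection groups
  have hsq : ∀ z : Fin 3 → F, hermForm 3 F q z z = 0 → ∀ x ∈ Tg hF z, x * x = 1 := by
    intro z hz x hx
    obtain ⟨a, ha, rfl⟩ := (mem_Tg hF hz).1 hx
    have h5 : tU hF a z * tU hF a z = 1 := by
      rw [tU_mul hF hz ha ha, h2]
      exact rE_zero hF hz
    show (QuotientGroup.mk (tU hF a z) : PSU 3 F q) * QuotientGroup.mk (tU hF a z) = 1
    rw [← QuotientGroup.mk_mul, h5]; rfl
  have hTp : IsPGroup 2 (Tg hF v) := by
    intro x
    refine ⟨1, Subtype.ext ?_⟩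
    rw [pow_one, pow_two]
    exact hsq v hv _ x.2
  obtain ⟨Q, hQ⟩ := hTp.exists_le_sylow
  obtain ⟨s0, hs0⟩ := MulAction.exists_smul_eq (PSU 3 F q) Q P
  obtain ⟨s, rfl⟩ := QuotientGroup.mk_surjective s0
  set z := s.1.1 *ᵥ v with hz
  have hz0 : z ≠ 0 := U_mulVec_ne hv0
  have hzz : hermForm 3 F q z z = 0 := by rw [hz, U_form]; exact hv
  have hTP : ∀ x ∈ Tg hF z, x ∈ P := by
    intro x hx
    rw [hz, ← map_conj_Tg hF s hv] at hx
    rw [← hs0]
    obtain ⟨y, hy, rfl⟩ := hx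
    exact ⟨y, hQ hy, rfl⟩
  have hfix : ∀ a : F, a + sig hF a = 0 → (dg g * fd σ : MulAut (PSU 3 F q)) (tb hF a z) = tb hF a z := by
    intro a ha
    have hmem : tb hF a z ∈ Tg hF z := (mem_Tg hF hzz).2 ⟨a, ha, rfl⟩
    exact h _ (hTP _ hmem) (hsq z hzz _ hmem)
  set z1 := act g σ z with hz1
  have hz11 : hermForm 3 F q z1 z1 = 0 := by rw [hz1, act_form, hzz, map_zero]
  have hσa : ∀ a : F, a + sig hF a = 0 → σ a + sig hF (σ a) = 0 := by
    intro a ha
    rw [sig_comm, ← map_add, ha, map_zero]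
  have hact : ∀ a : F, a + sig hF a = 0 → (dg g * fd σ : MulAut (PSU 3 F q)) (tb hF a z) = tb hF (σ a) z1 := by
    intro a ha
    show (QuotientGroup.mk (cg g (fdS σ (rE hF z 0 a))) : PSU 3 F q) = QuotientGroup.mk (rE hF z1 0 (σ a))
    rw [cg_fdS_rE (hF := hF) g σ (cond_zero hF hzz ha)]
    have h6 : act g σ (0 : Fin 3 → F) = 0 := by
      have := act_sub g σ (0 : Fin 3 → F) 0
      rw [sub_self, sub_self] at this
      exact this
    rw [h6]
  have hU : ∀ a : F, a + sig hF a = 0 → tU hF (σ a) z1 = tU hF a z := by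
    intro a ha
    apply tb_eq_tb hF (by norm_num) hz11 hzz (hσa a ha) ha
    rw [← hact a ha, hfix a ha]
  have h1s : (1 : F) + sig hF 1 = 0 := by rw [map_one]; exact h2 1
  obtain ⟨c, hc⟩ := tU_inj hF hz0 hzz hz11 h1s (hσa 1 h1s) one_ne_zero (hU 1 h1s).symm
  have hc0 : c ≠ 0 := by
    rintro rfl
    rw [zero_smul] at hc
    exact hz0 hc
  set t := c⁻¹ with ht
  have hz1t : z1 = t • z := by rw [ht, hc, smul_smul, inv_mul_cancel₀ hc0, one_smul]
  have hkey : ∀ a : F, a + sig hF a = 0 → t * sig hF t * σ a = a := by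
    intro a ha
    have h6 := hU a ha
    rw [hz1t, tU_smul hF hzz (hσa a ha)] at h6
    refine tU_inj' hF hz0 hzz ?_ ha h6
    rw [map_mul, map_mul, sig_inv]
    linear_combination (t * sig hF t) * hσa a ha
  have hN : t * sig hF t = 1 := by
    have := hkey 1 h1s
    rwa [map_one, mul_one] at this
  have hfixF : ∀ a : F, sig hF a = a → σ a = a := by
    intro a ha
    have := hkey a (by rw [ha]; exact h2 a)
    rwa [hN, one_mul] at this
  have hsig2 : ∀ x : F, sig hF (sig hF x) = x := by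
    exact sig_inv hF
  have hσ2 : ∀ x : F, σ (σ x) = x := by
    intro x
    have e1 : σ x + σ (sig hF x) = x + sig hF x := by
      rw [← map_add]
      exact hfixF _ (by rw [map_add, hsig2, add_comm])
    have e2 : σ x * σ (sig hF x) = x * sig hF x := by
      rw [← map_mul]
      exact hfixF _ (by rw [map_mul, hsig2, mul_comm])
    have e3 : (σ x - x) * (σ x - sig hF x) = 0 := by linear_combination (σ x) * e1 - e2
    rcases mul_eq_zero.1 e3 with h6 | h6
    · rw [sub_eq_zero] at h6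
      rw [h6, h6]
    · rw [sub_eq_zero] at h6
      have h7 : σ (σ x) = sig hF (σ x) := by
        rw [sig_comm, ← h6]
      rw [h7, h6, hsig2]
  have hσσ : σ * σ = 1 := RingEquiv.ext hσ2
  have hββ : (dg g * fd σ) ^ 2 = dg (g * fG σ g) := by
    calc (dg g * fd σ) ^ 2 = dg g * (fd σ * dg g) * fd σ := by rw [pow_two]; group
      _ = dg g * dg (fG σ g) * (fd σ * fd σ) := by rw [fd_dg]; group
      _ = dg (g * fG σ g) := by rw [← map_mul fd, hσσ, map_one, mul_one, map_mul]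
  obtain ⟨k, hk⟩ := hβ
  rw [isInnerDiagonal_iff]
  refine ⟨(g * fG σ g) ^ (k + 1), ?_⟩
  rw [map_pow, ← hββ, ← pow_mul]
  have h8 : (dg g * fd σ) ^ (2 * k + 1) = 1 := by rw [← hk]; exact pow_orderOf_eq_one _
  rw [show 2 * (k + 1) = (2 * k + 1) + 1 by ring, pow_succ, h8, one_mul]

end Cfsg.Agent.Lib.H37U2a
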