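import Mathlib
import Cfsg.Agent.Lib.Cores

/-!
p-closed groups via products of p-elements; minimal invariant sections under coprime
automorphisms (helper39).
-/

set_option autoImplicit false

namespace Cfsg.Agent.Lib.H39Lin1

open Subgroup

/-- The product of two `p`-elements is a `p`-element. -/
def PC (p : ℕ) (G : Type*) [Group G] : Prop :=
  ∀ a b : G, (∃ k : ℕ, a ^ p ^ k = 1) → (∃ k : ℕ, b ^ p ^ k = 1) → ∃ k : ℕ, (a * b) ^ p ^ k = 1

variable {G : Type*} [Group G] {p : ℕ}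

theorem mem_of_normal [Finite G] [Fact p.Prime] (P : Sylow p G) (hP : (P : Subgroup G).Normal)
    {a : G} (ha : ∃ k : ℕ, a ^ p ^ k = 1) : a ∈ (P : Subgroup G) := by
  have h1 : IsPGroup p (zpowers a) := by
    rintro ⟨x, hx⟩
    obtain ⟨k, hk⟩ := ha
    obtain ⟨n, rfl⟩ := mem_zpowers_iff.mp hx
    refine ⟨k, Subtype.ext ?_⟩
    change (a ^ n) ^ p ^ k = 1
    rw [← zpow_natCast, ← zpow_mul, mul_comm, zpow_mul, zpow_natCast, hk, one_zpow]
  obtain ⟨Q, hQ⟩ := h1.exists_le_sylow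
  have h2 : Unique (Sylow p G) := Sylow.unique_of_normal P hP
  have h3 : Q = P := Subsingleton.elim _ _
  rw [← h3]
  exact hQ (mem_zpowers a)

theorem normal_iff_PC [Finite G] [Fact p.Prime] (P : Sylow p G) :
    (P : Subgroup G).Normal ↔ PC p G := by
  constructor
  · intro hP a b ha hb
    have h1 := mul_mem (mem_of_normal P hP ha) (mem_of_normal P hP hb)
    obtain ⟨k, hk⟩ := P.isPGroup' ⟨a * b, h1⟩
    exact ⟨k, congrArg Subtype.val hk⟩
  · intro h
    let S : Subgroup G :=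
      { carrier := {a | ∃ k : ℕ, a ^ p ^ k = 1}
        one_mem' := ⟨0, one_pow _⟩
        mul_mem' := fun {a b} ha hb => h a b ha hb
        inv_mem' := by
          rintro a ⟨k, hk⟩
          exact ⟨k, by rw [inv_pow, hk, inv_one]⟩ }
    have hS : IsPGroup p S := by
      rintro ⟨x, k, hk⟩
      exact ⟨k, Subtype.ext hk⟩
    have hPS : (P : Subgroup G) ≤ S := by
      intro x hx
      obtain ⟨k, hk⟩ := P.isPGroup' ⟨x, hx⟩
      exact ⟨k, congrArg Subtype.val hk⟩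
    have hEq : S = (P : Subgroup G) := P.is_maximal' hS hPS
    rw [← hEq]
    refine ⟨?_⟩
    rintro n ⟨k, hk⟩ g
    refine ⟨k, ?_⟩
    rw [conj_pow, hk, mul_one, mul_inv_cancel]

theorem PC_of_family [Finite G] [hp : Fact p.Prime] {ι : Type*} (N : ι → Subgroup G)
    [∀ i, (N i).Normal] (hsep : ∀ x : G, (∀ i, x ∈ N i) → x = 1)
    (h : ∀ i, PC p (G ⧸ N i)) : PC p G := by
  intro a b ha hb
  refine ⟨Nat.card G, hsep _ fun i => ?_⟩
  obtain ⟨k, hk⟩ := h i (a : G ⧸ N i) (b : G ⧸ N i)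
    (by obtain ⟨k, hk⟩ := ha; exact ⟨k, by rw [← QuotientGroup.mk_pow, hk, QuotientGroup.mk_one]⟩)
    (by obtain ⟨k, hk⟩ := hb; exact ⟨k, by rw [← QuotientGroup.mk_pow, hk, QuotientGroup.mk_one]⟩)
  rw [← QuotientGroup.mk_mul] at hk
  rw [← QuotientGroup.eq_one_iff, QuotientGroup.mk_pow]
  have h1 : orderOf ((a * b : G) : G ⧸ N i) ∣ p ^ k := orderOf_dvd_of_pow_eq_one hk
  obtain ⟨j, hj, hj2⟩ := (Nat.dvd_prime_pow hp.out).mp h1
  have h2 : orderOf ((a * b : G) : G ⧸ N i) ≤ Nat.card G := by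
    have h3 : orderOf ((a * b : G) : G ⧸ N i) ∣ Nat.card (G ⧸ N i) := orderOf_dvd_natCard _
    have h4 : Nat.card (G ⧸ N i) ∣ Nat.card G := (N i).card_quotient_dvd_card
    exact Nat.le_of_dvd Nat.card_pos (h3.trans h4)
  have h5 : j ≤ Nat.card G := by
    have : j < p ^ j := Nat.lt_pow_self hp.out.one_lt
    omega
  apply orderOf_dvd_iff_pow_eq_one.mp
  rw [hj2]
  exact pow_dvd_pow p h5

theorem PC_of_sub (K : Subgroup G) (hK : ∀ a : G, (∃ k : ℕ, a ^ p ^ k = 1) → a ∈ K)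
    (h : PC p K) : PC p G := by
  intro a b ha hb
  obtain ⟨k, hk⟩ := h ⟨a, hK a ha⟩ ⟨b, hK b hb⟩
    (by obtain ⟨k, hk⟩ := ha; exact ⟨k, Subtype.ext hk⟩)
    (by obtain ⟨k, hk⟩ := hb; exact ⟨k, Subtype.ext hk⟩)
  exact ⟨k, congrArg Subtype.val hk⟩

theorem PC_of_nilpotent [Finite G] [hp : Fact p.Prime] (h : Group.IsNilpotent G) : PC p G := by
  obtain ⟨P⟩ : Nonempty (Sylow p G) := inferInstance
  rw [← normal_iff_PC P]
  have h1 := ((Group.isNilpotent_of_finite_tfae (G := G)).out 0 3 rfl rfl).mp h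
  exact h1 p hp P

theorem PC_of_cyclic_zpow {a : G} {k : ℕ} (hk : a ^ p ^ k = 1) (n : ℕ) :
    (a ^ n) ^ p ^ k = 1 := by
  rw [← pow_mul, mul_comm, pow_mul, hk, one_pow]

/-! ### Coprime automorphisms -/

theorem card_modEq_one {W : Type*} [Group W] [Finite W] [Fact p.Prime] (f : MulAut W) {k : ℕ}
    (hf : f ^ p ^ k = 1) (hfix : ∀ w, f w = w → w = 1) : Nat.card W ≡ 1 [MOD p] := by
  have h1 : IsPGroup p (zpowers f) := by
    rintro ⟨x, hx⟩
    obtain ⟨n, rfl⟩ := mem_zpowers_iff.mp hx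
    refine ⟨k, Subtype.ext ?_⟩
    change (f ^ n) ^ p ^ k = 1
    rw [← zpow_natCast, ← zpow_mul, mul_comm, zpow_mul, zpow_natCast, hf, one_zpow]
  have h2 := h1.card_modEq_card_fixedPoints W
  have h3 : Nat.card (MulAction.fixedPoints (zpowers f) W) = 1 := by
    rw [Nat.card_eq_one_iff_unique]
    refine ⟨⟨?_⟩, ⟨⟨1, ?_⟩⟩⟩
    · rintro ⟨a, ha⟩ ⟨b, hb⟩
      have ha1 : f a = a := ha ⟨f, mem_zpowers f⟩
      have hb1 : f b = b := hb ⟨f, mem_zpowers f⟩
      exact Subtype.ext ((hfix a ha1).trans (hfix b hb1).symm)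
    · rintro ⟨g, hg⟩
      exact map_one (g : MulAut W)
  rw [h3] at h2
  exact h2

theorem exists_W {V : Type*} [Group V] [Finite V] [hp : Fact p.Prime]
    (hcomm : ∀ a b : V, a * b = b * a) (f : MulAut V) {k : ℕ} (hf : f ^ p ^ k = 1)
    (hne : f ≠ 1) (hcop : (Nat.card V).Coprime p) :
    ∃ W : Subgroup V, W ≠ ⊥ ∧ (∀ w ∈ W, f w ∈ W) ∧
      (∀ W' ≤ W, (∀ w ∈ W', f w ∈ W') → W' = ⊥ ∨ W' = W) ∧ Nat.card W ≡ 1 [MOD p] := by
  classical
  set S : Set (Subgroup V) := {W | (∀ w ∈ W, f w ∈ W) ∧ ∃ w ∈ W, f w ≠ w} with hS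
  have hne' : S.Nonempty := by
    refine ⟨⊤, fun w _ => mem_top _, ?_⟩
    by_contra hno
    push Not at hno
    exact hne (MulEquiv.ext fun w => hno w (mem_top _))
  obtain ⟨W, hW, hmin⟩ := S.toFinite.exists_minimal hne'
  have hmin' : ∀ W' ≤ W, W' ∈ S → W' = W := fun W' h1 h2 => le_antisymm h1 (hmin h2 h1)
  obtain ⟨hWf, w₀, hw₀, hw₀f⟩ := hW
  -- the commutator map
  let φ : W →* V :=
    { toFun := fun w => f w * (w : V)⁻¹
      map_one' := by simp
      map_mul' := by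
        intro a b
        simp only [Subgroup.coe_mul, map_mul, mul_inv_rev]
        rw [hcomm (b : V)⁻¹ (a : V)⁻¹]
        calc f ↑a * f ↑b * ((a : V)⁻¹ * (b : V)⁻¹) = f ↑a * (f ↑b * (a : V)⁻¹) * (b : V)⁻¹ := by group
          _ = f ↑a * ((a : V)⁻¹ * f ↑b) * (b : V)⁻¹ := by rw [hcomm (f ↑b) (a : V)⁻¹]
          _ = f ↑a * (a : V)⁻¹ * (f ↑b * (b : V)⁻¹) := by group }
  have hφ : ∀ w : W, φ w = f w * (w : V)⁻¹ := fun w => rfl
  have hRW : φ.range ≤ W := by
    rintro _ ⟨w, rfl⟩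
    exact mul_mem (hWf _ w.2) (inv_mem w.2)
  have hRf : ∀ y ∈ φ.range, f y ∈ φ.range := by
    rintro _ ⟨w, rfl⟩
    refine ⟨⟨f w, hWf _ w.2⟩, ?_⟩
    rw [hφ, hφ, map_mul, map_inv]
  have hiter : ∀ w y : V, f w * w⁻¹ = y → f y = y → ∀ n : ℕ, (f ^ n) w = y ^ n * w := by
    intro w y hy hfy n
    induction n with
    | zero => simp
    | succ n ih =>
      rw [pow_succ', MulAut.mul_apply, ih, map_mul, map_pow, hfy, pow_succ, mul_assoc]
      congr 1
      rw [← hy]; group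
  have hR : φ.range = W := by
    apply hmin' _ hRW
    refine ⟨hRf, ?_⟩
    by_contra hno
    push Not at hno
    apply hw₀f
    have h1 : f (f w₀ * w₀⁻¹) = f w₀ * w₀⁻¹ := hno _ ⟨⟨w₀, hw₀⟩, rfl⟩
    have h2 := hiter w₀ _ rfl h1 (p ^ k)
    rw [hf, MulAut.one_apply] at h2
    have h3 : (f w₀ * w₀⁻¹) ^ p ^ k = 1 := by
      have := h2.symm
      rwa [mul_eq_right] at this
    have h4 : orderOf (f w₀ * w₀⁻¹) ∣ p ^ k := orderOf_dvd_of_pow_eq_one h3
    have h5 : orderOf (f w₀ * w₀⁻¹) ∣ Nat.card V := orderOf_dvd_natCard _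
    have h6 : orderOf (f w₀ * w₀⁻¹) = 1 :=
      Nat.eq_one_of_dvd_coprimes (hcop.pow_right k) h5 h4
    rw [orderOf_eq_one_iff] at h6
    exact mul_inv_eq_one.mp h6
  have hinj : ∀ w ∈ W, f w = w → w = 1 := by
    intro w hw hfw
    let φ' : W → W := fun w => ⟨φ w, hRW ⟨w, rfl⟩⟩
    have hsurj : Function.Surjective φ' := by
      intro y
      have : (y : V) ∈ φ.range := by rw [hR]; exact y.2
      obtain ⟨w, hw⟩ := this
      exact ⟨w, Subtype.ext hw⟩
    have hinj' : Function.Injective φ' := Finite.injective_iff_surjective.mpr hsurj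
    have h1 : φ' ⟨w, hw⟩ = φ' 1 := by
      apply Subtype.ext
      change φ ⟨w, hw⟩ = φ 1
      rw [map_one, hφ, hfw, mul_inv_cancel]
    have h2 := hinj' h1
    exact congrArg Subtype.val h2
  refine ⟨W, ?_, hWf, ?_, ?_⟩
  · rintro rfl
    rw [mem_bot] at hw₀
    rw [hw₀, map_one] at hw₀f
    exact hw₀f rfl
  · intro W' hW' hf'
    by_cases h : ∃ w ∈ W', f w ≠ w
    · exact Or.inr (hmin' W' hW' ⟨hf', h⟩)
    · left
      push Not at h
      rw [eq_bot_iff]
      intro w hw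
      rw [mem_bot]
      exact hinj w (hW' hw) (h w hw)
  · let g : W →* W := (f.toMonoidHom.comp W.subtype).codRestrict W (fun w => hWf _ w.2)
    have hg : ∀ w : W, ((g w : W) : V) = f w := fun w => rfl
    have hgi : Function.Injective g := by
      intro a b hab
      have h1 := congrArg Subtype.val hab
      rw [hg, hg] at h1
      exact Subtype.ext (f.injective h1)
    let e : MulAut W := MulEquiv.ofBijective g ((Finite.injective_iff_bijective).mp hgi)
    have he : ∀ w : W, ((e w : W) : V) = f w := fun w => rfl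
    have hen : ∀ (n : ℕ) (w : W), (((e ^ n) w : W) : V) = (f ^ n) w := by
      intro n
      induction n with
      | zero => intro w; simp
      | succ n ih => intro w; rw [pow_succ', MulAut.mul_apply, he, ih, pow_succ', MulAut.mul_apply]
    apply card_modEq_one e (k := k)
    · apply MulEquiv.ext
      intro w
      apply Subtype.ext
      rw [hen, hf]
      rfl
    · intro w hw
      have h1 := congrArg Subtype.val hw
      rw [he] at h1
      exact Subtype.ext (hinj w w.2 h1)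

end Cfsg.Agent.Lib.H39Lin1
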