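import Mathlib
import Cfsg.Prelude.Def_Characters
import Cfsg.Agent.Lib.CharBasic2
import Cfsg.Agent.Lib.CharMisc
import Cfsg.Agent.Lib.ExtraChar
import Cfsg.Agent.Lib.Clifford
import Cfsg.Agent.Lib.H39Lin1

/-!
Characters of class-two groups and coprime automorphisms (helper39).
-/

set_option autoImplicit false

namespace Cfsg.Agent.Lib.H39Lin2

open Subgroup CharBasic Cfsg
open scoped ComplexConjugate

universe u

variable {D : Type u} [Group D] [Finite D]

/-- A faithful (on the centre) irreducible character of a class-two group is fully ramified. -/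
theorem fully_ramified (hcl : ∀ x y : D, x * y * x⁻¹ * y⁻¹ ∈ center D) {θ : D → ℂ}
    (hθ : IsIrrCharacter D θ) (hf : ∀ z ∈ center D, θ z = θ 1 → z = 1) {m : ℕ} (hm : θ 1 = m) :
    m ^ 2 = (center D).index := by
  have := Fintype.ofFinite D
  obtain ⟨μ, hμ⟩ := ExtraChar.exists_central_hom hθ
  have hμ1 : ∀ z : center D, (μ z : ℂ) = 1 → (z : D) = 1 := by
    intro z hz
    apply hf z z.2
    have := hμ z 1
    rw [one_mul, hz, one_mul] at this
    exact this
  have hvan : ∀ x, x ∉ center D → θ x = 0 := by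
    intro x hx
    rw [mem_center_iff] at hx
    push Not at hx
    obtain ⟨y, hy⟩ := hx
    have h1 := hcl x⁻¹ y
    let z : center D := ⟨_, h1⟩
    have h2 := hμ z x
    have h3 : x * (z : D) = y * x * y⁻¹ := by
      change x * (x⁻¹ * y * x⁻¹⁻¹ * y⁻¹) = _
      group
    rw [h3, hθ.isClassFunction] at h2
    by_contra h0
    have h4 : (μ z : ℂ) = 1 := by
      have h5 : (1 - (μ z : ℂ)) * θ x = 0 := by linear_combination h2
      rcases mul_eq_zero.mp h5 with h6 | h6
      · linear_combination -h6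
      · exact absurd h6 h0
    have h5 := hμ1 z h4
    rw [h5, mul_one] at h3
    apply hy
    calc y * x = (y * x * y⁻¹) * y := by group
      _ = x * y := by rw [← h3]
  have h1 := ExtraChar.norm_of_vanish μ hμ hvan
  rw [hθ.classInner_self, hm] at h1
  have h2 : (Nat.card D : ℂ) ≠ 0 := by exact_mod_cast Nat.card_pos.ne'
  have h3 : (Nat.card D : ℂ) = Nat.card (center D) * (m ^ 2 : ℕ) := by
    have h4 : conj (m : ℂ) = m := Complex.conj_natCast m
    rw [h4] at h1
    field_simp at h1
    rw [h1]; push_cast; ring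
  have h4 : Nat.card D = Nat.card (center D) * m ^ 2 := by exact_mod_cast h3
  rw [← Subgroup.card_mul_index (center D)] at h4
  exact (Nat.eq_of_mul_eq_mul_left Nat.card_pos h4).symm

theorem le_index_of_comm {θ : D → ℂ} (hθ : IsIrrCharacter D θ) {m : ℕ} (hm : θ 1 = m)
    (A : Subgroup D) (hA : ∀ a ∈ A, ∀ b ∈ A, a * b = b * a) : m ≤ A.index := by
  obtain ⟨n, ρ, hρ, rfl⟩ := hθ
  have h1 := CharMisc.finrank_le_index ρ A hA
  rw [Representation.char_one] at hm
  have h2 : Module.finrank ℂ (Fin n → ℂ) = m := by exact_mod_cast hm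
  rw [h2] at h1
  exact h1

/-- A constituent of the restriction to a subgroup has the same central values. -/
theorem central_value {θ : D → ℂ} (hθ : IsIrrCharacter D θ) (H : Subgroup D) [Fintype H]
    {ψ : H → ℂ} (hψ : IsIrrCharacter H ψ) (hne : classInner (fun h : H => θ h) ψ ≠ 0)
    (z : H) (hz : (z : D) ∈ center D) (h1 : ψ z = ψ 1) : θ z = θ 1 := by
  obtain ⟨μ, hμ⟩ := ExtraChar.exists_central_hom hθ
  obtain ⟨ν, hν⟩ := ExtraChar.exists_central_hom hψ
  have hzc : z ∈ center H := by
    rw [mem_center_iff] at hz ⊢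
    intro g
    exact Subtype.ext (hz g)
  have hν1 : (ν ⟨z, hzc⟩ : ℂ) = 1 := by
    have h2 := hν ⟨z, hzc⟩ 1
    rw [one_mul] at h2
    change ψ z = _ at h2
    rw [h1] at h2
    have h3 := hψ.one_ne_zero
    have h4 : ((ν ⟨z, hzc⟩ : ℂ) - 1) * ψ 1 = 0 := by linear_combination -h2
    rcases mul_eq_zero.mp h4 with h5 | h5
    · linear_combination h5
    · exact absurd h5 h3
  have h2 : classInner (fun h : H => θ h) ψ = (μ ⟨z, hz⟩ : ℂ) * classInner (fun h : H => θ h) ψ := by
    rw [classInner_def]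
    conv_lhs => rw [← Equiv.sum_comp (Equiv.mulRight z)]
    rw [mul_left_comm]
    congr 1
    rw [Finset.mul_sum]
    apply Finset.sum_congr rfl
    intro h _
    have e1 : θ ((h * z : H) : D) = μ ⟨z, hz⟩ * θ h := hμ ⟨z, hz⟩ h
    have e2 : ψ (h * z) = ψ h := by
      have := hν ⟨z, hzc⟩ h
      rw [hν1, one_mul] at this
      exact this
    simp only [Equiv.coe_mulRight]
    rw [e1, e2]; ring
  have h3 : (μ ⟨z, hz⟩ : ℂ) = 1 := by
    have h4 : (1 - (μ ⟨z, hz⟩ : ℂ)) * classInner (fun h : H => θ h) ψ = 0 := by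
      linear_combination h2
    rcases mul_eq_zero.mp h4 with h5 | h5
    · linear_combination -h5
    · exact absurd h5 hne
  have h4 := hμ ⟨z, hz⟩ 1
  rw [one_mul, h3, one_mul] at h4
  exact h4

theorem pow_dvd_of_le {r a b : ℕ} (hr : 1 < r) {x y : ℕ} (hx : x = r ^ a) (hy : y = r ^ b)
    (h : x ≤ y) : x ∣ y := by
  rw [hx, hy] at h ⊢
  exact pow_dvd_pow r ((Nat.pow_le_pow_iff_right hr).mp h)

/-- The main step. -/
theorem exists_q {p r : ℕ} [hp : Fact p.Prime] [hr : Fact r.Prime] (hrp : r ≠ p)
    (hD : IsPGroup r D) (hcl : ∀ x y : D, x * y * x⁻¹ * y⁻¹ ∈ center D) {θ : D → ℂ}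
    (hθ : IsIrrCharacter D θ) (hf : ∀ z ∈ center D, θ z = θ 1 → z = 1) {m : ℕ} (hm : θ 1 = m)
    (f : MulAut D) {k : ℕ} (hfk : f ^ p ^ k = 1) (hne : ∃ d : D, f d * d⁻¹ ∉ center D) :
    ∃ q : ℕ, IsPrimePow q ∧ q ∣ m ∧ (p ∣ q - 1 ∨ p ∣ q + 1) := by
  classical
  have hm2 := fully_ramified hcl hθ hf hm
  have hcenf : ∀ z ∈ center D, f z ∈ center D := by
    intro z hz
    rw [mem_center_iff] at hz ⊢
    intro g
    have := congrArg f (hz (f⁻¹ g))
    rw [map_mul, map_mul, MulAut.apply_inv_self D f] at this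
    exact this
  have hcenmap : (center D).map (f : D →* D) = center D := by
    apply le_antisymm
    · rintro _ ⟨z, hz, rfl⟩
      exact hcenf z hz
    · intro z hz
      refine ⟨f⁻¹ z, ?_, MulAut.apply_inv_self D f z⟩
      change f⁻¹ z ∈ center D
      rw [mem_center_iff] at hz ⊢
      intro g
      have := congrArg (f⁻¹ : MulAut D) (hz (f g))
      rw [map_mul, map_mul, MulAut.inv_apply_self D f] at this
      exact this
  let V := D ⧸ center D
  let g : MulAut V := QuotientGroup.congr (center D) (center D) f hcenmap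
  have hg : ∀ d : D, g (d : V) = (f d : V) := fun d => rfl
  have hgn : ∀ (n : ℕ) (d : D), (g ^ n) (d : V) = ((f ^ n) d : V) := by
    intro n
    induction n with
    | zero => intro d; rfl
    | succ n ih => intro d; rw [pow_succ', MulAut.mul_apply, ih, hg, pow_succ', MulAut.mul_apply]
  have hgk : g ^ p ^ k = 1 := by
    apply MulEquiv.ext
    intro v
    obtain ⟨d, rfl⟩ := QuotientGroup.mk_surjective v
    rw [hgn, hfk]
    rfl
  have hgne : g ≠ 1 := by
    intro h1
    obtain ⟨d, hd⟩ := hne
    apply hd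
    have h2 : g (d : V) = (d : V) := by rw [h1]; rfl
    rw [hg] at h2
    have h3 : ((f d * d⁻¹ : D) : V) = 1 := by
      rw [QuotientGroup.mk_mul, QuotientGroup.mk_inv, h2, mul_inv_cancel]
    exact (QuotientGroup.eq_one_iff _).mp h3
  have hcomm : ∀ a b : V, a * b = b * a := by
    intro a b
    obtain ⟨a, rfl⟩ := QuotientGroup.mk_surjective a
    obtain ⟨b, rfl⟩ := QuotientGroup.mk_surjective b
    rw [← QuotientGroup.mk_mul, ← QuotientGroup.mk_mul, eq_comm, QuotientGroup.eq]
    have := hcl a⁻¹ b⁻¹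
    have e : (b * a)⁻¹ * (a * b) = a⁻¹ * b⁻¹ * a⁻¹⁻¹ * b⁻¹⁻¹ := by group
    rw [e]; exact this
  have hVp : IsPGroup r V := hD.to_quotient _
  obtain ⟨v, hv⟩ := IsPGroup.iff_card.mp hVp
  have hcop : (Nat.card V).Coprime p := by
    rw [hv]
    exact Nat.Coprime.pow_left _ ((Nat.coprime_primes hr.out hp.out).mpr hrp)
  obtain ⟨W, hW1, hWg, hWmin, hWmod⟩ := H39Lin1.exists_W hcomm g hgk hgne hcop
  have hmV : m ^ 2 = Nat.card V := hm2
  have hmr : ∃ s, m = r ^ s := by
    rw [hv] at hmV
    have : m ∣ r ^ v := by rw [← hmV]; exact dvd_pow_self m two_ne_zero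
    obtain ⟨s, -, hs⟩ := (Nat.dvd_prime_pow hr.out).mp this
    exact ⟨s, hs⟩
  obtain ⟨s, hs⟩ := hmr
  obtain ⟨j, hj⟩ := IsPGroup.iff_card.mp (hVp.to_subgroup W)
  have hW1' : 1 < Nat.card W := by
    rw [Subgroup.one_lt_card_iff_ne_bot]; exact hW1
  have hj0 : j ≠ 0 := by
    rintro rfl
    rw [pow_zero] at hj; omega
  have hWV : Nat.card W ≤ Nat.card V := Nat.le_of_dvd Nat.card_pos W.card_subgroup_dvd_card
  set Wh : Subgroup D := W.comap (QuotientGroup.mk' (center D)) with hWh
  have hmemWh : ∀ d : D, d ∈ Wh ↔ (d : V) ∈ W := fun d => Iff.rfl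
  have hZWh : center D ≤ Wh := by
    intro z hz
    rw [hmemWh, (QuotientGroup.eq_one_iff z).mpr hz]
    exact one_mem W
  have hidx : Wh.index = W.index := index_comap_of_surjective _ (QuotientGroup.mk'_surjective _)
  have hfWh : ∀ w ∈ Wh, f w ∈ Wh := by
    intro w hw
    rw [hmemWh, ← hg]
    exact hWg _ ((hmemWh w).mp hw)
  have hfWhinv : ∀ w ∈ Wh, ∃ w' ∈ Wh, f w' = w := by
    intro w hw
    have h1 : (Wh.map (f : D →* D)) ≤ Wh := by
      rintro _ ⟨x, hx, rfl⟩; exact hfWh x hx
    have h2 : (Wh.map (f : D →* D)) = Wh := by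
      apply Subgroup.eq_of_le_of_card_ge h1
      rw [Nat.card_congr (Wh.equivMapOfInjective (f : D →* D) f.injective).toEquiv]
    rw [← h2] at hw
    obtain ⟨x, hx, hxe⟩ := hw
    exact ⟨x, hx, hxe⟩
  by_cases hab : ∀ a ∈ Wh, ∀ b ∈ Wh, a * b = b * a
  · -- isotropic case
    have h1 := le_index_of_comm hθ hm Wh hab
    rw [hidx] at h1
    have h2 : Nat.card W * W.index = m ^ 2 := by rw [Subgroup.card_mul_index, hmV]
    have hm0 : 0 < m := by
      rw [hs]; exact pow_pos hr.out.pos s
    have h3 : Nat.card W ≤ m := by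
      by_contra hcon
      push Not at hcon
      have : m * m < Nat.card W * W.index :=
        Nat.mul_lt_mul_of_lt_of_le hcon h1 (by omega)
      rw [h2, sq] at this
      omega
    refine ⟨Nat.card W, ?_, ?_, Or.inl ?_⟩
    · rw [hj, isPrimePow_nat_iff]
      exact ⟨r, j, hr.out, Nat.pos_of_ne_zero hj0, rfl⟩
    · exact pow_dvd_of_le hr.out.one_lt hj hs h3
    · exact (Nat.modEq_iff_dvd' (by omega)).mp hWmod.symm
  · -- nondegenerate case
    push Not at hab
    -- the centre of `Wh` is the centre of `D`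
    set C : Subgroup V := ((centralizer (Wh : Set D)) ⊓ Wh).map (QuotientGroup.mk' (center D)) with hC
    have hCW : C ≤ W := by
      rintro _ ⟨d, ⟨-, hd⟩, rfl⟩
      exact hd
    have hCf : ∀ w ∈ C, g w ∈ C := by
      rintro _ ⟨d, ⟨hd1, hd2⟩, rfl⟩
      refine ⟨f d, ⟨?_, hfWh d hd2⟩, rfl⟩
      change f d ∈ centralizer (Wh : Set D)
      replace hd1 : d ∈ centralizer (Wh : Set D) := hd1
      rw [mem_centralizer_iff] at hd1 ⊢
      intro w hw
      obtain ⟨w', hw', rfl⟩ := hfWhinv w hw
      rw [← map_mul, ← map_mul, hd1 w' hw']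
    have hCbot : C = ⊥ := by
      rcases hWmin C hCW hCf with h | h
      · exact h
      · exfalso
        obtain ⟨a, ha, b, hb, hne⟩ := hab
        apply hne
        have ha' : (a : V) ∈ C := by rw [h]; exact ha
        obtain ⟨d, ⟨hd1, hd2⟩, hd3⟩ := ha'
        have h4 : d⁻¹ * a ∈ center D := by
          rw [← QuotientGroup.eq]; exact hd3
        have h5 : a = d * (d⁻¹ * a) := by group
        replace hd1 : d ∈ centralizer (Wh : Set D) := hd1
        rw [mem_centralizer_iff] at hd1
        have h6 := hd1 b hb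
        have h7 := mem_center_iff.mp h4 b
        calc a * b = d * ((d⁻¹ * a) * b) := by group
          _ = d * (b * (d⁻¹ * a)) := by rw [h7]
          _ = (d * b) * (d⁻¹ * a) := by group
          _ = b * d * (d⁻¹ * a) := by rw [h6]
          _ = b * a := by group
    have hcenWh : ∀ w : Wh, w ∈ center Wh ↔ (w : D) ∈ center D := by
      intro w
      constructor
      · intro hw
        have h1 : ((w : D) : V) ∈ C := by
          refine ⟨w, ⟨?_, w.2⟩, rfl⟩
          change (w : D) ∈ centralizer (Wh : Set D)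
          rw [mem_centralizer_iff]
          intro y hy
          exact congrArg Subtype.val (mem_center_iff.mp hw ⟨y, hy⟩)
        rw [hCbot, mem_bot] at h1
        exact (QuotientGroup.eq_one_iff _).mp h1
      · intro hw
        rw [mem_center_iff] at hw ⊢
        intro y
        exact Subtype.ext (hw y)
    have : Fintype Wh := Fintype.ofFinite _
    have hres := hθ.isCharacter.restrict Wh
    have hres0 : (fun h : Wh => θ h) ≠ 0 := by
      intro h
      have := congrFun h 1
      exact hθ.one_ne_zero this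
    obtain ⟨ψ, hψ⟩ := Clifford.exists_constituent hres hres0
    obtain ⟨i, hi0, hi⟩ := ψ.2.exists_degree
    have hclW : ∀ x y : Wh, x * y * x⁻¹ * y⁻¹ ∈ center Wh := by
      intro x y
      rw [hcenWh]
      exact hcl x y
    have hfW : ∀ z ∈ center Wh, (ψ : Wh → ℂ) z = (ψ : Wh → ℂ) 1 → z = 1 := by
      intro z hz hz1
      have h1 := central_value hθ Wh ψ.2 hψ z ((hcenWh z).mp hz) hz1
      exact Subtype.ext (hf z ((hcenWh z).mp hz) h1)
    have h2 := fully_ramified hclW ψ.2 hfW hi
    have h3 : (center Wh).index = Nat.card W := by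
      have e1 : center Wh = (center D).subgroupOf Wh := by
        ext w
        rw [hcenWh, mem_subgroupOf]
      rw [e1]
      change (center D).relIndex Wh = _
      have e2 : Nat.card Wh = Nat.card (center D) * (center D).relIndex Wh := by
        rw [← Subgroup.card_mul_index ((center D).subgroupOf Wh),
          Nat.card_congr (Subgroup.subgroupOfEquivOfLe hZWh).toEquiv]
        rfl
      have e3 : Nat.card Wh * Wh.index = Nat.card D := Subgroup.card_mul_index _
      have e4 : Nat.card W * W.index = Nat.card V := Subgroup.card_mul_index _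
      have e5 : Nat.card (center D) * Nat.card V = Nat.card D := Subgroup.card_mul_index _
      have e6 : 0 < W.index := Nat.pos_of_ne_zero W.index_ne_zero_of_finite
      rw [hidx, e2, ← e5, ← e4] at e3
      have e7 : Nat.card (center D) * W.index * (center D).relIndex Wh =
          Nat.card (center D) * W.index * Nat.card W := by
        linarith [e3, mul_comm (Nat.card (center D)) (W.index),
          mul_assoc (Nat.card (center D)) ((center D).relIndex Wh) W.index,
          show Nat.card (center D) * (center D).relIndex Wh * W.index =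
            Nat.card (center D) * W.index * (center D).relIndex Wh by ring,
          show Nat.card (center D) * (Nat.card W * W.index) =
            Nat.card (center D) * W.index * Nat.card W by ring]
      exact Nat.eq_of_mul_eq_mul_left (Nat.mul_pos Nat.card_pos e6) e7
    rw [h3] at h2
    have hi1 : 1 < i := by
      by_contra hcon
      have : i = 1 := by omega
      rw [this] at h2; omega
    have hir : ∃ t, i = r ^ t := by
      have : i ∣ r ^ j := by rw [← hj, ← h2]; exact dvd_pow_self i two_ne_zero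
      obtain ⟨t, -, ht⟩ := (Nat.dvd_prime_pow hr.out).mp this
      exact ⟨t, ht⟩
    obtain ⟨t, ht⟩ := hir
    have him : i ≤ m := by
      have : i ^ 2 ≤ m ^ 2 := by rw [h2, hmV]; exact hWV
      exact (Nat.pow_le_pow_iff_left two_ne_zero).mp this
    refine ⟨i, ?_, pow_dvd_of_le hr.out.one_lt ht hs him, ?_⟩
    · rw [ht, isPrimePow_nat_iff]
      refine ⟨r, t, hr.out, ?_, rfl⟩
      rcases Nat.eq_zero_or_pos t with h | h
      · rw [h, pow_zero] at ht; omega
      · exact h
    · have h4 : p ∣ Nat.card W - 1 := (Nat.modEq_iff_dvd' (by omega)).mp hWmod.symm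
      rw [← h2] at h4
      have h5 : i ^ 2 - 1 = (i - 1) * (i + 1) := by
        obtain ⟨a, rfl⟩ : ∃ a, i = a + 1 := ⟨i - 1, by omega⟩
        have : (a + 1) ^ 2 = (a + 1 - 1) * (a + 1 + 1) + 1 := by
          rw [Nat.add_sub_cancel]; ring
        omega
      rw [h5] at h4
      exact (Nat.Prime.dvd_mul hp.out).mp h4

end Cfsg.Agent.Lib.H39Lin2
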