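import Mathlib
import Cfsg.Agent.Lib.Cores

/-!
Groups `R⟨b⟩` acting on an `F₃`-space with `b` of order three of rank two (for S4415): basics.
-/

set_option autoImplicit false

namespace Cfsg.Agent.Lib.H39T

open Subgroup

variable {G : Type*} [Group G] {V : Type*} [AddCommGroup V] [Module (ZMod 3) V]

theorem rmul (ρ : Representation (ZMod 3) G V) (g h : G) (v : V) : ρ (g * h) v = ρ g (ρ h v) := by
  rw [map_mul]; rfl

theorem rone (ρ : Representation (ZMod 3) G V) (v : V) : ρ 1 v = v := by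
  rw [map_one]; rfl

theorem rinv (ρ : Representation (ZMod 3) G V) (g : G) (v : V) : ρ g⁻¹ (ρ g v) = v := by
  rw [← rmul, inv_mul_cancel, rone]

theorem rinv' (ρ : Representation (ZMod 3) G V) (g : G) (v : V) : ρ g (ρ g⁻¹ v) = v := by
  rw [← rmul, mul_inv_cancel, rone]

theorem three_smul' (v : V) : v + v + v = 0 := by
  have h : (3 : ZMod 3) • v = 0 := by rw [show (3 : ZMod 3) = 0 from rfl, zero_smul]
  rw [show (3 : ZMod 3) = 1 + 1 + 1 by rfl, add_smul, add_smul, one_smul] at h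
  exact h

theorem eq_zero_of_neg {v : V} (h : v = -v) : v = 0 := by
  have h1 := three_smul' v
  have h2 : v + v = 0 := by nth_rewrite 1 [h]; simp
  rwa [h2, zero_add] at h1

theorem four_smul' (v : V) : v + v + (v + v) = v := by
  have h1 := three_smul' v
  calc v + v + (v + v) = (v + v + v) + v := by abel
    _ = v := by rw [h1, zero_add]

/-- fixed space of a subgroup -/
def fx (ρ : Representation (ZMod 3) G V) (A : Subgroup G) : Submodule (ZMod 3) V where
  carrier := {v | ∀ a ∈ A, ρ a v = v}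
  add_mem' := by
    intro x y hx hy a ha
    rw [map_add, hx a ha, hy a ha]
  zero_mem' := by
    intro a _
    exact map_zero _
  smul_mem' := by
    intro c x hx a ha
    rw [map_smul, hx a ha]

theorem mem_fx {ρ : Representation (ZMod 3) G V} {A : Subgroup G} {v : V} :
    v ∈ fx ρ A ↔ ∀ a ∈ A, ρ a v = v := Iff.rfl

theorem zmod3 (c : ZMod 3) (h : c * c = 1) : c = 1 ∨ c = -1 := by
  revert h; revert c; decide

/-- the basic situation -/
structure Pre (ρ : Representation (ZMod 3) G V) (b q : G) : Prop where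
  inj : Function.Injective ρ
  b3 : b * b * b = 1
  tr : ∃ w : V, ∀ v : V, ∃ c : ZMod 3, v + ρ b v + ρ (b * b) v = c • w
  rk : Module.finrank (ZMod 3) (LinearMap.range (ρ b - 1)) ≤ 2
  qq : q * q = 1
  q1 : q ≠ 1
  qb : q * (b * q * b⁻¹) = b * b * q * b⁻¹ * b⁻¹

/-- the situation -/
structure Ctx (ρ : Representation (ZMod 3) G V) (R : Subgroup G) (b q : G) : Prop extends Pre ρ b q where
  nR : R.Normal
  cop : ¬ 3 ∣ Nat.card R
  sol : Group.IsSolvable G
  gen : ∀ X : Subgroup G, X.Normal → b ∈ X → X = ⊤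
  dec : ∀ g : G, ∃ r ∈ R, ∃ i : ℕ, g = r * b ^ i
  irr : ∀ W : Submodule (ZMod 3) V, (∀ g, ∀ w ∈ W, ρ g w ∈ W) → W = ⊥ ∨ W = ⊤
  qR : q ∈ R

namespace Pre

variable {ρ : Representation (ZMod 3) G V} {b q : G} (c : Pre ρ b q)

include c

theorem bbv (v : V) : ρ b (ρ b (ρ b v)) = v := by
  rw [← rmul, ← rmul, c.b3, rone]

theorem binv : b⁻¹ = b * b := by
  rw [inv_eq_iff_mul_eq_one, ← mul_assoc, c.b3]

/-- the involutions -/
theorem q2b : (b * q * b⁻¹) * (b * q * b⁻¹) = 1 := by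
  rw [show (b * q * b⁻¹) * (b * q * b⁻¹) = b * (q * q) * b⁻¹ by group, c.qq]; group

theorem q3b : (b * b * q * b⁻¹ * b⁻¹) * (b * b * q * b⁻¹ * b⁻¹) = 1 := by
  rw [show (b * b * q * b⁻¹ * b⁻¹) * (b * b * q * b⁻¹ * b⁻¹) = b * b * (q * q) * b⁻¹ * b⁻¹ by group, c.qq]
  group

theorem qcomm : q * (b * q * b⁻¹) = (b * q * b⁻¹) * q := by
  have h1 := c.q3b
  rw [← c.qb] at h1
  have h2 := c.q2b
  have h3 := c.qq
  have h4 : (q * (b * q * b⁻¹))⁻¹ = q * (b * q * b⁻¹) := inv_eq_of_mul_eq_one_left h1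
  rw [← h4, mul_inv_rev, inv_eq_of_mul_eq_one_left h2, inv_eq_of_mul_eq_one_left h3]

/-- a weight vector -/
theorem exists_e : ∃ e : V, e ≠ 0 ∧ ρ q e = e ∧ ρ (b * q * b⁻¹) e = -e := by
  by_contra hno
  push Not at hno
  set p := b * q * b⁻¹ with hp
  have hpp : p * p = 1 := c.q2b
  have hqp : q * p = p * q := c.qcomm
  -- no vector of type (1,-1), hence none of the two other types
  have h1 : ∀ v : V, ρ q v = v → ρ p v = -v → v = 0 := by
    intro v hv hv'
    by_contra h0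
    exact hno v h0 hv hv'
  have h2 : ∀ v : V, ρ p v = v → ρ q v = -v → v = 0 := by
    intro v hv hv'
    have h3 : ρ b⁻¹ v = 0 := by
      apply h1
      · have h4 : ρ q (ρ b⁻¹ v) = ρ b⁻¹ (ρ p v) := by
          rw [← rmul, ← rmul, hp]; congr 2; group
        rw [h4, hv]
      · have h4 : ρ p (ρ b⁻¹ v) = ρ b⁻¹ (ρ (b * b * q * b⁻¹ * b⁻¹) v) := by
          rw [← rmul, ← rmul, hp]; congr 2; group
        rw [h4, ← c.qb, ← hp, rmul, hv, hv', map_neg]
    have h5 := rinv' ρ b v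
    rw [h3, map_zero] at h5
    exact h5.symm
  have h3 : ∀ v : V, ρ p v = -v → ρ q v = -v → v = 0 := by
    intro v hv hv'
    have h3 : ρ b⁻¹ v = 0 := by
      apply h2
      · have h4 : ρ p (ρ b⁻¹ v) = ρ b⁻¹ (ρ (b * b * q * b⁻¹ * b⁻¹) v) := by
          rw [← rmul, ← rmul, hp]; congr 2; group
        rw [h4, ← c.qb, ← hp, rmul, hv, map_neg, hv', neg_neg]
      · have h4 : ρ q (ρ b⁻¹ v) = ρ b⁻¹ (ρ p v) := by
          rw [← rmul, ← rmul, hp]; congr 2; group
        rw [h4, hv, map_neg]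
    have h5 := rinv' ρ b v
    rw [h3, map_zero] at h5
    exact h5.symm
  apply c.q1
  apply c.inj
  ext v
  rw [rone]
  have hqq : ∀ v, ρ q (ρ q v) = v := fun v => by rw [← rmul, c.qq, rone]
  have hppv : ∀ v, ρ p (ρ p v) = v := fun v => by rw [← rmul, hpp, rone]
  have hqpv : ∀ v, ρ q (ρ p v) = ρ p (ρ q v) := fun v => by rw [← rmul, ← rmul, hqp]
  have hw1 : ρ p (v - ρ q v) - (v - ρ q v) = 0 := by
    apply h3
    · rw [map_sub, hppv]; abel
    · simp only [map_sub, hqpv, hqq]; abel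
  have hw2 : v - ρ q v = 0 := by
    apply h2
    · exact sub_eq_zero.1 hw1
    · rw [map_sub, hqq]; abel
  exact (sub_eq_zero.1 hw2).symm

/-- package of the weight vector and its consequences -/
theorem exists_data : ∃ e : V, e ≠ 0 ∧ ρ q e = e ∧ ρ (b * q * b⁻¹) e = -e ∧
    (∀ v : V, ρ q v = v → ρ (b * q * b⁻¹) v = -v → ∃ k : ZMod 3, v = k • e) ∧
    (∀ v : V, ∃ k : ZMod 3, v + ρ b v + ρ (b * b) v = k • (e + ρ b e + ρ (b * b) e)) ∧
    ρ (b * b * q * b⁻¹ * b⁻¹) e = -e := by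
  obtain ⟨e, he0, he1, he2⟩ := c.exists_e
  obtain ⟨w, hw⟩ := c.tr
  obtain ⟨k0, hk0⟩ := hw e
  have hq3e : ρ (b * b * q * b⁻¹ * b⁻¹) e = -e := by
    rw [← c.qb, rmul, he2, map_neg, he1]
  -- the sum is nonzero and separates
  have key : ∀ v : V, ρ q v = v → ρ (b * q * b⁻¹) v = -v → v + ρ b v + ρ (b * b) v = 0 → v = 0 := by
    intro v hv1 hv2 hv3
    have hv4 : ρ (b * b * q * b⁻¹ * b⁻¹) v = -v := by rw [← c.qb, rmul, hv2, map_neg, hv1]
    have h1 : ρ q (ρ b v) = - ρ b v := by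
      have : ρ q (ρ b v) = ρ b (ρ (b * b * q * b⁻¹ * b⁻¹) v) := by
        rw [← rmul, ← rmul]; congr 2
        have := c.b3
        rw [show b * (b * b * q * b⁻¹ * b⁻¹) = (b * b * b) * q * b⁻¹ * b⁻¹ by group, this]
        rw [one_mul, c.binv]
        rw [show q * (b * b) * (b * b) = q * (b * b * b) * b by group, this]; group
      rw [this, hv4, map_neg]
    have h2 : ρ q (ρ (b * b) v) = - ρ (b * b) v := by
      have : ρ q (ρ (b * b) v) = ρ (b * b) (ρ (b * q * b⁻¹) v) := by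
        rw [← rmul, ← rmul]; congr 2
        rw [show b * b * (b * q * b⁻¹) = (b * b * b) * q * b⁻¹ by group, c.b3, one_mul, c.binv]
      rw [this, hv2, map_neg]
    have h3 := congrArg (ρ q) hv3
    rw [map_add, map_add, hv1, h1, h2, map_zero] at h3
    have h4 : v + v = (v + ρ b v + ρ (b * b) v) + (v + -ρ b v + -ρ (b * b) v) := by abel
    rw [hv3, h3, add_zero] at h4
    exact eq_zero_of_neg (eq_neg_of_add_eq_zero_left h4)
  have hk00 : k0 ≠ 0 := by
    rintro rfl
    rw [zero_smul] at hk0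
    exact he0 (key e he1 he2 hk0)
  have hall : ∀ v : V, ∃ k : ZMod 3, v + ρ b v + ρ (b * b) v = k • (e + ρ b e + ρ (b * b) e) := by
    intro v
    obtain ⟨k, hk⟩ := hw v
    refine ⟨k * k0⁻¹, ?_⟩
    rw [hk0, hk, smul_smul, mul_assoc, inv_mul_cancel₀ hk00, mul_one]
  refine ⟨e, he0, he1, he2, ?_, hall, hq3e⟩
  intro v hv1 hv2
  obtain ⟨k, hk⟩ := hall v
  refine ⟨k, ?_⟩
  have h1 : v - k • e = 0 := by
    apply key
    · rw [map_sub, map_smul, hv1, he1]
    · rw [map_sub, map_smul, hv2, he2]; simp only [smul_neg]; abel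
    · rw [map_sub, map_sub, map_smul, map_smul]
      have : v - k • e + (ρ b v - k • ρ b e) + (ρ (b * b) v - k • ρ (b * b) e) =
        (v + ρ b v + ρ (b * b) v) - k • (e + ρ b e + ρ (b * b) e) := by
        rw [smul_add, smul_add]; abel
      rw [this, hk, sub_self]
  exact sub_eq_zero.1 h1

end Pre

namespace Ctx

variable {ρ : Representation (ZMod 3) G V} {R : Subgroup G} {b q : G} (c : Ctx ρ R b q)

include c

theorem fx_normal {A : Subgroup G} (hA : A.Normal) (hA1 : A ≠ ⊥) : fx ρ A = ⊥ := by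
  rcases c.irr (fx ρ A) (by
    intro g w hw a ha
    have h1 := hw (g⁻¹ * a * g⁻¹⁻¹) (hA.conj_mem a ha g⁻¹)
    have h2 : ρ a (ρ g w) = ρ g (ρ (g⁻¹ * a * g⁻¹⁻¹) w) := by
      rw [← rmul, ← rmul]; congr 2; group
    rw [h2, h1]) with h | h
  · exact h
  · exfalso
    apply hA1
    rw [eq_bot_iff]
    intro a ha
    rw [mem_bot]
    apply c.inj
    ext v
    have : v ∈ fx ρ A := by rw [h]; exact Submodule.mem_top
    rw [this a ha, rone]

theorem center {a : G} (ha : ∀ g : G, g * a = a * g) : a = 1 ∨ ∀ v, ρ a v = -v := by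
  obtain ⟨e, he0, he1, he2, -, hT, -⟩ := c.exists_data
  set u := e + ρ b e + ρ (b * b) e with hu
  have hu0 : u ≠ 0 := by
    intro h
    have h1 : ρ q u = e - ρ b e - ρ (b * b) e := by
      have h1 : ρ q (ρ b e) = - ρ b e := by
        have : ρ q (ρ b e) = ρ b (ρ (b * b * q * b⁻¹ * b⁻¹) e) := by
          rw [← rmul, ← rmul]; congr 2
          have := c.b3
          rw [show b * (b * b * q * b⁻¹ * b⁻¹) = (b * b * b) * q * b⁻¹ * b⁻¹ by group, this]
          rw [one_mul, c.binv]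
          rw [show q * (b * b) * (b * b) = q * (b * b * b) * b by group, this]; group
        rw [this, ← c.qb, rmul, he2, map_neg, he1, map_neg]
      have h2 : ρ q (ρ (b * b) e) = - ρ (b * b) e := by
        have : ρ q (ρ (b * b) e) = ρ (b * b) (ρ (b * q * b⁻¹) e) := by
          rw [← rmul, ← rmul]; congr 2
          rw [show b * b * (b * q * b⁻¹) = (b * b * b) * q * b⁻¹ by group, c.b3, one_mul, c.binv]
        rw [this, he2, map_neg]
      rw [hu, map_add, map_add, he1, h1, h2]; abel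
    rw [h, map_zero] at h1
    have h4 : e + e = u + (e - ρ b e - ρ (b * b) e) := by rw [hu]; abel
    rw [h, ← h1, add_zero] at h4
    exact he0 (eq_zero_of_neg (eq_neg_of_add_eq_zero_left h4))
  have hau : ∃ k : ZMod 3, ρ a u = k • u := by
    obtain ⟨k, hk⟩ := hT (ρ a e)
    refine ⟨k, ?_⟩
    rw [← hk, hu, map_add, map_add, ← rmul, ← rmul, ← rmul, ← rmul, ha, ha (b * b)]
  obtain ⟨k, hk⟩ := hau
  have hk0 : k ≠ 0 := by
    rintro rfl
    rw [zero_smul] at hk
    have := rinv ρ a u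
    rw [hk, map_zero] at this
    exact hu0 this.symm
  have hkk : k = 1 ∨ k = -1 := by
    revert hk0; clear hk; revert k; decide
  have hW : ∀ s : ZMod 3, (∃ v : V, v ≠ 0 ∧ ρ a v = s • v) → ∀ v, ρ a v = s • v := by
    intro s ⟨v0, hv0, hav0⟩ v
    let W : Submodule (ZMod 3) V := LinearMap.ker (ρ a - s • LinearMap.id)
    have hW : ∀ v, v ∈ W ↔ ρ a v = s • v := by
      intro v
      rw [LinearMap.mem_ker, LinearMap.sub_apply, sub_eq_zero]; rfl
    rcases c.irr W (by
      intro g w hw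
      rw [hW] at hw ⊢
      rw [← rmul, ← ha, rmul, hw, map_smul]) with h | h
    · exfalso
      have : v0 ∈ W := (hW v0).2 hav0
      rw [h, Submodule.mem_bot] at this
      exact hv0 this
    · have : v ∈ W := by rw [h]; exact Submodule.mem_top
      exact (hW v).1 this
  rcases hkk with rfl | rfl
  · left
    apply c.inj
    ext v
    rw [hW 1 ⟨u, hu0, hk⟩ v, one_smul, rone]
  · right
    intro v
    rw [hW (-1) ⟨u, hu0, hk⟩ v, neg_smul, one_smul]

end Ctx

end Cfsg.Agent.Lib.H39T
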