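import Mathlib

/-!
Transitive solvable permutation groups generated by conjugates of one three-cycle (for S4415).
-/

set_option autoImplicit false

namespace Cfsg.Agent.Lib.H39T

open Subgroup
open scoped Pointwise

theorem perm_three {G : Type*} [Group G] {Ω : Type*} [Fintype Ω] [DecidableEq Ω] (f : G →* Equiv.Perm Ω) {b : G}
    (hb : (f b).IsThreeCycle) (gen : ∀ X : Subgroup G, X.Normal → b ∈ X → X = ⊤)
    (htr : ∀ x y, ∃ g, f g x = y) : alternatingGroup Ω ≤ f.range := by
  have hprim : MulAction.IsPreprimitive f.range Ω := by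
    haveI : MulAction.IsPretransitive f.range Ω := by
      constructor
      intro x y
      obtain ⟨g, hg⟩ := htr x y
      exact ⟨⟨f g, g, rfl⟩, hg⟩
    constructor
    intro B hB
    by_cases hsub : B.Subsingleton
    · exact Or.inl hsub
    right
    rw [Set.not_subsingleton_iff] at hsub
    obtain ⟨x, hx, y, hy, hxy⟩ := hsub
    let X : Subgroup G := ((MulAction.stabilizer f.range B).comap f.rangeRestrict).normalCore
    have hX : X = ⊤ := by
      apply gen X (normalCore_normal _)
      intro h
      change f.rangeRestrict (h * b * h⁻¹) ∈ MulAction.stabilizer f.range B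
      rw [MulAction.mem_stabilizer_iff]
      by_contra hne
      set t := f.rangeRestrict (h * b * h⁻¹) with ht
      have h1 := hB (g₁ := t) (g₂ := 1) (by rw [one_smul]; exact hne)
      rw [one_smul] at h1
      have htv : (t : Equiv.Perm Ω) = f h * f b * (f h)⁻¹ := by
        rw [ht]; simp
      have hcard : (t : Equiv.Perm Ω).support.card = 3 := by
        rw [htv, Equiv.Perm.card_support_conj]
        exact hb.card_support
      have hmv : ∀ w ∈ B, (t : Equiv.Perm Ω) w ∉ B := by
        intro w hw hw2
        exact Set.disjoint_left.1 h1 ⟨w, hw, rfl⟩ hw2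
      have hs1 : ∀ w ∈ B, w ∈ (t : Equiv.Perm Ω).support := by
        intro w hw
        rw [Equiv.Perm.mem_support]
        intro h2
        apply hmv w hw
        rw [h2]; exact hw
      have hs2 : ∀ w ∈ B, (t : Equiv.Perm Ω) w ∈ (t : Equiv.Perm Ω).support := by
        intro w hw
        rw [Equiv.Perm.apply_mem_support]
        exact hs1 w hw
      have hsub : ({x, y, (t : Equiv.Perm Ω) x, (t : Equiv.Perm Ω) y} : Finset Ω) ⊆ (t : Equiv.Perm Ω).support := by
        intro w hw
        simp only [Finset.mem_insert, Finset.mem_singleton] at hw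
        rcases hw with rfl | rfl | rfl | rfl
        · exact hs1 _ hx
        · exact hs1 _ hy
        · exact hs2 _ hx
        · exact hs2 _ hy
      have h4 : ({x, y, (t : Equiv.Perm Ω) x, (t : Equiv.Perm Ω) y} : Finset Ω).card = 4 := by
        rw [Finset.card_insert_of_notMem, Finset.card_insert_of_notMem, Finset.card_insert_of_notMem,
          Finset.card_singleton]
        · rw [Finset.mem_singleton]
          intro h
          exact hxy ((t : Equiv.Perm Ω).injective h)
        · simp only [Finset.mem_insert, Finset.mem_singleton, not_or]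
          exact ⟨fun h => hmv x hx (h ▸ hy), fun h => hmv y hy (h ▸ hy)⟩
        · simp only [Finset.mem_insert, Finset.mem_singleton, not_or]
          exact ⟨hxy, fun h => hmv x hx (h ▸ hx), fun h => hmv y hy (h ▸ hx)⟩
      have h5 := Finset.card_le_card hsub
      omega
    rw [Set.eq_univ_iff_forall]
    intro w
    obtain ⟨g, hg⟩ := htr x w
    have h1 : g ∈ X := by rw [hX]; exact mem_top g
    have h2 : g ∈ (MulAction.stabilizer f.range B).comap f.rangeRestrict := normalCore_le _ h1
    have h3 : f.rangeRestrict g • B = B := h2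
    rw [← h3]
    exact ⟨x, hx, hg⟩
  exact Equiv.Perm.alternatingGroup_le_of_isPreprimitive_of_isThreeCycle_mem hprim hb ⟨b, rfl⟩

theorem perm_le_four {G : Type*} [Group G] [Group.IsSolvable G] {Ω : Type*} [Fintype Ω] [DecidableEq Ω]
    (f : G →* Equiv.Perm Ω) {b : G}
    (hb : (f b).IsThreeCycle) (gen : ∀ X : Subgroup G, X.Normal → b ∈ X → X = ⊤)
    (htr : ∀ x y, ∃ g, f g x = y) : Fintype.card Ω ≤ 4 := by
  by_contra hno
  push Not at hno
  have h1 := perm_three f hb gen htr
  rw [alternatingGroup_eq_sign_ker] at h1
  have h2 : Group.IsSolvable (Equiv.Perm Ω) := Group.isSolvable_of_ker_le_range f Equiv.Perm.sign h1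
  exact Equiv.Perm.not_isSolvable Ω (by
    rw [Cardinal.mk_fintype]
    exact_mod_cast hno) h2

end Cfsg.Agent.Lib.H39T
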