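import Cfsg.Agent.Lib.H39T5
import Cfsg.Agent.Lib.H39T10

/-!
Groups `R⟨b⟩` acting on an `F₃`-space with `b` of order three of rank two (for S4415): monomial case, four lines.
-/

set_option autoImplicit false

namespace Cfsg.Agent.Lib.H39T

open Subgroup

variable {G : Type*} [Group G] {V : Type*} [AddCommGroup V] [Module (ZMod 3) V]

/-- conjugates of `A'` -/
def Orb (A' : Subgroup G) : Type _ := {X : Subgroup G // ∃ g, cj g A' = X}

instance (A' : Subgroup G) : MulAction G (Orb A') where
  smul g X := ⟨cj g X.1, by obtain ⟨h, hh⟩ := X.2; exact ⟨g * h, by rw [← hh, cj_cj]⟩⟩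
  one_smul X := Subtype.ext (cj_one _)
  mul_smul g h X := Subtype.ext (cj_cj g h _).symm

theorem Orb.smul_val {A' : Subgroup G} (g : G) (X : Orb A') : (g • X).1 = cj g X.1 := rfl

instance [Finite G] (A' : Subgroup G) : Finite (Orb A') := Subtype.finite

namespace Ctx

variable {ρ : Representation (ZMod 3) G V} {R : Subgroup G} {b q : G} (c : Ctx ρ R b q)

include c

/-- the basis of weight vectors -/
theorem exists_basis [Finite G] [Finite V] {A A' : Subgroup G} (hA : A.Normal)
    (hcomm : ∀ x ∈ A, ∀ y ∈ A, x * y = y * x) (h : Mx ρ A A') (hb : cj b A' ≠ A') :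
    ∃ bs : Module.Basis (Orb A') (ZMod 3) V, ∀ g X, ∃ s : ZMod 3, ρ g (bs X) = s • bs (g • X) := by
  classical
  obtain ⟨w0, hw0, hw00, hline0⟩ := c.line hA hcomm h hb
  have hex : ∀ X : Orb A', ∃ w ∈ fx ρ X.1, w ≠ 0 ∧ ∀ v ∈ fx ρ X.1, ∃ k : ZMod 3, v = k • w := by
    rintro ⟨_, g, rfl⟩
    refine ⟨ρ g w0, mem_fx_cj g hw0, ?_, fun v hv => ?_⟩
    · intro h1
      have := rinv ρ g w0
      rw [h1, map_zero] at this
      exact hw00 this.symm
    · have h1 := mem_fx_cj g⁻¹ hv
      rw [cj_cj, inv_mul_cancel, cj_one] at h1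
      obtain ⟨k, hk⟩ := hline0 _ h1
      refine ⟨k, ?_⟩
      rw [← map_smul, ← hk, rinv']
  choose w hw hwne hline using hex
  have hMx : ∀ X : Orb A', Mx ρ A X.1 := by
    rintro ⟨_, g, rfl⟩
    exact h.cj hA g
  have hstab : ∀ X : Orb A', ∀ a : A, ρ a (w X) ∈ fx ρ X.1 := by
    intro X a x hx
    rw [← rmul, hcomm x ((hMx X).1 hx) a a.2, rmul, hw X x hx]
  have hex2 : ∀ X : Orb A', ∀ a : A, ∃ k : ZMod 3, ρ a (w X) = k • w X := fun X a => hline X _ (hstab X a)
  choose χ hχ using hex2
  have hmemX : ∀ X : Orb A', ∀ a : A, χ X a = 1 ↔ (a : G) ∈ X.1 := by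
    intro X a
    constructor
    · intro h1
      have h2 := hχ X a
      rw [h1, one_smul] at h2
      have h3 : w X ∈ fx ρ (X.1 ⊔ zpowers (a : G)) := by
        rw [fx_sup]
        refine ⟨hw X, ?_⟩
        change zpowers (a : G) ≤ st ρ (w X)
        rw [zpowers_le, mem_st]
        exact h2
      have h4 := (hMx X).2.2 (X.1 ⊔ zpowers (a : G)) le_sup_left (sup_le (hMx X).1 (by rw [zpowers_le]; exact a.2))
        (by
          intro h3'
          rw [h3', Submodule.mem_bot] at h3
          exact hwne X h3)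
      rw [← h4]
      exact mem_sup_right (mem_zpowers _)
    · intro h1
      have h2 := hχ X a
      rw [hw X a h1] at h2
      have h3 : (χ X a - 1) • w X = 0 := by rw [sub_smul, ← h2, one_smul, sub_self]
      rcases smul_eq_zero.1 h3 with h4 | h4
      · exact sub_eq_zero.1 h4
      · exact absurd h4 (hwne X)
  have hinj : Function.Injective χ := by
    intro X Y hXY
    apply Subtype.ext
    apply le_antisymm
    · intro a ha
      have haA := (hMx X).1 ha
      have h1 := (hmemX X ⟨a, haA⟩).2 ha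
      rw [hXY] at h1
      exact (hmemX Y ⟨a, haA⟩).1 h1
    · intro a ha
      have haA := (hMx Y).1 ha
      have h1 := (hmemX Y ⟨a, haA⟩).2 ha
      rw [← hXY] at h1
      exact (hmemX X ⟨a, haA⟩).1 h1
  have hind := Module.End.independent_iInf_maxGenEigenspace_of_forall_mapsTo (R := ZMod 3) (M := V)
    (fun a : A => (ρ a : Module.End (ZMod 3) V)) (by
      intro i j φ
      apply Module.End.mapsTo_maxGenEigenspace_of_comm
      change ρ j * ρ i = ρ i * ρ j
      rw [← map_mul, ← map_mul, hcomm j j.2 i i.2])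
  have hli : LinearIndependent (ZMod 3) w := by
    apply (hind.comp hinj).linearIndependent
    · intro X
      change w X ∈ ⨅ i : A, Module.End.maxGenEigenspace (ρ i : Module.End (ZMod 3) V) (χ X i)
      rw [Submodule.mem_iInf]
      intro a
      rw [Module.End.mem_maxGenEigenspace]
      refine ⟨1, ?_⟩
      rw [pow_one, LinearMap.sub_apply, hχ, LinearMap.smul_apply, Module.End.one_apply, sub_self]
    · exact hwne
  have hmon : ∀ g X, ∃ s : ZMod 3, ρ g (w X) = s • w (g • X) := by
    intro g X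
    exact hline (g • X) _ (mem_fx_cj g (hw X))
  have hspan : ⊤ ≤ Submodule.span (ZMod 3) (Set.range w) := by
    rcases c.irr (Submodule.span (ZMod 3) (Set.range w)) (by
      intro g v hv
      induction hv using Submodule.span_induction with
      | mem x hx =>
        obtain ⟨X, rfl⟩ := hx
        obtain ⟨s, hs⟩ := hmon g X
        rw [hs]
        exact Submodule.smul_mem _ _ (Submodule.subset_span ⟨_, rfl⟩)
      | zero => rw [map_zero]; exact Submodule.zero_mem _
      | add x y _ _ hx hy => rw [map_add]; exact Submodule.add_mem _ hx hy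
      | smul a x _ hx => rw [map_smul]; exact Submodule.smul_mem _ _ hx) with h1 | h1
    · exfalso
      have h2 : w ⟨A', 1, cj_one A'⟩ ∈ Submodule.span (ZMod 3) (Set.range w) := Submodule.subset_span ⟨_, rfl⟩
      rw [h1, Submodule.mem_bot] at h2
      exact hwne _ h2
    · rw [h1]
  refine ⟨Module.Basis.mk hli hspan, fun g X => ?_⟩
  obtain ⟨s, hs⟩ := hmon g X
  refine ⟨s, ?_⟩
  rw [Module.Basis.mk_apply, Module.Basis.mk_apply]
  exact hs

/-- `b` is a three-cycle -/
theorem three_cycle [Finite G] {A' : Subgroup G} (hb : cj b A' ≠ A') [Fintype (Orb A')] [DecidableEq (Orb A')]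
    (bs : Module.Basis (Orb A') (ZMod 3) V) (hbs : ∀ g X, ∃ s : ZMod 3, ρ g (bs X) = s • bs (g • X)) :
    (MulAction.toPermHom G (Orb A') b).IsThreeCycle := by
  rw [← card_support_eq_three_iff]
  let X0 : Orb A' := ⟨A', 1, cj_one A'⟩
  have hb3 : ∀ X : Orb A', b • b • b • X = X := by
    intro X
    rw [← mul_smul, ← mul_smul, c.b3, one_smul]
  have hmv : ∀ X : Orb A', b • X ≠ X → b • b • X ≠ X ∧ b • b • X ≠ b • X := by
    intro X hX
    constructor
    · intro h1
      apply hX
      have := hb3 X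
      rw [h1] at this
      exact this
    · intro h1
      exact hX (MulAction.injective b h1)
  have h01 : b • X0 ≠ X0 := fun h => hb (congrArg Subtype.val h)
  obtain ⟨h02, h12⟩ := hmv X0 h01
  -- coordinates of the trace
  have hcoord : ∀ X Y : Orb A', b • X ≠ X →
      bs.repr (bs X + ρ b (bs X) + ρ (b * b) (bs X)) X = 1 ∧
      (Y ≠ X → Y ≠ b • X → Y ≠ b • b • X → bs.repr (bs X + ρ b (bs X) + ρ (b * b) (bs X)) Y = 0) := by
    intro X Y hX
    obtain ⟨hX2, hX3⟩ := hmv X hX
    obtain ⟨s, hs⟩ := hbs b X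
    obtain ⟨t, ht⟩ := hbs (b * b) X
    rw [mul_smul] at ht
    rw [hs, ht]
    simp only [map_add, map_smul, Finsupp.add_apply, Finsupp.smul_apply, Module.Basis.repr_self_apply]
    constructor
    · rw [if_neg hX, if_neg hX2]; simp
    · intro h1 h2 h3
      rw [if_neg h1.symm, if_neg h2.symm, if_neg h3.symm]; simp
  obtain ⟨u, hu⟩ := c.tr
  have hsup : (MulAction.toPermHom G (Orb A') b).support = {X0, b • X0, b • b • X0} := by
    ext Y
    rw [Equiv.Perm.mem_support, MulAction.toPermHom_apply, MulAction.toPerm_apply]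
    simp only [Finset.mem_insert, Finset.mem_singleton]
    constructor
    · intro hY
      by_contra hno
      push Not at hno
      obtain ⟨n0, n1, n2⟩ := hno
      obtain ⟨k, hk⟩ := hu (bs X0)
      obtain ⟨k', hk'⟩ := hu (bs Y)
      obtain ⟨a1, a2⟩ := hcoord X0 Y h01
      obtain ⟨a3, -⟩ := hcoord Y X0 hY
      have a2 := a2 n0 n1 n2
      rw [hk] at a1 a2
      rw [hk'] at a3
      simp only [map_smul, Finsupp.smul_apply, smul_eq_mul] at a1 a2 a3
      rcases mul_eq_zero.1 a2 with h1 | h1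
      · rw [h1, zero_mul] at a1
        exact zero_ne_one a1
      · rw [h1, mul_zero] at a3
        exact zero_ne_one a3
    · rintro (rfl | rfl | rfl)
      · exact h01
      · exact h12
      · rw [hb3]; exact h02.symm
  rw [hsup, Finset.card_insert_of_notMem, Finset.card_insert_of_notMem, Finset.card_singleton]
  · rw [Finset.mem_singleton]; exact h12.symm
  · simp only [Finset.mem_insert, Finset.mem_singleton, not_or]
    exact ⟨h01.symm, h02.symm⟩

/-- the monomial data -/
theorem exists_mon [Finite G] [Finite V] (hirr : ∀ W, RInv ρ R W → W = ⊥ ∨ W = ⊤) {A A' : Subgroup G} (hA : A.Normal)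
    (hcomm : ∀ x ∈ A, ∀ y ∈ A, x * y = y * x) (h : Mx ρ A A') (hb : cj b A' ≠ A') :
    ∃ (e : Module.Basis (Fin 4) (ZMod 3) V) (f : G →* Equiv.Perm (Fin 4)),
      (∀ g i, ∃ s : ZMod 3, ρ g (e i) = s • e (f g i)) ∧ (∀ a ∈ A, f a = 1) ∧
      (∀ i j, ∃ r ∈ R, f r i = j) ∧ alternatingGroup (Fin 4) ≤ f.range := by
  classical
  haveI := c.sol
  obtain ⟨bs, hbs⟩ := c.exists_basis hA hcomm h hb
  haveI : Fintype (Orb A') := Fintype.ofFinite _
  have h3 := c.three_cycle hb bs hbs
  have htr : ∀ X Y : Orb A', ∃ g : G, MulAction.toPermHom G (Orb A') g X = Y := by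
    rintro ⟨_, g, rfl⟩ ⟨_, k, rfl⟩
    refine ⟨k * g⁻¹, ?_⟩
    apply Subtype.ext
    change cj (k * g⁻¹) (cj g A') = cj k A'
    rw [cj_cj, inv_mul_cancel_right]
  have hle := perm_le_four (MulAction.toPermHom G (Orb A')) h3 c.gen htr
  have halt := perm_three (MulAction.toPermHom G (Orb A')) h3 c.gen htr
  let X0 : Orb A' := ⟨A', 1, cj_one A'⟩
  -- `R` is transitive
  have hR0 : ∀ Y : Orb A', ∃ r ∈ R, r • X0 = Y := by
    let S : Set (Orb A') := {Y | ∃ r ∈ R, r • X0 = Y}
    have hW : RInv ρ R (Submodule.span (ZMod 3) (bs '' S)) := by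
      intro r hr v hv
      induction hv using Submodule.span_induction with
      | mem x hx =>
        obtain ⟨X, ⟨r', hr', rfl⟩, rfl⟩ := hx
        obtain ⟨s, hs⟩ := hbs r (r' • X0)
        rw [hs]
        exact Submodule.smul_mem _ _ (Submodule.subset_span ⟨_, ⟨r * r', mul_mem hr hr', mul_smul _ _ _⟩, rfl⟩)
      | zero => rw [map_zero]; exact Submodule.zero_mem _
      | add x y _ _ hx hy => rw [map_add]; exact Submodule.add_mem _ hx hy
      | smul a x _ hx => rw [map_smul]; exact Submodule.smul_mem _ _ hx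
    intro Y
    by_contra hno
    have h1 := bs.linearIndependent.notMem_span_image (s := S) (x := Y) hno
    rcases hirr _ hW with h2 | h2
    · have h4 : bs X0 ∈ Submodule.span (ZMod 3) (bs '' S) := Submodule.subset_span ⟨X0, ⟨1, one_mem _, one_smul _ _⟩, rfl⟩
      rw [h2, Submodule.mem_bot] at h4
      exact bs.ne_zero X0 h4
    · rw [h2] at h1
      exact h1 Submodule.mem_top
  have hRtr : ∀ X Y : Orb A', ∃ r ∈ R, r • X = Y := by
    intro X Y
    obtain ⟨r, hr, rfl⟩ := hR0 X
    obtain ⟨s, hs, rfl⟩ := hR0 Y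
    exact ⟨s * r⁻¹, mul_mem hs (inv_mem hr), by rw [mul_smul, inv_smul_smul]⟩
  have hcard : Fintype.card (Orb A') = 4 := by
    have h4 : 3 ≤ Fintype.card (Orb A') := by
      rw [← card_support_eq_three_iff] at h3
      rw [← h3]
      exact Finset.card_le_univ _
    have h5 : Fintype.card (Orb A') ≠ 3 := by
      intro h5
      haveI : MulAction.IsPretransitive R (Orb A') := by
        constructor
        intro X Y
        obtain ⟨r, hr, h6⟩ := hRtr X Y
        exact ⟨⟨r, hr⟩, h6⟩
      have h6 := MulAction.index_stabilizer_of_transitive R X0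
      rw [Nat.card_eq_fintype_card, h5] at h6
      apply c.cop
      rw [← h6]
      exact index_dvd_card _
    omega
  let ε : Orb A' ≃ Fin 4 := Fintype.equivFinOfCardEq hcard
  let f : G →* Equiv.Perm (Fin 4) := (ε.permCongrHom : Equiv.Perm (Orb A') →* Equiv.Perm (Fin 4)).comp
    (MulAction.toPermHom G (Orb A'))
  have hf : ∀ g i, f g i = ε (g • ε.symm i) := fun g i => rfl
  refine ⟨bs.reindex ε, f, ?_, ?_, ?_, ?_⟩
  · intro g i
    obtain ⟨s, hs⟩ := hbs g (ε.symm i)
    refine ⟨s, ?_⟩
    rw [Module.Basis.reindex_apply, Module.Basis.reindex_apply, hf, Equiv.symm_apply_apply]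
    exact hs
  · intro a ha
    ext i
    rw [hf]
    have h1 : a • ε.symm i = ε.symm i := by
      obtain ⟨⟨X, g, hg⟩, hi⟩ : ∃ X, X = ε.symm i := ⟨_, rfl⟩
      rw [← hi]
      apply Subtype.ext
      change cj a X = X
      have hX : X ≤ A := by
        rw [← hg, ← cj_normal hA g]
        exact Subgroup.map_mono h.1
      ext x
      rw [mem_cj]
      constructor
      · intro h1
        have h2 := hX h1
        have h4 : x = a⁻¹ * x * a := by
          have h5 : a * (a⁻¹ * x * a) = (a⁻¹ * x * a) * a := hcomm a ha _ h2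
          calc x = (a * (a⁻¹ * x * a)) * a⁻¹ := by group
            _ = ((a⁻¹ * x * a) * a) * a⁻¹ := by rw [h5]
            _ = a⁻¹ * x * a := by group
        rw [h4]; exact h1
      · intro h1
        have h2 := hX h1
        have h4 : a⁻¹ * x * a = x := by
          have h5 : x * a = a * x := hcomm x h2 a ha
          rw [mul_assoc, h5]; group
        rw [h4]; exact h1
    rw [h1, Equiv.apply_symm_apply]
    rfl
  · intro i j
    obtain ⟨r, hr, h1⟩ := hRtr (ε.symm i) (ε.symm j)
    refine ⟨r, hr, ?_⟩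
    rw [hf, h1, Equiv.apply_symm_apply]
  · intro τ hτ
    have h1 : ε.permCongrHom.symm τ ∈ alternatingGroup (Orb A') := by
      rw [Equiv.Perm.mem_alternatingGroup] at hτ ⊢
      have h2 := Equiv.Perm.sign_permCongr ε (ε.permCongrHom.symm τ)
      rw [← h2]
      have h4 : ε.permCongr (ε.permCongrHom.symm τ) = τ := ε.permCongrHom.apply_symm_apply τ
      rw [h4]
      exact hτ
    obtain ⟨g, hg⟩ := halt h1
    refine ⟨g, ?_⟩
    change ε.permCongrHom (MulAction.toPermHom G (Orb A') g) = τ
    rw [hg]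
    exact ε.permCongrHom.apply_symm_apply τ

end Ctx

end Cfsg.Agent.Lib.H39T
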