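import Cfsg.Agent.Lib.H39T11
import Cfsg.Agent.Lib.HallSymp

/-!
Groups `R⟨b⟩` acting on an `F₃`-space with `b` of order three of rank two (for S4415): monomial case.
-/

set_option autoImplicit false
set_option maxRecDepth 100000

namespace Cfsg.Agent.Lib.H39T

open Subgroup
open scoped commutatorElement

universe u

theorem dP1 : ∀ σ : Equiv.Perm (Fin 4), Equiv.Perm.sign σ = 1 → (σ * σ * σ = 1 → σ = 1) →
    σ * σ = 1 ∧ (σ = 1 ∨ ∀ i, σ i ≠ i) := by decide

theorem dP2 : ∀ σ : Equiv.Perm (Fin 4), σ * σ = 1 → (∀ i, σ i ≠ i) → ∀ x0 x1 x2 x3 : ZMod 3, x0 * x1 * x2 * x3 = 1 →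
    ∀ i, ![x0, x1, x2, x3] i * ![x0, x1, x2, x3] (σ i) = x0 * ![x0, x1, x2, x3] (σ 0) := by decide

theorem dP3 : ∀ x0 x1 x2 x3 : ZMod 3, x0 * x1 * x2 * x3 = 1 → (∀ i, ![x0, x1, x2, x3] i = 1) ∨
    (∀ i, ![x0, x1, x2, x3] i = -1) ∨
    ∃ k l : Fin 4, k ≠ l ∧ ∀ m, ![x0, x1, x2, x3] m = if m = k ∨ m = l then -1 else 1 := by decide

theorem dP4 : ∀ i j k l : Fin 4, i ≠ j → k ≠ l → ∃ τ : Equiv.Perm (Fin 4),
    Equiv.Perm.sign τ = 1 ∧ τ i = k ∧ τ j = l := by decide

theorem dP5 : Fintype.card {t : Fin 4 → ZMod 3 // t 0 * t 1 * t 2 * t 3 = 1} = 8 := by decide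

theorem vec4 (t : Fin 4 → ZMod 3) : ![t 0, t 1, t 2, t 3] = t := by
  funext i
  fin_cases i <;> rfl

variable {G : Type u} [Group G] {V : Type*} [AddCommGroup V] [Module (ZMod 3) V]

namespace Ctx

variable {ρ : Representation (ZMod 3) G V} {R : Subgroup G} {b q : G} (c : Ctx ρ R b q)

include c

theorem two_mem_R {a : G} (haa : a * a = 1) : a ∈ R := by
  haveI := c.nR
  obtain ⟨r, hr, i, hri⟩ := c.dec a
  rw [← QuotientGroup.eq_one_iff (N := R)]
  have h1 : (QuotientGroup.mk' R a) = (QuotientGroup.mk' R b) ^ i := by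
    rw [hri, map_mul, map_pow]
    have : QuotientGroup.mk' R r = 1 := (QuotientGroup.eq_one_iff r).2 hr
    rw [this, one_mul]
  have h2 : (QuotientGroup.mk' R b) ^ 3 = 1 := by
    rw [← map_pow, pow_succ, pow_two, c.b3, map_one]
  have h3 : (QuotientGroup.mk' R a) ^ 3 = 1 := by
    rw [h1, ← pow_mul, mul_comm, pow_mul, h2, one_pow]
  have h4 : (QuotientGroup.mk' R a) ^ 2 = 1 := by
    rw [← map_pow, pow_two, haa, map_one]
  have h5 : QuotientGroup.mk' R a = 1 := by
    rw [pow_succ, h4, one_mul] at h3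
    exact h3
  exact h5

theorem caseMon [Finite G] [Finite V] (hirr : ∀ W, RInv ρ R W → W = ⊥ ∨ W = ⊤) {A : Subgroup G} (hA : A.Normal)
    (hcomm : ∀ x ∈ A, ∀ y ∈ A, x * y = y * x) (hA2 : ∀ a ∈ A, a * a = 1) {a0 : G} (ha0 : a0 ∈ A) (ha01 : a0 ≠ 1)
    (hneg : ¬ ∀ v, ρ a0 v = -v) :
    Cfsg.IsExtraspecial 2 ↥R ∧ Nat.card R = 32 ∧
      ∃ D : Subgroup G, D ≤ R ∧ Cfsg.IsElementaryAbelian 2 D ∧ Nat.card D = 8 := by
  classical
  obtain ⟨A', hMx, hb⟩ : ∃ A', Mx ρ A A' ∧ cj b A' ≠ A' := by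
    rcases c.dichotomy hA hcomm with h | h
    · exact h
    · exfalso
      apply hneg
      intro v
      have h1 := h a0 ha0 ha01 (v + ρ a0 v) (by
        rw [map_add, ← rmul, hA2 a0 ha0, rone, add_comm])
      rw [add_comm] at h1
      exact eq_neg_of_add_eq_zero_left h1
  obtain ⟨e, f, hf, hfA, htr, halt⟩ := c.exists_mon hirr hA hcomm hMx hb
  have hsgn : ∀ g, Equiv.Perm.sign (f g) = 1 := by
    have h1 : (Equiv.Perm.sign.comp f).ker = ⊤ := by
      apply c.gen _ (MonoidHom.normal_ker _)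
      rw [MonoidHom.mem_ker]
      have h2 : (Equiv.Perm.sign.comp f) (b * b * b) = 1 := by rw [c.b3, map_one]
      rw [map_mul, map_mul] at h2
      revert h2
      generalize (Equiv.Perm.sign.comp f) b = x
      revert x; decide
    intro g
    have h2 : g ∈ (Equiv.Perm.sign.comp f).ker := by rw [h1]; exact mem_top g
    exact h2
  choose s hs using hf
  have hprod : ∀ g, s g 0 * s g 1 * s g 2 * s g 3 = 1 := by
    intro g
    have h1 := det_monomial e (ρ g) (f g) (s g) (hs g)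
    rw [c.det_eq_one, hsgn, Fin.prod_univ_four] at h1
    simpa using h1.symm
  have hs0 : ∀ g i, s g i ≠ 0 := by
    intro g i h
    have h1 := hprod g
    have h2 : ∀ x0 x1 x2 x3 : ZMod 3, x0 * x1 * x2 * x3 = 1 → ∀ i, ![x0, x1, x2, x3] i ≠ 0 := by decide
    have h3 := h2 _ _ _ _ h1 i
    rw [vec4] at h3
    exact h3 h
  have hsq : ∀ g i, s g i * s g i = 1 := by
    intro g i
    have h1 := hs0 g i
    revert h1
    generalize s g i = x
    revert x; decide
  have huniq : ∀ g i (k : ZMod 3) j, ρ g (e i) = k • e j → f g i = j → k = s g i := by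
    intro g i k j h1 h2
    rw [hs, h2] at h1
    have h3 : (s g i - k) • e j = 0 := by rw [sub_smul, h1, sub_self]
    rcases smul_eq_zero.1 h3 with h4 | h4
    · exact (sub_eq_zero.1 h4).symm
    · exact absurd h4 (e.ne_zero j)
  have hsmul : ∀ g h i, s (g * h) i = s g (f h i) * s h i := by
    intro g h i
    refine (huniq (g * h) i _ (f (g * h) i) ?_ rfl).symm
    rw [rmul, hs, map_smul, hs, smul_smul, map_mul, Equiv.Perm.mul_apply, mul_comm]
  have hext : ∀ g h, f g = f h → s g = s h → g = h := by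
    intro g h h1 h2
    apply c.inj
    apply e.ext
    intro i
    rw [hs, hs, h1, h2]
  have hf3 : ∀ r ∈ R, f r * f r * f r = 1 → f r = 1 := by
    intro r hr h
    have h1 : orderOf (f r) ∣ 3 := orderOf_dvd_of_pow_eq_one (by rw [pow_succ, pow_two]; exact h)
    have h2 : orderOf (f r) ∣ Nat.card R := by
      apply (orderOf_map_dvd f r).trans
      rw [← orderOf_mk r hr]
      exact orderOf_dvd_natCard _
    rcases (Nat.dvd_prime Nat.prime_three).1 h1 with h3 | h3
    · exact orderOf_eq_one_iff.1 h3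
    · rw [h3] at h2
      exact absurd h2 c.cop
  have hR : ∀ r ∈ R, f r * f r = 1 ∧ (f r = 1 ∨ ∀ i, f r i ≠ i) := fun r hr =>
    dP1 (f r) (hsgn r) (hf3 r hr)
  -- squares
  have hsqR : ∀ r ∈ R, f (r * r) = 1 ∧ ∃ k : ZMod 3, k * k = 1 ∧ ∀ i, s (r * r) i = k := by
    intro r hr
    obtain ⟨h1, h2⟩ := hR r hr
    refine ⟨by rw [map_mul, h1], ?_⟩
    rcases h2 with h2 | h2
    · refine ⟨1, one_mul 1, fun i => ?_⟩
      rw [hsmul, h2, Equiv.Perm.one_apply, hsq]
    · refine ⟨s r 0 * s r (f r 0), ?_, fun i => ?_⟩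
      · rw [mul_mul_mul_comm, hsq, hsq, one_mul]
      · have h3 := dP2 (f r) h1 h2 _ _ _ _ (hprod r) i
        rw [vec4] at h3
        rw [hsmul, mul_comm, h3]
  -- the diagonal subgroup
  let D : Subgroup G := R ⊓ f.ker
  have hDR : D ≤ R := inf_le_left
  have hDf : ∀ d ∈ D, f d = 1 := fun d hd => hd.2
  have hDn : ∀ g : G, ∀ d ∈ D, g * d * g⁻¹ ∈ D := by
    rintro g d ⟨hd, hd'⟩
    exact ⟨c.nR.conj_mem d hd g, (MonoidHom.normal_ker f).conj_mem d hd' g⟩
  have hDconj : ∀ g : G, ∀ d ∈ D, ∀ i, s (g * d * g⁻¹) (f g i) = s d i := by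
    intro g d hd i
    have h1 : s (g * d) i = s ((g * d * g⁻¹) * g) i := by congr 1; group
    rw [hsmul, hsmul, hDf d hd, Equiv.Perm.one_apply, mul_comm (s g i)] at h1
    exact (mul_right_cancel₀ (hs0 g i) h1).symm
  have hDmul : ∀ d ∈ D, ∀ d' ∈ D, ∀ i, s (d * d') i = s d i * s d' i := by
    intro d hd d' hd' i
    rw [hsmul, hDf d' hd', Equiv.Perm.one_apply]
  have hone : ∀ i, s 1 i = 1 := by
    intro i
    refine (huniq 1 i 1 i ?_ ?_).symm
    · rw [rone, one_smul]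
    · rw [map_one, Equiv.Perm.one_apply]
  have ha0D : a0 ∈ D := ⟨c.two_mem_R (hA2 a0 ha0), hfA a0 ha0⟩
  -- all even pairs
  have hpair : ∀ k l : Fin 4, k ≠ l → ∃ d ∈ D, ∀ m, s d m = if m = k ∨ m = l then -1 else 1 := by
    intro k l hkl
    have h1 := dP3 _ _ _ _ (hprod a0)
    rw [vec4] at h1
    rcases h1 with h1 | h1 | ⟨i, j, hij, h1⟩
    · exfalso
      apply ha01
      apply hext
      · rw [hfA a0 ha0, map_one]
      · funext i
        rw [h1, hone]
    · exfalso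
      apply hneg
      have h2 : ρ a0 = -(LinearMap.id : V →ₗ[ZMod 3] V) := by
        apply e.ext
        intro i
        rw [hs, h1, hfA a0 ha0, Equiv.Perm.one_apply]; simp
      intro v
      rw [h2]; rfl
    · obtain ⟨τ, hτ, h2, h3⟩ := dP4 i j k l hij hkl
      obtain ⟨g, hg⟩ := halt (Equiv.Perm.mem_alternatingGroup.2 hτ)
      refine ⟨g * a0 * g⁻¹, hDn g a0 ha0D, fun m => ?_⟩
      obtain ⟨m', rfl⟩ : ∃ m', f g m' = m := ⟨(f g).symm m, by simp⟩
      rw [hDconj g a0 ha0D, h1, ← h2, ← h3, hg]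
      simp only [EmbeddingLike.apply_eq_iff_eq]
  have hz : ∃ z ∈ D, ∀ m, s z m = -1 := by
    obtain ⟨d, hd, h1⟩ := hpair 0 1 (by decide)
    obtain ⟨d', hd', h2⟩ := hpair 2 3 (by decide)
    refine ⟨d * d', mul_mem hd hd', fun m => ?_⟩
    rw [hDmul d hd d' hd', h1, h2]
    revert m; decide
  obtain ⟨z, hzD, hzs⟩ := hz
  have hzf : f z = 1 := hDf z hzD
  have hsurj : ∀ t : Fin 4 → ZMod 3, t 0 * t 1 * t 2 * t 3 = 1 → ∃ d ∈ D, s d = t := by
    intro t ht
    have h1 := dP3 _ _ _ _ ht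
    rw [vec4] at h1
    rcases h1 with h1 | h1 | ⟨i, j, hij, h1⟩
    · exact ⟨1, one_mem _, by funext i; rw [hone, h1]⟩
    · exact ⟨z, hzD, by funext i; rw [hzs, h1]⟩
    · obtain ⟨d, hd, h2⟩ := hpair i j hij
      exact ⟨d, hd, by funext m; rw [h1, h2]⟩
  have hDcard : Nat.card D = 8 := by
    rw [← dP5, ← Nat.card_eq_fintype_card]
    apply Nat.card_congr
    refine Equiv.ofBijective (fun d : D => ⟨s d.1, hprod d.1⟩) ⟨?_, ?_⟩
    · intro d d' h
      apply Subtype.ext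
      apply hext
      · rw [hDf d.1 d.2, hDf d'.1 d'.2]
      · exact congrArg Subtype.val h
    · rintro ⟨t, ht⟩
      obtain ⟨d, hd, h⟩ := hsurj t ht
      exact ⟨⟨d, hd⟩, Subtype.ext h⟩
  let φ : R →* Equiv.Perm (Fin 4) := f.comp R.subtype
  have hφ4 : Nat.card φ.range = 4 := by
    have h1 : Nat.card (Fin 4) = 4 := by simp
    refine Eq.trans ?_ h1
    apply Nat.card_congr
    refine Equiv.ofBijective (fun σ : φ.range => (σ : Equiv.Perm (Fin 4)) 0) ⟨?_, ?_⟩
    · rintro ⟨_, ⟨r, hr⟩, rfl⟩ ⟨_, ⟨r', hr'⟩, rfl⟩ h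
      apply Subtype.ext
      change f r = f r'
      have h : f r 0 = f r' 0 := h
      have h2 : f (r⁻¹ * r') 0 = 0 := by
        rw [map_mul, map_inv, Equiv.Perm.mul_apply, ← h]
        exact (f r).symm_apply_apply 0
      rcases (hR (r⁻¹ * r') (mul_mem (inv_mem hr) hr')).2 with h3 | h3
      · rw [map_mul, map_inv] at h3
        exact inv_mul_eq_one.1 h3
      · exact absurd h2 (h3 0)
    · intro i
      obtain ⟨r, hr, h⟩ := htr 0 i
      exact ⟨⟨f r, ⟨r, hr⟩, rfl⟩, h⟩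
  have hker : φ.ker = D.subgroupOf R := by
    ext ⟨r, hr⟩
    rw [MonoidHom.mem_ker, mem_subgroupOf]
    constructor
    · intro h
      exact ⟨hr, h⟩
    · intro h
      exact h.2
  have hRcard : Nat.card R = 32 := by
    rw [← Subgroup.card_mul_index φ.ker, Subgroup.index_ker, hφ4, hker,
      Nat.card_congr (subgroupOfEquivOfLe hDR).toEquiv, hDcard]
  have hDcomm : ∀ d ∈ D, ∀ d' ∈ D, d * d' = d' * d := by
    intro d hd d' hd'
    apply hext
    · rw [map_mul, map_mul, hDf d hd, hDf d' hd']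
    · funext i
      rw [hDmul d hd d' hd', hDmul d' hd' d hd, mul_comm]
  have hDsq : ∀ d ∈ D, d * d = 1 := by
    intro d hd
    apply hext
    · rw [map_mul, hDf d hd, map_one, one_mul]
    · funext i
      rw [hDmul d hd d hd, hsq, hone]
  have hz1 : z ≠ 1 := by
    rintro rfl
    have h1 := hzs 0
    rw [hone] at h1
    exact absurd h1 (by decide)
  have hzz : z * z = 1 := hDsq z hzD
  have hzc : ∀ g : G, z * g = g * z := by
    intro g
    apply hext
    · rw [map_mul, map_mul, hzf, one_mul, mul_one]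
    · funext i
      rw [hsmul, hsmul, hzs, hzs, hzf, Equiv.Perm.one_apply, mul_comm]
  have hzo : orderOf z = 2 := orderOf_eq_prime (by rw [pow_two, hzz]) hz1
  have hZmem : ∀ x, f x = 1 → (∃ k : ZMod 3, k * k = 1 ∧ ∀ i, s x i = k) → x ∈ zpowers z := by
    rintro x hx ⟨k, hk, h⟩
    rcases zmod3 k hk with rfl | rfl
    · have h1 : x = 1 := by
        apply hext
        · rw [hx, map_one]
        · funext i; rw [h, hone]
      rw [h1]; exact one_mem _
    · have h1 : x = z := by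
        apply hext
        · rw [hx, hzf]
        · funext i; rw [h, hzs]
      rw [h1]; exact mem_zpowers _
  haveI : Fact (Nat.Prime 2) := ⟨Nat.prime_two⟩
  have hZcen : ∀ x ∈ zpowers z, ∀ y : G, x * y = y * x := by
    rintro _ ⟨k, rfl⟩ y
    exact ((show Commute z y from hzc y).zpow_left k).eq
  have hpow : ∀ x ∈ R, x ^ 2 ∈ zpowers z := by
    intro x hx
    rw [pow_two]
    obtain ⟨h1, h2⟩ := hsqR x hx
    exact hZmem _ h1 h2
  refine ⟨?_, hRcard, D, hDR, ⟨?_, ?_⟩, hDcard⟩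
  · apply HallSymp.isExtraspecial_sub (Z := zpowers z) (IsPGroup.of_card (n := 5) (by rw [hRcard]; norm_num))
    · rw [Nat.card_zpowers, hzo]
    · rw [zpowers_le]; exact hDR hzD
    · intro x hx hxc
      have hinv : ∀ r ∈ R, r * x * r⁻¹ = x := by
        intro r hr
        rw [← hxc r hr]; group
      have hfx : f x = 1 := by
        ext i
        rw [Equiv.Perm.one_apply]
        congr 1
        by_contra hne
        obtain ⟨l, hl1, hl2⟩ : ∃ l : Fin 4, l ≠ i ∧ l ≠ f x i := by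
          have : ∀ i j : Fin 4, ∃ l : Fin 4, l ≠ i ∧ l ≠ j := by decide
          exact this i (f x i)
        obtain ⟨d, hd, h1⟩ := hpair i l hl1.symm
        have h2 := hDconj x d hd i
        have h3 : x * d * x⁻¹ = d := by rw [hxc d (hDR hd)]; group
        rw [h3, h1, h1, if_neg (by
          rintro (h4 | h4)
          · exact hne h4
          · exact hl2 h4.symm), if_pos (Or.inl rfl)] at h2
        exact absurd h2 (by decide)
      have hxD : x ∈ D := ⟨hx, hfx⟩
      apply hZmem x hfx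
      refine ⟨s x 0, hsq x 0, fun i => ?_⟩
      obtain ⟨r, hr, h⟩ := htr 0 i
      have h2 := hDconj r x hxD 0
      rw [hinv r hr, h] at h2
      exact h2
    · intro x hx y _
      exact hZcen x hx y
    · intro x hx y hy
      have h1 : ⁅x, y⁆ = (x * y) ^ 2 * (y⁻¹ * ((x ^ 2)⁻¹ * y⁻¹)) := by
        rw [commutatorElement_def]
        simp only [pow_two]
        group
      rw [h1, hZcen _ (inv_mem (hpow x hx)) y⁻¹]
      have h2 : y⁻¹ * (y⁻¹ * (x ^ 2)⁻¹) = (y ^ 2)⁻¹ * (x ^ 2)⁻¹ := by group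
      rw [h2]
      exact mul_mem (hpow _ (mul_mem hx hy)) (mul_mem (inv_mem (hpow y hy)) (inv_mem (hpow x hx)))
    · exact hpow
    · intro hle
      have h1 := Subgroup.card_le_of_le hle
      rw [hRcard, Nat.card_zpowers, hzo] at h1
      omega
  · exact ⟨⟨fun x y => Subtype.ext (hDcomm x.1 x.2 y.1 y.2)⟩⟩
  · intro d hd
    rw [pow_two]
    exact hDsq d hd

end Ctx

end Cfsg.Agent.Lib.H39T
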