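import Cfsg.Agent.Lib.H39T9
import Cfsg.Agent.Lib.H39T12

/-!
Groups `R⟨b⟩` acting on an `F₃`-space with `b` of order three of rank two (for S4415): the decomposition of the module.
-/

set_option autoImplicit false

namespace Cfsg.Agent.Lib.H39T

open Subgroup

universe u

section main

variable {G : Type u} [Group G] {V : Type*} [AddCommGroup V] [Module (ZMod 3) V]

theorem Ctx.main [Finite G] [Finite V] {ρ : Representation (ZMod 3) G V} {R : Subgroup G} {b q : G} (c : Ctx ρ R b q) :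
    ((∀ r ∈ R, r * r = 1) ∧ Nat.card R = 4) ∨
    (Cfsg.IsExtraspecial 2 ↥R ∧ Nat.card R = 32 ∧
      ∃ D : Subgroup G, D ≤ R ∧ Cfsg.IsElementaryAbelian 2 D ∧ Nat.card D = 8) := by
  by_cases hred : ∃ W, RInv ρ R W ∧ W ≠ ⊥ ∧ W ≠ ⊤
  · exact Or.inl (c.caseA hred)
  right
  push Not at hred
  have hirr : ∀ W, RInv ρ R W → W = ⊥ ∨ W = ⊤ := fun W hW => or_iff_not_imp_left.2 (hred W hW)
  by_cases hB : ∀ A : Subgroup G, A.Normal → (∀ x ∈ A, ∀ y ∈ A, x * y = y * x) → (∀ a ∈ A, a * a = 1) →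
    ∀ a ∈ A, a = 1 ∨ ∀ v, ρ a v = -v
  · exact (CB.false (CB.mk c hB)).elim
  · push Not at hB
    obtain ⟨A, hA, hcomm, hA2, a0, ha0, ha01, v, hv⟩ := hB
    exact c.caseMon hirr hA hcomm hA2 ha0 ha01 (fun h => hv (h v))

end main

variable {G : Type*} [Group G] {V : Type*} [AddCommGroup V] [Module (ZMod 3) V]

namespace Pre

variable {ρ : Representation (ZMod 3) G V} {b q : G} (c : Pre ρ b q)

include c

theorem range_mem [Finite V] {W : Submodule (ZMod 3) V} (hW : ∀ w ∈ W, ρ b w ∈ W) {e : V} (he0 : e ≠ 0)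
    (he1 : ρ q e = e) (he2 : ρ (b * q * b⁻¹) e = -e) (heW : e ∈ W) (v : V) : ρ b v - v ∈ W := by
  obtain ⟨w1, w2, w3, w4⟩ := c.weights he1 he2
  have hmem : ∀ u : V, ρ b u - u ∈ LinearMap.range (ρ b - 1) := fun u => ⟨u, rfl⟩
  have e2 : ρ b e ≠ e := by
    intro h
    rw [h, he1] at w1
    exact he0 (eq_zero_of_neg w1)
  obtain ⟨s, t, hst⟩ := mem_span_two _ c.rk (hmem e) (hmem (ρ b e)) (hmem v) (by
    intro s t h
    have h3 := congrArg (ρ q) h
    rw [map_add, map_smul, map_smul, map_sub, map_sub, w1, w3, he1, map_zero] at h3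
    have h4 : (s • (ρ b e - e) + t • (ρ b (ρ b e) - ρ b e)) +
      (s • (-ρ b e - e) + t • (-ρ b (ρ b e) - -ρ b e)) = s • (-(e + e)) := by
      simp only [smul_sub, smul_neg, smul_add]; abel
    rw [h, h3, add_zero] at h4
    have hee : -(e + e) ≠ 0 := by
      intro h5
      rw [neg_eq_zero] at h5
      exact he0 (eq_zero_of_neg (eq_neg_of_add_eq_zero_left h5))
    have hs : s = 0 := by
      rcases smul_eq_zero.1 h4.symm with h5 | h5
      · exact h5
      · exact absurd h5 hee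
    refine ⟨hs, ?_⟩
    rw [hs, zero_smul, zero_add] at h
    rcases smul_eq_zero.1 h with h5 | h5
    · exact h5
    · exfalso
      have h6 := sub_eq_zero.1 h5
      have h7 := congrArg (ρ b⁻¹) h6
      rw [rinv, rinv] at h7
      exact e2 h7)
  rw [hst]
  have hbe := hW e heW
  exact Submodule.add_mem _ (Submodule.smul_mem _ _ (Submodule.sub_mem _ hbe heW))
    (Submodule.smul_mem _ _ (Submodule.sub_mem _ (hW _ hbe) hbe))

theorem triv_of {W : Submodule (ZMod 3) V} (hWq : ∀ w ∈ W, ρ q w ∈ W) (hWp : ∀ w ∈ W, ρ (b * q * b⁻¹) w ∈ W)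
    (hWb : ∀ w ∈ W, ρ b⁻¹ w ∈ W)
    (h1 : ∀ v ∈ W, ρ q v = v → ρ (b * q * b⁻¹) v = -v → v = 0) :
    ∀ w ∈ W, ρ q w = w ∧ ρ (b * q * b⁻¹) w = w := by
  have key : ∀ w ∈ W, ρ q w = w := by
    set p := b * q * b⁻¹ with hp
    have hpp : p * p = 1 := c.q2b
    have hqp : q * p = p * q := c.qcomm
    have h2 : ∀ v ∈ W, ρ p v = v → ρ q v = -v → v = 0 := by
      intro v hvW hv hv'
      have h3 : ρ b⁻¹ v = 0 := by
        apply h1 _ (hWb v hvW)
        · have h4 : ρ q (ρ b⁻¹ v) = ρ b⁻¹ (ρ p v) := by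
            rw [← rmul, ← rmul, hp]; congr 2; group
          rw [h4, hv]
        · have h4 : ρ p (ρ b⁻¹ v) = ρ b⁻¹ (ρ (b * b * q * b⁻¹ * b⁻¹) v) := by
            rw [← rmul, ← rmul, hp]; congr 2; group
          rw [h4, ← c.qb, ← hp, rmul, hv, hv', map_neg]
      have h5 := rinv' ρ b v
      rw [h3, map_zero] at h5
      exact h5.symm
    have h3 : ∀ v ∈ W, ρ p v = -v → ρ q v = -v → v = 0 := by
      intro v hvW hv hv'
      have h3 : ρ b⁻¹ v = 0 := by
        apply h2 _ (hWb v hvW)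
        · have h4 : ρ p (ρ b⁻¹ v) = ρ b⁻¹ (ρ (b * b * q * b⁻¹ * b⁻¹) v) := by
            rw [← rmul, ← rmul, hp]; congr 2; group
          rw [h4, ← c.qb, ← hp, rmul, hv, map_neg, hv', neg_neg]
        · have h4 : ρ q (ρ b⁻¹ v) = ρ b⁻¹ (ρ p v) := by
            rw [← rmul, ← rmul, hp]; congr 2; group
          rw [h4, hv, map_neg]
      have h5 := rinv' ρ b v
      rw [h3, map_zero] at h5
      exact h5.symm
    have hqq : ∀ v, ρ q (ρ q v) = v := fun v => by rw [← rmul, c.qq, rone]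
    have hppv : ∀ v, ρ p (ρ p v) = v := fun v => by rw [← rmul, hpp, rone]
    have hqpv : ∀ v, ρ q (ρ p v) = ρ p (ρ q v) := fun v => by rw [← rmul, ← rmul, hqp]
    intro v hv
    have hd : v - ρ q v ∈ W := Submodule.sub_mem _ hv (hWq v hv)
    have hw1 : ρ p (v - ρ q v) - (v - ρ q v) = 0 := by
      apply h3 _ (Submodule.sub_mem _ (hWp _ hd) hd)
      · rw [map_sub, hppv]; abel
      · simp only [map_sub, hqpv, hqq]; abel
    have hw2 : v - ρ q v = 0 := by
      apply h2 _ hd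
      · exact sub_eq_zero.1 hw1
      · rw [map_sub, hqq]; abel
    exact (sub_eq_zero.1 hw2).symm
  intro w hw
  refine ⟨key w hw, ?_⟩
  rw [rmul, rmul, key _ (hWb w hw), rinv']

end Pre

/-- the ambient situation -/
structure Amb (ρ : Representation (ZMod 3) G V) (R : Subgroup G) (b q : G) : Prop extends Pre ρ b q where
  cop : ¬ 3 ∣ Nat.card R
  nR : R ⊔ zpowers b ≤ normalizer (R : Set G)
  genR : ∀ X : Subgroup G, b ∈ X → (∀ g ∈ R ⊔ zpowers b, ∀ x ∈ X, g * x * g⁻¹ ∈ X) → R ≤ X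
  qR : q ∈ R

open Classical in
/-- the trace operator -/
noncomputable def Tm [Finite G] (ρ : Representation (ZMod 3) G V) (R : Subgroup G) : V →ₗ[ZMod 3] V :=
  letI := Fintype.ofFinite R
  ∑ r : R, ρ (r : G)

theorem Tm_apply [Finite G] (ρ : Representation (ZMod 3) G V) (R : Subgroup G) [Fintype R] (v : V) :
    Tm ρ R v = ∑ r : R, ρ (r : G) v := by
  rw [Tm, LinearMap.sum_apply]
  congr 1
  congr!

theorem Tm_norm [Finite G] (ρ : Representation (ZMod 3) G V) {R : Subgroup G} {g : G}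
    (hg : g ∈ normalizer (R : Set G)) (v : V) : Tm ρ R (ρ g v) = ρ g (Tm ρ R v) := by
  classical
  haveI := Fintype.ofFinite R
  rw [Tm_apply, Tm_apply, map_sum]
  let ε : R ≃ R :=
    { toFun := fun r => ⟨g⁻¹ * r.1 * g, by
        have h1 := (mem_normalizer_iff.1 hg (g⁻¹ * r.1 * g)).2 (by
          have : g * (g⁻¹ * r.1 * g) * g⁻¹ = r.1 := by group
          rw [this]; exact r.2)
        exact h1⟩
      invFun := fun r => ⟨g * r.1 * g⁻¹, (mem_normalizer_iff.1 hg r.1).1 r.2⟩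
      left_inv := fun r => Subtype.ext (by change g * (g⁻¹ * r.1 * g) * g⁻¹ = r.1; group)
      right_inv := fun r => Subtype.ext (by change g⁻¹ * (g * r.1 * g⁻¹) * g = r.1; group) }
  apply Fintype.sum_equiv ε
  intro r
  change ρ r.1 (ρ g v) = ρ g (ρ (g⁻¹ * r.1 * g) v)
  rw [← rmul, ← rmul]
  congr 2; group

theorem Tm_mem [Finite G] (ρ : Representation (ZMod 3) G V) {R : Subgroup G} (v : V) : Tm ρ R v ∈ fx ρ R := by
  classical
  haveI := Fintype.ofFinite R
  intro a ha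
  rw [Tm_apply, map_sum]
  apply Fintype.sum_equiv (Equiv.mulLeft (⟨a, ha⟩ : R))
  intro r
  rw [← rmul]
  rfl

theorem Tm_fix [Finite G] (ρ : Representation (ZMod 3) G V) {R : Subgroup G} {v : V} (hv : v ∈ fx ρ R) :
    Tm ρ R v = (Nat.card R : ZMod 3) • v := by
  classical
  haveI := Fintype.ofFinite R
  rw [Tm_apply, Finset.sum_congr rfl (fun r _ => hv r.1 r.2), Finset.sum_const, Finset.card_univ,
    Nat.card_eq_fintype_card, Nat.cast_smul_eq_nsmul]

namespace Amb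

variable {ρ : Representation (ZMod 3) G V} {R : Subgroup G} {b q : G} (c : Amb ρ R b q)

include c

theorem card_ne : (Nat.card R : ZMod 3) ≠ 0 := by
  intro h
  exact c.cop ((ZMod.natCast_eq_zero_iff _ _).1 h)

theorem inf_bot [Finite G] : LinearMap.ker (Tm ρ R) ⊓ fx ρ R = ⊥ := by
  rw [eq_bot_iff]
  rintro v ⟨h1, h2⟩
  have h3 := Tm_fix ρ h2
  have h1 : Tm ρ R v = 0 := h1
  rw [h1] at h3
  rcases smul_eq_zero.1 h3.symm with h4 | h4
  · exact absurd h4 c.card_ne
  · exact h4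

theorem sup_top [Finite G] : LinearMap.ker (Tm ρ R) ⊔ fx ρ R = ⊤ := by
  rw [eq_top_iff]
  intro v _
  have h1 : v = (v - (Nat.card R : ZMod 3)⁻¹ • Tm ρ R v) + (Nat.card R : ZMod 3)⁻¹ • Tm ρ R v := by abel
  rw [h1]
  apply Submodule.add_mem_sup
  · rw [LinearMap.mem_ker, map_sub, map_smul, Tm_fix ρ (Tm_mem ρ v), smul_smul, inv_mul_cancel₀ c.card_ne, one_smul,
      sub_self]
  · exact Submodule.smul_mem _ _ (Tm_mem ρ v)

theorem inv_F0 [Finite G] {g : G} (hg : g ∈ R ⊔ zpowers b) {v : V} (hv : v ∈ LinearMap.ker (Tm ρ R)) :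
    ρ g v ∈ LinearMap.ker (Tm ρ R) := by
  rw [LinearMap.mem_ker] at hv ⊢
  rw [Tm_norm ρ (c.nR hg), hv, map_zero]

theorem pR : b * q * b⁻¹ ∈ R :=
  (mem_normalizer_iff.1 (c.nR (mem_sup_right (mem_zpowers b))) q).1 c.qR

theorem fix_F1 [Finite V] {v : V} (hv : v ∈ fx ρ R) {g : G} (hg : g ∈ R ⊔ zpowers b) : ρ g v = v := by
  have hb := c.toPre.bfix (hv q c.qR) (hv _ c.pR)
  have h1 : R ⊔ zpowers b ≤ st ρ v := sup_le hv (by rw [zpowers_le]; exact hb)
  exact h1 hg

theorem faithful [Finite G] [Finite V] {g : G} (hg : g ∈ R ⊔ zpowers b) (h : ∀ v ∈ LinearMap.ker (Tm ρ R), ρ g v = v) :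
    g = 1 := by
  apply c.inj
  ext v
  rw [rone]
  have h1 : v ∈ LinearMap.ker (Tm ρ R) ⊔ fx ρ R := by rw [c.sup_top]; exact Submodule.mem_top
  obtain ⟨v0, hv0, v1, hv1, rfl⟩ := Submodule.mem_sup.1 h1
  rw [map_add, h v0 hv0, c.fix_F1 hv1 hg]

theorem irred [Finite G] [Finite V] {W : Submodule (ZMod 3) V} (hW : W ≤ LinearMap.ker (Tm ρ R))
    (hWi : ∀ g ∈ R ⊔ zpowers b, ∀ w ∈ W, ρ g w ∈ W) : W = ⊥ ∨ W = LinearMap.ker (Tm ρ R) := by
  classical
  obtain ⟨e, he0, he1, he2, hline, -, -⟩ := c.toPre.exists_data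
  have hbm : b ∈ R ⊔ zpowers b := mem_sup_right (mem_zpowers b)
  by_cases heW : e ∈ W
  · right
    have h1 := c.toPre.range_mem (hWi b hbm) he0 he1 he2 heW
    let X : Subgroup G :=
      { carrier := {g | g ∈ R ⊔ zpowers b ∧ ∀ v ∈ LinearMap.ker (Tm ρ R), ρ g v - v ∈ W}
        mul_mem' := by
          rintro g h ⟨hg, hg'⟩ ⟨hh, hh'⟩
          refine ⟨mul_mem hg hh, fun v hv => ?_⟩
          have : ρ (g * h) v - v = ρ g (ρ h v - v) + (ρ g v - v) := by
            rw [rmul, map_sub]; abel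
          rw [this]
          exact Submodule.add_mem _ (hWi g hg _ (hh' v hv)) (hg' v hv)
        one_mem' := ⟨one_mem _, fun v _ => by rw [rone, sub_self]; exact Submodule.zero_mem _⟩
        inv_mem' := by
          rintro g ⟨hg, hg'⟩
          refine ⟨inv_mem hg, fun v hv => ?_⟩
          have : ρ g⁻¹ v - v = -ρ g⁻¹ (ρ g v - v) := by
            rw [map_sub, rinv]; abel
          rw [this]
          exact Submodule.neg_mem _ (hWi _ (inv_mem hg) _ (hg' v hv)) }
    have hRX : R ≤ X := by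
      apply c.genR X ⟨hbm, fun v _ => h1 v⟩
      rintro g hg x ⟨hx, hx'⟩
      refine ⟨mul_mem (mul_mem hg hx) (inv_mem hg), fun v hv => ?_⟩
      have : ρ (g * x * g⁻¹) v - v = ρ g (ρ x (ρ g⁻¹ v) - ρ g⁻¹ v) := by
        rw [rmul, rmul, map_sub, rinv']
      rw [this]
      exact hWi g hg _ (hx' _ (c.inv_F0 (inv_mem hg) hv))
    apply le_antisymm hW
    intro v hv
    haveI := Fintype.ofFinite R
    have h2 : (Nat.card R : ZMod 3) • v = Tm ρ R v - ∑ r : R, (ρ (r : G) v - v) := by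
      rw [Tm_apply, Finset.sum_sub_distrib, Finset.sum_const, Finset.card_univ, sub_sub_cancel,
        Nat.card_eq_fintype_card, Nat.cast_smul_eq_nsmul]
    have h3 : (Nat.card R : ZMod 3) • v ∈ W := by
      rw [h2, LinearMap.mem_ker.1 hv, zero_sub]
      apply Submodule.neg_mem
      apply Submodule.sum_mem
      intro r _
      exact (hRX r.2).2 v hv
    have h4 := Submodule.smul_mem W (Nat.card R : ZMod 3)⁻¹ h3
    rwa [smul_smul, inv_mul_cancel₀ c.card_ne, one_smul] at h4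
  · left
    have h1 := c.toPre.triv_of (W := W) (hWi q (mem_sup_left c.qR)) (hWi _ (mem_sup_left c.pR))
      (hWi _ (inv_mem hbm)) (by
        intro v hv h1 h2
        obtain ⟨k, hk⟩ := hline v h1 h2
        by_cases hk0 : k = 0
        · rw [hk, hk0, zero_smul]
        · exfalso
          apply heW
          have h4 := Submodule.smul_mem W k⁻¹ hv
          rwa [hk, smul_smul, inv_mul_cancel₀ hk0, one_smul] at h4)
    let X : Subgroup G :=
      { carrier := {g | g ∈ R ⊔ zpowers b ∧ ∀ v ∈ W, ρ g v = v}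
        mul_mem' := by
          rintro g h ⟨hg, hg'⟩ ⟨hh, hh'⟩
          refine ⟨mul_mem hg hh, fun v hv => ?_⟩
          rw [rmul, hh' v hv, hg' v hv]
        one_mem' := ⟨one_mem _, fun v _ => rone ρ v⟩
        inv_mem' := by
          rintro g ⟨hg, hg'⟩
          refine ⟨inv_mem hg, fun v hv => ?_⟩
          have := rinv ρ g v
          rwa [hg' v hv] at this }
    have hRX : R ≤ X := by
      apply c.genR X ⟨hbm, fun v hv => c.toPre.bfix (h1 v hv).1 (h1 v hv).2⟩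
      rintro g hg x ⟨hx, hx'⟩
      refine ⟨mul_mem (mul_mem hg hx) (inv_mem hg), fun v hv => ?_⟩
      rw [rmul, rmul, hx' _ (hWi _ (inv_mem hg) v hv), rinv']
    rw [eq_bot_iff, ← c.inf_bot]
    intro w hw
    exact ⟨hW hw, fun r hr => (hRX hr).2 w hw⟩

end Amb

end Cfsg.Agent.Lib.H39T
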