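import Cfsg.Agent.Lib.H39T13
import Cfsg.Agent.Lib.SubgroupTools

/-!
Groups `R⟨b⟩` acting on an `F₃`-space with `b` of order three of rank two (for S4415): the structure of `R`.
-/

set_option autoImplicit false

namespace Cfsg.Agent.Lib.H39T

open Subgroup

theorem isExtraspecial_transport {X Y : Type*} [Group X] [Group Y] {p : ℕ} (e : X ≃* Y)
    (h : Cfsg.IsExtraspecial p X) : Cfsg.IsExtraspecial p Y := by
  obtain ⟨⟨h1, h2, h3⟩, h4⟩ := h
  have hc : (Subgroup.center X).map (e : X →* Y) = Subgroup.center Y := by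
    ext y
    constructor
    · rintro ⟨x, hx, rfl⟩
      rw [SetLike.mem_coe, mem_center_iff] at hx
      rw [mem_center_iff]
      intro g
      obtain ⟨g, rfl⟩ := e.surjective g
      change e g * e x = e x * e g
      rw [← map_mul, hx, map_mul]
    · intro hy
      rw [mem_center_iff] at hy
      refine ⟨e.symm y, ?_, by simp⟩
      rw [SetLike.mem_coe, mem_center_iff]
      intro g
      apply e.injective
      rw [map_mul, map_mul, e.apply_symm_apply]
      exact hy _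
  have hf : (frattini X).map (e : X →* Y) = frattini Y := OrderIso.map_radical e.mapSubgroup
  have hcm : (commutator X).map (e : X →* Y) = commutator Y := by
    rw [commutator_def, Subgroup.map_commutator, commutator_def]
    have : (⊤ : Subgroup X).map (e : X →* Y) = ⊤ := by
      rw [← MonoidHom.range_eq_map]
      exact MonoidHom.range_eq_top.2 e.surjective
    rw [this]
  refine ⟨⟨h1.of_equiv e, by rw [← hf, h2, hc], by rw [← hcm, h3, hc]⟩, ?_⟩
  rw [← hc, ← h4]
  exact (Nat.card_congr ((Subgroup.center X).equivMapOfInjective _ e.injective).toEquiv).symm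

universe u

variable {G : Type u} [Group G] {V : Type*} [AddCommGroup V] [Module (ZMod 3) V]

namespace Amb

variable {ρ : Representation (ZMod 3) G V} {R : Subgroup G} {b q : G} (c : Amb ρ R b q)

/-- the restricted representation -/
noncomputable def rep [Finite G] : Representation (ZMod 3) ↥(R ⊔ zpowers b) ↥(LinearMap.ker (Tm ρ R)) where
  toFun g := (ρ g.1).restrict (fun _ hv => c.inv_F0 g.2 hv)
  map_one' := by
    ext v
    change ρ 1 v.1 = v.1
    exact rone ρ _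
  map_mul' g h := by
    ext v
    change ρ (g.1 * h.1) v.1 = ρ g.1 (ρ h.1 v.1)
    exact rmul ρ _ _ _

theorem rep_val [Finite G] (g : ↥(R ⊔ zpowers b)) (v : ↥(LinearMap.ker (Tm ρ R))) : (c.rep g v).1 = ρ g.1 v.1 := rfl

theorem ctx [Finite G] [Finite V] [Group.IsSolvable G] :
    Ctx c.rep (R.subgroupOf (R ⊔ zpowers b)) ⟨b, mem_sup_right (mem_zpowers b)⟩ ⟨q, mem_sup_left c.qR⟩ := by
  have hbm : b ∈ R ⊔ zpowers b := mem_sup_right (mem_zpowers b)
  refine ⟨⟨?_, ?_, ?_, ?_, ?_, ?_, ?_⟩, ?_, ?_, ?_, ?_, ?_, ?_, ?_⟩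
  · -- faithful
    intro g h hgh
    have h1 : g.1⁻¹ * h.1 = 1 := by
      apply c.faithful (mul_mem (inv_mem g.2) h.2)
      intro v hv
      have h2 : c.rep g ⟨v, hv⟩ = c.rep h ⟨v, hv⟩ := by rw [hgh]
      have h3 : ρ g.1 v = ρ h.1 v := congrArg Subtype.val h2
      rw [rmul, ← h3, rinv]
    exact Subtype.ext (inv_mul_eq_one.1 h1)
  · exact Subtype.ext c.b3
  · obtain ⟨w, hw⟩ := c.tr
    by_cases hall : ∀ v : ↥(LinearMap.ker (Tm ρ R)), v.1 + ρ b v.1 + ρ (b * b) v.1 = 0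
    · refine ⟨0, fun v => ⟨0, ?_⟩⟩
      apply Subtype.ext
      rw [smul_zero]
      exact hall v
    · push Not at hall
      obtain ⟨v0, hv0⟩ := hall
      obtain ⟨k0, hk0⟩ := hw v0.1
      have hk00 : k0 ≠ 0 := by
        rintro rfl
        rw [zero_smul] at hk0
        exact hv0 hk0
      refine ⟨v0 + c.rep ⟨b, hbm⟩ v0 + c.rep (⟨b, hbm⟩ * ⟨b, hbm⟩) v0, fun v => ?_⟩
      obtain ⟨k, hk⟩ := hw v.1
      refine ⟨k * k0⁻¹, ?_⟩
      apply Subtype.ext
      change v.1 + ρ b v.1 + ρ (b * b) v.1 = (k * k0⁻¹) • (v0.1 + ρ b v0.1 + ρ (b * b) v0.1)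
      rw [hk0, hk, smul_smul, mul_assoc, inv_mul_cancel₀ hk00, mul_one]
  · haveI : Module.Finite (ZMod 3) V := Module.Finite.of_finite
    rw [← Submodule.finrank_map_subtype_eq]
    apply le_trans (Submodule.finrank_mono _) c.rk
    rintro _ ⟨_, ⟨v, rfl⟩, rfl⟩
    exact ⟨v.1, rfl⟩
  · exact Subtype.ext c.qq
  · intro h
    exact c.q1 (congrArg Subtype.val h)
  · exact Subtype.ext c.qb
  · exact normal_subgroupOf_of_le_normalizer c.nR
  · rw [Nat.card_congr (subgroupOfEquivOfLe (le_sup_left : R ≤ R ⊔ zpowers b)).toEquiv]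
    exact c.cop
  · infer_instance
  · intro X hX hbX
    have h1 : R ≤ X.map (R ⊔ zpowers b).subtype := by
      apply c.genR
      · exact ⟨_, hbX, rfl⟩
      · rintro g hg _ ⟨x, hx, rfl⟩
        exact ⟨⟨g, hg⟩ * x * ⟨g, hg⟩⁻¹, hX.conj_mem x hx _, rfl⟩
    have h2 : R ⊔ zpowers b ≤ X.map (R ⊔ zpowers b).subtype := sup_le h1 (by
      rw [zpowers_le]; exact ⟨_, hbX, rfl⟩)
    rw [eq_top_iff]
    intro x _
    obtain ⟨y, hy, hyx⟩ := h2 x.2
    have : y = x := Subtype.ext hyx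
    rwa [← this]
  · intro g
    obtain ⟨r, hr, k, hk, hrk⟩ := (SubgroupTools.mem_sup_of_le_normalizer (le_sup_right.trans c.nR)).1 g.2
    obtain ⟨i, rfl⟩ := mem_powers_iff_mem_zpowers.2 hk
    refine ⟨⟨r, mem_sup_left hr⟩, hr, i, ?_⟩
    apply Subtype.ext
    change g.1 = r * b ^ i
    exact hrk.symm
  · intro W hW
    rcases c.irred (W := W.map (LinearMap.ker (Tm ρ R)).subtype) (Submodule.map_subtype_le _ _) (by
      rintro g hg _ ⟨w, hw, rfl⟩
      exact ⟨c.rep ⟨g, hg⟩ w, hW _ w hw, rfl⟩) with h | h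
    · left
      rw [eq_bot_iff]
      intro w hw
      have h2 : w.1 ∈ W.map (LinearMap.ker (Tm ρ R)).subtype := ⟨w, hw, rfl⟩
      rw [h, Submodule.mem_bot] at h2
      rw [Submodule.mem_bot]
      exact Subtype.ext h2
    · right
      rw [eq_top_iff]
      intro v _
      have h2 : v.1 ∈ W.map (LinearMap.ker (Tm ρ R)).subtype := by rw [h]; exact v.2
      obtain ⟨w, hw, hwv⟩ := h2
      have : w = v := Subtype.ext hwv
      rwa [← this]
  · rw [mem_subgroupOf]; exact c.qR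

theorem structure_R [Finite G] [Finite V] [Group.IsSolvable G] (c : Amb ρ R b q) :
    ((∀ r ∈ R, r * r = 1) ∧ Nat.card R = 4) ∨
    (Cfsg.IsExtraspecial 2 ↥R ∧ Nat.card R = 32 ∧
      ∃ D : Subgroup G, D ≤ R ∧ Cfsg.IsElementaryAbelian 2 D ∧ Nat.card D = 8) := by
  let ε := subgroupOfEquivOfLe (le_sup_left : R ≤ R ⊔ zpowers b)
  have hc := Nat.card_congr ε.toEquiv
  rcases c.ctx.main with ⟨h1, h2⟩ | ⟨h1, h2, D, hD, ⟨hD1, hD2⟩, hD3⟩
  · left
    refine ⟨fun r hr => ?_, by rw [← hc, h2]⟩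
    exact congrArg Subtype.val (h1 ⟨r, mem_sup_left hr⟩ hr)
  · right
    refine ⟨isExtraspecial_transport ε h1, by rw [← hc, h2], D.map (R ⊔ zpowers b).subtype, ?_, ⟨?_, ?_⟩, ?_⟩
    · rintro _ ⟨d, hd, rfl⟩
      exact hD hd
    · constructor
      constructor
      rintro ⟨_, x, hx, rfl⟩ ⟨_, y, hy, rfl⟩
      apply Subtype.ext
      have h3 := hD1.is_comm.comm ⟨x, hx⟩ ⟨y, hy⟩
      exact congrArg (fun z : D => ((z : ↥(R ⊔ zpowers b)) : G)) h3
    · rintro _ ⟨x, hx, rfl⟩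
      exact congrArg Subtype.val (hD2 x hx)
    · rw [Nat.card_congr (D.equivMapOfInjective (R ⊔ zpowers b).subtype (subtype_injective _)).toEquiv.symm, hD3]

end Amb

end Cfsg.Agent.Lib.H39T
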