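import Cfsg.Agent.Lib.H39T14
import Cfsg.Agent.Lib.CoprimeAction2
import Cfsg.Agent.Lib.Cores2

/-!
Groups `R⟨b⟩` acting on an `F₃`-space with `b` of order three of rank two (for S4415): assembly.
-/

set_option autoImplicit false

namespace Cfsg.Agent.Lib.H39T

open Subgroup
open scoped commutatorElement

universe u

variable {G : Type u} [Group G] {V : Type*} [AddCommGroup V] [Module (ZMod 3) V]

section linear

theorem finrank_map_lt [Finite V] {N : V →ₗ[ZMod 3] V} (hN : ∀ v, N (N (N v)) = 0) {X : Submodule (ZMod 3) V}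
    (hX : X.map N ≤ X) (h0 : X ≠ ⊥) : Module.finrank (ZMod 3) (X.map N) < Module.finrank (ZMod 3) X := by
  haveI : Module.Finite (ZMod 3) V := Module.Finite.of_finite
  apply Submodule.finrank_lt_finrank_of_lt
  refine lt_of_le_of_ne hX fun h => h0 ?_
  have h1 : X = ((X.map N).map N).map N := by rw [h, h, h]
  rw [h1, eq_bot_iff]
  rintro _ ⟨_, ⟨_, ⟨v, -, rfl⟩, rfl⟩, rfl⟩
  rw [hN]
  exact Submodule.zero_mem _

variable {ρ : Representation (ZMod 3) G V} {b : G}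

theorem cube_zero (hb3 : b * b * b = 1) (v : V) : (ρ b - 1) ((ρ b - 1) ((ρ b - 1) v)) = 0 := by
  change ρ b (ρ b (ρ b v - v) - (ρ b v - v)) - (ρ b (ρ b v - v) - (ρ b v - v)) = 0
  have h1 : ρ b (ρ b (ρ b v)) = v := by rw [← rmul, ← rmul, hb3, rone]
  simp only [map_sub, h1]
  have h2 := three_smul' (ρ b v)
  have h3 := three_smul' (ρ b (ρ b v))
  calc v - ρ b (ρ b v) - (ρ b (ρ b v) - ρ b v) - (ρ b (ρ b v) - ρ b v - (ρ b v - v)) =
      (ρ b v + ρ b v + ρ b v) - (ρ b (ρ b v) + ρ b (ρ b v) + ρ b (ρ b v)) := by abel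
    _ = 0 := by rw [h2, h3, sub_self]

theorem sq_eq (v : V) : (ρ b - 1) ((ρ b - 1) v) = v + ρ b v + ρ (b * b) v := by
  change ρ b (ρ b v - v) - (ρ b v - v) = _
  rw [map_sub, rmul]
  have h2 := three_smul' (ρ b v)
  calc ρ b (ρ b v) - ρ b v - (ρ b v - v) = v + ρ b v + ρ b (ρ b v) - (ρ b v + ρ b v + ρ b v) := by abel
    _ = v + ρ b v + ρ b (ρ b v) := by rw [h2, sub_zero]

theorem rank_data [Finite V] (hb3 : b * b * b = 1) {E₀ E₁ : Submodule (ZMod 3) V} (hE01' : E₀ ⊔ E₁ = ⊤)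
    (hE1 : ∀ v ∈ E₁, ρ b v = v) (hE0inv : ∀ v ∈ E₀, ρ b v ∈ E₀) (hE0 : Nat.card ↥E₀ = 27) :
    (∃ w : V, ∀ v : V, ∃ c : ZMod 3, v + ρ b v + ρ (b * b) v = c • w) ∧
    Module.finrank (ZMod 3) (LinearMap.range (ρ b - 1)) ≤ 2 := by
  haveI : Module.Finite (ZMod 3) V := Module.Finite.of_finite
  have hN := cube_zero (ρ := ρ) hb3
  have hE3 : Module.finrank (ZMod 3) E₀ = 3 := by
    have h3 := Module.natCard_eq_pow_finrank (K := ZMod 3) (V := E₀)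
    rw [hE0, Nat.card_zmod, show (27 : ℕ) = 3 ^ 3 by norm_num] at h3
    exact (Nat.pow_right_injective (by norm_num : 2 ≤ 3) h3).symm
  have hE0bot : E₀ ≠ ⊥ := by
    intro h
    rw [h, finrank_bot] at hE3
    omega
  have hinv : E₀.map (ρ b - 1) ≤ E₀ := by
    rintro _ ⟨v, hv, rfl⟩
    exact Submodule.sub_mem _ (hE0inv v hv) hv
  have h1 := finrank_map_lt hN hinv hE0bot
  have hE1z : ∀ v : V, ∃ v0 ∈ E₀, (ρ b - 1) v = (ρ b - 1) v0 := by
    intro v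
    have h2 : v ∈ E₀ ⊔ E₁ := by rw [hE01']; exact Submodule.mem_top
    obtain ⟨v0, hv0, v1, hv1, rfl⟩ := Submodule.mem_sup.1 h2
    refine ⟨v0, hv0, ?_⟩
    rw [map_add]
    have : (ρ b - 1) v1 = 0 := by
      change ρ b v1 - v1 = 0
      rw [hE1 v1 hv1, sub_self]
    rw [this, add_zero]
  have h3 : LinearMap.range (ρ b - 1) ≤ E₀.map (ρ b - 1) := by
    rintro _ ⟨v, rfl⟩
    obtain ⟨v0, hv0, h⟩ := hE1z v
    exact ⟨v0, hv0, h.symm⟩
  have h4 := Submodule.finrank_mono h3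
  refine ⟨?_, by omega⟩
  have h5 : Module.finrank (ZMod 3) ((E₀.map (ρ b - 1)).map (ρ b - 1)) ≤ 1 := by
    by_cases h0 : E₀.map (ρ b - 1) = ⊥
    · rw [h0, Submodule.map_bot, finrank_bot]; omega
    · have h6 := finrank_map_lt hN (Submodule.map_mono hinv) h0
      omega
  rw [finrank_le_one_iff] at h5
  obtain ⟨w, hw⟩ := h5
  refine ⟨w.1, fun v => ?_⟩
  obtain ⟨v0, hv0, h⟩ := hE1z v
  obtain ⟨k, hk⟩ := hw ⟨(ρ b - 1) ((ρ b - 1) v), _, ⟨v0, hv0, rfl⟩, by rw [h]⟩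
  refine ⟨k, ?_⟩
  rw [← sq_eq]
  exact (congrArg Subtype.val hk).symm

end linear

/-- the fundamental triple of involutions -/
theorem exists_q [Finite G] {b : G} (hb3 : b * b * b = 1) {Q : Subgroup G} (hQ : Cfsg.IsElementaryAbelian 2 Q)
    (hQ4 : Nat.card ↥Q = 4) (hBQ : zpowers b ≤ normalizer (Q : Set G)) (hBQ' : ¬ zpowers b ≤ centralizer (Q : Set G)) :
    ∃ q ∈ Q, q * q = 1 ∧ q ≠ 1 ∧ q * (b * q * b⁻¹) = b * b * q * b⁻¹ * b⁻¹ := by
  have hnorm : ∀ x ∈ Q, b * x * b⁻¹ ∈ Q := fun x hx =>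
    (mem_normalizer_iff.1 (hBQ (mem_zpowers b)) x).1 hx
  have hcomm : ∀ x ∈ Q, ∀ y ∈ Q, x * y = y * x := fun x hx y hy =>
    congrArg Subtype.val (hQ.1.is_comm.comm ⟨x, hx⟩ ⟨y, hy⟩)
  have hsq : ∀ x ∈ Q, x * x = 1 := fun x hx => by have := hQ.2 x hx; rwa [pow_two] at this
  obtain ⟨q, hq, hqb⟩ : ∃ q ∈ Q, q * b ≠ b * q := by
    by_contra hno
    push Not at hno
    apply hBQ'
    rw [zpowers_le, mem_centralizer_iff]
    exact hno
  have h1 := conj_fix Nat.prime_three (x := b) (by rw [pow_succ, pow_two]; exact hb3) hnorm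
  have h2 : Nat.card ↥(Q ⊓ centralizer ({b} : Set G)) = 1 := by
    have h3 : Nat.card ↥(Q ⊓ centralizer ({b} : Set G)) ∣ 2 ^ 2 := by
      have := Subgroup.card_dvd_of_le (inf_le_left : Q ⊓ centralizer ({b} : Set G) ≤ Q)
      rw [hQ4] at this
      exact this
    obtain ⟨k, hk, hk2⟩ := (Nat.dvd_prime_pow Nat.prime_two).1 h3
    rw [hQ4, hk2] at h1
    have h4 : k = 0 ∨ k = 1 ∨ k = 2 := by omega
    rcases h4 with rfl | rfl | rfl
    · rw [hk2]; rfl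
    · exact absurd h1 (by decide)
    · exfalso
      have h5 : Q ⊓ centralizer ({b} : Set G) = Q := by
        apply Subgroup.eq_of_le_of_card_ge inf_le_left
        rw [hk2, hQ4]; norm_num
      have h6 := (mem_centralizer_iff.1 ((inf_eq_left.1 h5) hq)) b rfl
      exact hqb h6.symm
  have h3 : Q ⊓ centralizer ({b} : Set G) = ⊥ := Subgroup.card_eq_one.1 h2
  have hp := hnorm q hq
  have hp' := hnorm _ hp
  have hwQ : q * (b * q * b⁻¹) * (b * (b * q * b⁻¹) * b⁻¹) ∈ Q := mul_mem (mul_mem hq hp) hp'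
  have hw : q * (b * q * b⁻¹) * (b * (b * q * b⁻¹) * b⁻¹) ∈ Q ⊓ centralizer ({b} : Set G) := by
    refine ⟨hwQ, ?_⟩
    change _ ∈ centralizer ({b} : Set G)
    rw [mem_centralizer_iff]
    rintro _ rfl
    rename_i b
    have h4 : b * (b * (b * q * b⁻¹) * b⁻¹) * b⁻¹ = q := by
      calc b * (b * (b * q * b⁻¹) * b⁻¹) * b⁻¹ = (b * b * b) * q * (b * b * b)⁻¹ := by group
        _ = q := by rw [hb3]; group
    calc b * (q * (b * q * b⁻¹) * (b * (b * q * b⁻¹) * b⁻¹)) =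
        ((b * q * b⁻¹) * (b * (b * q * b⁻¹) * b⁻¹)) * (b * (b * (b * q * b⁻¹) * b⁻¹) * b⁻¹) * b := by group
      _ = ((b * q * b⁻¹) * (b * (b * q * b⁻¹) * b⁻¹)) * q * b := by rw [h4]
      _ = (q * ((b * q * b⁻¹) * (b * (b * q * b⁻¹) * b⁻¹))) * b := by rw [hcomm _ (mul_mem hp hp') q hq]
      _ = q * (b * q * b⁻¹) * (b * (b * q * b⁻¹) * b⁻¹) * b := by group
  rw [h3, mem_bot] at hw
  refine ⟨q, hq, hsq q hq, ?_, ?_⟩
  · rintro rfl
    apply hqb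
    rw [one_mul, mul_one]
  · have h4 := eq_inv_of_mul_eq_one_left hw
    rw [h4]
    have h5 : (b * (b * q * b⁻¹) * b⁻¹)⁻¹ = b * (b * q * b⁻¹) * b⁻¹ := inv_eq_of_mul_eq_one_left (hsq _ hp')
    rw [h5]; group

/-- the three-prime core contains the four-group -/
theorem mem_core [Finite G] [Group.IsSolvable G] {b q : G} {P : Sylow 3 G}
    (hbP : ∀ x ∈ P, b * x = x * b) (hqq : q * q = 1) (hb3 : b * b * b = 1)
    (hqb : q * (b * q * b⁻¹) = b * b * q * b⁻¹ * b⁻¹) : q ∈ Cfsg.pPrimeCore 3 G := by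
  haveI : Fact (Nat.Prime 3) := ⟨Nat.prime_three⟩
  set K := Cfsg.pPrimeCore 3 G with hK
  have hKn : K.Normal := Cfsg.pPrimeCore_normal 3 G
  set π := QuotientGroup.mk' K with hπ
  have hsurj : Function.Surjective π := QuotientGroup.mk'_surjective K
  have h1 : centralizer (Cfsg.pCore 3 (G ⧸ K) : Set (G ⧸ K)) ≤ Cfsg.pCore 3 (G ⧸ K) :=
    Cores.centralizer_pCore_le (Cores.pPrimeCore_quotient_pPrimeCore 3 G)
  have h2 : π b ∈ Cfsg.pCore 3 (G ⧸ K) := by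
    apply h1
    rw [mem_centralizer_iff]
    intro t ht
    have h3 := Cores.pCore_le_sylow (P.mapSurjective hsurj) ht
    obtain ⟨x, hx, rfl⟩ := h3
    rw [← map_mul, ← map_mul, hbP x hx]
  have hTn : (Cfsg.pCore 3 (G ⧸ K)).Normal := Fitting.normal_pCore 3
  have h3 : π ((b * q * b⁻¹) * q) ∈ Cfsg.pCore 3 (G ⧸ K) := by
    have h4 : (b * q * b⁻¹) * q = b * (q * b⁻¹ * q⁻¹) := by
      rw [inv_eq_of_mul_eq_one_left hqq]; group
    rw [h4, map_mul]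
    apply mul_mem h2
    rw [map_mul, map_mul, map_inv, map_inv]
    exact hTn.conj_mem _ (inv_mem h2) _
  have hc : q * (b * q * b⁻¹) = (b * q * b⁻¹) * q := by
    have a1 : (b * q * b⁻¹) * (b * q * b⁻¹) = 1 := by
      calc (b * q * b⁻¹) * (b * q * b⁻¹) = b * (q * q) * b⁻¹ := by group
        _ = 1 := by rw [hqq]; group
    have a2 : (q * (b * q * b⁻¹)) * (q * (b * q * b⁻¹)) = 1 := by
      rw [hqb]
      calc (b * b * q * b⁻¹ * b⁻¹) * (b * b * q * b⁻¹ * b⁻¹) = b * b * (q * q) * b⁻¹ * b⁻¹ := by group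
        _ = 1 := by rw [hqq]; group
    have a3 : (q * (b * q * b⁻¹))⁻¹ = q * (b * q * b⁻¹) := inv_eq_of_mul_eq_one_left a2
    rw [← a3, mul_inv_rev, inv_eq_of_mul_eq_one_left a1, inv_eq_of_mul_eq_one_left hqq]
  have h4 : ((b * q * b⁻¹) * q) * ((b * q * b⁻¹) * q) = 1 := by
    rw [← hc, hqb]
    calc (b * b * q * b⁻¹ * b⁻¹) * (b * b * q * b⁻¹ * b⁻¹) = b * b * (q * q) * b⁻¹ * b⁻¹ := by group
      _ = 1 := by rw [hqq]; group
  have h5 : π ((b * q * b⁻¹) * q) = 1 := by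
    obtain ⟨k, hk⟩ := IsPGroup.iff_orderOf.1 (Cores.isPGroup_pCore 3 (G ⧸ K)) ⟨_, h3⟩
    rw [orderOf_mk] at hk
    have h6 : orderOf (π ((b * q * b⁻¹) * q)) ∣ 2 := by
      apply orderOf_dvd_of_pow_eq_one
      rw [pow_two, ← map_mul, h4, map_one]
    rcases (Nat.dvd_prime Nat.prime_two).1 h6 with h7 | h7
    · exact orderOf_eq_one_iff.1 h7
    · exfalso
      rw [h7] at hk
      have h8 : 2 ∣ 3 ^ k := by rw [← hk]
      have h9 := Nat.prime_two.dvd_of_dvd_pow h8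
      norm_num at h9
  have h6 : (b * q * b⁻¹) * q ∈ K := (QuotientGroup.eq_one_iff _).1 h5
  have h7 : q = b * ((b * q * b⁻¹) * q) * b⁻¹ := by
    rw [← hc, hqb]
    calc q = (b * b * b) * q * (b * b * b)⁻¹ := by rw [hb3]; group
      _ = _ := by group
  rw [h7]
  exact hKn.conj_mem _ h6 b

theorem s4415 {S : Type*} [Group S] [Finite S]
    [Group.IsSolvable S] {E : Type*} [AddCommGroup E] [Module (ZMod 3) E] [Finite E] (ρ : Representation (ZMod 3) S E)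
    (hfaith : Function.Injective ρ)
    (B : Subgroup S) (hB : Nat.card ↥B = 3) (b : S) (hb : Subgroup.zpowers b = B)
    (E₀ E₁ : Submodule (ZMod 3) E) (hE01' : E₀ ⊔ E₁ = ⊤)
    (hE1 : ∀ v ∈ E₁, ρ b v = v) (hE0inv : ∀ v ∈ E₀, ρ b v ∈ E₀) (hE0 : Nat.card ↥E₀ = 27)
    (Q : Subgroup S) (hQ : Cfsg.IsElementaryAbelian 2 Q) (hQ4 : Nat.card ↥Q = 4)
    (hBQ : B ≤ Subgroup.normalizer (Q : Set S)) (hBQ' : ¬ B ≤ Subgroup.centralizer (Q : Set S))
    (P : Sylow 3 S) (hBZ : (Subgroup.center ↥(P : Subgroup S)).map (P : Subgroup S).subtype = B) :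
    ((Cfsg.IsElementaryAbelian 2 ⁅Cfsg.pPrimeCore 3 S, B⁆ ∧ Nat.card ↥⁅Cfsg.pPrimeCore 3 S, B⁆ = 4) ∨
      (Cfsg.IsExtraspecial 2 ↥⁅Cfsg.pPrimeCore 3 S, B⁆ ∧ Nat.card ↥⁅Cfsg.pPrimeCore 3 S, B⁆ = 32 ∧
        ∃ A : Subgroup S, A ≤ ⁅Cfsg.pPrimeCore 3 S, B⁆ ∧ Cfsg.IsElementaryAbelian 2 A ∧ Nat.card ↥A = 8)) ∧
    ∃ F₀ F₁ : Submodule (ZMod 3) E, F₀ ⊓ F₁ = ⊥ ∧ F₀ ⊔ F₁ = ⊤ ∧
      (∀ r ∈ ⁅Cfsg.pPrimeCore 3 S, B⁆, ∀ v ∈ F₁, ρ r v = v) ∧ (∀ r ∈ ⁅Cfsg.pPrimeCore 3 S, B⁆ ⊔ B, ∀ v ∈ F₀, ρ r v ∈ F₀) ∧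
      (∀ r ∈ ⁅Cfsg.pPrimeCore 3 S, B⁆ ⊔ B, (∀ v ∈ F₀, ρ r v = v) → r = 1) ∧
      (∀ N : Submodule (ZMod 3) E, N ≤ F₀ → (∀ r ∈ ⁅Cfsg.pPrimeCore 3 S, B⁆ ⊔ B, ∀ v ∈ N, ρ r v ∈ N) → N = ⊥ ∨ N = F₀) := by
  subst hb
  have hbo : orderOf b = 3 := by rw [← Nat.card_zpowers, hB]
  have hb3 : b * b * b = 1 := by
    have := pow_orderOf_eq_one b
    rwa [hbo, pow_succ, pow_two] at this
  obtain ⟨q, hqQ, hqq, hq1, hqb⟩ := exists_q hb3 hQ hQ4 hBQ hBQ'
  obtain ⟨htr, hrk⟩ := rank_data (ρ := ρ) hb3 hE01' hE1 hE0inv hE0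
  set K := Cfsg.pPrimeCore 3 S with hK
  have hKn : K.Normal := Cfsg.pPrimeCore_normal 3 S
  have hcopK : (Nat.card (zpowers b)).Coprime (Nat.card K) := by
    rw [hB]; exact (Cores.coprime_card_pPrimeCore 3 S).symm
  have hBK : zpowers b ≤ normalizer (K : Set S) := le_normalizer_of_normal
  have hqK : q ∈ K := by
    apply mem_core (P := P) _ hqq hb3 hqb
    intro x hx
    have h1 : b ∈ (Subgroup.center ↥(P : Subgroup S)).map (P : Subgroup S).subtype := by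
      rw [hBZ]; exact mem_zpowers b
    obtain ⟨y, hy, hyb⟩ := h1
    have h2 := (mem_center_iff.1 hy) ⟨x, hx⟩
    have h3 : x * y.1 = y.1 * x := congrArg Subtype.val h2
    change y.1 = b at hyb
    rw [hyb] at h3
    exact h3.symm
  have hRR : ⁅⁅K, zpowers b⁆, zpowers b⁆ = ⁅K, zpowers b⁆ :=
    CoprimeAction2.commutator_commutator hBK hcopK (Or.inr inferInstance)
  have hRK : ⁅K, zpowers b⁆ ≤ K := commutator_le_left K _
  set R := ⁅K, zpowers b⁆ with hR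
  have hnR : R ⊔ zpowers b ≤ normalizer (R : Set S) :=
    sup_le (hRK.trans (normalizer_commutator_ge_left K _)) (normalizer_commutator_ge_right K _)
  have hpR : q * (b * q * b⁻¹) ∈ R := by
    have h1 : q * (b * q * b⁻¹) = ⁅q, b⁆ := by
      rw [commutatorElement_def, inv_eq_of_mul_eq_one_left hqq]; group
    rw [h1]
    exact commutator_mem_commutator hqK (mem_zpowers b)
  have hqR : q ∈ R := by
    have h1 : q = b * (q * (b * q * b⁻¹)) * b⁻¹ := by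
      rw [hqb]
      calc q = (b * b * b) * q * (b * b * b)⁻¹ := by rw [hb3]; group
        _ = _ := by group
    rw [h1]
    exact (mem_normalizer_iff.1 (hnR (mem_sup_right (mem_zpowers b))) _).1 hpR
  have c : Amb ρ R b q := by
    refine ⟨⟨hfaith, hb3, htr, hrk, hqq, hq1, hqb⟩, ?_, hnR, ?_, hqR⟩
    · intro h
      have h1 := h.trans (Subgroup.card_dvd_of_le hRK)
      have h2 := Nat.dvd_gcd h1 (dvd_refl 3)
      rw [Cores.coprime_card_pPrimeCore 3 S] at h2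
      norm_num at h2
    · intro X hbX hX
      rw [← hRR, commutator_le]
      intro r hr b' hb'
      have hb'X : b' ∈ X := (zpowers_le.2 hbX) hb'
      rw [commutatorElement_def]
      exact mul_mem (hX r (mem_sup_left hr) b' hb'X) (inv_mem hb'X)
  refine ⟨?_, LinearMap.ker (Tm ρ R), fx ρ R, c.inf_bot, c.sup_top, fun r hr v hv => hv r hr,
    fun r hr v hv => c.inv_F0 hr hv, fun r hr h => c.faithful hr h, fun N hN hNi => c.irred hN hNi⟩
  rcases c.structure_R with ⟨h1, h2⟩ | h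
  · left
    refine ⟨⟨⟨⟨?_⟩⟩, ?_⟩, h2⟩
    · rintro ⟨x, hx⟩ ⟨y, hy⟩
      apply Subtype.ext
      change x * y = y * x
      have h3 := h1 _ (mul_mem hx hy)
      have h4 : (x * y)⁻¹ = x * y := inv_eq_of_mul_eq_one_left h3
      rw [← h4, mul_inv_rev, inv_eq_of_mul_eq_one_left (h1 x hx), inv_eq_of_mul_eq_one_left (h1 y hy)]
    · intro x hx
      rw [pow_two]
      exact h1 x hx
  · exact Or.inr h

end Cfsg.Agent.Lib.H39T
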