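import Cfsg.Agent.Lib.H39T1

/-!
Groups `R⟨b⟩` acting on an `F₃`-space with `b` of order three of rank two (for S4415): weights.
-/

set_option autoImplicit false

namespace Cfsg.Agent.Lib.H39T

open Subgroup

variable {G : Type*} [Group G] {V : Type*} [AddCommGroup V] [Module (ZMod 3) V]

theorem mem_span_two [Finite V] (X : Submodule (ZMod 3) V) (hX : Module.finrank (ZMod 3) X ≤ 2) {x y z : V}
    (hx : x ∈ X) (hy : y ∈ X) (hz : z ∈ X) (hind : ∀ s t : ZMod 3, s • x + t • y = 0 → s = 0 ∧ t = 0) :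
    ∃ s t : ZMod 3, z = s • x + t • y := by
  haveI : Module.Finite (ZMod 3) V := Module.Finite.of_finite
  have hli : LinearIndependent (ZMod 3) ![x, y] := by
    rw [LinearIndependent.pair_iff]
    exact hind
  have h1 := finrank_span_eq_card hli
  have h2 : Submodule.span (ZMod 3) (Set.range ![x, y]) ≤ X := by
    rw [Submodule.span_le]
    rintro _ ⟨i, rfl⟩
    fin_cases i
    · exact hx
    · exact hy
  have h3 := Submodule.eq_of_le_of_finrank_le h2 (by rw [h1]; simpa using hX)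
  rw [← h3] at hz
  rw [Matrix.range_cons, Matrix.range_cons, Matrix.range_empty, Set.union_empty, Set.singleton_union,
    Submodule.mem_span_pair] at hz
  obtain ⟨s, t, h⟩ := hz
  exact ⟨s, t, h.symm⟩

namespace Pre

variable {ρ : Representation (ZMod 3) G V} {b q : G} (c : Pre ρ b q)

include c

theorem q_b (v : V) : ρ q (ρ b v) = ρ b (ρ (b * b * q * b⁻¹ * b⁻¹) v) := by
  rw [← rmul, ← rmul]; congr 2
  have := c.b3
  rw [show b * (b * b * q * b⁻¹ * b⁻¹) = (b * b * b) * q * b⁻¹ * b⁻¹ by group, this]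
  rw [one_mul, c.binv]
  rw [show q * (b * b) * (b * b) = q * (b * b * b) * b by group, this]; group

theorem p_b (v : V) : ρ (b * q * b⁻¹) (ρ b v) = ρ b (ρ q v) := by
  rw [← rmul, ← rmul]; congr 2; group

theorem q3_eq (v : V) : ρ (b * b * q * b⁻¹ * b⁻¹) v = ρ q (ρ (b * q * b⁻¹) v) := by
  rw [← c.qb, rmul]

/-- signs of the translates of a weight vector -/
theorem weights {e : V} (h1 : ρ q e = e) (h2 : ρ (b * q * b⁻¹) e = -e) :
    ρ q (ρ b e) = - ρ b e ∧ ρ (b * q * b⁻¹) (ρ b e) = ρ b e ∧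
    ρ q (ρ b (ρ b e)) = - ρ b (ρ b e) ∧ ρ (b * q * b⁻¹) (ρ b (ρ b e)) = - ρ b (ρ b e) := by
  have a1 : ρ q (ρ b e) = - ρ b e := by
    rw [c.q_b, c.q3_eq, h2, map_neg, h1, map_neg]
  have a2 : ρ (b * q * b⁻¹) (ρ b e) = ρ b e := by rw [c.p_b, h1]
  refine ⟨a1, a2, ?_, ?_⟩
  · rw [c.q_b, c.q3_eq, a2, a1, map_neg]
  · rw [c.p_b, a1, map_neg]

theorem bfix [Finite V] {v : V} (h1 : ρ q v = v) (h2 : ρ (b * q * b⁻¹) v = v) : ρ b v = v := by
  obtain ⟨e, he0, he1, he2, -, -, -⟩ := c.exists_data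
  obtain ⟨w1, w2, w3, w4⟩ := c.weights he1 he2
  have hz1 : ρ q (ρ b v - v) = ρ b v - v := by
    rw [map_sub, c.q_b, c.q3_eq, h2, h1]
  have hz2 : ρ (b * q * b⁻¹) (ρ b v - v) = ρ b v - v := by
    rw [map_sub, c.p_b, h2, h1]
  have hmem : ∀ u : V, ρ b u - u ∈ LinearMap.range (ρ b - 1) := fun u => ⟨u, rfl⟩
  have e2 : ρ b e ≠ e := by
    intro h
    rw [h, he1] at w1
    exact he0 (eq_zero_of_neg w1)
  obtain ⟨s, t, hst⟩ := mem_span_two _ c.rk (hmem e) (hmem (ρ b e)) (hmem v) (by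
    intro s t h
    have h3 := congrArg (ρ q) h
    rw [map_add, map_smul, map_smul, map_sub, map_sub, w1, w3, he1, map_zero] at h3
    have h4 : (s • (ρ b e - e) + t • (ρ b (ρ b e) - ρ b e)) +
      (s • (-ρ b e - e) + t • (-ρ b (ρ b e) - -ρ b e)) = s • (-(e + e)) := by
      simp only [smul_sub, smul_neg, smul_add]; abel
    rw [h, h3, add_zero] at h4
    have hee : -(e + e) ≠ 0 := by
      intro h5
      rw [neg_eq_zero] at h5
      exact he0 (eq_zero_of_neg (eq_neg_of_add_eq_zero_left h5))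
    have hs : s = 0 := by
      rcases smul_eq_zero.1 h4.symm with h5 | h5
      · exact h5
      · exact absurd h5 hee
    refine ⟨hs, ?_⟩
    rw [hs, zero_smul, zero_add] at h
    rcases smul_eq_zero.1 h with h5 | h5
    · exact h5
    · exfalso
      have h6 := sub_eq_zero.1 h5
      have h7 := congrArg (ρ b⁻¹) h6
      rw [rinv, rinv] at h7
      exact e2 h7)
  set z := ρ b v - v with hz
  have h5 : z + z = s • (-(e + e)) := by
    nth_rewrite 2 [← hz1]
    rw [hst, map_add, map_smul, map_smul, map_sub, map_sub, w1, w3, he1]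
    simp only [smul_sub, smul_neg, smul_add]; abel
  have h6 := congrArg (ρ (b * q * b⁻¹)) h5
  rw [map_add, hz2, map_smul, map_neg, map_add, he2] at h6
  have h7 : z + z = -(z + z) := by
    nth_rewrite 2 [h5]
    rw [h6, ← smul_neg]
    congr 1; abel
  have h8 := eq_zero_of_neg h7
  have h9 := eq_zero_of_neg (eq_neg_of_add_eq_zero_left h8)
  exact sub_eq_zero.1 h9

end Pre

namespace Ctx

variable {ρ : Representation (ZMod 3) G V} {R : Subgroup G} {b q : G} (c : Ctx ρ R b q)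

include c

/-- determinants are trivial -/
theorem det_eq_one (g : G) : LinearMap.det (ρ g) = 1 := by
  have h1 : (MonoidHom.comp (LinearMap.det : (V →ₗ[ZMod 3] V) →* ZMod 3) (ρ : G →* (V →ₗ[ZMod 3] V))).ker = ⊤ := by
    apply c.gen _ (MonoidHom.normal_ker _)
    rw [MonoidHom.mem_ker]
    have h2 : (MonoidHom.comp (LinearMap.det : (V →ₗ[ZMod 3] V) →* ZMod 3) (ρ : G →* (V →ₗ[ZMod 3] V))) (b * b * b) = 1 := by
      rw [c.b3, map_one]
    rw [map_mul, map_mul] at h2
    revert h2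
    generalize (MonoidHom.comp (LinearMap.det : (V →ₗ[ZMod 3] V) →* ZMod 3) (ρ : G →* (V →ₗ[ZMod 3] V))) b = x
    revert x; decide
  have h2 : g ∈ (MonoidHom.comp (LinearMap.det : (V →ₗ[ZMod 3] V) →* ZMod 3) (ρ : G →* (V →ₗ[ZMod 3] V))).ker := by
    rw [h1]; exact mem_top g
  rw [MonoidHom.mem_ker] at h2
  exact h2

end Ctx

/-- determinant of a monomial operator -/
theorem det_monomial {n : ℕ} (e : Module.Basis (Fin n) (ZMod 3) V) (f : V →ₗ[ZMod 3] V) (σ : Equiv.Perm (Fin n))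
    (s : Fin n → ZMod 3) (hf : ∀ i, f (e i) = s i • e (σ i)) :
    LinearMap.det f = (Equiv.Perm.sign σ : ℤ) * ∏ i, s i := by
  rw [← LinearMap.det_toMatrix e, Matrix.det_apply]
  rw [Finset.sum_eq_single σ]
  · rw [Units.smul_def, zsmul_eq_mul]
    congr 1
    refine Finset.prod_congr rfl fun i _ => ?_
    rw [LinearMap.toMatrix_apply, hf, map_smul]
    simp
  · intro τ _ hτ
    have : ∃ i, τ i ≠ σ i := by
      by_contra hno
      push Not at hno
      exact hτ (Equiv.ext hno)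
    obtain ⟨i, hi⟩ := this
    rw [Finset.prod_eq_zero (Finset.mem_univ i), smul_zero]
    rw [LinearMap.toMatrix_apply, hf, map_smul]
    simp [Finsupp.single_apply, hi.symm]
  · intro h
    exact absurd (Finset.mem_univ _) h

end Cfsg.Agent.Lib.H39T
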