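import Cfsg.Agent.Lib.H39T2

/-!
Groups `R⟨b⟩` acting on an `F₃`-space with `b` of order three of rank two (for S4415): `R` reducible.
-/

set_option autoImplicit false

namespace Cfsg.Agent.Lib.H39T

open Subgroup

variable {G : Type*} [Group G] {V : Type*} [AddCommGroup V] [Module (ZMod 3) V]

/-- invariance under `R` -/
def RInv (ρ : Representation (ZMod 3) G V) (R : Subgroup G) (W : Submodule (ZMod 3) V) : Prop :=
  ∀ r ∈ R, ∀ w ∈ W, ρ r w ∈ W

/-- minimal invariant subspaces -/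
def Mn (ρ : Representation (ZMod 3) G V) (R : Subgroup G) (W : Submodule (ZMod 3) V) : Prop :=
  RInv ρ R W ∧ W ≠ ⊥ ∧ W ≠ ⊤ ∧ ∀ U, RInv ρ R U → U ≠ ⊥ → U ≤ W → U = W

theorem exists_mn [Finite V] (ρ : Representation (ZMod 3) G V) (R : Subgroup G)
    (h : ∃ W, RInv ρ R W ∧ W ≠ ⊥ ∧ W ≠ ⊤) : ∃ W, Mn ρ R W := by
  obtain ⟨W0, h0⟩ := h
  haveI : Finite (Submodule (ZMod 3) V) := Finite.of_injective (fun W => (W : Set V)) SetLike.coe_injective
  obtain ⟨W, hW, hmin⟩ := Set.exists_min_image {W | RInv ρ R W ∧ W ≠ ⊥ ∧ W ≠ ⊤}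
    (fun W => Nat.card W) (Set.toFinite _) ⟨W0, h0⟩
  refine ⟨W, hW.1, hW.2.1, hW.2.2, fun U hU hU0 hle => ?_⟩
  have h1 := hmin U ⟨hU, hU0, fun h => hW.2.2 (top_le_iff.1 (h ▸ hle))⟩
  apply SetLike.coe_injective
  exact Set.eq_of_subset_of_ncard_le (s := (U : Set V)) (t := (W : Set V)) hle h1 (Set.toFinite _)

namespace Ctx

variable {ρ : Representation (ZMod 3) G V} {R : Subgroup G} {b q : G} (c : Ctx ρ R b q)

include c

theorem bb_eq (v : V) : ρ (b * b) v = ρ b (ρ b v) := rmul ρ b b v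

theorem conj_b (r : G) (v : V) : ρ r (ρ b v) = ρ b (ρ (b⁻¹ * r * b⁻¹⁻¹) v) := by
  rw [← rmul, ← rmul]; congr 2; group

theorem rinv_map {W : Submodule (ZMod 3) V} (hW : RInv ρ R W) : RInv ρ R (W.map (ρ b)) := by
  rintro r hr _ ⟨w, hw, rfl⟩
  refine ⟨ρ (b⁻¹ * r * b⁻¹⁻¹) w, hW _ (c.nR.conj_mem r hr b⁻¹) w hw, ?_⟩
  rw [← rmul, ← rmul]; congr 2; group

theorem map3 (W : Submodule (ZMod 3) V) : ((W.map (ρ b)).map (ρ b)).map (ρ b) = W := by
  ext v
  constructor
  · rintro ⟨_, ⟨_, ⟨w, hw, rfl⟩, rfl⟩, rfl⟩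
    rw [c.bbv]; exact hw
  · intro hv
    exact ⟨_, ⟨_, ⟨v, hv, rfl⟩, rfl⟩, c.bbv v⟩

theorem inv_of_RInv {W : Submodule (ZMod 3) V} (hW : RInv ρ R W) (hb : W.map (ρ b) ≤ W) :
    ∀ g, ∀ w ∈ W, ρ g w ∈ W := by
  have hbi : ∀ i : ℕ, ∀ w ∈ W, ρ (b ^ i) w ∈ W := by
    intro i
    induction i with
    | zero => intro w hw; rw [pow_zero, rone]; exact hw
    | succ n ih =>
      intro w hw
      rw [pow_succ, rmul]
      exact ih _ (hb ⟨w, hw, rfl⟩)
  intro g w hw
  obtain ⟨r, hr, i, rfl⟩ := c.dec g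
  rw [rmul]
  exact hW r hr _ (hbi i w hw)

theorem mn_map {W : Submodule (ZMod 3) V} (hW : Mn ρ R W) : Mn ρ R (W.map (ρ b)) := by
  obtain ⟨h1, h2, h3, h4⟩ := hW
  refine ⟨c.rinv_map h1, ?_, ?_, ?_⟩
  · intro h
    apply h2
    rw [← c.map3 W, h, Submodule.map_bot, Submodule.map_bot]
  · intro h
    apply h3
    rw [← c.map3 W, h]
    have : ∀ X : Submodule (ZMod 3) V, X = ⊤ → X.map (ρ b) = ⊤ := by
      rintro _ rfl
      rw [eq_top_iff]
      intro v _
      exact ⟨ρ b⁻¹ v, Submodule.mem_top, rinv' ρ b v⟩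
    exact this _ (this _ rfl)
  · intro U hU hU0 hle
    have h5 : (U.map (ρ b)).map (ρ b) = W := by
      apply h4 _ (c.rinv_map (c.rinv_map hU))
      · intro h
        apply hU0
        rw [← c.map3 U, h, Submodule.map_bot]
      · rw [← c.map3 W]
        exact Submodule.map_mono (Submodule.map_mono hle)
    rw [← h5, c.map3]

theorem mn_false {W : Submodule (ZMod 3) V} (hW : Mn ρ R W) (h : W.map (ρ b) ≤ W) : False := by
  rcases c.irr W (c.inv_of_RInv hW.1 h) with h1 | h1
  · exact hW.2.1 h1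
  · exact hW.2.2.1 h1

theorem mn_false' {W : Submodule (ZMod 3) V} (hW : Mn ρ R W) (h : W ≤ W.map (ρ b)) : False := by
  apply c.mn_false hW
  have h1 := Submodule.map_mono (f := ρ b) h
  have h2 := Submodule.map_mono (f := ρ b) h1
  rw [c.map3] at h2
  exact h1.trans h2

theorem caseA [Finite V] [Finite G] (hred : ∃ W, RInv ρ R W ∧ W ≠ ⊥ ∧ W ≠ ⊤) :
    (∀ r ∈ R, r * r = 1) ∧ Nat.card R = 4 := by
  obtain ⟨e, he0, he1, he2, hline, hT, -⟩ := c.exists_data
  obtain ⟨w1, w2, w3, w4⟩ := c.weights he1 he2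
  have hqR := c.qR
  have hpR : b * q * b⁻¹ ∈ R := c.nR.conj_mem q hqR b
  set p := b * q * b⁻¹ with hp
  have hqq : ∀ v, ρ q (ρ q v) = v := fun v => by rw [← rmul, c.qq, rone]
  have hppv : ∀ v, ρ p (ρ p v) = v := fun v => by rw [← rmul, c.q2b, rone]
  have hqpv : ∀ v, ρ q (ρ p v) = ρ p (ρ q v) := fun v => by rw [← rmul, ← rmul, c.qcomm]
  -- projection on the first weight
  have eps1 : ∀ U, RInv ρ R U → ∀ x ∈ U, ∃ k : ZMod 3, x + ρ q x - ρ p x - ρ q (ρ p x) = k • e ∧
      (k ≠ 0 → e ∈ U) := by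
    intro U hU x hx
    obtain ⟨k, hk⟩ := hline (x + ρ q x - ρ p x - ρ q (ρ p x)) (by
      simp only [map_add, map_sub, hqq]; abel) (by
      simp only [map_add, map_sub, ← hqpv, hppv]; abel)
    refine ⟨k, hk, fun hk0 => ?_⟩
    have h1 : x + ρ q x - ρ p x - ρ q (ρ p x) ∈ U :=
      U.sub_mem (U.sub_mem (U.add_mem hx (hU q hqR x hx)) (hU p hpR x hx)) (hU q hqR _ (hU p hpR x hx))
    rw [hk] at h1
    have h2 := U.smul_mem k⁻¹ h1
    rwa [smul_smul, inv_mul_cancel₀ hk0, one_smul] at h2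
  -- a minimal invariant subspace containing `e`
  have hWe : ∃ W, Mn ρ R W ∧ e ∈ W := by
    obtain ⟨W, hW⟩ := exists_mn ρ R hred
    have hW1 := c.mn_map hW
    have hW2 := c.mn_map hW1
    have htop : W ⊔ W.map (ρ b) ⊔ (W.map (ρ b)).map (ρ b) = ⊤ := by
      rcases c.irr (W ⊔ W.map (ρ b) ⊔ (W.map (ρ b)).map (ρ b)) (by
        apply c.inv_of_RInv
        · intro r hr w hw
          obtain ⟨x, hx, y, hy, rfl⟩ := Submodule.mem_sup.1 hw
          obtain ⟨x1, hx1, x2, hx2, rfl⟩ := Submodule.mem_sup.1 hx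
          rw [map_add, map_add]
          exact Submodule.add_mem_sup (Submodule.add_mem_sup (hW.1 r hr _ hx1) (hW1.1 r hr _ hx2)) (hW2.1 r hr _ hy)
        · rw [Submodule.map_sup, Submodule.map_sup, c.map3]
          apply sup_le (sup_le _ _) _
          · exact le_sup_of_le_left le_sup_right
          · exact le_sup_right
          · exact le_sup_of_le_left le_sup_left) with h | h
      · exfalso
        apply hW.2.1
        rw [eq_bot_iff, ← h]
        exact le_sup_of_le_left le_sup_left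
      · exact h
    have he : e ∈ W ⊔ W.map (ρ b) ⊔ (W.map (ρ b)).map (ρ b) := by rw [htop]; exact Submodule.mem_top
    obtain ⟨x, hx, y, hy, hxy⟩ := Submodule.mem_sup.1 he
    obtain ⟨x1, hx1, x2, hx2, hx12⟩ := Submodule.mem_sup.1 hx
    obtain ⟨k1, hk1, hk1'⟩ := eps1 _ hW.1 x1 hx1
    obtain ⟨k2, hk2, hk2'⟩ := eps1 _ hW1.1 x2 hx2
    obtain ⟨k3, hk3, hk3'⟩ := eps1 _ hW2.1 y hy
    have hsum : e = k1 • e + k2 • e + k3 • e := by
      rw [← hk1, ← hk2, ← hk3]
      have h1 : e = e + ρ q e - ρ p e - ρ q (ρ p e) := by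
        rw [he2, map_neg, he1]
        have := four_smul' e
        nth_rewrite 1 [← this]
        abel
      nth_rewrite 1 [h1]
      rw [← hxy, ← hx12]
      simp only [map_add]
      abel
    by_cases a1 : k1 = 0
    · by_cases a2 : k2 = 0
      · by_cases a3 : k3 = 0
        · rw [a1, a2, a3, zero_smul, add_zero, add_zero] at hsum
          exact absurd hsum he0
        · exact ⟨_, hW2, hk3' a3⟩
      · exact ⟨_, hW1, hk2' a2⟩
    · exact ⟨_, hW, hk1' a1⟩
  obtain ⟨W, hW, heW⟩ := hWe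
  have hW1 := c.mn_map hW
  have hW2 := c.mn_map hW1
  -- `b e` and `b b e` are not in `W`
  have hinf : ∀ X Y, Mn ρ R X → Mn ρ R Y → ∀ v, v ≠ 0 → v ∈ X → v ∈ Y → X ≤ Y := by
    intro X Y hX hY v hv hvX hvY
    have h1 : X ⊓ Y = X := hX.2.2.2 (X ⊓ Y) (fun r hr w hw => ⟨hX.1 r hr w hw.1, hY.1 r hr w hw.2⟩)
      (by
        intro h
        have : v ∈ X ⊓ Y := ⟨hvX, hvY⟩
        rw [h, Submodule.mem_bot] at this
        exact hv this) inf_le_left
    exact inf_eq_left.1 h1
  have hbe0 : ρ b e ≠ 0 := by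
    intro h
    have := rinv ρ b e
    rw [h, map_zero] at this
    exact he0 this.symm
  have hbbe0 : ρ b (ρ b e) ≠ 0 := by
    intro h
    have := rinv ρ b (ρ b e)
    rw [h, map_zero] at this
    exact hbe0 this.symm
  have hn1 : ρ b e ∉ W := fun h => c.mn_false' hW (hinf _ _ hW hW1 _ hbe0 h ⟨e, heW, rfl⟩)
  have hn2 : ρ b (ρ b e) ∉ W := by
    intro h
    have h1 := hinf _ _ hW2 hW _ hbbe0 ⟨_, ⟨e, heW, rfl⟩, rfl⟩ h
    have h2 := Submodule.map_mono (f := ρ b) h1
    rw [c.map3] at h2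
    exact c.mn_false' hW h2
  -- injectivity of the trace on `W`
  have hTW : ∀ v ∈ W, v + ρ b v + ρ (b * b) v = 0 → v = 0 := by
    intro v hv hv0
    by_contra hne
    have hbv0 : ρ b v ≠ 0 := by
      intro h
      have := rinv ρ b v
      rw [h, map_zero] at this
      exact hne this.symm
    have hbbv0 : ρ b (ρ b v) ≠ 0 := by
      intro h
      have := rinv ρ b (ρ b v)
      rw [h, map_zero] at this
      exact hbv0 this.symm
    have h1 : ρ b (ρ b v) ∈ W ⊔ W.map (ρ b) := by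
      rw [c.bb_eq] at hv0
      have : ρ b (ρ b v) = -v + -(ρ b v) := by
        rw [eq_comm, ← sub_eq_zero]
        rw [← neg_eq_zero]
        rw [← hv0]; abel
      rw [this]
      exact Submodule.add_mem_sup (W.neg_mem hv) (Submodule.neg_mem _ ⟨v, hv, rfl⟩)
    have hsup : RInv ρ R (W ⊔ W.map (ρ b)) := by
      intro r hr w hw
      obtain ⟨x, hx, y, hy, rfl⟩ := Submodule.mem_sup.1 hw
      rw [map_add]
      exact Submodule.add_mem_sup (hW.1 r hr _ hx) (hW1.1 r hr _ hy)
    have h2 : (W.map (ρ b)).map (ρ b) ≤ W ⊔ W.map (ρ b) := by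
      have h3 : (W.map (ρ b)).map (ρ b) ⊓ (W ⊔ W.map (ρ b)) = (W.map (ρ b)).map (ρ b) :=
        hW2.2.2.2 _ (fun r hr w hw => ⟨hW2.1 r hr w hw.1, hsup r hr w hw.2⟩)
          (by
            intro h
            have : ρ b (ρ b v) ∈ (W.map (ρ b)).map (ρ b) ⊓ (W ⊔ W.map (ρ b)) := ⟨⟨_, ⟨v, hv, rfl⟩, rfl⟩, h1⟩
            rw [h, Submodule.mem_bot] at this
            exact hbbv0 this) inf_le_left
      exact inf_eq_left.1 h3
    obtain ⟨x, hx, y, hy, hxy⟩ := Submodule.mem_sup.1 (h2 ⟨_, ⟨e, heW, rfl⟩, rfl⟩)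
    -- projection on the third weight
    have eps3 : ∀ U, RInv ρ R U → ∀ x ∈ U, ∃ k : ZMod 3, x - ρ q x - ρ p x + ρ q (ρ p x) = k • ρ b (ρ b e) ∧
        (k ≠ 0 → ρ b (ρ b e) ∈ U) := by
      intro U hU x hx
      set y := x - ρ q x - ρ p x + ρ q (ρ p x) with hy
      have hy1 : ρ q y = -y := by
        rw [hy]; simp only [map_add, map_sub, hqq]; abel
      have hy2 : ρ p y = -y := by
        rw [hy]; simp only [map_add, map_sub, ← hqpv, hppv]; abel
      obtain ⟨k, hk⟩ := hline (ρ b y) (by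
        rw [c.q_b, c.q3_eq, ← hp, hy2, map_neg, hy1, neg_neg]) (by
        rw [hp, c.p_b, hy1, map_neg])
      have hk' : y = k • ρ b (ρ b e) := by
        have := congrArg (fun u => ρ b (ρ b u)) hk
        simp only [c.bbv, map_smul] at this
        exact this
      refine ⟨k, hk', fun hk0 => ?_⟩
      have h1 : y ∈ U :=
        U.add_mem (U.sub_mem (U.sub_mem hx (hU q hqR x hx)) (hU p hpR x hx)) (hU q hqR _ (hU p hpR x hx))
      rw [hk'] at h1
      have h2 := U.smul_mem k⁻¹ h1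
      rwa [smul_smul, inv_mul_cancel₀ hk0, one_smul] at h2
    obtain ⟨k1, hk1, hk1'⟩ := eps3 _ hW.1 x hx
    obtain ⟨k2, hk2, hk2'⟩ := eps3 _ hW1.1 y hy
    have hsum : ρ b (ρ b e) = k1 • ρ b (ρ b e) + k2 • ρ b (ρ b e) := by
      rw [← hk1, ← hk2]
      have h1 : ρ b (ρ b e) = ρ b (ρ b e) - ρ q (ρ b (ρ b e)) - ρ p (ρ b (ρ b e)) + ρ q (ρ p (ρ b (ρ b e))) := by
        rw [w4, map_neg, w3]
        have := four_smul' (ρ b (ρ b e))
        nth_rewrite 1 [← this]
        abel
      nth_rewrite 1 [h1]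
      rw [← hxy]
      simp only [map_add]
      abel
    by_cases a1 : k1 = 0
    · by_cases a2 : k2 = 0
      · rw [a1, a2, zero_smul, add_zero] at hsum
        exact hbbe0 hsum
      · obtain ⟨u, hu, hu'⟩ := hk2' a2
        apply hn1
        have := congrArg (ρ b⁻¹) hu'
        rw [rinv, rinv] at this
        rw [← this]; exact hu
    · exact hn2 (hk1' a1)
  have hWspan : ∀ v ∈ W, ∃ k : ZMod 3, v = k • e := by
    intro v hv
    obtain ⟨k, hk⟩ := hT v
    refine ⟨k, ?_⟩
    have h1 : v - k • e = 0 := by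
      apply hTW _ (W.sub_mem hv (W.smul_mem k heW))
      rw [map_sub, map_sub, map_smul, map_smul]
      have : v - k • e + (ρ b v - k • ρ b e) + (ρ (b * b) v - k • ρ (b * b) e) =
        (v + ρ b v + ρ (b * b) v) - k • (e + ρ b e + ρ (b * b) e) := by
        rw [smul_add, smul_add]; abel
      rw [this, hk, sub_self]
    exact sub_eq_zero.1 h1
  have hRe : ∀ r ∈ R, ∃ k : ZMod 3, ρ r e = k • e := fun r hr => hWspan _ (hW.1 r hr e heW)
  have hRbe : ∀ r ∈ R, ∃ k : ZMod 3, ρ r (ρ b e) = k • ρ b e := by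
    intro r hr
    obtain ⟨k, hk⟩ := hRe (b⁻¹ * r * b⁻¹⁻¹) (c.nR.conj_mem r hr b⁻¹)
    exact ⟨k, by rw [c.conj_b, hk, map_smul]⟩
  have hRbbe : ∀ r ∈ R, ∃ k : ZMod 3, ρ r (ρ b (ρ b e)) = k • ρ b (ρ b e) := by
    intro r hr
    obtain ⟨k, hk⟩ := hRbe (b⁻¹ * r * b⁻¹⁻¹) (c.nR.conj_mem r hr b⁻¹)
    exact ⟨k, by rw [c.conj_b, hk, map_smul]⟩
  -- basis
  let f : Fin 3 → V := ![e, ρ b e, ρ b (ρ b e)]
  have hli : LinearIndependent (ZMod 3) f := by
    rw [Fintype.linearIndependent_iff]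
    intro g hg
    rw [Fin.sum_univ_three] at hg
    change g 0 • e + g 1 • ρ b e + g 2 • ρ b (ρ b e) = 0 at hg
    have h1 := congrArg (ρ q) hg
    have h2 := congrArg (ρ p) hg
    simp only [map_add, map_smul, map_zero, w1, w3, he1, w2, w4, he2] at h1 h2
    have h3 : g 0 • (e + e) = 0 := by
      have : g 0 • (e + e) = (g 0 • e + g 1 • ρ b e + g 2 • ρ b (ρ b e)) +
        (g 0 • e + g 1 • -ρ b e + g 2 • -ρ b (ρ b e)) := by
        simp only [smul_add, smul_neg]; abel
      rw [this, hg, h1, add_zero]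
    have h4 : g 1 • (ρ b e + ρ b e) = 0 := by
      have : g 1 • (ρ b e + ρ b e) = (g 0 • e + g 1 • ρ b e + g 2 • ρ b (ρ b e)) +
        (g 0 • -e + g 1 • ρ b e + g 2 • -ρ b (ρ b e)) := by
        simp only [smul_add, smul_neg]; abel
      rw [this, hg, h2, add_zero]
    have hne : ∀ v : V, v ≠ 0 → v + v ≠ 0 := fun v hv h => hv (eq_zero_of_neg (eq_neg_of_add_eq_zero_left h))
    have g0 : g 0 = 0 := (smul_eq_zero.1 h3).resolve_right (hne _ he0)
    have g1 : g 1 = 0 := (smul_eq_zero.1 h4).resolve_right (hne _ hbe0)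
    rw [g0, g1, zero_smul, zero_smul, zero_add, zero_add] at hg
    have g2 : g 2 = 0 := (smul_eq_zero.1 hg).resolve_right hbbe0
    intro i
    fin_cases i
    · exact g0
    · exact g1
    · exact g2
  have hsp : ⊤ ≤ Submodule.span (ZMod 3) (Set.range f) := by
    have hf0 : e ∈ Submodule.span (ZMod 3) (Set.range f) := Submodule.subset_span ⟨0, rfl⟩
    have hf1 : ρ b e ∈ Submodule.span (ZMod 3) (Set.range f) := Submodule.subset_span ⟨1, rfl⟩
    have hf2 : ρ b (ρ b e) ∈ Submodule.span (ZMod 3) (Set.range f) := Submodule.subset_span ⟨2, rfl⟩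
    rcases c.irr (Submodule.span (ZMod 3) (Set.range f)) (by
      apply c.inv_of_RInv
      · intro r hr w hw
        induction hw using Submodule.span_induction with
        | mem x hx =>
          obtain ⟨i, rfl⟩ := hx
          fin_cases i
          · obtain ⟨k, hk⟩ := hRe r hr
            change ρ r e ∈ _
            rw [hk]; exact Submodule.smul_mem _ _ hf0
          · obtain ⟨k, hk⟩ := hRbe r hr
            change ρ r (ρ b e) ∈ _
            rw [hk]; exact Submodule.smul_mem _ _ hf1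
          · obtain ⟨k, hk⟩ := hRbbe r hr
            change ρ r (ρ b (ρ b e)) ∈ _
            rw [hk]; exact Submodule.smul_mem _ _ hf2
        | zero => rw [map_zero]; exact Submodule.zero_mem _
        | add x y _ _ hx hy => rw [map_add]; exact Submodule.add_mem _ hx hy
        | smul k x _ hx => rw [map_smul]; exact Submodule.smul_mem _ _ hx
      · rw [Submodule.map_span_le]
        rintro _ ⟨i, rfl⟩
        fin_cases i
        · exact hf1
        · exact hf2
        · change ρ b (ρ b (ρ b e)) ∈ _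
          rw [c.bbv]; exact hf0) with h | h
    · rw [h, Submodule.mem_bot] at hf0
      exact absurd hf0 he0
    · rw [h]
  let B : Module.Basis (Fin 3) (ZMod 3) V := Module.Basis.mk hli hsp
  have hB0 : B 0 = e := by rw [Module.Basis.mk_apply]; rfl
  have hB1 : B 1 = ρ b e := by rw [Module.Basis.mk_apply]; rfl
  have hB2 : B 2 = ρ b (ρ b e) := by rw [Module.Basis.mk_apply]; rfl
  have hs : ∀ r : R, ∃ s : Fin 3 → ZMod 3, ∀ i, ρ (r : G) (B i) = s i • B i := by
    intro r
    obtain ⟨k0, hk0⟩ := hRe r r.2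
    obtain ⟨k1, hk1⟩ := hRbe r r.2
    obtain ⟨k2, hk2⟩ := hRbbe r r.2
    refine ⟨![k0, k1, k2], fun i => ?_⟩
    fin_cases i
    · change ρ (r : G) (B 0) = k0 • B 0
      rw [hB0, hk0]
    · change ρ (r : G) (B 1) = k1 • B 1
      rw [hB1, hk1]
    · change ρ (r : G) (B 2) = k2 • B 2
      rw [hB2, hk2]
  choose s hs using hs
  have hss : ∀ r i, s r i * s r i = 1 := by
    intro r i
    have h0 : s r i ≠ 0 := by
      intro h
      have h1 := hs r i
      rw [h, zero_smul] at h1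
      have h2 := rinv ρ (r : G) (B i)
      rw [h1, map_zero] at h2
      exact B.ne_zero i h2.symm
    revert h0
    generalize s r i = x
    revert x; decide
  have hprod : ∀ r, ∏ i, s r i = 1 := by
    intro r
    have h1 := c.det_eq_one (r : G)
    rw [det_monomial B (ρ (r : G)) 1 (s r) (by
      intro i; rw [hs r i]; rfl)] at h1
    simpa using h1
  refine ⟨?_, ?_⟩
  · intro r hr
    apply c.inj
    apply B.ext
    intro i
    have := hs ⟨r, hr⟩ i
    simp only at this
    rw [map_mul, map_one]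
    change ρ r (ρ r (B i)) = B i
    rw [this, map_smul, this, smul_smul, hss, one_smul]
  · apply le_antisymm
    · have hinj : Function.Injective (fun r : R => (⟨s r, hss r, hprod r⟩ :
          {s : Fin 3 → ZMod 3 // (∀ i, s i * s i = 1) ∧ ∏ i, s i = 1})) := by
        intro r r' h
        have h1 : s r = s r' := congrArg Subtype.val h
        apply Subtype.ext
        apply c.inj
        apply B.ext
        intro i
        rw [hs r i, hs r' i, h1]
      have h1 := Nat.card_le_card_of_injective _ hinj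
      have h2 : Nat.card {s : Fin 3 → ZMod 3 // (∀ i, s i * s i = 1) ∧ ∏ i, s i = 1} = 4 := by
        rw [Nat.card_eq_fintype_card]; decide
      rw [h2] at h1
      exact h1
    · classical
      have hp1 : p ≠ 1 := by
        intro h
        apply c.q1
        rw [hp, mul_inv_eq_one] at h
        exact mul_eq_left.1 h
      have hqp : q ≠ p := by
        intro h
        have h1 := c.qb
        rw [← hp, ← h, c.qq] at h1
        apply c.q1
        have h2 : b * b * q = b * b := by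
          have := congrArg (fun x => x * b * b) h1
          simp only [one_mul, inv_mul_cancel_right] at this
          exact this.symm
        exact mul_eq_left.1 h2
      have hp1' : (1 : G) ≠ p := fun h => hp1 h.symm
      have hqp1 : (1 : G) ≠ q * p := by
        intro h
        apply hqp
        rw [← mul_right_inj q, c.qq, h]
      have hcard : ({1, q, p, q * p} : Set G).ncard = 4 := by
        rw [Set.ncard_insert_of_notMem, Set.ncard_insert_of_notMem, Set.ncard_pair]
        · intro h; exact c.q1 (mul_eq_right.1 h.symm)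
        · rintro (h | h)
          · exact hqp h
          · exact hp1 (mul_eq_left.1 h.symm)
        · rintro (h | h | h)
          · exact c.q1 h.symm
          · exact hp1' h
          · exact hqp1 h
      rw [← hcard]
      change _ ≤ Nat.card (R : Set G)
      rw [Nat.card_coe_set_eq]
      apply Set.ncard_le_ncard _ (Set.toFinite _)
      rintro x (rfl | rfl | rfl | rfl)
      · exact one_mem R
      · exact hqR
      · exact hpR
      · exact mul_mem hqR hpR

end Ctx

end Cfsg.Agent.Lib.H39T
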