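import Cfsg.Agent.Lib.H39T3

/-!
Groups `R⟨b⟩` acting on an `F₃`-space with `b` of order three of rank two (for S4415): abelian normal subgroups.
-/

set_option autoImplicit false

namespace Cfsg.Agent.Lib.H39T

open Subgroup

variable {G : Type*} [Group G] {V : Type*} [AddCommGroup V] [Module (ZMod 3) V]

/-- stabilizer of a vector -/
def st (ρ : Representation (ZMod 3) G V) (v : V) : Subgroup G where
  carrier := {g | ρ g v = v}
  mul_mem' := by
    intro x y hx hy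
    change ρ (x * y) v = v
    rw [rmul, hy, hx]
  one_mem' := rone ρ v
  inv_mem' := by
    intro x hx
    change ρ x⁻¹ v = v
    have h := rinv ρ x v
    rwa [show ρ x v = v from hx] at h

theorem mem_st {ρ : Representation (ZMod 3) G V} {v : V} {g : G} : g ∈ st ρ v ↔ ρ g v = v := Iff.rfl

theorem mem_fx_iff {ρ : Representation (ZMod 3) G V} {A : Subgroup G} {v : V} : v ∈ fx ρ A ↔ A ≤ st ρ v := Iff.rfl

theorem fx_sup (ρ : Representation (ZMod 3) G V) (A B : Subgroup G) : fx ρ (A ⊔ B) = fx ρ A ⊓ fx ρ B := by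
  ext v
  rw [Submodule.mem_inf, mem_fx_iff, mem_fx_iff, mem_fx_iff, sup_le_iff]

/-- conjugate subgroup -/
abbrev cj (g : G) (A : Subgroup G) : Subgroup G := A.map (MulAut.conj g).toMonoidHom

theorem mem_cj {g x : G} {A : Subgroup G} : x ∈ cj g A ↔ g⁻¹ * x * g ∈ A := by
  constructor
  · rintro ⟨a, ha, rfl⟩
    have : g⁻¹ * (MulAut.conj g).toMonoidHom a * g = a := by
      change g⁻¹ * (g * a * g⁻¹) * g = a
      group
    rw [this]; exact ha
  · intro h
    refine ⟨g⁻¹ * x * g, h, ?_⟩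
    change g * (g⁻¹ * x * g) * g⁻¹ = x
    group

theorem cj_cj (g h : G) (A : Subgroup G) : cj g (cj h A) = cj (g * h) A := by
  ext x
  rw [mem_cj, mem_cj, mem_cj]
  have : h⁻¹ * (g⁻¹ * x * g) * h = (g * h)⁻¹ * x * (g * h) := by group
  rw [this]

theorem cj_one (A : Subgroup G) : cj 1 A = A := by
  ext x
  rw [mem_cj]
  simp

theorem mem_fx_cj {ρ : Representation (ZMod 3) G V} {A : Subgroup G} {v : V} (g : G) (hv : v ∈ fx ρ A) :
    ρ g v ∈ fx ρ (cj g A) := by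
  intro a ha
  rw [mem_cj] at ha
  have := hv _ ha
  have h2 : ρ a (ρ g v) = ρ g (ρ (g⁻¹ * a * g) v) := by
    rw [← rmul, ← rmul]; congr 2; group
  rw [h2, this]

/-- maximal subgroups of `A` with nonzero fixed vectors -/
def Mx (ρ : Representation (ZMod 3) G V) (A A' : Subgroup G) : Prop :=
  A' ≤ A ∧ fx ρ A' ≠ ⊥ ∧ ∀ X, A' ≤ X → X ≤ A → fx ρ X ≠ ⊥ → X = A'

theorem cj_normal {A : Subgroup G} (hA : A.Normal) (g : G) : cj g A = A := by
  ext x
  rw [mem_cj]
  constructor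
  · intro h
    have := hA.conj_mem _ h g
    have h2 : g * (g⁻¹ * x * g) * g⁻¹ = x := by group
    rwa [h2] at this
  · intro h
    have := hA.conj_mem _ h g⁻¹
    rwa [inv_inv] at this

theorem fx_cj_ne {ρ : Representation (ZMod 3) G V} {A : Subgroup G} (g : G) (h : fx ρ A ≠ ⊥) : fx ρ (cj g A) ≠ ⊥ := by
  obtain ⟨v, hv, hv0⟩ := (Submodule.ne_bot_iff _).1 h
  rw [Submodule.ne_bot_iff]
  refine ⟨ρ g v, mem_fx_cj g hv, ?_⟩
  intro h1
  have := rinv ρ g v
  rw [h1, map_zero] at this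
  exact hv0 this.symm

theorem Mx.cj {ρ : Representation (ZMod 3) G V} {A A' : Subgroup G} (hA : A.Normal) (h : Mx ρ A A') (g : G) :
    Mx ρ A (cj g A') := by
  obtain ⟨h1, h2, h3⟩ := h
  refine ⟨?_, fx_cj_ne g h2, ?_⟩
  · rw [← cj_normal hA g]
    exact Subgroup.map_mono h1
  · intro X hX hXA hX0
    have h4 := h3 (H39T.cj g⁻¹ X) (by
      intro x hx
      rw [mem_cj]
      apply hX
      rw [mem_cj]
      have : g⁻¹ * (g⁻¹⁻¹ * x * g⁻¹) * g = x := by group
      rwa [this]) (by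
      rw [← cj_normal hA g⁻¹]
      exact Subgroup.map_mono hXA) (fx_cj_ne _ hX0)
    rw [← h4, cj_cj, mul_inv_cancel, cj_one]

theorem Mx.inf {ρ : Representation (ZMod 3) G V} {A A' A'' : Subgroup G} (h : Mx ρ A A') (h' : Mx ρ A A'')
    (hne : A' ≠ A'') : fx ρ A' ⊓ fx ρ A'' = ⊥ := by
  by_contra h0
  rw [← fx_sup] at h0
  apply hne
  have h1 := h.2.2 (A' ⊔ A'') le_sup_left (sup_le h.1 h'.1) h0
  have h2 := h'.2.2 (A' ⊔ A'') le_sup_right (sup_le h.1 h'.1) h0
  rw [← h1, h2]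

theorem exists_Mx [Finite G] {ρ : Representation (ZMod 3) G V} (A A0 : Subgroup G) (h : A0 ≤ A) (h0 : fx ρ A0 ≠ ⊥) :
    ∃ A', Mx ρ A A' ∧ A0 ≤ A' := by
  obtain ⟨A', hA', hmax⟩ := Set.exists_max_image {X : Subgroup G | A0 ≤ X ∧ X ≤ A ∧ fx ρ X ≠ ⊥}
    (fun X => Nat.card X) (Set.toFinite _) ⟨A0, le_rfl, h, h0⟩
  refine ⟨A', ⟨hA'.2.1, hA'.2.2, fun X hX hXA hX0 => ?_⟩, hA'.1⟩
  exact (Subgroup.eq_of_le_of_card_ge hX (hmax X ⟨hA'.1.trans hX, hXA, hX0⟩)).symm

namespace Ctx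

variable {ρ : Representation (ZMod 3) G V} {R : Subgroup G} {b q : G} (c : Ctx ρ R b q)

include c

theorem norm_of_conj {A' : Subgroup G} (h : ∀ g : G, cj (g * b * g⁻¹) A' = A') : A'.Normal := by
  let N : Subgroup G :=
    { carrier := {g | cj g A' = A'}
      mul_mem' := by
        intro x y hx hy
        change cj (x * y) A' = A'
        rw [← cj_cj, show cj y A' = A' from hy, show cj x A' = A' from hx]
      one_mem' := cj_one A'
      inv_mem' := by
        intro x hx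
        change cj x⁻¹ A' = A'
        nth_rewrite 1 [← show cj x A' = A' from hx]
        rw [cj_cj, inv_mul_cancel, cj_one] }
  have hN : Subgroup.normalClosure {b} ≤ N := by
    rw [Subgroup.normalClosure, closure_le]
    intro x hx
    rw [Group.mem_conjugatesOfSet_iff] at hx
    obtain ⟨y, hy, hxy⟩ := hx
    rw [Set.mem_singleton_iff] at hy
    subst hy
    obtain ⟨g, rfl⟩ := isConj_iff.1 hxy
    exact h g
  have h1 := c.gen (Subgroup.normalClosure {b}) inferInstance (Subgroup.subset_normalClosure (Set.mem_singleton b))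
  rw [h1] at hN
  constructor
  intro a ha g
  have h2 : cj g A' = A' := hN (mem_top g)
  rw [← h2, mem_cj]
  have h3 : g⁻¹ * (g * a * g⁻¹) * g = a := by group
  rwa [h3]

theorem cj_b3 (A' : Subgroup G) : cj b (cj b (cj b A')) = A' := by
  rw [cj_cj, cj_cj, c.b3, cj_one]

theorem line {A A' : Subgroup G} (hA : A.Normal) (hcomm : ∀ x ∈ A, ∀ y ∈ A, x * y = y * x) (h : Mx ρ A A')
    (hb : cj b A' ≠ A') : ∃ w ∈ fx ρ A', w ≠ 0 ∧ ∀ v ∈ fx ρ A', ∃ k : ZMod 3, v = k • w := by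
  obtain ⟨e, he0, he1, he2, -, hT, -⟩ := c.exists_data
  have h1 := h.cj hA b
  have h2 := h1.cj hA b
  have n12 : cj b (cj b A') ≠ cj b A' := by
    intro h3
    apply hb
    have := congrArg (cj b) h3
    rw [c.cj_b3] at this
    rw [← h3, ← this]
  have n02 : cj b (cj b A') ≠ A' := by
    intro h3
    apply hb
    have := congrArg (cj b) h3
    rw [c.cj_b3] at this
    exact this.symm
  have key : ∀ w ∈ fx ρ A', w + ρ b w + ρ (b * b) w = 0 → w = 0 := by
    intro w hw hw0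
    rw [c.bb_eq] at hw0
    have hbw := mem_fx_cj b hw
    have hbbw := mem_fx_cj b hbw
    have h3 : ρ b w ∈ fx ρ A' := by
      intro a ha
      have haA : a ∈ A := h.1 ha
      have h4 := congrArg (ρ a) hw0
      rw [map_add, map_add, hw a ha, map_zero] at h4
      have h5 : (ρ a (ρ b w) - ρ b w) + (ρ a (ρ b (ρ b w)) - ρ b (ρ b w)) = 0 := by
        have : (ρ a (ρ b w) - ρ b w) + (ρ a (ρ b (ρ b w)) - ρ b (ρ b w)) =
          (w + ρ a (ρ b w) + ρ a (ρ b (ρ b w))) - (w + ρ b w + ρ b (ρ b w)) := by abel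
        rw [this, h4, hw0, sub_zero]
      have stab : ∀ X : Subgroup G, X ≤ A → ∀ v ∈ fx ρ X, ρ a v ∈ fx ρ X := by
        intro X hX v hv x hx
        rw [← rmul, hcomm x (hX hx) a haA, rmul, hv x hx]
      have h6 : ρ a (ρ b w) - ρ b w ∈ fx ρ (cj b A') := Submodule.sub_mem _ (stab _ h1.1 _ hbw) hbw
      have h7 : ρ a (ρ b (ρ b w)) - ρ b (ρ b w) ∈ fx ρ (cj b (cj b A')) :=
        Submodule.sub_mem _ (stab _ h2.1 _ hbbw) hbbw
      have h8 : ρ a (ρ b w) - ρ b w ∈ fx ρ (cj b A') ⊓ fx ρ (cj b (cj b A')) := by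
        refine ⟨h6, ?_⟩
        rw [eq_neg_of_add_eq_zero_left h5]
        exact Submodule.neg_mem _ h7
      rw [h1.inf h2 n12.symm, Submodule.mem_bot] at h8
      exact sub_eq_zero.1 h8
    have h4 : ρ b w ∈ fx ρ A' ⊓ fx ρ (cj b A') := ⟨h3, hbw⟩
    rw [h.inf h1 hb.symm, Submodule.mem_bot] at h4
    have := rinv ρ b w
    rw [h4, map_zero] at this
    exact this.symm
  obtain ⟨w, hw, hw0⟩ := (Submodule.ne_bot_iff _).1 h.2.1
  refine ⟨w, hw, hw0, fun v hv => ?_⟩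
  obtain ⟨k1, hk1⟩ := hT w
  obtain ⟨k, hk⟩ := hT v
  have hk10 : k1 ≠ 0 := by
    rintro rfl
    rw [zero_smul] at hk1
    exact hw0 (key w hw hk1)
  refine ⟨k * k1⁻¹, ?_⟩
  have h5 : v - (k * k1⁻¹) • w = 0 := by
    apply key _ (Submodule.sub_mem _ hv (Submodule.smul_mem _ _ hw))
    rw [map_sub, map_sub, map_smul, map_smul]
    have : v - (k * k1⁻¹) • w + (ρ b v - (k * k1⁻¹) • ρ b w) + (ρ (b * b) v - (k * k1⁻¹) • ρ (b * b) w) =
        (v + ρ b v + ρ (b * b) v) - (k * k1⁻¹) • (w + ρ b w + ρ (b * b) w) := by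
        rw [smul_add, smul_add]; abel
    rw [this, hk, hk1, smul_smul, mul_assoc, inv_mul_cancel₀ hk10, mul_one, sub_self]
  exact sub_eq_zero.1 h5

/-- squares lie in `A'` -/
theorem sq_mem {A A' : Subgroup G} (hA : A.Normal) (hcomm : ∀ x ∈ A, ∀ y ∈ A, x * y = y * x) (h : Mx ρ A A')
    (hb : cj b A' ≠ A') {a : G} (ha : a ∈ A) : a * a ∈ A' := by
  obtain ⟨w, hw, hw0, hline⟩ := c.line hA hcomm h hb
  obtain ⟨k, hk⟩ := hline (ρ a w) (by
    intro x hx
    rw [← rmul, hcomm x (h.1 hx) a ha, rmul, hw x hx])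
  have hk0 : k ≠ 0 := by
    rintro rfl
    rw [zero_smul] at hk
    have := rinv ρ a w
    rw [hk, map_zero] at this
    exact hw0 this.symm
  have hkk : k * k = 1 := by revert hk0; clear hk; revert k; decide
  have h1 : w ∈ fx ρ (A' ⊔ zpowers (a * a)) := by
    rw [fx_sup]
    refine ⟨hw, ?_⟩
    change zpowers (a * a) ≤ st ρ w
    rw [zpowers_le, mem_st, rmul, hk, map_smul, hk, smul_smul, hkk, one_smul]
  have h2 := h.2.2 (A' ⊔ zpowers (a * a)) le_sup_left (sup_le h.1 (by rw [zpowers_le]; exact mul_mem ha ha))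
    (by
      intro h3
      rw [h3, Submodule.mem_bot] at h1
      exact hw0 h1)
  rw [← h2]
  exact mem_sup_right (mem_zpowers _)

theorem dichotomy [Finite G] {A : Subgroup G} (hA : A.Normal) (hcomm : ∀ x ∈ A, ∀ y ∈ A, x * y = y * x) :
    (∃ A', Mx ρ A A' ∧ cj b A' ≠ A') ∨ ∀ a ∈ A, a ≠ 1 → ∀ v, ρ a v = v → v = 0 := by
  by_contra hno
  push Not at hno
  obtain ⟨h1, a, haA, ha1, v, hv, hv0⟩ := hno
  obtain ⟨A', hA', hle⟩ := exists_Mx (ρ := ρ) A (zpowers a) (by rw [zpowers_le]; exact haA) (by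
    rw [Submodule.ne_bot_iff]
    refine ⟨v, ?_, hv0⟩
    rw [mem_fx_iff, zpowers_le]
    exact hv)
  have h2 : A'.Normal := by
    apply c.norm_of_conj
    intro g
    have h3 := h1 (cj g⁻¹ A') (hA'.cj hA _)
    have h4 := congrArg (cj g) h3
    rw [cj_cj, cj_cj, cj_cj, mul_inv_cancel, cj_one] at h4
    exact h4
  have h3 : A' ≠ ⊥ := by
    rintro rfl
    apply ha1
    have := hle (mem_zpowers a)
    exact mem_bot.1 this
  exact hA'.2.1 (c.fx_normal h2 h3)

end Ctx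

end Cfsg.Agent.Lib.H39T
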