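import Cfsg.Agent.Lib.H39T4

/-!
Groups `R⟨b⟩` acting on an `F₃`-space with `b` of order three of rank two (for S4415): odd abelian normal subgroups.
-/

set_option autoImplicit false

namespace Cfsg.Agent.Lib.H39T

open Subgroup

variable {G : Type*} [Group G] {V : Type*} [AddCommGroup V] [Module (ZMod 3) V]

namespace Ctx

variable {ρ : Representation (ZMod 3) G V} {R : Subgroup G} {b q : G} (c : Ctx ρ R b q)

include c

theorem card_neg [Finite V] : Nat.card {v : V // ρ q v = -v} = 9 := by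
  obtain ⟨e, he0, he1, he2, hline, -, -⟩ := c.exists_data
  obtain ⟨w1, w2, w3, w4⟩ := c.weights he1 he2
  have hppv : ∀ v, ρ (b * q * b⁻¹) (ρ (b * q * b⁻¹) v) = v := fun v => by rw [← rmul, c.q2b, rone]
  have hqpv : ∀ v, ρ q (ρ (b * q * b⁻¹) v) = ρ (b * q * b⁻¹) (ρ q v) := fun v => by rw [← rmul, ← rmul, c.qcomm]
  have hbe0 : ρ b e ≠ 0 := by
    intro h
    have := rinv ρ b e
    rw [h, map_zero] at this
    exact he0 this.symm
  have hbbe0 : ρ b (ρ b e) ≠ 0 := by
    intro h
    have := rinv ρ b (ρ b e)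
    rw [h, map_zero] at this
    exact hbe0 this.symm
  have hne : ∀ v : V, v ≠ 0 → v + v ≠ 0 := fun v hv h => hv (eq_zero_of_neg (eq_neg_of_add_eq_zero_left h))
  have hbij : Function.Bijective (fun st : ZMod 3 × ZMod 3 =>
      (⟨st.1 • ρ b e + st.2 • ρ b (ρ b e), by
        rw [map_add, map_smul, map_smul, w1, w3]; simp only [smul_neg]; abel⟩ : {v : V // ρ q v = -v})) := by
    constructor
    · rintro ⟨s, t⟩ ⟨s', t'⟩ h
      have h1 : s • ρ b e + t • ρ b (ρ b e) = s' • ρ b e + t' • ρ b (ρ b e) := congrArg Subtype.val h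
      have h2 : (s - s') • ρ b e + (t - t') • ρ b (ρ b e) = 0 := by
        rw [sub_smul, sub_smul]
        have : s • ρ b e - s' • ρ b e + (t • ρ b (ρ b e) - t' • ρ b (ρ b e)) =
          (s • ρ b e + t • ρ b (ρ b e)) - (s' • ρ b e + t' • ρ b (ρ b e)) := by abel
        rw [this, h1, sub_self]
      have h3 := congrArg (ρ (b * q * b⁻¹)) h2
      rw [map_add, map_smul, map_smul, w2, w4, map_zero] at h3
      have h4 : (s - s') • (ρ b e + ρ b e) = 0 := by
        have : (s - s') • (ρ b e + ρ b e) = ((s - s') • ρ b e + (t - t') • ρ b (ρ b e)) +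
          ((s - s') • ρ b e + (t - t') • -ρ b (ρ b e)) := by
          simp only [smul_add, smul_neg]; abel
        rw [this, h2, h3, add_zero]
      have h5 : s - s' = 0 := (smul_eq_zero.1 h4).resolve_right (hne _ hbe0)
      rw [h5, zero_smul, zero_add] at h2
      have h6 : t - t' = 0 := (smul_eq_zero.1 h2).resolve_right hbbe0
      rw [sub_eq_zero.1 h5, sub_eq_zero.1 h6]
    · rintro ⟨v, hv⟩
      have hx : ∃ k : ZMod 3, v + ρ (b * q * b⁻¹) v = k • ρ b e := by
        set x := v + ρ (b * q * b⁻¹) v with hx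
        have x1 : ρ q x = -x := by rw [hx, map_add, hqpv, hv, map_neg]; abel
        have x2 : ρ (b * q * b⁻¹) x = x := by rw [hx, map_add, hppv]; abel
        have y1 : ρ q (ρ b x) = -ρ b x := by rw [c.q_b, c.q3_eq, x2, x1, map_neg]
        have y2 : ρ (b * q * b⁻¹) (ρ b x) = -ρ b x := by rw [c.p_b, x1, map_neg]
        obtain ⟨k, hk⟩ := hline (ρ b (ρ b x)) (by
          rw [c.q_b, c.q3_eq, y2, map_neg, y1, neg_neg]) (by
          rw [c.p_b, y1, map_neg])
        refine ⟨k, ?_⟩
        have := congrArg (ρ b) hk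
        rw [c.bbv, map_smul] at this
        exact this
      have hy : ∃ k : ZMod 3, v - ρ (b * q * b⁻¹) v = k • ρ b (ρ b e) := by
        set x := v - ρ (b * q * b⁻¹) v with hx
        have x1 : ρ q x = -x := by rw [hx, map_sub, hqpv, hv, map_neg]; abel
        have x2 : ρ (b * q * b⁻¹) x = -x := by rw [hx, map_sub, hppv]; abel
        obtain ⟨k, hk⟩ := hline (ρ b x) (by
          rw [c.q_b, c.q3_eq, x2, map_neg, x1, neg_neg]) (by
          rw [c.p_b, x1, map_neg])
        refine ⟨k, ?_⟩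
        have := congrArg (fun u => ρ b (ρ b u)) hk
        simp only [c.bbv, map_smul] at this
        exact this
      obtain ⟨s, hs⟩ := hx
      obtain ⟨t, ht⟩ := hy
      refine ⟨(-s, -t), ?_⟩
      apply Subtype.ext
      change (-s) • ρ b e + (-t) • ρ b (ρ b e) = v
      rw [neg_smul, neg_smul, ← hs, ← ht]
      have h3 := three_smul' v
      have : -(v + ρ (b * q * b⁻¹) v) + -(v - ρ (b * q * b⁻¹) v) = v - (v + v + v) := by abel
      rw [this, h3, sub_zero]
  rw [← Nat.card_congr (Equiv.ofBijective _ hbij), Nat.card_prod, Nat.card_zmod]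

theorem eq_one_of_comm_q [Finite V] {r : ℕ} (hr : r.Prime) (hr2 : r ≠ 2) {A : Subgroup G}
    (hfpf : ∀ a ∈ A, a ≠ 1 → ∀ v, ρ a v = v → v = 0) {a : G} (ha : a ∈ A) (har : a ^ r = 1)
    (hcom : a * q = q * a) : a = 1 := by
  by_contra ha1
  haveI := Fact.mk hr
  classical
  let X := {v : V // ρ q v = -v}
  haveI : Fintype X := Fintype.ofFinite X
  let f : Function.End X := fun x => ⟨ρ a x.1, by
    rw [← rmul, ← hcom, rmul, x.2, map_neg]⟩
  have hfp : ∀ n : ℕ, ∀ x : X, ((f ^ n) x).1 = ρ (a ^ n) x.1 := by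
    intro n
    induction n with
    | zero => intro x; rw [pow_zero, pow_zero, rone]; rfl
    | succ n ih =>
      intro x
      rw [pow_succ', pow_succ', rmul, ← ih]
      rfl
  have h1 : f ^ r ^ 1 = 1 := by
    funext x
    apply Subtype.ext
    rw [hfp, pow_one, har, rone]
    rfl
  have h2 := Equiv.Perm.card_fixedPoints_modEq h1
  have h3 : Fintype.card X = 9 := by
    rw [← Nat.card_eq_fintype_card]; exact c.card_neg
  have h4 : Fintype.card (Function.fixedPoints f) = 1 := by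
    rw [Fintype.card_eq_one_iff]
    refine ⟨⟨⟨0, by rw [map_zero, neg_zero]⟩, Subtype.ext (map_zero _)⟩, ?_⟩
    rintro ⟨⟨x, hx⟩, hx2⟩
    have h5 : ρ a x = x := congrArg Subtype.val hx2
    apply Subtype.ext
    apply Subtype.ext
    exact hfpf a ha ha1 x h5
  rw [h3, h4] at h2
  have h5 := (Nat.modEq_iff_dvd' (by norm_num : 1 ≤ 9)).1 h2.symm
  have h6 : r ∣ 2 ^ 3 := by simpa using h5
  have h7 := hr.dvd_of_dvd_pow h6
  exact hr2 ((Nat.prime_dvd_prime_iff_eq hr Nat.prime_two).1 h7)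

theorem odd_abelian [Finite V] [Finite G] {A : Subgroup G} (hA : A.Normal) (hcomm : ∀ x ∈ A, ∀ y ∈ A, x * y = y * x)
    {r : ℕ} (hr : r.Prime) (hr2 : r ≠ 2) (hexp : ∀ a ∈ A, a ^ r = 1) : A = ⊥ := by
  by_contra hA0
  rcases c.dichotomy hA hcomm with ⟨A', hA', hb⟩ | hfpf
  · have h1 : A ≤ A' := by
      intro a ha
      have h2 := c.sq_mem hA hcomm hA' hb ha
      have h3 : (a * a) ^ ((r + 1) / 2) = a := by
        rw [← pow_two, ← pow_mul]
        have : 2 * ((r + 1) / 2) = r + 1 := by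
          have := hr.eq_two_or_odd
          omega
        rw [this, pow_succ, hexp a ha, one_mul]
      rw [← h3]
      exact pow_mem h2 _
    have h2 : A' = A := le_antisymm hA'.1 h1
    rw [h2] at hA'
    exact hA'.2.1 (c.fx_normal hA hA0)
  · have k1 : ∀ a ∈ A, a * q = q * a → a = 1 := fun a ha h =>
      c.eq_one_of_comm_q hr hr2 hfpf ha (hexp a ha) h
    have k2 : ∀ a ∈ A, a * (b * q * b⁻¹) = (b * q * b⁻¹) * a → a = 1 := by
      intro a ha h
      have h1 := k1 (b⁻¹ * a * b⁻¹⁻¹) (hA.conj_mem a ha b⁻¹) (by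
        have := congrArg (fun x => b⁻¹ * x * b) h
        calc b⁻¹ * a * b⁻¹⁻¹ * q = b⁻¹ * (a * (b * q * b⁻¹)) * b := by group
          _ = b⁻¹ * ((b * q * b⁻¹) * a) * b := this
          _ = q * (b⁻¹ * a * b⁻¹⁻¹) := by group)
      have h2 : a = b * (b⁻¹ * a * b⁻¹⁻¹) * b⁻¹ := by group
      rw [h2, h1]; group
    have k3 : ∀ a ∈ A, a * (b * b * q * b⁻¹ * b⁻¹) = (b * b * q * b⁻¹ * b⁻¹) * a → a = 1 := by
      intro a ha h
      have h1 := k2 (b⁻¹ * a * b⁻¹⁻¹) (hA.conj_mem a ha b⁻¹) (by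
        have := congrArg (fun x => b⁻¹ * x * b) h
        calc b⁻¹ * a * b⁻¹⁻¹ * (b * q * b⁻¹) = b⁻¹ * (a * (b * b * q * b⁻¹ * b⁻¹)) * b := by group
          _ = b⁻¹ * ((b * b * q * b⁻¹ * b⁻¹) * a) * b := this
          _ = (b * q * b⁻¹) * (b⁻¹ * a * b⁻¹⁻¹) := by group)
      have h2 : a = b * (b⁻¹ * a * b⁻¹⁻¹) * b⁻¹ := by group
      rw [h2, h1]; group
    -- each involution inverts `A`
    have inv1 : ∀ t : G, t * t = 1 → (∀ a ∈ A, a * t = t * a → a = 1) → ∀ a ∈ A, t * a * t = a⁻¹ := by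
      intro t ht ht1 a ha
      have hti : t⁻¹ = t := inv_eq_of_mul_eq_one_left ht
      have h1 : t * a * t ∈ A := by
        have := hA.conj_mem a ha t
        rwa [hti] at this
      have h2 := ht1 (a * (t * a * t)) (mul_mem ha h1) (by
        calc a * (t * a * t) * t = a * t * a * (t * t) := by group
          _ = a * t * a := by rw [ht, mul_one]
          _ = (t * t) * a * t * a := by rw [ht, one_mul]
          _ = t * ((t * a * t) * a) := by group
          _ = t * (a * (t * a * t)) := by rw [hcomm _ h1 a ha])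
      exact eq_inv_of_mul_eq_one_right h2
    apply hA0
    rw [eq_bot_iff]
    intro a ha
    rw [mem_bot]
    apply k3 a ha
    rw [← c.qb]
    have h1 := inv1 q c.qq k1
    have h2 := inv1 (b * q * b⁻¹) c.q2b k2 a ha
    have h3 := h1 (a⁻¹) (inv_mem ha)
    rw [inv_inv] at h3
    -- q * (p a p) * q = a
    have h4 : q * ((b * q * b⁻¹) * a * (b * q * b⁻¹)) * q = a := by rw [h2, h3]
    have hqp := c.qcomm
    set p := b * q * b⁻¹ with hp
    have hpp : p * p = 1 := c.q2b
    calc a * (q * p) = (q * (p * a * p) * q) * (q * p) := by rw [h4]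
      _ = q * p * a * p * (q * q) * p := by group
      _ = q * p * a * (p * p) := by rw [c.qq, mul_one, mul_assoc (q * p * a)]
      _ = q * p * a := by rw [hpp, mul_one]

end Ctx

end Cfsg.Agent.Lib.H39T
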