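import Cfsg.Agent.Lib.H39T5
import Cfsg.Agent.Lib.Fitting
import Cfsg.Agent.Lib.Cores
import Cfsg.Agent.Lib.Cores3

/-!
Groups `R⟨b⟩` acting on an `F₃`-space with `b` of order three of rank two (for S4415): the 2-core.
-/

set_option autoImplicit false

namespace Cfsg.Agent.Lib.H39T

open Subgroup

universe u

variable {G : Type u} [Group G] {V : Type*} [AddCommGroup V] [Module (ZMod 3) V]

/-- `Ω₁(Z(P))` -/
def om (p : ℕ) (P : Subgroup G) : Subgroup G where
  carrier := {x | x ∈ P ∧ x ^ p = 1 ∧ ∀ y ∈ P, x * y = y * x}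
  mul_mem' := by
    rintro x y ⟨h1, h2, h3⟩ ⟨k1, k2, k3⟩
    refine ⟨mul_mem h1 k1, ?_, fun w hw => ?_⟩
    · have : Commute x y := h3 y k1
      rw [this.mul_pow, h2, k2, one_mul]
    · rw [mul_assoc, k3 w hw, ← mul_assoc, h3 w hw, mul_assoc]
  one_mem' := ⟨one_mem P, one_pow p, fun y _ => by rw [one_mul, mul_one]⟩
  inv_mem' := by
    rintro x ⟨h1, h2, h3⟩
    refine ⟨inv_mem h1, by rw [inv_pow, h2, inv_one], fun w hw => ?_⟩
    have : Commute x w := h3 w hw
    exact this.inv_left

theorem mem_om {p : ℕ} {P : Subgroup G} {x : G} : x ∈ om p P ↔ x ∈ P ∧ x ^ p = 1 ∧ ∀ y ∈ P, x * y = y * x := Iff.rfl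

theorem om_normal {p : ℕ} {P : Subgroup G} (hP : P.Normal) : (om p P).Normal := by
  constructor
  rintro x ⟨h1, h2, h3⟩ g
  refine ⟨hP.conj_mem x h1 g, ?_, fun y hy => ?_⟩
  · rw [conj_pow, h2, mul_one, mul_inv_cancel]
  · have h4 := h3 (g⁻¹ * y * g⁻¹⁻¹) (hP.conj_mem y hy g⁻¹)
    calc g * x * g⁻¹ * y = g * (x * (g⁻¹ * y * g⁻¹⁻¹)) * g⁻¹ := by group
      _ = g * ((g⁻¹ * y * g⁻¹⁻¹) * x) * g⁻¹ := by rw [h4]
      _ = y * (g * x * g⁻¹) := by group

theorem om_ne_bot [Finite G] {p : ℕ} [hp : Fact p.Prime] {P : Subgroup G} (hP : IsPGroup p P) (h0 : P ≠ ⊥) :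
    om p P ≠ ⊥ := by
  haveI : Nontrivial P := (nontrivial_iff_ne_bot P).2 h0
  haveI : Nontrivial (center P) := hP.center_nontrivial
  have h1 : IsPGroup p (center P) := hP.to_subgroup _
  have h2 : p ∣ Nat.card (center P) := by
    obtain ⟨n, hn, hc⟩ := h1.nontrivial_iff_card.1 inferInstance
    rw [hc]
    exact dvd_pow_self p (by omega)
  obtain ⟨x, hx⟩ := exists_prime_orderOf_dvd_card' p h2
  intro h3
  have h4 : ((x : P) : G) ∈ om p P := by
    refine ⟨(x : P).2, ?_, fun y hy => ?_⟩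
    · have : x ^ p = 1 := by rw [← hx]; exact pow_orderOf_eq_one x
      have h5 := congrArg (fun z : center P => ((z : P) : G)) this
      simpa using h5
    · have h5 := (mem_center_iff.1 x.2) ⟨y, hy⟩
      exact (congrArg Subtype.val h5).symm
  rw [h3, mem_bot] at h4
  have h5 : x = 1 := Subtype.ext (Subtype.ext h4)
  rw [h5, orderOf_one] at hx
  exact hp.out.one_lt.ne hx

namespace Ctx

variable {ρ : Representation (ZMod 3) G V} {R : Subgroup G} {b q : G} (c : Ctx ρ R b q)

include c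

theorem pCore_odd [Finite G] [Finite V] {p : ℕ} [hp : Fact p.Prime] (h2 : p ≠ 2) : Cfsg.pCore p G = ⊥ := by
  by_contra h0
  have hP : (Cfsg.pCore p G).Normal := Fitting.normal_pCore p
  have h1 := om_ne_bot (Cores.isPGroup_pCore p G) h0
  apply h1
  exact c.odd_abelian (om_normal hP) (fun x hx y hy => hx.2.2 y hy.1) hp.out h2 (fun a ha => ha.2.1)

theorem cent_T [Finite G] [Finite V] : centralizer (Cfsg.pCore 2 G : Set G) ≤ Cfsg.pCore 2 G := by
  haveI := c.sol
  have h1 : Cfsg.fittingSubgroup G = Cfsg.pCore 2 G := by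
    rw [Cores.fittingSubgroup_eq_iSup]
    apply le_antisymm
    · apply iSup_le
      intro p
      haveI := Fact.mk p.2
      by_cases hp : (p : ℕ) = 2
      · rw [hp]
      · rw [c.pCore_odd hp]
        exact bot_le
    · exact le_iSup (fun p : Nat.Primes => Cfsg.pCore (p : ℕ) G) ⟨2, Nat.prime_two⟩
  have h2 := Fitting.centralizer_fittingSubgroup_le (G := G)
  rw [h1] at h2
  exact h2

end Ctx

/-- hypothesis of the second case -/
structure CB (ρ : Representation (ZMod 3) G V) (R : Subgroup G) (b q : G) : Prop extends Ctx ρ R b q where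
  hB : ∀ A : Subgroup G, A.Normal → (∀ x ∈ A, ∀ y ∈ A, x * y = y * x) → (∀ a ∈ A, a * a = 1) →
    ∀ a ∈ A, a = 1 ∨ ∀ v, ρ a v = -v

namespace CB

variable {ρ : Representation (ZMod 3) G V} {R : Subgroup G} {b q : G} (c : CB ρ R b q)

include c

theorem central_of_b {A : Subgroup G} (hA : A.Normal) (h : ∀ a ∈ A, b * a = a * b) : ∀ a ∈ A, ∀ g : G, g * a = a * g := by
  have h1 : centralizer (A : Set G) = ⊤ := by
    apply c.gen _ (by infer_instance)
    rw [mem_centralizer_iff]
    intro a ha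
    exact (h a ha).symm
  intro a ha g
  have h2 : g ∈ centralizer (A : Set G) := by rw [h1]; exact mem_top g
  exact ((mem_centralizer_iff.1 h2) a ha).symm

theorem neg_comm {z : G} (hz : ∀ v, ρ z v = -v) (g : G) : g * z = z * g := by
  apply c.inj
  ext v
  rw [rmul, rmul, hz, hz, map_neg]

theorem neg_unique {z w : G} (hz : ∀ v, ρ z v = -v) (hw : ∀ v, ρ w v = -v) : z = w := by
  apply c.inj
  ext v
  rw [hz, hw]

theorem neg_sq {z : G} (hz : ∀ v, ρ z v = -v) : z * z = 1 := by
  apply c.inj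
  ext v
  rw [rmul, hz, hz, neg_neg, rone]

/-- abelian normal 2-subgroups are small -/
theorem ab [Finite G] {A : Subgroup G} (hA : A.Normal) (hcomm : ∀ x ∈ A, ∀ y ∈ A, x * y = y * x)
    (h2 : IsPGroup 2 A) : ∀ a ∈ A, a = 1 ∨ ∀ v, ρ a v = -v := by
  have h1 : ∀ a ∈ A, a * a = 1 → a = 1 ∨ ∀ v, ρ a v = -v := by
    intro a ha haa
    let O : Subgroup G :=
      { carrier := {x | x ∈ A ∧ x * x = 1}
        mul_mem' := by
          rintro x y ⟨hx, hx2⟩ ⟨hy, hy2⟩
          refine ⟨mul_mem hx hy, ?_⟩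
          calc x * y * (x * y) = x * (y * x) * y := by group
            _ = x * (x * y) * y := by rw [hcomm y hy x hx]
            _ = (x * x) * (y * y) := by group
            _ = 1 := by rw [hx2, hy2, one_mul]
        one_mem' := ⟨one_mem A, one_mul 1⟩
        inv_mem' := by
          rintro x ⟨hx, hx2⟩
          refine ⟨inv_mem hx, ?_⟩
          rw [← mul_inv_rev, hx2, inv_one] }
    have hO : O.Normal := by
      constructor
      rintro x ⟨hx, hx2⟩ g
      refine ⟨hA.conj_mem x hx g, ?_⟩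
      calc g * x * g⁻¹ * (g * x * g⁻¹) = g * (x * x) * g⁻¹ := by group
        _ = 1 := by rw [hx2, mul_one, mul_inv_cancel]
    exact c.hB O hO (fun x hx y hy => hcomm x hx.1 y hy.1) (fun x hx => hx.2) a ⟨ha, haa⟩
  -- no elements of order four
  have h4 : ∀ a ∈ A, (a * a) * (a * a) = 1 → a * a = 1 := by
    let O : Subgroup G :=
      { carrier := {x | x ∈ A ∧ (x * x) * (x * x) = 1}
        mul_mem' := by
          rintro x y ⟨hx, hx2⟩ ⟨hy, hy2⟩
          refine ⟨mul_mem hx hy, ?_⟩
          have hxy : x * y * (x * y) = (x * x) * (y * y) := by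
            calc x * y * (x * y) = x * (y * x) * y := by group
              _ = x * (x * y) * y := by rw [hcomm y hy x hx]
              _ = (x * x) * (y * y) := by group
          rw [hxy]
          calc x * x * (y * y) * (x * x * (y * y)) = x * x * ((y * y) * (x * x)) * (y * y) := by group
            _ = x * x * ((x * x) * (y * y)) * (y * y) := by
              rw [hcomm (y * y) (mul_mem hy hy) (x * x) (mul_mem hx hx)]
            _ = ((x * x) * (x * x)) * ((y * y) * (y * y)) := by group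
            _ = 1 := by rw [hx2, hy2, one_mul]
        one_mem' := ⟨one_mem A, by simp⟩
        inv_mem' := by
          rintro x ⟨hx, hx2⟩
          refine ⟨inv_mem hx, ?_⟩
          rw [← mul_inv_rev, ← mul_inv_rev, hx2, inv_one] }
    have hO : O.Normal := by
      constructor
      rintro x ⟨hx, hx2⟩ g
      refine ⟨hA.conj_mem x hx g, ?_⟩
      calc g * x * g⁻¹ * (g * x * g⁻¹) * (g * x * g⁻¹ * (g * x * g⁻¹)) = g * ((x * x) * (x * x)) * g⁻¹ := by group
        _ = 1 := by rw [hx2, mul_one, mul_inv_cancel]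
    have hb : ∀ x ∈ O, b * x = x * b := by
      rintro x ⟨hx, hx2⟩
      have hx' : b * x * b⁻¹ ∈ A := hA.conj_mem x hx b
      -- squares agree
      have hsq : (b * x * b⁻¹) * (b * x * b⁻¹) = x * x := by
        have e1 : (b * x * b⁻¹) * (b * x * b⁻¹) = b * (x * x) * b⁻¹ := by group
        rcases h1 (x * x) (mul_mem hx hx) hx2 with h | h
        · rw [e1, h, mul_one, mul_inv_cancel]
        · rw [e1, c.neg_comm h b, mul_inv_cancel_right]
      have hd : (b * x * b⁻¹ * x⁻¹) * (b * x * b⁻¹ * x⁻¹) = 1 := by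
        have h5 := hcomm x⁻¹ (inv_mem hx) _ hx'
        calc (b * x * b⁻¹ * x⁻¹) * (b * x * b⁻¹ * x⁻¹) = (b * x * b⁻¹) * (x⁻¹ * (b * x * b⁻¹)) * x⁻¹ := by group
          _ = (b * x * b⁻¹) * ((b * x * b⁻¹) * x⁻¹) * x⁻¹ := by rw [h5]
          _ = ((b * x * b⁻¹) * (b * x * b⁻¹)) * x⁻¹ * x⁻¹ := by group
          _ = 1 := by rw [hsq]; group
      rcases h1 _ (mul_mem hx' (inv_mem hx)) hd with h | h
      · have h5 : b * x * b⁻¹ = x := mul_inv_eq_one.1 h
        rw [mul_inv_eq_iff_eq_mul] at h5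
        exact h5
      · exfalso
        set z := b * x * b⁻¹ * x⁻¹ with hz
        have hzz := c.neg_sq h
        have hzc := c.neg_comm h
        have e1 : b * x * b⁻¹ = z * x := by rw [hz]; group
        have e2 : b * (b * x * b⁻¹) * b⁻¹ = x := by
          rw [e1]
          calc b * (z * x) * b⁻¹ = (b * z) * x * b⁻¹ := by group
            _ = z * (b * x * b⁻¹) := by rw [hzc b]; group
            _ = x := by rw [e1, ← mul_assoc, hzz, one_mul]
        have e3 : b * x * b⁻¹ = x := by
          have h6 : b * (b * (b * x * b⁻¹) * b⁻¹) * b⁻¹ = x := by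
            calc b * (b * (b * x * b⁻¹) * b⁻¹) * b⁻¹ = (b * b * b) * x * (b * b * b)⁻¹ := by group
              _ = x := by rw [c.b3]; group
          rw [e2] at h6
          exact h6
        have h7 : z = 1 := by rw [hz, e3, mul_inv_cancel]
        have h8 : ∀ v : V, v = 0 := by
          intro v
          apply eq_zero_of_neg
          rw [← h v, h7, rone]
        obtain ⟨e, he0, -⟩ := c.toCtx.exists_e
        exact he0 (h8 e)
    intro a ha haa
    have h5 := c.central_of_b hO hb a ⟨ha, haa⟩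
    rcases c.toCtx.center h5 with h | h
    · rw [h, one_mul]
    · exact c.neg_sq h
  have h5 : ∀ n : ℕ, ∀ a ∈ A, a ^ (2 ^ n) = 1 → a * a = 1 := by
    intro n
    induction n with
    | zero => intro a _ h; rw [pow_zero, pow_one] at h; rw [h, one_mul]
    | succ n ih =>
      intro a ha h
      apply h4 a ha
      apply ih (a * a) (mul_mem ha ha)
      rw [← pow_two, ← pow_mul, ← pow_succ']
      exact h
  intro a ha
  apply h1 a ha
  obtain ⟨n, hn⟩ := h2 ⟨a, ha⟩
  exact h5 n a ha (by simpa using congrArg Subtype.val hn)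

end CB

end Cfsg.Agent.Lib.H39T
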