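import Cfsg.Agent.Lib.H39T6

/-!
Groups `R⟨b⟩` acting on an `F₃`-space with `b` of order three of rank two (for S4415): a commutator `[u,b]` with square `-1`.
-/

set_option autoImplicit false

namespace Cfsg.Agent.Lib.H39T

open Subgroup

universe u

variable {G : Type u} [Group G] {V : Type*} [AddCommGroup V] [Module (ZMod 3) V]

/-- elements central modulo `z` with square in `⟨z⟩` -/
def UU {H : Type*} [Group H] (π : G →* H) (T : Subgroup G) : Subgroup G where
  carrier := {u | u ∈ T ∧ π u * π u = 1 ∧ ∀ t ∈ T, π u * π t = π t * π u}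
  mul_mem' := by
    rintro x y ⟨h1, h2, h3⟩ ⟨k1, k2, k3⟩
    refine ⟨mul_mem h1 k1, ?_, fun t ht => ?_⟩
    · rw [map_mul]
      calc π x * π y * (π x * π y) = π x * (π y * π x) * π y := by group
        _ = π x * (π x * π y) * π y := by rw [h3 y k1]
        _ = (π x * π x) * (π y * π y) := by group
        _ = 1 := by rw [h2, k2, one_mul]
    · rw [map_mul, mul_assoc, k3 t ht, ← mul_assoc, h3 t ht, mul_assoc]
  one_mem' := ⟨one_mem T, by simp, fun t _ => by simp⟩
  inv_mem' := by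
    rintro x ⟨h1, h2, h3⟩
    refine ⟨inv_mem h1, ?_, fun t ht => ?_⟩
    · rw [map_inv, ← mul_inv_rev, h2, inv_one]
    · rw [map_inv]
      have : Commute (π x) (π t) := h3 t ht
      exact this.inv_left

theorem exists_mem_UU [Finite G] {H : Type*} [Group H] {π : G →* H} {T X : Subgroup G} (hT : IsPGroup 2 T) (hXT : X ≤ T)
    (hX : ∀ t ∈ T, ∀ x ∈ X, t * x * t⁻¹ ∈ X) (hne : ∃ x ∈ X, π x ≠ 1) : ∃ y ∈ X, π y ≠ 1 ∧ y ∈ UU π T := by
  have hTb : IsPGroup 2 (T.map π) := hT.map π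
  haveI : Finite (T.map π) := by
    apply Set.Finite.to_subtype
    exact (Set.toFinite (T : Set G)).image π
  haveI : Fact (Nat.Prime 2) := ⟨Nat.prime_two⟩
  haveI := hTb.isNilpotent
  have hXb : ((X.map π).subgroupOf (T.map π)).Normal := by
    constructor
    rintro ⟨_, x, hxT, rfl⟩ hx ⟨_, t, ht, rfl⟩
    rw [mem_subgroupOf] at hx ⊢
    obtain ⟨x', hx', hxx⟩ := hx
    refine ⟨t * x' * t⁻¹, hX t ht x' hx', ?_⟩
    rw [map_mul, map_mul, map_inv, hxx]
    rfl
  have hXb0 : (X.map π).subgroupOf (T.map π) ≠ ⊥ := by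
    obtain ⟨x, hx, hx1⟩ := hne
    intro h
    have : (⟨π x, ⟨x, hXT hx, rfl⟩⟩ : T.map π) ∈ (X.map π).subgroupOf (T.map π) := by
      rw [mem_subgroupOf]; exact ⟨x, hx, rfl⟩
    rw [h, mem_bot] at this
    exact hx1 (congrArg Subtype.val this)
  obtain ⟨x, hx, hxc, hx1⟩ := Cores.exists_mem_center_of_normal hXb hXb0
  -- an element of order two in `zpowers x`
  have hord : ∃ n, orderOf x = 2 ^ (n + 1) := by
    obtain ⟨n, hn⟩ := IsPGroup.iff_orderOf.1 hTb x
    rcases n with _ | n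
    · rw [pow_zero] at hn
      exact absurd (orderOf_eq_one_iff.1 hn) hx1
    · exact ⟨n, hn⟩
  obtain ⟨n, hn⟩ := hord
  set y := x ^ (2 ^ n) with hy
  have hy1 : y ≠ 1 := by
    intro h
    have := orderOf_dvd_of_pow_eq_one h
    rw [hn, pow_succ] at this
    have h3 := Nat.le_of_dvd (by positivity) this
    have h4 : 0 < 2 ^ n := by positivity
    omega
  have hyy : y * y = 1 := by
    rw [hy, ← pow_add, ← two_mul, ← pow_succ', ← hn, pow_orderOf_eq_one]
  have hyX : y ∈ (X.map π).subgroupOf (T.map π) := pow_mem hx _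
  have hyc : y ∈ center (T.map π) := pow_mem hxc _
  rw [mem_subgroupOf] at hyX
  obtain ⟨w, hw, hwy⟩ := hyX
  refine ⟨w, hw, ?_, hXT hw, ?_, ?_⟩
  · rw [hwy]
    intro h
    exact hy1 (Subtype.ext h)
  · rw [hwy]
    exact congrArg Subtype.val hyy
  · intro t ht
    rw [hwy]
    have := (mem_center_iff.1 hyc) ⟨π t, ⟨t, ht, rfl⟩⟩
    exact (congrArg Subtype.val this).symm

/-- the setting with the central involution -/
structure CZ (ρ : Representation (ZMod 3) G V) (R : Subgroup G) (b q : G) {H : Type*} [Group H] (π : G →* H)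
    (z : G) : Prop extends CB ρ R b q where
  zT : z ∈ Cfsg.pCore 2 G
  hz : ∀ v, ρ z v = -v
  hπ : ∀ x, π x = 1 ↔ x = 1 ∨ x = z

namespace CZ

variable {ρ : Representation (ZMod 3) G V} {R : Subgroup G} {b q : G} {H : Type*} [Group H] {π : G →* H} {z : G}
  (c : CZ ρ R b q π z)

include c

theorem zz : z * z = 1 := c.toCB.neg_sq c.hz
theorem zc (g : G) : g * z = z * g := c.toCB.neg_comm c.hz g

theorem z1 : z ≠ 1 := by
  rintro h
  obtain ⟨e, he0, -⟩ := c.toCtx.exists_e
  apply he0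
  apply eq_zero_of_neg
  rw [← c.hz e, h, rone]

theorem pieq {x y : G} (h : π x = π y) : y = x ∨ y = x * z := by
  have h1 : π (x⁻¹ * y) = 1 := by rw [map_mul, map_inv, h, inv_mul_cancel]
  rcases (c.hπ _).1 h1 with h2 | h2
  · left; exact (inv_mul_eq_one.1 h2).symm
  · right; rw [← h2]; group

theorem piz : π z = 1 := (c.hπ z).2 (Or.inr rfl)

theorem normal_UU [Finite G] : (UU π (Cfsg.pCore 2 G)).Normal := by
  have hTn : (Cfsg.pCore 2 G).Normal := Fitting.normal_pCore 2
  constructor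
  rintro u ⟨h1, h2, h3⟩ g
  refine ⟨hTn.conj_mem u h1 g, ?_, fun t ht => ?_⟩
  · rw [map_mul, map_mul, map_inv]
    calc π g * π u * (π g)⁻¹ * (π g * π u * (π g)⁻¹) = π g * (π u * π u) * (π g)⁻¹ := by group
      _ = 1 := by rw [h2]; group
  · have h4 := h3 (g⁻¹ * t * g⁻¹⁻¹) (hTn.conj_mem t ht g⁻¹)
    simp only [map_mul, map_inv] at h4 ⊢
    calc π g * π u * (π g)⁻¹ * π t = π g * (π u * ((π g)⁻¹ * π t * (π g)⁻¹⁻¹)) * (π g)⁻¹ := by group
      _ = π g * (((π g)⁻¹ * π t * (π g)⁻¹⁻¹) * π u) * (π g)⁻¹ := by rw [h4]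
      _ = π t * (π g * π u * (π g)⁻¹) := by group

/-- an element of `G` with `b x b⁻¹ ∈ {x, x z}` is centralized by `b` -/
theorem fix_b {x : G} (h : b * x * b⁻¹ = x ∨ b * x * b⁻¹ = x * z) : b * x = x * b := by
  rcases h with h | h
  · rw [mul_inv_eq_iff_eq_mul] at h; exact h
  · exfalso
    have e2 : b * (b * x * b⁻¹) * b⁻¹ = x := by
      rw [h]
      calc b * (x * z) * b⁻¹ = (b * x) * (z * b⁻¹) := by group
        _ = (b * x) * (b⁻¹ * z) := by rw [c.zc b⁻¹]
        _ = (b * x * b⁻¹) * z := by group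
        _ = x := by rw [h, mul_assoc, c.zz, mul_one]
    have h6 : b * (b * (b * x * b⁻¹) * b⁻¹) * b⁻¹ = x := by
      calc b * (b * (b * x * b⁻¹) * b⁻¹) * b⁻¹ = (b * b * b) * x * (b * b * b)⁻¹ := by group
        _ = x := by rw [c.b3]; group
    rw [e2, h] at h6
    exact c.z1 (mul_eq_left.1 h6)

/-- commutation up to `z` -/
theorem comm_or {x y : G} (h : π x * π y = π y * π x) : x * y = y * x ∨ x * y = y * x * z := by
  rw [← map_mul, ← map_mul] at h
  rcases c.pieq h with h1 | h1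
  · left; exact h1.symm
  · right
    rw [h1, mul_assoc, c.zz, mul_one]

theorem q_ne : q ≠ z := by
  intro h
  have h1 := c.qb
  have h2 : b * q * b⁻¹ = q := by rw [h, c.zc b]; group
  have h3 : b * b * q * b⁻¹ * b⁻¹ = q := by
    calc b * b * q * b⁻¹ * b⁻¹ = b * (b * q * b⁻¹) * b⁻¹ := by group
      _ = q := by rw [h2, h2]
  rw [h2, h3, c.qq] at h1
  exact c.q1 h1.symm

/-- existence of `u` with `[u,b]^2 = z` -/
theorem exists_s [Finite G] [Finite V] : ∃ u ∈ UU π (Cfsg.pCore 2 G),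
    (u * (b * u⁻¹ * b⁻¹)) * (u * (b * u⁻¹ * b⁻¹)) = z := by
  set T := Cfsg.pCore 2 G with hT
  have hTn : T.Normal := Fitting.normal_pCore 2
  have hTp : IsPGroup 2 T := Cores.isPGroup_pCore 2 G
  by_contra hno
  push Not at hno
  have hUn := c.normal_UU
  -- `T` is not inside `⟨z⟩`
  have hTz : ∃ x ∈ T, π x ≠ 1 := by
    by_contra h
    push Not at h
    have h1 : centralizer (T : Set G) = ⊤ := by
      rw [eq_top_iff]
      intro g _
      rw [mem_centralizer_iff]
      intro t ht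
      rcases (c.hπ t).1 (h t ht) with h2 | h2
      · rw [h2, one_mul, mul_one]
      · rw [h2, c.zc g]
    have h2 := c.toCtx.cent_T
    rw [← hT, h1] at h2
    have h3 := h q (h2 (mem_top q))
    rcases (c.hπ q).1 h3 with h4 | h4
    · exact c.q1 h4
    · exact c.q_ne h4
  obtain ⟨u0, hu0T, hu0, hu0U⟩ := exists_mem_UU hTp le_rfl (fun t _ x hx => mul_mem (mul_mem (by assumption) hx) (inv_mem (by assumption))) hTz
  set U := UU π T with hU
  have hUT : ∀ u ∈ U, u ∈ T := fun u hu => hu.1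
  have hUU : ∀ u ∈ U, ∀ v ∈ U, u * v = v * u ∨ u * v = v * u * z := fun u hu v hv =>
    c.comm_or (hu.2.2 v hv.1)
  let y : G → G := fun u => u * (b * u⁻¹ * b⁻¹)
  have hyU : ∀ u ∈ U, y u ∈ U := fun u hu => mul_mem hu (hUn.conj_mem _ (inv_mem hu) b)
  have hysq : ∀ u ∈ U, y u * y u = 1 := by
    intro u hu
    have h1 := (hyU u hu).2.1
    rw [← map_mul] at h1
    rcases (c.hπ _).1 h1 with h2 | h2
    · exact h2
    · exact absurd h2 (hno u hu)
  -- the `y u` commute
  have hycomm : ∀ u ∈ U, ∀ v ∈ U, y u * y v = y v * y u := by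
    intro u hu v hv
    have h1 : y (u * v) = (u * y v * u⁻¹) * y u := by
      change (u * v) * (b * (u * v)⁻¹ * b⁻¹) = (u * (v * (b * v⁻¹ * b⁻¹)) * u⁻¹) * (u * (b * u⁻¹ * b⁻¹))
      group
    have h2 : u * y v * u⁻¹ = y v ∨ u * y v * u⁻¹ = y v * z := by
      rcases hUU u hu (y v) (hyU v hv) with h | h
      · left; rw [h]; group
      · right; rw [h]
        calc y v * u * z * u⁻¹ = y v * (u * z) * u⁻¹ := by group
          _ = y v * (z * u) * u⁻¹ := by rw [c.zc u]
          _ = y v * z := by group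
    have h3 : (y v * y u) * (y v * y u) = 1 := by
      have h4 := hysq (u * v) (mul_mem hu hv)
      rw [h1] at h4
      rcases h2 with h | h
      · rw [h] at h4; exact h4
      · rw [h] at h4
        have h5 : y v * z * y u = y v * y u * z := by rw [mul_assoc, ← c.zc (y u), ← mul_assoc]
        rw [h5] at h4
        have h6 : (y v * y u * z) * (y v * y u * z) = (y v * y u) * (y v * y u) * (z * z) := by
          rw [mul_assoc (y v * y u) z (y v * y u * z), ← mul_assoc z (y v * y u) z, ← c.zc (y v * y u)]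
          simp only [mul_assoc]
        rw [h6, c.zz, mul_one] at h4
        exact h4
    calc y u * y v = (y u * y v) * ((y v * y u) * (y v * y u)) := by rw [h3, mul_one]
      _ = y u * (y v * y v) * y u * (y v * y u) := by group
      _ = (y u * y u) * (y v * y u) := by rw [hysq v hv, mul_one]
      _ = y v * y u := by rw [hysq u hu, one_mul]
  have hbU : ∀ u ∈ U, b * u * b⁻¹ ∈ U := fun u hu => hUn.conj_mem u hu b
  have hby : ∀ u, b * y u * b⁻¹ = y (b * u * b⁻¹) := by
    intro u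
    change b * (u * (b * u⁻¹ * b⁻¹)) * b⁻¹ = (b * u * b⁻¹) * (b * (b * u * b⁻¹)⁻¹ * b⁻¹)
    group
  have hprod : ∀ u, y u * y (b * u * b⁻¹) * y (b * (b * u * b⁻¹) * b⁻¹) = 1 := by
    intro u
    change (u * (b * u⁻¹ * b⁻¹)) * ((b * u * b⁻¹) * (b * (b * u * b⁻¹)⁻¹ * b⁻¹)) *
      ((b * (b * u * b⁻¹) * b⁻¹) * (b * (b * (b * u * b⁻¹) * b⁻¹)⁻¹ * b⁻¹)) = 1
    calc _ = u * ((b * b * b) * u⁻¹ * (b * b * b)⁻¹) := by group
      _ = 1 := by rw [c.b3]; group
  -- commutation equivalences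
  have hq1 : ∀ u ∈ U, ∀ v ∈ U, (y u * v = v * y u ↔ y u * (b * v * b⁻¹) = (b * v * b⁻¹) * y u) := by
    intro u hu v hv
    have h1 : Commute (y u) (y v) := hycomm u hu v hv
    have h2 : b * v * b⁻¹ = (y v)⁻¹ * v := by
      change b * v * b⁻¹ = (v * (b * v⁻¹ * b⁻¹))⁻¹ * v
      group
    have h3 : v = y v * (b * v * b⁻¹) := by
      change v = (v * (b * v⁻¹ * b⁻¹)) * (b * v * b⁻¹)
      group
    constructor
    · intro h
      rw [h2]
      exact (h1.inv_right.mul_right h)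
    · intro h
      rw [h3]
      exact h1.mul_right h
  have hq2 : ∀ u ∈ U, ∀ v ∈ U, (y u * v = v * y u ↔ y (b * u * b⁻¹) * v = v * y (b * u * b⁻¹)) := by
    intro u hu v hv
    rw [hq1 (b * u * b⁻¹) (hbU u hu) v hv, ← hby]
    constructor
    · intro h
      calc b * y u * b⁻¹ * (b * v * b⁻¹) = b * (y u * v) * b⁻¹ := by group
        _ = b * (v * y u) * b⁻¹ := by rw [h]
        _ = b * v * b⁻¹ * (b * y u * b⁻¹) := by group
    · intro h
      have h1 : b * (y u * v) * b⁻¹ = b * (v * y u) * b⁻¹ := by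
        calc b * (y u * v) * b⁻¹ = b * y u * b⁻¹ * (b * v * b⁻¹) := by group
          _ = b * v * b⁻¹ * (b * y u * b⁻¹) := h
          _ = b * (v * y u) * b⁻¹ := by group
      exact mul_left_cancel (mul_right_cancel h1)
  have hall : ∀ u ∈ U, ∀ v ∈ U, y u * v = v * y u := by
    intro u hu v hv
    by_contra h
    have h' := fun k => h ((hq2 u hu v hv).2 k)
    have h'' := fun k => h' ((hq2 _ (hbU u hu) v hv).2 k)
    have a1 := (hUU _ (hyU u hu) v hv).resolve_left h
    have a2 := (hUU _ (hyU _ (hbU u hu)) v hv).resolve_left h'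
    have a3 := (hUU _ (hyU _ (hbU _ (hbU u hu))) v hv).resolve_left h''
    have hp := hprod u
    set y1 := y u
    set y2 := y (b * u * b⁻¹)
    set y3 := y (b * (b * u * b⁻¹) * b⁻¹)
    have h5 : (y1 * y2 * y3) * v = v * (y1 * y2 * y3) * z := by
      calc (y1 * y2 * y3) * v = y1 * y2 * (y3 * v) := by group
        _ = y1 * y2 * (v * y3 * z) := by rw [a3]
        _ = y1 * (y2 * v) * (y3 * z) := by group
        _ = y1 * (v * y2 * z) * (y3 * z) := by rw [a2]
        _ = (y1 * v) * y2 * (z * y3) * z := by group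
        _ = (v * y1 * z) * y2 * (y3 * z) * z := by rw [a1, c.zc y3]
        _ = v * y1 * (z * (y2 * y3)) * (z * z) := by group
        _ = v * y1 * ((y2 * y3) * z) := by rw [c.zz, mul_one, c.zc (y2 * y3)]
        _ = v * (y1 * y2 * y3) * z := by group
    rw [hp, one_mul, mul_one] at h5
    exact c.z1 (mul_eq_left.1 h5.symm)
  -- the centre of `U`
  let ZU : Subgroup G :=
    { carrier := {x | x ∈ U ∧ ∀ v ∈ U, x * v = v * x}
      mul_mem' := by
        rintro x y ⟨hx, hx2⟩ ⟨hy, hy2⟩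
        refine ⟨mul_mem hx hy, fun v hv => ?_⟩
        rw [mul_assoc, hy2 v hv, ← mul_assoc, hx2 v hv, mul_assoc]
      one_mem' := ⟨one_mem U, fun v _ => by rw [one_mul, mul_one]⟩
      inv_mem' := by
        rintro x ⟨hx, hx2⟩
        refine ⟨inv_mem hx, fun v hv => ?_⟩
        have : Commute x v := hx2 v hv
        exact this.inv_left }
  have hZU : ZU.Normal := by
    constructor
    rintro x ⟨hx, hx2⟩ g
    refine ⟨hUn.conj_mem x hx g, fun v hv => ?_⟩
    have h4 := hx2 (g⁻¹ * v * g⁻¹⁻¹) (hUn.conj_mem v hv g⁻¹)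
    calc g * x * g⁻¹ * v = g * (x * (g⁻¹ * v * g⁻¹⁻¹)) * g⁻¹ := by group
      _ = g * ((g⁻¹ * v * g⁻¹⁻¹) * x) * g⁻¹ := by rw [h4]
      _ = v * (g * x * g⁻¹) := by group
  have hZU2 : IsPGroup 2 ZU := hTp.to_le (fun x hx => hUT x hx.1)
  have hZUab := c.toCB.ab hZU (fun x hx v hv => hx.2 v hv.1) hZU2
  have hneg : ∀ x, (∀ v, ρ x v = -v) → x = z := fun x hx => c.toCB.neg_unique hx c.hz
  have hbc : ∀ u ∈ U, b * u = u * b := by
    intro u hu
    apply c.fix_b
    rcases hZUab (y u) ⟨hyU u hu, hall u hu⟩ with h | h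
    · left
      have h1 : b * u * b⁻¹ = (y u)⁻¹ * u := by
        change b * u * b⁻¹ = (u * (b * u⁻¹ * b⁻¹))⁻¹ * u
        group
      rw [h1, h, inv_one, one_mul]
    · right
      have h1 : b * u * b⁻¹ = (y u)⁻¹ * u := by
        change b * u * b⁻¹ = (u * (b * u⁻¹ * b⁻¹))⁻¹ * u
        group
      rw [h1, hneg _ h, inv_eq_of_mul_eq_one_left c.zz, c.zc u]
  have hcen := c.toCB.central_of_b hUn hbc
  rcases c.toCtx.center (hcen u0 hu0U) with h | h
  · rw [h, map_one] at hu0; exact hu0 rfl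
  · rw [hneg _ h, c.piz] at hu0; exact hu0 rfl

end CZ

end Cfsg.Agent.Lib.H39T
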