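import Cfsg.Agent.Lib.H39T7
import Cfsg.Agent.Lib.CoprimeAction

/-!
Groups `R⟨b⟩` acting on an `F₃`-space with `b` of order three of rank two (for S4415): dimension four.
-/

set_option autoImplicit false

namespace Cfsg.Agent.Lib.H39T

open Subgroup

universe u

variable {G : Type u} [Group G] {V : Type*} [AddCommGroup V] [Module (ZMod 3) V]

theorem conj_fix [Finite G] {p : ℕ} (hp : p.Prime) {T : Subgroup G} {x : G} (hx : x ^ p = 1)
    (hT : ∀ t ∈ T, x * t * x⁻¹ ∈ T) :
    Nat.card T ≡ Nat.card ↥(T ⊓ centralizer ({x} : Set G)) [MOD p] := by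
  classical
  haveI := Fact.mk hp
  haveI : Fintype T := Fintype.ofFinite T
  let f : Function.End T := fun t => ⟨x * t.1 * x⁻¹, hT t.1 t.2⟩
  have hfp : ∀ n : ℕ, ∀ t : T, ((f ^ n) t).1 = x ^ n * t.1 * (x ^ n)⁻¹ := by
    intro n
    induction n with
    | zero =>
      intro t
      rw [pow_zero, pow_zero, one_mul, inv_one, mul_one]
      rfl
    | succ n ih =>
      intro t
      have h1 : ((f ^ (n + 1)) t) = f ((f ^ n) t) := by rw [pow_succ']; rfl
      rw [h1]
      change x * ((f ^ n) t).1 * x⁻¹ = _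
      rw [ih, pow_succ']
      group
  have h1 : f ^ p ^ 1 = 1 := by
    funext t
    apply Subtype.ext
    rw [hfp, pow_one, hx, one_mul, inv_one, mul_one]
    rfl
  have h2 := Equiv.Perm.card_fixedPoints_modEq h1
  rw [← Nat.card_eq_fintype_card, ← Nat.card_eq_fintype_card] at h2
  have h3 : Nat.card (Function.fixedPoints f) = Nat.card ↥(T ⊓ centralizer ({x} : Set G)) := by
    apply Nat.card_congr
    refine ⟨fun t => ⟨t.1.1, t.1.2, ?_⟩, fun t => ⟨⟨t.1, t.2.1⟩, ?_⟩, fun _ => rfl, fun _ => rfl⟩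
    · have h4 : x * t.1.1 * x⁻¹ = t.1.1 := congrArg Subtype.val t.2
      rw [mul_inv_eq_iff_eq_mul] at h4
      change t.1.1 ∈ centralizer ({x} : Set G)
      rw [mem_centralizer_iff]
      rintro _ rfl
      exact h4
    · have h4 := (mem_centralizer_iff.1 t.2.2) x rfl
      change f _ = _
      apply Subtype.ext
      change x * t.1 * x⁻¹ = t.1
      rw [h4]; group
  rwa [h3] at h2

theorem triv9 [Finite V] {ρ : Representation (ZMod 3) G V} {W : Submodule (ZMod 3) V} (hW : Nat.card W ∣ 9)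
    {x : G} (hx5 : x ^ 5 = 1) (hinv : ∀ w ∈ W, ρ x w ∈ W) : ∀ w ∈ W, ρ x w = w := by
  classical
  haveI : Fact (Nat.Prime 5) := ⟨by norm_num⟩
  haveI : Fintype W := Fintype.ofFinite W
  let f : Function.End W := fun t => ⟨ρ x t.1, hinv t.1 t.2⟩
  have hfp : ∀ n : ℕ, ∀ t : W, ((f ^ n) t).1 = ρ (x ^ n) t.1 := by
    intro n
    induction n with
    | zero => intro t; rw [pow_zero, pow_zero, rone]; rfl
    | succ n ih =>
      intro t
      rw [pow_succ', pow_succ', rmul, ← ih]
      rfl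
  have h1 : f ^ 5 ^ 1 = 1 := by
    funext t
    apply Subtype.ext
    rw [hfp, pow_one, hx5, rone]
    rfl
  have h2 := Equiv.Perm.card_fixedPoints_modEq h1
  rw [← Nat.card_eq_fintype_card, ← Nat.card_eq_fintype_card] at h2
  let F : AddSubgroup W :=
    { carrier := Function.fixedPoints f
      add_mem' := by
        intro a b ha hb
        have ha' : ρ x a.1 = a.1 := congrArg Subtype.val ha
        have hb' : ρ x b.1 = b.1 := congrArg Subtype.val hb
        apply Subtype.ext
        change ρ x (a.1 + b.1) = a.1 + b.1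
        rw [map_add, ha', hb']
      zero_mem' := Subtype.ext (map_zero _)
      neg_mem' := by
        intro a ha
        have ha' : ρ x a.1 = a.1 := congrArg Subtype.val ha
        apply Subtype.ext
        change ρ x (-a.1) = -a.1
        rw [map_neg, ha'] }
  have h3 : Nat.card F ∣ Nat.card W := AddSubgroup.card_addSubgroup_dvd_card F
  have h4 : Nat.card F = Nat.card (Function.fixedPoints f) := rfl
  rw [← h4] at h2
  have h5 : Nat.card F = Nat.card W := by
    have h6 : Nat.card W = 1 ∨ Nat.card W = 3 ∨ Nat.card W = 9 := by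
      have h7 : Nat.card W ∈ Nat.divisors 9 := Nat.mem_divisors.2 ⟨hW, by norm_num⟩
      have h8 : Nat.divisors 9 = {1, 3, 9} := by decide
      rw [h8] at h7
      simpa using h7
    have h7 : Nat.card F = 1 ∨ Nat.card F = 3 ∨ Nat.card F = 9 := by
      have h7 : Nat.card F ∈ Nat.divisors 9 := Nat.mem_divisors.2 ⟨h3.trans hW, by norm_num⟩
      have h8 : Nat.divisors 9 = {1, 3, 9} := by decide
      rw [h8] at h7
      simpa using h7
    rcases h6 with h6 | h6 | h6 <;> rcases h7 with h7 | h7 | h7 <;> rw [h6, h7] at h2 <;>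
      first | (exfalso; revert h2; decide; done) | (rw [h6, h7])
  have h6 : F = ⊤ := AddSubgroup.eq_top_of_card_eq F h5
  intro w hw
  have h7 : (⟨w, hw⟩ : W) ∈ F := by rw [h6]; exact AddSubgroup.mem_top _
  exact congrArg Subtype.val h7

namespace Ctx

variable {ρ : Representation (ZMod 3) G V} {R : Subgroup G} {b q : G} (c : Ctx ρ R b q)

include c

theorem two_le_rk [Finite V] : 2 ≤ Module.finrank (ZMod 3) (LinearMap.range (ρ b - 1)) := by
  haveI : Module.Finite (ZMod 3) V := Module.Finite.of_finite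
  obtain ⟨e, he0, he1, he2, -, -, -⟩ := c.exists_data
  obtain ⟨w1, w2, w3, w4⟩ := c.weights he1 he2
  have hmem : ∀ u : V, ρ b u - u ∈ LinearMap.range (ρ b - 1) := fun u => ⟨u, rfl⟩
  have e2 : ρ b e ≠ e := by
    intro h
    rw [h, he1] at w1
    exact he0 (eq_zero_of_neg w1)
  have hind : ∀ s t : ZMod 3, s • (ρ b e - e) + t • (ρ b (ρ b e) - ρ b e) = 0 → s = 0 ∧ t = 0 := by
    intro s t h
    have h3 := congrArg (ρ q) h
    rw [map_add, map_smul, map_smul, map_sub, map_sub, w1, w3, he1, map_zero] at h3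
    have h4 : (s • (ρ b e - e) + t • (ρ b (ρ b e) - ρ b e)) +
      (s • (-ρ b e - e) + t • (-ρ b (ρ b e) - -ρ b e)) = s • (-(e + e)) := by
      simp only [smul_sub, smul_neg, smul_add]; abel
    rw [h, h3, add_zero] at h4
    have hee : -(e + e) ≠ 0 := by
      intro h5
      rw [neg_eq_zero] at h5
      exact he0 (eq_zero_of_neg (eq_neg_of_add_eq_zero_left h5))
    have hs : s = 0 := by
      rcases smul_eq_zero.1 h4.symm with h5 | h5
      · exact h5
      · exact absurd h5 hee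
    refine ⟨hs, ?_⟩
    rw [hs, zero_smul, zero_add] at h
    rcases smul_eq_zero.1 h with h5 | h5
    · exact h5
    · exfalso
      have h6 := sub_eq_zero.1 h5
      have h7 := congrArg (ρ b⁻¹) h6
      rw [rinv, rinv] at h7
      exact e2 h7
  have hli : LinearIndependent (ZMod 3) ![ρ b e - e, ρ b (ρ b e) - ρ b e] := by
    rw [LinearIndependent.pair_iff]
    exact hind
  have h1 := finrank_span_eq_card hli
  have h2 : Submodule.span (ZMod 3) (Set.range ![ρ b e - e, ρ b (ρ b e) - ρ b e]) ≤ LinearMap.range (ρ b - 1) := by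
    rw [Submodule.span_le]
    rintro _ ⟨i, rfl⟩
    fin_cases i
    · exact hmem e
    · exact hmem _
  have h3 := Submodule.finrank_mono h2
  rw [h1] at h3
  simpa using h3

theorem three_le [Finite V] : 3 ≤ Module.finrank (ZMod 3) V := by
  haveI : Module.Finite (ZMod 3) V := Module.Finite.of_finite
  obtain ⟨e, he0, he1, he2, -, -, -⟩ := c.exists_data
  let W : Submodule (ZMod 3) V := LinearMap.ker (ρ q + 1)
  have hW : ∀ v, v ∈ W ↔ ρ q v = -v := by
    intro v
    rw [LinearMap.mem_ker, LinearMap.add_apply, Module.End.one_apply, eq_neg_iff_add_eq_zero]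
  have h1 : Nat.card W = 9 := by
    rw [← c.card_neg]; exact Nat.card_congr (Equiv.subtypeEquivRight hW)
  have h2 : Module.finrank (ZMod 3) W = 2 := by
    have h3 := Module.natCard_eq_pow_finrank (K := ZMod 3) (V := W)
    rw [h1, Nat.card_zmod, show (9 : ℕ) = 3 ^ 2 by norm_num] at h3
    exact (Nat.pow_right_injective (by norm_num : 2 ≤ 3) h3).symm
  have h3 : W ≠ ⊤ := by
    intro h
    have h4 : e ∈ W := by rw [h]; exact Submodule.mem_top
    rw [hW, he1] at h4
    exact he0 (eq_zero_of_neg h4)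
  have := Submodule.finrank_lt h3
  omega

end Ctx

namespace CZ

variable {ρ : Representation (ZMod 3) G V} {R : Subgroup G} {b q : G} {H : Type*} [Group H] {π : G →* H} {z : G}
  (c : CZ ρ R b q π z)

include c

theorem four [Finite G] [Finite V] : Module.finrank (ZMod 3) V = 4 := by
  haveI : Module.Finite (ZMod 3) V := Module.Finite.of_finite
  obtain ⟨u, hu, hs⟩ := c.exists_s
  set s := u * (b * u⁻¹ * b⁻¹) with hsdef
  have hinj : LinearMap.ker (ρ s - 1) = ⊥ := by
    rw [eq_bot_iff]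
    intro v hv
    rw [LinearMap.mem_ker, LinearMap.sub_apply, sub_eq_zero] at hv
    have hv : ρ s v = v := hv
    have h1 : ρ (s * s) v = v := by rw [rmul, hv, hv]
    rw [hs, c.hz] at h1
    exact eq_zero_of_neg h1.symm
  have h1 := LinearMap.finrank_range_add_finrank_ker (ρ s - 1)
  rw [hinj, finrank_bot, add_zero] at h1
  have h2 : LinearMap.range (ρ s - 1) ≤ (LinearMap.range (ρ b - 1)).map (ρ u) ⊔ LinearMap.range (ρ b - 1) := by
    rintro _ ⟨v, rfl⟩
    have : (ρ s - 1) v = ρ u ((ρ b - 1) (ρ u⁻¹ (ρ b⁻¹ v))) + (ρ b - 1) (-(ρ b⁻¹ v)) := by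
      change ρ s v - v = ρ u (ρ b (ρ u⁻¹ (ρ b⁻¹ v)) - ρ u⁻¹ (ρ b⁻¹ v)) + (ρ b (-(ρ b⁻¹ v)) - -(ρ b⁻¹ v))
      rw [map_sub, rinv', map_neg, rinv', hsdef, rmul, rmul, rmul]
      abel
    rw [this]
    exact Submodule.add_mem_sup (Submodule.mem_map_of_mem ⟨_, rfl⟩) ⟨_, rfl⟩
  have h3 := Submodule.finrank_mono h2
  have h4 := Submodule.finrank_add_le_finrank_add_finrank ((LinearMap.range (ρ b - 1)).map (ρ u)) (LinearMap.range (ρ b - 1))
  have h5 := Submodule.finrank_map_le (ρ u) (LinearMap.range (ρ b - 1))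
  have h6 := c.toCtx.rk
  have h7 := c.toCtx.three_le
  have h8 : Module.finrank (ZMod 3) V ≤ 4 := by omega
  have h9 := c.toCtx.det_eq_one z
  have h10 : ρ z = (-1 : ZMod 3) • (1 : V →ₗ[ZMod 3] V) := by
    ext v
    rw [c.hz]; simp
  rw [h10, LinearMap.det_smul, map_one, mul_one] at h9
  rcases Nat.lt_or_ge (Module.finrank (ZMod 3) V) 4 with h | h
  · have h11 : Module.finrank (ZMod 3) V = 3 := by omega
    rw [h11] at h9
    exact absurd h9 (by decide)
  · omega

theorem card_dvd [Finite G] [Finite V] : Nat.card G ∣ 24261120 := by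
  haveI : Module.Finite (ZMod 3) V := Module.Finite.of_finite
  let bs : Module.Basis (Fin 4) (ZMod 3) V := Module.finBasisOfFinrankEq (ZMod 3) V c.four
  let m : (V →ₗ[ZMod 3] V) →* Matrix (Fin 4) (Fin 4) (ZMod 3) :=
    ((LinearMap.toMatrixAlgEquiv bs : (V →ₗ[ZMod 3] V) →ₐ[ZMod 3] Matrix (Fin 4) (Fin 4) (ZMod 3)) :
      (V →ₗ[ZMod 3] V) →* Matrix (Fin 4) (Fin 4) (ZMod 3))
  let f : G →* Matrix.GeneralLinearGroup (Fin 4) (ZMod 3) := MonoidHom.toHomUnits (m.comp ρ)
  have hf : Function.Injective f := by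
    intro g h hgh
    apply c.inj
    have h1 : m (ρ g) = m (ρ h) := congrArg Units.val hgh
    exact (LinearMap.toMatrixAlgEquiv bs).injective h1
  have h1 := Subgroup.card_dvd_of_injective f hf
  rw [Matrix.card_GL_field] at h1
  have h2 : (∏ i : Fin 4, (Fintype.card (ZMod 3) ^ 4 - Fintype.card (ZMod 3) ^ (i : ℕ))) = 24261120 := by
    rw [ZMod.card, Fin.prod_univ_four]
    norm_num
  rw [h2] at h1
  exact h1

theorem no13 [Finite G] [Finite V] : ¬ 13 ∣ Nat.card R := by
  intro h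
  haveI : Fact (Nat.Prime 13) := ⟨by norm_num⟩
  haveI : Fact (Nat.Prime 2) := ⟨Nat.prime_two⟩
  obtain ⟨x, hx⟩ := exists_prime_orderOf_dvd_card' 13 h
  have hx13 : (x : G) ^ 13 = 1 := by
    have := pow_orderOf_eq_one x
    rw [hx] at this
    exact congrArg Subtype.val this
  have hTn : (Cfsg.pCore 2 G).Normal := Fitting.normal_pCore 2
  have hTp : IsPGroup 2 (Cfsg.pCore 2 G) := Cores.isPGroup_pCore 2 G
  have h1 := conj_fix (by norm_num : Nat.Prime 13) hx13 (T := Cfsg.pCore 2 G) (fun t ht => hTn.conj_mem t ht x)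
  obtain ⟨a, ha⟩ := IsPGroup.iff_card.1 hTp
  obtain ⟨k, hk⟩ := IsPGroup.iff_card.1 (hTp.to_le (inf_le_left : Cfsg.pCore 2 G ⊓ centralizer ({(x : G)} : Set G) ≤ _))
  have hka : Nat.card ↥(Cfsg.pCore 2 G ⊓ centralizer ({(x : G)} : Set G)) ≤ Nat.card (Cfsg.pCore 2 G) :=
    Nat.card_mono (Set.toFinite _) inf_le_left
  have ha9 : a ≤ 9 := by
    by_contra hno
    have h2 : 2 ^ 10 ∣ 2 ^ a := pow_dvd_pow 2 (by omega)
    rw [← ha] at h2
    have h3 := h2.trans ((Subgroup.card_subgroup_dvd_card (Cfsg.pCore 2 G)).trans c.card_dvd)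
    norm_num at h3
  have hka' : k ≤ a := by
    rw [ha, hk] at hka
    exact (Nat.pow_le_pow_iff_right (by norm_num)).1 hka
  rw [ha, hk] at h1
  have hak : a = k := by
    clear hk ha hka
    have h2 : ∀ a : Fin 10, ∀ k : Fin 10, k ≤ a → 2 ^ (a : ℕ) % 13 = 2 ^ (k : ℕ) % 13 → (a : ℕ) = k := by decide
    exact h2 ⟨a, by omega⟩ ⟨k, by omega⟩ hka' h1
  have h2 : Cfsg.pCore 2 G ⊓ centralizer ({(x : G)} : Set G) = Cfsg.pCore 2 G := by
    apply Subgroup.eq_of_le_of_card_ge inf_le_left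
    rw [ha, hk, hak]
  have h3 : (x : G) ∈ Cfsg.pCore 2 G := by
    apply c.toCtx.cent_T
    rw [mem_centralizer_iff]
    intro t ht
    have h4 : t ∈ centralizer ({(x : G)} : Set G) := (inf_eq_left.1 h2) ht
    exact ((mem_centralizer_iff.1 h4) (x : G) rfl).symm
  obtain ⟨n, hn⟩ := IsPGroup.iff_orderOf.1 hTp ⟨x, h3⟩
  rw [orderOf_mk, orderOf_coe, hx] at hn
  have h4 : 13 ∣ 2 ^ n := by rw [← hn]
  have h5 := (by norm_num : Nat.Prime 13).dvd_of_dvd_pow h4
  norm_num at h5

theorem no5 [Finite G] [Finite V] : ¬ 5 ∣ Nat.card R := by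
  intro h
  haveI : Module.Finite (ZMod 3) V := Module.Finite.of_finite
  haveI : Fact (Nat.Prime 5) := ⟨by norm_num⟩
  haveI : Fact (Nat.Prime 3) := ⟨by norm_num⟩
  have hRn := c.toCtx.nR
  haveI := c.toCtx.sol
  have hb1 : b ≠ 1 := by
    intro hb
    have := c.toCtx.qb
    rw [hb] at this
    simp at this
    exact c.toCtx.q1 this
  have hbo : orderOf b = 3 := orderOf_eq_prime (by rw [pow_succ, pow_two]; exact c.toCtx.b3) hb1
  have hcop : (Nat.card (zpowers b)).Coprime (Nat.card R) := by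
    rw [Nat.card_zpowers, hbo]
    exact (Nat.Prime.coprime_iff_not_dvd Nat.prime_three).2 c.toCtx.cop
  obtain ⟨P, hPR, hPp, hPi, hPb⟩ := CoprimeAction.exists_invariant_sylow (A := zpowers b) (K := R)
    (le_normalizer_of_normal) hcop (Or.inr inferInstance) 5
  obtain ⟨k, hk⟩ := IsPGroup.iff_card.1 hPp
  have hPd : Nat.card P ∣ 24261120 := (Subgroup.card_subgroup_dvd_card P).trans c.card_dvd
  have hk1 : k = 1 := by
    have h1 : k ≤ 1 := by
      by_contra hno
      have h2 : 5 ^ 2 ∣ 5 ^ k := pow_dvd_pow 5 (by omega)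
      rw [← hk] at h2
      have h3 := h2.trans hPd
      norm_num at h3
    have h2 : k ≠ 0 := by
      rintro rfl
      rw [pow_zero] at hk
      apply hPi
      rw [Subgroup.card_eq_one.1 hk, relIndex_bot_left]
      exact h
    omega
  rw [hk1, pow_one] at hk
  have hbP : ∀ t ∈ P, b * t * b⁻¹ ∈ P := by
    intro t ht
    have := hPb (mem_zpowers b)
    exact (mem_normalizer_iff.1 this t).1 ht
  have h1 := conj_fix Nat.prime_three (x := b) (by rw [pow_succ, pow_two]; exact c.toCtx.b3) hbP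
  have h2 : Nat.card ↥(P ⊓ centralizer ({b} : Set G)) = 5 := by
    have h3 : Nat.card ↥(P ⊓ centralizer ({b} : Set G)) ∣ Nat.card P := Subgroup.card_dvd_of_le inf_le_left
    rw [hk] at h3 h1
    rcases (Nat.dvd_prime (by norm_num)).1 h3 with h4 | h4
    · rw [h4] at h1
      exact absurd h1 (by decide)
    · exact h4
  have h3 : P ⊓ centralizer ({b} : Set G) = P := by
    apply Subgroup.eq_of_le_of_card_ge inf_le_left
    rw [hk, h2]
  obtain ⟨⟨x, hxP⟩, hx1⟩ : ∃ x : P, x ≠ 1 := by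
    haveI : Nontrivial P := Finite.one_lt_card_iff_nontrivial.1 (by rw [hk]; norm_num)
    exact exists_ne 1
  have hx5 : x ^ 5 = 1 := by
    have : (⟨x, hxP⟩ : P) ^ Nat.card P = 1 := pow_card_eq_one'
    rw [hk] at this
    exact congrArg Subtype.val this
  have hxb : b * x = x * b := (mem_centralizer_iff.1 ((inf_eq_left.1 h3) hxP)) b rfl
  have hr := c.toCtx.two_le_rk
  have hr' := c.toCtx.rk
  have hr2 : Module.finrank (ZMod 3) (LinearMap.range (ρ b - 1)) = 2 := le_antisymm hr' hr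
  have hk2 : Module.finrank (ZMod 3) (LinearMap.ker (ρ b - 1)) = 2 := by
    have := LinearMap.finrank_range_add_finrank_ker (ρ b - 1)
    rw [c.four, hr2] at this
    omega
  have hcomm : ∀ v, ρ x (ρ b v) = ρ b (ρ x v) := fun v => by rw [← rmul, ← rmul, hxb]
  have t1 := triv9 (ρ := ρ) (W := LinearMap.range (ρ b - 1)) (by
    rw [Module.natCard_eq_pow_finrank (K := ZMod 3), hr2, Nat.card_zmod]; norm_num) hx5 (by
    rintro _ ⟨v, rfl⟩
    refine ⟨ρ x v, ?_⟩
    change ρ b (ρ x v) - ρ x v = ρ x (ρ b v - v)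
    rw [map_sub, hcomm])
  have t2 := triv9 (ρ := ρ) (W := LinearMap.ker (ρ b - 1)) (by
    rw [Module.natCard_eq_pow_finrank (K := ZMod 3), hk2, Nat.card_zmod]; norm_num) hx5 (by
    intro w hw
    rw [LinearMap.mem_ker] at hw ⊢
    have hw' : ρ b w - w = 0 := hw
    change ρ b (ρ x w) - ρ x w = 0
    rw [← hcomm, ← map_sub, hw', map_zero])
  have h4 : ∀ v, ρ (x * x * x) v = v := by
    intro v
    have h5 : ρ x (ρ x v - v) = ρ x v - v := by
      apply t2
      rw [LinearMap.mem_ker]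
      change ρ b (ρ x v - v) - (ρ x v - v) = 0
      have h6 := t1 (ρ b v - v) ⟨v, rfl⟩
      rw [map_sub, hcomm] at h6
      rw [map_sub]
      calc ρ b (ρ x v) - ρ b v - (ρ x v - v) = (ρ b (ρ x v) - ρ x v) - (ρ b v - v) := by abel
        _ = 0 := by rw [h6, sub_self]
    set y := ρ x v - v with hy
    have h7 : ρ x v = v + y := by rw [hy]; abel
    rw [rmul, rmul, h7, map_add, h5, h7, map_add, map_add, h7, h5]
    calc v + y + y + y = v + (y + y + y) := by abel
      _ = v := by rw [three_smul', add_zero]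
  have h5 : x * x * x = 1 := by
    apply c.inj
    ext v
    rw [h4, rone]
  apply hx1
  apply Subtype.ext
  change x = 1
  calc x = (x * x * x) * (x * x * x) * (x ^ 5)⁻¹ := by group
    _ = 1 := by rw [h5, hx5]; group

theorem R_le [Finite G] [Finite V] : R ≤ Cfsg.pCore 2 G := by
  have h1 : Nat.card R ∣ 2 ^ 9 * (3 ^ 6 * (5 * 13)) := by
    have := (Subgroup.card_subgroup_dvd_card R).trans c.card_dvd
    norm_num
    exact this
  have h2 : (Nat.card R).Coprime (3 ^ 6 * (5 * 13)) := by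
    apply Nat.Coprime.mul_right
    · exact (((Nat.Prime.coprime_iff_not_dvd Nat.prime_three).2 c.toCtx.cop).pow_left 6).symm
    · apply Nat.Coprime.mul_right
      · exact ((Nat.Prime.coprime_iff_not_dvd (by norm_num)).2 c.no5).symm
      · exact ((Nat.Prime.coprime_iff_not_dvd (by norm_num)).2 c.no13).symm
  have h3 := h2.dvd_of_dvd_mul_right h1
  obtain ⟨k, -, hk⟩ := (Nat.dvd_prime_pow Nat.prime_two).1 h3
  exact Cores.le_pCore c.toCtx.nR (IsPGroup.of_card hk)

end CZ

end Cfsg.Agent.Lib.H39T
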