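import Cfsg.Agent.Lib.H39T8

/-!
Groups `R⟨b⟩` acting on an `F₃`-space with `b` of order three of rank two (for S4415): only scalar abelian normal
subgroups is impossible.
-/

set_option autoImplicit false

namespace Cfsg.Agent.Lib.H39T

open Subgroup

universe u

variable {G : Type u} [Group G] {V : Type*} [AddCommGroup V] [Module (ZMod 3) V]

namespace CZ

variable {ρ : Representation (ZMod 3) G V} {R : Subgroup G} {b q : G} {H : Type*} [Group H] {π : G →* H} {z : G}
  (c : CZ ρ R b q π z)

include c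

theorem conjT [Finite G] {s t : G} (hs : s ∈ UU π (Cfsg.pCore 2 G)) (ht : t ∈ Cfsg.pCore 2 G) :
    t * s = s * t ∨ t * s = s * t * z := c.comm_or (hs.2.2 t ht).symm

theorem normal_of [Finite G] [Finite V] {A : Subgroup G} (hzA : z ∈ A) (hAU : A ≤ UU π (Cfsg.pCore 2 G))
    (hbA : ∀ a ∈ A, b * a * b⁻¹ ∈ A) : A.Normal := by
  have h1 : ∀ i : ℕ, ∀ a ∈ A, b ^ i * a * (b ^ i)⁻¹ ∈ A := by
    intro i
    induction i with
    | zero => intro a ha; simpa using ha
    | succ i ih =>
      intro a ha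
      have := hbA _ (ih a ha)
      have h2 : b * (b ^ i * a * (b ^ i)⁻¹) * b⁻¹ = b ^ (i + 1) * a * (b ^ (i + 1))⁻¹ := by
        rw [pow_succ']; group
      rwa [h2] at this
  constructor
  intro a ha g
  obtain ⟨r, hr, i, rfl⟩ := c.toCtx.dec g
  have h2 := h1 i a ha
  have h3 : r * b ^ i * a * (r * b ^ i)⁻¹ = r * (b ^ i * a * (b ^ i)⁻¹) * r⁻¹ := by group
  rw [h3]
  rcases c.conjT (hAU h2) (c.R_le hr) with h4 | h4
  · rw [h4]
    simpa using h2
  · rw [h4]
    have h5 : b ^ i * a * (b ^ i)⁻¹ * r * z * r⁻¹ = b ^ i * a * (b ^ i)⁻¹ * z := by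
      calc b ^ i * a * (b ^ i)⁻¹ * r * z * r⁻¹ = b ^ i * a * (b ^ i)⁻¹ * (r * z) * r⁻¹ := by group
        _ = b ^ i * a * (b ^ i)⁻¹ * (z * r) * r⁻¹ := by rw [c.zc r]
        _ = b ^ i * a * (b ^ i)⁻¹ * z := by group
    rw [h5]
    exact mul_mem h2 hzA

theorem z_mem [Finite G] : z ∈ UU π (Cfsg.pCore 2 G) := by
  refine ⟨c.zT, ?_, fun t _ => ?_⟩
  · rw [c.piz, one_mul]
  · rw [c.piz, one_mul, mul_one]

/-- step (d) -/
theorem stepd [Finite G] [Finite V] {s : G} (hs : s ∈ UU π (Cfsg.pCore 2 G)) (hb : b * s = s * b) : s = 1 ∨ s = z := by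
  have hA : (UU π (Cfsg.pCore 2 G) ⊓ centralizer ({b} : Set G)).Normal := by
    apply c.normal_of
    · refine ⟨c.z_mem, ?_⟩
      change z ∈ centralizer ({b} : Set G)
      rw [mem_centralizer_iff]
      rintro _ rfl
      exact c.zc _
    · exact inf_le_left
    · rintro a ⟨ha, ha'⟩
      have h1 := (mem_centralizer_iff.1 ha') b rfl
      have h2 : b * a * b⁻¹ = a := by rw [h1]; group
      rw [h2]
      exact ⟨ha, ha'⟩
  have h1 := c.toCB.central_of_b hA (fun a ha => (mem_centralizer_iff.1 ha.2) b rfl) s ⟨hs, by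
    change s ∈ centralizer ({b} : Set G)
    rw [mem_centralizer_iff]
    rintro _ rfl
    exact hb⟩
  rcases c.toCtx.center h1 with h2 | h2
  · left; exact h2
  · right; exact c.toCB.neg_unique h2 c.hz

theorem small [Finite G] [Finite V] {A : Subgroup G} (hzA : z ∈ A) (hAU : A ≤ UU π (Cfsg.pCore 2 G))
    (hbA : ∀ a ∈ A, b * a * b⁻¹ ∈ A) (hcomm : ∀ x ∈ A, ∀ y ∈ A, x * y = y * x) : ∀ a ∈ A, a = 1 ∨ a = z := by
  intro a ha
  have hp : IsPGroup 2 A := (Cores.isPGroup_pCore 2 G).to_le (fun x hx => (hAU hx).1)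
  rcases c.toCB.ab (c.normal_of hzA hAU hbA) hcomm hp a ha with h | h
  · left; exact h
  · right; exact c.toCB.neg_unique h c.hz

/-- step (e) -/
theorem stepe [Finite G] [Finite V] {s : G} (hs : s ∈ UU π (Cfsg.pCore 2 G)) (hs1 : s ≠ 1) (hsz : s ≠ z) : s * s = z := by
  have hUn := c.normal_UU
  set U := UU π (Cfsg.pCore 2 G) with hU
  rcases (c.hπ (s * s)).1 (by rw [map_mul]; exact hs.2.1) with hss | hss
  swap
  · exact hss
  exfalso
  obtain ⟨s1, hs1d⟩ : ∃ s1, s1 = b * s * b⁻¹ := ⟨_, rfl⟩
  obtain ⟨s2, hs2d⟩ : ∃ s2, s2 = b * s1 * b⁻¹ := ⟨_, rfl⟩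
  have hs1U : s1 ∈ U := by rw [hs1d]; exact hUn.conj_mem s hs b
  have hs2U : s2 ∈ U := by rw [hs2d]; exact hUn.conj_mem s1 hs1U b
  have hb3 : b * s2 * b⁻¹ = s := by
    rw [hs2d, hs1d]
    calc b * (b * (b * s * b⁻¹) * b⁻¹) * b⁻¹ = (b * b * b) * s * (b * b * b)⁻¹ := by group
      _ = s := by rw [c.toCtx.b3]; group
  have hss1 : s1 * s1 = 1 := by
    rw [hs1d]
    calc b * s * b⁻¹ * (b * s * b⁻¹) = b * (s * s) * b⁻¹ := by group
      _ = 1 := by rw [hss]; group
  have hss2 : s2 * s2 = 1 := by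
    rw [hs2d]
    calc b * s1 * b⁻¹ * (b * s1 * b⁻¹) = b * (s1 * s1) * b⁻¹ := by group
      _ = 1 := by rw [hss1]; group
  have hwU : s * s1 * s2 ∈ U := mul_mem (mul_mem hs hs1U) hs2U
  have hwb : b * (s * s1 * s2) * b⁻¹ = s1 * s2 * s := by
    calc b * (s * s1 * s2) * b⁻¹ = (b * s * b⁻¹) * (b * s1 * b⁻¹) * (b * s2 * b⁻¹) := by group
      _ = s1 * s2 * s := by rw [hb3, ← hs1d, ← hs2d]
  have hw : s * s1 * s2 = 1 ∨ s * s1 * s2 = z := by
    apply c.stepd hwU
    apply c.fix_b
    rw [hwb]
    apply c.pieq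
    rw [mul_assoc s s1 s2, map_mul, map_mul π (s1 * s2) s]
    exact hs.2.2 (s1 * s2) (mul_mem hs1U.1 hs2U.1)
  have hww : (s * s1 * s2) * (s * s1 * s2) = 1 := by
    rcases hw with h | h
    · rw [h, one_mul]
    · rw [h, c.zz]
  rcases c.comm_or (hs.2.2 s1 hs1U.1) with h01 | h01
  · -- commuting case
    let k : Set G := {s, s1, z}
    let A : Subgroup G := closure k
    have hcom : ∀ x ∈ k, ∀ y ∈ k, x * y = y * x := by
      rintro x (rfl | rfl | rfl) y (rfl | rfl | rfl)
      · rfl
      · exact h01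
      · exact c.zc _
      · exact h01.symm
      · rfl
      · exact c.zc _
      · exact (c.zc _).symm
      · exact (c.zc _).symm
      · rfl
    have hsA : s ∈ A := subset_closure (by simp [k])
    have hs1A : s1 ∈ A := subset_closure (by simp [k])
    have hzA : z ∈ A := subset_closure (by simp [k])
    have h1 : A ≤ centralizer k := (closure_le _).2 (fun x hx => mem_centralizer_iff.2 fun y hy => hcom y hy x hx)
    have h2 : A ≤ centralizer (A : Set G) := (closure_le _).2
      (fun x hx => mem_centralizer_iff.2 fun y hy => ((mem_centralizer_iff.1 (h1 hy)) x hx).symm)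
    have hAU : A ≤ U := (closure_le _).2 (by
      rintro x (rfl | rfl | rfl)
      · exact hs
      · exact hs1U
      · exact c.z_mem)
    have hs2A : s2 ∈ A := by
      have h3 : s2 = (s * s1)⁻¹ * (s * s1 * s2) := by group
      rw [h3]
      apply mul_mem (inv_mem (mul_mem hsA hs1A))
      rcases hw with h | h
      · rw [h]; exact one_mem _
      · rw [h]; exact hzA
    have hbA : A ≤ A.comap (MulAut.conj b).toMonoidHom := (closure_le _).2 (by
      rintro x (rfl | rfl | rfl)
      · change b * x * b⁻¹ ∈ A; rw [← hs1d]; exact hs1A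
      · change b * x * b⁻¹ ∈ A; rw [← hs2d]; exact hs2A
      · change b * x * b⁻¹ ∈ A
        have : b * x * b⁻¹ = x := by rw [c.zc b]; group
        rw [this]; exact hzA)
    rcases c.small hzA hAU (fun a ha => hbA ha) (fun x hx y hy => (mem_centralizer_iff.1 (h2 hy)) x hx) s hsA with h | h
    · exact hs1 h
    · exact hsz h
  · have h12 : s1 * s2 = s2 * s1 * z := by
      calc s1 * s2 = b * (s * s1) * b⁻¹ := by rw [hs2d]; nth_rewrite 1 [hs1d]; group
        _ = b * (s1 * s * z) * b⁻¹ := by rw [h01]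
        _ = (b * s1 * b⁻¹) * (b * s * b⁻¹) * (b * z * b⁻¹) := by group
        _ = s2 * s1 * z := by rw [c.zc b, ← hs1d, ← hs2d]; group
    have h20 : s2 * s = s * s2 * z := by
      calc s2 * s = (b * s1 * b⁻¹) * (b * s2 * b⁻¹) := by rw [hb3, ← hs2d]
        _ = b * (s1 * s2) * b⁻¹ := by group
        _ = b * (s2 * s1 * z) * b⁻¹ := by rw [h12]
        _ = (b * s2 * b⁻¹) * (b * s1 * b⁻¹) * (b * z * b⁻¹) := by group
        _ = s * s2 * z := by rw [hb3, c.zc b, ← hs2d]; group
    have h10 : s1 * s = s * s1 * z := by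
      rw [h01, mul_assoc, c.zz, mul_one]
    have h21 : s2 * s1 = s1 * s2 * z := by
      rw [h12, mul_assoc, c.zz, mul_one]
    have e1 : s1 * s2 * s = s * s1 * s2 := by
      calc s1 * s2 * s = s1 * (s2 * s) := by group
        _ = s1 * (s * s2 * z) := by rw [h20]
        _ = (s1 * s) * s2 * z := by group
        _ = (s * s1 * z) * s2 * z := by rw [h10]
        _ = s * s1 * (z * s2) * z := by group
        _ = s * s1 * (s2 * z) * z := by rw [c.zc s2]
        _ = s * s1 * s2 * (z * z) := by group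
        _ = s * s1 * s2 := by rw [c.zz, mul_one]
    have e2 : s1 * s2 * (s1 * s2) = z := by
      calc s1 * s2 * (s1 * s2) = s1 * (s2 * s1) * s2 := by group
        _ = s1 * (s1 * s2 * z) * s2 := by rw [h21]
        _ = (s1 * s1) * s2 * (z * s2) := by group
        _ = s2 * (s2 * z) := by rw [hss1, one_mul, c.zc s2]
        _ = (s2 * s2) * z := by group
        _ = z := by rw [hss2, one_mul]
    have e3 : (s * s1 * s2) * (s * s1 * s2) = z := by
      calc (s * s1 * s2) * (s * s1 * s2) = s * (s1 * s2 * s) * (s1 * s2) := by group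
        _ = s * (s * s1 * s2) * (s1 * s2) := by rw [e1]
        _ = (s * s) * (s1 * s2 * (s1 * s2)) := by group
        _ = z := by rw [hss, one_mul, e2]
    rw [hww] at e3
    exact c.z1 e3.symm

/-- step (f) -/
theorem stepf [Finite G] [Finite V] {x y : G} (hx : x ∈ UU π (Cfsg.pCore 2 G)) (hx1 : x ≠ 1) (hxz : x ≠ z)
    (hy : y ∈ UU π (Cfsg.pCore 2 G)) (hy1 : y ≠ 1) (hyz : y ≠ z) (hxy : x * y = y * x) : x * y = 1 ∨ x * y = z := by
  by_contra hno
  push Not at hno
  have h1 := c.stepe (mul_mem hx hy) hno.1 hno.2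
  have h2 : x * y * (x * y) = 1 := by
    calc x * y * (x * y) = x * (y * x) * y := by group
      _ = x * (x * y) * y := by rw [hxy]
      _ = (x * x) * (y * y) := by group
      _ = 1 := by rw [c.stepe hx hx1 hxz, c.stepe hy hy1 hyz, c.zz]
  rw [h2] at h1
  exact c.z1 h1.symm

/-- there is no such situation -/
theorem false [Finite G] [Finite V] : False := by
  have hUn := c.normal_UU
  have hTn : (Cfsg.pCore 2 G).Normal := Fitting.normal_pCore 2
  have hTp : IsPGroup 2 (Cfsg.pCore 2 G) := Cores.isPGroup_pCore 2 G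
  obtain ⟨u, hu, hss⟩ := c.exists_s
  set T := Cfsg.pCore 2 G with hT
  set U := UU π T with hU
  have hs : u * (b * u⁻¹ * b⁻¹) ∈ U := mul_mem hu (hUn.conj_mem _ (inv_mem hu) b)
  set s := u * (b * u⁻¹ * b⁻¹) with hsd
  clear_value s
  have hs1 : s ≠ 1 := by
    rintro rfl
    rw [one_mul] at hss
    exact c.z1 hss.symm
  have hsz : s ≠ z := by
    intro h
    rw [h, c.zz] at hss
    exact c.z1 hss.symm
  obtain ⟨t, htd⟩ : ∃ t, t = b * s * b⁻¹ := ⟨_, rfl⟩
  have ht : t ∈ U := by rw [htd]; exact hUn.conj_mem _ hs b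
  have ht1 : t ≠ 1 := by
    intro h
    apply hs1
    calc s = b⁻¹ * t * b := by rw [htd]; group
      _ = 1 := by rw [h]; group
  have htz : t ≠ z := by
    intro h
    apply hsz
    calc s = b⁻¹ * t * b := by rw [htd]; group
      _ = (b⁻¹ * z) * b := by rw [h]
      _ = (z * b⁻¹) * b := by rw [c.zc b⁻¹]
      _ = z := by group
  have hts : ¬ (t = s ∨ t = s * z) := by
    intro h
    rcases c.stepd hs (c.fix_b (by rw [← htd]; exact h)) with h1 | h1
    · exact hs1 h1
    · exact hsz h1
  have hst : s * t = t * s * z := by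
    rcases c.conjT ht hs.1 with h | h
    · exfalso
      apply hts
      rcases c.stepf hs hs1 hsz ht ht1 htz h with h1 | h1
      · right
        calc t = (s * s) * (s * s)⁻¹ * s⁻¹ * (s * t) := by group
          _ = (s * s) * (s * s)⁻¹ * s⁻¹ := by rw [h1, mul_one]
          _ = s * (s * s)⁻¹ := by group
          _ = s * z := by rw [hss, inv_eq_of_mul_eq_one_left c.zz]
      · left
        calc t = s⁻¹ * (s * t) := by group
          _ = s⁻¹ * (s * s) := by rw [h1, hss]
          _ = s := by group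
    · exact h
  have hts' : t * s = s * t * z := by rw [hst, mul_assoc, c.zz, mul_one]
  -- the centralizer of `s,t` in `T`
  let C : Subgroup G := T ⊓ centralizer ({s, t} : Set G)
  have hC : ∀ x ∈ C, x = 1 ∨ x = z := by
    by_contra hno
    push Not at hno
    obtain ⟨x, hx, hx1, hxz⟩ := hno
    have key : ∀ s ∈ U, ∀ t ∈ T, ∀ x : G, s * x = x * s → s * (t * x * t⁻¹) = (t * x * t⁻¹) * s := by
      intro s hs t ht x hx
      have h1 : (t⁻¹ * s * t) * x = x * (t⁻¹ * s * t) := by
        rcases c.conjT hs (inv_mem ht) with h | h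
        · rw [h]
          calc s * t⁻¹ * t * x = s * x := by group
            _ = x * s := hx
            _ = x * (s * t⁻¹ * t) := by group
        · rw [h]
          calc s * t⁻¹ * z * t * x = s * t⁻¹ * (z * t) * x := by group
            _ = s * t⁻¹ * (t * z) * x := by rw [c.zc t]
            _ = s * (z * x) := by group
            _ = s * (x * z) := by rw [c.zc x]
            _ = (s * x) * z := by group
            _ = (x * s) * z := by rw [hx]
            _ = x * (s * t⁻¹ * (t * z)) := by group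
            _ = x * (s * t⁻¹ * (z * t)) := by rw [c.zc t]
            _ = x * (s * t⁻¹ * z * t) := by group
      calc s * (t * x * t⁻¹) = t * ((t⁻¹ * s * t) * x) * t⁻¹ := by group
        _ = t * (x * (t⁻¹ * s * t)) * t⁻¹ := by rw [h1]
        _ = (t * x * t⁻¹) * s := by group
    obtain ⟨y, hyC, hy1, hyU⟩ := exists_mem_UU (π := π) (T := T) (X := C) hTp inf_le_left (by
      rintro g hg y ⟨hy, hy'⟩
      refine ⟨T.mul_mem (T.mul_mem hg hy) (T.inv_mem hg), ?_⟩
      change _ ∈ centralizer ({s, t} : Set G)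
      have hy2 : y ∈ centralizer ({s, t} : Set G) := hy'
      rw [mem_centralizer_iff] at hy2 ⊢
      rintro _ (rfl | rfl)
      · exact key _ hs g hg y (hy2 _ (by simp))
      · exact key _ ht g hg y (hy2 _ (by simp))) ⟨x, hx, fun h => by
        rcases (c.hπ x).1 h with h1 | h1
        · exact hx1 h1
        · exact hxz h1⟩
    have hy1' : y ≠ 1 := fun h => hy1 ((c.hπ y).2 (Or.inl h))
    have hyz' : y ≠ z := fun h => hy1 ((c.hπ y).2 (Or.inr h))
    have hyc := mem_centralizer_iff.1 hyC.2
    have a1 := c.stepf hyU hy1' hyz' hs hs1 hsz (hyc s (by simp)).symm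
    have a2 := c.stepf hyU hy1' hyz' ht ht1 htz (hyc t (by simp)).symm
    apply hts
    have b1 : ∀ w, y * w = 1 → w = y⁻¹ := fun w h => (inv_eq_of_mul_eq_one_right h).symm
    have b2 : ∀ w, y * w = z → w = y⁻¹ * z := fun w h => by rw [← h]; group
    rcases a1 with a1 | a1 <;> rcases a2 with a2 | a2
    · left; rw [b1 _ a1, b1 _ a2]
    · right; rw [b1 _ a1, b2 _ a2]
    · right; rw [b2 _ a1, b1 _ a2, mul_assoc, c.zz, mul_one]
    · left; rw [b2 _ a1, b2 _ a2]
  have hqT : q ∈ T := c.R_le c.toCtx.qR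
  -- `q` lies in `U`
  have hmem : ∀ m ∈ U, (q * m) * s = s * (q * m) → (q * m) * t = t * (q * m) → q ∈ U := by
    intro m hm h1 h2
    have h3 : q * m ∈ C := by
      refine ⟨mul_mem hqT hm.1, ?_⟩
      change _ ∈ centralizer ({s, t} : Set G)
      rw [mem_centralizer_iff]
      rintro _ (rfl | rfl)
      · exact h1.symm
      · exact h2.symm
    have h4 : q = (q * m) * m⁻¹ := by group
    rw [h4]
    apply mul_mem _ (inv_mem hm)
    rcases hC _ h3 with h5 | h5
    · rw [h5]; exact one_mem _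
    · rw [h5]; exact c.z_mem
  have hqU : q ∈ U := by
    rcases c.conjT hs hqT with h | h <;> rcases c.conjT ht hqT with k | k
    · exact hmem 1 (one_mem _) (by rw [mul_one]; exact h) (by rw [mul_one]; exact k)
    · apply hmem s hs
      · rw [h, mul_assoc s q s, h]
      · calc q * s * t = q * (s * t) := by group
          _ = q * (t * s * z) := by rw [hst]
          _ = (q * t) * (s * z) := by group
          _ = (t * q * z) * (s * z) := by rw [k]
          _ = t * q * (z * s) * z := by group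
          _ = t * q * (s * z) * z := by rw [c.zc s]
          _ = t * (q * s) * (z * z) := by group
          _ = t * (q * s) := by rw [c.zz, mul_one]
    · apply hmem t ht
      · calc q * t * s = q * (t * s) := by group
          _ = q * (s * t * z) := by rw [hts']
          _ = (q * s) * (t * z) := by group
          _ = (s * q * z) * (t * z) := by rw [h]
          _ = s * q * (z * t) * z := by group
          _ = s * q * (t * z) * z := by rw [c.zc t]
          _ = s * (q * t) * (z * z) := by group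
          _ = s * (q * t) := by rw [c.zz, mul_one]
      · rw [k, mul_assoc t q t, k]
    · apply hmem (s * t) (mul_mem hs ht)
      · calc q * (s * t) * s = (q * s) * (t * s) := by group
          _ = (s * q * z) * (s * t * z) := by rw [h, hts']
          _ = s * q * (z * (s * t)) * z := by group
          _ = s * q * ((s * t) * z) * z := by rw [c.zc (s * t)]
          _ = s * (q * (s * t)) * (z * z) := by group
          _ = s * (q * (s * t)) := by rw [c.zz, mul_one]
      · calc q * (s * t) * t = q * (t * s * z) * t := by rw [hst]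
          _ = (q * t) * (s * (z * t)) := by group
          _ = (t * q * z) * (s * (t * z)) := by rw [k, c.zc t]
          _ = t * q * (z * (s * t)) * z := by group
          _ = t * q * ((s * t) * z) * z := by rw [c.zc (s * t)]
          _ = t * (q * (s * t)) * (z * z) := by group
          _ = t * (q * (s * t)) := by rw [c.zz, mul_one]
  have h1 := c.stepe hqU c.toCtx.q1 c.q_ne
  rw [c.toCtx.qq] at h1
  exact c.z1 h1.symm

end CZ

theorem CB.exists_CZ [Finite G] [Finite V] {ρ : Representation (ZMod 3) G V} {R : Subgroup G} {b q : G}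
    (c : CB ρ R b q) : ∃ (H : Type u) (_ : Group H) (π : G →* H) (z : G), CZ ρ R b q π z := by
  have hT0 : Cfsg.pCore 2 G ≠ ⊥ := by
    intro h
    have h1 := c.toCtx.cent_T
    rw [h] at h1
    have h2 : q ∈ (⊥ : Subgroup G) := h1 (by
      rw [mem_centralizer_iff]
      intro t ht
      have : t = 1 := mem_bot.1 ht
      rw [this, one_mul, mul_one])
    exact c.toCtx.q1 (mem_bot.1 h2)
  haveI : Fact (Nat.Prime 2) := ⟨Nat.prime_two⟩
  have h1 := om_ne_bot (Cores.isPGroup_pCore 2 G) hT0
  obtain ⟨⟨z, hz⟩, hz1'⟩ := Subgroup.ne_bot_iff_exists_ne_one.1 h1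
  have hz1 : z ≠ 1 := fun h => hz1' (Subtype.ext h)
  have hzn : ∀ v, ρ z v = -v := (c.hB _ (om_normal (Fitting.normal_pCore 2)) (fun x hx y hy => hx.2.2 y hy.1)
    (fun a ha => by have := ha.2.1; rwa [pow_two] at this) z hz).resolve_left hz1
  have hzc := c.neg_comm hzn
  have hzz := c.neg_sq hzn
  haveI hN : (zpowers z).Normal := by
    constructor
    rintro _ ⟨k, rfl⟩ g
    refine ⟨k, ?_⟩
    have : Commute g (z ^ k) := (show Commute g z from hzc g).zpow_right k
    change z ^ k = g * z ^ k * g⁻¹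
    rw [this.eq]; group
  refine ⟨G ⧸ zpowers z, inferInstance, QuotientGroup.mk' (zpowers z), z, ⟨c, hz.1, hzn, ?_⟩⟩
  intro x
  rw [QuotientGroup.mk'_apply, QuotientGroup.eq_one_iff]
  constructor
  · rintro ⟨k, rfl⟩
    change z ^ k = 1 ∨ z ^ k = z
    rcases Int.even_or_odd' k with ⟨m, rfl | rfl⟩
    · left; rw [zpow_mul, zpow_ofNat, pow_two, hzz, one_zpow]
    · right; rw [zpow_add, zpow_mul, zpow_ofNat, pow_two, hzz, one_zpow, one_mul, zpow_one]
  · rintro (rfl | rfl)
    · exact one_mem _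
    · exact mem_zpowers _

theorem CB.false [Finite G] [Finite V] {ρ : Representation (ZMod 3) G V} {R : Subgroup G} {b q : G}
    (c : CB ρ R b q) : False := by
  obtain ⟨H, _, π, z, hc⟩ := c.exists_CZ
  exact hc.false

end Cfsg.Agent.Lib.H39T
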