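import Cfsg.Agent.Lib.TateApps
import Mathlib.RingTheory.RootsOfUnity.Complex

/-!
# Tate's criterion with linear characters (helper3)
-/

set_option autoImplicit false

namespace Cfsg.Agent.Lib.H3PNil

open Cfsg
open scoped Pointwise

universe u

variable {G : Type u} [Group G]

/-- If every linear character of a Sylow `p`-subgroup extends to the group then there is a normal
`p`-complement. -/
theorem hasNormalPComplement_of_linear_extend [Finite G] {p : ℕ} [hp : Fact p.Prime] (P : Sylow p G)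
    (hext : ∀ lam : (P : Subgroup G) →* ℂˣ, ∃ mu : G →* ℂˣ, ∀ h : (P : Subgroup G), mu h = lam h) :
    HasNormalPComplement p G := by
  apply TateApps.hasNormalPComplement_of_extend P
  intro δ
  have hp0 : NeZero p := ⟨hp.out.ne_zero⟩
  obtain ⟨ζ, hζ⟩ : ∃ ζ : ℂˣ, IsPrimitiveRoot ζ p := by
    have h := Complex.isPrimitiveRoot_exp p hp.out.ne_zero
    exact ⟨(h.isUnit hp.out.ne_zero).unit, IsPrimitiveRoot.coe_units_iff.1 (by simpa using h)⟩
  let e : Multiplicative (ZMod p) ≃* Subgroup.zpowers ζ := AddEquiv.toMultiplicativeLeft hζ.zmodEquivZPowers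
  have hz : Subgroup.zpowers ζ = rootsOfUnity p ℂ := hζ.zpowers_eq
  let lam : (P : Subgroup G) →* ℂˣ := (Subgroup.zpowers ζ).subtype.comp (e.toMonoidHom.comp δ)
  obtain ⟨mu, hmu⟩ := hext lam
  have hlam : ∀ h : (P : Subgroup G), (lam h) ^ p = 1 := by
    intro h
    have h1 : lam h ∈ Subgroup.zpowers ζ := (e (δ h)).2
    rw [hz, mem_rootsOfUnity] at h1
    exact h1
  obtain ⟨a, ha⟩ := IsPGroup.iff_card.mp P.isPGroup'
  set m := (P : Subgroup G).index with hm
  have hcop : Nat.Coprime m p := by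
    rw [Nat.coprime_comm]
    exact (Nat.Prime.coprime_iff_not_dvd hp.out).2 P.not_dvd_index
  obtain ⟨t, ht⟩ : ∃ t : ℕ, m * t ≡ 1 [MOD p] := by
    obtain ⟨t, ht⟩ := Nat.exists_mul_mod_eq_one_of_coprime hcop hp.out.one_lt
    exact ⟨t, by rw [Nat.ModEq, ht.2, Nat.mod_eq_of_lt hp.out.one_lt]⟩
  let nu : G →* ℂˣ := (powMonoidHom (m * t)).comp mu
  have hnu : ∀ g : G, nu g ∈ Subgroup.zpowers ζ := by
    intro g
    rw [hz, mem_rootsOfUnity]
    have h1 : IsPGroup p (Subgroup.zpowers (g ^ m)) := by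
      apply IsPGroup.of_card_dvd_pow (n := a)
      rw [Nat.card_zpowers]
      apply orderOf_dvd_of_pow_eq_one
      rw [← pow_mul, mul_comm, ← ha, Subgroup.card_mul_index]
      exact pow_card_eq_one'
    obtain ⟨Q, hQ⟩ := h1.exists_le_sylow
    obtain ⟨c, hc⟩ := MulAction.exists_smul_eq G P Q
    have h2 : g ^ m ∈ (Q : Subgroup G) := hQ (Subgroup.mem_zpowers _)
    rw [← hc] at h2
    have h3 : c⁻¹ * g ^ m * c ∈ (P : Subgroup G) := by
      have h4 : g ^ m ∈ (MulAut.conj c • (P : Subgroup G) : Subgroup G) := h2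
      rw [Subgroup.mem_pointwise_smul_iff_inv_smul_mem] at h4
      have h5 : (MulAut.conj c)⁻¹ • (g ^ m) = c⁻¹ * g ^ m * c := by
        rw [← map_inv, MulAut.smul_def, MulAut.conj_apply, inv_inv]
      rwa [h5] at h4
    have h6 : mu (g ^ m) = lam ⟨_, h3⟩ := by
      rw [← hmu ⟨_, h3⟩]
      simp
    change ((mu g) ^ (m * t)) ^ p = 1
    rw [pow_mul, ← map_pow mu, h6, ← pow_mul, mul_comm, pow_mul, hlam, one_pow]
  let nu' : G →* Subgroup.zpowers ζ := nu.codRestrict _ hnu
  refine ⟨e.symm.toMonoidHom.comp nu', ?_⟩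
  intro h
  have h1 : nu' h = e (δ h) := by
    apply Subtype.ext
    change (mu h) ^ (m * t) = lam h
    rw [hmu h]
    have h2 : m * t ≡ 1 [MOD orderOf (lam h)] := ht.of_dvd (orderOf_dvd_of_pow_eq_one (hlam h))
    rw [← pow_one (lam h)]
    conv_lhs => rw [pow_one (lam h)]
    exact pow_eq_pow_iff_modEq.2 h2
  change e.symm (nu' h) = δ h
  rw [h1, MulEquiv.symm_apply_apply]

end Cfsg.Agent.Lib.H3PNil
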