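import Cfsg.Agent.Lib.CoprimeAction2
import Cfsg.Agent.Lib.FrobExist
import Cfsg.Agent.Lib.FrobAction2
import Cfsg.Agent.Lib.PCoreTools

/-!
# Coprime actions in which nontrivial elements have the same fixed points
-/

set_option autoImplicit false
set_option linter.unusedSimpArgs false
open Cfsg Subgroup

namespace Cfsg.Agent.Lib.TIHall

open FrobExist FrobAction FrobAction2

/-- automorphisms act on the abelianization -/
def abAct (X : Type*) [Group X] : MulAut X →* MulAut (Abelianization X) where
  toFun e := MulEquiv.abelianizationCongr e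
  map_one' := by
    apply MulEquiv.ext
    intro v
    obtain ⟨x, rfl⟩ := QuotientGroup.mk_surjective v
    rfl
  map_mul' := by
    intro a b
    apply MulEquiv.ext
    intro v
    obtain ⟨x, rfl⟩ := QuotientGroup.mk_surjective v
    rfl

theorem abAct_of {X : Type*} [Group X] (e : MulAut X) (x : X) : abAct X e (Abelianization.of x) = Abelianization.of (e x) :=
  rfl

variable {G : Type*} [Group G] [Finite G]

/-- A subgroup `H` acting coprimely on a solvable group `O`, not trivially, such that every nontrivial element of `H`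
has the same fixed points as `H`, is a Frobenius complement. -/
theorem occurs_of_fix {O H : Subgroup G} (hO : Group.IsSolvable O) (hn : H ≤ normalizer (O : Set G))
    (hcop : (Nat.card H).Coprime (Nat.card O)) (hne : ¬ O ≤ centralizer (H : Set G))
    (hfix : ∀ h ∈ H, h ≠ 1 → ∀ x ∈ O, h * x = x * h → x ∈ centralizer (H : Set G)) : Occurs H := by
  classical
  have : Fintype H := Fintype.ofFinite H
  set X := ⁅O, H⁆ with hX
  have hXO : X ≤ O := le_normalizer_iff_commutator_le_left.mp hn
  have hXn : H ≤ normalizer (X : Set G) := normalizer_commutator_ge_right O H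
  have hD : ⁅X, H⁆ = X := CoprimeAction2.commutator_commutator hn hcop (Or.inr hO)
  have hXs : Group.IsSolvable X :=
    Group.isSolvable_of_isSolvable_injective (f := inclusion hXO) (inclusion_injective hXO)
  have hXcop : (Nat.card H).Coprime (Nat.card X) := hcop.coprime_dvd_right (Subgroup.card_dvd_of_le hXO)
  have hXbot : X ≠ ⊥ := by
    intro h0
    exact hne (commutator_eq_bot_iff_le_centralizer.1 h0)
  have hXnt : Nontrivial X := (Subgroup.nontrivial_iff_ne_bot X).2 hXbot
  have hHnt : Nontrivial H := by
    rw [Subgroup.nontrivial_iff_ne_bot]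
    intro h0
    apply hne
    rw [h0]
    intro x _
    rw [mem_centralizer_iff]
    intro y hy
    have : y = 1 := hy
    rw [this]; simp
  let φ : H →* MulAut (Abelianization X) := (abAct X).comp (conjAct hXn)
  have hφ : ∀ (h : H) (x : X), φ h (Abelianization.of x) = Abelianization.of (conjAct hXn h x) := fun _ _ => rfl
  have hVnt : Nontrivial (Abelianization X) := by
    by_contra hcon
    rw [not_nontrivial_iff_subsingleton] at hcon
    have h1 : commutator X = ⊤ := by
      rw [eq_top_iff]
      intro x _
      rw [← Abelianization.ker_of, MonoidHom.mem_ker]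
      exact Subsingleton.elim _ _
    have h2 : ∀ n, derivedSeries X n = ⊤ := by
      intro n
      induction n with
      | zero => rfl
      | succ n ih => rw [derivedSeries_succ, ih]; exact h1
    obtain ⟨n, hn⟩ := hXs
    rw [h2 n] at hn
    exact top_ne_bot hn
  -- the norm
  let ν : Abelianization X →* Abelianization X :=
    { toFun := fun v => ∏ h : H, φ h v
      map_one' := by simp
      map_mul' := by intro a b; simp only [map_mul]; exact Finset.prod_mul_distrib }
  have hν : ∀ (k : H) (v : Abelianization X), ν (φ k v) = ν v := by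
    intro k v
    change ∏ h : H, φ h (φ k v) = ∏ h : H, φ h v
    rw [← Equiv.prod_comp (Equiv.mulRight k) (fun h => φ h v)]
    refine Finset.prod_congr rfl fun h _ => ?_
    rw [Equiv.coe_mulRight, map_mul]; rfl
  have hν1 : ∀ v : Abelianization X, ν v = 1 := by
    have h1 : X ≤ ((ν.comp Abelianization.of).ker).map X.subtype := by
      nth_rw 1 [← hD]
      rw [commutator_le]
      intro x hx h hh
      refine ⟨⟨x, hx⟩ * (conjAct hXn ⟨h, hh⟩ ⟨x, hx⟩)⁻¹, ?_, ?_⟩
      · rw [SetLike.mem_coe, MonoidHom.mem_ker, MonoidHom.comp_apply, map_mul, map_mul, map_inv, map_inv, ← hφ, hν,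
          mul_inv_cancel]
      · change x * (h * x * h⁻¹)⁻¹ = x * h * x⁻¹ * h⁻¹
        group
    intro v
    obtain ⟨x, rfl⟩ := QuotientGroup.mk_surjective v
    obtain ⟨y, hy, hyx⟩ := h1 x.2
    have : y = x := Subtype.ext hyx
    rw [← this]
    exact hy
  apply of_action φ
  intro h hh v hv
  obtain ⟨x, rfl⟩ : ∃ x : X, Abelianization.of x = v := QuotientGroup.mk_surjective v
  -- the coset is fixed by all powers of `h`
  have hpow : ∀ a ∈ zpowers (h : G), a * x * a⁻¹ * (x : G)⁻¹ ∈ (⁅X, X⁆ : Subgroup G) := by
    rintro _ ⟨k, rfl⟩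
    have h1 : φ (h ^ k) (Abelianization.of x) = Abelianization.of x := by
      rw [map_zpow]
      have : (φ h) ∈ MulAction.stabilizer (MulAut (Abelianization X)) (Abelianization.of x) := hv
      exact Subgroup.zpow_mem _ this k
    rw [hφ] at h1
    have h2 : (conjAct hXn (h ^ k) x) * x⁻¹ ∈ commutator X := by
      rw [← Abelianization.ker_of, MonoidHom.mem_ker, map_mul, map_inv, h1, mul_inv_cancel]
    have h3 : (((conjAct hXn (h ^ k) x) * x⁻¹ : X) : G) ∈ (commutator X).map X.subtype := ⟨_, h2, rfl⟩
    rw [map_subtype_commutator] at h3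
    exact h3
  have hXXn : X ≤ normalizer ((⁅X, X⁆ : Subgroup G) : Set G) := normalizer_commutator_ge_right X X
  have hXXN : normalizer (X : Set G) ≤ normalizer ((⁅X, X⁆ : Subgroup G) : Set G) := by
    have h1 := PCoreTools.normalizer_le_of_characteristic (H := X) (K := commutator X) inferInstance
    rw [map_subtype_commutator] at h1
    exact h1
  have hXXh : zpowers (h : G) ≤ normalizer ((⁅X, X⁆ : Subgroup G) : Set G) := by
    rw [zpowers_le]
    exact hXXN (hXn h.2)
  have hXXX : (⁅X, X⁆ : Subgroup G) ≤ X := commutator_le_self X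
  obtain ⟨c, hc, hxc⟩ := CoprimeAction.exists_mem_centralizer_of_quotient (A := zpowers (h : G))
    (N := (⁅X, X⁆ : Subgroup G)) hXXh
    ((hXcop.coprime_dvd_left (Subgroup.card_dvd_of_le (zpowers_le.2 h.2))).coprime_dvd_right
      (Subgroup.card_dvd_of_le hXXX))
    (Or.inl (Group.isSolvable_of_comm (fun a b => (IsCyclic.commGroup.mul_comm a b)))) (x : G) (hXXn x.2) hpow
  have hcX : c ∈ X := by
    have : c = x * ((x : G)⁻¹ * c) := by group
    rw [this]
    exact mul_mem x.2 (hXXX hxc)
  have hch : (h : G) * c = c * h := (mem_centralizer_iff.1 hc h (mem_zpowers _))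
  have hcC := hfix h h.2 (fun h0 => hh (Subtype.ext h0)) c (hXO hcX) hch
  have hxc' : Abelianization.of x = Abelianization.of (⟨c, hcX⟩ : X) := by
    rw [← inv_mul_eq_one, ← map_inv, ← map_mul, ← MonoidHom.mem_ker, Abelianization.ker_of]
    rw [← map_subtype_commutator] at hxc
    obtain ⟨y, hy, hyx⟩ := hxc
    have : y = x⁻¹ * ⟨c, hcX⟩ := Subtype.ext hyx
    rw [← this]; exact hy
  have hfixall : ∀ k : H, φ k (Abelianization.of x) = Abelianization.of x := by
    intro k
    rw [hxc', hφ]
    congr 1
    rw [conjAct_fixed]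
    exact (mem_centralizer_iff.1 hcC k k.2)
  have h1 := hν1 (Abelianization.of x)
  have h2 : ν (Abelianization.of x) = (Abelianization.of x) ^ Nat.card H := by
    change ∏ k : H, φ k (Abelianization.of x) = _
    rw [Finset.prod_congr rfl (fun k _ => hfixall k), Finset.prod_const, Finset.card_univ, Nat.card_eq_fintype_card]
  rw [h2] at h1
  have h3 : (Abelianization.of x) ^ Nat.card X = 1 := by
    rw [← map_pow, pow_card_eq_one', map_one]
  have h4 := Nat.dvd_gcd (orderOf_dvd_of_pow_eq_one h1) (orderOf_dvd_of_pow_eq_one h3)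
  rw [hXcop] at h4
  exact orderOf_eq_one_iff.1 (Nat.dvd_one.1 h4)

end Cfsg.Agent.Lib.TIHall
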