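import Cfsg.Agent.Lib.TIHall1
import Cfsg.Agent.Lib.TIHall2
import Cfsg.Agent.Lib.ClSLn
import Cfsg.Agent.Lib.Cores

/-!
# TI Hall subgroups of `π`-separable groups
-/

set_option autoImplicit false
set_option linter.unusedSimpArgs false
open Cfsg Subgroup

namespace Cfsg.Agent.Lib.TIHall

open FrobExist FrobAction

theorem prime_absurd {q m n : ℕ} (hq : q.Prime) (hc : m.Coprime n) (h1 : q ∣ m) (h2 : q ∣ n) : False := by
  have := Nat.dvd_gcd h1 h2
  rw [hc] at this
  exact hq.one_lt.ne' (Nat.dvd_one.1 this)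

variable {G : Type*} [Group G]

theorem normalizer_le_of_ti {H D : Subgroup G} (hTI : IsTISubset (H : Set G)) (hDH : D ≤ H) (hD : D ≠ ⊥) :
    normalizer (D : Set G) ≤ normalizer (H : Set G) := by
  intro g hg
  by_contra hcon
  apply hD
  rw [eq_bot_iff]
  intro x hx
  have h1 : g * x * g⁻¹ ∈ D := (mem_normalizer_iff.1 hg x).1 hx
  exact hTI g hcon x (hDH hx) (hDH h1)

variable [Finite G]

/-- a `p`-subgroup which is Sylow in its normalizer is Sylow -/
theorem not_dvd_index_of_normalizer {p : ℕ} [Fact p.Prime] {P N : Subgroup G} (hP : IsPGroup p P)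
    (hN : normalizer (P : Set G) ≤ N) (h : ¬ p ∣ P.relIndex N) : ¬ p ∣ P.index := by
  obtain ⟨n, hn⟩ := IsPGroup.iff_card.1 hP
  have h1 := Sylow.card_quotient_normalizer_modEq_card_quotient hn
  intro hd
  apply h
  have h2 : p ∣ P.relIndex (normalizer (P : Set G)) := by
    have h3 : Nat.card (G ⧸ P) ≡ 0 [MOD p] := (Nat.modEq_zero_iff_dvd).2 hd
    exact (Nat.modEq_zero_iff_dvd).1 (h1.trans h3)
  have h4 : P.relIndex N = P.relIndex (normalizer (P : Set G)) * (normalizer (P : Set G)).relIndex N :=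
    (relIndex_mul_relIndex _ _ _ le_normalizer hN).symm
  rw [h4]
  exact h2.mul_right _

theorem hall_of_ti {H : Subgroup G} (hTI : IsTISubset (H : Set G))
    (hHall : (Nat.card H).Coprime (H.subgroupOf (normalizer (H : Set G))).index) :
    (Nat.card H).Coprime H.index := by
  by_contra hcon
  obtain ⟨q, hq, hqH, hqi⟩ := Nat.Prime.not_coprime_iff_dvd.mp hcon
  have := Fact.mk hq
  obtain ⟨Q⟩ : Nonempty (Sylow q H) := inferInstance
  obtain ⟨hPH, hPp, hPi⟩ := CoprimeAction.sylow_map_subtype_props Q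
  set P := (Q : Subgroup H).map H.subtype
  have hPbot : P ≠ ⊥ := by
    intro h0
    rw [h0, relIndex_bot_left] at hPi
    exact hPi hqH
  have hPN := normalizer_le_of_ti hTI hPH hPbot
  have hHN : ¬ q ∣ H.relIndex (normalizer (H : Set G)) := by
    intro h1
    exact prime_absurd hq hHall hqH h1
  have h2 : ¬ q ∣ P.relIndex (normalizer (H : Set G)) := by
    rw [← relIndex_mul_relIndex _ _ _ hPH (le_normalizer (H := H))]
    rw [hq.dvd_mul]
    push Not
    exact ⟨hPi, hHN⟩
  apply not_dvd_index_of_normalizer hPp hPN h2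
  exact hqi.trans (Subgroup.index_dvd_of_le hPH)

/-- the largest normal subgroup of order coprime to `m` -/
theorem sSup_coprime (m : ℕ) : (sSup {K : Subgroup G | K.Normal ∧ (Nat.card K).Coprime m}).Normal ∧
    (Nat.card (sSup {K : Subgroup G | K.Normal ∧ (Nat.card K).Coprime m} : Subgroup G)).Coprime m := by
  obtain ⟨M, ⟨hMn, hMc⟩, hmax⟩ := Set.Finite.exists_maximalFor (fun X : Subgroup G => Nat.card X)
    {K : Subgroup G | K.Normal ∧ (Nat.card K).Coprime m} (Set.toFinite _) ⟨⊥, inferInstance, by simp⟩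
  have hM : sSup {K : Subgroup G | K.Normal ∧ (Nat.card K).Coprime m} = M := by
    apply le_antisymm
    · apply sSup_le
      rintro K ⟨hKn, hKc⟩
      have h1 : (Nat.card (M ⊔ K : Subgroup G)).Coprime m :=
        Nat.Coprime.coprime_dvd_left (Cores.card_sup_dvd M K) (hMc.mul_left hKc)
      have h2 := hmax (j := M ⊔ K) ⟨inferInstance, h1⟩ (Subgroup.card_le_of_le le_sup_left)
      have h3 := Subgroup.eq_of_le_of_card_ge (le_sup_left : M ≤ M ⊔ K) h2
      rw [h3]; exact le_sup_right
    · exact le_sSup ⟨hMn, hMc⟩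
  rw [hM]
  exact ⟨hMn, hMc⟩

theorem le_sSup_coprime {m : ℕ} {K : Subgroup G} (hK : K.Normal) (hc : (Nat.card K).Coprime m) :
    K ≤ sSup {K : Subgroup G | K.Normal ∧ (Nat.card K).Coprime m} := le_sSup ⟨hK, hc⟩

/-- a normal subgroup above `O` -/
theorem exists_above {m : ℕ} (hm : ¬ (Nat.card G).Coprime m) {O : Subgroup G}
    (hO : O = sSup {K : Subgroup G | K.Normal ∧ (Nat.card K).Coprime m})
    (hsep : ∃ (n : ℕ) (M : Fin (n + 1) → Subgroup G), M 0 = ⊥ ∧ M (Fin.last n) = ⊤ ∧ Monotone M ∧ (∀ i, (M i).Normal) ∧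
      ∀ i : Fin n, (∀ q : ℕ, q.Prime → q ∣ (M i.castSucc).relIndex (M i.succ) → q ∣ m) ∨
        ((M i.castSucc).relIndex (M i.succ)).Coprime m) :
    ∃ K : Subgroup G, K.Normal ∧ O ≤ K ∧ O ≠ K ∧ ∀ q : ℕ, q.Prime → q ∣ O.relIndex K → q ∣ m := by
  obtain ⟨hOn, hOc⟩ := sSup_coprime (G := G) m
  rw [← hO] at hOn hOc
  obtain ⟨n, M, h0, hl, hmon, hn, hM⟩ := hsep
  obtain ⟨i, hi1, hi2⟩ : ∃ i : Fin n, M i.castSucc ≤ O ∧ ¬ M i.succ ≤ O := by
    by_contra hcon
    push Not at hcon
    have : ∀ j : Fin (n + 1), M j ≤ O := by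
      intro j
      induction j using Fin.induction with
      | zero => rw [h0]; exact bot_le
      | succ i ih => exact hcon i ih
    have h1 := this (Fin.last n)
    rw [hl, top_le_iff] at h1
    rw [h1, Subgroup.card_top] at hOc
    exact hm hOc
  have hin := hn i.succ
  have hrel : O.relIndex (O ⊔ M i.succ) ∣ (M i.castSucc).relIndex (M i.succ) := by
    rw [relIndex_sup_left]
    exact relIndex_dvd_of_le_left _ hi1
  refine ⟨O ⊔ M i.succ, inferInstance, le_sup_left, ?_, ?_⟩
  · intro h1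
    apply hi2
    rw [h1]; exact le_sup_right
  · rcases hM i with h1 | h1
    · intro q hq hqd
      exact h1 q hq (hqd.trans hrel)
    · exfalso
      apply hi2
      have h2 : (Nat.card (O ⊔ M i.succ : Subgroup G)).Coprime m := by
        rw [← Cores.card_mul_relIndex (le_sup_left : O ≤ O ⊔ M i.succ)]
        exact hOc.mul_left (h1.coprime_dvd_left hrel)
      have h3 := le_sSup_coprime (G := G) (m := m) (K := O ⊔ M i.succ) inferInstance h2
      rw [← hO] at h3
      exact le_sup_right.trans h3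

theorem part_one {H O : Subgroup G} (hTI : IsTISubset (H : Set G)) (hnn : ¬ H.Normal)
    (hH : (Nat.card H).Coprime H.index)
    (hO : O = sSup {K : Subgroup G | K.Normal ∧ (Nat.card K).Coprime (Nat.card H)})
    (hsep : ∃ (n : ℕ) (M : Fin (n + 1) → Subgroup G), M 0 = ⊥ ∧ M (Fin.last n) = ⊤ ∧ Monotone M ∧ (∀ i, (M i).Normal) ∧
      ∀ i : Fin n, (∀ q : ℕ, q.Prime → q ∣ (M i.castSucc).relIndex (M i.succ) → q ∣ Nat.card H) ∨
        ((M i.castSucc).relIndex (M i.succ)).Coprime (Nat.card H)) :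
    O ⊔ normalizer (H : Set G) = ⊤ ∧ (O ⊔ H).Normal := by
  have hHbot : H ≠ ⊥ := by rintro rfl; exact hnn inferInstance
  have hm : ¬ (Nat.card G).Coprime (Nat.card H) := by
    intro h1
    have h2 := Nat.Coprime.eq_one_of_dvd h1.symm (Subgroup.card_subgroup_dvd_card H)
    exact hHbot (Subgroup.card_eq_one.1 h2)
  obtain ⟨hOn, hOc⟩ := sSup_coprime (G := G) (Nat.card H)
  rw [← hO] at hOn hOc
  obtain ⟨K, hKn, hOK, hne, hK⟩ := exists_above hm hO hsep
  -- `K = O (K ⊓ H)`
  have hHK : (Nat.card H).Coprime (H.relIndex K) := by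
    have h1 : Nat.card (H ⊔ K : Subgroup G) = Nat.card K * K.relIndex H := by
      rw [← Cores.card_mul_relIndex (le_sup_right : K ≤ H ⊔ K), relIndex_sup_right]
    have h2 := Cores.card_mul_relIndex (le_sup_left : H ≤ H ⊔ K)
    have h3 : Nat.card (H ⊓ K : Subgroup G) * K.relIndex H = Nat.card H := by
      rw [← inf_relIndex_left]; exact Cores.card_mul_relIndex inf_le_left
    have h4 : Nat.card (H ⊓ K : Subgroup G) * H.relIndex K = Nat.card K := by
      rw [← inf_relIndex_right]; exact Cores.card_mul_relIndex inf_le_right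
    have h5 : H.relIndex K = H.relIndex (H ⊔ K) := by
      have h6 : Nat.card H * H.relIndex (H ⊔ K) = Nat.card H * H.relIndex K := by
        rw [h2, h1, ← h4]
        calc Nat.card (H ⊓ K : Subgroup G) * H.relIndex K * K.relIndex H
            = (Nat.card (H ⊓ K : Subgroup G) * K.relIndex H) * H.relIndex K := by ring
          _ = Nat.card H * H.relIndex K := by rw [h3]
      exact (Nat.eq_of_mul_eq_mul_left Nat.card_pos h6).symm
    rw [h5]
    exact hH.coprime_dvd_right (relIndex_dvd_index_of_le le_sup_left)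
  have hKOH : K ≤ O ⊔ (H ⊓ K) := by
    have hle : O ⊔ (H ⊓ K) ≤ K := sup_le hOK inf_le_right
    have h1 : (O ⊔ (H ⊓ K)).relIndex K ∣ O.relIndex K := relIndex_dvd_of_le_left K le_sup_left
    have h2 : (O ⊔ (H ⊓ K)).relIndex K ∣ H.relIndex K := by
      rw [← inf_relIndex_right H K]
      exact relIndex_dvd_of_le_left K le_sup_right
    have h3 : (O ⊔ (H ⊓ K)).relIndex K = 1 := by
      by_contra hcon
      obtain ⟨q, hq, hqd⟩ := Nat.exists_prime_and_dvd hcon
      have h4 := hK q hq (hqd.trans h1)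
      exact prime_absurd hq hHK h4 (hqd.trans h2)
    exact relIndex_eq_one.1 h3
  -- Frattini
  have hne1 : O.relIndex K ≠ 1 := by
    intro h1
    exact hne (le_antisymm hOK (relIndex_eq_one.1 h1))
  obtain ⟨q, hq, hqd⟩ := Nat.exists_prime_and_dvd hne1
  have hqH := hK q hq hqd
  have := Fact.mk hq
  obtain ⟨Q⟩ : Nonempty (Sylow q (H ⊓ K : Subgroup G)) := inferInstance
  obtain ⟨hPH, hPp, hPi⟩ := CoprimeAction.sylow_map_subtype_props Q
  set P := (Q : Subgroup (H ⊓ K : Subgroup G)).map (H ⊓ K).subtype with hPdef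
  have hPiK : ¬ q ∣ P.relIndex K := by
    rw [← relIndex_mul_relIndex _ _ _ hPH inf_le_right, hq.dvd_mul]
    push Not
    refine ⟨hPi, ?_⟩
    rw [inf_relIndex_right]
    intro h1
    exact prime_absurd hq hHK hqH h1
  have hqK : q ∣ Nat.card K := by
    rw [← Cores.card_mul_relIndex hOK]
    exact hqd.mul_left _
  have hPbot : P ≠ ⊥ := by
    intro h0
    rw [h0, relIndex_bot_left] at hPiK
    exact hPiK hqK
  obtain ⟨S, hS⟩ := CoprimeAction.exists_sylow_map_subtype_eq (hPH.trans inf_le_right) hPp hPiK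
  have hfr := Sylow.normalizer_sup_eq_top S
  rw [hS] at hfr
  have hPN := normalizer_le_of_ti hTI (hPH.trans inf_le_left) hPbot
  have hHN : H ≤ normalizer (H : Set G) := le_normalizer
  have htop : O ⊔ normalizer (H : Set G) = ⊤ := by
    rw [eq_top_iff, ← hfr]
    refine sup_le (hPN.trans le_sup_right) ?_
    exact hKOH.trans (sup_le_sup_left (inf_le_left.trans hHN) _)
  refine ⟨htop, ?_⟩
  rw [← normalizer_eq_top_iff, eq_top_iff, ← htop]
  apply sup_le
  · exact (le_sup_left : O ≤ O ⊔ H).trans le_normalizer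
  · apply LocBase.le_normalizer_sup
    · rw [normalizer_eq_top O]; exact le_top
    · exact le_rfl

theorem not_solvable_SL25 : ¬ Group.IsSolvable (Matrix.SpecialLinearGroup (Fin 2) (ZMod 5)) := by
  have e1 : (2 : ZMod 5) ≠ 0 := by decide
  have e2 : (2 : ZMod 5) ^ 2 ≠ 1 := by decide
  have : Fact (Nat.Prime 5) := ⟨Nat.prime_five⟩
  have hperf : commutator (Matrix.SpecialLinearGroup (Fin 2) (ZMod 5)) = ⊤ := by
    apply Cfsg.Agent.Lib.ClSLn.commutator_SL_eq_top'
    intro _
    exact ⟨2, e1, e2⟩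
  have hnt : Nontrivial (Matrix.SpecialLinearGroup (Fin 2) (ZMod 5)) := by
    rw [← Finite.one_lt_card_iff_nontrivial, SL25.card_mat]; norm_num
  rintro ⟨n, hn⟩
  have h2 : ∀ n, derivedSeries (Matrix.SpecialLinearGroup (Fin 2) (ZMod 5)) n = ⊤ := by
    intro n
    induction n with
    | zero => rfl
    | succ n ih => rw [derivedSeries_succ, ih]; exact hperf
  rw [h2 n] at hn
  exact top_ne_bot hn

/-- a Hall subgroup centralizing `O` is normal -/
theorem normal_of_centralizes {H O : Subgroup G} (hOn : O.Normal) (hOc : (Nat.card O).Coprime (Nat.card H))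
    (hOH : (O ⊔ H).Normal) (hc : O ≤ centralizer (H : Set G)) : H.Normal := by
  refine ⟨fun h hh g => ?_⟩
  have h1 : g * h * g⁻¹ ∈ O ⊔ H := hOH.conj_mem h (le_sup_right (a := O) hh) g
  obtain ⟨o, ho, k, hk, hok⟩ := (Subgroup.mem_sup_of_normal_left).mp h1
  have hcomm : Commute o k := (mem_centralizer_iff.1 (hc ho) k hk).symm
  have h2 : (g * h * g⁻¹) ^ Nat.card H = 1 := by
    have : h ^ Nat.card H = 1 := by
      have := pow_card_eq_one' (x := (⟨h, hh⟩ : H))
      exact congrArg Subtype.val this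
    rw [conj_pow, this]; simp
  have h3 : k ^ Nat.card H = 1 := by
    have := pow_card_eq_one' (x := (⟨k, hk⟩ : H))
    exact congrArg Subtype.val this
  rw [← hok, hcomm.mul_pow, h3, mul_one] at h2
  have h4 : o ^ Nat.card O = 1 := by
    have := pow_card_eq_one' (x := (⟨o, ho⟩ : O))
    exact congrArg Subtype.val this
  have h5 := Nat.dvd_gcd (orderOf_dvd_of_pow_eq_one h4) (orderOf_dvd_of_pow_eq_one h2)
  rw [hOc] at h5
  have h6 : o = 1 := orderOf_eq_one_iff.1 (Nat.dvd_one.1 h5)
  rw [← hok, h6, one_mul]; exact hk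

theorem part_two {H O : Subgroup G} (hTI : IsTISubset (H : Set G)) (hnn : ¬ H.Normal)
    (hH : (Nat.card H).Coprime H.index)
    (hO : O = sSup {K : Subgroup G | K.Normal ∧ (Nat.card K).Coprime (Nat.card H)})
    (htop : O ⊔ normalizer (H : Set G) = ⊤) (hOH : (O ⊔ H).Normal) (hOs : Group.IsSolvable O)
    (hno : ∀ K : Subgroup G, K ≤ H → ¬ Nonempty (K ≃* Matrix.SpecialLinearGroup (Fin 2) (ZMod 5))) :
    Group.IsSolvable G := by
  obtain ⟨hOn, hOc⟩ := sSup_coprime (G := G) (Nat.card H)
  rw [← hO] at hOn hOc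
  have hHO : H ≤ normalizer (O : Set G) := by rw [normalizer_eq_top O]; exact le_top
  have hOinf : ∀ x ∈ O, x ∈ H → x = 1 := by
    intro x hx hx'
    have h1 := Subgroup.inf_eq_bot_of_coprime hOc
    have h2 : x ∈ O ⊓ H := ⟨hx, hx'⟩
    rwa [h1] at h2
  have hocc : Occurs H := by
    apply occurs_of_fix hOs hHO hOc.symm
    · intro hc
      exact hnn (normal_of_centralizes hOn hOc hOH hc)
    · intro h hh h1 x hx hcomm
      -- `x` normalizes `H`
      have hxN : x ∈ normalizer (H : Set G) := by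
        by_contra hcon
        apply h1
        apply hTI x hcon h hh
        rw [← hcomm, mul_inv_cancel_right]; exact hh
      rw [mem_centralizer_iff]
      intro k hk
      have h2 : x * k * x⁻¹ ∈ H := (mem_normalizer_iff.1 hxN k).1 hk
      have h3 : x * k * x⁻¹ * k⁻¹ ∈ H := mul_mem h2 (inv_mem hk)
      have h4 : x * k * x⁻¹ * k⁻¹ ∈ O := by
        have : x * k * x⁻¹ * k⁻¹ = x * (k * x⁻¹ * k⁻¹) := by group
        rw [this]
        exact mul_mem hx (hOn.conj_mem _ (inv_mem hx) k)
      have h5 := hOinf _ h4 h3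
      exact (mul_inv_eq_iff_eq_mul.1 (mul_inv_eq_one.1 h5)).symm
  have hHs : Group.IsSolvable H := by
    by_contra hns
    obtain ⟨⟨e⟩, -⟩ := FrobFinal.structure_thm hocc hns
    apply hno ((FrobStruct.N3 H).map H.subtype) (map_subtype_le _)
    exact ⟨((FrobStruct.N3 H).equivMapOfInjective _ H.subtype_injective).symm.trans e⟩
  -- the quotient
  let K : Subgroup (G ⧸ O) := H.map (QuotientGroup.mk' O)
  have hinj : Function.Injective ((QuotientGroup.mk' O).comp H.subtype) := by
    rw [injective_iff_map_eq_one]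
    intro x hx
    exact Subtype.ext (hOinf x ((QuotientGroup.eq_one_iff _).1 hx) x.2)
  have eK : H ≃* K := by
    have h1 : K = ((QuotientGroup.mk' O).comp H.subtype).range := by
      rw [MonoidHom.range_comp, range_subtype]
    exact (MonoidHom.ofInjective hinj).trans (MulEquiv.subgroupCongr h1.symm)
  have hKn : K.Normal := by
    have h1 : K = (O ⊔ H).map (QuotientGroup.mk' O) := by
      rw [Subgroup.map_sup, QuotientGroup.map_mk'_self, bot_sup_eq]
    rw [h1]; exact hOH.map _ (QuotientGroup.mk'_surjective _)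
  have hKc : Nat.card K = Nat.card H := Nat.card_congr eK.symm.toEquiv
  have hKs : Group.IsSolvable K :=
    Group.isSolvable_of_isSolvable_injective (f := eK.symm.toMonoidHom) eK.symm.injective
  have hKo : Occurs K := hocc.of_equiv eK.symm
  have hKi : (Nat.card K).Coprime K.index := by
    rw [hKc]
    have h1 : K.index ∣ H.index := Subgroup.index_map_dvd H (QuotientGroup.mk'_surjective O)
    exact hH.coprime_dvd_right h1
  have hs : Group.IsSolvable (G ⧸ O) := by
    apply solvable_of_hall K hKs hKo hKi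
    intro B hB hBc
    rw [hKc] at hBc
    have h1 : Nat.card (B.comap (QuotientGroup.mk' O)) = Nat.card O * Nat.card B := Cores.card_comap_mk O B
    have h2 : B.comap (QuotientGroup.mk' O) ≤ O := by
      have := le_sSup_coprime (G := G) (m := Nat.card H) (K := B.comap (QuotientGroup.mk' O)) inferInstance
        (by rw [h1]; exact hOc.mul_left hBc)
      rwa [← hO] at this
    rw [eq_bot_iff]
    intro b hb
    obtain ⟨b, rfl⟩ := QuotientGroup.mk'_surjective O b
    exact (QuotientGroup.eq_one_iff b).2 (h2 hb)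
  exact Group.isSolvable_of_ker_le_range O.subtype (QuotientGroup.mk' O) (by simp)

end Cfsg.Agent.Lib.TIHall
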