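import Cfsg.Agent.Lib.FrobThm
import Cfsg.Agent.Lib.TIHall2
import Cfsg.Agent.Lib.TIHall3

/-!
# TI Hall subgroups with a normal complement in the normalizer (helper3)
-/

set_option autoImplicit false
open Cfsg
open scoped Pointwise ComplexConjugate

namespace Cfsg.Agent.Lib.H3TIHall

universe u

variable {G : Type u} [Group G]

/-- a character-theoretic extension lemma: if the set `N ∖ K` is TI in `G` with `K ⊲ N`, every irreducible
character of `N/K` extends to an irreducible character of `G`. -/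
theorem exists_extension [Finite G] (N : Subgroup G) (K : Subgroup N) [hKn : K.Normal]
    (hTI : ∀ g : G, g ∉ N → ∀ t : N, t ∉ K → ∀ s : N, s ∉ K → g * t * g⁻¹ ≠ s)
    {χ : N ⧸ K → ℂ} (hχ : IsIrrCharacter (N ⧸ K) χ) :
    ∃ ψ : G → ℂ, IsIrrCharacter G ψ ∧ (∀ n : N, n ∉ K → ψ n = χ (QuotientGroup.mk n)) ∧
      (∀ x : G, (∀ g : G, ∀ n : N, g⁻¹ * x * g = n → n ∈ K) → ψ x = χ 1) := by
  classical
  have := Fintype.ofFinite G
  have := Fintype.ofFinite N
  let χN : N → ℂ := fun n => χ (QuotientGroup.mk n)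
  have hχN : IsIrrCharacter N χN := hχ.inflate K
  obtain ⟨d, hd0, hd⟩ := hχN.exists_degree
  have hd' : χ 1 = d := hd
  set φ : N → ℂ := χN - (d : ℂ) • (1 : N → ℂ) with hφ
  have hφK : ∀ n : N, n ∈ K → φ n = 0 := by
    intro n hn
    have h1 : (QuotientGroup.mk n : N ⧸ K) = 1 := (QuotientGroup.eq_one_iff n).2 hn
    simp only [hφ, Pi.sub_apply, Pi.smul_apply, Pi.one_apply, χN, h1, hd']
    simp
  have hφ1 : φ 1 = 0 := hφK 1 K.one_mem
  have hφc : IsClassFunction N φ := by
    intro g h
    simp only [hφ, Pi.sub_apply, Pi.smul_apply, Pi.one_apply, hχN.isClassFunction g h]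
  have hφg : IsGeneralizedCharacter N φ :=
    hχN.isGeneralized.sub (CharBasic.isGeneralized_one.natCast_smul d)
  set θ : G → ℂ := indFun N φ with hθ
  set ψ : G → ℂ := θ + (d : ℂ) • (1 : G → ℂ) with hψ
  have hψg : IsGeneralizedCharacter G ψ :=
    (hφg.indFun N).add (CharBasic.isGeneralized_one.natCast_smul d)
  let T : Set G := {x | x = 1 ∨ ∃ n : N, n ∉ K ∧ (n : G) = x}
  have hTI' : ∀ g : G, g ∉ N → ∀ t ∈ T, g * t * g⁻¹ ∈ T → t = 1 := by
    intro g hg t ht hgt
    rcases ht with rfl | ⟨n, hn, rfl⟩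
    · rfl
    rcases hgt with h | ⟨m, hm, h⟩
    · exact (conj_eq_one_iff.1 h)
    · exact absurd h.symm (hTI g hg n hn m hm)
  have hφT : ∀ x : N, (x : G) ∉ T → φ x = 0 := by
    intro x hx
    apply hφK
    by_contra h
    exact hx (Or.inr ⟨x, h, rfl⟩)
  have hres : ∀ n : N, n ∉ K → θ n = φ n := by
    intro n hn
    have h1 : n ≠ 1 := fun h => hn (h ▸ K.one_mem)
    exact IndFun.indFun_ti T N hTI' φ hφc hφT n (Or.inr ⟨n, hn, rfl⟩) h1
  have hker : ∀ x : G, (∀ g : G, ∀ n : N, g⁻¹ * x * g = n → n ∈ K) → θ x = 0 := by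
    intro x hx
    rw [hθ, IndFun.indFun_apply]
    have : ∀ g : G, extendByZero N φ (g⁻¹ * x * g) = 0 := by
      intro g
      by_cases hg : g⁻¹ * x * g ∈ N
      · rw [IndFun.extendByZero_mem _ _ hg]
        exact hφK _ (hx g ⟨_, hg⟩ rfl)
      · exact IndFun.extendByZero_not_mem _ _ hg
    simp [this]
  -- inner products
  have e1 : classInner θ θ = classInner φ φ :=
    IndFun.classInner_indFun_ti T N hTI' φ φ hφT hφc hφT hφ1
  have e2 : classInner θ (1 : G → ℂ) = classInner φ (1 : N → ℂ) := by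
    rw [hθ, IndFun.frobenius_reciprocity N φ (1 : G → ℂ) (fun _ _ => rfl)]
    rfl
  have e3 : classInner (1 : G → ℂ) (1 : G → ℂ) = 1 :=
    (CharBasic.isCharacter_one.isIrr_of_one_eq_one rfl).classInner_self
  have e3' : classInner (1 : N → ℂ) (1 : N → ℂ) = 1 :=
    (CharBasic.isCharacter_one.isIrr_of_one_eq_one rfl).classInner_self
  have e4 : classInner χN χN = 1 := hχN.classInner_self
  have e5 : ∀ (a b : G → ℂ), conj (classInner a b) = classInner b a := by
    intro a b; exact CharBasic.conj_classInner a b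
  have e5' : ∀ (a b : N → ℂ), conj (classInner a b) = classInner b a := by
    intro a b; exact CharBasic.conj_classInner a b
  have hnorm : classInner ψ ψ = 1 := by
    have hc : conj (d : ℂ) = d := Complex.conj_natCast d
    have f1 : classInner φ (1 : N → ℂ) = classInner χN 1 - d := by
      rw [hφ, CharBasic.classInner_sub_left, CharBasic.classInner_smul_left, e3', mul_one]
    have f2 : classInner φ φ = 1 - d * classInner χN 1 - d * (classInner 1 χN - d) := by
      rw [hφ, CharBasic.classInner_sub_left, CharBasic.classInner_sub_right,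
        CharBasic.classInner_sub_right, CharBasic.classInner_smul_left,
        CharBasic.classInner_smul_right, CharBasic.classInner_smul_right,
        CharBasic.classInner_smul_left, e4, e3', hc]
      ring
    have f3 : classInner (1 : G → ℂ) θ = classInner 1 χN - d := by
      rw [← e5, e2, f1, map_sub, hc, e5']
    rw [hψ, CharBasic.classInner_add_left, CharBasic.classInner_add_right,
      CharBasic.classInner_add_right, CharBasic.classInner_smul_left,
      CharBasic.classInner_smul_right, CharBasic.classInner_smul_right,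
      CharBasic.classInner_smul_left, e1, e2, e3, f1, f2, f3, hc]
    ring
  have hker1 : θ 1 = 0 := by rw [hθ, IndFun.indFun_one, hφ1, mul_zero]
  have hψ1 : ψ 1 = d := by simp [hψ, hker1]
  refine ⟨ψ, hψg.irr_of_norm_one hnorm (by rw [hψ1]; simp), fun n hn => ?_, fun x hx => ?_⟩
  · simp [hψ, hres n hn, hφ, χN]
  · simp [hψ, hker x hx, hd']

theorem exists_normal_complement [Finite G] (N H : Subgroup G) (K : Subgroup N) [hKn : K.Normal]
    (hTI : ∀ g : G, g ∉ N → ∀ t : N, t ∉ K → ∀ s : N, s ∉ K → g * t * g⁻¹ ≠ s) (hHN : H ≤ N)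
    (hc : K.IsComplement' (H.subgroupOf N)) : ∃ M : Subgroup G, M.Normal ∧ M.IsComplement' H := by
  classical
  choose ψ hψ1 hψ2 hψ3 using fun χ : IrrCharacter (N ⧸ K) => exists_extension N K hTI χ.2
  choose L hLn hL using fun χ : IrrCharacter (N ⧸ K) => FrobThm.exists_charKer (hψ1 χ).isCharacter
  obtain ⟨M, hM⟩ : ∃ M : Subgroup G, M = ⨅ χ, L χ := ⟨_, rfl⟩
  have hMn : M.Normal := by rw [hM]; exact Subgroup.normal_iInf_normal hLn
  have hone : ∀ χ : IrrCharacter (N ⧸ K), ψ χ 1 = (χ : N ⧸ K → ℂ) 1 := by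
    intro χ
    apply hψ3
    intro g n hn
    have : n = 1 := by
      apply Subtype.ext
      rw [← hn]; simp
    rw [this]; exact K.one_mem
  have hMmem : ∀ x : G, (∀ g : G, ∀ n : N, g⁻¹ * x * g = n → n ∈ K) → x ∈ M := by
    intro x hx
    rw [hM, Subgroup.mem_iInf]
    intro χ
    rw [hL, hψ3 χ x hx, hone]
  have hMK : ∀ n : N, (n : G) ∈ M → n ∈ K := by
    intro n hn
    by_contra hnK
    have hconj : IsConj (QuotientGroup.mk n : N ⧸ K) 1 := by
      rw [CharBasic.isConj_iff_forall_irr]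
      intro χ
      rw [hM] at hn
      have h1 := (Subgroup.mem_iInf.1 hn) χ
      rw [hL, hone, hψ2 χ n hnK] at h1
      exact h1
    rw [isConj_one_left, QuotientGroup.eq_one_iff] at hconj
    exact hnK hconj
  have hdisj : Disjoint M H := by
    rw [Subgroup.disjoint_def]
    intro x hx hxH
    have h1 : (⟨x, hHN hxH⟩ : N) ∈ K := hMK _ hx
    have h2 : (⟨x, hHN hxH⟩ : N) ∈ H.subgroupOf N := hxH
    have h3 := Subgroup.disjoint_def.1 hc.disjoint h1 h2
    exact congrArg Subtype.val h3
  -- counting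
  let U : Set G := {x : G | ∃ g : G, ∃ n : N, n ∉ K ∧ g⁻¹ * x * g = n}
  have hU : (Uᶜ : Set G) ⊆ (M : Set G) := by
    intro x hx
    apply hMmem
    intro g n hgn
    by_contra hn
    exact hx ⟨g, n, hn, hgn⟩
  have hUcard : Nat.card U ≤ N.index * Nat.card {n : N | n ∉ K} := by
    rw [Subgroup.index, ← Nat.card_prod]
    apply Nat.card_le_card_of_surjective
      (fun q : (G ⧸ N) × {n : N | n ∉ K} => (⟨q.1.out * (q.2 : N) * q.1.out⁻¹, ⟨q.1.out, q.2, q.2.2, by group⟩⟩ : U))
    rintro ⟨x, g, n, hn, hgn⟩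
    obtain ⟨m, hm⟩ := QuotientGroup.mk_out_eq_mul N g
    refine ⟨⟨QuotientGroup.mk g, ⟨m⁻¹ * n * m, ?_⟩⟩, ?_⟩
    · intro h
      apply hn
      have := hKn.conj_mem _ h m
      have e : m * (m⁻¹ * n * m) * m⁻¹ = n := by group
      rwa [e] at this
    · apply Subtype.ext
      simp only [hm]
      rw [show x = g * (n : G) * g⁻¹ by rw [← hgn]; group]
      push_cast
      group
  have hKc : Nat.card {n : N | n ∉ K} + Nat.card K = Nat.card N := by
    have h1 := Set.ncard_add_ncard_compl (K : Set N)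
    have h2 : Nat.card {n : N | n ∉ K} = ((K : Set N)ᶜ).ncard := rfl
    have h3 : Nat.card K = (K : Set N).ncard := rfl
    omega
  have hUc : Nat.card U + (Uᶜ).ncard = Nat.card G := Set.ncard_add_ncard_compl U
  have hMc : (Uᶜ).ncard ≤ Nat.card M := Set.ncard_le_ncard hU
  have hKH : Nat.card K * Nat.card H = Nat.card N := by
    have h1 := hc.card_mul_card
    have h2 : Nat.card (H.subgroupOf N) = Nat.card H := Nat.card_congr (Subgroup.subgroupOfEquivOfLe hHN).toEquiv
    rw [h2] at h1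
    exact h1
  have hNi := N.card_mul_index
  refine ⟨M, hMn, Subgroup.isComplement'_of_card_mul_and_disjoint ?_ hdisj⟩
  apply le_antisymm
  · -- disjointness
    have h1 : Nat.card (M × H) ≤ Nat.card G := by
      apply Nat.card_le_card_of_injective (fun q : M × H => (q.1 : G) * q.2)
      rintro ⟨m, h⟩ ⟨m', h'⟩ he
      have := Subgroup.mul_injective_of_disjoint hdisj (a₁ := (m, h)) (a₂ := (m', h')) he
      exact this
    rwa [Nat.card_prod] at h1
  · -- |G| ≤ |M||H|
    have h2 : N.index * Nat.card K ≤ Nat.card M := by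
      have h3 : N.index * Nat.card {n : N | n ∉ K} + N.index * Nat.card K = Nat.card G := by
        rw [← mul_add, hKc, mul_comm]; exact hNi
      omega
    have h4 : Nat.card G = (N.index * Nat.card K) * Nat.card H := by
      rw [← hNi, ← hKH]; ring
    rw [h4]
    exact Nat.mul_le_mul_right (Nat.card H) h2

section cjs
open Subgroup

variable [Finite G] {H : Subgroup G}

theorem ti_norm (hTI : IsTISubset (H : Set G)) {g x : G} (hx : x ∈ H) (hx1 : x ≠ 1) (hgx : g * x * g⁻¹ ∈ H) :
    g ∈ normalizer (H : Set G) := by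
  by_contra hg
  exact hx1 (hTI g hg x hx hgx)

/-- a `π`-element normalizing `H` lies in `H` -/
theorem mem_of_normalizer (hH : (Nat.card H).Coprime H.index) {x : G} (hx : x ∈ normalizer (H : Set G))
    (hxo : (orderOf x).Coprime H.index) : x ∈ H := by
  have hn : (H.subgroupOf (normalizer (H : Set G))).Normal := inferInstance
  have h1 : (QuotientGroup.mk' (H.subgroupOf (normalizer (H : Set G)))) ⟨x, hx⟩ = 1 := by
    rw [← orderOf_eq_one_iff]
    have h2 : orderOf ((QuotientGroup.mk' (H.subgroupOf (normalizer (H : Set G)))) ⟨x, hx⟩) ∣ orderOf x := by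
      rw [← Subgroup.orderOf_mk x hx]
      exact orderOf_map_dvd _ _
    have h3 : orderOf ((QuotientGroup.mk' (H.subgroupOf (normalizer (H : Set G)))) ⟨x, hx⟩) ∣ H.index := by
      refine (_root_.orderOf_dvd_natCard _).trans ?_
      exact Subgroup.relIndex_dvd_index_of_le le_normalizer
    have h4 := Nat.dvd_gcd h2 h3
    rw [hxo] at h4
    exact Nat.dvd_one.1 h4
  rw [QuotientGroup.mk'_apply, QuotientGroup.eq_one_iff] at h1
  exact h1

/-- every nontrivial `π`-element is conjugate into `H` -/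
theorem exists_conj_mem (hTI : IsTISubset (H : Set G)) (hH : (Nat.card H).Coprime H.index) {x : G}
    (hx1 : x ≠ 1) (hxo : (orderOf x).Coprime H.index) : ∃ g : G, g⁻¹ * x * g ∈ H := by
  have h1 : orderOf x ≠ 1 := fun h => hx1 (orderOf_eq_one_iff.1 h)
  obtain ⟨p, hp, hpd⟩ := Nat.exists_prime_and_dvd h1
  have := Fact.mk hp
  have hpos : orderOf x ≠ 0 := (orderOf_pos x).ne'
  obtain ⟨y, hy⟩ : ∃ y, y = x ^ (orderOf x / p) := ⟨_, rfl⟩
  have hyo : orderOf y = p := by rw [hy]; exact orderOf_pow_orderOf_div hpos hpd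
  have hy1 : y ≠ 1 := by
    intro h
    rw [h, orderOf_one] at hyo
    exact hp.one_lt.ne hyo
  have hpi : ¬ p ∣ H.index := by
    intro h
    have h2 := Nat.dvd_gcd hpd h
    rw [hxo] at h2
    exact hp.one_lt.ne' (Nat.dvd_one.1 h2)
  obtain ⟨Q⟩ : Nonempty (Sylow p H) := inferInstance
  obtain ⟨hPH, hPp, hPi⟩ := CoprimeAction.sylow_map_subtype_props Q
  have hPi' : ¬ p ∣ ((Q : Subgroup H).map H.subtype).index := by
    rw [← relIndex_mul_index hPH, hp.dvd_mul]
    push Not
    exact ⟨hPi, hpi⟩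
  let S : Sylow p G := hPp.toSylow hPi'
  have hyp : IsPGroup p (zpowers y) := IsPGroup.of_card (n := 1) (by rw [Nat.card_zpowers, hyo, pow_one])
  obtain ⟨S', hS'⟩ := hyp.exists_le_sylow
  obtain ⟨g, hg⟩ := MulAction.exists_smul_eq G S S'
  have hyS : y ∈ (S' : Subgroup G) := hS' (mem_zpowers y)
  rw [← hg] at hyS
  have h3 : g⁻¹ * y * g ∈ (S : Subgroup G) := by
    have : y ∈ MulAut.conj g • (S : Subgroup G) := hyS
    exact FrobGroup.mem_conj_smul.1 this
  have h4 : g⁻¹ * y * g ∈ H := hPH h3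
  refine ⟨g, ?_⟩
  apply mem_of_normalizer hH
  · apply ti_norm hTI h4
    · intro h
      apply hy1
      have : y = g * (g⁻¹ * y * g) * g⁻¹ := by group
      rw [this, h]; group
    · have hc : Commute x y := by rw [hy]; exact (Commute.refl x).pow_right _
      have : (g⁻¹ * x * g) * (g⁻¹ * y * g) * (g⁻¹ * x * g)⁻¹ = g⁻¹ * (x * y * x⁻¹) * g := by group
      rw [this, hc.eq, mul_inv_cancel_right]
      exact h4
  · have : orderOf (g⁻¹ * x * g) = orderOf x := by
      have h5 := (MulAut.conj g⁻¹).orderOf_eq x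
      rw [MulAut.conj_apply, inv_inv] at h5
      exact h5
    rw [this]; exact hxo

/-- every `π`-subgroup is conjugate into the TI Hall `π`-subgroup `H` -/
theorem exists_conj_le (hTI : IsTISubset (H : Set G)) (hH : (Nat.card H).Coprime H.index) (X : Subgroup G)
    (hX : (Nat.card X).Coprime H.index) : ∃ g : G, ∀ x ∈ X, g⁻¹ * x * g ∈ H := by
  classical
  have hXo : ∀ x ∈ X, (orderOf x).Coprime H.index := by
    intro x hx
    refine Nat.Coprime.coprime_dvd_left ?_ hX
    rw [← Subgroup.orderOf_mk x hx]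
    exact _root_.orderOf_dvd_natCard _
  by_cases hX1 : X = ⊥
  · refine ⟨1, ?_⟩
    intro x hx
    rw [hX1, Subgroup.mem_bot] at hx
    rw [hx]; simp
  by_contra hcon
  push Not at hcon
  -- elements `a, b` in the same conjugate
  have hsame : ∀ g g' x : G, x ≠ 1 → g⁻¹ * x * g ∈ H → g'⁻¹ * x * g' ∈ H → g'⁻¹ * g ∈ normalizer (H : Set G) := by
    intro g g' x hx1 h1 h2
    apply ti_norm hTI h1
    · intro h
      apply hx1
      have : x = g * (g⁻¹ * x * g) * g⁻¹ := by group
      rw [this, h]; group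
    · have : g'⁻¹ * g * (g⁻¹ * x * g) * (g'⁻¹ * g)⁻¹ = g'⁻¹ * x * g' := by group
      rw [this]; exact h2
  have hnorm : ∀ g g' x : G, g'⁻¹ * g ∈ normalizer (H : Set G) → g⁻¹ * x * g ∈ H → g'⁻¹ * x * g' ∈ H := by
    intro g g' x h1 h2
    have := (mem_normalizer_iff.1 h1 (g⁻¹ * x * g)).1 h2
    have e : g'⁻¹ * g * (g⁻¹ * x * g) * (g'⁻¹ * g)⁻¹ = g'⁻¹ * x * g' := by group
    rwa [e] at this
  let A : G → Subgroup X := fun g => (MulAut.conj g • H).subgroupOf X
  have hA : ∀ (g : G) (x : X), x ∈ A g ↔ g⁻¹ * x * g ∈ H := by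
    intro g x
    rw [mem_subgroupOf, FrobGroup.mem_conj_smul]
  have hfrob : ∀ g : G, (∃ x ∈ A g, x ≠ 1) → IsFrobeniusComplement (A g) := by
    rintro g ⟨x, hx, hx1⟩
    refine ⟨?_, ?_, ?_⟩
    · intro h
      rw [h, Subgroup.mem_bot] at hx
      exact hx1 hx
    · intro h
      obtain ⟨y, hy, hy2⟩ := hcon g
      apply hy2
      rw [← hA g ⟨y, hy⟩, h]
      exact Subgroup.mem_top _
    · intro y hy
      rw [eq_bot_iff]
      intro z hz
      rw [Subgroup.mem_bot]
      by_contra hz1
      obtain ⟨hz2, hz3⟩ := Subgroup.mem_inf.1 hz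
      rw [FrobGroup.mem_conj_smul, hA] at hz3
      rw [hA] at hz2
      apply hy
      rw [hA]
      have hz1' : (z : G) ≠ 1 := fun h => hz1 (Subtype.ext h)
      have h3 : (y * g)⁻¹ * (z : G) * (y * g) ∈ H := by
        have : (y * g)⁻¹ * (z : G) * (y * g) = g⁻¹ * ((y⁻¹ * z * y : X) : G) * g := by
          push_cast; group
        rw [this]; exact hz3
      have h4 := hsame (y * g) g z hz1' h3 hz2
      have h5 : g⁻¹ * (y * g) = g⁻¹ * y * g := by group
      rw [h5] at h4
      apply mem_of_normalizer hH h4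
      have h6 := (MulAut.conj g⁻¹).orderOf_eq (y : G)
      rw [MulAut.conj_apply, inv_inv] at h6
      rw [h6]
      exact hXo y y.2
  obtain ⟨x, hx, hx1⟩ := (Subgroup.bot_or_exists_ne_one X).resolve_left hX1
  obtain ⟨g, hg⟩ := exists_conj_mem hTI hH hx1 (hXo x hx)
  have hFA := hfrob g ⟨⟨x, hx⟩, (hA g ⟨x, hx⟩).2 hg, fun h => hx1 (congrArg Subtype.val h)⟩
  obtain ⟨y, hy, hy1⟩ := FrobGroup.exists_kernel_ne_one hFA
  have hy1' : (y : G) ≠ 1 := fun h => hy1 (Subtype.ext h)
  obtain ⟨g', hg'⟩ := exists_conj_mem hTI hH hy1' (hXo y y.2)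
  have hFB := hfrob g' ⟨y, (hA g' y).2 hg', hy1⟩
  have hcover : ∀ z : X, z ∈ frobeniusKernel (A g) ∨ z ∈ frobeniusKernel (A g') := by
    intro z
    by_contra hz
    push Not at hz
    rw [FrobGroup.mem_kernel_iff, FrobGroup.mem_kernel_iff] at hz
    push Not at hz
    obtain ⟨⟨hz1, u, hu⟩, -, v, hv⟩ := hz
    rw [hA] at hu hv
    have hz1' : (z : G) ≠ 1 := fun h => hz1 (Subtype.ext h)
    have hu' : (u * g)⁻¹ * (z : G) * (u * g) ∈ H := by
      have : (u * g)⁻¹ * (z : G) * (u * g) = g⁻¹ * ((u⁻¹ * z * u : X) : G) * g := by push_cast; group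
      rw [this]; exact hu
    have hv' : (v * g')⁻¹ * (z : G) * (v * g') ∈ H := by
      have : (v * g')⁻¹ * (z : G) * (v * g') = g'⁻¹ * ((v⁻¹ * z * v : X) : G) * g' := by push_cast; group
      rw [this]; exact hv
    have h1 := hsame (v * g') (u * g) z hz1' hv' hu'
    -- y lies in a conjugate of A g
    have h2 := hnorm (v * g') (u * g) (v * y * v⁻¹) h1 (by
      have : ((v : G) * g')⁻¹ * ((v : G) * y * ((v⁻¹ : X) : G)) * (v * g') = g'⁻¹ * y * g' := by push_cast; group
      rw [this]; exact hg')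
    rw [FrobGroup.mem_kernel_iff] at hy
    rcases hy with hy | hy
    · exact hy1 hy
    · apply hy (v⁻¹ * u)
      rw [hA]
      have : g⁻¹ * (((v⁻¹ * u)⁻¹ * y * (v⁻¹ * u) : X) : G) * g = ((u : G) * g)⁻¹ * (v * y * (v : G)⁻¹) * (u * g) := by
        push_cast; group
      rw [this]; exact h2
  -- counting
  have hcA := FrobGroup.card_kernel hFA
  have hcB := FrobGroup.card_kernel hFB
  have h1 : (frobeniusKernel (A g) ∪ frobeniusKernel (A g')) = Set.univ := by
    ext z
    simp only [Set.mem_union, Set.mem_univ, iff_true]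
    exact hcover z
  have h2 : (frobeniusKernel (A g) ∪ frobeniusKernel (A g')).ncard + (frobeniusKernel (A g) ∩ frobeniusKernel (A g')).ncard
      = (frobeniusKernel (A g)).ncard + (frobeniusKernel (A g')).ncard :=
    Set.ncard_union_add_ncard_inter _ _
  have h3 : 0 < (frobeniusKernel (A g) ∩ frobeniusKernel (A g')).ncard := by
    rw [Set.ncard_pos]
    exact ⟨1, FrobGroup.one_mem_kernel _, FrobGroup.one_mem_kernel _⟩
  rw [h1, Set.ncard_univ] at h2
  have h4 : (frobeniusKernel (A g)).ncard = (A g).index := hcA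
  have h5 : (frobeniusKernel (A g')).ncard = (A g').index := hcB
  have h6 := (A g).card_mul_index
  have h7 := (A g').card_mul_index
  have h8 := FrobGroup.one_lt_card hFA
  have h9 := FrobGroup.one_lt_card hFB
  have h10 : 2 * (A g).index ≤ Nat.card X := by rw [← h6]; exact Nat.mul_le_mul_right _ h8
  have h11 : 2 * (A g').index ≤ Nat.card X := by rw [← h7]; exact Nat.mul_le_mul_right _ h9
  omega

end cjs


section occ
open Subgroup

variable [Finite G] {H : Subgroup G}

theorem exists_inv_sylow (hTI : IsTISubset (H : Set G)) (hH : (Nat.card H).Coprime H.index) {M : Subgroup G}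
    (hM : M.Normal) (hMH : M.IsComplement' H) (r : ℕ) [hr : Fact r.Prime] :
    ∃ R : Subgroup G, R ≤ M ∧ IsPGroup r R ∧ ¬ r ∣ R.relIndex M ∧ H ≤ normalizer (R : Set G) := by
  obtain ⟨R₀⟩ : Nonempty (Sylow r M) := inferInstance
  obtain ⟨hRM, hRp, hRi⟩ := CoprimeAction.sylow_map_subtype_props R₀
  have hfr := Sylow.normalizer_sup_eq_top R₀
  obtain ⟨R, hR⟩ : ∃ R, R = (R₀ : Subgroup M).map M.subtype := ⟨_, rfl⟩
  rw [← hR] at hRM hRp hRi hfr
  have hMc : H.index = Nat.card M := hMH.index_eq_card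
  have hMi : M.index = Nat.card H := hMH.symm.index_eq_card
  obtain ⟨S, hS⟩ : ∃ S, S = normalizer (R : Set G) := ⟨_, rfl⟩
  rw [← hS] at hfr
  have hrel : M.relIndex S = Nat.card H := by
    have h1 : M.relIndex S = M.relIndex (S ⊔ M) := by
      rw [relIndex_sup_right]
    rw [h1, hfr, relIndex_top_right, hMi]
  obtain ⟨H', hH'S, hH'c, -, -⟩ := CoprimeAction.exists_complement_rel (N := M) (S := S)
    (by rw [normalizer_eq_top_iff.2 hM]; exact le_top) (by
      rw [hrel]
      refine Nat.Coprime.coprime_dvd_left (Subgroup.card_dvd_of_le inf_le_left) ?_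
      rw [← hMc]; exact hH.symm)
  rw [hrel] at hH'c
  obtain ⟨g, hg⟩ := exists_conj_le hTI hH H' (by rw [hH'c]; exact hH)
  -- H' = g H g⁻¹
  have hH'eq : H' = MulAut.conj g • H := by
    apply Subgroup.eq_of_le_of_card_ge
    · intro x hx
      rw [FrobGroup.mem_conj_smul]
      exact hg x hx
    · rw [hH'c, SubgroupTools.card_conj_smul]
  have hHS : ∀ h ∈ H, g * h * g⁻¹ ∈ normalizer (R : Set G) := by
    intro h hh
    rw [← hS]
    apply hH'S
    rw [hH'eq, FrobGroup.mem_conj_smul]
    have : g⁻¹ * (g * h * g⁻¹) * g = h := by group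
    rw [this]; exact hh
  refine ⟨MulAut.conj g⁻¹ • R, ?_, ?_, ?_, ?_⟩
  · intro x hx
    rw [FrobGroup.mem_conj_smul, inv_inv] at hx
    have := hM.conj_mem _ (hRM hx) g⁻¹
    have e : g⁻¹ * (g * x * g⁻¹) * g⁻¹⁻¹ = x := by group
    rwa [e] at this
  · rw [SubgroupTools.conj_smul_eq_map]
    exact hRp.map _
  · have h1 : (MulAut.conj g⁻¹ • R).relIndex M = R.relIndex M := by
      have h2 : (MulAut.conj g⁻¹ • M : Subgroup G) = M := SubgroupTools.conj_smul_normal g⁻¹ M
      conv_lhs => rw [← h2]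
      exact Subgroup.relIndex_pointwise_smul _ _ _
    rw [h1]; exact hRi
  · intro h hh
    rw [mem_normalizer_iff]
    intro x
    rw [FrobGroup.mem_conj_smul, FrobGroup.mem_conj_smul, inv_inv]
    rw [mem_normalizer_iff.1 (hHS h hh) (g * x * g⁻¹)]
    have : g * h * g⁻¹ * (g * x * g⁻¹) * (g * h * g⁻¹)⁻¹ = g * (h * x * h⁻¹) * g⁻¹ := by group
    rw [this]

theorem occurs (hTI : IsTISubset (H : Set G)) (hH : (Nat.card H).Coprime H.index) (hnn : ¬ H.Normal) {M : Subgroup G}
    (hM : M.Normal) (hMH : M.IsComplement' H) : FrobExist.Occurs H := by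
  have hMc : H.index = Nat.card M := hMH.index_eq_card
  by_cases hall : ∀ r : ℕ, r.Prime → ∃ R : Subgroup G, R ≤ M ∧ IsPGroup r R ∧ ¬ r ∣ R.relIndex M ∧ R ≤ centralizer (H : Set G)
  · exfalso
    apply hnn
    have h1 : M ≤ centralizer (H : Set G) := by
      rw [← relIndex_eq_one]
      by_contra h
      obtain ⟨r, hr, hrd⟩ := Nat.exists_prime_and_dvd h
      obtain ⟨R, -, -, h2, h3⟩ := hall r hr
      exact h2 (hrd.trans (relIndex_dvd_of_le_left M h3))
    rw [← normalizer_eq_top_iff, eq_top_iff, ← hMH.sup_eq_top]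
    exact sup_le (h1.trans (centralizer_le_normalizer _)) le_normalizer
  · push Not at hall
    obtain ⟨r, hr, hall⟩ := hall
    have := Fact.mk hr
    obtain ⟨R, hRM, hRp, hRi, hRn⟩ := exists_inv_sylow hTI hH hM hMH r
    have hRc := hall R hRM hRp hRi
    refine TIHall.occurs_of_fix (O := R) (PConstrained.isSolvable_of_isPGroup hRp) hRn ?_ hRc ?_
    · exact Nat.Coprime.coprime_dvd_right (Subgroup.card_dvd_of_le hRM) (hMc ▸ hH)
    · intro h hh hh1 x hx hxh
      have hxn : x ∈ normalizer (H : Set G) := by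
        apply ti_norm hTI hh hh1
        rw [← hxh, mul_inv_cancel_right]; exact hh
      rw [mem_centralizer_iff]
      intro k hk
      have h1 : x * k * x⁻¹ * k⁻¹ ∈ H := mul_mem ((mem_normalizer_iff.1 hxn k).1 hk) (inv_mem hk)
      have h2 : x * k * x⁻¹ * k⁻¹ ∈ M := by
        have e : x * k * x⁻¹ * k⁻¹ = x * (k * x⁻¹ * k⁻¹) := by group
        rw [e]
        exact mul_mem (hRM hx) (hM.conj_mem _ (inv_mem (hRM hx)) k)
      have h3 := Subgroup.disjoint_def.1 hMH.disjoint h2 h1
      rw [mul_inv_eq_one, mul_inv_eq_iff_eq_mul] at h3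
      exact h3.symm

end occ

/-- the TI condition for `N ∖ K` -/
theorem ti_set [Finite G] {H : Subgroup G} (hTI : IsTISubset (H : Set G)) (hH : (Nat.card H).Coprime H.index)
    (K : Subgroup (Subgroup.normalizer (H : Set G))) [hKn : K.Normal]
    (hc : K.IsComplement' (H.subgroupOf (Subgroup.normalizer (H : Set G)))) :
    ∀ g : G, g ∉ Subgroup.normalizer (H : Set G) → ∀ t : Subgroup.normalizer (H : Set G), t ∉ K →
      ∀ s : Subgroup.normalizer (H : Set G), s ∉ K → g * t * g⁻¹ ≠ s := by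
  intro g hg t ht s hs hgts
  have hn : (H.subgroupOf (Subgroup.normalizer (H : Set G))).Normal := inferInstance
  have hKc : Nat.card K = (H.subgroupOf (Subgroup.normalizer (H : Set G))).index := hc.index_eq_card.symm
  have hcop : (Nat.card H).Coprime (Nat.card K) := by
    rw [hKc]
    refine Nat.Coprime.coprime_dvd_right ?_ hH
    exact Subgroup.relIndex_dvd_index_of_le Subgroup.le_normalizer
  -- elements: t ^ |K| ∈ H and is nontrivial
  have key : ∀ t : Subgroup.normalizer (H : Set G), t ∉ K → ((t : G) ^ Nat.card K ∈ H ∧ (t : G) ^ Nat.card K ≠ 1) := by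
    intro t ht
    refine ⟨?_, ?_⟩
    · have h1 : t ^ (H.subgroupOf (Subgroup.normalizer (H : Set G))).index ∈ H.subgroupOf (Subgroup.normalizer (H : Set G)) :=
        Subgroup.pow_index_mem _ t
      rw [← hKc] at h1
      exact h1
    · intro h
      apply ht
      have h0 : t ^ Nat.card K = 1 := Subtype.ext h
      have h1 : (QuotientGroup.mk' K t) = 1 := by
        rw [← orderOf_eq_one_iff]
        have h2 : orderOf (QuotientGroup.mk' K t) ∣ Nat.card K := by
          apply orderOf_dvd_of_pow_eq_one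
          rw [← map_pow, h0, map_one]
        have h3 : orderOf (QuotientGroup.mk' K t) ∣ Nat.card H := by
          refine (_root_.orderOf_dvd_natCard _).trans ?_
          have h4 : K.index = Nat.card (H.subgroupOf (Subgroup.normalizer (H : Set G))) := hc.symm.index_eq_card
          have h5 : Nat.card (H.subgroupOf (Subgroup.normalizer (H : Set G))) = Nat.card H :=
            Nat.card_congr (Subgroup.subgroupOfEquivOfLe Subgroup.le_normalizer).toEquiv
          rw [h5] at h4
          rw [← h4]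
          rfl
        have h4 := Nat.dvd_gcd h3 h2
        rw [hcop] at h4
        exact Nat.dvd_one.1 h4
      rw [QuotientGroup.mk'_apply, QuotientGroup.eq_one_iff] at h1
      exact h1
  obtain ⟨h1, h2⟩ := key t ht
  obtain ⟨h3, h4⟩ := key s hs
  apply h2
  apply hTI g hg _ h1
  have : g * (t : G) ^ Nat.card K * g⁻¹ = (s : G) ^ Nat.card K := by
    rw [← hgts, conj_pow]
  rw [this]; exact h3

theorem main [Finite G] (H : Subgroup G)
    (hTI : Cfsg.IsTISubset (H : Set G)) (hHall : (Nat.card H).Coprime (H.subgroupOf (Subgroup.normalizer (H : Set G))).index) :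
    ((∃ K : Subgroup (Subgroup.normalizer (H : Set G)), K.Normal ∧ K.IsComplement' (H.subgroupOf (Subgroup.normalizer (H : Set G)))) ↔
      (∃ N : Subgroup G, N.Normal ∧ N.IsComplement' H)) ∧
    (¬ H.Normal → (∃ K : Subgroup (Subgroup.normalizer (H : Set G)), K.Normal ∧ K.IsComplement' (H.subgroupOf (Subgroup.normalizer (H : Set G)))) →
      FrobExist.Occurs H) := by
  have hH : (Nat.card H).Coprime H.index := TIHall.hall_of_ti hTI hHall
  have h1 : (∃ K : Subgroup (Subgroup.normalizer (H : Set G)), K.Normal ∧ K.IsComplement' (H.subgroupOf (Subgroup.normalizer (H : Set G)))) →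
      (∃ N : Subgroup G, N.Normal ∧ N.IsComplement' H) := by
    rintro ⟨K, hK, hc⟩
    exact exists_normal_complement _ H K (ti_set hTI hH K hc) Subgroup.le_normalizer hc
  refine ⟨⟨h1, ?_⟩, ?_⟩
  · rintro ⟨M, hM, hMH⟩
    refine ⟨M.subgroupOf _, inferInstance, ?_⟩
    apply Subgroup.isComplement'_of_disjoint_and_mul_eq_univ
    · rw [Subgroup.disjoint_def]
      intro x hx hx'
      exact Subtype.ext (Subgroup.disjoint_def.1 hMH.disjoint hx hx')
    · ext x
      simp only [Set.mem_univ, iff_true]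
      have h2 : (x : G) ∈ M ⊔ H := by rw [hMH.sup_eq_top]; exact Subgroup.mem_top _
      obtain ⟨m, hm, h, hh, hmh⟩ := Subgroup.mem_sup_of_normal_left.1 h2
      have hhN : h ∈ Subgroup.normalizer (H : Set G) := Subgroup.le_normalizer hh
      have hmN : m ∈ Subgroup.normalizer (H : Set G) := by
        have : m = x * h⁻¹ := by rw [← hmh]; group
        rw [this]
        exact mul_mem x.2 (inv_mem hhN)
      exact ⟨⟨m, hmN⟩, hm, ⟨h, hhN⟩, hh, Subtype.ext hmh⟩
  · intro hnn hK
    obtain ⟨M, hM, hMH⟩ := h1 hK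
    exact occurs hTI hH hnn hM hMH

end Cfsg.Agent.Lib.H3TIHall
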