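import Mathlib
import Cfsg.Agent.Lib.RankTwoOrder

/-!
# Four-transitive groups with odd four-point stabilizer (helper43), part A

Abstract lemmas: involutions acting on groups of odd order.
-/

set_option autoImplicit false

namespace Cfsg.Agent.Lib.H43FourA

open Subgroup

variable {Γ : Type*} [Group Γ] [Finite Γ]

/-- Two involutions agreeing modulo a subgroup `K` of odd order normalised by the second are
conjugate under `K`. -/
theorem exists_conj (K : Subgroup Γ) (hK : ¬ 2 ∣ Nat.card K) {s t : Γ} (hs : s * s = 1)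
    (ht : t * t = 1) (hn : ∀ k ∈ K, t * k * t⁻¹ ∈ K) (hts : t * s ∈ K) :
    ∃ k ∈ K, k * s * k⁻¹ = t := by
  classical
  have : Fintype K := Fintype.ofFinite K
  have ht' : t⁻¹ = t := by rw [inv_eq_iff_mul_eq_one]; exact ht
  have hmem : ∀ k ∈ K, t * k * s ∈ K := by
    intro k hk
    have : t * k * s = (t * k * t⁻¹) * (t * s) := by group
    rw [this]
    exact K.mul_mem (hn k hk) hts
  let f : K → K := fun k => ⟨t * k * s, hmem k k.2⟩
  have hinv : Function.Involutive f := by
    intro k
    apply Subtype.ext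
    change t * (t * k * s) * s = k
    have : t * (t * (k : Γ) * s) * s = (t * t) * k * (s * s) := by group
    rw [this, ht, hs]; simp
  have hfix := Equiv.Perm.exists_fixed_point_of_prime (p := 2) (n := 1)
    (α := K) (by rwa [← Nat.card_eq_fintype_card]) (σ := hinv.toPerm) (by
      ext k
      simp [pow_succ, Equiv.Perm.mul_apply, hinv k])
  obtain ⟨k, hk⟩ := hfix
  have hk' : t * (k : Γ) * s = k := congrArg Subtype.val hk
  refine ⟨k, k.2, ?_⟩
  have hs' : s⁻¹ = s := by rw [inv_eq_iff_mul_eq_one]; exact hs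
  have h1 : (k : Γ) * s = t * k := by
    calc (k : Γ) * s = (t * k * s) * s := by rw [hk']
      _ = t * k * (s * s) := by group
      _ = t * k := by rw [hs, mul_one]
  rw [h1]; group

open Cfsg Cfsg.Agent.Lib.RankTwoOrder in
/-- The fixed point formula for a four-group acting on a group of odd order. -/
theorem four_formula (X : Subgroup Γ) (hX : ¬ 2 ∣ Nat.card X) {s t : Γ} (hs : s * s = 1)
    (ht : t * t = 1) (hst : s * t = t * s) (hs1 : s ≠ 1) (ht1 : t ≠ 1) (hne : s ≠ t)
    (hsX : s ∈ normalizer (X : Set Γ)) (htX : t ∈ normalizer (X : Set Γ)) :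
    Nat.card ↥(X ⊓ centralizer ({s} : Set Γ)) * Nat.card ↥(X ⊓ centralizer ({t} : Set Γ)) *
      Nat.card ↥(X ⊓ centralizer ({s * t} : Set Γ)) =
    Nat.card X * Nat.card ↥(X ⊓ (centralizer ({s} : Set Γ) ⊓ centralizer ({t} : Set Γ))) ^ 2 := by
  classical
  have hs' : s⁻¹ = s := by rw [inv_eq_iff_mul_eq_one]; exact hs
  have ht' : t⁻¹ = t := by rw [inv_eq_iff_mul_eq_one]; exact ht
  have hst1 : s * t ≠ 1 := by
    intro h; apply hne
    rw [mul_eq_one_iff_eq_inv, ht'] at h; exact h
  have hmul : ∀ a b c d : Γ, True := fun _ _ _ _ => trivial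
  have e1 : s * (s * t) = t := by rw [← mul_assoc, hs, one_mul]
  have e2 : t * (s * t) = s := by rw [hst, ← mul_assoc, ht, one_mul]
  have e3 : s * t * s = t := by rw [hst, mul_assoc, hs, mul_one]
  have e4 : s * t * t = s := by rw [mul_assoc, ht, mul_one]
  have e5 : s * t * (s * t) = 1 := by rw [← mul_assoc, e3, ht]
  -- the four-group
  let A : Subgroup Γ :=
    { carrier := {1, s, t, s * t}
      one_mem' := by simp
      mul_mem' := by
        intro a b ha hb
        simp only [Set.mem_insert_iff, Set.mem_singleton_iff] at ha hb ⊢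
        rcases ha with rfl | rfl | rfl | rfl <;> rcases hb with rfl | rfl | rfl | rfl <;>
          simp [hs, ht, ← hst, e1, e2, e3, e4, e5]
      inv_mem' := by
        intro a ha
        simp only [Set.mem_insert_iff, Set.mem_singleton_iff] at ha ⊢
        rcases ha with rfl | rfl | rfl | rfl
        · simp
        · simp [hs']
        · simp [ht']
        · simp [hs', ht', ← hst] }
  have memA : ∀ a, a ∈ A ↔ a = 1 ∨ a = s ∨ a = t ∨ a = s * t := by
    intro a; rfl
  have hAc : (A : Set Γ) = ({1, s, t, s * t} : Finset Γ) := by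
    ext a
    simp only [SetLike.mem_coe, memA]
    simp
  have hcard : Nat.card A = 2 ^ 2 := by
    change Nat.card ((A : Set Γ)) = 2 ^ 2
    rw [hAc, Nat.card_eq_card_toFinset, Finset.toFinset_coe]
    rw [Finset.card_insert_of_notMem, Finset.card_insert_of_notMem, Finset.card_insert_of_notMem,
      Finset.card_singleton]
    · norm_num
    · simp only [Finset.mem_singleton]
      intro h
      exact hs1 (by rw [eq_comm, mul_eq_right] at h; exact h)
    · simp only [Finset.mem_insert, Finset.mem_singleton, not_or]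
      refine ⟨hne, ?_⟩
      intro h
      exact ht1 (by rw [eq_comm, mul_eq_left] at h; exact h)
    · simp only [Finset.mem_insert, Finset.mem_singleton, not_or]
      exact ⟨hs1.symm, ht1.symm, hst1.symm⟩
  have hcomm : ∀ a ∈ A, ∀ b ∈ A, a * b = b * a := by
    intro a ha b hb
    rw [memA] at ha hb
    rcases ha with rfl | rfl | rfl | rfl <;> rcases hb with rfl | rfl | rfl | rfl <;>
      simp [hs, ht, ← hst, e1, e2, e3, e4, e5]
  have hA : Cfsg.IsElementaryAbelian 2 A := by
    refine ⟨?_, ?_⟩
    · rw [isMulCommutative_iff_of_setLike]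
      exact hcomm
    · intro a ha
      rw [memA] at ha
      rcases ha with rfl | rfl | rfl | rfl
      · simp
      · rw [pow_two, hs]
      · rw [pow_two, ht]
      · rw [pow_two, e5]
  have hAX : A ≤ normalizer (X : Set Γ) := by
    intro a ha
    rw [memA] at ha
    rcases ha with rfl | rfl | rfl | rfl
    · exact one_mem _
    · exact hsX
    · exact htX
    · exact mul_mem hsX htX
  have key := order_formula_log (p := 2) hA hcard hAX hX
  have hcA : centralizer (A : Set Γ) = centralizer ({s} : Set Γ) ⊓ centralizer ({t} : Set Γ) := by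
    ext g
    simp only [mem_inf, mem_centralizer_iff, SetLike.mem_coe, Set.mem_singleton_iff, forall_eq]
    constructor
    · intro h
      exact ⟨h s (by rw [memA]; tauto), h t (by rw [memA]; tauto)⟩
    · rintro ⟨h1, h2⟩ a ha
      rw [memA] at ha
      rcases ha with rfl | rfl | rfl | rfl
      · simp
      · exact h1
      · exact h2
      · rw [mul_assoc, h2, ← mul_assoc, h1, mul_assoc]
  have : Fintype {b : A // b ≠ 1} := Fintype.ofFinite _
  rw [finsum_eq_sum_of_fintype] at key
  let S : {b : A // b ≠ 1} := ⟨⟨s, by rw [memA]; tauto⟩, fun h => hs1 (congrArg Subtype.val h)⟩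
  let T : {b : A // b ≠ 1} := ⟨⟨t, by rw [memA]; tauto⟩, fun h => ht1 (congrArg Subtype.val h)⟩
  let U : {b : A // b ≠ 1} := ⟨⟨s * t, by rw [memA]; tauto⟩, fun h => hst1 (congrArg Subtype.val h)⟩
  have hST : S ≠ T := by
    intro h; exact hne (congrArg (fun z : {b : A // b ≠ 1} => ((z : A) : Γ)) h)
  have hSU : S ≠ U := by
    intro h
    have h1 : s = s * t := congrArg (fun z : {b : A // b ≠ 1} => ((z : A) : Γ)) h
    exact ht1 (by rw [eq_comm, mul_eq_left] at h1; exact h1)
  have hTU : T ≠ U := by
    intro h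
    have h1 : t = s * t := congrArg (fun z : {b : A // b ≠ 1} => ((z : A) : Γ)) h
    exact hs1 (by rw [eq_comm, mul_eq_right] at h1; exact h1)
  have huniv : (Finset.univ : Finset {b : A // b ≠ 1}) = {S, T, U} := by
    ext b
    simp only [Finset.mem_univ, Finset.mem_insert, Finset.mem_singleton, true_iff]
    obtain ⟨⟨b, hb⟩, hb1⟩ := b
    have hb' := (memA b).mp hb
    rcases hb' with h | h | h | h
    · exact absurd (Subtype.ext h) hb1
    · left; apply Subtype.ext; apply Subtype.ext; exact h
    · right; left; apply Subtype.ext; apply Subtype.ext; exact h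
    · right; right; apply Subtype.ext; apply Subtype.ext; exact h
  rw [huniv, Finset.sum_insert (by simp [hST, hSU]), Finset.sum_insert (by simp [hTU]),
    Finset.sum_singleton, hcA] at key
  have p1 : (0 : ℝ) < Nat.card ↥(X ⊓ centralizer ({s} : Set Γ)) := by exact_mod_cast Nat.card_pos
  have p2 : (0 : ℝ) < Nat.card ↥(X ⊓ centralizer ({t} : Set Γ)) := by exact_mod_cast Nat.card_pos
  have p3 : (0 : ℝ) < Nat.card ↥(X ⊓ centralizer ({s * t} : Set Γ)) := by
    exact_mod_cast Nat.card_pos
  have p4 : (0 : ℝ) < Nat.card X := by exact_mod_cast Nat.card_pos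
  have p5 : (0 : ℝ) <
      Nat.card ↥(X ⊓ (centralizer ({s} : Set Γ) ⊓ centralizer ({t} : Set Γ))) := by
    exact_mod_cast Nat.card_pos
  have key2 : Real.log ((Nat.card ↥(X ⊓ centralizer ({s} : Set Γ)) : ℝ) *
      Nat.card ↥(X ⊓ centralizer ({t} : Set Γ)) *
      Nat.card ↥(X ⊓ centralizer ({s * t} : Set Γ))) = Real.log ((Nat.card X : ℝ) *
      Nat.card ↥(X ⊓ (centralizer ({s} : Set Γ) ⊓ centralizer ({t} : Set Γ))) ^ 2) := by
    rw [Real.log_mul (by positivity) (by positivity), Real.log_mul (by positivity) (by positivity),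
      Real.log_mul (by positivity) (by positivity), Real.log_pow]
    have k := key
    simp only [S, T, U] at k
    push_cast at k ⊢
    linarith
  have key3 := Real.log_injOn_pos (by simp only [Set.mem_Ioi]; positivity)
    (by simp only [Set.mem_Ioi]; positivity) key2
  exact_mod_cast key3

end Cfsg.Agent.Lib.H43FourA
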