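import Mathlib
import Cfsg.Agent.Lib.TateApps
import Cfsg.Agent.Lib.SylowExtend
import Cfsg.Agent.Lib.PNilp
import Cfsg.Agent.Lib.RelSylow
import Cfsg.Agent.Lib.Cores3
import Cfsg.Agent.Lib.H10Twist
import Cfsg.Agent.Lib.H76PGroup
import Cfsg.Agent.Lib.Layer
import Cfsg.Agent.Lib.Components
import Cfsg.Agent.Lib.PCoreTools

/-!
# `|P : P'| = p²` and the `p`-parts of centralizers of `p`-elements (helper46)
-/

set_option autoImplicit false
set_option linter.unusedSectionVars false

namespace Cfsg.Agent.Lib.H46AbSq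

open Subgroup Cfsg Cfsg.Agent.Lib.RelSylow
open scoped commutatorElement

section Abs

variable {Q : Type*} [Group Q] [Finite Q] {p : ℕ} [hp : Fact p.Prime]

theorem index_commutator_le (x : Q) :
    (commutator Q).index ≤ Nat.card ↥(centralizer ({x} : Set Q)) := by
  classical
  have h1 : (centralizer ({x} : Set Q)).index ≤ Nat.card ↥(commutator Q) := by
    rw [Subgroup.index]
    refine Nat.card_le_card_of_injective
      (fun q : Q ⧸ centralizer ({x} : Set Q) => (⟨⁅q.out, x⁆, commutator_mem_commutator (mem_top _) (mem_top _)⟩ : ↥(commutator Q))) ?_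
    intro a b hab
    have h2 : ⁅a.out, x⁆ = ⁅b.out, x⁆ := congrArg Subtype.val hab
    rw [commutatorElement_def, commutatorElement_def] at h2
    have h3 : a.out * x * a.out⁻¹ = b.out * x * b.out⁻¹ := mul_right_cancel h2
    rw [← QuotientGroup.out_eq' a, ← QuotientGroup.out_eq' b, QuotientGroup.eq, mem_centralizer_iff]
    rintro y rfl
    have : y * (a.out⁻¹ * b.out) = a.out⁻¹ * (a.out * y * a.out⁻¹) * b.out := by group
    rw [this, h3]; group
  have h2 := (commutator Q).card_mul_index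
  have h3 := (centralizer ({x} : Set Q)).card_mul_index
  have h4 : Nat.card ↥(commutator Q) * (commutator Q).index ≤
      Nat.card ↥(commutator Q) * Nat.card ↥(centralizer ({x} : Set Q)) := by
    rw [h2, ← h3, mul_comm (Nat.card ↥(commutator Q))]
    exact Nat.mul_le_mul_left _ h1
  exact Nat.le_of_mul_le_mul_left h4 Nat.card_pos

theorem isCyclic_of_card_lt (hQ : IsPGroup p Q) (h : Nat.card Q < p ^ 2) : IsCyclic Q := by
  obtain ⟨n, hn⟩ := IsPGroup.iff_card.mp hQ
  have h1 : n < 2 := by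
    rw [hn] at h
    exact (Nat.pow_lt_pow_iff_right hp.out.one_lt).mp h
  interval_cases n
  · rw [pow_zero] at hn
    have := (Nat.card_eq_one_iff_unique.mp hn).1
    exact isCyclic_of_subsingleton
  · rw [pow_one] at hn
    exact isCyclic_of_prime_card hn

theorem card_abelianization : Nat.card (Abelianization Q) = (commutator Q).index := rfl

theorem commutator_eq_bot_of_index_lt (hQ : IsPGroup p Q) (h : (commutator Q).index < p ^ 2) :
    commutator Q = ⊥ := by
  have h1 : IsCyclic (Abelianization Q) :=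
    isCyclic_of_card_lt (p := p) (hQ.of_surjective Abelianization.of QuotientGroup.mk_surjective) h
  have h2 := H10Twist.isCyclic_of_abelianization hQ h1
  have h3 : ∀ a b : Q, a * b = b * a := by
    let _ := h2.commGroup
    exact fun a b => mul_comm a b
  rw [eq_bot_iff, _root_.commutator_def, commutator_le]
  intro a _ b _
  rw [mem_bot, commutatorElement_eq_one_iff_mul_comm]
  exact h3 a b

/-- a `p`-group of order divisible by `p^2` has `|Q:Q'| ≥ p^2` -/
theorem le_index_commutator (hQ : IsPGroup p Q) (h : p ^ 2 ∣ Nat.card Q) :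
    p ^ 2 ≤ (commutator Q).index := by
  by_contra hlt
  rw [not_le] at hlt
  have h1 := commutator_eq_bot_of_index_lt hQ hlt
  rw [h1, index_bot] at hlt
  exact absurd (Nat.le_of_dvd Nat.card_pos h) (not_le.mpr hlt)

/-- if `|Q : Q'| = p²` and the normal subgroup `M` is not in `Q'`, then it contains `Q'` -/
theorem commutator_le_of_not_le (hQ : IsPGroup p Q) (h : (commutator Q).index = p ^ 2)
    (M : Subgroup Q) [hM : M.Normal] (hMQ : ¬ M ≤ commutator Q) : commutator Q ≤ M := by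
  set f : Abelianization Q →* Abelianization (Q ⧸ M) := Abelianization.map (QuotientGroup.mk' M)
  have hf : Function.Surjective f := by
    intro y
    obtain ⟨z, rfl⟩ := QuotientGroup.mk_surjective y
    obtain ⟨q, rfl⟩ := QuotientGroup.mk'_surjective M z
    exact ⟨Abelianization.of q, rfl⟩
  have hlt : (commutator (Q ⧸ M)).index < p ^ 2 := by
    rw [← h, ← card_abelianization, ← card_abelianization]
    apply lt_of_le_of_ne (Nat.card_le_card_of_surjective f hf)
    intro heq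
    apply hMQ
    intro m hm
    have hbij : Function.Bijective f :=
      (Nat.bijective_iff_surjective_and_card f).mpr ⟨hf, heq.symm⟩
    have h1 : f (Abelianization.of m) = f 1 := by
      have : (QuotientGroup.mk' M) m = 1 := (QuotientGroup.eq_one_iff m).mpr hm
      rw [map_one]
      show Abelianization.of ((QuotientGroup.mk' M) m) = 1
      rw [this, map_one]
    have h2 := hbij.1 h1
    exact (QuotientGroup.eq_one_iff m).mp h2
  have h1 := commutator_eq_bot_of_index_lt (hQ.of_surjective (QuotientGroup.mk' M) (QuotientGroup.mk'_surjective M)) hlt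
  have h2 : (commutator Q).map (QuotientGroup.mk' M) = ⊥ := by
    rw [_root_.commutator_def, map_commutator, eq_bot_iff, ← h1, _root_.commutator_def]
    exact commutator_mono le_top le_top
  rw [Subgroup.map_eq_bot_iff, QuotientGroup.ker_mk'] at h2
  exact h2

/-- form of elements over a subgroup of prime index -/
theorem exists_form {A : Subgroup Q} [hA : A.Normal] (hi : A.index = p) {y : Q} (hy : y ∉ A) (g : Q) :
    ∃ a ∈ A, ∃ k : ℤ, g = a * y ^ k := by
  have hc : Nat.card (Q ⧸ A) = p := hi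
  have h1 : (QuotientGroup.mk y : Q ⧸ A) ≠ 1 := by
    intro h; exact hy ((QuotientGroup.eq_one_iff y).mp h)
  have h2 : (QuotientGroup.mk g : Q ⧸ A) ∈ zpowers (QuotientGroup.mk y : Q ⧸ A) :=
    mem_zpowers_of_prime_card hc h1
  obtain ⟨k, hk⟩ := mem_zpowers_iff.mp h2
  refine ⟨g * (y ^ k)⁻¹, ?_, k, by group⟩
  have h3 : (QuotientGroup.mk (g * (y ^ k)⁻¹) : Q ⧸ A) = 1 := by
    rw [QuotientGroup.mk_mul, QuotientGroup.mk_inv, QuotientGroup.mk_zpow, hk, mul_inv_cancel]
  exact (QuotientGroup.eq_one_iff _).mp h3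

theorem card_centralizer_le {A : Subgroup Q} [hA : A.Normal] (hi : A.index = p)
    (hab : ∀ a ∈ A, ∀ b ∈ A, a * b = b * a) (hc : (commutator Q).index = p ^ 2) {y : Q} (hy : y ∉ A) :
    Nat.card ↥(centralizer ({y} : Set Q)) ≤ p ^ 2 := by
  have h1 := H76PGroup.card_commutator_mul A hab y (exists_form hi hy)
  have h2 := (commutator Q).card_mul_index
  have h3 := A.card_mul_index
  set c := Nat.card {a : A // y * (a : Q) * y⁻¹ * (a : Q)⁻¹ = 1} with hcdef
  have h4 : c = p := by
    rw [hc] at h2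
    rw [hi, ← h1] at h3
    have hpos : 0 < Nat.card ↥(commutator Q) := Nat.card_pos
    have h5 : Nat.card ↥(commutator Q) * (c * p) = Nat.card ↥(commutator Q) * (p * p) := by
      rw [← mul_assoc, h3, ← h2]; ring
    have h6 := Nat.eq_of_mul_eq_mul_left hpos h5
    exact Nat.eq_of_mul_eq_mul_right hp.out.pos h6
  have h5 : Nat.card ↥(A ⊓ centralizer ({y} : Set Q)) = c := by
    apply Nat.card_congr
    refine ⟨fun a => ⟨⟨a.1, (mem_inf.1 a.2).1⟩, ?_⟩, fun a => ⟨a.1.1, mem_inf.2 ⟨a.1.2, ?_⟩⟩, fun a => rfl, fun a => rfl⟩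
    · have : y * (a : Q) = a * y := mem_centralizer_iff.mp (mem_inf.1 a.2).2 y rfl
      show y * (a : Q) * y⁻¹ * (a : Q)⁻¹ = 1
      rw [this]; group
    · rw [mem_centralizer_iff]
      rintro z rfl
      have h6 := a.2
      have h7 : z * (a.1.1 : Q) * z⁻¹ = a.1.1 := by
        rw [mul_inv_eq_one] at h6
        exact h6
      calc z * a.1.1 = z * (a.1.1 : Q) * z⁻¹ * z := by group
        _ = a.1.1 * z := by rw [h7]
  have h6 : A.relIndex (centralizer ({y} : Set Q)) ≤ p := by
    rw [← hi, ← relIndex_top_right]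
    exact relIndex_le_of_le_right le_top (by rw [relIndex_top_right]; exact index_ne_zero_of_finite)
  have h7 := relIndex_mul_relIndex ⊥ (A ⊓ centralizer ({y} : Set Q)) (centralizer ({y} : Set Q)) bot_le inf_le_right
  rw [relIndex_bot_left, relIndex_bot_left, inf_relIndex_right, h5, h4] at h7
  rw [← h7, sq]
  exact Nat.mul_le_mul_left _ h6

theorem conj_pow_hom_aux (A : Subgroup Q) [hA : A.Normal] (x : Q) (i : ℕ) (a : A) :
    x ^ i * (a : Q) * (x ^ i)⁻¹ ∈ A := hA.conj_mem a a.2 (x ^ i)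

/-- conjugation by `x ^ i` on a normal subgroup -/
def cj (A : Subgroup Q) [hA : A.Normal] (x : Q) (i : ℕ) : A →* A where
  toFun a := ⟨x ^ i * (a : Q) * (x ^ i)⁻¹, conj_pow_hom_aux A x i a⟩
  map_one' := Subtype.ext (by simp)
  map_mul' a b := Subtype.ext (by simp only [Subgroup.coe_mul]; group)

theorem commutator_le_of_wreath {A K S : Subgroup Q} [hA : A.Normal] (hQ : IsPGroup p Q) (hi : A.index = p)
    (hc : (commutator Q).index = p ^ 2) {x : Q} (hx : x ∉ A) (hKA : K ≤ A)
    (hKn : ∀ a ∈ A, ∀ k ∈ K, a * k * a⁻¹ ∈ K)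
    (hform : ∀ a ∈ A, ∃ s ∈ S, ∃ k ∈ K, a = s * k) (hSA : S ≤ A)
    (hS : ∀ i : ℕ, 0 < i → i < p → ∀ s ∈ S, x ^ i * s * (x ^ i)⁻¹ ∈ K) :
    ⁅A, A⁆ ≤ K := by
  have hKn' : (K.subgroupOf A).Normal := by
    constructor
    intro k hk a
    rw [mem_subgroupOf] at hk ⊢
    exact hKn a a.2 k hk
  set R := ↥A ⧸ K.subgroupOf A with hR
  set π : A →* Abelianization R := (Abelianization.of).comp (QuotientGroup.mk' (K.subgroupOf A)) with hπ
  have hπs : Function.Surjective π := by
    intro y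
    obtain ⟨z, rfl⟩ := QuotientGroup.mk_surjective y
    obtain ⟨a, rfl⟩ := QuotientGroup.mk'_surjective (K.subgroupOf A) z
    exact ⟨a, rfl⟩
  have hπK : ∀ a : A, (a : Q) ∈ K → π a = 1 := by
    intro a ha
    have : (QuotientGroup.mk' (K.subgroupOf A)) a = 1 := (QuotientGroup.eq_one_iff a).mpr ha
    rw [hπ, MonoidHom.comp_apply, this, map_one]
  set θ : A →* Abelianization R := ∏ i ∈ Finset.range p, π.comp (cj A x i) with hθ
  have hθa : ∀ a : A, θ a = ∏ i ∈ Finset.range p, π (cj A x i a) := by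
    intro a; rw [hθ, MonoidHom.finsetProd_apply]; rfl
  have hxp : x ^ p ∈ A := by
    rw [← hi]; exact pow_index_mem A x
  -- conjugation invariance
  have hinv : ∀ a : A, θ (cj A x 1 a) = θ a := by
    intro a
    rw [hθa, hθa]
    have h1 : ∀ i, π (cj A x i (cj A x 1 a)) = π (cj A x (i + 1) a) := by
      intro i
      congr 1
      apply Subtype.ext
      show x ^ i * (x ^ 1 * (a : Q) * (x ^ 1)⁻¹) * (x ^ i)⁻¹ = x ^ (i + 1) * (a : Q) * (x ^ (i + 1))⁻¹
      rw [pow_succ]; group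
    simp only [h1]
    have h2 := Finset.prod_range_succ (fun i => π (cj A x i a)) p
    have h3 := Finset.prod_range_succ' (fun i => π (cj A x i a)) p
    have h4 : π (cj A x p a) = π (cj A x 0 a) := by
      have : cj A x p a = ⟨x ^ p, hxp⟩ * a * ⟨x ^ p, hxp⟩⁻¹ := Subtype.ext rfl
      rw [this, map_mul, map_mul, map_inv, mul_comm (π ⟨x ^ p, hxp⟩), mul_inv_cancel_right]
      congr 1
      apply Subtype.ext
      show (a : Q) = x ^ 0 * (a : Q) * (x ^ 0)⁻¹
      simp
    rw [h3, h4] at h2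
    exact mul_right_cancel h2
  have hinvk : ∀ (k : ℤ) (a : Q) (ha : a ∈ A) (ha' : x ^ k * a * (x ^ k)⁻¹ ∈ A),
      θ ⟨x ^ k * a * (x ^ k)⁻¹, ha'⟩ = θ ⟨a, ha⟩ := by
    have hnat : ∀ (k : ℕ) (a : Q) (ha : a ∈ A) (ha' : x ^ k * a * (x ^ k)⁻¹ ∈ A),
        θ ⟨x ^ k * a * (x ^ k)⁻¹, ha'⟩ = θ ⟨a, ha⟩ := by
      intro k
      induction k with
      | zero => intro a ha ha'; congr 1; apply Subtype.ext; simp
      | succ k ih =>
        intro a ha ha'
        have h1 : x ^ k * a * (x ^ k)⁻¹ ∈ A := hA.conj_mem a ha (x ^ k)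
        rw [← ih a ha h1, ← hinv ⟨x ^ k * a * (x ^ k)⁻¹, h1⟩]
        congr 1
        apply Subtype.ext
        show x ^ (k + 1) * a * (x ^ (k + 1))⁻¹ = x ^ 1 * (x ^ k * a * (x ^ k)⁻¹) * (x ^ 1)⁻¹
        rw [pow_succ']; group
    intro k a ha ha'
    obtain ⟨n, rfl | rfl⟩ := k.eq_nat_or_neg
    · have := hnat n a ha (by rw [← zpow_natCast]; exact ha')
      rw [← this]
      congr 1
      apply Subtype.ext
      simp
    · have := hnat n (x ^ (-(n : ℤ)) * a * (x ^ (-(n : ℤ)))⁻¹) ha' (by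
        have h0 : x ^ n * (x ^ (-(n : ℤ)) * a * (x ^ (-(n : ℤ)))⁻¹) * (x ^ n)⁻¹ = a := by
          rw [← zpow_natCast]; group
        rw [h0]; exact ha)
      rw [← this]
      congr 1
      apply Subtype.ext
      show x ^ n * (x ^ (-(n : ℤ)) * a * (x ^ (-(n : ℤ)))⁻¹) * (x ^ n)⁻¹ = a
      rw [← zpow_natCast]; group
  -- the commutator subgroup is in the kernel
  have hker : commutator Q ≤ θ.ker.map A.subtype := by
    rw [_root_.commutator_def, commutator_le]
    intro u _ v _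
    obtain ⟨a, ha, k, rfl⟩ := exists_form hi hx u
    obtain ⟨b, hb, l, rfl⟩ := exists_form hi hx v
    have h1 : x ^ k * b * (x ^ k)⁻¹ ∈ A := hA.conj_mem b hb _
    have h2 : x ^ l * a * (x ^ l)⁻¹ ∈ A := hA.conj_mem a ha _
    refine ⟨⟨a, ha⟩ * ⟨x ^ k * b * (x ^ k)⁻¹, h1⟩ * ⟨x ^ l * a * (x ^ l)⁻¹, h2⟩⁻¹ * ⟨b, hb⟩⁻¹, ?_, ?_⟩
    · show _ ∈ θ.ker
      rw [MonoidHom.mem_ker, map_mul, map_mul, map_mul, map_inv, map_inv, hinvk k b hb h1, hinvk l a ha h2,
        mul_comm (θ ⟨a, ha⟩), mul_inv_cancel_right, mul_inv_cancel]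
    · show a * (x ^ k * b * (x ^ k)⁻¹) * (x ^ l * a * (x ^ l)⁻¹)⁻¹ * b⁻¹ = ⁅a * x ^ k, b * x ^ l⁆
      rw [commutatorElement_def]
      have h3 : x ^ k * x ^ l = x ^ l * x ^ k := by rw [← zpow_add, ← zpow_add, add_comm]
      calc a * (x ^ k * b * (x ^ k)⁻¹) * (x ^ l * a * (x ^ l)⁻¹)⁻¹ * b⁻¹
          = a * x ^ k * b * (x ^ k)⁻¹ * x ^ l * a⁻¹ * (x ^ l)⁻¹ * b⁻¹ := by group
        _ = a * x ^ k * b * (x ^ k)⁻¹ * (x ^ l * x ^ k) * (x ^ k)⁻¹ * a⁻¹ * (x ^ l)⁻¹ * b⁻¹ := by group
        _ = a * x ^ k * b * (x ^ k)⁻¹ * (x ^ k * x ^ l) * (x ^ k)⁻¹ * a⁻¹ * (x ^ l)⁻¹ * b⁻¹ := by rw [h3]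
        _ = a * x ^ k * (b * x ^ l) * (a * x ^ k)⁻¹ * (b * x ^ l)⁻¹ := by group
  -- surjectivity
  have hθs : Function.Surjective θ := by
    intro y
    obtain ⟨a, rfl⟩ := hπs y
    obtain ⟨s, hs, k, hk, hak⟩ := hform a a.2
    refine ⟨⟨s, hSA hs⟩, ?_⟩
    have h1 : a = ⟨s, hSA hs⟩ * ⟨k, hKA hk⟩ := Subtype.ext hak
    rw [h1, map_mul, hπK ⟨k, hKA hk⟩ hk, mul_one, hθa]
    rw [Finset.prod_eq_single 0]
    · congr 1
      apply Subtype.ext
      show x ^ 0 * s * (x ^ 0)⁻¹ = s
      simp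
    · intro i hi' hi0
      exact hπK _ (hS i (Nat.pos_of_ne_zero hi0) (Finset.mem_range.mp hi') s hs)
    · intro h
      exact absurd (Finset.mem_range.mpr hp.out.pos) h
  -- counting
  have hcard : Nat.card (Abelianization R) < p ^ 2 := by
    have h1 : (θ.ker.map A.subtype).index ≤ p ^ 2 := by
      rw [← hc]
      exact Nat.le_of_dvd (Nat.pos_of_ne_zero index_ne_zero_of_finite) (index_dvd_of_le hker)
    have h2 : θ.ker.index = Nat.card (Abelianization R) := by
      rw [index_ker, MonoidHom.range_eq_top.mpr hθs]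
      exact Nat.card_congr Subgroup.topEquiv.toEquiv
    have h3 : (θ.ker.map A.subtype).index = θ.ker.index * A.index := by
      rw [← relIndex_mul_index (map_subtype_le θ.ker), relIndex, subgroupOf,
        comap_map_eq_self_of_injective A.subtype_injective]
    rw [h3, hi, h2, sq] at h1
    have h4 := Nat.le_of_mul_le_mul_right h1 hp.out.pos
    refine lt_of_le_of_lt h4 ?_
    rw [sq]
    exact lt_mul_of_one_lt_left hp.out.pos hp.out.one_lt
  have hRp : IsPGroup p R := (hQ.to_subgroup A).of_surjective _ (QuotientGroup.mk'_surjective (K.subgroupOf A))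
  have h1 := commutator_eq_bot_of_index_lt hRp hcard
  have h2 : (commutator A).map (QuotientGroup.mk' (K.subgroupOf A)) = ⊥ := by
    rw [_root_.commutator_def, map_commutator, eq_bot_iff, ← h1, _root_.commutator_def]
    exact commutator_mono le_top le_top
  rw [Subgroup.map_eq_bot_iff, QuotientGroup.ker_mk'] at h2
  have h3 := map_mono (f := A.subtype) h2
  rw [_root_.commutator_def, map_commutator, ← MonoidHom.range_eq_map, range_subtype] at h3
  refine h3.trans ?_
  rw [subgroupOf_map_subtype]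
  exact inf_le_left

end Abs

section Grp

variable {G : Type*} [Group G] [Finite G] {p : ℕ} [hp : Fact p.Prime]

theorem subgroupOf_comm (P : Subgroup G) : ⁅P, P⁆.subgroupOf P = commutator P := by
  have h : (commutator P).map P.subtype = ⁅P, P⁆ := by
    rw [_root_.commutator_def, map_commutator, ← MonoidHom.range_eq_map, range_subtype]
  rw [← h, subgroupOf, comap_map_eq_self_of_injective P.subtype_injective]

theorem relIndex_comm (P : Subgroup G) : ⁅P, P⁆.relIndex P = (commutator P).index := by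
  rw [relIndex, subgroupOf_comm]

theorem card_centralizer_rel {P : Subgroup G} {y : G} (hy : y ∈ P) :
    Nat.card ↥(centralizer ({⟨y, hy⟩} : Set ↥P)) = Nat.card ↥(P ⊓ centralizer ({y} : Set G)) := by
  apply Nat.card_congr
  refine ⟨fun a => ⟨a.1.1, mem_inf.2 ⟨a.1.2, ?_⟩⟩, fun a => ⟨⟨a.1, (mem_inf.1 a.2).1⟩, ?_⟩, fun a => rfl, fun a => rfl⟩
  · rw [mem_centralizer_iff]
    rintro z rfl
    exact congrArg Subtype.val (mem_centralizer_iff.mp a.2 ⟨z, hy⟩ rfl)
  · rw [mem_centralizer_iff]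
    rintro z rfl
    exact Subtype.ext (mem_centralizer_iff.mp (mem_inf.1 a.2).2 y rfl)

theorem comm_le_of_not_le (P : Sylow p G)
    (h : ⁅(P : Subgroup G), (P : Subgroup G)⁆.relIndex (P : Subgroup G) = p ^ 2)
    {M : Subgroup G} (hn : (P : Subgroup G) ≤ normalizer (M : Set G))
    (h1 : ¬ M ⊓ (P : Subgroup G) ≤ ⁅(P : Subgroup G), (P : Subgroup G)⁆) :
    ⁅(P : Subgroup G), (P : Subgroup G)⁆ ≤ M := by
  rw [relIndex_comm] at h
  have hMn : (M.subgroupOf (P : Subgroup G)).Normal := by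
    constructor
    intro n hn' x
    rw [mem_subgroupOf] at hn' ⊢
    exact (mem_normalizer_iff.mp (hn x.2) n).mp hn'
  have h2 := commutator_le_of_not_le P.2 h (M.subgroupOf (P : Subgroup G)) (by
    intro hle
    apply h1
    intro x hx
    have h3 : (⟨x, (mem_inf.1 hx).2⟩ : (P : Subgroup G)) ∈ commutator (P : Subgroup G) :=
      hle (mem_subgroupOf.mpr (mem_inf.1 hx).1)
    rw [← subgroupOf_comm] at h3
    exact mem_subgroupOf.mp h3)
  rw [← subgroupOf_comm] at h2
  have h3 := map_mono (f := (P : Subgroup G).subtype) h2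
  rw [subgroupOf_map_subtype, subgroupOf_map_subtype, inf_of_le_left (commutator_le_self _)] at h3
  exact h3.trans inf_le_left

theorem claimC (P : Sylow p G) (h : ⁅(P : Subgroup G), (P : Subgroup G)⁆.relIndex (P : Subgroup G) = p ^ 2)
    {H M : Subgroup G} (hPH : (P : Subgroup G) ≤ H) (hMH : M ≤ H) (hn : H ≤ normalizer (M : Set G))
    (hM : ¬ HasNormalPComplement p M) :
    ¬ M ⊓ (P : Subgroup G) ≤ ⁅(P : Subgroup G), (P : Subgroup G)⁆ ∧ ⁅(P : Subgroup G), (P : Subgroup G)⁆ ≤ M := by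
  have h1 : ¬ M ⊓ (P : Subgroup G) ≤ ⁅(P : Subgroup G), (P : Subgroup G)⁆ := by
    intro hle
    apply hM
    have hMn : (M.subgroupOf H).Normal := by
      constructor
      intro n hn' x
      rw [mem_subgroupOf] at hn' ⊢
      exact (mem_normalizer_iff.mp (hn x.2) n).mp hn'
    have hPOc : ((P.subtype hPH : Sylow p H) : Subgroup H) = (P : Subgroup G).subgroupOf H := rfl
    have hcomm : ⁅((P.subtype hPH : Sylow p H) : Subgroup H), ((P.subtype hPH : Sylow p H) : Subgroup H)⁆.map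
        H.subtype = ⁅(P : Subgroup G), (P : Subgroup G)⁆ := by
      rw [Subgroup.map_commutator, hPOc, Subgroup.map_subgroupOf_eq_of_le hPH]
    have h2 := TateApps.tate_frattini (P.subtype hPH : Sylow p H) (M.subgroupOf H) (by
      refine le_trans ?_ (SylowExtend.commutator_map_le_frattini (P.subtype hPH : Sylow p H))
      intro x hx
      have h3 : (x : G) ∈ ⁅(P : Subgroup G), (P : Subgroup G)⁆ :=
        hle (mem_inf.2 ⟨mem_subgroupOf.mp (mem_inf.1 hx).1, mem_subgroupOf.mp (mem_inf.1 hx).2⟩)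
      rw [← hcomm] at h3
      obtain ⟨z, hz, hzx⟩ := h3
      have : z = x := Subtype.ext hzx
      rw [← this]; exact hz)
    exact PNilp.HasNormalPComplement.of_mulEquiv h2 (subgroupOfEquivOfLe hMH)
  exact ⟨h1, comm_le_of_not_le P h (hPH.trans hn) h1⟩

theorem pgroup_of_npc (hcore : pPrimeCore p G = ⊥) {M : Subgroup G} (hM : M.IsSubnormal)
    (h : HasNormalPComplement p M) : IsPGroup p M := by
  obtain ⟨S, N, hN, hc⟩ := h
  have h1 : (Nat.card N).Coprime p := by
    rw [Nat.coprime_comm]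
    refine (Nat.Prime.coprime_iff_not_dvd hp.out).mpr ?_
    rw [← hc.index_eq_card]
    exact S.not_dvd_index
  have h2 : N ≤ pPrimeCore p M := le_sSup ⟨hN, h1⟩
  have h3 := Layer.map_pPrimeCore_le_of_subnormal p hM
  rw [hcore, le_bot_iff, map_eq_bot_iff_of_injective _ M.subtype_injective] at h3
  rw [h3, le_bot_iff] at h2
  rw [h2] at hc
  have h4 : (S : Subgroup M) = ⊤ := isComplement'_bot_left.mp hc
  have h5 := S.2
  have h6 : IsPGroup p (⊤ : Subgroup M) := h4 ▸ h5
  exact h6.of_equiv Subgroup.topEquiv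

theorem exists_syl_centralizer (P : Sylow p G) {x : G} (hx : ∃ k, orderOf x = p ^ k) :
    ∃ y ∈ (P : Subgroup G), (∃ g : G, y = g * x * g⁻¹) ∧
      Nat.card ↥((P : Subgroup G) ⊓ centralizer ({y} : Set G)) =
        p ^ ((Nat.card ↥(centralizer ({x} : Set G))).factorization p) := by
  obtain ⟨k, hk⟩ := hx
  have h1 : IsPGroup p ↥(zpowers x) := by
    rw [IsPGroup.iff_card, Nat.card_zpowers]
    exact ⟨k, hk⟩
  have h2 : zpowers x ≤ centralizer ({x} : Set G) := by
    rw [zpowers_le, mem_centralizer_iff]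
    rintro y rfl; rfl
  obtain ⟨R, hxR, hR⟩ := exists_isSyl_ge h1 h2
  obtain ⟨g, _, hg⟩ := (isSyl_top_iff P).exists_conj_le hR.2.1 le_top
  have hxg : x ∈ (P : Subgroup G).map (MulAut.conj g).toMonoidHom := hg (hxR (mem_zpowers x))
  have hy : g⁻¹ * x * g ∈ (P : Subgroup G) := mem_conj_iff.mp hxg
  refine ⟨g⁻¹ * x * g, hy, ⟨g⁻¹, by group⟩, ?_⟩
  have h3 := hR.conj_isSyl g⁻¹
  have h4 : (centralizer ({x} : Set G)).map (MulAut.conj g⁻¹).toMonoidHom = centralizer ({g⁻¹ * x * g} : Set G) := by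
    ext z
    rw [mem_conj_iff, mem_centralizer_iff, mem_centralizer_iff]
    constructor
    · intro h y hy
      rw [Set.mem_singleton_iff] at hy
      rw [hy]
      have h5 := h x rfl
      have : g⁻¹ * x * g * z = g⁻¹ * (x * (g⁻¹⁻¹ * z * g⁻¹)) * g := by group
      rw [this, h5]; group
    · intro h y hy
      rw [Set.mem_singleton_iff] at hy
      rw [hy]
      have h5 := h (g⁻¹ * x * g) rfl
      have : x * (g⁻¹⁻¹ * z * g⁻¹) = g * (g⁻¹ * x * g * z) * g⁻¹ := by group
      rw [this, h5]; group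
  rw [h4] at h3
  have h5 : R.map (MulAut.conj g⁻¹).toMonoidHom ≤ (P : Subgroup G) := by
    intro z hz
    rw [mem_conj_iff] at hz
    have h6 := mem_conj_iff.mp (hg hz)
    have : g⁻¹ * (g⁻¹⁻¹ * z * g⁻¹) * g = z := by group
    rwa [this] at h6
  have h6 := h3.eq_of_le (Q := (P : Subgroup G) ⊓ centralizer ({g⁻¹ * x * g} : Set G))
    (P.2.to_le inf_le_left) inf_le_right (le_inf h5 h3.1)
  rw [← h6, card_conj]
  obtain ⟨n, hn⟩ := IsPGroup.iff_card.mp hR.2.1
  have h7 : Nat.card R * R.relIndex (centralizer ({x} : Set G)) = Nat.card ↥(centralizer ({x} : Set G)) := by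
    have := relIndex_mul_relIndex ⊥ R (centralizer ({x} : Set G)) bot_le hR.1
    rwa [relIndex_bot_left, relIndex_bot_left] at this
  have h8 : R.relIndex (centralizer ({x} : Set G)) ≠ 0 := fun h => hR.2.2 (h ▸ dvd_zero p)
  rw [← h7, Nat.factorization_mul Nat.card_pos.ne' h8, hn, hp.out.factorization_pow]
  simp only [Finsupp.coe_add, Pi.add_apply, Finsupp.single_eq_same]
  rw [Nat.factorization_eq_zero_of_not_dvd hR.2.2, add_zero]

theorem reduct (P : Sylow p G) (h : ⁅(P : Subgroup G), (P : Subgroup G)⁆.relIndex (P : Subgroup G) = p ^ 2)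
    (N : Subgroup G) (hN : N.Normal) (hPN : ¬ (P : Subgroup G) ≤ N)
    (hc : ∀ y ∈ (P : Subgroup G), y ∉ N → Nat.card ↥((P : Subgroup G) ⊓ centralizer ({y} : Set G)) ≤ p ^ 2) :
    ∃ x : G, (∃ k : ℕ, orderOf x = p ^ k) ∧ (Nat.card ↥(centralizer ({x} : Set G))).factorization p = 2 := by
  obtain ⟨x, hxP, hxN⟩ := SetLike.not_le_iff_exists.mp hPN
  have hx : ∃ k, orderOf x = p ^ k := by
    obtain ⟨k, hk⟩ := IsPGroup.iff_orderOf.mp P.2 ⟨x, hxP⟩
    exact ⟨k, by rw [← hk, Subgroup.orderOf_mk]⟩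
  refine ⟨x, hx, ?_⟩
  obtain ⟨y, hyP, ⟨g, hg⟩, hcard⟩ := exists_syl_centralizer P hx
  have hyN : y ∉ N := by
    intro hy
    apply hxN
    have := hN.conj_mem y hy g⁻¹
    rw [hg] at this
    have h2 : g⁻¹ * (g * x * g⁻¹) * g⁻¹⁻¹ = x := by group
    rwa [h2] at this
  have h1 := hc y hyP hyN
  rw [hcard] at h1
  have h2 := index_commutator_le (Q := ↥(P : Subgroup G)) ⟨y, hyP⟩
  rw [card_centralizer_rel hyP, hcard, ← relIndex_comm, h] at h2
  exact le_antisymm ((Nat.pow_le_pow_iff_right hp.out.one_lt).mp h1) ((Nat.pow_le_pow_iff_right hp.out.one_lt).mp h2)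

theorem card_sup_of_commute {H K : Subgroup G} (hc : H ≤ centralizer (K : Set G)) (hd : H ⊓ K = ⊥) :
    Nat.card ↥(H ⊔ K) = Nat.card H * Nat.card K := by
  rw [← Nat.card_prod]
  symm
  apply Nat.card_congr
  refine Equiv.ofBijective (fun x : H × K => (⟨x.1 * x.2, mul_mem (mem_sup_left x.1.2) (mem_sup_right x.2.2)⟩ : ↥(H ⊔ K))) ⟨?_, ?_⟩
  · rintro ⟨⟨a, ha⟩, ⟨b, hb⟩⟩ ⟨⟨c, hc'⟩, ⟨d, hd'⟩⟩ h
    have h1 : a * b = c * d := congrArg Subtype.val h
    have h2 : c⁻¹ * a ∈ H ⊓ K := by
      refine mem_inf.2 ⟨mul_mem (inv_mem hc') ha, ?_⟩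
      have : c⁻¹ * a = d * b⁻¹ := by
        calc c⁻¹ * a = c⁻¹ * (a * b) * b⁻¹ := by group
          _ = d * b⁻¹ := by rw [h1]; group
      rw [this]; exact mul_mem hd' (inv_mem hb)
    rw [hd, mem_bot] at h2
    have h3 : a = c := by
      calc a = c * (c⁻¹ * a) := by group
        _ = c := by rw [h2, mul_one]
    subst h3
    have h4 : b = d := mul_left_cancel h1
    subst h4
    rfl
  · rintro ⟨x, hx⟩
    obtain ⟨a, ha, b, hb, rfl⟩ := (Components.mem_sup_of_commute hc).mp hx
    exact ⟨(⟨a, ha⟩, ⟨b, hb⟩), rfl⟩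

theorem syl_sup {N S C P : Subgroup G} (hP : IsSyl p P N) (hSN : S ≤ N) (hCN : C ≤ N)
    (hNS : N ≤ normalizer (S : Set G)) (hNC : N ≤ normalizer (C : Set G))
    (hc : S ≤ centralizer (C : Set G)) (hd : S ⊓ C = ⊥) (hsup : N ≤ S ⊔ C) :
    P ≤ (P ⊓ S) ⊔ (P ⊓ C) := by
  have h1 := hP.inf hSN hNS
  have h2 := hP.inf hCN hNC
  have hN : N = S ⊔ C := le_antisymm hsup (sup_le hSN hCN)
  have hcN : Nat.card N = Nat.card S * Nat.card C := by rw [hN, card_sup_of_commute hc hd]
  have hc' : P ⊓ S ≤ centralizer ((P ⊓ C : Subgroup G) : Set G) :=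
    inf_le_right.trans (hc.trans (centralizer_le inf_le_right))
  have hd' : (P ⊓ S) ⊓ (P ⊓ C) = ⊥ := by
    rw [eq_bot_iff, ← hd]
    exact inf_le_inf inf_le_right inf_le_right
  have hcard := card_sup_of_commute hc' hd'
  have hrel : ∀ {A B : Subgroup G}, IsSyl p A B → Nat.card A = p ^ (Nat.card B).factorization p := by
    intro A B hAB
    obtain ⟨n, hn⟩ := IsPGroup.iff_card.mp hAB.2.1
    have h7 : Nat.card A * A.relIndex B = Nat.card B := by
      have := relIndex_mul_relIndex ⊥ A B bot_le hAB.1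
      rwa [relIndex_bot_left, relIndex_bot_left] at this
    have h8 : A.relIndex B ≠ 0 := fun h => hAB.2.2 (h ▸ dvd_zero p)
    rw [← h7, Nat.factorization_mul Nat.card_pos.ne' h8, hn, hp.out.factorization_pow]
    simp only [Finsupp.coe_add, Pi.add_apply, Finsupp.single_eq_same]
    rw [Nat.factorization_eq_zero_of_not_dvd hAB.2.2, add_zero]
  have hge : Nat.card P ≤ Nat.card ↥((P ⊓ S) ⊔ (P ⊓ C)) := by
    rw [hcard, hrel hP, hrel h1, hrel h2, hcN, Nat.factorization_mul Nat.card_pos.ne' Nat.card_pos.ne', ← pow_add]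
    exact le_rfl
  exact (Subgroup.eq_of_le_of_card_ge (sup_le inf_le_left inf_le_left) hge).ge

/-- the forward direction -/
theorem forward (P : Sylow p G) (hcore : pPrimeCore p G = ⊥)
    (hcore' : (⁅(P : Subgroup G), (P : Subgroup G)⁆).normalCore = ⊥)
    (hnas : ¬ ∃ S : Subgroup G, S.Normal ∧ IsSimpleGroup S ∧ ¬ IsMulCommutative S ∧ centralizer (S : Set G) = ⊥)
    (h : ⁅(P : Subgroup G), (P : Subgroup G)⁆.relIndex (P : Subgroup G) = p ^ 2) :
    ∃ x : G, (∃ k : ℕ, orderOf x = p ^ k) ∧ (Nat.card ↥(centralizer ({x} : Set G))).factorization p = 2 := by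
  have hp1 := hp.out.one_lt
  by_cases hab : ⁅(P : Subgroup G), (P : Subgroup G)⁆ = ⊥
  · rw [hab, relIndex_bot_left] at h
    refine reduct P (by rw [hab, relIndex_bot_left, h]) ⊥ inferInstance ?_ ?_
    · intro hle
      rw [le_bot_iff] at hle
      rw [hle, card_bot] at h
      exact absurd h (Nat.one_lt_pow two_ne_zero hp1).ne
    · intro y _ _
      rw [← h]
      exact card_le_of_le inf_le_left
  -- normal subgroups
  have hF3 : ∀ M : Subgroup G, M.Normal → M ≠ ⊥ →
      ¬ M ⊓ (P : Subgroup G) ≤ ⁅(P : Subgroup G), (P : Subgroup G)⁆ ∧ ⁅(P : Subgroup G), (P : Subgroup G)⁆ ≤ M := by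
    intro M hMn hM1
    by_cases hM : HasNormalPComplement p M
    · have h1 := pgroup_of_npc hcore hMn.isSubnormal hM
      obtain ⟨g, _, hg⟩ := (isSyl_top_iff P).exists_conj_le h1 le_top
      have h2 : M ≤ (P : Subgroup G) := by
        intro m hm
        have h3 := mem_conj_iff.mp (hg (hMn.conj_mem m hm g))
        have : g⁻¹ * (g * m * g⁻¹) * g = m := by group
        rwa [this] at h3
      have h3 : ¬ M ⊓ (P : Subgroup G) ≤ ⁅(P : Subgroup G), (P : Subgroup G)⁆ := by
        intro hle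
        rw [inf_of_le_left h2] at hle
        apply hM1
        rw [eq_bot_iff, ← hcore']
        exact Subgroup.normal_le_normalCore.mpr hle
      exact ⟨h3, comm_le_of_not_le P h (by rw [normalizer_eq_top]; exact le_top) h3⟩
    · exact claimC P h (H := ⊤) le_top le_top (by rw [normalizer_eq_top]) hM
  have hGt : (⊤ : Subgroup G) ≠ ⊥ := by
    intro ht
    apply hab
    rw [eq_bot_iff, ← ht]; exact le_top
  obtain ⟨N, hNn, hN1, _, hNmin⟩ := Cores.exists_minNormal_le (G := G) (K := ⊤) inferInstance hGt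
  obtain ⟨hN2, hN3⟩ := hF3 N hNn hN1
  -- the index of `P ⊓ N` is `p` if `P` is not in `N`
  have hidx : ¬ (P : Subgroup G) ≤ N → (N.subgroupOf (P : Subgroup G)).index = p := by
    intro hPN
    have h1 : ⁅(P : Subgroup G), (P : Subgroup G)⁆.relIndex (N ⊓ (P : Subgroup G)) *
        (N ⊓ (P : Subgroup G)).relIndex (P : Subgroup G) = p ^ 2 := by
      rw [← h]
      exact relIndex_mul_relIndex _ _ _ (le_inf hN3 (commutator_le_self _)) inf_le_right
    rw [inf_relIndex_right] at h1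
    change N.relIndex (P : Subgroup G) = p
    have h2 : N.relIndex (P : Subgroup G) ≠ 1 := fun h => hPN (relIndex_eq_one.mp h)
    have h3 : ⁅(P : Subgroup G), (P : Subgroup G)⁆.relIndex (N ⊓ (P : Subgroup G)) ≠ 1 :=
      fun h => hN2 (relIndex_eq_one.mp h)
    have h4 : N.relIndex (P : Subgroup G) ∣ p ^ 2 := ⟨_, by rw [mul_comm]; exact h1.symm⟩
    obtain ⟨i, hi, hi'⟩ := (Nat.dvd_prime_pow hp.out).mp h4
    interval_cases i
    · exact absurd (by simpa using hi') h2
    · simpa using hi'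
    · exfalso
      apply h3
      rw [hi'] at h1
      exact Nat.eq_of_mul_eq_mul_right (pow_pos hp.out.pos 2) (by rw [h1, one_mul])
  have hAn : (N.subgroupOf (P : Subgroup G)).Normal := inferInstance
  by_cases habel : ∀ a ∈ N ⊓ (P : Subgroup G), ∀ b ∈ N ⊓ (P : Subgroup G), a * b = b * a
  · have hPN : ¬ (P : Subgroup G) ≤ N := by
      intro hle
      apply hab
      rw [eq_bot_iff, commutator_le]
      intro a ha b hb
      rw [mem_bot, commutatorElement_eq_one_iff_mul_comm]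
      exact habel a (mem_inf.2 ⟨hle ha, ha⟩) b (mem_inf.2 ⟨hle hb, hb⟩)
    refine reduct P h N hNn hPN ?_
    intro y hyP hyN
    rw [← card_centralizer_rel hyP]
    refine card_centralizer_le (A := N.subgroupOf (P : Subgroup G)) (hidx hPN) ?_ ?_ ?_
    · intro a ha b hb
      exact Subtype.ext (habel a (mem_inf.2 ⟨mem_subgroupOf.mp ha, a.2⟩) b (mem_inf.2 ⟨mem_subgroupOf.mp hb, b.2⟩))
    · rw [← relIndex_comm, h]
    · intro hy; exact hyN (mem_subgroupOf.mp hy)
  exfalso
  have hCN : centralizer (N : Set G) = ⊥ := by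
    have h1 : N ⊓ centralizer (N : Set G) = ⊥ := by
      rcases hNmin (N ⊓ centralizer (N : Set G)) inferInstance inf_le_left with h2 | h2
      · exact h2
      · exfalso
        apply habel
        intro a ha b hb
        have h3 : a ∈ centralizer (N : Set G) := by
          have : a ∈ N ⊓ centralizer (N : Set G) := by rw [h2]; exact (mem_inf.1 ha).1
          exact (mem_inf.1 this).2
        exact (mem_centralizer_iff.mp h3 b (mem_inf.1 hb).1).symm
    by_contra hne
    have h2 := (hF3 (centralizer (N : Set G)) inferInstance hne).2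
    apply hab
    rw [eq_bot_iff, ← h1]
    exact le_inf hN3 h2
  have hnab : ¬ IsMulCommutative N := by
    intro hc
    apply habel
    intro a ha b hb
    exact congrArg Subtype.val (isMulCommutative_iff.mp hc ⟨a, (mem_inf.1 ha).1⟩ ⟨b, (mem_inf.1 hb).1⟩)
  have hns : ¬ IsSimpleGroup N := fun hs => hnas ⟨N, hNn, hs, hnab, hCN⟩
  obtain ⟨T, hTn, hT1, hT2⟩ : ∃ T : Subgroup N, T.Normal ∧ T ≠ ⊥ ∧ T ≠ ⊤ := by
    by_contra hcon
    apply hns
    have : Nontrivial N := (nontrivial_iff_ne_bot N).mpr hN1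
    refine ⟨fun H hH => ?_⟩
    by_contra hH'
    rw [not_or] at hH'
    exact hcon ⟨H, hH, hH'.1, hH'.2⟩
  obtain ⟨S0, hS0n, hS01, hS0T, hS0min⟩ := Cores.exists_minNormal_le hTn hT1
  have hS0top : S0 ≠ ⊤ := by
    intro h1; rw [h1] at hS0T; exact hT2 (top_le_iff.mp hS0T)
  set S : Subgroup G := S0.map N.subtype with hSdef
  have hSN : S ≤ N := map_subtype_le _
  have hnorm_of_le : ∀ (H : Subgroup G) (g : G), (∀ x ∈ H, g * x * g⁻¹ ∈ H) → g ∈ normalizer (H : Set G) := by
    intro H g hg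
    rw [mem_normalizer_iff_map]
    apply Subgroup.eq_of_le_of_card_ge
    · rintro _ ⟨x, hx, rfl⟩
      exact hg x hx
    · rw [card_conj]
  have hSNn : N ≤ normalizer (S : Set G) := by
    intro n hn
    apply hnorm_of_le
    rintro _ ⟨s, hs, rfl⟩
    exact ⟨⟨n, hn⟩ * s * ⟨n, hn⟩⁻¹, hS0n.conj_mem s hs ⟨n, hn⟩, rfl⟩
  have hmin : ∀ M : Subgroup G, M ≤ S → N ≤ normalizer (M : Set G) → M = ⊥ ∨ M = S := by
    intro M hMS hMn
    have h1 : (M.subgroupOf N).Normal := by
      constructor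
      intro n hn' x
      rw [mem_subgroupOf] at hn' ⊢
      exact (mem_normalizer_iff.mp (hMn x.2) n).mp hn'
    have h2 : M.subgroupOf N ≤ S0 := by
      intro x hx
      obtain ⟨y, hy, hyx⟩ := hMS (mem_subgroupOf.mp hx)
      have : y = x := Subtype.ext hyx
      rw [← this]; exact hy
    rcases hS0min _ h1 h2 with h3 | h3
    · left
      rw [← inf_of_le_left (hMS.trans hSN), ← subgroupOf_map_subtype, h3, Subgroup.map_bot]
    · right
      rw [← inf_of_le_left (hMS.trans hSN), ← subgroupOf_map_subtype, h3]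
  obtain ⟨Sg, hSg⟩ : ∃ Sg : G → Subgroup G, ∀ g, Sg g = S.map (MulAut.conj g).toMonoidHom := ⟨_, fun _ => rfl⟩
  have hSg1 : Sg 1 = S := by rw [hSg, conj_one]
  have hSgmul : ∀ g h, (Sg h).map (MulAut.conj g).toMonoidHom = Sg (g * h) := by
    intro g h; rw [hSg, hSg, conj_conj]
  have hSgle : ∀ g, Sg g ≤ N := by
    intro g x hx
    rw [hSg, mem_conj_iff] at hx
    have := hNn.conj_mem _ (hSN hx) g
    have h2 : g * (g⁻¹ * x * g) * g⁻¹ = x := by group
    rwa [h2] at this
  have hSgn : ∀ g, N ≤ normalizer (Sg g : Set G) := by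
    intro g n hn
    rw [hSg, ← normalizer_conj, mem_conj_iff]
    apply hSNn
    have := hNn.conj_mem _ hn g⁻¹
    simpa using this
  have hming : ∀ g, ∀ M : Subgroup G, M ≤ Sg g → N ≤ normalizer (M : Set G) → M = ⊥ ∨ M = Sg g := by
    intro g M hM hMn
    have h1 : M.map (MulAut.conj g⁻¹).toMonoidHom ≤ S := by
      have := map_mono (f := (MulAut.conj g⁻¹).toMonoidHom) hM
      rwa [hSgmul, inv_mul_cancel, hSg1] at this
    have h2 : N ≤ normalizer (M.map (MulAut.conj g⁻¹).toMonoidHom : Set G) := by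
      intro n hn
      rw [← normalizer_conj, mem_conj_iff]
      apply hMn
      have := hNn.conj_mem _ hn g
      simpa using this
    have h3 : (M.map (MulAut.conj g⁻¹).toMonoidHom).map (MulAut.conj g).toMonoidHom = M := by
      rw [conj_conj, mul_inv_cancel, conj_one]
    rcases hmin _ h1 h2 with h4 | h4
    · left; rw [← h3, h4, Subgroup.map_bot]
    · right; rw [← h3, h4, ← hSg]
  have hdisj : ∀ g h, Sg g = Sg h ∨ Sg g ≤ centralizer (Sg h : Set G) := by
    intro g h
    have h1 : N ≤ normalizer ((Sg g ⊓ Sg h : Subgroup G) : Set G) := by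
      intro n hn
      apply hnorm_of_le
      intro x hx
      exact mem_inf.2 ⟨(mem_normalizer_iff.mp (hSgn g hn) x).mp (mem_inf.1 hx).1,
        (mem_normalizer_iff.mp (hSgn h hn) x).mp (mem_inf.1 hx).2⟩
    rcases hming g _ inf_le_left h1 with h2 | h2
    · right
      rw [Components.le_centralizer_iff_commutator, eq_bot_iff, ← h2, commutator_le]
      intro a ha b hb
      rw [commutatorElement_def]
      refine mem_inf.2 ⟨?_, ?_⟩
      · rw [mul_assoc, mul_assoc, ← mul_assoc b]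
        exact mul_mem ha ((mem_normalizer_iff.mp (hSgn g (hSgle h hb)) _).mp (inv_mem ha))
      · exact mul_mem ((mem_normalizer_iff.mp (hSgn h (hSgle g ha)) _).mp hb) (inv_mem hb)
    · left
      have h3 : Sg g ≤ Sg h := by rw [← h2]; exact inf_le_right
      refine Subgroup.eq_of_le_of_card_ge h3 ?_
      rw [hSg, hSg, card_conj, card_conj]
  have hS1 : S ≠ ⊥ := by
    intro h1
    rw [hSdef, map_eq_bot_iff_of_injective _ N.subtype_injective] at h1
    exact hS01 h1
  have hDN : (⨆ g, Sg g) = N := by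
    have h1 : (⨆ g, Sg g).Normal := by
      constructor
      intro n hn g
      have h2 : (⨆ h, Sg h).map (MulAut.conj g).toMonoidHom ≤ ⨆ h, Sg h := by
        rw [Subgroup.map_iSup]
        refine iSup_le fun h => ?_
        rw [hSgmul]
        exact le_iSup Sg (g * h)
      exact h2 ⟨n, hn, rfl⟩
    rcases hNmin _ h1 (iSup_le hSgle) with h2 | h2
    · exfalso
      apply hS1
      rw [eq_bot_iff, ← h2, ← hSg1]
      exact le_iSup Sg 1
    · exact h2
  have hgen : ∀ z : G, (∀ g, Sg g ≤ centralizer ({z} : Set G)) → z = 1 := by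
    intro z hz
    have h1 : N ≤ centralizer ({z} : Set G) := by
      rw [← hDN]; exact iSup_le hz
    rw [← mem_bot, ← hCN, mem_centralizer_iff]
    intro n hn
    exact (mem_centralizer_iff.mp (h1 hn) z rfl).symm
  have hex : ∀ g, ∃ h, Sg g ≠ Sg h := by
    intro g
    by_contra hcon
    push Not at hcon
    apply hS0top
    rw [eq_top_iff]
    intro n _
    have h1 : (n : G) ∈ S := by
      have h2 : N ≤ S := by
        rw [← hDN, ← hSg1]
        refine iSup_le fun h => ?_
        rw [← hcon h, ← hcon 1]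
      exact h2 n.2
    obtain ⟨m, hm, hmn⟩ := h1
    have : m = n := Subtype.ext hmn
    rw [← this]; exact hm
  have hzc : ∀ {z : G} {T : Subgroup G}, z ∈ centralizer (T : Set G) → T ≤ centralizer ({z} : Set G) := by
    intro z T hz t ht
    rw [mem_centralizer_iff]
    rintro y rfl
    exact (mem_centralizer_iff.mp hz t ht).symm
  have hnpc : ∀ g, ¬ HasNormalPComplement p (Sg g) := by
    intro g hnp
    have h1 : (Sg g).IsSubnormal := by
      have h2 : ((Sg g).subgroupOf N).Normal := by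
        constructor
        intro n hn' x
        rw [mem_subgroupOf] at hn' ⊢
        exact (mem_normalizer_iff.mp (hSgn g x.2) n).mp hn'
      exact IsSubnormal.trans (hSgle g) h2.isSubnormal hNn.isSubnormal
    have h2 := Layer.subnormal_pgroup_le_pCore h1 (pgroup_of_npc hcore h1 hnp)
    have hpn : (pCore p G).Normal := PCoreTools.pCore_normal' p G
    have h3 : N ≤ pCore p G := by
      rcases hNmin (N ⊓ pCore p G) inferInstance inf_le_left with h4 | h4
      · exfalso
        apply hS1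
        have h5 : Sg g ≤ ⊥ := h4 ▸ le_inf (hSgle g) h2
        rw [hSg, le_bot_iff, map_eq_bot_iff_of_injective _ (MulAut.conj g).injective] at h5
        exact h5
      · rw [← h4]; exact inf_le_right
    have h4 : IsPGroup p N := (PCoreTools.isPGroup_pCore p).to_le h3
    have : Nontrivial N := (nontrivial_iff_ne_bot N).mpr hN1
    have h5 := h4.center_nontrivial
    obtain ⟨c, hc⟩ := exists_ne (1 : center N)
    apply hc
    have h6 : ((c : N) : G) ∈ centralizer (N : Set G) := by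
      rw [mem_centralizer_iff]
      intro n hn
      exact congrArg Subtype.val (mem_center_iff.mp c.2 ⟨n, hn⟩)
    rw [hCN, mem_bot] at h6
    exact Subtype.ext (Subtype.ext h6)
  have hPN : ¬ (P : Subgroup G) ≤ N := by
    intro hle
    apply hab
    rw [eq_bot_iff]
    intro z hz
    rw [mem_bot]
    apply hgen
    intro g
    obtain ⟨k, hk⟩ := hex g
    have h1 := (claimC P h hle (hSgle k) (hSgn k) (hnpc k)).2 hz
    rcases hdisj k g with h2 | h2
    · exact absurd h2.symm hk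
    · exact hzc (h2 h1)
  obtain ⟨x, hxP, hxN⟩ := SetLike.not_le_iff_exists.mp hPN
  have hxA : (⟨x, hxP⟩ : (P : Subgroup G)) ∉ N.subgroupOf (P : Subgroup G) := fun hx => hxN (mem_subgroupOf.mp hx)
  have hform : ∀ y ∈ (P : Subgroup G), ∃ a ∈ N, ∃ k : ℤ, y = a * x ^ k := by
    intro y hy
    obtain ⟨a, ha, k, hk⟩ := exists_form (hidx hPN) hxA (⟨y, hy⟩ : (P : Subgroup G))
    exact ⟨a, mem_subgroupOf.mp ha, k, by simpa using congrArg Subtype.val hk⟩
  have hnormsup : ∀ g : G, N ⊔ (P : Subgroup G) ≤ normalizer ((⨆ i : ℤ, Sg (x ^ i * g) : Subgroup G) : Set G) := by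
    intro g
    have h1 : N ≤ normalizer ((⨆ i : ℤ, Sg (x ^ i * g) : Subgroup G) : Set G) := by
      intro n hn
      rw [mem_normalizer_iff_map, Subgroup.map_iSup]
      congr 1
      funext i
      exact mem_normalizer_iff_map.mp (hSgn _ hn)
    refine sup_le h1 ?_
    intro y hy
    obtain ⟨a, ha, k, rfl⟩ := hform y hy
    refine mul_mem (h1 ha) ?_
    rw [mem_normalizer_iff_map, Subgroup.map_iSup]
    have h2 : ∀ i : ℤ, (Sg (x ^ i * g)).map (MulAut.conj (x ^ k)).toMonoidHom = Sg (x ^ ((Equiv.addRight k) i) * g) := by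
      intro i
      rw [hSgmul, ← mul_assoc, ← zpow_add]
      congr 3
      exact add_comm k i
    simp only [h2]
    exact Equiv.iSup_comp (g := fun i : ℤ => Sg (x ^ i * g)) (Equiv.addRight k)
  have hall : ∀ g, ∃ i : ℤ, Sg g = Sg (x ^ i) := by
    intro g
    by_contra hcon
    push Not at hcon
    have hM : ∀ k : G, ⁅(P : Subgroup G), (P : Subgroup G)⁆ ≤ ⨆ i : ℤ, Sg (x ^ i * k) := by
      intro k
      refine (claimC P h (H := N ⊔ (P : Subgroup G)) le_sup_right ?_ (hnormsup k) ?_).2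
      · exact (iSup_le fun i => hSgle _).trans le_sup_left
      · intro hnp
        refine hnpc (x ^ (0 : ℤ) * k) (PNilp.HasNormalPComplement.mono ?_ hnp)
        exact le_iSup (fun i : ℤ => Sg (x ^ i * k)) 0
    apply hab
    rw [eq_bot_iff]
    intro z hz
    rw [mem_bot]
    apply hgen
    intro k
    apply hzc
    by_cases hk : ∃ i : ℤ, Sg k = Sg (x ^ i)
    · obtain ⟨i, hi⟩ := hk
      rw [hi]
      have h1 : (⨆ j : ℤ, Sg (x ^ j * g)) ≤ centralizer (Sg (x ^ i) : Set G) := by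
        refine iSup_le fun j => ?_
        rcases hdisj (x ^ j * g) (x ^ i) with h2 | h2
        · exfalso
          apply hcon (-j + i)
          have h3 := congrArg (fun T => T.map (MulAut.conj (x ^ (-j))).toMonoidHom) h2
          simp only [hSgmul] at h3
          rw [← mul_assoc, ← zpow_add, neg_add_cancel, zpow_zero, one_mul, ← zpow_add] at h3
          exact h3
        · exact h2
      exact h1 (hM g hz)
    · push Not at hk
      have h1 : (⨆ j : ℤ, Sg (x ^ j * 1)) ≤ centralizer (Sg k : Set G) := by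
        refine iSup_le fun j => ?_
        rw [mul_one]
        rcases hdisj (x ^ j) k with h2 | h2
        · exact absurd h2.symm (hk j)
        · exact h2
      exact h1 (hM 1 hz)
  have hSx : ∀ i : ℕ, 0 < i → i < p → Sg (x ^ i) ≤ centralizer (S : Set G) := by
    intro i hi0 hip
    rcases hdisj (x ^ i) 1 with h1 | h1
    · exfalso
      rw [hSg1] at h1
      have h2 : x ^ i ∈ normalizer (S : Set G) := by
        rw [mem_normalizer_iff_map, ← hSg]; exact h1
      have h3 : x ^ p ∈ normalizer (S : Set G) := by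
        apply hSNn
        have := pow_index_mem (N.subgroupOf (P : Subgroup G)) ⟨x, hxP⟩
        rw [hidx hPN] at this
        exact mem_subgroupOf.mp this
      have h4 : Nat.Coprime i p := (Nat.coprime_comm.mp ((Nat.Prime.coprime_iff_not_dvd hp.out).mpr
        (fun hd => absurd (Nat.le_of_dvd hi0 hd) (not_le.mpr hip))))
      have h5 : x ∈ normalizer (S : Set G) := by
        have h6 := Int.gcd_eq_gcd_ab i p
        have h7 : (x : G) = (x ^ i) ^ (Int.gcdA i p) * (x ^ p) ^ (Int.gcdB i p) := by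
          rw [← zpow_natCast x i, ← zpow_natCast x p, ← zpow_mul, ← zpow_mul, ← zpow_add, ← h6]
          rw [Int.gcd_natCast_natCast, h4]
          simp
        rw [h7]
        exact mul_mem (zpow_mem h2 _) (zpow_mem h3 _)
      obtain ⟨k, hk⟩ := hex 1
      obtain ⟨j, hj⟩ := hall k
      apply hk
      rw [hj, hSg1, hSg]
      exact (mem_normalizer_iff_map.mp (zpow_mem h5 j)).symm
    · rw [hSg1] at h1; exact h1
  -- the subgroup `C = C_N(S)`
  have hNSC : N ≤ S ⊔ (N ⊓ centralizer (S : Set G)) := by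
    rw [← hDN]
    refine iSup_le fun g => ?_
    rcases hdisj g 1 with h1 | h1
    · rw [h1, hSg1]; exact le_sup_left
    · rw [hSg1] at h1
      refine le_trans (le_inf ?_ h1) le_sup_right
      exact le_iSup Sg g
  have hNC : N ≤ normalizer ((N ⊓ centralizer (S : Set G) : Subgroup G) : Set G) := by
    intro n hn
    apply hnorm_of_le
    intro y hy
    refine mem_inf.2 ⟨hNn.conj_mem y (mem_inf.1 hy).1 n, ?_⟩
    rw [mem_centralizer_iff]
    intro s hs
    have h1 : n⁻¹ * s * n ∈ S := by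
      have := (mem_normalizer_iff.mp (hSNn (inv_mem hn)) s).mp hs
      simpa using this
    have h2 := mem_centralizer_iff.mp (mem_inf.1 hy).2 _ h1
    calc s * (n * y * n⁻¹) = n * (n⁻¹ * s * n * y) * n⁻¹ := by group
      _ = n * (y * (n⁻¹ * s * n)) * n⁻¹ := by rw [h2]
      _ = n * y * n⁻¹ * s := by group
  have hSC : S ≤ centralizer ((N ⊓ centralizer (S : Set G) : Subgroup G) : Set G) :=
    Components.le_centralizer_comm inf_le_right
  have hd : S ⊓ (N ⊓ centralizer (S : Set G)) = ⊥ := by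
    rw [eq_bot_iff]
    intro z hz
    rw [mem_bot]
    apply hgen
    intro g
    rcases hdisj g 1 with h1 | h1
    · rw [h1, hSg1]
      exact hzc (mem_inf.1 (mem_inf.1 hz).2).2
    · rw [hSg1] at h1
      refine h1.trans (centralizer_le ?_)
      rintro _ rfl
      exact (mem_inf.1 hz).1
  have hsylN : IsSyl p ((P : Subgroup G) ⊓ N) N := (isSyl_top_iff P).inf le_top (by rw [normalizer_eq_top])
  have hfm := syl_sup hsylN hSN inf_le_left hSNn hNC hSC hd hNSC
  -- apply the wreath lemma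
  have key : ⁅N.subgroupOf (P : Subgroup G), N.subgroupOf (P : Subgroup G)⁆ ≤
      (N ⊓ centralizer (S : Set G)).subgroupOf (P : Subgroup G) := by
    refine commutator_le_of_wreath (p := p) (S := S.subgroupOf (P : Subgroup G)) (x := ⟨x, hxP⟩) P.2 (hidx hPN)
      (by rw [← relIndex_comm, h]) hxA ?_ ?_ ?_ ?_ ?_
    · intro a ha
      exact mem_subgroupOf.mpr (mem_inf.1 (mem_subgroupOf.mp ha)).1
    · intro a ha k hk
      rw [mem_subgroupOf] at ha hk ⊢
      exact (mem_normalizer_iff.mp (hNC ha) _).mp hk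
    · intro a ha
      have h1 : (a : G) ∈ ((P : Subgroup G) ⊓ N ⊓ S) ⊔ ((P : Subgroup G) ⊓ N ⊓ (N ⊓ centralizer (S : Set G))) :=
        hfm (mem_inf.2 ⟨a.2, mem_subgroupOf.mp ha⟩)
      rw [Components.mem_sup_of_commute (inf_le_right.trans (hSC.trans (centralizer_le inf_le_right)))] at h1
      obtain ⟨s, hs, k, hk, hsk⟩ := h1
      exact ⟨⟨s, (mem_inf.1 (mem_inf.1 hs).1).1⟩, mem_subgroupOf.mpr (mem_inf.1 hs).2,
        ⟨k, (mem_inf.1 (mem_inf.1 hk).1).1⟩, mem_subgroupOf.mpr (mem_inf.1 hk).2, Subtype.ext hsk.symm⟩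
    · intro a ha
      exact mem_subgroupOf.mpr (hSN (mem_subgroupOf.mp ha))
    · intro i hi0 hip s hs
      rw [mem_subgroupOf] at hs ⊢
      have h1 : x ^ i * (s : G) * (x ^ i)⁻¹ ∈ Sg (x ^ i) := by
        rw [hSg]; exact ⟨s, hs, rfl⟩
      exact mem_inf.2 ⟨hSgle _ h1, hSx i hi0 hip h1⟩
  apply habel
  intro a ha b hb
  have hcm : ∀ a' ∈ N ⊓ (P : Subgroup G), ∀ b' ∈ N ⊓ (P : Subgroup G), ⁅a', b'⁆ ∈ centralizer (S : Set G) := by
    intro a' ha' b' hb'
    have h1 := key (commutator_mem_commutator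
      (show (⟨a', (mem_inf.1 ha').2⟩ : (P : Subgroup G)) ∈ N.subgroupOf (P : Subgroup G) from mem_subgroupOf.mpr (mem_inf.1 ha').1)
      (show (⟨b', (mem_inf.1 hb').2⟩ : (P : Subgroup G)) ∈ N.subgroupOf (P : Subgroup G) from mem_subgroupOf.mpr (mem_inf.1 hb').1))
    exact (mem_inf.1 (mem_subgroupOf.mp h1)).2
  rw [← commutatorElement_eq_one_iff_mul_comm]
  apply hgen
  intro g
  apply hzc
  obtain ⟨i, hi⟩ := hall g
  rw [hi, hSg]
  have hconj : ∀ a' ∈ N ⊓ (P : Subgroup G), x ^ (-i) * a' * (x ^ (-i))⁻¹ ∈ N ⊓ (P : Subgroup G) := by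
    intro a' ha'
    exact mem_inf.2 ⟨hNn.conj_mem _ (mem_inf.1 ha').1 _,
      mul_mem (mul_mem (zpow_mem hxP _) (mem_inf.1 ha').2) (inv_mem (zpow_mem hxP _))⟩
  have h1 := hcm _ (hconj a ha) _ (hconj b hb)
  rw [mem_centralizer_iff]
  rintro _ ⟨s, hs, rfl⟩
  have h2 := mem_centralizer_iff.mp h1 s hs
  have h3 : ⁅x ^ (-i) * a * (x ^ (-i))⁻¹, x ^ (-i) * b * (x ^ (-i))⁻¹⁆ = x ^ (-i) * ⁅a, b⁆ * (x ^ (-i))⁻¹ := by
    rw [commutatorElement_def, commutatorElement_def]; group
  rw [h3] at h2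
  change x ^ i * s * (x ^ i)⁻¹ * ⁅a, b⁆ = ⁅a, b⁆ * (x ^ i * s * (x ^ i)⁻¹)
  calc x ^ i * s * (x ^ i)⁻¹ * ⁅a, b⁆ = x ^ i * (s * (x ^ (-i) * ⁅a, b⁆ * (x ^ (-i))⁻¹)) * (x ^ i)⁻¹ := by group
    _ = x ^ i * (x ^ (-i) * ⁅a, b⁆ * (x ^ (-i))⁻¹ * s) * (x ^ i)⁻¹ := by rw [h2]
    _ = ⁅a, b⁆ * (x ^ i * s * (x ^ i)⁻¹) := by group

end Grp

end Cfsg.Agent.Lib.H46AbSq
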