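import Cfsg.Prelude.Def_CaseTheorems
import Cfsg.Prelude.Def_Transfer
import Mathlib

/-!
# `D8 ≀ C2` inside a 2-group of sectional 2-rank at most 4
-/

set_option autoImplicit false

namespace Cfsg.Agent.Lib.H46DW

open DihedralGroup

universe u

/-! ### general lemmas -/

theorem ext2 {G : Type u} [Group G] (K : Subgroup G) (g : G) (hn : ∀ k ∈ K, g * k * g⁻¹ ∈ K) (h2 : g * g ∈ K) :
    ∃ H : Subgroup G, ∀ s, s ∈ H ↔ s ∈ K ∨ s * g⁻¹ ∈ K := by
  refine ⟨{ carrier := {s | s ∈ K ∨ s * g⁻¹ ∈ K}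
            one_mem' := Or.inl K.one_mem
            mul_mem' := ?_
            inv_mem' := ?_ }, fun s => Iff.rfl⟩
  · rintro a b (ha | ha) (hb | hb)
    · exact Or.inl (K.mul_mem ha hb)
    · right
      have := K.mul_mem ha hb
      rwa [← mul_assoc] at this
    · right
      have := K.mul_mem ha (hn b hb)
      have e : a * g⁻¹ * (g * b * g⁻¹) = a * b * g⁻¹ := by group
      rwa [e] at this
    · left
      have := K.mul_mem (K.mul_mem ha (hn _ hb)) h2
      have e : a * g⁻¹ * (g * (b * g⁻¹) * g⁻¹) * (g * g) = a * b := by group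
      rwa [e] at this
  · rintro a (ha | ha)
    · exact Or.inl (K.inv_mem ha)
    · right
      have := K.mul_mem (K.inv_mem h2) (hn _ (K.inv_mem ha))
      have e : (g * g)⁻¹ * (g * (a * g⁻¹)⁻¹ * g⁻¹) = a⁻¹ * g⁻¹ := by group
      rwa [e] at this

theorem ext2_card {G : Type u} [Group G] [Finite G] {K H : Subgroup G} {g : G}
    (hH : ∀ s, s ∈ H ↔ s ∈ K ∨ s * g⁻¹ ∈ K) (hg : g ∉ K) : Nat.card H = 2 * Nat.card K := by
  have hKH : K ≤ H := fun k hk => (hH k).2 (Or.inl hk)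
  have hgH : g ∈ H := (hH g).2 (Or.inr (by rw [mul_inv_cancel]; exact K.one_mem))
  have hind : (K.subgroupOf H).index = 2 := by
    rw [Subgroup.index_eq_two_iff]
    refine ⟨⟨g, hgH⟩⁻¹, fun b => ?_⟩
    have hb := (hH b).1 b.2
    have hiff : ((b * (⟨g, hgH⟩ : H)⁻¹ : H) ∈ K.subgroupOf H) ↔ (b : G) * g⁻¹ ∈ K := Iff.rfl
    have hiff2 : (b ∈ K.subgroupOf H) ↔ (b : G) ∈ K := Iff.rfl
    rw [hiff, hiff2]
    by_cases h1 : (b : G) ∈ K
    · right
      refine ⟨h1, fun h2 => hg ?_⟩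
      have := K.mul_mem (K.inv_mem h2) h1
      have e : ((b : G) * g⁻¹)⁻¹ * b = g := by group
      rwa [e] at this
    · left
      exact ⟨hb.resolve_left h1, h1⟩
  have h := (K.subgroupOf H).card_mul_index
  rw [hind, Nat.card_congr (Subgroup.subgroupOfEquivOfLe hKH).toEquiv] at h
  omega

theorem rank_le {S : Type u} [Group S] [Finite S] (hr : Cfsg.SectionalPRankLE 2 4 S) (A Z : Subgroup S) (hZA : Z ≤ A)
    (hZn : ∀ a ∈ A, ∀ z ∈ Z, a * z * a⁻¹ ∈ Z) (hsq : ∀ a ∈ A, a * a ∈ Z)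
    (hc : ∀ a ∈ A, ∀ b ∈ A, (a * b)⁻¹ * (b * a) ∈ Z) : Nat.card A ≤ 16 * Nat.card Z := by
  have hn : (Z.subgroupOf A).Normal := ⟨fun z hz a => hZn a a.2 z hz⟩
  have h := hr A (Z.subgroupOf A) ⊤ ⟨⟨by
      rintro ⟨x, -⟩ ⟨y, -⟩
      apply Subtype.ext
      change x * y = y * x
      induction x using QuotientGroup.induction_on with
      | H x =>
        induction y using QuotientGroup.induction_on with
        | H y =>
          rw [← QuotientGroup.mk_mul, ← QuotientGroup.mk_mul, QuotientGroup.eq]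
          exact hc x x.2 y y.2⟩⟩ (by
      intro x _
      induction x using QuotientGroup.induction_on with
      | H x =>
        rw [← QuotientGroup.mk_pow, QuotientGroup.eq_one_iff]
        have := hsq x x.2
        rw [← pow_two] at this
        exact this)
  rw [Subgroup.card_top] at h
  have h2 := (Z.subgroupOf A).card_mul_index
  rw [Nat.card_congr (Subgroup.subgroupOfEquivOfLe hZA).toEquiv, Subgroup.index] at h2
  calc Nat.card A = Nat.card Z * Nat.card (A ⧸ Z.subgroupOf A) := h2.symm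
    _ ≤ Nat.card Z * 2 ^ 4 := Nat.mul_le_mul_left _ h
    _ = 16 * Nat.card Z := by ring

/-! ### the dihedral group of order 8 -/

abbrev D8 := DihedralGroup 4
abbrev DW := D8 × D8
abbrev Zp (p : D8) : Prop := p = 1 ∨ p = r 2
abbrev ZD (d : DW) : Prop := Zp d.1 ∧ Zp d.2
abbrev Z0 (d : DW) : Prop := Zp d.1 ∧ d.1 = d.2
abbrev Xp (p : D8) : Prop := p = 1 ∨ p = r 2 ∨ p = sr 0 ∨ p = sr 2
abbrev Yp (p : D8) : Prop := p = 1 ∨ p = r 2 ∨ p = sr 1 ∨ p = sr 3

theorem word (p : D8) : p = 1 ∨ p = sr 0 ∨ p = sr 1 ∨ p = sr 0 * sr 1 ∨ p = sr 1 * sr 0 ∨ p = sr 0 * sr 1 * sr 0 ∨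
    p = sr 1 * sr 0 * sr 1 ∨ p = sr 0 * sr 1 * sr 0 * sr 1 := by
  revert p; decide

theorem hom_ext {S : Type u} [Group S] {f g : DW →* S} (h1 : f (sr 0, 1) = g (sr 0, 1))
    (h2 : f (sr 1, 1) = g (sr 1, 1)) (h3 : f (1, sr 0) = g (1, sr 0)) (h4 : f (1, sr 1) = g (1, sr 1)) : f = g := by
  have e1 : ∀ (k : DW →* S) (a b : D8), k (a * b, 1) = k (a, 1) * k (b, 1) := by
    intro k a b; rw [← map_mul]; simp
  have e2 : ∀ (k : DW →* S) (a b : D8), k (1, a * b) = k (1, a) * k (1, b) := by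
    intro k a b; rw [← map_mul]; simp
  ext ⟨p, q⟩
  have e : ((p, q) : DW) = (p, 1) * (1, q) := by simp
  rw [e, map_mul, map_mul]
  congr 1
  · rcases word p with h | h | h | h | h | h | h | h <;> subst h <;>
      simp only [e1, h1, h2, show ((1 : D8), (1 : D8)) = (1 : DW) from rfl, map_one]
  · rcases word q with h | h | h | h | h | h | h | h <;> subst h <;>
      simp only [e2, h3, h4, show ((1 : D8), (1 : D8)) = (1 : DW) from rfl, map_one]

theorem zp_mul {p q : D8} (hp : Zp p) (hq : Zp q) : Zp (p * q) := by revert p q; decide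
theorem zp_inv {p : D8} (hp : Zp p) : Zp p⁻¹ := by revert p; decide
theorem zp_sq {p : D8} (hp : Zp p) : p * p = 1 := by revert p; decide
theorem zp_comm (p : D8) {q : D8} (hq : Zp q) : p * q = q * p := by revert p q; decide
theorem sq_zp (p : D8) : Zp (p * p) := by revert p; decide
theorem comm_zp (p q : D8) : Zp ((p * q)⁻¹ * (q * p)) := by revert p q; decide
theorem conj_zp (p q : D8) : Zp (q⁻¹ * (p * q * p⁻¹)) := by revert p q; decide
theorem zp_of_comm {p : D8} (h0 : p * sr 0 = sr 0 * p) (h1 : p * sr 1 = sr 1 * p) : Zp p := by revert p; decide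

/-- the centre of `D8 × D8` -/
def zd : Subgroup DW where
  carrier := {d | ZD d}
  one_mem' := ⟨Or.inl rfl, Or.inl rfl⟩
  mul_mem' := fun ha hb => ⟨zp_mul ha.1 hb.1, zp_mul ha.2 hb.2⟩
  inv_mem' := fun ha => ⟨zp_inv ha.1, zp_inv ha.2⟩

theorem mem_zd {d : DW} : d ∈ zd ↔ ZD d := Iff.rfl

theorem zd_comm (p : DW) {q : DW} (hq : q ∈ zd) : p * q = q * p := Prod.ext (zp_comm _ hq.1) (zp_comm _ hq.2)
theorem zd_sq {q : DW} (hq : q ∈ zd) : q * q = 1 := Prod.ext (zp_sq hq.1) (zp_sq hq.2)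
theorem sq_zd (q : DW) : q * q ∈ zd := ⟨sq_zp _, sq_zp _⟩
theorem comm_zd (p q : DW) : (p * q)⁻¹ * (q * p) ∈ zd := ⟨comm_zp _ _, comm_zp _ _⟩
theorem conj_zd (p q : DW) : q⁻¹ * (p * q * p⁻¹) ∈ zd := ⟨conj_zp _ _, conj_zp _ _⟩

theorem card_zd : Nat.card zd = 4 := by
  rw [show Nat.card zd = Nat.card {d : DW // ZD d} from rfl, Nat.card_eq_fintype_card]
  decide

theorem card_dw : Nat.card DW = 64 := by
  rw [Nat.card_eq_fintype_card]; decide

/-- the four generators -/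
def gen : Fin 4 → DW := ![(sr 0, 1), (sr 1, 1), (1, sr 0), (1, sr 1)]

theorem zd_of_comm {d : DW} (h : ∀ i, d * gen i = gen i * d) : d ∈ zd :=
  ⟨zp_of_comm (congrArg Prod.fst (h 0)) (congrArg Prod.fst (h 1)),
    zp_of_comm (congrArg Prod.snd (h 2)) (congrArg Prod.snd (h 3))⟩

section
variable {S : Type u} [Group S] [Finite S]

theorem comm_all (ι : DW →* S) {s : S} (h : ∀ i, s * ι (gen i) = ι (gen i) * s) (d : DW) : s * ι d = ι d * s := by
  have hf : (MulAut.conj s).toMonoidHom.comp ι = ι := by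
    have key : ∀ i, ((MulAut.conj s).toMonoidHom.comp ι) (gen i) = ι (gen i) := by
      intro i
      change s * ι (gen i) * s⁻¹ = _
      rw [h i, mul_inv_cancel_right]
    exact hom_ext (key 0) (key 1) (key 2) (key 3)
  have := DFunLike.congr_fun hf d
  change s * ι d * s⁻¹ = ι d at this
  calc s * ι d = (s * ι d * s⁻¹) * s := by group
    _ = ι d * s := by rw [this]

/-- Lemma A -/
theorem cent (h2 : IsPGroup 2 S) (hr : Cfsg.SectionalPRankLE 2 4 S) {ι : DW →* S} (hinj : Function.Injective ι)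
    {s : S} (hs : ∀ i, s * ι (gen i) = ι (gen i) * s) : s ∈ zd.map ι := by
  classical
  by_contra hcon
  obtain ⟨n, hn⟩ := h2 s
  have hex : ∃ k : ℕ, s ^ 2 ^ k ∈ zd.map ι := ⟨n, by rw [hn]; exact Subgroup.one_mem _⟩
  obtain ⟨k, hk⟩ : ∃ k, k = Nat.find hex := ⟨_, rfl⟩
  have hk1 : s ^ 2 ^ k ∈ zd.map ι := hk ▸ Nat.find_spec hex
  have hk0 : k ≠ 0 := by
    rintro rfl
    rw [pow_zero, pow_one] at hk1
    exact hcon hk1
  obtain ⟨j, rfl⟩ := Nat.exists_eq_succ_of_ne_zero hk0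
  have hj : s ^ 2 ^ j ∉ zd.map ι := Nat.find_min hex (by omega)
  obtain ⟨c, hc⟩ : ∃ c, c = s ^ 2 ^ j := ⟨_, rfl⟩
  rw [← hc] at hj
  have hcc : c * c ∈ zd.map ι := by
    rw [hc, ← pow_add, ← two_mul, ← pow_succ']
    exact hk1
  have hcom : ∀ d, c * ι d = ι d * c := by
    intro d
    have h1 : Commute s (ι d) := comm_all ι hs d
    rw [hc]
    exact h1.pow_left _
  have hcr : c ∉ ι.range := by
    rintro ⟨d, hd⟩
    apply hj
    refine ⟨d, zd_of_comm fun i => hinj ?_, hd⟩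
    rw [map_mul, map_mul, hd]
    exact hcom _
  obtain ⟨H, hH⟩ := ext2 ι.range c (by
    rintro _ ⟨d, rfl⟩
    rw [hcom, mul_inv_cancel_right]
    exact ⟨d, rfl⟩) (by
    obtain ⟨d, -, hd⟩ := hcc
    exact ⟨d, hd⟩)
  have hcard := ext2_card hH hcr
  have hdr : Nat.card ι.range = 64 := by
    rw [← card_dw]
    exact (Nat.card_congr (MonoidHom.ofInjective hinj).toEquiv).symm
  have hH' : ∀ a ∈ H, ∃ d x, (x = 1 ∨ x = c) ∧ a = ι d * x := by
    intro a ha
    rcases (hH a).1 ha with ⟨d, hd⟩ | ⟨d, hd⟩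
    · exact ⟨d, 1, Or.inl rfl, by rw [hd, mul_one]⟩
    · exact ⟨d, c, Or.inr rfl, by rw [hd, inv_mul_cancel_right]⟩
  have hxc : ∀ x, (x = 1 ∨ x = c) → ∀ d, x * ι d = ι d * x := by
    rintro x (rfl | rfl) d
    · rw [one_mul, mul_one]
    · exact hcom d
  have hxx : ∀ x, (x = 1 ∨ x = c) → x * x ∈ zd.map ι := by
    rintro x (rfl | rfl)
    · rw [one_mul]; exact Subgroup.one_mem _
    · exact hcc
  have hxy : ∀ x y, (x = 1 ∨ x = c) → (y = 1 ∨ y = c) → x * y = y * x := by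
    rintro x y (rfl | rfl) (rfl | rfl) <;> simp
  have hle := rank_le hr H (zd.map ι) (by
      rintro _ ⟨d, -, rfl⟩
      exact (hH _).2 (Or.inl ⟨d, rfl⟩)) (by
      rintro a ha _ ⟨z, hz, rfl⟩
      obtain ⟨d, x, hx, rfl⟩ := hH' a ha
      refine ⟨z, hz, ?_⟩
      have e : ι d * x * ι z * (ι d * x)⁻¹ = ι d * (x * ι z) * x⁻¹ * (ι d)⁻¹ := by group
      rw [e, hxc x hx, ← mul_assoc, ← map_mul, zd_comm d hz, map_mul]
      group) (by
      intro a ha
      obtain ⟨d, x, hx, rfl⟩ := hH' a ha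
      have e : ι d * x * (ι d * x) = ι (d * d) * (x * x) := by
        calc ι d * x * (ι d * x) = ι d * (x * ι d) * x := by group
          _ = _ := by rw [hxc x hx, map_mul]; group
      rw [e]
      exact Subgroup.mul_mem _ ⟨d * d, sq_zd d, rfl⟩ (hxx x hx)) (by
      intro a ha b hb
      obtain ⟨d, x, hx, rfl⟩ := hH' a ha
      obtain ⟨e, y, hy, rfl⟩ := hH' b hb
      refine ⟨_, comm_zd d e, ?_⟩
      have e1 : ι d * x * (ι e * y) = ι (d * e) * (x * y) := by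
        calc ι d * x * (ι e * y) = ι d * (x * ι e) * y := by group
          _ = _ := by rw [hxc x hx, map_mul]; group
      have e2 : ι e * y * (ι d * x) = ι (e * d) * (x * y) := by
        calc ι e * y * (ι d * x) = ι e * (y * ι d) * x := by group
          _ = ι e * ι d * (y * x) := by rw [hxc y hy]; group
          _ = _ := by rw [hxy y x hy hx, map_mul]
      have hcx : ∀ d, (x * y) * ι d = ι d * (x * y) := by
        intro d
        rw [mul_assoc, hxc y hy, ← mul_assoc, hxc x hx, mul_assoc]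
      rw [e1, e2, map_mul, map_inv, mul_inv_rev]
      have e3 : (x * y)⁻¹ * (ι (d * e))⁻¹ * (ι (e * d) * (x * y)) = (x * y)⁻¹ * (ι ((d * e)⁻¹ * (e * d)) * (x * y)) := by
        rw [map_mul ι (d * e)⁻¹ (e * d), map_inv ι (d * e)]; group
      rw [e3, ← hcx, inv_mul_cancel_left, map_mul ι (d * e)⁻¹ (e * d), map_inv ι (d * e)])
  rw [hcard, hdr, Subgroup.card_map_of_injective hinj, card_zd] at hle
  omega

/-- the subgroup acting trivially on `Z(D)` and `D / Z(D)` -/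
def bgrp (ι : DW →* S) : Subgroup S where
  carrier := {s | (∀ z ∈ zd, s * ι z = ι z * s) ∧ ∀ i, ∃ z ∈ zd, s * ι (gen i) * s⁻¹ = ι (gen i) * ι z}
  one_mem' := ⟨fun z _ => by rw [one_mul, mul_one], fun i => ⟨1, zd.one_mem, by simp⟩⟩
  mul_mem' := by
    rintro a b ⟨ha1, ha2⟩ ⟨hb1, hb2⟩
    refine ⟨fun z hz => by rw [mul_assoc, hb1 z hz, ← mul_assoc, ha1 z hz, mul_assoc], fun i => ?_⟩
    obtain ⟨z, hz, h1⟩ := ha2 i
    obtain ⟨w, hw, h2⟩ := hb2 i
    refine ⟨z * w, zd.mul_mem hz hw, ?_⟩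
    have e : a * b * ι (gen i) * (a * b)⁻¹ = a * (b * ι (gen i) * b⁻¹) * a⁻¹ := by group
    have e2 : a * (ι (gen i) * ι w) * a⁻¹ = (a * ι (gen i) * a⁻¹) * (a * ι w * a⁻¹) := by group
    rw [e, h2, e2, h1, ha1 w hw, mul_inv_cancel_right, mul_assoc, map_mul]
  inv_mem' := by
    rintro a ⟨ha1, ha2⟩
    refine ⟨fun z hz => ?_, fun i => ?_⟩
    · have := ha1 z hz
      calc a⁻¹ * ι z = a⁻¹ * (ι z * a) * a⁻¹ := by group
        _ = ι z * a⁻¹ := by rw [← this]; group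
    · obtain ⟨z, hz, h1⟩ := ha2 i
      refine ⟨z, hz, ?_⟩
      have h3 : ι (gen i) = (a⁻¹ * ι (gen i) * a) * ι z := by
        calc ι (gen i) = a⁻¹ * (a * ι (gen i) * a⁻¹) * a := by group
          _ = a⁻¹ * ι (gen i) * (ι z * a) := by rw [h1]; group
          _ = _ := by rw [← ha1 z hz]; group
      have h4 : ι z * ι z = 1 := by rw [← map_mul, zd_sq hz, map_one]
      calc a⁻¹ * ι (gen i) * a⁻¹⁻¹ = (a⁻¹ * ι (gen i) * a) * ι z * ι z := by
            rw [mul_assoc _ (ι z) (ι z), h4, mul_one, inv_inv]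
        _ = ι (gen i) * ι z := by rw [← h3]

theorem mem_bgrp {ι : DW →* S} {s : S} : s ∈ bgrp ι ↔
    (∀ z ∈ zd, s * ι z = ι z * s) ∧ ∀ i, ∃ z ∈ zd, s * ι (gen i) * s⁻¹ = ι (gen i) * ι z := Iff.rfl

/-- Lemma B -/
theorem mem_of_bgrp (h2 : IsPGroup 2 S) (hr : Cfsg.SectionalPRankLE 2 4 S) {ι : DW →* S} (hinj : Function.Injective ι)
    {s : S} (hs : s ∈ bgrp ι) : ∃ d, s = ι d := by
  have hle : ι.range ≤ bgrp ι := by
    rintro _ ⟨d, rfl⟩
    refine ⟨fun z hz => by rw [← map_mul, ← map_mul, zd_comm d hz], fun i => ?_⟩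
    refine ⟨(gen i)⁻¹ * (d * gen i * d⁻¹), conj_zd _ _, ?_⟩
    rw [← map_mul, ← map_mul, ← map_inv, ← map_mul]
    congr 1; group
  have hzr : zd.map ι ≤ ι.range := by
    rintro _ ⟨z, -, rfl⟩
    exact ⟨z, rfl⟩
  have hcard := rank_le hr (bgrp ι) (zd.map ι) (hzr.trans hle) (by
      rintro a ha _ ⟨z, hz, rfl⟩
      rw [ha.1 z hz, mul_inv_cancel_right]
      exact ⟨z, hz, rfl⟩) (by
      intro a ha
      apply cent h2 hr hinj
      intro i
      obtain ⟨z, hz, h1⟩ := ha.2 i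
      have h4 : ι z * ι z = 1 := by rw [← map_mul, zd_sq hz, map_one]
      have e : a * a * ι (gen i) * (a * a)⁻¹ = ι (gen i) := by
        have e1 : a * a * ι (gen i) * (a * a)⁻¹ = a * (a * ι (gen i) * a⁻¹) * a⁻¹ := by group
        have e2 : a * (ι (gen i) * ι z) * a⁻¹ = (a * ι (gen i) * a⁻¹) * (a * ι z * a⁻¹) := by group
        rw [e1, h1, e2, h1, ha.1 z hz, mul_inv_cancel_right, mul_assoc, h4, mul_one]
      calc a * a * ι (gen i) = (a * a * ι (gen i) * (a * a)⁻¹) * (a * a) := by group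
        _ = ι (gen i) * (a * a) := by rw [e]) (by
      intro a ha b hb
      apply cent h2 hr hinj
      intro i
      obtain ⟨z, hz, h1⟩ := ha.2 i
      obtain ⟨w, hw, h3⟩ := hb.2 i
      have e1 : (a * b) * ι (gen i) * (a * b)⁻¹ = (b * a) * ι (gen i) * (b * a)⁻¹ := by
        have e : a * b * ι (gen i) * (a * b)⁻¹ = a * (b * ι (gen i) * b⁻¹) * a⁻¹ := by group
        have e2 : a * (ι (gen i) * ι w) * a⁻¹ = (a * ι (gen i) * a⁻¹) * (a * ι w * a⁻¹) := by group
        have e' : b * a * ι (gen i) * (b * a)⁻¹ = b * (a * ι (gen i) * a⁻¹) * b⁻¹ := by group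
        have e2' : b * (ι (gen i) * ι z) * b⁻¹ = (b * ι (gen i) * b⁻¹) * (b * ι z * b⁻¹) := by group
        rw [e, h3, e2, h1, ha.1 w hw, mul_inv_cancel_right, e', h1, e2', h3, hb.1 z hz, mul_inv_cancel_right,
          mul_assoc, mul_assoc, ← map_mul ι z w, zd_comm z hw, map_mul]
      calc (a * b)⁻¹ * (b * a) * ι (gen i) = (a * b)⁻¹ * ((b * a) * ι (gen i) * (b * a)⁻¹) * (b * a) := by group
        _ = ι (gen i) * ((a * b)⁻¹ * (b * a)) := by rw [← e1]; group)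
  rw [Subgroup.card_map_of_injective hinj, card_zd] at hcard
  have hdr : Nat.card ι.range = 64 := by
    rw [← card_dw]
    exact (Nat.card_congr (MonoidHom.ofInjective hinj).toEquiv).symm
  have heq : ι.range = bgrp ι := Subgroup.eq_of_le_of_card_ge hle (by omega)
  rw [← heq] at hs
  obtain ⟨d, hd⟩ := hs
  exact ⟨d, hd.symm⟩

end

end Cfsg.Agent.Lib.H46DW
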