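import Cfsg.Agent.Lib.H46DW

/-!
# `D8 ≀ C2` inside a 2-group of sectional 2-rank at most 4, second part
-/

set_option autoImplicit false

namespace Cfsg.Agent.Lib.H46DW

open DihedralGroup

universe u

/-! ### endomorphisms of `D8 × D8` -/

theorem xp_mul {p q : D8} (hp : Xp p) (hq : Xp q) : Xp (p * q) := by revert p q; decide
theorem xp_inv {p : D8} (hp : Xp p) : Xp p⁻¹ := by revert p; decide
theorem xp_sq {p : D8} (hp : Xp p) : p * p = 1 := by revert p; decide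
theorem xp_comm {p q : D8} (hp : Xp p) (hq : Xp q) : p * q = q * p := by revert p q; decide
theorem xp_conj (p : D8) {q : D8} (hq : Xp q) : Xp (p * q * p⁻¹) := by revert p q; decide
theorem yp_mul {p q : D8} (hp : Yp p) (hq : Yp q) : Yp (p * q) := by revert p q; decide
theorem yp_inv {p : D8} (hp : Yp p) : Yp p⁻¹ := by revert p; decide
theorem yp_sq {p : D8} (hp : Yp p) : p * p = 1 := by revert p; decide
theorem yp_comm {p q : D8} (hp : Yp p) (hq : Yp q) : p * q = q * p := by revert p q; decide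
theorem yp_conj (p : D8) {q : D8} (hq : Yp q) : Yp (p * q * p⁻¹) := by revert p q; decide
theorem xy_split (p : D8) : ∃ a b, Xp a ∧ Yp b ∧ p = a * b := by revert p; decide
theorem xp_zp {p : D8} (h : Xp p) (h' : ¬ Zp p) : Zp ((sr 0)⁻¹ * p) := by revert p; decide
theorem yp_zp {p : D8} (h : Yp p) (h' : ¬ Zp p) : Zp ((sr 1)⁻¹ * p) := by revert p; decide
theorem xp_yp {p : D8} (h : Xp p) (h' : Yp p) : Zp p := by revert p; decide
theorem xp_of_comm0 {p : D8} (h : p * sr 0 = sr 0 * p) : Xp p := by revert p; decide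
theorem xp_of_comm2 {p : D8} (h : p * sr 2 = sr 2 * p) : Xp p := by revert p; decide
theorem yp_of_comm1 {p : D8} (h : p * sr 1 = sr 1 * p) : Yp p := by revert p; decide
theorem yp_of_comm3 {p : D8} (h : p * sr 3 = sr 3 * p) : Yp p := by revert p; decide
theorem zp_of_sq {p : D8} (h : p * p = 1) (h0 : p ≠ sr 0) (h1 : p ≠ sr 1) (h2 : p ≠ sr 2) (h3 : p ≠ sr 3) : Zp p := by
  revert p; decide
theorem comm_cases (p q : D8) : p * q = q * p ∨ p * q = q * p * r 2 := by revert p q; decide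

/-- `X × X` -/
def XS : Subgroup DW where
  carrier := {d | Xp d.1 ∧ Xp d.2}
  one_mem' := ⟨Or.inl rfl, Or.inl rfl⟩
  mul_mem' := fun ha hb => ⟨xp_mul ha.1 hb.1, xp_mul ha.2 hb.2⟩
  inv_mem' := fun ha => ⟨xp_inv ha.1, xp_inv ha.2⟩

/-- `Y × Y` -/
def YS : Subgroup DW where
  carrier := {d | Yp d.1 ∧ Yp d.2}
  one_mem' := ⟨Or.inl rfl, Or.inl rfl⟩
  mul_mem' := fun ha hb => ⟨yp_mul ha.1 hb.1, yp_mul ha.2 hb.2⟩
  inv_mem' := fun ha => ⟨yp_inv ha.1, yp_inv ha.2⟩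

theorem mem_XS {d : DW} : d ∈ XS ↔ Xp d.1 ∧ Xp d.2 := Iff.rfl
theorem mem_YS {d : DW} : d ∈ YS ↔ Yp d.1 ∧ Yp d.2 := Iff.rfl

theorem card_XS : Nat.card XS = 16 := by
  rw [show Nat.card XS = Nat.card {d : DW // Xp d.1 ∧ Xp d.2} from rfl, Nat.card_eq_fintype_card]
  decide

theorem card_YS : Nat.card YS = 16 := by
  rw [show Nat.card YS = Nat.card {d : DW // Yp d.1 ∧ Yp d.2} from rfl, Nat.card_eq_fintype_card]
  decide

theorem XS_ne_YS : XS ≠ YS := by
  intro h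
  have h1 : ((sr 0, 1) : DW) ∈ XS := by rw [mem_XS]; decide
  rw [h, mem_YS] at h1
  revert h1; decide

theorem clas (W : Subgroup DW) (hsw : ∀ d ∈ W, d.swap ∈ W) (hcm : ∀ a ∈ W, ∀ b ∈ W, a * b = b * a)
    (hsq : ∀ a ∈ W, a * a = 1) (hcard : Nat.card W = 16) : W = XS ∨ W = YS := by
  have hX : (∀ v ∈ W, Xp v.1) → W = XS := by
    intro h
    apply Subgroup.eq_of_le_of_card_ge
    · intro v hv
      exact ⟨h v hv, h v.swap (hsw v hv)⟩
    · rw [hcard, card_XS]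
  have hY : (∀ v ∈ W, Yp v.1) → W = YS := by
    intro h
    apply Subgroup.eq_of_le_of_card_ge
    · intro v hv
      exact ⟨h v hv, h v.swap (hsw v hv)⟩
    · rw [hcard, card_YS]
  by_cases h0 : ∃ w ∈ W, w.1 = sr 0
  · obtain ⟨w, hw, hw1⟩ := h0
    left; apply hX; intro v hv
    apply xp_of_comm0
    rw [← hw1]; exact congrArg Prod.fst (hcm v hv w hw)
  by_cases h1 : ∃ w ∈ W, w.1 = sr 1
  · obtain ⟨w, hw, hw1⟩ := h1
    right; apply hY; intro v hv
    apply yp_of_comm1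
    rw [← hw1]; exact congrArg Prod.fst (hcm v hv w hw)
  by_cases h2 : ∃ w ∈ W, w.1 = sr 2
  · obtain ⟨w, hw, hw1⟩ := h2
    left; apply hX; intro v hv
    apply xp_of_comm2
    rw [← hw1]; exact congrArg Prod.fst (hcm v hv w hw)
  by_cases h3 : ∃ w ∈ W, w.1 = sr 3
  · obtain ⟨w, hw, hw1⟩ := h3
    right; apply hY; intro v hv
    apply yp_of_comm3
    rw [← hw1]; exact congrArg Prod.fst (hcm v hv w hw)
  exfalso
  push Not at h0 h1 h2 h3
  have hle : W ≤ zd := by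
    intro v hv
    have key : ∀ v ∈ W, Zp v.1 := fun v hv => zp_of_sq (congrArg Prod.fst (hsq v hv)) (h0 v hv) (h1 v hv) (h2 v hv) (h3 v hv)
    exact ⟨key v hv, key _ (hsw v hv)⟩
  have := Nat.le_of_dvd Nat.card_pos (Subgroup.card_dvd_of_le hle)
  rw [hcard, card_zd] at this
  omega

section endo
variable {f : DW →* DW}

theorem f_zd (hf : Function.Injective f) {z : DW} (hz : z ∈ zd) : f z ∈ zd := by
  have hs : Function.Surjective f := Finite.surjective_of_injective hf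
  apply zd_of_comm
  intro i
  obtain ⟨u, hu⟩ := hs (gen i)
  rw [← hu, ← map_mul, ← map_mul, zd_comm u hz]

theorem f_zd_iff (hf : Function.Injective f) {z : DW} : f z ∈ zd ↔ z ∈ zd := by
  refine ⟨fun h => zd_of_comm fun i => hf ?_, f_zd hf⟩
  rw [map_mul, map_mul, zd_comm _ h]

theorem f_zp (hf : Function.Injective f) (h1 : f (r 2, 1) = (r 2, 1)) (h2 : f (1, r 2) = (1, r 2)) (p : D8) :
    Zp (f (p, 1)).2 ∧ Zp (f (1, p)).1 := by
  have hs : Function.Surjective f := Finite.surjective_of_injective hf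
  have key1 : ∀ q, (f (p, 1)).2 * q = q * (f (p, 1)).2 := by
    intro q
    obtain ⟨u, hu⟩ := hs (1, q)
    rcases comm_cases p u.1 with h | h
    · have e : ((p, 1) : DW) * u = u * (p, 1) := Prod.ext h (by simp)
      have e2 := congrArg Prod.snd (congrArg f e)
      rw [map_mul, map_mul, hu] at e2
      exact e2
    · have e : ((p, 1) : DW) * u = u * (p, 1) * (r 2, 1) := Prod.ext h (by simp)
      have e2 := congrArg Prod.snd (congrArg f e)
      rw [map_mul, map_mul, map_mul, hu, h1] at e2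
      simpa using e2
  have key2 : ∀ q, (f (1, p)).1 * q = q * (f (1, p)).1 := by
    intro q
    obtain ⟨u, hu⟩ := hs (q, 1)
    rcases comm_cases p u.2 with h | h
    · have e : ((1, p) : DW) * u = u * (1, p) := Prod.ext (by simp) h
      have e2 := congrArg Prod.fst (congrArg f e)
      rw [map_mul, map_mul, hu] at e2
      exact e2
    · have e : ((1, p) : DW) * u = u * (1, p) * (1, r 2) := Prod.ext (by simp) h
      have e2 := congrArg Prod.fst (congrArg f e)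
      rw [map_mul, map_mul, map_mul, hu, h2] at e2
      simpa using e2
  exact ⟨zp_of_comm (key1 _) (key1 _), zp_of_comm (key2 _) (key2 _)⟩

theorem f_nzp (hf : Function.Injective f) (h1 : f (r 2, 1) = (r 2, 1)) (h2 : f (1, r 2) = (1, r 2)) {p : D8}
    (hp : ¬ Zp p) : ¬ Zp (f (p, 1)).1 ∧ ¬ Zp (f (1, p)).2 := by
  constructor
  · intro h
    have h3 : f (p, 1) ∈ zd := ⟨h, (f_zp hf h1 h2 p).1⟩
    rw [f_zd_iff hf] at h3
    exact hp h3.1
  · intro h
    have h3 : f (1, p) ∈ zd := ⟨(f_zp hf h1 h2 p).2, h⟩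
    rw [f_zd_iff hf] at h3
    exact hp h3.2

theorem zd_cases {z : DW} (hz : z ∈ zd) : z = 1 ∨ z = (r 2, 1) ∨ z = (1, r 2) ∨ z = (r 2, r 2) := by
  obtain ⟨a, b⟩ := z
  rcases hz with ⟨h1 | h1, h2 | h2⟩ <;> simp only at h1 h2 <;> subst h1 h2
  · left; rfl
  · right; right; left; rfl
  · right; left; rfl
  · right; right; right; rfl

theorem f_fix (h1 : f (r 2, 1) = (r 2, 1)) (h2 : f (1, r 2) = (1, r 2)) {z : DW} (hz : z ∈ zd) : f z = z := by
  rcases zd_cases hz with rfl | rfl | rfl | rfl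
  · exact map_one f
  · exact h1
  · exact h2
  · have e : ((r 2, r 2) : DW) = (r 2, 1) * (1, r 2) := by simp
    rw [e, map_mul, h1, h2]

/-- preserving case -/
theorem f_pres (hf : Function.Injective f) (h1 : f (r 2, 1) = (r 2, 1)) (h2 : f (1, r 2) = (1, r 2))
    (hX : ∀ d ∈ XS, f d ∈ XS) (hY : ∀ d ∈ YS, f d ∈ YS) (i : Fin 4) : (gen i)⁻¹ * f (gen i) ∈ zd := by
  fin_cases i
  · have h3 := hX (sr 0, 1) (by rw [mem_XS]; decide)
    exact ⟨xp_zp h3.1 (f_nzp hf h1 h2 (by decide)).1, by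
      change Zp (1⁻¹ * (f (sr 0, 1)).2)
      rw [inv_one, one_mul]; exact (f_zp hf h1 h2 _).1⟩
  · have h3 := hY (sr 1, 1) (by rw [mem_YS]; decide)
    exact ⟨yp_zp h3.1 (f_nzp hf h1 h2 (by decide)).1, by
      change Zp (1⁻¹ * (f (sr 1, 1)).2)
      rw [inv_one, one_mul]; exact (f_zp hf h1 h2 _).1⟩
  · have h3 := hX (1, sr 0) (by rw [mem_XS]; decide)
    exact ⟨by
      change Zp (1⁻¹ * (f (1, sr 0)).1)
      rw [inv_one, one_mul]; exact (f_zp hf h1 h2 _).2, xp_zp h3.2 (f_nzp hf h1 h2 (by decide)).2⟩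
  · have h3 := hY (1, sr 1) (by rw [mem_YS]; decide)
    exact ⟨by
      change Zp (1⁻¹ * (f (1, sr 1)).1)
      rw [inv_one, one_mul]; exact (f_zp hf h1 h2 _).2, yp_zp h3.2 (f_nzp hf h1 h2 (by decide)).2⟩

/-- swapping case -/
theorem f_swap (hf : Function.Injective f) (h1 : f (r 2, 1) = (r 2, 1)) (h2 : f (1, r 2) = (1, r 2))
    (hX : ∀ d ∈ XS, f d ∈ YS) (hY : ∀ d ∈ YS, f d ∈ XS) :
    (∃ z ∈ zd, f (sr 0, 1) = (sr 1, 1) * z) ∧ (∃ z ∈ zd, f (sr 1, 1) = (sr 0, 1) * z) ∧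
    (∃ z ∈ zd, f (1, sr 0) = (1, sr 1) * z) ∧ (∃ z ∈ zd, f (1, sr 1) = (1, sr 0) * z) := by
  refine ⟨⟨(sr 1, 1)⁻¹ * f (sr 0, 1), ?_, by rw [mul_inv_cancel_left]⟩,
    ⟨(sr 0, 1)⁻¹ * f (sr 1, 1), ?_, by rw [mul_inv_cancel_left]⟩,
    ⟨(1, sr 1)⁻¹ * f (1, sr 0), ?_, by rw [mul_inv_cancel_left]⟩,
    ⟨(1, sr 0)⁻¹ * f (1, sr 1), ?_, by rw [mul_inv_cancel_left]⟩⟩
  · have h3 := hX (sr 0, 1) (by rw [mem_XS]; decide)
    exact ⟨yp_zp h3.1 (f_nzp hf h1 h2 (by decide)).1, by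
      change Zp (1⁻¹ * (f (sr 0, 1)).2)
      rw [inv_one, one_mul]; exact (f_zp hf h1 h2 _).1⟩
  · have h3 := hY (sr 1, 1) (by rw [mem_YS]; decide)
    exact ⟨xp_zp h3.1 (f_nzp hf h1 h2 (by decide)).1, by
      change Zp (1⁻¹ * (f (sr 1, 1)).2)
      rw [inv_one, one_mul]; exact (f_zp hf h1 h2 _).1⟩
  · have h3 := hX (1, sr 0) (by rw [mem_XS]; decide)
    exact ⟨by
      change Zp (1⁻¹ * (f (1, sr 0)).1)
      rw [inv_one, one_mul]; exact (f_zp hf h1 h2 _).2, yp_zp h3.2 (f_nzp hf h1 h2 (by decide)).2⟩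
  · have h3 := hY (1, sr 1) (by rw [mem_YS]; decide)
    exact ⟨by
      change Zp (1⁻¹ * (f (1, sr 1)).1)
      rw [inv_one, one_mul]; exact (f_zp hf h1 h2 _).2, xp_zp h3.2 (f_nzp hf h1 h2 (by decide)).2⟩

end endo

section
variable {S : Type u} [Group S]

theorem exists_f {ι : DW →* S} (hinj : Function.Injective ι) {n : S} (hn : ∀ d, ∃ d', n * ι d * n⁻¹ = ι d') :
    ∃ f : DW →* DW, Function.Injective f ∧ ∀ d, n * ι d * n⁻¹ = ι (f d) := by
  choose f hf using hn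
  refine ⟨MonoidHom.mk' f ?_, ?_, hf⟩
  · intro a b
    apply hinj
    rw [← hf, map_mul, map_mul, ← hf, ← hf]; group
  · intro a b hab
    apply hinj
    have : n * ι a * n⁻¹ = n * ι b * n⁻¹ := by rw [hf, hf]; exact congrArg ι hab
    simpa using this

/-- `P` is the wreath product -/
structure WR (P : Subgroup S) (ι : DW →* S) (t : S) : Prop where
  inj : Function.Injective ι
  tt : t * t = 1
  tc : ∀ d, t * ι d = ι d.swap * t
  tn : ∀ d, t ≠ ι d
  mem : ∀ s, s ∈ P ↔ (∃ d, s = ι d) ∨ ∃ d, s = ι d * t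

/-- normal elementary abelian subgroup of order 16 -/
structure E16 (P V : Subgroup S) : Prop where
  le : V ≤ P
  nrm : ∀ g ∈ P, ∀ v ∈ V, g * v * g⁻¹ ∈ V
  cm : ∀ a ∈ V, ∀ b ∈ V, a * b = b * a
  sq : ∀ a ∈ V, a * a = 1
  card : Nat.card V = 16

variable {P : Subgroup S} {ι : DW →* S} {t : S}

theorem WR.tinv (h : WR P ι t) : t⁻¹ = t := by
  rw [inv_eq_iff_mul_eq_one]; exact h.tt

theorem WR.tP (h : WR P ι t) : t ∈ P := (h.mem t).2 (Or.inr ⟨1, by simp⟩)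

theorem WR.dP (h : WR P ι t) (d : DW) : ι d ∈ P := (h.mem _).2 (Or.inl ⟨d, rfl⟩)

theorem WR.tcinv (h : WR P ι t) (d : DW) : t * ι d * t⁻¹ = ι d.swap := by
  rw [h.tc, mul_inv_cancel_right]

theorem WR.center (h : WR P ι t) {s : S} (hs : s ∈ P) (hc : ∀ q ∈ P, s * q = q * s) : s = 1 ∨ s = ι (r 2, r 2) := by
  rcases (h.mem s).1 hs with ⟨d, rfl⟩ | ⟨d, rfl⟩
  · have h1 : d ∈ zd := zd_of_comm fun i => h.inj (by rw [map_mul, map_mul]; exact hc _ (h.dP _))
    have h2 := hc t h.tP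
    rw [h.tc] at h2
    have h3 : d = d.swap := h.inj (mul_right_cancel h2)
    rcases zd_cases h1 with rfl | rfl | rfl | rfl
    · left; exact map_one ι
    · exfalso; revert h3; decide
    · exfalso; revert h3; decide
    · right; rfl
  · exfalso
    have h1 := hc _ (h.dP (r 1, 1))
    rw [mul_assoc, h.tc, ← mul_assoc, ← mul_assoc, ← map_mul, ← map_mul] at h1
    have h2 := congrArg Prod.fst (h.inj (mul_right_cancel h1))
    change d.1 * 1 = r 1 * d.1 at h2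
    generalize d.1 = p at h2
    revert p; decide

theorem WR.z0 (h : WR P ι t) {q : S} (hq : q ∈ P) : ι (r 2, r 2) * q = q * ι (r 2, r 2) := by
  have hz : ((r 2, r 2) : DW) ∈ zd := by rw [mem_zd]; decide
  rcases (h.mem q).1 hq with ⟨d, rfl⟩ | ⟨d, rfl⟩
  · rw [← map_mul, ← map_mul, zd_comm d hz]
  · rw [← mul_assoc, ← map_mul, mul_assoc, h.tc, ← mul_assoc, ← map_mul]
    change ι _ * t = ι (d * (r 2, r 2)) * t
    rw [zd_comm d hz]

theorem WR.nz0 (h : WR P ι t) {n : S} (hn : n ∈ Subgroup.normalizer (P : Set S)) :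
    n * ι (r 2, r 2) * n⁻¹ = ι (r 2, r 2) := by
  rw [Subgroup.mem_normalizer_iff] at hn
  have h1 : n * ι (r 2, r 2) * n⁻¹ ∈ P := (hn _).1 (h.dP _)
  rcases h.center h1 (by
    intro q hq
    have h2 : n⁻¹ * q * n ∈ P := by
      rw [hn]
      have e : n * (n⁻¹ * q * n) * n⁻¹ = q := by group
      rwa [e]
    have h3 := h.z0 h2
    calc n * ι (r 2, r 2) * n⁻¹ * q = n * (ι (r 2, r 2) * (n⁻¹ * q * n)) * n⁻¹ := by group
      _ = q * (n * ι (r 2, r 2) * n⁻¹) := by rw [h3]; group) with h4 | h4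
  · exfalso
    have h5 : ι (r 2, r 2) = ι 1 := by
      rw [map_one]
      calc ι (r 2, r 2) = n⁻¹ * (n * ι (r 2, r 2) * n⁻¹) * n := by group
        _ = 1 := by rw [h4]; group
    have := h.inj h5
    revert this; decide
  · exact h4

theorem WR.e16X (h : WR P ι t) : E16 P (XS.map ι) where
  le := by rintro _ ⟨d, -, rfl⟩; exact h.dP d
  nrm := by
    have key : ∀ e, ∀ d ∈ XS, ι e * ι d * (ι e)⁻¹ ∈ XS.map ι := by
      intro e d hd
      rw [← map_inv, ← map_mul, ← map_mul]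
      exact ⟨_, ⟨xp_conj _ hd.1, xp_conj _ hd.2⟩, rfl⟩
    rintro g hg _ ⟨d, hd, rfl⟩
    rcases (h.mem g).1 hg with ⟨e, rfl⟩ | ⟨e, rfl⟩
    · exact key e d hd
    · have e1 : ι e * t * ι d * (ι e * t)⁻¹ = ι e * (t * ι d * t⁻¹) * (ι e)⁻¹ := by group
      rw [e1, h.tcinv]
      exact key e _ ⟨hd.2, hd.1⟩
  cm := by
    rintro _ ⟨a, ha, rfl⟩ _ ⟨b, hb, rfl⟩
    rw [← map_mul, ← map_mul]
    exact congrArg ι (Prod.ext (xp_comm ha.1 hb.1) (xp_comm ha.2 hb.2))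
  sq := by
    rintro _ ⟨a, ha, rfl⟩
    rw [← map_mul, ← map_one ι]
    exact congrArg ι (Prod.ext (xp_sq ha.1) (xp_sq ha.2))
  card := by rw [Subgroup.card_map_of_injective h.inj, card_XS]

theorem WR.e16Y (h : WR P ι t) : E16 P (YS.map ι) where
  le := by rintro _ ⟨d, -, rfl⟩; exact h.dP d
  nrm := by
    have key : ∀ e, ∀ d ∈ YS, ι e * ι d * (ι e)⁻¹ ∈ YS.map ι := by
      intro e d hd
      rw [← map_inv, ← map_mul, ← map_mul]
      exact ⟨_, ⟨yp_conj _ hd.1, yp_conj _ hd.2⟩, rfl⟩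
    rintro g hg _ ⟨d, hd, rfl⟩
    rcases (h.mem g).1 hg with ⟨e, rfl⟩ | ⟨e, rfl⟩
    · exact key e d hd
    · have e1 : ι e * t * ι d * (ι e * t)⁻¹ = ι e * (t * ι d * t⁻¹) * (ι e)⁻¹ := by group
      rw [e1, h.tcinv]
      exact key e _ ⟨hd.2, hd.1⟩
  cm := by
    rintro _ ⟨a, ha, rfl⟩ _ ⟨b, hb, rfl⟩
    rw [← map_mul, ← map_mul]
    exact congrArg ι (Prod.ext (yp_comm ha.1 hb.1) (yp_comm ha.2 hb.2))
  sq := by
    rintro _ ⟨a, ha, rfl⟩
    rw [← map_mul, ← map_one ι]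
    exact congrArg ι (Prod.ext (yp_sq ha.1) (yp_sq ha.2))
  card := by rw [Subgroup.card_map_of_injective h.inj, card_YS]

theorem E16.cases {V : Subgroup S} (hV : E16 P V) (h : WR P ι t) : V = XS.map ι ∨ V = YS.map ι := by
  have hle : V ≤ ι.range := by
    intro v hv
    rcases (h.mem v).1 (hV.le hv) with ⟨d, rfl⟩ | ⟨d, rfl⟩
    · exact ⟨d, rfl⟩
    · exfalso
      have h1 := hV.nrm _ (h.dP (r 1, 1)) _ hv
      have h2 := V.mul_mem h1 (V.inv_mem hv)
      have e : ι (r 1, 1) * (ι d * t) * (ι (r 1, 1))⁻¹ * (ι d * t)⁻¹ = ι ((r 1, 1) * d * ((r 1, 1)⁻¹ : DW).swap * d⁻¹) := by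
        rw [map_mul, map_mul, map_mul, ← h.tcinv, map_inv, map_inv]; group
      rw [e] at h2
      have h3 := hV.sq _ h2
      rw [← map_mul, ← map_one ι] at h3
      have h4 := congrArg Prod.fst (h.inj h3)
      change (r 1 * d.1 * (1 : D8)⁻¹ * d.1⁻¹) * (r 1 * d.1 * (1 : D8)⁻¹ * d.1⁻¹) = 1 at h4
      rw [inv_one, mul_one, mul_inv_cancel_right] at h4
      revert h4; decide
  have hm : (V.comap ι).map ι = V := Subgroup.map_comap_eq_self hle
  have hc := clas (V.comap ι) (by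
      intro d hd
      have h1 := hV.nrm t h.tP _ hd
      rw [h.tcinv] at h1
      exact h1) (by
      intro a ha b hb
      apply h.inj
      rw [map_mul, map_mul]
      exact hV.cm _ ha _ hb) (by
      intro a ha
      apply h.inj
      rw [map_mul, map_one]
      exact hV.sq _ ha) (by
      rw [← Subgroup.card_map_of_injective h.inj, hm, hV.card])
  rcases hc with hc | hc
  · left; rw [← hm, hc]
  · right; rw [← hm, hc]

theorem E16.conj [Finite S] {V : Subgroup S} (hV : E16 P V) {n : S} (hn : n ∈ Subgroup.normalizer (P : Set S)) :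
    E16 P (V.map (MulAut.conj n).toMonoidHom) where
  le := by
    rintro _ ⟨v, hv, rfl⟩
    exact ((Subgroup.mem_normalizer_iff.1 hn) v).1 (hV.le hv)
  nrm := by
    rintro g hg _ ⟨v, hv, rfl⟩
    have h2 : n⁻¹ * g * n ∈ P := by
      rw [(Subgroup.mem_normalizer_iff.1 hn)]
      have e : n * (n⁻¹ * g * n) * n⁻¹ = g := by group
      rwa [e]
    refine ⟨_, hV.nrm _ h2 v hv, ?_⟩
    change n * (n⁻¹ * g * n * v * (n⁻¹ * g * n)⁻¹) * n⁻¹ = g * (n * v * n⁻¹) * g⁻¹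
    group
  cm := by
    rintro _ ⟨a, ha, rfl⟩ _ ⟨b, hb, rfl⟩
    rw [← map_mul, ← map_mul, hV.cm a ha b hb]
  sq := by
    rintro _ ⟨a, ha, rfl⟩
    rw [← map_mul, hV.sq a ha, map_one]
  card := by
    rw [Subgroup.card_map_of_injective (MulAut.conj n).injective, hV.card]

theorem map_inj (h : Function.Injective ι) {A B : Subgroup DW} (hAB : A.map ι = B.map ι) : A = B :=
  Subgroup.map_injective h hAB

/-- the automorphism induced by `n` -/
theorem WR.exf [Finite S] (h : WR P ι t) {n : S} (hn : n ∈ Subgroup.normalizer (P : Set S)) :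
    ∃ f : DW →* DW, Function.Injective f ∧ (∀ d, n * ι d * n⁻¹ = ι (f d)) ∧
      (((∀ d ∈ XS, f d ∈ XS) ∧ (∀ d ∈ YS, f d ∈ YS)) ∨ ((∀ d ∈ XS, f d ∈ YS) ∧ (∀ d ∈ YS, f d ∈ XS))) := by
  have hX := (h.e16X.conj hn).cases h
  have hY := (h.e16Y.conj hn).cases h
  have hne : (XS.map ι).map (MulAut.conj n).toMonoidHom ≠ (YS.map ι).map (MulAut.conj n).toMonoidHom := by
    intro he
    exact XS_ne_YS (Subgroup.map_injective h.inj (Subgroup.map_injective (MulAut.conj n).injective he))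
  have key : ∀ (A B : Subgroup DW), (A.map ι).map (MulAut.conj n).toMonoidHom = B.map ι → ∀ d ∈ A, ∃ d' ∈ B, n * ι d * n⁻¹ = ι d' := by
    intro A B hAB d hd
    have h1 : n * ι d * n⁻¹ ∈ B.map ι := by
      rw [← hAB]
      exact ⟨ι d, ⟨d, hd, rfl⟩, rfl⟩
    obtain ⟨d', hd', he⟩ := h1
    exact ⟨d', hd', he.symm⟩
  have main : ∀ A B : Subgroup DW, (∀ d ∈ XS, ∃ d' ∈ A, n * ι d * n⁻¹ = ι d') → (∀ d ∈ YS, ∃ d' ∈ B, n * ι d * n⁻¹ = ι d') →
      ∃ f : DW →* DW, Function.Injective f ∧ (∀ d, n * ι d * n⁻¹ = ι (f d)) ∧ (∀ d ∈ XS, f d ∈ A) ∧ (∀ d ∈ YS, f d ∈ B) := by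
    intro A B hA hB
    have hall : ∀ d, ∃ d', n * ι d * n⁻¹ = ι d' := by
      intro d
      obtain ⟨a1, b1, ha1, hb1, h1⟩ := xy_split d.1
      obtain ⟨a2, b2, ha2, hb2, h2⟩ := xy_split d.2
      obtain ⟨u, -, hu⟩ := hA (a1, a2) ⟨ha1, ha2⟩
      obtain ⟨v, -, hv⟩ := hB (b1, b2) ⟨hb1, hb2⟩
      refine ⟨u * v, ?_⟩
      have e : d = (a1, a2) * (b1, b2) := Prod.ext h1 h2
      rw [e, map_mul, map_mul, ← hu, ← hv]; group
    obtain ⟨f, hf, hf2⟩ := exists_f h.inj hall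
    refine ⟨f, hf, hf2, ?_, ?_⟩
    · intro d hd
      obtain ⟨u, hu, hu2⟩ := hA d hd
      rw [hf2] at hu2
      rwa [h.inj hu2]
    · intro d hd
      obtain ⟨u, hu, hu2⟩ := hB d hd
      rw [hf2] at hu2
      rwa [h.inj hu2]
  rcases hX with hX | hX
  · have hY' : (YS.map ι).map (MulAut.conj n).toMonoidHom = YS.map ι := by
      rcases hY with hY | hY
      · exact absurd (hX.trans hY.symm) hne
      · exact hY
    obtain ⟨f, hf, hf2, h3, h4⟩ := main XS YS (key _ _ hX) (key _ _ hY')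
    exact ⟨f, hf, hf2, Or.inl ⟨h3, h4⟩⟩
  · have hY' : (YS.map ι).map (MulAut.conj n).toMonoidHom = XS.map ι := by
      rcases hY with hY | hY
      · exact hY
      · exact absurd (hX.trans hY.symm) hne
    obtain ⟨f, hf, hf2, h3, h4⟩ := main YS XS (key _ _ hX) (key _ _ hY')
    exact ⟨f, hf, hf2, Or.inr ⟨h3, h4⟩⟩

/-- `n` or `t * n` fixes `z1` and `z2` -/
theorem WR.fixz (h : WR P ι t) {n : S} (hn : n ∈ Subgroup.normalizer (P : Set S)) {f : DW →* DW}
    (hf : Function.Injective f) (hf2 : ∀ d, n * ι d * n⁻¹ = ι (f d)) :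
    (f (r 2, 1) = (r 2, 1) ∧ f (1, r 2) = (1, r 2)) ∨ (f (r 2, 1) = (1, r 2) ∧ f (1, r 2) = (r 2, 1)) := by
  have h0 : f (r 2, r 2) = (r 2, r 2) := by
    apply h.inj
    rw [← hf2]; exact h.nz0 hn
  have e : ((r 2, r 2) : DW) = (r 2, 1) * (1, r 2) := by simp
  have h1 : f (r 2, 1) ∈ zd := f_zd hf (by rw [mem_zd]; decide)
  have hm : f (r 2, 1) * f (1, r 2) = (r 2, r 2) := by rw [← map_mul, ← e, h0]
  rcases zd_cases h1 with h3 | h3 | h3 | h3
  · exfalso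
    have := hf (h3.trans (map_one f).symm)
    revert this; decide
  · left
    refine ⟨h3, ?_⟩
    rw [h3] at hm
    have : f (1, r 2) = (r 2, 1)⁻¹ * (r 2, r 2) := by rw [← hm, inv_mul_cancel_left]
    rw [this]; decide
  · right
    refine ⟨h3, ?_⟩
    rw [h3] at hm
    have : f (1, r 2) = (1, r 2)⁻¹ * (r 2, r 2) := by rw [← hm, inv_mul_cancel_left]
    rw [this]; decide
  · exfalso
    have := hf (h3.trans h0.symm)
    revert this; decide

theorem WR.bg (h : WR P ι t) [Finite S] (h2 : IsPGroup 2 S) (hr : Cfsg.SectionalPRankLE 2 4 S) {n : S} {f : DW →* DW}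
    (hf : Function.Injective f) (hf2 : ∀ d, n * ι d * n⁻¹ = ι (f d))
    (hz1 : f (r 2, 1) = (r 2, 1)) (hz2 : f (1, r 2) = (1, r 2))
    (hX : ∀ d ∈ XS, f d ∈ XS) (hY : ∀ d ∈ YS, f d ∈ YS) : n ∈ P := by
  have hb : n ∈ bgrp ι := by
    rw [mem_bgrp]
    constructor
    · intro z hz
      have h1 := hf2 z
      rw [f_fix hz1 hz2 hz] at h1
      calc n * ι z = n * ι z * n⁻¹ * n := by group
        _ = ι z * n := by rw [h1]
    · intro i
      refine ⟨_, f_pres hf hz1 hz2 hX hY i, ?_⟩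
      rw [← map_mul, mul_inv_cancel_left]
      exact hf2 _
  obtain ⟨d, rfl⟩ := mem_of_bgrp h2 hr h.inj hb
  exact h.dP d

/-- elements of the normalizer of `P` normalizing `X × X` lie in `P` -/
theorem WR.memP (h : WR P ι t) [Finite S] (h2 : IsPGroup 2 S) (hr : Cfsg.SectionalPRankLE 2 4 S) {n : S}
    (hn : n ∈ Subgroup.normalizer (P : Set S)) {f : DW →* DW}
    (hf : Function.Injective f) (hf2 : ∀ d, n * ι d * n⁻¹ = ι (f d))
    (hX : ∀ d ∈ XS, f d ∈ XS) (hY : ∀ d ∈ YS, f d ∈ YS) : n ∈ P := by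
  rcases h.fixz hn hf hf2 with ⟨h3, h4⟩ | ⟨h3, h4⟩
  · exact h.bg h2 hr hf hf2 h3 h4 hX hY
  · have h5 : t * n ∈ P := by
      refine h.bg h2 hr (n := t * n) (f := (MulEquiv.prodComm : DW ≃* DW).toMonoidHom.comp f) ?_ ?_ ?_ ?_ ?_ ?_
      · intro a b hab
        exact hf ((MulEquiv.prodComm : DW ≃* DW).injective hab)
      · intro d
        change t * n * ι d * (t * n)⁻¹ = ι (f d).swap
        rw [← h.tcinv, ← hf2]; group
      · change (f (r 2, 1)).swap = _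
        rw [h3]; rfl
      · change (f (1, r 2)).swap = _
        rw [h4]; rfl
      · intro d hd
        have h6 := hX d hd
        exact ⟨h6.2, h6.1⟩
      · intro d hd
        have h6 := hY d hd
        exact ⟨h6.2, h6.1⟩
    have h6 := P.mul_mem (P.inv_mem h.tP) h5
    rwa [inv_mul_cancel_left] at h6

/-- the elements of `N(P) \ P` swap `X × X` and `Y × Y` -/
theorem WR.notP (h : WR P ι t) [Finite S] (h2 : IsPGroup 2 S) (hr : Cfsg.SectionalPRankLE 2 4 S) {n : S}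
    (hn : n ∈ Subgroup.normalizer (P : Set S)) (hnP : n ∉ P) : ∃ f : DW →* DW, Function.Injective f ∧
      (∀ d, n * ι d * n⁻¹ = ι (f d)) ∧ ((∀ d ∈ XS, f d ∈ YS) ∧ (∀ d ∈ YS, f d ∈ XS)) := by
  obtain ⟨f, hf, hf2, ⟨hX, hY⟩ | hs⟩ := h.exf hn
  · exact absurd (h.memP h2 hr hn hf hf2 hX hY) hnP
  · exact ⟨f, hf, hf2, hs⟩

theorem WR.mul_memP (h : WR P ι t) [Finite S] (h2 : IsPGroup 2 S) (hr : Cfsg.SectionalPRankLE 2 4 S) {n m : S}
    (hn : n ∈ Subgroup.normalizer (P : Set S)) (hnP : n ∉ P) (hm : m ∈ Subgroup.normalizer (P : Set S)) (hmP : m ∉ P) :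
    n * m ∈ P := by
  obtain ⟨f, hf, hf2, hfX, hfY⟩ := h.notP h2 hr hn hnP
  obtain ⟨k, hk, hk2, hkX, hkY⟩ := h.notP h2 hr hm hmP
  refine h.memP h2 hr (Subgroup.mul_mem _ hn hm) (f := f.comp k) (hf.comp hk) ?_ ?_ ?_
  · intro d
    change _ = ι (f (k d))
    rw [← hf2, ← hk2]; group
  · intro d hd
    exact hfY _ (hkX d hd)
  · intro d hd
    exact hfX _ (hkY d hd)

theorem exists_norm [Finite S] (h2 : IsPGroup 2 S) {P M : Subgroup S} (hlt : P < M) :
    ∃ g ∈ M, g ∈ Subgroup.normalizer (P : Set S) ∧ g ∉ P := by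
  have hM : IsPGroup 2 M := h2.to_subgroup M
  haveI : Fact (Nat.Prime 2) := ⟨Nat.prime_two⟩
  have hnil : Group.IsNilpotent M := hM.isNilpotent
  have hnc := normalizerCondition_of_isNilpotent (G := M)
  have h1 := hnc (P.subgroupOf M) (by
    rw [lt_top_iff_ne_top, Ne, Subgroup.subgroupOf_eq_top]
    exact not_le_of_gt hlt)
  obtain ⟨g, hg, hgP⟩ := SetLike.exists_of_lt h1
  refine ⟨g, g.2, ?_, hgP⟩
  rw [Subgroup.mem_normalizer_iff] at hg ⊢
  intro x
  constructor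
  · intro hx
    exact (hg ⟨x, hlt.le hx⟩).1 hx
  · intro hx
    have h3 : x ∈ M := by
      have := M.mul_mem (M.mul_mem (M.inv_mem g.2) (hlt.le hx)) g.2
      have e : (g : S)⁻¹ * (g * x * (g : S)⁻¹) * g = x := by group
      rwa [e] at this
    exact (hg ⟨x, h3⟩).2 hx

end

end Cfsg.Agent.Lib.H46DW
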