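import Cfsg.Agent.Lib.H46DW2

/-!
# `D8 ≀ C2` inside a 2-group of sectional 2-rank at most 4, third part
-/

set_option autoImplicit false

namespace Cfsg.Agent.Lib.H46DW

open DihedralGroup

universe u

section
variable {S : Type u} [Group S] [Finite S] {P : Subgroup S} {ι : DW →* S} {t : S}

theorem WR.relIndex (h : WR P ι t) (h2 : IsPGroup 2 S) (hr : Cfsg.SectionalPRankLE 2 4 S) (hP : P ≠ ⊤) :
    P.relIndex (Subgroup.normalizer (P : Set S)) = 2 := by
  obtain ⟨g, -, hgN, hgP⟩ := exists_norm h2 (lt_top_iff_ne_top.2 hP)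
  rw [Subgroup.relIndex, Subgroup.index_eq_two_iff]
  refine ⟨⟨g, hgN⟩, fun b => ?_⟩
  by_cases hb : (b : S) ∈ P
  · right
    refine ⟨hb, fun hbg => hgP ?_⟩
    have h3 : (b : S) * g ∈ P := hbg
    have h4 := P.mul_mem (P.inv_mem hb) h3
    rwa [inv_mul_cancel_left] at h4
  · left
    exact ⟨h.mul_memP h2 hr b.2 hb hgN hgP, hb⟩

theorem WR.mem_center (h : WR P ι t) (h2 : IsPGroup 2 S) (hr : Cfsg.SectionalPRankLE 2 4 S) {s : S} :
    s ∈ Subgroup.center S ↔ s = 1 ∨ s = ι (r 2, r 2) := by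
  have h1 : ∀ s, s ∈ Subgroup.center S → s = 1 ∨ s = ι (r 2, r 2) := by
    intro s hs
    rw [Subgroup.mem_center_iff] at hs
    have h3 : s ∈ zd.map ι := cent h2 hr h.inj fun i => (hs _).symm
    obtain ⟨z, -, rfl⟩ := h3
    exact h.center (h.dP z) fun q _ => (hs q).symm
  refine ⟨h1 s, ?_⟩
  rintro (rfl | rfl)
  · exact Subgroup.one_mem _
  · have : Fact (Nat.Prime 2) := ⟨Nat.prime_two⟩
    have hnt : Nontrivial S := ⟨t, 1, fun h3 => h.tn 1 (by rw [h3, map_one])⟩
    have := h2.center_nontrivial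
    obtain ⟨x, hx⟩ := exists_ne (1 : Subgroup.center S)
    rcases h1 x x.2 with h3 | h3
    · exact absurd (Subtype.ext h3) hx
    · rw [← h3]; exact x.2

theorem WR.center_eq (h : WR P ι t) (h2 : IsPGroup 2 S) (hr : Cfsg.SectionalPRankLE 2 4 S) :
    Subgroup.center S = (Subgroup.center ↥P).map P.subtype := by
  ext s
  rw [h.mem_center h2 hr]
  constructor
  · rintro (rfl | rfl)
    · exact Subgroup.one_mem _
    · refine ⟨⟨_, h.dP (r 2, r 2)⟩, ?_, rfl⟩
      rw [SetLike.mem_coe, Subgroup.mem_center_iff]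
      intro q
      exact Subtype.ext (h.z0 q.2).symm
  · rintro ⟨x, hx, rfl⟩
    rw [SetLike.mem_coe, Subgroup.mem_center_iff] at hx
    exact h.center x.2 fun q hq => congrArg Subtype.val (hx ⟨q, hq⟩).symm

theorem WR.card_center (h : WR P ι t) (h2 : IsPGroup 2 S) (hr : Cfsg.SectionalPRankLE 2 4 S) :
    Nat.card (Subgroup.center S) = 2 := by
  rw [Nat.card_eq_two_iff' (1 : Subgroup.center S)]
  refine ⟨⟨ι (r 2, r 2), (h.mem_center h2 hr).2 (Or.inr rfl)⟩, ?_, ?_⟩
  · intro h3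
    have h4 : ι (r 2, r 2) = ι 1 := by rw [map_one]; exact congrArg Subtype.val h3
    have := h.inj h4
    revert this; decide
  · intro y hy
    rcases (h.mem_center h2 hr).1 y.2 with h3 | h3
    · exact absurd (Subtype.ext h3) hy
    · exact Subtype.ext h3

theorem WR.normalizer (h : WR P ι t) (h2 : IsPGroup 2 S) (hr : Cfsg.SectionalPRankLE 2 4 S) {V : Subgroup S}
    (hV : E16 P V) : Subgroup.normalizer (V : Set S) = P := by
  have hle : P ≤ Subgroup.normalizer (V : Set S) := by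
    intro g hg
    rw [Subgroup.mem_normalizer_iff]
    intro v
    refine ⟨hV.nrm g hg v, fun hv => ?_⟩
    have h3 := hV.nrm _ (P.inv_mem hg) _ hv
    have e : g⁻¹ * (g * v * g⁻¹) * g⁻¹⁻¹ = v := by group
    rwa [e] at h3
  by_contra hne
  obtain ⟨g, hgV, hgN, hgP⟩ := exists_norm h2 (lt_of_le_of_ne hle (Ne.symm hne))
  obtain ⟨f, hf, hf2, hX, hY⟩ := h.notP h2 hr hgN hgP
  rw [Subgroup.mem_normalizer_iff] at hgV
  rcases hV.cases h with rfl | rfl
  · have h3 : g * ι (sr 0, 1) * g⁻¹ ∈ XS.map ι := (hgV _).1 ⟨_, by rw [SetLike.mem_coe, mem_XS]; decide, rfl⟩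
    rw [hf2] at h3
    obtain ⟨d, hd, hd2⟩ := h3
    have h4 := hX (sr 0, 1) (by rw [mem_XS]; decide)
    have h5 := h.inj hd2
    subst h5
    have h6 : f (sr 0, 1) ∈ zd := ⟨xp_yp hd.1 h4.1, xp_yp hd.2 h4.2⟩
    rw [f_zd_iff hf] at h6
    have h7 := h6.1
    revert h7; decide
  · have h3 : g * ι (sr 1, 1) * g⁻¹ ∈ YS.map ι := (hgV _).1 ⟨_, by rw [SetLike.mem_coe, mem_YS]; decide, rfl⟩
    rw [hf2] at h3
    obtain ⟨d, hd, hd2⟩ := h3
    have h4 := hY (sr 1, 1) (by rw [mem_YS]; decide)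
    have h5 := h.inj hd2
    subst h5
    have h6 : f (sr 1, 1) ∈ zd := ⟨xp_yp h4.1 hd.1, xp_yp h4.2 hd.2⟩
    rw [f_zd_iff hf] at h6
    have h7 := h6.1
    revert h7; decide

/-! ### the good element outside `P` -/

/-- element of `N(P) \\ P` fixing `z1`, `z2` -/
structure Gd (P : Subgroup S) (ι : DW →* S) (g : S) (f : DW →* DW) : Prop where
  nN : g ∈ Subgroup.normalizer (P : Set S)
  nP : g ∉ P
  inj : Function.Injective f
  cj : ∀ d, g * ι d * g⁻¹ = ι (f d)
  z1 : f (r 2, 1) = (r 2, 1)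
  z2 : f (1, r 2) = (1, r 2)
  X : ∀ d ∈ XS, f d ∈ YS
  Y : ∀ d ∈ YS, f d ∈ XS

theorem WR.exists_gd (h : WR P ι t) (h2 : IsPGroup 2 S) (hr : Cfsg.SectionalPRankLE 2 4 S) (hP : P ≠ ⊤) :
    ∃ g f, Gd P ι g f := by
  obtain ⟨g, -, hgN, hgP⟩ := exists_norm h2 (lt_top_iff_ne_top.2 hP)
  obtain ⟨f, hf, hf2, hX, hY⟩ := h.notP h2 hr hgN hgP
  rcases h.fixz hgN hf hf2 with ⟨h3, h4⟩ | ⟨h3, h4⟩
  · exact ⟨g, f, hgN, hgP, hf, hf2, h3, h4, hX, hY⟩
  · refine ⟨t * g, (MulEquiv.prodComm : DW ≃* DW).toMonoidHom.comp f, ?_, ?_, ?_, ?_, ?_, ?_, ?_, ?_⟩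
    · exact Subgroup.mul_mem _ (Subgroup.le_normalizer h.tP) hgN
    · intro h5
      have h6 := P.mul_mem (P.inv_mem h.tP) h5
      rw [inv_mul_cancel_left] at h6
      exact hgP h6
    · intro a b hab
      exact hf ((MulEquiv.prodComm : DW ≃* DW).injective hab)
    · intro d
      change t * g * ι d * (t * g)⁻¹ = ι (f d).swap
      rw [← h.tcinv, ← hf2]; group
    · change (f (r 2, 1)).swap = _
      rw [h3]; rfl
    · change (f (1, r 2)).swap = _
      rw [h4]; rfl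
    · intro d hd
      have h6 := hX d hd
      exact ⟨h6.2, h6.1⟩
    · intro d hd
      have h6 := hY d hd
      exact ⟨h6.2, h6.1⟩

theorem Gd.adj {g : S} {f : DW →* DW} (h : WR P ι t) (hg : Gd P ι g f) (e : DW) :
    Gd P ι (g * ι e) (f.comp (MulAut.conj e).toMonoidHom) where
  nN := Subgroup.mul_mem _ hg.nN (Subgroup.le_normalizer (h.dP e))
  nP := by
    intro h5
    have h6 := P.mul_mem h5 (P.inv_mem (h.dP e))
    rw [mul_inv_cancel_right] at h6
    exact hg.nP h6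
  inj := hg.inj.comp (MulAut.conj e).injective
  cj := by
    intro d
    change _ = ι (f (e * d * e⁻¹))
    rw [← hg.cj, map_mul, map_mul, map_inv]; group
  z1 := by
    change f (e * (r 2, 1) * e⁻¹) = _
    rw [zd_comm e (show ((r 2, 1) : DW) ∈ zd by rw [mem_zd]; decide), mul_inv_cancel_right, hg.z1]
  z2 := by
    change f (e * (1, r 2) * e⁻¹) = _
    rw [zd_comm e (show ((1, r 2) : DW) ∈ zd by rw [mem_zd]; decide), mul_inv_cancel_right, hg.z2]
  X := by
    intro d hd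
    exact hg.X _ ⟨xp_conj _ hd.1, xp_conj _ hd.2⟩
  Y := by
    intro d hd
    exact hg.Y _ ⟨yp_conj _ hd.1, yp_conj _ hd.2⟩

theorem diag_or {d a : DW} (ha : a.1 = a.2) {z w : DW} (hz : z ∈ zd) (hw : w ∈ zd) (hd : d = a * (z * w)) :
    d.1 = d.2 ∨ (d * (r 2, 1)).1 = (d * (r 2, 1)).2 := by
  have key : ∀ p x : D8, Zp x → ∀ y : D8, Zp y → (p * x = p * y ∨ p * x * r 2 = p * y) := by decide
  subst hd
  have h3 := zd.mul_mem hz hw
  change a.1 * (z * w).1 = a.2 * (z * w).2 ∨ a.1 * (z * w).1 * r 2 = a.2 * (z * w).2 * 1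
  rw [mul_one, ha]
  exact key _ _ h3.1 _ h3.2

theorem Gd.sq {g : S} {f : DW →* DW} (hg : Gd P ι g f) :
    ((f (sr 0, sr 0)).1 = (f (sr 0, sr 0)).2 ∨ (f (sr 0, sr 0) * (r 2, 1)).1 = (f (sr 0, sr 0) * (r 2, 1)).2) ∧
    ((f (sr 1, sr 1)).1 = (f (sr 1, sr 1)).2 ∨ (f (sr 1, sr 1) * (r 2, 1)).1 = (f (sr 1, sr 1) * (r 2, 1)).2) := by
  obtain ⟨⟨z1, hz1, h1⟩, ⟨z2, hz2, h2⟩, ⟨z3, hz3, h3⟩, ⟨z4, hz4, h4⟩⟩ := f_swap hg.inj hg.z1 hg.z2 hg.X hg.Y
  constructor
  · refine diag_or (a := (sr 1, sr 1)) rfl hz1 hz3 ?_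
    have e : ((sr 0, sr 0) : DW) = (sr 0, 1) * (1, sr 0) := by simp
    rw [e, map_mul, h1, h3, mul_assoc, ← mul_assoc z1, ← zd_comm _ hz1, mul_assoc, ← mul_assoc, ← mul_assoc]
    simp [mul_assoc]
  · refine diag_or (a := (sr 0, sr 0)) rfl hz2 hz4 ?_
    have e : ((sr 1, sr 1) : DW) = (sr 1, 1) * (1, sr 1) := by simp
    rw [e, map_mul, h2, h4, mul_assoc, ← mul_assoc z2, ← zd_comm _ hz2, mul_assoc, ← mul_assoc, ← mul_assoc]
    simp [mul_assoc]

theorem WR.exists_gd2 (h : WR P ι t) (h2 : IsPGroup 2 S) (hr : Cfsg.SectionalPRankLE 2 4 S) (hP : P ≠ ⊤) :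
    ∃ g f, Gd P ι g f ∧ ∀ p, (f (p, p)).1 = (f (p, p)).2 := by
  obtain ⟨g, f, hg⟩ := h.exists_gd h2 hr hP
  obtain ⟨g1, f1, hg1, h01⟩ : ∃ g f, Gd P ι g f ∧ (f (sr 0, sr 0)).1 = (f (sr 0, sr 0)).2 := by
    rcases hg.sq.1 with h3 | h3
    · exact ⟨g, f, hg, h3⟩
    · refine ⟨_, _, hg.adj h (sr 1, 1), ?_⟩
      have e : (f.comp (MulAut.conj ((sr 1, 1) : DW)).toMonoidHom) (sr 0, sr 0) = f (sr 0, sr 0) * (r 2, 1) := by
        change f ((sr 1, 1) * (sr 0, sr 0) * (sr 1, 1)⁻¹) = _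
        rw [show ((sr 1, 1) * (sr 0, sr 0) * (sr 1, 1)⁻¹ : DW) = (sr 0, sr 0) * (r 2, 1) by decide, map_mul, hg.z1]
      rw [e]; exact h3
  obtain ⟨g2, f2, hg2, h02, h12⟩ : ∃ g f, Gd P ι g f ∧ (f (sr 0, sr 0)).1 = (f (sr 0, sr 0)).2 ∧
      (f (sr 1, sr 1)).1 = (f (sr 1, sr 1)).2 := by
    rcases hg1.sq.2 with h3 | h3
    · exact ⟨g1, f1, hg1, h01, h3⟩
    · refine ⟨_, _, hg1.adj h (sr 0, 1), ?_, ?_⟩
      · have e : (f1.comp (MulAut.conj ((sr 0, 1) : DW)).toMonoidHom) (sr 0, sr 0) = f1 (sr 0, sr 0) := by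
          change f1 ((sr 0, 1) * (sr 0, sr 0) * (sr 0, 1)⁻¹) = _
          rw [show ((sr 0, 1) * (sr 0, sr 0) * (sr 0, 1)⁻¹ : DW) = (sr 0, sr 0) by decide]
        rw [e]; exact h01
      · have e : (f1.comp (MulAut.conj ((sr 0, 1) : DW)).toMonoidHom) (sr 1, sr 1) = f1 (sr 1, sr 1) * (r 2, 1) := by
          change f1 ((sr 0, 1) * (sr 1, sr 1) * (sr 0, 1)⁻¹) = _
          rw [show ((sr 0, 1) * (sr 1, sr 1) * (sr 0, 1)⁻¹ : DW) = (sr 1, sr 1) * (r 2, 1) by decide, map_mul, hg1.z1]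
        rw [e]; exact h3
  refine ⟨g2, f2, hg2, ?_⟩
  have hm : ∀ p q : D8, (f2 (p, p)).1 = (f2 (p, p)).2 → (f2 (q, q)).1 = (f2 (q, q)).2 → (f2 (p * q, p * q)).1 = (f2 (p * q, p * q)).2 := by
    intro p q hp hq
    have e : ((p * q, p * q) : DW) = (p, p) * (q, q) := rfl
    rw [e, map_mul]
    change (f2 (p, p)).1 * (f2 (q, q)).1 = (f2 (p, p)).2 * (f2 (q, q)).2
    rw [hp, hq]
  intro p
  rcases word p with e | e | e | e | e | e | e | e
  · rw [e, show ((1, 1) : DW) = 1 from rfl, map_one]; rfl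
  · rw [e]; exact h02
  · rw [e]; exact h12
  · rw [e]; exact hm _ _ h02 h12
  · rw [e]; exact hm _ _ h12 h02
  · rw [e]; exact hm _ _ (hm _ _ h02 h12) h02
  · rw [e]; exact hm _ _ (hm _ _ h12 h02) h12
  · rw [e]; exact hm _ _ (hm _ _ (hm _ _ h02 h12) h02) h12

/-! ### the subgroup of index 8 -/

/-- diagonal -/
def diag : Subgroup DW where
  carrier := {d | d.1 = d.2}
  one_mem' := rfl
  mul_mem' := fun {a b} ha hb => by
    change a.1 * b.1 = a.2 * b.2
    rw [show a.1 = a.2 from ha, show b.1 = b.2 from hb]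
  inv_mem' := fun {a} ha => by
    change a.1⁻¹ = a.2⁻¹
    rw [show a.1 = a.2 from ha]

theorem mem_diag {d : DW} : d ∈ diag ↔ d.1 = d.2 := Iff.rfl

theorem card_diag : Nat.card diag = 8 := by
  rw [show Nat.card diag = Nat.card {d : DW // d.1 = d.2} from rfl, Nat.card_eq_fintype_card]
  decide

theorem zp_of_diag {d : DW} (h : ∀ q : D8, d * (q, q) = (q, q) * d) : d ∈ zd :=
  ⟨zp_of_comm (congrArg Prod.fst (h _)) (congrArg Prod.fst (h _)), zp_of_comm (congrArg Prod.snd (h _)) (congrArg Prod.snd (h _))⟩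

theorem dd1 : ∀ p : D8, (∀ a, a * p = p * a⁻¹) → False := by decide
theorem dd2 : ∀ p x : D8, Zp x → ∀ y : D8, Zp y → sr 0 * (p * (sr 1 * x)⁻¹ * p⁻¹) = 1 * (p * y⁻¹ * p⁻¹) → False := by decide
theorem dd3 : ∀ p x : D8, Zp x → ∀ y : D8, Zp y → sr 0 * (p * y⁻¹ * p⁻¹) = 1 * (p * (sr 1 * x)⁻¹ * p⁻¹) → False := by decide

theorem WR.exists_H (h : WR P ι t) (h2 : IsPGroup 2 S) (hr : Cfsg.SectionalPRankLE 2 4 S) (hP : P ≠ ⊤) :
    ∃ H : Subgroup S, H ≤ Subgroup.normalizer (P : Set S) ∧ Nat.card H = 32 ∧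
      (∀ k, (∀ n ∈ Subgroup.normalizer (P : Set S), n * k * n⁻¹ ∈ H) ↔ k ∈ Subgroup.center S) := by
  obtain ⟨g, f, hg, hfd⟩ := h.exists_gd2 h2 hr hP
  have hrP : ι.range ≤ P := by rintro _ ⟨d, rfl⟩; exact h.dP d
  have hPN : P ≤ Subgroup.normalizer (P : Set S) := Subgroup.le_normalizer
  -- first extension
  have htd : ∀ d ∈ diag, t * ι d * t⁻¹ = ι d := by
    intro d hd
    rw [h.tcinv]
    congr 1
    exact Prod.ext hd.symm hd
  obtain ⟨K, hK⟩ := ext2 (diag.map ι) t (by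
    rintro _ ⟨d, hd, rfl⟩
    rw [htd d hd]
    exact ⟨d, hd, rfl⟩) (by rw [h.tt]; exact Subgroup.one_mem _)
  have htK : t ∉ diag.map ι := by
    rintro ⟨d, -, hd⟩
    exact h.tn d hd.symm
  have hKc := ext2_card hK htK
  rw [Subgroup.card_map_of_injective h.inj, card_diag] at hKc
  have hdK : ∀ d ∈ diag, ι d ∈ K := fun d hd => (hK _).2 (Or.inl ⟨d, hd, rfl⟩)
  have htK2 : t ∈ K := (hK _).2 (Or.inr (by rw [mul_inv_cancel]; exact Subgroup.one_mem _))
  have hKP : K ≤ P := by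
    intro k hk
    rcases (hK k).1 hk with ⟨d, -, hd⟩ | ⟨d, -, hd⟩
    · rw [← hd]; exact h.dP d
    · have := P.mul_mem (h.dP d) h.tP
      rw [hd, inv_mul_cancel_right] at this
      exact this
  have hgNi := Subgroup.mem_normalizer_iff.1 hg.nN
  -- the element g t g⁻¹
  have hz1 : ((r 2, 1) : DW) ∈ zd := by rw [mem_zd]; decide
  obtain ⟨e, he0, he⟩ : ∃ e : DW, (e = 1 ∨ e = (r 2, r 2)) ∧ g * t * g⁻¹ = ι e * t := by
    have hm : g * t * g⁻¹ ∈ P := (hgNi t).1 h.tP
    have hmz : g * t * g⁻¹ * ι (r 2, 1) * (g * t * g⁻¹)⁻¹ = ι (1, r 2) := by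
      have h3 : g⁻¹ * ι (r 2, 1) * g = ι (r 2, 1) := by
        have := hg.cj (r 2, 1)
        rw [hg.z1] at this
        calc g⁻¹ * ι (r 2, 1) * g = g⁻¹ * (g * ι (r 2, 1) * g⁻¹) * g := by rw [this]
          _ = _ := by group
      calc g * t * g⁻¹ * ι (r 2, 1) * (g * t * g⁻¹)⁻¹ = g * (t * (g⁻¹ * ι (r 2, 1) * g) * t⁻¹) * g⁻¹ := by group
        _ = ι (1, r 2) := by
          rw [h3, h.tcinv, hg.cj]
          exact congrArg ι hg.z2
    rcases (h.mem _).1 hm with ⟨d, hd⟩ | ⟨d, hd⟩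
    · exfalso
      rw [hd, ← map_inv, ← map_mul, ← map_mul, zd_comm d hz1, mul_inv_cancel_right] at hmz
      have := h.inj hmz
      revert this; decide
    · have hcd : ∀ q, d * (q, q) = (q, q) * d := by
        intro q
        obtain ⟨u, hu⟩ : ∃ u, f u = (q, q) := Finite.surjective_of_injective hg.inj _
        -- u is diagonal
        obtain ⟨p, hp⟩ : ∃ p, f (p, p) = (q, q) := by
          have hinj : Function.Injective (fun p : D8 => (f (p, p)).1) := by
            intro a b hab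
            have h3 : f (a, a) = f (b, b) := by
              apply Prod.ext hab
              rw [← hfd a, ← hfd b]; exact hab
            exact congrArg Prod.fst (hg.inj h3)
          obtain ⟨p, hp⟩ := Finite.surjective_of_injective hinj q
          exact ⟨p, Prod.ext hp ((hfd p).symm.trans hp)⟩
        have h3 : g * t * g⁻¹ * ι (q, q) * (g * t * g⁻¹)⁻¹ = ι (q, q) := by
          have h4 : g⁻¹ * ι (q, q) * g = ι (p, p) := by
            rw [← hp, ← hg.cj]; group
          calc g * t * g⁻¹ * ι (q, q) * (g * t * g⁻¹)⁻¹ = g * (t * (g⁻¹ * ι (q, q) * g) * t⁻¹) * g⁻¹ := by group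
            _ = ι (q, q) := by rw [h4, htd _ rfl, hg.cj, hp]
        rw [hd] at h3
        have h5 : ι d * t * ι (q, q) * (ι d * t)⁻¹ = ι d * (t * ι (q, q) * t⁻¹) * (ι d)⁻¹ := by group
        rw [h5, htd _ rfl] at h3
        apply h.inj
        rw [map_mul, map_mul]
        calc ι d * ι (q, q) = (ι d * ι (q, q) * (ι d)⁻¹) * ι d := by group
          _ = _ := by rw [h3]
      have hdz := zp_of_diag hcd
      have hsq : d * d.swap = 1 := by
        apply h.inj
        rw [map_one, map_mul, ← h.tcinv]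
        have h3 : (g * t * g⁻¹) * (g * t * g⁻¹) = 1 := by
          calc (g * t * g⁻¹) * (g * t * g⁻¹) = g * (t * t) * g⁻¹ := by group
            _ = 1 := by rw [h.tt]; group
        rw [hd] at h3
        rw [h.tinv, ← h3]; group
      refine ⟨d, ?_, hd⟩
      rcases zd_cases hdz with rfl | rfl | rfl | rfl
      · left; rfl
      · exfalso; revert hsq; decide
      · exfalso; revert hsq; decide
      · right; rfl
  have hed : e ∈ diag := by rcases he0 with rfl | rfl <;> rfl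
  have hez : e ∈ zd := by rcases he0 with rfl | rfl <;> rw [mem_zd] <;> decide
  -- g * g
  have hgg : g * g ∈ diag.map ι := by
    have hggP : g * g ∈ P := h.mul_memP h2 hr hg.nN hg.nP hg.nN hg.nP
    have hzf : ∀ z ∈ zd, g * ι z * g⁻¹ = ι z := by
      intro z hz
      rw [hg.cj, f_fix hg.z1 hg.z2 hz]
    have h3 : g * g * ι (r 2, 1) * (g * g)⁻¹ = ι (r 2, 1) := by
      calc g * g * ι (r 2, 1) * (g * g)⁻¹ = g * (g * ι (r 2, 1) * g⁻¹) * g⁻¹ := by group
        _ = _ := by rw [hzf _ hz1, hzf _ hz1]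
    have h4 : g * g * t * (g * g)⁻¹ = t := by
      calc g * g * t * (g * g)⁻¹ = g * (g * t * g⁻¹) * g⁻¹ := by group
        _ = g * (ι e * t) * g⁻¹ := by rw [he]
        _ = (g * ι e * g⁻¹) * (g * t * g⁻¹) := by group
        _ = t := by rw [hzf e hez, he, ← mul_assoc, ← map_mul, zd_sq hez, map_one, one_mul]
    rcases (h.mem _).1 hggP with ⟨d, hd⟩ | ⟨d, hd⟩
    · refine ⟨d, ?_, hd.symm⟩
      rw [hd] at h4
      have h5 : ι d * t = t * ι d := by
        calc ι d * t = (ι d * t * (ι d)⁻¹) * ι d := by group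
          _ = _ := by rw [h4]
      rw [h.tc] at h5
      have h6 := h.inj (mul_right_cancel h5)
      exact congrArg Prod.fst h6
    · exfalso
      rw [hd] at h3
      have h5 : ι d * t * ι (r 2, 1) * (ι d * t)⁻¹ = ι d * (t * ι (r 2, 1) * t⁻¹) * (ι d)⁻¹ := by group
      rw [h5, h.tcinv, ← map_inv, ← map_mul, ← map_mul] at h3
      have h6 := h.inj h3
      rw [zd_comm d (show ((r 2, 1) : DW).swap ∈ zd by rw [mem_zd]; decide), mul_inv_cancel_right] at h6
      revert h6; decide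
  -- second extension
  obtain ⟨H, hH⟩ := ext2 K g (by
    have key : ∀ d ∈ diag, g * ι d * g⁻¹ ∈ K := by
      intro d hd
      rw [hg.cj]
      apply hdK
      have h3 : d = (d.1, d.1) := Prod.ext rfl hd.symm
      rw [h3]
      exact hfd _
    intro k hk
    rcases (hK k).1 hk with ⟨d, hd, hd2⟩ | ⟨d, hd, hd2⟩
    · rw [← hd2]; exact key d hd
    · have h3 : k = ι d * t := by rw [hd2, inv_mul_cancel_right]
      have h4 : g * k * g⁻¹ = (g * ι d * g⁻¹) * (g * t * g⁻¹) := by rw [h3]; group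
      rw [h4, he]
      exact K.mul_mem (key d hd) (K.mul_mem (hdK e hed) htK2)) (by
    obtain ⟨d, hd, hd2⟩ := hgg
    rw [← hd2]; exact hdK d hd)
  have hgK : g ∉ K := fun h3 => hg.nP (hKP h3)
  have hHc := ext2_card hH hgK
  rw [hKc] at hHc
  have hKH : K ≤ H := fun k hk => (hH k).2 (Or.inl hk)
  have hgH : g ∈ H := (hH g).2 (Or.inr (by rw [mul_inv_cancel]; exact Subgroup.one_mem _))
  have hHN : H ≤ Subgroup.normalizer (P : Set S) := by
    intro k hk
    rcases (hH k).1 hk with h3 | h3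
    · exact hPN (hKP h3)
    · have := Subgroup.mul_mem _ (hPN (hKP h3)) hg.nN
      rwa [inv_mul_cancel_right] at this
  have hdH : ∀ d, ι d ∈ H → d ∈ diag := by
    intro d hd
    rcases (hH _).1 hd with h3 | h3
    · rcases (hK _).1 h3 with ⟨d', h4, h5⟩ | ⟨d', h4, h5⟩
      · rw [← h.inj h5]; exact h4
      · exfalso
        apply h.tn (d'⁻¹ * d)
        rw [map_mul, map_inv, h5]; group
    · exfalso
      apply hg.nP
      have h4 := P.mul_mem (P.inv_mem (hKP h3)) (h.dP d)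
      have h5 : (ι d * g⁻¹)⁻¹ * ι d = g := by group
      rwa [h5] at h4
  refine ⟨H, hHN, by omega, fun k => ⟨fun hk => ?_, fun hk n _ => ?_⟩⟩
  · have hkH : k ∈ H := by
      have := hk 1 (Subgroup.one_mem _)
      simpa using this
    rw [h.mem_center h2 hr]
    have hka : ∀ a : D8, ι (a, 1) * k * (ι (a, 1))⁻¹ ∈ H := fun a => hk _ (hPN (h.dP _))
    have hka2 : ∀ a : D8, ι (a, 1) * (k * (ι (a, 1))⁻¹ * k⁻¹) ∈ H := by
      intro a
      have h3 := H.mul_mem (hka a) (H.inv_mem hkH)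
      have h4 : ι (a, 1) * k * (ι (a, 1))⁻¹ * k⁻¹ = ι (a, 1) * (k * (ι (a, 1))⁻¹ * k⁻¹) := by group
      rwa [h4] at h3
    rcases (hH k).1 hkH with h3 | h3
    · rcases (hK k).1 h3 with ⟨d, hd, rfl⟩ | ⟨d, hd, hd2⟩
      · have hd' : d.1 = d.2 := hd
        have h4 : ∀ a : D8, a * d.1 * a⁻¹ = d.1 := by
          intro a
          have h5 := hka a
          rw [← map_inv, ← map_mul, ← map_mul] at h5
          have h6 := hdH _ h5
          change a * d.1 * a⁻¹ = 1 * d.2 * 1⁻¹ at h6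
          rw [h6, one_mul, inv_one, mul_one, hd']
        have h5 : Zp d.1 := by
          apply zp_of_comm
          · have := h4 (sr 0)
            rw [mul_inv_eq_iff_eq_mul] at this
            exact this.symm
          · have := h4 (sr 1)
            rw [mul_inv_eq_iff_eq_mul] at this
            exact this.symm
        rcases h5 with h6 | h6
        · left
          rw [show d = 1 from Prod.ext h6 (hd'.symm.trans h6), map_one]
        · right
          rw [show d = (r 2, r 2) from Prod.ext h6 (hd'.symm.trans h6)]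
      · exfalso
        have h4 : k = ι d * t := by rw [hd2, inv_mul_cancel_right]
        have hd' : d.1 = d.2 := hd
        apply dd1 d.1
        intro a
        have h5 := H.mul_mem (hka a) (H.inv_mem (hKH htK2))
        have h6 : ι (a, 1) * k * (ι (a, 1))⁻¹ * t⁻¹ = ι ((a, 1) * d * ((a, 1)⁻¹ : DW).swap) := by
          rw [h4, map_mul, map_mul, ← h.tcinv, map_inv]; group
        rw [h6] at h5
        have h7 := hdH _ h5
        change a * d.1 * 1⁻¹ = 1 * d.2 * a⁻¹ at h7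
        rw [inv_one, mul_one, one_mul, ← hd'] at h7
        exact h7
    · exfalso
      obtain ⟨⟨z, hz, hfz⟩, -⟩ := f_swap hg.inj hg.z1 hg.z2 hg.X hg.Y
      have hf1 : (f (sr 0, 1)).1 = sr 1 * z.1 := by rw [hfz]; rfl
      have hf2 : (f (sr 0, 1)).2 = z.2 := by
        rw [hfz]
        change 1 * z.2 = z.2
        rw [one_mul]
      have hgi : g * (ι (sr 0, 1))⁻¹ * g⁻¹ = ι (f (sr 0, 1))⁻¹ := by
        rw [← map_inv ι (sr 0, 1), hg.cj, map_inv]
      have h4 := hka2 (sr 0)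
      rcases (hK _).1 h3 with ⟨d, hd, hd2⟩ | ⟨d, hd, hd2⟩
      · have hd' : d.1 = d.2 := hd
        have h5 : k = ι d * g := by rw [hd2, inv_mul_cancel_right]
        have h6 : k * (ι (sr 0, 1))⁻¹ * k⁻¹ = ι (d * (f (sr 0, 1))⁻¹ * d⁻¹) := by
          rw [map_mul, map_mul, ← hgi, map_inv, h5]; group
        rw [h6, ← map_mul] at h4
        have h7 := hdH _ h4
        change sr 0 * (d.1 * (f (sr 0, 1)).1⁻¹ * d.1⁻¹) = 1 * (d.2 * (f (sr 0, 1)).2⁻¹ * d.2⁻¹) at h7
        rw [hf1, hf2, ← hd'] at h7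
        exact dd2 _ _ hz.1 _ hz.2 h7
      · have hd' : d.1 = d.2 := hd
        have h5 : k = ι d * t * g := by rw [hd2, inv_mul_cancel_right, inv_mul_cancel_right]
        have h6 : k * (ι (sr 0, 1))⁻¹ * k⁻¹ = ι (d * ((f (sr 0, 1))⁻¹).swap * d⁻¹) := by
          rw [map_mul, map_mul, ← h.tcinv, ← hgi, map_inv, h5]; group
        rw [h6, ← map_mul] at h4
        have h7 := hdH _ h4
        change sr 0 * (d.1 * (f (sr 0, 1)).2⁻¹ * d.1⁻¹) = 1 * (d.2 * (f (sr 0, 1)).1⁻¹ * d.2⁻¹) at h7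
        rw [hf1, hf2, ← hd'] at h7
        exact dd3 _ _ hz.1 _ hz.2 h7
  · have h3 := Subgroup.mem_center_iff.1 hk n
    rw [h3, mul_inv_cancel_right]
    rcases (h.mem_center h2 hr).1 hk with rfl | rfl
    · exact H.one_mem
    · exact hKH (hdK _ rfl)

/-- the quotient of the normalizer -/
theorem WR.quot (h : WR P ι t) (h2 : IsPGroup 2 S) (hr : Cfsg.SectionalPRankLE 2 4 S) (hP : P ≠ ⊤) :
    ∃ (_ : ((Subgroup.center S).subgroupOf (Subgroup.normalizer (P : Set S))).Normal) (T : Sylow 2 (Equiv.Perm (Fin 8))),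
      Nonempty (↥(Subgroup.normalizer (P : Set S)) ⧸ (Subgroup.center S).subgroupOf (Subgroup.normalizer (P : Set S)) ≃*
        ↥(T : Subgroup (Equiv.Perm (Fin 8)))) := by
  obtain ⟨H, hHN, hHc, hH⟩ := h.exists_H h2 hr hP
  have hZn : ((Subgroup.center S).subgroupOf (Subgroup.normalizer (P : Set S))).Normal := inferInstance
  have : Fact (Nat.Prime 2) := ⟨Nat.prime_two⟩
  have hPc : Nat.card P = 128 := by
    have h3 := ext2_card (K := ι.range) (H := P) (g := t) (by
      intro s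
      rw [h.mem]
      constructor
      · rintro (⟨d, rfl⟩ | ⟨d, rfl⟩)
        · left; exact ⟨d, rfl⟩
        · right; rw [mul_inv_cancel_right]; exact ⟨d, rfl⟩
      · rintro (⟨d, hd⟩ | ⟨d, hd⟩)
        · left; exact ⟨d, hd.symm⟩
        · right; exact ⟨d, by rw [hd, inv_mul_cancel_right]⟩) (by
      rintro ⟨d, hd⟩
      exact h.tn d hd.symm)
    rw [h3, ← Nat.card_congr (MonoidHom.ofInjective h.inj).toEquiv, card_dw]
  have hNc : Nat.card (Subgroup.normalizer (P : Set S)) = 256 := by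
    have h3 := (P.subgroupOf (Subgroup.normalizer (P : Set S))).card_mul_index
    rw [Nat.card_congr (Subgroup.subgroupOfEquivOfLe (Subgroup.le_normalizer : P ≤ Subgroup.normalizer (P : Set S))).toEquiv, hPc] at h3
    have h4 := h.relIndex h2 hr hP
    rw [Subgroup.relIndex] at h4
    rw [h4] at h3
    omega
  have hidx : Nat.card (↥(Subgroup.normalizer (P : Set S)) ⧸ H.subgroupOf (Subgroup.normalizer (P : Set S))) = 8 := by
    have h3 := (H.subgroupOf (Subgroup.normalizer (P : Set S))).card_mul_index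
    rw [Nat.card_congr (Subgroup.subgroupOfEquivOfLe hHN).toEquiv, hHc, hNc, Subgroup.index] at h3
    omega
  have e8 := Finite.equivFinOfCardEq hidx
  let φ : ↥(Subgroup.normalizer (P : Set S)) →* Equiv.Perm (Fin 8) := (Equiv.permCongrHom e8).toMonoidHom.comp
    (MulAction.toPermHom ↥(Subgroup.normalizer (P : Set S)) (↥(Subgroup.normalizer (P : Set S)) ⧸ H.subgroupOf (Subgroup.normalizer (P : Set S))))
  have hker : φ.ker = (Subgroup.center S).subgroupOf (Subgroup.normalizer (P : Set S)) := by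
    have h3 : φ.ker = (H.subgroupOf (Subgroup.normalizer (P : Set S))).normalCore := by
      rw [Subgroup.normalCore_eq_ker]
      ext x
      rw [MonoidHom.mem_ker, MonoidHom.mem_ker]
      change (Equiv.permCongrHom e8) _ = 1 ↔ _
      rw [map_eq_one_iff _ (Equiv.permCongrHom e8).injective]
    rw [h3]
    ext x
    have h4 : x ∈ (H.subgroupOf (Subgroup.normalizer (P : Set S))).normalCore ↔
        ∀ n : Subgroup.normalizer (P : Set S), n * x * n⁻¹ ∈ H.subgroupOf (Subgroup.normalizer (P : Set S)) := Iff.rfl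
    rw [h4, Subgroup.mem_subgroupOf, ← hH]
    constructor
    · intro h5 n hn
      exact h5 ⟨n, hn⟩
    · intro h5 n
      exact h5 n n.2
  have hq : Nat.card (↥(Subgroup.normalizer (P : Set S)) ⧸ (Subgroup.center S).subgroupOf (Subgroup.normalizer (P : Set S))) = 128 := by
    have h3 := ((Subgroup.center S).subgroupOf (Subgroup.normalizer (P : Set S))).card_mul_index
    have hle : Subgroup.center S ≤ Subgroup.normalizer (P : Set S) := by
      rw [h.center_eq h2 hr]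
      exact (Subgroup.map_subtype_le _).trans Subgroup.le_normalizer
    rw [Nat.card_congr (Subgroup.subgroupOfEquivOfLe hle).toEquiv, h.card_center h2 hr, hNc, Subgroup.index] at h3
    omega
  have e1 : ↥(Subgroup.normalizer (P : Set S)) ⧸ (Subgroup.center S).subgroupOf (Subgroup.normalizer (P : Set S)) ≃* φ.range :=
    (QuotientGroup.quotientMulEquivOfEq hker.symm).trans (QuotientGroup.quotientKerEquivRange φ)
  have hrc : Nat.card φ.range = 128 := by rw [← hq]; exact (Nat.card_congr e1.toEquiv).symm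
  refine ⟨hZn, Sylow.ofCard φ.range ?_, ⟨e1⟩⟩
  rw [hrc, Nat.card_eq_fintype_card, Fintype.card_perm, Fintype.card_fin]
  have h7 : (Nat.factorial 8).factorization 2 = 7 := by
    rw [show Nat.factorial 8 = 2 ^ 7 * 315 by decide]
    rw [Nat.factorization_mul (by norm_num) (by norm_num), Nat.Prime.factorization_pow Nat.prime_two]
    simp only [Finsupp.coe_add, Pi.add_apply, Finsupp.single_eq_same]
    rw [Nat.factorization_eq_zero_of_not_dvd (by norm_num : ¬ 2 ∣ 315)]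
  rw [h7]; norm_num

end

/-! ### the wreath product from the Sylow subgroup of the symmetric group -/

/-- `D8` acting on four points -/
def d8perm : D8 →* Equiv.Perm (ZMod 4) where
  toFun d := match d with
    | r i => Equiv.addRight i
    | sr i => Equiv.subLeft (-i)
  map_one' := by decide
  map_mul' := by decide

theorem d8perm_inj : Function.Injective d8perm := by
  have : ∀ a b : D8, d8perm a = d8perm b → a = b := by decide
  exact fun a b => this a b

/-- `D8 × D8` acting on eight points -/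
noncomputable def dwperm : DW →* Equiv.Perm (Fin 8) :=
  (Equiv.permCongrHom (finSumFinEquiv : Fin 4 ⊕ Fin 4 ≃ Fin 8)).toMonoidHom.comp
    ((Equiv.Perm.sumCongrHom (Fin 4) (Fin 4)).comp (MonoidHom.prodMap d8perm d8perm))

theorem dwperm_inj : Function.Injective dwperm := by
  refine (Equiv.permCongrHom _).injective.comp (Equiv.Perm.sumCongrHom_injective.comp ?_)
  intro a b hab
  exact Prod.ext (d8perm_inj (congrArg Prod.fst hab)) (d8perm_inj (congrArg Prod.snd hab))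

/-- the swap -/
noncomputable def swperm : Equiv.Perm (Fin 8) :=
  (Equiv.permCongrHom (finSumFinEquiv : Fin 4 ⊕ Fin 4 ≃ Fin 8)) (Equiv.sumComm (Fin 4) (Fin 4))

theorem swperm_sq : swperm * swperm = 1 := by
  rw [swperm, ← map_mul, ← map_one (Equiv.permCongrHom (finSumFinEquiv : Fin 4 ⊕ Fin 4 ≃ Fin 8))]
  congr 1
  ext x
  rcases x with x | x <;> rfl

theorem swperm_tc (d : DW) : swperm * dwperm d = dwperm d.swap * swperm := by
  change (Equiv.permCongrHom finSumFinEquiv) (Equiv.sumComm (Fin 4) (Fin 4)) *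
    (Equiv.permCongrHom finSumFinEquiv) (Equiv.Perm.sumCongrHom (Fin 4) (Fin 4) (d8perm d.1, d8perm d.2)) =
    (Equiv.permCongrHom finSumFinEquiv) (Equiv.Perm.sumCongrHom (Fin 4) (Fin 4) (d8perm d.2, d8perm d.1)) *
    (Equiv.permCongrHom finSumFinEquiv) (Equiv.sumComm (Fin 4) (Fin 4))
  rw [← map_mul, ← map_mul]
  congr 1
  ext x
  rcases x with x | x <;> rfl

theorem swperm_ne (d : DW) : swperm ≠ dwperm d := by
  intro h
  have h1 : (Equiv.sumComm (Fin 4) (Fin 4) : Equiv.Perm (Fin 4 ⊕ Fin 4)) = Equiv.Perm.sumCongrHom (Fin 4) (Fin 4) (d8perm d.1, d8perm d.2) :=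
    (Equiv.permCongrHom _).injective h
  have h2 := DFunLike.congr_fun h1 (Sum.inl (0 : Fin 4))
  rw [Equiv.Perm.sumCongrHom_apply, Equiv.Perm.sumCongr_apply] at h2
  simp at h2

section
variable {S : Type u} [Group S] [Finite S] {P : Subgroup S}

theorem exists_WR (hP : ∃ T : Sylow 2 (Equiv.Perm (Fin 8)), Nonempty (↥P ≃* ↥(T : Subgroup (Equiv.Perm (Fin 8))))) :
    ∃ (ι : DW →* S) (t : S), WR P ι t := by
  have : Fact (Nat.Prime 2) := ⟨Nat.prime_two⟩
  obtain ⟨T, ⟨e⟩⟩ := hP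
  obtain ⟨H, hH⟩ := ext2 dwperm.range swperm (by
    rintro _ ⟨d, rfl⟩
    rw [swperm_tc, mul_inv_cancel_right]
    exact ⟨_, rfl⟩) (by rw [swperm_sq]; exact Subgroup.one_mem _)
  have hHc := ext2_card hH (by
    rintro ⟨d, hd⟩
    exact swperm_ne d hd.symm)
  rw [← Nat.card_congr (MonoidHom.ofInjective dwperm_inj).toEquiv, card_dw] at hHc
  have h7 : (Nat.factorial 8).factorization 2 = 7 := by
    rw [show Nat.factorial 8 = 2 ^ 7 * 315 by decide]
    rw [Nat.factorization_mul (by norm_num) (by norm_num), Nat.Prime.factorization_pow Nat.prime_two]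
    simp only [Finsupp.coe_add, Pi.add_apply, Finsupp.single_eq_same]
    rw [Nat.factorization_eq_zero_of_not_dvd (by norm_num : ¬ 2 ∣ 315)]
  have hcard : Nat.card H = 2 ^ (Nat.card (Equiv.Perm (Fin 8))).factorization 2 := by
    rw [Nat.card_eq_fintype_card (α := Equiv.Perm (Fin 8)), Fintype.card_perm, Fintype.card_fin, h7, hHc]
    norm_num
  let T' : Sylow 2 (Equiv.Perm (Fin 8)) := Sylow.ofCard H hcard
  have e2 : ↥H ≃* ↥P := (Sylow.equiv T' T).trans e.symm
  have hdH : ∀ d, dwperm d ∈ H := fun d => (hH _).2 (Or.inl ⟨d, rfl⟩)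
  have hsH : swperm ∈ H := (hH _).2 (Or.inr (by rw [mul_inv_cancel]; exact Subgroup.one_mem _))
  refine ⟨P.subtype.comp (e2.toMonoidHom.comp (dwperm.codRestrict H hdH)), (e2 ⟨swperm, hsH⟩ : P), ?_, ?_, ?_, ?_, ?_⟩
  · intro a b hab
    exact dwperm_inj (congrArg Subtype.val (e2.injective (Subtype.ext hab)))
  · rw [← Subgroup.coe_mul, ← map_mul]
    have : (⟨swperm, hsH⟩ * ⟨swperm, hsH⟩ : H) = 1 := Subtype.ext swperm_sq
    rw [this, map_one]; rfl
  · intro d
    change ((e2 ⟨swperm, hsH⟩ : P) : S) * (e2 ⟨dwperm d, hdH d⟩ : P) = (e2 ⟨dwperm d.swap, hdH _⟩ : P) * (e2 ⟨swperm, hsH⟩ : P)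
    rw [← Subgroup.coe_mul, ← Subgroup.coe_mul, ← map_mul, ← map_mul]
    congr 2
    exact Subtype.ext (swperm_tc d)
  · intro d hd
    exact swperm_ne d (congrArg Subtype.val (e2.injective (Subtype.ext hd)))
  · intro s
    constructor
    · intro hs
      obtain ⟨x, hx⟩ := e2.surjective ⟨s, hs⟩
      rcases (hH x).1 x.2 with ⟨d, hd⟩ | ⟨d, hd⟩
      · left
        refine ⟨d, ?_⟩
        change s = (e2 ⟨dwperm d, hdH d⟩ : P)
        rw [show (⟨dwperm d, hdH d⟩ : H) = x from Subtype.ext hd, hx]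
      · right
        refine ⟨d, ?_⟩
        change s = (e2 ⟨dwperm d, hdH d⟩ : P) * (e2 ⟨swperm, hsH⟩ : P)
        rw [← Subgroup.coe_mul, ← map_mul]
        rw [show (⟨dwperm d, hdH d⟩ * ⟨swperm, hsH⟩ : H) = x from Subtype.ext (by
          change dwperm d * swperm = x
          rw [hd, inv_mul_cancel_right]), hx]
    · rintro (⟨d, rfl⟩ | ⟨d, rfl⟩)
      · exact Subtype.property _
      · exact P.mul_mem (Subtype.property _) (Subtype.property _)

end

end Cfsg.Agent.Lib.H46DW
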