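import Cfsg.Agent.Lib.CharBasic
import Cfsg.Agent.Lib.Involutions

/-!
# The order of a group with the involution pattern of the Hall–Janko group: counting (helper47)
-/

set_option autoImplicit false

namespace Cfsg.Agent.Lib.H47HJ

open Subgroup

abbrev A5 := alternatingGroup (Fin 5)

def invs : Finset A5 := Finset.univ.filter (fun x => x * x = 1 ∧ x ≠ 1)
def sqs : Finset A5 := Finset.univ.filter (fun x => x * x = 1)
def p15 (y : A5) : Bool := decide ((y * y * y) * (y * y) = 1) || decide (y * y * y = 1)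

set_option maxRecDepth 100000 in
theorem c1 : invs.card = 15 := by decide +kernel

set_option maxRecDepth 100000 in
theorem c2 : ∀ i ∈ invs, (invs.filter (fun x => x * i = i * x)).card = 3 := by decide +kernel

set_option maxRecDepth 100000 in
theorem c3 : ∀ i ∈ invs, (sqs.filter (fun x => p15 (i * x) = true)).card = 13 := by decide +kernel

set_option maxRecDepth 100000 in
theorem c4 : ∀ y : A5, p15 y = true ∨ y * y = 1 := by decide +kernel

theorem p15_iff (y : A5) : p15 y = true ↔ Odd (orderOf y) := by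
  have h0 : p15 y = true ↔ (y ^ 5 = 1 ∨ y ^ 3 = 1) := by
    unfold p15
    rw [Bool.or_eq_true, decide_eq_true_iff, decide_eq_true_iff]
    have e5 : y * y * y * (y * y) = y ^ 5 := by simp only [pow_succ, pow_zero, one_mul, mul_assoc]
    have e3 : y * y * y = y ^ 3 := by simp only [pow_succ, pow_zero, one_mul]
    rw [e5, e3]
  constructor
  · intro h
    rcases h0.mp h with h | h
    · exact Odd.of_dvd_nat (by decide) (orderOf_dvd_of_pow_eq_one h)
    · exact Odd.of_dvd_nat (by decide) (orderOf_dvd_of_pow_eq_one h)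
  · intro h
    rcases c4 y with h1 | h1
    · exact h1
    · have h2 : orderOf y ∣ 2 := orderOf_dvd_of_pow_eq_one (by rw [pow_two]; exact h1)
      have h3 : orderOf y = 1 := by
        rcases (Nat.dvd_prime Nat.prime_two).mp h2 with h3 | h3
        · exact h3
        · rw [h3] at h; exact absurd h (by decide)
      rw [orderOf_eq_one_iff] at h3
      exact h0.mpr (Or.inl (by rw [h3, one_pow]))

section
variable {B : Type*} [Group B]

theorem orderOf_two_iff (x : B) : orderOf x = 2 ↔ x * x = 1 ∧ x ≠ 1 := by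
  rw [orderOf_eq_prime_iff, pow_two]

theorem mem_invs (e : B ≃* A5) (x : B) : e x ∈ invs ↔ orderOf x = 2 := by
  have h1 : e x * e x = 1 ↔ x * x = 1 := by rw [← map_mul, map_eq_one_iff e e.injective]
  have h2 : e x ≠ 1 ↔ x ≠ 1 := by rw [Ne, map_eq_one_iff e e.injective]
  rw [orderOf_two_iff, invs, Finset.mem_filter, h1, h2]
  simp

theorem b1 (e : B ≃* A5) : Nat.card {x : B // orderOf x = 2} = 15 := by
  have h1 : {x : B // orderOf x = 2} ≃ {x : A5 // x ∈ invs} := by
    refine e.toEquiv.subtypeEquiv fun x => ?_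
    show _ ↔ e x ∈ invs
    rw [mem_invs]
  rw [Nat.card_congr h1, Nat.card_eq_fintype_card, Fintype.card_coe, c1]

theorem mem_sqs (e : B ≃* A5) (x : B) : e x ∈ sqs ↔ x * x = 1 := by
  rw [sqs, Finset.mem_filter, ← map_mul, map_eq_one_iff e e.injective]
  simp

theorem b2 (e : B ≃* A5) {i : B} (hi : orderOf i = 2) : Nat.card {x : B // orderOf x = 2 ∧ x * i = i * x} = 3 := by
  have h1 : {x : B // orderOf x = 2 ∧ x * i = i * x} ≃ {x : A5 // x ∈ invs.filter (fun x => x * e i = e i * x)} := by
    refine e.toEquiv.subtypeEquiv fun x => ?_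
    show _ ↔ e x ∈ _
    rw [Finset.mem_filter, mem_invs, ← map_mul, ← map_mul, e.injective.eq_iff]
  rw [Nat.card_congr h1, Nat.card_eq_fintype_card, Fintype.card_coe, c2 _ ((mem_invs e i).mpr hi)]

theorem b3 (e : B ≃* A5) {i : B} (hi : orderOf i = 2) : Nat.card {x : B // x * x = 1 ∧ Odd (orderOf (i * x))} = 13 := by
  have h1 : {x : B // x * x = 1 ∧ Odd (orderOf (i * x))} ≃ {x : A5 // x ∈ sqs.filter (fun x => p15 (e i * x) = true)} := by
    refine e.toEquiv.subtypeEquiv fun x => ?_
    show _ ↔ e x ∈ _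
    rw [Finset.mem_filter, mem_sqs, p15_iff, ← map_mul, MulEquiv.orderOf_eq]
  rw [Nat.card_congr h1, Nat.card_eq_fintype_card, Fintype.card_coe, c3 _ ((mem_invs e i).mpr hi)]

theorem b4 (e : B ≃* A5) : Nat.card B = 60 := by
  rw [Nat.card_congr e.toEquiv, nat_card_alternatingGroup, Nat.card_eq_fintype_card, Fintype.card_fin]
  rfl

end

/-- fibers of constant size -/
theorem card_fiber {α β : Type*} [Finite α] [Finite β] (f : α → β) (c : ℕ) (h : ∀ b, Nat.card {a // f a = b} = c) :
    Nat.card α = Nat.card β * c := by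
  classical
  have := Fintype.ofFinite β
  rw [← Nat.card_congr (Equiv.sigmaFiberEquiv f), Nat.card_sigma, Finset.sum_congr rfl fun b _ => h b]
  rw [Finset.sum_const, Finset.card_univ, smul_eq_mul, Nat.card_eq_fintype_card]

end Cfsg.Agent.Lib.H47HJ
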