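import Cfsg.Agent.Lib.H47HJ
import Cfsg.Prelude
import Cfsg.Agent.Lib.LocTrace

/-!
# The order of a group with the involution pattern of the Hall–Janko group: the pairs (helper47)
-/

set_option autoImplicit false

namespace Cfsg.Agent.Lib.H47HJ

open Subgroup

variable {G : Type*} [Group G] [Finite G]

structure Dat (z t : G) (Q V B : Subgroup G) : Prop where
  hz : orderOf z = 2
  ht : orderOf t = 2
  hzt : ¬ IsConj z t
  zQ : z ∈ Q
  Qn : ∀ c ∈ centralizer ({z} : Set G), ∀ q ∈ Q, c * q * c⁻¹ ∈ Q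
  QC : Q ≤ centralizer ({z} : Set G)
  Qc : ∀ a ∈ Q, ∀ b ∈ Q, a * b = b * a ∨ a * b = z * (b * a)
  Q12 : Nat.card {q : Q // q ^ 2 = 1} = 12
  Q8 : ∀ a ∈ Q, ∀ b ∈ Q, a * a = 1 → b * b = 1 → a ≠ 1 → a ≠ z → b ≠ 1 → b ≠ z → a * b = b * a → b = a ∨ b = a * z
  Qz : ∀ x ∈ Q, orderOf x = 2 → IsConj x z
  Cz : ∀ x ∈ centralizer ({z} : Set G), orderOf x = 2 → x ∉ Q → IsConj x t
  VB : Cfsg.IsInternalDirectProduct V B (centralizer ({t} : Set G))
  V2 : ∀ v ∈ V, v ^ 2 = 1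
  tV : t ∈ V
  hB : Nonempty (↥B ≃* alternatingGroup (Fin 5))
  Bz : ∀ x ∈ B, orderOf x = 2 → IsConj x z
  Ct : ∀ x ∈ centralizer ({t} : Set G), orderOf x = 2 → x ∉ B → IsConj x t
  cz : Nat.card (centralizer ({z} : Set G)) = 1920
  ct : Nat.card (centralizer ({t} : Set G)) = 240

theorem orderOf_conj {x y : G} (h : IsConj x y) : orderOf y = orderOf x := by
  obtain ⟨g, rfl⟩ := isConj_iff.mp h
  rw [show g * x * g⁻¹ = MulAut.conj g x from rfl, MulEquiv.orderOf_eq]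

theorem mem_cen {a x : G} : x ∈ centralizer ({a} : Set G) ↔ a * x = x * a := by
  rw [mem_centralizer_iff]
  constructor
  · intro h; exact h a rfl
  · rintro h b hb; rw [Set.mem_singleton_iff] at hb; rw [hb]; exact h

variable {z t : G} {Q V B : Subgroup G} (h : Dat z t Q V B)
include h

theorem Dat.zz : z * z = 1 ∧ z ≠ 1 := (orderOf_two_iff z).mp h.hz
theorem Dat.tt : t * t = 1 ∧ t ≠ 1 := (orderOf_two_iff t).mp h.ht

theorem Dat.B_le : B ≤ centralizer ({t} : Set G) := h.VB.2.1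

theorem Dat.mem_B {x : G} (hx : IsConj z x) (hxt : x * t = t * x) : x ∈ B := by
  by_contra hc
  have h1 := h.Ct x (mem_cen.mpr hxt.symm) ((orderOf_conj hx).trans h.hz) hc
  exact h.hzt (hx.trans h1)

theorem Dat.mem_Q {x : G} (hx : IsConj z x) (hxz : x * z = z * x) : x ∈ Q := by
  by_contra hc
  have h1 := h.Cz x (mem_cen.mpr hxz.symm) ((orderOf_conj hx).trans h.hz) hc
  exact h.hzt (hx.trans h1)

/-- the involutions of `B` -/
def eB (h : Dat z t Q V B) : {x : G // IsConj z x ∧ x * t = t * x} ≃ {x : B // orderOf x = 2} where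
  toFun x := ⟨⟨x.1, h.mem_B x.2.1 x.2.2⟩, by
    rw [← Subgroup.orderOf_coe]; exact (orderOf_conj x.2.1).trans h.hz⟩
  invFun x := ⟨x.1.1, (h.Bz x.1.1 x.1.2 (by rw [Subgroup.orderOf_coe]; exact x.2)).symm,
    (mem_cen.mp (h.B_le x.1.2)).symm⟩
  left_inv x := rfl
  right_inv x := rfl

theorem Dat.n15 : Nat.card {x : G // IsConj z x ∧ x * t = t * x} = 15 := by
  obtain ⟨e⟩ := h.hB
  rw [Nat.card_congr (eB h), b1 e]

theorem Dat.n3 {i : G} (hi : IsConj z i) (hit : i * t = t * i) :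
    Nat.card {x : G // IsConj z x ∧ x * t = t * x ∧ x * i = i * x} = 3 := by
  obtain ⟨e⟩ := h.hB
  have hi2 : orderOf (⟨i, h.mem_B hi hit⟩ : B) = 2 := by
    rw [← Subgroup.orderOf_coe]; exact (orderOf_conj hi).trans h.hz
  rw [← b2 e hi2]
  refine Nat.card_congr ⟨fun x => ⟨⟨x.1, h.mem_B x.2.1 x.2.2.1⟩, ?_, ?_⟩, fun x => ⟨x.1.1, ?_, ?_, ?_⟩, fun x => rfl, fun x => rfl⟩
  · rw [← Subgroup.orderOf_coe]; exact (orderOf_conj x.2.1).trans h.hz
  · exact Subtype.ext x.2.2.2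
  · exact (h.Bz x.1.1 x.1.2 (by rw [Subgroup.orderOf_coe]; exact x.2.1)).symm
  · exact (mem_cen.mp (h.B_le x.1.2)).symm
  · exact congrArg Subtype.val x.2.2

omit h [Finite G] in
theorem conj_eq_iff {g a b : G} : g * a * g⁻¹ * (g * b * g⁻¹) = g * b * g⁻¹ * (g * a * g⁻¹) ↔ a * b = b * a := by
  have e1 : g * a * g⁻¹ * (g * b * g⁻¹) = g * (a * b) * g⁻¹ := by group
  have e2 : g * b * g⁻¹ * (g * a * g⁻¹) = g * (b * a) * g⁻¹ := by group
  rw [e1, e2]
  constructor
  · intro h; exact mul_left_cancel (mul_right_cancel h)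
  · intro h; rw [h]

omit h [Finite G] in
theorem isConj_conj_iff {g a b : G} : IsConj a (g * b * g⁻¹) ↔ IsConj a b := by
  constructor
  · intro h; exact h.trans (isConj_iff.mpr ⟨g⁻¹, by group⟩)
  · intro h; exact h.trans (isConj_iff.mpr ⟨g, rfl⟩)

/-- fifteen conjugates of `z` commute with a conjugate of `t` -/
theorem Dat.n15' {y : G} (hy : IsConj t y) : Nat.card {x : G // IsConj z x ∧ x * y = y * x} = 15 := by
  obtain ⟨g, rfl⟩ := isConj_iff.mp hy
  rw [← h.n15]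
  symm
  refine Nat.card_congr ((MulAut.conj g).toEquiv.subtypeEquiv fun x => ?_)
  show _ ↔ IsConj z (g * x * g⁻¹) ∧ g * x * g⁻¹ * (g * t * g⁻¹) = g * t * g⁻¹ * (g * x * g⁻¹)
  rw [conj_eq_iff, isConj_conj_iff]

theorem Dat.n3' {y i : G} (hy : IsConj t y) (hi : IsConj z i) (hiy : i * y = y * i) :
    Nat.card {x : G // IsConj z x ∧ x * y = y * x ∧ x * i = i * x} = 3 := by
  obtain ⟨g, rfl⟩ := isConj_iff.mp hy
  obtain ⟨j, rfl⟩ : ∃ j, g * j * g⁻¹ = i := ⟨g⁻¹ * i * g, by group⟩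
  rw [← h.n3 (isConj_conj_iff.mp hi) (conj_eq_iff.mp hiy)]
  symm
  refine Nat.card_congr ((MulAut.conj g).toEquiv.subtypeEquiv fun x => ?_)
  show _ ↔ IsConj z (g * x * g⁻¹) ∧ g * x * g⁻¹ * (g * t * g⁻¹) = g * t * g⁻¹ * (g * x * g⁻¹) ∧
    g * x * g⁻¹ * (g * j * g⁻¹) = g * j * g⁻¹ * (g * x * g⁻¹)
  rw [conj_eq_iff, conj_eq_iff, isConj_conj_iff]

/-- `120` conjugates of `t` commute with `z` -/
theorem Dat.n120 : Nat.card {y : G // IsConj t y ∧ y * z = z * y} = 120 := by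
  let P := {q : G × G // IsConj z q.1 ∧ IsConj t q.2 ∧ q.1 * q.2 = q.2 * q.1}
  have h1 : Nat.card P = Nat.card {y : G // IsConj t y} * 15 := by
    refine card_fiber (fun q : P => (⟨q.1.2, q.2.2.1⟩ : {y : G // IsConj t y})) 15 fun y => ?_
    rw [← h.n15' y.2]
    refine Nat.card_congr ⟨fun q => ⟨q.1.1.1, q.1.2.1, ?_⟩, fun x => ⟨⟨(x.1, y.1), x.2.1, y.2, x.2.2⟩, rfl⟩, ?_, fun x => rfl⟩
    · have e : q.1.1.2 = y.1 := congrArg Subtype.val q.2
      rw [← e]; exact q.1.2.2.2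
    · rintro ⟨⟨⟨a, b⟩, ha⟩, hb⟩
      have e : b = y.1 := congrArg Subtype.val hb
      subst e
      rfl
  have h2 : Nat.card P = Nat.card {x : G // IsConj z x} * Nat.card {y : G // IsConj t y ∧ y * z = z * y} := by
    refine card_fiber (fun q : P => (⟨q.1.1, q.2.1⟩ : {y : G // IsConj z y})) _ fun x => ?_
    obtain ⟨x, hx⟩ := x
    obtain ⟨g, rfl⟩ := isConj_iff.mp hx
    refine Nat.card_congr ⟨fun q => ⟨g⁻¹ * q.1.1.2 * g, ?_, ?_⟩, fun y => ⟨⟨(g * z * g⁻¹, g * y.1 * g⁻¹), hx, ?_, ?_⟩, rfl⟩, ?_, ?_⟩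
    · have e : g⁻¹ * q.1.1.2 * g = g⁻¹ * q.1.1.2 * (g⁻¹)⁻¹ := by rw [inv_inv]
      rw [e, isConj_conj_iff]; exact q.1.2.2.1
    · have e : q.1.1.1 = g * z * g⁻¹ := congrArg Subtype.val q.2
      have e2 := q.1.2.2.2
      rw [e] at e2
      rw [← conj_eq_iff (g := g)]
      have e3 : g * (g⁻¹ * q.1.1.2 * g) * g⁻¹ = q.1.1.2 := by group
      rw [e3]
      exact e2.symm
    · exact isConj_conj_iff.mpr y.2.1
    · exact conj_eq_iff.mpr y.2.2.symm
    · rintro ⟨⟨⟨a, b⟩, ha⟩, hb⟩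
      have e : a = g * z * g⁻¹ := congrArg Subtype.val hb
      subst e
      apply Subtype.ext
      apply Subtype.ext
      apply Prod.ext
      · rfl
      · show g * (g⁻¹ * b * g) * g⁻¹ = b
        group
    · rintro ⟨y, hy⟩
      apply Subtype.ext
      show g⁻¹ * (g * y * g⁻¹) * g = y
      group
  have h3 := CharBasic.card_isConj_mul_card_centralizer z
  have h4 := CharBasic.card_isConj_mul_card_centralizer t
  rw [h.cz] at h3
  rw [h.ct] at h4
  rw [h1] at h2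
  set a := Nat.card {x : G // IsConj z x} with ha
  set b := Nat.card {y : G // IsConj t y} with hb
  set c := Nat.card {y : G // IsConj t y ∧ y * z = z * y} with hc
  have hpos : 0 < a := by
    rw [ha]
    have : Nonempty {x : G // IsConj z x} := ⟨⟨z, IsConj.refl z⟩⟩
    exact Nat.card_pos
  have h5 : b = 8 * a := by omega
  rw [h5] at h2
  have h6 : a * (120 : ℕ) = a * c := by rw [← h2]; ring
  exact (Nat.eq_of_mul_eq_mul_left hpos h6).symm

/-- eleven conjugates of `z` commute with `z` -/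
theorem Dat.n11 : Nat.card {x : G // IsConj z x ∧ x * z = z * x} = 11 := by
  classical
  have h1 : Nat.card {q : {q : Q // q ^ 2 = 1} // q ≠ ⟨1, one_pow 2⟩} = 11 := by
    have := Fintype.ofFinite {q : Q // q ^ 2 = 1}
    have e := Nat.card_eq_fintype_card (α := {q : Q // q ^ 2 = 1})
    rw [h.Q12] at e
    rw [Nat.card_eq_fintype_card, Fintype.card_subtype_compl, ← e, Fintype.card_subtype_eq]
  rw [← h1]
  refine Nat.card_congr ⟨fun x => ⟨⟨⟨x.1, h.mem_Q x.2.1 x.2.2⟩, ?_⟩, ?_⟩, fun q => ⟨q.1.1.1, ?_, ?_⟩, fun x => rfl, fun x => rfl⟩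
  · apply Subtype.ext
    show x.1 ^ 2 = 1
    rw [← (orderOf_conj x.2.1).trans h.hz]; exact pow_orderOf_eq_one _
  · intro e
    have e1 : x.1 = 1 := congrArg (fun q : {q : Q // q ^ 2 = 1} => (q.1 : G)) e
    have e2 := (orderOf_conj x.2.1).trans h.hz
    rw [e1, orderOf_one] at e2
    omega
  · refine (h.Qz _ q.1.1.2 ?_).symm
    rw [orderOf_two_iff]
    constructor
    · have := congrArg Subtype.val q.1.2
      rw [← pow_two]; exact this
    · intro e
      exact q.2 (Subtype.ext (Subtype.ext e))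
  · exact (mem_cen.mp (h.QC q.1.1.2)).symm

/-- eight conjugates of `z` commute with `z` but not with a given conjugate of `t` commuting with `z` -/
theorem Dat.n8 {y : G} (hy : IsConj t y) (hyz : y * z = z * y) :
    Nat.card {x : G // IsConj z x ∧ x * z = z * x ∧ x * y ≠ y * x} = 8 := by
  classical
  have h1 := h.n11
  have h2 := h.n3' hy (IsConj.refl z) hyz.symm
  have h3 : Nat.card {x : {x : G // IsConj z x ∧ x * z = z * x} // (x : G) * y = y * x} = 3 := by
    rw [← h2]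
    exact Nat.card_congr ⟨fun x => ⟨x.1.1, x.1.2.1, x.2, x.1.2.2⟩, fun x => ⟨⟨x.1, x.2.1, x.2.2.2⟩, x.2.2.1⟩,
      fun x => rfl, fun x => rfl⟩
  have h4 : Nat.card {x : {x : G // IsConj z x ∧ x * z = z * x} // ¬ (x : G) * y = y * x} = 8 := by
    have := Fintype.ofFinite {x : G // IsConj z x ∧ x * z = z * x}
    rw [Nat.card_eq_fintype_card] at h1 h3 ⊢
    rw [Fintype.card_subtype_compl, h1, h3]
  rw [← h4]
  exact Nat.card_congr ⟨fun x => ⟨⟨x.1, x.2.1, x.2.2.1⟩, x.2.2.2⟩, fun x => ⟨x.1.1, x.1.2.1, x.1.2.2, x.2⟩,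
      fun x => rfl, fun x => rfl⟩

omit [Finite G] h in
theorem comm_of_zpowers {x y w : G} (hx : x * x = 1) (hy : y * y = 1) (hw : w * w = 1) (h : w ∈ zpowers (x * y)) :
    x * w = w * x ∧ y * w = w * y ∧ (x * y) * w = w * (x * y) := by
  have hx' : x⁻¹ = x := inv_eq_of_mul_eq_one_left hx
  have hy' : y⁻¹ = y := inv_eq_of_mul_eq_one_left hy
  have hw' : w⁻¹ = w := inv_eq_of_mul_eq_one_left hw
  obtain ⟨n, hn⟩ := h
  have hn' : (x * y) ^ n = w := hn
  have h1 : x * w * x⁻¹ = w⁻¹ := by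
    rw [← hn', ← inv_zpow, ← conj_zpow]
    congr 1
    rw [mul_inv_rev, hx', hy', ← mul_assoc, hx, one_mul]
  have h3 : (x * y) * w = w * (x * y) := by
    rw [← hn']; exact (Commute.refl (x * y)).zpow_right n |>.eq
  have h4 : x * w = w * x := by
    rw [hw', mul_inv_eq_iff_eq_mul] at h1; exact h1
  refine ⟨h4, ?_, h3⟩
  have h5 : x * (y * w) = x * (w * y) := by
    rw [← mul_assoc, h3, ← mul_assoc, ← h4, mul_assoc]
  exact mul_left_cancel h5

/-- the key equivalence -/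
theorem Dat.key {x y : G} (hx : IsConj z x) (hy : IsConj t y) :
    z ∈ zpowers (x * y) ↔ (x * z = z * x ∧ y * z = z * y ∧ x * y ≠ y * x) := by
  have hx2 := (orderOf_two_iff x).mp ((orderOf_conj hx).trans h.hz)
  have hy2 := (orderOf_two_iff y).mp ((orderOf_conj hy).trans h.ht)
  have hzz := h.zz
  constructor
  · intro hw
    obtain ⟨h1, h2, -⟩ := comm_of_zpowers hx2.1 hy2.1 hzz.1 hw
    refine ⟨h1, h2, fun hc => ?_⟩
    have hxQ := h.mem_Q hx h1
    -- (x * y) ^ 2 = 1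
    have h3 : (x * y) * (x * y) = 1 := by
      calc (x * y) * (x * y) = x * (y * x) * y := by group
        _ = (x * x) * (y * y) := by rw [← hc]; group
        _ = 1 := by rw [hx2.1, hy2.1, one_mul]
    obtain ⟨n, hn⟩ := hw
    have hn' : (x * y) ^ n = z := hn
    have h4 : z = x * y := by
      rcases Int.even_or_odd' n with ⟨k, rfl | rfl⟩
      · rw [zpow_mul, zpow_two, h3, one_zpow] at hn'
        exact absurd hn'.symm hzz.2
      · rw [zpow_add, zpow_mul, zpow_two, h3, one_zpow, one_mul, zpow_one] at hn'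
        exact hn'.symm
    have h5 : y = x * z := by rw [h4, ← mul_assoc, hx2.1, one_mul]
    have hyQ : y ∈ Q := by rw [h5]; exact Q.mul_mem hxQ h.zQ
    have h6 := h.Qz y hyQ ((orderOf_conj hy).trans h.ht)
    exact h.hzt ((hy.trans h6).symm)
  · rintro ⟨h1, h2, h3⟩
    have hxQ := h.mem_Q hx h1
    have hy' : y⁻¹ = y := inv_eq_of_mul_eq_one_left hy2.1
    have hx' : x⁻¹ = x := inv_eq_of_mul_eq_one_left hx2.1
    set x' := y * x * y⁻¹ with hx'def
    have hx'Q : x' ∈ Q := h.Qn y (mem_cen.mpr h2.symm) x hxQ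
    have hx'2 : x' * x' = 1 := by
      rw [hx'def]
      calc y * x * y⁻¹ * (y * x * y⁻¹) = y * (x * x) * y⁻¹ := by group
        _ = 1 := by rw [hx2.1]; group
    have hw : (x * y) * (x * y) = x * x' := by rw [hx'def, hy']; group
    have hxx' : x ≠ x' := by
      intro e
      apply h3
      rw [hx'def, eq_mul_inv_iff_mul_eq] at e
      exact e
    have hxz : x ≠ z := by
      rintro rfl
      exact h3 h2.symm
    have hx'1 : x' ≠ 1 := by
      intro e
      apply hx2.2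
      rw [hx'def, mul_inv_eq_one, mul_eq_left] at e
      exact e
    have hx'z : x' ≠ z := by
      intro e
      apply hxz
      rw [hx'def, mul_inv_eq_iff_eq_mul, ← h2] at e
      exact mul_left_cancel e
    have hp : x * x' ∈ zpowers (x * y) := by rw [← hw]; exact (zpowers _).mul_mem (mem_zpowers _) (mem_zpowers _)
    rcases h.Qc x hxQ x' hx'Q with hc | hc
    · rcases h.Q8 x hxQ x' hx'Q hx2.1 hx'2 hx2.2 hxz hx'1 hx'z hc with e | e
      · exact absurd e.symm hxx'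
      · rw [e, ← mul_assoc, hx2.1, one_mul] at hp
        exact hp
    · have h7 : z = (x * x') * (x * x') := by
        calc z = z * (x' * x * (x * x')) := by
              rw [mul_assoc x' x, ← mul_assoc x x, hx2.1, one_mul, hx'2, mul_one]
          _ = (z * (x' * x)) * (x * x') := by group
          _ = (x * x') * (x * x') := by rw [← hc]
      rw [h7]
      exact (zpowers _).mul_mem hp hp

/-- the pairs through `z` -/
theorem Dat.rz : Nat.card {q : G × G // IsConj z q.1 ∧ IsConj t q.2 ∧ z ∈ zpowers (q.1 * q.2)} = 960 := by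
  have h1 : Nat.card {q : G × G // IsConj z q.1 ∧ IsConj t q.2 ∧ z ∈ zpowers (q.1 * q.2)} =
      Nat.card {y : G // IsConj t y ∧ y * z = z * y} * 8 := by
    refine card_fiber (fun q => (⟨q.1.2, q.2.2.1, ((h.key q.2.1 q.2.2.1).mp q.2.2.2).2.1⟩ :
      {y : G // IsConj t y ∧ y * z = z * y})) 8 fun y => ?_
    rw [← h.n8 y.2.1 y.2.2]
    refine Nat.card_congr ⟨fun q => ⟨q.1.1.1, q.1.2.1, ?_, ?_⟩, fun x => ⟨⟨(x.1, y.1), x.2.1, y.2.1, ?_⟩, rfl⟩, ?_, fun x => rfl⟩
    · exact ((h.key q.1.2.1 q.1.2.2.1).mp q.1.2.2.2).1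
    · have e : q.1.1.2 = y.1 := congrArg Subtype.val q.2
      rw [← e]
      exact ((h.key q.1.2.1 q.1.2.2.1).mp q.1.2.2.2).2.2
    · exact (h.key x.2.1 y.2.1).mpr ⟨x.2.2.1, y.2.2, x.2.2.2⟩
    · rintro ⟨⟨⟨a, b⟩, ha⟩, hb⟩
      have e : b = y.1 := congrArg Subtype.val hb
      subst e
      rfl
  rw [h1, h.n120]

theorem Dat.mul_tB {b : G} (hb : b ∈ B) : t * b = b * t := mem_cen.mp (h.B_le hb)

theorem Dat.t_not : t ∉ B := by
  intro hc
  have h1 : t ∈ V ⊓ B := ⟨h.tV, hc⟩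
  rw [h.VB.2.2.2.1, mem_bot] at h1
  exact h.tt.2 h1

/-- decomposition of `C(t)` -/
theorem Dat.dec {y : G} (hy : y * t = t * y) : ∃ v ∈ V, ∃ b ∈ B, y = v * b := by
  have h1 : y ∈ V ⊔ B := by rw [h.VB.2.2.2.2]; exact mem_cen.mpr hy.symm
  have h2 : V ≤ normalizer (B : Set G) := by
    intro v hv
    rw [mem_normalizer_iff]
    intro b
    constructor
    · intro hb
      rw [h.VB.2.2.1 v hv b hb, mul_inv_cancel_right]; exact hb
    · intro hb
      have h3 := h.VB.2.2.1 v⁻¹ (V.inv_mem hv) _ hb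
      have h4 : v⁻¹ * (v * b * v⁻¹) * (v⁻¹)⁻¹ = v * b * v⁻¹ := by rw [h3, mul_inv_cancel_right]
      have h5 : v⁻¹ * (v * b * v⁻¹) * (v⁻¹)⁻¹ = b := by group
      rw [h5] at h4
      rw [h4]; exact hb
  rw [sup_comm] at h1
  exact LocBase.exists_mul_of_mem_sup_of_le' h2 h1

omit h [Finite G] in
theorem mul_zpow_comm {a b : G} (hab : a * b = b * a) (n : ℤ) : (a * b) ^ n = a ^ n * b ^ n :=
  (show Commute a b from hab).mul_zpow n

theorem Dat.keyT {x y : G} (hx : IsConj z x) (hxt : x * t = t * x) (hy : IsConj t y) (hw : t ∈ zpowers (x * y)) :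
    t * y ∈ B ∧ (t * y) * (t * y) = 1 ∧ Odd (orderOf (x * (t * y))) := by
  have hx2 := (orderOf_two_iff x).mp ((orderOf_conj hx).trans h.hz)
  have hy2 := (orderOf_two_iff y).mp ((orderOf_conj hy).trans h.ht)
  have htt := h.tt
  obtain ⟨-, h2, -⟩ := comm_of_zpowers hx2.1 hy2.1 htt.1 hw
  obtain ⟨v, hv, b, hb, rfl⟩ := h.dec h2
  have hxB := h.mem_B hx hxt
  have hvb := h.VB.2.2.1 v hv b hb
  have hvx := h.VB.2.2.1 v hv x hxB
  have hxb : x * b ∈ B := B.mul_mem hxB hb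
  have hvxb := h.VB.2.2.1 v hv (x * b) hxb
  have e1 : x * (v * b) = v * (x * b) := by rw [← mul_assoc, ← hvx, mul_assoc]
  obtain ⟨n, hn⟩ := hw
  have hn' : (x * (v * b)) ^ n = t := hn
  rw [e1, mul_zpow_comm hvxb] at hn'
  have h3 : (x * b) ^ n = 1 := by
    have h4 : (x * b) ^ n ∈ V ⊓ B := by
      refine ⟨?_, B.zpow_mem hxb n⟩
      have : (x * b) ^ n = (v ^ n)⁻¹ * t := by rw [← hn']; group
      rw [this]
      exact V.mul_mem (V.inv_mem (V.zpow_mem hv n)) h.tV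
    rw [h.VB.2.2.2.1, mem_bot] at h4
    exact h4
  rw [h3, mul_one] at hn'
  have hv2 := h.V2 v hv
  have hvv : v ^ (2 : ℤ) = 1 := by exact_mod_cast hv2
  obtain ⟨k, hk⟩ : ∃ k : ℤ, n = 2 * k + 1 := by
    rcases Int.even_or_odd' n with ⟨k, hk | hk⟩
    · exfalso
      rw [hk, zpow_mul, hvv, one_zpow] at hn'
      exact htt.2 hn'.symm
    · exact ⟨k, hk⟩
  have hvt : v = t := by
    rw [hk, zpow_add, zpow_mul, hvv, one_zpow, one_mul, zpow_one] at hn'
    exact hn'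
  subst hvt
  have hvv' : v * v = 1 := by rw [← pow_two]; exact hv2
  have e2 : v * (v * b) = b := by rw [← mul_assoc, hvv', one_mul]
  rw [e2]
  refine ⟨hb, ?_, ?_⟩
  · have h5 := hy2.1
    have e3 : v * b * (v * b) = (v * v) * (b * b) := by
      calc v * b * (v * b) = v * (b * v) * b := by group
        _ = (v * v) * (b * b) := by rw [← hvb]; group
    rw [e3, hvv', one_mul] at h5
    exact h5
  · have h5 : (orderOf (x * b) : ℤ) ∣ n := orderOf_dvd_iff_zpow_eq_one.mpr h3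
    rw [hk] at h5
    rcases Nat.even_or_odd (orderOf (x * b)) with ho | ho
    · exfalso
      obtain ⟨m, hm⟩ := ho
      obtain ⟨c, hc⟩ := h5
      rw [hm] at hc
      push_cast at hc
      have h6 : ((m : ℤ) + m) * c = 2 * (m * c) := by ring
      rw [h6] at hc
      omega
    · exact ho

theorem Dat.keyT' {x b : G} (hx : IsConj z x) (hxt : x * t = t * x) (hb : b ∈ B) (hbb : b * b = 1)
    (ho : Odd (orderOf (x * b))) : IsConj t (t * b) ∧ t ∈ zpowers (x * (t * b)) := by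
  have htt := h.tt
  have htb := h.mul_tB hb
  have hxB := h.mem_B hx hxt
  have htxb := h.mul_tB (B.mul_mem hxB hb)
  constructor
  · refine (h.Ct (t * b) ?_ ?_ ?_).symm
    · rw [mem_cen, mul_assoc, htb]
    · rw [orderOf_two_iff]
      constructor
      · calc t * b * (t * b) = t * (b * t) * b := by group
          _ = (t * t) * (b * b) := by rw [← htb]; group
          _ = 1 := by rw [htt.1, hbb, one_mul]
      · intro e
        apply h.t_not
        rw [mul_eq_one_iff_eq_inv] at e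
        rw [e]; exact B.inv_mem hb
    · intro hc
      apply h.t_not
      have := B.mul_mem hc (B.inv_mem hb)
      rwa [mul_inv_cancel_right] at this
  · refine ⟨(orderOf (x * b) : ℕ), ?_⟩
    have e1 : x * (t * b) = t * (x * b) := by rw [← mul_assoc, hxt, mul_assoc]
    show (x * (t * b)) ^ ((orderOf (x * b) : ℕ) : ℤ) = t
    rw [e1, mul_zpow_comm htxb, zpow_natCast, zpow_natCast, pow_orderOf_eq_one, mul_one]
    obtain ⟨k, hk⟩ := ho
    rw [hk, pow_add, pow_mul, pow_two, htt.1, one_pow, one_mul, pow_one]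

/-- the pairs through `t` -/
theorem Dat.rt : Nat.card {q : G × G // IsConj z q.1 ∧ IsConj t q.2 ∧ t ∈ zpowers (q.1 * q.2)} = 195 := by
  obtain ⟨e⟩ := h.hB
  have hc : ∀ x y : G, IsConj z x → IsConj t y → t ∈ zpowers (x * y) → x * t = t * x := fun x y hx hy hw =>
    (comm_of_zpowers ((orderOf_two_iff x).mp ((orderOf_conj hx).trans h.hz)).1
      ((orderOf_two_iff y).mp ((orderOf_conj hy).trans h.ht)).1 h.tt.1 hw).1
  have h1 : Nat.card {q : G × G // IsConj z q.1 ∧ IsConj t q.2 ∧ t ∈ zpowers (q.1 * q.2)} =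
      Nat.card {x : G // IsConj z x ∧ x * t = t * x} * 13 := by
    refine card_fiber (fun q => (⟨q.1.1, q.2.1, hc _ _ q.2.1 q.2.2.1 q.2.2.2⟩ :
      {x : G // IsConj z x ∧ x * t = t * x})) 13 fun x => ?_
    obtain ⟨x, hx, hxt⟩ := x
    have hi2 : orderOf (⟨x, h.mem_B hx hxt⟩ : B) = 2 := by
      rw [← Subgroup.orderOf_coe]; exact (orderOf_conj hx).trans h.hz
    rw [← b3 e hi2]
    have hfst : ∀ q : {q : {q : G × G // IsConj z q.1 ∧ IsConj t q.2 ∧ t ∈ zpowers (q.1 * q.2)} //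
        (⟨q.1.1, q.2.1, hc _ _ q.2.1 q.2.2.1 q.2.2.2⟩ : {x : G // IsConj z x ∧ x * t = t * x}) = ⟨x, hx, hxt⟩},
        q.1.1.1 = x := fun q => congrArg Subtype.val q.2
    have hk : ∀ q : {q : {q : G × G // IsConj z q.1 ∧ IsConj t q.2 ∧ t ∈ zpowers (q.1 * q.2)} //
        (⟨q.1.1, q.2.1, hc _ _ q.2.1 q.2.2.1 q.2.2.2⟩ : {x : G // IsConj z x ∧ x * t = t * x}) = ⟨x, hx, hxt⟩},
        t * q.1.1.2 ∈ B ∧ (t * q.1.1.2) * (t * q.1.1.2) = 1 ∧ Odd (orderOf (x * (t * q.1.1.2))) := by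
      intro q
      have := h.keyT q.1.2.1 (hc _ _ q.1.2.1 q.1.2.2.1 q.1.2.2.2) q.1.2.2.1 q.1.2.2.2
      rwa [hfst q] at this
    refine Nat.card_congr ⟨fun q => ⟨⟨t * q.1.1.2, (hk q).1⟩, ?_, ?_⟩,
      fun b => ⟨⟨(x, t * b.1), hx, ?_, ?_⟩, rfl⟩, ?_, ?_⟩
    · exact Subtype.ext (hk q).2.1
    · rw [← Subgroup.orderOf_coe]; exact (hk q).2.2
    · exact (h.keyT' hx hxt b.1.2 (congrArg Subtype.val b.2.1) (by
        have := b.2.2
        rw [← Subgroup.orderOf_coe] at this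
        exact this)).1
    · exact (h.keyT' hx hxt b.1.2 (congrArg Subtype.val b.2.1) (by
        have := b.2.2
        rw [← Subgroup.orderOf_coe] at this
        exact this)).2
    · rintro ⟨⟨⟨a, b⟩, ha⟩, hb⟩
      have e : a = x := congrArg Subtype.val hb
      subst e
      apply Subtype.ext
      apply Subtype.ext
      apply Prod.ext
      · rfl
      · show t * (t * b) = b
        rw [← mul_assoc, h.tt.1, one_mul]
    · rintro ⟨⟨b, hb⟩, hb2⟩
      apply Subtype.ext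
      apply Subtype.ext
      show t * (t * b) = b
      rw [← mul_assoc, h.tt.1, one_mul]
  rw [h1, h.n15]

end Cfsg.Agent.Lib.H47HJ
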