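import Cfsg.Agent.Lib.H47HJ2
import Cfsg.Agent.Lib.ExtraspecialCount
import Cfsg.Agent.Lib.ExtraCount
import Cfsg.Agent.Lib.Layer
import Cfsg.Agent.Lib.LocMore

/-!
# The extraspecial group of order 32 with an automorphism of order five (helper47)
-/

set_option autoImplicit false

namespace Cfsg.Agent.Lib.H47HJ

open Subgroup
open scoped commutatorElement

variable {E : Type*} [Group E] [Finite E]

/-- fixed points of a map of order five -/
theorem modFive {α : Type*} [Finite α] (f : α → α) (h5 : ∀ x, f (f (f (f (f x)))) = x) :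
    Nat.card α % 5 = Nat.card {x : α // f x = x} % 5 := by
  classical
  have := Fintype.ofFinite α
  have hp : Fact (Nat.Prime 5) := ⟨by norm_num⟩
  have h1 := Equiv.Perm.card_fixedPoints_modEq (f := (f : Function.End α)) (p := 5) (n := 1) (by
    funext x
    exact h5 x)
  have h2 : Nat.card {x : α // f x = x} = Fintype.card (Function.fixedPoints (f : Function.End α)) := by
    rw [← Nat.card_eq_fintype_card]
    rfl
  rw [h2, Nat.card_eq_fintype_card]
  exact h1

set_option maxHeartbeats 1000000 in
theorem partA (hE : Cfsg.IsExtraspecial 2 E) (hcard : Nat.card E = 32) {z : E} (hz : orderOf z = 2)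
    (hzc : z ∈ center E) (f : MulAut E) (hf5 : ∀ x, f (f (f (f (f x)))) = x) (hfx : ∃ x, f x ≠ x) :
    (∀ a b : E, a * b = b * a ∨ a * b = z * (b * a)) ∧ Nat.card {q : E // q ^ 2 = 1} = 12 ∧
    ∀ a b : E, a * a = 1 → b * b = 1 → a ≠ 1 → a ≠ z → b ≠ 1 → b ≠ z → a * b = b * a → b = a ∨ b = a * z := by
  classical
  have hE2 := ExtraCount.Hyp.of_isExtraspecial hE
  obtain ⟨hzz, hz1⟩ := (orderOf_two_iff z).mp hz
  have h2p : Fact (Nat.Prime 2) := ⟨Nat.prime_two⟩
  -- the center
  have hcen : ∀ w ∈ center E, w = 1 ∨ w = z := by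
    intro w hw
    by_cases h1 : w = 1
    · exact Or.inl h1
    · exact Or.inr (hE2.eq_of_ne_one hw hzc h1 hz1)
  have hcomm : ∀ a b : E, a * b = b * a ∨ a * b = z * (b * a) := by
    intro a b
    have e : a * b = ⁅a, b⁆ * (b * a) := by rw [commutatorElement_def]; group
    rcases hcen _ (hE2.comm_mem a b) with h1 | h1
    · left; rw [e, h1, one_mul]
    · right; conv_lhs => rw [e, h1]
  have hcm : ∀ x : E, z * x = x * z := fun x => (mem_center_iff.mp hzc x).symm
  -- fixed points of `f`
  let F : Subgroup E :=
    { carrier := {x | f x = x}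
      mul_mem' := by
        intro a b ha hb
        show f (a * b) = a * b
        rw [map_mul, show f a = a from ha, show f b = b from hb]
      one_mem' := map_one f
      inv_mem' := by
        intro a ha
        show f a⁻¹ = a⁻¹
        rw [map_inv, show f a = a from ha] }
  have hfz : f z = z := by
    have h1 : f z ∈ center E := by
      rw [mem_center_iff]
      intro g
      obtain ⟨g, rfl⟩ := f.surjective g
      rw [← map_mul, ← map_mul, hcm]
    rcases hcen _ h1 with h2 | h2
    · exact absurd ((map_eq_one_iff f f.injective).mp h2) hz1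
    · exact h2
  have hF1 : Nat.card F ∣ 32 := by rw [← hcard]; exact Subgroup.card_subgroup_dvd_card F
  have hF2 : 32 % 5 = Nat.card F % 5 := by rw [← hcard]; exact modFive f hf5
  have hF3 : Nat.card F ≠ 32 := by
    intro h1
    have h2 : F = ⊤ := by rw [← Subgroup.card_eq_iff_eq_top, h1, hcard]
    obtain ⟨x, hx⟩ := hfx
    apply hx
    have : x ∈ F := by rw [h2]; exact mem_top x
    exact this
  have hF4 : Nat.card F = 2 := by
    have h1 : Nat.card F ∣ 2 ^ 5 := hF1
    obtain ⟨k, hk, hk2⟩ := (Nat.dvd_prime_pow Nat.prime_two).mp h1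
    rw [hk2] at hF2 hF3 ⊢
    interval_cases k <;> omega
  have hFz : ∀ x, f x = x → x = 1 ∨ x = z := by
    intro x hx
    by_contra hc
    push Not at hc
    have h1 : 2 < Nat.card F := by
      have h2 : ({(⟨1, F.one_mem⟩ : F), ⟨z, hfz⟩, ⟨x, hx⟩} : Finset F).card = 3 := by
        rw [Finset.card_insert_of_notMem, Finset.card_insert_of_notMem, Finset.card_singleton]
        · rw [Finset.mem_singleton, Subtype.mk.injEq]; exact hc.2.symm
        · rw [Finset.mem_insert, Finset.mem_singleton, Subtype.mk.injEq, Subtype.mk.injEq]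
          push Not
          exact ⟨hz1.symm, hc.1.symm⟩
      have := Fintype.ofFinite F
      rw [Nat.card_eq_fintype_card]
      have := Finset.card_le_univ ({(⟨1, F.one_mem⟩ : F), ⟨z, hfz⟩, ⟨x, hx⟩} : Finset F)
      omega
    omega
  -- the number of involutions
  have hI1 : Nat.card {q : E // q ^ 2 = 1} % 5 = 2 := by
    let f' : {q : E // q ^ 2 = 1} → {q : E // q ^ 2 = 1} := fun q => ⟨f q.1, by rw [← map_pow, q.2, map_one]⟩
    rw [modFive f' (fun x => Subtype.ext (hf5 x.1))]
    have h1 : Nat.card {x : {q : E // q ^ 2 = 1} // f' x = x} = Nat.card F := by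
      refine Nat.card_congr ⟨fun x => ⟨x.1.1, congrArg Subtype.val x.2⟩, fun x => ⟨⟨x.1, ?_⟩, Subtype.ext x.2⟩,
        fun x => rfl, fun x => rfl⟩
      rcases hFz x.1 x.2 with h1 | h1
      · rw [h1, one_pow]
      · rw [h1, pow_two, hzz]
    rw [h1, hF4]
  obtain ⟨z', hXS⟩ := Extraspecial.XS.of_extraspecial hE
  have hI2 : Nat.card {q : E // q ^ 2 = 1} = 12 := by
    obtain ⟨m, hm, h1⟩ := ExtraspecialCount.exists_count 32 E z' hXS hcard.le
    have hm2 : m = 2 := by
      rw [hcard] at hm
      have h2 : 2 ^ (2 * m + 1) = 2 ^ 5 := by rw [← hm]; norm_num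
      have h3 := Nat.pow_right_injective le_rfl h2
      omega
    subst hm2
    unfold ExtraspecialCount.inv at h1
    rcases h1 with h1 | ⟨-, h1⟩
    · rw [h1] at hI1; omega
    · omega
  refine ⟨hcomm, hI2, ?_⟩
  intro a b haa hbb ha1 haz hb1 hbz hab
  by_contra hcon
  push Not at hcon
  -- the elementary abelian group
  have hA : ∀ S : Set E, (∀ x ∈ S, ∀ y ∈ S, x * y = y * x) → (∀ x ∈ S, x * x = 1) →
      ∀ x ∈ closure S, x ^ 2 = 1 ∧ ∀ y ∈ closure S, x * y = y * x := by
    intro S h1 h2 x hx
    have hc : ∀ x ∈ closure S, ∀ y ∈ closure S, x * y = y * x := by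
      have h3 : closure S ≤ centralizer (S : Set E) := by
        rw [closure_le]
        intro x hx
        rw [SetLike.mem_coe, mem_centralizer_iff]
        intro y hy
        exact h1 y hy x hx
      have h4 : S ⊆ centralizer (closure S : Set E) := by
        intro y hy
        rw [SetLike.mem_coe, mem_centralizer_iff]
        intro x hx
        exact (mem_centralizer_iff.mp (h3 hx) y hy).symm
      intro x hx y hy
      have h5 : closure S ≤ centralizer (closure S : Set E) := by rw [closure_le]; exact h4
      exact (mem_centralizer_iff.mp (h5 hx) y hy).symm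
    refine ⟨?_, hc x hx⟩
    induction hx using closure_induction with
    | mem x hx => rw [pow_two]; exact h2 x hx
    | one => exact one_pow 2
    | mul x y hx hy ihx ihy => rw [(show Commute x y from hc x hx y hy).mul_pow, ihx, ihy, one_mul]
    | inv x hx ihx => rw [inv_pow, ihx, inv_one]
  set S : Set E := {a, b, z} with hS
  set A := closure S with hAdef
  have haA : a ∈ A := subset_closure (by simp [hS])
  have hbA : b ∈ A := subset_closure (by simp [hS])
  have hzA : z ∈ A := subset_closure (by simp [hS])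
  have hprop := hA S (by
    intro x hx y hy
    rcases hx with rfl | rfl | hx <;> rcases hy with rfl | rfl | hy
    · rfl
    · exact hab
    · rw [Set.mem_singleton_iff] at hy; rw [hy, hcm]
    · exact hab.symm
    · rfl
    · rw [Set.mem_singleton_iff] at hy; rw [hy, hcm]
    · rw [Set.mem_singleton_iff] at hx; rw [hx, hcm]
    · rw [Set.mem_singleton_iff] at hx; rw [hx, hcm]
    · rw [Set.mem_singleton_iff] at hx hy; rw [hx, hy]) (by
    intro x hx
    rcases hx with rfl | rfl | hx
    · exact haa
    · exact hbb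
    · rw [Set.mem_singleton_iff] at hx; rw [hx]; exact hzz)
  have h4 : 4 < Nat.card A := by
    have h2 : ({(⟨1, A.one_mem⟩ : A), ⟨z, hzA⟩, ⟨a, haA⟩, ⟨b, hbA⟩, ⟨a * z, A.mul_mem haA hzA⟩} : Finset A).card = 5 := by
      rw [Finset.card_insert_of_notMem, Finset.card_insert_of_notMem, Finset.card_insert_of_notMem,
        Finset.card_insert_of_notMem, Finset.card_singleton]
      · rw [Finset.mem_singleton, Subtype.mk.injEq]; exact hcon.2
      · rw [Finset.mem_insert, Finset.mem_singleton, Subtype.mk.injEq, Subtype.mk.injEq]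
        push Not
        refine ⟨fun e => hcon.1 e.symm, fun e => hz1 ?_⟩
        exact (mul_eq_left.mp e.symm)
      · rw [Finset.mem_insert, Finset.mem_insert, Finset.mem_singleton, Subtype.mk.injEq, Subtype.mk.injEq, Subtype.mk.injEq]
        push Not
        refine ⟨fun e => haz e.symm, fun e => hbz e.symm, fun e => ha1 ?_⟩
        exact mul_eq_right.mp e.symm
      · rw [Finset.mem_insert, Finset.mem_insert, Finset.mem_insert, Finset.mem_singleton, Subtype.mk.injEq,
          Subtype.mk.injEq, Subtype.mk.injEq, Subtype.mk.injEq]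
        push Not
        refine ⟨hz1.symm, ha1.symm, hb1.symm, fun e => haz ?_⟩
        have := mul_eq_one_iff_eq_inv.mp e.symm
        rw [this, inv_eq_iff_mul_eq_one, hzz]
    have := Fintype.ofFinite A
    rw [Nat.card_eq_fintype_card]
    have := Finset.card_le_univ ({(⟨1, A.one_mem⟩ : A), ⟨z, hzA⟩, ⟨a, haA⟩, ⟨b, hbA⟩, ⟨a * z, A.mul_mem haA hzA⟩} : Finset A)
    omega
  have h5 := hE2.card_centralizer_mul A
  have hAC : A ≤ centralizer (A : Set E) := by
    intro x hx
    rw [mem_centralizer_iff]
    intro y hy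
    exact ((hprop x hx).2 y hy).symm
  have h6 : Nat.card A ≤ Nat.card (centralizer (A : Set E)) := Subgroup.card_le_of_le hAC
  have h7 : Nat.card (A ⊓ center E : Subgroup E) ≤ 2 := by
    rw [← hE.2]; exact Subgroup.card_le_of_le inf_le_right
  have h8 : Nat.card A ∣ 2 ^ 5 := by
    have : Nat.card A ∣ Nat.card E := Subgroup.card_subgroup_dvd_card A
    rw [hcard] at this
    exact this
  have h9 : Nat.card A = 8 := by
    obtain ⟨k, hk, hk2⟩ := (Nat.dvd_prime_pow Nat.prime_two).mp h8
    rw [hcard] at h5
    have h10 : Nat.card A * Nat.card A ≤ 64 := by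
      calc Nat.card A * Nat.card A ≤ Nat.card (centralizer (A : Set E)) * Nat.card A := Nat.mul_le_mul_right _ h6
        _ ≤ 64 := by rw [h5]; omega
    rw [hk2] at h4 h10 ⊢
    interval_cases k <;> omega
  have h10 : centralizer (A : Set E) = A := by
    symm
    apply Subgroup.eq_of_le_of_card_ge hAC
    rw [h9, hcard] at h5
    rw [h9]
    omega
  have h11 := hE2.card_order_four A (fun x hx => (hprop x hx).1) h10
  rw [h9, hcard] at h11
  have h12 := ExtraspecialCount.card_split E
  unfold ExtraspecialCount.inv at h12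
  rw [hI2, hcard] at h12
  have h13 : Nat.card {x : E // ¬ x ^ 2 = 1} = Nat.card {x : E // orderOf x = 4} := by
    refine Nat.card_congr (Equiv.subtypeEquivRight fun x => ?_)
    constructor
    · intro hx
      have h14 : x ^ 2 ^ (1 + 1) = 1 := by
        have h15 := hE2.sq_mem x
        rcases hcen _ h15 with h16 | h16
        · exact absurd h16 hx
        · have : x ^ 2 ^ (1 + 1) = (x ^ 2) * (x ^ 2) := by rw [← pow_add]; rfl
          rw [this, h16, hzz]
      have := orderOf_eq_prime_pow (p := 2) (n := 1) (by rwa [pow_one]) h14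
      simpa using this
    · intro hx h14
      have := orderOf_dvd_of_pow_eq_one h14
      rw [hx] at this
      omega
  omega

end Cfsg.Agent.Lib.H47HJ
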