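import Cfsg.Agent.Lib.H47ZcH
import Cfsg.Agent.Lib.PGroupOdd
import Cfsg.Agent.Lib.H32PGroup

/-!
2-groups with an involution whose centralizer has order 4 (helper47, for S1232).
-/

set_option autoImplicit false
set_option linter.unusedSectionVars false

namespace Cfsg.Agent.Lib.H47Rk

open Subgroup

universe u

variable {M : Type u} [Group M] [Finite M]

/-- a cyclic subgroup of index two and a noncentral involution inverting it up to the involution -/
structure MCT (M : Type u) [Group M] (a r : M) : Prop where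
  cov : ∀ g : M, g ∈ zpowers r ∨ g * a ∈ zpowers r
  nm : a ∉ zpowers r
  nrm : ∀ i : ℤ, ∃ j : ℤ, a * r ^ i * a⁻¹ = r ^ j
  conj : ∀ i : ℤ, ∃ j : ℤ, r ^ j * a * (r ^ j)⁻¹ = r ^ (2 * i) * a
  ord : ∃ k : ℕ, 2 ≤ k ∧ orderOf r = 2 ^ k

theorem mct_of_rel {a x y : M} {k : ℕ} (hk : 2 ≤ k) (hx : orderOf x = 2 ^ k) (hM : Nat.card M = 2 ^ (k + 1))
    (m : ℤ) (hm : (2 ^ k : ℤ) ∣ m + 1 ∨ (3 ≤ k ∧ (2 ^ k : ℤ) ∣ m + 1 - 2 ^ (k - 1)))
    (hy : y * x * y⁻¹ = x ^ m) (hyx : y ∉ zpowers x) (hax : a ∉ zpowers x) : MCT M a x := by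
  have hidx : (zpowers x).index = 2 := by
    have h1 := (zpowers x).card_mul_index
    rw [Nat.card_zpowers, hx, hM, pow_succ] at h1
    exact Nat.eq_of_mul_eq_mul_left (by positivity) h1
  have hN : (zpowers x).Normal := normal_of_index_eq_two hidx
  have hmul : ∀ g h : M, g * h ∈ zpowers x ↔ (g ∈ zpowers x ↔ h ∈ zpowers x) := fun g h =>
    mul_mem_iff_of_index_two hidx
  have haya : a * y⁻¹ ∈ zpowers x := by
    rw [hmul, inv_mem_iff]; exact ⟨fun h => absurd h hax, fun h => absurd h hyx⟩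
  obtain ⟨i, hi⟩ := mem_zpowers_iff.mp haya
  have hconj : ∀ j : ℤ, a * x ^ j * a⁻¹ = x ^ (m * j) := by
    intro j
    have h1 : a = x ^ i * y := by rw [hi]; group
    have h2 : y * x ^ j * y⁻¹ = x ^ (m * j) := by
      rw [← conj_zpow, hy, ← zpow_mul]
    calc a * x ^ j * a⁻¹ = x ^ i * (y * x ^ j * y⁻¹) * (x ^ i)⁻¹ := by rw [h1]; group
      _ = x ^ (m * j) := by rw [h2]; group
  have hzero : ∀ n : ℤ, (2 ^ k : ℤ) ∣ n → x ^ n = 1 := by
    intro n hn
    rw [← orderOf_dvd_iff_zpow_eq_one, hx]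
    exact_mod_cast hn
  have hconj2 : ∀ j : ℤ, x ^ j * a * (x ^ j)⁻¹ = x ^ (j * (1 - m)) * a := by
    intro j
    have h1 : a * (x ^ j)⁻¹ = x ^ (m * (-j)) * a := by
      rw [← hconj (-j), zpow_neg]; group
    calc x ^ j * a * (x ^ j)⁻¹ = x ^ j * (a * (x ^ j)⁻¹) := by group
      _ = x ^ (j * (1 - m)) * a := by
        rw [h1, ← mul_assoc, ← zpow_add]; congr 2; ring
  refine ⟨fun g => ?_, hax, fun i => ⟨m * i, hconj i⟩, fun i => ?_, ⟨k, hk, hx⟩⟩
  · by_cases hg : g ∈ zpowers x
    · exact Or.inl hg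
    · right
      rw [hmul]; exact ⟨fun h => absurd h hg, fun h => absurd h hax⟩
  · rcases hm with hm | ⟨hk3, hm⟩
    · refine ⟨i, ?_⟩
      rw [hconj2]
      congr 1
      have h1 : i * (1 - m) = 2 * i + (-(i * (m + 1))) := by ring
      rw [h1, zpow_add, hzero (-(i * (m + 1))) (by
        rw [dvd_neg]; exact Dvd.dvd.mul_left hm i), mul_one]
    · refine ⟨i * (1 - 2 ^ (k - 2)), ?_⟩
      rw [hconj2]
      congr 1
      obtain ⟨c, hc⟩ := hm
      obtain ⟨l, rfl⟩ : ∃ l, k = l + 3 := ⟨k - 3, by omega⟩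
      have e1 : l + 3 - 1 = l + 2 := by omega
      have e2 : l + 3 - 2 = l + 1 := by omega
      rw [e1] at hc
      rw [e2]
      have h1 : i * (1 - 2 ^ (l + 1)) * (1 - m) = 2 * i +
          2 ^ (l + 3) * (i * (-1 + 2 ^ l - c * (1 - 2 ^ (l + 1)))) := by
        have h2 : m = 2 ^ (l + 3) * c - 1 + 2 ^ (l + 2) := by linarith
        rw [h2]
        ring
      rw [h1, zpow_add, hzero _ (Dvd.intro _ rfl), mul_one]

theorem mct_of (hM : IsPGroup 2 M) {a : M} (ha2 : a ^ 2 = 1) (ha1 : a ≠ 1)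
    (hc : Nat.card (centralizer ({a} : Set M)) ≤ 4) (h8 : 8 ≤ Nat.card M) : ∃ r : M, MCT M a r := by
  set T := centralizer ({a} : Set M) with hT
  have hmT : ∀ g : M, g ∈ T ↔ g * a = a * g := by
    intro g
    rw [hT, mem_centralizer_iff]
    constructor
    · intro h; exact (h a rfl).symm
    · intro h b hb
      rw [Set.mem_singleton_iff] at hb
      rw [hb]; exact h.symm
  have haT : a ∈ T := by rw [hmT]
  have hTlt : T < ⊤ := by
    rw [lt_top_iff_ne_top]
    intro h
    rw [h, Subgroup.card_top] at hc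
    omega
  have : Group.IsNilpotent M := hM.isNilpotent
  have hnorm : T < normalizer (T : Set M) :=
    Group.normalizerCondition_of_isNilpotent T hTlt
  obtain ⟨g, hgN, hgT⟩ := SetLike.exists_of_lt hnorm
  -- T has exponent two and order four
  have hcardT : ∃ m, Nat.card T = 2 ^ m := IsPGroup.iff_card.mp (hM.to_subgroup T)
  have h2T : 2 ≤ Nat.card T := by
    have h1 : orderOf a = 2 := orderOf_eq_prime ha2 ha1
    have h3 : zpowers a ≤ T := by rw [zpowers_le]; exact haT
    have h4 := Subgroup.card_le_of_le h3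
    rwa [Nat.card_zpowers, h1] at h4
  have hkey : ∀ x ∈ T, x = 1 ∨ x = a ∨ (x ^ 2 = 1 ∧ x ≠ 1 ∧ x ≠ a) := by
    by_contra hcon
    push Not at hcon
    obtain ⟨x, hxT, hx1, hxa, hx2⟩ := hcon
    have hx22 : x ^ 2 ≠ 1 := fun h => hxa (hx2 h hx1)
    -- then T = ⟨x⟩, x^2 = a
    have hx4 : orderOf x = 4 := by
      have h1 : orderOf x ∣ Nat.card T := by
        have := orderOf_dvd_natCard (⟨x, hxT⟩ : T)
        rwa [Subgroup.orderOf_mk] at this
      have h2 : orderOf x ≤ 4 := le_trans (Nat.le_of_dvd Nat.card_pos h1) hc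
      have h3 : orderOf x ≠ 1 := by rw [Ne, orderOf_eq_one_iff]; exact hx1
      have h4 : orderOf x ≠ 2 := by
        intro h; rw [← h, pow_orderOf_eq_one] at hx22; exact hx22 rfl
      have h5 : orderOf x ≠ 3 := by
        intro h
        obtain ⟨m, hm⟩ := hcardT
        rw [h, hm] at h1
        have := (Nat.prime_dvd_prime_iff_eq Nat.prime_three Nat.prime_two).mp
          (Nat.prime_three.dvd_of_dvd_pow h1)
        omega
      have h6 : 0 < orderOf x := orderOf_pos x
      omega
    have hTx : zpowers x = T := by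
      apply Subgroup.eq_of_le_of_card_ge
      · rw [zpowers_le]; exact hxT
      · rw [Nat.card_zpowers, hx4]; exact hc
    have hax : a = x ^ 2 := by
      have h1 : a ∈ zpowers x := by rw [hTx]; exact haT
      obtain ⟨i, hi⟩ := mem_zpowers_iff.mp h1
      have h2 : x ^ (2 * i) = 1 := by
        rw [mul_comm, zpow_mul, hi]; exact_mod_cast ha2
      rw [← orderOf_dvd_iff_zpow_eq_one, hx4] at h2
      have h3 : (2 : ℤ) ∣ i := by
        have : (2 : ℤ) * 2 ∣ 2 * i := by exact_mod_cast h2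
        exact (mul_dvd_mul_iff_left (by norm_num)).mp this
      obtain ⟨j, rfl⟩ := h3
      have h5 : x ^ (4 : ℤ) = 1 := by
        have := pow_orderOf_eq_one x
        rw [hx4] at this
        exact_mod_cast this
      rcases Int.even_or_odd' j with ⟨t, rfl | rfl⟩
      · exfalso
        apply ha1
        rw [← hi]
        have : (2 : ℤ) * (2 * t) = 4 * t := by ring
        rw [this, zpow_mul, h5, one_zpow]
      · rw [← hi]
        have : (2 : ℤ) * (2 * t + 1) = 4 * t + 2 := by ring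
        rw [this, zpow_add, zpow_mul, h5, one_zpow, one_mul]
        exact_mod_cast rfl
    apply hgT
    rw [hmT]
    -- g normalizes ⟨x⟩
    have h1 : g * x * g⁻¹ ∈ T := (mem_normalizer_iff.mp hgN x).mp hxT
    rw [← hTx] at h1
    obtain ⟨i, hi⟩ := mem_zpowers_iff.mp h1
    have h5 : x ^ (4 : ℤ) = 1 := by
      have := pow_orderOf_eq_one x
      rw [hx4] at this
      exact_mod_cast this
    have h2 : g * a * g⁻¹ = a := by
      have h3 : g * a * g⁻¹ = (x ^ (2 : ℤ)) ^ i := by
        rw [hax]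
        have : g * x ^ 2 * g⁻¹ = (g * x * g⁻¹) ^ 2 := by rw [conj_pow]
        rw [this, ← hi, ← zpow_natCast, ← zpow_mul, ← zpow_mul]
        congr 1
        push_cast; ring
      rcases Int.even_or_odd' i with ⟨t, rfl | rfl⟩
      · exfalso
        have h4 : g * a * g⁻¹ = 1 := by
          rw [h3, ← zpow_mul]
          have : (2 : ℤ) * (2 * t) = 4 * t := by ring
          rw [this, zpow_mul, h5, one_zpow]
        apply ha1
        have h6 : g * a = g := by
          calc g * a = g * a * g⁻¹ * g := by group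
            _ = g := by rw [h4, one_mul]
        exact mul_eq_left.mp h6
      · rw [h3, ← zpow_mul]
        have : (2 : ℤ) * (2 * t + 1) = 4 * t + 2 := by ring
        rw [this, zpow_add, zpow_mul, h5, one_zpow, one_mul, hax]
        exact_mod_cast rfl
    calc g * a = g * a * g⁻¹ * g := by group
      _ = a * g := by rw [h2]
  have hexp : ∀ x ∈ T, x ^ 2 = 1 := by
    intro x hx
    rcases hkey x hx with h | h | h
    · rw [h, one_pow]
    · rw [h]; exact ha2
    · exact h.1
  have h4T : Nat.card T = 4 := by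
    obtain ⟨m, hm⟩ := hcardT
    have h1 : m ≤ 2 := by
      by_contra hcon
      have : 2 ^ 3 ≤ 2 ^ m := Nat.pow_le_pow_right (by norm_num) (by omega)
      omega
    have h2 : m ≠ 0 := by rintro rfl; rw [hm] at h2T; norm_num at h2T
    have h3 : m ≠ 1 := by
      rintro rfl
      rw [pow_one] at hm
      -- T = ⟨a⟩
      have hTa : zpowers a = T := by
        apply Subgroup.eq_of_le_of_card_ge
        · rw [zpowers_le]; exact haT
        · rw [Nat.card_zpowers, orderOf_eq_prime ha2 ha1, hm]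
      apply hgT
      rw [hmT]
      have h1 : g * a * g⁻¹ ∈ T := (mem_normalizer_iff.mp hgN a).mp haT
      rw [← hTa] at h1
      obtain ⟨i, hi⟩ := mem_zpowers_iff.mp h1
      have h5 : a ^ (2 : ℤ) = 1 := by exact_mod_cast ha2
      rcases Int.even_or_odd' i with ⟨t, rfl | rfl⟩
      · exfalso
        rw [zpow_mul, h5, one_zpow] at hi
        apply ha1
        have h6 : g * a = g := by
          calc g * a = g * a * g⁻¹ * g := by group
            _ = g := by rw [← hi, one_mul]
        exact mul_eq_left.mp h6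
      · rw [zpow_add, zpow_mul, h5, one_zpow, one_mul, zpow_one] at hi
        calc g * a = g * a * g⁻¹ * g := by group
          _ = a * g := by rw [← hi]
    interval_cases m <;> simp_all
  -- self-centralizing
  have hCT : centralizer (T : Set M) ≤ T := by
    intro x hx
    rw [hmT]
    exact (mem_centralizer_iff.mp hx a haT).symm
  have hnox : ∀ x : M, 4 ≤ orderOf x → a ∉ zpowers x := by
    intro x hx ha
    obtain ⟨i, hi⟩ := mem_zpowers_iff.mp ha
    have h1 : x ∈ T := by
      rw [hmT, ← hi]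
      exact ((Commute.refl x).zpow_right i).eq
    have h2 := hexp x h1
    have h3 : orderOf x ∣ 2 := orderOf_dvd_of_pow_eq_one h2
    have := Nat.le_of_dvd (by norm_num) h3
    omega
  rcases Cfsg.Agent.Lib.H47Zc.dih_of hM h4T hexp hCT h8 with ⟨n, hn, ⟨e⟩⟩ | ⟨n, hn, hcn, x, y, hx, hy, hxy⟩
  · have : NeZero n := ⟨by omega⟩
    have hcn : Nat.card M = 2 * n := by rw [Nat.card_congr e.toEquiv, DihedralGroup.nat_card]
    obtain ⟨t, ht⟩ := IsPGroup.iff_card.mp hM
    have ht0 : 3 ≤ t := by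
      by_contra hcon
      have : 2 ^ t ≤ 2 ^ 2 := Nat.pow_le_pow_right (by norm_num) (by omega)
      omega
    obtain ⟨k, rfl⟩ : ∃ k, t = k + 1 := ⟨t - 1, by omega⟩
    have hnk : n = 2 ^ k := by
      rw [ht, pow_succ] at hcn; omega
    have hord : orderOf (e.symm (DihedralGroup.r 1)) = 2 ^ k := by
      rw [MulEquiv.orderOf_eq, DihedralGroup.orderOf_r_one, hnk]
    have h4k : 4 ≤ 2 ^ k := by
      calc 4 = 2 ^ 2 := by norm_num
        _ ≤ 2 ^ k := Nat.pow_le_pow_right (by norm_num) (by omega)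
    refine ⟨e.symm (DihedralGroup.r 1), mct_of_rel (y := e.symm (DihedralGroup.sr 0)) (k := k) (by omega)
      hord ht (-1) (Or.inl (by norm_num)) ?_ ?_ (hnox _ (by rw [hord]; exact h4k))⟩
    · apply e.injective
      simp
    · intro hcon
      obtain ⟨i, hi⟩ := mem_zpowers_iff.mp hcon
      have h1 := congrArg e hi
      simp at h1
  · have h8n : 8 ≤ 2 ^ n := by
      calc 8 = 2 ^ 3 := by norm_num
        _ ≤ 2 ^ n := Nat.pow_le_pow_right (by norm_num) hn
    have hpos : 1 ≤ 2 ^ (n - 1) := Nat.one_le_two_pow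
    refine ⟨x, mct_of_rel (y := y) (k := n) (by omega) hx hcn (2 ^ (n - 1) - 1) (Or.inr ⟨hn, ?_⟩) ?_ ?_
      (hnox _ (by rw [hx]; omega))⟩
    · ring_nf; exact dvd_zero _
    · rw [hxy, ← zpow_natCast, Nat.cast_sub hpos]
      push_cast; rfl
    · intro hcon
      obtain ⟨i, hi⟩ := mem_zpowers_iff.mp hcon
      have h1 : y * x * y⁻¹ = x := by
        rw [← hi]; group
      rw [hxy] at h1
      have h2 : x ^ (2 ^ (n - 1) - 2) = 1 := by
        have h3 : 2 ^ (n - 1) - 1 = (2 ^ (n - 1) - 2) + 1 := by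
          have : 2 ≤ 2 ^ (n - 1) := by
            calc 2 = 2 ^ 1 := by norm_num
              _ ≤ 2 ^ (n - 1) := Nat.pow_le_pow_right (by norm_num) (by omega)
          omega
        rw [h3, pow_succ] at h1
        exact mul_eq_right.mp h1
      have h3 := orderOf_dvd_of_pow_eq_one h2
      rw [hx] at h3
      have h4 : 2 ^ n = 2 * 2 ^ (n - 1) := by rw [← pow_succ']; congr 1; omega
      have h5 : 4 ≤ 2 ^ (n - 1) := by
        calc 4 = 2 ^ 2 := by norm_num
          _ ≤ 2 ^ (n - 1) := Nat.pow_le_pow_right (by norm_num) (by omega)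
      have := Nat.le_of_dvd (by omega) h3
      omega

end Cfsg.Agent.Lib.H47Rk
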