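import Cfsg.Agent.Lib.H47RkA

/-!
Elementary abelian sections of 2-groups (helper47, for S1232).
-/

set_option autoImplicit false
set_option linter.unusedSectionVars false

namespace Cfsg.Agent.Lib.H47Rk

open Subgroup

universe u

section gen
variable {S : Type u} [Group S] [Finite S]

/-- elementary abelian section -/
structure Sec (H K : Subgroup S) : Prop where
  le : K ≤ H
  comm : ∀ x ∈ H, ∀ y ∈ H, x * y * x⁻¹ * y⁻¹ ∈ K
  sq : ∀ x ∈ H, x ^ 2 ∈ K

theorem Sec.inf {H K : Subgroup S} (h : Sec H K) (T : Subgroup S) : Sec (H ⊓ T) (K ⊓ T) := by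
  refine ⟨inf_le_inf_right T h.le, fun x hx y hy => ⟨h.comm x hx.1 y hy.1, ?_⟩, fun x hx => ⟨h.sq x hx.1, pow_mem hx.2 2⟩⟩
  exact T.mul_mem (T.mul_mem (T.mul_mem hx.2 hy.2) (T.inv_mem hx.2)) (T.inv_mem hy.2)

theorem Sec.map {Γ : Type u} [Group Γ] [Finite Γ] {H K : Subgroup S} (h : Sec H K) (f : S →* Γ) :
    Sec (H.map f) (K.map f) := by
  refine ⟨Subgroup.map_mono h.le, ?_, ?_⟩
  · rintro _ ⟨x, hx, rfl⟩ _ ⟨y, hy, rfl⟩
    exact ⟨_, h.comm x hx y hy, by simp⟩
  · rintro _ ⟨x, hx, rfl⟩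
    exact ⟨_, h.sq x hx, by simp⟩

theorem card_le_fiber (H C : Subgroup S) {X : Type*} (T : Set X) [Finite T] (f : S → X)
    (hT : ∀ h ∈ H, f h ∈ T) (hf : ∀ x ∈ H, ∀ y ∈ H, f x = f y → x⁻¹ * y ∈ C) :
    Nat.card H ≤ Nat.card (H ⊓ C : Subgroup S) * Nat.card T := by
  have h1 := (C.subgroupOf H).card_eq_card_quotient_mul_card_subgroup
  have h2 : Nat.card (C.subgroupOf H) = Nat.card (H ⊓ C : Subgroup S) := by
    rw [← Subgroup.inf_subgroupOf_right C H, inf_comm C H]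
    exact Nat.card_congr (Subgroup.subgroupOfEquivOfLe (inf_le_left : H ⊓ C ≤ H)).toEquiv
  have h3 : Nat.card (H ⧸ C.subgroupOf H) ≤ Nat.card T := by
    apply Nat.card_le_card_of_injective (fun q : H ⧸ C.subgroupOf H => (⟨f (q.out : H), hT _ (q.out : H).2⟩ : T))
    intro q q' hqq
    have h4 : f ((q.out : H) : S) = f ((q'.out : H) : S) := congrArg Subtype.val hqq
    have h5 := hf _ (q.out : H).2 _ (q'.out : H).2 h4
    rw [← QuotientGroup.out_eq' q, ← QuotientGroup.out_eq' q', QuotientGroup.eq, Subgroup.mem_subgroupOf]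
    simpa using h5
  rw [h1, h2, mul_comm]
  exact Nat.mul_le_mul_left _ h3

theorem card_mul_rel {A B : Subgroup S} (h : A ≤ B) : Nat.card A * A.relIndex B = Nat.card B := by
  have h1 := relIndex_mul_relIndex ⊥ A B bot_le h
  rwa [relIndex_bot_left, relIndex_bot_left] at h1

theorem card_map_mul (H N : Subgroup S) [N.Normal] :
    Nat.card (H ⊓ N : Subgroup S) * Nat.card (H.map (QuotientGroup.mk' N)) = Nat.card H := by
  have h1 : N.relIndex H = Nat.card (H.map (QuotientGroup.mk' N)) := by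
    rw [← Subgroup.relIndex_ker, QuotientGroup.ker_mk']
  rw [← h1, inf_comm, ← Subgroup.inf_relIndex_right N H]
  exact card_mul_rel inf_le_right

/-- an element of a section -/
theorem Sec.card_le_of_mem {H K : Subgroup S} (h : Sec H K) {a : S} (ha : a ∈ H) :
    Nat.card H ≤ Nat.card (H ⊓ centralizer ({a} : Set S) : Subgroup S) * Nat.card K := by
  apply card_le_fiber H (centralizer ({a} : Set S)) (K : Set S) (fun x => x * a * x⁻¹ * a⁻¹)
  · intro x hx; exact h.comm x hx a ha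
  · intro x hx y hy hxy
    rw [mem_centralizer_iff]
    intro b hb
    rw [Set.mem_singleton_iff] at hb
    subst hb
    have h1 : x * b * x⁻¹ = y * b * y⁻¹ := mul_right_cancel hxy
    calc b * (x⁻¹ * y) = x⁻¹ * (x * b * x⁻¹) * y := by group
      _ = x⁻¹ * y * b := by rw [h1]; group

theorem card_le_two_mul (H C : Subgroup S) (h : ∀ x ∈ H, ∀ y ∈ H, x ∉ C → y ∉ C → x⁻¹ * y ∈ C) :
    Nat.card H ≤ 2 * Nat.card (H ⊓ C : Subgroup S) := by
  classical
  have h1 := card_le_fiber H C (Set.univ : Set Bool) (fun x => decide (x ∈ C)) (fun _ _ => Set.mem_univ _) (by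
    intro x hx y hy hxy
    by_cases hxC : x ∈ C
    · have hyC : y ∈ C := by
        by_contra hy'
        simp [hxC, hy'] at hxy
      exact mul_mem (inv_mem hxC) hyC
    · have hyC : y ∉ C := by
        intro hy'
        simp [hxC, hy'] at hxy
      exact h x hx y hy hxC hyC)
  have h2 : Nat.card (Set.univ : Set Bool) = 2 := by simp
  rw [h2] at h1
  omega

theorem Sec.of_cyclic {H K : Subgroup S} (h : Sec H K) {r : S} (hr : H ≤ zpowers r) :
    Nat.card H ≤ 2 * Nat.card K := by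
  obtain ⟨n, hn⟩ : ∃ w : S, zpowers w = H := by
    have h1 : IsCyclic H := by
      have : IsCyclic (zpowers r) := inferInstance
      exact isCyclic_of_injective (Subgroup.inclusion hr) (Subgroup.inclusion_injective hr)
    obtain ⟨w, hw⟩ := h1.exists_generator
    refine ⟨w, ?_⟩
    apply le_antisymm
    · rw [zpowers_le]; exact w.2
    · intro x hx
      obtain ⟨i, hi⟩ := mem_zpowers_iff.mp (hw ⟨x, hx⟩)
      rw [mem_zpowers_iff]
      exact ⟨i, by simpa using congrArg Subtype.val hi⟩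
  have hwH : n ∈ H := by rw [← hn]; exact mem_zpowers n
  have h2 := h.sq n hwH
  have h3 : (H ⊓ K : Subgroup S) = K := inf_eq_right.mpr h.le
  rw [← h3]
  apply card_le_two_mul
  intro x hx y hy hxK hyK
  rw [← hn] at hx hy
  obtain ⟨i, rfl⟩ := mem_zpowers_iff.mp hx
  obtain ⟨j, rfl⟩ := mem_zpowers_iff.mp hy
  have hev : ∀ t : ℤ, n ^ (2 * t) ∈ K := by
    intro t
    rw [zpow_mul]
    exact zpow_mem (by exact_mod_cast h2) t
  rcases Int.even_or_odd' i with ⟨i', rfl | rfl⟩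
  · exact absurd (hev i') hxK
  rcases Int.even_or_odd' j with ⟨j', rfl | rfl⟩
  · exact absurd (hev j') hyK
  rw [← zpow_neg, ← zpow_add]
  have : -(2 * i' + 1) + (2 * j' + 1) = 2 * (j' - i') := by ring
  rw [this]
  exact hev _

end gen

/-- ambient version of `MCT` -/
structure MCS {Γ : Type u} [Group Γ] (M : Subgroup Γ) (a r : Γ) : Prop where
  ra : a ∈ M
  rr : r ∈ M
  cov : ∀ g ∈ M, g ∈ zpowers r ∨ g * a ∈ zpowers r
  nm : a ∉ zpowers r
  nrm : ∀ i : ℤ, ∃ j : ℤ, a * r ^ i * a⁻¹ = r ^ j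
  conj : ∀ i : ℤ, ∃ j : ℤ, r ^ j * a * (r ^ j)⁻¹ = r ^ (2 * i) * a
  ord : ∃ k : ℕ, 2 ≤ k ∧ orderOf r = 2 ^ k

section mcs
variable {Γ : Type u} [Group Γ] [Finite Γ]

theorem mcs_of {M : Subgroup Γ} (hM : IsPGroup 2 M) {a : Γ} (haM : a ∈ M) (ha2 : a ^ 2 = 1) (ha1 : a ≠ 1)
    (hc : Nat.card (M ⊓ centralizer ({a} : Set Γ) : Subgroup Γ) ≤ 4) (h8 : 8 ≤ Nat.card M) :
    ∃ r, MCS M a r := by
  have h1 : Nat.card (centralizer ({(⟨a, haM⟩ : M)} : Set M)) ≤ 4 := by
    refine le_trans ?_ hc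
    have h2 : (centralizer ({(⟨a, haM⟩ : M)} : Set M)).map M.subtype ≤ M ⊓ centralizer ({a} : Set Γ) := by
      rintro _ ⟨x, hx, rfl⟩
      refine ⟨x.2, ?_⟩
      change (x : Γ) ∈ centralizer ({a} : Set Γ)
      rw [mem_centralizer_iff]
      intro b hb
      rw [Set.mem_singleton_iff] at hb
      subst hb
      exact congrArg Subtype.val (mem_centralizer_iff.mp hx _ rfl)
    have h3 := Subgroup.card_le_of_le h2
    rwa [Subgroup.card_subtype] at h3
  obtain ⟨r, hr⟩ := mct_of hM (a := ⟨a, haM⟩) (by ext; simpa using ha2)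
    (fun h => ha1 (congrArg Subtype.val h)) h1 h8
  have hz : ∀ g : M, g ∈ zpowers r ↔ (g : Γ) ∈ zpowers (r : Γ) := by
    intro g
    constructor
    · intro h
      obtain ⟨i, hi⟩ := mem_zpowers_iff.mp h
      exact mem_zpowers_iff.mpr ⟨i, by rw [← hi]; simp⟩
    · intro h
      obtain ⟨i, hi⟩ := mem_zpowers_iff.mp h
      exact mem_zpowers_iff.mpr ⟨i, Subtype.ext (by rw [← hi]; simp)⟩
  refine ⟨r, haM, r.2, fun g hg => ?_, ?_, fun i => ?_, fun i => ?_, ?_⟩
  · rcases hr.cov ⟨g, hg⟩ with h | h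
    · exact Or.inl ((hz _).mp h)
    · exact Or.inr ((hz _).mp h)
  · intro h; exact hr.nm ((hz _).mpr h)
  · obtain ⟨j, hj⟩ := hr.nrm i
    exact ⟨j, by simpa using congrArg Subtype.val hj⟩
  · obtain ⟨j, hj⟩ := hr.conj i
    exact ⟨j, by simpa using congrArg Subtype.val hj⟩
  · obtain ⟨k, hk, h⟩ := hr.ord
    exact ⟨k, hk, by rw [Subgroup.orderOf_coe]; exact h⟩

theorem MCS.mul_mem' {M : Subgroup Γ} {a r : Γ} (h : MCS M a r) {x y : Γ} (hx : x ∈ M) (hy : y ∈ M)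
    (hxr : x ∉ zpowers r) (hyr : y ∉ zpowers r) : x⁻¹ * y ∈ zpowers r := by
  rcases h.cov x hx with h1 | h1
  · exact absurd h1 hxr
  rcases h.cov y hy with h2 | h2
  · exact absurd h2 hyr
  obtain ⟨i, hi⟩ := mem_zpowers_iff.mp h1
  obtain ⟨j, hj⟩ := mem_zpowers_iff.mp h2
  obtain ⟨t, ht⟩ := h.nrm (-i + j)
  have e : x⁻¹ * y = a * r ^ (-i + j) * a⁻¹ := by
    rw [zpow_add, zpow_neg, hi, hj]; group
  rw [e, ht]
  exact zpow_mem (mem_zpowers r) t

theorem MCS.card_le {M : Subgroup Γ} {a r : Γ} (h : MCS M a r) {U V : Subgroup Γ} (hs : Sec U V) (hU : U ≤ M) :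
    Nat.card U ≤ 4 * Nat.card V := by
  have h1 : Nat.card U ≤ 2 * Nat.card (U ⊓ zpowers r : Subgroup Γ) :=
    card_le_two_mul U (zpowers r) (fun x hx y hy hxr hyr => h.mul_mem' (hU hx) (hU hy) hxr hyr)
  have h2 : Nat.card (U ⊓ zpowers r : Subgroup Γ) ≤ 2 * Nat.card (V ⊓ zpowers r : Subgroup Γ) :=
    (hs.inf (zpowers r)).of_cyclic inf_le_right
  have h3 : Nat.card (V ⊓ zpowers r : Subgroup Γ) ≤ Nat.card V := Subgroup.card_le_of_le inf_le_left
  omega

end mcs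

end Cfsg.Agent.Lib.H47Rk
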