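import Cfsg.Agent.Lib.H47RkB

/-!
Harada: the context (helper47, for S1232).
-/

set_option autoImplicit false
set_option linter.unusedSectionVars false

namespace Cfsg.Agent.Lib.H47Rk

open Subgroup

universe u

section cyc
variable {Γ : Type u} [Group Γ] [Finite Γ]

theorem invol_unique {r : Γ} {k : ℕ} (hk : 1 ≤ k) (hr : orderOf r = 2 ^ k) {x : Γ} (hx : x ∈ zpowers r)
    (h2 : x ^ 2 = 1) (h1 : x ≠ 1) : x = r ^ (2 ^ (k - 1)) := by
  obtain ⟨i, rfl⟩ := mem_zpowers_iff.mp hx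
  obtain ⟨l, rfl⟩ : ∃ l, k = l + 1 := ⟨k - 1, by omega⟩
  have h3 : r ^ (i * 2) = 1 := by rw [zpow_mul]; exact_mod_cast h2
  rw [← orderOf_dvd_iff_zpow_eq_one, hr] at h3
  have h4 : (2 ^ l : ℤ) ∣ i := by
    have h5 : (2 ^ l * 2 : ℤ) ∣ i * 2 := by
      have : ((2 ^ (l + 1) : ℕ) : ℤ) = 2 ^ l * 2 := by push_cast; ring
      rwa [this] at h3
    exact (mul_dvd_mul_iff_right (by norm_num)).mp h5
  obtain ⟨t, rfl⟩ := h4
  have h6 : r ^ (2 ^ (l + 1) : ℤ) = 1 := by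
    have := pow_orderOf_eq_one r
    rw [hr] at this
    exact_mod_cast this
  rcases Int.even_or_odd' t with ⟨t', rfl | rfl⟩
  · exfalso
    apply h1
    have : (2 : ℤ) ^ l * (2 * t') = 2 ^ (l + 1) * t' := by ring
    rw [this, zpow_mul, h6, one_zpow]
  · have : (2 : ℤ) ^ l * (2 * t' + 1) = 2 ^ (l + 1) * t' + 2 ^ l := by ring
    rw [this, zpow_add, zpow_mul, h6, one_zpow, one_mul]
    have e : l + 1 - 1 = l := by omega
    rw [e]
    exact_mod_cast rfl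

theorem exists_pow_invol {r : Γ} {k : ℕ} (hr : orderOf r = 2 ^ k) {x : Γ} (hx : x ∈ zpowers r)
    (h1 : x ≠ 1) : ∃ n : ℕ, x ^ n = r ^ (2 ^ (k - 1)) := by
  have h2 : orderOf x ∣ 2 ^ k := by
    rw [← hr, ← Nat.card_zpowers, ← Nat.card_zpowers]
    exact Subgroup.card_dvd_of_le (by rw [zpowers_le]; exact hx)
  obtain ⟨l, hl, hl2⟩ := (Nat.dvd_prime_pow Nat.prime_two).mp h2
  have hl0 : l ≠ 0 := by
    rintro rfl
    rw [pow_zero, orderOf_eq_one_iff] at hl2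
    exact h1 hl2
  have hk : 1 ≤ k := by omega
  refine ⟨2 ^ (l - 1), invol_unique hk hr (pow_mem hx _) ?_ ?_⟩
  · rw [← pow_mul, ← pow_succ]
    have : l - 1 + 1 = l := by omega
    rw [this, ← hl2, pow_orderOf_eq_one]
  · intro h
    have h3 := orderOf_dvd_of_pow_eq_one h
    rw [hl2] at h3
    have := (Nat.pow_dvd_pow_iff_le_right (by norm_num)).mp h3
    omega

theorem invol_ne_one {r : Γ} {k : ℕ} (hk : 1 ≤ k) (hr : orderOf r = 2 ^ k) : r ^ (2 ^ (k - 1)) ≠ 1 := by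
  intro h
  have h3 := orderOf_dvd_of_pow_eq_one h
  rw [hr] at h3
  have := (Nat.pow_dvd_pow_iff_le_right (by norm_num)).mp h3
  omega

end cyc

variable {S : Type u} [Group S] [Finite S]

structure Ctx (E P : Subgroup S) (a c₀ : S) : Prop where
  hS : IsPGroup 2 S
  hE : E.Normal
  hEc : ∀ x ∈ E, ∀ y ∈ E, x * y = y * x
  hE2 : ∀ x ∈ E, x ^ 2 = 1
  hE8 : Nat.card E = 8
  ha2 : a ^ 2 = 1
  hPE : P ≤ E
  hP4 : Nat.card P = 4
  hPa : ∀ e ∈ E, e * a = a * e ↔ e ∈ P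
  hc0 : c₀ ∈ P
  hc1 : c₀ ≠ 1
  hac : ∀ e ∈ E, e ∉ P → a * e * a⁻¹ = e * c₀
  hA : ∀ g : S, (∀ p ∈ P, g * p = p * g) → g * a = a * g → g ∈ P ∨ g * a ∈ P

theorem mem_cent {E : Subgroup S} {c : S} : c ∈ centralizer (E : Set S) ↔ ∀ e ∈ E, c * e = e * c := by
  rw [mem_centralizer_iff]
  exact ⟨fun h e he => (h e he).symm, fun h e he => (h e he).symm⟩

theorem pi_eq {E : Subgroup S} [E.Normal] {x y : S} :
    QuotientGroup.mk' E x = QuotientGroup.mk' E y ↔ x⁻¹ * y ∈ E := QuotientGroup.eq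

theorem pi_one {E : Subgroup S} [E.Normal] {x : S} :
    QuotientGroup.mk' E x = 1 ↔ x ∈ E := by
  rw [← MonoidHom.mem_ker, QuotientGroup.ker_mk']

namespace Ctx

variable {E P : Subgroup S} {a c₀ : S}

theorem ainv (h : Ctx E P a c₀) : a⁻¹ = a := by
  rw [inv_eq_iff_mul_eq_one, ← pow_two]; exact h.ha2

theorem EC (h : Ctx E P a c₀) : E ≤ centralizer (E : Set S) := fun x hx => mem_cent.mpr (h.hEc x hx)

theorem exE (h : Ctx E P a c₀) : ∃ e ∈ E, e ∉ P := by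
  by_contra hcon
  push Not at hcon
  have h1 : E ≤ P := hcon
  have := Subgroup.card_le_of_le h1
  rw [h.hE8, h.hP4] at this
  omega

theorem aC (h : Ctx E P a c₀) : a ∉ centralizer (E : Set S) := by
  intro hc
  obtain ⟨e, he, heP⟩ := h.exE
  exact heP ((h.hPa e he).mp ((mem_cent.mp hc e he).symm))

theorem aE (h : Ctx E P a c₀) : a ∉ E := fun hc => h.aC (h.EC hc)

theorem F0 (h : Ctx E P a c₀) {c : S} (hc : c ∈ centralizer (E : Set S)) (hca : c * a = a * c) : c ∈ P := by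
  rcases h.hA c (fun p hp => mem_cent.mp hc p (h.hPE hp)) hca with h1 | h1
  · exact h1
  · exfalso
    apply h.aC
    have h2 : a = c⁻¹ * (c * a) := by group
    rw [h2]
    exact mul_mem (inv_mem hc) (h.EC (h.hPE h1))

theorem CG (h : Ctx E P a c₀) : centralizer (E : Set S) ≤ centralizer (P : Set S) := fun x hx =>
  mem_cent.mpr (fun p hp => mem_cent.mp hx p (h.hPE hp))

theorem aG (h : Ctx E P a c₀) : a ∈ centralizer (P : Set S) :=
  mem_cent.mpr (fun p hp => ((h.hPa p (h.hPE hp)).mpr hp).symm)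

theorem Cn (h : Ctx E P a c₀) : (centralizer (E : Set S)).Normal := by
  have := h.hE
  refine ⟨fun c hc g => mem_cent.mpr fun e he => ?_⟩
  have h1 : g⁻¹ * e * g ∈ E := by simpa using h.hE.conj_mem e he g⁻¹
  have h2 := mem_cent.mp hc _ h1
  calc g * c * g⁻¹ * e = g * (c * (g⁻¹ * e * g)) * g⁻¹ := by group
    _ = e * (g * c * g⁻¹) := by rw [h2]; group

theorem c0sq (h : Ctx E P a c₀) : c₀ * c₀ = 1 := by
  rw [← pow_two]; exact h.hE2 c₀ (h.hPE h.hc0)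

/-- commutators of `a` lying in `E` lie in `P` -/
theorem commP (h : Ctx E P a c₀) {g : S} (hg : g * a * g⁻¹ * a⁻¹ ∈ E) : g * a * g⁻¹ * a⁻¹ ∈ P := by
  rw [← h.hPa _ hg]
  have h1 : (g * a * g⁻¹ * a⁻¹)⁻¹ = g * a * g⁻¹ * a⁻¹ := by
    rw [inv_eq_iff_mul_eq_one, ← pow_two]; exact h.hE2 _ hg
  have h2 := h.ainv
  calc g * a * g⁻¹ * a⁻¹ * a = (g * a * g⁻¹ * a⁻¹)⁻¹ * a := by rw [h1]
    _ = a * (g * a⁻¹ * g⁻¹ * a) := by group
    _ = a * (g * a * g⁻¹ * a⁻¹) := by rw [h2]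

theorem card_CG (h : Ctx E P a c₀) :
    Nat.card (centralizer (P : Set S) ⊓ centralizer ({a} : Set S) : Subgroup S) ≤ 8 := by
  have h1 := card_le_two_mul (centralizer (P : Set S) ⊓ centralizer ({a} : Set S)) P (by
    intro x hx y hy hxP hyP
    have hx2 : x * a = a * x := (mem_centralizer_iff.mp hx.2 a rfl).symm
    have hy2 : y * a = a * y := (mem_centralizer_iff.mp hy.2 a rfl).symm
    have hx3 := (h.hA x (mem_cent.mp hx.1) hx2).resolve_left hxP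
    have hy3 := (h.hA y (mem_cent.mp hy.1) hy2).resolve_left hyP
    have h4 : (x * a)⁻¹ * (y * a) ∈ P := mul_mem (inv_mem hx3) hy3
    have h5 := (h.hPa _ (h.hPE h4)).mpr h4
    have h6 : x⁻¹ * y = (x * a)⁻¹ * (y * a) := by
      calc x⁻¹ * y = a * ((x * a)⁻¹ * (y * a)) * a⁻¹ := by group
        _ = (x * a)⁻¹ * (y * a) := by rw [← h5]; group
    rw [h6]; exact h4)
  have h2 : Nat.card (centralizer (P : Set S) ⊓ centralizer ({a} : Set S) ⊓ P : Subgroup S) ≤ Nat.card P :=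
    Subgroup.card_le_of_le inf_le_right
  rw [h.hP4] at h2
  omega

theorem card4 (h : Ctx E P a c₀) [E.Normal] :
    Nat.card ((centralizer (P : Set S)).map (QuotientGroup.mk' E) ⊓
      centralizer ({QuotientGroup.mk' E a} : Set (S ⧸ E)) : Subgroup (S ⧸ E)) ≤ 4 := by
  set π := QuotientGroup.mk' E with hπ
  set Y := centralizer (P : Set S) ⊓ (centralizer ({π a} : Set (S ⧸ E))).comap π with hY
  have h1 : (centralizer (P : Set S)).map π ⊓ centralizer ({π a} : Set (S ⧸ E)) ≤ Y.map π := by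
    rintro _ ⟨⟨g, hg, rfl⟩, hg2⟩
    exact ⟨g, ⟨hg, hg2⟩, rfl⟩
  have h2 := Subgroup.card_le_of_le h1
  have h3 := card_map_mul Y E
  have h4 : Y ⊓ E = E := by
    apply inf_eq_right.mpr
    intro e he
    refine ⟨h.CG (h.EC he), ?_⟩
    change π e ∈ centralizer ({π a} : Set (S ⧸ E))
    rw [show π e = 1 from pi_one.mpr he]
    exact one_mem _
  rw [h4, h.hE8, ← hπ] at h3
  have h5 := card_le_fiber Y (centralizer ({a} : Set S)) (P : Set S) (fun x => x * a * x⁻¹ * a⁻¹) (by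
      intro x hx
      apply h.commP
      have hx2 : π x * π a = π a * π x := (mem_centralizer_iff.mp hx.2 (π a) rfl).symm
      rw [← pi_one (E := E), map_mul, map_mul, map_mul, ← hπ, hx2]
      simp) (by
      intro x hx y hy hxy
      rw [mem_centralizer_iff]
      intro b hb
      rw [Set.mem_singleton_iff] at hb
      subst hb
      have h1 : x * b * x⁻¹ = y * b * y⁻¹ := mul_right_cancel hxy
      calc b * (x⁻¹ * y) = x⁻¹ * (x * b * x⁻¹) * y := by group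
        _ = x⁻¹ * y * b := by rw [h1]; group)
  have h6 : Nat.card (Y ⊓ centralizer ({a} : Set S) : Subgroup S) ≤ 8 := by
    refine le_trans (Subgroup.card_le_of_le ?_) h.card_CG
    exact inf_le_inf_right _ inf_le_left
  have h7 : Nat.card (P : Set S) = 4 := h.hP4
  rw [h7] at h5
  have h8 : Nat.card Y ≤ 32 := le_trans h5 (by omega)
  omega

theorem pgr (h : Ctx E P a c₀) [E.Normal] (T : Subgroup (S ⧸ E)) : IsPGroup 2 T := (h.hS.to_quotient E).to_subgroup T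

theorem ex_mcs (h : Ctx E P a c₀) [E.Normal]
    (h8 : 8 ≤ Nat.card ((centralizer (P : Set S)).map (QuotientGroup.mk' E))) :
    ∃ r, MCS ((centralizer (P : Set S)).map (QuotientGroup.mk' E)) (QuotientGroup.mk' E a) r :=
  mcs_of (h.pgr _) ⟨a, h.aG, rfl⟩ (by rw [← map_pow, h.ha2, map_one])
    (fun h1 => h.aE (pi_one.mp h1)) h.card4 h8

/-- sections of `C(P)/E` -/
theorem sec4 (h : Ctx E P a c₀) [E.Normal] {U V : Subgroup (S ⧸ E)} (hs : Sec U V)
    (hU : U ≤ (centralizer (P : Set S)).map (QuotientGroup.mk' E)) : Nat.card U ≤ 4 * Nat.card V := by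
  by_cases h8 : 8 ≤ Nat.card ((centralizer (P : Set S)).map (QuotientGroup.mk' E))
  · obtain ⟨r, hr⟩ := h.ex_mcs h8
    exact hr.card_le hs hU
  · have h1 := Subgroup.card_le_of_le hU
    obtain ⟨n, hn⟩ := IsPGroup.iff_card.mp (h.pgr ((centralizer (P : Set S)).map (QuotientGroup.mk' E)))
    have h2 : n ≤ 2 := by
      by_contra hcon
      have : 2 ^ 3 ≤ 2 ^ n := Nat.pow_le_pow_right (by norm_num) (by omega)
      omega
    have h3 : 2 ^ n ≤ 2 ^ 2 := Nat.pow_le_pow_right (by norm_num) h2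
    have h4 : 0 < Nat.card V := Nat.card_pos
    omega

theorem core (h : Ctx E P a c₀) [E.Normal] {r : S ⧸ E}
    (hm : MCS ((centralizer (P : Set S)).map (QuotientGroup.mk' E)) (QuotientGroup.mk' E a) r)
    {k : ℕ} (hk : 2 ≤ k) (hord : orderOf r = 2 ^ k) {y : S} (hy : y ∈ centralizer (E : Set S))
    (hyr : QuotientGroup.mk' E y ∉ zpowers r) :
    ∃ s ∈ centralizer (E : Set S), QuotientGroup.mk' E s = r ^ (2 ^ (k - 1)) ∧
      s⁻¹ * y⁻¹ * s * y ∈ E ∧ s⁻¹ * y⁻¹ * s * y ≠ 1 ∧ s⁻¹ * y⁻¹ * s * y ≠ c₀ ∧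
      (∃ n : ℕ, s = (y * (a * y * a⁻¹)) ^ n) ∧
      (∃ m : ℤ, QuotientGroup.mk' E y * QuotientGroup.mk' E a = r ^ (2 * m + 1)) := by
  set π := QuotientGroup.mk' E with hπ
  have hai := h.ainv
  have hCn := h.Cn
  have hpa : π a * π a = 1 := by rw [← map_mul, ← pow_two, h.ha2, map_one]
  -- the odd exponent
  obtain ⟨m, hm1⟩ : ∃ m : ℤ, π y * π a = r ^ (2 * m + 1) := by
    have h1 := (hm.cov (π y) ⟨y, h.CG hy, rfl⟩).resolve_left hyr
    obtain ⟨i, hi⟩ := mem_zpowers_iff.mp h1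
    rcases Int.even_or_odd' i with ⟨i', rfl | rfl⟩
    · exfalso
      obtain ⟨j, hj⟩ := hm.conj i'
      have h2 : π y = r ^ j * π a * (r ^ j)⁻¹ := by
        rw [hj, hi, mul_assoc, hpa, mul_one]
      obtain ⟨x, hx⟩ := QuotientGroup.mk'_surjective E (r ^ j)
      have h3 : π a = π (x⁻¹ * y * x) := by
        rw [map_mul, map_mul, map_inv, h2, ← hπ] at *
        rw [hx]; group
      apply h.aC
      have h4 : x⁻¹ * y * x ∈ centralizer (E : Set S) := by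
        simpa using hCn.conj_mem y hy x⁻¹
      have h5 := pi_eq.mp h3
      have h6 : a = (x⁻¹ * y * x) * (a⁻¹ * (x⁻¹ * y * x))⁻¹ := by group
      rw [h6]
      exact mul_mem h4 (inv_mem (h.EC h5))
    · exact ⟨i', hi.symm⟩
  set u := y * (a * y * a⁻¹) with hu
  have huC : u ∈ centralizer (E : Set S) := mul_mem hy (hCn.conj_mem y hy a)
  have hpu : π u = r ^ (2 * (2 * m + 1)) := by
    have h1 : π u = (π y * π a) * (π y * π a) := by
      have : (π a)⁻¹ = π a := by rw [inv_eq_iff_mul_eq_one]; exact hpa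
      rw [hu, map_mul, map_mul, map_mul, map_inv, this]; group
    rw [h1, hm1, ← zpow_add]; congr 1; ring
  have hua : a * u * a⁻¹ = y⁻¹ * u * y := by
    have h1 : a * u * a⁻¹ = (a * y * a⁻¹) * (a * a) * y * (a * a)⁻¹ := by rw [hu]; group
    have h2 : a * a = 1 := by rw [← pow_two]; exact h.ha2
    rw [h1, h2, hu]; group
  set s := u ^ (2 ^ (k - 2)) with hs
  have hsC : s ∈ centralizer (E : Set S) := pow_mem huC _
  have hsa : a * s * a⁻¹ = y⁻¹ * s * y := by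
    have h1 : a * s * a⁻¹ = (a * u * a⁻¹) ^ (2 ^ (k - 2)) := by rw [hs, conj_pow]
    have h2 : y⁻¹ * s * y = (y⁻¹ * u * y) ^ (2 ^ (k - 2)) := by
      have := conj_pow (a := y⁻¹) (b := u) (i := 2 ^ (k - 2))
      rw [inv_inv] at this
      rw [hs, this]
    rw [h1, h2, hua]
  have hps : π s = r ^ (2 ^ (k - 1)) := by
    rw [hs, map_pow, hpu, ← zpow_natCast, ← zpow_mul]
    have h1 : (2 * (2 * m + 1) * ((2 ^ (k - 2) : ℕ) : ℤ)) = 2 ^ k * m + 2 ^ (k - 1) := by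
      obtain ⟨l, rfl⟩ : ∃ l, k = l + 2 := ⟨k - 2, by omega⟩
      have e1 : l + 2 - 2 = l := by omega
      have e2 : l + 2 - 1 = l + 1 := by omega
      rw [e1, e2]; push_cast; ring
    rw [h1, zpow_add, zpow_mul]
    have h2 : r ^ (2 ^ k : ℤ) = 1 := by
      have := pow_orderOf_eq_one r
      rw [hord] at this
      exact_mod_cast this
    rw [h2, one_zpow, one_mul]
    exact_mod_cast rfl
  have hsb : π a * r ^ (2 ^ (k - 1)) * (π a)⁻¹ = r ^ (2 ^ (k - 1)) := by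
    have h1 : r ^ (2 ^ (k - 1)) ∈ zpowers r := pow_mem (mem_zpowers r) _
    apply invol_unique (by omega) hord
    · obtain ⟨j, hj⟩ := hm.nrm (2 ^ (k - 1) : ℕ)
      rw [zpow_natCast] at hj
      rw [hj]; exact zpow_mem (mem_zpowers r) j
    · rw [conj_pow, ← pow_mul, ← pow_succ]
      have : k - 1 + 1 = k := by omega
      rw [this, ← hord, pow_orderOf_eq_one]; group
    · intro h2
      apply invol_ne_one (by omega) hord
      have h3 : r ^ (2 ^ (k - 1)) = (π a)⁻¹ * (π a * r ^ (2 ^ (k - 1)) * (π a)⁻¹) * π a := by group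
      rw [h3, h2]; group
  have hsE : s ∉ E := by
    intro hsE
    rw [← pi_one (E := E), ← hπ, hps] at hsE
    exact invol_ne_one (by omega) hord hsE
  have e1 : s⁻¹ * y⁻¹ * s * y = s⁻¹ * (a * s * a⁻¹) := by rw [hsa]; group
  refine ⟨s, hsC, hps, ?_, ?_, ?_, ⟨_, hs⟩, ⟨m, hm1⟩⟩
  · rw [e1, ← pi_one (E := E), ← hπ, map_mul, map_mul, map_mul, map_inv, map_inv, hps, hsb]
    group
  · intro h1
    rw [e1] at h1
    have h2 : a * s * a⁻¹ = s := (inv_mul_eq_one.mp h1).symm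
    apply hsE
    apply h.hPE
    apply h.F0 hsC
    calc s * a = a * s * a⁻¹ * a := by rw [h2]
      _ = a * s := by group
  · intro h1
    rw [e1] at h1
    obtain ⟨e, he, heP⟩ := h.exE
    have h2 : a * s * a⁻¹ = s * c₀ := by rw [← h1]; group
    have h3 := h.hac e he heP
    have h4 : a * (s * e) * a⁻¹ = s * e := by
      calc a * (s * e) * a⁻¹ = (a * s * a⁻¹) * (a * e * a⁻¹) := by group
        _ = s * (c₀ * e) * c₀ := by rw [h2, h3]; group
        _ = s * (e * c₀) * c₀ := by rw [h.hEc c₀ (h.hPE h.hc0) e he]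
        _ = s * e * (c₀ * c₀) := by group
        _ = s * e := by rw [h.c0sq, mul_one]
    have h5 : s * e ∈ P := by
      apply h.F0 (mul_mem hsC (h.EC he))
      calc s * e * a = a * (s * e) * a⁻¹ * a := by rw [h4]
        _ = a * (s * e) := by group
    apply hsE
    have h6 : s = (s * e) * e⁻¹ := by group
    rw [h6]
    exact mul_mem (h.hPE h5) (inv_mem he)

theorem lemN (h : Ctx E P a c₀) [E.Normal] {r : S ⧸ E}
    (hm : MCS ((centralizer (P : Set S)).map (QuotientGroup.mk' E)) (QuotientGroup.mk' E a) r)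
    {D : Subgroup S} (hD : D ≤ centralizer (E : Set S)) (hnr : ¬ D.map (QuotientGroup.mk' E) ≤ zpowers r)
    (h4 : 4 ≤ Nat.card (D.map (QuotientGroup.mk' E))) :
    ∃ x ∈ D, ∃ y ∈ D, x * y * x⁻¹ * y⁻¹ ∈ E ∧ x * y * x⁻¹ * y⁻¹ ≠ 1 ∧ x * y * x⁻¹ * y⁻¹ ≠ c₀ := by
  obtain ⟨k, hk, hord⟩ := hm.ord
  obtain ⟨_, ⟨y, hyD, rfl⟩, hyr⟩ := SetLike.not_le_iff_exists.mp hnr
  obtain ⟨s, hsC, hps, h1, h2, h3, _⟩ := h.core hm hk hord (hD hyD) hyr
  have h5 := card_le_two_mul (D.map (QuotientGroup.mk' E)) (zpowers r) (fun x hx z hz hxr hzr => by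
    refine hm.mul_mem' ?_ ?_ hxr hzr
    · exact Subgroup.map_mono (hD.trans h.CG) hx
    · exact Subgroup.map_mono (hD.trans h.CG) hz)
  have h6 : 1 < Nat.card (D.map (QuotientGroup.mk' E) ⊓ zpowers r : Subgroup (S ⧸ E)) := by omega
  have h7 : Nontrivial (D.map (QuotientGroup.mk' E) ⊓ zpowers r : Subgroup (S ⧸ E)) :=
    Finite.one_lt_card_iff_nontrivial.mp h6
  obtain ⟨⟨w, hwD, hwr⟩, hw1⟩ := exists_ne (1 : (D.map (QuotientGroup.mk' E) ⊓ zpowers r : Subgroup (S ⧸ E)))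
  have hw1' : w ≠ 1 := fun e => hw1 (Subtype.ext e)
  obtain ⟨n, hn⟩ := exists_pow_invol hord hwr hw1'
  have h8 : r ^ (2 ^ (k - 1)) ∈ D.map (QuotientGroup.mk' E) := by rw [← hn]; exact pow_mem hwD n
  obtain ⟨x, hxD, hx⟩ := h8
  have h9 : s⁻¹ * x ∈ E := pi_eq.mp (by rw [hps, hx])
  obtain ⟨e, he, hxe⟩ : ∃ e ∈ E, x = s * e := ⟨s⁻¹ * x, h9, by group⟩
  have h10 : x⁻¹ * y⁻¹ * x⁻¹⁻¹ * y⁻¹⁻¹ = s⁻¹ * y⁻¹ * s * y := by
    have e1 : y * e = e * y := mem_cent.mp (hD hyD) e he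
    have e2 : (s⁻¹ * y⁻¹ * s * y) * e = e * (s⁻¹ * y⁻¹ * s * y) :=
      mem_cent.mp (mul_mem (mul_mem (mul_mem (inv_mem hsC) (inv_mem (hD hyD))) hsC) (hD hyD)) e he
    calc x⁻¹ * y⁻¹ * x⁻¹⁻¹ * y⁻¹⁻¹ = e⁻¹ * (s⁻¹ * y⁻¹ * s) * (e * y) := by rw [hxe]; group
      _ = e⁻¹ * ((s⁻¹ * y⁻¹ * s * y) * e) := by rw [← e1]; group
      _ = s⁻¹ * y⁻¹ * s * y := by rw [e2]; group
  exact ⟨x⁻¹, inv_mem hxD, y⁻¹, inv_mem hyD, by rw [h10]; exact ⟨h1, h2, h3⟩⟩

end Ctx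

end Cfsg.Agent.Lib.H47Rk
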