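import Cfsg.Agent.Lib.H47RkC

/-!
Harada: helper lemmas (helper47, for S1232).
-/

set_option autoImplicit false
set_option linter.unusedSectionVars false

namespace Cfsg.Agent.Lib.H47Rk

open Subgroup

universe u

section gen
variable {S : Type u} [Group S] [Finite S]

theorem idx2 {A B : Subgroup S} (hAB : A ≤ B) (hc : Nat.card B = 2 * Nat.card A) {x y : S} (hx : x ∈ B)
    (hy : y ∈ B) (hxA : x ∉ A) (hyA : y ∉ A) : x⁻¹ * y ∈ A := by
  have h1 : (A.subgroupOf B).index = 2 := by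
    have h2 := card_mul_rel hAB
    have h3 : 0 < Nat.card A := Nat.card_pos
    rw [hc, mul_comm] at h2
    exact Nat.eq_of_mul_eq_mul_right h3 h2
  have h4 := mul_mem_iff_of_index_two h1 (a := (⟨x, hx⟩ : B)⁻¹) (b := ⟨y, hy⟩)
  rw [inv_mem_iff, mem_subgroupOf, mem_subgroupOf, mem_subgroupOf] at h4
  simp only [Subgroup.coe_mul, InvMemClass.coe_inv] at h4
  exact h4.mpr ⟨fun h => absurd h hxA, fun h => absurd h hyA⟩

theorem mem_zp2 {z : S} (hz : z ^ 2 = 1) {x : S} (hx : x ∈ zpowers z) : x = 1 ∨ x = z := by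
  obtain ⟨i, rfl⟩ := mem_zpowers_iff.mp hx
  have h5 : z ^ (2 : ℤ) = 1 := by exact_mod_cast hz
  rcases Int.even_or_odd' i with ⟨t, rfl | rfl⟩
  · left; rw [zpow_mul, h5, one_zpow]
  · right; rw [zpow_add, zpow_mul, h5, one_zpow, one_mul, zpow_one]

theorem card2 {A : Subgroup S} (h : Nat.card A = 2) : ∃ l ∈ A, l ≠ 1 ∧ ∀ x ∈ A, x = 1 ∨ x = l := by
  have h1 : 1 < Nat.card A := by omega
  have h2 : Nontrivial A := Finite.one_lt_card_iff_nontrivial.mp h1
  obtain ⟨l, hl⟩ := exists_ne (1 : A)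
  refine ⟨l, l.2, fun e => hl (Subtype.ext e), fun x hx => ?_⟩
  have h3 : zpowers (l : S) = A := by
    apply Subgroup.eq_of_le_of_card_ge
    · rw [zpowers_le]; exact l.2
    · rw [h]
      have h4 : orderOf (l : S) ∣ 2 := by
        rw [← h, Subgroup.orderOf_coe]; exact orderOf_dvd_natCard l
      have h5 : orderOf (l : S) ≠ 1 := by
        rw [Ne, orderOf_eq_one_iff]; exact fun e => hl (Subtype.ext e)
      rw [Nat.card_zpowers]
      rcases (Nat.dvd_prime Nat.prime_two).mp h4 with h6 | h6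
      · exact absurd h6 h5
      · omega
  have h6 : (l : S) ^ 2 = 1 := by
    have h7 : l ^ Nat.card A = 1 := pow_card_eq_one'
    rw [h] at h7
    exact_mod_cast congrArg Subtype.val h7
  exact mem_zp2 h6 (by rw [h3]; exact hx)

theorem pow2_le (n m : ℕ) (h : n < 8) (hn : n = 2 ^ m) : n ≤ 4 := by
  have h2 : m ≤ 2 := by
    by_contra hcon
    have : 2 ^ 3 ≤ 2 ^ m := Nat.pow_le_pow_right (by norm_num) (by omega)
    omega
  have h3 : 2 ^ m ≤ 2 ^ 2 := Nat.pow_le_pow_right (by norm_num) h2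
  omega

/-- a 2-group acting on a four-group -/
theorem v4 (hS : IsPGroup 2 S) {P : Subgroup S} (hP4 : Nat.card P = 4) (hP2 : ∀ x ∈ P, x ^ 2 = 1)
    {T : Subgroup S} (hT : ∀ x ∈ T, ∀ p ∈ P, x * p * x⁻¹ ∈ P) :
    ∃ z ∈ P, z ≠ 1 ∧ (∀ x ∈ T, x * z = z * x) ∧
      (∀ x ∈ T, x ∉ centralizer (P : Set S) → ∀ p ∈ P, p ≠ 1 → p ≠ z → x * p * x⁻¹ = p * z) := by
  have hTn : T ≤ normalizer (P : Set S) := by
    intro x hx
    rw [mem_normalizer_iff]
    intro p
    refine ⟨fun hp => hT x hx p hp, fun hp => ?_⟩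
    have h1 := hT x⁻¹ (inv_mem hx) _ hp
    have h2 : x⁻¹ * (x * p * x⁻¹) * x⁻¹⁻¹ = p := by group
    rwa [h2] at h1
  obtain ⟨z, hzP, hz1, hz⟩ := Cfsg.Agent.Lib.H32PGroup.exists_fixed_of_normalizes (p := 2) (hS.to_subgroup T) hTn (by rw [hP4]; norm_num)
  have hz2 := hP2 z hzP
  have hzz : Nat.card (zpowers z) = 2 := by
    rw [Nat.card_zpowers]; exact orderOf_eq_prime hz2 hz1
  have hdich : ∀ p ∈ P, ∀ q ∈ P, p ≠ 1 → p ≠ z → q ≠ 1 → q ≠ z → q = p ∨ q = p * z := by
    intro p hp q hq hp1 hpz hq1 hqz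
    have hn : ∀ p : S, p ≠ 1 → p ≠ z → p ∉ zpowers z := by
      intro p hp1 hpz h
      rcases mem_zp2 hz2 h with h | h
      · exact hp1 h
      · exact hpz h
    have h1 := idx2 (A := zpowers z) (B := P) (by rw [zpowers_le]; exact hzP) (by rw [hP4, hzz]) hp hq
      (hn p hp1 hpz) (hn q hq1 hqz)
    rcases mem_zp2 hz2 h1 with h | h
    · left; exact (inv_mul_eq_one.mp h).symm
    · right; rw [← h]; group
  refine ⟨z, hzP, hz1, hz, fun x hx hxc p hp hp1 hpz => ?_⟩
  have hpx := hT x hx p hp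
  have h1 : x * p * x⁻¹ ≠ 1 := by
    intro h; apply hp1
    have : p = x⁻¹ * (x * p * x⁻¹) * x := by group
    rw [this, h]; group
  have h2 : x * p * x⁻¹ ≠ z := by
    intro h; apply hpz
    have : p = x⁻¹ * (x * p * x⁻¹) * x := by group
    rw [this, h, mul_assoc, ← hz x hx]; group
  rcases hdich p hp _ hpx hp1 hpz h1 h2 with h | h
  · exfalso
    apply hxc
    rw [mem_cent]
    intro q hq
    by_cases hq1 : q = 1
    · rw [hq1]; group
    by_cases hqz : q = z
    · rw [hqz]; exact hz x hx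
    have h3 : x * p = p * x := by
      calc x * p = x * p * x⁻¹ * x := by group
        _ = p * x := by rw [h]
    rcases hdich p hp q hq hp1 hpz hq1 hqz with h4 | h4
    · rw [h4]; exact h3
    · rw [h4, ← mul_assoc, h3, mul_assoc, hz x hx]; group
  · exact h

theorem v4' (hS : IsPGroup 2 S) {P : Subgroup S} (hP4 : Nat.card P = 4) (hP2 : ∀ x ∈ P, x ^ 2 = 1)
    {T : Subgroup S} (hT : ∀ x ∈ T, ∀ p ∈ P, x * p * x⁻¹ ∈ P) {x y : S} (hx : x ∈ T) (hy : y ∈ T)
    (hxc : x ∉ centralizer (P : Set S)) (hyc : y ∉ centralizer (P : Set S)) :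
    x⁻¹ * y ∈ centralizer (P : Set S) := by
  obtain ⟨z, hzP, hz1, hz, h⟩ := v4 hS hP4 hP2 hT
  rw [mem_cent]
  intro p hp
  by_cases hp1 : p = 1
  · rw [hp1]; group
  by_cases hpz : p = z
  · rw [hpz]
    calc x⁻¹ * y * z = x⁻¹ * (y * z) := by group
      _ = x⁻¹ * z * x * x⁻¹ * y := by rw [hz y hy]; group
      _ = x⁻¹ * (z * x) * x⁻¹ * y := by group
      _ = z * (x⁻¹ * y) := by rw [← hz x hx]; group
  · have h1 := h x hx hxc p hp hp1 hpz
    have h2 := h y hy hyc p hp hp1 hpz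
    calc x⁻¹ * y * p = x⁻¹ * (y * p * y⁻¹) * y := by group
      _ = x⁻¹ * (x * p * x⁻¹) * y := by rw [h1, h2]
      _ = p * (x⁻¹ * y) := by group

end gen

section mcs
variable {Γ : Type u} [Group Γ] [Finite Γ]

theorem MCS.invol_central {M : Subgroup Γ} {a r : Γ} (h : MCS M a r) {k : ℕ} (hk : 2 ≤ k)
    (hord : orderOf r = 2 ^ k) (ha : a * a = 1) : ∀ g ∈ M, g * r ^ (2 ^ (k - 1)) = r ^ (2 ^ (k - 1)) * g := by
  have h0 : a * r ^ (2 ^ (k - 1)) * a⁻¹ = r ^ (2 ^ (k - 1)) := by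
    apply invol_unique (by omega) hord
    · obtain ⟨j, hj⟩ := h.nrm (2 ^ (k - 1) : ℕ)
      rw [zpow_natCast] at hj
      rw [hj]; exact zpow_mem (mem_zpowers r) j
    · rw [conj_pow, ← pow_mul, ← pow_succ]
      have : k - 1 + 1 = k := by omega
      rw [this, ← hord, pow_orderOf_eq_one]; group
    · intro h2
      apply invol_ne_one (by omega) hord
      have h3 : r ^ (2 ^ (k - 1)) = a⁻¹ * (a * r ^ (2 ^ (k - 1)) * a⁻¹) * a := by group
      rw [h3, h2]; group
  have h1 : a * r ^ (2 ^ (k - 1)) = r ^ (2 ^ (k - 1)) * a := by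
    calc a * r ^ (2 ^ (k - 1)) = a * r ^ (2 ^ (k - 1)) * a⁻¹ * a := by group
      _ = r ^ (2 ^ (k - 1)) * a := by rw [h0]
  have h2 : ∀ i : ℤ, r ^ i * r ^ (2 ^ (k - 1)) = r ^ (2 ^ (k - 1)) * r ^ i := fun i =>
    (((Commute.refl r).zpow_left i).pow_right _).eq
  intro g hg
  rcases h.cov g hg with h3 | h3
  · obtain ⟨i, rfl⟩ := mem_zpowers_iff.mp h3
    exact h2 i
  · obtain ⟨i, hi⟩ := mem_zpowers_iff.mp h3
    have h4 : g = r ^ i * a := by rw [hi, mul_assoc, ha, mul_one]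
    rw [h4, mul_assoc, h1, ← mul_assoc, h2]
    group

end mcs

variable {S : Type u} [Group S] [Finite S]

namespace Ctx

variable {E P : Subgroup S} {a c₀ : S}

theorem P2 (h : Ctx E P a c₀) : ∀ x ∈ P, x ^ 2 = 1 := fun x hx => h.hE2 x (h.hPE hx)

theorem PEidx (h : Ctx E P a c₀) {x y : S} (hx : x ∈ E) (hy : y ∈ E) (hxP : x ∉ P) (hyP : y ∉ P) :
    x⁻¹ * y ∈ P := idx2 h.hPE (by rw [h.hE8, h.hP4]) hx hy hxP hyP

theorem abel_of_le (h : Ctx E P a c₀) [E.Normal] {r : S ⧸ E}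
    (hr : (centralizer (E : Set S)).map (QuotientGroup.mk' E) ≤ zpowers r) :
    ∀ x ∈ centralizer (E : Set S), ∀ y ∈ centralizer (E : Set S), x * y = y * x := by
  have h1 : IsCyclic ((centralizer (E : Set S)).map (QuotientGroup.mk' E)) := by
    have : IsCyclic (zpowers r) := inferInstance
    exact isCyclic_of_injective (Subgroup.inclusion hr) (Subgroup.inclusion_injective hr)
  obtain ⟨⟨_, ⟨w, hw, rfl⟩⟩, hgen⟩ := h1.exists_generator
  have h2 : ∀ x ∈ centralizer (E : Set S), ∃ i : ℤ, ∃ e ∈ E, x = w ^ i * e := by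
    intro x hx
    obtain ⟨i, hi⟩ := mem_zpowers_iff.mp (hgen ⟨_, ⟨x, hx, rfl⟩⟩)
    have h3 : QuotientGroup.mk' E (w ^ i) = QuotientGroup.mk' E x := by
      rw [map_zpow]; exact congrArg Subtype.val hi
    exact ⟨i, (w ^ i)⁻¹ * x, pi_eq.mp h3, by group⟩
  intro x hx y hy
  obtain ⟨i, e, he, rfl⟩ := h2 x hx
  obtain ⟨j, f, hf, rfl⟩ := h2 y hy
  have c1 : w ^ i * f = f * w ^ i := mem_cent.mp (zpow_mem hw i) f hf
  have c2 : w ^ j * e = e * w ^ j := mem_cent.mp (zpow_mem hw j) e he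
  have c3 := h.hEc e he f hf
  calc w ^ i * e * (w ^ j * f) = w ^ i * (e * w ^ j) * f := by group
    _ = w ^ i * w ^ j * (e * f) := by rw [← c2]; group
    _ = w ^ j * (w ^ i * f) * e := by rw [c3]; group
    _ = w ^ j * f * (w ^ i * e) := by rw [c1]; group

/-- either `C(E)` is abelian, or `C(P)/E` is of maximal class and `C(E)/E` noncyclic -/
theorem caseX (h : Ctx E P a c₀) [E.Normal] :
    (∀ x ∈ centralizer (E : Set S), ∀ y ∈ centralizer (E : Set S), x * y = y * x) ∨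
    ∃ r, MCS ((centralizer (P : Set S)).map (QuotientGroup.mk' E)) (QuotientGroup.mk' E a) r ∧
      ¬ (centralizer (E : Set S)).map (QuotientGroup.mk' E) ≤ zpowers r := by
  by_cases h8 : 8 ≤ Nat.card ((centralizer (P : Set S)).map (QuotientGroup.mk' E))
  · obtain ⟨r, hr⟩ := h.ex_mcs h8
    by_cases hle : (centralizer (E : Set S)).map (QuotientGroup.mk' E) ≤ zpowers r
    · exact Or.inl (h.abel_of_le hle)
    · exact Or.inr ⟨r, hr, hle⟩
  · left
    -- C/E has order at most two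
    have hlt : (centralizer (E : Set S)).map (QuotientGroup.mk' E) <
        (centralizer (P : Set S)).map (QuotientGroup.mk' E) := by
      refine lt_of_le_of_ne (Subgroup.map_mono h.CG) ?_
      intro he
      have h1 : QuotientGroup.mk' E a ∈ (centralizer (E : Set S)).map (QuotientGroup.mk' E) := by
        rw [he]; exact ⟨a, h.aG, rfl⟩
      obtain ⟨c, hc, hca⟩ := h1
      apply h.aC
      have h2 : a = c * (c⁻¹ * a) := by group
      rw [h2]
      exact mul_mem hc (h.EC (pi_eq.mp hca))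
    obtain ⟨n, hn⟩ := IsPGroup.iff_card.mp (h.pgr ((centralizer (P : Set S)).map (QuotientGroup.mk' E)))
    have h4 := pow2_le _ n (by omega) hn
    have h5 : Nat.card ((centralizer (E : Set S)).map (QuotientGroup.mk' E)) ≤ 2 := by
      have h6 := card_mul_rel hlt.le
      have h7 : ((centralizer (E : Set S)).map (QuotientGroup.mk' E)).relIndex
          ((centralizer (P : Set S)).map (QuotientGroup.mk' E)) ≠ 1 := by
        rw [Ne, Subgroup.relIndex_eq_one]; exact not_le_of_gt hlt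
      have h8 : ((centralizer (E : Set S)).map (QuotientGroup.mk' E)).relIndex
          ((centralizer (P : Set S)).map (QuotientGroup.mk' E)) ≠ 0 := by
        intro h0
        rw [h0, mul_zero] at h6
        have : 0 < Nat.card ((centralizer (P : Set S)).map (QuotientGroup.mk' E)) := Nat.card_pos
        omega
      have h9 : 2 ≤ ((centralizer (E : Set S)).map (QuotientGroup.mk' E)).relIndex
          ((centralizer (P : Set S)).map (QuotientGroup.mk' E)) := by omega
      nlinarith [Nat.card_pos (α := (centralizer (E : Set S)).map (QuotientGroup.mk' E))]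
    obtain ⟨w, hw⟩ : ∃ w : S ⧸ E, (centralizer (E : Set S)).map (QuotientGroup.mk' E) ≤ zpowers w := by
      rcases Nat.lt_or_ge (Nat.card ((centralizer (E : Set S)).map (QuotientGroup.mk' E))) 2 with h6 | h6
      · refine ⟨1, ?_⟩
        have h7 : Nat.card ((centralizer (E : Set S)).map (QuotientGroup.mk' E)) = 1 := by
          have := Nat.card_pos (α := (centralizer (E : Set S)).map (QuotientGroup.mk' E))
          omega
        rw [Subgroup.card_eq_one] at h7
        rw [h7]; exact bot_le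
      · obtain ⟨l, hl, hl1, hlx⟩ := card2 (le_antisymm h5 h6)
        refine ⟨l, fun x hx => ?_⟩
        rcases hlx x hx with e | e
        · rw [e]; exact one_mem _
        · rw [e]; exact mem_zpowers l
    exact h.abel_of_le hw

/-- elements of the quotient with even/odd exponents -/
theorem evenX (h : Ctx E P a c₀) [E.Normal] {r : S ⧸ E}
    (hm : MCS ((centralizer (P : Set S)).map (QuotientGroup.mk' E)) (QuotientGroup.mk' E a) r)
    (hnr : ¬ (centralizer (E : Set S)).map (QuotientGroup.mk' E) ≤ zpowers r) :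
    (∀ i : ℤ, r ^ (2 * i) ∈ (centralizer (E : Set S)).map (QuotientGroup.mk' E)) ∧
    (∀ i : ℤ, r ^ (2 * i + 1) * QuotientGroup.mk' E a ∈ (centralizer (E : Set S)).map (QuotientGroup.mk' E)) := by
  obtain ⟨k, hk, hord⟩ := hm.ord
  obtain ⟨_, ⟨y, hyC, rfl⟩, hyr⟩ := SetLike.not_le_iff_exists.mp hnr
  obtain ⟨s, hsC, hps, h1, h2, h3, _, ⟨m, hmm⟩⟩ := h.core hm hk hord hyC hyr
  have hXn : ((centralizer (E : Set S)).map (QuotientGroup.mk' E)).Normal :=
    h.Cn.map _ (QuotientGroup.mk'_surjective E)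
  have hpa : QuotientGroup.mk' E a * QuotientGroup.mk' E a = 1 := by
    rw [← map_mul, ← pow_two, h.ha2, map_one]
  have hyX : QuotientGroup.mk' E y ∈ (centralizer (E : Set S)).map (QuotientGroup.mk' E) := ⟨y, hyC, rfl⟩
  have hy : QuotientGroup.mk' E y = r ^ (2 * m + 1) * QuotientGroup.mk' E a := by
    rw [← hmm, mul_assoc, hpa, mul_one]
  have hev : ∀ i : ℤ, r ^ (2 * i) ∈ (centralizer (E : Set S)).map (QuotientGroup.mk' E) := by
    intro i
    obtain ⟨j, hj⟩ := hm.conj i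
    have h4 : r ^ (2 * i) = (r ^ j * QuotientGroup.mk' E y * (r ^ j)⁻¹) * (QuotientGroup.mk' E y)⁻¹ := by
      have h5 : r ^ j * QuotientGroup.mk' E y * (r ^ j)⁻¹ =
          r ^ (2 * m + 1) * (r ^ j * QuotientGroup.mk' E a * (r ^ j)⁻¹) := by
        rw [hy]
        have h6 : r ^ j * r ^ (2 * m + 1) = r ^ (2 * m + 1) * r ^ j := by rw [← zpow_add, ← zpow_add, add_comm]
        calc r ^ j * (r ^ (2 * m + 1) * QuotientGroup.mk' E a) * (r ^ j)⁻¹
            = (r ^ j * r ^ (2 * m + 1)) * QuotientGroup.mk' E a * (r ^ j)⁻¹ := by group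
          _ = _ := by rw [h6]; group
      rw [h5, hj, hy]
      calc r ^ (2 * i) = r ^ ((2 * m + 1) + 2 * i + -(2 * m + 1)) := by congr 1; ring
        _ = _ := by rw [zpow_add, zpow_add, zpow_neg]; group
    rw [h4]
    exact mul_mem (hXn.conj_mem _ hyX _) (inv_mem hyX)
  refine ⟨hev, fun i => ?_⟩
  have h4 : r ^ (2 * i + 1) * QuotientGroup.mk' E a = r ^ (2 * (i - m)) * QuotientGroup.mk' E y := by
    rw [hy, ← mul_assoc, ← zpow_add]
    congr 2; ring
  rw [h4]
  exact mul_mem (hev _) hyX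

theorem memC (h : Ctx E P a c₀) [E.Normal] {g : S}
    (hg : QuotientGroup.mk' E g ∈ (centralizer (E : Set S)).map (QuotientGroup.mk' E)) :
    g ∈ centralizer (E : Set S) := by
  obtain ⟨c, hc, hcg⟩ := hg
  have h2 : g = c * (c⁻¹ * g) := by group
  rw [h2]
  exact mul_mem hc (h.EC (pi_eq.mp hcg))

theorem two_cosets (h : Ctx E P a c₀) [E.Normal] {r : S ⧸ E}
    (hm : MCS ((centralizer (P : Set S)).map (QuotientGroup.mk' E)) (QuotientGroup.mk' E a) r)
    (hnr : ¬ (centralizer (E : Set S)).map (QuotientGroup.mk' E) ≤ zpowers r) {g : S}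
    (hg : g ∈ centralizer (P : Set S)) : g ∈ centralizer (E : Set S) ∨ g * a ∈ centralizer (E : Set S) := by
  obtain ⟨hev, hod⟩ := h.evenX hm hnr
  have hpa : QuotientGroup.mk' E a * QuotientGroup.mk' E a = 1 := by
    rw [← map_mul, ← pow_two, h.ha2, map_one]
  rcases hm.cov (QuotientGroup.mk' E g) ⟨g, hg, rfl⟩ with h1 | h1
  · obtain ⟨n, hn⟩ := mem_zpowers_iff.mp h1
    rcases Int.even_or_odd' n with ⟨i, rfl | rfl⟩
    · left; apply h.memC; rw [← hn]; exact hev i
    · right; apply h.memC; rw [map_mul, ← hn]; exact hod i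
  · obtain ⟨n, hn⟩ := mem_zpowers_iff.mp h1
    rcases Int.even_or_odd' n with ⟨i, rfl | rfl⟩
    · right; apply h.memC; rw [map_mul, ← hn]; exact hev i
    · left; apply h.memC
      have h2 : QuotientGroup.mk' E g = r ^ (2 * i + 1) * QuotientGroup.mk' E a := by
        rw [hn, mul_assoc, hpa, mul_one]
      rw [h2]; exact hod i

/-- a section whose top contains a conjugate of `a` -/
theorem bound_mem (h : Ctx E P a c₀) {H K : Subgroup S} (hs : Sec H K)
    (hN : ∀ x ∈ H, ∀ p ∈ P, x * p * x⁻¹ ∈ P) {x : S} (hx : x ∈ centralizer (P : Set S))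
    (hxa : x * a * x⁻¹ ∈ H) : Nat.card H ≤ 16 * Nat.card K := by
  have h1 := hs.card_le_of_mem hxa
  have h2 := card_le_two_mul (H ⊓ centralizer ({x * a * x⁻¹} : Set S)) (centralizer (P : Set S))
    (fun y hy z hz hyc hzc => v4' h.hS h.hP4 h.P2 hN hy.1 hz.1 hyc hzc)
  have h3 : Nat.card (H ⊓ centralizer ({x * a * x⁻¹} : Set S) ⊓ centralizer (P : Set S) : Subgroup S) ≤ 8 := by
    refine le_trans ?_ h.card_CG
    have h4 : (H ⊓ centralizer ({x * a * x⁻¹} : Set S) ⊓ centralizer (P : Set S)).map (MulAut.conj x⁻¹).toMonoidHom ≤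
        centralizer (P : Set S) ⊓ centralizer ({a} : Set S) := by
      rintro _ ⟨y, ⟨⟨hyH, hya⟩, hyP⟩, rfl⟩
      simp only [MulEquiv.coe_toMonoidHom, MulAut.conj_apply, inv_inv]
      have hyP' : y ∈ centralizer (P : Set S) := hyP
      have hya' : y ∈ centralizer ({x * a * x⁻¹} : Set S) := hya
      refine ⟨(centralizer (P : Set S)).mul_mem ((centralizer (P : Set S)).mul_mem (inv_mem hx) hyP') hx, ?_⟩
      change x⁻¹ * y * x ∈ centralizer ({a} : Set S)
      rw [mem_centralizer_iff] at hya' ⊢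
      intro b hb
      rw [Set.mem_singleton_iff] at hb
      subst hb
      have h5 := hya' _ rfl
      calc b * (x⁻¹ * y * x) = x⁻¹ * ((x * b * x⁻¹) * y) * x := by group
        _ = x⁻¹ * y * x * b := by rw [h5]; group
    have h5 := Subgroup.card_le_of_le h4
    rwa [Subgroup.card_map_of_injective (MulEquiv.injective _)] at h5
  nlinarith [Nat.card_pos (α := K)]

end Ctx

end Cfsg.Agent.Lib.H47Rk
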