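import Cfsg.Agent.Lib.H47RkD

/-!
Harada: the main bound (helper47, for S1232).
-/

set_option autoImplicit false
set_option linter.unusedSectionVars false

namespace Cfsg.Agent.Lib.H47Rk

open Subgroup

universe u

variable {S : Type u} [Group S] [Finite S]

theorem two_mul_card_le {A B : Subgroup S} (h : A < B) : 2 * Nat.card A ≤ Nat.card B := by
  have h6 := card_mul_rel h.le
  have h7 : A.relIndex B ≠ 1 := by
    rw [Ne, Subgroup.relIndex_eq_one]; exact not_le_of_gt h
  have h8 : A.relIndex B ≠ 0 := by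
    intro h0
    rw [h0, mul_zero] at h6
    have : 0 < Nat.card B := Nat.card_pos
    omega
  have h9 : 2 ≤ A.relIndex B := by omega
  nlinarith [Nat.card_pos (α := A)]

theorem card_dvd8 {E : Subgroup S} (hE : Nat.card E = 8) (A : Subgroup S) :
    Nat.card (A ⊓ E : Subgroup S) = 1 ∨ Nat.card (A ⊓ E : Subgroup S) = 2 ∨ Nat.card (A ⊓ E : Subgroup S) = 4 ∨
      Nat.card (A ⊓ E : Subgroup S) = 8 := by
  have h1 : Nat.card (A ⊓ E : Subgroup S) ∣ 2 ^ 3 := by
    have := Subgroup.card_dvd_of_le (inf_le_right : A ⊓ E ≤ E)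
    rw [hE] at this; exact this
  obtain ⟨n, hn, hn2⟩ := (Nat.dvd_prime_pow Nat.prime_two).mp h1
  rw [hn2]
  interval_cases n <;> norm_num

namespace Ctx

variable {E P : Subgroup S} {a c₀ : S}

theorem ltX (h : Ctx E P a c₀) [E.Normal] : (centralizer (E : Set S)).map (QuotientGroup.mk' E) <
    (centralizer (P : Set S)).map (QuotientGroup.mk' E) := by
  refine lt_of_le_of_ne (Subgroup.map_mono h.CG) ?_
  intro he
  have h1 : QuotientGroup.mk' E a ∈ (centralizer (E : Set S)).map (QuotientGroup.mk' E) := by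
    rw [he]; exact ⟨a, h.aG, rfl⟩
  exact h.aC (h.memC h1)

theorem lemN' (h : Ctx E P a c₀) [E.Normal] {D V : Subgroup S} (hD : D ≤ centralizer (E : Set S))
    (hs : Sec D V) (hlt : 2 * Nat.card (V.map (QuotientGroup.mk' E)) < Nat.card (D.map (QuotientGroup.mk' E))) :
    (∃ r, MCS ((centralizer (P : Set S)).map (QuotientGroup.mk' E)) (QuotientGroup.mk' E a) r ∧
      ¬ D.map (QuotientGroup.mk' E) ≤ zpowers r) ∧
    ∃ x ∈ D, ∃ y ∈ D, x * y * x⁻¹ * y⁻¹ ∈ E ∧ x * y * x⁻¹ * y⁻¹ ≠ 1 ∧ x * y * x⁻¹ * y⁻¹ ≠ c₀ := by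
  have h1 : 0 < Nat.card (V.map (QuotientGroup.mk' E)) := Nat.card_pos
  have h4 : 4 ≤ Nat.card (D.map (QuotientGroup.mk' E)) := by
    obtain ⟨n, hn⟩ := IsPGroup.iff_card.mp (h.pgr (D.map (QuotientGroup.mk' E)))
    have h2 : n ≠ 0 := by rintro rfl; rw [hn] at hlt; omega
    have h3 : n ≠ 1 := by rintro rfl; rw [hn] at hlt; omega
    rw [hn]
    calc 4 = 2 ^ 2 := by norm_num
      _ ≤ 2 ^ n := Nat.pow_le_pow_right (by norm_num) (by omega)
  have h8 : 8 ≤ Nat.card ((centralizer (P : Set S)).map (QuotientGroup.mk' E)) := by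
    have h5 := two_mul_card_le h.ltX
    have h6 := Subgroup.card_le_of_le (Subgroup.map_mono (f := QuotientGroup.mk' E) hD)
    omega
  obtain ⟨r, hr⟩ := h.ex_mcs h8
  have hnr : ¬ D.map (QuotientGroup.mk' E) ≤ zpowers r := by
    intro hle
    have := (hs.map (QuotientGroup.mk' E)).of_cyclic hle
    omega
  exact ⟨⟨r, hr, hnr⟩, h.lemN hr hD hnr h4⟩

theorem map_inf_G (h : Ctx E P a c₀) [E.Normal] (A : Subgroup S) :
    (A ⊓ centralizer (P : Set S)).map (QuotientGroup.mk' E) =
      A.map (QuotientGroup.mk' E) ⊓ (centralizer (P : Set S)).map (QuotientGroup.mk' E) := by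
  apply le_antisymm
  · exact le_inf (Subgroup.map_mono inf_le_left) (Subgroup.map_mono inf_le_right)
  · rintro _ ⟨⟨x, hx, rfl⟩, ⟨g, hg, hgx⟩⟩
    refine ⟨x, ⟨hx, ?_⟩, rfl⟩
    have h2 : x = g * (g⁻¹ * x) := by group
    have h3 := mul_mem (S := Subgroup S) hg (h.CG (h.EC (pi_eq.mp hgx)))
    rw [← h2] at h3
    exact h3

/-- an element acting on `E` centralizing `P` -/
theorem cent_of (h : Ctx E P a c₀) {g e₁ : S} (hg : g ∈ centralizer (P : Set S)) (he₁ : e₁ ∈ E) (heP : e₁ ∉ P)
    (hc : g * e₁ = e₁ * g) : g ∈ centralizer (E : Set S) := by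
  rw [mem_cent]
  intro e he
  by_cases heP' : e ∈ P
  · exact mem_cent.mp hg e heP'
  · have h1 := h.PEidx he₁ he heP heP'
    have h2 := mem_cent.mp hg _ h1
    calc g * e = (g * e₁) * (e₁⁻¹ * e) := by group
      _ = e₁ * (g * (e₁⁻¹ * e)) := by rw [hc]; group
      _ = e * g := by rw [h2]; group

set_option maxHeartbeats 1000000 in
theorem bound1 (h : Ctx E P a c₀) [E.Normal] {H K : Subgroup S} (hs : Sec H K)
    (hN : ∀ x ∈ H, ∀ p ∈ P, x * p * x⁻¹ ∈ P) : Nat.card H ≤ 16 * Nat.card K := by
  by_contra hcon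
  push Not at hcon
  have hH : H ≤ H := le_rfl
  have cH := card_map_mul H E
  have cK := card_map_mul K E
  have hQ4 := h.sec4 ((hs.map (QuotientGroup.mk' E)).inf ((centralizer (P : Set S)).map (QuotientGroup.mk' E)))
    inf_le_right
  have hQK : Nat.card (K.map (QuotientGroup.mk' E) ⊓ (centralizer (P : Set S)).map (QuotientGroup.mk' E) :
      Subgroup (S ⧸ E)) ≤ Nat.card (K.map (QuotientGroup.mk' E)) := Subgroup.card_le_of_le inf_le_left
  have hq2 : Nat.card (H.map (QuotientGroup.mk' E)) ≤ 2 * Nat.card (H.map (QuotientGroup.mk' E) ⊓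
      (centralizer (P : Set S)).map (QuotientGroup.mk' E) : Subgroup (S ⧸ E)) := by
    apply card_le_two_mul
    rintro _ ⟨x, hx, rfl⟩ _ ⟨y, hy, rfl⟩ hxG hyG
    have h1 := v4' h.hS h.hP4 h.P2 hN hx hy (fun hc => hxG ⟨x, hc, rfl⟩) (fun hc => hyG ⟨y, hc, rfl⟩)
    exact ⟨_, h1, by simp⟩
  have hqK0 : 0 < Nat.card (K.map (QuotientGroup.mk' E)) := Nat.card_pos
  have heH := card_dvd8 h.hE8 H
  have heK := card_dvd8 h.hE8 K
  -- commutators
  have hcomE : ∀ x ∈ H, ∀ e ∈ H ⊓ E, x * e * x⁻¹ * e⁻¹ ∈ K ⊓ E := by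
    intro x hx e he
    refine ⟨hs.comm x hx e he.1, ?_⟩
    exact E.mul_mem (h.hE.conj_mem e he.2 x) (E.inv_mem he.2)
  have hEH : Nat.card (H ⊓ E : Subgroup S) = 8 → E ≤ H := by
    intro h1
    have h2 : H ⊓ E = E := Subgroup.eq_of_le_of_card_ge inf_le_right (by rw [h1, h.hE8])
    rw [← h2]; exact inf_le_left
  have hbot : Nat.card (K ⊓ E : Subgroup S) = 1 → ∀ x ∈ K ⊓ E, x = 1 := by
    intro h1 x hx
    rw [Subgroup.card_eq_one] at h1
    rw [h1] at hx
    exact mem_bot.mp hx
  by_cases hHC : H ≤ centralizer (E : Set S)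
  · -- H centralizes E
    have h1 := h.sec4 (hs.map (QuotientGroup.mk' E)) (Subgroup.map_mono (hHC.trans h.CG))
    have h2 : Nat.card (K ⊓ E : Subgroup S) = 1 ∧ 2 * Nat.card (K.map (QuotientGroup.mk' E)) <
        Nat.card (H.map (QuotientGroup.mk' E)) := by
      rcases heH with e1 | e1 | e1 | e1 <;> rcases heK with e2 | e2 | e2 | e2 <;> rw [e1] at cH <;>
        rw [e2] at cK <;> constructor <;> omega
    obtain ⟨_, x, hx, y, hy, h3, h4, _⟩ := h.lemN' hHC hs h2.2
    exact h4 (hbot h2.1 _ ⟨hs.comm x hx y hy, h3⟩)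
  -- H does not centralize E
  have hfull : ¬ (Nat.card (H ⊓ E : Subgroup S) = 8 ∧ Nat.card (K ⊓ E : Subgroup S) = 1) := by
    rintro ⟨h1, h2⟩
    apply hHC
    intro x hx
    rw [mem_cent]
    intro e he
    have h3 := hbot h2 _ (hcomE x hx e ⟨hEH h1 he, he⟩)
    calc x * e = (x * e * x⁻¹ * e⁻¹) * e * x := by group
      _ = e * x := by rw [h3, one_mul]
  have hqH : 4 * Nat.card (K.map (QuotientGroup.mk' E)) < Nat.card (H.map (QuotientGroup.mk' E)) := by
    by_contra h0
    push Not at h0
    rcases heH with e1 | e1 | e1 | e1 <;> rcases heK with e2 | e2 | e2 | e2 <;>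
      first | exact hfull ⟨e1, e2⟩ | (rw [e1] at cH; rw [e2] at cK; omega)
  have hHG : ¬ H ≤ centralizer (P : Set S) := by
    intro hle
    have := h.sec4 (hs.map (QuotientGroup.mk' E)) (Subgroup.map_mono hle)
    omega
  have hQ2 : 2 * Nat.card ((K ⊓ centralizer (P : Set S)).map (QuotientGroup.mk' E)) <
      Nat.card ((H ⊓ centralizer (P : Set S)).map (QuotientGroup.mk' E)) := by
    rw [h.map_inf_G, h.map_inf_G]
    omega
  have hs₁ := hs.inf (centralizer (P : Set S))
  have hcase : (Nat.card (H ⊓ E : Subgroup S) = 4 ∧ Nat.card (K ⊓ E : Subgroup S) = 1) ∨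
      (Nat.card (H ⊓ E : Subgroup S) = 8 ∧ Nat.card (K ⊓ E : Subgroup S) = 2) := by
    rcases heH with e1 | e1 | e1 | e1 <;> rcases heK with e2 | e2 | e2 | e2 <;>
      first | exact (hfull ⟨e1, e2⟩).elim | exact Or.inl ⟨e1, e2⟩ | exact Or.inr ⟨e1, e2⟩ |
        (exfalso; rw [e1] at cH; rw [e2] at cK; omega)
  rcases hcase with ⟨e1, e2⟩ | ⟨e1, e2⟩
  · -- (i)
    have hcent : ∀ x ∈ H, ∀ e ∈ H ⊓ E, x * e = e * x := by
      intro x hx e he
      have h3 := hbot e2 _ (hcomE x hx e he)
      calc x * e = (x * e * x⁻¹ * e⁻¹) * e * x := by group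
        _ = e * x := by rw [h3, one_mul]
    have hnP : ¬ (H ⊓ E ≤ P) := by
      intro hle
      have h3 : H ⊓ E = P := Subgroup.eq_of_le_of_card_ge hle (by rw [e1, h.hP4])
      apply hHG
      intro x hx
      rw [mem_cent]
      intro p hp
      exact hcent x hx p (by rw [h3]; exact hp)
    obtain ⟨e₁, he₁, he₁P⟩ := SetLike.not_le_iff_exists.mp hnP
    have hH₁C : H ⊓ centralizer (P : Set S) ≤ centralizer (E : Set S) := fun x hx =>
      h.cent_of hx.2 he₁.2 he₁P (hcent x hx.1 e₁ he₁)
    obtain ⟨_, x, hx, y, hy, h3, h4, _⟩ := h.lemN' hH₁C hs₁ hQ2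
    exact h4 (hbot e2 _ ⟨hs.comm x hx.1 y hy.1, h3⟩)
  · -- (ii)
    have hEH' := hEH e1
    obtain ⟨l, hl, hl1, hl2⟩ := card2 e2
    have hlE : l ∈ E := hl.2
    have hll : l * l = 1 := by rw [← pow_two]; exact h.hE2 l hlE
    have hcom : ∀ x ∈ H, ∀ e ∈ E, x * e * x⁻¹ = e ∨ x * e * x⁻¹ = e * l := by
      intro x hx e he
      rcases hl2 _ (hcomE x hx e ⟨hEH' he, he⟩) with h3 | h3
      · left; exact mul_inv_eq_one.mp h3
      · right
        have h4 : x * e * x⁻¹ = l * e := by rw [← h3]; group
        rw [h4, h.hEc l hlE e he]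
    have hlc : ∀ x ∈ H, x * l = l * x := by
      intro x hx
      rcases hcom x hx l hlE with h3 | h3
      · calc x * l = x * l * x⁻¹ * x := by group
          _ = l * x := by rw [h3]
      · exfalso
        rw [hll] at h3
        apply hl1
        have : l = x⁻¹ * (x * l * x⁻¹) * x := by group
        rw [this, h3]; group
    obtain ⟨h₀, hh₀, hh₀G⟩ := SetLike.not_le_iff_exists.mp hHG
    obtain ⟨p₀, hp₀, hp₀1⟩ : ∃ p ∈ P, h₀ * p * h₀⁻¹ = p * l := by
      by_contra hno
      push Not at hno
      apply hh₀G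
      rw [mem_cent]
      intro p hp
      rcases hcom h₀ hh₀ p (h.hPE hp) with h3 | h3
      · calc h₀ * p = h₀ * p * h₀⁻¹ * h₀ := by group
          _ = p * h₀ := by rw [h3]
      · exact absurd h3 (hno p hp)
    have hlP : l ∈ P := by
      have h3 := hN h₀ hh₀ p₀ hp₀
      rw [hp₀1] at h3
      have h4 : l = p₀⁻¹ * (p₀ * l) := by group
      rw [h4]; exact mul_mem (inv_mem hp₀) h3
    -- the conjugate b of a
    have hc0l : l ≠ c₀ → h₀ * c₀ * h₀⁻¹ = c₀ * l := by
      intro hne
      rcases hcom h₀ hh₀ c₀ (h.hPE h.hc0) with h3 | h3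
      · exfalso
        apply hh₀G
        rw [mem_cent]
        intro p hp
        have hc₀c : h₀ * c₀ = c₀ * h₀ := by
          calc h₀ * c₀ = h₀ * c₀ * h₀⁻¹ * h₀ := by group
            _ = c₀ * h₀ := by rw [h3]
        by_cases hp1 : p = 1
        · rw [hp1]; group
        by_cases hpl : p = l
        · rw [hpl]; exact hlc h₀ hh₀
        have hl2' : l ^ 2 = 1 := by rw [pow_two]; exact hll
        have h5 := idx2 (A := zpowers l) (B := P) (by rw [zpowers_le]; exact hlP)
          (by rw [h.hP4, Nat.card_zpowers, orderOf_eq_prime hl2' hl1]) h.hc0 hp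
          (by
            intro hm
            rcases mem_zp2 hl2' hm with h6 | h6
            · exact h.hc1 h6
            · exact hne h6.symm)
          (by
            intro hm
            rcases mem_zp2 hl2' hm with h6 | h6
            · exact hp1 h6
            · exact hpl h6)
        rcases mem_zp2 hl2' h5 with h6 | h6
        · rw [(inv_mul_eq_one.mp h6).symm]; exact hc₀c
        · have h7 : p = c₀ * l := by rw [← h6]; group
          rw [h7, ← mul_assoc, hc₀c, mul_assoc, hlc h₀ hh₀]; group
      · exact h3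
    set b := h₀ * a * h₀⁻¹ with hb
    have hbG : b ∈ centralizer (P : Set S) := by
      rw [mem_cent]
      intro p hp
      have h3 : h₀⁻¹ * p * h₀ ∈ P := by simpa using hN h₀⁻¹ (inv_mem hh₀) p hp
      have h4 := mem_cent.mp h.aG _ h3
      calc b * p = h₀ * (a * (h₀⁻¹ * p * h₀)) * h₀⁻¹ := by rw [hb]; group
        _ = p * b := by rw [h4, hb]; group
    have hbe : l ≠ c₀ → ∀ e ∈ E, e ∉ P → b * e * b⁻¹ = e * (c₀ * l) := by
      intro hne e he heP
      have h3 : h₀⁻¹ * e * h₀ ∈ E := by simpa using h.hE.conj_mem e he h₀⁻¹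
      have h4 : h₀⁻¹ * e * h₀ ∉ P := by
        intro h5
        apply heP
        have h6 := hN h₀ hh₀ _ h5
        have h7 : h₀ * (h₀⁻¹ * e * h₀) * h₀⁻¹ = e := by group
        rwa [h7] at h6
      have h5 := h.hac _ h3 h4
      calc b * e * b⁻¹ = h₀ * (a * (h₀⁻¹ * e * h₀) * a⁻¹) * h₀⁻¹ := by rw [hb]; group
        _ = e * (h₀ * c₀ * h₀⁻¹) := by rw [h5]; group
        _ = e * (c₀ * l) := by rw [hc0l hne]
    obtain ⟨e₁, he₁, he₁P⟩ := h.exE
    -- b and b*a do not centralize E
    have hbC : l ≠ c₀ → b ∉ centralizer (E : Set S) := by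
      intro hne hbc
      have h3 := hbe hne e₁ he₁ he₁P
      have h4 := mem_cent.mp hbc e₁ he₁
      have h5 : b * e₁ * b⁻¹ = e₁ := by rw [h4]; group
      rw [h5] at h3
      have h6 : c₀ * l = 1 := mul_eq_left.mp h3.symm
      apply hne
      rw [mul_eq_one_iff_inv_eq] at h6
      rw [← h6, inv_eq_iff_mul_eq_one]; exact h.c0sq
    have hbae : l ≠ c₀ → (b * a) * e₁ * (b * a)⁻¹ = e₁ * l := by
      intro hne
      have h3 := h.hac e₁ he₁ he₁P
      have h4 := hbe hne e₁ he₁ he₁P
      have h5 := mem_cent.mp hbG c₀ h.hc0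
      calc (b * a) * e₁ * (b * a)⁻¹ = b * (a * e₁ * a⁻¹) * b⁻¹ := by group
        _ = (b * e₁ * b⁻¹) * (b * c₀ * b⁻¹) := by rw [h3]; group
        _ = e₁ * (c₀ * l) * c₀ := by rw [h4, h5]; group
        _ = e₁ * (l * (c₀ * c₀)) := by
          rw [h.hEc c₀ (h.hPE h.hc0) l hlE]; group
        _ = e₁ * l := by rw [h.c0sq, mul_one]
    have hbaC : l ≠ c₀ → b * a ∉ centralizer (E : Set S) := by
      intro hne hbc
      have h3 := hbae hne
      have h4 := mem_cent.mp hbc e₁ he₁
      have h5 : (b * a) * e₁ * (b * a)⁻¹ = e₁ := by rw [h4]; group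
      rw [h5] at h3
      exact hl1 (mul_eq_left.mp h3.symm)
    by_cases hH₁C : H ⊓ centralizer (P : Set S) ≤ centralizer (E : Set S)
    · -- sub1
      obtain ⟨⟨r, hr, hnr⟩, x, hx, y, hy, h3, h4, h5⟩ := h.lemN' hH₁C hs₁ hQ2
      have h6 : x * y * x⁻¹ * y⁻¹ = l := by
        rcases hl2 _ ⟨hs.comm x hx.1 y hy.1, h3⟩ with h6 | h6
        · exact absurd h6 h4
        · exact h6
      have hne : l ≠ c₀ := by rw [← h6]; exact h5
      rcases h.two_cosets hr (fun hle => hnr (le_trans (Subgroup.map_mono hH₁C) hle)) hbG with h7 | h7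
      · exact hbC hne h7
      · exact hbaC hne h7
    · -- sub2
      obtain ⟨g, hg, hgC⟩ := SetLike.not_le_iff_exists.mp hH₁C
      have hact : ∀ x ∈ H ⊓ centralizer (P : Set S), x ∉ centralizer (E : Set S) → x * e₁ * x⁻¹ = e₁ * l := by
        intro x hx hxC
        rcases hcom x hx.1 e₁ he₁ with h3 | h3
        · exfalso
          apply hxC
          apply h.cent_of hx.2 he₁ he₁P
          calc x * e₁ = x * e₁ * x⁻¹ * x := by group
            _ = e₁ * x := by rw [h3]
        · exact h3
      have hquot : ∀ x ∈ centralizer (P : Set S), ∀ y ∈ centralizer (P : Set S), x * e₁ * x⁻¹ = y * e₁ * y⁻¹ →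
          x⁻¹ * y ∈ centralizer (E : Set S) := by
        intro x hx y hy hxy
        apply h.cent_of (mul_mem (inv_mem hx) hy) he₁ he₁P
        calc x⁻¹ * y * e₁ = x⁻¹ * (y * e₁ * y⁻¹) * y := by group
          _ = e₁ * (x⁻¹ * y) := by rw [← hxy]; group
      have hge := hact g hg hgC
      have hHH₁ : Nat.card H ≤ 2 * Nat.card (H ⊓ centralizer (P : Set S) : Subgroup S) :=
        card_le_two_mul _ _ (fun x hx y hy hxc hyc => v4' h.hS h.hP4 h.P2 hN hx hy hxc hyc)
      have hH₁D : Nat.card (H ⊓ centralizer (P : Set S) : Subgroup S) ≤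
          2 * Nat.card (H ⊓ centralizer (P : Set S) ⊓ centralizer (E : Set S) : Subgroup S) :=
        card_le_two_mul _ _ (fun x hx y hy hxc hyc => hquot x hx.2 y hy.2 (by rw [hact x hx hxc, hact y hy hyc]))
      have hnotcyc : ∀ r : S ⧸ E, ¬ (H ⊓ centralizer (P : Set S)).map (QuotientGroup.mk' E) ≤ zpowers r := by
        intro r hle
        have := (hs₁.map (QuotientGroup.mk' E)).of_cyclic hle
        omega
      rcases h.caseX with hab | ⟨r, hr, hnr⟩
      · by_cases hlc0 : l = c₀
        · -- 2A, C abelian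
          have hga : g⁻¹ * a ∈ centralizer (E : Set S) := by
            apply hquot g hg.2 a h.aG
            rw [hge, h.hac e₁ he₁ he₁P, hlc0]
          have h3 := card_le_fiber (H ⊓ centralizer (P : Set S) ⊓ centralizer (E : Set S)) (centralizer ({g} : Set S))
            (K : Set S) (fun x => x * g * x⁻¹ * g⁻¹) (fun x hx => hs.comm x hx.1.1 g hg.1) (by
              intro x hx y hy hxy
              rw [mem_centralizer_iff]
              intro b' hb'
              rw [Set.mem_singleton_iff] at hb'
              subst hb'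
              have h1 : x * b' * x⁻¹ = y * b' * y⁻¹ := mul_right_cancel hxy
              calc b' * (x⁻¹ * y) = x⁻¹ * (x * b' * x⁻¹) * y := by group
                _ = x⁻¹ * y * b' := by rw [h1]; group)
          have h4 : Nat.card (H ⊓ centralizer (P : Set S) ⊓ centralizer (E : Set S) ⊓ centralizer ({g} : Set S) :
              Subgroup S) ≤ 4 := by
            rw [← h.hP4]
            apply Subgroup.card_le_of_le
            intro x hx
            apply h.F0 hx.1.2
            have h5 : g * x = x * g := mem_centralizer_iff.mp hx.2 g rfl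
            have h6 := hab x hx.1.2 _ hga
            calc x * a = (x * g) * (g⁻¹ * a) := by group
              _ = g * (x * (g⁻¹ * a)) := by rw [← h5]; group
              _ = a * x := by rw [h6]; group
          have h5 : Nat.card (K : Set S) = Nat.card K := rfl
          rw [h5] at h3
          have h6 : 0 < Nat.card K := Nat.card_pos
          nlinarith
        · -- 2B, C abelian
          by_cases h8 : 8 ≤ Nat.card ((centralizer (P : Set S)).map (QuotientGroup.mk' E))
          · obtain ⟨r, hr⟩ := h.ex_mcs h8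
            by_cases hle : (centralizer (E : Set S)).map (QuotientGroup.mk' E) ≤ zpowers r
            swap
            · rcases h.two_cosets hr hle hbG with h7 | h7
              · exact hbC hlc0 h7
              · exact hbaC hlc0 h7
            obtain ⟨k, hk, hord⟩ := hr.ord
            have hpa : QuotientGroup.mk' E a * QuotientGroup.mk' E a = 1 := by
              rw [← map_mul, ← pow_two, h.ha2, map_one]
            have hbr : QuotientGroup.mk' E b ∉ zpowers r := by
              intro hbr
              have h9 : QuotientGroup.mk' E b = r ^ (2 ^ (k - 1)) := by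
                apply invol_unique (by omega) hord hbr
                · rw [← map_pow, hb, conj_pow, h.ha2]; simp
                · intro h10
                  have h11 := pi_one.mp h10
                  exact hbC hlc0 (h.EC h11)
              have h10 := hr.invol_central hk hord hpa
              rw [← h9] at h10
              have h12 : (centralizer (P : Set S)).map (QuotientGroup.mk' E) ≤
                  (centralizer (P : Set S)).map (QuotientGroup.mk' E) ⊓
                    centralizer ({QuotientGroup.mk' E a} : Set (S ⧸ E)) := by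
                rintro _ ⟨x, hx, rfl⟩
                refine ⟨⟨x, hx, rfl⟩, ?_⟩
                change QuotientGroup.mk' E x ∈ centralizer ({QuotientGroup.mk' E a} : Set (S ⧸ E))
                rw [mem_centralizer_iff]
                intro z hz
                rw [Set.mem_singleton_iff] at hz
                subst hz
                have hx' : x ∈ centralizer (P : Set S) := hx
                have h13 : h₀ * x * h₀⁻¹ ∈ centralizer (P : Set S) := by
                  rw [mem_cent]
                  intro p hp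
                  have h3 : h₀⁻¹ * p * h₀ ∈ P := by simpa using hN h₀⁻¹ (inv_mem hh₀) p hp
                  have h4 := mem_cent.mp hx' _ h3
                  calc h₀ * x * h₀⁻¹ * p = h₀ * (x * (h₀⁻¹ * p * h₀)) * h₀⁻¹ := by group
                    _ = p * (h₀ * x * h₀⁻¹) := by rw [h4]; group
                have h14 := h10 _ ⟨_, h13, rfl⟩
                rw [hb] at h14
                simp only [map_mul, map_inv] at h14
                calc QuotientGroup.mk' E a * QuotientGroup.mk' E x
                    = (QuotientGroup.mk' E h₀)⁻¹ * ((QuotientGroup.mk' E h₀ * QuotientGroup.mk' E a * (QuotientGroup.mk' E h₀)⁻¹) *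
                      (QuotientGroup.mk' E h₀ * QuotientGroup.mk' E x * (QuotientGroup.mk' E h₀)⁻¹)) * QuotientGroup.mk' E h₀ := by group
                  _ = QuotientGroup.mk' E x * QuotientGroup.mk' E a := by rw [← h14]; group
              have h13 := Subgroup.card_le_of_le h12
              have h14 := h.card4
              omega
            have hba := (hr.cov _ ⟨b, hbG, rfl⟩).resolve_left hbr
            have hgr : QuotientGroup.mk' E g ∈ zpowers r := by
              have h9 : (b * a)⁻¹ * g ∈ centralizer (E : Set S) := by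
                apply hquot _ (mul_mem hbG h.aG) g hg.2
                rw [hbae hlc0, hge]
              have h10 : QuotientGroup.mk' E ((b * a)⁻¹ * g) ∈ zpowers r := hle ⟨_, h9, rfl⟩
              have h11 : QuotientGroup.mk' E g = (QuotientGroup.mk' E b * QuotientGroup.mk' E a) *
                  QuotientGroup.mk' E ((b * a)⁻¹ * g) := by
                rw [← map_mul, ← map_mul]; congr 1; group
              rw [h11]; exact mul_mem hba h10
            apply hnotcyc r
            rintro _ ⟨x, hx, rfl⟩
            by_cases hxC : x ∈ centralizer (E : Set S)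
            · exact hle ⟨x, hxC, rfl⟩
            · have h9 : g⁻¹ * x ∈ centralizer (E : Set S) := by
                apply hquot g hg.2 x hx.2
                rw [hge, hact x hx hxC]
              have h10 : QuotientGroup.mk' E (g⁻¹ * x) ∈ zpowers r := hle ⟨_, h9, rfl⟩
              have h11 : QuotientGroup.mk' E x = QuotientGroup.mk' E g * QuotientGroup.mk' E (g⁻¹ * x) := by
                rw [← map_mul]; congr 1; group
              rw [h11]; exact mul_mem hgr h10
          · -- |C(P)/E| ≤ 4
            have h9 := Nat.card_pos (α := (K ⊓ centralizer (P : Set S)).map (QuotientGroup.mk' E))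
            have h10 : (H ⊓ centralizer (P : Set S)).map (QuotientGroup.mk' E) =
                (centralizer (P : Set S)).map (QuotientGroup.mk' E) := by
              by_contra hne
              have hlt := lt_of_le_of_ne (Subgroup.map_mono (f := QuotientGroup.mk' E)
                (inf_le_right : H ⊓ centralizer (P : Set S) ≤ centralizer (P : Set S))) hne
              have h11 := two_mul_card_le hlt
              obtain ⟨n, hn⟩ := IsPGroup.iff_card.mp (h.pgr ((centralizer (P : Set S)).map (QuotientGroup.mk' E)))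
              have h12 := pow2_le _ n (by omega) hn
              omega
            have h11 : QuotientGroup.mk' E a ∈ (H ⊓ centralizer (P : Set S)).map (QuotientGroup.mk' E) := by
              rw [h10]; exact ⟨a, h.aG, rfl⟩
            obtain ⟨w, hw, hwa⟩ := h11
            have h12 : a ∈ H := by
              have h13 : a = w * (w⁻¹ * a) := by group
              rw [h13]
              exact mul_mem hw.1 (hEH' (pi_eq.mp hwa))
            have h13 := h.bound_mem hs hN (x := 1) (one_mem _) (by simpa using h12)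
            omega
      · -- C(E)/E not in the cyclic subgroup
        obtain ⟨hev, hod⟩ := h.evenX hr hnr
        have hpa : QuotientGroup.mk' E a * QuotientGroup.mk' E a = 1 := by
          rw [← map_mul, ← pow_two, h.ha2, map_one]
        -- an element of H congruent to a conjugate of a
        have hconj : ∀ w ∈ H, (∃ i : ℤ, QuotientGroup.mk' E w = r ^ (2 * i) * QuotientGroup.mk' E a) → False := by
          rintro w hw ⟨i, hi⟩
          obtain ⟨j, hj⟩ := hr.conj i
          obtain ⟨x, hx, hxr⟩ : r ^ j ∈ (centralizer (P : Set S)).map (QuotientGroup.mk' E) := zpow_mem hr.rr j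
          have h9 : QuotientGroup.mk' E w = QuotientGroup.mk' E (x * a * x⁻¹) := by
            rw [hi, ← hj, map_mul, map_mul, map_inv, hxr]
          have h10 : x * a * x⁻¹ ∈ H := by
            have h11 : x * a * x⁻¹ = w * (w⁻¹ * (x * a * x⁻¹)) := by group
            rw [h11]
            exact mul_mem hw (hEH' (pi_eq.mp h9))
          have h11 := h.bound_mem hs hN hx h10
          omega
        have hdich : ∀ w ∈ H ⊓ centralizer (P : Set S), w ∉ centralizer (E : Set S) →
            ∃ i : ℤ, QuotientGroup.mk' E w = r ^ (2 * i + 1) := by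
          intro w hw hwC
          rcases hr.cov (QuotientGroup.mk' E w) ⟨w, hw.2, rfl⟩ with h1 | h1
          · obtain ⟨n, hn⟩ := mem_zpowers_iff.mp h1
            rcases Int.even_or_odd' n with ⟨i, rfl | rfl⟩
            · exfalso; apply hwC; apply h.memC; rw [← hn]; exact hev i
            · exact ⟨i, hn.symm⟩
          · exfalso
            obtain ⟨n, hn⟩ := mem_zpowers_iff.mp h1
            have h2 : QuotientGroup.mk' E w = r ^ n * QuotientGroup.mk' E a := by
              rw [hn, mul_assoc, hpa, mul_one]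
            rcases Int.even_or_odd' n with ⟨i, rfl | rfl⟩
            · exact hconj w hw.1 ⟨i, h2⟩
            · apply hwC; apply h.memC; rw [h2]; exact hod i
        obtain ⟨n, hn⟩ := hdich g hg hgC
        obtain ⟨_, ⟨w, hw, rfl⟩, hwr⟩ := SetLike.not_le_iff_exists.mp (hnotcyc r)
        have hw2 := (hr.cov (QuotientGroup.mk' E w) ⟨w, hw.2, rfl⟩).resolve_left hwr
        obtain ⟨j, hj⟩ := mem_zpowers_iff.mp hw2
        have h2 : QuotientGroup.mk' E w = r ^ j * QuotientGroup.mk' E a := by
          rw [hj, mul_assoc, hpa, mul_one]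
        rcases Int.even_or_odd' j with ⟨i, rfl | rfl⟩
        · exact hconj w hw.1 ⟨i, h2⟩
        · apply hconj (g * w) (mul_mem hg.1 hw.1)
          refine ⟨n + i + 1, ?_⟩
          rw [map_mul, hn, h2, ← mul_assoc, ← zpow_add]
          congr 2; ring

end Ctx

end Cfsg.Agent.Lib.H47Rk
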