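import Cfsg.Agent.Lib.H47RkE

/-!
Harada: the case where `C_E(a)` is not normal (helper47, for S1232).
-/

set_option autoImplicit false
set_option linter.unusedSectionVars false

namespace Cfsg.Agent.Lib.H47Rk

open Subgroup

universe u

variable {S : Type u} [Group S] [Finite S]

namespace Ctx

variable {E P : Subgroup S} {a c₀ : S}

theorem comm_of_zp (h : Ctx E P a c₀) [E.Normal] {r : S ⧸ E} {x y : S}
    (hx : x ∈ centralizer (E : Set S)) (hy : y ∈ centralizer (E : Set S))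
    (hxr : QuotientGroup.mk' E x ∈ zpowers r) (hyr : QuotientGroup.mk' E y ∈ zpowers r) : x * y = y * x := by
  set D := centralizer (E : Set S) ⊓ (zpowers r).comap (QuotientGroup.mk' E) with hD
  have hDle : D.map (QuotientGroup.mk' E) ≤ zpowers r := by
    rintro _ ⟨d, hd, rfl⟩; exact hd.2
  have h1 : IsCyclic (D.map (QuotientGroup.mk' E)) := by
    have : IsCyclic (zpowers r) := inferInstance
    exact isCyclic_of_injective (Subgroup.inclusion hDle) (Subgroup.inclusion_injective hDle)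
  obtain ⟨⟨_, ⟨w, hw, rfl⟩⟩, hgen⟩ := h1.exists_generator
  have h2 : ∀ x ∈ D, ∃ i : ℤ, ∃ e ∈ E, x = w ^ i * e := by
    intro x hx
    obtain ⟨i, hi⟩ := mem_zpowers_iff.mp (hgen ⟨_, ⟨x, hx, rfl⟩⟩)
    have h3 : QuotientGroup.mk' E (w ^ i) = QuotientGroup.mk' E x := by
      rw [map_zpow]; exact congrArg Subtype.val hi
    exact ⟨i, (w ^ i)⁻¹ * x, pi_eq.mp h3, by group⟩
  obtain ⟨i, e, he, rfl⟩ := h2 x ⟨hx, hxr⟩
  obtain ⟨j, f, hf, rfl⟩ := h2 y ⟨hy, hyr⟩
  have hw' : w ∈ centralizer (E : Set S) := hw.1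
  have c1 : w ^ i * f = f * w ^ i := mem_cent.mp (zpow_mem hw' i) f hf
  have c2 : w ^ j * e = e * w ^ j := mem_cent.mp (zpow_mem hw' j) e he
  have c3 := h.hEc e he f hf
  calc w ^ i * e * (w ^ j * f) = w ^ i * (e * w ^ j) * f := by group
    _ = w ^ i * w ^ j * (e * f) := by rw [← c2]; group
    _ = w ^ j * (w ^ i * f) * e := by rw [c3]; group
    _ = w ^ j * f * (w ^ i * e) := by rw [c1]; group

/-- either `C(E)/E` is cyclic, or `C(P)/E` is of maximal class and `C(E)/E` noncyclic -/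
theorem caseY (h : Ctx E P a c₀) [E.Normal] :
    (∃ w : S ⧸ E, (centralizer (E : Set S)).map (QuotientGroup.mk' E) ≤ zpowers w) ∨
    ∃ r, MCS ((centralizer (P : Set S)).map (QuotientGroup.mk' E)) (QuotientGroup.mk' E a) r ∧
      ¬ (centralizer (E : Set S)).map (QuotientGroup.mk' E) ≤ zpowers r := by
  by_cases h8 : 8 ≤ Nat.card ((centralizer (P : Set S)).map (QuotientGroup.mk' E))
  · obtain ⟨r, hr⟩ := h.ex_mcs h8
    by_cases hle : (centralizer (E : Set S)).map (QuotientGroup.mk' E) ≤ zpowers r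
    · exact Or.inl ⟨r, hle⟩
    · exact Or.inr ⟨r, hr, hle⟩
  · left
    obtain ⟨n, hn⟩ := IsPGroup.iff_card.mp (h.pgr ((centralizer (P : Set S)).map (QuotientGroup.mk' E)))
    have h4 := pow2_le _ n (by omega) hn
    have h5 := two_mul_card_le h.ltX
    rcases Nat.lt_or_ge (Nat.card ((centralizer (E : Set S)).map (QuotientGroup.mk' E))) 2 with h6 | h6
    · refine ⟨1, ?_⟩
      have h7 : Nat.card ((centralizer (E : Set S)).map (QuotientGroup.mk' E)) = 1 := by
        have := Nat.card_pos (α := (centralizer (E : Set S)).map (QuotientGroup.mk' E))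
        omega
      rw [Subgroup.card_eq_one] at h7
      rw [h7]; exact bot_le
    · obtain ⟨l, hl, hl1, hlx⟩ := card2 (A := (centralizer (E : Set S)).map (QuotientGroup.mk' E)) (by omega)
      refine ⟨l, fun x hx => ?_⟩
      rcases hlx x hx with e | e
      · rw [e]; exact one_mem _
      · rw [e]; exact mem_zpowers l

/-- in the noncyclic case there is a central involution outside `{1, c₀}` -/
theorem central_of (h : Ctx E P a c₀) [E.Normal] {r : S ⧸ E}
    (hm : MCS ((centralizer (P : Set S)).map (QuotientGroup.mk' E)) (QuotientGroup.mk' E a) r)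
    (hnr : ¬ (centralizer (E : Set S)).map (QuotientGroup.mk' E) ≤ zpowers r) :
    ∃ t ∈ E, t ≠ 1 ∧ t ≠ c₀ ∧ ∀ g : S, g * t = t * g := by
  obtain ⟨hev, hod⟩ := h.evenX hm hnr
  obtain ⟨k, hk, hord⟩ := hm.ord
  obtain ⟨_, ⟨y, hyC, rfl⟩, hyr⟩ := SetLike.not_le_iff_exists.mp hnr
  have hyC' : y ∈ centralizer (E : Set S) := hyC
  obtain ⟨s, hsC, hps, h1, h2, h3, _, ⟨m, hmm⟩⟩ := h.core hm hk hord hyC hyr
  have hCn := h.Cn
  have hXn : ((centralizer (E : Set S)).map (QuotientGroup.mk' E)).Normal :=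
    hCn.map _ (QuotientGroup.mk'_surjective E)
  have hpa : QuotientGroup.mk' E a * QuotientGroup.mk' E a = 1 := by
    rw [← map_mul, ← pow_two, h.ha2, map_one]
  -- s̄ is central
  obtain ⟨x₀, hx₀X, hx₀1, hx₀c⟩ := H32PGroup.exists_mem_center_of_normal (p := 2) (h.hS.to_quotient E)
    ((centralizer (E : Set S)).map (QuotientGroup.mk' E)) (by
      intro he
      apply hnr; rw [he]; exact bot_le)
  have hx₀c' : ∀ g, g * x₀ = x₀ * g := fun g => (mem_center_iff.mp hx₀c g)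
  have hx₀r : x₀ ∈ zpowers r := by
    rcases hm.cov x₀ (h.ltX.le hx₀X) with h4 | h4
    · exact h4
    · exfalso
      obtain ⟨n, hn⟩ := mem_zpowers_iff.mp h4
      have h5 : x₀ = r ^ n * QuotientGroup.mk' E a := by rw [hn, mul_assoc, hpa, mul_one]
      obtain ⟨j, hj⟩ := hm.conj 1
      have h6 : r ^ j * x₀ = x₀ * r ^ j := hx₀c' (r ^ j)
      have h7 : r ^ j * QuotientGroup.mk' E a * (r ^ j)⁻¹ = QuotientGroup.mk' E a := by
        rw [h5] at h6
        have h8 : r ^ n * (r ^ j * QuotientGroup.mk' E a) = r ^ n * (QuotientGroup.mk' E a * r ^ j) := by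
          calc r ^ n * (r ^ j * QuotientGroup.mk' E a) = (r ^ n * r ^ j) * QuotientGroup.mk' E a := by group
            _ = (r ^ j * r ^ n) * QuotientGroup.mk' E a := by rw [← zpow_add, ← zpow_add, add_comm]
            _ = r ^ j * (r ^ n * QuotientGroup.mk' E a) := by group
            _ = r ^ n * (QuotientGroup.mk' E a * r ^ j) := by rw [h6]; group
        have h9 := mul_left_cancel h8
        rw [h9]; group
      rw [h7] at hj
      have h10 : r ^ (2 * 1 : ℤ) = 1 := mul_eq_right.mp hj.symm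
      rw [← orderOf_dvd_iff_zpow_eq_one, hord] at h10
      have h11 : (2 ^ k : ℕ) ∣ 2 := by exact_mod_cast h10
      have h12 := Nat.le_of_dvd (by norm_num) h11
      have h13 : 2 ^ 2 ≤ 2 ^ k := Nat.pow_le_pow_right (by norm_num) hk
      omega
  have hx₀s : x₀ = r ^ (2 ^ (k - 1)) := by
    apply invol_unique (by omega) hord hx₀r ?_ hx₀1
    obtain ⟨c₁, hc₁, rfl⟩ := hx₀X
    have hc₁' : c₁ ∈ centralizer (E : Set S) := hc₁
    have h4 : c₁ * a * c₁⁻¹ * a⁻¹ ∈ E := by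
      rw [← pi_one (E := E), map_mul, map_mul, map_mul, map_inv, map_inv, ← hx₀c']
      group
    have h5 := h.commP h4
    have h6 := mem_cent.mp hc₁' _ h4
    have h7 := h.hE2 _ h4
    have h8 : c₁ ^ 2 ∈ P := by
      apply h.F0 (pow_mem hc₁' 2)
      set κ := c₁ * a * c₁⁻¹ * a⁻¹ with hκ
      have h9 : c₁ * a = κ * a * c₁ := by rw [hκ]; group
      calc c₁ ^ 2 * a = c₁ * (c₁ * a) := by rw [pow_two]; group
        _ = (c₁ * κ) * a * c₁ := by rw [h9]; group
        _ = κ * (c₁ * a) * c₁ := by rw [h6]; group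
        _ = (κ ^ 2) * a * c₁ ^ 2 := by rw [h9, pow_two, pow_two]; group
        _ = a * c₁ ^ 2 := by rw [h7, one_mul]
    rw [← map_pow, pi_one]; exact h.hPE h8
  -- the commutator with s
  set t := s⁻¹ * y⁻¹ * s * y with ht
  have htE : t ∈ E := h1
  have hys : y⁻¹ * s * y = s * t := by rw [ht]; group
  have hzc : ∀ c ∈ centralizer (E : Set S), QuotientGroup.mk' E c ∈ zpowers r → c * s = s * c :=
    fun c hc hcr => h.comm_of_zp hc hsC hcr (by rw [hps]; exact pow_mem (mem_zpowers r) _)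
  have hτ : ∀ c ∈ centralizer (E : Set S), s⁻¹ * c⁻¹ * s * c = 1 ∨ s⁻¹ * c⁻¹ * s * c = t := by
    intro c hc
    by_cases hcr : QuotientGroup.mk' E c ∈ zpowers r
    · left
      have h4 := hzc c hc hcr
      calc s⁻¹ * c⁻¹ * s * c = s⁻¹ * c⁻¹ * (s * c) := by group
        _ = 1 := by rw [← h4]; group
    · right
      have h4 : QuotientGroup.mk' E (y⁻¹ * c) ∈ zpowers r := by
        rw [map_mul, map_inv]
        exact hm.mul_mem' ⟨y, h.CG hyC', rfl⟩ ⟨c, h.CG hc, rfl⟩ hyr hcr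
      have h5 := hzc _ (mul_mem (inv_mem hyC') hc) h4
      have h6 : t * (y⁻¹ * c) = (y⁻¹ * c) * t := (mem_cent.mp (mul_mem (inv_mem hyC') hc) t htE).symm
      calc s⁻¹ * c⁻¹ * s * c = s⁻¹ * (y⁻¹ * c)⁻¹ * (y⁻¹ * s * y) * (y⁻¹ * c) := by group
        _ = s⁻¹ * (y⁻¹ * c)⁻¹ * s * (t * (y⁻¹ * c)) := by rw [hys]; group
        _ = s⁻¹ * (y⁻¹ * c)⁻¹ * (s * (y⁻¹ * c)) * t := by rw [h6]; group
        _ = t := by rw [← h5]; group
  refine ⟨t, htE, h2, h3, fun g => ?_⟩
  have h4 : g * s * g⁻¹ * s⁻¹ ∈ E := by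
    rw [← pi_one (E := E), map_mul, map_mul, map_mul, map_inv, map_inv, hps, ← hx₀s, hx₀c']
    group
  set e := g * s * g⁻¹ * s⁻¹ with he
  have h5 : g * s * g⁻¹ = e * s := by rw [he]; group
  have h6 : g * y * g⁻¹ ∈ centralizer (E : Set S) := hCn.conj_mem y hyC' g
  have h7 : (g * y * g⁻¹) * e = e * (g * y * g⁻¹) := mem_cent.mp h6 e h4
  have h8 : g * t * g⁻¹ = s⁻¹ * (g * y * g⁻¹)⁻¹ * s * (g * y * g⁻¹) := by
    have h9 : (g * y * g⁻¹)⁻¹ * e = e * (g * y * g⁻¹)⁻¹ := by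
      calc (g * y * g⁻¹)⁻¹ * e = (g * y * g⁻¹)⁻¹ * (e * (g * y * g⁻¹)) * (g * y * g⁻¹)⁻¹ := by group
        _ = e * (g * y * g⁻¹)⁻¹ := by rw [← h7]; group
    calc g * t * g⁻¹ = (g * s * g⁻¹)⁻¹ * (g * y * g⁻¹)⁻¹ * (g * s * g⁻¹) * (g * y * g⁻¹) := by rw [ht]; group
      _ = s⁻¹ * e⁻¹ * ((g * y * g⁻¹)⁻¹ * e) * s * (g * y * g⁻¹) := by rw [h5]; group
      _ = s⁻¹ * (g * y * g⁻¹)⁻¹ * s * (g * y * g⁻¹) := by rw [h9]; group
  rcases hτ _ h6 with h9 | h9
  · exfalso
    rw [h9] at h8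
    apply h2
    have : t = g⁻¹ * (g * t * g⁻¹) * g := by group
    rw [this, h8]; group
  · rw [h9] at h8
    calc g * t = g * t * g⁻¹ * g := by group
      _ = t * g := by rw [h8]

end Ctx

end Cfsg.Agent.Lib.H47Rk
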