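import Cfsg.Agent.Lib.H47RkF

/-!
Harada: the case where `C_E(a)` is not normal, the bound (helper47, for S1232).
-/

set_option autoImplicit false
set_option linter.unusedSectionVars false

namespace Cfsg.Agent.Lib.H47Rk

open Subgroup

universe u

variable {S : Type u} [Group S] [Finite S]

theorem cent_normal {Q : Subgroup S} (hQ : Q.Normal) : (centralizer (Q : Set S)).Normal := by
  refine ⟨fun c hc g => mem_cent.mpr fun e he => ?_⟩
  have h1 : g⁻¹ * e * g ∈ Q := by simpa using hQ.conj_mem e he g⁻¹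
  have h2 := mem_cent.mp hc _ h1
  calc g * c * g⁻¹ * e = g * (c * (g⁻¹ * e * g)) * g⁻¹ := by group
    _ = e * (g * c * g⁻¹) := by rw [h2]; group

/-- an element centralizing a subgroup of index two and another element -/
theorem cent_of' {E Q : Subgroup S} (hQE : Q ≤ E) (hc : Nat.card E = 2 * Nat.card Q) {g e₁ : S}
    (hg : ∀ q ∈ Q, g * q = q * g) (he₁ : e₁ ∈ E) (he₁Q : e₁ ∉ Q) (h1 : g * e₁ = e₁ * g) :
    g ∈ centralizer (E : Set S) := by
  rw [mem_cent]
  intro e he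
  by_cases heQ : e ∈ Q
  · exact hg e heQ
  · have h3 := idx2 hQE hc he₁ he he₁Q heQ
    have h2 := hg _ h3
    calc g * e = (g * e₁) * (e₁⁻¹ * e) := by group
      _ = e₁ * (g * (e₁⁻¹ * e)) := by rw [h1]; group
      _ = e * g := by rw [h2]; group

namespace Ctx

variable {E P : Subgroup S} {a c₀ : S}

set_option maxHeartbeats 1000000 in
theorem bound2 (h : Ctx E P a c₀) [E.Normal] {H K : Subgroup S} (hs : Sec H K)
    (hN : ∃ x ∈ H, ∃ p ∈ P, x * p * x⁻¹ ∉ P) : Nat.card H ≤ 16 * Nat.card K := by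
  by_contra hcon
  push Not at hcon
  obtain ⟨x₁, hx₁, p₁, hp₁, hxp₁⟩ := hN
  have hPn : ¬ P.Normal := fun hn => hxp₁ (hn.conj_mem p₁ hp₁ x₁)
  -- a central involution in E
  have hE1 : E ≠ ⊥ := by
    intro he; have := h.hE8; rw [he, Subgroup.card_bot] at this; omega
  obtain ⟨l₀, hl₀E, hl₀1, hl₀c⟩ := H32PGroup.exists_mem_center_of_normal (p := 2) h.hS E hE1
  have hl₀c' : ∀ g, g * l₀ = l₀ * g := fun g => mem_center_iff.mp hl₀c g
  have hl₀P : l₀ ∈ P := (h.hPa l₀ hl₀E).mp (hl₀c' a).symm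
  have hl₀2 : l₀ ^ 2 = 1 := h.hE2 l₀ hl₀E
  have hzl₀ : Nat.card (zpowers l₀) = 2 := by rw [Nat.card_zpowers]; exact orderOf_eq_prime hl₀2 hl₀1
  have hzn : (zpowers l₀).Normal := by
    refine ⟨fun n hn g => ?_⟩
    have h1 : g * n * g⁻¹ = n := by
      obtain ⟨i, rfl⟩ := mem_zpowers_iff.mp hn
      have h2 : Commute g l₀ := hl₀c' g
      rw [(h2.zpow_right i).eq]; group
    rw [h1]; exact hn
  obtain ⟨P₀, hP₀n, hl₀P₀, hP₀E, hP₀4⟩ := PGroupOdd.exists_normal_card (p := 2) h.hS h.hE hzn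
    (by rw [zpowers_le]; exact hl₀E) (j := 1) (k := 2) (by rw [hzl₀]; norm_num) (by norm_num)
    (by rw [h.hE8]; norm_num)
  have hP₀4' : Nat.card P₀ = 4 := by rw [hP₀4]; norm_num
  have hP₀2 : ∀ x ∈ P₀, x ^ 2 = 1 := fun x hx => h.hE2 x (hP₀E hx)
  have hl₀P₀' : l₀ ∈ P₀ := hl₀P₀ (mem_zpowers l₀)
  have hP₀P : ¬ P₀ ≤ P := by
    intro hle
    have h1 : P₀ = P := Subgroup.eq_of_le_of_card_ge hle (by rw [hP₀4', h.hP4])
    rw [h1] at hP₀n; exact hPn hP₀n
  obtain ⟨q₁, hq₁, hq₁P⟩ := SetLike.not_le_iff_exists.mp hP₀P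
  have hc₀P₀ : c₀ ∈ P₀ := by
    have h1 := h.hac q₁ (hP₀E hq₁) hq₁P
    have h2 := hP₀n.conj_mem q₁ hq₁ a
    rw [h1] at h2
    have h3 : c₀ = q₁⁻¹ * (q₁ * c₀) := by group
    rw [h3]; exact mul_mem (inv_mem hq₁) h2
  have hlt : P₀ ⊓ P < P₀ := lt_of_le_of_ne inf_le_left (fun he => hP₀P (by rw [← he]; exact inf_le_right))
  have hcap2 : Nat.card (P₀ ⊓ P : Subgroup S) ≤ 2 := by
    have := two_mul_card_le hlt; omega
  have hc₀l₀ : c₀ = l₀ := by
    have h2 : Nat.card (P₀ ⊓ P : Subgroup S) = 2 := by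
      have h3 : zpowers l₀ ≤ P₀ ⊓ P := by rw [zpowers_le]; exact ⟨hl₀P₀', hl₀P⟩
      have := Subgroup.card_le_of_le h3
      omega
    obtain ⟨l, hl, hl1, hlx⟩ := card2 h2
    rcases hlx c₀ ⟨hc₀P₀, h.hc0⟩ with h3 | h3
    · exact absurd h3 h.hc1
    rcases hlx l₀ ⟨hl₀P₀', hl₀P⟩ with h4 | h4
    · exact absurd h4 hl₀1
    rw [h3, h4]
  have hc₀c : ∀ g, g * c₀ = c₀ * g := by rw [hc₀l₀]; exact hl₀c'
  have hc₀2 : c₀ ^ 2 = 1 := by rw [hc₀l₀]; exact hl₀2
  have hzc₀ : Nat.card (zpowers c₀) = 2 := by rw [hc₀l₀]; exact hzl₀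
  have hP₀E2 : Nat.card E = 2 * Nat.card P₀ := by rw [hP₀4', h.hE8]
  -- action on P₀
  have hactP₀ : ∀ x : S, ∀ p ∈ P₀, x * p * x⁻¹ = p ∨ x * p * x⁻¹ = p * c₀ := by
    intro x p hp
    by_cases hpz : p ∈ zpowers c₀
    · left
      rcases mem_zp2 hc₀2 hpz with h1 | h1
      · rw [h1]; group
      · rw [h1, hc₀c]; group
    · have h1 : x * p * x⁻¹ ∉ zpowers c₀ := by
        intro h2
        apply hpz
        have h3 : p = x⁻¹ * (x * p * x⁻¹) * x := by group
        rcases mem_zp2 hc₀2 h2 with h4 | h4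
        · rw [h3, h4]; simp
        · rw [h3, h4, mul_assoc, ← hc₀c]; simp
      have h2 := idx2 (A := zpowers c₀) (B := P₀) (by rw [zpowers_le]; exact hc₀P₀) (by rw [hP₀4', hzc₀]) hp
        (hP₀n.conj_mem p hp x) hpz h1
      rcases mem_zp2 hc₀2 h2 with h3 | h3
      · left; exact (inv_mul_eq_one.mp h3).symm
      · right; rw [← h3]; group
  -- C(E)/E is cyclic
  have hcyc : ∃ w : S ⧸ E, (centralizer (E : Set S)).map (QuotientGroup.mk' E) ≤ zpowers w := by
    rcases h.caseY with h1 | ⟨r, hr, hnr⟩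
    · exact h1
    · exfalso
      obtain ⟨t, htE, ht1, htc, htz⟩ := h.central_of hr hnr
      have htP : t ∈ P := (h.hPa t htE).mp (htz a).symm
      have htc₀ : t ∉ zpowers c₀ := by
        intro h2
        rcases mem_zp2 hc₀2 h2 with h3 | h3
        · exact ht1 h3
        · exact htc h3
      apply hxp₁
      have h3 : x₁ * p₁ * x₁⁻¹ = p₁ := by
        have h4 : x₁ * p₁ = p₁ * x₁ := by
          by_cases hp : p₁ ∈ zpowers c₀
          · rcases mem_zp2 hc₀2 hp with h5 | h5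
            · rw [h5]; group
            · rw [h5]; exact hc₀c x₁
          · have h5 := idx2 (A := zpowers c₀) (B := P) (by rw [zpowers_le]; exact h.hc0) (by rw [h.hP4, hzc₀]) htP hp₁
              htc₀ hp
            rcases mem_zp2 hc₀2 h5 with h6 | h6
            · rw [← inv_mul_eq_one.mp h6]; exact htz x₁
            · have h7 : p₁ = t * c₀ := by rw [← h6]; group
              rw [h7, ← mul_assoc, htz x₁, mul_assoc, hc₀c x₁]; group
        rw [h4]; group
      rw [h3]; exact hp₁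
  obtain ⟨w, hw⟩ := hcyc
  have hab := h.abel_of_le hw
  have hCn := h.Cn
  -- counting
  have cHC := card_map_mul H (centralizer (E : Set S))
  have cKC := card_map_mul K (centralizer (E : Set S))
  have cDE := card_map_mul (H ⊓ centralizer (E : Set S)) E
  have cLE := card_map_mul (K ⊓ centralizer (E : Set S)) E
  have hinf : ∀ A : Subgroup S, A ⊓ centralizer (E : Set S) ⊓ E = A ⊓ E := by
    intro A
    rw [inf_assoc, inf_eq_right.mpr h.EC]
  rw [hinf] at cDE cLE
  have hd2 : Nat.card ((H ⊓ centralizer (E : Set S)).map (QuotientGroup.mk' E)) ≤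
      2 * Nat.card ((K ⊓ centralizer (E : Set S)).map (QuotientGroup.mk' E)) :=
    ((hs.inf (centralizer (E : Set S))).map (QuotientGroup.mk' E)).of_cyclic
      ((Subgroup.map_mono inf_le_right).trans hw)
  have heH := card_dvd8 h.hE8 H
  have heK := card_dvd8 h.hE8 K
  have hcomE : ∀ x ∈ H, ∀ e ∈ H ⊓ E, x * e * x⁻¹ * e⁻¹ ∈ K ⊓ E := by
    intro x hx e he
    refine ⟨hs.comm x hx e he.1, ?_⟩
    exact E.mul_mem (h.hE.conj_mem e he.2 x) (E.inv_mem he.2)
  have hEH : Nat.card (H ⊓ E : Subgroup S) = 8 → E ≤ H := by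
    intro h1
    have h2 : H ⊓ E = E := Subgroup.eq_of_le_of_card_ge inf_le_right (by rw [h1, h.hE8])
    rw [← h2]; exact inf_le_left
  have hbot : Nat.card (K ⊓ E : Subgroup S) = 1 → ∀ x ∈ K ⊓ E, x = 1 := by
    intro h1 x hx
    rw [Subgroup.card_eq_one] at h1
    rw [h1] at hx
    exact mem_bot.mp hx
  have hfull : ¬ (Nat.card (H ⊓ E : Subgroup S) = 8 ∧ Nat.card (K ⊓ E : Subgroup S) = 1) := by
    rintro ⟨h1, h2⟩
    apply hxp₁
    have h3 := hbot h2 _ (hcomE x₁ hx₁ p₁ ⟨hEH h1 (h.hPE hp₁), h.hPE hp₁⟩)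
    have h4 : x₁ * p₁ * x₁⁻¹ = p₁ := mul_inv_eq_one.mp h3
    rw [h4]; exact hp₁
  have hkC0 : 0 < Nat.card (K.map (QuotientGroup.mk' (centralizer (E : Set S)))) := Nat.card_pos
  have hdK0 : 0 < Nat.card ((K ⊓ centralizer (E : Set S)).map (QuotientGroup.mk' E)) := Nat.card_pos
  -- the fibre bound over P₀
  obtain ⟨e₀, he₀, he₀P₀⟩ : ∃ e ∈ E, e ∉ P₀ := by
    by_contra hno
    push Not at hno
    have := Subgroup.card_le_of_le (show E ≤ P₀ from hno)
    omega
  have hfibP₀ : ∀ A : Subgroup S, A ≤ centralizer (P₀ : Set S) →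
      Nat.card A ≤ 4 * Nat.card (A ⊓ centralizer (E : Set S) : Subgroup S) := by
    intro A hA
    have h1 := card_le_fiber A (centralizer (E : Set S)) (P₀ : Set S) (fun x => x * e₀ * x⁻¹ * e₀⁻¹) (by
        intro x hx
        have h2 : x * e₀ * x⁻¹ ∈ E := h.hE.conj_mem e₀ he₀ x
        have h3 : x * e₀ * x⁻¹ ∉ P₀ := by
          intro h4
          apply he₀P₀
          have h5 := hP₀n.conj_mem _ h4 x⁻¹
          have h6 : x⁻¹ * (x * e₀ * x⁻¹) * x⁻¹⁻¹ = e₀ := by group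
          rwa [h6] at h5
        have h4 := idx2 hP₀E hP₀E2 he₀ h2 he₀P₀ h3
        have h5 : x * e₀ * x⁻¹ * e₀⁻¹ = e₀⁻¹ * (x * e₀ * x⁻¹) :=
          h.hEc _ h2 _ (inv_mem he₀)
        rw [h5]; exact h4) (by
        intro x hx y hy hxy
        have h2 : x * e₀ * x⁻¹ = y * e₀ * y⁻¹ := mul_right_cancel hxy
        apply cent_of' hP₀E hP₀E2 (fun q hq => mem_cent.mp (mul_mem (inv_mem (hA hx)) (hA hy)) q hq) he₀ he₀P₀
        calc x⁻¹ * y * e₀ = x⁻¹ * (y * e₀ * y⁻¹) * y := by group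
          _ = e₀ * (x⁻¹ * y) := by rw [← h2]; group)
    have h2 : Nat.card (P₀ : Set S) = 4 := hP₀4'
    rw [h2] at h1; omega
  -- |H C/C| ≤ 4 |K C/C|
  have hhC : Nat.card (H.map (QuotientGroup.mk' (centralizer (E : Set S)))) ≤
      4 * Nat.card (K.map (QuotientGroup.mk' (centralizer (E : Set S)))) := by
    by_contra h0
    push Not at h0
    have h1 : Nat.card H ≤ 2 * Nat.card (H ⊓ centralizer (P₀ : Set S) : Subgroup S) :=
      card_le_two_mul _ _ (fun x hx y hy hxc hyc => v4' h.hS hP₀4' hP₀2 (T := ⊤)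
        (fun x _ p hp => hP₀n.conj_mem p hp x) (mem_top x) (mem_top y) hxc hyc)
    have h2 := hfibP₀ (H ⊓ centralizer (P₀ : Set S)) inf_le_right
    have h3 : Nat.card (H ⊓ centralizer (P₀ : Set S) ⊓ centralizer (E : Set S) : Subgroup S) ≤
        Nat.card (H ⊓ centralizer (E : Set S) : Subgroup S) :=
      Subgroup.card_le_of_le (inf_le_inf_right _ inf_le_left)
    have h4 : 0 < Nat.card (H ⊓ centralizer (E : Set S) : Subgroup S) := Nat.card_pos
    -- the order of H C/C is 8 and K ≤ C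
    have h5 : Nat.card (H.map (QuotientGroup.mk' (centralizer (E : Set S)))) ≤ 8 := by nlinarith
    have h6 : Nat.card (K.map (QuotientGroup.mk' (centralizer (E : Set S)))) = 1 := by omega
    have hKC : K ≤ centralizer (E : Set S) := by
      rw [Subgroup.card_eq_one] at h6
      intro x hx
      have h7 : QuotientGroup.mk' (centralizer (E : Set S)) x ∈ K.map (QuotientGroup.mk' (centralizer (E : Set S))) :=
        ⟨x, hx, rfl⟩
      rw [h6, mem_bot] at h7
      exact pi_one.mp h7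
    -- H C = S
    have h7 : Nat.card (H.map (QuotientGroup.mk' (centralizer (E : Set S)))) > 4 := by omega
    have h8 : H.map (QuotientGroup.mk' (centralizer (E : Set S))) = ⊤ := by
      by_contra hne
      have h9 := two_mul_card_le (lt_top_iff_ne_top.mpr hne)
      have hT1 : Nat.card (⊤ : Subgroup S) ≤ 2 * Nat.card (⊤ ⊓ centralizer (P₀ : Set S) : Subgroup S) :=
        card_le_two_mul _ _ (fun x hx y hy hxc hyc => v4' h.hS hP₀4' hP₀2 (T := ⊤)
          (fun x _ p hp => hP₀n.conj_mem p hp x) (mem_top x) (mem_top y) hxc hyc)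
      have hT2 := hfibP₀ (⊤ ⊓ centralizer (P₀ : Set S)) inf_le_right
      have hT3 : Nat.card (⊤ ⊓ centralizer (P₀ : Set S) ⊓ centralizer (E : Set S) : Subgroup S) ≤
          Nat.card (⊤ ⊓ centralizer (E : Set S) : Subgroup S) :=
        Subgroup.card_le_of_le (inf_le_inf_right _ inf_le_left)
      have hT4 : 0 < Nat.card (⊤ ⊓ centralizer (E : Set S) : Subgroup S) := Nat.card_pos
      have cT := card_map_mul (⊤ : Subgroup S) (centralizer (E : Set S))
      have hT5 : (⊤ : Subgroup S).map (QuotientGroup.mk' (centralizer (E : Set S))) = ⊤ :=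
        Subgroup.map_top_of_surjective _ (QuotientGroup.mk'_surjective _)
      rw [hT5] at cT
      have hT6 : Nat.card (⊤ : Subgroup (S ⧸ centralizer (E : Set S))) ≤ 8 := by nlinarith
      omega
    -- a is in H C
    have h9 : QuotientGroup.mk' (centralizer (E : Set S)) a ∈ H.map (QuotientGroup.mk' (centralizer (E : Set S))) := by
      rw [h8]; exact mem_top _
    obtain ⟨g, hg, hga⟩ := h9
    have hgc : g⁻¹ * a ∈ centralizer (E : Set S) := pi_eq.mp hga
    -- x₁ normalizes P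
    apply hxp₁
    have hpe : x₁ * p₁ * x₁⁻¹ ∈ E := h.hE.conj_mem p₁ (h.hPE hp₁) x₁
    rw [← h.hPa _ hpe]
    have h10 := hKC (hs.comm x₁ hx₁ g hg)
    have h11 : a * p₁ = p₁ * a := ((h.hPa p₁ (h.hPE hp₁)).mpr hp₁).symm
    -- g commutes with p₁
    have h12 : g * p₁ = p₁ * g := by
      have h13 := mem_cent.mp hgc p₁ (h.hPE hp₁)
      calc g * p₁ = g * (p₁ * (g⁻¹ * a)) * a⁻¹ * g := by group
        _ = (a * p₁) * a⁻¹ * g := by rw [← h13]; group
        _ = p₁ * g := by rw [h11]; group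
    -- g commutes with x₁ p₁ x₁⁻¹
    have h13 : g * (x₁ * p₁ * x₁⁻¹) = (x₁ * p₁ * x₁⁻¹) * g := by
      set κ := x₁ * g * x₁⁻¹ * g⁻¹ with hκ
      have h14 := mem_cent.mp h10 _ hpe
      calc g * (x₁ * p₁ * x₁⁻¹) = κ⁻¹ * x₁ * (g * p₁) * x₁⁻¹ := by rw [hκ]; group
        _ = κ⁻¹ * (x₁ * p₁ * x₁⁻¹) * (x₁ * g * x₁⁻¹) := by rw [h12]; group
        _ = κ⁻¹ * ((x₁ * p₁ * x₁⁻¹) * κ) * g := by rw [hκ]; group
        _ = (x₁ * p₁ * x₁⁻¹) * g := by rw [← h14]; group
    have h14 := mem_cent.mp hgc _ hpe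
    calc (x₁ * p₁ * x₁⁻¹) * a = ((x₁ * p₁ * x₁⁻¹) * g) * (g⁻¹ * a) := by group
      _ = g * ((x₁ * p₁ * x₁⁻¹) * (g⁻¹ * a)) := by rw [← h13]; group
      _ = a * (x₁ * p₁ * x₁⁻¹) := by rw [← h14]; group
  -- products
  set eH := Nat.card (H ⊓ E : Subgroup S) with heHd
  set eK := Nat.card (K ⊓ E : Subgroup S) with heKd
  set dH := Nat.card ((H ⊓ centralizer (E : Set S)).map (QuotientGroup.mk' E)) with hdHd
  set dK := Nat.card ((K ⊓ centralizer (E : Set S)).map (QuotientGroup.mk' E)) with hdKd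
  set kH := Nat.card (H.map (QuotientGroup.mk' (centralizer (E : Set S)))) with hkHd
  set kK := Nat.card (K.map (QuotientGroup.mk' (centralizer (E : Set S)))) with hkKd
  have cardH : Nat.card H = eH * dH * kH := by rw [← cHC, ← cDE]
  have cardK : Nat.card K = eK * dK * kK := by rw [← cKC, ← cLE]
  have hprod : dH * kH ≤ 8 * (dK * kK) := by
    calc dH * kH ≤ (2 * dK) * (4 * kK) := Nat.mul_le_mul hd2 hhC
      _ = 8 * (dK * kK) := by ring
  have hdk0 : 0 < dK * kK := Nat.mul_pos hdK0 hkC0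
  rw [cardH, cardK, mul_assoc, mul_assoc] at hcon
  have hcase : (eH = 4 ∧ eK = 1) ∨ (eH = 8 ∧ eK = 2) := by
    rcases heH with e1 | e1 | e1 | e1 <;> rcases heK with e2 | e2 | e2 | e2 <;>
      first | exact (hfull ⟨e1, e2⟩).elim | exact Or.inl ⟨e1, e2⟩ | exact Or.inr ⟨e1, e2⟩ |
        (exfalso; rw [e1, e2] at hcon; omega)
  rcases hcase with ⟨e1, e2⟩ | ⟨e1, e2⟩
  swap
  · -- (ii)
    have hEH' := hEH e1
    obtain ⟨l, hl, hl1, hl2⟩ := card2 e2
    have hlE : l ∈ E := hl.2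
    have hcom : ∀ x ∈ H, ∀ e ∈ E, x * e * x⁻¹ = e ∨ x * e * x⁻¹ = e * l := by
      intro x hx e he
      rcases hl2 _ (hcomE x hx e ⟨hEH' he, he⟩) with h3 | h3
      · left; exact mul_inv_eq_one.mp h3
      · right
        have h4 : x * e * x⁻¹ = l * e := by rw [← h3]; group
        rw [h4, h.hEc l hlE e he]
    have hlc₀ : l ≠ c₀ := by
      rintro rfl
      rcases hcom x₁ hx₁ p₁ (h.hPE hp₁) with h3 | h3
      · exact hxp₁ (by rw [h3]; exact hp₁)
      · exact hxp₁ (by rw [h3]; exact mul_mem hp₁ h.hc0)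
    have hHP₀ : ∀ x ∈ H, ∀ p ∈ P₀, x * p = p * x := by
      intro x hx p hp
      have h5 : x * p * x⁻¹ = p := by
        rcases hcom x hx p (hP₀E hp) with h3 | h3
        · exact h3
        rcases hactP₀ x p hp with h4 | h4
        · exact h4
        · exfalso
          rw [h3] at h4
          exact hlc₀ (mul_left_cancel h4)
      calc x * p = x * p * x⁻¹ * x := by group
        _ = p * x := by rw [h5]
    have h3 : Nat.card H ≤ 2 * Nat.card (H ⊓ centralizer (E : Set S) : Subgroup S) := by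
      apply card_le_two_mul
      intro x hx y hy hxc hyc
      have key : ∀ x ∈ H, x ∉ centralizer (E : Set S) → x * e₀ * x⁻¹ = e₀ * l := by
        intro x hx hxc
        rcases hcom x hx e₀ he₀ with h3 | h3
        · exfalso
          apply hxc
          apply cent_of' hP₀E hP₀E2 (hHP₀ x hx) he₀ he₀P₀
          calc x * e₀ = x * e₀ * x⁻¹ * x := by group
            _ = e₀ * x := by rw [h3]
        · exact h3
      apply cent_of' hP₀E hP₀E2 (hHP₀ _ (mul_mem (inv_mem hx) hy)) he₀ he₀P₀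
      calc x⁻¹ * y * e₀ = x⁻¹ * (y * e₀ * y⁻¹) * y := by group
        _ = x⁻¹ * (x * e₀ * x⁻¹) * y := by rw [key y hy hyc, key x hx hxc]
        _ = e₀ * (x⁻¹ * y) := by group
    rw [← cHC] at h3
    have h4 : 0 < Nat.card (H ⊓ centralizer (E : Set S) : Subgroup S) := Nat.card_pos
    have h5 : kH ≤ 2 := by
      by_contra h6
      push Not at h6
      nlinarith
    rw [e1, e2] at hcon
    have h6 : dH * kH ≤ 2 * dK * 2 := Nat.mul_le_mul hd2 h5
    have h7 : dK ≤ dK * kK := Nat.le_mul_of_pos_right _ hkC0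
    omega
  -- (i)
  have hK1 := hbot e2
  have hcent : ∀ x ∈ H, ∀ e ∈ H ⊓ E, x * e = e * x := by
    intro x hx e he
    have h3 := hK1 _ (hcomE x hx e he)
    calc x * e = (x * e * x⁻¹ * e⁻¹) * e * x := by group
      _ = e * x := by rw [h3, one_mul]
  have hHE2 : Nat.card E = 2 * Nat.card (H ⊓ E : Subgroup S) := by
    have : Nat.card (H ⊓ E : Subgroup S) = 4 := e1
    rw [this, h.hE8]
  have hkH : 2 < kH := by
    by_contra h6
    push Not at h6
    rw [e1, e2] at hcon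
    have h6 : dH * kH ≤ 2 * dK * 2 := Nat.mul_le_mul hd2 h6
    have h7 : dK ≤ dK * kK := Nat.le_mul_of_pos_right _ hkC0
    omega
  have hD0 : 0 < Nat.card (H ⊓ centralizer (E : Set S) : Subgroup S) := Nat.card_pos
  -- H ∩ E = P₀
  have hHEP₀ : H ⊓ E = P₀ := by
    have hle : P₀ ≤ H ⊓ E := by
      by_contra hno
      obtain ⟨q, hq, hqH⟩ := SetLike.not_le_iff_exists.mp hno
      have h3 : Nat.card H ≤ 2 * Nat.card (H ⊓ centralizer (E : Set S) : Subgroup S) := by
        apply card_le_two_mul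
        intro x hx y hy hxc hyc
        have key : ∀ x ∈ H, x ∉ centralizer (E : Set S) → x * q * x⁻¹ = q * c₀ := by
          intro x hx hxc
          rcases hactP₀ x q hq with h3 | h3
          · exfalso
            apply hxc
            apply cent_of' inf_le_right hHE2 (hcent x hx) (hP₀E hq) hqH
            calc x * q = x * q * x⁻¹ * x := by group
              _ = q * x := by rw [h3]
          · exact h3
        apply cent_of' inf_le_right hHE2 (hcent _ (mul_mem (inv_mem hx) hy)) (hP₀E hq) hqH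
        calc x⁻¹ * y * q = x⁻¹ * (y * q * y⁻¹) * y := by group
          _ = x⁻¹ * (x * q * x⁻¹) * y := by rw [key y hy hyc, key x hx hxc]
          _ = q * (x⁻¹ * y) := by group
      rw [← cHC] at h3
      nlinarith
    exact (Subgroup.eq_of_le_of_card_ge hle (by rw [hP₀4']; exact e1.le)).symm
  have hHV : H ≤ centralizer (P₀ : Set S) := by
    intro x hx
    rw [mem_cent]
    intro p hp
    exact hcent x hx p (by rw [hHEP₀]; exact hp)
  have hkH4 : kH ≤ 4 := by
    have h3 := hfibP₀ H hHV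
    rw [← cHC] at h3
    by_contra h6
    push Not at h6
    nlinarith
  have hkK1 : kK = 1 := by
    by_contra h6
    have h7 : 2 ≤ kK := by omega
    rw [e1, e2] at hcon
    have h8 : dH * kH ≤ 2 * dK * 4 := Nat.mul_le_mul hd2 hkH4
    have h9 : dK * 2 ≤ dK * kK := Nat.mul_le_mul_left _ h7
    omega
  have hKC : K ≤ centralizer (E : Set S) := by
    have h6 : Nat.card (K.map (QuotientGroup.mk' (centralizer (E : Set S)))) = 1 := hkK1
    rw [Subgroup.card_eq_one] at h6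
    intro x hx
    have h7 : QuotientGroup.mk' (centralizer (E : Set S)) x ∈ K.map (QuotientGroup.mk' (centralizer (E : Set S))) :=
      ⟨x, hx, rfl⟩
    rw [h6, mem_bot] at h7
    exact pi_one.mp h7
  have hddlt : dK < dH := by
    by_contra h6
    push Not at h6
    rw [e1, e2, hkK1, mul_one] at hcon
    have h8 : dH * kH ≤ dK * 4 := Nat.mul_le_mul h6 hkH4
    omega
  have hKinf : K ⊓ centralizer (E : Set S) = K := inf_eq_left.mpr hKC
  set D := H ⊓ centralizer (E : Set S) with hD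
  have hKD : K ≤ D := le_inf hs.le hKC
  have hDC : D ≤ centralizer (E : Set S) := inf_le_right
  have hDH : D ≤ H := inf_le_left
  have hPD : P₀ ≤ D := by
    intro p hp
    exact ⟨(show p ∈ H ⊓ E by rw [hHEP₀]; exact hp).1, h.EC (hP₀E hp)⟩
  -- V = H C
  have hVHC : ∀ v ∈ centralizer (P₀ : Set S), ∃ g ∈ H, g⁻¹ * v ∈ centralizer (E : Set S) := by
    have h1 : H.map (QuotientGroup.mk' (centralizer (E : Set S))) ≤
        (centralizer (P₀ : Set S)).map (QuotientGroup.mk' (centralizer (E : Set S))) := Subgroup.map_mono hHV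
    have h2 : Nat.card ((centralizer (P₀ : Set S)).map (QuotientGroup.mk' (centralizer (E : Set S)))) ≤ 4 := by
      have h3 := hfibP₀ (centralizer (P₀ : Set S)) le_rfl
      have h4 := card_map_mul (centralizer (P₀ : Set S)) (centralizer (E : Set S))
      rw [← h4] at h3
      have h5 : 0 < Nat.card (centralizer (P₀ : Set S) ⊓ centralizer (E : Set S) : Subgroup S) := Nat.card_pos
      by_contra h6
      push Not at h6
      nlinarith
    have h3 : H.map (QuotientGroup.mk' (centralizer (E : Set S))) =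
        (centralizer (P₀ : Set S)).map (QuotientGroup.mk' (centralizer (E : Set S))) := by
      by_contra hne
      have h4 := two_mul_card_le (lt_of_le_of_ne h1 hne)
      omega
    intro v hv
    have h4 : QuotientGroup.mk' (centralizer (E : Set S)) v ∈
        H.map (QuotientGroup.mk' (centralizer (E : Set S))) := by rw [h3]; exact ⟨v, hv, rfl⟩
    obtain ⟨g, hg, hgv⟩ := h4
    exact ⟨g, hg, pi_eq.mp hgv⟩
  -- a generator of D/E
  obtain ⟨δ, hδ⟩ : ∃ δ : S ⧸ E, zpowers δ = D.map (QuotientGroup.mk' E) := by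
    have h1 : IsCyclic (D.map (QuotientGroup.mk' E)) := by
      have : IsCyclic (zpowers w) := inferInstance
      have hle := (Subgroup.map_mono (f := QuotientGroup.mk' E) hDC).trans hw
      exact isCyclic_of_injective (Subgroup.inclusion hle) (Subgroup.inclusion_injective hle)
    obtain ⟨g, hg⟩ := h1.exists_generator
    refine ⟨g, ?_⟩
    apply le_antisymm
    · rw [zpowers_le]; exact g.2
    · intro x hx
      obtain ⟨i, hi⟩ := mem_zpowers_iff.mp (hg ⟨x, hx⟩)
      exact mem_zpowers_iff.mpr ⟨i, by simpa using congrArg Subtype.val hi⟩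
  obtain ⟨d₀, hd₀, hd₀δ⟩ : δ ∈ D.map (QuotientGroup.mk' E) := by rw [← hδ]; exact mem_zpowers δ
  have hd₀D : d₀ ∈ D := hd₀
  -- elements of K are squares of elements of D
  have hKsq : ∀ k ∈ K, ∃ d ∈ D, k = d ^ 2 := by
    intro k hk
    have h1 : QuotientGroup.mk' E k ∈ zpowers δ := by rw [hδ]; exact ⟨k, hKD hk, rfl⟩
    obtain ⟨i, hi⟩ := mem_zpowers_iff.mp h1
    have hd₀K : d₀ ^ 2 ∈ K := hs.sq d₀ (hDH hd₀D)
    rcases Int.even_or_odd' i with ⟨j, rfl | rfl⟩
    · have h2 : (d₀ ^ j) ^ 2 ∈ K := by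
        have : (d₀ ^ j) ^ 2 = (d₀ ^ 2) ^ j := by
          rw [← zpow_natCast, ← zpow_natCast, ← zpow_mul, ← zpow_mul, mul_comm]
        rw [this]; exact zpow_mem hd₀K j
      refine ⟨d₀ ^ j, zpow_mem hd₀D j, ?_⟩
      have h3 : ((d₀ ^ j) ^ 2)⁻¹ * k ∈ E := by
        apply pi_eq.mp
        rw [← hi, ← hd₀δ, map_pow, map_zpow, ← zpow_natCast, ← zpow_mul]
        congr 1
        push_cast; ring
      have h4 := hK1 _ ⟨K.mul_mem (K.inv_mem h2) hk, h3⟩
      exact (inv_mul_eq_one.mp h4).symm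
    · exfalso
      -- then δ ∈ K E/E
      have h2 : δ ∈ K.map (QuotientGroup.mk' E) := by
        have h3 : δ = (QuotientGroup.mk' E k) * ((QuotientGroup.mk' E (d₀ ^ 2)) ^ j)⁻¹ := by
          rw [← hi, map_pow, hd₀δ, ← zpow_natCast, ← zpow_mul, ← zpow_neg, ← zpow_add]
          have : 2 * j + 1 + -(((2 : ℕ) : ℤ) * j) = 1 := by push_cast; ring
          rw [this, zpow_one]
        rw [h3]
        have h4 : QuotientGroup.mk' E k ∈ K.map (QuotientGroup.mk' E) := ⟨k, hk, rfl⟩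
        have h5 : QuotientGroup.mk' E (d₀ ^ 2) ∈ K.map (QuotientGroup.mk' E) := ⟨_, hd₀K, rfl⟩
        exact mul_mem h4 (inv_mem (zpow_mem h5 j))
      have h3 : D.map (QuotientGroup.mk' E) ≤ K.map (QuotientGroup.mk' E) := by
        rw [← hδ, zpowers_le]; exact h2
      have h4 := Subgroup.card_le_of_le h3
      have h5 : dK = Nat.card (K.map (QuotientGroup.mk' E)) := by rw [hdKd, hKinf]
      omega
  -- a normalizes D modulo E
  have hXn : ((centralizer (E : Set S)).map (QuotientGroup.mk' E)).Normal :=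
    hCn.map _ (QuotientGroup.mk'_surjective E)
  obtain ⟨ω, hω⟩ : ∃ ω : S ⧸ E, zpowers ω = (centralizer (E : Set S)).map (QuotientGroup.mk' E) := by
    have h1 : IsCyclic ((centralizer (E : Set S)).map (QuotientGroup.mk' E)) := by
      have : IsCyclic (zpowers w) := inferInstance
      exact isCyclic_of_injective (Subgroup.inclusion hw) (Subgroup.inclusion_injective hw)
    obtain ⟨g, hg⟩ := h1.exists_generator
    refine ⟨g, ?_⟩
    apply le_antisymm
    · rw [zpowers_le]; exact g.2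
    · intro x hx
      obtain ⟨i, hi⟩ := mem_zpowers_iff.mp (hg ⟨x, hx⟩)
      exact mem_zpowers_iff.mpr ⟨i, by simpa using congrArg Subtype.val hi⟩
  have hconjD : ∀ d ∈ D, ∃ d' ∈ D, ∃ e ∈ E, a * d * a⁻¹ = d' * e := by
    intro d hd
    have h1 : QuotientGroup.mk' E d ∈ zpowers ω := by rw [hω]; exact ⟨d, hDC hd, rfl⟩
    obtain ⟨i, hi⟩ := mem_zpowers_iff.mp h1
    have h2 : QuotientGroup.mk' E a * ω * (QuotientGroup.mk' E a)⁻¹ ∈ zpowers ω := by
      rw [hω]; apply hXn.conj_mem; rw [← hω]; exact mem_zpowers ω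
    obtain ⟨t, ht⟩ := mem_zpowers_iff.mp h2
    have h3 : QuotientGroup.mk' E (a * d * a⁻¹) = QuotientGroup.mk' E (d ^ t) := by
      rw [map_mul, map_mul, map_inv, map_zpow, ← hi, ← conj_zpow, ← ht, ← zpow_mul, ← zpow_mul, mul_comm]
    refine ⟨d ^ t, zpow_mem hd t, (d ^ t)⁻¹ * (a * d * a⁻¹), pi_eq.mp h3.symm, by group⟩
  have hKa : ∀ k ∈ K, a * k * a⁻¹ ∈ K := by
    intro k hk
    obtain ⟨d, hd, rfl⟩ := hKsq k hk
    obtain ⟨d', hd', e, he, hde⟩ := hconjD d hd
    have h1 : a * d ^ 2 * a⁻¹ = (a * d * a⁻¹) ^ 2 := by rw [conj_pow]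
    have h2 := mem_cent.mp (hDC hd') e he
    have h3 : (d' * e) ^ 2 = d' ^ 2 := by
      calc (d' * e) ^ 2 = d' * (e * d') * e := by rw [pow_two]; group
        _ = d' ^ 2 * e ^ 2 := by rw [← h2, pow_two, pow_two]; group
        _ = d' ^ 2 := by rw [h.hE2 e he, mul_one]
    rw [h1, hde, h3]
    exact hs.sq d' (hDH hd')
  have hP₀a : ∀ v ∈ centralizer (P₀ : Set S), a⁻¹ * v * a ∈ centralizer (P₀ : Set S) := by
    intro v hv
    simpa using (cent_normal hP₀n).conj_mem v hv a⁻¹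
  have hDa : ∀ d ∈ D, a * d * a⁻¹ ∈ D := by
    intro d hd
    obtain ⟨d', hd', e, he, hde⟩ := hconjD d hd
    by_cases heP : e ∈ P₀
    · rw [hde]; exact mul_mem hd' (hPD heP)
    · exfalso
      -- an element of H not commuting with e
      obtain ⟨g, hg, hge⟩ : ∃ g ∈ H, g * e ≠ e * g := by
        by_contra hno
        push Not at hno
        have h1 : H ≤ centralizer (E : Set S) := fun x hx =>
          cent_of' hP₀E hP₀E2 (fun q hq => mem_cent.mp (hHV hx) q hq) he heP (hno x hx)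
        have h2 : D = H := inf_eq_left.mpr h1
        have h3 : kH = 1 := by
          have h4 : Nat.card D * kH = Nat.card H := cHC
          rw [h2] at h4
          have h5 : 0 < Nat.card H := Nat.card_pos
          have h6 : Nat.card H * kH = Nat.card H * 1 := by omega
          exact Nat.eq_of_mul_eq_mul_left h5 h6
        omega
      apply hge
      have h1 : e * g * e⁻¹ * g⁻¹ ∈ E := by
        have h2 : g * e⁻¹ * g⁻¹ ∈ E := h.hE.conj_mem _ (inv_mem he) g
        have h3 : e * g * e⁻¹ * g⁻¹ = e * (g * e⁻¹ * g⁻¹) := by group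
        rw [h3]; exact mul_mem he h2
      -- [a d a⁻¹, g] ∈ K
      obtain ⟨g', hg', hgc⟩ := hVHC _ (hP₀a g (hHV hg))
      set c := g'⁻¹ * (a⁻¹ * g * a) with hc
      have h4 : a⁻¹ * g * a = g' * c := by rw [hc]; group
      have h5 : (a * d * a⁻¹) * g * (a * d * a⁻¹)⁻¹ * g⁻¹ = a * (d * g' * d⁻¹ * g'⁻¹) * a⁻¹ := by
        have h6 := hab d (hDC hd) c hgc
        have h7 : c * d⁻¹ = d⁻¹ * c := hab c hgc _ (inv_mem (hDC hd))
        calc (a * d * a⁻¹) * g * (a * d * a⁻¹)⁻¹ * g⁻¹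
            = a * d * (a⁻¹ * g * a) * d⁻¹ * (a⁻¹ * g * a)⁻¹ * a⁻¹ := by group
          _ = a * d * g' * (c * d⁻¹) * c⁻¹ * g'⁻¹ * a⁻¹ := by rw [h4]; group
          _ = a * (d * g' * d⁻¹ * g'⁻¹) * a⁻¹ := by rw [h7]; group
      have h6 : (a * d * a⁻¹) * g * (a * d * a⁻¹)⁻¹ * g⁻¹ ∈ K := by
        rw [h5]; exact hKa _ (hs.comm d (hDH hd) g' hg')
      have h7 : d' * g * d'⁻¹ * g⁻¹ ∈ K := hs.comm d' (hDH hd') g hg
      -- [e, g] ∈ K
      have h8 : e * g * e⁻¹ * g⁻¹ = (d' * g * d'⁻¹ * g⁻¹)⁻¹ * ((a * d * a⁻¹) * g * (a * d * a⁻¹)⁻¹ * g⁻¹) := by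
        rw [hde]
        have h9 : e * (g * e⁻¹ * g⁻¹) ∈ centralizer (E : Set S) := by
          have : e * (g * e⁻¹ * g⁻¹) = e * g * e⁻¹ * g⁻¹ := by group
          rw [this]; exact h.EC h1
        have h10 : g * d'⁻¹ * g⁻¹ ∈ centralizer (E : Set S) := hCn.conj_mem _ (inv_mem (hDC hd')) g
        have h11 := hab _ h9 _ h10
        calc e * g * e⁻¹ * g⁻¹ = g * d' * g⁻¹ * ((g * d'⁻¹ * g⁻¹) * (e * (g * e⁻¹ * g⁻¹))) := by group
          _ = g * d' * g⁻¹ * (e * (g * e⁻¹ * g⁻¹) * (g * d'⁻¹ * g⁻¹)) := by rw [h11]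
          _ = (d' * g * d'⁻¹ * g⁻¹)⁻¹ * (d' * e * g * (d' * e)⁻¹ * g⁻¹) := by group
      have h9 : e * g * e⁻¹ * g⁻¹ ∈ K := by
        rw [h8]; exact mul_mem (inv_mem h7) h6
      have h10 := hK1 _ ⟨h9, h1⟩
      calc g * e = (e * g * e⁻¹ * g⁻¹)⁻¹ * (e * g) := by group
        _ = e * g := by rw [h10]; group
  -- the involutions of D
  let Ω : Subgroup S :=
    { carrier := {d | d ∈ D ∧ d ^ 2 = 1}
      one_mem' := ⟨one_mem _, one_pow _⟩
      mul_mem' := by
        rintro x y ⟨hx, hx2⟩ ⟨hy, hy2⟩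
        refine ⟨mul_mem hx hy, ?_⟩
        have h1 := hab x (hDC hx) y (hDC hy)
        calc (x * y) ^ 2 = x * (y * x) * y := by rw [pow_two]; group
          _ = x ^ 2 * y ^ 2 := by rw [← h1, pow_two, pow_two]; group
          _ = 1 := by rw [hx2, hy2, one_mul]
      inv_mem' := by
        rintro x ⟨hx, hx2⟩
        exact ⟨inv_mem hx, by rw [inv_pow, hx2, inv_one]⟩ }
  have hΩ : ∀ x, x ∈ Ω ↔ x ∈ D ∧ x ^ 2 = 1 := fun x => Iff.rfl
  have hΩD : Nat.card D ≤ Nat.card Ω * Nat.card K := by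
    have h1 := card_le_fiber D Ω (K : Set S) (fun x => x ^ 2) (fun x hx => hs.sq x (hDH hx)) (by
      intro x hx y hy hxy
      rw [hΩ]
      refine ⟨mul_mem (inv_mem hx) hy, ?_⟩
      have h2 := hab _ (inv_mem (hDC hx)) y (hDC hy)
      have hxy' : x ^ 2 = y ^ 2 := hxy
      calc (x⁻¹ * y) ^ 2 = x⁻¹ * (y * x⁻¹) * y := by rw [pow_two]; group
        _ = (x ^ 2)⁻¹ * y ^ 2 := by rw [← h2, pow_two, pow_two]; group
        _ = 1 := by rw [hxy']; group)
    refine le_trans h1 ?_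
    have h2 : Nat.card (K : Set S) = Nat.card K := rfl
    rw [h2]
    exact Nat.mul_le_mul_right _ (Subgroup.card_le_of_le inf_le_right)
  have hΩ8 : 8 ≤ Nat.card Ω := by
    have h1 : eH * dH = Nat.card D := cDE
    have h2 : Nat.card K = dK := by rw [cardK, e2, hkK1]; ring
    have h3 : 2 * dK ≤ dH := by
      have h4 : K.map (QuotientGroup.mk' E) < D.map (QuotientGroup.mk' E) := by
        refine lt_of_le_of_ne (Subgroup.map_mono hKD) ?_
        intro he
        have h5 : dK = Nat.card (K.map (QuotientGroup.mk' E)) := by rw [hdKd, hKinf]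
        rw [he] at h5
        omega
      have h5 := two_mul_card_le h4
      have h6 : dK = Nat.card (K.map (QuotientGroup.mk' E)) := by rw [hdKd, hKinf]
      rw [← h6] at h5
      exact h5
    rw [h2, ← h1, e1] at hΩD
    by_contra h6
    push Not at h6
    nlinarith
  have hΩa : Nat.card Ω ≤ Nat.card (Ω ⊓ centralizer ({a} : Set S) : Subgroup S) *
      Nat.card (Ω ⊓ centralizer ({a} : Set S) : Subgroup S) := by
    apply card_le_fiber Ω (centralizer ({a} : Set S)) ((Ω ⊓ centralizer ({a} : Set S) : Subgroup S) : Set S)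
      (fun x => x * (a * x * a⁻¹))
    · intro x hx
      have hx' := (hΩ x).mp hx
      have h1 : a * x * a⁻¹ ∈ Ω := (hΩ _).mpr ⟨hDa x hx'.1, by rw [conj_pow, hx'.2]; group⟩
      refine ⟨mul_mem hx h1, ?_⟩
      change x * (a * x * a⁻¹) ∈ centralizer ({a} : Set S)
      rw [mem_centralizer_iff]
      intro b hb
      rw [Set.mem_singleton_iff] at hb
      subst hb
      have h2 := hab _ (hDC ((hΩ _).mp h1).1) _ (hDC hx'.1)
      have h3 : b * b = 1 := by rw [← pow_two]; exact h.ha2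
      calc b * (x * (b * x * b⁻¹)) = (b * x * b⁻¹) * (b * b) * x * b⁻¹ := by group
        _ = (b * x * b⁻¹) * x * b⁻¹ := by rw [h3]; group
        _ = x * (b * x * b⁻¹) * b⁻¹ := by rw [h2]
        _ = x * (b * x * b⁻¹) * b := by rw [h.ainv]
    · intro x hx y hy hxy
      have hx' := (hΩ x).mp hx
      have hy' := (hΩ y).mp hy
      have hxy' : x * (a * x * a⁻¹) = y * (a * y * a⁻¹) := hxy
      have h1 : (x⁻¹ * y) ^ 2 = 1 := ((hΩ _).mp (mul_mem (inv_mem hx) hy)).2
      have h2 : (x⁻¹ * y)⁻¹ = x⁻¹ * y := by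
        rw [inv_eq_iff_mul_eq_one, ← pow_two]; exact h1
      have h3 : a * (x⁻¹ * y) * a⁻¹ = x⁻¹ * y := by
        have h4 := hab y (hDC hy'.1) (a * y * a⁻¹) (hDC (hDa y hy'.1))
        calc a * (x⁻¹ * y) * a⁻¹ = (x * (a * x * a⁻¹))⁻¹ * x * (a * y * a⁻¹) := by group
          _ = (y * (a * y * a⁻¹))⁻¹ * x * (a * y * a⁻¹) := by rw [hxy']
          _ = (a * y * a⁻¹)⁻¹ * (y⁻¹ * x) * (a * y * a⁻¹) := by group
          _ = (a * y * a⁻¹)⁻¹ * ((x⁻¹ * y)⁻¹ * (a * y * a⁻¹)) := by group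
          _ = (a * y * a⁻¹)⁻¹ * ((a * y * a⁻¹) * (x⁻¹ * y)⁻¹) := by
            rw [hab _ (inv_mem (mul_mem (inv_mem (hDC hx'.1)) (hDC hy'.1))) _ (hDC (hDa y hy'.1))]
          _ = x⁻¹ * y := by rw [h2]; group
      rw [mem_centralizer_iff]
      intro b hb
      rw [Set.mem_singleton_iff] at hb
      subst hb
      calc b * (x⁻¹ * y) = b * (x⁻¹ * y) * b⁻¹ * b := by group
        _ = x⁻¹ * y * b := by rw [h3]
  have hfin : Nat.card (Ω ⊓ centralizer ({a} : Set S) : Subgroup S) ≤ 2 := by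
    refine le_trans (Subgroup.card_le_of_le ?_) hcap2
    intro x hx
    have hx1 := (hΩ x).mp hx.1
    have h1 : x ∈ P := h.F0 (hDC hx1.1) (mem_centralizer_iff.mp hx.2 a rfl).symm
    refine ⟨?_, h1⟩
    rw [← hHEP₀]
    exact ⟨hDH hx1.1, h.hPE h1⟩
  nlinarith

theorem bound (h : Ctx E P a c₀) {H K : Subgroup S} (hs : Sec H K) : Nat.card H ≤ 16 * Nat.card K := by
  have := h.hE
  by_cases hN : ∀ x ∈ H, ∀ p ∈ P, x * p * x⁻¹ ∈ P
  · exact h.bound1 hs hN
  · push Not at hN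
    exact h.bound2 hs hN

end Ctx

end Cfsg.Agent.Lib.H47Rk
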