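import Cfsg.Agent.Lib.H47RkG

/-!
Harada: general bounds for a normal elementary abelian subgroup of order 8 (helper47, for S1232).
-/

set_option autoImplicit false
set_option linter.unusedSectionVars false

namespace Cfsg.Agent.Lib.H47Rk

open Subgroup

universe u

variable {S : Type u} [Group S] [Finite S]

/-- a normal elementary abelian subgroup of order 8 in a 2-group -/
structure N8 (E : Subgroup S) : Prop where
  hS : IsPGroup 2 S
  hE : E.Normal
  hEc : ∀ x ∈ E, ∀ y ∈ E, x * y = y * x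
  hE2 : ∀ x ∈ E, x ^ 2 = 1
  hE8 : Nat.card E = 8

/-- an involutory operator on an abelian group of exponent 2 -/
theorem card_le_sq_fix {X : Subgroup S} {a : S} (hXc : ∀ x ∈ X, ∀ y ∈ X, x * y = y * x)
    (hX2 : ∀ x ∈ X, x ^ 2 = 1) (ha2 : a ^ 2 = 1) (hXa : ∀ x ∈ X, a * x * a⁻¹ ∈ X) :
    Nat.card X ≤ Nat.card (X ⊓ centralizer ({a} : Set S) : Subgroup S) *
      Nat.card (X ⊓ centralizer ({a} : Set S) : Subgroup S) := by
  have hai : a⁻¹ = a := by
    rw [inv_eq_iff_mul_eq_one, ← pow_two]; exact ha2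
  apply card_le_fiber X (centralizer ({a} : Set S)) ((X ⊓ centralizer ({a} : Set S) : Subgroup S) : Set S)
    (fun x => x * (a * x * a⁻¹))
  · intro x hx
    refine ⟨mul_mem hx (hXa x hx), ?_⟩
    change x * (a * x * a⁻¹) ∈ centralizer ({a} : Set S)
    rw [mem_centralizer_iff]
    intro b hb
    rw [Set.mem_singleton_iff] at hb
    subst hb
    have h2 := hXc _ (hXa x hx) _ hx
    have h3 : b * b = 1 := by rw [← pow_two]; exact ha2
    calc b * (x * (b * x * b⁻¹)) = (b * x * b⁻¹) * (b * b) * x * b⁻¹ := by group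
      _ = (b * x * b⁻¹) * x * b⁻¹ := by rw [h3]; group
      _ = x * (b * x * b⁻¹) * b⁻¹ := by rw [h2]
      _ = x * (b * x * b⁻¹) * b := by rw [hai]
  · intro x hx y hy hxy
    have hxy' : x * (a * x * a⁻¹) = y * (a * y * a⁻¹) := hxy
    have h1 : (x⁻¹ * y) ^ 2 = 1 := hX2 _ (mul_mem (inv_mem hx) hy)
    have h2 : (x⁻¹ * y)⁻¹ = x⁻¹ * y := by
      rw [inv_eq_iff_mul_eq_one, ← pow_two]; exact h1
    have h3 : a * (x⁻¹ * y) * a⁻¹ = x⁻¹ * y := by
      calc a * (x⁻¹ * y) * a⁻¹ = (x * (a * x * a⁻¹))⁻¹ * x * (a * y * a⁻¹) := by group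
        _ = (y * (a * y * a⁻¹))⁻¹ * x * (a * y * a⁻¹) := by rw [hxy']
        _ = (a * y * a⁻¹)⁻¹ * (y⁻¹ * x) * (a * y * a⁻¹) := by group
        _ = (a * y * a⁻¹)⁻¹ * ((x⁻¹ * y)⁻¹ * (a * y * a⁻¹)) := by group
        _ = (a * y * a⁻¹)⁻¹ * ((a * y * a⁻¹) * (x⁻¹ * y)⁻¹) := by
          rw [hXc _ (inv_mem (mul_mem (inv_mem hx) hy)) _ (hXa y hy)]
        _ = x⁻¹ * y := by rw [h2]; group
    rw [mem_centralizer_iff]
    intro b hb
    rw [Set.mem_singleton_iff] at hb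
    subst hb
    calc b * (x⁻¹ * y) = b * (x⁻¹ * y) * b⁻¹ * b := by group
      _ = x⁻¹ * y * b := by rw [h3]

namespace N8

variable {E : Subgroup S}

theorem EC (h : N8 E) : E ≤ centralizer (E : Set S) := fun x hx => mem_cent.mpr fun e he => h.hEc x hx e he

theorem Cn (h : N8 E) : (centralizer (E : Set S)).Normal := cent_normal h.hE

theorem exz (h : N8 E) : ∃ z ∈ E, z ≠ 1 ∧ ∀ g : S, g * z = z * g := by
  have hE1 : E ≠ ⊥ := by
    intro he; have := h.hE8; rw [he, Subgroup.card_bot] at this; omega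
  have := h.hE
  obtain ⟨l₀, hl₀E, hl₀1, hl₀c⟩ := H32PGroup.exists_mem_center_of_normal (p := 2) h.hS E hE1
  exact ⟨l₀, hl₀E, hl₀1, fun g => mem_center_iff.mp hl₀c g⟩

theorem flag4 (h : N8 E) {z : S} (hz : z ∈ E) (hz1 : z ≠ 1) (hzc : ∀ g : S, g * z = z * g) :
    ∃ P₀ : Subgroup S, P₀.Normal ∧ z ∈ P₀ ∧ P₀ ≤ E ∧ Nat.card P₀ = 4 := by
  have hzl₀ : Nat.card (zpowers z) = 2 := by rw [Nat.card_zpowers]; exact orderOf_eq_prime (h.hE2 z hz) hz1
  have hzn : (zpowers z).Normal := by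
    refine ⟨fun n hn g => ?_⟩
    have h1 : g * n * g⁻¹ = n := by
      obtain ⟨i, rfl⟩ := mem_zpowers_iff.mp hn
      have h2 : Commute g z := hzc g
      rw [(h2.zpow_right i).eq]; group
    rw [h1]; exact hn
  obtain ⟨P₀, hP₀n, hl₀P₀, hP₀E, hP₀4⟩ := PGroupOdd.exists_normal_card (p := 2) h.hS h.hE hzn
    (by rw [zpowers_le]; exact hz) (j := 1) (k := 2) (by rw [hzl₀]; norm_num) (by norm_num)
    (by rw [h.hE8]; norm_num)
  exact ⟨P₀, hP₀n, hl₀P₀ (mem_zpowers z), hP₀E, by rw [hP₀4]; norm_num⟩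

theorem exOut (h : N8 E) {Q : Subgroup S} (hQ : Nat.card Q < 8) : ∃ e ∈ E, e ∉ Q := by
  by_contra hno
  push Not at hno
  have h1 := Subgroup.card_le_of_le (show E ≤ Q from hno)
  have h2 := h.hE8
  omega

theorem fib (h : N8 E) {Q : Subgroup S} (hQE : Q ≤ E) (hQ4 : Nat.card Q = 4) {A : Subgroup S}
    (hA : A ≤ centralizer (Q : Set S)) : Nat.card A ≤ 4 * Nat.card (A ⊓ centralizer (E : Set S) : Subgroup S) := by
  obtain ⟨e₀, he₀, he₀Q⟩ := h.exOut (Q := Q) (by omega)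
  have hQE2 : Nat.card E = 2 * Nat.card Q := by rw [h.hE8, hQ4]
  have h1 := card_le_fiber A (centralizer (E : Set S)) (Q : Set S) (fun x => x * e₀ * x⁻¹ * e₀⁻¹) (by
      intro x hx
      have h2 : x * e₀ * x⁻¹ ∈ E := h.hE.conj_mem e₀ he₀ x
      have h3 : x * e₀ * x⁻¹ ∉ Q := by
        intro h4
        apply he₀Q
        have h5 := mem_cent.mp (hA (inv_mem hx)) _ h4
        have h6 : e₀ = x * e₀ * x⁻¹ := by
          calc e₀ = x⁻¹ * (x * e₀ * x⁻¹) * x := by group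
            _ = x * e₀ * x⁻¹ := by rw [h5]; group
        rw [h6]; exact h4
      have h4 := idx2 hQE hQE2 he₀ h2 he₀Q h3
      have h5 : x * e₀ * x⁻¹ * e₀⁻¹ = e₀⁻¹ * (x * e₀ * x⁻¹) :=
        h.hEc _ h2 _ (inv_mem he₀)
      rw [h5]; exact h4) (by
      intro x hx y hy hxy
      have h2 : x * e₀ * x⁻¹ = y * e₀ * y⁻¹ := mul_right_cancel hxy
      apply cent_of' hQE hQE2 (fun q hq => mem_cent.mp (mul_mem (inv_mem (hA hx)) (hA hy)) q hq) he₀ he₀Q
      calc x⁻¹ * y * e₀ = x⁻¹ * (y * e₀ * y⁻¹) * y := by group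
        _ = e₀ * (x⁻¹ * y) := by rw [← h2]; group)
  have h2 : Nat.card (Q : Set S) = 4 := hQ4
  rw [h2] at h1; omega

theorem alpha (h : N8 E) (H : Subgroup S) :
    Nat.card H ≤ 8 * Nat.card (H ⊓ centralizer (E : Set S) : Subgroup S) := by
  obtain ⟨z, hz, hz1, hzc⟩ := h.exz
  obtain ⟨P₀, hP₀n, -, hP₀E, hP₀4⟩ := h.flag4 hz hz1 hzc
  have h1 : Nat.card H ≤ 2 * Nat.card (H ⊓ centralizer (P₀ : Set S) : Subgroup S) :=
    card_le_two_mul _ _ (fun x hx y hy hxc hyc => v4' h.hS hP₀4 (fun x hx => h.hE2 x (hP₀E hx)) (T := ⊤)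
      (fun x _ p hp => hP₀n.conj_mem p hp x) (mem_top x) (mem_top y) hxc hyc)
  have h2 := h.fib hP₀E hP₀4 (A := H ⊓ centralizer (P₀ : Set S)) inf_le_right
  have h3 : Nat.card (H ⊓ centralizer (P₀ : Set S) ⊓ centralizer (E : Set S) : Subgroup S) ≤
      Nat.card (H ⊓ centralizer (E : Set S) : Subgroup S) :=
    Subgroup.card_le_of_le (inf_le_inf_right _ inf_le_left)
  omega

/-- operators moving everything by at most `l` -/
theorem two (h : N8 E) {l : S} (hl : l ∈ E) (hl1 : l ≠ 1) {H : Subgroup S}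
    (hcom : ∀ x ∈ H, ∀ e ∈ E, x * e * x⁻¹ = e ∨ x * e * x⁻¹ = e * l) :
    Nat.card H ≤ 4 * Nat.card (H ⊓ centralizer (E : Set S) : Subgroup S) := by
  have hmove : ∀ e₁ ∈ E, Nat.card H ≤ 2 * Nat.card (H ⊓ centralizer ({e₁} : Set S) : Subgroup S) ∧
      ∀ x ∈ H, ∀ y ∈ H, x ∉ centralizer ({e₁} : Set S) → y ∉ centralizer ({e₁} : Set S) →
        x⁻¹ * y ∈ centralizer ({e₁} : Set S) := by
    intro e₁ he₁
    have key : ∀ x ∈ H, ∀ y ∈ H, x ∉ centralizer ({e₁} : Set S) → y ∉ centralizer ({e₁} : Set S) →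
        x⁻¹ * y ∈ centralizer ({e₁} : Set S) := by
      intro x hx y hy hxc hyc
      have key : ∀ x ∈ H, x ∉ centralizer ({e₁} : Set S) → x * e₁ * x⁻¹ = e₁ * l := by
        intro x hx hxc
        rcases hcom x hx e₁ he₁ with h3 | h3
        · exfalso
          apply hxc
          rw [mem_centralizer_iff]
          intro b hb
          rw [Set.mem_singleton_iff] at hb
          subst hb
          calc b * x = (x * b * x⁻¹) * x := by rw [h3]
            _ = x * b := by group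
        · exact h3
      rw [mem_centralizer_iff]
      intro b hb
      rw [Set.mem_singleton_iff] at hb
      subst hb
      calc b * (x⁻¹ * y) = x⁻¹ * (x * b * x⁻¹) * y := by group
        _ = x⁻¹ * (y * b * y⁻¹) * y := by rw [key y hy hyc, key x hx hxc]
        _ = (x⁻¹ * y) * b := by group
    exact ⟨card_le_two_mul _ _ key, key⟩
  -- l is fixed
  have hlfix : ∀ x ∈ H, x * l = l * x := by
    intro x hx
    rcases hcom x hx l hl with h3 | h3
    · calc x * l = x * l * x⁻¹ * x := by group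
        _ = l * x := by rw [h3]
    · exfalso
      apply hl1
      have h4 : l * l = 1 := by rw [← pow_two]; exact h.hE2 l hl
      rw [h4] at h3
      calc l = x⁻¹ * (x * l * x⁻¹) * x := by group
        _ = 1 := by rw [h3]; group
  have hz : Nat.card (zpowers l) = 2 := by rw [Nat.card_zpowers]; exact orderOf_eq_prime (h.hE2 l hl) hl1
  obtain ⟨e₁, he₁, he₁l⟩ := h.exOut (Q := zpowers l) (by omega)
  set H₁ := H ⊓ centralizer ({e₁} : Set S) with hH₁
  have h1 : Nat.card H ≤ 2 * Nat.card H₁ := (hmove e₁ he₁).1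
  -- the fixed points of H₁
  have hQ := card_dvd8 h.hE8 (centralizer (H₁ : Set S))
  have hlQ : l ∈ centralizer (H₁ : Set S) ⊓ E := by
    refine ⟨?_, hl⟩
    change l ∈ centralizer (H₁ : Set S)
    rw [mem_cent]
    intro x hx
    exact (hlfix x hx.1).symm
  have heQ : e₁ ∈ centralizer (H₁ : Set S) ⊓ E := by
    refine ⟨?_, he₁⟩
    change e₁ ∈ centralizer (H₁ : Set S)
    rw [mem_cent]
    intro x hx
    exact mem_centralizer_iff.mp hx.2 e₁ rfl
  have hcases : Nat.card (centralizer (H₁ : Set S) ⊓ E : Subgroup S) = 4 ∨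
      Nat.card (centralizer (H₁ : Set S) ⊓ E : Subgroup S) = 8 := by
    rcases hQ with h2 | h2 | h2 | h2
    · exfalso
      rw [Subgroup.card_eq_one] at h2
      rw [h2] at hlQ
      exact hl1 (mem_bot.mp hlQ)
    · exfalso
      obtain ⟨m, hm, hm1, hmx⟩ := card2 h2
      have h3 : l = m := (hmx l hlQ).resolve_left hl1
      rcases hmx e₁ heQ with h4 | h4
      · exact he₁l (by rw [h4]; exact one_mem _)
      · exact he₁l (by rw [h4, ← h3]; exact mem_zpowers l)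
    · exact Or.inl h2
    · exact Or.inr h2
  rcases hcases with h2 | h2
  · obtain ⟨e₂, he₂, he₂Q⟩ := h.exOut (Q := centralizer (H₁ : Set S) ⊓ E) (by omega)
    have h3 : Nat.card H₁ ≤ 2 * Nat.card (H₁ ⊓ centralizer ({e₂} : Set S) : Subgroup S) :=
      card_le_two_mul _ _ (fun x hx y hy hxc hyc => (hmove e₂ he₂).2 x hx.1 y hy.1 hxc hyc)
    have h4 : H₁ ⊓ centralizer ({e₂} : Set S) ≤ H ⊓ centralizer (E : Set S) := by
      intro x hx
      refine ⟨hx.1.1, ?_⟩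
      apply cent_of' (Q := centralizer (H₁ : Set S) ⊓ E) inf_le_right (by rw [h.hE8, h2])
        (fun q hq => (mem_cent.mp hq.1 x hx.1).symm) he₂ he₂Q
      exact (mem_centralizer_iff.mp hx.2 e₂ rfl).symm
    have h5 := Subgroup.card_le_of_le h4
    omega
  · have h3 : centralizer (H₁ : Set S) ⊓ E = E := Subgroup.eq_of_le_of_card_ge inf_le_right (by rw [h2, h.hE8])
    have h4 : H₁ ≤ H ⊓ centralizer (E : Set S) := by
      intro x hx
      refine ⟨hx.1, ?_⟩
      change x ∈ centralizer (E : Set S)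
      rw [mem_cent]
      intro e he
      rw [← h3] at he
      exact (mem_cent.mp he.1 x hx).symm
    have h5 := Subgroup.card_le_of_le h4
    omega

theorem comE (h : N8 E) {H K : Subgroup S} (hs : Sec H K) :
    ∀ x ∈ H, ∀ e ∈ H ⊓ E, x * e * x⁻¹ * e⁻¹ ∈ K ⊓ E := by
  intro x hx e he
  refine ⟨hs.comm x hx e he.1, ?_⟩
  exact E.mul_mem (h.hE.conj_mem e he.2 x) (E.inv_mem he.2)

theorem le_of8 (h : N8 E) {H : Subgroup S} (h1 : Nat.card (H ⊓ E : Subgroup S) = 8) : E ≤ H := by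
  have h2 : H ⊓ E = E := Subgroup.eq_of_le_of_card_ge inf_le_right (by rw [h1, h.hE8])
  rw [← h2]; exact inf_le_left

theorem bot_of1 {K : Subgroup S} (h1 : Nat.card K = 1) : ∀ x ∈ K, x = 1 := by
  intro x hx
  rw [Subgroup.card_eq_one] at h1
  rw [h1] at hx
  exact mem_bot.mp hx

theorem cent_of1 (h : N8 E) {H K : Subgroup S} (hs : Sec H K) (h1 : Nat.card (K ⊓ E : Subgroup S) = 1) :
    ∀ x ∈ H, ∀ e ∈ H ⊓ E, x * e = e * x := by
  intro x hx e he
  have h3 := bot_of1 h1 _ (h.comE hs x hx e he)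
  calc x * e = (x * e * x⁻¹ * e⁻¹) * e * x := by group
    _ = e * x := by rw [h3, one_mul]

theorem le_cent81 (h : N8 E) {H K : Subgroup S} (hs : Sec H K) (h8 : Nat.card (H ⊓ E : Subgroup S) = 8)
    (h1 : Nat.card (K ⊓ E : Subgroup S) = 1) : H ≤ centralizer (E : Set S) := by
  intro x hx
  rw [mem_cent]
  intro e he
  exact h.cent_of1 hs h1 x hx e ⟨h.le_of8 h8 he, he⟩

theorem com_of82 (h : N8 E) {H K : Subgroup S} (hs : Sec H K) (h8 : Nat.card (H ⊓ E : Subgroup S) = 8)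
    {l : S} (hlE : l ∈ E) (hl : ∀ x ∈ K ⊓ E, x = 1 ∨ x = l) :
    ∀ x ∈ H, ∀ e ∈ E, x * e * x⁻¹ = e ∨ x * e * x⁻¹ = e * l := by
  intro x hx e he
  rcases hl _ (h.comE hs x hx e ⟨h.le_of8 h8 he, he⟩) with h3 | h3
  · left; exact mul_inv_eq_one.mp h3
  · right
    have h4 : x * e * x⁻¹ = l * e := by rw [← h3]; group
    rw [h4, h.hEc l hlE e he]

theorem beta (h : N8 E) {H K : Subgroup S} (hs : Sec H K)
    (h4 : Nat.card (H ⊓ E : Subgroup S) = 4 * Nat.card (K ⊓ E : Subgroup S)) :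
    Nat.card H ≤ 4 * Nat.card (H ⊓ centralizer (E : Set S) : Subgroup S) := by
  have heH := card_dvd8 h.hE8 H
  have heK := card_dvd8 h.hE8 K
  have hcase : (Nat.card (H ⊓ E : Subgroup S) = 4 ∧ Nat.card (K ⊓ E : Subgroup S) = 1) ∨
      (Nat.card (H ⊓ E : Subgroup S) = 8 ∧ Nat.card (K ⊓ E : Subgroup S) = 2) := by omega
  rcases hcase with ⟨e1, e2⟩ | ⟨e1, e2⟩
  · refine h.fib (Q := H ⊓ E) inf_le_right e1 ?_
    intro x hx
    rw [mem_cent]
    exact h.cent_of1 hs e2 x hx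
  · obtain ⟨l, hl, hl1, hl2⟩ := card2 e2
    exact h.two hl.2 hl1 (h.com_of82 hs e1 hl.2 hl2)

/-- the case where `E` is self-centralizing -/
theorem boundIII (h : N8 E) (hC : centralizer (E : Set S) ≤ E) {H K : Subgroup S} (hs : Sec H K) :
    Nat.card H ≤ 16 * Nat.card K := by
  have heH := card_dvd8 h.hE8 H
  have heK := card_dvd8 h.hE8 K
  have hCE : centralizer (E : Set S) = E := le_antisymm hC h.EC
  have h1 := h.alpha H
  rw [hCE] at h1
  have h2 : Nat.card (K ⊓ E : Subgroup S) ≤ Nat.card K := Subgroup.card_le_of_le inf_le_left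
  by_cases h3 : Nat.card (H ⊓ E : Subgroup S) ≤ 2 * Nat.card (K ⊓ E : Subgroup S)
  · omega
  by_cases h4 : Nat.card (H ⊓ E : Subgroup S) = 4 * Nat.card (K ⊓ E : Subgroup S)
  · have h5 := h.beta hs h4
    rw [hCE] at h5
    omega
  · have h5 : Nat.card (H ⊓ E : Subgroup S) = 8 ∧ Nat.card (K ⊓ E : Subgroup S) = 1 := by omega
    have h6 := h.le_cent81 hs h5.1 h5.2
    have h7 := Subgroup.card_le_of_le (h6.trans hC)
    rw [h.hE8] at h7
    have h8 : 0 < Nat.card K := Nat.card_pos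
    omega

end N8

end Cfsg.Agent.Lib.H47Rk
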