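import Cfsg.Agent.Lib.H47RkH

/-!
Harada: the structure of the two remaining cases (helper47, for S1232).
-/

set_option autoImplicit false
set_option linter.unusedSectionVars false

namespace Cfsg.Agent.Lib.H47Rk

open Subgroup

universe u

variable {S : Type u} [Group S] [Finite S]

theorem mem_cs {a x : S} : x ∈ centralizer ({a} : Set S) ↔ x * a = a * x := by
  rw [mem_centralizer_iff]
  constructor
  · intro h; exact (h a rfl).symm
  · intro h b hb
    rw [Set.mem_singleton_iff] at hb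
    subst hb
    exact h.symm

theorem inv_of_sq {a : S} (ha2 : a ^ 2 = 1) : a⁻¹ = a := by
  rw [inv_eq_iff_mul_eq_one, ← pow_two]; exact ha2

namespace N8

variable {E : Subgroup S}

theorem cardP (h : N8 E) {a : S} (ha2 : a ^ 2 = 1) (haC : a ∉ centralizer (E : Set S)) :
    Nat.card (centralizer ({a} : Set S) ⊓ E : Subgroup S) = 4 := by
  have h1 := card_le_sq_fix h.hEc h.hE2 ha2 (fun x hx => h.hE.conj_mem x hx a)
  rw [inf_comm, h.hE8] at h1
  rcases card_dvd8 h.hE8 (centralizer ({a} : Set S)) with h2 | h2 | h2 | h2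
  · rw [h2] at h1; omega
  · rw [h2] at h1; omega
  · exact h2
  · exfalso
    apply haC
    rw [mem_cent]
    intro e he
    exact (mem_cs.mp (h.le_of8 h2 he)).symm

theorem exTr (h : N8 E) {a : S} (ha2 : a ^ 2 = 1) (haC : a ∉ centralizer (E : Set S)) :
    ∃ c₀ ∈ centralizer ({a} : Set S) ⊓ E, c₀ ≠ 1 ∧
      ∀ e ∈ E, e ∉ centralizer ({a} : Set S) ⊓ E → a * e * a⁻¹ = e * c₀ := by
  have h4 := h.cardP ha2 haC
  obtain ⟨e₁, he₁, he₁P⟩ := h.exOut (Q := centralizer ({a} : Set S) ⊓ E) (by omega)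
  have haa : a * a = 1 := by rw [← pow_two]; exact ha2
  have hai := inv_of_sq ha2
  have hc : a * e₁ * a⁻¹ ∈ E := h.hE.conj_mem e₁ he₁ a
  refine ⟨e₁⁻¹ * (a * e₁ * a⁻¹), ⟨?_, E.mul_mem (E.inv_mem he₁) hc⟩, ?_, ?_⟩
  · change e₁⁻¹ * (a * e₁ * a⁻¹) ∈ centralizer ({a} : Set S)
    rw [mem_cs]
    have h5 : (e₁⁻¹ * (a * e₁ * a⁻¹))⁻¹ = e₁⁻¹ * (a * e₁ * a⁻¹) :=
      inv_of_sq (h.hE2 _ (mul_mem (inv_mem he₁) hc))
    have h6 := h.hEc _ (inv_mem hc) _ he₁
    calc e₁⁻¹ * (a * e₁ * a⁻¹) * a = (e₁⁻¹ * (a * e₁ * a⁻¹))⁻¹ * a := by rw [h5]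
      _ = (a * e₁ * a⁻¹)⁻¹ * e₁ * a := by group
      _ = a * e₁⁻¹ * (a⁻¹ * e₁ * a) := by group
      _ = a * e₁⁻¹ * (a * e₁ * a⁻¹) := by rw [hai]
      _ = a * (e₁⁻¹ * (a * e₁ * a⁻¹)) := by group
  · intro h5
    apply he₁P
    refine ⟨?_, he₁⟩
    change e₁ ∈ centralizer ({a} : Set S)
    rw [mem_cs]
    have h6 : a * e₁ * a⁻¹ = e₁ := (inv_mul_eq_one.mp h5).symm
    calc e₁ * a = (a * e₁ * a⁻¹) * a := by rw [h6]
      _ = a * e₁ := by group
  · intro e he heP
    have h5 := idx2 (A := centralizer ({a} : Set S) ⊓ E) inf_le_right (by rw [h.hE8, h4]) he₁ he he₁P heP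
    have h6 := mem_cs.mp h5.1
    have h7 := h.hEc _ h5.2 (e₁⁻¹ * (a * e₁ * a⁻¹)) (mul_mem (inv_mem he₁) hc)
    calc a * e * a⁻¹ = (a * e₁ * a⁻¹) * (a * (e₁⁻¹ * e)) * a⁻¹ := by group
      _ = e₁ * ((e₁⁻¹ * (a * e₁ * a⁻¹)) * (e₁⁻¹ * e)) := by rw [← h6]; group
      _ = e * (e₁⁻¹ * (a * e₁ * a⁻¹)) := by rw [← h7]; group

/-- the transvection case -/
theorem boundII (h : N8 E) {A : Subgroup S} (hAc : ∀ x ∈ A, ∀ y ∈ A, x * y = y * x) (hA2 : ∀ x ∈ A, x ^ 2 = 1)
    (hA8 : Nat.card A = 8) (hAA : centralizer (A : Set S) = A)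
    (h4 : Nat.card (A ⊓ centralizer (E : Set S) : Subgroup S) = 4) {H K : Subgroup S} (hs : Sec H K) :
    Nat.card H ≤ 16 * Nat.card K := by
  obtain ⟨a, haA, haC⟩ : ∃ a ∈ A, a ∉ centralizer (E : Set S) := by
    by_contra hno
    push Not at hno
    have h1 : A ⊓ centralizer (E : Set S) = A := inf_eq_left.mpr hno
    rw [h1] at h4; omega
  have hP4 := h.cardP (hA2 a haA) haC
  have hidx : ∀ x ∈ A, x ∉ centralizer (E : Set S) → a⁻¹ * x ∈ A ⊓ centralizer (E : Set S) := by
    intro x hx hxC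
    exact idx2 (B := A) inf_le_left (by rw [hA8, h4]) haA hx (fun h5 => haC h5.2) (fun h5 => hxC h5.2)
  have hAc' : ∀ g : S, (∀ p ∈ A ⊓ centralizer (E : Set S), g * p = p * g) → g * a = a * g → g ∈ A := by
    intro g hg hga
    have h1 : g ∈ centralizer (A : Set S) := by
      rw [mem_cent]
      intro x hx
      by_cases hxC : x ∈ centralizer (E : Set S)
      · exact hg x ⟨hx, hxC⟩
      · have h5 := hg _ (hidx x hx hxC)
        calc g * x = (g * a) * (a⁻¹ * x) := by group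
          _ = a * (g * (a⁻¹ * x)) := by rw [hga]; group
          _ = x * g := by rw [h5]; group
    rw [hAA] at h1; exact h1
  have hPA : centralizer ({a} : Set S) ⊓ E = A ⊓ centralizer (E : Set S) := by
    apply Subgroup.eq_of_le_of_card_ge
    · intro e he
      refine ⟨?_, h.EC he.2⟩
      change e ∈ A
      apply hAc' e _ (mem_cs.mp he.1)
      intro p hp
      exact (mem_cent.mp hp.2 e he.2).symm
    · rw [hP4, h4]
  obtain ⟨c₀, hc₀, hc₀1, hc₀t⟩ := h.exTr (hA2 a haA) haC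
  have hctx : Ctx E (centralizer ({a} : Set S) ⊓ E) a c₀ := by
    refine ⟨h.hS, h.hE, h.hEc, h.hE2, h.hE8, hA2 a haA, inf_le_right, hP4, ?_, hc₀, hc₀1, hc₀t, ?_⟩
    · intro e he
      rw [Subgroup.mem_inf]
      constructor
      · intro h5; exact ⟨mem_cs.mpr h5, he⟩
      · intro h5; exact mem_cs.mp h5.1
    · intro g hg hga
      rw [hPA] at hg ⊢
      have hgA := hAc' g hg hga
      by_cases hgC : g ∈ centralizer (E : Set S)
      · left; exact ⟨hgA, hgC⟩
      · right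
        have h5 := hidx g hgA hgC
        rw [inv_of_sq (hA2 a haA)] at h5
        rw [hga]; exact h5
  exact hctx.bound hs

end N8

/-- the case `|A ∩ C(E)| = 2` -/
structure CtxI (E A : Subgroup S) (z : S) : Prop where
  n8 : N8 E
  hAc : ∀ x ∈ A, ∀ y ∈ A, x * y = y * x
  hA2 : ∀ x ∈ A, x ^ 2 = 1
  hA8 : Nat.card A = 8
  hAA : ∀ x : S, (∀ y ∈ A, x * y = y * x) → x ∈ A
  hz1 : z ≠ 1
  hzA : z ∈ A
  hAz : ∀ x ∈ A, x ∈ centralizer (E : Set S) → x ∈ zpowers z

namespace CtxI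

variable {E A : Subgroup S} {z : S}

theorem z2 (h : CtxI E A z) : z ^ 2 = 1 := h.hA2 z h.hzA

theorem cz (h : CtxI E A z) : Nat.card (zpowers z) = 2 := by
  rw [Nat.card_zpowers]; exact orderOf_eq_prime h.z2 h.hz1

theorem zE (h : CtxI E A z) : z ∈ E ∧ ∀ g : S, g * z = z * g := by
  obtain ⟨l, hl, hl1, hlc⟩ := h.n8.exz
  have h1 : l ∈ A := h.hAA l (fun y _ => (hlc y).symm)
  rcases mem_zp2 h.z2 (h.hAz l h1 (h.n8.EC hl)) with h2 | h2
  · exact absurd h2 hl1
  · rw [← h2]; exact ⟨hl, hlc⟩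

/-- `A`-fixed points -/
theorem fixA (h : CtxI E A z) {e : S} (he : e ∈ E) (hc : ∀ y ∈ A, e * y = y * e) : e ∈ zpowers z :=
  h.hAz e (h.hAA e hc) (h.n8.EC he)

theorem nC (h : CtxI E A z) {a : S} (ha : a ∈ A) (haz : a ∉ zpowers z) : a ∉ centralizer (E : Set S) :=
  fun hc => haz (h.hAz a ha hc)

theorem zP (h : CtxI E A z) (a : S) : zpowers z ≤ centralizer ({a} : Set S) ⊓ E := by
  rw [zpowers_le]
  refine ⟨?_, h.zE.1⟩
  change z ∈ centralizer ({a} : Set S)
  rw [mem_cs]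
  exact (h.zE.2 a).symm

theorem zBe (h : CtxI E A z) (e : S) : zpowers z ≤ A ⊓ centralizer ({e} : Set S) := by
  rw [zpowers_le]
  refine ⟨h.hzA, ?_⟩
  change z ∈ centralizer ({e} : Set S)
  rw [mem_cs]
  exact (h.zE.2 e).symm

theorem P4 (h : CtxI E A z) {a : S} (ha : a ∈ A) (haz : a ∉ zpowers z) :
    Nat.card (centralizer ({a} : Set S) ⊓ E : Subgroup S) = 4 := h.n8.cardP (h.hA2 a ha) (h.nC ha haz)

theorem tr (h : CtxI E A z) {a : S} (ha : a ∈ A) (haz : a ∉ zpowers z) {e : S} (he : e ∈ E)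
    (hea : e * a ≠ a * e) : a * e * a⁻¹ = e * z := by
  obtain ⟨c₀, hc₀, hc₀1, hc₀t⟩ := h.n8.exTr (h.hA2 a ha) (h.nC ha haz)
  have h1 : c₀ ∈ zpowers z := by
    apply h.fixA hc₀.2
    intro b hb
    have hab := h.hAc a ha b hb
    have h2 := hc₀t e he (fun h3 => hea (mem_cs.mp h3.1))
    have hbe : b * e * b⁻¹ ∈ E := h.n8.hE.conj_mem e he b
    have h3 := hc₀t (b * e * b⁻¹) hbe (fun h3 => by
      apply hea
      have h4 := mem_cs.mp h3.1
      calc e * a = b⁻¹ * (b * e * b⁻¹) * (b * a) := by group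
        _ = b⁻¹ * (b * e * b⁻¹ * a) * b := by rw [← hab]; group
        _ = b⁻¹ * (a * b) * e := by rw [h4]; group
        _ = a * e := by rw [hab]; group)
    have h4 : a * (b * e * b⁻¹) * a⁻¹ = (b * e * b⁻¹) * (b * c₀ * b⁻¹) := by
      calc a * (b * e * b⁻¹) * a⁻¹ = (a * b) * e * (a * b)⁻¹ := by group
        _ = b * (a * e * a⁻¹) * b⁻¹ := by rw [hab]; group
        _ = (b * e * b⁻¹) * (b * c₀ * b⁻¹) := by rw [h2]; group
    rw [h4] at h3
    have h5 := mul_left_cancel h3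
    calc c₀ * b = (b * c₀ * b⁻¹) * b := by rw [h5]
      _ = b * c₀ := by group
  rcases mem_zp2 h.z2 h1 with h2 | h2
  · exact absurd h2 hc₀1
  · rw [h2] at hc₀t
    exact hc₀t e he (fun h3 => hea (mem_cs.mp h3.1))

theorem act (h : CtxI E A z) {a : S} (ha : a ∈ A) {e : S} (he : e ∈ E) :
    a * e * a⁻¹ = e ∨ a * e * a⁻¹ = e * z := by
  by_cases hea : e * a = a * e
  · left; rw [← hea]; group
  · right
    refine h.tr ha ?_ he hea
    intro h1
    apply hea
    rcases mem_zp2 h.z2 h1 with h2 | h2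
    · rw [h2]; group
    · rw [h2]; exact h.zE.2 e

theorem Be4 (h : CtxI E A z) {e : S} (he : e ∈ E) (hez : e ∉ zpowers z) :
    Nat.card (A ⊓ centralizer ({e} : Set S) : Subgroup S) = 4 := by
  have h1 : Nat.card A ≤ 2 * Nat.card (A ⊓ centralizer ({e} : Set S) : Subgroup S) := by
    apply card_le_two_mul
    have key : ∀ x ∈ A, x ∉ centralizer ({e} : Set S) → x * e * x⁻¹ = e * z := by
      intro x hx hxe
      rcases h.act hx he with h2 | h2
      · exfalso
        apply hxe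
        rw [mem_cs]
        calc x * e = (x * e * x⁻¹) * x := by group
          _ = e * x := by rw [h2]
      · exact h2
    intro x hx y hy hxe hye
    rw [mem_cs]
    calc x⁻¹ * y * e = x⁻¹ * (y * e * y⁻¹) * y := by group
      _ = x⁻¹ * (x * e * x⁻¹) * y := by rw [key y hy hye, key x hx hxe]
      _ = e * (x⁻¹ * y) := by group
  have h2 : A ⊓ centralizer ({e} : Set S) < A := by
    refine lt_of_le_of_ne inf_le_left ?_
    intro h3
    apply hez
    apply h.fixA he
    intro y hy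
    rw [← h3] at hy
    exact (mem_cs.mp hy.2).symm
  have h3 := two_mul_card_le h2
  have h4 := h.hA8
  omega

theorem inter (h : CtxI E A z) {a b : S} (ha : a ∈ A) (hb : b ∈ A) (haz : a ∉ zpowers z) (hbz : b ∉ zpowers z)
    (hab : a⁻¹ * b ∉ zpowers z) {e : S} (he : e ∈ E) (hea : e * a = a * e) (heb : e * b = b * e) :
    e ∈ zpowers z := by
  by_contra hez
  have h4 := h.Be4 he hez
  apply hab
  refine idx2 (h.zBe e) (by rw [h4, h.cz]) ⟨ha, ?_⟩ ⟨hb, ?_⟩ haz hbz
  · exact mem_cs.mpr hea.symm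
  · exact mem_cs.mpr heb.symm

theorem exE (h : CtxI E A z) {a : S} (ha : a ∈ A) (haz : a ∉ zpowers z) :
    ∃ e ∈ E, e * a = a * e ∧ e ∉ zpowers z := by
  by_contra hno
  push Not at hno
  have h1 : centralizer ({a} : Set S) ⊓ E ≤ zpowers z := fun e he => hno e he.2 (mem_cs.mp he.1)
  have h2 := Subgroup.card_le_of_le h1
  rw [h.P4 ha haz, h.cz] at h2
  omega

theorem exA (h : CtxI E A z) {e : S} (he : e ∈ E) (hez : e ∉ zpowers z) :
    ∃ a ∈ A, e * a = a * e ∧ a ∉ zpowers z := by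
  by_contra hno
  push Not at hno
  have h1 : A ⊓ centralizer ({e} : Set S) ≤ zpowers z := fun a ha => hno a ha.1 (mem_cs.mp ha.2).symm
  have h2 := Subgroup.card_le_of_le h1
  rw [h.Be4 he hez, h.cz] at h2
  omega

theorem exB (h : CtxI E A z) {a : S} (ha : a ∈ A) (haz : a ∉ zpowers z) :
    ∃ b ∈ A, b ∉ zpowers z ∧ a⁻¹ * b ∉ zpowers z := by
  obtain ⟨e, he, hea, hez⟩ := h.exE ha haz
  obtain ⟨b, hb, hbe⟩ : ∃ b ∈ A, b ∉ A ⊓ centralizer ({e} : Set S) := by
    by_contra hno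
    push Not at hno
    have h1 := Subgroup.card_le_of_le (show A ≤ A ⊓ centralizer ({e} : Set S) from hno)
    rw [h.Be4 he hez, h.hA8] at h1
    omega
  refine ⟨b, hb, fun h1 => hbe (h.zBe e h1), fun h1 => hbe ?_⟩
  have h2 : b = a * (a⁻¹ * b) := by group
  rw [h2]
  exact mul_mem ⟨ha, mem_cs.mpr hea.symm⟩ (h.zBe e h1)

theorem centA (h : CtxI E A z) {a b : S} (ha : a ∈ A) (hb : b ∈ A) (haz : a ∉ zpowers z) (hbz : b ∉ zpowers z)
    (hab : a⁻¹ * b ∉ zpowers z) {x : S} (hxa : x * a = a * x) (hxb : x * b = b * x) : x ∈ A := by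
  by_contra hxA
  have h0 : A ⊓ centralizer ({x} : Set S) < A := by
    refine lt_of_le_of_ne inf_le_left ?_
    intro h3
    apply hxA
    apply h.hAA
    intro y hy
    rw [← h3] at hy
    exact (mem_cs.mp hy.2).symm
  have haB : a ∈ A ⊓ centralizer ({x} : Set S) := ⟨ha, mem_cs.mpr hxa.symm⟩
  have h1 : zpowers z < A ⊓ centralizer ({x} : Set S) :=
    lt_of_le_of_ne (h.zBe x) (fun h2 => haz (by rw [h2]; exact haB))
  have h2 := two_mul_card_le h0
  have h3 := two_mul_card_le h1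
  rw [h.cz] at h3
  rw [h.hA8] at h2
  have h4 : Nat.card (A ⊓ centralizer ({x} : Set S) : Subgroup S) = 4 := by omega
  exact hab (idx2 h1.le (by rw [h4, h.cz]) haB ⟨hb, mem_cs.mpr hxb.symm⟩ haz hbz)

/-- `C_C(a) = C_E(a)` -/
theorem CCa (h : CtxI E A z) {a : S} (ha : a ∈ A) (haz : a ∉ zpowers z) {c : S}
    (hc : c ∈ centralizer (E : Set S)) (hca : c * a = a * c) : c ∈ E := by
  by_contra hcE
  have hEn := h.n8.hE
  obtain ⟨b, hb, hbz, habz⟩ := h.exB ha haz
  have hab := h.hAc a ha b hb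
  set Y := centralizer (E : Set S) ⊓ centralizer ({a} : Set S) with hY
  have hYb : ∀ y ∈ Y, b * y * b⁻¹ ∈ Y := by
    intro y hy
    refine ⟨h.n8.Cn.conj_mem y hy.1 b, ?_⟩
    change b * y * b⁻¹ ∈ centralizer ({a} : Set S)
    rw [mem_cs]
    have h1 := mem_cs.mp hy.2
    have h2 : b⁻¹ * a = a * b⁻¹ := h.hAc _ (inv_mem hb) a ha
    calc b * y * b⁻¹ * a = b * y * (b⁻¹ * a) := by group
      _ = b * (y * a) * b⁻¹ := by rw [h2]; group
      _ = (b * a) * y * b⁻¹ := by rw [h1]; group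
      _ = a * (b * y * b⁻¹) := by rw [← hab]; group
  have hYbi : ∀ y ∈ Y, b⁻¹ * y * b ∈ Y := by
    intro y hy
    have h1 := hYb y hy
    have h2 := inv_of_sq (h.hA2 b hb)
    rw [h2]
    rw [h2] at h1
    exact h1
  have hbb : b * b = 1 := by rw [← pow_two]; exact h.hA2 b hb
  -- a fixed point of b on Y E / E
  obtain ⟨x, hx, hx1, hxb⟩ := H32PGroup.exists_fixed_of_normalizes (p := 2)
    (A := zpowers (QuotientGroup.mk' E b)) (N := Y.map (QuotientGroup.mk' E))
    ((h.n8.hS.to_quotient E).to_subgroup _) (by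
      rw [zpowers_le, mem_normalizer_iff]
      intro w
      constructor
      · rintro ⟨y, hy, rfl⟩
        exact ⟨b * y * b⁻¹, hYb y hy, by simp⟩
      · rintro ⟨y, hy, hyw⟩
        refine ⟨b⁻¹ * y * b, hYbi y hy, ?_⟩
        rw [map_mul, map_mul, map_inv, hyw]; group) (by
      obtain ⟨n, hn⟩ := IsPGroup.iff_card.mp ((h.n8.hS.to_quotient E).to_subgroup (Y.map (QuotientGroup.mk' E)))
      rw [hn]
      apply dvd_pow_self
      rintro rfl
      rw [pow_zero] at hn
      apply hcE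
      have h1 := N8.bot_of1 hn (QuotientGroup.mk' E c) ⟨c, ⟨hc, mem_cs.mpr hca⟩, rfl⟩
      exact pi_one.mp h1)
  obtain ⟨y, hy, rfl⟩ := hx
  have hyE : y ∉ E := fun h1 => hx1 (pi_one.mpr h1)
  set p := y⁻¹ * (b * y * b⁻¹) with hp
  have hpE : p ∈ E := by
    apply pi_eq.mp
    have h1 := hxb _ (mem_zpowers _)
    rw [map_mul, map_mul, map_inv, h1]; group
  have hby : b * y * b⁻¹ = y * p := by rw [hp]; group
  have hpa : p * a = a * p := by
    have h1 : p ∈ Y := mul_mem (inv_mem hy) (hYb y hy)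
    exact mem_cs.mp h1.2
  have hpb : p * b = b * p := by
    have h1 : p * (b * p * b⁻¹) = 1 := by
      have h2 : b * (y * p) * b⁻¹ = y := by
        rw [← hby]
        calc b * (b * y * b⁻¹) * b⁻¹ = (b * b) * y * (b * b)⁻¹ := by group
          _ = y := by rw [hbb]; group
      have h3 : y * (p * (b * p * b⁻¹)) = y * 1 := by
        calc y * (p * (b * p * b⁻¹)) = (b * y * b⁻¹) * (b * p * b⁻¹) := by rw [hby]; group
          _ = b * (y * p) * b⁻¹ := by group
          _ = y * 1 := by rw [h2, mul_one]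
      exact mul_left_cancel h3
    have h2 : b * p * b⁻¹ = p := by
      have h3 : p⁻¹ = p := inv_of_sq (h.n8.hE2 p hpE)
      calc b * p * b⁻¹ = p⁻¹ * (p * (b * p * b⁻¹)) := by group
        _ = p := by rw [h1, h3, mul_one]
    calc p * b = (b * p * b⁻¹) * b := by rw [h2]
      _ = b * p := by group
  have hya := mem_cs.mp hy.2
  have hyC : y ∈ centralizer (E : Set S) := hy.1
  rcases mem_zp2 h.z2 (h.inter ha hb haz hbz habz hpE hpa hpb) with h1 | h1
  · -- y commutes with b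
    have h2 : y * b = b * y := by
      rw [h1, mul_one] at hby
      calc y * b = (b * y * b⁻¹) * b := by rw [hby]
        _ = b * y := by group
    have h3 := h.hAz y (h.centA ha hb haz hbz habz hya h2) hyC
    apply hyE
    rcases mem_zp2 h.z2 h3 with h4 | h4
    · rw [h4]; exact one_mem _
    · rw [h4]; exact h.zE.1
  · obtain ⟨e, he, hea, hez⟩ := h.exE ha haz
    have heb : e * b ≠ b * e := fun h2 => hez (h.inter ha hb haz hbz habz he hea h2)
    have h2 := h.tr hb hbz he heb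
    have h3 : (y * e) * a = a * (y * e) := by
      calc (y * e) * a = y * (e * a) := by group
        _ = (y * a) * e := by rw [hea]; group
        _ = a * (y * e) := by rw [hya]; group
    have h4 : (y * e) * b = b * (y * e) := by
      have h5 : b * (y * e) * b⁻¹ = y * e := by
        calc b * (y * e) * b⁻¹ = (b * y * b⁻¹) * (b * e * b⁻¹) := by group
          _ = y * z * (e * z) := by rw [hby, h2, h1]
          _ = y * (z * e) * z := by group
          _ = y * e * (z ^ 2) := by rw [← h.zE.2 e, pow_two]; group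
          _ = y * e := by rw [h.z2, mul_one]
      calc (y * e) * b = (b * (y * e) * b⁻¹) * b := by rw [h5]
        _ = b * (y * e) := by group
    have h5 := h.hAz (y * e) (h.centA ha hb haz hbz habz h3 h4) (mul_mem hyC (h.n8.EC he))
    have h6 : y * e ∈ E := by
      rcases mem_zp2 h.z2 h5 with h6 | h6
      · rw [h6]; exact one_mem _
      · rw [h6]; exact h.zE.1
    apply hyE
    have h7 : y = (y * e) * e⁻¹ := by group
    rw [h7]; exact mul_mem h6 (inv_mem he)

theorem CCa4 (h : CtxI E A z) {a : S} (ha : a ∈ A) (haz : a ∉ zpowers z) :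
    Nat.card (centralizer (E : Set S) ⊓ centralizer ({a} : Set S) : Subgroup S) ≤ 4 := by
  rw [← h.P4 ha haz]
  apply Subgroup.card_le_of_le
  intro x hx
  exact ⟨hx.2, h.CCa ha haz hx.1 (mem_cs.mp hx.2)⟩

/-- fixed points on `C/E` -/
theorem fix2 (h : CtxI E A z) [E.Normal] {a : S} (ha : a ∈ A) (haz : a ∉ zpowers z) :
    Nat.card ((centralizer (E : Set S)).map (QuotientGroup.mk' E) ⊓
      centralizer ({QuotientGroup.mk' E a} : Set (S ⧸ E)) : Subgroup (S ⧸ E)) ≤ 2 := by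
  set X := centralizer (E : Set S) ⊓ (centralizer ({QuotientGroup.mk' E a} : Set (S ⧸ E))).comap (QuotientGroup.mk' E)
    with hX
  have h0 : (centralizer (E : Set S)).map (QuotientGroup.mk' E) ⊓
      centralizer ({QuotientGroup.mk' E a} : Set (S ⧸ E)) ≤ X.map (QuotientGroup.mk' E) := by
    rintro _ ⟨⟨x, hx, rfl⟩, hx2⟩
    exact ⟨x, ⟨hx, hx2⟩, rfl⟩
  have hEX : E ≤ X := by
    intro e he
    refine ⟨h.n8.EC he, ?_⟩
    change QuotientGroup.mk' E e ∈ centralizer ({QuotientGroup.mk' E a} : Set (S ⧸ E))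
    rw [pi_one.mpr he]; exact one_mem _
  have h1 := card_map_mul X E
  have h2 : X ⊓ E = E := inf_eq_right.mpr hEX
  rw [h2, h.n8.hE8] at h1
  have hXE : ∀ x ∈ X, a * x * a⁻¹ * x⁻¹ ∈ E := by
    intro x hx
    have h3 := mem_cs.mp (show QuotientGroup.mk' E x ∈ centralizer ({QuotientGroup.mk' E a} : Set (S ⧸ E)) from hx.2)
    apply pi_one.mp
    rw [map_mul, map_mul, map_mul, map_inv, map_inv, ← h3]; group
  have haa : a * a = 1 := by rw [← pow_two]; exact h.hA2 a ha
  have h3 : Nat.card X ≤ Nat.card (X ⊓ centralizer ({a} : Set S) : Subgroup S) *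
      Nat.card ((centralizer ({a} : Set S) ⊓ E : Subgroup S) : Set S) := by
    apply card_le_fiber X (centralizer ({a} : Set S)) _ (fun x => a * x * a⁻¹ * x⁻¹)
    · intro x hx
      refine ⟨?_, hXE x hx⟩
      change a * x * a⁻¹ * x⁻¹ ∈ centralizer ({a} : Set S)
      rw [mem_cs]
      set t := a * x * a⁻¹ * x⁻¹ with ht
      have h4 : t⁻¹ = t := inv_of_sq (h.n8.hE2 t (hXE x hx))
      have h5 : a * t * a⁻¹ = t⁻¹ := by
        calc a * t * a⁻¹ = (a * a) * x * (a * a)⁻¹ * (a * x⁻¹ * a⁻¹) := by rw [ht]; group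
          _ = x * (a * x⁻¹ * a⁻¹) := by rw [haa]; group
          _ = t⁻¹ := by rw [ht]; group
      rw [h4] at h5
      calc t * a = (a * t * a⁻¹) * a := by rw [h5]
        _ = a * t := by group
    · intro x hx y hy hxy
      have hxy' : a * x * a⁻¹ * x⁻¹ = a * y * a⁻¹ * y⁻¹ := hxy
      rw [mem_cs]
      calc x⁻¹ * y * a = x⁻¹ * (a * y * a⁻¹ * y⁻¹)⁻¹ * a * y := by group
        _ = x⁻¹ * (a * x * a⁻¹ * x⁻¹)⁻¹ * a * y := by rw [hxy']
        _ = a * (x⁻¹ * y) := by group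
  have h4 : Nat.card ((centralizer ({a} : Set S) ⊓ E : Subgroup S) : Set S) = 4 := h.P4 ha haz
  have h5 : Nat.card (X ⊓ centralizer ({a} : Set S) : Subgroup S) ≤ 4 := by
    refine le_trans (Subgroup.card_le_of_le ?_) (h.CCa4 ha haz)
    exact inf_le_inf_right _ inf_le_left
  rw [h4] at h3
  have h6 := Subgroup.card_le_of_le h0
  omega

/-- `|C : E| ≤ 2` -/
theorem CE2 (h : CtxI E A z) [E.Normal] : Nat.card ((centralizer (E : Set S)).map (QuotientGroup.mk' E)) ≤ 2 := by
  by_contra hcon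
  push Not at hcon
  have hCn := h.n8.Cn
  set X := (centralizer (E : Set S)).map (QuotientGroup.mk' E) with hX
  have hXn : X.Normal := hCn.map _ (QuotientGroup.mk'_surjective E)
  have hG : IsPGroup 2 (S ⧸ E) := h.n8.hS.to_quotient E
  have h4 : 4 ≤ Nat.card X := by
    obtain ⟨n, hn⟩ := IsPGroup.iff_card.mp (hG.to_subgroup X)
    have h1 : 2 ≤ n := by
      by_contra hlt
      have : 2 ^ n ≤ 2 ^ 1 := Nat.pow_le_pow_right (by norm_num) (by omega)
      omega
    calc 4 = 2 ^ 2 := by norm_num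
      _ ≤ 2 ^ n := Nat.pow_le_pow_right (by norm_num) h1
      _ = Nat.card X := hn.symm
  obtain ⟨N, hNn, hNX, hN2⟩ := PGroupOdd.exists_normal_card' (p := 2) hG hXn (k := 1) (by omega)
  obtain ⟨M, hMn, hNM, hMX, hM4⟩ := PGroupOdd.exists_normal_card (p := 2) hG hXn hNn hNX (j := 1) (k := 2)
    hN2 (by norm_num) (by omega)
  have hN2' : Nat.card N = 2 := by rw [hN2]; norm_num
  have hM4' : Nat.card M = 4 := by rw [hM4]; norm_num
  obtain ⟨c, hcN, hc1, hcx⟩ := card2 hN2'
  have hcc : ∀ g, g * c = c * g := by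
    intro g
    rcases hcx _ (hNn.conj_mem c hcN g) with h1 | h1
    · exfalso
      apply hc1
      calc c = g⁻¹ * (g * c * g⁻¹) * g := by group
        _ = 1 := by rw [h1]; group
    · calc g * c = (g * c * g⁻¹) * g := by group
        _ = c * g := by rw [h1]
  obtain ⟨d, hdM, hdN⟩ : ∃ d ∈ M, d ∉ N := by
    by_contra hno
    push Not at hno
    have := Subgroup.card_le_of_le (show M ≤ N from hno)
    omega
  have hmul : Nat.card M = 2 * Nat.card N := by omega
  have hact : ∀ g : S ⧸ E, g * d * g⁻¹ = d ∨ g * d * g⁻¹ = d * c := by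
    intro g
    have h1 : g * d * g⁻¹ ∉ N := by
      intro h2
      apply hdN
      have h3 := hNn.conj_mem _ h2 g⁻¹
      have h6 : g⁻¹ * (g * d * g⁻¹) * g⁻¹⁻¹ = d := by group
      rwa [h6] at h3
    rcases hcx _ (idx2 hNM hmul hdM (hMn.conj_mem d hdM g) hdN h1) with h2 | h2
    · left; exact (inv_mul_eq_one.mp h2).symm
    · right; rw [← h2]; group
  have hcc2 : c * c = 1 := by
    rcases hcx (c * c) (mul_mem hcN hcN) with h1 | h1
    · exact h1
    · exact absurd (mul_eq_left.mp h1) hc1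
  have hmv : ∀ a ∈ A, a ∉ zpowers z → QuotientGroup.mk' E a * d * (QuotientGroup.mk' E a)⁻¹ = d * c := by
    intro a ha haz
    rcases hact (QuotientGroup.mk' E a) with h1 | h1
    · exfalso
      have h2 : M ≤ X ⊓ centralizer ({QuotientGroup.mk' E a} : Set (S ⧸ E)) := by
        intro m hm
        refine ⟨hMX hm, ?_⟩
        change m ∈ centralizer ({QuotientGroup.mk' E a} : Set (S ⧸ E))
        rw [mem_cs]
        have hda : QuotientGroup.mk' E a * d = d * QuotientGroup.mk' E a := by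
          calc QuotientGroup.mk' E a * d = (QuotientGroup.mk' E a * d * (QuotientGroup.mk' E a)⁻¹) *
                QuotientGroup.mk' E a := by group
            _ = d * QuotientGroup.mk' E a := by rw [h1]
        by_cases hmN : m ∈ N
        · rcases hcx m hmN with h3 | h3
          · rw [h3]; group
          · rw [h3]; exact (hcc _).symm
        · rcases hcx _ (idx2 hNM hmul hdM hm hdN hmN) with h3 | h3
          · rw [← inv_mul_eq_one.mp h3]; exact hda.symm
          · have h5 : m = d * c := by rw [← h3]; group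
            rw [h5]
            calc d * c * QuotientGroup.mk' E a = d * (c * QuotientGroup.mk' E a) := by group
              _ = (d * QuotientGroup.mk' E a) * c := by rw [← hcc]; group
              _ = QuotientGroup.mk' E a * (d * c) := by rw [← hda]; group
      have h3 := Subgroup.card_le_of_le h2
      have h5 : Nat.card (X ⊓ centralizer ({QuotientGroup.mk' E a} : Set (S ⧸ E)) : Subgroup (S ⧸ E)) ≤ 2 :=
        h.fix2 ha haz
      omega
    · exact h1
  obtain ⟨a, ha, haz⟩ : ∃ a ∈ A, a ∉ zpowers z := by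
    by_contra hno
    push Not at hno
    have h1 := Subgroup.card_le_of_le (show A ≤ zpowers z from hno)
    rw [h.hA8, h.cz] at h1
    omega
  obtain ⟨b, hb, hbz, habz⟩ := h.exB ha haz
  have h1 := hmv a ha haz
  have h2 := hmv b hb hbz
  have h3 := hmv (a⁻¹ * b) (mul_mem (inv_mem ha) hb) habz
  have hai := inv_of_sq (h.hA2 a ha)
  rw [hai, map_mul] at h3
  have h5 : QuotientGroup.mk' E a * QuotientGroup.mk' E b * d * (QuotientGroup.mk' E a * QuotientGroup.mk' E b)⁻¹ = d := by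
    calc QuotientGroup.mk' E a * QuotientGroup.mk' E b * d * (QuotientGroup.mk' E a * QuotientGroup.mk' E b)⁻¹
        = QuotientGroup.mk' E a * (QuotientGroup.mk' E b * d * (QuotientGroup.mk' E b)⁻¹) *
            (QuotientGroup.mk' E a)⁻¹ := by group
      _ = (QuotientGroup.mk' E a * d) * (c * (QuotientGroup.mk' E a)⁻¹) := by rw [h2]; group
      _ = (QuotientGroup.mk' E a * d * (QuotientGroup.mk' E a)⁻¹) * c := by rw [← hcc]; group
      _ = d * (c * c) := by rw [h1]; group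
      _ = d := by rw [hcc2, mul_one]
  rw [h5] at h3
  exact hc1 (left_eq_mul.mp h3)

end CtxI

end Cfsg.Agent.Lib.H47Rk
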