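import Cfsg.Agent.Lib.H47RkI

/-!
Harada: the last case, the bound (helper47, for S1232).
-/

set_option autoImplicit false
set_option linter.unusedSectionVars false

namespace Cfsg.Agent.Lib.H47Rk

open Subgroup

universe u

variable {S : Type u} [Group S] [Finite S]

namespace CtxI

variable {E A : Subgroup S} {z : S}

/-- if `S/C(E)` is abelian, then `S` moves every element of `E` by at most `z` -/
theorem act_of_comm (h : CtxI E A z) (hab : ∀ x y : S, x * y * x⁻¹ * y⁻¹ ∈ centralizer (E : Set S)) :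
    ∀ x : S, ∀ e ∈ E, x * e * x⁻¹ = e ∨ x * e * x⁻¹ = e * z := by
  intro x e he
  by_cases hez : e ∈ zpowers z
  · left
    rcases mem_zp2 h.z2 hez with h1 | h1
    · rw [h1]; group
    · rw [h1, h.zE.2]; group
  obtain ⟨a, ha, hea, haz⟩ := h.exA he hez
  have h4 := h.P4 ha haz
  have heP : e ∈ centralizer ({a} : Set S) ⊓ E := ⟨mem_cs.mpr hea, he⟩
  have hxe : x * e * x⁻¹ ∈ E := h.n8.hE.conj_mem e he x
  have hxP : x * e * x⁻¹ ∈ centralizer ({a} : Set S) ⊓ E := by
    refine ⟨?_, hxe⟩
    change x * e * x⁻¹ ∈ centralizer ({a} : Set S)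
    rw [mem_cs]
    set κ := x * a * x⁻¹ * a⁻¹ with hκ
    have h1 := mem_cent.mp (hab x a) _ hxe
    rw [← hκ] at h1
    have h2 : a = κ⁻¹ * (x * a * x⁻¹) := by rw [hκ]; group
    have h3 : κ⁻¹ * (x * e * x⁻¹) = (x * e * x⁻¹) * κ⁻¹ := by
      calc κ⁻¹ * (x * e * x⁻¹) = κ⁻¹ * ((x * e * x⁻¹) * κ) * κ⁻¹ := by group
        _ = (x * e * x⁻¹) * κ⁻¹ := by rw [← h1]; group
    calc x * e * x⁻¹ * a = x * e * x⁻¹ * (κ⁻¹ * (x * a * x⁻¹)) := by rw [← h2]
      _ = ((x * e * x⁻¹) * κ⁻¹) * (x * a * x⁻¹) := by group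
      _ = κ⁻¹ * x * (e * a) * x⁻¹ := by rw [← h3]; group
      _ = (κ⁻¹ * (x * a * x⁻¹)) * (x * e * x⁻¹) := by rw [hea]; group
      _ = a * (x * e * x⁻¹) := by rw [← h2]
  have hxz : x * e * x⁻¹ ∉ zpowers z := by
    intro h1
    apply hez
    have h2 : e = x⁻¹ * (x * e * x⁻¹) * x := by group
    rcases mem_zp2 h.z2 h1 with h3 | h3
    · rw [h2, h3]; simp
    · rw [h2, h3, mul_assoc, ← h.zE.2]; simp
  rcases mem_zp2 h.z2 (idx2 (h.zP a) (by rw [h4, h.cz]) heP hxP hez hxz) with h1 | h1
  · left; exact (inv_mul_eq_one.mp h1).symm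
  · right; rw [← h1]; group

set_option maxHeartbeats 1000000 in
theorem bound (h : CtxI E A z) {H K : Subgroup S} (hs : Sec H K) : Nat.card H ≤ 16 * Nat.card K := by
  have hEn := h.n8.hE
  by_contra hcon
  push Not at hcon
  have hCn := h.n8.Cn
  obtain ⟨hzE, hzc⟩ := h.zE
  -- counting
  have cHC := card_map_mul H (centralizer (E : Set S))
  have cKC := card_map_mul K (centralizer (E : Set S))
  have cDE := card_map_mul (H ⊓ centralizer (E : Set S)) E
  have cLE := card_map_mul (K ⊓ centralizer (E : Set S)) E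
  have hinf : ∀ A : Subgroup S, A ⊓ centralizer (E : Set S) ⊓ E = A ⊓ E := by
    intro A
    rw [inf_assoc, inf_eq_right.mpr h.n8.EC]
  rw [hinf] at cDE cLE
  have hd2 : Nat.card ((H ⊓ centralizer (E : Set S)).map (QuotientGroup.mk' E)) ≤ 2 :=
    le_trans (Subgroup.card_le_of_le (Subgroup.map_mono inf_le_right)) h.CE2
  have heH := card_dvd8 h.n8.hE8 H
  have heK := card_dvd8 h.n8.hE8 K
  have hα := h.n8.alpha H
  have hβ := h.n8.beta hs
  have h81 := h.n8.le_cent81 hs
  have hkC0 : 0 < Nat.card (K.map (QuotientGroup.mk' (centralizer (E : Set S)))) := Nat.card_pos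
  have hdK0 : 0 < Nat.card ((K ⊓ centralizer (E : Set S)).map (QuotientGroup.mk' E)) := Nat.card_pos
  have hHC0 : 0 < Nat.card (H ⊓ centralizer (E : Set S) : Subgroup S) := Nat.card_pos
  set eH := Nat.card (H ⊓ E : Subgroup S) with heHd
  set eK := Nat.card (K ⊓ E : Subgroup S) with heKd
  set dH := Nat.card ((H ⊓ centralizer (E : Set S)).map (QuotientGroup.mk' E)) with hdHd
  set dK := Nat.card ((K ⊓ centralizer (E : Set S)).map (QuotientGroup.mk' E)) with hdKd
  set kH := Nat.card (H.map (QuotientGroup.mk' (centralizer (E : Set S)))) with hkHd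
  set kK := Nat.card (K.map (QuotientGroup.mk' (centralizer (E : Set S)))) with hkKd
  have cardH : Nat.card H = eH * dH * kH := by rw [← cHC, ← cDE]
  have cardK : Nat.card K = eK * dK * kK := by rw [← cKC, ← cLE]
  have hkH8 : kH ≤ 8 := by
    rw [← cHC] at hα
    by_contra h0
    push Not at h0
    nlinarith
  have hkH4 : eH = 4 * eK → kH ≤ 4 := by
    intro h1
    have h2 := hβ h1
    rw [← cHC] at h2
    by_contra h0
    push Not at h0
    nlinarith
  have hdk0 : 0 < dK * kK := Nat.mul_pos hdK0 hkC0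
  have hprod : dH * kH ≤ 2 * kH := Nat.mul_le_mul_right _ hd2
  have hcon' : 16 * (eK * (dK * kK)) < eH * (dH * kH) := by
    rw [cardH, cardK] at hcon
    nlinarith
  -- consequences of dK * kK = 1
  have hK1 : dK * kK = 1 → K ≤ E := by
    intro h1
    have hdK1 : dK = 1 := Nat.eq_one_of_mul_eq_one_right h1
    have hkK1 : kK = 1 := Nat.eq_one_of_mul_eq_one_left h1
    intro x hx
    have hxC : x ∈ centralizer (E : Set S) := by
      have h2 := N8.bot_of1 hkK1 (QuotientGroup.mk' (centralizer (E : Set S)) x) ⟨x, hx, rfl⟩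
      exact pi_one.mp h2
    have h3 := N8.bot_of1 hdK1 (QuotientGroup.mk' E x) ⟨x, ⟨hx, hxC⟩, rfl⟩
    exact pi_one.mp h3
  by_cases hc1 : eH ≤ 2 * eK
  · -- first case
    have h1 : eH * (dH * kH) ≤ 2 * eK * (dH * kH) := Nat.mul_le_mul_right _ hc1
    have heK0 : 0 < eK := Nat.card_pos
    have h2 : 8 * (dK * kK) < dH * kH := by
      by_contra h0
      push Not at h0
      have : 2 * eK * (dH * kH) ≤ 2 * eK * (8 * (dK * kK)) := Nat.mul_le_mul_left _ h0
      nlinarith
    have h3 : dK * kK = 1 := by omega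
    have hKE := hK1 h3
    have hKC : K ≤ centralizer (E : Set S) := hKE.trans h.n8.EC
    have h4 : 4 < kH := by omega
    -- H C = S
    have h8 : H.map (QuotientGroup.mk' (centralizer (E : Set S))) = ⊤ := by
      by_contra hne
      have h9 := two_mul_card_le (lt_top_iff_ne_top.mpr hne)
      have hT1 := h.n8.alpha (⊤ : Subgroup S)
      have hT4 : 0 < Nat.card (⊤ ⊓ centralizer (E : Set S) : Subgroup S) := Nat.card_pos
      have cT := card_map_mul (⊤ : Subgroup S) (centralizer (E : Set S))
      have hT5 : (⊤ : Subgroup S).map (QuotientGroup.mk' (centralizer (E : Set S))) = ⊤ :=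
        Subgroup.map_top_of_surjective _ (QuotientGroup.mk'_surjective _)
      rw [hT5] at cT
      have hT6 : Nat.card (⊤ : Subgroup (S ⧸ centralizer (E : Set S))) ≤ 8 := by
        by_contra h0
        push Not at h0
        nlinarith
      omega
    have hcov : ∀ x : S, ∃ g ∈ H, g⁻¹ * x ∈ centralizer (E : Set S) := by
      intro x
      have h9 : QuotientGroup.mk' (centralizer (E : Set S)) x ∈
          H.map (QuotientGroup.mk' (centralizer (E : Set S))) := by rw [h8]; exact mem_top _
      obtain ⟨g, hg, hga⟩ := h9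
      exact ⟨g, hg, pi_eq.mp hga⟩
    have hab : ∀ x y : S, x * y * x⁻¹ * y⁻¹ ∈ centralizer (E : Set S) := by
      intro x y
      obtain ⟨g, hg, hgx⟩ := hcov x
      obtain ⟨g', hg', hgy⟩ := hcov y
      have h9 := hKC (hs.comm g hg g' hg')
      apply pi_one.mp
      have e1 := pi_eq.mpr hgx
      have e2 := pi_eq.mpr hgy
      have e3 := pi_one.mpr h9
      rw [map_mul, map_mul, map_mul, map_inv, map_inv, ← e1, ← e2]
      rw [map_mul, map_mul, map_mul, map_inv, map_inv] at e3
      exact e3
    have h9 := h.n8.two hzE h.hz1 (H := H) (fun x _ e he => h.act_of_comm hab x e he)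
    rw [← cHC] at h9
    nlinarith
  by_cases hc2 : eH = 4 * eK
  swap
  · -- (8,1)
    have h5 : eH = 8 ∧ eK = 1 := by omega
    have h6 := h81 h5.1 h5.2
    have h7 : H ⊓ centralizer (E : Set S) = H := inf_eq_left.mpr h6
    have h8 : Nat.card H ≤ 16 := by
      rw [h7] at cDE
      rw [← cDE, h5.1]; omega
    have h9 : 0 < Nat.card K := Nat.card_pos
    omega
  have hkH4' := hkH4 hc2
  have heK0 : 0 < eK := Nat.card_pos
  have h2 : 4 * (dK * kK) < dH * kH := by
    by_contra h0
    push Not at h0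
    have : 4 * eK * (dH * kH) ≤ 4 * eK * (4 * (dK * kK)) := Nat.mul_le_mul_left _ h0
    rw [hc2] at hcon'
    nlinarith
  have h3 : dK * kK = 1 := by omega
  have hKE := hK1 h3
  have hdH2 : dH = 2 := by
    have : ¬ dH ≤ 1 := by
      intro h0
      have : dH * kH ≤ 1 * kH := Nat.mul_le_mul_right _ h0
      omega
    omega
  have hkH3 : 3 ≤ kH := by rw [hdH2] at h2; omega
  -- D
  set D := H ⊓ centralizer (E : Set S) with hD
  have hDH : D ≤ H := inf_le_left
  have hDC : D ≤ centralizer (E : Set S) := inf_le_right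
  have cardD : eH * 2 = Nat.card D := by rw [← cDE, hdH2]
  have hDmap : D.map (QuotientGroup.mk' E) = (centralizer (E : Set S)).map (QuotientGroup.mk' E) := by
    apply Subgroup.eq_of_le_of_card_ge (Subgroup.map_mono hDC)
    have h5 := h.CE2
    have h6 : Nat.card (D.map (QuotientGroup.mk' E)) = 2 := hdH2
    omega
  have hDE : ∀ c ∈ centralizer (E : Set S), ∃ d ∈ D, d⁻¹ * c ∈ E := by
    intro c hc
    have h5 : QuotientGroup.mk' E c ∈ D.map (QuotientGroup.mk' E) := by rw [hDmap]; exact ⟨c, hc, rfl⟩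
    obtain ⟨d, hd, hdc⟩ := h5
    exact ⟨d, hd, pi_eq.mp hdc⟩
  have hcase : (eH = 4 ∧ eK = 1) ∨ (eH = 8 ∧ eK = 2) := by omega
  obtain ⟨a₀, ha₀, ha₀z⟩ : ∃ a ∈ A, a ∉ zpowers z := by
    by_contra hno
    push Not at hno
    have h1 := Subgroup.card_le_of_le (show A ≤ zpowers z from hno)
    rw [h.hA8, h.cz] at h1
    omega
  rcases hcase with ⟨e1, e2⟩ | ⟨e1, e2⟩
  swap
  · -- (8,2)
    have hEH := h.n8.le_of8 e1
    obtain ⟨l, hl, hl1, hl2⟩ := card2 e2
    have hcom := h.n8.com_of82 hs e1 hl.2 hl2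
    have hlz : l = z := by
      by_contra hlz
      obtain ⟨P₀, hP₀n, hzP₀, hP₀E, hP₀4⟩ := h.n8.flag4 hzE h.hz1 hzc
      obtain ⟨e₀, he₀, he₀P₀⟩ := h.n8.exOut (Q := P₀) (by omega)
      have hP₀E2 : Nat.card E = 2 * Nat.card P₀ := by rw [hP₀4, h.n8.hE8]
      have hHP₀ : ∀ x ∈ H, ∀ p ∈ P₀, x * p = p * x := by
        intro x hx p hp
        rcases hcom x hx p (hP₀E hp) with h5 | h5
        · calc x * p = x * p * x⁻¹ * x := by group
            _ = p * x := by rw [h5]
        · by_cases hpz : p ∈ zpowers z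
          · rcases mem_zp2 h.z2 hpz with h6 | h6
            · rw [h6]; group
            · rw [h6]; exact hzc x
          · exfalso
            have h1 : x * p * x⁻¹ ∉ zpowers z := by
              intro h2
              apply hpz
              have h3 : p = x⁻¹ * (x * p * x⁻¹) * x := by group
              rcases mem_zp2 h.z2 h2 with h4 | h4
              · rw [h3, h4]; simp
              · rw [h3, h4, mul_assoc, ← hzc]; simp
            have h2 := idx2 (A := zpowers z) (B := P₀) (by rw [zpowers_le]; exact hzP₀) (by rw [hP₀4, h.cz]) hp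
              (hP₀n.conj_mem p hp x) hpz h1
            rw [h5] at h2
            have h7 : p⁻¹ * (p * l) = l := by group
            rw [h7] at h2
            rcases mem_zp2 h.z2 h2 with h8 | h8
            · exact hl1 h8
            · exact hlz h8
      have h5 : Nat.card H ≤ 2 * Nat.card (H ⊓ centralizer (E : Set S) : Subgroup S) := by
        apply card_le_two_mul
        intro x hx y hy hxc hyc
        have key : ∀ x ∈ H, x ∉ centralizer (E : Set S) → x * e₀ * x⁻¹ = e₀ * l := by
          intro x hx hxc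
          rcases hcom x hx e₀ he₀ with h3 | h3
          · exfalso
            apply hxc
            apply cent_of' hP₀E hP₀E2 (hHP₀ x hx) he₀ he₀P₀
            calc x * e₀ = x * e₀ * x⁻¹ * x := by group
              _ = e₀ * x := by rw [h3]
          · exact h3
        apply cent_of' hP₀E hP₀E2 (hHP₀ _ (mul_mem (inv_mem hx) hy)) he₀ he₀P₀
        calc x⁻¹ * y * e₀ = x⁻¹ * (y * e₀ * y⁻¹) * y := by group
          _ = x⁻¹ * (x * e₀ * x⁻¹) * y := by rw [key y hy hyc, key x hx hxc]
          _ = e₀ * (x⁻¹ * y) := by group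
      have h6 : Nat.card D * kH = Nat.card H := cHC
      have h7 : Nat.card H ≤ 2 * Nat.card D := h5
      nlinarith
    subst hlz
    -- W
    let W : Subgroup S :=
      { carrier := {x | ∀ e ∈ E, x * e * x⁻¹ = e ∨ x * e * x⁻¹ = e * l}
        one_mem' := by intro e he; left; group
        mul_mem' := by
          intro x y hx hy e he
          have h5 : x * y * e * (x * y)⁻¹ = x * (y * e * y⁻¹) * x⁻¹ := by group
          rw [h5]
          rcases hy e he with h6 | h6
          · rw [h6]; exact hx e he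
          · have h7 : x * (e * l) * x⁻¹ = (x * e * x⁻¹) * l := by
              calc x * (e * l) * x⁻¹ = x * e * (l * x⁻¹) := by group
                _ = (x * e * x⁻¹) * l := by rw [← hzc]; group
            rw [h6, h7]
            rcases hx e he with h8 | h8
            · right; rw [h8]
            · left
              rw [h8]
              calc e * l * l = e * (l ^ 2) := by rw [pow_two]; group
                _ = e := by rw [h.z2, mul_one]
        inv_mem' := by
          intro x hx e he
          have h6 : x * (x⁻¹ * e * x) * x⁻¹ = e := by group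
          rcases hx (x⁻¹ * e * x) (by simpa using h.n8.hE.conj_mem e he x⁻¹) with h5 | h5
          · left
            rw [h6] at h5
            rw [inv_inv]; exact h5.symm
          · right
            rw [h6] at h5
            rw [inv_inv]
            calc x⁻¹ * e * x = (x⁻¹ * e * x) * l ^ 2 := by rw [h.z2, mul_one]
              _ = ((x⁻¹ * e * x) * l) * l := by rw [pow_two]; group
              _ = e * l := by rw [← h5] }
    have hW : ∀ x, x ∈ W ↔ ∀ e ∈ E, x * e * x⁻¹ = e ∨ x * e * x⁻¹ = e * l := fun x => Iff.rfl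
    have hHW : H ≤ W := fun x hx => hcom x hx
    have hCH : centralizer (E : Set S) ≤ H := by
      intro c hc
      obtain ⟨d, hd, hdc⟩ := hDE c hc
      have h5 : c = d * (d⁻¹ * c) := by group
      rw [h5]; exact mul_mem (hDH hd) (hEH hdc)
    have hDeq : D = centralizer (E : Set S) := le_antisymm hDC (le_inf hCH le_rfl)
    have hWle := h.n8.two hzE h.hz1 (H := W) (fun x hx e he => hx e he)
    have h5 : Nat.card (W ⊓ centralizer (E : Set S) : Subgroup S) ≤ Nat.card D := by
      rw [hDeq]; exact Subgroup.card_le_of_le inf_le_right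
    have h6 : Nat.card D * kH = Nat.card H := cHC
    have hHWe : H = W := by
      by_contra hne
      have h7 := two_mul_card_le (lt_of_le_of_ne hHW hne)
      nlinarith
    have ha₀H : a₀ ∈ H := by
      rw [hHWe, hW]
      intro e he
      exact h.act ha₀ he
    have h7 : Nat.card D ≤ Nat.card (D ⊓ centralizer ({a₀} : Set S) : Subgroup S) * Nat.card (K : Set S) := by
      apply card_le_fiber D (centralizer ({a₀} : Set S)) (K : Set S) (fun x => x * a₀ * x⁻¹ * a₀⁻¹)
      · intro x hx; exact hs.comm x (hDH hx) a₀ ha₀H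
      · intro x hx y hy hxy
        rw [mem_cs]
        have h1 : x * a₀ * x⁻¹ = y * a₀ * y⁻¹ := mul_right_cancel hxy
        calc x⁻¹ * y * a₀ = x⁻¹ * (y * a₀ * y⁻¹) * y := by group
          _ = a₀ * (x⁻¹ * y) := by rw [← h1]; group
    have h8 : Nat.card (K : Set S) = 2 := by
      have h9 : K ⊓ E = K := inf_eq_left.mpr hKE
      rw [← e2, heKd, h9]; rfl
    have h9 : Nat.card (D ⊓ centralizer ({a₀} : Set S) : Subgroup S) ≤ 4 := by
      rw [hDeq]; exact h.CCa4 ha₀ ha₀z
    rw [h8] at h7
    omega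
  · -- (4,1)
    have hKbot : ∀ x ∈ K, x = 1 := fun x hx => N8.bot_of1 e2 x ⟨hx, hKE hx⟩
    have hHc : ∀ x ∈ H, ∀ y ∈ H, x * y = y * x := by
      intro x hx y hy
      have h5 := hKbot _ (hs.comm x hx y hy)
      calc x * y = (x * y * x⁻¹ * y⁻¹) * (y * x) := by group
        _ = y * x := by rw [h5, one_mul]
    have hH2 : ∀ x ∈ H, x ^ 2 = 1 := fun x hx => hKbot _ (hs.sq x hx)
    have hHE2 : Nat.card E = 2 * Nat.card (H ⊓ E : Subgroup S) := by
      have : Nat.card (H ⊓ E : Subgroup S) = 4 := e1
      rw [this, h.n8.hE8]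
    -- H is not in C
    have hHC : ¬ H ≤ centralizer (E : Set S) := by
      intro h5
      have h6 : Nat.card D * kH = Nat.card H := cHC
      have h7 : D = H := inf_eq_left.mpr h5
      rw [h7] at h6
      have h8 : 0 < Nat.card H := Nat.card_pos
      nlinarith
    have hzP' : z ∈ H ⊓ E := by
      by_contra hz
      apply hHC
      intro x hx
      exact cent_of' inf_le_right hHE2 (fun q hq => hHc x hx q hq.1) hzE hz (hzc x)
    -- C is abelian
    have hCab : ∀ x ∈ centralizer (E : Set S), ∀ d ∈ D, x * d = d * x := by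
      intro x hx d hd
      obtain ⟨d', hd', hde⟩ := hDE x hx
      have h5 := hHc d' (hDH hd') d (hDH hd)
      have h6 := mem_cent.mp (hDC hd) _ hde
      calc x * d = d' * ((d'⁻¹ * x) * d) := by group
        _ = (d' * d) * (d'⁻¹ * x) := by rw [← h6]; group
        _ = d * x := by rw [h5]; group
    -- V = H C
    have hHV : H ≤ centralizer ((H ⊓ E : Subgroup S) : Set S) := by
      intro x hx
      rw [mem_cent]
      intro e he
      exact hHc x hx e he.1
    have hVHC : ∀ v ∈ centralizer ((H ⊓ E : Subgroup S) : Set S), ∃ g ∈ H, g⁻¹ * v ∈ centralizer (E : Set S) := by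
      have h1 : H.map (QuotientGroup.mk' (centralizer (E : Set S))) ≤
          (centralizer ((H ⊓ E : Subgroup S) : Set S)).map (QuotientGroup.mk' (centralizer (E : Set S))) :=
        Subgroup.map_mono hHV
      have h2 : Nat.card ((centralizer ((H ⊓ E : Subgroup S) : Set S)).map
          (QuotientGroup.mk' (centralizer (E : Set S)))) ≤ 4 := by
        have h3 := h.n8.fib (Q := H ⊓ E) inf_le_right e1 (A := centralizer ((H ⊓ E : Subgroup S) : Set S)) le_rfl
        have h4 := card_map_mul (centralizer ((H ⊓ E : Subgroup S) : Set S)) (centralizer (E : Set S))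
        rw [← h4] at h3
        have h5 : 0 < Nat.card (centralizer ((H ⊓ E : Subgroup S) : Set S) ⊓ centralizer (E : Set S) : Subgroup S) :=
          Nat.card_pos
        by_contra h6
        push Not at h6
        nlinarith
      have h3 : H.map (QuotientGroup.mk' (centralizer (E : Set S))) =
          (centralizer ((H ⊓ E : Subgroup S) : Set S)).map (QuotientGroup.mk' (centralizer (E : Set S))) := by
        by_contra hne
        have h4 := two_mul_card_le (lt_of_le_of_ne h1 hne)
        omega
      intro v hv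
      have h4 : QuotientGroup.mk' (centralizer (E : Set S)) v ∈
          H.map (QuotientGroup.mk' (centralizer (E : Set S))) := by rw [h3]; exact ⟨v, hv, rfl⟩
      obtain ⟨g, hg, hgv⟩ := h4
      exact ⟨g, hg, pi_eq.mp hgv⟩
    -- choice of a
    obtain ⟨a, ha, haz, haP⟩ : ∃ a ∈ A, a ∉ zpowers z ∧ ∃ e ∈ H ⊓ E, e * a ≠ a * e := by
      obtain ⟨b, hb, hbz, habz⟩ := h.exB ha₀ ha₀z
      by_contra hno
      push Not at hno
      have h5 := hno a₀ ha₀ ha₀z
      have h6 := hno b hb hbz
      have h7 : H ⊓ E ≤ zpowers z := fun e he => h.inter ha₀ hb ha₀z hbz habz he.2 (h5 e he) (h6 e he)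
      have h8 := Subgroup.card_le_of_le h7
      rw [h.cz] at h8
      have h9 : Nat.card (H ⊓ E : Subgroup S) = 4 := e1
      omega
    obtain ⟨e₂, he₂, he₂a⟩ := haP
    have hai := inv_of_sq (h.hA2 a ha)
    have hPa : ∀ e ∈ H ⊓ E, a * e * a⁻¹ ∈ H ⊓ E := by
      intro e he
      rcases h.act ha he.2 with h5 | h5
      · rw [h5]; exact he
      · rw [h5]; exact mul_mem he hzP'
    have hVa : ∀ v ∈ centralizer ((H ⊓ E : Subgroup S) : Set S),
        a⁻¹ * v * a ∈ centralizer ((H ⊓ E : Subgroup S) : Set S) := by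
      intro v hv
      rw [mem_cent]
      intro e he
      have h5 := mem_cent.mp hv _ (hPa e he)
      calc a⁻¹ * v * a * e = a⁻¹ * (v * (a * e * a⁻¹)) * a := by group
        _ = e * (a⁻¹ * v * a) := by rw [h5]; group
    have hDa : ∀ d ∈ D, a * d * a⁻¹ ∈ D := by
      intro d hd
      have hdC : a * d * a⁻¹ ∈ centralizer (E : Set S) := hCn.conj_mem d (hDC hd) a
      obtain ⟨d₁, hd₁, hde⟩ := hDE _ hdC
      set e := d₁⁻¹ * (a * d * a⁻¹) with he
      have hde' : a * d * a⁻¹ = d₁ * e := by rw [he]; group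
      by_cases heP : e ∈ H ⊓ E
      · rw [hde']
        exact mul_mem hd₁ ⟨heP.1, h.n8.EC heP.2⟩
      · exfalso
        apply hHC
        intro g hg
        refine cent_of' inf_le_right hHE2 (fun q hq => hHc g hg q hq.1) hde heP ?_
        obtain ⟨g', hg', hgc⟩ := hVHC _ (hVa g (hHV hg))
        have h5 : (a⁻¹ * g * a) * d = d * (a⁻¹ * g * a) := by
          have h6 := hCab _ hgc d hd
          have h7 := hHc g' hg' d (hDH hd)
          calc (a⁻¹ * g * a) * d = g' * ((g'⁻¹ * (a⁻¹ * g * a)) * d) := by group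
            _ = (g' * d) * (g'⁻¹ * (a⁻¹ * g * a)) := by rw [h6]; group
            _ = d * (a⁻¹ * g * a) := by rw [h7]; group
        have h6 : g * (a * d * a⁻¹) = (a * d * a⁻¹) * g := by
          calc g * (a * d * a⁻¹) = a * ((a⁻¹ * g * a) * d) * a⁻¹ := by group
            _ = (a * d * a⁻¹) * g := by rw [h5]; group
        have h7 := hHc g hg _ (inv_mem (hDH hd₁))
        calc g * e = (g * d₁⁻¹) * (a * d * a⁻¹) := by rw [he]; group
          _ = d₁⁻¹ * (g * (a * d * a⁻¹)) := by rw [h7]; group
          _ = e * g := by rw [h6, he]; group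
    have h5 := card_le_sq_fix (X := D) (fun x hx y hy => hHc x (hDH hx) y (hDH hy)) (fun x hx => hH2 x (hDH hx))
      (h.hA2 a ha) hDa
    have h6 : D ⊓ centralizer ({a} : Set S) < H ⊓ E := by
      have h7 : D ⊓ centralizer ({a} : Set S) ≤ H ⊓ E := by
        intro x hx
        exact ⟨hDH hx.1, h.CCa ha haz (hDC hx.1) (mem_cs.mp hx.2)⟩
      refine lt_of_le_of_ne h7 ?_
      intro h8
      apply he₂a
      rw [← h8] at he₂
      exact mem_cs.mp he₂.2
    have h7 := two_mul_card_le h6
    have h8 : Nat.card (H ⊓ E : Subgroup S) = 4 := e1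
    have h9 : Nat.card (D ⊓ centralizer ({a} : Set S) : Subgroup S) ≤ 2 := by omega
    rw [← cardD, e1] at h5
    nlinarith

end CtxI

end Cfsg.Agent.Lib.H47Rk
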