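import Cfsg.Agent.Lib.H47ZcG
import Cfsg.Agent.Lib.ZNQh
import Cfsg.Agent.Lib.QWSylow
import Cfsg.Agent.Lib.StrongEmb
import Cfsg.Agent.Lib.H55Quat
import Cfsg.Agent.S4399
import Cfsg.Agent.S0115
import Cfsg.Agent.S0112

/-!
ZN-groups (helper47, S3758).
-/

set_option autoImplicit false
set_option linter.unusedSectionVars false

namespace Cfsg.Agent.Lib.H47Zc

open Subgroup Cfsg Cfsg.Agent.Lib.LocBase Cfsg.Agent.Lib.SigCon Cfsg.Agent.Lib.SigTwo
open scoped commutatorElement Pointwise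

universe u

section S4

open Equiv

def v1 : Perm (Fin 4) := swap 0 1 * swap 2 3
def v2 : Perm (Fin 4) := swap 0 2 * swap 1 3

def IsV (σ : Perm (Fin 4)) : Prop := σ = 1 ∨ σ = v1 ∨ σ = v2 ∨ σ = v1 * v2

instance (σ : Perm (Fin 4)) : Decidable (IsV σ) := by unfold IsV; infer_instance

theorem dA : ∀ σ : Perm (Fin 4), IsV σ ∨ (σ ≠ 1 ∧ σ ^ 3 = 1) ∨
    ∃ τ : Perm (Fin 4), σ * (τ * σ * τ⁻¹) ≠ 1 ∧ (σ * (τ * σ * τ⁻¹)) ^ 3 = 1 := by decide +kernel

theorem dB : ∀ σ : Perm (Fin 4), σ ≠ 1 → IsV σ → (∃ τ : Perm (Fin 4), τ * σ * τ⁻¹ = v1) ∧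
    ∃ τ : Perm (Fin 4), τ * σ * τ⁻¹ = v2 := by decide +kernel

theorem dC : ∀ σ : Perm (Fin 4), v1 * σ = σ * v1 → v2 * σ = σ * v2 → IsV σ := by decide +kernel

theorem dD : ∀ σ : Perm (Fin 4), IsV σ → σ ^ 2 = 1 := by decide +kernel

theorem dE : Fintype.card {σ : Perm (Fin 4) // IsV σ} = 4 := by decide +kernel

theorem eq_one_of_cube {N : Subgroup (Perm (Fin 4))} (hN : IsPGroup 2 N) {σ : Perm (Fin 4)} (h : σ ∈ N)
    (h3 : σ ^ 3 = 1) : σ = 1 :=
  eq_one_of_isPGroup_of_pow hN h (by norm_num) h3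

/-- the nontrivial normal 2-subgroup of `S₄` -/
theorem mem_V_iff {N : Subgroup (Perm (Fin 4))} (hn : N.Normal) (hN : IsPGroup 2 N) (h1 : N ≠ ⊥) (σ : Perm (Fin 4)) :
    σ ∈ N ↔ IsV σ := by
  have hle : ∀ σ ∈ N, IsV σ := by
    intro σ hσ
    rcases dA σ with h | ⟨h, h3⟩ | ⟨τ, h, h3⟩
    · exact h
    · exact absurd (eq_one_of_cube hN hσ h3) h
    · exact absurd (eq_one_of_cube hN (mul_mem hσ (hn.conj_mem σ hσ τ)) h3) h
  refine ⟨hle σ, ?_⟩
  obtain ⟨⟨ρ, hρ⟩, hρ1'⟩ := (Subgroup.ne_bot_iff_exists_ne_one).mp h1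
  have hρ1 : ρ ≠ 1 := fun e => hρ1' (Subtype.ext e)
  obtain ⟨⟨τ₁, e1⟩, ⟨τ₂, e2⟩⟩ := dB ρ hρ1 (hle _ hρ)
  have m1 : v1 ∈ N := by rw [← e1]; exact hn.conj_mem _ hρ τ₁
  have m2 : v2 ∈ N := by rw [← e2]; exact hn.conj_mem _ hρ τ₂
  rintro (rfl | rfl | rfl | rfl)
  · exact one_mem _
  · exact m1
  · exact m2
  · exact mul_mem m1 m2

/-- a 2-local subgroup isomorphic to `S₄` -/
theorem self_cent {X : Type u} [Group X] [Finite X] {T M : Subgroup X} (hT : IsPGroup 2 T) (hT1 : T ≠ ⊥)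
    (hM : M = normalizer (T : Set X)) (ψ : M ≃* Perm (Fin 4)) :
    Nat.card T = 4 ∧ (∀ x ∈ T, x ^ 2 = 1) ∧ centralizer (T : Set X) ≤ T := by
  have hTM : T ≤ M := by rw [hM]; exact le_normalizer
  set N := (T.subgroupOf M).map ψ.toMonoidHom with hN
  have hTn : (T.subgroupOf M).Normal := by
    rw [normal_subgroupOf_iff_le_normalizer hTM, hM]
  have hNn : N.Normal := hTn.map ψ.toMonoidHom ψ.surjective
  have hTc : Nat.card (T.subgroupOf M) = Nat.card T := card_subgroupOf_of_le hTM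
  have hNc : Nat.card N = Nat.card T := by rw [hN, card_map_of_injective ψ.injective, hTc]
  have hNp : IsPGroup 2 N := (hT.comap_of_injective M.subtype (subtype_injective _)).map _
  have hN1 : N ≠ ⊥ := by
    intro e
    rw [hN, Subgroup.map_eq_bot_iff_of_injective _ ψ.injective, subgroupOf_eq_bot] at e
    apply hT1
    have := e.eq_bot_of_le hTM
    exact this
  have hV := mem_V_iff hNn hNp hN1
  have hmem : ∀ x : M, (x : X) ∈ T ↔ IsV (ψ x) := by
    intro x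
    rw [← hV]
    constructor
    · intro hx
      exact ⟨x, mem_subgroupOf.mpr hx, rfl⟩
    · rintro ⟨y, hy, hyx⟩
      have : y = x := ψ.injective hyx
      rw [← this]; exact mem_subgroupOf.mp hy
  refine ⟨?_, ?_, ?_⟩
  · rw [← hNc]
    have e : Nat.card N = Nat.card {σ : Perm (Fin 4) // IsV σ} :=
      Nat.card_congr (Equiv.subtypeEquivRight hV)
    rw [e, Nat.card_eq_fintype_card, dE]
  · intro x hx
    have h1 := dD _ ((hmem ⟨x, hTM hx⟩).mp hx)
    rw [← map_pow] at h1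
    have h2 : (⟨x, hTM hx⟩ : M) ^ 2 = 1 := by
      apply ψ.injective
      rw [h1, map_one]
    exact congrArg Subtype.val h2
  · intro x hx
    have hxM : x ∈ M := by rw [hM]; exact centralizer_le_normalizer _ hx
    apply (hmem ⟨x, hxM⟩).mpr
    have key : ∀ v : Perm (Fin 4), IsV v → v * ψ ⟨x, hxM⟩ = ψ ⟨x, hxM⟩ * v := by
      intro v hv
      obtain ⟨y, rfl⟩ := ψ.surjective v
      rw [← map_mul, ← map_mul]
      congr 1
      exact Subtype.ext (hx y ((hmem y).mpr hv))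
    exact dC _ (key v1 (Or.inr (Or.inl rfl))) (key v2 (Or.inr (Or.inr (Or.inl rfl))))

end S4

/-- Sylow 2-subgroups with a self-centralizing four-group -/
theorem dih_of {P : Type u} [Group P] [Finite P] (hP : IsPGroup 2 P) {T : Subgroup P} (h4 : Nat.card T = 4)
    (hexp : ∀ x ∈ T, x ^ 2 = 1) (hC : centralizer (T : Set P) ≤ T) (h8 : 8 ≤ Nat.card P) :
    (∃ n : ℕ, 2 ≤ n ∧ Nonempty (P ≃* DihedralGroup n)) ∨ IsQuasiDihedral P := by
  obtain ⟨n, hn⟩ := hP.exists_card_eq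
  have hn3 : 3 ≤ n := by
    by_contra hcon
    have : 2 ^ n ≤ 2 ^ 2 := Nat.pow_le_pow_right (by norm_num) (by omega)
    omega
  have hTcomm : ∀ x ∈ T, ∀ y ∈ T, x * y = y * x := by
    intro x hx y hy
    have h1 := hexp _ (mul_mem hx hy)
    have h2 := hexp x hx
    have h3 := hexp y hy
    rw [pow_two] at h1 h2 h3
    have e1 : x⁻¹ = x := inv_eq_of_mul_eq_one_right h2
    have e2 : y⁻¹ = y := inv_eq_of_mul_eq_one_right h3
    have e4 : (x * y)⁻¹ = x * y := inv_eq_of_mul_eq_one_right h1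
    rw [← e4, mul_inv_rev, e1, e2]
  have hCeq : centralizer (T : Set P) = T := le_antisymm hC (fun x hx y hy => hTcomm y hy x hx)
  have hcl := S0112.result (p := 2) n hn T (by rw [h4]; norm_num) hCeq
  have hk := (S0115.result n hn3 hn).mp hcl
  have hkc : Nat.card (Abelianization P) = 4 := hk.card_four
  have hke : ∀ x : Abelianization P, x ^ 2 = 1 := by
    intro x
    have h1 : Monoid.exponent (Abelianization P) = 2 := hk.exponent_two
    rw [← h1]
    exact Monoid.pow_exponent_eq_one x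
  rcases S4399.result hP hkc hke with h | ⟨k, h⟩ | ⟨k, hc, a, b, ha, hb, hab⟩ | ⟨k, ⟨e⟩⟩
  · omega
  · left
    refine ⟨2 ^ (k + 2), ?_, h⟩
    calc 2 = 2 ^ 1 := by norm_num
      _ ≤ 2 ^ (k + 2) := Nat.pow_le_pow_right (by norm_num) (by omega)
  · right
    exact ⟨k + 3, by omega, hc, a, b, ha, hb, hab⟩
  · exfalso
    have : NeZero (2 ^ (k + 1)) := ⟨by positivity⟩
    have huniq : ∀ x ∈ T, ∀ y ∈ T, x ≠ 1 → y ≠ 1 → x = y := by
      intro x hx y hy hx1 hy1
      have h1 : orderOf x = 2 := orderOf_eq_prime (hexp x hx) hx1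
      have h2 : orderOf y = 2 := orderOf_eq_prime (hexp y hy) hy1
      apply e.injective
      rw [H55Quat.eq_of_orderOf_two (2 ^ (k + 1)) (x := e x) (by rw [MulEquiv.orderOf_eq]; exact h1),
        H55Quat.eq_of_orderOf_two (2 ^ (k + 1)) (x := e y) (by rw [MulEquiv.orderOf_eq]; exact h2)]
    have h5 : 1 < Nat.card T := by omega
    have : Nontrivial T := Finite.one_lt_card_iff_nontrivial.mp h5
    obtain ⟨x, hx1⟩ := exists_ne (1 : T)
    have hsub : T ≤ zpowers (x : P) := by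
      intro y hy
      by_cases hy1 : y = 1
      · rw [hy1]; exact one_mem _
      · rw [huniq y hy x x.2 hy1 (fun e => hx1 (Subtype.ext e))]
        exact mem_zpowers _
    have h6 := Subgroup.card_le_of_le hsub
    have h7 : orderOf (x : P) = 2 := orderOf_eq_prime (hexp x x.2) (fun e => hx1 (Subtype.ext e))
    rw [h4, Nat.card_zpowers, h7] at h6
    omega

end Cfsg.Agent.Lib.H47Zc
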