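import Cfsg.Agent.Lib.H47ZcH

/-!
ZN-groups (helper47, S3758): reduction to groups of characteristic two type.
-/

set_option autoImplicit false
set_option linter.unusedSectionVars false

namespace Cfsg.Agent.Lib.H47Zc

open Subgroup Cfsg Cfsg.Agent.Lib.LocBase Cfsg.Agent.Lib.SigCon Cfsg.Agent.Lib.SigTwo
open scoped commutatorElement Pointwise

universe u

/-- a strongly embedded subgroup contains a Sylow 2-subgroup -/
theorem se_sylow {Y : Type u} [Group Y] [Finite Y] {K' : Subgroup Y} (h : IsStronglyEmbedded K') :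
    ∃ P ≤ K', IsSyl 2 P ⊤ := by
  obtain ⟨P, hP⟩ := exists_isSyl 2 K'
  have hP1 : P ≠ ⊥ := by
    rintro rfl
    have h1 := hP.ndvd
    rw [relIndex_bot_left] at h1
    exact h1 h.2.1.two_dvd
  obtain ⟨P₁, hP₁, hPP⟩ := exists_isSyl_ge (H := (⊤ : Subgroup Y)) hP.pgroup le_top
  refine ⟨P, hP.le, ?_⟩
  by_cases he : P = P₁
  · rw [he]; exact hP₁
  · exfalso
    have hlt := SylAmb.lt_inf_normalizer hP₁.pgroup (lt_of_le_of_ne hPP he)
    have hle : P₁ ⊓ normalizer (P : Set Y) ≤ K' := by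
      intro x hx
      apply StrongEmb.mem_of_conj_le h (even_of_pgroup hP.pgroup hP1) hP.le
      intro y hy
      exact hP.le ((mem_normalizer_iff''.mp hx.2 y).mp hy)
    exact hlt.ne (hP.eq_of_le (hP₁.pgroup.to_le inf_le_left) hle hlt.le)

variable {G : Type u} [Group G] [Finite G]

theorem slv_of (hN : ∀ L : Subgroup G, IsTwoLocal L → Group.IsSolvable L) : Slv G := by
  intro t ht
  have h1 := hN (normalizer ((zpowers t : Subgroup G) : Set G)) ⟨zpowers t, isPGroup_zpowers_two ht, by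
    rw [Ne, zpowers_eq_bot]; exact ne_one_of ht, rfl⟩
  have h2 : centralizer ({t} : Set G) ≤ normalizer ((zpowers t : Subgroup G) : Set G) := by
    rw [← centralizer_zpowers_eq]; exact centralizer_le_normalizer _
  exact Group.isSolvable_of_isSolvable_injective (Subgroup.inclusion_injective h2)

theorem OO_eq (Y : Type u) [Group Y] : ZNQ.OO Y = pResidual 2 Y := by
  unfold ZNQ.OO pResidual
  congr 1
  ext x
  exact Nat.coprime_two_right.symm

theorem map_OO {K : Subgroup G} (hK : pResidual 2 G ≤ K) : (ZNQ.OO ↥K).map K.subtype = pResidual 2 G := by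
  rw [OO_eq, map_pResidual, pResidual_eq]
  exact pRes_eq_of_le (by rw [← pResidual_eq]; exact hK) le_top

/-- transfer of strong embedding from `K` to `H = O²(G)` -/
theorem se_down {S K : Subgroup G} (hS : IsSyl 2 S ⊤) (hR : S ⊓ pResidual 2 G ≠ ⊥)
    (hHK : pResidual 2 G ≤ K) {K' : Subgroup ↥K} (h : IsStronglyEmbedded K') :
    IsStronglyEmbedded ((K'.map K.subtype).subgroupOf (pResidual 2 G)) := by
  have hHn : (pResidual 2 G).Normal := res_normal
  obtain ⟨P, hPK, hP⟩ := se_sylow h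
  have h3 := ((StrongEmb.iff_involution K').mp h).2.2
  have hmem : ∀ x : G, x ∈ K'.map K.subtype ↔ ∃ hx : x ∈ K, (⟨x, hx⟩ : ↥K) ∈ K' := by
    intro x
    constructor
    · rintro ⟨y, hy, rfl⟩; exact ⟨y.2, hy⟩
    · rintro ⟨hx, hx'⟩; exact ⟨_, hx', rfl⟩
  rw [StrongEmb.iff_involution]
  refine ⟨?_, ?_, ?_⟩
  · intro e
    rw [subgroupOf_eq_top] at e
    apply h.1
    rw [eq_top_iff, ← sup_res hP]
    apply sup_le hPK
    rw [← OO_eq]
    intro x hx
    have h4 : (x : G) ∈ pResidual 2 G := by rw [← map_OO hHK]; exact ⟨x, hx, rfl⟩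
    obtain ⟨_, h5⟩ := (hmem x).mp (e h4)
    exact h5
  · -- an involution
    obtain ⟨x, hx, hxo, -⟩ := ConstrainedLocal.exists_central_orderOf (p := 2) (hS.pgroup.to_le inf_le_left) hR
    obtain ⟨m, -, hm⟩ := hP.exists_conj_le (A := zpowers (⟨x, hHK hx.2⟩ : ↥K)) (isPGroup_zpowers_two (by
      rw [Subgroup.orderOf_mk]; exact hxo)) le_top
    have h4 : m * ⟨x, hHK hx.2⟩ * m⁻¹ ∈ P := hm (mem_cj (mem_zpowers _))
    have h5 : (m : G) * x * (m : G)⁻¹ ∈ K'.map K.subtype := ⟨_, hPK h4, rfl⟩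
    have h6 : (m : G) * x * (m : G)⁻¹ ∈ pResidual 2 G := hHn.conj_mem x hx.2 m
    exact even_of (x := (⟨_, h6⟩ : ↥(pResidual 2 G))) (mem_subgroupOf.mpr h5) (by
      rw [Subgroup.orderOf_mk, orderOf_conj', hxo])
  · intro g t ht htM htg
    rw [mem_subgroupOf] at htM htg ⊢
    obtain ⟨a1, a2⟩ := (hmem t).mp htM
    obtain ⟨b1, b2⟩ := (hmem _).mp htg
    have h5 := h3 (⟨g, hHK g.2⟩ : ↥K) ⟨t, a1⟩ (by
      rw [Subgroup.orderOf_mk, Subgroup.orderOf_coe]; exact ht) a2 b2
    exact ⟨_, h5, rfl⟩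

/-- the ZN-hypothesis for `K = HZ` -/
theorem zn_down (hN : ∀ L : Subgroup G, IsTwoLocal L → Group.IsSolvable L)
    (hZ : ∀ S : Sylow 2 G, centralizer (om (S : Subgroup G) : Set G) ≤ normalizer ((S : Subgroup G) : Set G))
    {S K : Subgroup G} (hS : IsSyl 2 S ⊤) (hK : K.Normal) (hZK : om S ≤ K) (hc : IsCharacteristicTwoType ↥K) :
    ZN.ZNHyp ↥K := by
  refine ⟨hc, ?_, ?_⟩
  · rintro N ⟨T, hT, hT1, rfl⟩
    have h1 := hN (normalizer ((T.map K.subtype : Subgroup G) : Set G)) ⟨T.map K.subtype, hT.map _, by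
      rw [Ne, Subgroup.map_eq_bot_iff_of_injective _ (subtype_injective _)]; exact hT1, rfl⟩
    let f : ↥(normalizer (T : Set ↥K)) →* ↥(normalizer ((T.map K.subtype : Subgroup G) : Set G)) :=
      { toFun := fun y => ⟨((y : ↥K) : G), by
          apply mem_normalizer_of_map_conj_le
          rintro _ ⟨_, ⟨x, hx, rfl⟩, rfl⟩
          exact ⟨(y : ↥K) * x * (y : ↥K)⁻¹, (mem_normalizer_iff.mp y.2 x).mp hx, rfl⟩⟩
        map_one' := rfl
        map_mul' := fun _ _ => rfl }
    have hf : Function.Injective f := by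
      intro a b hab
      have : ((a : ↥K) : G) = ((b : ↥K) : G) :=
        congrArg (fun w => ((w : ↥(normalizer ((T.map K.subtype : Subgroup G) : Set G))) : G)) hab
      exact Subtype.ext (Subtype.ext this)
    exact Group.isSolvable_of_isSolvable_injective hf
  · intro S₁
    have h1 : IsSyl 2 ((S₁ : Subgroup ↥K).map K.subtype) K := isSyl_map_subtype S₁
    have hnK : (⊤ : Subgroup G) ≤ normalizer (K : Set G) := by rw [Subgroup.normalizer_eq_top]
    have h2 : IsSyl 2 (S ⊓ K) K := hS.inf_normal le_top hnK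
    obtain ⟨k, hk, hkk⟩ := h1.conj h2
    have hcjK : cj k K = K := map_conj_eq_of_mem (by rw [Subgroup.normalizer_eq_top]; exact mem_top k)
    have hkS : cj k S ⊓ K = (S₁ : Subgroup ↥K).map K.subtype := by
      rw [← hkk, Subgroup.map_inf _ _ _ (MulAut.conj k).injective]
      show _ = cj k S ⊓ cj k K
      rw [hcjK]
    have hSk : IsSyl 2 (cj k S) ⊤ := by
      have := hS.map_conj k
      rwa [show (⊤ : Subgroup G).map (MulAut.conj k).toMonoidHom = ⊤ from
        Subgroup.map_top_of_surjective _ (MulAut.conj k).surjective] at this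
    obtain ⟨P, hP⟩ := hSk.exists_sylow_top
    have hZP := hZ P
    rw [hP] at hZP
    intro x hx
    have hxN : (x : G) ∈ normalizer ((cj k S : Subgroup G) : Set G) := by
      apply hZP
      intro y hy
      -- `y ∈ Ω₁(Z(S^k))`
      obtain ⟨y1, y2, y3⟩ := mem_om.mp hy
      have hyK : y ∈ K := by
        have : k⁻¹ * y * k ∈ om S := by
          rw [mem_om]
          refine ⟨mem_cj_iff.mp y1, ?_, ?_⟩
          · intro s hs
            have h4 := y2 (k * s * k⁻¹) (mem_cj hs)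
            calc s * (k⁻¹ * y * k) = k⁻¹ * (k * s * k⁻¹ * y) * k := by group
              _ = k⁻¹ * (y * (k * s * k⁻¹)) * k := by rw [h4]
              _ = k⁻¹ * y * k * s := by group
          · have e : k⁻¹ * y * k = k⁻¹ * y * k⁻¹⁻¹ := by group
            rw [e, conj_pow, y3]; group
        have h5 := hK.conj_mem _ (hZK this) k
        have e : k * (k⁻¹ * y * k) * k⁻¹ = y := by group
        rwa [e] at h5
      have hyS : (⟨y, hyK⟩ : ↥K) ∈ (S₁ : Subgroup ↥K) := by
        have : y ∈ cj k S ⊓ K := ⟨y1, hyK⟩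
        rw [hkS] at this
        obtain ⟨w, hw, hwy⟩ := this
        have : w = ⟨y, hyK⟩ := Subtype.ext hwy
        rwa [← this]
      have hyo : (⟨y, hyK⟩ : ↥K) ∈ omegaCenterOf (S₁ : Subgroup ↥K) := by
        rw [ZN.mem_omegaCenterOf]
        refine ⟨hyS, ?_, Subtype.ext y3⟩
        intro s hs
        apply Subtype.ext
        apply y2 (s : G)
        have : (s : G) ∈ cj k S ⊓ K := by rw [hkS]; exact ⟨s, hs, rfl⟩
        exact this.1
      exact congrArg Subtype.val (hx _ hyo)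
    have hxN2 : (x : G) ∈ normalizer ((cj k S ⊓ K : Subgroup G) : Set G) := by
      apply le_normalizer_inf (K := normalizer ((cj k S : Subgroup G) : Set G)) le_rfl _ hxN
      exact le_top.trans hnK
    rw [hkS] at hxN2
    rw [mem_normalizer_iff]
    intro y
    have h4 := mem_normalizer_iff.mp hxN2 (y : G)
    constructor
    · intro hy
      obtain ⟨w, hw, hwy⟩ := h4.mp ⟨y, hy, rfl⟩
      have : w = x * y * x⁻¹ := Subtype.ext hwy
      rwa [← this]
    · intro hy
      obtain ⟨w, hw, hwy⟩ := h4.mpr ⟨_, hy, rfl⟩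
      have : w = y := Subtype.ext hwy
      rwa [← this]

/-- the two subgroups isomorphic to `S₄` force dihedral or semidihedral Sylow 2-subgroups -/
theorem dih_down {S K : Subgroup G} (hS : IsSyl 2 S ⊤) (hHK : pResidual 2 G ≤ K) (h : ZNQ.Concl ↥K) :
    (∃ n : ℕ, 2 ≤ n ∧ Nonempty (↥(S ⊓ pResidual 2 G) ≃* DihedralGroup n)) ∨
      IsQuasiDihedral ↥(S ⊓ pResidual 2 G) := by
  obtain ⟨M, -, -, ⟨⟨T, hT, hT1, hM⟩, -⟩, -, ⟨ψ⟩, -, -⟩ := h
  obtain ⟨hc4, hexp, hC⟩ := self_cent hT hT1 hM ψ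
  have hHn : (pResidual 2 G).Normal := res_normal
  let f : ↥(ZNQ.OO ↥K) →* G := K.subtype.comp (ZNQ.OO ↥K).subtype
  have hf : Function.Injective f := (subtype_injective _).comp (subtype_injective _)
  have hfr : ∀ x : G, x ∈ pResidual 2 G ↔ ∃ y, f y = x := by
    intro x
    rw [← map_OO hHK]
    constructor
    · rintro ⟨y, hy, rfl⟩; exact ⟨⟨y, hy⟩, rfl⟩
    · rintro ⟨y, rfl⟩; exact ⟨_, y.2, rfl⟩
  have hR : IsSyl 2 (S ⊓ pResidual 2 G) (pResidual 2 G) := hS.inf_normal le_top (by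
    rw [Subgroup.normalizer_eq_top])
  -- `8 ∣ |R|`
  have hcH : Nat.card ↥(pResidual 2 G) = Nat.card ↥(ZNQ.OO ↥K) := by
    rw [← map_OO hHK, card_map_of_injective (subtype_injective _)]
  have h24 : Nat.card M = 24 := by
    rw [Nat.card_congr ψ.toEquiv, Nat.card_eq_fintype_card]; decide
  have h8 : 8 ∣ Nat.card ↥(S ⊓ pResidual 2 G) := by
    have h1 : 8 ∣ Nat.card ↥(pResidual 2 G) := by
      rw [hcH]
      exact Dvd.dvd.trans (by rw [h24]; norm_num) (Subgroup.card_subgroup_dvd_card M)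
    rw [← SubgroupTools.card_mul_relIndex_of_le hR.le] at h1
    have h2 : Nat.Coprime 8 ((S ⊓ pResidual 2 G).relIndex (pResidual 2 G)) := by
      have := (Nat.Prime.coprime_iff_not_dvd Nat.prime_two).mpr hR.ndvd
      exact Nat.Coprime.pow_left 3 this
    exact h2.dvd_of_dvd_mul_right h1
  -- conjugate `T` into `R`
  have hTm : T.map f ≤ pResidual 2 G := by
    rintro _ ⟨y, -, rfl⟩; exact (hfr _).mpr ⟨y, rfl⟩
  obtain ⟨k, hk, hkT⟩ := hR.exists_conj_le (hT.map f) hTm
  set T₂ := cj k (T.map f) with hT2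
  have hT2c : Nat.card T₂ = 4 := by rw [hT2, card_map_conj, card_map_of_injective hf, hc4]
  have hT2e : ∀ x ∈ T₂, x ^ 2 = 1 := by
    rintro _ ⟨_, ⟨y, hy, rfl⟩, rfl⟩
    show (MulAut.conj k (f y)) ^ 2 = 1
    rw [← map_pow, ← map_pow, hexp y hy, map_one, map_one]
  have hT2C : ∀ x ∈ pResidual 2 G, (∀ y ∈ T₂, y * x = x * y) → x ∈ T₂ := by
    intro x hx hxc
    have h1 : k⁻¹ * x * k ∈ pResidual 2 G := by
      have := hHn.conj_mem x hx k⁻¹
      rwa [inv_inv] at this
    obtain ⟨w, hw⟩ := (hfr _).mp h1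
    have h2 : w ∈ centralizer (T : Set ↥(ZNQ.OO ↥K)) := by
      intro y hy
      apply hf
      rw [map_mul, map_mul, hw]
      have h3 := hxc (k * f y * k⁻¹) (mem_cj ⟨y, hy, rfl⟩)
      calc f y * (k⁻¹ * x * k) = k⁻¹ * (k * f y * k⁻¹ * x) * k := by group
        _ = k⁻¹ * (x * (k * f y * k⁻¹)) * k := by rw [h3]
        _ = k⁻¹ * x * k * f y := by group
    rw [hT2, mem_cj_iff, ← hw]
    exact ⟨w, hC h2, rfl⟩
  have hkT' : T₂ ≤ S ⊓ pResidual 2 G := hkT
  apply dih_of (P := ↥(S ⊓ pResidual 2 G)) (T := T₂.subgroupOf (S ⊓ pResidual 2 G)) hR.pgroup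
  · rw [card_subgroupOf_of_le hkT', hT2c]
  · intro x hx
    exact Subtype.ext (hT2e x (mem_subgroupOf.mp hx))
  · intro x hx
    rw [mem_subgroupOf]
    apply hT2C _ x.2.2
    intro y hy
    exact congrArg Subtype.val (hx ⟨y, hkT' hy⟩ (mem_subgroupOf.mpr hy))
  · exact Nat.le_of_dvd Nat.card_pos h8

/-- S3758 -/
theorem mainZN (heven : Even (Nat.card G)) (hN : ∀ L : Subgroup G, IsTwoLocal L → Group.IsSolvable L)
    (hZ : ∀ S : Sylow 2 G, centralizer (om (S : Subgroup G) : Set G) ≤ normalizer ((S : Subgroup G) : Set G))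
    (hO' : pPrimeCore 2 G = ⊥) (hO : pCore 2 G = ⊥) (P : Sylow 2 G) {S : Subgroup G} (hPS : S = P) :
    (∃ M : Subgroup ↥(pResidual 2 G), IsStronglyEmbedded M) ∨
      ((∃ n : ℕ, 2 ≤ n ∧ Nonempty (↥(S ⊓ pResidual 2 G) ≃* DihedralGroup n)) ∨
        IsQuasiDihedral ↥(S ⊓ pResidual 2 G)) ∨
      (Nat.card ↥(om S ⊓ pResidual 2 G : Subgroup G) = 2 ∧
        ∀ h ∈ pResidual 2 G, ∀ z ∈ om S ⊓ pResidual 2 G, h * z * h⁻¹ ∈ S → h * z * h⁻¹ ∈ om S) ∨
      (Nat.card ↥(om S) = 4 ∧ omegaOne 2 (S ⊓ pResidual 2 G) = om S) := by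
  have hS : IsSyl 2 S ⊤ := by rw [hPS]; exact isSyl_top P
  have hs := slv_of hN
  rcases main heven hs hS (by rw [hPS]; exact hZ P) hO' hO with h | h | h | h
  · exact Or.inl h
  · exact Or.inr (Or.inr (Or.inl h))
  · exact Or.inr (Or.inr (Or.inr h))
  · have hHn : (pResidual 2 G).Normal := res_normal
    set K : Subgroup G := pResidual 2 G ⊔ om S with hKd
    have hK : K.Normal := by
      rw [← normalizer_eq_top_iff, eq_top_iff, ← sup_res hS]
      apply sup_le
      · apply le_normalizer_sup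
        · rw [Subgroup.normalizer_eq_top]; exact le_top
        · exact (le_cent_om S).trans (centralizer_le_normalizer _)
      · exact le_sup_left.trans le_normalizer
    have hKO : pCore 2 ↥K = ⊥ := by
      have h1 : pCoreOf 2 K ≤ pCoreOf 2 (⊤ : Subgroup G) := (Subn.of_normal le_top (by
        rw [Subgroup.normalizer_eq_top])).pCoreOf_le
      rw [pCoreOf_top, hO, le_bot_iff] at h1
      by_contra hne
      exact (pCore_ne_bot_iff 2 K).mp hne h1
    have hZN := zn_down hN hZ hS hK le_sup_right h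
    rcases ZNQ.main hZN hKO with ⟨K', hK'⟩ | h2
    · left
      exact ⟨_, se_down hS (R_ne_bot heven hO' hO hS) le_sup_left hK'⟩
    · right; left
      exact dih_down hS le_sup_left h2

end Cfsg.Agent.Lib.H47Zc
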