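import Mathlib

/-! Fisher's inequality (helper50). -/

set_option autoImplicit false

namespace Cfsg.Agent.Lib.H50Des

open Finset

variable {Ω β : Type*} [Fintype Ω] [Fintype β]

open Classical in
/-- the incidence map on functions -/
noncomputable def T (I : β → Ω → Prop) : (Ω → ℚ) →ₗ[ℚ] (β → ℚ) where
  toFun f B := ∑ p, if I B p then f p else 0
  map_add' f g := by
    ext B
    simp only [Pi.add_apply]
    rw [← Finset.sum_add_distrib]
    refine Finset.sum_congr rfl fun p _ => ?_
    split_ifs <;> simp
  map_smul' c f := by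
    ext B
    simp only [Pi.smul_apply, smul_eq_mul, RingHom.id_apply, Finset.mul_sum]
    refine Finset.sum_congr rfl fun p _ => ?_
    split_ifs <;> simp

open Classical in
theorem T_inj (I : β → Ω → Prop) (κ l : ℕ)
    (hκ : ∀ p, (univ.filter (fun B => I B p)).card = κ)
    (hl : ∀ p q, p ≠ q → (univ.filter (fun B => I B p ∧ I B q)).card = l) (hlt : l < κ) :
    Function.Injective (T I) := by
  rw [← LinearMap.ker_eq_bot, LinearMap.ker_eq_bot']
  intro f hf
  have key : ∀ p, ((κ : ℚ) - l) * f p + l * ∑ q, f q = 0 := by
    intro p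
    have h1 : ∑ B, (if I B p then (T I f B) else 0) = 0 := by
      rw [hf]; simp
    have h2 : ∑ B, (if I B p then (T I f B) else 0) = ∑ q, ((univ.filter (fun B => I B p ∧ I B q)).card : ℚ) * f q := by
      calc ∑ B, (if I B p then (T I f B) else 0)
          = ∑ B, ∑ q, (if I B p ∧ I B q then f q else 0) := by
            refine Finset.sum_congr rfl fun B _ => ?_
            by_cases hB : I B p
            · simp only [hB, if_true, true_and]
              rfl
            · simp [hB]
        _ = ∑ q, ∑ B, (if I B p ∧ I B q then f q else 0) := Finset.sum_comm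
        _ = _ := by
            refine Finset.sum_congr rfl fun q _ => ?_
            rw [← Finset.sum_filter, Finset.sum_const, nsmul_eq_mul]
    rw [h2] at h1
    have h3 : ∀ q, ((univ.filter (fun B => I B p ∧ I B q)).card : ℚ) * f q =
        (if q = p then ((κ : ℚ) - l) * f q else 0) + l * f q := by
      intro q
      by_cases hq : q = p
      · subst hq
        simp only [and_self, hκ, if_true]
        ring
      · rw [if_neg hq, hl p q (Ne.symm hq)]
        ring
    rw [Finset.sum_congr rfl fun q _ => h3 q, Finset.sum_add_distrib, Finset.sum_ite_eq' univ p, ← Finset.mul_sum] at h1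
    simpa using h1
  have hS : ∑ q, f q = 0 := by
    have h1 : ∑ p, (((κ : ℚ) - l) * f p + l * ∑ q, f q) = 0 := Finset.sum_eq_zero fun p _ => key p
    rw [Finset.sum_add_distrib, ← Finset.mul_sum, Finset.sum_const, nsmul_eq_mul] at h1
    have h2 : (((κ : ℚ) - l) + (card (univ : Finset Ω) : ℚ) * l) * ∑ q, f q = 0 := by linear_combination h1
    have hpos : (0 : ℚ) < ((κ : ℚ) - l) + (card (univ : Finset Ω) : ℚ) * l := by
      have : (l : ℚ) < κ := by exact_mod_cast hlt
      have h3 : (0 : ℚ) ≤ (card (univ : Finset Ω) : ℚ) * l := by positivity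
      linarith
    rcases mul_eq_zero.mp h2 with h3 | h3
    · exact absurd h3 (ne_of_gt hpos)
    · exact h3
  ext p
  have h1 := key p
  rw [hS, mul_zero, add_zero] at h1
  have : (l : ℚ) < κ := by exact_mod_cast hlt
  rcases mul_eq_zero.mp h1 with h3 | h3
  · exact absurd h3 (by linarith)
  · exact h3

open Classical in
theorem fisher (I : β → Ω → Prop) (κ l : ℕ)
    (hκ : ∀ p, (univ.filter (fun B => I B p)).card = κ)
    (hl : ∀ p q, p ≠ q → (univ.filter (fun B => I B p ∧ I B q)).card = l) (hlt : l < κ) :
    Fintype.card Ω ≤ Fintype.card β := by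
  have := LinearMap.finrank_le_finrank_of_injective (T_inj I κ l hκ hl hlt)
  simpa using this

end Cfsg.Agent.Lib.H50Des
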