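import Mathlib

/-! Groups generated by transvections over a prime field (helper50), part 1: components. -/

set_option autoImplicit false

namespace Cfsg.Agent.Lib.H50McL

open Module

variable {p : ℕ} [Fact p.Prime] {V : Type*} [AddCommGroup V] [Module (ZMod p) V]

/-- `1 + φ ⊗ a ∈ H` with `φ a = 0` -/
def T (H : Subgroup (V ≃ₗ[ZMod p] V)) (a : V) (φ : Dual (ZMod p) V) : Prop :=
  φ a = 0 ∧ ∃ g ∈ H, ∀ v, g v = v + φ v • a

variable {H : Subgroup (V ≃ₗ[ZMod p] V)} {a b : V} {φ ψ : Dual (ZMod p) V}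

theorem T.zero_left (φ : Dual (ZMod p) V) : T H 0 φ :=
  ⟨map_zero _, 1, one_mem _, fun v => by simp⟩

theorem T.zero_right (a : V) : T H a 0 :=
  ⟨rfl, 1, one_mem _, fun v => by simp⟩

theorem T.add_right (h1 : T H a φ) (h2 : T H a ψ) : T H a (φ + ψ) := by
  obtain ⟨h1, g, hg, h1'⟩ := h1
  obtain ⟨h2, h, hh, h2'⟩ := h2
  refine ⟨by simp [h1, h2], g * h, mul_mem hg hh, fun v => ?_⟩
  rw [LinearEquiv.mul_apply, h2', h1', map_add, map_smul, h1, LinearMap.add_apply, smul_eq_mul, mul_zero]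
  module

theorem T.add_left (h1 : T H a φ) (h2 : T H b φ) : T H (a + b) φ := by
  obtain ⟨h1, g, hg, h1'⟩ := h1
  obtain ⟨h2, h, hh, h2'⟩ := h2
  refine ⟨by simp [h1, h2], g * h, mul_mem hg hh, fun v => ?_⟩
  rw [LinearEquiv.mul_apply, h2', h1', map_add, map_smul, h2, smul_eq_mul, mul_zero]
  module

theorem T.smul_right (h : T H a φ) (c : ZMod p) : T H a (c • φ) := by
  have key : ∀ n : ℕ, T H a ((n : ZMod p) • φ) := by
    intro n
    induction n with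
    | zero => simpa using T.zero_right a
    | succ n ih =>
      rw [Nat.cast_succ, add_smul, one_smul]
      exact ih.add_right h
  have := key c.val
  rwa [ZMod.natCast_val, ZMod.cast_id] at this

theorem T.smul_left (h : T H a φ) (c : ZMod p) : T H (c • a) φ := by
  obtain ⟨h1, g, hg, h2⟩ := h.smul_right c
  refine ⟨by rw [map_smul, h.1, smul_zero], g, hg, fun v => ?_⟩
  rw [h2, LinearMap.smul_apply, smul_eq_mul, smul_smul, mul_comm]

theorem T.map (h : T H a φ) {g : V ≃ₗ[ZMod p] V} (hg : g ∈ H) :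
    T H (g a) (φ ∘ₗ (g.symm : V →ₗ[ZMod p] V)) := by
  obtain ⟨h1, t, ht, h2⟩ := h
  refine ⟨by simp [h1], g * t * g⁻¹, mul_mem (mul_mem hg ht) (inv_mem hg), fun v => ?_⟩
  have e : g⁻¹ v = g.symm v := rfl
  rw [LinearEquiv.mul_apply, LinearEquiv.mul_apply, e, h2, map_add, map_smul, LinearEquiv.apply_symm_apply]
  rfl

theorem T.conj (h : T H a φ) (h' : T H b ψ) (c : ZMod p) :
    T H (a + (c * ψ a) • b) (φ - (c * φ b) • ψ) := by
  obtain ⟨h1, g, hg, h2⟩ := h'.smul_right c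
  have h3 := h.map hg
  have e1 : g a = a + (c * ψ a) • b := by rw [h2]; rfl
  have e2 : φ ∘ₗ (g.symm : V →ₗ[ZMod p] V) = φ - (c * φ b) • ψ := by
    ext v
    have e3 : g.symm v = v - (c * ψ v) • b := by
      rw [LinearEquiv.symm_apply_eq, h2, map_sub, map_smul, h1, smul_zero, sub_zero]
      change v = v - (c * ψ v) • b + (c * ψ v) • b
      abel
    change φ (g.symm v) = φ v - (c * φ b) * ψ v
    rw [e3, map_sub, map_smul, smul_eq_mul]
    ring
  rw [e1, e2] at h3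
  exact h3

/-- commutator -/
theorem T.comm (h : T H a φ) (h' : T H b ψ) (h1 : φ b ≠ 0) (h2 : ψ a = 0) : T H a ψ := by
  have h3 := h'.conj h 1
  rw [h2, mul_zero, zero_smul, sub_zero, one_mul] at h3
  have h4 := (h3.add_left (h'.smul_left (-1))).smul_left ((φ b)⁻¹)
  rwa [neg_one_smul, show b + φ b • a + -b = φ b • a by abel, smul_smul, inv_mul_cancel₀ h1, one_smul] at h4

variable (H) in
/-- axes with centre `a` -/
def MM (a : V) : Submodule (ZMod p) (Dual (ZMod p) V) where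
  carrier := {φ | T H a φ}
  add_mem' h1 h2 := h1.add_right h2
  zero_mem' := T.zero_right a
  smul_mem' c _ h := h.smul_right c

variable (H) in
/-- centres with axis `φ` -/
def NN (φ : Dual (ZMod p) V) : Submodule (ZMod p) V where
  carrier := {a | T H a φ}
  add_mem' h1 h2 := h1.add_left h2
  zero_mem' := T.zero_left φ
  smul_mem' c _ h := h.smul_left c

theorem mem_MM : φ ∈ MM H a ↔ T H a φ := Iff.rfl
theorem mem_NN : a ∈ NN H φ ↔ T H a φ := Iff.rfl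

theorem MM_smul {c : ZMod p} (hc : c ≠ 0) : MM H (c • a) = MM H a := by
  ext φ
  rw [mem_MM, mem_MM]
  refine ⟨fun h => ?_, fun h => h.smul_left c⟩
  have := h.smul_left c⁻¹
  rwa [smul_smul, inv_mul_cancel₀ hc, one_smul] at this

theorem MM_map {g : V ≃ₗ[ZMod p] V} (hg : g ∈ H) :
    MM H (g a) = (MM H a).map (g.symm.dualMap : Dual (ZMod p) V →ₗ[ZMod p] Dual (ZMod p) V) := by
  ext φ
  rw [mem_MM, Submodule.mem_map]
  constructor
  · intro h
    refine ⟨φ ∘ₗ (g : V →ₗ[ZMod p] V), ?_, ?_⟩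
    · have := h.map (inv_mem hg)
      have e1 : g⁻¹ (g a) = a := g.symm_apply_apply a
      rw [e1] at this
      exact this
    · ext v
      change φ (g (g.symm v)) = φ v
      rw [LinearEquiv.apply_symm_apply]
  · rintro ⟨ψ, hψ, rfl⟩
    exact T.map hψ hg

variable (H) in
/-- non-trivial transvections in `H` -/
def Gm (x : V × Dual (ZMod p) V) : Prop := x.1 ≠ 0 ∧ x.2 ≠ 0 ∧ T H x.1 x.2

/-- adjacency -/
def adj (x y : V × Dual (ZMod p) V) : Prop := x.2 y.1 ≠ 0 ∧ y.2 x.1 ≠ 0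

variable (H) in
/-- adjacency inside `H` -/
def RR (x y : V × Dual (ZMod p) V) : Prop := Gm H x ∧ Gm H y ∧ adj x y

theorem RR.symm {x y : V × Dual (ZMod p) V} (h : RR H x y) : RR H y x := ⟨h.2.1, h.1, h.2.2.2, h.2.2.1⟩

variable (H) in
/-- connectedness -/
def Conn (x y : V × Dual (ZMod p) V) : Prop := Relation.ReflTransGen (RR H) x y

theorem Conn.refl (x : V × Dual (ZMod p) V) : Conn H x x := Relation.ReflTransGen.refl

theorem Conn.trans {x y z : V × Dual (ZMod p) V} (h : Conn H x y) (h' : Conn H y z) : Conn H x z :=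
  Relation.ReflTransGen.trans h h'

theorem Conn.of {x y : V × Dual (ZMod p) V} (h : RR H x y) : Conn H x y := Relation.ReflTransGen.single h

theorem Conn.symm {x y : V × Dual (ZMod p) V} (h : Conn H x y) : Conn H y x := by
  induction h with
  | refl => exact Conn.refl _
  | tail _ h ih => exact (Conn.of h.symm).trans ih

theorem Gm.of_conn {x y : V × Dual (ZMod p) V} (hx : Gm H x) (h : Conn H x y) : Gm H y := by
  induction h with
  | refl => exact hx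
  | tail _ h _ => exact h.2.1

variable (H) in
/-- every transvection of `H` has a partner -/
def Partner : Prop := ∀ x, Gm H x → ∃ y, RR H x y

theorem same_centre (hP : Partner H) (h1 : Gm H (a, φ)) (h2 : Gm H (a, ψ)) : Conn H (a, φ) (a, ψ) := by
  obtain ⟨⟨b, β⟩, hb1, hb2, hb3, hb4⟩ := hP _ h1
  obtain ⟨⟨c, θ⟩, hc1, hc2, hc3, hc4⟩ := hP _ h2
  simp only at hb3 hb4 hc3 hc4
  by_cases k1 : φ c = 0
  · by_cases k2 : ψ b = 0
    · have h3 : Gm H (a, φ + ψ) := by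
        refine ⟨h1.1, ?_, h1.2.2.add_right h2.2.2⟩
        intro h
        apply hc3
        have : (φ + ψ) c = 0 := by rw [show φ + ψ = 0 from h]; rfl
        rwa [LinearMap.add_apply, k1, zero_add] at this
      have e1 : RR H (a, φ + ψ) (b, β) := ⟨h3, hb2, by simpa [k2] using hb3, hb4⟩
      have e2 : RR H (a, φ + ψ) (c, θ) := ⟨h3, hc2, by simpa [k1] using hc3, hc4⟩
      exact ((Conn.of ⟨hb1, hb2, hb3, hb4⟩).trans (Conn.of e1.symm)).trans
        ((Conn.of e2).trans (Conn.of (RR.symm ⟨hc1, hc2, hc3, hc4⟩)))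
    · exact (Conn.of ⟨hb1, hb2, hb3, hb4⟩).trans (Conn.of ⟨hb2, h2, hb4, k2⟩)
  · exact (Conn.of ⟨h1, hc2, k1, hc4⟩).trans (Conn.of (RR.symm ⟨hc1, hc2, hc3, hc4⟩))

theorem same_axis (hP : Partner H) (h1 : Gm H (a, φ)) (h2 : Gm H (b, φ)) : Conn H (a, φ) (b, φ) := by
  obtain ⟨⟨b', β⟩, hb1, hb2, hb3, hb4⟩ := hP _ h1
  obtain ⟨⟨c, θ⟩, hc1, hc2, hc3, hc4⟩ := hP _ h2
  simp only at hb3 hb4 hc3 hc4
  by_cases k1 : θ a = 0
  · by_cases k2 : β b = 0
    · have h3 : Gm H (a + b, φ) := by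
        refine ⟨?_, h1.2.1, h1.2.2.add_left h2.2.2⟩
        intro h
        apply hc4
        have : θ (a + b) = 0 := by rw [show a + b = 0 from h, map_zero]
        rwa [map_add, k1, zero_add] at this
      have e1 : RR H (a + b, φ) (b', β) := ⟨h3, hb2, hb3, by simpa [k2] using hb4⟩
      have e2 : RR H (a + b, φ) (c, θ) := ⟨h3, hc2, hc3, by simpa [k1] using hc4⟩
      exact ((Conn.of ⟨hb1, hb2, hb3, hb4⟩).trans (Conn.of e1.symm)).trans
        ((Conn.of e2).trans (Conn.of (RR.symm ⟨hc1, hc2, hc3, hc4⟩)))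
    · exact (Conn.of ⟨hb1, hb2, hb3, hb4⟩).trans (Conn.of ⟨hb2, h2, k2, hb3⟩)
  · exact (Conn.of ⟨h1, hc2, hc3, k1⟩).trans (Conn.of (RR.symm ⟨hc1, hc2, hc3, hc4⟩))

/-- different components commute -/
theorem perp_of_not_conn (hP : Partner H) {x y : V × Dual (ZMod p) V} (hx : Gm H x) (hy : Gm H y)
    (h : ¬ Conn H x y) : x.2 y.1 = 0 := by
  by_contra h1
  by_cases h2 : y.2 x.1 = 0
  · have h3 : Gm H (x.1, y.2) := ⟨hx.1, hy.2.1, hx.2.2.comm hy.2.2 h1 h2⟩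
    exact h ((same_centre hP hx h3).trans (same_axis hP h3 hy))
  · exact h (Conn.of ⟨hx, hy, h1, h2⟩)

/-- a component, seen through its set of centres -/
structure Comp (H : Subgroup (V ≃ₗ[ZMod p] V)) (P : Set V) : Prop where
  ne_zero : ∀ a ∈ P, a ≠ 0
  exists_axis : ∀ a ∈ P, ∃ φ ∈ MM H a, φ ≠ 0
  smul : ∀ a ∈ P, ∀ c : ZMod p, c ≠ 0 → c • a ∈ P
  conj : ∀ a ∈ P, ∀ φ ∈ MM H a, ∀ b ∈ P, b + φ b • a ∈ P
  partner : ∀ a ∈ P, ∀ φ ∈ MM H a, φ ≠ 0 → ∃ b ∈ P, φ b ≠ 0 ∧ ∃ ψ ∈ MM H b, ψ a ≠ 0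
  axis : ∀ a ∈ P, ∀ φ, φ ≠ 0 → φ ∈ MM H a → ∀ b, b ≠ 0 → φ ∈ MM H b → b ∈ P
  ind : ∀ Q : V → Prop, ∀ a0 ∈ P, Q a0 → (∀ a ∈ P, ∀ b ∈ P, Q a →
    (∃ φ ∈ MM H a, φ b ≠ 0 ∧ ∃ ψ ∈ MM H b, ψ a ≠ 0) → Q b) → ∀ b ∈ P, Q b

/-- the set of centres of the component of `x` -/
def cen (H : Subgroup (V ≃ₗ[ZMod p] V)) (x : V × Dual (ZMod p) V) : Set V :=
  {a | ∃ φ, Gm H (a, φ) ∧ Conn H x (a, φ)}

theorem mem_cen_iff (hP : Partner H) {x : V × Dual (ZMod p) V} (hx : Gm H x) (ha : a ≠ 0) (hφ : φ ≠ 0)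
    (h : φ ∈ MM H a) : a ∈ cen H x ↔ Conn H x (a, φ) := by
  constructor
  · rintro ⟨ψ, h1, h2⟩
    exact h2.trans (same_centre hP h1 ⟨ha, hφ, h⟩)
  · intro h1
    exact ⟨φ, ⟨ha, hφ, h⟩, h1⟩

theorem comp_cen (hP : Partner H) {x : V × Dual (ZMod p) V} (hx : Gm H x) : Comp H (cen H x) where
  ne_zero := by
    rintro a ⟨φ, h, _⟩
    exact h.1
  exists_axis := by
    rintro a ⟨φ, h, _⟩
    exact ⟨φ, h.2.2, h.2.1⟩
  smul := by
    rintro a ⟨φ, h, hc⟩ c hc0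
    have h1 : Gm H (c • a, φ) := ⟨smul_ne_zero hc0 h.1, h.2.1, h.2.2.smul_left c⟩
    exact ⟨φ, h1, hc.trans (same_axis hP h h1)⟩
  conj := by
    rintro a ⟨φ₀, h, hc⟩ φ hφ b ⟨ψ, h', hc'⟩
    -- `b + φ b • a` has axis `ψ - ψ a • φ`
    have h1 := h'.2.2.conj (mem_MM.mp hφ) 1
    simp only [one_mul] at h1
    by_cases hb : φ b = 0
    · rw [hb, zero_smul, add_zero]
      exact ⟨ψ, h', hc'⟩
    have hφ0 : φ ≠ 0 := by rintro rfl; exact hb rfl
    have hbne : b + φ b • a ≠ 0 := by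
      intro h2
      have h3 : φ (b + φ b • a) = 0 := by rw [h2, map_zero]
      rw [map_add, map_smul, (mem_MM.mp hφ).1, smul_zero, add_zero] at h3
      exact hb h3
    have hψne : ψ - ψ a • φ ≠ 0 := by
      intro h2
      have h3 : (ψ - ψ a • φ) a = 0 := by rw [h2]; rfl
      rw [LinearMap.sub_apply, LinearMap.smul_apply, (mem_MM.mp hφ).1, smul_zero, sub_zero] at h3
      rw [h3, zero_smul, sub_zero] at h2
      exact h'.2.1 h2
    have h4 : Gm H (b + φ b • a, ψ - ψ a • φ) := ⟨hbne, hψne, h1⟩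
    have h5 : Gm H (a, φ) := ⟨h.1, hφ0, hφ⟩
    refine ⟨_, h4, ?_⟩
    by_contra hcon
    have h6 : Conn H x (a, φ) := hc.trans (same_centre hP h h5)
    have h7 := perp_of_not_conn hP h5 h4 (fun h => hcon (h6.trans h))
    rw [map_add, map_smul, (mem_MM.mp hφ).1, smul_zero, add_zero] at h7
    exact hb h7
  partner := by
    rintro a ⟨φ₀, h, hc⟩ φ hφ hφ0
    have h5 : Gm H (a, φ) := ⟨h.1, hφ0, hφ⟩
    obtain ⟨⟨b, ψ⟩, h6⟩ := hP _ h5
    refine ⟨b, ⟨ψ, h6.2.1, (hc.trans (same_centre hP h h5)).trans (Conn.of h6)⟩, h6.2.2.1, ψ, h6.2.1.2.2,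
      h6.2.2.2⟩
  axis := by
    rintro a ⟨φ₀, h, hc⟩ φ hφ0 hφ b hb hφb
    have h5 : Gm H (a, φ) := ⟨h.1, hφ0, hφ⟩
    have h6 : Gm H (b, φ) := ⟨hb, hφ0, hφb⟩
    exact ⟨φ, h6, (hc.trans (same_centre hP h h5)).trans (same_axis hP h5 h6)⟩
  ind := by
    rintro Q a0 ⟨φ₀, h, hc⟩ hQ hstep b ⟨ψ, h', hc'⟩
    have h1 : Conn H (a0, φ₀) (b, ψ) := hc.symm.trans hc'
    have key : ∀ y, Conn H (a0, φ₀) y → Q y.1 := by
      intro y hy
      induction hy with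
      | refl => exact hQ
      | @tail y z hy hyz ih =>
        have h2 : Conn H x y := hc.trans hy
        exact hstep y.1 ⟨y.2, hyz.1, h2⟩ z.1 ⟨z.2, hyz.2.1, h2.trans (Conn.of hyz)⟩ ih
          ⟨y.2, hyz.1.2.2, hyz.2.2.1, z.2, hyz.2.1.2.2, hyz.2.2.2⟩
    exact key _ h1

end Cfsg.Agent.Lib.H50McL
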