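import Cfsg.Agent.Lib.H50McL1

/-! Groups generated by transvections over a prime field (helper50), part 2: special linear components. -/

set_option autoImplicit false

namespace Cfsg.Agent.Lib.H50McL

open Module

variable {p : ℕ} [Fact p.Prime] {V : Type*} [AddCommGroup V] [Module (ZMod p) V]
variable {H : Subgroup (V ≃ₗ[ZMod p] V)} {P : Set V} {a b c : V} {φ ψ : Dual (ZMod p) V}

variable (H) in
/-- `b` is moved by some transvection with centre `a` -/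
def Adj (a b : V) : Prop := ∃ φ ∈ MM H a, φ b ≠ 0

theorem not_adj {a b : V} (h : ¬ Adj H a b) : ∀ φ ∈ MM H a, φ b = 0 := by
  intro φ hφ
  by_contra h1
  exact h ⟨φ, hφ, h1⟩

theorem Comp.conj_smul (hC : Comp H P) (ha : a ∈ P) (hb : b ∈ P) (h : Adj H a b) (μ : ZMod p) : b + μ • a ∈ P := by
  obtain ⟨φ, hφ, hφb⟩ := h
  have := hC.conj a ha ((μ * (φ b)⁻¹) • φ) ((MM H a).smul_mem _ hφ) b hb
  rwa [LinearMap.smul_apply, smul_eq_mul, mul_assoc, inv_mul_cancel₀ hφb, mul_one] at this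

theorem exists_map_of_adj (h : Adj H a b) (h' : Adj H b a) : ∃ g ∈ H, g a = b := by
  obtain ⟨φ, hφ, hφb⟩ := h
  obtain ⟨ψ, hψ, hψa⟩ := h'
  obtain ⟨_, g1, hg1, h1⟩ := T.smul_right hψ (ψ a)⁻¹
  obtain ⟨h0, g2, hg2, h2⟩ := T.smul_right hφ (-(φ b)⁻¹)
  refine ⟨g2 * g1, mul_mem hg2 hg1, ?_⟩
  rw [LinearEquiv.mul_apply, h1, LinearMap.smul_apply, smul_eq_mul, inv_mul_cancel₀ hψa, one_smul, h2,
    map_add, h0, zero_add, LinearMap.smul_apply, smul_eq_mul, neg_mul, inv_mul_cancel₀ hφb, neg_one_smul]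
  abel

variable [Finite V]

theorem finite_dim : FiniteDimensional (ZMod p) V := Module.Finite.of_finite

theorem finrank_MM_of_adj (h : Adj H a b) (h' : Adj H b a) : finrank (ZMod p) (MM H a) = finrank (ZMod p) (MM H b) := by
  obtain ⟨g, hg, rfl⟩ := exists_map_of_adj h h'
  rw [MM_map hg]
  exact (LinearEquiv.finrank_map_eq (g.symm.dualMap) (MM H a)).symm

theorem Comp.finrank_eq (hC : Comp H P) (ha : a ∈ P) (hb : b ∈ P) :
    finrank (ZMod p) (MM H a) = finrank (ZMod p) (MM H b) := by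
  refine hC.ind (fun b => finrank (ZMod p) (MM H a) = finrank (ZMod p) (MM H b)) a ha rfl ?_ b hb
  rintro c hc d hd h1 ⟨φ, hφ, hφd, ψ, hψ, hψc⟩
  exact h1.trans (finrank_MM_of_adj ⟨φ, hφ, hφd⟩ ⟨ψ, hψ, hψc⟩)

theorem Comp.adj_symm (hC : Comp H P) (ha : a ∈ P) (hb : b ∈ P) (h : Adj H a b) : Adj H b a := by
  haveI : FiniteDimensional (ZMod p) V := finite_dim
  obtain ⟨φ, hφ, hφb⟩ := h
  by_contra hcon
  have h1 := not_adj hcon
  have h2 : MM H b ≤ MM H a := fun ψ hψ => T.comm hφ hψ hφb (h1 ψ hψ)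
  have h3 : MM H b = MM H a := Submodule.eq_of_le_of_finrank_eq h2 (hC.finrank_eq hb ha)
  rw [← h3] at hφ
  exact hφb (mem_MM.mp hφ).1

/-- axes of `b` killing `a` are axes of `a` -/
theorem mem_MM_of_adj (h : Adj H a b) (hψ : ψ ∈ MM H b) (h1 : ψ a = 0) : ψ ∈ MM H a := by
  obtain ⟨φ, hφ, hφb⟩ := h
  exact T.comm hφ hψ hφb h1

/-- evaluation at a vector -/
def ev (a : V) : Dual (ZMod p) V →ₗ[ZMod p] ZMod p := Dual.eval (ZMod p) V a

omit [Finite V] in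
@[simp] theorem ev_apply (a : V) (φ : Dual (ZMod p) V) : ev a φ = φ a := rfl

theorem finrank_inf_ker {M : Type*} [AddCommGroup M] [Module (ZMod p) M] [FiniteDimensional (ZMod p) M]
    (S : Submodule (ZMod p) M) (ℓ : M →ₗ[ZMod p] ZMod p) (h : ∃ x ∈ S, ℓ x ≠ 0) :
    finrank (ZMod p) (S ⊓ LinearMap.ker ℓ : Submodule (ZMod p) M) + 1 = finrank (ZMod p) S := by
  have h1 := LinearMap.finrank_range_add_finrank_ker (ℓ.domRestrict S)
  have h2 : LinearMap.range (ℓ.domRestrict S) = ⊤ := by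
    obtain ⟨x, hx, hx0⟩ := h
    rw [LinearMap.range_eq_top]
    intro y
    refine ⟨(y * (ℓ x)⁻¹) • ⟨x, hx⟩, ?_⟩
    rw [map_smul, smul_eq_mul]
    change y * (ℓ x)⁻¹ * ℓ x = y
    rw [mul_assoc, inv_mul_cancel₀ hx0, mul_one]
  rw [h2, finrank_top, Module.finrank_self] at h1
  have h3 : finrank (ZMod p) (LinearMap.ker (ℓ.domRestrict S)) =
      finrank (ZMod p) (S ⊓ LinearMap.ker ℓ : Submodule (ZMod p) M) := by
    have h4 : (LinearMap.ker (ℓ.domRestrict S)).map S.subtype = S ⊓ LinearMap.ker ℓ := by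
      ext x
      simp only [Submodule.mem_map, LinearMap.mem_ker, Submodule.mem_inf]
      constructor
      · rintro ⟨y, hy, rfl⟩
        exact ⟨y.2, hy⟩
      · rintro ⟨hx, hx'⟩
        exact ⟨⟨x, hx⟩, hx', rfl⟩
    rw [← h4]
    exact (LinearEquiv.finrank_eq (Submodule.equivMapOfInjective _ S.subtype_injective _))
  omega

theorem finrank_le_inf_ker {M : Type*} [AddCommGroup M] [Module (ZMod p) M] [FiniteDimensional (ZMod p) M]
    (S : Submodule (ZMod p) M) (ℓ : M →ₗ[ZMod p] ZMod p) :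
    finrank (ZMod p) S ≤ finrank (ZMod p) (S ⊓ LinearMap.ker ℓ : Submodule (ZMod p) M) + 1 := by
  by_cases h : ∃ x ∈ S, ℓ x ≠ 0
  · exact (finrank_inf_ker S ℓ h).ge
  · push Not at h
    have : S ⊓ LinearMap.ker ℓ = S := inf_eq_left.mpr fun x hx => h x hx
    rw [this]
    omega

theorem Comp.inf_eq (hC : Comp H P) (ha : a ∈ P) (hb : b ∈ P) (h : Adj H a b) :
    MM H a ⊓ LinearMap.ker (ev b) = MM H a ⊓ MM H b := by
  apply le_antisymm
  · rintro φ ⟨h1, h2⟩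
    exact ⟨h1, mem_MM_of_adj (hC.adj_symm ha hb h) h1 h2⟩
  · rintro φ ⟨h1, h2⟩
    exact ⟨h1, (mem_MM.mp h2).1⟩

theorem Comp.finrank_inf (hC : Comp H P) (ha : a ∈ P) (hb : b ∈ P) (h : Adj H a b) :
    finrank (ZMod p) (MM H a ⊓ MM H b : Submodule (ZMod p) (Dual (ZMod p) V)) + 1 = finrank (ZMod p) (MM H a) := by
  haveI : FiniteDimensional (ZMod p) V := finite_dim
  rw [← hC.inf_eq ha hb h]
  exact finrank_inf_ker _ _ h

theorem Comp.finrank_sup (hC : Comp H P) (ha : a ∈ P) (hb : b ∈ P) (h : Adj H a b) :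
    finrank (ZMod p) (MM H a ⊔ MM H b : Submodule (ZMod p) (Dual (ZMod p) V)) = finrank (ZMod p) (MM H a) + 1 := by
  haveI : FiniteDimensional (ZMod p) V := finite_dim
  have h1 := Submodule.finrank_sup_add_finrank_inf_eq (MM H a) (MM H b)
  have h2 := hC.finrank_inf ha hb h
  have h3 := hC.finrank_eq ha hb
  omega

theorem Comp.mem_of_sup (hC : Comp H P) (ha : a ∈ P) (hb : b ∈ P) (h : Adj H a b) (hφ : φ ∈ MM H a ⊔ MM H b)
    (h0 : φ a = 0) : φ ∈ MM H a := by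
  obtain ⟨x, hx, y, hy, rfl⟩ := Submodule.mem_sup.mp hφ
  refine (MM H a).add_mem hx (mem_MM_of_adj h hy ?_)
  rwa [LinearMap.add_apply, (mem_MM.mp hx).1, zero_add] at h0

/-- all of `MM a` from a member not killing `d` -/
theorem Comp.le_span_sup (hC : Comp H P) {d : V} (ha : a ∈ P) (hd : d ∈ P) (hφ : φ ∈ MM H a) (h0 : φ d ≠ 0) :
    MM H a ≤ Submodule.span (ZMod p) {φ} ⊔ MM H d := by
  intro ψ hψ
  have h1 : ψ - (ψ d * (φ d)⁻¹) • φ ∈ MM H d := by
    apply mem_MM_of_adj (hC.adj_symm ha hd ⟨φ, hφ, h0⟩) ((MM H a).sub_mem hψ ((MM H a).smul_mem _ hφ))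
    rw [LinearMap.sub_apply, LinearMap.smul_apply, smul_eq_mul, mul_assoc, inv_mul_cancel₀ h0, mul_one, sub_self]
  have h2 : ψ = (ψ d * (φ d)⁻¹) • φ + (ψ - (ψ d * (φ d)⁻¹) • φ) := by abel
  rw [h2]
  exact Submodule.add_mem_sup (Submodule.smul_mem _ _ (Submodule.mem_span_singleton_self φ)) h1

/-- three pairwise adjacent centres -/
theorem Comp.A1 (hC : Comp H P) (hm : ∀ a ∈ P, 2 ≤ finrank (ZMod p) (MM H a)) (ha : a ∈ P) (hb : b ∈ P) (hc : c ∈ P)
    (hab : Adj H a b) (hca : Adj H c a) (hcb : Adj H c b) : MM H c ≤ MM H a ⊔ MM H b := by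
  haveI : FiniteDimensional (ZMod p) V := finite_dim
  by_cases h : ∃ ψ ∈ MM H c, ψ a = 0 ∧ ψ b ≠ 0
  · obtain ⟨ψ, hψ, hψa, hψb⟩ := h
    refine (hC.le_span_sup hc hb hψ hψb).trans (sup_le_sup ?_ le_rfl)
    rw [Submodule.span_singleton_le_iff_mem]
    exact mem_MM_of_adj (hC.adj_symm hc ha hca) hψ hψa
  · push Not at h
    have h1 := hC.finrank_inf hc ha hca
    have h2 := hm c hc
    have h3 : MM H c ⊓ MM H a ≠ ⊥ := by
      intro h4
      rw [h4, finrank_bot] at h1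
      omega
    obtain ⟨φ, ⟨hφc, hφa⟩, hφ0⟩ := (Submodule.ne_bot_iff _).mp h3
    have hφb : φ ∈ MM H b := mem_MM_of_adj (hC.adj_symm hc hb hcb) hφc (h φ hφc (mem_MM.mp hφa).1)
    obtain ⟨d, hd, hφd, _⟩ := hC.partner c hc φ hφc hφ0
    have hY : MM H a ⊔ MM H b ≤ Submodule.span (ZMod p) {φ} ⊔ MM H d :=
      sup_le (hC.le_span_sup ha hd hφa hφd) (hC.le_span_sup hb hd hφb hφd)
    have h5 : MM H a ⊔ MM H b = Submodule.span (ZMod p) {φ} ⊔ MM H d := by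
      apply Submodule.eq_of_le_of_finrank_le hY
      have h6 := Submodule.finrank_add_le_finrank_add_finrank (Submodule.span (ZMod p) {φ}) (MM H d)
      have h7 := finrank_span_singleton (K := ZMod p) hφ0
      have h8 := hC.finrank_sup ha hb hab
      have h9 := hC.finrank_eq ha hd
      omega
    rw [h5]
    exact hC.le_span_sup hc hd hφc hφd

theorem Comp.A2 (hC : Comp H P) (hm : ∀ a ∈ P, 2 ≤ finrank (ZMod p) (MM H a)) (ha : a ∈ P) (hb : b ∈ P) (hc : c ∈ P)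
    (hab : Adj H a b) (hac : Adj H a c) : MM H c ≤ MM H a ⊔ MM H b := by
  have hca := hC.adj_symm ha hc hac
  by_cases hcb : Adj H c b
  · exact hC.A1 hm ha hb hc hab hca hcb
  · obtain ⟨φ₀, hφ₀, hφ₀b⟩ := hab
    -- `φ b = 1`
    have hφ : (φ₀ b)⁻¹ • φ₀ ∈ MM H a := (MM H a).smul_mem _ hφ₀
    have hφb : ((φ₀ b)⁻¹ • φ₀) b = 1 := by rw [LinearMap.smul_apply, smul_eq_mul, inv_mul_cancel₀ hφ₀b]
    generalize (φ₀ b)⁻¹ • φ₀ = φ at hφ hφb
    have hb' : b + (1 : ZMod p) • a ∈ P := hC.conj_smul ha hb ⟨φ₀, hφ₀, hφ₀b⟩ 1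
    rw [one_smul] at hb'
    have h1 : MM H (b + a) ≤ MM H a ⊔ MM H b := by
      intro ψ hψ
      have h2 := T.conj hψ hφ (-1)
      rw [map_add, hφb, (mem_MM.mp hφ).1, add_zero, mul_one, neg_one_smul, add_neg_cancel_right] at h2
      have h3 : ψ = (-1 * ψ a) • φ + (ψ - (-1 * ψ a) • φ) := by abel
      rw [h3]
      exact Submodule.add_mem_sup ((MM H a).smul_mem _ hφ) h2
    have h2 : Adj H a (b + a) := ⟨φ, hφ, by rw [map_add, hφb, (mem_MM.mp hφ).1, add_zero]; exact one_ne_zero⟩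
    have h3 : Adj H c (b + a) := by
      obtain ⟨θ, hθ, hθa⟩ := hca
      exact ⟨θ, hθ, by rw [map_add, not_adj hcb θ hθ, zero_add]; exact hθa⟩
    exact (hC.A1 hm ha hb' hc h2 hca h3).trans (sup_le le_sup_left h1)

theorem Comp.A3 (hC : Comp H P) (hm : ∀ a ∈ P, 2 ≤ finrank (ZMod p) (MM H a)) (ha : a ∈ P) (hb : b ∈ P)
    (hab : Adj H a b) {c d : V} (hc : c ∈ P) (hd : d ∈ P) (hcd : Adj H c d) :
    MM H c ⊔ MM H d = MM H a ⊔ MM H b := by
  have key : ∀ c ∈ P, ∀ d ∈ P, Adj H c d → MM H c ⊔ MM H d = MM H a ⊔ MM H b := by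
    intro c hc
    refine hC.ind (fun c => ∀ d ∈ P, Adj H c d → MM H c ⊔ MM H d = MM H a ⊔ MM H b) a ha ?_ ?_ c hc
    · intro d hd had
      exact le_antisymm (sup_le le_sup_left (hC.A2 hm ha hb hd hab had))
        (sup_le le_sup_left (hC.A2 hm ha hd hb had hab))
    · rintro x hx y hy hQ ⟨φ, hφ, hφy, ψ, hψ, hψx⟩ d hd hyd
      have hxy : Adj H x y := ⟨φ, hφ, hφy⟩
      have hyx : Adj H y x := ⟨ψ, hψ, hψx⟩
      rw [← hQ y hy hxy, sup_comm (MM H x)]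
      exact le_antisymm (sup_le le_sup_left (hC.A2 hm hy hx hd hyx hyd))
        (sup_le le_sup_left (hC.A2 hm hy hd hx hyd hyx))
  exact key c hc d hd hcd

/-- the conclusion of the analysis of a component -/
structure Comp2 (H : Subgroup (V ≃ₗ[ZMod p] V)) (P : Set V) (U : Submodule (ZMod p) V)
    (X : Submodule (ZMod p) (Dual (ZMod p) V)) : Prop where
  mem_U : ∀ a, a ∈ U ↔ a = 0 ∨ a ∈ P
  le_X : ∀ a ∈ P, MM H a ≤ X
  axis_X : ∀ φ ∈ X, φ ≠ 0 → ∃ a ∈ P, φ ∈ MM H a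

theorem Comp.asym (hC : Comp H P) (hm : ∀ a ∈ P, 2 ≤ finrank (ZMod p) (MM H a)) (hne : P.Nonempty) :
    ∃ U X, Comp2 H P U X ∧ ∀ a ∈ P, ∀ φ ∈ X, φ a = 0 → φ ∈ MM H a := by
  haveI : FiniteDimensional (ZMod p) V := finite_dim
  obtain ⟨a, ha⟩ := hne
  obtain ⟨φ₀, hφ₀, hφ₀0⟩ := hC.exists_axis a ha
  obtain ⟨b, hb, hφb, ψ₀, hψ₀, hψa⟩ := hC.partner a ha φ₀ hφ₀ hφ₀0
  have hab : Adj H a b := ⟨φ₀, hφ₀, hφb⟩
  have hadj : ∀ c ∈ P, ∃ d ∈ P, Adj H c d := by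
    intro c hc
    obtain ⟨θ, hθ, hθ0⟩ := hC.exists_axis c hc
    obtain ⟨d, hd, h1, _⟩ := hC.partner c hc θ hθ hθ0
    exact ⟨d, hd, θ, hθ, h1⟩
  have h1 : ∀ c ∈ P, MM H c ≤ MM H a ⊔ MM H b := by
    intro c hc
    obtain ⟨d, hd, hcd⟩ := hadj c hc
    rw [← hC.A3 hm ha hb hab hc hd hcd]
    exact le_sup_left
  have h2 : ∀ c ∈ P, ∀ φ ∈ MM H a ⊔ MM H b, φ c = 0 → φ ∈ MM H c := by
    intro c hc φ hφ h0
    obtain ⟨d, hd, hcd⟩ := hadj c hc
    rw [← hC.A3 hm ha hb hab hc hd hcd] at hφ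
    exact hC.mem_of_sup hc hd hcd hφ h0
  have hadd : ∀ x ∈ P, ∀ y ∈ P, x + y ≠ 0 → x + y ∈ P := by
    intro x hx y hy hxy
    have h3 := finrank_le_inf_ker (MM H x) (ev y)
    have h4 := hm x hx
    have h5 : MM H x ⊓ LinearMap.ker (ev y) ≠ ⊥ := by
      intro h6
      rw [h6, finrank_bot] at h3
      omega
    obtain ⟨θ, ⟨hθ1, hθ2⟩, hθ0⟩ := (Submodule.ne_bot_iff _).mp h5
    have hθ3 : θ ∈ MM H y := h2 y hy θ (h1 x hx hθ1) hθ2
    exact hC.axis x hx θ hθ0 hθ1 (x + y) hxy (T.add_left hθ1 hθ3)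
  refine ⟨{ carrier := {x | x = 0 ∨ x ∈ P}
            add_mem' := ?_
            zero_mem' := Or.inl rfl
            smul_mem' := ?_ }, MM H a ⊔ MM H b, ⟨fun _ => Iff.rfl, h1, ?_⟩, h2⟩
  · rintro x y (rfl | hx) (rfl | hy)
    · exact Or.inl (add_zero _)
    · exact Or.inr (by rwa [zero_add])
    · exact Or.inr (by rwa [add_zero])
    · by_cases hxy : x + y = 0
      · exact Or.inl hxy
      · exact Or.inr (hadd x hx y hy hxy)
  · rintro c x (rfl | hx)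
    · exact Or.inl (smul_zero _)
    · by_cases hc : c = 0
      · exact Or.inl (by rw [hc, zero_smul])
      · exact Or.inr (hC.smul x hx c hc)
  · intro φ hφ hφ0
    by_cases ha0 : φ a = 0
    · exact ⟨a, ha, h2 a ha φ hφ ha0⟩
    · refine ⟨b + (-(φ b * (φ a)⁻¹)) • a, hC.conj_smul ha hb hab _, ?_⟩
      apply h2 _ (hC.conj_smul ha hb hab _) φ hφ
      rw [map_add, map_smul, smul_eq_mul, neg_mul, mul_assoc, inv_mul_cancel₀ ha0, mul_one, add_neg_cancel]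

/-- the decomposition -/
theorem Comp2.isCompl {U : Submodule (ZMod p) V} {X : Submodule (ZMod p) (Dual (ZMod p) V)} (hC : Comp H P)
    (h : Comp2 H P U X) : IsCompl U X.dualCoannihilator := by
  haveI : FiniteDimensional (ZMod p) V := finite_dim
  have hdis : U ⊓ X.dualCoannihilator = ⊥ := by
    rw [eq_bot_iff]
    rintro x ⟨hxU, hxX⟩
    rw [Submodule.mem_bot]
    by_contra hx0
    have hxP : x ∈ P := ((h.mem_U x).mp hxU).resolve_left hx0
    obtain ⟨φ, hφ, hφ0⟩ := hC.exists_axis x hxP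
    obtain ⟨b, hb, _, ψ, hψ, hψx⟩ := hC.partner x hxP φ hφ hφ0
    exact hψx ((Submodule.mem_dualCoannihilator x).mp hxX ψ (h.le_X b hb hψ))
  have hXU : finrank (ZMod p) X ≤ finrank (ZMod p) U := by
    have h1 : Function.Injective ((U.subtype.dualMap).domRestrict X) := by
      rw [injective_iff_map_eq_zero]
      rintro ⟨φ, hφX⟩ hφ
      ext1
      by_contra hφ0
      obtain ⟨a, ha, hφa⟩ := h.axis_X φ hφX hφ0
      obtain ⟨b, hb, hφb, _⟩ := hC.partner a ha φ hφa hφ0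
      apply hφb
      exact LinearMap.congr_fun hφ (⟨b, (h.mem_U b).mpr (Or.inr hb)⟩ : U)
    have h2 := LinearMap.finrank_le_finrank_of_injective h1
    rwa [Subspace.dual_finrank_eq] at h2
  have h3 : finrank (ZMod p) X + finrank (ZMod p) X.dualCoannihilator = finrank (ZMod p) V :=
    Subspace.finrank_add_finrank_dualCoannihilator_eq X
  have h4 := Submodule.finrank_sup_add_finrank_inf_eq U X.dualCoannihilator
  rw [hdis, finrank_bot] at h4
  refine ⟨disjoint_iff.mpr hdis, codisjoint_iff.mpr ?_⟩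
  apply Submodule.eq_top_of_finrank_eq
  have h5 := Submodule.finrank_le (U ⊔ X.dualCoannihilator)
  omega

theorem Comp2.mem_X_iff {U : Submodule (ZMod p) V} {X : Submodule (ZMod p) (Dual (ZMod p) V)} :
    φ ∈ X ↔ ∀ v ∈ X.dualCoannihilator, φ v = 0 := by
  haveI : FiniteDimensional (ZMod p) V := finite_dim
  have h1 : X.dualCoannihilator.dualAnnihilator = X := Subspace.dualCoannihilator_dualAnnihilator_eq
  constructor
  · intro hφ v hv
    exact (Submodule.mem_dualCoannihilator v).mp hv φ hφ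
  · intro h
    rw [← h1, Submodule.mem_dualAnnihilator]
    exact h

end Cfsg.Agent.Lib.H50McL
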