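import Cfsg.Agent.Lib.H50McL2

/-! Groups generated by transvections over a prime field (helper50), part 3: symplectic components. -/

set_option autoImplicit false

namespace Cfsg.Agent.Lib.H50McL

open Module

variable {p : ℕ} [Fact p.Prime] {V : Type*} [AddCommGroup V] [Module (ZMod p) V]
variable {H : Subgroup (V ≃ₗ[ZMod p] V)} {P : Set V} {a b c : V} {φ ψ : Dual (ZMod p) V}

theorem sub_neg_smul_dual (φ ψ : Dual (ZMod p) V) (μ : ZMod p) : φ - (-μ) • ψ = φ + μ • ψ := by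
  ext v
  change φ v - (-μ) * ψ v = φ v + μ * ψ v
  ring

theorem neg_one_smul_dual (φ : Dual (ZMod p) V) : (-1 : ZMod p) • φ = - φ := by
  ext v
  change (-1) * φ v = - φ v
  ring

variable (H P) in
/-- the transvections of a component -/
def DD (x : V × Dual (ZMod p) V) : Prop := x.1 ∈ P ∧ x.2 ∈ MM H x.1 ∧ x.2 ≠ 0

variable (H P) in
/-- antisymmetric adjacency -/
def EQ (x y : V × Dual (ZMod p) V) : Prop := DD H P x ∧ DD H P y ∧ x.2 y.1 ≠ 0 ∧ y.2 x.1 = - x.2 y.1

theorem EQ.symm {x y : V × Dual (ZMod p) V} (h : EQ H P x y) : EQ H P y x :=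
  ⟨h.2.1, h.1, by rw [h.2.2.2, neg_ne_zero]; exact h.2.2.1, by rw [h.2.2.2, neg_neg]⟩

/-- everything in terms of one functional per centre -/
structure Fun (H : Subgroup (V ≃ₗ[ZMod p] V)) (P : Set V) (F : V → Dual (ZMod p) V) : Prop where
  mem : ∀ a ∈ P, F a ∈ MM H a
  ne : ∀ a ∈ P, F a ≠ 0
  skew : ∀ a ∈ P, ∀ b ∈ P, F b a = - F a b
  common : ∀ a ∈ P, ∀ b ∈ P, ∃ c ∈ P, F c a ≠ 0 ∧ F c b ≠ 0
  one : ∀ a ∈ P, ∀ φ ∈ MM H a, ∃ k : ZMod p, φ = k • F a

section
variable [Finite V]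

theorem exists_smul_of_finrank (h1 : finrank (ZMod p) (MM H a) ≤ 1) (hφ : φ ∈ MM H a) (hφ0 : φ ≠ 0)
    (hψ : ψ ∈ MM H a) : ∃ k : ZMod p, ψ = k • φ := by
  haveI : FiniteDimensional (ZMod p) V := finite_dim
  have h2 : Submodule.span (ZMod p) {φ} ≤ MM H a := by
    rw [Submodule.span_singleton_le_iff_mem]; exact hφ
  have h3 : Submodule.span (ZMod p) {φ} = MM H a := by
    apply Submodule.eq_of_le_of_finrank_le h2
    rw [finrank_span_singleton hφ0]
    exact h1
  rw [← h3, Submodule.mem_span_singleton] at hψ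
  obtain ⟨k, rfl⟩ := hψ
  exact ⟨k, rfl⟩

variable (hC : Comp H P) (hm : ∀ a ∈ P, finrank (ZMod p) (MM H a) ≤ 1)

include hC hm in
theorem sym0 {x y : V × Dual (ZMod p) V} (hx : DD H P x) (hy : DD H P y) (h : x.2 y.1 = 0) : y.2 x.1 = 0 := by
  by_contra h1
  obtain ⟨φ, hφ, h2⟩ := hC.adj_symm hy.1 hx.1 ⟨y.2, hy.2.1, h1⟩
  obtain ⟨k, rfl⟩ := exists_smul_of_finrank (hm _ hx.1) hx.2.1 hx.2.2 hφ
  rw [LinearMap.smul_apply, h, smul_zero] at h2
  exact h2 rfl

include hC in
theorem DD_smul {x : V × Dual (ZMod p) V} (hx : DD H P x) {k : ZMod p} (hk : k ≠ 0) :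
    DD H P (k • x.1, k • x.2) :=
  ⟨hC.smul _ hx.1 k hk, (T.smul_left hx.2.1 k).smul_right k, smul_ne_zero hk hx.2.2⟩

include hC in
theorem DD_line {x y : V × Dual (ZMod p) V} (h : EQ H P x y) (μ : ZMod p) :
    DD H P (x.1 + μ • y.1, x.2 + μ • y.2) := by
  obtain ⟨hx, hy, h1, h2⟩ := h
  have h3 : y.2 x.1 ≠ 0 := by rw [h2]; exact neg_ne_zero.mpr h1
  refine ⟨hC.conj_smul hy.1 hx.1 ⟨y.2, hy.2.1, h3⟩ μ, ?_, ?_⟩
  · have h4 := T.conj hx.2.1 hy.2.1 (-μ * (x.2 y.1)⁻¹)
    have e1 : -μ * (x.2 y.1)⁻¹ * y.2 x.1 = μ := by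
      rw [h2]
      field_simp
    have e2 : -μ * (x.2 y.1)⁻¹ * x.2 y.1 = -μ := by rw [mul_assoc, inv_mul_cancel₀ h1, mul_one]
    rw [e1, e2, sub_neg_smul_dual] at h4
    exact h4
  · intro h4
    apply h1
    have h5 : (x.2 + μ • y.2) y.1 = 0 := by
      rw [show x.2 + μ • y.2 = 0 from h4]; rfl
    rwa [LinearMap.add_apply, LinearMap.smul_apply, (mem_MM.mp hy.2.1).1, smul_zero, add_zero] at h5

include hC hm in
theorem triangle {x y z : V × Dual (ZMod p) V} (h : EQ H P x y) (h' : EQ H P x z) : z.2 y.1 = - y.2 z.1 := by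
  by_cases h0 : y.2 z.1 = 0
  · rw [h0, neg_zero]
    exact sym0 hC hm h.2.1 h'.2.1 h0
  · have h1 := DD_line hC h (-(x.2 z.1) * (y.2 z.1)⁻¹)
    have h2 := sym0 hC hm h1 h'.2.1 (by
      simp only [LinearMap.add_apply, LinearMap.smul_apply, smul_eq_mul]
      rw [mul_assoc, inv_mul_cancel₀ h0]
      ring)
    simp only [map_add, map_smul, smul_eq_mul] at h2
    rw [h'.2.2.2] at h2
    have h3 := h'.2.2.1
    have h4 : - x.2 z.1 * (1 + (y.2 z.1)⁻¹ * z.2 y.1) = 0 := by rw [← h2]; ring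
    have h5 : 1 + (y.2 z.1)⁻¹ * z.2 y.1 = 0 := by
      rcases mul_eq_zero.mp h4 with h | h
      · exact absurd (neg_eq_zero.mp h) h3
      · exact h
    have h6 : (y.2 z.1)⁻¹ * z.2 y.1 = -1 := by linear_combination h5
    have h7 : y.2 z.1 * ((y.2 z.1)⁻¹ * z.2 y.1) = y.2 z.1 * (-1) := by rw [h6]
    rw [← mul_assoc, mul_inv_cancel₀ h0, one_mul, mul_neg_one] at h7
    exact h7

include hC in
theorem exists_EQ {x : V × Dual (ZMod p) V} (hx : DD H P x) : ∃ y, EQ H P x y := by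
  obtain ⟨b, hb, hφb, ψ, hψ, hψx⟩ := hC.partner x.1 hx.1 x.2 hx.2.1 hx.2.2
  refine ⟨(b, (-(x.2 b) * (ψ x.1)⁻¹) • ψ), hx, ⟨hb, (MM H b).smul_mem _ hψ, ?_⟩, hφb, ?_⟩
  · refine smul_ne_zero (mul_ne_zero (neg_ne_zero.mpr hφb) (inv_ne_zero hψx)) ?_
    rintro rfl
    exact hψx rfl
  · simp only [LinearMap.smul_apply, smul_eq_mul]
    rw [mul_assoc, inv_mul_cancel₀ hψx, mul_one]

include hC hm in
theorem common {x w : V × Dual (ZMod p) V} (hx : DD H P x) (h : Relation.ReflTransGen (EQ H P) x w) :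
    ∃ u, EQ H P x u ∧ EQ H P u w := by
  induction h with
  | refl =>
    obtain ⟨y, hy⟩ := exists_EQ hC hx
    exact ⟨y, hy, hy.symm⟩
  | @tail w w' _ h ih =>
    obtain ⟨u, h1, h2⟩ := ih
    have h3 := triangle hC hm h1.symm h2
    by_cases k1 : x.2 w.1 = 0
    · have h4 := triangle hC hm h2.symm h
      by_cases k2 : u.2 w'.1 = 0
      · have h5 := DD_line hC h2 1
        simp only [one_smul] at h5
        refine ⟨_, ⟨hx, h5, ?_, ?_⟩, ⟨h5, h.2.1, ?_, ?_⟩⟩
        · simp only [map_add]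
          rw [k1, add_zero]
          exact h1.2.2.1
        · simp only [map_add, LinearMap.add_apply]
          rw [h3, k1, h1.2.2.2]
          ring
        · simp only [LinearMap.add_apply]
          rw [k2, zero_add]
          exact h.2.2.1
        · simp only [map_add, LinearMap.add_apply]
          rw [h4, k2, h.2.2.2]
          ring
      · exact ⟨u, h1, h1.2.1, h.2.1, k2, h4⟩
    · exact ⟨w, ⟨hx, h2.2.1, k1, h3⟩, h⟩

include hC hm in
theorem exists_Fun (hne : P.Nonempty) : ∃ F, Fun H P F := by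
  obtain ⟨a0, ha0⟩ := hne
  obtain ⟨φ0, hφ0, hφ00⟩ := hC.exists_axis a0 ha0
  set x0 : V × Dual (ZMod p) V := (a0, φ0) with hx0
  have hD0 : DD H P x0 := ⟨ha0, hφ0, hφ00⟩
  have hDD : ∀ y, Relation.ReflTransGen (EQ H P) x0 y → DD H P y := by
    intro y hy
    induction hy with
    | refl => exact hD0
    | tail _ h _ => exact h.2.1
  have hsymm : ∀ x y, Relation.ReflTransGen (EQ H P) x y → Relation.ReflTransGen (EQ H P) y x := by
    intro x y h
    induction h with
    | refl => exact Relation.ReflTransGen.refl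
    | tail _ h ih => exact Relation.ReflTransGen.head h.symm ih
  have hcom : ∀ x y, Relation.ReflTransGen (EQ H P) x0 x → Relation.ReflTransGen (EQ H P) x0 y →
      ∃ u, EQ H P x u ∧ EQ H P u y := fun x y hx hy =>
    common hC hm (hDD x hx) ((hsymm _ _ hx).trans hy)
  have hskew : ∀ x y, Relation.ReflTransGen (EQ H P) x0 x → Relation.ReflTransGen (EQ H P) x0 y →
      y.2 x.1 = - x.2 y.1 := by
    intro x y hx hy
    obtain ⟨u, h1, h2⟩ := hcom x y hx hy
    exact triangle hC hm h1.symm h2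
  have hex : ∀ a ∈ P, ∃ φ, Relation.ReflTransGen (EQ H P) x0 (a, φ) := by
    intro a ha
    refine hC.ind (fun a => ∃ φ, Relation.ReflTransGen (EQ H P) x0 (a, φ)) a0 ha0 ⟨φ0, Relation.ReflTransGen.refl⟩
      ?_ a ha
    rintro a ha b hb ⟨φ, hφ⟩ ⟨ξ, hξ, hξb, ψ, hψ, hψa⟩
    have h1 := hDD _ hφ
    obtain ⟨k, rfl⟩ := exists_smul_of_finrank (hm _ h1.1) h1.2.1 h1.2.2 hξ
    have hφb : φ b ≠ 0 := by
      intro h2
      apply hξb
      change k • φ b = 0
      rw [h2, smul_zero]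
    refine ⟨(-(φ b) * (ψ a)⁻¹) • ψ, hφ.tail ⟨h1, ⟨hb, (MM H b).smul_mem _ hψ, ?_⟩, hφb, ?_⟩⟩
    · refine smul_ne_zero (mul_ne_zero (neg_ne_zero.mpr hφb) (inv_ne_zero hψa)) ?_
      rintro rfl
      exact hψa rfl
    · simp only [LinearMap.smul_apply, smul_eq_mul]
      rw [mul_assoc, inv_mul_cancel₀ hψa, mul_one]
  classical
  let F : V → Dual (ZMod p) V := fun a => if ha : a ∈ P then (hex a ha).choose else 0
  have hF : ∀ a ∈ P, Relation.ReflTransGen (EQ H P) x0 (a, F a) := by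
    intro a ha
    simp only [F, dif_pos ha]
    exact (hex a ha).choose_spec
  refine ⟨F, fun a ha => (hDD _ (hF a ha)).2.1, fun a ha => (hDD _ (hF a ha)).2.2,
    fun a ha b hb => hskew _ _ (hF a ha) (hF b hb), ?_, ?_⟩
  · intro a ha b hb
    obtain ⟨u, h1, h2⟩ := hcom _ _ (hF a ha) (hF b hb)
    have h3 := hDD _ (hF u.1 h1.2.1.1)
    obtain ⟨k, hk⟩ := exists_smul_of_finrank (hm _ h1.2.1.1) h3.2.1 h3.2.2 h1.2.1.2.1
    refine ⟨u.1, h1.2.1.1, ?_, ?_⟩
    · intro h4
      apply h1.symm.2.2.1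
      change u.2 a = 0
      rw [hk]
      change k • (F u.1 a) = 0
      rw [h4, smul_zero]
    · intro h4
      apply h2.2.2.1
      change u.2 b = 0
      rw [hk]
      change k • (F u.1 b) = 0
      rw [h4, smul_zero]
  · intro a ha φ hφ
    have h3 := hDD _ (hF a ha)
    exact exists_smul_of_finrank (hm a ha) h3.2.1 h3.2.2 hφ

end

namespace Fun

variable {F : V → Dual (ZMod p) V} (hF : Fun H P F) (hC : Comp H P)

include hF

theorem self (ha : a ∈ P) : F a a = 0 := (mem_MM.mp (hF.mem a ha)).1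

theorem uniq (ha : a ∈ P) (hφ : φ ∈ MM H a) (h : ∀ b ∈ P, φ b = F a b) : φ = F a := by
  obtain ⟨k, rfl⟩ := hF.one a ha φ hφ
  obtain ⟨b, hb, h1, _⟩ := hF.common a ha a ha
  have h2 := h b hb
  rw [LinearMap.smul_apply, smul_eq_mul] at h2
  have h3 : F a b ≠ 0 := by
    intro h4
    apply h1
    rw [hF.skew a ha b hb, h4, neg_zero]
  have h5 : k = 1 := by
    have h6 : (k - 1) * F a b = 0 := by rw [sub_mul, h2, one_mul, sub_self]
    rcases mul_eq_zero.mp h6 with h | h
    · exact sub_eq_zero.mp h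
    · exact absurd h h3
  rw [h5, one_smul]

include hC in
theorem smul_eq (ha : a ∈ P) {k : ZMod p} (hk : k ≠ 0) : F (k • a) = k • F a := by
  symm
  apply hF.uniq (hC.smul a ha k hk) (by rw [MM_smul hk]; exact (MM H a).smul_mem _ (hF.mem a ha))
  intro b hb
  rw [hF.skew b hb _ (hC.smul a ha k hk), map_smul, LinearMap.smul_apply, hF.skew b hb a ha, smul_neg]

include hC in
theorem neg_mem (ha : a ∈ P) : -a ∈ P := by
  rw [← neg_one_smul (ZMod p)]
  exact hC.smul a ha _ (neg_ne_zero.mpr one_ne_zero)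

include hC in
theorem neg_eq (ha : a ∈ P) : F (-a) = - F a := by
  rw [← neg_one_smul (ZMod p) a, hF.smul_eq hC ha (neg_ne_zero.mpr one_ne_zero), neg_one_smul_dual]

theorem eq_of_add (ha : a ∈ P) (hb : b ∈ P) (hab : a + b ∈ P) (h : F a + F b ∈ MM H (a + b)) :
    F (a + b) = F a + F b := by
  symm
  apply hF.uniq hab h
  intro c hc
  rw [hF.skew c hc _ hab, map_add, LinearMap.add_apply, hF.skew c hc a ha, hF.skew c hc b hb]
  ring

include hC in
theorem add_adj (ha : a ∈ P) (hb : b ∈ P) (h : F a b ≠ 0) : a + b ∈ P ∧ F (a + b) = F a + F b := by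
  have h1 : a + b ∈ P := by
    have := hC.conj_smul hb ha ⟨F b, hF.mem b hb, by rw [hF.skew a ha b hb]; exact neg_ne_zero.mpr h⟩ 1
    rwa [one_smul] at this
  refine ⟨h1, hF.eq_of_add ha hb h1 ?_⟩
  have h4 := T.conj (hF.mem a ha) (hF.mem b hb) (-(F a b)⁻¹)
  rw [hF.skew a ha b hb, neg_mul_neg, neg_mul, inv_mul_cancel₀ h, one_smul, sub_neg_smul_dual, one_smul] at h4
  exact h4

include hC in
theorem add_perp (ha : a ∈ P) (hb : b ∈ P) (h : F a b = 0) {z : V} (hz : z ∈ P) (h1 : F z a ≠ 0) (h2 : F z b ≠ 0)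
    (h3 : F z a + F z b ≠ 0) : a + b ∈ P ∧ F (a + b) = F a + F b := by
  have haz : F a z ≠ 0 := by rw [hF.skew z hz a ha]; exact neg_ne_zero.mpr h1
  have hbz : F b z ≠ 0 := by rw [hF.skew z hz b hb]; exact neg_ne_zero.mpr h2
  obtain ⟨h4, h5⟩ := hF.add_adj hC ha hz haz
  obtain ⟨h6, h7⟩ := hF.add_adj hC hb (hF.neg_mem hC hz) (by rw [map_neg]; exact neg_ne_zero.mpr hbz)
  rw [hF.neg_eq hC hz] at h7
  have h8 : F (a + z) (b + -z) ≠ 0 := by
    rw [h5, LinearMap.add_apply, map_add, map_add, h, map_neg, map_neg, hF.self hz, hF.skew z hz a ha]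
    simpa using h3
  obtain ⟨h9, h10⟩ := hF.add_adj hC h4 h6 h8
  have e : a + z + (b + -z) = a + b := by abel
  rw [e] at h9 h10
  refine ⟨h9, ?_⟩
  rw [h10, h5, h7]
  abel

variable (hp : Odd p)

include hp in
omit hF in
theorem two_ne : (2 : ZMod p) ≠ 0 := by
  intro h
  have h1 : ((2 : ℕ) : ZMod p) = 0 := by exact_mod_cast h
  rw [ZMod.natCast_eq_zero_iff] at h1
  have h2 := (Nat.prime_dvd_prime_iff_eq Fact.out Nat.prime_two).mp h1
  rw [h2] at hp
  exact absurd hp (by decide)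

include hp in
omit hF in
/-- choose a sign -/
theorem sign {s t : ZMod p} (hs : s ≠ 0) : ∃ e : ZMod p, e ≠ 0 ∧ s + e * t ≠ 0 := by
  by_cases h : s + t = 0
  · refine ⟨-1, neg_ne_zero.mpr one_ne_zero, fun h1 => ?_⟩
    have : 2 * s = 0 := by linear_combination h + h1
    rcases mul_eq_zero.mp this with h | h
    · exact two_ne hp h
    · exact hs h
  · exact ⟨1, one_ne_zero, by rwa [one_mul]⟩

include hC hp in
theorem find (ha : a ∈ P) (hb : b ∈ P) (h : F a b = 0) {w : V} (hw : w ∈ P) (h1 : F w a + F w b ≠ 0) :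
    ∃ z ∈ P, F z a ≠ 0 ∧ F z b ≠ 0 ∧ F z a + F z b ≠ 0 := by
  by_cases k : F w a ≠ 0 ∧ F w b ≠ 0
  · exact ⟨w, hw, k.1, k.2, h1⟩
  obtain ⟨v, hv, hva, hvb⟩ := hF.common a ha b hb
  by_cases k2 : F v a + F v b = 0
  · -- make `v` adjacent to `w`
    have h2 : ∃ v ∈ P, F v a ≠ 0 ∧ F v b ≠ 0 ∧ F v a + F v b = 0 ∧ F v w ≠ 0 := by
      by_cases k3 : F v w = 0
      · have hba : F b a = 0 := by rw [hF.skew a ha b hb, h, neg_zero]
        by_cases k4 : F w a = 0
        · have k5 : F w b ≠ 0 := by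
            intro k6
            rw [k4, k6, add_zero] at h1
            exact h1 rfl
          obtain ⟨h3, h4⟩ := hF.add_adj hC hv hb hvb
          refine ⟨v + b, h3, ?_, ?_, ?_, ?_⟩
          · rw [h4, LinearMap.add_apply, hba, add_zero]; exact hva
          · rw [h4, LinearMap.add_apply, hF.self hb, add_zero]; exact hvb
          · rw [h4, LinearMap.add_apply, LinearMap.add_apply, hba, hF.self hb, add_zero, add_zero]; exact k2
          · rw [h4, LinearMap.add_apply, k3, zero_add, hF.skew w hw b hb]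
            exact neg_ne_zero.mpr k5
        · obtain ⟨h3, h4⟩ := hF.add_adj hC hv ha hva
          refine ⟨v + a, h3, ?_, ?_, ?_, ?_⟩
          · rw [h4, LinearMap.add_apply, hF.self ha, add_zero]; exact hva
          · rw [h4, LinearMap.add_apply, h, add_zero]; exact hvb
          · rw [h4, LinearMap.add_apply, LinearMap.add_apply, h, hF.self ha, add_zero, add_zero]; exact k2
          · rw [h4, LinearMap.add_apply, k3, zero_add, hF.skew w hw a ha]
            exact neg_ne_zero.mpr k4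
      · exact ⟨v, hv, hva, hvb, k2, k3⟩
    obtain ⟨v, hv, hva, hvb, k2, hvw⟩ := h2
    have h3 : ∃ e : ZMod p, e ≠ 0 ∧ F v a + e * F w a ≠ 0 ∧ F v b + e * F w b ≠ 0 := by
      by_cases k4 : F w a = 0
      · obtain ⟨e, he, he'⟩ := sign hp (t := F w b) hvb
        exact ⟨e, he, by rw [k4, mul_zero, add_zero]; exact hva, he'⟩
      · have k5 : F w b = 0 := by
          by_contra k6
          exact k ⟨k4, k6⟩
        obtain ⟨e, he, he'⟩ := sign hp (t := F w a) hva
        exact ⟨e, he, he', by rw [k5, mul_zero, add_zero]; exact hvb⟩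
    obtain ⟨e, he, he1, he2⟩ := h3
    obtain ⟨h4, h5⟩ := hF.add_adj hC hv (hC.smul w hw e he) (by
      rw [map_smul]; exact smul_ne_zero he hvw)
    rw [hF.smul_eq hC hw he] at h5
    refine ⟨_, h4, ?_, ?_, ?_⟩
    · rw [h5]; exact he1
    · rw [h5]; exact he2
    · rw [h5]
      change (F v a + e * F w a) + (F v b + e * F w b) ≠ 0
      intro h6
      have h7 : e * (F w a + F w b) = 0 := by linear_combination h6 - k2
      rcases mul_eq_zero.mp h7 with h | h
      · exact he h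
      · exact h1 h
  · exact ⟨v, hv, hva, hvb, k2⟩

variable (H P) in
omit hF in
/-- the radical of the span of a component -/
def Rad (v : V) : Prop := v ∈ Submodule.span (ZMod p) P ∧ ∀ a ∈ P, ∀ φ ∈ MM H a, φ v = 0

variable (hO : ∀ g ∈ H, (∀ v, g v - v ∈ Submodule.span (ZMod p) P) →
  (∀ v ∈ Submodule.span (ZMod p) P, Rad H P (g v - v)) → (∀ v, Rad H P v → g v = v) → g = 1)

include hC hp hO in
theorem add_rad (ha : a ∈ P) (hb : b ∈ P) (h : F a b = 0) (h1 : ∀ w ∈ P, F w a + F w b = 0) : a + b = 0 := by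
  have hba : F b a = 0 := by rw [hF.skew a ha b hb, h, neg_zero]
  obtain ⟨haa, g1, hg1, hg1'⟩ := hF.mem a ha
  obtain ⟨hbb, g2, hg2, hg2'⟩ := (MM H b).neg_mem (hF.mem b hb)
  have hg : ∀ v, (g1 * g2) v = v + (F a v • a - F b v • b) := by
    intro v
    rw [LinearEquiv.mul_apply, hg2', hg1', map_add, map_smul, h, smul_zero, add_zero, LinearMap.neg_apply, neg_smul]
    abel
  have haP : a ∈ Submodule.span (ZMod p) P := Submodule.subset_span ha
  have hbP : b ∈ Submodule.span (ZMod p) P := Submodule.subset_span hb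
  have hneg : ∀ v ∈ Submodule.span (ZMod p) P, F b v = - F a v := by
    intro v hv
    have h2 : F a + F b = 0 ∨ True := Or.inr trivial
    have h3 : v ∈ LinearMap.ker (F a + F b) := by
      refine (Submodule.span_le.mpr ?_) hv
      intro w hw
      rw [SetLike.mem_coe, LinearMap.mem_ker, LinearMap.add_apply, hF.skew w hw a ha, hF.skew w hw b hb]
      have := h1 w hw
      linear_combination -this
    have h4 : F a v + F b v = 0 := h3
    linear_combination h4
  have hR : Rad H P (a + b) := by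
    refine ⟨Submodule.add_mem _ haP hbP, ?_⟩
    intro w hw φ hφ
    obtain ⟨k, rfl⟩ := hF.one w hw φ hφ
    rw [LinearMap.smul_apply, map_add, h1 w hw, smul_zero]
  have hRs : ∀ k : ZMod p, Rad H P (k • (a + b)) := by
    intro k
    refine ⟨Submodule.smul_mem _ _ hR.1, fun w hw φ hφ => ?_⟩
    rw [map_smul, hR.2 w hw φ hφ, smul_zero]
  have hg1 := hO (g1 * g2) (mul_mem hg1 hg2) (by
    intro v
    rw [hg, add_sub_cancel_left]
    exact Submodule.sub_mem _ (Submodule.smul_mem _ _ haP) (Submodule.smul_mem _ _ hbP)) (by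
    intro v hv
    rw [hg, add_sub_cancel_left, hneg v hv, neg_smul, sub_neg_eq_add, ← smul_add]
    exact hRs _) (by
    intro v hv
    rw [hg, hv.2 a ha _ (hF.mem a ha), hv.2 b hb _ (hF.mem b hb), zero_smul, zero_smul, sub_zero, add_zero])
  have hg2 : ∀ v, F a v • a = F b v • b := by
    intro v
    have := hg v
    rw [hg1] at this
    have h3 : v = v + (F a v • a - F b v • b) := this
    have h4 := left_eq_add.mp h3
    exact sub_eq_zero.mp h4
  -- `b` is a multiple of `a`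
  obtain ⟨v, hv⟩ : ∃ v, F a v ≠ 0 := by
    by_contra hcon
    push Not at hcon
    exact hF.ne a ha (LinearMap.ext hcon)
  have hbv : F b v ≠ 0 := by
    intro h3
    have h4 := hg2 v
    rw [h3, zero_smul] at h4
    exact smul_ne_zero hv (hC.ne_zero a ha) h4
  have hb' : b = ((F b v)⁻¹ * F a v) • a := by
    rw [mul_smul, hg2 v, smul_smul, inv_mul_cancel₀ hbv, one_smul]
  generalize hk : (F b v)⁻¹ * F a v = k at hb'
  have hk0 : k ≠ 0 := by rw [← hk]; exact mul_ne_zero (inv_ne_zero hbv) hv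
  -- use the partner
  obtain ⟨w, hw, hwa, _⟩ := hF.common a ha a ha
  have h5 := h1 w hw
  rw [hb', map_smul, smul_eq_mul] at h5
  have h6 : 1 + k = 0 := by
    have : (1 + k) * F w a = 0 := by linear_combination h5
    rcases mul_eq_zero.mp this with h | h
    · exact h
    · exact absurd h hwa
  rw [hb']
  calc a + k • a = (1 + k) • a := by rw [add_smul, one_smul]
    _ = 0 := by rw [h6, zero_smul]

include hC hp hO in
theorem add (ha : a ∈ P) (hb : b ∈ P) : a + b = 0 ∨ (a + b ∈ P ∧ F (a + b) = F a + F b) := by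
  by_cases h : F a b = 0
  · by_cases h1 : ∃ w ∈ P, F w a + F w b ≠ 0
    · obtain ⟨w, hw, h1⟩ := h1
      obtain ⟨z, hz, h2, h3, h4⟩ := hF.find hC hp ha hb h hw h1
      exact Or.inr (hF.add_perp hC ha hb h hz h2 h3 h4)
    · push Not at h1
      exact Or.inl (hF.add_rad hC hp hO ha hb h h1)
  · exact Or.inr (hF.add_adj hC ha hb h)

end Fun

/-- the symplectic form on the span of a symplectic component -/
structure SympData (H : Subgroup (V ≃ₗ[ZMod p] V)) (P : Set V) (U : Submodule (ZMod p) V)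
    (X : Submodule (ZMod p) (Dual (ZMod p) V)) (B : LinearMap.BilinForm (ZMod p) U) : Prop where
  alt : ∀ x, B x x = 0
  nondeg : ∀ x, x ≠ 0 → ∃ y, B x y ≠ 0
  mem : ∀ a : U, ∀ φ ∈ X, (∀ x : U, φ x = B a x) → φ ∈ MM H (a : V)
  of_mem : ∀ a : U, (a : V) ∈ P → ∀ φ ∈ MM H (a : V), ∃ k : ZMod p, ∀ x : U, φ x = k * B a x

theorem Comp.symp [Finite V] (hC : Comp H P) (hm : ∀ a ∈ P, finrank (ZMod p) (MM H a) ≤ 1) (hne : P.Nonempty)
    (hp : Odd p)
    (hO : ∀ g ∈ H, (∀ v, g v - v ∈ Submodule.span (ZMod p) P) →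
      (∀ v ∈ Submodule.span (ZMod p) P, Fun.Rad H P (g v - v)) → (∀ v, Fun.Rad H P v → g v = v) → g = 1) :
    ∃ U X, Comp2 H P U X ∧ ∃ B, SympData H P U X B := by
  classical
  obtain ⟨F, hF⟩ := exists_Fun hC hm hne
  let U : Submodule (ZMod p) V :=
    { carrier := {x | x = 0 ∨ x ∈ P}
      add_mem' := by
        rintro x y (rfl | hx) (rfl | hy)
        · exact Or.inl (add_zero _)
        · exact Or.inr (by rwa [zero_add])
        · exact Or.inr (by rwa [add_zero])
        · rcases hF.add hC hp hO hx hy with h | h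
          · exact Or.inl h
          · exact Or.inr h.1
      zero_mem' := Or.inl rfl
      smul_mem' := by
        rintro c x (rfl | hx)
        · exact Or.inl (smul_zero _)
        · by_cases hc : c = 0
          · exact Or.inl (by rw [hc, zero_smul])
          · exact Or.inr (hC.smul x hx c hc) }
  have hU : ∀ a, a ∈ U ↔ a = 0 ∨ a ∈ P := fun _ => Iff.rfl
  let G : V → Dual (ZMod p) V := fun a => if a ∈ P then F a else 0
  have h0P : (0 : V) ∉ P := fun h => hC.ne_zero 0 h rfl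
  have hG0 : G 0 = 0 := if_neg h0P
  have hGP : ∀ a ∈ P, G a = F a := fun a ha => if_pos ha
  have hGadd : ∀ x ∈ U, ∀ y ∈ U, G (x + y) = G x + G y := by
    rintro x (rfl | hx) y (rfl | hy)
    · rw [add_zero, hG0, add_zero]
    · rw [zero_add, hG0, zero_add]
    · rw [add_zero, hG0, add_zero]
    · rcases hF.add hC hp hO hx hy with h | h
      · rw [h, hG0, eq_neg_of_add_eq_zero_left h, hGP y hy, hGP _ (hF.neg_mem hC hy), hF.neg_eq hC hy,
          neg_add_cancel]
      · rw [hGP _ h.1, h.2, hGP x hx, hGP y hy]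
  have hGsmul : ∀ (k : ZMod p), ∀ x ∈ U, G (k • x) = k • G x := by
    rintro k x (rfl | hx)
    · rw [smul_zero, hG0, smul_zero]
    · by_cases hk : k = 0
      · rw [hk, zero_smul, zero_smul, hG0]
      · rw [hGP _ (hC.smul x hx k hk), hGP x hx, hF.smul_eq hC hx hk]
  let GLf : U →ₗ[ZMod p] Dual (ZMod p) V :=
    { toFun := fun x => G x
      map_add' := fun x y => hGadd x x.2 y y.2
      map_smul' := fun k x => hGsmul k x x.2 }
  let X : Submodule (ZMod p) (Dual (ZMod p) V) := LinearMap.range GLf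
  have hX : Comp2 H P U X := by
    refine ⟨hU, ?_, ?_⟩
    · intro a ha φ hφ
      obtain ⟨k, rfl⟩ := hF.one a ha φ hφ
      exact X.smul_mem _ ⟨⟨a, Or.inr ha⟩, hGP a ha⟩
    · rintro φ ⟨⟨a, ha⟩, rfl⟩ h0
      rcases ha with rfl | ha
      · exact absurd hG0 h0
      · refine ⟨a, ha, ?_⟩
        change G a ∈ MM H a
        rw [hGP a ha]
        exact hF.mem a ha
  refine ⟨U, X, hX, (U.subtype.dualMap).comp GLf, ?_, ?_, ?_, ?_⟩
  · rintro ⟨x, hx⟩
    change G x x = 0
    rcases hx with rfl | hx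
    · rw [hG0]; rfl
    · rw [hGP x hx, hF.self hx]
  · rintro ⟨x, hx⟩ hx0
    rcases hx with rfl | hx
    · exact absurd rfl hx0
    · obtain ⟨b, hb, h1, _⟩ := hF.common x hx x hx
      refine ⟨⟨b, Or.inr hb⟩, ?_⟩
      change G x b ≠ 0
      rw [hGP x hx, hF.skew b hb x hx]
      exact neg_ne_zero.mpr h1
  · rintro ⟨a, ha⟩ φ hφ h1
    have h2 : φ = G a := by
      obtain ⟨⟨b, hb⟩, rfl⟩ := hφ
      have h3 : ∀ x ∈ U, G b x = G a x := fun x hx => h1 ⟨x, hx⟩
      have h4 : G (b - a) = G b - G a := by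
        rw [sub_eq_add_neg, ← neg_one_smul (ZMod p) a, hGadd b hb _ (U.smul_mem _ ha), hGsmul _ a ha,
          neg_one_smul_dual, sub_eq_add_neg]
      have h5 : b - a = 0 := by
        by_contra h6
        have h7 : b - a ∈ P := (((hU _).mp (U.sub_mem hb ha)).resolve_left h6)
        obtain ⟨c, hc, h8, _⟩ := hF.common _ h7 _ h7
        have h9 : F (b - a) c = 0 := by
          rw [← hGP _ h7, h4, LinearMap.sub_apply, h3 c (Or.inr hc), sub_self]
        apply h8
        rw [hF.skew _ h7 c hc, h9, neg_zero]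
      have h10 : b = a := sub_eq_zero.mp h5
      subst h10
      rfl
    rcases ha with rfl | ha
    · rw [h2, hG0]; exact (MM H 0).zero_mem
    · rw [h2, hGP a ha]; exact hF.mem a ha
  · rintro ⟨a, ha'⟩ ha φ hφ
    obtain ⟨k, rfl⟩ := hF.one a ha φ hφ
    refine ⟨k, fun x => ?_⟩
    change k • (F a x) = k * G a x
    rw [hGP a ha]
    rfl

end Cfsg.Agent.Lib.H50McL
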