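import Cfsg.Agent.Lib.H50McL3
import Cfsg.Agent.Lib.BaerSuzuki
import Cfsg.Agent.Lib.AmalgamCharP

/-! Groups generated by transvections over a prime field (helper50), part 4: unipotent chains, partners. -/

set_option autoImplicit false

namespace Cfsg.Agent.Lib.H50McL

open Module
open scoped Pointwise

variable {p : ℕ} [Fact p.Prime] {V : Type*} [AddCommGroup V] [Module (ZMod p) V]
variable {H : Subgroup (V ≃ₗ[ZMod p] V)} {P : Set V} {a b c : V} {φ ψ : Dual (ZMod p) V}

/-- cubic unipotent elements have order dividing `p` -/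
theorem pow_eq_one_of_cubic (hp : Odd p) (g : V ≃ₗ[ZMod p] V)
    (h : ∀ v, g (g (g v - v) - (g v - v)) = g (g v - v) - (g v - v)) : g ^ p = 1 := by
  have key : ∀ (n : ℕ) (v : V), (g ^ n) v = v + (n : ZMod p) • (g v - v) +
      ((n.choose 2 : ℕ) : ZMod p) • (g (g v - v) - (g v - v)) := by
    intro n
    induction n with
    | zero => intro v; simp
    | succ n ih =>
      intro v
      rw [pow_succ', LinearEquiv.mul_apply, ih, map_add, map_add, map_smul, map_smul, h, Nat.choose_succ_succ,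
        Nat.choose_one_right, Nat.cast_add, Nat.cast_add, Nat.cast_one]
      have e1 : g v = v + (g v - v) := by abel
      have e2 : g (g v - v) = (g v - v) + (g (g v - v) - (g v - v)) := by abel
      generalize g (g v - v) - (g v - v) = E at *
      generalize g v - v = D at *
      rw [e1, e2]
      module
  ext v
  rw [key]
  have h1 : ((p : ℕ) : ZMod p) = 0 := ZMod.natCast_self p
  have h2 : ((p.choose 2 : ℕ) : ZMod p) = 0 := by
    rw [ZMod.natCast_eq_zero_iff]
    have hp2 : p.Prime := Fact.out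
    refine hp2.dvd_choose_self (by norm_num) ?_
    rcases Nat.lt_or_ge 2 p with h | h
    · exact h
    · have := hp2.two_le
      have h3 : p = 2 := by omega
      rw [h3] at hp
      exact absurd hp (by decide)
  rw [h1, h2, zero_smul, zero_smul, add_zero, add_zero]
  rfl

/-- the stabiliser of a chain `0 ≤ B`, `A ≤ V` -/
def chainSub (A B : Submodule (ZMod p) V) : Subgroup (V ≃ₗ[ZMod p] V) where
  carrier := {g | (∀ v, g v - v ∈ A) ∧ (∀ v ∈ A, g v - v ∈ B) ∧ ∀ v ∈ B, g v = v}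
  mul_mem' := by
    rintro g h ⟨hg1, hg2, hg3⟩ ⟨hh1, hh2, hh3⟩
    refine ⟨fun v => ?_, fun v hv => ?_, fun v hv => ?_⟩
    · have e : (g * h) v - v = (g (h v) - h v) + (h v - v) := by rw [LinearEquiv.mul_apply]; abel
      rw [e]
      exact A.add_mem (hg1 _) (hh1 _)
    · have e : (g * h) v - v = (g (h v) - h v) + (h v - v) := by rw [LinearEquiv.mul_apply]; abel
      have e2 : h v = v + (h v - v) := by abel
      rw [e]
      exact B.add_mem (hg2 _ (by rw [e2]; exact A.add_mem hv (hh1 v))) (hh2 _ hv)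
    · rw [LinearEquiv.mul_apply, hh3 v hv, hg3 v hv]
  one_mem' := ⟨fun v => by simp, fun v _ => by simp, fun v _ => by simp⟩
  inv_mem' := by
    rintro g ⟨hg1, hg2, hg3⟩
    have e : ∀ v, g⁻¹ v - v = -(g (g⁻¹ v) - g⁻¹ v) := by
      intro v
      have : g (g⁻¹ v) = v := g.apply_symm_apply v
      rw [this]; abel
    refine ⟨fun v => ?_, fun v hv => ?_, fun v hv => ?_⟩
    · rw [e]; exact A.neg_mem (hg1 _)
    · rw [e]
      refine B.neg_mem (hg2 _ ?_)
      have e2 : g⁻¹ v = v + (g⁻¹ v - v) := by abel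
      rw [e2, e]
      exact A.add_mem hv (A.neg_mem (hg1 _))
    · have : g⁻¹ (g v) = v := g.symm_apply_apply v
      rw [hg3 v hv] at this
      exact this

theorem chainSub_isPGroup (hp : Odd p) (A B : Submodule (ZMod p) V) : IsPGroup p (chainSub A B) := by
  rintro ⟨g, hg1, hg2, hg3⟩
  refine ⟨1, ?_⟩
  ext1
  rw [pow_one]
  change g ^ p = 1
  exact pow_eq_one_of_cubic hp g fun v => hg3 _ (hg2 _ (hg1 v))

theorem chain_trivial (hp : Odd p) (hOp : Cfsg.pCore p ↥H = ⊥) {A B : Submodule (ZMod p) V}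
    (hA : ∀ k ∈ H, ∀ v ∈ A, k v ∈ A) (hB : ∀ k ∈ H, ∀ v ∈ B, k v ∈ B) {g : V ≃ₗ[ZMod p] V} (hg : g ∈ H)
    (h1 : ∀ v, g v - v ∈ A) (h2 : ∀ v ∈ A, g v - v ∈ B) (h3 : ∀ v ∈ B, g v = v) : g = 1 := by
  have hN : ((chainSub A B).subgroupOf H).Normal := by
    constructor
    rintro ⟨n, hn⟩ hn' ⟨k, hk⟩
    rw [Subgroup.mem_subgroupOf] at hn' ⊢
    obtain ⟨h1, h2, h3⟩ := hn'
    simp only at h1 h2 h3
    have e0 : ∀ v, (k * n * k⁻¹) v = k (n (k⁻¹ v)) := fun v => rfl
    have e1 : ∀ v, k (k⁻¹ v) = v := fun v => k.apply_symm_apply v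
    have e : ∀ v, (k * n * k⁻¹) v - v = k (n (k⁻¹ v) - k⁻¹ v) := by
      intro v
      rw [map_sub, e0, e1]
    change k * n * k⁻¹ ∈ chainSub A B
    refine ⟨fun v => ?_, fun v hv => ?_, fun v hv => ?_⟩
    · rw [e]; exact hA k hk _ (h1 _)
    · rw [e]; exact hB k hk _ (h2 _ (hA _ (inv_mem hk) _ hv))
    · rw [e0, h3 _ (hB _ (inv_mem hk) _ hv), e1]
  have hP : IsPGroup p ((chainSub A B).subgroupOf H) :=
    (chainSub_isPGroup hp A B).comap_of_injective H.subtype H.subtype_injective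
  have h4 := Cfsg.Agent.Lib.AmalgamCharP.le_pCore hN hP
  rw [hOp] at h4
  have h5 : (⟨g, hg⟩ : H) ∈ (chainSub A B).subgroupOf H := ⟨h1, h2, h3⟩
  have h6 := h4 h5
  rw [Subgroup.mem_bot] at h6
  exact congrArg Subtype.val h6

theorem partner_of_pCore [Finite V] (hp : Odd p) (hOp : Cfsg.pCore p ↥H = ⊥) : Partner H := by
  classical
  rintro ⟨a, φ⟩ ⟨ha0, hφ0, hφa, t, htH, ht⟩
  simp only at ha0 hφ0 hφa ht
  by_contra hcon
  push Not at hcon
  haveI : Finite (V ≃ₗ[ZMod p] V) := Finite.of_injective (fun g : V ≃ₗ[ZMod p] V => (g : V → V)) DFunLike.coe_injective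
  -- the two commuting configurations
  have hchain : ∀ (b : V) (ψ : Dual (ZMod p) V) (t' : V ≃ₗ[ZMod p] V), ψ b = 0 → (∀ v, t' v = v + ψ v • b) →
      (φ b = 0 ∨ ψ a = 0) → ∃ A B : Submodule (ZMod p) V, t ∈ chainSub A B ∧ t' ∈ chainSub A B := by
    intro b ψ t' hψb ht' h
    rcases h with h | h
    · refine ⟨Submodule.span (ZMod p) {a, b}, Submodule.span (ZMod p) {b}, ⟨?_, ?_, ?_⟩, ⟨?_, ?_, ?_⟩⟩
      · intro v
        rw [ht, add_sub_cancel_left]
        exact Submodule.smul_mem _ _ (Submodule.subset_span (by simp))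
      · intro v hv
        obtain ⟨x, y, rfl⟩ := Submodule.mem_span_pair.mp hv
        rw [ht, add_sub_cancel_left, map_add, map_smul, map_smul, hφa, h, smul_zero, smul_zero, add_zero, zero_smul]
        exact Submodule.zero_mem _
      · intro v hv
        obtain ⟨x, rfl⟩ := Submodule.mem_span_singleton.mp hv
        rw [ht, map_smul, h, smul_zero, zero_smul, add_zero]
      · intro v
        rw [ht', add_sub_cancel_left]
        exact Submodule.smul_mem _ _ (Submodule.subset_span (by simp))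
      · intro v hv
        rw [ht', add_sub_cancel_left]
        exact Submodule.smul_mem _ _ (Submodule.mem_span_singleton_self b)
      · intro v hv
        obtain ⟨x, rfl⟩ := Submodule.mem_span_singleton.mp hv
        rw [ht', map_smul, hψb, smul_zero, zero_smul, add_zero]
    · refine ⟨Submodule.span (ZMod p) {a, b}, Submodule.span (ZMod p) {a}, ⟨?_, ?_, ?_⟩, ⟨?_, ?_, ?_⟩⟩
      · intro v
        rw [ht, add_sub_cancel_left]
        exact Submodule.smul_mem _ _ (Submodule.subset_span (by simp))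
      · intro v hv
        rw [ht, add_sub_cancel_left]
        exact Submodule.smul_mem _ _ (Submodule.mem_span_singleton_self a)
      · intro v hv
        obtain ⟨x, rfl⟩ := Submodule.mem_span_singleton.mp hv
        rw [ht, map_smul, hφa, smul_zero, zero_smul, add_zero]
      · intro v
        rw [ht', add_sub_cancel_left]
        exact Submodule.smul_mem _ _ (Submodule.subset_span (by simp))
      · intro v hv
        obtain ⟨x, y, rfl⟩ := Submodule.mem_span_pair.mp hv
        rw [ht', add_sub_cancel_left, map_add, map_smul, map_smul, hψb, h, smul_zero, smul_zero, add_zero, zero_smul]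
        exact Submodule.zero_mem _
      · intro v hv
        obtain ⟨x, rfl⟩ := Submodule.mem_span_singleton.mp hv
        rw [ht', map_smul, h, smul_zero, zero_smul, add_zero]
  let X : Subgroup H := Subgroup.zpowers (⟨t, htH⟩ : H)
  have hX : IsPGroup p X := by
    obtain ⟨A, B, h1, _⟩ := hchain a φ t hφa ht (Or.inl hφa)
    have h2 : X ≤ (chainSub A B).subgroupOf H := by
      rw [Subgroup.zpowers_le]
      exact h1
    exact ((chainSub_isPGroup hp A B).comap_of_injective H.subtype H.subtype_injective).to_le h2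
  obtain ⟨N, hN1, hN2, hN3⟩ := Cfsg.Agent.Lib.BaerSuzuki.baer_suzuki X hX (by
    rintro ⟨g, hg⟩
    have h1 : T H a φ := ⟨hφa, t, htH, ht⟩
    have h2 := h1.map hg
    have h2' := h2
    obtain ⟨h3, t', ht'H, ht'⟩ := h2
    have hor : φ (g a) = 0 ∨ (φ ∘ₗ (g.symm : V →ₗ[ZMod p] V)) a = 0 := by
      by_contra h4
      rw [not_or] at h4
      refine hcon (g a, φ ∘ₗ (g.symm : V →ₗ[ZMod p] V)) ⟨⟨ha0, hφ0, h1⟩, ⟨?_, ?_, h2'⟩, h4.1, h4.2⟩
      · intro h5
        apply ha0
        have : g.symm (g a) = g.symm 0 := by rw [show g a = 0 from h5]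
        rwa [LinearEquiv.symm_apply_apply, map_zero] at this
      · intro h5
        apply h4.2
        rw [show φ ∘ₗ (g.symm : V →ₗ[ZMod p] V) = 0 from h5]
        rfl
    have ht'' : t' = g * t * g⁻¹ := by
      ext v
      rw [ht', LinearEquiv.mul_apply, LinearEquiv.mul_apply, ht, map_add, map_smul]
      change v + φ (g.symm v) • g a = g (g.symm v) + φ (g.symm v) • g a
      rw [LinearEquiv.apply_symm_apply]
    obtain ⟨A, B, h5, h6⟩ := hchain _ _ t' h3 ht' hor
    have h7 : X ⊔ MulAut.conj (⟨g, hg⟩ : H) • X ≤ (chainSub A B).subgroupOf H := by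
      apply sup_le
      · rw [Subgroup.zpowers_le]
        exact h5
      · intro x hx
        rw [Cfsg.Agent.Lib.BaerSuzuki.mem_conj_smul_iff] at hx
        obtain ⟨n, hn⟩ := Subgroup.mem_zpowers_iff.mp hx
        have e : x = (⟨g, hg⟩ : H) * ⟨t, htH⟩ ^ n * (⟨g, hg⟩ : H)⁻¹ := by rw [hn]; group
        rw [e, ← conj_zpow]
        apply Subgroup.zpow_mem
        rw [Subgroup.mem_subgroupOf]
        change g * t * g⁻¹ ∈ chainSub A B
        rw [← ht'']
        exact h6
    exact ((chainSub_isPGroup hp A B).comap_of_injective H.subtype H.subtype_injective).to_le h7)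
  have h4 := Cfsg.Agent.Lib.AmalgamCharP.le_pCore hN1 hN2
  rw [hOp] at h4
  have h5 := h4 (hN3 (Subgroup.mem_zpowers (⟨t, htH⟩ : H)))
  rw [Subgroup.mem_bot] at h5
  have h6 : t = 1 := congrArg Subtype.val h5
  obtain ⟨v, hv⟩ : ∃ v, φ v ≠ 0 := by
    by_contra hcon
    push Not at hcon
    exact hφ0 (LinearMap.ext hcon)
  have h7 := ht v
  rw [h6] at h7
  have h8 : v = v + φ v • a := h7
  exact smul_ne_zero hv ha0 (left_eq_add.mp h8)

/-- transvections -/
theorem exists_form (hp : Odd p) [Finite V] {t : V ≃ₗ[ZMod p] V} (h1 : orderOf t = p)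
    (h2 : Module.finrank (ZMod p) ↥(LinearMap.ker ((t : V →ₗ[ZMod p] V) - LinearMap.id)) + 1 =
        Module.finrank (ZMod p) V) :
    ∃ (a : V) (φ : Dual (ZMod p) V), a ≠ 0 ∧ φ ≠ 0 ∧ φ a = 0 ∧ ∀ v, t v = v + φ v • a := by
  haveI : FiniteDimensional (ZMod p) V := finite_dim
  set D : V →ₗ[ZMod p] V := (t : V →ₗ[ZMod p] V) - LinearMap.id with hD
  have h3 := LinearMap.finrank_range_add_finrank_ker D
  have h4 : finrank (ZMod p) (LinearMap.range D) = 1 := by omega
  obtain ⟨⟨a, ha⟩, ha0, hspan⟩ := finrank_eq_one_iff'.mp h4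
  have ha0' : a ≠ 0 := fun h => ha0 (by ext1; exact h)
  -- a linear functional sending `a` to `1`
  obtain ⟨ℓ, hℓ⟩ : ∃ ℓ : Dual (ZMod p) V, ℓ a ≠ 0 := by
    by_contra hcon
    push Not at hcon
    exact ha0' ((Module.forall_dual_apply_eq_zero_iff (ZMod p) a).mp hcon)
  have hDv : ∀ v, D v = ((ℓ a)⁻¹ * ℓ (D v)) • a := by
    intro v
    obtain ⟨k, hk⟩ := hspan ⟨D v, ⟨v, rfl⟩⟩
    have hk' : k • a = D v := congrArg Subtype.val hk
    rw [← hk', map_smul, smul_eq_mul, mul_left_comm, inv_mul_cancel₀ hℓ, mul_one]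
  refine ⟨a, (ℓ a)⁻¹ • (ℓ ∘ₗ D), ha0', ?_, ?_, ?_⟩
  · intro h
    obtain ⟨v, hv⟩ := ha
    apply ha0'
    rw [← hv, hDv v]
    have : ((ℓ a)⁻¹ • (ℓ ∘ₗ D)) v = 0 := by rw [h]; rfl
    have h5 : (ℓ a)⁻¹ * ℓ (D v) = 0 := this
    rw [h5, zero_smul]
  · -- `t a = (1 + k) a` with `(1 + k)^p = 1`
    change (ℓ a)⁻¹ * ℓ (D a) = 0
    have h5 : t a = (1 + (ℓ a)⁻¹ * ℓ (D a)) • a := by
      have h6 := hDv a
      have h7 : D a = t a - a := rfl
      rw [h7] at h6 ⊢
      rw [add_smul, one_smul, ← h6]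
      abel
    generalize (ℓ a)⁻¹ * ℓ (D a) = k at h5
    have h6 : ∀ n : ℕ, (t ^ n) a = ((1 + k) ^ n) • a := by
      intro n
      induction n with
      | zero => simp
      | succ n ih => rw [pow_succ', LinearEquiv.mul_apply, ih, map_smul, h5, smul_smul, pow_succ]
    have h7 := h6 p
    have h70 : t ^ p = 1 := by
      have := pow_orderOf_eq_one t
      rwa [h1] at this
    rw [h70, ZMod.pow_card] at h7
    have h8 : (1 : V ≃ₗ[ZMod p] V) a = a := rfl
    rw [h8, add_smul, one_smul] at h7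
    have h9 := left_eq_add.mp h7
    rcases smul_eq_zero.mp h9 with h | h
    · exact h
    · exact absurd h ha0'
  · intro v
    have h5 := hDv v
    have h6 : D v = t v - v := rfl
    change t v = v + ((ℓ a)⁻¹ * ℓ (D v)) • a
    rw [← h5, h6]
    abel

/-- the action of the group preserves the components -/
theorem cen_inv [Finite V] (hP : Partner H) {x : V × Dual (ZMod p) V} (hx : Gm H x)
    {S : Set (V ≃ₗ[ZMod p] V)} (hS : H = Subgroup.closure S)
    (hform : ∀ t ∈ S, ∃ (a : V) (φ : Dual (ZMod p) V), a ≠ 0 ∧ φ ≠ 0 ∧ φ a = 0 ∧ ∀ v, t v = v + φ v • a)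
    {g : V ≃ₗ[ZMod p] V} (hg : g ∈ H) : ∀ b ∈ cen H x, g b ∈ cen H x := by
  have key : ∀ g ∈ H, ∀ b ∈ cen H x, g b ∈ cen H x ∧ g⁻¹ b ∈ cen H x := by
    intro g hg
    rw [hS] at hg
    induction hg using Subgroup.closure_induction with
    | mem t ht =>
      intro b hb
      obtain ⟨a, φ, ha0, hφ0, hφa, ht'⟩ := hform t ht
      have htH : t ∈ H := hS ▸ Subgroup.subset_closure ht
      have hT : T H a φ := ⟨hφa, t, htH, ht'⟩
      have hG : Gm H (a, φ) := ⟨ha0, hφ0, hT⟩
      have hinv : t⁻¹ b = b + (-φ) b • a := by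
        have : t (b + (-φ) b • a) = b := by
          rw [map_add, map_smul, ht', ht', hφa, zero_smul, add_zero, LinearMap.neg_apply, neg_smul]
          abel
        rw [← this]
        change t.symm (t _) = _
        rw [LinearEquiv.symm_apply_apply, this]
      by_cases hc : Conn H x (a, φ)
      · have ha : a ∈ cen H x := ⟨φ, hG, hc⟩
        refine ⟨?_, ?_⟩
        · rw [ht']
          exact (comp_cen hP hx).conj a ha φ hT b hb
        · rw [hinv]
          exact (comp_cen hP hx).conj a ha (-φ) ((MM H a).neg_mem hT) b hb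
      · obtain ⟨ψ, h1, h2⟩ := hb
        have h3 : φ b = 0 := perp_of_not_conn hP hG h1 (fun h => hc (h2.trans h.symm))
        rw [ht', hinv, LinearMap.neg_apply, h3, neg_zero, zero_smul, add_zero]
        exact ⟨⟨ψ, h1, h2⟩, ⟨ψ, h1, h2⟩⟩
    | one => intro b hb; exact ⟨hb, by rw [inv_one]; exact hb⟩
    | mul g h _ _ ihg ihh =>
      intro b hb
      exact ⟨(ihg _ (ihh b hb).1).1, by rw [mul_inv_rev]; exact (ihh _ (ihg b hb).2).2⟩
    | inv g _ ih =>
      intro b hb
      exact ⟨(ih b hb).2, by rw [inv_inv]; exact (ih b hb).1⟩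
  exact fun b hb => (key g hg b hb).1

/-- the chain hypothesis of the symplectic case -/
theorem chain_cen [Finite V] (hp : Odd p) (hOp : Cfsg.pCore p ↥H = ⊥) (hP : ∀ g ∈ H, ∀ b ∈ P, g b ∈ P) :
    ∀ g ∈ H, (∀ v, g v - v ∈ Submodule.span (ZMod p) P) →
      (∀ v ∈ Submodule.span (ZMod p) P, Fun.Rad H P (g v - v)) → (∀ v, Fun.Rad H P v → g v = v) → g = 1 := by
  intro g hg h1 h2 h3
  let B : Submodule (ZMod p) V :=
    { carrier := {v | Fun.Rad H P v}
      add_mem' := by
        rintro x y ⟨hx1, hx2⟩ ⟨hy1, hy2⟩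
        exact ⟨Submodule.add_mem _ hx1 hy1, fun a ha φ hφ => by rw [map_add, hx2 a ha φ hφ, hy2 a ha φ hφ, add_zero]⟩
      zero_mem' := ⟨Submodule.zero_mem _, fun a ha φ hφ => map_zero _⟩
      smul_mem' := by
        rintro c x ⟨hx1, hx2⟩
        exact ⟨Submodule.smul_mem _ _ hx1, fun a ha φ hφ => by rw [map_smul, hx2 a ha φ hφ, smul_zero]⟩ }
  have hA : ∀ k ∈ H, ∀ v ∈ Submodule.span (ZMod p) P, k v ∈ Submodule.span (ZMod p) P := by
    intro k hk v hv
    have h4 : Submodule.span (ZMod p) P ≤ (Submodule.span (ZMod p) P).comap (k : V →ₗ[ZMod p] V) := by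
      rw [Submodule.span_le]
      intro w hw
      exact Submodule.subset_span (hP k hk w hw)
    exact h4 hv
  refine chain_trivial (A := Submodule.span (ZMod p) P) (B := B) hp hOp hA ?_ hg h1 h2 h3
  rintro k hk v ⟨hv1, hv2⟩
  refine ⟨hA k hk v hv1, fun a ha φ hφ => ?_⟩
  have h5 := T.map hφ (inv_mem hk)
  have h6 := hv2 _ (hP _ (inv_mem hk) a ha) _ h5
  exact h6

end Cfsg.Agent.Lib.H50McL
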