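import Mathlib
import Cfsg.Agent.Lib.ClSLn

/-! Generation of special linear and symplectic groups by transvections (helper50). -/

set_option autoImplicit false

namespace Cfsg.Agent.Lib.H50McL

open Module Matrix

variable {F U : Type*} [Field F] [AddCommGroup U] [Module F U]

/-- `SL(U)` is generated by transvections -/
theorem sl_gen [FiniteDimensional F U] (S : Subgroup (U ≃ₗ[F] U))
    (h : ∀ (a : U) (ℓ : Dual F U), ℓ a = 0 → ∃ g ∈ S, ∀ v, g v = v + ℓ v • a)
    (f : U ≃ₗ[F] U) (hf : LinearMap.det (f : U →ₗ[F] U) = 1) : f ∈ S := by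
  classical
  set b := finBasis F U
  let T : Subgroup (SpecialLinearGroup (Fin (finrank F U)) F) :=
    { carrier := {A | ∃ g ∈ S, ∀ v, b.equivFun (g v) = (A : Matrix _ _ F) *ᵥ (b.equivFun v)}
      mul_mem' := by
        rintro A A' ⟨g, hg, h1⟩ ⟨g', hg', h2⟩
        refine ⟨g * g', mul_mem hg hg', fun v => ?_⟩
        rw [LinearEquiv.mul_apply, h1, h2, Matrix.mulVec_mulVec]
        rfl
      one_mem' := ⟨1, one_mem _, fun v => by simp⟩
      inv_mem' := by
        rintro A ⟨g, hg, h1⟩
        refine ⟨g⁻¹, inv_mem hg, fun v => ?_⟩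
        have h2 := h1 (g⁻¹ v)
        have h3 : g (g⁻¹ v) = v := g.apply_symm_apply v
        rw [h3] at h2
        rw [h2, Matrix.mulVec_mulVec]
        have h4 : (A⁻¹).1 * A.1 = 1 := by
          have := congrArg Subtype.val (inv_mul_cancel A)
          exact this
        change _ = ((A⁻¹).1 * A.1) *ᵥ _
        rw [h4, Matrix.one_mulVec] }
  have hT : T = ⊤ := by
    apply Cfsg.Agent.Lib.ClSLn.eq_top_of_transvection_mem
    intro i j hij c
    obtain ⟨g, hg, h1⟩ := h (b i) (c • b.coord j) (by
      rw [LinearMap.smul_apply, Basis.coord_apply, Basis.repr_self, Finsupp.single_apply, if_neg hij, smul_zero])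
    refine ⟨g, hg, fun v => ?_⟩
    rw [h1, map_add, map_smul]
    ext k
    simp only [Pi.add_apply, Pi.smul_apply, smul_eq_mul, LinearMap.smul_apply, Basis.coord_apply,
      Basis.equivFun_apply, Basis.repr_self, Finsupp.single_apply]
    rw [SpecialLinearGroup.transvection_coe, Matrix.add_mulVec, Matrix.one_mulVec, Pi.add_apply,
      Matrix.single_mulVec]
    by_cases hk : i = k
    · subst hk
      simp
    · simp [hk, Function.update_of_ne (Ne.symm hk)]
  have hA : (LinearMap.toMatrix b b (f : U →ₗ[F] U)).det = 1 := by rw [LinearMap.det_toMatrix, hf]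
  have h1 : (⟨_, hA⟩ : SpecialLinearGroup (Fin (finrank F U)) F) ∈ T := by rw [hT]; trivial
  obtain ⟨g, hg, h2⟩ := h1
  have h3 : g = f := by
    ext v
    apply b.equivFun.injective
    rw [h2 v]
    simp only [Basis.equivFun_apply]
    exact LinearMap.toMatrix_mulVec_repr b b (f : U →ₗ[F] U) v
  rwa [← h3]

section Symp

variable (B : LinearMap.BilinForm F U) (alt : ∀ x, B x x = 0) (nondeg : ∀ x, x ≠ 0 → ∃ y, B x y ≠ 0)

include alt in
theorem skew (x y : U) : B x y = - B y x := by
  have h1 := alt (x + y)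
  simp only [map_add, LinearMap.add_apply, alt, zero_add, add_zero] at h1
  exact eq_neg_of_add_eq_zero_right h1

include nondeg in
theorem common_ne {u v : U} (hu0 : u ≠ 0) (hv0 : v ≠ 0) : ∃ w, B u w ≠ 0 ∧ B v w ≠ 0 := by
  obtain ⟨w1, h1⟩ := nondeg u hu0
  by_cases h2 : B v w1 = 0
  · obtain ⟨w2, h3⟩ := nondeg v hv0
    by_cases h4 : B u w2 = 0
    · refine ⟨w1 + w2, ?_, ?_⟩
      · rw [map_add, h4, add_zero]; exact h1
      · rw [map_add, h2, zero_add]; exact h3
    · exact ⟨w2, h4, h3⟩
  · exact ⟨w1, h1, h2⟩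

variable (S : Subgroup (U ≃ₗ[F] U)) (h : ∀ (a : U) (c : F), ∃ g ∈ S, ∀ v, g v = v + (c * B a v) • a)

include alt h in
theorem sp_A {f : U ≃ₗ[F] U} (hf : ∀ x y, B (f x) (f y) = B x y) {u : U} (hu : B u (f u) ≠ 0) :
    ∃ t ∈ S, (∀ x y, B (t x) (t y) = B x y) ∧ (t * f) u = u ∧ ∀ x, f x = x → (t * f) x = x := by
  have h1 : B (f u - u) u ≠ 0 := by
    rw [map_sub, LinearMap.sub_apply, alt, sub_zero, skew B alt]
    exact neg_ne_zero.mpr hu
  obtain ⟨g, hg, hg'⟩ := h (f u - u) ((B (f u - u) u)⁻¹)
  have hiso : ∀ x y, B (g x) (g y) = B x y := by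
    intro x y
    rw [hg', hg']
    simp only [map_add, map_smul, LinearMap.add_apply, LinearMap.smul_apply, smul_eq_mul, alt]
    rw [skew B alt x (f u - u)]
    ring
  have hgu : g u = f u := by
    rw [hg', inv_mul_cancel₀ h1, one_smul]
    abel
  refine ⟨g⁻¹, inv_mem hg, ?_, ?_, ?_⟩
  · intro x y
    have e : ∀ x, g (g⁻¹ x) = x := fun x => g.apply_symm_apply x
    rw [← hiso (g⁻¹ x), e, e]
  · rw [LinearEquiv.mul_apply, ← hgu]
    exact g.symm_apply_apply u
  · intro x hx
    have h2 : g x = x := by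
      have h3 : B (f u - u) x = 0 := by
        rw [map_sub, LinearMap.sub_apply, sub_eq_zero]
        conv_lhs => rw [← hx]
        exact hf u x
      rw [hg', h3, mul_zero, zero_smul, add_zero]
    rw [LinearEquiv.mul_apply, hx]
    conv_lhs => rw [← h2]
    exact g.symm_apply_apply x

include alt nondeg h in
theorem sp_B {f : U ≃ₗ[F] U} (hf : ∀ x y, B (f x) (f y) = B x y) (hf1 : f ≠ 1) :
    ∃ t ∈ S, (∀ x y, B (t x) (t y) = B x y) ∧ ∃ u, f u ≠ u ∧ (t * f) u = u ∧ ∀ x, f x = x → (t * f) x = x := by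
  by_cases hc : ∃ u, B u (f u) ≠ 0
  · obtain ⟨u, hu⟩ := hc
    obtain ⟨t, ht, h1, h2, h3⟩ := sp_A B alt S h hf hu
    refine ⟨t, ht, h1, u, ?_, h2, h3⟩
    intro h4
    rw [h4, alt] at hu
    exact hu rfl
  · push Not at hc
    obtain ⟨v, hv⟩ : ∃ v, f v ≠ v := by
      by_contra hcon
      push Not at hcon
      exact hf1 (LinearEquiv.ext hcon)
    set w := f v - v with hw
    have hw0 : w ≠ 0 := sub_ne_zero.mpr hv
    have hfw0 : f⁻¹ w ≠ 0 := by
      intro h1
      apply hw0
      have h2 : f (f⁻¹ w) = w := f.apply_symm_apply w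
      rw [← h2, h1, map_zero]
    obtain ⟨u, hu1, hu2⟩ := common_ne B nondeg hfw0 hw0
    obtain ⟨t, ht, ht'⟩ := h w 1
    have hiso : ∀ x y, B (t x) (t y) = B x y := by
      intro x y
      rw [ht', ht']
      simp only [map_add, map_smul, LinearMap.add_apply, LinearMap.smul_apply, smul_eq_mul, alt]
      rw [skew B alt x w]
      ring
    have hwfu : B w (f u) ≠ 0 := by
      have h2 : f (f⁻¹ w) = w := f.apply_symm_apply w
      rw [← h2, hf]
      exact hu1
    have h1 : B u ((t * f) u) ≠ 0 := by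
      rw [LinearEquiv.mul_apply, ht', map_add, hc u, zero_add, map_smul, one_mul, smul_eq_mul, skew B alt u w]
      exact mul_ne_zero hwfu (neg_ne_zero.mpr hu2)
    have hwx : ∀ x, f x = x → B w x = 0 := by
      intro x hx
      rw [hw, map_sub, LinearMap.sub_apply, sub_eq_zero]
      conv_lhs => rw [← hx]
      exact hf v x
    have hfix : ∀ x, f x = x → (t * f) x = x := by
      intro x hx
      rw [LinearEquiv.mul_apply, hx, ht', hwx x hx, mul_zero, zero_smul, add_zero]
    obtain ⟨t', ht'S, h2, h3, h4⟩ := sp_A B alt S h (f := t * f) (fun x y => by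
      rw [LinearEquiv.mul_apply, LinearEquiv.mul_apply, hiso, hf]) h1
    refine ⟨t' * t, mul_mem ht'S ht, fun x y => by
      rw [LinearEquiv.mul_apply, LinearEquiv.mul_apply, h2, hiso], u, ?_, ?_, ?_⟩
    · intro h5
      exact hu2 (hwx u h5)
    · rw [mul_assoc]
      exact h3
    · intro x hx
      rw [mul_assoc]
      exact h4 x (hfix x hx)

include alt nondeg h in
/-- the isometry group of a nondegenerate alternating form is generated by transvections -/
theorem sp_gen [FiniteDimensional F U] (f : U ≃ₗ[F] U) (hf : ∀ x y, B (f x) (f y) = B x y) : f ∈ S := by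
  have key : ∀ (n : ℕ) (f : U ≃ₗ[F] U), (∀ x y, B (f x) (f y) = B x y) →
      finrank F U ≤ n + finrank F (LinearMap.ker ((f : U →ₗ[F] U) - LinearMap.id)) → f ∈ S := by
    intro n
    induction n with
    | zero =>
      intro f _ hn
      rw [zero_add] at hn
      have h1 := Submodule.eq_top_of_finrank_eq (le_antisymm (Submodule.finrank_le _) hn)
      have h2 : f = 1 := by
        ext v
        have h3 : v ∈ LinearMap.ker ((f : U →ₗ[F] U) - LinearMap.id) := by rw [h1]; trivial
        rw [LinearMap.mem_ker] at h3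
        exact sub_eq_zero.mp h3
      rw [h2]
      exact one_mem _
    | succ n ih =>
      intro f hf hn
      by_cases hf1 : f = 1
      · rw [hf1]; exact one_mem _
      obtain ⟨t, ht, h1, u, h2, h3, h4⟩ := sp_B B alt nondeg S h hf hf1
      have h5 : t * f ∈ S := by
        apply ih _ (fun x y => by rw [LinearEquiv.mul_apply, LinearEquiv.mul_apply, h1, hf])
        have h6 : LinearMap.ker ((f : U →ₗ[F] U) - LinearMap.id) <
            LinearMap.ker (((t * f : U ≃ₗ[F] U) : U →ₗ[F] U) - LinearMap.id) := by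
          refine lt_of_le_of_ne ?_ ?_
          · intro x hx
            rw [LinearMap.mem_ker] at hx ⊢
            exact sub_eq_zero.mpr (h4 x (sub_eq_zero.mp hx))
          · intro h7
            have h8 : u ∈ LinearMap.ker ((f : U →ₗ[F] U) - LinearMap.id) := by
              rw [h7, LinearMap.mem_ker]
              exact sub_eq_zero.mpr h3
            rw [LinearMap.mem_ker] at h8
            exact h2 (sub_eq_zero.mp h8)
        have h7 := Submodule.finrank_lt_finrank_of_lt h6
        omega
      have h6 : f = t⁻¹ * (t * f) := by group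
      rw [h6]
      exact mul_mem (inv_mem ht) h5
  exact key (finrank F U) f hf (Nat.le_add_right _ _)

end Symp

end Cfsg.Agent.Lib.H50McL
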