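import Cfsg.Agent.Lib.H50McL4
import Cfsg.Agent.Lib.H50McL5

/-! Groups generated by transvections over a prime field (helper50), part 6: assembly. -/

set_option autoImplicit false

namespace Cfsg.Agent.Lib.H50McL

open Module

variable {p : ℕ} [Fact p.Prime] {V : Type*} [AddCommGroup V] [Module (ZMod p) V]
variable {H : Subgroup (V ≃ₗ[ZMod p] V)} {P : Set V} {a b c : V} {φ ψ : Dual (ZMod p) V}

/-- what a direct factor does -/
def Typ (U : Submodule (ZMod p) V) (K : Subgroup (V ≃ₗ[ZMod p] V)) : Prop :=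
  ((∀ f : U ≃ₗ[ZMod p] U, LinearMap.det (f : U →ₗ[ZMod p] U) = 1 → ∃ h ∈ K, ∀ v : U, (h v : V) = f v) ∧
    (∀ h ∈ K, ∀ f : U ≃ₗ[ZMod p] U, (∀ v : U, (h v : V) = f v) → LinearMap.det (f : U →ₗ[ZMod p] U) = 1)) ∨
  ∃ B : LinearMap.BilinForm (ZMod p) U, B.IsAlt ∧ B.Nondegenerate ∧
    (∀ f : U ≃ₗ[ZMod p] U, (∀ x y, B (f x) (f y) = B x y) → ∃ h ∈ K, ∀ v : U, (h v : V) = f v) ∧
    (∀ h ∈ K, ∀ f : U ≃ₗ[ZMod p] U, (∀ v : U, (h v : V) = f v) → ∀ x y, B (f x) (f y) = B x y)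

/-- a direct factor with its support -/
structure Good (H : Subgroup (V ≃ₗ[ZMod p] V)) (U W : Submodule (ZMod p) V) (K : Subgroup (V ≃ₗ[ZMod p] V)) :
    Prop where
  le : K ≤ H
  compl : IsCompl U W
  fixW : ∀ h ∈ K, ∀ v ∈ W, h v = v
  stab : ∀ h ∈ H, ∀ v ∈ U, h v ∈ U
  stabW : ∀ h ∈ H, ∀ v ∈ W, h v ∈ W
  normal : ∀ h ∈ H, ∀ k ∈ K, h * k * h⁻¹ ∈ K
  typ : Typ U K

theorem map_eq {U : Submodule (ZMod p) V} (hU : ∀ h ∈ H, ∀ v ∈ U, h v ∈ U) {h : V ≃ₗ[ZMod p] V} (hh : h ∈ H) :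
    U.map (h : V →ₗ[ZMod p] V) = U := by
  apply le_antisymm
  · rintro _ ⟨v, hv, rfl⟩
    exact hU h hh v hv
  · intro v hv
    exact ⟨h⁻¹ v, hU _ (inv_mem hh) v hv, h.apply_symm_apply v⟩

theorem exists_rest {U : Submodule (ZMod p) V} (hU : ∀ h ∈ H, ∀ v ∈ U, h v ∈ U) {h : V ≃ₗ[ZMod p] V} (hh : h ∈ H) :
    ∃ f : U ≃ₗ[ZMod p] U, ∀ v : U, (h v : V) = f v :=
  ⟨LinearEquiv.ofSubmodules h U U (map_eq hU hh), fun v => rfl⟩

theorem good_none (H : Subgroup (V ≃ₗ[ZMod p] V)) : Good H ⊥ ⊤ ⊥ where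
  le := bot_le
  compl := isCompl_bot_top
  fixW := by
    intro h hh v _
    rw [Subgroup.mem_bot] at hh
    rw [hh]; rfl
  stab := by
    intro h _ v hv
    rw [Submodule.mem_bot] at hv ⊢
    rw [hv, map_zero]
  stabW := fun _ _ _ _ => trivial
  normal := by
    intro h _ k hk
    rw [Subgroup.mem_bot] at hk ⊢
    rw [hk]; group
  typ := by
    left
    refine ⟨fun f _ => ⟨1, one_mem _, fun v => ?_⟩, fun h _ f _ => ?_⟩
    · have : v = 0 := Subsingleton.elim _ _
      rw [this]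
      simp
    · have : f = 1 := Subsingleton.elim _ _
      rw [this]
      exact LinearMap.det_id

/-- the group of a component -/
def KK (H : Subgroup (V ≃ₗ[ZMod p] V)) (P : Set V) : Subgroup (V ≃ₗ[ZMod p] V) :=
  Subgroup.closure {t | ∃ a ∈ P, ∃ φ ∈ MM H a, ∀ v, t v = v + φ v • a}

theorem KK_le : KK H P ≤ H := by
  rw [KK, Subgroup.closure_le]
  rintro t ⟨a, _, φ, ⟨_, g, hg, h1⟩, ht⟩
  have : t = g := by
    ext v
    rw [ht, h1]
  rw [this]
  exact hg

theorem mem_KK (ha : a ∈ P) (hφ : φ ∈ MM H a) {t : V ≃ₗ[ZMod p] V} (ht : ∀ v, t v = v + φ v • a) : t ∈ KK H P :=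
  Subgroup.subset_closure ⟨a, ha, φ, hφ, ht⟩

theorem exists_KK (ha : a ∈ P) (hφ : φ ∈ MM H a) : ∃ t ∈ KK H P, ∀ v, t v = v + φ v • a := by
  have hφ' := hφ
  obtain ⟨_, g, _, h1⟩ := hφ
  exact ⟨g, mem_KK ha hφ' h1, h1⟩

variable [Finite V]

/-- restriction of the factor to its support -/
def SS (U : Submodule (ZMod p) V) (K : Subgroup (V ≃ₗ[ZMod p] V)) : Subgroup (U ≃ₗ[ZMod p] U) where
  carrier := {f | ∃ h ∈ K, ∀ v : U, (h v : V) = f v}
  mul_mem' := by
    rintro f g ⟨h, hh, h1⟩ ⟨k, hk, h2⟩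
    refine ⟨h * k, mul_mem hh hk, fun v => ?_⟩
    rw [LinearEquiv.mul_apply, h2, h1]
    rfl
  one_mem' := ⟨1, one_mem _, fun v => rfl⟩
  inv_mem' := by
    rintro f ⟨h, hh, h1⟩
    refine ⟨h⁻¹, inv_mem hh, fun v => ?_⟩
    have h2 := h1 (f⁻¹ v)
    have h3 : f (f⁻¹ v) = v := f.apply_symm_apply v
    rw [h3] at h2
    rw [← h2]
    exact h.symm_apply_apply _

theorem good_of_comp {U : Submodule (ZMod p) V} {X : Submodule (ZMod p) (Dual (ZMod p) V)} (hC : Comp H P)
    (hP : ∀ g ∈ H, ∀ b ∈ P, g b ∈ P) (h : Comp2 H P U X) (ht : Typ U (KK H P)) :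
    Good H U X.dualCoannihilator (KK H P) where
  le := KK_le
  compl := Comp2.isCompl hC h
  fixW := by
    intro k hk v hv
    rw [KK] at hk
    induction hk using Subgroup.closure_induction with
    | mem t ht =>
      obtain ⟨a, ha, φ, hφ, ht⟩ := ht
      rw [ht, (Submodule.mem_dualCoannihilator v).mp hv φ (h.le_X a ha hφ), zero_smul, add_zero]
    | one => rfl
    | mul g k _ _ ihg ihk => rw [LinearEquiv.mul_apply, ihk, ihg]
    | inv g _ ih =>
      conv_lhs => rw [← ih]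
      exact g.symm_apply_apply v
  stab := by
    intro g hg v hv
    rcases (h.mem_U v).mp hv with rfl | hv
    · rw [map_zero]; exact U.zero_mem
    · exact (h.mem_U _).mpr (Or.inr (hP g hg v hv))
  stabW := by
    intro g hg v hv
    rw [Submodule.mem_dualCoannihilator] at hv ⊢
    intro φ hφ
    by_cases hφ0 : φ = 0
    · rw [hφ0]; rfl
    · obtain ⟨a, ha, hφa⟩ := h.axis_X φ hφ hφ0
      have h1 := T.map hφa (inv_mem hg)
      exact hv _ (h.le_X _ (hP _ (inv_mem hg) a ha) h1)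
  normal := by
    intro g hg k hk
    rw [KK] at hk
    induction hk using Subgroup.closure_induction with
    | mem t ht =>
      obtain ⟨a, ha, φ, hφ, ht⟩ := ht
      refine mem_KK (hP g hg a ha) (T.map hφ hg) fun v => ?_
      rw [LinearEquiv.mul_apply, LinearEquiv.mul_apply, ht, map_add, map_smul]
      have e : g⁻¹ v = g.symm v := rfl
      rw [e, LinearEquiv.apply_symm_apply]
      rfl
    | one => rw [mul_one, mul_inv_cancel]; exact one_mem _
    | mul x y _ _ ihx ihy =>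
      have : g * (x * y) * g⁻¹ = (g * x * g⁻¹) * (g * y * g⁻¹) := by group
      rw [this]
      exact mul_mem ihx ihy
    | inv x _ ih =>
      have : g * x⁻¹ * g⁻¹ = (g * x * g⁻¹)⁻¹ := by group
      rw [this]
      exact inv_mem ih
  typ := ht

theorem exists_trans {U : Submodule (ZMod p) V} {X : Submodule (ZMod p) (Dual (ZMod p) V)} (hC : Comp H P)
    (h : Comp2 H P U X) (ℓ : Dual (ZMod p) U) : ∃ φ ∈ X, ∀ x : U, φ x = ℓ x := by
  have hc := Comp2.isCompl hC h
  refine ⟨ℓ ∘ₗ (U.projectionOnto X.dualCoannihilator hc), ?_, fun x => ?_⟩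
  · rw [Comp2.mem_X_iff (U := U)]
    intro v hv
    have := (Submodule.projectionOnto_apply_eq_zero_iff hc).mpr hv
    rw [LinearMap.comp_apply, this, map_zero]
  · rw [LinearMap.comp_apply, Submodule.projectionOnto_apply_left]

theorem typ_asym {U : Submodule (ZMod p) V} {X : Submodule (ZMod p) (Dual (ZMod p) V)} (hC : Comp H P)
    (hP : ∀ g ∈ H, ∀ b ∈ P, g b ∈ P) (h : Comp2 H P U X) (hX : ∀ a ∈ P, ∀ φ ∈ X, φ a = 0 → φ ∈ MM H a) :
    Typ U (KK H P) := by
  haveI : FiniteDimensional (ZMod p) V := finite_dim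
  have hstab : ∀ g ∈ H, ∀ v ∈ U, g v ∈ U := by
    intro g hg v hv
    rcases (h.mem_U v).mp hv with rfl | hv
    · rw [map_zero]; exact U.zero_mem
    · exact (h.mem_U _).mpr (Or.inr (hP g hg v hv))
  left
  refine ⟨fun f hf => ?_, fun k hk => ?_⟩
  · refine sl_gen (SS U (KK H P)) ?_ f hf
    intro a ℓ hℓ
    obtain ⟨φ, hφ, hφ'⟩ := exists_trans hC h ℓ
    rcases (h.mem_U a).mp a.2 with ha | ha
    · refine ⟨1, one_mem _, fun v => ?_⟩
      have : a = 0 := Subtype.ext ha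
      rw [this, smul_zero, add_zero]
      rfl
    · obtain ⟨t, ht, ht'⟩ := exists_KK ha (hX a ha φ hφ (by rw [hφ', hℓ]))
      obtain ⟨g, hg⟩ := exists_rest hstab (KK_le ht)
      refine ⟨g, ⟨t, ht, hg⟩, fun v => ?_⟩
      ext1
      rw [← hg, ht', hφ']
      rfl
  · rw [KK] at hk
    induction hk using Subgroup.closure_induction with
    | mem t ht =>
      intro f hf
      obtain ⟨a, ha, φ, hφ, ht⟩ := ht
      have haU : a ∈ U := (h.mem_U a).mpr (Or.inr ha)
      have h1 : (φ ∘ₗ U.subtype) ⟨a, haU⟩ = 0 := (mem_MM.mp hφ).1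
      have h2 : f = LinearEquiv.transvection h1 := by
        ext v
        rw [← hf, ht]
        rfl
      rw [h2, ← LinearEquiv.coe_det, LinearEquiv.transvection.det_eq_one, Units.val_one]
    | one =>
      intro f hf
      have : f = 1 := by
        ext v
        rw [← hf]; rfl
      rw [this]
      exact LinearMap.det_id
    | mul x y hx hy ihx ihy =>
      intro f hf
      obtain ⟨fx, hfx⟩ := exists_rest hstab (KK_le hx)
      obtain ⟨fy, hfy⟩ := exists_rest hstab (KK_le hy)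
      have : (f : U →ₗ[ZMod p] U) = (fx : U →ₗ[ZMod p] U) * (fy : U →ₗ[ZMod p] U) := by
        ext v
        change ((f v : U) : V) = fx (fy v)
        rw [← hf, ← hfx, ← hfy]
        rfl
      rw [this, map_mul, ihx fx hfx, ihy fy hfy, mul_one]
    | inv x hx ih =>
      intro f hf
      obtain ⟨fx, hfx⟩ := exists_rest hstab (KK_le hx)
      have : (f : U →ₗ[ZMod p] U) * (fx : U →ₗ[ZMod p] U) = 1 := by
        ext v
        change ((f (fx v) : U) : V) = v
        rw [← hf, ← hfx]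
        exact x.symm_apply_apply _
      have h3 := congrArg LinearMap.det this
      rw [map_mul, ih fx hfx, mul_one, map_one] at h3
      exact h3

theorem typ_symp {U : Submodule (ZMod p) V} {X : Submodule (ZMod p) (Dual (ZMod p) V)} (hC : Comp H P)
    (hP : ∀ g ∈ H, ∀ b ∈ P, g b ∈ P) (h : Comp2 H P U X) {B : LinearMap.BilinForm (ZMod p) U}
    (hB : SympData H P U X B) : Typ U (KK H P) := by
  haveI : FiniteDimensional (ZMod p) V := finite_dim
  have hstab : ∀ g ∈ H, ∀ v ∈ U, g v ∈ U := by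
    intro g hg v hv
    rcases (h.mem_U v).mp hv with rfl | hv
    · rw [map_zero]; exact U.zero_mem
    · exact (h.mem_U _).mpr (Or.inr (hP g hg v hv))
  right
  refine ⟨B, hB.alt, ⟨?_, ?_⟩, fun f hf => ?_, fun k hk => ?_⟩
  · intro x hx
    by_contra hx0
    obtain ⟨y, hy⟩ := hB.nondeg x hx0
    exact hy (hx y)
  · intro x hx
    by_contra hx0
    obtain ⟨y, hy⟩ := hB.nondeg x hx0
    apply hy
    rw [skew B hB.alt, hx y, neg_zero]
  · refine sp_gen B hB.alt hB.nondeg (SS U (KK H P)) ?_ f hf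
    intro a c
    obtain ⟨φ, hφ, hφ'⟩ := exists_trans hC h (B a)
    rcases (h.mem_U a).mp a.2 with ha | ha
    · refine ⟨1, one_mem _, fun v => ?_⟩
      have : a = 0 := Subtype.ext ha
      rw [this, smul_zero, add_zero]
      rfl
    · obtain ⟨t, ht, ht'⟩ := exists_KK ha ((MM H (a : V)).smul_mem c (hB.mem a φ hφ hφ'))
      obtain ⟨g, hg⟩ := exists_rest hstab (KK_le ht)
      refine ⟨g, ⟨t, ht, hg⟩, fun v => ?_⟩
      ext1
      rw [← hg, ht', LinearMap.smul_apply, hφ']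
      rfl
  · rw [KK] at hk
    induction hk using Subgroup.closure_induction with
    | mem t ht =>
      intro f hf x y
      obtain ⟨a, ha, φ, hφ, ht⟩ := ht
      have haU : a ∈ U := (h.mem_U a).mpr (Or.inr ha)
      obtain ⟨k, hk⟩ := hB.of_mem ⟨a, haU⟩ ha φ hφ
      have h2 : ∀ v, f v = v + (k * B ⟨a, haU⟩ v) • ⟨a, haU⟩ := by
        intro v
        ext1
        rw [← hf, ht, hk]
        rfl
      rw [h2, h2]
      simp only [map_add, map_smul, LinearMap.add_apply, LinearMap.smul_apply, smul_eq_mul, hB.alt]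
      rw [skew B hB.alt x ⟨a, haU⟩]
      ring
    | one =>
      intro f hf x y
      have : f = 1 := by
        ext v
        rw [← hf]; rfl
      rw [this]
      rfl
    | mul g k hg hk ihg ihk =>
      intro f hf x y
      obtain ⟨fx, hfx⟩ := exists_rest hstab (KK_le hg)
      obtain ⟨fy, hfy⟩ := exists_rest hstab (KK_le hk)
      have h3 : ∀ v, f v = fx (fy v) := by
        intro v
        ext1
        rw [← hf, ← hfx, ← hfy]
        rfl
      rw [h3, h3, ihg fx hfx, ihk fy hfy]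
    | inv g hg ih =>
      intro f hf x y
      obtain ⟨fx, hfx⟩ := exists_rest hstab (KK_le hg)
      have h3 : ∀ v, fx (f v) = v := by
        intro v
        ext1
        rw [← hfx, ← hf]
        exact g.apply_symm_apply _
      rw [← ih fx hfx, h3, h3]

/-- assembly -/
theorem assemble (n : ℕ) (hn : 1 ≤ n) (U W : Fin n → Submodule (ZMod p) V) (K : Fin n → Subgroup (V ≃ₗ[ZMod p] V))
    (hG : ∀ j, Good H (U j) (W j) (K j)) (hUW : ∀ i j, i ≠ j → U i ≤ W j) (hK : ⨆ j, K j = H) :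
    ∃ (n : ℕ) (W : Fin (n + 1) → Submodule (ZMod p) V) (K : Fin n → Subgroup (V ≃ₗ[ZMod p] V)),
      1 ≤ n ∧ DirectSum.IsInternal W ∧
      (∀ h ∈ H, ∀ i, (W i).map (h : V →ₗ[ZMod p] V) = W i) ∧
      (∀ j, K j ≤ H ∧ ((K j).subgroupOf H).Normal) ∧ ⨆ j, K j = H ∧
      (∀ j, K j ⊓ (⨆ j' ∈ {j' : Fin n | j' ≠ j}, K j') = ⊥) ∧
      (∀ j j', j ≠ j' → ∀ a ∈ K j, ∀ b ∈ K j', a * b = b * a) ∧
      (∀ j, ∀ h ∈ K j, ∀ i : Fin (n + 1), i ≠ j.succ → ∀ v ∈ W i, h v = v) ∧
      (∀ j, ∃ ρ : ↥(K j) →* (↥(W j.succ) ≃ₗ[ZMod p] ↥(W j.succ)),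
        (∀ (h : ↥(K j)) (v : ↥(W j.succ)), ((ρ h v : ↥(W j.succ)) : V) = (h : V ≃ₗ[ZMod p] V) (v : V)) ∧
        ((ρ.range : Set (↥(W j.succ) ≃ₗ[ZMod p] ↥(W j.succ))) =
            {f : ↥(W j.succ) ≃ₗ[ZMod p] ↥(W j.succ) | LinearMap.det (f : ↥(W j.succ) →ₗ[ZMod p] ↥(W j.succ)) = 1} ∨
          ∃ B : LinearMap.BilinForm (ZMod p) ↥(W j.succ), B.IsAlt ∧ B.Nondegenerate ∧
            (ρ.range : Set (↥(W j.succ) ≃ₗ[ZMod p] ↥(W j.succ))) = {f : ↥(W j.succ) ≃ₗ[ZMod p] ↥(W j.succ) | ∀ x y, B (f x) (f y) = B x y})) := by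
  classical
  haveI : FiniteDimensional (ZMod p) V := finite_dim
  have hfix : ∀ j, ∀ x ∈ (⨆ j' ∈ {j' : Fin n | j' ≠ j}, K j'), ∀ v ∈ U j, x v = v := by
    intro j x hx v hv
    have h1 : (⨆ j' ∈ {j' : Fin n | j' ≠ j}, K j') ≤ fixingSubgroup (V ≃ₗ[ZMod p] V) (U j : Set V) := by
      refine iSup₂_le fun j' hj' => ?_
      intro y hy
      rw [mem_fixingSubgroup_iff]
      intro v hv
      exact (hG j').fixW y hy v (hUW j j' (Ne.symm hj') hv)
    have h2 := h1 hx
    rw [mem_fixingSubgroup_iff] at h2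
    exact h2 v hv
  have hdec : ∀ j (v : V), ∃ u ∈ U j, ∃ w ∈ W j, v = u + w := by
    intro j v
    have h1 : v ∈ U j ⊔ W j := by rw [(hG j).compl.sup_eq_top]; trivial
    obtain ⟨u, hu, w, hw, h2⟩ := Submodule.mem_sup.mp h1
    exact ⟨u, hu, w, hw, h2.symm⟩
  have hsum : ∀ (u : Fin n → V), (∀ j, u j ∈ U j) → ∀ k, (∑ j, u j) - u k ∈ W k := by
    intro u hu k
    rw [← Finset.sum_erase_add _ _ (Finset.mem_univ k), add_sub_cancel_right]
    exact Submodule.sum_mem _ fun j hj => hUW j k (Finset.ne_of_mem_erase hj) (hu j)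
  let W' : Fin (n + 1) → Submodule (ZMod p) V := Fin.cons (⨅ j, W j) U
  have hW'0 : W' 0 = ⨅ j, W j := rfl
  have hW's : ∀ j : Fin n, W' j.succ = U j := fun j => rfl
  refine ⟨n, W', K, hn, ?_, ?_, ?_, hK, ?_, ?_, ?_, ?_⟩
  · rw [DirectSum.isInternal_submodule_iff_iSupIndep_and_iSup_eq_top]
    constructor
    · intro i
      refine Fin.cases ?_ (fun k => ?_) i
      · rw [hW'0, Submodule.disjoint_def]
        intro x hx hx'
        have h1 : (⨆ j, ⨆ (_ : j ≠ (0 : Fin (n + 1))), W' j) ≤ ⨆ j, U j := by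
          refine iSup₂_le fun j hj => ?_
          obtain ⟨k, rfl⟩ := Fin.exists_succ_eq.mpr hj
          rw [hW's]
          exact le_iSup U k
        obtain ⟨u, hu, hux⟩ := (Submodule.mem_iSup_iff_exists_finsupp U x).mp (h1 hx')
        have hux' : ∑ j, u j = x := by
          rw [← hux, Finsupp.sum_fintype]
          intro _; rfl
        have h2 : ∀ k, u k = 0 := by
          intro k
          have h3 := hsum u hu k
          have h4 : u k ∈ W k := by
            have h5 : u k = x - (∑ j, u j - u k) := by rw [hux']; abel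
            rw [h5]
            exact Submodule.sub_mem _ ((Submodule.mem_iInf _).mp hx k) h3
          exact Submodule.disjoint_def.mp (hG k).compl.disjoint _ (hu k) h4
        rw [← hux']
        exact Finset.sum_eq_zero fun k _ => h2 k
      · rw [hW's]
        refine (hG k).compl.disjoint.mono_right (iSup₂_le fun j hj => ?_)
        revert hj
        refine Fin.cases ?_ (fun l => ?_) j
        · intro _
          rw [hW'0]
          exact iInf_le _ k
        · intro hj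
          rw [hW's]
          exact hUW l k (fun h => hj (by rw [h]))
    · rw [eq_top_iff]
      intro v _
      choose u hu w hw hv using fun j => hdec j v
      have h1 : v - ∑ j, u j ∈ W' 0 := by
        rw [hW'0, Submodule.mem_iInf]
        intro k
        have h2 := hsum u hu k
        have h3 : v - ∑ j, u j = w k - (∑ j, u j - u k) := by
          conv_lhs => rw [hv k]
          abel
        rw [h3]
        exact Submodule.sub_mem _ (hw k) h2
      have h2 : v = (v - ∑ j, u j) + ∑ j, u j := by abel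
      rw [h2]
      refine Submodule.add_mem _ ((le_iSup W' 0) h1) (Submodule.sum_mem _ fun j _ => ?_)
      exact (le_iSup W' j.succ) (by rw [hW's]; exact hu j)
  · intro h hh i
    refine map_eq ?_ hh
    refine Fin.cases ?_ (fun k => ?_) i
    · intro g hg v hv
      rw [hW'0, Submodule.mem_iInf] at hv ⊢
      exact fun k => (hG k).stabW g hg v (hv k)
    · rw [hW's]
      exact (hG k).stab
  · intro j
    refine ⟨(hG j).le, ⟨?_⟩⟩
    rintro ⟨k, hk⟩ hk' ⟨h, hh⟩
    rw [Subgroup.mem_subgroupOf] at hk' ⊢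
    exact (hG j).normal h hh k hk'
  · intro j
    rw [eq_bot_iff]
    rintro x ⟨hx1, hx2⟩
    rw [Subgroup.mem_bot]
    ext v
    obtain ⟨u, hu, w, hw, rfl⟩ := hdec j v
    rw [map_add, hfix j x hx2 u hu, (hG j).fixW x hx1 w hw]
    rfl
  · intro i j hij a ha b hb
    ext v
    obtain ⟨u, hu, w, hw, rfl⟩ := hdec i v
    have h1 : b u = u := (hG j).fixW b hb u (hUW i j hij hu)
    have h2 : b (a u) = a u := (hG j).fixW b hb _ (hUW i j hij ((hG i).stab a ((hG i).le ha) u hu))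
    have h3 : a w = w := (hG i).fixW a ha w hw
    have h4 : a (b w) = b w := (hG i).fixW a ha _ ((hG i).stabW b ((hG j).le hb) w hw)
    rw [LinearEquiv.mul_apply, LinearEquiv.mul_apply, map_add, map_add, map_add, map_add, h1, h2, h3, h4]
  · intro j h hh i
    refine Fin.cases ?_ (fun k => ?_) i
    · intro _ v hv
      rw [hW'0, Submodule.mem_iInf] at hv
      exact (hG j).fixW h hh v (hv j)
    · intro hk v hv
      rw [hW's] at hv
      exact (hG j).fixW h hh v (hUW k j (fun h => hk (by rw [h])) hv)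
  · intro j
    change ∃ ρ : ↥(K j) →* (↥(U j) ≃ₗ[ZMod p] ↥(U j)),
        (∀ (h : ↥(K j)) (v : ↥(U j)), ((ρ h v : ↥(U j)) : V) = (h : V ≃ₗ[ZMod p] V) (v : V)) ∧
        ((ρ.range : Set (↥(U j) ≃ₗ[ZMod p] ↥(U j))) =
            {f : ↥(U j) ≃ₗ[ZMod p] ↥(U j) | LinearMap.det (f : ↥(U j) →ₗ[ZMod p] ↥(U j)) = 1} ∨
          ∃ B : LinearMap.BilinForm (ZMod p) ↥(U j), B.IsAlt ∧ B.Nondegenerate ∧
            (ρ.range : Set (↥(U j) ≃ₗ[ZMod p] ↥(U j))) = {f : ↥(U j) ≃ₗ[ZMod p] ↥(U j) | ∀ x y, B (f x) (f y) = B x y})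
    let ρ : ↥(K j) →* (↥(U j) ≃ₗ[ZMod p] ↥(U j)) :=
      { toFun := fun h => LinearEquiv.ofSubmodules (h : V ≃ₗ[ZMod p] V) (U j) (U j)
          (map_eq (hG j).stab ((hG j).le h.2))
        map_one' := by ext v; rfl
        map_mul' := fun x y => by ext v; rfl }
    have hρ : ∀ (h : ↥(K j)) (v : ↥(U j)), ((ρ h v : ↥(U j)) : V) = (h : V ≃ₗ[ZMod p] V) (v : V) :=
      fun h v => rfl
    have hr : ∀ f : ↥(U j) ≃ₗ[ZMod p] ↥(U j), f ∈ (ρ.range : Set (↥(U j) ≃ₗ[ZMod p] ↥(U j))) ↔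
        ∃ h ∈ K j, ∀ v : U j, (h v : V) = f v := by
      intro f
      constructor
      · rintro ⟨h, rfl⟩
        exact ⟨h, h.2, fun v => (hρ h v).symm⟩
      · rintro ⟨h, hh, h1⟩
        refine ⟨⟨h, hh⟩, ?_⟩
        ext v
        rw [hρ, ← h1]
    refine ⟨ρ, hρ, ?_⟩
    rcases (hG j).typ with ⟨h1, h2⟩ | ⟨B, hB1, hB2, h1, h2⟩
    · left
      ext f
      rw [hr]
      constructor
      · rintro ⟨h, hh, h3⟩
        exact h2 h hh f h3
      · intro hf
        exact h1 f hf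
    · right
      refine ⟨B, hB1, hB2, ?_⟩
      ext f
      rw [hr]
      constructor
      · rintro ⟨h, hh, h3⟩
        exact h2 h hh f h3
      · intro hf
        exact h1 f hf

end Cfsg.Agent.Lib.H50McL
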