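import Mathlib

/-! Doubly transitive groups whose point stabilizer has an abelian normal subgroup which is not
semiregular on the remaining points (helper50), part 1: TI property, lines. -/

set_option autoImplicit false

namespace Cfsg.Agent.Lib.H50ON

variable {G Ω : Type*} [Group G] [MulAction G Ω]

/-- the data: a conjugation invariant family of elementary abelian normal subgroups of the point stabilizers -/
structure Dat (E : Ω → Subgroup G) (r : ℕ) : Prop where
  prime : r.Prime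
  conj : ∀ (g : G) (a : Ω) (x : G), x ∈ E a → g * x * g⁻¹ ∈ E (g • a)
  fix : ∀ (a : Ω) (x : G), x ∈ E a → x • a = a
  comm : ∀ (a : Ω) (x y : G), x ∈ E a → y ∈ E a → x * y = y * x
  pow : ∀ (a : Ω) (x : G), x ∈ E a → x ^ r = 1
  two : ∀ a b c d : Ω, a ≠ b → c ≠ d → ∃ g : G, g • a = c ∧ g • b = d
  faith : ∀ g : G, (∀ a : Ω, g • a = a) → g = 1
  ns : ∀ a b : Ω, a ≠ b → ∃ x ∈ E a, x ≠ 1 ∧ x • b = b

theorem card_conj (H K : Subgroup G) (g : G) (h : ∀ x ∈ H, g * x * g⁻¹ ∈ K)
    (h' : ∀ x ∈ K, g⁻¹ * x * g ∈ H) : Nat.card H = Nat.card K :=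
  Nat.card_congr
    { toFun := fun x => ⟨g * x * g⁻¹, h _ x.2⟩
      invFun := fun x => ⟨g⁻¹ * x * g, h' _ x.2⟩
      left_inv := fun x => by ext; simp [mul_assoc]
      right_inv := fun x => by ext; simp [mul_assoc] }

theorem exists_fixed [Finite G] {r : ℕ} (hr : r.Prime) (u : G) (hu : u ^ r = 1) (A : Subgroup G)
    (hA : ∀ v ∈ A, u * v * u⁻¹ ∈ A) (hp : ∀ v ∈ A, v ^ r = 1) (h1 : ∃ v ∈ A, v ≠ 1) :
    ∃ v ∈ A, v ≠ 1 ∧ u * v = v * u := by
  classical
  haveI := Fact.mk hr
  have hpw : ∀ (k : ℕ), ∀ v ∈ A, u ^ k * v * (u ^ k)⁻¹ ∈ A := by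
    intro k
    induction k with
    | zero => intro v hv; simpa using hv
    | succ k ih =>
      intro v hv
      have := hA _ (ih v hv)
      have e : u ^ (k + 1) * v * (u ^ (k + 1))⁻¹ = u * (u ^ k * v * (u ^ k)⁻¹) * u⁻¹ := by
        rw [pow_succ']; group
      rwa [e]
  have hz : ∀ g ∈ Subgroup.zpowers u, ∀ v ∈ A, g * v * g⁻¹ ∈ A := by
    intro g hg v hv
    rw [mem_zpowers_iff_mem_range_orderOf, Finset.mem_image] at hg
    obtain ⟨k, -, rfl⟩ := hg
    exact hpw k v hv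
  letI : MulAction (Subgroup.zpowers u) A :=
    { smul := fun g v => ⟨g * v * (g : G)⁻¹, hz g g.2 v v.2⟩
      one_smul := fun v => by
        apply Subtype.ext
        show ((1 : Subgroup.zpowers u) : G) * v * ((1 : Subgroup.zpowers u) : G)⁻¹ = v
        simp
      mul_smul := fun g h v => by
        apply Subtype.ext
        show ((g * h : Subgroup.zpowers u) : G) * v * ((g * h : Subgroup.zpowers u) : G)⁻¹
          = g * (h * v * (h : G)⁻¹) * (g : G)⁻¹
        push_cast
        group }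
  have hP : IsPGroup r (Subgroup.zpowers u) := by
    intro g
    refine ⟨1, ?_⟩
    have hg := g.2
    rw [mem_zpowers_iff_mem_range_orderOf, Finset.mem_image] at hg
    obtain ⟨k, -, hk⟩ := hg
    apply Subtype.ext
    rw [pow_one, Subgroup.coe_pow, ← hk, ← pow_mul, mul_comm, pow_mul, hu, one_pow]
    rfl
  have hPA : IsPGroup r A := fun v => ⟨1, Subtype.ext (by rw [pow_one, Subgroup.coe_pow, hp v v.2]; rfl)⟩
  have hdvd : r ∣ Nat.card A := by
    obtain ⟨v, hv, hv1⟩ := h1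
    have : orderOf (⟨v, hv⟩ : A) = r := by
      apply orderOf_eq_prime
      · exact Subtype.ext (by rw [Subgroup.coe_pow, hp v hv]; rfl)
      · intro h
        exact hv1 (congrArg Subtype.val h)
    rw [← this]
    exact orderOf_dvd_natCard _
  have hmod := hP.card_modEq_card_fixedPoints A
  have h1f : (1 : A) ∈ MulAction.fixedPoints (Subgroup.zpowers u) A := by
    intro g
    apply Subtype.ext
    show (g : G) * ((1 : A) : G) * (g : G)⁻¹ = ((1 : A) : G)
    simp
  obtain ⟨v, hv, hv1⟩ := hP.exists_fixed_point_of_prime_dvd_card_of_fixed_point A hdvd h1f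
  refine ⟨v, v.2, fun h => hv1 (Subtype.ext h.symm), ?_⟩
  have := congrArg Subtype.val (hv ⟨u, Subgroup.mem_zpowers u⟩)
  have h2 : u * (v : G) * u⁻¹ = v := this
  rw [mul_inv_eq_iff_eq_mul] at h2
  exact h2

variable {E : Ω → Subgroup G} {r : ℕ}

theorem Dat.conj' (h : Dat E r) (g : G) (a : Ω) (x : G) (hx : x ∈ E (g • a)) : g⁻¹ * x * g ∈ E a := by
  have := h.conj g⁻¹ _ x hx
  rwa [inv_smul_smul, inv_inv] at this

/-- the normal subgroups are TI -/
theorem Dat.ti [Finite G] (h : Dat E r) {a b : Ω} (hab : a ≠ b) {x : G} (ha : x ∈ E a) (hb : x ∈ E b) :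
    x = 1 := by
  have hcard : ∀ a b c d : Ω, a ≠ b → c ≠ d →
      Nat.card (E a ⊓ E b : Subgroup G) = Nat.card (E c ⊓ E d : Subgroup G) := by
    intro a b c d hab hcd
    obtain ⟨g, rfl, rfl⟩ := h.two a b c d hab hcd
    apply card_conj _ _ g
    · rintro x ⟨hx1, hx2⟩
      exact ⟨h.conj _ _ _ hx1, h.conj _ _ _ hx2⟩
    · rintro x ⟨hx1, hx2⟩
      exact ⟨h.conj' _ _ _ hx1, h.conj' _ _ _ hx2⟩
  have heq : ∀ a b c d : Ω, a ≠ b → c ≠ d → (E a ⊓ E b : Subgroup G) ≤ E c ⊓ E d →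
      (E a ⊓ E b : Subgroup G) = E c ⊓ E d := by
    intro a b c d hab hcd hle
    exact Subgroup.eq_of_le_of_card_ge hle (le_of_eq (hcard c d a b hcd hab))
  have hmv : ∀ (a p : Ω), a ≠ p → ∀ y ∈ E a, (E a ⊓ E p : Subgroup G) = E a ⊓ E (y • p) := by
    intro a p hap y hy
    apply heq _ _ _ _ hap
    · intro h1
      apply hap
      have := h.fix a y hy
      rw [← this] at h1
      exact MulAction.injective y h1
    · rintro z ⟨hz1, hz2⟩
      refine ⟨hz1, ?_⟩
      have := h.conj y p z hz2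
      rwa [h.comm a y z hy hz1, mul_inv_cancel_right] at this
  apply h.faith
  intro p
  by_cases hp : (E a ⊓ E b : Subgroup G) ≤ E p
  · exact h.fix p x (hp ⟨ha, hb⟩)
  · by_contra hxp
    have hap : a ≠ p := by
      rintro rfl; exact hp inf_le_left
    have hbp : b ≠ p := by
      rintro rfl; exact hp inf_le_right
    have e1 : (E a ⊓ E p : Subgroup G) = E p ⊓ E (x • p) := by
      apply heq _ _ _ _ hap (Ne.symm hxp)
      refine le_inf inf_le_right ?_
      rw [hmv a p hap x ha]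
      exact inf_le_right
    have e2 : (E b ⊓ E p : Subgroup G) = E p ⊓ E (x • p) := by
      apply heq _ _ _ _ hbp (Ne.symm hxp)
      refine le_inf inf_le_right ?_
      rw [hmv b p hbp x hb]
      exact inf_le_right
    have e3 : (E a ⊓ E p : Subgroup G) ≤ E a ⊓ E b := by
      refine le_inf inf_le_left ?_
      rw [e1, ← e2]
      exact inf_le_left
    have e4 := heq _ _ _ _ hap hab e3
    apply hp
    rw [← e4]
    exact inf_le_right

/-- centralizers of non-identity elements -/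
theorem Dat.cent [Finite G] (h : Dat E r) {a : Ω} {u g : G} (hu : u ∈ E a) (hu1 : u ≠ 1) (hg : g * u = u * g) :
    g • a = a := by
  by_contra hne
  apply hu1
  have := h.conj g a u hu
  rw [hg, mul_inv_cancel_right] at this
  exact h.ti hne this hu

theorem Dat.comm2 [Finite G] (h : Dat E r) {a b : Ω} (hab : a ≠ b) {x v : G} (hx : x ∈ E a) (hxb : x • b = b)
    (hv : v ∈ E b) (hva : v • a = a) : x * v = v * x := by
  have h1 : x * v * x⁻¹ * v⁻¹ ∈ E b := by
    have := h.conj x b v hv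
    rw [hxb] at this
    exact mul_mem this (inv_mem hv)
  have h2 : x * v * x⁻¹ * v⁻¹ ∈ E a := by
    have := h.conj v a x⁻¹ (inv_mem hx)
    rw [hva] at this
    have h3 := mul_mem hx this
    simpa [mul_assoc] using h3
  have h3 := h.ti hab h2 h1
  rw [mul_inv_eq_one, mul_inv_eq_iff_eq_mul] at h3
  exact h3

/-- the elements of `E b` fixing `a` fix the orbit of `b` under `E a` -/
theorem Dat.quad [Finite G] (h : Dat E r) {a b : Ω} (hab : a ≠ b) {x v : G} (hx : x ∈ E a)
    (hv : v ∈ E b) (hva : v • a = a) : v • (x • b) = x • b := by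
  -- it suffices to treat `x⁻¹`
  suffices H : ∀ x ∈ E a, v • (x⁻¹ • b) = x⁻¹ • b by
    have := H x⁻¹ (inv_mem hx)
    rwa [inv_inv] at this
  clear hx x
  intro x hx
  by_cases hcb : x • b = b
  · have : x⁻¹ • b = b := by rw [inv_smul_eq_iff, hcb]
    rw [this, h.fix b v hv]
  obtain ⟨u, hu, hu1, hub⟩ := h.ns a b hab
  have huc : u • (x • b) = x • b := by
    rw [smul_smul, h.comm a u x hu hx, ← smul_smul, hub]
  -- the group of elements of `E b` fixing `x • b`
  obtain ⟨v', ⟨hv'b, hv'c⟩, hv'1, hv'u⟩ := exists_fixed h.prime u (h.pow a u hu)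
    (E b ⊓ MulAction.stabilizer G (x • b)) (by
      rintro w ⟨hw1, hw2⟩
      refine ⟨?_, ?_⟩
      · have := h.conj u b w hw1
        rwa [hub] at this
      · have hw2' : w • (x • b) = x • b := hw2
        show (u * w * u⁻¹) • (x • b) = x • b
        have e : u⁻¹ • (x • b) = x • b := by rw [inv_smul_eq_iff, huc]
        rw [mul_smul, mul_smul, e, hw2', huc])
    (fun w hw => h.pow b w hw.1) (by
      obtain ⟨w, hw, hw1, hw2⟩ := h.ns b (x • b) (Ne.symm hcb)
      exact ⟨w, ⟨hw, hw2⟩, hw1⟩)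
  have hv'c : v' • (x • b) = x • b := hv'c
  have hv'a : v' • a = a := h.cent hu hu1 hv'u.symm
  -- `x⁻¹ v' x = v' w'`
  set c' := x⁻¹ • b with hc'
  have hz : x⁻¹ * v' * x ∈ E c' := by
    have := h.conj x⁻¹ b v' hv'b
    rwa [inv_inv] at this
  have hzb : (x⁻¹ * v' * x) • b = b := by
    rw [mul_smul, mul_smul, hv'c, inv_smul_smul]
  have hz1 : x⁻¹ * v' * x ≠ 1 := by
    intro h1
    apply hv'1
    have := congrArg (fun t => x * t * x⁻¹) h1
    simpa [mul_assoc] using this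
  set w' := v'⁻¹ * (x⁻¹ * v' * x) with hw'
  have hw'a : w' ∈ E a := by
    have h1 : v'⁻¹ * x⁻¹ * v' ∈ E a := by
      have := h.conj v'⁻¹ a x⁻¹ (inv_mem hx)
      rw [inv_inv] at this
      have e : v'⁻¹ • a = a := by rw [inv_smul_eq_iff, hv'a]
      rwa [e] at this
    have := mul_mem h1 hx
    simpa [hw', mul_assoc] using this
  have hw'b : w' • b = b := by
    rw [hw', mul_smul, hzb, inv_smul_eq_iff, h.fix b v' hv'b]
  apply h.cent hz hz1
  have e : x⁻¹ * v' * x = v' * w' := by rw [hw', mul_inv_cancel_left]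
  have e1 : v * (v' * w') = v' * w' * v := by
    have e2 : v * w' = w' * v := (h.comm2 hab hw'a hw'b hv hva).symm
    calc v * (v' * w') = v * v' * w' := (mul_assoc _ _ _).symm
      _ = v' * (v * w') := by rw [h.comm b v v' hv hv'b, mul_assoc]
      _ = v' * w' * v := by rw [e2]; exact (mul_assoc _ _ _).symm
  rw [e, e1]

/-- the commutator `v⁻¹ x v x⁻¹` -/
theorem Dat.quad2 [Finite G] (h : Dat E r) {a b : Ω} (hab : a ≠ b) {x v : G} (hx : x ∈ E a)
    (hv : v ∈ E b) (hva : v • a = a) :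
    v⁻¹ * (x * v * x⁻¹) ∈ E a ∧ (v⁻¹ * (x * v * x⁻¹)) • b = b := by
  constructor
  · have h1 : v⁻¹ * x * v ∈ E a := by
      have := h.conj v⁻¹ a x hx
      rw [inv_inv] at this
      have e : v⁻¹ • a = a := by rw [inv_smul_eq_iff, hva]
      rwa [e] at this
    have := mul_mem h1 (inv_mem hx)
    simpa [mul_assoc] using this
  · rw [mul_smul, mul_smul, mul_smul, h.quad hab (inv_mem hx) hv hva, smul_inv_smul, inv_smul_eq_iff,
      h.fix b v hv]

/-- the subgroup of `E a` fixing `b` -/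
def X (E : Ω → Subgroup G) (a b : Ω) : Subgroup G := E a ⊓ MulAction.stabilizer G b

theorem mem_X {a b : Ω} {x : G} : x ∈ X E a b ↔ x ∈ E a ∧ x • b = b := Iff.rfl

/-- `M a b = X a b * X b a` -/
def M (E : Ω → Subgroup G) (a b : Ω) : Subgroup G := X E a b ⊔ X E b a

theorem M_symm (a b : Ω) : M E a b = M E b a := sup_comm _ _

theorem Dat.card_X (h : Dat E r) {a b c d : Ω} (hab : a ≠ b) (hcd : c ≠ d) :
    Nat.card (X E a b) = Nat.card (X E c d) := by
  obtain ⟨g, rfl, rfl⟩ := h.two a b c d hab hcd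
  apply card_conj _ _ g
  · rintro x ⟨hx1, hx2⟩
    refine ⟨h.conj _ _ _ hx1, ?_⟩
    have hx2' : x • b = b := hx2
    show (g * x * g⁻¹) • g • b = g • b
    rw [mul_smul, mul_smul, inv_smul_smul, hx2']
  · rintro x ⟨hx1, hx2⟩
    refine ⟨h.conj' _ _ _ hx1, ?_⟩
    have hx2' : x • g • b = g • b := hx2
    show (g⁻¹ * x * g) • b = b
    rw [mul_smul, mul_smul, hx2', inv_smul_smul]

theorem Dat.X_conj (h : Dat E r) (g : G) (a b : Ω) :
    X E (g • a) (g • b) = (X E a b).map (MulAut.conj g).toMonoidHom := by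
  ext x
  constructor
  · rintro ⟨hx1, hx2⟩
    refine ⟨g⁻¹ * x * g, ⟨h.conj' _ _ _ hx1, ?_⟩, ?_⟩
    · have hx2' : x • g • b = g • b := hx2
      show (g⁻¹ * x * g) • b = b
      rw [mul_smul, mul_smul, hx2', inv_smul_smul]
    · simp [mul_assoc]
  · rintro ⟨y, ⟨hy1, hy2⟩, rfl⟩
    have hy2' : y • b = b := hy2
    refine ⟨h.conj _ _ _ hy1, ?_⟩
    show (g * y * g⁻¹) • g • b = g • b
    rw [mul_smul, mul_smul, inv_smul_smul, hy2']

theorem Dat.M_conj (h : Dat E r) (g : G) (a b : Ω) :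
    M E (g • a) (g • b) = (M E a b).map (MulAut.conj g).toMonoidHom := by
  rw [M, M, Subgroup.map_sup, h.X_conj, h.X_conj]

theorem Dat.card_M (h : Dat E r) {a b c d : Ω} (hab : a ≠ b) (hcd : c ≠ d) :
    Nat.card (M E a b) = Nat.card (M E c d) := by
  obtain ⟨g, rfl, rfl⟩ := h.two a b c d hab hcd
  rw [h.M_conj]
  exact (Subgroup.card_map_of_injective (MulAut.conj g).injective).symm

theorem Dat.M_comm [Finite G] (h : Dat E r) {a b : Ω} (hab : a ≠ b) {m m' : G} (hm : m ∈ M E a b)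
    (hm' : m' ∈ M E a b) : m * m' = m' * m := by
  have h11 : ∀ a : Ω, ∀ b : Ω, X E a b ≤ Subgroup.centralizer (X E a b : Set G) := by
    intro a b x hx
    rw [Subgroup.mem_centralizer_iff]
    intro y hy
    exact h.comm a y x hy.1 hx.1
  have h12 : ∀ a b : Ω, a ≠ b → X E a b ≤ Subgroup.centralizer (X E b a : Set G) := by
    intro a b hab x hx
    rw [Subgroup.mem_centralizer_iff]
    intro y hy
    exact (h.comm2 hab hx.1 hx.2 hy.1 hy.2).symm
  have h1 : X E a b ≤ Subgroup.centralizer (M E a b : Set G) := by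
    rw [Subgroup.le_centralizer_iff]
    exact sup_le (h11 a b) (h12 b a hab.symm)
  have h2 : X E b a ≤ Subgroup.centralizer (M E a b : Set G) := by
    rw [Subgroup.le_centralizer_iff]
    exact sup_le (h12 a b hab) (h11 b a)
  have h3 : M E a b ≤ Subgroup.centralizer (M E a b : Set G) := sup_le h1 h2
  exact (Subgroup.mem_centralizer_iff.mp (h3 hm) m' hm').symm

/-- the line through `a` and `b` -/
def L (E : Ω → Subgroup G) (a b : Ω) : Set Ω := {c | ∃ d, d ≠ c ∧ M E c d = M E a b}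

theorem left_mem_L {a b : Ω} (hab : a ≠ b) : a ∈ L E a b := ⟨b, hab.symm, rfl⟩

theorem right_mem_L {a b : Ω} (hab : a ≠ b) : b ∈ L E a b := ⟨a, hab, M_symm _ _⟩

theorem L_symm (a b : Ω) : L E a b = L E b a := by
  unfold L
  rw [M_symm]

theorem Dat.M_fix [Finite G] (h : Dat E r) {a b c : Ω} (hab : a ≠ b) (hc : c ∈ L E a b) {m : G}
    (hm : m ∈ M E a b) : m • c = c := by
  obtain ⟨d, hdc, hM⟩ := hc
  obtain ⟨x, hx, hx1, hxd⟩ := h.ns c d hdc.symm
  apply h.cent hx hx1
  apply h.M_comm hab hm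
  rw [← hM]
  exact (le_sup_left : X E c d ≤ M E c d) ⟨hx, hxd⟩

theorem Dat.X_le_M [Finite G] (h : Dat E r) {a b c c' : Ω} (hab : a ≠ b) (hc : c ∈ L E a b) (hc' : c' ∈ L E a b)
    (hcc : c ≠ c') : X E c c' ≤ M E a b := by
  obtain ⟨d, hdc, hM⟩ := id hc
  have h1 : X E c d ≤ M E a b := by rw [← hM]; exact le_sup_left
  have h2 : X E c d ≤ X E c c' := by
    intro x hx
    exact ⟨hx.1, h.M_fix hab hc' (h1 hx)⟩
  have h3 := Subgroup.eq_of_le_of_card_ge h2 (le_of_eq (h.card_X hcc hdc.symm))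
  rw [← h3]
  exact h1

theorem Dat.M_eq [Finite G] (h : Dat E r) {a b c c' : Ω} (hab : a ≠ b) (hc : c ∈ L E a b) (hc' : c' ∈ L E a b)
    (hcc : c ≠ c') : M E c c' = M E a b := by
  apply Subgroup.eq_of_le_of_card_ge
  · exact sup_le (h.X_le_M hab hc hc' hcc) (h.X_le_M hab hc' hc hcc.symm)
  · exact le_of_eq (h.card_M hab hcc)

theorem Dat.L_eq [Finite G] (h : Dat E r) {a b c c' : Ω} (hab : a ≠ b) (hc : c ∈ L E a b) (hc' : c' ∈ L E a b)
    (hcc : c ≠ c') : L E c c' = L E a b := by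
  unfold L
  rw [h.M_eq hab hc hc' hcc]

/-- elements of `X a b` fix the line pointwise -/
theorem Dat.X_fix [Finite G] (h : Dat E r) {a b c : Ω} (hab : a ≠ b) (hc : c ∈ L E a b) {u : G}
    (hu : u ∈ E a) (hub : u • b = b) : u • c = c :=
  h.M_fix hab hc ((le_sup_left : X E a b ≤ M E a b) ⟨hu, hub⟩)

theorem Dat.M_smul [Finite G] (h : Dat E r) {a b : Ω} (hab : a ≠ b) {x : G} (hx : x ∈ E a) :
    M E a (x • b) = M E a b := by
  have hne : a ≠ x • b := by
    intro h1
    apply hab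
    have := h.fix a x hx
    rw [← this] at h1
    exact MulAction.injective x h1
  apply Subgroup.eq_of_le_of_card_ge
  · apply sup_le
    · refine le_trans ?_ le_sup_left
      rintro u ⟨hu1, hu2⟩
      refine ⟨hu1, ?_⟩
      have hu2' : u • x • b = x • b := hu2
      rw [smul_smul, h.comm a u x hu1 hx, ← smul_smul] at hu2'
      exact MulAction.injective x hu2'
    · rintro u ⟨hu1, hu2⟩
      have hu2' : u • a = a := hu2
      -- u = x v x⁻¹
      have hv : x⁻¹ * u * x ∈ E b := h.conj' x b u hu1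
      have hva : (x⁻¹ * u * x) • a = a := by
        rw [mul_smul, mul_smul, h.fix a x hx, hu2', inv_smul_eq_iff, h.fix a x hx]
      obtain ⟨h1, h2⟩ := h.quad2 hab hx hv hva
      have e : u = (x⁻¹ * u * x) * ((x⁻¹ * u * x)⁻¹ * (x * (x⁻¹ * u * x) * x⁻¹)) := by group
      rw [e]
      exact mul_mem ((le_sup_right : X E b a ≤ M E a b) ⟨hv, hva⟩) ((le_sup_left : X E a b ≤ M E a b) ⟨h1, h2⟩)
  · exact le_of_eq (h.card_M hab hne)

theorem Dat.smul_ne (h : Dat E r) {a b : Ω} (hab : a ≠ b) {x : G} (hx : x ∈ E a) : a ≠ x • b := by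
  intro h1
  apply hab
  have := h.fix a x hx
  rw [← this] at h1
  exact MulAction.injective x h1

/-- `E a` fixes the lines through `a` -/
theorem Dat.smul_mem_L [Finite G] (h : Dat E r) {a b : Ω} (hab : a ≠ b) {x : G} (hx : x ∈ E a) :
    x • b ∈ L E a b :=
  ⟨a, h.smul_ne hab hx, by rw [M_symm, h.M_smul hab hx]⟩

theorem Dat.smul_mem_L' [Finite G] (h : Dat E r) {a b c : Ω} (hab : a ≠ b) (hc : c ∈ L E a b) {x : G} (hx : x ∈ E a) :
    x • c ∈ L E a b := by
  by_cases hca : c = a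
  · subst hca
    rw [h.fix _ x hx]
    exact left_mem_L hab
  · have := h.smul_mem_L (Ne.symm hca) hx
    rwa [h.L_eq hab (left_mem_L hab) hc (Ne.symm hca)] at this

/-- two points of fixed point set of `u ∈ E a`: the line is fixed pointwise -/
theorem Dat.fx_sub [Finite G] (h : Dat E r) {a b c d : Ω} {u : G} (hu : u ∈ E a) (hbc : b ≠ c) (hb : u • b = b)
    (hc : u • c = c) (hd : d ∈ L E b c) : u • d = d := by
  by_cases ha : a ∈ L E b c
  · -- the line contains `a`
    by_cases hab : a = b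
    · subst hab
      exact h.X_fix hbc hd hu hc
    · have e := h.L_eq hbc ha (left_mem_L hbc) hab
      rw [← e] at hd
      exact h.X_fix hab hd hu hb
  · by_contra hud
    have hda : d ≠ a := by rintro rfl; exact ha hd
    have h1 : u • d ∈ L E a d := h.smul_mem_L (Ne.symm hda) hu
    have h2 : u • d ∈ L E b c := by
      obtain ⟨e, hed, hM⟩ := hd
      refine ⟨u • e, fun h' => hed (MulAction.injective u h'), ?_⟩
      rw [h.M_conj, hM]
      conv_rhs => rw [← hb, ← hc]
      rw [h.M_conj]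
    have e1 := h.L_eq hbc hd h2 (Ne.symm hud)
    have e2 := h.L_eq (Ne.symm hda) (right_mem_L (Ne.symm hda)) h1 (Ne.symm hud)
    apply ha
    rw [← e1, e2]
    exact left_mem_L (Ne.symm hda)

/-- the fixed points -/
def fx (Ω : Type*) [MulAction G Ω] (u : G) : Set Ω := {p | u • p = p}

theorem mem_fx {u : G} {p : Ω} : p ∈ fx Ω u ↔ u • p = p := Iff.rfl

/-- the key inclusion of fixed point sets -/
theorem Dat.fx_le [Finite G] (h : Dat E r) {a b : Ω} (hab : a ≠ b) {x v : G} (hx : x ∈ E a) 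
    (hv : v ∈ E b) (hva : v • a = a) : fx Ω v ⊆ fx Ω (v⁻¹ * (x * v * x⁻¹)) := by
  intro c hc
  have hc' : v • c = c := hc
  obtain ⟨h1, h2⟩ := h.quad2 hab hx hv hva
  by_cases hcl : c ∈ L E a b
  · exact h.X_fix hab hcl h1 h2
  · have hca : a ≠ c := by rintro rfl; exact hcl (left_mem_L hab)
    -- the line `a c` is fixed pointwise by `v`
    have h3 : v • (x⁻¹ • c) = x⁻¹ • c :=
      h.fx_sub hv hca hva hc' (h.smul_mem_L hca (inv_mem hx))
    show (v⁻¹ * (x * v * x⁻¹)) • c = c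
    rw [mul_smul, mul_smul, mul_smul, h3, smul_inv_smul, inv_smul_eq_iff, hc']

theorem Dat.comm_ne [Finite G] (h : Dat E r) {b : Ω} {x v : G} (hxb : x • b ≠ b)
    (hv : v ∈ E b) (hv1 : v ≠ 1) : v⁻¹ * (x * v * x⁻¹) ≠ 1 := by
  intro h1
  apply hxb
  apply h.cent hv hv1
  rw [inv_mul_eq_one] at h1
  calc x * v = x * v * x⁻¹ * x := by group
    _ = v * x := by rw [← h1]

end Cfsg.Agent.Lib.H50ON
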