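import Cfsg.Agent.Lib.H50ON9

/-! O'Nan's theorem (helper50), part 10: the main theorem. -/

set_option autoImplicit false

namespace Cfsg.Agent.Lib.H50ON

universe u w

variable {G : Type u} {Ω : Type w} [Group G] [MulAction G Ω] {E : Ω → Subgroup G} {r : ℕ}

/-- the group generated by all the elations -/
def NN (E : Ω → Subgroup G) : Subgroup G := ⨆ c, E c

theorem Dat.NN_normal (h : Dat E r) : (NN E).Normal := by
  constructor
  intro x hx g
  have h1 : (NN E).map (MulAut.conj g).toMonoidHom ≤ NN E := by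
    unfold NN
    rw [Subgroup.map_iSup]
    apply iSup_le
    intro c
    rintro _ ⟨y, hy, rfl⟩
    exact (le_iSup E (g • c)) (h.conj g c y hy)
  exact h1 ⟨x, hx, rfl⟩

theorem Dat.NN_cent [Finite G] (h : Dat E r) {a b : Ω} (hab : a ≠ b) :
    Subgroup.centralizer (NN E : Set G) = ⊥ := by
  rw [eq_bot_iff]
  intro x hx
  rw [Subgroup.mem_bot]
  apply h.faith
  intro c
  obtain ⟨d, hd⟩ : ∃ d, c ≠ d := by
    by_cases hca : c = a
    · exact ⟨b, hca ▸ hab⟩
    · exact ⟨a, hca⟩
  obtain ⟨u, hu, hu1, -⟩ := h.ns c d hd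
  have h1 := Subgroup.mem_centralizer_iff.1 hx u ((le_iSup E c) hu)
  exact h.cent hu hu1 h1.symm

variable {K : Type} [Field K] {n : ℕ} {pt : (Fin n → K) → Ω}

open Matrix

theorem Co.card [Finite Ω] [Finite K] (hc : Co E K (Fin n → K) pt) :
    Nat.card Ω * (Nat.card K - 1) = Nat.card K ^ n - 1 := by
  classical
  choose v hv0 hv using hc.surj
  let e : Ω × Kˣ → {w : Fin n → K // w ≠ 0} := fun p => ⟨(p.2 : K) • v p.1, smul_ne_zero p.2.ne_zero (hv0 _)⟩
  have he : Function.Bijective e := by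
    constructor
    · rintro ⟨p, k⟩ ⟨p', k'⟩ hpk
      have h1 : (k : K) • v p = (k' : K) • v p' := congrArg Subtype.val hpk
      have h2 : p = p' := by
        rw [← hv p, ← hv p', ← hc.pt_smul (hv0 p) k.ne_zero, h1, hc.pt_smul (hv0 p') k'.ne_zero]
      subst h2
      have h3 : ((k : K) - k') • v p = 0 := by rw [sub_smul, h1, sub_self]
      rcases smul_eq_zero.1 h3 with h4 | h4
      · rw [Prod.mk.injEq]; exact ⟨rfl, Units.ext (sub_eq_zero.1 h4)⟩
      · exact absurd h4 (hv0 p)
    · rintro ⟨w, hw⟩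
      obtain ⟨k, hk, hkw⟩ := (hc.eq (v (pt w)) w (hv0 _) hw).1 (hv (pt w))
      exact ⟨(pt w, Units.mk0 k hk), Subtype.ext hkw.symm⟩
  have h1 := Nat.card_congr (Equiv.ofBijective e he)
  rw [Nat.card_prod] at h1
  have h2 : Nat.card Kˣ = Nat.card K - 1 := by
    haveI := Fintype.ofFinite K
    rw [Nat.card_eq_fintype_card, Nat.card_eq_fintype_card, Fintype.card_units]
  have h3 : Nat.card {w : Fin n → K // w ≠ 0} = Nat.card K ^ n - 1 := by
    haveI := Fintype.ofFinite K
    haveI := Fintype.ofFinite {w : Fin n → K // w ≠ 0}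
    rw [Nat.card_eq_fintype_card, Fintype.card_subtype_compl, Fintype.card_subtype_eq, Fintype.card_fun,
      Fintype.card_fin, Nat.card_eq_fintype_card]
  rw [← h2, h1, h3]

variable [Finite G] [Finite Ω]

theorem Co.rel_of_NN (hc : Co E K (Fin n → K) pt) (h : Dat E r) (hu : Uni E) (hq : HasQ E (Nat.card K))
    {x : G} (hx : x ∈ NN E) : ∃ g : Matrix.SpecialLinearGroup (Fin n) K, Rel pt g x := by
  unfold NN at hx
  refine Subgroup.iSup_induction E (C := fun x => ∃ g : Matrix.SpecialLinearGroup (Fin n) K, Rel pt g x)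
    hx ?_ ⟨1, Rel.one⟩ ?_
  · intro c x hx
    obtain ⟨u, hu0, rfl⟩ := hc.surj c
    obtain ⟨f, hfu, hf⟩ := hc.elation h hu hq hu0 hx
    obtain ⟨g, hg⟩ := exists_sl f hfu
    exact ⟨g, fun w hw => by rw [hf w hw, hg]⟩
  · rintro x y ⟨g, hg⟩ ⟨g', hg'⟩
    exact ⟨g * g', hg.mul hg'⟩

theorem Co.NN_of_sl (hc : Co E K (Fin n → K) pt) (h : Dat E r) (hu : Uni E) (hq : HasQ E (Nat.card K))
    (hn : 2 ≤ n) (g : Matrix.SpecialLinearGroup (Fin n) K) : ∃ x ∈ NN E, Rel pt g x := by
  haveI : Nontrivial (Fin n) := Fin.nontrivial_iff_two_le.2 hn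
  refine ClSLn.transvection_induction (fun g => ∃ x ∈ NN E, Rel pt g x) ?_ ?_ g
  · intro i j hij c
    have hu0 : (Pi.single i (1 : K) : Fin n → K) ≠ 0 := by
      intro h1
      have h2 := congrFun h1 i
      rw [Pi.single_eq_same] at h2
      exact one_ne_zero h2
    have hf : (c • (LinearMap.proj j : (Fin n → K) →ₗ[K] K)) (Pi.single i (1 : K)) = 0 := by
      rw [LinearMap.smul_apply, LinearMap.proj_apply, Pi.single_eq_of_ne hij.symm, smul_zero]
    obtain ⟨x, hx, hxw⟩ := hc.real h hu hq hu0 _ hf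
    refine ⟨x, (le_iSup E _) hx, fun w hw => ?_⟩
    rw [hxw w hw, Matrix.SpecialLinearGroup.transvection_coe, Matrix.add_mulVec, Matrix.one_mulVec,
      Matrix.single_mulVec_eq]
    rfl
  · rintro A B ⟨x, hx, hxA⟩ ⟨y, hy, hyB⟩
    exact ⟨x * y, mul_mem hx hy, hxA.mul hyB⟩

theorem Co.center (hc : Co E K (Fin n → K) pt) {g : Matrix.SpecialLinearGroup (Fin n) K} (hn : 2 ≤ n) :
    Rel pt g (1 : G) ↔ g ∈ Subgroup.center (Matrix.SpecialLinearGroup (Fin n) K) := by
  constructor
  · intro h1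
    have h2 : ∀ w, w ≠ 0 → ∃ k : K, g.1 *ᵥ w = k • w := by
      intro w hw
      have h3 := h1 w hw
      rw [one_smul] at h3
      obtain ⟨k, hk, hkw⟩ := (hc.eq _ _ hw (sl_ne g hw)).1 h3
      exact ⟨k, hkw⟩
    have he : ∀ i, (Pi.single i (1 : K) : Fin n → K) ≠ 0 := by
      intro i h1
      have h2 := congrFun h1 i
      rw [Pi.single_eq_same] at h2
      exact one_ne_zero h2
    choose k hk using fun i => h2 _ (he i)
    have hkk : ∀ i j, i ≠ j → k i = k j := by
      intro i j hij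
      have hne : (Pi.single i (1 : K) + Pi.single j (1 : K) : Fin n → K) ≠ 0 := by
        intro h3
        have h4 := congrFun h3 i
        rw [Pi.add_apply, Pi.single_eq_same, Pi.single_eq_of_ne hij, add_zero] at h4
        exact one_ne_zero h4
      obtain ⟨l, hl⟩ := h2 _ hne
      rw [Matrix.mulVec_add, hk, hk] at hl
      have h5 := congrFun hl i
      have h6 := congrFun hl j
      simp [Pi.single_eq_of_ne hij, Pi.single_eq_of_ne hij.symm] at h5 h6
      rw [h5, h6]
    have i0 : Fin n := ⟨0, by omega⟩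
    have hall : ∀ i, k i = k i0 := by
      intro i
      by_cases hi : i = i0
      · rw [hi]
      · exact hkk i i0 hi
    have hg : g.1 = Matrix.scalar (Fin n) (k i0) := by
      ext i j
      have h7 := congrFun (hk j) i
      rw [Matrix.mulVec_single_one] at h7
      have h8 : g.1 i j = k j * (Pi.single j (1 : K) : Fin n → K) i := h7
      rw [h8, hall j, Matrix.scalar_apply, Matrix.diagonal_apply]
      by_cases hij : i = j
      · subst hij; simp
      · rw [Pi.single_eq_of_ne hij, if_neg hij, mul_zero]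
    rw [Matrix.SpecialLinearGroup.mem_center_iff]
    refine ⟨k i0, ?_, hg.symm⟩
    have h9 := g.2
    rw [hg, Matrix.scalar_apply, Matrix.det_diagonal, Finset.prod_const, Finset.card_univ] at h9
    exact h9
  · intro h1
    obtain ⟨k, hk, hkg⟩ := Matrix.SpecialLinearGroup.mem_center_iff.1 h1
    have hk0 : k ≠ 0 := by
      rintro rfl
      rw [zero_pow (by rw [Fintype.card_fin]; omega)] at hk
      exact zero_ne_one hk
    intro w hw
    have h2 : g.1 *ᵥ w = k • w := by
      rw [← hkg]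
      ext i
      rw [Matrix.scalar_apply, Matrix.mulVec_diagonal]; rfl
    rw [one_smul, h2, hc.pt_smul hw hk0]

theorem Co.iso (hc : Co E K (Fin n → K) pt) (h : Dat E r) (hu : Uni E) (hq : HasQ E (Nat.card K))
    (hn : 2 ≤ n) : Nonempty (NN E ≃* Matrix.ProjectiveSpecialLinearGroup (Fin n) K) := by
  classical
  choose f hfN hf using hc.NN_of_sl h hu hq hn
  let φ : Matrix.SpecialLinearGroup (Fin n) K →* NN E :=
    MonoidHom.mk' (fun g => ⟨f g, hfN g⟩) (by
      intro g g'
      apply Subtype.ext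
      exact Rel.uniq hc h (hf (g * g')) ((hf g).mul (hf g')))
  have hsurj : Function.Surjective φ := by
    rintro ⟨x, hx⟩
    obtain ⟨g, hg⟩ := hc.rel_of_NN h hu hq hx
    exact ⟨g, Subtype.ext (Rel.uniq hc h (hf g) hg)⟩
  have hker : φ.ker = Subgroup.center (Matrix.SpecialLinearGroup (Fin n) K) := by
    ext g
    rw [← hc.center (G := G) hn, MonoidHom.mem_ker]
    constructor
    · intro h1
      have h2 : f g = 1 := congrArg Subtype.val h1
      have h3 := hf g
      rwa [h2] at h3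
    · intro h1
      apply Subtype.ext
      exact Rel.uniq hc h (hf g) h1
  exact ⟨((QuotientGroup.quotientMulEquivOfEq hker.symm).trans
    (QuotientGroup.quotientKerEquivOfSurjective φ hsurj)).symm⟩

theorem Co.three_le [Finite K] (hc : Co E K (Fin n → K) pt) (h : Dat E r) (hq : HasQ E (Nat.card K)) {a b : Ω}
    (hab : a ≠ b) : 3 ≤ n := by
  have h2 := h.two_le_q hq hab
  have hcard := hc.card
  obtain ⟨F, hF, ha, hb⟩ := h.exists_H hab
  obtain ⟨p, hp⟩ := h.exists_notin hF
  have hL := h.ncard_L hq hab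
  have h3 : (L E a b).ncard = Nat.card K + 1 := by
    rw [← Set.ncard_diff_singleton_add_one (left_mem_L hab) (Set.toFinite _), hL]
  have h4 : insert p (L E a b) ⊆ Set.univ := Set.subset_univ _
  have h5 := Set.ncard_le_ncard h4 (Set.toFinite _)
  have hpL : p ∉ L E a b := fun h6 => hp (h.L_sub hF hab ha hb h6)
  rw [Set.ncard_insert_of_notMem hpL (Set.toFinite _), h3, Set.ncard_univ] at h5
  by_contra hn
  have hn' : n ≤ 2 := by omega
  have h6 : Nat.card K ^ n ≤ Nat.card K ^ 2 := Nat.pow_le_pow_right (by omega) hn'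
  have h7 : (Nat.card K + 2) * (Nat.card K - 1) ≤ Nat.card Ω * (Nat.card K - 1) :=
    Nat.mul_le_mul_right _ h5
  obtain ⟨m, hm⟩ : ∃ m, Nat.card K = m + 2 := ⟨Nat.card K - 2, by omega⟩
  rw [hcard, hm] at h7
  rw [hm] at h6
  have h8 : (m + 2 + 2) * (m + 2 - 1) = m * m + 5 * m + 4 := by
    have : m + 2 - 1 = m + 1 := by omega
    rw [this]; ring
  rw [h8] at h7
  have h9 : (m + 2) ^ 2 = m * m + 4 * m + 4 := by ring
  rw [h9] at h6
  omega

/-- main theorem -/
theorem Dat.main (h : Dat E r) {a b : Ω} (hab : a ≠ b) :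
    ∃ (K : Type) (_ : Field K) (_ : Fintype K) (n : ℕ), 3 ≤ n ∧
      Nat.card Ω * (Fintype.card K - 1) = Fintype.card K ^ n - 1 ∧
      ∃ N : Subgroup G, N.Normal ∧ Subgroup.centralizer (N : Set G) = ⊥ ∧
        Nonempty (N ≃* Matrix.ProjectiveSpecialLinearGroup (Fin n) K) := by
  classical
  have h0 := h.dat0
  have hu : Uni (E0 h) := fun a b x hx y hy hx1 hy1 => h.uni0 hx hx1 hy hy1
  obtain ⟨q, hq⟩ := h0.exists_q hab
  obtain ⟨F, hF, ha, hb⟩ := h0.exists_H hab
  obtain ⟨o, ho⟩ := h0.exists_notin hF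
  obtain ⟨K, hK, V, hV, hM, ι, hcard, hi⟩ := h0.exists_VI hu hq hF ha
  have hq2 := h0.two_le_q hq hab
  haveI : Finite K := by
    apply Nat.finite_of_card_ne_zero; omega
  haveI : Finite V := Finite.of_injective ι (fun v w hvw => hi.inj v w hvw)
  have hco := ptt_co hu hi ho
  have e := (Module.finBasis K (K × V)).equivFun
  have hco2 := hco.comp_equiv e.symm
  subst hcard
  have hn := hco2.three_le h0 hq hab
  letI := Fintype.ofFinite K
  refine ⟨K, hK, inferInstance, Module.finrank K (K × V), hn, ?_, NN (E0 h), h0.NN_normal, h0.NN_cent hab,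
    hco2.iso h0 hu hq (by omega)⟩
  have := hco2.card
  rwa [Nat.card_eq_fintype_card (α := K)] at this

end Cfsg.Agent.Lib.H50ON
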