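import Cfsg.Agent.Lib.H50ON10
import Cfsg.Agent.Lib.Layer

/-! O'Nan's theorem (helper50), part 11: from an abelian normal subgroup of a point stabilizer. -/

set_option autoImplicit false

namespace Cfsg.Agent.Lib.H50ON

universe u w

variable {G : Type u} {Ω : Type w} [Group G] [MulAction G Ω]

/-- elements of order dividing `r` of an abelian subgroup -/
def omr (N : Subgroup G) (hab : ∀ x ∈ N, ∀ y ∈ N, x * y = y * x) (r : ℕ) : Subgroup G where
  carrier := {x | x ∈ N ∧ x ^ r = 1}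
  one_mem' := ⟨one_mem _, one_pow _⟩
  mul_mem' := by
    rintro x y ⟨hx, hx'⟩ ⟨hy, hy'⟩
    exact ⟨mul_mem hx hy, by rw [(show Commute x y from hab x hx y hy).mul_pow, hx', hy', one_mul]⟩
  inv_mem' := by
    rintro x ⟨hx, hx'⟩
    exact ⟨inv_mem hx, by rw [inv_pow, hx', inv_one]⟩

/-- conjugates -/
noncomputable def EE (N : Subgroup G) (hab : ∀ x ∈ N, ∀ y ∈ N, x * y = y * x) (r : ℕ) (x : Ω)
    (hn : ∀ g : G, g • x = x → ∀ n ∈ N, g * n * g⁻¹ ∈ N) (hg : ∀ a : Ω, ∃ g : G, g • x = a)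
    (a : Ω) : Subgroup G :=
  (omr N hab r).map (MulAut.conj (hg a).choose).toMonoidHom

theorem mem_EE {N : Subgroup G} {hab : ∀ x ∈ N, ∀ y ∈ N, x * y = y * x} {r : ℕ} {x : Ω}
    {hn : ∀ g : G, g • x = x → ∀ n ∈ N, g * n * g⁻¹ ∈ N} {hg : ∀ a : Ω, ∃ g : G, g • x = a}
    {a : Ω} {g z : G} (hga : g • x = a) :
    z ∈ EE N hab r x hn hg a ↔ (g⁻¹ * z * g ∈ N ∧ z ^ r = 1) := by
  set k := (hg a).choose with hk
  have hka : k • x = a := (hg a).choose_spec
  have hst : (g⁻¹ * k) • x = x := by rw [mul_smul, hka, inv_smul_eq_iff, hga]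
  have hst' : (k⁻¹ * g) • x = x := by rw [mul_smul, hga, inv_smul_eq_iff, hka]
  constructor
  · rintro ⟨m, ⟨hm, hmr⟩, rfl⟩
    refine ⟨?_, ?_⟩
    · have h1 := hn _ hst m hm
      have h2 : g⁻¹ * (MulAut.conj k).toMonoidHom m * g = g⁻¹ * k * m * (g⁻¹ * k)⁻¹ := by
        show g⁻¹ * (k * m * k⁻¹) * g = _
        group
      rw [h2]; exact h1
    · show (k * m * k⁻¹) ^ r = 1
      rw [conj_pow, hmr]; group
  · rintro ⟨h1, h2⟩
    refine ⟨k⁻¹ * z * k, ⟨?_, ?_⟩, ?_⟩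
    · have h3 := hn _ hst' _ h1
      have h4 : k⁻¹ * g * (g⁻¹ * z * g) * (k⁻¹ * g)⁻¹ = k⁻¹ * z * k := by group
      rwa [h4] at h3
    · have h4 : (k⁻¹ * z * k) ^ r = k⁻¹ * z ^ r * k := by
        have := conj_pow (i := r) (a := k⁻¹) (b := z)
        rwa [inv_inv] at this
      rw [h4, h2]; group
    · show k * (k⁻¹ * z * k) * k⁻¹ = z
      group

theorem mkDat [Finite G] (h2 : ∀ a b c d : Ω, a ≠ b → c ≠ d → ∃ g : G, g • a = c ∧ g • b = d)
    (hf : ∀ g : G, (∀ a : Ω, g • a = a) → g = 1) (x : Ω) (N : Subgroup G) (hNle : ∀ n ∈ N, n • x = x)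
    (hn : ∀ g : G, g • x = x → ∀ n ∈ N, g * n * g⁻¹ ∈ N) (hab : ∀ x ∈ N, ∀ y ∈ N, x * y = y * x)
    (hns : ∃ n ∈ N, n ≠ 1 ∧ ∃ y : Ω, y ≠ x ∧ n • y = y) :
    ∃ (E : Ω → Subgroup G) (r : ℕ), Dat E r := by
  obtain ⟨n, hnN, hn1, y, hyx, hny⟩ := hns
  have ho : orderOf n ≠ 1 := fun h => hn1 (orderOf_eq_one_iff.1 h)
  obtain ⟨r, hr, hrd⟩ := Nat.exists_prime_and_dvd ho
  have hg : ∀ a : Ω, ∃ g : G, g • x = a := by
    intro a
    by_cases hax : a = x
    · exact ⟨1, by rw [one_smul, hax]⟩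
    · obtain ⟨g, hg, -⟩ := h2 x y a x hyx.symm hax
      exact ⟨g, hg⟩
  obtain ⟨m, hm⟩ := hrd
  have hm0 : m ≠ 0 := by
    rintro rfl
    rw [mul_zero] at hm
    exact (orderOf_pos n).ne' hm
  have hz1 : n ^ m ≠ 1 := by
    intro h1
    have h3 := orderOf_dvd_of_pow_eq_one h1
    rw [hm] at h3
    have h4 := Nat.le_of_dvd (Nat.pos_of_ne_zero hm0) h3
    have h5 := hr.two_le
    nlinarith [Nat.pos_of_ne_zero hm0]
  have hzr : (n ^ m) ^ r = 1 := by rw [← pow_mul, mul_comm, ← hm, pow_orderOf_eq_one]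
  have hzy : (n ^ m) • y = y := by
    have : n ^ m ∈ MulAction.stabilizer G y := pow_mem (show n ∈ MulAction.stabilizer G y from hny) m
    exact this
  refine ⟨EE N hab r x hn hg, r, ?_⟩
  constructor
  · exact hr
  · intro g a z hz
    obtain ⟨k, hk⟩ := hg a
    rw [mem_EE (g := g * k) (by rw [mul_smul, hk])]
    rw [mem_EE hk] at hz
    refine ⟨?_, ?_⟩
    · have h3 : (g * k)⁻¹ * (g * z * g⁻¹) * (g * k) = k⁻¹ * z * k := by group
      rw [h3]; exact hz.1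
    · rw [conj_pow, hz.2]; group
  · intro a z hz
    obtain ⟨k, hk⟩ := hg a
    rw [mem_EE hk] at hz
    have h3 := hNle _ hz.1
    rw [mul_smul, mul_smul, hk, inv_smul_eq_iff, hk] at h3
    exact h3
  · intro a z z' hz hz'
    obtain ⟨k, hk⟩ := hg a
    rw [mem_EE hk] at hz hz'
    have h3 := hab _ hz.1 _ hz'.1
    have h4 : k * (k⁻¹ * z * k * (k⁻¹ * z' * k)) * k⁻¹ = k * (k⁻¹ * z' * k * (k⁻¹ * z * k)) * k⁻¹ := by
      rw [h3]
    calc z * z' = k * (k⁻¹ * z * k * (k⁻¹ * z' * k)) * k⁻¹ := by group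
      _ = k * (k⁻¹ * z' * k * (k⁻¹ * z * k)) * k⁻¹ := h4
      _ = z' * z := by group
  · intro a z hz
    obtain ⟨k, hk⟩ := hg a
    rw [mem_EE hk] at hz
    exact hz.2
  · exact h2
  · exact hf
  · intro a b hab'
    obtain ⟨g, hga, hgb⟩ := h2 x y a b hyx.symm hab'
    refine ⟨g * n ^ m * g⁻¹, ?_, ?_, ?_⟩
    · rw [mem_EE hga]
      refine ⟨?_, ?_⟩
      · have h3 : g⁻¹ * (g * n ^ m * g⁻¹) * g = n ^ m := by group
        rw [h3]; exact pow_mem hnN m
      · rw [conj_pow, hzr]; group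
    · intro h3
      apply hz1
      have h4 : n ^ m = g⁻¹ * (g * n ^ m * g⁻¹) * g := by group
      rw [h4, h3]; group
    · rw [mul_smul, mul_smul, ← hgb, inv_smul_smul, hzy]

/-- O'Nan's theorem for an abelian normal subgroup of the point stabilizer -/
theorem onan [Finite G] [Finite Ω] (h2 : ∀ a b c d : Ω, a ≠ b → c ≠ d → ∃ g : G, g • a = c ∧ g • b = d)
    (hf : ∀ g : G, (∀ a : Ω, g • a = a) → g = 1) (x : Ω) (N : Subgroup G) (hNle : ∀ n ∈ N, n • x = x)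
    (hn : ∀ g : G, g • x = x → ∀ n ∈ N, g * n * g⁻¹ ∈ N) (hab : ∀ x ∈ N, ∀ y ∈ N, x * y = y * x)
    (hns : ∃ n ∈ N, n ≠ 1 ∧ ∃ y : Ω, y ≠ x ∧ n • y = y) :
    ∃ (K : Type) (_ : Field K) (_ : Fintype K) (n : ℕ), 3 ≤ n ∧
      Nat.card Ω * (Fintype.card K - 1) = Fintype.card K ^ n - 1 ∧
      ∃ N : Subgroup G, N.Normal ∧ Subgroup.centralizer (N : Set G) = ⊥ ∧
        Nonempty (N ≃* Matrix.ProjectiveSpecialLinearGroup (Fin n) K) := by
  obtain ⟨E, r, h⟩ := mkDat h2 hf x N hNle hn hab hns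
  obtain ⟨n, -, -, y, hyx, -⟩ := hns
  exact h.main hyx

open Cfsg Cfsg.Agent.Lib.Components in
theorem genFit_of_simple {H : Type*} [Group H] [Finite H] {K : Subgroup H} (hKn : K.Normal) (hK : IsQuasisimple K)
    (hC : Subgroup.centralizer (K : Set H) = ⊥) : generalizedFittingSubgroup H = K := by
  have hc : IsComponent K := ⟨hKn.isSubnormal, hK⟩
  have hl : layer H = K := by
    apply le_antisymm _ (Layer.component_le_layer hc)
    apply sSup_le
    intro J hJ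
    by_contra hno
    have h1 : J ≠ K := fun h => hno h.le
    have h2 := components_commute hJ hc h1
    rw [hC, le_bot_iff] at h2
    exact component_ne_bot hJ h2
  have hf : fittingSubgroup H = ⊥ := by
    rw [eq_bot_iff, ← hC]
    have h3 := Layer.layer_le_centralizer_fitting (G := H)
    rw [hl] at h3
    rw [Subgroup.le_centralizer_iff]
    exact h3
  unfold generalizedFittingSubgroup
  rw [hl, hf, sup_bot_eq]

open Cfsg in
theorem genFit_psl [Finite G] {K : Type} [Field K] {n : ℕ} (hn : 3 ≤ n) {N : Subgroup G} (hN : N.Normal)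
    (hC : Subgroup.centralizer (N : Set G) = ⊥)
    (e : N ≃* Matrix.ProjectiveSpecialLinearGroup (Fin n) K) : generalizedFittingSubgroup G = N := by
  haveI : IsSimpleGroup (Matrix.ProjectiveSpecialLinearGroup (Fin n) K) :=
    ClSLn.isSimpleGroup_PSL (by omega) (fun h => by omega)
  haveI : Nontrivial N := e.toEquiv.nontrivial
  haveI : IsSimpleGroup N := IsSimpleGroup.isSimpleGroup_of_surjective e.symm.toMonoidHom e.symm.surjective
  refine genFit_of_simple hN (Components.quasisimple_of_simple ?_) hC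
  intro hcomm
  obtain ⟨x, hx⟩ := exists_ne (1 : N)
  apply hx
  apply Subtype.ext
  have h1 : (x : G) ∈ Subgroup.centralizer (N : Set G) := by
    rw [Subgroup.mem_centralizer_iff]
    intro y hy
    exact congrArg Subtype.val (hcomm.is_comm.comm (⟨y, hy⟩ : N) x)
  rw [hC] at h1
  exact h1

end Cfsg.Agent.Lib.H50ON
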