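import Mathlib
import Cfsg.Agent.Lib.H50ON1

/-! Doubly transitive groups, part 2 (helper50): hyperplanes. -/

set_option autoImplicit false

namespace Cfsg.Agent.Lib.H50ON

variable {G Ω : Type*} [Group G] [MulAction G Ω] {E : Ω → Subgroup G} {r : ℕ}

theorem Dat.exists_moves (h : Dat E r) {a b : Ω} (hab : a ≠ b) : ∃ x ∈ E a, x • b ≠ b := by
  by_contra hcon
  push Not at hcon
  obtain ⟨u, hu, hu1, -⟩ := h.ns a b hab
  apply hu1
  apply h.faith
  intro c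
  by_cases hca : c = a
  · subst hca; exact h.fix _ u hu
  · obtain ⟨g, hg1, hg2⟩ := h.two a b a c hab (Ne.symm hca)
    have h1 : g⁻¹ * u * g ∈ E a := by
      apply h.conj'
      rwa [hg1]
    have h2 := hcon _ h1
    rw [mul_smul, mul_smul, inv_smul_eq_iff, hg2] at h2
    exact h2

/-- hyperplanes: fixed point sets of maximal size -/
def IsH (E : Ω → Subgroup G) (F : Set Ω) : Prop :=
  ∃ a, ∃ u ∈ E a, u ≠ 1 ∧ F = fx Ω u ∧ ∀ b, ∀ v ∈ E b, v ≠ 1 → (fx Ω v).ncard ≤ (fx Ω u).ncard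

/-- the elations with centre `a` and axis `F` -/
def EF (E : Ω → Subgroup G) (a : Ω) (F : Set Ω) : Subgroup G where
  carrier := {x | x ∈ E a ∧ ∀ p ∈ F, x • p = p}
  one_mem' := ⟨one_mem _, fun p _ => one_smul _ p⟩
  mul_mem' := by
    rintro x y ⟨hx, hx'⟩ ⟨hy, hy'⟩
    exact ⟨mul_mem hx hy, fun p hp => by rw [mul_smul, hy' p hp, hx' p hp]⟩
  inv_mem' := by
    rintro x ⟨hx, hx'⟩
    exact ⟨inv_mem hx, fun p hp => by rw [inv_smul_eq_iff, hx' p hp]⟩

theorem mem_EF {a : Ω} {F : Set Ω} {x : G} : x ∈ EF E a F ↔ x ∈ E a ∧ ∀ p ∈ F, x • p = p := Iff.rfl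

theorem fx_conj (g u : G) : fx Ω (g * u * g⁻¹) = (fun p => g • p) '' fx Ω u := by
  ext p
  constructor
  · intro hp
    have hp' : (g * u * g⁻¹) • p = p := hp
    refine ⟨g⁻¹ • p, ?_, smul_inv_smul g p⟩
    show u • g⁻¹ • p = g⁻¹ • p
    rw [mul_smul, mul_smul] at hp'
    rw [eq_inv_smul_iff, hp']
  · rintro ⟨p, hp, rfl⟩
    have hp' : u • p = p := hp
    show (g * u * g⁻¹) • g • p = g • p
    rw [mul_smul, mul_smul, inv_smul_smul, hp']

theorem Dat.isH_smul (h : Dat E r) {F : Set Ω} (hF : IsH E F) (g : G) : IsH E ((fun p => g • p) '' F) := by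
  obtain ⟨a, u, hu, hu1, rfl, hmax⟩ := hF
  refine ⟨g • a, g * u * g⁻¹, h.conj g a u hu, ?_, (fx_conj g u).symm, ?_⟩
  · intro h1
    apply hu1
    rwa [conj_eq_one_iff] at h1
  · intro b v hv hv1
    rw [fx_conj, Set.ncard_image_of_injective _ (MulAction.injective g)]
    exact hmax b v hv hv1

theorem Dat.exists_H [Finite Ω] (h : Dat E r) {a b : Ω} (hab : a ≠ b) : ∃ F, IsH E F ∧ a ∈ F ∧ b ∈ F := by
  classical
  -- choose the maximum
  have hex : ∃ n, ∃ a, ∃ u ∈ E a, u ≠ 1 ∧ (fx Ω u).ncard = n := by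
    obtain ⟨u, hu, hu1, -⟩ := h.ns a b hab
    exact ⟨_, a, u, hu, hu1, rfl⟩
  have hbd : ∀ n, (∃ a, ∃ u ∈ E a, u ≠ 1 ∧ (fx Ω u).ncard = n) → n ≤ Nat.card Ω := by
    rintro n ⟨a, u, hu, hu1, rfl⟩
    exact Set.ncard_le_card _
  have hN := Nat.findGreatest_spec (P := fun n => ∃ a, ∃ u ∈ E a, u ≠ 1 ∧ (fx Ω u).ncard = n)
    (hbd _ hex.choose_spec) hex.choose_spec
  obtain ⟨c, u, hu, hu1, hun⟩ := hN
  have hmax : ∀ b, ∀ v ∈ E b, v ≠ 1 → (fx Ω v).ncard ≤ (fx Ω u).ncard := by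
    intro b v hv hv1
    rw [hun]
    exact Nat.le_findGreatest (hbd _ ⟨b, v, hv, hv1, rfl⟩) ⟨b, v, hv, hv1, rfl⟩
  have hH : IsH E (fx Ω u) := ⟨c, u, hu, hu1, rfl, hmax⟩
  -- it has another point
  have hcu : c ∈ fx Ω u := h.fix c u hu
  have h2 : ∃ d ∈ fx Ω u, d ≠ c := by
    have hne : ∃ d, d ≠ c := by
      by_cases hac : a = c
      · exact ⟨b, by rw [← hac]; exact hab.symm⟩
      · exact ⟨a, hac⟩
    obtain ⟨d, hd⟩ := hne
    obtain ⟨w, hw, hw1, hwd⟩ := h.ns c d hd.symm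
    by_contra hcon
    push Not at hcon
    have h3 : fx Ω u ⊆ {c} := fun x hx => hcon x hx
    have h4 : (fx Ω u).ncard ≤ 1 := by
      rw [← Set.ncard_singleton c]
      exact Set.ncard_le_ncard h3
    have h5 : ({c, d} : Set Ω) ⊆ fx Ω w := by
      rintro x (rfl | rfl)
      · exact h.fix _ w hw
      · exact hwd
    have h6 := Set.ncard_le_ncard h5
    rw [Set.ncard_pair hd.symm] at h6
    have := hmax c w hw hw1
    omega
  obtain ⟨d, hd, hdc⟩ := h2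
  obtain ⟨g, hg1, hg2⟩ := h.two c d a b hdc.symm hab
  exact ⟨_, h.isH_smul hH g, ⟨c, hcu, hg1⟩, ⟨d, hd, hg2⟩⟩

variable [Finite G] [Finite Ω]

theorem Dat.EF_fx (h : Dat E r) {F : Set Ω} (hF : IsH E F) {a : Ω} {x : G} (hx : x ∈ EF E a F) (hx1 : x ≠ 1) :
    fx Ω x = F := by
  obtain ⟨b, u, hu, hu1, rfl, hmax⟩ := hF
  symm
  exact Set.eq_of_subset_of_ncard_le (fun p hp => hx.2 p hp) (hmax a x hx.1 hx1) (Set.toFinite _)

theorem Dat.EF_ne (h : Dat E r) {F : Set Ω} (hF : IsH E F) {a : Ω} (ha : a ∈ F) : ∃ w ∈ EF E a F, w ≠ 1 := by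
  obtain ⟨b, v, hv, hv1, rfl, hmax⟩ := hF
  by_cases hab : a = b
  · subst hab
    exact ⟨v, ⟨hv, fun p hp => hp⟩, hv1⟩
  · obtain ⟨x, hx, hxb⟩ := h.exists_moves hab
    have hva : v • a = a := ha
    refine ⟨v⁻¹ * (x * v * x⁻¹), ⟨(h.quad2 hab hx hv hva).1, ?_⟩, h.comm_ne hxb hv hv1⟩
    intro p hp
    exact h.fx_le hab hx hv hva hp

theorem Dat.EF_comm (h : Dat E r) {F : Set Ω} {a b : Ω} (ha : a ∈ F) (hb : b ∈ F) {x v : G}
    (hx : x ∈ EF E a F) (hv : v ∈ EF E b F) : x * v = v * x := by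
  by_cases hab : a = b
  · subst hab
    exact h.comm a x v hx.1 hv.1
  · exact h.comm2 hab hx.1 (hx.2 b hb) hv.1 (hv.2 a ha)

/-- commutators with elations -/
theorem Dat.comm_mem (h : Dat E r) {F : Set Ω} {a b : Ω} (hab : a ≠ b) (ha : a ∈ F) {x v : G}
    (hx : x ∈ E a) (hv : v ∈ EF E b F) : v⁻¹ * (x * v * x⁻¹) ∈ EF E a F :=
  ⟨(h.quad2 hab hx hv.1 (hv.2 a ha)).1, fun p hp => h.fx_le hab hx hv.1 (hv.2 a ha) (hv.2 p hp)⟩

/-- `q` -/
def HasQ (E : Ω → Subgroup G) (q : ℕ) : Prop := ∀ a b : Ω, a ≠ b → Nat.card (E a) = q * Nat.card (X E a b)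

theorem Dat.card_E (h : Dat E r) {a b : Ω} (hab : a ≠ b) {c d : Ω} (hcd : c ≠ d) : Nat.card (E a) = Nat.card (E c) := by
  obtain ⟨g, rfl, rfl⟩ := h.two a b c d hab hcd
  exact card_conj _ _ g (fun x hx => h.conj _ _ _ hx) (fun x hx => h.conj' _ _ _ hx)

theorem Dat.exists_q (h : Dat E r) {a b : Ω} (hab : a ≠ b) : ∃ q, HasQ E q := by
  have h2 : Nat.card ((X E a b).subgroupOf (E a)) = Nat.card (X E a b) :=
    Nat.card_congr (Subgroup.subgroupOfEquivOfLe inf_le_left).toEquiv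
  refine ⟨((X E a b).subgroupOf (E a)).index, ?_⟩
  intro c d hcd
  rw [h.card_E hcd hab, h.card_X hcd hab, ← h2, Subgroup.index_mul_card]

theorem card_quot {q : ℕ} (hq : HasQ E q) {a b : Ω} (hab : a ≠ b) :
    Nat.card (↥(E a) ⧸ (X E a b).subgroupOf (E a)) = q := by
  have h1 := Subgroup.card_eq_card_quotient_mul_card_subgroup ((X E a b).subgroupOf (E a))
  have h2 : Nat.card ((X E a b).subgroupOf (E a)) = Nat.card (X E a b) :=
    Nat.card_congr (Subgroup.subgroupOfEquivOfLe inf_le_left).toEquiv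
  rw [h2, hq a b hab] at h1
  have h3 : 0 < Nat.card (X E a b) := Nat.card_pos
  exact (Nat.eq_of_mul_eq_mul_right h3 h1).symm

/-- the commutator map on the quotient -/
theorem Dat.cmap_inj (h : Dat E r) {F : Set Ω} {a b : Ω} (hab : a ≠ b) (ha : a ∈ F) {v : G}
    (hv : v ∈ EF E b F) (hv1 : v ≠ 1) :
    Function.Injective (fun y : ↥(E a) ⧸ (X E a b).subgroupOf (E a) =>
      (⟨v⁻¹ * (y.out.1 * v * y.out.1⁻¹), h.comm_mem hab ha y.out.2 hv⟩ : EF E a F)) := by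
  intro y z hyz
  have h1 : v⁻¹ * (y.out.1 * v * y.out.1⁻¹) = v⁻¹ * (z.out.1 * v * z.out.1⁻¹) := congrArg Subtype.val hyz
  have h2 : y.out.1 * v * y.out.1⁻¹ = z.out.1 * v * z.out.1⁻¹ := mul_left_cancel h1
  rw [← QuotientGroup.out_eq' y, ← QuotientGroup.out_eq' z, QuotientGroup.eq, Subgroup.mem_subgroupOf]
  refine ⟨(y.out⁻¹ * z.out).2, ?_⟩
  show ((y.out)⁻¹ * z.out : ↥(E a)).1 • b = b
  apply h.cent hv.1 hv1
  have h3 : z.out.1 * v = y.out.1 * v * y.out.1⁻¹ * z.out.1 := by rw [h2]; group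
  calc (y.out.1⁻¹ * z.out.1) * v = y.out.1⁻¹ * (z.out.1 * v) := by group
    _ = v * (y.out.1⁻¹ * z.out.1) := by rw [h3]; group

theorem Dat.exists_notin (h : Dat E r) {F : Set Ω} (hF : IsH E F) : ∃ p, p ∉ F := by
  by_contra hcon
  push Not at hcon
  obtain ⟨a, u, hu, hu1, rfl, -⟩ := hF
  exact hu1 (h.faith u hcon)

theorem Dat.card_EF (h : Dat E r) {q : ℕ} (hq : HasQ E q) {F : Set Ω} (hF : IsH E F) {a : Ω} (ha : a ∈ F) :
    Nat.card (EF E a F) = q := by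
  apply le_antisymm
  · -- a point outside
    obtain ⟨p, hp⟩ := h.exists_notin hF
    have hap : a ≠ p := by rintro rfl; exact hp ha
    rw [← card_quot hq hap]
    apply Nat.card_le_card_of_injective (fun x : EF E a F => ((⟨x.1, x.2.1⟩ : ↥(E a)) : ↥(E a) ⧸ (X E a p).subgroupOf (E a)))
    intro x y hxy
    have h1 := QuotientGroup.eq.mp hxy
    rw [Subgroup.mem_subgroupOf] at h1
    by_contra hne
    have h2 : x.1⁻¹ * y.1 ∈ EF E a F := mul_mem (inv_mem x.2) y.2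
    have h3 : x.1⁻¹ * y.1 ≠ 1 := by
      intro h4
      apply hne
      exact Subtype.ext (inv_mul_eq_one.mp h4)
    have h4 := h.EF_fx hF h2 h3
    apply hp
    rw [← h4]
    exact h1.2
  · -- another point of F
    obtain ⟨p, hp⟩ := h.exists_notin hF
    obtain ⟨b, hb, hba⟩ : ∃ b ∈ F, b ≠ a := by
      by_contra hcon
      push Not at hcon
      have hap : a ≠ p := by rintro rfl; exact hp ha
      obtain ⟨F', hF', ha', hp'⟩ := h.exists_H hap
      obtain ⟨c, u, hu, hu1, rfl, hmax⟩ := hF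
      obtain ⟨c', u', hu', hu1', rfl, hmax'⟩ := hF'
      have h1 := hmax c' u' hu' hu1'
      have h2 : (fx Ω u).ncard ≤ 1 := by
        rw [← Set.ncard_singleton a]
        exact Set.ncard_le_ncard (fun x hx => hcon x hx)
      have h3 : ({a, p} : Set Ω) ⊆ fx Ω u' := by
        rintro x (rfl | rfl)
        · exact ha'
        · exact hp'
      have h6 := Set.ncard_le_ncard h3
      rw [Set.ncard_pair hap] at h6
      omega
    obtain ⟨v, hv, hv1⟩ := h.EF_ne hF hb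
    rw [← card_quot hq hba.symm]
    exact Nat.card_le_card_of_injective _ (h.cmap_inj hba.symm ha hv hv1)

theorem Dat.exists_other (h : Dat E r) {F : Set Ω} (hF : IsH E F) (a : Ω) : ∃ b ∈ F, b ≠ a := by
  by_contra hcon
  push Not at hcon
  obtain ⟨p, hp⟩ := h.exists_notin hF
  obtain ⟨c, u, hu, hu1, rfl, hmax⟩ := hF
  have hc : c ∈ fx Ω u := h.fix c u hu
  have hac : c = a := hcon c hc
  subst hac
  have hap : c ≠ p := by rintro rfl; exact hp hc
  obtain ⟨F', hF', ha', hp'⟩ := h.exists_H hap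
  obtain ⟨c', u', hu', hu1', rfl, hmax'⟩ := hF'
  have h1 := hmax c' u' hu' hu1'
  have h2 : (fx Ω u).ncard ≤ 1 := by
    rw [← Set.ncard_singleton c]
    exact Set.ncard_le_ncard (fun x hx => hcon x hx)
  have h3 : ({c, p} : Set Ω) ⊆ fx Ω u' := by
    rintro x (rfl | rfl)
    · exact ha'
    · exact hp'
  have h6 := Set.ncard_le_ncard h3
  rw [Set.ncard_pair hap] at h6
  omega

/-- surjectivity of `x ↦ v⁻¹ x v x⁻¹` -/
theorem Dat.exists_x (h : Dat E r) {F : Set Ω} (hF : IsH E F) {a b : Ω} (hab : a ≠ b) (ha : a ∈ F) (hb : b ∈ F)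
    {v w : G} (hv : v ∈ EF E b F) (hv1 : v ≠ 1) (hw : w ∈ EF E a F) :
    ∃ x ∈ E a, w = v⁻¹ * (x * v * x⁻¹) := by
  obtain ⟨q, hq⟩ := h.exists_q hab
  have hinj := h.cmap_inj hab ha hv hv1
  have hcard : Nat.card (↥(E a) ⧸ (X E a b).subgroupOf (E a)) = Nat.card (EF E a F) := by
    rw [card_quot hq hab, h.card_EF hq hF ha]
  have hbij := (Nat.bijective_iff_injective_and_card _).mpr ⟨hinj, hcard⟩
  obtain ⟨y, hy⟩ := hbij.2 ⟨w, hw⟩
  exact ⟨y.out.1, y.out.2, (congrArg Subtype.val hy).symm⟩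

/-- surjectivity of `v ↦ v⁻¹ x v x⁻¹` -/
theorem Dat.exists_v (h : Dat E r) {F : Set Ω} (hF : IsH E F) {a b : Ω} (hab : a ≠ b) (ha : a ∈ F) (hb : b ∈ F)
    {x w : G} (hx : x ∈ E a) (hxb : x • b ≠ b) (hw : w ∈ EF E a F) :
    ∃ v ∈ EF E b F, w = v⁻¹ * (x * v * x⁻¹) := by
  obtain ⟨q, hq⟩ := h.exists_q hab
  have hinj : Function.Injective (fun v : EF E b F => (⟨v.1⁻¹ * (x * v.1 * x⁻¹), h.comm_mem hab ha hx v.2⟩ : EF E a F)) := by
    intro v v' hvv
    have h1 : v.1⁻¹ * (x * v.1 * x⁻¹) = v'.1⁻¹ * (x * v'.1 * x⁻¹) := congrArg Subtype.val hvv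
    by_contra hne
    apply hxb
    have h2 : v'.1 * v.1⁻¹ ∈ E b := mul_mem v'.2.1 (inv_mem v.2.1)
    apply h.cent h2
    · intro h3
      apply hne
      exact (Subtype.ext (mul_inv_eq_one.mp h3)).symm
    · -- x commutes with v' v⁻¹
      have h3 : v'.1 * v.1⁻¹ * (x * v.1 * x⁻¹) = x * v'.1 * x⁻¹ := by
        rw [mul_assoc, h1, mul_inv_cancel_left]
      have h4 : v'.1 * v.1⁻¹ * x = x * (v'.1 * v.1⁻¹) := by
        have := congrArg (fun t => t * (x * v.1⁻¹)) h3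
        simp only [mul_assoc, inv_mul_cancel_left, mul_inv_cancel, mul_one] at this
        simpa [mul_assoc] using this
      exact h4.symm
  have hcard : Nat.card (EF E b F) = Nat.card (EF E a F) := by
    rw [h.card_EF hq hF hb, h.card_EF hq hF ha]
  have hbij := (Nat.bijective_iff_injective_and_card _).mpr ⟨hinj, hcard⟩
  obtain ⟨y, hy⟩ := hbij.2 ⟨w, hw⟩
  exact ⟨y.1, y.2, (congrArg Subtype.val hy).symm⟩

/-- hyperplanes are subspaces -/
theorem Dat.L_sub (h : Dat E r) {F : Set Ω} (hF : IsH E F) {a b c : Ω} (hab : a ≠ b) (ha : a ∈ F) (hb : b ∈ F)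
    (hc : c ∈ L E a b) : c ∈ F := by
  obtain ⟨d, u, hu, hu1, rfl, -⟩ := hF
  exact h.fx_sub hu hab ha hb hc

/-- product of elations with the same axis -/
theorem Dat.mul_EF (h : Dat E r) {F : Set Ω} (hF : IsH E F) {a b : Ω} (hab : a ≠ b) (ha : a ∈ F) (hb : b ∈ F)
    {v w : G} (hv : v ∈ EF E b F) (hv1 : v ≠ 1) (hw : w ∈ EF E a F) :
    ∃ x ∈ E a, x • b ∈ F ∧ v * w ∈ EF E (x • b) F := by
  obtain ⟨x, hx, e⟩ := h.exists_x hF hab ha hb hv hv1 hw
  have hxb : x • b ∈ F := h.L_sub hF hab ha hb (h.smul_mem_L hab hx)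
  refine ⟨x, hx, hxb, ?_, ?_⟩
  · rw [e, mul_inv_cancel_left]
    exact h.conj x b v hv.1
  · intro p hp
    rw [mul_smul, hw.2 p hp, hv.2 p hp]

/-- the group of elations with axis `F` -/
def J (h : Dat E r) {F : Set Ω} (hF : IsH E F) : Subgroup G where
  carrier := {x | ∃ a ∈ F, x ∈ EF E a F}
  one_mem' := by
    obtain ⟨a, u, hu, hu1, rfl, -⟩ := hF
    exact ⟨a, h.fix a u hu, one_mem _⟩
  mul_mem' := by
    rintro x y ⟨a, ha, hx⟩ ⟨b, hb, hy⟩
    by_cases hab : b = a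
    · subst hab
      exact ⟨b, hb, mul_mem hx hy⟩
    by_cases hx1 : x = 1
    · subst hx1
      exact ⟨b, hb, by rwa [one_mul]⟩
    · obtain ⟨z, hz, h1, h2⟩ := h.mul_EF hF hab hb ha hx hx1 hy
      exact ⟨_, h1, h2⟩
  inv_mem' := by
    rintro x ⟨a, ha, hx⟩
    exact ⟨a, ha, inv_mem hx⟩

theorem mem_J (h : Dat E r) {F : Set Ω} (hF : IsH E F) {x : G} : x ∈ J h hF ↔ ∃ a ∈ F, x ∈ EF E a F := Iff.rfl

/-- `E a` is transitive on the points of a line through `a` -/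
theorem Dat.L_trans (h : Dat E r) {a b c : Ω} (hab : a ≠ b) (hc : c ∈ L E a b) (hca : c ≠ a) :
    ∃ x ∈ E a, x • b = c := by
  obtain ⟨F, hF, ha, hb⟩ := h.exists_H hab
  have hcF : c ∈ F := h.L_sub hF hab ha hb hc
  by_cases hcb : c = b
  · exact ⟨1, one_mem _, by rw [one_smul, hcb]⟩
  obtain ⟨v, hv, hv1⟩ := h.EF_ne hF hb
  obtain ⟨x, hx, hxb⟩ := h.exists_moves hab
  have hxc : x • c ≠ c := by
    intro h1
    apply hxb
    have := h.L_eq hab (left_mem_L hab) hc hca.symm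
    exact h.X_fix hca.symm (by rw [this]; exact right_mem_L hab) hx h1
  obtain ⟨w, hw, e⟩ := h.exists_v hF hca.symm ha hcF hx hxc (h.comm_mem hab ha hx hv)
  -- z = w v⁻¹ commutes with x
  have hz : w * v⁻¹ * x = x * (w * v⁻¹) := by
    have h3 : w * v⁻¹ * (x * v * x⁻¹) = x * w * x⁻¹ := by
      rw [mul_assoc, e, mul_inv_cancel_left]
    have := congrArg (fun t => t * (x * v⁻¹)) h3
    simp only [mul_assoc, inv_mul_cancel_left, mul_inv_cancel, mul_one] at this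
    simpa [mul_assoc] using this
  have hvi : v⁻¹ ∈ EF E b F := inv_mem hv
  have hw1 : w ≠ 1 := by
    rintro rfl
    apply h.comm_ne hxb hv.1 hv1
    rw [e]; simp
  obtain ⟨y, hy, hyF, hyE⟩ := h.mul_EF hF (Ne.symm hcb) hb hcF hw hw1 hvi
  have hyL : y • c ∈ L E a b := by
    have h1 : y • c ∈ L E b c := h.smul_mem_L (Ne.symm hcb) hy
    rwa [h.L_eq hab (right_mem_L hab) hc (Ne.symm hcb)] at h1
  have hz1 : w * v⁻¹ ≠ 1 := by
    intro h1
    have h2 : w = v := mul_inv_eq_one.mp h1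
    subst h2
    exact hv1 (h.ti (Ne.symm hcb) hv.1 hw.1)
  have hxd : x • (y • c) = y • c := h.cent hyE.1 hz1 hz.symm
  have hya : y • c = a := by
    by_contra hne
    apply hxb
    have := h.L_eq hab (left_mem_L hab) hyL (Ne.symm hne)
    exact h.X_fix (Ne.symm hne) (by rw [this]; exact right_mem_L hab) hx hxd
  rw [hya] at hyE
  -- w = v * z
  have hcomm := h.EF_comm ha hb hyE hv
  obtain ⟨t, ht, et⟩ := h.exists_x hF hab ha hb hv hv1 hyE
  refine ⟨t, ht, ?_⟩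
  have e1 : w = t * v * t⁻¹ := by
    have : v * (w * v⁻¹) = t * v * t⁻¹ := by rw [et, mul_inv_cancel_left]
    rw [← this, ← hcomm]; group
  by_contra hne
  apply hw1
  refine h.ti (Ne.symm hne) hw.1 ?_
  rw [e1]
  exact h.conj t b v hv.1

/-- the subgroup generated by the elations with centre `a` -/
def E0 (h : Dat E r) (a : Ω) : Subgroup G where
  carrier := {x | x = 1 ∨ ∃ F, IsH E F ∧ a ∈ F ∧ x ∈ EF E a F}
  one_mem' := Or.inl rfl
  inv_mem' := by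
    rintro x (rfl | ⟨F, hF, ha, hx⟩)
    · left; simp
    · exact Or.inr ⟨F, hF, ha, inv_mem hx⟩
  mul_mem' := by
    rintro u₀ u (rfl | ⟨F₀, hF₀, ha₀, hu₀⟩) hu
    · simpa using hu
    rcases hu with (rfl | ⟨F, hF, ha, hu⟩)
    · right; exact ⟨F₀, hF₀, ha₀, by simpa using hu₀⟩
    by_cases hu1 : u = 1
    · right; subst hu1; exact ⟨F₀, hF₀, ha₀, by simpa using hu₀⟩
    by_cases hFF : F₀ ⊆ F
    · right
      have : F₀ = F := by
        obtain ⟨b, v, hv, hv1, rfl, hmax⟩ := hF₀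
        obtain ⟨b', v', hv', hv1', rfl, hmax'⟩ := hF
        exact Set.eq_of_subset_of_ncard_le hFF (hmax b' v' hv' hv1')
      subst this
      exact ⟨F₀, hF₀, ha₀, mul_mem hu₀ hu⟩
    · right
      obtain ⟨b, hb₀, hb⟩ := Set.not_subset.mp hFF
      have hab : a ≠ b := by rintro rfl; exact hb ha
      have hub : u • b ≠ b := by
        intro h1
        apply hb
        rw [← h.EF_fx hF hu hu1]
        exact h1
      obtain ⟨v, hv, e⟩ := h.exists_v hF₀ hab ha₀ hb₀ hu.1 hub hu₀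
      have hva : v⁻¹ • a = a := by rw [inv_smul_eq_iff, hv.2 a ha₀]
      refine ⟨(fun p => v⁻¹ • p) '' F, h.isH_smul hF v⁻¹, ⟨a, ha, hva⟩, ?_, ?_⟩
      · have h1 := h.conj v⁻¹ a u hu.1
        rw [hva] at h1
        have e2 : u₀ * u = v⁻¹ * u * v⁻¹⁻¹ := by rw [e]; group
        rw [e2]
        exact h1
      · rintro _ ⟨p, hp, rfl⟩
        have e2 : u₀ * u = v⁻¹ * u * v := by rw [e]; group
        show (u₀ * u) • v⁻¹ • p = v⁻¹ • p
        rw [e2, mul_smul, smul_inv_smul, mul_smul, hu.2 p hp]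

theorem E0_le (h : Dat E r) {a : Ω} {x : G} (hx : x ∈ E0 h a) : x ∈ E a := by
  rcases hx with (rfl | ⟨F, -, -, hx⟩)
  · exact one_mem _
  · exact hx.1

theorem E0_fx (h : Dat E r) {a : Ω} {x : G} (hx : x ∈ E0 h a) (hx1 : x ≠ 1) : IsH E (fx Ω x) := by
  rcases hx with (rfl | ⟨F, hF, -, hx⟩)
  · exact absurd rfl hx1
  · rw [h.EF_fx hF hx hx1]
    exact hF

theorem Dat.dat0 (h : Dat E r) : Dat (E0 h) r where
  prime := h.prime
  conj := by
    rintro g a x (rfl | ⟨F, hF, ha, hx⟩)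
    · left; simp
    · right
      refine ⟨_, h.isH_smul hF g, ⟨a, ha, rfl⟩, h.conj g a x hx.1, ?_⟩
      rintro _ ⟨p, hp, rfl⟩
      show (g * x * g⁻¹) • g • p = g • p
      rw [mul_smul, mul_smul, inv_smul_smul, hx.2 p hp]
  fix := fun a x hx => h.fix a x (E0_le h hx)
  comm := fun a x y hx hy => h.comm a x y (E0_le h hx) (E0_le h hy)
  pow := fun a x hx => h.pow a x (E0_le h hx)
  two := h.two
  faith := h.faith
  ns := by
    intro a b hab
    obtain ⟨F, hF, ha, hb⟩ := h.exists_H hab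
    obtain ⟨w, hw, hw1⟩ := h.EF_ne hF ha
    exact ⟨w, Or.inr ⟨F, hF, ha, hw⟩, hw1, hw.2 b hb⟩

theorem Dat.uni0 (h : Dat E r) {a b : Ω} {x y : G} (hx : x ∈ E0 h a) (hx1 : x ≠ 1) (hy : y ∈ E0 h b) (hy1 : y ≠ 1) :
    (fx Ω x).ncard = (fx Ω y).ncard := by
  obtain ⟨c, u, hu, hu1, e, hmax⟩ := E0_fx h hx hx1
  obtain ⟨c', u', hu', hu1', e', hmax'⟩ := E0_fx h hy hy1
  rw [e, e']
  exact le_antisymm (hmax' c u hu hu1) (hmax c' u' hu' hu1')

end Cfsg.Agent.Lib.H50ON
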