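import Mathlib
import Cfsg.Agent.Lib.H50ON2
import Cfsg.Agent.Lib.H50Des1

/-! Doubly transitive groups, part 3 (helper50): counting, every line meets every hyperplane. -/

set_option autoImplicit false

namespace Cfsg.Agent.Lib.H50ON

variable {G Ω : Type*} [Group G] [MulAction G Ω] {E : Ω → Subgroup G} {r : ℕ}

/-- all non-identity elements have the same number of fixed points -/
def Uni (E : Ω → Subgroup G) : Prop :=
  ∀ a b : Ω, ∀ x ∈ E a, ∀ y ∈ E b, x ≠ 1 → y ≠ 1 → (fx Ω x).ncard = (fx Ω y).ncard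

theorem Uni.isH (hu : Uni E) {a : Ω} {x : G} (hx : x ∈ E a) (hx1 : x ≠ 1) : IsH E (fx Ω x) :=
  ⟨a, x, hx, hx1, rfl, fun b v hv hv1 => le_of_eq (hu b a v hv x hx hv1 hx1)⟩

variable [Finite G] [Finite Ω]

theorem Dat.ncard_L (h : Dat E r) {q : ℕ} (hq : HasQ E q) {a b : Ω} (hab : a ≠ b) :
    (L E a b \ {a}).ncard = q := by
  rw [← card_quot hq hab]
  have hinj : Function.Injective (fun y : ↥(E a) ⧸ (X E a b).subgroupOf (E a) => (y.out.1 • b : Ω)) := by
    intro y z hyz
    have hyz' : y.out.1 • b = z.out.1 • b := hyz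
    rw [← QuotientGroup.out_eq' y, ← QuotientGroup.out_eq' z, QuotientGroup.eq, Subgroup.mem_subgroupOf]
    refine ⟨(y.out⁻¹ * z.out).2, ?_⟩
    show (y.out.1⁻¹ * z.out.1) • b = b
    rw [mul_smul, inv_smul_eq_iff, hyz']
  have himg : L E a b \ {a} = Set.range (fun y : ↥(E a) ⧸ (X E a b).subgroupOf (E a) => (y.out.1 • b : Ω)) := by
    ext c
    constructor
    · rintro ⟨hc, hca⟩
      obtain ⟨x, hx, rfl⟩ := h.L_trans hab hc hca
      refine ⟨((⟨x, hx⟩ : ↥(E a)) : ↥(E a) ⧸ (X E a b).subgroupOf (E a)), ?_⟩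
      have h1 := QuotientGroup.mk_out_eq_mul ((X E a b).subgroupOf (E a)) (⟨x, hx⟩ : ↥(E a))
      obtain ⟨⟨y, hy⟩, e⟩ := h1
      rw [Subgroup.mem_subgroupOf] at hy
      show ((((⟨x, hx⟩ : ↥(E a)) : ↥(E a) ⧸ (X E a b).subgroupOf (E a)).out).1 • b : Ω) = x • b
      rw [e]
      show (x * y.1) • b = x • b
      rw [mul_smul, hy.2]
    · rintro ⟨y, rfl⟩
      exact ⟨h.smul_mem_L hab y.out.2, (h.smul_ne hab y.out.2).symm⟩
  rw [himg, Set.ncard_range_of_injective hinj]

theorem Dat.ncard_H (h : Dat E r) {F F' : Set Ω} (hF : IsH E F) (hF' : IsH E F') : F.ncard = F'.ncard := by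
  obtain ⟨b, v, hv, hv1, rfl, hmax⟩ := hF
  obtain ⟨b', v', hv', hv1', rfl, hmax'⟩ := hF'
  exact le_antisymm (hmax' b v hv hv1) (hmax b' v' hv' hv1')

theorem Dat.two_le_q (h : Dat E r) {q : ℕ} (hq : HasQ E q) {a b : Ω} (hab : a ≠ b) : 2 ≤ q := by
  obtain ⟨F, hF, ha, hb⟩ := h.exists_H hab
  obtain ⟨w, hw, hw1⟩ := h.EF_ne hF ha
  rw [← h.card_EF hq hF ha]
  haveI : Nontrivial (EF E a F) := ⟨⟨w, hw⟩, 1, fun h' => hw1 (congrArg Subtype.val h')⟩
  exact Finite.one_lt_card

open Classical in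
/-- number of non-identity elements of a subgroup -/
theorem card_ne_one {G : Type*} [Group G] [Fintype G] (K : Subgroup G) :
    (Finset.univ.filter (fun x => x ∈ K ∧ x ≠ 1)).card = Nat.card K - 1 := by
  have h1 : Finset.univ.filter (fun x => x ∈ K ∧ x ≠ 1) = (Finset.univ.filter (fun x => x ∈ K)).erase 1 := by
    ext x
    simp [and_comm]
  rw [h1, Finset.card_erase_of_mem (by simp [one_mem])]
  congr 1
  rw [Nat.card_eq_fintype_card, Fintype.card_subtype]

open Classical in
/-- the main count: `|Ω| ≤ 1 + k q` and Fisher -/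
theorem Dat.count (h : Dat E r) (hu : Uni E) {q k : ℕ} (hq : HasQ E q) {a₀ b₀ : Ω} (hab : a₀ ≠ b₀)
    (hk : ∀ F, IsH E F → F.ncard = k) : Nat.card Ω ≤ 1 + k * q := by
  letI := Fintype.ofFinite G
  letI := Fintype.ofFinite Ω
  have h2q := h.two_le_q hq hab
  -- counts
  have hcount : ∀ (K : Subgroup G) (T : Finset (Set Ω)) (a : Ω), (∀ x ∈ K, x ≠ 1 → fx Ω x ∈ T) →
      (∀ x ∈ K, x ∈ E a) →
      (∀ F ∈ T, IsH E F ∧ a ∈ F ∧ EF E a F ≤ K) → Nat.card K - 1 = T.card * (q - 1) := by
    intro K T a h1 h0 h2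
    rw [← card_ne_one, Finset.card_eq_sum_card_fiberwise (f := fun x => fx Ω x) (t := T)]
    · rw [Finset.sum_const_nat (m := q - 1)]
      intro F hF
      obtain ⟨hF1, hF2, hF3⟩ := h2 F hF
      rw [← h.card_EF hq hF1 hF2, ← card_ne_one]
      congr 1
      ext x
      simp only [Finset.mem_filter, Finset.mem_univ, true_and]
      constructor
      · rintro ⟨⟨hx, hx1⟩, rfl⟩
        exact ⟨⟨h0 x hx, fun p hp => hp⟩, hx1⟩
      · rintro ⟨hx, hx1⟩
        exact ⟨⟨hF3 hx, hx1⟩, h.EF_fx hF1 hx hx1⟩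
    · intro x hx
      simp only [Finset.coe_filter, Finset.mem_univ, true_and, Set.mem_setOf_eq] at hx
      exact h1 x hx.1 hx.2
  let TA : Ω → Finset (Set Ω) := fun a => Finset.univ.filter (fun F => IsH E F ∧ a ∈ F)
  let TB : Ω → Ω → Finset (Set Ω) := fun a b => Finset.univ.filter (fun F => IsH E F ∧ a ∈ F ∧ b ∈ F)
  have hA : ∀ a, Nat.card (E a) - 1 = (TA a).card * (q - 1) := by
    intro a
    apply hcount (E a) (TA a) a
    · intro x hx hx1
      simp only [TA, Finset.mem_filter, Finset.mem_univ, true_and]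
      exact ⟨hu.isH hx hx1, h.fix a x hx⟩
    · exact fun x hx => hx
    · intro F hF
      simp only [TA, Finset.mem_filter, Finset.mem_univ, true_and] at hF
      exact ⟨hF.1, hF.2, fun x hx => hx.1⟩
  have hB : ∀ a b, a ≠ b → Nat.card (X E a b) - 1 = (TB a b).card * (q - 1) := by
    intro a b hab
    apply hcount (X E a b) (TB a b) a
    · intro x hx hx1
      simp only [TB, Finset.mem_filter, Finset.mem_univ, true_and]
      exact ⟨hu.isH hx.1 hx1, h.fix a x hx.1, hx.2⟩
    · exact fun x hx => hx.1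
    · intro F hF
      simp only [TB, Finset.mem_filter, Finset.mem_univ, true_and] at hF
      exact ⟨hF.1, hF.2.1, fun x hx => ⟨hx.1, hx.2 b hF.2.2⟩⟩
  -- constants
  set κ := (TA a₀).card with hκ
  set l := (TB a₀ b₀).card with hl
  have hcA : ∀ a, (TA a).card = κ := by
    intro a
    have h1 : Nat.card (E a) = Nat.card (E a₀) := by
      by_cases ha : a = a₀
      · rw [ha]
      · exact h.card_E ha hab
    have h2 := hA a
    have h3 := hA a₀
    rw [h1, h3] at h2
    have h4 : 0 < q - 1 := by omega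
    exact (Nat.eq_of_mul_eq_mul_right h4 h2).symm
  have hcB : ∀ a b, a ≠ b → (TB a b).card = l := by
    intro a b hne
    have h1 : Nat.card (X E a b) = Nat.card (X E a₀ b₀) := h.card_X hne hab
    have h2 := hB a b hne
    have h3 := hB a₀ b₀ hab
    rw [h1, h3] at h2
    have h4 : 0 < q - 1 := by omega
    exact (Nat.eq_of_mul_eq_mul_right h4 h2).symm
  have hrel : κ = 1 + q * l := by
    have h1 := hA a₀
    have h2 := hB a₀ b₀ hab
    have h3 := hq a₀ b₀ hab
    have h4 : 0 < Nat.card (E a₀) := Nat.card_pos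
    have h5 : 0 < Nat.card (X E a₀ b₀) := Nat.card_pos
    obtain ⟨q', rfl⟩ : ∃ q', q = q' + 1 := ⟨q - 1, by omega⟩
    rw [← hκ, Nat.add_sub_cancel] at h1
    rw [← hl, Nat.add_sub_cancel] at h2
    have h7 : Nat.card (X E a₀ b₀) = l * q' + 1 := by omega
    have h8 : Nat.card (E a₀) = κ * q' + 1 := by omega
    rw [h7, h8] at h3
    have h9 : 0 < q' := by omega
    have h10 : κ * q' = (1 + (q' + 1) * l) * q' := by nlinarith
    exact Nat.eq_of_mul_eq_mul_right h9 h10
  have hl1 : 1 ≤ l := by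
    obtain ⟨F, hF, ha, hb⟩ := h.exists_H hab
    rw [hl, Nat.one_le_iff_ne_zero, ← Nat.pos_iff_ne_zero, Finset.card_pos]
    exact ⟨F, by simp [TB, hF, ha, hb]⟩
  have hlt : l < κ := by
    rw [hrel]
    nlinarith
  -- Fisher
  let β := {F : Set Ω // IsH E F}
  have hfish : Fintype.card Ω ≤ Fintype.card β := by
    apply H50Des.fisher (fun (B : β) (p : Ω) => p ∈ B.1) κ l _ _ hlt
    · intro p
      rw [← hcA p]
      apply Finset.card_bij (fun B _ => B.1)
      · intro B hB
        simp only [Finset.mem_filter, Finset.mem_univ, true_and] at hB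
        simp [TA, hB, B.2]
      · intro B _ B' _ e
        exact Subtype.ext e
      · intro F hF
        simp only [TA, Finset.mem_filter, Finset.mem_univ, true_and] at hF
        exact ⟨⟨F, hF.1⟩, by simp [hF.2], rfl⟩
    · intro p t hpt
      rw [← hcB p t hpt]
      apply Finset.card_bij (fun B _ => B.1)
      · intro B hB
        simp only [Finset.mem_filter, Finset.mem_univ, true_and] at hB
        simp [TB, hB, B.2]
      · intro B _ B' _ e
        exact Subtype.ext e
      · intro F hF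
        simp only [TB, Finset.mem_filter, Finset.mem_univ, true_and] at hF
        exact ⟨⟨F, hF.1⟩, by simp [hF.2], rfl⟩
  -- double counting flags
  have hflag : Fintype.card Ω * κ = Fintype.card β * k := by
    have h1 := Finset.sum_card_bipartiteAbove_eq_sum_card_bipartiteBelow (s := (Finset.univ : Finset Ω))
      (t := (Finset.univ : Finset β)) (fun p B => p ∈ B.1)
    have h2 : ∀ p : Ω, (Finset.bipartiteAbove (fun (p : Ω) (B : β) => p ∈ B.1) Finset.univ p).card = κ := by
      intro p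
      rw [← hcA p]
      apply Finset.card_bij (fun B _ => B.1)
      · intro B hB
        simp only [Finset.mem_bipartiteAbove, Finset.mem_univ, true_and] at hB
        simp [TA, hB, B.2]
      · intro B _ B' _ e
        exact Subtype.ext e
      · intro F hF
        simp only [TA, Finset.mem_filter, Finset.mem_univ, true_and] at hF
        exact ⟨⟨F, hF.1⟩, by simp [hF.2], rfl⟩
    have h3 : ∀ B : β, (Finset.bipartiteBelow (fun (p : Ω) (B : β) => p ∈ B.1) Finset.univ B).card = k := by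
      intro B
      rw [← hk B.1 B.2, Set.ncard_eq_toFinset_card']
      congr 1
      ext p
      simp
    rw [Finset.sum_congr rfl fun p _ => h2 p, Finset.sum_congr rfl fun B _ => h3 B, Finset.sum_const,
      Finset.sum_const] at h1
    simpa using h1
  -- double counting pairs at a point
  have hpair : (Fintype.card Ω - 1) * l = κ * (k - 1) := by
    have h1 := Finset.sum_card_bipartiteAbove_eq_sum_card_bipartiteBelow
      (s := (Finset.univ.filter (fun b : Ω => b ≠ a₀)))
      (t := TA a₀) (fun p B => p ∈ B)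
    have h2 : ∀ b ∈ (Finset.univ.filter (fun b : Ω => b ≠ a₀)),
        (Finset.bipartiteAbove (fun (p : Ω) (B : Set Ω) => p ∈ B) (TA a₀) b).card = l := by
      intro b hb
      simp only [Finset.mem_filter, Finset.mem_univ, true_and] at hb
      rw [← hcB a₀ b (Ne.symm hb)]
      congr 1
      ext F
      simp only [Finset.mem_bipartiteAbove, TA, TB, Finset.mem_filter, Finset.mem_univ, true_and]
      tauto
    have h3 : ∀ F ∈ TA a₀, (Finset.bipartiteBelow (fun (p : Ω) (B : Set Ω) => p ∈ B)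
        (Finset.univ.filter (fun b : Ω => b ≠ a₀)) F).card = k - 1 := by
      intro F hF
      simp only [TA, Finset.mem_filter, Finset.mem_univ, true_and] at hF
      have h4 : Finset.bipartiteBelow (fun (p : Ω) (B : Set Ω) => p ∈ B)
        (Finset.univ.filter (fun b : Ω => b ≠ a₀)) F = F.toFinset.erase a₀ := by
        ext p
        simp [and_comm]
      rw [h4, Finset.card_erase_of_mem (by simpa using hF.2), ← Set.ncard_eq_toFinset_card', hk F hF.1]
    rw [Finset.sum_const_nat h2, Finset.sum_const_nat h3] at h1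
    have h5 : (Finset.univ.filter (fun b : Ω => b ≠ a₀)).card = Fintype.card Ω - 1 := by
      rw [Finset.filter_ne' Finset.univ a₀, Finset.card_erase_of_mem (Finset.mem_univ _), Finset.card_univ]
    rw [h5] at h1
    exact h1
  rw [Nat.card_eq_fintype_card]
  set n := Fintype.card Ω with hn
  have hn1 : 1 ≤ n := Fintype.card_pos_iff.mpr ⟨a₀⟩
  -- k ≤ κ
  have hk0 : 1 ≤ k := by
    obtain ⟨F, hF, ha, hb⟩ := h.exists_H hab
    rw [← hk F hF]
    exact Nat.one_le_iff_ne_zero.mpr (by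
      rw [Ne, Set.ncard_eq_zero]
      exact Set.Nonempty.ne_empty ⟨a₀, ha⟩)
  have hkκ : k ≤ κ := by
    by_contra hcon
    push Not at hcon
    have h1 : n * κ < n * k := Nat.mul_lt_mul_of_pos_left hcon hn1
    have h2 : n * k ≤ Fintype.card β * k := Nat.mul_le_mul_right _ hfish
    omega
  -- conclusion
  obtain ⟨n', hn'⟩ : ∃ n', n = n' + 1 := ⟨n - 1, by omega⟩
  obtain ⟨k', rfl⟩ : ∃ k', k = k' + 1 := ⟨k - 1, by omega⟩
  rw [hn'] at hpair ⊢
  simp only [Nat.add_sub_cancel] at hpair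
  rw [hrel] at hpair hkκ
  have h3 : k' ≤ q * l := by omega
  have h4 : n' * l ≤ ((k' + 1) * q) * l := by
    rw [hpair]
    nlinarith
  have h5 : n' ≤ (k' + 1) * q := Nat.le_of_mul_le_mul_right h4 hl1
  omega

/-- every line meets every hyperplane -/
theorem Dat.meet (h : Dat E r) (hu : Uni E) {F : Set Ω} (hF : IsH E F) {p t : Ω} (hpt : p ≠ t) :
    ∃ a ∈ F, a ∈ L E p t := by
  classical
  letI := Fintype.ofFinite Ω
  by_cases hp : p ∈ F
  · exact ⟨p, hp, left_mem_L hpt⟩
  obtain ⟨q, hq⟩ := h.exists_q hpt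
  -- the points on the lines joining `p` to `F`
  let S : Set Ω := {t | ∃ a ∈ F, t ∈ L E p a ∧ t ≠ p}
  by_contra hcon
  push Not at hcon
  have htS : t ∉ S := by
    rintro ⟨a, ha, ht, htp⟩
    have hpa : p ≠ a := by rintro rfl; exact hp ha
    apply hcon a ha
    rw [h.L_eq hpa (left_mem_L hpa) ht (Ne.symm htp)]
    exact right_mem_L hpa
  have hcardS : F.ncard * q ≤ S.ncard := by
    -- injection
    have h1 : ∀ a ∈ F.toFinset, ((L E p a \ {p}).toFinset).card = q := by
      intro a ha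
      rw [Set.mem_toFinset] at ha
      have hpa : p ≠ a := by rintro rfl; exact hp ha
      rw [← Set.ncard_eq_toFinset_card']
      exact h.ncard_L hq hpa
    have h2 : (F.toFinset.biUnion (fun a => (L E p a \ {p}).toFinset)).card = F.ncard * q := by
      rw [Finset.card_biUnion, Finset.sum_const_nat h1, Set.ncard_eq_toFinset_card']
      intro a ha b hb hab
      rw [Finset.mem_coe, Set.mem_toFinset] at ha hb
      have hpa : p ≠ a := by rintro rfl; exact hp ha
      have hpb : p ≠ b := by rintro rfl; exact hp hb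
      simp only [Function.onFun]
      rw [Finset.disjoint_left]
      intro t ht1 ht2
      simp only [Set.mem_toFinset, Set.mem_sdiff, Set.mem_singleton_iff] at ht1 ht2
      have e1 := h.L_eq hpa (left_mem_L hpa) ht1.1 (Ne.symm ht1.2)
      have e2 := h.L_eq hpb (left_mem_L hpb) ht2.1 (Ne.symm ht2.2)
      have hbL : b ∈ L E p a := by rw [← e1, e2]; exact right_mem_L hpb
      have e3 := h.L_eq hpa (right_mem_L hpa) hbL hab
      apply hp
      apply h.L_sub hF hab ha hb
      rw [e3]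
      exact left_mem_L hpa
    rw [← h2, Set.ncard_eq_toFinset_card']
    apply Finset.card_le_card
    intro t ht
    rw [Finset.mem_biUnion] at ht
    obtain ⟨a, ha, ht⟩ := ht
    rw [Set.mem_toFinset] at ha ht
    rw [Set.mem_toFinset]
    exact ⟨a, ha, ht.1, ht.2⟩
  have hc := h.count hu hq hpt (k := F.ncard) (fun F' hF' => h.ncard_H hF' hF)
  have h3 : (insert p (insert t S) : Set Ω).ncard = S.ncard + 1 + 1 := by
    rw [Set.ncard_insert_of_notMem, Set.ncard_insert_of_notMem htS]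
    intro h4
    rcases h4 with h4 | ⟨a, ha, h4, h5⟩
    · exact hpt h4
    · exact h5 rfl
  have h4 := Set.ncard_le_card (insert p (insert t S) : Set Ω)
  rw [h3] at h4
  omega

/-- elations are transitive on the points off the hyperplane -/
theorem Dat.EF_trans (h : Dat E r) {F : Set Ω} (hF : IsH E F) {a p t : Ω} (ha : a ∈ F) (hp : p ∉ F)
    (ht : t ∈ L E a p) (hta : t ≠ a) : ∃ x ∈ EF E a F, x • p = t := by
  have hap : a ≠ p := by rintro rfl; exact hp ha
  obtain ⟨q, hq⟩ := h.exists_q hap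
  have hinj : Function.Injective (fun x : EF E a F => (x.1 • p : Ω)) := by
    intro x y hxy
    have hxy' : x.1 • p = y.1 • p := hxy
    by_contra hne
    apply hp
    have h2 : y.1⁻¹ * x.1 ∈ EF E a F := mul_mem (inv_mem y.2) x.2
    have h3 : y.1⁻¹ * x.1 ≠ 1 := by
      intro h4
      apply hne
      exact Subtype.ext (inv_mul_eq_one.mp h4).symm
    rw [← h.EF_fx hF h2 h3]
    show (y.1⁻¹ * x.1) • p = p
    rw [mul_smul, inv_smul_eq_iff, hxy']
  have hsub : Set.range (fun x : EF E a F => (x.1 • p : Ω)) ⊆ L E a p \ {a} := by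
    rintro _ ⟨x, rfl⟩
    exact ⟨h.smul_mem_L hap x.2.1, (h.smul_ne hap x.2.1).symm⟩
  have heq : Set.range (fun x : EF E a F => (x.1 • p : Ω)) = L E a p \ {a} := by
    apply Set.eq_of_subset_of_ncard_le hsub _ (Set.toFinite _)
    rw [h.ncard_L hq hap, Set.ncard_range_of_injective hinj, h.card_EF hq hF ha]
  have : t ∈ Set.range (fun x : EF E a F => (x.1 • p : Ω)) := by rw [heq]; exact ⟨ht, hta⟩
  obtain ⟨x, hx⟩ := this
  exact ⟨x.1, x.2, hx⟩

theorem Dat.J_trans (h : Dat E r) (hu : Uni E) {F : Set Ω} (hF : IsH E F) {p t : Ω} (hp : p ∉ F) (ht : t ∉ F) :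
    ∃ x ∈ J h hF, x • p = t := by
  by_cases hpt : p = t
  · exact ⟨1, one_mem _, by rw [one_smul, hpt]⟩
  obtain ⟨a, ha, haL⟩ := h.meet hu hF hpt
  have hpa : p ≠ a := by rintro rfl; exact hp ha
  have hta : t ≠ a := by rintro rfl; exact ht ha
  have e := h.L_eq hpt haL (left_mem_L hpt) hpa.symm
  obtain ⟨x, hx, hxt⟩ := h.EF_trans hF ha hp (t := t) (by rw [e]; exact right_mem_L hpt) hta
  exact ⟨x, ⟨a, ha, hx⟩, hxt⟩

theorem J_free (h : Dat E r) {F : Set Ω} (hF : IsH E F) {p : Ω} (hp : p ∉ F) {x : G} (hx : x ∈ J h hF)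
    (hxp : x • p = p) : x = 1 := by
  by_contra hne
  obtain ⟨a, ha, hx⟩ := hx
  apply hp
  rw [← h.EF_fx hF hx hne]
  exact hxp

/-- separation: a hyperplane through `c`, `d` missing `e` -/
theorem Dat.sep (h : Dat E r) (hu : Uni E) {c d e : Ω} (hcd : c ≠ d) (he : e ∉ L E c d) :
    ∃ F, IsH E F ∧ c ∈ F ∧ d ∈ F ∧ e ∉ F := by
  classical
  letI := Fintype.ofFinite Ω
  by_contra hcon
  push Not at hcon
  have hec : e ≠ c := by rintro rfl; exact he (left_mem_L hcd)
  have hed : e ≠ d := by rintro rfl; exact he (right_mem_L hcd)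
  -- a hyperplane through `c` not through `d`
  obtain ⟨F₁, hF₁, hc₁, hd₁⟩ : ∃ F, IsH E F ∧ c ∈ F ∧ d ∉ F := by
    obtain ⟨F, hF, hc, -⟩ := h.exists_H hcd
    obtain ⟨p, hp⟩ := h.exists_notin hF
    have hcp : c ≠ p := by rintro rfl; exact hp hc
    obtain ⟨g, hg1, hg2⟩ := h.two c p c d hcp hcd
    refine ⟨_, h.isH_smul hF g, ⟨c, hc, hg1⟩, ?_⟩
    rintro ⟨y, hy, hy2⟩
    have : y = p := MulAction.injective g (hy2.trans hg2.symm)
    subst this
    exact hp hy
  let TB : Ω → Ω → Set (Set Ω) := fun a b => {F | IsH E F ∧ a ∈ F ∧ b ∈ F}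
  have hcB : ∀ a b a' b', a ≠ b → a' ≠ b' → (TB a b).ncard = (TB a' b').ncard := by
    intro a b a' b' hab hab'
    obtain ⟨g, rfl, rfl⟩ := h.two a b a' b' hab hab'
    have hinj : Function.Injective (fun F : Set Ω => (fun p => g • p) '' F) :=
      Set.image_injective.mpr (MulAction.injective g)
    rw [← Set.ncard_image_of_injective (TB a b) hinj]
    congr 1
    ext F
    constructor
    · rintro ⟨F, ⟨hF, ha, hb⟩, rfl⟩
      exact ⟨h.isH_smul hF g, ⟨a, ha, rfl⟩, ⟨b, hb, rfl⟩⟩
    · rintro ⟨hF, ha, hb⟩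
      refine ⟨(fun p => g⁻¹ • p) '' F, ⟨h.isH_smul hF g⁻¹, ⟨_, ha, inv_smul_smul g a⟩, ⟨_, hb, inv_smul_smul g b⟩⟩, ?_⟩
      show (fun p => g • p) '' ((fun p => g⁻¹ • p) '' F) = F
      rw [← Set.image_comp]
      have : ((fun p : Ω => g • p) ∘ fun p => g⁻¹ • p) = id := by
        ext p; simp
      rw [this, Set.image_id]
  have h1 : TB c d = TB c e := by
    apply Set.eq_of_subset_of_ncard_le _ _ (Set.toFinite _)
    · rintro F ⟨hF, hc, hd⟩
      exact ⟨hF, hc, hcon F hF hc hd⟩
    · rw [hcB c e c d hec.symm hcd]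
  have he₁ : e ∉ F₁ := by
    intro h2
    have : F₁ ∈ TB c e := ⟨hF₁, hc₁, h2⟩
    rw [← h1] at this
    exact hd₁ this.2.2
  obtain ⟨z, hz, hzL⟩ := h.meet hu hF₁ (Ne.symm hed)
  have hzc : c ≠ z := by
    rintro rfl
    have hcd' := h.L_eq (Ne.symm hed) hzL (left_mem_L (Ne.symm hed)) hcd
    apply he
    rw [hcd']
    exact right_mem_L (Ne.symm hed)
  have h2 : TB c d = TB c z := by
    apply Set.eq_of_subset_of_ncard_le _ _ (Set.toFinite _)
    · rintro F ⟨hF, hc, hd⟩
      exact ⟨hF, hc, h.L_sub hF (Ne.symm hed) hd (hcon F hF hc hd) hzL⟩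
    · rw [hcB c z c d hzc hcd]
  have : F₁ ∈ TB c z := ⟨hF₁, hc₁, hz⟩
  rw [← h2] at this
  exact hd₁ this.2.2

end Cfsg.Agent.Lib.H50ON
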