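import Cfsg.Agent.Lib.OW10

/-! # From a spread set and its dual to a field -/

set_option autoImplicit false

namespace Cfsg.Agent.Lib.OW

universe u v

section absf

variable {V : Type u} [CommGroup V]

/-- evaluation of an endomorphism, multiplicatively -/
def ev (x : AddMonoid.End (Additive V)) (v : V) : V := (x (Additive.ofMul v)).toMul

theorem ev_add (x y : AddMonoid.End (Additive V)) (v : V) : ev (x + y) v = ev x v * ev y v := rfl
theorem ev_neg (x : AddMonoid.End (Additive V)) (v : V) : ev (-x) v = (ev x v)⁻¹ := rfl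
theorem ev_zero (v : V) : ev (0 : AddMonoid.End (Additive V)) v = 1 := rfl
theorem ev_one (v : V) : ev (1 : AddMonoid.End (Additive V)) v = v := rfl
theorem ev_mul (x y : AddMonoid.End (Additive V)) (v : V) : ev (x * y) v = ev x (ev y v) := rfl
theorem ev_hom (x : AddMonoid.End (Additive V)) (v w : V) : ev x (v * w) = ev x v * ev x w := by
  unfold ev
  rw [ofMul_mul, map_add]; rfl
theorem ev_ext {x y : AddMonoid.End (Additive V)} (h : ∀ v, ev x v = ev y v) : x = y := by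
  ext v
  exact h v

/-- endomorphism from a hom -/
def ofHom (φ : V →* V) : AddMonoid.End (Additive V) := MonoidHom.toAdditive φ
theorem ev_ofHom (φ : V →* V) (v : V) : ev (ofHom φ) v = φ v := rfl

theorem abs_field {W E E' : Type u} [Group W] [Group E] [Group E'] [Finite V] [Nontrivial V]
    [Finite W]
    (Ψ : E → V →* W) (Ψ' : E' → W →* V)
    (hΨ1 : ∀ v, Ψ 1 v = 1) (hΨm : ∀ e f v, Ψ (e * f) v = Ψ e v * Ψ f v)
    (hΨ'1 : ∀ v, Ψ' 1 v = 1) (hΨ'm : ∀ e f v, Ψ' (e * f) v = Ψ' e v * Ψ' f v)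
    (hinj : ∀ e v, e ≠ 1 → Ψ e v = 1 → v = 1)
    (hW : Nat.card W = Nat.card V) (hE : Nat.card E = Nat.card V)
    (hl : ∀ e, e ≠ 1 → ∃ e', (∀ v, Ψ' e' (Ψ e v) = v) ∧ ∀ w, Ψ e (Ψ' e' w) = w)
    (hr : ∀ e', e' ≠ 1 → ∃ e, (∀ v, Ψ' e' (Ψ e v) = v) ∧ ∀ w, Ψ e (Ψ' e' w) = w)
    (e1 : E) (he1 : e1 ≠ 1) {p : ℕ} (hp : p.Prime) (hpV : ∀ v : V, v ^ p = 1) :
    ∃ K : Subring (AddMonoid.End (Additive V)), IsField K ∧
      Nat.card K = Nat.card V ∧
      (∀ x ∈ K, ∀ v, v ≠ 1 → ev x v = 1 → x = 0) ∧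
      (∀ v0 v : V, v0 ≠ 1 → ∃ x ∈ K, ev x v0 = v) ∧
      (∀ x ∈ K, ∃ e, ∀ v, Ψ e1 (ev x v) = Ψ e v) ∧
      (∀ e, ∃ x ∈ K, ∀ v, Ψ e1 (ev x v) = Ψ e v) := by
  classical
  -- Ψ e1 is bijective
  have hb1 : Function.Bijective (Ψ e1) := by
    rw [Nat.bijective_iff_injective_and_card]
    refine ⟨?_, hW.symm⟩
    rw [injective_iff_map_eq_one]
    exact fun v hv => hinj e1 v he1 hv
  let M : V ≃* W := MulEquiv.ofBijective (Ψ e1) hb1
  have hM : ∀ v, M v = Ψ e1 v := fun v => rfl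
  have hΨinv : ∀ e v, Ψ e⁻¹ v = (Ψ e v)⁻¹ := by
    intro e v
    have := hΨm e e⁻¹ v
    rw [mul_inv_cancel, hΨ1] at this
    exact (inv_eq_of_mul_eq_one_right this.symm).symm
  have hΨ'inv : ∀ e v, Ψ' e⁻¹ v = (Ψ' e v)⁻¹ := by
    intro e v
    have := hΨ'm e e⁻¹ v
    rw [mul_inv_cancel, hΨ'1] at this
    exact (inv_eq_of_mul_eq_one_right this.symm).symm
  -- J
  let J : AddSubgroup (AddMonoid.End (Additive V)) :=
    { carrier := {x | ∃ e, ∀ v, Ψ e1 (ev x v) = Ψ e v}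
      add_mem' := by
        rintro x y ⟨e, he⟩ ⟨f, hf⟩
        exact ⟨e * f, fun v => by rw [ev_add, map_mul, he, hf, hΨm]⟩
      zero_mem' := ⟨1, fun v => by rw [ev_zero, map_one, hΨ1]⟩
      neg_mem' := by
        rintro x ⟨e, he⟩
        exact ⟨e⁻¹, fun v => by rw [ev_neg, map_inv, he, hΨinv]⟩ }
  let J' : AddSubgroup (AddMonoid.End (Additive V)) :=
    { carrier := {x | ∃ e, ∀ v, ev x v = Ψ' e (Ψ e1 v)}
      add_mem' := by
        rintro x y ⟨e, he⟩ ⟨f, hf⟩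
        exact ⟨e * f, fun v => by rw [ev_add, he, hf, hΨ'm]⟩
      zero_mem' := ⟨1, fun v => by rw [ev_zero, hΨ'1]⟩
      neg_mem' := by
        rintro x ⟨e, he⟩
        exact ⟨e⁻¹, fun v => by rw [ev_neg, he, hΨ'inv]⟩ }
  have hmJ : ∀ x, x ∈ J ↔ ∃ e, ∀ v, Ψ e1 (ev x v) = Ψ e v := fun x => Iff.rfl
  have hmJ' : ∀ x, x ∈ J' ↔ ∃ e, ∀ v, ev x v = Ψ' e (Ψ e1 v) := fun x => Iff.rfl
  -- element of J from e
  have hex : ∀ e, ∃ x ∈ J, ∀ v, Ψ e1 (ev x v) = Ψ e v := by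
    intro e
    refine ⟨ofHom (M.symm.toMonoidHom.comp (Ψ e)), ⟨e, ?_⟩, ?_⟩ <;>
    · intro v
      rw [ev_ofHom, ← hM]
      exact M.apply_symm_apply _
  have h1 : (1 : AddMonoid.End (Additive V)) ∈ J := ⟨e1, fun v => by rw [ev_one]⟩
  have hJ : ∀ x ∈ J, x ≠ 0 → ∃ y ∈ J', x * y = 1 ∧ y * x = 1 := by
    rintro x ⟨e, he⟩ hx
    have he1' : e ≠ 1 := by
      rintro rfl
      apply hx
      apply ev_ext
      intro v
      rw [ev_zero]
      apply hb1.1
      rw [he, hΨ1, map_one]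
    obtain ⟨e', h2, h3⟩ := hl e he1'
    refine ⟨ofHom ((Ψ' e').comp (Ψ e1)), ⟨e', fun v => rfl⟩, ?_, ?_⟩
    · apply ev_ext
      intro v
      rw [ev_mul, ev_one]
      apply hb1.1
      rw [he, ev_ofHom]
      exact h3 _
    · apply ev_ext
      intro v
      rw [ev_mul, ev_one, ev_ofHom, MonoidHom.comp_apply, he, h2]
  have hJ' : ∀ x ∈ J', x ≠ 0 → ∃ y ∈ J, x * y = 1 ∧ y * x = 1 := by
    rintro x ⟨e', he'⟩ hx
    have he1' : e' ≠ 1 := by
      rintro rfl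
      apply hx
      apply ev_ext
      intro v
      rw [ev_zero, he', hΨ'1]
    obtain ⟨e, h2, h3⟩ := hr e' he1'
    obtain ⟨y, hy, hye⟩ := hex e
    refine ⟨y, hy, ?_, ?_⟩
    · apply ev_ext
      intro v
      rw [ev_mul, ev_one, he', hye, h2]
    · apply ev_ext
      intro v
      rw [ev_mul, ev_one]
      apply hb1.1
      rw [hye, he', h3]
  have hU := hua h1 hJ hJ'
  have hinjJ : ∀ x ∈ J, x ≠ 0 → Function.Injective x := by
    intro x hx hx0
    obtain ⟨y, -, -, hyx⟩ := hJ x hx hx0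
    intro a b hab
    have h2 : (y * x) a = (y * x) b := by
      show y (x a) = y (x b)
      rw [hab]
    rw [hyx] at h2
    exact h2
  have hcard : Nat.card J = Nat.card (Additive V) := by
    have h2 : Nat.card (Additive V) = Nat.card V := rfl
    rw [h2, ← hE]
    choose F hF1 hF2 using hex
    symm
    apply Nat.card_congr
    refine Equiv.ofBijective (fun e => (⟨F e, hF1 e⟩ : J)) ⟨?_, ?_⟩
    · intro e f hef
      have h3 : F e = F f := congrArg Subtype.val hef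
      by_contra hne
      have h4 : e * f⁻¹ ≠ 1 := fun h5 => hne (mul_inv_eq_one.1 h5)
      obtain ⟨v, hv⟩ := exists_ne (1 : V)
      apply hv
      apply hinj _ v h4
      rw [hΨm, hΨinv, ← hF2 e, ← hF2 f, h3, mul_inv_cancel]
    · rintro ⟨x, e, he⟩
      refine ⟨e, ?_⟩
      apply Subtype.ext
      apply ev_ext
      intro v
      apply hb1.1
      rw [hF2, he]
  have hpV' : ∀ v : Additive V, p • v = 0 := fun v => hpV v.toMul
  haveI : Finite (Additive V) := inferInstanceAs (Finite V)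
  haveI : Nontrivial (Additive V) := inferInstanceAs (Nontrivial V)
  obtain ⟨K, hK1, hK2, hK3⟩ := alg_field h1 hU hinjJ hp hpV' hcard
  have hKJ : ∀ x, x ∈ K ↔ x ∈ J := by
    intro x; rw [← hK1]; rfl
  refine ⟨K, hK2, ?_, ?_, ?_, ?_, ?_⟩
  · have h2 : Nat.card (Additive V) = Nat.card V := rfl
    rw [← h2, ← hcard]
    apply Nat.card_congr
    exact Equiv.subtypeEquivRight hKJ
  · intro x hx v hv hxv
    by_contra h2
    apply hv
    have h3 := hinjJ x ((hKJ x).1 hx) h2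
    have h4 : x (Additive.ofMul v) = x 0 := by
      rw [map_zero]; exact hxv
    exact h3 h4
  · intro v0 v hv0
    obtain ⟨x, hx, hxv⟩ := hK3 (Additive.ofMul v0) (Additive.ofMul v) hv0
    exact ⟨x, hx, hxv⟩
  · intro x hx
    exact (hmJ x).1 ((hKJ x).1 hx)
  · intro e
    obtain ⟨x, hx, h2⟩ := hex e
    exact ⟨x, (hKJ x).2 hx, h2⟩

end absf

end Cfsg.Agent.Lib.OW
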