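import Cfsg.Agent.Lib.H50ON3
import Cfsg.Agent.Lib.OW13

/-! O'Nan's theorem (helper50), part 4: commutator maps between the components and the field of one
component. -/

set_option autoImplicit false

namespace Cfsg.Agent.Lib.H50ON

universe u w

variable {G : Type u} {Ω : Type w} [Group G] [MulAction G Ω] {E : Ω → Subgroup G} {r : ℕ}

/-- commutator map -/
def D (x v : G) : G := v⁻¹ * (x * v * x⁻¹)

theorem D_spec (x v : G) : x * v * x⁻¹ = v * D x v := by unfold D; group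

theorem D_one (x : G) : D x 1 = 1 := by simp [D]

theorem D_one' (v : G) : D 1 v = 1 := by simp [D]

theorem D_mul {x v w : G} (hc : D x v * w = w * D x v) : D x (v * w) = D x v * D x w := by
  have h1 : D x (v * w) = w⁻¹ * (D x v * (x * w * x⁻¹)) := by unfold D; group
  rw [h1, D_spec x w, ← mul_assoc (D x v), hc]
  group

theorem D_mul' {x y v : G} (hc : x * D y v = D y v * x) : D (x * y) v = D x v * D y v := by
  have h1 : D (x * y) v = v⁻¹ * (x * (y * v * y⁻¹) * x⁻¹) := by unfold D; group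
  rw [h1, D_spec y v, show x * (v * D y v) * x⁻¹ = x * v * (D y v * x⁻¹) by group]
  have h2 : D y v * x⁻¹ = x⁻¹ * D y v := by
    rw [eq_inv_mul_iff_mul_eq, ← mul_assoc, hc]; group
  rw [h2]
  unfold D; group

theorem D_inv {x v : G} (hc : D x v * v = v * D x v) : D x v⁻¹ = (D x v)⁻¹ := by
  have h1 : D x v⁻¹ = v * (x * v * x⁻¹)⁻¹ := by unfold D; group
  rw [h1, D_spec, ← hc]; group

variable [Finite G] [Finite Ω]

theorem Dat.D_mem (h : Dat E r) {F : Set Ω} {a b : Ω} (hab : a ≠ b) (ha : a ∈ F) {x v : G}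
    (hx : x ∈ E a) (hv : v ∈ EF E b F) : D x v ∈ EF E a F := h.comm_mem hab ha hx hv

theorem Dat.comm_a (h : Dat E r) {F : Set Ω} {a b : Ω} (ha : a ∈ F) (hb : b ∈ F) {x v : G}
    (hx : x ∈ EF E a F) (hv : v ∈ EF E b F) : x * v = v * x := h.EF_comm ha hb hx hv

theorem Dat.D_hom (h : Dat E r) {F : Set Ω} {a b : Ω} (hab : a ≠ b) (ha : a ∈ F) (hb : b ∈ F) {x v w : G}
    (hx : x ∈ E a) (hv : v ∈ EF E b F) (hw : w ∈ EF E b F) : D x (v * w) = D x v * D x w :=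
  D_mul (h.comm_a ha hb (h.D_mem hab ha hx hv) hw)

theorem Dat.D_hinv (h : Dat E r) {F : Set Ω} {a b : Ω} (hab : a ≠ b) (ha : a ∈ F) (hb : b ∈ F) {x v : G}
    (hx : x ∈ E a) (hv : v ∈ EF E b F) : D x v⁻¹ = (D x v)⁻¹ :=
  D_inv (h.comm_a ha hb (h.D_mem hab ha hx hv) hv)

theorem Dat.D_add (h : Dat E r) {F : Set Ω} {a b : Ω} (hab : a ≠ b) (ha : a ∈ F) {x y v : G}
    (hx : x ∈ E a) (hy : y ∈ E a) (hv : v ∈ EF E b F) : D (x * y) v = D x v * D y v :=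
  D_mul' (h.comm _ _ _ hx (h.D_mem hab ha hy hv).1)

theorem Dat.D_neg (h : Dat E r) {F : Set Ω} {a b : Ω} (hab : a ≠ b) (ha : a ∈ F) {x v : G}
    (hx : x ∈ E a) (hv : v ∈ EF E b F) : D x⁻¹ v = (D x v)⁻¹ := by
  have h1 := h.D_add hab ha (inv_mem hx) hx hv
  rw [inv_mul_cancel, D_one'] at h1
  exact eq_inv_of_mul_eq_one_left h1.symm

theorem Dat.D_triv (h : Dat E r) {F : Set Ω} {a b : Ω} (hab : a ≠ b) (ha : a ∈ F) {x v : G}
    (hx : x ∈ E a) (hxb : x • b = b) (hv : v ∈ EF E b F) : D x v = 1 := by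
  have h1 := h.comm2 hab hx hxb hv.1 (hv.2 a ha)
  unfold D; rw [h1]; group

theorem Dat.D_inj (h : Dat E r) {b : Ω} {F : Set Ω} {x v : G} (hxb : x • b ≠ b)
    (hv : v ∈ EF E b F) (hD : D x v = 1) : v = 1 := by
  by_contra hv1
  exact h.comm_ne hxb hv.1 hv1 hD

theorem Dat.smul_F (h : Dat E r) {F : Set Ω} (hF : IsH E F) {e p : Ω} (he : e ∈ F) (hp : p ∈ F) {x : G}
    (hx : x ∈ E e) : x • p ∈ F := by
  by_cases hep : e = p
  · subst hep; rw [h.fix _ _ hx]; exact he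
  · exact h.L_sub hF hep he hp (h.smul_mem_L hep hx)

theorem Dat.conj_EF (h : Dat E r) {F : Set Ω} (hF : IsH E F) {d e : Ω} (he : e ∈ F) {x t : G}
    (hx : x ∈ E e) (ht : t ∈ EF E d F) : x * t * x⁻¹ ∈ EF E (x • d) F := by
  refine ⟨h.conj _ _ _ ht.1, fun p hp => ?_⟩
  rw [mul_smul, mul_smul, ht.2 _ (h.smul_F hF he hp (inv_mem hx)), smul_inv_smul]

theorem Dat.EF_disj (h : Dat E r) {F : Set Ω} {a b : Ω} (hab : a ≠ b) {x : G} (ha : x ∈ EF E a F)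
    (hb : x ∈ EF E b F) : x = 1 := h.ti hab ha.1 hb.1

/-- key identity -/
theorem Dat.key (h : Dat E r) {F : Set Ω} (hF : IsH E F) {d e : Ω} (hde : d ≠ e) (hd : d ∈ F) (he : e ∈ F)
    {x z : G} (hx : x ∈ E e) (hxd : x • d ≠ d) (hz : z ∈ E (x • d)) (hzd : z • d = e) {t : G}
    (ht : t ∈ EF E d F) : D z t⁻¹ = x * t * x⁻¹ := by
  have hf : x • d ∈ F := h.smul_F hF he hd hx
  have hfe : e ≠ x • d := h.smul_ne hde.symm hx
  have h1 : x * t * x⁻¹ ∈ EF E (x • d) F := h.conj_EF hF he hx ht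
  have h2 : D x t ∈ EF E e F := h.D_mem hde.symm he hx ht
  have h3 : D z t⁻¹ ∈ EF E (x • d) F := h.D_mem hxd hf hz (inv_mem ht)
  have h4 : z * t⁻¹ * z⁻¹ ∈ EF E e F := by
    have := h.conj_EF hF hf hz (inv_mem ht)
    rwa [hzd] at this
  have h5 : (x * t * x⁻¹)⁻¹ * D z t⁻¹ = (D x t)⁻¹ * (z * t⁻¹ * z⁻¹) := by
    rw [D_spec x t]; unfold D; group
  have h6 : (x * t * x⁻¹)⁻¹ * D z t⁻¹ = 1 := by
    refine h.EF_disj hfe ?_ (mul_mem (inv_mem h1) h3)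
    rw [h5]; exact mul_mem (inv_mem h2) h4
  exact (inv_mul_eq_one.1 h6).symm

theorem Dat.key' (h : Dat E r) {F : Set Ω} (hF : IsH E F) {d e : Ω} (hde : d ≠ e) (hd : d ∈ F) (he : e ∈ F)
    {x z : G} (hx : x ∈ E e) (hxd : x • d ≠ d) (hz : z ∈ E (x • d)) (hzd : z • d = e) {t : G}
    (ht : t ∈ EF E d F) : D x t = z * t⁻¹ * z⁻¹ := by
  have h1 := h.key hF hde hd he hx hxd hz hzd ht
  rw [D_spec x t] at h1
  rw [← mul_right_inj t, ← h1]
  unfold D; group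

theorem Dat.psi_psi (h : Dat E r) {F : Set Ω} (hF : IsH E F) {a b : Ω} (hab : a ≠ b) (ha : a ∈ F) (hb : b ∈ F)
    {x x' : G} (hx : x ∈ E b) (hx' : x' ∈ E a) (hxx : x • a = x' • b) {v : G} (hv : v ∈ EF E a F) :
    D x' (D x v) = v := by
  have hac : a ≠ x' • b := h.smul_ne hab hx'
  have hw : D x v ∈ EF E b F := h.D_mem hab.symm hb hx hv
  have h1 : x * v * x⁻¹ ∈ EF E (x' • b) F := by rw [← hxx]; exact h.conj_EF hF hb hx hv
  have h2 : x' * D x v * x'⁻¹ ∈ EF E (x' • b) F := h.conj_EF hF ha hx' hw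
  have h3 : D x' (D x v) ∈ EF E a F := h.D_mem hab ha hx' hw
  have hc := h.comm_a ha hb hv hw
  have h5 : (x * v * x⁻¹)⁻¹ * (x' * D x v * x'⁻¹) = v⁻¹ * D x' (D x v) := by
    rw [D_spec x v, D_spec x' (D x v), hc]; group
  have h6 : v⁻¹ * D x' (D x v) = 1 := by
    refine h.EF_disj hac (mul_mem (inv_mem hv) h3) ?_
    rw [← h5]; exact mul_mem (inv_mem h1) h2
  exact (inv_mul_eq_one.1 h6).symm

/-- commutative group structure on a component -/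
@[reducible] noncomputable def Dat.cg (h : Dat E r) (F : Set Ω) (a : Ω) : CommGroup ↥(EF E a F) :=
  { (inferInstance : Group ↥(EF E a F)) with
    mul_comm := fun x y => Subtype.ext (h.comm _ _ _ x.2.1 y.2.1) }

/-- the kernel field acting on one component -/
structure KA (E : Ω → Subgroup G) (F : Set Ω) (a : Ω) (K : Type) [Field K] (κ : K → G → G) : Prop where
  mem : ∀ k v, v ∈ EF E a F → κ k v ∈ EF E a F
  hom : ∀ k v w, v ∈ EF E a F → w ∈ EF E a F → κ k (v * w) = κ k v * κ k w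
  add : ∀ k l v, v ∈ EF E a F → κ (k + l) v = κ k v * κ l v
  mul : ∀ k l v, v ∈ EF E a F → κ (k * l) v = κ k (κ l v)
  one : ∀ v, v ∈ EF E a F → κ 1 v = v
  tr : ∀ v v', v ∈ EF E a F → v ≠ 1 → v' ∈ EF E a F → ∃ k, κ k v = v'
  slope : ∀ b ∈ F, b ≠ a → ∀ z ∈ E b, z • a ≠ a → ∀ z' ∈ E b, ∃ k, ∀ v ∈ EF E a F, D z (κ k v) = D z' v
  comp : ∀ b ∈ F, b ≠ a → ∀ x ∈ E a, ∀ z ∈ E b, ∃ k, ∀ v ∈ EF E a F, D x (D z v) = κ k v

open Cfsg.Agent.Lib in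
theorem Dat.field_ab (h : Dat E r) {q : ℕ} (hq : HasQ E q) {F : Set Ω} (hF : IsH E F) {a b : Ω}
    (hab : a ≠ b) (ha : a ∈ F) (hb : b ∈ F) {x0 : G} (hx0 : x0 ∈ E b) (hx0a : x0 • a ≠ a) :
    ∃ (K : Type) (_ : Field K) (κ : K → G → G), Nat.card K = q ∧
      (∀ k v, v ∈ EF E a F → κ k v ∈ EF E a F) ∧
      (∀ k v w, v ∈ EF E a F → w ∈ EF E a F → κ k (v * w) = κ k v * κ k w) ∧
      (∀ k l v, v ∈ EF E a F → κ (k + l) v = κ k v * κ l v) ∧
      (∀ k l v, v ∈ EF E a F → κ (k * l) v = κ k (κ l v)) ∧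
      (∀ v, v ∈ EF E a F → κ 1 v = v) ∧
      (∀ v v', v ∈ EF E a F → v ≠ 1 → v' ∈ EF E a F → ∃ k, κ k v = v') ∧
      (∀ z' ∈ E b, ∃ k, ∀ v ∈ EF E a F, D x0 (κ k v) = D z' v) := by
  classical
  letI := h.cg F a
  letI := h.cg F b
  -- homs
  let DH : ↥(E b) →* (↥(EF E a F) →* ↥(EF E b F)) :=
    { toFun := fun x =>
        { toFun := fun v => ⟨D x.1 v.1, h.D_mem hab.symm hb x.2 v.2⟩
          map_one' := Subtype.ext (D_one _)
          map_mul' := fun v w => Subtype.ext (h.D_hom hab.symm hb ha x.2 v.2 w.2) }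
      map_one' := by
        ext v; exact D_one' _
      map_mul' := fun x y => by
        ext v; exact h.D_add hab.symm hb x.2 y.2 v.2 }
  let DH' : ↥(E a) →* (↥(EF E b F) →* ↥(EF E a F)) :=
    { toFun := fun x =>
        { toFun := fun v => ⟨D x.1 v.1, h.D_mem hab ha x.2 v.2⟩
          map_one' := Subtype.ext (D_one _)
          map_mul' := fun v w => Subtype.ext (h.D_hom hab ha hb x.2 v.2 w.2) }
      map_one' := by
        ext v; exact D_one' _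
      map_mul' := fun x y => by
        ext v; exact h.D_add hab ha x.2 y.2 v.2 }
  have hDH : ∀ (x : ↥(E b)) v, ((DH x v : ↥(EF E b F)) : G) = D x.1 v.1 := fun x v => rfl
  have hDH' : ∀ (x : ↥(E a)) v, ((DH' x v : ↥(EF E a F)) : G) = D x.1 v.1 := fun x v => rfl
  let Ψ : ↥DH.range → ↥(EF E a F) →* ↥(EF E b F) := fun e => e.1
  let Ψ' : ↥DH'.range → ↥(EF E b F) →* ↥(EF E a F) := fun e => e.1
  have hmoves : ∀ e : ↥DH.range, e ≠ 1 → ∃ x : ↥(E b), DH x = e.1 ∧ x.1 • a ≠ a := by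
    rintro ⟨e, x, rfl⟩ he
    refine ⟨x, rfl, fun hxa => he ?_⟩
    apply Subtype.ext
    show DH x = 1
    ext v
    exact h.D_triv hab.symm hb x.2 hxa v.2
  have hmoves' : ∀ e : ↥DH'.range, e ≠ 1 → ∃ x : ↥(E a), DH' x = e.1 ∧ x.1 • b ≠ b := by
    rintro ⟨e, x, rfl⟩ he
    refine ⟨x, rfl, fun hxa => he ?_⟩
    apply Subtype.ext
    show DH' x = 1
    ext v
    exact h.D_triv hab ha x.2 hxa v.2
  have hinj : ∀ e v, e ≠ 1 → Ψ e v = 1 → v = 1 := by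
    intro e v he hev
    obtain ⟨x, hx, hxa⟩ := hmoves e he
    apply Subtype.ext
    refine h.D_inj hxa v.2 ?_
    rw [← hDH, hx]
    exact congrArg Subtype.val hev
  obtain ⟨v1, hv1, hv11⟩ := h.EF_ne hF ha
  haveI : Nontrivial ↥(EF E a F) := ⟨⟨⟨v1, hv1⟩, 1, fun h1 => hv11 (congrArg Subtype.val h1)⟩⟩
  have hcV := h.card_EF hq hF ha
  have hcW := h.card_EF hq hF hb
  have hE : Nat.card ↥DH.range = Nat.card ↥(EF E a F) := by
    rw [hcV, ← hcW]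
    apply Nat.card_congr
    refine Equiv.ofBijective (fun e => Ψ e ⟨v1, hv1⟩) ⟨?_, ?_⟩
    · intro e f hef
      by_contra hne
      have h4 : e * f⁻¹ ≠ 1 := fun h5 => hne (mul_inv_eq_one.1 h5)
      have h5 : Ψ (e * f⁻¹) ⟨v1, hv1⟩ = 1 := by
        have h6 : Ψ (e * f⁻¹) ⟨v1, hv1⟩ = Ψ e ⟨v1, hv1⟩ * (Ψ f ⟨v1, hv1⟩)⁻¹ := rfl
        rw [h6]
        have h7 : Ψ e ⟨v1, hv1⟩ = Ψ f ⟨v1, hv1⟩ := hef
        rw [h7, mul_inv_cancel]
      exact hv11 (congrArg Subtype.val (hinj _ _ h4 h5))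
    · rintro ⟨w, hw⟩
      obtain ⟨x, hx, hxw⟩ := h.exists_x hF hab.symm hb ha hv1 hv11 hw
      exact ⟨⟨DH ⟨x, hx⟩, ⟨x, hx⟩, rfl⟩, Subtype.ext hxw.symm⟩
  have hl : ∀ e, e ≠ 1 → ∃ e', (∀ v, Ψ' e' (Ψ e v) = v) ∧ ∀ w, Ψ e (Ψ' e' w) = w := by
    intro e he
    obtain ⟨x, hx, hxa⟩ := hmoves e he
    have h1 : x.1 • a ∈ L E b a := h.smul_mem_L hab.symm x.2
    have h2 : x.1 • a ∈ L E a b := by rw [L_symm]; exact h1
    obtain ⟨x', hx', hx'b⟩ := h.L_trans hab h2 hxa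
    refine ⟨⟨DH' ⟨x', hx'⟩, ⟨x', hx'⟩, rfl⟩, fun v => Subtype.ext ?_, fun v => Subtype.ext ?_⟩
    · show D x' (Ψ e v).1 = v.1
      have : Ψ e = DH x := hx.symm
      rw [this]
      exact h.psi_psi hF hab ha hb x.2 hx' hx'b.symm v.2
    · have : Ψ e = DH x := hx.symm
      rw [this]
      exact h.psi_psi hF hab.symm hb ha hx' x.2 hx'b v.2
  have hr : ∀ e', e' ≠ 1 → ∃ e, (∀ v, Ψ' e' (Ψ e v) = v) ∧ ∀ w, Ψ e (Ψ' e' w) = w := by
    intro e he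
    obtain ⟨x, hx, hxa⟩ := hmoves' e he
    have h1 : x.1 • b ∈ L E a b := h.smul_mem_L hab x.2
    have h2 : x.1 • b ∈ L E b a := by rw [L_symm]; exact h1
    obtain ⟨x', hx', hx'b⟩ := h.L_trans hab.symm h2 hxa
    refine ⟨⟨DH ⟨x', hx'⟩, ⟨x', hx'⟩, rfl⟩, fun v => Subtype.ext ?_, fun v => Subtype.ext ?_⟩
    · have : Ψ' e = DH' x := hx.symm
      rw [this]
      exact h.psi_psi hF hab ha hb hx' x.2 hx'b v.2
    · show D x' (Ψ' e v).1 = v.1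
      have : Ψ' e = DH' x := hx.symm
      rw [this]
      exact h.psi_psi hF hab.symm hb ha x.2 hx' hx'b.symm v.2
  let e1 : ↥DH.range := ⟨DH ⟨x0, hx0⟩, ⟨x0, hx0⟩, rfl⟩
  have he1 : e1 ≠ 1 := by
    intro h1
    apply hv11
    refine h.D_inj hx0a hv1 ?_
    have h2 : DH ⟨x0, hx0⟩ = 1 := congrArg Subtype.val h1
    have h3 := hDH ⟨x0, hx0⟩ ⟨v1, hv1⟩
    rw [h2] at h3
    exact h3.symm
  obtain ⟨K, hK, hKc, hKinj, hKtr, hKe, heK⟩ := OW.abs_field Ψ Ψ'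
    (fun v => rfl) (fun e f v => rfl) (fun v => rfl) (fun e f v => rfl)
    hinj (by rw [hcV, hcW]) hE hl hr e1 he1 h.prime
    (fun v => Subtype.ext (h.pow _ _ v.2.1))
  rw [hcV] at hKc
  have hq2 := h.two_le_q hq hab
  haveI : Finite K := by
    apply Nat.finite_of_card_ne_zero
    omega
  letI : Field K := hK.toField
  let σ : Shrink.{0} K ≃+* K := (equivShrink.{0} K).symm.ringEquiv
  refine ⟨Shrink.{0} K, inferInstance, fun k v =>
    if hv : v ∈ EF E a F then (OW.ev (σ k).1 (⟨v, hv⟩ : ↥(EF E a F))).1 else 1, ?_, ?_, ?_, ?_, ?_, ?_, ?_, ?_⟩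
  · rw [← hKc]; exact Nat.card_congr σ.toEquiv
  · intro k v hv
    simp only [hv, dif_pos]
    exact (OW.ev (σ k).1 (⟨v, hv⟩ : ↥(EF E a F))).2
  · intro k v w hv hw
    have hvw := mul_mem hv hw
    simp only [hv, hw, hvw, dif_pos]
    have := OW.ev_hom (σ k).1 (⟨v, hv⟩ : ↥(EF E a F)) ⟨w, hw⟩
    exact congrArg Subtype.val this
  · intro k l v hv
    simp only [hv, dif_pos]
    rw [map_add]
    rfl
  · intro k l v hv
    have h1 : (OW.ev (σ l).1 (⟨v, hv⟩ : ↥(EF E a F))).1 ∈ EF E a F := (OW.ev (σ l).1 (⟨v, hv⟩ : ↥(EF E a F))).2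
    simp only [hv, h1, dif_pos]
    rw [map_mul]
    rfl
  · intro v hv
    simp only [hv, dif_pos]
    rw [map_one]
    rfl
  · intro v v' hv hv1 hv'
    obtain ⟨x, hx, hxv⟩ := hKtr ⟨v, hv⟩ ⟨v', hv'⟩ (fun h1 => hv1 (congrArg Subtype.val h1))
    refine ⟨σ.symm ⟨x, hx⟩, ?_⟩
    simp only [hv, dif_pos]
    rw [RingEquiv.apply_symm_apply]
    exact congrArg Subtype.val hxv
  · intro z' hz'
    obtain ⟨x, hx, h2⟩ := heK ⟨DH ⟨z', hz'⟩, ⟨z', hz'⟩, rfl⟩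
    refine ⟨σ.symm ⟨x, hx⟩, fun v hv => ?_⟩
    simp only [hv, dif_pos]
    rw [RingEquiv.apply_symm_apply]
    exact congrArg Subtype.val (h2 ⟨v, hv⟩)

end Cfsg.Agent.Lib.H50ON
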