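import Cfsg.Agent.Lib.H50ON4

/-! O'Nan's theorem (helper50), part 5: the kernel field of a hyperplane. -/

set_option autoImplicit false

namespace Cfsg.Agent.Lib.H50ON

universe u w

variable {G : Type u} {Ω : Type w} [Group G] [MulAction G Ω] {E : Ω → Subgroup G} {r : ℕ}

theorem D_conj (y x v : G) : D (y * x * y⁻¹) (y * v * y⁻¹) = y * D x v * y⁻¹ := by unfold D; group

theorem D_conj' {y z v : G} (hyv : y * v = v * y) : D z v = y * D (y⁻¹ * z * y) v * y⁻¹ := by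
  have h1 := D_conj y (y⁻¹ * z * y) v
  rw [← h1, hyv]
  congr 1 <;> group

variable [Finite G] [Finite Ω]

theorem Dat.D_inj2 (h : Dat E r) {a b : Ω} {F : Set Ω} (hab : a ≠ b) (ha : a ∈ F) (hb : b ∈ F)
    {x v w : G} (hx : x ∈ E b) (hxa : x • a ≠ a)
    (hv : v ∈ EF E a F) (hw : w ∈ EF E a F) (hD : D x v = D x w) : v = w := by
  have h1 : D x (v⁻¹ * w) = 1 := by
    rw [h.D_hom hab.symm hb ha hx (inv_mem hv) hw, h.D_hinv hab.symm hb ha hx hv, hD]; group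
  have h2 := h.D_inj hxa (mul_mem (inv_mem hv) hw) h1
  exact inv_mul_eq_one.1 h2

theorem Dat.third (h : Dat E r) {q : ℕ} (hq : HasQ E q) {a b : Ω} (hab : a ≠ b) :
    ∃ e ∈ L E a b, e ≠ a ∧ e ≠ b := by
  have h1 := h.ncard_L hq hab
  have h2 := h.two_le_q hq hab
  by_contra hne
  push_neg at hne
  have h3 : L E a b \ {a} ⊆ {b} := by
    rintro x ⟨hx, hxa⟩
    exact hne x hx hxa
  have h4 := Set.ncard_le_ncard h3 (Set.finite_singleton b)
  rw [Set.ncard_singleton] at h4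
  omega

theorem Dat.exists_y1 (h : Dat E r) (hu : Uni E) {a b c e : Ω} (hbc : b ≠ c) (ha : a ∉ L E b c)
    (he : e ∈ L E b c) (heb : e ≠ b) (hec : e ≠ c) : ∃ y ∈ E e, y • b = c ∧ y • a = a := by
  have hae : a ≠ e := fun h1 => ha (h1 ▸ he)
  have hLeb : L E e b = L E b c := h.L_eq hbc he (left_mem_L hbc) heb
  have hb : b ∉ L E a e := by
    intro h1
    have h2 : L E e b = L E a e := h.L_eq hae (right_mem_L hae) h1 heb
    apply ha
    rw [← hLeb, h2]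
    exact left_mem_L hae
  obtain ⟨F', hF', haF, heF, hbF⟩ := h.sep hu hae hb
  have hc : c ∈ L E e b := by rw [hLeb]; exact right_mem_L hbc
  obtain ⟨y, hy, hyb⟩ := h.EF_trans hF' heF hbF hc hec.symm
  exact ⟨y, hy.1, hyb, hy.2 a haF⟩

theorem Dat.exists_y (h : Dat E r) (hu : Uni E) {q : ℕ} (hq : HasQ E q) {F : Set Ω} (hF : IsH E F)
    {a b c : Ω} (ha : a ∈ F) (hb : b ∈ F) (hc : c ∈ F) (hba : b ≠ a) (hca : c ≠ a) :
    ∃ y : G, y • a = a ∧ y • b = c ∧ ∀ v ∈ EF E a F, y * v = v * y := by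
  by_cases hbc : b = c
  · subst hbc
    exact ⟨1, one_smul _ _, one_smul _ _, fun v _ => by rw [one_mul, mul_one]⟩
  by_cases hcl : c ∈ L E a b
  · obtain ⟨y, hy, hyb⟩ := h.L_trans hba.symm hcl hca
    exact ⟨y, h.fix _ _ hy, hyb, fun v hv => h.comm _ _ _ hy hv.1⟩
  · have hal : a ∉ L E b c := by
      intro h1
      apply hcl
      have h2 : L E b a = L E b c := h.L_eq hbc (left_mem_L hbc) h1 hba
      rw [L_symm, h2]; exact right_mem_L hbc
    obtain ⟨e, he, heb, hec⟩ := h.third hq hbc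
    obtain ⟨y, hy, hyb, hya⟩ := h.exists_y1 hu hbc hal he heb hec
    have heF : e ∈ F := h.L_sub hF hbc hb hc he
    have hae : a ≠ e := fun h1 => hal (h1 ▸ he)
    exact ⟨y, hya, hyb, fun v hv => h.comm2 hae.symm hy hya hv.1 (hv.2 e heF)⟩

theorem Dat.comp3 (h : Dat E r) (hu : Uni E) {F : Set Ω} (hF : IsH E F)
    {a b c : Ω} (hb : b ∈ F) (hc : c ∈ F) (hbc : b ≠ c) (hal : a ∉ L E b c)
    {x x' : G} (hx : x ∈ E b) (hx' : x' ∈ E c) :
    ∃ x'' ∈ E c, ∀ v ∈ EF E a F, D x' (D x v) = D x'' v := by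
  have hab : a ≠ b := by
    rintro rfl; exact hal (left_mem_L hbc)
  by_cases hxb : x' • b = b
  · refine ⟨1, one_mem _, fun v hv => ?_⟩
    rw [D_one']
    exact h.D_triv hbc.symm hc hx' hxb (h.D_mem hab.symm hb hx hv)
  · have he : x' • b ∈ L E b c := by rw [L_symm]; exact h.smul_mem_L hbc.symm hx'
    have hec : x' • b ≠ c := (h.smul_ne hbc.symm hx').symm
    have heF : x' • b ∈ F := h.smul_F hF hc hb hx'
    obtain ⟨y, hy, hyb, hya⟩ := h.exists_y1 hu hbc hal he hxb hec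
    have hae : a ≠ x' • b := fun h1 => hal (h1 ▸ he)
    have hyc : y * x⁻¹ * y⁻¹ ∈ E c := by
      have := h.conj y b x⁻¹ (inv_mem hx)
      rwa [hyb] at this
    refine ⟨y * x⁻¹ * y⁻¹, hyc, fun v hv => ?_⟩
    have hyv : y * v = v * y := h.comm2 hae.symm hy hya hv.1 (hv.2 _ heF)
    have hDv := h.D_mem hab.symm hb hx hv
    rw [h.key' hF hbc hb hc hx' hxb hy hyb hDv, ← h.D_neg hab.symm hb hx hv, ← D_conj, hyv]
    congr 1; group

/-- existence of the kernel field on one component -/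
theorem Dat.exists_KA (h : Dat E r) (hu : Uni E) {q : ℕ} (hq : HasQ E q) {F : Set Ω} (hF : IsH E F)
    {a : Ω} (ha : a ∈ F) :
    ∃ (K : Type) (_ : Field K) (κ : K → G → G), Nat.card K = q ∧ KA E F a K κ := by
  obtain ⟨b₀, hb₀, hba⟩ := h.exists_other hF a
  obtain ⟨x0, hx0, hx0a⟩ := h.exists_moves hba
  obtain ⟨K, hK, κ, hcard, hmem, hhom, hadd, hmul, hone, htr, hsl⟩ :=
    h.field_ab hq hF hba.symm ha hb₀ hx0 hx0a
  have hzero : ∀ v ∈ EF E a F, κ 0 v = 1 := by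
    intro v hv
    have h1 := hadd 0 0 v hv
    rw [add_zero] at h1
    exact (mul_eq_left.1 h1.symm)
  obtain ⟨v1, hv1, hv11⟩ := h.EF_ne hF ha
  have slope0 : ∀ z ∈ E b₀, z • a ≠ a → ∀ z' ∈ E b₀, ∃ k, ∀ v ∈ EF E a F, D z (κ k v) = D z' v := by
    intro z hz hza z' hz'
    obtain ⟨k1, hk1⟩ := hsl z hz
    obtain ⟨k2, hk2⟩ := hsl z' hz'
    have hk10 : k1 ≠ 0 := by
      rintro rfl
      apply hv11
      refine h.D_inj hza hv1 ?_
      rw [← hk1 v1 hv1, hzero v1 hv1, D_one]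
    refine ⟨k1⁻¹ * k2, fun v hv => ?_⟩
    rw [← hk1 _ (hmem _ _ hv), ← hmul _ _ _ hv, ← mul_assoc, mul_inv_cancel₀ hk10, one_mul, hk2 v hv]
  have comp0 : ∀ x ∈ E a, ∀ z ∈ E b₀, ∃ k, ∀ v ∈ EF E a F, D x (D z v) = κ k v := by
    intro x hx z hz
    by_cases hxb : x • b₀ = b₀
    · refine ⟨0, fun v hv => ?_⟩
      rw [hzero v hv]
      exact h.D_triv hba.symm ha hx hxb (h.D_mem hba hb₀ hz hv)
    · have h1 : x • b₀ ∈ L E b₀ a := by rw [L_symm]; exact h.smul_mem_L hba.symm hx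
      obtain ⟨w, hw, hwa⟩ := h.L_trans hba h1 hxb
      have hwa' : w • a ≠ a := by
        rw [hwa]; exact (h.smul_ne hba.symm hx).symm
      obtain ⟨k, hk⟩ := slope0 w hw hwa' z hz
      refine ⟨k, fun v hv => ?_⟩
      have hDz := h.D_mem hba hb₀ hz hv
      refine h.D_inj2 hba.symm ha hb₀ hw hwa' (h.D_mem hba.symm ha hx hDz) (hmem k v hv) ?_
      rw [hk v hv]
      exact h.psi_psi hF hba hb₀ ha hx hw hwa.symm hDz
  refine ⟨K, hK, κ, hcard, hmem, hhom, hadd, hmul, hone, htr, ?_, ?_⟩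
  · intro b hb hba' z hz hza z' hz'
    obtain ⟨y, hya, hyb, hyv⟩ := h.exists_y hu hq hF ha hb₀ hb hba hba'
    have hw : y⁻¹ * z * y ∈ E b₀ := h.conj' y b₀ z (hyb ▸ hz)
    have hw' : y⁻¹ * z' * y ∈ E b₀ := h.conj' y b₀ z' (hyb ▸ hz')
    have hwa : (y⁻¹ * z * y) • a ≠ a := by
      intro h1
      apply hza
      rw [mul_smul, mul_smul, hya, inv_smul_eq_iff, hya] at h1
      exact h1
    obtain ⟨k, hk⟩ := slope0 _ hw hwa _ hw'
    refine ⟨k, fun v hv => ?_⟩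
    rw [D_conj' (hyv _ (hmem k v hv)), D_conj' (z := z') (hyv _ hv), hk v hv]
  · intro b hb hba' x hx z hz
    obtain ⟨y, hya, hyb, hyv⟩ := h.exists_y hu hq hF ha hb₀ hb hba hba'
    have hw : y⁻¹ * z * y ∈ E b₀ := h.conj' y b₀ z (hyb ▸ hz)
    have hx' : y⁻¹ * x * y ∈ E a := h.conj' y a x (hya.symm ▸ hx)
    obtain ⟨k, hk⟩ := comp0 _ hx' _ hw
    refine ⟨k, fun v hv => ?_⟩
    rw [D_conj' (z := z) (hyv _ hv)]
    have h1 : D x (y * D (y⁻¹ * z * y) v * y⁻¹) = y * D (y⁻¹ * x * y) (D (y⁻¹ * z * y) v) * y⁻¹ := by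
      have h2 := D_conj y (y⁻¹ * x * y) (D (y⁻¹ * z * y) v)
      rw [← h2]; congr 1; group
    rw [h1, hk v hv, hyv _ (hmem k v hv)]; group

end Cfsg.Agent.Lib.H50ON
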