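import Cfsg.Agent.Lib.H50ON5

/-! O'Nan's theorem (helper50), part 6: the kernel field acts on the group of elations with a given axis. -/

set_option autoImplicit false

namespace Cfsg.Agent.Lib.H50ON

universe u w

variable {G : Type u} {Ω : Type w} [Group G] [MulAction G Ω] {E : Ω → Subgroup G} {r : ℕ}
variable {K : Type} [Field K] {κ : K → G → G} {F : Set Ω} {a : Ω}

/-- graph of the extension of a kernel map -/
def RK (E : Ω → Subgroup G) (F : Set Ω) (a : Ω) (κ : K → G → G) (k : K) (v v' : G) : Prop :=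
  (v ∈ EF E a F ∧ v' = κ k v) ∨
    ∃ d ∈ F, d ≠ a ∧ ∃ z ∈ E d, z • a ≠ a ∧ ∃ u ∈ EF E a F, v = D z u ∧ v' = D z (κ k u)

open Classical in
/-- the extension -/
noncomputable def phi (E : Ω → Subgroup G) (F : Set Ω) (a : Ω) (κ : K → G → G) (k : K) (v : G) : G :=
  if hv : ∃ v', RK E F a κ k v v' then hv.choose else 1

theorem KA.map_one (hk : KA E F a K κ) (k : K) : κ k 1 = 1 := by
  have := hk.hom k 1 1 (one_mem _) (one_mem _)
  rw [mul_one] at this
  exact mul_eq_left.1 this.symm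

theorem KA.map_inv (hk : KA E F a K κ) (k : K) {v : G} (hv : v ∈ EF E a F) : κ k v⁻¹ = (κ k v)⁻¹ := by
  have := hk.hom k v v⁻¹ hv (inv_mem hv)
  rw [mul_inv_cancel, hk.map_one] at this
  exact (inv_eq_of_mul_eq_one_right this.symm).symm

variable [Finite G] [Finite Ω]

theorem RK_unique (h : Dat E r) (ha : a ∈ F) (hk : KA E F a K κ) {k : K} {v v' v'' : G}
    (h1 : RK E F a κ k v v') (h2 : RK E F a κ k v v'') : v' = v'' := by
  have hB1 : ∀ v', RK E F a κ k 1 v' → v' = 1 := by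
    rintro v' (⟨-, rfl⟩ | ⟨d, hd, hda, z, hz, hza, u, hu, hv, rfl⟩)
    · exact hk.map_one k
    · have : u = 1 := h.D_inj hza hu hv.symm
      rw [this, hk.map_one, D_one]
  by_cases hv1 : v = 1
  · subst hv1; rw [hB1 _ h1, hB1 _ h2]
  rcases h1 with ⟨hv, rfl⟩ | ⟨d, hd, hda, z, hz, hza, u, hu, hv, rfl⟩ <;>
  rcases h2 with ⟨hv', rfl⟩ | ⟨d', hd', hda', z', hz', hza', u', hu', hv', rfl⟩
  · rfl
  · exact absurd (h.EF_disj hda'.symm hv (hv' ▸ h.D_mem hda' hd' hz' hu')) hv1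
  · exact absurd (h.EF_disj hda.symm hv' (hv ▸ h.D_mem hda hd hz hu)) hv1
  · have hdd : d = d' := by
      by_contra hne
      exact hv1 (h.EF_disj hne (hv ▸ h.D_mem hda hd hz hu) (hv' ▸ h.D_mem hda' hd' hz' hu'))
    subst hdd
    obtain ⟨l, hl⟩ := hk.slope d hd hda z hz hza z' hz'
    have h3 : u = κ l u' := by
      refine h.D_inj2 hda.symm ha hd hz hza hu (hk.mem _ _ hu') ?_
      rw [hl u' hu', ← hv', hv]
    rw [h3, ← hk.mul _ _ _ hu', mul_comm, hk.mul _ _ _ hu', hl _ (hk.mem _ _ hu')]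

theorem phi_eq (h : Dat E r) (ha : a ∈ F) (hk : KA E F a K κ) {k : K} {v v' : G}
    (h1 : RK E F a κ k v v') : phi E F a κ k v = v' := by
  have h2 : ∃ v', RK E F a κ k v v' := ⟨v', h1⟩
  unfold phi
  rw [dif_pos h2]
  exact RK_unique h ha hk h2.choose_spec h1

theorem phi_a (h : Dat E r) (ha : a ∈ F) (hk : KA E F a K κ) (k : K) {v : G} (hv : v ∈ EF E a F) :
    phi E F a κ k v = κ k v := phi_eq h ha hk (Or.inl ⟨hv, rfl⟩)

theorem phi_one (h : Dat E r) (ha : a ∈ F) (hk : KA E F a K κ) (k : K) :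
    phi E F a κ k 1 = 1 := by rw [phi_a h ha hk k (one_mem _), hk.map_one]

theorem phi_D (h : Dat E r) (ha : a ∈ F) (hk : KA E F a K κ) (k : K) {d : Ω} (hd : d ∈ F) (hda : d ≠ a)
    {z : G} (hz : z ∈ E d) {u : G} (hu : u ∈ EF E a F) :
    phi E F a κ k (D z u) = D z (κ k u) := by
  by_cases hza : z • a = a
  · rw [h.D_triv hda hd hz hza hu, h.D_triv hda hd hz hza (hk.mem k _ hu), phi_one h ha hk]
  · exact phi_eq h ha hk (Or.inr ⟨d, hd, hda, z, hz, hza, u, hu, rfl, rfl⟩)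

theorem Dat.ex_D (h : Dat E r) (hF : IsH E F) (ha : a ∈ F) {d : Ω} (hd : d ∈ F) (hda : d ≠ a) :
    ∃ z ∈ E d, z • a ≠ a ∧ ∀ v ∈ EF E d F, ∃ u ∈ EF E a F, v = D z u := by
  obtain ⟨z, hz, hza⟩ := h.exists_moves hda
  exact ⟨z, hz, hza, fun v hv => h.exists_v hF hda hd ha hz hza hv⟩

theorem phi_mem (h : Dat E r) (hF : IsH E F) (ha : a ∈ F) (hk : KA E F a K κ) (k : K) {d : Ω} (hd : d ∈ F)
    {v : G} (hv : v ∈ EF E d F) : phi E F a κ k v ∈ EF E d F := by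
  by_cases hda : d = a
  · subst hda; rw [phi_a h ha hk k hv]; exact hk.mem k v hv
  · obtain ⟨z, hz, hza, hD⟩ := h.ex_D hF ha hd hda
    obtain ⟨u, hu, rfl⟩ := hD v hv
    rw [phi_D h ha hk k hd hda hz hu]
    exact h.D_mem hda hd hz (hk.mem k u hu)

theorem phi_mul_same (h : Dat E r) (hF : IsH E F) (ha : a ∈ F) (hk : KA E F a K κ) (k : K) {d : Ω}
    (hd : d ∈ F) {v w : G} (hv : v ∈ EF E d F) (hw : w ∈ EF E d F) :
    phi E F a κ k (v * w) = phi E F a κ k v * phi E F a κ k w := by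
  by_cases hda : d = a
  · subst hda; rw [phi_a h ha hk k hv, phi_a h ha hk k hw, phi_a h ha hk k (mul_mem hv hw)]
    exact hk.hom k v w hv hw
  · obtain ⟨z, hz, hza, hD⟩ := h.ex_D hF ha hd hda
    obtain ⟨u, hu, rfl⟩ := hD v hv
    obtain ⟨u', hu', rfl⟩ := hD w hw
    rw [← h.D_hom hda hd ha hz hu hu', phi_D h ha hk k hd hda hz hu, phi_D h ha hk k hd hda hz hu',
      phi_D h ha hk k hd hda hz (mul_mem hu hu'), hk.hom k _ _ hu hu',
      h.D_hom hda hd ha hz (hk.mem k _ hu) (hk.mem k _ hu')]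

theorem phi_mul_a (h : Dat E r) (hF : IsH E F) (ha : a ∈ F) (hk : KA E F a K κ) (k : K) {d : Ω}
    (hd : d ∈ F) {v w : G} (hv : v ∈ EF E a F) (hw : w ∈ EF E d F) :
    phi E F a κ k (v * w) = phi E F a κ k v * phi E F a κ k w := by
  by_cases hda : d = a
  · subst hda; exact phi_mul_same h hF ha hk k ha hv hw
  by_cases hv1 : v = 1
  · rw [hv1, one_mul, phi_one h ha hk, one_mul]
  by_cases hw1 : w = 1
  · rw [hw1, mul_one, phi_one h ha hk, mul_one]
  obtain ⟨x, hx, hxw⟩ := h.exists_x hF hda hd ha hv hv1 hw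
  have hxw' : w = D x v := hxw
  have hxa : x • a ≠ a := by
    intro h1
    exact hw1 (by rw [hxw', h.D_triv hda hd hx h1 hv])
  have he : x • a ∈ L E d a := h.smul_mem_L hda hx
  have hed : x • a ≠ d := (h.smul_ne hda hx).symm
  have heF : x • a ∈ F := h.smul_F hF hd ha hx
  have hL : L E (x • a) a = L E d a := h.L_eq hda he (right_mem_L hda) hxa
  obtain ⟨z, hz, hza⟩ := h.L_trans hxa (by rw [hL]; exact left_mem_L hda) hed.symm
  have hkey : ∀ t ∈ EF E a F, D z t⁻¹ = x * t * x⁻¹ := fun t ht =>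
    h.key hF (Ne.symm hda) ha hd hx hxa hz hza ht
  have h1 : v * w = D z v⁻¹ := by rw [hkey v hv, D_spec, hxw']
  rw [h1, phi_D h ha hk k heF hxa hz (inv_mem hv), hk.map_inv k hv, hkey _ (hk.mem k v hv), D_spec, hxw',
    phi_D h ha hk k hd hda hx hv, phi_a h ha hk k hv]

theorem phi_mul (h : Dat E r) (hu : Uni E) {q : ℕ} (hq : HasQ E q) (hF : IsH E F) (ha : a ∈ F)
    (hk : KA E F a K κ) (k : K) {d e : Ω} (hd : d ∈ F) (he : e ∈ F) {v w : G} (hv : v ∈ EF E d F)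
    (hw : w ∈ EF E e F) :
    phi E F a κ k (v * w) = phi E F a κ k v * phi E F a κ k w := by
  by_cases hde : d = e
  · subst hde; exact phi_mul_same h hF ha hk k hd hv hw
  by_cases hda : d = a
  · subst hda; exact phi_mul_a h hF ha hk k he hv hw
  by_cases hea : e = a
  · subst hea
    rw [h.comm_a hd he hv hw, phi_mul_a h hF ha hk k hd hw hv]
    exact h.comm_a he hd (phi_mem h hF ha hk k he hw) (phi_mem h hF ha hk k hd hv)
  by_cases hv1 : v = 1
  · rw [hv1, one_mul, phi_one h ha hk, one_mul]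
  by_cases hw1 : w = 1
  · rw [hw1, mul_one, phi_one h ha hk, mul_one]
  by_cases hal : a ∈ L E d e
  · -- collinear case
    have hL : L E d a = L E d e := h.L_eq hde (left_mem_L hde) hal hda
    have heL : e ∈ L E d a := by rw [hL]; exact right_mem_L hde
    obtain ⟨x, hx, hxa⟩ := h.L_trans hda heL (Ne.symm hde)
    have hw1m : x⁻¹ * w * x ∈ EF E a F := by
      have := h.conj_EF hF hd (inv_mem hx) hw
      rwa [← hxa, inv_smul_smul, inv_inv] at this
    set w₁ := x⁻¹ * w * x with hw₁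
    have hww : w = w₁ * D x w₁ := by rw [← D_spec, hw₁]; group
    have hDm : D x w₁ ∈ EF E d F := h.D_mem hda hd hx hw1m
    have h1 : v * w = w₁ * (v * D x w₁) := by
      rw [hww, ← mul_assoc, h.comm_a hd ha hv hw1m, mul_assoc]
    rw [h1, phi_mul_a h hF ha hk k hd hw1m (mul_mem hv hDm), phi_mul_same h hF ha hk k hd hv hDm,
      hww, phi_mul_a h hF ha hk k hd hw1m hDm, ← mul_assoc, ← mul_assoc,
      h.comm_a ha hd (phi_mem h hF ha hk k ha hw1m) (phi_mem h hF ha hk k hd hv)]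
  · -- noncollinear case
    obtain ⟨x, hx, hxw⟩ := h.exists_x hF (Ne.symm hde) he hd hv hv1 hw
    have hxw' : w = D x v := hxw
    have hxd : x • d ≠ d := by
      intro h1
      exact hw1 (by rw [hxw', h.D_triv (Ne.symm hde) he hx h1 hv])
    have hfL : x • d ∈ L E d e := by rw [L_symm]; exact h.smul_mem_L (Ne.symm hde) hx
    have hfe : x • d ≠ e := (h.smul_ne (Ne.symm hde) hx).symm
    have hfF : x • d ∈ F := h.smul_F hF he hd hx
    have hfa : x • d ≠ a := fun h1 => hal (h1 ▸ hfL)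
    obtain ⟨z, hz, hza, hD⟩ := h.ex_D hF ha hd hda
    obtain ⟨u, hu', hvu⟩ := hD v hv
    obtain ⟨x'', hx'', hx''D⟩ := h.comp3 hu hF hd he hde hal hz hx
    have hphv : phi E F a κ k v = D z (κ k u) := by rw [hvu, phi_D h ha hk k hd hda hz hu']
    have hphw : phi E F a κ k w = D x (D z (κ k u)) := by
      rw [hxw', hvu, hx''D u hu', phi_D h ha hk k he hea hx'' hu', hx''D _ (hk.mem k u hu')]
    have hL : L E (x • d) d = L E d e := h.L_eq hde hfL (left_mem_L hde) hxd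
    obtain ⟨z₂, hz₂, hz₂d⟩ := h.L_trans hxd (by rw [hL]; exact right_mem_L hde) (Ne.symm hfe)
    have hkey : ∀ t ∈ EF E d F, D z₂ t⁻¹ = x * t * x⁻¹ := fun t ht =>
      h.key hF hde hd he hx hxd hz₂ hz₂d ht
    have hal' : a ∉ L E d (x • d) := by rw [L_symm, hL]; exact hal
    obtain ⟨x₃, hx₃, hx₃D⟩ := h.comp3 hu hF hd hfF hxd.symm hal' hz hz₂
    have hDm : D z (κ k u) ∈ EF E d F := h.D_mem hda hd hz (hk.mem k u hu')
    have h1 : v * w = D x₃ u⁻¹ := by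
      rw [← hx₃D _ (inv_mem hu'), h.D_hinv hda hd ha hz hu', ← hvu, hkey v hv, D_spec, hxw']
    rw [h1, phi_D h ha hk k hfF hfa hx₃ (inv_mem hu'), ← hx₃D _ (hk.mem k _ (inv_mem hu')),
      hk.map_inv k hu', h.D_hinv hda hd ha hz (hk.mem k u hu'), hkey _ hDm, D_spec, hphv, hphw]

/-- the kernel field acting on the elation group of a hyperplane -/
structure KJ (h : Dat E r) (hF : IsH E F) (K : Type) [Field K] (φ : K → G → G) : Prop where
  mem : ∀ k, ∀ d ∈ F, ∀ v ∈ EF E d F, φ k v ∈ EF E d F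
  hom : ∀ k, ∀ v ∈ J h hF, ∀ w ∈ J h hF, φ k (v * w) = φ k v * φ k w
  add : ∀ k l, ∀ v ∈ J h hF, φ (k + l) v = φ k v * φ l v
  mul : ∀ k l, ∀ v ∈ J h hF, φ (k * l) v = φ k (φ l v)
  one : ∀ v ∈ J h hF, φ 1 v = v
  tr : ∀ d ∈ F, ∀ v ∈ EF E d F, v ≠ 1 → ∀ v' ∈ EF E d F, ∃ k, φ k v = v'

theorem Dat.exists_KJ (h : Dat E r) (hu : Uni E) {q : ℕ} (hq : HasQ E q) (hF : IsH E F) (ha : a ∈ F) :
    ∃ (K : Type) (_ : Field K) (φ : K → G → G), Nat.card K = q ∧ KJ h hF K φ := by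
  obtain ⟨K, hK, κ, hcard, hk⟩ := h.exists_KA hu hq hF ha
  have hcases : ∀ v ∈ J h hF, v ∈ EF E a F ∨ ∃ d ∈ F, d ≠ a ∧ ∃ z ∈ E d, ∃ u ∈ EF E a F, v = D z u := by
    intro v hv
    obtain ⟨d, hd, hvd⟩ := (mem_J h hF).1 hv
    by_cases hda : d = a
    · left; rw [← hda]; exact hvd
    · obtain ⟨z, hz, -, hD⟩ := h.ex_D hF ha hd hda
      obtain ⟨u, hu', rfl⟩ := hD v hvd
      exact Or.inr ⟨d, hd, hda, z, hz, u, hu', rfl⟩
  refine ⟨K, hK, phi E F a κ, hcard, ?_, ?_, ?_, ?_, ?_, ?_⟩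
  · intro k d hd v hv; exact phi_mem h hF ha hk k hd hv
  · intro k v hv w hw
    obtain ⟨d, hd, hvd⟩ := (mem_J h hF).1 hv
    obtain ⟨e, he, hwe⟩ := (mem_J h hF).1 hw
    exact phi_mul h hu hq hF ha hk k hd he hvd hwe
  · intro k l v hv
    rcases hcases v hv with hva | ⟨d, hd, hda, z, hz, u, hu', rfl⟩
    · rw [phi_a h ha hk _ hva, phi_a h ha hk _ hva, phi_a h ha hk _ hva, hk.add _ _ _ hva]
    · rw [phi_D h ha hk _ hd hda hz hu', phi_D h ha hk _ hd hda hz hu', phi_D h ha hk _ hd hda hz hu',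
        hk.add _ _ _ hu', h.D_hom hda hd ha hz (hk.mem _ _ hu') (hk.mem _ _ hu')]
  · intro k l v hv
    rcases hcases v hv with hva | ⟨d, hd, hda, z, hz, u, hu', rfl⟩
    · rw [phi_a h ha hk _ hva, phi_a h ha hk _ hva, phi_a h ha hk _ (hk.mem _ _ hva), hk.mul _ _ _ hva]
    · rw [phi_D h ha hk _ hd hda hz hu', phi_D h ha hk _ hd hda hz hu',
        phi_D h ha hk _ hd hda hz (hk.mem _ _ hu'), hk.mul _ _ _ hu']
  · intro v hv
    rcases hcases v hv with hva | ⟨d, hd, hda, z, hz, u, hu', rfl⟩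
    · rw [phi_a h ha hk _ hva, hk.one _ hva]
    · rw [phi_D h ha hk _ hd hda hz hu', hk.one _ hu']
  · intro d hd v hv hv1 v' hv'
    by_cases hda : d = a
    · subst hda
      obtain ⟨k, hk'⟩ := hk.tr v v' hv hv1 hv'
      exact ⟨k, by rw [phi_a h ha hk _ hv, hk']⟩
    · obtain ⟨z, hz, hza, hD⟩ := h.ex_D hF ha hd hda
      obtain ⟨u, hu', rfl⟩ := hD v hv
      obtain ⟨u2, hu2, rfl⟩ := hD v' hv'
      have hu1 : u ≠ 1 := by
        rintro rfl; exact hv1 (D_one _)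
      obtain ⟨k, hk'⟩ := hk.tr u u2 hu' hu1 hu2
      exact ⟨k, by rw [phi_D h ha hk _ hd hda hz hu', hk']⟩

end Cfsg.Agent.Lib.H50ON
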