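import Cfsg.Agent.Lib.H50ON6

/-! O'Nan's theorem (helper50), part 7: homogeneous coordinates. -/

set_option autoImplicit false

namespace Cfsg.Agent.Lib.H50ON

universe u w

variable {G : Type u} {Ω : Type w} [Group G] [MulAction G Ω] {E : Ω → Subgroup G} {r : ℕ}
variable {F : Set Ω} [Finite G] [Finite Ω]

/-- an additive model of the elation group -/
structure VI (h : Dat E r) (hF : IsH E F) (K : Type) [Field K] (V : Type u) [AddCommGroup V] [Module K V]
    (ι : V → G) : Prop where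
  add : ∀ v w, ι (v + w) = ι v * ι w
  mem : ∀ v, ι v ∈ J h hF
  surj : ∀ x ∈ J h hF, ∃ v, ι v = x
  inj : ∀ v w, ι v = ι w → v = w
  smul_mem : ∀ (k : K), ∀ c ∈ F, ∀ v, ι v ∈ EF E c F → ι (k • v) ∈ EF E c F
  tr : ∀ c ∈ F, ∀ v v', ι v ∈ EF E c F → v ≠ 0 → ι v' ∈ EF E c F → ∃ k : K, k • v = v'

theorem Dat.exists_VI (h : Dat E r) (hu : Uni E) {q : ℕ} (hq : HasQ E q) (hF : IsH E F) {a : Ω} (ha : a ∈ F) :
    ∃ (K : Type) (_ : Field K) (V : Type u) (_ : AddCommGroup V) (_ : Module K V) (ι : V → G),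
      Nat.card K = q ∧ VI h hF K V ι := by
  obtain ⟨K, hK, φ, hcard, hk⟩ := h.exists_KJ hu hq hF ha
  letI cg : CommGroup ↥(J h hF) :=
    { (inferInstance : Group ↥(J h hF)) with
      mul_comm := fun x y => Subtype.ext (by
        obtain ⟨c, hc, hxc⟩ := (mem_J h hF).1 x.2
        obtain ⟨d, hd, hyd⟩ := (mem_J h hF).1 y.2
        exact h.EF_comm hc hd hxc hyd) }
  have hmem : ∀ k, ∀ x ∈ J h hF, φ k x ∈ J h hF := by
    intro k x hx
    obtain ⟨c, hc, hxc⟩ := (mem_J h hF).1 hx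
    exact (mem_J h hF).2 ⟨c, hc, hk.mem k c hc x hxc⟩
  have h1 : ∀ k, φ k 1 = 1 := by
    intro k
    have := hk.hom k 1 (one_mem _) 1 (one_mem _)
    rw [mul_one] at this
    exact mul_eq_left.1 this.symm
  have h0 : ∀ x ∈ J h hF, φ 0 x = 1 := by
    intro x hx
    have := hk.add 0 0 x hx
    rw [add_zero] at this
    exact mul_eq_left.1 this.symm
  letI md : Module K (Additive ↥(J h hF)) :=
    { smul := fun k v => Additive.ofMul ⟨φ k v.toMul.1, hmem k _ v.toMul.2⟩
      one_smul := fun v => congrArg Additive.ofMul (Subtype.ext (hk.one _ v.toMul.2))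
      mul_smul := fun k l v => congrArg Additive.ofMul (Subtype.ext (hk.mul k l _ v.toMul.2))
      smul_zero := fun k => congrArg Additive.ofMul (Subtype.ext (h1 k))
      smul_add := fun k v w => congrArg Additive.ofMul (Subtype.ext (hk.hom k _ v.toMul.2 _ w.toMul.2))
      add_smul := fun k l v => congrArg Additive.ofMul (Subtype.ext (hk.add k l _ v.toMul.2))
      zero_smul := fun v => congrArg Additive.ofMul (Subtype.ext (h0 _ v.toMul.2)) }
  refine ⟨K, hK, Additive ↥(J h hF), inferInstance, md, fun v => v.toMul.1, hcard, ?_, ?_, ?_, ?_, ?_, ?_⟩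
  · intro v w; rfl
  · intro v; exact v.toMul.2
  · intro x hx; exact ⟨Additive.ofMul ⟨x, hx⟩, rfl⟩
  · intro v w hvw; exact Additive.toMul.injective (Subtype.ext hvw)
  · intro k c hc v hv; exact hk.mem k c hc _ hv
  · intro c hc v v' hv hv0 hv'
    obtain ⟨k, hk'⟩ := hk.tr c hc v.toMul.1 hv (fun h2 => hv0 (Additive.toMul.injective (Subtype.ext h2)))
      v'.toMul.1 hv'
    exact ⟨k, Additive.toMul.injective (Subtype.ext hk')⟩

/-- homogeneous coordinates for the points -/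
structure Co (E : Ω → Subgroup G) (K : Type) [Field K] (W : Type*) [AddCommGroup W] [Module K W]
    (pt : W → Ω) : Prop where
  surj : ∀ p : Ω, ∃ w, w ≠ 0 ∧ pt w = p
  eq : ∀ w w', w ≠ 0 → w' ≠ 0 → (pt w = pt w' ↔ ∃ k : K, k ≠ 0 ∧ w' = k • w)
  add : ∀ w w', w ≠ 0 → w' ≠ 0 → pt w ≠ pt w' → pt (w + w') ∈ L E (pt w) (pt w')

section
variable {K : Type} [Field K] {V : Type u} [AddCommGroup V] [Module K V] {ι : V → G}
variable {h : Dat E r} {hF : IsH E F}

theorem VI.zero (hi : VI h hF K V ι) : ι 0 = 1 := by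
  have := hi.add 0 0
  rw [add_zero] at this
  exact mul_eq_left.1 this.symm

theorem VI.ne_one (hi : VI h hF K V ι) {v : V} (hv : v ≠ 0) : ι v ≠ 1 := fun h1 =>
  hv (hi.inj _ _ (h1.trans hi.zero.symm))

theorem VI.ex_cen (hi : VI h hF K V ι) (v : V) : ∃ c ∈ F, ι v ∈ EF E c F := (mem_J h hF).1 (hi.mem v)

/-- the centre -/
noncomputable def cen (hi : VI h hF K V ι) (v : V) : Ω := (hi.ex_cen v).choose

theorem cen_F (hi : VI h hF K V ι) (v : V) : cen hi v ∈ F := (hi.ex_cen v).choose_spec.1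
theorem cen_mem (hi : VI h hF K V ι) (v : V) : ι v ∈ EF E (cen hi v) F := (hi.ex_cen v).choose_spec.2

theorem cen_eq (hi : VI h hF K V ι) {v : V} (hv : v ≠ 0) {c : Ω} (hc : ι v ∈ EF E c F) : cen hi v = c := by
  by_contra hne
  exact hi.ne_one hv (h.EF_disj hne (cen_mem hi v) hc)

theorem cen_smul (hi : VI h hF K V ι) {v : V} (hv : v ≠ 0) {k : K} (hk : k ≠ 0) : cen hi (k • v) = cen hi v :=
  cen_eq hi (smul_ne_zero hk hv) (hi.smul_mem k _ (cen_F hi v) v (cen_mem hi v))

open Classical in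
/-- the point with given homogeneous coordinates -/
noncomputable def ptt (hi : VI h hF K V ι) (o : Ω) (w : K × V) : Ω :=
  if w.1 = 0 then cen hi w.2 else ι (w.1⁻¹ • w.2) • o

theorem VI.nmem (hi : VI h hF K V ι) {o : Ω} (ho : o ∉ F) (v : V) : ι v • o ∉ F := by
  intro h1
  have h2 := (cen_mem hi v).2 _ h1
  rw [smul_left_cancel_iff] at h2
  exact ho (h2 ▸ h1)

theorem VI.free (hi : VI h hF K V ι) {o : Ω} (ho : o ∉ F) {v w : V} (he : ι v • o = ι w • o) : v = w := by
  have h1 : (ι w)⁻¹ * ι v ∈ J h hF := mul_mem (inv_mem (hi.mem w)) (hi.mem v)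
  have h2 : ((ι w)⁻¹ * ι v) • o = o := by rw [mul_smul, he, inv_smul_smul]
  have h3 := J_free h hF ho h1 h2
  exact (hi.inj _ _ (inv_mul_eq_one.1 h3)).symm

theorem ptt_F (hi : VI h hF K V ι) {o : Ω} {w : K × V} (hw : w.1 = 0) : ptt hi o w = cen hi w.2 := by
  unfold ptt; rw [if_pos hw]

theorem ptt_nF (hi : VI h hF K V ι) {o : Ω} {w : K × V} (hw : w.1 ≠ 0) :
    ptt hi o w = ι (w.1⁻¹ • w.2) • o := by
  unfold ptt; rw [if_neg hw]

theorem ptt_co (hu : Uni E) (hi : VI h hF K V ι) {o : Ω} (ho : o ∉ F) :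
    Co E K (K × V) (ptt hi o) where
  surj := by
    intro p
    by_cases hp : p ∈ F
    · obtain ⟨x, hx, hx1⟩ := h.EF_ne hF hp
      obtain ⟨v, hv⟩ := hi.surj x ((mem_J h hF).2 ⟨p, hp, hx⟩)
      have hv0 : v ≠ 0 := by
        rintro rfl; exact hx1 (by rw [← hv, hi.zero])
      refine ⟨(0, v), fun h1 => hv0 (congrArg Prod.snd h1), ?_⟩
      rw [ptt_F hi rfl]
      exact cen_eq hi hv0 (hv ▸ hx)
    · obtain ⟨x, hx, hxo⟩ := h.J_trans hu hF ho hp
      obtain ⟨v, hv⟩ := hi.surj x hx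
      refine ⟨(1, v), fun h1 => one_ne_zero (congrArg Prod.fst h1), ?_⟩
      rw [ptt_nF hi (one_ne_zero)]
      simp only [inv_one, one_smul]
      rw [hv, hxo]
  eq := by
    rintro ⟨t, v⟩ ⟨t', v'⟩ hw hw'
    constructor
    · intro he
      by_cases ht : t = 0 <;> by_cases ht' : t' = 0
      · subst ht; subst ht'
        have hv : v ≠ 0 := fun h1 => hw (by rw [h1]; rfl)
        have hv' : v' ≠ 0 := fun h1 => hw' (by rw [h1]; rfl)
        rw [ptt_F hi rfl, ptt_F hi rfl] at he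
        obtain ⟨k, hk⟩ := hi.tr _ (cen_F hi v) v v' (cen_mem hi v) hv (by rw [he]; exact cen_mem hi v')
        refine ⟨k, ?_, ?_⟩
        · rintro rfl; rw [zero_smul] at hk; exact hv' hk.symm
        · rw [Prod.smul_mk, smul_zero, hk]
      · exfalso
        rw [ptt_F hi ht, ptt_nF hi ht'] at he
        exact hi.nmem ho _ (he ▸ cen_F hi v)
      · exfalso
        rw [ptt_F hi (w := (t', v')) ht', ptt_nF hi (w := (t, v)) ht] at he
        exact hi.nmem ho _ (he ▸ cen_F hi v')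
      · rw [ptt_nF hi ht, ptt_nF hi ht'] at he
        have h1 := hi.free ho he
        simp only at h1
        refine ⟨t' * t⁻¹, mul_ne_zero ht' (inv_ne_zero ht), ?_⟩
        rw [Prod.smul_mk, smul_eq_mul, mul_assoc, inv_mul_cancel₀ ht, mul_one, mul_smul, h1, smul_smul,
          mul_inv_cancel₀ ht', one_smul]
    · rintro ⟨k, hk, hkw⟩
      rw [Prod.smul_mk, Prod.mk.injEq, smul_eq_mul] at hkw
      obtain ⟨rfl, rfl⟩ := hkw
      by_cases ht : t = 0
      · subst ht
        have hv : v ≠ 0 := fun h1 => hw (by rw [h1]; rfl)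
        rw [ptt_F hi rfl, ptt_F hi (by simp)]
        exact (cen_smul hi hv hk).symm
      · rw [ptt_nF hi ht, ptt_nF hi (mul_ne_zero hk ht)]
        simp only
        rw [smul_smul, mul_inv, mul_assoc, mul_comm t⁻¹, ← mul_assoc, inv_mul_cancel₀ hk, one_mul]
  add := by
    rintro ⟨t, v⟩ ⟨t', v'⟩ hw hw' hne
    by_cases ht : t = 0 <;> by_cases ht' : t' = 0
    · subst ht; subst ht'
      have hv : v ≠ 0 := fun h1 => hw (by rw [h1]; rfl)
      have hv' : v' ≠ 0 := fun h1 => hw' (by rw [h1]; rfl)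
      rw [Prod.mk_add_mk, add_zero]
      rw [ptt_F hi rfl, ptt_F hi rfl] at hne ⊢
      rw [ptt_F hi rfl]
      simp only at hne ⊢
      obtain ⟨x, hx, hxF, hxm⟩ := h.mul_EF hF hne.symm (cen_F hi v') (cen_F hi v) (cen_mem hi v)
        (hi.ne_one hv) (cen_mem hi v')
      rw [← hi.add] at hxm
      have hvv : v + v' ≠ 0 := by
        intro h1
        apply hne
        have h2 : v' = (-1 : K) • v := by rw [neg_one_smul]; exact (neg_eq_of_add_eq_zero_right h1).symm
        rw [h2, cen_smul hi hv (neg_ne_zero.2 one_ne_zero)]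
      rw [cen_eq hi hvv hxm, L_symm]
      exact h.smul_mem_L hne.symm hx
    · subst ht
      have hv : v ≠ 0 := fun h1 => hw (by rw [h1]; rfl)
      rw [Prod.mk_add_mk, zero_add]
      rw [ptt_F hi (w := ((0 : K), v)) rfl, ptt_nF hi (w := (t', v')) ht'] at hne ⊢
      rw [ptt_nF hi (w := (t', v + v')) ht']
      simp only at hne ⊢
      have h1 : ι (t'⁻¹ • (v + v')) • o = ι (t'⁻¹ • v) • ι (t'⁻¹ • v') • o := by
        rw [smul_add, hi.add, mul_smul]
      rw [h1]
      exact h.smul_mem_L hne (hi.smul_mem _ _ (cen_F hi v) v (cen_mem hi v)).1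
    · subst ht'
      have hv' : v' ≠ 0 := fun h1 => hw' (by rw [h1]; rfl)
      rw [Prod.mk_add_mk, add_zero]
      rw [ptt_F hi (w := ((0 : K), v')) rfl, ptt_nF hi (w := (t, v)) ht] at hne ⊢
      rw [ptt_nF hi (w := (t, v + v')) ht]
      simp only at hne ⊢
      have h1 : ι (t⁻¹ • (v + v')) • o = ι (t⁻¹ • v') • ι (t⁻¹ • v) • o := by
        rw [smul_add, add_comm, hi.add, mul_smul]
      rw [h1, L_symm]
      exact h.smul_mem_L hne.symm (hi.smul_mem _ _ (cen_F hi v') v' (cen_mem hi v')).1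
    · rw [Prod.mk_add_mk]
      rw [ptt_nF hi ht, ptt_nF hi ht'] at hne ⊢
      simp only at hne ⊢
      set v₁ := t⁻¹ • v with hv₁
      set v₂ := t'⁻¹ • v' with hv₂
      have hv : v = t • v₁ := by rw [hv₁, smul_smul, mul_inv_cancel₀ ht, one_smul]
      have hv' : v' = t' • v₂ := by rw [hv₂, smul_smul, mul_inv_cancel₀ ht', one_smul]
      clear_value v₁ v₂
      have hd : v₂ - v₁ ≠ 0 := by
        intro h1
        apply hne
        rw [sub_eq_zero.1 h1]
      set c := cen hi (v₂ - v₁) with hc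
      have hcF : c ∈ F := cen_F hi _
      have hcm : ι (v₂ - v₁) ∈ EF E c F := cen_mem hi _
      set p := ι v₁ • o with hp
      have hpF : p ∉ F := hi.nmem ho _
      have hcp : c ≠ p := fun h1 => hpF (h1 ▸ hcF)
      have hp' : ι v₂ • o = ι (v₂ - v₁) • p := by
        rw [hp, ← mul_smul, ← hi.add, sub_add_cancel]
      have hp'L : ι v₂ • o ∈ L E c p := by rw [hp']; exact h.smul_mem_L hcp hcm.1
      have hL : L E p (ι v₂ • o) = L E c p := h.L_eq hcp (right_mem_L hcp) hp'L hne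
      rw [hL]
      by_cases htt : t + t' = 0
      · rw [ptt_F hi htt]
        simp only
        have h1 : v + v' = t' • (v₂ - v₁) := by
          rw [hv, hv', eq_neg_of_add_eq_zero_left htt, smul_sub, neg_smul]; abel
        rw [h1, cen_smul hi hd ht']
        exact left_mem_L hcp
      · rw [ptt_nF hi htt]
        simp only
        have h1 : (t + t')⁻¹ • (v + v') = ((t + t')⁻¹ * t') • (v₂ - v₁) + v₁ := by
          rw [hv, hv', smul_sub, smul_add, smul_smul, smul_smul]
          have h2 : (t + t')⁻¹ * t = 1 - (t + t')⁻¹ * t' := by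
            field_simp; ring
          rw [h2, sub_smul, one_smul]; abel
        rw [h1, hi.add, mul_smul, ← hp]
        exact h.smul_mem_L hcp (hi.smul_mem _ _ hcF _ hcm).1

end

end Cfsg.Agent.Lib.H50ON
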