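import Cfsg.Agent.Lib.H50ON7

/-! O'Nan's theorem (helper50), part 8: the elations are the transvections. -/

set_option autoImplicit false

namespace Cfsg.Agent.Lib.H50ON

universe u w

variable {G : Type u} {Ω : Type w} [Group G] [MulAction G Ω] {E : Ω → Subgroup G} {r : ℕ}

theorem Dat.L_conj (h : Dat E r) (g : G) {a b p : Ω} (hp : p ∈ L E a b) : g • p ∈ L E (g • a) (g • b) := by
  obtain ⟨d, hd, hM⟩ := hp
  refine ⟨g • d, fun h1 => hd (smul_left_cancel g h1), ?_⟩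
  rw [h.M_conj, h.M_conj, hM]

variable {K : Type} [Field K] {W : Type*} [AddCommGroup W] [Module K W] {pt : W → Ω}

theorem Co.pt_smul (hc : Co E K W pt) {w : W} (hw : w ≠ 0) {k : K} (hk : k ≠ 0) : pt (k • w) = pt w :=
  ((hc.eq w (k • w) hw (smul_ne_zero hk hw)).2 ⟨k, hk, rfl⟩).symm

theorem Co.ind (hc : Co E K W pt) {w w' : W} (hw : w ≠ 0) (hw' : w' ≠ 0) (hne : pt w ≠ pt w') {k l : K}
    (hkl : k • w + l • w' = 0) : k = 0 ∧ l = 0 := by
  have hl : l = 0 := by
    by_contra hl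
    by_cases hk : k = 0
    · rw [hk, zero_smul, zero_add] at hkl
      exact smul_ne_zero hl hw' hkl
    · apply hne
      rw [hc.eq w w' hw hw']
      refine ⟨-(l⁻¹ * k), neg_ne_zero.2 (mul_ne_zero (inv_ne_zero hl) hk), ?_⟩
      have h1 : l • w' = -(k • w) := by rw [eq_neg_iff_add_eq_zero, add_comm]; exact hkl
      rw [neg_smul, mul_smul, ← smul_neg, ← h1, smul_smul, inv_mul_cancel₀ hl, one_smul]
  refine ⟨?_, hl⟩
  by_contra hk
  rw [hl, zero_smul, add_zero] at hkl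
  exact smul_ne_zero hk hw hkl

theorem Co.ne_zero (hc : Co E K W pt) {w w' : W} (hw : w ≠ 0) (hw' : w' ≠ 0) (hne : pt w ≠ pt w') {k l : K}
    (hkl : k ≠ 0 ∨ l ≠ 0) : k • w + l • w' ≠ 0 := by
  intro h1
  obtain ⟨h2, h3⟩ := hc.ind hw hw' hne h1
  rcases hkl with h4 | h4
  · exact h4 h2
  · exact h4 h3

theorem Co.mem_L (hc : Co E K W pt) {w w' : W} (hw : w ≠ 0) (hw' : w' ≠ 0) (hne : pt w ≠ pt w') {k l : K}
    (hkl : k ≠ 0 ∨ l ≠ 0) : pt (k • w + l • w') ∈ L E (pt w) (pt w') := by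
  by_cases hk : k = 0
  · have hl : l ≠ 0 := by tauto
    rw [hk, zero_smul, zero_add, hc.pt_smul hw' hl]
    exact right_mem_L hne
  by_cases hl : l = 0
  · rw [hl, zero_smul, add_zero, hc.pt_smul hw hk]
    exact left_mem_L hne
  have h1 := hc.add (k • w) (l • w') (smul_ne_zero hk hw) (smul_ne_zero hl hw')
    (by rw [hc.pt_smul hw hk, hc.pt_smul hw' hl]; exact hne)
  rwa [hc.pt_smul hw hk, hc.pt_smul hw' hl] at h1

variable [Finite G] [Finite Ω]

theorem Co.line (hc : Co E K W pt) (h : Dat E r) (hq : HasQ E (Nat.card K)) {w w' : W} (hw : w ≠ 0)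
    (hw' : w' ≠ 0) (hne : pt w ≠ pt w') {p : Ω} (hp : p ∈ L E (pt w) (pt w')) (hpw : p ≠ pt w) :
    ∃ k : K, p = pt (w' + k • w) := by
  classical
  have h2 := h.two_le_q hq hne
  haveI : Finite K := by
    apply Nat.finite_of_card_ne_zero; omega
  have hnz : ∀ k : K, w' + k • w ≠ 0 := by
    intro k
    have := hc.ne_zero hw' hw hne.symm (k := 1) (l := k) (Or.inl one_ne_zero)
    rwa [one_smul] at this
  have hmem : ∀ k : K, pt (w' + k • w) ∈ L E (pt w) (pt w') \ {pt w} := by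
    intro k
    refine ⟨?_, ?_⟩
    · have := hc.mem_L hw' hw hne.symm (k := 1) (l := k) (Or.inl one_ne_zero)
      rw [one_smul, L_symm] at this
      exact this
    · intro h3
      have h3' : pt (w' + k • w) = pt w := h3
      rw [hc.eq _ _ (hnz k) hw] at h3'
      obtain ⟨l, hl, hlw⟩ := h3'
      have h4 : (l * k - 1) • w + l • w' = 0 := by
        rw [sub_smul, one_smul, mul_smul]
        nth_rewrite 2 [hlw]
        rw [smul_add]; abel
      exact hl (hc.ind hw hw' hne h4).2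
  have hinj : Function.Injective (fun k : K => pt (w' + k • w)) := by
    intro k l hkl
    have hkl' : pt (w' + k • w) = pt (w' + l • w) := hkl
    rw [hc.eq _ _ (hnz k) (hnz l)] at hkl'
    obtain ⟨m, hm, hmw⟩ := hkl'
    have h4 : (m * k - l) • w + (m - 1) • w' = 0 := by
      rw [smul_add, smul_smul] at hmw
      rw [sub_smul, sub_smul, one_smul, ← sub_eq_zero.2 hmw.symm]; abel
    obtain ⟨h5, h6⟩ := hc.ind hw hw' hne h4
    rw [sub_eq_zero] at h5 h6
    rw [← h5, h6, one_mul]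
  have hsub : Set.range (fun k : K => pt (w' + k • w)) ⊆ L E (pt w) (pt w') \ {pt w} := by
    rintro _ ⟨k, rfl⟩; exact hmem k
  have heq := Set.eq_of_subset_of_ncard_le hsub (by
    rw [h.ncard_L hq hne, ← Set.image_univ, Set.ncard_image_of_injective _ hinj, Set.ncard_univ])
    (Set.toFinite _)
  have hp' : p ∈ L E (pt w) (pt w') \ {pt w} := ⟨hp, hpw⟩
  rw [← heq] at hp'
  obtain ⟨k, hk⟩ := hp'
  exact ⟨k, hk.symm⟩

/-- the axis as a subspace -/
def Co.axis (hc : Co E K W pt) (h : Dat E r) {c : Ω} {x : G} (hx : x ∈ E c) : Submodule K W where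
  carrier := {w | w = 0 ∨ x • pt w = pt w}
  zero_mem' := Or.inl rfl
  add_mem' := by
    intro w w' hw hw'
    by_cases h0 : w + w' = 0
    · exact Or.inl h0
    by_cases hw0 : w = 0
    · rw [hw0, zero_add]; exact hw'
    by_cases hw0' : w' = 0
    · rw [hw0', add_zero]; exact hw
    have h1 : x • pt w = pt w := hw.resolve_left hw0
    have h2 : x • pt w' = pt w' := hw'.resolve_left hw0'
    right
    by_cases hne : pt w = pt w'
    · obtain ⟨k, hk, hkw⟩ := (hc.eq w w' hw0 hw0').1 hne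
      have h3 : w + w' = (1 + k) • w := by rw [hkw, add_smul, one_smul]
      have h4 : 1 + k ≠ 0 := by
        intro h5; rw [h5, zero_smul] at h3; exact h0 h3
      rw [h3, hc.pt_smul hw0 h4, h1]
    · exact h.fx_sub hx hne h1 h2 (hc.add w w' hw0 hw0' hne)
  smul_mem' := by
    intro k w hw
    by_cases hw0 : w = 0
    · left; rw [hw0, smul_zero]
    by_cases hk : k = 0
    · left; rw [hk, zero_smul]
    right
    rw [hc.pt_smul hw0 hk]
    exact hw.resolve_left hw0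

theorem Co.axis_codim (hc : Co E K W pt) (h : Dat E r) (hu : Uni E) (hq : HasQ E (Nat.card K)) {c : Ω} {x : G}
    (hx : x ∈ E c) (hx1 : x ≠ 1) :
    ∃ f : W →ₗ[K] K, ∃ p₀, f p₀ ≠ 0 ∧ ∀ w, f w = 0 ↔ (w = 0 ∨ x • pt w = pt w) := by
  classical
  have hmem : ∀ w, w ∈ hc.axis h hx ↔ (w = 0 ∨ x • pt w = pt w) := fun w => Iff.rfl
  obtain ⟨p, hp⟩ : ∃ p : Ω, x • p ≠ p := by
    by_contra hne; push_neg at hne
    exact hx1 (h.faith x hne)
  obtain ⟨p₀, hp₀, rfl⟩ := hc.surj p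
  have hp₀H : p₀ ∉ hc.axis h hx := by
    rw [hmem]; rintro (h1 | h1)
    · exact hp₀ h1
    · exact hp h1
  have hcod : ∀ w, ∃ k : K, w + k • p₀ ∈ hc.axis h hx := by
    intro w
    by_cases hw : w = 0
    · exact ⟨0, by rw [hw, zero_smul, add_zero]; exact zero_mem _⟩
    by_cases hpw : pt p₀ = pt w
    · obtain ⟨k, hk, hkw⟩ := (hc.eq p₀ w hp₀ hw).1 hpw
      exact ⟨-k, by rw [hkw, neg_smul, add_neg_cancel]; exact zero_mem _⟩
    · obtain ⟨a, ha, haL⟩ := h.meet hu (hu.isH hx hx1) hpw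
      have hap : a ≠ pt p₀ := by rintro rfl; exact hp ha
      obtain ⟨k, hk⟩ := hc.line h hq hp₀ hw hpw haL hap
      refine ⟨k, (hmem _).2 (Or.inr ?_)⟩
      rw [← hk]; exact ha
  have hlt : hc.axis h hx < ⊤ := by
    rw [lt_top_iff_ne_top]; intro h1; apply hp₀H; rw [h1]; trivial
  obtain ⟨f, hf0, hle⟩ := Submodule.exists_le_ker_of_lt_top _ hlt
  have hfp : f p₀ ≠ 0 := by
    intro h1
    apply hf0
    ext w
    obtain ⟨k, hk⟩ := hcod w
    have h2 : f (w + k • p₀) = 0 := hle hk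
    rw [map_add, map_smul, h1, smul_zero, add_zero] at h2
    simpa using h2
  refine ⟨f, p₀, hfp, fun w => ?_⟩
  rw [← hmem]
  constructor
  · intro hw
    obtain ⟨k, hk⟩ := hcod w
    have h2 : f (w + k • p₀) = 0 := hle hk
    rw [map_add, map_smul, hw, zero_add, smul_eq_mul, mul_eq_zero] at h2
    have h3 : k = 0 := h2.resolve_right hfp
    rwa [h3, zero_smul, add_zero] at hk
  · intro hw; exact hle hw

theorem Co.claimA (hc : Co E K W pt) (h : Dat E r) (hq : HasQ E (Nat.card K)) {u : W} (hu0 : u ≠ 0) {x : G}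
    (hx : x ∈ E (pt u)) {f : W →ₗ[K] K} (hf : ∀ w, f w = 0 ↔ (w = 0 ∨ x • pt w = pt w)) {p₁ d : W} {lam : K}
    (h1 : f p₁ ≠ 0) (hd0 : d ≠ 0) (hfd : f d = 0) (hdu : pt d ≠ pt u) (hP : x • pt p₁ = pt (p₁ + lam • u)) :
    x • pt (p₁ + d) = pt (p₁ + d + lam • u) := by
  have hp10 : p₁ ≠ 0 := by rintro rfl; exact h1 (map_zero _)
  have hfu : f u = 0 := (hf u).2 (Or.inr (h.fix _ _ hx))
  have hxd : x • pt d = pt d := ((hf d).1 hfd).resolve_left hd0
  have hf2 : f (p₁ + d) = f p₁ := by rw [map_add, hfd, add_zero]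
  have hp20 : p₁ + d ≠ 0 := by
    intro h2; rw [h2, map_zero] at hf2; exact h1 hf2.symm
  have hfl : f (p₁ + lam • u) = f p₁ := by rw [map_add, map_smul, hfu, smul_zero, add_zero]
  have hpl0 : p₁ + lam • u ≠ 0 := by
    intro h2; rw [h2, map_zero] at hfl; exact h1 hfl.symm
  have hn1 : pt p₁ ≠ pt d := by
    intro h2; apply h1; rw [hf]; right; rw [h2, hxd]
  have hL1 := hc.add p₁ d hp10 hd0 hn1
  have hL2 := h.L_conj x hL1
  rw [hxd, hP, L_symm] at hL2
  have hn2 : pt d ≠ pt (p₁ + lam • u) := by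
    intro h2; apply h1; rw [← hfl, hf]; right; rw [← h2, hxd]
  have hn3 : x • pt (p₁ + d) ≠ pt d := by
    intro h2
    rw [← hxd, smul_left_cancel_iff] at h2
    apply h1; rw [← hf2, hf]; right; rw [h2, hxd]
  obtain ⟨ν, hν⟩ := hc.line h hq hd0 hpl0 hn2 hL2 hn3
  have hn4 : pt u ≠ pt (p₁ + d) := by
    intro h2; apply h1; rw [← hf2, hf]; right; rw [← h2]; exact h.fix _ _ hx
  obtain ⟨ρ, hρ⟩ := hc.line h hq hu0 hp20 hn4 (h.smul_mem_L hn4 hx) (h.smul_ne hn4 hx).symm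
  have hfν : f (p₁ + lam • u + ν • d) = f p₁ := by rw [map_add, hfl, map_smul, hfd, smul_zero, add_zero]
  have hfρ : f (p₁ + d + ρ • u) = f p₁ := by rw [map_add, hf2, map_smul, hfu, smul_zero, add_zero]
  have hν0 : p₁ + lam • u + ν • d ≠ 0 := by
    intro h2; rw [h2, map_zero] at hfν; exact h1 hfν.symm
  have hρ0 : p₁ + d + ρ • u ≠ 0 := by
    intro h2; rw [h2, map_zero] at hfρ; exact h1 hfρ.symm
  obtain ⟨s, hs, hsw⟩ := (hc.eq _ _ hν0 hρ0).1 (hν.symm.trans hρ)
  have hs1 : s = 1 := by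
    have h2 := congrArg f hsw
    rw [map_smul, hfν, hfρ, smul_eq_mul] at h2
    exact (mul_eq_right₀ h1).1 h2.symm
  rw [hs1, one_smul] at hsw
  have h3 : (1 - ν) • d + (ρ - lam) • u = 0 := by
    rw [sub_smul, sub_smul, one_smul, ← sub_eq_zero.2 hsw]; abel
  have h4 := (hc.ind hd0 hu0 hdu h3).2
  rw [hρ, sub_eq_zero.1 h4]

theorem Co.elation (hc : Co E K W pt) (h : Dat E r) (hu : Uni E) (hq : HasQ E (Nat.card K)) {u : W}
    (hu0 : u ≠ 0) {x : G} (hx : x ∈ E (pt u)) :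
    ∃ f : W →ₗ[K] K, f u = 0 ∧ ∀ w, w ≠ 0 → x • pt w = pt (w + f w • u) := by
  classical
  by_cases hx1 : x = 1
  · refine ⟨0, rfl, fun w hw => ?_⟩
    rw [hx1, one_smul, LinearMap.zero_apply, zero_smul, add_zero]
  obtain ⟨f, p₀, hfp, hf⟩ := hc.axis_codim h hu hq hx hx1
  have hp0 : p₀ ≠ 0 := by rintro rfl; exact hfp (map_zero _)
  have hfu : f u = 0 := (hf u).2 (Or.inr (h.fix _ _ hx))
  have hn0 : pt u ≠ pt p₀ := by
    intro h2; apply hfp; rw [hf]; right; rw [← h2]; exact h.fix _ _ hx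
  obtain ⟨lam, hlam⟩ := hc.line h hq hu0 hp0 hn0 (h.smul_mem_L hn0 hx) (h.smul_ne hn0 hx).symm
  -- another point of the axis
  obtain ⟨b, hb, hbu⟩ := h.exists_other (hu.isH hx hx1) (pt u)
  obtain ⟨d', hd'0, rfl⟩ := hc.surj b
  have hfd' : f d' = 0 := (hf d').2 (Or.inr hb)
  have main : ∀ p, f p = f p₀ → x • pt p = pt (p + lam • u) := by
    intro p hfpp
    by_cases hd0 : p - p₀ = 0
    · rw [sub_eq_zero.1 hd0]; exact hlam
    have hfd : f (p - p₀) = 0 := by rw [map_sub, hfpp, sub_self]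
    by_cases hdu : pt (p - p₀) = pt u
    · obtain ⟨k, hk, hku⟩ := (hc.eq _ _ hu0 hd0).1 hdu.symm
      have h3 := hc.claimA h hq hu0 hx hf hfp hd'0 hfd' hbu hlam
      have hk' : (k : K) • u + (-1 : K) • d' ≠ 0 := hc.ne_zero hu0 hd'0 hbu.symm (Or.inl hk)
      have h4 : pt (k • u + (-1 : K) • d') ≠ pt u := by
        intro h5
        obtain ⟨l, hl, hlu⟩ := (hc.eq _ _ hu0 hk').1 h5.symm
        have h6 : (k - l) • u + (-1 : K) • d' = 0 := by
          rw [sub_smul, ← hlu]; abel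
        exact absurd (hc.ind hu0 hd'0 hbu.symm h6).2 (neg_ne_zero.2 one_ne_zero)
      have h5 : f (p₀ + d') ≠ 0 := by rw [map_add, hfd', add_zero]; exact hfp
      have h6 : f (k • u + (-1 : K) • d') = 0 := by
        rw [map_add, map_smul, map_smul, hfu, hfd', smul_zero, smul_zero, add_zero]
      have h7 := hc.claimA h hq hu0 hx hf h5 hk' h6 h4 h3
      have h8 : p₀ + d' + (k • u + (-1 : K) • d') = p := by
        rw [← hku, neg_one_smul]; abel
      rwa [h8] at h7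
    · have h3 := hc.claimA h hq hu0 hx hf hfp hd0 hfd hdu hlam
      rwa [add_sub_cancel] at h3
  refine ⟨(lam * (f p₀)⁻¹) • f, ?_, fun w hw => ?_⟩
  · rw [LinearMap.smul_apply, hfu, smul_zero]
  · rw [LinearMap.smul_apply, smul_eq_mul]
    by_cases hfw : f w = 0
    · rw [hfw, mul_zero, zero_smul, add_zero]
      exact ((hf w).1 hfw).resolve_left hw
    · have hs : f p₀ * (f w)⁻¹ ≠ 0 := mul_ne_zero hfp (inv_ne_zero hfw)
      have h3 : f ((f p₀ * (f w)⁻¹) • w) = f p₀ := by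
        rw [map_smul, smul_eq_mul, mul_assoc, inv_mul_cancel₀ hfw, mul_one]
      have h4 := main _ h3
      rw [hc.pt_smul hw hs] at h4
      rw [h4]
      have h5 : (f p₀ * (f w)⁻¹) • w + lam • u =
          (f p₀ * (f w)⁻¹) • (w + (lam * (f p₀)⁻¹ * f w) • u) := by
        rw [smul_add, smul_smul]
        congr 2
        field_simp
      have h6 : w + (lam * (f p₀)⁻¹ * f w) • u ≠ 0 := by
        intro h7
        have h8 := congrArg f h7
        rw [map_add, map_smul, hfu, smul_zero, add_zero, map_zero] at h8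
        exact hfw h8
      rw [h5, hc.pt_smul h6 hs]

end Cfsg.Agent.Lib.H50ON
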