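import Cfsg.Agent.Lib.H50ON8
import Cfsg.Agent.Lib.ClSLn

/-! O'Nan's theorem (helper50), part 9: identification with PSL. -/

set_option autoImplicit false

namespace Cfsg.Agent.Lib.H50ON

universe u w

variable {G : Type u} {Ω : Type w} [Group G] [MulAction G Ω] {E : Ω → Subgroup G} {r : ℕ}
variable {K : Type} [Field K] {W : Type*} [AddCommGroup W] [Module K W] {pt : W → Ω}

theorem Co.comp_equiv {W' : Type*} [AddCommGroup W'] [Module K W'] (hc : Co E K W pt) (e : W' ≃ₗ[K] W) :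
    Co E K W' (fun w => pt (e w)) where
  surj := by
    intro p
    obtain ⟨w, hw, hp⟩ := hc.surj p
    refine ⟨e.symm w, ?_, by rw [e.apply_symm_apply, hp]⟩
    intro h1
    exact hw ((map_eq_zero_iff e.symm e.symm.injective).1 h1)
  eq := by
    intro w w' hw hw'
    have h1 : e w ≠ 0 := fun h => hw ((map_eq_zero_iff e e.injective).1 h)
    have h2 : e w' ≠ 0 := fun h => hw' ((map_eq_zero_iff e e.injective).1 h)
    rw [hc.eq _ _ h1 h2]
    constructor
    · rintro ⟨k, hk, hkw⟩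
      exact ⟨k, hk, e.injective (by rw [hkw, map_smul])⟩
    · rintro ⟨k, hk, hkw⟩
      exact ⟨k, hk, by rw [hkw, map_smul]⟩
  add := by
    intro w w' hw hw' hne
    have h1 : e w ≠ 0 := fun h => hw ((map_eq_zero_iff e e.injective).1 h)
    have h2 : e w' ≠ 0 := fun h => hw' ((map_eq_zero_iff e e.injective).1 h)
    simp only [map_add]
    exact hc.add _ _ h1 h2 hne

theorem Co.tr_ne (f : W →ₗ[K] K) {u : W} (hfu : f u = 0) {w : W} (hw : w ≠ 0) :
    w + f w • u ≠ 0 := by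
  intro h1
  have h2 := congrArg f h1
  rw [map_add, map_smul, hfu, smul_zero, add_zero, map_zero] at h2
  rw [h2, zero_smul, add_zero] at h1
  exact hw h1

theorem Co.fix_iff (hc : Co E K W pt) {u : W} (hu0 : u ≠ 0) (f : W →ₗ[K] K) (hfu : f u = 0) {w : W}
    (hw : w ≠ 0) : pt (w + f w • u) = pt w ↔ f w = 0 := by
  constructor
  · intro h1
    obtain ⟨l, hl, hlw⟩ := (hc.eq _ _ (Co.tr_ne f hfu hw) hw).1 h1
    by_cases hpu : pt u = pt w
    · obtain ⟨s, hs, hsw⟩ := (hc.eq _ _ hu0 hw).1 hpu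
      rw [hsw, map_smul, hfu, smul_zero]
    · have h3 : (l * f w) • u + (l - 1) • w = 0 := by
        rw [sub_smul, one_smul, mul_smul]
        nth_rewrite 3 [hlw]
        rw [smul_add]; abel
      obtain ⟨h4, -⟩ := hc.ind hu0 hw hpu h3
      exact (mul_eq_zero.1 h4).resolve_left hl
  · intro h1; rw [h1, zero_smul, add_zero]

variable [Finite G] [Finite Ω]

theorem Co.real_smul (hc : Co E K W pt) (h : Dat E r) (hu : Uni E) (hq : HasQ E (Nat.card K)) {u : W}
    (hu0 : u ≠ 0) (f : W →ₗ[K] K) (hfu : f u = 0) {x : G} (hx : x ∈ E (pt u))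
    (hxf : ∀ w, w ≠ 0 → x • pt w = pt (w + f w • u)) (k : K) :
    ∃ y ∈ E (pt u), ∀ w, w ≠ 0 → y • pt w = pt (w + (k * f w) • u) := by
  classical
  by_cases hf0 : f = 0
  · refine ⟨1, one_mem _, fun w hw => ?_⟩
    rw [hf0, one_smul, LinearMap.zero_apply, mul_zero, zero_smul, add_zero]
  by_cases hk : k = 0
  · refine ⟨1, one_mem _, fun w hw => ?_⟩
    rw [hk, one_smul, zero_mul, zero_smul, add_zero]
  obtain ⟨w₀, hw₀⟩ : ∃ w₀, f w₀ ≠ 0 := by
    by_contra hne; push_neg at hne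
    exact hf0 (LinearMap.ext hne)
  have hw₀0 : w₀ ≠ 0 := by rintro rfl; exact hw₀ (map_zero _)
  have hxw : x • pt w₀ ≠ pt w₀ := by
    rw [hxf w₀ hw₀0, Ne, hc.fix_iff hu0 f hfu hw₀0]; exact hw₀
  have hx1 : x ≠ 1 := by rintro rfl; exact hxw (one_smul _ _)
  have hH := hu.isH hx hx1
  have hn0 : pt u ≠ pt w₀ := by
    intro h1; apply hxw; rw [← h1]; exact h.fix _ _ hx
  have ht := hc.mem_L hw₀0 hu0 hn0.symm (k := 1) (l := k * f w₀) (Or.inl one_ne_zero)
  rw [one_smul, L_symm] at ht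
  have hnz : w₀ + (k * f w₀) • u ≠ 0 := by
    have := hc.ne_zero hw₀0 hu0 hn0.symm (k := 1) (l := k * f w₀) (Or.inl one_ne_zero)
    rwa [one_smul] at this
  have htu : pt (w₀ + (k * f w₀) • u) ≠ pt u := by
    intro h1
    obtain ⟨l, hl, hlw⟩ := (hc.eq _ _ hnz hu0).1 h1
    have h2 := congrArg f hlw
    rw [map_smul, map_add, map_smul, hfu, smul_zero, add_zero, smul_eq_mul] at h2
    exact mul_ne_zero hl hw₀ h2.symm
  obtain ⟨y, hy, hyw⟩ := h.EF_trans hH (a := pt u) (p := pt w₀) (h.fix _ _ hx) hxw ht htu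
  obtain ⟨g, hgu, hg⟩ := hc.elation h hu hq hu0 hy.1
  have hfg : ∀ w, f w = 0 → g w = 0 := by
    intro w hw
    by_cases hw0 : w = 0
    · rw [hw0, map_zero]
    have h1 : x • pt w = pt w := by rw [hxf w hw0, hw, zero_smul, add_zero]
    have h2 : y • pt w = pt w := hy.2 _ h1
    rw [hg w hw0, hc.fix_iff hu0 g hgu hw0] at h2
    exact h2
  have hg0 : g w₀ = k * f w₀ := by
    rw [hg w₀ hw₀0] at hyw
    obtain ⟨l, hl, hlw⟩ := (hc.eq _ _ (Co.tr_ne g hgu hw₀0) hnz).1 hyw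
    have h3 : (k * f w₀ - l * g w₀) • u + (1 - l) • w₀ = 0 := by
      rw [smul_add, smul_smul] at hlw
      rw [sub_smul, sub_smul, one_smul, ← sub_eq_zero.2 hlw]; abel
    obtain ⟨h4, h5⟩ := hc.ind hu0 hw₀0 hn0 h3
    rw [← sub_eq_zero.1 h5, one_mul] at h4
    exact (sub_eq_zero.1 h4).symm
  refine ⟨y, hy.1, fun w hw => ?_⟩
  have h6 : g w = k * f w := by
    have h7 : g (w - (f w * (f w₀)⁻¹) • w₀) = 0 := by
      apply hfg
      rw [map_sub, map_smul, smul_eq_mul, mul_assoc, inv_mul_cancel₀ hw₀, mul_one, sub_self]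
    rw [map_sub, map_smul, hg0, smul_eq_mul, sub_eq_zero] at h7
    rw [h7]; field_simp
  rw [hg w hw, h6]

theorem Co.real [FiniteDimensional K W] (hc : Co E K W pt) (h : Dat E r) (hu : Uni E)
    (hq : HasQ E (Nat.card K)) {u : W}
    (hu0 : u ≠ 0) (f : W →ₗ[K] K) (hfu : f u = 0) :
    ∃ x ∈ E (pt u), ∀ w, w ≠ 0 → x • pt w = pt (w + f w • u) := by
  classical
  let Φ : Submodule K (Module.Dual K W) :=
    { carrier := {f | f u = 0 ∧ ∃ x ∈ E (pt u), ∀ w, w ≠ 0 → x • pt w = pt (w + f w • u)}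
      zero_mem' := ⟨rfl, 1, one_mem _, fun w hw => by
        rw [one_smul, LinearMap.zero_apply, zero_smul, add_zero]⟩
      add_mem' := by
        rintro f g ⟨hf, x, hx, hxf⟩ ⟨hg, y, hy, hyg⟩
        refine ⟨by rw [LinearMap.add_apply, hf, hg, add_zero], x * y, mul_mem hx hy, fun w hw => ?_⟩
        rw [mul_smul, hyg w hw, hxf _ (Co.tr_ne g hg hw), map_add, map_smul, hf, smul_zero, add_zero,
          LinearMap.add_apply, add_smul]
        congr 1; abel
      smul_mem' := by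
        rintro k f ⟨hf, x, hx, hxf⟩
        obtain ⟨y, hy, hyw⟩ := hc.real_smul h hu hq hu0 f hf hx hxf k
        refine ⟨by rw [LinearMap.smul_apply, hf, smul_zero], y, hy, fun w hw => ?_⟩
        rw [hyw w hw, LinearMap.smul_apply, smul_eq_mul] }
  have hΦ : ∀ f : Module.Dual K W, f ∈ Φ ↔
      (f u = 0 ∧ ∃ x ∈ E (pt u), ∀ w, w ≠ 0 → x • pt w = pt (w + f w • u)) := fun f => Iff.rfl
  have hco : Φ.dualCoannihilator ≤ Submodule.span K {u} := by
    intro w hw
    rw [Submodule.mem_dualCoannihilator] at hw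
    by_contra hns
    have hw0 : w ≠ 0 := by rintro rfl; exact hns (zero_mem _)
    have hne : pt u ≠ pt w := by
      intro h1
      obtain ⟨k, hk, hkw⟩ := (hc.eq _ _ hu0 hw0).1 h1
      exact hns (Submodule.mem_span_singleton.2 ⟨k, hkw.symm⟩)
    obtain ⟨x, hx, hxw⟩ := h.exists_moves hne
    obtain ⟨g, hgu, hg⟩ := hc.elation h hu hq hu0 hx
    have h2 := hw g ((hΦ g).2 ⟨hgu, x, hx, hg⟩)
    apply hxw
    rw [hg w hw0, h2, zero_smul, add_zero]
  have h3 : f ∈ Φ := by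
    rw [← Subspace.dualCoannihilator_dualAnnihilator_eq (W := Φ)]
    rw [Submodule.mem_dualAnnihilator]
    intro w hw
    obtain ⟨k, rfl⟩ := Submodule.mem_span_singleton.1 (hco hw)
    rw [map_smul, hfu, smul_zero]
  exact ((hΦ f).1 h3).2

/-! ### matrices -/

open Matrix

variable {n : ℕ} {pt : (Fin n → K) → Ω}

/-- `x` acts as `g` -/
def Rel (pt : (Fin n → K) → Ω) (g : Matrix.SpecialLinearGroup (Fin n) K) (x : G) : Prop :=
  ∀ w, w ≠ 0 → x • pt w = pt (g.1 *ᵥ w)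

theorem sl_ne (g : Matrix.SpecialLinearGroup (Fin n) K) {w : Fin n → K} (hw : w ≠ 0) : g.1 *ᵥ w ≠ 0 := by
  intro h1
  apply hw
  have h2 : (g⁻¹ * g).1 *ᵥ w = 0 := by
    rw [Matrix.SpecialLinearGroup.coe_mul, ← Matrix.mulVec_mulVec, h1, Matrix.mulVec_zero]
  rwa [inv_mul_cancel, Matrix.SpecialLinearGroup.coe_one, Matrix.one_mulVec] at h2

theorem Rel.mul {g g' : Matrix.SpecialLinearGroup (Fin n) K} {x x' : G} (h1 : Rel pt g x)
    (h2 : Rel pt g' x') : Rel pt (g * g') (x * x') := by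
  intro w hw
  rw [mul_smul, h2 w hw, h1 _ (sl_ne g' hw), Matrix.mulVec_mulVec, Matrix.SpecialLinearGroup.coe_mul]

theorem Rel.one : Rel pt (1 : Matrix.SpecialLinearGroup (Fin n) K) (1 : G) := by
  intro w hw
  rw [one_smul, Matrix.SpecialLinearGroup.coe_one, Matrix.one_mulVec]

theorem Rel.inv {g : Matrix.SpecialLinearGroup (Fin n) K} {x : G} (h1 : Rel pt g x) :
    Rel pt g⁻¹ x⁻¹ := by
  intro w hw
  rw [inv_smul_eq_iff, h1 _ (sl_ne g⁻¹ hw), Matrix.mulVec_mulVec, ← Matrix.SpecialLinearGroup.coe_mul,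
    mul_inv_cancel, Matrix.SpecialLinearGroup.coe_one, Matrix.one_mulVec]

theorem Rel.uniq (hc : Co E K (Fin n → K) pt) (h : Dat E r) {g : Matrix.SpecialLinearGroup (Fin n) K}
    {x y : G} (h1 : Rel pt g x) (h2 : Rel pt g y) : x = y := by
  have h3 : x⁻¹ * y = 1 := by
    apply h.faith
    intro a
    obtain ⟨w, hw, rfl⟩ := hc.surj a
    rw [mul_smul, h2 w hw, ← h1 w hw, inv_smul_smul]
  exact inv_mul_eq_one.1 h3

theorem exists_sl (f : (Fin n → K) →ₗ[K] K) {u : Fin n → K} (hfu : f u = 0) :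
    ∃ g : Matrix.SpecialLinearGroup (Fin n) K, ∀ w, g.1 *ᵥ w = w + f w • u := by
  have hf : ∀ w, (fun i => f (Pi.single i 1)) ⬝ᵥ w = f w := by
    intro w
    have h0 : w = ∑ i, w i • (Pi.single i (1 : K) : Fin n → K) := by
      ext j
      simp [Finset.sum_apply, Pi.single_apply]
    have h1 := congrArg f h0
    rw [map_sum] at h1
    simp only [map_smul, smul_eq_mul] at h1
    rw [h1]
    unfold dotProduct
    exact Finset.sum_congr rfl fun i _ => mul_comm _ _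
  refine ⟨⟨1 + Matrix.replicateCol Unit u * Matrix.replicateRow Unit (fun i => f (Pi.single i 1)), ?_⟩, ?_⟩
  · rw [Matrix.det_one_add_replicateCol_mul_replicateRow, hf, hfu, add_zero]
  · intro w
    show (1 + Matrix.replicateCol Unit u * Matrix.replicateRow Unit (fun i => f (Pi.single i 1))) *ᵥ w = _
    rw [← Matrix.vecMulVec_eq, Matrix.add_mulVec, Matrix.one_mulVec, Matrix.vecMulVec_mulVec, hf]
    congr 1
    ext i
    simp [mul_comm]

end Cfsg.Agent.Lib.H50ON
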