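import Mathlib
import Cfsg.Agent.Lib.H25Xa
import Cfsg.Agent.Lib.PresAlt

set_option autoImplicit false
set_option linter.all false

/-!
# Endgame of the recognition of `A₈`: permutation facts and Carmichael's relations (helper52)
-/

namespace Cfsg.Agent.Lib.H52A8

open Equiv Equiv.Perm Cfsg.Agent.Lib.H25X Cfsg.Agent.Lib.PresAlt

/-! ### decidable facts -/

theorem P4a : ∀ s : Perm (Fin 4), s ^ 3 = 1 → ∀ r : Perm (Fin 4), r ^ 3 = 1 →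
    ∀ x, s x = x → r x ≠ x → ((s * r) ^ 2 = 1 ∨ (s * r⁻¹) ^ 2 = 1) ∨ s = 1 := by
  decide +kernel

theorem P4b : ∀ s : Perm (Fin 4), s ^ 3 = 1 → s ≠ 1 → ∀ i, s i = i → ∀ j, j ≠ i → ∀ k, k ≠ i →
    (k = j ∨ k = s j ∨ k = s (s j)) := by
  decide +kernel

theorem S3a : ∀ x t : Perm (Fin 3), x * c3 = c3 * x → t * c3 * t⁻¹ = c3⁻¹ → x * t = t * x → x = 1 := by
  decide +kernel

theorem S3b : ∀ t : Perm (Fin 3), t * c3 * t⁻¹ = c3⁻¹ → sign t = -1 := by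
  decide +kernel

theorem S3c : ∀ x : Perm (Fin 3), x * c3 = c3 * x → x ^ 2 = 1 → x = 1 := by
  decide +kernel

theorem S3d : ∀ x : Perm (Fin 3), x * c3 = c3 * x → (x = 1 ∨ x = c3 ∨ x = c3 ^ 2) := by
  decide +kernel

/-- the final computation in `S₅` -/
theorem S5a : ∀ ζ : S5, ζ ^ 3 = 1 → ζ ≠ 1 → ∀ σ : S5, sign σ = -1 → σ ^ 2 = 1 → σ * ζ = ζ * σ →
    ∀ ω : S5, (ζ * ω) ^ 2 = 1 → ω ^ 3 = 1 → ζ * ω ≠ 1 → (ω * σ * ω * σ⁻¹) ^ 2 = 1 := by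
  decide +kernel

/-- the even elements fixing the last point -/
theorem S5b : ∀ p : S5, sign p = 1 → p 4 = 4 →
    ∃ k : Fin 3, ∃ q : S5, (q = 1 ∨ q = swap 0 1 * swap 2 3 ∨ q = swap 0 2 * swap 1 3 ∨
      q = swap 0 3 * swap 1 2) ∧ p = q * c5 ^ (k : ℕ) := by
  decide +kernel

/-- transitivity -/
theorem S5c : ∀ i : Fin 5, ∃ p : S5, sign p = 1 ∧ p 4 = i := by
  decide +kernel

theorem S5d : ∀ i j : Fin 5, i ≠ j → ∃ p : S5, sign p = 1 ∧ p 4 = i ∧ p 3 = j := by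
  decide +kernel

end Cfsg.Agent.Lib.H52A8
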