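import Mathlib
import Cfsg.Agent.Lib.H52A8A

set_option autoImplicit false
set_option linter.all false

/-!
# Endgame of the recognition of `A₈`: the centraliser of an involution (helper52)
-/

namespace Cfsg.Agent.Lib.H52A8

open Equiv Equiv.Perm

/-- analysis of a group of order 96 with four Sylow 3-subgroups -/
theorem four_sylow {C : Type*} [Group C] [Finite C] (hC : Nat.card C = 96) (z : C) (hz3 : z ^ 3 = 1)
    (hz1 : z ≠ 1) (hN : Nat.card (Subgroup.normalizer (Subgroup.zpowers z : Set C)) = 24)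
    (V : Subgroup C) (hV : Nat.card V = 4)
    (hVc : ∀ x : C, x * z = z * x → ∃ i : ℕ, ∃ v ∈ V, x = z ^ i * v)
    (hVz : ∀ v ∈ V, v * z = z * v) :
    ∃ w : C, w ^ 3 = 1 ∧ w ∉ Subgroup.zpowers z ∧ (∀ v ∈ V, v * w = w * v) ∧
      (∀ x : C, x ^ 3 = 1 → x ∈ Subgroup.zpowers z ∨ ∃ i : ℕ, i < 3 ∧ ∃ e : ℕ, x = z ^ i * w ^ e * (z ^ i)⁻¹) ∧
      ((z * w) ^ 2 ∈ V ∨ (z * w⁻¹) ^ 2 ∈ V) := by
  have : Fact (Nat.Prime 3) := ⟨by norm_num⟩
  have hoz : orderOf z = 3 := orderOf_eq_prime hz3 hz1
  have hf96 : Nat.factorization 96 3 = 1 := by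
    rw [show (96 : ℕ) = 32 * 3 by norm_num, Nat.factorization_mul (by norm_num) (by norm_num)]
    simp [Nat.Prime.factorization_self (show Nat.Prime 3 by norm_num),
      Nat.factorization_eq_zero_of_not_dvd (show ¬ 3 ∣ 32 by norm_num)]
  have hcz : Nat.card (Subgroup.zpowers z) = 3 ^ (Nat.card C).factorization 3 := by
    rw [hC, hf96, Nat.card_zpowers, hoz, pow_one]
  set P0 : Sylow 3 C := Sylow.ofCard (Subgroup.zpowers z) hcz with hP0
  have hP0c : (P0 : Subgroup C) = Subgroup.zpowers z := Sylow.coe_ofCard _ _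
  have hcP : ∀ P : Sylow 3 C, Nat.card (P : Subgroup C) = 3 := by
    intro P
    rw [P.card_eq_multiplicity, hC, hf96, pow_one]
  have hcard4 : Nat.card (Sylow 3 C) = 4 := by
    have h0 : (Subgroup.normalizer (P0 : Set C)) = Subgroup.normalizer (Subgroup.zpowers z : Set C) := by
      rw [← hP0c]; rfl
    rw [P0.card_eq_index_normalizer, h0]
    have h1 := Subgroup.card_mul_index (Subgroup.normalizer (Subgroup.zpowers z : Set C))
    rw [hN, hC] at h1
    omega
  have hfinS : Finite (Sylow 3 C) := Nat.finite_of_card_ne_zero (by omega)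
  obtain ⟨e⟩ : Nonempty (Sylow 3 C ≃ Fin 4) := ⟨(Finite.equivFinOfCardEq hcard4)⟩
  -- fixed points
  have hfix : ∀ (P Q : Sylow 3 C) (x : C), x ∈ P → x ≠ 1 → x • Q = Q → P = Q := by
    intro P Q x hx hx1 hxQ
    have hzx : Subgroup.zpowers x = (P : Subgroup C) := by
      apply Subgroup.eq_of_le_of_card_ge
      · rw [Subgroup.zpowers_le]
        exact hx
      · have h1 : orderOf x ∣ 3 := by
          rw [← hcP P]
          exact Subgroup.orderOf_dvd_natCard _ hx
        have h2 : orderOf x ≠ 1 := fun h => hx1 (orderOf_eq_one_iff.1 h)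
        rw [hcP P, Nat.card_zpowers]
        rcases (Nat.dvd_prime (by norm_num : Nat.Prime 3)).1 h1 with h3 | h3
        · exact absurd h3 h2
        · omega
    have h1 : x ∈ Subgroup.normalizer ((Q : Subgroup C) : Set C) := Sylow.smul_eq_iff_mem_normalizer.1 hxQ
    have h2 : (P : Subgroup C) ≤ Subgroup.normalizer ((Q : Subgroup C) : Set C) := by
      rw [← hzx, Subgroup.zpowers_le]
      exact h1
    have h3 : Q ∈ MulAction.fixedPoints (P : Subgroup C) (Sylow 3 C) :=
      (Subgroup.sylow_mem_fixedPoints_iff (P : Subgroup C)).2 h2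
    have h4 : (P : Subgroup C) ≤ Q := (IsPGroup.sylow_mem_fixedPoints_iff P.2).1 h3
    apply Sylow.ext
    apply Subgroup.eq_of_le_of_card_ge h4
    rw [hcP, hcP]
  -- the permutation representation
  set ρ : C →* Perm (Fin 4) := (e.permCongrHom.toMonoidHom).comp (MulAction.toPermHom C (Sylow 3 C)) with hρ
  have hρa : ∀ x i, ρ x i = e (x • e.symm i) := fun x i => rfl
  have hρk : ∀ x, ρ x = 1 → ∀ Q : Sylow 3 C, x • Q = Q := by
    intro x hx Q
    have h1 := hρa x (e Q)
    rw [hx, Perm.one_apply, e.symm_apply_apply] at h1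
    exact (e.injective h1).symm
  have hex : ∀ P : Sylow 3 C, ∃ Q : Sylow 3 C, Q ≠ P := by
    intro P
    by_contra hcon
    push Not at hcon
    have : Subsingleton (Sylow 3 C) := ⟨fun a b => (hcon a).trans (hcon b).symm⟩
    have := Finite.card_le_one_iff_subsingleton.2 this
    omega
  have hkerP : ∀ (P : Sylow 3 C) (x : C), x ∈ P → ρ x = 1 → x = 1 := by
    intro P x hx hρx
    by_contra hx1
    obtain ⟨Q, hQ⟩ := hex P
    exact hQ (hfix P Q x hx hx1 (hρk x hρx Q)).symm
  have hcomm : ∀ (P : Sylow 3 C) (x y : C), x ∈ P → ρ y = 1 → y * x = x * y := by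
    intro P x y hx hy
    have h1 : y * x * y⁻¹ * x⁻¹ ∈ P := by
      have h2 : y ∈ Subgroup.normalizer ((P : Subgroup C) : Set C) :=
        Sylow.smul_eq_iff_mem_normalizer.1 (hρk y hy P)
      exact mul_mem ((Subgroup.mem_normalizer_iff.1 h2 x).1 hx) (inv_mem hx)
    have h2 : ρ (y * x * y⁻¹ * x⁻¹) = 1 := by
      rw [map_mul, map_mul, map_mul, map_inv, map_inv, hy]
      simp
    have h3 := hkerP P _ h1 h2
    calc y * x = (y * x * y⁻¹ * x⁻¹) * (x * y) := by group
      _ = x * y := by rw [h3, one_mul]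
  have hz0 : z ∈ P0 := by
    change z ∈ (P0 : Subgroup C)
    rw [hP0c]
    exact Subgroup.mem_zpowers z
  have hv4 : ∀ v ∈ V, v ^ 4 = 1 := by
    intro v hv
    have h1 := pow_card_eq_one' (x := (⟨v, hv⟩ : V))
    rw [hV] at h1
    exact congrArg Subtype.val h1
  have hker : ρ.ker = V := by
    apply Subgroup.eq_of_le_of_card_ge
    · intro x hx
      rw [MonoidHom.mem_ker] at hx
      obtain ⟨i, v, hv, rfl⟩ := hVc x (hcomm P0 z x hz0 hx)
      have h1 : (z ^ i * v) ^ 4 = z ^ i := by
        have hcm : Commute (z ^ i) v := (Commute.pow_left (hVz v hv).symm i)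
        rw [hcm.mul_pow, hv4 v hv, mul_one, ← pow_mul, mul_comm i 4, pow_mul,
          show z ^ 4 = z from by rw [pow_succ, hz3, one_mul]]
      have h2 : ρ (z ^ i) = 1 := by
        rw [← h1, map_pow, hx, one_pow]
      have h3 := hkerP P0 (z ^ i) (pow_mem hz0 i) h2
      rw [h3, one_mul]
      exact hv
    · rw [hV]
      have h1 : Nat.card ρ.ker * Nat.card ρ.range = Nat.card C := by
        rw [← Subgroup.card_mul_index ρ.ker, Subgroup.index_ker]
      have h2 : Nat.card ρ.range ≤ 24 := by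
        have h3 := Subgroup.card_le_card_group ρ.range
        rw [Nat.card_perm, Nat.card_fin] at h3
        exact h3.trans (by decide)
      rw [hC] at h1
      nlinarith
  -- the second Sylow subgroup
  obtain ⟨Q, hQ⟩ := hex P0
  obtain ⟨w, hw, hw1⟩ : ∃ w : C, w ∈ Q ∧ w ≠ 1 := by
    by_contra hcon
    push Not at hcon
    have h1 : (Q : Subgroup C) = ⊥ := (Subgroup.eq_bot_iff_forall _).2 hcon
    have h2 := hcP Q
    rw [h1, Subgroup.card_bot] at h2
    omega
  have hw3 : w ^ 3 = 1 := by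
    have h1 := pow_card_eq_one' (x := (⟨w, hw⟩ : (Q : Subgroup C)))
    rw [hcP Q] at h1
    exact congrArg Subtype.val h1
  have how : orderOf w = 3 := orderOf_eq_prime hw3 hw1
  have hzw : Subgroup.zpowers w = (Q : Subgroup C) := by
    apply Subgroup.eq_of_le_of_card_ge
    · rw [Subgroup.zpowers_le]
      exact hw
    · rw [hcP Q, Nat.card_zpowers, how]
  have hρz1 : ρ z ≠ 1 := fun h => hz1 (hkerP P0 z hz0 h)
  have hρz3 : ρ z ^ 3 = 1 := by rw [← map_pow, hz3, map_one]
  have hρw3 : ρ w ^ 3 = 1 := by rw [← map_pow, hw3, map_one]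
  have hzP0 : ρ z (e P0) = e P0 := by
    rw [hρa, e.symm_apply_apply]
    congr 1
    rw [Sylow.smul_eq_iff_mem_normalizer]
    exact Subgroup.le_normalizer hz0
  have hwP0 : ρ w (e P0) ≠ e P0 := by
    intro h
    rw [hρa, e.symm_apply_apply] at h
    exact hQ (hfix Q P0 w hw hw1 (e.injective h))
  refine ⟨w, hw3, ?_, ?_, ?_, ?_⟩
  · intro h
    have h1 : w ∈ P0 := by
      change w ∈ (P0 : Subgroup C)
      rw [hP0c]
      exact h
    apply hwP0
    rw [hρa, e.symm_apply_apply]
    congr 1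
    rw [Sylow.smul_eq_iff_mem_normalizer]
    exact Subgroup.le_normalizer h1
  · intro v hv
    apply hcomm Q w v hw
    rw [← hker] at hv
    exact hv
  · intro x hx
    have hxp : IsPGroup 3 (Subgroup.zpowers x) := by
      intro y
      refine ⟨1, ?_⟩
      obtain ⟨k, hk⟩ := Subgroup.mem_zpowers_iff.1 y.2
      apply Subtype.ext
      rw [Subgroup.coe_pow, ← hk, pow_one, ← zpow_natCast, ← zpow_mul, mul_comm, zpow_mul]
      rw [zpow_natCast, hx, one_zpow]
      rfl
    obtain ⟨R, hR⟩ := hxp.exists_le_sylow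
    have hxR : x ∈ R := hR (Subgroup.mem_zpowers x)
    by_cases hRP : R = P0
    · left
      rw [hRP] at hxR
      have : x ∈ (P0 : Subgroup C) := hxR
      rwa [hP0c] at this
    · right
      have h1 := P4b (ρ z) hρz3 hρz1 (e P0) hzP0 (e Q) (fun h => hQ (e.injective h)) (e R)
        (fun h => hRP (e.injective h))
      have h2 : ∃ i : ℕ, i < 3 ∧ R = z ^ i • Q := by
        rcases h1 with h | h | h
        · refine ⟨0, by norm_num, ?_⟩
          rw [pow_zero, one_smul]
          exact e.injective h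
        · refine ⟨1, by norm_num, ?_⟩
          rw [hρa, e.symm_apply_apply] at h
          rw [pow_one]
          exact e.injective h
        · refine ⟨2, by norm_num, ?_⟩
          rw [hρa z (e Q), e.symm_apply_apply, hρa, e.symm_apply_apply] at h
          rw [pow_two, mul_smul]
          exact e.injective h
      obtain ⟨i, hi, hRi⟩ := h2
      refine ⟨i, hi, ?_⟩
      have h3 : (z ^ i)⁻¹ * x * z ^ i ∈ Subgroup.zpowers w := by
        rw [hzw]
        rw [hRi] at hxR
        have h4 : x ∈ ((z ^ i • Q : Sylow 3 C) : Subgroup C) := hxR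
        rw [Sylow.coe_subgroup_smul, Subgroup.mem_pointwise_smul_iff_inv_smul_mem] at h4
        rw [← map_inv, MulAut.smul_def, MulAut.conj_apply, inv_inv] at h4
        exact h4
      rw [← mem_powers_iff_mem_zpowers] at h3
      obtain ⟨k, hk⟩ := h3
      refine ⟨k, ?_⟩
      simp only at hk
      rw [hk]
      group
  · rcases P4a (ρ z) hρz3 (ρ w) hρw3 (e P0) hzP0 hwP0 with (h | h) | h
    · left
      rw [← hker, MonoidHom.mem_ker, map_pow, map_mul, h]
    · right
      rw [← hker, MonoidHom.mem_ker, map_pow, map_mul, map_inv, h]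
    · exact absurd h hρz1

end Cfsg.Agent.Lib.H52A8
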