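import Mathlib
import Cfsg.Agent.Lib.H52A8C

set_option autoImplicit false
set_option linter.all false

/-!
# Endgame of the recognition of `A₈`: finding the extra generator (helper52)
-/

namespace Cfsg.Agent.Lib.H52A8

open Equiv Equiv.Perm Cfsg.Agent.Lib.H25X

theorem mem_norm_zpowers {G : Type*} [Group G] [Finite G] {x g : G} :
    g ∈ Subgroup.normalizer (Subgroup.zpowers x : Set G) ↔ g * x * g⁻¹ ∈ Subgroup.zpowers x := by
  constructor
  · intro h
    exact (Subgroup.mem_normalizer_iff.1 h x).1 (Subgroup.mem_zpowers x)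
  · intro h
    rw [Subgroup.mem_normalizer_iff_map_conj_eq]
    apply Subgroup.eq_of_le_of_card_ge
    · rintro _ ⟨y, hy, rfl⟩
      obtain ⟨k, rfl⟩ := Subgroup.mem_zpowers_iff.1 hy
      simp only [MonoidHom.coe_coe, MulEquiv.toMonoidHom_eq_coe]
      rw [map_zpow, MulAut.conj_apply]
      exact Subgroup.zpow_mem _ h k
    · rw [Subgroup.card_map_of_injective (MulAut.conj g).injective]

/-- the four-group in `L0` -/
def V4L : Subgroup L0 := Subgroup.centralizer ({tL} : Set L0) ⊓ ((MonoidHom.fst S3 S5).comp L0.subtype).ker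

theorem mem_V4L {x : L0} : x ∈ V4L ↔ (x.1.2 * t5 = t5 * x.1.2 ∧ x.1.1 = 1) := by
  rw [V4L, Subgroup.mem_inf, Subgroup.mem_centralizer_singleton_iff, MonoidHom.mem_ker]
  constructor
  · rintro ⟨h1, h2⟩
    refine ⟨?_, h2⟩
    have h3 := congrArg (fun y : L0 => y.1.2) h1
    exact h3
  · rintro ⟨h1, h2⟩
    refine ⟨?_, h2⟩
    apply Subtype.ext
    apply Prod.ext
    · change x.1.1 * 1 = 1 * x.1.1
      rw [mul_one, one_mul]
    · exact h1

theorem card_cent_tL : Nat.card (Subgroup.centralizer ({tL} : Set L0)) = 24 := by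
  have e : (Subgroup.centralizer ({tL} : Set L0)) ≃
      {x : S3 × S5 // sign x.1 * sign x.2 = 1 ∧ x.2 * t5 = t5 * x.2} :=
    { toFun := fun x => ⟨x.1.1, x.1.2, by
        have h := Subgroup.mem_centralizer_singleton_iff.1 x.2
        exact congrArg (fun y : L0 => y.1.2) h⟩
      invFun := fun x => ⟨⟨x.1, x.2.1⟩, by
        rw [Subgroup.mem_centralizer_singleton_iff]
        apply Subtype.ext
        apply Prod.ext
        · change x.1.1 * 1 = 1 * x.1.1
          rw [mul_one, one_mul]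
        · exact x.2.2⟩
      left_inv := fun x => rfl
      right_inv := fun x => rfl }
  rw [Nat.card_congr e, Nat.card_eq_fintype_card]
  decide +kernel

theorem card_V4L : Nat.card V4L = 4 := by
  have e : V4L ≃ {x : S5 // sign x = 1 ∧ x * t5 = t5 * x} :=
    { toFun := fun x => ⟨x.1.1.2, by
        have h := mem_V4L.1 x.2
        have h1 := (mem_L0 x.1.1).1 x.1.2
        rw [h.2, map_one, one_mul] at h1
        exact ⟨h1, h.1⟩⟩
      invFun := fun x => ⟨⟨(1, x.1), by
        rw [mem_L0]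
        change sign (1 : S3) * sign x.1 = 1
        rw [map_one, one_mul]
        exact x.2.1⟩, mem_V4L.2 ⟨x.2.2, rfl⟩⟩
      left_inv := fun x => by
        apply Subtype.ext
        apply Subtype.ext
        apply Prod.ext
        · exact (mem_V4L.1 x.2).2.symm
        · rfl
      right_inv := fun x => rfl }
  rw [Nat.card_congr e, Nat.card_eq_fintype_card]
  decide +kernel

theorem S5e : ∀ p : S5, p * c5 = c5 * p → p * t5 = t5 * p → p = 1 := by
  decide +kernel

theorem S5f : (c5⁻¹ * t5 * c5) * t5 = t5 * (c5⁻¹ * t5 * c5) := by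
  decide +kernel

theorem S5g : ∀ q : S5, (q = 1 ∨ q = swap 0 1 * swap 2 3 ∨ q = swap 0 2 * swap 1 3 ∨
      q = swap 0 3 * swap 1 2) → q * t5 = t5 * q := by
  decide +kernel

theorem zL3 : zL ^ 3 = 1 := by
  apply Subtype.ext
  decide +kernel

theorem aL3 : aL ^ 3 = 1 := by
  apply Subtype.ext
  decide +kernel

theorem zL_ne : zL ≠ 1 := by
  intro h
  have := congrArg (fun y : L0 => y.1.1) h
  revert this
  change c3 ≠ 1
  decide +kernel

theorem za : zL * aL = aL * zL := by
  apply Subtype.ext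
  decide +kernel

theorem zt : zL * tL = tL * zL := by
  apply Subtype.ext
  decide +kernel

def hL : L0 := ⟨(swap 0 1, swap 3 4), by rw [mem_L0]; decide⟩

theorem hLz : hL * zL * hL⁻¹ = zL⁻¹ := by
  apply Subtype.ext
  decide +kernel

theorem hLa : hL * aL * hL⁻¹ = aL := by
  apply Subtype.ext
  decide +kernel

theorem conj3 {G : Type*} [Group G] {b w : G} {e : ℕ} (hb : b * w * b⁻¹ = w ^ e) :
    b ^ 3 * w * (b ^ 3)⁻¹ = w ^ (e * e * e) := by
  have h1 : b * w ^ e * b⁻¹ = w ^ (e * e) := by rw [← conj_pow, hb, ← pow_mul]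
  have h2 : b * w ^ (e * e) * b⁻¹ = w ^ (e * e * e) := by
    rw [← conj_pow, hb, ← pow_mul]
    congr 1
    ring
  calc b ^ 3 * w * (b ^ 3)⁻¹ = b * (b * (b * w * b⁻¹) * b⁻¹) * b⁻¹ := by
        simp only [pow_succ, pow_zero, one_mul, mul_inv_rev, mul_assoc]
    _ = w ^ (e * e * e) := by rw [hb, h1, h2]

section main

variable {G : Type*} [Group G] [Finite G] {φ : L0 →* G} (h : EndData φ)

include h

theorem comm_of {x : G} (hx : x * φ zL = φ zL * x) : ∃ y : L0, φ y = x ∧ y * zL = zL * y := by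
  have h1 : x ∈ Subgroup.normalizer (Subgroup.zpowers (φ zL) : Set G) := by
    rw [mem_norm_zpowers, hx, mul_inv_cancel_right]
    exact Subgroup.mem_zpowers _
  rw [h.norm] at h1
  obtain ⟨y, rfl⟩ := h1
  refine ⟨y, rfl, h.inj ?_⟩
  rw [map_mul, map_mul, hx]

theorem inv_of {x : G} (hx : x * φ zL * x⁻¹ = (φ zL)⁻¹) : ∃ y : L0, φ y = x ∧ y * zL * y⁻¹ = zL⁻¹ := by
  have h1 : x ∈ Subgroup.normalizer (Subgroup.zpowers (φ zL) : Set G) := by
    rw [mem_norm_zpowers, hx]
    exact inv_mem (Subgroup.mem_zpowers _)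
  rw [h.norm] at h1
  obtain ⟨y, rfl⟩ := h1
  refine ⟨y, rfl, h.inj ?_⟩
  rw [map_mul, map_mul, map_inv, hx, map_inv]

theorem closure_sub {x : G} (hx : x ∈ Subgroup.closure {φ zL, φ aL}) :
    ∃ y : L0, φ y = x ∧ y * zL = zL * y ∧ y * aL = aL * y := by
  have h1 : Subgroup.closure {φ zL, φ aL} ≤ (Subgroup.centralizer ({zL, aL} : Set L0)).map φ := by
    rw [Subgroup.closure_le]
    rintro _ (rfl | rfl)
    · refine ⟨zL, ?_, rfl⟩
      rw [SetLike.mem_coe, Subgroup.mem_centralizer_iff]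
      rintro _ (rfl | rfl)
      · rfl
      · exact za.symm
    · refine ⟨aL, ?_, rfl⟩
      rw [SetLike.mem_coe, Subgroup.mem_centralizer_iff]
      rintro _ (rfl | rfl)
      · exact za
      · rfl
  obtain ⟨y, hy, rfl⟩ := h1 hx
  rw [SetLike.mem_coe, Subgroup.mem_centralizer_iff] at hy
  exact ⟨y, rfl, (hy zL (Or.inl rfl)).symm, (hy aL (Or.inr rfl)).symm⟩

omit h in
theorem c3_zpow {y : L0} (hy : y * zL = zL * y) (hy2 : y.1.2 = 1) : ∃ i : ℕ, y = zL ^ i := by
  have h1 : y.1.1 * c3 = c3 * y.1.1 := congrArg (fun y : L0 => y.1.1) hy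
  have key : ∀ i : ℕ, y.1.1 = c3 ^ i → y = zL ^ i := by
    intro i hi
    apply Subtype.ext
    rw [Subgroup.coe_pow]
    apply Prod.ext
    · rw [hi]; rfl
    · rw [hy2]
      change 1 = (1 : S5) ^ i
      rw [one_pow]
  rcases S3d _ h1 with h2 | h2 | h2
  · exact ⟨0, key 0 (by rw [h2, pow_zero])⟩
  · exact ⟨1, key 1 (by rw [h2, pow_one])⟩
  · exact ⟨2, key 2 h2⟩

/-- the extra element -/
theorem exists_v : ∃ v : G, v ^ 3 = 1 ∧ v ∉ Subgroup.zpowers (φ zL) ∧ (∀ x ∈ V4L, φ x * v = v * φ x) ∧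
    φ aL * v = v * φ aL ∧ (φ zL * v) ^ 2 = 1 := by
  set z := φ zL with hz
  set a := φ aL with ha
  set C := Subgroup.centralizer ({φ tL} : Set G) with hC
  have hzt : z ∈ C := by
    rw [hC, Subgroup.mem_centralizer_singleton_iff, hz, ← map_mul, ← map_mul, zt]
  have hz3 : z ^ 3 = 1 := by rw [hz, ← map_pow, zL3, map_one]
  have ha3 : a ^ 3 = 1 := by rw [ha, ← map_pow, aL3, map_one]
  have hz1 : z ≠ 1 := by
    intro h0
    rw [hz, ← map_one φ] at h0
    exact zL_ne (h.inj h0)
  have hza : z * a = a * z := by rw [hz, ha, ← map_mul, za, map_mul]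
  set zC : C := ⟨z, hzt⟩ with hzC
  have hnC : ∀ c : C, c ∈ Subgroup.normalizer (Subgroup.zpowers zC : Set C) ↔
      (c : G) ∈ Subgroup.normalizer (Subgroup.zpowers z : Set G) := by
    intro c
    rw [mem_norm_zpowers, mem_norm_zpowers, Subgroup.mem_zpowers_iff, Subgroup.mem_zpowers_iff]
    constructor
    · rintro ⟨k, hk⟩
      refine ⟨k, ?_⟩
      have := congrArg Subtype.val hk
      rw [Subgroup.coe_zpow] at this
      exact this
    · rintro ⟨k, hk⟩
      refine ⟨k, Subtype.ext ?_⟩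
      rw [Subgroup.coe_zpow]
      exact hk
  have hcN : Nat.card (Subgroup.normalizer (Subgroup.zpowers zC : Set C)) = 24 := by
    rw [← card_cent_tL]
    symm
    have hm1 : ∀ x : Subgroup.centralizer ({tL} : Set L0), φ x ∈ C := by
      intro x
      rw [hC, Subgroup.mem_centralizer_singleton_iff, ← map_mul, ← map_mul,
        Subgroup.mem_centralizer_singleton_iff.1 x.2]
    refine Nat.card_congr (Equiv.ofBijective
      (fun x => (⟨⟨φ x, hm1 x⟩, (hnC _).2 (by
        have : φ x.1 ∈ φ.range := ⟨_, rfl⟩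
        rw [← h.norm] at this
        exact this)⟩ : Subgroup.normalizer (Subgroup.zpowers zC : Set C))) ⟨?_, ?_⟩)
    · intro x y hxy
      have := congrArg (fun t : ↥(Subgroup.normalizer (Subgroup.zpowers zC : Set C)) => ((t : C) : G)) hxy
      exact Subtype.ext (h.inj this)
    · rintro ⟨⟨y, hy⟩, hy2⟩
      have h1 := (hnC _).1 hy2
      change y ∈ Subgroup.normalizer (Subgroup.zpowers z : Set G) at h1
      rw [h.norm] at h1
      obtain ⟨x, rfl⟩ := h1
      refine ⟨⟨x, ?_⟩, rfl⟩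
      rw [Subgroup.mem_centralizer_singleton_iff]
      apply h.inj
      rw [map_mul, map_mul]
      exact Subgroup.mem_centralizer_singleton_iff.1 hy
  have hVle : V4L.map φ ≤ C := by
    rintro _ ⟨x, hx, rfl⟩
    rw [hC, Subgroup.mem_centralizer_singleton_iff, ← map_mul, ← map_mul]
    rw [Subgroup.mem_centralizer_singleton_iff.1 hx.1]
  have hcV : Nat.card ((V4L.map φ).subgroupOf C) = 4 := by
    rw [Nat.card_congr (Subgroup.subgroupOfEquivOfLe hVle).toEquiv,
      Subgroup.card_map_of_injective h.inj, card_V4L]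
  have hzV : ∀ x ∈ V4L, x * zL = zL * x := by
    intro x hx
    apply Subtype.ext
    apply Prod.ext
    · change x.1.1 * c3 = c3 * x.1.1
      rw [(mem_V4L.1 hx).2, mul_one, one_mul]
    · change x.1.2 * 1 = 1 * x.1.2
      rw [mul_one, one_mul]
  obtain ⟨w, hw3, hwz, hwV, hwF, hwQ⟩ := four_sylow (C := C) h.cent zC (Subtype.ext hz3)
    (fun h0 => hz1 (congrArg Subtype.val h0)) hcN ((V4L.map φ).subgroupOf C) hcV (by
      intro x hx
      have h1 : (x : G) * z = z * x := congrArg Subtype.val hx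
      obtain ⟨y, hy, hy2⟩ := comm_of h h1
      have h3 : y * tL = tL * y := by
        apply h.inj
        rw [map_mul, map_mul, hy]
        exact Subgroup.mem_centralizer_singleton_iff.1 x.2
      have h4 : y.1.2 * t5 = t5 * y.1.2 := congrArg (fun y : L0 => y.1.2) h3
      have h5 : y.1.1 * c3 = c3 * y.1.1 := congrArg (fun y : L0 => y.1.1) hy2
      have h6 : ∃ i : ℕ, y.1.1 = c3 ^ i := by
        rcases S3d _ h5 with h2 | h2 | h2
        · exact ⟨0, by rw [h2, pow_zero]⟩
        · exact ⟨1, by rw [h2, pow_one]⟩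
        · exact ⟨2, h2⟩
      obtain ⟨i, hi⟩ := h6
      have h7 : (zL ^ i)⁻¹ * y ∈ V4L := by
        rw [mem_V4L]
        have e1 : ((zL ^ i)⁻¹ * y).1.1 = 1 := by
          change (zL.1.1 ^ i)⁻¹ * y.1.1 = 1
          rw [hi]
          exact inv_mul_cancel _
        have e2 : ((zL ^ i)⁻¹ * y).1.2 = y.1.2 := by
          change ((1 : S5) ^ i)⁻¹ * y.1.2 = y.1.2
          rw [one_pow, inv_one, one_mul]
        rw [e1, e2]
        exact ⟨h4, rfl⟩
      have h8 : φ ((zL ^ i)⁻¹ * y) ∈ V4L.map φ := ⟨_, h7, rfl⟩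
      refine ⟨i, ⟨φ ((zL ^ i)⁻¹ * y), hVle h8⟩, ?_, ?_⟩
      · rw [Subgroup.mem_subgroupOf]
        exact h8
      · apply Subtype.ext
        rw [Subgroup.coe_mul, Subgroup.coe_pow]
        change (x : G) = z ^ i * φ ((zL ^ i)⁻¹ * y)
        rw [map_mul, map_inv, map_pow, hy, mul_inv_cancel_left]) (by
      intro v hv
      rw [Subgroup.mem_subgroupOf] at hv
      obtain ⟨x, hx, hxv⟩ := hv
      apply Subtype.ext
      rw [Subgroup.coe_mul, Subgroup.coe_mul, ← hxv]
      change φ x * φ zL = φ zL * φ x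
      rw [← map_mul, ← map_mul, hzV x hx])
  -- transfer to G
  set w' : G := (w : G) with hw'
  have hw3' : w' ^ 3 = 1 := congrArg Subtype.val hw3
  have hwz' : w' ∉ Subgroup.zpowers z := by
    intro h0
    apply hwz
    obtain ⟨k, hk⟩ := Subgroup.mem_zpowers_iff.1 h0
    exact Subgroup.mem_zpowers_iff.2 ⟨k, Subtype.ext (by rw [Subgroup.coe_zpow]; exact hk)⟩
  have hwV' : ∀ x ∈ V4L, φ x * w' = w' * φ x := by
    intro x hx
    have h1 : φ x ∈ V4L.map φ := ⟨x, hx, rfl⟩
    have h2 := hwV ⟨φ x, hVle h1⟩ (by rw [Subgroup.mem_subgroupOf]; exact h1)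
    exact congrArg Subtype.val h2
  have hwF' : ∀ x : G, x * φ tL = φ tL * x → x ^ 3 = 1 →
      x ∈ Subgroup.zpowers z ∨ ∃ i : ℕ, i < 3 ∧ ∃ e : ℕ, x = z ^ i * w' ^ e * (z ^ i)⁻¹ := by
    intro x hx hx3
    have hxC : x ∈ C := by rw [hC, Subgroup.mem_centralizer_singleton_iff]; exact hx
    rcases hwF ⟨x, hxC⟩ (Subtype.ext hx3) with h1 | ⟨i, hi, e, h1⟩
    · left
      obtain ⟨k, hk⟩ := Subgroup.mem_zpowers_iff.1 h1
      refine Subgroup.mem_zpowers_iff.2 ⟨k, ?_⟩
      have := congrArg Subtype.val hk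
      rw [Subgroup.coe_zpow] at this
      exact this
    · right
      exact ⟨i, hi, e, congrArg Subtype.val h1⟩
  -- w' commutes with no nontrivial twist
  have hfin : ∀ y : L0, φ y = w' → y * zL = zL * y → y * aL = aL * y → False := by
    intro y hy hyz hya
    have htV : tL ∈ V4L := mem_V4L.2 ⟨rfl, rfl⟩
    have h1 := hwV' tL htV
    rw [← hy, ← map_mul, ← map_mul] at h1
    have h2 := h.inj h1
    have h3 : y.1.2 * c5 = c5 * y.1.2 := congrArg (fun y : L0 => y.1.2) hya
    have h4 : y.1.2 * t5 = t5 * y.1.2 := (congrArg (fun y : L0 => y.1.2) h2).symm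
    obtain ⟨i, hi⟩ := c3_zpow hyz (S5e _ h3 h4)
    apply hwz'
    rw [← hy, hi, map_pow]
    exact pow_mem (Subgroup.mem_zpowers _) i
  -- a commutes with w'
  have haw : a * w' = w' * a := by
    have ht1 : (a * w' * a⁻¹) * φ tL = φ tL * (a * w' * a⁻¹) := by
      have h1 : aL⁻¹ * tL * aL ∈ V4L := mem_V4L.2 ⟨S5f, rfl⟩
      have h2 := hwV' _ h1
      rw [map_mul, map_mul, map_inv] at h2
      calc (a * w' * a⁻¹) * φ tL = a * (w' * (a⁻¹ * φ tL * a)) * a⁻¹ := by group
        _ = a * ((a⁻¹ * φ tL * a) * w') * a⁻¹ := by rw [← h2]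
        _ = φ tL * (a * w' * a⁻¹) := by group
    have ht3 : (a * w' * a⁻¹) ^ 3 = 1 := by
      rw [conj_pow, hw3']
      group
    rcases hwF' _ ht1 ht3 with h1 | ⟨i, hi, e, h1⟩
    · exfalso
      apply hwz'
      obtain ⟨k, hk⟩ := Subgroup.mem_zpowers_iff.1 h1
      have h2 : Commute (z ^ k) a := (show Commute z a from hza).zpow_left k
      refine Subgroup.mem_zpowers_iff.2 ⟨k, ?_⟩
      calc z ^ k = a⁻¹ * (z ^ k * a) := by rw [h2.eq]; group
        _ = w' := by rw [hk]; group
    · have hbe : ∀ b : G, b ^ 3 = 1 → b * w' * b⁻¹ = w' ^ e → b * w' = w' * b := by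
        intro b hb3 hb
        have h2 : b ^ 3 * w' * (b ^ 3)⁻¹ = w' ^ (e * e * e) := conj3 hb
        rw [hb3, one_mul, inv_one, mul_one] at h2
        have h3 : w' ^ (e * e * e) = w' ^ e := by
          have h4 : e * e * e ≡ e [MOD 3] := by
            have : e % 3 < 3 := Nat.mod_lt _ (by norm_num)
            rw [Nat.ModEq, Nat.mul_mod, Nat.mul_mod e e]
            interval_cases e % 3 <;> rfl
          have h5 : orderOf w' ∣ 3 := orderOf_dvd_of_pow_eq_one hw3'
          exact pow_eq_pow_iff_modEq.2 (h4.of_dvd h5)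
        rw [h3] at h2
        rw [← h2] at hb
        calc b * w' = (b * w' * b⁻¹) * b := by group
          _ = w' * b := by rw [hb]
      have hcza : Commute z a := hza
      interval_cases i
      · apply hbe a ha3
        rw [h1]
        group
      · exfalso
        have h2 := hbe (z⁻¹ * a) (by
          rw [(hcza.inv_left).mul_pow, ha3, inv_pow, hz3, inv_one, one_mul]) (by
          calc (z⁻¹ * a) * w' * (z⁻¹ * a)⁻¹ = z⁻¹ * (a * w' * a⁻¹) * z := by group
            _ = w' ^ e := by rw [h1]; group)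
        have h3 : (φ hL * w' * (φ hL)⁻¹) * φ (zL * aL) = φ (zL * aL) * (φ hL * w' * (φ hL)⁻¹) := by
          have e1 : φ hL * z⁻¹ * (φ hL)⁻¹ = z := by
            have e0 : hL * zL⁻¹ * hL⁻¹ = zL := by
              calc hL * zL⁻¹ * hL⁻¹ = (hL * zL * hL⁻¹)⁻¹ := by group
                _ = zL := by rw [hLz, inv_inv]
            rw [hz, ← map_inv, ← map_inv, ← map_mul, ← map_mul, e0]
          have e2 : φ hL * a * (φ hL)⁻¹ = a := by
            rw [ha, ← map_inv, ← map_mul, ← map_mul, hLa]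
          have e3 : φ (zL * aL) = φ hL * (z⁻¹ * a) * (φ hL)⁻¹ := by
            calc φ (zL * aL) = z * a := map_mul _ _ _
              _ = (φ hL * z⁻¹ * (φ hL)⁻¹) * (φ hL * a * (φ hL)⁻¹) := by rw [e1, e2]
              _ = _ := by group
          rw [e3]
          calc (φ hL * w' * (φ hL)⁻¹) * (φ hL * (z⁻¹ * a) * (φ hL)⁻¹)
              = φ hL * (w' * (z⁻¹ * a)) * (φ hL)⁻¹ := by group
            _ = φ hL * ((z⁻¹ * a) * w') * (φ hL)⁻¹ := by rw [h2]
            _ = _ := by group
        have h4 := h.yy _ (by rw [conj_pow, hw3']; group) h3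
        obtain ⟨y, hy, hyz, hya⟩ := closure_sub h h4
        apply hfin (hL⁻¹ * y * hL)
        · rw [map_mul, map_mul, map_inv, hy]
          group
        · have e0 : hL * zL = zL⁻¹ * hL := by rw [← hLz]; group
          have e1 : hL⁻¹ * zL⁻¹ = zL * hL⁻¹ := by
            calc hL⁻¹ * zL⁻¹ = hL⁻¹ * (zL⁻¹ * hL) * hL⁻¹ := by group
              _ = zL * hL⁻¹ := by rw [← e0]; group
          have e2 : y * zL⁻¹ = zL⁻¹ * y := ((show Commute y zL from hyz).inv_right).eq
          calc hL⁻¹ * y * hL * zL = hL⁻¹ * y * (hL * zL) := by group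
            _ = hL⁻¹ * (y * zL⁻¹) * hL := by rw [e0]; group
            _ = (hL⁻¹ * zL⁻¹) * y * hL := by rw [e2]; group
            _ = zL * (hL⁻¹ * y * hL) := by rw [e1]; group
        · have e0 : hL * aL = aL * hL := by
            calc hL * aL = (hL * aL * hL⁻¹) * hL := by group
              _ = aL * hL := by rw [hLa]
          calc hL⁻¹ * y * hL * aL = hL⁻¹ * y * (hL * aL) := by group
            _ = hL⁻¹ * (y * aL) * hL := by rw [e0]; group
            _ = hL⁻¹ * aL * y * hL := by rw [hya]; group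
            _ = hL⁻¹ * (aL * hL) * hL⁻¹ * y * hL := by group
            _ = aL * (hL⁻¹ * y * hL) := by rw [← e0]; group
      · exfalso
        have h2 := hbe (z * a) (by
          rw [hcza.mul_pow, ha3, hz3, one_mul]) (by
          have e0 : z = (z ^ 2)⁻¹ := by
            rw [eq_inv_iff_mul_eq_one, ← pow_succ', hz3]
          calc (z * a) * w' * (z * a)⁻¹ = z * (a * w' * a⁻¹) * z⁻¹ := by group
            _ = w' ^ e := by
              rw [h1]
              calc z * (z ^ 2 * w' ^ e * (z ^ 2)⁻¹) * z⁻¹ = z ^ 3 * w' ^ e * (z ^ 3)⁻¹ := by group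
                _ = w' ^ e := by rw [hz3]; group)
        have h3 : w' * φ (zL * aL) = φ (zL * aL) * w' := by
          rw [map_mul]
          exact h2.symm
        have h4 := h.yy _ hw3' h3
        obtain ⟨y, hy, hyz, hya⟩ := closure_sub h h4
        exact hfin y hy hyz hya
  -- finish
  have hfinish : ∀ v : G, a * v = v * a → (∃ u ∈ V4L, φ u = (z * v) ^ 2) → (z * v) ^ 2 = 1 := by
    rintro v hv ⟨u, hu, huv⟩
    have h1 : Commute ((z * v) ^ 2) a := by
      apply Commute.pow_left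
      exact Commute.mul_left hza hv.symm
    have h2 : u * aL = aL * u := by
      apply h.inj
      rw [map_mul, map_mul, huv]
      exact h1
    have h3 : u.1.2 * c5 = c5 * u.1.2 := congrArg (fun y : L0 => y.1.2) h2
    have h4 := mem_V4L.1 hu
    have h5 : u = 1 := by
      apply Subtype.ext
      apply Prod.ext
      · exact h4.2
      · exact S5e _ h3 h4.1
    rw [← huv, h5, map_one]
  rcases hwQ with hq | hq
  · refine ⟨w', hw3', hwz', hwV', haw, hfinish w' haw ?_⟩
    rw [Subgroup.mem_subgroupOf] at hq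
    obtain ⟨u, hu, huv⟩ := hq
    exact ⟨u, hu, huv⟩
  · have haw' : a * w'⁻¹ = w'⁻¹ * a := ((show Commute a w' from haw).inv_right).eq
    refine ⟨w'⁻¹, by rw [inv_pow, hw3', inv_one], fun h0 => hwz' (by simpa using inv_mem h0), ?_, haw',
      hfinish _ haw' ?_⟩
    · intro x hx
      exact ((show Commute (φ x) w' from hwV' x hx).inv_right).eq
    · rw [Subgroup.mem_subgroupOf] at hq
      obtain ⟨u, hu, huv⟩ := hq
      exact ⟨u, hu, huv⟩

end main

end Cfsg.Agent.Lib.H52A8
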