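import Mathlib
import Cfsg.Agent.Lib.H52A8B
import Cfsg.Agent.Lib.H52A8D

set_option autoImplicit false
set_option linter.all false

/-!
# Endgame of the recognition of `A₈` (helper52)
-/

namespace Cfsg.Agent.Lib.H52A8

open Equiv Equiv.Perm Cfsg.Agent.Lib.H25X

/-- `A₅` in `L0` -/
def inA : alternatingGroup (Fin 5) →* L0 where
  toFun p := ⟨(1, p.1), by
    rw [mem_L0]
    change sign (1 : S3) * sign p.1 = 1
    rw [map_one, one_mul]
    exact Equiv.Perm.mem_alternatingGroup.1 p.2⟩
  map_one' := rfl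
  map_mul' p q := by
    apply Subtype.ext
    apply Prod.ext
    · exact (one_mul _).symm
    · rfl

theorem zinA (p : alternatingGroup (Fin 5)) : zL * inA p = inA p * zL := by
  apply Subtype.ext
  apply Prod.ext
  · change c3 * 1 = 1 * c3
    rw [mul_one, one_mul]
  · change 1 * p.1 = p.1 * 1
    rw [mul_one, one_mul]

def b0 : alternatingGroup (Fin 5) := ⟨swap 3 4 * swap 0 1, by
  rw [Equiv.Perm.mem_alternatingGroup]; decide⟩

theorem b0_sq : inA b0 ^ 2 = 1 := by
  apply Subtype.ext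
  decide +kernel

theorem b0_a : inA b0 * aL * (inA b0)⁻¹ = aL⁻¹ := by
  apply Subtype.ext
  decide +kernel

theorem b0_4 : b0.1 4 = 3 := by decide +kernel

section main

variable {G : Type*} [Group G] [Finite G] {φ : L0 →* G} (h : EndData φ)

include h

theorem key_sq {v : G} (hv3 : v ^ 3 = 1) (hvz : v ∉ Subgroup.zpowers (φ zL))
    (hva : φ aL * v = v * φ aL) (hzv : (φ zL * v) ^ 2 = 1) :
    (v * φ (inA b0) * v * (φ (inA b0))⁻¹) ^ 2 = 1 := by
  obtain ⟨g, hg⟩ := isConj_iff.1 h.conj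
  set z := φ zL with hz
  set a := φ aL with ha
  set β := φ (inA b0) with hβ
  have hz3 : z ^ 3 = 1 := by rw [hz, ← map_pow, zL3, map_one]
  have hz1 : z ≠ 1 := by
    intro h0
    rw [hz, ← map_one φ] at h0
    exact zL_ne (h.inj h0)
  have hza : z * a = a * z := by rw [hz, ha, ← map_mul, za, map_mul]
  have hβ2 : β ^ 2 = 1 := by rw [hβ, ← map_pow, b0_sq, map_one]
  have hβz : β * z = z * β := by rw [hβ, hz, ← map_mul, ← map_mul, zinA]
  have hβa : β * a * β⁻¹ = a⁻¹ := by rw [hβ, ha, ← map_inv, ← map_mul, ← map_mul, b0_a, map_inv]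
  -- conjugate by g⁻¹
  let κ : G →* G := (MulAut.conj g⁻¹).toMonoidHom
  have hκ : ∀ x, κ x = g⁻¹ * x * g := by
    intro x
    change g⁻¹ * x * g⁻¹⁻¹ = _
    rw [inv_inv]
  have hκinj : Function.Injective κ := (MulAut.conj g⁻¹).injective
  have hκa : κ a = z := by
    rw [hκ, ← hg]
    group
  obtain ⟨b, hb, hbz⟩ := inv_of h (x := κ β) (by
    have e := congrArg κ hβa
    rw [map_mul, map_mul, map_inv, map_inv, hκa] at e
    exact e)
  obtain ⟨c, hc, hcz⟩ := comm_of h (x := κ z) (by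
    have e := congrArg κ hza
    rw [map_mul, map_mul, hκa] at e
    exact e)
  obtain ⟨d, hd, hdz⟩ := comm_of h (x := κ v) (by
    have e := congrArg κ hva
    rw [map_mul, map_mul, hκa] at e
    exact e.symm)
  have hb2 : b ^ 2 = 1 := by
    apply h.inj
    rw [map_pow, hb, ← map_pow, hβ2, map_one, map_one]
  have hc3 : c ^ 3 = 1 := by
    apply h.inj
    rw [map_pow, hc, ← map_pow, hz3, map_one, map_one]
  have hc1 : c ≠ 1 := by
    intro h0
    apply hz1
    apply hκinj
    rw [← hc, h0, map_one, map_one]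
  have hd3 : d ^ 3 = 1 := by
    apply h.inj
    rw [map_pow, hd, ← map_pow, hv3, map_one, map_one]
  have hcd : (c * d) ^ 2 = 1 := by
    apply h.inj
    rw [map_pow, map_mul, hc, hd, ← map_mul, ← map_pow, hzv, map_one, map_one]
  have hcd1 : c * d ≠ 1 := by
    intro h0
    have h1 : z * v = 1 := by
      apply hκinj
      rw [map_mul, ← hc, ← hd, ← map_mul, h0, map_one, map_one]
    apply hvz
    rw [eq_inv_of_mul_eq_one_right h1]
    exact inv_mem (Subgroup.mem_zpowers _)
  have hbc : b * c = c * b := by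
    apply h.inj
    have e := congrArg κ hβz
    rw [map_mul, map_mul] at e
    rw [map_mul, map_mul, hb, hc]
    exact e
  -- components
  have e1 : b.1.1 * c3 * b.1.1⁻¹ = c3⁻¹ := congrArg (fun y : L0 => y.1.1) hbz
  have e2 : c.1.1 * c3 = c3 * c.1.1 := congrArg (fun y : L0 => y.1.1) hcz
  have e3 : d.1.1 * c3 = c3 * d.1.1 := congrArg (fun y : L0 => y.1.1) hdz
  have e4 : b.1.1 * c.1.1 = c.1.1 * b.1.1 := congrArg (fun y : L0 => y.1.1) hbc
  have e5 : c.1.1 = 1 := S3a _ _ e2 e1 e4.symm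
  have e6 : (c.1.1 * d.1.1) ^ 2 = 1 := congrArg (fun y : L0 => y.1.1) hcd
  rw [e5, one_mul] at e6
  have e7 : d.1.1 = 1 := S3c _ e3 e6
  have e8 : sign b.1.2 = -1 := by
    have h1 := (mem_L0 b.1).1 b.2
    rw [S3b _ e1] at h1
    have h2 : -sign b.1.2 = 1 := by simpa using h1
    rw [← h2, neg_neg]
  have f1 : c.1.2 ^ 3 = 1 := congrArg (fun y : L0 => y.1.2) hc3
  have f2 : c.1.2 ≠ 1 := by
    intro h0
    apply hc1
    exact Subtype.ext (Prod.ext e5 h0)
  have f3 : b.1.2 ^ 2 = 1 := congrArg (fun y : L0 => y.1.2) hb2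
  have f4 : b.1.2 * c.1.2 = c.1.2 * b.1.2 := congrArg (fun y : L0 => y.1.2) hbc
  have f5 : (c.1.2 * d.1.2) ^ 2 = 1 := congrArg (fun y : L0 => y.1.2) hcd
  have f6 : d.1.2 ^ 3 = 1 := congrArg (fun y : L0 => y.1.2) hd3
  have f7 : c.1.2 * d.1.2 ≠ 1 := by
    intro h0
    apply hcd1
    apply Subtype.ext
    apply Prod.ext
    · change c.1.1 * d.1.1 = 1
      rw [e5, e7, one_mul]
    · exact h0
  have f8 := S5a _ f1 f2 _ e8 f3 f4 _ f5 f6 f7
  have f9 : (d * b * d * b⁻¹) ^ 2 = 1 := by
    apply Subtype.ext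
    apply Prod.ext
    · change (d.1.1 * b.1.1 * d.1.1 * b.1.1⁻¹) ^ 2 = 1
      rw [e7, one_mul, mul_one, mul_inv_cancel, one_pow]
    · exact f8
  apply hκinj
  rw [map_pow, map_mul, map_mul, map_mul, map_inv, ← hb, ← hd, ← map_inv, ← map_mul, ← map_mul, ← map_mul,
    ← map_pow, f9, map_one, map_one]

/-- **Endgame for `A₈`.** -/
theorem main : Nonempty (G ≃* alternatingGroup (Fin 8)) := by
  obtain ⟨v, hv3, hvz, hvV, hva, hzv⟩ := exists_v h
  have hkey := key_sq h hv3 hvz hva hzv
  set z := φ zL with hz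
  set al : alternatingGroup (Fin 5) →* G := φ.comp inA with hal
  have hz3 : z ^ 3 = 1 := by rw [hz, ← map_pow, zL3, map_one]
  have hz1 : z ≠ 1 := by
    intro h0
    rw [hz, ← map_one φ] at h0
    exact zL_ne (h.inj h0)
  have hzal : ∀ p, z * al p = al p * z := by
    intro p
    rw [hz, hal, MonoidHom.comp_apply, ← map_mul, ← map_mul, zinA]
  -- stabiliser of the last point centralises v
  have hst : ∀ p : alternatingGroup (Fin 5), p.1 4 = 4 → al p * v = v * al p := by
    intro p hp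
    obtain ⟨k, q, hq, hpq⟩ := S5b p.1 (Equiv.Perm.mem_alternatingGroup.1 p.2) hp
    have hqc := S5g q hq
    have hqs : sign q = 1 := by
      rcases hq with rfl | rfl | rfl | rfl <;> decide
    have hu : (⟨(1, q), by
        rw [mem_L0]
        change sign (1 : S3) * sign q = 1
        rw [map_one, one_mul, hqs]⟩ : L0) ∈ V4L := mem_V4L.2 ⟨hqc, rfl⟩
    have h1 : inA p = (⟨(1, q), by
        rw [mem_L0]
        change sign (1 : S3) * sign q = 1
        rw [map_one, one_mul, hqs]⟩ : L0) * aL ^ (k : ℕ) := by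
      apply Subtype.ext
      apply Prod.ext
      · change (1 : S3) = 1 * 1 ^ (k : ℕ)
        rw [one_pow, one_mul]
      · exact hpq
    have h2 := hvV _ hu
    have h3 : Commute (φ aL ^ (k : ℕ)) v := Commute.pow_left hva _
    have h4 : Commute (al p) v := by
      rw [hal, MonoidHom.comp_apply, h1, map_mul, map_pow]
      exact Commute.mul_left h2 h3
    exact h4
  have hch : ∀ i : Fin 5, ∃ p : alternatingGroup (Fin 5), p.1 4 = i := by
    intro i
    obtain ⟨p, hp, hpi⟩ := S5c i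
    exact ⟨⟨p, Equiv.Perm.mem_alternatingGroup.2 hp⟩, hpi⟩
  choose P hP using hch
  set W : Fin 5 → G := fun i => al (P i) * v * (al (P i))⁻¹ with hW
  have hWp : ∀ (i : Fin 5) (p : alternatingGroup (Fin 5)), p.1 4 = i → al p * v * (al p)⁻¹ = W i := by
    intro i p hp
    have h1 : ((P i)⁻¹ * p).1 4 = 4 := by
      change (P i).1⁻¹ (p.1 4) = 4
      rw [hp, Equiv.Perm.inv_eq_iff_eq, hP]
    have h2 := hst _ h1
    rw [map_mul, map_inv] at h2
    calc al p * v * (al p)⁻¹ = al (P i) * ((al (P i))⁻¹ * al p * v) * (al p)⁻¹ := by group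
      _ = al (P i) * (v * ((al (P i))⁻¹ * al p)) * (al p)⁻¹ := by rw [h2]
      _ = W i := by rw [hW]; group
  have hW3 : ∀ i, W i ^ 3 = 1 := by
    intro i
    rw [hW]
    simp only
    rw [conj_pow, hv3]
    group
  have hzW : ∀ i, (z * W i) ^ 2 = 1 := by
    intro i
    have h1 : z * W i = al (P i) * (z * v) * (al (P i))⁻¹ := by
      rw [hW]
      simp only
      calc z * (al (P i) * v * (al (P i))⁻¹) = (z * al (P i)) * v * (al (P i))⁻¹ := by group
        _ = _ := by rw [hzal]; group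
    rw [h1, conj_pow, hzv]
    group
  have hWz : ∀ i, (W i * z) ^ 2 = 1 := by
    intro i
    have h1 : W i * z = z⁻¹ * (z * W i) * (z⁻¹)⁻¹ := by group
    rw [h1, conj_pow, hzW]
    group
  have hWW : ∀ i j, i ≠ j → (W i * W j) ^ 2 = 1 := by
    intro i j hij
    obtain ⟨p, hp, hpi, hpj⟩ := S5d i j hij
    set p' : alternatingGroup (Fin 5) := ⟨p, Equiv.Perm.mem_alternatingGroup.2 hp⟩ with hp'
    have h1 := hWp i p' hpi
    have h2 := hWp j (p' * b0) (by
      change p (b0.1 4) = j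
      rw [b0_4]
      exact hpj)
    have h3 : W i * W j = al p' * (v * φ (inA b0) * v * (φ (inA b0))⁻¹) * (al p')⁻¹ := by
      rw [← h1, ← h2, map_mul]
      change al p' * v * (al p')⁻¹ * (al p' * φ (inA b0) * v * (al p' * φ (inA b0))⁻¹) = _
      group
    rw [h3, conj_pow, hkey]
    group
  apply carm_alt8 (fun i : Fin 6 => Fin.cases (motive := fun _ => G) z W i)
  · intro i
    refine Fin.cases ?_ (fun i => ?_) i
    · exact hz3
    · exact hW3 i
  · intro i j
    refine Fin.cases ?_ (fun i => ?_) i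
    · refine Fin.cases ?_ (fun j => ?_) j
      · intro h0
        exact absurd rfl h0
      · intro _
        exact hzW j
    · refine Fin.cases ?_ (fun j => ?_) j
      · intro _
        exact hWz i
      · intro h0
        exact hWW i j (fun h1 => h0 (by rw [h1]))
  · exact hz1
  · exact h.card

end main

end Cfsg.Agent.Lib.H52A8
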