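import Mathlib
import Cfsg.Agent.Lib.H52Dih5

/-!
# The principal 2-block of a group with dihedral Sylow 2-subgroups: labelling (helper52)
-/

set_option autoImplicit false

open Finset

namespace Cfsg.Agent.Lib.H52Dih6

open Cfsg Cfsg.Agent.Lib.DihSylow Cfsg.Agent.Lib.H52Dih1 Cfsg.Agent.Lib.H52Dih2
open Cfsg.Agent.Lib.H52Dih3 Cfsg.Agent.Lib.H52Dih4 Cfsg.Agent.Lib.H52Dih5 Cfsg.Agent.Lib.BlockRing
open Cfsg.Agent.Lib.BlockThird
open scoped ComplexConjugate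

universe u

section Model

variable {q : ℕ} {ζ : ℂ}

theorem not_dvd {N k : ℕ} (hk : 0 < k) (hk' : k < N) : ¬ ((N : ℤ) ∣ (k : ℤ)) := by
  intro h
  have := Int.natCast_dvd_natCast.mp h
  exact absurd (Nat.le_of_dvd hk this) (by omega)

theorem cc_const {N : ℕ} (hζ : IsPrimitiveRoot ζ N) {j : ℕ} (hj0 : 0 < j) (hj : j < N) :
    cc N ζ (fun _ => 1) j = 1 := by
  classical
  have hN : 0 < N := by omega
  have h1 : (fun _ : ℕ => (1 : ℂ)) = fun l : ℕ => ζ ^ ((0 : ℤ) * (l : ℤ)) := by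
    funext l; simp
  rw [h1, cc_exp hN hζ]
  have h2 : ¬ ((N : ℤ) ∣ -(j : ℤ)) := by rw [dvd_neg]; exact not_dvd hj0 hj
  rw [if_pos (dvd_zero _), zero_add, zero_sub, if_neg (not_dvd hj0 hj), if_neg h2]
  simp

theorem ζ_q (hq : 0 < q) (hζ : IsPrimitiveRoot ζ (2 * q)) : ζ ^ q = -1 := by
  have h1 : (ζ ^ q) ^ 2 = 1 := by rw [← pow_mul, mul_comm, hζ.pow_eq_one]
  rcases sq_eq_one_iff_of_ne_zero.mp h1 with h | h
  · exfalso
    have := (hζ.pow_eq_one_iff_dvd q).mp h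
    exact absurd (Nat.le_of_dvd hq this) (by omega)
  · exact h
where
  sq_eq_one_iff_of_ne_zero {a : ℂ} : a ^ 2 = 1 ↔ a = 1 ∨ a = -1 := sq_eq_one_iff_of_ne_zero' a
  sq_eq_one_iff_of_ne_zero' (a : ℂ) : a ^ 2 = 1 ↔ a = 1 ∨ a = -1 := by
    constructor
    · intro h
      have : (a - 1) * (a + 1) = 0 := by linear_combination h
      rcases mul_eq_zero.mp this with h | h
      · left; linear_combination h
      · right; linear_combination h
    · rintro (rfl | rfl) <;> norm_num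

theorem cc_alt (hq : 0 < q) (hζ : IsPrimitiveRoot ζ (2 * q)) {j : ℕ} (hj0 : 0 < j) (hj : j ≤ q) :
    cc (2 * q) ζ (fun l => (-1) ^ (l + 1)) j = if j = q then 1 else 0 := by
  classical
  have hN : 0 < 2 * q := by omega
  have h1 : (fun l : ℕ => (-1 : ℂ) ^ (l + 1)) = fun l : ℕ => (-1 : ℂ) * ζ ^ (((q : ℕ) : ℤ) * (l : ℤ)) := by
    funext l
    rw [pow_succ, zpow_mul, zpow_natCast, zpow_natCast, ζ_q hq hζ, mul_comm]
  rw [h1, cc_smul, cc_exp hN hζ, if_neg (not_dvd hq (by omega))]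
  have h2 : ((2 * q : ℕ) : ℤ) ∣ (q : ℤ) + j ↔ j = q := by
    constructor
    · intro h
      by_contra hne
      have h3 : ((2 * q : ℕ) : ℤ) ∣ ((q + j : ℕ) : ℤ) := by push_cast at h ⊢; exact h
      exact not_dvd (by omega) (by omega) h3
    · rintro rfl; exact ⟨1, by push_cast; ring⟩
  have h3 : ((2 * q : ℕ) : ℤ) ∣ (q : ℤ) - j ↔ j = q := by
    constructor
    · intro h
      have h3 := Int.eq_zero_of_abs_lt_dvd h (by rw [abs_lt]; constructor <;> push_cast <;> omega)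
      omega
    · rintro rfl; simp
  simp only [h2, h3]
  split_ifs <;> norm_num

theorem cc_cos (hq : 0 < q) (hζ : IsPrimitiveRoot ζ (2 * q)) {i j : ℕ} (hi0 : 0 < i) (hi : i < q)
    (hj0 : 0 < j) (hj : j ≤ q) :
    cc (2 * q) ζ (fun l => ζ ^ (i * l) + (ζ ^ (i * l))⁻¹) j = if j = i then -1 else 0 := by
  classical
  have hN : 0 < 2 * q := by omega
  have h1 : (fun l : ℕ => ζ ^ (i * l) + (ζ ^ (i * l))⁻¹) =
      fun l : ℕ => ζ ^ ((i : ℤ) * (l : ℤ)) + ζ ^ (-(i : ℤ) * (l : ℤ)) := by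
    funext l
    rw [← zpow_natCast, neg_mul, zpow_neg]; push_cast; rfl
  have h1' : ¬ (((2 * q : ℕ) : ℤ) ∣ -(i : ℤ)) := by rw [dvd_neg]; exact not_dvd hi0 (by omega)
  rw [h1, cc_add, cc_exp hN hζ, cc_exp hN hζ, if_neg (not_dvd hi0 (by omega)), if_neg h1']
  have h2 : ¬ (((2 * q : ℕ) : ℤ) ∣ (i : ℤ) + j) := by
    intro h
    have h3 : ((2 * q : ℕ) : ℤ) ∣ ((i + j : ℕ) : ℤ) := by push_cast at h ⊢; exact h
    exact not_dvd (by omega) (by omega) h3
  have h3 : ((2 * q : ℕ) : ℤ) ∣ (i : ℤ) - j ↔ j = i := by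
    constructor
    · intro h
      have h3 := Int.eq_zero_of_abs_lt_dvd h (by rw [abs_lt]; constructor <;> push_cast <;> omega)
      omega
    · rintro rfl; simp
  have h4 : ((2 * q : ℕ) : ℤ) ∣ -(i : ℤ) + j ↔ j = i := by
    rw [← h3, ← dvd_neg]; congr! 1; ring
  have h5 : ¬ (((2 * q : ℕ) : ℤ) ∣ -(i : ℤ) - j) := by
    rw [← dvd_neg]
    intro h; apply h2
    rwa [show -(-(i : ℤ) - j) = (i : ℤ) + j by ring] at h
  simp only [if_neg h2, h3, h4, if_neg h5]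
  split_ifs <;> norm_num

end Model

variable {G : Type u} [Group G] [Finite G]

/-- The labelled principal block. -/
structure Lab (M : Ideal AlgInt) (x : G) (q : ℕ) (ζ : ℂ) (a b c : IrrCharacter G)
    (o : ℕ → IrrCharacter G) (δ β γ : ℤ) : Prop where
  dδ : δ = 1 ∨ δ = -1
  dβ : β = 1 ∨ β = -1
  dγ : γ = 1 ∨ γ = -1
  a1 : a ≠ triv G
  b1 : b ≠ triv G
  c1 : c ≠ triv G
  ab : a ≠ b
  ac : a ≠ c
  bc : b ≠ c
  o1 : ∀ j, 1 ≤ j → j < q → o j ≠ triv G
  oa : ∀ j, 1 ≤ j → j < q → o j ≠ a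
  ob : ∀ j, 1 ≤ j → j < q → o j ≠ b
  oc : ∀ j, 1 ≤ j → j < q → o j ≠ c
  oo : ∀ i j, 1 ≤ i → i < q → 1 ≤ j → j < q → i ≠ j → o i ≠ o j
  mem : ∀ χ, χ ∈ principalBlock M G ↔ χ = triv G ∨ χ = a ∨ χ = b ∨ χ = c ∨
    ∃ j, 1 ≤ j ∧ j < q ∧ χ = o j
  va : ∀ l, 0 < l → l < 2 * q → (a : G → ℂ) (x ^ l) = δ
  vb : ∀ l, 0 < l → l < 2 * q → (b : G → ℂ) (x ^ l) = β * (-1) ^ (l + 1)
  vc : ∀ l, 0 < l → l < 2 * q → (c : G → ℂ) (x ^ l) = γ * (-1) ^ (l + 1)
  vo : ∀ j, 1 ≤ j → j < q → ∀ l, 0 < l → l < 2 * q →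
    (o j : G → ℂ) (x ^ l) = δ * (ζ ^ (j * l) + (ζ ^ (j * l))⁻¹)
  rel1 : ∀ ρ : G, ¬ 2 ∣ orderOf ρ → 1 + δ * (a : G → ℂ) ρ = -β * (b : G → ℂ) ρ - γ * (c : G → ℂ) ρ
  rel2 : ∀ j, 1 ≤ j → j < q → ∀ ρ : G, ¬ 2 ∣ orderOf ρ →
    1 + δ * (a : G → ℂ) ρ = δ * (o j : G → ℂ) ρ

variable {S : Sylow 2 G} {x y : G} {q n : ℕ} {M : Ideal AlgInt} {ζ : ℂ}

theorem exists_lab (hM : IsPModular 2 M) (h : DH (S : Subgroup G) x y q n) {K : Subgroup G}
    (c : Comp S (x ^ (q : ℤ)) K) (hn : 1 ≤ n) (hζ : IsPrimitiveRoot ζ (2 * q)) :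
    ∃ a b c o δ β γ, Lab M x q ζ a b c o δ β γ := by
  classical
  haveI := isPrime hM
  have hq := h.q_pos
  have hN : 0 < 2 * q := by omega
  have hq' : q = 2 ∨ 4 ≤ q := by
    rw [h.hq]
    obtain ⟨m, rfl⟩ := Nat.exists_eq_add_of_le hn
    rcases Nat.eq_zero_or_pos m with rfl | hm
    · left; rfl
    · right
      calc 4 = 2 ^ 2 := rfl
        _ ≤ 2 ^ (1 + m) := Nat.pow_le_pow_right (by norm_num) (by omega)
  choose w hw using fun (j : ℕ) (χ : IrrCharacter G) => W_int (ζ := ζ) h hζ χ j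
  set s : Finset (IrrCharacter G) := (PB M G).erase (triv G) with hs
  have htriv : triv G ∈ PB M G := mem_PB.mpr triv_mem
  have hWt : ∀ j, 0 < j → j < 2 * q → W q ζ x (triv G) j = 1 := by
    intro j h0 h1
    exact cc_const hζ h0 h1
  have hsplit : ∀ f : IrrCharacter G → ℂ, ∑ χ ∈ PB M G, f χ = f (triv G) + ∑ χ ∈ s, f χ := by
    intro f
    rw [hs, Finset.add_sum_erase _ _ htriv]
  have hgram : ∀ i j, 0 < i → i < 2 * q → 0 < j → j < 2 * q →
      ((∑ χ ∈ s, w i χ * w j χ : ℤ) : ℂ) = 1 + (if i = j then 1 else 0) +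
        (if i + j = 2 * q then 1 else 0) := by
    intro i j h1 h2 h3 h4
    have h5 := gram hM h c hζ h1 h2 h3 h4
    rw [hsplit, hWt i h1 h2, hWt j h3 h4] at h5
    push_cast
    simp only [hw] at h5
    linear_combination h5
  have hdeg : ∀ ρ : G, ¬ 2 ∣ orderOf ρ → ∀ j, 0 < j → j < 2 * q →
      1 * (1 : ℂ) + ∑ χ ∈ s, (w j χ : ℂ) * (χ : G → ℂ) ρ = 0 := by
    intro ρ hρ j h1 h2
    have h3 := reg_sum (ζ := ζ) hM h hρ j
    rw [hsplit, hWt j h1 h2] at h3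
    simp only [hw] at h3
    exact h3
  have h2o : ¬ 2 ∣ orderOf (1 : G) := by rw [orderOf_one]; norm_num
  have hcfg : Cfg s w (fun χ => (charDegree (χ : G → ℂ) : ℤ)) q := by
    refine ⟨hq', ?_, ?_, ?_, ?_⟩
    · intro j h1 h2
      have h3 := hgram j j h1 (by omega) h1 (by omega)
      rw [if_pos rfl, if_neg (by omega)] at h3
      have : ((∑ χ ∈ s, w j χ * w j χ : ℤ) : ℂ) = ((2 : ℤ) : ℂ) := by rw [h3]; norm_num
      exact_mod_cast this
    · have h3 := hgram q q hq (by omega) hq (by omega)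
      rw [if_pos rfl, if_pos (by omega)] at h3
      have : ((∑ χ ∈ s, w q χ * w q χ : ℤ) : ℂ) = ((3 : ℤ) : ℂ) := by rw [h3]; norm_num
      exact_mod_cast this
    · intro i j h1 h2 h3 h4 h5
      have h3 := hgram i j h1 (by omega) h3 (by omega)
      rw [if_neg h5, if_neg (by omega)] at h3
      have : ((∑ χ ∈ s, w i χ * w j χ : ℤ) : ℂ) = ((1 : ℤ) : ℂ) := by rw [h3]; norm_num
      exact_mod_cast this
    · intro j h1 h2
      have h3 := hdeg 1 h2o j h1 (by omega)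
      have : ((∑ χ ∈ s, w j χ * (charDegree (χ : G → ℂ) : ℤ) : ℤ) : ℂ) = ((-1 : ℤ) : ℂ) := by
        push_cast
        simp only [BlockDeg.charDegree_cast_irr]
        linear_combination h3
      exact_mod_cast this
  obtain ⟨a, b, d, o, δ, ha, hb, hd, hab, had, hbd, hδ, hwa, hwb, hwd, hw0, ho, hoo⟩ := hcfg.main
  -- values from coefficients
  have hval : ∀ (χ : IrrCharacter G) (g : ℕ → ℂ), (∀ l, l ≤ 2 * q → g (2 * q - l) = g l) →
      (∀ j, 1 ≤ j → j ≤ q → (w j χ : ℂ) = cc (2 * q) ζ g j) → ∀ l, 0 < l → l < 2 * q →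
      (χ : G → ℂ) (x ^ l) = g l := by
    intro χ g hg hj l hl0 hl
    refine ext_of_cc hq rfl hζ (fun l => (χ : G → ℂ) (x ^ l)) g (fun l hl => val_symm h χ hl) hg
      (fun j h1 h2 => ?_) hl0 hl
    rw [← hj j h1 h2, ← hw j χ]
    rfl
  have halt : ∀ l, l ≤ 2 * q → ((-1 : ℂ)) ^ (2 * q - l + 1) = (-1) ^ (l + 1) := by
    intro l hl
    have h1 : ((-1 : ℂ)) ^ (2 * q - l) * (-1) ^ l = 1 := by
      rw [← pow_add, Nat.sub_add_cancel hl, pow_mul]; norm_num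
    have h2 : ((-1 : ℂ)) ^ l * (-1) ^ l = 1 := by
      rw [← pow_add, ← two_mul, pow_mul]; norm_num
    rw [pow_succ, pow_succ]
    congr 1
    calc ((-1 : ℂ)) ^ (2 * q - l) = (-1) ^ (2 * q - l) * ((-1) ^ l * (-1) ^ l) := by rw [h2, mul_one]
      _ = ((-1) ^ (2 * q - l) * (-1) ^ l) * (-1) ^ l := by ring
      _ = _ := by rw [h1, one_mul]
  have hcos : ∀ i l, l ≤ 2 * q → ζ ^ (i * (2 * q - l)) + (ζ ^ (i * (2 * q - l)))⁻¹ =
      ζ ^ (i * l) + (ζ ^ (i * l))⁻¹ := by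
    intro i l hl
    have h0 : ζ ≠ 0 := hζ.ne_zero hN.ne'
    have h1 : ζ ^ (i * (2 * q - l)) * ζ ^ (i * l) = 1 := by
      rw [← pow_add, ← mul_add, Nat.sub_add_cancel hl, mul_comm i, pow_mul, hζ.pow_eq_one, one_pow]
    have h2 : ζ ^ (i * (2 * q - l)) = (ζ ^ (i * l))⁻¹ := eq_inv_of_mul_eq_one_left h1
    rw [h2, inv_inv, add_comm]
  -- vanishing coefficients
  have hzero : ∀ χ ∈ s, (∀ j, 1 ≤ j → j ≤ q → w j χ = 0) → False := by
    intro χ hχ h0
    have hχ' : χ ∈ principalBlock M G := mem_PB.mp (Finset.mem_of_mem_erase hχ)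
    have h1 := hval χ (fun _ => 0) (fun _ _ => rfl) (fun j h1 h2 => by
      rw [h0 j h1 h2]; unfold cc; simp) q hq (by omega)
    refine ne_zero_of_mem (S := S) hM (z := x ^ (q : ℤ)) (S_comm h) hχ' ?_
    rw [zpow_natCast]; exact h1
  have hwb0 : ∀ j, 1 ≤ j → j < q → w j b = 0 := by
    intro j h1 h2
    obtain ⟨o1, o2, o3, o4, o5, o6, o7⟩ := ho j h1 h2
    exact o7 b hb (Ne.symm hab) (Ne.symm o3)
  have hwd0 : ∀ j, 1 ≤ j → j < q → w j d = 0 := by
    intro j h1 h2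
    obtain ⟨o1, o2, o3, o4, o5, o6, o7⟩ := ho j h1 h2
    exact o7 d hd (Ne.symm had) (Ne.symm o4)
  have hva : ∀ l, 0 < l → l < 2 * q → (a : G → ℂ) (x ^ l) = δ := by
    refine hval a (fun _ => (δ : ℂ)) (fun _ _ => rfl) (fun j h1 h2 => ?_)
    have h3 : w j a = δ := by
      rcases h2.lt_or_eq with h3 | rfl
      · exact (ho j h1 h3).2.2.2.2.1
      · exact hwa
    rw [h3]
    have := cc_smul (N := 2 * q) (ζ := ζ) (δ : ℂ) (fun _ => 1) j
    simp only [mul_one] at this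
    rw [this, cc_const hζ h1 (by omega), mul_one]
  have hvalt : ∀ (χ : IrrCharacter G), (∀ j, 1 ≤ j → j < q → w j χ = 0) → ∀ l, 0 < l → l < 2 * q →
      (χ : G → ℂ) (x ^ l) = (w q χ : ℂ) * (-1) ^ (l + 1) := by
    intro χ h0
    refine hval χ (fun l => (w q χ : ℂ) * (-1) ^ (l + 1)) (fun l hl => ?_) (fun j h1 h2 => ?_)
    · show (w q χ : ℂ) * _ = (w q χ : ℂ) * _
      rw [halt l hl]
    · rw [cc_smul, cc_alt hq hζ h1 h2]
      split_ifs with h3
      · rw [h3, mul_one]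
      · rw [h0 j h1 (by omega)]; simp
  -- signs
  have hreg : ∀ ρ : G, ¬ 2 ∣ orderOf ρ → ∀ j, 1 ≤ j → j < q →
      1 + δ * (a : G → ℂ) ρ + w j (o j) * (o j : G → ℂ) ρ = 0 := by
    intro ρ hρ j h1 h2
    have h3 := hdeg ρ hρ j h1 (by omega)
    obtain ⟨o1, o2, o3, o4, o5, o6, o7⟩ := ho j h1 h2
    have h4 : ∑ χ ∈ s, (w j χ : ℂ) * (χ : G → ℂ) ρ =
        (w j a : ℂ) * (a : G → ℂ) ρ + (w j (o j) : ℂ) * (o j : G → ℂ) ρ := by
      have : ∑ χ ∈ s, (w j χ : ℂ) * (χ : G → ℂ) ρ =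
          ∑ χ ∈ ({a, o j} : Finset (IrrCharacter G)), (w j χ : ℂ) * (χ : G → ℂ) ρ := by
        symm
        apply Finset.sum_subset
        · intro t ht
          rcases Finset.mem_insert.mp ht with rfl | ht
          · exact ha
          · rw [Finset.mem_singleton.mp ht]; exact o1
        · intro t ht ht'
          simp only [Finset.mem_insert, Finset.mem_singleton, not_or] at ht'
          rw [o7 t ht ht'.1 ht'.2]; simp
      rw [this, Finset.sum_pair (Ne.symm o2)]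
    rw [h4, o5] at h3
    linear_combination h3
  have hpos : ∀ χ : IrrCharacter G, (0 : ℤ) < (charDegree (χ : G → ℂ) : ℤ) := by
    intro χ
    have h1 := BlockDeg.charDegree_cast_irr χ
    have h2 : (χ : G → ℂ) 1 ≠ 0 := IsIrrCharacter.one_ne_zero χ.2
    have h3 : charDegree (χ : G → ℂ) ≠ 0 := by
      intro h3
      rw [h3] at h1
      exact h2 (by rw [← h1]; simp)
    exact_mod_cast Nat.pos_of_ne_zero h3
  have hsign : ∀ j, 1 ≤ j → j < q → w j (o j) = -δ := by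
    intro j h1 h2
    have h3 := hreg 1 h2o j h1 h2
    have h4 : 1 + δ * (charDegree (a : G → ℂ) : ℤ) + w j (o j) * (charDegree (o j : G → ℂ) : ℤ) = 0 := by
      have : ((1 + δ * (charDegree (a : G → ℂ) : ℤ) +
          w j (o j) * (charDegree (o j : G → ℂ) : ℤ) : ℤ) : ℂ) = ((0 : ℤ) : ℂ) := by
        push_cast
        rw [BlockDeg.charDegree_cast_irr, BlockDeg.charDegree_cast_irr]
        exact h3
      exact_mod_cast this
    have h5 := hpos a
    have h6 := hpos (o j)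
    rcases (ho j h1 h2).2.2.2.2.2.1 with h7 | h7 <;> rcases hδ with h8 | h8 <;>
      rw [h7, h8] at h4 <;> rw [h7, h8] <;> first | rfl | (exfalso; omega)
  refine ⟨a, b, d, o, δ, w q b, w q d, ⟨hδ, hwb, hwd, Finset.ne_of_mem_erase ha,
    Finset.ne_of_mem_erase hb, Finset.ne_of_mem_erase hd, hab, had, hbd,
    fun j h1 h2 => Finset.ne_of_mem_erase (ho j h1 h2).1, fun j h1 h2 => (ho j h1 h2).2.1,
    fun j h1 h2 => (ho j h1 h2).2.2.1, fun j h1 h2 => (ho j h1 h2).2.2.2.1, hoo, ?_, hva,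
    hvalt b hwb0, hvalt d hwd0, ?_, ?_, ?_⟩⟩
  · -- membership
    intro χ
    rw [← mem_PB]
    constructor
    · intro hχ
      by_contra hne
      push Not at hne
      obtain ⟨n1, n2, n3, n4, n5⟩ := hne
      have hχs : χ ∈ s := Finset.mem_erase.mpr ⟨n1, hχ⟩
      refine hzero χ hχs fun j h1 h2 => ?_
      rcases h2.lt_or_eq with h3 | rfl
      · exact (ho j h1 h3).2.2.2.2.2.2 χ hχs n2 (n5 j h1 h3)
      · exact hw0 χ hχs n2 n3 n4
    · rintro (rfl | rfl | rfl | rfl | ⟨j, h1, h2, rfl⟩)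
      · exact htriv
      · exact Finset.mem_of_mem_erase ha
      · exact Finset.mem_of_mem_erase hb
      · exact Finset.mem_of_mem_erase hd
      · exact Finset.mem_of_mem_erase (ho j h1 h2).1
  · -- values of o
    intro j h1 h2
    refine hval (o j) (fun l => (δ : ℂ) * (ζ ^ (j * l) + (ζ ^ (j * l))⁻¹)) (fun l hl => ?_)
      (fun i h3 h4 => ?_)
    · show (δ : ℂ) * _ = (δ : ℂ) * _
      rw [hcos j l hl]
    · rw [cc_smul, cc_cos hq hζ h1 h2 h3 h4]
      split_ifs with h5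
      · rw [h5, hsign j h1 h2]; push_cast; ring
      · rcases h4.lt_or_eq with h6 | rfl
        · rw [(ho i h3 h6).2.2.2.2.2.2 (o j) (ho j h1 h2).1 (ho j h1 h2).2.1
            (hoo j i h1 h2 h3 h6 (Ne.symm h5))]; simp
        · rw [hw0 (o j) (ho j h1 h2).1 (ho j h1 h2).2.1 (ho j h1 h2).2.2.1 (ho j h1 h2).2.2.2.1]; simp
  · -- relation 1
    intro ρ hρ
    have h3 := hdeg ρ hρ q hq (by omega)
    have h4 : ∑ χ ∈ s, (w q χ : ℂ) * (χ : G → ℂ) ρ =
        (w q a : ℂ) * (a : G → ℂ) ρ + ((w q b : ℂ) * (b : G → ℂ) ρ + (w q d : ℂ) * (d : G → ℂ) ρ) := by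
      have : ∑ χ ∈ s, (w q χ : ℂ) * (χ : G → ℂ) ρ =
          ∑ χ ∈ ({a, b, d} : Finset (IrrCharacter G)), (w q χ : ℂ) * (χ : G → ℂ) ρ := by
        symm
        apply Finset.sum_subset
        · intro t ht
          simp only [Finset.mem_insert, Finset.mem_singleton] at ht
          rcases ht with rfl | rfl | rfl
          · exact ha
          · exact hb
          · exact hd
        · intro t ht ht'
          simp only [Finset.mem_insert, Finset.mem_singleton, not_or] at ht'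
          rw [hw0 t ht ht'.1 ht'.2.1 ht'.2.2]; simp
      rw [this, Finset.sum_insert (by simp [hab, had]), Finset.sum_pair hbd]
    rw [h4, hwa] at h3
    linear_combination h3
  · -- relation 2
    intro j h1 h2 ρ hρ
    have h3 := hreg ρ hρ j h1 h2
    rw [hsign j h1 h2] at h3
    push_cast at h3
    linear_combination h3

theorem Lab.card {a b c : IrrCharacter G} {o : ℕ → IrrCharacter G} {δ β γ : ℤ} (hq : 0 < q)
    (L : Lab M x q ζ a b c o δ β γ) : Nat.card (principalBlock M G) = 3 + q := by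
  classical
  have h1 : principalBlock M G = (({triv G, a, b, c} : Finset (IrrCharacter G)) ∪
      (Finset.Ico 1 q).image o : Finset (IrrCharacter G)) := by
    ext χ
    rw [L.mem]
    simp only [Finset.coe_union, Set.mem_union, Finset.mem_coe, Finset.mem_insert,
      Finset.mem_singleton, Finset.mem_image, Finset.mem_Ico]
    constructor
    · rintro (h | h | h | h | ⟨j, h1, h2, h3⟩)
      · tauto
      · tauto
      · tauto
      · tauto
      · exact Or.inr ⟨j, ⟨h1, h2⟩, h3.symm⟩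
    · rintro (h | ⟨j, ⟨h1, h2⟩, h3⟩)
      · tauto
      · exact Or.inr (Or.inr (Or.inr (Or.inr ⟨j, h1, h2, h3.symm⟩)))
  rw [h1, Nat.card_coe_set_eq, Set.ncard_coe_finset, Finset.card_union_of_disjoint,
    Finset.card_image_of_injOn]
  · rw [Nat.card_Ico, Finset.card_insert_of_notMem, Finset.card_insert_of_notMem,
      Finset.card_pair L.bc]
    · omega
    · simp [L.ab, L.ac]
    · simp [Ne.symm L.a1, Ne.symm L.b1, Ne.symm L.c1]
  · intro i hi j hj hij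
    simp only [Finset.coe_Ico, Set.mem_Ico] at hi hj
    by_contra hne
    exact L.oo i j hi.1 hi.2 hj.1 hj.2 hne hij
  · rw [Finset.disjoint_left]
    intro χ hχ hχ'
    obtain ⟨j, hj, rfl⟩ := Finset.mem_image.mp hχ'
    rw [Finset.mem_Ico] at hj
    simp only [Finset.mem_insert, Finset.mem_singleton] at hχ
    rcases hχ with h | h | h | h
    · exact L.o1 j hj.1 hj.2 h
    · exact L.oa j hj.1 hj.2 h
    · exact L.ob j hj.1 hj.2 h
    · exact L.oc j hj.1 hj.2 h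

end Cfsg.Agent.Lib.H52Dih6
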