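import Mathlib
import Cfsg.Agent.Lib.SchurZassenhaus

/-!
# Sums over a coset `y K`, `y` acting coprimely on `K` (helper52)
-/

set_option autoImplicit false

open Subgroup

namespace Cfsg.Agent.Lib.H52Dih7

variable {G : Type*} [Group G] [Finite G] {K : Subgroup G} {y : G}

omit [Finite G] in
theorem pow_coset (hy : ∀ k ∈ K, y⁻¹ * k * y ∈ K) {k : G} (hk : k ∈ K) (m : ℕ) :
    ∃ k' ∈ K, (y * k) ^ m = y ^ m * k' := by
  induction m with
  | zero => exact ⟨1, one_mem _, by simp⟩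
  | succ m ih =>
    obtain ⟨k', hk', h⟩ := ih
    refine ⟨(y⁻¹ * k' * y) * k, mul_mem (hy _ hk') hk, ?_⟩
    rw [pow_succ, h, pow_succ]
    group

theorem pow_card {k : G} (hk : k ∈ K) : k ^ Nat.card K = 1 := by
  have := pow_card_eq_one' (x := (⟨k, hk⟩ : K))
  exact congrArg Subtype.val this

theorem exists_exp (hcop : (orderOf y).Coprime (Nat.card K)) :
    ∃ m : ℕ, y ^ m = y ∧ ∀ k ∈ K, k ^ m = 1 := by
  obtain ⟨m, h1, h2⟩ := Nat.chineseRemainder hcop 1 0
  refine ⟨m, ?_, fun k hk => ?_⟩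
  · conv_rhs => rw [← pow_one y]
    exact pow_eq_pow_iff_modEq.mpr h1
  · obtain ⟨c, hc⟩ := (Nat.modEq_zero_iff_dvd.mp h2)
    rw [hc, pow_mul, pow_card hk, one_pow]

omit [Finite G] in
theorem pow_fix {m : ℕ} (h1 : y ^ m = y) (h2 : ∀ k ∈ K, k ^ m = 1) {ρ : G} (hρ : ρ ∈ K)
    (hc : ρ * y = y * ρ) : (y * ρ) ^ m = y := by
  have : Commute y ρ := hc.symm
  rw [this.mul_pow, h1, h2 ρ hρ, mul_one]

/-- Every element of `y K` is `K`-conjugate to one of `y C_K(y)`. -/
theorem exists_conj (hy : ∀ k ∈ K, y * k * y⁻¹ ∈ K)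
    (hcop : (orderOf y).Coprime (Nat.card K)) {k : G} (hk : k ∈ K) :
    ∃ c ∈ K, ∃ ρ ∈ K, ρ * y = y * ρ ∧ c * (y * k) * c⁻¹ = y * ρ := by
  obtain ⟨m, hm1, hm2⟩ := exists_exp hcop
  have hyn : y ∈ normalizer (K : Set G) := by
    rw [mem_normalizer_iff]
    intro g
    constructor
    · exact hy g
    · intro hg
      -- finite order
      have h1 : ∀ (n : ℕ), ∀ g ∈ K, y ^ n * g * (y ^ n)⁻¹ ∈ K := by
        intro n
        induction n with
        | zero => intro g hg; simpa using hg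
        | succ n ih =>
          intro g hg
          have := hy _ (ih g hg)
          rw [pow_succ']
          convert this using 1
          group
      have h2 := h1 (orderOf y - 1) _ hg
      have h3 : y ^ (orderOf y - 1) = y⁻¹ := by
        rw [eq_comm, inv_eq_iff_mul_eq_one, ← pow_succ', Nat.sub_add_cancel (orderOf_pos y),
          pow_orderOf_eq_one]
      rw [h3] at h2
      convert h2 using 1
      group
  have hy' : ∀ k ∈ K, y⁻¹ * k * y ∈ K := by
    intro k hk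
    have h1 := ((mem_normalizer_iff.mp (inv_mem hyn)) k).mp hk
    rwa [inv_inv] at h1
  obtain ⟨k', hk', hw⟩ := pow_coset hy' hk m
  rw [hm1] at hw
  set w := (y * k) ^ m with hwdef
  have hwo : orderOf w ∣ orderOf y := by
    apply orderOf_dvd_of_pow_eq_one
    obtain ⟨k'', hk'', hw2⟩ := pow_coset hy' hk (orderOf y)
    rw [pow_orderOf_eq_one, one_mul] at hw2
    rw [hwdef, ← pow_mul, mul_comm, pow_mul, hw2, hm2 _ hk'']
  have hwn : w ∈ normalizer (K : Set G) := by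
    rw [hw]; exact mul_mem hyn (le_normalizer hk')
  have hA : zpowers y ≤ normalizer (K : Set G) := by rw [zpowers_le]; exact hyn
  have hH : zpowers w ≤ normalizer (K : Set G) := by rw [zpowers_le]; exact hwn
  have hKA : K ⊔ zpowers y = K ⊔ zpowers w := by
    apply le_antisymm
    · refine sup_le le_sup_left ?_
      rw [zpowers_le]
      have : y = w * k'⁻¹ := by rw [hw]; group
      rw [this]
      exact mul_mem (mem_sup_right (mem_zpowers w)) (mem_sup_left (inv_mem hk'))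
    · refine sup_le le_sup_left ?_
      rw [zpowers_le, hw]
      exact mul_mem (mem_sup_right (mem_zpowers y)) (mem_sup_left hk')
  have hcA : (Nat.card K).Coprime (Nat.card (zpowers y)) := by
    rw [Nat.card_zpowers]; exact hcop.symm
  have hcH : (Nat.card K).Coprime (Nat.card (zpowers w)) := by
    rw [Nat.card_zpowers]; exact Nat.Coprime.coprime_dvd_right hwo hcop.symm
  have hsol : Group.IsSolvable (zpowers y) := by infer_instance
  obtain ⟨a, ha, hconj⟩ := SchurZassenhaus.conj_of_solvable hA hH hKA hcA hcH (Or.inr hsol)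
  have h1 : a * y * a⁻¹ ∈ zpowers w := by
    rw [← hconj, Subgroup.mem_pointwise_smul_iff_inv_smul_mem]
    have : (MulAut.conj a)⁻¹ • (a * y * a⁻¹) = y := by
      rw [← map_inv, MulAut.smul_def, MulAut.conj_apply]; group
    rw [this]
    exact mem_zpowers y
  have h2 : w⁻¹ * (a * y * a⁻¹) ∈ K := by
    have : w⁻¹ * (a * y * a⁻¹) = k'⁻¹ * ((y⁻¹ * a * y) * a⁻¹) := by rw [hw]; group
    rw [this]
    exact mul_mem (inv_mem hk') (mul_mem (hy' a ha) (inv_mem ha))
  have h3 : w⁻¹ * (a * y * a⁻¹) = 1 := by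
    have h4 : w⁻¹ * (a * y * a⁻¹) ∈ K ⊓ zpowers w :=
      ⟨h2, (zpowers w).mul_mem ((zpowers w).inv_mem (mem_zpowers w)) h1⟩
    rw [inf_eq_bot_of_coprime hcH] at h4
    exact mem_bot.mp h4
  have h4 : a * y * a⁻¹ = w := (inv_mul_eq_one.mp h3).symm
  set g' := a⁻¹ * (y * k) * a⁻¹⁻¹ with hg'
  have h5 : g' ^ m = y := by
    rw [hg', conj_pow, ← hwdef, ← h4]; group
  refine ⟨a⁻¹, inv_mem ha, y⁻¹ * g', ?_, ?_, ?_⟩
  · rw [hg', inv_inv]
    have : y⁻¹ * (a⁻¹ * (y * k) * a) = (y⁻¹ * a⁻¹ * y) * k * a := by group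
    rw [this]
    exact mul_mem (mul_mem (hy' _ (inv_mem ha)) hk) ha
  · have h6 : g' * y = y * g' := by
      conv_lhs => rw [← h5]
      conv_rhs => rw [← h5]
      rw [← pow_succ, ← pow_succ']
    rw [mul_assoc, h6]; group
  · rw [← hg']; group

open scoped Classical in
/-- The sum of a `K`-invariant function over the coset `y K`. -/
theorem coset_sum [Fintype G] (hy : ∀ k ∈ K, y * k * y⁻¹ ∈ K)
    (hcop : (orderOf y).Coprime (Nat.card K)) {f : G → ℂ}
    (hf : ∀ k ∈ K, ∀ g, f (k * g * k⁻¹) = f g) :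
    (Nat.card K : ℂ) * ∑ ρ ∈ Finset.univ.filter (fun ρ => ρ ∈ K ∧ ρ * y = y * ρ), f (y * ρ) =
      ((Finset.univ.filter (fun ρ => ρ ∈ K ∧ ρ * y = y * ρ)).card : ℂ) *
        ∑ k ∈ Finset.univ.filter (fun k => k ∈ K), f (y * k) := by
  obtain ⟨m, hm1, hm2⟩ := exists_exp hcop
  set C := Finset.univ.filter (fun ρ => ρ ∈ K ∧ ρ * y = y * ρ) with hC
  set F := Finset.univ.filter (fun k => k ∈ K) with hF
  have hFc : (F.card : ℂ) = Nat.card K := by
    congr 1
    rw [hF, Nat.card_eq_fintype_card, Fintype.card_subtype]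
  have hy' : ∀ k ∈ K, y⁻¹ * k * y ∈ K := by
    intro k hk
    have h1 : ∀ (n : ℕ), ∀ g ∈ K, y ^ n * g * (y ^ n)⁻¹ ∈ K := by
      intro n
      induction n with
      | zero => intro g hg; simpa using hg
      | succ n ih =>
        intro g hg
        have := hy _ (ih g hg)
        rw [pow_succ']
        convert this using 1
        group
    have h2 := h1 (orderOf y - 1) _ hk
    have h3 : y ^ (orderOf y - 1) = y⁻¹ := by
      rw [eq_comm, inv_eq_iff_mul_eq_one, ← pow_succ', Nat.sub_add_cancel (orderOf_pos y),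
        pow_orderOf_eq_one]
    rwa [h3, inv_inv] at h2
  have hmaps : ∀ p ∈ F ×ˢ C, y⁻¹ * (p.1 * (y * p.2) * p.1⁻¹) ∈ F := by
    intro p hp
    rw [Finset.mem_product, hF, hC, Finset.mem_filter, Finset.mem_filter] at hp
    rw [hF, Finset.mem_filter]
    refine ⟨Finset.mem_univ _, ?_⟩
    have : y⁻¹ * (p.1 * (y * p.2) * p.1⁻¹) = (y⁻¹ * p.1 * y) * p.2 * p.1⁻¹ := by group
    rw [this]
    exact mul_mem (mul_mem (hy' _ hp.1.2) hp.2.2.1) (inv_mem hp.1.2)
  have h1 : ∑ p ∈ F ×ˢ C, f (p.1 * (y * p.2) * p.1⁻¹) = (Nat.card K : ℂ) * ∑ ρ ∈ C, f (y * ρ) := by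
    rw [Finset.sum_product, ← hFc, ← nsmul_eq_mul, ← Finset.sum_const]
    refine Finset.sum_congr rfl fun k hk => ?_
    refine Finset.sum_congr rfl fun ρ _ => ?_
    rw [hF, Finset.mem_filter] at hk
    exact hf k hk.2 _
  rw [← h1, ← Finset.sum_fiberwise_of_maps_to hmaps, Finset.mul_sum]
  refine Finset.sum_congr rfl fun k hk => ?_
  rw [hF, Finset.mem_filter] at hk
  obtain ⟨c, hc, ρ, hρ, hcomm, he⟩ := exists_conj hy hcop hk.2
  have h2 : ∀ p ∈ (F ×ˢ C).filter (fun p => y⁻¹ * (p.1 * (y * p.2) * p.1⁻¹) = k),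
      f (p.1 * (y * p.2) * p.1⁻¹) = f (y * k) := by
    intro p hp
    rw [Finset.mem_filter] at hp
    congr 1
    rw [← hp.2]; group
  rw [Finset.sum_congr rfl h2, Finset.sum_const, nsmul_eq_mul]
  congr 2
  -- count the fibre
  symm
  refine Finset.card_bij (fun d _ => (c⁻¹ * d, d⁻¹ * ρ * d)) ?_ ?_ ?_
  · intro d hd
    rw [hC, Finset.mem_filter] at hd
    obtain ⟨-, hdK, hdy⟩ := hd
    rw [Finset.mem_filter, Finset.mem_product, hF, hC, Finset.mem_filter, Finset.mem_filter]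
    refine ⟨⟨⟨Finset.mem_univ _, mul_mem (inv_mem hc) hdK⟩, Finset.mem_univ _,
      mul_mem (mul_mem (inv_mem hdK) hρ) hdK, ?_⟩, ?_⟩
    · have e1 : d⁻¹ * y = y * d⁻¹ := by
        rw [inv_mul_eq_iff_eq_mul, ← mul_assoc, hdy]; group
      show d⁻¹ * ρ * d * y = y * (d⁻¹ * ρ * d)
      calc d⁻¹ * ρ * d * y = d⁻¹ * ρ * (d * y) := by group
        _ = d⁻¹ * (ρ * y) * d := by rw [hdy]; group
        _ = (d⁻¹ * y) * ρ * d := by rw [hcomm]; group
        _ = y * (d⁻¹ * ρ * d) := by rw [e1]; group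
    · show y⁻¹ * (c⁻¹ * d * (y * (d⁻¹ * ρ * d)) * (c⁻¹ * d)⁻¹) = k
      have e2 : c⁻¹ * d * (y * (d⁻¹ * ρ * d)) * (c⁻¹ * d)⁻¹ = c⁻¹ * (d * y) * d⁻¹ * ρ * c := by group
      rw [e2, hdy]
      have e3 : c⁻¹ * (y * d) * d⁻¹ * ρ * c = c⁻¹ * (y * ρ) * c := by group
      rw [e3, ← he]; group
  · intro d _ d' _ hdd
    exact mul_left_cancel (congrArg Prod.fst hdd)
  · rintro ⟨a, τ⟩ hp
    rw [Finset.mem_filter, Finset.mem_product, hF, hC, Finset.mem_filter, Finset.mem_filter] at hp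
    obtain ⟨⟨⟨-, haK⟩, -, hτ, hτy⟩, hak⟩ := hp
    have h3 : a * (y * τ) * a⁻¹ = y * k := by rw [← hak]; group
    have h4 : a * y * a⁻¹ = c⁻¹ * y * c := by
      have e1 : (a * (y * τ) * a⁻¹) ^ m = a * y * a⁻¹ := by rw [conj_pow, pow_fix hm1 hm2 hτ hτy]
      have e2 : (c⁻¹ * (y * ρ) * c⁻¹⁻¹) ^ m = c⁻¹ * y * c⁻¹⁻¹ := by
        rw [conj_pow, pow_fix hm1 hm2 hρ hcomm]
      rw [inv_inv] at e2
      rw [← e1, ← e2, h3, ← he]; group
    refine ⟨c * a, ?_, ?_⟩
    · rw [hC, Finset.mem_filter]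
      refine ⟨Finset.mem_univ _, mul_mem hc haK, ?_⟩
      calc c * a * y = c * (a * y * a⁻¹) * a := by group
        _ = y * (c * a) := by rw [h4]; group
    · have h5 : (c * a)⁻¹ * ρ * (c * a) = τ := by
        have e1 : y * τ = a⁻¹ * (y * k) * a := by rw [← h3]; group
        have e2 : y * k = c⁻¹ * (y * ρ) * c := by rw [← he]; group
        have e3 : y * (c * a) = (c * a) * y := by
          calc y * (c * a) = c * (c⁻¹ * y * c) * a := by group
            _ = (c * a) * y := by rw [← h4]; group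
        have e4 : y * τ = y * ((c * a)⁻¹ * ρ * (c * a)) := by
          rw [e1, e2]
          have e5 : (c * a)⁻¹ * y = y * (c * a)⁻¹ := by
            rw [inv_mul_eq_iff_eq_mul, ← mul_assoc, ← e3]; group
          calc a⁻¹ * (c⁻¹ * (y * ρ) * c) * a = (c * a)⁻¹ * y * ρ * (c * a) := by group
            _ = y * ((c * a)⁻¹ * ρ * (c * a)) := by rw [e5]; group
        exact (mul_left_cancel e4).symm
      show (c⁻¹ * (c * a), (c * a)⁻¹ * ρ * (c * a)) = (a, τ)
      rw [h5, inv_mul_cancel_left]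

end Cfsg.Agent.Lib.H52Dih7
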