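import Mathlib
import Cfsg.Agent.Lib.H52Dih1
import Cfsg.Agent.Lib.H52Dih7
import Cfsg.Agent.Lib.OddInv

/-!
# Pairs of involutions with product in `x^l K` (helper52)
-/

set_option autoImplicit false

open Subgroup

namespace Cfsg.Agent.Lib.H52Dih8

open Cfsg Cfsg.Agent.Lib.DihSylow Cfsg.Agent.Lib.H52Dih1 Cfsg.Agent.Lib.H52Dih7

variable {G : Type*} [Group G] {S : Sylow 2 G} {x y : G} {q n : ℕ} {K : Subgroup G}

section

variable [Finite G] (h : DH (S : Subgroup G) x y q n) (c : Comp S (x ^ (q : ℤ)) K)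

include h in
theorem sz {s : G} (hs : s ∈ (S : Subgroup G)) : s * x ^ (q : ℤ) = x ^ (q : ℤ) * s := (h.z_comm hs).symm

include h c in
theorem conjS {s : G} (hs : s ∈ (S : Subgroup G)) {k : G} (hk : k ∈ K) : s * k * s⁻¹ ∈ K :=
  c.norm s (sz h hs) k hk

include h c in
theorem conjS' {s : G} (hs : s ∈ (S : Subgroup G)) {k : G} (hk : k ∈ K) : s⁻¹ * k * s ∈ K := by
  have := conjS h c (inv_mem hs) hk
  rwa [inv_inv] at this

include c in
theorem oddK : Odd (Nat.card K) := by
  rw [← Nat.not_even_iff_odd, even_iff_two_dvd]; exact c.odd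

include h in
theorem order_pow {i : ℤ} (hi : x ^ i ≠ 1) : ∃ s : ℕ, orderOf (x ^ i) = 2 ^ (s + 1) := by
  have hx2 : orderOf x = 2 ^ (n + 1) := by rw [h.hx, h.hq, pow_succ]; ring
  have h1 : orderOf (x ^ i) ∣ 2 ^ (n + 1) := by
    rw [← hx2]
    apply orderOf_dvd_of_pow_eq_one
    rw [← zpow_natCast, ← zpow_mul, mul_comm, zpow_mul, zpow_natCast, pow_orderOf_eq_one, one_zpow]
  obtain ⟨r, -, hr⟩ := (Nat.dvd_prime_pow Nat.prime_two).mp h1
  have hr0 : r ≠ 0 := by
    rintro rfl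
    rw [pow_zero, orderOf_eq_one_iff] at hr
    exact hi hr
  obtain ⟨s, rfl⟩ := Nat.exists_eq_succ_of_ne_zero hr0
  exact ⟨s, hr⟩

include h c in
theorem coprime_pow (i : ℤ) : (orderOf (x ^ i)).Coprime (Nat.card K) := by
  by_cases hi : x ^ i = 1
  · rw [hi, orderOf_one]; exact Nat.coprime_one_left _
  · obtain ⟨s, hs⟩ := order_pow h hi
    rw [hs]
    exact Nat.Coprime.pow_left _ (Nat.coprime_two_left.mpr (oddK c))

include h c in
theorem exists_pow_eq_z {i : ℤ} (hi : x ^ i ≠ 1) {k : G} (hk : k ∈ K) :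
    ∃ M : ℕ, (x ^ i * k) ^ M = x ^ (q : ℤ) := by
  obtain ⟨s, hs⟩ := order_pow h hi
  have hc : ∀ k ∈ K, (x ^ i)⁻¹ * k * x ^ i ∈ K := fun k hk => conjS' h c (h.xpow_mem i) hk
  obtain ⟨m, hm⟩ := oddK c
  have hu : (x ^ i) ^ 2 ^ s = x ^ (q : ℤ) := by
    have e : (x ^ i) ^ 2 ^ s = x ^ (i * ((2 ^ s : ℕ) : ℤ)) := by rw [zpow_mul, zpow_natCast]
    rw [e]
    apply h.eq_z_of_sq
    · rw [← e, ← pow_add, ← two_mul, ← pow_succ', ← hs, pow_orderOf_eq_one]
    · rw [← e]
      intro h2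
      have := orderOf_dvd_of_pow_eq_one h2
      rw [hs] at this
      have := Nat.le_of_dvd (by positivity) this
      rw [pow_succ] at this
      have : 0 < 2 ^ s := by positivity
      omega
  obtain ⟨k', hk', hk2⟩ := pow_coset hc hk (2 ^ s * Nat.card K)
  have hz1 : (x ^ (q : ℤ)) ^ Nat.card K = x ^ (q : ℤ) := by
    rw [hm, pow_succ, pow_mul, sq, h.z_sq, one_pow, one_mul]
  rw [pow_mul (x ^ i), hu, hz1] at hk2
  obtain ⟨k'', hk'', hk3⟩ := pow_coset hc hk (2 ^ (s + 1))
  rw [← hs, pow_orderOf_eq_one, one_mul, hs] at hk3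
  have h4 : (x ^ (q : ℤ) * k') * (x ^ (q : ℤ) * k') = 1 := by
    rw [← hk2, ← pow_add, ← two_mul, ← mul_assoc, ← pow_succ', pow_mul, hk3, pow_card hk'']
  have h5 : k' * k' = 1 := by
    have e : (x ^ (q : ℤ) * k') * (x ^ (q : ℤ) * k') = k' * k' := by
      calc (x ^ (q : ℤ) * k') * (x ^ (q : ℤ) * k') = x ^ (q : ℤ) * (k' * x ^ (q : ℤ)) * k' := by group
        _ = (x ^ (q : ℤ) * x ^ (q : ℤ)) * (k' * k') := by rw [c.le k' hk']; group
        _ = k' * k' := by rw [h.z_sq, one_mul]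
    rw [← e]; exact h4
  have h6 := OddInv.eq_one_of_sq_eq_one (oddK c) hk' h5
  exact ⟨2 ^ s * Nat.card K, by rw [hk2, h6, mul_one]⟩

include h c in
theorem invol_cases {s : G} (hs : orderOf s = 2) (hsz : s * x ^ (q : ℤ) = x ^ (q : ℤ) * s) :
    s = x ^ (q : ℤ) ∨ ∃ i : ℤ, (x ^ i * y)⁻¹ * s ∈ K := by
  obtain ⟨k, hk, t, ht, rfl⟩ := c.fac s hsz
  have hss : (k * t) * (k * t) = 1 := by
    have := pow_orderOf_eq_one (k * t)
    rwa [hs, sq] at this
  have htt : t * t = 1 := by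
    apply c.disj _ _ (mul_mem ht ht)
    have : t * t = ((k * (t * k * t⁻¹))⁻¹) * ((k * t) * (k * t)) := by group
    rw [this, hss, mul_one]
    exact inv_mem (mul_mem hk (conjS h c ht hk))
  rcases h.exists_rep ht with ⟨i, rfl⟩ | ⟨i, rfl⟩
  · left
    by_cases hi : x ^ i = 1
    · exfalso
      rw [hi, mul_one] at hss hs
      have := OddInv.eq_one_of_sq_eq_one (oddK c) hk hss
      rw [this, orderOf_one] at hs
      norm_num at hs
    · have hz := h.eq_z_of_sq htt hi
      rw [hz] at hss ⊢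
      have h5 : k * k = 1 := by
        have e : (k * x ^ (q : ℤ)) * (k * x ^ (q : ℤ)) = k * k := by
          calc (k * x ^ (q : ℤ)) * (k * x ^ (q : ℤ)) = k * (x ^ (q : ℤ) * k) * x ^ (q : ℤ) := by group
            _ = (k * k) * (x ^ (q : ℤ) * x ^ (q : ℤ)) := by rw [← c.le k hk]; group
            _ = k * k := by rw [h.z_sq, mul_one]
        rw [← e]; exact hss
      rw [OddInv.eq_one_of_sq_eq_one (oddK c) hk h5, one_mul]
  · right
    refine ⟨i, ?_⟩
    have := conjS' h c (h.xy_mem i) hk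
    rwa [mul_assoc] at this

include h c in
theorem pair_forw {s t : G} (hs : orderOf s = 2) (ht : orderOf t = 2) {l : ℤ} (hl : x ^ l ≠ 1)
    (hst : (x ^ l)⁻¹ * (s * t) ∈ K) : ∃ i : ℤ, (x ^ i * y)⁻¹ * t ∈ K ∧ (x ^ (i + l) * y)⁻¹ * s ∈ K := by
  have hss : s * s = 1 := by
    have := pow_orderOf_eq_one s
    rwa [hs, sq] at this
  have htt : t * t = 1 := by
    have := pow_orderOf_eq_one t
    rwa [ht, sq] at this
  have hsi : s⁻¹ = s := inv_eq_of_mul_eq_one_right hss
  have hti : t⁻¹ = t := inv_eq_of_mul_eq_one_right htt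
  set k := (x ^ l)⁻¹ * (s * t) with hk
  have hw : s * t = x ^ l * k := by rw [hk]; group
  obtain ⟨M, hM⟩ := exists_pow_eq_z h c hl hst
  rw [← hw] at hM
  set z := x ^ (q : ℤ) with hz
  have hzi : z⁻¹ = z := inv_eq_of_mul_eq_one_right h.z_sq
  have hinv : s * (s * t) * s⁻¹ = (s * t)⁻¹ := by
    rw [mul_inv_rev, hti, hsi, ← mul_assoc, hss, one_mul]
  have hsz' : s * z * s⁻¹ = z := by
    rw [← hM, ← conj_pow, hinv, inv_pow, hM, hzi]
  have hsz : s * z = z * s := by
    rw [mul_inv_eq_iff_eq_mul] at hsz'; exact hsz'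
  have hwz : (s * t) * z = z * (s * t) := by
    conv_lhs => rw [← hM]
    conv_rhs => rw [← hM]
    rw [← pow_succ, ← pow_succ']
  have htz : t * z = z * t := by
    have e : t = s * (s * t) := by rw [← mul_assoc, hss, one_mul]
    rw [e, mul_assoc, hwz, ← mul_assoc, hsz, mul_assoc]
  have hsw : s = (s * t) * t := by rw [mul_assoc, htt, mul_one]
  rcases invol_cases h c ht htz with h1 | ⟨i, hi⟩
  · exfalso
    have h1' : t = z := h1
    have h2 : s = x ^ (l + q) * k := by
      rw [hsw, hw, h1', mul_assoc, c.le k hst, ← mul_assoc, zpow_add]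
    have h3 : x ^ (l + q) * x ^ (l + q) = 1 := by
      apply c.disj _ _ (mul_mem (h.xpow_mem _) (h.xpow_mem _))
      have : x ^ (l + q) * x ^ (l + q) = (s * s) * (k⁻¹ * (((x ^ (l + q))⁻¹ * k * x ^ (l + q))⁻¹)) := by
        rw [h2]; group
      rw [this, hss, one_mul]
      exact mul_mem (inv_mem hst) (inv_mem (conjS' h c (h.xpow_mem _) hst))
    by_cases h4 : x ^ (l + q) = 1
    · rw [h4, one_mul] at h2
      have h5 : k * k = 1 := by rw [← h2]; exact hss
      have h6 := OddInv.eq_one_of_sq_eq_one (oddK c) hst h5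
      rw [h2, h6, orderOf_one] at hs
      norm_num at hs
    · have h5 := h.eq_z_of_sq h3 h4
      apply hl
      rw [zpow_add] at h5
      exact mul_eq_right.mp h5
  · refine ⟨i, hi, ?_⟩
    set k₁ := (x ^ i * y)⁻¹ * t with hk₁
    have ht' : t = x ^ i * y * k₁ := by rw [hk₁]; group
    have e : (x ^ (i + l) * y)⁻¹ * s = ((x ^ i * y)⁻¹ * k * (x ^ i * y)) * k₁ := by
      rw [hsw, hw]
      nth_rw 1 [ht']
      rw [zpow_add]
      group
    rw [e]
    exact mul_mem (conjS' h c (h.xy_mem i) hst) hi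

include h c in
theorem pair_back {s t : G} {l i : ℤ} (ht : (x ^ i * y)⁻¹ * t ∈ K)
    (hs : (x ^ (i + l) * y)⁻¹ * s ∈ K) : (x ^ l)⁻¹ * (s * t) ∈ K := by
  set k₁ := (x ^ i * y)⁻¹ * t with hk₁
  have ht' : t = x ^ i * y * k₁ := by rw [hk₁]; group
  set k₂ := (x ^ (i + l) * y)⁻¹ * s with hk₂
  have hs' : s = x ^ (i + l) * y * k₂ := by rw [hk₂]; group
  have e : (x ^ l)⁻¹ * (s * t) = ((x ^ i * y) * k₂ * (x ^ i * y)⁻¹) * ((x ^ i * y) * (x ^ i * y)) * k₁ := by
    rw [hs', ht', zpow_add]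
    group
  rw [e, h.sq, mul_one]
  exact mul_mem (conjS h c (h.xy_mem i) hs) ht

end

section Count

variable [Fintype G]

open scoped Classical in
/-- involutions in the coset `x^i y K` -/
noncomputable def I (x y : G) (K : Subgroup G) (i : ℤ) : Finset G :=
  Finset.univ.filter fun s => orderOf s = 2 ∧ (x ^ i * y)⁻¹ * s ∈ K

open scoped Classical in
/-- pairs of involutions with product in `x^l K` -/
noncomputable def A (x : G) (K : Subgroup G) (l : ℤ) : Finset (G × G) :=
  Finset.univ.filter fun p => orderOf p.1 = 2 ∧ orderOf p.2 = 2 ∧ (x ^ l)⁻¹ * (p.1 * p.2) ∈ K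

theorem mem_I {i : ℤ} {s : G} : s ∈ I x y K i ↔ orderOf s = 2 ∧ (x ^ i * y)⁻¹ * s ∈ K := by
  simp [I]

theorem mem_A {l : ℤ} {p : G × G} :
    p ∈ A x K l ↔ orderOf p.1 = 2 ∧ orderOf p.2 = 2 ∧ (x ^ l)⁻¹ * (p.1 * p.2) ∈ K := by
  simp [A]

variable (h : DH (S : Subgroup G) x y q n) (c : Comp S (x ^ (q : ℤ)) K)

include h in
theorem I_congr {i j : ℤ} (hij : (2 * q : ℤ) ∣ i - j) : I x y K i = I x y K j := by
  unfold I
  rw [(h.zpow_eq_iff i j).mpr hij]

include h c in
theorem I_disj {i j : ℤ} {s : G} (hi : s ∈ I x y K i) (hj : s ∈ I x y K j) :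
    (2 * q : ℤ) ∣ i - j := by
  rw [mem_I] at hi hj
  rw [← h.zpow_eq_iff]
  have h1 : (x ^ i * y)⁻¹ * (x ^ j * y) ∈ K := by
    have : (x ^ i * y)⁻¹ * (x ^ j * y) = ((x ^ i * y)⁻¹ * s) * ((x ^ j * y)⁻¹ * s)⁻¹ := by group
    rw [this]
    exact mul_mem hi.2 (inv_mem hj.2)
  have h2 := c.disj _ h1 (mul_mem (inv_mem (h.xy_mem i)) (h.xy_mem j))
  exact mul_right_cancel (inv_mul_eq_one.mp h2)

include h c in
theorem card_I_add_two (i : ℤ) : (I x y K (i + 2)).card = (I x y K i).card := by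
  have hconj : x * (x ^ i * y) * x⁻¹ = x ^ (i + 2) * y := by
    have := h.conj_xy 1 i
    rwa [zpow_one, mul_one] at this
  refine Finset.card_bij' (fun s _ => x⁻¹ * s * x) (fun s _ => x * s * x⁻¹) ?_ ?_ ?_ ?_
  · intro s hs
    rw [mem_I] at hs ⊢
    refine ⟨?_, ?_⟩
    · rw [← hs.1]
      have := orderOf_injective (MulAut.conj x⁻¹).toMonoidHom (MulAut.conj x⁻¹).injective s
      simpa using this
    · have e : (x ^ i * y)⁻¹ * (x⁻¹ * s * x) = x⁻¹ * ((x ^ (i + 2) * y)⁻¹ * s) * x := by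
        rw [← hconj]; group
      rw [e]
      exact conjS' h c h.xS hs.2
  · intro s hs
    rw [mem_I] at hs ⊢
    refine ⟨?_, ?_⟩
    · rw [← hs.1]
      have := orderOf_injective (MulAut.conj x).toMonoidHom (MulAut.conj x).injective s
      simpa using this
    · have e : (x ^ (i + 2) * y)⁻¹ * (x * s * x⁻¹) = x * ((x ^ i * y)⁻¹ * s) * x⁻¹ := by
        rw [← hconj]; group
      rw [e]
      exact conjS h c h.xS hs.2
  · intro s _; group
  · intro s _; group

include h c in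
theorem card_I_parity (i : ℤ) : (Even i → (I x y K i).card = (I x y K 0).card) ∧
    (Odd i → (I x y K i).card = (I x y K 1).card) := by
  have key : ∀ (m : ℕ) (j : ℤ), (I x y K (j + 2 * m)).card = (I x y K j).card := by
    intro m
    induction m with
    | zero => intro j; simp
    | succ m ih =>
      intro j
      have : j + 2 * ((m + 1 : ℕ) : ℤ) = (j + 2 * m) + 2 := by push_cast; ring
      rw [this, card_I_add_two h c, ih]
  have key2 : ∀ (m j : ℤ), (I x y K (j + 2 * m)).card = (I x y K j).card := by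
    intro m j
    rcases Int.eq_nat_or_neg m with ⟨k, rfl | rfl⟩
    · exact key k j
    · have := key k (j + 2 * (-(k : ℤ)))
      rw [← this]
      congr 2; ring
  constructor
  · rintro ⟨m, rfl⟩
    have := key2 m 0
    rw [zero_add] at this
    rw [← this]; congr 2; ring
  · rintro ⟨m, rfl⟩
    have := key2 m 1
    rw [← this]; congr 2; ring

include h c in
theorem card_A {l : ℤ} (hl : x ^ l ≠ 1) :
    (A x K l).card = ∑ i ∈ Finset.range (2 * q), (I x y K (i + l)).card * (I x y K i).card := by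
  classical
  have hq := h.q_pos
  have h1 : A x K l = (Finset.range (2 * q)).biUnion fun i : ℕ =>
      (I x y K (i + l)) ×ˢ (I x y K i) := by
    ext ⟨s, t⟩
    rw [mem_A, Finset.mem_biUnion]
    constructor
    · rintro ⟨hs, ht, hst⟩
      obtain ⟨i, h1, h2⟩ := pair_forw h c hs ht hl hst
      -- reduce `i` modulo `2 q`
      have hpos : (0 : ℤ) < 2 * q := by positivity
      have hm0 := Int.emod_nonneg i hpos.ne'
      have hm1 := Int.emod_lt_of_pos i hpos
      refine ⟨(i % (2 * q)).toNat, Finset.mem_range.mpr (by omega), ?_⟩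
      have hcast : (((i % (2 * q)).toNat : ℕ) : ℤ) = i % (2 * q) := Int.toNat_of_nonneg hm0
      have hdvd : (2 * q : ℤ) ∣ i % (2 * q) - i := by
        have := Int.emod_add_mul_ediv i (2 * q)
        exact ⟨-(i / (2 * q)), by linarith⟩
      rw [Finset.mem_product, hcast]
      constructor
      · rw [I_congr h (j := i + l) (by rwa [add_sub_add_right_eq_sub]), mem_I]
        exact ⟨hs, h2⟩
      · rw [I_congr h hdvd, mem_I]
        exact ⟨ht, h1⟩
    · rintro ⟨i, -, hi⟩
      rw [Finset.mem_product, mem_I, mem_I] at hi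
      exact ⟨hi.1.1, hi.2.1, pair_back h c hi.2.2 hi.1.2⟩
  rw [h1, Finset.card_biUnion]
  · refine Finset.sum_congr rfl fun i _ => ?_
    rw [Finset.card_product]
  · intro i hi j hj hij
    rw [Function.onFun, Finset.disjoint_left]
    rintro ⟨s, t⟩ h2 h3
    rw [Finset.mem_product] at h2 h3
    have h4 := I_disj h c h2.2 h3.2
    simp only [Finset.coe_range, Set.mem_Iio] at hi hj
    have h5 := Int.eq_zero_of_abs_lt_dvd h4 (by rw [abs_lt]; constructor <;> omega)
    exact hij (by omega)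

include h c in
/-- number of involutions in `t K` for an involution `t = x^i y` -/
theorem card_I (i : ℤ) : Nat.card K = Nat.card ↥(K ⊓ centralizer {x ^ i * y}) * (I x y K i).card := by
  classical
  set t := x ^ i * y with ht
  have htt : t * t = 1 := h.sq i
  have hti : t⁻¹ = t := inv_eq_of_mul_eq_one_right htt
  have ht1 : t ≠ 1 := by
    intro h1
    have := h.not_mem_zpowers i
    rw [← ht, h1] at this
    exact this (one_mem _)
  rw [OddInv.card_eq_mul t htt K (oddK c) (fun k hk => conjS h c (h.xy_mem i) hk)]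
  congr 1
  have h1 : (I x y K i).card = Nat.card {s : G // orderOf s = 2 ∧ t⁻¹ * s ∈ K} := by
    rw [Nat.card_eq_fintype_card, Fintype.card_subtype]; rfl
  rw [h1]
  symm
  have e0 : ∀ g : G, g * g = 1 → t * (t⁻¹ * g) * t⁻¹ = (t⁻¹ * g)⁻¹ := by
    intro g hg
    have hgi : g⁻¹ = g := inv_eq_of_mul_eq_one_right hg
    rw [hti, ← mul_assoc t t g, htt, one_mul]
    have := mul_inv_rev t g
    rw [hgi, hti] at this
    exact this.symm
  refine Nat.card_congr
    { toFun := fun g => ⟨t⁻¹ * g.1, g.2.2, ?_⟩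
      invFun := fun k => ⟨t * k.1, ?_, ?_⟩
      left_inv := fun g => Subtype.ext (by
        show t * (t⁻¹ * g.1) = g.1
        rw [mul_inv_cancel_left])
      right_inv := fun k => Subtype.ext (by
        show t⁻¹ * (t * k.1) = k.1
        rw [inv_mul_cancel_left]) }
  · have hg : g.1 * g.1 = 1 := by
      have := pow_orderOf_eq_one g.1
      rwa [g.2.1, pow_two] at this
    exact e0 _ hg
  · obtain ⟨hk, hki⟩ := k.2
    have h1 : (t * k.1) * (t * k.1) = 1 := by
      calc (t * k.1) * (t * k.1) = (t * k.1 * t⁻¹) * (t * t) * k.1 := by group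
        _ = 1 := by rw [hki, htt]; group
    apply orderOf_eq_prime (by rw [pow_two]; exact h1)
    intro h2
    apply ht1
    apply c.disj _ _ (h.xy_mem i)
    have : t = (k.1)⁻¹ := eq_inv_of_mul_eq_one_left h2
    show t ∈ K
    rw [this]
    exact K.inv_mem hk
  · rw [inv_mul_cancel_left]; exact k.2.1

end Count

end Cfsg.Agent.Lib.H52Dih8
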