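import Mathlib
import Cfsg.Agent.Lib.H52Dih6
import Cfsg.Agent.Lib.H52Dih8
import Cfsg.Agent.Lib.H25Klein

/-!
# Order formula for dihedral Sylow 2-subgroups: the counting formula (helper52)
-/

set_option autoImplicit false

open Subgroup

namespace Cfsg.Agent.Lib.H52Dih9

open Cfsg Cfsg.Agent.Lib.DihSylow Cfsg.Agent.Lib.H52Dih1 Cfsg.Agent.Lib.H52Dih4
open Cfsg.Agent.Lib.H52Dih5 Cfsg.Agent.Lib.H52Dih7 Cfsg.Agent.Lib.H52Dih8
open Cfsg.Agent.Lib.CharBasic Cfsg.Agent.Lib.StructConst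
open scoped ComplexConjugate Pointwise

universe u

variable {G : Type u} [Group G] {S : Sylow 2 G} {x y : G} {q n : ℕ} {K : Subgroup G}
variable {M : Ideal AlgInt}

theorem isConj_of_order_two [Finite G] (h : DH (S : Subgroup G) x y q n)
    (h1 : IsConj (x ^ (q : ℤ)) y) (h2 : IsConj (x ^ (q : ℤ)) (x * y)) {s : G} (hs : orderOf s = 2) :
    IsConj (x ^ (q : ℤ)) s := by
  haveI : Fact (Nat.Prime 2) := ⟨Nat.prime_two⟩
  have hp : IsPGroup 2 (zpowers s) := IsPGroup.of_card (n := 1) (by rw [Nat.card_zpowers, hs, pow_one])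
  obtain ⟨Q, hQ⟩ := hp.exists_le_sylow
  obtain ⟨g, hg⟩ := MulAction.exists_smul_eq G Q S
  have hgs : g * s * g⁻¹ ∈ (S : Subgroup G) := by
    rw [← hg]
    have : s ∈ (Q : Subgroup G) := hQ (mem_zpowers s)
    show g * s * g⁻¹ ∈ (MulAut.conj g • (Q : Subgroup G))
    exact Subgroup.smul_mem_pointwise_smul _ _ _ this
  have ho : orderOf (g * s * g⁻¹) = 2 := by rw [← hs]; exact BlockThird.orderOf_conj s g
  have hsq : (g * s * g⁻¹) * (g * s * g⁻¹) = 1 := by
    have := pow_orderOf_eq_one (g * s * g⁻¹)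
    rwa [ho, sq] at this
  have hne : g * s * g⁻¹ ≠ 1 := by
    intro h3; rw [h3, orderOf_one] at ho; norm_num at ho
  have h3 : IsConj s (g * s * g⁻¹) := isConj_iff.mpr ⟨g, rfl⟩
  refine IsConj.trans ?_ h3.symm
  rcases h.exists_rep hgs with ⟨i, hi⟩ | ⟨i, hi⟩
  · rw [hi] at hsq hne ⊢
    rw [h.eq_z_of_sq hsq hne]
  · rw [hi]
    rcases Int.even_or_odd i with ⟨j, hj⟩ | ⟨j, hj⟩
    · refine h1.trans (isConj_iff.mpr ⟨x ^ j, ?_⟩)
      have := h.conj_xy j 0
      rw [zpow_zero, one_mul] at this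
      rw [this]; congr 2; omega
    · refine h2.trans (isConj_iff.mpr ⟨x ^ j, ?_⟩)
      have := h.conj_xy j 1
      rw [zpow_one] at this
      rw [this]; congr 2; omega

open scoped Classical in
/-- Sum of an irreducible character over `x^l K`. -/
theorem sum_coset [Fintype G] (hM : IsPModular 2 M) (h : DH (S : Subgroup G) x y q n)
    (c : Comp S (x ^ (q : ℤ)) K) {l : ℤ} (hl : x ^ l ≠ 1) (χ : IrrCharacter G) :
    ∑ k ∈ Finset.univ.filter (fun k => k ∈ K), (χ : G → ℂ) (x ^ l * k) =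
      if χ ∈ principalBlock M G then (Nat.card K : ℂ) * (χ : G → ℂ) (x ^ l) else 0 := by
  have hK0 : (Nat.card K : ℂ) ≠ 0 := by exact_mod_cast Nat.card_pos.ne'
  have h1 := coset_sum (K := K) (y := x ^ l) (fun k hk => conjS h c (h.xpow_mem l) hk)
    (coprime_pow h c l) (f := (χ : G → ℂ)) (fun k _ g => χ.2.isClassFunction g k)
  set H := centralizer ({x ^ l} : Set G) with hH
  obtain ⟨hn1, hn2, hn3⟩ := centralizer_comp c (S_comm h) (h.xpow_mem l) (fun g hg => by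
    refine exists_pow_z h hl (j := l) ?_
    rw [hg]; group)
  haveI := hn1
  haveI : Fintype H := Fintype.ofFinite _
  have h4 : ∃ k, (K.subgroupOf H).index = 2 ^ k := by
    rw [hn3, inter_card h hl, h.hq]
    split_ifs
    · exact ⟨n + 2, by rw [pow_add]; ring⟩
    · exact ⟨n + 1, by rw [pow_add]; ring⟩
  obtain ⟨j, hj⟩ := h4
  obtain ⟨s, hs⟩ := order_pow h hl
  have hmem : ∀ g, g ∈ H ↔ Commute (x ^ l) g := by
    intro g
    rw [hH, Subgroup.mem_centralizer_singleton_iff]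
    exact ⟨fun h => h.symm, fun h => h.symm⟩
  have h5 := H25Klein.section_sum_eq hM hs hmem (N := K.subgroupOf H) hn2 hj χ
  have h6 : ∑ n ∈ Finset.univ.filter (fun h : H => h ∈ K.subgroupOf H), (χ : G → ℂ) (x ^ l * (n : G)) =
      ∑ ρ ∈ Finset.univ.filter (fun ρ => ρ ∈ K ∧ ρ * x ^ l = x ^ l * ρ), (χ : G → ℂ) (x ^ l * ρ) := by
    refine Finset.sum_bij (fun n _ => (n : G)) ?_ ?_ ?_ ?_
    · intro n hn
      rw [Finset.mem_filter] at hn ⊢
      exact ⟨Finset.mem_univ _, hn.2, ((hmem n).1 n.2).symm⟩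
    · intro n _ n' _ he
      exact Subtype.ext he
    · intro g hg
      rw [Finset.mem_filter] at hg
      exact ⟨⟨g, (hmem g).2 hg.2.2.symm⟩, Finset.mem_filter.mpr ⟨Finset.mem_univ _, hg.2.1⟩, rfl⟩
    · intro n _; rfl
  have h7 : ((Finset.univ.filter (fun ρ => ρ ∈ K ∧ ρ * x ^ l = x ^ l * ρ)).card : ℂ) =
      Nat.card (K.subgroupOf H) := by
    congr 1
    rw [Nat.card_eq_fintype_card, ← Fintype.card_subtype]
    refine Fintype.card_congr
      { toFun := fun g => ⟨⟨g.1, (hmem g.1).2 g.2.2.symm⟩, g.2.1⟩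
        invFun := fun g => ⟨g.1.1, g.2, ((hmem _).1 g.1.2).symm⟩
        left_inv := fun g => rfl
        right_inv := fun g => rfl }
  have hN0 : (Nat.card (K.subgroupOf H) : ℂ) ≠ 0 := by exact_mod_cast Nat.card_pos.ne'
  rw [← h6, h5, h7] at h1
  apply mul_left_cancel₀ hN0
  rw [← h1]
  split_ifs <;> ring

open scoped Classical in
theorem conjCount_eq [Fintype G] {z : G} (hz : orderOf z = 2)
    (hone : ∀ s : G, orderOf s = 2 → IsConj z s) (g : G) :
    conjCount z g = if orderOf g = 2 then (Nat.card (Subgroup.centralizer ({z} : Set G)) : ℂ) else 0 := by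
  unfold conjCount
  split_ifs with hg
  · obtain ⟨x, hx⟩ := isConj_iff.1 (hone g hg)
    congr 1
    rw [← Fintype.card_subtype, ← Nat.card_eq_fintype_card]
    refine Nat.card_congr
      { toFun := fun b => ⟨x⁻¹ * b.1, ?_⟩
        invFun := fun z => ⟨x * z.1, ?_⟩
        left_inv := fun b => Subtype.ext (by simp)
        right_inv := fun z => Subtype.ext (by simp) }
    · rw [Subgroup.mem_centralizer_singleton_iff]
      have h1 : b.1 * z * (b.1)⁻¹ = x * z * x⁻¹ := b.2.trans hx.symm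
      calc x⁻¹ * b.1 * z = x⁻¹ * (b.1 * z * (b.1)⁻¹) * b.1 := by group
        _ = x⁻¹ * (x * z * x⁻¹) * b.1 := by rw [h1]
        _ = z * (x⁻¹ * b.1) := by group
    · have h1 := (Subgroup.mem_centralizer_singleton_iff.mp z.2)
      show x * z.1 * _ * (x * z.1)⁻¹ = g
      rw [← hx]
      rw [mul_assoc x, h1]; group
  · have h1 : (Finset.univ.filter fun b : G => b * z * b⁻¹ = g) = ∅ := by
      rw [Finset.filter_eq_empty_iff]
      intro b _ hb
      apply hg
      rw [← hb, ← hz]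
      exact BlockThird.orderOf_conj z b
    rw [h1]
    simp

open scoped Classical in
/-- indicator function of `x^l K` -/
noncomputable def Fl (x : G) (K : Subgroup G) (l : ℤ) (g : G) : ℂ := if (x ^ l)⁻¹ * g ∈ K then 1 else 0

open scoped Classical in
theorem lhs [Fintype G] {z : G} (hz : orderOf z = 2) (hone : ∀ s : G, orderOf s = 2 → IsConj z s)
    (l : ℤ) :
    ∑ a, ∑ b, Fl x K l (a * z * a⁻¹ * (b * z * b⁻¹)⁻¹) =
      (Nat.card (Subgroup.centralizer ({z} : Set G)) : ℂ) ^ 2 * ((A x K l).card : ℂ) := by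
  set c : ℂ := (Nat.card (Subgroup.centralizer ({z} : Set G)) : ℂ) with hc
  have h1 : ∀ a : G, ∑ b, Fl x K l (a * z * a⁻¹ * (b * z * b⁻¹)⁻¹) =
      ∑ j, conjCount z j * Fl x K l (a * z * a⁻¹ * j⁻¹) :=
    fun a => sum_conj_eq z (fun j => Fl x K l (a * z * a⁻¹ * j⁻¹))
  rw [Finset.sum_congr rfl (fun a _ => h1 a),
    sum_conj_eq z (fun i => ∑ j, conjCount z j * Fl x K l (i * j⁻¹))]
  simp only [conjCount_eq hz hone, ← hc, Finset.mul_sum]
  rw [A, Finset.card_filter]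
  push_cast
  rw [Fintype.sum_prod_type, Finset.mul_sum]
  refine Finset.sum_congr rfl fun i _ => ?_
  rw [Finset.mul_sum]
  refine Finset.sum_congr rfl fun j _ => ?_
  by_cases hi : orderOf i = 2
  · by_cases hj : orderOf j = 2
    · have hjj : j⁻¹ = j := by
        apply inv_eq_of_mul_eq_one_right
        have := pow_orderOf_eq_one j
        rwa [hj, pow_two] at this
      unfold Fl
      rw [if_pos hi, if_pos hj, hjj]
      by_cases hK : (x ^ l)⁻¹ * (i * j) ∈ K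
      · rw [if_pos hK, if_pos ⟨hi, hj, hK⟩]; ring
      · rw [if_neg hK, if_neg (fun hh => hK hh.2.2)]; ring
    · have : ¬ (orderOf i = 2 ∧ orderOf j = 2 ∧ (x ^ l)⁻¹ * (i * j) ∈ K) := fun hh => hj hh.2.1
      rw [if_neg this, if_neg hj]; ring
  · have : ¬ (orderOf i = 2 ∧ orderOf j = 2 ∧ (x ^ l)⁻¹ * (i * j) ∈ K) := fun hh => hi hh.1
    rw [if_neg this, if_neg hi]; ring

open scoped Classical in
theorem inner_Fl [Fintype G] (hM : IsPModular 2 M) (h : DH (S : Subgroup G) x y q n)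
    (c : Comp S (x ^ (q : ℤ)) K) {l : ℤ} (hl : x ^ l ≠ 1) (χ : IrrCharacter G) :
    (Nat.card G : ℂ) * classInner (Fl x K l) (χ : G → ℂ) =
      if χ ∈ principalBlock M G then (Nat.card K : ℂ) * conj ((χ : G → ℂ) (x ^ l)) else 0 := by
  have h1 := sum_coset hM h c hl χ
  have h2 := congrArg (starRingEnd ℂ) h1
  rw [classInner_def, mul_inv_cancel_left₀ (by exact_mod_cast Nat.card_pos.ne')]
  have h3 : (starRingEnd ℂ) (if χ ∈ principalBlock M G then (Nat.card K : ℂ) * (χ : G → ℂ) (x ^ l) else 0) =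
      if χ ∈ principalBlock M G then (Nat.card K : ℂ) * conj ((χ : G → ℂ) (x ^ l)) else 0 := by
    split_ifs
    · rw [map_mul, map_natCast]
    · rw [map_zero]
  rw [← h3, ← h2, map_sum]
  have h4 : ∀ g : G, Fl x K l g * conj ((χ : G → ℂ) g) =
      if (x ^ l)⁻¹ * g ∈ K then conj ((χ : G → ℂ) g) else 0 := by
    intro g
    unfold Fl
    split_ifs <;> simp
  rw [Finset.sum_congr rfl (fun g _ => h4 g), ← Finset.sum_filter]
  symm
  refine Finset.sum_bij (fun n _ => x ^ l * n) ?_ ?_ ?_ ?_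
  · intro n hn
    rw [Finset.mem_filter] at hn ⊢
    refine ⟨Finset.mem_univ _, ?_⟩
    rw [inv_mul_cancel_left]; exact hn.2
  · intro n _ n' _ he
    exact mul_left_cancel he
  · intro g hg
    rw [Finset.mem_filter] at hg
    exact ⟨(x ^ l)⁻¹ * g, Finset.mem_filter.mpr ⟨Finset.mem_univ _, hg.2⟩, by
      rw [mul_inv_cancel_left]⟩
  · intro n _
    rfl

open scoped Classical in
/-- The counting formula. -/
theorem count [Fintype G] (hM : IsPModular 2 M) (h : DH (S : Subgroup G) x y q n)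
    (c : Comp S (x ^ (q : ℤ)) K) (hone : ∀ s : G, orderOf s = 2 → IsConj (x ^ (q : ℤ)) s)
    {l : ℕ} (hl0 : 0 < l) (hl : l < 2 * q) :
    (Nat.card (Subgroup.centralizer ({x ^ (q : ℤ)} : Set G)) : ℂ) ^ 2 * ((A x K (l : ℤ)).card : ℂ) =
      (Nat.card G : ℂ) * (Nat.card K : ℂ) * ∑ χ ∈ PB M G,
        (χ : G → ℂ) (x ^ l) * ((χ : G → ℂ) (x ^ q)) ^ 2 / (χ : G → ℂ) 1 := by
  have hz : orderOf (x ^ (q : ℤ)) = 2 := orderOf_eq_prime (by rw [pow_two]; exact h.z_sq) h.z_ne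
  have hl' : x ^ (l : ℤ) ≠ 1 := by
    rw [Ne, h.zpow_eq_one_iff]
    intro hd
    have : 2 * q ∣ l := by exact_mod_cast hd
    have := Nat.le_of_dvd hl0 this
    omega
  have h1 := sum_sum_conj (Fl x K (l : ℤ)) (x ^ (q : ℤ)) (x ^ (q : ℤ))
  rw [lhs hz hone (l : ℤ)] at h1
  rw [h1, sq, mul_assoc, mul_assoc]
  congr 1
  rw [Finset.mul_sum, Finset.mul_sum]
  have h2 : ∀ χ : IrrCharacter G, (Nat.card G : ℂ) * (classInner (Fl x K (l : ℤ)) (χ : G → ℂ) *
      (χ : G → ℂ) (x ^ (q : ℤ)) * conj ((χ : G → ℂ) (x ^ (q : ℤ))) / (χ : G → ℂ) 1) =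
      if χ ∈ principalBlock M G then (Nat.card K : ℂ) * ((χ : G → ℂ) (x ^ l) *
        ((χ : G → ℂ) (x ^ q)) ^ 2 / (χ : G → ℂ) 1) else 0 := by
    intro χ
    have h3 := inner_Fl hM h c hl' χ
    calc (Nat.card G : ℂ) * (classInner (Fl x K (l : ℤ)) (χ : G → ℂ) *
      (χ : G → ℂ) (x ^ (q : ℤ)) * conj ((χ : G → ℂ) (x ^ (q : ℤ))) / (χ : G → ℂ) 1) =
        ((Nat.card G : ℂ) * classInner (Fl x K (l : ℤ)) (χ : G → ℂ)) *
      (χ : G → ℂ) (x ^ (q : ℤ)) * conj ((χ : G → ℂ) (x ^ (q : ℤ))) / (χ : G → ℂ) 1 := by ring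
      _ = _ := by
        rw [h3, zpow_natCast, zpow_natCast, conj_val h, conj_val h]
        split_ifs
        · ring
        · simp
  rw [Finset.sum_congr rfl (fun χ _ => h2 χ), ← Finset.sum_filter]
  refine Finset.sum_congr ?_ fun χ _ => rfl
  ext χ
  simp [PB]

end Cfsg.Agent.Lib.H52Dih9
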