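import Mathlib
import Cfsg.Agent.Lib.H52Dih9

/-!
# Order formula for dihedral Sylow 2-subgroups (helper52)
-/

set_option autoImplicit false

open Subgroup

namespace Cfsg.Agent.Lib.H52Dih10

open Cfsg Cfsg.Agent.Lib.DihSylow Cfsg.Agent.Lib.H52Dih1 Cfsg.Agent.Lib.H52Dih2 Cfsg.Agent.Lib.H52Dih4
open Cfsg.Agent.Lib.H52Dih5 Cfsg.Agent.Lib.H52Dih6 Cfsg.Agent.Lib.H52Dih7 Cfsg.Agent.Lib.H52Dih8
open Cfsg.Agent.Lib.H52Dih9 Cfsg.Agent.Lib.BlockThird Cfsg.Agent.Lib.BlockRing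
open scoped ComplexConjugate

universe u

variable {G : Type u} [Group G] {S : Sylow 2 G} {x y : G} {q n : ℕ} {K : Subgroup G}
variable {M : Ideal AlgInt} {ζ : ℂ}

theorem total [Fintype G] (h : DH (S : Subgroup G) x y q n)
    (c : Comp S (x ^ (q : ℤ)) K) (hζ : IsPrimitiveRoot ζ (2 * q)) (hq2 : 2 ≤ q) :
    ∑ l ∈ Finset.range (2 * q), 2 * κ ζ 1 l * ((A x K (l : ℤ)).card : ℂ) =
      (2 * q : ℂ) ^ 2 * (((I x y K 0).card : ℂ) + ((I x y K 1).card : ℂ)) ^ 2 / 2 := by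
  set a : ℂ := ((I x y K 0).card : ℂ) with ha
  set b : ℂ := ((I x y K 1).card : ℂ) with hb
  have hq := h.q_pos
  have hN0 : ((2 * q : ℕ) : ℂ) ≠ 0 := by exact_mod_cast (by omega : 2 * q ≠ 0)
  have hν : ∀ i : ℕ, ((I x y K (i : ℤ)).card : ℂ) = (a + b) / 2 + (a - b) / 2 * (-1) ^ i := by
    intro i
    rcases Nat.even_or_odd i with hi | hi
    · rw [(card_I_parity h c i).1 (by exact_mod_cast hi), hi.neg_one_pow, ← ha]; ring
    · rw [(card_I_parity h c i).2 (by exact_mod_cast hi), hi.neg_one_pow, ← hb]; ring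
  have h1 : ∑ l ∈ Finset.range (2 * q), κ ζ 1 l = 2 * q := by
    have := cc_const hζ (j := 1) (by norm_num) (by omega)
    unfold cc at this
    simp only [one_mul] at this
    rw [inv_mul_eq_iff_eq_mul₀ hN0, mul_one] at this
    rw [this]; push_cast; ring
  have h2 : ∑ l ∈ Finset.range (2 * q), (-1) ^ l * κ ζ 1 l = 0 := by
    have := cc_alt hq hζ (j := 1) (by norm_num) (by omega)
    rw [if_neg (by omega)] at this
    unfold cc at this
    have h3 := (mul_eq_zero.mp this).resolve_left (inv_ne_zero hN0)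
    have h4 : ∑ l ∈ Finset.range (2 * q), (-1 : ℂ) ^ (l + 1) * κ ζ 1 l =
        - ∑ l ∈ Finset.range (2 * q), (-1) ^ l * κ ζ 1 l := by
      rw [← Finset.sum_neg_distrib]
      refine Finset.sum_congr rfl fun l _ => ?_
      rw [pow_succ]; ring
    rw [h4, neg_eq_zero] at h3
    exact h3
  have h5 : ∑ i ∈ Finset.range (2 * q), (-1 : ℂ) ^ i = 0 := by
    rw [neg_one_geom_sum, if_pos (even_two_mul q)]
  have h6 : ∀ l ∈ Finset.range (2 * q), 2 * κ ζ 1 l * ((A x K (l : ℤ)).card : ℂ) =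
      ∑ i ∈ Finset.range (2 * q), 2 * κ ζ 1 l * (((I x y K ((i : ℤ) + l)).card : ℂ) *
        ((I x y K (i : ℤ)).card : ℂ)) := by
    intro l hl
    have hl' := Finset.mem_range.mp hl
    rcases Nat.eq_zero_or_pos l with rfl | hl0
    · simp
    · have hne : x ^ (l : ℤ) ≠ 1 := by
        rw [Ne, h.zpow_eq_one_iff]
        intro hd
        have : 2 * q ∣ l := by exact_mod_cast hd
        have := Nat.le_of_dvd hl0 this
        omega
      rw [card_A h c hne, ← Finset.mul_sum]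
      push_cast
      rfl
  rw [Finset.sum_congr rfl h6, Finset.sum_comm]
  have h7 : ∀ i ∈ Finset.range (2 * q), ∑ l ∈ Finset.range (2 * q), 2 * κ ζ 1 l *
      (((I x y K ((i : ℤ) + l)).card : ℂ) * ((I x y K (i : ℤ)).card : ℂ)) =
      (a + b) * (2 * q) * ((I x y K (i : ℤ)).card : ℂ) := by
    intro i _
    have h8 : ∀ l ∈ Finset.range (2 * q), 2 * κ ζ 1 l *
      (((I x y K ((i : ℤ) + l)).card : ℂ) * ((I x y K (i : ℤ)).card : ℂ)) =
        (a + b) * ((I x y K (i : ℤ)).card : ℂ) * κ ζ 1 l +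
        (a - b) * (-1) ^ i * ((I x y K (i : ℤ)).card : ℂ) * ((-1) ^ l * κ ζ 1 l) := by
      intro l _
      have := hν (i + l)
      push_cast at this
      rw [this, pow_add]
      ring
    rw [Finset.sum_congr rfl h8, Finset.sum_add_distrib, ← Finset.mul_sum, ← Finset.mul_sum, h1, h2]
    ring
  rw [Finset.sum_congr rfl h7, ← Finset.mul_sum]
  have h9 : ∑ i ∈ Finset.range (2 * q), ((I x y K (i : ℤ)).card : ℂ) = (2 * q) * ((a + b) / 2) := by
    rw [Finset.sum_congr rfl (fun i _ => hν i), Finset.sum_add_distrib, ← Finset.mul_sum, h5,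
      Finset.sum_const, Finset.card_range, nsmul_eq_mul]
    push_cast; ring
  rw [h9]
  ring

/-- The total of the character side. -/
theorem total' [Fintype G] (hM : IsPModular 2 M) (h : DH (S : Subgroup G) x y q n)
    (c : Comp S (x ^ (q : ℤ)) K) (hone : ∀ s : G, orderOf s = 2 → IsConj (x ^ (q : ℤ)) s) :
    (Nat.card (Subgroup.centralizer ({x ^ (q : ℤ)} : Set G)) : ℂ) ^ 2 *
      (∑ l ∈ Finset.range (2 * q), 2 * κ ζ 1 l * ((A x K (l : ℤ)).card : ℂ)) =
      (Nat.card G : ℂ) * (Nat.card K : ℂ) * (2 * (2 * q)) * ∑ χ ∈ PB M G,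
        ((χ : G → ℂ) (x ^ q)) ^ 2 / (χ : G → ℂ) 1 * W q ζ x χ 1 := by
  have hq := h.q_pos
  have hN0 : ((2 * q : ℕ) : ℂ) ≠ 0 := by exact_mod_cast (by omega : 2 * q ≠ 0)
  rw [Finset.mul_sum]
  have h1 : ∀ l ∈ Finset.range (2 * q), (Nat.card (Subgroup.centralizer ({x ^ (q : ℤ)} : Set G)) : ℂ) ^ 2 *
      (2 * κ ζ 1 l * ((A x K (l : ℤ)).card : ℂ)) = ∑ χ ∈ PB M G, (Nat.card G : ℂ) * (Nat.card K : ℂ) * 2 *
        (((χ : G → ℂ) (x ^ q)) ^ 2 / (χ : G → ℂ) 1 * ((χ : G → ℂ) (x ^ l) * κ ζ 1 l)) := by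
    intro l hl
    have hl' := Finset.mem_range.mp hl
    rcases Nat.eq_zero_or_pos l with rfl | hl0
    · simp
    · have h2 := count hM h c hone hl0 hl'
      calc (Nat.card (Subgroup.centralizer ({x ^ (q : ℤ)} : Set G)) : ℂ) ^ 2 *
          (2 * κ ζ 1 l * ((A x K (l : ℤ)).card : ℂ)) = 2 * κ ζ 1 l *
            ((Nat.card (Subgroup.centralizer ({x ^ (q : ℤ)} : Set G)) : ℂ) ^ 2 *
              ((A x K (l : ℤ)).card : ℂ)) := by ring
        _ = _ := by
          rw [h2, ← mul_assoc, Finset.mul_sum]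
          refine Finset.sum_congr rfl fun χ _ => ?_
          ring
  rw [Finset.sum_congr rfl h1, Finset.sum_comm, Finset.mul_sum]
  refine Finset.sum_congr rfl fun χ _ => ?_
  rw [← Finset.mul_sum, ← Finset.mul_sum]
  have hq0 : (q : ℂ) ≠ 0 := by exact_mod_cast hq.ne'
  unfold W cc
  push_cast at hN0 ⊢
  field_simp

/-- evaluation of the character side -/
theorem eval [Finite G] (hM : IsPModular 2 M) (h : DH (S : Subgroup G) x y q n) (hq2 : 2 ≤ q)
    (hζ : IsPrimitiveRoot ζ (2 * q)) {a b d : IrrCharacter G} {o : ℕ → IrrCharacter G} {δ β γ : ℤ}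
    (L : Lab M x q ζ a b d o δ β γ) :
    (a : G → ℂ) 1 + δ ≠ 0 ∧ ∑ χ ∈ PB M G, ((χ : G → ℂ) (x ^ q)) ^ 2 / (χ : G → ℂ) 1 * W q ζ x χ 1 =
      ((a : G → ℂ) 1 - δ) ^ 2 / ((a : G → ℂ) 1 * ((a : G → ℂ) 1 + δ)) := by
  classical
  haveI := isPrime hM
  have hq := h.q_pos
  have hδ2 : (δ : ℂ) * δ = 1 := by rcases L.dδ with e | e <;> rw [e] <;> norm_num
  have hWt : W q ζ x (triv G) 1 = 1 := cc_const hζ (by norm_num) (by omega)
  have hWa : W q ζ x a 1 = δ := by
    have h1 : W q ζ x a 1 = cc (2 * q) ζ (fun _ => (δ : ℂ) * 1) 1 := by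
      unfold W
      apply cc_congr
      intro l h0 h1
      rw [L.va l h0 h1, mul_one]
    rw [h1, cc_smul, cc_const hζ (by norm_num) (by omega), mul_one]
  have hWb : W q ζ x b 1 = 0 := by
    have h1 : W q ζ x b 1 = cc (2 * q) ζ (fun l => (β : ℂ) * (-1) ^ (l + 1)) 1 := by
      unfold W
      apply cc_congr
      intro l h0 h1
      exact L.vb l h0 h1
    rw [h1, cc_smul, cc_alt hq hζ (by norm_num) (by omega), if_neg (by omega), mul_zero]
  have hWd : W q ζ x d 1 = 0 := by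
    have h1 : W q ζ x d 1 = cc (2 * q) ζ (fun l => (γ : ℂ) * (-1) ^ (l + 1)) 1 := by
      unfold W
      apply cc_congr
      intro l h0 h1
      exact L.vc l h0 h1
    rw [h1, cc_smul, cc_alt hq hζ (by norm_num) (by omega), if_neg (by omega), mul_zero]
  have hWo : ∀ j, 1 ≤ j → j < q → W q ζ x (o j) 1 = δ * (if 1 = j then -1 else 0) := by
    intro j h1 h2
    have h3 : W q ζ x (o j) 1 = cc (2 * q) ζ (fun l => (δ : ℂ) * (ζ ^ (j * l) + (ζ ^ (j * l))⁻¹)) 1 := by
      unfold W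
      apply cc_congr
      intro l h0 h3
      exact L.vo j h1 h2 l h0 h3
    rw [h3, cc_smul, cc_cos hq hζ h1 h2 (by norm_num) (by omega)]
  have ho1 := L.rel2 1 le_rfl (by omega) 1 (by rw [orderOf_one]; norm_num)
  have ho1' : (o 1 : G → ℂ) 1 = (a : G → ℂ) 1 + δ := by
    linear_combination (-(δ : ℂ)) * ho1 + ((a : G → ℂ) 1 - (o 1 : G → ℂ) 1) * hδ2
  have hone0 : ∀ χ : IrrCharacter G, (χ : G → ℂ) 1 ≠ 0 := fun χ => IsIrrCharacter.one_ne_zero χ.2
  have ha0 := hone0 a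
  have hao : (a : G → ℂ) 1 + δ ≠ 0 := by rw [← ho1']; exact hone0 (o 1)
  refine ⟨hao, ?_⟩
  have haq : ((a : G → ℂ) (x ^ q)) ^ 2 = 1 := by
    rw [L.va q hq (by omega), sq]; exact hδ2
  have hoq : ((o 1 : G → ℂ) (x ^ q)) ^ 2 = 4 := by
    rw [L.vo 1 le_rfl (by omega) q hq (by omega), one_mul, ζ_q hq hζ]
    have : ((δ : ℂ) * (-1 + (-1)⁻¹)) ^ 2 = 4 * (δ * δ) := by norm_num; ring
    rw [this, hδ2, mul_one]
  have h1 : ∑ χ ∈ PB M G, ((χ : G → ℂ) (x ^ q)) ^ 2 / (χ : G → ℂ) 1 * W q ζ x χ 1 =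
      ∑ χ ∈ ({triv G, a, o 1} : Finset (IrrCharacter G)),
        ((χ : G → ℂ) (x ^ q)) ^ 2 / (χ : G → ℂ) 1 * W q ζ x χ 1 := by
    symm
    apply Finset.sum_subset
    · intro χ hχ
      simp only [Finset.mem_insert, Finset.mem_singleton] at hχ
      rw [mem_PB, L.mem]
      rcases hχ with rfl | rfl | rfl
      · tauto
      · tauto
      · exact Or.inr (Or.inr (Or.inr (Or.inr ⟨1, le_rfl, by omega, rfl⟩)))
    · intro χ hχ hχ'
      simp only [Finset.mem_insert, Finset.mem_singleton, not_or] at hχ'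
      rw [mem_PB, L.mem] at hχ
      rcases hχ with rfl | rfl | rfl | rfl | ⟨j, h1, h2, rfl⟩
      · exact absurd rfl hχ'.1
      · exact absurd rfl hχ'.2.1
      · rw [hWb, mul_zero]
      · rw [hWd, mul_zero]
      · rw [hWo j h1 h2, if_neg (fun e => hχ'.2.2 (by rw [e])), mul_zero, mul_zero]
  rw [h1, Finset.sum_insert, Finset.sum_pair (Ne.symm (L.oa 1 le_rfl (by omega))), hWt, hWa,
    hWo 1 le_rfl (by omega), if_pos rfl, haq, hoq, ho1', coe_triv]
  · field_simp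
    ring_nf
  · simp [Ne.symm L.a1, Ne.symm (L.o1 1 le_rfl (by omega))]

/-- joint centralizers -/
theorem card_joint [Finite G] (h : DH (S : Subgroup G) x y q n) (c : Comp S (x ^ (q : ℤ)) K) {u : G}
    (hu : u ∈ (S : Subgroup G)) : Nat.card (centralizer ({x ^ (q : ℤ), u} : Set G)) =
      Nat.card ↥(K ⊓ centralizer {u}) * Nat.card ↥((S : Subgroup G) ⊓ centralizer {u}) := by
  have hmem : ∀ g, g ∈ centralizer ({x ^ (q : ℤ), u} : Set G) ↔
      g * x ^ (q : ℤ) = x ^ (q : ℤ) * g ∧ g * u = u * g := by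
    intro g
    rw [Subgroup.mem_centralizer_iff]
    constructor
    · intro hg
      exact ⟨(hg _ (by simp)).symm, (hg _ (by simp)).symm⟩
    · rintro ⟨h1, h2⟩ w hw
      rcases hw with rfl | hw
      · exact h1.symm
      · rw [Set.mem_singleton_iff.mp hw]; exact h2.symm
  rw [← Nat.card_prod]
  symm
  refine Nat.card_congr (Equiv.ofBijective (fun p : ↥(K ⊓ centralizer {u}) ×
    ↥((S : Subgroup G) ⊓ centralizer {u}) => (⟨p.1.1 * p.2.1, (hmem _).2 ⟨?_, ?_⟩⟩ :
      centralizer ({x ^ (q : ℤ), u} : Set G))) ⟨?_, ?_⟩)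
  · have h1 := c.le _ p.1.2.1
    have h2 := sz h p.2.2.1
    rw [mul_assoc, h2, ← mul_assoc, h1, mul_assoc]
  · have h1 := Subgroup.mem_centralizer_singleton_iff.mp p.1.2.2
    have h2 := Subgroup.mem_centralizer_singleton_iff.mp p.2.2.2
    rw [mul_assoc, h2, ← mul_assoc, h1, mul_assoc]
  · rintro ⟨⟨k, hk⟩, ⟨s, hs⟩⟩ ⟨⟨k', hk'⟩, ⟨s', hs'⟩⟩ he
    have he' : k * s = k' * s' := congrArg Subtype.val he
    have h1 : k'⁻¹ * k = s' * s⁻¹ := by
      rw [inv_mul_eq_iff_eq_mul, ← mul_assoc, ← he']; group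
    have h2 : k'⁻¹ * k = 1 := by
      apply c.disj _ (mul_mem (inv_mem hk'.1) hk.1)
      rw [h1]; exact mul_mem hs'.1 (inv_mem hs.1)
    have h3 : k' = k := inv_mul_eq_one.mp h2
    have h4 : s' = s := by rw [h2] at h1; exact mul_inv_eq_one.mp h1.symm
    subst h3 h4
    rfl
  · rintro ⟨g, hg⟩
    obtain ⟨h1, h2⟩ := (hmem g).1 hg
    obtain ⟨k, hk, s, hs, he, hku, hsu⟩ := c.fac_comm (S_comm h) h1 hu h2
    refine ⟨(⟨k, hk, ?_⟩, ⟨s, hs, ?_⟩), Subtype.ext he.symm⟩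
    · exact Subgroup.mem_centralizer_singleton_iff.mpr hku
    · exact Subgroup.mem_centralizer_singleton_iff.mpr hsu

theorem card_centS [Finite G] (h : DH (S : Subgroup G) x y q n) (i : ℤ) :
    Nat.card ↥((S : Subgroup G) ⊓ centralizer {x ^ i * y}) = 4 := by
  obtain ⟨T, hT, hT4, -⟩ := h.exists_four i
  have : (S : Subgroup G) ⊓ centralizer {x ^ i * y} = T := by
    ext g
    rw [hT, Subgroup.mem_inf, Subgroup.mem_centralizer_singleton_iff]
    constructor
    · rintro ⟨hg, hc⟩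
      rcases h.exists_rep hg with ⟨j, rfl⟩ | ⟨j, rfl⟩
      · have h1 := h.conj_xy j i
        rw [hc, mul_inv_cancel_right] at h1
        have h2 := mul_right_cancel h1
        rw [h.zpow_eq_iff] at h2
        have h3 : x ^ j * x ^ j = 1 := by
          rw [← zpow_add, h.zpow_eq_one_iff, ← dvd_neg]
          rwa [show -(j + j) = i - (i + 2 * j) by ring]
        by_cases h4 : x ^ j = 1
        · left; exact h4
        · right; left; exact h.eq_z_of_sq h3 h4
      · -- `g = x^j y`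
        have h1 : (x ^ j * y) * (x ^ i * y) = x ^ (j - i) := by
          calc (x ^ j * y) * (x ^ i * y) = x ^ j * (y * x ^ i) * y := by group
            _ = x ^ j * (x ^ (-i) * y) * y := by rw [h.y_mul]
            _ = x ^ j * x ^ (-i) * (y * y) := by group
            _ = x ^ (j - i) := by rw [h.hy, ← zpow_add, mul_one]; rfl
        have h2 : (x ^ i * y) * (x ^ j * y) = x ^ (i - j) := by
          calc (x ^ i * y) * (x ^ j * y) = x ^ i * (y * x ^ j) * y := by group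
            _ = x ^ i * (x ^ (-j) * y) * y := by rw [h.y_mul]
            _ = x ^ i * x ^ (-j) * (y * y) := by group
            _ = x ^ (i - j) := by rw [h.hy, ← zpow_add, mul_one]; rfl
        rw [h1, h2] at hc
        have h3 : x ^ (j - i) * x ^ (j - i) = 1 := by
          conv_lhs => rw [hc]
          nth_rw 2 [← hc]
          rw [← zpow_add]
          simp
        have h5 : x ^ j * y = x ^ (j - i) * (x ^ i * y) := by
          rw [← mul_assoc, ← zpow_add]; congr 2; ring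
        by_cases h4 : x ^ (j - i) = 1
        · right; right; left
          rw [h5, h4, one_mul]
        · right; right; right
          rw [h5, h.eq_z_of_sq h3 h4]
    · rintro (rfl | rfl | rfl | rfl)
      · exact ⟨one_mem _, by simp⟩
      · exact ⟨h.xpow_mem _, h.z_comm (h.xy_mem i)⟩
      · exact ⟨h.xy_mem i, rfl⟩
      · refine ⟨mul_mem (h.xpow_mem _) (h.xy_mem i), ?_⟩
        rw [h.z_comm (h.xy_mem i), mul_assoc, h.z_comm (h.xy_mem i)]
  rw [this]
  exact hT4.card_four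

theorem card_H [Finite G] (h : DH (S : Subgroup G) x y q n) (c : Comp S (x ^ (q : ℤ)) K) :
    Nat.card (centralizer ({x ^ (q : ℤ)} : Set G)) = 4 * q * Nat.card K := by
  obtain ⟨h1, h2, h3⟩ := centralizer_comp c (S_comm h) (h.xpow_mem q) (fun g hg => hg)
  rw [inter_card h h.z_ne, if_pos rfl] at h3
  rw [← (K.subgroupOf (centralizer ({x ^ (q : ℤ)} : Set G))).card_mul_index, h3]
  have : Nat.card (K.subgroupOf (centralizer ({x ^ (q : ℤ)} : Set G))) = Nat.card K := by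
    apply Nat.card_congr
    apply (Subgroup.subgroupOfEquivOfLe _).toEquiv
    intro k hk
    exact Subgroup.mem_centralizer_singleton_iff.mpr (c.le k hk)
  rw [this]; ring

theorem formula [Fintype G] (hM : IsPModular 2 M) (h : DH (S : Subgroup G) x y q n) (hq2 : 2 ≤ q)
    (c : Comp S (x ^ (q : ℤ)) K) (hone : ∀ s : G, orderOf s = 2 → IsConj (x ^ (q : ℤ)) s)
    (hζ : IsPrimitiveRoot ζ (2 * q)) {a b d : IrrCharacter G} {o : ℕ → IrrCharacter G} {δ β γ : ℤ}
    (L : Lab M x q ζ a b d o δ β γ) :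
    (a : G → ℂ) 1 ≠ δ ∧ (Nat.card G : ℂ) * ((a : G → ℂ) 1 - δ) ^ 2 =
      2 * (a : G → ℂ) 1 * ((a : G → ℂ) 1 + δ) *
        (Nat.card (centralizer ({x ^ (q : ℤ)} : Set G)) : ℂ) ^ 3 *
        (1 / (Nat.card (centralizer ({x ^ (q : ℤ), y} : Set G)) : ℂ) +
          1 / (Nat.card (centralizer ({x ^ (q : ℤ), x * y} : Set G)) : ℂ)) ^ 2 := by
  have hq := h.q_pos
  have hq0 : (q : ℂ) ≠ 0 := by exact_mod_cast hq.ne'
  have hG0 : (Nat.card G : ℂ) ≠ 0 := by exact_mod_cast Nat.card_pos.ne'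
  have hK0 : (Nat.card K : ℂ) ≠ 0 := by exact_mod_cast Nat.card_pos.ne'
  have ha0 : (a : G → ℂ) 1 ≠ 0 := IsIrrCharacter.one_ne_zero a.2
  obtain ⟨hao, hev⟩ := eval hM h hq2 hζ L
  have h1 := total' (ζ := ζ) hM h c hone
  rw [total h c hζ hq2, hev, card_H h c] at h1
  have e0 := card_I h c 0
  have e1 := card_I h c 1
  have j0 := card_joint h c (h.xy_mem 0)
  have j1 := card_joint h c (h.xy_mem 1)
  rw [card_centS h 0] at j0
  rw [card_centS h 1] at j1
  rw [zpow_zero, one_mul] at e0 j0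
  rw [zpow_one] at e1 j1
  rw [j0, j1, card_H h c]
  set k0 := Nat.card ↥(K ⊓ centralizer {y}) with hk0
  set k1 := Nat.card ↥(K ⊓ centralizer {x * y}) with hk1
  set n0 := (I x y K 0).card with hn0
  set n1 := (I x y K 1).card with hn1
  have hk00 : (k0 : ℂ) ≠ 0 := by
    have : k0 ≠ 0 := by rw [hk0]; exact Nat.card_pos.ne'
    exact_mod_cast this
  have hk10 : (k1 : ℂ) ≠ 0 := by
    have : k1 ≠ 0 := by rw [hk1]; exact Nat.card_pos.ne'
    exact_mod_cast this
  have f0 : (Nat.card K : ℂ) = k0 * n0 := by exact_mod_cast e0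
  have f1 : (Nat.card K : ℂ) = k1 * n1 := by exact_mod_cast e1
  have hsum : (n0 : ℂ) + n1 ≠ 0 := by
    have h2 : n0 ≠ 0 := by
      rintro h2
      rw [h2, mul_zero] at e0
      exact Nat.card_pos.ne' e0
    have : n0 + n1 ≠ 0 := by omega
    exact_mod_cast this
  have g0 : (n0 : ℂ) = Nat.card K / k0 := by rw [f0]; field_simp
  have g1 : (n1 : ℂ) = Nat.card K / k1 := by rw [f1]; field_simp
  set X := (a : G → ℂ) 1 with hX
  set k := (Nat.card K : ℂ) with hk
  set g := (Nat.card G : ℂ) with hg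
  push_cast at h1 ⊢
  rw [← hk] at h1 ⊢
  -- simplify `h1`
  have h2 : g * (X - δ) ^ 2 = 8 * q ^ 3 * k * ((n0 : ℂ) + n1) ^ 2 * (X * (X + δ)) := by
    field_simp at h1
    apply mul_left_cancel₀ (two_ne_zero (α := ℂ))
    linear_combination (-1 : ℂ) * h1
  constructor
  · intro he
    rw [he, sub_self] at h2
    have h3 : (8 : ℂ) * q ^ 3 * k * ((n0 : ℂ) + n1) ^ 2 * (X * (X + δ)) ≠ 0 := by
      refine mul_ne_zero (mul_ne_zero (mul_ne_zero (mul_ne_zero (by norm_num) (pow_ne_zero _ hq0)) hK0)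
        (pow_ne_zero _ hsum)) (mul_ne_zero ha0 hao)
    apply h3
    rw [he, ← h2]; ring
  · rw [h2, g0, g1]
    field_simp
    ring

end Cfsg.Agent.Lib.H52Dih10
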