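import Mathlib

/-!
# A combinatorial lemma on commuting integral "contribution matrices" (helper52)
-/

set_option autoImplicit false

open Finset

namespace Cfsg.Agent.Lib.H52E16a

variable {ι : Type*} [DecidableEq ι]

/-- the combinatorial data with positive `d` -/
structure Dat (s : Finset ι) (A B : ι → ι → ℤ) (d : ι → ℤ) (o : ι) : Prop where
  ho : o ∈ s
  As : ∀ i ∈ s, ∀ j ∈ s, A i j = A j i
  Bs : ∀ i ∈ s, ∀ j ∈ s, B i j = B j i
  A2 : ∀ i ∈ s, ∀ j ∈ s, ∑ k ∈ s, A i k * A k j = 4 * A i j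
  B2 : ∀ i ∈ s, ∀ j ∈ s, ∑ k ∈ s, B i k * B k j = 4 * B i j
  AB : ∀ i ∈ s, ∀ j ∈ s, ∑ k ∈ s, A i k * B k j = d i * d j
  Ad : ∀ i ∈ s, ∑ k ∈ s, A i k * d k = 4 * d i
  Bd : ∀ i ∈ s, ∑ k ∈ s, B i k * d k = 4 * d i
  hd : ∑ i ∈ s, d i ^ 2 = 16
  d1 : ∀ i ∈ s, 1 ≤ d i
  do1 : d o = 1
  posA : ∀ i ∈ s, d i ^ 2 ≤ 4 * A i i
  posB : ∀ i ∈ s, d i ^ 2 ≤ 4 * B i i
  lt : ∀ i ∈ s, 4 * A i i + 4 * B i i < 16 + d i ^ 2
  tA : ∑ i ∈ s, A i i = 16
  tB : ∑ i ∈ s, B i i = 16

variable {s : Finset ι} {A B : ι → ι → ℤ} {d : ι → ℤ} {o : ι}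

theorem Dat.symm (h : Dat s A B d o) : Dat s B A d o where
  ho := h.ho
  As := h.Bs
  Bs := h.As
  A2 := h.B2
  B2 := h.A2
  AB := by
    intro i hi j hj
    rw [mul_comm (d i), ← h.AB j hj i hi]
    refine Finset.sum_congr rfl fun k hk => ?_
    rw [h.Bs i hi k hk, h.As k hk j hj, mul_comm]
  Ad := h.Bd
  Bd := h.Ad
  hd := h.hd
  d1 := h.d1
  do1 := h.do1
  posA := h.posB
  posB := h.posA
  lt := by
    intro i hi
    have := h.lt i hi
    linarith
  tA := h.tB
  tB := h.tA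

/-- if `∑ x² = ∑ x` over integers then all entries are 0 or 1 -/
theorem zero_one {t : Finset ι} {x : ι → ℤ} (h : ∑ i ∈ t, x i ^ 2 = ∑ i ∈ t, x i) :
    ∀ i ∈ t, x i = 0 ∨ x i = 1 := by
  have h1 : ∑ i ∈ t, (x i ^ 2 - x i) = 0 := by rw [Finset.sum_sub_distrib, h, sub_self]
  have h2 : ∀ i ∈ t, 0 ≤ x i ^ 2 - x i := by
    intro i _
    rcases le_or_gt (x i) 0 with h3 | h3
    · nlinarith
    · nlinarith
  intro i hi
  have h3 := (Finset.sum_eq_zero_iff_of_nonneg h2).mp h1 i hi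
  have h4 : x i * (x i - 1) = 0 := by linarith
  rcases mul_eq_zero.mp h4 with h5 | h5
  · exact Or.inl h5
  · exact Or.inr (by linarith)

theorem parity {t : Finset ι} (x : ι → ℤ) : (2 : ℤ) ∣ ∑ i ∈ t, x i ^ 2 - ∑ i ∈ t, x i := by
  rw [← Finset.sum_sub_distrib]
  apply Finset.dvd_sum
  intro i _
  have : x i ^ 2 - x i = x i * (x i - 1) := by ring
  rw [this]
  rcases Int.even_or_odd (x i) with h | h
  · exact (h.two_dvd).mul_right _
  · obtain ⟨k, hk⟩ := h
    exact Dvd.dvd.mul_left ⟨k, by omega⟩ _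

theorem Dat.d_le (h : Dat s A B d o) (hn : 9 ≤ s.card) : ∀ i ∈ s, d i = 1 ∨ d i = 2 := by
  intro i hi
  have h1 := h.hd
  rw [← Finset.add_sum_erase s _ hi] at h1
  have h2 : ((s.erase i).card : ℤ) ≤ ∑ j ∈ s.erase i, d j ^ 2 := by
    rw [Finset.card_eq_sum_ones]
    push_cast
    apply Finset.sum_le_sum
    intro j hj
    have := h.d1 j (Finset.mem_of_mem_erase hj)
    nlinarith
  rw [Finset.card_erase_of_mem hi, Nat.cast_sub (by omega)] at h2
  have h3 := h.d1 i hi
  have h4 : (9 : ℤ) ≤ s.card := by exact_mod_cast hn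
  have h5 : d i ^ 2 ≤ 8 := by push_cast at h2; linarith
  have h6 : d i < 3 := by nlinarith
  omega

theorem Dat.sq_row (h : Dat s A B d o) {i : ι} (hi : i ∈ s) : ∑ k ∈ s, A i k ^ 2 = 4 * A i i := by
  rw [← h.A2 i hi i hi]
  refine Finset.sum_congr rfl fun k hk => ?_
  rw [h.As k hk i hi, sq]

theorem Dat.pos (h : Dat s A B d o) {i : ι} (hi : i ∈ s) : 1 ≤ A i i := by
  have h1 := h.posA i hi
  have h2 := h.d1 i hi
  have h3 : 1 ≤ d i ^ 2 := by nlinarith
  omega

/-- entries at a position with `d = 2` -/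
theorem Dat.ge_two (h : Dat s A B d o) {i : ι} (hi : i ∈ s) (hdi : d i = 2) : 2 ≤ A i i := by
  by_contra hlt
  have h1 := h.pos hi
  have h2 : A i i = 1 := by omega
  have h3 := h.sq_row hi
  have h4 := h.Ad i hi
  have h5 := h.hd
  rw [← Finset.add_sum_erase s _ hi] at h3 h4 h5
  rw [h2] at h3 h4
  rw [hdi] at h4 h5
  have h6 : ∑ j ∈ s.erase i, (2 * A i j - d j) ^ 2 = 0 := by
    have : ∑ j ∈ s.erase i, (2 * A i j - d j) ^ 2 = 4 * ∑ j ∈ s.erase i, A i j ^ 2
        - 4 * ∑ j ∈ s.erase i, A i j * d j + ∑ j ∈ s.erase i, d j ^ 2 := by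
      rw [Finset.mul_sum, Finset.mul_sum, ← Finset.sum_sub_distrib, ← Finset.sum_add_distrib]
      exact Finset.sum_congr rfl fun j _ => by ring
    rw [this]
    linarith
  have hoi : o ∈ s.erase i := by
    rw [Finset.mem_erase]
    refine ⟨fun h7 => ?_, h.ho⟩
    have := h.do1
    rw [h7, hdi] at this
    omega
  have h7 := (Finset.sum_eq_zero_iff_of_nonneg (fun j _ => sq_nonneg _)).mp h6 o hoi
  rw [sq_eq_zero_iff, h.do1] at h7
  omega

theorem Dat.eq_two (h : Dat s A B d o) {i : ι} (hi : i ∈ s) (hdi : d i = 2) : A i i = 2 := by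
  have h1 := h.ge_two hi hdi
  have h2 := h.symm.ge_two hi hdi
  have h3 := h.lt i hi
  rw [hdi] at h3
  omega

/-- the case of exactly one entry `2` -/
theorem Dat.one_case (h : Dat s A B d o) {c : ι} (hc : c ∈ s) (hdc : d c = 2)
    (hd1 : ∀ i ∈ s.erase c, d i = 1) : False := by
  have hcc := h.eq_two hc hdc
  have h1 := h.sq_row hc
  have h2 := h.Ad c hc
  have h3 := h.hd
  have h4 := h.tA
  rw [← Finset.add_sum_erase s _ hc] at h1 h2 h3 h4
  rw [hcc] at h1 h2 h4
  rw [hdc] at h2 h3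
  have h5 : ∑ i ∈ s.erase c, A c i * d i = ∑ i ∈ s.erase c, A c i :=
    Finset.sum_congr rfl fun i hi => by rw [hd1 i hi, mul_one]
  rw [h5] at h2
  have h6 := zero_one (t := s.erase c) (x := fun i => A c i) (by linarith)
  have h7 : ∑ i ∈ s.erase c, (d i ^ 2) = ∑ i ∈ s.erase c, (1 : ℤ) :=
    Finset.sum_congr rfl fun i hi => by rw [hd1 i hi]; norm_num
  have h8 : ∀ i ∈ s.erase c, 1 + A c i ≤ A i i := by
    intro i hi
    have his := Finset.mem_of_mem_erase hi
    have hic := Finset.ne_of_mem_erase hi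
    have hp := h.pos his
    rcases h6 i hi with h9 | h9
    · omega
    · try simp only at h9
      by_contra hlt
      have hAi : A i i = 1 := by omega
      have e1 := h.sq_row his
      have e2 := h.Ad i his
      have hci : c ∈ s.erase i := Finset.mem_erase.mpr ⟨hic.symm, hc⟩
      rw [← Finset.add_sum_erase s _ his, ← Finset.add_sum_erase _ _ hci] at e1 e2
      rw [hAi, h.As i his c hc, h9] at e1 e2
      rw [hdc, hd1 i hi] at e2
      have e3 : ∑ j ∈ (s.erase i).erase c, A i j * d j = ∑ j ∈ (s.erase i).erase c, A i j :=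
        Finset.sum_congr rfl fun j hj => by
          rw [Finset.mem_erase, Finset.mem_erase] at hj
          rw [hd1 j (Finset.mem_erase.mpr ⟨hj.1, hj.2.2⟩), mul_one]
      rw [e3] at e2
      have e4 := parity (t := (s.erase i).erase c) (fun j => A i j)
      omega
  have h9 := Finset.sum_le_sum h8
  rw [Finset.sum_add_distrib] at h9
  linarith

theorem Dat.two_case_aux (h : Dat s A B d o) {c c' : ι} (hc : c ∈ s) (hc' : c' ∈ s) (hne : c ≠ c')
    (hdc : d c = 2) (hdc' : d c' = 2) (hd1 : ∀ i ∈ (s.erase c).erase c', d i = 1)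
    (hw : A c c' = 0) : False := by
  have hcc := h.eq_two hc hdc
  have hcc' := h.eq_two hc' hdc'
  have hw' : A c' c = 0 := by rw [h.As c' hc' c hc, hw]
  have hc'm : c' ∈ s.erase c := Finset.mem_erase.mpr ⟨hne.symm, hc'⟩
  have h1 := h.sq_row hc
  have h2 := h.Ad c hc
  have h1' := h.sq_row hc'
  have h2' := h.Ad c' hc'
  have h3 := h.hd
  have h4 := h.tA
  have hcr := h.A2 c hc c' hc'
  rw [← Finset.add_sum_erase s _ hc, ← Finset.add_sum_erase _ _ hc'm] at h1 h2 h1' h2' h3 h4 hcr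
  rw [hcc, hw] at h1 h2
  rw [hcc', hw'] at h1' h2'
  rw [hcc, hcc'] at h4
  rw [hw] at hcr
  rw [hdc] at h2 h2' h3
  rw [hdc'] at h2 h2' h3
  have h5 : ∀ a, ∑ i ∈ (s.erase c).erase c', A a i * d i = ∑ i ∈ (s.erase c).erase c', A a i :=
    fun a => Finset.sum_congr rfl fun i hi => by rw [hd1 i hi, mul_one]
  rw [h5] at h2 h2'
  have h6 := zero_one (t := (s.erase c).erase c') (x := fun i => A c i) (by linarith)
  have h6' := zero_one (t := (s.erase c).erase c') (x := fun i => A c' i) (by linarith)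
  have h7 : ∑ i ∈ (s.erase c).erase c', (d i ^ 2) = ∑ i ∈ (s.erase c).erase c', (1 : ℤ) :=
    Finset.sum_congr rfl fun i hi => by rw [hd1 i hi]; norm_num
  have hmem : ∀ i ∈ (s.erase c).erase c', i ∈ s := fun i hi =>
    Finset.mem_of_mem_erase (Finset.mem_of_mem_erase hi)
  have h8 : ∑ i ∈ (s.erase c).erase c', A c i * A c' i = 0 := by
    have : ∑ i ∈ (s.erase c).erase c', A c i * A c' i = ∑ i ∈ (s.erase c).erase c', A c i * A i c' :=
      Finset.sum_congr rfl fun i hi => by rw [h.As i (hmem i hi) c' hc']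
    rw [this]
    linarith
  have h9 : ∀ i ∈ (s.erase c).erase c', A c i * A c' i = 0 := by
    refine (Finset.sum_eq_zero_iff_of_nonneg fun i hi => ?_).mp h8
    rcases h6 i hi with e | e <;> rcases h6' i hi with e' | e' <;>
      rw [e, e'] <;> norm_num
  have h10 : ∀ i ∈ (s.erase c).erase c', 1 + A c i + A c' i ≤ A i i := by
    intro i hi
    have his := hmem i hi
    have hic' : i ≠ c' := Finset.ne_of_mem_erase hi
    have hic : i ≠ c := Finset.ne_of_mem_erase (Finset.mem_of_mem_erase hi)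
    have hp := h.pos his
    have hz := h9 i hi
    by_cases hs0 : A c i + A c' i = 0
    · omega
    have hs1 : A c i + A c' i = 1 := by
      rcases h6 i hi with e | e <;> rcases h6' i hi with e' | e' <;>
        rw [e, e'] at hz hs0 ⊢ <;> omega
    by_contra hlt
    have hAi : A i i = 1 := by omega
    have e1 := h.sq_row his
    have e2 := h.Ad i his
    have hci : c ∈ s.erase i := Finset.mem_erase.mpr ⟨hic.symm, hc⟩
    have hci' : c' ∈ (s.erase i).erase c :=
      Finset.mem_erase.mpr ⟨hne.symm, Finset.mem_erase.mpr ⟨hic'.symm, hc'⟩⟩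
    rw [← Finset.add_sum_erase s _ his, ← Finset.add_sum_erase _ _ hci,
      ← Finset.add_sum_erase _ _ hci'] at e1 e2
    rw [hAi, h.As i his c hc, h.As i his c' hc'] at e1 e2
    rw [hdc, hdc', hd1 i hi] at e2
    have e3 : ∑ j ∈ ((s.erase i).erase c).erase c', A i j * d j =
        ∑ j ∈ ((s.erase i).erase c).erase c', A i j :=
      Finset.sum_congr rfl fun j hj => by
        simp only [Finset.mem_erase] at hj
        rw [hd1 j (by simp only [Finset.mem_erase]; tauto), mul_one]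
    rw [e3] at e2
    have e4 := parity (t := ((s.erase i).erase c).erase c') (fun j => A i j)
    have hsq : A c i ^ 2 + A c' i ^ 2 = 1 := by
      rcases h6 i hi with e | e <;> rcases h6' i hi with e' | e' <;>
        rw [e, e'] at hs1 ⊢ <;> omega
    omega
  have h11 := Finset.sum_le_sum h10
  rw [Finset.sum_add_distrib, Finset.sum_add_distrib] at h11
  linarith

theorem Dat.two_case_w (h : Dat s A B d o) {c c' : ι} (hc : c ∈ s) (hc' : c' ∈ s) (hne : c ≠ c')
    (hdc : d c = 2) (hdc' : d c' = 2) (hd1 : ∀ i ∈ (s.erase c).erase c', d i = 1) :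
    A c c' = 0 ∨ (A c c' = 2 ∧ ∀ i ∈ (s.erase c).erase c', A c i = 0) := by
  have hcc := h.eq_two hc hdc
  have hc'm : c' ∈ s.erase c := Finset.mem_erase.mpr ⟨hne.symm, hc'⟩
  have h1 := h.sq_row hc
  have h2 := h.Ad c hc
  rw [← Finset.add_sum_erase s _ hc, ← Finset.add_sum_erase _ _ hc'm] at h1 h2
  rw [hcc] at h1 h2
  rw [hdc, hdc'] at h2
  have h5 : ∑ i ∈ (s.erase c).erase c', A c i * d i = ∑ i ∈ (s.erase c).erase c', A c i :=
    Finset.sum_congr rfl fun i hi => by rw [hd1 i hi, mul_one]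
  rw [h5] at h2
  have h3 := parity (t := (s.erase c).erase c') (fun j => A c j)
  have h4 : 0 ≤ ∑ i ∈ (s.erase c).erase c', A c i ^ 2 := Finset.sum_nonneg fun i _ => sq_nonneg _
  have h6 : A c c' ^ 2 ≤ 4 := by linarith
  have h7 : A c c' ≤ 2 := by nlinarith
  have h8 : -2 ≤ A c c' := by nlinarith
  generalize hw : A c c' = w at *
  have hz : ∀ (hz : ∑ i ∈ (s.erase c).erase c', A c i ^ 2 = 0), ∀ i ∈ (s.erase c).erase c', A c i = 0 := by
    intro hz i hi
    have := (Finset.sum_eq_zero_iff_of_nonneg (fun j _ => sq_nonneg (A c j))).mp hz i hi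
    exact pow_eq_zero_iff (two_ne_zero) |>.mp this
  interval_cases w
  · exfalso
    have h9 : ∑ i ∈ (s.erase c).erase c', A c i ^ 2 = 0 := by linarith
    have h10 : ∑ i ∈ (s.erase c).erase c', A c i = 0 := Finset.sum_eq_zero (hz h9)
    omega
  · exfalso; omega
  · exact Or.inl rfl
  · exfalso; omega
  · exact Or.inr ⟨rfl, hz (by linarith)⟩

theorem Dat.two_case (h : Dat s A B d o) {c c' : ι} (hc : c ∈ s) (hc' : c' ∈ s) (hne : c ≠ c')
    (hdc : d c = 2) (hdc' : d c' = 2) (hd1 : ∀ i ∈ (s.erase c).erase c', d i = 1) : False := by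
  rcases h.two_case_w hc hc' hne hdc hdc' hd1 with h1 | ⟨h1, h1'⟩
  · exact h.two_case_aux hc hc' hne hdc hdc' hd1 h1
  rcases h.symm.two_case_w hc hc' hne hdc hdc' hd1 with h2 | ⟨h2, h2'⟩
  · exact h.symm.two_case_aux hc hc' hne hdc hdc' hd1 h2
  have hc'm : c' ∈ s.erase c := Finset.mem_erase.mpr ⟨hne.symm, hc'⟩
  have h3 := h.AB c hc c hc
  rw [← Finset.add_sum_erase s _ hc, ← Finset.add_sum_erase _ _ hc'm, h.eq_two hc hdc,
    h.symm.eq_two hc hdc, h1, h.Bs c' hc' c hc, h2, hdc] at h3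
  have h4 : ∑ i ∈ (s.erase c).erase c', A c i * B i c = 0 :=
    Finset.sum_eq_zero fun i hi => by rw [h1' i hi, zero_mul]
  omega

theorem Dat.card_eq (h : Dat s A B d o) (hn : 9 ≤ s.card) : s.card = 16 := by
  have h1 := h.d_le hn
  set T := s.filter (fun i => d i = 2) with hT
  have h2 : ∑ i ∈ s, d i ^ 2 = (s.card : ℤ) + 3 * T.card := by
    have : ∀ i ∈ s, d i ^ 2 = 1 + 3 * (if d i = 2 then 1 else 0) := by
      intro i hi
      rcases h1 i hi with e | e <;> rw [e] <;> norm_num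
    rw [Finset.sum_congr rfl this, Finset.sum_add_distrib, ← Finset.mul_sum, Finset.sum_boole]
    simp [hT]
  rw [h.hd] at h2
  have h3 : T.card ≤ 2 := by
    have : (9 : ℤ) ≤ s.card := by exact_mod_cast hn
    have : (T.card : ℤ) ≤ 2 := by omega
    exact_mod_cast this
  have hTm : ∀ i, i ∈ T ↔ i ∈ s ∧ d i = 2 := fun i => by rw [hT, Finset.mem_filter]
  interval_cases hTc : T.card
  · have : (s.card : ℤ) = 16 := by omega
    exact_mod_cast this
  · exfalso
    obtain ⟨c, hc⟩ := Finset.card_eq_one.mp hTc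
    have hcT := (hTm c).mp (by rw [hc]; exact Finset.mem_singleton_self c)
    refine h.one_case hcT.1 hcT.2 fun i hi => ?_
    rw [Finset.mem_erase] at hi
    rcases h1 i hi.2 with e | e
    · exact e
    · have := (hTm i).mpr ⟨hi.2, e⟩
      rw [hc, Finset.mem_singleton] at this
      exact absurd this hi.1
  · exfalso
    obtain ⟨c, c', hne, hc⟩ := Finset.card_eq_two.mp hTc
    have hcT := (hTm c).mp (by rw [hc]; simp)
    have hcT' := (hTm c').mp (by rw [hc]; simp)
    refine h.two_case hcT.1 hcT'.1 hne hcT.2 hcT'.2 fun i hi => ?_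
    simp only [Finset.mem_erase] at hi
    rcases h1 i hi.2.2 with e | e
    · exact e
    · have := (hTm i).mpr ⟨hi.2.2, e⟩
      rw [hc, Finset.mem_insert, Finset.mem_singleton] at this
      rcases this with e' | e'
      · exact absurd e' hi.2.1
      · exact absurd e' hi.1

/-- The general version: signs are arbitrary. -/
theorem card_eq (A B : ι → ι → ℤ) (d : ι → ℤ) (o : ι)
    (ho : o ∈ s) (As : ∀ i ∈ s, ∀ j ∈ s, A i j = A j i) (Bs : ∀ i ∈ s, ∀ j ∈ s, B i j = B j i)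
    (A2 : ∀ i ∈ s, ∀ j ∈ s, ∑ k ∈ s, A i k * A k j = 4 * A i j)
    (B2 : ∀ i ∈ s, ∀ j ∈ s, ∑ k ∈ s, B i k * B k j = 4 * B i j)
    (AB : ∀ i ∈ s, ∀ j ∈ s, ∑ k ∈ s, A i k * B k j = d i * d j)
    (Ad : ∀ i ∈ s, ∑ k ∈ s, A i k * d k = 4 * d i)
    (Bd : ∀ i ∈ s, ∑ k ∈ s, B i k * d k = 4 * d i)
    (hd : ∑ i ∈ s, d i ^ 2 = 16) (d0 : ∀ i ∈ s, d i ≠ 0) (hdo : d o = 1)
    (posA : ∀ i ∈ s, d i ^ 2 ≤ 4 * A i i) (posB : ∀ i ∈ s, d i ^ 2 ≤ 4 * B i i)
    (lt : ∀ i ∈ s, 4 * A i i + 4 * B i i < 16 + d i ^ 2)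
    (tA : ∑ i ∈ s, A i i = 16) (tB : ∑ i ∈ s, B i i = 16) (hn : 9 ≤ s.card) : s.card = 16 := by
  have hs1 : ∀ i ∈ s, (d i).sign * (d i).sign = 1 := by
    intro i hi
    rcases lt_or_gt_of_ne (d0 i hi) with h | h
    · rw [Int.sign_eq_neg_one_of_neg h]; norm_num
    · rw [Int.sign_eq_one_of_pos h]; norm_num
  have hs2 : ∀ i, (d i).sign * d i = |d i| := fun i => Int.sign_mul_self_eq_abs _
  have hs3 : ∀ i, (d i).sign * |d i| = d i := fun i => Int.sign_mul_abs _
  have key : Dat s (fun i j => (d i).sign * (d j).sign * A i j)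
      (fun i j => (d i).sign * (d j).sign * B i j) (fun i => |d i|) o := by
    have hA2 : ∀ (A B : ι → ι → ℤ), ∀ i ∈ s, ∀ j ∈ s,
        ∑ k ∈ s, (d i).sign * (d k).sign * A i k * ((d k).sign * (d j).sign * B k j) =
          (d i).sign * (d j).sign * ∑ k ∈ s, A i k * B k j := by
      intro A B i hi j hj
      rw [Finset.mul_sum]
      refine Finset.sum_congr rfl fun k hk => ?_
      calc (d i).sign * (d k).sign * A i k * ((d k).sign * (d j).sign * B k j) =
          ((d k).sign * (d k).sign) * ((d i).sign * (d j).sign * (A i k * B k j)) := by ring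
        _ = _ := by rw [hs1 k hk, one_mul]
    have hAd : ∀ (A : ι → ι → ℤ), ∀ i ∈ s, ∑ k ∈ s, (d i).sign * (d k).sign * A i k * |d k| =
        (d i).sign * ∑ k ∈ s, A i k * d k := by
      intro A i hi
      rw [Finset.mul_sum]
      refine Finset.sum_congr rfl fun k hk => ?_
      calc (d i).sign * (d k).sign * A i k * |d k| = (d i).sign * (A i k * ((d k).sign * |d k|)) := by ring
        _ = _ := by rw [hs3]
    have hdiag : ∀ (A : ι → ι → ℤ), ∀ i ∈ s, (d i).sign * (d i).sign * A i i = A i i := by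
      intro A i hi; rw [hs1 i hi, one_mul]
    exact
    { ho := ho
      As := fun i hi j hj => by rw [As i hi j hj]; ring
      Bs := fun i hi j hj => by rw [Bs i hi j hj]; ring
      A2 := fun i hi j hj => by rw [hA2 A A i hi j hj, A2 i hi j hj]; ring
      B2 := fun i hi j hj => by rw [hA2 B B i hi j hj, B2 i hi j hj]; ring
      AB := fun i hi j hj => by
        rw [hA2 A B i hi j hj, AB i hi j hj, ← hs2 i, ← hs2 j]; ring
      Ad := fun i hi => by rw [hAd A i hi, Ad i hi, ← hs2 i]; ring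
      Bd := fun i hi => by rw [hAd B i hi, Bd i hi, ← hs2 i]; ring
      hd := by simp only [sq_abs]; exact hd
      d1 := fun i hi => Int.one_le_abs (d0 i hi)
      do1 := by rw [hdo]; rfl
      posA := fun i hi => by simp only [sq_abs]; rw [hdiag A i hi]; exact posA i hi
      posB := fun i hi => by simp only [sq_abs]; rw [hdiag B i hi]; exact posB i hi
      lt := fun i hi => by simp only [sq_abs]; rw [hdiag A i hi, hdiag B i hi]; exact lt i hi
      tA := by rw [Finset.sum_congr rfl (hdiag A)]; exact tA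
      tB := by rw [Finset.sum_congr rfl (hdiag B)]; exact tB }
  exact key.card_eq hn

end Cfsg.Agent.Lib.H52E16a
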