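import Cfsg.Agent.Lib.PrincPairs
import Cfsg.Agent.Lib.BlockCore
import Cfsg.Agent.Lib.BlockOsima
import Cfsg.Agent.Lib.BlockPair
import Cfsg.Agent.Lib.Transfer
import Cfsg.Agent.Lib.PNilp
import Cfsg.Agent.Lib.CharValues
import Cfsg.Agent.Lib.DefectZero
import Cfsg.Prelude.Def_BlockRank

/-!
# The principal block is nilpotent iff `G` is `p`-nilpotent iff its rank is one
-/

set_option autoImplicit false
set_option linter.all false
set_option synthInstance.maxHeartbeats 400000

namespace Cfsg.Agent.Lib.PrincNilp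

open Cfsg Cfsg.Agent.Lib.BlockRing Cfsg.Agent.Lib.BlockGA Cfsg.Agent.Lib.BlockIdem
open Cfsg.Agent.Lib.BlkIdem Cfsg.Agent.Lib.BlockAlg Cfsg.Agent.Lib.PairAlg Cfsg.Agent.Lib.PairMax
open Cfsg.Agent.Lib.BrauerPairs Cfsg.Agent.Lib.NormalPBlk Cfsg.Agent.Lib.DefPairs
open Cfsg.Agent.Lib.BlockThird Cfsg.Agent.Lib.PrincPairs
open scoped ComplexConjugate

universe u

variable {p : ℕ} [hp : Fact p.Prime] {M : Ideal AlgInt} {G : Type u} [Group G] [Finite G]

theorem coprime_iff {g : G} : Nat.Coprime (orderOf g) p ↔ ¬ p ∣ orderOf g := by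
  rw [Nat.coprime_comm]
  exact Nat.Prime.coprime_iff_not_dvd hp.out

/-- the principal block of a normal subgroup is stable -/
theorem stabilizes_principal [hMm : M.IsMaximal] {K : Subgroup G} {x : G}
    (hx : x ∈ Subgroup.normalizer (K : Set G)) : StabilizesBlock K (principalBlock M K) x := by
  have h0 : IsPBlock M (principalBlock M K) := isPBlock_principal
  rw [stabilizesBlock_iff hx h0, ← bid_irrMap x (normalizer_iff hx)]
  congr 1
  rw [principal_iff_aug (isPBlock_irrMap _ h0), bid_irrMap, aug_cj]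
  exact (principal_iff_aug h0).mp rfl

theorem nilpotent_principal_iff (hM : IsPModular p M) :
    IsNilpotentBlock p M (principalBlock M G) ↔ HasNormalPComplement p G := by
  have hMm : M.IsMaximal := hM.2.1
  have hch : CharP (Kf M) p := charP_Kf hM
  rw [Transfer.hasNormalPComplement_iff_forall_centralizer]
  constructor
  · rintro ⟨_, h⟩ Q hQ g hg hgo
    have h0 : IsPBlock M (principalBlock M (Subgroup.centralizer (Q : Set G))) := isPBlock_principal
    have h1 : IsBrauerPairOf p M (principalBlock M G) Q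
        (principalBlock M (Subgroup.centralizer (Q : Set G))) :=
      isBrauerPairOf_iff.mpr ⟨⟨hQ, h0⟩, isPBlock_principal, (third_main hQ h0).mpr rfl⟩
    exact h Q _ h1 g hg (stabilizes_principal (normalizer_le_normalizer_centralizer Q hg))
      (coprime_iff.mp hgo)
  · intro h
    refine ⟨isPBlock_principal, ?_⟩
    intro Q e hQe x hx _ hxr
    exact h Q hQe.1.1 x hx (coprime_iff.mpr hxr)

theorem pRegularPart_one_apply (p : ℕ) (x : G) :
    (IsPRegular p x → pRegularPart p (fun _ : G => (1 : ℂ)) x = 1) ∧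
    (¬ IsPRegular p x → pRegularPart p (fun _ : G => (1 : ℂ)) x = 0) := by
  classical
  unfold pRegularPart
  exact ⟨fun h => by rw [if_pos h], fun h => by rw [if_neg h]⟩

omit [Finite G] in
theorem isPRegular_one : IsPRegular p (1 : G) := by
  unfold IsPRegular
  rw [orderOf_one]
  exact fun h => hp.out.one_lt.not_ge (Nat.le_of_dvd one_pos h)

/-- if all members of `B` are constant on `p`-regular elements and `B` is nonempty, the rank is one -/
theorem rank_one_of_const {B : Set (IrrCharacter G)} (hne : B.Nonempty)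
    (h : ∀ χ ∈ B, ∀ x : G, IsPRegular p x → (χ : G → ℂ) x = (χ : G → ℂ) 1) : blockRank p B = 1 := by
  classical
  set w : G → ℂ := pRegularPart p (fun _ : G => (1 : ℂ)) with hw
  have hw1 : w 1 = 1 := (pRegularPart_one_apply p (1 : G)).1 isPRegular_one
  have hw0 : w ≠ 0 := by
    intro h0
    rw [h0] at hw1
    exact zero_ne_one hw1
  have key : ∀ χ ∈ B, pRegularPart p (χ : G → ℂ) = (χ : G → ℂ) 1 • w := by
    intro χ hχ
    funext x
    rw [Pi.smul_apply, smul_eq_mul, hw]
    unfold pRegularPart
    by_cases hx : IsPRegular p x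
    · rw [if_pos hx, if_pos hx, h χ hχ x hx, mul_one]
    · rw [if_neg hx, if_neg hx, mul_zero]
  have hspan : Submodule.span ℂ ((fun χ : IrrCharacter G => pRegularPart p (χ : G → ℂ)) '' B) =
      Submodule.span ℂ {w} := by
    apply le_antisymm
    · rw [Submodule.span_le]
      rintro _ ⟨χ, hχ, rfl⟩
      simp only [SetLike.mem_coe]
      rw [key χ hχ]
      exact Submodule.smul_mem _ _ (Submodule.mem_span_singleton_self w)
    · rw [Submodule.span_singleton_le_iff_mem]
      obtain ⟨χ, hχ⟩ := hne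
      have h1 : w = ((χ : G → ℂ) 1)⁻¹ • pRegularPart p (χ : G → ℂ) := by
        rw [key χ hχ, smul_smul, inv_mul_cancel₀ χ.2.one_ne_zero, one_smul]
      rw [h1]
      exact Submodule.smul_mem _ _ (Submodule.subset_span ⟨χ, hχ, rfl⟩)
  unfold blockRank
  rw [hspan]
  exact finrank_span_singleton hw0

theorem blockRank_principal_iff (hM : IsPModular p M) :
    blockRank p (principalBlock M G) = 1 ↔ HasNormalPComplement p G := by
  classical
  have hMp := isPrime hM
  have := Fintype.ofFinite G
  constructor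
  · intro h
    rw [PNilp.hasNormalPComplement_iff_pResidual]
    set w : G → ℂ := pRegularPart p (fun _ : G => (1 : ℂ)) with hw
    have hw1 : w 1 = 1 := (pRegularPart_one_apply p (1 : G)).1 isPRegular_one
    have hw0 : w ≠ 0 := by
      intro h0
      rw [h0] at hw1
      exact zero_ne_one hw1
    set S := Submodule.span ℂ ((fun χ : IrrCharacter G => pRegularPart p (χ : G → ℂ)) ''
      (principalBlock M G)) with hS
    have hwS : w ∈ S := Submodule.subset_span ⟨triv G, triv_mem, rfl⟩
    have hfin : Module.finrank ℂ S = 1 := h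
    have key : ∀ χ ∈ principalBlock M G, ∀ x : G, ¬ p ∣ orderOf x →
        (χ : G → ℂ) x = (χ : G → ℂ) 1 := by
      intro χ hχ x hx
      have hχS : pRegularPart p (χ : G → ℂ) ∈ S := Submodule.subset_span ⟨χ, hχ, rfl⟩
      obtain ⟨c, hc⟩ := (finrank_eq_one_iff_of_nonzero' (⟨w, hwS⟩ : S)
        (fun h0 => hw0 (congrArg Subtype.val h0))).mp hfin ⟨_, hχS⟩
      have hc' : c • w = pRegularPart p (χ : G → ℂ) := congrArg Subtype.val hc
      have e1 := congrFun hc' 1
      have e2 := congrFun hc' x
      rw [Pi.smul_apply, hw1, smul_eq_mul, mul_one] at e1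
      rw [Pi.smul_apply, hw, (pRegularPart_one_apply p x).1 hx, smul_eq_mul, mul_one] at e2
      unfold pRegularPart at e1 e2
      rw [if_pos isPRegular_one] at e1
      rw [if_pos (show IsPRegular p x from hx)] at e2
      rw [← e1, ← e2]
    have key2 : ∀ χ ∈ principalBlock M G, ∀ x ∈ pResidual p G, (χ : G → ℂ) x = (χ : G → ℂ) 1 := by
      intro χ hχ
      obtain ⟨n, ρ, hρ⟩ := χ.2.isCharacter
      have h1 : ∀ x : G, (χ : G → ℂ) x = (χ : G → ℂ) 1 ↔ x ∈ MonoidHom.ker (ρ : G →* _) := by
        intro x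
        rw [MonoidHom.mem_ker, ← hρ, Representation.char_one]
        exact CharValues.character_eq_finrank_iff ρ x
      have h2 : pResidual p G ≤ MonoidHom.ker (ρ : G →* _) := by
        unfold pResidual
        rw [Subgroup.closure_le]
        intro x hx
        exact (h1 x).mp (key χ hχ x (coprime_iff.mp hx))
      intro x hx
      exact (h1 x).mpr (h2 hx)
    intro hdvd
    obtain ⟨u, hu⟩ := exists_prime_orderOf_dvd_card' p hdvd
    have hu' : orderOf (u : G) = p := by rw [Subgroup.orderOf_coe, hu]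
    have h3 := BlockOsima.weak_orthogonality hM (isPBlock_principal (M := M) (G := G))
      (x := 1) (y := (u : G)) isPRegular_one (by rw [hu'])
    rw [finsum_mem_eq_finite_toFinset_sum _ (Set.toFinite _)] at h3
    have h4 : ∀ χ ∈ (Set.toFinite (principalBlock M G)).toFinset,
        (χ : G → ℂ) 1 * conj ((χ : G → ℂ) (u : G)) =
          ((charDegree (χ : G → ℂ) ^ 2 : ℕ) : ℂ) := by
      intro χ hχ
      rw [key2 χ ((Set.Finite.mem_toFinset _).mp hχ) u u.2, ← DefectZero.charDegree_eq χ.2.isCharacter]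
      rw [Complex.conj_natCast]
      push_cast
      ring
    rw [Finset.sum_congr rfl h4, ← Nat.cast_sum] at h3
    have h5 : ∑ χ ∈ (Set.toFinite (principalBlock M G)).toFinset, charDegree (χ : G → ℂ) ^ 2 = 0 := by
      exact_mod_cast h3
    rw [Finset.sum_eq_zero_iff] at h5
    have h6 := h5 (triv G) ((Set.Finite.mem_toFinset _).mpr triv_mem)
    have h7 := DefectZero.charDegree_pos (triv G).2
    exact absurd h6 (pow_ne_zero 2 h7.ne')
  · intro h
    obtain ⟨N, hN, h1, k, hk⟩ := PNilp.hasNormalPComplement_iff.mp h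
    apply rank_one_of_const ⟨triv G, triv_mem⟩
    intro χ hχ x hx
    apply BlockCore.ker_of_principal hM h1 hχ
    -- `x ∈ N`
    have h2 : (QuotientGroup.mk x : G ⧸ N) ^ (p ^ k) = 1 := by
      rw [← hk]
      exact Subgroup.pow_index_mem N x |> fun h => by
        rw [← QuotientGroup.mk_pow]; exact (QuotientGroup.eq_one_iff _).mpr h
    have h3 : (QuotientGroup.mk x : G ⧸ N) ^ orderOf x = 1 := by
      rw [← QuotientGroup.mk_pow, pow_orderOf_eq_one]; rfl
    have h4 : Nat.Coprime (p ^ k) (orderOf x) :=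
      Nat.Coprime.pow_left _ ((Nat.Prime.coprime_iff_not_dvd hp.out).mpr hx)
    have h5 : orderOf (QuotientGroup.mk x : G ⧸ N) = 1 := by
      apply Nat.eq_one_of_dvd_coprimes h4 (orderOf_dvd_of_pow_eq_one h2) (orderOf_dvd_of_pow_eq_one h3)
    rw [orderOf_eq_one_iff] at h5
    exact (QuotientGroup.eq_one_iff x).mp h5

end Cfsg.Agent.Lib.PrincNilp
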