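import Mathlib
import Cfsg.Agent.Lib.H52E16a
import Cfsg.Agent.Lib.H52E16e
import Cfsg.Agent.Lib.PrincNilp

/-!
# Elementary abelian Sylow 2-subgroups of order 16, automizer of order 9 (helper52)
-/

set_option autoImplicit false

open Subgroup

namespace Cfsg.Agent.Lib.H52E16f

open Cfsg Cfsg.Agent.Lib.BlockRing Cfsg.Agent.Lib.BlockThird Cfsg.Agent.Lib.PPart
open Cfsg.Agent.Lib.H25BpF (pp pq pp_eq pp_conj pp_order pp_comm pq_order pp_mul_pq)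
open Cfsg.Agent.Lib.Subsec (Cz mem_Cz)
open Cfsg.Agent.Lib.H52E16b Cfsg.Agent.Lib.H52E16c Cfsg.Agent.Lib.H52E16d Cfsg.Agent.Lib.H52E16e
open Cfsg.Agent.Lib.H52Dih5
open scoped ComplexConjugate Classical

universe u

variable {G : Type u} [Group G] [Finite G] {M : Ideal AlgInt}

/-- the local structure -/
structure E16 (P V W : Subgroup G) : Prop where
  le : V ≤ P
  cV : Nat.card V = 4
  inv : ∀ n ∈ normalizer (P : Set G), ∀ v ∈ V, n * v * n⁻¹ ∈ V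
  tr : ∀ v ∈ V, v ≠ 1 → ∀ v' ∈ V, v' ≠ 1 → ∃ n ∈ normalizer (P : Set G), n * v * n⁻¹ = v'
  fix : ∀ v ∈ V, v ≠ 1 → ∀ n ∈ normalizer (P : Set G), n * v * n⁻¹ = v → ∀ v' ∈ V, n * v' * n⁻¹ = v'
  tr2 : ∀ v ∈ V, v ≠ 1 → ∀ w ∈ W, w ≠ 1 → ∀ w' ∈ W, w' ≠ 1 →
    ∃ n ∈ normalizer (P : Set G), n * v * n⁻¹ = v ∧ n * w * n⁻¹ = w'

theorem e16_of_str {P : Subgroup G} {V W : Subgroup P} (h : Str P.normalizerMonoidHom.range V W) :
    E16 P (V.map P.subtype) (W.map P.subtype) := by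
  have hsm : ∀ (n : normalizer (P : Set G)) (x : P),
      (((⟨P.normalizerMonoidHom n, ⟨n, rfl⟩⟩ : P.normalizerMonoidHom.range) • x : P) : G) = n * x * (n : G)⁻¹ :=
    fun n x => rfl
  have hA : ∀ a : P.normalizerMonoidHom.range, ∃ n : normalizer (P : Set G),
      a = ⟨P.normalizerMonoidHom n, ⟨n, rfl⟩⟩ := by
    rintro ⟨_, n, rfl⟩
    exact ⟨n, rfl⟩
  refine ⟨?_, ?_, ?_, ?_, ?_, ?_⟩
  · rintro _ ⟨v, -, rfl⟩
    exact v.2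
  · rw [Subgroup.card_map_of_injective P.subtype_injective]
    exact h.cV
  · rintro n hn _ ⟨v, hv, rfl⟩
    exact ⟨_, h.inv ⟨P.normalizerMonoidHom ⟨n, hn⟩, ⟨⟨n, hn⟩, rfl⟩⟩ v hv, rfl⟩
  · rintro _ ⟨v, hv, rfl⟩ hv1 _ ⟨v', hv', rfl⟩ hv1'
    obtain ⟨a, ha⟩ := h.tr v hv (fun e => hv1 (by rw [e]; rfl)) v' hv' (fun e => hv1' (by rw [e]; rfl))
    obtain ⟨n, rfl⟩ := hA a
    exact ⟨n, n.2, congrArg Subtype.val ha⟩
  · rintro _ ⟨v, hv, rfl⟩ hv1 n hn hnv _ ⟨v', hv', rfl⟩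
    exact congrArg Subtype.val (h.fix v hv (fun e => hv1 (by rw [e]; rfl))
      ⟨P.normalizerMonoidHom ⟨n, hn⟩, ⟨⟨n, hn⟩, rfl⟩⟩ (Subtype.ext hnv) v' hv')
  · rintro _ ⟨v, hv, rfl⟩ hv1 _ ⟨w, hw, rfl⟩ hw1 _ ⟨w', hw', rfl⟩ hw1'
    obtain ⟨a, ha, ha'⟩ := h.tr2 v hv (fun e => hv1 (by rw [e]; rfl)) w hw (fun e => hw1 (by rw [e]; rfl))
      w' hw' (fun e => hw1' (by rw [e]; rfl))
    obtain ⟨n, rfl⟩ := hA a
    exact ⟨n, n.2, congrArg Subtype.val ha, congrArg Subtype.val ha'⟩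

theorem exists_E16 (P : Subgroup G) (hcP : Nat.card P = 16)
    (he : (centralizer (P : Set G)).relIndex (normalizer (P : Set G)) = 9) :
    ∃ V W : Subgroup G, E16 P V W ∧ E16 P W V ∧ V ⊓ W = ⊥ ∧
      (∀ x ∈ P, ∀ y ∈ P, x ∉ V → x ∉ W → y ∉ V → y ∉ W → ∃ n ∈ normalizer (P : Set G), n * x * n⁻¹ = y) ∧
      (∀ x ∈ P, x ∉ V → x ∉ W → ∀ n ∈ normalizer (P : Set G), n * x * n⁻¹ = x → ∀ y ∈ P, n * y * n⁻¹ = y) ∧
      ∃ x ∈ P, x ∉ V ∧ x ∉ W := by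
  have hA : Nat.card P.normalizerMonoidHom.range = 9 := by
    rw [← he, Subgroup.relIndex, ← Subgroup.normalizerMonoidHom_ker, Subgroup.index_ker]
  have hf : ∀ a : P.normalizerMonoidHom.range, (∀ x : P, a • x = x) → a = 1 := by
    intro a ha
    apply Subtype.ext
    ext x
    exact congrArg Subtype.val (ha x)
  obtain ⟨V, W, h1, h2, h3, h4, h5, x, hx, hx'⟩ := exists_str hA hcP hf
  have hmem : ∀ (U : Subgroup P) (x : P), (x : G) ∈ U.map P.subtype ↔ x ∈ U := by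
    intro U x
    constructor
    · rintro ⟨y, hy, hyx⟩
      have : y = x := Subtype.ext hyx
      rw [← this]; exact hy
    · intro hx
      exact ⟨x, hx, rfl⟩
  refine ⟨V.map P.subtype, W.map P.subtype, e16_of_str h1, e16_of_str h2, ?_, ?_, ?_, ?_⟩
  · rw [← Subgroup.map_inf _ _ _ P.subtype_injective, h3, Subgroup.map_bot]
  · intro x hx y hy hxV hxW hyV hyW
    obtain ⟨a, ha⟩ := h4 ⟨x, hx⟩ ⟨y, hy⟩ (fun h => hxV ((hmem V ⟨x, hx⟩).mpr h))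
      (fun h => hxW ((hmem W ⟨x, hx⟩).mpr h)) (fun h => hyV ((hmem V ⟨y, hy⟩).mpr h))
      (fun h => hyW ((hmem W ⟨y, hy⟩).mpr h))
    obtain ⟨_, n, rfl⟩ := a
    exact ⟨n, n.2, congrArg Subtype.val ha⟩
  · intro x hx hxV hxW n hn hnx y hy
    have h6 := h5 ⟨x, hx⟩ (fun h => hxV ((hmem V ⟨x, hx⟩).mpr h)) (fun h => hxW ((hmem W ⟨x, hx⟩).mpr h))
      ⟨P.normalizerMonoidHom ⟨n, hn⟩, ⟨⟨n, hn⟩, rfl⟩⟩ (Subtype.ext hnx)
    have h7 : (⟨P.normalizerMonoidHom ⟨n, hn⟩, ⟨⟨n, hn⟩, rfl⟩⟩ : P.normalizerMonoidHom.range) •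
        (⟨y, hy⟩ : P) = ⟨y, hy⟩ := by rw [h6, one_smul]
    exact congrArg Subtype.val h7
  · exact ⟨x, x.2, fun h => hx ((hmem V x).mp h), fun h => hx' ((hmem W x).mp h)⟩

end Cfsg.Agent.Lib.H52E16f
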