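import Mathlib
import Cfsg.Agent.Lib.H52E16f

/-!
# Elementary abelian Sylow 2-subgroups of order 16, automizer of order 9, II (helper52)
-/

set_option autoImplicit false

open Subgroup

namespace Cfsg.Agent.Lib.H52E16g

open Cfsg Cfsg.Agent.Lib.BlockRing Cfsg.Agent.Lib.BlockThird Cfsg.Agent.Lib.PPart
open Cfsg.Agent.Lib.H25BpF (pp pq pp_eq pp_conj pp_order pp_comm pq_order pp_mul_pq)
open Cfsg.Agent.Lib.Subsec (Cz mem_Cz)
open Cfsg.Agent.Lib.H52E16b Cfsg.Agent.Lib.H52E16d Cfsg.Agent.Lib.H52E16e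
open Cfsg.Agent.Lib.H52E16f
open Cfsg.Agent.Lib.H52Dih5
open scoped ComplexConjugate Classical

universe u

variable {G : Type u} [Group G] [Finite G] {M : Ideal AlgInt}

theorem mem_normalizer_sub {p : ℕ} [Fact p.Prime] (P : Sylow p G) {H : Subgroup G}
    (hPH : (P : Subgroup G) ≤ H) (y : H) :
    y ∈ normalizer ((P.subtype hPH : Subgroup H) : Set H) ↔ (y : G) ∈ normalizer ((P : Subgroup G) : Set G) := by
  have hm : ∀ z : H, z ∈ (P.subtype hPH : Subgroup H) ↔ (z : G) ∈ (P : Subgroup G) := by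
    intro z
    rw [Sylow.coe_subtype, mem_subgroupOf]
  rw [Subgroup.mem_normalizer_iff, Subgroup.mem_normalizer_iff]
  constructor
  · intro hy g
    constructor
    · intro hg
      have := (hy ⟨g, hPH hg⟩).1 ((hm _).mpr hg)
      exact (hm _).mp this
    · intro hg
      have hgH : g ∈ H := by
        have : g = (y : G)⁻¹ * (y * g * (y : G)⁻¹) * y := by group
        rw [this]
        exact H.mul_mem (H.mul_mem (H.inv_mem y.2) (hPH hg)) y.2
      have := (hy ⟨g, hgH⟩).2 ((hm _).mpr hg)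
      exact (hm _).mp this
  · intro hy g
    rw [hm, hm]
    exact hy g

/-- rank of the centralizer of an element of `V` -/
theorem rank_V (hM : IsPModular 2 M) (P : Sylow 2 G) (hel : ∀ x ∈ (P : Subgroup G), x * x = 1)
    (hcP : Nat.card P = 16) {V W : Subgroup G} (h : E16 (P : Subgroup G) V W)
    (h' : E16 (P : Subgroup G) W V) (hinf : V ⊓ W = ⊥) {v : G} (hv : v ∈ V) (hv1 : v ≠ 1) :
    blockRank 2 (principalBlock M (Cz v)) = 3 := by
  haveI : Fact (Nat.Prime 2) := ⟨Nat.prime_two⟩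
  have hinv : ∀ x ∈ (P : Subgroup G), x⁻¹ = x := fun x hx => inv_eq_of_mul_eq_one_left (hel x hx)
  have hab : ∀ a ∈ (P : Subgroup G), ∀ b ∈ (P : Subgroup G), a * b = b * a := by
    intro a ha b hb
    have h1 := hinv _ (mul_mem ha hb)
    rw [mul_inv_rev, hinv a ha, hinv b hb] at h1
    exact h1.symm
  have hPH : (P : Subgroup G) ≤ Cz v := fun y hy => by
    rw [mem_Cz]; exact hab v (h.le hv) y hy
  have hm : ∀ z : Cz v, z ∈ (P.subtype hPH : Subgroup (Cz v)) ↔ (z : G) ∈ (P : Subgroup G) := by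
    intro z
    rw [Sylow.coe_subtype, mem_subgroupOf]
  have hcard : ∀ U : Subgroup G, U ≤ (P : Subgroup G) → Nat.card (U.subgroupOf (Cz v)) = Nat.card U :=
    fun U hU => Nat.card_congr (Subgroup.subgroupOfEquivOfLe (hU.trans hPH)).toEquiv
  have hnv : ∀ n : Cz v, (n : G) * v * (n : G)⁻¹ = v := by
    intro n
    have h1 := mem_Cz.mp n.2
    rw [← h1.eq, mul_inv_cancel_right]
  refine rank_three hM (P.subtype hPH) (V := V.subgroupOf (Cz v)) (W := W.subgroupOf (Cz v)) ?_ ?_ ?_ ?_ ?_ ?_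
    ?_ ?_ ?_ ?_
  · intro x hx
    exact Subtype.ext (hel _ ((hm x).mp hx))
  · intro x hx
    exact (hm x).mpr (h.le hx)
  · intro x hx
    exact (hm x).mpr (h'.le hx)
  · rw [hcard V h.le, h.cV]
  · rw [hcard W h'.le, h'.cV]
  · have : Nat.card (P.subtype hPH : Subgroup (Cz v)) = 16 := by
      rw [Sylow.coe_subtype, hcard _ le_rfl]; exact hcP
    exact this
  · rw [Subgroup.eq_bot_iff_forall]
    rintro x ⟨hx, hx'⟩
    have : (x : G) ∈ V ⊓ W := ⟨hx, hx'⟩
    rw [hinf, mem_bot] at this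
    exact Subtype.ext this
  · intro n hn y hy
    rw [mem_normalizer_sub] at hn
    exact Subtype.ext (h.fix v hv hv1 n hn (hnv n) y hy)
  · intro n hn y hy
    rw [mem_normalizer_sub] at hn
    exact h'.inv n hn y hy
  · intro w hw hw1 w' hw' hw1'
    obtain ⟨n, hn, hnv, hnw⟩ := h.tr2 v hv hv1 w hw (fun e => hw1 (Subtype.ext e)) w' hw'
      (fun e => hw1' (Subtype.ext e))
    have hnH : n ∈ Cz v := by
      rw [mem_Cz]
      have : n * v = v * n := by
        conv_rhs => rw [← hnv]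
        group
      exact this.symm
    exact ⟨⟨n, hnH⟩, (mem_normalizer_sub P hPH _).mpr hn, Subtype.ext hnw⟩

/-- not 2-nilpotent -/
theorem not_nilpotent {p : ℕ} [Fact p.Prime] (P : Sylow p G)
    (hab : ∀ a ∈ (P : Subgroup G), ∀ b ∈ (P : Subgroup G), a * b = b * a)
    (h : HasNormalPComplement p G) {n x : G} (hn : n ∈ normalizer ((P : Subgroup G) : Set G))
    (hx : x ∈ (P : Subgroup G)) : n * x * n⁻¹ = x := by
  obtain ⟨Q, N, hN, hc⟩ := h
  haveI := hN
  -- `Q` is commutative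
  obtain ⟨c, hcQ⟩ := MulAction.exists_smul_eq G Q P
  have hQ : ∀ a ∈ (Q : Subgroup G), c * a * c⁻¹ ∈ (P : Subgroup G) := by
    intro a ha
    rw [← hcQ, Sylow.coe_subgroup_smul, Subgroup.mem_pointwise_smul_iff_inv_smul_mem]
    simp only [← map_inv, MulAut.smul_def, MulAut.conj_apply, inv_inv]
    have h1 : c⁻¹ * (c * a * c⁻¹) * c = a := by group
    rw [h1]; exact ha
  have hQc : ∀ a ∈ (Q : Subgroup G), ∀ b ∈ (Q : Subgroup G), a * b = b * a := by
    intro a ha b hb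
    have h1 := hab _ (hQ a ha) _ (hQ b hb)
    have h2 : c * (a * b) * c⁻¹ = c * (b * a) * c⁻¹ := by
      calc c * (a * b) * c⁻¹ = (c * a * c⁻¹) * (c * b * c⁻¹) := by group
        _ = (c * b * c⁻¹) * (c * a * c⁻¹) := h1
        _ = _ := by group
    exact mul_left_cancel (mul_right_cancel h2)
  have hGN : ∀ a b : G ⧸ N, a * b = b * a := by
    have hs : ∀ a : G ⧸ N, ∃ q ∈ (Q : Subgroup G), (q : G ⧸ N) = a := by
      intro a
      obtain ⟨g, rfl⟩ := QuotientGroup.mk_surjective a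
      obtain ⟨⟨⟨m, hm⟩, ⟨q, hq⟩⟩, hmq⟩ := hc.2 g
      refine ⟨q, hq, ?_⟩
      rw [← hmq]
      have h1 : ((m * q : G) : G ⧸ N) = (m : G ⧸ N) * (q : G ⧸ N) := rfl
      have h2 : (m : G ⧸ N) = 1 := (QuotientGroup.eq_one_iff m).mpr hm
      show (q : G ⧸ N) = ((m * q : G) : G ⧸ N)
      rw [h1, h2, one_mul]
    intro a b
    obtain ⟨q, hq, rfl⟩ := hs a
    obtain ⟨r, hr, rfl⟩ := hs b
    rw [← QuotientGroup.mk_mul, ← QuotientGroup.mk_mul, hQc q hq r hr]
  have h1 : n * x * n⁻¹ * x⁻¹ ∈ N := by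
    rw [← QuotientGroup.eq_one_iff]
    simp only [QuotientGroup.mk_mul, QuotientGroup.mk_inv]
    rw [hGN (n : G ⧸ N) x, mul_inv_cancel_right, mul_inv_cancel]
  have h2 : n * x * n⁻¹ * x⁻¹ ∈ (P : Subgroup G) :=
    mul_mem ((Subgroup.mem_normalizer_iff.mp hn x).mp hx) (inv_mem hx)
  have h3 : ¬ p ∣ Nat.card N := by
    intro hd
    have h4 := hc.card_mul
    have h5 := (Q : Subgroup G).card_mul_index
    have h6 : (Q : Subgroup G).index = Nat.card N := by
      have h7 : Nat.card (Q : Subgroup G) ≠ 0 := Nat.card_pos.ne'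
      apply Nat.eq_of_mul_eq_mul_left (Nat.pos_of_ne_zero h7)
      rw [h5, ← h4, mul_comm]
    exact Q.not_dvd_index (by rw [h6]; exact hd)
  have h4 : n * x * n⁻¹ * x⁻¹ = 1 := by
    obtain ⟨k, hk⟩ := (IsPGroup.iff_orderOf.mp P.isPGroup') ⟨_, h2⟩
    rw [Subgroup.orderOf_mk] at hk
    have h5 : orderOf (n * x * n⁻¹ * x⁻¹) ∣ Nat.card N := by
      have := orderOf_dvd_natCard (⟨_, h1⟩ : N)
      rwa [Subgroup.orderOf_mk] at this
    rcases Nat.eq_zero_or_pos k with rfl | hk0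
    · rwa [pow_zero, orderOf_eq_one_iff] at hk
    · exact absurd ((dvd_pow_self p hk0.ne').trans (hk ▸ h5)) h3
  exact mul_inv_eq_one.mp h4

section main

variable [Fintype G] (hM : IsPModular 2 M) (P : Sylow 2 G)

theorem pp_self [Fact (Nat.Prime 2)] {y : G} (hy : y ∈ (P : Subgroup G)) : pp 2 y = y := by
  obtain ⟨k, hk⟩ := (IsPGroup.iff_orderOf.mp P.isPGroup') ⟨y, hy⟩
  rw [Subgroup.orderOf_mk] at hk
  exact (pp_eq (mul_one y) (Commute.one_right y) ⟨k, hk⟩ (by rw [orderOf_one]; norm_num)).1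

theorem FU_val [Fact (Nat.Prime 2)] (hab : ∀ a ∈ (P : Subgroup G), ∀ b ∈ (P : Subgroup G), a * b = b * a)
    {U : Subgroup G} (hU : U ≤ P)
    (hinv : ∀ n ∈ normalizer ((P : Subgroup G) : Set G), ∀ v ∈ U, n * v * n⁻¹ ∈ U) {y : G}
    (hy : y ∈ (P : Subgroup G)) : FU 2 (P : Subgroup G) U y = if y ∈ U then 0 else
      ((U.relIndex (P : Subgroup G) : ℕ) : ℂ) := by
  unfold FU
  rw [pp_self P hy]
  have : (∃ z ∈ U, IsConj y z) ↔ y ∈ U := by
    constructor
    · rintro ⟨z, hz, hc⟩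
      obtain ⟨n, hn, hn'⟩ := mem_of_conj P hab (hU hz) hy hc.symm
      rw [← hn']; exact hinv n hn z hz
    · intro h
      exact ⟨y, h, IsConj.refl y⟩
  simp only [this]

include hM

/-- values on the section of `x` with nilpotent centralizer -/
theorem const_section [Fact (Nat.Prime 2)] {x : G} {k : ℕ} (hx : orderOf x = 2 ^ k) {N : Subgroup (Cz x)} (hN : N.Normal)
    (hodd : ¬ 2 ∣ Nat.card N) {j : ℕ} (hj : N.index = 2 ^ j) {g : G} (hg : IsConj (pp 2 g) x)
    {χ : IrrCharacter G} (hχ : χ ∈ PB M G) : (χ : G → ℂ) g = (χ : G → ℂ) x := by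
  obtain ⟨c, hc⟩ := isConj_iff.mp hg
  have h1 : (χ : G → ℂ) g = (χ : G → ℂ) (c * g * c⁻¹) := (χ.2.isClassFunction g c).symm
  have h2 : c * g * c⁻¹ = x * (c * pq 2 g * c⁻¹) := by
    conv_lhs => rw [← pp_mul_pq 2 g]
    rw [← hc]; group
  have h3 : Commute x (c * pq 2 g * c⁻¹) := by
    rw [← hc]
    have := (pp_comm 2 g).map (MulAut.conj c).toMonoidHom
    simpa using this
  have h4 : ¬ 2 ∣ orderOf (c * pq 2 g * c⁻¹) := by
    rw [BlockThird.orderOf_conj]; exact pq_order 2 g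
  have h5 : (⟨c * pq 2 g * c⁻¹, mem_Cz.mpr h3⟩ : Cz x) ∈ N := by
    apply BlockCore.mem_of_regular Nat.prime_two hj
    rwa [← Subgroup.orderOf_coe]
  have h6 := BlockSection.eq_of_mem_core hM hx (H := Cz x) (fun g => mem_Cz) hodd h5
    (mem_PB.mp hχ)
  rw [h1, h2]
  exact h6

end main

theorem cF_add [Fintype G] (F F' : G → ℂ) (χ ψ : IrrCharacter G) :
    cF (fun g => F g + F' g) χ ψ = cF F χ ψ + cF F' χ ψ := by
  unfold cF
  simp only [CharBasic.classInner_def]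
  rw [← mul_add, ← Finset.sum_add_distrib]
  congr 1
  exact Finset.sum_congr rfl fun g _ => by ring

theorem cF_smul [Fintype G] (c : ℂ) (F : G → ℂ) (χ ψ : IrrCharacter G) :
    cF (fun g => c * F g) χ ψ = c * cF F χ ψ := by
  unfold cF
  simp only [CharBasic.classInner_def]
  rw [mul_left_comm, Finset.mul_sum (a := c)]
  congr 1
  exact Finset.sum_congr rfl fun g _ => by ring

theorem cF_one [Fintype G] (χ ψ : IrrCharacter G) :
    cF (fun _ => 1) χ ψ = if χ = ψ then 1 else 0 := by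
  unfold cF
  simp only [one_mul]
  exact CharBasic.irr_orthonormal χ ψ

/-- nonnegativity of the diagonal -/
theorem cF_nonneg [Fintype G] {F : G → ℂ} (hF : ∀ g, ∃ r : ℝ, 0 ≤ r ∧ F g = r) (χ : IrrCharacter G) :
    ∃ r : ℝ, 0 ≤ r ∧ cF F χ χ = r ∧ (F 1 ≠ 0 → 0 < r) := by
  choose f hf0 hf using hF
  refine ⟨(Nat.card G : ℝ)⁻¹ * ∑ g : G, f g * ‖(χ : G → ℂ) g‖ ^ 2, ?_, ?_, ?_⟩
  · exact mul_nonneg (by positivity) (Finset.sum_nonneg fun g _ => mul_nonneg (hf0 g) (by positivity))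
  · rw [diag_cF]
    push_cast
    congr 1
    exact Finset.sum_congr rfl fun g _ => by rw [hf g]
  · intro h1
    have h2 : 0 < f 1 := lt_of_le_of_ne (hf0 1) (fun e => h1 (by rw [hf 1, ← e]; simp))
    refine mul_pos (inv_pos.mpr (by exact_mod_cast Nat.card_pos)) ?_
    refine Finset.sum_pos' (fun g _ => mul_nonneg (hf0 g) (by positivity)) ⟨1, Finset.mem_univ _, ?_⟩
    refine mul_pos h2 ?_
    have h3 : (χ : G → ℂ) 1 ≠ 0 := χ.2.one_ne_zero
    positivity

end Cfsg.Agent.Lib.H52E16g
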