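import Mathlib
import Cfsg.Agent.Lib.H52E16g

/-!
# Elementary abelian Sylow 2-subgroups of order 16, automizer of order 9, III (helper52)
-/

set_option autoImplicit false

open Subgroup

namespace Cfsg.Agent.Lib.H52E16h

open Cfsg Cfsg.Agent.Lib.BlockRing Cfsg.Agent.Lib.BlockThird Cfsg.Agent.Lib.PPart
open Cfsg.Agent.Lib.H25BpF (pp pq pp_eq pp_conj pp_order pp_comm pq_order pp_mul_pq)
open Cfsg.Agent.Lib.Subsec (Cz mem_Cz)
open Cfsg.Agent.Lib.H52E16b Cfsg.Agent.Lib.H52E16d Cfsg.Agent.Lib.H52E16e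
open Cfsg.Agent.Lib.H52E16f Cfsg.Agent.Lib.H52E16g
open Cfsg.Agent.Lib.H52Dih5
open scoped ComplexConjugate Classical

universe u

variable {G : Type u} [Group G] [Finite G] {M : Ideal AlgInt}

theorem main (hM : IsPModular 2 M) (P : Sylow 2 G) (hcP : Nat.card P = 16)
    (hel : ∀ x ∈ (P : Subgroup G), x * x = 1)
    (he : (centralizer ((P : Subgroup G) : Set G)).relIndex (normalizer ((P : Subgroup G) : Set G)) = 9) :
    Nat.card (principalBlock M G) = 16 ∧ blockRank 2 (principalBlock M G) = 9 := by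
  haveI : Fact (Nat.Prime 2) := ⟨Nat.prime_two⟩
  haveI := isPrime hM
  have := Fintype.ofFinite G
  have hinv : ∀ x ∈ (P : Subgroup G), x⁻¹ = x := fun x hx => inv_eq_of_mul_eq_one_left (hel x hx)
  have hab : ∀ a ∈ (P : Subgroup G), ∀ b ∈ (P : Subgroup G), a * b = b * a := by
    intro a ha b hb
    have h1 := hinv _ (mul_mem ha hb)
    rw [mul_inv_rev, hinv a ha, hinv b hb] at h1
    exact h1.symm
  obtain ⟨V, W, hV, hW, hVW, htr, hfix, x, hxP, hxV, hxW⟩ := exists_E16 (P : Subgroup G) hcP he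
  have hWV : W ⊓ V = ⊥ := by rw [inf_comm]; exact hVW
  have hne : ∀ U : Subgroup G, Nat.card U = 4 → ∃ v ∈ U, v ≠ 1 := by
    intro U hU
    haveI : Nontrivial U := by
      rw [← Finite.one_lt_card_iff_nontrivial, hU]; norm_num
    obtain ⟨v, hv⟩ := exists_ne (1 : U)
    exact ⟨v, v.2, fun e => hv (Subtype.ext e)⟩
  obtain ⟨v, hv, hv1⟩ := hne V hV.cV
  obtain ⟨w, hw, hw1⟩ := hne W hW.cV
  have hx1 : x ≠ 1 := fun e => hxV (e ▸ V.one_mem)
  have hvP := hV.le hv
  have hwP := hW.le hw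
  have hvW : v ∉ W := fun h => hv1 (by
    have : v ∈ V ⊓ W := ⟨hv, h⟩
    rwa [hVW, mem_bot] at this)
  have hwV : w ∉ V := fun h => hw1 (by
    have : w ∈ V ⊓ W := ⟨h, hw⟩
    rwa [hVW, mem_bot] at this)
  have hord : ∀ y ∈ (P : Subgroup G), y ≠ 1 → orderOf y = 2 := fun y hy hy1 =>
    orderOf_eq_prime (by rw [sq]; exact hel y hy) hy1
  have hordk : ∀ y ∈ (P : Subgroup G), ∃ k : ℕ, orderOf y = 2 ^ k := by
    intro y hy
    by_cases h : y = 1
    · exact ⟨0, by rw [h]; simp⟩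
    · exact ⟨1, by rw [hord y hy h]; norm_num⟩
  have hx2 : orderOf x = 2 ^ 1 := by rw [hord x hxP hx1]; norm_num
  -- the complement in `C(x)`
  obtain ⟨N, hN, hNodd, hNi⟩ := complement P hab hxP (fun n hn hnx y hy => hfix x hxP hxV hxW n hn hnx y hy)
  have hcP' : Nat.card (P : Subgroup G) = 2 ^ 4 := by
    have : Nat.card (P : Subgroup G) = 16 := hcP
    rw [this]; norm_num
  haveI := hN
  have hNi' : N.index = 2 ^ 4 := by rw [hNi]; exact hcP'
  have hLx : blockRank 2 (principalBlock M (Cz x)) = 1 :=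
    BlockTop.blockRank_principal_of_complement hM hNodd hNi'
  have hLv := rank_V hM P hel hcP hV hW hVW hv hv1
  have hLw := rank_V hM P hel hcP hW hV hWV hw hw1
  -- fusion
  have hfus : ∀ {a b : G}, a ∈ (P : Subgroup G) → b ∈ (P : Subgroup G) → IsConj a b →
      ∃ n ∈ normalizer ((P : Subgroup G) : Set G), n * a * n⁻¹ = b := fun ha hb h => mem_of_conj P hab ha hb h
  have hncv : ∀ {a b : G}, a ∈ V → b ∈ (P : Subgroup G) → IsConj a b → b ∈ V := by
    intro a b ha hb h
    obtain ⟨n, hn, rfl⟩ := hfus (hV.le ha) hb h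
    exact hV.inv n hn a ha
  have hncw : ∀ {a b : G}, a ∈ W → b ∈ (P : Subgroup G) → IsConj a b → b ∈ W := by
    intro a b ha hb h
    obtain ⟨n, hn, rfl⟩ := hfus (hW.le ha) hb h
    exact hW.inv n hn a ha
  have hnc1 : ∀ {b : G}, IsConj 1 b → b = 1 := fun h => (isConj_one_right.mp h)
  set X : Finset G := {1, v, w, x} with hXdef
  have hXP : ∀ y ∈ X, y ∈ (P : Subgroup G) := by
    intro y hy
    rw [hXdef] at hy
    simp only [Finset.mem_insert, Finset.mem_singleton] at hy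
    rcases hy with rfl | rfl | rfl | rfl
    · exact one_mem _
    · exact hvP
    · exact hwP
    · exact hxP
  have hX : ∀ y ∈ X, ∃ k : ℕ, orderOf y = 2 ^ k := fun y hy => hordk y (hXP y hy)
  have hvw : v ≠ w := fun e => hvW (e ▸ hw)
  have hvx : v ≠ x := fun e => hxV (e ▸ hv)
  have hwx : w ≠ x := fun e => hxW (e ▸ hw)
  have hXpair : ∀ y ∈ X, ∀ z ∈ X, IsConj y z → y = z := by
    intro y hy z hz h
    rw [hXdef] at hy hz
    simp only [Finset.mem_insert, Finset.mem_singleton] at hy hz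
    rcases hy with rfl | rfl | rfl | rfl <;> rcases hz with rfl | rfl | rfl | rfl
    · rfl
    · exact absurd (hnc1 h) hv1
    · exact absurd (hnc1 h) hw1
    · exact absurd (hnc1 h) hx1
    · exact absurd (hnc1 h.symm) hv1
    · rfl
    · exact absurd (hncv hv hwP h) hwV
    · exact absurd (hncv hv hxP h) hxV
    · exact absurd (hnc1 h.symm) hw1
    · exact absurd (hncw hw hvP h) hvW
    · rfl
    · exact absurd (hncw hw hxP h) hxW
    · exact absurd (hnc1 h.symm) hx1
    · exact absurd (hncv hv hxP h.symm) hxV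
    · exact absurd (hncw hw hxP h.symm) hxW
    · rfl
  have hmx : ∀ y ∈ (P : Subgroup G), y ∉ V → y ∉ W → IsConj y x := by
    intro y hy hyV hyW
    obtain ⟨n, hn, hn'⟩ := htr y hy x hxP hyV hyW hxV hxW
    exact isConj_iff.mpr ⟨n, hn'⟩
  have hXex : ∀ y ∈ (P : Subgroup G), ∃ z ∈ X, IsConj y z := by
    intro y hy
    by_cases h1 : y = 1
    · exact ⟨1, by simp [hXdef], by rw [h1]⟩
    by_cases hyV : y ∈ V
    · obtain ⟨n, hn, hn'⟩ := hV.tr y hyV h1 v hv hv1
      exact ⟨v, by simp [hXdef], isConj_iff.mpr ⟨n, hn'⟩⟩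
    by_cases hyW : y ∈ W
    · obtain ⟨n, hn, hn'⟩ := hW.tr y hyW h1 w hw hw1
      exact ⟨w, by simp [hXdef], isConj_iff.mpr ⟨n, hn'⟩⟩
    exact ⟨x, by simp [hXdef], hmx y hy hyV hyW⟩
  have hconjP : ∀ g : G, (∃ k : ℕ, orderOf g = 2 ^ k) → ∃ y ∈ (P : Subgroup G), IsConj g y := by
    rintro g ⟨k, hk⟩
    have hgp : IsPGroup 2 (Subgroup.zpowers g) := by
      apply IsPGroup.of_card (n := k)
      rw [Nat.card_zpowers, hk]
    obtain ⟨Q, hQ⟩ := hgp.exists_le_sylow
    obtain ⟨c, hc⟩ := MulAction.exists_smul_eq G Q P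
    refine ⟨c * g * c⁻¹, ?_, isConj_iff.mpr ⟨c, rfl⟩⟩
    rw [← hc, Sylow.coe_subgroup_smul, Subgroup.mem_pointwise_smul_iff_inv_smul_mem]
    simp only [← map_inv, MulAut.smul_def, MulAut.conj_apply, inv_inv]
    have h1 : c⁻¹ * (c * g * c⁻¹) * c = g := by group
    rw [h1]
    exact hQ (Subgroup.mem_zpowers g)
  have hXrep : ∀ g : G, (∃ k : ℕ, orderOf g = 2 ^ k) → ∃! y, y ∈ X ∧ IsConj g y := by
    intro g hg
    obtain ⟨y, hy, hgy⟩ := hconjP g hg
    obtain ⟨z, hz, hyz⟩ := hXex y hy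
    refine ⟨z, ⟨hz, hgy.trans hyz⟩, ?_⟩
    rintro z' ⟨hz', hgz'⟩
    exact hXpair z' hz' z hz (hgz'.symm.trans (hgy.trans hyz))
  have hsumX : ∀ f : G → ℂ, ∑ y ∈ X, f y = f 1 + f v + f w + f x := by
    intro f
    rw [hXdef, Finset.sum_insert (by simp [hv1.symm, hw1.symm, hx1.symm]),
      Finset.sum_insert (by simp [hvw, hvx]), Finset.sum_insert (by simp [hwx]), Finset.sum_singleton]
    ring
  -- the functions
  have hri : ∀ U : Subgroup G, U ≤ (P : Subgroup G) → Nat.card U = 4 → U.relIndex (P : Subgroup G) = 4 := by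
    intro U hU hcU
    have h1 := (U.subgroupOf (P : Subgroup G)).card_mul_index
    have h2 : Nat.card (U.subgroupOf (P : Subgroup G)) = 4 := by
      rw [← hcU]; exact Nat.card_congr (Subgroup.subgroupOfEquivOfLe hU).toEquiv
    have h3 : Nat.card (P : Subgroup G) = 16 := hcP
    rw [h2, h3] at h1
    show (U.subgroupOf (P : Subgroup G)).index = 4
    omega
  have hriV := hri V hV.le hV.cV
  have hriW := hri W hW.le hW.cV
  set FV := FU 2 (P : Subgroup G) V with hFV
  set FW := FU 2 (P : Subgroup G) W with hFW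
  have hFV4 : ∀ g, FV g = 0 ∨ FV g = 4 := by
    intro g
    rw [hFV]; unfold FU; rw [hriV]
    split_ifs
    · left; rfl
    · right; norm_num
  have hFW4 : ∀ g, FW g = 0 ∨ FW g = 4 := by
    intro g
    rw [hFW]; unfold FU; rw [hriW]
    split_ifs
    · left; rfl
    · right; norm_num
  have hvalV : ∀ y ∈ (P : Subgroup G), FV y = if y ∈ V then 0 else 4 := by
    intro y hy
    rw [hFV, FU_val P hab hV.le hV.inv hy, hriV]; norm_num
  have hvalW : ∀ y ∈ (P : Subgroup G), FW y = if y ∈ W then 0 else 4 := by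
    intro y hy
    rw [hFW, FU_val P hab hW.le hW.inv hy, hriW]; norm_num
  have hsecV : Sec 2 FV := sec_FU _ _
  have hsecW : Sec 2 FW := sec_FU _ _
  have hsec : ∀ {F F' : G → ℂ}, Sec 2 F → Sec 2 F' → Sec 2 (fun g => F g * F' g) := by
    intro F F' hF hF' g h u v hu hv huv
    simp only [hF g h u v hu hv huv, hF' g h u v hu hv huv]
  obtain ⟨A, hA⟩ : ∃ A : IrrCharacter G → IrrCharacter G → ℤ, ∀ χ ψ, cF FV χ ψ = A χ ψ := by
    choose A hA using fun χ ψ => int_cF (gen_FU P hab hV.le hV.inv) χ ψ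
    exact ⟨A, hA⟩
  obtain ⟨B, hB⟩ : ∃ B : IrrCharacter G → IrrCharacter G → ℤ, ∀ χ ψ, cF FW χ ψ = B χ ψ := by
    choose B hB using fun χ ψ => int_cF (gen_FU P hab hW.le hW.inv) χ ψ
    exact ⟨B, hB⟩
  set FX : G → ℂ := fun g => FV g * FW g with hFX
  -- `FX` is supported on the section of `x`
  have hFXs : ∀ g, FX g ≠ 0 → IsConj (pp 2 g) x := by
    intro g hg
    rw [hFX] at hg
    obtain ⟨y, hy, hgy⟩ := hconjP (pp 2 g) (pp_order 2 g)
    have e1 : ¬ ∃ z ∈ V, IsConj (pp 2 g) z := by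
      intro h
      apply hg
      have : FV g = 0 := by rw [hFV]; unfold FU; rw [if_pos h]
      simp only [this, zero_mul]
    have e2 : ¬ ∃ z ∈ W, IsConj (pp 2 g) z := by
      intro h
      apply hg
      have : FW g = 0 := by rw [hFW]; unfold FU; rw [if_pos h]
      simp only [this, mul_zero]
    exact hgy.trans (hmx y hy (fun h => e1 ⟨y, h, hgy⟩) (fun h => e2 ⟨y, h, hgy⟩))
  have hkap : ∀ χ ∈ PB M G, ∀ ψ ∈ PB M G, cF FX χ ψ =
      ((Nat.card G : ℂ)⁻¹ * ∑ g : G, FX g) * ((χ : G → ℂ) x * conj ((ψ : G → ℂ) x)) := by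
    intro χ hχ ψ hψ
    unfold cF
    rw [CharBasic.classInner_def, mul_assoc, Finset.sum_mul]
    congr 1
    refine Finset.sum_congr rfl fun g _ => ?_
    by_cases hg : FX g = 0
    · rw [hg]; ring
    · have h1 := hFXs g hg
      rw [const_section hM hx2 hN hNodd hNi' h1 hχ, const_section hM hx2 hN hNodd hNi' h1 hψ]
      ring
  have hcol : ∑ χ ∈ PB M G, (χ : G → ℂ) x * conj ((χ : G → ℂ) x) = 16 := by
    have h1 := BlockColumn.column_principal hM hx2 hx2
    rw [if_pos (IsConj.refl x), finsum_mem_eq_finite_toFinset_sum _ (Set.toFinite _),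
      H52Dih4.lamB_of_complement hM N hN hNodd hNi'] at h1
    rw [h1]; norm_num
  have hkap1 : (Nat.card G : ℂ)⁻¹ * ∑ g : G, FX g = 1 := by
    have h1 := trace_cF hM (hsec hsecV hsecW) X hX hXrep
    have h2 : ∑ χ ∈ PB M G, cF FX χ χ = ((Nat.card G : ℂ)⁻¹ * ∑ g : G, FX g) * 16 := by
      rw [← hcol, Finset.mul_sum]
      exact Finset.sum_congr rfl fun χ hχ => hkap χ hχ χ hχ
    have h3 : ∑ y ∈ X, FX y * (blockRank 2 (principalBlock M (Cz y)) : ℂ) = 16 := by
      rw [hsumX]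
      simp only [hFX]
      rw [hvalV 1 (one_mem _), hvalV v hvP, hvalV w hwP, hvalV x hxP, hvalW 1 (one_mem _),
        hvalW v hvP, hvalW w hwP, hvalW x hxP, if_pos (one_mem V), if_pos hv, if_neg hwV, if_neg hxV,
        if_pos (one_mem W), if_neg hvW, if_pos hw, if_neg hxW, hLx]
      norm_num
    have h4 : ((Nat.card G : ℂ)⁻¹ * ∑ g : G, FX g) * 16 = 16 := by
      rw [← h2, ← h3]; exact h1
    have h5 : (16 : ℂ) ≠ 0 := by norm_num
    exact mul_right_cancel₀ h5 (by rw [h4, one_mul])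
  have htriv : triv G ∈ PB M G := mem_PB.mpr triv_mem
  have hABc : ∀ χ ∈ PB M G, ∀ ψ ∈ PB M G, ((∑ φ ∈ PB M G, A χ φ * B φ ψ : ℤ) : ℂ) =
      (χ : G → ℂ) x * conj ((ψ : G → ℂ) x) := by
    intro χ hχ ψ hψ
    have h1 := mul_cF (F' := FW) hM hsecV hχ ψ
    have h2 := hkap χ hχ ψ hψ
    rw [hkap1, one_mul] at h2
    rw [← h2]
    push_cast
    rw [← h1]
    exact Finset.sum_congr rfl fun φ _ => by rw [hA, hB]
  have hd : ∀ χ ∈ PB M G, (χ : G → ℂ) x = ((∑ φ ∈ PB M G, A χ φ * B φ (triv G) : ℤ) : ℂ) := by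
    intro χ hχ
    rw [hABc χ hχ _ htriv]
    show _ = (χ : G → ℂ) x * conj (1 : ℂ)
    rw [map_one, mul_one]
  set d : IrrCharacter G → ℤ := fun χ => ∑ φ ∈ PB M G, A χ φ * B φ (triv G) with hdd
  have hdc : ∀ χ ∈ PB M G, conj ((χ : G → ℂ) x) = d χ := by
    intro χ hχ
    rw [hd χ hχ]
    exact map_intCast _ _
  have hFXd : ∀ χ ∈ PB M G, cF FX χ χ = (d χ : ℂ) ^ 2 := by
    intro χ hχ
    rw [hkap χ hχ χ hχ, hkap1, one_mul, hdc χ hχ, hd χ hχ, sq]
  -- the number of characters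
  have hcount := BlockTop.card_eq_add hM (isPBlock_principal (G := G) (M := M)) X hX hXrep
  have hind : ∀ y ∈ X, (∑ᶠ b ∈ {b : Set (IrrCharacter ↥(Subgroup.centralizer ({y} : Set G))) |
      IsInducedBlock M (Subgroup.centralizer ({y} : Set G)) b (principalBlock M G)}, blockRank 2 b) =
      blockRank 2 (principalBlock M (Cz y)) := by
    intro y hy
    obtain ⟨k, hk⟩ := hX y hy
    rw [BlockTop.induced_principal_set hM hk, finsum_mem_singleton]
  have hXe : X.erase 1 = {v, w, x} := by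
    rw [hXdef, Finset.erase_insert (by simp [hv1.symm, hw1.symm, hx1.symm])]
  rw [Finset.sum_congr rfl (fun y hy => hind y (Finset.mem_of_mem_erase hy)), hXe,
    Finset.sum_insert (by simp [hvw, hvx]), Finset.sum_insert (by simp [hwx]), Finset.sum_singleton,
    hLx, hLv, hLw] at hcount
  have hcPB : Nat.card (principalBlock M G) = (PB M G).card := by
    rw [Nat.card_coe_set_eq, Set.ncard_eq_toFinset_card _ (Set.toFinite _)]
  have hl1 : blockRank 2 (principalBlock M G) ≠ 1 := by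
    intro h
    have h1 := (PrincNilp.blockRank_principal_iff hM).mp h
    have h2 : normalizer ((P : Subgroup G) : Set G) ≤ centralizer ((P : Subgroup G) : Set G) := by
      intro n hn
      rw [mem_centralizer_iff]
      intro y hy
      have h3 := not_nilpotent P hab h1 hn hy
      conv_lhs => rw [← h3]
      group
    rw [Subgroup.relIndex_eq_one.mpr h2] at he
    norm_num at he
  have hl0 : 0 < blockRank 2 (principalBlock M G) :=
    BlockSmall.blockRank_pos Nat.prime_two ⟨_, triv_mem⟩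
  have key := H52E16a.card_eq (s := PB M G) A B d (triv G) htriv
    (by
      intro χ _ ψ _
      have h1 := symm_cF (fun g => conj_FU (p := 2) (P : Subgroup G) V g) χ ψ
      rw [← hFV, hA, hA, map_intCast] at h1
      exact_mod_cast h1.symm)
    (by
      intro χ _ ψ _
      have h1 := symm_cF (fun g => conj_FU (p := 2) (P : Subgroup G) W g) χ ψ
      rw [← hFW, hB, hB, map_intCast] at h1
      exact_mod_cast h1.symm)
    (by
      intro χ hχ ψ _
      have h1 := mul_cF (F' := FV) hM hsecV hχ ψ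
      have h2 : (fun g => FV g * FV g) = fun g => 4 * FV g := by
        funext g
        rcases hFV4 g with h | h <;> rw [h] <;> norm_num
      rw [h2, cF_smul, hA] at h1
      simp only [hA] at h1
      exact_mod_cast h1)
    (by
      intro χ hχ ψ _
      have h1 := mul_cF (F' := FW) hM hsecW hχ ψ
      have h2 : (fun g => FW g * FW g) = fun g => 4 * FW g := by
        funext g
        rcases hFW4 g with h | h <;> rw [h] <;> norm_num
      rw [h2, cF_smul, hB] at h1
      simp only [hB] at h1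
      exact_mod_cast h1)
    (by
      intro χ hχ ψ hψ
      have h1 := hABc χ hχ ψ hψ
      rw [hdc ψ hψ, hd χ hχ] at h1
      exact_mod_cast h1)
    (by
      intro χ hχ
      have h1 := expand hM hsecV hχ x
      rw [hvalV x hxP, if_neg hxV, hd χ hχ] at h1
      have h2 : ∑ ψ ∈ PB M G, cF FV χ ψ * (ψ : G → ℂ) x = ((∑ ψ ∈ PB M G, A χ ψ * d ψ : ℤ) : ℂ) := by
        push_cast
        exact Finset.sum_congr rfl fun ψ hψ => by rw [hA, hd ψ hψ]
      rw [h2] at h1
      exact_mod_cast h1)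
    (by
      intro χ hχ
      have h1 := expand hM hsecW hχ x
      rw [hvalW x hxP, if_neg hxW, hd χ hχ] at h1
      have h2 : ∑ ψ ∈ PB M G, cF FW χ ψ * (ψ : G → ℂ) x = ((∑ ψ ∈ PB M G, B χ ψ * d ψ : ℤ) : ℂ) := by
        push_cast
        exact Finset.sum_congr rfl fun ψ hψ => by rw [hB, hd ψ hψ]
      rw [h2] at h1
      exact_mod_cast h1)
    (by
      have h1 : ((∑ χ ∈ PB M G, d χ ^ 2 : ℤ) : ℂ) = 16 := by
        rw [← hcol]
        push_cast
        exact Finset.sum_congr rfl fun χ hχ => by rw [hdc χ hχ, hd χ hχ, sq]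
      exact_mod_cast h1)
    (by
      intro χ hχ h0
      have h1 := ne_zero_of_mem (S := P) hM (fun s hs => hab s hs x hxP) (mem_PB.mp hχ)
      apply h1
      rw [hd χ hχ]
      exact_mod_cast h0)
    (by
      have h1 := hd (triv G) htriv
      have h2 : ((1 : ℤ) : ℂ) = ((d (triv G) : ℤ) : ℂ) := by
        rw [← h1]; push_cast; rfl
      exact_mod_cast h2.symm)
    (by
      intro χ hχ
      obtain ⟨r, hr0, hr, -⟩ := cF_nonneg (F := fun g => 4 * FV g + (-1) * FX g) (fun g => by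
        rcases hFV4 g with h | h <;> rcases hFW4 g with h' | h' <;> simp only [hFX, h, h']
        · exact ⟨0, le_rfl, by norm_num⟩
        · exact ⟨0, le_rfl, by norm_num⟩
        · exact ⟨16, by norm_num, by norm_num⟩
        · exact ⟨0, le_rfl, by norm_num⟩) χ
      rw [cF_add, cF_smul, cF_smul, hA, hFXd χ hχ] at hr
      have h1 : ((4 * A χ χ - d χ ^ 2 : ℤ) : ℝ) = r := by
        have : (((4 * A χ χ - d χ ^ 2 : ℤ) : ℝ) : ℂ) = (r : ℂ) := by
          rw [← hr]; push_cast; ring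
        exact_mod_cast this
      have h2 : (0 : ℝ) ≤ ((4 * A χ χ - d χ ^ 2 : ℤ) : ℝ) := by rw [h1]; exact hr0
      have h3 : (0 : ℤ) ≤ 4 * A χ χ - d χ ^ 2 := by exact_mod_cast h2
      linarith)
    (by
      intro χ hχ
      obtain ⟨r, hr0, hr, -⟩ := cF_nonneg (F := fun g => 4 * FW g + (-1) * FX g) (fun g => by
        rcases hFV4 g with h | h <;> rcases hFW4 g with h' | h' <;> simp only [hFX, h, h']
        · exact ⟨0, le_rfl, by norm_num⟩
        · exact ⟨16, by norm_num, by norm_num⟩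
        · exact ⟨0, le_rfl, by norm_num⟩
        · exact ⟨0, le_rfl, by norm_num⟩) χ
      rw [cF_add, cF_smul, cF_smul, hB, hFXd χ hχ] at hr
      have h1 : ((4 * B χ χ - d χ ^ 2 : ℤ) : ℝ) = r := by
        have : (((4 * B χ χ - d χ ^ 2 : ℤ) : ℝ) : ℂ) = (r : ℂ) := by
          rw [← hr]; push_cast; ring
        exact_mod_cast this
      have h2 : (0 : ℝ) ≤ ((4 * B χ χ - d χ ^ 2 : ℤ) : ℝ) := by rw [h1]; exact hr0
      have h3 : (0 : ℤ) ≤ 4 * B χ χ - d χ ^ 2 := by exact_mod_cast h2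
      linarith)
    (by
      intro χ hχ
      obtain ⟨r, hr0, hr, hr1⟩ := cF_nonneg (F := fun g => (16 * 1 + (-4) * FV g) + ((-4) * FW g + FX g)) (fun g => by
        rcases hFV4 g with h | h <;> rcases hFW4 g with h' | h' <;> simp only [hFX, h, h']
        · exact ⟨16, by norm_num, by norm_num⟩
        · exact ⟨0, le_rfl, by norm_num⟩
        · exact ⟨0, le_rfl, by norm_num⟩
        · exact ⟨0, le_rfl, by norm_num⟩) χ
      have hr2 : 0 < r := by
        apply hr1
        simp only [hFX]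
        rw [hvalV 1 (one_mem _), hvalW 1 (one_mem _), if_pos (one_mem V), if_pos (one_mem W)]
        norm_num
      rw [cF_add, cF_add, cF_add, cF_smul, cF_smul, cF_smul, cF_one, if_pos rfl, hA, hB, hFXd χ hχ] at hr
      have h1 : ((16 - 4 * A χ χ - 4 * B χ χ + d χ ^ 2 : ℤ) : ℝ) = r := by
        have : (((16 - 4 * A χ χ - 4 * B χ χ + d χ ^ 2 : ℤ) : ℝ) : ℂ) = (r : ℂ) := by
          rw [← hr]; push_cast; ring
        exact_mod_cast this
      have h2 : (0 : ℝ) < ((16 - 4 * A χ χ - 4 * B χ χ + d χ ^ 2 : ℤ) : ℝ) := by rw [h1]; exact hr2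
      have h3 : (0 : ℤ) < 16 - 4 * A χ χ - 4 * B χ χ + d χ ^ 2 := by exact_mod_cast h2
      linarith)
    (by
      have h1 := trace_cF hM hsecV X hX hXrep
      rw [hsumX, hvalV 1 (one_mem _), hvalV v hvP, hvalV w hwP, hvalV x hxP, if_pos (one_mem V),
        if_pos hv, if_neg hwV, if_neg hxV, hLx, hLw] at h1
      simp only [hA] at h1
      have h2 : ((∑ χ ∈ PB M G, A χ χ : ℤ) : ℂ) = 16 := by
        push_cast
        rw [h1]; norm_num
      exact_mod_cast h2)
    (by
      have h1 := trace_cF hM hsecW X hX hXrep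
      rw [hsumX, hvalW 1 (one_mem _), hvalW v hvP, hvalW w hwP, hvalW x hxP, if_pos (one_mem W),
        if_neg hvW, if_pos hw, if_neg hxW, hLx, hLv] at h1
      simp only [hB] at h1
      have h2 : ((∑ χ ∈ PB M G, B χ χ : ℤ) : ℂ) = 16 := by
        push_cast
        rw [h1]; norm_num
      exact_mod_cast h2)
    (by
      rw [← hcPB, hcount]
      omega)
  rw [← hcPB] at key
  exact ⟨key, by omega⟩

end Cfsg.Agent.Lib.H52E16h
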