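import Mathlib

set_option autoImplicit false
set_option linter.all false

/-!
# Intersections of Sylow 2-subgroups of `S₈` (helper52)
-/

namespace Cfsg.Agent.Lib.H52S8

open Equiv Equiv.Perm

theorem ai {α : Type*} (g : Perm α) (i : α) : g (g⁻¹ i) = i := Equiv.apply_symm_apply g i

theorem ia {α : Type*} (g : Perm α) (i : α) : g⁻¹ (g i) = i := Equiv.symm_apply_apply g i

def t8 : Fin 8 → Fin 8 := ![1, 0, 3, 2, 5, 4, 7, 6]

def hf (i : Fin 8) : Bool := decide (i.val < 4)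

theorem t8_t8 : ∀ i, t8 (t8 i) = i := by decide +kernel

theorem t8_ne : ∀ i, t8 i ≠ i := by decide +kernel

theorem hf_t8 : ∀ i, hf (t8 i) = hf i := by decide +kernel

def tt : Perm (Fin 8) := ⟨t8, t8, t8_t8, t8_t8⟩

theorem tt_apply (i : Fin 8) : tt i = t8 i := rfl

/-- the stabiliser of the standard binary tree -/
def P0 : Subgroup (Perm (Fin 8)) where
  carrier := {g | (∀ i, g (t8 i) = t8 (g i)) ∧ ∀ i j, (hf i = hf j ↔ hf (g i) = hf (g j))}
  one_mem' := ⟨fun i => rfl, fun i j => Iff.rfl⟩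
  mul_mem' := by
    rintro a b ⟨ha, ha'⟩ ⟨hb, hb'⟩
    refine ⟨fun i => ?_, fun i j => ?_⟩
    · rw [Perm.mul_apply, Perm.mul_apply, hb, ha]
    · rw [Perm.mul_apply, Perm.mul_apply, hb', ha']
  inv_mem' := by
    rintro a ⟨ha, ha'⟩
    refine ⟨fun i => ?_, fun i j => ?_⟩
    · apply a.injective
      rw [ha, ai, ai]
    · have := ha' (a⁻¹ i) (a⁻¹ j)
      rw [ai, ai] at this
      exact this.symm

theorem mem_P0 {g : Perm (Fin 8)} :
    g ∈ P0 ↔ (∀ i, g (t8 i) = t8 (g i)) ∧ ∀ i j, (hf i = hf j ↔ hf (g i) = hf (g j)) := Iff.rfl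

def cond (v : (Fin 8 × Fin 8) × (Fin 8 × Fin 8)) : Prop :=
  hf v.1.1 = hf v.1.2 ∧ v.1.2 ≠ v.1.1 ∧ v.1.2 ≠ t8 v.1.1 ∧ hf v.2.1 ≠ hf v.1.1 ∧
    hf v.2.1 = hf v.2.2 ∧ v.2.2 ≠ v.2.1 ∧ v.2.2 ≠ t8 v.2.1

instance : DecidablePred cond := fun v => by unfold cond; infer_instance

def vf (v : (Fin 8 × Fin 8) × (Fin 8 × Fin 8)) : Fin 8 → Fin 8 :=
  ![v.1.1, t8 v.1.1, v.1.2, t8 v.1.2, v.2.1, t8 v.2.1, v.2.2, t8 v.2.2]

theorem vf_all : ∀ a b c d : Fin 8, cond ((a, b), (c, d)) →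
    (∀ i j, vf ((a, b), (c, d)) i = vf ((a, b), (c, d)) j → i = j) ∧
    (∀ i, vf ((a, b), (c, d)) (t8 i) = t8 (vf ((a, b), (c, d)) i)) ∧
    (∀ i j, (hf i = hf j ↔ hf (vf ((a, b), (c, d)) i) = hf (vf ((a, b), (c, d)) j))) := by
  decide +kernel

theorem vf_inj (v) (hv : cond v) : ∀ i j, vf v i = vf v j → i = j := (vf_all _ _ _ _ hv).1

theorem vf_t (v) (hv : cond v) : ∀ i, vf v (t8 i) = t8 (vf v i) := (vf_all _ _ _ _ hv).2.1

theorem vf_hf (v) (hv : cond v) : ∀ i j, (hf i = hf j ↔ hf (vf v i) = hf (vf v j)) :=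
  (vf_all _ _ _ _ hv).2.2

theorem sum_cond : (∑ a : Fin 8, ∑ b : Fin 8, ∑ c : Fin 8, ∑ d : Fin 8,
    if cond ((a, b), (c, d)) then 1 else 0) = 128 := by
  decide +kernel

theorem card_cond : Fintype.card {v // cond v} = 128 := by
  rw [Fintype.card_subtype, Finset.card_filter, Fintype.sum_prod_type, Fintype.sum_prod_type]
  simp only [Fintype.sum_prod_type]
  exact sum_cond

theorem card_P0 : Nat.card P0 = 128 := by
  have e : P0 ≃ {v // cond v} :=
    { toFun := fun g => ⟨((g.1 0, g.1 2), (g.1 4, g.1 6)), by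
        obtain ⟨h1, h2⟩ := mem_P0.1 g.2
        refine ⟨?_, ?_, ?_, ?_, ?_, ?_, ?_⟩
        · exact (h2 0 2).1 (by decide)
        · exact fun h => absurd (g.1.injective h) (by decide)
        · intro h
          rw [← h1] at h
          exact absurd (g.1.injective h) (by decide)
        · exact fun h => absurd ((h2 4 0).2 h) (by decide)
        · exact (h2 4 6).1 (by decide)
        · exact fun h => absurd (g.1.injective h) (by decide)
        · intro h
          rw [← h1] at h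
          exact absurd (g.1.injective h) (by decide)⟩
      invFun := fun v => ⟨Equiv.ofBijective (vf v.1) (Finite.injective_iff_bijective.1
        (fun i j => vf_inj v.1 v.2 i j)), mem_P0.2 ⟨vf_t v.1 v.2, vf_hf v.1 v.2⟩⟩
      left_inv := fun g => by
        obtain ⟨h1, h2⟩ := mem_P0.1 g.2
        apply Subtype.ext
        apply Equiv.ext
        intro i
        rw [Equiv.ofBijective_apply]
        fin_cases i
        · rfl
        · exact (h1 0).symm
        · rfl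
        · exact (h1 2).symm
        · rfl
        · exact (h1 4).symm
        · rfl
        · exact (h1 6).symm
      right_inv := fun v => rfl }
  rw [Nat.card_congr e, Nat.card_eq_fintype_card, card_cond]

theorem half : ∀ i j k : Fin 8, hf i = hf j → hf i = hf k → j ≠ i → j ≠ t8 i →
    (k = i ∨ k = t8 i ∨ k = j ∨ k = t8 j) := by
  decide +kernel

/-- criterion -/
theorem crit {s : Perm (Fin 8)} (h1 : ∀ i, s (t8 i) = t8 (s i)) (h2 : ∀ i, s (s i) = i)
    (h3 : ∀ i, s i ≠ i) (h4 : ∀ i, s i ≠ t8 i) : s ∈ P0 := by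
  refine mem_P0.2 ⟨h1, ?_⟩
  by_cases hex : ∃ i, hf (s i) = hf i
  · obtain ⟨i, hi⟩ := hex
    have h5 : ∀ k, hf k = hf i → hf (s k) = hf i := by
      intro k hk
      rcases half i (s i) k hi.symm hk.symm (h3 i) (h4 i) with rfl | rfl | rfl | rfl
      · exact hi
      · rw [h1, hf_t8, hi]
      · rw [h2]
      · rw [h1, h2, hf_t8]
    have h6 : ∀ k, hf (s k) = hf k := by
      intro k
      by_cases hk : hf k = hf i
      · rw [h5 k hk, hk]
      · have h7 : hf (s k) ≠ hf i := by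
          intro h8
          apply hk
          have := h5 (s k) h8
          rwa [h2] at this
        revert hk h7
        cases hf k <;> cases hf (s k) <;> cases hf i <;> simp
    intro j k
    rw [h6, h6]
  · push Not at hex
    intro j k
    have hj := hex j
    have hk := hex k
    revert hj hk
    cases hf j <;> cases hf k <;> cases hf (s j) <;> cases hf (s k) <;> simp

theorem sw_mem : ∀ i : Fin 8, swap i (t8 i) ∈ P0 := by
  intro i
  rw [mem_P0]
  revert i
  decide +kernel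

def cc (f : Fin 8 → Fin 8) (i : Fin 8) : Fin 8 := t8 (f i)

def tri (f : Fin 8 → Fin 8) : Prop := (∃ i, f i = t8 i) ∨ (∀ i, cc f (cc f i) = i) ∨
  (∀ i, cc f (cc f i) ≠ i ∧ cc f (cc f (cc f (cc f i))) = i)

instance : DecidablePred tri := fun f => by unfold tri; infer_instance

def pq (i j ai aj : Fin 8) : Bool := decide (ai ≠ aj) && (decide (ai = j) == decide (aj = i))

def c1 (a0 a1 : Fin 8) : Bool := decide (a1 ≠ 1) && pq 0 1 a0 a1

def c2 (a0 a1 a2 : Fin 8) : Bool := decide (a2 ≠ 2) && pq 0 2 a0 a2 && pq 1 2 a1 a2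

def c3 (a0 a1 a2 a3 : Fin 8) : Bool := decide (a3 ≠ 3) && pq 0 3 a0 a3 && pq 1 3 a1 a3 && pq 2 3 a2 a3

def c4 (a0 a1 a2 a3 a4 : Fin 8) : Bool := decide (a4 ≠ 4) && pq 0 4 a0 a4 && pq 1 4 a1 a4 && pq 2 4 a2 a4 && pq 3 4 a3 a4

def c5 (a0 a1 a2 a3 a4 a5 : Fin 8) : Bool := decide (a5 ≠ 5) && pq 0 5 a0 a5 && pq 1 5 a1 a5 && pq 2 5 a2 a5 && pq 3 5 a3 a5 && pq 4 5 a4 a5

def c6 (a0 a1 a2 a3 a4 a5 a6 : Fin 8) : Bool := decide (a6 ≠ 6) && pq 0 6 a0 a6 && pq 1 6 a1 a6 && pq 2 6 a2 a6 && pq 3 6 a3 a6 && pq 4 6 a4 a6 && pq 5 6 a5 a6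

def c7 (a0 a1 a2 a3 a4 a5 a6 a7 : Fin 8) : Bool := decide (a7 ≠ 7) && pq 0 7 a0 a7 && pq 1 7 a1 a7 && pq 2 7 a2 a7 && pq 3 7 a3 a7 && pq 4 7 a4 a7 && pq 5 7 a5 a7 && pq 6 7 a6 a7

def T4 (a0 a1 a2 a3 : Fin 8) : Prop :=
    ∀ a4 : Fin 8, c4 a0 a1 a2 a3 a4 = true →
    ∀ a5 : Fin 8, c5 a0 a1 a2 a3 a4 a5 = true →
    ∀ a6 : Fin 8, c6 a0 a1 a2 a3 a4 a5 a6 = true →
    ∀ a7 : Fin 8, c7 a0 a1 a2 a3 a4 a5 a6 a7 = true →
    tri ![a0, a1, a2, a3, a4, a5, a6, a7]

instance (a0 a1 a2 a3 : Fin 8) : Decidable (T4 a0 a1 a2 a3) := by unfold T4; infer_instance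

theorem tri_check : ∀ a0 : Fin 8, a0 ≠ 0 →
    ∀ a1 : Fin 8, c1 a0 a1 = true →
    ∀ a2 : Fin 8, c2 a0 a1 a2 = true →
    ∀ a3 : Fin 8, c3 a0 a1 a2 a3 = true → T4 a0 a1 a2 a3 := by
  decide +kernel

theorem tri_of {f : Fin 8 → Fin 8} (h1 : ∀ i, f (f i) = i) (h2 : ∀ i, f i ≠ i) : tri f := by
  have hinj : Function.Injective f := fun i j h => by rw [← h1 i, h, h1]
  have hpq : ∀ i j, i ≠ j → pq i j (f i) (f j) = true := by
    intro i j hij
    have e1 : f i ≠ f j := fun h' => hij (hinj h')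
    have e2 : f i = j ↔ f j = i := ⟨fun h => by rw [← h, h1], fun h => by rw [← h, h1]⟩
    unfold pq
    simp [e1, e2]
  have hne : ∀ i, decide (f i ≠ i) = true := fun i => decide_eq_true (h2 i)
  have he : f = ![f 0, f 1, f 2, f 3, f 4, f 5, f 6, f 7] := by
    ext i
    fin_cases i <;> rfl
  rw [he]
  apply tri_check
  · exact h2 0
  · simp only [c1, Bool.and_eq_true]
    exact ⟨hne 1, hpq 0 1 (by decide)⟩
  · simp only [c2, Bool.and_eq_true]
    exact ⟨⟨hne 2, hpq 0 2 (by decide)⟩, hpq 1 2 (by decide)⟩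
  · simp only [c3, Bool.and_eq_true]
    exact ⟨⟨⟨hne 3, hpq 0 3 (by decide)⟩, hpq 1 3 (by decide)⟩, hpq 2 3 (by decide)⟩
  · simp only [c4, Bool.and_eq_true]
    exact ⟨⟨⟨⟨hne 4, hpq 0 4 (by decide)⟩, hpq 1 4 (by decide)⟩, hpq 2 4 (by decide)⟩, hpq 3 4 (by decide)⟩
  · simp only [c5, Bool.and_eq_true]
    exact ⟨⟨⟨⟨⟨hne 5, hpq 0 5 (by decide)⟩, hpq 1 5 (by decide)⟩, hpq 2 5 (by decide)⟩, hpq 3 5 (by decide)⟩, hpq 4 5 (by decide)⟩
  · simp only [c6, Bool.and_eq_true]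
    exact ⟨⟨⟨⟨⟨⟨hne 6, hpq 0 6 (by decide)⟩, hpq 1 6 (by decide)⟩, hpq 2 6 (by decide)⟩, hpq 3 6 (by decide)⟩, hpq 4 6 (by decide)⟩, hpq 5 6 (by decide)⟩
  · simp only [c7, Bool.and_eq_true]
    exact ⟨⟨⟨⟨⟨⟨⟨hne 7, hpq 0 7 (by decide)⟩, hpq 1 7 (by decide)⟩, hpq 2 7 (by decide)⟩, hpq 3 7 (by decide)⟩, hpq 4 7 (by decide)⟩, hpq 5 7 (by decide)⟩, hpq 6 7 (by decide)⟩

/-- criterion for both trees -/
theorem both {x s : Perm (Fin 8)} (hc1 : s * tt = tt * s) (hc2 : s * (x * tt * x⁻¹) = (x * tt * x⁻¹) * s)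
    (hs2 : s * s = 1) (h3 : ∀ i, s i ≠ i) (h4 : ∀ i, s i ≠ tt i) (h5 : ∀ i, s i ≠ (x * tt * x⁻¹) i) :
    s ≠ 1 ∧ s ∈ P0 ∧ x⁻¹ * s * x ∈ P0 := by
  refine ⟨?_, ?_, ?_⟩
  · rintro rfl
    exact h3 0 rfl
  · apply crit
    · intro i
      have := congrArg (fun g : Perm (Fin 8) => g i) hc1
      exact this
    · intro i
      have := congrArg (fun g : Perm (Fin 8) => g i) hs2
      exact this
    · exact h3
    · exact h4
  · apply crit
    · intro i
      have h6 : (x⁻¹ * s * x) * tt = tt * (x⁻¹ * s * x) := by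
        calc (x⁻¹ * s * x) * tt = x⁻¹ * (s * (x * tt * x⁻¹)) * x := by group
          _ = x⁻¹ * ((x * tt * x⁻¹) * s) * x := by rw [hc2]
          _ = tt * (x⁻¹ * s * x) := by group
      have := congrArg (fun g : Perm (Fin 8) => g i) h6
      exact this
    · intro i
      have h6 : (x⁻¹ * s * x) * (x⁻¹ * s * x) = 1 := by
        calc (x⁻¹ * s * x) * (x⁻¹ * s * x) = x⁻¹ * (s * s) * x := by group
          _ = 1 := by rw [hs2]; group
      have := congrArg (fun g : Perm (Fin 8) => g i) h6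
      exact this
    · intro i h6
      apply h3 (x i)
      rw [Perm.mul_apply, Perm.mul_apply, Perm.inv_eq_iff_eq] at h6
      exact h6
    · intro i h6
      apply h5 (x i)
      rw [Perm.mul_apply, Perm.mul_apply, Perm.inv_eq_iff_eq] at h6
      rw [h6, Perm.mul_apply, Perm.mul_apply, ia]
      rfl

theorem main (x : Perm (Fin 8)) : ∃ s : Perm (Fin 8), s ≠ 1 ∧ s ∈ P0 ∧ x⁻¹ * s * x ∈ P0 := by
  obtain ⟨u, hu⟩ : ∃ u, u = x * tt * x⁻¹ := ⟨_, rfl⟩
  have htt : tt * tt = 1 := Equiv.ext t8_t8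
  have huu : u * u = 1 := by
    calc u * u = x * (tt * tt) * x⁻¹ := by rw [hu]; group
      _ = 1 := by rw [htt]; group
  have ht1 : ∀ i, tt i ≠ i := t8_ne
  have hu1 : ∀ i, u i ≠ i := by
    intro i h
    apply ht1 (x⁻¹ i)
    rw [hu, Perm.mul_apply, Perm.mul_apply] at h
    rw [Perm.eq_inv_iff_eq]
    exact h
  have hui : ∀ i, u (u i) = i := fun i => congrArg (fun g : Perm (Fin 8) => g i) huu
  have hti : ∀ i, tt (tt i) = i := fun i => congrArg (fun g : Perm (Fin 8) => g i) htt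
  have hinvt : tt⁻¹ = tt := inv_eq_of_mul_eq_one_left htt
  have hinvu : u⁻¹ = u := inv_eq_of_mul_eq_one_left huu
  by_cases hcase : ∃ i, u i = tt i
  · obtain ⟨i, hi⟩ := hcase
    refine ⟨swap i (t8 i), ?_, sw_mem i, ?_⟩
    · intro h
      rw [Equiv.swap_eq_one_iff] at h
      exact t8_ne i h.symm
    · have h1 : x⁻¹ * swap i (t8 i) * x = swap (x⁻¹ i) (t8 (x⁻¹ i)) := by
        have h2 : x⁻¹ (t8 i) = t8 (x⁻¹ i) := by
          change x⁻¹ (tt i) = _
          rw [← hi, hu, Perm.mul_apply, Perm.mul_apply, ia]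
          rfl
        rw [← h2]
        have h3 := Equiv.swap_apply_apply x⁻¹ i (t8 i)
        rw [h3, inv_inv]
      rw [h1]
      exact sw_mem _
  · rcases tri_of (f := u) hui hu1 with h | h | h
    · exact absurd h hcase
    · have hs2 : (tt * u) * (tt * u) = 1 := Equiv.ext h
      have hinv : tt * u = u * tt := by
        have := inv_eq_of_mul_eq_one_left hs2
        rw [mul_inv_rev, hinvt, hinvu] at this
        exact this.symm
      refine ⟨tt * u, both ?_ ?_ hs2 ?_ ?_ ?_⟩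
      · calc tt * u * tt = tt * (u * tt) := by group
          _ = tt * (tt * u) := by rw [hinv]
      · rw [← hu]
        calc tt * u * u = u * tt * u := by rw [hinv]
          _ = u * (tt * u) := by group
      · intro i h1
        rw [Perm.mul_apply] at h1
        apply hcase
        refine ⟨i, ?_⟩
        have := congrArg tt h1
        rw [hti] at this
        exact this
      · intro i h1
        rw [Perm.mul_apply] at h1
        exact hu1 i (tt.injective h1)
      · intro i h1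
        rw [← hu, hinv, Perm.mul_apply] at h1
        exact ht1 i (u.injective h1)
    · obtain ⟨c, hc⟩ : ∃ c, c = tt * u := ⟨_, rfl⟩
      have hcc : ∀ i, (c * c) i ≠ i := fun i => by
        rw [hc]
        exact (h i).1
      have hc4 : (c * c) * (c * c) = 1 := by
        rw [hc]
        exact Equiv.ext fun i => (h i).2
      have htc : tt * c = c⁻¹ * tt := by
        rw [hc, mul_inv_rev, hinvt, hinvu, ← mul_assoc, htt, one_mul, mul_assoc, htt, mul_one]
      have huc : u * c = c⁻¹ * u := by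
        rw [hc, mul_inv_rev, hinvt, hinvu, ← mul_assoc]
      have hcinv : c⁻¹ * c⁻¹ = c * c := by
        have := inv_eq_of_mul_eq_one_left hc4
        rw [mul_inv_rev] at this
        exact this
      have ht2 : tt * (c * c) = (c * c) * tt := by
        calc tt * (c * c) = (tt * c) * c := by group
          _ = c⁻¹ * (tt * c) := by rw [← mul_assoc c⁻¹ tt c, ← htc]
          _ = (c⁻¹ * c⁻¹) * tt := by rw [htc, ← mul_assoc]
          _ = _ := by rw [hcinv]
      have hu2 : u * (c * c) = (c * c) * u := by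
        calc u * (c * c) = (u * c) * c := by group
          _ = c⁻¹ * (u * c) := by rw [← mul_assoc c⁻¹ u c, ← huc]
          _ = (c⁻¹ * c⁻¹) * u := by rw [huc, ← mul_assoc]
          _ = _ := by rw [hcinv]
      refine ⟨c * c, both ht2.symm (by rw [← hu]; exact hu2.symm) hc4 hcc ?_ ?_⟩
      · intro i h1
        rw [hc] at h1
        have h2 : tt (u (tt (u i))) = tt i := h1
        have h3 := congrArg u (tt.injective h2)
        rw [hui] at h3
        exact ht1 _ h3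
      · intro i h1
        rw [← hu, hc] at h1
        have h2 : tt (u (tt (u i))) = u i := h1
        have h3 := congrArg tt h2
        rw [hti] at h3
        exact hu1 _ h3

theorem final (H : Sylow 2 (Perm (Fin 8))) (x : Perm (Fin 8)) :
    (H : Subgroup (Perm (Fin 8))) ⊓ (H : Subgroup (Perm (Fin 8))).map (MulAut.conj x).toMonoidHom ≠ ⊥ := by
  have : Fact (Nat.Prime 2) := ⟨by norm_num⟩
  have hf : (Nat.card (Perm (Fin 8))).factorization 2 = 7 := by
    rw [Nat.card_perm, Nat.card_fin, show Nat.factorial 8 = 2 ^ 7 * 315 by decide,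
      Nat.factorization_mul (by norm_num) (by norm_num), Nat.Prime.factorization_pow (by norm_num)]
    simp [Nat.factorization_eq_zero_of_not_dvd (show ¬ 2 ∣ 315 by norm_num)]
  set S0 : Sylow 2 (Perm (Fin 8)) := Sylow.ofCard P0 (by rw [hf, card_P0]; norm_num) with hS0
  obtain ⟨g, hg⟩ := MulAction.exists_smul_eq (Perm (Fin 8)) S0 H
  have hH : ∀ y, y ∈ H ↔ g⁻¹ * y * g ∈ P0 := by
    intro y
    rw [← hg]
    change y ∈ ((g • S0 : Sylow 2 _) : Subgroup (Perm (Fin 8))) ↔ _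
    rw [Sylow.coe_subgroup_smul, Subgroup.mem_pointwise_smul_iff_inv_smul_mem, ← map_inv, MulAut.smul_def,
      MulAut.conj_apply, inv_inv]
    rfl
  obtain ⟨s, hs1, hs, hs'⟩ := main (g⁻¹ * x * g)
  intro hbot
  apply hs1
  have h1 : g * s * g⁻¹ ∈ (H : Subgroup (Perm (Fin 8))) ⊓
      (H : Subgroup (Perm (Fin 8))).map (MulAut.conj x).toMonoidHom := by
    refine ⟨?_, ?_⟩
    · refine (hH _).2 ?_
      have : g⁻¹ * (g * s * g⁻¹) * g = s := by group
      rw [this]
      exact hs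
    · refine ⟨x⁻¹ * (g * s * g⁻¹) * x, ?_, ?_⟩
      · refine (hH _).2 ?_
        have : g⁻¹ * (x⁻¹ * (g * s * g⁻¹) * x) * g = (g⁻¹ * x * g)⁻¹ * s * (g⁻¹ * x * g) := by group
        rw [this]
        exact hs'
      · simp only [MulEquiv.toMonoidHom_eq_coe, MonoidHom.coe_coe, MulAut.conj_apply]
        group
  rw [hbot, Subgroup.mem_bot] at h1
  calc s = g⁻¹ * (g * s * g⁻¹) * g := by group
    _ = 1 := by rw [h1]; group

end Cfsg.Agent.Lib.H52S8
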