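import Mathlib

/-!
# Decomposition of an integral Gram matrix by a verified search (helper52)

`f : ℕ → I → ℤ` are integer valued functions on a finite set with given inner products
`∑ i, f k i * f l i`.  The multiset of the nonzero columns `(f 0 i, ..., f (r-1) i)`, normalised up to
sign, is one of finitely many; `chk` is the (kernel friendly) search step and `st_step` its soundness.
-/

set_option autoImplicit false
set_option linter.all false

namespace Cfsg.Agent.Lib.H52S

def subl : List ℤ → ℤ → List ℤ → List ℤ
  | [], _, _ => []
  | a :: t, x, [] => a :: t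
  | a :: t, x, b :: s => (a - x * b) :: subl t x s

def bad : List ℤ → List (List ℤ) → Bool
  | [], _ => false
  | a :: t, S => (a != 0 && S.all fun s => s.headD 0 == 0) || bad t (S.map List.tail)

def enum : List (List ℤ) → ℤ → List ℤ → List (List ℤ × ℤ)
  | [], n, t => if t.all (fun a => a == 0) then [([], n)] else []
  | s :: S, n, t => if bad t (s :: S) then [] else
      ([-2, -1, 0, 1, 2] : List ℤ).flatMap fun x =>
        if n < x * x then [] else (enum S (n - x * x) (subl t x s)).map fun p => (x :: p.1, p.2)

def comps : ℤ → List (List ℤ)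
  | 0 => [[]]
  | 1 => [[1]]
  | 2 => [[1, 1]]
  | 3 => [[1, 1, 1]]
  | 4 => [[1, 1, 1, 1], [2]]
  | _ => []

def geL : List ℤ → List ℤ → Bool
  | [], _ => true
  | _ :: _, [] => true
  | a :: s, b :: t => if b < a then true else if a < b then false else geL s t

def ins (a : List ℤ) : List (List ℤ) → List (List ℤ)
  | [] => [a]
  | b :: l => if geL a b then a :: b :: l else b :: ins a l

def isort : List (List ℤ) → List (List ℤ)
  | [] => []
  | a :: l => ins a (isort l)

def build (S : List (List ℤ)) (c : List ℤ) (ν : List ℤ) (r : ℕ) : List (List ℤ) :=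
  List.zipWith (fun s x => s ++ [x]) S c ++ ν.map fun x => List.replicate r 0 ++ [x]

def chk (S : List (List ℤ)) (n : ℤ) (t : List ℤ) (r : ℕ) (next : List (List (List ℤ))) : Bool :=
  (enum S n t).all fun p => (comps p.2).all fun ν => next.elem (isort (build S p.1 ν r))

/-! ### sorting -/

theorem ins_perm (a : List ℤ) (l : List (List ℤ)) : (ins a l).Perm (a :: l) := by
  induction l with
  | nil => exact List.Perm.refl _
  | cons b l ih =>
    unfold ins
    split_ifs
    · exact List.Perm.refl _
    · exact (List.Perm.cons b ih).trans (List.Perm.swap a b l)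

theorem isort_perm (l : List (List ℤ)) : (isort l).Perm l := by
  induction l with
  | nil => exact List.Perm.refl _
  | cons a l ih => exact (ins_perm a _).trans (List.Perm.cons a ih)

/-! ### the enumeration -/

theorem subl_length (t : List ℤ) (x : ℤ) (s : List ℤ) : (subl t x s).length = t.length := by
  induction t generalizing s with
  | nil => rfl
  | cons a t ih =>
    cases s with
    | nil => rfl
    | cons b s => simp [subl, ih]

theorem subl_getD (t : List ℤ) (x : ℤ) (s : List ℤ) (k : ℕ) (hk : k < t.length) :
    (subl t x s).getD k 0 = t.getD k 0 - x * s.getD k 0 := by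
  induction t generalizing s k with
  | nil => simp at hk
  | cons a t ih =>
    cases s with
    | nil => simp [subl]
    | cons b s =>
      cases k with
      | zero => simp [subl]
      | succ k =>
        simp only [subl, List.getD_cons_succ]
        exact ih s k (by simpa using hk)

/-- the dot product of `c` with the `k`-th coordinates -/
def dot (k : ℕ) : List (List ℤ) → List ℤ → ℤ
  | s :: S, x :: c => x * s.getD k 0 + dot k S c
  | _, _ => 0

theorem bad_sound (t : List ℤ) (S : List (List ℤ)) (h : bad t S = true) :
    ∃ k < t.length, t.getD k 0 ≠ 0 ∧ ∀ s ∈ S, s.getD k 0 = 0 := by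
  induction t generalizing S with
  | nil => simp [bad] at h
  | cons a t ih =>
    simp only [bad, Bool.or_eq_true, Bool.and_eq_true, bne_iff_ne, ne_eq, List.all_eq_true, beq_iff_eq] at h
    rcases h with ⟨h1, h2⟩ | h
    · refine ⟨0, by simp, by simpa using h1, ?_⟩
      intro s hs
      have := h2 s hs
      cases s with
      | nil => rfl
      | cons b s => simpa using this
    · obtain ⟨k, hk, h1, h2⟩ := ih _ h
      refine ⟨k + 1, by simpa using hk, by simpa using h1, ?_⟩
      intro s hs
      have := h2 s.tail (List.mem_map_of_mem hs)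
      cases s with
      | nil => rfl
      | cons b s => simpa using this

theorem dot_zero (k : ℕ) (S : List (List ℤ)) (c : List ℤ) (h : ∀ s ∈ S, s.getD k 0 = 0) : dot k S c = 0 := by
  induction S generalizing c with
  | nil => rfl
  | cons s S ih =>
    cases c with
    | nil => rfl
    | cons x c =>
      simp only [dot]
      rw [h s (by simp), ih c (fun s' hs' => h s' (by simp [hs']))]
      ring

def nsq : List ℤ → ℤ
  | [] => 0
  | x :: c => x * x + nsq c

theorem nsq_nonneg (c : List ℤ) : 0 ≤ nsq c := by
  induction c with
  | nil => exact le_refl _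
  | cons x c ih => simp only [nsq]; nlinarith [mul_self_nonneg x]

theorem enum_sound (S : List (List ℤ)) (n : ℤ) (hn4 : n ≤ 4) (t : List ℤ) (c : List ℤ) (hc : c.length = S.length)
    (ht : ∀ k < t.length, t.getD k 0 = dot k S c) (hn : nsq c ≤ n) : (c, n - nsq c) ∈ enum S n t := by
  induction S generalizing n t c with
  | nil =>
    have : c = [] := by simpa using hc
    subst this
    unfold enum
    rw [if_pos]
    · simp [nsq]
    · rw [List.all_eq_true]
      intro a ha
      obtain ⟨k, hk, rfl⟩ := List.mem_iff_getElem.mp ha
      have := ht k hk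
      simp only [dot] at this
      rw [List.getD_eq_getElem _ _ hk] at this
      simpa using this
  | cons s S ih =>
    cases c with
    | nil => simp at hc
    | cons x c =>
      unfold enum
      rw [if_neg]
      · rw [List.mem_flatMap]
        simp only [nsq] at hn
        have hc0 := nsq_nonneg c
        refine ⟨x, ?_, ?_⟩
        · have h1 : x ≤ 2 := by nlinarith
          have h2 : -2 ≤ x := by nlinarith
          interval_cases x <;> simp
        · rw [if_neg (by linarith)]
          rw [List.mem_map]
          refine ⟨(c, n - x * x - nsq c), ?_, ?_⟩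
          · apply ih
            · nlinarith [mul_self_nonneg x]
            · simpa using hc
            · intro k hk
              rw [subl_length] at hk
              rw [subl_getD _ _ _ _ hk, ht k hk]
              simp only [dot]; ring
            · linarith
          · simp only [nsq]
            rw [sub_sub]
      · intro hb
        obtain ⟨k, hk, h1, h2⟩ := bad_sound _ _ hb
        apply h1
        rw [ht k hk]
        exact dot_zero _ _ _ h2

theorem comps_sound (ν : List ℤ) (m : ℤ) (hm : m ≤ 4) (hpos : ∀ x ∈ ν, 0 < x) (hν : nsq ν = m) : ν ∈ comps m := by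
  subst hν
  match ν, hpos, hm with
  | [], _, _ => simp [nsq, comps]
  | [a], hp, hm =>
    have ha := hp a (by simp)
    simp only [nsq] at hm
    have h1 : a ≤ 2 := by nlinarith
    interval_cases a <;> simp [nsq, comps]
  | [a, b], hp, hm =>
    have ha := hp a (by simp)
    have hb := hp b (by simp)
    simp only [nsq] at hm
    have h1 : a ≤ 1 := by nlinarith
    have h2 : b ≤ 1 := by nlinarith
    interval_cases a; interval_cases b; simp [nsq, comps]
  | [a, b, c], hp, hm =>
    have ha := hp a (by simp)
    have hb := hp b (by simp)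
    have hc := hp c (by simp)
    simp only [nsq] at hm
    have h1 : a ≤ 1 := by nlinarith
    have h2 : b ≤ 1 := by nlinarith
    have h3 : c ≤ 1 := by nlinarith
    interval_cases a; interval_cases b; interval_cases c; simp [nsq, comps]
  | [a, b, c, d], hp, hm =>
    have ha := hp a (by simp)
    have hb := hp b (by simp)
    have hc := hp c (by simp)
    have hd := hp d (by simp)
    simp only [nsq] at hm
    have h1 : a ≤ 1 := by nlinarith
    have h2 : b ≤ 1 := by nlinarith
    have h3 : c ≤ 1 := by nlinarith
    have h4 : d ≤ 1 := by nlinarith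
    interval_cases a; interval_cases b; interval_cases c; interval_cases d; simp [nsq, comps]
  | a :: b :: c :: d :: e :: l, hp, hm =>
    exfalso
    have ha := hp a (by simp)
    have hb := hp b (by simp)
    have hc := hp c (by simp)
    have hd := hp d (by simp)
    have he := hp e (by simp)
    have hl := nsq_nonneg l
    simp only [nsq] at hm
    nlinarith

/-! ### columns -/

def sgl : List ℤ → ℤ
  | [] => 0
  | x :: l => if x = 0 then sgl l else x.sign

theorem sgl_cases (l : List ℤ) : sgl l = 0 ∨ sgl l = 1 ∨ sgl l = -1 := by
  induction l with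
  | nil => left; rfl
  | cons x l ih =>
    unfold sgl
    split_ifs with h
    · exact ih
    · rcases lt_trichotomy x 0 with h1 | h1 | h1
      · right; right; exact Int.sign_eq_neg_one_of_neg h1
      · exact absurd h1 h
      · right; left; exact Int.sign_eq_one_of_pos h1

theorem sgl_sq {l : List ℤ} (h : sgl l ≠ 0) : sgl l * sgl l = 1 := by
  rcases sgl_cases l with h1 | h1 | h1
  · exact absurd h1 h
  · rw [h1]; norm_num
  · rw [h1]; norm_num

theorem sgl_eq_zero {l : List ℤ} (h : sgl l = 0) : ∀ x ∈ l, x = 0 := by
  induction l with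
  | nil => simp
  | cons x l ih =>
    unfold sgl at h
    split_ifs at h with h0
    · intro y hy
      rcases List.mem_cons.mp hy with rfl | hy
      · exact h0
      · exact ih h y hy
    · exact absurd (Int.sign_eq_zero_iff_zero.mp h) h0

theorem sgl_append (l : List ℤ) (x : ℤ) : sgl (l ++ [x]) = if sgl l = 0 then x.sign else sgl l := by
  induction l with
  | nil =>
    simp only [List.nil_append, sgl, if_true]
    split_ifs with h
    · rw [h]; rfl
    · rfl
  | cons y l ih =>
    simp only [List.cons_append, sgl]
    by_cases hy : y = 0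
    · simp only [hy, if_true, ih]
    · simp only [hy, if_false]
      rw [if_neg]
      intro h
      exact hy (Int.sign_eq_zero_iff_zero.mp h)

def nrm (l : List ℤ) : List ℤ := l.map fun x => sgl l * x

theorem nrm_append_of_ne {l : List ℤ} (h : sgl l ≠ 0) (x : ℤ) : nrm (l ++ [x]) = nrm l ++ [sgl l * x] := by
  unfold nrm
  rw [sgl_append, if_neg h, List.map_append, List.map_singleton]

theorem eq_replicate_of_zero {l : List ℤ} (h : ∀ x ∈ l, x = 0) : l = List.replicate l.length 0 :=
  List.eq_replicate_of_mem h

theorem nrm_append_of_eq {l : List ℤ} (h : sgl l = 0) (x : ℤ) : nrm (l ++ [x]) = List.replicate l.length 0 ++ [|x|] := by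
  unfold nrm
  rw [sgl_append, if_pos h, List.map_append, List.map_singleton]
  congr 1
  · rw [List.eq_replicate_iff]
    constructor
    · simp
    · intro y hy
      obtain ⟨z, hz, rfl⟩ := List.mem_map.mp hy
      rw [sgl_eq_zero h z hz, mul_zero]
  · rw [Int.sign_mul_self_eq_abs]

theorem exists_list_map {α β : Type*} {g : α → β} {S : List β} {s : Multiset α} (h : s.map g = ↑S) :
    ∃ l : List α, (l : Multiset α) = s ∧ l.map g = S := by
  induction S generalizing s with
  | nil =>
    have : s = 0 := by simpa using h
    exact ⟨[], by rw [this]; rfl, rfl⟩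
  | cons b S ih =>
    classical
    rw [← Multiset.cons_coe] at h
    obtain ⟨a, ha, hab, h2⟩ := (Multiset.map_eq_cons g s (↑S) b).mpr h
    obtain ⟨l, hl, hl2⟩ := ih h2
    refine ⟨a :: l, ?_, ?_⟩
    · rw [← Multiset.cons_coe, hl, Multiset.cons_erase ha]
    · rw [List.map_cons, hab, hl2]

section

variable {I : Type*}

/-- the column of `i` -/
def col (f : ℕ → I → ℤ) : ℕ → I → List ℤ
  | 0, _ => []
  | r + 1, i => col f r i ++ [f r i]

theorem col_length (f : ℕ → I → ℤ) (r : ℕ) (i : I) : (col f r i).length = r := by
  induction r with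
  | zero => rfl
  | succ r ih => simp [col, ih]

theorem col_getD (f : ℕ → I → ℤ) (r : ℕ) (i : I) (k : ℕ) (hk : k < r) : (col f r i).getD k 0 = f k i := by
  induction r with
  | zero => omega
  | succ r ih =>
    simp only [col]
    rcases Nat.lt_succ_iff_lt_or_eq.mp hk with h | h
    · rw [List.getD_append _ _ _ _ (by rw [col_length]; exact h)]
      exact ih h
    · subst h
      rw [List.getD_append_right _ _ _ _ (by rw [col_length])]
      simp [col_length]

theorem nrm_col_getD (f : ℕ → I → ℤ) (r : ℕ) (i : I) (k : ℕ) (hk : k < r) :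
    (nrm (col f r i)).getD k 0 = sgl (col f r i) * f k i := by
  unfold nrm
  have h1 : k < ((col f r i).map fun x => sgl (col f r i) * x).length := by
    rw [List.length_map, col_length]; exact hk
  rw [List.getD_eq_getElem _ _ h1]
  rw [List.getElem_map, ← List.getD_eq_getElem _ 0 (by rw [col_length]; exact hk), col_getD _ _ _ _ hk]

theorem f_zero_of_sgl (f : ℕ → I → ℤ) (r : ℕ) (i : I) (h : sgl (col f r i) = 0) (k : ℕ) (hk : k < r) : f k i = 0 := by
  rw [← col_getD f r i k hk]
  have h1 : k < (col f r i).length := by rw [col_length]; exact hk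
  rw [List.getD_eq_getElem _ _ h1]
  exact sgl_eq_zero h _ (List.getElem_mem h1)

variable [Fintype I] [DecidableEq I]

/-- the indices with a nonzero column -/
def sup (f : ℕ → I → ℤ) (r : ℕ) : Finset I := Finset.univ.filter fun i => sgl (col f r i) ≠ 0

/-- the multiset of normalised nonzero columns -/
def st (f : ℕ → I → ℤ) (r : ℕ) : Multiset (List ℤ) := (sup f r).val.map fun i => nrm (col f r i)

theorem mem_sup {f : ℕ → I → ℤ} {r : ℕ} {i : I} : i ∈ sup f r ↔ sgl (col f r i) ≠ 0 := by
  simp [sup]

theorem st_zero (f : ℕ → I → ℤ) : st f 0 = ↑([] : List (List ℤ)) := by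
  unfold st
  have : sup f 0 = ∅ := by
    unfold sup
    apply Finset.filter_eq_empty_iff.mpr
    intro i _
    simp [col, sgl]
  rw [this]; rfl

/-- an enumeration of the nonzero columns -/
theorem exists_enum {f : ℕ → I → ℤ} {r : ℕ} {S : List (List ℤ)} (hS : st f r = ↑S) :
    ∃ κ : List I, κ.Nodup ∧ (∀ i, i ∈ κ ↔ sgl (col f r i) ≠ 0) ∧ κ.map (fun i => nrm (col f r i)) = S := by
  obtain ⟨l, h1, h2⟩ := exists_list_map hS
  refine ⟨l, ?_, ?_, h2⟩
  · rw [← Multiset.coe_nodup, h1]; exact (sup f r).nodup
  · intro i
    rw [← mem_sup, ← Multiset.mem_coe, h1]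
    exact Iff.rfl

theorem sum_eq_list {κ : List I} (hκ : κ.Nodup) (F : I → ℤ) (hF : ∀ i, i ∉ κ → F i = 0) :
    ∑ i, F i = (κ.map F).sum := by
  rw [← List.sum_toFinset F hκ]
  symm
  apply Finset.sum_subset (Finset.subset_univ _)
  intro i _ hi
  exact hF i (fun h => hi (List.mem_toFinset.mpr h))

theorem dot_map (k : ℕ) (κ : List I) (g : I → List ℤ) (h : I → ℤ) :
    dot k (κ.map g) (κ.map h) = (κ.map fun i => h i * (g i).getD k 0).sum := by
  induction κ with
  | nil => rfl
  | cons a κ ih => simp [dot, ih]

theorem nsq_map (κ : List I) (h : I → ℤ) : nsq (κ.map h) = (κ.map fun i => h i * h i).sum := by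
  induction κ with
  | nil => rfl
  | cons a κ ih => simp [nsq, ih]

theorem zipWith_map_map {α β γ : Type*} (κ : List I) (F : α → β → γ) (g : I → α) (h : I → β) :
    List.zipWith F (κ.map g) (κ.map h) = κ.map fun i => F (g i) (h i) := by
  induction κ with
  | nil => rfl
  | cons a κ ih => simp [ih]

theorem st_step {f : ℕ → I → ℤ} {r : ℕ} {S : List (List ℤ)} (hS : st f r = ↑S) {n : ℤ} (hn4 : n ≤ 4)
    (hn : ∑ i, f r i * f r i = n) {t : List ℤ} (htl : t.length = r)
    (ht : ∀ k < r, ∑ i, f k i * f r i = t.getD k 0) {next : List (List (List ℤ))}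
    (hchk : chk S n t r next = true) : ∃ S' ∈ next, st f (r + 1) = ↑S' := by
  obtain ⟨κ, hκ, hκm, hκS⟩ := exists_enum hS
  set c : List ℤ := κ.map fun i => sgl (col f r i) * f r i with hc
  set B : Finset I := Finset.univ.filter fun i => sgl (col f r i) = 0 ∧ f r i ≠ 0 with hB
  set ν : List ℤ := B.toList.map fun i => |f r i| with hν
  have hdot : ∀ k < t.length, t.getD k 0 = dot k S c := by
    intro k hk
    rw [htl] at hk
    rw [← ht k hk, ← hκS, hc, dot_map]
    rw [sum_eq_list hκ]
    · congr 1
      apply List.map_congr_left
      intro i hi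
      rw [nrm_col_getD f r i k hk]
      have := sgl_sq ((hκm i).mp hi)
      linear_combination (- f k i * f r i) * this
    · intro i hi
      have h0 : sgl (col f r i) = 0 := by
        by_contra h
        exact hi ((hκm i).mpr h)
      rw [f_zero_of_sgl f r i h0 k hk, zero_mul]
  have hsplit : n = nsq c + nsq ν := by
    rw [← hn]
    have e1 : ∑ i, f r i * f r i = ∑ i ∈ κ.toFinset, f r i * f r i + ∑ i ∈ B, f r i * f r i := by
      rw [← Finset.sum_union]
      · symm
        apply Finset.sum_subset (Finset.subset_univ _)
        intro i _ hi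
        rw [Finset.mem_union, List.mem_toFinset, hB, Finset.mem_filter, not_or] at hi
        have h1 : sgl (col f r i) = 0 := by
          by_contra h
          exact hi.1 ((hκm i).mpr h)
        have h2 : f r i = 0 := by
          by_contra h
          exact hi.2 ⟨Finset.mem_univ _, h1, h⟩
        rw [h2, mul_zero]
      · rw [Finset.disjoint_left]
        intro i hi hi2
        rw [List.mem_toFinset, hκm] at hi
        rw [hB, Finset.mem_filter] at hi2
        exact hi hi2.2.1
    rw [e1, List.sum_toFinset _ hκ, hc, nsq_map, hν]
    have e2 : nsq (B.toList.map fun i => |f r i|) = ∑ i ∈ B, f r i * f r i := by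
      rw [nsq_map (κ := B.toList) (h := fun i => |f r i|)]
      rw [Finset.sum_map_toList B (fun i => |f r i| * |f r i|)]
      apply Finset.sum_congr rfl
      intro i _
      exact abs_mul_abs_self _
    rw [e2]
    congr 2
    apply List.map_congr_left
    intro i hi
    have := sgl_sq ((hκm i).mp hi)
    linear_combination (- f r i * f r i) * this
  have hν0 := nsq_nonneg ν
  have hc0 := nsq_nonneg c
  have hen := enum_sound S n hn4 t c (by rw [hc, ← hκS]; simp) hdot (by linarith)
  have hco : ν ∈ comps (n - nsq c) := by
    apply comps_sound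
    · linarith
    · intro x hx
      rw [hν, List.mem_map] at hx
      obtain ⟨i, hi, rfl⟩ := hx
      rw [Finset.mem_toList, hB, Finset.mem_filter] at hi
      exact abs_pos.mpr hi.2.2
    · linarith
  unfold chk at hchk
  rw [List.all_eq_true] at hchk
  have h1 := hchk _ hen
  simp only [] at h1
  rw [List.all_eq_true] at h1
  have h2 := h1 _ hco
  rw [List.elem_iff] at h2
  refine ⟨_, h2, ?_⟩
  rw [Multiset.coe_eq_coe.mpr (isort_perm _)]
  unfold build
  rw [← hκS, hc, zipWith_map_map, ← Multiset.coe_add]
  unfold st
  have hsup : sup f (r + 1) = κ.toFinset ∪ B := by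
    ext i
    rw [mem_sup, Finset.mem_union, List.mem_toFinset, hκm, hB, Finset.mem_filter]
    simp only [col]
    rw [sgl_append]
    by_cases h : sgl (col f r i) = 0
    · rw [if_pos h]
      simp only [h, ne_eq, not_true_eq_false, Finset.mem_univ, true_and, false_or]
      rw [Int.sign_eq_zero_iff_zero]
    · rw [if_neg h]
      simp [h]
  have hdisj : Disjoint κ.toFinset B := by
    rw [Finset.disjoint_left]
    intro i hi hi2
    rw [List.mem_toFinset, hκm] at hi
    rw [hB, Finset.mem_filter] at hi2
    exact hi hi2.2.1
  rw [hsup, ← Finset.disjUnion_eq_union _ _ hdisj, Finset.disjUnion_val, Multiset.map_add]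
  congr 1
  · rw [List.toFinset_val, hκ.dedup, Multiset.map_coe]
    congr 1
    apply List.map_congr_left
    intro i hi
    simp only [col]
    rw [nrm_append_of_ne ((hκm i).mp hi)]
  · rw [hν, ← Finset.coe_toList B, Multiset.map_coe, List.map_map]
    congr 1
    apply List.map_congr_left
    intro i hi
    rw [Finset.mem_toList, hB, Finset.mem_filter] at hi
    simp only [col, Function.comp]
    rw [nrm_append_of_eq hi.2.1, col_length]

end

end Cfsg.Agent.Lib.H52S
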