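import Cfsg.Agent.Lib.H52SB

/-!
# The arithmetic for the normalizer `3^3 : S4` (helper52)
-/

set_option autoImplicit false
set_option linter.all false

namespace Cfsg.Agent.Lib.H52S

/-- the final arithmetic for the standard decomposition -/
theorem std_arith (g F1 F2 h h0 p p1 p2 a b c c' : ℤ) (hF1 : F1 ≠ 0) (hF2 : F2 ≠ 0)
    (hF : F1 + F2 = 1 + a + 2 * b + 3 * c + 3 * c') (hH : h0 + 2 * h = 1 + a + 2 * b + 3 * c + 3 * c')
    (hP : p1 + p2 + 2 * p = 1 + a + 2 * b + 3 * c + 3 * c')
    (e1 : g * (F1 + F2) = 108 * (F1 * F2)) (e2 : g * (2 * h0 + h) = 243 * (h * h0))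
    (sq : 1 + a * a + b * b + c * c + c' * c' + F1 * F1 + F2 * F2 + h0 * h0 + 2 * (h * h) + 2 * (p * p) + p1 * p1 + p2 * p2 ≤ g)
    (hg : 648 ≤ g) (hT : (27 : ℤ) ∣ (F1 + F2) - 24) (hh : (27 : ℤ) ∣ h - 8) : g = 648 := by
  set T := 1 + a + 2 * b + 3 * c + 3 * c' with hTd
  rw [hF] at e1 hT
  rcases lt_trichotomy T 0 with hneg | hz | hpos
  · exfalso
    have h1 : -54 < T := by
      by_contra hcon
      push Not at hcon
      have h2 : g * T ≤ g * (-54) := mul_le_mul_of_nonneg_left hcon (by linarith)
      nlinarith [sq_nonneg (F1 + F2), mul_self_nonneg a, mul_self_nonneg b, mul_self_nonneg c, mul_self_nonneg c',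
        mul_self_nonneg h0, mul_self_nonneg h, mul_self_nonneg p, mul_self_nonneg p1, mul_self_nonneg p2]
    have hcases : T = -3 ∨ T = -30 := by omega
    rcases hcases with h3 | h3
    · rw [h3] at e1 hF hH
      have hh0 : h0 = -3 - 2 * h := by linarith
      subst hh0
      have e3 : g * (h + 2) = 81 * (h * (2 * h + 3)) := by nlinarith
      have hsq : 6 * (h * h) + 12 * h + 9 ≤ g := by
        nlinarith [mul_self_nonneg a, mul_self_nonneg b, mul_self_nonneg c, mul_self_nonneg c',
          mul_self_nonneg F1, mul_self_nonneg F2, mul_self_nonneg p, mul_self_nonneg p1, mul_self_nonneg p2]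
      have h4 : -2 < h := by
        by_contra hcon
        push Not at hcon
        have h5 : g * (h + 2) ≤ 0 := mul_nonpos_of_nonneg_of_nonpos (by linarith) (by linarith)
        have h6 : 0 < h * (2 * h + 3) := mul_pos_of_neg_of_neg (by linarith) (by linarith)
        linarith
      have h5 : 8 ≤ h := by omega
      have h6 : h < 27 := by
        by_contra hcon
        push Not at hcon
        have h7 : (6 * (h * h) + 12 * h + 9) * (h + 2) ≤ g * (h + 2) := mul_le_mul_of_nonneg_right hsq (by linarith)
        nlinarith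
      have h7 : h = 8 := by omega
      subst h7
      omega
    · rw [h3] at e1 hF hH
      have hh0 : h0 = -30 - 2 * h := by linarith
      subst hh0
      have e3 : g * (h + 20) = 162 * (h * (h + 15)) := by nlinarith
      have hsq : 6 * (h * h) + 120 * h + 900 ≤ g := by
        nlinarith [mul_self_nonneg a, mul_self_nonneg b, mul_self_nonneg c, mul_self_nonneg c',
          mul_self_nonneg F1, mul_self_nonneg F2, mul_self_nonneg p, mul_self_nonneg p1, mul_self_nonneg p2]
      have h4 : -20 < h := by
        by_contra hcon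
        push Not at hcon
        have h5 : g * (h + 20) ≤ 0 := mul_nonpos_of_nonneg_of_nonpos (by linarith) (by linarith)
        have h6 : 0 < h * (h + 15) := mul_pos_of_neg_of_neg (by linarith) (by linarith)
        linarith
      have h6 : h < 27 := by
        by_contra hcon
        push Not at hcon
        have h7 : (6 * (h * h) + 120 * h + 900) * (h + 20) ≤ g * (h + 20) := mul_le_mul_of_nonneg_right hsq (by linarith)
        nlinarith
      have h7 : h = -19 ∨ h = 8 := by omega
      rcases h7 with rfl | rfl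
      · have hg2 : g = 12312 := by omega
        subst hg2
        have h8 : F2 = -30 - F1 := by linarith
        subst h8
        have h9 : (F1 + 15) * (F1 + 15) = 3645 := by nlinarith
        have h10 : F1 + 15 < 61 := by nlinarith
        have h11 : -61 < F1 + 15 := by nlinarith
        have h12 : F1 + 15 ≤ 60 := by linarith
        have h13 : -60 ≤ F1 + 15 := by linarith
        nlinarith
      · omega
  · exfalso
    rw [hz, mul_zero] at e1
    have : F1 * F2 = 0 := by linarith
    rcases mul_eq_zero.mp this with h1 | h1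
    · exact hF1 h1
    · exact hF2 h1
  · have q1 : 4 * (F1 * F2) ≤ T * T := by rw [← hF]; nlinarith [sq_nonneg (F1 - F2)]
    have q2 : g ≤ 27 * T := by
      have : g * T ≤ (27 * T) * T := by nlinarith
      exact le_of_mul_le_mul_right this hpos
    have q3 : T * T ≤ 2 * (F1 * F1 + F2 * F2) := by rw [← hF]; nlinarith [sq_nonneg (F1 - F2)]
    have q4 : T * T ≤ 3 * (h0 * h0 + 2 * (h * h)) := by rw [← hH]; nlinarith [sq_nonneg (h0 - h)]
    have q5 : T * T ≤ 4 * (p1 * p1 + p2 * p2 + 2 * (p * p)) := by
      rw [← hP]; nlinarith [sq_nonneg (p1 - p), sq_nonneg (p2 - p), sq_nonneg (p1 - p2)]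
    have q6 : T * T ≤ 24 * (1 + a * a + b * b + c * c + c' * c') := by
      rw [hTd]
      nlinarith [sq_nonneg (a - 1), sq_nonneg (b - 2), sq_nonneg (c - 3), sq_nonneg (c' - 3), sq_nonneg (b - 2 * a),
        sq_nonneg (c - 3 * a), sq_nonneg (c' - 3 * a), sq_nonneg (2 * c - 3 * b), sq_nonneg (2 * c' - 3 * b), sq_nonneg (c - c')]
    have q7 : 9 * (T * T) ≤ 8 * g := by nlinarith
    have q8 : T * T ≤ 24 * T := by nlinarith
    have q9 : T ≤ 24 := le_of_mul_le_mul_right q8 hpos
    linarith

/-! ### packaging -/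

/-- evaluation of a linear form -/
def ev : List ℤ → List ℤ → ℤ
  | v :: V, x :: X => v * x + ev V X
  | _, _ => 0

/-- the sum of a cubic form divided by the degree -/
def cub (v1 v2 v3 : List ℤ) : List (List ℤ) → List ℤ → ℚ
  | C :: S, x :: Δ => ((ev v1 C * ev v2 C * ev v3 C : ℤ) : ℚ) / (x : ℚ) + cub v1 v2 v3 S Δ
  | _, _ => 0

theorem ev_smul (v : List ℤ) (C : List ℤ) (s : ℤ) : ev v (C.map fun x => s * x) = s * ev v C := by
  induction v generalizing C with
  | nil => simp [ev]
  | cons a v ih =>
    cases C with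
    | nil => simp [ev]
    | cons x C => simp only [List.map_cons, ev, ih]; ring

section

variable {I : Type*} [Fintype I] [DecidableEq I]

/-- the data extracted from the decomposition -/
structure Pack (S : List (List ℤ)) (Δ : List ℤ) (P : List ℤ) (r : ℕ) (g : ℤ) : Prop where
  len : Δ.length = S.length
  ne : ∀ x ∈ Δ, x ≠ 0
  lin : ∀ k < r, P.getD k 0 + dot k S Δ = 0
  sq : 1 + nsq Δ ≤ g

theorem sum_split {κ : List I} (hκ : κ.Nodup) {i0 : I} (h0 : i0 ∉ κ) {M : Type*} [AddCommMonoid M] (F : I → M)
    (hF : ∀ i, i ≠ i0 → i ∉ κ → F i = 0) : ∑ i, F i = F i0 + (κ.map F).sum := by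
  rw [← List.sum_toFinset F hκ, ← Finset.sum_insert (by rwa [List.mem_toFinset])]
  symm
  apply Finset.sum_subset (Finset.subset_univ _)
  intro i _ hi
  rw [Finset.mem_insert, List.mem_toFinset, not_or] at hi
  exact hF i hi.1 hi.2

theorem pack {f : ℕ → I → ℤ} {i0 : I} {d : I → ℤ} {g : ℤ} {r : ℕ} {P : List ℤ} (hP : P.length = r)
    (hd : ∀ i, 0 < d i) (d0 : d i0 = 1) (p0 : ∀ k < r, f k i0 = P.getD k 0)
    (hz : ∀ k < r, ∑ i, f k i * d i = 0) (hsq : ∑ i, d i * d i = g) {S : List (List ℤ)}
    (hS : st (fun k i => if i = i0 then 0 else f k i) r = ↑S) :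
    ∃ Δ : List ℤ, Pack S Δ P r g ∧
      (∀ v1 v2 v3 : List ℤ, ∀ E1 E2 E3 : I → ℤ, (∀ i, E1 i = ev v1 (col f r i)) → (∀ i, E2 i = ev v2 (col f r i)) →
        (∀ i, E3 i = ev v3 (col f r i)) →
        ∑ i, ((E1 i * E2 i * E3 i : ℤ) : ℚ) / (d i : ℚ) = ((ev v1 P * ev v2 P * ev v3 P : ℤ) : ℚ) + cub v1 v2 v3 S Δ) ∧
      (∀ v : List ℤ, ∀ m : ℤ, (∀ i, m ∣ d i + ev v (col f r i)) → ∀ x ∈ List.zipWith (fun C δ => δ + ev v C) S Δ, m ∣ x) := by
  set f' : ℕ → I → ℤ := fun k i => if i = i0 then 0 else f k i with hf'
  obtain ⟨κ, hκ, hκm, hκS⟩ := exists_enum hS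
  have c0 : ∀ r, col f' r i0 = List.replicate r 0 := by
    intro r
    induction r with
    | zero => rfl
    | succ r ih =>
      have h1 : f' r i0 = 0 := by simp [hf']
      show col f' r i0 ++ [f' r i0] = _
      rw [ih, h1, List.replicate_succ']
  have s0 : ∀ n, sgl (List.replicate n 0) = 0 := by
    intro n
    induction n with
    | zero => rfl
    | succ n ih => simp [List.replicate_succ, sgl, ih]
  have hi0 : i0 ∉ κ := by
    rw [hκm, c0, s0]; simp
  have cne : ∀ r i, i ≠ i0 → col f' r i = col f r i := by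
    intro r i hi
    induction r with
    | zero => rfl
    | succ r ih =>
      have h1 : f' r i = f r i := by simp [hf', hi]
      show col f' r i ++ [f' r i] = col f r i ++ [f r i]
      rw [ih, h1]
  have hκ0 : ∀ i ∈ κ, i ≠ i0 := fun i hi h => hi0 (h ▸ hi)
  set sg : I → ℤ := fun i => sgl (col f' r i) with hsg
  have sgs : ∀ i ∈ κ, sg i * sg i = 1 := fun i hi => sgl_sq ((hκm i).mp hi)
  have fz : ∀ i, i ≠ i0 → i ∉ κ → ∀ k < r, f k i = 0 := by
    intro i hi hik k hk
    have h1 : sgl (col f' r i) = 0 := by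
      by_contra h
      exact hik ((hκm i).mpr h)
    have := f_zero_of_sgl f' r i h1 k hk
    simpa [hf', hi] using this
  have colz : ∀ i, i ≠ i0 → i ∉ κ → ∀ x ∈ col f r i, x = 0 := by
    intro i hi hik
    have h1 : sgl (col f' r i) = 0 := by
      by_contra h
      exact hik ((hκm i).mpr h)
    rw [cne r i hi] at h1
    exact sgl_eq_zero h1
  have evz : ∀ (v C : List ℤ), (∀ x ∈ C, x = 0) → ev v C = 0 := by
    intro v C hC
    induction v generalizing C with
    | nil => simp [ev]
    | cons a v ih =>
      cases C with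
      | nil => simp [ev]
      | cons x C => simp only [ev]; rw [hC x (by simp), ih C (fun y hy => hC y (by simp [hy]))]; ring
  have evc : ∀ (v : List ℤ) (i : I), i ∈ κ → ev v (nrm (col f' r i)) = sg i * ev v (col f r i) := by
    intro v i hi
    rw [← cne r i (hκ0 i hi)]
    exact ev_smul v _ _
  have colP : col f r i0 = P := by
    apply List.ext_getElem
    · rw [col_length, hP]
    · intro k h1 h2
      rw [col_length] at h1
      have h3 := p0 k h1
      rw [← col_getD f r i0 k h1] at h3
      rw [List.getD_eq_getElem _ _ (by rw [col_length]; exact h1), List.getD_eq_getElem _ _ h2] at h3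
      exact h3
  set Δ : List ℤ := κ.map fun i => sg i * d i with hΔ
  refine ⟨Δ, ⟨?_, ?_, ?_, ?_⟩, ?_, ?_⟩
  · rw [hΔ, ← hκS]; simp
  · intro x hx
    rw [hΔ, List.mem_map] at hx
    obtain ⟨i, hi, rfl⟩ := hx
    have h1 := sgs i hi
    intro h
    rcases mul_eq_zero.mp h with h | h
    · rw [h] at h1; norm_num at h1
    · exact (hd i).ne' h
  · intro k hk
    have h1 := hz k hk
    rw [sum_split hκ hi0 _ (fun i hi hik => by rw [fz i hi hik k hk, zero_mul]), d0, mul_one, p0 k hk] at h1
    rw [← h1, ← hκS, hΔ, dot_map]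
    congr 2
    apply List.map_congr_left
    intro i hi
    rw [nrm_col_getD f' r i k hk]
    have h2 : f' k i = f k i := by simp [hf', hκ0 i hi]
    rw [h2]
    have := sgs i hi
    show sg i * d i * (sg i * f k i) = f k i * d i
    linear_combination (d i * f k i) * this
  · rw [← hsq]
    have h1 : nsq Δ = (κ.map fun i => d i * d i).sum := by
      rw [hΔ, nsq_map]
      congr 1
      apply List.map_congr_left
      intro i hi
      have := sgs i hi
      linear_combination (d i * d i) * this
    rw [h1, ← List.sum_toFinset _ hκ]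
    have h2 : (1 : ℤ) = d i0 * d i0 := by rw [d0]; norm_num
    rw [h2, ← Finset.sum_insert (f := fun i => d i * d i) (by rwa [List.mem_toFinset])]
    exact Finset.sum_le_sum_of_subset_of_nonneg (Finset.subset_univ _) (fun i _ _ => mul_self_nonneg _)
  · intro v1 v2 v3 E1 E2 E3 h1 h2 h3
    rw [sum_split hκ hi0]
    · rw [h1, h2, h3, colP, d0]
      congr 1
      · push_cast; ring
      · rw [← hκS, hΔ]
        clear hκ hκm hκS hS hi0 fz colz hΔ
        have key : ∀ l : List I, (∀ i ∈ l, i ∈ κ) →
            (l.map fun i => ((E1 i * E2 i * E3 i : ℤ) : ℚ) / (d i : ℚ)).sum =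
            cub v1 v2 v3 (l.map fun i => nrm (col f' r i)) (l.map fun i => sg i * d i) := by
          intro l hl
          induction l with
          | nil => rfl
          | cons i l ih =>
            simp only [List.map_cons, List.sum_cons, cub]
            rw [ih (fun j hj => hl j (by simp [hj]))]
            congr 1
            have hi := hl i (by simp)
            rw [evc v1 i hi, evc v2 i hi, evc v3 i hi, h1, h2, h3]
            have hs := sgs i hi
            have hs2 : (sg i : ℚ) * (sg i : ℚ) = 1 := by exact_mod_cast hs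
            have hs0 : (sg i : ℚ) ≠ 0 := by
              intro h; rw [h] at hs2; norm_num at hs2
            have hd0 : (d i : ℚ) ≠ 0 := by exact_mod_cast (hd i).ne'
            push_cast
            field_simp
            linear_combination (- (ev v1 (col f r i) : ℚ) * (ev v2 (col f r i) : ℚ) * (ev v3 (col f r i) : ℚ)) * hs2
        exact key κ (fun i hi => hi)
    · intro i hi hik
      rw [h1, evz v1 _ (colz i hi hik)]
      simp
  · intro v m hm x hx
    rw [← hκS, hΔ, zipWith_map_map, List.mem_map] at hx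
    obtain ⟨i, hi, rfl⟩ := hx
    rw [evc v i hi]
    have : sg i * d i + sg i * ev v (col f r i) = sg i * (d i + ev v (col f r i)) := by ring
    rw [this]
    exact Dvd.dvd.mul_left (hm i) _

end

end Cfsg.Agent.Lib.H52S
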