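import Cfsg.Agent.Lib.H52SC

/-!
# The order of a group with a `3^3 : S4` normalizer: abstract form (helper52)
-/

set_option autoImplicit false
set_option linter.all false

namespace Cfsg.Agent.Lib.H52S

def PP : List ℤ := [0, 0, 0, 0, 1, 1, 0, 0, 1]
def vE : List ℤ := [-3, 4, 6, 8, -3, 0, -3, 0, 4]
def vF : List ℤ := [0, -2, 0, 2, 0, 3, 0, 3, -2]
def vH : List ℤ := [3, 1, 3, -4, 3, -3, 3, -3, 1]
def vC : List ℤ := [6, 8, 60, 40, 6, 12, 6, 12, 8]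

def S0 : List (List ℤ) := [[1, 0, 0, 0, 0, 0, -1, 0, 0], [1, 0, -1, 1, 0, 0, 1, 0, 1], [0, 1, 0, 0, 0, 0, 0, 0, 0], [0, 1, 0, -1, 0, 1, 0, 1, 0], [0, 0, 1, 0, 1, 0, 1, 1, 0], [0, 0, 1, 0, 0, 1, 1, 0, 0], [0, 0, 0, 1, 1, 0, 0, 0, 0], [0, 0, 0, 0, 1, 0, 0, 0, 0], [0, 0, 0, 0, 0, 1, 0, 0, 0], [0, 0, 0, 0, 0, 0, 0, 1, 1], [0, 0, 0, 0, 0, 0, 0, 1, 0], [0, 0, 0, 0, 0, 0, 0, 0, 1]]

def S1 : List (List ℤ) := [[1, 0, 0, 0, 0, 0, 0, 0, 0], [1, 0, -1, 1, 0, 0, 0, 0, 1], [0, 1, 0, 0, 0, 0, 0, 0, 0], [0, 1, 0, -1, 0, 1, 0, 1, 0], [0, 0, 1, 0, 1, 0, 0, 1, 0], [0, 0, 1, 0, 0, 1, 1, 0, 0], [0, 0, 0, 1, 1, 0, 1, 0, 0], [0, 0, 0, 0, 1, 0, 0, 0, 0], [0, 0, 0, 0, 0, 1, 0, 0, 0], [0, 0, 0, 0, 0, 0, 1, 1, 0], [0, 0, 0, 0, 0, 0, 1, 0, 1], [0, 0, 0, 0, 0, 0, 0, 1, 1]]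

def S2 : List (List ℤ) := [[1, 0, 0, 0, 0, 0, 0, 0, 0], [1, 0, -1, 1, 0, 0, 0, 0, 1], [0, 1, 0, 0, 0, 0, 0, 0, 0], [0, 1, 0, -1, 0, 1, 0, 1, 0], [0, 0, 1, 0, 1, 0, 0, 1, 0], [0, 0, 1, 0, 0, 1, 1, 0, 0], [0, 0, 0, 1, 1, 0, 1, 0, 0], [0, 0, 0, 0, 1, 0, 0, 0, 0], [0, 0, 0, 0, 0, 1, 0, 0, 0], [0, 0, 0, 0, 0, 0, 1, 1, 1], [0, 0, 0, 0, 0, 0, 1, 0, 0], [0, 0, 0, 0, 0, 0, 0, 1, 0], [0, 0, 0, 0, 0, 0, 0, 0, 1]]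

def S3 : List (List ℤ) := [[1, 0, 0, 0, 0, 0, -1, 0, 0], [1, 0, -1, 1, 0, 0, 1, 0, 1], [0, 1, 0, 0, 0, 1, 0, 0, 0], [0, 1, 0, -1, 0, 0, 0, 1, 0], [0, 0, 1, 0, 1, 1, 1, 1, 0], [0, 0, 1, 0, 0, 0, 1, 0, 0], [0, 0, 0, 1, 1, -1, 0, 0, 0], [0, 0, 0, 0, 1, 0, 0, 0, 0], [0, 0, 0, 0, 0, 0, 0, 1, 1], [0, 0, 0, 0, 0, 0, 0, 1, 0], [0, 0, 0, 0, 0, 0, 0, 0, 1]]

theorem cub1_EEF (x0 x1 x2 x3 x4 x5 x6 x7 x8 x9 x10 x11 : ℤ) : cub vE vE vF S1 [x0, x1, x2, x3, x4, x5, x6, x7, x8, x9, x10, x11] = (-32) / (x2 : ℚ) + (32) / (x3 : ℚ) + (27) / (x4 : ℚ) + (27) / (x5 : ℚ) + (8) / (x6 : ℚ) + (27) / (x9 : ℚ) + (-2) / (x10 : ℚ) + (16) / (x11 : ℚ) := by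
  simp only [cub, ev, vE, vE, vF, S1]
  norm_num
  try ring

theorem cub1_EFF (x0 x1 x2 x3 x4 x5 x6 x7 x8 x9 x10 x11 : ℤ) : cub vE vF vF S1 [x0, x1, x2, x3, x4, x5, x6, x7, x8, x9, x10, x11] = (16) / (x2 : ℚ) + (-16) / (x3 : ℚ) + (27) / (x4 : ℚ) + (27) / (x5 : ℚ) + (8) / (x6 : ℚ) + (-27) / (x9 : ℚ) + (4) / (x10 : ℚ) + (4) / (x11 : ℚ) := by
  simp only [cub, ev, vE, vF, vF, S1]
  norm_num
  try ring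

theorem cub1_EEH (x0 x1 x2 x3 x4 x5 x6 x7 x8 x9 x10 x11 : ℤ) : cub vE vE vH S1 [x0, x1, x2, x3, x4, x5, x6, x7, x8, x9, x10, x11] = (27) / (x0 : ℚ) + (-27) / (x1 : ℚ) + (16) / (x2 : ℚ) + (-16) / (x3 : ℚ) + (27) / (x4 : ℚ) + (27) / (x5 : ℚ) + (8) / (x6 : ℚ) + (27) / (x7 : ℚ) + (4) / (x10 : ℚ) + (-32) / (x11 : ℚ) := by
  simp only [cub, ev, vE, vE, vH, S1]
  norm_num
  try ring

theorem cub1_EHH (x0 x1 x2 x3 x4 x5 x6 x7 x8 x9 x10 x11 : ℤ) : cub vE vH vH S1 [x0, x1, x2, x3, x4, x5, x6, x7, x8, x9, x10, x11] = (-27) / (x0 : ℚ) + (27) / (x1 : ℚ) + (4) / (x2 : ℚ) + (-4) / (x3 : ℚ) + (27) / (x4 : ℚ) + (27) / (x5 : ℚ) + (8) / (x6 : ℚ) + (-27) / (x7 : ℚ) + (16) / (x10 : ℚ) + (16) / (x11 : ℚ) := by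
  simp only [cub, ev, vE, vH, vH, S1]
  norm_num
  try ring

theorem cub1_FFH (x0 x1 x2 x3 x4 x5 x6 x7 x8 x9 x10 x11 : ℤ) : cub vF vF vH S1 [x0, x1, x2, x3, x4, x5, x6, x7, x8, x9, x10, x11] = (4) / (x2 : ℚ) + (-4) / (x3 : ℚ) + (27) / (x4 : ℚ) + (27) / (x5 : ℚ) + (8) / (x6 : ℚ) + (-27) / (x8 : ℚ) + (16) / (x10 : ℚ) + (-2) / (x11 : ℚ) := by
  simp only [cub, ev, vF, vF, vH, S1]
  norm_num
  try ring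

theorem cub1_FHH (x0 x1 x2 x3 x4 x5 x6 x7 x8 x9 x10 x11 : ℤ) : cub vF vH vH S1 [x0, x1, x2, x3, x4, x5, x6, x7, x8, x9, x10, x11] = (-2) / (x2 : ℚ) + (2) / (x3 : ℚ) + (27) / (x4 : ℚ) + (27) / (x5 : ℚ) + (8) / (x6 : ℚ) + (27) / (x8 : ℚ) + (-32) / (x10 : ℚ) + (4) / (x11 : ℚ) := by
  simp only [cub, ev, vF, vH, vH, S1]
  norm_num
  try ring

theorem cub1_EFH (x0 x1 x2 x3 x4 x5 x6 x7 x8 x9 x10 x11 : ℤ) : cub vE vF vH S1 [x0, x1, x2, x3, x4, x5, x6, x7, x8, x9, x10, x11] = (-8) / (x2 : ℚ) + (8) / (x3 : ℚ) + (27) / (x4 : ℚ) + (27) / (x5 : ℚ) + (8) / (x6 : ℚ) + (-8) / (x10 : ℚ) + (-8) / (x11 : ℚ) := by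
  simp only [cub, ev, vE, vF, vH, S1]
  norm_num
  try ring

theorem cub2_EEF (x0 x1 x2 x3 x4 x5 x6 x7 x8 x9 x10 x11 x12 : ℤ) : cub vE vE vF S2 [x0, x1, x2, x3, x4, x5, x6, x7, x8, x9, x10, x11, x12] = (-32) / (x2 : ℚ) + (32) / (x3 : ℚ) + (27) / (x4 : ℚ) + (27) / (x5 : ℚ) + (8) / (x6 : ℚ) + (1) / (x9 : ℚ) + (-32) / (x12 : ℚ) := by
  simp only [cub, ev, vE, vE, vF, S2]
  norm_num
  try ring

theorem cub2_EFF (x0 x1 x2 x3 x4 x5 x6 x7 x8 x9 x10 x11 x12 : ℤ) : cub vE vF vF S2 [x0, x1, x2, x3, x4, x5, x6, x7, x8, x9, x10, x11, x12] = (16) / (x2 : ℚ) + (-16) / (x3 : ℚ) + (27) / (x4 : ℚ) + (27) / (x5 : ℚ) + (8) / (x6 : ℚ) + (1) / (x9 : ℚ) + (16) / (x12 : ℚ) := by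
  simp only [cub, ev, vE, vF, vF, S2]
  norm_num
  try ring

theorem cub2_EEH (x0 x1 x2 x3 x4 x5 x6 x7 x8 x9 x10 x11 x12 : ℤ) : cub vE vE vH S2 [x0, x1, x2, x3, x4, x5, x6, x7, x8, x9, x10, x11, x12] = (27) / (x0 : ℚ) + (-27) / (x1 : ℚ) + (16) / (x2 : ℚ) + (-16) / (x3 : ℚ) + (27) / (x4 : ℚ) + (27) / (x5 : ℚ) + (8) / (x6 : ℚ) + (27) / (x7 : ℚ) + (1) / (x9 : ℚ) + (27) / (x10 : ℚ) + (16) / (x12 : ℚ) := by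
  simp only [cub, ev, vE, vE, vH, S2]
  norm_num
  try ring

theorem cub2_EHH (x0 x1 x2 x3 x4 x5 x6 x7 x8 x9 x10 x11 x12 : ℤ) : cub vE vH vH S2 [x0, x1, x2, x3, x4, x5, x6, x7, x8, x9, x10, x11, x12] = (-27) / (x0 : ℚ) + (27) / (x1 : ℚ) + (4) / (x2 : ℚ) + (-4) / (x3 : ℚ) + (27) / (x4 : ℚ) + (27) / (x5 : ℚ) + (8) / (x6 : ℚ) + (-27) / (x7 : ℚ) + (1) / (x9 : ℚ) + (-27) / (x10 : ℚ) + (4) / (x12 : ℚ) := by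
  simp only [cub, ev, vE, vH, vH, S2]
  norm_num
  try ring

theorem cub2_FFH (x0 x1 x2 x3 x4 x5 x6 x7 x8 x9 x10 x11 x12 : ℤ) : cub vF vF vH S2 [x0, x1, x2, x3, x4, x5, x6, x7, x8, x9, x10, x11, x12] = (4) / (x2 : ℚ) + (-4) / (x3 : ℚ) + (27) / (x4 : ℚ) + (27) / (x5 : ℚ) + (8) / (x6 : ℚ) + (-27) / (x8 : ℚ) + (1) / (x9 : ℚ) + (-27) / (x11 : ℚ) + (4) / (x12 : ℚ) := by
  simp only [cub, ev, vF, vF, vH, S2]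
  norm_num
  try ring

theorem cub2_FHH (x0 x1 x2 x3 x4 x5 x6 x7 x8 x9 x10 x11 x12 : ℤ) : cub vF vH vH S2 [x0, x1, x2, x3, x4, x5, x6, x7, x8, x9, x10, x11, x12] = (-2) / (x2 : ℚ) + (2) / (x3 : ℚ) + (27) / (x4 : ℚ) + (27) / (x5 : ℚ) + (8) / (x6 : ℚ) + (27) / (x8 : ℚ) + (1) / (x9 : ℚ) + (27) / (x11 : ℚ) + (-2) / (x12 : ℚ) := by
  simp only [cub, ev, vF, vH, vH, S2]
  norm_num
  try ring

theorem cub2_EFH (x0 x1 x2 x3 x4 x5 x6 x7 x8 x9 x10 x11 x12 : ℤ) : cub vE vF vH S2 [x0, x1, x2, x3, x4, x5, x6, x7, x8, x9, x10, x11, x12] = (-8) / (x2 : ℚ) + (8) / (x3 : ℚ) + (27) / (x4 : ℚ) + (27) / (x5 : ℚ) + (8) / (x6 : ℚ) + (1) / (x9 : ℚ) + (-8) / (x12 : ℚ) := by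
  simp only [cub, ev, vE, vF, vH, S2]
  norm_num
  try ring

theorem lin0 {x0 x1 x2 x3 x4 x5 x6 x7 x8 x9 x10 x11 : ℤ} (h : ∀ k < 9, PP.getD k 0 + dot k S0 [x0, x1, x2, x3, x4, x5, x6, x7, x8, x9, x10, x11] = 0) :
    0 + (1) * x0 + (1) * x1 = 0 ∧
    0 + (1) * x2 + (1) * x3 = 0 ∧
    0 + (-1) * x1 + (1) * x4 + (1) * x5 = 0 ∧
    0 + (1) * x1 + (-1) * x3 + (1) * x6 = 0 ∧
    1 + (1) * x4 + (1) * x6 + (1) * x7 = 0 ∧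
    1 + (1) * x3 + (1) * x5 + (1) * x8 = 0 ∧
    0 + (-1) * x0 + (1) * x1 + (1) * x4 + (1) * x5 = 0 ∧
    0 + (1) * x3 + (1) * x4 + (1) * x9 + (1) * x10 = 0 ∧
    1 + (1) * x1 + (1) * x9 + (1) * x11 = 0 := by
  have h0 := h 0 (by norm_num)
  have h1 := h 1 (by norm_num)
  have h2 := h 2 (by norm_num)
  have h3 := h 3 (by norm_num)
  have h4 := h 4 (by norm_num)
  have h5 := h 5 (by norm_num)
  have h6 := h 6 (by norm_num)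
  have h7 := h 7 (by norm_num)
  have h8 := h 8 (by norm_num)
  simp only [PP, S0, dot, List.getD_cons_zero, List.getD_cons_succ, List.getD_nil, Nat.reduceAdd] at h0 h1 h2 h3 h4 h5 h6 h7 h8
  refine ⟨?_, ?_, ?_, ?_, ?_, ?_, ?_, ?_, ?_⟩
  · linarith
  · linarith
  · linarith
  · linarith
  · linarith
  · linarith
  · linarith
  · linarith
  · linarith

theorem lin1 {x0 x1 x2 x3 x4 x5 x6 x7 x8 x9 x10 x11 : ℤ} (h : ∀ k < 9, PP.getD k 0 + dot k S1 [x0, x1, x2, x3, x4, x5, x6, x7, x8, x9, x10, x11] = 0) :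
    0 + (1) * x0 + (1) * x1 = 0 ∧
    0 + (1) * x2 + (1) * x3 = 0 ∧
    0 + (-1) * x1 + (1) * x4 + (1) * x5 = 0 ∧
    0 + (1) * x1 + (-1) * x3 + (1) * x6 = 0 ∧
    1 + (1) * x4 + (1) * x6 + (1) * x7 = 0 ∧
    1 + (1) * x3 + (1) * x5 + (1) * x8 = 0 ∧
    0 + (1) * x5 + (1) * x6 + (1) * x9 + (1) * x10 = 0 ∧
    0 + (1) * x3 + (1) * x4 + (1) * x9 + (1) * x11 = 0 ∧
    1 + (1) * x1 + (1) * x10 + (1) * x11 = 0 := by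
  have h0 := h 0 (by norm_num)
  have h1 := h 1 (by norm_num)
  have h2 := h 2 (by norm_num)
  have h3 := h 3 (by norm_num)
  have h4 := h 4 (by norm_num)
  have h5 := h 5 (by norm_num)
  have h6 := h 6 (by norm_num)
  have h7 := h 7 (by norm_num)
  have h8 := h 8 (by norm_num)
  simp only [PP, S1, dot, List.getD_cons_zero, List.getD_cons_succ, List.getD_nil, Nat.reduceAdd] at h0 h1 h2 h3 h4 h5 h6 h7 h8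
  refine ⟨?_, ?_, ?_, ?_, ?_, ?_, ?_, ?_, ?_⟩
  · linarith
  · linarith
  · linarith
  · linarith
  · linarith
  · linarith
  · linarith
  · linarith
  · linarith

theorem lin2 {x0 x1 x2 x3 x4 x5 x6 x7 x8 x9 x10 x11 x12 : ℤ} (h : ∀ k < 9, PP.getD k 0 + dot k S2 [x0, x1, x2, x3, x4, x5, x6, x7, x8, x9, x10, x11, x12] = 0) :
    0 + (1) * x0 + (1) * x1 = 0 ∧
    0 + (1) * x2 + (1) * x3 = 0 ∧
    0 + (-1) * x1 + (1) * x4 + (1) * x5 = 0 ∧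
    0 + (1) * x1 + (-1) * x3 + (1) * x6 = 0 ∧
    1 + (1) * x4 + (1) * x6 + (1) * x7 = 0 ∧
    1 + (1) * x3 + (1) * x5 + (1) * x8 = 0 ∧
    0 + (1) * x5 + (1) * x6 + (1) * x9 + (1) * x10 = 0 ∧
    0 + (1) * x3 + (1) * x4 + (1) * x9 + (1) * x11 = 0 ∧
    1 + (1) * x1 + (1) * x9 + (1) * x12 = 0 := by
  have h0 := h 0 (by norm_num)
  have h1 := h 1 (by norm_num)
  have h2 := h 2 (by norm_num)
  have h3 := h 3 (by norm_num)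
  have h4 := h 4 (by norm_num)
  have h5 := h 5 (by norm_num)
  have h6 := h 6 (by norm_num)
  have h7 := h 7 (by norm_num)
  have h8 := h 8 (by norm_num)
  simp only [PP, S2, dot, List.getD_cons_zero, List.getD_cons_succ, List.getD_nil, Nat.reduceAdd] at h0 h1 h2 h3 h4 h5 h6 h7 h8
  refine ⟨?_, ?_, ?_, ?_, ?_, ?_, ?_, ?_, ?_⟩
  · linarith
  · linarith
  · linarith
  · linarith
  · linarith
  · linarith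
  · linarith
  · linarith
  · linarith

theorem lin3 {x0 x1 x2 x3 x4 x5 x6 x7 x8 x9 x10 : ℤ} (h : ∀ k < 9, PP.getD k 0 + dot k S3 [x0, x1, x2, x3, x4, x5, x6, x7, x8, x9, x10] = 0) :
    0 + (1) * x0 + (1) * x1 = 0 ∧
    0 + (1) * x2 + (1) * x3 = 0 ∧
    0 + (-1) * x1 + (1) * x4 + (1) * x5 = 0 ∧
    0 + (1) * x1 + (-1) * x3 + (1) * x6 = 0 ∧
    1 + (1) * x4 + (1) * x6 + (1) * x7 = 0 ∧
    1 + (1) * x2 + (1) * x4 + (-1) * x6 = 0 ∧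
    0 + (-1) * x0 + (1) * x1 + (1) * x4 + (1) * x5 = 0 ∧
    0 + (1) * x3 + (1) * x4 + (1) * x8 + (1) * x9 = 0 ∧
    1 + (1) * x1 + (1) * x8 + (1) * x10 = 0 := by
  have h0 := h 0 (by norm_num)
  have h1 := h 1 (by norm_num)
  have h2 := h 2 (by norm_num)
  have h3 := h 3 (by norm_num)
  have h4 := h 4 (by norm_num)
  have h5 := h 5 (by norm_num)
  have h6 := h 6 (by norm_num)
  have h7 := h 7 (by norm_num)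
  have h8 := h 8 (by norm_num)
  simp only [PP, S3, dot, List.getD_cons_zero, List.getD_cons_succ, List.getD_nil, Nat.reduceAdd] at h0 h1 h2 h3 h4 h5 h6 h7 h8
  refine ⟨?_, ?_, ?_, ?_, ?_, ?_, ?_, ?_, ?_⟩
  · linarith
  · linarith
  · linarith
  · linarith
  · linarith
  · linarith
  · linarith
  · linarith
  · linarith

end Cfsg.Agent.Lib.H52S
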