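import Cfsg.Agent.Lib.H52SD

/-!
# The order of a group with a `3^3 : S4` normalizer: abstract form (helper52)
-/

set_option autoImplicit false
set_option linter.all false

namespace Cfsg.Agent.Lib.H52S

theorem core {I : Type*} [Fintype I] [DecidableEq I] {f : ℕ → I → ℤ} {i0 : I} {d : I → ℤ} {g : ℤ}
    (hd : ∀ i, 0 < d i) (d0 : d i0 = 1) (p0 : ∀ k < 9, f k i0 = PP.getD k 0)
    (hT : ∀ l < 9, ∀ k < l, ∑ i, f k i * f l i = (TT.getD l []).getD k 0 + PP.getD k 0 * PP.getD l 0)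
    (hN : ∀ l < 9, ∑ i, f l i * f l i = NN.getD l 0 + PP.getD l 0 * PP.getD l 0)
    (hz : ∀ k < 9, ∑ i, f k i * d i = 0) (hsq : ∑ i, d i * d i = g) (hg : 648 ≤ g)
    {E F H : I → ℤ} (hE : ∀ i, E i = ev vE (col f 9 i)) (hF : ∀ i, F i = ev vF (col f 9 i))
    (hH : ∀ i, H i = ev vH (col f 9 i)) (hC : ∀ i, (27 : ℤ) ∣ d i + ev vC (col f 9 i))
    (t1 : (g : ℚ) * ∑ i, ((E i * E i * F i : ℤ) : ℚ) / d i = 23328)
    (t2 : (g : ℚ) * ∑ i, ((E i * F i * F i : ℤ) : ℚ) / d i = 11664)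
    (t3 : (g : ℚ) * ∑ i, ((E i * E i * H i : ℤ) : ℚ) / d i = 0)
    (t4 : (g : ℚ) * ∑ i, ((E i * H i * H i : ℤ) : ℚ) / d i = 26244)
    (t5 : (g : ℚ) * ∑ i, ((F i * F i * H i : ℤ) : ℚ) / d i = 17496)
    (t6 : (g : ℚ) * ∑ i, ((F i * H i * H i : ℤ) : ℚ) / d i = 13122)
    (t7 : (g : ℚ) * ∑ i, ((E i * F i * H i : ℤ) : ℚ) / d i = 17496) : g = 648 := by
  set f' : ℕ → I → ℤ := fun k i => if i = i0 then 0 else f k i with hf'
  have gram : ∀ k < 9, ∀ l < 9, ∑ i, f' k i * f' l i = ∑ i, f k i * f l i - PP.getD k 0 * PP.getD l 0 := by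
    intro k hk l hl
    rw [← p0 k hk, ← p0 l hl, eq_sub_iff_add_eq]
    rw [← Finset.add_sum_erase Finset.univ (fun i => f k i * f l i) (Finset.mem_univ i0),
      ← Finset.add_sum_erase Finset.univ (fun i => f' k i * f' l i) (Finset.mem_univ i0)]
    have h1 : f' k i0 * f' l i0 = 0 := by simp [hf']
    rw [h1, zero_add, add_comm]
    congr 1
    apply Finset.sum_congr rfl
    intro i hi
    have hi' : i ≠ i0 := Finset.ne_of_mem_erase hi
    simp [hf', hi']
  obtain ⟨S, hSm, hS⟩ := search (f := f')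
    (fun l hl k hk => by rw [gram k (by omega) l hl, hT l hl k hk]; ring)
    (fun l hl => by rw [gram l hl l hl, hN l hl]; ring)
  obtain ⟨Δ, hp, hcub, hcong⟩ := pack (P := PP) rfl hd d0 p0 hz hsq hS
  have c1 := hcub vE vE vF E E F hE hE hF
  have c2 := hcub vE vF vF E F F hE hF hF
  have c3 := hcub vE vE vH E E H hE hE hH
  have c4 := hcub vE vH vH E H H hE hH hH
  have c5 := hcub vF vF vH F F H hF hF hH
  have c6 := hcub vF vH vH F H H hF hH hH
  have c7 := hcub vE vF vH E F H hE hF hH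
  have pE : ev vE PP = 1 := by decide
  have pF : ev vF PP = 1 := by decide
  have pH : ev vH PP = 1 := by decide
  rw [pE, pF] at c1 c2
  rw [pE, pH] at c3 c4
  rw [pF, pH] at c5 c6
  rw [pE, pF, pH] at c7
  rw [c1] at t1; rw [c2] at t2; rw [c3] at t3; rw [c4] at t4; rw [c5] at t5; rw [c6] at t6; rw [c7] at t7
  have hcg := hcong vC 27 hC
  clear c1 c2 c3 c4 c5 c6 c7 hcub hcong
  have hlev : lev9 = [S0, S1, S2, S3] := rfl
  rw [hlev] at hSm
  simp only [List.mem_cons, List.not_mem_nil, or_false] at hSm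
  have hgq : (g : ℚ) ≠ 0 := by
    have : (648 : ℚ) ≤ g := by exact_mod_cast hg
    intro h; rw [h] at this; norm_num at this
  rcases hSm with rfl | rfl | rfl | rfl
  · exfalso
    obtain ⟨hlen, hne, hlin, hs⟩ := hp
    match Δ, hlen, hne, hlin with
    | [x0, x1, x2, x3, x4, x5, x6, x7, x8, x9, x10, x11], _, hne, hlin =>
      obtain ⟨l0, l1, l2, l3, l4, l5, l6, l7, l8⟩ := lin0 hlin
      have := hne x0 (by simp)
      omega
  · exfalso
    obtain ⟨hlen, hne, hlin, hs⟩ := hp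
    match Δ, hlen, hne, hlin, hs, hcg, t1, t2, t3, t4, t5, t6, t7 with
    | [x0, x1, x2, x3, x4, x5, x6, x7, x8, x9, x10, x11], _, hne, hlin, hs, hcg, t1, t2, t3, t4, t5, t6, t7 =>
      obtain ⟨l0, l1, l2, l3, l4, l5, l6, l7, l8⟩ := lin1 hlin
      rw [cub1_EEF] at t1
      rw [cub1_EFF] at t2
      rw [cub1_EEH] at t3
      rw [cub1_EHH] at t4
      rw [cub1_FFH] at t5
      rw [cub1_FHH] at t6
      rw [cub1_EFH] at t7
      have h11 : (x11 : ℚ) ≠ 0 := by
        have := hne x11 (by simp)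
        exact_mod_cast this
      have key : (g : ℚ) * (1 / (x11 : ℚ)) = 0 := by
        push_cast at t1 t2 t3 t4 t5 t6 t7
        linear_combination (1 / 54 : ℚ) * t1 + (1 / 54 : ℚ) * t2 - (1 / 108 : ℚ) * t3 - (1 / 108 : ℚ) * t4 + (1 / 54 : ℚ) * t5 +
          (1 / 54 : ℚ) * t6 - (1 / 18 : ℚ) * t7
      rcases mul_eq_zero.mp key with h | h
      · exact hgq h
      · rw [one_div, inv_eq_zero] at h
        exact h11 h
  · obtain ⟨hlen, hne, hlin, hs⟩ := hp
    match Δ, hlen, hne, hlin, hs, hcg, t1, t2, t3, t4, t5, t6, t7 with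
    | [x0, x1, x2, x3, x4, x5, x6, x7, x8, x9, x10, x11, x12], _, hne, hlin, hs, hcg, t1, t2, t3, t4, t5, t6, t7 =>
      obtain ⟨l0, l1, l2, l3, l4, l5, l6, l7, l8⟩ := lin2 hlin
      rw [cub2_EEF] at t1
      rw [cub2_EFF] at t2
      rw [cub2_FFH] at t5
      have n3 : x3 ≠ 0 := hne x3 (by simp)
      have n8 : x8 ≠ 0 := hne x8 (by simp)
      have n11 : x11 ≠ 0 := hne x11 (by simp)
      have n12 : x12 ≠ 0 := hne x12 (by simp)
      have q3 : (x3 : ℚ) ≠ 0 := by exact_mod_cast n3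
      have q8 : (x8 : ℚ) ≠ 0 := by exact_mod_cast n8
      have q11 : (x11 : ℚ) ≠ 0 := by exact_mod_cast n11
      have q12 : (x12 : ℚ) ≠ 0 := by exact_mod_cast n12
      have e2 : (x2 : ℚ) = - x3 := by
        have : x2 = - x3 := by linarith
        exact_mod_cast this
      rw [e2] at t1 t2 t5
      push_cast at t1 t2 t5
      have hHs : (g : ℚ) * (2 / x3 - 1 / x12) = 243 := by
        linear_combination (1 / 48 : ℚ) * t1 - (1 / 48 : ℚ) * t2
      have hFs : (g : ℚ) * (- 1 / x8 - 1 / x11) = 108 := by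
        linear_combination (1 / 27 : ℚ) * t5 - (1 / 27 : ℚ) * t2 - (12 / 27 : ℚ) * hHs
      simp only [S2, List.zipWith, List.forall_mem_cons] at hcg
      obtain ⟨k0, k1, k2, k3, k4, k5, k6, k7, k8, k9, k10, k11, k12, -⟩ := hcg
      have v3 : ev vC [0, 1, 0, -1, 0, 1, 0, 1, 0] = -8 := by decide
      have v4 : ev vC [0, 0, 1, 0, 1, 0, 0, 1, 0] = 78 := by decide
      have v5 : ev vC [0, 0, 1, 0, 0, 1, 1, 0, 0] = 78 := by decide
      have v6 : ev vC [0, 0, 0, 1, 1, 0, 1, 0, 0] = 52 := by decide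
      have v9 : ev vC [0, 0, 0, 0, 0, 0, 1, 1, 1] = 26 := by decide
      rw [v3] at k3
      rw [v4] at k4
      rw [v5] at k5
      rw [v6] at k6
      rw [v9] at k9
      simp only [nsq] at hs
      refine std_arith g (-x8) (-x11) x3 (-x12) x1 (-x7) (-x10) x9 x6 x4 x5 (by omega) (by omega) (by linarith) (by linarith)
        (by linarith) ?_ ?_ ?_ hg (by omega) (by omega)
      · have h1 : ((g * (-x8 + -x11) : ℤ) : ℚ) = ((108 * (-x8 * -x11) : ℤ) : ℚ) := by
          push_cast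
          field_simp at hFs
          linear_combination hFs
        exact_mod_cast h1
      · have h1 : ((g * (2 * -x12 + x3) : ℤ) : ℚ) = ((243 * (x3 * -x12) : ℤ) : ℚ) := by
          push_cast
          field_simp at hHs
          linear_combination -hHs
        exact_mod_cast h1
      · have h0 : x0 = -x1 := by linarith
        have h2 : x2 = -x3 := by linarith
        rw [h0, h2] at hs
        nlinarith
  · exfalso
    obtain ⟨hlen, hne, hlin, hs⟩ := hp
    match Δ, hlen, hne, hlin with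
    | [x0, x1, x2, x3, x4, x5, x6, x7, x8, x9, x10], _, hne, hlin =>
      obtain ⟨l0, l1, l2, l3, l4, l5, l6, l7, l8⟩ := lin3 hlin
      have := hne x0 (by simp)
      omega

end Cfsg.Agent.Lib.H52S
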