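import Cfsg.Agent.Lib.H52TI1

/-!
# Multiplicities of linear characters given by a graph (helper52)
-/

set_option autoImplicit false
set_option linter.all false

namespace Cfsg.Agent.Lib.H52S

open Cfsg Cfsg.Agent.Lib.CharBasic Cfsg.Agent.Lib.StructConst
open scoped ComplexConjugate

universe u v w

/-- the graph of a linear character of a finite subgroup, parametrised by `X` -/
structure LinG {G : Type u} [Group G] {X : Type v} (p : X → G) (l : X → ℂˣ) : Prop where
  inj : Function.Injective p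
  one : ∃ x, p x = 1 ∧ l x = 1
  mul : ∀ x y, ∃ z, p z = p x * p y ∧ l z = l x * l y
  inv : ∀ x, ∃ z, p z = (p x)⁻¹ ∧ l z = (l x)⁻¹

theorem LinG.exists_mult {G : Type u} [Group G] [Finite G] {X : Type v} [Fintype X] {p : X → G} {l : X → ℂˣ}
    (h : LinG p l) {χ : G → ℂ} (hχ : IsCharacter G χ) :
    ∃ n : ℕ, ∑ x : X, χ (p x) * conj ((l x : ℂˣ) : ℂ) = (Fintype.card X : ℂ) * n := by
  classical
  let K : Subgroup (G × ℂˣ) :=
    { carrier := Set.range fun x => (p x, l x)
      mul_mem' := by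
        rintro _ _ ⟨x, rfl⟩ ⟨y, rfl⟩
        obtain ⟨z, h1, h2⟩ := h.mul x y
        exact ⟨z, Prod.ext h1 h2⟩
      one_mem' := by
        obtain ⟨x, h1, h2⟩ := h.one
        exact ⟨x, Prod.ext h1 h2⟩
      inv_mem' := by
        rintro _ ⟨x, rfl⟩
        obtain ⟨z, h1, h2⟩ := h.inv x
        exact ⟨z, Prod.ext h1 h2⟩ }
  let φ : X → K := fun x => ⟨(p x, l x), x, rfl⟩
  have hφ : Function.Bijective φ := by
    constructor
    · intro x y hxy
      have h1 : ((φ x : G × ℂˣ)).1 = ((φ y : G × ℂˣ)).1 := by rw [hxy]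
      exact h.inj h1
    · rintro ⟨_, x, rfl⟩
      exact ⟨x, rfl⟩
  have hfin : Finite K := Finite.of_surjective φ hφ.2
  have := Fintype.ofFinite K
  let e : X ≃ K := Equiv.ofBijective φ hφ
  let h1 : K →* G := (MonoidHom.fst G ℂˣ).comp K.subtype
  let h2 : K →* ℂ := (Units.coeHom ℂ).comp ((MonoidHom.snd G ℂˣ).comp K.subtype)
  have hc : IsCharacter K (fun k => χ (h1 k)) := hχ.comp h1
  obtain ⟨n, hn⟩ := hc.classInner_nat (isCharacter_of_hom h2)
  refine ⟨n, ?_⟩
  rw [← hn, classInner_def]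
  have hcard : (Nat.card K : ℂ) = Fintype.card X := by
    rw [Nat.card_eq_fintype_card, Fintype.card_congr e]
  have hne : (Fintype.card X : ℂ) ≠ 0 := by
    obtain ⟨x, _⟩ := h.one
    have : Nonempty X := ⟨x⟩
    exact_mod_cast Fintype.card_ne_zero
  rw [hcard, ← mul_assoc, mul_inv_cancel₀ hne, one_mul]
  exact Fintype.sum_equiv e _ _ (fun x => rfl)

end Cfsg.Agent.Lib.H52S
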