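import Cfsg.Agent.Lib.H52TI3

/-!
# The linear algebra behind S3701 (helper52)
-/

set_option autoImplicit false
set_option linter.all false

namespace Cfsg.Agent.Lib.H52TI

universe u v

section

variable {I : Type u} [Fintype I]

/-- the system of units -/
def uu (R Ya Yb Yc : I → ℤ) (x : Fin 5 → I → ℤ) : Fin 11 → I → ℤ :=
  ![fun i => if Ya i = 0 then R i else 0, fun i => if R i = Ya i then Ya i else 0,
    fun i => if R i = - Ya i then R i else 0, fun i => if R i = 0 then Ya i else 0, Yb, Yc,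
    x 0, x 1, x 2, x 3, x 4]

theorem core {R Ya Yb Yc : I → ℤ} {x : Fin 5 → I → ℤ}
    (vR : ∀ i, R i = 0 ∨ R i = 1 ∨ R i = -1) (va : ∀ i, Ya i = 0 ∨ Ya i = 1 ∨ Ya i = -1)
    (vb : ∀ i, Yb i = 0 ∨ Yb i = 1 ∨ Yb i = -1) (vc : ∀ i, Yc i = 0 ∨ Yc i = 1 ∨ Yc i = -1)
    (vx : ∀ k i, x k i = 0 ∨ x k i = 1 ∨ x k i = -1)
    (dx : ∀ k l i, k ≠ l → x k i * x l i = 0) (dxR : ∀ k i, x k i * R i = 0)
    (dxa : ∀ k i, x k i * Ya i = 0) (dxb : ∀ k i, x k i * Yb i = 0) (dxc : ∀ k i, x k i * Yc i = 0)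
    (dRb : ∀ i, R i * Yb i = 0) (dRc : ∀ i, R i * Yc i = 0)
    (dab : ∀ i, Ya i * Yb i = 0) (dac : ∀ i, Ya i * Yc i = 0) (dbc : ∀ i, Yb i * Yc i = 0)
    {A B C F : I → ℤ} {d : I → ℚ}
    (hA : ∀ i, A i = R i - Ya i + 2 * Yb i + 2 * Yc i - 2 * x 0 i - 2 * x 1 i + 4 * x 2 i - 2 * x 3 i - 2 * x 4 i)
    (hB : ∀ i, B i = R i + 2 * Ya i - Yb i + 2 * Yc i - 2 * x 0 i + 4 * x 1 i - 2 * x 2 i - 2 * x 3 i - 2 * x 4 i)
    (hC : ∀ i, C i = R i + 2 * Ya i + 2 * Yb i - Yc i + 4 * x 0 i - 2 * x 1 i - 2 * x 2 i - 2 * x 3 i - 2 * x 4 i)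
    (hF : ∀ i, F i = R i - Ya i - Yb i + 2 * Yc i + x 0 i - 2 * x 1 i - 2 * x 2 i + x 3 i + x 4 i)
    {ξ : ℚ} (hξ : ∀ k, ∑ i, (x k i : ℚ) / d i = ξ)
    (e1 : ∑ i, ((A i * A i * B i : ℤ) : ℚ) / d i = 0) (e2 : ∑ i, ((A i * A i * C i : ℤ) : ℚ) / d i = 0)
    (e3 : ∑ i, ((B i * B i * A i : ℤ) : ℚ) / d i = 0) (e4 : ∑ i, ((A i * B i * C i : ℤ) : ℚ) / d i = 0) :
    ∑ i, ((A i * B i * F i : ℤ) : ℚ) / d i = 108 * ξ := by
  have h01 : ∀ k i, uu R Ya Yb Yc x k i = 0 ∨ uu R Ya Yb Yc x k i = 1 ∨ uu R Ya Yb Yc x k i = -1 := by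
    intro k i
    have h1 := vR i
    have h2 := va i
    have h3 := vb i
    have h4 := vc i
    have h5 := fun k => vx k i
    fin_cases k <;> simp only [uu, Fin.isValue, Matrix.cons_val, Fin.zero_eta, Fin.mk_one, Fin.reduceFinMk] <;>
      first | exact h3 | exact h4 | exact h5 _ | (split_ifs <;> first | exact h1 | exact h2 | exact Or.inl rfl)
  have hone : ∀ i, ∃ k, ∀ l, l ≠ k → uu R Ya Yb Yc x l i = 0 := by
    intro i
    have all : ∀ (k : Fin 11), (∀ l : Fin 11, l ≠ k → uu R Ya Yb Yc x l i = 0) → ∃ k, ∀ l, l ≠ k → uu R Ya Yb Yc x l i = 0 :=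
      fun k hk => ⟨k, hk⟩
    by_cases hx : ∃ k, x k i ≠ 0
    · obtain ⟨k, hk⟩ := hx
      have zR : R i = 0 := (mul_eq_zero.1 (dxR k i)).resolve_left hk
      have za : Ya i = 0 := (mul_eq_zero.1 (dxa k i)).resolve_left hk
      have zb : Yb i = 0 := (mul_eq_zero.1 (dxb k i)).resolve_left hk
      have zc : Yc i = 0 := (mul_eq_zero.1 (dxc k i)).resolve_left hk
      have zx : ∀ l, l ≠ k → x l i = 0 := fun l hl => (mul_eq_zero.1 (dx l k i hl)).resolve_right hk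
      refine ⟨Fin.natAdd 6 k, ?_⟩
      intro l hl
      have hx' : ∀ m : Fin 5, l = Fin.natAdd 6 m → x m i = 0 := by
        intro m hm
        apply zx
        rintro rfl
        exact hl hm
      fin_cases l <;> simp only [uu, Fin.isValue, Matrix.cons_val, Fin.zero_eta, Fin.mk_one, Fin.reduceFinMk] <;>
        first
        | (simp [zR, za]; done)
        | exact zb
        | exact zc
        | exact hx' 0 rfl
        | exact hx' 1 rfl
        | exact hx' 2 rfl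
        | exact hx' 3 rfl
        | exact hx' 4 rfl
    · push Not at hx
      by_cases hb : Yb i = 0
      · by_cases hc : Yc i = 0
        · rcases vR i with h1 | h1 | h1 <;> rcases va i with h2 | h2 | h2
          · exact ⟨0, fun l hl => by fin_cases l <;> simp [uu, h1, h2, hb, hc, hx] at hl ⊢⟩
          · exact ⟨3, fun l hl => by fin_cases l <;> simp [uu, h1, h2, hb, hc, hx] at hl ⊢⟩
          · exact ⟨3, fun l hl => by fin_cases l <;> simp [uu, h1, h2, hb, hc, hx] at hl ⊢⟩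
          · exact ⟨0, fun l hl => by fin_cases l <;> simp [uu, h1, h2, hb, hc, hx] at hl ⊢⟩
          · exact ⟨1, fun l hl => by fin_cases l <;> simp [uu, h1, h2, hb, hc, hx] at hl ⊢⟩
          · exact ⟨2, fun l hl => by fin_cases l <;> simp [uu, h1, h2, hb, hc, hx] at hl ⊢⟩
          · exact ⟨0, fun l hl => by fin_cases l <;> simp [uu, h1, h2, hb, hc, hx] at hl ⊢⟩
          · exact ⟨2, fun l hl => by fin_cases l <;> simp [uu, h1, h2, hb, hc, hx] at hl ⊢⟩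
          · exact ⟨1, fun l hl => by fin_cases l <;> simp [uu, h1, h2, hb, hc, hx] at hl ⊢⟩
        · have zR : R i = 0 := (mul_eq_zero.1 (dRc i)).resolve_right hc
          have za : Ya i = 0 := (mul_eq_zero.1 (dac i)).resolve_right hc
          exact ⟨5, fun l hl => by fin_cases l <;> simp [uu, zR, za, hb, hx] at hl ⊢⟩
      · have zR : R i = 0 := (mul_eq_zero.1 (dRb i)).resolve_right hb
        have za : Ya i = 0 := (mul_eq_zero.1 (dab i)).resolve_right hb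
        have zc : Yc i = 0 := (mul_eq_zero.1 (dbc i)).resolve_left hb
        exact ⟨4, fun l hl => by fin_cases l <;> simp [uu, zR, za, zc, hx] at hl ⊢⟩
  have hR : ∀ i, R i = uu R Ya Yb Yc x 0 i + uu R Ya Yb Yc x 1 i + uu R Ya Yb Yc x 2 i := by
    intro i
    rcases vR i with h1 | h1 | h1 <;> rcases va i with h2 | h2 | h2 <;> simp [uu, h1, h2]
  have ha : ∀ i, Ya i = uu R Ya Yb Yc x 3 i + uu R Ya Yb Yc x 1 i - uu R Ya Yb Yc x 2 i := by
    intro i
    rcases vR i with h1 | h1 | h1 <;> rcases va i with h2 | h2 | h2 <;> simp [uu, h1, h2]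
  have hb : ∀ i, Yb i = uu R Ya Yb Yc x 4 i := fun i => rfl
  have hc : ∀ i, Yc i = uu R Ya Yb Yc x 5 i := fun i => rfl
  have h0 : ∀ i, x 0 i = uu R Ya Yb Yc x 6 i := fun i => rfl
  have h1 : ∀ i, x 1 i = uu R Ya Yb Yc x 7 i := fun i => rfl
  have h2 : ∀ i, x 2 i = uu R Ya Yb Yc x 8 i := fun i => rfl
  have h3 : ∀ i, x 3 i = uu R Ya Yb Yc x 9 i := fun i => rfl
  have h4 : ∀ i, x 4 i = uu R Ya Yb Yc x 10 i := fun i => rfl
  set U := uu R Ya Yb Yc x with hU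
  have hA' : ∀ i, A i = ∑ k, (![1, 0, 2, -1, 2, 2, -2, -2, 4, -2, -2] : Fin 11 → ℤ) k * U k i := by
    intro i
    rw [hA, hR, ha, hb, hc, h0, h1, h2, h3, h4]
    simp only [Fin.sum_univ_succ, Fin.sum_univ_zero, Fin.isValue, Matrix.cons_val_zero, Matrix.cons_val_succ, Fin.succ_zero_eq_one, Fin.succ_one_eq_two, Matrix.cons_val]
    simp only [Fin.reduceSucc, Fin.isValue]
    ring
  have hB' : ∀ i, B i = ∑ k, (![1, 3, -1, 2, -1, 2, -2, 4, -2, -2, -2] : Fin 11 → ℤ) k * U k i := by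
    intro i
    rw [hB, hR, ha, hb, hc, h0, h1, h2, h3, h4]
    simp only [Fin.sum_univ_succ, Fin.sum_univ_zero, Fin.isValue, Matrix.cons_val_zero, Matrix.cons_val_succ, Fin.succ_zero_eq_one, Fin.succ_one_eq_two, Matrix.cons_val]
    simp only [Fin.reduceSucc, Fin.isValue]
    ring
  have hC' : ∀ i, C i = ∑ k, (![1, 3, -1, 2, 2, -1, 4, -2, -2, -2, -2] : Fin 11 → ℤ) k * U k i := by
    intro i
    rw [hC, hR, ha, hb, hc, h0, h1, h2, h3, h4]
    simp only [Fin.sum_univ_succ, Fin.sum_univ_zero, Fin.isValue, Matrix.cons_val_zero, Matrix.cons_val_succ, Fin.succ_zero_eq_one, Fin.succ_one_eq_two, Matrix.cons_val]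
    simp only [Fin.reduceSucc, Fin.isValue]
    ring
  have hF' : ∀ i, F i = ∑ k, (![1, 0, 2, -1, -1, 2, 1, -2, -2, 1, 1] : Fin 11 → ℤ) k * U k i := by
    intro i
    rw [hF, hR, ha, hb, hc, h0, h1, h2, h3, h4]
    simp only [Fin.sum_univ_succ, Fin.sum_univ_zero, Fin.isValue, Matrix.cons_val_zero, Matrix.cons_val_succ, Fin.succ_zero_eq_one, Fin.succ_one_eq_two, Matrix.cons_val]
    simp only [Fin.reduceSucc, Fin.isValue]
    ring
  have hx0 := hξ 0
  have hx1 := hξ 1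
  have hx2 := hξ 2
  have hx3 := hξ 3
  have hx4 := hξ 4
  simp only [h0] at hx0
  simp only [h1] at hx1
  simp only [h2] at hx2
  simp only [h3] at hx3
  simp only [h4] at hx4
  rw [trip_sum U h01 hone _ _ _ d hA' hA' hB'] at e1
  rw [trip_sum U h01 hone _ _ _ d hA' hA' hC'] at e2
  rw [trip_sum U h01 hone _ _ _ d hB' hB' hA'] at e3
  rw [trip_sum U h01 hone _ _ _ d hA' hB' hC'] at e4
  rw [trip_sum U h01 hone _ _ _ d hA' hB' hF']
  clear_value U
  simp only [Fin.sum_univ_succ, Fin.sum_univ_zero, Fin.isValue, Matrix.cons_val_zero, Matrix.cons_val_succ, Fin.succ_zero_eq_one, Fin.succ_one_eq_two, Matrix.cons_val] at e1 e2 e3 e4 ⊢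
  simp only [Fin.reduceSucc, Fin.isValue, hx0, hx1, hx2, hx3, hx4] at e1 e2 e3 e4 ⊢
  push_cast at e1 e2 e3 e4 ⊢
  linarith
end

end Cfsg.Agent.Lib.H52TI
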