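import Cfsg.Agent.Lib.H52TI2
import Cfsg.Agent.Lib.H52TI4

/-!
# A TI Sylow subgroup of order 27 with automizer a four-group of determinant one (helper52)
-/

set_option autoImplicit false
set_option linter.all false

namespace Cfsg.Agent.Lib.H52TI

open Cfsg Cfsg.Agent.Lib.CharBasic Cfsg.Agent.Lib.StructConst Cfsg.Agent.Lib.H25Nine
open scoped ComplexConjugate

universe u v w

section general

variable {V : Type v} [AddCommGroup V] [Fintype V] [DecidableEq V] {B : V → V → ZMod 3}
variable {G : Type u} [Group G]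

/-- the trivial character -/
def trc (G : Type u) [Group G] : IrrCharacter G := ⟨fun _ => 1, isIrrCharacter_fun_one⟩

theorem mu_trc [Finite G] (hB : Pair V B) {τ : V → G} (hτ : Emb τ) (u : V) :
    mu hB hτ u (trc G) = if u = 0 then 1 else 0 := by
  have hne : (Fintype.card V : ℂ) ≠ 0 := by
    exact_mod_cast Fintype.card_ne_zero
  have h : (mu hB hτ u (trc G) : ℂ) = ((if u = 0 then 1 else 0 : ℤ) : ℂ) := by
    rw [mu_eq]
    have e : ∑ t : V, (trc G : G → ℂ) (τ t) * conj (ps (B u t)) = ∑ t : V, ps (B 0 t) * conj (ps (B u t)) := by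
      apply Finset.sum_congr rfl
      intro t _
      rw [hB.zero_left, ps_zero]
      rfl
    rw [e, hB.orth]
    by_cases hu : u = 0
    · subst hu; simp [hne]
    · rw [if_neg (Ne.symm hu), if_neg hu]; simp
  exact_mod_cast h

variable {I : Type u} [Fintype I]

theorem sum_inj_le {κ : Type v} [Fintype κ] {h : κ → I} (hi : Function.Injective h) (F : I → ℤ) :
    ∑ k, F (h k) * F (h k) ≤ ∑ i, F i * F i := by
  classical
  rw [← Finset.sum_image (s := Finset.univ) (g := h) (f := fun i => F i * F i) (fun a _ b _ hab => hi hab)]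
  exact Finset.sum_le_sum_of_subset_of_nonneg (Finset.subset_univ _) (fun k _ _ => mul_self_nonneg _)

theorem sum_eq_of_norm_le {κ : Type v} [Fintype κ] {h : κ → I} (hi : Function.Injective h) {F : I → ℤ}
    (hle : ∑ i, F i * F i ≤ ∑ k, F (h k) * F (h k)) (d : I → ℤ) :
    ∑ i, F i * d i = ∑ k, F (h k) * d (h k) := by
  classical
  have e1 : ∑ k, F (h k) * F (h k) = ∑ i ∈ Finset.univ.image h, F i * F i :=
    (Finset.sum_image (s := Finset.univ) (g := h) (f := fun i => F i * F i) (fun a _ b _ hab => hi hab)).symm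
  have e2 : ∑ k, F (h k) * d (h k) = ∑ i ∈ Finset.univ.image h, F i * d i :=
    (Finset.sum_image (s := Finset.univ) (g := h) (f := fun i => F i * d i) (fun a _ b _ hab => hi hab)).symm
  rw [e1] at hle
  rw [e2]
  symm
  apply Finset.sum_subset (Finset.subset_univ _)
  intro i _ hi'
  have h3 : ∑ j ∈ Finset.univ \ Finset.univ.image h, F j * F j ≤ 0 := by
    have := Finset.sum_sdiff (f := fun j => F j * F j) (Finset.subset_univ (Finset.univ.image h))
    linarith
  have h4 : F i * F i ≤ ∑ j ∈ Finset.univ \ Finset.univ.image h, F j * F j :=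
    Finset.single_le_sum (f := fun j => F j * F j) (fun j _ => mul_self_nonneg _)
      (Finset.mem_sdiff.mpr ⟨Finset.mem_univ _, hi'⟩)
  have h5 : F i = 0 := by
    have := mul_self_nonneg (F i)
    have : F i * F i = 0 := by linarith
    exact mul_self_eq_zero.mp this
  rw [h5, zero_mul]

end general

/-! ### the concrete pairing -/

abbrev V3 : Type := ZMod 3 × ZMod 3 × ZMod 3

def B3 (u t : V3) : ZMod 3 := u.1 * t.1 + u.2.1 * t.2.1 + u.2.2 * t.2.2

theorem pair3_sum (u : V3) : ∑ t : V3, ps (B3 u t) = if u = 0 then (Fintype.card V3 : ℂ) else 0 := by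
  have e : ∀ t : V3, ps (B3 u t) = ps (t.1 * u.1) * (ps (t.2.1 * u.2.1) * ps (t.2.2 * u.2.2)) := by
    intro t
    rw [← AddChar.map_add_eq_mul, ← AddChar.map_add_eq_mul]
    congr 1
    unfold B3; ring
  simp only [e]
  rw [Fintype.sum_prod_type]
  simp only
  have e2 : ∀ x : ZMod 3, ∑ y : ZMod 3 × ZMod 3, ps (x * u.1) * (ps (y.1 * u.2.1) * ps (y.2 * u.2.2)) =
      ps (x * u.1) * ((∑ y, ps (y * u.2.1)) * (∑ y, ps (y * u.2.2))) := by
    intro x
    rw [← Finset.mul_sum, Finset.sum_mul_sum, Fintype.sum_prod_type]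
  simp only [e2]
  rw [← Finset.sum_mul, ps_sum, ps_sum, ps_sum]
  obtain ⟨a, b, c⟩ := u
  have hc : (Fintype.card V3 : ℂ) = 27 := by
    have : Fintype.card V3 = 27 := by simp [V3, ZMod.card]
    rw [this]; norm_num
  rw [hc]
  simp only [Prod.mk_eq_zero]
  by_cases ha : a = 0 <;> by_cases hb : b = 0 <;> by_cases hc : c = 0 <;> simp [ha, hb, hc] <;> norm_num

theorem B3_comm (u t : V3) : B3 u t = B3 t u := by unfold B3; ring

theorem pair3 : Pair V3 B3 where
  add_left a b t := by unfold B3; simp only [Prod.fst_add, Prod.snd_add]; ring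
  add_right a s t := by unfold B3; simp only [Prod.fst_add, Prod.snd_add]; ring
  sum_eq := pair3_sum
  sum_eq' t := by
    simp only [B3_comm _ t]
    exact pair3_sum t

def sg (b : Bool) : ZMod 3 := if b then 2 else 1

/-- the four-group of sign changes of determinant one -/
def σ3 (i : Bool × Bool) (t : V3) : V3 := (sg i.1 * t.1, sg i.2 * t.2.1, sg (xor i.1 i.2) * t.2.2)

theorem σ3_B (i : Bool × Bool) (u t : V3) : B3 u (σ3 i t) = B3 (σ3 i u) t := by
  unfold B3 σ3; simp only; ring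

theorem σ3_bij (i : Bool × Bool) : Function.Bijective (σ3 i) := by
  revert i; decide

/-- class of a vector -/
def cls3 (t : V3) : Fin 9 :=
  if t.1 = 0 then (if t.2.1 = 0 then (if t.2.2 = 0 then 0 else 3) else (if t.2.2 = 0 then 2 else 6))
  else (if t.2.1 = 0 then (if t.2.2 = 0 then 1 else 5) else (if t.2.2 = 0 then 4 else
    (if t.1 * t.2.1 * t.2.2 = 1 then 7 else 8)))

def rep9 : Fin 9 → V3 :=
  ![(0, 0, 0), (1, 0, 0), (0, 1, 0), (0, 0, 1), (1, 1, 0), (1, 0, 1), (0, 1, 1), (1, 1, 1), (1, 1, 2)]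

theorem cls3_rep (u : V3) : ∃ i, σ3 i u = rep9 (cls3 u) := by
  revert u; decide

/-- half of the character sums over the orbits -/
def co : V3 → Fin 9 → ℤ := fun t k => (∑ u : V3, if cls3 u = k then wt (B3 u t) else 0) / 2

variable {G : Type u} [Group G] [Finite G]

theorem mu_cls {τ : V3 → G} (L : Loc τ σ3) (u : V3) (χ : IrrCharacter G) :
    mu pair3 L.emb u χ = mu pair3 L.emb (rep9 (cls3 u)) χ := by
  obtain ⟨i, hi⟩ := cls3_rep u
  rw [← hi]
  exact mu_congr pair3 L.emb χ (σ3_bij i) (fun t => σ3_B i u t) (fun t => L.class_inv χ.2.isClassFunction i t)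

theorem sum_cls (M : Fin 9 → ℤ) (w : V3 → ℤ) :
    ∑ u : V3, M (cls3 u) * w u = ∑ k, M k * ∑ u : V3, if cls3 u = k then w u else 0 := by
  simp only [Finset.mul_sum]
  rw [Finset.sum_comm]
  apply Finset.sum_congr rfl
  intro u _
  rw [Finset.sum_eq_single (cls3 u)]
  · rw [if_pos rfl]
  · intro k _ hk; rw [if_neg (Ne.symm hk), mul_zero]
  · intro h; exact absurd (Finset.mem_univ _) h

/-- the value at a real element -/
theorem value3 {τ : V3 → G} (L : Loc τ σ3) {t : V3} (ht : ∃ i, σ3 i t = -t)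
    (hc : ∀ k, (∑ u : V3, if cls3 u = k then wt (B3 u t) else 0) = 2 * co t k) (χ : IrrCharacter G) :
    (χ : G → ℂ) (τ t) = ((∑ k, mu pair3 L.emb (rep9 k) χ * co t k : ℤ) : ℂ) := by
  obtain ⟨i, hi⟩ := ht
  have h1 := two_value pair3 L.emb χ (t := t) (by rw [← hi]; exact L.class_inv χ.2.isClassFunction i t)
  have h2 : ∑ u : V3, mu pair3 L.emb u χ * wt (B3 u t) = 2 * ∑ k, mu pair3 L.emb (rep9 k) χ * co t k := by
    have e : ∑ u : V3, mu pair3 L.emb u χ * wt (B3 u t) =
        ∑ u : V3, mu pair3 L.emb (rep9 (cls3 u)) χ * wt (B3 u t) := by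
      apply Finset.sum_congr rfl
      intro u _
      rw [← mu_cls L]
    rw [e, sum_cls (fun k => mu pair3 L.emb (rep9 k) χ) (fun u => wt (B3 u t)), Finset.mul_sum]
    apply Finset.sum_congr rfl
    intro k _
    rw [hc]; ring
  rw [h2] at h1
  push_cast at h1 ⊢
  linear_combination (1 / 2 : ℂ) * h1

theorem degree3 {τ : V3 → G} (L : Loc τ σ3) (χ : IrrCharacter G) :
    (χ : G → ℂ) 1 = ((∑ k, mu pair3 L.emb (rep9 k) χ * (∑ u : V3, if cls3 u = k then 1 else 0) : ℤ) : ℂ) := by
  have e : ∑ u : V3, mu pair3 L.emb u χ = ∑ u : V3, mu pair3 L.emb (rep9 (cls3 u)) χ * 1 := by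
    apply Finset.sum_congr rfl
    intro u _
    rw [mul_one]
    exact mu_cls L u χ
  have e2 := sum_cls (fun k => mu pair3 L.emb (rep9 k) χ) (fun u => 1)
  rw [degree_eq pair3 L.emb, e, e2]

end Cfsg.Agent.Lib.H52TI
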