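import Cfsg.Agent.Lib.H52TI2
import Cfsg.Agent.Lib.H52TI5

/-!
# The group `3^3 : S4`: model and decidable facts (helper52)
-/

set_option autoImplicit false
set_option linter.all false

namespace Cfsg.Agent.Lib.H52S

open Cfsg.Agent.Lib.H52TI

/-- rotations of the cube: a permutation of the coordinates and two signs -/
abbrev Io : Type := Fin 6 × Bool × Bool

def pm : Fin 6 → Fin 3 → Fin 3 := ![![0, 1, 2], ![1, 2, 0], ![2, 0, 1], ![1, 0, 2], ![0, 2, 1], ![2, 1, 0]]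

def mul6 : Fin 6 → Fin 6 → Fin 6 :=
  ![![0, 1, 2, 3, 4, 5], ![1, 2, 0, 4, 5, 3], ![2, 0, 1, 5, 3, 4], ![3, 5, 4, 0, 2, 1], ![4, 3, 5, 1, 0, 2], ![5, 4, 3, 2, 1, 0]]

def inv6 : Fin 6 → Fin 6 := ![0, 2, 1, 3, 4, 5]

def odd6 : Fin 6 → Bool := ![false, false, false, true, true, true]

/-- the signs -/
def sn (i : Io) : Fin 3 → Bool := ![i.2.1, i.2.2, xor (xor i.2.1 i.2.2) (odd6 i.1)]

def mi (i j : Io) : Io :=
  (mul6 i.1 j.1, xor (sn i 0) (sn j (pm i.1 0)), xor (sn i 1) (sn j (pm i.1 1)))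

def oi : Io := (0, false, false)

def vi (i : Io) : Io := (inv6 i.1, sn i (pm (inv6 i.1) 0), sn i (pm (inv6 i.1) 1))

def cd (t : V3) : Fin 3 → ZMod 3 := ![t.1, t.2.1, t.2.2]

def sc (b : Bool) (x : ZMod 3) : ZMod 3 := if b then -x else x

/-- the action on the vectors -/
def σ4 (i : Io) (t : V3) : V3 :=
  (sc (sn i 0) (cd t (pm i.1 0)), sc (sn i 1) (cd t (pm i.1 1)), sc (sn i 2) (cd t (pm i.1 2)))

theorem mi_oi : ∀ i, mi oi i = i := by decide
theorem oi_mi : ∀ i, mi i oi = i := by decide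
theorem vi_mi : ∀ i, mi (vi i) i = oi := by decide
theorem mi_vi : ∀ i, mi i (vi i) = oi := by decide
theorem mi_assoc : ∀ i j k, mi (mi i j) k = mi i (mi j k) := by decide +kernel
theorem σ4_mi : ∀ i j t, σ4 (mi i j) t = σ4 i (σ4 j t) := by decide +kernel
theorem σ4_oi : ∀ t, σ4 oi t = t := by decide
theorem σ4_add : ∀ i s t, σ4 i (s + t) = σ4 i s + σ4 i t := by
  intro i s t
  have h : ∀ b x y, sc b (x + y) = sc b x + sc b y := by decide
  have h2 : ∀ k, cd (s + t) k = cd s k + cd t k := by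
    intro k; fin_cases k <;> rfl
  unfold σ4
  rw [h2, h2, h2, h, h, h]
  rfl
theorem σ4_B : ∀ i u t, B3 u (σ4 i t) = B3 (σ4 (vi i) u) t := by decide +kernel
theorem σ4_one : ∀ i, (∀ t, σ4 i t = t) → i = oi := by decide +kernel

/-- the number of nonzero coordinates -/
def ty (t : V3) : Fin 4 := (if t.1 = 0 then 0 else 1) + (if t.2.1 = 0 then 0 else 1) + (if t.2.2 = 0 then 0 else 1)

theorem ty_orbit : ∀ s t, ty s = ty t → ∃ i, σ4 i s = t := by decide +kernel
theorem ty_σ4 : ∀ i t, ty (σ4 i t) = ty t := by decide +kernel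
theorem ty_zero : ∀ t, ty t = 0 ↔ t = 0 := by decide

def nt (t : V3) (k : Fin 4) : Bool := !(ty t == 0) && !(ty t == k)

def mv (a b c : V3) : Bool :=
  nt a 1 && nt b 1 && nt c 1 && nt (a + b) 2 && nt (a - b) 2 && nt (a + c) 2 && nt (a - c) 2 && nt (b + c) 2 && nt (b - c) 2 &&
    nt (a + b + c) 3 && nt (a + b - c) 3 && nt (a - b + c) 3 && nt (a - b - c) 3

/-- there is no linear map moving all the types -/
theorem no_move : ∀ a b c : V3, mv a b c = false := by
  decide +kernel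

/-- multiplication in the model -/
def mm (m n : V3 × Io) : V3 × Io := (m.1 + σ4 m.2 n.1, mi m.2 n.2)

/-- number of solutions of `m n = n' m` -/
def cnt (n n' : V3 × Io) : ℕ :=
  ∑ j : Io, if mi j n.2 = mi n'.2 j then ∑ w : V3, (if w + σ4 j n.1 = n'.1 + σ4 n'.2 w then 1 else 0) else 0

def iz : Io := (0, false, true)
def i4 : Io := (4, false, true)
def i2 : Io := (3, false, false)
def i3 : Io := (1, false, false)

theorem iz_fix : σ4 iz (1, 0, 0) = (1, 0, 0) := by decide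
theorem i4_fix : σ4 i4 (1, 0, 0) = (1, 0, 0) := by decide
theorem i3_fix : σ4 i3 (1, 1, 1) = (1, 1, 1) := by decide
theorem i2_fix : σ4 i2 (1, 1, 0) = (1, 1, 0) := by decide
theorem i4_sq : mi i4 i4 = iz := by decide

/-- representatives of the nine classes -/
def rp : Fin 9 → V3 × Io :=
  ![((1, 0, 0), oi), ((1, 1, 0), oi), ((1, 1, 1), oi), ((1, 0, 0), iz), ((1, 0, 0), i4), ((-1, 0, 0), i4),
    ((1, 0, 0), i2), ((1, 0, 0), i3), ((-1, 0, 0), i3)]

def Nc : Fin 9 → ℕ := ![108, 54, 81, 12, 12, 12, 6, 9, 9]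

theorem cnt_rp : ∀ c c', cnt (rp c) (rp c') = if c = c' then Nc c else 0 := by decide +kernel

end Cfsg.Agent.Lib.H52S
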