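import Cfsg.Agent.Lib.H52TI6
import Cfsg.Agent.Lib.H25Nine2

/-!
# The group `3^3 : 2^2` (helper52)
-/

set_option autoImplicit false
set_option linter.all false

namespace Cfsg.Agent.Lib.H52TI

open Cfsg Cfsg.Agent.Lib.CharBasic Cfsg.Agent.Lib.StructConst Cfsg.Agent.Lib.H25Nine
open scoped ComplexConjugate

universe u v w

theorem pow_val_add' {P : Type u} [Group P] {a : P} (ha : a ^ 3 = 1) (s t : ZMod 3) :
    a ^ (s + t).val = a ^ s.val * a ^ t.val := by
  rw [← pow_add, ZMod.val_add]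
  exact (pow_eq_pow_mod _ ha).symm

theorem xor_ff : ∀ i j : Bool × Bool, (xor j.1 i.1, xor j.2 i.2) = (false, false) → i = j := by decide

theorem V3_three : ∀ t : V3, t + t + t = 0 := by decide

theorem V3_ne : ((1, 0, 0) : V3) ≠ 0 := by decide

theorem σ3_sep : ∀ i j : Bool × Bool, i ≠ j → ∃ t, σ3 i t ≠ σ3 j t := by decide

theorem σ3_one : ∀ i : Bool × Bool, (∀ t, σ3 i t = t) → i = (false, false) := by decide

theorem pow_val_mul {P : Type u} [Group P] {a : P} (ha : a ^ 3 = 1) (s t : ZMod 3) :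
    (a ^ s.val) ^ t.val = a ^ (s * t).val := by
  rw [← pow_mul, ZMod.val_mul]
  exact pow_eq_pow_mod _ ha

/-- relations -/
structure Rel {P : Type u} [Group P] (τ : V3 → P) (Z : Bool × Bool → P) : Prop where
  map_add : ∀ s t, τ (s + t) = τ s * τ t
  act : ∀ i t, Z i * τ t * (Z i)⁻¹ = τ (σ3 i t)
  zmul : ∀ i j, Z i * Z j = Z (xor i.1 j.1, xor i.2 j.2)
  zone : Z (false, false) = 1
  ker : ∀ t i, τ t * Z i = 1 → t = 0 ∧ i = (false, false)

namespace Rel

variable {P : Type u} [Group P] {τ : V3 → P} {Z : Bool × Bool → P}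

theorem map_zero (h : Rel τ Z) : τ 0 = 1 := by
  have := h.map_add 0 0
  rw [add_zero] at this
  exact left_eq_mul.mp this

theorem map_neg (h : Rel τ Z) (t : V3) : τ (-t) = (τ t)⁻¹ := by
  rw [eq_inv_iff_mul_eq_one, ← h.map_add, neg_add_cancel, h.map_zero]

theorem zsq (h : Rel τ Z) (i : Bool × Bool) : Z i * Z i = 1 := by
  rw [h.zmul, Bool.xor_self, Bool.xor_self, h.zone]

theorem zinv (h : Rel τ Z) (i : Bool × Bool) : (Z i)⁻¹ = Z i := by
  rw [inv_eq_iff_mul_eq_one]; exact h.zsq i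

theorem mul (h : Rel τ Z) (s t : V3) (i j : Bool × Bool) :
    (τ s * Z i) * (τ t * Z j) = τ (s + σ3 i t) * Z (xor i.1 j.1, xor i.2 j.2) := by
  rw [h.map_add, ← h.act, ← h.zmul]; group

theorem inv (h : Rel τ Z) (s : V3) (i : Bool × Bool) : (τ s * Z i)⁻¹ = τ (σ3 i (-s)) * Z i := by
  rw [← h.act, mul_inv_rev, h.map_neg, inv_mul_cancel_right, h.zinv]

theorem inj (h : Rel τ Z) {s t : V3} {i j : Bool × Bool} (he : τ s * Z i = τ t * Z j) : s = t ∧ i = j := by
  have h1 : (τ t * Z j)⁻¹ * (τ s * Z i) = 1 := by rw [he]; group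
  rw [h.inv, h.mul] at h1
  obtain ⟨h2, h3⟩ := h.ker _ _ h1
  have hij : i = j := xor_ff i j h3
  refine ⟨?_, hij⟩
  have h4 : σ3 j (-t) + σ3 j s = σ3 j (s - t) := by
    unfold σ3; ext <;> simp only [Prod.fst_add, Prod.snd_add, Prod.fst_sub, Prod.snd_sub, Prod.fst_neg, Prod.snd_neg] <;> ring
  rw [h4] at h2
  have h5 : s - t = 0 := by
    apply (σ3_bij j).1
    rw [h2]
    unfold σ3; simp only [Prod.fst_zero, Prod.snd_zero, mul_zero]; rfl
  exact sub_eq_zero.mp h5

theorem emb (h : Rel τ Z) : Emb τ where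
  map_add := h.map_add
  inj := by
    intro s t hst
    exact (h.inj (i := (false, false)) (j := (false, false)) (by rw [hst])).1

end Rel

/-- transfer along an injective homomorphism -/
theorem Rel.comp {P : Type u} {Q : Type v} [Group P] [Group Q] {τ : V3 → P} {Z : Bool × Bool → P}
    (h : Rel τ Z) (φ : P →* Q) (hφ : Function.Injective φ) : Rel (fun t => φ (τ t)) (fun i => φ (Z i)) where
  map_add s t := by rw [h.map_add, map_mul]
  act i t := by rw [← h.act, map_mul, map_mul, map_inv]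
  zmul i j := by rw [← h.zmul, map_mul]
  zone := by rw [h.zone, map_one]
  ker t i hti := by
    apply h.ker
    apply hφ
    rw [map_mul, hti, map_one]

open Equiv in
def c1 : Perm (Fin 9) := Equiv.swap (0 : Fin 9) 1 * Equiv.swap 1 2
open Equiv in
def c2 : Perm (Fin 9) := Equiv.swap (3 : Fin 9) 4 * Equiv.swap 4 5
open Equiv in
def c3 : Perm (Fin 9) := Equiv.swap (6 : Fin 9) 7 * Equiv.swap 7 8

open Equiv in
def τ0 (t : V3) : Perm (Fin 9) := c1 ^ t.1.val * c2 ^ t.2.1.val * c3 ^ t.2.2.val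

open Equiv in
def Z0 (i : Bool × Bool) : Perm (Fin 9) :=
  (if i.1 then Equiv.swap 0 1 else 1) * (if i.2 then Equiv.swap 3 4 else 1) * (if xor i.1 i.2 then Equiv.swap 6 7 else 1)

theorem c1_three : c1 ^ 3 = 1 := by decide
theorem c2_three : c2 ^ 3 = 1 := by decide
theorem c3_three : c3 ^ 3 = 1 := by decide
theorem c12 : Commute c1 c2 := by unfold Commute SemiconjBy; decide
theorem c13 : Commute c1 c3 := by unfold Commute SemiconjBy; decide
theorem c23 : Commute c2 c3 := by unfold Commute SemiconjBy; decide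
theorem z_c1 : ∀ i, Z0 i * c1 * (Z0 i)⁻¹ = c1 ^ (sg i.1).val := by decide
theorem z_c2 : ∀ i, Z0 i * c2 * (Z0 i)⁻¹ = c2 ^ (sg i.2).val := by decide
theorem z_c3 : ∀ i, Z0 i * c3 * (Z0 i)⁻¹ = c3 ^ (sg (xor i.1 i.2)).val := by decide
theorem z_mul : ∀ i j, Z0 i * Z0 j = Z0 (xor i.1 j.1, xor i.2 j.2) := by decide
theorem z_ker : ∀ (t : V3) (i : Bool × Bool), τ0 t * Z0 i = 1 → t = 0 ∧ i = (false, false) := by decide

theorem rel0 : Rel τ0 Z0 where
  map_add s t := by
    unfold τ0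
    simp only [Prod.fst_add, Prod.snd_add]
    rw [pow_val_add' c1_three, pow_val_add' c2_three, pow_val_add' c3_three]
    have h12 := (c12.pow_pow t.1.val s.2.1.val).eq
    have h13 := (c13.pow_pow t.1.val s.2.2.val).eq
    have h23 := (c23.pow_pow t.2.1.val s.2.2.val).eq
    calc c1 ^ s.1.val * c1 ^ t.1.val * (c2 ^ s.2.1.val * c2 ^ t.2.1.val) * (c3 ^ s.2.2.val * c3 ^ t.2.2.val)
        = c1 ^ s.1.val * (c1 ^ t.1.val * c2 ^ s.2.1.val) * c2 ^ t.2.1.val * (c3 ^ s.2.2.val * c3 ^ t.2.2.val) := by group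
      _ = c1 ^ s.1.val * (c2 ^ s.2.1.val * c1 ^ t.1.val) * c2 ^ t.2.1.val * (c3 ^ s.2.2.val * c3 ^ t.2.2.val) := by rw [h12]
      _ = c1 ^ s.1.val * c2 ^ s.2.1.val * c1 ^ t.1.val * (c2 ^ t.2.1.val * c3 ^ s.2.2.val) * c3 ^ t.2.2.val := by group
      _ = c1 ^ s.1.val * c2 ^ s.2.1.val * c1 ^ t.1.val * (c3 ^ s.2.2.val * c2 ^ t.2.1.val) * c3 ^ t.2.2.val := by rw [h23]
      _ = c1 ^ s.1.val * c2 ^ s.2.1.val * (c1 ^ t.1.val * c3 ^ s.2.2.val) * c2 ^ t.2.1.val * c3 ^ t.2.2.val := by group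
      _ = c1 ^ s.1.val * c2 ^ s.2.1.val * (c3 ^ s.2.2.val * c1 ^ t.1.val) * c2 ^ t.2.1.val * c3 ^ t.2.2.val := by rw [h13]
      _ = _ := by group
  act i t := by
    have e1 : Z0 i * τ0 t * (Z0 i)⁻¹ = (Z0 i * c1 * (Z0 i)⁻¹) ^ t.1.val * (Z0 i * c2 * (Z0 i)⁻¹) ^ t.2.1.val *
        (Z0 i * c3 * (Z0 i)⁻¹) ^ t.2.2.val := by
      rw [conj_pow, conj_pow, conj_pow]
      unfold τ0
      group
    rw [e1, z_c1, z_c2, z_c3, pow_val_mul c1_three, pow_val_mul c2_three, pow_val_mul c3_three]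
    rfl
  zmul := z_mul
  zone := by decide
  ker := z_ker

/-- the group of the statement -/
abbrev H0 : Subgroup (Equiv.Perm (Fin 9)) :=
  Subgroup.closure ({Equiv.swap (0 : Fin 9) 1 * Equiv.swap 1 2, Equiv.swap (3 : Fin 9) 4 * Equiv.swap 4 5, Equiv.swap (6 : Fin 9) 7 * Equiv.swap 7 8,
        Equiv.swap (0 : Fin 9) 1 * Equiv.swap 3 4, Equiv.swap (0 : Fin 9) 1 * Equiv.swap 6 7} : Set (Equiv.Perm (Fin 9)))

theorem mem_H0 {g : Equiv.Perm (Fin 9)} (hg : g ∈ H0) : ∃ t i, g = τ0 t * Z0 i := by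
  induction hg using Subgroup.closure_induction with
  | mem x hx =>
    simp only [Set.mem_insert_iff, Set.mem_singleton_iff] at hx
    rcases hx with rfl | rfl | rfl | rfl | rfl
    · exact ⟨(1, 0, 0), (false, false), by decide⟩
    · exact ⟨(0, 1, 0), (false, false), by decide⟩
    · exact ⟨(0, 0, 1), (false, false), by decide⟩
    · exact ⟨(0, 0, 0), (true, true), by decide⟩
    · exact ⟨(0, 0, 0), (true, false), by decide⟩
  | one => exact ⟨0, (false, false), by decide⟩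
  | mul x y _ _ hx hy =>
    obtain ⟨s, i, rfl⟩ := hx
    obtain ⟨t, j, rfl⟩ := hy
    exact ⟨_, _, rel0.mul s t i j⟩
  | inv x _ hx =>
    obtain ⟨s, i, rfl⟩ := hx
    exact ⟨_, _, rel0.inv s i⟩

theorem c1_mem : c1 ∈ H0 := Subgroup.subset_closure (by unfold c1; simp)
theorem c2_mem : c2 ∈ H0 := Subgroup.subset_closure (by unfold c2; simp)
theorem c3_mem : c3 ∈ H0 := Subgroup.subset_closure (by unfold c3; simp)

theorem τ0_mem (t : V3) : τ0 t ∈ H0 :=
  mul_mem (mul_mem (pow_mem c1_mem _) (pow_mem c2_mem _)) (pow_mem c3_mem _)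

theorem Z0_mem (i : Bool × Bool) : Z0 i ∈ H0 := by
  have h1 : Z0 (true, true) ∈ H0 := by
    have : Z0 (true, true) = Equiv.swap (0 : Fin 9) 1 * Equiv.swap 3 4 := by decide
    rw [this]
    exact Subgroup.subset_closure (by simp)
  have h2 : Z0 (true, false) ∈ H0 := by
    have : Z0 (true, false) = Equiv.swap (0 : Fin 9) 1 * Equiv.swap 6 7 := by decide
    rw [this]
    exact Subgroup.subset_closure (by simp)
  rcases i with ⟨a, b⟩
  cases a <;> cases b
  · rw [rel0.zone]; exact one_mem _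
  · have : Z0 (false, true) = Z0 (true, true) * Z0 (true, false) := by rw [rel0.zmul]; rfl
    rw [this]; exact mul_mem h1 h2
  · exact h2
  · exact h1

theorem main3701 {G : Type u} [Group G] [Finite G] (H : Subgroup G) (e : ↥H ≃* ↥H0)
    (T : Subgroup G) (hTH : T ≤ H) (hT : Nat.card T = 27) (hN : Subgroup.normalizer (T : Set G) = H)
    (hC : ∀ t ∈ T, t ≠ 1 → Subgroup.centralizer ({t} : Set G) ≤ H) : H = ⊤ := by
  classical
  have hf3 : Fact (Nat.Prime 3) := ⟨Nat.prime_three⟩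
  set φ : ↥H0 →* G := H.subtype.comp e.symm.toMonoidHom with hφ
  have hφi : Function.Injective φ := by
    intro a b hab
    exact e.symm.injective (Subtype.ext hab)
  have rel' : Rel (P := ↥H0) (fun t => ⟨τ0 t, τ0_mem t⟩) (fun i => ⟨Z0 i, Z0_mem i⟩) :=
    { map_add := fun s t => Subtype.ext (rel0.map_add s t)
      act := fun i t => Subtype.ext (rel0.act i t)
      zmul := fun i j => Subtype.ext (rel0.zmul i j)
      zone := Subtype.ext rel0.zone
      ker := fun t i h => rel0.ker t i (congrArg Subtype.val h) }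
  have rel := rel'.comp φ hφi
  set τ : V3 → G := fun t => φ ⟨τ0 t, τ0_mem t⟩ with hτ
  set Z : Bool × Bool → G := fun i => φ ⟨Z0 i, Z0_mem i⟩ with hZ
  have hmemH : ∀ h, h ∈ H → ∃ t i, h = τ t * Z i := by
    intro h hh
    obtain ⟨t, i, hti⟩ := mem_H0 (e ⟨h, hh⟩).2
    refine ⟨t, i, ?_⟩
    show h = φ ⟨τ0 t, τ0_mem t⟩ * φ ⟨Z0 i, Z0_mem i⟩
    rw [← map_mul]
    have h1 : (⟨τ0 t, τ0_mem t⟩ * ⟨Z0 i, Z0_mem i⟩ : ↥H0) = e ⟨h, hh⟩ := Subtype.ext hti.symm
    rw [h1]
    show h = ((e.symm (e ⟨h, hh⟩) : H) : G)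
    rw [MulEquiv.symm_apply_apply]
  have hφH : ∀ p, φ p ∈ H := fun p => (e.symm p).2
  have cardH : Nat.card H = 108 := by
    have h1 : Nat.card (V3 × (Bool × Bool)) = Nat.card H := by
      apply Nat.card_congr
      refine Equiv.ofBijective (fun p => ⟨τ p.1 * Z p.2, mul_mem (hφH _) (hφH _)⟩) ⟨?_, ?_⟩
      · intro p q hpq
        have h2 : τ p.1 * Z p.2 = τ q.1 * Z q.2 := congrArg Subtype.val hpq
        obtain ⟨h3, h4⟩ := rel.inj h2
        exact Prod.ext h3 h4
      · rintro ⟨h, hh⟩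
        obtain ⟨t, i, hti⟩ := hmemH h hh
        exact ⟨(t, i), Subtype.ext hti.symm⟩
    rw [← h1, Nat.card_eq_fintype_card]
    simp [V3, ZMod.card]
  -- T is the image of τ
  have hTτ : ∀ h ∈ T, ∃ t, h = τ t := by
    intro h hh
    obtain ⟨t, i, hti⟩ := hmemH h (hTH hh)
    have h27 : h ^ 27 = 1 := by
      have := pow_card_eq_one' (G := ↥T) (x := ⟨h, hh⟩)
      rw [hT] at this
      exact congrArg Subtype.val this
    have hsq : h * h = τ (t + σ3 i t) := by
      rw [hti, rel.mul, Bool.xor_self, Bool.xor_self]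
      have : Z (false, false) = 1 := rel.zone
      rw [this, mul_one]
    have hpow : ∀ n : ℕ, ∃ s, (h * h) ^ n = τ s := by
      intro n
      induction n with
      | zero => exact ⟨0, by rw [pow_zero, rel.map_zero]⟩
      | succ n ih =>
        obtain ⟨s, hs⟩ := ih
        exact ⟨s + (t + σ3 i t), by rw [pow_succ, hs, hsq]; exact (rel.map_add _ _).symm⟩
    obtain ⟨s, hs⟩ := hpow 13
    have h1 : h * τ s = 1 := by
      rw [← hs, ← h27]
      rw [← pow_two, ← pow_mul, ← pow_succ']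
    exact ⟨-s, by rw [rel.map_neg]; exact eq_inv_of_mul_eq_one_left h1⟩
  have hTeq : ∀ g, g ∈ T ↔ ∃ t, τ t = g := by
    have hsub : T ≤ (rel.emb.hom).range := by
      intro h hh
      obtain ⟨t, ht⟩ := hTτ h hh
      exact ⟨Multiplicative.ofAdd t, ht.symm⟩
    have hcard : Nat.card (rel.emb.hom).range = 27 := by
      have hinj : Function.Injective rel.emb.hom := by
        intro a b hab
        exact rel.emb.inj hab
      rw [← Nat.card_congr (MonoidHom.ofInjective hinj).toEquiv]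
      rw [Nat.card_eq_fintype_card]
      simp [V3, ZMod.card]
    have heq : T = (rel.emb.hom).range := Subgroup.eq_of_le_of_card_ge hsub (by rw [hcard, hT])
    intro g
    rw [heq]
    constructor
    · rintro ⟨a, ha⟩; exact ⟨a.toAdd, ha⟩
    · rintro ⟨a, ha⟩; exact ⟨Multiplicative.ofAdd a, ha⟩
  -- TIS
  have hTIS : TIS T :=
    { sylow := by
        apply exists_sylow
        · exact IsPGroup.of_card (n := 3) (by rw [hT]; norm_num)
        · rw [hN]
          have h1 : (T.subgroupOf H).index * 27 = 108 := by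
            have h2 := (T.subgroupOf H).index_mul_card
            rw [Nat.card_congr (Subgroup.subgroupOfEquivOfLe hTH).toEquiv, hT, cardH] at h2
            exact h2
          intro hd
          omega
      exp := by
        intro s hs
        obtain ⟨t, rfl⟩ := (hTeq s).1 hs
        rw [pow_succ, pow_two, ← rel.map_add, ← rel.map_add, V3_three, rel.map_zero]
      comm := by
        intro s hs t ht
        obtain ⟨a, rfl⟩ := (hTeq s).1 hs
        obtain ⟨b, rfl⟩ := (hTeq t).1 ht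
        rw [← rel.map_add, ← rel.map_add, add_comm]
      cent := by
        intro s hs hs1
        rw [hN]
        exact hC s hs hs1 }
  have hactH : ∀ g, g ∈ H → ∃ r i, g = τ r * Z i ∧ ∀ t, g * τ t * g⁻¹ = τ (σ3 i t) := by
    intro g hg
    obtain ⟨r, i, hri⟩ := hmemH g hg
    refine ⟨r, i, hri, ?_⟩
    intro t
    rw [hri]
    calc τ r * Z i * τ t * (τ r * Z i)⁻¹ = τ r * (Z i * τ t * (Z i)⁻¹) * (τ r)⁻¹ := by group
      _ = τ r * τ (σ3 i t) * (τ r)⁻¹ := by rw [rel.act]
      _ = τ (σ3 i t) := by rw [← rel.map_add, add_comm, rel.map_add]; group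
  have L : Loc τ σ3 :=
    { emb := rel.emb
      act := fun i => ⟨Z i, fun t => rel.act i t⟩
      sep := σ3_sep
      fus := by
        intro g s t ht hgt
        have h1 : g ∈ Subgroup.normalizer (T : Set G) := by
          apply hTIS.ti (s := τ t) ((hTeq _).2 ⟨t, rfl⟩) (rel.emb.ne_one ht)
          rw [hgt]; exact (hTeq _).2 ⟨s, rfl⟩
        rw [hN] at h1
        obtain ⟨r, i, -, h2⟩ := hactH g h1
        exact ⟨i, h2⟩
      cent := by
        intro g hg
        have h1 : g ∈ H := by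
          apply hC (τ (1, 0, 0)) ((hTeq _).2 ⟨_, rfl⟩) (rel.emb.ne_one V3_ne)
          rw [Subgroup.mem_centralizer_singleton_iff]
          have := hg (1, 0, 0)
          rw [mul_inv_eq_iff_eq_mul] at this
          exact this
        obtain ⟨r, i, hri, h2⟩ := hactH g h1
        have h3 : ∀ t, σ3 i t = t := by
          intro t
          apply rel.emb.inj
          rw [← h2, hg]
        have h4 : i = (false, false) := σ3_one i h3
        refine ⟨r, ?_⟩
        rw [hri, h4]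
        have : Z (false, false) = 1 := rel.zone
        rw [this, mul_one] }
  have hcard := card_eq L hTIS hTeq (by rw [← cardH]; exact Subgroup.card_subgroup_dvd_card H)
  apply Subgroup.eq_top_of_card_eq
  rw [cardH, hcard]

end Cfsg.Agent.Lib.H52TI
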