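import Cfsg.Agent.Lib.H52SG
import Cfsg.Agent.Lib.H52TI7

/-!
# The group `3^3 : S4` as a permutation group of degree 9 (helper52)
-/

set_option autoImplicit false
set_option linter.all false

namespace Cfsg.Agent.Lib.H52S

open Cfsg.Agent.Lib.H52TI

universe u v

/-- relations -/
structure R4 {P : Type u} [Group P] (τ : V3 → P) (Z : Io → P) : Prop where
  map_add : ∀ s t, τ (s + t) = τ s * τ t
  act : ∀ i t, Z i * τ t * (Z i)⁻¹ = τ (σ4 i t)
  zmul : ∀ i j, Z i * Z j = Z (mi i j)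
  zone : Z oi = 1
  ker : ∀ t i, τ t * Z i = 1 → t = 0 ∧ i = oi

namespace R4

variable {P : Type u} [Group P] {τ : V3 → P} {Z : Io → P}

theorem map_zero (h : R4 τ Z) : τ 0 = 1 := by
  have := h.map_add 0 0
  rw [add_zero] at this
  exact left_eq_mul.mp this

theorem map_neg (h : R4 τ Z) (t : V3) : τ (-t) = (τ t)⁻¹ := by
  rw [eq_inv_iff_mul_eq_one, ← h.map_add, neg_add_cancel, h.map_zero]

theorem zinv (h : R4 τ Z) (i : Io) : (Z i)⁻¹ = Z (vi i) := by
  rw [inv_eq_iff_mul_eq_one, h.zmul, mi_vi, h.zone]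

theorem mul (h : R4 τ Z) (s t : V3) (i j : Io) :
    (τ s * Z i) * (τ t * Z j) = τ (s + σ4 i t) * Z (mi i j) := by
  rw [h.map_add, ← h.act, ← h.zmul]; group

theorem inv (h : R4 τ Z) (s : V3) (i : Io) : (τ s * Z i)⁻¹ = τ (σ4 (vi i) (-s)) * Z (vi i) := by
  rw [← h.act, mul_inv_rev, h.map_neg, inv_mul_cancel_right, h.zinv]

theorem inj (h : R4 τ Z) {s t : V3} {i j : Io} (he : τ s * Z i = τ t * Z j) : s = t ∧ i = j := by
  have h1 : (τ t * Z j)⁻¹ * (τ s * Z i) = 1 := by rw [he]; group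
  rw [h.inv, h.mul] at h1
  obtain ⟨h2, h3⟩ := h.ker _ _ h1
  have hij : i = j := by
    have : mi j (mi (vi j) i) = mi j oi := by rw [h3]
    rw [← mi_assoc, mi_vi, mi_oi, oi_mi] at this
    exact this
  refine ⟨?_, hij⟩
  rw [← σ4_add] at h2
  have h5 : σ4 j (σ4 (vi j) (-t + s)) = σ4 j 0 := by rw [h2]
  rw [← σ4_mi, mi_vi, σ4_oi] at h5
  have h6 : σ4 j 0 = 0 := by
    have := σ4_add j 0 0
    rw [add_zero] at this
    exact left_eq_add.mp this
  rw [h6, neg_add_eq_zero] at h5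
  exact h5.symm

theorem emb (h : R4 τ Z) : Emb τ where
  map_add := h.map_add
  inj := by
    intro s t hst
    exact (h.inj (i := oi) (j := oi) (by rw [hst])).1

end R4

/-- transfer along an injective homomorphism -/
theorem R4.comp {P : Type u} {Q : Type v} [Group P] [Group Q] {τ : V3 → P} {Z : Io → P}
    (h : R4 τ Z) (φ : P →* Q) (hφ : Function.Injective φ) : R4 (fun t => φ (τ t)) (fun i => φ (Z i)) where
  map_add s t := by rw [h.map_add, map_mul]
  act i t := by rw [← h.act, map_mul, map_mul, map_inv]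
  zmul i j := by rw [← h.zmul, map_mul]
  zone := by rw [h.zone, map_one]
  ker t i hti := by
    apply h.ker
    apply hφ
    rw [map_mul, hti, map_one]

/-! ### the permutations -/

/-- block and position -/
def bl : Fin 9 → Fin 3 := ![0, 0, 0, 1, 1, 1, 2, 2, 2]
def po : Fin 9 → ZMod 3 := ![0, 1, 2, 0, 1, 2, 0, 1, 2]
def pt : Fin 3 → ZMod 3 → Fin 9 := ![![0, 1, 2], ![3, 4, 5], ![6, 7, 8]]

def tf (t : V3) (x : Fin 9) : Fin 9 := pt (bl x) (po x + cd t (bl x))

def zf (i : Io) (x : Fin 9) : Fin 9 :=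
  let k := pm (inv6 i.1) (bl x)
  pt k (if sn i k then 1 - po x else po x)

theorem tf_neg : ∀ t x, tf (-t) (tf t x) = x := by decide +kernel
theorem tf_neg' : ∀ t x, tf t (tf (-t) x) = x := by decide +kernel
theorem zf_inv : ∀ i x, zf (vi i) (zf i x) = x := by decide +kernel
theorem zf_inv' : ∀ i x, zf i (zf (vi i) x) = x := by decide +kernel
theorem zf_mul : ∀ i j x, zf i (zf j x) = zf (mi i j) x := by decide +kernel
theorem tf_add : ∀ s t x, tf s (tf t x) = tf (s + t) x := by decide +kernel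
theorem zf_act : ∀ i t x, zf i (tf t x) = tf (σ4 i t) (zf i x) := by decide +kernel
theorem zt_ker : ∀ t i, (∀ x, tf t (zf i x) = x) → t = 0 ∧ i = oi := by decide +kernel

def T0 (t : V3) : Equiv.Perm (Fin 9) := ⟨tf t, tf (-t), tf_neg t, tf_neg' t⟩
def Y0 (i : Io) : Equiv.Perm (Fin 9) := ⟨zf i, zf (vi i), zf_inv i, zf_inv' i⟩

theorem r4 : R4 T0 Y0 where
  map_add s t := by
    ext1 x
    exact (tf_add s t x).symm
  act i t := by
    rw [mul_inv_eq_iff_eq_mul]
    ext1 x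
    exact zf_act i t x
  zmul i j := by
    ext1 x
    exact zf_mul i j x
  zone := by
    ext1 x
    revert x
    decide
  ker t i h := by
    apply zt_ker t i
    intro x
    have := congrArg (fun f : Equiv.Perm (Fin 9) => f x) h
    exact this

/-- the group of the statement -/
abbrev K0 : Subgroup (Equiv.Perm (Fin 9)) :=
  Subgroup.closure ({Equiv.swap (0 : Fin 9) 1 * Equiv.swap 1 2,
        Equiv.swap (0 : Fin 9) 3 * Equiv.swap 3 6 * (Equiv.swap (1 : Fin 9) 4 * Equiv.swap 4 7) * (Equiv.swap (2 : Fin 9) 5 * Equiv.swap 5 8),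
        Equiv.swap (0 : Fin 9) 1 * Equiv.swap 3 4, Equiv.swap (0 : Fin 9) 3 * Equiv.swap 1 4 * Equiv.swap 2 5 * Equiv.swap 6 7} : Set (Equiv.Perm (Fin 9)))

theorem g1_eq : Equiv.swap (0 : Fin 9) 1 * Equiv.swap 1 2 = T0 (1, 0, 0) * Y0 oi := by decide
theorem g2_eq : Equiv.swap (0 : Fin 9) 3 * Equiv.swap 3 6 * (Equiv.swap (1 : Fin 9) 4 * Equiv.swap 4 7) * (Equiv.swap (2 : Fin 9) 5 * Equiv.swap 5 8) =
    T0 (0, 0, 0) * Y0 (2, false, false) := by decide
theorem g3_eq : Equiv.swap (0 : Fin 9) 1 * Equiv.swap 3 4 = T0 (0, 0, 0) * Y0 (0, true, true) := by decide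
theorem g4_eq : Equiv.swap (0 : Fin 9) 3 * Equiv.swap 1 4 * Equiv.swap 2 5 * Equiv.swap 6 7 = T0 (0, 0, 0) * Y0 (3, false, false) := by decide

theorem mem_K0 {g : Equiv.Perm (Fin 9)} (hg : g ∈ K0) : ∃ t i, g = T0 t * Y0 i := by
  induction hg using Subgroup.closure_induction with
  | mem x hx =>
    simp only [Set.mem_insert_iff, Set.mem_singleton_iff] at hx
    rcases hx with rfl | rfl | rfl | rfl
    · exact ⟨_, _, g1_eq⟩
    · exact ⟨_, _, g2_eq⟩
    · exact ⟨_, _, g3_eq⟩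
    · exact ⟨_, _, g4_eq⟩
  | one => exact ⟨0, oi, by rw [r4.map_zero, r4.zone, mul_one]⟩
  | mul x y _ _ hx hy =>
    obtain ⟨s, i, rfl⟩ := hx
    obtain ⟨t, j, rfl⟩ := hy
    exact ⟨_, _, r4.mul s t i j⟩
  | inv x _ hx =>
    obtain ⟨s, i, rfl⟩ := hx
    exact ⟨_, _, r4.inv s i⟩

theorem zg_mem : ∀ i : Io, i = (2, false, false) ∨ i = (0, true, true) ∨ i = (3, false, false) → Y0 i ∈ K0 := by
  rintro i (rfl | rfl | rfl)
  · apply Subgroup.subset_closure
    rw [g2_eq]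
    have : T0 (0, 0, 0) = 1 := r4.map_zero
    rw [this, one_mul]; simp
  · apply Subgroup.subset_closure
    rw [g3_eq]
    have : T0 (0, 0, 0) = 1 := r4.map_zero
    rw [this, one_mul]; simp
  · apply Subgroup.subset_closure
    rw [g4_eq]
    have : T0 (0, 0, 0) = 1 := r4.map_zero
    rw [this, one_mul]; simp

/-- words in the generators -/
def wd (a b c d : Fin 3) : Io :=
  let x : Io := (2, false, false)
  let y : Io := (0, true, true)
  let z : Io := (3, false, false)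
  let px : Fin 3 → Io := ![oi, x, mi x x]
  let py : Fin 3 → Io := ![oi, y, oi]
  let pz : Fin 3 → Io := ![oi, z, oi]
  mi (mi (mi (px a) (py b)) (px c)) (pz d)

theorem exists_word : ∀ i : Io, ∃ a b c d : Fin 3, wd a b c d = i := by decide +kernel

theorem Y0_mem (i : Io) : Y0 i ∈ K0 := by
  obtain ⟨a, b, c, d, rfl⟩ := exists_word i
  have hx : Y0 (2, false, false) ∈ K0 := zg_mem _ (Or.inl rfl)
  have hy : Y0 (0, true, true) ∈ K0 := zg_mem _ (Or.inr (Or.inl rfl))
  have hz : Y0 (3, false, false) ∈ K0 := zg_mem _ (Or.inr (Or.inr rfl))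
  have h1 : Y0 oi ∈ K0 := by rw [r4.zone]; exact one_mem _
  have hm : ∀ i j, Y0 i ∈ K0 → Y0 j ∈ K0 → Y0 (mi i j) ∈ K0 := by
    intro i j hi hj
    rw [← r4.zmul]; exact mul_mem hi hj
  unfold wd
  apply hm
  · apply hm
    · apply hm
      · fin_cases a
        · exact h1
        · exact hx
        · exact hm _ _ hx hx
      · fin_cases b
        · exact h1
        · exact hy
        · exact h1
    · fin_cases c
      · exact h1
      · exact hx
      · exact hm _ _ hx hx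
  · fin_cases d
    · exact h1
    · exact hz
    · exact h1

theorem e1_orbit : ∀ t : V3, ∃ i j k : Io, ∃ a b c : Bool,
    (if a then σ4 i (1, 0, 0) else 0) + (if b then σ4 j (1, 0, 0) else 0) + (if c then σ4 k (1, 0, 0) else 0) = t := by
  intro t
  have h : ∀ x : ZMod 3, (x = 0) ∨ (x = 1) ∨ (x = -1) := by decide
  have key : ∀ (x : ZMod 3) (m : Fin 3), ∃ i : Io, ∃ a : Bool,
      (if a then σ4 i (1, 0, 0) else 0) = (![(x, 0, 0), (0, x, 0), (0, 0, x)] : Fin 3 → V3) m := by decide +kernel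
  obtain ⟨i, a, h1⟩ := key t.1 0
  obtain ⟨j, b, h2⟩ := key t.2.1 1
  obtain ⟨k, c, h3⟩ := key t.2.2 2
  refine ⟨i, j, k, a, b, c, ?_⟩
  rw [h1, h2, h3]
  simp

theorem T0_mem (t : V3) : T0 t ∈ K0 := by
  have h1 : T0 (1, 0, 0) ∈ K0 := by
    apply Subgroup.subset_closure
    rw [g1_eq, r4.zone, mul_one]; simp
  have h2 : ∀ i, T0 (σ4 i (1, 0, 0)) ∈ K0 := by
    intro i
    rw [← r4.act]
    exact mul_mem (mul_mem (Y0_mem i) h1) (inv_mem (Y0_mem i))
  have h3 : ∀ (i : Io) (a : Bool), T0 (if a then σ4 i (1, 0, 0) else 0) ∈ K0 := by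
    intro i a
    cases a
    · rw [if_neg (by simp), r4.map_zero]; exact one_mem _
    · rw [if_pos rfl]; exact h2 i
  obtain ⟨i, j, k, a, b, c, rfl⟩ := e1_orbit t
  rw [r4.map_add, r4.map_add]
  exact mul_mem (mul_mem (h3 i a) (h3 j b)) (h3 k c)

end Cfsg.Agent.Lib.H52S
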