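import Cfsg.Agent.Lib.H52SH

/-!
# Local structure of a subgroup `3^3 : S4` with a strongly closed 3-core (helper52)
-/

set_option autoImplicit false
set_option linter.all false

namespace Cfsg.Agent.Lib.H52S

open Cfsg Cfsg.Agent.Lib.CharBasic Cfsg.Agent.Lib.StructConst Cfsg.Agent.Lib.H25Nine Cfsg.Agent.Lib.H52TI
open scoped ComplexConjugate

universe u v

variable {G : Type u} [Group G]

/-- local hypotheses -/
structure NL (τ : V3 → G) (Z : Io → G) (H : Subgroup G) : Prop where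
  rel : R4 τ Z
  mem : ∀ g, g ∈ H ↔ ∃ t i, g = τ t * Z i
  sc : ∀ g u, g * τ u * g⁻¹ ∈ H → ∃ v, g * τ u * g⁻¹ = τ v
  cent : ∀ g u, u ≠ 0 → g * τ u = τ u * g → g ∈ H

namespace NL

variable {τ : V3 → G} {Z : Io → G} {H : Subgroup G}

theorem τ_mem (h : NL τ Z H) (t : V3) : τ t ∈ H := (h.mem _).2 ⟨t, oi, by rw [h.rel.zone, mul_one]⟩

theorem Z_mem (h : NL τ Z H) (i : Io) : Z i ∈ H := (h.mem _).2 ⟨0, i, by rw [h.rel.map_zero, one_mul]⟩

theorem comm (h : NL τ Z H) (s t : V3) : τ s * τ t = τ t * τ s := by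
  rw [← h.rel.map_add, add_comm, h.rel.map_add]

theorem ti (h : NL τ Z H) {g : G} {u : V3} (hu : u ≠ 0) (hg : g * τ u * g⁻¹ ∈ H) : g ∈ H := by
  obtain ⟨v, hv⟩ := h.sc g u hg
  have hv0 : v ≠ 0 := by
    rintro rfl
    rw [h.rel.map_zero] at hv
    apply h.rel.emb.ne_one hu
    have : τ u = g⁻¹ * (g * τ u * g⁻¹) * g := by group
    rw [this, hv]; group
  have h1 : ∀ t, ∃ s, g * τ t * g⁻¹ = τ s := by
    intro t
    apply h.sc
    apply h.cent _ v hv0
    rw [← hv]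
    calc g * τ t * g⁻¹ * (g * τ u * g⁻¹) = g * (τ t * τ u) * g⁻¹ := by group
      _ = g * (τ u * τ t) * g⁻¹ := by rw [h.comm]
      _ = _ := by group
  choose A hA using h1
  have hadd : ∀ s t, A (s + t) = A s + A t := by
    intro s t
    apply h.rel.emb.inj
    rw [← hA, h.rel.map_add, h.rel.map_add, ← hA, ← hA]; group
  have hA0 : A 0 = 0 := by
    have := hadd 0 0
    rw [add_zero] at this
    exact left_eq_add.mp this
  have hneg : ∀ t, A (-t) = - A t := by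
    intro t
    have := hadd t (-t)
    rw [add_neg_cancel, hA0] at this
    exact (neg_eq_of_add_eq_zero_right this.symm).symm
  have hne : ∀ t, t ≠ 0 → A t ≠ 0 := by
    intro t ht hc
    have := hA t
    rw [hc, h.rel.map_zero] at this
    apply h.rel.emb.ne_one ht
    have h2 : τ t = g⁻¹ * (g * τ t * g⁻¹) * g := by group
    rw [h2, this]; group
  by_contra hgH
  have hty : ∀ t, t ≠ 0 → ty (A t) ≠ ty t := by
    intro t ht hc
    obtain ⟨i, hi⟩ := ty_orbit t (A t) hc.symm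
    apply hgH
    have h2 : (Z i)⁻¹ * g ∈ H := by
      apply h.cent _ t ht
      have h3 : g * τ t * g⁻¹ = Z i * τ t * (Z i)⁻¹ := by rw [hA, h.rel.act, hi]
      have h4 : g * τ t = Z i * τ t * (Z i)⁻¹ * g := by rw [← h3]; group
      rw [mul_assoc, h4]; group
    have h5 : g = Z i * ((Z i)⁻¹ * g) := by group
    rw [h5]
    exact mul_mem (h.Z_mem i) h2
  have hnt : ∀ t k, t ≠ 0 → ty t = k → nt (A t) k = true := by
    intro t k ht hk
    have h1 := hty t ht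
    have h2 : ty (A t) ≠ 0 := fun hc => hne t ht ((ty_zero _).mp hc)
    unfold nt
    rw [hk] at h1
    simp [h1, h2]
  have hsub : ∀ s t, A (s - t) = A s - A t := by
    intro s t; rw [sub_eq_add_neg, hadd, hneg, ← sub_eq_add_neg]
  have hmv : mv (A (1, 0, 0)) (A (0, 1, 0)) (A (0, 0, 1)) = true := by
    unfold mv
    simp only [← hadd, ← hsub]
    simp only [Bool.and_eq_true]
    refine ⟨⟨⟨⟨⟨⟨⟨⟨⟨⟨⟨⟨?_, ?_⟩, ?_⟩, ?_⟩, ?_⟩, ?_⟩, ?_⟩, ?_⟩, ?_⟩, ?_⟩, ?_⟩, ?_⟩, ?_⟩ <;>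
      exact hnt _ _ (by decide) (by decide)
  rw [no_move] at hmv
  exact Bool.false_ne_true hmv

theorem act_mem (h : NL τ Z H) {g : G} (hg : g ∈ H) : ∃ r i, g = τ r * Z i ∧ ∀ t, g * τ t * g⁻¹ = τ (σ4 i t) := by
  obtain ⟨r, i, hri⟩ := (h.mem g).1 hg
  refine ⟨r, i, hri, ?_⟩
  intro t
  rw [hri]
  calc τ r * Z i * τ t * (τ r * Z i)⁻¹ = τ r * (Z i * τ t * (Z i)⁻¹) * (τ r)⁻¹ := by group
    _ = τ r * τ (σ4 i t) * (τ r)⁻¹ := by rw [h.rel.act]
    _ = τ (σ4 i t) := by rw [h.comm]; group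

theorem sep4 : ∀ i j : Io, i ≠ j → ∃ t, σ4 i t ≠ σ4 j t := by decide +kernel

theorem loc (h : NL τ Z H) : Loc τ σ4 where
  emb := h.rel.emb
  act := fun i => ⟨Z i, fun t => h.rel.act i t⟩
  sep := sep4
  fus := by
    intro g s t ht hgt
    have h1 : g ∈ H := h.ti ht (by rw [hgt]; exact h.τ_mem s)
    obtain ⟨r, i, -, h2⟩ := h.act_mem h1
    exact ⟨i, h2⟩
  cent := by
    intro g hg
    have h1 : g ∈ H := h.ti (u := (1, 0, 0)) (by decide) (by rw [hg]; exact h.τ_mem _)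
    obtain ⟨r, i, hri, h2⟩ := h.act_mem h1
    have h3 : ∀ t, σ4 i t = t := by
      intro t
      apply h.rel.emb.inj
      rw [← h2, hg]
    refine ⟨r, ?_⟩
    rw [hri, σ4_one i h3, h.rel.zone, mul_one]

/-- the element belonging to `n` -/
def th (τ : V3 → G) (Z : Io → G) (n : V3 × Io) : G := τ n.1 * Z n.2

theorem th_mm (h : NL τ Z H) (m n : V3 × Io) : th τ Z (mm m n) = th τ Z m * th τ Z n :=
  (h.rel.mul _ _ _ _).symm

theorem th_inj (h : NL τ Z H) : Function.Injective (th τ Z) := by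
  intro m n hmn
  obtain ⟨h1, h2⟩ := h.rel.inj hmn
  exact Prod.ext h1 h2

theorem th_mem (h : NL τ Z H) (n : V3 × Io) : th τ Z n ∈ H := (h.mem _).2 ⟨_, _, rfl⟩

/-- elements with a power in the 3-core -/
def Dp (n : V3 × Io) : Prop :=
  (n.1 ≠ 0 ∧ n.2 = oi) ∨ ((mm n (mm n (mm n n))).1 ≠ 0 ∧ (mm n (mm n (mm n n))).2 = oi) ∨
    ((mm n (mm n n)).1 ≠ 0 ∧ (mm n (mm n n)).2 = oi)

instance (n : V3 × Io) : Decidable (Dp n) := by unfold Dp; infer_instance

theorem rp_Dp : ∀ c, Dp (rp c) := by decide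

theorem mem_of_Dp (h : NL τ Z H) {n : V3 × Io} (hn : Dp n) {a : G} (ha : a * th τ Z n * a⁻¹ ∈ H) : a ∈ H := by
  have h2 : a * th τ Z (mm n n) * a⁻¹ ∈ H := by
    have : a * th τ Z (mm n n) * a⁻¹ = (a * th τ Z n * a⁻¹) * (a * th τ Z n * a⁻¹) := by
      rw [h.th_mm]; group
    rw [this]; exact mul_mem ha ha
  have h3 : a * th τ Z (mm n (mm n n)) * a⁻¹ ∈ H := by
    have : a * th τ Z (mm n (mm n n)) * a⁻¹ = (a * th τ Z n * a⁻¹) * (a * th τ Z (mm n n) * a⁻¹) := by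
      rw [h.th_mm n (mm n n)]; group
    rw [this]; exact mul_mem ha h2
  have h4 : a * th τ Z (mm n (mm n (mm n n))) * a⁻¹ ∈ H := by
    have : a * th τ Z (mm n (mm n (mm n n))) * a⁻¹ = (a * th τ Z n * a⁻¹) * (a * th τ Z (mm n (mm n n)) * a⁻¹) := by
      rw [h.th_mm n (mm n (mm n n))]; group
    rw [this]; exact mul_mem ha h3
  have key : ∀ m : V3 × Io, m.1 ≠ 0 → m.2 = oi → a * th τ Z m * a⁻¹ ∈ H → a ∈ H := by
    intro m hm1 hm2 hm
    unfold th at hm
    rw [hm2, h.rel.zone, mul_one] at hm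
    exact h.ti hm1 hm
  rcases hn with ⟨q1, q2⟩ | ⟨q1, q2⟩ | ⟨q1, q2⟩
  · exact key _ q1 q2 ha
  · exact key _ q1 q2 h4
  · exact key _ q1 q2 h3

open scoped Classical in
theorem card_eq_cnt [Fintype G] (h : NL τ Z H) {n n' : V3 × Io} (hn : Dp n) :
    (Finset.univ.filter fun a : G => a * th τ Z n * a⁻¹ = th τ Z n').card = cnt n n' := by
  have e1 : (Finset.univ.filter fun a : G => a * th τ Z n * a⁻¹ = th τ Z n') =
      (Finset.univ.filter fun m : V3 × Io => mm m n = mm n' m).image (th τ Z) := by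
    ext a
    simp only [Finset.mem_filter, Finset.mem_univ, true_and, Finset.mem_image]
    constructor
    · intro ha
      have h1 : a ∈ H := h.mem_of_Dp hn (by rw [ha]; exact h.th_mem n')
      obtain ⟨w, j, hwj⟩ := (h.mem a).1 h1
      refine ⟨(w, j), ?_, hwj.symm⟩
      apply h.th_inj
      rw [h.th_mm, h.th_mm]
      have h2 : th τ Z (w, j) = a := hwj.symm
      rw [h2, ← ha]; group
    · rintro ⟨m, hm, rfl⟩
      have := congrArg (th τ Z) hm
      rw [h.th_mm, h.th_mm] at this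
      rw [this]; group
  rw [e1, Finset.card_image_of_injective _ h.th_inj, Finset.card_filter, Fintype.sum_prod_type_right]
  unfold cnt
  apply Finset.sum_congr rfl
  intro j _
  by_cases hj : mi j n.2 = mi n'.2 j
  · rw [if_pos hj]
    apply Finset.sum_congr rfl
    intro w _
    have e2 : (mm (w, j) n = mm n' (w, j)) ↔ (w + σ4 j n.1 = n'.1 + σ4 n'.2 w) := by
      unfold mm
      rw [Prod.mk.injEq]
      exact ⟨fun h => h.1, fun h => ⟨h, hj⟩⟩
    simp only [e2]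
  · rw [if_neg hj]
    apply Finset.sum_eq_zero
    intro w _
    rw [if_neg]
    unfold mm
    rw [Prod.mk.injEq]
    exact fun h => hj h.2

open scoped Classical in
theorem count_eq [Fintype G] (h : NL τ Z H) {n n' : V3 × Io} (hn : Dp n) :
    (∑ a : G, if a * th τ Z n * a⁻¹ = th τ Z n' then (1 : ℂ) else 0) = (cnt n n' : ℂ) := by
  rw [Finset.sum_boole, ← h.card_eq_cnt hn]

theorem orth [Finite G] (h : NL τ Z H) {n n' : V3 × Io} (hn : Dp n) :
    ∑ χ : IrrCharacter G, (χ : G → ℂ) (th τ Z n) * conj ((χ : G → ℂ) (th τ Z n')) = (cnt n n' : ℂ) := by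
  classical
  have := Fintype.ofFinite G
  rw [← h.count_eq hn, cnt_eq, column_orthogonality]
  split_ifs <;> rfl

theorem rp_orth [Finite G] (h : NL τ Z H) (c c' : Fin 9) :
    ∑ χ : IrrCharacter G, (χ : G → ℂ) (th τ Z (rp c)) * conj ((χ : G → ℂ) (th τ Z (rp c'))) =
      if c = c' then (Nc c : ℂ) else 0 := by
  rw [h.orth (rp_Dp c), cnt_rp]
  split_ifs <;> simp

end NL

end Cfsg.Agent.Lib.H52S
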