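import Cfsg.Agent.Lib.H52SI

/-!
# The (3,3,3)-trick for a strongly closed 3-core (helper52)
-/

set_option autoImplicit false
set_option linter.all false

namespace Cfsg.Agent.Lib.H52S

open Cfsg Cfsg.Agent.Lib.CharBasic Cfsg.Agent.Lib.StructConst Cfsg.Agent.Lib.H25Nine Cfsg.Agent.Lib.H52TI
open scoped ComplexConjugate

universe u v

variable {G : Type u} [Group G]

/-- Elements `x, y` with `x³ = y³ = (xy)³ = 1`. -/
theorem triangle [Finite G] {x y : G} (hx : x ^ 3 = 1) (hy : y ^ 3 = 1) (hxy : (x * y) ^ 3 = 1) :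
    IsConj x y ∨ ∃ w : G, orderOf w = 3 ∧ Commute w (x⁻¹ * y) ∧ Commute (x⁻¹ * w * x) (x⁻¹ * y) ∧
      Commute (x⁻¹ * w * x) w ∧ Commute (x⁻¹ * (x⁻¹ * w * x) * x) (x⁻¹ * w * x) ∧
      (x⁻¹ * (x⁻¹ * w * x) * x) * (x⁻¹ * w * x) * w = 1 := by
  have hx' : x * x * x = 1 := by rw [← pow_three']; exact hx
  have hy' : y * y * y = 1 := by rw [← pow_three']; exact hy
  have hxy' : x * y * (x * y) * (x * y) = 1 := by rw [← pow_three']; exact hxy
  set v := x⁻¹ * y with hv
  have hxi : x⁻¹ = x * x := by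
    rw [inv_eq_iff_mul_eq_one]; rw [← hx']; group
  have hyi : y⁻¹ = y * y := by
    rw [inv_eq_iff_mul_eq_one]; rw [← hy']; group
  have e1 : x * v * x⁻¹ = y * x⁻¹ := by rw [hv]; group
  have hc1 : Commute v (x * v * x⁻¹) := by
    rw [e1]
    show x⁻¹ * y * (y * x⁻¹) = y * x⁻¹ * (x⁻¹ * y)
    have a1 : x⁻¹ * y * (y * x⁻¹) = (x * y * x)⁻¹ := by
      rw [mul_inv_rev, mul_inv_rev, hyi]; group
    have a2 : y * x⁻¹ * (x⁻¹ * y) = y * x * y := by
      have : x⁻¹ * x⁻¹ = x := by rw [← mul_inv_rev, ← hxi, inv_inv]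
      calc y * x⁻¹ * (x⁻¹ * y) = y * (x⁻¹ * x⁻¹) * y := by group
        _ = _ := by rw [this]
    rw [a1, a2, inv_eq_iff_mul_eq_one]
    rw [← hxy']; group
  have hc2 : Commute (x⁻¹ * v * x) v := by
    have h2 : Commute (x⁻¹ * v * x) (x⁻¹ * (x * v * x⁻¹) * x) := by
      show x⁻¹ * v * x * (x⁻¹ * (x * v * x⁻¹) * x) = x⁻¹ * (x * v * x⁻¹) * x * (x⁻¹ * v * x)
      calc x⁻¹ * v * x * (x⁻¹ * (x * v * x⁻¹) * x) = x⁻¹ * (v * (x * v * x⁻¹)) * x := by group
        _ = x⁻¹ * ((x * v * x⁻¹) * v) * x := by rw [hc1.eq]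
        _ = _ := by group
    have h3 : x⁻¹ * (x * v * x⁻¹) * x = v := by group
    rwa [h3] at h2
  set s := x⁻¹ * v * x with hs
  have hnorm : (x⁻¹ * s * x) * s * v = 1 := by
    have hyv : y = x * v := by rw [hv]; group
    calc (x⁻¹ * s * x) * s * v = x⁻¹ * x⁻¹ * x⁻¹ * ((x * v) * (x * v) * (x * v)) := by
          rw [hs]; group
      _ = x⁻¹ * x⁻¹ * x⁻¹ * (y * y * y) := by rw [← hyv]
      _ = (x * x * x)⁻¹ := by rw [hy']; group
      _ = 1 := by rw [hx', inv_one]
  have hcs : Commute s v := hc2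
  set r := x⁻¹ * s * x with hr
  have hcr : Commute r s := by
    show x⁻¹ * s * x * s = s * (x⁻¹ * s * x)
    calc x⁻¹ * s * x * s = x⁻¹ * (s * v) * x := by rw [hs]; group
      _ = x⁻¹ * (v * s) * x := by rw [hcs.eq]
      _ = _ := by rw [hs]; group
  have hrv : r = v⁻¹ * s⁻¹ := by
    have : r * (s * v) = 1 := by rw [← mul_assoc]; exact hnorm
    rw [mul_eq_one_iff_eq_inv] at this
    rw [this, mul_inv_rev]
  have hcrv : Commute r v := by
    rw [hrv]
    exact ((Commute.refl v).inv_left).mul_left hcs.inv_left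
  by_cases h3 : 3 ∣ orderOf v
  · right
    obtain ⟨k, hk⟩ := h3
    have hpos : 0 < orderOf v := orderOf_pos v
    have hk0 : k ≠ 0 := by rintro rfl; omega
    have e2 : x⁻¹ * v ^ k * x = s ^ k := by
      have := conj_pow (a := x⁻¹) (b := v) (i := k)
      simp only [inv_inv] at this
      rw [hs, this]
    have e3 : x⁻¹ * s ^ k * x = r ^ k := by
      have := conj_pow (a := x⁻¹) (b := s) (i := k)
      simp only [inv_inv] at this
      rw [hr, this]
    refine ⟨v ^ k, ?_, ?_, ?_, ?_, ?_, ?_⟩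
    · rw [orderOf_pow' v hk0, hk, Nat.gcd_eq_right (Dvd.intro_left 3 rfl)]
      exact Nat.mul_div_cancel _ (Nat.pos_of_ne_zero hk0)
    · exact (Commute.refl v).pow_left k
    · rw [e2]; exact hcs.pow_left k
    · rw [e2]; exact hcs.pow_pow k k
    · rw [e2, e3]; exact hcr.pow_pow k k
    · rw [e2, e3, ← hcr.mul_pow, ← (hcrv.mul_left hcs).mul_pow, hnorm, one_pow]
  · left
    rcases conj_or_commute hx hy hxy with hc | _
    · exact hc
    have hcop : Nat.Coprime (orderOf v) 3 := by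
      rw [Nat.coprime_comm]
      exact (Nat.prime_three.coprime_iff_not_dvd).mpr h3
    obtain ⟨n, hn⟩ : ∃ n : ℕ, v ^ (3 * n) = v := by
      obtain ⟨m, hm⟩ := exists_pow_eq_self_of_coprime (n := 3) (x := v) (by rw [Nat.coprime_comm]; exact hcop)
      exact ⟨m, by rw [pow_mul]; exact hm⟩
    set w := (v * v * s) ^ n with hw
    have hσw : x⁻¹ * w * x = (s * s * r) ^ n := by
      have : x⁻¹ * w * x = (x⁻¹ * (v * v * s) * x) ^ n := by
        have := conj_pow (a := x⁻¹) (b := v * v * s) (i := n)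
        simp only [inv_inv] at this
        rw [hw, this]
      rw [this]
      congr 1
      rw [hr, hs]; group
    have hsr : s * s * r = v⁻¹ * s := by
      rw [hrv]
      have : s * s * (v⁻¹ * s⁻¹) = v⁻¹ * (s * s * s⁻¹) := by
        have h4 : Commute (s * s) v⁻¹ := ((hcs.mul_left hcs)).inv_right
        calc s * s * (v⁻¹ * s⁻¹) = (s * s * v⁻¹) * s⁻¹ := by group
          _ = (v⁻¹ * (s * s)) * s⁻¹ := by rw [h4.eq]
          _ = _ := by group
      rw [this]; group
    have hcvs : Commute (v * v * s) (v⁻¹ * s) := by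
      have c1 : Commute v (v⁻¹ * s) := ((Commute.refl v).inv_right).mul_right hcs.symm
      have c2 : Commute s (v⁻¹ * s) := (hcs.inv_right).mul_right (Commute.refl s)
      exact (c1.mul_left c1).mul_left c2
    have hkey : w * (x⁻¹ * w * x)⁻¹ = v := by
      rw [hσw, hsr, hw]
      rw [← inv_pow, ← (hcvs.inv_right).mul_pow]
      have h5 : v * v * s * (v⁻¹ * s)⁻¹ = v ^ 3 := by
        rw [mul_inv_rev, inv_inv, pow_three']; group
      rw [h5, ← pow_mul]
      exact hn
    rw [isConj_iff]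
    refine ⟨w⁻¹ , ?_⟩
    have hyv : y = x * v := by rw [hv]; group
    rw [hyv]
    have := hkey
    have h6 : x * v = w⁻¹ * x * w := by
      have h7 : Commute w (x⁻¹ * w * x)⁻¹ := by
        rw [hσw, hsr, hw]
        exact ((hcvs.pow_pow n n)).inv_right
      rw [h7.eq] at this
      rw [← this]
      group
    rw [h6]; group

/-- elements of order 3 outside the core only commute with vectors of type 3 -/
theorem fix_three : ∀ i : Io, i ≠ oi → mi i (mi i i) = oi → ∀ s : V3, σ4 i s = s → s = 0 ∨ ty s = 3 := by decide +kernel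

namespace NL

variable {τ : V3 → G} {Z : Io → G} {H : Subgroup G}

/-- an element of order 3 commuting with `τ s` lies in the core, or `s` has type 3 -/
theorem comm_three (h : NL τ Z H) {m : G} {s : V3} (hm3 : m ^ 3 = 1) (hs : s ≠ 0) (hms : m * τ s = τ s * m) :
    (∃ a, m = τ a) ∨ ty s = 3 := by
  have hm : m ∈ H := h.cent m s hs hms
  obtain ⟨a, i, hai⟩ := (h.mem m).1 hm
  by_cases hi : i = oi
  · left
    exact ⟨a, by rw [hai, hi, h.rel.zone, mul_one]⟩
  · right
    obtain ⟨r, i', hri, hact⟩ := h.act_mem hm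
    have hii : i = i' := (h.rel.inj (hai.symm.trans hri)).2
    subst hii
    have h1 : σ4 i s = s := by
      apply h.rel.emb.inj
      rw [← hact, hms]; group
    have h2 : mi i (mi i i) = oi := by
      have e : th τ Z (mm (a, i) (mm (a, i) (a, i))) = τ 0 * Z oi := by
        rw [h.th_mm, h.th_mm]
        have : th τ Z (a, i) = m := hai.symm
        rw [this, h.rel.map_zero, h.rel.zone, ← mul_assoc, ← pow_three', hm3, one_mul]
      exact (h.rel.inj e).2
    rcases fix_three i hi h2 s h1 with h3 | h3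
    · exact absurd h3 hs
    · exact h3

/-- the localisation -/
theorem local_three [Finite G] (h : NL τ Z H) {g k : G} {s t w : V3} (hs : s ≠ 0) (ht : t ≠ 0) (hw : w ≠ 0)
    (hnc : ¬ IsConj (τ s) (τ t)) (hxy : (g * τ s * g⁻¹) * (k * τ t * k⁻¹) = τ w) :
    ∃ a, g * τ s * g⁻¹ = τ a := by
  -- conjugate by `g⁻¹`
  set y := g⁻¹ * (k * τ t * k⁻¹) * g with hy
  set x := τ s with hx
  have hprod : x * y = g⁻¹ * τ w * g := by
    rw [hy, ← hxy]; group
  have h3 : ∀ t : V3, τ t ^ 3 = 1 := fun t => h.loc.pow_three V3_three t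
  have hx3 : x ^ 3 = 1 := h3 s
  have hy3 : y ^ 3 = 1 := by
    have : y = (g⁻¹ * k) * τ t * (g⁻¹ * k)⁻¹ := by rw [hy]; group
    rw [this, conj_pow, h3]; group
  have hxy3 : (x * y) ^ 3 = 1 := by
    have : g⁻¹ * τ w * g = g⁻¹ * τ w * (g⁻¹)⁻¹ := by group
    rw [hprod, this, conj_pow, h3]; group
  have hyc : y = (g⁻¹ * k) * τ t * (g⁻¹ * k)⁻¹ := by rw [hy]; group
  have hxyc : ¬ IsConj x y := by
    intro hc
    apply hnc
    refine hc.trans ?_
    rw [isConj_comm, isConj_iff]
    exact ⟨g⁻¹ * k, hyc.symm⟩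
  -- it is enough to show that `y` lies in `H`
  have key : y ∈ H → ∃ a, g * τ s * g⁻¹ = τ a := by
    intro hyH
    obtain ⟨b, hb⟩ := h.sc (g⁻¹ * k) t (by rw [← hyc]; exact hyH)
    rw [← hyc] at hb
    have h5 : g * τ (s + b) * g⁻¹ = τ w := by
      rw [h.rel.map_add, ← hb, ← hx, hprod]; group
    have h6 : s + b ≠ 0 := by
      intro hc
      rw [hc, h.rel.map_zero] at h5
      apply h.rel.emb.ne_one hw
      rw [← h5]; group
    have h7 : g ∈ H := h.ti h6 (by rw [h5]; exact h.τ_mem w)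
    obtain ⟨r, i, -, hact⟩ := h.act_mem h7
    exact ⟨_, hact s⟩
  rcases triangle hx3 hy3 hxy3 with hc | ⟨m, hm3, hmv, hsv, hsm, hrs, hnm⟩
  · exact absurd hc hxyc
  have hm3' : m ^ 3 = 1 := by rw [← hm3]; exact pow_orderOf_eq_one m
  have hm1 : m ≠ 1 := by rintro rfl; simp at hm3
  have hxH : x ∈ H := h.τ_mem s
  -- `c` commutes with `x`
  set q := x⁻¹ * m * x with hq
  set c := q⁻¹ * m with hc
  have hcx : c * x = x * c := by
    -- σ(c) = c
    have hq3 : q ^ 3 = 1 := by
      have : q = x⁻¹ * m * (x⁻¹)⁻¹ := by rw [hq, inv_inv]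
      rw [this, conj_pow, hm3']; group
    have h4 : x⁻¹ * c * x = c := by
      have e1 : x⁻¹ * c * x = (x⁻¹ * q * x)⁻¹ * q := by rw [hc, hq]; group
      have e2 : x⁻¹ * q * x = m⁻¹ * q⁻¹ := by
        have : (x⁻¹ * q * x) * (q * m) = 1 := by rw [← mul_assoc]; exact hnm
        rw [mul_eq_one_iff_eq_inv] at this
        rw [this, mul_inv_rev]
      rw [e1, e2, hc, mul_inv_rev, inv_inv, inv_inv]
      have e3 : q * m * q = q⁻¹ * m := by
        rw [eq_inv_mul_iff_mul_eq]
        calc q * (q * m * q) = q * q * (m * q) := by group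
          _ = q * q * (q * m) := by rw [hsm.eq]
          _ = q ^ 3 * m := by rw [pow_three']; group
          _ = m := by rw [hq3, one_mul]
      exact e3
    calc c * x = x * (x⁻¹ * c * x) := by group
      _ = x * c := by rw [h4]
  have hvH : ∀ z : G, z ≠ 1 → (∃ a, z = τ a) → Commute z (x⁻¹ * y) → y ∈ H := by
    rintro z hz1 ⟨a, rfl⟩ hz
    have ha : a ≠ 0 := by
      rintro rfl
      exact hz1 h.rel.map_zero
    have h4 : x⁻¹ * y ∈ H := h.cent _ a ha hz.eq.symm
    have h5 : y = x * (x⁻¹ * y) := by group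
    rw [h5]
    exact mul_mem hxH h4
  have hcH : c ∈ H := h.cent c s hs hcx
  by_cases hc1 : c = 1
  · -- `m` commutes with `x` and `y`
    have hmq : q = m := by
      rw [hc, inv_mul_eq_one] at hc1
      exact hc1
    have hmx : m * x = x * m := by
      have : x * q = m * x := by rw [hq]; group
      rw [← this, hmq]
    rcases h.comm_three hm3' hs hmx with h4 | h4
    · exact key (hvH m hm1 h4 hmv)
    · have hmy : m * y = y * m := by
        calc m * y = (m * x) * (x⁻¹ * y) := by group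
          _ = x * (m * (x⁻¹ * y)) := by rw [hmx]; group
          _ = x * ((x⁻¹ * y) * m) := by rw [hmv.eq]
          _ = _ := by group
      -- move to `τ t`
      set l := g⁻¹ * k with hl
      have h5 : (l⁻¹ * m * l) * τ t = τ t * (l⁻¹ * m * l) := by
        have e : τ t = l⁻¹ * y * l := by rw [hyc]; group
        rw [e]
        calc l⁻¹ * m * l * (l⁻¹ * y * l) = l⁻¹ * (m * y) * l := by group
          _ = l⁻¹ * (y * m) * l := by rw [hmy]
          _ = _ := by group
      have h6 : (l⁻¹ * m * l) ^ 3 = 1 := by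
        have : l⁻¹ * m * l = l⁻¹ * m * (l⁻¹)⁻¹ := by rw [inv_inv]
        rw [this, conj_pow, hm3']; group
      rcases h.comm_three h6 ht h5 with ⟨a, ha⟩ | h7
      · -- then `m` is in the core
        have hmH : m ∈ H := h.cent m s hs hmx
        have h8 : l * τ a * l⁻¹ = m := by rw [← ha]; group
        obtain ⟨b, hb⟩ := h.sc l a (by rw [h8]; exact hmH)
        exact key (hvH m hm1 ⟨b, by rw [← h8, hb]⟩ hmv)
      · exfalso
        apply hnc
        rw [h.loc.isConj_iff' hs]
        exact ty_orbit s t (by rw [h4, h7])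
  · apply key
    apply hvH c hc1
    · have h4 : x * c = m⁻¹ * τ s * m := by rw [hc, hq, ← hx]; group
      obtain ⟨b, hb⟩ := h.sc m⁻¹ s (by rw [inv_inv, ← h4]; exact mul_mem hxH hcH)
      rw [inv_inv, ← h4] at hb
      refine ⟨b - s, ?_⟩
      rw [sub_eq_add_neg, h.rel.map_add, ← hb, h.rel.map_neg, ← hx, ← hcx]; group
    · exact (hsv.inv_left).mul_left hmv

/-- nonconjugate `x, y` in the core with product in the core: the structure constant is the local one -/
theorem triple_sum [Finite G] (h : NL τ Z H) {s t w : V3} (hs : s ≠ 0) (ht : t ≠ 0) (hw : w ≠ 0)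
    (hnc : ∀ i, σ4 i s ≠ t) (T : Finset V3)
    (hTm : ∀ a, a ∈ T ↔ (∃ i, σ4 i s = a) ∧ ∃ j, σ4 j t = w - a) :
    (Nat.card G : ℂ) * ∑ χ : IrrCharacter G,
        (χ : G → ℂ) (τ s) * (χ : G → ℂ) (τ t) * conj ((χ : G → ℂ) (τ w)) / (χ : G → ℂ) 1 =
      (Nat.card (Subgroup.centralizer ({τ s} : Set G)) : ℂ) *
        (Nat.card (Subgroup.centralizer ({τ t} : Set G)) : ℂ) * (T.card : ℂ) := by
  classical
  have := Fintype.ofFinite G
  have L := h.loc
  let S : Subgroup G := h.rel.emb.hom.range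
  have hS : ∀ g, g ∈ S ↔ ∃ t, τ t = g := by
    intro g
    constructor
    · rintro ⟨a, ha⟩; exact ⟨a.toAdd, ha⟩
    · rintro ⟨a, ha⟩; exact ⟨Multiplicative.ofAdd a, ha⟩
  rw [sc_sub (S := S)]
  · congr 2
    apply Finset.card_bij' (i := fun (u : S) _ => (((hS _).1 u.2).choose))
      (j := fun (a : V3) _ => (⟨τ a, (hS _).2 ⟨a, rfl⟩⟩ : S))
    · intro u hu
      simp only [Finset.mem_filter, Finset.mem_univ, true_and] at hu
      have hsp := ((hS _).1 u.2).choose_spec
      set a := ((hS _).1 u.2).choose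
      rw [hTm]
      rw [← hsp] at hu
      refine ⟨(L.isConj_iff' hs).1 hu.1, ?_⟩
      have e : (τ a)⁻¹ * τ w = τ (w - a) := by
        rw [sub_eq_add_neg, add_comm, L.emb.map_add, L.emb.map_neg]
      rw [e] at hu
      exact (L.isConj_iff' ht).1 hu.2
    · intro a ha
      rw [hTm] at ha
      simp only [Finset.mem_filter, Finset.mem_univ, true_and]
      refine ⟨(L.isConj_iff' hs).2 ha.1, ?_⟩
      have e : (τ a)⁻¹ * τ w = τ (w - a) := by
        rw [sub_eq_add_neg, add_comm, L.emb.map_add, L.emb.map_neg]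
      rw [e]
      exact (L.isConj_iff' ht).2 ha.2
    · intro u hu
      apply Subtype.ext
      exact ((hS _).1 u.2).choose_spec
    · intro a ha
      apply L.emb.inj
      exact ((hS (τ a)).1 ((hS _).2 ⟨a, rfl⟩)).choose_spec
  · intro x y hx hy hxy
    obtain ⟨g, rfl⟩ := isConj_iff.mp hx
    obtain ⟨k, rfl⟩ := isConj_iff.mp hy
    rw [hS]
    obtain ⟨a, ha⟩ := h.local_three hs ht hw (by
      intro hc
      obtain ⟨i, hi⟩ := (L.isConj_iff' hs).1 hc
      exact hnc i hi) hxy
    exact ⟨a, ha.symm⟩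

end NL

end Cfsg.Agent.Lib.H52S
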