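import Cfsg.Agent.Lib.H52SI
import Cfsg.Agent.Lib.H52SF

/-!
# Multiplicities for `3^3 : S4` (helper52)
-/

set_option autoImplicit false
set_option linter.all false

namespace Cfsg.Agent.Lib.H52S

open Cfsg Cfsg.Agent.Lib.CharBasic Cfsg.Agent.Lib.StructConst Cfsg.Agent.Lib.H25Nine Cfsg.Agent.Lib.H52TI
open scoped ComplexConjugate

universe u v

theorem ps_ne_zero (a : ZMod 3) : ps a ≠ 0 := by
  intro h
  have h1 : ps (a + -a) = ps a * ps (-a) := AddChar.map_add_eq_mul _ _ _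
  rw [h, zero_mul, add_neg_cancel, ps_zero] at h1
  exact one_ne_zero h1

/-- `ps` as a unit -/
noncomputable def pu (a : ZMod 3) : ℂˣ := Units.mk0 (ps a) (ps_ne_zero a)

theorem pu_val (a : ZMod 3) : ((pu a : ℂˣ) : ℂ) = ps a := rfl

theorem pu_add (a b : ZMod 3) : pu (a + b) = pu a * pu b :=
  Units.ext (AddChar.map_add_eq_mul _ _ _)

theorem pu_zero : pu 0 = 1 := Units.ext ps_zero

theorem pu_neg (a : ZMod 3) : pu (-a) = (pu a)⁻¹ := by
  rw [eq_inv_iff_mul_eq_one, ← pu_add, neg_add_cancel, pu_zero]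

/-- a cyclic complement fixing `a` -/
structure Cy (m : ℕ) [NeZero m] (j : Fin m → Io) (a : V3) : Prop where
  mul : ∀ k l, mi (j k) (j l) = j (k + l)
  zero : j 0 = oi
  inj : ∀ k l, j k = j l → k = l
  fix : ∀ k w, B3 a (σ4 (j k) w) = B3 a w

theorem B3_add (u s t : V3) : B3 u (s + t) = B3 u s + B3 u t := pair3.add_right u s t
theorem B3_neg (u t : V3) : B3 u (-t) = - B3 u t := pair3.neg_right u t
theorem B3_zero' (t : V3) : B3 0 t = 0 := pair3.zero_left t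
theorem B3_zero (t : V3) : B3 t 0 = 0 := pair3.zero_right t

variable {G : Type u} [Group G] {τ : V3 → G} {Z : Io → G} {H : Subgroup G}

theorem linG (h : NL τ Z H) {m : ℕ} [NeZero m] {j : Fin m → Io} {a : V3} (hj : Cy m j a) {u : V3}
    (hu : ∀ k w, B3 u (σ4 (j k) w) = B3 u w) {κ : Fin m → ℂˣ} (κ0 : κ 0 = 1) (κm : ∀ k l, κ (k + l) = κ k * κ l) :
    LinG (fun x : V3 × Fin m => τ x.1 * Z (j x.2)) (fun x => pu (B3 u x.1) * κ x.2) where
  inj := by
    intro x y hxy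
    obtain ⟨h1, h2⟩ := h.rel.inj hxy
    exact Prod.ext h1 (hj.inj _ _ h2)
  one := ⟨(0, 0), by
    constructor
    · show τ 0 * Z (j 0) = 1
      rw [hj.zero, h.rel.map_zero, h.rel.zone, mul_one]
    · show pu (B3 u 0) * κ 0 = 1
      rw [B3_zero, pu_zero, κ0, mul_one]⟩
  mul := by
    rintro ⟨v, k⟩ ⟨w, l⟩
    refine ⟨(v + σ4 (j k) w, k + l), ?_, ?_⟩
    · show τ (v + σ4 (j k) w) * Z (j (k + l)) = τ v * Z (j k) * (τ w * Z (j l))
      rw [h.rel.mul, hj.mul]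
    · show pu (B3 u (v + σ4 (j k) w)) * κ (k + l) = pu (B3 u v) * κ k * (pu (B3 u w) * κ l)
      rw [B3_add, hu, pu_add, κm]
      exact mul_mul_mul_comm _ _ _ _
  inv := by
    rintro ⟨v, k⟩
    have h1 : vi (j k) = j (-k) := by
      have h2 : mi (j k) (j (-k)) = oi := by rw [hj.mul, add_neg_cancel, hj.zero]
      have h3 : mi (vi (j k)) (mi (j k) (j (-k))) = mi (vi (j k)) oi := by rw [h2]
      rw [← mi_assoc, vi_mi, mi_oi, oi_mi] at h3
      exact h3.symm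
    refine ⟨(σ4 (vi (j k)) (-v), -k), ?_, ?_⟩
    · show τ (σ4 (vi (j k)) (-v)) * Z (j (-k)) = (τ v * Z (j k))⁻¹
      rw [h.rel.inv, h1]
    · show pu (B3 u (σ4 (vi (j k)) (-v))) * κ (-k) = (pu (B3 u v) * κ k)⁻¹
      rw [h1, hu, B3_neg, pu_neg, mul_inv]
      congr 1
      rw [eq_inv_iff_mul_eq_one, ← κm, neg_add_cancel, κ0]

theorem diff [Finite G] (h : NL τ Z H) {m : ℕ} [NeZero m] {j : Fin m → Io} {a : V3} (hj : Cy m j a)
    {κ : Fin m → ℂˣ} (κ0 : κ 0 = 1) (κm : ∀ k l, κ (k + l) = κ k * κ l) (χ : IrrCharacter G) :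
    ∃ n : ℤ, ∑ k : Fin m, conj ((κ k : ℂˣ) : ℂ) * ∑ v : V3, (χ : G → ℂ) (τ v * Z (j k)) * (1 - conj (ps (B3 a v))) =
      27 * (m : ℂ) * n := by
  obtain ⟨n0, h0⟩ := (linG h hj (u := 0) (fun k w => by rw [B3_zero', B3_zero']) κ0 κm).exists_mult χ.2.isCharacter
  obtain ⟨n1, h1⟩ := (linG h hj (u := a) hj.fix κ0 κm).exists_mult χ.2.isCharacter
  refine ⟨(n0 : ℤ) - n1, ?_⟩
  have hcard : (Fintype.card (V3 × Fin m) : ℂ) = 27 * m := by
    have : Fintype.card (V3 × Fin m) = 27 * m := by simp [V3, ZMod.card]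
    rw [this]; push_cast; ring
  rw [hcard] at h0 h1
  have h2 : 27 * (m : ℂ) * (((n0 : ℤ) - n1 : ℤ) : ℂ) = 27 * (m : ℂ) * (n0 : ℂ) - 27 * (m : ℂ) * (n1 : ℂ) := by
    push_cast; ring
  rw [h2, ← h0, ← h1, ← Finset.sum_sub_distrib, Fintype.sum_prod_type_right]
  apply Finset.sum_congr rfl
  intro k _
  rw [Finset.mul_sum]
  apply Finset.sum_congr rfl
  intro v _
  simp only [Units.val_mul, map_mul, pu_val, B3_zero', ps_zero, map_one]
  ring

/-! ### class fusion -/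

theorem χ_conj (h : NL τ Z H) {χ : G → ℂ} (hχ : IsClassFunction G χ) {n n' : V3 × Io} (hn : ∃ m, mm m n = mm n' m) :
    χ (NL.th τ Z n) = χ (NL.th τ Z n') := by
  obtain ⟨m, hm⟩ := hn
  have h1 := congrArg (NL.th τ Z) hm
  rw [h.th_mm, h.th_mm] at h1
  have h2 : NL.th τ Z n' = NL.th τ Z m * NL.th τ Z n * (NL.th τ Z m)⁻¹ := by rw [h1]; group
  rw [h2, hχ]

theorem fu_z : ∀ v : V3, B3 (1, 0, 0) v ≠ 0 → ∃ m, mm m (v, iz) = mm (rp 3) m := by decide +kernel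
theorem fu_4 : ∀ v : V3, B3 (1, 0, 0) v = 1 → ∃ m, mm m (v, i4) = mm (rp 4) m := by decide +kernel
theorem fu_4' : ∀ v : V3, B3 (1, 0, 0) v = 2 → ∃ m, mm m (v, i4) = mm (rp 5) m := by decide +kernel
theorem fu_43 : ∀ v : V3, B3 (1, 0, 0) v = 1 → ∃ m, mm m (v, mi i4 iz) = mm (rp 5) m := by decide +kernel
theorem fu_43' : ∀ v : V3, B3 (1, 0, 0) v = 2 → ∃ m, mm m (v, mi i4 iz) = mm (rp 4) m := by decide +kernel
theorem fu_2 : ∀ v : V3, B3 (1, 1, 0) v ≠ 0 → ∃ m, mm m (v, i2) = mm (rp 6) m := by decide +kernel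
theorem fu_3 : ∀ v : V3, B3 (1, 1, 1) v = 1 → ∃ m, mm m (v, i3) = mm (rp 7) m := by decide +kernel
theorem fu_3' : ∀ v : V3, B3 (1, 1, 1) v = 2 → ∃ m, mm m (v, i3) = mm (rp 8) m := by decide +kernel
theorem fu_32 : ∀ v : V3, B3 (1, 1, 1) v = 1 → ∃ m, mm m (v, mi i3 i3) = mm (rp 8) m := by decide +kernel
theorem fu_32' : ∀ v : V3, B3 (1, 1, 1) v = 2 → ∃ m, mm m (v, mi i3 i3) = mm (rp 7) m := by decide +kernel

def j4 : Fin 4 → Io := ![oi, i4, iz, mi i4 iz]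
def j3 : Fin 3 → Io := ![oi, i3, mi i3 i3]
def j2 : Fin 2 → Io := ![oi, i2]

theorem cy4 : Cy 4 j4 (1, 0, 0) := ⟨by decide +kernel, by decide, by decide +kernel, by decide +kernel⟩
theorem cy3 : Cy 3 j3 (1, 1, 1) := ⟨by decide +kernel, by decide, by decide +kernel, by decide +kernel⟩
theorem cy2 : Cy 2 j2 (1, 1, 0) := ⟨by decide +kernel, by decide, by decide +kernel, by decide +kernel⟩

/-- grouping by the value of the linear form -/
theorem sum_fib (a : V3) (ha : ∀ c : ZMod 3, (Finset.univ.filter fun v : V3 => B3 a v = c).card = 9) (F : ZMod 3 → ℂ) :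
    ∑ v : V3, F (B3 a v) = 9 * (F 0 + F 1 + F 2) := by
  rw [← Finset.sum_fiberwise_of_maps_to (s := Finset.univ) (t := Finset.univ) (g := fun v : V3 => B3 a v) (fun _ _ => Finset.mem_univ _)]
  have e : ∀ c : ZMod 3, ∑ v ∈ Finset.univ.filter (fun v : V3 => B3 a v = c), F (B3 a v) = 9 * F c := by
    intro c
    rw [Finset.sum_congr rfl (g := fun _ => F c) (fun v hv => by rw [(Finset.mem_filter.mp hv).2]), Finset.sum_const, ha c]
    simp
  simp only [e]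
  rw [← Finset.mul_sum]
  congr 1
  exact Fin.sum_univ_three F

/-- the inner sum outside the core -/
theorem inner_out (h : NL τ Z H) {a : V3} (ha : ∀ c : ZMod 3, (Finset.univ.filter fun v : V3 => B3 a v = c).card = 9)
    (i : Io) {χ : G → ℂ} (hχ : IsClassFunction G χ) {n1 n2 : V3 × Io}
    (h1 : ∀ v : V3, B3 a v = 1 → ∃ m, mm m (v, i) = mm n1 m) (h2 : ∀ v : V3, B3 a v = 2 → ∃ m, mm m (v, i) = mm n2 m) :
    ∑ v : V3, χ (τ v * Z i) * (1 - conj (ps (B3 a v))) =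
      9 * (χ (NL.th τ Z n1) * (1 - ps 2) + χ (NL.th τ Z n2) * (1 - ps 1)) := by
  have e : ∀ v : V3, χ (τ v * Z i) * (1 - conj (ps (B3 a v))) =
      (fun c : ZMod 3 => if c = 1 then χ (NL.th τ Z n1) * (1 - ps 2) else if c = 2 then χ (NL.th τ Z n2) * (1 - ps 1) else 0) (B3 a v) := by
    intro v
    have hc : ∀ c : ZMod 3, c = 0 ∨ c = 1 ∨ c = 2 := by decide
    have n12 : (2 : ZMod 3) ≠ 1 := by decide
    have n01 : (0 : ZMod 3) ≠ 1 := by decide
    have n02 : (0 : ZMod 3) ≠ 2 := by decide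
    have m1 : -(1 : ZMod 3) = 2 := by decide
    have m2 : -(2 : ZMod 3) = 1 := by decide
    rcases hc (B3 a v) with h0 | h0 | h0
    · rw [h0, ps_zero]; simp [n01, n02]
    · have := χ_conj h hχ (h1 v h0)
      have e2 : χ (τ v * Z i) = χ (NL.th τ Z n1) := this
      rw [h0, e2, conj_ps, m1]; simp
    · have := χ_conj h hχ (h2 v h0)
      have e2 : χ (τ v * Z i) = χ (NL.th τ Z n2) := this
      rw [h0, e2, conj_ps, m2]; simp [n12]
  refine (Finset.sum_congr rfl (fun v _ => e v)).trans ?_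
  refine (sum_fib a ha (fun c : ZMod 3 => if c = 1 then χ (NL.th τ Z n1) * (1 - ps 2) else
    if c = 2 then χ (NL.th τ Z n2) * (1 - ps 1) else 0)).trans ?_
  have n12 : (2 : ZMod 3) ≠ 1 := by decide
  have n01 : (0 : ZMod 3) ≠ 1 := by decide
  have n02 : (0 : ZMod 3) ≠ 2 := by decide
  simp only [n01, n02, n12, if_false, if_true]
  ring

/-- values by type -/
noncomputable def Xt (τ : V3 → G) (χ : G → ℂ) : Fin 4 → ℂ := ![χ 1, χ (τ (1, 0, 0)), χ (τ (1, 1, 0)), χ (τ (1, 1, 1))]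

theorem χ_ty (h : NL τ Z H) {χ : G → ℂ} (hχ : IsClassFunction G χ) (v : V3) : χ (τ v) = Xt τ χ (ty v) := by
  have key : ∀ k : Fin 4, ∀ r : V3, ty r = k → ty v = k → χ (τ v) = χ (τ r) := by
    intro k r hr hv
    obtain ⟨i, hi⟩ := ty_orbit v r (by rw [hr, hv])
    rw [← hi]
    exact (h.loc.class_inv hχ i v).symm
  have hc : ∀ k : Fin 4, k = 0 ∨ k = 1 ∨ k = 2 ∨ k = 3 := by decide
  rcases hc (ty v) with h0 | h0 | h0 | h0
  · have : v = 0 := (ty_zero v).mp h0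
    rw [h0, this, h.rel.map_zero]; rfl
  · rw [h0]; exact key 1 _ (by decide) h0
  · rw [h0]; exact key 2 _ (by decide) h0
  · rw [h0]; exact key 3 _ (by decide) h0

theorem sum_ty (h : NL τ Z H) {χ : G → ℂ} (hχ : IsClassFunction G χ) (w : V3 → ℤ) :
    ∑ v : V3, χ (τ v) * (w v : ℂ) = ∑ k : Fin 4, Xt τ χ k * ((∑ v : V3, if ty v = k then w v else 0 : ℤ) : ℂ) := by
  have e : ∀ v : V3, χ (τ v) * (w v : ℂ) = ∑ k : Fin 4, Xt τ χ k * ((if ty v = k then w v else 0 : ℤ) : ℂ) := by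
    intro v
    rw [Finset.sum_eq_single (ty v)]
    · rw [if_pos rfl, χ_ty h hχ]
    · intro k _ hk
      rw [if_neg (Ne.symm hk)]; simp
    · intro hk; exact absurd (Finset.mem_univ _) hk
  simp only [e]
  rw [Finset.sum_comm]
  apply Finset.sum_congr rfl
  intro k _
  rw [← Finset.mul_sum, Int.cast_sum]

/-- the inner sum in the core -/
theorem inner_in (h : NL τ Z H) (a : V3) {χ : G → ℂ} (hχ : IsClassFunction G χ) :
    2 * ∑ v : V3, χ (τ v * Z oi) * (1 - conj (ps (B3 a v))) =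
      ∑ k : Fin 4, Xt τ χ k * ((∑ v : V3, if ty v = k then 2 - wt (B3 a v) else 0 : ℤ) : ℂ) := by
  rw [← sum_ty h hχ]
  have e1 : ∀ v : V3, χ (τ v * Z oi) = χ (τ v) := by intro v; rw [h.rel.zone, mul_one]
  simp only [e1]
  rw [two_mul]
  have e2 : ∑ v : V3, χ (τ v) * (1 - conj (ps (B3 a v))) = ∑ v : V3, χ (τ v) * (1 - ps (B3 a v)) := by
    apply Fintype.sum_equiv (Equiv.neg V3)
    intro v
    show χ (τ v) * (1 - conj (ps (B3 a v))) = χ (τ (-v)) * (1 - ps (B3 a (-v)))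
    have h3 : χ (τ (-v)) = χ (τ v) := by
      rw [χ_ty h hχ, χ_ty h hχ]
      congr 1
      revert v; decide
    rw [h3, B3_neg, conj_ps]
  conv_lhs => rw [e2]
  have e3 : ∑ v : V3, χ (τ v) * (1 - ps (B3 a v)) + ∑ v : V3, χ (τ v) * (1 - ps (B3 a v)) =
      ∑ v : V3, χ (τ v) * (1 - ps (B3 a v)) + ∑ v : V3, χ (τ v) * (1 - conj (ps (B3 a v))) := by rw [e2]
  rw [e3, ← Finset.sum_add_distrib]
  apply Finset.sum_congr rfl
  intro v _
  rw [conj_ps]
  have := ps_add_neg (B3 a v)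
  push_cast
  linear_combination (- χ (τ v)) * this

end Cfsg.Agent.Lib.H52S
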