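import Cfsg.Agent.Lib.H52SK

/-!
# The nine integral functions for `3^3 : S4` (helper52)
-/

set_option autoImplicit false
set_option linter.all false

namespace Cfsg.Agent.Lib.H52S

open Cfsg Cfsg.Agent.Lib.CharBasic Cfsg.Agent.Lib.StructConst Cfsg.Agent.Lib.H25Nine Cfsg.Agent.Lib.H52TI
open scoped ComplexConjugate

universe u v

variable {G : Type u} [Group G] {τ : V3 → G} {Z : Io → G} {H : Subgroup G}

/-- the square root of 3 -/
noncomputable def s3 : ℂ := Complex.I * (ps 2 - ps 1)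

theorem ps_one_two : ps 1 * ps 2 = 1 := by
  have : ps (1 + 2) = ps 1 * ps 2 := AddChar.map_add_eq_mul _ _ _
  rw [← this]
  have e : (1 + 2 : ZMod 3) = 0 := by decide
  rw [e, ps_zero]

theorem ps_two : ps 2 = -1 - ps 1 := by
  have := ps_three
  rw [ps_zero] at this
  linear_combination this

theorem ps_one_sq : ps 1 * ps 1 = -1 - ps 1 := by
  have h := ps_one_two
  rw [ps_two] at h
  linear_combination -h

theorem s3_sq : s3 * s3 = 3 := by
  unfold s3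
  rw [ps_two]
  have h1 := Complex.I_mul_I
  have h2 := ps_one_sq
  linear_combination (-1 - ps 1 - ps 1) * (-1 - ps 1 - ps 1) * h1 - 4 * h2

theorem conj_ps_one : conj (ps 1) = ps 2 := by
  rw [conj_ps]; congr 1

theorem conj_ps_two : conj (ps 2) = ps 1 := by
  rw [conj_ps]; congr 1

theorem s3_conj : conj s3 = s3 := by
  unfold s3
  rw [map_mul, map_sub, conj_ps_one, conj_ps_two, Complex.conj_I]
  ring

/-- values at the nine representatives -/
noncomputable def X (τ : V3 → G) (Z : Io → G) (χ : G → ℂ) (c : Fin 9) : ℂ := χ (NL.th τ Z (rp c))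

theorem κpow {m : ℕ} [NeZero m] {κ1 : ℂˣ} (h : κ1 ^ m = 1) (k l : Fin m) :
    κ1 ^ ((k + l : Fin m) : ℕ) = κ1 ^ (k : ℕ) * κ1 ^ (l : ℕ) := by
  rw [Fin.val_add, ← pow_add]
  exact (pow_eq_pow_mod _ h).symm

theorem in_E (h : NL τ Z H) {χ : G → ℂ} (hχ : IsClassFunction G χ) :
    ∑ v : V3, χ (τ v * Z oi) * (1 - conj (ps (B3 (1, 0, 0) v))) =
      3 * X τ Z χ 0 + 12 * X τ Z χ 1 + 12 * X τ Z χ 2 := by
  have h1 := inner_in h (1, 0, 0) hχ
  have c0 : (∑ v : V3, if ty v = 0 then 2 - wt (B3 (1, 0, 0) v) else 0) = 0 := by decide +kernel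
  have c1 : (∑ v : V3, if ty v = 1 then 2 - wt (B3 (1, 0, 0) v) else 0) = 6 := by decide +kernel
  have c2 : (∑ v : V3, if ty v = 2 then 2 - wt (B3 (1, 0, 0) v) else 0) = 24 := by decide +kernel
  have c3 : (∑ v : V3, if ty v = 3 then 2 - wt (B3 (1, 0, 0) v) else 0) = 24 := by decide +kernel
  rw [Fin.sum_univ_four, c0, c1, c2, c3] at h1
  have e0 : X τ Z χ 0 = Xt τ χ 1 := by show χ (τ (1, 0, 0) * Z oi) = _; rw [h.rel.zone, mul_one]; rfl
  have e1 : X τ Z χ 1 = Xt τ χ 2 := by show χ (τ (1, 1, 0) * Z oi) = _; rw [h.rel.zone, mul_one]; rfl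
  have e2 : X τ Z χ 2 = Xt τ χ 3 := by show χ (τ (1, 1, 1) * Z oi) = _; rw [h.rel.zone, mul_one]; rfl
  rw [e0, e1, e2]
  push_cast at h1
  linear_combination (1 / 2 : ℂ) * h1

theorem in_P (h : NL τ Z H) {χ : G → ℂ} (hχ : IsClassFunction G χ) :
    ∑ v : V3, χ (τ v * Z oi) * (1 - conj (ps (B3 (1, 1, 1) v))) =
      9 * X τ Z χ 0 + 9 * X τ Z χ 1 + 9 * X τ Z χ 2 := by
  have h1 := inner_in h (1, 1, 1) hχ
  have c0 : (∑ v : V3, if ty v = 0 then 2 - wt (B3 (1, 1, 1) v) else 0) = 0 := by decide +kernel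
  have c1 : (∑ v : V3, if ty v = 1 then 2 - wt (B3 (1, 1, 1) v) else 0) = 18 := by decide +kernel
  have c2 : (∑ v : V3, if ty v = 2 then 2 - wt (B3 (1, 1, 1) v) else 0) = 18 := by decide +kernel
  have c3 : (∑ v : V3, if ty v = 3 then 2 - wt (B3 (1, 1, 1) v) else 0) = 18 := by decide +kernel
  rw [Fin.sum_univ_four, c0, c1, c2, c3] at h1
  have e0 : X τ Z χ 0 = Xt τ χ 1 := by show χ (τ (1, 0, 0) * Z oi) = _; rw [h.rel.zone, mul_one]; rfl
  have e1 : X τ Z χ 1 = Xt τ χ 2 := by show χ (τ (1, 1, 0) * Z oi) = _; rw [h.rel.zone, mul_one]; rfl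
  have e2 : X τ Z χ 2 = Xt τ χ 3 := by show χ (τ (1, 1, 1) * Z oi) = _; rw [h.rel.zone, mul_one]; rfl
  rw [e0, e1, e2]
  push_cast at h1
  linear_combination (1 / 2 : ℂ) * h1

theorem in_F (h : NL τ Z H) {χ : G → ℂ} (hχ : IsClassFunction G χ) :
    ∑ v : V3, χ (τ v * Z oi) * (1 - conj (ps (B3 (1, 1, 0) v))) =
      6 * X τ Z χ 0 + 15 * X τ Z χ 1 + 6 * X τ Z χ 2 := by
  have h1 := inner_in h (1, 1, 0) hχ
  have c0 : (∑ v : V3, if ty v = 0 then 2 - wt (B3 (1, 1, 0) v) else 0) = 0 := by decide +kernel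
  have c1 : (∑ v : V3, if ty v = 1 then 2 - wt (B3 (1, 1, 0) v) else 0) = 12 := by decide +kernel
  have c2 : (∑ v : V3, if ty v = 2 then 2 - wt (B3 (1, 1, 0) v) else 0) = 30 := by decide +kernel
  have c3 : (∑ v : V3, if ty v = 3 then 2 - wt (B3 (1, 1, 0) v) else 0) = 12 := by decide +kernel
  rw [Fin.sum_univ_four, c0, c1, c2, c3] at h1
  have e0 : X τ Z χ 0 = Xt τ χ 1 := by show χ (τ (1, 0, 0) * Z oi) = _; rw [h.rel.zone, mul_one]; rfl
  have e1 : X τ Z χ 1 = Xt τ χ 2 := by show χ (τ (1, 1, 0) * Z oi) = _; rw [h.rel.zone, mul_one]; rfl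
  have e2 : X τ Z χ 2 = Xt τ χ 3 := by show χ (τ (1, 1, 1) * Z oi) = _; rw [h.rel.zone, mul_one]; rfl
  rw [e0, e1, e2]
  push_cast at h1
  linear_combination (1 / 2 : ℂ) * h1

variable [Finite G]

theorem baseE (h : NL τ Z H) {κ1 : ℂˣ} (h4 : κ1 ^ 4 = 1) (χ : IrrCharacter G) :
    ∃ n : ℤ, 3 * X τ Z χ 0 + 12 * X τ Z χ 1 + 12 * X τ Z χ 2 +
      9 * (conj ((κ1 : ℂˣ) : ℂ) * (X τ Z χ 4 * (1 - ps 2) + X τ Z χ 5 * (1 - ps 1)) +
        conj ((κ1 : ℂˣ) : ℂ) ^ 2 * (X τ Z χ 3 * (1 - ps 2) + X τ Z χ 3 * (1 - ps 1)) +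
        conj ((κ1 : ℂˣ) : ℂ) ^ 3 * (X τ Z χ 5 * (1 - ps 2) + X τ Z χ 4 * (1 - ps 1))) = 108 * n := by
  obtain ⟨n, hn⟩ := diff h cy4 (κ := fun k => κ1 ^ (k : ℕ)) (by simp) (κpow h4) χ
  refine ⟨n, ?_⟩
  have hc : ∀ c : ZMod 3, (Finset.univ.filter fun v : V3 => B3 (1, 0, 0) v = c).card = 9 := by decide +kernel
  have hcl := χ.2.isClassFunction
  have s1 := inner_out h hc i4 hcl fu_4 fu_4'
  have s2 := inner_out h hc iz hcl (n1 := rp 3) (n2 := rp 3) (fun v hv => fu_z v (by rw [hv]; decide)) (fun v hv => fu_z v (by rw [hv]; decide))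
  have s4 := inner_out h hc (mi i4 iz) hcl fu_43 fu_43'
  rw [Fin.sum_univ_four] at hn
  have j0 : j4 0 = oi := rfl
  have j1 : j4 1 = i4 := rfl
  have j2' : j4 2 = iz := rfl
  have j3' : j4 3 = mi i4 iz := rfl
  rw [j0, j1, j2', j3', in_E h hcl, s1, s2, s4] at hn
  simp only [Fin.val_zero, Fin.val_one, Fin.val_two, pow_zero, pow_one, Units.val_one, map_one, Units.val_pow_eq_pow_val, map_pow] at hn
  have v3 : ((3 : Fin 4) : ℕ) = 3 := rfl
  rw [v3] at hn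
  push_cast at hn
  unfold X at hn ⊢
  linear_combination hn

theorem baseP (h : NL τ Z H) {κ1 : ℂˣ} (h3 : κ1 ^ 3 = 1) (χ : IrrCharacter G) :
    ∃ n : ℤ, 9 * X τ Z χ 0 + 9 * X τ Z χ 1 + 9 * X τ Z χ 2 +
      9 * (conj ((κ1 : ℂˣ) : ℂ) * (X τ Z χ 7 * (1 - ps 2) + X τ Z χ 8 * (1 - ps 1)) +
        conj ((κ1 : ℂˣ) : ℂ) ^ 2 * (X τ Z χ 8 * (1 - ps 2) + X τ Z χ 7 * (1 - ps 1))) = 81 * n := by
  obtain ⟨n, hn⟩ := diff h cy3 (κ := fun k => κ1 ^ (k : ℕ)) (by simp) (κpow h3) χ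
  refine ⟨n, ?_⟩
  have hc : ∀ c : ZMod 3, (Finset.univ.filter fun v : V3 => B3 (1, 1, 1) v = c).card = 9 := by decide +kernel
  have hcl := χ.2.isClassFunction
  have s1 := inner_out h hc i3 hcl fu_3 fu_3'
  have s2 := inner_out h hc (mi i3 i3) hcl fu_32 fu_32'
  rw [Fin.sum_univ_three] at hn
  have j0 : j3 0 = oi := rfl
  have j1 : j3 1 = i3 := rfl
  have j2' : j3 2 = mi i3 i3 := rfl
  rw [j0, j1, j2', in_P h hcl, s1, s2] at hn
  simp only [Fin.val_zero, Fin.val_one, Fin.val_two, pow_zero, pow_one, Units.val_one, map_one, Units.val_pow_eq_pow_val, map_pow] at hn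
  push_cast at hn
  unfold X at hn ⊢
  linear_combination hn

theorem baseF (h : NL τ Z H) {κ1 : ℂˣ} (h2 : κ1 ^ 2 = 1) (χ : IrrCharacter G) :
    ∃ n : ℤ, 6 * X τ Z χ 0 + 15 * X τ Z χ 1 + 6 * X τ Z χ 2 +
      9 * (conj ((κ1 : ℂˣ) : ℂ) * (X τ Z χ 6 * (1 - ps 2) + X τ Z χ 6 * (1 - ps 1))) = 54 * n := by
  obtain ⟨n, hn⟩ := diff h cy2 (κ := fun k => κ1 ^ (k : ℕ)) (by simp) (κpow h2) χ
  refine ⟨n, ?_⟩
  have hc : ∀ c : ZMod 3, (Finset.univ.filter fun v : V3 => B3 (1, 1, 0) v = c).card = 9 := by decide +kernel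
  have hcl := χ.2.isClassFunction
  have s1 := inner_out h hc i2 hcl (n1 := rp 6) (n2 := rp 6) (fun v hv => fu_2 v (by rw [hv]; decide)) (fun v hv => fu_2 v (by rw [hv]; decide))
  rw [Fin.sum_univ_two] at hn
  have j0 : j2 0 = oi := rfl
  have j1 : j2 1 = i2 := rfl
  rw [j0, j1, in_F h hcl, s1] at hn
  simp only [Fin.val_zero, Fin.val_one, pow_zero, pow_one, Units.val_one, map_one, Units.val_pow_eq_pow_val, map_pow] at hn
  push_cast at hn
  unfold X at hn ⊢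
  linear_combination hn

/-! ### the nine functions, scaled by 324 -/

def al' : Fin 9 → Fin 9 → ℤ :=
  ![![9, 36, 36, -81, 0, 0, 0, 0, 0], ![9, 36, 36, -81, 0, 0, 0, 0, 0], ![9, 36, 36, 81, 81, 81, 0, 0, 0],
    ![9, 36, 36, 81, -81, -81, 0, 0, 0], ![36, 36, 36, 0, 0, 0, 0, 0, -108], ![36, 36, 36, 0, 0, 0, 0, -108, 0],
    ![36, 36, 36, 0, 0, 0, 0, 108, 108], ![36, 90, 36, 0, 0, 0, 162, 0, 0], ![36, 90, 36, 0, 0, 0, -162, 0, 0]]

def be' : Fin 9 → Fin 9 → ℤ :=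
  ![![0, 0, 0, 0, 27, -27, 0, 0, 0], ![0, 0, 0, 0, -27, 27, 0, 0, 0], 0, 0, 0, 0, 0, 0, 0]

theorem sum9' (F : Fin 9 → ℂ) : ∑ c, F c = F 0 + F 1 + F 2 + F 3 + F 4 + F 5 + F 6 + F 7 + F 8 := by
  rw [Fin.sum_univ_castSucc, Fin.sum_univ_eight]
  rfl

theorem base (h : NL τ Z H) (b : Fin 9) (χ : IrrCharacter G) :
    ∃ n : ℤ, ∑ c, ((al' b c : ℂ) + (be' b c : ℂ) * s3) * X τ Z χ c = 324 * n := by
  have uI : Complex.I ≠ 0 := Complex.I_ne_zero
  have I2 := Complex.I_mul_I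
  have w2 := ps_two
  have w1 := ps_one_sq
  have pI : (Units.mk0 Complex.I uI) ^ 4 = 1 := by
    ext; push_cast; simp [Complex.I_pow_four]
  have pI' : (Units.mk0 (-Complex.I) (neg_ne_zero.mpr uI)) ^ 4 = 1 := by
    ext
    simp only [Units.val_pow_eq_pow_val, Units.val_mk0, Units.val_one]
    rw [neg_pow, Complex.I_pow_four]; norm_num
  have pm4 : (-1 : ℂˣ) ^ 4 = 1 := by norm_num
  have pw : (pu 1) ^ 3 = 1 := by
    ext
    simp only [Units.val_pow_eq_pow_val, pu_val, Units.val_one]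
    have : ps 1 ^ 3 = ps 1 * (ps 1 * ps 1) := by ring
    rw [this, w1]
    linear_combination -w1
  have pw2 : (pu 2) ^ 3 = 1 := by
    ext
    simp only [Units.val_pow_eq_pow_val, pu_val, Units.val_one]
    rw [w2]
    have : (-1 - ps 1) ^ 3 = -1 - 3 * ps 1 - 3 * (ps 1 * ps 1) - ps 1 * (ps 1 * ps 1) := by ring
    rw [this, w1]
    linear_combination w1
  have p21 : ps 2 ^ 2 = ps 1 := by
    rw [w2]; linear_combination w1
  have p12 : ps 1 ^ 2 = -1 - ps 1 := by rw [pow_two]; exact w1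
  have cI2 : (-Complex.I) ^ 2 = -1 := by linear_combination I2
  have cI3 : (-Complex.I) ^ 3 = Complex.I := by linear_combination (-Complex.I) * I2
  have cJ2 : Complex.I ^ 2 = -1 := by linear_combination I2
  have cJ3 : Complex.I ^ 3 = -Complex.I := by linear_combination (Complex.I) * I2
  have cm2 : (-1 : ℂ) ^ 2 = 1 := by norm_num
  have cm3 : (-1 : ℂ) ^ 3 = -1 := by norm_num
  have hb : b = 0 ∨ b = 1 ∨ b = 2 ∨ b = 3 ∨ b = 4 ∨ b = 5 ∨ b = 6 ∨ b = 7 ∨ b = 8 := by revert b; decide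
  rcases hb with rfl | rfl | rfl | rfl | rfl | rfl | rfl | rfl | rfl
  · obtain ⟨n, hn⟩ := baseE h pI χ
    refine ⟨n, ?_⟩
    rw [sum9']
    simp only [Units.val_mk0, Complex.conj_I, cI2, cI3] at hn
    simp [al', be', s3]
    rw [w2] at hn ⊢
    linear_combination 3 * hn
  · obtain ⟨n, hn⟩ := baseE h pI' χ
    refine ⟨n, ?_⟩
    rw [sum9']
    simp only [Units.val_mk0, map_neg, Complex.conj_I, neg_neg, cJ2, cJ3] at hn
    simp [al', be', s3]
    rw [w2] at hn ⊢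
    linear_combination 3 * hn
  · obtain ⟨n, hn⟩ := baseE h (κ1 := 1) (one_pow _) χ
    refine ⟨n, ?_⟩
    rw [sum9']
    simp only [Units.val_one, map_one, one_pow] at hn
    simp [al', be']
    rw [w2] at hn
    linear_combination 3 * hn
  · obtain ⟨n, hn⟩ := baseE h pm4 χ
    refine ⟨n, ?_⟩
    rw [sum9']
    simp only [Units.val_neg, Units.val_one, map_neg, map_one, cm2, cm3] at hn
    simp [al', be']
    rw [w2] at hn
    linear_combination 3 * hn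
  · obtain ⟨n, hn⟩ := baseP h pw χ
    refine ⟨n, ?_⟩
    rw [sum9']
    simp only [pu_val, conj_ps_one, p21] at hn
    simp [al', be']
    rw [w2] at hn
    linear_combination 4 * hn - 72 * (X τ Z χ 8 - X τ Z χ 7) * w1
  · obtain ⟨n, hn⟩ := baseP h pw2 χ
    refine ⟨n, ?_⟩
    rw [sum9']
    simp only [pu_val, conj_ps_two, p12] at hn
    simp [al', be']
    rw [w2] at hn
    linear_combination 4 * hn - 72 * (X τ Z χ 7 - X τ Z χ 8) * w1
  · obtain ⟨n, hn⟩ := baseP h (κ1 := 1) (one_pow _) χ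
    refine ⟨n, ?_⟩
    rw [sum9']
    simp only [Units.val_one, map_one, one_pow] at hn
    simp [al', be']
    rw [w2] at hn
    linear_combination 4 * hn
  · obtain ⟨n, hn⟩ := baseF h (κ1 := 1) (one_pow _) χ
    refine ⟨n, ?_⟩
    rw [sum9']
    simp only [Units.val_one, map_one, one_pow] at hn
    simp [al', be']
    rw [w2] at hn
    linear_combination 6 * hn
  · obtain ⟨n, hn⟩ := baseF h (κ1 := -1) (by norm_num) χ
    refine ⟨n, ?_⟩
    rw [sum9']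
    simp only [Units.val_neg, Units.val_one, map_neg, map_one] at hn
    simp [al', be']
    rw [w2] at hn
    linear_combination 6 * hn

end Cfsg.Agent.Lib.H52S
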