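import Cfsg.Agent.Lib.H52SM

/-!
# The order of a group with a `3^3 : S4` local subgroup (helper52)
-/

set_option autoImplicit false
set_option linter.all false

namespace Cfsg.Agent.Lib.H52S

open Cfsg Cfsg.Agent.Lib.CharBasic Cfsg.Agent.Lib.StructConst Cfsg.Agent.Lib.H25Nine Cfsg.Agent.Lib.H52TI
open scoped ComplexConjugate

universe u v

variable {G : Type u} [Group G] {τ : V3 → G} {Z : Io → G} {H : Subgroup G} [Finite G]

theorem tri (h : NL τ Z H) {s t w : V3} (hs : s ≠ 0) (ht : t ≠ 0) (hw : w ≠ 0) (hst : ty s ≠ ty t)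
    {cs ct n : ℕ} (hcs : (∑ i : Io, if σ4 i s = s then 1 else 0) = cs) (hct : (∑ i : Io, if σ4 i t = t then 1 else 0) = ct)
    (hn : (Finset.univ.filter fun a : V3 => ty a = ty s ∧ ty (w - a) = ty t).card = n) :
    (Nat.card G : ℂ) * ∑ χ : IrrCharacter G,
        (χ : G → ℂ) (τ s) * (χ : G → ℂ) (τ t) * conj ((χ : G → ℂ) (τ w)) / (χ : G → ℂ) 1 =
      27 * (cs : ℂ) * (27 * (ct : ℂ)) * (n : ℂ) := by
  rw [h.triple_sum hs ht hw (fun i hi => hst (by rw [← hi, ty_σ4])) (Finset.univ.filter fun a : V3 => ty a = ty s ∧ ty (w - a) = ty t)]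
  · have L := h.loc
    have hc27 : (Fintype.card V3 : ℂ) = 27 := by
      have : Fintype.card V3 = 27 := by simp [V3, ZMod.card]
      rw [this]; norm_num
    rw [L.cent_card hs, L.cent_card ht, hc27, hn]
    have h1 : (∑ i : Io, if σ4 i s = s then (1 : ℂ) else 0) = cs := by rw [← hcs]; push_cast; rfl
    have h2 : (∑ i : Io, if σ4 i t = t then (1 : ℂ) else 0) = ct := by rw [← hct]; push_cast; rfl
    rw [h1, h2]
  · intro a
    rw [Finset.mem_filter]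
    constructor
    · rintro ⟨-, h1, h2⟩
      exact ⟨ty_orbit s a h1.symm, ty_orbit t (w - a) h2.symm⟩
    · rintro ⟨⟨i, hi⟩, ⟨j, hj⟩⟩
      exact ⟨Finset.mem_univ _, by rw [← hi, ty_σ4], by rw [← hj, ty_σ4]⟩

theorem card_eq (h : NL τ Z H) : Nat.card G = 648 := by
  classical
  have := Fintype.ofFinite G
  choose dn hdn hd1 using fun χ : IrrCharacter G => χ.2.exists_degree
  set d : IrrCharacter G → ℤ := fun χ => (dn χ : ℤ) with hdd
  have hd : ∀ χ, 0 < d χ := fun χ => by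
    have := hdn χ
    simp only [hdd]
    exact_mod_cast this
  have hdeg : ∀ χ : IrrCharacter G, (χ : G → ℂ) 1 = d χ := fun χ => by rw [hd1]; simp [hdd]
  have d0 : d (trc G) = 1 := by
    have h := hdeg (trc G)
    have h1 : ((trc G : IrrCharacter G) : G → ℂ) 1 = 1 := rfl
    rw [h1] at h
    exact_mod_cast h.symm
  have hsq : ∑ χ, d χ * d χ = (Nat.card G : ℤ) := by
    have h := sum_degree_sq (G := G)
    have h2 : ((∑ χ, d χ * d χ : ℤ) : ℂ) = ((Nat.card G : ℤ) : ℂ) := by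
      push_cast
      rw [← h]
      apply Finset.sum_congr rfl
      intro χ _
      rw [hdeg]; ring
    exact_mod_cast h2
  have hg : (648 : ℤ) ≤ (Nat.card G : ℤ) := by
    have h1 := Nat.card_le_card_of_injective _ h.th_inj
    have h2 : Nat.card (V3 × Io) = 648 := by
      rw [Nat.card_eq_fintype_card]
      simp [V3, Io, ZMod.card]
    rw [h2] at h1
    exact_mod_cast h1
  set E : IrrCharacter G → ℤ := fun χ => ev vE (col (ff h) 9 χ) with hE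
  set F : IrrCharacter G → ℤ := fun χ => ev vF (col (ff h) 9 χ) with hF
  set Hh : IrrCharacter G → ℤ := fun χ => ev vH (col (ff h) 9 χ) with hH
  have cast3 : ∀ (A B C : IrrCharacter G → ℤ) (a b c : V3), (∀ χ : IrrCharacter G, (χ : G → ℂ) (τ a) = A χ) →
      (∀ χ : IrrCharacter G, (χ : G → ℂ) (τ b) = B χ) → (∀ χ : IrrCharacter G, (χ : G → ℂ) (τ c) = C χ) →
      ∑ χ : IrrCharacter G, (χ : G → ℂ) (τ a) * (χ : G → ℂ) (τ b) * conj ((χ : G → ℂ) (τ c)) / (χ : G → ℂ) 1 =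
        ((∑ χ, ((A χ * B χ * C χ : ℤ) : ℚ) / (d χ : ℚ) : ℚ) : ℂ) := by
    intro A B C a b c ha hb hc
    push_cast
    apply Finset.sum_congr rfl
    intro χ _
    rw [ha, hb, hc, hdeg, map_intCast]
  have tq : ∀ (A B C : IrrCharacter G → ℤ) (a b c : V3), (∀ χ : IrrCharacter G, (χ : G → ℂ) (τ a) = A χ) →
      (∀ χ : IrrCharacter G, (χ : G → ℂ) (τ b) = B χ) → (∀ χ : IrrCharacter G, (χ : G → ℂ) (τ c) = C χ) →
      a ≠ 0 → b ≠ 0 → c ≠ 0 → ty a ≠ ty b → ∀ {cs ct n : ℕ}, (∑ i : Io, if σ4 i a = a then 1 else 0) = cs →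
      (∑ i : Io, if σ4 i b = b then 1 else 0) = ct →
      (Finset.univ.filter fun v : V3 => ty v = ty a ∧ ty (c - v) = ty b).card = n →
      ((Nat.card G : ℤ) : ℚ) * ∑ χ, ((A χ * B χ * C χ : ℤ) : ℚ) / (d χ : ℚ) = 729 * cs * ct * n := by
    intro A B C a b c ha hb hc h1 h2 h3 h4 cs ct n h5 h6 h7
    have h8 := tri h h1 h2 h3 h4 h5 h6 h7
    rw [cast3 A B C a b c ha hb hc] at h8
    have h9 : ((((Nat.card G : ℤ) : ℚ) * ∑ χ, ((A χ * B χ * C χ : ℤ) : ℚ) / (d χ : ℚ) : ℚ) : ℂ) = ((729 * cs * ct * n : ℚ) : ℂ) := by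
      push_cast at h8 ⊢
      rw [h8]; ring
    exact_mod_cast h9
  have hEv := valE h
  have hFv := valF h
  have hHv := valH h
  have eE : ((1, 0, 0) : V3) ≠ 0 := by decide
  have eF : ((1, 1, 0) : V3) ≠ 0 := by decide
  have eH : ((1, 1, 1) : V3) ≠ 0 := by decide
  have cE : (∑ i : Io, if σ4 i (1, 0, 0) = (1, 0, 0) then 1 else 0) = 4 := by decide +kernel
  have cF : (∑ i : Io, if σ4 i (1, 1, 0) = (1, 1, 0) then 1 else 0) = 2 := by decide +kernel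
  have cH : (∑ i : Io, if σ4 i (1, 1, 1) = (1, 1, 1) then 1 else 0) = 3 := by decide +kernel
  have perm : ∀ (A B C A' B' C' : IrrCharacter G → ℤ), (∀ χ, A χ * B χ * C χ = A' χ * B' χ * C' χ) →
      ∑ χ, ((A χ * B χ * C χ : ℤ) : ℚ) / (d χ : ℚ) = ∑ χ, ((A' χ * B' χ * C' χ : ℤ) : ℚ) / (d χ : ℚ) := by
    intro A B C A' B' C' h
    apply Finset.sum_congr rfl
    intro χ _
    rw [h]
  have t1 : ((Nat.card G : ℤ) : ℚ) * ∑ χ, ((E χ * E χ * F χ : ℤ) : ℚ) / (d χ : ℚ) = 23328 := by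
    rw [perm _ _ _ E F E (fun χ => by ring), tq E F E (1, 0, 0) (1, 1, 0) (1, 0, 0) hEv hFv hEv eE eF eE (by decide) cE cF (n := 4) (by decide +kernel)]
    norm_num
  have t2 : ((Nat.card G : ℤ) : ℚ) * ∑ χ, ((E χ * F χ * F χ : ℤ) : ℚ) / (d χ : ℚ) = 11664 := by
    rw [tq E F F (1, 0, 0) (1, 1, 0) (1, 1, 0) hEv hFv hFv eE eF eF (by decide) cE cF (n := 2) (by decide +kernel)]
    norm_num
  have t3 : ((Nat.card G : ℤ) : ℚ) * ∑ χ, ((E χ * E χ * Hh χ : ℤ) : ℚ) / (d χ : ℚ) = 0 := by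
    rw [perm _ _ _ E Hh E (fun χ => by ring), tq E Hh E (1, 0, 0) (1, 1, 1) (1, 0, 0) hEv hHv hEv eE eH eE (by decide) cE cH (n := 0) (by decide +kernel)]
    norm_num
  have t4 : ((Nat.card G : ℤ) : ℚ) * ∑ χ, ((E χ * Hh χ * Hh χ : ℤ) : ℚ) / (d χ : ℚ) = 26244 := by
    rw [tq E Hh Hh (1, 0, 0) (1, 1, 1) (1, 1, 1) hEv hHv hHv eE eH eH (by decide) cE cH (n := 3) (by decide +kernel)]
    norm_num
  have t5 : ((Nat.card G : ℤ) : ℚ) * ∑ χ, ((F χ * F χ * Hh χ : ℤ) : ℚ) / (d χ : ℚ) = 17496 := by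
    rw [perm _ _ _ F Hh F (fun χ => by ring), tq F Hh F (1, 1, 0) (1, 1, 1) (1, 1, 0) hFv hHv hFv eF eH eF (by decide) cF cH (n := 4) (by decide +kernel)]
    norm_num
  have t6 : ((Nat.card G : ℤ) : ℚ) * ∑ χ, ((F χ * Hh χ * Hh χ : ℤ) : ℚ) / (d χ : ℚ) = 13122 := by
    rw [tq F Hh Hh (1, 1, 0) (1, 1, 1) (1, 1, 1) hFv hHv hHv eF eH eH (by decide) cF cH (n := 3) (by decide +kernel)]
    norm_num
  have t7 : ((Nat.card G : ℤ) : ℚ) * ∑ χ, ((E χ * F χ * Hh χ : ℤ) : ℚ) / (d χ : ℚ) = 17496 := by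
    rw [tq E F Hh (1, 0, 0) (1, 1, 0) (1, 1, 1) hEv hFv hHv eE eF eH (by decide) cE cF (n := 3) (by decide +kernel)]
    norm_num
  have hT : ∀ l < 9, ∀ k < l, ∑ χ, ff h k χ * ff h l χ = (TT.getD l []).getD k 0 + PP.getD k 0 * PP.getD l 0 := by
    intro l hl k hk
    have h1 := ff_gram h ⟨k, by omega⟩ ⟨l, hl⟩
    rw [h1]
    unfold Gt
    rw [if_pos (by exact hk)]
  have hN : ∀ l < 9, ∑ χ, ff h l χ * ff h l χ = NN.getD l 0 + PP.getD l 0 * PP.getD l 0 := by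
    intro l hl
    have h1 := ff_gram h ⟨l, hl⟩ ⟨l, hl⟩
    rw [h1]
    unfold Gt
    rw [if_neg (lt_irrefl _), if_neg (lt_irrefl _)]
  have key := core (f := ff h) (i0 := trc G) (d := d) (g := (Nat.card G : ℤ)) hd d0
    (fun k hk => ff_trc h ⟨k, hk⟩) hT hN (fun k hk => ff_deg h hdeg ⟨k, hk⟩) hsq hg
    (E := E) (F := F) (H := Hh) (fun _ => rfl) (fun _ => rfl) (fun _ => rfl) (congC h hdeg) t1 t2 t3 t4 t5 t6 t7
  exact_mod_cast key

end Cfsg.Agent.Lib.H52S
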