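import Cfsg.Agent.Lib.H52SN
import Cfsg.Agent.Lib.Cores
import Cfsg.Prelude.Def_TwoFusion

/-!
# S3702 (helper52)
-/

set_option autoImplicit false
set_option linter.all false

namespace Cfsg.Agent.Lib.H52S

open Cfsg Cfsg.Agent.Lib.CharBasic Cfsg.Agent.Lib.StructConst Cfsg.Agent.Lib.H25Nine Cfsg.Agent.Lib.H52TI

universe u v

theorem inv_ex : ∀ i : Io, i ≠ oi → ∃ k : Io, k ≠ oi ∧ mi k k = oi ∧
    (k = i ∨ k = mi i i ∨ ∃ j, k = mi i (mi j (mi i (vi j)))) := by decide +kernel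

theorem main3702 {G : Type u} [Group G] [Finite G] (H : Subgroup G) (e : ↥H ≃* ↥K0)
    (J : Subgroup G) (hJ : J = (Cfsg.pCore 3 ↥H).map H.subtype)
    (hC : ∀ j ∈ J, j ≠ 1 → Subgroup.centralizer ({j} : Set G) ≤ H) (hsc : Cfsg.IsStronglyClosed J H) : H = ⊤ := by
  classical
  set φ : ↥K0 →* G := H.subtype.comp e.symm.toMonoidHom with hφ
  have hφi : Function.Injective φ := by
    intro a b hab
    exact e.symm.injective (Subtype.ext hab)
  have rel' : R4 (P := ↥K0) (fun t => ⟨T0 t, T0_mem t⟩) (fun i => ⟨Y0 i, Y0_mem i⟩) :=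
    { map_add := fun s t => Subtype.ext (r4.map_add s t)
      act := fun i t => Subtype.ext (r4.act i t)
      zmul := fun i j => Subtype.ext (r4.zmul i j)
      zone := Subtype.ext r4.zone
      ker := fun t i h => r4.ker t i (congrArg Subtype.val h) }
  have rel := rel'.comp φ hφi
  set τ : V3 → G := fun t => φ ⟨T0 t, T0_mem t⟩ with hτ
  set Z : Io → G := fun i => φ ⟨Y0 i, Y0_mem i⟩ with hZ
  have hφH : ∀ p, φ p ∈ H := fun p => (e.symm p).2
  have hmemH : ∀ h, h ∈ H ↔ ∃ t i, h = τ t * Z i := by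
    intro h
    constructor
    · intro hh
      obtain ⟨t, i, hti⟩ := mem_K0 (e ⟨h, hh⟩).2
      refine ⟨t, i, ?_⟩
      show h = φ ⟨T0 t, T0_mem t⟩ * φ ⟨Y0 i, Y0_mem i⟩
      rw [← map_mul]
      have h1 : (⟨T0 t, T0_mem t⟩ * ⟨Y0 i, Y0_mem i⟩ : ↥K0) = e ⟨h, hh⟩ := Subtype.ext hti.symm
      rw [h1]
      show h = ((e.symm (e ⟨h, hh⟩) : H) : G)
      rw [MulEquiv.symm_apply_apply]
    · rintro ⟨t, i, rfl⟩
      exact mul_mem (hφH _) (hφH _)
  have hτH : ∀ t, τ t ∈ H := fun t => hφH _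
  have hZH : ∀ i, Z i ∈ H := fun i => hφH _
  have hτ3 : ∀ t, τ t ^ 3 = 1 := by
    intro t
    rw [pow_succ, pow_two, ← rel.map_add, ← rel.map_add, V3_three, rel.map_zero]
  -- the image of `τ` is contained in the core
  set V : Subgroup H := (rel.emb.hom.range).subgroupOf H with hV
  have hVmem : ∀ x : H, x ∈ V ↔ ∃ t, (x : G) = τ t := by
    intro x
    rw [hV, Subgroup.mem_subgroupOf]
    constructor
    · rintro ⟨a, ha⟩; exact ⟨a.toAdd, ha.symm⟩
    · rintro ⟨a, ha⟩; exact ⟨Multiplicative.ofAdd a, ha.symm⟩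
  have hVn : V.Normal := by
    constructor
    intro x hx g
    obtain ⟨t, ht⟩ := (hVmem x).1 hx
    rw [hVmem]
    obtain ⟨r, i, hri⟩ := (hmemH (g : G)).1 g.2
    refine ⟨σ4 i t, ?_⟩
    push_cast
    rw [ht, hri]
    calc τ r * Z i * τ t * (τ r * Z i)⁻¹ = τ r * (Z i * τ t * (Z i)⁻¹) * (τ r)⁻¹ := by group
      _ = τ r * τ (σ4 i t) * (τ r)⁻¹ := by rw [rel.act]
      _ = τ (σ4 i t) := by rw [← rel.map_add, add_comm, rel.map_add]; group
  have hVp : IsPGroup 3 V := by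
    intro x
    obtain ⟨t, ht⟩ := (hVmem x.1).1 x.2
    refine ⟨1, ?_⟩
    rw [pow_one]
    apply Subtype.ext
    apply Subtype.ext
    push_cast
    rw [ht]
    exact hτ3 t
  have hVle : V ≤ pCore 3 H := Cores.le_pCore hVn hVp
  have hfi : Fact (Nat.Prime 3) := ⟨Nat.prime_three⟩
  have hPp : IsPGroup 3 (pCore 3 H) := Cores.isPGroup_pCore 3 H
  have hPn : (pCore 3 H).Normal := Cfsg.pCore_normal 3 H
  -- no rotation in the core
  have hZno : ∀ i, i ≠ oi → (⟨Z i, hZH i⟩ : H) ∉ pCore 3 H := by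
    intro i hi hmem
    obtain ⟨k, hk0, hk2, hk⟩ := inv_ex i hi
    have hkm : (⟨Z k, hZH k⟩ : H) ∈ pCore 3 H := by
      rcases hk with rfl | rfl | ⟨j, rfl⟩
      · exact hmem
      · have : (⟨Z (mi i i), hZH _⟩ : H) = ⟨Z i, hZH i⟩ * ⟨Z i, hZH i⟩ := Subtype.ext (rel.zmul i i).symm
        rw [this]; exact mul_mem hmem hmem
      · have : (⟨Z (mi i (mi j (mi i (vi j)))), hZH _⟩ : H) =
            ⟨Z i, hZH i⟩ * (⟨Z j, hZH j⟩ * ⟨Z i, hZH i⟩ * (⟨Z j, hZH j⟩)⁻¹) := by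
          apply Subtype.ext
          push_cast
          rw [rel.zinv, mul_assoc (Z j), rel.zmul, rel.zmul, rel.zmul]
        rw [this]
        exact mul_mem hmem (hPn.conj_mem _ hmem _)
    obtain ⟨n, hn⟩ := hPp ⟨_, hkm⟩
    have h1 : Z k ^ 3 ^ n = 1 := by
      have := congrArg (fun x : pCore 3 H => ((x : H) : G)) hn
      push_cast at this
      exact this
    have h2 : Z k ^ 2 = 1 := by rw [pow_two, rel.zmul, hk2, rel.zone]
    have h3 : Z k = 1 := by
      have hodd : Odd (3 ^ n) := Odd.pow (by decide)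
      obtain ⟨m, hm⟩ := hodd
      rw [hm, pow_succ, pow_mul, h2, one_pow, one_mul] at h1
      exact h1
    have h4 : τ 0 * Z k = 1 := by rw [rel.map_zero, one_mul, h3]
    exact hk0 (rel.ker 0 k h4).2
  have hJτ : ∀ g, g ∈ J ↔ ∃ t, g = τ t := by
    intro g
    rw [hJ, Subgroup.mem_map]
    constructor
    · rintro ⟨x, hx, rfl⟩
      obtain ⟨t, i, hti⟩ := (hmemH (x : G)).1 x.2
      have hti' : x = ⟨τ t, hτH t⟩ * ⟨Z i, hZH i⟩ := Subtype.ext hti
      have ht : (⟨τ t, hτH t⟩ : H) ∈ pCore 3 H := hVle ((hVmem _).2 ⟨t, rfl⟩)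
      have hZi : (⟨Z i, hZH i⟩ : H) ∈ pCore 3 H := by
        rw [hti'] at hx
        exact (Subgroup.mul_mem_cancel_left _ ht).mp hx
      by_cases hi : i = oi
      · refine ⟨t, ?_⟩
        show (x : G) = τ t
        rw [hti, hi, rel.zone, mul_one]
      · exact absurd hZi (hZno i hi)
    · rintro ⟨t, rfl⟩
      exact ⟨⟨τ t, hτH t⟩, hVle ((hVmem _).2 ⟨t, rfl⟩), rfl⟩
  have nl : NL τ Z H :=
    { rel := rel
      mem := hmemH
      sc := by
        intro g u hg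
        exact (hJτ _).1 (hsc.2 (τ u) ((hJτ _).2 ⟨u, rfl⟩) g hg)
      cent := by
        intro g u hu hg
        apply hC (τ u) ((hJτ _).2 ⟨u, rfl⟩) (rel.emb.ne_one hu)
        rw [Subgroup.mem_centralizer_singleton_iff]
        exact hg }
  have hG := card_eq nl
  apply Subgroup.eq_top_of_le_card
  rw [hG]
  have h1 : Function.Injective (fun n : V3 × Io => (⟨NL.th τ Z n, nl.th_mem n⟩ : H)) := by
    intro m n hmn
    exact nl.th_inj (congrArg Subtype.val hmn)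
  have h2 := Nat.card_le_card_of_injective _ h1
  have h3 : Nat.card (V3 × Io) = 648 := by
    rw [Nat.card_eq_fintype_card]
    simp [V3, Io, ZMod.card]
  rw [h3] at h2
  exact h2

end Cfsg.Agent.Lib.H52S
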