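import Mathlib
import Cfsg.Agent.Lib.CharBasic2
import Cfsg.Agent.Lib.StructConst
import Cfsg.Agent.Lib.CharCentral
import Cfsg.Agent.Lib.H25Nine

/-!
# Multiplicities of the linear characters of an abelian subgroup of exponent 3 (helper52)

`V` is a finite elementary abelian 3-group with a pairing `B : V → V → ZMod 3`, `τ : V → G` an
embedding in a finite group.  For an irreducible character `χ` of `G`, `mu χ u` is the multiplicity
of the linear character `t ↦ ψ (B u t)` in the restriction of `χ` to `V`.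
-/

set_option autoImplicit false
set_option linter.all false

namespace Cfsg.Agent.Lib.H52TI

open Cfsg Cfsg.Agent.Lib.CharBasic Cfsg.Agent.Lib.StructConst Cfsg.Agent.Lib.H25Nine
open scoped ComplexConjugate

universe u v w

/-- the standard additive character of `ZMod 3` -/
noncomputable abbrev ps : AddChar (ZMod 3) ℂ := ZMod.stdAddChar

theorem conj_ps (a : ZMod 3) : conj (ps a) = ps (-a) := by
  rw [AddChar.map_neg_eq_inv]
  have h : ‖ps a‖ = 1 := by
    rw [ps, ZMod.stdAddChar_apply]
    exact Circle.norm_coe _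
  exact (Complex.inv_eq_conj h).symm

theorem ps_sum (b : ZMod 3) : ∑ x : ZMod 3, ps (x * b) = if b = 0 then 3 else 0 := by
  rw [AddChar.sum_mulShift b (ZMod.isPrimitive_stdAddChar 3)]
  split_ifs <;> simp [ZMod.card]

theorem ps_zero : ps 0 = 1 := AddChar.map_zero_eq_one _

theorem ps_three : ps 0 + ps 1 + ps 2 = 0 := by
  have h := ps_sum 1
  rw [if_neg (by decide)] at h
  rw [← h]
  simp only [mul_one]
  exact (Fin.sum_univ_three (fun x : ZMod 3 => ps x)).symm

/-- the weight `2 Re ω^b` -/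
def wt (b : ZMod 3) : ℤ := if b = 0 then 2 else -1

theorem ps_add_neg (b : ZMod 3) : ps b + ps (-b) = (wt b : ℂ) := by
  have h := ps_three
  rw [ps_zero] at h
  have hb : b = 0 ∨ b = 1 ∨ b = 2 := by revert b; decide
  rcases hb with rfl | rfl | rfl
  · simp [wt, ps_zero]; norm_num
  · have e : (-1 : ZMod 3) = 2 := by decide
    have e2 : wt 1 = -1 := by decide
    rw [e, e2]; push_cast; linear_combination h
  · have e : (-2 : ZMod 3) = 1 := by decide
    have e2 : wt 2 = -1 := by decide
    rw [e, e2]; push_cast; linear_combination h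

/-- a nondegenerate symmetric pairing -/
structure Pair (V : Type v) [AddCommGroup V] [Fintype V] [DecidableEq V] (B : V → V → ZMod 3) : Prop where
  add_left : ∀ a b t, B (a + b) t = B a t + B b t
  add_right : ∀ a s t, B a (s + t) = B a s + B a t
  sum_eq : ∀ u, ∑ t : V, ps (B u t) = if u = 0 then (Fintype.card V : ℂ) else 0
  sum_eq' : ∀ t, ∑ u : V, ps (B u t) = if t = 0 then (Fintype.card V : ℂ) else 0

section

variable {V : Type v} [AddCommGroup V] [Fintype V] [DecidableEq V] {B : V → V → ZMod 3}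

namespace Pair

theorem zero_left (h : Pair V B) (t : V) : B 0 t = 0 := by
  have := h.add_left 0 0 t
  rw [add_zero] at this
  simpa using this

theorem zero_right (h : Pair V B) (t : V) : B t 0 = 0 := by
  have := h.add_right t 0 0
  rw [add_zero] at this
  simpa using this

theorem neg_left (h : Pair V B) (a t : V) : B (-a) t = - B a t := by
  have := h.add_left (-a) a t
  rw [neg_add_cancel, h.zero_left] at this
  linear_combination -this

theorem neg_right (h : Pair V B) (a t : V) : B a (-t) = - B a t := by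
  have := h.add_right a (-t) t
  rw [neg_add_cancel, h.zero_right] at this
  linear_combination -this

theorem sub_left (h : Pair V B) (a b t : V) : B (a - b) t = B a t - B b t := by
  rw [sub_eq_add_neg, h.add_left, h.neg_left, sub_eq_add_neg]

/-- orthogonality -/
theorem orth (h : Pair V B) (u v : V) :
    ∑ t : V, ps (B u t) * conj (ps (B v t)) = if u = v then (Fintype.card V : ℂ) else 0 := by
  have e : ∀ t, ps (B u t) * conj (ps (B v t)) = ps (B (u - v) t) := by
    intro t
    rw [conj_ps, ← AddChar.map_add_eq_mul, h.sub_left, sub_eq_add_neg]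
  simp only [e, h.sum_eq, sub_eq_zero]

end Pair

variable {G : Type u} [Group G]

/-- an embedding of `V` in `G` -/
structure Emb (τ : V → G) : Prop where
  map_add : ∀ s t, τ (s + t) = τ s * τ t
  inj : Function.Injective τ

namespace Emb

variable {τ : V → G}

theorem map_zero (h : Emb τ) : τ 0 = 1 := by
  have := h.map_add 0 0
  rw [add_zero] at this
  exact left_eq_mul.mp this

theorem map_neg (h : Emb τ) (t : V) : τ (-t) = (τ t)⁻¹ := by
  rw [eq_inv_iff_mul_eq_one, ← h.map_add, neg_add_cancel, h.map_zero]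

theorem ne_one (h : Emb τ) {t : V} (ht : t ≠ 0) : τ t ≠ 1 := by
  intro hc
  rw [← h.map_zero] at hc
  exact ht (h.inj hc)

/-- the homomorphism -/
def hom (h : Emb τ) : Multiplicative V →* G where
  toFun t := τ t.toAdd
  map_one' := h.map_zero
  map_mul' s t := h.map_add _ _

end Emb

/-- the linear characters of `V` -/
noncomputable def lam (hB : Pair V B) (u : V) : Multiplicative V →* ℂ where
  toFun t := ps (B u t.toAdd)
  map_one' := by
    show ps (B u 0) = 1
    rw [hB.zero_right, ps_zero]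
  map_mul' s t := by
    show ps (B u (s.toAdd + t.toAdd)) = _
    rw [hB.add_right, AddChar.map_add_eq_mul]

theorem exists_mult (hB : Pair V B) {τ : V → G} (hτ : Emb τ) {χ : G → ℂ} (hχ : IsCharacter G χ) (u : V) :
    ∃ n : ℕ, ∑ t : V, χ (τ t) * conj (ps (B u t)) = (Fintype.card V : ℂ) * n := by
  classical
  have h1 : IsCharacter (Multiplicative V) (fun t => χ (hτ.hom t)) := hχ.comp hτ.hom
  obtain ⟨n, hn⟩ := h1.classInner_nat (isCharacter_of_hom (lam hB u))
  refine ⟨n, ?_⟩
  rw [← hn, classInner_def]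
  have hcard : (Nat.card (Multiplicative V) : ℂ) = Fintype.card V := by
    rw [Nat.card_eq_fintype_card]; simp
  have hne : (Fintype.card V : ℂ) ≠ 0 := by
    exact_mod_cast Fintype.card_ne_zero
  rw [hcard, ← mul_assoc, mul_inv_cancel₀ hne, one_mul]
  exact Fintype.sum_equiv Multiplicative.ofAdd _ _ (fun t => rfl)

variable [Finite G]

/-- the multiplicity of the character of `V` corresponding to `u` in `χ` -/
noncomputable def mu (hB : Pair V B) {τ : V → G} (hτ : Emb τ) (u : V) (χ : IrrCharacter G) : ℤ :=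
  ((exists_mult hB hτ χ.2.isCharacter u).choose : ℤ)

theorem mu_spec (hB : Pair V B) {τ : V → G} (hτ : Emb τ) (u : V) (χ : IrrCharacter G) :
    ∑ t : V, (χ : G → ℂ) (τ t) * conj (ps (B u t)) = (Fintype.card V : ℂ) * (mu hB hτ u χ : ℂ) := by
  have := (exists_mult hB hτ χ.2.isCharacter u).choose_spec
  rw [this]
  simp [mu]

theorem mu_nonneg (hB : Pair V B) {τ : V → G} (hτ : Emb τ) (u : V) (χ : IrrCharacter G) :
    0 ≤ mu hB hτ u χ := by
  unfold mu
  exact Int.natCast_nonneg _

theorem mu_eq (hB : Pair V B) {τ : V → G} (hτ : Emb τ) (u : V) (χ : IrrCharacter G) :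
    (mu hB hτ u χ : ℂ) = (Fintype.card V : ℂ)⁻¹ * ∑ t : V, (χ : G → ℂ) (τ t) * conj (ps (B u t)) := by
  have hne : (Fintype.card V : ℂ) ≠ 0 := by
    exact_mod_cast Fintype.card_ne_zero
  rw [mu_spec, ← mul_assoc, inv_mul_cancel₀ hne, one_mul]

/-- Fourier inversion -/
theorem value_eq (hB : Pair V B) {τ : V → G} (hτ : Emb τ) (t : V) (χ : IrrCharacter G) :
    (χ : G → ℂ) (τ t) = ∑ u : V, (mu hB hτ u χ : ℂ) * ps (B u t) := by
  have hne : (Fintype.card V : ℂ) ≠ 0 := by
    exact_mod_cast Fintype.card_ne_zero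
  simp only [mu_eq hB hτ, Finset.mul_sum, Finset.sum_mul]
  rw [Finset.sum_comm]
  have e : ∀ s : V, (∑ u : V, (Fintype.card V : ℂ)⁻¹ * ((χ : G → ℂ) (τ s) * conj (ps (B u s))) * ps (B u t)) =
      (if t = s then (χ : G → ℂ) (τ s) else 0) := by
    intro s
    have e2 : ∀ u : V, (Fintype.card V : ℂ)⁻¹ * ((χ : G → ℂ) (τ s) * conj (ps (B u s))) * ps (B u t) =
        (Fintype.card V : ℂ)⁻¹ * (χ : G → ℂ) (τ s) * ps (B u (t - s)) := by
      intro u
      rw [sub_eq_add_neg, hB.add_right, hB.neg_right, AddChar.map_add_eq_mul, conj_ps]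
      ring
    simp only [e2]
    rw [← Finset.mul_sum, hB.sum_eq']
    by_cases hts : t = s
    · rw [if_pos hts, if_pos (by rw [hts, sub_self])]
      field_simp
    · rw [if_neg hts, if_neg (by rw [sub_eq_zero]; exact hts), mul_zero]
  simp only [e]
  simp

/-- twice a real value -/
theorem two_value (hB : Pair V B) {τ : V → G} (hτ : Emb τ) {t : V} (χ : IrrCharacter G)
    (ht : (χ : G → ℂ) (τ (-t)) = (χ : G → ℂ) (τ t)) :
    2 * (χ : G → ℂ) (τ t) = ((∑ u : V, mu hB hτ u χ * wt (B u t) : ℤ) : ℂ) := by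
  have h1 := value_eq hB hτ t χ
  have h2 := value_eq hB hτ (-t) χ
  rw [ht] at h2
  rw [two_mul]
  conv_lhs => rw [h1]
  push_cast
  have : ∑ u : V, (mu hB hτ u χ : ℂ) * ps (B u t) + (χ : G → ℂ) (τ t) =
    ∑ u : V, (mu hB hτ u χ : ℂ) * ps (B u t) + ∑ u : V, (mu hB hτ u χ : ℂ) * ps (B u (-t)) := by
    rw [← h2]
  rw [← h1]
  rw [h1] at this
  have e : (χ : G → ℂ) (τ t) + (χ : G → ℂ) (τ t) =
    ∑ u : V, (mu hB hτ u χ : ℂ) * ps (B u t) + ∑ u : V, (mu hB hτ u χ : ℂ) * ps (B u (-t)) := by
    rw [← h1, ← h2]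
  rw [e, ← Finset.sum_add_distrib]
  apply Finset.sum_congr rfl
  intro u _
  rw [← mul_add, hB.neg_right, ps_add_neg]

/-- the degree -/
theorem degree_eq (hB : Pair V B) {τ : V → G} (hτ : Emb τ) (χ : IrrCharacter G) :
    (χ : G → ℂ) 1 = ((∑ u : V, mu hB hτ u χ : ℤ) : ℂ) := by
  have h := value_eq hB hτ 0 χ
  rw [hτ.map_zero] at h
  rw [h]
  push_cast
  apply Finset.sum_congr rfl
  intro u _
  rw [hB.zero_right, ps_zero, mul_one]

/-- invariance -/
theorem mu_congr (hB : Pair V B) {τ : V → G} (hτ : Emb τ) (χ : IrrCharacter G) {f : V → V}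
    (hf : Function.Bijective f) {u u' : V} (hu : ∀ t, B u (f t) = B u' t)
    (hχ : ∀ t, (χ : G → ℂ) (τ (f t)) = (χ : G → ℂ) (τ t)) : mu hB hτ u χ = mu hB hτ u' χ := by
  have h : (mu hB hτ u χ : ℂ) = (mu hB hτ u' χ : ℂ) := by
    rw [mu_eq, mu_eq]
    congr 1
    rw [← hf.sum_comp]
    apply Finset.sum_congr rfl
    intro t _
    rw [hχ, hu]
  exact_mod_cast h

/-- the fusion hypothesis: column orthogonality on `V` -/
structure Col (τ : V → G) {ι : Type w} [Fintype ι] (σ : ι → V → V) : Prop where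
  col : ∀ s t, s ≠ 0 → t ≠ 0 → ∑ χ : IrrCharacter G, (χ : G → ℂ) (τ s) * conj ((χ : G → ℂ) (τ t)) =
    (Fintype.card V : ℂ) * ∑ i : ι, if σ i t = s then 1 else 0

theorem gram (hB : Pair V B) {τ : V → G} (hτ : Emb τ) {ι : Type w} [Fintype ι] {σ : ι → V → V}
    (hσ : ∀ i u t, B u (σ i t) = B (σ i u) t) (hc : Col τ σ) (u v u' v' : V) :
    ∑ χ : IrrCharacter G, (mu hB hτ u χ - mu hB hτ v χ) * (mu hB hτ u' χ - mu hB hτ v' χ) =
      ∑ i : ι, ((if σ i u = u' then 1 else 0) - (if σ i u = v' then 1 else 0) -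
        (if σ i v = u' then 1 else 0) + (if σ i v = v' then 1 else 0)) := by
  have hne : (Fintype.card V : ℂ) ≠ 0 := by
    exact_mod_cast Fintype.card_ne_zero
  set c : ℂ := (Fintype.card V : ℂ)⁻¹ with hcdef
  -- differences
  have d1 : ∀ (a b : V) (χ : IrrCharacter G), ((mu hB hτ a χ - mu hB hτ b χ : ℤ) : ℂ) =
      c * ∑ t : V, (χ : G → ℂ) (τ t) * (conj (ps (B a t)) - conj (ps (B b t))) := by
    intro a b χ
    push_cast
    rw [mu_eq, mu_eq, ← mul_sub, ← Finset.sum_sub_distrib]
    congr 1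
    apply Finset.sum_congr rfl
    intro t _
    ring
  have d2 : ∀ (a b : V) (χ : IrrCharacter G), ((mu hB hτ a χ - mu hB hτ b χ : ℤ) : ℂ) =
      c * ∑ t : V, conj ((χ : G → ℂ) (τ t)) * (ps (B a t) - ps (B b t)) := by
    intro a b χ
    have := congrArg conj (d1 a b χ)
    simp only [map_mul, map_sum, map_sub, Complex.conj_conj] at this
    rw [map_intCast] at this
    rw [this]
    congr 1
    rw [hcdef, map_inv₀, Complex.conj_natCast]
  have key : (((∑ χ : IrrCharacter G, (mu hB hτ u χ - mu hB hτ v χ) * (mu hB hτ u' χ - mu hB hτ v' χ) : ℤ)) : ℂ) =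
      ((∑ i : ι, ((if σ i u = u' then 1 else 0) - (if σ i u = v' then 1 else 0) -
        (if σ i v = u' then 1 else 0) + (if σ i v = v' then 1 else 0)) : ℤ) : ℂ) := by
    have e1 : (((∑ χ : IrrCharacter G, (mu hB hτ u χ - mu hB hτ v χ) * (mu hB hτ u' χ - mu hB hτ v' χ) : ℤ)) : ℂ) =
      ∑ χ : IrrCharacter G, (c * ∑ t : V, (χ : G → ℂ) (τ t) * (conj (ps (B u t)) - conj (ps (B v t)))) *
        (c * ∑ t : V, conj ((χ : G → ℂ) (τ t)) * (ps (B u' t) - ps (B v' t))) := by
      rw [Int.cast_sum]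
      apply Finset.sum_congr rfl
      intro χ _
      rw [Int.cast_mul, d1, d2]
    rw [e1]
    have e2 : ∀ χ : IrrCharacter G,
        (c * ∑ t : V, (χ : G → ℂ) (τ t) * (conj (ps (B u t)) - conj (ps (B v t)))) *
        (c * ∑ t : V, conj ((χ : G → ℂ) (τ t)) * (ps (B u' t) - ps (B v' t))) =
        ∑ s : V, ∑ t : V, c * c * ((conj (ps (B u s)) - conj (ps (B v s))) * (ps (B u' t) - ps (B v' t))) *
          ((χ : G → ℂ) (τ s) * conj ((χ : G → ℂ) (τ t))) := by
      intro χ
      rw [Finset.mul_sum, Finset.mul_sum, Finset.sum_mul_sum]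
      apply Finset.sum_congr rfl; intro s _
      apply Finset.sum_congr rfl; intro t _
      ring
    simp only [e2]
    rw [Finset.sum_comm]
    have e3 : ∀ s : V, (∑ χ : IrrCharacter G, ∑ t : V, c * c * ((conj (ps (B u s)) - conj (ps (B v s))) * (ps (B u' t) - ps (B v' t))) *
          ((χ : G → ℂ) (τ s) * conj ((χ : G → ℂ) (τ t)))) =
        ∑ t : V, c * ∑ i : ι, (if σ i t = s then ((conj (ps (B u s)) - conj (ps (B v s))) * (ps (B u' t) - ps (B v' t))) else 0) := by
      intro s
      rw [Finset.sum_comm]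
      apply Finset.sum_congr rfl; intro t _
      rw [← Finset.mul_sum]
      by_cases hs : s = 0
      · subst hs
        rw [hB.zero_right, hB.zero_right, sub_self, zero_mul, mul_zero, zero_mul]
        simp
      by_cases ht : t = 0
      · subst ht
        rw [hB.zero_right, hB.zero_right, sub_self, mul_zero, mul_zero, zero_mul]
        simp
      rw [hc.col s t hs ht]
      have : c * c * ((conj (ps (B u s)) - conj (ps (B v s))) * (ps (B u' t) - ps (B v' t))) *
        ((Fintype.card V : ℂ) * ∑ i : ι, (if σ i t = s then (1 : ℂ) else 0)) =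
        c * (((conj (ps (B u s)) - conj (ps (B v s))) * (ps (B u' t) - ps (B v' t))) * ∑ i : ι, (if σ i t = s then (1 : ℂ) else 0)) := by
        rw [hcdef]; field_simp
      rw [this, Finset.mul_sum]
      congr 1
      apply Finset.sum_congr rfl; intro i _
      split_ifs <;> simp
    simp only [e3]
    rw [Finset.sum_comm]
    have e4 : ∀ t : V, (∑ s : V, c * ∑ i : ι, (if σ i t = s then ((conj (ps (B u s)) - conj (ps (B v s))) * (ps (B u' t) - ps (B v' t))) else 0)) =
        c * ∑ i : ι, ((conj (ps (B (σ i u) t)) - conj (ps (B (σ i v) t))) * (ps (B u' t) - ps (B v' t))) := by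
      intro t
      rw [← Finset.mul_sum, Finset.sum_comm]
      congr 1
      apply Finset.sum_congr rfl; intro i _
      rw [Finset.sum_ite_eq]
      simp only [Finset.mem_univ, if_true, hσ]
    simp only [e4]
    rw [← Finset.mul_sum, Finset.sum_comm, Finset.mul_sum]
    push_cast
    apply Finset.sum_congr rfl; intro i _
    have e5 : ∀ t : V, ((conj (ps (B (σ i u) t)) - conj (ps (B (σ i v) t))) * (ps (B u' t) - ps (B v' t))) =
        ps (B u' t) * conj (ps (B (σ i u) t)) - ps (B v' t) * conj (ps (B (σ i u) t)) -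
        ps (B u' t) * conj (ps (B (σ i v) t)) + ps (B v' t) * conj (ps (B (σ i v) t)) := by
      intro t; ring
    simp only [e5]
    rw [Finset.sum_add_distrib, Finset.sum_sub_distrib, Finset.sum_sub_distrib, hB.orth, hB.orth, hB.orth, hB.orth]
    have e6 : ∀ a b : V, c * (if a = b then (Fintype.card V : ℂ) else 0) = if b = a then 1 else 0 := by
      intro a b
      by_cases hab : a = b
      · rw [if_pos hab, if_pos hab.symm, hcdef, inv_mul_cancel₀ hne]
      · rw [if_neg hab, if_neg (fun h => hab h.symm), mul_zero]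
    rw [mul_add, mul_sub, mul_sub, e6, e6, e6, e6]
  exact_mod_cast key

/-- the degree of a difference of multiplicities vanishes -/
theorem degree_zero (hB : Pair V B) {τ : V → G} (hτ : Emb τ) (u v : V) {d : IrrCharacter G → ℤ}
    (hd : ∀ χ : IrrCharacter G, (χ : G → ℂ) 1 = d χ) :
    ∑ χ : IrrCharacter G, (mu hB hτ u χ - mu hB hτ v χ) * d χ = 0 := by
  have key : ((∑ χ : IrrCharacter G, (mu hB hτ u χ - mu hB hτ v χ) * d χ : ℤ) : ℂ) = 0 := by
    push_cast
    simp only [← hd, mu_eq hB hτ]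
    have e : ∀ χ : IrrCharacter G, ((Fintype.card V : ℂ)⁻¹ * ∑ t : V, (χ : G → ℂ) (τ t) * conj (ps (B u t)) -
        (Fintype.card V : ℂ)⁻¹ * ∑ t : V, (χ : G → ℂ) (τ t) * conj (ps (B v t))) * (χ : G → ℂ) 1 =
        ∑ t : V, (Fintype.card V : ℂ)⁻¹ * (conj (ps (B u t)) - conj (ps (B v t))) * ((χ : G → ℂ) 1 * (χ : G → ℂ) (τ t)) := by
      intro χ
      rw [← mul_sub, ← Finset.sum_sub_distrib, Finset.mul_sum, Finset.sum_mul]
      apply Finset.sum_congr rfl; intro t _
      ring
    simp only [e]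
    rw [Finset.sum_comm]
    apply Finset.sum_eq_zero
    intro t _
    rw [← Finset.mul_sum]
    by_cases ht : t = 0
    · subst ht; rw [hB.zero_right, hB.zero_right, sub_self]; simp
    · rw [sum_degree_mul _ (hτ.ne_one ht), mul_zero]
  exact_mod_cast key

end

end Cfsg.Agent.Lib.H52TI
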