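import Cfsg.Agent.Lib.H52TI1

/-!
# Local structure of a TI subgroup and column orthogonality; structure constants (helper52)
-/

set_option autoImplicit false
set_option linter.all false

namespace Cfsg.Agent.Lib.H52TI

open Cfsg Cfsg.Agent.Lib.CharBasic Cfsg.Agent.Lib.StructConst Cfsg.Agent.Lib.H25Nine
open scoped ComplexConjugate

universe u v w

variable {V : Type v} [AddCommGroup V] [Fintype V] [DecidableEq V] {B : V → V → ZMod 3}
variable {G : Type u} [Group G]

/-- the local structure of the embedded subgroup -/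
structure Loc (τ : V → G) {ι : Type w} (σ : ι → V → V) : Prop where
  emb : Emb τ
  act : ∀ i, ∃ g : G, ∀ t, g * τ t * g⁻¹ = τ (σ i t)
  sep : ∀ i j, i ≠ j → ∃ t, σ i t ≠ σ j t
  fus : ∀ (g : G) (s t : V), t ≠ 0 → g * τ t * g⁻¹ = τ s → ∃ i, ∀ t', g * τ t' * g⁻¹ = τ (σ i t')
  cent : ∀ g : G, (∀ t, g * τ t * g⁻¹ = τ t) → ∃ t, g = τ t

namespace Loc

variable {τ : V → G} {ι : Type w} {σ : ι → V → V}

theorem card_act [Finite G] (L : Loc τ σ) (i : ι) :
    Nat.card {a : G // ∀ t, a * τ t * a⁻¹ = τ (σ i t)} = Fintype.card V := by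
  obtain ⟨g, hg⟩ := L.act i
  rw [← Nat.card_eq_fintype_card]
  symm
  apply Nat.card_congr
  have hcomm : ∀ s t, τ s * τ t * (τ s)⁻¹ = τ t := by
    intro s t
    rw [← L.emb.map_add, add_comm, L.emb.map_add, mul_inv_cancel_right]
  refine Equiv.ofBijective (fun s => ⟨g * τ s, ?_⟩) ⟨?_, ?_⟩
  · intro t
    rw [← hg t]
    calc g * τ s * τ t * (g * τ s)⁻¹ = g * (τ s * τ t * (τ s)⁻¹) * g⁻¹ := by group
      _ = _ := by rw [hcomm]
  · intro s s' h
    have : g * τ s = g * τ s' := congrArg Subtype.val h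
    exact L.emb.inj (mul_left_cancel this)
  · rintro ⟨a, ha⟩
    obtain ⟨s, hs⟩ := L.cent (g⁻¹ * a) (by
      intro t
      calc g⁻¹ * a * τ t * (g⁻¹ * a)⁻¹ = g⁻¹ * (a * τ t * a⁻¹) * g := by group
        _ = g⁻¹ * (g * τ t * g⁻¹) * g := by rw [ha, hg]
        _ = τ t := by group)
    refine ⟨s, Subtype.ext ?_⟩
    show g * τ s = a
    rw [← hs]; group

open scoped Classical in
theorem count [Fintype G] [Fintype ι] (L : Loc τ σ) {s t : V} (ht : t ≠ 0) :
    (∑ a : G, if a * τ t * a⁻¹ = τ s then (1 : ℂ) else 0) =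
      (Fintype.card V : ℂ) * ∑ i : ι, if σ i t = s then 1 else 0 := by
  have e1 : ∀ a : G, (if a * τ t * a⁻¹ = τ s then (1 : ℂ) else 0) =
      ∑ i : ι, (if σ i t = s then (if (∀ t', a * τ t' * a⁻¹ = τ (σ i t')) then (1 : ℂ) else 0) else 0) := by
    intro a
    by_cases h : a * τ t * a⁻¹ = τ s
    · obtain ⟨i, hi⟩ := L.fus a s t ht h
      have his : σ i t = s := by
        apply L.emb.inj
        rw [← hi, h]
      rw [if_pos h, Finset.sum_eq_single i]
      · rw [if_pos his, if_pos hi]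
      · intro j _ hji
        by_cases hj : σ j t = s
        · rw [if_pos hj, if_neg]
          intro hact
          obtain ⟨t', ht'⟩ := L.sep j i hji
          apply ht'
          apply L.emb.inj
          rw [← hact, hi]
        · rw [if_neg hj]
      · intro h; exact absurd (Finset.mem_univ _) h
    · rw [if_neg h]
      symm
      apply Finset.sum_eq_zero
      intro i _
      by_cases hi : σ i t = s
      · rw [if_pos hi, if_neg]
        intro hact
        apply h
        rw [hact, hi]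
      · rw [if_neg hi]
  simp only [e1]
  rw [Finset.sum_comm, Finset.mul_sum]
  apply Finset.sum_congr rfl
  intro i _
  by_cases hi : σ i t = s
  · simp only [if_pos hi, mul_one]
    rw [Finset.sum_boole, ← L.card_act i, Nat.card_eq_fintype_card, Fintype.card_subtype]
  · simp only [if_neg hi, mul_zero]
    exact Finset.sum_const_zero

theorem cent_card [Finite G] [Fintype ι] (L : Loc τ σ) {t : V} (ht : t ≠ 0) :
    (Nat.card (Subgroup.centralizer ({τ t} : Set G)) : ℂ) =
      (Fintype.card V : ℂ) * ∑ i : ι, if σ i t = t then 1 else 0 := by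
  classical
  have := Fintype.ofFinite G
  rw [← L.count ht, cnt_eq, if_pos (IsConj.refl _)]

theorem colSum [Finite G] [Fintype ι] (L : Loc τ σ) : Col τ σ := by
  classical
  have := Fintype.ofFinite G
  refine ⟨?_⟩
  intro s t hs ht
  have h1 := column_orthogonality (τ t) (τ s)
  have h2 : ∑ χ : IrrCharacter G, (χ : G → ℂ) (τ s) * conj ((χ : G → ℂ) (τ t)) =
      conj (∑ χ : IrrCharacter G, (χ : G → ℂ) (τ t) * conj ((χ : G → ℂ) (τ s))) := by
    rw [map_sum]
    apply Finset.sum_congr rfl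
    intro χ _
    rw [map_mul, Complex.conj_conj, mul_comm]
  have h3 := cnt_eq (τ t) (τ s)
  have h4 : (if IsConj (τ t) (τ s) then (Nat.card (Subgroup.centralizer ({τ t} : Set G)) : ℂ) else 0) =
      (Fintype.card V : ℂ) * ∑ i : ι, if σ i t = s then 1 else 0 := by
    rw [← L.count ht, ← h3]
  have h5 : (if IsConj (τ t) (τ s) then (Nat.card (Subgroup.centralizer ({τ t} : Set G)) : ℂ) else 0) =
      (Fintype.card V : ℂ) * ∑ i : ι, if σ i t = s then 1 else 0 := by
    convert h4 using 2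
  have h6 : ∑ χ : IrrCharacter G, (χ : G → ℂ) (τ t) * conj ((χ : G → ℂ) (τ s)) =
      (Fintype.card V : ℂ) * ∑ i : ι, if σ i t = s then 1 else 0 := by
    rw [h1, ← h5]
    congr
  rw [h2, h6, map_mul, map_sum, Complex.conj_natCast]
  congr 1
  apply Finset.sum_congr rfl
  intro i _
  split_ifs <;> simp

theorem isConj_iff' (L : Loc τ σ) {s t : V} (hs : s ≠ 0) : IsConj (τ s) (τ t) ↔ ∃ i, σ i s = t := by
  rw [isConj_iff]
  constructor
  · rintro ⟨g, hg⟩
    obtain ⟨i, hi⟩ := L.fus g t s hs hg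
    refine ⟨i, L.emb.inj ?_⟩
    rw [← hi, hg]
  · rintro ⟨i, hi⟩
    obtain ⟨g, hg⟩ := L.act i
    exact ⟨g, by rw [hg, hi]⟩

theorem class_inv (L : Loc τ σ) {χ : G → ℂ} (hχ : IsClassFunction G χ) (i : ι) (t : V) :
    χ (τ (σ i t)) = χ (τ t) := by
  obtain ⟨g, hg⟩ := L.act i
  rw [← hg, hχ]

theorem pow_three (L : Loc τ σ) (h3 : ∀ t : V, t + t + t = 0) (t : V) : (τ t) ^ 3 = 1 := by
  rw [pow_succ, pow_two, ← L.emb.map_add, ← L.emb.map_add, h3, L.emb.map_zero]

/-- nonconjugate `x, y` in `S` with product in `S`: the structure constant is the local one -/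
theorem triple_sum [Finite G] (L : Loc τ σ) {S : Subgroup G} (hT : TIS S)
    (hS : ∀ g, g ∈ S ↔ ∃ t, τ t = g) {s t w : V} (hs : s ≠ 0) (ht : t ≠ 0) (hw : w ≠ 0)
    (hnc : ∀ i, σ i s ≠ t) (T : Finset V)
    (hTm : ∀ a, a ∈ T ↔ (∃ i, σ i s = a) ∧ ∃ j, σ j t = w - a) :
    (Nat.card G : ℂ) * ∑ χ : IrrCharacter G,
        (χ : G → ℂ) (τ s) * (χ : G → ℂ) (τ t) * conj ((χ : G → ℂ) (τ w)) / (χ : G → ℂ) 1 =
      (Nat.card (Subgroup.centralizer ({τ s} : Set G)) : ℂ) *
        (Nat.card (Subgroup.centralizer ({τ t} : Set G)) : ℂ) * (T.card : ℂ) := by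
  classical
  have := Fintype.ofFinite G
  have hsm : τ s ∈ S := (hS _).2 ⟨s, rfl⟩
  have htm : τ t ∈ S := (hS _).2 ⟨t, rfl⟩
  have hwm : τ w ∈ S := (hS _).2 ⟨w, rfl⟩
  rw [sc_sub (S := S)]
  · congr 2
    apply Finset.card_bij' (i := fun (u : S) _ => (((hS _).1 u.2).choose))
      (j := fun (a : V) _ => (⟨τ a, (hS _).2 ⟨a, rfl⟩⟩ : S))
    · intro u hu
      simp only [Finset.mem_filter, Finset.mem_univ, true_and] at hu
      have hsp := ((hS _).1 u.2).choose_spec
      set a := ((hS _).1 u.2).choose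
      rw [hTm]
      rw [← hsp] at hu
      refine ⟨(L.isConj_iff' hs).1 hu.1, ?_⟩
      have e : (τ a)⁻¹ * τ w = τ (w - a) := by
        rw [sub_eq_add_neg, add_comm, L.emb.map_add, L.emb.map_neg]
      rw [e] at hu
      exact (L.isConj_iff' ht).1 hu.2
    · intro a ha
      rw [hTm] at ha
      simp only [Finset.mem_filter, Finset.mem_univ, true_and]
      refine ⟨(L.isConj_iff' hs).2 ha.1, ?_⟩
      have e : (τ a)⁻¹ * τ w = τ (w - a) := by
        rw [sub_eq_add_neg, add_comm, L.emb.map_add, L.emb.map_neg]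
      rw [e]
      exact (L.isConj_iff' ht).2 ha.2
    · intro u hu
      apply Subtype.ext
      exact ((hS _).1 u.2).choose_spec
    · intro a ha
      apply L.emb.inj
      exact ((hS (τ a)).1 ((hS _).2 ⟨a, rfl⟩)).choose_spec
  · intro x y hx hy hxy
    refine (hT.triple ?_ ?_ hxy hwm (L.emb.ne_one hw) ?_).1
    · obtain ⟨g, hg⟩ := isConj_iff.mp hx
      rw [← hg, conj_pow, hT.exp _ hsm]; group
    · obtain ⟨g, hg⟩ := isConj_iff.mp hy
      rw [← hg, conj_pow, hT.exp _ htm]; group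
    · intro hc
      obtain ⟨i, hi⟩ := (L.isConj_iff' hs).1 (hx.trans (hc.trans hy.symm))
      exact hnc i hi

theorem triple_zero [Finite G] (L : Loc τ σ) {S : Subgroup G} (hT : TIS S)
    (hS : ∀ g, g ∈ S ↔ ∃ t, τ t = g) {s t w : V} (hs : s ≠ 0) (ht : t ≠ 0) (hw : w ≠ 0)
    (hnc : ∀ i, σ i s ≠ t) (hno : ∀ i j, σ j t ≠ w - σ i s) :
    ∑ χ : IrrCharacter G,
        (χ : G → ℂ) (τ s) * (χ : G → ℂ) (τ t) * conj ((χ : G → ℂ) (τ w)) / (χ : G → ℂ) 1 = 0 := by
  have h := L.triple_sum hT hS hs ht hw hnc ∅ (by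
    intro a
    constructor
    · intro h; simp at h
    · rintro ⟨⟨i, rfl⟩, ⟨j, hj⟩⟩
      exact absurd hj (hno i j))
  rw [Finset.card_empty] at h
  push_cast at h
  rw [mul_zero] at h
  have hne : (Nat.card G : ℂ) ≠ 0 := by exact_mod_cast Nat.card_pos.ne'
  exact (mul_eq_zero.mp h).resolve_left hne

end Loc

/-- a `p`-subgroup of index prime to `p` in its normalizer is a Sylow subgroup -/
theorem exists_sylow [Finite G] {p : ℕ} [Fact p.Prime] {T : Subgroup G} (hT : IsPGroup p T)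
    (hN : ¬ p ∣ (T.subgroupOf (Subgroup.normalizer (T : Set G))).index) :
    ∃ P : Sylow p G, (P : Subgroup G) = T := by
  obtain ⟨P, hP⟩ := hT.exists_le_sylow
  refine ⟨P, ?_⟩
  by_contra hne
  have hlt : T < P := lt_of_le_of_ne hP (fun h => hne h.symm)
  obtain ⟨n, hn⟩ := (IsPGroup.iff_card).mp hT
  obtain ⟨m, hm⟩ := (IsPGroup.iff_card).mp P.isPGroup'
  have hcard : Nat.card T < Nat.card P := by
    by_contra hge
    push Not at hge
    exact hlt.ne (Subgroup.eq_of_le_of_card_ge hP hge)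
  have hp : p.Prime := Fact.out
  have hnm : n < m := by
    rw [hn, hm] at hcard
    exact (Nat.pow_lt_pow_iff_right hp.one_lt).mp hcard
  have hdvd : p ^ (n + 1) ∣ Nat.card G := by
    refine Dvd.dvd.trans (pow_dvd_pow p hnm) ?_
    rw [← hm]
    exact Subgroup.card_subgroup_dvd_card _
  have := Sylow.prime_dvd_card_quotient_normalizer hdvd hn
  apply hN
  exact this

end Cfsg.Agent.Lib.H52TI
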