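import Mathlib

/-!
# Integral vectors of small norm (helper52)
-/

set_option autoImplicit false
set_option linter.all false

namespace Cfsg.Agent.Lib.H52TI

universe u v

section

variable {I : Type u} [Fintype I]

theorem sq_le_sum (f : I → ℤ) (i : I) : f i * f i ≤ ∑ j, f j * f j :=
  Finset.single_le_sum (f := fun j => f j * f j) (fun j _ => mul_self_nonneg _) (Finset.mem_univ i)

theorem sq_add_le_sum (f : I → ℤ) {i j : I} (hij : i ≠ j) : f i * f i + f j * f j ≤ ∑ k, f k * f k := by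
  classical
  rw [← Finset.sum_pair (f := fun k => f k * f k) hij]
  exact Finset.sum_le_sum_of_subset_of_nonneg (Finset.subset_univ _) (fun k _ _ => mul_self_nonneg _)

theorem sq_add_add_le_sum (f : I → ℤ) {i j k : I} (hij : i ≠ j) (hik : i ≠ k) (hjk : j ≠ k) :
    f i * f i + f j * f j + f k * f k ≤ ∑ k, f k * f k := by
  classical
  have h : ∑ l ∈ ({i, j, k} : Finset I), f l * f l = f i * f i + f j * f j + f k * f k := by
    rw [Finset.sum_insert (by simp [hij, hik]), Finset.sum_pair hjk]; ring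
  rw [← h]
  exact Finset.sum_le_sum_of_subset_of_nonneg (Finset.subset_univ _) (fun k _ _ => mul_self_nonneg _)

theorem small {a : ℤ} (h : a * a ≤ 3) : a = 0 ∨ a = 1 ∨ a = -1 := by
  have h1 : a ≤ 1 := by nlinarith
  have h2 : -1 ≤ a := by nlinarith
  omega

theorem val_of_norm {f : I → ℤ} (h : ∑ j, f j * f j ≤ 3) (i : I) : f i = 0 ∨ f i = 1 ∨ f i = -1 :=
  small ((sq_le_sum f i).trans h)

theorem sq_pos {a : ℤ} (h : a ≠ 0) : 1 ≤ a * a := by
  have := mul_self_pos.2 h
  omega

/-- if `f` has norm at most the square at `j`, it vanishes elsewhere -/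
theorem eq_zero_of_norm_le {f : I → ℤ} {j i : I} (h : ∑ k, f k * f k ≤ f j * f j) (hij : i ≠ j) : f i = 0 := by
  by_contra hne
  have h1 := sq_add_le_sum f hij
  have h2 := sq_pos hne
  omega

theorem eq_zero_of_norm_le' {f : I → ℤ} {j k i : I} (hjk : j ≠ k)
    (h : ∑ k, f k * f k ≤ f j * f j + f k * f k) (hij : i ≠ j) (hik : i ≠ k) : f i = 0 := by
  by_contra hne
  have h1 := sq_add_add_le_sum f hij hik hjk
  have h2 := sq_pos hne
  omega

open scoped Classical in
/-- norm two and degree zero -/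
theorem two_zero {h : I → ℤ} {d : I → ℤ} (hd : ∀ i, 0 < d i) (h2 : ∑ i, h i * h i = 2)
    (h0 : ∑ i, h i * d i = 0) : ∃ a b, a ≠ b ∧ ∀ i, h i = (if i = a then 1 else 0) - (if i = b then 1 else 0) := by
  have hex : ∃ i, h i ≠ 0 := by
    by_contra hcon
    push Not at hcon
    simp [hcon] at h2
  have hpos : ∃ a, 0 < h a := by
    by_contra hcon
    push Not at hcon
    obtain ⟨i, hi⟩ := hex
    have : ∑ i, h i * d i < 0 := by
      apply Finset.sum_neg'
      · intro j _
        exact mul_nonpos_of_nonpos_of_nonneg (hcon j) (hd j).le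
      · exact ⟨i, Finset.mem_univ _, mul_neg_of_neg_of_pos (lt_of_le_of_ne (hcon i) hi) (hd i)⟩
    omega
  have hneg : ∃ b, h b < 0 := by
    by_contra hcon
    push Not at hcon
    obtain ⟨i, hi⟩ := hex
    have : 0 < ∑ i, h i * d i := by
      apply Finset.sum_pos'
      · intro j _
        exact mul_nonneg (hcon j) (hd j).le
      · exact ⟨i, Finset.mem_univ _, mul_pos (lt_of_le_of_ne (hcon i) (Ne.symm hi)) (hd i)⟩
    omega
  obtain ⟨a, ha⟩ := hpos
  obtain ⟨b, hb⟩ := hneg
  have hab : a ≠ b := by rintro rfl; omega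
  have h3 := sq_add_le_sum h hab
  have ha1 : h a = 1 := by
    rcases val_of_norm (f := h) (by omega) a with h4 | h4 | h4 <;> omega
  have hb1 : h b = -1 := by
    rcases val_of_norm (f := h) (by omega) b with h4 | h4 | h4 <;> omega
  refine ⟨a, b, hab, ?_⟩
  intro i
  by_cases hia : i = a
  · subst hia; rw [if_pos rfl, if_neg hab, ha1]; rfl
  by_cases hib : i = b
  · subst hib; rw [if_neg hia, if_pos rfl, hb1]; rfl
  rw [if_neg hia, if_neg hib]
  apply eq_zero_of_norm_le' hab _ hia hib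
  rw [h2, ha1, hb1]; norm_num

open scoped Classical in
theorem sum_delta (f : I → ℤ) (a b : I) :
    ∑ i, ((if i = a then 1 else 0) - (if i = b then 1 else 0)) * f i = f a - f b := by
  simp only [sub_mul, ite_mul, one_mul, zero_mul]
  rw [Finset.sum_sub_distrib, Finset.sum_ite_eq', Finset.sum_ite_eq']
  simp

open scoped Classical in
/-- the exceptional family -/
theorem family {κ : Type v} {g : κ → I → ℤ} {d : I → ℤ} (hd : ∀ i, 0 < d i)
    (h0 : ∀ k l, ∑ i, (g k i - g l i) * d i = 0)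
    (h2 : ∀ k l, k ≠ l → ∑ i, (g k i - g l i) * (g k i - g l i) = 2)
    (h1 : ∀ k l m, k ≠ l → k ≠ m → l ≠ m → ∑ i, (g k i - g l i) * (g k i - g m i) = 1)
    (hex : ∃ k l : κ, k ≠ l) :
    ∃ (ε : ℤ) (f : κ → I), (ε = 1 ∨ ε = -1) ∧ Function.Injective f ∧
      ∀ k l i, g k i - g l i = ε * ((if i = f k then 1 else 0) - (if i = f l then 1 else 0)) := by
  obtain ⟨k0, l0, hkl⟩ := hex
  have hdec : ∀ l, k0 ≠ l → ∃ a b, a ≠ b ∧ ∀ i, g k0 i - g l i = (if i = a then 1 else 0) - (if i = b then 1 else 0) :=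
    fun l hl => two_zero hd (h2 k0 l hl) (h0 k0 l)
  have hinner : ∀ {a b c e : I} {l m : κ}, (∀ i, g k0 i - g l i = (if i = a then 1 else 0) - (if i = b then 1 else 0)) →
      (∀ i, g k0 i - g m i = (if i = c then 1 else 0) - (if i = e then 1 else 0)) → a ≠ b → c ≠ e →
      ∑ i, (g k0 i - g l i) * (g k0 i - g m i) = 1 → (a = c ∨ b = e) := by
    intro a b c e l m hl hm hab hce hs
    simp only [hl, hm] at hs
    rw [sum_delta] at hs
    by_contra hcon
    push Not at hcon
    rw [if_neg hcon.1, if_neg hcon.2] at hs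
    split_ifs at hs <;> omega
  have hfin : ∀ (ε : ℤ) (f : κ → I), (ε = 1 ∨ ε = -1) →
      (∀ l i, g k0 i - g l i = ε * ((if i = f k0 then 1 else 0) - (if i = f l then 1 else 0))) →
      ∃ (ε : ℤ) (f : κ → I), (ε = 1 ∨ ε = -1) ∧ Function.Injective f ∧
      ∀ k l i, g k i - g l i = ε * ((if i = f k then 1 else 0) - (if i = f l then 1 else 0)) := by
    intro ε f hε hf
    have hall : ∀ k l i, g k i - g l i = ε * ((if i = f k then 1 else 0) - (if i = f l then 1 else 0)) := by
      intro k l i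
      have e1 := hf k i
      have e2 := hf l i
      linear_combination e2 - e1
    refine ⟨ε, f, hε, ?_, hall⟩
    intro k l hfkl
    by_contra hne
    have h3 := h2 k l hne
    simp only [hall k l, hfkl, sub_self, mul_zero, Finset.sum_const_zero] at h3
    omega
  obtain ⟨a0, b0, hab0, hv0⟩ := hdec l0 hkl
  have hne : Nonempty I := ⟨a0⟩
  by_cases hcase : ∀ l, k0 ≠ l → ∃ b, ∀ i, g k0 i - g l i = (if i = a0 then 1 else 0) - (if i = b then 1 else 0)
  · choose! b hb using hcase
    refine hfin 1 (fun l => if k0 = l then a0 else b l) (Or.inl rfl) ?_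
    intro l i
    by_cases hl : k0 = l
    · subst hl; simp
    · simp only [if_neg hl, if_true, one_mul]
      exact hb l hl i
  · push Not at hcase
    obtain ⟨l1, hl1, hno⟩ := hcase
    obtain ⟨a1, b1, hab1, hv1⟩ := hdec l1 hl1
    have ha01 : a0 ≠ a1 := by
      rintro rfl
      obtain ⟨i, hi⟩ := hno b1
      exact hi (hv1 i)
    have hl01 : l0 ≠ l1 := by
      rintro rfl
      obtain ⟨i, hi⟩ := hno b0
      exact hi (hv0 i)
    have hb01 : b0 = b1 :=
      (hinner hv0 hv1 hab0 hab1 (h1 k0 l0 l1 hkl hl1 hl01)).resolve_left ha01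
    have hcase2 : ∀ l, k0 ≠ l → ∃ a, ∀ i, g k0 i - g l i = (if i = a then 1 else 0) - (if i = b0 then 1 else 0) := by
      intro l hl
      by_cases hll0 : l = l0
      · subst hll0; exact ⟨a0, hv0⟩
      by_cases hll1 : l = l1
      · subst hll1; exact ⟨a1, by rw [hb01]; exact hv1⟩
      obtain ⟨a, b, hab, hv⟩ := hdec l hl
      refine ⟨a, ?_⟩
      rcases hinner hv hv0 hab hab0 (h1 k0 l l0 hl hkl hll0) with h4 | h4
      · rcases hinner hv hv1 hab hab1 (h1 k0 l l1 hl hl1 hll1) with h5 | h5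
        · exact absurd (h4.symm.trans h5) ha01
        · rw [hb01, ← h5]; exact hv
      · rw [← h4]; exact hv
    choose! a ha using hcase2
    refine hfin (-1) (fun l => if k0 = l then b0 else a l) (Or.inr rfl) ?_
    intro l i
    by_cases hl : k0 = l
    · subst hl; simp
    · simp only [if_neg hl, if_true]
      rw [ha l hl i]; ring

/-- norm-two orthogonal vectors of equal degree have disjoint supports -/
theorem disjoint_two {f g : I → ℤ} {d : I → ℤ} (hd : ∀ i, 0 < d i) (hf : ∑ i, f i * f i = 2)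
    (hg : ∑ i, g i * g i = 2) (hfg : ∑ i, f i * g i = 0) (hdeg : ∑ i, f i * d i = ∑ i, g i * d i)
    (i : I) : f i * g i = 0 := by
  by_contra hne
  -- another index where the product is nonzero
  have hj : ∃ j, j ≠ i ∧ f j * g j ≠ 0 := by
    by_contra hcon
    push Not at hcon
    rw [Fintype.sum_eq_single i (fun j hj => hcon j hj)] at hfg
    exact hne hfg
  obtain ⟨j, hji, hj⟩ := hj
  have vf := fun k => val_of_norm (f := f) (by omega) k
  have vg := fun k => val_of_norm (f := g) (by omega) k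
  have fi : f i * f i = 1 := by
    rcases vf i with h | h | h <;> simp [h] at hne ⊢
  have fj : f j * f j = 1 := by
    rcases vf j with h | h | h <;> simp [h] at hj ⊢
  have gi : g i * g i = 1 := by
    rcases vg i with h | h | h <;> simp [h] at hne ⊢
  have gj : g j * g j = 1 := by
    rcases vg j with h | h | h <;> simp [h] at hj ⊢
  have fz : ∀ k, k ≠ i → k ≠ j → f k = 0 := by
    intro k hki hkj
    apply eq_zero_of_norm_le' (f := f) (j := i) (k := j) (Ne.symm hji) (by rw [hf, fi, fj]; norm_num) hki hkj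
  have gz : ∀ k, k ≠ i → k ≠ j → g k = 0 := by
    intro k hki hkj
    apply eq_zero_of_norm_le' (f := g) (j := i) (k := j) (Ne.symm hji) (by rw [hg, gi, gj]; norm_num) hki hkj
  have s1 : f i * g i + f j * g j = 0 := by
    rw [← hfg]
    symm
    exact Fintype.sum_eq_add i j (Ne.symm hji) (fun k hk => by rw [fz k hk.1 hk.2, zero_mul])
  have s2 : f i * d i + f j * d j = g i * d i + g j * d j := by
    have e1 := Fintype.sum_eq_add (f := fun k => f k * d k) i j (Ne.symm hji)
      (fun k hk => by show f k * d k = 0; rw [fz k hk.1 hk.2, zero_mul])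
    have e2 := Fintype.sum_eq_add (f := fun k => g k * d k) i j (Ne.symm hji)
      (fun k hk => by show g k * d k = 0; rw [gz k hk.1 hk.2, zero_mul])
    rw [← e1, ← e2, hdeg]
  have pi := hd i
  have pj := hd j
  rcases vf i with h1 | h1 | h1 <;> rcases vg i with h2 | h2 | h2 <;>
    rcases vf j with h3 | h3 | h3 <;> rcases vg j with h4 | h4 | h4 <;>
    rw [h1, h2, h3, h4] at s1 <;> rw [h1, h2, h3, h4] at s2 <;> simp [h1, h2] at hne <;> omega

/-- a nonzero integral vector of sum zero has norm at least two -/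
theorem two_le_of_sum_zero {g : I → ℤ} (h0 : ∑ i, g i = 0) {i : I} (hi : g i ≠ 0) :
    2 ≤ ∑ i, g i * g i := by
  have hj : ∃ j, j ≠ i ∧ g j ≠ 0 := by
    by_contra hcon
    push Not at hcon
    rw [Fintype.sum_eq_single i (fun j hj => hcon j hj)] at h0
    exact hi h0
  obtain ⟨j, hji, hj⟩ := hj
  have := sq_add_le_sum g hji
  have h1 := sq_pos hi
  have h2 := sq_pos hj
  omega

/-- at most one of two disjoint vectors orthogonal to `R` overlaps `R` -/
theorem disjoint_or {R Y Z : I → ℤ} {i0 : I} (hR : ∑ i, R i * R i ≤ 4) (hR0 : R i0 ≠ 0)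
    (hY0 : Y i0 = 0) (hZ0 : Z i0 = 0) (hY : ∀ i, Y i = 0 ∨ Y i = 1 ∨ Y i = -1)
    (hZ : ∀ i, Z i = 0 ∨ Z i = 1 ∨ Z i = -1) (hYZ : ∀ i, Y i * Z i = 0)
    (h1 : ∑ i, R i * Y i = 0) (h2 : ∑ i, R i * Z i = 0) :
    (∀ i, R i * Y i = 0) ∨ (∀ i, R i * Z i = 0) := by
  classical
  by_contra hcon
  push Not at hcon
  obtain ⟨⟨a, ha⟩, ⟨b, hb⟩⟩ := hcon
  have e1 := two_le_of_sum_zero h1 ha
  have e2 := two_le_of_sum_zero h2 hb
  have e3 : ∑ i, ((if i = i0 then 1 else 0) + (R i * Y i * (R i * Y i)) + (R i * Z i * (R i * Z i))) ≤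
      ∑ i, R i * R i := by
    apply Finset.sum_le_sum
    intro i _
    by_cases hi : i = i0
    · subst hi
      rw [if_pos rfl, hY0, hZ0]
      have := sq_pos hR0
      linarith
    · rw [if_neg hi]
      have h3 := hYZ i
      have h4 := mul_self_nonneg (R i)
      rcases hY i with h5 | h5 | h5 <;> rcases hZ i with h6 | h6 | h6 <;> rw [h5, h6] at h3 ⊢ <;>
        first | nlinarith | (exfalso; omega)
  rw [Finset.sum_add_distrib, Finset.sum_add_distrib, Finset.sum_ite_eq'] at e3
  simp only [Finset.mem_univ, if_true] at e3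
  omega

/-- cubic sums over a system of disjoint units -/
theorem trip {n : ℕ} (u : Fin n → I → ℤ) (h01 : ∀ k i, u k i = 0 ∨ u k i = 1 ∨ u k i = -1)
    (hone : ∀ i, ∃ k, ∀ l, l ≠ k → u l i = 0) (α β γ : Fin n → ℤ) (i : I) :
    (∑ k, α k * u k i) * (∑ k, β k * u k i) * (∑ k, γ k * u k i) = ∑ k, α k * β k * γ k * u k i := by
  obtain ⟨k, hz⟩ := hone i
  rw [Fintype.sum_eq_single k (fun l hl => by rw [hz l hl, mul_zero]),
    Fintype.sum_eq_single k (fun l hl => by rw [hz l hl, mul_zero]),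
    Fintype.sum_eq_single k (fun l hl => by rw [hz l hl, mul_zero]),
    Fintype.sum_eq_single k (fun l hl => by rw [hz l hl, mul_zero])]
  rcases h01 k i with h | h | h <;> rw [h] <;> ring

theorem trip_sum {n : ℕ} (u : Fin n → I → ℤ) (h01 : ∀ k i, u k i = 0 ∨ u k i = 1 ∨ u k i = -1)
    (hone : ∀ i, ∃ k, ∀ l, l ≠ k → u l i = 0) (α β γ : Fin n → ℤ) (d : I → ℚ) {A B C : I → ℤ}
    (hA : ∀ i, A i = ∑ k, α k * u k i) (hB : ∀ i, B i = ∑ k, β k * u k i) (hC : ∀ i, C i = ∑ k, γ k * u k i) :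
    ∑ i, ((A i * B i * C i : ℤ) : ℚ) / d i = ∑ k, ((α k * β k * γ k : ℤ) : ℚ) * ∑ i, (u k i : ℚ) / d i := by
  have e : ∀ i, ((A i * B i * C i : ℤ) : ℚ) / d i =
      ∑ k, ((α k * β k * γ k : ℤ) : ℚ) * ((u k i : ℚ) / d i) := by
    intro i
    rw [hA, hB, hC, trip u h01 hone, Int.cast_sum, Finset.sum_div]
    apply Finset.sum_congr rfl
    intro k _
    push_cast
    ring
  simp only [e]
  rw [Finset.sum_comm]
  apply Finset.sum_congr rfl
  intro k _
  rw [← Finset.mul_sum]

end

end Cfsg.Agent.Lib.H52TI
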