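import Cfsg.Agent.Lib.H52TI5

/-!
# A TI Sylow subgroup of order 27 with automizer a four-group of determinant one: the order (helper52)
-/

set_option autoImplicit false
set_option linter.all false

namespace Cfsg.Agent.Lib.H52TI

open Cfsg Cfsg.Agent.Lib.CharBasic Cfsg.Agent.Lib.StructConst Cfsg.Agent.Lib.H25Nine
open scoped ComplexConjugate

universe u v w

variable {G : Type u} [Group G] [Finite G]

def gg (k l k' l' : Fin 9) : ℤ :=
  ∑ i : Bool × Bool, ((if σ3 i (rep9 k) = rep9 k' then 1 else 0) - (if σ3 i (rep9 k) = rep9 l' then 1 else 0) -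
    (if σ3 i (rep9 l) = rep9 k' then 1 else 0) + (if σ3 i (rep9 l) = rep9 l' then 1 else 0))

def j5 : Fin 5 → Fin 9 := ![4, 5, 6, 7, 8]

theorem gg_two : ∀ k l : Fin 5, k ≠ l → gg (j5 k) (j5 l) (j5 k) (j5 l) = 2 := by decide
theorem gg_one : ∀ k l m : Fin 5, k ≠ l → k ≠ m → l ≠ m → gg (j5 k) (j5 l) (j5 k) (j5 m) = 1 := by decide
theorem gg_x : ∀ e : Fin 4, ∀ k : Fin 5, k ≠ 0 → gg e.castSucc.castSucc.castSucc.castSucc.castSucc 4 4 (j5 k) = -1 := by decide

theorem co_e1 : co (1, 0, 0) = ![1, -1, 2, 2, -2, -2, 4, -2, -2] := by decide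
theorem co_e2 : co (0, 1, 0) = ![1, 2, -1, 2, -2, 4, -2, -2, -2] := by decide
theorem co_e3 : co (0, 0, 1) = ![1, 2, 2, -1, 4, -2, -2, -2, -2] := by decide
theorem co_f1 : co (1, 1, 0) = ![1, -1, -1, 2, 1, -2, -2, 1, 1] := by decide
theorem co_f2 : co (1, 0, 1) = ![1, -1, 2, -1, -2, 1, -2, 1, 1] := by decide

theorem hc_e1 : ∀ k, (∑ u : V3, if cls3 u = k then wt (B3 u (1, 0, 0)) else 0) = 2 * co (1, 0, 0) k := by decide
theorem hc_e2 : ∀ k, (∑ u : V3, if cls3 u = k then wt (B3 u (0, 1, 0)) else 0) = 2 * co (0, 1, 0) k := by decide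
theorem hc_e3 : ∀ k, (∑ u : V3, if cls3 u = k then wt (B3 u (0, 0, 1)) else 0) = 2 * co (0, 0, 1) k := by decide
theorem hc_f1 : ∀ k, (∑ u : V3, if cls3 u = k then wt (B3 u (1, 1, 0)) else 0) = 2 * co (1, 1, 0) k := by decide
theorem hc_f2 : ∀ k, (∑ u : V3, if cls3 u = k then wt (B3 u (1, 0, 1)) else 0) = 2 * co (1, 0, 1) k := by decide

/-- the characters which matter -/
theorem mass {τ : V3 → G} (L : Loc τ σ3) {d : IrrCharacter G → ℤ} (hd : ∀ χ, 0 < d χ)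
    (hdeg : ∀ χ : IrrCharacter G, (χ : G → ℂ) 1 = d χ) :
    ∃ (ε X : ℤ) (R Y1 Y2 Y3 : IrrCharacter G → ℤ) (f : Fin 5 → IrrCharacter G) (x : Fin 5 → IrrCharacter G → ℤ)
      (κ : IrrCharacter G → ℤ),
      (ε = 1 ∨ ε = -1) ∧ Function.Injective f ∧ (∀ k, d (f k) = X) ∧
      (∀ k χ, χ ≠ f k → x k χ = 0) ∧ (∀ k, x k (f k) = ε) ∧
      (∀ k χ, mu pair3 L.emb (rep9 (j5 k)) χ = κ χ + x k χ) ∧
      (∀ χ, mu pair3 L.emb (rep9 0) χ = κ χ + R χ) ∧ (∀ χ, mu pair3 L.emb (rep9 1) χ = κ χ + Y1 χ) ∧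
      (∀ χ, mu pair3 L.emb (rep9 2) χ = κ χ + Y2 χ) ∧ (∀ χ, mu pair3 L.emb (rep9 3) χ = κ χ + Y3 χ) ∧
      (∀ χ, R χ = 0 ∨ R χ = 1 ∨ R χ = -1) ∧ (∀ χ, Y1 χ = 0 ∨ Y1 χ = 1 ∨ Y1 χ = -1) ∧
      (∀ χ, Y2 χ = 0 ∨ Y2 χ = 1 ∨ Y2 χ = -1) ∧ (∀ χ, Y3 χ = 0 ∨ Y3 χ = 1 ∨ Y3 χ = -1) ∧
      (∀ k, R (f k) = 0) ∧ (∀ k, Y1 (f k) = 0) ∧ (∀ k, Y2 (f k) = 0) ∧ (∀ k, Y3 (f k) = 0) ∧
      (∀ χ, Y1 χ * Y2 χ = 0) ∧ (∀ χ, Y1 χ * Y3 χ = 0) ∧ (∀ χ, Y2 χ * Y3 χ = 0) ∧
      (((∀ χ, R χ * Y2 χ = 0) ∧ (∀ χ, R χ * Y3 χ = 0)) ∨ ((∀ χ, R χ * Y1 χ = 0) ∧ (∀ χ, R χ * Y3 χ = 0)) ∨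
        ((∀ χ, R χ * Y1 χ = 0) ∧ (∀ χ, R χ * Y2 χ = 0))) := by
  classical
  set M : Fin 9 → IrrCharacter G → ℤ := fun k χ => mu pair3 L.emb (rep9 k) χ with hM
  have gr : ∀ k l k' l', ∑ χ, (M k χ - M l χ) * (M k' χ - M l' χ) = gg k l k' l' :=
    fun k l k' l' => gram pair3 L.emb σ3_B L.colSum _ _ _ _
  have dz : ∀ k l, ∑ χ, (M k χ - M l χ) * d χ = 0 := fun k l => degree_zero pair3 L.emb _ _ hdeg
  obtain ⟨ε, f, hε, hf, hx⟩ := family (κ := Fin 5) (g := fun k => M (j5 k)) hd (fun k l => dz _ _)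
    (fun k l hkl => by rw [gr]; exact gg_two k l hkl)
    (fun k l m h1 h2 h3 => by rw [gr]; exact gg_one k l m h1 h2 h3) ⟨0, 1, by decide⟩
  have hε2 : ε * ε = 1 := by rcases hε with h | h <;> rw [h] <;> norm_num
  have hε0 : ε ≠ 0 := by rcases hε with h | h <;> rw [h] <;> norm_num
  -- sums against the differences
  have sx : ∀ (F : IrrCharacter G → ℤ) (k l : Fin 5), ∑ χ, F χ * (M (j5 k) χ - M (j5 l) χ) = ε * (F (f k) - F (f l)) := by
    intro F k l
    rw [← sum_delta F (f k) (f l), Finset.mul_sum]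
    apply Finset.sum_congr rfl
    intro χ _
    rw [hx k l χ]; ring
  have hX : ∀ k, d (f k) = d (f 0) := by
    intro k
    have h1 := sx d k 0
    have h2 := dz (j5 k) (j5 0)
    have h3 : ∑ χ, d χ * (M (j5 k) χ - M (j5 0) χ) = 0 := by
      rw [← h2]; apply Finset.sum_congr rfl; intro χ _; ring
    rw [h3] at h1
    have h4 := (mul_eq_zero.1 h1.symm).resolve_left hε0
    omega
  set X := d (f 0) with hXdef
  have hXpos : 0 < X := hd _
  set x : Fin 5 → IrrCharacter G → ℤ := fun k χ => if χ = f k then ε else 0 with hxdef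
  have xf : ∀ k, x k (f k) = ε := fun k => by simp [hxdef]
  have xz : ∀ k χ, χ ≠ f k → x k χ = 0 := fun k χ h => by simp [hxdef, h]
  have hx' : ∀ k l χ, M (j5 k) χ - M (j5 l) χ = x k χ - x l χ := by
    intro k l χ
    rw [hx k l χ]
    simp only [hxdef]
    split_ifs <;> ring
  have s0 : ∀ F : IrrCharacter G → ℤ, ∑ χ, F χ * x 0 χ = ε * F (f 0) := by
    intro F
    rw [Fintype.sum_eq_single (f 0) (fun χ hχ => by rw [xz 0 χ hχ, mul_zero]), xf]; ring
  -- the four remaining differences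
  set fe : Fin 9 → IrrCharacter G → ℤ := fun e χ => M e χ - M 4 χ with hfe
  have hin : ∀ e : Fin 9, (∀ k : Fin 5, k ≠ 0 → gg e 4 4 (j5 k) = -1) →
      ∀ k : Fin 5, k ≠ 0 → ε * fe e (f k) = ε * fe e (f 0) + 1 := by
    intro e he k hk
    have h1 := sx (fe e) 0 k
    have h2 := gr e 4 (j5 0) (j5 k)
    have h3 : gg e 4 (j5 0) (j5 k) = -1 := he k hk
    have h4 : ∑ χ, fe e χ * (M (j5 0) χ - M (j5 k) χ) = -1 := by rw [← h3, ← h2]
    rw [h4] at h1
    linarith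
  have hsq : ∀ e : Fin 9, (∀ k : Fin 5, k ≠ 0 → gg e 4 4 (j5 k) = -1) →
      ∑ k, fe e (f k) * fe e (f k) = (ε * fe e (f 0)) * (ε * fe e (f 0)) + 4 * ((ε * fe e (f 0) + 1) * (ε * fe e (f 0) + 1)) := by
    intro e he
    have h1 : ∀ k, fe e (f k) * fe e (f k) = (ε * fe e (f k)) * (ε * fe e (f k)) := by
      intro k; linear_combination -(fe e (f k) * fe e (f k)) * hε2
    rw [Fin.sum_univ_five]
    rw [h1 0, h1 1, h1 2, h1 3, h1 4, hin e he 1 (by decide), hin e he 2 (by decide), hin e he 3 (by decide), hin e he 4 (by decide)]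
    ring
  have hle : ∀ e : Fin 9, ∑ k, fe e (f k) * fe e (f k) ≤ gg e 4 e 4 := by
    intro e
    rw [← gr e 4 e 4]
    exact sum_inj_le hf (fe e)
  have he0 : ∀ k : Fin 5, k ≠ 0 → gg 0 4 4 (j5 k) = -1 := by decide
  have he1 : ∀ k : Fin 5, k ≠ 0 → gg 1 4 4 (j5 k) = -1 := by decide
  have he2 : ∀ k : Fin 5, k ≠ 0 → gg 2 4 4 (j5 k) = -1 := by decide
  have he3 : ∀ k : Fin 5, k ≠ 0 → gg 3 4 4 (j5 k) = -1 := by decide
  have n0 : gg 0 4 0 4 = 5 := by decide
  have n1 : gg 1 4 1 4 = 3 := by decide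
  have n2 : gg 2 4 2 4 = 3 := by decide
  have n3 : gg 3 4 3 4 = 3 := by decide
  have c3 : ∀ c : ℤ, c * c + 4 * ((c + 1) * (c + 1)) ≤ 3 → c = -1 := by
    intro c hc
    have h1 : c ≤ 0 := by nlinarith
    have h2 : -2 ≤ c := by nlinarith
    interval_cases c <;> omega
  have c5 : ∀ c : ℤ, c * c + 4 * ((c + 1) * (c + 1)) ≤ 5 → c = -1 ∨ c = 0 := by
    intro c hc
    have h1 : c ≤ 0 := by nlinarith
    have h2 : -2 ≤ c := by nlinarith
    interval_cases c <;> omega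
  have k1 : ε * fe 1 (f 0) = -1 := c3 _ (by rw [← hsq 1 he1]; exact (hle 1).trans n1.le)
  have k2 : ε * fe 2 (f 0) = -1 := c3 _ (by rw [← hsq 2 he2]; exact (hle 2).trans n2.le)
  have k3 : ε * fe 3 (f 0) = -1 := c3 _ (by rw [← hsq 3 he3]; exact (hle 3).trans n3.le)
  -- the trivial character
  set i0 : IrrCharacter G := trc G with hi0
  have d0 : d i0 = 1 := by
    have h := hdeg i0
    have h1 : (i0 : G → ℂ) 1 = 1 := rfl
    rw [h1] at h
    exact_mod_cast h.symm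
  have m0 : M 0 i0 = 1 := by
    show mu pair3 L.emb (rep9 0) (trc G) = 1
    rw [mu_trc, if_pos (by decide)]
  have mz : ∀ k : Fin 9, k ≠ 0 → M k i0 = 0 := by
    intro k hk
    show mu pair3 L.emb (rep9 k) (trc G) = 0
    rw [mu_trc, if_neg (by revert k; decide)]
  have j50 : ∀ k : Fin 5, j5 k ≠ 0 := by decide
  have fne : ∀ k, i0 ≠ f k := by
    intro k hk
    obtain ⟨l, hl⟩ := (by decide : ∀ k : Fin 5, ∃ l : Fin 5, l ≠ k) k
    have h1 := hx' k l i0
    rw [mz _ (j50 k), mz _ (j50 l)] at h1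
    rw [xz l i0 (by rw [hk]; exact fun h => hl (hf h).symm)] at h1
    rw [hk, xf] at h1
    omega
  have k0 : ε * fe 0 (f 0) = -1 := by
    rcases c5 _ (by rw [← hsq 0 he0]; exact (hle 0).trans n0.le) with h | h
    · exact h
    exfalso
    have hval : ∀ k : Fin 5, k ≠ 0 → fe 0 (f k) = ε := by
      intro k hk
      have h1 := hin 0 he0 k hk
      rw [h] at h1
      linear_combination ε * h1 - (fe 0 (f k)) * hε2
    set h5 : Fin 5 → IrrCharacter G := ![i0, f 1, f 2, f 3, f 4] with hh5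
    have h5inj : Function.Injective h5 := by
      intro a b hab
      have hfi : ∀ {a b : Fin 5}, f a = f b → a = b := fun h => hf h
      fin_cases a <;> fin_cases b <;>
        simp only [hh5, Fin.isValue, Fin.zero_eta, Fin.mk_one, Fin.reduceFinMk, Matrix.cons_val] at hab <;>
        first
        | rfl
        | exact absurd hab (fne _)
        | exact absurd hab.symm (fne _)
        | exact absurd (hfi hab) (by decide)
    have fe0 : fe 0 i0 = 1 := by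
      show M 0 i0 - M 4 i0 = 1
      rw [m0, mz 4 (by decide)]; norm_num
    have hs := sum_eq_of_norm_le h5inj (F := fe 0) (by
      have : ∑ χ, fe 0 χ * fe 0 χ = 5 := by rw [← n0, ← gr 0 4 0 4]
      rw [this, Fin.sum_univ_five]
      simp only [hh5, Fin.isValue, Matrix.cons_val]
      rw [fe0, hval 1 (by decide), hval 2 (by decide), hval 3 (by decide), hval 4 (by decide), hε2]
      norm_num) d
    have hz : ∑ χ, fe 0 χ * d χ = 0 := dz 0 4
    rw [hz, Fin.sum_univ_five] at hs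
    simp only [hh5, Fin.isValue, Matrix.cons_val] at hs
    rw [fe0, hval 1 (by decide), hval 2 (by decide), hval 3 (by decide), hval 4 (by decide), d0, hX 1, hX 2, hX 3, hX 4] at hs
    rcases hε with h | h <;> rw [h] at hs <;> omega
  -- the functions
  set Y : Fin 9 → IrrCharacter G → ℤ := fun e χ => fe e χ + x 0 χ with hY
  have hYf : ∀ e : Fin 9, (∀ k : Fin 5, k ≠ 0 → gg e 4 4 (j5 k) = -1) → ε * fe e (f 0) = -1 → ∀ k, Y e (f k) = 0 := by
    intro e he hk k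
    by_cases h0 : k = 0
    · subst h0
      show fe e (f 0) + x 0 (f 0) = 0
      rw [xf]
      linear_combination ε * hk - (fe e (f 0)) * hε2
    · show fe e (f k) + x 0 (f k) = 0
      rw [xz 0 (f k) (fun h => h0 (hf h))]
      have := hin e he k h0
      rw [hk] at this
      have h3 : ε * fe e (f k) = 0 := by linarith
      have := (mul_eq_zero.1 h3).resolve_left hε0
      omega
  have hYY : ∀ e e' : Fin 9, ε * fe e (f 0) = -1 → ε * fe e' (f 0) = -1 →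
      ∑ χ, Y e χ * Y e' χ = gg e 4 e' 4 - 1 := by
    intro e e' h1 h2
    have e1 : ∀ χ, Y e χ * Y e' χ = fe e χ * fe e' χ + fe e χ * x 0 χ + fe e' χ * x 0 χ + x 0 χ * x 0 χ := by
      intro χ; simp only [hY]; ring
    simp only [e1]
    rw [Finset.sum_add_distrib, Finset.sum_add_distrib, Finset.sum_add_distrib, s0, s0, s0, xf, h1, h2, hε2]
    have h3 := gr e 4 e' 4
    have h4 : ∑ χ, fe e χ * fe e' χ = gg e 4 e' 4 := h3
    rw [h4]; ring
  have hYd : ∀ e : Fin 9, ∑ χ, Y e χ * d χ = ε * X := by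
    intro e
    have e1 : ∀ χ, Y e χ * d χ = (M e χ - M 4 χ) * d χ + d χ * x 0 χ := by
      intro χ; simp only [hY, hfe]; ring
    simp only [e1]
    rw [Finset.sum_add_distrib, dz, s0]; ring
  have Y0 : ∀ e : Fin 9, e ≠ 0 → Y e i0 = 0 := by
    intro e he
    show M e i0 - M 4 i0 + x 0 i0 = 0
    rw [mz e he, mz 4 (by decide), xz 0 i0 (fne 0)]; norm_num
  have R0 : Y 0 i0 = 1 := by
    show M 0 i0 - M 4 i0 + x 0 i0 = 1
    rw [m0, mz 4 (by decide), xz 0 i0 (fne 0)]; norm_num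
  have nR : ∑ χ, Y 0 χ * Y 0 χ = 4 := by rw [hYY 0 0 k0 k0, n0]; norm_num
  have nY1 : ∑ χ, Y 1 χ * Y 1 χ = 2 := by rw [hYY 1 1 k1 k1, n1]; norm_num
  have nY2 : ∑ χ, Y 2 χ * Y 2 χ = 2 := by rw [hYY 2 2 k2 k2, n2]; norm_num
  have nY3 : ∑ χ, Y 3 χ * Y 3 χ = 2 := by rw [hYY 3 3 k3 k3, n3]; norm_num
  have v1 := val_of_norm (f := Y 1) (by rw [nY1]; norm_num)
  have v2 := val_of_norm (f := Y 2) (by rw [nY2]; norm_num)
  have v3 := val_of_norm (f := Y 3) (by rw [nY3]; norm_num)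
  have vR : ∀ χ, Y 0 χ = 0 ∨ Y 0 χ = 1 ∨ Y 0 χ = -1 := by
    intro χ
    by_cases h : χ = i0
    · rw [h, R0]; right; left; rfl
    · apply small
      have := sq_add_le_sum (Y 0) h
      rw [nR, R0] at this
      linarith
  have o12 : ∑ χ, Y 1 χ * Y 2 χ = 0 := by
    rw [hYY 1 2 k1 k2]
    have : gg 1 4 2 4 = 1 := by decide
    rw [this]; norm_num
  have o13 : ∑ χ, Y 1 χ * Y 3 χ = 0 := by
    rw [hYY 1 3 k1 k3]
    have : gg 1 4 3 4 = 1 := by decide
    rw [this]; norm_num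
  have o23 : ∑ χ, Y 2 χ * Y 3 χ = 0 := by
    rw [hYY 2 3 k2 k3]
    have : gg 2 4 3 4 = 1 := by decide
    rw [this]; norm_num
  have o01 : ∑ χ, Y 0 χ * Y 1 χ = 0 := by
    rw [hYY 0 1 k0 k1]
    have : gg 0 4 1 4 = 1 := by decide
    rw [this]; norm_num
  have o02 : ∑ χ, Y 0 χ * Y 2 χ = 0 := by
    rw [hYY 0 2 k0 k2]
    have : gg 0 4 2 4 = 1 := by decide
    rw [this]; norm_num
  have o03 : ∑ χ, Y 0 χ * Y 3 χ = 0 := by
    rw [hYY 0 3 k0 k3]
    have : gg 0 4 3 4 = 1 := by decide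
    rw [this]; norm_num
  have p12 := disjoint_two hd nY1 nY2 o12 (by rw [hYd, hYd])
  have p13 := disjoint_two hd nY1 nY3 o13 (by rw [hYd, hYd])
  have p23 := disjoint_two hd nY2 nY3 o23 (by rw [hYd, hYd])
  have r12 := disjoint_or nR.le (by rw [R0]; norm_num) (Y0 1 (by decide)) (Y0 2 (by decide)) v1 v2 p12 o01 o02
  have r13 := disjoint_or nR.le (by rw [R0]; norm_num) (Y0 1 (by decide)) (Y0 3 (by decide)) v1 v3 p13 o01 o03
  have r23 := disjoint_or nR.le (by rw [R0]; norm_num) (Y0 2 (by decide)) (Y0 3 (by decide)) v2 v3 p23 o02 o03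
  refine ⟨ε, X, Y 0, Y 1, Y 2, Y 3, f, x, fun χ => M 4 χ - x 0 χ, hε, hf, fun k => hX k, xz, xf, ?_, ?_, ?_, ?_, ?_,
    vR, v1, v2, v3, hYf 0 he0 k0, hYf 1 he1 k1, hYf 2 he2 k2, hYf 3 he3 k3, p12, p13, p23, ?_⟩
  · intro k χ
    have := hx' k 0 χ
    have h2 : M (j5 0) χ = M 4 χ := rfl
    rw [h2] at this
    show M (j5 k) χ = _
    linarith
  · intro χ
    show M 0 χ = M 4 χ - x 0 χ + (M 0 χ - M 4 χ + x 0 χ)
    ring
  · intro χ
    show M 1 χ = M 4 χ - x 0 χ + (M 1 χ - M 4 χ + x 0 χ)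
    ring
  · intro χ
    show M 2 χ = M 4 χ - x 0 χ + (M 2 χ - M 4 χ + x 0 χ)
    ring
  · intro χ
    show M 3 χ = M 4 χ - x 0 χ + (M 3 χ - M 4 χ + x 0 χ)
    ring
  · rcases r12 with h1 | h1 <;> rcases r13 with h2 | h2 <;> rcases r23 with h3 | h3
    · right; right; exact ⟨h1, h3⟩
    · right; left; exact ⟨h1, h3⟩
    · right; right; exact ⟨h1, h3⟩
    · right; left; exact ⟨h1, h2⟩
    · right; right; exact ⟨h2, h1⟩
    · right; left; exact ⟨h2, h3⟩
    · left; exact ⟨h1, h2⟩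
    · left; exact ⟨h1, h2⟩

theorem sum9 (F : Fin 9 → ℤ) : ∑ k, F k = F 0 + F 1 + F 2 + F 3 + F (j5 0) + F (j5 1) + F (j5 2) + F (j5 3) + F (j5 4) := by
  simp only [Fin.sum_univ_succ, Fin.sum_univ_zero, j5, Fin.isValue, Matrix.cons_val_zero, Matrix.cons_val_succ,
    Fin.succ_zero_eq_one, Fin.succ_one_eq_two, Matrix.cons_val]
  simp only [Fin.reduceSucc, Fin.isValue]
  ring

/-- the group order -/
theorem card_eq {τ : V3 → G} (L : Loc τ σ3) {S : Subgroup G} (hT : TIS S)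
    (hS : ∀ g, g ∈ S ↔ ∃ t, τ t = g) (h108 : 108 ∣ Nat.card G) : Nat.card G = 108 := by
  classical
  have := Fintype.ofFinite G
  choose dn hdn hd1 using fun χ : IrrCharacter G => χ.2.exists_degree
  set d : IrrCharacter G → ℤ := fun χ => (dn χ : ℤ) with hdd
  have hd : ∀ χ, 0 < d χ := fun χ => by
    have := hdn χ
    simp only [hdd]
    exact_mod_cast this
  have hdeg : ∀ χ : IrrCharacter G, (χ : G → ℂ) 1 = d χ := fun χ => by rw [hd1]; simp [hdd]
  obtain ⟨ε, X, R, Y1, Y2, Y3, f, x, κ, hε, hf, hfX, xz, xf, hMx, hM0, hM1, hM2, hM3, vR, v1, v2, v3,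
    zR, z1, z2, z3, p12, p13, p23, hr⟩ := mass L hd hdeg
  -- values
  set val : V3 → IrrCharacter G → ℤ := fun t χ => ∑ k, mu pair3 L.emb (rep9 k) χ * co t k with hval
  have val_e1 : ∀ χ : IrrCharacter G, (χ : G → ℂ) (τ (1, 0, 0)) = val (1, 0, 0) χ := value3 L (by decide) hc_e1
  have val_e2 : ∀ χ : IrrCharacter G, (χ : G → ℂ) (τ (0, 1, 0)) = val (0, 1, 0) χ := value3 L (by decide) hc_e2
  have val_e3 : ∀ χ : IrrCharacter G, (χ : G → ℂ) (τ (0, 0, 1)) = val (0, 0, 1) χ := value3 L (by decide) hc_e3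
  have val_f1 : ∀ χ : IrrCharacter G, (χ : G → ℂ) (τ (1, 1, 0)) = val (1, 1, 0) χ := value3 L (by decide) hc_f1
  have val_f2 : ∀ χ : IrrCharacter G, (χ : G → ℂ) (τ (1, 0, 1)) = val (1, 0, 1) χ := value3 L (by decide) hc_f2
  have hv : ∀ (t : V3) (χ : IrrCharacter G), val t χ = (κ χ + R χ) * co t 0 + (κ χ + Y1 χ) * co t 1 + (κ χ + Y2 χ) * co t 2 +
      (κ χ + Y3 χ) * co t 3 + (κ χ + x 0 χ) * co t 4 + (κ χ + x 1 χ) * co t 5 + (κ χ + x 2 χ) * co t 6 +
      (κ χ + x 3 χ) * co t 7 + (κ χ + x 4 χ) * co t 8 := by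
    intro t χ
    simp only [hval]
    rw [sum9, hM0, hM1, hM2, hM3, hMx 0, hMx 1, hMx 2, hMx 3, hMx 4]
    rfl
  have w1 : ∀ χ, val (1, 0, 0) χ = R χ - Y1 χ + 2 * Y2 χ + 2 * Y3 χ - 2 * x 0 χ - 2 * x 1 χ + 4 * x 2 χ - 2 * x 3 χ - 2 * x 4 χ := by
    intro χ; rw [hv, co_e1]
    simp only [Fin.isValue, Matrix.cons_val]
    ring
  have w2 : ∀ χ, val (0, 1, 0) χ = R χ + 2 * Y1 χ - Y2 χ + 2 * Y3 χ - 2 * x 0 χ + 4 * x 1 χ - 2 * x 2 χ - 2 * x 3 χ - 2 * x 4 χ := by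
    intro χ; rw [hv, co_e2]
    simp only [Fin.isValue, Matrix.cons_val]
    ring
  have w3 : ∀ χ, val (0, 0, 1) χ = R χ + 2 * Y1 χ + 2 * Y2 χ - Y3 χ + 4 * x 0 χ - 2 * x 1 χ - 2 * x 2 χ - 2 * x 3 χ - 2 * x 4 χ := by
    intro χ; rw [hv, co_e3]
    simp only [Fin.isValue, Matrix.cons_val]
    ring
  have wf1 : ∀ χ, val (1, 1, 0) χ = R χ - Y1 χ - Y2 χ + 2 * Y3 χ + x 0 χ - 2 * x 1 χ - 2 * x 2 χ + x 3 χ + x 4 χ := by
    intro χ; rw [hv, co_f1]
    simp only [Fin.isValue, Matrix.cons_val]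
    ring
  have wf2 : ∀ χ, val (1, 0, 1) χ = R χ - Y1 χ + 2 * Y2 χ - Y3 χ - 2 * x 0 χ + x 1 χ - 2 * x 2 χ + x 3 χ + x 4 χ := by
    intro χ; rw [hv, co_f2]
    simp only [Fin.isValue, Matrix.cons_val]
    ring
  -- equations
  set dq : IrrCharacter G → ℚ := fun χ => (d χ : ℚ) with hdq
  have hdq0 : ∀ χ, dq χ ≠ 0 := fun χ => by
    have := hd χ
    simp only [hdq]
    exact_mod_cast this.ne'
  have cast3 : ∀ (A B C : IrrCharacter G → ℤ) (a b c : V3), (∀ χ : IrrCharacter G, (χ : G → ℂ) (τ a) = A χ) →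
      (∀ χ : IrrCharacter G, (χ : G → ℂ) (τ b) = B χ) → (∀ χ : IrrCharacter G, (χ : G → ℂ) (τ c) = C χ) →
      ∑ χ : IrrCharacter G, (χ : G → ℂ) (τ a) * (χ : G → ℂ) (τ b) * conj ((χ : G → ℂ) (τ c)) / (χ : G → ℂ) 1 =
        ((∑ χ, ((A χ * B χ * C χ : ℤ) : ℚ) / dq χ : ℚ) : ℂ) := by
    intro A B C a b c ha hb hc
    push_cast
    apply Finset.sum_congr rfl
    intro χ _
    rw [ha, hb, hc, hdeg, map_intCast]
    simp only [hdq]
    push_cast
    ring
  have eqz : ∀ (a b c : V3), (∀ χ : IrrCharacter G, (χ : G → ℂ) (τ a) = val a χ) → (∀ χ : IrrCharacter G, (χ : G → ℂ) (τ b) = val b χ) →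
      (∀ χ : IrrCharacter G, (χ : G → ℂ) (τ c) = val c χ) → a ≠ 0 → b ≠ 0 → c ≠ 0 → (∀ i, σ3 i a ≠ b) →
      (∀ i j, σ3 j b ≠ c - σ3 i a) → ∑ χ, ((val a χ * val b χ * val c χ : ℤ) : ℚ) / dq χ = 0 := by
    intro a b c ha hb hc h1 h2 h3 h4 h5
    have h := L.triple_zero hT hS h1 h2 h3 h4 h5
    rw [cast3 _ _ _ a b c ha hb hc] at h
    exact_mod_cast h
  have eqf : ∀ (a b c : V3), (∀ χ : IrrCharacter G, (χ : G → ℂ) (τ a) = val a χ) → (∀ χ : IrrCharacter G, (χ : G → ℂ) (τ b) = val b χ) →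
      (∀ χ : IrrCharacter G, (χ : G → ℂ) (τ c) = val c χ) → a ≠ 0 → b ≠ 0 → c ≠ 0 → (∀ i, σ3 i a ≠ b) →
      (∀ v, v ∈ ({a} : Finset V3) ↔ (∃ i, σ3 i a = v) ∧ ∃ j, σ3 j b = c - v) →
      (∑ i, if σ3 i a = a then 1 else 0) = 2 → (∑ i, if σ3 i b = b then 1 else 0) = 2 →
      (Nat.card G : ℚ) * ∑ χ, ((val a χ * val b χ * val c χ : ℤ) : ℚ) / dq χ = 2916 := by
    intro a b c ha hb hc h1 h2 h3 h4 h5 h6 h7
    have h := L.triple_sum hT hS h1 h2 h3 h4 {a} h5
    rw [cast3 _ _ _ a b c ha hb hc, L.cent_card h1, L.cent_card h2] at h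
    have h6' : (∑ i, if σ3 i a = a then (1 : ℂ) else 0) = 2 := by
      have : ((∑ i, if σ3 i a = a then (1 : ℕ) else 0 : ℕ) : ℂ) = ((2 : ℕ) : ℂ) := by rw [h6]
      push_cast at this
      exact this
    have h7' : (∑ i, if σ3 i b = b then (1 : ℂ) else 0) = 2 := by
      have : ((∑ i, if σ3 i b = b then (1 : ℕ) else 0 : ℕ) : ℂ) = ((2 : ℕ) : ℂ) := by rw [h7]
      push_cast at this
      exact this
    have hc27 : (Fintype.card V3 : ℂ) = 27 := by
      have : Fintype.card V3 = 27 := by simp [V3, ZMod.card]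
      rw [this]; norm_num
    rw [h6', h7', hc27, Finset.card_singleton] at h
    have h8 : (((Nat.card G : ℚ) * ∑ χ, ((val a χ * val b χ * val c χ : ℤ) : ℚ) / dq χ : ℚ) : ℂ) = ((2916 : ℚ) : ℂ) := by
      push_cast at h ⊢
      rw [h]; norm_num
    exact_mod_cast h8
  have comm3 : ∀ (A B C A' B' C' : IrrCharacter G → ℤ), (∀ χ, A χ * B χ * C χ = A' χ * B' χ * C' χ) →
      ∑ χ, ((A χ * B χ * C χ : ℤ) : ℚ) / dq χ = ∑ χ, ((A' χ * B' χ * C' χ : ℤ) : ℚ) / dq χ := by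
    intro A B C A' B' C' h
    apply Finset.sum_congr rfl
    intro χ _
    rw [h]
  set ξ : ℚ := (ε : ℚ) / X with hξ
  have hx : ∀ k, ∑ χ, (x k χ : ℚ) / dq χ = ξ := by
    intro k
    rw [Fintype.sum_eq_single (f k) (fun χ hχ => by rw [xz k χ hχ]; simp), xf]
    simp only [hdq]
    rw [hfX]
  have vx : ∀ k χ, x k χ = 0 ∨ x k χ = 1 ∨ x k χ = -1 := by
    intro k χ
    by_cases h : χ = f k
    · rw [h, xf]; rcases hε with h | h <;> simp [h]
    · left; exact xz k χ h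
  have dx : ∀ k l χ, k ≠ l → x k χ * x l χ = 0 := by
    intro k l χ hkl
    by_cases h : χ = f k
    · rw [xz l χ (by rw [h]; exact fun h' => hkl (hf h')), mul_zero]
    · rw [xz k χ h, zero_mul]
  have dxF : ∀ (F : IrrCharacter G → ℤ), (∀ k, F (f k) = 0) → ∀ k χ, x k χ * F χ = 0 := by
    intro F hF k χ
    by_cases h : χ = f k
    · rw [h, hF, mul_zero]
    · rw [xz k χ h, zero_mul]
  have key : (Nat.card G : ℚ) * (108 * ξ) = 2916 := by
    rcases hr with ⟨q2, q3⟩ | ⟨q1, q3⟩ | ⟨q1, q2⟩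
    · rw [← core (R := R) (Ya := Y1) (Yb := Y2) (Yc := Y3) (x := x) vR v1 v2 v3 vx dx (dxF R zR) (dxF Y1 z1)
        (dxF Y2 z2) (dxF Y3 z3) q2 q3 p12 p13 p23 (d := dq) w1 w2 w3 wf1 hx
        (by rw [comm3 _ _ _ (val (1, 0, 0)) (val (0, 1, 0)) (val (1, 0, 0)) (fun χ => by ring)]
            exact eqz _ _ _ val_e1 val_e2 val_e1 (by decide) (by decide) (by decide) (by decide) (by decide))
        (by rw [comm3 _ _ _ (val (1, 0, 0)) (val (0, 0, 1)) (val (1, 0, 0)) (fun χ => by ring)]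
            exact eqz _ _ _ val_e1 val_e3 val_e1 (by decide) (by decide) (by decide) (by decide) (by decide))
        (by rw [comm3 _ _ _ (val (0, 1, 0)) (val (1, 0, 0)) (val (0, 1, 0)) (fun χ => by ring)]
            exact eqz _ _ _ val_e2 val_e1 val_e2 (by decide) (by decide) (by decide) (by decide) (by decide))
        (eqz _ _ _ val_e1 val_e2 val_e3 (by decide) (by decide) (by decide) (by decide) (by decide))]
      exact eqf _ _ _ val_e1 val_e2 val_f1 (by decide) (by decide) (by decide) (by decide) (by decide) (by decide) (by decide)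
    · have hπ : Function.Injective (![0, 2, 1, 3, 4] : Fin 5 → Fin 5) := by decide
      rw [← core (R := R) (Ya := Y2) (Yb := Y1) (Yc := Y3) (x := fun k => x ((![0, 2, 1, 3, 4] : Fin 5 → Fin 5) k)) vR v2 v1 v3
        (fun k => vx _) (fun k l χ h => dx _ _ χ (fun h' => h (hπ h'))) (fun k => dxF R zR _) (fun k => dxF Y2 z2 _)
        (fun k => dxF Y1 z1 _) (fun k => dxF Y3 z3 _) q1 q3 (fun χ => by rw [mul_comm]; exact p12 χ) p23 p13 (d := dq)
        (A := val (0, 1, 0)) (B := val (1, 0, 0)) (C := val (0, 0, 1)) (F := val (1, 1, 0))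
        (fun χ => by rw [w2]; simp only [Fin.isValue, Matrix.cons_val]; ring)
        (fun χ => by rw [w1]; simp only [Fin.isValue, Matrix.cons_val]; ring)
        (fun χ => by rw [w3]; simp only [Fin.isValue, Matrix.cons_val]; ring)
        (fun χ => by rw [wf1]; simp only [Fin.isValue, Matrix.cons_val]; ring) (fun k => hx _)
        (by rw [comm3 _ _ _ (val (0, 1, 0)) (val (1, 0, 0)) (val (0, 1, 0)) (fun χ => by ring)]
            exact eqz _ _ _ val_e2 val_e1 val_e2 (by decide) (by decide) (by decide) (by decide) (by decide))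
        (by rw [comm3 _ _ _ (val (0, 1, 0)) (val (0, 0, 1)) (val (0, 1, 0)) (fun χ => by ring)]
            exact eqz _ _ _ val_e2 val_e3 val_e2 (by decide) (by decide) (by decide) (by decide) (by decide))
        (by rw [comm3 _ _ _ (val (1, 0, 0)) (val (0, 1, 0)) (val (1, 0, 0)) (fun χ => by ring)]
            exact eqz _ _ _ val_e1 val_e2 val_e1 (by decide) (by decide) (by decide) (by decide) (by decide))
        (by rw [comm3 _ _ _ (val (1, 0, 0)) (val (0, 1, 0)) (val (0, 0, 1)) (fun χ => by ring)]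
            exact eqz _ _ _ val_e1 val_e2 val_e3 (by decide) (by decide) (by decide) (by decide) (by decide))]
      rw [comm3 _ _ _ (val (1, 0, 0)) (val (0, 1, 0)) (val (1, 1, 0)) (fun χ => by ring)]
      exact eqf _ _ _ val_e1 val_e2 val_f1 (by decide) (by decide) (by decide) (by decide) (by decide) (by decide) (by decide)
    · have hπ : Function.Injective (![1, 2, 0, 3, 4] : Fin 5 → Fin 5) := by decide
      rw [← core (R := R) (Ya := Y3) (Yb := Y1) (Yc := Y2) (x := fun k => x ((![1, 2, 0, 3, 4] : Fin 5 → Fin 5) k)) vR v3 v1 v2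
        (fun k => vx _) (fun k l χ h => dx _ _ χ (fun h' => h (hπ h'))) (fun k => dxF R zR _) (fun k => dxF Y3 z3 _)
        (fun k => dxF Y1 z1 _) (fun k => dxF Y2 z2 _) q1 q2 (fun χ => by rw [mul_comm]; exact p13 χ)
        (fun χ => by rw [mul_comm]; exact p23 χ) p12 (d := dq)
        (A := val (0, 0, 1)) (B := val (1, 0, 0)) (C := val (0, 1, 0)) (F := val (1, 0, 1))
        (fun χ => by rw [w3]; simp only [Fin.isValue, Matrix.cons_val]; ring)
        (fun χ => by rw [w1]; simp only [Fin.isValue, Matrix.cons_val]; ring)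
        (fun χ => by rw [w2]; simp only [Fin.isValue, Matrix.cons_val]; ring)
        (fun χ => by rw [wf2]; simp only [Fin.isValue, Matrix.cons_val]; ring) (fun k => hx _)
        (by rw [comm3 _ _ _ (val (0, 0, 1)) (val (1, 0, 0)) (val (0, 0, 1)) (fun χ => by ring)]
            exact eqz _ _ _ val_e3 val_e1 val_e3 (by decide) (by decide) (by decide) (by decide) (by decide))
        (by rw [comm3 _ _ _ (val (0, 0, 1)) (val (0, 1, 0)) (val (0, 0, 1)) (fun χ => by ring)]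
            exact eqz _ _ _ val_e3 val_e2 val_e3 (by decide) (by decide) (by decide) (by decide) (by decide))
        (by rw [comm3 _ _ _ (val (1, 0, 0)) (val (0, 0, 1)) (val (1, 0, 0)) (fun χ => by ring)]
            exact eqz _ _ _ val_e1 val_e3 val_e1 (by decide) (by decide) (by decide) (by decide) (by decide))
        (by rw [comm3 _ _ _ (val (1, 0, 0)) (val (0, 1, 0)) (val (0, 0, 1)) (fun χ => by ring)]
            exact eqz _ _ _ val_e1 val_e2 val_e3 (by decide) (by decide) (by decide) (by decide) (by decide))]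
      rw [comm3 _ _ _ (val (1, 0, 0)) (val (0, 0, 1)) (val (1, 0, 1)) (fun χ => by ring)]
      exact eqf _ _ _ val_e1 val_e3 val_f2 (by decide) (by decide) (by decide) (by decide) (by decide) (by decide) (by decide)
  -- conclusion
  have hXpos : 0 < X := by rw [← hfX 0]; exact hd _
  have hG : 0 < Nat.card G := Nat.card_pos
  have key2 : (Nat.card G : ℤ) * ε = 27 * X := by
    have h1 : (X : ℚ) ≠ 0 := by exact_mod_cast hXpos.ne'
    rw [hξ] at key
    field_simp at key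
    have h2 : ((Nat.card G : ℤ) : ℚ) * (ε : ℚ) = 27 * (X : ℚ) := by
      push_cast
      linarith
    exact_mod_cast h2
  have hε1 : ε = 1 := by
    rcases hε with h | h
    · exact h
    · rw [h] at key2
      have : (0 : ℤ) < Nat.card G := by exact_mod_cast hG
      linarith
  rw [hε1, mul_one] at key2
  have hsum : ∑ χ, d χ * d χ = (Nat.card G : ℤ) := by
    have h := sum_degree_sq (G := G)
    have h2 : ((∑ χ, d χ * d χ : ℤ) : ℂ) = ((Nat.card G : ℤ) : ℂ) := by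
      push_cast
      rw [← h]
      apply Finset.sum_congr rfl
      intro χ _
      rw [hdeg]; ring
    exact_mod_cast h2
  have h5 : 5 * (X * X) ≤ (Nat.card G : ℤ) := by
    rw [← hsum]
    refine le_trans (le_of_eq ?_) (sum_inj_le hf d)
    simp only [hfX]
    simp
  have hX5 : X ≤ 5 := by
    rw [key2] at h5
    nlinarith
  obtain ⟨c, hc⟩ := h108
  have hc' : (Nat.card G : ℤ) = 108 * c := by exact_mod_cast hc
  have : X = 4 * c := by omega
  have hc1 : c = 1 := by omega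
  rw [hc, hc1]

end Cfsg.Agent.Lib.H52TI
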