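import Mathlib

/-! S3254 piece A0D, abstract part: fixed points of three-point stabilizers -/

set_option autoImplicit false
set_option linter.all false

namespace Cfsg.Agent.Lib.H52_A0Dx

universe u v

variable {G : Type u} [Group G] {Ω : Type v} [MulAction G Ω]

/-- pointwise stabilizer of three points -/
def J (G : Type u) [Group G] {Ω : Type v} [MulAction G Ω] (x y z : Ω) : Subgroup G :=
  MulAction.stabilizer G x ⊓ MulAction.stabilizer G y ⊓ MulAction.stabilizer G z

theorem mem_J {x y z : Ω} {j : G} : j ∈ J G x y z ↔ j • x = x ∧ j • y = y ∧ j • z = z := by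
  simp only [J, Subgroup.mem_inf, MulAction.mem_stabilizer_iff, and_assoc]

/-- fixed points of `J` -/
def B (G : Type u) [Group G] {Ω : Type v} [MulAction G Ω] (x y z : Ω) : Set Ω := {w | ∀ j ∈ J G x y z, j • w = w}

theorem tri (h3 : MulAction.IsMultiplyPretransitive G Ω 3) {x y z u v w : Ω} (hxy : x ≠ y) (hxz : x ≠ z) (hyz : y ≠ z)
    (huv : u ≠ v) (huw : u ≠ w) (hvw : v ≠ w) : ∃ g : G, g • x = u ∧ g • y = v ∧ g • z = w := by
  have inj : ∀ {a b c : Ω}, a ≠ b → a ≠ c → b ≠ c → Function.Injective ![a, b, c] := by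
    intro a b c hab hac hbc i j hij
    fin_cases i <;> fin_cases j <;> simp_all
  haveI := h3
  obtain ⟨g, hg⟩ := MulAction.exists_smul_eq G (⟨![x, y, z], inj hxy hxz hyz⟩ : Fin 3 ↪ Ω) ⟨![u, v, w], inj huv huw hvw⟩
  have e := fun i => congrArg (fun t : Fin 3 ↪ Ω => t i) hg
  exact ⟨g, e 0, e 1, e 2⟩

theorem card_J_le [Finite G] {x y z u v w : Ω} {g : G} (h1 : g • x = u) (h2 : g • y = v) (h3 : g • z = w) :
    Nat.card (J G u v w) ≤ Nat.card (J G x y z) := by
  subst h1 h2 h3
  apply Nat.card_le_card_of_injective (fun j : J G (g • x) (g • y) (g • z) => (⟨g⁻¹ * j * g, by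
    obtain ⟨a, b, c⟩ := mem_J.1 j.2
    refine mem_J.2 ⟨?_, ?_, ?_⟩
    · rw [mul_smul, mul_smul, a, inv_smul_smul]
    · rw [mul_smul, mul_smul, b, inv_smul_smul]
    · rw [mul_smul, mul_smul, c, inv_smul_smul]⟩ : J G x y z))
  intro a b hab
  have := congrArg (fun t : J G x y z => (t : G)) hab
  simp only at this
  exact Subtype.ext (mul_left_cancel (mul_right_cancel this))

theorem key [Finite G] (h3 : MulAction.IsMultiplyPretransitive G Ω 3) {x y z u v w : Ω} (hxy : x ≠ y) (hxz : x ≠ z)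
    (hyz : y ≠ z) (huv : u ≠ v) (huw : u ≠ w) (hvw : v ≠ w) (hu : u ∈ B G x y z) (hv : v ∈ B G x y z)
    (hw : w ∈ B G x y z) : J G u v w = J G x y z := by
  obtain ⟨g, a, b, c⟩ := tri h3 hxy hxz hyz huv huw hvw
  symm
  apply Subgroup.eq_of_le_of_card_ge
  · intro j hj
    exact mem_J.2 ⟨hu j hj, hv j hj, hw j hj⟩
  · exact card_J_le a b c

theorem B_eq {x y z u v w : Ω} (h : J G u v w = J G x y z) : B G u v w = B G x y z := by
  rw [B, B, h]

theorem memB (x y z : Ω) : x ∈ B G x y z ∧ y ∈ B G x y z ∧ z ∈ B G x y z :=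
  ⟨fun j hj => (mem_J.1 hj).1, fun j hj => (mem_J.1 hj).2.1, fun j hj => (mem_J.1 hj).2.2⟩

section
variable [Fintype Ω] [DecidableEq Ω]
open Classical in
/-- `B` without `x`, `y` -/
noncomputable def C (G : Type u) [Group G] {Ω : Type v} [MulAction G Ω] [Fintype Ω] [DecidableEq Ω] (x y z : Ω) : Finset Ω :=
  Finset.univ.filter (fun w => w ∈ B G x y z ∧ w ≠ x ∧ w ≠ y)

theorem mem_C {x y z w : Ω} : w ∈ C G x y z ↔ w ∈ B G x y z ∧ w ≠ x ∧ w ≠ y := by
  simp only [C, Finset.mem_filter, Finset.mem_univ, true_and]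

theorem card_C_le (h3 : MulAction.IsMultiplyPretransitive G Ω 3) {x y z u v w : Ω} (hxy : x ≠ y) (hxz : x ≠ z)
    (hyz : y ≠ z) (huv : u ≠ v) (huw : u ≠ w) (hvw : v ≠ w) : (C G x y z).card ≤ (C G u v w).card := by
  obtain ⟨g, a, b, c⟩ := tri h3 hxy hxz hyz huv huw hvw
  subst a b c
  apply Finset.card_le_card_of_injOn (fun t => g • t)
  · intro t ht
    obtain ⟨h1, h2, h4⟩ := mem_C.1 ht
    refine mem_C.2 ⟨fun j hj => ?_, fun h => h2 (smul_left_cancel g h), fun h => h4 (smul_left_cancel g h)⟩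
    have hj' : g⁻¹ * j * g ∈ J G x y z := by
      obtain ⟨a, b, c⟩ := mem_J.1 hj
      refine mem_J.2 ⟨?_, ?_, ?_⟩
      · rw [mul_smul, mul_smul, a, inv_smul_smul]
      · rw [mul_smul, mul_smul, b, inv_smul_smul]
      · rw [mul_smul, mul_smul, c, inv_smul_smul]
    have := h1 _ hj'
    rw [mul_smul, mul_smul, inv_smul_eq_iff] at this
    exact this
  · intro s _ t _ hst
    exact smul_left_cancel g hst

theorem C_eq [Finite G] (h3 : MulAction.IsMultiplyPretransitive G Ω 3) {x y z w : Ω} (hxy : x ≠ y) (hxz : x ≠ z)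
    (hyz : y ≠ z) (hw : w ∈ C G x y z) : C G x y w = C G x y z := by
  obtain ⟨h1, h2, h4⟩ := mem_C.1 hw
  have e := B_eq (key h3 hxy hxz hyz hxy h2.symm h4.symm (memB x y z).1 (memB x y z).2.1 h1)
  ext t
  rw [mem_C, mem_C, e]

theorem main [Finite G] [FaithfulSMul G Ω] {p : ℕ} (h5 : 5 ≤ p) (hodd : Odd p) (hcard : Fintype.card Ω = 3 * p)
    (h3 : MulAction.IsMultiplyPretransitive G Ω 3) {g : G} (hg : g ≠ 1)
    (hgf : p ≤ (Finset.univ.filter (fun a : Ω => g • a = a)).card) {x y z : Ω} (hxy : x ≠ y) (hxz : x ≠ z) (hyz : y ≠ z) :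
    ∀ w : Ω, (∀ j : G, j • x = x → j • y = y → j • z = z → j • w = w) → w = x ∨ w = y ∨ w = z := by
  classical
  set c := (C G x y z).card with hc
  have hconst : ∀ {u v w : Ω}, u ≠ v → u ≠ w → v ≠ w → (C G u v w).card = c := fun huv huw hvw =>
    le_antisymm (card_C_le h3 huv huw hvw hxy hxz hyz) (card_C_le h3 hxy hxz hyz huv huw hvw)
  have hX : ∀ {u v : Ω}, u ≠ v → ((Finset.univ \ {u, v} : Finset Ω)).card = 3 * p - 2 := by
    intro u v huv
    rw [Finset.card_sdiff_of_subset (Finset.subset_univ _), Finset.card_univ, hcard, Finset.card_pair huv]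
  -- divisibility
  have hdiv : c ∣ 3 * p - 2 := by
    set X : Finset Ω := Finset.univ \ {x, y} with hXd
    have hmX : ∀ t, t ∈ X ↔ t ≠ x ∧ t ≠ y := by
      intro t; simp [hXd, not_or]
    set P := X.image (fun t => C G x y t) with hP
    have hbi : X = P.biUnion id := by
      ext t
      rw [Finset.mem_biUnion]
      constructor
      · intro ht
        refine ⟨C G x y t, Finset.mem_image_of_mem _ ht, ?_⟩
        exact mem_C.2 ⟨(memB x y t).2.2, (hmX t).1 ht⟩
      · rintro ⟨S, hS, ht⟩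
        obtain ⟨s, hs, rfl⟩ := Finset.mem_image.1 hS
        exact (hmX t).2 (mem_C.1 ht).2
    have hcard2 : X.card = ∑ S ∈ P, S.card := by
      conv_lhs => rw [hbi]
      rw [Finset.card_biUnion]
      · rfl
      · intro S hS S' hS' hne
        obtain ⟨s, hs, rfl⟩ := Finset.mem_image.1 hS
        obtain ⟨s', hs', rfl⟩ := Finset.mem_image.1 hS'
        rw [Function.onFun, Finset.disjoint_left]
        intro t ht ht'
        apply hne
        have e1 := C_eq h3 hxy ((hmX s).1 hs).1.symm ((hmX s).1 hs).2.symm ht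
        have e2 := C_eq h3 hxy ((hmX s').1 hs').1.symm ((hmX s').1 hs').2.symm ht'
        show C G x y s = C G x y s'
        rw [← e1, ← e2]
    rw [Finset.sum_const_nat (m := c)] at hcard2
    · rw [hX hxy] at hcard2
      exact ⟨P.card, by rw [hcard2, mul_comm]⟩
    · intro S hS
      obtain ⟨s, hs, rfl⟩ := Finset.mem_image.1 hS
      exact hconst hxy ((hmX s).1 hs).1.symm ((hmX s).1 hs).2.symm
  -- counting
  have hcount : (p - 1) * c ≤ 3 * p - 2 := by
    obtain ⟨o, ho⟩ : ∃ o : Ω, g • o ≠ o := by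
      by_contra hall
      push Not at hall
      apply hg
      exact eq_of_smul_eq_smul (fun a : Ω => by rw [hall, one_smul])
    set Fx := Finset.univ.filter (fun a : Ω => g • a = a) with hFx
    have hmF : ∀ t, t ∈ Fx ↔ g • t = t := fun t => by simp [hFx]
    obtain ⟨a, ha⟩ : Fx.Nonempty := Finset.card_pos.1 (by omega)
    have hao : o ≠ a := by rintro rfl; exact ho ((hmF _).1 ha)
    have hno : ∀ f ∈ Fx.erase a, o ≠ f := by
      rintro f hf rfl
      exact ho ((hmF _).1 (Finset.mem_of_mem_erase hf))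
    have hle : ((Fx.erase a).biUnion (fun f => C G o a f)).card ≤ (Finset.univ \ {o, a} : Finset Ω).card := by
      apply Finset.card_le_card
      intro t ht
      obtain ⟨f, hf, htf⟩ := Finset.mem_biUnion.1 ht
      obtain ⟨h1, h2, h4⟩ := mem_C.1 htf
      simp [h2, h4]
    rw [Finset.card_biUnion, Finset.sum_const_nat (m := c), hX hao, Finset.card_erase_of_mem ha] at hle
    · refine le_trans (Nat.mul_le_mul_right _ ?_) hle
      omega
    · intro f hf
      exact hconst hao (hno f hf) (Finset.ne_of_mem_erase hf).symm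
    · intro f hf f' hf' hne
      rw [Function.onFun, Finset.disjoint_left]
      intro t ht ht'
      have hfa := Finset.ne_of_mem_erase hf
      have hfa' := Finset.ne_of_mem_erase hf'
      have e1 := C_eq h3 hao (hno f hf) hfa.symm ht
      have e2 := C_eq h3 hao (hno f' hf') hfa'.symm ht'
      have hf'm : f' ∈ C G o a f := by
        rw [← e1, e2]
        exact mem_C.2 ⟨(memB o a f').2.2, (hno f' hf').symm, hfa'⟩
      have e3 := key h3 hao (hno f hf) hfa.symm hfa.symm hfa'.symm hne (memB o a f).2.1 (memB o a f).2.2 (mem_C.1 hf'm).1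
      have hgJ : g ∈ J G o a f := by
        rw [← e3]
        exact mem_J.2 ⟨(hmF a).1 ha, (hmF f).1 (Finset.mem_of_mem_erase hf), (hmF f').1 (Finset.mem_of_mem_erase hf')⟩
      exact ho (mem_J.1 hgJ).1
  have hc1 : c = 1 := by
    have hc4 : c < 4 := by
      by_contra h
      push Not at h
      have : (p - 1) * 4 ≤ (p - 1) * c := Nat.mul_le_mul_left _ h
      omega
    obtain ⟨k, hk⟩ := hodd
    interval_cases c
    · rw [zero_dvd_iff] at hdiv; omega
    · rfl
    · omega
    · omega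
  intro w hw
  by_contra hcon
  push Not at hcon
  have hz : z ∈ C G x y z := mem_C.2 ⟨(memB x y z).2.2, hxz.symm, hyz.symm⟩
  have hw' : w ∈ C G x y z := mem_C.2 ⟨fun j hj => hw j (mem_J.1 hj).1 (mem_J.1 hj).2.1 (mem_J.1 hj).2.2, hcon.1, hcon.2.1⟩
  obtain ⟨s, hs⟩ := Finset.card_eq_one.1 hc1
  rw [hs, Finset.mem_singleton] at hz hw'
  exact hcon.2.2 (hw'.trans hz.symm)

theorem fx_eq (g : G) : Nat.card (MulAction.fixedBy Ω g) = (Finset.univ.filter (fun a : Ω => g • a = a)).card := by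
  rw [Nat.card_eq_fintype_card, ← Set.toFinset_card]
  congr 1
  ext a
  simp [MulAction.mem_fixedBy]

end

end Cfsg.Agent.Lib.H52_A0Dx
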