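import Mathlib
import Cfsg.Agent.Lib.H52T0

set_option autoImplicit false
set_option linter.all false

/-! `A0M` of S3254 -/

namespace Cfsg.Agent.Lib.H52_A0Mb

open Cfsg Cfsg.Agent.Lib.BRPerm Cfsg.Agent.Lib.BRCore Cfsg.Agent.Lib.BRInd Cfsg.Agent.Lib.CharBasic Cfsg.Agent.Lib.BlockThird Cfsg.Agent.Lib.H52T0 Cfsg.Agent.Lib.H15RealP Cfsg.Agent.Lib.BRB0 Cfsg.Agent.Lib.DefOneLoc
universe u v

variable {G : Type u} [Group G] [Fintype G] {Ω : Type v} [Fintype Ω] [MulAction G Ω] {p : ℕ}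

/-- Burnside on injections -/
theorem moment (n : ℕ) : ∑ g : G, (fx Ω g).descFactorial n =
    Nat.card (MulAction.orbitRel.Quotient G (Fin n ↪ Ω)) * Nat.card G := by
  classical
  have h1 := MulAction.sum_card_fixedBy_eq_card_orbits_mul_card_group G (Fin n ↪ Ω)
  rw [Nat.card_eq_fintype_card, Nat.card_eq_fintype_card, ← h1]
  refine Finset.sum_congr rfl fun g _ => ?_
  rw [← Nat.card_eq_fintype_card, fx]
  have e : MulAction.fixedBy (Fin n ↪ Ω) g ≃ (Fin n ↪ MulAction.fixedBy Ω g) :=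
    { toFun := fun x => ⟨fun i => ⟨x.1 i, by
          have h := DFunLike.congr_fun (x.2 : g • x.1 = x.1) i
          exact h⟩, fun i j hij => x.1.injective (congrArg Subtype.val hij)⟩
      invFun := fun y => ⟨⟨fun i => (y i : Ω), fun i j hij => y.injective (Subtype.ext hij)⟩, by
          refine DFunLike.ext _ _ fun i => ?_
          exact (y i).2⟩
      left_inv := fun x => by ext; rfl
      right_inv := fun y => by ext; rfl }
  rw [Nat.card_congr e, Nat.card_eq_fintype_card (α := Fin n ↪ _), Fintype.card_embedding_eq, Fintype.card_fin,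
    ← Nat.card_eq_fintype_card]

theorem orb_one {X : Type*} [MulAction G X] [Nonempty X] (h : MulAction.IsPretransitive G X) :
    Nat.card (MulAction.orbitRel.Quotient G X) = 1 := by
  haveI : Subsingleton (MulAction.orbitRel.Quotient G X) := by
    refine ⟨fun a b => ?_⟩
    induction a using Quotient.inductionOn' with | h a => ?_
    induction b using Quotient.inductionOn' with | h b => ?_
    rw [Quotient.eq'', MulAction.orbitRel_apply]
    obtain ⟨g, hg⟩ := MulAction.exists_smul_eq G b a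
    exact ⟨g, hg⟩
  haveI : Nonempty (MulAction.orbitRel.Quotient G X) := ⟨Quotient.mk'' (Classical.arbitrary X)⟩
  exact Nat.card_unique

theorem orb_le_one {X : Type*} [MulAction G X] [Finite X] (h : Nat.card (MulAction.orbitRel.Quotient G X) ≤ 1) :
    MulAction.IsPretransitive G X := by
  refine ⟨fun a b => ?_⟩
  haveI : Finite (MulAction.orbitRel.Quotient G X) := Quotient.finite _
  haveI : Subsingleton (MulAction.orbitRel.Quotient G X) := (Finite.card_le_one_iff_subsingleton).1 h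
  have h1 : (Quotient.mk'' b : MulAction.orbitRel.Quotient G X) = Quotient.mk'' a := Subsingleton.elim _ _
  rw [Quotient.eq'', MulAction.orbitRel_apply] at h1
  exact h1

theorem fx_le_cyc (g : G) : fx Ω g ≤ cyc Ω g := by
  rw [fx, cyc]
  refine Nat.card_le_card_of_injective
    (fun w : MulAction.fixedBy Ω g => (Quotient.mk'' w.1 : MulAction.orbitRel.Quotient (Subgroup.zpowers g) Ω)) ?_
  intro a b hab
  simp only at hab
  rw [Quotient.eq'', MulAction.orbitRel_apply] at hab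
  obtain ⟨⟨x, hx⟩, hx2⟩ := hab
  obtain ⟨m, rfl⟩ := hx
  have hb : g • (b : Ω) = b := b.2
  have h2 : g ^ m • (b : Ω) = b := by
    have : g ∈ MulAction.stabilizer G (b : Ω) := hb
    exact Subgroup.zpow_mem _ this m
  apply Subtype.ext
  rw [← hx2]
  exact h2

theorem even_fx (h1 : ∀ t : G, orderOf t = 2 → fx Ω t = 1) {g : G} (hg : 2 ∣ orderOf g) : fx Ω g = 1 := by
  obtain ⟨k, hk⟩ := hg
  have hk0 : k ≠ 0 := by
    rintro rfl
    have := orderOf_pos g
    omega
  have h2 : orderOf (g ^ k) = 2 := by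
    rw [orderOf_pow' g hk0, hk, Nat.gcd_eq_right (dvd_mul_left _ _), Nat.mul_div_cancel _ (Nat.pos_of_ne_zero hk0)]
  have h3 := h1 _ h2
  have h4 : MulAction.fixedBy Ω g = MulAction.fixedBy Ω (g ^ k) := by
    rw [fx, Nat.card_coe_set_eq, Set.ncard_eq_one] at h3
    obtain ⟨a, ha⟩ := h3
    rw [ha]
    have ha1 : g ^ k • a = a := by
      have : a ∈ MulAction.fixedBy Ω (g ^ k) := by rw [ha]; rfl
      exact this
    have ha2 : g • a = a := by
      have : g • a ∈ MulAction.fixedBy Ω (g ^ k) := by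
        show g ^ k • (g • a) = g • a
        rw [← mul_smul, ← pow_succ, pow_succ', mul_smul, ha1]
      rw [ha] at this
      exact this
    ext w
    constructor
    · intro hw
      have : w ∈ MulAction.fixedBy Ω (g ^ k) := by
        have h5 : g ∈ MulAction.stabilizer G w := hw
        exact Subgroup.pow_mem _ h5 k
      rw [ha] at this
      exact this
    · intro hw
      rw [Set.mem_singleton_iff] at hw
      subst hw
      exact ha2
  rw [fx, h4]
  exact h3

theorem desc_int (a : ℕ) : ((a.descFactorial 1 : ℕ) : ℤ) = a ∧ ((a.descFactorial 2 : ℕ) : ℤ) = a * (a - 1) ∧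
    ((a.descFactorial 3 : ℕ) : ℤ) = a * (a - 1) * (a - 2) ∧ ((a.descFactorial 4 : ℕ) : ℤ) = a * (a - 1) * (a - 2) * (a - 3) := by
  rcases a with _ | _ | _ | a
  · simp [Nat.descFactorial]
  · simp [Nat.descFactorial]
  · simp [Nat.descFactorial]
  · refine ⟨?_, ?_, ?_, ?_⟩ <;> simp [Nat.descFactorial_succ] <;> ring

section sums

variable (Ω)

/-- the remaining elements -/
def R (p : ℕ) (g : G) : Prop := g ≠ 1 ∧ ¬ p ∣ orderOf g ∧ ¬ 2 ∣ orderOf g

open Classical in
theorem split (hB : Base G Ω p) (h1 : ∀ t : G, orderOf t = 2 → fx Ω t = 1) (F : ℤ → ℤ) (hF : F 1 = 0) :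
    ∑ g : G, F (fx Ω g) = F (3 * p) + Nat.card {g : G // p ∣ orderOf g} * F 0 +
      ∑ g ∈ Finset.univ.filter (R (G := G) p), F (fx Ω g) := by
  classical
  have hp := hB.hp
  have hp1 := hp.one_lt
  have h2 := Finset.sum_filter_add_sum_filter_not (Finset.univ : Finset G) (fun g => g = 1) (fun g => F (fx Ω g))
  rw [← h2]
  have h3 : ∑ g ∈ Finset.univ.filter (fun g : G => g = 1), F (fx Ω g) = F (3 * p) := by
    have h10 : Finset.univ.filter (fun g : G => g = 1) = {1} := by ext g; simp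
    rw [h10, Finset.sum_singleton]
    congr 1
    rw [fx, MulAction.fixedBy_one_eq_univ, Nat.card_congr (Equiv.Set.univ Ω), hB.card]
    push_cast
    rfl
  have h4 := Finset.sum_filter_add_sum_filter_not (Finset.univ.filter (fun g : G => ¬ g = 1)) (fun g => p ∣ orderOf g)
    (fun g => F (fx Ω g))
  have h5 := Finset.sum_filter_add_sum_filter_not
    ((Finset.univ.filter (fun g : G => ¬ g = 1)).filter (fun g => ¬ p ∣ orderOf g)) (fun g => 2 ∣ orderOf g)
    (fun g => F (fx Ω g))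
  have h6 : ∑ g ∈ (Finset.univ.filter (fun g : G => ¬ g = 1)).filter (fun g => p ∣ orderOf g), F (fx Ω g) =
      Nat.card {g : G // p ∣ orderOf g} * F 0 := by
    have h7 : (Finset.univ.filter (fun g : G => ¬ g = 1)).filter (fun g => p ∣ orderOf g) =
        Finset.univ.filter (fun g : G => p ∣ orderOf g) := by
      ext g
      simp only [Finset.mem_filter, Finset.mem_univ, true_and]
      constructor
      · exact fun h => h.2
      · refine fun h => ⟨?_, h⟩
        rintro rfl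
        rw [orderOf_one] at h
        exact hp1.ne' (Nat.dvd_one.1 h)
    rw [h7, Finset.sum_congr rfl (g := fun _ => F 0), Finset.sum_const, nsmul_eq_mul, Nat.card_eq_fintype_card,
      Fintype.card_subtype]
    intro g hg
    rw [Finset.mem_filter] at hg
    rw [hB.sing g hg.2]
    rfl
  have h8 : ∑ g ∈ ((Finset.univ.filter (fun g : G => ¬ g = 1)).filter (fun g => ¬ p ∣ orderOf g)).filter
      (fun g => 2 ∣ orderOf g), F (fx Ω g) = 0 := by
    refine Finset.sum_eq_zero fun g hg => ?_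
    rw [Finset.mem_filter] at hg
    rw [even_fx h1 hg.2]
    exact hF
  have h9 : ((Finset.univ.filter (fun g : G => ¬ g = 1)).filter (fun g => ¬ p ∣ orderOf g)).filter
      (fun g => ¬ 2 ∣ orderOf g) = Finset.univ.filter (R (G := G) p) := by
    ext g
    simp only [Finset.mem_filter, Finset.mem_univ, true_and, R, and_assoc, ne_eq]
  rw [h3, ← h4, h6, ← h5, h8, h9, zero_add]
  ring

end sums

/-- A0M -/
theorem A0M (hB : Base G Ω p) (h2 : MulAction.IsMultiplyPretransitive G Ω 2) (h1 : ∀ t : G, orderOf t = 2 → fx Ω t = 1) (k : ℕ)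
    (hk : Nat.card G = 9 * p * k ^ 2 * (3 * p - 1) * (3 * p - 2)) (hk1 : p - 1 ≤ 3 * k)
    (hcyc : ∀ g : G, g ≠ 1 → ¬ p ∣ orderOf g → 2 * cyc Ω g ≤ 3 * p + 1) :
    MulAction.IsMultiplyPretransitive G Ω 3 ∧ (∃ g : G, g ≠ 1 ∧ ¬ p ∣ orderOf g ∧ p ≤ fx Ω g) ∧
    p - 2 ≤ Nat.card (MulAction.orbitRel.Quotient G (Fin 4 ↪ Ω)) := by
  classical
  have hp5 := hB.h5
  have hcard : Fintype.card Ω = 3 * p := by rw [← Nat.card_eq_fintype_card, hB.card]
  set f : G → ℤ := fun g => (fx Ω g : ℤ) with hf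
  set r3 : ℕ := Nat.card (MulAction.orbitRel.Quotient G (Fin 3 ↪ Ω)) with hr3
  set r4 : ℕ := Nat.card (MulAction.orbitRel.Quotient G (Fin 4 ↪ Ω)) with hr4
  have hne : ∀ n : ℕ, n ≤ 4 → Nonempty (Fin n ↪ Ω) := by
    intro n hn
    rw [Function.Embedding.nonempty_iff_card_le, Fintype.card_fin, hcard]
    omega
  have hdesc : ∀ g : G, _ := fun g => desc_int (fx Ω g)
  haveI hne1 := hne 1 (by norm_num)
  haveI hne2 := hne 2 (by norm_num)
  haveI hne3 := hne 3 (by norm_num)
  have htr1 : MulAction.IsMultiplyPretransitive G Ω 1 := by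
    exact MulAction.isMultiplyPretransitive_of_le (n := 2) (by norm_num) (by
      rw [hB.card]; omega)
  have m1 : ∑ g : G, f g = Nat.card G := by
    have h := moment (G := G) (Ω := Ω) 1
    rw [orb_one htr1, one_mul] at h
    rw [← h]
    push_cast
    exact Finset.sum_congr rfl fun g _ => (hdesc g).1.symm
  have m2 : ∑ g : G, f g * (f g - 1) = Nat.card G := by
    have h := moment (G := G) (Ω := Ω) 2
    rw [orb_one h2, one_mul] at h
    rw [← h]
    push_cast
    exact Finset.sum_congr rfl fun g _ => (hdesc g).2.1.symm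
  have m3 : ∑ g : G, f g * (f g - 1) * (f g - 2) = r3 * Nat.card G := by
    have h := moment (G := G) (Ω := Ω) 3
    rw [← hr3] at h
    rw [← Nat.cast_mul, ← h]
    push_cast
    exact Finset.sum_congr rfl fun g _ => (hdesc g).2.2.1.symm
  have m4 : ∑ g : G, f g * (f g - 1) * (f g - 2) * (f g - 3) = r4 * Nat.card G := by
    have h := moment (G := G) (Ω := Ω) 4
    rw [← hr4] at h
    rw [← Nat.cast_mul, ← h]
    push_cast
    exact Finset.sum_congr rfl fun g _ => (hdesc g).2.2.2.symm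
  have m0 : ∑ g : G, (f g - 1) * (f g - 2) = Nat.card G := by
    have h : ∀ g : G, (f g - 1) * (f g - 2) = f g * (f g - 1) - 2 * f g + 2 := fun g => by ring
    rw [Finset.sum_congr rfl (fun g _ => h g), Finset.sum_add_distrib, Finset.sum_sub_distrib, m2, ← Finset.mul_sum, m1,
      Finset.sum_const, Finset.card_univ, nsmul_eq_mul, ← Nat.card_eq_fintype_card]
    ring
  set P : ℤ := (p : ℤ) with hP
  set K : ℤ := (k : ℤ) with hK
  set q : ℤ := (Nat.card {g : G // p ∣ orderOf g} : ℤ) with hq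
  have hP5 : 5 ≤ P := by rw [hP]; exact_mod_cast hp5
  have hGc : (Nat.card G : ℤ) = 9 * P * K ^ 2 * ((3 * P - 1) * (3 * P - 2)) := by
    rw [hk]
    push_cast [Nat.cast_sub (show 1 ≤ 3 * p by omega), Nat.cast_sub (show 2 ≤ 3 * p by omega)]
    ring
  set N : ℤ := (3 * P - 1) * (3 * P - 2) with hN
  have hN0 : 0 < N := by rw [hN]; exact mul_pos (by linarith) (by linarith)
  have hqq : 2 * q = 9 * K ^ 2 * N * (P - 1) := by
    have h := hB.nsing
    have h' : (2 : ℤ) * P * q = Nat.card G * (P - 1) := by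
      have := congrArg (Nat.cast : ℕ → ℤ) h
      push_cast [Nat.cast_sub (show 1 ≤ p by omega)] at this
      exact this
    rw [hGc] at h'
    have hP0 : P ≠ 0 := by linarith
    apply mul_left_cancel₀ hP0
    linear_combination h'
  have hK1 : P - 1 ≤ 3 * K := by
    have := hk1
    rw [hP, hK]
    omega
  set Rs : Finset G := Finset.univ.filter (R (G := G) p) with hRs
  have s0 : ∑ g ∈ Rs, (f g - 1) * (f g - 2) = N * (9 * K ^ 2 - 1) := by
    have h := split Ω hB h1 (fun x => (x - 1) * (x - 2)) (by norm_num)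
    rw [show (∑ g : G, ((fx Ω g : ℤ) - 1) * ((fx Ω g : ℤ) - 2)) = Nat.card G from m0, hGc] at h
    have h' : ∑ g ∈ Rs, (f g - 1) * (f g - 2) = 9 * P * K ^ 2 * N - (3 * P - 1) * (3 * P - 2) - q * 2 := by
      linear_combination -h
    rw [h']
    linear_combination -hqq
  have s1 : ∑ g ∈ Rs, f g * (f g - 1) * (f g - 2) = N * (9 * P * K ^ 2 * r3 - 3 * P) := by
    have h := split Ω hB h1 (fun x => x * (x - 1) * (x - 2)) (by norm_num)
    rw [show (∑ g : G, (fx Ω g : ℤ) * ((fx Ω g : ℤ) - 1) * ((fx Ω g : ℤ) - 2)) = r3 * Nat.card G from m3, hGc] at h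
    linear_combination -h
  have s2 : ∑ g ∈ Rs, f g * (f g - 1) * (f g - 2) * (f g - 3) = N * (9 * P * K ^ 2 * r4 - 9 * P * (P - 1)) := by
    have h := split Ω hB h1 (fun x => x * (x - 1) * (x - 2) * (x - 3)) (by norm_num)
    rw [show (∑ g : G, (fx Ω g : ℤ) * ((fx Ω g : ℤ) - 1) * ((fx Ω g : ℤ) - 2) * ((fx Ω g : ℤ) - 3)) = r4 * Nat.card G
      from m4, hGc] at h
    linear_combination -h
  have hnn : ∀ x : ℤ, 0 ≤ (x - 1) * (x - 2) := by
    intro x
    rcases le_or_gt x 1 with h | h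
    · exact mul_nonneg_of_nonpos_of_nonpos (by linarith) (by linarith)
    · exact mul_nonneg (by linarith) (by linarith [Int.add_one_le_iff.2 h])
  have hR : ∀ g ∈ Rs, g ≠ 1 ∧ ¬ p ∣ orderOf g := by
    intro g hg
    rw [hRs, Finset.mem_filter] at hg
    exact ⟨hg.2.1, hg.2.2.1⟩
  have hle : ∀ g ∈ Rs, 2 * f g ≤ 3 * P + 1 := by
    intro g hg
    have h := hcyc g (hR g hg).1 (hR g hg).2
    have h' := fx_le_cyc (Ω := Ω) g
    rw [hf, hP]
    simp only
    exact_mod_cast (by omega : 2 * fx Ω g ≤ 3 * p + 1)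
  have hr3pos : 1 ≤ r3 := by
    haveI : Nonempty (MulAction.orbitRel.Quotient G (Fin 3 ↪ Ω)) := ⟨Quotient.mk'' (Classical.arbitrary _)⟩
    haveI : Finite (MulAction.orbitRel.Quotient G (Fin 3 ↪ Ω)) := Quotient.finite _
    exact Nat.card_pos
  have i1 : 2 * (N * (9 * P * K ^ 2 * r3 - 3 * P)) ≤ (3 * P + 1) * (N * (9 * K ^ 2 - 1)) := by
    rw [← s0, ← s1, Finset.mul_sum, Finset.mul_sum]
    refine Finset.sum_le_sum fun g hg => ?_
    nlinarith [mul_nonneg (sub_nonneg.2 (hle g hg)) (hnn (f g))]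
  have hK2 : (P - 1) ^ 2 ≤ 9 * K ^ 2 := by nlinarith
  have hr3 : r3 = 1 := by
    by_contra hcon
    have h2' : (2 : ℤ) ≤ r3 := by exact_mod_cast (by omega : 2 ≤ r3)
    have h3 : 2 * (9 * P * K ^ 2 * r3 - 3 * P) ≤ (3 * P + 1) * (9 * K ^ 2 - 1) := by
      have : N * (2 * (9 * P * K ^ 2 * r3 - 3 * P)) ≤ N * ((3 * P + 1) * (9 * K ^ 2 - 1)) := by linarith [i1]
      exact le_of_mul_le_mul_left this hN0
    have h4 : 9 * P * K ^ 2 * 2 ≤ 9 * P * K ^ 2 * r3 := mul_le_mul_of_nonneg_left h2' (by positivity)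
    nlinarith [mul_nonneg (show (0 : ℤ) ≤ P - 1 by linarith) (sub_nonneg.2 hK2), sq_nonneg (P - 1)]
  have hg : ∃ g : G, g ≠ 1 ∧ ¬ p ∣ orderOf g ∧ p ≤ fx Ω g := by
    by_contra hcon
    push_neg at hcon
    have i2 : N * (9 * P * K ^ 2 * r3 - 3 * P) ≤ (P - 1) * (N * (9 * K ^ 2 - 1)) := by
      rw [← s0, ← s1, Finset.mul_sum]
      refine Finset.sum_le_sum fun g hg => ?_
      have h5 := hcon g (hR g hg).1 (hR g hg).2
      have h6 : f g ≤ P - 1 := by
        rw [hf, hP]
        simp only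
        have : (fx Ω g : ℤ) < p := by exact_mod_cast h5
        linarith
      nlinarith [mul_nonneg (sub_nonneg.2 h6) (hnn (f g))]
    have h3 : 9 * P * K ^ 2 * r3 - 3 * P ≤ (P - 1) * (9 * K ^ 2 - 1) := by
      have : N * (9 * P * K ^ 2 * r3 - 3 * P) ≤ N * ((P - 1) * (9 * K ^ 2 - 1)) := by linarith [i2]
      exact le_of_mul_le_mul_left this hN0
    rw [hr3] at h3
    push_cast at h3
    nlinarith
  refine ⟨orb_le_one hr3.le, hg, ?_⟩
  have i3 : 0 ≤ N * (9 * P * K ^ 2 * r4 - 9 * P * (P - 1)) + (3 - 2 * P) * (N * (9 * P * K ^ 2 * r3 - 3 * P)) +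
      P ^ 2 * (N * (9 * K ^ 2 - 1)) := by
    rw [← s0, ← s1, ← s2, Finset.mul_sum, Finset.mul_sum, ← Finset.sum_add_distrib, ← Finset.sum_add_distrib]
    refine Finset.sum_nonneg fun g hg => ?_
    have := mul_nonneg (hnn (f g)) (sq_nonneg (f g - P))
    nlinarith
  rw [hr3] at i3
  have i4 : 0 ≤ (9 * P * K ^ 2 * r4 - 9 * P * (P - 1)) + (3 - 2 * P) * (9 * P * K ^ 2 * 1 - 3 * P) +
      P ^ 2 * (9 * K ^ 2 - 1) := by
    have : N * 0 ≤ N * ((9 * P * K ^ 2 * r4 - 9 * P * (P - 1)) + (3 - 2 * P) * (9 * P * K ^ 2 * 1 - 3 * P) +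
      P ^ 2 * (9 * K ^ 2 - 1)) := by
      push_cast at i3
      linarith [i3]
    exact le_of_mul_le_mul_left this hN0
  have i5 : 0 < P * (9 * K ^ 2 * (r4 + 3 - P)) := by nlinarith
  have i6 : 0 < 9 * K ^ 2 * (r4 + 3 - P) := by
    rcases lt_or_ge 0 (9 * K ^ 2 * ((r4 : ℤ) + 3 - P)) with h | h
    · exact h
    · exfalso
      have : P * (9 * K ^ 2 * ((r4 : ℤ) + 3 - P)) ≤ 0 := mul_nonpos_of_nonneg_of_nonpos (by linarith) h
      linarith
  have i7 : 0 < (r4 : ℤ) + 3 - P := by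
    rcases lt_or_ge 0 ((r4 : ℤ) + 3 - P) with h | h
    · exact h
    · exfalso
      have : 9 * K ^ 2 * ((r4 : ℤ) + 3 - P) ≤ 0 := mul_nonpos_of_nonneg_of_nonpos (by positivity) h
      linarith
  rw [hP] at i7
  omega

end Cfsg.Agent.Lib.H52_A0Mb
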