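import Mathlib
import Cfsg.Agent.Lib.H52T0

set_option autoImplicit false
set_option linter.all false

/-! S3254, piece A2F -/

namespace Cfsg.Agent.Lib.H52_A2Fc

open Cfsg Cfsg.Agent.Lib.BRPerm Cfsg.Agent.Lib.BRCore Cfsg.Agent.Lib.BRInd Cfsg.Agent.Lib.CharBasic Cfsg.Agent.Lib.BlockThird Cfsg.Agent.Lib.H52T0 Cfsg.Agent.Lib.H15RealP Cfsg.Agent.Lib.BRB0 Cfsg.Agent.Lib.DefOneLoc

universe u v

open scoped Classical in
theorem a2f_end {I : Type*} [Fintype I] (x y d : I → ℤ) (e χ Y0 Y1 : I) (h1 : e ≠ χ) (h2 : e ≠ Y0) (h3 : e ≠ Y1) (h4 : χ ≠ Y0)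
    (h5 : χ ≠ Y1) (h6 : Y0 ≠ Y1) (xx : ∑ η, x η ^ 2 = 8) (yy : ∑ η, y η ^ 2 = 4) (xy : ∑ η, x η * y η = 0)
    (x1 : ∑ η, x η * d η = 0) (y1 : ∑ η, y η * d η = 0) (de : d e = 1) (dχ : d χ = 14) (d0 : d Y0 = 13) (d1 : d Y1 = 13)
    (ye : y e = 1) (yχ : y χ = 0) (y0 : y Y0 = -1) (yy1 : y Y1 = -1) (xe : x e = 1)
    (hx : (x χ = 2 ∧ x Y0 = 1 ∧ x Y1 = 1) ∨ (x χ = 0 ∧ x Y0 = -1 ∧ x Y1 = -1)) : False := by
  have hsplit : ∀ f : I → ℤ, ∑ η, f η = f e + f χ + f Y0 + f Y1 + ∑ η ∈ (({e, χ, Y0, Y1} : Finset I))ᶜ, f η := by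
    intro f
    rw [← Finset.sum_add_sum_compl ({e, χ, Y0, Y1} : Finset I) f]
    congr 1
    rw [Finset.sum_insert (by simp [h1, h2, h3]), Finset.sum_insert (by simp [h4, h5]), Finset.sum_pair h6]
    ring
  rw [hsplit] at xx yy xy x1 y1
  set R : Finset I := (({e, χ, Y0, Y1} : Finset I))ᶜ with hR
  rcases hx with ⟨a1, a2, a3⟩ | ⟨a1, a2, a3⟩
  · have h7 : ∑ η ∈ R, (x η - y η) ^ 2 = ∑ η ∈ R, x η ^ 2 - 2 * ∑ η ∈ R, x η * y η + ∑ η ∈ R, y η ^ 2 := by
      rw [Finset.mul_sum, ← Finset.sum_sub_distrib, ← Finset.sum_add_distrib]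
      apply Finset.sum_congr rfl
      intro η _
      ring
    simp only [de, dχ, d0, d1, ye, yχ, y0, yy1, xe, a1, a2, a3] at xx yy xy x1 y1
    have h8 : ∑ η ∈ R, (x η - y η) ^ 2 = 0 := by rw [h7]; linarith
    have h9 := (Finset.sum_eq_zero_iff_of_nonneg (fun η _ => sq_nonneg (x η - y η))).1 h8
    have h10 : ∑ η ∈ R, x η * d η = ∑ η ∈ R, y η * d η := by
      apply Finset.sum_congr rfl
      intro η hη
      have := pow_eq_zero_iff (two_ne_zero) |>.1 (h9 η hη)
      rw [show x η = y η by linarith]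
    rw [h10] at x1
    linarith
  · have h7 : ∑ η ∈ R, (x η + 3 * y η) ^ 2 = ∑ η ∈ R, x η ^ 2 + 6 * ∑ η ∈ R, x η * y η + 9 * ∑ η ∈ R, y η ^ 2 := by
      rw [Finset.mul_sum, Finset.mul_sum, ← Finset.sum_add_distrib, ← Finset.sum_add_distrib]
      apply Finset.sum_congr rfl
      intro η _
      ring
    simp only [de, dχ, d0, d1, ye, yχ, y0, yy1, xe, a1, a2, a3] at xx yy xy x1 y1
    have h8 : 0 ≤ ∑ η ∈ R, (x η + 3 * y η) ^ 2 := Finset.sum_nonneg (fun η _ => sq_nonneg _)
    rw [h7] at h8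
    linarith

section act
variable {G : Type u} [Group G] [Fintype G] {Ω : Type v} [MulAction G Ω]

theorem pow_odd_eq {v : G} {n : ℕ} (hn : Odd n) (hv : v ^ 4 = 1) : v ^ (n * n) = v := by
  obtain ⟨k, rfl⟩ := hn
  have : (2 * k + 1) * (2 * k + 1) = 4 * (k * k + k) + 1 := by ring
  rw [this, pow_add, pow_mul, hv, one_pow, one_mul, pow_one]

theorem fix_pow {g : G} {w : Ω} (h : g • w = w) (n : ℕ) : g ^ n • w = w := by
  induction n with
  | zero => simp
  | succ n ih => rw [pow_succ, mul_smul, h, ih]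

/-- if `g = z * u` with `z`, `u` commuting, `u` of odd order, `z ^ 4 = 1`, fixed points of `g` are fixed by `z` -/
theorem fix_part {z u : G} (hc : Commute z u) (hz : z ^ 4 = 1) (hu : Odd (orderOf u)) {w : Ω} (h : (z * u) • w = w) :
    z • w = w ∧ u • w = w := by
  have h1 : (z * u) ^ (orderOf u * orderOf u) = z := by
    rw [hc.mul_pow, pow_odd_eq hu hz, pow_mul u, pow_orderOf_eq_one, one_pow, mul_one]
  have h2 : z • w = w := by
    rw [← h1]; exact fix_pow h _
  refine ⟨h2, ?_⟩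
  have h3 : z • (u • w) = z • w := by rw [smul_smul, h, h2]
  exact (smul_left_cancel_iff z).1 h3

theorem odd_of_mem {U : Subgroup G} (hU : Odd (Nat.card U)) {u : G} (hu : u ∈ U) : Odd (orderOf u) := by
  have : orderOf u ∣ Nat.card U := Subgroup.orderOf_dvd_natCard U hu
  exact Odd.of_dvd_nat hU this

theorem orb_dvd (H : Subgroup G) (w : Ω) : (MulAction.orbit H w).ncard ∣ Nat.card H := by
  rw [← MulAction.index_stabilizer]
  exact Subgroup.index_dvd_card _

theorem ncard3 {α : Type*} (a b c : α) : ({a, b, c} : Set α).ncard ≤ 3 := by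
  have h1 := Set.ncard_insert_le a ({b, c} : Set α)
  have h2 := Set.ncard_insert_le b ({c} : Set α)
  rw [Set.ncard_singleton] at h2
  omega

/-- elements centralizing `t` are `p`-regular -/
theorem preg [Fintype Ω] {p : ℕ} (hB : Base G Ω p) {t : G} {a b c : Ω} (ft : ∀ w : Ω, t • w = w ↔ w = a ∨ w = b ∨ w = c)
    {g : G} (hg : g * t = t * g) : ¬ p ∣ orderOf g := by
  intro hp
  have hp5 := hB.h5
  have hgpos : 0 < orderOf g := orderOf_pos g
  have hdvd : orderOf g / p ∣ orderOf g := Nat.div_dvd_of_dvd hp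
  have hne : orderOf g / p ≠ 0 := by
    have := Nat.div_pos (Nat.le_of_dvd hgpos hp) hB.hp.pos
    omega
  set g' := g ^ (orderOf g / p) with hg'
  have ho : orderOf g' = p := by
    rw [hg', orderOf_pow_of_dvd hne hdvd, Nat.div_div_self hp hgpos.ne']
  have hcomm : Commute g' t := (show Commute g t from hg).pow_left _
  have hS : (MulAction.orbit (Subgroup.zpowers g') a) ⊆ ({a, b, c} : Set Ω) := by
    rintro w ⟨⟨x, hx⟩, rfl⟩
    obtain ⟨n, rfl⟩ := Subgroup.mem_zpowers_iff.1 hx
    have h1 : Commute (g' ^ n) t := hcomm.zpow_left n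
    have h2 : t • (g' ^ n • a) = g' ^ n • a := by
      rw [smul_smul, ← h1.eq, mul_smul, (ft a).2 (Or.inl rfl)]
    have h3 := (ft _).1 h2
    show (g' ^ n • a) ∈ _
    simpa using h3
  have h3 : (MulAction.orbit (Subgroup.zpowers g') a).ncard ≤ 3 :=
    (Set.ncard_le_ncard hS (Set.toFinite _)).trans (ncard3 a b c)
  have h4 := orb_dvd (Subgroup.zpowers g') a
  rw [Nat.card_zpowers, ho] at h4
  have h5 : (MulAction.orbit (Subgroup.zpowers g') a).ncard = 1 := by
    rcases (Nat.dvd_prime hB.hp).1 h4 with h | h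
    · exact h
    · omega
  obtain ⟨w, hw⟩ := Set.ncard_eq_one.1 h5
  have h6 : a = w := by
    have : a ∈ MulAction.orbit (Subgroup.zpowers g') a := MulAction.mem_orbit_self a
    rw [hw] at this
    exact this
  have h7 : g' • a = a := by
    have : g' • a ∈ MulAction.orbit (Subgroup.zpowers g') a := ⟨⟨g', Subgroup.mem_zpowers g'⟩, rfl⟩
    rw [hw, ← h6] at this
    exact this
  have h8 := hB.sing g' (by rw [ho])
  have h9 : Nat.card (MulAction.fixedBy Ω g') = 0 := h8
  rw [Nat.card_eq_zero] at h9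
  rcases h9 with h9 | h9
  · exact h9.elim ⟨a, h7⟩
  · exact (h9.not_finite (Set.toFinite _)).elim

open scoped Classical in
/-- the number of fixed points of `t u`, summed over `u` in `U` -/
theorem sum_fx [Finite Ω] {t : G} {a b c : Ω} (hab : a ≠ b) (hac : a ≠ c) (hbc : b ≠ c) (ht : t ^ 2 = 1)
    (ft : ∀ w : Ω, t • w = w ↔ w = a ∨ w = b ∨ w = c)
    {U : Subgroup G} (hodd : Odd (Nat.card U)) (hU : U ≤ Subgroup.centralizer ({t} : Set G)) :
    (∑ u ∈ Finset.univ.filter (fun g : G => g ∈ U), fx Ω (t * u) = 3 * Nat.card U) ∨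
    (∑ u ∈ Finset.univ.filter (fun g : G => g ∈ U), fx Ω (t * u) = Nat.card U) := by
  classical
  have hcom : ∀ u ∈ U, Commute t u := fun u hu => by
    have := Subgroup.mem_centralizer_singleton_iff.1 (hU hu)
    exact this.symm
  have ht4 : t ^ 4 = 1 := by rw [show 4 = 2 * 2 from rfl, pow_mul, ht, one_pow]
  have hperm : ∀ u ∈ U, ∀ w : Ω, (w = a ∨ w = b ∨ w = c) → (u • w = a ∨ u • w = b ∨ u • w = c) := by
    intro u hu w hw
    apply (ft _).1
    rw [smul_smul, (hcom u hu).eq, mul_smul, (ft w).2 hw]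
  have h1 : ∀ u ∈ U, fx Ω (t * u) = (if u • a = a then 1 else 0) + (if u • b = b then 1 else 0) + (if u • c = c then 1 else 0) := by
    intro u hu
    have h2 : MulAction.fixedBy Ω (t * u) = ((({a, b, c} : Finset Ω).filter (fun w => u • w = w) : Finset Ω) : Set Ω) := by
      ext w
      simp only [MulAction.mem_fixedBy, Finset.coe_filter, Finset.mem_insert, Finset.mem_singleton, Set.mem_setOf_eq]
      constructor
      · intro h
        have := fix_part (hcom u hu) ht4 (odd_of_mem hodd hu) h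
        exact ⟨(ft w).1 this.1, this.2⟩
      · rintro ⟨h3, h4⟩
        rw [mul_smul, h4, (ft w).2 h3]
    unfold fx
    rw [h2, Nat.card_coe_set_eq, Set.ncard_coe_finset, Finset.card_filter, Finset.sum_insert (by simp [hab, hac]),
      Finset.sum_pair hbc, add_assoc]
  have hst : ∀ w : Ω, ∑ u ∈ Finset.univ.filter (fun g : G => g ∈ U), (if u • w = w then 1 else 0) =
      Nat.card (MulAction.stabilizer U w) := by
    intro w
    rw [← Finset.card_filter, Finset.filter_filter]
    have : Nat.card (MulAction.stabilizer U w) = Nat.card {g : G // g ∈ U ∧ g • w = w} := by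
      apply Nat.card_congr
      exact {
        toFun := fun x => ⟨x.1.1, x.1.2, x.2⟩
        invFun := fun x => ⟨⟨x.1, x.2.1⟩, x.2.2⟩
        left_inv := fun x => rfl
        right_inv := fun x => rfl }
    rw [this, Nat.card_eq_fintype_card, Fintype.card_subtype]
  have hsum : ∑ u ∈ Finset.univ.filter (fun g : G => g ∈ U), fx Ω (t * u) =
      Nat.card (MulAction.stabilizer U a) + Nat.card (MulAction.stabilizer U b) + Nat.card (MulAction.stabilizer U c) := by
    rw [← hst, ← hst, ← hst, ← Finset.sum_add_distrib, ← Finset.sum_add_distrib]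
    apply Finset.sum_congr rfl
    intro u hu
    exact h1 u (by simpa using hu)
  have horb : ∀ w : Ω, (w = a ∨ w = b ∨ w = c) → MulAction.orbit U w ⊆ ({a, b, c} : Set Ω) := by
    rintro w hw z ⟨x, rfl⟩
    have := hperm x.1 x.2 w hw
    show (x.1 • w : Ω) ∈ ({a, b, c} : Set Ω)
    simp only [Set.mem_insert_iff, Set.mem_singleton_iff]
    exact this
  have horb1 : ∀ w : Ω, (w = a ∨ w = b ∨ w = c) → (MulAction.orbit U w).ncard = 1 ∨ (MulAction.orbit U w).ncard = 3 := by
    intro w hw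
    have h3 : (MulAction.orbit U w).ncard ≤ 3 :=
      (Set.ncard_le_ncard (horb w hw) (Set.toFinite _)).trans (ncard3 a b c)
    have h4 : Odd (MulAction.orbit U w).ncard := Odd.of_dvd_nat hodd (orb_dvd U w)
    obtain ⟨k, hk⟩ := h4
    omega
  have hmul : ∀ w : Ω, (MulAction.orbit U w).ncard * Nat.card (MulAction.stabilizer U w) = Nat.card U := by
    intro w
    rw [← MulAction.index_stabilizer, mul_comm]
    exact Subgroup.card_mul_index _
  have hcabc : ({a, b, c} : Set Ω).ncard = 3 := by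
    rw [Set.ncard_insert_of_notMem (by simp [hab, hac]), Set.ncard_pair hbc]
  by_cases h3 : ∃ w, (w = a ∨ w = b ∨ w = c) ∧ (MulAction.orbit U w).ncard = 3
  · obtain ⟨w, hw, hw3⟩ := h3
    have h4 : MulAction.orbit U w = ({a, b, c} : Set Ω) :=
      Set.eq_of_subset_of_ncard_le (horb w hw) (by rw [hcabc, hw3]) (Set.toFinite _)
    have h5 : ∀ z : Ω, (z = a ∨ z = b ∨ z = c) → MulAction.orbit U z = ({a, b, c} : Set Ω) := by
      intro z hz
      rw [← h4]
      have h6 : z ∈ MulAction.orbit U w := by rw [h4]; simpa using hz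
      exact MulAction.orbit_eq_iff.2 h6
    right
    have e1 := hmul a
    have e2 := hmul b
    have e3 := hmul c
    rw [h5 a (Or.inl rfl), hcabc] at e1
    rw [h5 b (Or.inr (Or.inl rfl)), hcabc] at e2
    rw [h5 c (Or.inr (Or.inr rfl)), hcabc] at e3
    rw [hsum]
    omega
  · have h5 : ∀ z : Ω, (z = a ∨ z = b ∨ z = c) → (MulAction.orbit U z).ncard = 1 := by
      intro z hz
      rcases horb1 z hz with h | h
      · exact h
      · exact (h3 ⟨z, hz, h⟩).elim
    left
    have e1 := hmul a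
    have e2 := hmul b
    have e3 := hmul c
    rw [h5 a (Or.inl rfl)] at e1
    rw [h5 b (Or.inr (Or.inl rfl))] at e2
    rw [h5 c (Or.inr (Or.inr rfl))] at e3
    rw [hsum]
    omega

end act

section main
variable {G : Type u} [Group G] [Fintype G] {Ω : Type v} [Fintype Ω] [MulAction G Ω] {p : ℕ}

open scoped Classical in
theorem finsum_sub (U : Subgroup G) (f : G → ℂ) :
    ∑ᶠ g ∈ (U : Set G), f g = ∑ g ∈ Finset.univ.filter (fun g : G => g ∈ U), f g := by
  have h : (U : Set G) = ((Finset.univ.filter (fun g : G => g ∈ U) : Finset G) : Set G) := by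
    ext x; simp
  rw [h, finsum_mem_coe_finset]

open scoped Classical in
theorem cardfil (U : Subgroup G) : (Finset.univ.filter (fun g : G => g ∈ U)).card = Nat.card U := by
  rw [← Fintype.card_subtype, ← Nat.card_eq_fintype_card]

/-- A2F -/
theorem A2F (hB : Base G Ω p) {χ : IrrCharacter G} (hχ : CharD G p 3 χ) (hpi : pi (G := G) Ω = 1 + (χ : G → ℂ))
    {T : Sylow 2 G} {t r s v : G} {a b c : Ω} (h : D8 G Ω T t r s v a b c) {U : Subgroup G}
    (hU : Cen G T t U) {x y : IrrCharacter G → ℤ} (hs : Sec G t v U x y) (hp8 : p % 8 = 5) : False := by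
  classical
  obtain ⟨Y, hYinj, hY⟩ := hχ.exc
  have hcU : (0 : ℕ) < Nat.card U := Nat.card_pos
  have hUc : ∀ u ∈ U, Commute t u := fun u hu => by
    have := Subgroup.mem_centralizer_singleton_iff.1 (hU.le hu)
    exact this.symm
  have ht2 : t ^ 2 = 1 := by rw [← h.ot]; exact pow_orderOf_eq_one t
  have hv4 : v ^ 4 = 1 := by rw [← h.ov]; exact pow_orderOf_eq_one v
  have hχv : ∀ g : G, (χ : G → ℂ) g = fx Ω g - 1 := by
    intro g
    have := congrFun hpi g
    have h1 : pi (G := G) Ω g = (fx Ω g : ℂ) := rfl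
    rw [h1, Pi.add_apply, Pi.one_apply] at this
    rw [this]; ring
  have hYv : ∀ i, ∀ g : G, g * t = t * g → (Y i : G → ℂ) g = fx Ω g - 2 := by
    intro i g hg
    rw [(hY i).2.2.2 g (preg hB h.ft hg), hχv]
    ring
  -- values of x
  have hxS : ∀ (η : IrrCharacter G) (k : ℂ), (∀ u ∈ U, (η : G → ℂ) (t * u) = fx Ω (t * u) - k) →
      (x η : ℂ) * Nat.card U = ((∑ u ∈ Finset.univ.filter (fun g : G => g ∈ U), fx Ω (t * u) : ℕ) : ℂ) - k * Nat.card U := by
    intro η k hk
    rw [← hs.hx η, finsum_sub, Finset.sum_congr rfl (fun u hu => hk u (by simpa using hu)), Finset.sum_sub_distrib,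
      Finset.sum_const, cardfil, Nat.cast_sum, nsmul_eq_mul, mul_comm k]
  have hxe : x (triv G) = 1 := by
    have h1 := hs.hx (triv G)
    rw [finsum_sub] at h1
    have h2 : ∀ g : G, ((triv G : IrrCharacter G) : G → ℂ) g = 1 := fun g => rfl
    simp only [h2] at h1
    rw [Finset.sum_const, cardfil, nsmul_eq_mul, mul_one] at h1
    have h3 : (Nat.card U : ℂ) ≠ 0 := by exact_mod_cast hcU.ne'
    have h4 : (x (triv G) : ℂ) = 1 := by
      apply mul_right_cancel₀ h3
      rw [← h1, one_mul]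
    exact_mod_cast h4
  have hcomm : ∀ u ∈ U, (t * u) * t = t * (t * u) := by
    intro u hu
    rw [mul_assoc, (hUc u hu).eq]
  have hxcase : (x χ = 2 ∧ ∀ i, x (Y i) = 1) ∨ (x χ = 0 ∧ ∀ i, x (Y i) = -1) := by
    have h1 := hxS χ 1 (fun u hu => hχv _)
    have h2 : ∀ i, _ := fun i => hxS (Y i) 2 (fun u hu => hYv i _ (hcomm u hu))
    have h3 : (Nat.card U : ℂ) ≠ 0 := by exact_mod_cast hcU.ne'
    rcases sum_fx h.ab h.ac h.bc ht2 h.ft hU.odd hU.le with h4 | h4
    · left
      rw [h4] at h1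
      refine ⟨?_, fun i => ?_⟩
      · have : (x χ : ℂ) = 2 := by
          apply mul_right_cancel₀ h3
          rw [h1]; push_cast; ring
        exact_mod_cast this
      · have h5 := h2 i
        rw [h4] at h5
        have : (x (Y i) : ℂ) = 1 := by
          apply mul_right_cancel₀ h3
          rw [h5]; push_cast; ring
        exact_mod_cast this
    · right
      rw [h4] at h1
      refine ⟨?_, fun i => ?_⟩
      · have : (x χ : ℂ) = 0 := by
          apply mul_right_cancel₀ h3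
          rw [h1]; push_cast; ring
        exact_mod_cast this
      · have h5 := h2 i
        rw [h4] at h5
        have : (x (Y i) : ℂ) = -1 := by
          apply mul_right_cancel₀ h3
          rw [h5]; push_cast; ring
        exact_mod_cast this
  -- values of y
  set W : Subgroup G := U ⊓ Subgroup.centralizer ({v} : Set G) with hW
  have hcW : (0 : ℕ) < Nat.card W := Nat.card_pos
  have hWU : ∀ w ∈ W, w ∈ U := fun w hw => hw.1
  have hWv : ∀ w ∈ W, Commute v w := fun w hw => by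
    have := Subgroup.mem_centralizer_singleton_iff.1 hw.2
    exact this.symm
  have hfxv : ∀ w ∈ W, fx Ω (v * w) = 1 := by
    intro w hw
    have h1 : MulAction.fixedBy Ω (v * w) = {a} := by
      ext z
      rw [MulAction.mem_fixedBy, Set.mem_singleton_iff]
      constructor
      · intro hz
        exact (h.fv z).1 (fix_part (hWv w hw) hv4 (odd_of_mem hU.odd (hWU w hw)) hz).1
      · rintro rfl
        have h2 : v • (w • z) = w • z := by
          rw [smul_smul, (hWv w hw).eq, mul_smul, (h.fv z).2 rfl]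
        have h3 := (h.fv _).1 h2
        rw [mul_smul, h3, (h.fv z).2 rfl]
    unfold fx
    rw [h1, Nat.card_coe_set_eq, Set.ncard_singleton]
  have hvt : v * t = t * v := by rw [← h.vv, mul_assoc]
  have hcommv : ∀ w ∈ W, (v * w) * t = t * (v * w) := by
    intro w hw
    rw [mul_assoc, ← (hUc w (hWU w hw)).eq, ← mul_assoc, hvt, mul_assoc]
  have hyS : ∀ (η : IrrCharacter G) (k : ℤ), (∀ w ∈ W, (η : G → ℂ) (v * w) = k) → y η = k := by
    intro η k hk
    have h1 := hs.hy η
    rw [← hW, finsum_sub, Finset.sum_congr rfl (fun u hu => hk u (by simpa using hu)), Finset.sum_const, cardfil,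
      nsmul_eq_mul] at h1
    have h3 : (Nat.card W : ℂ) ≠ 0 := by exact_mod_cast hcW.ne'
    have : (y η : ℂ) = k := by
      apply mul_right_cancel₀ h3
      rw [← h1, mul_comm]
    exact_mod_cast this
  have hye : y (triv G) = 1 := hyS _ 1 (fun w hw => by
    have h2 : ∀ g : G, ((triv G : IrrCharacter G) : G → ℂ) g = 1 := fun g => rfl
    rw [h2]; norm_num)
  have hyχ : y χ = 0 := hyS _ 0 (fun w hw => by rw [hχv, hfxv w hw]; norm_num)
  have hyY : ∀ i, y (Y i) = -1 := fun i => hyS _ (-1) (fun w hw => by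
    rw [hYv i _ (hcommv w hw), hfxv w hw]; norm_num)
  -- p = 5
  have hp5 : p = 5 := by
    have h1 : ∑ η ∈ insert (triv G) (Finset.univ.image Y), y η ^ 2 ≤ ∑ η, y η ^ 2 :=
      Finset.sum_le_sum_of_subset_of_nonneg (Finset.subset_univ _) (fun η _ _ => sq_nonneg _)
    rw [hs.yy, Finset.sum_insert (by
      intro hmem
      obtain ⟨i, _, hi⟩ := Finset.mem_image.1 hmem
      exact (hY i).1 hi), Finset.sum_image (fun i _ j _ hij => hYinj hij), hye] at h1
    simp only [hyY] at h1
    rw [Finset.sum_const, Finset.card_univ, Fintype.card_fin] at h1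
    have h2 : (((p - 1) / 2 : ℕ) : ℤ) ≤ 3 := by
      have : ((p - 1) / 2) • ((-1 : ℤ) ^ 2) = (((p - 1) / 2 : ℕ) : ℤ) := by simp
      rw [this] at h1
      linarith
    omega
  subst hp5
  have hd : ∀ η : IrrCharacter G, True := fun _ => trivial
  refine a2f_end x y (fun η => (charDegree (η : G → ℂ) : ℤ)) (triv G) χ (Y 0) (Y 1) hχ.ne.symm (hY 0).1.symm (hY 1).1.symm
    (hY 0).2.1.symm (hY 1).2.1.symm (fun h01 => ?_) hs.xx hs.yy hs.xy hs.x1 hs.y1 ?_ ?_ ?_ ?_ hye hyχ (hyY 0) (hyY 1) hxe ?_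
  · have := hYinj h01
    exact absurd this (by decide)
  · show ((charDegree ((triv G : IrrCharacter G) : G → ℂ) : ℕ) : ℤ) = 1
    rw [deg_triv]; rfl
  · have := hχ.deg
    push_cast at this
    show ((charDegree (χ : G → ℂ) : ℕ) : ℤ) = 14
    linarith
  · have := (hY 0).2.2.1
    push_cast at this
    show ((charDegree (Y 0 : G → ℂ) : ℕ) : ℤ) = 13
    linarith
  · have := (hY 1).2.2.1
    push_cast at this
    show ((charDegree (Y 1 : G → ℂ) : ℕ) : ℤ) = 13
    linarith
  · rcases hxcase with ⟨h1, h2⟩ | ⟨h1, h2⟩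
    · exact Or.inl ⟨h1, h2 0, h2 1⟩
    · exact Or.inr ⟨h1, h2 0, h2 1⟩

end main

end Cfsg.Agent.Lib.H52_A2Fc
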