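import Mathlib
set_option autoImplicit false
set_option linter.all false

/-! Elementary part of A2T (helper79) -/

namespace Cfsg.Agent.Lib.H52_A2Tcore

universe u v

theorem pow_le {x y A B : ℕ} (h : 2 ^ x * A = 2 ^ y * B) (hB : Odd B) : x ≤ y := by
  have h1 : 2 ^ x ∣ 2 ^ y * B := Dvd.intro _ h
  have h3 : Nat.Coprime (2 ^ x) B := Nat.Coprime.pow_left _ (Nat.coprime_two_left.mpr hB)
  have h4 := h3.dvd_of_dvd_mul_right h1
  exact (Nat.pow_dvd_pow_iff_le_right (by norm_num)).mp h4

theorem pow_eq {x y A B : ℕ} (h : 2 ^ x * A = 2 ^ y * B) (hA : Odd A) (hB : Odd B) : x = y :=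
  le_antisymm (pow_le h hB) (pow_le h.symm hA)

theorem numA {p a g c e m : ℕ} (hp4 : p % 4 = 1) (hpm : p - 1 = 2 ^ e * m) (hm : Odd m) (hg : Odd g) (hc : Odd c)
    (h : (2 ^ a * g) * (9 * (p - 1) ^ 2) = p * (2 ^ a * c) ^ 2 * (3 * p - 1) * (3 * p - 2)) : 2 * e = a + 1 := by
  obtain ⟨k, rfl⟩ : ∃ k, p = 4 * k + 1 := ⟨p / 4, by omega⟩
  have e1 : 3 * (4 * k + 1) - 1 = 2 * (6 * k + 1) := by omega
  have e2 : 3 * (4 * k + 1) - 2 = 12 * k + 1 := by omega
  rw [e1, e2, hpm] at h
  have h1 : 2 ^ (a + 2 * e) * (9 * g * m ^ 2) = 2 ^ (2 * a + 1) * ((4 * k + 1) * c ^ 2 * (6 * k + 1) * (12 * k + 1)) := by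
    calc 2 ^ (a + 2 * e) * (9 * g * m ^ 2) = (2 ^ a * g) * (9 * (2 ^ e * m) ^ 2) := by ring
      _ = _ := by rw [h]; ring
  have h2 := pow_eq h1 (by
    exact (Odd.mul (Odd.mul (by decide) hg) (hm.pow))) (by
    refine Odd.mul (Odd.mul (Odd.mul ?_ hc.pow) ?_) ?_
    · exact ⟨2 * k, by ring⟩
    · exact ⟨3 * k, by ring⟩
    · exact ⟨6 * k, by ring⟩)
  omega

theorem orb_sum {E : Type u} {Ω : Type v} [Group E] [MulAction E Ω] [Finite Ω] [Finite E] (S : Finset Ω)
    (hS : ∀ s ∈ S, ∀ e : E, e • s = s) (d : ℕ)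
    (hd : ∀ w, w ∉ S → d ∣ Nat.card (MulAction.orbit E w)) : ∃ k, Nat.card Ω = S.card + d * k := by
  classical
  haveI := Fintype.ofFinite Ω
  haveI : Fintype (MulAction.orbitRel.Quotient E Ω) := Fintype.ofFinite _
  have h1 : Nat.card Ω = ∑ ω : MulAction.orbitRel.Quotient E Ω, Nat.card (MulAction.orbit E (Quotient.out ω)) := by
    rw [Nat.card_congr (MulAction.selfEquivSigmaOrbits E Ω), Nat.card_sigma]
  let q : Ω → MulAction.orbitRel.Quotient E Ω := Quotient.mk _
  have hq : ∀ s ∈ S, ∀ w : Ω, q w = q s → w = s := by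
    intro s hs w h
    have h2 : (MulAction.orbitRel E Ω) w s := Quotient.exact h
    rw [MulAction.orbitRel_apply] at h2
    obtain ⟨e, he⟩ := h2
    rw [← he]
    exact hS s hs e
  have hout : ∀ s ∈ S, Quotient.out (q s) = s := by
    intro s hs
    apply hq s hs
    exact Quotient.out_eq _
  have hinj : Set.InjOn q (S : Set Ω) := by
    intro s hs t ht h
    exact hq t ht s h
  have h2 : ∑ ω ∈ S.image q, Nat.card (MulAction.orbit E (Quotient.out ω)) = S.card := by
    rw [Finset.sum_image hinj]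
    have : ∀ s ∈ S, Nat.card (MulAction.orbit E (Quotient.out (q s))) = 1 := by
      intro s hs
      rw [hout s hs]
      have h3 : MulAction.orbit E s = {s} := by
        ext w
        constructor
        · rintro ⟨e, he⟩
          rw [Set.mem_singleton_iff, ← he]
          exact hS s hs e
        · intro h
          rw [Set.mem_singleton_iff] at h
          rw [h]
          exact MulAction.mem_orbit_self s
      rw [h3]
      simp
    rw [Finset.sum_congr rfl this]
    simp
  have h3 : d ∣ ∑ ω ∈ (S.image q)ᶜ, Nat.card (MulAction.orbit E (Quotient.out ω)) := by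
    apply Finset.dvd_sum
    intro ω hω
    apply hd
    intro h4
    rw [Finset.mem_compl] at hω
    apply hω
    rw [Finset.mem_image]
    exact ⟨_, h4, Quotient.out_eq _⟩
  obtain ⟨k, hk⟩ := h3
  refine ⟨k, ?_⟩
  rw [h1, ← Finset.sum_add_sum_compl (S.image q), h2, hk]

theorem card_orb {E : Type u} {Ω : Type v} [Group E] [MulAction E Ω] (w : Ω) :
    Nat.card (MulAction.orbit E w) = (MulAction.stabilizer E w).index := (MulAction.index_stabilizer E w).symm

theorem core {G : Type u} [Group G] [Finite G] {Ω : Type v} [Finite Ω] [MulAction G Ω] {p : ℕ}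
    (hp : p.Prime) (h5 : 5 ≤ p) (hcard : Nat.card Ω = 3 * p) (hp4 : p % 4 = 1) (hinv : ∃ t : G, orderOf t = 2)
    (h2 : MulAction.IsMultiplyPretransitive G Ω 2)
    (h3 : ∀ t : G, orderOf t = 2 → Nat.card (MulAction.fixedBy Ω t) = 3)
    (hE : ∀ t : G, orderOf t = 2 → Nat.card G * (9 * (p - 1) ^ 2) =
      p * Nat.card (Subgroup.centralizer ({t} : Set G)) ^ 2 * (3 * p - 1) * (3 * p - 2)) :
    p % 8 = 5 ∧ ∃ T : Sylow 2 G, Nat.card T = 8 ∧ ∃ a b c : Ω, a ≠ b ∧ a ≠ c ∧ b ≠ c ∧
      (∀ x ∈ (T : Subgroup G), x • a = a) ∧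
      (∀ x ∈ (T : Subgroup G), x • b = b ∨ x • b = c) ∧ ∃ x ∈ (T : Subgroup G), x • b = c := by
  classical
  haveI : Fact (Nat.Prime 2) := ⟨Nat.prime_two⟩
  obtain ⟨T⟩ : Nonempty (Sylow 2 G) := inferInstance
  obtain ⟨n, hn⟩ := T.2.exists_card_eq
  have hn' : Nat.card (T : Subgroup G) = 2 ^ n := hn
  have hidx : ¬ 2 ∣ (T : Subgroup G).index := T.not_dvd_index
  have hG : Nat.card G = 2 ^ n * (T : Subgroup G).index := by
    rw [← hn', Subgroup.card_mul_index]
  have hodd : Odd (T : Subgroup G).index := by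
    rw [Nat.odd_iff]; omega
  -- T is nontrivial
  have hn0 : n ≠ 0 := by
    rintro rfl
    obtain ⟨t, ht⟩ := hinv
    have h1 : 2 ∣ Nat.card G := ht ▸ orderOf_dvd_natCard t
    rw [hG, pow_zero, one_mul] at h1
    exact hidx h1
  -- a central involution
  have hz : ∃ z : G, orderOf z = 2 ∧ (T : Subgroup G) ≤ Subgroup.centralizer {z} := by
    haveI : Nontrivial (T : Subgroup G) := by
      rw [← Finite.one_lt_card_iff_nontrivial, hn']
      exact Nat.one_lt_two_pow hn0
    haveI : Nontrivial (Subgroup.center (T : Subgroup G)) := T.2.center_nontrivial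
    have h1 : 2 ∣ Nat.card (Subgroup.center (T : Subgroup G)) := by
      have h4 : Nat.card (Subgroup.center (T : Subgroup G)) ∣ 2 ^ n := hn' ▸ Subgroup.card_subgroup_dvd_card _
      obtain ⟨j, hj, hj2⟩ := (Nat.dvd_prime_pow Nat.prime_two).mp h4
      have h5 : 1 < Nat.card (Subgroup.center (T : Subgroup G)) := Finite.one_lt_card_iff_nontrivial.mpr inferInstance
      rw [hj2] at h5 ⊢
      have : j ≠ 0 := by rintro rfl; simp at h5
      exact dvd_pow_self 2 this
    obtain ⟨z, hz⟩ := exists_prime_orderOf_dvd_card' 2 h1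
    refine ⟨((z : (T : Subgroup G)) : G), ?_, ?_⟩
    · rw [Subgroup.orderOf_coe, Subgroup.orderOf_coe, hz]
    · intro x hx
      rw [Subgroup.mem_centralizer_iff]
      intro y hy
      rw [Set.mem_singleton_iff] at hy
      subst hy
      have h4 := Subgroup.mem_center_iff.mp z.2 ⟨x, hx⟩
      exact (congrArg Subtype.val h4).symm
  obtain ⟨z, hz2, hTz⟩ := hz
  have hC : ∃ c, Nat.card (Subgroup.centralizer ({z} : Set G)) = 2 ^ n * c ∧ Odd c := by
    have h4 : 2 ^ n ∣ Nat.card (Subgroup.centralizer ({z} : Set G)) := hn' ▸ Subgroup.card_dvd_of_le hTz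
    obtain ⟨c, hc⟩ := h4
    refine ⟨c, hc, ?_⟩
    obtain ⟨k, hk⟩ := Subgroup.card_subgroup_dvd_card (Subgroup.centralizer ({z} : Set G))
    rw [hG, hc, mul_assoc] at hk
    have h6 : (T : Subgroup G).index = c * k := Nat.eq_of_mul_eq_mul_left (by positivity) hk
    rw [h6] at hodd
    exact (Nat.odd_mul.mp hodd).1
  obtain ⟨c', hc', hc'o⟩ := hC
  obtain ⟨e, m, hm, hpm⟩ : ∃ e m, Odd m ∧ p - 1 = 2 ^ e * m := by
    obtain ⟨e, m, hm, h⟩ := Nat.exists_eq_two_pow_mul_odd (show p - 1 ≠ 0 by omega)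
    exact ⟨e, m, hm, h⟩
  have hEz := hE z hz2
  rw [hG, hc'] at hEz
  have hna := numA hp4 hpm hm hodd hc'o hEz
  -- the fixed point
  have hfix : ∃ a : Ω, ∀ x ∈ (T : Subgroup G), x • a = a := by
    have h4 : (MulAction.fixedPoints (T : Subgroup G) Ω).Nonempty := by
      apply IsPGroup.nonempty_fixed_point_of_prime_not_dvd_card T.2
      rw [hcard]
      omega
    obtain ⟨a, ha⟩ := h4
    exact ⟨a, fun x hx => ha ⟨x, hx⟩⟩
  obtain ⟨a, ha⟩ := hfix
  have huniq : ∀ w : Ω, (∀ x ∈ (T : Subgroup G), x • w = w) → w = a := by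
    intro w hw
    by_contra hne
    let f : Fin 2 ↪ Ω := ⟨![w, a], by
      intro i j hij
      fin_cases i <;> fin_cases j
      · rfl
      · exact absurd hij hne
      · exact absurd hij.symm hne
      · rfl⟩
    haveI : MulAction.IsPretransitive G (Fin 2 ↪ Ω) := h2
    have h4 : (MulAction.stabilizer G f).index = Nat.card (Fin 2 ↪ Ω) :=
      MulAction.index_stabilizer_of_transitive G f
    have h5 : (T : Subgroup G) ≤ MulAction.stabilizer G f := by
      intro x hx
      rw [MulAction.mem_stabilizer_iff]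
      ext i
      fin_cases i
      · exact hw x hx
      · exact ha x hx
    have h6 := Subgroup.index_dvd_of_le h5
    rw [h4] at h6
    apply hidx
    refine dvd_trans ?_ h6
    haveI := Fintype.ofFinite Ω
    rw [Nat.card_eq_fintype_card, Fintype.card_embedding_eq, Fintype.card_fin, ← Nat.card_eq_fintype_card, hcard]
    obtain ⟨k, rfl⟩ : ∃ k, p = 4 * k + 1 := ⟨p / 4, by omega⟩
    have e1 : (3 * (4 * k + 1)).descFactorial 2 = 2 * ((6 * k + 1) * (3 * (4 * k + 1))) := by
      have : 3 * (4 * k + 1) = (12 * k + 2) + 1 := by ring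
      rw [this, Nat.succ_descFactorial_succ]
      simp [Nat.descFactorial]
      ring
    rw [e1]
    exact dvd_mul_right _ _
  -- orbit of length two
  have horb : ∃ b : Ω, Nat.card (MulAction.orbit (T : Subgroup G) b) = 2 := by
    by_contra hcon
    push Not at hcon
    obtain ⟨k, hk⟩ := orb_sum (E := (T : Subgroup G)) (Ω := Ω) {a} (by
      intro s hs x
      rw [Finset.mem_singleton] at hs
      subst hs
      exact ha x x.2) 4 (by
      intro w hw
      rw [Finset.mem_singleton] at hw
      have h4 : Nat.card (MulAction.orbit (T : Subgroup G) w) ∣ 2 ^ n := by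
        rw [← hn', card_orb]
        exact Subgroup.index_dvd_card _
      obtain ⟨j, hj, hj2⟩ := (Nat.dvd_prime_pow Nat.prime_two).mp h4
      have hj1 : j ≠ 1 := by
        rintro rfl
        exact hcon w (by rw [hj2]; norm_num)
      have hj0 : j ≠ 0 := by
        rintro rfl
        rw [pow_zero] at hj2
        apply hw
        apply huniq
        intro x hx
        have h6 : Subsingleton (MulAction.orbit (T : Subgroup G) w) := (Nat.card_eq_one_iff_unique.mp hj2).1
        have h7 : (⟨(⟨x, hx⟩ : (T : Subgroup G)) • w, MulAction.mem_orbit _ _⟩ : MulAction.orbit (T : Subgroup G) w) =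
          ⟨w, MulAction.mem_orbit_self w⟩ := Subsingleton.elim _ _
        exact congrArg Subtype.val h7
      rw [hj2, show (4 : ℕ) = 2 ^ 2 by norm_num]
      exact pow_dvd_pow 2 (by omega))
    rw [hcard, Finset.card_singleton] at hk
    omega
  obtain ⟨b, hb⟩ := horb
  have hbn : (MulAction.orbit (T : Subgroup G) b).ncard = 2 := hb
  obtain ⟨c, hc, hcb⟩ : ∃ c ∈ MulAction.orbit (T : Subgroup G) b, c ≠ b := by
    apply Set.exists_ne_of_one_lt_ncard
    omega
  have horb : ∀ w ∈ MulAction.orbit (T : Subgroup G) b, w = b ∨ w = c := by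
    have h4 : ({b, c} : Set Ω) = MulAction.orbit (T : Subgroup G) b := by
      refine Set.eq_of_subset_of_ncard_le ?_ ?_ (Set.toFinite _)
      · intro w hw
        rcases hw with rfl | hw
        · exact MulAction.mem_orbit_self _
        · rw [Set.mem_singleton_iff] at hw; rw [hw]; exact hc
      · rw [hbn, Set.ncard_pair (Ne.symm hcb)]
    intro w hw
    rw [← h4] at hw
    simpa using hw
  have hbT : ∀ x ∈ (T : Subgroup G), x • b = b ∨ x • b = c := fun x hx => horb _ ⟨⟨x, hx⟩, rfl⟩
  obtain ⟨x0, hx0⟩ := hc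
  have hx0' : ((x0 : (T : Subgroup G)) : G) • b = c := hx0
  have hab : a ≠ b := by
    rintro rfl
    apply hcb
    rw [← hx0']
    exact ha x0 x0.2
  have hac : a ≠ c := by
    intro h
    apply hab
    have h4 : (x0 : G) • a = (x0 : G) • b := by rw [ha x0 x0.2, hx0', h]
    exact smul_left_cancel _ h4
  -- the stabilizer
  let E : Subgroup (T : Subgroup G) := MulAction.stabilizer (T : Subgroup G) b
  have hEc : 2 * Nat.card E = 2 ^ n := by
    rw [← hn', ← Subgroup.card_mul_index E, ← card_orb, hb, mul_comm]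
  have hEb : ∀ x : E, ((x : (T : Subgroup G)) : G) • b = b := fun x => x.2
  have hEcc : ∀ x : E, ((x : (T : Subgroup G)) : G) • c = c := by
    intro x
    have h4 : ((x : (T : Subgroup G)) : G) • c ∈ MulAction.orbit (T : Subgroup G) b := by
      rw [← hx0']
      exact ⟨(x : (T : Subgroup G)) * x0, by
        show (((x : (T : Subgroup G)) * x0 : (T : Subgroup G)) : G) • b = _
        rw [Subgroup.coe_mul, mul_smul]⟩
    rcases horb _ h4 with h6 | h6
    · exfalso
      apply hcb
      rw [← hEb x] at h6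
      exact smul_left_cancel _ h6
    · exact h6
  have hsemi : ∀ w : Ω, w ≠ a → w ≠ b → w ≠ c → Nat.card (MulAction.orbit E w) = Nat.card E := by
    intro w hwa hwb hwc
    have h4 : Nat.card (MulAction.stabilizer E w) = 1 := by
      by_contra hne
      have h6 : Nat.card (MulAction.stabilizer E w) ∣ 2 ^ n := by
        refine dvd_trans (Subgroup.card_subgroup_dvd_card _) ?_
        rw [← hn']
        exact Subgroup.card_subgroup_dvd_card _
      obtain ⟨j, hj, hj2⟩ := (Nat.dvd_prime_pow Nat.prime_two).mp h6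
      have h7 : 2 ∣ Nat.card (MulAction.stabilizer E w) := by
        rw [hj2] at hne ⊢
        exact dvd_pow_self 2 (by rintro rfl; exact hne (by norm_num))
      obtain ⟨y, hy⟩ := exists_prime_orderOf_dvd_card' 2 h7
      have hyo : orderOf ((((y : E) : (T : Subgroup G))) : G) = 2 := by
        rw [Subgroup.orderOf_coe, Subgroup.orderOf_coe, Subgroup.orderOf_coe, hy]
      have h8 := h3 _ hyo
      have h9 : (MulAction.fixedBy Ω (((y : E) : (T : Subgroup G)) : G)).ncard = 3 := h8
      have h10 : ({a, b, c, w} : Set Ω) ⊆ MulAction.fixedBy Ω (((y : E) : (T : Subgroup G)) : G) := by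
        intro v hv
        rw [MulAction.mem_fixedBy]
        simp only [Set.mem_insert_iff, Set.mem_singleton_iff] at hv
        rcases hv with rfl | rfl | rfl | rfl
        · exact ha _ (SetLike.coe_mem _)
        · exact hEb _
        · exact hEcc _
        · exact y.2
      have h11 := Set.ncard_le_ncard h10 (Set.toFinite _)
      have h12 : ({a, b, c, w} : Set Ω).ncard = 4 := by
        rw [Set.ncard_eq_toFinset_card']
        simp [hab, hac, Ne.symm hcb, Ne.symm hwa, Ne.symm hwb, Ne.symm hwc]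
      omega
    rw [card_orb]
    have h6 := Subgroup.card_mul_index (MulAction.stabilizer E w)
    rw [h4, one_mul] at h6
    exact h6
  obtain ⟨k, hk⟩ := orb_sum (E := E) (Ω := Ω) {a, b, c} (by
      intro s hs x
      simp only [Finset.mem_insert, Finset.mem_singleton] at hs
      rcases hs with rfl | rfl | rfl
      · exact ha _ (SetLike.coe_mem _)
      · exact hEb x
      · exact hEcc x) (Nat.card E) (by
      intro w hw
      simp only [Finset.mem_insert, Finset.mem_singleton, not_or] at hw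
      rw [hsemi w hw.1 hw.2.1 hw.2.2])
  have hS3 : ({a, b, c} : Finset Ω).card = 3 := by
    rw [Finset.card_eq_three]
    exact ⟨a, b, c, hab, hac, Ne.symm hcb, rfl⟩
  rw [hcard, hS3] at hk
  -- numerics
  have hE2 : Nat.card E = 2 ^ (n - 1) := by
    have : 2 ^ n = 2 * 2 ^ (n - 1) := by
      rw [← pow_succ']; congr 1; omega
    omega
  have he2 : e ≤ 2 := by
    have h4 : 2 ^ (n - 1) * k = 2 ^ e * (3 * m) := by
      have h6 : 2 ^ (n - 1) * k = 3 * (p - 1) := by
        rw [hE2] at hk
        omega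
      rw [h6, hpm]; ring
    have h6 := pow_le h4 (Odd.mul (by decide) hm)
    omega
  have he : e = 2 := by
    have h4 : 2 ≤ e := by
      by_contra hlt
      have h6 : e = 0 ∨ e = 1 := by omega
      obtain ⟨i, hi⟩ := hm
      rcases h6 with rfl | rfl
      · omega
      · omega
    omega
  subst he
  have hn3 : n = 3 := by omega
  refine ⟨?_, T, ?_, a, b, c, hab, hac, Ne.symm hcb, ha, hbT, x0, x0.2, hx0'⟩
  · obtain ⟨i, hi⟩ := hm
    omega
  · rw [hn, hn3]; norm_num

end Cfsg.Agent.Lib.H52_A2Tcore
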