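import Mathlib

/-! S3254, BCOUNT [*2]: counting in the centralizer of an involution (helper1) -/

set_option autoImplicit false
set_option linter.all false

namespace Cfsg.Agent.Lib.H52_BC2a

open scoped Classical

universe u

variable {G : Type u} [Group G]

/-- involutions of the coset `z U` -/
theorem card_invol_coset [Finite G] {U : Subgroup G} (hodd : Odd (Nat.card U)) {z : G} (hz : z * z = 1)
    (hn : ∀ u ∈ U, z * u * z⁻¹ ∈ U) :
    Nat.card {u : U // z * (u : G) * (z * u) = 1} *
      Nat.card (U ⊓ Subgroup.centralizer ({z} : Set G) : Subgroup G) = Nat.card U := by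
  have hzi : z⁻¹ = z := inv_eq_of_mul_eq_one_left hz
  have key : ∀ u : {u : U // z * (u : G) * (z * u) = 1}, ∃ w : U, z * ((u : U) : G) = (w : G)⁻¹ * z * w := by
    rintro ⟨⟨u, hu⟩, h⟩
    simp only at h
    obtain ⟨k, hk⟩ := hodd
    have hu1 : u ^ (2 * k + 1) = 1 := by
      rw [← hk]
      have h9 : (⟨u, hu⟩ : U) ^ Nat.card U = 1 := pow_card_eq_one'
      have h10 := congrArg Subtype.val h9
      exact h10
    refine ⟨⟨u ^ (k + 1), U.pow_mem hu _⟩, ?_⟩
    simp only
    have hinv : z * u * z⁻¹ = u⁻¹ := by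
      rw [hzi]
      have : z * u * z * u = 1 := by rw [← h]; group
      exact eq_inv_of_mul_eq_one_left this
    have h2 : z * u ^ (k + 1) * z⁻¹ = (u ^ (k + 1))⁻¹ := by
      rw [← inv_pow, ← hinv, conj_pow]
    have h3 : (u ^ (k + 1))⁻¹ * z = z * u ^ (k + 1) := by
      rw [← h2]; group
    rw [h3, mul_assoc, ← pow_add]
    have : u ^ (k + 1 + (k + 1)) = u := by
      rw [show k + 1 + (k + 1) = (2 * k + 1) + 1 by ring, pow_succ, hu1, one_mul]
    rw [this]
  choose w hw using key
  rw [← Nat.card_prod]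
  apply Nat.card_congr
  refine Equiv.ofBijective (fun q => ⟨(q.2 : G) * (w q.1 : G), U.mul_mem q.2.2.1 (w q.1).2⟩) ⟨?_, ?_⟩
  · rintro ⟨a, c⟩ ⟨a', c'⟩ h
    have h' : (c : G) * (w a : G) = (c' : G) * (w a' : G) := congrArg Subtype.val h
    have hc : (c : G) * z = z * (c : G) := Subgroup.mem_centralizer_singleton_iff.mp c.2.2
    have hc' : (c' : G) * z = z * (c' : G) := Subgroup.mem_centralizer_singleton_iff.mp c'.2.2
    have e : ∀ (a : {u : U // z * (u : G) * (z * u) = 1})
        (c : (U ⊓ Subgroup.centralizer ({z} : Set G) : Subgroup G)) (hc : (c : G) * z = z * (c : G)),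
        ((c : G) * (w a : G))⁻¹ * z * ((c : G) * (w a : G)) = z * ((a : U) : G) := by
      intro a c hc
      rw [hw a]
      have : (c : G)⁻¹ * z * (c : G) = z := by rw [mul_assoc, ← hc]; group
      calc ((c : G) * (w a : G))⁻¹ * z * ((c : G) * (w a : G)) = (w a : G)⁻¹ * ((c : G)⁻¹ * z * (c : G)) * w a := by group
        _ = _ := by rw [this]
    have e1 := e a c hc
    have e2 := e a' c' hc'
    rw [h', e2] at e1
    have e3 : ((a' : U) : G) = ((a : U) : G) := mul_left_cancel e1
    have e4 : a = a' := Subtype.ext (Subtype.ext e3.symm)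
    subst e4
    have e5 : (c : G) = c' := mul_right_cancel h'
    have e6 : c = c' := Subtype.ext e5
    rw [e6]
  · rintro ⟨b, hb⟩
    have hu : z⁻¹ * (b⁻¹ * z * b) ∈ U := by
      have h1 := hn b⁻¹ (U.inv_mem hb)
      have : z⁻¹ * (b⁻¹ * z * b) = (z * b⁻¹ * z⁻¹) * b := by
        rw [hzi]; group
      rw [this]
      exact U.mul_mem h1 hb
    have hu2 : z * (z⁻¹ * (b⁻¹ * z * b)) * (z * (z⁻¹ * (b⁻¹ * z * b))) = 1 := by
      calc z * (z⁻¹ * (b⁻¹ * z * b)) * (z * (z⁻¹ * (b⁻¹ * z * b))) = b⁻¹ * (z * z) * b := by group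
        _ = 1 := by rw [hz]; group
    set a : {u : U // z * (u : G) * (z * u) = 1} := ⟨⟨_, hu⟩, hu2⟩ with ha
    have hwa := hw a
    have haa : ((a : U) : G) = z⁻¹ * (b⁻¹ * z * b) := rfl
    have hc : b * (w a : G)⁻¹ ∈ (U ⊓ Subgroup.centralizer ({z} : Set G) : Subgroup G) := by
      refine ⟨U.mul_mem hb (U.inv_mem (w a).2), ?_⟩
      apply Subgroup.mem_centralizer_singleton_iff.mpr
      have e1 : (w a : G)⁻¹ * z * w a = b⁻¹ * z * b := by
        rw [← hwa, haa]; group
      calc b * (w a : G)⁻¹ * z = b * ((w a : G)⁻¹ * z * w a) * (w a : G)⁻¹ := by group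
        _ = b * (b⁻¹ * z * b) * (w a : G)⁻¹ := by rw [e1]
        _ = z * (b * (w a : G)⁻¹) := by group
    refine ⟨⟨a, ⟨_, hc⟩⟩, ?_⟩
    apply Subtype.ext
    show b * (w a : G)⁻¹ * (w a : G) = b
    group

theorem order_two_iff {x : G} : orderOf x = 2 ↔ x * x = 1 ∧ x ≠ 1 := by
  rw [orderOf_eq_prime_iff, pow_two]

theorem count [Fintype G] {C U T : Subgroup G} (hodd : Odd (Nat.card U)) (hTC : T ≤ C) (hUC : U ≤ C)
    (hcard : Nat.card C = Nat.card T * Nat.card U) (hTU : T ⊓ U = ⊥)
    (hn : ∀ x ∈ C, ∀ y ∈ U, x * y * x⁻¹ ∈ U) {t : G} (htT : t ∈ T) (ht : orderOf t = 2)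
    (htC : ∀ x ∈ C, t * x = x * t) :
    (∑ u : U, (Finset.univ.filter fun w : C => orderOf (w : G) = 2 ∧ orderOf ((w : G)⁻¹ * (t * u)) = 2).card) =
      ∑ z : T, if ((z : G) * z = 1 ∧ (z : G) ≠ 1 ∧ (z : G) ≠ t) then
        Nat.card {a : U // (z : G) * (a : G) * (z * a) = 1} ^ 2 else 0 := by
  obtain ⟨htt, ht1⟩ := order_two_iff.mp ht
  have hinf : ∀ x : G, x ∈ T → x ∈ U → x = 1 := by
    intro x h1 h2
    have : x ∈ T ⊓ U := ⟨h1, h2⟩
    rw [hTU] at this
    exact Subgroup.mem_bot.mp this
  -- odd order: `a * a = 1 → a = 1`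
  have hU2 : ∀ a ∈ U, a * a = 1 → a = 1 := by
    intro a ha h
    by_contra hne
    have h2 : orderOf a = 2 := order_two_iff.mpr ⟨h, hne⟩
    have h3 : orderOf a ∣ Nat.card U := Subgroup.orderOf_dvd_natCard U ha
    rw [h2] at h3
    exact (Nat.not_even_iff_odd.mpr hodd) (even_iff_two_dvd.mpr h3)
  have hbij : Function.Bijective (fun q : T × U => (⟨(q.1 : G) * (q.2 : G), C.mul_mem (hTC q.1.2) (hUC q.2.2)⟩ : C)) := by
    apply Function.Injective.bijective_of_nat_card_le
    · rintro ⟨z, a⟩ ⟨z', a'⟩ h
      have h' : (z : G) * (a : G) = (z' : G) * (a' : G) := congrArg Subtype.val h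
      have e1 : (z' : G)⁻¹ * z = a' * (a : G)⁻¹ := by
        rw [inv_mul_eq_iff_eq_mul, ← mul_assoc, eq_mul_inv_iff_mul_eq]
        exact h'
      have e2 : (z' : G)⁻¹ * z = 1 := by
        apply hinf
        · exact T.mul_mem (T.inv_mem z'.2) z.2
        · rw [e1]; exact U.mul_mem a'.2 (U.inv_mem a.2)
      have e3 : (z : G) = z' := by
        rw [inv_mul_eq_one] at e2; exact e2.symm
      have e4 : (a : G) = a' := by rw [e3] at h'; exact mul_left_cancel h'
      rw [Subtype.ext e3, Subtype.ext e4]
    · rw [Nat.card_prod, hcard]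
  have hpt : ∀ (z : T) (a b : U), (orderOf ((z : G) * (a : G)) = 2 ∧
      orderOf (((z : G) * (a : G))⁻¹ * (t * ((a : G)⁻¹ * (b : G)))) = 2) ↔
      (((z : G) * z = 1 ∧ (z : G) ≠ 1 ∧ (z : G) ≠ t) ∧ ((z : G) * (a : G) * (z * a) = 1 ∧ (z : G) * (b : G) * (z * b) = 1)) := by
    intro z a b
    have hsq : ∀ a : G, a ∈ U → (z : G) * a * (z * a) = 1 → (z : G) * z = 1 := by
      intro a ha h
      have e1 : (z : G) * a * (z * a) = (z : G) * z * ((z : G)⁻¹ * a * ((z : G)⁻¹)⁻¹ * a) := by group
      have e2 : ((z : G)⁻¹ * a * ((z : G)⁻¹)⁻¹ * a) ∈ U := U.mul_mem (hn _ (C.inv_mem (hTC z.2)) _ ha) ha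
      rw [e1] at h
      apply hinf
      · exact T.mul_mem z.2 z.2
      · rw [eq_inv_of_mul_eq_one_left h]; exact U.inv_mem e2
    have hza : t * (z : G) = z * t := htC _ (hTC z.2)
    have hta : t * (a : G) = a * t := htC _ (hUC a.2)
    have htb : t * (b : G) = b * t := htC _ (hUC b.2)
    have hprod : (z : G) * (a : G) * (z * a) = 1 →
        ((z : G) * (a : G))⁻¹ * (t * ((a : G)⁻¹ * (b : G))) = t * (z * b) := by
      intro h
      have e1 : ((z : G) * (a : G))⁻¹ = z * a := inv_eq_of_mul_eq_one_left h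
      rw [e1]
      calc (z : G) * a * (t * ((a : G)⁻¹ * b)) = z * (a * t) * (a : G)⁻¹ * b := by group
        _ = z * (t * a) * (a : G)⁻¹ * b := by rw [hta]
        _ = (z * t) * b := by group
        _ = (t * z) * b := by rw [hza]
        _ = _ := by group
    have hprod2 : t * ((z : G) * b) * (t * (z * b)) = (z * b) * (z * b) := by
      calc t * ((z : G) * b) * (t * (z * b)) = (t * z) * (b * t) * z * b := by group
        _ = (z * t) * (t * b) * z * b := by rw [← htb, hza]
        _ = z * (t * t) * b * z * b := by group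
        _ = _ := by rw [htt]; group
    constructor
    · rintro ⟨h1, h2⟩
      obtain ⟨h3, h4⟩ := order_two_iff.mp h1
      rw [hprod h3] at h2
      obtain ⟨h5, h6⟩ := order_two_iff.mp h2
      rw [hprod2] at h5
      refine ⟨⟨hsq a a.2 h3, ?_, ?_⟩, h3, h5⟩
      · intro hz1
        rw [hz1, one_mul] at h3 h4
        exact h4 (hU2 _ a.2 h3)
      · intro hzt
        rw [hzt] at h6 h5
        have e1 : t * (b : G) * (t * b) = b * b := by
          calc t * (b : G) * (t * b) = t * (b * t) * b := by group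
            _ = t * (t * b) * b := by rw [htb]
            _ = (t * t) * (b * b) := by group
            _ = _ := by rw [htt, one_mul]
        rw [e1] at h5
        have hb1 := hU2 _ b.2 h5
        rw [hb1] at h6
        apply h6
        rw [mul_one, htt]
    · rintro ⟨⟨h1, h2, h3⟩, h4, h5⟩
      refine ⟨order_two_iff.mpr ⟨h4, ?_⟩, ?_⟩
      · intro h
        apply h2
        apply hinf _ z.2
        rw [eq_inv_of_mul_eq_one_left h]
        exact U.inv_mem a.2
      · rw [hprod h4, order_two_iff, hprod2]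
        refine ⟨h5, ?_⟩
        intro h
        apply h3
        have e1 : t * (z : G) = 1 := by
          apply hinf _ (T.mul_mem htT z.2)
          rw [← mul_assoc] at h
          rw [eq_inv_of_mul_eq_one_left h]
          exact U.inv_mem b.2
        have e2 : t⁻¹ = t := inv_eq_of_mul_eq_one_left htt
        rw [← e2]
        exact eq_inv_of_mul_eq_one_right e1
  calc (∑ u : U, (Finset.univ.filter fun w : C => orderOf (w : G) = 2 ∧ orderOf ((w : G)⁻¹ * (t * u)) = 2).card)
      = ∑ u : U, ∑ w : C, (if (orderOf (w : G) = 2 ∧ orderOf ((w : G)⁻¹ * (t * u)) = 2) then 1 else 0) := by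
        apply Finset.sum_congr rfl
        intro u _
        rw [Finset.card_filter]
    _ = ∑ w : C, ∑ u : U, (if (orderOf (w : G) = 2 ∧ orderOf ((w : G)⁻¹ * (t * u)) = 2) then 1 else 0) := Finset.sum_comm
    _ = ∑ q : T × U, ∑ u : U, (if (orderOf ((q.1 : G) * (q.2 : G)) = 2 ∧ orderOf (((q.1 : G) * (q.2 : G))⁻¹ * (t * u)) = 2) then 1 else 0) := by
        rw [← Equiv.sum_comp (Equiv.ofBijective _ hbij)]
        rfl
    _ = ∑ z : T, ∑ a : U, ∑ u : U, (if (orderOf ((z : G) * (a : G)) = 2 ∧ orderOf (((z : G) * (a : G))⁻¹ * (t * u)) = 2) then 1 else 0) := by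
        rw [Fintype.sum_prod_type]
    _ = ∑ z : T, ∑ a : U, ∑ b : U, (if (orderOf ((z : G) * (a : G)) = 2 ∧ orderOf (((z : G) * (a : G))⁻¹ * (t * ((a : G)⁻¹ * (b : G)))) = 2) then 1 else 0) := by
        apply Finset.sum_congr rfl
        intro z _
        apply Finset.sum_congr rfl
        intro a _
        rw [← Equiv.sum_comp (Equiv.mulLeft (a⁻¹))]
        rfl
    _ = ∑ z : T, ∑ a : U, ∑ b : U, (if (((z : G) * z = 1 ∧ (z : G) ≠ 1 ∧ (z : G) ≠ t) ∧ ((z : G) * (a : G) * (z * a) = 1 ∧ (z : G) * (b : G) * (z * b) = 1)) then 1 else 0) := by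
        apply Finset.sum_congr rfl
        intro z _
        apply Finset.sum_congr rfl
        intro a _
        apply Finset.sum_congr rfl
        intro b _
        exact if_congr (hpt z a b) rfl rfl
    _ = _ := by
        apply Finset.sum_congr rfl
        intro z _
        by_cases hz : ((z : G) * z = 1 ∧ (z : G) ≠ 1 ∧ (z : G) ≠ t)
        · rw [if_pos hz]
          have e1 : Nat.card {a : U // (z : G) * (a : G) * (z * a) = 1} =
              ∑ a : U, if (z : G) * (a : G) * (z * a) = 1 then 1 else 0 := by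
            rw [Nat.card_eq_fintype_card, Fintype.card_subtype, Finset.card_filter]
          rw [e1, pow_two, Finset.sum_mul_sum]
          apply Finset.sum_congr rfl
          intro a _
          apply Finset.sum_congr rfl
          intro b _
          by_cases h1 : (z : G) * (a : G) * (z * a) = 1
          · by_cases h2 : (z : G) * (b : G) * (z * b) = 1
            · rw [if_pos ⟨hz, h1, h2⟩, if_pos h1, if_pos h2, mul_one]
            · rw [if_neg (fun h => h2 h.2.2), if_neg h2, mul_zero]
          · rw [if_neg (fun h => h1 h.2.1), if_neg h1, zero_mul]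
        · rw [if_neg hz]
          apply Finset.sum_eq_zero
          intro a _
          apply Finset.sum_eq_zero
          intro b _
          rw [if_neg (fun h => hz h.1)]

/-- the sum over the dihedral group of order 8 -/
theorem sumD8 [Fintype G] {U T : Subgroup G} (hT : Nat.card T = 8) {t r s v : G}
    (tT : t ∈ T) (rT : r ∈ T) (sT : s ∈ T) (ot : orderOf t = 2) (or : orderOf r = 2) (os : orderOf s = 2) (ov : orderOf v = 4)
    (vv : v * v = t) (rs : r * s = v) (rt : r * t = t * r) (st : s * t = t * s) (rnt : r ≠ t) (snt : s ≠ t)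
    (htC : ∀ x ∈ U, t * x = x * t) :
    (∑ z : T, if ((z : G) * z = 1 ∧ (z : G) ≠ 1 ∧ (z : G) ≠ t) then
        Nat.card {a : U // (z : G) * (a : G) * (z * a) = 1} ^ 2 else 0) =
      2 * Nat.card {a : U // r * (a : G) * (r * a) = 1} ^ 2 + 2 * Nat.card {a : U // s * (a : G) * (s * a) = 1} ^ 2 := by
  obtain ⟨htt, ht1⟩ := order_two_iff.mp ot
  obtain ⟨hrr, hr1⟩ := order_two_iff.mp or
  obtain ⟨hss, hs1⟩ := order_two_iff.mp os
  have hvT : v ∈ T := by rw [← rs]; exact T.mul_mem rT sT
  have hvt : v ≠ t := by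
    intro h; rw [h, htt] at vv; exact ht1 vv.symm
  have hrv : r * v = s := by rw [← rs, ← mul_assoc, hrr, one_mul]
  have hri : r⁻¹ = r := inv_eq_of_mul_eq_one_left hrr
  -- elements of `⟨v⟩`
  have hV : ∀ x ∈ Subgroup.zpowers v, x = 1 ∨ x = v ∨ x = t ∨ x = v * t := by
    intro x hx
    have hfo : 0 < orderOf v := by rw [ov]; norm_num
    rw [mem_zpowers_iff_mem_range_orderOf, ov] at hx
    simp only [Finset.mem_image, Finset.mem_range] at hx
    obtain ⟨k, hk, rfl⟩ := hx
    interval_cases k
    · left; rw [pow_zero]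
    · right; left; rw [pow_one]
    · right; right; left; rw [pow_two, vv]
    · right; right; right; rw [pow_succ', pow_two, vv]
  have hrV : r ∉ Subgroup.zpowers v := by
    intro h
    rcases hV r h with h | h | h | h
    · exact hr1 h
    · rw [h] at or; rw [or] at ov; norm_num at ov
    · exact rnt h
    · have e1 : r * r = t := by
        have e0 : v * t = t * v := by rw [← vv, mul_assoc]
        rw [h]
        calc v * t * (v * t) = v * (t * v) * t := by group
          _ = v * (v * t) * t := by rw [e0]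
          _ = (v * v) * (t * t) := by group
          _ = t := by rw [vv, htt, mul_one]
      rw [hrr] at e1
      exact ht1 e1.symm
  have hindex : ((Subgroup.zpowers v).subgroupOf T).index = 2 := by
    have h1 : (Subgroup.zpowers v) ≤ T := by
      rw [Subgroup.zpowers_le]; exact hvT
    have h2 := Subgroup.card_mul_index ((Subgroup.zpowers v).subgroupOf T)
    have h3 : Nat.card ((Subgroup.zpowers v).subgroupOf T) = 4 := by
      rw [Nat.card_congr (Subgroup.subgroupOfEquivOfLe h1).toEquiv, Nat.card_zpowers, ov]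
    rw [h3, hT] at h2
    omega
  have hall : ∀ z ∈ T, z ∈ Subgroup.zpowers v ∨ r * z ∈ Subgroup.zpowers v := by
    intro z hz
    by_cases h : z ∈ Subgroup.zpowers v
    · exact Or.inl h
    · right
      have := (Subgroup.mul_mem_iff_of_index_two hindex (a := ⟨r, rT⟩) (b := ⟨z, hz⟩)).mpr
        (by
          rw [Subgroup.mem_subgroupOf, Subgroup.mem_subgroupOf]
          exact ⟨fun h1 => absurd h1 hrV, fun h1 => absurd h1 h⟩)
      rw [Subgroup.mem_subgroupOf] at this
      exact this
  have hsv : s ≠ r := by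
    intro h; rw [h, hrr] at rs; rw [← rs] at vv; rw [mul_one] at vv; exact ht1 vv.symm
  have hZ : ∀ z ∈ T, (z * z = 1 ∧ z ≠ 1 ∧ z ≠ t) ↔ (z = r ∨ z = r * t ∨ z = s ∨ z = s * t) := by
    intro z hz
    constructor
    · rintro ⟨h1, h2, h3⟩
      rcases hall z hz with h | h
      · rcases hV z h with h | h | h | h
        · exact absurd h h2
        · rw [h, vv] at h1; exact absurd h1 ht1
        · exact absurd h h3
        · exfalso
          rw [h] at h1
          apply ht1
          have e0 : v * t = t * v := by rw [← vv, mul_assoc]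
          rw [← h1]
          symm
          calc v * t * (v * t) = v * (t * v) * t := by group
            _ = v * (v * t) * t := by rw [e0]
            _ = (v * v) * (t * t) := by group
            _ = t := by rw [vv, htt, mul_one]
      · have e : z = r * (r * z) := by rw [← mul_assoc, hrr, one_mul]
        rcases hV _ h with h | h | h | h
        · left; rw [e, h, mul_one]
        · right; right; left; rw [e, h, hrv]
        · right; left; rw [e, h]
        · right; right; right; rw [e, h, ← mul_assoc, hrv]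
    · rintro (rfl | rfl | rfl | rfl)
      · exact ⟨hrr, hr1, rnt⟩
      · refine ⟨?_, ?_, ?_⟩
        · calc r * t * (r * t) = r * (t * r) * t := by group
            _ = r * (r * t) * t := by rw [rt]
            _ = (r * r) * (t * t) := by group
            _ = 1 := by rw [hrr, htt, mul_one]
        · intro h
          have := eq_inv_of_mul_eq_one_left h
          rw [inv_eq_of_mul_eq_one_left htt] at this
          exact rnt this
        · intro h
          exact hr1 (mul_eq_right.mp h)
      · exact ⟨hss, hs1, snt⟩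
      · refine ⟨?_, ?_, ?_⟩
        · calc s * t * (s * t) = s * (t * s) * t := by group
            _ = s * (s * t) * t := by rw [st]
            _ = (s * s) * (t * t) := by group
            _ = 1 := by rw [hss, htt, mul_one]
        · intro h
          have := eq_inv_of_mul_eq_one_left h
          rw [inv_eq_of_mul_eq_one_left htt] at this
          exact snt this
        · intro h
          exact hs1 (mul_eq_right.mp h)
  -- I_{z t} = I_z
  have hI : ∀ z : G, z * t = t * z → Nat.card {a : U // z * t * (a : G) * (z * t * a) = 1} =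
      Nat.card {a : U // z * (a : G) * (z * a) = 1} := by
    intro z hz
    apply Nat.card_congr
    apply Equiv.subtypeEquivRight
    intro a
    have hta := htC a a.2
    have : z * t * (a : G) * (z * t * a) = z * a * (z * a) := by
      calc z * t * (a : G) * (z * t * a) = z * (t * a) * (z * t) * a := by group
        _ = z * (a * t) * (t * z) * a := by rw [hta, hz]
        _ = z * a * (t * t) * z * a := by group
        _ = _ := by rw [htt]; group
    rw [this]
  rw [← Finset.sum_filter]
  have hset : (Finset.univ.filter fun z : T => (z : G) * z = 1 ∧ (z : G) ≠ 1 ∧ (z : G) ≠ t) =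
      {(⟨r, rT⟩ : T), ⟨r * t, T.mul_mem rT tT⟩, ⟨s, sT⟩, ⟨s * t, T.mul_mem sT tT⟩} := by
    ext ⟨z, hz⟩
    simp only [Finset.mem_filter, Finset.mem_univ, true_and, Finset.mem_insert, Finset.mem_singleton, Subtype.mk.injEq]
    exact hZ z hz
  have n1 : r ≠ r * t := fun h => ht1 (left_eq_mul.mp h)
  have n2 : r ≠ s := fun h => hsv h.symm
  have n3 : r ≠ s * t := by
    intro h
    apply hvt
    rw [← rs, h, st, mul_assoc, hss, mul_one]
  have n4 : r * t ≠ s := by
    intro h
    apply hvt
    rw [← rs, ← h, ← mul_assoc, hrr, one_mul]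
  have n5 : r * t ≠ s * t := fun h => n2 (mul_right_cancel h)
  have n6 : s ≠ s * t := fun h => ht1 (left_eq_mul.mp h)
  rw [hset, Finset.sum_insert, Finset.sum_insert, Finset.sum_insert, Finset.sum_singleton]
  · simp only
    rw [hI r rt, hI s st]
    ring
  · simp only [Finset.mem_singleton, Subtype.mk.injEq]
    exact n6
  · simp only [Finset.mem_insert, Finset.mem_singleton, Subtype.mk.injEq, not_or]
    exact ⟨n4, n5⟩
  · simp only [Finset.mem_insert, Finset.mem_singleton, Subtype.mk.injEq, not_or]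
    exact ⟨n1, n2, n3⟩

end Cfsg.Agent.Lib.H52_BC2a
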