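import Mathlib
import Cfsg.Agent.Lib.H52_BC2a

/-! S3254, BCOUNT [*1]: counting in the centralizer of an involution (helper1) -/

set_option autoImplicit false
set_option linter.all false

namespace Cfsg.Agent.Lib.H52_BC1a

open Cfsg.Agent.Lib.H52_BC2a
open scoped Classical

universe u

variable {G : Type u} [Group G]

/-- the sum over the noncentral involutions of the dihedral group of order 8 -/
theorem sumD8g [Fintype G] {T : Subgroup G} (hT : Nat.card T = 8) {t r s v : G}
    (tT : t ∈ T) (rT : r ∈ T) (sT : s ∈ T) (ot : orderOf t = 2) (or : orderOf r = 2) (os : orderOf s = 2) (ov : orderOf v = 4)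
    (vv : v * v = t) (rs : r * s = v) (rt : r * t = t * r) (st : s * t = t * s) (rnt : r ≠ t) (snt : s ≠ t)
    (n : G → ℕ) :
    (∑ z : T, if ((z : G) * z = 1 ∧ (z : G) ≠ 1 ∧ (z : G) ≠ t) then n z else 0) =
      n r + n (r * t) + n s + n (s * t) := by
  obtain ⟨htt, ht1⟩ := order_two_iff.mp ot
  obtain ⟨hrr, hr1⟩ := order_two_iff.mp or
  obtain ⟨hss, hs1⟩ := order_two_iff.mp os
  have hvT : v ∈ T := by rw [← rs]; exact T.mul_mem rT sT
  have hvt : v ≠ t := by
    intro h; rw [h, htt] at vv; exact ht1 vv.symm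
  have hrv : r * v = s := by rw [← rs, ← mul_assoc, hrr, one_mul]
  have hri : r⁻¹ = r := inv_eq_of_mul_eq_one_left hrr
  -- elements of `⟨v⟩`
  have hV : ∀ x ∈ Subgroup.zpowers v, x = 1 ∨ x = v ∨ x = t ∨ x = v * t := by
    intro x hx
    have hfo : 0 < orderOf v := by rw [ov]; norm_num
    rw [mem_zpowers_iff_mem_range_orderOf, ov] at hx
    simp only [Finset.mem_image, Finset.mem_range] at hx
    obtain ⟨k, hk, rfl⟩ := hx
    interval_cases k
    · left; rw [pow_zero]
    · right; left; rw [pow_one]
    · right; right; left; rw [pow_two, vv]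
    · right; right; right; rw [pow_succ', pow_two, vv]
  have hrV : r ∉ Subgroup.zpowers v := by
    intro h
    rcases hV r h with h | h | h | h
    · exact hr1 h
    · rw [h] at or; rw [or] at ov; norm_num at ov
    · exact rnt h
    · have e1 : r * r = t := by
        have e0 : v * t = t * v := by rw [← vv, mul_assoc]
        rw [h]
        calc v * t * (v * t) = v * (t * v) * t := by group
          _ = v * (v * t) * t := by rw [e0]
          _ = (v * v) * (t * t) := by group
          _ = t := by rw [vv, htt, mul_one]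
      rw [hrr] at e1
      exact ht1 e1.symm
  have hindex : ((Subgroup.zpowers v).subgroupOf T).index = 2 := by
    have h1 : (Subgroup.zpowers v) ≤ T := by
      rw [Subgroup.zpowers_le]; exact hvT
    have h2 := Subgroup.card_mul_index ((Subgroup.zpowers v).subgroupOf T)
    have h3 : Nat.card ((Subgroup.zpowers v).subgroupOf T) = 4 := by
      rw [Nat.card_congr (Subgroup.subgroupOfEquivOfLe h1).toEquiv, Nat.card_zpowers, ov]
    rw [h3, hT] at h2
    omega
  have hall : ∀ z ∈ T, z ∈ Subgroup.zpowers v ∨ r * z ∈ Subgroup.zpowers v := by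
    intro z hz
    by_cases h : z ∈ Subgroup.zpowers v
    · exact Or.inl h
    · right
      have := (Subgroup.mul_mem_iff_of_index_two hindex (a := ⟨r, rT⟩) (b := ⟨z, hz⟩)).mpr
        (by
          rw [Subgroup.mem_subgroupOf, Subgroup.mem_subgroupOf]
          exact ⟨fun h1 => absurd h1 hrV, fun h1 => absurd h1 h⟩)
      rw [Subgroup.mem_subgroupOf] at this
      exact this
  have hsv : s ≠ r := by
    intro h; rw [h, hrr] at rs; rw [← rs] at vv; rw [mul_one] at vv; exact ht1 vv.symm
  have hZ : ∀ z ∈ T, (z * z = 1 ∧ z ≠ 1 ∧ z ≠ t) ↔ (z = r ∨ z = r * t ∨ z = s ∨ z = s * t) := by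
    intro z hz
    constructor
    · rintro ⟨h1, h2, h3⟩
      rcases hall z hz with h | h
      · rcases hV z h with h | h | h | h
        · exact absurd h h2
        · rw [h, vv] at h1; exact absurd h1 ht1
        · exact absurd h h3
        · exfalso
          rw [h] at h1
          apply ht1
          have e0 : v * t = t * v := by rw [← vv, mul_assoc]
          rw [← h1]
          symm
          calc v * t * (v * t) = v * (t * v) * t := by group
            _ = v * (v * t) * t := by rw [e0]
            _ = (v * v) * (t * t) := by group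
            _ = t := by rw [vv, htt, mul_one]
      · have e : z = r * (r * z) := by rw [← mul_assoc, hrr, one_mul]
        rcases hV _ h with h | h | h | h
        · left; rw [e, h, mul_one]
        · right; right; left; rw [e, h, hrv]
        · right; left; rw [e, h]
        · right; right; right; rw [e, h, ← mul_assoc, hrv]
    · rintro (rfl | rfl | rfl | rfl)
      · exact ⟨hrr, hr1, rnt⟩
      · refine ⟨?_, ?_, ?_⟩
        · calc r * t * (r * t) = r * (t * r) * t := by group
            _ = r * (r * t) * t := by rw [rt]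
            _ = (r * r) * (t * t) := by group
            _ = 1 := by rw [hrr, htt, mul_one]
        · intro h
          have := eq_inv_of_mul_eq_one_left h
          rw [inv_eq_of_mul_eq_one_left htt] at this
          exact rnt this
        · intro h
          exact hr1 (mul_eq_right.mp h)
      · exact ⟨hss, hs1, snt⟩
      · refine ⟨?_, ?_, ?_⟩
        · calc s * t * (s * t) = s * (t * s) * t := by group
            _ = s * (s * t) * t := by rw [st]
            _ = (s * s) * (t * t) := by group
            _ = 1 := by rw [hss, htt, mul_one]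
        · intro h
          have := eq_inv_of_mul_eq_one_left h
          rw [inv_eq_of_mul_eq_one_left htt] at this
          exact snt this
        · intro h
          exact hs1 (mul_eq_right.mp h)
  rw [← Finset.sum_filter]
  have hset : (Finset.univ.filter fun z : T => (z : G) * z = 1 ∧ (z : G) ≠ 1 ∧ (z : G) ≠ t) =
      {(⟨r, rT⟩ : T), ⟨r * t, T.mul_mem rT tT⟩, ⟨s, sT⟩, ⟨s * t, T.mul_mem sT tT⟩} := by
    ext ⟨z, hz⟩
    simp only [Finset.mem_filter, Finset.mem_univ, true_and, Finset.mem_insert, Finset.mem_singleton, Subtype.mk.injEq]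
    exact hZ z hz
  have n1 : r ≠ r * t := fun h => ht1 (left_eq_mul.mp h)
  have n2 : r ≠ s := fun h => hsv h.symm
  have n3 : r ≠ s * t := by
    intro h
    apply hvt
    rw [← rs, h, st, mul_assoc, hss, mul_one]
  have n4 : r * t ≠ s := by
    intro h
    apply hvt
    rw [← rs, ← h, ← mul_assoc, hrr, one_mul]
  have n5 : r * t ≠ s * t := fun h => n2 (mul_right_cancel h)
  have n6 : s ≠ s * t := fun h => ht1 (left_eq_mul.mp h)
  rw [hset, Finset.sum_insert, Finset.sum_insert, Finset.sum_insert, Finset.sum_singleton]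
  · simp only
    ring
  · simp only [Finset.mem_singleton, Subtype.mk.injEq]
    exact n6
  · simp only [Finset.mem_insert, Finset.mem_singleton, Subtype.mk.injEq, not_or]
    exact ⟨n4, n5⟩
  · simp only [Finset.mem_insert, Finset.mem_singleton, Subtype.mk.injEq, not_or]
    exact ⟨n1, n2, n3⟩

theorem count1 [Fintype G] {C U T : Subgroup G} (hodd : Odd (Nat.card U)) (hTC : T ≤ C) (hUC : U ≤ C)
    (hcard : Nat.card C = Nat.card T * Nat.card U) (hTU : T ⊓ U = ⊥)
    (hn : ∀ x ∈ C, ∀ y ∈ U, x * y * x⁻¹ ∈ U) {t v : G} (htT : t ∈ T) (hvT : v ∈ T) (ht : orderOf t = 2)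
    (vv : v * v = t) (htC : ∀ x ∈ C, t * x = x * t) :
    (∑ u : (U ⊓ Subgroup.centralizer ({v} : Set G) : Subgroup G),
      (Finset.univ.filter fun w : C => orderOf (w : G) = 2 ∧ orderOf ((w : G)⁻¹ * (v * u)) = 2).card) =
      ∑ z : T, if ((z : G) * z = 1 ∧ (z : G) ≠ 1 ∧ (z : G) ≠ t) then
        Nat.card {a : (U ⊓ Subgroup.centralizer ({v} : Set G) : Subgroup G) // (z : G) * (a : G) * (z * a) = 1} *
        Nat.card {a : (U ⊓ Subgroup.centralizer ({v} : Set G) : Subgroup G) // (z : G) * v * (a : G) * (z * v * a) = 1} else 0 := by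
  obtain ⟨htt, ht1⟩ := order_two_iff.mp ht
  set W : Subgroup G := U ⊓ Subgroup.centralizer ({v} : Set G) with hW
  have hWU : ∀ a : W, (a : G) ∈ U := fun a => a.2.1
  have hWv : ∀ a : W, (a : G) * v = v * a := fun a => Subgroup.mem_centralizer_singleton_iff.mp a.2.2
  have hinf : ∀ x : G, x ∈ T → x ∈ U → x = 1 := by
    intro x h1 h2
    have : x ∈ T ⊓ U := ⟨h1, h2⟩
    rw [hTU] at this
    exact Subgroup.mem_bot.mp this
  have hbij : Function.Bijective (fun q : T × U => (⟨(q.1 : G) * (q.2 : G), C.mul_mem (hTC q.1.2) (hUC q.2.2)⟩ : C)) := by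
    apply Function.Injective.bijective_of_nat_card_le
    · rintro ⟨z, a⟩ ⟨z', a'⟩ h
      have h' : (z : G) * (a : G) = (z' : G) * (a' : G) := congrArg Subtype.val h
      have e1 : (z' : G)⁻¹ * z = a' * (a : G)⁻¹ := by
        rw [inv_mul_eq_iff_eq_mul, ← mul_assoc, eq_mul_inv_iff_mul_eq]
        exact h'
      have e2 : (z' : G)⁻¹ * z = 1 := by
        apply hinf
        · exact T.mul_mem (T.inv_mem z'.2) z.2
        · rw [e1]; exact U.mul_mem a'.2 (U.inv_mem a.2)
      have e3 : (z : G) = z' := by
        rw [inv_mul_eq_one] at e2; exact e2.symm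
      have e4 : (a : G) = a' := by rw [e3] at h'; exact mul_left_cancel h'
      rw [Subtype.ext e3, Subtype.ext e4]
    · rw [Nat.card_prod, hcard]
  have hpt : ∀ (z : T) (a : U) (u : W), (orderOf ((z : G) * (a : G)) = 2 ∧
      orderOf (((z : G) * (a : G))⁻¹ * (v * (u : G))) = 2) ↔
      ((a : G) ∈ W ∧ (((z : G) * z = 1 ∧ (z : G) ≠ 1 ∧ (z : G) ≠ t) ∧ ((z : G) * (a : G) * (z * a) = 1 ∧
        (z : G) * v * ((a : G) * u) * (z * v * (a * u)) = 1))) := by
    intro z a u
    have hsq : ∀ a : G, a ∈ U → (z : G) * a * (z * a) = 1 → (z : G) * z = 1 := by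
      intro a ha h
      have e1 : (z : G) * a * (z * a) = (z : G) * z * ((z : G)⁻¹ * a * ((z : G)⁻¹)⁻¹ * a) := by group
      have e2 : ((z : G)⁻¹ * a * ((z : G)⁻¹)⁻¹ * a) ∈ U := U.mul_mem (hn _ (C.inv_mem (hTC z.2)) _ ha) ha
      rw [e1] at h
      apply hinf
      · exact T.mul_mem z.2 z.2
      · rw [eq_inv_of_mul_eq_one_left h]; exact U.inv_mem e2
    have hprod : (a : G) * v = v * a → (z : G) * (a : G) * (z * a) = 1 →
        ((z : G) * (a : G))⁻¹ * (v * (u : G)) = z * v * (a * u) := by
      intro hav h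
      have e1 : ((z : G) * (a : G))⁻¹ = z * a := inv_eq_of_mul_eq_one_left h
      rw [e1]
      calc (z : G) * a * (v * u) = z * (a * v) * u := by group
        _ = z * (v * a) * u := by rw [hav]
        _ = _ := by group
    constructor
    · rintro ⟨h1, h2⟩
      obtain ⟨h3, h4⟩ := order_two_iff.mp h1
      obtain ⟨h5, h6⟩ := order_two_iff.mp h2
      have hzz := hsq a a.2 h3
      -- `z a` inverts `v u`
      set x : G := (z : G) * a with hx
      have hxi : x⁻¹ = x := inv_eq_of_mul_eq_one_left h3
      have e1 : x * (v * (u : G)) * x⁻¹ = (v * (u : G))⁻¹ := by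
        rw [hxi] at h5 ⊢
        apply eq_inv_of_mul_eq_one_left
        rw [← h5]; group
      have hvu : Commute v (u : G) := (hWv u).symm
      have hu1 : (u : G) ^ (Nat.card U) = 1 := by
        have h9 : (⟨u, hWU u⟩ : U) ^ Nat.card U = 1 := pow_card_eq_one'
        exact congrArg Subtype.val h9
      have hv4 : v ^ 4 = 1 := by
        rw [show (4 : ℕ) = 2 * 2 by norm_num, pow_mul, pow_two v, vv, pow_two, htt]
      have hvN : v ^ (Nat.card U * Nat.card U) = v := by
        obtain ⟨k, hk⟩ := hodd
        rw [hk, show (2 * k + 1) * (2 * k + 1) = 4 * (k * k + k) + 1 by ring, pow_succ, pow_mul, hv4, one_pow, one_mul]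
      have e2 : (v * (u : G)) ^ (Nat.card U * Nat.card U) = v := by
        rw [hvu.mul_pow, hvN, pow_mul, hu1, one_pow, mul_one]
      have e3 : x * v * x⁻¹ = v⁻¹ := by
        conv_lhs => rw [← e2]
        rw [← conj_pow, e1, inv_pow, e2]
      -- modulo U
      have hva : v⁻¹ * a * (v⁻¹)⁻¹ * (a : G)⁻¹ ∈ U := U.mul_mem (hn _ (C.inv_mem (hTC hvT)) _ a.2) (U.inv_mem a.2)
      set b : G := v⁻¹ * a * (v⁻¹)⁻¹ * (a : G)⁻¹ with hb
      have e4 : (a : G) * v * (a : G)⁻¹ = v * b := by rw [hb]; group
      have e5 : (z : G) * v * (z : G)⁻¹ * (z * b * (z : G)⁻¹) = v⁻¹ := by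
        rw [← e3, hx]
        calc (z : G) * v * (z : G)⁻¹ * (z * b * (z : G)⁻¹) = z * (v * b) * (z : G)⁻¹ := by group
          _ = z * (a * v * (a : G)⁻¹) * (z : G)⁻¹ := by rw [e4]
          _ = _ := by group
      have e6 : v * ((z : G) * v * (z : G)⁻¹) = 1 := by
        apply hinf
        · exact T.mul_mem hvT (T.mul_mem (T.mul_mem z.2 hvT) (T.inv_mem z.2))
        · have e7 : v * ((z : G) * v * (z : G)⁻¹) = (z * b * (z : G)⁻¹)⁻¹ := by
            apply eq_inv_of_mul_eq_one_left
            rw [mul_assoc, e5, mul_inv_cancel]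
          rw [e7]
          exact U.inv_mem (hn _ (hTC z.2) _ hva)
      have e7 : (z : G) * v * (z : G)⁻¹ = v⁻¹ := eq_inv_of_mul_eq_one_right e6
      have e8 : b = 1 := by
        rw [e7] at e5
        have : (z : G) * b * (z : G)⁻¹ = 1 := by
          have := mul_eq_left.mp e5
          exact this
        exact conj_eq_one_iff.mp this
      have hav : (a : G) * v = v * a := by
        rw [e8, mul_one] at e4
        calc (a : G) * v = (a * v * (a : G)⁻¹) * a := by group
          _ = v * a := by rw [e4]
      have hvv1 : v ≠ v⁻¹ := by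
        intro h
        apply ht1
        rw [← vv]
        nth_rewrite 2 [h]
        exact mul_inv_cancel v
      refine ⟨⟨a.2, Subgroup.mem_centralizer_singleton_iff.mpr hav⟩, ⟨hzz, ?_, ?_⟩, h3, ?_⟩
      · intro hz1
        rw [hz1, one_mul, inv_one, mul_one] at e7
        exact hvv1 e7
      · intro hzt
        rw [hzt, htC v (hTC hvT)] at e7
        apply hvv1
        rw [← e7]; group
      · rw [← hprod hav h3]; exact h5
    · rintro ⟨haW, ⟨h1, h2, h3⟩, h4, h5⟩
      have hav : (a : G) * v = v * a := Subgroup.mem_centralizer_singleton_iff.mp haW.2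
      refine ⟨order_two_iff.mpr ⟨h4, ?_⟩, ?_⟩
      · intro h
        apply h2
        apply hinf _ z.2
        rw [eq_inv_of_mul_eq_one_left h]
        exact U.inv_mem a.2
      · rw [hprod hav h4, order_two_iff]
        refine ⟨h5, ?_⟩
        intro h
        have e1 : (z : G) * v = 1 := by
          apply hinf _ (T.mul_mem z.2 hvT)
          rw [eq_inv_of_mul_eq_one_left h]
          exact U.inv_mem (U.mul_mem a.2 (hWU u))
        have e2 : (z : G) = v⁻¹ := eq_inv_of_mul_eq_one_left e1
        rw [e2] at h1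
        apply ht1
        rw [← vv]
        have : (v * v)⁻¹ = 1 := by rw [mul_inv_rev]; exact h1
        exact inv_eq_one.mp this
  calc (∑ u : W, (Finset.univ.filter fun w : C => orderOf (w : G) = 2 ∧ orderOf ((w : G)⁻¹ * (v * u)) = 2).card)
      = ∑ u : W, ∑ w : C, (if (orderOf (w : G) = 2 ∧ orderOf ((w : G)⁻¹ * (v * u)) = 2) then 1 else 0) := by
        apply Finset.sum_congr rfl
        intro u _
        rw [Finset.card_filter]
    _ = ∑ w : C, ∑ u : W, (if (orderOf (w : G) = 2 ∧ orderOf ((w : G)⁻¹ * (v * u)) = 2) then 1 else 0) := Finset.sum_comm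
    _ = ∑ q : T × U, ∑ u : W, (if (orderOf ((q.1 : G) * (q.2 : G)) = 2 ∧ orderOf (((q.1 : G) * (q.2 : G))⁻¹ * (v * u)) = 2) then 1 else 0) := by
        rw [← Equiv.sum_comp (Equiv.ofBijective _ hbij)]
        rfl
    _ = ∑ z : T, ∑ a : U, ∑ u : W, (if (orderOf ((z : G) * (a : G)) = 2 ∧ orderOf (((z : G) * (a : G))⁻¹ * (v * u)) = 2) then 1 else 0) := by
        rw [Fintype.sum_prod_type]
    _ = ∑ z : T, ∑ a : U, ∑ u : W, (if ((a : G) ∈ W ∧ (((z : G) * z = 1 ∧ (z : G) ≠ 1 ∧ (z : G) ≠ t) ∧ ((z : G) * (a : G) * (z * a) = 1 ∧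
        (z : G) * v * ((a : G) * u) * (z * v * (a * u)) = 1))) then 1 else 0) := by
        apply Finset.sum_congr rfl
        intro z _
        apply Finset.sum_congr rfl
        intro a _
        apply Finset.sum_congr rfl
        intro b _
        exact if_congr (hpt z a b) rfl rfl
    _ = ∑ z : T, ∑ a : W, ∑ u : W, (if (((z : G) * z = 1 ∧ (z : G) ≠ 1 ∧ (z : G) ≠ t) ∧ ((z : G) * (a : G) * (z * a) = 1 ∧
        (z : G) * v * ((a : G) * u) * (z * v * (a * u)) = 1)) then 1 else 0) := by
        apply Finset.sum_congr rfl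
        intro z _
        symm
        apply Fintype.sum_of_injective (fun a : W => (⟨a, hWU a⟩ : U))
        · intro a a' h
          exact Subtype.ext (congrArg (fun x : U => (x : G)) h)
        · intro a ha
          apply Finset.sum_eq_zero
          intro u _
          rw [if_neg]
          rintro ⟨h, _⟩
          exact ha ⟨⟨a, h⟩, rfl⟩
        · intro a
          apply Finset.sum_congr rfl
          intro u _
          apply if_congr _ rfl rfl
          constructor
          · intro h; exact ⟨a.2, h⟩
          · intro h; exact h.2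
    _ = ∑ z : T, ∑ a : W, ∑ b : W, (if (((z : G) * z = 1 ∧ (z : G) ≠ 1 ∧ (z : G) ≠ t) ∧ ((z : G) * (a : G) * (z * a) = 1 ∧
        (z : G) * v * (b : G) * (z * v * b) = 1)) then 1 else 0) := by
        apply Finset.sum_congr rfl
        intro z _
        apply Finset.sum_congr rfl
        intro a _
        rw [← Equiv.sum_comp (Equiv.mulLeft a) (fun b : W => (if (((z : G) * z = 1 ∧ (z : G) ≠ 1 ∧ (z : G) ≠ t) ∧ ((z : G) * (a : G) * (z * a) = 1 ∧
        (z : G) * v * (b : G) * (z * v * b) = 1)) then 1 else 0))]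
        rfl
    _ = _ := by
        apply Finset.sum_congr rfl
        intro z _
        by_cases hz : ((z : G) * z = 1 ∧ (z : G) ≠ 1 ∧ (z : G) ≠ t)
        · rw [if_pos hz]
          have e1 : ∀ y : G, Nat.card {a : W // y * (a : G) * (y * a) = 1} =
              ∑ a : W, if y * (a : G) * (y * a) = 1 then 1 else 0 := by
            intro y
            rw [Nat.card_eq_fintype_card, Fintype.card_subtype, Finset.card_filter]
          rw [e1, e1, Finset.sum_mul_sum]
          apply Finset.sum_congr rfl
          intro a _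
          apply Finset.sum_congr rfl
          intro b _
          by_cases h1 : (z : G) * (a : G) * (z * a) = 1
          · by_cases h2 : (z : G) * v * (b : G) * (z * v * b) = 1
            · rw [if_pos ⟨hz, h1, h2⟩, if_pos h1, if_pos h2, mul_one]
            · rw [if_neg (fun h => h2 h.2.2), if_neg h2, mul_zero]
          · rw [if_neg (fun h => h1 h.2.1), if_neg h1, zero_mul]
        · rw [if_neg hz]
          apply Finset.sum_eq_zero
          intro a _
          apply Finset.sum_eq_zero
          intro b _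
          rw [if_neg (fun h => hz h.1)]

end Cfsg.Agent.Lib.H52_BC1a
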