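import Cfsg.Agent.Lib.H52T0

/-!
# Numeric half of BCOEF (helper32)
-/

set_option autoImplicit false
set_option linter.all false

namespace Cfsg.Agent.Lib.H52_BCOEF

open Cfsg Cfsg.Agent.Lib.BRPerm Cfsg.Agent.Lib.BRCore Cfsg.Agent.Lib.BRInd Cfsg.Agent.Lib.CharBasic Cfsg.Agent.Lib.BlockThird Cfsg.Agent.Lib.H52T0 Cfsg.Agent.Lib.H15RealP Cfsg.Agent.Lib.BRB0 Cfsg.Agent.Lib.DefOneLoc
universe u v

theorem sum_single {ι : Type*} [DecidableEq ι] (s : Finset ι) (f : ι → ℤ) {k : ℤ} (hk : 0 < k)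
    (hf : ∀ i ∈ s, f i = 0 ∨ k ≤ f i) (h : ∑ i ∈ s, f i = k) :
    ∃ i ∈ s, f i = k ∧ ∀ j ∈ s, j ≠ i → f j = 0 := by
  obtain ⟨i, hi, hi0⟩ : ∃ i ∈ s, f i ≠ 0 := by
    by_contra hcon
    push Not at hcon
    rw [Finset.sum_eq_zero hcon] at h
    omega
  have h1 := (hf i hi).resolve_left hi0
  have h2 := Finset.add_sum_erase s f hi
  have h3 : ∀ j ∈ s.erase i, 0 ≤ f j := by
    intro j hj
    rcases hf j (Finset.mem_of_mem_erase hj) with h | h <;> omega
  have h4 := Finset.sum_nonneg h3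
  have h5 : ∑ j ∈ s.erase i, f j = 0 := by omega
  refine ⟨i, hi, by omega, fun j hj hji => ?_⟩
  exact (Finset.sum_eq_zero_iff_of_nonneg h3).1 h5 j (Finset.mem_erase.2 ⟨hji, hj⟩)

variable {G : Type u} [Group G] [Fintype G] {Ω : Type v} [Fintype Ω] [MulAction G Ω] {p : ℕ}

theorem bcoef_num (hB : Base G Ω p) {χ ψ : IrrCharacter G} (hχ : CharD G p 2 χ)
    (hψ : (charDegree (ψ : G → ℂ) : ℤ) = p) (hne : ψ ≠ χ) (hψ1 : ψ ≠ triv G) {t v : G} {U : Subgroup G}
    (hχt : (χ : G → ℂ) t = 1) (hψt : (ψ : G → ℂ) t = 1) {x y : IrrCharacter G → ℤ} (hs : Sec G t v U x y)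
    (x1 : x (triv G) = 1) (y1 : y (triv G) = 1) (xχ : x χ = 1) (yχ : y χ = 1) (yψ : y ψ = -1)
    (xψ : x ψ = 1 ∨ x ψ = -1) :
    x ψ = 1 ∧
    ∑ η : IrrCharacter G, (x η : ℂ) * (η : G → ℂ) t ^ 2 / (η : G → ℂ) 1 = 2 * ((p : ℂ) - 1) ^ 2 / (p * (2 * p - 1)) ∧
    ∑ η : IrrCharacter G, (y η : ℂ) * (η : G → ℂ) t ^ 2 / (η : G → ℂ) 1 = 2 * ((p : ℂ) - 1) ^ 2 / (p * (2 * p - 1)) := by
  classical
  have hp5 := hB.h5
  have hχ1 : χ ≠ triv G := hχ.ne
  let R : Finset (IrrCharacter G) := ((Finset.univ.erase (triv G)).erase χ).erase ψ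
  have mR : ∀ η, η ∈ R ↔ η ≠ ψ ∧ η ≠ χ ∧ η ≠ triv G := by
    intro η
    simp [R]
  have sp : ∀ (A : Type) [CommRing A] (g : IrrCharacter G → A),
      ∑ η, g η = g (triv G) + g χ + g ψ + ∑ η ∈ R, g η := by
    intro A _ g
    rw [← Finset.add_sum_erase Finset.univ g (Finset.mem_univ (triv G)),
      ← Finset.add_sum_erase (Finset.univ.erase (triv G)) g (Finset.mem_erase.2 ⟨hχ1, Finset.mem_univ _⟩),
      ← Finset.add_sum_erase ((Finset.univ.erase (triv G)).erase χ) g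
        (Finset.mem_erase.2 ⟨hne, Finset.mem_erase.2 ⟨hψ1, Finset.mem_univ _⟩⟩)]
    show _ = g (triv G) + g χ + g ψ + ∑ η ∈ ((Finset.univ.erase (triv G)).erase χ).erase ψ, g η
    ring
  have hdpos : ∀ η : IrrCharacter G, (0 : ℤ) < charDegree (η : G → ℂ) := fun η => by
    exact_mod_cast BlockDeg.charDegree_pos η.2
  -- the character ξ
  have hyR : ∑ η ∈ R, y η ^ 2 = 1 := by
    have h := hs.yy
    rw [sp ℤ (fun η => y η ^ 2)] at h
    simp only [y1, yχ, yψ] at h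
    linarith
  obtain ⟨ξ, hξR, hξ, hξ0⟩ := sum_single R (fun η => y η ^ 2) (k := 1) one_pos (fun i _ => by
    rcases eq_or_ne (y i) 0 with h | h
    · left; show y i ^ 2 = 0; rw [h]; rfl
    · right; show 1 ≤ y i ^ 2; have := sq_pos_of_ne_zero (a := y i) h; omega) hyR
  have hξ : y ξ ^ 2 = 1 := hξ
  have hξ0 : ∀ j ∈ R, j ≠ ξ → y j = 0 := fun j hj hji => by
    have : y j ^ 2 = 0 := hξ0 j hj hji
    exact pow_eq_zero_iff (two_ne_zero) |>.1 this
  have Y : ∀ (A : Type) [CommRing A] (g : IrrCharacter G → A),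
      ∑ η, (y η : A) * g η = g (triv G) + g χ - g ψ + (y ξ : A) * g ξ := by
    intro A _ g
    rw [sp A (fun η => (y η : A) * g η)]
    have h : ∑ η ∈ R, (y η : A) * g η = (y ξ : A) * g ξ :=
      Finset.sum_eq_single_of_mem ξ hξR (fun j hj hji => by rw [hξ0 j hj hji]; simp)
    rw [h]
    simp only [y1, yχ, yψ]
    push_cast
    ring
  have hxR : ∑ η ∈ R, x η ^ 2 = 5 := by
    have h := hs.xx
    rw [sp ℤ (fun η => x η ^ 2)] at h
    have h2 : x ψ ^ 2 = 1 := by rcases xψ with h | h <;> rw [h] <;> rfl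
    simp only [x1, xχ, h2] at h
    linarith
  have hxR2 := Finset.add_sum_erase R (fun η => x η ^ 2) hξR
  have hnn : 0 ≤ ∑ η ∈ R.erase ξ, x η ^ 2 := Finset.sum_nonneg (fun i _ => sq_nonneg _)
  have hxR2' : x ξ ^ 2 + ∑ η ∈ R.erase ξ, x η ^ 2 = 5 := by rw [← hxR]; exact hxR2
  have YZ : ∀ g : IrrCharacter G → ℤ, ∑ η, y η * g η = g (triv G) + g χ - g ψ + y ξ * g ξ := fun g => by
    have h := Y ℤ g
    simp only [Int.cast_id] at h
    exact h
  have hxy : 1 + 1 - x ψ + y ξ * x ξ = 0 := by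
    have h := hs.xy
    have h2 : ∑ η, x η * y η = ∑ η, y η * x η := Finset.sum_congr rfl (fun η _ => mul_comm _ _)
    rw [h2, YZ x, x1, xχ] at h
    exact h
  have hyξ : y ξ = 1 ∨ y ξ = -1 := by
    have h : (y ξ - 1) * (y ξ + 1) = 0 := by linear_combination hξ
    rcases mul_eq_zero.1 h with h | h
    · left; omega
    · right; omega
  have hxle : x ξ ^ 2 ≤ 5 := by linarith
  have xψ1 : x ψ = 1 := by
    rcases xψ with h | h
    · exact h
    · exfalso
      rw [h] at hxy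
      rcases hyξ with h1 | h1
      · rw [h1] at hxy
        have : x ξ = -3 := by linarith
        rw [this] at hxle
        norm_num at hxle
      · rw [h1] at hxy
        have : x ξ = 3 := by linarith
        rw [this] at hxle
        norm_num at hxle
  rw [xψ1] at hxy
  -- degrees
  have dχ : (charDegree (χ : G → ℂ) : ℤ) = 2 * p - 1 := by
    have := hχ.deg
    push_cast at this
    exact this
  have hd1 : (charDegree ((triv G : IrrCharacter G) : G → ℂ) : ℤ) = 1 := by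
    rw [deg_triv]; rfl
  have hyd : (1 : ℤ) + (2 * p - 1) - p + y ξ * (charDegree (ξ : G → ℂ) : ℤ) = 0 := by
    have h := hs.y1
    rw [YZ (fun η => (charDegree (η : G → ℂ) : ℤ)), hd1, dχ, hψ] at h
    exact h
  have hyξ1 : y ξ = -1 := by
    rcases hyξ with h | h
    · exfalso
      rw [h] at hyd
      have := hdpos ξ
      have hp0 : (0 : ℤ) ≤ p := Int.natCast_nonneg p
      linarith
    · exact h
  rw [hyξ1] at hyd hxy
  have dξ : (charDegree (ξ : G → ℂ) : ℤ) = p := by linarith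
  have xξ : x ξ = 1 := by linarith
  have v1 : ((triv G : IrrCharacter G) : G → ℂ) t = 1 := rfl
  have vξ : (ξ : G → ℂ) t = 1 := by
    have h := hs.yt
    rw [Y ℂ (fun η => (η : G → ℂ) t), hyξ1, v1, hχt, hψt] at h
    push_cast at h
    linear_combination -h
  -- the character ζ
  have hxR3 : ∑ η ∈ R.erase ξ, x η ^ 2 = 4 := by
    rw [xξ] at hxR2'
    linarith
  obtain ⟨ζ, hζR, hζ, hζ0⟩ := sum_single (R.erase ξ) (fun η => x η ^ 2) (k := 4) (by norm_num) (fun i hi => by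
    have hyi := hξ0 i (Finset.mem_of_mem_erase hi) (Finset.ne_of_mem_erase hi)
    have hpar := hs.par i
    rw [hyi, sub_zero] at hpar
    obtain ⟨m, hm⟩ := hpar
    rcases eq_or_ne m 0 with h | h
    · left; show x i ^ 2 = 0; rw [hm, h]; rfl
    · right
      show 4 ≤ x i ^ 2
      have h5 := sq_pos_of_ne_zero (a := m) h
      rw [hm]
      nlinarith) hxR3
  have hζ : x ζ ^ 2 = 4 := hζ
  have hζ0 : ∀ j ∈ R.erase ξ, j ≠ ζ → x j = 0 := fun j hj hji => by
    have : x j ^ 2 = 0 := hζ0 j hj hji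
    exact pow_eq_zero_iff (two_ne_zero) |>.1 this
  have X : ∀ (A : Type) [CommRing A] (g : IrrCharacter G → A),
      ∑ η, (x η : A) * g η = g (triv G) + g χ + g ψ + (g ξ + (x ζ : A) * g ζ) := by
    intro A _ g
    rw [sp A (fun η => (x η : A) * g η), ← Finset.add_sum_erase R (fun η => (x η : A) * g η) hξR]
    have h : ∑ η ∈ R.erase ξ, (x η : A) * g η = (x ζ : A) * g ζ :=
      Finset.sum_eq_single_of_mem ζ hζR (fun j hj hji => by rw [hζ0 j hj hji]; simp)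
    rw [h]
    simp only [x1, xχ, xψ1, xξ]
    push_cast
    ring
  have XZ : ∀ g : IrrCharacter G → ℤ, ∑ η, x η * g η = g (triv G) + g χ + g ψ + (g ξ + x ζ * g ζ) := fun g => by
    have h := X ℤ g
    simp only [Int.cast_id] at h
    exact h
  have hxζ : x ζ = 2 ∨ x ζ = -2 := by
    have h : (x ζ - 2) * (x ζ + 2) = 0 := by linear_combination hζ
    rcases mul_eq_zero.1 h with h | h
    · left; omega
    · right; omega
  have hxd : (1 : ℤ) + (2 * p - 1) + p + (p + x ζ * (charDegree (ζ : G → ℂ) : ℤ)) = 0 := by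
    have h := hs.x1
    rw [XZ (fun η => (charDegree (η : G → ℂ) : ℤ)), hd1, dχ, hψ, dξ] at h
    exact h
  have hp0 : (0 : ℤ) < p := by exact_mod_cast hB.hp.pos
  have hxζ1 : x ζ = -2 := by
    rcases hxζ with h | h
    · exfalso
      rw [h] at hxd
      have := hdpos ζ
      linarith
    · exact h
  rw [hxζ1] at hxd
  have dζ : (charDegree (ζ : G → ℂ) : ℤ) = 2 * p := by linarith
  have vζ : (ζ : G → ℂ) t = -2 := by
    have h := hs.xt
    rw [X ℂ (fun η => (η : G → ℂ) t), hxζ1, v1, hχt, hψt, vξ] at h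
    push_cast at h
    linear_combination (-1 / 2 : ℂ) * h
  -- values at one
  have e1 : ∀ (η : IrrCharacter G) (m : ℤ), (charDegree (η : G → ℂ) : ℤ) = m → (η : G → ℂ) 1 = (m : ℂ) := by
    intro η m h
    rw [← BlockDeg.charDegree_cast_irr η, ← h]
    push_cast
    rfl
  have o1 := e1 _ _ hd1
  have oχ := e1 _ _ dχ
  have oψ := e1 _ _ hψ
  have oξ := e1 _ _ dξ
  have oζ := e1 _ _ dζ
  push_cast at o1 oχ oψ oξ oζ
  have hpC : (p : ℂ) ≠ 0 := by
    have := hB.hp.ne_zero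
    exact_mod_cast this
  have hp2 : (2 * (p : ℂ) - 1) ≠ 0 := by
    have h : (2 * (p : ℤ) - 1) ≠ 0 := by omega
    exact_mod_cast h
  refine ⟨xψ1, ?_, ?_⟩
  · have h : ∑ η : IrrCharacter G, (x η : ℂ) * (η : G → ℂ) t ^ 2 / (η : G → ℂ) 1 =
        ∑ η : IrrCharacter G, (x η : ℂ) * ((η : G → ℂ) t ^ 2 / (η : G → ℂ) 1) :=
      Finset.sum_congr rfl (fun η _ => mul_div_assoc _ _ _)
    rw [h, X ℂ (fun η => (η : G → ℂ) t ^ 2 / (η : G → ℂ) 1), v1, hχt, hψt, vξ, vζ, o1, oχ, oψ, oξ, oζ, hxζ1]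
    push_cast
    field_simp
    ring
  · have h : ∑ η : IrrCharacter G, (y η : ℂ) * (η : G → ℂ) t ^ 2 / (η : G → ℂ) 1 =
        ∑ η : IrrCharacter G, (y η : ℂ) * ((η : G → ℂ) t ^ 2 / (η : G → ℂ) 1) :=
      Finset.sum_congr rfl (fun η _ => mul_div_assoc _ _ _)
    rw [h, Y ℂ (fun η => (η : G → ℂ) t ^ 2 / (η : G → ℂ) 1), v1, hχt, hψt, vξ, o1, oχ, oψ, oξ, hyξ1]
    push_cast
    field_simp
    ring

end Cfsg.Agent.Lib.H52_BCOEF
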