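import Mathlib
import Cfsg.Agent.Lib.H52T0

/-! S3254, piece BLINE, first half, Burnside part: the core of the line stabilizer (helper88). -/

set_option autoImplicit false
set_option maxHeartbeats 400000
set_option linter.all false

namespace Cfsg.Agent.Lib.H52_BLINEa88

open Subgroup Cfsg Cfsg.Agent.Lib.H52T0
open scoped Pointwise

universe u v

variable {G : Type u} [Group G] {Ω : Type v} [MulAction G Ω]

/-- pointwise stabilizer -/
def KK (G : Type u) [Group G] {Ω : Type v} [MulAction G Ω] (a b c : Ω) : Subgroup G :=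
  MulAction.stabilizer G a ⊓ MulAction.stabilizer G b ⊓ MulAction.stabilizer G c

theorem mem_KK {a b c : Ω} {g : G} : g ∈ KK G a b c ↔ g • a = a ∧ g • b = b ∧ g • c = c := by
  rw [KK, mem_inf, mem_inf, MulAction.mem_stabilizer_iff, MulAction.mem_stabilizer_iff,
    MulAction.mem_stabilizer_iff, and_assoc]

/-- setwise stabilizer -/
def LL (G : Type u) [Group G] {Ω : Type v} [MulAction G Ω] (a b c : Ω) : Subgroup G :=
  MulAction.stabilizer G ({w | w = a ∨ w = b ∨ w = c} : Set Ω)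

theorem mem_LL {a b c : Ω} {g : G} : g ∈ LL G a b c ↔
    ∀ w : Ω, (g • w = a ∨ g • w = b ∨ g • w = c) ↔ (w = a ∨ w = b ∨ w = c) := by
  rw [LL, MulAction.mem_stabilizer_set]
  rfl

theorem LL_norm {a b c : Ω} {x y : G} (hx : x ∈ LL G a b c) (hy : y ∈ KK G a b c) :
    x * y * x⁻¹ ∈ KK G a b c := by
  have hx' := mem_LL.mp (inv_mem hx)
  rw [mem_KK] at hy ⊢
  have key : ∀ w : Ω, (w = a ∨ w = b ∨ w = c) → (x * y * x⁻¹) • w = w := by
    intro w hw
    have h1 := (hx' w).mpr hw
    have h2 : y • (x⁻¹ • w) = x⁻¹ • w := by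
      rcases h1 with h1 | h1 | h1 <;> rw [h1]
      · exact hy.1
      · exact hy.2.1
      · exact hy.2.2
    rw [mul_smul, mul_smul, h2, smul_inv_smul]
  exact ⟨key a (Or.inl rfl), key b (Or.inr (Or.inl rfl)), key c (Or.inr (Or.inr rfl))⟩

/-- the action of the setwise stabilizer -/
def phi (G : Type u) [Group G] {Ω : Type v} [MulAction G Ω] (a b c : Ω) :
    LL G a b c →* Equiv.Perm {w : Ω // w = a ∨ w = b ∨ w = c} where
  toFun g :=
    { toFun := fun w => ⟨(g : G) • (w : Ω), (mem_LL.mp g.2 w).mpr w.2⟩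
      invFun := fun w => ⟨(g : G)⁻¹ • (w : Ω), (mem_LL.mp (inv_mem g.2) w).mpr w.2⟩
      left_inv := fun w => Subtype.ext (inv_smul_smul _ _)
      right_inv := fun w => Subtype.ext (smul_inv_smul _ _) }
  map_one' := by
    ext w
    exact one_smul G (w : Ω)
  map_mul' g h := by
    ext w
    exact mul_smul (g : G) (h : G) (w : Ω)

theorem phi_apply {a b c : Ω} (g : LL G a b c) (w : {w : Ω // w = a ∨ w = b ∨ w = c}) :
    ((phi G a b c g w : {w : Ω // w = a ∨ w = b ∨ w = c}) : Ω) = (g : G) • (w : Ω) := rfl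

theorem mem_ker_phi {a b c : Ω} (g : LL G a b c) : g ∈ (phi G a b c).ker ↔ (g : G) ∈ KK G a b c := by
  rw [MonoidHom.mem_ker, mem_KK]
  constructor
  · intro hg
    have key : ∀ w : {w : Ω // w = a ∨ w = b ∨ w = c}, (g : G) • (w : Ω) = w := by
      intro w
      rw [← phi_apply, hg]; rfl
    exact ⟨key ⟨a, Or.inl rfl⟩, key ⟨b, Or.inr (Or.inl rfl)⟩, key ⟨c, Or.inr (Or.inr rfl)⟩⟩
  · rintro ⟨h1, h2, h3⟩
    ext w
    rw [phi_apply]
    obtain ⟨w, hw⟩ := w
    rcases hw with rfl | rfl | rfl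
    · exact h1
    · exact h2
    · exact h3

theorem KK_le_LL {a b c : Ω} : KK G a b c ≤ LL G a b c := by
  intro g hg
  rw [mem_KK] at hg
  rw [mem_LL]
  intro w
  constructor
  · intro h
    have h' : g • w = g • a ∨ g • w = g • b ∨ g • w = g • c := by
      rw [hg.1, hg.2.1, hg.2.2]; exact h
    rcases h' with h' | h' | h'
    · exact Or.inl (smul_left_cancel g h')
    · exact Or.inr (Or.inl (smul_left_cancel g h'))
    · exact Or.inr (Or.inr (smul_left_cancel g h'))
  · rintro (rfl | rfl | rfl)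
    · exact Or.inl hg.1
    · exact Or.inr (Or.inl hg.2.1)
    · exact Or.inr (Or.inr hg.2.2)

theorem card_three {a b c : Ω} (hab : a ≠ b) (hac : a ≠ c) (hbc : b ≠ c) :
    Nat.card {w : Ω // w = a ∨ w = b ∨ w = c} = 3 := by
  classical
  have h1 : Nat.card {w : Ω // w = a ∨ w = b ∨ w = c} = Nat.card (({a, b, c} : Finset Ω) : Set Ω) := by
    apply Nat.card_congr
    exact Equiv.subtypeEquivRight (fun w => by simp)
  rw [h1, Nat.card_eq_card_toFinset, Finset.toFinset_coe]
  rw [Finset.card_insert_of_notMem, Finset.card_insert_of_notMem, Finset.card_singleton]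
  · simpa using hbc
  · simp [hab, hac]

/-- `|L| = 6 |K|` -/
theorem card_LL [Finite G] [Finite Ω] {a b c : Ω} (hab : a ≠ b) (hac : a ≠ c) (hbc : b ≠ c) {s ρ : G} (hs : s ∈ LL G a b c)
    (hρ : ρ ∈ LL G a b c) (sa : s • a = a) (sb : s • b = c) (sc : s • c = b) (hρ2 : ρ * ρ ∉ KK G a b c) :
    Nat.card (LL G a b c) = 6 * Nat.card (KK G a b c) := by
  classical
  set f := phi G a b c with hf
  have hperm : Nat.card (Equiv.Perm {w : Ω // w = a ∨ w = b ∨ w = c}) = 6 := by
    rw [Nat.card_perm, card_three hab hac hbc]; rfl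
  have hdvd : Nat.card f.range ∣ 6 := by
    rw [← hperm]; exact card_subgroup_dvd_card _
  -- order of s
  have h2 : 2 ∣ Nat.card f.range := by
    have ho : orderOf (f ⟨s, hs⟩) = 2 := by
      apply orderOf_eq_prime
      · rw [← map_pow, ← MonoidHom.mem_ker, mem_ker_phi, mem_KK]
        rw [SubmonoidClass.coe_pow, pow_two]
        refine ⟨?_, ?_, ?_⟩
        · rw [mul_smul, sa, sa]
        · rw [mul_smul, sb, sc]
        · rw [mul_smul, sc, sb]
      · intro h
        rw [← MonoidHom.mem_ker, mem_ker_phi, mem_KK] at h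
        exact hbc (h.2.1.symm.trans sb)
    have h3 : orderOf (⟨f ⟨s, hs⟩, MonoidHom.mem_range.mpr ⟨_, rfl⟩⟩ : f.range) = 2 := by
      rw [Subgroup.orderOf_mk]; exact ho
    rw [← h3]
    exact orderOf_dvd_natCard _
  have h3 : 3 ∣ Nat.card f.range := by
    have h4 : orderOf (⟨f ⟨ρ, hρ⟩, MonoidHom.mem_range.mpr ⟨_, rfl⟩⟩ : f.range) = orderOf (f ⟨ρ, hρ⟩) :=
      Subgroup.orderOf_mk _ _
    have h5 : orderOf (f ⟨ρ, hρ⟩) ∣ 6 := by
      rw [← hperm]; exact orderOf_dvd_natCard _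
    have h6 : ¬ orderOf (f ⟨ρ, hρ⟩) ∣ 2 := by
      intro h
      rw [orderOf_dvd_iff_pow_eq_one, ← map_pow, ← MonoidHom.mem_ker, mem_ker_phi] at h
      apply hρ2
      rw [SubmonoidClass.coe_pow, pow_two] at h
      exact h
    have h7 : 3 ∣ orderOf (f ⟨ρ, hρ⟩) := by
      have hpos : 0 < orderOf (f ⟨ρ, hρ⟩) := orderOf_pos _
      have hle := Nat.le_of_dvd (by norm_num) h5
      generalize orderOf (f ⟨ρ, hρ⟩) = m at h5 h6 hpos hle ⊢
      interval_cases m <;> revert h5 h6 <;> decide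
    exact h7.trans (h4 ▸ orderOf_dvd_natCard _)
  have h6 : Nat.card f.range = 6 := by
    apply Nat.dvd_antisymm hdvd
    exact Nat.Coprime.mul_dvd_of_dvd_of_dvd (by norm_num) h2 h3
  have h7 := f.ker.card_mul_index
  rw [Subgroup.index_ker, h6] at h7
  have h8 : Nat.card f.ker = Nat.card (KK G a b c) := by
    have h9 : f.ker = (KK G a b c).subgroupOf (LL G a b c) := by
      ext g
      rw [mem_subgroupOf]
      exact mem_ker_phi g
    rw [h9]
    exact Nat.card_congr (Subgroup.subgroupOfEquivOfLe KK_le_LL).toEquiv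
  rw [← h7, h8, mul_comm]

/-- elements of odd order lie in the kernel of a homomorphism to a `2`-group -/
theorem mem_ker_of_odd {K : Type u} [Group K] {P : Type u} [Group P] (hP : IsPGroup 2 P) (f : K →* P) {z : K}
    {m : ℕ} (hm : Odd m) (hz : z ^ m = 1) : z ∈ f.ker := by
  obtain ⟨k, hk⟩ := hP (f z)
  have h1 : (f z) ^ m = 1 := by rw [← map_pow, hz, map_one]
  have h3 := pow_gcd_eq_one.2 ⟨hk, h1⟩
  have h4 : Nat.gcd (2 ^ k) m = 1 := Nat.Coprime.pow_left k ((Nat.coprime_two_left).mpr hm)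
  rw [h4, pow_one] at h3
  exact h3

/-- the Klein four-group generated by two commuting involutions -/
def four (t r : G) (tt : t * t = 1) (rr : r * r = 1) (rt : r * t = t * r) : Subgroup G where
  carrier := {x | x = 1 ∨ x = t ∨ x = r ∨ x = t * r}
  one_mem' := Or.inl rfl
  mul_mem' := by
    have e1 : t * (t * r) = r := by rw [← mul_assoc, tt, one_mul]
    have e2 : r * (t * r) = t := by rw [← mul_assoc, rt, mul_assoc, rr, mul_one]
    have e3 : t * r * t = r := by rw [mul_assoc, rt, e1]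
    have e4 : t * r * r = t := by rw [mul_assoc, rr, mul_one]
    have e5 : t * r * (t * r) = 1 := by rw [mul_assoc, e2, tt]
    intro x y hx hy
    simp only [Set.mem_setOf_eq] at hx hy ⊢
    rcases hx with rfl | rfl | rfl | rfl <;> rcases hy with rfl | rfl | rfl | rfl <;>
      simp [tt, rr, rt, e1, e2, e3, e4, e5]
  inv_mem' := by
    have e2 : r * (t * r) = t := by rw [← mul_assoc, rt, mul_assoc, rr, mul_one]
    have e5 : t * r * (t * r) = 1 := by rw [mul_assoc, e2, tt]
    intro x hx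
    simp only [Set.mem_setOf_eq] at hx ⊢
    rcases hx with rfl | rfl | rfl | rfl
    · simp
    · right; left; exact inv_eq_of_mul_eq_one_right tt
    · right; right; left; exact inv_eq_of_mul_eq_one_right rr
    · right; right; right; exact inv_eq_of_mul_eq_one_right e5

theorem mem_four {t r : G} {tt : t * t = 1} {rr : r * r = 1} {rt : r * t = t * r} {x : G} :
    x ∈ four t r tt rr rt ↔ x = 1 ∨ x = t ∨ x = r ∨ x = t * r := Iff.rfl

theorem card_four {t r : G} {tt : t * t = 1} {rr : r * r = 1} {rt : r * t = t * r} (ht1 : t ≠ 1) (hr1 : r ≠ 1)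
    (hrt : r ≠ t) : Nat.card (four t r tt rr rt) = 4 := by
  classical
  have h1 : ((four t r tt rr rt : Subgroup G) : Set G) = (({1, t, r, t * r} : Finset G) : Set G) := by
    ext x
    simp [mem_four]
  change Nat.card ((four t r tt rr rt : Subgroup G) : Set G) = 4
  have htr1 : t * r ≠ 1 := by
    intro h
    apply hrt
    calc r = t * t * r := by rw [tt, one_mul]
      _ = t * (t * r) := by rw [mul_assoc]
      _ = t := by rw [h, mul_one]
  rw [h1, Nat.card_eq_card_toFinset, Finset.toFinset_coe]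
  rw [Finset.card_insert_of_notMem, Finset.card_insert_of_notMem, Finset.card_insert_of_notMem,
      Finset.card_singleton]
  · simp only [Finset.mem_singleton]
    intro h
    exact ht1 (by rw [eq_comm, mul_eq_right] at h; exact h)
  · simp only [Finset.mem_insert, Finset.mem_singleton, not_or]
    refine ⟨hrt.symm, ?_⟩
    intro h
    exact hr1 (by rw [eq_comm, mul_eq_left] at h; exact h)
  · simp only [Finset.mem_insert, Finset.mem_singleton, not_or]
    exact ⟨ht1.symm, hr1.symm, htr1.symm⟩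

/-- β -/
theorem beta [Fintype G] [Fintype Ω] {T : Sylow 2 G} {t r s v : G} {a b c : Ω} (h : D8 G Ω T t r s v a b c)
    {U : Subgroup G} (hU : Cen G T t U) (hUf : ∀ g ∈ U, g • a = a ∧ g • b = b ∧ g • c = c)
    (α1 : ∃ ρ : G, ρ * t * ρ⁻¹ = r ∧ ρ * r * ρ⁻¹ = t * r)
    (α2 : ∀ k : G, k • a = a → k • b = b → k • c = c → (k * t * k⁻¹ = t ∨ k * t * k⁻¹ = r ∨ k * t * k⁻¹ = t * r) →
      (k * r * k⁻¹ = t ∨ k * r * k⁻¹ = r ∨ k * r * k⁻¹ = t * r) → k * t = t * k ∧ k * r = r * k) :
    ∃ L O : Subgroup G, (∀ x ∈ L, ∀ y ∈ O, x * y * x⁻¹ ∈ O) ∧ Odd (Nat.card O) ∧ U ≤ O ∧ t ∈ L ∧ r ∈ L ∧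
      (∀ y ∈ O, y * t = t * y → y ∈ U) ∧ (∃ ρ ∈ L, ρ * t * ρ⁻¹ = r ∧ ρ * r * ρ⁻¹ = t * r) ∧
      Nat.card L = 24 * Nat.card O := by
  classical
  haveI : Fact (Nat.Prime 2) := ⟨Nat.prime_two⟩
  have tt : t * t = 1 := by rw [← pow_two, ← h.ot]; exact pow_orderOf_eq_one t
  have rr : r * r = 1 := by rw [← pow_two, ← h.or]; exact pow_orderOf_eq_one r
  have ss : s * s = 1 := by rw [← pow_two, ← h.os]; exact pow_orderOf_eq_one s
  have ht1 : t ≠ 1 := by intro e; have := h.ot; rw [e, orderOf_one] at this; omega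
  have hr1 : r ≠ 1 := by intro e; have := h.or; rw [e, orderOf_one] at this; omega
  obtain ⟨ρ, hρ1, hρ2⟩ := α1
  set K := KK G a b c with hK
  set L := LL G a b c with hL
  have htK : t ∈ K := mem_KK.mpr ⟨(h.ft a).mpr (Or.inl rfl), (h.ft b).mpr (Or.inr (Or.inl rfl)),
    (h.ft c).mpr (Or.inr (Or.inr rfl))⟩
  have hrK : r ∈ K := mem_KK.mpr ⟨(h.fr a).mpr (Or.inl rfl), (h.fr b).mpr (Or.inr (Or.inl rfl)),
    (h.fr c).mpr (Or.inr (Or.inr rfl))⟩
  have hsL : s ∈ L := by
    rw [hL, mem_LL]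
    intro w
    rw [← h.ft, ← h.ft]
    have e : t • s • w = s • t • w := by rw [smul_smul, smul_smul, h.st]
    rw [e]
    exact ⟨fun hh => smul_left_cancel s hh, fun hh => by rw [hh]⟩
  have hρL : ρ ∈ L := by
    rw [hL, mem_LL]
    intro w
    rw [← h.fr, ← h.ft]
    have e : r • ρ • w = ρ • t • w := by
      rw [smul_smul, smul_smul, ← hρ1]; congr 1; group
    rw [e]
    exact ⟨fun hh => smul_left_cancel ρ hh, fun hh => by rw [hh]⟩
  have hρK : ρ * ρ ∉ K := by
    intro hk
    rw [hK, mem_KK] at hk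
    have e1 : ρ * ρ * t * (ρ * ρ)⁻¹ = t * r := by
      calc ρ * ρ * t * (ρ * ρ)⁻¹ = ρ * (ρ * t * ρ⁻¹) * ρ⁻¹ := by group
        _ = ρ * r * ρ⁻¹ := by rw [hρ1]
        _ = t * r := hρ2
    have e2 : ρ * ρ * r * (ρ * ρ)⁻¹ = t := by
      have : ρ * ρ * r * (ρ * ρ)⁻¹ = (ρ * t * ρ⁻¹) * (ρ * r * ρ⁻¹) := by
        calc ρ * ρ * r * (ρ * ρ)⁻¹ = ρ * (ρ * r * ρ⁻¹) * ρ⁻¹ := by group
          _ = ρ * (t * r) * ρ⁻¹ := by rw [hρ2]
          _ = (ρ * t * ρ⁻¹) * (ρ * r * ρ⁻¹) := by group
      rw [this, hρ1, hρ2, ← mul_assoc, h.rt, mul_assoc, rr, mul_one]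
    have h5 := (α2 (ρ * ρ) hk.1 hk.2.1 hk.2.2 (Or.inr (Or.inr e1)) (Or.inl e2)).1
    have h6 : ρ * ρ * t * (ρ * ρ)⁻¹ = t := by rw [h5]; group
    rw [h6] at e1
    exact hr1 (by rw [eq_comm, mul_eq_left] at e1; exact e1)
  have hcardL := card_LL h.ab h.ac h.bc hsL hρL h.sa h.sb h.sc hρK
  rw [← hK, ← hL] at hcardL
  -- the four-group
  set V := four t r tt rr h.rt with hV
  have hVc : Nat.card V = 4 := card_four ht1 hr1 h.rnt
  have hV2 : IsPGroup 2 V := IsPGroup.of_card (n := 2) (by rw [hVc]; norm_num)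
  have hVK : V ≤ K := by
    intro x hx
    rcases mem_four.mp hx with rfl | rfl | rfl | rfl
    · exact one_mem _
    · exact htK
    · exact hrK
    · exact mul_mem htK hrK
  obtain ⟨Q, hQ⟩ := (hV2.comap_of_injective K.subtype K.subtype_injective).exists_le_sylow
  have hVK' : Nat.card (V.comap K.subtype) = 4 := by
    rw [← hVc]
    exact Nat.card_congr (Subgroup.subgroupOfEquivOfLe hVK).toEquiv
  have hQc : Nat.card Q = 4 := by
    have h4 : 4 ∣ Nat.card Q := by rw [← hVK']; exact card_dvd_of_le hQ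
    -- embed in a Sylow subgroup of G
    have hQ' : IsPGroup 2 ((Q : Subgroup K).map K.subtype) := Q.isPGroup'.map _
    obtain ⟨P, hP⟩ := hQ'.exists_le_sylow
    obtain ⟨g, hg⟩ := MulAction.exists_smul_eq G T P
    have hPc : Nat.card P = 8 := by
      rw [← h.card, ← hg]
      exact (Nat.card_congr (Subgroup.equivSMul (MulAut.conj g) (T : Subgroup G)).toEquiv).symm
    have hQcm : Nat.card ((Q : Subgroup K).map K.subtype) = Nat.card Q :=
      card_map_of_injective K.subtype_injective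
    have h8 : Nat.card Q ∣ 8 := by
      rw [← hPc, ← hQcm]; exact card_dvd_of_le hP
    have hle := Nat.le_of_dvd (by norm_num) h8
    have hne8 : Nat.card Q ≠ 8 := by
      intro he
      have hPQ : (Q : Subgroup K).map K.subtype = P := by
        apply Subgroup.eq_of_le_of_card_ge hP
        rw [hQcm, he, hPc]
      have hvT : v ∈ (T : Subgroup G) := by rw [← h.rs]; exact mul_mem h.rT h.sT
      have hgv : g * v * g⁻¹ ∈ (P : Subgroup G) := by
        rw [← hg]
        exact Subgroup.smul_mem_pointwise_smul v (MulAut.conj g) _ hvT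
      rw [← hPQ] at hgv
      obtain ⟨q, -, hq⟩ := hgv
      have hk := q.2
      have hq' : (q : G) = g * v * g⁻¹ := hq
      rw [hq', hK, mem_KK] at hk
      have f1 : ∀ w : Ω, (g * v * g⁻¹) • w = w → g⁻¹ • w = a := by
        intro w hw
        rw [← h.fv, smul_smul]
        rw [mul_smul, mul_smul] at hw
        rw [mul_smul]
        rw [← smul_left_cancel_iff g, hw, smul_inv_smul]
      have h9 : g⁻¹ • a = g⁻¹ • b := by rw [f1 a hk.1, f1 b hk.2.1]
      exact h.ab (smul_left_cancel _ h9)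
    have hpos : 0 < Nat.card Q := Nat.card_pos
    obtain ⟨m, hm⟩ := h4
    omega
  have hQV : V.comap K.subtype = (Q : Subgroup K) := by
    apply Subgroup.eq_of_le_of_card_ge hQ
    rw [hVK', hQc]
  have hNC : normalizer (Q : Set K) ≤ centralizer (Q : Set K) := by
    intro k hk
    have hk' : ∀ x : G, x ∈ V → (k : G) * x * (k : G)⁻¹ ∈ V := by
      intro x hx
      have h1 : (⟨x, hVK hx⟩ : K) ∈ (Q : Subgroup K) := by rw [← hQV]; exact hx
      have h2 := (mem_normalizer_iff.mp hk ⟨x, hVK hx⟩).mp h1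
      have h3 : k * ⟨x, hVK hx⟩ * k⁻¹ ∈ V.comap K.subtype := by rw [hQV]; exact h2
      exact h3
    have hkK := k.2
    have hkK' := mem_KK.mp hkK
    have ht3 : (k : G) * t * (k : G)⁻¹ = t ∨ (k : G) * t * (k : G)⁻¹ = r ∨ (k : G) * t * (k : G)⁻¹ = t * r := by
      rcases mem_four.mp (hk' t (mem_four.mpr (Or.inr (Or.inl rfl)))) with h1 | h1
      · exact absurd (conj_eq_one_iff.mp h1) ht1
      · exact h1
    have hr3 : (k : G) * r * (k : G)⁻¹ = t ∨ (k : G) * r * (k : G)⁻¹ = r ∨ (k : G) * r * (k : G)⁻¹ = t * r := by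
      rcases mem_four.mp (hk' r (mem_four.mpr (Or.inr (Or.inr (Or.inl rfl))))) with h1 | h1
      · exact absurd (conj_eq_one_iff.mp h1) hr1
      · exact h1
    obtain ⟨c1, c2⟩ := α2 k hkK'.1 hkK'.2.1 hkK'.2.2 ht3 hr3
    rw [mem_centralizer_iff]
    intro x hx
    have hx' : (x : G) ∈ V := by
      have : x ∈ V.comap K.subtype := by rw [hQV]; exact hx
      exact this
    apply Subtype.ext
    change (x : G) * k = k * x
    rcases mem_four.mp hx' with h1 | h1 | h1 | h1 <;> rw [h1]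
    · rw [one_mul, mul_one]
    · exact c1.symm
    · exact c2.symm
    · rw [mul_assoc, ← c2, ← mul_assoc, ← c1, mul_assoc]
  set f := MonoidHom.transferSylow Q hNC with hf
  have hcomp : IsComplement' f.ker (Q : Subgroup K) := MonoidHom.ker_transferSylow_isComplement' Q hNC
  have hodd' : ¬ 2 ∣ Nat.card f.ker := MonoidHom.not_dvd_card_ker_transferSylow Q hNC
  have hKc : Nat.card K = 4 * Nat.card f.ker := by
    have := hcomp.card_mul_card
    rw [← this, hQc, mul_comm]
  set O := f.ker.map K.subtype with hO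
  have hOc : Nat.card O = Nat.card f.ker := card_map_of_injective K.subtype_injective
  have hOodd : Odd (Nat.card O) := by
    rw [hOc, ← Nat.not_even_iff_odd, even_iff_two_dvd]; exact hodd'
  have memO : ∀ z : G, z ∈ K → ∀ m : ℕ, Odd m → z ^ m = 1 → z ∈ O := by
    intro z hz m hm hzm
    refine ⟨⟨z, hz⟩, ?_, rfl⟩
    apply mem_ker_of_odd Q.isPGroup' f hm
    apply Subtype.ext
    exact hzm
  have hOK : O ≤ K := by
    rintro _ ⟨y, -, rfl⟩
    exact y.2
  have hOpow : ∀ z ∈ O, z ^ Nat.card O = 1 := by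
    intro z hz
    have := pow_card_eq_one' (x := (⟨z, hz⟩ : O))
    exact congrArg Subtype.val this
  refine ⟨L, O, ?_, hOodd, ?_, KK_le_LL htK, KK_le_LL hrK, ?_, ⟨ρ, hρL, hρ1, hρ2⟩, ?_⟩
  · intro x hx y hy
    apply memO _ (LL_norm hx (hOK hy)) (Nat.card O) hOodd
    rw [conj_pow, hOpow y hy, mul_one, mul_inv_cancel]
  · intro u hu
    have hu2 := hUf u hu
    apply memO u (mem_KK.mpr hu2) (Nat.card U) hU.odd
    have := pow_card_eq_one' (x := (⟨u, hu⟩ : U))
    exact congrArg Subtype.val this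
  · intro y hy hyt
    set C := centralizer ({t} : Set G) with hC
    have hyC : y ∈ C := by rw [hC, mem_centralizer_singleton_iff]; exact hyt
    haveI hUn : (U.subgroupOf C).Normal := by
      constructor
      intro n hn g
      exact hU.nor g g.2 n hn
    have hidx : (U.subgroupOf C).index = 8 := by
      have h1 := (U.subgroupOf C).card_mul_index
      have h2 : Nat.card (U.subgroupOf C) = Nat.card U := Nat.card_congr (Subgroup.subgroupOfEquivOfLe hU.le).toEquiv
      have h3 := hU.card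
      rw [h2, h3, mul_comm] at h1
      exact Nat.eq_of_mul_eq_mul_right Nat.card_pos h1
    have h8 : ((⟨y, hyC⟩ : C) : C ⧸ U.subgroupOf C) ^ 8 = 1 := by
      rw [← QuotientGroup.mk_pow, QuotientGroup.eq_one_iff, ← hidx]
      exact Subgroup.pow_index_mem _ _
    have hm : ((⟨y, hyC⟩ : C) : C ⧸ U.subgroupOf C) ^ (Nat.card O) = 1 := by
      rw [← QuotientGroup.mk_pow]
      have : (⟨y, hyC⟩ : C) ^ (Nat.card O) = 1 := Subtype.ext (hOpow y hy)
      rw [this, QuotientGroup.mk_one]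
    have h3 := pow_gcd_eq_one.2 ⟨h8, hm⟩
    have h4 : Nat.gcd 8 (Nat.card O) = 1 := by
      have : Nat.Coprime (2 ^ 3) (Nat.card O) := Nat.Coprime.pow_left 3 ((Nat.coprime_two_left).mpr hOodd)
      exact this
    rw [h4, pow_one, QuotientGroup.eq_one_iff] at h3
    exact h3
  · rw [hcardL, hKc, hOc]; ring

end Cfsg.Agent.Lib.H52_BLINEa88
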