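import Mathlib
import Cfsg.Agent.Lib.H43FourA

/-! S3254, piece BLINE, second half: orders of the core of the line stabilizer, `p = 5` (helper88). -/

set_option autoImplicit false
set_option maxHeartbeats 400000

namespace Cfsg.Agent.Lib.H52_BLINEb

open Subgroup

universe u

variable {G : Type u} [Group G] [Finite G]

theorem card_conj {O : Subgroup G} {ρ x y : G} (hn : ∀ z ∈ O, ρ * z * ρ⁻¹ ∈ O) (hn' : ∀ z ∈ O, ρ⁻¹ * z * ρ ∈ O)
    (h : ρ * x * ρ⁻¹ = y) :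
    Nat.card ↥(O ⊓ centralizer ({x} : Set G)) = Nat.card ↥(O ⊓ centralizer ({y} : Set G)) := by
  refine Nat.card_congr
    { toFun := fun z => ⟨ρ * z * ρ⁻¹, ?_⟩
      invFun := fun z => ⟨ρ⁻¹ * z * ρ, ?_⟩
      left_inv := ?_
      right_inv := ?_ }
  · obtain ⟨z, hz⟩ := z
    rw [mem_inf, mem_centralizer_singleton_iff] at hz ⊢
    refine ⟨hn z hz.1, ?_⟩
    rw [← h]
    change ρ * z * ρ⁻¹ * (ρ * x * ρ⁻¹) = ρ * x * ρ⁻¹ * (ρ * z * ρ⁻¹)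
    calc ρ * z * ρ⁻¹ * (ρ * x * ρ⁻¹) = ρ * (z * x) * ρ⁻¹ := by group
      _ = ρ * (x * z) * ρ⁻¹ := by rw [hz.2]
      _ = ρ * x * ρ⁻¹ * (ρ * z * ρ⁻¹) := by group
  · obtain ⟨z, hz⟩ := z
    rw [mem_inf, mem_centralizer_singleton_iff] at hz ⊢
    refine ⟨hn' z hz.1, ?_⟩
    change ρ⁻¹ * z * ρ * x = x * (ρ⁻¹ * z * ρ)
    have hx : x = ρ⁻¹ * y * ρ := by rw [← h]; group
    rw [hx]
    calc ρ⁻¹ * z * ρ * (ρ⁻¹ * y * ρ) = ρ⁻¹ * (z * y) * ρ := by group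
      _ = ρ⁻¹ * (y * z) * ρ := by rw [hz.2]
      _ = ρ⁻¹ * y * ρ * (ρ⁻¹ * z * ρ) := by group
  · intro z; apply Subtype.ext; change ρ⁻¹ * (ρ * z * ρ⁻¹) * ρ = z; group
  · intro z; apply Subtype.ext; change ρ * (ρ⁻¹ * z * ρ) * ρ⁻¹ = z; group

/-- numeric end -/
theorem numeric {g u A o k p : ℕ} (hu : 0 < u) (_ho : 0 < o) (hA : 0 < A) (hp : 5 ≤ p)
    (hE : g * (p - 1) = 32 * p * (2 * p - 1) * u ^ 2) (h4 : 4 * u = A ^ 2 * (p - 1))
    (hBW : u ^ 3 = o * A ^ 2) (hk : g = 24 * o * k) : p = 5 ∧ g = 360 * A ^ 4 := by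
  obtain ⟨m, rfl⟩ : ∃ m, p = m + 1 := ⟨p - 1, by omega⟩
  simp only [Nat.add_sub_cancel] at hE h4
  have e1 : 2 * (m + 1) - 1 = 2 * m + 1 := by omega
  rw [e1] at hE
  have hm : 4 ≤ m := by omega
  have hm0 : 0 < m := by omega
  -- 3 k m^2 = 16 (m+1)(2m+1)
  have key : 3 * k * m ^ 2 = 16 * (m + 1) * (2 * m + 1) := by
    have hpos : 0 < 8 * u ^ 2 * A ^ 2 := by positivity
    apply Nat.eq_of_mul_eq_mul_left hpos
    have h1 : g * m * A ^ 2 = 32 * (m + 1) * (2 * m + 1) * u ^ 2 * A ^ 2 := by rw [hE]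
    have h2 : g * m * A ^ 2 = 24 * k * m * u ^ 3 := by rw [hk, hBW]; ring
    have h3 : 4 * (24 * k * m * u ^ 3) = 24 * k * m ^ 2 * u ^ 2 * A ^ 2 := by
      calc 4 * (24 * k * m * u ^ 3) = 24 * k * m * u ^ 2 * (4 * u) := by ring
        _ = 24 * k * m * u ^ 2 * (A ^ 2 * m) := by rw [h4]
        _ = 24 * k * m ^ 2 * u ^ 2 * A ^ 2 := by ring
    have h4' : 24 * k * m ^ 2 * u ^ 2 * A ^ 2 = 4 * (32 * (m + 1) * (2 * m + 1) * u ^ 2 * A ^ 2) := by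
      rw [← h3, ← h2, h1]
    calc 8 * u ^ 2 * A ^ 2 * (3 * k * m ^ 2) = 24 * k * m ^ 2 * u ^ 2 * A ^ 2 := by ring
      _ = 4 * (32 * (m + 1) * (2 * m + 1) * u ^ 2 * A ^ 2) := h4'
      _ = 8 * u ^ 2 * A ^ 2 * (16 * (m + 1) * (2 * m + 1)) := by ring
  -- m^2 ∣ 16
  have hc1 : Nat.Coprime (m ^ 2) (m + 1) := by
    apply Nat.Coprime.pow_left
    simp
  have hc2 : Nat.Coprime (m ^ 2) (2 * m + 1) := by
    apply Nat.Coprime.pow_left
    rw [Nat.coprime_comm]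
    have : 2 * m + 1 = 1 + m * 2 := by ring
    rw [this]
    simp
  have hd : m ^ 2 ∣ 16 := by
    have h1 : m ^ 2 ∣ 16 * (m + 1) * (2 * m + 1) := by rw [← key]; exact dvd_mul_left _ _
    have h2 := hc2.dvd_of_dvd_mul_right h1
    exact hc1.dvd_of_dvd_mul_right h2
  have hm4 : m ≤ 4 := by
    have := Nat.le_of_dvd (by norm_num) hd
    nlinarith
  have hm' : m = 4 := le_antisymm hm4 hm
  subst hm'
  refine ⟨rfl, ?_⟩
  have hu' : u = A ^ 2 := by omega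
  rw [hu'] at hE
  have h5 : g * 4 = (360 * A ^ 4) * 4 := by rw [hE]; ring
  exact Nat.eq_of_mul_eq_mul_right (by norm_num) h5

/-- group theoretic statement -/
theorem main {p : ℕ} (h5 : 5 ≤ p) {U : Subgroup G} {t r : G} (ht : t * t = 1) (hr : r * r = 1) (ht1 : t ≠ 1) (hr1 : r ≠ 1)
    (hrt : r * t = t * r) (hne : r ≠ t)
    (hUodd : Odd (Nat.card U)) (hUt : U ≤ centralizer ({t} : Set G))
    (hE : Nat.card G * (p - 1) = 32 * p * (2 * p - 1) * Nat.card U ^ 2)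
    (hcard : 4 * Nat.card U = Nat.card (U ⊓ centralizer ({r} : Set G) : Subgroup G) ^ 2 * (p - 1))
    {L O : Subgroup G} (hOn : ∀ x ∈ L, ∀ y ∈ O, x * y * x⁻¹ ∈ O) (hOodd : Odd (Nat.card O)) (hUO : U ≤ O)
    (htG : t ∈ L) (hrG : r ∈ L) (hCO : ∀ y ∈ O, y * t = t * y → y ∈ U)
    (hρ : ∃ ρ ∈ L, ρ * t * ρ⁻¹ = r ∧ ρ * r * ρ⁻¹ = t * r) (hGL : Nat.card L = 24 * Nat.card O) :
    p = 5 ∧ ∃ A : ℕ, Odd A ∧ Nat.card G = 360 * A ^ 4 := by
  classical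
  obtain ⟨ρ, hρG, hρt, hρr⟩ := hρ
  have hnn : ∀ x ∈ L, x ∈ normalizer (O : Set G) := by
    intro x hx
    rw [mem_normalizer_iff]
    intro y
    refine ⟨fun hy => hOn x hx y hy, fun hy => ?_⟩
    have := hOn x⁻¹ (inv_mem hx) _ hy
    rw [inv_inv] at this
    have e : x⁻¹ * (x * y * x⁻¹) * x = y := by group
    rwa [e] at this
  have hn1 : ∀ z ∈ O, ρ * z * ρ⁻¹ ∈ O := hOn ρ hρG
  have hn2 : ∀ z ∈ O, ρ⁻¹ * z * ρ ∈ O := by
    intro z hz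
    have := hOn ρ⁻¹ (inv_mem hρG) z hz
    rwa [inv_inv] at this
  have hCU : O ⊓ centralizer ({t} : Set G) = U := by
    ext y
    rw [mem_inf, mem_centralizer_singleton_iff]
    constructor
    · rintro ⟨h1, h2⟩
      exact hCO y h1 h2
    · intro hy
      refine ⟨hUO hy, ?_⟩
      have := hUt hy
      rw [mem_centralizer_singleton_iff] at this
      exact this
  have c1 : Nat.card ↥(O ⊓ centralizer ({t} : Set G)) = Nat.card ↥(O ⊓ centralizer ({r} : Set G)) :=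
    card_conj hn1 hn2 hρt
  have c2 : Nat.card ↥(O ⊓ centralizer ({r} : Set G)) = Nat.card ↥(O ⊓ centralizer ({t * r} : Set G)) :=
    card_conj hn1 hn2 hρr
  have hX : ¬ 2 ∣ Nat.card O := by
    intro h
    exact (Nat.not_even_iff_odd.mpr hOodd) (even_iff_two_dvd.mpr h)
  have hBW := H43FourA.four_formula O hX ht hr hrt.symm ht1 hr1 (Ne.symm hne) (hnn t htG) (hnn r hrG)
  rw [← c2, ← c1, hCU, ← inf_assoc, hCU] at hBW
  have hcU : 0 < Nat.card U := Nat.card_pos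
  have hcO : 0 < Nat.card O := Nat.card_pos
  have hcA : 0 < Nat.card ↥(U ⊓ centralizer ({r} : Set G)) := Nat.card_pos
  obtain ⟨k, hk⟩ := card_subgroup_dvd_card L
  rw [hGL] at hk
  obtain ⟨h1, h2⟩ := numeric hcU hcO hcA h5 hE hcard (by rw [← hBW]; ring) hk
  refine ⟨h1, _, ?_, h2⟩
  have hd : Nat.card ↥(U ⊓ centralizer ({r} : Set G)) ∣ Nat.card U := card_dvd_of_le inf_le_left
  exact hUodd.of_dvd_nat hd

end Cfsg.Agent.Lib.H52_BLINEb
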