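import Mathlib
import Cfsg.Agent.Lib.H52T0
import Cfsg.Agent.Lib.H52_BLINEa88
import Cfsg.Agent.Lib.H52_BLINEb

/-! S3254, piece BLINE: join (helper88), modulo the two local facts `α1`, `α2`. -/

set_option autoImplicit false
set_option maxHeartbeats 400000
set_option linter.all false

namespace Cfsg.Agent.Lib.H52_BLINE

open Subgroup Cfsg Cfsg.Agent.Lib.H52T0 Cfsg.Agent.Lib.BRPerm Cfsg.Agent.Lib.BRCore Cfsg.Agent.Lib.BRInd Cfsg.Agent.Lib.CharBasic Cfsg.Agent.Lib.BlockThird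

universe u v

variable {G : Type u} [Group G] [Fintype G] {Ω : Type v} [Fintype Ω] [MulAction G Ω] {p : ℕ}

theorem BLINE_of (hB : Base G Ω p) {χ : IrrCharacter G} (hχ : CharD G p 2 χ) (hχt : ∀ t : G, orderOf t = 2 → (χ : G → ℂ) t = 1)
    {T : Sylow 2 G} {t r s v : G} {a b c : Ω} (h : D8 G Ω T t r s v a b c) {U : Subgroup G}
    (hU : Cen G T t U) (hUf : ∀ g ∈ U, g • a = a ∧ g • b = b ∧ g • c = c)
    (hcard : 4 * Nat.card U = Nat.card (U ⊓ Subgroup.centralizer ({r} : Set G) : Subgroup G) ^ 2 * (p - 1))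
    (α1 : ∃ ρ : G, ρ * t * ρ⁻¹ = r ∧ ρ * r * ρ⁻¹ = t * r)
    (α2 : ∀ k : G, k • a = a → k • b = b → k • c = c → (k * t * k⁻¹ = t ∨ k * t * k⁻¹ = r ∨ k * t * k⁻¹ = t * r) →
      (k * r * k⁻¹ = t ∨ k * r * k⁻¹ = r ∨ k * r * k⁻¹ = t * r) → k * t = t * k ∧ k * r = r * k) :
    p = 5 ∧ ∃ A : ℕ, Odd A ∧ Nat.card G = 360 * A ^ 4 := by
  obtain ⟨L, O, h1, h2, h3, h4, h5, h6, h7, h8⟩ := H52_BLINEa88.beta h hU hUf α1 α2
  have tt : t * t = 1 := by rw [← pow_two, ← h.ot]; exact pow_orderOf_eq_one t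
  have rr : r * r = 1 := by rw [← pow_two, ← h.or]; exact pow_orderOf_eq_one r
  have ht1 : t ≠ 1 := by intro e; have := h.ot; rw [e, orderOf_one] at this; omega
  have hr1 : r ≠ 1 := by intro e; have := h.or; rw [e, orderOf_one] at this; omega
  have hp5 := hB.h5
  have hE : Nat.card G * (p - 1) = 32 * p * (2 * p - 1) * Nat.card U ^ 2 := by
    have e1 := hχ.E1 t h.ot 1 (by rw [hχt t h.ot]; norm_num)
    rw [hU.card] at e1
    obtain ⟨m, rfl⟩ : ∃ m, p = m + 1 := ⟨p - 1, by omega⟩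
    have e2 : 2 * (m + 1) - 1 = 2 * m + 1 := by omega
    rw [e2, Nat.add_sub_cancel]
    have hm : (m : ℤ) ≠ 0 := by
      have : 0 < m := by omega
      exact_mod_cast this.ne'
    have e3 : (4 * (m : ℤ)) * ((Nat.card G : ℤ) * m) = (4 * (m : ℤ)) * (32 * (m + 1) * (2 * m + 1) * (Nat.card U : ℤ) ^ 2) := by
      push_cast at e1
      linarith [e1]
    have e4 := mul_left_cancel₀ (mul_ne_zero (by norm_num : (4 : ℤ) ≠ 0) hm) e3
    exact_mod_cast e4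
  exact H52_BLINEb.main hp5 tt rr ht1 hr1 h.rt h.rnt hU.odd hU.le hE hcard h1 h2 h3 h4 h5 h6 h7 h8

end Cfsg.Agent.Lib.H52_BLINE
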