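import Mathlib
import Cfsg.Agent.Lib.H52T0
import Cfsg.Agent.Lib.H52_BLa48g

set_option autoImplicit false
set_option linter.all false

/-! The part `α` of BLINE of S3254 (helper48) -/

namespace Cfsg.Agent.Lib.H52_BLa48

open Cfsg Cfsg.Agent.Lib.BRPerm Cfsg.Agent.Lib.BRCore Cfsg.Agent.Lib.BRInd Cfsg.Agent.Lib.CharBasic Cfsg.Agent.Lib.BlockThird
open Cfsg.Agent.Lib.H52T0

universe u v

variable {G : Type u} [Group G] [Fintype G] {Ω : Type v} [MulAction G Ω]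

theorem set8 {T : Sylow 2 G} {t r s v : G} {a b c : Ω} (h : D8 G Ω T t r s v a b c) :
    H52_BLa48g.Set8 T t r s v a b c where
  card := h.card
  tT := h.tT
  rT := h.rT
  sT := h.sT
  tt := by have := pow_orderOf_eq_one t; rwa [h.ot, pow_two] at this
  rr := by have := pow_orderOf_eq_one r; rwa [h.or, pow_two] at this
  ss := by have := pow_orderOf_eq_one s; rwa [h.os, pow_two] at this
  t1 := by
    intro e
    have := h.ot
    rw [e, orderOf_one] at this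
    omega
  r1 := by
    intro e
    have := h.or
    rw [e, orderOf_one] at this
    omega
  vv := h.vv
  rs := h.rs
  rt := h.rt
  st := h.st
  rnt := h.rnt
  ab := h.ab
  ac := h.ac
  bc := h.bc
  ft := h.ft
  fr := h.fr
  sa := h.sa
  sb := h.sb
  sc := h.sc
  fT := h.fT

theorem dec {T : Sylow 2 G} {t : G} {U : Subgroup G} (hU : Cen G T t U) (x : G) (hx : x * t = t * x) :
    ∃ y ∈ U, ∃ z ∈ (T : Subgroup G), x = y * z := by
  have hTC : (T : Subgroup G) ≤ Subgroup.centralizer ({t} : Set G) := by rw [← hU.sup]; exact le_sup_right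
  have hx' : x ∈ U ⊔ (T : Subgroup G) := by
    rw [hU.sup, Subgroup.mem_centralizer_singleton_iff]; exact hx
  let S : Subgroup G :=
    { carrier := {x | ∃ y ∈ U, ∃ z ∈ (T : Subgroup G), x = y * z}
      one_mem' := ⟨1, one_mem _, 1, one_mem _, by group⟩
      mul_mem' := by
        rintro _ _ ⟨y1, hy1, z1, hz1, rfl⟩ ⟨y2, hy2, z2, hz2, rfl⟩
        exact ⟨y1 * (z1 * y2 * z1⁻¹), mul_mem hy1 (hU.nor z1 (hTC hz1) y2 hy2), z1 * z2, mul_mem hz1 hz2, by group⟩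
      inv_mem' := by
        rintro _ ⟨y1, hy1, z1, hz1, rfl⟩
        exact ⟨z1⁻¹ * y1⁻¹ * z1⁻¹⁻¹, hU.nor z1⁻¹ (hTC (inv_mem hz1)) _ (inv_mem hy1), z1⁻¹, inv_mem hz1, by group⟩ }
  have hS : U ⊔ (T : Subgroup G) ≤ S :=
    sup_le (fun y hy => ⟨y, hy, 1, one_mem _, by group⟩) (fun z hz => ⟨1, one_mem _, z, hz, by group⟩)
  exact hS hx'

theorem alpha1 {p : ℕ} [Fintype Ω] (hB : Base G Ω p) {T : Sylow 2 G} {t r s v : G} {a b c : Ω}
    (h : D8 G Ω T t r s v a b c) : ∃ ρ : G, ρ * t * ρ⁻¹ = r ∧ ρ * r * ρ⁻¹ = t * r :=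
  (set8 h).alpha1 (hB.conj r t h.or h.ot)

theorem alpha2 {p : ℕ} [Fintype Ω] (hB : Base G Ω p) {T : Sylow 2 G} {t r s v : G} {a b c : Ω}
    (h : D8 G Ω T t r s v a b c) {U : Subgroup G} (hU : Cen G T t U)
    (hUf : ∀ g ∈ U, g • a = a ∧ g • b = b ∧ g • c = c) : ∀ k : G, k • a = a → k • b = b → k • c = c →
      (k * t * k⁻¹ = t ∨ k * t * k⁻¹ = r ∨ k * t * k⁻¹ = t * r) →
      (k * r * k⁻¹ = t ∨ k * r * k⁻¹ = r ∨ k * r * k⁻¹ = t * r) → k * t = t * k ∧ k * r = r * k := by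
  intro k ka kb kc h1 h2
  haveI := hB.prim
  exact (set8 h).alpha2 (hB.conj s t h.os h.ot) (MulAction.exists_smul_eq G a b) U hU.odd hU.nor (dec hU) hUf k ka kb h1 h2

end Cfsg.Agent.Lib.H52_BLa48
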