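import Mathlib
import Cfsg.Agent.Lib.H52_BLINE
import Cfsg.Agent.Lib.H52_BLa48

/-! S3254, piece BLINE: final statement (helper88, helper48). -/

set_option autoImplicit false
set_option maxHeartbeats 400000
set_option linter.all false

namespace Cfsg.Agent.Lib.H52_BLINE

open Subgroup Cfsg Cfsg.Agent.Lib.H52T0 Cfsg.Agent.Lib.BRPerm Cfsg.Agent.Lib.BRCore Cfsg.Agent.Lib.BRInd Cfsg.Agent.Lib.CharBasic Cfsg.Agent.Lib.BlockThird

universe u v

variable {G : Type u} [Group G] [Fintype G] {Ω : Type v} [Fintype Ω] [MulAction G Ω] {p : ℕ}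

theorem BLINE (hB : Base G Ω p) {χ : IrrCharacter G} (hχ : CharD G p 2 χ) (hχt : ∀ t : G, orderOf t = 2 → (χ : G → ℂ) t = 1)
    (h3 : ∀ t : G, orderOf t = 2 → fx Ω t = 3)
    {T : Sylow 2 G} {t r s v : G} {a b c : Ω} (h : D8 G Ω T t r s v a b c) {U : Subgroup G}
    (hU : Cen G T t U) (hUf : ∀ g ∈ U, g • a = a ∧ g • b = b ∧ g • c = c)
    (hcard : 4 * Nat.card U = Nat.card (U ⊓ Subgroup.centralizer ({r} : Set G) : Subgroup G) ^ 2 * (p - 1)) :
    p = 5 ∧ ∃ A : ℕ, Odd A ∧ Nat.card G = 360 * A ^ 4 :=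
  BLINE_of hB hχ hχt h hU hUf hcard (H52_BLa48.alpha1 hB h) (H52_BLa48.alpha2 hB h hU hUf)

end Cfsg.Agent.Lib.H52_BLINE
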