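import Mathlib

set_option autoImplicit false
set_option linter.all false

/-! Rank three arithmetic (helper73) -/

namespace Cfsg.Agent.Lib.H52_BRANKa

open Polynomial

/-- an algebraic integer which is a root of an integral quadratic -/
theorem quad {A B D : ℤ} {r : ℂ} (hA : A ≠ 0) (hr : IsIntegral ℤ r)
    (h : (A : ℂ) * r ^ 2 + B * r + D = 0) : (∃ n : ℤ, r = n) ∨ (A ∣ B ∧ A ∣ D) := by
  set P : ℤ[X] := C A * X ^ 2 + C B * X + C D with hP
  have h1 : aeval r P = 0 := by
    rw [hP]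
    simp only [map_add, map_mul, map_pow, aeval_C, aeval_X, algebraMap_int_eq, Int.coe_castRingHom]
    exact h
  have h2 : minpoly ℤ r ∣ P := minpoly.isIntegrallyClosed_dvd hr h1
  obtain ⟨q, hq⟩ := h2
  have hdeg : P.natDegree = 2 := natDegree_quadratic hA
  have hm : (minpoly ℤ r).Monic := minpoly.monic hr
  have hq0 : q ≠ 0 := by
    rintro rfl
    rw [mul_zero] at hq
    rw [hq] at hdeg
    simp at hdeg
  have h3 : (minpoly ℤ r).natDegree + q.natDegree = 2 := by
    rw [← hm.natDegree_mul' hq0, ← hq, hdeg]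
  have h4 : 0 < (minpoly ℤ r).natDegree := minpoly.natDegree_pos hr
  rcases Nat.lt_or_ge (minpoly ℤ r).natDegree 2 with h5 | h5
  · left
    have h6 : (minpoly ℤ r).natDegree = 1 := by omega
    have h7 : minpoly ℤ r = X + C ((minpoly ℤ r).coeff 0) := by
      conv_lhs => rw [hm.eq_X_add_C h6]
    have h8 := minpoly.aeval ℤ r
    rw [h7] at h8
    simp only [map_add, aeval_X, aeval_C, algebraMap_int_eq, Int.coe_castRingHom] at h8
    exact ⟨-(minpoly ℤ r).coeff 0, by push_cast; linear_combination h8⟩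
  · right
    have h6 : q.natDegree = 0 := by omega
    have h7 : (minpoly ℤ r).natDegree = 2 := by omega
    rw [eq_C_of_natDegree_eq_zero h6] at hq
    have c2 : P.coeff 2 = A := by rw [hP]; simp only [coeff_add, coeff_C_mul, coeff_X_pow, coeff_X, coeff_C]; norm_num
    have c1 : P.coeff 1 = B := by rw [hP]; simp only [coeff_add, coeff_C_mul, coeff_X_pow, coeff_X, coeff_C]; norm_num
    have c0 : P.coeff 0 = D := by rw [hP]; simp only [coeff_add, coeff_C_mul, coeff_X_pow, coeff_X, coeff_C]; norm_num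
    have h8 : A = q.coeff 0 := by
      rw [← c2, hq, coeff_mul_C, ← h7, hm.coeff_natDegree, one_mul]
    constructor
    · rw [h8, ← c1, hq, coeff_mul_C]
      exact Dvd.intro_left _ rfl
    · rw [h8, ← c0, hq, coeff_mul_C]
      exact Dvd.intro_left _ rfl

/-- the eigenvalue on `χ` is a rational integer -/
theorem rat {p k : ℤ} {r s : ℂ} (hr : IsIntegral ℤ r) (h5 : 5 ≤ p) (hk0 : 0 < k) (hk1 : k < 3 * p - 1)
    (h1 : (k : ℂ) + (2 * p - 1) * r + p * s = 0)
    (h2 : (k : ℂ) ^ 2 + (2 * p - 1) * r ^ 2 + p * s ^ 2 = 3 * p * k) : ∃ n : ℤ, r = n := by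
  have hA : (2 * p - 1) * (3 * p - 1) ≠ 0 := by
    have ha : 0 < 2 * p - 1 := by omega
    have hb : 0 < 3 * p - 1 := by omega
    exact (mul_pos ha hb).ne'
  rcases quad (A := (2 * p - 1) * (3 * p - 1)) (B := 2 * k * (2 * p - 1))
    (D := k ^ 2 * (p + 1) - 3 * p ^ 2 * k) hA hr (by
      push_cast
      have h3 : (p : ℂ) * s = -(k + (2 * p - 1) * r) := by linear_combination h1
      have h4 : (p : ℂ) * ((k : ℂ) ^ 2 + (2 * p - 1) * r ^ 2) + (k + (2 * p - 1) * r) ^ 2 = 3 * p ^ 2 * k := by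
        have : (p : ℂ) * (k ^ 2 + (2 * p - 1) * r ^ 2 + p * s ^ 2) = p * (3 * p * k) := by rw [h2]
        have h6 : ((p : ℂ) * s) ^ 2 = (k + (2 * p - 1) * r) ^ 2 := by rw [h3]; ring
        linear_combination this - h6
      linear_combination h4) with h | ⟨hB, hD⟩
  · exact h
  · exfalso
    have hc : (2 * p - 1) ≠ 0 := by omega
    have h3 : (3 * p - 1) ∣ 2 * k := by
      have : (2 * p - 1) * (3 * p - 1) ∣ (2 * p - 1) * (2 * k) := by
        rw [show (2 * p - 1) * (2 * k) = 2 * k * (2 * p - 1) by ring]; exact hB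
      exact (mul_dvd_mul_iff_left hc).1 this
    obtain ⟨m, hm⟩ := h3
    have hm1 : m = 1 := by
      have h6 : 0 < m := by
        by_contra hcon
        push Not at hcon
        nlinarith
      have h7 : m < 2 := by
        by_contra hcon
        push Not at hcon
        nlinarith
      omega
    rw [hm1, mul_one] at hm
    have h6 : (2 * p - 1) ∣ 3 := by
      have h8 : (2 * p - 1) * (3 * p - 1) ∣ 4 * (k ^ 2 * (p + 1) - 3 * p ^ 2 * k) := Dvd.dvd.mul_left hD 4
      have h9 : 4 * (k ^ 2 * (p + 1) - 3 * p ^ 2 * k) = (-(3 * p ^ 2 - 2 * p + 1)) * (3 * p - 1) := by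
        have : 4 * (k ^ 2 * (p + 1) - 3 * p ^ 2 * k) = (2 * k) * ((2 * k) * (p + 1) - 6 * p ^ 2) := by ring
        rw [this, hm]; ring
      rw [h9] at h8
      have h10 : (2 * p - 1) ∣ -(3 * p ^ 2 - 2 * p + 1) := by
        have hb : (3 * p - 1) ≠ 0 := by omega
        exact (mul_dvd_mul_iff_right hb).1 h8
      have h11 : (3 : ℤ) = (-(3 * p ^ 2 - 2 * p + 1)) * (-4) - (2 * p - 1) * (6 * p - 1) := by ring
      rw [h11]
      exact dvd_sub (Dvd.dvd.mul_right h10 _) (dvd_mul_right _ _)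
    have h7 := Int.le_of_dvd (by norm_num) h6
    omega

theorem arith {p k r s : ℤ} (h5 : 5 ≤ p) (hk0 : 0 < k) (hk1 : k < 3 * p - 1)
    (h1 : k + (2 * p - 1) * r + p * s = 0) (h2 : k ^ 2 + (2 * p - 1) * r ^ 2 + p * s ^ 2 = 3 * p * k) :
    (∃ A : ℤ, 2 * p = 6 * A ^ 2 - 3 * A + 1 ∧ 2 * k = (3 * A - 1) * (2 * A - 1) ∧
      3 * p - 1 - k = 2 * A * (3 * A - 1) ∧ r = -A ∧ s = 2 * A - 1 ∧ k = p - A) ∨
    (∃ A : ℤ, 2 * p = 6 * A ^ 2 - 3 * A + 1 ∧ 2 * (3 * p - 1 - k) = (3 * A - 1) * (2 * A - 1) ∧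
      k = 2 * A * (3 * A - 1) ∧ r = A - 1 ∧ s = -2 * A ∧ 3 * p - 1 - k = p - A) := by
  obtain ⟨j, hj⟩ : ∃ j : ℤ, j = -(2 * r + s) := ⟨_, rfl⟩
  have hs : s = -2 * r - j := by omega
  have hk : k = r + p * j := by rw [hj]; linear_combination h1
  have hq : 6 * r ^ 2 + (6 * j - 3) * r + j ^ 2 + p * (j * (j - 3)) = 0 := by
    have hp0 : p ≠ 0 := by omega
    apply mul_left_cancel₀ hp0
    rw [hk, hs] at h2
    linear_combination h2
  have hj3 : j * (j - 3) ≤ 0 := by
    by_contra hcon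
    push Not at hcon
    have h6 : (12 * r + 6 * j - 3) ^ 2 = 9 - 12 * (j * (j - 3)) * (2 * p - 1) := by
      linear_combination 24 * hq
    have h7 : 0 ≤ (12 * r + 6 * j - 3) ^ 2 := sq_nonneg _
    have h8 : 1 ≤ j * (j - 3) := hcon
    nlinarith
  have hj0 : 0 ≤ j := by
    by_contra hcon
    push Not at hcon
    nlinarith
  have hj4 : j ≤ 3 := by
    by_contra hcon
    push Not at hcon
    nlinarith
  have hcases : j = 0 ∨ j = 1 ∨ j = 2 ∨ j = 3 := by omega
  rcases hcases with rfl | rfl | rfl | rfl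
  · exfalso
    have h6 : r * (2 * r - 1) = 0 := by linarith [hq, show 6 * r ^ 2 + (6 * 0 - 3) * r + 0 ^ 2 + p * (0 * (0 - 3)) = 3 * (r * (2 * r - 1)) by ring]
    rcases mul_eq_zero.1 h6 with h7 | h7
    · rw [h7] at hk; omega
    · omega
  · left
    refine ⟨-r, by linear_combination -hq, ?_, ?_, by ring, by rw [hs]; ring, by rw [hk]; ring⟩
    · rw [hk]; linear_combination -hq
    · rw [hk]; linear_combination -hq
  · right
    refine ⟨r + 1, by linear_combination -hq, ?_, ?_, by ring, by rw [hs]; ring, by rw [hk]; ring⟩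
    · rw [hk]; linear_combination -hq
    · rw [hk]; linear_combination -hq
  · exfalso
    have h6 : (r + 1) * (2 * r + 3) = 0 := by linarith [hq, show 6 * r ^ 2 + (6 * 3 - 3) * r + 3 ^ 2 + p * (3 * (3 - 3)) = 3 * ((r + 1) * (2 * r + 3)) by ring]
    rcases mul_eq_zero.1 h6 with h7 | h7
    · have : r = -1 := by omega
      rw [this] at hk; omega
    · omega

end Cfsg.Agent.Lib.H52_BRANKa
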