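import Mathlib
import Cfsg.Agent.Lib.PermChar4
import Cfsg.Agent.Lib.BlockThird

set_option autoImplicit false
set_option linter.all false

/-! Rank three: eigenvalues of an orbital operator (helper73) -/

namespace Cfsg.Agent.Lib.H52_BRANKb

open scoped ComplexConjugate
open Cfsg Representation Module Cfsg.Agent.Lib.CharBasic Cfsg.Agent.Lib.PermChar
  Cfsg.Agent.Lib.PermChar2 Cfsg.Agent.Lib.PermChar3 Cfsg.Agent.Lib.PermChar4
open Cfsg.Agent.Lib.BlockThird (triv coe_triv)

universe u v w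

section conv

variable {G : Type u} [Group G] [Fintype G]

/-- convolution -/
def cv (a b : G → ℂ) (x : G) : ℂ := ∑ g : G, a g * b (g⁻¹ * x)

theorem wsum_cv {V : Type v} [AddCommGroup V] [Module ℂ V] (a b : G → ℂ) (ρ : Representation ℂ G V) :
    wsum (cv a b) ρ = wsum a ρ ∘ₗ wsum b ρ := by
  apply LinearMap.ext
  intro v
  rw [LinearMap.comp_apply, wsum_apply, wsum_apply]
  have h1 : ∀ x : G, cv a b x • ρ x v = ∑ g : G, (a g * b (g⁻¹ * x)) • ρ x v := by
    intro x
    rw [cv, Finset.sum_smul]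
  rw [Finset.sum_congr rfl (fun x _ => h1 x), Finset.sum_comm]
  refine Finset.sum_congr rfl fun g _ => ?_
  rw [wsum_apply, map_sum, Finset.smul_sum]
  refine Fintype.sum_equiv (Equiv.mulLeft g⁻¹) _ _ fun x => ?_
  rw [Equiv.coe_mulLeft, map_smul, smul_smul]
  congr 1
  rw [← Module.End.mul_apply, ← map_mul, mul_inv_cancel_left]

theorem sum_cv {a : G → ℂ} (ha : IsClassFunction G a) {η : G → ℂ} (hη : IsIrrCharacter G η) :
    ∑ x : G, cv a a x * η x = η 1 * ((∑ g : G, a g * η g) / η 1) ^ 2 := by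
  have hη0 := hη.one_ne_zero
  obtain ⟨n, σ, hσ, hσφ⟩ := hη
  obtain ⟨c, hc⟩ := wsum_irr_scalar ha σ hσ
  have h6 := trace_wsum a σ
  rw [hc, map_smul, LinearMap.trace_id, smul_eq_mul] at h6
  have h7 : η 1 = (finrank ℂ (Fin n → ℂ) : ℂ) := by rw [← hσφ, char_one]
  have h8 := trace_wsum (cv a a) σ
  rw [wsum_cv, hc, LinearMap.comp_smul, LinearMap.smul_comp, LinearMap.comp_id, map_smul, map_smul,
    LinearMap.trace_id, smul_eq_mul, smul_eq_mul] at h8
  rw [hσφ] at h6 h8
  rw [← h7] at h6 h8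
  rw [← h8, ← h6, mul_div_assoc, div_self hη0]
  ring

end conv

section spec

variable {G : Type u} [Group G] [Fintype G] {Ω : Type v} [Fintype Ω] [MulAction G Ω]

theorem eig {T : (Ω → ℂ) →ₗ[ℂ] (Ω → ℂ)} {v : Ω → ℂ} (hv : v ≠ 0) {r : ℂ} (h : T v = r • v) :
    r ∈ (LinearMap.charpoly T).roots := by
  rw [Polynomial.mem_roots (LinearMap.charpoly_monic T).ne_zero]
  rw [← Module.End.hasEigenvalue_iff_isRoot_charpoly]
  exact Module.End.hasEigenvalue_of_hasEigenvector (x := v) ⟨Module.End.mem_eigenspace_iff.2 h, hv⟩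

theorem trace_sq [MulAction.IsPretransitive G Ω] (hsp : ∀ a b : Ω, ∃ g : G, g • a = b ∧ g • b = a) (a b : Ω) :
    LinearMap.trace ℂ (Ω → ℂ) (orbOp G b a ∘ₗ orbOp G b a) =
      (Nat.card Ω : ℂ) * Nat.card (MulAction.orbit (MulAction.stabilizer G a) b) := by
  classical
  rw [LinearMap.trace_eq_matrix_trace ℂ (Pi.basisFun ℂ Ω), Matrix.trace]
  have h1 : ∀ x : Ω, Matrix.diag (LinearMap.toMatrix (Pi.basisFun ℂ Ω) (Pi.basisFun ℂ Ω)
      (orbOp G b a ∘ₗ orbOp G b a)) x = (Nat.card (MulAction.orbit (MulAction.stabilizer G a) b) : ℂ) := by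
    intro x
    rw [Matrix.diag_apply, LinearMap.toMatrix_apply, Pi.basisFun_apply, Pi.basisFun_repr,
      LinearMap.comp_apply, orbOp_apply, ← orbOp_const (G := G) a b (fun _ => 1) (fun _ => rfl) x, orbOp_apply]
    refine Finset.sum_congr rfl fun y _ => ?_
    by_cases hy : (y, x) ∈ MulAction.orbit G (b, a)
    · rw [if_pos hy, if_pos hy, orbOp_single, if_pos]
      obtain ⟨g, hg1, hg2⟩ := hsp y x
      have h2 := MulAction.mem_orbit_of_mem_orbit g hy
      rwa [Prod.smul_mk, hg1, hg2] at h2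
    · rw [if_neg hy, if_neg hy]
  rw [Finset.sum_congr rfl (fun x _ => h1 x), Finset.sum_const, Finset.card_univ, nsmul_eq_mul,
    ← Nat.card_eq_fintype_card (α := Ω)]

theorem spec [MulAction.IsPretransitive G Ω] {χ ψ : IrrCharacter G} (hχ1 : χ ≠ triv G) (hψ1 : ψ ≠ triv G)
    (hne : ψ ≠ χ) (hpi : (Cfsg.permRep ℂ G Ω).character = 1 + (χ : G → ℂ) + (ψ : G → ℂ))
    (hsp : ∀ a b : Ω, ∃ g : G, g • a = b ∧ g • b = a) (a b : Ω) (hab : b ≠ a) :
    ∃ r s : ℂ, IsIntegral ℤ r ∧ IsIntegral ℤ s ∧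
      (Nat.card (MulAction.orbit (MulAction.stabilizer G a) b) : ℂ) + (χ : G → ℂ) 1 * r + (ψ : G → ℂ) 1 * s = 0 ∧
      (Nat.card (MulAction.orbit (MulAction.stabilizer G a) b) : ℂ) ^ 2 + (χ : G → ℂ) 1 * r ^ 2 +
        (ψ : G → ℂ) 1 * s ^ 2 = (Nat.card Ω : ℂ) * Nat.card (MulAction.orbit (MulAction.stabilizer G a) b) := by
  classical
  set ρ := Cfsg.permRep ℂ G Ω with hρ
  set k : ℂ := (Nat.card (MulAction.orbit (MulAction.stabilizer G a) b) : ℂ) with hk
  have htr : ((triv G : IrrCharacter G) : G → ℂ) = 1 := rfl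
  have hin : ∀ η : IrrCharacter G, classInner ρ.character (η : G → ℂ) =
      (if triv G = η then 1 else 0) + (if χ = η then 1 else 0) + (if ψ = η then 1 else 0) := by
    intro η
    rw [hpi, ← htr, classInner_add_left, classInner_add_left, irr_orthonormal, irr_orthonormal, irr_orthonormal]
  have hmf : ∀ η : G → ℂ, IsIrrCharacter G η → classInner ρ.character η = 0 ∨ classInner ρ.character η = 1 := by
    intro η hη
    have h1 := hin ⟨η, hη⟩
    have h2 : classInner ρ.character η = _ := h1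
    rw [h2]
    by_cases e1 : triv G = ⟨η, hη⟩
    · rw [if_pos e1, if_neg (fun h => hχ1 (h.trans e1.symm)), if_neg (fun h => hψ1 (h.trans e1.symm))]
      right; norm_num
    · by_cases e2 : χ = ⟨η, hη⟩
      · rw [if_neg e1, if_pos e2, if_neg (fun h => hne (h.trans e2.symm))]
        right; norm_num
      · by_cases e3 : ψ = ⟨η, hη⟩
        · rw [if_neg e1, if_neg e2, if_pos e3]
          right; norm_num
        · rw [if_neg e1, if_neg e2, if_neg e3]
          left; norm_num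
  obtain ⟨S, c, -, hT⟩ := span_of_mult_free ρ hmf (orbOp G b a) (orbOp_comm b a)
  set α : G → ℂ := fun g => ∑ η ∈ S, c η * conj ((η : G → ℂ) g) with hα
  have hαc : IsClassFunction G α := by
    intro g x
    rw [hα]
    refine Finset.sum_congr rfl fun η _ => ?_
    rw [η.2.isClassFunction]
  have hTα : orbOp G b a = wsum α ρ := by
    rw [hT]
    apply LinearMap.ext
    intro v
    rw [LinearMap.sum_apply, wsum_apply]
    have h1 : ∀ g : G, α g • ρ g v = ∑ η ∈ S, (c η * conj ((η : G → ℂ) g)) • ρ g v := by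
      intro g
      rw [hα, Finset.sum_smul]
    rw [Finset.sum_congr rfl (fun g _ => h1 g), Finset.sum_comm]
    refine Finset.sum_congr rfl fun η _ => ?_
    rw [LinearMap.smul_apply, wsum_apply, Finset.smul_sum]
    refine Finset.sum_congr rfl fun g _ => ?_
    rw [smul_smul]
  have hconst : ∑ g : G, α g = k := by
    have h1 := congrFun (congrArg (fun T : (Ω → ℂ) →ₗ[ℂ] (Ω → ℂ) => T (fun _ => 1)) hTα) a
    have h2 : orbOp G b a (fun _ => 1) a = k := orbOp_const a b _ (fun _ => rfl) a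
    have h3 : wsum α ρ (fun _ => 1) a = ∑ g : G, α g := by
      rw [wsum_apply, Finset.sum_apply]
      refine Finset.sum_congr rfl fun g _ => ?_
      rw [Pi.smul_apply, hρ, PermRepBasic.permRep_apply, smul_eq_mul, mul_one]
    rw [← h3, ← h2]
    exact h1.symm
  have hχ0 : classInner ρ.character (χ : G → ℂ) ≠ 0 := by
    rw [hin, if_neg hχ1.symm, if_pos rfl, if_neg hne]; norm_num
  have hψ0 : classInner ρ.character (ψ : G → ℂ) ≠ 0 := by
    rw [hin, if_neg hψ1.symm, if_neg hne.symm, if_pos rfl]; norm_num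
  have hint : ∀ η : IrrCharacter G, classInner ρ.character (η : G → ℂ) ≠ 0 →
      IsIntegral ℤ ((∑ g : G, α g * (η : G → ℂ) g) / (η : G → ℂ) 1) := by
    intro η hη
    obtain ⟨v, hv, hvs⟩ := exists_vector ρ η.2 hη
    have h1 := hvs α hαc
    rw [← hTα] at h1
    exact isIntegral_of_root a b (eig hv h1)
  refine ⟨_, _, hint χ hχ0, hint ψ hψ0, ?_, ?_⟩
  · have h1 := trace_wsum α ρ
    rw [← hTα, trace_orbOp a b hab, hpi] at h1
    have h2 : ∑ g : G, α g * ((1 : G → ℂ) + (χ : G → ℂ) + (ψ : G → ℂ)) g =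
        (∑ g : G, α g) + (∑ g : G, α g * (χ : G → ℂ) g) + ∑ g : G, α g * (ψ : G → ℂ) g := by
      rw [← Finset.sum_add_distrib, ← Finset.sum_add_distrib]
      refine Finset.sum_congr rfl fun g _ => ?_
      rw [Pi.add_apply, Pi.add_apply, Pi.one_apply]; ring
    rw [h2, hconst] at h1
    rw [mul_div_cancel₀ _ χ.2.one_ne_zero, mul_div_cancel₀ _ ψ.2.one_ne_zero]
    exact h1.symm
  · have h1 := trace_wsum (cv α α) ρ
    rw [wsum_cv, ← hTα, trace_sq hsp a b, hpi] at h1
    have h2 : ∑ g : G, cv α α g * ((1 : G → ℂ) + (χ : G → ℂ) + (ψ : G → ℂ)) g =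
        (∑ g : G, cv α α g * ((triv G : IrrCharacter G) : G → ℂ) g) + (∑ g : G, cv α α g * (χ : G → ℂ) g) +
          ∑ g : G, cv α α g * (ψ : G → ℂ) g := by
      rw [← Finset.sum_add_distrib, ← Finset.sum_add_distrib]
      refine Finset.sum_congr rfl fun g _ => ?_
      rw [Pi.add_apply, Pi.add_apply, htr, Pi.one_apply]; ring
    rw [h2, sum_cv hαc (triv G).2, sum_cv hαc χ.2, sum_cv hαc ψ.2] at h1
    have h3 : ((triv G : IrrCharacter G) : G → ℂ) 1 * ((∑ g : G, α g * ((triv G : IrrCharacter G) : G → ℂ) g) /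
        ((triv G : IrrCharacter G) : G → ℂ) 1) ^ 2 = k ^ 2 := by
      rw [htr]
      simp only [Pi.one_apply, mul_one, one_mul, div_one]
      rw [hconst]
    rw [h3] at h1
    rw [h1]

end spec

end Cfsg.Agent.Lib.H52_BRANKb
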