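import Mathlib

set_option autoImplicit false
set_option linter.all false

/-! Core of piece BT of S3254 (helper64). -/

namespace Cfsg.Agent.Lib.H52_BTc

open MulAction

theorem card_dvd_of_free {K T : Type*} [Group K] [Finite K] [Finite T] [MulAction K T]
    (h : ∀ (k : K) (t : T), k • t = t → k = 1) : Nat.card K ∣ Nat.card T := by
  classical
  have := Fintype.ofFinite K
  have := Fintype.ofFinite T
  have h1 := MulAction.sum_card_fixedBy_eq_card_orbits_mul_card_group K T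
  have h2 : ∀ r : K, Fintype.card (MulAction.fixedBy T r) = if r = 1 then Fintype.card T else 0 := by
    intro r
    split_ifs with hr
    · subst hr
      exact Fintype.card_congr ⟨fun x => x.1, fun x => ⟨x, one_smul _ _⟩, fun x => rfl, fun x => rfl⟩
    · rw [Fintype.card_eq_zero_iff]
      constructor
      rintro ⟨x, hx⟩
      exact hr (h r x hx)
  rw [Finset.sum_congr rfl fun r _ => h2 r, Finset.sum_ite_eq' Finset.univ (1 : K) (fun _ => Fintype.card T)] at h1
  rw [if_pos (Finset.mem_univ _)] at h1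
  rw [Nat.card_eq_fintype_card, Nat.card_eq_fintype_card, h1]
  exact Dvd.intro_left _ rfl

/-- the action of a subgroup on an invariant set -/
@[reducible] def setAct {G Ω : Type*} [Group G] [MulAction G Ω] (P : Subgroup G) (T : Set Ω)
    (hT : ∀ g ∈ P, ∀ t ∈ T, g • t ∈ T) : MulAction P T where
  smul := fun g t => ⟨g.1 • t.1, hT g.1 g.2 t.1 t.2⟩
  one_smul := fun t => Subtype.ext (one_smul G t.1)
  mul_smul := fun g h t => Subtype.ext (mul_smul g.1 h.1 t.1)

theorem ord_conj {G : Type*} [Group G] (g y : G) : orderOf (g * y * g⁻¹) = orderOf y :=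
  MulEquiv.orderOf_eq (MulAut.conj g) y

theorem count_core {G Ω : Type*} [Group G] [Finite G] [Finite Ω] [MulAction G Ω]
    (hconj : ∀ s t : G, orderOf s = 2 → orderOf t = 2 → IsConj s t)
    (h3 : ∀ t : G, orderOf t = 2 → Nat.card (fixedBy Ω t) = 3)
    (hodd : Odd (Nat.card {z : G // orderOf z = 2})) {a b : Ω} (hab : a ≠ b)
    (h8 : 8 ∣ Nat.card (orbit G (a, b))) {z : G} (hz : orderOf z = 2) (hza : z • a = a) (hzb : z • b = b) : False := by
  classical
  have := Fintype.ofFinite G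
  have := Fintype.ofFinite Ω
  obtain ⟨I, hI⟩ : ∃ I : Finset G, ∀ x, x ∈ I ↔ orderOf x = 2 := ⟨Finset.univ.filter (fun x => orderOf x = 2), by simp⟩
  obtain ⟨O, hO⟩ : ∃ O : Finset (Ω × Ω), ∀ q, q ∈ O ↔ q ∈ orbit G (a, b) :=
    ⟨Finset.univ.filter (fun q => q ∈ orbit G (a, b)), by simp⟩
  have hIc : I.card = Nat.card {z : G // orderOf z = 2} := by
    rw [Nat.card_eq_fintype_card, Fintype.card_subtype]
    congr 1
    ext x; simp [hI]
  have hOc : O.card = Nat.card (orbit G (a, b)) := by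
    rw [Nat.card_eq_fintype_card, ← Set.toFinset_card]
    congr 1
    ext x; simp [hO]
  have key := Finset.sum_card_bipartiteAbove_eq_sum_card_bipartiteBelow (s := I) (t := O)
    (fun (y : G) (q : Ω × Ω) => y • q = q)
  simp only [Finset.bipartiteAbove, Finset.bipartiteBelow] at key
  have hL : ∀ y ∈ I, (O.filter (fun q => y • q = q)).card = (O.filter (fun q => z • q = q)).card := by
    intro y hy
    obtain ⟨g, hg⟩ := isConj_iff.1 (hconj z y hz ((hI y).1 hy))
    symm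
    refine Finset.card_bij' (fun q _ => g • q) (fun q _ => g⁻¹ • q) ?_ ?_ ?_ ?_
    · intro q hq
      rw [Finset.mem_filter, hO] at hq ⊢
      refine ⟨?_, ?_⟩
      · rw [orbit_eq_iff.2 hq.1 |>.symm]
        exact mem_orbit q g
      · rw [← hg, mul_smul, mul_smul, inv_smul_smul, hq.2]
    · intro q hq
      rw [Finset.mem_filter, hO] at hq ⊢
      refine ⟨?_, ?_⟩
      · rw [orbit_eq_iff.2 hq.1 |>.symm]
        exact mem_orbit q g⁻¹
      · have h1 : (g * z * g⁻¹) • q = q := by rw [hg]; exact hq.2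
        rw [mul_smul, mul_smul] at h1
        rw [eq_inv_smul_iff, h1]
    · intro q hq; exact inv_smul_smul g q
    · intro q hq; exact smul_inv_smul g q
  have hR : ∀ q ∈ O, (I.filter (fun y => y • q = q)).card = (I.filter (fun y => y • (a, b) = (a, b))).card := by
    intro q hq
    rw [hO] at hq
    obtain ⟨g, rfl⟩ := hq
    symm
    refine Finset.card_bij' (fun y _ => g * y * g⁻¹) (fun y _ => g⁻¹ * y * g) ?_ ?_ ?_ ?_
    · intro y hy
      rw [Finset.mem_filter, hI] at hy ⊢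
      refine ⟨?_, ?_⟩
      · rw [← hy.1]
        exact ord_conj g y
      · show (g * y * g⁻¹) • (g • (a, b)) = g • (a, b)
        rw [mul_smul, mul_smul, inv_smul_smul, hy.2]
    · intro y hy
      rw [Finset.mem_filter, hI] at hy ⊢
      refine ⟨?_, ?_⟩
      · rw [← hy.1]
        have := ord_conj g⁻¹ y
        rwa [inv_inv] at this
      · have h1 : y • (g • (a, b)) = g • (a, b) := hy.2
        rw [mul_smul, mul_smul, h1, inv_smul_smul]
    · intro y hy
      show g⁻¹ * (g * y * g⁻¹) * g = y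
      group
    · intro y hy
      show g * (g⁻¹ * y * g) * g⁻¹ = y
      group
  rw [Finset.sum_congr rfl hL, Finset.sum_congr rfl hR, Finset.sum_const, Finset.sum_const, smul_eq_mul, smul_eq_mul,
    hOc] at key
  have hτ1 : 0 < (O.filter (fun q => z • q = q)).card := by
    rw [Finset.card_pos]
    refine ⟨(a, b), ?_⟩
    rw [Finset.mem_filter, hO]
    exact ⟨mem_orbit_self _, Prod.ext hza hzb⟩
  have hτ2 : (O.filter (fun q => z • q = q)).card ≤ 6 := by
    obtain ⟨F, hF⟩ : ∃ F : Finset Ω, ∀ x, x ∈ F ↔ z • x = x := ⟨Finset.univ.filter (fun x => z • x = x), by simp⟩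
    have hFc : F.card = 3 := by
      rw [← h3 z hz, Nat.card_eq_fintype_card, ← Set.toFinset_card]
      congr 1
      ext x
      simp [hF]
    have h1 : O.filter (fun q => z • q = q) ⊆ F.offDiag := by
      rintro ⟨x, y⟩ hq
      rw [Finset.mem_filter, hO] at hq
      rw [Finset.mem_offDiag]
      have h2 : z • x = x := congrArg Prod.fst hq.2
      have h4 : z • y = y := congrArg Prod.snd hq.2
      refine ⟨(hF x).2 h2, (hF y).2 h4, ?_⟩
      obtain ⟨g, hg⟩ := hq.1
      have h5 : g • a = x := congrArg Prod.fst hg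
      have h6 : g • b = y := congrArg Prod.snd hg
      show x ≠ y
      rw [← h5, ← h6]
      intro h
      exact hab (smul_left_cancel g h)
    have h2 := Finset.card_le_card h1
    rw [Finset.offDiag_card, hFc] at h2
    omega
  rw [← hIc] at hodd
  have h9 : 8 ∣ I.card * (O.filter (fun q => z • q = q)).card := by rw [key]; exact Dvd.dvd.mul_right h8 _
  have h10 : Nat.Coprime 8 I.card := by
    have : Nat.Coprime 2 I.card := (Nat.coprime_two_left).2 hodd
    exact Nat.Coprime.pow_left 3 this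
  have h11 := h10.dvd_of_dvd_mul_left h9
  have h12 := Nat.le_of_dvd hτ1 h11
  omega

/-- number of involutions is odd -/
theorem odd_inv {G : Type*} [Group G] [Finite G] (hconj : ∀ s t : G, orderOf s = 2 → orderOf t = 2 → IsConj s t)
    (hex : ∃ t : G, orderOf t = 2)
    (hcc : ∀ t : G, Nat.card {x : G // IsConj t x} * Nat.card (Subgroup.centralizer ({t} : Set G)) = Nat.card G) (T : Sylow 2 G) :
    ∃ z ∈ (T : Subgroup G), orderOf z = 2 ∧ (T : Subgroup G) ≤ Subgroup.centralizer ({z} : Set G) ∧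
      Odd (Nat.card {z : G // orderOf z = 2}) := by
  have F2 : Fact (Nat.Prime 2) := ⟨Nat.prime_two⟩
  obtain ⟨t, ht⟩ := hex
  have h2 : 2 ∣ Nat.card G := by rw [← ht]; exact orderOf_dvd_natCard t
  have hTne : Nontrivial (T : Subgroup G) := by
    rw [Subgroup.nontrivial_iff_ne_bot]
    exact T.ne_bot_of_dvd_card h2
  have hTp : IsPGroup 2 (T : Subgroup G) := T.isPGroup'
  have hc : Nontrivial (Subgroup.center (T : Subgroup G)) := hTp.center_nontrivial
  have h2c : 2 ∣ Nat.card (Subgroup.center (T : Subgroup G)) := by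
    obtain ⟨n, hn⟩ := IsPGroup.iff_card.1 (hTp.to_subgroup (Subgroup.center (T : Subgroup G)))
    rw [hn]
    apply dvd_pow_self
    rintro rfl
    rw [pow_zero, Nat.card_eq_one_iff_unique] at hn
    have := hn.1
    exact not_subsingleton _ this
  obtain ⟨z, hz⟩ := exists_prime_orderOf_dvd_card' 2 h2c
  have hz2 : orderOf ((z : (T : Subgroup G)) : G) = 2 := by rw [Subgroup.orderOf_coe, Subgroup.orderOf_coe, hz]
  have hle : (T : Subgroup G) ≤ Subgroup.centralizer ({((z : (T : Subgroup G)) : G)} : Set G) := by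
    intro x hx
    rw [Subgroup.mem_centralizer_singleton_iff]
    have := Subgroup.mem_center_iff.1 z.2 ⟨x, hx⟩
    exact congrArg Subtype.val this
  refine ⟨_, (z : (T : Subgroup G)).2, hz2, hle, ?_⟩
  have h1 : Nat.card {y : G // orderOf y = 2} = Nat.card {y : G // IsConj ((z : (T : Subgroup G)) : G) y} := by
    apply Nat.card_congr
    refine Equiv.subtypeEquivRight fun y => ⟨fun hy => hconj _ _ hz2 hy, fun hy => ?_⟩
    obtain ⟨g, hg⟩ := isConj_iff.1 hy
    rw [← hg, ord_conj, hz2]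
  have h3 := hcc ((z : (T : Subgroup G)) : G)
  rw [h1]
  by_contra hne
  rw [Nat.not_odd_iff_even] at hne
  obtain ⟨m, hm⟩ := hne
  have h4 : Nat.card (T : Subgroup G) ∣ Nat.card (Subgroup.centralizer ({((z : (T : Subgroup G)) : G)} : Set G)) :=
    Subgroup.card_dvd_of_le hle
  obtain ⟨w, hw⟩ := h4
  have h5 := (T : Subgroup G).card_mul_index
  have h6 : ¬ 2 ∣ (T : Subgroup G).index := T.not_dvd_index
  apply h6
  rw [hw, hm, ← h5] at h3
  have h7 : 0 < Nat.card (T : Subgroup G) := Nat.card_pos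
  refine ⟨m * w, ?_⟩
  apply Nat.eq_of_mul_eq_mul_left h7
  rw [← h3]
  ring

end Cfsg.Agent.Lib.H52_BTc

namespace Cfsg.Agent.Lib.H52_BTc

open MulAction

theorem num_A {p : ℕ} {A : ℤ} (hp4 : p % 4 = 1) (h : 2 * (p : ℤ) = 6 * A ^ 2 - 3 * A + 1) : ∃ j : ℤ, A = 8 * j + 7 := by
  obtain ⟨q, hq⟩ : ∃ q : ℤ, (p : ℤ) = 4 * q + 1 := ⟨(p / 4 : ℕ), by omega⟩
  have h1 := Int.emod_add_mul_ediv A 8
  have h2 := Int.emod_nonneg A (by norm_num : (8 : ℤ) ≠ 0)
  have h3 := Int.emod_lt_of_pos A (by norm_num : (0 : ℤ) < 8)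
  obtain ⟨r, hr⟩ : ∃ r, r = A % 8 := ⟨_, rfl⟩
  obtain ⟨j, hj⟩ : ∃ j, j = A / 8 := ⟨_, rfl⟩
  rw [← hr] at h1 h2 h3
  rw [← hj] at h1
  rw [hq, ← h1] at h
  obtain ⟨w, hw⟩ : ∃ w, w = j ^ 2 := ⟨_, rfl⟩
  refine ⟨j, ?_⟩
  rw [← h1]
  interval_cases r
  · ring_nf at h; rw [← hw] at h; omega
  · ring_nf at h; rw [← hw] at h; omega
  · ring_nf at h; rw [← hw] at h; omega
  · ring_nf at h; rw [← hw] at h; omega
  · ring_nf at h; rw [← hw] at h; omega
  · ring_nf at h; rw [← hw] at h; omega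
  · ring_nf at h; rw [← hw] at h; omega
  · ring

/-- sizes of orbits of the point stabilizer -/
theorem relIndex_eq {G Ω : Type*} [Group G] [Finite G] [Finite Ω] [MulAction G Ω] (a b : Ω) :
    Nat.card (orbit (stabilizer G a) b) = (stabilizer G b).relIndex (stabilizer G a) := by
  have h1 : stabilizer (stabilizer G a) b = (stabilizer G b).subgroupOf (stabilizer G a) := by
    ext x
    exact Iff.rfl
  rw [Subgroup.relIndex, ← h1, index_stabilizer, Nat.card_coe_set_eq]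

theorem card_pair {G Ω : Type*} [Group G] [Finite G] [Finite Ω] [MulAction G Ω] (a b : Ω) :
    Nat.card (orbit (stabilizer G a) b) ∣ Nat.card (orbit G (a, b)) := by
  have h1 : stabilizer G (a, b) = stabilizer G a ⊓ stabilizer G b := by
    ext x
    rw [Subgroup.mem_inf, mem_stabilizer_iff, mem_stabilizer_iff, mem_stabilizer_iff, Prod.smul_mk, Prod.mk.injEq]
  rw [relIndex_eq, Nat.card_coe_set_eq, ← index_stabilizer, h1,
    ← Subgroup.relIndex_mul_index (inf_le_left : stabilizer G a ⊓ stabilizer G b ≤ stabilizer G a), Subgroup.inf_relIndex_left]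
  exact Dvd.intro _ rfl

theorem main_core {G Ω : Type*} [Group G] [Finite G] [Finite Ω] [MulAction G Ω] (p : ℕ) (hp4 : p % 4 = 1)
    (hΩ : Nat.card Ω = 3 * p)
    (hconj : ∀ s t : G, orderOf s = 2 → orderOf t = 2 → IsConj s t) (hex : ∃ t : G, orderOf t = 2)
    (hcc : ∀ t : G, Nat.card {x : G // IsConj t x} * Nat.card (Subgroup.centralizer ({t} : Set G)) = Nat.card G)
    (h3 : ∀ t : G, orderOf t = 2 → Nat.card (fixedBy Ω t) = 3)
    (hE : ∀ t : G, orderOf t = 2 → (Nat.card G : ℤ) * (2 * p - 2) =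
      p * (Nat.card (Subgroup.centralizer ({t} : Set G)) : ℤ) ^ 2 * (2 * p - 1))
    (hrank : ∀ a : Ω, ∃ (A : ℤ) (k l : ℕ) (b b' : Ω), 2 * (p : ℤ) = 6 * A ^ 2 - 3 * A + 1 ∧
      2 * (k : ℤ) = (3 * A - 1) * (2 * A - 1) ∧ (l : ℤ) = 2 * A * (3 * A - 1) ∧
      k = Nat.card (orbit (stabilizer G a) b) ∧ l = Nat.card (orbit (stabilizer G a) b')) :
    p % 8 = 5 ∧ ∃ T : Sylow 2 G, Nat.card T = 8 ∧ ∃ a b c : Ω, a ≠ b ∧ a ≠ c ∧ b ≠ c ∧ (∀ x ∈ (T : Subgroup G), x • a = a) ∧
      (∀ x ∈ (T : Subgroup G), x • b = b ∨ x • b = c) ∧ ∃ x ∈ (T : Subgroup G), x • b = c := by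
  classical
  have F2 : Fact (Nat.Prime 2) := ⟨Nat.prime_two⟩
  obtain ⟨T⟩ : Nonempty (Sylow 2 G) := inferInstance
  obtain ⟨z, hzT, hz, hTz, hodd⟩ := odd_inv hconj hex hcc T
  have hTp : IsPGroup 2 (T : Subgroup G) := T.isPGroup'
  -- a fixed point
  obtain ⟨a, ha⟩ : ∃ a : Ω, ∀ x ∈ (T : Subgroup G), x • a = a := by
    obtain ⟨a, ha⟩ := hTp.nonempty_fixed_point_of_prime_not_dvd_card Ω (by rw [hΩ]; omega)
    exact ⟨a, fun x hx => ha ⟨x, hx⟩⟩
  obtain ⟨A, k, l, b₀, b', hA, hk, hl, hkc, hlc⟩ := hrank a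
  obtain ⟨j, hj⟩ := num_A hp4 hA
  have hl8 : ∃ m : ℤ, (l : ℤ) = 8 * (2 * m + 1) := by
    refine ⟨(8 * j + 7) * (3 * j) + 2 * (8 * j + 7) + 4 * j + 3, ?_⟩
    rw [hl, hj]; ring
  have hk2 : ∃ m : ℤ, (k : ℤ) = 2 * (2 * m + 1) := by
    refine ⟨(6 * j + 5) * (8 * j + 6) + 3 * j + 2, ?_⟩
    have : 2 * (k : ℤ) = 2 * (2 * (2 * ((6 * j + 5) * (8 * j + 6) + 3 * j + 2) + 1)) := by
      rw [hk, hj]; ring
    omega
  obtain ⟨ml, hml⟩ := hl8
  obtain ⟨mk, hmk⟩ := hk2
  have hlne : ¬ l = 1 := by omega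
  have hkne : ¬ k = 1 := by omega
  have hself : Nat.card (orbit (stabilizer G a) a) = 1 := by
    rw [Nat.card_eq_one_iff_unique]
    refine ⟨⟨?_⟩, ⟨⟨a, mem_orbit_self a⟩⟩⟩
    rintro ⟨x, g, rfl⟩ ⟨y, h, rfl⟩
    apply Subtype.ext
    show (g : G) • a = (h : G) • a
    rw [g.2, h.2]
  have hab' : a ≠ b' := by
    rintro rfl
    exact hlne (by rw [hlc, hself])
  have h8 : 8 ∣ Nat.card (orbit G (a, b')) := by
    refine dvd_trans ?_ (card_pair a b')
    rw [← hlc]
    omega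
  have hno : ∀ w : G, orderOf w = 2 → w • a = a → w • b' = b' → False := fun w hw h1 h2 =>
    count_core hconj h3 hodd hab' h8 hw h1 h2
  -- semiregularity
  have hTl : Nat.card (T : Subgroup G) ∣ l := by
    have hinv : ∀ g ∈ (T : Subgroup G), ∀ y ∈ (orbit (stabilizer G a) b' : Set Ω), g • y ∈ (orbit (stabilizer G a) b' : Set Ω) := by
      rintro g hg y ⟨h, rfl⟩
      exact ⟨⟨g, ha g hg⟩ * h, mul_smul (⟨g, ha g hg⟩ : stabilizer G a) h b'⟩
    letI := setAct (T : Subgroup G) (orbit (stabilizer G a) b') hinv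
    rw [hlc]
    apply card_dvd_of_free (K := (T : Subgroup G)) (T := (orbit (stabilizer G a) b' : Set Ω))
    rintro ⟨x, hx⟩ ⟨y, ⟨g, rfl⟩⟩ hxy
    have hxy' : x • ((g : G) • b') = (g : G) • b' := congrArg Subtype.val hxy
    by_contra hne
    have hx1 : x ≠ 1 := fun h => hne (Subtype.ext h)
    have hox : 2 ∣ orderOf x := by
      obtain ⟨n, hn⟩ := IsPGroup.iff_orderOf.1 hTp ⟨x, hx⟩
      rw [Subgroup.orderOf_mk] at hn
      rw [hn]
      apply dvd_pow_self
      rintro rfl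
      rw [pow_zero, orderOf_eq_one_iff] at hn
      exact hx1 hn
    obtain ⟨w, hw⟩ : ∃ w, w = x ^ (orderOf x / 2) := ⟨_, rfl⟩
    have how : orderOf w = 2 := by
      rw [hw]
      exact orderOf_pow_orderOf_div (orderOf_pos x).ne' hox
    have hwst : w ∈ stabilizer G ((g : G) • b') := by
      rw [hw]; exact Subgroup.pow_mem _ (by exact hxy') _
    have hwst' : w ∈ stabilizer G a := by
      rw [hw]; exact Subgroup.pow_mem _ (ha x hx) _
    refine hno ((g : G)⁻¹ * w * g) ?_ ?_ ?_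
    · have := ord_conj (g : G)⁻¹ w
      rw [inv_inv] at this
      rw [this, how]
    · rw [mul_smul, mul_smul, (g.2 : (g : G) • a = a), (hwst' : w • a = a), inv_smul_eq_iff, (g.2 : (g : G) • a = a)]
    · rw [mul_smul, mul_smul, (hwst : w • ((g : G) • b') = (g : G) • b'), inv_smul_smul]
  -- numbers
  obtain ⟨v, hv⟩ := IsPGroup.iff_card.1 hTp
  have hN := (T : Subgroup G).card_mul_index
  have hN2 : ¬ 2 ∣ (T : Subgroup G).index := T.not_dvd_index
  obtain ⟨c', hc'⟩ : Nat.card (T : Subgroup G) ∣ Nat.card (Subgroup.centralizer ({z} : Set G)) := Subgroup.card_dvd_of_le hTz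
  have hTpos : 0 < Nat.card (T : Subgroup G) := Nat.card_pos
  have hc'2 : ¬ 2 ∣ c' := by
    intro h
    apply hN2
    obtain ⟨e, he⟩ := h
    obtain ⟨d, hd⟩ : Nat.card (Subgroup.centralizer ({z} : Set G)) ∣ Nat.card G := Subgroup.card_subgroup_dvd_card _
    rw [hc', he, ← hN] at hd
    refine ⟨e * d, ?_⟩
    apply Nat.eq_of_mul_eq_mul_left hTpos
    rw [hd]; ring
  have hEz := hE z hz
  obtain ⟨q, hq⟩ : ∃ q : ℕ, p = 4 * q + 1 := ⟨p / 4, by omega⟩
  have hE2 : (T : Subgroup G).index * (8 * q) = Nat.card (T : Subgroup G) * (p * c' ^ 2 * (8 * q + 1)) := by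
    have h1 : (Nat.card (T : Subgroup G) : ℤ) ≠ 0 := by exact_mod_cast hTpos.ne'
    rw [hc', ← hN] at hEz
    push_cast at hEz
    have h2 : (p : ℤ) = 4 * q + 1 := by rw [hq]; push_cast; ring
    have h4 : (Nat.card (T : Subgroup G) : ℤ) * (((T : Subgroup G).index : ℤ) * (8 * q)) =
        (Nat.card (T : Subgroup G) : ℤ) * (Nat.card (T : Subgroup G) * (p * c' ^ 2 * (8 * q + 1))) := by
      have e1 : (2 * (p : ℤ) - 2) = 8 * q := by rw [h2]; ring
      have e2 : (2 * (p : ℤ) - 1) = 8 * q + 1 := by rw [h2]; ring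
      rw [e1, e2] at hEz
      linear_combination hEz
    have h5 := mul_left_cancel₀ h1 h4
    exact_mod_cast h5
  have hpodd : ¬ 2 ∣ p := by omega
  have hodd2 : ¬ 2 ∣ p * c' ^ 2 * (8 * q + 1) := by
    rw [Nat.prime_two.dvd_mul, Nat.prime_two.dvd_mul]
    rintro ((h | h) | h)
    · exact hpodd h
    · exact hc'2 (Nat.prime_two.dvd_of_dvd_pow h)
    · omega
  have h8T : 8 ∣ Nat.card (T : Subgroup G) := by
    have h1 : 8 ∣ Nat.card (T : Subgroup G) * (p * c' ^ 2 * (8 * q + 1)) := by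
      rw [← hE2]; exact ⟨(T : Subgroup G).index * q, by ring⟩
    have h2 : Nat.Coprime (2 ^ 3) (p * c' ^ 2 * (8 * q + 1)) :=
      Nat.Coprime.pow_left 3 ((Nat.Prime.coprime_iff_not_dvd Nat.prime_two).2 hodd2)
    exact Nat.Coprime.dvd_of_dvd_mul_right (k := 8) h2 h1
  have hT8 : Nat.card (T : Subgroup G) = 8 := by
    have h16 : ¬ 16 ∣ l := by omega
    rw [hv] at h8T hTl ⊢
    have h1 : v ≤ 3 := by
      by_contra hcon
      apply h16
      refine dvd_trans ?_ hTl
      show 2 ^ 4 ∣ 2 ^ v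
      exact pow_dvd_pow 2 (by omega)
    have h2 : 3 ≤ v := by
      have : 2 ^ 3 ∣ 2 ^ v := h8T
      exact (Nat.pow_dvd_pow_iff_le_right (by norm_num)).1 this
    rw [le_antisymm h1 h2]; norm_num
  have hp8 : p % 8 = 5 := by
    rw [hT8] at hE2
    have h1 : (T : Subgroup G).index * q = p * c' ^ 2 * (8 * q + 1) := by
      apply Nat.eq_of_mul_eq_mul_left (show 0 < 8 by norm_num)
      linarith
    have h2 : ¬ 2 ∣ q := by
      intro h
      apply hodd2
      rw [← h1]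
      exact Dvd.dvd.mul_left h _
    omega
  refine ⟨hp8, T, hT8, ?_⟩
  -- an orbit of length two
  have hinv : ∀ g ∈ (T : Subgroup G), ∀ y ∈ (orbit (stabilizer G a) b₀ : Set Ω), g • y ∈ (orbit (stabilizer G a) b₀ : Set Ω) := by
    rintro g hg y ⟨h, rfl⟩
    exact ⟨⟨g, ha g hg⟩ * h, mul_smul (⟨g, ha g hg⟩ : stabilizer G a) h b₀⟩
  letI := setAct (T : Subgroup G) (orbit (stabilizer G a) b₀) hinv
  obtain ⟨y, hy⟩ : ∃ y : (orbit (stabilizer G a) b₀ : Set Ω), ¬ 4 ∣ Nat.card (orbit (T : Subgroup G) y) := by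
    by_contra hcon
    push Not at hcon
    have h1 := Nat.card_congr (selfEquivSigmaOrbits (T : Subgroup G) (orbit (stabilizer G a) b₀ : Set Ω))
    have : Fintype (Quotient (orbitRel (T : Subgroup G) (orbit (stabilizer G a) b₀ : Set Ω))) := Fintype.ofFinite _
    rw [Nat.card_sigma, ← hkc] at h1
    have h2 : 4 ∣ k := by
      rw [h1]
      apply Finset.dvd_sum
      intro ω _
      exact hcon _
    omega
  obtain ⟨⟨y, hyO⟩, rfl⟩ : ∃ y', y' = y := ⟨y, rfl⟩
  have hdiv : Nat.card (orbit (T : Subgroup G) (⟨y, hyO⟩ : (orbit (stabilizer G a) b₀ : Set Ω))) ∣ 8 := by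
    have h1 := index_stabilizer (T : Subgroup G) (⟨y, hyO⟩ : (orbit (stabilizer G a) b₀ : Set Ω))
    rw [Nat.card_coe_set_eq, ← h1, ← hT8]
    exact Subgroup.index_dvd_card _
  -- not fixed
  have hnf : ∃ x₀ ∈ (T : Subgroup G), x₀ • y ≠ y := by
    by_contra hcon
    push Not at hcon
    have hy2 : Nat.card (orbit (stabilizer G a) y) = k := by
      rw [hkc, orbit_eq_iff.2 hyO]
    rw [relIndex_eq, ← Subgroup.inf_relIndex_left] at hy2
    have h1 : (T : Subgroup G) ≤ stabilizer G a ⊓ stabilizer G y := fun x hx => ⟨ha x hx, hcon x hx⟩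
    have h2 := Subgroup.relIndex_mul_index (inf_le_left : stabilizer G a ⊓ stabilizer G y ≤ stabilizer G a)
    have h4 : (stabilizer G a ⊓ stabilizer G y).index ∣ (T : Subgroup G).index := Subgroup.index_dvd_of_le h1
    apply hN2
    refine dvd_trans ?_ h4
    rw [← h2, hy2]
    have : 2 ∣ k := by omega
    exact Dvd.dvd.mul_right this _
  obtain ⟨x₀, hx₀, hx₀y⟩ := hnf
  obtain ⟨S, hS⟩ : ∃ S : Set Ω, S = {w | ∃ x ∈ (T : Subgroup G), x • y = w} := ⟨_, rfl⟩
  have hSc : S.ncard = Nat.card (orbit (T : Subgroup G) (⟨y, hyO⟩ : (orbit (stabilizer G a) b₀ : Set Ω))) := by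
    rw [Nat.card_coe_set_eq]
    have h1 : S = Subtype.val '' (orbit (T : Subgroup G) (⟨y, hyO⟩ : (orbit (stabilizer G a) b₀ : Set Ω))) := by
      rw [hS]
      ext w
      constructor
      · rintro ⟨x, hx, rfl⟩
        exact ⟨(⟨x, hx⟩ : (T : Subgroup G)) • (⟨y, hyO⟩ : (orbit (stabilizer G a) b₀ : Set Ω)), mem_orbit _ _, rfl⟩
      · rintro ⟨_, ⟨x, rfl⟩, rfl⟩
        exact ⟨x.1, x.2, rfl⟩
    rw [h1, Set.ncard_image_of_injective _ Subtype.val_injective]
  have hS2 : S.ncard ≤ 2 := by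
    rw [hSc]
    rw [← Nat.mem_divisors.trans (and_iff_left (by norm_num : (8 : ℕ) ≠ 0))] at hdiv
    have h1 : Nat.divisors 8 = {1, 2, 4, 8} := by decide
    rw [h1] at hdiv
    simp only [Finset.mem_insert, Finset.mem_singleton] at hdiv
    rcases hdiv with h | h | h | h
    · omega
    · omega
    · exact absurd ⟨1, by rw [h]⟩ hy
    · exact absurd ⟨2, by rw [h]⟩ hy
  have hby : ∀ w ∈ (orbit (stabilizer G a) b₀ : Set Ω), a ≠ w := by
    rintro w hw rfl
    apply hkne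
    rw [hkc, ← orbit_eq_iff.2 hw, hself]
  refine ⟨a, y, x₀ • y, hby y hyO, hby _ (hinv x₀ hx₀ y hyO), Ne.symm hx₀y, ha, ?_, x₀, hx₀, rfl⟩
  intro x hx
  by_contra hcon
  push Not at hcon
  have h1 : ({y, x₀ • y, x • y} : Set Ω) ⊆ S := by
    rw [hS]
    rintro w (rfl | rfl | rfl)
    · exact ⟨1, one_mem _, one_smul _ _⟩
    · exact ⟨x₀, hx₀, rfl⟩
    · exact ⟨x, hx, rfl⟩
  have h2 := Set.ncard_le_ncard h1 (Set.toFinite _)
  have h4 : ({y, x₀ • y, x • y} : Set Ω).ncard = 3 := by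
    rw [Set.ncard_eq_three]
    exact ⟨y, x₀ • y, x • y, Ne.symm hx₀y, Ne.symm hcon.1, Ne.symm hcon.2, rfl⟩
  omega

end Cfsg.Agent.Lib.H52_BTc
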