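import Mathlib
import Cfsg.Agent.Lib.PermChar4

set_option autoImplicit false

/-!
# Multiplicity free representations: scalars of commuting operators (helper12)
-/

namespace Cfsg.Agent.Lib.MFree

open scoped ComplexConjugate
open Representation Module Cfsg.Agent.Lib.CharBasic Cfsg.Agent.Lib.PermChar
  Cfsg.Agent.Lib.PermChar2 Cfsg.Agent.Lib.PermChar3 Cfsg.Agent.Lib.PermChar4

universe u v w

variable {G : Type u} [Group G] [Fintype G]

/-- `tr (ρ g ∘ wsum (conj ψ)) = (|G| / ψ(1)) ⟨χ, ψ⟩ ψ(g)` for any representation with character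
`χ`. -/
theorem trace_wsum_mul_irr {n : ℕ} (σ : Representation ℂ G (Fin n → ℂ)) (hσ : σ.IsIrreducible)
    {ψ : G → ℂ} (hψ : IsIrrCharacter G ψ) (g : G) :
    LinearMap.trace ℂ _ (wsum (fun h => conj (ψ h)) σ ∘ₗ σ g) =
      (Nat.card G : ℂ) / ψ 1 * classInner σ.character ψ * ψ g := by
  have hcl : IsClassFunction G (fun h => conj (ψ h)) := isClassFunction_conj hψ.isClassFunction
  have hσi : IsIrrCharacter G σ.character := isIrrCharacter_of_rep σ hσ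
  obtain ⟨c, hc⟩ := wsum_irr_scalar hcl σ hσ
  have h1 := trace_wsum (fun h => conj (ψ h)) σ
  rw [hc, map_smul, LinearMap.trace_id, smul_eq_mul, sum_conj_mul, ← char_one σ] at h1
  have h2 : LinearMap.trace ℂ _ ((c • (LinearMap.id : (Fin n → ℂ) →ₗ[ℂ] _)) ∘ₗ σ g) =
      c * σ.character g := by
    rw [LinearMap.smul_comp, LinearMap.id_comp, map_smul]; rfl
  rw [hc, h2]
  have h3 : σ.character 1 ≠ 0 := hσi.one_ne_zero
  by_cases he : σ.character = ψ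
  · rw [he] at h1 h3 ⊢
    rw [hψ.classInner_self, mul_one] at h1 ⊢
    rw [eq_div_iff h3 |>.mpr h1]
  · rw [hσi.classInner_eq_zero hψ he, mul_zero] at h1 ⊢
    rcases mul_eq_zero.mp h1 with h4 | h4
    · rw [h4, zero_mul, zero_mul]
    · exact absurd h4 h3

theorem trace_wsum_mul {V : Type v} [AddCommGroup V] [Module ℂ V] [FiniteDimensional ℂ V]
    (ρ : Representation ℂ G V) (a : G → ℂ) (g : G) :
    LinearMap.trace ℂ V (wsum a ρ ∘ₗ ρ g) = ∑ h : G, a h * ρ.character (h * g) := by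
  have h1 : wsum a ρ ∘ₗ ρ g = ∑ h : G, a h • ρ (h * g) := by
    apply LinearMap.ext
    intro v
    rw [LinearMap.comp_apply, wsum_apply, LinearMap.sum_apply]
    refine Finset.sum_congr rfl fun h _ => ?_
    rw [LinearMap.smul_apply, map_mul]; rfl
  rw [h1, map_sum]
  refine Finset.sum_congr rfl fun h _ => ?_
  rw [map_smul, smul_eq_mul]; rfl

theorem conv_irr {φ ψ : G → ℂ} (hφ : IsIrrCharacter G φ) (hψ : IsIrrCharacter G ψ) (g : G) :
    ∑ h : G, conj (ψ h) * φ (h * g) = (Nat.card G : ℂ) / ψ 1 * classInner φ ψ * ψ g := by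
  obtain ⟨n, σ, hσ, rfl⟩ := hφ
  rw [← trace_wsum_mul_irr σ hσ hψ, trace_wsum_mul]

theorem conv_char {χ ψ : G → ℂ} (hχ : IsCharacter G χ) (hψ : IsIrrCharacter G ψ) (g : G) :
    ∑ h : G, conj (ψ h) * χ (h * g) = (Nat.card G : ℂ) / ψ 1 * classInner χ ψ * ψ g := by
  obtain ⟨c, hc1, hc2⟩ := hχ.exists_coeff
  have h1 : ∀ x : G, χ x = ∑ φ : IrrCharacter G, (c φ : ℂ) * (φ : G → ℂ) x := by
    intro x
    conv_lhs => rw [hc2]
    rw [Finset.sum_apply]; rfl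
  have h2 : ∑ h : G, conj (ψ h) * χ (h * g) =
      ∑ φ : IrrCharacter G, (c φ : ℂ) * ∑ h : G, conj (ψ h) * (φ : G → ℂ) (h * g) := by
    simp only [h1, Finset.mul_sum]
    rw [Finset.sum_comm]
    refine Finset.sum_congr rfl fun φ _ => Finset.sum_congr rfl fun h _ => ?_
    ring
  rw [h2, Finset.sum_congr rfl (fun φ _ => by rw [conv_irr φ.2 hψ])]
  have h3 : classInner χ ψ = ∑ φ : IrrCharacter G, (c φ : ℂ) * classInner (φ : G → ℂ) ψ := by
    conv_lhs => rw [hc2]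
    rw [classInner_sum_left]
    exact Finset.sum_congr rfl fun φ _ => classInner_smul_left _ _ _
  rw [h3, Finset.mul_sum, Finset.sum_mul]
  refine Finset.sum_congr rfl fun φ _ => ?_
  ring

section mf

variable {V : Type v} [AddCommGroup V] [Module ℂ V] [FiniteDimensional ℂ V]

/-- multiplicity free -/
def MF (ρ : Representation ℂ G V) : Prop :=
  ∀ ψ : G → ℂ, IsIrrCharacter G ψ → classInner ρ.character ψ = 0 ∨ classInner ρ.character ψ = 1

open scoped Classical in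
/-- the set of constituents -/
noncomputable def cons (ρ : Representation ℂ G V) : Finset (IrrCharacter G) :=
  Finset.univ.filter (fun ψ => classInner ρ.character (ψ : G → ℂ) ≠ 0)

omit [FiniteDimensional ℂ V] in
theorem mem_cons {ρ : Representation ℂ G V} {ψ : IrrCharacter G} :
    ψ ∈ cons ρ ↔ classInner ρ.character (ψ : G → ℂ) ≠ 0 := by
  classical
  unfold cons
  rw [Finset.mem_filter, and_iff_right (Finset.mem_univ _)]

theorem MF.eq_one {ρ : Representation ℂ G V} (h : MF ρ) {ψ : IrrCharacter G} (hψ : ψ ∈ cons ρ) :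
    classInner ρ.character (ψ : G → ℂ) = 1 :=
  (h ψ ψ.2).resolve_left (mem_cons.mp hψ)

theorem MF.char_eq {ρ : Representation ℂ G V} (h : MF ρ) (g : G) :
    ρ.character g = ∑ ψ ∈ cons ρ, (ψ : G → ℂ) g := by
  classical
  obtain ⟨c, hc1, hc2⟩ := (isCharacter_of_rep ρ).exists_coeff
  have h1 : ρ.character g = ∑ φ : IrrCharacter G, (c φ : ℂ) * (φ : G → ℂ) g := by
    conv_lhs => rw [hc2]
    rw [Finset.sum_apply]; rfl
  rw [h1, cons, Finset.sum_filter]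
  refine Finset.sum_congr rfl fun φ _ => ?_
  rcases h φ φ.2 with h0 | h0
  · rw [if_neg (not_not.mpr h0), ← hc1, h0, zero_mul]
  · rw [if_pos (by rw [h0]; exact one_ne_zero), ← hc1, h0, one_mul]

/-- test vector -/
noncomputable def tv (ρ : Representation ℂ G V) (ψ : IrrCharacter G) : V :=
  Classical.epsilon (fun v : V => v ≠ 0 ∧ ∀ a : G → ℂ, IsClassFunction G a →
      wsum a ρ v = ((∑ g : G, a g * (ψ : G → ℂ) g) / (ψ : G → ℂ) 1) • v)

theorem tv_spec {ρ : Representation ℂ G V} {ψ : IrrCharacter G} (hψ : ψ ∈ cons ρ) :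
    tv ρ ψ ≠ 0 ∧ ∀ a : G → ℂ, IsClassFunction G a →
      wsum a ρ (tv ρ ψ) = ((∑ g : G, a g * (ψ : G → ℂ) g) / (ψ : G → ℂ) 1) • tv ρ ψ :=
  Classical.epsilon_spec (exists_vector ρ ψ.2 (mem_cons.mp hψ))

/-- commuting operators -/
def Com (ρ : Representation ℂ G V) (T : V →ₗ[ℂ] V) : Prop := ∀ g v, T (ρ g v) = ρ g (T v)

/-- the scalar by which `T` acts on the `ψ`-component. -/
noncomputable def sc (ρ : Representation ℂ G V) (T : V →ₗ[ℂ] V) (ψ : IrrCharacter G) : ℂ :=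
  Classical.epsilon (fun s : ℂ => T (tv ρ ψ) = s • tv ρ ψ)

theorem sc_unique {ρ : Representation ℂ G V} {T : V →ₗ[ℂ] V} {ψ : IrrCharacter G}
    (hψ : ψ ∈ cons ρ) {s : ℂ} (h : T (tv ρ ψ) = s • tv ρ ψ) : sc ρ T ψ = s := by
  have h1 : T (tv ρ ψ) = sc ρ T ψ • tv ρ ψ :=
    Classical.epsilon_spec (p := fun s : ℂ => T (tv ρ ψ) = s • tv ρ ψ) ⟨s, h⟩
  rw [h] at h1
  exact (smul_left_injective ℂ (tv_spec hψ).1 h1).symm

theorem exists_expansion {ρ : Representation ℂ G V} (hmf : MF ρ) {T : V →ₗ[ℂ] V}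
    (hT : Com ρ T) :
    (∀ ψ ∈ cons ρ, T (tv ρ ψ) = sc ρ T ψ • tv ρ ψ) ∧
    T = ∑ ψ ∈ cons ρ, (sc ρ T ψ * (ψ : G → ℂ) 1 / Nat.card G) •
      wsum (fun g => conj ((ψ : G → ℂ) g)) ρ := by
  classical
  have hG : (Nat.card G : ℂ) ≠ 0 := by exact_mod_cast Nat.card_pos.ne'
  obtain ⟨s, c, hs, hTc⟩ := span_of_mult_free ρ hmf T hT
  have h1 : ∀ ψ ∈ cons ρ, T (tv ρ ψ) =
      ((if ψ ∈ s then c ψ else 0) * Nat.card G / (ψ : G → ℂ) 1) • tv ρ ψ := by
    intro ψ hψ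
    have h2 : ∀ φ ∈ s, (c φ • wsum (fun g => conj ((φ : G → ℂ) g)) ρ) (tv ρ ψ) =
        (if φ = ψ then (c φ * Nat.card G / (ψ : G → ℂ) 1) else 0) • tv ρ ψ := by
      intro φ _
      rw [LinearMap.smul_apply, (tv_spec hψ).2 _ (isClassFunction_conj φ.2.isClassFunction),
        sum_conj_mul, irr_orthonormal]
      by_cases h : ψ = φ
      · rw [if_pos h, if_pos h.symm, mul_one, smul_smul, mul_div_assoc]
      · rw [if_neg h, if_neg (fun h' => h h'.symm), mul_zero, zero_div, zero_smul, smul_zero]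
    conv_lhs => rw [hTc]
    rw [LinearMap.sum_apply, Finset.sum_congr rfl h2, ← Finset.sum_smul, Finset.sum_ite_eq']
    congr 1
    split_ifs
    · rfl
    · rw [zero_mul, zero_div]
  have h3 : ∀ ψ ∈ cons ρ, sc ρ T ψ = (if ψ ∈ s then c ψ else 0) * Nat.card G / (ψ : G → ℂ) 1 :=
    fun ψ hψ => sc_unique hψ (h1 ψ hψ)
  refine ⟨fun ψ hψ => by rw [h3 ψ hψ]; exact h1 ψ hψ, ?_⟩
  have hsub : s ⊆ cons ρ := fun ψ hψ => mem_cons.mpr (hs ψ hψ)
  conv_lhs => rw [hTc]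
  rw [← Finset.sum_subset hsub (f := fun ψ => (sc ρ T ψ * (ψ : G → ℂ) 1 / Nat.card G) •
      wsum (fun g => conj ((ψ : G → ℂ) g)) ρ)]
  · refine Finset.sum_congr rfl fun ψ hψ => ?_
    rw [h3 ψ (hsub hψ), if_pos hψ]
    congr 1
    have := ψ.2.one_ne_zero
    field_simp
  · intro ψ hψ hψs
    rw [h3 ψ hψ, if_neg hψs, zero_mul, zero_div, zero_mul, zero_div, zero_smul]

theorem sc_spec {ρ : Representation ℂ G V} (hmf : MF ρ) {T : V →ₗ[ℂ] V}
    (hT : Com ρ T) {ψ : IrrCharacter G} (hψ : ψ ∈ cons ρ) : T (tv ρ ψ) = sc ρ T ψ • tv ρ ψ :=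
  (exists_expansion hmf hT).1 ψ hψ

theorem sc_ext {ρ : Representation ℂ G V} (hmf : MF ρ) {T T' : V →ₗ[ℂ] V}
    (hT : Com ρ T) (hT' : Com ρ T') (h : ∀ ψ ∈ cons ρ, sc ρ T ψ = sc ρ T' ψ) : T = T' := by
  rw [(exists_expansion hmf hT).2, (exists_expansion hmf hT').2]
  exact Finset.sum_congr rfl fun ψ hψ => by rw [h ψ hψ]

omit [Fintype G] [FiniteDimensional ℂ V] in
theorem Com.comp {ρ : Representation ℂ G V} {T T' : V →ₗ[ℂ] V}
    (hT : Com ρ T) (hT' : Com ρ T') : Com ρ (T ∘ₗ T') := fun g v => by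
  rw [LinearMap.comp_apply, hT', hT, LinearMap.comp_apply]

omit [Fintype G] [FiniteDimensional ℂ V] in
theorem Com.id {ρ : Representation ℂ G V} : Com ρ LinearMap.id := fun _ _ => rfl

omit [Fintype G] [FiniteDimensional ℂ V] in
theorem Com.add {ρ : Representation ℂ G V} {T T' : V →ₗ[ℂ] V}
    (hT : Com ρ T) (hT' : Com ρ T') : Com ρ (T + T') := fun g v => by
  rw [LinearMap.add_apply, hT', hT, LinearMap.add_apply, map_add]

omit [Fintype G] [FiniteDimensional ℂ V] in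
theorem Com.sub {ρ : Representation ℂ G V} {T T' : V →ₗ[ℂ] V}
    (hT : Com ρ T) (hT' : Com ρ T') : Com ρ (T - T') := fun g v => by
  rw [LinearMap.sub_apply, hT', hT, LinearMap.sub_apply, map_sub]

omit [Fintype G] [FiniteDimensional ℂ V] in
theorem Com.smul {ρ : Representation ℂ G V} {T : V →ₗ[ℂ] V}
    (hT : Com ρ T) (c : ℂ) : Com ρ (c • T) := fun g v => by
  rw [LinearMap.smul_apply, hT, LinearMap.smul_apply, map_smul]

theorem sc_comp {ρ : Representation ℂ G V} (hmf : MF ρ) {T T' : V →ₗ[ℂ] V}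
    (hT : Com ρ T) (hT' : Com ρ T') {ψ : IrrCharacter G} (hψ : ψ ∈ cons ρ) :
    sc ρ (T ∘ₗ T') ψ = sc ρ T ψ * sc ρ T' ψ := by
  apply sc_unique hψ
  rw [LinearMap.comp_apply, sc_spec hmf hT' hψ, map_smul, sc_spec hmf hT hψ, smul_smul, mul_comm]

theorem sc_add {ρ : Representation ℂ G V} (hmf : MF ρ) {T T' : V →ₗ[ℂ] V}
    (hT : Com ρ T) (hT' : Com ρ T') {ψ : IrrCharacter G} (hψ : ψ ∈ cons ρ) :
    sc ρ (T + T') ψ = sc ρ T ψ + sc ρ T' ψ := by
  apply sc_unique hψ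
  rw [LinearMap.add_apply, sc_spec hmf hT' hψ, sc_spec hmf hT hψ, add_smul]

theorem sc_sub {ρ : Representation ℂ G V} (hmf : MF ρ) {T T' : V →ₗ[ℂ] V}
    (hT : Com ρ T) (hT' : Com ρ T') {ψ : IrrCharacter G} (hψ : ψ ∈ cons ρ) :
    sc ρ (T - T') ψ = sc ρ T ψ - sc ρ T' ψ := by
  apply sc_unique hψ
  rw [LinearMap.sub_apply, sc_spec hmf hT' hψ, sc_spec hmf hT hψ, sub_smul]

theorem sc_smul {ρ : Representation ℂ G V} (hmf : MF ρ) {T : V →ₗ[ℂ] V}
    (hT : Com ρ T) (c : ℂ) {ψ : IrrCharacter G} (hψ : ψ ∈ cons ρ) :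
    sc ρ (c • T) ψ = c * sc ρ T ψ := by
  apply sc_unique hψ
  rw [LinearMap.smul_apply, sc_spec hmf hT hψ, smul_smul]

theorem sc_id {ρ : Representation ℂ G V} {ψ : IrrCharacter G} (hψ : ψ ∈ cons ρ) :
    sc ρ LinearMap.id ψ = 1 := by
  apply sc_unique hψ
  rw [LinearMap.id_apply, one_smul]

theorem trace_comp_rep {ρ : Representation ℂ G V} (hmf : MF ρ) {T : V →ₗ[ℂ] V}
    (hT : Com ρ T) (g : G) :
    LinearMap.trace ℂ V (T ∘ₗ ρ g) = ∑ ψ ∈ cons ρ, sc ρ T ψ * (ψ : G → ℂ) g := by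
  have hG : (Nat.card G : ℂ) ≠ 0 := by exact_mod_cast Nat.card_pos.ne'
  have h1 : T ∘ₗ ρ g = ∑ ψ ∈ cons ρ, (sc ρ T ψ * (ψ : G → ℂ) 1 / Nat.card G) •
      (wsum (fun g => conj ((ψ : G → ℂ) g)) ρ ∘ₗ ρ g) := by
    apply LinearMap.ext
    intro v
    conv_lhs => rw [(exists_expansion hmf hT).2]
    rw [LinearMap.comp_apply, LinearMap.sum_apply, LinearMap.sum_apply]
    rfl
  rw [h1, map_sum]
  refine Finset.sum_congr rfl fun ψ hψ => ?_
  rw [map_smul, trace_wsum_mul, conv_char (isCharacter_of_rep ρ) ψ.2, hmf.eq_one hψ, mul_one,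
    smul_eq_mul]
  have := ψ.2.one_ne_zero
  field_simp

theorem trace_eq_sum {ρ : Representation ℂ G V} (hmf : MF ρ) {T : V →ₗ[ℂ] V}
    (hT : Com ρ T) :
    LinearMap.trace ℂ V T = ∑ ψ ∈ cons ρ, sc ρ T ψ * (ψ : G → ℂ) 1 := by
  rw [← trace_comp_rep hmf hT, map_one]; rfl

end mf

end Cfsg.Agent.Lib.MFree
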