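import Mathlib
import Cfsg.Agent.Lib.MFree

set_option autoImplicit false

/-!
# Orbital operators in the multiplicity free case (helper12)
-/

namespace Cfsg.Agent.Lib.MFreePerm

open scoped ComplexConjugate
open Representation Module Cfsg.Agent.Lib.CharBasic Cfsg.Agent.Lib.PermChar
  Cfsg.Agent.Lib.PermChar2 Cfsg.Agent.Lib.PermChar3 Cfsg.Agent.Lib.PermChar4 Cfsg.Agent.Lib.MFree

universe u v w

variable {G : Type u} [Group G] {Ω : Type v} [Fintype Ω] [MulAction G Ω]

theorem com_orbOp (a b : Ω) : Com (Cfsg.permRep ℂ G Ω) (orbOp G a b) := fun g v => orbOp_comm a b g v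

/-- the trivial character -/
noncomputable def one' (G : Type u) [Group G] : IrrCharacter G := ⟨1, isIrrCharacter_one⟩

theorem one_mem_cons [Fintype G] [MulAction.IsPretransitive G Ω] [Nonempty Ω] :
    one' G ∈ cons (Cfsg.permRep ℂ G Ω) := by
  rw [mem_cons]
  show classInner (Cfsg.permRep ℂ G Ω).character (1 : G → ℂ) ≠ 0
  rw [classInner_one]
  exact one_ne_zero

theorem wsum_one_inv [Fintype G] (v : Ω → ℂ) (g : G) :
    Cfsg.permRep ℂ G Ω g (wsum 1 (Cfsg.permRep ℂ G Ω) v) = wsum 1 (Cfsg.permRep ℂ G Ω) v := by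
  rw [wsum_apply, map_sum]
  refine Fintype.sum_equiv (Equiv.mulLeft g) _ _ fun h => ?_
  rw [map_smul, Equiv.coe_mulLeft, map_mul, Pi.one_apply, Pi.one_apply]
  rfl

theorem const_of_inv [MulAction.IsPretransitive G Ω] {v : Ω → ℂ}
    (hv : ∀ g : G, Cfsg.permRep ℂ G Ω g v = v) (x y : Ω) : v x = v y := by
  obtain ⟨g, hg⟩ := MulAction.exists_smul_eq G x y
  have h3 := congrFun (hv g) y
  rw [PermRepBasic.permRep_apply, ← hg, inv_smul_smul] at h3
  rw [← hg, h3]

theorem wsum_one_const [Fintype G] [MulAction.IsPretransitive G Ω] (v : Ω → ℂ) (x y : Ω) :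
    wsum 1 (Cfsg.permRep ℂ G Ω) v x = wsum 1 (Cfsg.permRep ℂ G Ω) v y :=
  const_of_inv (wsum_one_inv v) x y

theorem sc_one_orbOp [Fintype G] [MulAction.IsPretransitive G Ω] (a b : Ω) :
    sc (Cfsg.permRep ℂ G Ω) (orbOp G b a) (one' G) =
      Nat.card (MulAction.orbit (MulAction.stabilizer G a) b) := by
  have : Nonempty Ω := ⟨a⟩
  have hG : (Fintype.card G : ℂ) ≠ 0 := by exact_mod_cast Fintype.card_ne_zero
  have hm : one' G ∈ cons (Cfsg.permRep ℂ G Ω) := one_mem_cons
  have h1 := (tv_spec hm).2 1 (isIrrCharacter_one (G := G)).isClassFunction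
  have h2 : (∑ g : G, (1 : G → ℂ) g * (one' G : G → ℂ) g) / (one' G : G → ℂ) 1 = Fintype.card G := by
    show (∑ g : G, (1 : G → ℂ) g * (1 : G → ℂ) g) / (1 : G → ℂ) 1 = Fintype.card G
    simp
  rw [h2] at h1
  set v := tv (Cfsg.permRep ℂ G Ω) (one' G) with hv
  have h3 : ∀ x y, v x = v y := by
    intro x y
    have h4 := wsum_one_const (G := G) v x y
    rw [h1, Pi.smul_apply, Pi.smul_apply, smul_eq_mul, smul_eq_mul] at h4
    exact mul_left_cancel₀ hG h4
  apply sc_unique hm
  rw [← hv]
  have h5 : v = v a • (fun _ => (1 : ℂ)) := by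
    ext x; rw [Pi.smul_apply, smul_eq_mul, mul_one]; exact h3 x a
  rw [h5, map_smul, smul_comm]
  congr 1
  ext y
  rw [orbOp_const a b _ (fun _ => rfl), Pi.smul_apply, smul_eq_mul, mul_one]

/-- an operator with trivial scalars away from `1` has constant columns -/
theorem const_of_sc_eq_zero [Fintype G] [MulAction.IsPretransitive G Ω] [Nonempty Ω]
    (hmf : MF (Cfsg.permRep ℂ G Ω)) {T : (Ω → ℂ) →ₗ[ℂ] (Ω → ℂ)}
    (hT : Com (Cfsg.permRep ℂ G Ω) T)
    (h : ∀ ψ ∈ cons (Cfsg.permRep ℂ G Ω), ψ ≠ one' G → sc (Cfsg.permRep ℂ G Ω) T ψ = 0)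
    (v : Ω → ℂ) (x y : Ω) : T v x = T v y := by
  classical
  have h1 : T = (sc (Cfsg.permRep ℂ G Ω) T (one' G) / Nat.card G) •
      wsum 1 (Cfsg.permRep ℂ G Ω) := by
    conv_lhs => rw [(exists_expansion hmf hT).2]
    rw [Finset.sum_eq_single (one' G)]
    · have h2 : (fun g => conj ((one' G : G → ℂ) g)) = 1 := by
        ext g
        show conj ((1 : G → ℂ) g) = 1
        simp
      rw [h2]
      have h3 : (one' G : G → ℂ) 1 = 1 := rfl
      rw [h3, mul_one]
    · intro ψ hψ hne
      rw [h ψ hψ hne, zero_mul, zero_div, zero_smul]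
    · intro hn; exact absurd one_mem_cons hn
  rw [h1, LinearMap.smul_apply, Pi.smul_apply, Pi.smul_apply, wsum_one_const v x y]

theorem trace_eq_sum_entries [DecidableEq Ω] (T : (Ω → ℂ) →ₗ[ℂ] (Ω → ℂ)) :
    LinearMap.trace ℂ (Ω → ℂ) T = ∑ x, T (Pi.single x 1) x := by
  rw [LinearMap.trace_eq_matrix_trace ℂ (Pi.basisFun ℂ Ω), Matrix.trace]
  refine Finset.sum_congr rfl fun x _ => ?_
  rw [Matrix.diag_apply, LinearMap.toMatrix_apply, Pi.basisFun_apply, Pi.basisFun_repr]

theorem mem_orbit_swap {a b x y : Ω} :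
    (x, y) ∈ MulAction.orbit G (a, b) ↔ (y, x) ∈ MulAction.orbit G (b, a) := by
  constructor
  · rintro ⟨g, hg⟩
    have hg' : (g • a, g • b) = (x, y) := hg
    exact ⟨g, Prod.ext (congrArg Prod.snd hg') (congrArg Prod.fst hg')⟩
  · rintro ⟨g, hg⟩
    have hg' : (g • b, g • a) = (y, x) := hg
    exact ⟨g, Prod.ext (congrArg Prod.snd hg') (congrArg Prod.fst hg')⟩

theorem trace_orbOp_comp [MulAction.IsPretransitive G Ω] (a b c d : Ω)
    [Decidable ((c, d) ∈ MulAction.orbit G (b, a))] :
    LinearMap.trace ℂ (Ω → ℂ) (orbOp G b a ∘ₗ orbOp G d c) =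
      if (c, d) ∈ MulAction.orbit G (b, a) then
        (Fintype.card Ω : ℂ) * Nat.card (MulAction.orbit (MulAction.stabilizer G a) b) else 0 := by
  classical
  rw [trace_eq_sum_entries]
  have h1 : ∀ x : Ω, (orbOp G b a ∘ₗ orbOp G d c) (Pi.single x 1) x =
      ∑ y, (if (y, x) ∈ MulAction.orbit G (b, a) then
        (if (y, x) ∈ MulAction.orbit G (c, d) then (1 : ℂ) else 0) else 0) := by
    intro x
    rw [LinearMap.comp_apply, orbOp_apply]
    refine Finset.sum_congr rfl fun y _ => ?_
    congr 1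
    rw [orbOp_single]
    by_cases h : (y, x) ∈ MulAction.orbit G (c, d)
    · rw [if_pos h, if_pos (mem_orbit_swap.mp h)]
    · rw [if_neg h, if_neg (fun h' => h (mem_orbit_swap.mpr h'))]
  rw [Finset.sum_congr rfl (fun x _ => h1 x)]
  split_ifs with hcd
  · have h2 : ∀ x : Ω, ∑ y, (if (y, x) ∈ MulAction.orbit G (b, a) then
        (if (y, x) ∈ MulAction.orbit G (c, d) then (1 : ℂ) else 0) else 0) =
        Nat.card (MulAction.orbit (MulAction.stabilizer G a) b) := by
      intro x
      rw [← orbOp_const a b (fun _ => (1 : ℂ)) (fun _ => rfl) x, orbOp_apply]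
      refine Finset.sum_congr rfl fun y _ => ?_
      rw [MulAction.orbit_eq_iff.mpr hcd]
      split_ifs <;> rfl
    rw [Finset.sum_congr rfl (fun x _ => h2 x), Finset.sum_const, Finset.card_univ, nsmul_eq_mul]
  · apply Finset.sum_eq_zero
    intro x _
    apply Finset.sum_eq_zero
    intro y _
    split_ifs with h1 h2
    · exfalso
      apply hcd
      have h3 := MulAction.orbit_eq_iff.mpr h1
      have h4 := MulAction.orbit_eq_iff.mpr h2
      rw [← h3, h4]
      exact MulAction.mem_orbit_self _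
    · rfl
    · rfl

/-- natural number entries -/
theorem exists_nat_entry (a b : Ω) [DecidableEq Ω] (x y : Ω) :
    ∃ n : ℕ, (orbOp G b a ∘ₗ orbOp G b a) (Pi.single x 1) y = n := by
  classical
  rw [LinearMap.comp_apply, orbOp_apply]
  refine ⟨∑ z, (if (z, y) ∈ MulAction.orbit G (b, a) then
    (if (x, z) ∈ MulAction.orbit G (b, a) then 1 else 0) else 0), ?_⟩
  push_cast
  refine Finset.sum_congr rfl fun z _ => ?_
  rw [orbOp_single]

/-- In a primitive group of nonprime degree a point stabiliser fixes only one point. -/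
theorem subdegree_ne_one [Finite G] [MulAction.IsPreprimitive G Ω] (a b : Ω) (hab : b ≠ a)
    (h1 : Nat.card (MulAction.orbit (MulAction.stabilizer G a) b) = 1) :
    ∀ x : Ω, Nat.card (MulAction.orbit (MulAction.stabilizer G a) x) = 1 := by
  classical
  have hcardstab : ∀ x y : Ω, Nat.card (MulAction.stabilizer G x) =
      Nat.card (MulAction.stabilizer G y) := by
    intro x y
    obtain ⟨g, rfl⟩ := MulAction.exists_smul_eq G x y
    exact Nat.card_congr (MulAction.stabilizerEquivStabilizer (g := g) rfl).toEquiv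
  let B : Set Ω := {x | MulAction.stabilizer G x = MulAction.stabilizer G a}
  have hle : ∀ x y : Ω, MulAction.stabilizer G x ≤ MulAction.stabilizer G y →
      MulAction.stabilizer G x = MulAction.stabilizer G y := by
    intro x y h
    apply SetLike.coe_injective
    apply Set.eq_of_subset_of_ncard_le h _ (Set.toFinite _)
    exact (hcardstab y x).le
  have hmem : ∀ x, x ∈ B ↔ Nat.card (MulAction.orbit (MulAction.stabilizer G a) x) = 1 := by
    intro x
    constructor
    · intro hx
      have hx' : MulAction.stabilizer G x = MulAction.stabilizer G a := hx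
      have : MulAction.orbit (MulAction.stabilizer G a) x = {x} := by
        ext y
        constructor
        · rintro ⟨g, rfl⟩
          have : g.1 ∈ MulAction.stabilizer G x := by rw [hx']; exact g.2
          exact this
        · intro h; rw [Set.mem_singleton_iff.mp h]; exact MulAction.mem_orbit_self _
      rw [this]; simp
    · intro hx
      refine (hle a x ?_).symm
      intro g hg
      have hsub : Subsingleton (MulAction.orbit (MulAction.stabilizer G a) x) :=
        (Nat.card_eq_one_iff_unique.mp hx).1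
      have := congrArg Subtype.val (hsub.elim
        ⟨(⟨g, hg⟩ : MulAction.stabilizer G a) • x, MulAction.mem_orbit _ _⟩
        ⟨x, MulAction.mem_orbit_self _⟩)
      exact this
  have hB : MulAction.IsBlock G B := by
    rw [MulAction.isBlock_iff_smul_eq_of_mem]
    intro g x hx hgx
    have hx' : MulAction.stabilizer G x = MulAction.stabilizer G a := hx
    have hgx' : MulAction.stabilizer G (g • x) = MulAction.stabilizer G a := hgx
    ext y
    rw [Set.mem_smul_set_iff_inv_smul_mem]
    show MulAction.stabilizer G (g⁻¹ • y) = _ ↔ MulAction.stabilizer G y = _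
    have e1 : ∀ z : Ω, MulAction.stabilizer G (g • z) =
        (MulAction.stabilizer G z).map (MulAut.conj g).toMonoidHom :=
      fun z => MulAction.stabilizer_smul_eq_stabilizer_map_conj g z
    have e2 : (MulAction.stabilizer G a).map (MulAut.conj g).toMonoidHom =
        MulAction.stabilizer G a := by
      rw [← hx', ← e1, hgx', hx']
    constructor
    · intro h
      have h2 := e1 (g⁻¹ • y)
      rw [smul_inv_smul, h, e2] at h2
      exact h2
    · intro h
      have h2 := e1 (g⁻¹ • y)
      rw [smul_inv_smul, h] at h2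
      have h3 := h2.symm.trans e2.symm
      exact Subgroup.map_injective (MulAut.conj g).injective h3
  rcases MulAction.IsPreprimitive.isTrivialBlock_of_isBlock hB with h | h
  · exfalso
    exact hab (h ((hmem b).mpr h1) rfl)
  · intro x
    rw [← hmem, h]; trivial

end Cfsg.Agent.Lib.MFreePerm
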