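import Mathlib
import Cfsg.Agent.Lib.MFreePerm

set_option autoImplicit false
set_option linter.all false

/-! Trace formula for orbitals of a rank three multiplicity free permutation character. -/

namespace Cfsg.Agent.Lib.H52_EIG9

open scoped ComplexConjugate
open Cfsg Representation Module Cfsg.Agent.Lib.CharBasic Cfsg.Agent.Lib.PermChar
  Cfsg.Agent.Lib.PermChar2 Cfsg.Agent.Lib.PermChar3 Cfsg.Agent.Lib.PermChar4 Cfsg.Agent.Lib.MFree
  Cfsg.Agent.Lib.MFreePerm

universe u v

variable {G : Type u} [Group G] [Fintype G] {Ω : Type v} [Fintype Ω] [MulAction G Ω]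

theorem eig [MulAction.IsPretransitive G Ω] {χ₁ χ₂ : G → ℂ} (h₁ : IsIrrCharacter G χ₁)
    (h₂ : IsIrrCharacter G χ₂)
    (hπ' : (Cfsg.permRep ℂ G Ω).character = 1 + χ₁ + χ₂) (h12 : χ₁ ≠ χ₂) (h01 : (1 : G → ℂ) ≠ χ₁)
    (h02 : (1 : G → ℂ) ≠ χ₂) (a b : Ω) :
    Nat.card (MulAction.orbitRel.Quotient (MulAction.stabilizer G a) Ω) = 3 ∧
    ∃ r s : ℂ, (∀ g : G, (Nat.card {x : Ω // (g • x, x) ∈ MulAction.orbit G (b, a)} : ℂ) =
      Nat.card (MulAction.orbit (MulAction.stabilizer G a) b) + r * χ₁ g + s * χ₂ g) ∧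
     ((a, b) ∈ MulAction.orbit G (b, a) →
      (Fintype.card Ω : ℂ) * Nat.card (MulAction.orbit (MulAction.stabilizer G a) b) =
        (Nat.card (MulAction.orbit (MulAction.stabilizer G a) b) : ℂ) ^ 2 + r ^ 2 * χ₁ 1 + s ^ 2 * χ₂ 1) := by
  classical
  have hne : Nonempty Ω := ⟨a⟩
  set ρ := Cfsg.permRep ℂ G Ω with hρ
  have hone : classInner ρ.character 1 = 1 := classInner_one
  have hcl : ∀ φ : G → ℂ, IsIrrCharacter G φ → classInner ρ.character φ =
      (if φ = 1 then 1 else 0) + (if φ = χ₁ then 1 else 0) + (if φ = χ₂ then 1 else 0) := by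
    intro φ hφ
    rw [hπ', classInner_add_left, classInner_add_left]
    have h1 : ∀ ψ : G → ℂ, IsIrrCharacter G ψ → classInner ψ φ = if φ = ψ then 1 else 0 := by
      intro ψ hψ
      split_ifs with h
      · rw [h, hψ.classInner_self]
      · exact hψ.classInner_eq_zero hφ (fun h' => h h'.symm)
    rw [h1 _ isIrrCharacter_one, h1 _ h₁, h1 _ h₂]
  have hcl1 : classInner ρ.character χ₁ = 1 := by
    rw [hcl _ h₁, if_neg h01.symm, if_pos rfl, if_neg h12]; norm_num
  have hcl2 : classInner ρ.character χ₂ = 1 := by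
    rw [hcl _ h₂, if_neg h02.symm, if_neg h12.symm, if_pos rfl]; norm_num
  have hmem : ∀ φ : G → ℂ, IsIrrCharacter G φ → classInner ρ.character φ ≠ 0 →
      φ = 1 ∨ φ = χ₁ ∨ φ = χ₂ := by
    intro φ hφ h0
    by_contra hcon
    push Not at hcon
    apply h0
    rw [hcl _ hφ, if_neg hcon.1, if_neg hcon.2.1, if_neg hcon.2.2]; norm_num
  have hmf : MF ρ := by
    intro φ hφ
    by_cases h0 : classInner ρ.character φ = 0
    · exact Or.inl h0
    · right
      rcases hmem φ hφ h0 with h | h | h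
      · rw [h, hone]
      · rw [h, hcl1]
      · rw [h, hcl2]
  have hrank : Nat.card (MulAction.orbitRel.Quotient (MulAction.stabilizer G a) Ω) = 3 := by
    have h1 := classInner_self_eq_rank (G := G) (Ω := Ω) a
    rw [← hρ] at h1
    have h2 : classInner ρ.character ρ.character = 3 := by
      have e : classInner ρ.character (1 + χ₁ + χ₂) = 3 := by
        rw [classInner_add_right, classInner_add_right, hone, hcl1, hcl2]; norm_num
      rwa [← hπ'] at e
    rw [h2] at h1
    exact_mod_cast h1.symm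
  refine ⟨hrank, ?_⟩
  let T := orbOp G b a
  have hT : Com ρ T := com_orbOp b a
  let i₁ : IrrCharacter G := ⟨χ₁, h₁⟩
  let i₂ : IrrCharacter G := ⟨χ₂, h₂⟩
  have hi1 : i₁ ∈ cons ρ := mem_cons.mpr (by show classInner ρ.character χ₁ ≠ 0; rw [hcl1]; exact one_ne_zero)
  have hi2 : i₂ ∈ cons ρ := mem_cons.mpr (by show classInner ρ.character χ₂ ≠ 0; rw [hcl2]; exact one_ne_zero)
  have hi0 : one' G ∈ cons ρ := one_mem_cons
  have hcons : cons ρ = {one' G, i₁, i₂} := by
    ext φ
    rw [Finset.mem_insert, Finset.mem_insert, Finset.mem_singleton]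
    constructor
    · intro h
      rcases hmem φ φ.2 (mem_cons.mp h) with h | h | h
      · exact Or.inl (Subtype.ext h)
      · exact Or.inr (Or.inl (Subtype.ext h))
      · exact Or.inr (Or.inr (Subtype.ext h))
    · rintro (h | h | h)
      · rw [h]; exact hi0
      · rw [h]; exact hi1
      · rw [h]; exact hi2
  have hne01 : one' G ≠ i₁ := fun h => h01 (congrArg Subtype.val h)
  have hne02 : one' G ≠ i₂ := fun h => h02 (congrArg Subtype.val h)
  have hne12 : i₁ ≠ i₂ := fun h => h12 (congrArg Subtype.val h)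
  have hsumc : ∀ F : IrrCharacter G → ℂ, ∑ ψ ∈ cons ρ, F ψ = F (one' G) + F i₁ + F i₂ := by
    intro F
    rw [hcons, Finset.sum_insert (by
      rw [Finset.mem_insert, Finset.mem_singleton, not_or]; exact ⟨hne01, hne02⟩),
      Finset.sum_pair hne12, add_assoc]
  have hk0 : sc ρ T (one' G) = Nat.card (MulAction.orbit (MulAction.stabilizer G a) b) := sc_one_orbOp a b
  refine ⟨sc ρ T i₁, sc ρ T i₂, ?_, ?_⟩
  · intro g
    have h1 := trace_comp_rep hmf hT g
    rw [hsumc, hk0] at h1
    have h2 : (one' G : G → ℂ) g = 1 := rfl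
    rw [h2, mul_one] at h1
    rw [← show LinearMap.trace ℂ (Ω → ℂ) (T ∘ₗ ρ g) = _ from h1, trace_eq_sum_entries,
      Nat.card_eq_fintype_card, Fintype.card_subtype, Finset.card_filter]
    push_cast
    refine Finset.sum_congr rfl fun x _ => ?_
    show _ = T (ρ g (Pi.single x 1)) x
    have h3 : ρ g (Pi.single x 1) = Pi.single (g • x) 1 := by
      ext y
      rw [PermRepBasic.permRep_apply]
      by_cases h : y = g • x
      · rw [h, inv_smul_smul, Pi.single_eq_same, Pi.single_eq_same]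
      · rw [Pi.single_eq_of_ne h, Pi.single_eq_of_ne]
        intro h'
        exact h (by rw [← h', smul_inv_smul])
    rw [h3]
    exact (orbOp_single b a (g • x) x).symm
  · intro horb
    have h1 := trace_eq_sum hmf (hT.comp hT)
    rw [hsumc, sc_comp hmf hT hT hi0, sc_comp hmf hT hT hi1, sc_comp hmf hT hT hi2, hk0] at h1
    have h5 : LinearMap.trace ℂ (Ω → ℂ) (T ∘ₗ T) =
        (Fintype.card Ω : ℂ) * Nat.card (MulAction.orbit (MulAction.stabilizer G a) b) := by
      show LinearMap.trace ℂ (Ω → ℂ) (orbOp G b a ∘ₗ orbOp G b a) = _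
      rw [trace_orbOp_comp a b a b, if_pos horb]
    have h2 : (one' G : G → ℂ) 1 = 1 := rfl
    rw [h2, h5] at h1
    rw [h1]
    show _ = _ + _ * (i₁ : G → ℂ) 1 + _ * (i₂ : G → ℂ) 1
    ring

end Cfsg.Agent.Lib.H52_EIG9
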