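import Mathlib
import Cfsg.Agent.Lib.H52T0
import Cfsg.Agent.Lib.H52_KB12

set_option autoImplicit false
set_option linter.all false

/-! `KBASE` of S3254 from its field `prod` -/

namespace Cfsg.Agent.Lib.H52_KBof

open Cfsg Cfsg.Agent.Lib.BRPerm Cfsg.Agent.Lib.BRCore Cfsg.Agent.Lib.BRInd Cfsg.Agent.Lib.CharBasic Cfsg.Agent.Lib.BlockThird Cfsg.Agent.Lib.H52T0 Cfsg.Agent.Lib.H15RealP Cfsg.Agent.Lib.BRB0 Cfsg.Agent.Lib.DefOneLoc
universe u v

variable {G : Type u} [Group G] [Fintype G] [IsSimpleGroup G] {p : ℕ} [hp : Fact p.Prime]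

theorem cent_eq (hG : ¬ IsMulCommutative G) (h5 : 5 ≤ p) (P : Sylow p G)
    (hN : Nat.card (Subgroup.normalizer ((P : Subgroup G) : Set G)) = 2 * p) :
    Subgroup.centralizer ((P : Subgroup G) : Set G) = (P : Subgroup G) := by
  have hP := H15Deg2p.card_P h5 P hN
  have hpG : p ∣ Nat.card G := (dvd_mul_left p 2).trans (by rw [← hN]; exact Subgroup.card_subgroup_dvd_card _)
  have hPC : (P : Subgroup G) ≤ Subgroup.centralizer ((P : Subgroup G) : Set G) := by
    intro a ha
    rw [Subgroup.mem_centralizer_iff]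
    intro b hb
    by_cases ha1 : a = 1
    · rw [ha1, one_mul, mul_one]
    · rw [SetLike.mem_coe, ← H52_KB12.zpowers_eq P hP ha ha1] at hb
      obtain ⟨m, rfl⟩ := hb
      exact (((Commute.refl a).zpow_right m).eq).symm
  have hCN : Subgroup.centralizer ((P : Subgroup G) : Set G) ≤ Subgroup.normalizer ((P : Subgroup G) : Set G) :=
    Subgroup.centralizer_le_normalizer _
  have hcard : Nat.card (Subgroup.centralizer ((P : Subgroup G) : Set G)) = p := by
    have h1 : p ∣ Nat.card (Subgroup.centralizer ((P : Subgroup G) : Set G)) := by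
      have h0 := Subgroup.card_dvd_of_le hPC
      rwa [show Nat.card (P : Subgroup G) = p from hP] at h0
    have h2 : Nat.card (Subgroup.centralizer ((P : Subgroup G) : Set G)) ∣ 2 * p := by
      rw [← hN]; exact Subgroup.card_dvd_of_le hCN
    obtain ⟨k, hk⟩ := h1
    rw [hk, mul_comm p k] at h2
    have h3 := Nat.dvd_of_mul_dvd_mul_right hp.out.pos h2
    rcases (Nat.dvd_prime Nat.prime_two).1 h3 with h4 | h4
    · rw [hk, h4, mul_one]
    · exfalso
      apply SmallSimple.not_normalizer_le_centralizer hG hpG P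
      apply le_of_eq
      symm
      apply Subgroup.eq_of_le_of_card_ge hCN
      rw [hk, hN, h4, mul_comm]
  symm
  apply Subgroup.eq_of_le_of_card_ge hPC
  rw [hcard]; exact (show Nat.card (P : Subgroup G) = p from hP).ge

variable {Ω : Type v} [Fintype Ω] [MulAction G Ω] [FaithfulSMul G Ω]

theorem KBASE_of (hG : ¬ IsMulCommutative G) (h5 : 5 ≤ p) (P : Sylow p G)
    (hN : Nat.card (Subgroup.normalizer ((P : Subgroup G) : Set G)) = 2 * p) (hprim : MulAction.IsPreprimitive G Ω) (hΩ : Nat.card Ω = 3 * p)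
    (hprod : ∀ t g : G, orderOf t = 2 → g ≠ 1 → ¬ p ∣ orderOf g →
      ∃ t' g' : G, IsConj t t' ∧ IsConj g g' ∧ orderOf (t' * g') = p) :
    Base G Ω p := by
  have hP := H15Deg2p.card_P h5 P hN
  have hC := (cent_eq hG h5 P hN).le
  have hpG : p ∣ Nat.card G := (dvd_mul_left p 2).trans (by rw [← hN]; exact Subgroup.card_subgroup_dvd_card _)
  have hsq : ¬ p ^ 2 ∣ Nat.card G := by
    intro h
    have h1 := P.card_eq_multiplicity
    have h2 : p ^ 2 ∣ Nat.card P := by
      rw [h1]
      exact pow_dvd_pow p ((hp.out.pow_dvd_iff_le_factorization Nat.card_pos.ne').1 h)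
    rw [hP] at h2
    have h3 := Nat.le_of_dvd hp.out.pos h2
    nlinarith [hp.out.one_lt]
  have hpΩ : p ∣ Nat.card Ω := by rw [hΩ]; exact dvd_mul_left _ _
  have hfree : ∀ x : G, p ∣ orderOf x → ∀ a : Ω, x • a ≠ a := fun x hx a => H15Deg2p.free_sing hpΩ hsq hx a
  have hodd : ¬ p ∣ 2 := by
    intro h
    have := Nat.le_of_dvd (by norm_num) h
    omega
  have hconj : ∀ s t : G, orderOf s = 2 → orderOf t = 2 → IsConj s t := by
    intro s t hs ht
    obtain ⟨s', t', h1, h2, h3⟩ := hprod s t hs (by rintro rfl; rw [orderOf_one] at ht; omega) (by rw [ht]; exact hodd)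
    have hs' : orderOf s' = 2 := by
      obtain ⟨c, hc⟩ := isConj_iff.1 h1
      rw [← hc]
      have := (MulAut.conj c).orderOf_eq s
      rw [MulAut.conj_apply] at this
      rw [this, hs]
    have ht' : orderOf t' = 2 := by
      obtain ⟨c, hc⟩ := isConj_iff.1 h2
      rw [← hc]
      have := (MulAut.conj c).orderOf_eq t
      rw [MulAut.conj_apply] at this
      rw [this, ht]
    have h4 : Odd (orderOf (s' * t')) := by
      rw [h3]
      exact hp.out.odd_of_ne_two (by omega)
    exact (h1.trans (H52_KB12.conj_of_prod hs' ht' h4)).trans h2.symm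
  obtain ⟨t0, -, ht0⟩ := H52_KB12.exists_inv P hN
  exact
    { hp := hp.out
      h5 := h5
      simple := inferInstance
      nab := hG
      faithful := inferInstance
      prim := hprim
      card := hΩ
      sing := fun g hg => by
        have : IsEmpty (MulAction.fixedBy Ω g) := ⟨fun a => hfree g hg a.1 a.2⟩
        rw [fx, Nat.card_of_isEmpty]
      nsing := H52_KB12.nsing P hP hC hN
      syl := H52_KB12.syl P hN
      inv := ⟨t0, ht0⟩
      conj := hconj
      prod := hprod
      sub := fun t ht => H52_KB12.sub hG P hP (by omega) hC hN hΩ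
        (fun x hx h1 a => hfree x (by rw [H52_KB12.orderOf_eq P hP hx h1]) a) hconj ht }

end Cfsg.Agent.Lib.H52_KBof
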