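import Cfsg.Agent.Lib.H52T0
import Cfsg.Agent.Lib.ColTools

set_option autoImplicit false
set_option linter.all false

/-! S3254: the structure `CharD` from the block configuration, and conjugacy of involutions -/

namespace Cfsg.Agent.Lib.H52_KDb

open Cfsg Cfsg.Agent.Lib.BlockRing Cfsg.Agent.Lib.BlockGA Cfsg.Agent.Lib.BlockIdem
open Cfsg.Agent.Lib.DefOneLoc Cfsg.Agent.Lib.DefOneOrd Cfsg.Agent.Lib.CharBasic Cfsg.Agent.Lib.DefOneGram
open Cfsg.Agent.Lib.DefOne Cfsg.Agent.Lib.BlockThird Cfsg.Agent.Lib.DefOnePrin Cfsg.Agent.Lib.BRB0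
open Cfsg.Agent.Lib.BRNum Cfsg.Agent.Lib.BRDeg Cfsg.Agent.Lib.BRCore Cfsg.Agent.Lib.BROne Cfsg.Agent.Lib.BRInd
open Cfsg.Agent.Lib.BRPerm Cfsg.Agent.Lib.H15RealP Cfsg.Agent.Lib.H15Deg2p Cfsg.Agent.Lib.H52T0
open scoped ComplexConjugate

universe u v

section gen

variable {G : Type u} [Group G] [Fintype G]

/-- number of ordered pairs of conjugates of `t` with product `g` -/
noncomputable def cnt (t g : G) : ℕ := Nat.card {q : G × G // IsConj t q.1 ∧ IsConj t q.2 ∧ q.1 * q.2 = g}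

theorem cnt_class (t g z : G) : cnt t (z * g * z⁻¹) = cnt t g := by
  refine (Nat.card_congr (Equiv.subtypeEquiv ((MulAut.conj z).toEquiv.prodCongr (MulAut.conj z).toEquiv) ?_)).symm
  intro q
  show (IsConj t q.1 ∧ IsConj t q.2 ∧ q.1 * q.2 = g) ↔
    (IsConj t (z * q.1 * z⁻¹) ∧ IsConj t (z * q.2 * z⁻¹) ∧ (z * q.1 * z⁻¹) * (z * q.2 * z⁻¹) = z * g * z⁻¹)
  have e1 : ∀ x : G, IsConj t x ↔ IsConj t (z * x * z⁻¹) := fun x =>
    ⟨fun h => h.trans (isConj_iff.2 ⟨z, rfl⟩), fun h => h.trans (isConj_iff.2 ⟨z⁻¹, by group⟩)⟩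
  have e2 : (z * q.1 * z⁻¹) * (z * q.2 * z⁻¹) = z * (q.1 * q.2) * z⁻¹ := by group
  rw [← e1, ← e1, e2]
  constructor
  · rintro ⟨h1, h2, h3⟩; exact ⟨h1, h2, by rw [h3]⟩
  · rintro ⟨h1, h2, h3⟩; exact ⟨h1, h2, mul_left_cancel (mul_right_cancel h3)⟩

theorem cnt_classFun (t : G) : IsClassFunction G (fun g => (cnt t g : ℂ)) := by
  intro g z
  show ((cnt t _ : ℕ) : ℂ) = cnt t g
  exact_mod_cast cnt_class t g z

theorem cc_inj : Function.Injective (ColTools.cc (G := G)) :=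
  Function.LeftInverse.injective ColTools.cc_cc

/-- the inner products of `cnt` -/
theorem classInner_cnt (t : G) (η : IrrCharacter G) :
    classInner (fun g => (cnt t g : ℂ)) (η : G → ℂ) * (Nat.card (Subgroup.centralizer ({t} : Set G)) : ℂ) ^ 2 =
      Nat.card G * (conj ((η : G → ℂ) t) ^ 2 / (η : G → ℂ) 1) := by
  classical
  set c := (Nat.card (Subgroup.centralizer ({t} : Set G)) : ℂ) with hc
  have hc0 : c ≠ 0 := by rw [hc]; exact_mod_cast Nat.card_pos.ne'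
  have h1 : (fun g => (cnt t g : ℂ)) = ∑ ψ : IrrCharacter G,
      ((Nat.card G : ℂ) / c ^ 2 * (conj ((ψ : G → ℂ) t) ^ 2 / (ψ : G → ℂ) 1)) • (ψ : G → ℂ) := by
    funext g
    have h2 := ColTools.struct_const t t g
    rw [Finset.sum_apply]
    have h3 : ∑ χ : IrrCharacter G, (χ : G → ℂ) t * (χ : G → ℂ) t * (χ : G → ℂ) g⁻¹ / (χ : G → ℂ) 1 =
        ∑ ψ : IrrCharacter G, (conj ((ψ : G → ℂ) t) ^ 2 / (ψ : G → ℂ) 1) * (ψ : G → ℂ) g := by
      refine Finset.sum_bij (fun χ _ => ColTools.cc χ) (fun _ _ => Finset.mem_univ _)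
        (fun a _ b _ h => cc_inj h) (fun b _ => ⟨ColTools.cc b, Finset.mem_univ _, ColTools.cc_cc b⟩) ?_
      intro χ _
      rw [ColTools.cc_apply, ColTools.cc_apply, ColTools.cc_apply, Complex.conj_conj, ColTools.conj_apply χ g,
        ColTools.conj_apply χ 1, inv_one]
      ring
    rw [h3] at h2
    have h4 : (cnt t g : ℂ) * (c * c) = Nat.card G * ∑ ψ : IrrCharacter G, (conj ((ψ : G → ℂ) t) ^ 2 / (ψ : G → ℂ) 1) * (ψ : G → ℂ) g := h2
    have h5 : (cnt t g : ℂ) = Nat.card G / c ^ 2 * ∑ ψ : IrrCharacter G, (conj ((ψ : G → ℂ) t) ^ 2 / (ψ : G → ℂ) 1) * (ψ : G → ℂ) g := by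
      rw [div_mul_eq_mul_div, ← h4, pow_two, mul_div_assoc, div_self (mul_ne_zero hc0 hc0), mul_one]
    rw [h5, Finset.mul_sum]
    refine Finset.sum_congr rfl fun ψ _ => ?_
    rw [Pi.smul_apply, smul_eq_mul, mul_assoc]
  rw [h1, classInner_coeff_sum]
  field_simp

end gen

section cfg

variable {G : Type u} [Group G] [Fintype G] {p : ℕ} [hp : Fact p.Prime] {P N C : Subgroup G}
  {D : Loc p P N C} [Fintype C] {B : B0 D} {χ : IrrCharacter G}

theorem conj_w (h : Cfg B χ) {n : N} (hn : D.κ n = -1) {c : G} (hc : c ∈ C) : IsConj (n : G) (n * c) := by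
  set y := c ^ ((p + 1) / 2) with hy
  have hyc : y * y = c := by
    have hodd : p % 2 = 1 := by
      rcases hp.out.eq_two_or_odd with h1 | h1
      · have := h.h5; omega
      · exact h1
    have h1 : c ^ p = 1 := by
      have h2 : (⟨c, h.hCP hc⟩ : P) ^ Nat.card P = 1 := pow_card_eq_one'
      rw [h.hP] at h2
      exact congrArg Subtype.val h2
    rw [hy, ← pow_add]
    have : (p + 1) / 2 + (p + 1) / 2 = p + 1 := by omega
    rw [this, pow_succ, h1, one_mul]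
  have hyC : y ∈ C := C.pow_mem hc _
  have h1 := h.conj_inv hn hyC
  refine isConj_iff.2 ⟨y⁻¹, ?_⟩
  rw [← hyc, inv_inv, ← h1]; group

theorem kappa_of_inv (h : Cfg B χ) {c : C} (hc : D.l c ≠ 0) {s : G} (hs : s * c * s⁻¹ = (c : G)⁻¹) :
    ∃ hs' : s ∈ N, D.κ ⟨s, hs'⟩ = -1 := by
  have hN : s ∈ N := by
    apply D.ti s c c.2
    · exact sing_of_l c hc
    · rw [hs]; exact C.inv_mem c.2
  refine ⟨hN, ?_⟩
  have h1 := D.κ_conj ⟨s, hN⟩ c c⁻¹ (by rw [Subgroup.coe_inv, ← hs])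
  have h2 : D.l (c * c⁻¹) = D.l c + D.l c⁻¹ := D.l_mul _ _
  have h3 : D.l (c * c⁻¹) = 0 := by
    rw [mul_inv_cancel, D.l_reg]
    exact not_dvd_one
  rw [h3] at h2
  have h4 : (D.κ ⟨s, hN⟩ + 1) * D.l c = 0 := by rw [add_mul, ← h1, one_mul, add_comm]; exact h2.symm
  rcases mul_eq_zero.1 h4 with h5 | h5
  · exact eq_neg_of_add_eq_zero_left h5
  · exact absurd h5 hc

/-- the number of pairs with product a given element of `C` -/
theorem cnt_C (h : Cfg B χ) {w : N} (hw : D.κ w = -1) {t : G} (ht : orderOf t = 2) {c : C} (hc : D.l c ≠ 0) :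
    (IsConj t w → cnt t c = p) ∧ (¬ IsConj t w → cnt t c = 0) := by
  have hinv : ∀ s : G, IsConj t s → s * s = 1 := by
    intro s hs
    obtain ⟨z, rfl⟩ := isConj_iff.1 hs
    have h1 : t * t = 1 := by rw [← pow_two, ← ht, pow_orderOf_eq_one]
    calc z * t * z⁻¹ * (z * t * z⁻¹) = z * (t * t) * z⁻¹ := by group
      _ = 1 := by rw [h1]; group
  have key : ∀ q : G × G, IsConj t q.1 → IsConj t q.2 → q.1 * q.2 = c → ∃ d : C, q.1 = w * d := by
    intro q h1 h2 h3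
    have e1 := hinv _ h1
    have e2 := hinv _ h2
    have h4 : q.1 * c * q.1⁻¹ = (c : G)⁻¹ := by
      have e1' : q.1⁻¹ = q.1 := inv_eq_of_mul_eq_one_left e1
      have e2' : q.2⁻¹ = q.2 := inv_eq_of_mul_eq_one_left e2
      rw [← h3, mul_inv_rev, e1', e2']
      calc q.1 * (q.1 * q.2) * q.1 = (q.1 * q.1) * q.2 * q.1 := by group
        _ = q.2 * q.1 := by rw [e1, one_mul]
    obtain ⟨hN, hk⟩ := kappa_of_inv h hc h4
    have h5 : D.κ (w⁻¹ * ⟨q.1, hN⟩) = 1 := by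
      have h3 : D.κ (w * (w⁻¹ * ⟨q.1, hN⟩)) = D.κ ⟨q.1, hN⟩ := by rw [mul_inv_cancel_left]
      rw [D.κ_mul, hw, hk] at h3
      linear_combination -h3
    refine ⟨⟨_, (D.κ_eq _).1 h5⟩, ?_⟩
    show q.1 = (w : G) * ((w⁻¹ * ⟨q.1, hN⟩ : N) : G)
    push_cast
    group
  constructor
  · intro hconj
    rw [cnt, ← h.card_C]
    refine (Nat.card_congr (Equiv.ofBijective
      (fun d : C => (⟨((w : G) * d, (w : G) * d * c), ?_, ?_, ?_⟩ :
        {q : G × G // IsConj t q.1 ∧ IsConj t q.2 ∧ q.1 * q.2 = (c : G)})) ⟨?_, ?_⟩)).symm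
    · exact hconj.trans (conj_w h hw d.2)
    · rw [mul_assoc]
      exact hconj.trans (conj_w h hw (C.mul_mem d.2 c.2))
    · have h1 := hinv _ (hconj.trans (conj_w h hw d.2))
      show (w : G) * d * ((w : G) * d * c) = c
      rw [← mul_assoc, h1, one_mul]
    · intro d d' hd
      have h1 := congrArg (fun x => (x.1 : G × G).1) hd
      exact Subtype.ext (mul_left_cancel h1)
    · rintro ⟨⟨a, b⟩, h1, h2, h3⟩
      obtain ⟨d, hd⟩ := key (a, b) h1 h2 h3
      refine ⟨d, ?_⟩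
      apply Subtype.ext
      apply Prod.ext
      · exact hd.symm
      · show (w : G) * d * c = b
        have hd' : a = (w : G) * d := hd
        rw [← hd']
        have h3' : a * b = c := h3
        rw [← h3', ← mul_assoc, hinv a h1, one_mul]
  · intro hconj
    rw [cnt, Nat.card_eq_zero]
    left
    refine ⟨fun q => ?_⟩
    obtain ⟨d, hd⟩ := key q.1 q.2.1 q.2.2.1 q.2.2.2
    apply hconj
    have h1 := q.2.1
    rw [hd] at h1
    exact h1.trans (conj_w h hw d.2).symm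

/-- the counting identity -/
theorem cnt_eq (h : Cfg B χ) (hδ : B.δ χ = -1) {w : N} (hw : D.κ w = -1) {t : G} (ht : orderOf t = 2)
    {y : ℤ} (hy : (χ : G → ℂ) t = y) (hne : (χ : G → ℂ) t ≠ (χ : G → ℂ) 1) :
    IsConj t w ∧ (Nat.card G : ℂ) * ((χ : G → ℂ) 1 - y) ^ 2 =
      p * (Nat.card (Subgroup.centralizer ({t} : Set G)) : ℂ) ^ 2 * (χ : G → ℂ) 1 * ((χ : G → ℂ) 1 - 1) := by
  classical
  have h5 := h.h5
  have htp : ¬ p ∣ orderOf t := by
    rw [ht]; intro h1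
    have := Nat.le_of_dvd (by norm_num) h1
    omega
  obtain ⟨q⟩ : Nonempty (Tau D) := inferInstance
  set n0 : ℕ := if IsConj t w then p else 0 with hn0
  have hconst : ∀ g : G, p ∣ orderOf g → (fun g => (cnt t g : ℂ)) g = n0 := by
    intro g hg
    obtain ⟨Q, hQ⟩ := h.hPS
    obtain ⟨z, c, hzc, hc⟩ := DefOneGalois.exists_conj_C (D := D) Q hQ.symm hg
    have h1 : cnt t g = cnt t c := by rw [hzc, cnt_class]
    show ((cnt t g : ℕ) : ℂ) = n0
    rw [h1, hn0]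
    by_cases h2 : IsConj t w
    · rw [if_pos h2, (cnt_C h hw ht hc).1 h2]
    · rw [if_neg h2, (cnt_C h hw ht hc).2 h2]
  have h1 := h.sum_sing (cnt_classFun t) hconst q
  have e1 := classInner_cnt t (triv G)
  have e2 := classInner_cnt t χ
  have e3 := classInner_cnt t (B.Y q)
  set c := (Nat.card (Subgroup.centralizer ({t} : Set G)) : ℂ) with hc
  have hT1 : ((triv G : IrrCharacter G) : G → ℂ) t = 1 := rfl
  have hT2 : ((triv G : IrrCharacter G) : G → ℂ) 1 = 1 := rfl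
  rw [hT1, hT2, map_one] at e1
  have hYt := h.Y_reg hδ q htp
  have hY1 := h.Y_reg hδ q (g := 1) not_dvd_one
  rw [hy] at hYt
  have hcy : conj ((y : ℂ)) = y := by simp
  rw [hy, hcy] at e2
  rw [hYt, hY1, map_sub, hcy, map_one] at e3
  rw [hδ, h.s_eq hδ] at h1
  set f := (χ : G → ℂ) 1 with hf
  have hf0 : f ≠ 0 := χ.2.one_ne_zero
  have hf1 : f - 1 ≠ 0 := by
    rw [← hY1]
    exact (B.Y q).2.one_ne_zero
  have h2 : (Nat.card G : ℂ) * (1 - (y : ℂ) ^ 2 / f + ((y : ℂ) - 1) ^ 2 / (f - 1)) = n0 * c ^ 2 := by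
    rw [← h1]
    push_cast
    linear_combination -e1 + e2 - e3
  have h3 : (Nat.card G : ℂ) * (f - y) ^ 2 = n0 * c ^ 2 * f * (f - 1) := by
    have h4 : (1 - (y : ℂ) ^ 2 / f + ((y : ℂ) - 1) ^ 2 / (f - 1)) * (f * (f - 1)) = (f - y) ^ 2 := by
      field_simp
      ring
    rw [← h4]
    linear_combination (f * (f - 1)) * h2
  have hcon : IsConj t w := by
    by_contra h4
    rw [if_neg h4] at hn0
    rw [hn0, Nat.cast_zero, zero_mul, zero_mul, zero_mul] at h3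
    rcases mul_eq_zero.1 h3 with h6 | h6
    · exact (by exact_mod_cast Nat.card_pos.ne' : (Nat.card G : ℂ) ≠ 0) h6
    · apply hne
      have h7 := pow_eq_zero_iff (two_ne_zero) |>.1 h6
      rw [hy]
      linear_combination -h7
  refine ⟨hcon, ?_⟩
  rw [if_pos hcon] at hn0
  rw [h3, hn0]

/-- `CharD` from the block configuration -/
theorem charD [IsSimpleGroup G] (hG : ¬ IsMulCommutative G) (h : Cfg B χ) (hδ : B.δ χ = -1) {m : ℕ}
    (hm : (charDegree (χ : G → ℂ) : ℤ) = m * p - 1) : CharD G p m χ := by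
  classical
  have h5 := h.h5
  have hf1 : (χ : G → ℂ) 1 = m * p - 1 := by
    rw [← BlockDeg.charDegree_cast_irr]
    have : (((charDegree (χ : G → ℂ) : ℕ) : ℤ) : ℂ) = ((m * p - 1 : ℤ) : ℂ) := by rw [hm]
    push_cast at this
    exact this
  refine ⟨h.ne, hm, ?_, ?_, ?_⟩
  · intro g hg
    rw [h.val_sing hg, hδ]
    norm_num
  · intro t ht y hy
    obtain ⟨w, hw⟩ := h.exists_inv
    have hne : (χ : G → ℂ) t ≠ (χ : G → ℂ) 1 := by
      intro h1
      have h2 := faithful hG h.ne t h1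
      rw [h2, orderOf_one] at ht
      omega
    have h1 := (cnt_eq h hδ hw ht hy hne).2
    rw [hf1] at h1
    have h2 : (((Nat.card G : ℤ) * (m * p - 1 - y) ^ 2 : ℤ) : ℂ) =
        ((p * (Nat.card (Subgroup.centralizer ({t} : Set G)) : ℤ) ^ 2 * (m * p - 1) * (m * p - 2) : ℤ) : ℂ) := by
      push_cast
      rw [h1]
      ring
    exact_mod_cast h2
  · have hcard : Nat.card (Tau D) = (p - 1) / 2 := by
      have := h.tau
      omega
    let e : Fin ((p - 1) / 2) ≃ Tau D := (Finite.equivFinOfCardEq hcard).symm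
    refine ⟨fun i => B.Y (e i), fun i j hij => e.injective (B.Yinj hij), ?_⟩
    intro i
    refine ⟨(h.Y_ne _).1, (h.Y_ne _).2, ?_, fun g hg => h.Y_reg hδ _ hg⟩
    have h1 := h.Y_reg hδ (e i) (g := 1) not_dvd_one
    rw [← BlockDeg.charDegree_cast_irr, hf1] at h1
    have h2 : (((charDegree (B.Y (e i) : G → ℂ) : ℕ) : ℤ) : ℂ) = ((m * p - 2 : ℤ) : ℂ) := by
      push_cast
      rw [h1]; ring
    exact_mod_cast h2

/-- all involutions are conjugate (case `δ = -1`) -/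
theorem conj_inv_all [IsSimpleGroup G] (hG : ¬ IsMulCommutative G) (h : Cfg B χ) (hδ : B.δ χ = -1) {w : N}
    (hw : D.κ w = -1) {t : G} (ht : orderOf t = 2) : IsConj t w := by
  obtain ⟨y, hy⟩ := h.exists_int t
  refine (cnt_eq h hδ hw ht hy ?_).1
  intro h1
  have h2 := faithful hG h.ne t h1
  rw [h2, orderOf_one] at ht
  omega

end cfg

end Cfsg.Agent.Lib.H52_KDb
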