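import Cfsg.Agent.Lib.AvgChar
import Mathlib

set_option autoImplicit false

namespace Cfsg.Agent.Lib.H52_SEC

open Cfsg Cfsg.Agent.Lib.CharBasic Cfsg.Agent.Lib.AvgChar

universe u

/-- the homomorphism from the cyclic group of order four -/
def hom4 {M : Type*} [Monoid M] {v : M} (hv : v ^ 4 = 1) : Multiplicative (ZMod 4) →* M where
  toFun z := v ^ (Multiplicative.toAdd z).val
  map_one' := by
    show v ^ (0 : ZMod 4).val = 1
    rw [ZMod.val_zero, pow_zero]
  map_mul' a b := by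
    show v ^ (Multiplicative.toAdd a + Multiplicative.toAdd b).val = _
    rw [ZMod.val_add, ← pow_add]
    exact (pow_eq_pow_mod _ hv).symm

theorem sum4 (f : Multiplicative (ZMod 4) → ℂ) : ∑ z, f z =
    f (Multiplicative.ofAdd 0) + f (Multiplicative.ofAdd 1) + f (Multiplicative.ofAdd 2) + f (Multiplicative.ofAdd 3) := by
  exact Fin.sum_univ_four (fun z : Fin 4 => f (Multiplicative.ofAdd (z : ZMod 4)))

theorem four {T : Type u} [Group T] [Finite T] {w : T → ℂ} (hw : IsCharacter T w) {v : T} (hv : v ^ 4 = 1)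
    (hs : w v⁻¹ = w v) : ∃ x y : ℤ, w (v * v) = x ∧ w v = y ∧ (2 : ℤ) ∣ x - y := by
  have h3 : v ^ 3 = v⁻¹ := by
    rw [eq_inv_iff_mul_eq_one, ← pow_succ]; exact hv
  have hI : (Complex.I : ℂ) ^ 4 = 1 := Complex.I_pow_four
  have hc := hw.comp (hom4 hv)
  obtain ⟨n, hn⟩ := hc.classInner_nat (isCharacter_of_hom (1 : Multiplicative (ZMod 4) →* ℂ))
  obtain ⟨m, hm⟩ := hc.classInner_nat (isCharacter_of_hom (hom4 hI))
  obtain ⟨d, ρ, rfl⟩ := hw
  have h1 : ρ.character 1 = (d : ℂ) := by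
    unfold Representation.character
    rw [map_one]
    simp
  unfold classInner at hn hm
  rw [sum4] at hn hm
  have e0 : hom4 hv (Multiplicative.ofAdd 0) = 1 := by show v ^ 0 = 1; exact pow_zero v
  have e1 : hom4 hv (Multiplicative.ofAdd 1) = v := by show v ^ 1 = v; exact pow_one v
  have e2 : hom4 hv (Multiplicative.ofAdd 2) = v * v := by show v ^ 2 = v * v; exact pow_two v
  have e3 : hom4 hv (Multiplicative.ofAdd 3) = v⁻¹ := by show v ^ 3 = v⁻¹; exact h3
  have i0 : hom4 hI (Multiplicative.ofAdd 0) = 1 := by show Complex.I ^ 0 = 1; exact pow_zero _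
  have i1 : hom4 hI (Multiplicative.ofAdd 1) = Complex.I := by show Complex.I ^ 1 = _; exact pow_one _
  have i2 : hom4 hI (Multiplicative.ofAdd 2) = -1 := by show Complex.I ^ 2 = _; exact Complex.I_sq
  have i3 : hom4 hI (Multiplicative.ofAdd 3) = -Complex.I := by show Complex.I ^ 3 = _; exact Complex.I_pow_three
  simp only [Function.comp, e0, e1, e2, e3, i0, i1, i2, i3, hs, h1, MonoidHom.one_apply, map_one, map_neg,
    Complex.conj_I, Nat.card_eq_fintype_card, Fintype.card_multiplicative, ZMod.card] at hn hm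
  have hn' : (d : ℂ) + 2 * ρ.character v + ρ.character (v * v) = 4 * n := by
    push_cast at hn
    linear_combination (4 : ℂ) * hn
  have hm' : (d : ℂ) - ρ.character (v * v) = 4 * m := by
    push_cast at hm
    linear_combination (4 : ℂ) * hm
  refine ⟨(d : ℤ) - 4 * m, 2 * n + 2 * m - d, ?_, ?_, ⟨(d : ℤ) - 3 * m - n, by ring⟩⟩
  · push_cast; linear_combination (-1 : ℂ) * hm'
  · push_cast; linear_combination (1 / 2 : ℂ) * hn' + (1 / 2 : ℂ) * hm'

/-- sums over a coset of a subgroup of odd order normalized by an element of order four -/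
theorem coprime_sum {G : Type u} [Group G] [Finite G] {v : G} {U : Subgroup G} (hodd : Odd (Nat.card U)) (hv : v ^ 4 = 1)
    (hn : ∀ y ∈ U, v⁻¹ * y * v ∈ U) (f : G → ℂ) (hf : ∀ a g, f (g⁻¹ * a * g) = f a) :
    (Nat.card U : ℂ) * ∑ᶠ g ∈ ((U ⊓ Subgroup.centralizer ({v} : Set G) : Subgroup G) : Set G), f (v * g) =
      (Nat.card (U ⊓ Subgroup.centralizer ({v} : Set G) : Subgroup G) : ℂ) * ∑ᶠ g ∈ (U : Set G), f (v * g) := by
  classical
  have := Fintype.ofFinite G
  set W : Subgroup G := U ⊓ Subgroup.centralizer ({v} : Set G) with hW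
  have hWv : ∀ w ∈ W, w * v = v * w := fun w hw => Subgroup.mem_centralizer_singleton_iff.1 hw.2
  let A : Finset G := Finset.univ.filter (· ∈ U)
  let B : Finset G := Finset.univ.filter (· ∈ W)
  have hA : A.card = Nat.card U := by
    rw [Nat.card_eq_fintype_card, Fintype.card_subtype]
  have hB : B.card = Nat.card W := by
    rw [Nat.card_eq_fintype_card, Fintype.card_subtype]
  have mA : ∀ {g}, g ∈ A ↔ g ∈ U := by intro g; simp [A]
  have mB : ∀ {g}, g ∈ B ↔ g ∈ W := by intro g; simp [B]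
  have sA : ∑ᶠ g ∈ (U : Set G), f (v * g) = ∑ g ∈ A, f (v * g) := by
    rw [← finsum_mem_coe_finset]
    have : (U : Set G) = (A : Set G) := by ext g; simp [A]
    rw [this]
  have sB : ∑ᶠ g ∈ (W : Set G), f (v * g) = ∑ g ∈ B, f (v * g) := by
    rw [← finsum_mem_coe_finset]
    have : (W : Set G) = (B : Set G) := by ext g; simp [B]
    rw [this]
  let Φ : G × G → G := fun q => v⁻¹ * (q.1⁻¹ * (v * q.2) * q.1)
  have hΦ : ∀ q ∈ A ×ˢ B, Φ q ∈ A := by
    intro q hq
    obtain ⟨h1, h2⟩ := Finset.mem_product.1 hq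
    rw [mA] at h1
    rw [mB] at h2
    rw [mA]
    have e : Φ q = (v⁻¹ * q.1⁻¹ * v) * q.2 * q.1 := by
      show v⁻¹ * (q.1⁻¹ * (v * q.2) * q.1) = _
      group
    rw [e]
    exact U.mul_mem (U.mul_mem (hn _ (U.inv_mem h1)) h2.1) h1
  -- key: elements of a fibre
  have key : ∀ q ∈ A ×ˢ B, ∀ q' ∈ A ×ˢ B, Φ q = Φ q' → q.1 * q'.1⁻¹ ∈ B := by
    intro q hq q' hq' h
    obtain ⟨h1, h2⟩ := Finset.mem_product.1 hq
    obtain ⟨h1', h2'⟩ := Finset.mem_product.1 hq'
    rw [mA] at h1 h1'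
    rw [mB] at h2 h2'
    rw [mB]
    have h3 : q.1⁻¹ * (v * q.2) * q.1 = q'.1⁻¹ * (v * q'.2) * q'.1 := mul_left_cancel h
    set g := q.1 * q'.1⁻¹ with hg
    have h4 : g⁻¹ * (v * q.2) * g = v * q'.2 := by
      calc g⁻¹ * (v * q.2) * g = q'.1 * (q.1⁻¹ * (v * q.2) * q.1) * q'.1⁻¹ := by rw [hg]; group
        _ = q'.1 * (q'.1⁻¹ * (v * q'.2) * q'.1) * q'.1⁻¹ := by rw [h3]
        _ = v * q'.2 := by group
    have hpow : ∀ w ∈ W, (v * w) ^ (Nat.card U ^ 2) = v := by
      intro w hw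
      have hc : Commute v w := (hWv w hw).symm
      rw [hc.mul_pow]
      have h5 : w ^ (Nat.card U ^ 2) = 1 := by
        rw [pow_two, pow_mul]
        have : w ^ Nat.card U = 1 := congrArg Subtype.val (pow_card_eq_one' (x := (⟨w, hw.1⟩ : U)))
        rw [this, one_pow]
      have h6 : (Nat.card U ^ 2) % 4 = 1 := by
        obtain ⟨k, hk⟩ := hodd
        rw [hk]
        have : (2 * k + 1) ^ 2 = 4 * (k * k + k) + 1 := by ring
        rw [this]; omega
      rw [h5, mul_one, pow_eq_pow_mod _ hv, h6, pow_one]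
    have h7 : g⁻¹ * v * g = v := by
      have h8 := congrArg (fun z => z ^ (Nat.card U ^ 2)) h4
      have h9 : (g⁻¹ * (v * q.2) * g) ^ (Nat.card U ^ 2) = g⁻¹ * (v * q.2) ^ (Nat.card U ^ 2) * g := by
        have := conj_pow (i := Nat.card U ^ 2) (a := g⁻¹) (b := v * q.2)
        rwa [inv_inv] at this
      rw [h9, hpow _ h2, hpow _ h2'] at h8
      exact h8
    refine ⟨U.mul_mem h1 (U.inv_mem h1'), Subgroup.mem_centralizer_singleton_iff.2 ?_⟩
    calc g * v = g * (g⁻¹ * v * g) := by rw [h7]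
      _ = v * g := by group
  have hfib : ∀ a ∈ A, ((A ×ˢ B).filter (fun q => Φ q = a)).card ≤ B.card := by
    intro a _
    rcases ((A ×ˢ B).filter (fun q => Φ q = a)).eq_empty_or_nonempty with h0 | ⟨q, hq⟩
    · rw [h0]; simp
    · obtain ⟨hq1, hq2⟩ := Finset.mem_filter.1 hq
      apply Finset.card_le_card_of_injOn (fun q' => q.1 * q'.1⁻¹)
      · intro q' hq'
        obtain ⟨h1, h2⟩ := Finset.mem_filter.1 hq'
        exact key q hq1 q' h1 (hq2.trans h2.symm)
      · intro q' hq' q'' hq'' he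
        obtain ⟨h1, h2⟩ := Finset.mem_filter.1 hq'
        obtain ⟨h1', h2'⟩ := Finset.mem_filter.1 hq''
        have e1 : q'.1 = q''.1 := inv_injective (mul_left_cancel he)
        have e2 : Φ q' = Φ q'' := h2.trans h2'.symm
        have e3 : q'.1⁻¹ * (v * q'.2) * q'.1 = q''.1⁻¹ * (v * q''.2) * q''.1 := mul_left_cancel e2
        rw [e1] at e3
        have e4 := mul_left_cancel (mul_left_cancel (mul_right_cancel e3))
        exact Prod.ext e1 e4
  have htot : ∑ a ∈ A, ((A ×ˢ B).filter (fun q => Φ q = a)).card = ∑ a ∈ A, B.card := by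
    rw [← Finset.card_eq_sum_card_fiberwise hΦ, Finset.card_product, Finset.sum_const, smul_eq_mul]
  have heq := (Finset.sum_eq_sum_iff_of_le hfib).1 htot
  have h1 : ∑ q ∈ A ×ˢ B, f (v * Φ q) = ∑ a ∈ A, (B.card : ℂ) * f (v * a) := by
    rw [← Finset.sum_fiberwise_of_maps_to hΦ]
    apply Finset.sum_congr rfl
    intro a ha
    rw [← heq a ha]
    rw [Finset.sum_congr rfl (fun q hq => by rw [(Finset.mem_filter.1 hq).2]), Finset.sum_const, nsmul_eq_mul]
  have h2 : ∑ q ∈ A ×ˢ B, f (v * Φ q) = (A.card : ℂ) * ∑ w ∈ B, f (v * w) := by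
    have e : ∀ q : G × G, f (v * Φ q) = f (v * q.2) := by
      intro q
      have : v * Φ q = q.1⁻¹ * (v * q.2) * q.1 := by
        show v * (v⁻¹ * (q.1⁻¹ * (v * q.2) * q.1)) = _
        group
      rw [this, hf]
    rw [Finset.sum_congr rfl (fun q _ => e q), Finset.sum_product]
    simp only [Finset.sum_const, nsmul_eq_mul]
  rw [sA, sB, ← hA, ← hB, ← h2, h1, Finset.mul_sum]

end Cfsg.Agent.Lib.H52_SEC
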