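import Cfsg.Agent.Lib.JordanCycle
import Cfsg.Agent.Lib.PrimeDegreeNorm2
import Cfsg.Agent.Lib.PrimeDegreeThree

/-!
Permutation groups of degree 11 (helper53), part 1: point stabilisers and the averaging argument.
-/

set_option autoImplicit false

namespace Cfsg.Agent.Lib.H53Deg11

open MulAction

variable {α : Type*} [Fintype α] [DecidableEq α]

omit [Fintype α] [DecidableEq α] in
theorem ais (f : Equiv.Perm α) (x : α) : f (f⁻¹ x) = x := Equiv.apply_symm_apply f x

omit [Fintype α] [DecidableEq α] in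
theorem ias (f : Equiv.Perm α) (x : α) : f⁻¹ (f x) = x := Equiv.symm_apply_apply f x

/-- Point stabiliser inside a permutation group, as a subgroup of the symmetric group. -/
def St (X : Subgroup (Equiv.Perm α)) (a : α) : Subgroup (Equiv.Perm α) :=
  X ⊓ MulAction.stabilizer (Equiv.Perm α) a

omit [Fintype α] [DecidableEq α] in
theorem mem_St {X : Subgroup (Equiv.Perm α)} {a : α} {g : Equiv.Perm α} :
    g ∈ St X a ↔ g ∈ X ∧ g a = a := Iff.rfl

omit [Fintype α] [DecidableEq α] in
theorem card_orbit_mul (X : Subgroup (Equiv.Perm α)) (a : α) :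
    Nat.card (MulAction.orbit X a) * Nat.card (St X a) = Nat.card X := by
  classical
  have h := MulAction.index_stabilizer X a
  have h2 : Nat.card (St X a) = Nat.card (MulAction.stabilizer X a) := by
    apply Nat.card_congr
    exact
      { toFun := fun g => ⟨⟨g.1, g.2.1⟩, g.2.2⟩
        invFun := fun g => ⟨g.1.1, g.1.2, g.2⟩
        left_inv := fun g => rfl
        right_inv := fun g => rfl }
  rw [h2, Nat.card_coe_set_eq, ← h]
  exact Subgroup.index_mul_card _

omit [Fintype α] [DecidableEq α] in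
theorem mem_orbit_iff' {X : Subgroup (Equiv.Perm α)} {x y : α} : y ∈ orbit X x ↔ ∃ g ∈ X, g x = y := by
  constructor
  · rintro ⟨⟨g, hg⟩, rfl⟩; exact ⟨g, hg, rfl⟩
  · rintro ⟨g, hg, rfl⟩; exact ⟨⟨g, hg⟩, rfl⟩

/-- Small prime order elements force the alternating group. -/
theorem alt_of_small (G : Subgroup (Equiv.Perm α)) (hG : IsPreprimitive G α) {p : ℕ} (hp : p.Prime)
    (hpn : p + 3 ≤ Fintype.card α) {g : Equiv.Perm α} (hg : g ∈ G) (ho : orderOf g = p)
    (hs : g.support.card < 2 * p) : alternatingGroup α ≤ G := by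
  have hcyc : g.IsCycle := by
    apply Equiv.Perm.isCycle_of_prime_order
    · rw [ho]; exact hp
    · rw [ho]; exact hs
  apply Cfsg.Agent.Lib.JordanCycle.jordan G hG hp hpn hcyc _ hg
  rw [← hcyc.orderOf, ho]

/-- Permutations whose supports meet in one point have a 3-cycle as commutator. -/
theorem threeCycle_of_inter {s t : Equiv.Perm α} {x : α} (hst : s.support ∩ t.support = {x}) :
    (s * t * s⁻¹ * t⁻¹).IsThreeCycle := by
  have hmem : ∀ z, z ∈ s.support → z ∈ t.support → z = x := by
    intro z h1 h2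
    have : z ∈ s.support ∩ t.support := Finset.mem_inter.mpr ⟨h1, h2⟩
    rw [hst] at this
    exact Finset.mem_singleton.mp this
  have hx : x ∈ s.support ∩ t.support := by rw [hst]; exact Finset.mem_singleton_self x
  have hxs : s x ≠ x := Equiv.Perm.mem_support.mp (Finset.mem_inter.mp hx).1
  have hxt : t x ≠ x := Equiv.Perm.mem_support.mp (Finset.mem_inter.mp hx).2
  have hs' : ∀ z, s z ≠ z → t z ≠ z → z = x := fun z h1 h2 =>
    hmem z (Equiv.Perm.mem_support.mpr h1) (Equiv.Perm.mem_support.mpr h2)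
  set c := s * t * s⁻¹ * t⁻¹ with hc
  have hcne : c ≠ 1 := by
    intro h
    have h1 : c (t x) = t x := by rw [h]; rfl
    have h2 : c (t x) = s (t (s⁻¹ x)) := by simp [hc, Equiv.Perm.mul_apply]
    have h3 : t (s⁻¹ x) = s⁻¹ x := by
      by_contra hcon
      have h4 := hs' (s⁻¹ x) (by
        rw [ais]
        intro h5
        apply hxs
        rw [Equiv.Perm.eq_inv_iff_eq] at h5
        exact h5) hcon
      rw [Equiv.Perm.inv_eq_iff_eq] at h4
      exact hxs h4.symm
    rw [h3, ais] at h2
    exact hxt (h1.symm.trans h2)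
  have hsupp : c.support ⊆ {x, s x, t x} := by
    intro z hz
    rw [Equiv.Perm.mem_support] at hz
    by_contra hcon
    simp only [Finset.mem_insert, Finset.mem_singleton, not_or] at hcon
    obtain ⟨hzx, hzs, hzt⟩ := hcon
    apply hz
    have hcz : c z = s (t (s⁻¹ (t⁻¹ z))) := by simp [hc, Equiv.Perm.mul_apply]
    rw [hcz]
    by_cases h1 : t z = z
    · have h2 : t⁻¹ z = z := by rw [Equiv.Perm.inv_eq_iff_eq]; exact h1.symm
      rw [h2]
      by_cases h3 : s z = z
      · have h4 : s⁻¹ z = z := by rw [Equiv.Perm.inv_eq_iff_eq]; exact h3.symm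
        rw [h4, h1, h3]
      · have h4 : t (s⁻¹ z) = s⁻¹ z := by
          by_contra hcon
          have h5 := hs' (s⁻¹ z) (by
            rw [ais]
            intro h6
            rw [Equiv.Perm.eq_inv_iff_eq] at h6
            exact h3 h6) hcon
          rw [Equiv.Perm.inv_eq_iff_eq] at h5
          exact hzs h5
        rw [h4, ais]
    · have h2 : s (t⁻¹ z) = t⁻¹ z := by
        by_contra hcon
        have h5 := hs' (t⁻¹ z) hcon (by
            rw [ais]
            intro h6
            rw [Equiv.Perm.eq_inv_iff_eq] at h6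
            exact h1 h6)
        rw [Equiv.Perm.inv_eq_iff_eq] at h5
        exact hzt h5
      have h3 : s⁻¹ (t⁻¹ z) = t⁻¹ z := by rw [Equiv.Perm.inv_eq_iff_eq]; exact h2.symm
      rw [h3, ais]
      by_contra hcon
      exact hzx (hs' z hcon h1)
  have hcard3 : c.support.card ≤ 3 := by
    refine (Finset.card_le_card hsupp).trans ?_
    exact Finset.card_le_three
  have hsign : Equiv.Perm.sign c = 1 := by
    rw [hc]
    simp only [Equiv.Perm.sign_mul, Equiv.Perm.sign_inv]
    rw [mul_assoc, mul_comm, mul_assoc]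
    have : ∀ a b : ℤˣ, a * (b * (a * b)) = 1 := by decide
    rcases Int.units_eq_one_or (Equiv.Perm.sign s) with h | h <;>
      rcases Int.units_eq_one_or (Equiv.Perm.sign t) with h' | h' <;> rw [h, h'] <;> rfl
  have h0 : c.support.card ≠ 0 := by
    intro h
    rw [Finset.card_eq_zero, Equiv.Perm.support_eq_empty_iff] at h
    exact hcne h
  have h1 : c.support.card ≠ 1 := Equiv.Perm.card_support_ne_one c
  have h2 : c.support.card ≠ 2 := by
    intro h
    rw [Equiv.Perm.card_support_eq_two] at h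
    have := h.sign_eq
    rw [hsign] at this
    exact absurd this (by decide)
  exact card_support_eq_three_iff.mp (by omega)

/-- Two-transitivity in elementary terms. -/
def Two (X : Subgroup (Equiv.Perm α)) : Prop :=
  ∀ x x' y y' : α, x ≠ x' → y ≠ y' → ∃ g ∈ X, g x = y ∧ g x' = y'

omit [Fintype α] [DecidableEq α] in
theorem two_of {X : Subgroup (Equiv.Perm α)} (h : IsMultiplyPretransitive X α 2) : Two X := by
  rw [is_two_pretransitive_iff] at h
  intro x x' y y' hx hy
  obtain ⟨g, h1, h2⟩ := h hx hy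
  exact ⟨g, g.2, h1, h2⟩

omit [Fintype α] in
theorem card_one {X : Subgroup (Equiv.Perm α)} [Fintype X] {x y : α} (h : ∃ g ∈ X, g x = y) :
    (Finset.univ.filter (fun g : X => (g : Equiv.Perm α) x = y)).card = Nat.card (St X x) := by
  classical
  obtain ⟨h, hh, hhx⟩ := h
  rw [← Fintype.card_subtype, ← Nat.card_eq_fintype_card]
  apply Nat.card_congr
  exact
    { toFun := fun g => ⟨h⁻¹ * g.1.1, X.mul_mem (X.inv_mem hh) g.1.2, by
        show h⁻¹ (g.1.1 x) = x
        rw [g.2, ← hhx]; exact ias h x⟩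
      invFun := fun g => ⟨⟨h * g.1, X.mul_mem hh g.2.1⟩, by
        show h (g.1 x) = y
        rw [(mem_St.mp g.2).2, hhx]⟩
      left_inv := fun g => by simp
      right_inv := fun g => by simp }

omit [Fintype α] in
theorem card_two {X : Subgroup (Equiv.Perm α)} [Fintype X] {x y x' y' : α} (h : ∃ g ∈ X, g x = y ∧ g x' = y') :
    (Finset.univ.filter (fun g : X => (g : Equiv.Perm α) x = y ∧ (g : Equiv.Perm α) x' = y')).card =
      Nat.card (St (St X x) x') := by
  classical
  obtain ⟨h, hh, hhx, hhx'⟩ := h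
  rw [← Fintype.card_subtype, ← Nat.card_eq_fintype_card]
  apply Nat.card_congr
  exact
    { toFun := fun g => ⟨h⁻¹ * g.1.1, ⟨X.mul_mem (X.inv_mem hh) g.1.2, by
        show h⁻¹ (g.1.1 x) = x
        rw [g.2.1, ← hhx]; exact ias h x⟩, by
        show h⁻¹ (g.1.1 x') = x'
        rw [g.2.2, ← hhx']; exact ias h x'⟩
      invFun := fun g => ⟨⟨h * g.1, X.mul_mem hh g.2.1.1⟩, by
        show h (g.1 x) = y
        rw [(mem_St.mp (mem_St.mp g.2).1).2, hhx], by
        show h (g.1 x') = y'
        rw [(mem_St.mp g.2).2, hhx']⟩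
      left_inv := fun g => by simp
      right_inv := fun g => by simp }

omit [Fintype α] [DecidableEq α] in
theorem orbit_eq_univ {X : Subgroup (Equiv.Perm α)} (h2 : Two X) (hn : ∀ x : α, ∃ y, y ≠ x) (a : α) :
    orbit X a = Set.univ := by
  ext y
  simp only [Set.mem_univ, iff_true]
  rw [mem_orbit_iff']
  obtain ⟨a', ha'⟩ := hn a
  obtain ⟨y', hy'⟩ := hn y
  obtain ⟨g, hg, h1, -⟩ := h2 a a' y y' ha'.symm hy'.symm
  exact ⟨g, hg, h1⟩

omit [Fintype α] [DecidableEq α] in
theorem orbit_St {X : Subgroup (Equiv.Perm α)} (h2 : Two X) {a b : α} (hab : a ≠ b) :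
    orbit (St X a) b = {a}ᶜ := by
  ext y
  rw [mem_orbit_iff', Set.mem_compl_iff, Set.mem_singleton_iff]
  constructor
  · rintro ⟨g, hg, rfl⟩ h
    have h1 := (mem_St.mp hg).2
    rw [← h1] at h
    have := g.injective h
    rw [← h1] at hab
    exact hab (by rw [this, h1]) 
  · intro hy
    obtain ⟨g, hg, h1, h3⟩ := h2 a b a y hab (Ne.symm hy)
    exact ⟨g, ⟨hg, h1⟩, h3⟩

omit [DecidableEq α] in
theorem card_St {X : Subgroup (Equiv.Perm α)} {n : ℕ} (hα : Fintype.card α = n + 2) (h2 : Two X) (a : α) :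
    Nat.card X = (n + 2) * Nat.card (St X a) := by
  have h := card_orbit_mul X a
  rw [orbit_eq_univ h2 (fun x => by
    have : Nontrivial α := by rw [← Fintype.one_lt_card_iff_nontrivial, hα]; omega
    exact exists_ne x) a, Nat.card_univ, Nat.card_eq_fintype_card, hα] at h
  exact h.symm

omit [DecidableEq α] in
theorem card_StSt {X : Subgroup (Equiv.Perm α)} {n : ℕ} (hα : Fintype.card α = n + 2) (h2 : Two X) {a b : α}
    (hab : a ≠ b) : Nat.card (St X a) = (n + 1) * Nat.card (St (St X a) b) := by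
  have h := card_orbit_mul (St X a) b
  rw [orbit_St h2 hab] at h
  have h1 : Nat.card (({a} : Set α)ᶜ : Set α) = n + 1 := by
    rw [Nat.card_coe_set_eq, Set.ncard_compl, Set.ncard_singleton, Nat.card_eq_fintype_card, hα]
    rfl
  rw [h1] at h
  exact h.symm

/-- The averaging argument: in a 2-transitive group of degree 11 some translate of a 4-set meets
it in exactly one point. -/
theorem exists_inter_one {X : Subgroup (Equiv.Perm α)} (hα : Fintype.card α = 11) (h2 : Two X)
    (Δ : Finset α) (hΔ : Δ.card = 4) : ∃ g ∈ X, (Δ.filter (fun x => g x ∈ Δ)).card = 1 := by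
  classical
  by_contra hcon
  push Not at hcon
  obtain ⟨a, b, hab⟩ : ∃ a b : α, a ≠ b := by
    have : Nontrivial α := by rw [← Fintype.one_lt_card_iff_nontrivial, hα]; omega
    exact exists_pair_ne α
  set k := Nat.card (St (St X a) b) with hk
  have hkpos : 0 < k := Nat.card_pos
  have hcardX : Nat.card X = 110 * k := by
    have h1 := card_St (n := 9) hα h2 a
    have h3 := card_StSt (n := 9) hα h2 hab
    rw [h1, h3]; ring
  have hone : ∀ x y : α, (Finset.univ.filter (fun g : X => (g : Equiv.Perm α) x = y)).card = 10 * k := by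
    intro x y
    have hx : ∃ g ∈ X, g x = y := by
      have := orbit_eq_univ h2 (fun x => by
        have : Nontrivial α := ⟨a, b, hab⟩
        exact exists_ne x) x
      rw [← mem_orbit_iff', this]; trivial
    rw [card_one hx]
    have h1 := card_St (n := 9) hα h2 x
    omega
  have htwo : ∀ x x' y y' : α, x ≠ x' → y ≠ y' → (Finset.univ.filter (fun g : X =>
      (g : Equiv.Perm α) x = y ∧ (g : Equiv.Perm α) x' = y')).card = k := by
    intro x x' y y' hx hy
    rw [card_two (h2 x x' y y' hx hy)]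
    have h1 := card_St (n := 9) hα h2 x
    have h3 := card_StSt (n := 9) hα h2 hx
    rw [h3] at h1
    omega
  have hS1 : ∑ g : X, (Δ.filter (fun x => (g : Equiv.Perm α) x ∈ Δ)).card = 160 * k := by
    have h1 : ∀ g : X, (Δ.filter (fun x => (g : Equiv.Perm α) x ∈ Δ)).card =
        ∑ x ∈ Δ, ∑ y ∈ Δ, if (g : Equiv.Perm α) x = y then 1 else 0 := by
      intro g
      rw [Finset.card_filter]
      apply Finset.sum_congr rfl
      intro x _
      rw [Finset.sum_ite_eq]
    rw [Finset.sum_congr rfl (fun g _ => h1 g), Finset.sum_comm]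
    have h3 : ∀ x ∈ Δ, ∑ g : X, ∑ y ∈ Δ, (if (g : Equiv.Perm α) x = y then 1 else 0) = 40 * k := by
      intro x _
      rw [Finset.sum_comm]
      have h4 : ∀ y ∈ Δ, ∑ g : X, (if (g : Equiv.Perm α) x = y then 1 else 0) = 10 * k := by
        intro y _
        rw [← Finset.card_filter, hone]
      rw [Finset.sum_congr rfl h4, Finset.sum_const, hΔ, smul_eq_mul]
      ring
    rw [Finset.sum_congr rfl h3, Finset.sum_const, hΔ, smul_eq_mul]
    ring
  have hS2 : ∑ g : X, ((Δ.filter (fun x => (g : Equiv.Perm α) x ∈ Δ)).offDiag).card = 144 * k := by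
    have h1 : ∀ g : X, ((Δ.filter (fun x => (g : Equiv.Perm α) x ∈ Δ)).offDiag).card =
        ∑ x ∈ Δ.offDiag, ∑ y ∈ Δ.offDiag,
          if (g : Equiv.Perm α) x.1 = y.1 ∧ (g : Equiv.Perm α) x.2 = y.2 then 1 else 0 := by
      intro g
      have h5 : (Δ.filter (fun x => (g : Equiv.Perm α) x ∈ Δ)).offDiag =
          Δ.offDiag.filter (fun x => ((g : Equiv.Perm α) x.1, (g : Equiv.Perm α) x.2) ∈ Δ.offDiag) := by
        ext ⟨u, v⟩
        simp only [Finset.mem_offDiag, Finset.mem_filter]
        constructor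
        · rintro ⟨⟨h6, h7⟩, ⟨h8, h9⟩, h10⟩
          exact ⟨⟨h6, h8, h10⟩, h7, h9, fun h => h10 ((g : Equiv.Perm α).injective h)⟩
        · rintro ⟨⟨h6, h8, h10⟩, h7, h9, -⟩
          exact ⟨⟨h6, h7⟩, ⟨h8, h9⟩, h10⟩
      rw [h5, Finset.card_filter]
      apply Finset.sum_congr rfl
      intro x _
      have h6 : ∀ y ∈ Δ.offDiag, (if (g : Equiv.Perm α) x.1 = y.1 ∧ (g : Equiv.Perm α) x.2 = y.2 then 1 else 0) =
          if ((g : Equiv.Perm α) x.1, (g : Equiv.Perm α) x.2) = y then 1 else 0 := by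
        intro y _
        simp only [Prod.ext_iff]
      rw [Finset.sum_congr rfl h6, Finset.sum_ite_eq]
    have hoff : Δ.offDiag.card = 12 := by rw [Finset.offDiag_card, hΔ]
    rw [Finset.sum_congr rfl (fun g _ => h1 g), Finset.sum_comm]
    have h3 : ∀ x ∈ Δ.offDiag, ∑ g : X, ∑ y ∈ Δ.offDiag,
        (if (g : Equiv.Perm α) x.1 = y.1 ∧ (g : Equiv.Perm α) x.2 = y.2 then 1 else 0) = 12 * k := by
      intro x hx
      rw [Finset.sum_comm]
      have h4 : ∀ y ∈ Δ.offDiag, ∑ g : X,
          (if (g : Equiv.Perm α) x.1 = y.1 ∧ (g : Equiv.Perm α) x.2 = y.2 then 1 else 0) = k := by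
        intro y hy
        rw [← Finset.card_filter]
        exact htwo _ _ _ _ (Finset.mem_offDiag.mp hx).2.2 (Finset.mem_offDiag.mp hy).2.2
      rw [Finset.sum_congr rfl h4, Finset.sum_const, hoff, smul_eq_mul]
    rw [Finset.sum_congr rfl h3, Finset.sum_const, hoff, smul_eq_mul]
    ring
  have hle : ∑ g : X, (Δ.filter (fun x => (g : Equiv.Perm α) x ∈ Δ)).card ≤
      ∑ g : X, ((Δ.filter (fun x => (g : Equiv.Perm α) x ∈ Δ)).offDiag).card := by
    apply Finset.sum_le_sum
    intro g _
    rw [Finset.offDiag_card]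
    have h1 := hcon g g.2
    set f := (Δ.filter (fun x => (g : Equiv.Perm α) x ∈ Δ)).card
    rcases Nat.eq_zero_or_pos f with h0 | h0
    · rw [h0]
    · have h3 : 2 ≤ f := by omega
      have h4 : 2 * f ≤ f * f := Nat.mul_le_mul_right f h3
      omega
  rw [hS1, hS2] at hle
  omega

/-- No double transpositions. -/
theorem no_double (X : Subgroup (Equiv.Perm α)) (hα : Fintype.card α = 11) (hX : IsPreprimitive X α)
    (h2 : Two X) (hA : ¬ alternatingGroup α ≤ X) {t : Equiv.Perm α} (ht : t ∈ X) :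
    t.support.card ≠ 4 := by
  intro h4
  obtain ⟨g, hg, hgc⟩ := exists_inter_one hα h2 t.support h4
  apply hA
  obtain ⟨x, hx⟩ := Finset.card_eq_one.mp hgc
  have h1 : t.support ∩ (g⁻¹ * t * g⁻¹⁻¹).support = {x} := by
    rw [← hx]
    ext z
    rw [Finset.mem_inter, Finset.mem_filter, Equiv.Perm.support_conj]
    apply and_congr_right
    intro _
    rw [Finset.mem_map]
    constructor
    · rintro ⟨w, hw, rfl⟩
      show g (g⁻¹ w) ∈ t.support
      rw [ais]; exact hw
    · intro h
      exact ⟨g z, h, ias g z⟩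
  have h3 := threeCycle_of_inter h1
  apply Equiv.Perm.alternatingGroup_le_of_isPreprimitive_of_isThreeCycle_mem hX h3
  have h5 : g⁻¹ * t * g⁻¹⁻¹ ∈ X := X.mul_mem (X.mul_mem (X.inv_mem hg) ht) (X.inv_mem (X.inv_mem hg))
  exact X.mul_mem (X.mul_mem (X.mul_mem ht h5) (X.inv_mem ht)) (X.inv_mem h5)

end Cfsg.Agent.Lib.H53Deg11
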