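import Mathlib
import Cfsg.Agent.Lib.UniqueInvolution

/-!
A frame for `S` with `S/C` a nonabelian 2-group with a unique involution (seat helper53).
-/

set_option autoImplicit false

namespace Cfsg.Agent.Lib.H53Quat

open QuaternionGroup

theorem frame {S : Type*} [Group S] [Finite S] (hS : IsPGroup 2 S) (C : Subgroup S) [C.Normal]
    (hna : ¬ IsMulCommutative (S ⧸ C)) (hu : ∃! x : S ⧸ C, orderOf x = 2) :
    ∃ m : ℕ, 1 ≤ m ∧ ∃ x y : S, (∀ s, ∃ k : ℕ, ∃ d ∈ C, s = x ^ k * d ∨ s = y * x ^ k * d) ∧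
      (y * x * y⁻¹ * x ∈ C) ∧ (y * y * (x ^ (2 ^ m))⁻¹ ∈ C) ∧ (∀ k : ℕ, x ^ k ∈ C ↔ 2 ^ (m + 1) ∣ k) ∧
      (∀ k : ℕ, y * x ^ k ∉ C) := by
  have : Fact (Nat.Prime 2) := ⟨Nat.prime_two⟩
  obtain ⟨t, ht, htu⟩ := hu
  have hP : IsPGroup 2 (S ⧸ C) := hS.to_quotient C
  rcases UniqueInvolution.isCyclic_or_quaternion hP (fun x y hx hy => by
    rw [htu x hx, htu y hy]; exact Subgroup.mem_zpowers t) with h | ⟨-, m, hm, ⟨e⟩⟩
  · exfalso
    apply hna
    obtain ⟨g, hg⟩ := h
    refine ⟨⟨fun a b => ?_⟩⟩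
    obtain ⟨i, rfl⟩ := hg a
    obtain ⟨j, rfl⟩ := hg b
    show g ^ i * g ^ j = g ^ j * g ^ i
    rw [← zpow_add, ← zpow_add, add_comm]
  · set φ : S →* QuaternionGroup (2 ^ m) := e.toMonoidHom.comp (QuotientGroup.mk' C) with hφ
    have hsurj : Function.Surjective φ := e.surjective.comp (QuotientGroup.mk'_surjective C)
    have hker : ∀ s, s ∈ C ↔ φ s = 1 := by
      intro s
      rw [← QuotientGroup.eq_one_iff (N := C) s]
      constructor
      · intro h
        show e (QuotientGroup.mk' C s) = 1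
        have : QuotientGroup.mk' C s = 1 := h
        rw [this, map_one]
      · intro h
        have h1 : e (QuotientGroup.mk' C s) = e 1 := by rw [map_one]; exact h
        exact e.injective h1
    obtain ⟨x, hx⟩ := hsurj (a 1)
    obtain ⟨y, hy⟩ := hsurj (xa 0)
    have hxk : ∀ k : ℕ, φ (x ^ k) = a (k : ZMod (2 * 2 ^ m)) := by
      intro k
      rw [map_pow, hx, a_one_pow]
    have hyk : ∀ k : ℕ, φ (y * x ^ k) = xa (k : ZMod (2 * 2 ^ m)) := by
      intro k
      rw [map_mul, hxk, hy, xa_mul_a, zero_add]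
    have hNZ : NeZero (2 * 2 ^ m) := ⟨by positivity⟩
    refine ⟨m, hm, x, y, ?_, ?_, ?_, ?_, ?_⟩
    · intro s
      rcases hs : φ s with i | i
      · refine ⟨i.val, (x ^ i.val)⁻¹ * s, ?_, Or.inl (by group)⟩
        rw [hker, map_mul, map_inv, hxk, hs, ZMod.natCast_zmod_val]
        exact inv_mul_cancel _
      · refine ⟨i.val, (y * x ^ i.val)⁻¹ * s, ?_, Or.inr (by group)⟩
        rw [hker, map_mul, map_inv, hyk, hs, ZMod.natCast_zmod_val]
        exact inv_mul_cancel _
    · have h1 : φ y * φ x = (φ x)⁻¹ * φ y := by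
        rw [eq_inv_mul_iff_mul_eq, hx, hy, xa_mul_a, a_mul_xa, zero_add, sub_self]
      rw [hker, map_mul, map_mul, map_mul, map_inv, h1]
      group
    · rw [hker, map_mul, map_mul, map_inv, hxk, hy, xa_mul_xa, add_sub_cancel_right]
      exact mul_inv_cancel _
    · intro k
      rw [hker, hxk, one_def, pow_succ', ← ZMod.natCast_eq_zero_iff]
      constructor
      · intro h
        exact QuaternionGroup.a.inj h
      · intro h
        rw [h]
    · intro k h
      rw [hker, hyk] at h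
      exact absurd h (by rw [one_def]; exact fun h => by cases h)

end Cfsg.Agent.Lib.H53Quat
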