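import Mathlib
import Cfsg.Agent.Lib.ClUtil
import Cfsg.Agent.Lib.ClSL2Syl
import Cfsg.Agent.Lib.H53SL2

/-!
Indecomposability of `SL₂(q)` modulo its centre, `q` odd (seat helper53).
-/

set_option autoImplicit false

namespace Cfsg.Agent.Lib.H53SL2b

open Matrix Matrix.SpecialLinearGroup
open scoped MatrixGroups

variable {F : Type*} [Field F]

/-- `±` upper unitriangular -/
def T (g : SL(2, F)) : Prop := (g : Matrix (Fin 2) (Fin 2) F) 1 0 = 0 ∧
  (g : Matrix (Fin 2) (Fin 2) F) 0 0 = (g : Matrix (Fin 2) (Fin 2) F) 1 1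

theorem mul_entries (g h : SL(2, F)) (i j : Fin 2) : ((g * h : SL(2, F)) : Matrix (Fin 2) (Fin 2) F) i j =
    (g : Matrix (Fin 2) (Fin 2) F) i 0 * (h : Matrix (Fin 2) (Fin 2) F) 0 j +
    (g : Matrix (Fin 2) (Fin 2) F) i 1 * (h : Matrix (Fin 2) (Fin 2) F) 1 j := by
  rw [Matrix.SpecialLinearGroup.coe_mul, Matrix.mul_apply, Fin.sum_univ_two]

theorem T_of_comm {g h : SL(2, F)} (hh : T h) (h01 : (h : Matrix (Fin 2) (Fin 2) F) 0 1 ≠ 0) (hc : g * h = h * g) :
    T g := by
  have e00 := congrArg (fun x : SL(2, F) => (x : Matrix (Fin 2) (Fin 2) F) 0 0) hc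
  have e01 := congrArg (fun x : SL(2, F) => (x : Matrix (Fin 2) (Fin 2) F) 0 1) hc
  simp only [mul_entries] at e00 e01
  obtain ⟨h1, h2⟩ := hh
  rw [h1] at e00
  have h3 : (h : Matrix (Fin 2) (Fin 2) F) 0 1 * (g : Matrix (Fin 2) (Fin 2) F) 1 0 = 0 := by linear_combination -e00
  have h4 : (g : Matrix (Fin 2) (Fin 2) F) 1 0 = 0 := (mul_eq_zero.1 h3).resolve_left h01
  have h5 : (h : Matrix (Fin 2) (Fin 2) F) 0 1 * ((g : Matrix (Fin 2) (Fin 2) F) 0 0 - (g : Matrix (Fin 2) (Fin 2) F) 1 1) = 0 := by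
    rw [h2] at e01
    linear_combination e01
  exact ⟨h4, sub_eq_zero.1 ((mul_eq_zero.1 h5).resolve_left h01)⟩

theorem comm_of_T {g h : SL(2, F)} (hg : T g) (hh : T h) : g * h = h * g := by
  obtain ⟨h1, h2⟩ := hh
  obtain ⟨g1, g2⟩ := hg
  ext i j
  rw [mul_entries, mul_entries]
  fin_cases i <;> fin_cases j <;> simp [h1, g1, h2, g2] <;> ring

/-- `upper 1` -/
def u1 (F : Type*) [Field F] : SL(2, F) := ⟨!![1, 1; 0, 1], by rw [Matrix.det_fin_two_of]; ring⟩
/-- `lower 1` -/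
def l1 (F : Type*) [Field F] : SL(2, F) := ⟨!![1, 0; 1, 1], by rw [Matrix.det_fin_two_of]; ring⟩

theorem coe_u1 : ((u1 F : SL(2, F)) : Matrix (Fin 2) (Fin 2) F) = !![1, 1; 0, 1] := rfl
theorem coe_l1 : ((l1 F : SL(2, F)) : Matrix (Fin 2) (Fin 2) F) = !![1, 0; 1, 1] := rfl

theorem T_u1 : T (u1 F) := by
  rw [T, coe_u1]; simp

theorem det_entries (g : SL(2, F)) : (g : Matrix (Fin 2) (Fin 2) F) 0 0 * (g : Matrix (Fin 2) (Fin 2) F) 1 1 -
    (g : Matrix (Fin 2) (Fin 2) F) 0 1 * (g : Matrix (Fin 2) (Fin 2) F) 1 0 = 1 := by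
  have := g.det_coe
  rwa [Matrix.det_fin_two] at this

theorem mul_self_of_T {g : SL(2, F)} (hg : T g) (h01 : (g : Matrix (Fin 2) (Fin 2) F) 0 1 = 0) : g * g = 1 := by
  obtain ⟨g1, g2⟩ := hg
  have hd := det_entries g
  rw [g1, g2] at hd
  ext i j
  rw [mul_entries]
  fin_cases i <;> fin_cases j <;> simp [g1, g2, h01]
  · linear_combination hd
  · linear_combination hd

/-- An element commuting with everything up to sign squares to 1. -/
theorem mul_self_of_central_mod (h2 : (2 : F) ≠ 0) (b : SL(2, F))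
    (hb : ∀ y : SL(2, F), b * y = y * b ∨ ((b * y : SL(2, F)) : Matrix (Fin 2) (Fin 2) F) = -((y * b : SL(2, F)) : Matrix (Fin 2) (Fin 2) F)) :
    b * b = 1 := by
  have hd := det_entries b
  have hT : T b := by
    rcases hb (u1 F) with h | h
    · exact T_of_comm T_u1 (by rw [coe_u1]; simp) h
    · exfalso
      have e00 := congrFun (congrFun h 0) 0
      have e10 := congrFun (congrFun h 1) 0
      rw [Matrix.neg_apply, mul_entries, mul_entries, coe_u1] at e00 e10
      simp at e00 e10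
      have h10 : (b : Matrix (Fin 2) (Fin 2) F) 1 0 = 0 := by
        have : (2 : F) * (b : Matrix (Fin 2) (Fin 2) F) 1 0 = 0 := by linear_combination e10
        exact (mul_eq_zero.1 this).resolve_left h2
      have h00 : (b : Matrix (Fin 2) (Fin 2) F) 0 0 = 0 := by
        have : (2 : F) * (b : Matrix (Fin 2) (Fin 2) F) 0 0 = 0 := by rw [h10] at e00; linear_combination e00
        exact (mul_eq_zero.1 this).resolve_left h2
      rw [h10, h00] at hd
      simp at hd
  apply mul_self_of_T hT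
  rcases hb (l1 F) with h | h
  · have e11 := congrArg (fun x : SL(2, F) => (x : Matrix (Fin 2) (Fin 2) F) 0 0) h
    simp only [mul_entries, coe_l1] at e11
    simp at e11
    exact e11
  · have e00 := congrFun (congrFun h 0) 0
    have e01 := congrFun (congrFun h 0) 1
    rw [Matrix.neg_apply, mul_entries, mul_entries, coe_l1] at e00 e01
    simp at e00 e01
    have : (2 : F) * (b : Matrix (Fin 2) (Fin 2) F) 0 1 = 0 := by linear_combination e01
    exact (mul_eq_zero.1 this).resolve_left h2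

/-- If `SL₂(F)` is a product of two commuting subgroups, one of them is central (squares are 1). -/
theorem indecomposable (A B : Subgroup SL(2, F)) (hc : ∀ a ∈ A, ∀ b ∈ B, a * b = b * a)
    (hAB : ∀ g : SL(2, F), ∃ a ∈ A, ∃ b ∈ B, a * b = g) :
    (∀ a ∈ A, a * a = 1) ∨ (∀ b ∈ B, b * b = 1) := by
  obtain ⟨α, hα, β, hβ, h⟩ := hAB (u1 F)
  have hαβ := hc α hα β hβ
  have hTα : T α := T_of_comm T_u1 (by rw [coe_u1]; simp) (by
    rw [← h, mul_assoc α β α, ← hαβ])
  have hTβ : T β := T_of_comm T_u1 (by rw [coe_u1]; simp) (by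
    rw [← h, ← mul_assoc, ← hαβ])
  -- generic: if C commutes with a T-element with nonzero corner and everything is C * D
  have key : ∀ (C D : Subgroup SL(2, F)), (∀ a ∈ C, ∀ b ∈ D, a * b = b * a) →
      (∀ g : SL(2, F), ∃ a ∈ C, ∃ b ∈ D, a * b = g) →
      ∀ γ ∈ C, T γ → (γ : Matrix (Fin 2) (Fin 2) F) 0 1 ≠ 0 → ∀ d ∈ D, d * d = 1 := by
    intro C D hCD hall γ hγ hTγ hγ1 d hd
    have hT : ∀ x ∈ D, T x := fun x hx => T_of_comm hTγ hγ1 (hCD γ hγ x hx).symm
    have hcen : ∀ y : SL(2, F), d * y = y * d := by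
      intro y
      obtain ⟨c, hc', d', hd', rfl⟩ := hall y
      rw [← mul_assoc, ← hCD c hc' d hd, mul_assoc, comm_of_T (hT d hd) (hT d' hd'), mul_assoc]
    apply mul_self_of_T (hT d hd)
    have e11 := congrArg (fun x : SL(2, F) => (x : Matrix (Fin 2) (Fin 2) F) 0 0) (hcen (l1 F))
    simp only [mul_entries, coe_l1] at e11
    simp at e11
    exact e11
  by_cases h01 : (α : Matrix (Fin 2) (Fin 2) F) 0 1 = 0
  · left
    have hβ1 : (β : Matrix (Fin 2) (Fin 2) F) 0 1 ≠ 0 := by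
      intro h0
      have e := congrArg (fun x : SL(2, F) => (x : Matrix (Fin 2) (Fin 2) F) 0 1) h
      simp only [mul_entries, coe_u1, h01, h0] at e
      simp at e
    refine key B A (fun b hb a ha => (hc a ha b hb).symm) ?_ β hβ hTβ hβ1
    intro g
    obtain ⟨a, ha, b, hb, rfl⟩ := hAB g
    exact ⟨b, hb, a, ha, (hc a ha b hb).symm⟩
  · right
    exact key A B hc hAB α hα hTα h01

section Embedded

variable [Fintype F] {L : Type*} [Group L] (e : L ≃* SL(2, F)) {j : L}

include e in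
theorem emb_central_mod (h2 : (2 : F) ≠ 0) (hj : orderOf j = 2) (b : L)
    (hb : ∀ y : L, b * y = y * b ∨ b * y = y * b * j) : b = 1 ∨ b = j := by
  apply H53SL2.eq_of_sq_eq_one e h2 hj
  apply e.injective
  rw [map_mul, map_one]
  apply mul_self_of_central_mod h2
  intro y
  rcases hb (e.symm y) with h | h
  · left
    have := congrArg e h
    simpa using this
  · right
    have := congrArg (fun x => ((e x : SL(2, F)) : Matrix (Fin 2) (Fin 2) F)) h
    simp only [map_mul, MulEquiv.apply_symm_apply] at this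
    rw [this, Matrix.SpecialLinearGroup.coe_mul _ (e j), H53SL2.coe_map_j e h2 hj]
    simp

include e in
theorem emb_indecomposable (h2 : (2 : F) ≠ 0) (hj : orderOf j = 2) (A B : Subgroup L)
    (hc : ∀ a ∈ A, ∀ b ∈ B, a * b = b * a)
    (hAB : ∀ g : L, ∃ a ∈ A, ∃ b ∈ B, a * b = g) :
    (∀ a ∈ A, a = 1 ∨ a = j) ∨ (∀ b ∈ B, b = 1 ∨ b = j) := by
  have h := indecomposable (A.map e.toMonoidHom) (B.map e.toMonoidHom) (by
    rintro _ ⟨a, ha, rfl⟩ _ ⟨b, hb, rfl⟩
    rw [← map_mul, hc a ha b hb, map_mul]) (by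
    intro g
    obtain ⟨a, ha, b, hb, h⟩ := hAB (e.symm g)
    refine ⟨e a, ⟨a, ha, rfl⟩, e b, ⟨b, hb, rfl⟩, ?_⟩
    rw [← map_mul, h, MulEquiv.apply_symm_apply])
  rcases h with h | h
  · left
    intro a ha
    apply H53SL2.eq_of_sq_eq_one e h2 hj
    apply e.injective
    rw [map_mul, map_one]
    exact h _ ⟨a, ha, rfl⟩
  · right
    intro a ha
    apply H53SL2.eq_of_sq_eq_one e h2 hj
    apply e.injective
    rw [map_mul, map_one]
    exact h _ ⟨a, ha, rfl⟩

end Embedded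

end Cfsg.Agent.Lib.H53SL2b
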