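import Mathlib
import Cfsg.Agent.Lib.H53PSL2
import Cfsg.Agent.Lib.H53SL2

/-!
A frame in `SL₂(q)`, `q` odd: `w² = v² = j`, `v` inverts the (abelian) centralizer of `w` (seat helper53).
-/

set_option autoImplicit false

namespace Cfsg.Agent.Lib.H53SL2c

open Matrix Cfsg.Agent.Lib.H53PSL2

section Matrices

variable {F : Type*} [Field F]

local notation "SL2" => Matrix.SpecialLinearGroup (Fin 2) F
local notation "M2" => Matrix (Fin 2) (Fin 2) F

theorem entries_of_comm (t : SL2) (ht : t * qi F = qi F * t) :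
    (t : M2) 1 1 = (t : M2) 0 0 ∧ (t : M2) 1 0 = -(t : M2) 0 1 := by
  have h := congrArg (fun x : SL2 => (x : M2)) ht
  simp only [Matrix.SpecialLinearGroup.coe_mul, coe_qi] at h
  have h1 := congrFun (congrFun h 0) 0
  have h2 := congrFun (congrFun h 0) 1
  simp [Matrix.mul_apply, Fin.sum_univ_two] at h1 h2
  exact ⟨h2.symm, h1.symm⟩

theorem comm_comm (s t : SL2) (hs : s * qi F = qi F * s) (ht : t * qi F = qi F * t) : s * t = t * s := by
  obtain ⟨s1, s2⟩ := entries_of_comm s hs
  obtain ⟨t1, t2⟩ := entries_of_comm t ht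
  apply Subtype.ext
  ext i j
  fin_cases i <;> fin_cases j <;>
    simp [Matrix.mul_apply, Fin.sum_univ_two, s1, s2, t1, t2] <;> ring

theorem inverts (t : SL2) (ht : t * qi F = qi F * t) {a b : F} (h : a ^ 2 + b ^ 2 = -1) :
    qj h * t * (qj h)⁻¹ = t⁻¹ := by
  obtain ⟨t1, t2⟩ := entries_of_comm t ht
  rw [mul_inv_eq_iff_eq_mul]
  have hinv : ((t⁻¹ : SL2) : M2) = !![(t : M2) 1 1, -(t : M2) 0 1; -(t : M2) 1 0, (t : M2) 0 0] :=
    SL2Basic.inv_coe t
  apply Subtype.ext
  rw [Matrix.SpecialLinearGroup.coe_mul, Matrix.SpecialLinearGroup.coe_mul, hinv, coe_qj]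
  ext i j
  fin_cases i <;> fin_cases j <;>
    simp [Matrix.mul_apply, Fin.sum_univ_two, t1, t2] <;> ring

end Matrices

/-- the frame -/
theorem exists_frame {L : Type*} [Group L] {F : Type*} [Field F] [Fintype F]
    (e : L ≃* Matrix.SpecialLinearGroup (Fin 2) F) (h2 : (2 : F) ≠ 0) {j : L} (hj : orderOf j = 2) :
    ∃ w v : L, w * w = j ∧ v * v = j ∧ (∀ t, t * w = w * t → v * t * v⁻¹ = t⁻¹) ∧
      (∀ s t, s * w = w * s → t * w = w * t → s * t = t * s) := by
  obtain ⟨a, b, h⟩ := H53SL2.exists_sum_two_sq (-1 : F)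
  have hej : e j = -1 := Subtype.ext (H53SL2.coe_map_j e h2 hj)
  refine ⟨e.symm (qi F), e.symm (qj h), ?_, ?_, ?_, ?_⟩
  · apply e.injective
    rw [map_mul, MulEquiv.apply_symm_apply, qi_sq, hej]
  · apply e.injective
    rw [map_mul, MulEquiv.apply_symm_apply, qj_sq, hej]
  · intro t ht
    apply e.injective
    have ht' : e t * qi F = qi F * e t := by
      have := congrArg e ht
      simpa using this
    rw [map_mul, map_mul, map_inv, map_inv, MulEquiv.apply_symm_apply]
    exact inverts (e t) ht' h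
  · intro s t hs ht
    apply e.injective
    have hs' : e s * qi F = qi F * e s := by
      have := congrArg e hs
      simpa using this
    have ht' : e t * qi F = qi F * e t := by
      have := congrArg e ht
      simpa using this
    rw [map_mul, map_mul]
    exact comm_comm _ _ hs' ht'

end Cfsg.Agent.Lib.H53SL2c
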