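import Mathlib
import Cfsg.Agent.Lib.OddInv

/-!
Two commuting `SL₂`'s interchanged by an element `n` with `n² = j`: the involution `j` is isolated
(seat helper53).
-/

set_option autoImplicit false

namespace Cfsg.Agent.Lib.H53TwoSL2

open Subgroup

variable {G : Type*} [Group G]

structure Fr (j n w v : G) (L1 L2 : Subgroup G) : Prop where
  hc : ∀ x ∈ L1, ∀ y ∈ L2, x * y = y * x
  hm : ∀ x, x ∈ L1 → x ∈ L2 → x = 1 ∨ x = j
  jL1 : j ∈ L1
  jL2 : j ∈ L2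
  jj : j * j = 1
  j1 : j ≠ 1
  nn : n * n = j
  n1 : ∀ x ∈ L1, n * x * n⁻¹ ∈ L2
  n2 : ∀ x ∈ L2, n * x * n⁻¹ ∈ L1
  wL : w ∈ L1
  vL : v ∈ L1
  ww : w * w = j
  vv : v * v = j
  inv : ∀ t ∈ L1, t * w = w * t → v * t * v⁻¹ = t⁻¹
  ab : ∀ s ∈ L1, ∀ t ∈ L1, s * w = w * s → t * w = w * t → s * t = t * s
  cj : ∀ y ∈ L1, y * y = j → ∃ l ∈ L1, l * y * l⁻¹ = w
  uni : ∀ y ∈ L1, y * y = 1 → y = 1 ∨ y = j
  jc : ∀ x ∈ L1, x * j = j * x
  C : ∀ c, c * j = j * c → ∃ z1 ∈ L1, ∃ z2 ∈ L2, c = z1 * z2 ∨ c = z1 * z2 * n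

namespace Fr

variable {j n w v : G} {L1 L2 : Subgroup G} (D : Fr j n w v L1 L2)

include D

theorem jinv : j⁻¹ = j := by rw [inv_eq_iff_mul_eq_one]; exact D.jj

theorem nj : n * j = j * n := by rw [← D.nn]; group

theorem jc2 : ∀ x ∈ L2, x * j = j * x := fun x hx => (D.hc j D.jL1 x hx).symm

theorem nxn (x : G) (hx : x * j = j * x) : n * (n * x * n⁻¹) * n⁻¹ = x := by
  calc n * (n * x * n⁻¹) * n⁻¹ = (n * n) * x * (n * n)⁻¹ := by group
    _ = j * x * j⁻¹ := by rw [D.nn]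
    _ = x := by rw [← hx]; group

theorem ninv1 (x : G) (hx : x ∈ L1) : n⁻¹ * x * n ∈ L2 := by
  have h1 := D.n1 x hx
  have h2 : n⁻¹ * x * n = (n * x * n⁻¹) := by
    have := D.nxn x (D.jc x hx)
    calc n⁻¹ * x * n = n⁻¹ * (n * (n * x * n⁻¹) * n⁻¹) * n := by rw [this]
      _ = _ := by group
  rw [h2]; exact h1

theorem ninv2 (x : G) (hx : x ∈ L2) : n⁻¹ * x * n ∈ L1 := by
  have h1 := D.n2 x hx
  have h2 : n⁻¹ * x * n = (n * x * n⁻¹) := by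
    have := D.nxn x (D.jc2 x hx)
    calc n⁻¹ * x * n = n⁻¹ * (n * (n * x * n⁻¹) * n⁻¹) * n := by rw [this]
      _ = _ := by group
  rw [h2]; exact h1

theorem njn : n * j * n⁻¹ = j := by rw [D.nj]; group

theorem njn' : n⁻¹ * j * n = j := by rw [mul_assoc, ← D.nj]; group

theorem w2L : n * w * n⁻¹ ∈ L2 := D.n1 w D.wL
theorem v2L : n * v * n⁻¹ ∈ L2 := D.n1 v D.vL

theorem w2w2 : (n * w * n⁻¹) * (n * w * n⁻¹) = j := by
  calc (n * w * n⁻¹) * (n * w * n⁻¹) = n * (w * w) * n⁻¹ := by group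
    _ = j := by rw [D.ww, D.njn]

theorem v2v2 : (n * v * n⁻¹) * (n * v * n⁻¹) = j := by
  calc (n * v * n⁻¹) * (n * v * n⁻¹) = n * (v * v) * n⁻¹ := by group
    _ = j := by rw [D.vv, D.njn]

theorem uni2 : ∀ y ∈ L2, y * y = 1 → y = 1 ∨ y = j := by
  intro y hy hyy
  have h1 := D.uni _ (D.ninv2 y hy) (by
    calc n⁻¹ * y * n * (n⁻¹ * y * n) = n⁻¹ * (y * y) * n := by group
      _ = 1 := by rw [hyy]; group)
  rcases h1 with h | h
  · left
    calc y = n * (n⁻¹ * y * n) * n⁻¹ := by group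
      _ = 1 := by rw [h]; group
  · right
    calc y = n * (n⁻¹ * y * n) * n⁻¹ := by group
      _ = j := by rw [h, D.njn]

theorem cj2 : ∀ y ∈ L2, y * y = j → ∃ l ∈ L2, l * y * l⁻¹ = n * w * n⁻¹ := by
  intro y hy hyy
  obtain ⟨l, hl, h⟩ := D.cj _ (D.ninv2 y hy) (by
    calc n⁻¹ * y * n * (n⁻¹ * y * n) = n⁻¹ * (y * y) * n := by group
      _ = j := by rw [hyy, D.njn'])
  refine ⟨n * l * n⁻¹, D.n1 l hl, ?_⟩
  calc n * l * n⁻¹ * y * (n * l * n⁻¹)⁻¹ = n * (l * (n⁻¹ * y * n) * l⁻¹) * n⁻¹ := by group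
    _ = _ := by rw [h]

theorem inv2 : ∀ t ∈ L2, t * (n * w * n⁻¹) = (n * w * n⁻¹) * t →
    (n * v * n⁻¹) * t * (n * v * n⁻¹)⁻¹ = t⁻¹ := by
  intro t ht h
  have h1 := D.inv _ (D.ninv2 t ht) (by
    calc n⁻¹ * t * n * w = n⁻¹ * (t * (n * w * n⁻¹)) * n := by group
      _ = n⁻¹ * ((n * w * n⁻¹) * t) * n := by rw [h]
      _ = _ := by group)
  calc (n * v * n⁻¹) * t * (n * v * n⁻¹)⁻¹ = n * (v * (n⁻¹ * t * n) * v⁻¹) * n⁻¹ := by group
    _ = t⁻¹ := by rw [h1]; group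

theorem ab2 : ∀ s ∈ L2, ∀ t ∈ L2, s * (n * w * n⁻¹) = (n * w * n⁻¹) * s →
    t * (n * w * n⁻¹) = (n * w * n⁻¹) * t → s * t = t * s := by
  intro s hs t ht h1 h2
  have h3 := D.ab _ (D.ninv2 s hs) _ (D.ninv2 t ht) (by
    calc n⁻¹ * s * n * w = n⁻¹ * (s * (n * w * n⁻¹)) * n := by group
      _ = n⁻¹ * ((n * w * n⁻¹) * s) * n := by rw [h1]
      _ = _ := by group) (by
    calc n⁻¹ * t * n * w = n⁻¹ * (t * (n * w * n⁻¹)) * n := by group
      _ = n⁻¹ * ((n * w * n⁻¹) * t) * n := by rw [h2]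
      _ = _ := by group)
  calc s * t = n * ((n⁻¹ * s * n) * (n⁻¹ * t * n)) * n⁻¹ := by group
    _ = n * ((n⁻¹ * t * n) * (n⁻¹ * s * n)) * n⁻¹ := by rw [h3]
    _ = _ := by group

theorem w_not2 : w ∉ L2 := by
  intro h
  rcases D.hm w D.wL h with h1 | h1
  · have := D.ww; rw [h1, mul_one] at this; exact D.j1 this.symm
  · have := D.ww; rw [h1, D.jj] at this; exact D.j1 this.symm

theorem w2_not1 : n * w * n⁻¹ ∉ L1 := by
  intro h
  have h1 := D.ninv1 _ h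
  have : n⁻¹ * (n * w * n⁻¹) * n = w := by group
  rw [this] at h1
  exact D.w_not2 h1

/-- `n` is not in `L1 L2` -/
theorem n_not (z1 z2 : G) (h1 : z1 ∈ L1) (h2 : z2 ∈ L2) : n ≠ z1 * z2 := by
  intro h
  apply D.w2_not1
  have : n * w * n⁻¹ = z1 * w * z1⁻¹ := by
    rw [h]
    calc z1 * z2 * w * (z1 * z2)⁻¹ = z1 * (z2 * w) * z2⁻¹ * z1⁻¹ := by group
      _ = z1 * (w * z2) * z2⁻¹ * z1⁻¹ := by rw [D.hc w D.wL z2 h2]
      _ = _ := by group
  rw [this]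
  exact mul_mem (mul_mem h1 D.wL) (inv_mem h1)

/-- `x = w w₂` -/
theorem xx : (w * (n * w * n⁻¹)) * (w * (n * w * n⁻¹)) = 1 := by
  have h := D.hc w D.wL _ D.w2L
  calc (w * (n * w * n⁻¹)) * (w * (n * w * n⁻¹)) = w * ((n * w * n⁻¹) * w) * (n * w * n⁻¹) := by group
    _ = w * (w * (n * w * n⁻¹)) * (n * w * n⁻¹) := by rw [h]
    _ = (w * w) * ((n * w * n⁻¹) * (n * w * n⁻¹)) := by group
    _ = 1 := by rw [D.ww, D.w2w2, D.jj]

theorem nxn' : n * (w * (n * w * n⁻¹)) * n⁻¹ = w * (n * w * n⁻¹) := by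
  have h := D.hc w D.wL _ D.w2L
  have h2 := D.nxn w (D.jc w D.wL)
  calc n * (w * (n * w * n⁻¹)) * n⁻¹ = (n * w * n⁻¹) * (n * (n * w * n⁻¹) * n⁻¹) := by group
    _ = (n * w * n⁻¹) * w := by rw [h2]
    _ = _ := by rw [h]

theorem x_ne_one : w * (n * w * n⁻¹) ≠ 1 := by
  intro h
  apply D.w_not2
  rw [eq_inv_of_mul_eq_one_left h]
  exact inv_mem D.w2L

theorem x_ne_j : w * (n * w * n⁻¹) ≠ j := by
  intro h
  apply D.w_not2
  rw [eq_mul_inv_of_mul_eq h]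
  exact mul_mem D.jL2 (inv_mem D.w2L)

/-- involutions of `C(j)` -/
theorem invol (y : G) (hyj : y * j = j * y) (hyy : y * y = 1) (hy1 : y ≠ 1) :
    y = j ∨ ∃ c, c * j = j * c ∧ c * y * c⁻¹ = w * (n * w * n⁻¹) := by
  obtain ⟨z1, hz1, z2, hz2, h | h⟩ := D.C y hyj
  · -- y = z1 z2
    have h12 := D.hc z1 hz1 z2 hz2
    have h3 : (z1 * z1) * (z2 * z2) = 1 := by
      calc (z1 * z1) * (z2 * z2) = z1 * (z1 * z2) * z2 := by group
        _ = z1 * (z2 * z1) * z2 := by rw [h12]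
        _ = y * y := by rw [h]; group
        _ = 1 := hyy
    have h4 : z1 * z1 ∈ L2 := by rw [eq_inv_of_mul_eq_one_left h3]; exact inv_mem (mul_mem hz2 hz2)
    rcases D.hm _ (mul_mem hz1 hz1) h4 with h5 | h5
    · left
      rw [h5, one_mul] at h3
      rcases D.uni z1 hz1 h5 with h6 | h6 <;> rcases D.uni2 z2 hz2 h3 with h7 | h7
      · exfalso; apply hy1; rw [h, h6, h7, mul_one]
      · rw [h, h6, h7, one_mul]
      · rw [h, h6, h7, mul_one]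
      · exfalso; apply hy1; rw [h, h6, h7, D.jj]
    · right
      rw [h5] at h3
      have h6 : z2 * z2 = j := by
        rw [← inv_eq_iff_mul_eq_one, D.jinv] at h3; exact h3.symm
      obtain ⟨l1, hl1, e1⟩ := D.cj z1 hz1 h5
      obtain ⟨l2, hl2, e2⟩ := D.cj2 z2 hz2 h6
      refine ⟨l1 * l2, ?_, ?_⟩
      · rw [mul_assoc, D.jc2 l2 hl2, ← mul_assoc, D.jc l1 hl1, mul_assoc]
      · rw [h, ← e2, ← e1]
        have a1 := D.hc l1 hl1 l2 hl2
        have a2 := D.hc z1 hz1 l2 hl2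
        have a3 := D.hc l1 hl1 z2 hz2
        have a4 := D.hc l1 hl1 _ (inv_mem hl2)
        calc l1 * l2 * (z1 * z2) * (l1 * l2)⁻¹ = l1 * (l2 * z1) * z2 * l2⁻¹ * l1⁻¹ := by group
          _ = l1 * (z1 * l2) * z2 * l2⁻¹ * l1⁻¹ := by rw [a2]
          _ = l1 * z1 * (l2 * z2 * l2⁻¹) * l1⁻¹ := by group
          _ = l1 * z1 * (l1⁻¹ * (l2 * z2 * l2⁻¹)) := by
            rw [D.hc _ (inv_mem hl1) _ (mul_mem (mul_mem hl2 hz2) (inv_mem hl2))]; group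
          _ = _ := by group
  · -- y = z1 z2 n : impossible
    exfalso
    set a := z1 * (n * z2 * n⁻¹) with ha
    set b := z2 * (n * z1 * n⁻¹) with hb
    have haL : a ∈ L1 := mul_mem hz1 (D.n2 z2 hz2)
    have hbL : b ∈ L2 := mul_mem hz2 (D.n1 z1 hz1)
    have hab : a * b * j = 1 := by
      have c1 := D.hc _ (D.n2 z2 hz2) _ hz2
      have c2 : z2 * (n * z1 * n⁻¹) * (n * z2 * n⁻¹) = (n * z2 * n⁻¹) * (z2 * (n * z1 * n⁻¹)) :=
        (D.hc _ (D.n2 z2 hz2) _ hbL).symm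
      calc a * b * j = z1 * ((n * z2 * n⁻¹) * (z2 * (n * z1 * n⁻¹))) * j := by rw [ha, hb]; group
        _ = z1 * (z2 * (n * z1 * n⁻¹) * (n * z2 * n⁻¹)) * (n * n) := by rw [c2, D.nn]
        _ = y * y := by rw [h]; group
        _ = 1 := hyy
    have haj : a * b = j := by
      rw [mul_eq_one_iff_eq_inv, D.jinv] at hab; exact hab
    have ha2 : a ∈ L2 := by
      rw [eq_mul_inv_of_mul_eq haj]; exact mul_mem D.jL2 (inv_mem hbL)
    have haa := D.hm a haL ha2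
    have haz : ∀ z ∈ L2, z * a = a * z := fun z hz => (D.hc a haL z hz).symm
    -- n a n⁻¹ = a
    have hna : n * a * n⁻¹ = a := by
      rcases haa with h1 | h1
      · rw [h1]; group
      · rw [h1, D.njn]
    have h5 : n * a * n⁻¹ = (n * z1 * n⁻¹) * z2 := by
      have := D.nxn z2 (D.jc2 z2 hz2)
      calc n * a * n⁻¹ = (n * z1 * n⁻¹) * (n * (n * z2 * n⁻¹) * n⁻¹) := by rw [ha]; group
        _ = _ := by rw [this]
    have h6 : b = a := by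
      have h7 : (n * z1 * n⁻¹) * z2 = a := by rw [← h5, hna]
      calc b = z2 * ((n * z1 * n⁻¹) * z2) * z2⁻¹ := by rw [hb]; group
        _ = z2 * a * z2⁻¹ := by rw [h7]
        _ = a := by rw [haz z2 hz2]; group
    rw [h6] at haj
    rcases haa with h1 | h1
    · rw [h1, mul_one] at haj; exact D.j1 haj.symm
    · rw [h1, D.jj] at haj; exact D.j1 haj.symm

end Fr

end Cfsg.Agent.Lib.H53TwoSL2
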