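import Mathlib
import Cfsg.Agent.Lib.H53TwoSL2

/-!
Two commuting `SL₂`'s interchanged by an element `n` with `n² = j`, part 2 (seat helper53).
-/

set_option autoImplicit false

namespace Cfsg.Agent.Lib.H53TwoSL2

open Subgroup

variable {G : Type*} [Group G]

namespace Fr

variable {j n w v : G} {L1 L2 : Subgroup G} (D : Fr j n w v L1 L2)

/-- the torus `R = T₁T₂` -/
def R (n w : G) (L1 L2 : Subgroup G) (r : G) : Prop :=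
  ∃ t1 ∈ L1, ∃ t2 ∈ L2, t1 * w = w * t1 ∧ t2 * (n * w * n⁻¹) = (n * w * n⁻¹) * t2 ∧ r = t1 * t2

theorem comm_mul {a b c : G} (h1 : a * c = c * a) (h2 : b * c = c * b) : (a * b) * c = c * (a * b) := by
  rw [mul_assoc, h2, ← mul_assoc, h1, mul_assoc]

theorem comm_inv {a c : G} (h1 : a * c = c * a) : a⁻¹ * c = c * a⁻¹ := by
  calc a⁻¹ * c = a⁻¹ * (c * a) * a⁻¹ := by group
    _ = a⁻¹ * (a * c) * a⁻¹ := by rw [h1]
    _ = _ := by group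

include D

theorem R_mul {r s : G} (hr : R n w L1 L2 r) (hs : R n w L1 L2 s) : R n w L1 L2 (r * s) := by
  obtain ⟨t1, ht1, t2, ht2, c1, c2, rfl⟩ := hr
  obtain ⟨s1, hs1, s2, hs2, d1, d2, rfl⟩ := hs
  refine ⟨t1 * s1, mul_mem ht1 hs1, t2 * s2, mul_mem ht2 hs2, comm_mul c1 d1, comm_mul c2 d2, ?_⟩
  calc t1 * t2 * (s1 * s2) = t1 * (t2 * s1) * s2 := by group
    _ = t1 * (s1 * t2) * s2 := by rw [D.hc s1 hs1 t2 ht2]
    _ = _ := by group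

theorem R_inv {r : G} (hr : R n w L1 L2 r) : R n w L1 L2 r⁻¹ := by
  obtain ⟨t1, ht1, t2, ht2, c1, c2, rfl⟩ := hr
  refine ⟨t1⁻¹, inv_mem ht1, t2⁻¹, inv_mem ht2, comm_inv c1, comm_inv c2, ?_⟩
  rw [mul_inv_rev, D.hc _ (inv_mem ht1) _ (inv_mem ht2)]

theorem R_comm {r s : G} (hr : R n w L1 L2 r) (hs : R n w L1 L2 s) : r * s = s * r := by
  obtain ⟨t1, ht1, t2, ht2, c1, c2, rfl⟩ := hr
  obtain ⟨s1, hs1, s2, hs2, d1, d2, rfl⟩ := hs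
  calc t1 * t2 * (s1 * s2) = t1 * (t2 * s1) * s2 := by group
    _ = t1 * (s1 * t2) * s2 := by rw [D.hc s1 hs1 t2 ht2]
    _ = (t1 * s1) * (t2 * s2) := by group
    _ = (s1 * t1) * (s2 * t2) := by rw [D.ab t1 ht1 s1 hs1 c1 d1, D.ab2 t2 ht2 s2 hs2 c2 d2]
    _ = s1 * (t1 * s2) * t2 := by group
    _ = s1 * (s2 * t1) * t2 := by rw [D.hc t1 ht1 s2 hs2]
    _ = _ := by group

/-- `V = v v₂` inverts `R` -/
theorem R_V {r : G} (hr : R n w L1 L2 r) :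
    (v * (n * v * n⁻¹)) * r * (v * (n * v * n⁻¹))⁻¹ = r⁻¹ := by
  obtain ⟨t1, ht1, t2, ht2, c1, c2, rfl⟩ := hr
  have e1 := D.inv t1 ht1 c1
  have e2 := D.inv2 t2 ht2 c2
  have h1 := D.hc t1 ht1 _ D.v2L
  have h2 := D.hc t1 ht1 t2 ht2
  calc (v * (n * v * n⁻¹)) * (t1 * t2) * (v * (n * v * n⁻¹))⁻¹
      = v * ((n * v * n⁻¹) * t1) * t2 * (n * v * n⁻¹)⁻¹ * v⁻¹ := by group
    _ = v * (t1 * (n * v * n⁻¹)) * t2 * (n * v * n⁻¹)⁻¹ * v⁻¹ := by rw [h1]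
    _ = v * t1 * ((n * v * n⁻¹) * t2 * (n * v * n⁻¹)⁻¹) * v⁻¹ := by group
    _ = v * t1 * (t2⁻¹ * v⁻¹) := by rw [e2]; group
    _ = v * t1 * (v⁻¹ * t2⁻¹) := by rw [D.hc _ (inv_mem D.vL) _ (inv_mem ht2)]
    _ = (v * t1 * v⁻¹) * t2⁻¹ := by group
    _ = t1⁻¹ * t2⁻¹ := by rw [e1]
    _ = (t1 * t2)⁻¹ := by rw [mul_inv_rev, D.hc _ (inv_mem ht1) _ (inv_mem ht2)]

theorem R_n {r : G} (hr : R n w L1 L2 r) : R n w L1 L2 (n * r * n⁻¹) := by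
  obtain ⟨t1, ht1, t2, ht2, c1, c2, rfl⟩ := hr
  refine ⟨n * t2 * n⁻¹, D.n2 t2 ht2, n * t1 * n⁻¹, D.n1 t1 ht1, ?_, ?_, ?_⟩
  · have h := D.nxn w (D.jc w D.wL)
    calc n * t2 * n⁻¹ * w = n * t2 * n⁻¹ * (n * (n * w * n⁻¹) * n⁻¹) := by rw [h]
      _ = n * (t2 * (n * w * n⁻¹)) * n⁻¹ := by group
      _ = n * ((n * w * n⁻¹) * t2) * n⁻¹ := by rw [c2]
      _ = (n * (n * w * n⁻¹) * n⁻¹) * (n * t2 * n⁻¹) := by group
      _ = _ := by rw [h]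
  · calc n * t1 * n⁻¹ * (n * w * n⁻¹) = n * (t1 * w) * n⁻¹ := by group
      _ = n * (w * t1) * n⁻¹ := by rw [c1]
      _ = _ := by group
  · calc n * (t1 * t2) * n⁻¹ = n * (t2 * t1) * n⁻¹ := by rw [D.hc t1 ht1 t2 ht2]
      _ = _ := by group

theorem VV : (v * (n * v * n⁻¹)) * (v * (n * v * n⁻¹)) = 1 := by
  have h := D.hc v D.vL _ D.v2L
  calc (v * (n * v * n⁻¹)) * (v * (n * v * n⁻¹)) = v * ((n * v * n⁻¹) * v) * (n * v * n⁻¹) := by group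
    _ = v * (v * (n * v * n⁻¹)) * (n * v * n⁻¹) := by rw [h]
    _ = (v * v) * ((n * v * n⁻¹) * (n * v * n⁻¹)) := by group
    _ = 1 := by rw [D.vv, D.v2v2, D.jj]

theorem nV : n * (v * (n * v * n⁻¹)) = (v * (n * v * n⁻¹)) * n := by
  have h := D.hc v D.vL _ D.v2L
  have h2 := D.nxn v (D.jc v D.vL)
  calc n * (v * (n * v * n⁻¹)) = (n * v * n⁻¹) * (n * (n * v * n⁻¹) * n⁻¹) * n := by group
    _ = (n * v * n⁻¹) * v * n := by rw [h2]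
    _ = _ := by rw [h]

omit D in
theorem R_one : R n w L1 L2 1 := ⟨1, one_mem _, 1, one_mem _, by simp, by simp, by simp⟩

theorem R_w : R n w L1 L2 w := ⟨w, D.wL, 1, one_mem _, rfl, by simp, by simp⟩

theorem R_j : R n w L1 L2 j := ⟨j, D.jL1, 1, one_mem _, (D.jc w D.wL).symm, by simp, by simp⟩

/-- the elements of `M = C(j) ∩ C(x)` -/
theorem mem_M (c : G) (hcj : c * j = j * c) (hcx : c * (w * (n * w * n⁻¹)) = (w * (n * w * n⁻¹)) * c) :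
    ∃ r, R n w L1 L2 r ∧ (c = r ∨ c = r * (v * (n * v * n⁻¹)) ∨ c = r * n ∨ c = r * (v * (n * v * n⁻¹)) * n) := by
  -- the case of an element of L1 L2
  have key : ∀ z1 ∈ L1, ∀ z2 ∈ L2, (z1 * z2) * (w * (n * w * n⁻¹)) = (w * (n * w * n⁻¹)) * (z1 * z2) →
      ∃ r, R n w L1 L2 r ∧ (z1 * z2 = r ∨ z1 * z2 = r * (v * (n * v * n⁻¹))) := by
    intro z1 hz1 z2 hz2 h
    set w2 := n * w * n⁻¹ with hw2
    have hw2L : w2 ∈ L2 := D.w2L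
    -- (z1 w z1⁻¹)(z2 w2 z2⁻¹) = w w2
    have h1 : (z1 * w * z1⁻¹) * (z2 * w2 * z2⁻¹) = w * w2 := by
      have a1 := D.hc z1 hz1 z2 hz2
      have a2 := D.hc w D.wL z2 hz2
      have a3 := D.hc _ (inv_mem hz1) z2 hz2
      have a4 := D.hc _ (inv_mem hz1) w2 hw2L
      have a5 := D.hc _ (inv_mem hz1) _ (inv_mem hz2)
      calc (z1 * w * z1⁻¹) * (z2 * w2 * z2⁻¹) = z1 * w * (z1⁻¹ * z2) * w2 * z2⁻¹ := by group
        _ = z1 * w * (z2 * z1⁻¹) * w2 * z2⁻¹ := by rw [a3]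
        _ = z1 * (w * z2) * (z1⁻¹ * w2) * z2⁻¹ := by group
        _ = z1 * (z2 * w) * (w2 * z1⁻¹) * z2⁻¹ := by rw [a2, a4]
        _ = (z1 * z2 * (w * w2)) * (z1⁻¹ * z2⁻¹) := by group
        _ = (w * w2 * (z1 * z2)) * (z2⁻¹ * z1⁻¹) := by rw [h, a5]
        _ = w * w2 := by group
    have h2 : w⁻¹ * (z1 * w * z1⁻¹) = w2 * (z2 * w2 * z2⁻¹)⁻¹ := by
      rw [inv_mul_eq_iff_eq_mul, ← mul_assoc, eq_mul_inv_iff_mul_eq]
      exact h1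
    have h3 : w⁻¹ * (z1 * w * z1⁻¹) ∈ L1 := mul_mem (inv_mem D.wL) (mul_mem (mul_mem hz1 D.wL) (inv_mem hz1))
    have h4 : w⁻¹ * (z1 * w * z1⁻¹) ∈ L2 := by
      rw [h2]; exact mul_mem hw2L (inv_mem (mul_mem (mul_mem hz2 hw2L) (inv_mem hz2)))
    rcases D.hm _ h3 h4 with h5 | h5
    · refine ⟨z1 * z2, ⟨z1, hz1, z2, hz2, ?_, ?_, rfl⟩, Or.inl rfl⟩
      · have : z1 * w * z1⁻¹ = w := by rw [inv_mul_eq_one] at h5; exact h5.symm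
        rw [mul_inv_eq_iff_eq_mul] at this; exact this
      · rw [h5] at h2
        have : z2 * w2 * z2⁻¹ = w2 := by
          have := h2.symm
          rw [mul_inv_eq_one] at this; exact this.symm
        rw [mul_inv_eq_iff_eq_mul] at this; exact this
    · -- both inverted
      have e1 : z1 * w * z1⁻¹ = w⁻¹ := by
        have h6 : z1 * w * z1⁻¹ = w * j := by rw [inv_mul_eq_iff_eq_mul] at h5; exact h5
        rw [h6, ← D.ww, eq_inv_iff_mul_eq_one]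
        calc w * (w * w) * w = (w * w) * (w * w) := by group
          _ = 1 := by rw [D.ww, D.jj]
      have e2 : z2 * w2 * z2⁻¹ = w2⁻¹ := by
        have h6 : z2 * w2 * z2⁻¹ = j * w2 := by
          rw [h5, eq_mul_inv_iff_mul_eq] at h2
          have : z2 * w2 * z2⁻¹ = j⁻¹ * w2 := by rw [eq_inv_mul_iff_mul_eq]; exact h2
          rw [this, D.jinv]
        rw [h6, eq_inv_iff_mul_eq_one, mul_assoc, D.w2w2, D.jj]
      have vw : v * w * v⁻¹ = w⁻¹ := D.inv w D.wL rfl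
      have vw2 : (n * v * n⁻¹) * w2 * (n * v * n⁻¹)⁻¹ = w2⁻¹ := D.inv2 w2 hw2L rfl
      refine ⟨(z1 * v⁻¹) * (z2 * (n * v * n⁻¹)⁻¹), ⟨z1 * v⁻¹, mul_mem hz1 (inv_mem D.vL), z2 * (n * v * n⁻¹)⁻¹,
        mul_mem hz2 (inv_mem D.v2L), ?_, ?_, rfl⟩, Or.inr ?_⟩
      · -- z1 v⁻¹ commutes with w
        have vw' : v⁻¹ * w * v = w⁻¹ := by
          have : w = (v * w * v⁻¹)⁻¹ := by rw [vw, inv_inv]
          calc v⁻¹ * w * v = v⁻¹ * (v * w * v⁻¹)⁻¹ * v := by rw [← this]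
            _ = w⁻¹ := by group
        calc z1 * v⁻¹ * w = z1 * (v⁻¹ * w * v) * v⁻¹ := by group
          _ = (z1 * w * z1⁻¹)⁻¹ * z1 * v⁻¹ := by rw [vw']; group
          _ = w * (z1 * v⁻¹) := by rw [e1]; group
      · have vw' : (n * v * n⁻¹)⁻¹ * w2 * (n * v * n⁻¹) = w2⁻¹ := by
          have : w2 = ((n * v * n⁻¹) * w2 * (n * v * n⁻¹)⁻¹)⁻¹ := by rw [vw2, inv_inv]
          calc (n * v * n⁻¹)⁻¹ * w2 * (n * v * n⁻¹) = (n * v * n⁻¹)⁻¹ * ((n * v * n⁻¹) * w2 * (n * v * n⁻¹)⁻¹)⁻¹ * (n * v * n⁻¹) := by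
                rw [← this]
            _ = w2⁻¹ := by group
        calc z2 * (n * v * n⁻¹)⁻¹ * w2 = z2 * ((n * v * n⁻¹)⁻¹ * w2 * (n * v * n⁻¹)) * (n * v * n⁻¹)⁻¹ := by group
          _ = (z2 * w2 * z2⁻¹)⁻¹ * z2 * (n * v * n⁻¹)⁻¹ := by rw [vw']; group
          _ = w2 * (z2 * (n * v * n⁻¹)⁻¹) := by rw [e2]; group
      · have a1 := D.hc v D.vL _ (mul_mem hz2 (inv_mem D.v2L))
        calc z1 * z2 = z1 * v⁻¹ * (v * (z2 * (n * v * n⁻¹)⁻¹)) * (n * v * n⁻¹) := by group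
          _ = z1 * v⁻¹ * ((z2 * (n * v * n⁻¹)⁻¹) * v) * (n * v * n⁻¹) := by rw [a1]
          _ = _ := by group
  obtain ⟨z1, hz1, z2, hz2, h | h⟩ := D.C c hcj
  · rw [h] at hcx
    obtain ⟨r, hr, h1 | h1⟩ := key z1 hz1 z2 hz2 hcx
    · exact ⟨r, hr, Or.inl (by rw [h, h1])⟩
    · exact ⟨r, hr, Or.inr (Or.inl (by rw [h, h1]))⟩
  · have hnx : n * (w * (n * w * n⁻¹)) = (w * (n * w * n⁻¹)) * n := by
      rw [← mul_inv_eq_iff_eq_mul]; exact D.nxn'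
    have h2 : (z1 * z2) * (w * (n * w * n⁻¹)) = (w * (n * w * n⁻¹)) * (z1 * z2) := by
      have e : z1 * z2 = c * n⁻¹ := by rw [h]; group
      rw [e, mul_assoc, comm_inv hnx, ← mul_assoc, hcx, mul_assoc]
    obtain ⟨r, hr, h1 | h1⟩ := key z1 hz1 z2 hz2 h2
    · exact ⟨r, hr, Or.inr (Or.inr (Or.inl (by rw [h, h1])))⟩
    · exact ⟨r, hr, Or.inr (Or.inr (Or.inr (by rw [h, h1])))⟩

/-- elements of `R` commute with `j` and `x` -/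
theorem R_jx {r : G} (hr : R n w L1 L2 r) : r * j = j * r ∧ r * (w * (n * w * n⁻¹)) = (w * (n * w * n⁻¹)) * r := by
  refine ⟨D.R_comm hr D.R_j, D.R_comm hr ?_⟩
  exact ⟨w, D.wL, n * w * n⁻¹, D.w2L, rfl, rfl, rfl⟩

theorem V_jx : (v * (n * v * n⁻¹)) * j = j * (v * (n * v * n⁻¹)) ∧
    (v * (n * v * n⁻¹)) * (w * (n * w * n⁻¹)) = (w * (n * w * n⁻¹)) * (v * (n * v * n⁻¹)) := by
  refine ⟨comm_mul (D.jc v D.vL) (D.jc2 _ D.v2L), ?_⟩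
  have h := D.R_V (r := w * (n * w * n⁻¹)) ⟨w, D.wL, n * w * n⁻¹, D.w2L, rfl, rfl, rfl⟩
  have h2 : (w * (n * w * n⁻¹))⁻¹ = w * (n * w * n⁻¹) := by
    rw [inv_eq_iff_mul_eq_one]; exact D.xx
  rw [h2, mul_inv_eq_iff_eq_mul] at h
  exact h

theorem n_jx : n * j = j * n ∧ n * (w * (n * w * n⁻¹)) = (w * (n * w * n⁻¹)) * n :=
  ⟨D.nj, by rw [← mul_inv_eq_iff_eq_mul]; exact D.nxn'⟩

end Fr

end Cfsg.Agent.Lib.H53TwoSL2
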