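import Mathlib
import Cfsg.Agent.Lib.H53TwoSL2b

/-!
Two commuting `SL₂`'s interchanged by an element `n` with `n² = j`, part 3 (seat helper53).
-/

set_option autoImplicit false

namespace Cfsg.Agent.Lib.H53TwoSL2

open Subgroup

variable {G : Type*} [Group G]

namespace Fr

variable {j n w v : G} {L1 L2 : Subgroup G} (D : Fr j n w v L1 L2)

/-- the complement elements -/
def E (n v ε : G) : Prop := ε = 1 ∨ ε = v * (n * v * n⁻¹) ∨ ε = n ∨ ε = (v * (n * v * n⁻¹)) * n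

include D

theorem E_comm {ε δ : G} (hε : E n v ε) (hδ : E n v δ) : ε * δ = δ * ε := by
  have h : Commute n (v * (n * v * n⁻¹)) := D.nV
  have key : Commute n δ ∧ Commute (v * (n * v * n⁻¹)) δ := by
    rcases hδ with h1 | h1 | h1 | h1 <;> rw [h1]
    · exact ⟨Commute.one_right _, Commute.one_right _⟩
    · exact ⟨h, Commute.refl _⟩
    · exact ⟨Commute.refl _, h.symm⟩
    · exact ⟨h.mul_right (Commute.refl _), (Commute.refl _).mul_right h.symm⟩
  have : Commute ε δ := by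
    rcases hε with h1 | h1 | h1 | h1 <;> rw [h1]
    · exact Commute.one_left _
    · exact key.2
    · exact key.1
    · exact key.2.mul_left key.1
  exact this.eq

theorem E_R {ε : G} (hε : E n v ε) {r : G} (hr : R n w L1 L2 r) : R n w L1 L2 (ε * r * ε⁻¹) := by
  have hV : R n w L1 L2 ((v * (n * v * n⁻¹)) * r * (v * (n * v * n⁻¹))⁻¹) := by
    rw [D.R_V hr]; exact D.R_inv hr
  rcases hε with rfl | rfl | rfl | rfl
  · simpa using hr
  · exact hV
  · exact D.R_n hr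
  · have h1 := D.R_n hr
    have h2 := D.R_V h1
    have : (v * (n * v * n⁻¹)) * n * r * ((v * (n * v * n⁻¹)) * n)⁻¹ =
        (v * (n * v * n⁻¹)) * (n * r * n⁻¹) * (v * (n * v * n⁻¹))⁻¹ := by group
    rw [this, h2]
    exact D.R_inv h1

theorem mem_M' (c : G) (hcj : c * j = j * c) (hcx : c * (w * (n * w * n⁻¹)) = (w * (n * w * n⁻¹)) * c) :
    ∃ r ε, R n w L1 L2 r ∧ E n v ε ∧ c = r * ε := by
  obtain ⟨r, hr, h | h | h | h⟩ := D.mem_M c hcj hcx
  · exact ⟨r, 1, hr, Or.inl rfl, by rw [h, mul_one]⟩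
  · exact ⟨r, _, hr, Or.inr (Or.inl rfl), h⟩
  · exact ⟨r, _, hr, Or.inr (Or.inr (Or.inl rfl)), h⟩
  · exact ⟨r, _, hr, Or.inr (Or.inr (Or.inr rfl)), by rw [h, mul_assoc]⟩

/-- commutators of `M` lie in `R` -/
theorem comm_R (a b : G) (haj : a * j = j * a) (hax : a * (w * (n * w * n⁻¹)) = (w * (n * w * n⁻¹)) * a)
    (hbj : b * j = j * b) (hbx : b * (w * (n * w * n⁻¹)) = (w * (n * w * n⁻¹)) * b) :
    R n w L1 L2 (a * b * a⁻¹ * b⁻¹) := by
  obtain ⟨r, ε, hr, hε, rfl⟩ := D.mem_M' a haj hax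
  obtain ⟨s, δ, hs, hδ, rfl⟩ := D.mem_M' b hbj hbx
  have h1 := D.E_comm hε hδ
  have h2 : r * ε * (s * δ) * (r * ε)⁻¹ * (s * δ)⁻¹ = r * (ε * s * ε⁻¹) * (δ * r * δ⁻¹)⁻¹ * s⁻¹ := by
    calc r * ε * (s * δ) * (r * ε)⁻¹ * (s * δ)⁻¹ = r * (ε * s * ε⁻¹) * (ε * δ) * ε⁻¹ * r⁻¹ * δ⁻¹ * s⁻¹ := by group
      _ = r * (ε * s * ε⁻¹) * (δ * ε) * ε⁻¹ * r⁻¹ * δ⁻¹ * s⁻¹ := by rw [h1]
      _ = _ := by group
  rw [h2]
  exact D.R_mul (D.R_mul (D.R_mul hr (D.E_R hε hs)) (D.R_inv (D.E_R hδ hr))) (D.R_inv hs)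

omit D in
theorem conj_M {g c : G} (hgx : g * (w * (n * w * n⁻¹)) * g⁻¹ = j) (hgj : g * j * g⁻¹ = w * (n * w * n⁻¹))
    (hcj : c * j = j * c) (hcx : c * (w * (n * w * n⁻¹)) = (w * (n * w * n⁻¹)) * c) :
    (g * c * g⁻¹) * j = j * (g * c * g⁻¹) ∧
      (g * c * g⁻¹) * (w * (n * w * n⁻¹)) = (w * (n * w * n⁻¹)) * (g * c * g⁻¹) := by
  constructor
  · calc (g * c * g⁻¹) * j = (g * c * g⁻¹) * (g * (w * (n * w * n⁻¹)) * g⁻¹) := by rw [hgx]
      _ = g * (c * (w * (n * w * n⁻¹))) * g⁻¹ := by group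
      _ = g * ((w * (n * w * n⁻¹)) * c) * g⁻¹ := by rw [hcx]
      _ = (g * (w * (n * w * n⁻¹)) * g⁻¹) * (g * c * g⁻¹) := by group
      _ = _ := by rw [hgx]
  · calc (g * c * g⁻¹) * (w * (n * w * n⁻¹)) = (g * c * g⁻¹) * (g * j * g⁻¹) := by rw [hgj]
      _ = g * (c * j) * g⁻¹ := by group
      _ = g * (j * c) * g⁻¹ := by rw [hcj]
      _ = (g * j * g⁻¹) * (g * c * g⁻¹) := by group
      _ = _ := by rw [hgj]

/-- part A -/
theorem no_swap_A [Finite G] (t : G) (htL : t ∈ L1) (htw : t * w = w * t) (ht4 : (t * t) * (t * t) ≠ 1)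
    (g : G) (hgx : g * (w * (n * w * n⁻¹)) * g⁻¹ = j) (hgj : g * j * g⁻¹ = w * (n * w * n⁻¹)) : False := by
  classical
  set T1 : Subgroup G := L1 ⊓ Subgroup.centralizer ({w} : Set G) with hT1
  have hmem : ∀ s, s ∈ T1 ↔ s ∈ L1 ∧ s * w = w * s := by
    intro s
    rw [hT1, Subgroup.mem_inf, Subgroup.mem_centralizer_singleton_iff]
  let _ : CommGroup T1 := { (inferInstance : Group T1) with
    mul_comm := fun a b => Subtype.ext (D.ab a ((hmem _).1 a.2).1 b ((hmem _).1 b.2).1 ((hmem _).1 a.2).2 ((hmem _).1 b.2).2) }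
  obtain ⟨u, hu⟩ := Monoid.exists_orderOf_eq_exponent (Monoid.ExponentExists.of_finite (G := T1))
  set m := Monoid.exponent T1 with hm
  have hjT : j ∈ T1 := (hmem j).2 ⟨D.jL1, (D.jc w D.wL).symm⟩
  have hjo : orderOf (⟨j, hjT⟩ : T1) = 2 := by
    apply orderOf_eq_prime
    · rw [pow_two]; exact Subtype.ext D.jj
    · intro h; exact D.j1 (congrArg Subtype.val h)
  have h2m : 2 ∣ m := by rw [← hjo]; exact Monoid.order_dvd_exponent _
  obtain ⟨k, hk⟩ := h2m
  have hmpos : 0 < m := Monoid.exponent_pos.2 (Monoid.ExponentExists.of_finite)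
  have hkpos : 0 < k := by omega
  have hT1k : ∀ s ∈ T1, s ^ k = 1 ∨ s ^ k = j := by
    intro s hs
    have h1 : (⟨s, hs⟩ : T1) ^ m = 1 := Monoid.pow_exponent_eq_one _
    have h2 : s ^ m = 1 := congrArg Subtype.val h1
    apply D.uni _ (pow_mem ((hmem s).1 hs).1 k)
    rw [← pow_add, ← two_mul, ← hk]; exact h2
  have huk : (u : G) ^ k = j := by
    rcases hT1k u u.2 with h | h
    · exfalso
      have h1 : u ^ k = 1 := Subtype.ext h
      have h2 := orderOf_dvd_of_pow_eq_one h1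
      rw [hu] at h2
      have := Nat.le_of_dvd hkpos h2
      omega
    · exact h
  obtain ⟨huL, huw⟩ := (hmem _).1 u.2
  have hT2k : ∀ s ∈ L2, s * (n * w * n⁻¹) = (n * w * n⁻¹) * s → s ^ k = 1 ∨ s ^ k = j := by
    intro s hs hsw
    have h1 : n⁻¹ * s * n ∈ T1 := by
      rw [hmem]
      refine ⟨D.ninv2 s hs, ?_⟩
      calc n⁻¹ * s * n * w = n⁻¹ * (s * (n * w * n⁻¹)) * n := by group
        _ = n⁻¹ * ((n * w * n⁻¹) * s) * n := by rw [hsw]
        _ = _ := by group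
    have h2 : s ^ k = n * (n⁻¹ * s * n) ^ k * n⁻¹ := by
      have h3 : (n⁻¹ * s * n) ^ k = n⁻¹ * s ^ k * n := by
        have := conj_pow (a := n⁻¹) (b := s) (i := k)
        rwa [inv_inv] at this
      rw [h3]; group
    rcases hT1k _ h1 with h | h
    · left; rw [h2, h]; group
    · right; rw [h2, h, D.njn]
  have hRk : ∀ r, R n w L1 L2 r → r ^ k = 1 ∨ r ^ k = j := by
    rintro r ⟨t1, ht1, t2, ht2, c1, c2, rfl⟩
    have hc : Commute t1 t2 := D.hc t1 ht1 t2 ht2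
    rw [hc.mul_pow]
    rcases hT1k t1 ((hmem _).2 ⟨ht1, c1⟩) with h1 | h1 <;> rcases hT2k t2 ht2 c2 with h2 | h2
    · left; rw [h1, h2, mul_one]
    · right; rw [h1, h2, one_mul]
    · right; rw [h1, h2, mul_one]
    · left; rw [h1, h2, D.jj]
  have hRu : R n w L1 L2 (u : G) := ⟨u, huL, 1, one_mem _, huw, by simp, by simp⟩
  have hRt : R n w L1 L2 t := ⟨t, htL, 1, one_mem _, htw, by simp, by simp⟩
  -- u' = g u g⁻¹
  obtain ⟨huj, hux⟩ := D.R_jx hRu
  obtain ⟨hu'j, hu'x⟩ := conj_M hgx hgj huj hux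
  -- swapping for g⁻¹
  have hgx' : g⁻¹ * (w * (n * w * n⁻¹)) * g⁻¹⁻¹ = j := by rw [← hgj]; group
  have hgj' : g⁻¹ * j * g⁻¹⁻¹ = w * (n * w * n⁻¹) := by
    calc g⁻¹ * j * g⁻¹⁻¹ = g⁻¹ * (g * (w * (n * w * n⁻¹)) * g⁻¹) * g⁻¹⁻¹ := by rw [hgx]
      _ = _ := by group
  -- u' commutes with commutators of M
  have hcom : ∀ a b : G, a * j = j * a → a * (w * (n * w * n⁻¹)) = (w * (n * w * n⁻¹)) * a →
      b * j = j * b → b * (w * (n * w * n⁻¹)) = (w * (n * w * n⁻¹)) * b →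
      (g * u * g⁻¹) * (a * b * a⁻¹ * b⁻¹) = (a * b * a⁻¹ * b⁻¹) * (g * u * g⁻¹) := by
    intro a b h1 h2 h3 h4
    obtain ⟨h1', h2'⟩ := conj_M hgx' hgj' h1 h2
    obtain ⟨h3', h4'⟩ := conj_M hgx' hgj' h3 h4
    have h5 := D.R_comm hRu (D.comm_R _ _ h1' h2' h3' h4')
    calc (g * u * g⁻¹) * (a * b * a⁻¹ * b⁻¹) = g * ((u : G) * ((g⁻¹ * a * g⁻¹⁻¹) * (g⁻¹ * b * g⁻¹⁻¹) *
          (g⁻¹ * a * g⁻¹⁻¹)⁻¹ * (g⁻¹ * b * g⁻¹⁻¹)⁻¹)) * g⁻¹ := by group
      _ = g * (((g⁻¹ * a * g⁻¹⁻¹) * (g⁻¹ * b * g⁻¹⁻¹) *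
          (g⁻¹ * a * g⁻¹⁻¹)⁻¹ * (g⁻¹ * b * g⁻¹⁻¹)⁻¹) * u) * g⁻¹ := by rw [h5]
      _ = _ := by group
  obtain ⟨htj, htx⟩ := D.R_jx hRt
  obtain ⟨hVj, hVx⟩ := D.V_jx
  have h6 := hcom _ _ hVj hVx htj htx
  have h7 : (v * (n * v * n⁻¹)) * t * (v * (n * v * n⁻¹))⁻¹ * t⁻¹ = (t * t)⁻¹ := by
    rw [D.R_V hRt]; group
  rw [h7] at h6
  set τ := t * t with hτ
  have hRτ : R n w L1 L2 τ := D.R_mul hRt hRt
  have hτL : τ ∈ L1 := mul_mem htL htL
  have h8 : (g * u * g⁻¹) * τ * (g * u * g⁻¹)⁻¹ = τ := by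
    have := congrArg (fun z => τ * z * τ) h6
    have h9 : τ * (g * u * g⁻¹) = (g * u * g⁻¹) * τ := by
      simpa [mul_assoc] using this
    rw [← h9]; group
  have hττ : ∀ y, y ∈ L2 → τ = y → False := by
    intro y hy hty
    rcases D.hm τ hτL (by rw [hty]; exact hy) with h | h
    · exact ht4 (by rw [h, mul_one])
    · exact ht4 (by rw [h, D.jj])
  have hu'R : R n w L1 L2 (g * u * g⁻¹) := by
    obtain ⟨r, ε, hr, hε, hre⟩ := D.mem_M' _ hu'j hu'x
    rw [hre] at h8 ⊢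
    have hstrip : ∀ y, R n w L1 L2 y → r * y * r⁻¹ = y := by
      intro y hy; rw [D.R_comm hr hy]; group
    have h9 : r * (ε * τ * ε⁻¹) * r⁻¹ = τ := by
      calc r * (ε * τ * ε⁻¹) * r⁻¹ = (r * ε) * τ * (r * ε)⁻¹ := by group
        _ = τ := h8
    rw [hstrip _ (D.E_R hε hRτ)] at h9
    rcases hε with rfl | rfl | rfl | rfl
    · rw [mul_one]; exact hr
    · exfalso
      rw [D.R_V hRτ] at h9
      apply ht4
      nth_rewrite 1 [← h9]
      group
    · exfalso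
      exact hττ _ (D.n1 τ hτL) h9.symm
    · exfalso
      have h10 : (v * (n * v * n⁻¹)) * n * τ * ((v * (n * v * n⁻¹)) * n)⁻¹ =
        (v * (n * v * n⁻¹)) * (n * τ * n⁻¹) * (v * (n * v * n⁻¹))⁻¹ := by group
      rw [h10, D.R_V (D.R_n hRτ)] at h9
      exact hττ _ (inv_mem (D.n1 τ hτL)) h9.symm
  have h11 : (g * u * g⁻¹) ^ k = w * (n * w * n⁻¹) := by
    rw [conj_pow, huk, hgj]
  rcases hRk _ hu'R with h | h
  · rw [h11] at h; exact D.x_ne_one h
  · rw [h11] at h; exact D.x_ne_j h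


/-- part B -/
theorem no_swap_B (hT : ∀ t ∈ L1, t * w = w * t → (t * t) * (t * t) = 1)
    (g : G) (hgx : g * (w * (n * w * n⁻¹)) * g⁻¹ = j) (hgj : g * j * g⁻¹ = w * (n * w * n⁻¹)) : False := by
  set w2 := n * w * n⁻¹ with hw2
  set x := w * w2 with hx
  set V := v * (n * v * n⁻¹) with hV
  have hjw : j * w = w * j := (D.jc w D.wL).symm
  have hwinv : w⁻¹ = w * j := by
    rw [inv_eq_iff_mul_eq_one]
    calc w * (w * j) = (w * w) * j := by group
      _ = 1 := by rw [D.ww, D.jj]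
  have hw2inv : w2⁻¹ = w2 * j := by
    rw [inv_eq_iff_mul_eq_one]
    calc w2 * (w2 * j) = (w2 * w2) * j := by group
      _ = 1 := by rw [D.w2w2, D.jj]
  have hxinv : x⁻¹ = x := by rw [inv_eq_iff_mul_eq_one]; exact D.xx
  have hjx : j * x = x * j := (D.R_jx (r := x) ⟨w, D.wL, w2, D.w2L, rfl, rfl, rfl⟩).1.symm
  -- elements of T1
  have hT1 : ∀ t ∈ L1, t * w = w * t → t = 1 ∨ t = j ∨ t = w ∨ t = w * j := by
    intro t ht htw
    rcases D.uni _ (mul_mem ht ht) (hT t ht htw) with h | h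
    · rcases D.uni t ht h with h1 | h1
      · exact Or.inl h1
      · exact Or.inr (Or.inl h1)
    · have h2 : (t * w) * (t * w) = 1 := by
        calc (t * w) * (t * w) = t * (w * t) * w := by group
          _ = t * (t * w) * w := by rw [htw]
          _ = (t * t) * (w * w) := by group
          _ = 1 := by rw [h, D.ww, D.jj]
      rcases D.uni _ (mul_mem ht D.wL) h2 with h3 | h3
      · right; right; right
        rw [eq_inv_of_mul_eq_one_left h3, hwinv]
      · right; right; left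
        rw [eq_mul_inv_of_mul_eq h3, hwinv, ← mul_assoc, hjw, mul_assoc, D.jj, mul_one]
  have hT2 : ∀ t ∈ L2, t * w2 = w2 * t → t = 1 ∨ t = j ∨ t = w2 ∨ t = w2 * j := by
    intro t ht htw
    have h1 : n⁻¹ * t * n * w = w * (n⁻¹ * t * n) := by
      calc n⁻¹ * t * n * w = n⁻¹ * (t * (n * w * n⁻¹)) * n := by group
        _ = n⁻¹ * ((n * w * n⁻¹) * t) * n := by rw [htw]
        _ = _ := by group
    have h2 : t = n * (n⁻¹ * t * n) * n⁻¹ := by group
    rcases hT1 _ (D.ninv2 t ht) h1 with h | h | h | h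
    · left; rw [h2, h]; group
    · right; left; rw [h2, h, D.njn]
    · right; right; left; rw [h2, h]
    · right; right; right
      rw [h2, h]
      calc n * (w * j) * n⁻¹ = (n * w * n⁻¹) * (n * j * n⁻¹) := by group
        _ = _ := by rw [D.njn]
  -- elements of R
  have hw2x : w2 = (x * j) * w := by
    calc w2 = w⁻¹ * x := by rw [hx]; group
      _ = w * (j * x) := by rw [hwinv, mul_assoc]
      _ = w * (x * j) := by rw [hjx]
      _ = (x * j) * w := by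
        have h1 : w * x = x * w := (D.R_comm D.R_w ⟨w, D.wL, w2, D.w2L, rfl, rfl, rfl⟩)
        have h2 : Commute w x := h1
        have h3 : Commute w j := hjw.symm
        exact (h2.mul_right h3).eq
  have hxw : w * x = x * w := (D.R_comm D.R_w ⟨w, D.wL, w2, D.w2L, rfl, rfl, rfl⟩)
  have hR : ∀ r, R n w L1 L2 r → ∃ z, (z = 1 ∨ z = j ∨ z = x ∨ z = x * j) ∧ (r = z ∨ r = z * w) := by
    rintro r ⟨t1, ht1, t2, ht2, c1, c2, rfl⟩
    have e1 : w2 * w2 = j := D.w2w2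
    have ejw2 : j * w2 = w2 * j := (D.jc2 w2 D.w2L).symm
    have exx : x * x = 1 := D.xx
    -- write everything in terms of z and w
    have hj' : w * j = j * w := hjw.symm
    have case2 : ∀ t2, (t2 = 1 ∨ t2 = j ∨ t2 = w2 ∨ t2 = w2 * j) →
        ∃ z, (z = 1 ∨ z = j ∨ z = x ∨ z = x * j) ∧ (t2 = z ∨ t2 = z * w) := by
      rintro t2 (rfl | rfl | rfl | rfl)
      · exact ⟨1, Or.inl rfl, Or.inl rfl⟩
      · exact ⟨_, Or.inr (Or.inl rfl), Or.inl rfl⟩
      · exact ⟨_, Or.inr (Or.inr (Or.inr rfl)), Or.inr hw2x⟩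
      · refine ⟨x, Or.inr (Or.inr (Or.inl rfl)), Or.inr ?_⟩
        rw [hw2x, mul_assoc, hj', ← mul_assoc, mul_assoc x j j, D.jj, mul_one]
    have case1 : ∀ t1, (t1 = 1 ∨ t1 = j ∨ t1 = w ∨ t1 = w * j) →
        ∃ z, (z = 1 ∨ z = j) ∧ (t1 = z ∨ t1 = w * z) := by
      rintro t1 (rfl | rfl | rfl | rfl)
      · exact ⟨1, Or.inl rfl, Or.inl rfl⟩
      · exact ⟨_, Or.inr rfl, Or.inl rfl⟩
      · exact ⟨1, Or.inl rfl, Or.inr (by rw [mul_one])⟩
      · exact ⟨j, Or.inr rfl, Or.inr rfl⟩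
    obtain ⟨a, ha, ha'⟩ := case1 t1 (hT1 t1 ht1 c1)
    obtain ⟨b, hb, hb'⟩ := case2 t2 (hT2 t2 ht2 c2)
    -- closure of Z
    have hZ : ∀ a b, (a = 1 ∨ a = j) → (b = 1 ∨ b = j ∨ b = x ∨ b = x * j) →
        (a * b = 1 ∨ a * b = j ∨ a * b = x ∨ a * b = x * j) := by
      rintro a b (rfl | rfl) (rfl | rfl | rfl | rfl)
      · simp
      · simp
      · simp
      · simp
      · simp
      · left; exact D.jj
      · right; right; right; exact hjx
      · right; right; left; rw [← mul_assoc, hjx, mul_assoc, D.jj, mul_one]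
    have hZw : ∀ b, (b = 1 ∨ b = j ∨ b = x ∨ b = x * j) → w * b = b * w := by
      rintro b (rfl | rfl | rfl | rfl)
      · simp
      · exact hj'
      · exact hxw
      · have h2 : Commute w x := hxw
        have h3 : Commute w j := hj'
        exact (h2.mul_right h3).eq
    have haw : w * a = a * w := hZw a (by tauto)
    rcases ha' with rfl | rfl <;> rcases hb' with rfl | rfl
    · exact ⟨_, hZ _ _ ha hb, Or.inl rfl⟩
    · exact ⟨_, hZ _ _ ha hb, Or.inr (by rw [mul_assoc])⟩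
    · refine ⟨_, hZ _ _ ha hb, Or.inr ?_⟩
      rw [haw, mul_assoc, hZw _ hb, mul_assoc]
    · refine ⟨j * (a * b), ?_, Or.inl ?_⟩
      · have := hZ a b ha hb
        exact hZ j (a * b) (Or.inr rfl) this
      · calc w * a * (b * w) = a * (w * b) * w := by rw [haw]; group
          _ = a * (b * w) * w := by rw [hZw b hb]
          _ = a * b * (w * w) := by group
          _ = a * b * j := by rw [D.ww]
          _ = j * (a * b) := by
            rcases hZ a b ha hb with h | h | h | h <;> rw [h]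
            · simp
            · rw [hjx]
            · rw [← mul_assoc, hjx]
  -- squares in M
  have hsq : ∀ d, d * j = j * d → d * x = x * d → d * d = x →
      ∃ z, (z = 1 ∨ z = j ∨ z = x ∨ z = x * j) ∧ d = z * (w * (V * n)) := by
    intro d hdj hdx hdd
    obtain ⟨r, ε, hr, hε, rfl⟩ := D.mem_M' d hdj hdx
    obtain ⟨z, hz, hrz⟩ := hR r hr
    -- z is a central involution
    have hzz : z * z = 1 := by
      rcases hz with rfl | rfl | rfl | rfl
      · simp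
      · exact D.jj
      · exact D.xx
      · calc x * j * (x * j) = x * (j * x) * j := by group
          _ = x * (x * j) * j := by rw [hjx]
          _ = (x * x) * (j * j) := by group
          _ = 1 := by rw [D.xx, D.jj, mul_one]
    have hRz : R n w L1 L2 z := by
      have hRx : R n w L1 L2 x := ⟨w, D.wL, w2, D.w2L, rfl, rfl, rfl⟩
      rcases hz with rfl | rfl | rfl | rfl
      · exact R_one
      · exact D.R_j
      · exact hRx
      · exact D.R_mul hRx D.R_j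
    have hnj := D.n_jx
    have hVj := D.V_jx
    have hcz : ∀ c, c * j = j * c → c * x = x * c → c * z = z * c := by
      intro c h1 h2
      rcases hz with rfl | rfl | rfl | rfl
      · simp
      · exact h1
      · exact h2
      · have h3 : Commute c x := h2
        have h4 : Commute c j := h1
        exact (h3.mul_right h4).eq
    have hE : ∀ ε, E n v ε → ε * j = j * ε ∧ ε * x = x * ε := by
      rintro ε (rfl | rfl | rfl | rfl)
      · simp
      · exact hVj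
      · exact hnj
      · exact ⟨comm_mul hVj.1 hnj.1, comm_mul hVj.2 hnj.2⟩
    have hεz : ε * z = z * ε := hcz ε (hE ε hε).1 (hE ε hε).2
    have hVV : V * V = 1 := D.VV
    have hnV : n * V = V * n := D.nV
    have hVn2 : (V * n) * (V * n) = j := by
      calc (V * n) * (V * n) = V * (n * V) * n := by group
        _ = V * (V * n) * n := by rw [hnV]
        _ = (V * V) * (n * n) := by group
        _ = j := by rw [hVV, D.nn, one_mul]
    have hVw : V * w * V⁻¹ = w⁻¹ := D.R_V D.R_w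
    have hVw2 : V * w2 * V⁻¹ = w2⁻¹ := D.R_V ⟨1, one_mem _, w2, D.w2L, by simp, rfl, by simp⟩
    -- the square of δ ε
    have hmain : ∀ δ, δ * z = z * δ → r = z * δ → (δ * ε) * (δ * ε) = x := by
      intro δ hδ hrδ
      have h1 : (δ * ε) * z = z * (δ * ε) := comm_mul hδ hεz
      calc (δ * ε) * (δ * ε) = (z * z) * ((δ * ε) * (δ * ε)) := by rw [hzz, one_mul]
        _ = z * (z * (δ * ε)) * (δ * ε) := by group
        _ = z * ((δ * ε) * z) * (δ * ε) := by rw [h1]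
        _ = (z * δ * ε) * (z * δ * ε) := by group
        _ = x := by rw [← hrδ]; exact hdd
    have hx1 : x ≠ 1 := D.x_ne_one
    have hxj : x ≠ j := D.x_ne_j
    rcases hrz with hrz | hrz
    · exfalso
      have h1 := hmain 1 (by simp) (by rw [hrz, mul_one])
      rw [one_mul] at h1
      rcases hε with rfl | rfl | rfl | rfl
      · rw [mul_one] at h1; exact hx1 h1.symm
      · rw [← hV, hVV] at h1; exact hx1 h1.symm
      · rw [D.nn] at h1; exact hxj h1.symm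
      · rw [← hV, hVn2] at h1; exact hxj h1.symm
    · have hwz : w * z = z * w := hcz w (D.jc w D.wL) hxw
      have h1 := hmain w hwz hrz
      rcases hε with rfl | rfl | rfl | rfl
      · exfalso; rw [mul_one, D.ww] at h1; exact hxj h1.symm
      · exfalso
        rw [← hV] at h1
        have : w * V * (w * V) = 1 := by
          calc w * V * (w * V) = w * (V * w * V⁻¹) * (V * V) := by group
            _ = 1 := by rw [hVw, hVV]; group
        rw [this] at h1; exact hx1 h1.symm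
      · exfalso
        have : w * ε * (w * ε) = w * w2 * (ε * ε) := by rw [hw2]; group
        rw [this, D.nn, ← hx] at h1
        exact D.j1 (by simpa using h1)
      · refine ⟨z, hz, ?_⟩
        rw [hrz, ← hV, mul_assoc]
  -- conclusion
  have hwM := D.R_jx D.R_w
  have hnM := D.n_jx
  obtain ⟨a1, a2⟩ := conj_M hgx hgj hwM.1 hwM.2
  obtain ⟨b1, b2⟩ := conj_M hgx hgj hnM.1 hnM.2
  obtain ⟨z, hz, ez⟩ := hsq (g * w * g⁻¹) a1 a2 (by
    calc g * w * g⁻¹ * (g * w * g⁻¹) = g * (w * w) * g⁻¹ := by group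
      _ = x := by rw [D.ww, hgj])
  obtain ⟨z', hz', ez'⟩ := hsq (g * n * g⁻¹) b1 b2 (by
    calc g * n * g⁻¹ * (g * n * g⁻¹) = g * (n * n) * g⁻¹ := by group
      _ = x := by rw [D.nn, hgj])
  have h1 : g * (w * n⁻¹) * g⁻¹ = z * z'⁻¹ := by
    calc g * (w * n⁻¹) * g⁻¹ = (g * w * g⁻¹) * (g * n * g⁻¹)⁻¹ := by group
      _ = z * z'⁻¹ := by rw [ez, ez']; group
  have h2 : w * n⁻¹ = (g⁻¹ * z * g) * (g⁻¹ * z' * g)⁻¹ := by
    calc w * n⁻¹ = g⁻¹ * (g * (w * n⁻¹) * g⁻¹) * g := by group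
      _ = _ := by rw [h1]; group
  have hgj' : g⁻¹ * j * g = x := by rw [← hgx]; group
  have hgx' : g⁻¹ * x * g = j := by rw [← hgj]; group
  have hL : ∀ z, (z = 1 ∨ z = j ∨ z = x ∨ z = x * j) → R n w L1 L2 (g⁻¹ * z * g) := by
    have hRx : R n w L1 L2 x := ⟨w, D.wL, w2, D.w2L, rfl, rfl, rfl⟩
    rintro z (rfl | rfl | rfl | rfl)
    · have : g⁻¹ * 1 * g = 1 := by group
      rw [this]; exact R_one
    · rw [hgj']; exact hRx
    · rw [hgx']; exact D.R_j
    · have : g⁻¹ * (x * j) * g = (g⁻¹ * x * g) * (g⁻¹ * j * g) := by group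
      rw [this, hgx', hgj']
      exact D.R_mul D.R_j hRx
  have h3 : R n w L1 L2 (w * n⁻¹) := by
    rw [h2]; exact D.R_mul (hL z hz) (D.R_inv (hL z' hz'))
  obtain ⟨t1, ht1, t2, ht2, -, -, h4⟩ := D.R_mul (D.R_inv h3) D.R_w
  have h5 : n = t1 * t2 := by rw [← h4]; group
  exact D.n_not t1 t2 ht1 ht2 h5

/-- `x` is not conjugate to `j` -/
theorem not_conj [Finite G] : ¬ ∃ h : G, h * (w * (n * w * n⁻¹)) * h⁻¹ = j := by
  rintro ⟨h, hh⟩
  have hRx : R n w L1 L2 (w * (n * w * n⁻¹)) := ⟨w, D.wL, n * w * n⁻¹, D.w2L, rfl, rfl, rfl⟩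
  have hjx : j * (w * (n * w * n⁻¹)) = (w * (n * w * n⁻¹)) * j := (D.R_jx hRx).1.symm
  have hhj : (h * j * h⁻¹) * j = j * (h * j * h⁻¹) := by
    have h0 : (h * j * h⁻¹) * (h * (w * (n * w * n⁻¹)) * h⁻¹) = (h * (w * (n * w * n⁻¹)) * h⁻¹) * (h * j * h⁻¹) := by
      calc h * j * h⁻¹ * (h * (w * (n * w * n⁻¹)) * h⁻¹) = h * (j * (w * (n * w * n⁻¹))) * h⁻¹ := by group
        _ = h * ((w * (n * w * n⁻¹)) * j) * h⁻¹ := by rw [hjx]
        _ = _ := by group
    rwa [hh] at h0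
  obtain h1 | ⟨c, hc1, hc2⟩ := D.invol (h * j * h⁻¹) hhj (by
    calc h * j * h⁻¹ * (h * j * h⁻¹) = h * (j * j) * h⁻¹ := by group
      _ = 1 := by rw [D.jj]; group) (by
    intro h1
    apply D.j1
    calc j = h⁻¹ * (h * j * h⁻¹) * h := by group
      _ = 1 := by rw [h1]; group)
  · apply D.x_ne_j
    calc w * (n * w * n⁻¹) = h⁻¹ * (h * (w * (n * w * n⁻¹)) * h⁻¹) * h := by group
      _ = h⁻¹ * (h * j * h⁻¹) * h := by rw [hh, h1]
      _ = j := by group
  · -- g = c h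
    have hgx : (c * h) * (w * (n * w * n⁻¹)) * (c * h)⁻¹ = j := by
      calc (c * h) * (w * (n * w * n⁻¹)) * (c * h)⁻¹ = c * (h * (w * (n * w * n⁻¹)) * h⁻¹) * c⁻¹ := by group
        _ = j := by rw [hh, hc1]; group
    have hgj : (c * h) * j * (c * h)⁻¹ = w * (n * w * n⁻¹) := by
      rw [← hc2]; group
    by_cases hT : ∀ t ∈ L1, t * w = w * t → (t * t) * (t * t) = 1
    · exact D.no_swap_B hT _ hgx hgj
    · push Not at hT
      obtain ⟨t, ht, htw, ht4⟩ := hT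
      exact D.no_swap_A t ht htw ht4 _ hgx hgj

/-- `j` is isolated -/
theorem isolated [Finite G] (g : G) (hg : (g * j * g⁻¹) * j = j * (g * j * g⁻¹)) : g * j * g⁻¹ = j := by
  obtain h1 | ⟨c, hc1, hc2⟩ := D.invol (g * j * g⁻¹) hg (by
    calc g * j * g⁻¹ * (g * j * g⁻¹) = g * (j * j) * g⁻¹ := by group
      _ = 1 := by rw [D.jj]; group) (by
    intro h1
    apply D.j1
    calc j = g⁻¹ * (g * j * g⁻¹) * g := by group
      _ = 1 := by rw [h1]; group)
  · exact h1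
  · exfalso
    apply D.not_conj
    refine ⟨(c * g)⁻¹, ?_⟩
    rw [← hc2]; group

end Fr

end Cfsg.Agent.Lib.H53TwoSL2
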