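import Mathlib
import Cfsg.Agent.Lib.H53Sub8b
import Cfsg.Agent.Lib.H55Oct
import Cfsg.Agent.Lib.IsolatedZ
import Cfsg.Agent.Lib.Cores

/-!
# Groups of order 48 with a central involution, elements of order three having small centralizers (helper54)
-/

set_option autoImplicit false
set_option linter.all false

namespace Cfsg.Agent.Lib.H54W2

open Cfsg Subgroup Cfsg.Agent.Lib

universe u

section

variable {Y : Type u} [Group Y] [Finite Y]

theorem solvable_48 (hY : Nat.card Y = 48) : Group.IsSolvable Y := by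
  by_contra hcon
  obtain ⟨d, hd, h1⟩ := H53Sub8b.exists_dvd 48 Y hY hcon
  have := Nat.le_of_dvd (by norm_num) hd
  rcases h1 with h1 | h1
  · rw [h1] at hd; norm_num at hd
  · omega

/-- the hypotheses -/
structure Hyp (z : Y) : Prop where
  card : Nat.card Y = 48
  ordz : orderOf z = 2
  cen : ∀ y : Y, y * z = z * y
  h4 : ∀ x : Y, orderOf x = 3 → ¬ 4 ∣ Nat.card (centralizer ({x} : Set Y))

variable {z : Y} (H : Hyp z)
include H

theorem Hyp.z2 : z * z = 1 := by
  rw [← pow_two, ← H.ordz, pow_orderOf_eq_one]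

theorem Hyp.z1 : z ≠ 1 := by
  rintro h
  have := H.ordz
  rw [h, orderOf_one] at this
  norm_num at this

/-- a 2-subgroup centralizing an element of order three is `{1, z}` -/
theorem Hyp.two_cent {x : Y} (hx : orderOf x = 3) {v : Y} (hv : x * v = v * x) (hv2 : IsPGroup 2 (zpowers v)) :
    v = 1 ∨ v = z := by
  have hc : z ∈ centralizer ({v} : Set Y) := mem_centralizer_singleton_iff.2 (H.cen v).symm
  have hzz : IsPGroup 2 (zpowers z) := IsPGroup.of_card (n := 1) (by rw [Nat.card_zpowers, H.ordz, pow_one])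
  -- the join
  have hle : zpowers z ≤ normalizer ((zpowers v : Subgroup Y) : Set Y) := by
    rw [zpowers_le, mem_normalizer_iff]
    intro y
    have : z * y * z⁻¹ = y := by rw [← H.cen y]; group
    rw [this]
  have h1 : IsPGroup 2 (zpowers z ⊔ zpowers v : Subgroup Y) := IsPGroup.to_sup_of_normal_right' hzz hv2 hle
  have h2 : (zpowers z ⊔ zpowers v : Subgroup Y) ≤ centralizer ({x} : Set Y) := by
    rw [sup_le_iff, zpowers_le, zpowers_le]
    exact ⟨mem_centralizer_singleton_iff.2 (H.cen x).symm, mem_centralizer_singleton_iff.2 hv.symm⟩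
  have h3 := H.h4 x hx
  obtain ⟨k, hk⟩ := IsPGroup.iff_card.1 h1
  have h4 : k ≤ 1 := by
    by_contra hcon
    apply h3
    have : (2 : ℕ) ^ 2 ∣ 2 ^ k := pow_dvd_pow 2 (by omega)
    rw [← hk] at this
    exact this.trans (card_dvd_of_le h2)
  have h5 : Nat.card (zpowers z ⊔ zpowers v : Subgroup Y) ≤ 2 := by
    rw [hk]
    interval_cases k <;> norm_num
  have h6 : zpowers z = (zpowers z ⊔ zpowers v : Subgroup Y) := by
    apply eq_of_le_of_card_ge le_sup_left
    rw [Nat.card_zpowers, H.ordz]; exact h5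
  have h7 : v ∈ zpowers z := by
    rw [h6]; exact mem_sup_right (mem_zpowers v)
  obtain ⟨i, rfl⟩ := mem_zpowers_iff.1 h7
  have hz2 : z ^ (2 : ℤ) = 1 := by
    have := H.z2
    rw [← this]; exact zpow_two z
  rcases Int.even_or_odd i with ⟨j, hj⟩ | ⟨j, hj⟩
  · left
    rw [hj, ← two_mul, _root_.zpow_mul, hz2, _root_.one_zpow]
  · right
    rw [hj, zpow_add, _root_.zpow_mul, hz2, _root_.one_zpow, one_mul, zpow_one]

theorem Hyp.exists_three : ∃ x : Y, orderOf x = 3 := by
  have : Fact (Nat.Prime 3) := ⟨Nat.prime_three⟩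
  exact exists_prime_orderOf_dvd_card' 3 (by rw [H.card]; norm_num)

/-- conjugation by an element of order three never multiplies by `z` -/
theorem Hyp.not_mul {x : Y} (hx : orderOf x = 3) {v : Y} (hv2 : IsPGroup 2 (zpowers v)) (hv : v ≠ 1) (hvz : v ≠ z) {e : ℕ} :
    x * v * x⁻¹ ≠ v * z ^ e := by
  intro h
  have hzc : ∀ (n : ℕ) (y : Y), y * z ^ n = z ^ n * y := by
    intro n y
    exact ((show Commute y z from H.cen y).pow_right n).eq
  have h1 : x ^ 3 * v * (x ^ 3)⁻¹ = v * z ^ (3 * e) := by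
    have e1 : x ^ 3 = x * (x * x) := by rw [pow_succ', pow_two]
    have e2 : x * (v * z ^ e) * x⁻¹ = x * v * x⁻¹ * z ^ e := by
      calc x * (v * z ^ e) * x⁻¹ = x * v * (z ^ e * x⁻¹) := by group
        _ = x * v * (x⁻¹ * z ^ e) := by rw [hzc]
        _ = _ := by group
    calc x ^ 3 * v * (x ^ 3)⁻¹ = x * (x * (x * v * x⁻¹) * x⁻¹) * x⁻¹ := by rw [e1]; group
      _ = x * (v * z ^ e * z ^ e) * x⁻¹ := by rw [h, e2, h]
      _ = x * (v * z ^ (e + e)) * x⁻¹ := by rw [mul_assoc v, ← pow_add]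
      _ = x * v * x⁻¹ * z ^ (e + e) := by
          calc x * (v * z ^ (e + e)) * x⁻¹ = x * v * (z ^ (e + e) * x⁻¹) := by group
            _ = x * v * (x⁻¹ * z ^ (e + e)) := by rw [hzc]
            _ = _ := by group
      _ = v * z ^ (3 * e) := by rw [h, mul_assoc, ← pow_add]; congr 2; ring
  have hx3 : x ^ 3 = 1 := by rw [← hx, pow_orderOf_eq_one]
  rw [hx3, one_mul, inv_one, mul_one] at h1
  have h2 : z ^ (3 * e) = 1 := by
    have := h1.symm
    exact mul_eq_left.1 this
  have h3 : z ^ e = 1 := by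
    have h4 : z ^ (2 * e) = 1 := by rw [pow_mul, pow_two, H.z2, one_pow]
    rw [show 3 * e = 2 * e + e by ring, pow_add, h4, one_mul] at h2
    exact h2
  rw [h3, mul_one] at h
  rcases H.two_cent hx (v := v) (by
    calc x * v = x * v * x⁻¹ * x := by group
      _ = v * x := by rw [h]) hv2 with h4 | h4
  · exact hv h4
  · exact hvz h4

/-- no nontrivial normal subgroup of odd order -/
theorem Hyp.core : pPrimeCore 2 Y = ⊥ := by
  have hp3 : Fact (Nat.Prime 3) := ⟨Nat.prime_three⟩
  by_contra hne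
  have hcop := Cores.coprime_card_pPrimeCore 2 Y
  have hd : Nat.card (pPrimeCore 2 Y) ∣ 48 := by rw [← H.card]; exact card_subgroup_dvd_card _
  have h3 : Nat.card (pPrimeCore 2 Y) ∣ 3 := by
    have e : (48 : ℕ) = 2 ^ 4 * 3 := by norm_num
    rw [e] at hd
    exact (Nat.Coprime.pow_right 4 hcop).dvd_of_dvd_mul_left hd
  have hc1 : Nat.card (pPrimeCore 2 Y) ≠ 1 := fun h => hne (Subgroup.card_eq_one.1 h)
  have hc3 : Nat.card (pPrimeCore 2 Y) = 3 := ((Nat.dvd_prime Nat.prime_three).1 h3).resolve_left hc1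
  obtain ⟨⟨x, hxm⟩, hx⟩ := exists_prime_orderOf_dvd_card' (G := pPrimeCore 2 Y) 3 (by rw [hc3])
  rw [Subgroup.orderOf_mk] at hx
  have hzx : zpowers x = pPrimeCore 2 Y := by
    apply eq_of_le_of_card_ge (by rw [zpowers_le]; exact hxm)
    rw [hc3, Nat.card_zpowers, hx]
  -- the centralizer has index at most 2
  have hn : (zpowers x).Normal := by rw [hzx]; exact pPrimeCore_normal 2 Y
  have h1 : ∀ y : Y, y * x * y⁻¹ = x ∨ y * x * y⁻¹ = x⁻¹ := by
    intro y
    obtain ⟨i, hi⟩ := mem_zpowers_iff.1 (hn.conj_mem x (mem_zpowers x) y)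
    have hi' : x ^ (i % 3) = y * x * y⁻¹ := by
      rw [← hi]
      have := zpow_mod_orderOf x i
      rw [hx] at this
      exact_mod_cast this
    have h2 : i % 3 = 0 ∨ i % 3 = 1 ∨ i % 3 = 2 := by omega
    rcases h2 with h2 | h2 | h2 <;> rw [h2] at hi'
    · exfalso
      rw [zpow_zero] at hi'
      have : x = 1 := by
        have := congrArg (fun g => y⁻¹ * g * y) hi'
        simpa [mul_assoc] using this.symm
      rw [this, orderOf_one] at hx
      norm_num at hx
    · left; rw [← hi', zpow_one]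
    · right
      rw [← hi']
      have hx3 : x ^ (3 : ℕ) = 1 := by rw [← hx, pow_orderOf_eq_one]
      apply eq_inv_of_mul_eq_one_left
      have : x ^ (2 : ℤ) * x = x ^ (3 : ℕ) := by
        rw [pow_succ]; congr 1; exact zpow_ofNat x 2
      rw [this, hx3]
  -- hence a product argument: count
  have h2 : (centralizer ({x} : Set Y)).index ≤ 2 := by
    by_cases hex : ∃ s : Y, s * x * s⁻¹ = x⁻¹
    · obtain ⟨s, hs⟩ := hex
      by_contra hcon
      push Not at hcon
      -- every element is in C or in s C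
      have h3 : ∀ y : Y, y ∈ centralizer ({x} : Set Y) ∨ s⁻¹ * y ∈ centralizer ({x} : Set Y) := by
        intro y
        rcases h1 y with h4 | h4
        · left
          rw [mem_centralizer_singleton_iff]
          calc y * x = y * x * y⁻¹ * y := by group
            _ = x * y := by rw [h4]
        · right
          rw [mem_centralizer_singleton_iff]
          have h5 : s⁻¹ * x⁻¹ * s = x := by rw [← hs]; group
          calc s⁻¹ * y * x = s⁻¹ * (y * x * y⁻¹) * y := by group
            _ = (s⁻¹ * x⁻¹ * s) * (s⁻¹ * y) := by rw [h4]; group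
            _ = x * (s⁻¹ * y) := by rw [h5]
      have h6 : Nat.card (Y ⧸ centralizer ({x} : Set Y)) ≤ Nat.card Bool := by
        apply Nat.card_le_card_of_surjective (f := fun b : Bool => if b then ((1 : Y) : Y ⧸ centralizer ({x} : Set Y)) else (s : Y ⧸ centralizer ({x} : Set Y)))
        intro q
        induction q using QuotientGroup.induction_on with
        | H y =>
          rcases h3 y with h4 | h4
          · exact ⟨true, by
              show ((1 : Y) : Y ⧸ centralizer ({x} : Set Y)) = y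
              rw [QuotientGroup.eq]; simpa using h4⟩
          · exact ⟨false, by
              show ((s : Y) : Y ⧸ centralizer ({x} : Set Y)) = y
              rw [QuotientGroup.eq]; exact h4⟩
      have h7 : Nat.card Bool = 2 := by simp
      rw [h7] at h6
      exact absurd h6 (by rw [← Subgroup.index]; omega)
    · push Not at hex
      have : centralizer ({x} : Set Y) = ⊤ := by
        rw [eq_top_iff]
        intro y _
        rw [mem_centralizer_singleton_iff]
        have h4 := (h1 y).resolve_right (hex y)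
        calc y * x = y * x * y⁻¹ * y := by group
          _ = x * y := by rw [h4]
      rw [this, index_top]; norm_num
  have h3 := (centralizer ({x} : Set Y)).index_mul_card
  rw [H.card] at h3
  have h4 := H.h4 x hx
  have h5 : 0 < (centralizer ({x} : Set Y)).index := Nat.pos_of_ne_zero index_ne_zero_of_finite
  apply h4
  have h6 : (centralizer ({x} : Set Y)).index = 1 ∨ (centralizer ({x} : Set Y)).index = 2 := by omega
  rcases h6 with h6 | h6 <;> rw [h6] at h3
  · exact ⟨12, by omega⟩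
  · exact ⟨6, by omega⟩

theorem Hyp.z_mem : z ∈ pCore 2 Y := by
  have h1 : (zpowers z).Normal := by
    refine ⟨fun y hy g => ?_⟩
    obtain ⟨i, rfl⟩ := mem_zpowers_iff.1 hy
    have : Commute g (z ^ i) := (show Commute g z from H.cen g).zpow_right i
    rw [this.eq, mul_inv_cancel_right]; exact hy
  exact Cores.le_pCore h1 (IsPGroup.of_card (n := 1) (by rw [Nat.card_zpowers, H.ordz, pow_one])) (mem_zpowers z)

omit H in
theorem two_of_mem {v : Y} (hv : v ∈ pCore 2 Y) : IsPGroup 2 (zpowers v) :=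
  (Cores.isPGroup_pCore 2 Y).to_le (by rw [zpowers_le]; exact hv)

/-- the order of `O_2` -/
theorem Hyp.card_core : Nat.card (pCore 2 Y) = 8 := by
  classical
  have hp3 : Fact (Nat.Prime 3) := ⟨Nat.prime_three⟩
  obtain ⟨x, hx⟩ := H.exists_three
  -- the action of `x`
  have hx3 : x ^ 3 = 1 := by rw [← hx, pow_orderOf_eq_one]
  letI : MulAction (zpowers x) (pCore 2 Y) := MulAction.compHom (pCore 2 Y)
    ((MulAut.conjNormal (H := pCore 2 Y)).comp (zpowers x).subtype)
  have hpx : IsPGroup 3 (zpowers x) := IsPGroup.of_card (n := 1) (by rw [Nat.card_zpowers, hx, pow_one])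
  have hmod := hpx.card_modEq_card_fixedPoints (pCore 2 Y)
  have hfix : Nat.card (MulAction.fixedPoints (zpowers x) (pCore 2 Y)) = 2 := by
    rw [Nat.card_eq_two_iff]
    refine ⟨⟨1, ?_⟩, ⟨⟨z, H.z_mem⟩, ?_⟩, ?_, ?_⟩
    · intro g
      show MulAut.conjNormal (g : Y) (1 : pCore 2 Y) = 1
      rw [map_one]
    · intro g
      apply Subtype.ext
      show (MulAut.conjNormal (g : Y) (⟨z, H.z_mem⟩ : pCore 2 Y) : Y) = z
      rw [MulAut.conjNormal_apply]
      show (g : Y) * z * (g : Y)⁻¹ = z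
      rw [H.cen, mul_inv_cancel_right]
    · intro h
      have := congrArg (fun w => ((w : (MulAction.fixedPoints (zpowers x) (pCore 2 Y))) : pCore 2 Y)) h
      have := congrArg (fun w => ((w : pCore 2 Y) : Y)) this
      exact H.z1 this.symm
    · rw [Set.eq_univ_iff_forall]
      rintro ⟨⟨v, hv⟩, hv'⟩
      have h1 := hv' ⟨x, mem_zpowers x⟩
      have h2 : (MulAut.conjNormal x (⟨v, hv⟩ : pCore 2 Y) : Y) = v := congrArg Subtype.val h1
      rw [MulAut.conjNormal_apply] at h2
      have h2' : x * v * x⁻¹ = v := h2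
      rcases H.two_cent hx (v := v) (by
        calc x * v = x * v * x⁻¹ * x := by group
          _ = v * x := by rw [h2']) (two_of_mem hv) with h3 | h3
      · left; exact Subtype.ext (Subtype.ext h3)
      · right
        rw [Set.mem_singleton_iff]
        exact Subtype.ext (Subtype.ext h3)
  rw [hfix] at hmod
  obtain ⟨k, hk⟩ := IsPGroup.iff_card.1 (Cores.isPGroup_pCore 2 Y)
  have hd : Nat.card (pCore 2 Y) ∣ 48 := by rw [← H.card]; exact card_subgroup_dvd_card _
  rw [hk] at hmod hd ⊢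
  have hk4 : k ≤ 4 := by
    by_contra hcon
    have : (2 : ℕ) ^ 5 ∣ 2 ^ k := pow_dvd_pow 2 (by omega)
    have := this.trans hd
    norm_num at this
  have hk1 : k ≠ 1 := by
    rintro rfl
    -- `O_2 = {1, z}` is central
    have hC := H55Solv.centralizer_pCore_le (solvable_48 H.card) 2 H.core
    have h1 : pCore 2 Y = zpowers z := by
      symm
      apply eq_of_le_of_card_ge (by rw [zpowers_le]; exact H.z_mem)
      rw [hk, Nat.card_zpowers, H.ordz]; norm_num
    have h2 : x ∈ pCore 2 Y := by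
      apply hC
      rw [mem_centralizer_iff]
      intro y hy
      rw [SetLike.mem_coe, h1] at hy
      obtain ⟨i, rfl⟩ := mem_zpowers_iff.1 hy
      exact ((show Commute x z from H.cen x).zpow_right i).eq.symm
    have h3 := orderOf_dvd_natCard (⟨x, h2⟩ : pCore 2 Y)
    rw [hk, Subgroup.orderOf_mk, hx] at h3
    norm_num at h3
  interval_cases k
  · exfalso; revert hmod; decide
  · exact absurd rfl hk1
  · exfalso; revert hmod; decide
  · norm_num
  · exfalso; revert hmod; decide

/-- the Sylow 2-subgroups are not abelian modulo `z` -/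
theorem Hyp.nonab (T : Subgroup Y) (hT : IsPGroup 2 T) (hT16 : Nat.card T = 16) :
    ∃ a ∈ T, ∃ v ∈ pCore 2 Y, a * v * a⁻¹ ≠ v ∧ a * v * a⁻¹ ≠ v * z := by
  by_contra hcon
  push Not at hcon
  have hzc : ∀ y : Y, y * z = z * y := H.cen
  have hz2 := H.z2
  have hzm := H.z_mem
  have hn : (pCore 2 Y).Normal := pCore_normal 2 Y
  let K : Subgroup Y :=
    { carrier := {c | ∀ v ∈ pCore 2 Y, c * v * c⁻¹ = v ∨ c * v * c⁻¹ = v * z}
      one_mem' := fun v hv => Or.inl (by group)
      mul_mem' := by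
        intro c d hc hd v hv
        have e1 : c * d * v * (c * d)⁻¹ = c * (d * v * d⁻¹) * c⁻¹ := by group
        have e2 : c * (v * z) * c⁻¹ = c * v * c⁻¹ * z := by
          calc c * (v * z) * c⁻¹ = c * v * (z * c⁻¹) := by group
            _ = c * v * (c⁻¹ * z) := by rw [hzc]
            _ = _ := by group
        rw [e1]
        rcases hd v hv with h1 | h1 <;> rcases hc v hv with h2 | h2 <;> rw [h1]
        · exact Or.inl h2
        · exact Or.inr h2
        · right; rw [e2, h2]
        · left; rw [e2, h2, mul_assoc, hz2, mul_one]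
      inv_mem' := by
        intro c hc v hv
        have hv' : c⁻¹ * v * c ∈ pCore 2 Y := by
          have := hn.conj_mem v hv c⁻¹
          rwa [inv_inv] at this
        rw [inv_inv]
        rcases hc _ hv' with h1 | h1
        · left
          rw [← h1]; group
        · right
          have h2 : v = c⁻¹ * v * c * z := by rw [← h1]; group
          calc c⁻¹ * v * c = c⁻¹ * v * c * (z * z) := by rw [hz2, mul_one]
            _ = (c⁻¹ * v * c * z) * z := by rw [mul_assoc (c⁻¹ * v * c)]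
            _ = v * z := by rw [← h2] }
  have hKT : T ≤ K := by
    intro a ha v hv
    by_contra hc
    push Not at hc
    exact hc.2 (hcon a ha v hv hc.1)
  have hKn : K.Normal := by
    refine ⟨fun c hc g v hv => ?_⟩
    have hv' : g⁻¹ * v * g ∈ pCore 2 Y := by
      have := hn.conj_mem v hv g⁻¹
      rwa [inv_inv] at this
    have e1 : g * c * g⁻¹ * v * (g * c * g⁻¹)⁻¹ = g * (c * (g⁻¹ * v * g) * c⁻¹) * g⁻¹ := by group
    rw [e1]
    rcases hc _ hv' with h1 | h1
    · left; rw [h1]; group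
    · right
      rw [h1]
      calc g * (g⁻¹ * v * g * z) * g⁻¹ = v * (g * z) * g⁻¹ := by group
        _ = v * (z * g) * g⁻¹ := by rw [hzc]
        _ = v * z := by group
  obtain ⟨x, hx⟩ := H.exists_three
  have hxK : x ∉ K := by
    intro hxK
    -- an element of `O_2` outside `{1, z}`
    have h8 := H.card_core
    obtain ⟨v, hv, hv1, hvz⟩ : ∃ v ∈ pCore 2 Y, v ≠ 1 ∧ v ≠ z := by
      by_contra hc
      push Not at hc
      have hle : pCore 2 Y ≤ zpowers z := by
        intro v hv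
        by_cases h1 : v = 1
        · rw [h1]; exact one_mem _
        · rw [hc v hv h1]; exact mem_zpowers z
      have := card_dvd_of_le hle
      rw [h8, Nat.card_zpowers, H.ordz] at this
      norm_num at this
    rcases hxK v hv with h1 | h1
    · exact H.not_mul hx (two_of_mem hv) hv1 hvz (e := 0) (by rw [h1, pow_zero, mul_one])
    · exact H.not_mul hx (two_of_mem hv) hv1 hvz (e := 1) (by rw [h1, pow_one])
  have h1 : 16 ∣ Nat.card K := by rw [← hT16]; exact card_dvd_of_le hKT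
  have h2 : Nat.card K ∣ 48 := by rw [← H.card]; exact card_subgroup_dvd_card _
  obtain ⟨m, hm⟩ := h1
  rw [hm] at h2
  have hm3 : m ∣ 3 := by
    have : 16 * m ∣ 16 * 3 := by rw [show 16 * 3 = 48 by norm_num]; exact h2
    exact Nat.dvd_of_mul_dvd_mul_left (by norm_num) this
  rcases (Nat.dvd_prime Nat.prime_three).1 hm3 with h3 | h3
  · have hKT' : T = K := by
      apply eq_of_le_of_card_ge hKT
      rw [hm, h3, hT16]
    have h4 := Cores.le_pCore (N := T) (by rw [hKT']; exact hKn) hT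
    have h5 := card_dvd_of_le h4
    rw [hT16, H.card_core] at h5
    norm_num at h5
  · apply hxK
    have : K = ⊤ := by
      apply eq_top_of_card_eq
      rw [hm, h3, H.card]
    rw [this]; trivial

/-- an involution of `O_2` outside `{1, z}` forces `O_2` to be elementary abelian -/
theorem Hyp.elem {w : Y} (hw : w ∈ pCore 2 Y) (hw2 : w * w = 1) (hw1 : w ≠ 1) (hwz : w ≠ z) :
    ∀ v ∈ pCore 2 Y, v * v = 1 := by
  classical
  letI := Fintype.ofFinite Y
  obtain ⟨x, hx⟩ := H.exists_three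
  have hx3 : x ^ 3 = 1 := by rw [← hx, pow_orderOf_eq_one]
  have hz2 := H.z2
  have hn : (pCore 2 Y).Normal := pCore_normal 2 Y
  have hzc : ∀ (n : ℕ) (y : Y), y * z ^ n = z ^ n * y := by
    intro n y
    exact ((show Commute y z from H.cen y).pow_right n).eq
  have hzz : ∀ n : ℕ, z ^ n * z ^ n = 1 := by
    intro n
    rw [← pow_add, ← two_mul, pow_mul, pow_two, hz2, one_pow]
  let f : Fin 3 × Fin 2 → Y := fun p => x ^ (p.1 : ℕ) * w * (x ^ (p.1 : ℕ))⁻¹ * z ^ (p.2 : ℕ)
  have hwcen : ∀ n : ℕ, w ≠ z ^ n := by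
    intro n h
    rcases Nat.even_or_odd n with ⟨m, hm⟩ | ⟨m, hm⟩
    · rw [hm, pow_add, hzz] at h; exact hw1 h
    · rw [hm, pow_succ, pow_mul, pow_two, hz2, one_pow, one_mul] at h; exact hwz h
  have hfinj : Function.Injective f := by
    rintro ⟨i, e⟩ ⟨j, g⟩ hfe
    have h1 : x ^ (i : ℕ) * w * (x ^ (i : ℕ))⁻¹ * z ^ (e : ℕ) = x ^ (j : ℕ) * w * (x ^ (j : ℕ))⁻¹ * z ^ (g : ℕ) := hfe
    have hij : i = j := by
      by_contra hij
      have hy : orderOf ((x ^ (j : ℕ))⁻¹ * x ^ (i : ℕ)) = 3 := by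
        apply orderOf_eq_prime (p := 3) (hp := ⟨Nat.prime_three⟩)
        · have hc : Commute ((x ^ (j : ℕ))⁻¹) (x ^ (i : ℕ)) := ((Commute.refl x).pow_pow _ _).inv_left
          rw [hc.mul_pow, inv_pow, ← pow_mul, ← pow_mul, mul_comm (j : ℕ), mul_comm (i : ℕ), pow_mul, pow_mul, hx3]
          simp
        · intro h2
          apply hij
          have h3 : x ^ (i : ℕ) = x ^ (j : ℕ) := by
            rw [inv_mul_eq_one] at h2; exact h2.symm
          have h4 := pow_injOn_Iio_orderOf (x := x) (by rw [hx]; exact Set.mem_Iio.2 i.2) (by rw [hx]; exact Set.mem_Iio.2 j.2) h3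
          exact Fin.ext h4
      apply H.not_mul hy (two_of_mem hw) hw1 hwz (e := (g : ℕ) + (e : ℕ))
      have h2 : (x ^ (j : ℕ))⁻¹ * x ^ (i : ℕ) * w * ((x ^ (j : ℕ))⁻¹ * x ^ (i : ℕ))⁻¹ =
          (x ^ (j : ℕ))⁻¹ * (x ^ (i : ℕ) * w * (x ^ (i : ℕ))⁻¹ * z ^ (e : ℕ)) * (z ^ (e : ℕ))⁻¹ * x ^ (j : ℕ) := by group
      have h3 : (z ^ (e : ℕ))⁻¹ = z ^ (e : ℕ) := inv_eq_of_mul_eq_one_left (hzz _)
      rw [h2, h1, h3]
      calc (x ^ (j : ℕ))⁻¹ * (x ^ (j : ℕ) * w * (x ^ (j : ℕ))⁻¹ * z ^ (g : ℕ)) * z ^ (e : ℕ) * x ^ (j : ℕ) =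
          w * (x ^ (j : ℕ))⁻¹ * (z ^ (g : ℕ) * z ^ (e : ℕ) * x ^ (j : ℕ)) := by group
        _ = w * (x ^ (j : ℕ))⁻¹ * (x ^ (j : ℕ) * z ^ ((g : ℕ) + (e : ℕ))) := by rw [← pow_add, hzc]
        _ = w * z ^ ((g : ℕ) + (e : ℕ)) := by group
    subst hij
    have h2 := mul_left_cancel h1
    have h3 := pow_injOn_Iio_orderOf (x := z) (by rw [H.ordz]; exact Set.mem_Iio.2 e.2) (by rw [H.ordz]; exact Set.mem_Iio.2 g.2) h2
    rw [Fin.ext h3]
  set A : Finset Y := Finset.univ.image f with hA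
  have hAc : A.card = 6 := by
    rw [hA, Finset.card_image_of_injective _ hfinj, Finset.card_univ, Fintype.card_prod, Fintype.card_fin, Fintype.card_fin]
  have hnot : ∀ n : ℕ, z ^ n ∉ A := by
    intro n hmem
    obtain ⟨⟨i, e⟩, -, h1⟩ := Finset.mem_image.1 hmem
    have h1' : x ^ (i : ℕ) * w * (x ^ (i : ℕ))⁻¹ * z ^ (e : ℕ) = z ^ n := h1
    apply hwcen (n + (e : ℕ))
    calc w = (x ^ (i : ℕ))⁻¹ * (x ^ (i : ℕ) * w * (x ^ (i : ℕ))⁻¹ * z ^ (e : ℕ)) * (z ^ (e : ℕ))⁻¹ * x ^ (i : ℕ) := by group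
      _ = (x ^ (i : ℕ))⁻¹ * (z ^ n * z ^ (e : ℕ) * x ^ (i : ℕ)) := by
          rw [h1', inv_eq_of_mul_eq_one_left (hzz _)]; group
      _ = z ^ (n + (e : ℕ)) := by rw [← pow_add, ← hzc]; group
  have hz1 : z ∉ A := by have := hnot 1; rwa [pow_one] at this
  have h11 : (1 : Y) ∉ A := by have := hnot 0; rwa [pow_zero] at this
  have hcard : (insert (1 : Y) (insert z A)).card = 8 := by
    rw [Finset.card_insert_of_notMem, Finset.card_insert_of_notMem hz1, hAc]
    rw [Finset.mem_insert, not_or]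
    exact ⟨H.z1.symm, h11⟩
  have hsub : insert (1 : Y) (insert z A) ⊆ Finset.univ.filter (fun y => y ∈ pCore 2 Y) := by
    intro y hy
    rw [Finset.mem_filter]
    refine ⟨Finset.mem_univ _, ?_⟩
    rw [Finset.mem_insert, Finset.mem_insert] at hy
    rcases hy with rfl | rfl | hy
    · exact one_mem _
    · exact H.z_mem
    · obtain ⟨⟨i, e⟩, -, rfl⟩ := Finset.mem_image.1 hy
      exact mul_mem (hn.conj_mem w hw _) (pow_mem H.z_mem _)
  have heq := Finset.eq_of_subset_of_card_le hsub (by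
    rw [hcard, ← H.card_core, ← Fintype.card_subtype, ← Nat.card_eq_fintype_card]
    )
  intro v hv
  have hvm : v ∈ insert (1 : Y) (insert z A) := by
    rw [heq, Finset.mem_filter]; exact ⟨Finset.mem_univ _, hv⟩
  rw [Finset.mem_insert, Finset.mem_insert] at hvm
  rcases hvm with rfl | rfl | hy
  · rw [one_mul]
  · exact hz2
  · obtain ⟨⟨i, e⟩, -, rfl⟩ := Finset.mem_image.1 hy
    show x ^ (i : ℕ) * w * (x ^ (i : ℕ))⁻¹ * z ^ (e : ℕ) * (x ^ (i : ℕ) * w * (x ^ (i : ℕ))⁻¹ * z ^ (e : ℕ)) = 1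
    calc x ^ (i : ℕ) * w * (x ^ (i : ℕ))⁻¹ * z ^ (e : ℕ) * (x ^ (i : ℕ) * w * (x ^ (i : ℕ))⁻¹ * z ^ (e : ℕ)) =
        x ^ (i : ℕ) * w * (x ^ (i : ℕ))⁻¹ * (z ^ (e : ℕ) * (x ^ (i : ℕ) * w * (x ^ (i : ℕ))⁻¹)) * z ^ (e : ℕ) := by group
      _ = x ^ (i : ℕ) * w * (x ^ (i : ℕ))⁻¹ * ((x ^ (i : ℕ) * w * (x ^ (i : ℕ))⁻¹) * z ^ (e : ℕ)) * z ^ (e : ℕ) := by
          rw [hzc (e : ℕ) (x ^ (i : ℕ) * w * (x ^ (i : ℕ))⁻¹)]
      _ = x ^ (i : ℕ) * (w * w) * (x ^ (i : ℕ))⁻¹ * (z ^ (e : ℕ) * z ^ (e : ℕ)) := by group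
      _ = 1 := by rw [hw2, hzz]; group

/-- `O_2` is contained in the subgroups of order 16 -/
theorem Hyp.core_le {T : Subgroup Y} (hT : IsPGroup 2 T) (hT16 : Nat.card T = 16) : pCore 2 Y ≤ T := by
  have h1 : IsPGroup 2 (pCore 2 Y ⊔ T : Subgroup Y) := (Cores.isPGroup_pCore 2 Y).to_sup_of_normal_left hT
  obtain ⟨k, hk⟩ := IsPGroup.iff_card.1 h1
  have h2 : Nat.card (pCore 2 Y ⊔ T : Subgroup Y) ∣ 48 := by rw [← H.card]; exact card_subgroup_dvd_card _
  have h3 : Nat.card (pCore 2 Y ⊔ T : Subgroup Y) ≤ 16 := by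
    rw [hk] at h2 ⊢
    have hk4 : k ≤ 4 := by
      by_contra hcon
      have : (2 : ℕ) ^ 5 ∣ 2 ^ k := pow_dvd_pow 2 (by omega)
      have := this.trans h2
      norm_num at this
    calc 2 ^ k ≤ 2 ^ 4 := Nat.pow_le_pow_right (by norm_num) hk4
      _ = 16 := by norm_num
  have h4 : T = pCore 2 Y ⊔ T := eq_of_le_of_card_ge le_sup_right (by rw [hT16]; exact h3)
  rw [h4]; exact le_sup_left

/-- the case of an elementary abelian `O_2`: a central involution of the Sylow subgroup containing the commutators -/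
theorem Hyp.exists_w (hel : ∀ v ∈ pCore 2 Y, v * v = 1) {T : Subgroup Y} (hT : IsPGroup 2 T)
    (hT16 : Nat.card T = 16) :
    ∃ w ∈ T, orderOf w = 2 ∧ (∀ a ∈ T, a * w = w * a) ∧ ∀ a ∈ T, ∀ b ∈ T, a * b = b * a ∨ a * b = b * a * w := by
  classical
  have hVT := H.core_le hT hT16
  have h8 := H.card_core
  have hn : (pCore 2 Y).Normal := pCore_normal 2 Y
  have hinv : ∀ v ∈ pCore 2 Y, v⁻¹ = v := fun v hv => inv_eq_of_mul_eq_one_left (hel v hv)
  have hcomm : ∀ u ∈ pCore 2 Y, ∀ v ∈ pCore 2 Y, u * v = v * u := by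
    intro u hu v hv
    have h1 := hinv _ (mul_mem hu hv)
    rw [mul_inv_rev, hinv u hu, hinv v hv] at h1
    exact h1.symm
  -- the index of `O_2` in `T`
  have hidx : ((pCore 2 Y).subgroupOf T).index = 2 := by
    have h1 := ((pCore 2 Y).subgroupOf T).index_mul_card
    have h2 : Nat.card ((pCore 2 Y).subgroupOf T) = 8 := by
      rw [← h8]; exact Nat.card_congr (subgroupOfEquivOfLe hVT).toEquiv
    rw [h2, hT16] at h1
    omega
  obtain ⟨y, hyT, hyV⟩ : ∃ y ∈ T, y ∉ pCore 2 Y := by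
    by_contra hc
    push Not at hc
    have := card_dvd_of_le (show T ≤ pCore 2 Y from hc)
    rw [h8, hT16] at this
    norm_num at this
  have hmul : ∀ a ∈ T, ∀ b ∈ T, a * b ∈ pCore 2 Y ↔ (a ∈ pCore 2 Y ↔ b ∈ pCore 2 Y) := by
    intro a ha b hb
    have := mul_mem_iff_of_index_two hidx (a := ⟨a, ha⟩) (b := ⟨b, hb⟩)
    simpa [mem_subgroupOf] using this
  have hyy : y * y ∈ pCore 2 Y := (hmul y hyT y hyT).2 Iff.rfl
  have hout : ∀ a ∈ T, a ∈ pCore 2 Y ∨ ∃ v ∈ pCore 2 Y, a = y * v := by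
    intro a ha
    by_cases hav : a ∈ pCore 2 Y
    · exact Or.inl hav
    · right
      refine ⟨y⁻¹ * a, (hmul _ (inv_mem hyT) a ha).2 ?_, by group⟩
      rw [inv_mem_iff]
      exact ⟨fun h => absurd h hyV, fun h => absurd h hav⟩
  have hcj : ∀ v ∈ pCore 2 Y, y * v * y⁻¹ ∈ pCore 2 Y := fun v hv => hn.conj_mem v hv y
  -- the commutator homomorphism
  let φ : pCore 2 Y →* pCore 2 Y :=
    { toFun := fun v => ⟨y * v * y⁻¹ * (v : Y)⁻¹, mul_mem (hcj v v.2) (inv_mem v.2)⟩
      map_one' := by apply Subtype.ext; simp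
      map_mul' := by
        intro u v
        apply Subtype.ext
        show y * (u * v : Y) * y⁻¹ * (u * v : Y)⁻¹ = (y * u * y⁻¹ * (u : Y)⁻¹) * (y * v * y⁻¹ * (v : Y)⁻¹)
        have h1 := hcomm (y * v * y⁻¹ * (v : Y)⁻¹) (mul_mem (hcj v v.2) (inv_mem v.2)) (u : Y)⁻¹ (inv_mem u.2)
        calc y * (u * v : Y) * y⁻¹ * (u * v : Y)⁻¹ = y * u * y⁻¹ * ((y * v * y⁻¹ * (v : Y)⁻¹) * (u : Y)⁻¹) := by group
          _ = y * u * y⁻¹ * ((u : Y)⁻¹ * (y * v * y⁻¹ * (v : Y)⁻¹)) := by rw [h1]
          _ = _ := by group }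
  have hφ : ∀ v : pCore 2 Y, (φ v : Y) = y * v * y⁻¹ * (v : Y)⁻¹ := fun v => rfl
  have hrk : φ.range ≤ φ.ker := by
    rintro _ ⟨v, rfl⟩
    rw [MonoidHom.mem_ker]
    apply Subtype.ext
    rw [hφ, hφ]
    show y * (y * v * y⁻¹ * (v : Y)⁻¹) * y⁻¹ * (y * v * y⁻¹ * (v : Y)⁻¹)⁻¹ = 1
    have h1 : (y * y) * v = v * (y * y) := hcomm _ hyy _ v.2
    have h2 : (v : Y)⁻¹ = v := hinv _ v.2
    have h3 := hinv _ (hcj v v.2)
    have h4 := hel _ (mul_mem v.2 (hcj v v.2))
    have h5 : (y * v * y⁻¹ * (v : Y)⁻¹)⁻¹ = v * (y * v * y⁻¹) := by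
      rw [mul_inv_rev, inv_inv, h3]
    have h6 : y * (y * v * y⁻¹ * (v : Y)⁻¹) * y⁻¹ = v * (y * v * y⁻¹) := by
      calc y * (y * v * y⁻¹ * (v : Y)⁻¹) * y⁻¹ = ((y * y) * v) * (y * y)⁻¹ * (y * (v : Y)⁻¹ * y⁻¹) := by group
        _ = v * (y * (v : Y)⁻¹ * y⁻¹) := by rw [h1]; group
        _ = v * (y * v * y⁻¹) := by rw [h2]
    rw [h5, h6]
    exact h4
  have hcard : Nat.card φ.range * Nat.card φ.ker = 8 := by
    rw [← h8, ← index_ker φ]; exact φ.ker.index_mul_card
  have hdvd : Nat.card φ.range ∣ Nat.card φ.ker := card_dvd_of_le hrk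
  have hr2 : Nat.card φ.range ≤ 2 := by
    have h1 := Nat.le_of_dvd Nat.card_pos hdvd
    by_contra hc
    push Not at hc
    nlinarith
  have key : ∃ w ∈ pCore 2 Y, orderOf w = 2 ∧ y * w * y⁻¹ = w ∧ ∀ v ∈ pCore 2 Y, y * v * y⁻¹ = v ∨ y * v * y⁻¹ = v * w := by
    have hpos : 0 < Nat.card φ.range := Nat.card_pos
    have h12 : Nat.card φ.range = 1 ∨ Nat.card φ.range = 2 := by omega
    rcases h12 with h1 | h1
    · refine ⟨z, H.z_mem, H.ordz, by rw [H.cen, mul_inv_cancel_right], fun v hv => Or.inl ?_⟩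
      have h2 : φ.range = ⊥ := Subgroup.card_eq_one.1 h1
      have h3 : φ ⟨v, hv⟩ ∈ φ.range := ⟨_, rfl⟩
      rw [h2, mem_bot] at h3
      have h4 := congrArg Subtype.val h3
      rw [hφ] at h4
      exact mul_inv_eq_one.1 h4
    · obtain ⟨⟨w, hw⟩, hw1, huniq⟩ := (Nat.card_eq_two_iff' (1 : φ.range)).1 h1
      have hw1' : (w : Y) ≠ 1 := fun h => hw1 (Subtype.ext (Subtype.ext h))
      refine ⟨w, w.2, orderOf_eq_prime (by rw [pow_two]; exact hel _ w.2) hw1', ?_, ?_⟩
      · have h2 := hrk hw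
        rw [MonoidHom.mem_ker] at h2
        have h3 := congrArg Subtype.val h2
        rw [hφ] at h3
        exact mul_inv_eq_one.1 h3
      · intro v hv
        have h3 : φ ⟨v, hv⟩ ∈ φ.range := ⟨_, rfl⟩
        by_cases h4 : φ ⟨v, hv⟩ = 1
        · left
          have h5 := congrArg Subtype.val h4
          rw [hφ] at h5
          exact mul_inv_eq_one.1 h5
        · right
          have h5 := huniq ⟨_, h3⟩ (fun h => h4 (congrArg Subtype.val h))
          have h6 := congrArg (fun q : φ.range => ((q : pCore 2 Y) : Y)) h5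
          have h7 : y * v * y⁻¹ * v⁻¹ = w := h6
          rw [hcomm v hv w w.2, ← h7]; group
  obtain ⟨w, hwV, hw2, hyw, hyv⟩ := key
  have hww : w * w = 1 := by rw [← pow_two, ← hw2, pow_orderOf_eq_one]
  have hyw' : y * w = w * y := by
    calc y * w = y * w * y⁻¹ * y := by group
      _ = w * y := by rw [hyw]
  have hcw : ∀ a ∈ T, a * w = w * a := by
    intro a ha
    rcases hout a ha with h1 | ⟨v, hv, rfl⟩
    · exact hcomm a h1 w hwV
    · rw [mul_assoc, hcomm v hv w hwV, ← mul_assoc, hyw', mul_assoc]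
  refine ⟨w, hVT hwV, hw2, hcw, ?_⟩
  -- `v y` versus `y v`
  have hvy : ∀ v ∈ pCore 2 Y, y * v = v * y ∨ y * v = v * y * w := by
    intro v hv
    rcases hyv v hv with h1 | h1
    · left
      calc y * v = y * v * y⁻¹ * y := by group
        _ = v * y := by rw [h1]
    · right
      calc y * v = y * v * y⁻¹ * y := by group
        _ = v * (w * y) := by rw [h1]; group
        _ = v * y * w := by rw [← hyw']; group
  have hsw : ∀ a b : Y, b ∈ T → (a = b * w → b = a * w) := by
    rintro a b hb rfl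
    rw [mul_assoc, hww, mul_one]
  intro a ha b hb
  rcases hout a ha with h1 | ⟨v, hv, rfl⟩ <;> rcases hout b hb with h2 | ⟨u, hu, rfl⟩
  · exact Or.inl (hcomm a h1 b h2)
  · -- a (y u) vs (y u) a
    rcases hvy a h1 with h3 | h3
    · left
      calc a * (y * u) = (a * y) * u := by group
        _ = y * (a * u) := by rw [← h3]; group
        _ = y * (u * a) := by rw [hcomm a h1 u hu]
        _ = y * u * a := by group
    · right
      have h4 := hsw _ _ (mul_mem ha hyT) h3
      calc a * (y * u) = (a * y) * u := by group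
        _ = y * a * (w * u) := by rw [h4]; group
        _ = y * a * (u * w) := by rw [hcomm w hwV u hu]
        _ = y * (a * u) * w := by group
        _ = y * (u * a) * w := by rw [hcomm a h1 u hu]
        _ = y * u * a * w := by group
  · rcases hvy b h2 with h3 | h3
    · left
      calc y * v * b = y * (v * b) := by group
        _ = (y * b) * v := by rw [hcomm v hv b h2]; group
        _ = b * (y * v) := by rw [h3]; group
    · right
      calc y * v * b = y * (v * b) := by group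
        _ = (y * b) * v := by rw [hcomm v hv b h2]; group
        _ = b * y * (w * v) := by rw [h3]; group
        _ = b * y * (v * w) := by rw [hcomm w hwV v hv]
        _ = b * (y * v) * w := by group
  · -- (y v)(y u) = y (v y) u, (y u)(y v) = y (u y) v
    have e1 : y * v * (y * u) = y * (v * y) * u := by group
    have e2 : y * u * (y * v) = y * (u * y) * v := by group
    have hvu := hcomm v hv u hu
    rcases hvy v hv with h3 | h3 <;> rcases hvy u hu with h4 | h4
    · left
      rw [e1, e2, ← h3, ← h4]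
      calc y * (y * v) * u = y * y * (v * u) := by group
        _ = y * y * (u * v) := by rw [hvu]
        _ = _ := by group
    · right
      have h4' := hsw _ _ (mul_mem (hVT hu) hyT) h4
      rw [e1, e2, ← h3, h4']
      calc y * (y * v) * u = y * y * (v * u) := by group
        _ = y * y * (u * v) := by rw [hvu]
        _ = y * y * (u * v) * (w * w) := by rw [hww, mul_one]
        _ = y * y * u * (v * w) * w := by group
        _ = y * y * u * (w * v) * w := by rw [hcomm v hv w hwV]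
        _ = _ := by group
    · right
      have h3' := hsw _ _ (mul_mem (hVT hv) hyT) h3
      rw [e1, e2, h3', ← h4]
      calc y * (y * v * w) * u = y * y * v * (w * u) := by group
        _ = y * y * v * (u * w) := by rw [hcomm w hwV u hu]
        _ = y * y * (v * u) * w := by group
        _ = y * y * (u * v) * w := by rw [hvu]
        _ = _ := by group
    · left
      have h3' := hsw _ _ (mul_mem (hVT hv) hyT) h3
      have h4' := hsw _ _ (mul_mem (hVT hu) hyT) h4
      rw [e1, e2, h3', h4']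
      calc y * (y * v * w) * u = y * y * v * (w * u) := by group
        _ = y * y * v * (u * w) := by rw [hcomm w hwV u hu]
        _ = y * y * (v * u) * w := by group
        _ = y * y * (u * v) * w := by rw [hvu]
        _ = y * y * u * (v * w) := by group
        _ = y * y * u * (w * v) := by rw [hcomm v hv w hwV]
        _ = _ := by group

end

end Cfsg.Agent.Lib.H54W2
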