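import Mathlib
import Cfsg.Agent.Lib.CriticalOdd
import Cfsg.Agent.Lib.CoprimeAction

/-!
# No automorphism of order seven of a simple group of order 360 (helper54)
-/

set_option autoImplicit false
set_option linter.all false

namespace Cfsg.Agent.Lib.H54W5

open Subgroup

universe u

/-- no subgroup of order 45 -/
theorem no45 {N : Type u} [Group N] [Finite N] [IsSimpleGroup N] (hN : Nat.card N = 360) (C : Subgroup N)
    (hC : Nat.card C = 45) : False := by
  haveI : Fact (Nat.Prime 5) := ⟨by norm_num⟩
  obtain ⟨S⟩ : Nonempty (Sylow 5 C) := inferInstance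
  have hS : Nat.card (S : Subgroup C) = 5 := by
    have h1 := S.card_eq_multiplicity
    rw [hC] at h1
    have h2 : (45 : ℕ).factorization 5 = 1 := by
      rw [show (45 : ℕ) = 5 ^ 1 * 9 by norm_num, Nat.factorization_mul (by norm_num) (by norm_num),
        Nat.Prime.factorization_pow (by norm_num)]
      simp [Nat.factorization_eq_zero_of_not_dvd]
    rw [h2] at h1
    exact h1
  have hS9 : (S : Subgroup C).index = 9 := by
    have := (S : Subgroup C).index_mul_card
    rw [hS, hC] at this
    omega
  have hn1 : Nat.card (Sylow 5 C) = 1 := by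
    have h1 := card_sylow_modEq_one 5 C
    have h2 := Sylow.card_dvd_index S
    rw [hS9] at h2
    have h3 : Nat.card (Sylow 5 C) ≤ 9 := Nat.le_of_dvd (by norm_num) h2
    have h4 : 0 < Nat.card (Sylow 5 C) := Nat.card_pos
    unfold Nat.ModEq at h1
    interval_cases Nat.card (Sylow 5 C) <;> first | rfl | (exfalso; revert h1 h2; decide)
  have hSn : (S : Subgroup C).Normal := by
    haveI : Subsingleton (Sylow 5 C) := (Nat.card_eq_one_iff_unique.1 hn1).1
    exact Sylow.normal_of_subsingleton S
  set P : Subgroup N := (S : Subgroup C).map C.subtype with hP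
  have hP5 : Nat.card P = 5 := by
    rw [hP, Subgroup.card_map_of_injective C.subtype_injective, hS]
  have hCN : C ≤ normalizer (P : Set N) := by
    intro c hc
    rw [mem_normalizer_iff]
    intro y
    constructor
    · rintro ⟨z, hz, rfl⟩
      refine ⟨⟨c, hc⟩ * z * ⟨c, hc⟩⁻¹, hSn.conj_mem z hz ⟨c, hc⟩, ?_⟩
      simp
    · rintro ⟨z, hz, hz'⟩
      refine ⟨⟨c, hc⟩⁻¹ * z * ⟨c, hc⟩, ?_, ?_⟩
      · have := hSn.conj_mem z hz (⟨c, hc⟩⁻¹)
        rwa [inv_inv] at this
      · have hz2 : (z : N) = c * y * c⁻¹ := hz'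
        simp only [map_mul, map_inv, Subgroup.subtype_apply, hz2]
        group
  have hPs : ¬ 5 ∣ P.index := by
    have := P.index_mul_card
    rw [hP5, hN] at this
    have : P.index = 72 := by omega
    rw [this]; norm_num
  let T : Sylow 5 N := IsPGroup.toSylow (P := P) (IsPGroup.of_card (n := 1) (by rw [hP5, pow_one])) hPs
  have hT : (T : Subgroup N) = P := rfl
  have hni : Nat.card (Sylow 5 N) ∣ 8 := by
    rw [Sylow.card_eq_index_normalizer T]
    change (normalizer (P : Set N)).index ∣ 8
    have h1 := Subgroup.index_dvd_of_le hCN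
    have h2 := C.index_mul_card
    rw [hC, hN] at h2
    have h3 : C.index = 8 := by omega
    rwa [h3] at h1
  have hn : Nat.card (Sylow 5 N) = 1 := by
    have h1 := card_sylow_modEq_one 5 N
    have h3 : Nat.card (Sylow 5 N) ≤ 8 := Nat.le_of_dvd (by norm_num) hni
    have h4 : 0 < Nat.card (Sylow 5 N) := Nat.card_pos
    unfold Nat.ModEq at h1
    interval_cases Nat.card (Sylow 5 N) <;> first | rfl | (exfalso; revert h1 hni; decide)
  have hTn : (T : Subgroup N).Normal := by
    haveI : Subsingleton (Sylow 5 N) := (Nat.card_eq_one_iff_unique.1 hn).1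
    exact Sylow.normal_of_subsingleton T
  rcases hTn.eq_bot_or_eq_top with h | h
  · rw [hT] at h
    rw [h, Subgroup.card_bot] at hP5
    norm_num at hP5
  · rw [hT] at h
    rw [h, Subgroup.card_top, hN] at hP5
    norm_num at hP5

theorem not_seven {H : Type u} [Group H] [Finite H] (N : Subgroup H) [N.Normal] [IsSimpleGroup N]
    (hN : Nat.card N = 360) (hC : Subgroup.centralizer (N : Set H) = ⊥) : ¬ 7 ∣ Nat.card H := by
  intro h7
  haveI : Fact (Nat.Prime 7) := ⟨by norm_num⟩
  haveI : Fact (Nat.Prime 5) := ⟨by norm_num⟩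
  haveI : Fact (Nat.Prime 3) := ⟨by norm_num⟩
  obtain ⟨x, hx⟩ := exists_prime_orderOf_dvd_card' (G := H) 7 h7
  set A : Subgroup H := zpowers x with hA
  have hA7 : Nat.card A = 7 := by rw [hA, Nat.card_zpowers, hx]
  have hAp : IsPGroup 7 A := IsPGroup.of_card (n := 1) (by rw [hA7, pow_one])
  have hAN : A ≤ normalizer (N : Set H) := by rw [normalizer_eq_top]; exact le_top
  have hcop : (Nat.card A).Coprime (Nat.card N) := by rw [hA7, hN]; norm_num
  haveI hAc : IsCyclic A := isCyclic_of_prime_card hA7
  have hAs : Group.IsSolvable A := by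
    letI : CommGroup A := IsCyclic.commGroup
    infer_instance
  -- an invariant Sylow subgroup of order q^n
  have key : ∀ q n : ℕ, ∀ hq : Fact q.Prime, (360 : ℕ).factorization q = n → (∀ d, d ∣ q ^ n → q ^ n % 7 = d % 7 → d = q ^ n) →
      q ^ n ∣ Nat.card (N ⊓ centralizer (A : Set H) : Subgroup H) := by
    intro q n hq hf hd
    obtain ⟨P, hPN, hPp, hPi, hPA⟩ := CoprimeAction.exists_invariant_sylow hAN hcop (Or.inl hAs) q
    have hcP : Nat.card P = q ^ n := by
      obtain ⟨k, hk⟩ := IsPGroup.iff_card.1 hPp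
      have h1 : P.relIndex N * Nat.card P = Nat.card N := by
        rw [← Nat.card_congr (Subgroup.subgroupOfEquivOfLe hPN).toEquiv, Subgroup.relIndex, Subgroup.index_mul_card]
      rw [hN, hk] at h1
      rw [hk, ← hf, ← h1, Nat.factorization_mul (by intro h0; rw [h0, zero_mul] at h1; norm_num at h1) (pow_ne_zero _ hq.out.ne_zero),
        Nat.Prime.factorization_pow hq.out]
      simp [Nat.factorization_eq_zero_of_not_dvd hPi]
    have h2 := CriticalOdd.card_modEq_centralizer hAp hPA
    rw [hcP] at h2
    have h3 : Nat.card (P ⊓ centralizer (A : Set H) : Subgroup H) = q ^ n := by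
      apply hd _ _ h2
      rw [← hcP]
      exact Subgroup.card_dvd_of_le inf_le_left
    rw [← h3]
    exact Subgroup.card_dvd_of_le (inf_le_inf_right _ hPN)
  have f3 : (360 : ℕ).factorization 3 = 2 := by
    rw [show (360 : ℕ) = 3 ^ 2 * 40 by norm_num, Nat.factorization_mul (by norm_num) (by norm_num),
      Nat.Prime.factorization_pow (by norm_num)]
    simp [Nat.factorization_eq_zero_of_not_dvd]
  have f5 : (360 : ℕ).factorization 5 = 1 := by
    rw [show (360 : ℕ) = 5 ^ 1 * 72 by norm_num, Nat.factorization_mul (by norm_num) (by norm_num),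
      Nat.Prime.factorization_pow (by norm_num)]
    simp [Nat.factorization_eq_zero_of_not_dvd]
  have k3 := key 3 2 inferInstance f3 (by
    intro d hd h
    norm_num at hd h ⊢
    have : d ≤ 9 := Nat.le_of_dvd (by norm_num) hd
    interval_cases d <;> first | rfl | (exfalso; revert hd h; decide))
  have k5 := key 5 1 inferInstance f5 (by
    intro d hd h
    norm_num at hd h ⊢
    have : d ≤ 5 := Nat.le_of_dvd (by norm_num) hd
    interval_cases d <;> first | rfl | (exfalso; revert hd h; decide))
  have k45 : 45 ∣ Nat.card (N ⊓ centralizer (A : Set H) : Subgroup H) := by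
    rw [show 45 = 3 ^ 2 * 5 ^ 1 by norm_num]
    exact Nat.Coprime.mul_dvd_of_dvd_of_dvd (by norm_num) k3 k5
  have k360 : Nat.card (N ⊓ centralizer (A : Set H) : Subgroup H) ∣ 360 := by
    rw [← hN]; exact Subgroup.card_dvd_of_le inf_le_left
  have kmod := CriticalOdd.card_modEq_centralizer hAp hAN
  rw [hN] at kmod
  obtain ⟨m, hm⟩ := k45
  have hm8 : m ∣ 8 := by
    rw [hm, show 360 = 45 * 8 by norm_num] at k360
    exact Nat.dvd_of_mul_dvd_mul_left (by norm_num) k360
  have hm' : m = 1 ∨ m = 8 := by
    rw [hm] at kmod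
    unfold Nat.ModEq at kmod
    have : m ≤ 8 := Nat.le_of_dvd (by norm_num) hm8
    interval_cases m <;> first | (left; rfl) | (right; rfl) | (exfalso; revert kmod hm8; decide)
  rcases hm' with rfl | rfl
  · refine no45 hN ((N ⊓ centralizer (A : Set H)).subgroupOf N) ?_
    rw [Nat.card_congr (Subgroup.subgroupOfEquivOfLe inf_le_left).toEquiv, hm]
  · have h1 : (N ⊓ centralizer (A : Set H) : Subgroup H) = N := by
      apply Subgroup.eq_of_le_of_card_ge inf_le_left
      rw [hN, hm]
    have h2 : N ≤ centralizer (A : Set H) := by rw [← h1]; exact inf_le_right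
    have h3 : A ≤ centralizer (N : Set H) := Subgroup.le_centralizer_iff.1 h2
    rw [hC, le_bot_iff] at h3
    rw [h3, Subgroup.card_bot] at hA7
    norm_num at hA7

end Cfsg.Agent.Lib.H54W5
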