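import Cfsg.Agent.Lib.H55KR3
import Cfsg.Agent.Lib.Cores

/-!
# S4265, piece Y0 (helper99)
-/

set_option autoImplicit false

namespace Cfsg.Agent.Lib.H55Y0

open Cfsg.Agent.Lib.H55KR

theorem card_le_of_inj {X Z : Type} [Group X] [Group Z] {b : ℕ} (h : KB X b) (f : Z →* X)
    (hf : Function.Injective f) : Nat.card (ConjClasses Z) ≤ b := by
  have e : Z ≃* f.range := MonoidHom.ofInjective hf
  have h1 : Nat.card (ConjClasses Z) = Nat.card (ConjClasses f.range) := by
    apply Nat.card_congr
    refine ⟨ConjClasses.map e.toMonoidHom, ConjClasses.map e.symm.toMonoidHom, ?_, ?_⟩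
    · intro x
      obtain ⟨a, rfl⟩ := ConjClasses.mk_surjective x
      show ConjClasses.mk (e.symm (e a)) = _
      rw [e.symm_apply_apply]
    · intro x
      obtain ⟨a, rfl⟩ := ConjClasses.mk_surjective x
      show ConjClasses.mk (e (e.symm a)) = _
      rw [e.apply_symm_apply]
  rw [h1]
  exact h f.range

theorem of_surj {X Y : Type} [Group X] [Group Y] [Finite X] (f : X →* Y) (hf : Function.Surjective f)
    {b : ℕ} (h : KB X b) : KB Y b := by
  intro T
  let S : Subgroup X := T.comap f
  let g : S →* T := (f.comp S.subtype).codRestrict T (fun x => x.2)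
  have hg : Function.Surjective g := by
    rintro ⟨t, ht⟩
    obtain ⟨x, rfl⟩ := hf t
    exact ⟨⟨x, ht⟩, rfl⟩
  have hs : Function.Surjective (ConjClasses.map g) := ConjClasses.map_surjective hg
  have : Finite (ConjClasses S) := Quotient.finite _
  exact (Nat.card_le_card_of_surjective _ hs).trans (h S)

theorem mul (hK : K1S) {X : Type} [Group X] [Finite X] (N : Subgroup X) [N.Normal] {a b : ℕ}
    (h1 : KB N a) (h2 : KB (X ⧸ N) b) : KB X (a * b) := by
  intro Y
  let f : Y →* X ⧸ N := (QuotientGroup.mk' N).comp Y.subtype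
  refine (hK Y f.ker).trans (Nat.mul_le_mul ?_ ?_)
  · let g : f.ker →* N := (Y.subtype.comp f.ker.subtype).codRestrict N (fun x => by
      have hx := x.2
      rw [MonoidHom.mem_ker] at hx
      exact (QuotientGroup.eq_one_iff _).1 hx)
    have hg : Function.Injective g := by
      intro x y hxy
      apply Subtype.ext
      apply Subtype.ext
      exact congrArg (fun z : N => (z : X)) hxy
    exact card_le_of_inj h1 g hg
  · exact card_le_of_inj h2 (QuotientGroup.kerLift f) (QuotientGroup.kerLift_injective f)

-- Y0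
theorem y0 (hK : K1S) : Y0S := by
  intro C _ _ C' E _ _ _ _ _ a b hE ha hb
  let F := Cfsg.fittingSubgroup C
  let π : C →* C ⧸ F := QuotientGroup.mk' F
  have hπ : Function.Surjective π := QuotientGroup.mk'_surjective F
  let N : Subgroup (C ⧸ F) := C'.map π
  have : N.Normal := Subgroup.Normal.map inferInstance π hπ
  refine mul hK N ?_ ?_
  · let g : C' →* N := π.subgroupMap C'
    have hg : Function.Surjective g := π.subgroupMap_surjective C'
    have hk : ∀ x ∈ Cfsg.fittingSubgroup C', g x = 1 := by
      intro x hx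
      apply Subtype.ext
      show π (x : C) = 1
      exact (QuotientGroup.eq_one_iff _).2 (Cores.map_fittingSubgroup_subtype_le C' ⟨x, hx, rfl⟩)
    refine of_surj (QuotientGroup.lift _ g hk) ?_ ha
    intro y
    obtain ⟨x, hx⟩ := hg y
    exact ⟨QuotientGroup.mk x, hx⟩
  · have hEF : E ≤ F := Cores.le_fittingSubgroup inferInstance hE
    let g : C →* (C ⧸ F) ⧸ N := (QuotientGroup.mk' N).comp π
    have hg : Function.Surjective g := (QuotientGroup.mk'_surjective N).comp hπ
    have hk : C' ⊔ E ≤ g.ker := by
      refine sup_le ?_ ?_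
      · intro x hx
        rw [MonoidHom.mem_ker]
        exact (QuotientGroup.eq_one_iff _).2 ⟨x, hx, rfl⟩
      · intro x hx
        rw [MonoidHom.mem_ker]
        have : π x = 1 := (QuotientGroup.eq_one_iff _).2 (hEF hx)
        show QuotientGroup.mk' N (π x) = 1
        rw [this, map_one]
    refine of_surj (QuotientGroup.lift _ g (fun x hx => hk hx)) ?_ hb
    intro y
    obtain ⟨x, hx⟩ := hg y
    exact ⟨QuotientGroup.mk x, hx⟩

end Cfsg.Agent.Lib.H55Y0
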