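import Cfsg.Agent.Lib.H55KR3
import Cfsg.Agent.Lib.Fitting

/-!
S4265, piece Y1: the induction over normal subgroups (helper18).
-/

set_option autoImplicit false

namespace Cfsg.Agent.Lib.H55Y1

open Cfsg.Agent.Lib.H55KR Subgroup
open scoped commutatorElement

theorem kb_mono {X : Type} [Group X] {a b : ℕ} (h : KB X a) (hab : a ≤ b) : KB X b :=
  fun Y => (h Y).trans hab

theorem conj_card_congr {X Y : Type} [Group X] [Group Y] (e : X ≃* Y) :
    Nat.card (ConjClasses X) = Nat.card (ConjClasses Y) := by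
  refine Nat.card_congr ⟨ConjClasses.map e.toMonoidHom, ConjClasses.map e.symm.toMonoidHom, ?_, ?_⟩
  · intro c
    induction c using Quotient.inductionOn with
    | _ x =>
      change ConjClasses.mk (e.symm (e x)) = ConjClasses.mk x
      rw [e.symm_apply_apply]
  · intro c
    induction c using Quotient.inductionOn with
    | _ x =>
      change ConjClasses.mk (e (e.symm x)) = ConjClasses.mk x
      rw [e.apply_symm_apply]

theorem kb_inj {X Y : Type} [Group X] [Group Y] (f : X →* Y) (hf : Function.Injective f) {b : ℕ}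
    (h : KB Y b) : KB X b := by
  intro S
  rw [conj_card_congr (S.equivMapOfInjective f hf)]
  exact h _

theorem kb_fit {X Y : Type} [Group X] [Group Y] (e : X ≃* Y) [(Cfsg.fittingSubgroup X).Normal]
    [(Cfsg.fittingSubgroup Y).Normal] {b : ℕ} (h : KB (Y ⧸ Cfsg.fittingSubgroup Y) b) :
    KB (X ⧸ Cfsg.fittingSubgroup X) b := by
  have he : (Cfsg.fittingSubgroup X).map e.toMonoidHom = Cfsg.fittingSubgroup Y :=
    Cfsg.Agent.Lib.Fitting.map_fittingSubgroup_equiv e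
  exact kb_inj (QuotientGroup.congr _ _ e he).toMonoidHom (QuotientGroup.congr _ _ e he).injective h

theorem kb_subsingleton {X : Type} [Group X] [Subsingleton X] {b : ℕ} (hb : 1 ≤ b) : KB X b := by
  intro Y
  have h1 : Subsingleton (ConjClasses Y) := by
    constructor
    intro a b
    induction a using Quotient.inductionOn with
    | _ x =>
      induction b using Quotient.inductionOn with
      | _ y =>
        have : x = y := Subsingleton.elim _ _
        rw [this]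
  exact (Finite.card_le_one_iff_subsingleton.mpr h1).trans hb

theorem nilp2 {X : Type} [Group X]
    (h : ∀ x y z : X, (x * y * x⁻¹ * y⁻¹) * z = z * (x * y * x⁻¹ * y⁻¹)) : Group.IsNilpotent X := by
  refine ⟨⟨2, ?_⟩⟩
  rw [eq_top_iff]
  intro x _
  rw [Subgroup.mem_upperCentralSeries_succ_iff]
  intro y
  rw [Subgroup.upperCentralSeries_one, mem_center_iff]
  intro z
  exact (h x y z).symm

theorem card_sup_mul {Y : Type} [Group Y] [Finite Y] (A B : Subgroup Y) [B.Normal] :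
    Nat.card (A ⊔ B : Subgroup Y) * Nat.card (A ⊓ B : Subgroup Y) = Nat.card A * Nat.card B := by
  have h1 := relIndex_mul_relIndex (⊥ : Subgroup Y) B (A ⊔ B) bot_le le_sup_right
  have h2 := relIndex_mul_relIndex (⊥ : Subgroup Y) (A ⊓ B) A bot_le inf_le_left
  rw [relIndex_bot_left, relIndex_bot_left] at h1 h2
  rw [relIndex_sup_right] at h1
  rw [inf_relIndex_left] at h2
  rw [← h1, ← h2]; ring

/-- a chief factor over the centre is abelian -/
theorem comm_mem {G : Type} [Group G] [Finite G] (hs : Group.IsSolvable G) {Z E : Subgroup G}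
    (h : CF G Z E) : ∀ x ∈ E, ∀ y ∈ E, x * y * x⁻¹ * y⁻¹ ∈ Z := by
  have hEn := h.nor
  have hZn : Z.Normal := ⟨fun z hz g => by
    have h1 := mem_center_iff.mp (h.cen hz) g
    rw [h1, mul_assoc, mul_inv_cancel, mul_one]
    exact hz⟩
  have hcent : ∀ z ∈ Z, ∀ g : G, g * z = z * g := fun z hz g => mem_center_iff.mp (h.cen hz) g
  have hD : ⁅E, E⁆ ≤ E := commutator_le_left _ _
  intro x hx y hy
  have hxy : x * y * x⁻¹ * y⁻¹ ∈ ⁅E, E⁆ := commutator_mem_commutator hx hy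
  rcases h.min (⁅E, E⁆ ⊔ Z) inferInstance le_sup_right (sup_le hD h.lt.le) with h1 | h1
  · have h2 : x * y * x⁻¹ * y⁻¹ ∈ ⁅E, E⁆ ⊔ Z := (le_sup_left : ⁅E, E⁆ ≤ ⁅E, E⁆ ⊔ Z) hxy
    rw [h1] at h2
    exact h2
  · exfalso
    have h2 : ⁅E, E⁆ ≤ ⁅⁅E, E⁆, ⁅E, E⁆⁆ := by
      refine commutator_le.mpr ?_
      intro a ha b hb
      rw [← h1] at ha hb
      obtain ⟨a1, ha1, z1, hz1, rfl⟩ := mem_sup_of_normal_right.mp ha
      obtain ⟨b1, hb1, z2, hz2, rfl⟩ := mem_sup_of_normal_right.mp hb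
      have e1 : ⁅a1 * z1, b1 * z2⁆ = ⁅a1, b1⁆ := by
        rw [commutatorElement_def, commutatorElement_def, mul_inv_rev, mul_inv_rev]
        have c1 := hcent z1 hz1
        have c2 := hcent z2 hz2
        calc a1 * z1 * (b1 * z2) * (z1⁻¹ * a1⁻¹) * (z2⁻¹ * b1⁻¹)
            = a1 * (z1 * b1) * (z2 * z1⁻¹) * a1⁻¹ * z2⁻¹ * b1⁻¹ := by group
          _ = a1 * (b1 * z1) * (z2 * z1⁻¹) * a1⁻¹ * z2⁻¹ * b1⁻¹ := by rw [c1 b1]
          _ = a1 * b1 * (z1 * z2) * z1⁻¹ * a1⁻¹ * z2⁻¹ * b1⁻¹ := by group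
          _ = a1 * b1 * (z2 * z1) * z1⁻¹ * a1⁻¹ * z2⁻¹ * b1⁻¹ := by rw [c2 z1]
          _ = a1 * b1 * (z2 * a1⁻¹) * z2⁻¹ * b1⁻¹ := by group
          _ = a1 * b1 * (a1⁻¹ * z2) * z2⁻¹ * b1⁻¹ := by rw [c2 a1⁻¹]
          _ = a1 * b1 * a1⁻¹ * b1⁻¹ := by group
      rw [e1]
      exact commutator_mem_commutator ha1 hb1
    have h3 : ⁅E, E⁆ = ⊥ := by
      by_contra hne
      have h4 := Group.IsSolvable.commutator_lt_of_ne_bot hne
      exact absurd h2 (not_le_of_gt h4)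
    rw [h3, bot_sup_eq] at h1
    exact h.lt.ne h1

theorem main (hX : XS) (hX2 : X2S) (hY0 : Y0S) {G : Type} [Group G] [Finite G]
    (hs : Group.IsSolvable G) (Z : Subgroup G) (hc : Z ≤ Subgroup.center G) (hcyc : IsCyclic Z)
    (hZ : ∀ A : Subgroup G, A.Normal → (∀ x ∈ A, ∀ y ∈ A, x * y = y * x) → A ≤ Z) :
    ∀ m : ℕ, ∀ C : Subgroup G, C.Normal → Z ≤ C → Nat.card C = m →
    ∃ (d : ℕ) (B : Subgroup G), 1 ≤ d ∧ Z ≤ B ∧ B ≤ C ∧ Nat.card B = d ^ 2 * Nat.card Z ∧
      (∀ x ∈ B, ∀ y ∈ B, x * y * x⁻¹ * y⁻¹ ∈ Z) ∧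
      (∀ x ∈ B, (∀ y ∈ B, x * y = y * x) → x ∈ Z) ∧
      KB (C ⧸ Cfsg.fittingSubgroup C) (3 ^ (d - 1)) := by
  intro m
  induction m using Nat.strong_induction_on with
  | _ m IH =>
  intro C hCn hZC hm
  have hcent : ∀ z ∈ Z, ∀ g : G, g * z = z * g := fun z hz g => mem_center_iff.mp (hc hz) g
  by_cases hCZ : C = Z
  · subst hCZ
    refine ⟨1, C, le_rfl, le_rfl, le_rfl, by simp, ?_, fun x hx _ => hx, ?_⟩
    · intro x hx y hy
      exact C.mul_mem (C.mul_mem (C.mul_mem hx hy) (C.inv_mem hx)) (C.inv_mem hy)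
    · have h1 : Group.IsNilpotent C := by
        apply nilp2
        intro x y z
        apply Subtype.ext
        push_cast
        exact (hcent z.1 z.2 _)
      have h2 : Cfsg.fittingSubgroup C = ⊤ := by
        rw [eq_top_iff]
        refine le_sSup ⟨inferInstance, ?_⟩
        exact (Group.isNilpotent_congr (Subgroup.topEquiv (G := C))).mpr h1
      have h3 : Subsingleton (C ⧸ Cfsg.fittingSubgroup C) := by
        rw [h2]
        exact QuotientGroup.subsingleton_quotient_top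
      exact kb_subsingleton (by simp)
  have hZC' : Z < C := lt_of_le_of_ne hZC (Ne.symm hCZ)
  obtain ⟨E, hEmin⟩ := exists_minimal_of_wellFoundedLT
    (fun E : Subgroup G => E.Normal ∧ Z < E ∧ E ≤ C) ⟨C, hCn, hZC', le_rfl⟩
  have hEn : E.Normal := hEmin.prop.1
  have hZE : Z < E := hEmin.prop.2.1
  have hEC : E ≤ C := hEmin.prop.2.2
  have hZn : Z.Normal := ⟨fun z hz g => by
    have h1 := hcent z hz g
    rw [h1, mul_assoc, mul_inv_cancel, mul_one]
    exact hz⟩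
  have hself : ∀ x ∈ E, (∀ y ∈ E, x * y = y * x) → x ∈ Z := by
    intro x hx hxc
    have hAn : (E ⊓ Subgroup.centralizer (E : Set G)).Normal := inferInstance
    refine hZ _ hAn (fun a ha b hb => ?_) ⟨hx, mem_centralizer_iff.mpr fun y hy => (hxc y hy).symm⟩
    exact (mem_centralizer_iff.mp ha.2 b hb.1).symm
  have hCF : CF G Z E := by
    refine ⟨hc, hcyc, hEn, hZE, ?_, hself⟩
    intro N hN h1 h2
    by_cases h3 : N = Z
    · exact Or.inl h3
    · exact Or.inr (le_antisymm h2 (hEmin.le_of_le ⟨hN, lt_of_le_of_ne h1 (Ne.symm h3), h2.trans hEC⟩ h2))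
  have hcommE := comm_mem hs hCF
  -- the kernel
  let π : G →* G ⧸ Z := QuotientGroup.mk' Z
  have hEπ : (E.map π).Normal := hEn.map π (QuotientGroup.mk'_surjective Z)
  let K : Subgroup G := (Subgroup.centralizer ((E.map π : Subgroup (G ⧸ Z)) : Set (G ⧸ Z))).comap π
  have hKn : K.Normal := inferInstance
  have hπ : ∀ g : G, g ∈ Z ↔ π g = 1 := fun g => (QuotientGroup.eq_one_iff g).symm
  have hKer : IsKer Z E K := by
    intro g
    constructor
    · intro hg e he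
      have h1 : π e * π g = π g * π e := mem_centralizer_iff.mp hg (π e) ⟨e, he, rfl⟩
      rw [hπ, map_mul, map_mul, map_mul, map_inv, map_inv, ← h1]
      group
    · intro hg
      refine mem_centralizer_iff.mpr ?_
      rintro _ ⟨e, he, rfl⟩
      have h1 := (hπ _).mp (hg e he)
      rw [map_mul, map_mul, map_mul, map_inv, map_inv, mul_inv_eq_one, mul_inv_eq_iff_eq_mul] at h1
      exact h1.symm
  -- the centralizer part
  let C' : Subgroup G := C ⊓ Subgroup.centralizer (E : Set G)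
  have hC'n : C'.Normal := inferInstance
  have hC'C : C' ≤ C := inf_le_left
  have hZC1 : Z ≤ C' := le_inf hZC (fun z hz => mem_centralizer_iff.mpr fun y _ => hcent z hz y)
  have hC'cent : ∀ c ∈ C', ∀ e ∈ E, e * c = c * e := fun c hc' e he => mem_centralizer_iff.mp hc'.2 e he
  have hne : C' ≠ C := by
    intro h
    have h1 : E ≤ Z := by
      intro x hx
      apply hself x hx
      intro y hy
      have h2 : x ∈ C' := by rw [h]; exact hEC hx
      exact (hC'cent x h2 y hy).symm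
    exact absurd h1 (not_le_of_gt hZE)
  have hlt : Nat.card C' < m := by
    rw [← hm]
    by_contra hcon
    exact hne (Subgroup.eq_of_le_of_card_ge hC'C (not_lt.mp hcon))
  obtain ⟨d, B, hd, hZB, hBC, hcard, hcomm, hcen, hKB⟩ := IH (Nat.card C') hlt C' hC'n hZC1 rfl
  obtain ⟨u, hu, hEcard, hKBu⟩ := hX G Z E K hs hCF hKer
  have hBcent : ∀ b ∈ B, ∀ e ∈ E, e * b = b * e := fun b hb => hC'cent b (hBC hb)
  -- the product
  have hinf : B ⊓ E = Z := by
    apply le_antisymm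
    · intro x hx
      apply hself x hx.2
      intro y hy
      exact (hBcent x hx.1 y hy).symm
    · exact le_inf hZB hZE.le
  have hmem : ∀ x ∈ B ⊔ E, ∃ b ∈ B, ∃ e ∈ E, b * e = x := fun x hx => mem_sup_of_normal_right.mp hx
  have hZpos : 0 < Nat.card Z := Nat.card_pos
  -- the quotient
  have hnil : Group.IsNilpotent (E.subgroupOf C) := by
    apply nilp2
    intro x y z
    apply Subtype.ext
    apply Subtype.ext
    have h1 := hcommE (x : C) x.2 (y : C) y.2
    have h2 := hcent _ h1 (z : C)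
    push_cast
    exact h2.symm
  have hkb1 : KB ((C'.subgroupOf C) ⧸ Cfsg.fittingSubgroup (C'.subgroupOf C)) (3 ^ (d - 1)) :=
    kb_fit (Subgroup.subgroupOfEquivOfLe hC'C) hKB
  have hNiff : ∀ c : C, c ∈ C'.subgroupOf C ⊔ E.subgroupOf C ↔ (c : G) ∈ K := by
    intro c
    constructor
    · intro h
      have h1 : C'.subgroupOf C ⊔ E.subgroupOf C ≤ K.subgroupOf C := by
        refine sup_le ?_ ?_
        · intro x hx
          refine (hKer _).mpr fun e he => ?_
          have h2 : e * (x : G) = (x : G) * e := hC'cent _ hx e he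
          have h3 : (x : G) * e * (x : G)⁻¹ * e⁻¹ = 1 := by rw [← h2]; group
          change (x : G) * e * (x : G)⁻¹ * e⁻¹ ∈ Z
          rw [h3]
          exact Z.one_mem
        · intro x hx
          exact (hKer _).mpr fun e he => hcommE _ hx e he
      exact h1 h
    · intro h
      obtain ⟨e, he, h1⟩ := hX2 G Z E hCF (c : G) ((hKer _).mp h)
      have h2 : (c : G) * e ∈ C' := ⟨C.mul_mem c.2 (hEC he), mem_centralizer_iff.mpr fun y hy => (h1 y hy).symm⟩
      have h3 : c = (⟨(c : G) * e, h2.1⟩ : C) * (⟨e⁻¹, C.inv_mem (hEC he)⟩ : C) := by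
        apply Subtype.ext
        simp
      rw [h3]
      refine mul_mem ?_ ?_
      · exact (le_sup_left : C'.subgroupOf C ≤ C'.subgroupOf C ⊔ E.subgroupOf C) (mem_subgroupOf.mpr h2)
      · exact (le_sup_right : E.subgroupOf C ≤ C'.subgroupOf C ⊔ E.subgroupOf C)
          (mem_subgroupOf.mpr (E.inv_mem he))
  have hkb2 : KB (C ⧸ (C'.subgroupOf C ⊔ E.subgroupOf C)) (3 ^ (u - 1)) := by
    have hker : ∀ c ∈ C'.subgroupOf C ⊔ E.subgroupOf C, ((QuotientGroup.mk' K).comp C.subtype) c = 1 := by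
      intro c hc'
      exact (QuotientGroup.eq_one_iff (c : G)).mpr ((hNiff c).mp hc')
    refine kb_inj (QuotientGroup.lift _ ((QuotientGroup.mk' K).comp C.subtype) hker) ?_ hKBu
    rw [injective_iff_map_eq_one]
    intro q
    induction q using QuotientGroup.induction_on with
    | _ c =>
      intro h
      have h1 : ((c : G) : G ⧸ K) = 1 := h
      exact (QuotientGroup.eq_one_iff c).mpr ((hNiff c).mpr ((QuotientGroup.eq_one_iff (c : G)).mp h1))
  have hkb := hY0 C (C'.subgroupOf C) (E.subgroupOf C) (3 ^ (d - 1)) (3 ^ (u - 1)) hnil hkb1 hkb2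
  refine ⟨d * u, B ⊔ E, ?_, hZB.trans le_sup_left, sup_le (hBC.trans hC'C) hEC, ?_, ?_, ?_, ?_⟩
  · nlinarith
  · have h1 := card_sup_mul B E
    rw [hinf, hcard, hEcard] at h1
    have h2 : Nat.card (B ⊔ E : Subgroup G) * Nat.card Z = ((d * u) ^ 2 * Nat.card Z) * Nat.card Z := by
      rw [h1]; ring
    exact Nat.eq_of_mul_eq_mul_right hZpos h2
  · intro x hx y hy
    obtain ⟨b1, hb1, e1, he1, rfl⟩ := hmem x hx
    obtain ⟨b2, hb2, e2, he2, rfl⟩ := hmem y hy
    have c12 := hBcent b2 hb2 e1 he1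
    have c11 := hBcent b1⁻¹ (B.inv_mem hb1)
    have c22 := hBcent b2⁻¹ (B.inv_mem hb2)
    have key : b1 * e1 * (b2 * e2) * (b1 * e1)⁻¹ * (b2 * e2)⁻¹ =
        (b1 * b2 * b1⁻¹ * b2⁻¹) * (e1 * e2 * e1⁻¹ * e2⁻¹) := by
      calc b1 * e1 * (b2 * e2) * (b1 * e1)⁻¹ * (b2 * e2)⁻¹
          = b1 * (e1 * b2) * ((e2 * e1⁻¹) * b1⁻¹) * e2⁻¹ * b2⁻¹ := by group
        _ = b1 * (b2 * e1) * (b1⁻¹ * (e2 * e1⁻¹)) * e2⁻¹ * b2⁻¹ := by
            rw [c12, c11 (e2 * e1⁻¹) (E.mul_mem he2 (E.inv_mem he1))]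
        _ = b1 * b2 * (e1 * b1⁻¹) * ((e2 * e1⁻¹ * e2⁻¹) * b2⁻¹) := by group
        _ = b1 * b2 * (b1⁻¹ * e1) * (b2⁻¹ * (e2 * e1⁻¹ * e2⁻¹)) := by
            rw [c11 e1 he1, c22 (e2 * e1⁻¹ * e2⁻¹)
              (E.mul_mem (E.mul_mem he2 (E.inv_mem he1)) (E.inv_mem he2))]
        _ = b1 * b2 * b1⁻¹ * (e1 * b2⁻¹) * (e2 * e1⁻¹ * e2⁻¹) := by group
        _ = b1 * b2 * b1⁻¹ * (b2⁻¹ * e1) * (e2 * e1⁻¹ * e2⁻¹) := by rw [c22 e1 he1]
        _ = (b1 * b2 * b1⁻¹ * b2⁻¹) * (e1 * e2 * e1⁻¹ * e2⁻¹) := by group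
    rw [key]
    exact Z.mul_mem (hcomm b1 hb1 b2 hb2) (hcommE e1 he1 e2 he2)
  · intro x hx hxc
    obtain ⟨b, hb, e, he, rfl⟩ := hmem x hx
    have h1 : e ∈ Z := by
      apply hself e he
      intro y hy
      have h2 := hxc y ((le_sup_right : E ≤ B ⊔ E) hy)
      -- b * e * y = y * (b * e)
      have h3 : y * (b * e) = b * (y * e) := by
        rw [← mul_assoc, hBcent b hb y hy, mul_assoc]
      rw [h3, mul_assoc] at h2
      exact mul_left_cancel h2
    have h4 : b ∈ Z := by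
      apply hcen b hb
      intro y hy
      have h2 := hxc y ((le_sup_left : B ≤ B ⊔ E) hy)
      -- b * e * y = y * (b * e)
      have h3 : b * e * y = b * y * e := by
        rw [mul_assoc, hBcent y hy e he, mul_assoc]
      rw [h3, ← mul_assoc] at h2
      exact mul_right_cancel h2
    exact Z.mul_mem h4 h1
  · refine kb_mono hkb ?_
    rw [← pow_add]
    apply Nat.pow_le_pow_right (by norm_num)
    obtain ⟨d', rfl⟩ : ∃ d', d = d' + 1 := ⟨d - 1, by omega⟩
    obtain ⟨u', rfl⟩ : ∃ u', u = u' + 1 := ⟨u - 1, by omega⟩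
    have : (d' + 1) * (u' + 1) = d' * u' + d' + u' + 1 := by ring
    rw [this]
    have h0 : 0 ≤ d' * u' := Nat.zero_le _
    omega

-- Y1 : induction
set_option linter.unusedVariables false in
theorem y1 (hK : K1S) (hX : XS) (hX2 : X2S) (hY0 : Y0S) {G : Type} [Group G] [Finite G]
    [(Cfsg.fittingSubgroup G).Normal]
    (hs : Group.IsSolvable G) (Z : Subgroup G) (hc : Z ≤ Subgroup.center G) (hcyc : IsCyclic Z)
    (hZ : ∀ A : Subgroup G, A.Normal → (∀ x ∈ A, ∀ y ∈ A, x * y = y * x) → A ≤ Z) :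
    ∃ (d : ℕ) (B : Subgroup G), 1 ≤ d ∧ Z ≤ B ∧ Nat.card B = d ^ 2 * Nat.card Z ∧
      (∀ x ∈ B, ∀ y ∈ B, x * y * x⁻¹ * y⁻¹ ∈ Z) ∧
      (∀ x ∈ B, (∀ y ∈ B, x * y = y * x) → x ∈ Z) ∧
      KB (G ⧸ Cfsg.fittingSubgroup G) (3 ^ (d - 1)) := by
  obtain ⟨d, B, h1, h2, -, h4, h5, h6, h7⟩ := main hX hX2 hY0 hs Z hc hcyc hZ _ ⊤ inferInstance le_top rfl
  exact ⟨d, B, h1, h2, h4, h5, h6, kb_fit (Subgroup.topEquiv (G := G)).symm h7⟩

end Cfsg.Agent.Lib.H55Y1
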