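import Cfsg.Agent.Lib.H55KS
import Cfsg.Agent.Lib.H55Y0
import Cfsg.Agent.Lib.H55Y1

/-!
S4990, piece B1: the induction over normal subgroups, class-two version (helper43, adapted from
H55Y1 of helper18).
-/

set_option autoImplicit false

namespace Cfsg.Agent.Lib.H55B1

open Cfsg.Agent.Lib.H55KR Subgroup
open scoped commutatorElement
open Cfsg.Agent.Lib.H55Y1 (kb_mono kb_inj kb_subsingleton card_sup_mul comm_mem)

theorem step (hK : K1S) {C D : Type} [Group C] [Finite C] [Group D] [Finite D] (i : D →* C)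
    (R E F : Subgroup C) [R.Normal] [F.Normal] [(R ⊔ E).Normal] (hR : i.range = R)
    (B' : Subgroup D) [B'.Normal] (h1 : ∀ x ∈ B', i x ∈ F) (h2 : E ≤ F) {a b : ℕ}
    (ha : KB (D ⧸ B') a) (hb : KB (C ⧸ (R ⊔ E)) b) : KB (C ⧸ F) (a * b) := by
  let π : C →* C ⧸ F := QuotientGroup.mk' F
  have hπ : Function.Surjective π := QuotientGroup.mk'_surjective F
  let N : Subgroup (C ⧸ F) := R.map π
  have : N.Normal := Subgroup.Normal.map inferInstance π hπ
  refine H55Y0.mul hK N ?_ ?_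
  · have hmem : ∀ x : D, (π.comp i) x ∈ N := fun x => ⟨i x, by rw [← hR]; exact ⟨x, rfl⟩, rfl⟩
    let g : D →* N := (π.comp i).codRestrict N hmem
    have hg : Function.Surjective g := by
      rintro ⟨_, ⟨r, hr, rfl⟩⟩
      have hr' : r ∈ i.range := by rw [hR]; exact hr
      obtain ⟨x, rfl⟩ := hr'
      exact ⟨x, rfl⟩
    have hk : ∀ x ∈ B', g x = 1 := by
      intro x hx
      apply Subtype.ext
      show π (i x) = 1
      exact (QuotientGroup.eq_one_iff _).2 (h1 x hx)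
    refine H55Y0.of_surj (QuotientGroup.lift _ g hk) ?_ ha
    intro y
    obtain ⟨x, hx⟩ := hg y
    exact ⟨QuotientGroup.mk x, hx⟩
  · let g : C →* (C ⧸ F) ⧸ N := (QuotientGroup.mk' N).comp π
    have hg : Function.Surjective g := (QuotientGroup.mk'_surjective N).comp hπ
    have hk : R ⊔ E ≤ g.ker := by
      refine sup_le ?_ ?_
      · intro x hx
        rw [MonoidHom.mem_ker]
        exact (QuotientGroup.eq_one_iff _).2 ⟨x, hx, rfl⟩
      · intro x hx
        rw [MonoidHom.mem_ker]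
        have : π x = 1 := (QuotientGroup.eq_one_iff _).2 (h2 hx)
        show QuotientGroup.mk' N (π x) = 1
        rw [this, map_one]
    refine H55Y0.of_surj (QuotientGroup.lift _ g (fun x hx => hk hx)) ?_ hb
    intro y
    obtain ⟨x, hx⟩ := hg y
    exact ⟨QuotientGroup.mk x, hx⟩

theorem main (hK : K1S) (hX : XS) (hX2 : X2S) {G : Type} [Group G] [Finite G]
    (hs : Group.IsSolvable G) (Z : Subgroup G) (hc : Z ≤ Subgroup.center G) (hcyc : IsCyclic Z)
    (hZ : ∀ A : Subgroup G, A.Normal → (∀ x ∈ A, ∀ y ∈ A, x * y = y * x) → A ≤ Z) :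
    ∀ m : ℕ, ∀ C : Subgroup G, C.Normal → Z ≤ C → Nat.card C = m →
    ∃ (d : ℕ) (B : Subgroup G) (_ : B.Normal), 1 ≤ d ∧ Z ≤ B ∧ B ≤ C ∧ Nat.card B = d ^ 2 * Nat.card Z ∧
      (∀ x ∈ B, ∀ y ∈ B, x * y * x⁻¹ * y⁻¹ ∈ Z) ∧
      (∀ x ∈ B, (∀ y ∈ B, x * y = y * x) → x ∈ Z) ∧
      KB (C ⧸ B.subgroupOf C) (3 ^ (d - 1)) := by
  intro m
  induction m using Nat.strong_induction_on with
  | _ m IH =>
  intro C hCn hZC hm
  have hcent : ∀ z ∈ Z, ∀ g : G, g * z = z * g := fun z hz g => mem_center_iff.mp (hc hz) g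
  by_cases hCZ : C = Z
  · subst hCZ
    refine ⟨1, C, hCn, le_rfl, le_rfl, le_rfl, by simp, ?_, fun x hx _ => hx, ?_⟩
    · intro x hx y hy
      exact C.mul_mem (C.mul_mem (C.mul_mem hx hy) (C.inv_mem hx)) (C.inv_mem hy)
    · have h3 : Subsingleton (C ⧸ C.subgroupOf C) := by
        rw [Subgroup.subgroupOf_self]
        exact QuotientGroup.subsingleton_quotient_top
      exact kb_subsingleton (by simp)
  have hZC' : Z < C := lt_of_le_of_ne hZC (Ne.symm hCZ)
  obtain ⟨E, hEmin⟩ := exists_minimal_of_wellFoundedLT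
    (fun E : Subgroup G => E.Normal ∧ Z < E ∧ E ≤ C) ⟨C, hCn, hZC', le_rfl⟩
  have hEn : E.Normal := hEmin.prop.1
  have hZE : Z < E := hEmin.prop.2.1
  have hEC : E ≤ C := hEmin.prop.2.2
  have hZn : Z.Normal := ⟨fun z hz g => by
    have h1 := hcent z hz g
    rw [h1, mul_assoc, mul_inv_cancel, mul_one]
    exact hz⟩
  have hself : ∀ x ∈ E, (∀ y ∈ E, x * y = y * x) → x ∈ Z := by
    intro x hx hxc
    have hAn : (E ⊓ Subgroup.centralizer (E : Set G)).Normal := inferInstance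
    refine hZ _ hAn (fun a ha b hb => ?_) ⟨hx, mem_centralizer_iff.mpr fun y hy => (hxc y hy).symm⟩
    exact (mem_centralizer_iff.mp ha.2 b hb.1).symm
  have hCF : CF G Z E := by
    refine ⟨hc, hcyc, hEn, hZE, ?_, hself⟩
    intro N hN h1 h2
    by_cases h3 : N = Z
    · exact Or.inl h3
    · exact Or.inr (le_antisymm h2 (hEmin.le_of_le ⟨hN, lt_of_le_of_ne h1 (Ne.symm h3), h2.trans hEC⟩ h2))
  have hcommE := comm_mem hs hCF
  -- the kernel
  let π : G →* G ⧸ Z := QuotientGroup.mk' Z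
  have hEπ : (E.map π).Normal := hEn.map π (QuotientGroup.mk'_surjective Z)
  let K : Subgroup G := (Subgroup.centralizer ((E.map π : Subgroup (G ⧸ Z)) : Set (G ⧸ Z))).comap π
  have hKn : K.Normal := inferInstance
  have hπ : ∀ g : G, g ∈ Z ↔ π g = 1 := fun g => (QuotientGroup.eq_one_iff g).symm
  have hKer : IsKer Z E K := by
    intro g
    constructor
    · intro hg e he
      have h1 : π e * π g = π g * π e := mem_centralizer_iff.mp hg (π e) ⟨e, he, rfl⟩
      rw [hπ, map_mul, map_mul, map_mul, map_inv, map_inv, ← h1]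
      group
    · intro hg
      refine mem_centralizer_iff.mpr ?_
      rintro _ ⟨e, he, rfl⟩
      have h1 := (hπ _).mp (hg e he)
      rw [map_mul, map_mul, map_mul, map_inv, map_inv, mul_inv_eq_one, mul_inv_eq_iff_eq_mul] at h1
      exact h1.symm
  -- the centralizer part
  let C' : Subgroup G := C ⊓ Subgroup.centralizer (E : Set G)
  have hC'n : C'.Normal := inferInstance
  have hC'C : C' ≤ C := inf_le_left
  have hZC1 : Z ≤ C' := le_inf hZC (fun z hz => mem_centralizer_iff.mpr fun y _ => hcent z hz y)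
  have hC'cent : ∀ c ∈ C', ∀ e ∈ E, e * c = c * e := fun c hc' e he => mem_centralizer_iff.mp hc'.2 e he
  have hne : C' ≠ C := by
    intro h
    have h1 : E ≤ Z := by
      intro x hx
      apply hself x hx
      intro y hy
      have h2 : x ∈ C' := by rw [h]; exact hEC hx
      exact (hC'cent x h2 y hy).symm
    exact absurd h1 (not_le_of_gt hZE)
  have hlt : Nat.card C' < m := by
    rw [← hm]
    by_contra hcon
    exact hne (Subgroup.eq_of_le_of_card_ge hC'C (not_lt.mp hcon))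
  obtain ⟨d, B, hBn, hd, hZB, hBC, hcard, hcomm, hcen, hKB⟩ := IH (Nat.card C') hlt C' hC'n hZC1 rfl
  obtain ⟨u, hu, hEcard, hKBu⟩ := hX G Z E K hs hCF hKer
  have hBcent : ∀ b ∈ B, ∀ e ∈ E, e * b = b * e := fun b hb => hC'cent b (hBC hb)
  -- the product
  have hinf : B ⊓ E = Z := by
    apply le_antisymm
    · intro x hx
      apply hself x hx.2
      intro y hy
      exact (hBcent x hx.1 y hy).symm
    · exact le_inf hZB hZE.le
  have hmem : ∀ x ∈ B ⊔ E, ∃ b ∈ B, ∃ e ∈ E, b * e = x := fun x hx => mem_sup_of_normal_right.mp hx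
  have hZpos : 0 < Nat.card Z := Nat.card_pos
  -- the quotient
  have hNiff : ∀ c : C, c ∈ C'.subgroupOf C ⊔ E.subgroupOf C ↔ (c : G) ∈ K := by
    intro c
    constructor
    · intro h
      have h1 : C'.subgroupOf C ⊔ E.subgroupOf C ≤ K.subgroupOf C := by
        refine sup_le ?_ ?_
        · intro x hx
          refine (hKer _).mpr fun e he => ?_
          have h2 : e * (x : G) = (x : G) * e := hC'cent _ hx e he
          have h3 : (x : G) * e * (x : G)⁻¹ * e⁻¹ = 1 := by rw [← h2]; group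
          change (x : G) * e * (x : G)⁻¹ * e⁻¹ ∈ Z
          rw [h3]
          exact Z.one_mem
        · intro x hx
          exact (hKer _).mpr fun e he => hcommE _ hx e he
      exact h1 h
    · intro h
      obtain ⟨e, he, h1⟩ := hX2 G Z E hCF (c : G) ((hKer _).mp h)
      have h2 : (c : G) * e ∈ C' := ⟨C.mul_mem c.2 (hEC he), mem_centralizer_iff.mpr fun y hy => (h1 y hy).symm⟩
      have h3 : c = (⟨(c : G) * e, h2.1⟩ : C) * (⟨e⁻¹, C.inv_mem (hEC he)⟩ : C) := by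
        apply Subtype.ext
        simp
      rw [h3]
      refine mul_mem ?_ ?_
      · exact (le_sup_left : C'.subgroupOf C ≤ C'.subgroupOf C ⊔ E.subgroupOf C) (mem_subgroupOf.mpr h2)
      · exact (le_sup_right : E.subgroupOf C ≤ C'.subgroupOf C ⊔ E.subgroupOf C)
          (mem_subgroupOf.mpr (E.inv_mem he))
  have hkb2 : KB (C ⧸ (C'.subgroupOf C ⊔ E.subgroupOf C)) (3 ^ (u - 1)) := by
    have hker : ∀ c ∈ C'.subgroupOf C ⊔ E.subgroupOf C, ((QuotientGroup.mk' K).comp C.subtype) c = 1 := by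
      intro c hc'
      exact (QuotientGroup.eq_one_iff (c : G)).mpr ((hNiff c).mp hc')
    refine kb_inj (QuotientGroup.lift _ ((QuotientGroup.mk' K).comp C.subtype) hker) ?_ hKBu
    rw [injective_iff_map_eq_one]
    intro q
    induction q using QuotientGroup.induction_on with
    | _ c =>
      intro h
      have h1 : ((c : G) : G ⧸ K) = 1 := h
      exact (QuotientGroup.eq_one_iff c).mpr ((hNiff c).mpr ((QuotientGroup.eq_one_iff (c : G)).mp h1))
  have hBEn : (B ⊔ E).Normal := inferInstance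
  have hkb : KB (C ⧸ (B ⊔ E).subgroupOf C) (3 ^ (d - 1) * 3 ^ (u - 1)) := by
    refine step hK (Subgroup.inclusion hC'C) (C'.subgroupOf C) (E.subgroupOf C)
      ((B ⊔ E).subgroupOf C) (Subgroup.inclusion_range hC'C) (B.subgroupOf C') ?_ ?_ hKB hkb2
    · intro x hx
      exact mem_subgroupOf.mpr ((le_sup_left : B ≤ B ⊔ E) (mem_subgroupOf.mp hx))
    · intro x hx
      exact mem_subgroupOf.mpr ((le_sup_right : E ≤ B ⊔ E) (mem_subgroupOf.mp hx))
  refine ⟨d * u, B ⊔ E, hBEn, ?_, hZB.trans le_sup_left, sup_le (hBC.trans hC'C) hEC, ?_, ?_, ?_, ?_⟩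
  · nlinarith
  · have h1 := card_sup_mul B E
    rw [hinf, hcard, hEcard] at h1
    have h2 : Nat.card (B ⊔ E : Subgroup G) * Nat.card Z = ((d * u) ^ 2 * Nat.card Z) * Nat.card Z := by
      rw [h1]; ring
    exact Nat.eq_of_mul_eq_mul_right hZpos h2
  · intro x hx y hy
    obtain ⟨b1, hb1, e1, he1, rfl⟩ := hmem x hx
    obtain ⟨b2, hb2, e2, he2, rfl⟩ := hmem y hy
    have c12 := hBcent b2 hb2 e1 he1
    have c11 := hBcent b1⁻¹ (B.inv_mem hb1)
    have c22 := hBcent b2⁻¹ (B.inv_mem hb2)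
    have key : b1 * e1 * (b2 * e2) * (b1 * e1)⁻¹ * (b2 * e2)⁻¹ =
        (b1 * b2 * b1⁻¹ * b2⁻¹) * (e1 * e2 * e1⁻¹ * e2⁻¹) := by
      calc b1 * e1 * (b2 * e2) * (b1 * e1)⁻¹ * (b2 * e2)⁻¹
          = b1 * (e1 * b2) * ((e2 * e1⁻¹) * b1⁻¹) * e2⁻¹ * b2⁻¹ := by group
        _ = b1 * (b2 * e1) * (b1⁻¹ * (e2 * e1⁻¹)) * e2⁻¹ * b2⁻¹ := by
            rw [c12, c11 (e2 * e1⁻¹) (E.mul_mem he2 (E.inv_mem he1))]
        _ = b1 * b2 * (e1 * b1⁻¹) * ((e2 * e1⁻¹ * e2⁻¹) * b2⁻¹) := by group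
        _ = b1 * b2 * (b1⁻¹ * e1) * (b2⁻¹ * (e2 * e1⁻¹ * e2⁻¹)) := by
            rw [c11 e1 he1, c22 (e2 * e1⁻¹ * e2⁻¹)
              (E.mul_mem (E.mul_mem he2 (E.inv_mem he1)) (E.inv_mem he2))]
        _ = b1 * b2 * b1⁻¹ * (e1 * b2⁻¹) * (e2 * e1⁻¹ * e2⁻¹) := by group
        _ = b1 * b2 * b1⁻¹ * (b2⁻¹ * e1) * (e2 * e1⁻¹ * e2⁻¹) := by rw [c22 e1 he1]
        _ = (b1 * b2 * b1⁻¹ * b2⁻¹) * (e1 * e2 * e1⁻¹ * e2⁻¹) := by group
    rw [key]
    exact Z.mul_mem (hcomm b1 hb1 b2 hb2) (hcommE e1 he1 e2 he2)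
  · intro x hx hxc
    obtain ⟨b, hb, e, he, rfl⟩ := hmem x hx
    have h1 : e ∈ Z := by
      apply hself e he
      intro y hy
      have h2 := hxc y ((le_sup_right : E ≤ B ⊔ E) hy)
      -- b * e * y = y * (b * e)
      have h3 : y * (b * e) = b * (y * e) := by
        rw [← mul_assoc, hBcent b hb y hy, mul_assoc]
      rw [h3, mul_assoc] at h2
      exact mul_left_cancel h2
    have h4 : b ∈ Z := by
      apply hcen b hb
      intro y hy
      have h2 := hxc y ((le_sup_left : B ≤ B ⊔ E) hy)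
      -- b * e * y = y * (b * e)
      have h3 : b * e * y = b * y * e := by
        rw [mul_assoc, hBcent y hy e he, mul_assoc]
      rw [h3, ← mul_assoc] at h2
      exact mul_right_cancel h2
    exact Z.mul_mem h4 h1
  · refine kb_mono hkb ?_
    rw [← pow_add]
    apply Nat.pow_le_pow_right (by norm_num)
    obtain ⟨d', rfl⟩ : ∃ d', d = d' + 1 := ⟨d - 1, by omega⟩
    obtain ⟨u', rfl⟩ : ∃ u', u = u' + 1 := ⟨u - 1, by omega⟩
    have : (d' + 1) * (u' + 1) = d' * u' + d' + u' + 1 := by ring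
    rw [this]
    have h0 : 0 ≤ d' * u' := Nat.zero_le _
    omega

/-- piece B1 -/
theorem b1 (hK : K1S) (hX : XS) (hX2 : X2S) {G : Type} [Group G] [Finite G]
    (hs : Group.IsSolvable G) (Z : Subgroup G) (hc : Z ≤ Subgroup.center G) (hcyc : IsCyclic Z)
    (hZ : ∀ A : Subgroup G, A.Normal → (∀ x ∈ A, ∀ y ∈ A, x * y = y * x) → A ≤ Z) :
    ∃ (d : ℕ) (B : Subgroup G) (_ : B.Normal), 1 ≤ d ∧ Z ≤ B ∧ Nat.card B = d ^ 2 * Nat.card Z ∧
      (∀ x ∈ B, ∀ y ∈ B, x * y * x⁻¹ * y⁻¹ ∈ Z) ∧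
      (∀ x ∈ B, (∀ y ∈ B, x * y = y * x) → x ∈ Z) ∧
      KB (G ⧸ B) (3 ^ (d - 1)) := by
  obtain ⟨d, B, hn, h1, h2, -, h4, h5, h6, h7⟩ := main hK hX hX2 hs Z hc hcyc hZ _ ⊤ inferInstance le_top rfl
  refine ⟨d, B, hn, h1, h2, h4, h5, h6, ?_⟩
  have he : B.map (Subgroup.topEquiv (G := G)).symm.toMonoidHom = B.subgroupOf ⊤ := by
    ext x
    constructor
    · rintro ⟨y, hy, rfl⟩
      exact mem_subgroupOf.mpr hy
    · intro hx
      exact ⟨x.1, mem_subgroupOf.mp hx, rfl⟩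
  exact kb_inj (QuotientGroup.congr _ _ (Subgroup.topEquiv (G := G)).symm he).toMonoidHom
    (QuotientGroup.congr _ _ (Subgroup.topEquiv (G := G)).symm he).injective h7

end Cfsg.Agent.Lib.H55B1
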