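import Cfsg.Agent.Lib.H55KS
import Cfsg.Agent.Lib.H16PS

/-! S4990, piece B10: Fong--Reynolds, number of characters. -/

set_option autoImplicit false
set_option linter.all false

namespace Cfsg.Agent.Lib.H55B10

open Cfsg Cfsg.Agent.Lib Cfsg.Agent.Lib.BlockRing Cfsg.Agent.Lib.BlockGA Cfsg.Agent.Lib.BlockIdem
open Cfsg.Agent.Lib.BlockDefect Cfsg.Agent.Lib.CharBasic Cfsg.Agent.Lib.BlockDeg
open Cfsg.Agent.Lib.Clifford Cfsg.Agent.Lib.CliffordCorr
open Cfsg.Agent.Lib.BlockCover Cfsg.Agent.Lib.BlockKnorr Cfsg.Agent.Lib.BlockFong Cfsg.Agent.Lib.BlockInd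
open Cfsg.Agent.Lib.H55KR

universe u

theorem b10 {p : ℕ} [hp : Fact p.Prime] {M : Ideal AlgInt} (hM : IsPModular p M) {G : Type u} [Group G]
    [Fintype G] {N : Subgroup G} [hNn : N.Normal] [Fintype N] {b : Set (IrrCharacter N)}
    (hb : IsPBlock M b) {B : Set (IrrCharacter G)} (hB : IsPBlock M B) (hcov : Covers B b) :
    ∃ B' : Set (IrrCharacter (stabT (G := G) b)), IsPBlock M B' ∧ blockDefect p B' = blockDefect p B ∧
      Set.ncard B ≤ Set.ncard B' := by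
  classical
  haveI := isPrime hM
  obtain ⟨χ, hχ⟩ := isPBlock_nonempty hB
  have hs := stab_stabT (G := G) hb
  have hub : UnionOfBlocks M b := unionOfBlocks_of_isPBlock hb
  have hlb : LocA M (eB b) := locA_eB hb
  obtain ⟨θ, hθ, hχθ⟩ := covers_all hB hub hcov hχ
  obtain ⟨ψ, hψ, hχψ⟩ := ind_surj hs ⟨θ, hθ, hχθ⟩
  have hB' : IsPBlock M (blockOf M (ψ : stabT (G := G) b → ℂ)) := isPBlock_blockOf ψ
  obtain ⟨χ₀, hχ₀, hind, hmem⟩ := fong_main hs hub hB' (mem_blockOf_self ψ) hψ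
  have hχχ : χ = χ₀ := Subtype.ext (by rw [hχψ, hχ₀])
  have hBeq : blockOf M (χ₀ : G → ℂ) = B := by rw [← hχχ]; exact (eq_blockOf hB hχ).symm
  rw [hBeq] at hind hmem
  have hirr : ∀ ψ' ∈ blockOf M (ψ : stabT (G := G) b → ℂ), IsIrrCharacter G (indFun (stabT (G := G) b) (ψ' : stabT (G := G) b → ℂ)) :=
    fun ψ' hψ' => ind_irr hs (over_all hs hlb (sameBlock_of_mem hB' (mem_blockOf_self ψ) hψ') hψ)
  have hv := vmin_ind (p := p) (isPBlock_nonempty hB') hmem hirr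
  have hd : blockDefect p (blockOf M (ψ : stabT (G := G) b → ℂ)) = blockDefect p B := by
    rw [BlockDefect.blockDefect_eq, BlockDefect.blockDefect_eq, hv, ← (stabT (G := G) b).card_mul_index,
      Nat.factorization_mul Nat.card_pos.ne' Subgroup.index_ne_zero_of_finite, Finsupp.add_apply]
    omega
  refine ⟨_, hB', hd, ?_⟩
  have hch : ∀ χ' : IrrCharacter G, ∃ ψ' : IrrCharacter (stabT (G := G) b), χ' ∈ B →
      ψ' ∈ blockOf M (ψ : stabT (G := G) b → ℂ) ∧ (χ' : G → ℂ) = indFun (stabT (G := G) b) (ψ' : stabT (G := G) b → ℂ) := by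
    intro χ'
    by_cases h : χ' ∈ B
    · obtain ⟨ψ', h1, h2⟩ := (hmem χ').1 h
      exact ⟨ψ', fun _ => ⟨h1, h2⟩⟩
    · exact ⟨ψ, fun h' => absurd h' h⟩
  choose f hf using hch
  apply Set.ncard_le_ncard_of_injOn f (fun a ha => (hf a ha).1) _ (Set.toFinite _)
  intro a ha a' ha' haa
  apply Subtype.ext
  rw [(hf a ha).2, (hf a' ha').2, haa]

end Cfsg.Agent.Lib.H55B10

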