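import Cfsg.Agent.Lib.H55KS
import Cfsg.Agent.Lib.H16PS
import Cfsg.Agent.Lib.PLength

set_option autoImplicit false
set_option linter.all false
open Cfsg
universe u
namespace Cfsg.Agent.Lib.H55B11
open Cfsg.Agent.Lib Cfsg.Agent.Lib.BlockRing Cfsg.Agent.Lib.BlockGA Cfsg.Agent.Lib.BlockIdem
open Cfsg.Agent.Lib.BlockDefect Cfsg.Agent.Lib.CharBasic Cfsg.Agent.Lib.BlockDeg
open Cfsg.Agent.Lib.Clifford Cfsg.Agent.Lib.CliffordCorr
open Cfsg.Agent.Lib.BlockCover Cfsg.Agent.Lib.BlockKnorr Cfsg.Agent.Lib.BlockFong Cfsg.Agent.Lib.BlockInd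

theorem b11
    (h8u : ∀ (p : ℕ) [Fact p.Prime] (X : Type u) [Group X] [Finite X], Group.IsSolvable X →
      Cfsg.pPrimeCore p X = ⊥ → 1 ≤ (Nat.card X).factorization p →
      Nat.card (ConjClasses X) ≤
        3 ^ ((Nat.card X).factorization p - 1) * p ^ ((Nat.card X).factorization p))
    (h9 : ∀ (G : Type u) [Group G] [Fintype G] (N : Subgroup G) [hN : N.Normal] [Fintype N]
      (θ : IrrCharacter N), (∀ (g : G) (n : N), (θ : N → ℂ) ⟨g * n * g⁻¹, hN.conj_mem n n.2 g⟩ = (θ : N → ℂ) n) →
      Set.ncard {χ : IrrCharacter G | classInner (fun n : N => (χ : G → ℂ) n) (θ : N → ℂ) ≠ 0} ≤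
        Nat.card (ConjClasses (G ⧸ N)))
    (h10 : ∀ {p : ℕ} [hp : Fact p.Prime] {M : Ideal AlgInt}, IsPModular p M → ∀ {G : Type u} [Group G]
      [Fintype G] {N : Subgroup G} [hNn : N.Normal] [Fintype N] {b : Set (IrrCharacter N)},
      IsPBlock M b → ∀ {B : Set (IrrCharacter G)}, IsPBlock M B → Covers B b →
      ∃ B' : Set (IrrCharacter (stabT (G := G) b)), IsPBlock M B' ∧ blockDefect p B' = blockDefect p B ∧
      Set.ncard B ≤ Set.ncard B')
    {G : Type u} [Group G] [Finite G] (hsolv : Group.IsSolvable G) (p : ℕ) [Fact p.Prime]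
    (M : Ideal Cfsg.AlgInt) (hM : Cfsg.IsPModular p M) (B : Set (Cfsg.IrrCharacter G))
    (hB : Cfsg.IsPBlock M B) (hd : 0 < Cfsg.blockDefect p B) :
    Set.ncard B ≤ 3 ^ (Cfsg.blockDefect p B - 1) * p ^ Cfsg.blockDefect p B := by
  have key : ∀ (n : ℕ) (G : Type u) [Group G] [Finite G], Nat.card G = n → Group.IsSolvable G →
      ∀ B : Set (IrrCharacter G), IsPBlock M B → 0 < Cfsg.blockDefect p B →
      Set.ncard B ≤ 3 ^ (Cfsg.blockDefect p B - 1) * p ^ Cfsg.blockDefect p B := by
    clear hd hB B hsolv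
    intro n
    induction n using Nat.strong_induction_on with
    | _ n ih =>
    intro G _ _ hn hsolv B hB hd
    classical
    haveI := isPrime hM
    haveI hMm : M.IsMaximal := hM.2.1
    haveI := Fintype.ofFinite G
    haveI := hsolv
    have hpp : IsPSolvable p G := PLength.isPSolvable_of_isSolvable
    obtain ⟨N, hN⟩ : ∃ N, N = pPrimeCore p G := ⟨_, rfl⟩
    haveI hNn : N.Normal := by rw [hN]; infer_instance
    haveI := Fintype.ofFinite N
    have hNcop : ¬ p ∣ Nat.card N := by rw [hN]; exact PConstraint.not_dvd_card_pPrimeCore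
    obtain ⟨χ, hχ⟩ := isPBlock_nonempty hB
    obtain ⟨θ, hθ⟩ := exists_constituent_res N χ
    have hb : IsPBlock M ({θ} : Set (IrrCharacter N)) := CoreTop.isPBlock_singleton hM hNcop θ
    have hcov : Covers B ({θ} : Set (IrrCharacter N)) := ⟨χ, hχ, θ, rfl, hθ⟩
    by_cases hT : stabT (G := G) ({θ} : Set (IrrCharacter N)) = ⊤
    · have hinv : ∀ g : G, cj N g (θ : N → ℂ) = θ := by
        intro g
        have h1 : g ∈ stabT (G := G) ({θ} : Set (IrrCharacter N)) := by rw [hT]; trivial
        have h2 := (h1 θ).1 rfl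
        exact congrArg Subtype.val h2
      obtain ⟨B0, hB0, hmem, hdef, -⟩ := FongInv.main hM (WSup.isPConstrained_of_isPSolvable hpp) hN θ
        (fun g n => congrFun (hinv g) n)
      have hBB0 : B = B0 := by
        rw [eq_blockOf hB hχ, eq_blockOf hB0 ((hmem χ).2 hθ)]
      subst hBB0
      have hset : B = {χ : IrrCharacter G | classInner (fun n : N => (χ : G → ℂ) n) (θ : N → ℂ) ≠ 0} := by
        ext χ
        exact hmem χ
      have hcount := h9 G N θ (fun g n => congrFun (hinv g) n)
      rw [← hset] at hcount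
      -- the defect
      have hcardG : (Nat.card G).factorization p = Cfsg.blockDefect p B := by
        obtain ⟨P⟩ : Nonempty (Sylow p G) := inferInstance
        have h1 := defectGroup_card hM hB (hdef P)
        have h2 := P.card_eq_multiplicity
        have h3 : p ^ (Nat.card G).factorization p = p ^ Cfsg.blockDefect p B := by
          rw [← h1, ← h2]
        exact Nat.pow_right_injective (Fact.out : p.Prime).two_le h3
      have hcardQ : (Nat.card (G ⧸ N)).factorization p = Cfsg.blockDefect p B := by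
        rw [← hcardG, N.card_eq_card_quotient_mul_card_subgroup,
          Nat.factorization_mul Nat.card_pos.ne' Nat.card_pos.ne', Finsupp.add_apply,
          Nat.factorization_eq_zero_of_not_dvd hNcop, add_zero]
      have hcore : pPrimeCore p (G ⧸ N) = ⊥ := by
        subst hN; exact Cores.pPrimeCore_quotient_pPrimeCore p G
      have h5 := h8u p (G ⧸ N) inferInstance hcore (by rw [hcardQ]; exact hd)
      rw [hcardQ] at h5
      exact hcount.trans h5
    · obtain ⟨B', hB', hdB, hle⟩ := h10 (p := p) hM hb hB hcov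
      have hlt : Nat.card (stabT (G := G) ({θ} : Set (IrrCharacter N))) < n := by
        rw [← hn]
        refine lt_of_le_of_ne (Subgroup.card_le_card_group _) ?_
        intro h
        exact hT (Subgroup.eq_top_of_card_eq _ h)
      have h1 := ih _ hlt _ rfl inferInstance B' hB' (by rw [hdB]; exact hd)
      rw [hdB] at h1
      exact hle.trans h1
  exact key _ G rfl hsolv B hB hd

end Cfsg.Agent.Lib.H55B11
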