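import Cfsg.Agent.Lib.H55KR3

set_option autoImplicit false

namespace Cfsg.Agent.Lib.H55K2
open Cfsg.Agent.Lib.H55KR

theorem mono {X : Type} [Group X] {a b : ℕ} (h : KB X a) (hab : a ≤ b) : KB X b :=
  fun Y => (h Y).trans hab

theorem cc_surj {A B : Type} [Group A] [Group B] [Finite A] (f : A →* B)
    (hf : Function.Surjective f) : Nat.card (ConjClasses B) ≤ Nat.card (ConjClasses A) := by
  haveI : Finite (ConjClasses A) := Finite.of_surjective _ ConjClasses.mk_surjective
  exact Nat.card_le_card_of_surjective (ConjClasses.map f) (ConjClasses.map_surjective hf)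

theorem of_card {X : Type} [Group X] [Finite X] {b : ℕ} (h : Nat.card X ≤ b) : KB X b := by
  intro Y
  have h1 : Nat.card (ConjClasses Y) ≤ Nat.card Y :=
    Nat.card_le_card_of_surjective ConjClasses.mk ConjClasses.mk_surjective
  exact (h1.trans (Nat.card_le_card_of_injective (fun y : Y => (y : X))
    Subtype.val_injective)).trans h

theorem of_inj {X Y : Type} [Group X] [Group Y] [Finite Y] (f : X →* Y)
    (hf : Function.Injective f) {b : ℕ} (h : KB Y b) : KB X b := by
  intro U
  exact (cc_surj (U.equivMapOfInjective f hf).symm.toMonoidHom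
    (U.equivMapOfInjective f hf).symm.surjective).trans (h _)

theorem of_surj {X Y : Type} [Group X] [Group Y] [Finite X] (f : X →* Y)
    (hf : Function.Surjective f) {b : ℕ} (h : KB X b) : KB Y b := by
  intro U
  let g : U.comap f →* U := (f.comp (U.comap f).subtype).codRestrict U (fun x => x.2)
  refine (cc_surj g ?_).trans (h (U.comap f))
  rintro ⟨u, hu⟩
  obtain ⟨x, rfl⟩ := hf u
  exact ⟨⟨x, hu⟩, rfl⟩

theorem cc {X : Type} [Group X] [Finite X] {b : ℕ} (h : KB X b) :
    Nat.card (ConjClasses X) ≤ b :=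
  (cc_surj (Subgroup.topEquiv (G := X)).toMonoidHom
    (Subgroup.topEquiv (G := X)).surjective).trans (h ⊤)

theorem mul (hK : K1S) {X : Type} [Group X] [Finite X] (N : Subgroup X) [N.Normal] {a b : ℕ}
    (h1 : KB N a) (h2 : KB (X ⧸ N) b) : KB X (a * b) := by
  intro Y
  refine (hK Y (N.subgroupOf Y)).trans (Nat.mul_le_mul ?_ ?_)
  · apply cc
    let g : (N.subgroupOf Y) →* N :=
      (Y.subtype.comp (N.subgroupOf Y).subtype).codRestrict N (fun x => x.2)
    refine of_inj g ?_ h1
    intro x y hxy
    apply Subtype.ext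
    apply Subtype.ext
    exact congrArg (fun z : N => (z : X)) hxy
  · apply cc
    let g : Y ⧸ (N.subgroupOf Y) →* X ⧸ N :=
      QuotientGroup.map (N.subgroupOf Y) N Y.subtype le_rfl
    refine of_inj g ?_ h2
    rw [injective_iff_map_eq_one]
    intro q hq
    obtain ⟨y, rfl⟩ := QuotientGroup.mk_surjective q
    have h3 : ((y : X) : X ⧸ N) = 1 := hq
    rw [QuotientGroup.eq_one_iff] at h3
    exact (QuotientGroup.eq_one_iff y).2 h3

theorem hom (hK : K1S) {X Y : Type} [Group X] [Finite X] [Group Y] (f : X →* Y) {a b : ℕ}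
    (h1 : KB f.ker a) (h2 : KB f.range b) : KB X (a * b) := by
  refine mul hK f.ker h1 ?_
  haveI : Finite f.range := Finite.of_surjective f.rangeRestrict f.rangeRestrict_surjective
  exact of_inj (QuotientGroup.quotientKerEquivRange f).toMonoidHom
    (QuotientGroup.quotientKerEquivRange f).injective h2

theorem prod (hK : K1S) {A B : Type} [Group A] [Group B] [Finite A] [Finite B] {a b : ℕ}
    (ha : KB A a) (hb : KB B b) : KB (A × B) (a * b) := by
  rw [mul_comm]
  refine hom hK (MonoidHom.fst A B) ?_ ?_
  · refine of_inj ((MonoidHom.snd A B).comp (MonoidHom.fst A B).ker.subtype) ?_ hb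
    rintro ⟨⟨x1, x2⟩, hx⟩ ⟨⟨y1, y2⟩, hy⟩ hxy
    have h1 : x1 = 1 := hx
    have h2 : y1 = 1 := hy
    have h3 : x2 = y2 := hxy
    subst h1 h2 h3
    rfl
  · exact of_inj (MonoidHom.fst A B).range.subtype Subtype.val_injective ha

theorem pi (hK : K1S) {ι : Type} [Fintype ι] (X : ι → Type) [∀ i, Group (X i)]
    [∀ i, Finite (X i)] (b : ι → ℕ) (h : ∀ i, KB (X i) (b i)) :
    KB (∀ i, X i) (∏ i, b i) := by
  classical
  have key : ∀ s : Finset ι, KB (∀ i : s, X i) (∏ i ∈ s, b i) := by
    intro s
    induction s using Finset.induction_on with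
    | empty =>
      apply of_card
      rw [Finset.prod_empty]
      haveI : Subsingleton (∀ i : (∅ : Finset ι), X i) :=
        ⟨fun f g => funext fun i => absurd i.2 (Finset.notMem_empty _)⟩
      exact Finite.card_le_one_iff_subsingleton.2 inferInstance
    | insert j s hj ih =>
      rw [Finset.prod_insert hj]
      let g : (∀ i : (insert j s : Finset ι), X i) →* (X j × (∀ i : s, X i)) :=
        { toFun := fun f => (f ⟨j, Finset.mem_insert_self j s⟩,
            fun i => f ⟨i, Finset.mem_insert_of_mem i.2⟩)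
          map_one' := rfl
          map_mul' := fun _ _ => rfl }
      refine of_inj g ?_ (prod hK (h j) ih)
      intro f f' hff
      funext ⟨i, hi⟩
      have h1 := congrArg Prod.fst hff
      have h2 := congrArg Prod.snd hff
      rcases Finset.mem_insert.1 hi with rfl | hi'
      · exact h1
      · exact congrFun h2 ⟨i, hi'⟩
  let g : (∀ i, X i) →* (∀ i : (Finset.univ : Finset ι), X i) :=
    { toFun := fun f i => f i
      map_one' := rfl
      map_mul' := fun _ _ => rfl }
  refine of_inj g ?_ (key Finset.univ)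
  intro f f' hff
  funext i
  exact congrFun hff ⟨i, Finset.mem_univ i⟩

end Cfsg.Agent.Lib.H55K2
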