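import Cfsg.Agent.Lib.H55KS
import Cfsg.Agent.Lib.H55K2

/-!
# S4990, piece B2: the imprimitive step, class two version (helper25)
-/

set_option autoImplicit false

namespace Cfsg.Agent.Lib.H55B2

open Cfsg Cfsg.Agent.Lib.H55KR

section
variable {K : Type} [Field K] {M V : Type} [Group M] [AddCommGroup V] [Module K V]

/-- the restriction of the action to an invariant subspace -/
noncomputable def res (σ : M →* (V ≃ₗ[K] V)) (U : Submodule K V)
    (h : ∀ g : M, U.map (σ g : V →ₗ[K] V) = U) : M →* (U ≃ₗ[K] U) where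
  toFun g := (σ g).ofSubmodules U U (h g)
  map_one' := by
    ext x
    rw [LinearEquiv.ofSubmodules_apply, map_one]; rfl
  map_mul' g g' := by
    ext x
    rw [LinearEquiv.ofSubmodules_apply, map_mul]; rfl

theorem res_apply (σ : M →* (V ≃ₗ[K] V)) (U : Submodule K V)
    (h : ∀ g : M, U.map (σ g : V →ₗ[K] V) = U) (g : M) (x : U) : ((res σ U h g x : U) : V) = σ g x := rfl

theorem eq_of_blocks {ρ : M →* (V ≃ₗ[K] V)} {ι : Type} {U : ι → Submodule K V} (hsup : ⨆ i, U i = ⊤)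
    (hinj : Function.Injective ρ) {g g' : M} (hg : ∀ i, ∀ u ∈ U i, ρ g u = ρ g' u) : g = g' := by
  apply hinj
  apply LinearEquiv.toLinearMap_injective
  have h1 : (⊤ : Submodule K V) ≤ LinearMap.eqLocus ((ρ g : V ≃ₗ[K] V) : V →ₗ[K] V) ((ρ g' : V ≃ₗ[K] V) : V →ₗ[K] V) := by
    rw [← hsup, iSup_le_iff]
    intro i x hx
    rw [LinearMap.mem_eqLocus]
    exact hg i x hx
  ext x
  exact h1 (Submodule.mem_top : x ∈ ⊤)

theorem finrank_sum [FiniteDimensional K V] {k : ℕ} {U : Fin k → Submodule K V} (hind : iSupIndep U)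
    (hsup : ⨆ i, U i = ⊤) : ∑ i, Module.finrank K (U i) = Module.finrank K V := by
  classical
  have hI := DirectSum.isInternal_submodule_of_iSupIndep_of_iSup_eq_top hind hsup
  rw [← (LinearEquiv.ofBijective (DirectSum.coeLinearMap U) hI).finrank_eq, Module.finrank_directSum]

/-- the permutation action on the blocks -/
theorem exists_hom (ρ : M →* (V ≃ₗ[K] V)) (k : ℕ) (U : Fin k → Submodule K V) (hU : Function.Injective U)
    (hperm : ∀ g : M, ∀ i, ∃ j, (U i).map (ρ g : V →ₗ[K] V) = U j) :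
    ∃ f : M →* Equiv.Perm (Fin k), ∀ g i, (U i).map (ρ g : V →ₗ[K] V) = U (f g i) := by
  classical
  choose s hs using hperm
  have hmul : ∀ g h i, s (g * h) i = s g (s h i) := by
    intro g h i
    apply hU
    rw [← hs, ← hs, ← hs, map_mul, ← Submodule.map_comp]
    rfl
  have hone : ∀ i, s 1 i = i := by
    intro i
    apply hU
    rw [← hs, map_one]
    exact Submodule.map_id _
  refine ⟨MonoidHom.mk' (fun g => ⟨s g, s g⁻¹, fun i => ?_, fun i => ?_⟩) ?_, ?_⟩
  · rw [← hmul, inv_mul_cancel, hone]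
  · rw [← hmul, mul_inv_cancel, hone]
  · intro g h
    ext i
    simp [hmul]
  · intro g i
    exact hs g i

end

/-- the subgroup for one block -/
theorem exists_A (K : Type) [Field K] {G V : Type} [Group G] [Finite G] [AddCommGroup V] [Module K V]
    [FiniteDimensional K V] (ρ : G →* (V ≃ₗ[K] V)) (hcard : ((Nat.card G : ℕ) : K) ≠ 0)
    (hs : Group.IsSolvable G) (U : Submodule K V) (hbot : U ≠ ⊥) (hPS : PS2 K (Module.finrank K U))
    (S : Subgroup G) (hS : ∀ g ∈ S, U.map (ρ g : V →ₗ[K] V) = U) :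
    ∃ A : Subgroup G, A ≤ S ∧ (∀ s ∈ S, ∀ a ∈ A, s * a * s⁻¹ ∈ A) ∧
      (∀ x ∈ A, ∀ y ∈ A, ∀ z ∈ A, ∀ u ∈ U,
        ρ ((x * y * x⁻¹ * y⁻¹) * z) u = ρ (z * (x * y * x⁻¹ * y⁻¹)) u) ∧
      ∃ (Q : Type) (_ : Group Q) (_ : Finite Q) (q : S →* Q), (∀ s : S, q s = 1 → (s : G) ∈ A) ∧
        KB Q (3 ^ (Module.finrank K U - 1)) := by
  classical
  let τ : S →* (U ≃ₗ[K] U) := res (ρ.comp S.subtype) U (fun g => hS g g.2)
  have hfin : Finite τ.range := Set.finite_range τ |>.to_subtype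
  have hsol : Group.IsSolvable τ.range := Group.isSolvable_of_surjective τ.rangeRestrict_surjective
  have hpos : 1 ≤ Module.finrank K U := by
    by_contra hcon
    have h0 : Module.finrank K U = 0 := by omega
    exact hbot (Submodule.finrank_eq_zero.1 h0)
  have hc : ((Nat.card τ.range : ℕ) : K) ≠ 0 := by
    intro h0
    apply hcard
    have h1 : Nat.card τ.range ∣ Nat.card G :=
      (Subgroup.card_dvd_of_surjective τ.rangeRestrict τ.rangeRestrict_surjective).trans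
        (Subgroup.card_subgroup_dvd_card S)
    obtain ⟨m, hm⟩ := h1
    rw [hm, Nat.cast_mul, h0, zero_mul]
  obtain ⟨N, hN, hcl, hKB⟩ := hPS τ.range U τ.range.subtype hc hsol Subtype.val_injective rfl hpos
  have hmem : ∀ x : G, x ∈ (N.comap τ.rangeRestrict).map S.subtype ↔
      ∃ h : x ∈ S, τ.rangeRestrict ⟨x, h⟩ ∈ N := by
    intro x
    constructor
    · rintro ⟨y, hy, rfl⟩
      exact ⟨y.2, hy⟩
    · rintro ⟨h, hx⟩
      exact ⟨⟨x, h⟩, hx, rfl⟩
  refine ⟨(N.comap τ.rangeRestrict).map S.subtype, ?_, ?_, ?_, ?_⟩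
  · intro x hx
    exact ((hmem x).1 hx).1
  · intro s hs' a ha
    obtain ⟨h, ha'⟩ := (hmem a).1 ha
    rw [hmem]
    refine ⟨S.mul_mem (S.mul_mem hs' h) (S.inv_mem hs'), ?_⟩
    have e : (⟨s * a * s⁻¹, S.mul_mem (S.mul_mem hs' h) (S.inv_mem hs')⟩ : S) =
        ⟨s, hs'⟩ * ⟨a, h⟩ * ⟨s, hs'⟩⁻¹ := rfl
    rw [e, map_mul, map_mul, map_inv]
    exact hN.conj_mem _ ha' _
  · intro x hx y hy z hz u hu
    obtain ⟨hx1, hx2⟩ := (hmem x).1 hx
    obtain ⟨hy1, hy2⟩ := (hmem y).1 hy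
    obtain ⟨hz1, hz2⟩ := (hmem z).1 hz
    have h1 := hcl _ hx2 _ hy2 _ hz2
    rw [← map_inv, ← map_inv, ← map_mul, ← map_mul, ← map_mul, ← map_mul, ← map_mul] at h1
    have h2 := congrArg (fun w : τ.range => (((w : (U ≃ₗ[K] U)) ⟨u, hu⟩ : U) : V)) h1
    exact h2
  · refine ⟨τ.range ⧸ N, inferInstance, inferInstance, (QuotientGroup.mk' N).comp τ.rangeRestrict, ?_, hKB⟩
    intro s hs'
    rw [hmem]
    exact ⟨s.2, (QuotientGroup.eq_one_iff _).1 hs'⟩

theorem b2 (hK : K1S) (hD : DS) (K : Type) [Field K] (r : ℕ) (IH : ∀ r' < r, PS2 K r')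
    {G V : Type} [Group G] [Finite G] [AddCommGroup V] [Module K V] [FiniteDimensional K V]
    (ρ : G →* (V ≃ₗ[K] V)) (hcard : ((Nat.card G : ℕ) : K) ≠ 0) (hs : Group.IsSolvable G)
    (hinj : Function.Injective ρ) (hr : Module.finrank K V = r)
    (k : ℕ) (U : Fin k → Submodule K V) (hk : 2 ≤ k) (hind : iSupIndep U) (hsup : ⨆ i, U i = ⊤)
    (hbot : ∀ i, U i ≠ ⊥) (hU : Function.Injective U)
    (hperm : ∀ g : G, ∀ i, ∃ j, (U i).map (ρ g : V →ₗ[K] V) = U j) :
    ∃ (N : Subgroup G) (_ : N.Normal), Cl2 N ∧ KB (G ⧸ N) (3 ^ (r - 1)) := by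
  classical
  obtain ⟨f, hf⟩ := exists_hom ρ k U hU hperm
  have hpos : ∀ i, 1 ≤ Module.finrank K (U i) := by
    intro i
    by_contra hcon
    have h0 : Module.finrank K (U i) = 0 := by omega
    exact hbot i (Submodule.finrank_eq_zero.1 h0)
  have hlt : ∀ i, Module.finrank K (U i) < r := by
    intro i
    rw [← hr]
    apply Submodule.finrank_lt
    intro htop
    obtain ⟨j, hj⟩ : ∃ j : Fin k, j ≠ i := by
      have : Nontrivial (Fin k) := Fin.nontrivial_iff_two_le.mpr hk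
      exact exists_ne i
    have hd : Disjoint (U i) (U j) := hind.pairwiseDisjoint hj.symm
    rw [htop] at hd
    exact hbot j (top_disjoint.mp hd)
  -- stabilisers
  let S : Fin k → Subgroup G := fun i => (MulAction.stabilizer (Equiv.Perm (Fin k)) i).comap f
  have hS : ∀ i g, g ∈ S i ↔ f g i = i := fun i g => Iff.rfl
  have hA := fun i => exists_A K ρ hcard hs (U i) (hbot i) (IH _ (hlt i)) (S i)
    (fun g hg => by rw [hf, (hS i g).1 hg])
  choose A hA1 hA2 hA3 Q hQ1 hQ2 q hq hQ3 using hA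
  -- representatives
  obtain ⟨rep, t, ht, hrep⟩ : ∃ (rep : Fin k → Fin k) (t : Fin k → G), (∀ i, f (t i) i = rep i) ∧
      ∀ g i, rep (f g i) = rep i := by
    let rel : Setoid (Fin k) :=
      { r := fun i j => ∃ g : G, f g i = j
        iseqv := ⟨fun i => ⟨1, by simp⟩, fun {i j} ⟨g, hg⟩ => ⟨g⁻¹, by rw [← hg]; simp⟩,
          fun {i j l} ⟨g, hg⟩ ⟨g', hg'⟩ => ⟨g' * g, by rw [map_mul, Equiv.Perm.mul_apply, hg, hg']⟩⟩ }
    have h1 : ∀ i : Fin k, ∃ g : G, f g i = (Quotient.mk rel i).out := by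
      intro i
      have h2 : rel.r (Quotient.mk rel i).out i := Quotient.mk_out i
      exact rel.symm h2
    choose t ht using h1
    refine ⟨fun i => (Quotient.mk rel i).out, t, ht, fun g i => ?_⟩
    have : Quotient.mk rel (f g i) = Quotient.mk rel i := Quotient.sound (rel.symm ⟨g, rfl⟩)
    show (Quotient.mk rel (f g i)).out = (Quotient.mk rel i).out
    rw [this]
  -- the conjugated subgroups
  let N : Subgroup G :=
    { carrier := {m | m ∈ f.ker ∧ ∀ j, t j * m * (t j)⁻¹ ∈ A (rep j)}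
      one_mem' := ⟨one_mem _, fun j => by simpa using one_mem (A (rep j))⟩
      mul_mem' := fun {a b} ha hb => ⟨mul_mem ha.1 hb.1, fun j => by
        have e : t j * (a * b) * (t j)⁻¹ = (t j * a * (t j)⁻¹) * (t j * b * (t j)⁻¹) := by group
        rw [e]; exact mul_mem (ha.2 j) (hb.2 j)⟩
      inv_mem' := fun {a} ha => ⟨inv_mem ha.1, fun j => by
        have e : t j * a⁻¹ * (t j)⁻¹ = (t j * a * (t j)⁻¹)⁻¹ := by group
        rw [e]; exact inv_mem (ha.2 j)⟩ }
  have hNmem : ∀ m, m ∈ N ↔ m ∈ f.ker ∧ ∀ j, t j * m * (t j)⁻¹ ∈ A (rep j) := fun m => Iff.rfl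
  have hN : N.Normal := by
    constructor
    intro m hm g
    rw [hNmem]
    refine ⟨(inferInstance : f.ker.Normal).conj_mem m hm.1 g, fun j => ?_⟩
    -- `l = g⁻¹ j`
    have hl : f g (f g⁻¹ j) = j := by rw [← Equiv.Perm.mul_apply, ← map_mul]; simp
    have hrl : rep (f g⁻¹ j) = rep j := hrep _ _
    have h1 := hm.2 (f g⁻¹ j)
    rw [hrl] at h1
    have hs1 : t j * g * (t (f g⁻¹ j))⁻¹ ∈ S (rep j) := by
      rw [hS, map_mul, map_mul, Equiv.Perm.mul_apply, Equiv.Perm.mul_apply]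
      have h2 : f (t (f g⁻¹ j))⁻¹ (rep j) = f g⁻¹ j := by
        rw [← hrl, ← ht (f g⁻¹ j), ← Equiv.Perm.mul_apply, ← map_mul]; simp
      rw [h2, hl, ht]
    have h3 := hA2 (rep j) _ hs1 _ h1
    have e : t j * (g * m * g⁻¹) * (t j)⁻¹ = (t j * g * (t (f g⁻¹ j))⁻¹) *
        (t (f g⁻¹ j) * m * (t (f g⁻¹ j))⁻¹) * (t j * g * (t (f g⁻¹ j))⁻¹)⁻¹ := by group
    rw [e]
    exact h3
  refine ⟨N, hN, ?_, ?_⟩
  · -- class two
    intro x hx y hy z hz
    refine eq_of_blocks hsup hinj (fun j u hu => ?_)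
    have hu' : ρ (t j) u ∈ U (rep j) := by
      rw [← ht j, ← hf]
      exact ⟨u, hu, rfl⟩
    have h1 := hA3 (rep j) _ (hx.2 j) _ (hy.2 j) _ (hz.2 j) _ hu'
    have e1 : (t j * x * (t j)⁻¹) * (t j * y * (t j)⁻¹) * (t j * x * (t j)⁻¹)⁻¹ * (t j * y * (t j)⁻¹)⁻¹ *
        (t j * z * (t j)⁻¹) = t j * ((x * y * x⁻¹ * y⁻¹) * z) * (t j)⁻¹ := by group
    have e2 : (t j * z * (t j)⁻¹) * ((t j * x * (t j)⁻¹) * (t j * y * (t j)⁻¹) * (t j * x * (t j)⁻¹)⁻¹ *
        (t j * y * (t j)⁻¹)⁻¹) = t j * (z * (x * y * x⁻¹ * y⁻¹)) * (t j)⁻¹ := by group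
    rw [e1, e2] at h1
    have e3 : ∀ w : G, ρ (t j * w * (t j)⁻¹) (ρ (t j) u) = ρ (t j) (ρ w u) := by
      intro w
      have : ρ (t j * w * (t j)⁻¹) (ρ (t j) u) = (ρ (t j * w * (t j)⁻¹) * ρ (t j)) u := rfl
      rw [this, ← map_mul, inv_mul_cancel_right, map_mul]
      rfl
    rw [e3, e3] at h1
    exact (ρ (t j)).injective h1
  · -- the number of classes
    have hNle : N ≤ f.ker := fun m hm => hm.1
    -- the homomorphisms to the quotients
    let c : ∀ j, f.ker →* S (rep j) := fun j =>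
      { toFun := fun m => ⟨t j * m * (t j)⁻¹, by
          rw [hS, map_mul, map_mul, (m.2 : f m = 1), mul_one, ← map_mul]; simp⟩
        map_one' := by apply Subtype.ext; simp
        map_mul' := fun a b => by
          apply Subtype.ext
          show t j * (a * b : G) * (t j)⁻¹ = (t j * a * (t j)⁻¹) * (t j * b * (t j)⁻¹)
          group }
    let θ : f.ker →* (∀ j, Q (rep j)) := MonoidHom.pi (fun j => (q (rep j)).comp (c j))
    have hθ : ∀ m ∈ θ.ker, (m : G) ∈ N := by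
      intro m hm
      rw [hNmem]
      refine ⟨m.2, fun j => ?_⟩
      have h1 : θ m j = 1 := by rw [MonoidHom.mem_ker.1 hm]; rfl
      exact hq (rep j) (c j m) h1
    have h1 : KB (∀ j, Q (rep j)) (∏ j, 3 ^ (Module.finrank K (U (rep j)) - 1)) :=
      H55K2.pi hK (fun j => Q (rep j)) _ (fun j => hQ3 (rep j))
    have h2 : KB (f.ker ⧸ θ.ker) (∏ j, 3 ^ (Module.finrank K (U (rep j)) - 1)) :=
      H55K2.of_inj (QuotientGroup.kerLift θ) (QuotientGroup.kerLift_injective θ) h1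
    let F : (G ⧸ N) →* Equiv.Perm (Fin k) := QuotientGroup.lift N f hNle
    have h3 : KB F.ker (∏ j, 3 ^ (Module.finrank K (U (rep j)) - 1)) := by
      let η : f.ker →* F.ker :=
        { toFun := fun m => ⟨QuotientGroup.mk (m : G), by
            show F (QuotientGroup.mk (m : G)) = 1
            exact m.2⟩
          map_one' := rfl
          map_mul' := fun a b => rfl }
      refine H55K2.of_surj (QuotientGroup.lift θ.ker η (fun m hm => ?_)) ?_ h2
      · apply Subtype.ext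
        exact (QuotientGroup.eq_one_iff _).2 (hθ m hm)
      · rintro ⟨x, hx⟩
        obtain ⟨g, rfl⟩ := QuotientGroup.mk_surjective x
        exact ⟨QuotientGroup.mk ⟨g, hx⟩, rfl⟩
    have h4 : KB F.range (3 ^ (k - 1)) := by
      have : Nonempty (Fin k) := ⟨⟨0, by omega⟩⟩
      have h5 := hD (Fin k) F.range (Group.isSolvable_of_surjective F.rangeRestrict_surjective)
      rw [Nat.card_fin] at h5
      exact H55K2.of_card h5
    refine H55K2.mono (H55K2.hom hK F h3 h4) (le_of_eq ?_)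
    have hdim : ∀ j, Module.finrank K (U (rep j)) = Module.finrank K (U j) := by
      intro j
      rw [← ht j, ← hf]
      exact LinearEquiv.finrank_map_eq (ρ (t j)) (U j)
    rw [Finset.prod_pow_eq_pow_sum, ← pow_add]
    congr 1
    have h5 := finrank_sum hind hsup
    have h6 : ∑ j, (Module.finrank K (U (rep j)) - 1) + k = Module.finrank K V := by
      rw [← h5]
      have h7 : ∑ i : Fin k, Module.finrank K (U i) = ∑ i : Fin k, ((Module.finrank K (U (rep i)) - 1) + 1) :=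
        Finset.sum_congr rfl (fun i _ => by rw [hdim]; exact (Nat.sub_add_cancel (hpos i)).symm)
      rw [h7, Finset.sum_add_distrib]
      simp
    omega

end Cfsg.Agent.Lib.H55B2
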