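import Cfsg.Agent.Lib.H55KS

set_option autoImplicit false

namespace Cfsg.Agent.Lib.H55B3

open Cfsg Cfsg.Agent.Lib.H55KR Module

theorem b3 (K : Type) [Field K] [IsAlgClosed K] {G V : Type} [Group G] [Finite G] [AddCommGroup V]
    [Module K V] [FiniteDimensional K V] (hcard : ((Nat.card G : ℕ) : K) ≠ 0)
    (ρ : G →* (V ≃ₗ[K] V)) (A : Subgroup G) (hA : A.Normal) (hab : ∀ x ∈ A, ∀ y ∈ A, x * y = y * x)
    (hns : ∃ a ∈ A, ¬ ∃ c : K, ∀ v, ρ a v = c • v) :
    ∃ (k : ℕ) (U : Fin k → Submodule K V), 2 ≤ k ∧ iSupIndep U ∧ (⨆ i, U i = ⊤) ∧ (∀ i, U i ≠ ⊥) ∧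
      Function.Injective U ∧
      ∀ g : G, ∀ i, ∃ j, (U i).map (ρ g : V →ₗ[K] V) = U j := by
  classical
  set f : A → Module.End K V := fun a => (ρ (a : G) : V →ₗ[K] V) with hf
  have hfa : ∀ a v, f a v = ρ (a : G) v := fun a v => rfl
  have hcomm : ∀ a b : A, Commute (f a) (f b) := by
    intro a b
    apply LinearMap.ext
    intro v
    change ρ (a : G) (ρ (b : G) v) = ρ (b : G) (ρ (a : G) v)
    rw [← LinearEquiv.mul_apply, ← LinearEquiv.mul_apply, ← map_mul, ← map_mul, hab _ a.2 _ b.2]
  set W : (A → K) → Submodule K V := fun χ => ⨅ a, (f a).maxGenEigenspace (χ a) with hW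
  have hind : iSupIndep W := Module.End.independent_iInf_maxGenEigenspace_of_forall_mapsTo f
    fun i j φ => Module.End.mapsTo_maxGenEigenspace_of_comm (hcomm j i) φ
  have hsup : ⨆ χ, W χ = ⊤ :=
    Module.End.iSup_iInf_maxGenEigenspace_eq_top_of_iSup_maxGenEigenspace_eq_top_of_commute f
      (fun i j _ => hcomm i j) fun i => Module.End.iSup_maxGenEigenspace_eq_top (f i)
  have hfin : {χ | W χ ≠ ⊥}.Finite := WellFoundedGT.finite_ne_bot_of_iSupIndep hind
  have hfin' : Finite {χ // W χ ≠ ⊥} := hfin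
  obtain ⟨k, ⟨e⟩⟩ := Finite.exists_equiv_fin {χ // W χ ≠ ⊥}
  have hsup' : ⨆ i : Fin k, W (e.symm i : A → K) = ⊤ := by
    rw [← hsup, ← iSup_ne_bot_subtype W]
    exact e.symm.iSup_comp (g := fun χ : {χ // W χ ≠ ⊥} => W (χ : A → K))
  -- semisimplicity
  have hss : ∀ a : A, ∀ c : K, (f a).maxGenEigenspace c = (f a).eigenspace c := by
    intro a c
    apply Module.End.IsFinitelySemisimple.maxGenEigenspace_eq_eigenspace
    apply Module.End.IsSemisimple.isFinitelySemisimple
    have hn : ((orderOf (a : G) : ℕ) : K) ≠ 0 := by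
      intro h0
      obtain ⟨m, hm⟩ := orderOf_dvd_natCard (a : G)
      apply hcard
      rw [hm, Nat.cast_mul, h0, zero_mul]
    refine Module.End.isSemisimple_of_squarefree_aeval_eq_zero
      (p := (Polynomial.X ^ (orderOf (a : G)) - Polynomial.C (1 : K))) ?_ ?_
    · exact (Polynomial.separable_X_pow_sub_C (1 : K) hn one_ne_zero).squarefree
    · rw [map_sub, map_pow, Polynomial.aeval_X, Polynomial.aeval_C, map_one, sub_eq_zero]
      apply LinearMap.ext
      intro v
      have h1 : ∀ n : ℕ, (f a ^ n) v = ρ ((a : G) ^ n) v := by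
        intro n
        induction n generalizing v with
        | zero => simp
        | succ n ih =>
          rw [pow_succ, Module.End.mul_apply, ih, hfa, pow_succ, map_mul]
          rfl
      rw [h1, pow_orderOf_eq_one, map_one]
      rfl
  refine ⟨k, fun i => W (e.symm i : A → K), ?_, ?_, hsup', fun i => (e.symm i).2, ?_, ?_⟩
  · obtain ⟨a, ha, hna⟩ := hns
    by_contra hk
    have hk' : k = 0 ∨ k = 1 := by omega
    rcases hk' with rfl | rfl
    · rw [iSup_of_empty] at hsup'
      apply hna
      refine ⟨0, fun v => ?_⟩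
      have hv : ∀ w : V, w = 0 := by
        intro w
        have : w ∈ (⊤ : Submodule K V) := Submodule.mem_top
        rw [← hsup'] at this
        exact (Submodule.mem_bot K).1 this
      rw [hv (ρ a v), hv v, smul_zero]
    · have h1 : W (e.symm 0 : A → K) = ⊤ := by
        rw [← hsup']
        exact (ciSup_unique (s := fun i : Fin 1 => W (e.symm i : A → K))).symm
      apply hna
      refine ⟨(e.symm 0 : A → K) ⟨a, ha⟩, fun v => ?_⟩
      have h2 : v ∈ W (e.symm 0 : A → K) := h1 ▸ Submodule.mem_top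
      have h3 : v ∈ (f ⟨a, ha⟩).maxGenEigenspace ((e.symm 0 : A → K) ⟨a, ha⟩) :=
        (Submodule.mem_iInf _).1 h2 ⟨a, ha⟩
      rw [hss, Module.End.mem_eigenspace_iff] at h3
      exact h3
  · exact hind.comp (f := fun i => (e.symm i : A → K)) (Subtype.val_injective.comp e.symm.injective)
  · intro i j hij
    have h1 := Module.End.injOn_iInf_maxGenEigenspace f (e.symm i).2 (e.symm j).2 hij
    exact e.symm.injective (Subtype.ext h1)
  · intro g i
    set χ : A → K := (e.symm i : A → K) with hχ
    have hχ0 : W χ ≠ ⊥ := (e.symm i).2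
    -- conjugate weight
    let cj : G → A → A := fun g a => ⟨g⁻¹ * a * g, by
      have := hA.conj_mem (a : G) a.2 g⁻¹
      simpa using this⟩
    let χg : G → (A → K) → A → K := fun g χ a => χ (cj g a)
    have key : ∀ (g : G) (χ : A → K) (v : V), v ∈ W χ → ρ g v ∈ W (χg g χ) := by
      intro g χ v hv
      rw [hW, Module.End.mem_iInf_maxGenEigenspace_iff] at hv ⊢
      intro a
      obtain ⟨m, hm⟩ := hv (cj g a)
      refine ⟨m, ?_⟩
      have h1 : ∀ w : V, (f a - χg g χ a • (1 : Module.End K V)) (ρ g w) =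
          ρ g ((f (cj g a) - χ (cj g a) • (1 : Module.End K V)) w) := by
        intro w
        simp only [LinearMap.sub_apply, LinearMap.smul_apply, Module.End.one_apply, map_sub, map_smul]
        congr 1
        rw [hfa, hfa, ← LinearEquiv.mul_apply, ← LinearEquiv.mul_apply, ← map_mul, ← map_mul]
        congr 2
        change (a : G) * g = g * (g⁻¹ * a * g)
        group
      have h2 : ∀ (n : ℕ) (w : V), ((f a - χg g χ a • (1 : Module.End K V)) ^ n) (ρ g w) =
          ρ g (((f (cj g a) - χ (cj g a) • (1 : Module.End K V)) ^ n) w) := by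
        intro n
        induction n with
        | zero => intro w; simp
        | succ n ih =>
          intro w
          rw [pow_succ, Module.End.mul_apply, h1, ih, pow_succ, Module.End.mul_apply]
      rw [h2, hm, map_zero]
    have hmap : (W χ).map (ρ g : V →ₗ[K] V) = W (χg g χ) := by
      apply le_antisymm
      · rintro _ ⟨v, hv, rfl⟩
        exact key g χ v hv
      · intro w hw
        have h1 := key g⁻¹ _ w hw
        have h2 : χg g⁻¹ (χg g χ) = χ := by
          funext a
          change χ (cj g (cj g⁻¹ a)) = χ a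
          congr 1
          apply Subtype.ext
          change g⁻¹ * ((g⁻¹)⁻¹ * a * g⁻¹) * g = a
          group
        rw [h2] at h1
        refine ⟨ρ g⁻¹ w, h1, ?_⟩
        change ρ g (ρ g⁻¹ w) = w
        rw [← LinearEquiv.mul_apply, ← map_mul, mul_inv_cancel, map_one]
        rfl
    have hne : W (χg g χ) ≠ ⊥ := by
      intro h
      rw [← hmap, Submodule.map_eq_bot_iff] at h
      exact hχ0 h
    refine ⟨e ⟨χg g χ, hne⟩, ?_⟩
    change (W χ).map (ρ g : V →ₗ[K] V) = W (e.symm (e ⟨χg g χ, hne⟩) : A → K)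
    rw [hmap, Equiv.symm_apply_apply]

end Cfsg.Agent.Lib.H55B3
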