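import Cfsg.Agent.Lib.H55KS

/-! S4990, piece B5 (helper10): base change to the algebraic closure. -/

set_option autoImplicit false
set_option linter.all false
open Cfsg

namespace Cfsg.Agent.Lib.H55B5
open Cfsg.Agent.Lib.H55KR
open scoped TensorProduct

theorem b5 (p : ℕ) [Fact p.Prime] (hPS : ∀ r, PS2 (AlgebraicClosure (ZMod p)) r) (n : ℕ) (hn : 1 ≤ n)
    (Q W : Type) [Group Q] [Finite Q] [AddCommGroup W] [Module (ZMod p) W] [Finite W]
    (φ : Q →* (W ≃ₗ[ZMod p] W)) (hinj : Function.Injective φ) (hpQ : ¬ p ∣ Nat.card Q)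
    (hs : Group.IsSolvable Q) (hdim : Module.finrank (ZMod p) W = n) :
    ∃ (N : Subgroup Q) (_ : N.Normal), Cl2 N ∧ KB (Q ⧸ N) (3 ^ (n - 1)) := by
  set K := AlgebraicClosure (ZMod p) with hK
  haveI : CharP K p := inferInstance
  haveI : Module.Finite (ZMod p) W := Module.Finite.of_finite
  let g1 : (W ≃ₗ[ZMod p] W) →* LinearMap.GeneralLinearGroup (ZMod p) W :=
    (LinearMap.GeneralLinearGroup.generalLinearEquiv (ZMod p) W).symm.toMonoidHom
  let g2 : LinearMap.GeneralLinearGroup (ZMod p) W →* LinearMap.GeneralLinearGroup K (K ⊗[ZMod p] W) :=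
    Units.map ((Module.End.baseChangeHom (ZMod p) K W : Module.End (ZMod p) W →ₐ[ZMod p] Module.End K (K ⊗[ZMod p] W)) :
      Module.End (ZMod p) W →* Module.End K (K ⊗[ZMod p] W))
  let g3 : LinearMap.GeneralLinearGroup K (K ⊗[ZMod p] W) →* ((K ⊗[ZMod p] W) ≃ₗ[K] (K ⊗[ZMod p] W)) :=
    (LinearMap.GeneralLinearGroup.generalLinearEquiv K (K ⊗[ZMod p] W)).toMonoidHom
  let ρ : Q →* ((K ⊗[ZMod p] W) ≃ₗ[K] (K ⊗[ZMod p] W)) := (g3.comp g2).comp (g1.comp φ)
  have hρ : ∀ (g : Q) (w : W), ρ g ((1 : K) ⊗ₜ[ZMod p] w) = (1 : K) ⊗ₜ[ZMod p] (φ g w) := fun g w => rfl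
  have hmk : Function.Injective (fun w : W => (1 : K) ⊗ₜ[ZMod p] w) :=
    Module.FaithfullyFlat.tensorProduct_mk_injective (A := ZMod p) (B := K) W
  have hρi : Function.Injective ρ := by
    intro a b hab
    apply hinj
    apply LinearEquiv.ext
    intro w
    apply hmk
    show (1 : K) ⊗ₜ[ZMod p] (φ a w) = (1 : K) ⊗ₜ[ZMod p] (φ b w)
    rw [← hρ, ← hρ, hab]
  have hc : ((Nat.card Q : ℕ) : K) ≠ 0 := by
    rw [Ne, CharP.cast_eq_zero_iff K p]
    exact hpQ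
  exact hPS n Q (K ⊗[ZMod p] W) ρ hc hs hρi (by rw [Module.finrank_baseChange, hdim]) hn

end Cfsg.Agent.Lib.H55B5
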