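import Mathlib

set_option autoImplicit false

/-! # abelian coprime groups have regular orbits (helper41) -/

namespace Cfsg.Agent.Lib.H55B6aR

universe u

variable {X : Type u} [Group X] [Finite X]

theorem exists_reg (p : ℕ) [hp : Fact p.Prime] (V : Subgroup X) [hn : V.Normal]
    (hab : ∀ a ∈ V, ∀ b ∈ V, a * b = b * a) (hexp : ∀ v ∈ V, v ^ p = 1) (Z : Subgroup X)
    (hZ : ∀ a ∈ Z, ∀ b ∈ Z, a * b = b * a) (hcop : ¬ p ∣ Nat.card Z)
    (hfaith : ∀ z ∈ Z, (∀ v ∈ V, z * v = v * z) → z = 1) :
    ∃ v ∈ V, ∀ z ∈ Z, z * v = v * z → z = 1 := by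
  classical
  let _ : CommGroup V := { (inferInstance : Group V) with
    mul_comm := fun a b => Subtype.ext (hab a a.2 b b.2) }
  -- a vector with minimal centralizer
  obtain ⟨v, -, hmin⟩ := Set.exists_min_image (Set.univ : Set V)
    (fun v => Nat.card (Z ⊓ Subgroup.centralizer ({(v : X)} : Set X) : Subgroup X)) (Set.toFinite _) ⟨1, trivial⟩
  set C : Subgroup X := Z ⊓ Subgroup.centralizer ({(v : X)} : Set X) with hC
  have memC : ∀ z, z ∈ C ↔ z ∈ Z ∧ z * v = v * z := by
    intro z
    rw [hC, Subgroup.mem_inf, Subgroup.mem_centralizer_singleton_iff]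
  refine ⟨v, v.2, ?_⟩
  by_contra hcon
  push Not at hcon
  obtain ⟨z0, hz0, hz0v, hz01⟩ := hcon
  have hCZ : C ≤ Z := inf_le_left
  have : Fintype C := Fintype.ofFinite C
  -- the averaging map
  let N : V →* V := ∏ c : C, (MulAut.conjNormal (c : X) : V ≃* V).toMonoidHom
  have hNu : ∀ u : V, N u = ∏ c : C, MulAut.conjNormal (c : X) u := by
    intro u
    change (∏ c : C, (MulAut.conjNormal (c : X) : V ≃* V).toMonoidHom) u = _
    rw [MonoidHom.finsetProd_apply]
    rfl
  have hcj : ∀ (x y : X) (u : V), (MulAut.conjNormal x (MulAut.conjNormal y u) : V) = MulAut.conjNormal (x * y) u := by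
    intro x y u
    rw [map_mul]
    rfl
  have hfix : ∀ (c0 : C) (u : V), MulAut.conjNormal (c0 : X) (N u) = N u := by
    intro c0 u
    rw [hNu, map_prod]
    simp only [hcj]
    exact Equiv.prod_comp (Equiv.mulLeft c0) (fun c : C => (MulAut.conjNormal (c : X) u : V))
  have hcomm : ∀ z ∈ Z, ∀ u : V, MulAut.conjNormal z (N u) = N (MulAut.conjNormal z u) := by
    intro z hz u
    rw [hNu, hNu, map_prod]
    refine Finset.prod_congr rfl fun c _ => ?_
    rw [hcj, hcj, hZ z hz c (hCZ c.2)]
  have hpow : ∀ u : V, (∀ c : C, MulAut.conjNormal (c : X) u = u) → N u = u ^ Nat.card C := by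
    intro u hu
    rw [hNu, Finset.prod_congr rfl (fun c _ => hu c), Finset.prod_const, Finset.card_univ, Nat.card_eq_fintype_card]
  have hcopC : (Nat.card C).Coprime p := by
    rw [Nat.coprime_comm, hp.out.coprime_iff_not_dvd]
    intro h
    exact hcop (h.trans (Subgroup.card_dvd_of_le hCZ))
  have hone : ∀ u : V, (∀ c : C, MulAut.conjNormal (c : X) u = u) → N u = 1 → u = 1 := by
    intro u hu h1
    rw [hpow u hu] at h1
    have h2 : u ^ p = 1 := Subtype.ext (hexp u u.2)
    have h3 : u ^ (Nat.gcd (Nat.card C) p) = 1 := pow_gcd_eq_one.2 ⟨h1, h2⟩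
    rwa [hcopC, pow_one] at h3
  -- the kernel of `N` is nontrivial
  have hker : ∃ w : V, N w = 1 ∧ w ≠ 1 := by
    by_contra hk
    push Not at hk
    have hinj : Function.Injective N := (injective_iff_map_eq_one N).2 hk
    have hsur : Function.Surjective N := Finite.surjective_of_injective hinj
    apply hz01
    apply hfaith z0 hz0
    intro u hu
    obtain ⟨w, hw⟩ := hsur ⟨u, hu⟩
    have h1 := hfix ⟨z0, (memC z0).2 ⟨hz0, hz0v⟩⟩ w
    rw [hw] at h1
    have h2 := congrArg Subtype.val h1
    rw [MulAut.conjNormal_apply] at h2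
    exact mul_inv_eq_iff_eq_mul.1 h2
  obtain ⟨w, hw1, hw⟩ := hker
  have hfv : ∀ c : C, MulAut.conjNormal (c : X) v = v := by
    intro c
    apply Subtype.ext
    rw [MulAut.conjNormal_apply, mul_inv_eq_iff_eq_mul]
    exact ((memC c).1 c.2).2
  have hlt : Nat.card (Z ⊓ Subgroup.centralizer ({((v * w : V) : X)} : Set X) : Subgroup X) < Nat.card C := by
    have hsub : ∀ z ∈ Z ⊓ Subgroup.centralizer ({((v * w : V) : X)} : Set X),
        z ∈ C ∧ MulAut.conjNormal z w = w := by
      intro z hz
      rw [Subgroup.mem_inf, Subgroup.mem_centralizer_singleton_iff] at hz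
      obtain ⟨hzZ, hzc⟩ := hz
      have h1 : MulAut.conjNormal z (v * w) = v * w := by
        apply Subtype.ext
        rw [MulAut.conjNormal_apply, mul_inv_eq_iff_eq_mul]
        exact hzc
      rw [map_mul] at h1
      have h2 : v⁻¹ * MulAut.conjNormal z v = w * (MulAut.conjNormal z w)⁻¹ := by
        rw [inv_mul_eq_iff_eq_mul, ← mul_assoc, ← h1, mul_inv_cancel_right]
      have h3 : v⁻¹ * MulAut.conjNormal z v = 1 := by
        apply hone
        · intro c
          rw [map_mul, map_inv, hfv, hcj, hZ c (hCZ c.2) z hzZ, ← hcj, hfv]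
        · rw [h2, map_mul, map_inv, ← hcomm z hzZ, hw1, map_one, inv_one, mul_one]
      have h4 : MulAut.conjNormal z v = v := (inv_mul_eq_one.1 h3).symm
      refine ⟨(memC z).2 ⟨hzZ, ?_⟩, ?_⟩
      · have h5 := congrArg Subtype.val h4
        rw [MulAut.conjNormal_apply] at h5
        exact mul_inv_eq_iff_eq_mul.1 h5
      · rw [h4] at h1
        exact mul_left_cancel h1
    apply lt_of_le_of_ne
    · exact Nat.card_le_card_of_injective (Subgroup.inclusion (fun z hz => (hsub z hz).1))
        (Subgroup.inclusion_injective _)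
    · intro he
      have h6 : Z ⊓ Subgroup.centralizer ({((v * w : V) : X)} : Set X) = C :=
        Subgroup.eq_of_le_of_card_ge (fun z hz => (hsub z hz).1) he.ge
      apply hw
      apply hone w _ hw1
      intro c
      exact (hsub c (by rw [h6]; exact c.2)).2
  have := hmin (v * w) trivial
  omega

end Cfsg.Agent.Lib.H55B6aR
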