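import Mathlib
import Cfsg.Agent.Lib.SylowSquares
import Cfsg.Agent.Lib.H76GalAvg

/-!
# Tools for the `k(GV)` statements
-/

set_option autoImplicit false
set_option linter.all false
set_option maxHeartbeats 400000

namespace Cfsg.Agent.Lib.KGVBase

open Cfsg Cfsg.Agent.Lib.CharBasic Cfsg.Agent.Lib.BlockRing
open Cfsg.Agent.Lib.PDegreeH82 Cfsg.Agent.Lib.SylowExtend Cfsg.Agent.Lib.H76GalAvg
open scoped ComplexConjugate

universe u

variable {G : Type u} [Group G] {p : ℕ}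

/-- The Galois twist of an irreducible character. -/
noncomputable def twist [Finite G] (χ : IrrCharacter G) (u : (ZMod (Nat.card G))ˣ) : IrrCharacter G :=
  ⟨fun g => (χ : G → ℂ) (pw g u), CharGalois.isIrrCharacter_pow χ.2 (by
    have : NeZero (Nat.card G) := ⟨Nat.card_pos.ne'⟩
    exact ZMod.val_coe_unit_coprime u)⟩

theorem twist_apply [Finite G] (χ : IrrCharacter G) (u : (ZMod (Nat.card G))ˣ) (g : G) :
    (twist χ u : G → ℂ) g = (χ : G → ℂ) (pw g u) := rfl

theorem twist_twist_inv [Finite G] (χ : IrrCharacter G) (u : (ZMod (Nat.card G))ˣ) :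
    twist (twist χ u) u⁻¹ = χ := by
  apply Subtype.ext
  funext g
  rw [twist_apply, twist_apply, pw_inv_cancel']

theorem twist_inv_twist [Finite G] (χ : IrrCharacter G) (u : (ZMod (Nat.card G))ˣ) :
    twist (twist χ u⁻¹) u = χ := by
  apply Subtype.ext
  funext g
  rw [twist_apply, twist_apply, pw_inv_cancel]

/-- The sum of `|χ(g)|²` over a Galois stable set of irreducible characters not vanishing at `g`. -/
theorem card_le_sum_irr [Finite G] (S : Finset (IrrCharacter G)) (g : G)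
    (hS : ∀ χ ∈ S, (χ : G → ℂ) g ≠ 0) (hinv : ∀ χ ∈ S, ∀ u, twist χ u ∈ S) :
    (S.card : ℝ) ≤ ∑ χ ∈ S, ‖(χ : G → ℂ) g‖ ^ 2 := by
  classical
  have := Fintype.ofFinite G
  have hne : NeZero (Nat.card G) := ⟨Nat.card_pos.ne'⟩
  have hU : (0 : ℝ) < Fintype.card (ZMod (Nat.card G))ˣ := by exact_mod_cast Fintype.card_pos
  have h1 : ∀ u : (ZMod (Nat.card G))ˣ, ∑ χ ∈ S, ‖(χ : G → ℂ) (pw g u)‖ ^ 2 = ∑ χ ∈ S, ‖(χ : G → ℂ) g‖ ^ 2 := by
    intro u
    refine Finset.sum_bij (fun χ _ => twist χ u) (fun χ hχ => hinv χ hχ u) ?_ ?_ ?_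
    · intro a _ b _ hab
      have := congrArg (fun χ => twist χ u⁻¹) hab
      simpa [twist_twist_inv] using this
    · intro b hb
      exact ⟨twist b u⁻¹, hinv b hb u⁻¹, twist_inv_twist b u⟩
    · intro a _
      rfl
  have h2 : (Fintype.card (ZMod (Nat.card G))ˣ : ℝ) * ∑ χ ∈ S, ‖(χ : G → ℂ) g‖ ^ 2 =
      ∑ χ ∈ S, ∑ u : (ZMod (Nat.card G))ˣ, ‖(χ : G → ℂ) (pw g u)‖ ^ 2 := by
    rw [Finset.sum_comm, Finset.sum_congr rfl (fun u _ => h1 u), Finset.sum_const, Finset.card_univ, nsmul_eq_mul]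
  have h3 : (Fintype.card (ZMod (Nat.card G))ˣ : ℝ) * S.card ≤
      ∑ χ ∈ S, ∑ u : (ZMod (Nat.card G))ˣ, ‖(χ : G → ℂ) (pw g u)‖ ^ 2 := by
    have h4 : (Fintype.card (ZMod (Nat.card G))ˣ : ℝ) * S.card =
        ∑ _g ∈ S, (Fintype.card (ZMod (Nat.card G))ˣ : ℝ) := by
      rw [Finset.sum_const, nsmul_eq_mul, mul_comm]
    rw [h4]
    apply Finset.sum_le_sum
    intro χ hχ
    exact key χ.2.isCharacter g (hS χ hχ)
  rw [← h2] at h3
  exact le_of_mul_le_mul_left h3 hU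

/-- Values at `p`-elements are congruent to the degree. -/
theorem idl_sub_one_value [Finite G] {M : Ideal AlgInt} (hM : IsPModular p M) {χ : G → ℂ}
    (hχ : IsCharacter G χ) {g : G} {k : ℕ} (hg : orderOf g = p ^ k) :
    MemLocalIdeal M (χ g - χ 1) := by
  have := isPrime hM
  obtain ⟨n, ρ, rfl⟩ := hχ
  obtain ⟨μ, h1, h2⟩ := CharValues.exists_eigenvalues ρ g
  have h3 := h2 1
  simp only [pow_one] at h3
  have h4 := h2 0
  simp only [pow_zero] at h4
  rw [h3, h4, ← Finset.sum_sub_distrib]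
  refine idl_sum fun i _ => ?_
  exact idl_sub_one_of_pow hM (by rw [← hg]; exact h1 i)

/-- Irreducible characters of a complement of a normal subgroup. -/
theorem exists_irrEquiv [Finite G] (K N : Subgroup G) [K.Normal] (h1 : K ⊔ N = ⊤) (h2 : K ⊓ N = ⊥) :
    Nonempty (IrrCharacter N ≃ {χ : IrrCharacter G // ∀ k ∈ K, (χ : G → ℂ) k = (χ : G → ℂ) 1}) := by
  obtain ⟨f, hf, hfK⟩ := exists_retraction K N h1 h2
  have hs : Function.Surjective f := fun x => ⟨x, hf x⟩
  let F : IrrCharacter N → {χ : IrrCharacter G // ∀ k ∈ K, (χ : G → ℂ) k = (χ : G → ℂ) 1} := fun θ =>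
    ⟨⟨fun g => (θ : N → ℂ) (f g), θ.2.comp_surjective f hs⟩, fun k hk => by
      show (θ : N → ℂ) (f k) = (θ : N → ℂ) (f 1)
      rw [hfK k hk, map_one]⟩
  have hFb : Function.Bijective F := by
    constructor
    · intro θ θ' h
      apply Subtype.ext
      funext x
      have h3 := congrArg (fun z => (z.1 : G → ℂ) (x : G)) h
      simp only [F, hf] at h3
      exact h3
    · intro χ
      have hfac : ∀ g : G, (χ.1 : G → ℂ) g = (χ.1 : G → ℂ) ((f g : N) : G) := by
        intro g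
        have h3 : g * ((f g : N) : G)⁻¹ ∈ K := by
          have hg : g ∈ K ⊔ N := by rw [h1]; trivial
          rw [Subgroup.mem_sup_of_normal_left] at hg
          obtain ⟨k, hk, n, hn, rfl⟩ := hg
          have h4 : f (k * n) = ⟨n, hn⟩ := by
            rw [map_mul, hfK k hk, one_mul]
            exact hf ⟨n, hn⟩
          rw [h4]
          simpa using hk
        obtain ⟨m, ρ, hρ, hρχ⟩ := χ.1.2
        have h5 := χ.2 _ h3
        rw [← hρχ] at h5 ⊢
        rw [Representation.char_one, CharValues.character_eq_finrank_iff] at h5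
        have h6 : g = (g * ((f g : N) : G)⁻¹) * ((f g : N) : G) := by group
        have h7 : ρ g = ρ ((f g : N) : G) := by
          conv_lhs => rw [h6, map_mul, h5]
          rfl
        unfold Representation.character
        rw [h7]
      have hirr : IsIrrCharacter N (fun n : N => (χ.1 : G → ℂ) n) := by
        apply (χ.1.2.isCharacter.restrict N).isIrr_of_comp f
        have : (fun g : G => (χ.1 : G → ℂ) ((f g : N) : G)) = (χ.1 : G → ℂ) := by
          funext g; exact (hfac g).symm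
        rw [this]; exact χ.1.2
      refine ⟨⟨fun n : N => (χ.1 : G → ℂ) n, hirr⟩, ?_⟩
      apply Subtype.ext
      apply Subtype.ext
      funext g
      exact (hfac g).symm
  exact ⟨Equiv.ofBijective F hFb⟩

theorem sup_inf_of_isComplement' {V G' : Subgroup G} [V.Normal] (h : V.IsComplement' G') :
    V ⊔ G' = ⊤ ∧ V ⊓ G' = ⊥ := ⟨h.sup_eq_top, h.disjoint.eq_bot⟩

/-- `|C_X(v)| = |V| |C_G(v)|`. -/
theorem card_centralizer_eq [Finite G] {V H : Subgroup G} [V.Normal] (hc : V.IsComplement' H)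
    (hab : ∀ a ∈ V, ∀ b ∈ V, a * b = b * a) {v : G} (hv : v ∈ V) :
    Nat.card (Subgroup.centralizer ({v} : Set G)) =
      Nat.card V * Nat.card ↥(H ⊓ Subgroup.centralizer ({v} : Set G)) := by
  set C := Subgroup.centralizer ({v} : Set G) with hC
  have hVC : V ≤ C := by
    intro a ha
    rw [hC, Subgroup.mem_centralizer_singleton_iff]
    exact hab a ha v hv
  obtain ⟨h1, h2⟩ := sup_inf_of_isComplement' hc
  rw [← Nat.card_prod]
  refine (Nat.card_congr ?_).symm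
  refine Equiv.ofBijective (fun x : V × ↥(H ⊓ C) => (⟨(x.1 : G) * (x.2 : G), C.mul_mem (hVC x.1.2) x.2.2.2⟩ : C)) ⟨?_, ?_⟩
  · intro x y hxy
    have h3 : (x.1 : G) * (x.2 : G) = (y.1 : G) * (y.2 : G) := congrArg Subtype.val hxy
    have h4 : (y.1 : G)⁻¹ * (x.1 : G) = (y.2 : G) * (x.2 : G)⁻¹ := by
      rw [inv_mul_eq_iff_eq_mul, ← mul_assoc, ← h3]; group
    have h5 : (y.1 : G)⁻¹ * (x.1 : G) ∈ V ⊓ H := ⟨V.mul_mem (V.inv_mem y.1.2) x.1.2, by
      rw [h4]; exact H.mul_mem y.2.2.1 (H.inv_mem x.2.2.1)⟩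
    rw [h2, Subgroup.mem_bot] at h5
    have h6 : (x.1 : G) = y.1 := (inv_mul_eq_one.1 h5).symm
    rw [h5] at h4
    have h7 : (x.2 : G) = y.2 := (mul_inv_eq_one.1 h4.symm).symm
    exact Prod.ext (Subtype.ext h6) (Subtype.ext h7)
  · intro c
    have hg : (c : G) ∈ V ⊔ H := by rw [h1]; trivial
    rw [Subgroup.mem_sup_of_normal_left] at hg
    obtain ⟨k, hk, n, hn, hkn⟩ := hg
    have h3 : n ∈ C := by
      have : n = k⁻¹ * c := by rw [← hkn]; group
      rw [this]; exact C.mul_mem (C.inv_mem (hVC hk)) c.2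
    exact ⟨(⟨k, hk⟩, ⟨n, hn, h3⟩), Subtype.ext hkn⟩

theorem stabilizer_bound [Finite G] [hp : Fact p.Prime] (V : Subgroup G) [V.Normal] (hVp : IsPGroup p V)
    (hidx : ¬ p ∣ V.index) (hab : ∀ a ∈ V, ∀ b ∈ V, a * b = b * a) (H : Subgroup G)
    (hc : V.IsComplement' H) (v : G) (hv : v ∈ V) :
    Nat.card (ConjClasses G) + Nat.card H ≤
      Nat.card ↥(H ⊓ Subgroup.centralizer ({v} : Set G)) * Nat.card V + Nat.card (ConjClasses H) := by
  classical
  have := Fintype.ofFinite G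
  obtain ⟨M, hM⟩ := H76Char.exists_isPModular p
  have := isPrime hM
  obtain ⟨h1, h2⟩ := sup_inf_of_isComplement' hc
  obtain ⟨k, hk⟩ := IsPGroup.iff_orderOf.1 hVp ⟨v, hv⟩
  rw [Subgroup.orderOf_mk] at hk
  set A := Finset.univ.filter (fun χ : IrrCharacter G => ∀ n ∈ V, (χ : G → ℂ) n = (χ : G → ℂ) 1) with hA
  set B := Finset.univ.filter (fun χ : IrrCharacter G => ¬ ∀ n ∈ V, (χ : G → ℂ) n = (χ : G → ℂ) 1) with hB
  have hAc : A.card = Nat.card (ConjClasses H) := by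
    obtain ⟨e⟩ := exists_irrEquiv V H h1 h2
    rw [← card_irr, Nat.card_congr e, Nat.card_eq_fintype_card, Fintype.card_subtype]
  have hABc : A.card + B.card = Nat.card (ConjClasses G) := by
    rw [hA, hB, Finset.card_filter_add_card_filter_not, Finset.card_univ, ← card_irr, Nat.card_eq_fintype_card]
  have hnz : ∀ χ : IrrCharacter G, (χ : G → ℂ) v ≠ 0 := by
    intro χ h0
    have h3 := idl_sub_one_value hM χ.2.isCharacter hk
    rw [h0, zero_sub, idl_neg_iff, ← BlockDeg.charDegree_cast_irr, idl_natCast_iff hM] at h3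
    exact hidx (h3.trans (CharDegrees.ito χ.2 V hab _ (BlockDeg.charDegree_cast_irr χ).symm))
  have hBs : (B.card : ℝ) ≤ ∑ χ ∈ B, ‖(χ : G → ℂ) v‖ ^ 2 := by
    apply card_le_sum_irr B v (fun χ _ => hnz χ)
    intro χ hχ u
    rw [hB, Finset.mem_filter] at hχ ⊢
    refine ⟨Finset.mem_univ _, fun h3 => hχ.2 fun n hn => ?_⟩
    have h4 : (pw n u⁻¹) ∈ V := by unfold pw; exact V.pow_mem hn _
    have h5 := h3 _ h4
    rw [twist_apply, twist_apply, pw_inv_cancel'] at h5
    rw [h5]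
    have h6 : pw (1 : G) u = 1 := by unfold pw; exact one_pow _
    rw [h6]
  have hAs : ∑ χ ∈ A, ‖(χ : G → ℂ) v‖ ^ 2 = (Nat.card H : ℝ) := by
    have h3 := sum_sq_ker V
    have h4 : V.index = Nat.card H := hc.symm.index_eq_card
    rw [h4] at h3
    have h5 : ((∑ χ ∈ A, charDegree (χ : G → ℂ) ^ 2 : ℕ) : ℝ) = (Nat.card H : ℝ) := by
      rw [hA]
      have : (∑ χ ∈ Finset.univ.filter (fun χ : IrrCharacter G => ∀ n ∈ V, (χ : G → ℂ) n = (χ : G → ℂ) 1),
        charDegree (χ : G → ℂ) ^ 2) = Nat.card H := by convert h3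
      rw [this]
    rw [← h5]
    push_cast
    refine Finset.sum_congr rfl fun χ hχ => ?_
    rw [hA, Finset.mem_filter] at hχ
    rw [hχ.2 v hv, ← BlockDeg.charDegree_cast_irr, Complex.norm_natCast]
  have htot : ∑ χ : IrrCharacter G, ‖(χ : G → ℂ) v‖ ^ 2 =
      (Nat.card ↥(H ⊓ Subgroup.centralizer ({v} : Set G)) * Nat.card V : ℝ) := by
    have h3 := column_orthogonality v v
    rw [if_pos (IsConj.refl v), card_centralizer_eq hc hab hv] at h3
    have h4 : ∀ w : ℂ, w * conj w = ((‖w‖ ^ 2 : ℝ) : ℂ) := by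
      intro w
      rw [Complex.mul_conj, Complex.normSq_eq_norm_sq]
    simp only [h4] at h3
    have h5 : ((∑ χ : IrrCharacter G, ‖(χ : G → ℂ) v‖ ^ 2 : ℝ) : ℂ) =
        ((Nat.card ↥(H ⊓ Subgroup.centralizer ({v} : Set G)) * Nat.card V : ℝ) : ℂ) := by
      push_cast at h3 ⊢
      rw [h3]; ring
    exact_mod_cast h5
  have hsplit : ∑ χ : IrrCharacter G, ‖(χ : G → ℂ) v‖ ^ 2 =
      ∑ χ ∈ A, ‖(χ : G → ℂ) v‖ ^ 2 + ∑ χ ∈ B, ‖(χ : G → ℂ) v‖ ^ 2 := by
    rw [hA, hB, Finset.sum_filter_add_sum_filter_not]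
  rw [hsplit, hAs] at htot
  have h3 : ((Nat.card (ConjClasses G) + Nat.card H : ℕ) : ℝ) ≤
      ((Nat.card ↥(H ⊓ Subgroup.centralizer ({v} : Set G)) * Nat.card V + Nat.card (ConjClasses H) : ℕ) : ℝ) := by
    push_cast
    rw [← hABc, ← hAc]
    push_cast
    linarith
  exact_mod_cast h3

end Cfsg.Agent.Lib.KGVBase
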