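import Mathlib
import Cfsg.Agent.Lib.KGVBase
import Cfsg.Agent.Lib.CycAvg
import Cfsg.Agent.Lib.CharDegrees

/-!
# The vector criterion for `k(GV)`
-/

set_option autoImplicit false
set_option linter.all false
set_option maxHeartbeats 400000

namespace Cfsg.Agent.Lib.KGVCrit

open Cfsg Cfsg.Agent.Lib.CharBasic Cfsg.Agent.Lib.BlockRing Cfsg.Agent.Lib.CycAvg
open scoped ComplexConjugate

universe u

section ZC

variable {H : Type u} [Group H] {N : ℕ}

/-- Combinations of characters with cyclotomic coefficients. -/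
def ZC (N : ℕ) (H : Type u) [Group H] : AddSubgroup (H → ℂ) :=
  AddSubgroup.closure {f | ∃ c ∈ Z N, ∃ ψ : H → ℂ, IsCharacter H ψ ∧ f = c • ψ}

theorem smul_char_mem {c : ℂ} (hc : c ∈ Z N) {ψ : H → ℂ} (hψ : IsCharacter H ψ) : c • ψ ∈ ZC N H :=
  AddSubgroup.subset_closure ⟨c, hc, ψ, hψ, rfl⟩

theorem char_mem {ψ : H → ℂ} (hψ : IsCharacter H ψ) : ψ ∈ ZC N H := by
  have := smul_char_mem (Z N).one_mem hψ
  rwa [one_smul] at this

theorem smul_mem {c : ℂ} (hc : c ∈ Z N) {f : H → ℂ} (hf : f ∈ ZC N H) : c • f ∈ ZC N H := by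
  induction hf using AddSubgroup.closure_induction with
  | mem f hf =>
    obtain ⟨d, hd, ψ, hψ, rfl⟩ := hf
    rw [smul_smul]
    exact smul_char_mem ((Z N).mul_mem hc hd) hψ
  | zero => rw [smul_zero]; exact (ZC N H).zero_mem
  | add a b _ _ ha hb => rw [smul_add]; exact (ZC N H).add_mem ha hb
  | neg a _ ha => rw [smul_neg]; exact (ZC N H).neg_mem ha

theorem mul_mem {f g : H → ℂ} (hf : f ∈ ZC N H) (hg : g ∈ ZC N H) : f * g ∈ ZC N H := by
  induction hf using AddSubgroup.closure_induction with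
  | mem f hf =>
    obtain ⟨c, hc, ψ, hψ, rfl⟩ := hf
    rw [smul_mul_assoc]
    refine smul_mem hc ?_
    induction hg using AddSubgroup.closure_induction with
    | mem g hg =>
      obtain ⟨d, hd, φ, hφ, rfl⟩ := hg
      rw [mul_smul_comm]
      exact smul_char_mem hd (hψ.mul hφ)
    | zero => rw [mul_zero]; exact (ZC N H).zero_mem
    | add a b _ _ ha hb => rw [mul_add]; exact (ZC N H).add_mem ha hb
    | neg a _ ha => rw [mul_neg]; exact (ZC N H).neg_mem ha
  | zero => rw [zero_mul]; exact (ZC N H).zero_mem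
  | add a b _ _ ha hb => rw [add_mul]; exact (ZC N H).add_mem ha hb
  | neg a _ ha => rw [neg_mul]; exact (ZC N H).neg_mem ha

theorem one_mem : (1 : H → ℂ) ∈ ZC N H := char_mem isCharacter_one

theorem prod_mem {ι : Type*} (s : Finset ι) (f : ι → H → ℂ) (h : ∀ i ∈ s, f i ∈ ZC N H) :
    ∏ i ∈ s, f i ∈ ZC N H := by
  classical
  induction s using Finset.induction_on with
  | empty => rw [Finset.prod_empty]; exact one_mem
  | insert a s ha ih =>
    rw [Finset.prod_insert ha]
    exact mul_mem (h a (Finset.mem_insert_self _ _)) (ih fun i hi => h i (Finset.mem_insert_of_mem hi))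

theorem pow_mem' {f : H → ℂ} (hf : f ∈ ZC N H) (n : ℕ) : f ^ n ∈ ZC N H := by
  induction n with
  | zero => rw [pow_zero]; exact one_mem
  | succ n ih => rw [pow_succ]; exact mul_mem ih hf

theorem char_val_mem [Finite H] {ψ : H → ℂ} (hψ : IsCharacter H ψ) {g : H} (hN : orderOf g ∣ N) : ψ g ∈ Z N := by
  obtain ⟨n, ρ, rfl⟩ := hψ
  obtain ⟨μ, h1, h2⟩ := CharValues.exists_eigenvalues ρ g
  have h3 := h2 1
  simp only [pow_one] at h3
  rw [h3]
  refine (Z N).sum_mem fun i _ => root_mem ?_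
  obtain ⟨k, hk⟩ := hN
  rw [hk, pow_mul, h1, one_pow]

theorem val_mem [Finite H] (hN : Nat.card H ∣ N) {f : H → ℂ} (hf : f ∈ ZC N H) (g : H) : f g ∈ Z N := by
  induction hf using AddSubgroup.closure_induction with
  | mem f hf =>
    obtain ⟨c, hc, ψ, hψ, rfl⟩ := hf
    exact (Z N).mul_mem hc (char_val_mem hψ ((orderOf_dvd_natCard g).trans hN))
  | zero => exact (Z N).zero_mem
  | add a b _ _ ha hb => exact (Z N).add_mem ha hb
  | neg a _ ha => exact (Z N).neg_mem ha

theorem isClassFunction {f : H → ℂ} (hf : f ∈ ZC N H) : IsClassFunction H f := by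
  induction hf using AddSubgroup.closure_induction with
  | mem f hf =>
    obtain ⟨c, hc, ψ, hψ, rfl⟩ := hf
    exact hψ.isClassFunction.smul c
  | zero => intro g h; rfl
  | add a b _ _ ha hb => exact ha.add hb
  | neg a _ ha => exact ha.neg

theorem inner_mem [Fintype H] {f φ : H → ℂ} (hf : f ∈ ZC N H) (hφ : IsCharacter H φ) : classInner f φ ∈ Z N := by
  induction hf using AddSubgroup.closure_induction with
  | mem f hf =>
    obtain ⟨c, hc, ψ, hψ, rfl⟩ := hf
    rw [classInner_smul_left]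
    obtain ⟨n, hn⟩ := hψ.classInner_nat hφ
    rw [hn]
    exact (Z N).mul_mem hc (natCast_mem _ n)
  | zero => rw [classInner_zero_left]; exact (Z N).zero_mem
  | add a b _ _ ha hb => rw [classInner_add_left]; exact (Z N).add_mem ha hb
  | neg a _ ha => rw [classInner_neg_left]; exact (Z N).neg_mem ha

theorem mem_of_inner [Fintype H] {f : H → ℂ} (hf : IsClassFunction H f)
    (h : ∀ φ : IrrCharacter H, classInner f (φ : H → ℂ) ∈ Z N) : f ∈ ZC N H := by
  rw [hf.expansion]
  exact (ZC N H).sum_mem fun φ _ => smul_char_mem (h φ) φ.2.isCharacter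

/-- A class function with values in `Z N` a multiple of which by an integer prime to `|H|` is in `ZC`. -/
theorem mem_of_coprime [Finite H] (hN : Nat.card H ∣ N) {f : H → ℂ} (hf : IsClassFunction H f)
    (hv : ∀ g, f g ∈ Z N) {a : ℕ} (ha : a.Coprime (Nat.card H)) (h : (a : ℂ) • f ∈ ZC N H) : f ∈ ZC N H := by
  have := Fintype.ofFinite H
  refine mem_of_inner hf fun φ => ?_
  have h1 : (a : ℂ) * classInner f (φ : H → ℂ) ∈ Z N := by
    rw [← classInner_smul_left]
    exact inner_mem h φ.2.isCharacter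
  have h2 : (Nat.card H : ℂ) * classInner f (φ : H → ℂ) ∈ Z N := by
    have hH : (Nat.card H : ℂ) ≠ 0 := Nat.cast_ne_zero.2 Nat.card_pos.ne'
    rw [classInner_def, mul_inv_cancel_left₀ hH]
    refine (Z N).sum_mem fun g _ => (Z N).mul_mem (hv g) (conj_mem (char_val_mem φ.2.isCharacter ((orderOf_dvd_natCard g).trans hN)))
  have h3 := Nat.gcd_eq_gcd_ab a (Nat.card H)
  rw [ha.gcd_eq_one] at h3
  have h4 : (1 : ℂ) = (a : ℂ) * (Nat.gcdA a (Nat.card H) : ℂ) + (Nat.card H : ℂ) * (Nat.gcdB a (Nat.card H) : ℂ) := by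
    exact_mod_cast h3
  have h5 : classInner f (φ : H → ℂ) = (Nat.gcdA a (Nat.card H) : ℂ) * ((a : ℂ) * classInner f (φ : H → ℂ)) +
      (Nat.gcdB a (Nat.card H) : ℂ) * ((Nat.card H : ℂ) * classInner f (φ : H → ℂ)) := by
    linear_combination (classInner f (φ : H → ℂ)) * h4
  rw [h5]
  exact (Z N).add_mem ((Z N).mul_mem (intCast_mem _ _) h1) ((Z N).mul_mem (intCast_mem _ _) h2)

end ZC

section inner

variable {X H A : Type u} [Group X] [Group H] [Group A] {N : ℕ}

/-- Separate a commuting abelian group. -/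
theorem inner_v_aux [Fintype H] [Finite A] (hA : ∀ a b : A, a * b = b * a) (hAN : Nat.card A ∣ N)
    (e : A →* X) (f : H →* X) (hc : ∀ a y, Commute (e a) (f y)) (v : A) {χ : X → ℂ} (hχ : IsCharacter X χ)
    {ψ φ : H → ℂ} (hψ : IsCharacter H ψ) (hφ : IsCharacter H φ) :
    classInner (fun y => χ (e v * f y) * ψ y) φ ∈ Z N := by
  classical
  have := Fintype.ofFinite A
  let ι : A × H →* X := MonoidHom.noncommCoprod e f hc
  have hι : ∀ a y, ι (a, y) = e a * f y := fun a y => rfl
  have hΘ : IsCharacter (A × H) (fun x => χ (ι x) * ψ x.2) :=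
    (hχ.comp ι).mul (hψ.comp (MonoidHom.snd A H))
  have hL : ∀ l : IrrCharacter A, IsCharacter (A × H) (fun x => (l : A → ℂ) x.1 * φ x.2) := fun l =>
    (l.2.isCharacter.comp (MonoidHom.fst A H)).mul (hφ.comp (MonoidHom.snd A H))
  have key : classInner (fun y => χ (e v * f y) * ψ y) φ =
      ∑ l : IrrCharacter A, (l : A → ℂ) v * classInner (fun x : A × H => χ (ι x) * ψ x.2) (fun x => (l : A → ℂ) x.1 * φ x.2) := by
    simp only [classInner_def, Finset.mul_sum]
    rw [Finset.sum_comm]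
    have hAc : (Nat.card A : ℂ) ≠ 0 := Nat.cast_ne_zero.2 Nat.card_pos.ne'
    have h1 : ∀ x : A × H, ∑ l : IrrCharacter A, (l : A → ℂ) v * ((Nat.card (A × H) : ℂ)⁻¹ *
        (χ (ι x) * ψ x.2 * conj ((l : A → ℂ) x.1 * φ x.2))) =
        if x.1 = v then (Nat.card H : ℂ)⁻¹ * (χ (ι x) * ψ x.2 * conj (φ x.2)) else 0 := by
      intro x
      have h2 : ∀ l : IrrCharacter A, (l : A → ℂ) v * ((Nat.card (A × H) : ℂ)⁻¹ *
        (χ (ι x) * ψ x.2 * conj ((l : A → ℂ) x.1 * φ x.2))) = ((Nat.card (A × H) : ℂ)⁻¹ *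
        (χ (ι x) * ψ x.2 * conj (φ x.2))) * ((l : A → ℂ) v * conj ((l : A → ℂ) x.1)) := by
        intro l; rw [map_mul]; ring
      rw [Finset.sum_congr rfl fun l _ => h2 l, ← Finset.mul_sum, column_orthogonality]
      have h3 : IsConj v x.1 ↔ x.1 = v := by
        rw [isConj_iff]
        constructor
        · rintro ⟨c, hc⟩
          rw [hA c v, mul_inv_cancel_right] at hc
          exact hc.symm
        · intro h; exact ⟨1, by rw [h]; simp⟩
      by_cases hx : x.1 = v
      · rw [if_pos (h3.2 hx), if_pos hx]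
        have h4 : Subgroup.centralizer ({v} : Set A) = ⊤ := by
          rw [eq_top_iff]
          intro a _
          rw [Subgroup.mem_centralizer_singleton_iff]
          exact hA a v
        rw [h4, Subgroup.card_top, Nat.card_prod]
        push_cast
        rw [mul_inv]
        field_simp
      · rw [if_neg (fun h => hx (h3.1 h)), if_neg hx, mul_zero]
    rw [Finset.sum_congr rfl fun x _ => h1 x, Fintype.sum_prod_type, Finset.sum_eq_single v]
    · simp only [if_true]
      rfl
    · intro a _ ha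
      simp only [ha, if_false, Finset.sum_const_zero]
    · intro h; exact absurd (Finset.mem_univ _) h
  rw [key]
  refine (Z N).sum_mem fun l _ => ?_
  obtain ⟨n, hn⟩ := hΘ.classInner_nat (hL l)
  rw [hn]
  exact (Z N).mul_mem (char_val_mem l.2.isCharacter ((orderOf_dvd_natCard v).trans hAN)) (natCast_mem _ n)

theorem inner_v [Fintype H] [Finite X] (hXN : Nat.card X ∣ N) (f : H →* X) (v : X) (hc : ∀ y, Commute v (f y))
    {χ : X → ℂ} (hχ : IsCharacter X χ) {τ φ : H → ℂ} (hτ : τ ∈ ZC N H) (hφ : IsCharacter H φ) :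
    classInner (fun y => χ (v * f y) * τ y) φ ∈ Z N := by
  induction hτ using AddSubgroup.closure_induction with
  | mem τ hτ =>
    obtain ⟨c, hc', ψ, hψ, rfl⟩ := hτ
    have h1 : (fun y => χ (v * f y) * (c • ψ) y) = c • (fun y => χ (v * f y) * ψ y) := by
      funext y
      simp only [Pi.smul_apply, smul_eq_mul]
      ring
    rw [h1, classInner_smul_left]
    refine (Z N).mul_mem hc' ?_
    exact inner_v_aux (A := ↥(Subgroup.zpowers v)) (N := N) (fun a b => by
      apply Subtype.ext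
      obtain ⟨i, hi⟩ := Subgroup.mem_zpowers_iff.1 a.2
      obtain ⟨j, hj⟩ := Subgroup.mem_zpowers_iff.1 b.2
      show (a : X) * b = b * a
      rw [← hi, ← hj, ← zpow_add, ← zpow_add, add_comm]) ((Subgroup.card_subgroup_dvd_card _).trans hXN)
      (Subgroup.zpowers v).subtype f (fun a y => by
      obtain ⟨i, hi⟩ := Subgroup.mem_zpowers_iff.1 a.2
      show Commute (a : X) (f y)
      rw [← hi]
      exact (hc y).zpow_left i) ⟨v, Subgroup.mem_zpowers v⟩ hχ hψ hφ
  | zero =>
    have : (fun y => χ (v * f y) * (0 : H → ℂ) y) = 0 := by funext y; simp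
    rw [this, classInner_zero_left]; exact (Z N).zero_mem
  | add a b _ _ ha hb =>
    have : (fun y => χ (v * f y) * (a + b) y) = (fun y => χ (v * f y) * a y) + (fun y => χ (v * f y) * b y) := by
      funext y; simp [mul_add]
    rw [this, classInner_add_left]; exact (Z N).add_mem ha hb
  | neg a _ ha =>
    have : (fun y => χ (v * f y) * (-a) y) = -(fun y => χ (v * f y) * a y) := by
      funext y; simp
    rw [this, classInner_neg_left]; exact (Z N).neg_mem ha

end inner

section crit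

variable {X : Type u} [Group X] [Finite X] {p : ℕ} [hp : Fact p.Prime]

theorem sq_complex (w : ℂ) : w * conj w = ((‖w‖ ^ 2 : ℝ) : ℂ) := by
  rw [Complex.mul_conj, Complex.normSq_eq_norm_sq]

/-- elements commuting with `v y`. -/
theorem commute_of {v y g : X} (hvp : v ^ p = 1) (hy : ¬ p ∣ orderOf y) (hvy : Commute v y) (hg : Commute g (v * y)) :
    Commute g v ∧ Commute g y := by
  have h1 : Commute g (v ^ orderOf y) := by
    have h2 := hg.pow_right (orderOf y)
    rwa [hvy.mul_pow, pow_orderOf_eq_one, mul_one] at h2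
  have hc : (orderOf y).Coprime p := ((Nat.Prime.coprime_iff_not_dvd hp.out).2 hy).symm
  have h3 : Commute g v := by
    have h4 : (orderOf y).Coprime (orderOf v) := hc.coprime_dvd_right (orderOf_dvd_of_pow_eq_one hvp)
    obtain ⟨m, hm⟩ := exists_pow_eq_self_of_coprime h4
    rw [← hm]
    exact h1.pow_right m
  refine ⟨h3, ?_⟩
  have h5 := (h3.inv_right).mul_right hg
  rwa [inv_mul_cancel_left] at h5

theorem card_centralizer_le (V G : Subgroup X) [V.Normal] (hGV : V.IsComplement' G)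
    (hab : ∀ a ∈ V, ∀ b ∈ V, a * b = b * a) (hVexp : ∀ v ∈ V, v ^ p = 1) (hG : ¬ p ∣ Nat.card G)
    (v : X) (hv : v ∈ V) (H : Subgroup X) (hH : H = G ⊓ Subgroup.centralizer ({v} : Set X)) (y : H) :
    Nat.card (Subgroup.centralizer ({v * (y : X)} : Set X)) ≤ Nat.card {w : V // Commute (w : X) (y : X)} *
      Nat.card (Subgroup.centralizer ({y} : Set H)) := by
  classical
  subst hH
  obtain ⟨hsup, hinf⟩ := KGVBase.sup_inf_of_isComplement' hGV
  rw [← Nat.card_prod]
  have hy : ¬ p ∣ orderOf (y : X) := fun h => hG (h.trans (by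
    have h1 := orderOf_dvd_natCard (⟨(y : X), y.2.1⟩ : G)
    rwa [Subgroup.orderOf_mk] at h1))
  have hvy : Commute v (y : X) := by
    exact (Subgroup.mem_centralizer_singleton_iff.1 y.2.2).symm
  have key : ∀ g : Subgroup.centralizer ({v * (y : X)} : Set X), ∃ w : {w : V // Commute (w : X) (y : X)},
      ∃ h : Subgroup.centralizer ({y} : Set ↥(G ⊓ Subgroup.centralizer ({v} : Set X))),
      (w.1 : X) * ((h : ↥(G ⊓ Subgroup.centralizer ({v} : Set X))) : X) = (g : X) := by
    intro g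
    have hg := g.2
    rw [Subgroup.mem_centralizer_singleton_iff] at hg
    obtain ⟨h1, h2⟩ := commute_of (hVexp v hv) hy hvy (show Commute (g : X) (v * y) from hg)
    have hg' : (g : X) ∈ V ⊔ G := by rw [hsup]; trivial
    rw [Subgroup.mem_sup_of_normal_left] at hg'
    obtain ⟨w, hw, h, hh, hwh⟩ := hg'
    have hwv : Commute w v := hab w hw v hv
    have hhv : Commute h v := by
      have : h = w⁻¹ * g := by rw [← hwh]; group
      rw [this]
      exact hwv.inv_left.mul_left h1
    have h3 : w * h * y = y * (w * h) := by rw [hwh]; exact h2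
    have h4 : (y * w * (y : X)⁻¹)⁻¹ * w = (y : X) * h * (h * y)⁻¹ := by
      rw [inv_mul_eq_iff_eq_mul]
      calc w = w * h * y * (h * y)⁻¹ := by group
        _ = y * (w * h) * (h * y)⁻¹ := by rw [h3]
        _ = _ := by group
    have h6 : (y * w * (y : X)⁻¹)⁻¹ * w ∈ V ⊓ G := by
      refine ⟨V.mul_mem (V.inv_mem (‹V.Normal›.conj_mem w hw _)) hw, ?_⟩
      rw [h4]
      exact G.mul_mem (G.mul_mem y.2.1 hh) (G.inv_mem (G.mul_mem hh y.2.1))
    rw [hinf, Subgroup.mem_bot] at h6
    have h7 : Commute w y := by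
      have : y * w * (y : X)⁻¹ = w := inv_mul_eq_one.1 h6
      rw [mul_inv_eq_iff_eq_mul] at this
      exact this.symm
    have h8 : (y : X) * h = h * y := by
      rw [h6] at h4
      exact mul_inv_eq_one.1 h4.symm
    refine ⟨⟨⟨w, hw⟩, h7⟩, ⟨⟨h, hh, Subgroup.mem_centralizer_singleton_iff.2 hhv⟩, ?_⟩, hwh⟩
    rw [Subgroup.mem_centralizer_singleton_iff]
    apply Subtype.ext
    exact h8.symm
  choose w h hwh using key
  exact Nat.card_le_card_of_injective (fun g => (w g, h g)) (fun a b hab' => by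
    apply Subtype.ext
    rw [← hwh a, ← hwh b]
    have e1 : w a = w b := congrArg Prod.fst hab'
    have e2 : h a = h b := congrArg Prod.snd hab'
    rw [e1, e2])

/-- The vector criterion. -/
theorem crit (V : Subgroup X) [V.Normal] (hVexp : ∀ v ∈ V, v ^ p = 1) (hidx : ¬ p ∣ V.index)
    (hself : Subgroup.centralizer (V : Set X) = V) (G : Subgroup X) (hGV : Subgroup.IsComplement' V G)
    (v : X) (hv : v ∈ V) {M : Ideal AlgInt} (hM : IsPModular p M) {N : ℕ} [NeZero N] (hN : Nat.card X ∣ N)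
    (H : Subgroup X) (hH : H = G ⊓ Subgroup.centralizer ({v} : Set X)) (τ : H → ℂ)
    (h1 : τ ∈ ZC N H) (h2 : ¬ MemLocalIdeal M (τ 1))
    (h3 : ∀ y, y ≠ 1 → MemLocalIdeal M (τ y))
    (h4 : ∀ u y, ‖sig N u (τ y)‖ ^ 2 * Nat.card {w : V // Commute (w : X) (y : X)} ≤ Nat.card V) :
    Nat.card (ConjClasses X) ≤ Nat.card V := by
  classical
  have := Fintype.ofFinite X
  have := Fintype.ofFinite H
  haveI := isPrime hM
  have hNpos : 0 < N := NeZero.pos N
  have hHN : Nat.card H ∣ N := (Subgroup.card_subgroup_dvd_card H).trans hN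
  have hab : ∀ a ∈ V, ∀ b ∈ V, a * b = b * a := by
    intro a ha b hb
    have h5 : a ∈ Subgroup.centralizer (V : Set X) := by rw [hself]; exact ha
    exact (Subgroup.mem_centralizer_iff.1 h5 b hb).symm
  have hGc : ¬ p ∣ Nat.card G := by rwa [hGV.symm.index_eq_card] at hidx
  have hcomm : ∀ y : H, Commute v (y : X) := fun y => by
    have h5 : (y : X) ∈ G ⊓ Subgroup.centralizer ({v} : Set X) := hH ▸ y.2
    exact (Subgroup.mem_centralizer_singleton_iff.1 h5.2).symm
  have hHc : ¬ p ∣ Nat.card H := fun h => hGc (h.trans (Subgroup.card_dvd_of_le (hH ▸ inf_le_left)))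
  let x : IrrCharacter X → IrrCharacter H → ℂ := fun χ φ =>
    classInner (fun y : H => (χ : X → ℂ) (v * y) * τ y) (φ : H → ℂ)
  have hxZ : ∀ χ φ, x χ φ ∈ Z N := fun χ φ =>
    inner_v hN H.subtype v hcomm χ.2.isCharacter h1 φ.2.isCharacter
  have hx0 : ∀ χ φ, x χ φ ≠ 0 := by
    intro χ φ h0
    have h5 : ∑ y : H, (χ : X → ℂ) (v * y) * τ y * conj ((φ : H → ℂ) y) = 0 := by
      have hc : (Nat.card H : ℂ)⁻¹ ≠ 0 := inv_ne_zero (Nat.cast_ne_zero.2 Nat.card_pos.ne')
      have h6 : x χ φ = (Nat.card H : ℂ)⁻¹ * ∑ y : H, (χ : X → ℂ) (v * y) * τ y * conj ((φ : H → ℂ) y) := rfl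
      rw [h0] at h6
      exact (mul_eq_zero.1 h6.symm).resolve_left hc
    rw [← Finset.add_sum_erase _ _ (Finset.mem_univ (1 : H))] at h5
    have hloc1 : ∀ g, MemLocalRing M ((χ : X → ℂ) g) := fun g =>
      loc_of_mem hNpos (char_val_mem χ.2.isCharacter ((orderOf_dvd_natCard g).trans hN))
    have hloc2 : ∀ g, MemLocalRing M ((φ : H → ℂ) g) := fun g =>
      loc_of_mem hNpos (char_val_mem φ.2.isCharacter ((orderOf_dvd_natCard g).trans hHN))
    have hloc3 : ∀ g, MemLocalRing M (conj ((φ : H → ℂ) g)) := fun g =>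
      loc_of_mem hNpos (conj_mem (char_val_mem φ.2.isCharacter ((orderOf_dvd_natCard g).trans hHN)))
    have h6 : MemLocalIdeal M (∑ y ∈ Finset.univ.erase (1 : H), (χ : X → ℂ) (v * y) * τ y * conj ((φ : H → ℂ) y)) :=
      idl_sum fun y hy => idl_mul_right (idl_mul_left (hloc1 _) (h3 y (Finset.ne_of_mem_erase hy))) (hloc3 y)
    have h7 : MemLocalIdeal M ((χ : X → ℂ) (v * (1 : H)) * τ 1 * conj ((φ : H → ℂ) 1)) := by
      have h8 := idl_neg h6
      rwa [← eq_neg_of_add_eq_zero_left h5] at h8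
    rw [Subgroup.coe_one, mul_one] at h7
    have hτ := loc_of_mem (M := M) hNpos (val_mem hHN h1 1)
    rw [idl_mul_iff (loc_mul (hloc1 v) hτ) (hloc3 1), idl_mul_iff (hloc1 v) hτ] at h7
    rcases h7 with (h7 | h7) | h7
    · have hord : ∃ k, orderOf v = p ^ k := by
        rcases (Nat.dvd_prime hp.out).1 (orderOf_dvd_of_pow_eq_one (hVexp v hv)) with h | h
        · exact ⟨0, by rw [h, pow_zero]⟩
        · exact ⟨1, by rw [h, pow_one]⟩
      obtain ⟨k, hk⟩ := hord
      have h8 := KGVBase.idl_sub_one_value hM χ.2.isCharacter hk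
      rw [idl_congr h8, ← BlockDeg.charDegree_cast_irr, idl_natCast_iff hM] at h7
      exact hidx (h7.trans (CharDegrees.ito χ.2 V hab _ (BlockDeg.charDegree_cast_irr χ).symm))
    · exact h2 h7
    · rw [← BlockDeg.charDegree_cast_irr, Complex.conj_natCast, idl_natCast_iff hM] at h7
      have h8 := CharDegrees.ito φ.2 (⊥ : Subgroup H) (fun a ha b hb => by
        rw [Subgroup.mem_bot] at ha hb
        rw [ha, hb]) _ (BlockDeg.charDegree_cast_irr φ).symm
      rw [Subgroup.index_bot] at h8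
      exact hHc (h7.trans h8)
  have hτc := isClassFunction h1
  have hid : ∑ χ : IrrCharacter X, ∑ φ : IrrCharacter H, x χ φ * conj (x χ φ) =
      (Nat.card H : ℂ)⁻¹ * ∑ y : H, (Nat.card (Subgroup.centralizer ({v * (y : X)} : Set X)) : ℂ) * (τ y * conj (τ y)) := by
    have h5 : ∀ χ : IrrCharacter X, ∑ φ : IrrCharacter H, x χ φ * conj (x χ φ) =
        classInner (fun y : H => (χ : X → ℂ) (v * y) * τ y) (fun y : H => (χ : X → ℂ) (v * y) * τ y) := by
      intro χ
      refine (IsClassFunction.classInner_eq_sum (f := fun y : H => (χ : X → ℂ) (v * y) * τ y) ?_ _).symm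
      intro g h
      show (χ : X → ℂ) (v * ((h * g * h⁻¹ : H) : X)) * τ (h * g * h⁻¹) = _
      rw [hτc g h]
      congr 1
      have h6 : v * ((h * g * h⁻¹ : H) : X) = (h : X) * (v * g) * (h : X)⁻¹ := by
        push_cast
        rw [← mul_assoc, ← mul_assoc, ← mul_assoc, (hcomm h).eq]
      rw [h6]
      exact χ.2.isClassFunction (v * g) h
    rw [Finset.sum_congr rfl fun χ _ => h5 χ]
    simp only [classInner_def]
    rw [← Finset.mul_sum, Finset.sum_comm]
    congr 1
    refine Finset.sum_congr rfl fun y _ => ?_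
    have h6 := column_orthogonality (v * (y : X)) (v * (y : X))
    rw [if_pos (IsConj.refl _)] at h6
    rw [← h6, Finset.sum_mul]
    refine Finset.sum_congr rfl fun χ _ => ?_
    rw [map_mul]; ring
  have hE : ∀ u : (ZMod N)ˣ, ∑ χ : IrrCharacter X, ∑ φ : IrrCharacter H, ‖sig N u (x χ φ)‖ ^ 2 =
      (Nat.card H : ℝ)⁻¹ * ∑ y : H, (Nat.card (Subgroup.centralizer ({v * (y : X)} : Set X)) : ℝ) * ‖sig N u (τ y)‖ ^ 2 := by
    intro u
    have h5 := congrArg (sig N u) hid
    simp only [map_sum, map_mul, map_inv₀, map_natCast] at h5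
    have h6 : ∀ χ φ, sig N u (x χ φ) * sig N u (conj (x χ φ)) = ((‖sig N u (x χ φ)‖ ^ 2 : ℝ) : ℂ) := by
      intro χ φ
      rw [sig_conj u (hxZ χ φ), sq_complex]
    have h7 : ∀ y, sig N u (τ y) * sig N u (conj (τ y)) = ((‖sig N u (τ y)‖ ^ 2 : ℝ) : ℂ) := by
      intro y
      rw [sig_conj u (val_mem hHN h1 y), sq_complex]
    simp only [h6, h7] at h5
    apply Complex.ofReal_injective
    push_cast
    push_cast at h5
    exact h5
  have hk : (Nat.card H : ℝ)⁻¹ * ∑ y : H, (Nat.card (Subgroup.centralizer ({y} : Set H)) : ℝ) =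
      Nat.card (IrrCharacter H) := by
    have h5 : ∑ y : H, (Nat.card (Subgroup.centralizer ({y} : Set H)) : ℂ) =
        (Nat.card H : ℂ) * Nat.card (IrrCharacter H) := by
      have h6 : ∀ y : H, (Nat.card (Subgroup.centralizer ({y} : Set H)) : ℂ) =
          ∑ φ : IrrCharacter H, (φ : H → ℂ) y * conj ((φ : H → ℂ) y) := by
        intro y
        rw [column_orthogonality, if_pos (IsConj.refl _)]
      rw [Finset.sum_congr rfl fun y _ => h6 y, Finset.sum_comm]
      have h7 : ∀ φ : IrrCharacter H, ∑ y : H, (φ : H → ℂ) y * conj ((φ : H → ℂ) y) = (Nat.card H : ℂ) := by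
        intro φ
        have h8 := φ.2.classInner_self
        rw [classInner_def] at h8
        have hc : (Nat.card H : ℂ) ≠ 0 := Nat.cast_ne_zero.2 Nat.card_pos.ne'
        field_simp at h8
        exact h8
      rw [Finset.sum_congr rfl fun φ _ => h7 φ, Finset.sum_const, Finset.card_univ, nsmul_eq_mul,
        Nat.card_eq_fintype_card (α := IrrCharacter H), mul_comm]
    have hc : (Nat.card H : ℝ) ≠ 0 := Nat.cast_ne_zero.2 Nat.card_pos.ne'
    have h6 : ∑ y : H, (Nat.card (Subgroup.centralizer ({y} : Set H)) : ℝ) =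
        (Nat.card H : ℝ) * Nat.card (IrrCharacter H) := by exact_mod_cast h5
    rw [h6, inv_mul_cancel_left₀ hc]
  have hle : ∀ u : (ZMod N)ˣ, ∑ χ : IrrCharacter X, ∑ φ : IrrCharacter H, ‖sig N u (x χ φ)‖ ^ 2 ≤
      Nat.card V * Nat.card (IrrCharacter H) := by
    intro u
    have h0 : (Nat.card V : ℝ) * Nat.card (IrrCharacter H) = (Nat.card H : ℝ)⁻¹ *
        ∑ y : H, (Nat.card V : ℝ) * (Nat.card (Subgroup.centralizer ({y} : Set H)) : ℝ) := by
      rw [← hk, ← Finset.mul_sum]; ring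
    rw [hE u, h0]
    have hinv : (0 : ℝ) ≤ (Nat.card H : ℝ)⁻¹ := by positivity
    refine mul_le_mul_of_nonneg_left (Finset.sum_le_sum fun y _ => ?_) hinv
    have h5 := card_centralizer_le (p := p) V G hGV hab hVexp hGc v hv H hH y
    have h6 : (Nat.card (Subgroup.centralizer ({v * (y : X)} : Set X)) : ℝ) ≤
        Nat.card {w : V // Commute (w : X) (y : X)} * Nat.card (Subgroup.centralizer ({y} : Set H)) := by
      exact_mod_cast h5
    calc (Nat.card (Subgroup.centralizer ({v * (y : X)} : Set X)) : ℝ) * ‖sig N u (τ y)‖ ^ 2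
        ≤ (Nat.card {w : V // Commute (w : X) (y : X)} * Nat.card (Subgroup.centralizer ({y} : Set H))) *
          ‖sig N u (τ y)‖ ^ 2 := mul_le_mul_of_nonneg_right h6 (by positivity)
      _ = (‖sig N u (τ y)‖ ^ 2 * Nat.card {w : V // Commute (w : X) (y : X)}) *
          Nat.card (Subgroup.centralizer ({y} : Set H)) := by ring
      _ ≤ _ := mul_le_mul_of_nonneg_right (h4 u y) (by positivity)
  have hsum : ∑ χ : IrrCharacter X, ∑ φ : IrrCharacter H, avn N (x χ φ) ≤ Nat.card V * Nat.card (IrrCharacter H) := by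
    have h5 : ∑ χ : IrrCharacter X, ∑ φ : IrrCharacter H, avn N (x χ φ) =
        (∑ u : (ZMod N)ˣ, ∑ χ : IrrCharacter X, ∑ φ : IrrCharacter H, ‖sig N u (x χ φ)‖ ^ 2) / phi N := by
      unfold avn
      simp only [← Finset.sum_div]
      congr 1
      rw [Finset.sum_comm]
      simp only [Finset.sum_comm (s := (Finset.univ : Finset (ZMod N)ˣ))]
      rw [Finset.sum_comm]
    rw [h5, div_le_iff₀ phi_pos]
    calc _ ≤ ∑ u : (ZMod N)ˣ, (Nat.card V * Nat.card (IrrCharacter H) : ℝ) := Finset.sum_le_sum fun u _ => hle u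
      _ = _ := by
        rw [Finset.sum_const, Finset.card_univ, nsmul_eq_mul, mul_comm]
        rfl
  have hge : (Nat.card (IrrCharacter X) * Nat.card (IrrCharacter H) : ℝ) ≤
      ∑ χ : IrrCharacter X, ∑ φ : IrrCharacter H, avn N (x χ φ) := by
    calc (Nat.card (IrrCharacter X) * Nat.card (IrrCharacter H) : ℝ) =
        ∑ χ : IrrCharacter X, ∑ φ : IrrCharacter H, (1 : ℝ) := by
          simp [Nat.card_eq_fintype_card]
      _ ≤ _ := Finset.sum_le_sum fun χ _ => Finset.sum_le_sum fun φ _ => one_le_avn (hxZ χ φ) (hx0 χ φ)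
  have hpos : (0 : ℝ) < Nat.card (IrrCharacter H) := by
    rw [card_irr]
    exact_mod_cast Nat.card_pos
  have hfin := hge.trans hsum
  have h5 := le_of_mul_le_mul_right hfin hpos
  rw [card_irr] at h5
  exact_mod_cast h5

end crit

end Cfsg.Agent.Lib.KGVCrit
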