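import Mathlib
import Cfsg.Agent.Lib.KGVCrit

/-!
# Good fixed point functions
-/

set_option autoImplicit false
set_option linter.all false
set_option maxHeartbeats 400000

namespace Cfsg.Agent.Lib.KGVGood

open Cfsg Cfsg.Agent.Lib.CharBasic Cfsg.Agent.Lib.BlockRing Cfsg.Agent.Lib.CycAvg Cfsg.Agent.Lib.KGVCrit
open scoped ComplexConjugate

universe u

variable {H : Type u} [Group H] [Finite H] {M : Ideal AlgInt} {N : ℕ} [NeZero N]

/-- A class function compensating the fixed points. -/
def Good (M : Ideal AlgInt) (N : ℕ) [NeZero N] (n : ℕ) (c : H → ℕ) : Prop :=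
  ∃ τ ∈ ZC N H, (∀ y, c y = n → ¬ MemLocalIdeal M (τ y)) ∧ (∀ y, c y ≠ n → MemLocalIdeal M (τ y)) ∧
    ∀ u y, ‖sig N u (τ y)‖ ^ 2 * c y ≤ n

theorem good_one [M.IsPrime] : Good M N 1 (fun _ : H => 1) := by
  refine ⟨1, one_mem, fun y _ => one_not_idl, fun y h => absurd rfl h, fun u y => ?_⟩
  simp

theorem Good.mul [M.IsPrime] (hN : Nat.card H ∣ N) {n m : ℕ} {c d : H → ℕ} (hc : Good M N n c) (hd : Good M N m d)
    (hcn : ∀ y, c y ≤ n) (hdm : ∀ y, d y ≤ m) (hn : 0 < n) (hm : 0 < m) : Good M N (n * m) (fun y => c y * d y) := by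
  obtain ⟨τ, h1, h2, h3, h4⟩ := hc
  obtain ⟨σ, k1, k2, k3, k4⟩ := hd
  have hl1 : ∀ y, MemLocalRing M (τ y) := fun y => loc_of_mem (NeZero.pos N) (val_mem hN h1 y)
  have hl2 : ∀ y, MemLocalRing M (σ y) := fun y => loc_of_mem (NeZero.pos N) (val_mem hN k1 y)
  have key : ∀ y, c y * d y = n * m → c y = n ∧ d y = m := by
    intro y h
    have e1 := hcn y
    have e2 := hdm y
    constructor
    · by_contra h'
      have : c y < n := lt_of_le_of_ne e1 h'
      have : c y * d y < n * m := by nlinarith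
      omega
    · by_contra h'
      have : d y < m := lt_of_le_of_ne e2 h'
      have : c y * d y < n * m := by nlinarith
      omega
  refine ⟨τ * σ, mul_mem h1 k1, fun y hy h => ?_, fun y hy => ?_, fun u y => ?_⟩
  · obtain ⟨e1, e2⟩ := key y hy
    rw [Pi.mul_apply, idl_mul_iff (hl1 y) (hl2 y)] at h
    rcases h with h | h
    · exact h2 y e1 h
    · exact k2 y e2 h
  · rw [Pi.mul_apply]
    by_cases e1 : c y = n
    · have e2 : d y ≠ m := fun e2 => hy (by show c y * d y = _; rw [e1, e2])
      exact idl_mul_left (hl1 y) (k3 y e2)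
    · exact idl_mul_right (h3 y e1) (hl2 y)
  · rw [Pi.mul_apply, map_mul, norm_mul, mul_pow]
    push_cast
    have a1 := h4 u y
    have a2 := k4 u y
    calc ‖sig N u (τ y)‖ ^ 2 * ‖sig N u (σ y)‖ ^ 2 * ((c y : ℝ) * (d y : ℝ)) =
        (‖sig N u (τ y)‖ ^ 2 * (c y : ℝ)) * (‖sig N u (σ y)‖ ^ 2 * (d y : ℝ)) := by ring
      _ ≤ (n : ℝ) * (m : ℝ) := mul_le_mul a1 a2 (by positivity) (by positivity)

theorem Good.prod [M.IsPrime] (hN : Nat.card H ∣ N) {ι : Type*} (s : Finset ι) {n : ι → ℕ} {c : ι → H → ℕ}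
    (h : ∀ i ∈ s, Good M N (n i) (c i)) (hle : ∀ i y, c i y ≤ n i) (hn : ∀ i, 0 < n i) :
    Good M N (∏ i ∈ s, n i) (fun y => ∏ i ∈ s, c i y) := by
  classical
  induction s using Finset.induction_on with
  | empty => simpa using good_one (M := M) (N := N) (H := H)
  | insert a s ha ih =>
    simp only [Finset.prod_insert ha]
    exact Good.mul hN (h a (Finset.mem_insert_self _ _)) (ih fun i hi => h i (Finset.mem_insert_of_mem hi))
      (hle a) (fun y => Finset.prod_le_prod' fun i _ => hle i y) (hn a) (Finset.prod_pos fun i _ => hn i)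

section app

variable {X : Type u} [Group X] [Finite X] {p : ℕ} [hp : Fact p.Prime]

theorem crit_of_good (V : Subgroup X) [V.Normal] (hVexp : ∀ v ∈ V, v ^ p = 1) (hidx : ¬ p ∣ V.index)
    (hself : Subgroup.centralizer (V : Set X) = V) (G : Subgroup X) (hGV : Subgroup.IsComplement' V G)
    (v : X) (hv : v ∈ V) {M : Ideal AlgInt} (hM : IsPModular p M) {N : ℕ} [NeZero N] (hN : Nat.card X ∣ N)
    (H : Subgroup X) (hH : H = G ⊓ Subgroup.centralizer ({v} : Set X)) (U : Subgroup X) (hUV : U ≤ V)
    (hfaith : ∀ h : H, (∀ w ∈ U, Commute w (h : X)) → h = 1)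
    (hg : Good M N (Nat.card U) (fun y : H => Nat.card {w : U // Commute (w : X) (y : X)})) :
    Nat.card (ConjClasses X) ≤ Nat.card V := by
  obtain ⟨τ, h1, h2, h3, h4⟩ := hg
  have hab : ∀ a ∈ V, ∀ b ∈ V, a * b = b * a := by
    intro a ha b hb
    have h5 : a ∈ Subgroup.centralizer (V : Set X) := by rw [hself]; exact ha
    exact (Subgroup.mem_centralizer_iff.1 h5 b hb).symm
  have hfull : ∀ y : H, Nat.card {w : U // Commute (w : X) (y : X)} = Nat.card U → y = 1 := by
    intro y hy
    apply hfaith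
    intro w hw
    have hsurj : Function.Surjective (Subtype.val : {w : U // Commute (w : X) (y : X)} → U) :=
      ((Nat.bijective_iff_injective_and_card _).2 ⟨Subtype.val_injective, hy⟩).2
    obtain ⟨w', hw'⟩ := hsurj ⟨w, hw⟩
    have := w'.2
    rw [hw'] at this
    exact this
  refine crit V hVexp hidx hself G hGV v hv hM hN H hH τ h1 (h2 1 ?_) (fun y hy => h3 y fun h => hy (hfull y h)) ?_
  · show Nat.card {w : U // Commute (w : X) ((1 : H) : X)} = Nat.card U
    refine Nat.card_congr (Equiv.subtypeUnivEquiv fun w => ?_)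
    rw [Subgroup.coe_one]
    exact Commute.one_right _
  · intro u y
    have hkey : Nat.card {w : V // Commute (w : X) (y : X)} * Nat.card U ≤
        Nat.card V * Nat.card {w : U // Commute (w : X) (y : X)} := by
      classical
      let C : Subgroup V := (Subgroup.centralizer ({(y : X)} : Set X)).subgroupOf V
      let U' : Subgroup V := U.subgroupOf V
      have e1 : Nat.card {w : V // Commute (w : X) (y : X)} = Nat.card C := by
        refine Nat.card_congr (Equiv.subtypeEquivRight fun w => ?_)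
        rw [Subgroup.mem_subgroupOf, Subgroup.mem_centralizer_singleton_iff]
        rfl
      have e2 : Nat.card U = Nat.card U' := (Nat.card_congr (Subgroup.subgroupOfEquivOfLe hUV).toEquiv).symm
      have e3 : Nat.card {w : U // Commute (w : X) (y : X)} = Nat.card (C ⊓ U' : Subgroup V) := by
        refine Nat.card_congr
          { toFun := fun w => ⟨⟨w.1, hUV w.1.2⟩, ⟨Subgroup.mem_subgroupOf.2 (Subgroup.mem_centralizer_singleton_iff.2 w.2),
              Subgroup.mem_subgroupOf.2 w.1.2⟩⟩
            invFun := fun w => ⟨⟨w.1, Subgroup.mem_subgroupOf.1 w.2.2⟩,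
              Subgroup.mem_centralizer_singleton_iff.1 (Subgroup.mem_subgroupOf.1 w.2.1)⟩
            left_inv := fun w => rfl
            right_inv := fun w => rfl }
      rw [e1, e2, e3]
      have : U'.Normal := ⟨fun n hn g => by
        have : g * n * g⁻¹ = n := by
          apply Subtype.ext
          push_cast
          rw [hab _ g.2 _ n.2, mul_inv_cancel_right]
        rw [this]; exact hn⟩
      have e4 := Subgroup.card_mul_index (C ⊓ U')
      have e5 : (C ⊓ U').relIndex C = U'.relIndex C := Subgroup.inf_relIndex_left ..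
      have e6 : Nat.card (C ⊓ U' : Subgroup V) * U'.relIndex C = Nat.card C := by
        have e9 := Subgroup.relIndex_mul_relIndex (⊥ : Subgroup V) (C ⊓ U') C bot_le inf_le_left
        rw [Subgroup.relIndex_bot_left, Subgroup.relIndex_bot_left, e5] at e9
        exact e9
      have e7 : U'.relIndex C ≤ U'.index := by
        exact Nat.le_of_dvd (Nat.pos_of_ne_zero Subgroup.index_ne_zero_of_finite) (Subgroup.relIndex_dvd_index_of_normal U' C)
      have e8 := Subgroup.card_mul_index U'
      calc Nat.card C * Nat.card U' = Nat.card (C ⊓ U' : Subgroup V) * (Nat.card U' * U'.relIndex C) := by rw [← e6]; ring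
        _ ≤ Nat.card (C ⊓ U' : Subgroup V) * (Nat.card U' * U'.index) := by gcongr
        _ = _ := by rw [e8]; ring
    have h5 := h4 u y
    have h6 : (Nat.card {w : V // Commute (w : X) (y : X)} : ℝ) * Nat.card U ≤
        Nat.card V * Nat.card {w : U // Commute (w : X) (y : X)} := by exact_mod_cast hkey
    have hU : (0 : ℝ) < Nat.card U := by exact_mod_cast Nat.card_pos
    have h7 : ‖sig N u (τ y)‖ ^ 2 * Nat.card {w : V // Commute (w : X) (y : X)} * Nat.card U ≤ Nat.card V * Nat.card U := by
      calc ‖sig N u (τ y)‖ ^ 2 * Nat.card {w : V // Commute (w : X) (y : X)} * Nat.card U =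
          ‖sig N u (τ y)‖ ^ 2 * (Nat.card {w : V // Commute (w : X) (y : X)} * Nat.card U) := by ring
        _ ≤ ‖sig N u (τ y)‖ ^ 2 * (Nat.card V * Nat.card {w : U // Commute (w : X) (y : X)}) :=
          mul_le_mul_of_nonneg_left h6 (by positivity)
        _ = Nat.card V * (‖sig N u (τ y)‖ ^ 2 * Nat.card {w : U // Commute (w : X) (y : X)}) := by ring
        _ ≤ _ := mul_le_mul_of_nonneg_left h5 (by positivity)
    exact le_of_mul_le_mul_right h7 hU

end app

end Cfsg.Agent.Lib.KGVGood
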