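import Mathlib
import Cfsg.Agent.Lib.KGVGood

/-!
# Gauss sums and abelian stabilizers
-/

set_option autoImplicit false
set_option linter.all false
set_option maxHeartbeats 400000

namespace Cfsg.Agent.Lib.KGVGauss

open Cfsg Cfsg.Agent.Lib.CharBasic Cfsg.Agent.Lib.BlockRing Cfsg.Agent.Lib.CycAvg Cfsg.Agent.Lib.KGVCrit
open Cfsg.Agent.Lib.KGVGood
open scoped ComplexConjugate

universe u

variable {H : Type u} [Group H] [Finite H] {M : Ideal AlgInt} {N : ℕ} [NeZero N] {p : ℕ}

theorem conj_gaussSum {K : Type*} [Field K] [Fintype K] (χ : MulChar K ℂ) (ψ : AddChar K ℂ) :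
    conj (gaussSum χ ψ) = gaussSum χ⁻¹ ψ⁻¹ := by
  unfold gaussSum
  rw [map_sum]
  refine Finset.sum_congr rfl fun a _ => ?_
  rw [map_mul]
  congr 1
  · exact MulChar.star_apply' χ a
  · rw [AddChar.inv_apply]
    exact (AddChar.map_neg_eq_conj ψ a).symm

theorem good_field (hM : IsPModular p M) (hpN : p ∣ N) (hHN : Nat.card H ∣ N) {K : Type*} [Field K] [Finite K]
    [CharP K p] (l : H →* Kˣ) :
    Good M N (Nat.card K) (fun y : H => Nat.card {a : K // (l y : K) * a = a}) := by
  classical
  haveI := isPrime hM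
  have := Fintype.ofFinite K
  have hp := hM.1
  haveI : Fact p.Prime := ⟨hp⟩
  obtain ⟨e⟩ := MulChar.mulEquiv_units K ℂ
  let ψ : AddChar K ℂ := AddChar.FiniteField.primitiveChar_to_Complex K
  have hψ : ψ.IsPrimitive := AddChar.FiniteField.primitiveChar_to_Complex_isPrimitive K
  have hψ1 : ψ ≠ 1 := by
    intro h
    have := hψ (one_ne_zero (α := K))
    rw [AddChar.mulShift_one] at this
    exact this h
  have hψp : ∀ a, ψ a ^ p = 1 := by
    intro a
    rw [← AddChar.map_nsmul_eq_pow, nsmul_eq_mul, CharP.cast_eq_zero, zero_mul, AddChar.map_zero_eq_one]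
  let X : H → MulChar K ℂ := fun y => e.symm (l y)
  have hc1 : ∀ y, l y = 1 → Nat.card {a : K // (l y : K) * a = a} = Nat.card K := by
    intro y hy
    refine Nat.card_congr (Equiv.subtypeUnivEquiv fun a => ?_)
    rw [hy, Units.val_one, one_mul]
  have hc2 : ∀ y, l y ≠ 1 → Nat.card {a : K // (l y : K) * a = a} = 1 := by
    intro y hy
    rw [Nat.card_eq_one_iff_unique]
    refine ⟨⟨fun a b => ?_⟩, ⟨⟨0, mul_zero _⟩⟩⟩
    have h0 : ∀ a : {a : K // (l y : K) * a = a}, (a : K) = 0 := by
      intro a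
      by_contra h
      apply hy
      apply Units.ext
      rw [Units.val_one]
      exact mul_right_cancel₀ h (by rw [a.2, one_mul])
    apply Subtype.ext
    rw [h0 a, h0 b]
  have hK1 : 1 < Nat.card K := Finite.one_lt_card
  have hX1 : ∀ y, X y = 1 ↔ l y = 1 := by
    intro y
    show e.symm (l y) = 1 ↔ _
    rw [← map_one e.symm, e.symm.injective.eq_iff]
  have hmem : (fun y => gaussSum (X y) ψ) ∈ ZC N H := by
    have h1 : (fun y => gaussSum (X y) ψ) = ∑ a : K, ψ a • (fun y => X y a) := by
      funext y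
      simp only [gaussSum, Finset.sum_apply, Pi.smul_apply, smul_eq_mul]
      exact Finset.sum_congr rfl fun a _ => mul_comm _ _
    rw [h1]
    refine (ZC N H).sum_mem fun a _ => ?_
    refine smul_mem (root_mem ?_) ?_
    · obtain ⟨k, hk⟩ := hpN
      rw [hk, pow_mul, hψp, one_pow]
    · by_cases ha : a = 0
      · have : (fun y => X y a) = 0 := by
          funext y
          rw [ha]
          exact MulChar.map_zero _
        rw [this]
        exact (ZC N H).zero_mem
      · let b : Kˣ := Units.mk0 a ha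
        let f : H →* ℂˣ := (MonoidHom.eval b).comp
          (MulChar.mulEquivToUnitHom.toMonoidHom.comp (e.symm.toMonoidHom.comp l))
        have h2 : (fun y => X y a) = fun y => (f y : ℂ) := by
          funext y
          show X y a = ((MulChar.toUnitHom (X y)) b : ℂ)
          rw [MulChar.coe_toUnitHom]
          rfl
        rw [h2]
        exact char_mem (isCharacter_of_unitsHom f)
  have hval : ∀ y, gaussSum (X y) ψ ∈ Z N := fun y => val_mem hHN hmem y
  refine ⟨fun y => gaussSum (X y) ψ, hmem, fun y hy => ?_, fun y hy => ?_, fun u y => ?_⟩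
  · have h1 : l y = 1 := by
      by_contra h
      have h2 := hc2 y h
      have h3 : Nat.card {a : K // (l y : K) * a = a} = Nat.card K := hy
      omega
    show ¬ MemLocalIdeal M (gaussSum (X y) ψ)
    rw [(hX1 y).2 h1, gaussSum_one_left hψ1, idl_neg_iff]
    exact one_not_idl
  · have h1 : l y ≠ 1 := fun h => hy (hc1 y h)
    have h2 : X y ≠ 1 := fun h => h1 ((hX1 y).1 h)
    have h3 : gaussSum (X y) ψ = ∑ a, X y a * (ψ a - 1) := by
      have h4 := MulChar.sum_eq_zero_of_ne_one h2
      simp only [mul_sub, mul_one, Finset.sum_sub_distrib, h4, sub_zero]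
      rfl
    show MemLocalIdeal M (gaussSum (X y) ψ)
    rw [h3]
    refine idl_sum fun a _ => idl_mul_left ?_ ?_
    · by_cases ha : a = 0
      · rw [ha, MulChar.map_zero]; exact loc_zero
      · refine loc_of_isIntegral (IsIntegral.of_pow (n := Fintype.card K - 1) (by rw [← Nat.card_eq_fintype_card]; omega) ?_)
        rw [← map_pow, FiniteField.pow_card_sub_one_eq_one a ha, map_one]
        exact isIntegral_one
    · exact idl_sub_one_of_pow hM (k := 1) (by rw [pow_one]; exact hψp a)
  · show ‖sig N u (gaussSum (X y) ψ)‖ ^ 2 * (Nat.card {a : K // (l y : K) * a = a} : ℝ) ≤ Nat.card K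
    by_cases h1 : l y = 1
    · rw [hc1 y h1, (hX1 y).2 h1, gaussSum_one_left hψ1]
      simp
    · rw [hc2 y h1]
      have h2 : X y ≠ 1 := fun h => h1 ((hX1 y).1 h)
      have h3 := gaussSum_mul_gaussSum_eq_card h2 hψ
      rw [← conj_gaussSum] at h3
      have h4 := congrArg (sig N u) h3
      rw [map_mul, sig_conj u (hval y), sq_complex, map_natCast] at h4
      have h5 : ‖sig N u (gaussSum (X y) ψ)‖ ^ 2 = (Fintype.card K : ℝ) := by exact_mod_cast h4
      rw [h5, Nat.cast_one, mul_one, Nat.card_eq_fintype_card]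

theorem good_abelian (hM : IsPModular p M) (hpN : p ∣ N) (hHN : Nat.card H ∣ N) (hcomm : ∀ a b : H, a * b = b * a)
    (hcop : ¬ p ∣ Nat.card H) {W : Type*} [AddCommGroup W] [Module (ZMod p) W] [Finite W]
    (ρ : Representation (ZMod p) H W) :
    Good M N (Nat.card W) (fun y : H => Nat.card {w : W // ρ y w = w}) := by
  classical
  haveI := isPrime hM
  haveI : Fact p.Prime := ⟨hM.1⟩
  letI : CommGroup H := { (inferInstance : Group H) with mul_comm := hcomm }
  let A := MonoidAlgebra (ZMod p) H
  haveI : NeZero (Nat.card H : ZMod p) := ⟨by rwa [Ne, ZMod.natCast_eq_zero_iff]⟩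
  haveI : Finite ρ.asModule := inferInstanceAs (Finite W)
  haveI : Module.Finite A ρ.asModule := Module.Finite.of_finite
  obtain ⟨n, S, e, hS⟩ := IsSemisimpleModule.exists_linearEquiv_fin_dfinsupp A ρ.asModule
  have hsm : ∀ (y : H) (w : ρ.asModule), (MonoidAlgebra.of (ZMod p) H y) • w = (ρ y (w : W) : W) := by
    intro y w
    rw [MonoidAlgebra.of_apply, Representation.single_smul, one_smul]
    rfl
  have hgood : ∀ i, Good M N (Nat.card (S i)) (fun y : H => Nat.card {w : S i // (MonoidAlgebra.of (ZMod p) H y) • w = w}) := by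
    intro i
    obtain ⟨I, hI, ⟨f⟩⟩ := isSimpleModule_iff_quot_maximal.1 (hS i)
    letI : Field (A ⧸ I) := Ideal.Quotient.field I
    haveI : CharP (A ⧸ I) p := charP_of_injective_algebraMap (algebraMap (ZMod p) (A ⧸ I)).injective p
    haveI : Finite (A ⧸ I) := Finite.of_equiv _ f.toEquiv
    let l : H →* (A ⧸ I)ˣ := MonoidHom.toHomUnits ((Ideal.Quotient.mk I : A →+* A ⧸ I).toMonoidHom.comp (MonoidAlgebra.of (ZMod p) H))
    have hg := good_field (M := M) (N := N) hM hpN hHN l
    have h1 : Nat.card (A ⧸ I) = Nat.card (S i) := (Nat.card_congr f.toEquiv).symm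
    have h2 : ∀ y, Nat.card {a : A ⧸ I // (l y : A ⧸ I) * a = a} =
        Nat.card {w : S i // (MonoidAlgebra.of (ZMod p) H y) • w = w} := by
      intro y
      refine (Nat.card_congr (f.toEquiv.subtypeEquiv fun w => ?_)).symm
      show _ ↔ (l y : A ⧸ I) * f w = f w
      have h3 : (l y : A ⧸ I) * f w = f ((MonoidAlgebra.of (ZMod p) H y) • w) := by
        rw [map_smul]
        rfl
      rw [h3, f.injective.eq_iff]
    rw [← h1]
    simpa only [h2] using hg
  have hprod := Good.prod (M := M) (N := N) hHN Finset.univ (fun i _ => hgood i)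
    (fun i y => Nat.card_le_card_of_injective _ Subtype.val_injective) (fun i => Nat.card_pos)
  let e' : ρ.asModule ≃ₗ[A] (∀ i, S i) := e.trans (DFinsupp.linearEquivFunOnFintype)
  have h1 : ∏ i, Nat.card (S i) = Nat.card W := by
    rw [← Nat.card_pi]
    exact (Nat.card_congr e'.toEquiv).symm
  have h2 : ∀ y, ∏ i, Nat.card {w : S i // (MonoidAlgebra.of (ZMod p) H y) • w = w} = Nat.card {w : W // ρ y w = w} := by
    intro y
    rw [← Nat.card_pi]
    refine (Nat.card_congr ?_).symm
    have h3 : ∀ w : ρ.asModule, (MonoidAlgebra.of (ZMod p) H y) • w = w ↔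
        ∀ i, (MonoidAlgebra.of (ZMod p) H y) • (e' w i) = e' w i := by
      intro w
      rw [← e'.injective.eq_iff, map_smul, funext_iff]
      rfl
    have E0 : {w : W // ρ y w = w} ≃ {w : ρ.asModule // (MonoidAlgebra.of (ZMod p) H y) • w = w} :=
      Equiv.subtypeEquiv ρ.asModuleEquiv.symm.toEquiv (fun w => by
        rw [hsm]
        exact Iff.rfl)
    exact (E0.trans (e'.toEquiv.subtypeEquiv (p := fun w : ρ.asModule => (MonoidAlgebra.of (ZMod p) H y) • w = w) h3)).trans
      (Equiv.subtypePiEquivPi (p := fun i (x : S i) => (MonoidAlgebra.of (ZMod p) H y) • x = x))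
  rw [← h1]
  simpa only [h2] using hprod

end Cfsg.Agent.Lib.KGVGauss
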