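import Mathlib

/-!
# The representation on an elementary abelian section
-/

set_option autoImplicit false
set_option linter.all false
set_option maxHeartbeats 400000

namespace Cfsg.Agent.Lib.KGVRep

universe u

variable {X : Type u} [Group X] {p : ℕ}

theorem rep_aux {W K : Type u} [AddCommGroup W] [Module (ZMod p) W] [Group K] (c : K → (W →+ W))
    (h1 : ∀ w, c 1 w = w) (hm : ∀ a b w, c (a * b) w = c a (c b w)) :
    ∃ ρ : Representation (ZMod p) K W, ∀ (h : K) (w : W), ρ h w = c h w := by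
  let f : K → (W →ₗ[ZMod p] W) := fun h => (c h).toZModLinearMap p
  have hf1 : f 1 = 1 := LinearMap.ext h1
  have hfm : ∀ a b, f (a * b) = f a * f b := fun a b => LinearMap.ext (hm a b)
  exact ⟨{ toFun := f, map_one' := hf1, map_mul' := hfm }, fun h w => rfl⟩

theorem exists_rep_aux {A K : Type u} [CommGroup A] [Group K] (hexp : ∀ a : A, a ^ p = 1) (c : K → (A →* A))
    (h1 : c 1 = MonoidHom.id A) (hm : ∀ a b, c (a * b) = (c a).comp (c b)) :
    ∃ (W : Type u) (_ : AddCommGroup W) (_ : Module (ZMod p) W) (e : A ≃ W) (ρ : Representation (ZMod p) K W),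
      (∀ a b : A, e (a * b) = e a + e b) ∧ ∀ (h : K) (u : A), e (c h u) = ρ h (e u) := by
  letI iM : Module (ZMod p) (Additive A) := AddCommGroup.zmodModule (by
    intro x
    apply Additive.toMul.injective
    exact hexp (Additive.toMul x))
  obtain ⟨ρ, hρ⟩ := rep_aux (p := p) (W := Additive A) (fun h => MonoidHom.toAdditive (c h)) (fun w => by
    rw [h1]; rfl) (fun a b w => by rw [hm]; rfl)
  exact ⟨Additive A, inferInstance, iM, Additive.ofMul, ρ, fun a b => rfl, fun h u => (hρ h _).symm⟩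

theorem exists_rep (U H : Subgroup X) (hab : ∀ a ∈ U, ∀ b ∈ U, a * b = b * a) (hexp : ∀ u ∈ U, u ^ p = 1)
    (hnorm : ∀ h ∈ H, ∀ u ∈ U, h * u * h⁻¹ ∈ U) :
    ∃ (W : Type u) (_ : AddCommGroup W) (_ : Module (ZMod p) W) (e : U ≃ W) (ρ : Representation (ZMod p) H W),
      (∀ a b : U, e (a * b) = e a + e b) ∧ ∀ (h : H) (u : U), e ⟨h * u * (h : X)⁻¹, hnorm h h.2 u u.2⟩ = ρ h (e u) := by
  letI : CommGroup U := { (inferInstance : Group U) with mul_comm := fun a b => Subtype.ext (hab a a.2 b b.2) }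
  let c : H → (U →* U) := fun h =>
    { toFun := fun u => ⟨h * u * (h : X)⁻¹, hnorm h h.2 u u.2⟩
      map_one' := Subtype.ext (by simp)
      map_mul' := fun a b => Subtype.ext (by
        show (h : X) * ((a : X) * b) * (h : X)⁻¹ = (h * a * (h : X)⁻¹) * (h * b * (h : X)⁻¹)
        group) }
  obtain ⟨W, i1, i2, e, ρ, h1, h2⟩ := exists_rep_aux (p := p) (fun a : U => Subtype.ext (hexp a a.2)) c (by
    refine MonoidHom.ext fun x => Subtype.ext ?_
    show (1 : X) * (x : X) * (1 : X)⁻¹ = x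
    simp) (fun a b => by
    refine MonoidHom.ext fun x => Subtype.ext ?_
    show ((a : X) * b) * (x : X) * ((a : X) * b)⁻¹ = (a : X) * (b * (x : X) * (b : X)⁻¹) * (a : X)⁻¹
    group)
  exact ⟨W, i1, i2, e, ρ, h1, h2⟩

theorem card_fixed {W : Type u} [AddCommGroup W] [Module (ZMod p) W] (U H : Subgroup X)
    (hnorm : ∀ h ∈ H, ∀ u ∈ U, h * u * h⁻¹ ∈ U) (e : U ≃ W)
    (ρ : Representation (ZMod p) H W) (he : ∀ (h : H) (u : U), e ⟨h * u * (h : X)⁻¹, hnorm h h.2 u u.2⟩ = ρ h (e u)) (y : H) :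
    Nat.card {w : W // ρ y w = w} = Nat.card {w : U // Commute (w : X) (y : X)} := by
  refine (Nat.card_congr (e.subtypeEquiv fun w => ?_)).symm
  rw [← he, e.injective.eq_iff, Subtype.ext_iff]
  show _ ↔ (y : X) * w * (y : X)⁻¹ = w
  rw [mul_inv_eq_iff_eq_mul]
  exact ⟨fun h => h.eq.symm, fun h => h.symm⟩

end Cfsg.Agent.Lib.KGVRep
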