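import Cfsg.Agent.Lib.H55KS
import Cfsg.Agent.Lib.H55B6aR
import Cfsg.Agent.S4958

set_option autoImplicit false

namespace Cfsg.Agent.Lib.H55B6a

open Cfsg Cfsg.Agent.Lib.H55KR

theorem b6a (p : ℕ) [Fact p.Prime] (X : Type) [Group X] [Finite X] (V : Subgroup X) [V.Normal]
    (hexp : ∀ v ∈ V, v ^ p = 1) (hidx : ¬ p ∣ V.index)
    (hself : Subgroup.centralizer (V : Set X) = V)
    (hcl : ∀ x y z : X, (x * y * x⁻¹ * y⁻¹) * z * (x * y * x⁻¹ * y⁻¹)⁻¹ * z⁻¹ ∈ V) :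
    Nat.card (ConjClasses X) ≤ Nat.card V := by
  have hp : p.Prime := Fact.out
  have hab : ∀ a ∈ V, ∀ b ∈ V, a * b = b * a := by
    intro a ha b hb
    have h5 : a ∈ Subgroup.centralizer (V : Set X) := by rw [hself]; exact ha
    exact (Subgroup.mem_centralizer_iff.1 h5 b hb).symm
  -- the complement
  have hVp : IsPGroup p V := by
    intro x
    exact ⟨1, Subtype.ext (by rw [pow_one]; exact hexp x x.2)⟩
  have hcop : (Nat.card V).Coprime V.index := by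
    obtain ⟨k, hk⟩ := (IsPGroup.iff_card).1 hVp
    rw [hk]
    exact Nat.Coprime.pow_left _ ((Nat.Prime.coprime_iff_not_dvd hp).2 hidx)
  obtain ⟨G, hG⟩ := Subgroup.exists_right_complement'_of_coprime hcop
  have hdis : ∀ x, x ∈ V → x ∈ G → x = 1 := by
    intro x h1 h2
    have := Subgroup.disjoint_def.1 hG.disjoint h1 h2
    exact this
  have hcG : ¬ p ∣ Nat.card G := by
    rw [← hG.symm.index_eq_card]
    exact hidx
  -- the centre of the complement
  let Z : Subgroup X := G ⊓ Subgroup.centralizer (G : Set X)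
  have memZ : ∀ z, z ∈ Z ↔ z ∈ G ∧ ∀ g ∈ G, g * z = z * g := by
    intro z
    rw [Subgroup.mem_inf, Subgroup.mem_centralizer_iff]
    rfl
  have hZG : Z ≤ G := inf_le_left
  obtain ⟨v, hv, hreg⟩ := H55B6aR.exists_reg p V hab hexp Z
    (fun a ha b hb => ((memZ b).1 hb).2 a (hZG ha))
    (fun h => hcG (h.trans (Subgroup.card_dvd_of_le hZG)))
    (fun z hz h => hdis z (by
      rw [← hself, Subgroup.mem_centralizer_iff]
      intro u hu
      exact (h u hu).symm) (hZG hz))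
  refine Cfsg.Agent.S4958.result p V hexp hidx hself G hG v hv ?_
  intro a ha b hb
  rw [Subgroup.mem_inf, Subgroup.mem_centralizer_singleton_iff] at ha hb
  have hc : ∀ x y : X, x ∈ G → y ∈ G → x * y * x⁻¹ * y⁻¹ ∈ Z := by
    intro x y hx hy
    have hG1 : x * y * x⁻¹ * y⁻¹ ∈ G := G.mul_mem (G.mul_mem (G.mul_mem hx hy) (G.inv_mem hx)) (G.inv_mem hy)
    rw [memZ]
    refine ⟨hG1, fun g hg => ?_⟩
    have h1 := hdis _ (hcl x y g) (G.mul_mem (G.mul_mem (G.mul_mem hG1 hg) (G.inv_mem hG1)) (G.inv_mem hg))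
    rw [mul_inv_eq_one, mul_inv_eq_iff_eq_mul] at h1
    exact h1.symm
  have h1 : a * b * a⁻¹ * b⁻¹ = 1 := by
    apply hreg _ (hc a b ha.1 hb.1)
    have e1 : a⁻¹ * v = v * a⁻¹ := by
      rw [inv_mul_eq_iff_eq_mul, ← mul_assoc, ha.2, mul_inv_cancel_right]
    have e2 : b⁻¹ * v = v * b⁻¹ := by
      rw [inv_mul_eq_iff_eq_mul, ← mul_assoc, hb.2, mul_inv_cancel_right]
    calc a * b * a⁻¹ * b⁻¹ * v = a * b * a⁻¹ * (b⁻¹ * v) := by group
      _ = a * b * (a⁻¹ * v) * b⁻¹ := by rw [e2]; group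
      _ = a * (b * v) * a⁻¹ * b⁻¹ := by rw [e1]; group
      _ = (a * v) * b * a⁻¹ * b⁻¹ := by rw [hb.2]; group
      _ = v * (a * b * a⁻¹ * b⁻¹) := by rw [ha.2]; group
  rw [mul_inv_eq_one, mul_inv_eq_iff_eq_mul] at h1
  exact h1

end Cfsg.Agent.Lib.H55B6a
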