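import Mathlib

/-! The class number of a coprime split extension with abelian kernel (Gallagher):
`k(GV) = ∑ k(C_G(v))`, the sum over the `G`-orbits on `V`. -/

set_option autoImplicit false
set_option maxHeartbeats 400000

namespace Cfsg.Agent.Lib.KGVCount

/-- The subgroup `{v β(v)⁻¹ (w α(w)⁻¹)⁻¹}` as the range of a homomorphism. -/
def phi {V : Type*} [CommGroup V] (α β : MulAut V) : V × V →* V where
  toFun q := (q.1 * (β q.1)⁻¹) * (q.2 * (α q.2)⁻¹)⁻¹
  map_one' := by simp
  map_mul' x y := by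
    simp only [Prod.fst_mul, Prod.snd_mul, map_mul, mul_inv]
    simp only [inv_inv]
    have : ∀ a b c d e f g h : V, a * b * (c * d) * (e * f * (g * h)) = (a * c * (e * g)) * (b * d * (f * h)) := by
      intro a b c d e f g h
      simp only [mul_comm, mul_left_comm]
    rw [this]

theorem mem_ker_phi {V : Type*} [CommGroup V] (α β : MulAut V) (q : V × V) :
    q ∈ (phi α β).ker ↔ q.1 * α q.2 = q.2 * β q.1 := by
  rw [MonoidHom.mem_ker]
  show (q.1 * (β q.1)⁻¹) * (q.2 * (α q.2)⁻¹)⁻¹ = 1 ↔ _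
  rw [mul_inv_eq_one, ← div_eq_mul_inv, ← div_eq_mul_inv, div_eq_div_iff_mul_eq_mul]

def fixSub {V : Type*} [CommGroup V] (α β : MulAut V) : Subgroup V where
  carrier := {c | α c = c ∧ β c = c}
  mul_mem' := by
    rintro a b ⟨h1, h2⟩ ⟨h3, h4⟩
    exact ⟨by rw [map_mul, h1, h3], by rw [map_mul, h2, h4]⟩
  one_mem' := ⟨map_one _, map_one _⟩
  inv_mem' := by
    rintro a ⟨h1, h2⟩
    exact ⟨by rw [map_inv, h1], by rw [map_inv, h2]⟩

def nrm {V : Type*} [CommGroup V] (α β : MulAut V) (m : ℕ) : V →* V where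
  toFun v := ∏ i ∈ Finset.range m, ∏ j ∈ Finset.range m, (α ^ i) ((β ^ j) v)
  map_one' := by simp
  map_mul' x y := by
    simp only [map_mul, Finset.prod_mul_distrib]

theorem nrm_apply {V : Type*} [CommGroup V] (α β : MulAut V) (m : ℕ) (v : V) :
    nrm α β m v = ∏ i ∈ Finset.range m, ∏ j ∈ Finset.range m, (α ^ i) ((β ^ j) v) := rfl

theorem prod_shift {V : Type*} [CommGroup V] (α : MulAut V) (m : ℕ) (hα : α ^ m = 1) (v : V) :
    ∏ i ∈ Finset.range m, (α ^ i) (α v) = ∏ i ∈ Finset.range m, (α ^ i) v := by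
  have h1 : ∀ i, (α ^ i) (α v) = (α ^ (i + 1)) v := by
    intro i
    rw [pow_succ]; rfl
  simp only [h1]
  rw [← mul_left_inj ((α ^ 0) v), ← Finset.prod_range_succ' (fun i => (α ^ i) v) m,
    Finset.prod_range_succ, hα, pow_zero]

theorem range_phi_stable_left {V : Type*} [CommGroup V] (α β : MulAut V) (v : V) :
    v * (α v)⁻¹ ∈ (phi α β).range := by
  refine ⟨(1, v⁻¹), ?_⟩
  show (1 * (β 1)⁻¹) * (v⁻¹ * (α v⁻¹)⁻¹)⁻¹ = _
  simp [mul_comm]

theorem range_phi_stable_right {V : Type*} [CommGroup V] (α β : MulAut V) (v : V) :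
    v * (β v)⁻¹ ∈ (phi α β).range := by
  refine ⟨(v, 1), ?_⟩
  show (v * (β v)⁻¹) * (1 * (α 1)⁻¹)⁻¹ = _
  simp

theorem pow_mem_range {V : Type*} [CommGroup V] (α β : MulAut V) (v : V) (i j : ℕ) :
    v * ((α ^ i) ((β ^ j) v))⁻¹ ∈ (phi α β).range := by
  have h1 : ∀ (j : ℕ) (v : V), v * ((β ^ j) v)⁻¹ ∈ (phi α β).range := by
    intro j
    induction j with
    | zero => intro v; simp
    | succ j ih =>
      intro v
      have h2 := ih v
      have h3 := range_phi_stable_right α β ((β ^ j) v)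
      have h4 := mul_mem h2 h3
      rw [pow_succ']
      convert h4 using 1
      simp [MulAut.mul_apply]
  have h1' : ∀ (j : ℕ) (v : V), v * ((α ^ j) v)⁻¹ ∈ (phi α β).range := by
    intro j
    induction j with
    | zero => intro v; simp
    | succ j ih =>
      intro v
      have h2 := ih v
      have h3 := range_phi_stable_left α β ((α ^ j) v)
      have h4 := mul_mem h2 h3
      rw [pow_succ']
      convert h4 using 1
      simp [MulAut.mul_apply]
  have h5 := mul_mem (h1 j v) (h1' i ((β ^ j) v))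
  convert h5 using 1
  simp

theorem card_range_mul {V : Type*} [CommGroup V] [Finite V] (α β : MulAut V) (m : ℕ)
    (hm : m.Coprime (Nat.card V)) (hα : α ^ m = 1) (hβ : β ^ m = 1) (hc : α * β = β * α) :
    Nat.card V = Nat.card (phi α β).range * Nat.card (fixSub α β) := by
  have hcomm : ∀ (i j : ℕ) (v : V), (α ^ i) ((β ^ j) v) = (β ^ j) ((α ^ i) v) := by
    intro i j v
    have : α ^ i * β ^ j = β ^ j * α ^ i := ((show Commute α β from hc).pow_pow i j).eq
    have h2 := congrArg (fun f : MulAut V => f v) this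
    exact h2
  have hm2 : (m * m).Coprime (Nat.card V) := Nat.Coprime.mul_left hm hm
  have hNα : ∀ v, nrm α β m (α v) = nrm α β m v := by
    intro v
    rw [nrm_apply, nrm_apply, Finset.prod_comm]
    rw [Finset.prod_comm (s := Finset.range m) (t := Finset.range m) (f := fun i j => (α ^ i) ((β ^ j) v))]
    refine Finset.prod_congr rfl fun j _ => ?_
    have h1 : ∀ i, (α ^ i) ((β ^ j) (α v)) = (α ^ i) (α ((β ^ j) v)) := by
      intro i
      congr 1
      have := hcomm 1 j v
      rw [pow_one] at this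
      exact this.symm
    simp only [h1]
    exact prod_shift α m hα _
  have hNβ : ∀ v, nrm α β m (β v) = nrm α β m v := by
    intro v
    rw [nrm_apply, nrm_apply]
    refine Finset.prod_congr rfl fun i _ => ?_
    rw [← map_prod, ← map_prod, prod_shift β m hβ v]
  have hαN : ∀ v, α (nrm α β m v) = nrm α β m v := by
    intro v
    conv_rhs => rw [← hNα v]
    rw [nrm_apply, nrm_apply, map_prod]
    refine Finset.prod_congr rfl fun i _ => ?_
    rw [map_prod]
    refine Finset.prod_congr rfl fun j _ => ?_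
    have h1 := hcomm 1 j v
    rw [pow_one] at h1
    rw [← h1]
    have h2 : α * α ^ i = α ^ i * α := (Commute.refl α).pow_right i
    exact congrArg (fun f : MulAut V => f ((β ^ j) v)) h2
  have hβN : ∀ v, β (nrm α β m v) = nrm α β m v := by
    intro v
    conv_rhs => rw [← hNβ v]
    rw [nrm_apply, nrm_apply, map_prod]
    refine Finset.prod_congr rfl fun i _ => ?_
    rw [map_prod]
    refine Finset.prod_congr rfl fun j _ => ?_
    have h1 := hcomm i 1 ((β ^ j) v)
    rw [pow_one] at h1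
    rw [← h1]
    congr 1
    have h2 : β * β ^ j = β ^ j * β := (Commute.refl β).pow_right j
    exact congrArg (fun f : MulAut V => f v) h2
  have hker : (nrm α β m).ker = (phi α β).range := by
    apply le_antisymm
    · intro v hv
      rw [MonoidHom.mem_ker, nrm_apply] at hv
      have h1 : ∏ i ∈ Finset.range m, ∏ j ∈ Finset.range m, (v * ((α ^ i) ((β ^ j) v))⁻¹) ∈ (phi α β).range :=
        Subgroup.prod_mem _ fun i _ => Subgroup.prod_mem _ fun j _ => pow_mem_range α β v i j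
      simp only [Finset.prod_mul_distrib, Finset.prod_inv_distrib] at h1
      rw [hv, inv_one, mul_one] at h1
      simp only [Finset.prod_const, Finset.card_range, ← pow_mul] at h1
      -- v ^ (m*m) ∈ range
      have h2 : v ∈ (phi α β).range := by
        have h3 : (m * m).Coprime (orderOf v) := hm2.coprime_dvd_right (orderOf_dvd_natCard v)
        obtain ⟨k, hk⟩ := exists_pow_eq_self_of_coprime h3
        rw [← hk]
        exact Subgroup.pow_mem _ h1 k
      exact h2
    · rintro _ ⟨⟨v, w⟩, rfl⟩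
      rw [MonoidHom.mem_ker]
      show nrm α β m ((v * (β v)⁻¹) * (w * (α w)⁻¹)⁻¹) = 1
      rw [map_mul, map_mul, map_inv, map_inv, map_mul, map_inv, hNα, hNβ]
      simp
  have hrange : (nrm α β m).range = fixSub α β := by
    apply le_antisymm
    · rintro _ ⟨v, rfl⟩
      exact ⟨hαN v, hβN v⟩
    · intro c hc'
      have h1 : nrm α β m c = c ^ (m * m) := by
        rw [nrm_apply]
        have h2 : ∀ j, (β ^ j) c = c := by
          intro j
          induction j with
          | zero => rfl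
          | succ j ih => rw [pow_succ]; show (β ^ j) (β c) = c; rw [hc'.2, ih]
        have h3 : ∀ j, (α ^ j) c = c := by
          intro j
          induction j with
          | zero => rfl
          | succ j ih => rw [pow_succ]; show (α ^ j) (α c) = c; rw [hc'.1, ih]
        simp only [h2, h3, Finset.prod_const, Finset.card_range, ← pow_mul]
      have h3 : (m * m).Coprime (orderOf c) := hm2.coprime_dvd_right (orderOf_dvd_natCard c)
      obtain ⟨k, hk⟩ := exists_pow_eq_self_of_coprime h3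
      refine ⟨c ^ k, ?_⟩
      rw [map_pow, h1, hk]
  rw [← hker, ← hrange, ← Subgroup.index_ker, Subgroup.card_mul_index]

theorem card_pairs {V : Type*} [CommGroup V] [Finite V] (α β : MulAut V) (m : ℕ)
    (hm : m.Coprime (Nat.card V)) (hα : α ^ m = 1) (hβ : β ^ m = 1) (hc : α * β = β * α) :
    Nat.card {q : V × V // q.1 * α q.2 = q.2 * β q.1} =
      Nat.card V * Nat.card {c : V // α c = c ∧ β c = c} := by
  have h1 : Nat.card {q : V × V // q.1 * α q.2 = q.2 * β q.1} = Nat.card (phi α β).ker := by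
    apply Nat.card_congr
    exact Equiv.subtypeEquivRight fun q => (mem_ker_phi α β q).symm
  have h2 : Nat.card {c : V // α c = c ∧ β c = c} = Nat.card (fixSub α β) := rfl
  rw [h1, h2]
  have h3 := card_range_mul α β m hm hα hβ hc
  have h4 := Subgroup.card_mul_index (phi α β).ker
  rw [Subgroup.index_ker, Nat.card_prod] at h4
  have h5 : 0 < Nat.card (phi α β).range := Nat.card_pos
  apply Nat.eq_of_mul_eq_mul_right h5
  rw [h4]
  nth_rewrite 2 [h3]
  ring

/-- The number of commuting pairs of `G` centralizing `c`. -/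
theorem card_comm_pairs {X : Type*} [Group X] [Finite X] (G : Subgroup X) (c : X) :
    Nat.card {q : G × G // q.1 * q.2 = q.2 * q.1 ∧ (q.1 : X) * c * (q.1 : X)⁻¹ = c ∧
        (q.2 : X) * c * (q.2 : X)⁻¹ = c} =
      Nat.card (ConjClasses ↥(G ⊓ Subgroup.centralizer ({c} : Set X))) *
        Nat.card ↥(G ⊓ Subgroup.centralizer ({c} : Set X)) := by
  rw [← card_comm_eq_card_conjClasses_mul_card]
  have hmem : ∀ a : X, a ∈ Subgroup.centralizer ({c} : Set X) ↔ a * c * a⁻¹ = c := by
    intro a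
    rw [Subgroup.mem_centralizer_singleton_iff, mul_inv_eq_iff_eq_mul]
  apply Nat.card_congr
  refine
    { toFun := fun q => ⟨(⟨q.1.1, q.1.1.2, (hmem _).2 q.2.2.1⟩, ⟨q.1.2, q.1.2.2, (hmem _).2 q.2.2.2⟩), ?_⟩
      invFun := fun q => ⟨(⟨q.1.1, q.1.1.2.1⟩, ⟨q.1.2, q.1.2.2.1⟩), ?_, (hmem _).1 q.1.1.2.2,
        (hmem _).1 q.1.2.2.2⟩
      left_inv := fun q => rfl
      right_inv := fun q => rfl }
  · apply Subtype.ext
    show (q.1.1 : X) * (q.1.2 : X) = (q.1.2 : X) * (q.1.1 : X)
    exact congrArg Subtype.val q.2.1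
  · apply Subtype.ext
    show (q.1.1 : X) * (q.1.2 : X) = (q.1.2 : X) * (q.1.1 : X)
    exact congrArg Subtype.val q.2.eq

/-- The set of commuting pairs in `G` centralizing `c`. -/
def CP {X : Type*} [Group X] (G : Subgroup X) (c : X) : Type _ :=
  {q : G × G // q.1 * q.2 = q.2 * q.1 ∧ (q.1 : X) * c * (q.1 : X)⁻¹ = c ∧ (q.2 : X) * c * (q.2 : X)⁻¹ = c}

theorem card_CP_conj {X : Type*} [Group X] [Finite X] (G : Subgroup X) (c g : X) (hg : g ∈ G) :
    Nat.card (CP G c) = Nat.card (CP G (g * c * g⁻¹)) := by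
  apply Nat.card_congr
  refine (Equiv.prodCongr (MulAut.conj (⟨g, hg⟩ : G)).toEquiv (MulAut.conj (⟨g, hg⟩ : G)).toEquiv).subtypeEquiv ?_
  rintro ⟨a, b⟩
  have h1 : ∀ a : G, ((MulAut.conj (⟨g, hg⟩ : G) a : G) : X) = g * a * g⁻¹ := fun a => rfl
  have h2 : ∀ a : G, (g * a * g⁻¹) * (g * c * g⁻¹) * (g * a * g⁻¹)⁻¹ = g * c * g⁻¹ ↔ (a : X) * c * (a : X)⁻¹ = c := by
    intro a
    constructor
    · intro h
      have h3 : (g * a * g⁻¹) * (g * c * g⁻¹) * (g * a * g⁻¹)⁻¹ = g * ((a : X) * c * (a : X)⁻¹) * g⁻¹ := by group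
      rw [h3] at h
      exact mul_left_cancel (mul_right_cancel h)
    · intro h
      have h3 : (g * a * g⁻¹) * (g * c * g⁻¹) * (g * a * g⁻¹)⁻¹ = g * ((a : X) * c * (a : X)⁻¹) * g⁻¹ := by group
      rw [h3, h]
  show _ ↔ ((MulAut.conj (⟨g, hg⟩ : G) a) * (MulAut.conj (⟨g, hg⟩ : G) b) =
    (MulAut.conj (⟨g, hg⟩ : G) b) * (MulAut.conj (⟨g, hg⟩ : G) a) ∧
    ((MulAut.conj (⟨g, hg⟩ : G) a : G) : X) * (g * c * g⁻¹) * ((MulAut.conj (⟨g, hg⟩ : G) a : G) : X)⁻¹ = g * c * g⁻¹ ∧
    ((MulAut.conj (⟨g, hg⟩ : G) b : G) : X) * (g * c * g⁻¹) * ((MulAut.conj (⟨g, hg⟩ : G) b : G) : X)⁻¹ = g * c * g⁻¹)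
  rw [h1, h1, h2, h2, ← map_mul, ← map_mul, (MulAut.conj (⟨g, hg⟩ : G)).injective.eq_iff]

/-- Orbit-stabilizer for the conjugation action of a subgroup. -/
theorem card_orbit_mul {X : Type*} [Group X] [Finite X] (G : Subgroup X) (s : X) :
    Nat.card {c : X // ∃ g ∈ G, g * c * g⁻¹ = s} * Nat.card ↥(G ⊓ Subgroup.centralizer ({s} : Set X)) =
      Nat.card G := by
  let act : MulAction G X := MulAction.compHom X ((ConjAct.toConjAct.toMonoidHom : X →* ConjAct X).comp G.subtype)
  have hsmul : ∀ (g : G) (x : X), g • x = (g : X) * x * (g : X)⁻¹ := fun g x => rfl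
  have h1 := Nat.card_congr (MulAction.orbitProdStabilizerEquivGroup G s)
  rw [Nat.card_prod] at h1
  rw [← h1]
  congr 1
  · apply Nat.card_congr
    apply Equiv.subtypeEquivRight
    intro c
    show _ ↔ c ∈ MulAction.orbit G s
    rw [MulAction.mem_orbit_iff]
    constructor
    · rintro ⟨g, hg, h⟩
      refine ⟨⟨g, hg⟩⁻¹, ?_⟩
      rw [hsmul, ← h]
      show g⁻¹ * (g * c * g⁻¹) * (g⁻¹)⁻¹ = c
      group
    · rintro ⟨g, h⟩
      refine ⟨(g : X)⁻¹, G.inv_mem g.2, ?_⟩
      rw [hsmul] at h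
      rw [← h]
      group
  · apply Nat.card_congr
    refine { toFun := fun x => ⟨⟨x.1, x.2.1⟩, ?_⟩, invFun := fun x => ⟨x.1.1, x.1.2, ?_⟩, left_inv := fun _ => rfl, right_inv := fun _ => rfl }
    · show _ • s = s
      rw [hsmul]
      have := Subgroup.mem_centralizer_singleton_iff.1 x.2.2
      show (x : X) * s * (x : X)⁻¹ = s
      rw [this]; group
    · have h3 : x.1 • s = s := x.2
      rw [hsmul] at h3
      apply Subgroup.mem_centralizer_singleton_iff.2
      rw [mul_inv_eq_iff_eq_mul] at h3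
      exact h3

theorem sum_orbits {X : Type*} [Group X] [Finite X] (V : Subgroup X) [V.Normal] (G : Subgroup X)
    (S : Finset X) (hSV : ∀ s ∈ S, s ∈ V) (hrep : ∀ v ∈ V, ∃! s, s ∈ S ∧ ∃ g ∈ G, g * v * g⁻¹ = s)
    (F : X → ℕ) (hF : ∀ c g, g ∈ G → F c = F (g * c * g⁻¹)) [Fintype V] :
    ∑ v : V, F v = ∑ s ∈ S, Nat.card {c : X // ∃ g ∈ G, g * c * g⁻¹ = s} * F s := by
  classical
  have := Fintype.ofFinite X
  have h1 : ∀ v : V, F v = ∑ s ∈ S, if (∃ g ∈ G, g * (v : X) * g⁻¹ = s) then F s else 0 := by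
    intro v
    obtain ⟨s, ⟨hs, g, hg, hgs⟩, huniq⟩ := hrep v v.2
    rw [Finset.sum_eq_single s]
    · rw [if_pos ⟨g, hg, hgs⟩, hF v g hg, hgs]
    · intro t ht hts
      rw [if_neg]
      intro h
      exact hts (huniq t ⟨ht, h⟩)
    · intro h; exact absurd hs h
  rw [Finset.sum_congr rfl fun v _ => h1 v, Finset.sum_comm]
  refine Finset.sum_congr rfl fun s hs => ?_
  rw [← Finset.sum_filter, Finset.sum_const, smul_eq_mul]
  congr 1
  rw [← Fintype.card_subtype, ← Nat.card_eq_fintype_card]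
  apply Nat.card_congr
  refine { toFun := fun x => ⟨x.1.1, x.2⟩, invFun := fun x => ⟨⟨x.1, ?_⟩, x.2⟩, left_inv := fun _ => rfl, right_inv := fun _ => rfl }
  obtain ⟨g, hg, h⟩ := x.2
  have h2 : x.1 = g⁻¹ * s * (g⁻¹)⁻¹ := by
    refine Eq.trans ?_ (congrArg (fun z => g⁻¹ * z * (g⁻¹)⁻¹) h)
    group
  rw [h2]
  exact ‹V.Normal›.conj_mem s (hSV s hs) _

theorem card_conjClasses {X : Type*} [Group X] [Finite X] (V : Subgroup X) [V.Normal]
    (hab : ∀ a ∈ V, ∀ b ∈ V, a * b = b * a) (G : Subgroup X) (hGV : Subgroup.IsComplement' V G)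
    (hcop : (Nat.card V).Coprime (Nat.card G)) (S : Finset X) (hSV : ∀ s ∈ S, s ∈ V)
    (hrep : ∀ v ∈ V, ∃! s, s ∈ S ∧ ∃ g ∈ G, g * v * g⁻¹ = s) :
    Nat.card (ConjClasses X) = ∑ s ∈ S, Nat.card (ConjClasses ↥(G ⊓ Subgroup.centralizer ({s} : Set X))) := by
  classical
  have := Fintype.ofFinite X
  set act : X → MulAut V := fun x => MulAut.conjNormal x with hact
  have hactc : ∀ (x : X) (v : V), ((act x v : V) : X) = x * v * x⁻¹ := fun x v => MulAut.conjNormal_apply x v
  -- commutation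
  have hcomm : ∀ (v w : V) (a b : G), ((v : X) * a) * ((w : X) * b) = ((w : X) * b) * ((v : X) * a) ↔
      (a * b = b * a ∧ v * act a w = w * act b v) := by
    intro v w a b
    have h1 : ((v : X) * a) * ((w : X) * b) = ((v * act a w : V) : X) * ((a * b : G) : X) := by
      rw [Subgroup.coe_mul, Subgroup.coe_mul, hactc]; group
    have h2 : ((w : X) * b) * ((v : X) * a) = ((w * act b v : V) : X) * ((b * a : G) : X) := by
      rw [Subgroup.coe_mul, Subgroup.coe_mul, hactc]; group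
    rw [h1, h2]
    constructor
    · intro h
      have h3 := hGV.1 (a₁ := (v * act a w, a * b)) (a₂ := (w * act b v, b * a)) h
      exact ⟨congrArg Prod.snd h3, congrArg Prod.fst h3⟩
    · rintro ⟨h3, h4⟩
      rw [h3, h4]
  have hcount : Nat.card {p : X × X // p.1 * p.2 = p.2 * p.1} =
      Nat.card V * ∑ v : V, Nat.card (CP G (v : X)) := by
    have hα : ∀ a : G, act (a : X) ^ Nat.card G = 1 := by
      intro a
      show (MulAut.conjNormal (a : X)) ^ Nat.card G = 1
      rw [← map_pow]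
      have : (a : X) ^ Nat.card G = 1 := by
        rw [← Subgroup.coe_pow, pow_card_eq_one']; rfl
      rw [this, map_one]
    have hαc : ∀ a b : G, a * b = b * a → act (a : X) * act (b : X) = act (b : X) * act (a : X) := by
      intro a b h
      show MulAut.conjNormal (a : X) * MulAut.conjNormal (b : X) = MulAut.conjNormal (b : X) * MulAut.conjNormal (a : X)
      rw [← map_mul, ← map_mul, ← Subgroup.coe_mul, ← Subgroup.coe_mul, h]
    have hu : ∀ (a : G) (u : V), act (a : X) u = u ↔ (a : X) * u * (a : X)⁻¹ = u := by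
      intro a u
      rw [Subtype.ext_iff, hactc]
    let e : V × G ≃ X := Equiv.ofBijective _ hGV
    have he : ∀ r : V × G, e r = (r.1 : X) * r.2 := fun r => rfl
    have h1 : Nat.card {p : X × X // p.1 * p.2 = p.2 * p.1} =
        Nat.card {r : (V × G) × (V × G) // (r.1.2 * r.2.2 = r.2.2 * r.1.2 ∧
          r.1.1 * act r.1.2 r.2.1 = r.2.1 * act r.2.2 r.1.1)} := by
      symm
      apply Nat.card_congr
      refine (Equiv.prodCongr e e).subtypeEquiv ?_
      rintro ⟨⟨v, a⟩, ⟨w, b⟩⟩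
      exact (hcomm v w a b).symm
    have h2 : Nat.card {r : (V × G) × (V × G) // (r.1.2 * r.2.2 = r.2.2 * r.1.2 ∧
          r.1.1 * act r.1.2 r.2.1 = r.2.1 * act r.2.2 r.1.1)} =
        Nat.card (Σ c : {q : G × G // q.1 * q.2 = q.2 * q.1},
          {t : V × V // t.1 * act c.1.1 t.2 = t.2 * act c.1.2 t.1}) := by
      apply Nat.card_congr
      exact { toFun := fun r => ⟨⟨(r.1.1.2, r.1.2.2), r.2.1⟩, ⟨(r.1.1.1, r.1.2.1), r.2.2⟩⟩
              invFun := fun r => ⟨((r.2.1.1, r.1.1.1), (r.2.1.2, r.1.1.2)), r.1.2, r.2.2⟩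
              left_inv := fun _ => rfl
              right_inv := fun _ => rfl }
    have h3 : Nat.card (Σ c : {q : G × G // q.1 * q.2 = q.2 * q.1}, {u : V // act c.1.1 u = u ∧ act c.1.2 u = u}) =
        Nat.card (Σ u : V, CP G (u : X)) := by
      apply Nat.card_congr
      exact { toFun := fun r => ⟨r.2.1, ⟨r.1.1, r.1.2, (hu _ _).1 r.2.2.1, (hu _ _).1 r.2.2.2⟩⟩
              invFun := fun r => ⟨⟨r.2.1, r.2.2.1⟩, ⟨r.1, (hu _ _).2 r.2.2.2.1, (hu _ _).2 r.2.2.2.2⟩⟩
              left_inv := fun _ => rfl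
              right_inv := fun _ => rfl }
    have := fun u : X => (inferInstanceAs (Finite {q : G × G // q.1 * q.2 = q.2 * q.1 ∧ (q.1 : X) * u * (q.1 : X)⁻¹ = u ∧ (q.2 : X) * u * (q.2 : X)⁻¹ = u}) : Finite (CP G u))
    have h4 : ∑ v : V, Nat.card (CP G (v : X)) = Nat.card (Σ u : V, CP G (u : X)) := by
      rw [Nat.card_sigma]
    rw [h1, h2, h4, ← h3, Nat.card_sigma, Nat.card_sigma, Finset.mul_sum]
    refine Finset.sum_congr rfl fun c _ => ?_
    let cg : CommGroup V := { (inferInstance : Group V) with mul_comm := fun a b => Subtype.ext (hab a a.2 b b.2) }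
    exact @card_pairs V cg _ (act c.1.1) (act c.1.2) (Nat.card G) hcop.symm (hα _) (hα _) (hαc _ _ c.2)
  have hF : ∀ c : X, Nat.card (CP G c) = Nat.card (ConjClasses ↥(G ⊓ Subgroup.centralizer ({c} : Set X))) *
        Nat.card ↥(G ⊓ Subgroup.centralizer ({c} : Set X)) := fun c => card_comm_pairs G c
  rw [sum_orbits V G S hSV hrep (fun c => Nat.card (CP G c)) (fun c g hg => card_CP_conj G c g hg)] at hcount
  have h5 : ∀ s ∈ S, Nat.card {c : X // ∃ g ∈ G, g * c * g⁻¹ = s} * Nat.card (CP G s) =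
      Nat.card G * Nat.card (ConjClasses ↥(G ⊓ Subgroup.centralizer ({s} : Set X))) := by
    intro s _
    rw [hF, ← card_orbit_mul G s]; ring
  rw [Finset.sum_congr rfl h5, ← Finset.mul_sum, ← mul_assoc, hGV.card_mul_card] at hcount
  have h6 : Nat.card {p : X × X // p.1 * p.2 = p.2 * p.1} = Nat.card (ConjClasses X) * Nat.card X :=
    card_comm_eq_card_conjClasses_mul_card X
  rw [h6, mul_comm] at hcount
  exact Nat.eq_of_mul_eq_mul_left Nat.card_pos hcount

end Cfsg.Agent.Lib.KGVCount
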