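import Cfsg.Agent.Lib.H55KS
import Cfsg.Agent.Lib.KGVCount

/-!
# S4990-PLAN piece B6b (helper78)
-/

set_option autoImplicit false
open Cfsg

namespace Cfsg.Agent.Lib.H55B6b
open Cfsg.Agent.Lib.H55KR Cfsg.Agent.Lib.KGVCount

/-- the class number of a coprime split extension as a sum over the kernel -/
theorem tot {X : Type} [Group X] [Finite X] (V : Subgroup X) [V.Normal]
    (hab : ∀ a ∈ V, ∀ b ∈ V, a * b = b * a) (G : Subgroup X) (hGV : Subgroup.IsComplement' V G)
    (hcop : (Nat.card V).Coprime (Nat.card G)) [Fintype V] :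
    Nat.card (ConjClasses X) * Nat.card G =
      ∑ v : V, Nat.card (ConjClasses ↥(G ⊓ Subgroup.centralizer ({(v : X)} : Set X))) *
        Nat.card ↥(G ⊓ Subgroup.centralizer ({(v : X)} : Set X)) := by
  classical
  have := Fintype.ofFinite X
  let st : Setoid V :=
    { r := fun v w => ∃ g ∈ G, g * (v : X) * g⁻¹ = w
      iseqv :=
        { refl := fun v => ⟨1, G.one_mem, by simp⟩
          symm := by
            rintro v w ⟨g, hg, h⟩
            refine ⟨g⁻¹, G.inv_mem hg, ?_⟩
            rw [← h]; group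
          trans := by
            rintro u v w ⟨g, hg, h⟩ ⟨g', hg', h'⟩
            refine ⟨g' * g, G.mul_mem hg' hg, ?_⟩
            rw [← h', ← h]; group } }
  let S : Finset X := Finset.univ.filter fun x => ∃ q : Quotient st, ((Quotient.out q : V) : X) = x
  have hSm : ∀ s, s ∈ S ↔ ∃ q : Quotient st, ((Quotient.out q : V) : X) = s := fun s => by simp [S]
  have hSV : ∀ s ∈ S, s ∈ V := by
    intro s hs
    obtain ⟨q, rfl⟩ := (hSm s).1 hs
    exact (Quotient.out q).2
  have hrep : ∀ v ∈ V, ∃! s, s ∈ S ∧ ∃ g ∈ G, g * v * g⁻¹ = s := by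
    intro v hv
    refine ⟨((Quotient.out (Quotient.mk st ⟨v, hv⟩) : V) : X), ⟨(hSm _).2 ⟨_, rfl⟩, ?_⟩, ?_⟩
    · have h1 : Quotient.mk st (Quotient.out (Quotient.mk st ⟨v, hv⟩)) = Quotient.mk st ⟨v, hv⟩ := Quotient.out_eq _
      exact st.iseqv.symm (Quotient.exact h1)
    · rintro t ⟨ht, g, hg, hgt⟩
      obtain ⟨q, rfl⟩ := (hSm t).1 ht
      have h1 : Quotient.mk st ⟨v, hv⟩ = Quotient.mk st (Quotient.out q) := Quotient.sound ⟨g, hg, hgt⟩
      rw [Quotient.out_eq] at h1
      rw [h1]
  have h0 := card_conjClasses V hab G hGV hcop S hSV hrep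
  have hF : ∀ c : X, Nat.card (CP G c) = Nat.card (ConjClasses ↥(G ⊓ Subgroup.centralizer ({c} : Set X))) *
        Nat.card ↥(G ⊓ Subgroup.centralizer ({c} : Set X)) := fun c => card_comm_pairs G c
  have h1 := sum_orbits V G S hSV hrep (fun c => Nat.card (CP G c)) (fun c g hg => card_CP_conj G c g hg)
  have h5 : ∀ s ∈ S, Nat.card {c : X // ∃ g ∈ G, g * c * g⁻¹ = s} * Nat.card (CP G s) =
      Nat.card G * Nat.card (ConjClasses ↥(G ⊓ Subgroup.centralizer ({s} : Set X))) := by
    intro s _
    rw [hF, ← card_orbit_mul G s]; ring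
  rw [Finset.sum_congr rfl h5, ← Finset.mul_sum, ← h0] at h1
  rw [mul_comm, ← h1]
  exact Finset.sum_congr rfl fun v _ => hF v

/-- isomorphic groups have the same class number -/
theorem card_congr {A B : Type} [Group A] [Group B] (e : A ≃* B) :
    Nat.card (ConjClasses A) = Nat.card (ConjClasses B) := by
  apply Nat.card_congr
  refine
    { toFun := ConjClasses.map e.toMonoidHom
      invFun := ConjClasses.map e.symm.toMonoidHom
      left_inv := ?_
      right_inv := ?_ }
  · intro c
    obtain ⟨a, rfl⟩ := ConjClasses.mk_surjective c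
    show ConjClasses.mk (e.symm (e a)) = _
    rw [e.symm_apply_apply]
  · intro c
    obtain ⟨a, rfl⟩ := ConjClasses.mk_surjective c
    show ConjClasses.mk (e (e.symm a)) = _
    rw [e.apply_symm_apply]

theorem b6b (hK : K1S) (p : ℕ) [Fact p.Prime] (X : Type) [Group X] [Finite X] (V N : Subgroup X)
    [V.Normal] [N.Normal] (b : ℕ) (hexp : ∀ v ∈ V, v ^ p = 1) (hidx : ¬ p ∣ V.index)
    (hself : Subgroup.centralizer (V : Set X) = V) (hVN : V ≤ N) (hKB : KB (X ⧸ N) b) :
    Nat.card (ConjClasses X) ≤ b * Nat.card (ConjClasses N) := by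
  classical
  have hp := Fact.out (p := p.Prime)
  have := Fintype.ofFinite X
  have hab : ∀ a ∈ V, ∀ c ∈ V, a * c = c * a := by
    intro a ha c hc
    have h1 : a ∈ Subgroup.centralizer (V : Set X) := by rw [hself]; exact ha
    exact (Subgroup.mem_centralizer_iff.1 h1 c hc).symm
  have hpV : IsPGroup p V := by
    intro v
    refine ⟨1, ?_⟩
    rw [pow_one]
    exact Subtype.ext (hexp v v.2)
  have hcop : (Nat.card V).Coprime V.index := by
    obtain ⟨n, hn⟩ := IsPGroup.iff_card.1 hpV
    rw [hn]
    exact Nat.Coprime.pow_left n ((Nat.Prime.coprime_iff_not_dvd hp).2 hidx)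
  obtain ⟨G, hG⟩ := Subgroup.exists_right_complement'_of_coprime hcop
  have hcG : (Nat.card V).Coprime (Nat.card G) := by
    rw [hG.symm.index_eq_card] at hcop
    exact hcop
  -- the quotient map on subgroups
  let π : X →* X ⧸ N := QuotientGroup.mk' N
  set m := Nat.card (G.map π) with hm
  have cardmap : ∀ H : Subgroup X, Nat.card H = Nat.card (H.map π) * Nat.card (N ⊓ H : Subgroup X) := by
    intro H
    have h1 : Nat.card (H.map π) = (N.subgroupOf H).index := by
      have e1 : (N.subgroupOf H) = (π.comp H.subtype).ker := by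
        rw [← MonoidHom.comap_ker, QuotientGroup.ker_mk']
        rfl
      rw [e1, Subgroup.index_ker, MonoidHom.range_comp, Subgroup.range_subtype]
    have h2 := (N.subgroupOf H).card_mul_index
    have h3 : Nat.card (N.subgroupOf H) = Nat.card (N ⊓ H : Subgroup X) := by
      rw [← Subgroup.inf_subgroupOf_right]
      exact Nat.card_congr (Subgroup.subgroupOfEquivOfLe inf_le_right).toEquiv
    rw [h1, ← h3, mul_comm]
    exact h2.symm
  -- N
  let V' : Subgroup N := V.subgroupOf N
  let G' : Subgroup N := G.subgroupOf N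
  have hV'n : V'.Normal := Subgroup.normal_subgroupOf
  have hab' : ∀ a ∈ V', ∀ c ∈ V', a * c = c * a := fun a ha c hc => Subtype.ext (hab a ha c hc)
  have hG' : Subgroup.IsComplement' V' G' := by
    apply Subgroup.isComplement'_of_disjoint_and_mul_eq_univ
    · rw [Subgroup.disjoint_def]
      intro x hx hx'
      have := Subgroup.disjoint_def.1 hG.disjoint (x := (x : X)) hx hx'
      exact Subtype.ext this
    · ext x
      simp only [Set.mem_univ, iff_true]
      obtain ⟨⟨v, g⟩, hvg⟩ := hG.2 (x : X)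
      have hvg' : (v : X) * (g : X) = x := hvg
      have hgN : (g : X) ∈ N := by
        have : (g : X) = (v : X)⁻¹ * x := by rw [← hvg']; group
        rw [this]
        exact N.mul_mem (N.inv_mem (hVN v.2)) x.2
      refine ⟨⟨v, hVN v.2⟩, v.2, ⟨g, hgN⟩, g.2, Subtype.ext hvg'⟩
  have cV' : Nat.card V' = Nat.card V := Nat.card_congr (Subgroup.subgroupOfEquivOfLe hVN).toEquiv
  have cG' : Nat.card G' = Nat.card (N ⊓ G : Subgroup X) := by
    show Nat.card (G.subgroupOf N) = _
    rw [← Subgroup.inf_subgroupOf_right, inf_comm G N]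
    exact Nat.card_congr (Subgroup.subgroupOfEquivOfLe inf_le_left).toEquiv
  have hcop' : (Nat.card V').Coprime (Nat.card G') := by
    rw [cV', cG']
    exact hcG.coprime_dvd_right (Subgroup.card_dvd_of_le inf_le_right)
  have tX := tot V hab G hG hcG
  have tN := tot V' hab' G' hG' hcop'
  -- the summands
  let c0 : X → Subgroup X := fun v => N ⊓ (G ⊓ Subgroup.centralizer ({v} : Set X))
  have iso : ∀ v : V', Nonempty (↥(G' ⊓ Subgroup.centralizer ({v.1} : Set N)) ≃* c0 ((v : N) : X)) := by
    intro v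
    refine ⟨{ toFun := fun x => ⟨(x : N), ⟨(x : N).2, x.2.1, ?_⟩⟩
              invFun := fun x => ⟨⟨x, x.2.1⟩, x.2.2.1, ?_⟩
              left_inv := fun _ => rfl
              right_inv := fun _ => rfl
              map_mul' := fun _ _ => rfl }⟩
    · have h1 := Subgroup.mem_centralizer_singleton_iff.1 x.2.2
      exact Subgroup.mem_centralizer_singleton_iff.2 (congrArg Subtype.val h1)
    · have h1 := Subgroup.mem_centralizer_singleton_iff.1 x.2.2.2
      exact Subgroup.mem_centralizer_singleton_iff.2 (Subtype.ext h1)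
  have tN' : Nat.card (ConjClasses N) * Nat.card (N ⊓ G : Subgroup X) =
      ∑ v : V, Nat.card (ConjClasses (c0 (v : X))) * Nat.card (c0 (v : X)) := by
    rw [← cG', tN]
    refine Fintype.sum_equiv (Subgroup.subgroupOfEquivOfLe hVN).toEquiv _ _ ?_
    intro v
    obtain ⟨e⟩ := iso v
    rw [card_congr e, Nat.card_congr e.toEquiv]
    rfl
  have key : ∀ v : V, Nat.card (ConjClasses ↥(G ⊓ Subgroup.centralizer ({(v : X)} : Set X))) *
        Nat.card ↥(G ⊓ Subgroup.centralizer ({(v : X)} : Set X)) ≤
      (b * m) * (Nat.card (ConjClasses (c0 (v : X))) * Nat.card (c0 (v : X))) := by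
    intro v
    set C := G ⊓ Subgroup.centralizer ({(v : X)} : Set X) with hC
    have h1 := hK C (N.subgroupOf C)
    have e1 : Nat.card (ConjClasses (N.subgroupOf C)) = Nat.card (ConjClasses (c0 (v : X))) := by
      refine card_congr
        { toFun := fun x => ⟨(x : C), x.2, (x : C).2⟩
          invFun := fun x => ⟨⟨x, x.2.2⟩, x.2.1⟩
          left_inv := fun _ => rfl
          right_inv := fun _ => rfl
          map_mul' := fun _ _ => rfl }
    have e2 : Nat.card (ConjClasses (C ⧸ N.subgroupOf C)) ≤ b := by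
      have hker : (π.comp C.subtype).ker = N.subgroupOf C := by
        rw [← MonoidHom.comap_ker, QuotientGroup.ker_mk']
        rfl
      have f : C ⧸ N.subgroupOf C ≃* (π.comp C.subtype).range :=
        (QuotientGroup.quotientMulEquivOfEq hker.symm).trans (QuotientGroup.quotientKerEquivRange _)
      rw [card_congr f]
      exact hKB _
    have e3 : Nat.card C ≤ m * Nat.card (c0 (v : X)) := by
      rw [cardmap C]
      apply Nat.mul_le_mul_right
      exact Nat.card_mono (Set.toFinite _) (Subgroup.map_mono inf_le_left)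
    rw [e1] at h1
    calc _ ≤ (Nat.card (ConjClasses (c0 (v : X))) * b) * (m * Nat.card (c0 (v : X))) :=
          Nat.mul_le_mul (h1.trans (Nat.mul_le_mul_left _ e2)) e3
      _ = _ := by ring
  have h1 : Nat.card (ConjClasses X) * Nat.card G ≤ (b * m) * (Nat.card (ConjClasses N) * Nat.card (N ⊓ G : Subgroup X)) := by
    rw [tX, tN', Finset.mul_sum]
    exact Finset.sum_le_sum fun v _ => key v
  have h2 : (b * m) * (Nat.card (ConjClasses N) * Nat.card (N ⊓ G : Subgroup X)) =
      (b * Nat.card (ConjClasses N)) * Nat.card G := by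
    rw [cardmap G]; ring
  rw [h2] at h1
  exact Nat.le_of_mul_le_mul_right h1 Nat.card_pos

end Cfsg.Agent.Lib.H55B6b
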