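import Cfsg.Agent.Lib.H55KS
import Cfsg.Agent.Lib.H55K2

set_option autoImplicit false
open Cfsg

namespace Cfsg.Agent.Lib.H55B7

open Cfsg.Agent.Lib.H55KR

section
variable {A : Type} [CommGroup A] {p : ℕ} [Module (ZMod p) (Additive A)]

/-- automorphisms of an elementary abelian group as linear maps -/
def toLin : MulAut A →* (Additive A ≃ₗ[ZMod p] Additive A) where
  toFun e := { (MulEquiv.toAdditive e : Additive A ≃+ Additive A) with
    map_smul' := fun c w => ZMod.map_smul (MulEquiv.toAdditive e : Additive A ≃+ Additive A) c w }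
  map_one' := by ext; rfl
  map_mul' e f := by ext; rfl

theorem toLin_apply (e : MulAut A) (a : A) :
    (toLin (p := p) e) (Additive.ofMul a) = Additive.ofMul (e a) := rfl

end

theorem gen0 {A : Type} [CommGroup A] [Finite A] (p : ℕ) [Fact p.Prime] [Module (ZMod p) (Additive A)]
    (h5 : ∀ (n : ℕ), 1 ≤ n → ∀ (Q W : Type) [Group Q] [Finite Q] [AddCommGroup W] [Module (ZMod p) W]
      [Finite W] (φ : Q →* (W ≃ₗ[ZMod p] W)), Function.Injective φ → ¬ p ∣ Nat.card Q →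
      Group.IsSolvable Q → Module.finrank (ZMod p) W = n →
      ∃ (N : Subgroup Q) (_ : N.Normal), Cl2 N ∧ KB (Q ⧸ N) (3 ^ (n - 1)))
    (X : Type) [Group X] [Finite X] (V : Subgroup X) [V.Normal] (n : ℕ) (hs : Group.IsSolvable X)
    (hidx : ¬ p ∣ V.index) (hn : 1 ≤ n) (hA : Nat.card A = p ^ n)
    (ψ : X →* MulAut A) (hψ : ∀ x, ψ x = 1 ↔ x ∈ V) :
    ∃ (N : Subgroup (X ⧸ V)) (_ : N.Normal), Cl2 N ∧ KB ((X ⧸ V) ⧸ N) (3 ^ (n - 1)) := by
  have hfinW : Finite (Additive A) := Finite.of_equiv A Additive.ofMul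
  let φ0 : X →* (Additive A ≃ₗ[ZMod p] Additive A) := (toLin (A := A) (p := p)).comp ψ
  have hφ0 : ∀ x : X, φ0 x = 1 ↔ x ∈ V := by
    intro x
    rw [← hψ]
    constructor
    · intro h
      ext a
      have h1 := congrArg (fun f : (Additive A ≃ₗ[ZMod p] Additive A) => f (Additive.ofMul a)) h
      exact Additive.ofMul.injective h1
    · intro hx
      show toLin (A := A) (p := p) (ψ x) = 1
      rw [hx, map_one]
  let φ : X ⧸ V →* (Additive A ≃ₗ[ZMod p] Additive A) :=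
    QuotientGroup.lift V φ0 (fun x hx => (hφ0 x).2 hx)
  have hφ : Function.Injective φ := by
    rw [injective_iff_map_eq_one]
    intro q hq
    obtain ⟨x, rfl⟩ := QuotientGroup.mk_surjective q
    exact (QuotientGroup.eq_one_iff x).2 ((hφ0 x).1 hq)
  have hrank : Module.finrank (ZMod p) (Additive A) = n := by
    have h1 := Module.natCard_eq_pow_finrank (K := ZMod p) (V := Additive A)
    rw [Nat.card_zmod] at h1
    have h2 : Nat.card (Additive A) = p ^ n := by
      rw [← hA]; exact Nat.card_congr Additive.toMul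
    rw [h2] at h1
    exact (Nat.pow_right_injective (Fact.out : p.Prime).two_le h1).symm
  exact h5 n hn (X ⧸ V) (Additive A) φ hφ hidx inferInstance hrank

theorem gen {A : Type} [CommGroup A] [Finite A] (p : ℕ) [Fact p.Prime]
    (h5 : ∀ (n : ℕ), 1 ≤ n → ∀ (Q W : Type) [Group Q] [Finite Q] [AddCommGroup W] [Module (ZMod p) W]
      [Finite W] (φ : Q →* (W ≃ₗ[ZMod p] W)), Function.Injective φ → ¬ p ∣ Nat.card Q →
      Group.IsSolvable Q → Module.finrank (ZMod p) W = n →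
      ∃ (N : Subgroup Q) (_ : N.Normal), Cl2 N ∧ KB (Q ⧸ N) (3 ^ (n - 1)))
    (X : Type) [Group X] [Finite X] (V : Subgroup X) [V.Normal] (n : ℕ) (hs : Group.IsSolvable X)
    (hexp : ∀ a : A, a ^ p = 1) (hidx : ¬ p ∣ V.index) (hn : 1 ≤ n) (hA : Nat.card A = p ^ n)
    (ψ : X →* MulAut A) (hψ : ∀ x, ψ x = 1 ↔ x ∈ V) :
    ∃ (N : Subgroup (X ⧸ V)) (_ : N.Normal), Cl2 N ∧ KB ((X ⧸ V) ⧸ N) (3 ^ (n - 1)) :=
  @gen0 A _ _ p _ (AddCommGroup.zmodModule (n := p) (fun x => by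
    apply Additive.toMul.injective
    rw [toMul_nsmul, toMul_zero]
    exact hexp _)) h5 X _ _ V _ n hs hidx hn hA ψ hψ

theorem b7 (h4 : A4S) (p : ℕ) [Fact p.Prime]
    (h5 : ∀ (n : ℕ), 1 ≤ n → ∀ (Q W : Type) [Group Q] [Finite Q] [AddCommGroup W] [Module (ZMod p) W]
      [Finite W] (φ : Q →* (W ≃ₗ[ZMod p] W)), Function.Injective φ → ¬ p ∣ Nat.card Q →
      Group.IsSolvable Q → Module.finrank (ZMod p) W = n →
      ∃ (N : Subgroup Q) (_ : N.Normal), Cl2 N ∧ KB (Q ⧸ N) (3 ^ (n - 1)))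
    (X : Type) [Group X] [Finite X] (V : Subgroup X)
    [V.Normal] (n : ℕ) (hs : Group.IsSolvable X) (hexp : ∀ v ∈ V, v ^ p = 1) (hidx : ¬ p ∣ V.index)
    (hself : Subgroup.centralizer (V : Set X) = V) (hn : 1 ≤ n) (hV : Nat.card V = p ^ n) :
    Nat.card (ConjClasses X) ≤ 3 ^ (n - 1) * p ^ n := by
  have hcomm : ∀ a b : V, a * b = b * a := by
    intro a b
    have ha : (a : X) ∈ Subgroup.centralizer (V : Set X) := by rw [hself]; exact a.2
    exact Subtype.ext (Subgroup.mem_centralizer_iff.1 ha b b.2).symm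
  let cg : CommGroup V := { (inferInstance : Group V) with mul_comm := hcomm }
  have hψ : ∀ x : X, MulAut.conjNormal (H := V) x = 1 ↔ x ∈ V := by
    intro x
    constructor
    · intro h
      rw [← hself, Subgroup.mem_centralizer_iff]
      intro v hv
      have h2 : (MulAut.conjNormal (H := V) x) ⟨v, hv⟩ = ⟨v, hv⟩ := by rw [h]; rfl
      have h3 : x * v * x⁻¹ = v := by
        have := congrArg (Subtype.val) h2
        rwa [MulAut.conjNormal_apply] at this
      exact (mul_inv_eq_iff_eq_mul.1 h3).symm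
    · intro hx
      ext w
      rw [MulAut.conjNormal_apply]
      have h3 := hcomm ⟨x, hx⟩ w
      have h4 : x * (w : X) = (w : X) * x := congrArg Subtype.val h3
      rw [h4, mul_inv_cancel_right]
      rfl
  obtain ⟨N', hN', hcl, hKB⟩ := @gen V cg inferInstance p _ h5 X _ _ V _ n hs
    (fun a => Subtype.ext (hexp a a.2)) hidx hn hV (MulAut.conjNormal (H := V)) hψ
  let N : Subgroup X := N'.comap (QuotientGroup.mk' V)
  have hVN : V ≤ N := by
    intro v hv
    show (QuotientGroup.mk' V v) ∈ N'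
    have : QuotientGroup.mk' V v = 1 := (QuotientGroup.eq_one_iff v).2 hv
    rw [this]
    exact N'.one_mem
  have hcl' : ∀ x ∈ N, ∀ y ∈ N, ∀ z ∈ N,
      (x * y * x⁻¹ * y⁻¹) * z * (x * y * x⁻¹ * y⁻¹)⁻¹ * z⁻¹ ∈ V := by
    intro x hx y hy z hz
    have h1 := hcl _ hx _ hy _ hz
    rw [← QuotientGroup.eq_one_iff]
    have h2 : (((x * y * x⁻¹ * y⁻¹) * z * (x * y * x⁻¹ * y⁻¹)⁻¹ * z⁻¹ : X) : X ⧸ V) =
        (QuotientGroup.mk' V x * QuotientGroup.mk' V y * (QuotientGroup.mk' V x)⁻¹ * (QuotientGroup.mk' V y)⁻¹) *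
          QuotientGroup.mk' V z * (QuotientGroup.mk' V x * QuotientGroup.mk' V y * (QuotientGroup.mk' V x)⁻¹ *
            (QuotientGroup.mk' V y)⁻¹)⁻¹ * (QuotientGroup.mk' V z)⁻¹ := rfl
    rw [h2, h1]
    group
  have hKB' : KB (X ⧸ N) (3 ^ (n - 1)) := by
    let g : X →* (X ⧸ V) ⧸ N' := (QuotientGroup.mk' N').comp (QuotientGroup.mk' V)
    have hg : ∀ x, g x = 1 ↔ x ∈ N := fun x => QuotientGroup.eq_one_iff (N := N') (QuotientGroup.mk' V x)
    refine H55K2.of_inj (QuotientGroup.lift N g (fun x hx => (hg x).2 hx)) ?_ hKB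
    rw [injective_iff_map_eq_one]
    intro q hq
    obtain ⟨x, rfl⟩ := QuotientGroup.mk_surjective q
    exact (QuotientGroup.eq_one_iff x).2 ((hg x).1 hq)
  have := h4 p X V N (3 ^ (n - 1)) hexp hidx hself hVN hcl' hKB'
  rwa [hV] at this

end Cfsg.Agent.Lib.H55B7
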