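import Cfsg.Agent.Lib.H55KS
import Cfsg.Agent.Lib.CoprimeAction2
import Cfsg.Agent.Lib.PCoreTools
import Cfsg.Agent.Lib.H32PSolv
import Cfsg.Agent.Lib.H32Cores
import Cfsg.Agent.Lib.HBBasic
import Cfsg.Agent.Lib.PLength

set_option autoImplicit false

open Cfsg
open scoped commutatorElement

namespace Cfsg.Agent.Lib.H55B8a

open Cfsg.Agent.Lib.H55KR Cfsg.Agent.Lib.CoprimeAction2 Cfsg.Agent.Lib.HBBasic

/-- the self centralizing argument -/
theorem self_cent (p : ℕ) [hp : Fact p.Prime] (X : Type) [Group X] [Finite X]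
    (hs : Group.IsSolvable X) (hcore : Cfsg.pPrimeCore p X = ⊥) (P : Subgroup X) [hPn : P.Normal]
    (hP : IsPGroup p P) (hidx : ¬ p ∣ P.index) (x : X)
    (hx : ∀ a ∈ P, x * a * x⁻¹ * a⁻¹ ∈ (frattini P).map P.subtype) : x ∈ P := by
  have hPc : P ≤ pCore p X := Cfsg.Agent.Lib.H32Cores.le_pCore p hPn hP
  -- every element of p-power order lies in P
  have hel : ∀ y : X, (∃ k, y ^ p ^ k = 1) → y ∈ P := by
    intro y ⟨k, hk⟩
    have h1 : (QuotientGroup.mk y : X ⧸ P) ^ p ^ k = 1 := by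
      rw [← QuotientGroup.mk_pow, hk]; rfl
    have h2 : orderOf (QuotientGroup.mk y : X ⧸ P) ∣ p ^ k := orderOf_dvd_of_pow_eq_one h1
    have h3 : orderOf (QuotientGroup.mk y : X ⧸ P) ∣ P.index := orderOf_dvd_natCard _
    have hc : Nat.Coprime (p ^ k) P.index :=
      Nat.Coprime.pow_left k ((Nat.Prime.coprime_iff_not_dvd hp.out).2 hidx)
    have h4 : orderOf (QuotientGroup.mk y : X ⧸ P) = 1 :=
      Nat.dvd_one.1 (by rw [← hc]; exact Nat.dvd_gcd h2 h3)
    rw [orderOf_eq_one_iff] at h4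
    exact (QuotientGroup.eq_one_iff y).1 h4
  have hcP : pCore p X ≤ P := by
    intro y hy
    obtain ⟨k, hk⟩ := (Cfsg.Agent.Lib.H32Cores.pCore_isPGroup p) ⟨y, hy⟩
    exact hel y ⟨k, congrArg Subtype.val hk⟩
  have heq : pCore p X = P := le_antisymm hcP hPc
  have : Group.IsSolvable X := hs
  have hcent : Subgroup.centralizer (P : Set X) ≤ P := by
    have h1 := Cfsg.Agent.Lib.H32PSolv.centralizer_pCore_le (p := p) (G := X)
      Cfsg.Agent.Lib.PLength.isPSolvable_of_isSolvable hcore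
    rwa [heq] at h1
  -- the set of such elements is a subgroup
  let D : Subgroup X :=
    { carrier := {y | ∀ a ∈ P, y * a * y⁻¹ * a⁻¹ ∈ (frattini P).map P.subtype}
      one_mem' := by intro a _; simp
      mul_mem' := by
        intro y z hy hz a ha
        have h1 := hz a ha
        have h2 := hy (z * a * z⁻¹) (hPn.conj_mem a ha z)
        have e : (y * z) * a * (y * z)⁻¹ * a⁻¹ =
            (y * (z * a * z⁻¹) * y⁻¹ * (z * a * z⁻¹)⁻¹) * (z * a * z⁻¹ * a⁻¹) := by group
        rw [e]; exact mul_mem h2 h1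
      inv_mem' := by
        intro y hy a ha
        have h2 := hy (y⁻¹ * a * y) (by
          have := hPn.conj_mem a ha y⁻¹; rwa [inv_inv] at this)
        have e : y⁻¹ * a * y⁻¹⁻¹ * a⁻¹ = (y * (y⁻¹ * a * y) * y⁻¹ * (y⁻¹ * a * y)⁻¹)⁻¹ := by group
        rw [e]; exact inv_mem h2 }
  have hxD : x ∈ D := hx
  obtain ⟨a, m, hm, hak⟩ := Nat.exists_eq_pow_mul_and_not_dvd (n := orderOf x) (orderOf_pos x).ne' p
    hp.out.ne_one
  have hord : orderOf (x ^ (p ^ a)) = m := by
    rw [orderOf_pow' _ (pow_ne_zero _ hp.out.ne_zero), hak, Nat.gcd_eq_right (Dvd.intro _ rfl),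
      Nat.mul_div_cancel_left _ (pow_pos hp.out.pos a)]
  have h1 : Subgroup.zpowers (x ^ (p ^ a)) ≤ Subgroup.centralizer (P : Set X) := by
    apply le_centralizer_of_frattini
    · rw [Subgroup.normalizer_eq_top]; exact le_top
    · rw [Nat.card_zpowers, hord]
      obtain ⟨c, hc⟩ := IsPGroup.iff_card.mp (hP.to_subgroup (frattini P))
      rw [hc]
      exact Nat.Coprime.pow_right c ((Nat.Prime.coprime_iff_not_dvd hp.out).mpr hm).symm
    · intro b hb a' ha'
      have hbD : b ∈ D := by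
        have : Subgroup.zpowers (x ^ (p ^ a)) ≤ D := by
          rw [Subgroup.zpowers_le]; exact pow_mem hxD _
        exact this hb
      exact hbD a' ha'
  have h3 := hcent (h1 (Subgroup.mem_zpowers _))
  obtain ⟨c, hc⟩ := hP ⟨_, h3⟩
  have h4 : (x ^ (p ^ a)) ^ (p ^ c) = 1 := congrArg Subtype.val hc
  apply hel x
  exact ⟨a + c, by rw [pow_add, pow_mul]; exact h4⟩

theorem b8a (hK : K1S) (h5 : A5S) (p : ℕ) [Fact p.Prime] (X : Type) [Group X] [Finite X]
    (hs : Group.IsSolvable X) (hcore : Cfsg.pPrimeCore p X = ⊥) (P : Subgroup X) [P.Normal]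
    (hP : IsPGroup p P) (hidx : ¬ p ∣ P.index) (hbot : P ≠ ⊥) :
    Nat.card (ConjClasses X) ≤ 3 ^ ((Nat.card P).factorization p - 1) * Nat.card P := by
  have hp : p.Prime := Fact.out
  set Φ : Subgroup X := (frattini P).map P.subtype with hΦ
  have hΦP : Φ ≤ P := Subgroup.map_subtype_le _
  have hΦn : Φ.Normal := by
    have h1 := Cfsg.Agent.Lib.PCoreTools.normalizer_le_of_characteristic (H := P)
      (frattini_characteristic (G := P))
    rw [Subgroup.normalizer_eq_top] at h1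
    exact Subgroup.normalizer_eq_top_iff.1 (top_le_iff.1 h1)
  set V : Subgroup (X ⧸ Φ) := P.map (QuotientGroup.mk' Φ) with hV
  have hVn : V.Normal := Subgroup.Normal.map inferInstance _ (QuotientGroup.mk'_surjective Φ)
  have hker : (QuotientGroup.mk' Φ).ker ≤ P := by rw [QuotientGroup.ker_mk']; exact hΦP
  have hVi : V.index = P.index :=
    Subgroup.index_map_eq P (QuotientGroup.mk'_surjective Φ) hker
  have hcV : Nat.card V * Nat.card Φ = Nat.card P := by
    have h1 := V.card_mul_index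
    have h2 := P.card_mul_index
    have h3 : Nat.card (X ⧸ Φ) * Nat.card Φ = Nat.card X := by
      rw [mul_comm]; exact Φ.card_mul_index
    have hpos : 0 < P.index := Nat.pos_of_ne_zero (Subgroup.index_ne_zero_of_finite)
    have h4 : (Nat.card V * Nat.card Φ) * P.index = Nat.card P * P.index := by
      rw [h2, ← h3, ← h1, hVi]; ring
    exact Nat.eq_of_mul_eq_mul_right hpos h4
  obtain ⟨e, he⟩ := IsPGroup.iff_card.1 hP
  obtain ⟨f, hf⟩ : ∃ f, Nat.card Φ = p ^ f := by
    have : Nat.card Φ ∣ p ^ e := by rw [← he]; exact Subgroup.card_dvd_of_le hΦP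
    obtain ⟨f, -, h⟩ := (Nat.dvd_prime_pow hp).1 this
    exact ⟨f, h⟩
  obtain ⟨n, hn⟩ : ∃ n, Nat.card V = p ^ n := by
    have : Nat.card V ∣ p ^ e := by rw [← he, ← hcV]; exact Dvd.intro _ rfl
    obtain ⟨n, -, h⟩ := (Nat.dvd_prime_pow hp).1 this
    exact ⟨n, h⟩
  have hnfe : n + f = e := by
    rw [hn, hf, he, ← pow_add] at hcV
    exact Nat.pow_right_injective hp.two_le hcV
  have hn1 : 1 ≤ n := by
    by_contra h0
    have h0' : n = 0 := by omega
    rw [h0', pow_zero] at hn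
    have hVb : V = ⊥ := Subgroup.card_eq_one.1 hn
    have hPk : P ≤ Φ := by
      have h1 := (Subgroup.map_eq_bot_iff P).1 hVb
      rwa [QuotientGroup.ker_mk'] at h1
    have hnt : Nontrivial P := (Subgroup.nontrivial_iff_ne_bot P).2 hbot
    have h2 : frattini P = ⊤ := by
      rw [eq_top_iff]
      intro y _
      obtain ⟨z, hz, hzy⟩ := hPk y.2
      have : z = y := Subtype.ext hzy
      rw [← this]; exact hz
    obtain ⟨M, hM⟩ : ∃ M : Subgroup P, IsCoatom M := by
      rcases eq_top_or_exists_le_coatom (⊥ : Subgroup P) with h | ⟨M, hM, -⟩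
      · exact absurd h bot_ne_top
      · exact ⟨M, hM⟩
    have h3 := frattini_le_coatom hM
    rw [h2, top_le_iff] at h3
    exact hM.1 h3
  have hcomm : ∀ a ∈ P, ∀ b ∈ P, a * b * a⁻¹ * b⁻¹ ∈ Φ := by
    intro a ha b hb
    refine ⟨⁅(⟨a, ha⟩ : P), (⟨b, hb⟩ : P)⁆, ?_, rfl⟩
    exact commutator_le_frattini hP
      (Subgroup.commutator_mem_commutator (Subgroup.mem_top _) (Subgroup.mem_top _))
  have hself : Subgroup.centralizer (V : Set (X ⧸ Φ)) = V := by
    apply le_antisymm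
    · intro y hy
      obtain ⟨x, rfl⟩ := QuotientGroup.mk'_surjective Φ y
      refine ⟨x, ?_, rfl⟩
      apply self_cent p X hs hcore P hP hidx
      intro a ha
      have h1 := (Subgroup.mem_centralizer_iff.1 hy) (QuotientGroup.mk' Φ a) ⟨a, ha, rfl⟩
      have h2 : QuotientGroup.mk' Φ (x * a * x⁻¹ * a⁻¹) = 1 := by
        rw [map_mul, map_mul, map_mul, map_inv, map_inv, ← h1]; group
      rw [← MonoidHom.mem_ker, QuotientGroup.ker_mk'] at h2
      exact h2
    · rintro _ ⟨a, ha, rfl⟩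
      rw [Subgroup.mem_centralizer_iff]
      rintro _ ⟨b, hb, rfl⟩
      have h2 : QuotientGroup.mk' Φ (b * a * b⁻¹ * a⁻¹) = 1 := by
        rw [← MonoidHom.mem_ker, QuotientGroup.ker_mk']
        exact hcomm b hb a ha
      rw [map_mul, map_mul, map_mul, map_inv, map_inv] at h2
      rw [mul_inv_eq_one, mul_inv_eq_iff_eq_mul] at h2
      exact h2
  have hsq : Group.IsSolvable (X ⧸ Φ) := by
    have : Group.IsSolvable X := hs
    infer_instance
  have hmain := h5 p (X ⧸ Φ) V n hsq (by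
    rintro _ ⟨a, ha, rfl⟩
    rw [← map_pow, ← MonoidHom.mem_ker, QuotientGroup.ker_mk']
    exact ⟨(⟨a, ha⟩ : P) ^ p, pow_mem_frattini hP _, rfl⟩) (by rw [hVi]; exact hidx) hself hn1 hn
  have hk := hK X Φ
  have hkΦ : Nat.card (ConjClasses Φ) ≤ p ^ f := by
    rw [← hf]
    exact Nat.card_le_card_of_surjective _ (ConjClasses.mk_surjective (α := Φ))
  have hfac : (Nat.card P).factorization p = e := by
    rw [he, hp.factorization_pow]; simp
  rw [hfac]
  calc Nat.card (ConjClasses X) ≤ p ^ f * (3 ^ (n - 1) * p ^ n) :=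
        hk.trans (Nat.mul_le_mul hkΦ hmain)
    _ = 3 ^ (n - 1) * p ^ e := by rw [← hnfe, pow_add]; ring
    _ ≤ 3 ^ (e - 1) * p ^ e := Nat.mul_le_mul_right _ (Nat.pow_le_pow_right (by norm_num) (by omega))
    _ = 3 ^ (e - 1) * Nat.card P := by rw [he]

end Cfsg.Agent.Lib.H55B8a
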