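import Cfsg.Agent.Lib.H55KS
import Cfsg.Agent.Lib.Cores2

/-!
# S4990, piece B8b
-/

set_option autoImplicit false
set_option linter.style.haveILetI false
open Cfsg

namespace Cfsg.Agent.Lib.H55B8b
open Cfsg.Agent.Lib.H55KR Cfsg.Agent.Lib.Cores

theorem b8b (hK : K1S)
    (h8a : ∀ (p : ℕ) [Fact p.Prime] (X : Type) [Group X] [Finite X] (P : Subgroup X) [P.Normal],
      Group.IsSolvable X → Cfsg.pPrimeCore p X = ⊥ → IsPGroup p P → ¬ p ∣ P.index → P ≠ ⊥ →
      Nat.card (ConjClasses X) ≤ 3 ^ ((Nat.card P).factorization p - 1) * Nat.card P) : A6S := by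
  have key : ∀ n : ℕ, ∀ (p : ℕ) [Fact p.Prime] (X : Type) [Group X] [Finite X], Nat.card X = n →
      Group.IsSolvable X → Cfsg.pPrimeCore p X = ⊥ → 1 ≤ (Nat.card X).factorization p →
      Nat.card (ConjClasses X) ≤
        3 ^ ((Nat.card X).factorization p - 1) * p ^ ((Nat.card X).factorization p) := by
    intro n
    induction n using Nat.strong_induction_on with
    | _ n ih =>
    intro p hp X _ _ hn hs hcore hd
    haveI := hs
    haveI : Nontrivial X := by
      by_contra hcon
      rw [not_nontrivial_iff_subsingleton] at hcon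
      rw [Nat.card_of_subsingleton (1 : X)] at hd
      simp at hd
    have hP0 : pCore p X ≠ ⊥ := by
      rw [← fittingSubgroup_eq_pCore hcore]
      exact fittingSubgroup_ne_bot
    obtain ⟨P, hPn, hP⟩ : ∃ (P : Subgroup X) (_ : P.Normal), P = pCore p X := ⟨pCore p X, inferInstance, rfl⟩
    rw [← hP] at hP0
    have hPp : IsPGroup p P := by rw [hP]; exact isPGroup_pCore p X
    obtain ⟨N, hNn, hN⟩ : ∃ (N : Subgroup X) (_ : N.Normal),
      N = (pPrimeCore p (X ⧸ P)).comap (QuotientGroup.mk' P) := ⟨_, inferInstance, rfl⟩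
    have hPN : P ≤ N := by
      rw [hN]
      exact (QuotientGroup.le_comap_mk' P _)
    obtain ⟨m, hm⟩ : ∃ m, m = Nat.card (pPrimeCore p (X ⧸ P)) := ⟨_, rfl⟩
    have hmp : m.Coprime p := by rw [hm]; exact coprime_card_pPrimeCore p _
    have hNcard : Nat.card N = Nat.card P * m := by rw [hN, card_comap_mk, hm]
    have hcoreN : pPrimeCore p N = ⊥ := by
      have h1 := map_pPrimeCore_subtype_le p N
      rw [hcore, le_bot_iff, Subgroup.map_eq_bot_iff_of_injective _ N.subtype_injective] at h1
      exact h1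
    have hPcard : Nat.card (P.subgroupOf N) = Nat.card P := Nat.card_congr (Subgroup.subgroupOfEquivOfLe hPN).toEquiv
    have hPpos : 0 < Nat.card P := Nat.card_pos
    have hidx : (P.subgroupOf N).index = m := by
      have h1 := Subgroup.card_mul_index (P.subgroupOf N)
      rw [hPcard, hNcard] at h1
      exact Nat.eq_of_mul_eq_mul_left hPpos h1
    have hkN := h8a p N (P.subgroupOf N) inferInstance hcoreN (hPp.comap_of_injective _ N.subtype_injective) (by
      rw [hidx]
      intro hdvd
      exact hp.out.one_lt.ne' (Nat.dvd_one.1 (hmp ▸ Nat.dvd_gcd hdvd dvd_rfl))) (by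
      intro hbot
      rw [hbot, Subgroup.card_bot] at hPcard
      exact hP0 (Subgroup.card_eq_one.1 hPcard.symm))
    rw [hPcard] at hkN
    obtain ⟨a, ha⟩ := IsPGroup.iff_card.1 hPp
    have hfa : (Nat.card P).factorization p = a := by
      rw [ha, hp.out.factorization_pow, Finsupp.single_eq_same]
    have hm0 : m ≠ 0 := by
      rintro rfl
      rw [mul_zero] at hNcard
      exact Nat.card_pos.ne' hNcard
    have hfm : m.factorization p = 0 := by
      apply Nat.factorization_eq_zero_of_not_dvd
      intro hdvd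
      exact hp.out.one_lt.ne' (Nat.dvd_one.1 (hmp ▸ Nat.dvd_gcd hdvd dvd_rfl))
    have ha1 : 1 ≤ a := by
      by_contra hcon
      have h0 : a = 0 := by omega
      rw [h0, pow_zero] at ha
      exact hP0 (Subgroup.card_eq_one.1 ha)
    rw [hfa, ha] at hkN
    -- the quotient
    have hcoreQ : pPrimeCore p (X ⧸ N) = ⊥ := by
      obtain ⟨L, hL⟩ : ∃ L : Subgroup X, L = (pPrimeCore p (X ⧸ N)).comap (QuotientGroup.mk' N) := ⟨_, rfl⟩
      have hLn : L.Normal := by rw [hL]; infer_instance
      have hNL : N ≤ L := by rw [hL]; exact QuotientGroup.le_comap_mk' N _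
      have h1 : Nat.card L = Nat.card N * Nat.card (pPrimeCore p (X ⧸ N)) := by rw [hL, card_comap_mk]
      have h2 : (L.map (QuotientGroup.mk' P)).comap (QuotientGroup.mk' P) = L := by
        rw [Subgroup.comap_map_eq, QuotientGroup.ker_mk']
        exact sup_eq_left.2 (hPN.trans hNL)
      have h3 : Nat.card L = Nat.card P * Nat.card (L.map (QuotientGroup.mk' P)) := by
        rw [← card_comap_mk, h2]
      have h4 : Nat.card (L.map (QuotientGroup.mk' P)) = m * Nat.card (pPrimeCore p (X ⧸ N)) := by
        rw [h1, hNcard, mul_assoc] at h3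
        exact (Nat.eq_of_mul_eq_mul_left hPpos h3).symm
      have h5 : L.map (QuotientGroup.mk' P) ≤ pPrimeCore p (X ⧸ P) := by
        apply le_pPrimeCore (hLn.map _ (QuotientGroup.mk'_surjective P))
        rw [h4]
        exact Nat.Coprime.mul_left hmp (coprime_card_pPrimeCore p _)
      have h6 : L ≤ N := by
        rw [hN, ← Subgroup.map_le_iff_le_comap]
        exact h5
      rw [← Subgroup.map_comap_eq_self_of_surjective (QuotientGroup.mk'_surjective N) (pPrimeCore p (X ⧸ N)), ← hL,
        Subgroup.map_eq_bot_iff, QuotientGroup.ker_mk']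
      exact h6
    have hXcard : Nat.card X = Nat.card N * Nat.card (X ⧸ N) := by
      rw [← Subgroup.card_mul_index N]; rfl
    obtain ⟨e, he⟩ : ∃ e, e = (Nat.card (X ⧸ N)).factorization p := ⟨_, rfl⟩
    have hQ0 : Nat.card (X ⧸ N) ≠ 0 := Nat.card_pos.ne'
    have hfX : (Nat.card X).factorization p = a + e := by
      rw [hXcard, hNcard, Nat.factorization_mul (mul_ne_zero hPpos.ne' hm0) hQ0, Finsupp.add_apply,
        Nat.factorization_mul hPpos.ne' hm0, Finsupp.add_apply, hfa, hfm, ← he, add_zero]
    have hk := hK X N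
    rw [hfX]
    by_cases he0 : e = 0
    · have hco : (Nat.card (X ⧸ N)).Coprime p := by
        rw [Nat.coprime_comm, hp.out.coprime_iff_not_dvd]
        intro hdvd
        have := (hp.out.dvd_iff_one_le_factorization hQ0).1 hdvd
        omega
      have h1 := (pPrimeCore_eq_top_iff (G := X ⧸ N) (p := p)).2 hco
      rw [hcoreQ] at h1
      haveI : Subsingleton (X ⧸ N) := by
        rw [← Subgroup.subsingleton_iff]
        exact subsingleton_of_bot_eq_top h1
      have h2 : Nat.card (ConjClasses (X ⧸ N)) ≤ 1 := by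
        haveI : Subsingleton (ConjClasses (X ⧸ N)) := (ConjClasses.mk_surjective).subsingleton
        exact Finite.card_le_one_iff_subsingleton.2 inferInstance
      rw [he0, add_zero]
      calc _ ≤ _ := hk
        _ ≤ Nat.card (ConjClasses N) * 1 := Nat.mul_le_mul_left _ h2
        _ ≤ _ := by rw [mul_one]; exact hkN
    · have hlt : Nat.card (X ⧸ N) < n := by
        rw [← hn, hXcard, hNcard]
        have h1 : 2 ≤ Nat.card P * m := by
          rw [ha]
          calc 2 ≤ p := hp.out.two_le
            _ = p ^ 1 := (pow_one p).symm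
            _ ≤ p ^ a := Nat.pow_le_pow_right hp.out.pos ha1
            _ = p ^ a * 1 := (mul_one _).symm
            _ ≤ p ^ a * m := Nat.mul_le_mul_left _ (Nat.one_le_iff_ne_zero.2 hm0)
        have h2 : 0 < Nat.card (X ⧸ N) := Nat.card_pos
        nlinarith
      have h1 := ih _ hlt p (X ⧸ N) rfl inferInstance hcoreQ (by rw [← he]; omega)
      rw [← he] at h1
      calc _ ≤ _ := hk
        _ ≤ (3 ^ (a - 1) * p ^ a) * (3 ^ (e - 1) * p ^ e) := Nat.mul_le_mul hkN h1
        _ = 3 ^ ((a - 1) + (e - 1)) * p ^ (a + e) := by rw [pow_add, pow_add]; ring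
        _ ≤ _ := Nat.mul_le_mul_right _ (Nat.pow_le_pow_right (by norm_num) (by omega))
  intro p hp X _ _ hs hcore hd
  exact key _ p X rfl hs hcore hd

end Cfsg.Agent.Lib.H55B8b
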