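import Cfsg.Agent.Lib.H55KS
import Cfsg.Agent.Lib.Cores

set_option autoImplicit false

namespace Cfsg.Agent.Lib.H55B8u

open Cfsg Cfsg.Agent.Lib.H55KR

universe u

theorem b8u (h : A6S) (p : ℕ) [Fact p.Prime] (X : Type u) [Group X] [Finite X]
    (hs : Group.IsSolvable X) (hcore : Cfsg.pPrimeCore p X = ⊥) (hd : 1 ≤ (Nat.card X).factorization p) :
    Nat.card (ConjClasses X) ≤
      3 ^ ((Nat.card X).factorization p - 1) * p ^ ((Nat.card X).factorization p) := by
  let e : Shrink.{0} X ≃* X := Shrink.mulEquiv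
  have hc : Nat.card (Shrink.{0} X) = Nat.card X := Nat.card_congr e.toEquiv
  have h1 := h p (Shrink.{0} X) (Group.isSolvable_of_surjective (f := e.symm.toMonoidHom) e.symm.surjective)
    (by
      have h2 := Cores.map_pPrimeCore_equiv p e.symm
      rw [hcore, Subgroup.map_bot] at h2
      exact h2.symm) (by rw [hc]; exact hd)
  rw [hc] at h1
  have h3 : Nat.card (ConjClasses (Shrink.{0} X)) = Nat.card (ConjClasses X) := by
    refine Nat.card_congr (Equiv.ofBijective (ConjClasses.map (e : Shrink.{0} X →* X)) ⟨?_, ?_⟩)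
    · intro a b hab
      obtain ⟨a, rfl⟩ := ConjClasses.exists_rep a
      obtain ⟨b, rfl⟩ := ConjClasses.exists_rep b
      rw [ConjClasses.mk_eq_mk_iff_isConj]
      have h4 : IsConj (e a) (e b) := ConjClasses.mk_eq_mk_iff_isConj.1 hab
      rw [isConj_iff] at h4 ⊢
      obtain ⟨c, hc⟩ := h4
      refine ⟨e.symm c, e.injective ?_⟩
      rw [map_mul, map_mul, map_inv, MulEquiv.apply_symm_apply, hc]
    · intro b
      obtain ⟨b, rfl⟩ := ConjClasses.exists_rep b
      refine ⟨ConjClasses.mk (e.symm b), ?_⟩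
      change ConjClasses.mk (e (e.symm b)) = _
      rw [MulEquiv.apply_symm_apply]
  rw [h3] at h1
  exact h1

end Cfsg.Agent.Lib.H55B8u
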