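import Cfsg.Agent.Lib.H55KS
import Cfsg.Agent.Lib.CanonExt
import Cfsg.Agent.Lib.CliffordExt

/-! # S4990, piece B9a: characters over an invariant character on one coset -/

set_option autoImplicit false
set_option linter.unusedSectionVars false

open Cfsg
universe u

namespace Cfsg.Agent.Lib.H55B9a

open scoped ComplexConjugate
open Cfsg.Agent.Lib
open Cfsg.Agent.Lib.H55KR Cfsg.Agent.Lib.CharBasic Cfsg.Agent.Lib.Clifford
  Cfsg.Agent.Lib.CliffordCorr Cfsg.Agent.Lib.CanonExt Cfsg.Agent.Lib.CliffordExt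

section A
variable {H : Type u} [Group H] [Fintype H] {N : Subgroup H} [hN : N.Normal] [Fintype N]

theorem isOver {φ ψ : H → ℂ} (hφ : IsCharacter H φ) {θ : N → ℂ} (hθ : IsIrrCharacter N θ) {c : ℂ}
    (hres : (fun n : N => φ n) = c • θ) (hψ : IsIrrCharacter H ψ) (hin : classInner φ ψ ≠ 0) :
    classInner (fun n : N => ψ n) θ ≠ 0 := by
  obtain ⟨b, hb, rfl⟩ := Cfsg.Agent.Lib.Clifford.degree_le_of_constituent hφ hψ hin
  have h0 : (fun n : N => ψ n) ≠ 0 := by
    intro h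
    have := congrFun h 1
    exact hψ.one_ne_zero (by simpa using this)
  obtain ⟨ξ, hξ⟩ := exists_constituent (hψ.isCharacter.restrict N) h0
  obtain ⟨k, hk⟩ := (hψ.isCharacter.restrict N).classInner_nat ξ.2.isCharacter
  obtain ⟨l, hl⟩ := (hb.restrict N).classInner_nat ξ.2.isCharacter
  have h1 : classInner (fun n : N => (ψ + b) n) (ξ : N → ℂ) ≠ 0 := by
    have e : (fun n : N => (ψ + b) n) = (fun n : N => ψ n) + (fun n : N => b n) := rfl
    have hk0 : k ≠ 0 := by rintro rfl; apply hξ; rw [hk]; simp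
    rw [e, classInner_add_left, hk, hl]
    norm_cast
    omega
  rw [hres, classInner_smul_left] at h1
  have h2 : classInner θ (ξ : N → ℂ) ≠ 0 := right_ne_zero_of_mul h1
  have h3 : θ = (ξ : N → ℂ) := by
    by_contra hne
    exact h2 (hθ.classInner_eq_zero ξ.2 hne)
  rw [h3]; exact hξ

theorem prop_cyc {φ : H → ℂ} (hφ : IsCharacter H φ) {θ : N → ℂ} (hθ : IsIrrCharacter N θ)
    {c : ℂ} (hres : (fun n : N => φ n) = c • θ) {η : H → ℂ} (hη : IsIrrCharacter H η)
    (hext : ∀ n : N, η n = θ n) (h : H) :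
    ∃ a : ℂ, ∀ n : N, φ (h * n) = a * η (h * n) := by
  have key : ∀ ψ : IrrCharacter H, ∃ a : ℂ, ∀ n : N,
      classInner φ (ψ : H → ℂ) * (ψ : H → ℂ) (h * n) = a * η (h * n) := by
    intro ψ
    by_cases h0 : classInner φ (ψ : H → ℂ) = 0
    · exact ⟨0, fun n => by rw [h0]; ring⟩
    · obtain ⟨β, hβ, hβc, hβ'⟩ := exists_gallagher hθ hη hext ψ.2 (isOver hφ hθ hres ψ.2 h0)
      refine ⟨classInner φ (ψ : H → ℂ) * β h, fun n => ?_⟩
      have e : (ψ : H → ℂ) (h * n) = β (h * n) * η (h * n) := congrFun hβ' _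
      rw [e, hβ.isCharacter.mul_eq_of_const N (fun n hn => hβc ⟨n, hn⟩) h n n.2]
      ring
  choose a ha using key
  refine ⟨∑ ψ, a ψ, fun n => ?_⟩
  rw [hφ.isClassFunction.expansion_apply, Finset.sum_mul]
  exact Finset.sum_congr rfl fun ψ _ => ha ψ n

end A

section B
variable {G : Type u} [Group G]

theorem cyc (N : Subgroup G) [hN : N.Normal] (g : G) :
    IsCyclic ((N ⊔ Subgroup.zpowers g : Subgroup G) ⧸ N.subgroupOf (N ⊔ Subgroup.zpowers g)) := by
  set H := N ⊔ Subgroup.zpowers g with hH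
  have hle : Subgroup.zpowers g ≤ H := le_sup_right
  let f : Subgroup.zpowers g →* H ⧸ N.subgroupOf H :=
    (QuotientGroup.mk' (N.subgroupOf H)).comp (Subgroup.inclusion hle)
  apply isCyclic_of_surjective f
  intro y
  obtain ⟨x, rfl⟩ := QuotientGroup.mk'_surjective _ y
  have hx : (x : G) ∈ (N ⊔ Subgroup.zpowers g : Subgroup G) := x.2
  rw [← SetLike.mem_coe, Subgroup.normal_mul, Set.mem_mul] at hx
  obtain ⟨n, hn, z, hz, hnz⟩ := hx
  refine ⟨⟨z, hz⟩, ?_⟩
  show QuotientGroup.mk' (N.subgroupOf H) _ = _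
  rw [QuotientGroup.mk'_apply, QuotientGroup.mk'_apply, QuotientGroup.eq]
  rw [Subgroup.mem_subgroupOf]
  show z⁻¹ * (x : G) ∈ N
  rw [← hnz]
  have := hN.conj_mem n hn z⁻¹
  rw [inv_inv] at this
  rwa [← mul_assoc]

variable [Fintype G]

theorem coset_prop (N : Subgroup G) [hN : N.Normal] [Fintype N] {θ : N → ℂ}
    (hθ : IsIrrCharacter N θ)
    (hinv : ∀ (g : G) (n : N), θ ⟨g * n * g⁻¹, hN.conj_mem n n.2 g⟩ = θ n) (g : G) :
    ∃ f : N → ℂ, ∀ χ : G → ℂ, IsIrrCharacter G χ → classInner (fun n : N => χ n) θ ≠ 0 →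
      ∃ a : ℂ, ∀ n : N, χ (g * n) = a * f n := by
  classical
  set H := N ⊔ Subgroup.zpowers g with hH
  have hNH : N ≤ H := le_sup_left
  have hgH : g ∈ H := (le_sup_right : Subgroup.zpowers g ≤ H) (Subgroup.mem_zpowers g)
  have : Fintype H := Fintype.ofFinite H
  have : Fintype (N.subgroupOf H) := Fintype.ofFinite _
  let e : N.subgroupOf H ≃* N := Subgroup.subgroupOfEquivOfLe hNH
  let θ' : N.subgroupOf H → ℂ := fun x => θ (e x)
  have hθ' : IsIrrCharacter (N.subgroupOf H) θ' := (isIrrCharacter_comp_mulEquiv_iff e).mpr hθ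
  have hinv' : ∀ h : H, cj (N.subgroupOf H) h θ' = θ' := by
    intro h
    funext x
    rw [cj_apply]
    exact hinv h (e x)
  obtain ⟨η, hη, hext⟩ := exists_extension_of_cyclic (cyc N g) hθ' hinv'
  refine ⟨fun n => η (⟨g, hgH⟩ * ⟨n, hNH n.2⟩), fun χ hχ hin => ?_⟩
  have hres := res_eq_smul_of_invariant hχ hθ (fun g => by
    funext n; rw [cj_apply]; exact hinv g n) hin
  obtain ⟨a, ha⟩ := prop_cyc (N := N.subgroupOf H) (hχ.isCharacter.restrict H) hθ'
    (c := classInner (fun n : N => χ n) θ) (by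
      funext x
      exact congrFun hres (e x)) hη hext ⟨g, hgH⟩
  refine ⟨a, fun n => ?_⟩
  exact ha ⟨⟨n, hNH n.2⟩, by rw [Subgroup.mem_subgroupOf]; exact n.2⟩

end B

section C
variable {G : Type u} [Group G] [Fintype G]

/-- the function supported on the coset -/
noncomputable def uu (N : Subgroup G) (g : G) (f : N → ℂ) : G → ℂ :=
  fun x => extendByZero N f (g⁻¹ * x)

/-- its average -/
noncomputable def psi (N : Subgroup G) (g : G) (f : N → ℂ) : G → ℂ :=
  fun x => ∑ t : G, uu N g f (t * x * t⁻¹)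

theorem uu_coset (N : Subgroup G) (g : G) (f : N → ℂ) (n : N) : uu N g f (g * n) = f n := by
  unfold uu
  rw [inv_mul_cancel_left, IndFun.extendByZero_coe]

theorem psi_cf (N : Subgroup G) (g : G) (f : N → ℂ) : IsClassFunction G (psi N g f) := by
  intro x y
  unfold psi
  rw [← Equiv.sum_comp (Equiv.mulRight y⁻¹)]
  apply Finset.sum_congr rfl
  intro t _
  congr 1
  simp only [Equiv.coe_mulRight]
  group

theorem sum_coset (N : Subgroup G) [Fintype N] (g : G) (f : N → ℂ) (w : G → ℂ) :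
    ∑ y, uu N g f y * w y = ∑ n : N, f n * w (g * n) := by
  rw [← Equiv.sum_comp (Equiv.mulLeft g)]
  simp only [Equiv.coe_mulLeft, uu, inv_mul_cancel_left]
  exact IndFun.sum_extendByZero_mul N f (fun z => w (g * z))

theorem inner_psi (N : Subgroup G) [Fintype N] (g : G) (f : N → ℂ) {χ : G → ℂ}
    (hχ : IsClassFunction G χ) :
    classInner (psi N g f) χ = ∑ n : N, f n * conj (χ (g * n)) := by
  rw [← sum_coset N g f (fun y => conj (χ y)), classInner_def]
  have h1 : ∑ x : G, psi N g f x * conj (χ x) =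
      ∑ t : G, ∑ y : G, uu N g f y * conj (χ y) := by
    unfold psi
    simp only [Finset.sum_mul]
    rw [Finset.sum_comm]
    apply Finset.sum_congr rfl
    intro t _
    rw [← Equiv.sum_comp (MulAut.conj t).toEquiv (fun y => uu N g f y * conj (χ y))]
    apply Finset.sum_congr rfl
    intro x _
    show _ = uu N g f (t * x * t⁻¹) * conj (χ (t * x * t⁻¹))
    rw [hχ x t]
  rw [h1, Finset.sum_const, Finset.card_univ, nsmul_eq_mul, ← mul_assoc, Nat.card_eq_fintype_card,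
    inv_mul_cancel₀, one_mul]
  exact Nat.cast_ne_zero.mpr Fintype.card_ne_zero

theorem sum_norm (N : Subgroup G) [Fintype N] (g : G) (f : N → ℂ) :
    ∑ y, ‖uu N g f y‖ ^ 2 = ∑ n : N, ‖f n‖ ^ 2 := by
  have h := sum_coset N g f (fun y => conj (uu N g f y))
  simp only [uu_coset, Complex.mul_conj, Complex.normSq_eq_norm_sq] at h
  exact_mod_cast h

theorem sum_le (N : Subgroup G) [Fintype N] (g t : G) (f : N → ℂ) :
    ∑ n : N, ‖f n‖ * ‖uu N g f (t * (g * n) * t⁻¹)‖ ≤ ∑ n : N, ‖f n‖ ^ 2 := by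
  classical
  have h1 : ∑ n : N, ‖uu N g f (t * (g * n) * t⁻¹)‖ ^ 2 ≤ ∑ n : N, ‖f n‖ ^ 2 := by
    rw [← sum_norm N g f]
    have hinj : Function.Injective (fun n : N => t * (g * n) * t⁻¹) := by
      intro a b hab
      apply Subtype.ext
      simpa using hab
    rw [← Finset.sum_image (s := Finset.univ) (g := fun n : N => t * (g * n) * t⁻¹)
      (f := fun y => ‖uu N g f y‖ ^ 2) (fun a _ b _ h => hinj h)]
    exact Finset.sum_le_univ_sum_of_nonneg (fun y => by positivity)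
  have h2 : ∀ n : N, ‖f n‖ * ‖uu N g f (t * (g * n) * t⁻¹)‖ ≤
      (‖f n‖ ^ 2 + ‖uu N g f (t * (g * n) * t⁻¹)‖ ^ 2) / 2 := by
    intro n
    nlinarith [sq_nonneg (‖f n‖ - ‖uu N g f (t * (g * n) * t⁻¹)‖)]
  calc _ ≤ ∑ n : N, (‖f n‖ ^ 2 + ‖uu N g f (t * (g * n) * t⁻¹)‖ ^ 2) / 2 :=
        Finset.sum_le_sum (fun n _ => h2 n)
    _ = (∑ n : N, ‖f n‖ ^ 2 + ∑ n : N, ‖uu N g f (t * (g * n) * t⁻¹)‖ ^ 2) / 2 := by
        rw [← Finset.sum_add_distrib, Finset.sum_div]
    _ ≤ _ := by linarith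

theorem uu_zero (N : Subgroup G) [hN : N.Normal] (g t : G) (f : N → ℂ) (n : N)
    (ht : (t : G ⧸ N) ∉ Subgroup.centralizer ({(g : G ⧸ N)} : Set (G ⧸ N))) :
    uu N g f (t * (g * n) * t⁻¹) = 0 := by
  unfold uu
  apply IndFun.extendByZero_not_mem
  intro hmem
  apply ht
  rw [Subgroup.mem_centralizer_singleton_iff]
  have h1 := (QuotientGroup.eq_one_iff (N := N) _).2 hmem
  have hn : ((n : G) : G ⧸ N) = 1 := (QuotientGroup.eq_one_iff (N := N) _).2 n.2
  simp only [QuotientGroup.mk_mul, QuotientGroup.mk_inv, hn, mul_one] at h1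
  rw [inv_mul_eq_one, eq_mul_inv_iff_mul_eq] at h1
  exact h1.symm

theorem card_C (N : Subgroup G) [hN : N.Normal] (K : Subgroup (G ⧸ N)) :
    Nat.card (K.comap (QuotientGroup.mk' N)) = Nat.card N * Nat.card K := by
  have h1 := (K.comap (QuotientGroup.mk' N)).card_mul_index
  have h2 := K.card_mul_index
  have h3 : (K.comap (QuotientGroup.mk' N)).index = K.index :=
    Subgroup.index_comap_of_surjective K (QuotientGroup.mk'_surjective N)
  have h4 := Subgroup.card_mul_index N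
  have h5 : N.index = Nat.card (G ⧸ N) := rfl
  rw [h3] at h1
  have hpos : 0 < K.index := Nat.pos_of_ne_zero K.index_ne_zero_of_finite
  apply Nat.eq_of_mul_eq_mul_right hpos
  rw [h1, mul_assoc, h2, ← h5, h4]

theorem inner_self_le (N : Subgroup G) [hN : N.Normal] [Fintype N] (g : G) (f : N → ℂ) :
    ‖classInner (psi N g f) (psi N g f)‖ ≤
      (Nat.card N * Nat.card (Subgroup.centralizer ({(g : G ⧸ N)} : Set (G ⧸ N))) : ℕ) *
        ∑ n : N, ‖f n‖ ^ 2 := by
  classical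
  rw [inner_psi N g f (psi_cf N g f)]
  set K := Subgroup.centralizer ({(g : G ⧸ N)} : Set (G ⧸ N)) with hK
  calc ‖∑ n : N, f n * conj (psi N g f (g * n))‖
      ≤ ∑ n : N, ‖f n * conj (psi N g f (g * n))‖ := norm_sum_le _ _
    _ ≤ ∑ n : N, ∑ t : G, ‖f n‖ * ‖uu N g f (t * (g * n) * t⁻¹)‖ := by
        apply Finset.sum_le_sum
        intro n _
        rw [norm_mul, RCLike.norm_conj, ← Finset.mul_sum]
        exact mul_le_mul_of_nonneg_left (norm_sum_le _ _) (norm_nonneg _)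
    _ = ∑ t : G, ∑ n : N, ‖f n‖ * ‖uu N g f (t * (g * n) * t⁻¹)‖ := Finset.sum_comm
    _ ≤ ∑ t : G, (if t ∈ K.comap (QuotientGroup.mk' N) then ∑ n : N, ‖f n‖ ^ 2 else 0) := by
        apply Finset.sum_le_sum
        intro t _
        split_ifs with ht
        · exact sum_le N g t f
        · apply le_of_eq
          apply Finset.sum_eq_zero
          intro n _
          rw [uu_zero N g t f n ht, norm_zero, mul_zero]
    _ = _ := by
        rw [← Finset.sum_filter, Finset.sum_const, nsmul_eq_mul, ← card_C N K]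
        congr 2
        rw [Nat.card_eq_fintype_card, Fintype.card_subtype]

theorem bessel (N : Subgroup G) [Fintype N] (g : G) (f : N → ℂ) (S : Finset (IrrCharacter G)) :
    ∑ χ ∈ S, ‖classInner (psi N g f) (χ : G → ℂ)‖ ^ 2 ≤
      ‖classInner (psi N g f) (psi N g f)‖ := by
  classical
  have h1 := (psi_cf N g f).classInner_eq_sum (psi N g f)
  simp only [Complex.mul_conj, Complex.normSq_eq_norm_sq] at h1
  rw [h1]
  have h2 : (∑ χ : IrrCharacter G, ((‖classInner (psi N g f) (χ : G → ℂ)‖ ^ 2 : ℝ) : ℂ)) =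
      ((∑ χ : IrrCharacter G, ‖classInner (psi N g f) (χ : G → ℂ)‖ ^ 2 : ℝ) : ℂ) := by
    push_cast; rfl
  rw [h2, Complex.norm_real, Real.norm_of_nonneg (Finset.sum_nonneg fun _ _ => by positivity)]
  exact Finset.sum_le_univ_sum_of_nonneg (fun y => by positivity)

end C

theorem b9a {G : Type u} [Group G] [Fintype G] (N : Subgroup G) [hN : N.Normal] [Fintype N]
    (θ : IrrCharacter N)
    (hinv : ∀ (g : G) (n : N), (θ : N → ℂ) ⟨g * n * g⁻¹, hN.conj_mem n n.2 g⟩ = (θ : N → ℂ) n)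
    (S : Finset (IrrCharacter G))
    (hS : ∀ χ ∈ S, classInner (fun n : N => (χ : G → ℂ) n) (θ : N → ℂ) ≠ 0) (g : G) :
    ∑ χ ∈ S, ∑ n : N, ‖(χ : G → ℂ) (g * n)‖ ^ 2 ≤
      (Nat.card N * Nat.card (Subgroup.centralizer ({(g : G ⧸ N)} : Set (G ⧸ N))) : ℕ) := by
  classical
  obtain ⟨f, hf⟩ := coset_prop N θ.2 hinv g
  choose! a ha using fun χ : IrrCharacter G => hf (χ : G → ℂ) χ.2
  set F : ℝ := ∑ n : N, ‖f n‖ ^ 2 with hF
  have hF0 : 0 ≤ F := Finset.sum_nonneg fun _ _ => by positivity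
  have h1 : ∀ χ ∈ S, ∑ n : N, ‖(χ : G → ℂ) (g * n)‖ ^ 2 = ‖a χ‖ ^ 2 * F := by
    intro χ hχ
    rw [hF, Finset.mul_sum]
    apply Finset.sum_congr rfl
    intro n _
    rw [ha χ (hS χ hχ) n, norm_mul, mul_pow]
  rw [Finset.sum_congr rfl h1, ← Finset.sum_mul]
  have h2 : ∀ χ ∈ S, ‖classInner (psi N g f) (χ : G → ℂ)‖ ^ 2 = ‖a χ‖ ^ 2 * F ^ 2 := by
    intro χ hχ
    rw [inner_psi N g f χ.2.isClassFunction]
    have e : ∑ n : N, f n * conj ((χ : G → ℂ) (g * n)) = conj (a χ) * (F : ℂ) := by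
      rw [hF]
      push_cast
      rw [Finset.mul_sum]
      apply Finset.sum_congr rfl
      intro n _
      rw [ha χ (hS χ hχ) n, map_mul]
      have := Complex.mul_conj (f n)
      rw [Complex.normSq_eq_norm_sq] at this
      push_cast at this
      rw [← this]
      ring
    rw [e, norm_mul, RCLike.norm_conj, Complex.norm_real, Real.norm_of_nonneg hF0, mul_pow]
  have h3 := (bessel N g f S).trans (inner_self_le N g f)
  rw [Finset.sum_congr rfl h2, ← Finset.sum_mul] at h3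
  rcases hF0.eq_or_lt with h0 | hpos
  · rw [← h0, mul_zero]
    positivity
  · rw [← hF] at h3
    have h4 : (∑ χ ∈ S, ‖a χ‖ ^ 2) * F * F ≤
        (Nat.card N * Nat.card (Subgroup.centralizer ({(g : G ⧸ N)} : Set (G ⧸ N))) : ℕ) * F := by
      calc _ = (∑ χ ∈ S, ‖a χ‖ ^ 2) * F ^ 2 := by ring
        _ ≤ _ := h3
    exact le_of_mul_le_mul_right h4 hpos

end Cfsg.Agent.Lib.H55B9a
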