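import Cfsg.Agent.Lib.CharBasic

/-! S4990, piece B9b: counting characters by cosets. -/

set_option autoImplicit false
open Cfsg
universe u
namespace Cfsg.Agent.Lib.H55B9b
open scoped ComplexConjugate

theorem norm_sum {G : Type u} [Group G] [Fintype G] (χ : IrrCharacter G) :
    ∑ g : G, ‖(χ : G → ℂ) g‖ ^ 2 = (Nat.card G : ℝ) := by
  have h := χ.2.classInner_self
  unfold classInner at h
  have hG : (Nat.card G : ℂ) ≠ 0 := Nat.cast_ne_zero.mpr Nat.card_pos.ne'
  have h1 : ∑ g, χ.1 g * conj (χ.1 g) = (Nat.card G : ℂ) := by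
    have := congrArg (fun z => (Nat.card G : ℂ) * z) h
    simpa [mul_inv_cancel_left₀ hG] using this
  have h2 : ((∑ g, ‖χ.1 g‖ ^ 2 : ℝ) : ℂ) = ((Nat.card G : ℝ) : ℂ) := by
    push_cast
    rw [← h1]
    refine Finset.sum_congr rfl fun g _ => ?_
    rw [Complex.mul_conj, Complex.normSq_eq_norm_sq]
    push_cast
    rfl
  exact_mod_cast h2

theorem cent_sum (Q : Type u) [Group Q] [Fintype Q] :
    ∑ x : Q, Nat.card (Subgroup.centralizer ({x} : Set Q)) = Nat.card (ConjClasses Q) * Nat.card Q := by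
  rw [← card_comm_eq_card_conjClasses_mul_card]
  have e : { p : Q × Q // Commute p.1 p.2 } ≃ (Σ x : Q, Subgroup.centralizer ({x} : Set Q)) :=
    { toFun := fun p => ⟨p.1.1, ⟨p.1.2, by
        rw [Subgroup.mem_centralizer_singleton_iff]
        exact (p.2 : p.1.1 * p.1.2 = p.1.2 * p.1.1).symm⟩⟩
      invFun := fun s => ⟨(s.1, s.2.1), by
        have := s.2.2
        rw [Subgroup.mem_centralizer_singleton_iff] at this
        exact this.symm⟩
      left_inv := fun p => rfl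
      right_inv := fun s => rfl }
  rw [Nat.card_congr e, Nat.card_sigma]

-- B9b Lib/H55B9b
theorem b9b {G : Type u} [Group G] [Fintype G] (N : Subgroup G) [hN : N.Normal]
    (S : Finset (IrrCharacter G))
    (h : ∀ g : G, ∑ χ ∈ S, ∑ᶠ n : N, ‖(χ : G → ℂ) (g * n)‖ ^ 2 ≤
      (Nat.card N * Nat.card (Subgroup.centralizer ({(g : G ⧸ N)} : Set (G ⧸ N))) : ℕ)) :
    S.card ≤ Nat.card (ConjClasses (G ⧸ N)) := by
  classical
  haveI : Fintype N := Fintype.ofFinite N
  haveI : Fintype (G ⧸ N) := Fintype.ofFinite (G ⧸ N)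
  have hNpos : (0 : ℝ) < (Nat.card N : ℝ) := by exact_mod_cast Nat.card_pos
  have hGpos : (0 : ℝ) < (Nat.card G : ℝ) := by exact_mod_cast Nat.card_pos
  -- sum over all of the group
  have h1 : ∑ g : G, ∑ χ ∈ S, ∑ᶠ n : N, ‖(χ : G → ℂ) (g * n)‖ ^ 2 = (Nat.card N : ℝ) * ((S.card : ℝ) * Nat.card G) := by
    rw [Finset.sum_comm]
    have h2 : ∀ χ ∈ S, ∑ g : G, ∑ᶠ n : N, ‖(χ : G → ℂ) (g * n)‖ ^ 2 = (Nat.card N : ℝ) * Nat.card G := by
      intro χ _
      have h3 : ∀ g : G, ∑ᶠ n : N, ‖(χ : G → ℂ) (g * n)‖ ^ 2 = ∑ n : N, ‖(χ : G → ℂ) (g * n)‖ ^ 2 :=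
        fun g => finsum_eq_sum_of_fintype _
      rw [Finset.sum_congr rfl fun g _ => h3 g, Finset.sum_comm]
      have h4 : ∀ n : N, ∑ g : G, ‖(χ : G → ℂ) (g * n)‖ ^ 2 = (Nat.card G : ℝ) := by
        intro n
        rw [← norm_sum χ]
        exact Equiv.sum_comp (Equiv.mulRight (n : G)) (fun g => ‖(χ : G → ℂ) g‖ ^ 2)
      rw [Finset.sum_congr rfl fun n _ => h4 n, Finset.sum_const, Finset.card_univ, nsmul_eq_mul,
        Nat.card_eq_fintype_card (α := N)]
    rw [Finset.sum_congr rfl h2, Finset.sum_const, nsmul_eq_mul]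
    ring
  have h2 : ∑ g : G, ∑ χ ∈ S, ∑ᶠ n : N, ‖(χ : G → ℂ) (g * n)‖ ^ 2 ≤
      ∑ g : G, ((Nat.card N * Nat.card (Subgroup.centralizer ({(g : G ⧸ N)} : Set (G ⧸ N))) : ℕ) : ℝ) :=
    Finset.sum_le_sum fun g _ => h g
  have h3 : ∑ g : G, Nat.card (Subgroup.centralizer ({(g : G ⧸ N)} : Set (G ⧸ N))) =
      Nat.card N * (Nat.card (ConjClasses (G ⧸ N)) * Nat.card (G ⧸ N)) := by
    rw [← cent_sum (G ⧸ N)]
    rw [← Finset.sum_fiberwise (s := Finset.univ) (g := fun g : G => (g : G ⧸ N)), Finset.mul_sum]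
    refine Finset.sum_congr rfl fun x _ => ?_
    have h4 : ∀ g ∈ Finset.univ.filter (fun g : G => (g : G ⧸ N) = x),
        Nat.card (Subgroup.centralizer ({(g : G ⧸ N)} : Set (G ⧸ N))) = Nat.card (Subgroup.centralizer ({x} : Set (G ⧸ N))) := by
      intro g hg
      rw [(Finset.mem_filter.1 hg).2]
    rw [Finset.sum_congr rfl h4, Finset.sum_const, smul_eq_mul]
    congr 1
    obtain ⟨g0, rfl⟩ := QuotientGroup.mk_surjective x
    have e : N ≃ {g : G // (g : G ⧸ N) = (g0 : G ⧸ N)} :=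
      { toFun := fun n => ⟨g0 * n, by
          rw [QuotientGroup.eq]
          have : (g0 * (n : G))⁻¹ * g0 = (n : G)⁻¹ := by group
          rw [this]; exact N.inv_mem n.2⟩
        invFun := fun g => ⟨g0⁻¹ * g.1, by
          have := g.2
          rw [eq_comm, QuotientGroup.eq] at this
          exact this⟩
        left_inv := fun n => by apply Subtype.ext; simp
        right_inv := fun g => by apply Subtype.ext; simp }
    rw [← Fintype.card_subtype, ← Nat.card_eq_fintype_card, Nat.card_congr e]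
  have h4 : (Nat.card N : ℝ) * ((S.card : ℝ) * Nat.card G) ≤
      (Nat.card N : ℝ) * ((Nat.card (ConjClasses (G ⧸ N)) : ℝ) * Nat.card G) := by
    rw [← h1]
    refine le_trans h2 (le_of_eq ?_)
    rw [← Nat.cast_sum, ← Finset.mul_sum, h3]
    have h5 : Nat.card G = Nat.card (G ⧸ N) * Nat.card N := Subgroup.card_eq_card_quotient_mul_card_subgroup N
    rw [h5]
    push_cast
    ring
  have h5 := le_of_mul_le_mul_left h4 hNpos
  have h6 := le_of_mul_le_mul_right h5 hGpos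
  exact_mod_cast h6

end Cfsg.Agent.Lib.H55B9b
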