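import Cfsg.Agent.Lib.H55Asm
import Cfsg.Agent.Lib.H55B1
import Cfsg.Agent.Lib.H55B2
import Cfsg.Agent.Lib.H55B3
import Cfsg.Agent.Lib.H55B4
import Cfsg.Agent.Lib.H55B5
import Cfsg.Agent.Lib.H55B6a
import Cfsg.Agent.Lib.H55B6b
import Cfsg.Agent.Lib.H55B7
import Cfsg.Agent.Lib.H55B8a
import Cfsg.Agent.Lib.H55B8b
import Cfsg.Agent.Lib.H55B8u
import Cfsg.Agent.Lib.H55B9a
import Cfsg.Agent.Lib.H55B9b
import Cfsg.Agent.Lib.H55B10
import Cfsg.Agent.Lib.H55B11
set_option autoImplicit false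
open Cfsg
universe u
namespace Cfsg.Agent.Lib.H55AsB
open Cfsg.Agent.Lib.H55KR

section
variable {K : Type} [Field K] {G V : Type} [Group G] [AddCommGroup V] [Module K V]

/-- the scalar elements -/
def scal (ρ : G →* (V ≃ₗ[K] V)) : Subgroup G where
  carrier := {g | ∃ c : K, ∀ v, ρ g v = c • v}
  one_mem' := ⟨1, fun v => by simp⟩
  mul_mem' := by
    rintro a b ⟨c, hc⟩ ⟨d, hd⟩
    refine ⟨c * d, fun v => ?_⟩
    rw [map_mul]
    show ρ a (ρ b v) = _
    rw [hd, hc, smul_smul]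
  inv_mem' := by
    rintro a ⟨c, hc⟩
    by_cases h0 : c = 0
    · refine ⟨0, fun v => ?_⟩
      have h1 : ρ a (ρ a⁻¹ v) = v := by
        have : ρ (a * a⁻¹) v = v := by simp
        rw [map_mul] at this
        exact this
      have h2 : ρ a (ρ a⁻¹ v) = 0 := by rw [hc, h0, zero_smul]
      have h3 : v = 0 := by rw [← h1, h2]
      rw [h3]; simp
    · refine ⟨c⁻¹, fun v => ?_⟩
      have h1 : ρ a (ρ a⁻¹ v) = v := by
        have : ρ (a * a⁻¹) v = v := by simp
        rw [map_mul] at this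
        exact this
      rw [hc] at h1
      calc ρ a⁻¹ v = c⁻¹ • (c • ρ a⁻¹ v) := by rw [smul_smul, inv_mul_cancel₀ h0, one_smul]
        _ = c⁻¹ • v := by rw [h1]

theorem scal_le_center (ρ : G →* (V ≃ₗ[K] V)) (hinj : Function.Injective ρ) :
    scal ρ ≤ Subgroup.center G := by
  rintro z ⟨c, hc⟩
  rw [Subgroup.mem_center_iff]
  intro g
  apply hinj
  ext v
  rw [map_mul, map_mul]
  show ρ g (ρ z v) = ρ z (ρ g v)
  rw [hc, hc, map_smul]

theorem scal_cyclic [Finite G] (ρ : G →* (V ≃ₗ[K] V)) (hinj : Function.Injective ρ) [Nontrivial V] :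
    IsCyclic (scal ρ) := by
  obtain ⟨v0, hv0⟩ := exists_ne (0 : V)
  have hu : ∀ c d : K, c • v0 = d • v0 → c = d := fun c d h => smul_left_injective K hv0 h
  let f : scal ρ →* K :=
    { toFun := fun z => z.2.choose
      map_one' := by
        apply hu
        rw [← (1 : scal ρ).2.choose_spec v0]
        simp
      map_mul' := fun x y => by
        apply hu
        rw [← (x * y).2.choose_spec v0, mul_smul, ← y.2.choose_spec v0, ← x.2.choose_spec]
        simp only [Subgroup.coe_mul, map_mul]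
        rfl }
  have hf : Function.Injective f := by
    intro x y hxy
    apply Subtype.ext
    apply hinj
    ext v
    rw [x.2.choose_spec v, y.2.choose_spec v]
    exact congrArg (· • v) hxy
  exact isCyclic_of_injective_ringHom f hf
end

theorem main2 (K : Type) [Field K] [IsAlgClosed K] (r : ℕ) : PS2 K r := by
  induction r using Nat.strong_induction_on with
  | _ r IH =>
  intro G _ _ V _ _ _ ρ hcard hs hinj hr h1
  by_cases hA : ∃ A : Subgroup G, A.Normal ∧ (∀ x ∈ A, ∀ y ∈ A, x * y = y * x) ∧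
      ∃ a ∈ A, ¬ ∃ c : K, ∀ v, ρ a v = c • v
  · obtain ⟨A, hAn, hab, hns⟩ := hA
    obtain ⟨k, U, hk, hind, hsup, hbot, hU, hperm⟩ := Cfsg.Agent.Lib.H55B3.b3 K hcard ρ A hAn hab hns
    exact Cfsg.Agent.Lib.H55B2.b2 Cfsg.Agent.Lib.H55K1.k1 Cfsg.Agent.Lib.H55Asm.ds K r IH ρ hcard hs hinj hr k U hk hind hsup
      hbot hU hperm
  · push Not at hA
    have : Nontrivial V := Module.nontrivial_of_finrank_pos (R := K) (by omega)
    obtain ⟨d, B, hBn, hd, hZB, hBc, hcm, hce, hKB⟩ := Cfsg.Agent.Lib.H55B1.b1 Cfsg.Agent.Lib.H55K1.k1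
      Cfsg.Agent.Lib.H55Asm.xs Cfsg.Agent.Lib.H55X2.x2 hs (scal ρ)
      (scal_le_center ρ hinj) (scal_cyclic ρ hinj) (fun A hAn hab a ha => hA A hAn hab a ha)
    have hdr := Cfsg.Agent.Lib.H55B4.b4 K ρ hinj (scal ρ) B hZB (fun z hz => hz) hcm hce d hBc
    rw [hr] at hdr
    refine ⟨B, hBn, ?_, Cfsg.Agent.Lib.H55K2.mono hKB (Nat.pow_le_pow_right (by norm_num) (by omega))⟩
    intro x hx y hy z _
    exact (Subgroup.mem_center_iff.mp (scal_le_center ρ hinj (hcm x hx y hy)) z).symm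

theorem a4s : A4S := by
  intro p _ X _ _ V N _ _ b hexp hidx hself hVN hcl hKB
  refine (Cfsg.Agent.Lib.H55B6b.b6b Cfsg.Agent.Lib.H55K1.k1 p X V N b hexp hidx hself hVN hKB).trans
    (Nat.mul_le_mul_left _ ?_)
  have hc : Nat.card (V.subgroupOf N) = Nat.card V :=
    Nat.card_congr (Subgroup.subgroupOfEquivOfLe hVN).toEquiv
  rw [← hc]
  refine Cfsg.Agent.Lib.H55B6a.b6a p N (V.subgroupOf N) ?_ ?_ ?_ ?_
  · intro v hv
    apply Subtype.ext
    simpa using hexp v.1 (Subgroup.mem_subgroupOf.mp hv)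
  · intro h
    exact hidx (h.trans (Subgroup.relIndex_dvd_index_of_normal V N))
  · ext x
    constructor
    · intro hx
      rw [Subgroup.mem_subgroupOf]
      have : (x : X) ∈ Subgroup.centralizer (V : Set X) := by
        rw [Subgroup.mem_centralizer_iff] at hx ⊢
        intro v hv
        exact congrArg Subtype.val (hx ⟨v, hVN hv⟩ (Subgroup.mem_subgroupOf.mpr hv))
      rw [hself] at this
      exact this
    · intro hx
      rw [Subgroup.mem_subgroupOf] at hx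
      have h2 : (x : X) ∈ Subgroup.centralizer (V : Set X) := by rw [hself]; exact hx
      rw [Subgroup.mem_centralizer_iff] at h2 ⊢
      intro v hv
      exact Subtype.ext (h2 v.1 (Subgroup.mem_subgroupOf.mp hv))
  · intro x y z
    rw [Subgroup.mem_subgroupOf]
    exact hcl x.1 x.2 y.1 y.2 z.1 z.2

theorem a5s : A5S := by
  intro p _ X _ _ V _ n hs hexp hidx hself hn hV
  exact Cfsg.Agent.Lib.H55B7.b7 a4s p (fun n hn Q W _ _ _ _ _ φ hφ hpQ hQs hdim =>
    Cfsg.Agent.Lib.H55B5.b5 p (main2 _) n hn Q W φ hφ hpQ hQs hdim) X V n hs hexp hidx hself hn hV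

theorem a6s : A6S :=
  Cfsg.Agent.Lib.H55B8b.b8b Cfsg.Agent.Lib.H55K1.k1 (fun p _ X _ _ P _ hs hcore hP hidx hbot =>
    Cfsg.Agent.Lib.H55B8a.b8a Cfsg.Agent.Lib.H55K1.k1 a5s p X hs hcore P hP hidx hbot)

theorem a9 (G : Type u) [Group G] [Fintype G] (N : Subgroup G) [hN : N.Normal] [Fintype N]
    (θ : IrrCharacter N)
    (hinv : ∀ (g : G) (n : N), (θ : N → ℂ) ⟨g * n * g⁻¹, hN.conj_mem n n.2 g⟩ = (θ : N → ℂ) n) :
    Set.ncard {χ : IrrCharacter G | classInner (fun n : N => (χ : G → ℂ) n) (θ : N → ℂ) ≠ 0} ≤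
        Nat.card (ConjClasses (G ⧸ N)) := by
  classical
  by_cases hfin : ({χ : IrrCharacter G | classInner (fun n : N => (χ : G → ℂ) n) (θ : N → ℂ) ≠ 0}).Finite
  · rw [Set.ncard_eq_toFinset_card _ hfin]
    apply Cfsg.Agent.Lib.H55B9b.b9b N
    intro g
    refine le_trans (le_of_eq ?_) (Cfsg.Agent.Lib.H55B9a.b9a N θ hinv hfin.toFinset (fun χ hχ => by simpa using hχ) g)
    refine Finset.sum_congr rfl fun χ _ => ?_
    rw [finsum_eq_sum_of_fintype]
  · rw [Set.Infinite.ncard hfin]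
    exact Nat.zero_le _

theorem final {G : Type u} [Group G] [Finite G] (hsolv : Group.IsSolvable G) (p : ℕ) [Fact p.Prime]
    (M : Ideal Cfsg.AlgInt) (hM : Cfsg.IsPModular p M) (B : Set (Cfsg.IrrCharacter G))
    (hB : Cfsg.IsPBlock M B) (hd : 0 < Cfsg.blockDefect p B) :
    Set.ncard B ≤ 3 ^ (Cfsg.blockDefect p B - 1) * p ^ Cfsg.blockDefect p B :=
  Cfsg.Agent.Lib.H55B11.b11
    (fun p _ X _ _ hs hcore hd => Cfsg.Agent.Lib.H55B8u.b8u a6s p X hs hcore hd)
    (fun G _ _ N _ _ θ hinv => a9 G N θ hinv)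
    (fun hM _ _ _ _ _ _ _ hb _ hB hcov => Cfsg.Agent.Lib.H55B10.b10 hM hb hB hcov)
    hsolv p M hM B hB hd

end Cfsg.Agent.Lib.H55AsB
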