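import Cfsg.Agent.Lib.H55KR3

set_option autoImplicit false

namespace Cfsg.Agent.Lib.H55D1
open Cfsg.Agent.Lib.H55KR
open scoped Pointwise

theorem prodL {α ι : Type} [Finite α] [Fintype ι] (G : Subgroup (Equiv.Perm α))
    (hs : Group.IsSolvable G) (s : ι → Set α)
    (hinv : ∀ g ∈ G, ∀ i, ∀ x, x ∈ s i → g x ∈ s i)
    (hcov : ∀ x, ∃ i, x ∈ s i) (e : ι → ℕ)
    (IH : ∀ i (H : Subgroup (Equiv.Perm (s i))), Group.IsSolvable H → Nat.card H ≤ 3 ^ (e i)) :
    Nat.card G ≤ 3 ^ (∑ i, e i) := by
  classical
  have hiff : ∀ (g : G) (i : ι) (x : α), (g : Equiv.Perm α) x ∈ s i ↔ x ∈ s i := by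
    intro g i x
    refine ⟨fun hx => ?_, hinv g g.2 i x⟩
    have h1 := hinv _ (G.inv_mem g.2) i _ hx
    simpa using h1
  let f : ∀ i, G →* Equiv.Perm (s i) := fun i =>
    { toFun := fun g => (g : Equiv.Perm α).subtypePerm (hiff g i)
      map_one' := by ext x; rfl
      map_mul' := by intro a b; ext x; rfl }
  have h1 : Nat.card G ≤ Nat.card (∀ i, (f i).range) := by
    apply Nat.card_le_card_of_injective (fun g : G => fun i => (⟨f i g, g, rfl⟩ : (f i).range))
    intro a b hab
    apply Subtype.ext
    ext x
    obtain ⟨i, hi⟩ := hcov x
    have h2 := congrArg Subtype.val (congrFun hab i)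
    have h3 := congrArg Subtype.val (Equiv.congr_fun h2 ⟨x, hi⟩)
    exact h3
  refine h1.trans ?_
  rw [Nat.card_pi, ← Finset.prod_pow_eq_pow_sum]
  refine Finset.prod_le_prod' fun i _ => IH i _ ?_
  exact Group.isSolvable_of_surjective (f i).rangeRestrict_surjective

theorem d1 (h : DPS) : DS := by
  have key : ∀ n : ℕ, ∀ (α : Type) [Finite α] [Nonempty α] (G : Subgroup (Equiv.Perm α)),
      Group.IsSolvable G → Nat.card α = n → Nat.card G ≤ 3 ^ (Nat.card α - 1) := by
    intro n
    induction n using Nat.strong_induction_on with
    | _ n ih =>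
    intro α _ _ G hG hn
    classical
    by_cases htr : MulAction.IsPretransitive G α
    · by_cases hpr : MulAction.IsPreprimitive G α
      · exact h α G hG hpr
      · -- a nontrivial block
        have hB : ∃ B : Set α, MulAction.IsBlock G B ∧ ¬ MulAction.IsTrivialBlock B := by
          by_contra hcon
          push Not at hcon
          exact hpr { isTrivialBlock_of_isBlock := fun {B} hB => hcon B hB }
        obtain ⟨B, hB, hBt⟩ := hB
        have hBt1 : ¬ B.Subsingleton := fun h1 => hBt (Or.inl h1)
        have hBt2 : B ≠ Set.univ := fun h1 => hBt (Or.inr h1)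
        have hBne : B.Nonempty := by
          rw [Set.nonempty_iff_ne_empty]
          rintro rfl
          exact hBt1 Set.subsingleton_empty
        have hcard := hB.ncard_block_mul_ncard_orbit_eq hBne
        set b := Set.ncard B with hb
        set m := Set.ncard (MulAction.orbit G B) with hm
        have hb1 : 1 < b := by
          rw [hb, Set.one_lt_ncard_iff]
          rw [Set.not_subsingleton_iff] at hBt1
          obtain ⟨x, hx, y, hy, hxy⟩ := hBt1
          exact ⟨x, y, hx, hy, hxy⟩
        have hbn : b < n := by
          rw [← hn, hb, ← Set.ncard_univ]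
          exact Set.ncard_lt_ncard (Set.ssubset_univ_iff.2 hBt2)
        have hm1 : 1 < m := by
          rcases Nat.lt_or_ge 1 m with h1 | h1
          · exact h1
          · exfalso
            have : b * m ≤ b * 1 := Nat.mul_le_mul_left b h1
            omega
        have hmn : m < n := by
          rw [← hn, ← hcard]
          nlinarith
        let Ω : Type := MulAction.orbit G B
        haveI : Finite Ω := inferInstanceAs (Finite (MulAction.orbit G B))
        haveI : Nonempty Ω := ⟨⟨B, MulAction.mem_orbit_self B⟩⟩
        haveI : Fintype Ω := Fintype.ofFinite Ω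
        have hΩ : Nat.card Ω = m := rfl
        let θ : G →* Equiv.Perm Ω := MulAction.toPermHom G (MulAction.orbit G B)
        have hr : Nat.card θ.range ≤ 3 ^ (m - 1) := by
          have h2 := ih m hmn Ω θ.range
            (Group.isSolvable_of_surjective θ.rangeRestrict_surjective) hΩ
          rwa [hΩ] at h2
        let K : Subgroup (Equiv.Perm α) := θ.ker.map G.subtype
        have hKc : Nat.card K = Nat.card θ.ker :=
          Nat.card_congr (θ.ker.equivMapOfInjective G.subtype G.subtype_injective).symm.toEquiv
        have hKs : Group.IsSolvable K :=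
          Group.isSolvable_of_surjective
            (f := (θ.ker.equivMapOfInjective G.subtype G.subtype_injective).toMonoidHom)
            (θ.ker.equivMapOfInjective G.subtype G.subtype_injective).surjective
        have hKle : Nat.card K ≤ 3 ^ (∑ _i : Ω, (b - 1)) := by
          refine prodL K hKs (fun i : Ω => (i.1 : Set α)) ?_ ?_ (fun _ => b - 1) ?_
          · rintro _ ⟨g, hg, rfl⟩ i x hx
            have h3 : θ g = 1 := hg
            have h4 : g • i.1 = i.1 := by
              have h5 := Equiv.congr_fun h3 i
              exact congrArg Subtype.val h5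
            rw [← h4]
            exact Set.smul_mem_smul_set hx
          · intro x
            obtain ⟨y, hy⟩ := hBne
            obtain ⟨g, hg⟩ := htr.exists_smul_eq y x
            refine ⟨⟨g • B, MulAction.mem_orbit B g⟩, ?_⟩
            rw [← hg]
            exact Set.smul_mem_smul_set hy
          · intro i H hH
            have hic : Nat.card (i.1 : Set α) = b := by
              obtain ⟨_, g, rfl⟩ := i
              change (g • B).ncard = b
              exact Set.ncard_smul_set g B
            haveI : Nonempty (i.1 : Set α) := by
              have : 0 < Nat.card (i.1 : Set α) := by omega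
              exact (Nat.card_pos_iff.1 this).1
            have h6 := ih b hbn (i.1 : Set α) H hH hic
            rwa [hic] at h6
        have hGc : Nat.card G = Nat.card θ.ker * Nat.card θ.range := by
          rw [← Subgroup.index_ker, Subgroup.card_mul_index]
        rw [hGc, ← hKc]
        refine (Nat.mul_le_mul hKle hr).trans ?_
        rw [Finset.sum_const, Finset.card_univ, ← Nat.card_eq_fintype_card, hΩ, ← pow_add, ← hcard]
        apply Nat.pow_le_pow_right (by norm_num)
        clear_value b m
        obtain ⟨b', hb'⟩ : ∃ b', b = b' + 1 := ⟨b - 1, by omega⟩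
        obtain ⟨m', hm'⟩ : ∃ m', m = m' + 1 := ⟨m - 1, by omega⟩
        rw [hb', hm']
        simp only [smul_eq_mul, Nat.add_sub_cancel]
        have : (b' + 1) * (m' + 1) = (m' + 1) * b' + m' + 1 := by ring
        omega
    · -- intransitive
      obtain ⟨x⟩ := (inferInstance : Nonempty α)
      let O : Set α := MulAction.orbit G x
      have hO : O ≠ Set.univ := by
        intro h1
        apply htr
        rw [MulAction.isPretransitive_iff_base (G := G) x]
        intro y
        have : y ∈ O := by rw [h1]; trivial
        exact this
      have hx : x ∈ O := MulAction.mem_orbit_self x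
      obtain ⟨y, hy⟩ : ∃ y, y ∉ O := by
        by_contra hcon
        push Not at hcon
        exact hO (Set.eq_univ_of_forall hcon)
      have hadd : Nat.card O + Nat.card (Oᶜ : Set α) = n := by
        rw [← hn]
        exact Set.ncard_add_ncard_compl O
      have h1 : 0 < Nat.card O := by
        haveI : Nonempty O := ⟨⟨x, hx⟩⟩
        exact Nat.card_pos
      have h2 : 0 < Nat.card (Oᶜ : Set α) := by
        haveI : Nonempty (Oᶜ : Set α) := ⟨⟨y, hy⟩⟩
        exact Nat.card_pos
      let s : Bool → Set α := fun c => if c then O else Oᶜ
      have hG2 := prodL G hG s ?_ ?_ (fun c => Nat.card (s c) - 1) ?_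
      · refine hG2.trans ?_
        apply Nat.pow_le_pow_right (by norm_num)
        rw [Fintype.sum_bool]
        change (Nat.card O - 1) + (Nat.card (Oᶜ : Set α) - 1) ≤ _
        omega
      · intro g hg c z hz
        have hiff : g z ∈ O ↔ z ∈ O := by
          constructor
          · rintro ⟨k, hk⟩
            refine ⟨(⟨g, hg⟩ : G)⁻¹ * k, ?_⟩
            change ((⟨g, hg⟩ : G)⁻¹ * k) • x = z
            rw [mul_smul, inv_smul_eq_iff]
            exact hk
          · rintro ⟨k, hk⟩
            refine ⟨(⟨g, hg⟩ : G) * k, ?_⟩
            change ((⟨g, hg⟩ : G) * k) • x = g z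
            rw [mul_smul, show k • x = z from hk]
            rfl
        cases c
        · exact fun h4 => hz (hiff.1 h4)
        · exact hiff.2 hz
      · intro z
        by_cases hz : z ∈ O
        · exact ⟨true, hz⟩
        · exact ⟨false, hz⟩
      · intro c H hH
        have hc : Nat.card (s c) < n ∧ 0 < Nat.card (s c) := by
          cases c
          · change Nat.card (Oᶜ : Set α) < n ∧ 0 < Nat.card (Oᶜ : Set α)
            omega
          · change Nat.card O < n ∧ 0 < Nat.card O
            omega
        haveI : Nonempty (s c) := (Nat.card_pos_iff.1 hc.2).1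
        exact ih _ hc.1 (s c) H hH rfl
  intro α _ _ G hG
  exact key _ α G hG rfl

end Cfsg.Agent.Lib.H55D1
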