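import Cfsg.Agent.Lib.H55KR3
import Cfsg.Agent.Lib.MinNormSolv
import Cfsg.Agent.Lib.PrimNormal
import Cfsg.Agent.Lib.Cores3
import Cfsg.Agent.Lib.H58ElemAb

/-! S4265 piece D2: primitive solvable permutation groups -/

set_option autoImplicit false
set_option linter.all false

namespace Cfsg.Agent.Lib.H55D2

open Cfsg.Agent.Lib.H55KR MulAction

theorem d2 (α : Type) [Finite α] [Nontrivial α] (G : Subgroup (Equiv.Perm α)) (hs : Group.IsSolvable G)
    (hp : MulAction.IsPreprimitive G α) : ∃ p a : ℕ, p.Prime ∧ 1 ≤ a ∧ Nat.card α = p ^ a ∧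
      Nat.card G ≤ p ^ a * ∏ i ∈ Finset.range a, (p ^ a - p ^ i) := by
  classical
  haveI := hs
  haveI : Finite (Equiv.Perm α) := inferInstance
  haveI : Finite G := inferInstance
  obtain ⟨ω⟩ : Nonempty α := inferInstance
  haveI htr : IsPretransitive G α := hp.toIsPretransitive
  have hnt : (⊤ : Subgroup G) ≠ ⊥ := by
    intro h
    obtain ⟨x, y, hxy⟩ := exists_pair_ne α
    obtain ⟨g, hg⟩ := MulAction.exists_smul_eq G x y
    have : g ∈ (⊤ : Subgroup G) := trivial
    rw [h, Subgroup.mem_bot] at this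
    rw [this, one_smul] at hg
    exact hxy hg
  obtain ⟨M, hMn, hM1, -, hmin⟩ := Cores.exists_minNormal_le (G := G) (K := ⊤) inferInstance hnt
  haveI := hMn
  obtain ⟨-, -, hC, hMs, hab⟩ := MinNormSolv.primitive_solvable hp M hM1 hmin ω
  haveI : Group.IsSolvable M := inferInstance
  obtain ⟨p, hpp, -, hexp⟩ := MinNormSolv.elementary_of_minimal hM1 hmin
  obtain ⟨a, ha, hcard⟩ := MinNormSolv.card_eq_prime_pow hM1 hpp hexp
  haveI hMt : IsPretransitive M α := PrimNormal.transitive_of_normal hp M hM1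
  -- card α = card M
  have hst : stabilizer M ω = ⊥ := by
    rw [Subgroup.eq_bot_iff_forall]
    intro m hm
    have h1 : (m : G) ∈ M ⊓ stabilizer G ω := Subgroup.mem_inf.2 ⟨m.2, mem_stabilizer_iff.2 (mem_stabilizer_iff.1 hm)⟩
    rw [hMs, Subgroup.mem_bot] at h1
    exact Subtype.ext h1
  have hα : Nat.card α = Nat.card M := by
    have h1 := Nat.card_congr (orbitProdStabilizerEquivGroup M ω)
    rw [Nat.card_prod, orbit_eq_univ, Nat.card_congr (Equiv.Set.univ _), hst, Subgroup.card_bot, mul_one] at h1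
    exact h1
  have hG : Nat.card G = Nat.card α * Nat.card (stabilizer G ω) := by
    have h1 := Nat.card_congr (orbitProdStabilizerEquivGroup G ω)
    rw [Nat.card_prod, orbit_eq_univ, Nat.card_congr (Equiv.Set.univ _)] at h1
    exact h1.symm
  haveI : Fact p.Prime := ⟨hpp⟩
  letI : CommGroup M := { (inferInstance : Group M) with mul_comm := fun x y => hab.is_comm.comm x y }
  obtain ⟨φ, hφ⟩ := H58ElemAb.exists_mulAut_toGL (A := M) p a (fun x => Subtype.ext (hexp x x.2)) hcard
  -- the stabilizer acts faithfully on M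
  let ψ : stabilizer G ω →* MulAut M := (MulAut.conjNormal (H := M)).comp (stabilizer G ω).subtype
  have hψ : Function.Injective ψ := by
    rw [injective_iff_map_eq_one]
    intro x hx
    have h1 : (x : G) ∈ Subgroup.centralizer (M : Set G) := by
      rw [Subgroup.mem_centralizer_iff]
      intro m hm
      have h2 := congrArg (fun f : MulAut M => ((f ⟨m, hm⟩ : M) : G)) hx
      have h3 : (x : G) * m * (x : G)⁻¹ = m := h2
      rw [mul_inv_eq_iff_eq_mul] at h3
      exact h3.symm
    rw [hC] at h1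
    have h4 : (x : G) ∈ M ⊓ stabilizer G ω := ⟨h1, x.2⟩
    rw [hMs, Subgroup.mem_bot] at h4
    exact Subtype.ext h4
  have hle : Nat.card (stabilizer G ω) ≤ ∏ i ∈ Finset.range a, (p ^ a - p ^ i) := by
    have h1 := Nat.card_le_card_of_injective (fun x => φ (ψ x)) (hφ.comp hψ)
    rw [Matrix.card_GL_field, ZMod.card] at h1
    rwa [Finset.prod_range]
  refine ⟨p, a, hpp, ha, by rw [hα, hcard], ?_⟩
  rw [hG, hα, hcard]
  exact Nat.mul_le_mul_left _ hle

end Cfsg.Agent.Lib.H55D2
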