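import Cfsg.Agent.Lib.H55KR2

set_option autoImplicit false

namespace Cfsg.Agent.Lib.H55KR

/-- Fitting quotient step -/
def Y0S : Prop := ∀ (C : Type) [Group C] [Finite C] (C' E : Subgroup C) [C'.Normal] [E.Normal]
  [(C' ⊔ E).Normal] [(Cfsg.fittingSubgroup C).Normal] [(Cfsg.fittingSubgroup C').Normal] (a b : ℕ),
  Group.IsNilpotent E → KB (C' ⧸ Cfsg.fittingSubgroup C') a → KB (C ⧸ (C' ⊔ E)) b →
    KB (C ⧸ Cfsg.fittingSubgroup C) (a * b)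

/-- block-diagonal case -/
def W2aS : Prop := ∀ (M V : Type) [Group M] [Finite M] [AddCommGroup V] [Module ℂ V]
  [FiniteDimensional ℂ V] (σ : M →* (V ≃ₗ[ℂ] V)) [(Cfsg.fittingSubgroup M).Normal] (k : ℕ)
  (U : Fin k → Submodule ℂ V), Group.IsSolvable M → Function.Injective σ → iSupIndep U →
  (⨆ i, U i = ⊤) → (∀ i, U i ≠ ⊥) → (∀ g : M, ∀ i, (U i).map (σ g : V →ₗ[ℂ] V) = U i) →
  (∀ i, PS (Module.finrank ℂ (U i))) →
    KB (M ⧸ Cfsg.fittingSubgroup M) (3 ^ (Module.finrank ℂ V - k))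

/-- a central chief factor complement property (piece X2) -/
def X2S : Prop := ∀ (G : Type) [Group G] [Finite G] (Z E : Subgroup G), CF G Z E → ∀ g : G,
  (∀ e ∈ E, g * e * g⁻¹ * e⁻¹ ∈ Z) → ∃ e ∈ E, ∀ y ∈ E, (g * e) * y = y * (g * e)

end Cfsg.Agent.Lib.H55KR
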