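import Mathlib
import Cfsg.Agent.Lib.H55KR3

set_option autoImplicit false

namespace Cfsg.Agent.Lib.H55D3

open Cfsg.Agent.Lib.H55KR

theorem d3 (p a : ℕ) (hp : p.Prime) (ha : 1 ≤ a) :
    p ^ a * ∏ i ∈ Finset.range a, (p ^ a - p ^ i) ≤ 3 ^ (p ^ a - 1) := by
  have hle : p ^ a * ∏ i ∈ Finset.range a, (p ^ a - p ^ i) ≤ p ^ (a * (a + 1)) := by
    calc p ^ a * ∏ i ∈ Finset.range a, (p ^ a - p ^ i) ≤ p ^ a * ∏ i ∈ Finset.range a, p ^ a :=
          Nat.mul_le_mul_left _ (Finset.prod_le_prod' (fun i _ => Nat.sub_le _ _))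
      _ = p ^ (a * (a + 1)) := by
          rw [Finset.prod_const, Finset.card_range, ← pow_mul, ← pow_add]
          congr 1
          ring
  rcases Nat.lt_or_ge p 3 with h3 | h3
  · have hp2 : p = 2 := by have := hp.two_le; omega
    subst hp2
    rcases Nat.lt_or_ge a 5 with h5 | h5
    · interval_cases a <;> decide +kernel
    · have h1 : a * (a + 1) ≤ 2 ^ a - 1 := by
        have h2 : a * (a + 1) + 1 ≤ 2 ^ a := by
          clear hle ha
          induction a, h5 using Nat.le_induction with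
          | base => norm_num
          | succ n hn ih => rw [pow_succ]; nlinarith
        omega
      calc _ ≤ 2 ^ (a * (a + 1)) := hle
        _ ≤ 2 ^ (2 ^ a - 1) := Nat.pow_le_pow_right (by norm_num) h1
        _ ≤ 3 ^ (2 ^ a - 1) := Nat.pow_le_pow_left (by norm_num) _
  · have h1 : p ^ 2 ≤ 3 ^ (p - 1) := by
      clear hle hp
      induction p, h3 using Nat.le_induction with
      | base => norm_num
      | succ n hn ih =>
        have h4 : 3 ^ (n + 1 - 1) = 3 * 3 ^ (n - 1) := by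
          rw [← pow_succ']
          congr 1
          omega
        rw [h4]
        nlinarith
    have h2 : ∀ a : ℕ, a * (a + 1) ≤ 2 * ∑ i ∈ Finset.range a, p ^ i := by
      intro a
      induction a with
      | zero => simp
      | succ n ih =>
        rw [Finset.sum_range_succ]
        have h7 : n < p ^ n := Nat.lt_pow_self (by omega)
        nlinarith
    obtain ⟨q, rfl⟩ : ∃ q, p = q + 1 := ⟨p - 1, by omega⟩
    have h5 := geom_sum_mul_add q a
    have h6 : (q + 1) ^ a - 1 = (q + 1 - 1) * ∑ i ∈ Finset.range a, (q + 1) ^ i := by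
      rw [← h5, Nat.add_sub_cancel, Nat.add_sub_cancel, mul_comm]
    calc _ ≤ (q + 1) ^ (a * (a + 1)) := hle
      _ ≤ (q + 1) ^ (2 * ∑ i ∈ Finset.range a, (q + 1) ^ i) := Nat.pow_le_pow_right (by omega) (h2 a)
      _ = ((q + 1) ^ 2) ^ (∑ i ∈ Finset.range a, (q + 1) ^ i) := pow_mul _ _ _
      _ ≤ (3 ^ (q + 1 - 1)) ^ (∑ i ∈ Finset.range a, (q + 1) ^ i) := Nat.pow_le_pow_left h1 _
      _ = 3 ^ ((q + 1) ^ a - 1) := by rw [← pow_mul, h6]

end Cfsg.Agent.Lib.H55D3
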