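import Cfsg.Agent.Lib.H55KR3
set_option autoImplicit false
namespace Cfsg.Agent.Lib.H55L1
open Module
open Cfsg.Agent.Lib.H55KR

theorem l1 {G V : Type} [Group G] [Finite G] [AddCommGroup V] [Module ℂ V] [FiniteDimensional ℂ V] [Nontrivial V]
    (ρ : G →* (V ≃ₗ[ℂ] V)) (hinj : Function.Injective ρ) (Z B : Subgroup G) (hZB : Z ≤ B)
    (hsc : ∀ z ∈ Z, ∃ c : ℂ, ∀ v, ρ z v = c • v)
    (hcm : ∀ x ∈ B, ∀ y ∈ B, x * y * x⁻¹ * y⁻¹ ∈ Z)
    (hce : ∀ x ∈ B, (∀ y ∈ B, x * y = y * x) → x ∈ Z) (d : ℕ)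
    (hd : Nat.card B = d ^ 2 * Nat.card Z) : d ≤ Module.finrank ℂ V := by
  classical
  -- conjugation operators
  let L : G → (V →ₗ[ℂ] V) := fun g => ((ρ g : V ≃ₗ[ℂ] V) : V →ₗ[ℂ] V)
  have Lmul : ∀ g h, L (g * h) = L g * L h := by
    intro g h
    ext v
    show ρ (g * h) v = ρ g (ρ h v)
    rw [map_mul]; rfl
  have L1 : L 1 = 1 := by
    ext v
    show ρ 1 v = v
    rw [map_one]; rfl
  have Linj : ∀ g h, L g = L h → g = h := by
    intro g h e
    apply hinj
    ext v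
    exact LinearMap.congr_fun e v
  have hLsc : ∀ z ∈ Z, ∃ c : ℂ, L z = c • (1 : V →ₗ[ℂ] V) := by
    intro z hz
    obtain ⟨c, hc⟩ := hsc z hz
    exact ⟨c, LinearMap.ext fun v => hc v⟩
  choose! c hc using hLsc
  let f : B → End ℂ (V →ₗ[ℂ] V) := fun x =>
    { toFun := fun T => L x.1 * T * L x.1⁻¹
      map_add' := by intro a b; rw [mul_add, add_mul]
      map_smul' := by intro r a; simp only [mul_smul_comm, smul_mul_assoc, RingHom.id_apply] }
  have fapp : ∀ (x : B) T, f x T = L x.1 * T * L x.1⁻¹ := fun _ _ => rfl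
  -- they commute
  have fcomm : ∀ x y : B, Commute (f x) (f y) := by
    intro x y
    apply LinearMap.ext
    intro T
    show f x (f y T) = f y (f x T)
    rw [fapp, fapp, fapp, fapp]
    have h1 : x.1 * y.1 = (x.1 * y.1 * x.1⁻¹ * y.1⁻¹) * (y.1 * x.1) := by group
    have hz := hcm x.1 x.2 y.1 y.2
    set z := x.1 * y.1 * x.1⁻¹ * y.1⁻¹ with hzdef
    have h2 : L x.1 * (L y.1 * T * L y.1⁻¹) * L x.1⁻¹ = L (x.1 * y.1) * T * L ((x.1 * y.1)⁻¹) := by
      rw [Lmul, mul_inv_rev, Lmul]; simp only [mul_assoc]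
    have h3 : L y.1 * (L x.1 * T * L x.1⁻¹) * L y.1⁻¹ = L (y.1 * x.1) * T * L ((y.1 * x.1)⁻¹) := by
      rw [Lmul, mul_inv_rev, Lmul]; simp only [mul_assoc]
    rw [h2, h3]
    have h4 : L (x.1 * y.1) = c z • L (y.1 * x.1) := by
      rw [h1, Lmul, hc z hz, smul_mul_assoc, one_mul]
    have h5 : L ((x.1 * y.1)⁻¹) = L ((y.1 * x.1)⁻¹) * L z⁻¹ := by
      rw [← Lmul, ← mul_inv_rev, ← h1]
    have h6 : c z • L z⁻¹ = 1 := by
      have : L z * L z⁻¹ = 1 := by rw [← Lmul, mul_inv_cancel, L1]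
      rw [hc z hz, smul_mul_assoc, one_mul] at this
      exact this
    rw [h4, h5, smul_mul_assoc, smul_mul_assoc, ← mul_assoc, ← mul_smul_comm, h6, mul_one]
  have hmaps : ∀ (i j : B) (φ : ℂ), Set.MapsTo (f i) ((f j).maxGenEigenspace φ) ((f j).maxGenEigenspace φ) := by
    intro i j φ
    exact Module.End.mapsTo_maxGenEigenspace_of_comm (fcomm j i) φ
  have hind := Module.End.independent_iInf_maxGenEigenspace_of_forall_mapsTo f hmaps
  -- the weights
  let Z' := Z.subgroupOf B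
  let w : (B ⧸ Z') → (B → ℂ) := fun q x => c (x.1 * q.out.1 * x.1⁻¹ * (q.out.1)⁻¹)
  have heig : ∀ (q : B ⧸ Z') (x : B), f x (L q.out.1) = w q x • L q.out.1 := by
    intro q x
    rw [fapp]
    have h1 : L x.1 * L q.out.1 * L x.1⁻¹ = L (x.1 * q.out.1 * x.1⁻¹ * (q.out.1)⁻¹) * L q.out.1 := by
      rw [← Lmul, ← Lmul, ← Lmul]
      congr 1; group
    rw [h1, hc _ (hcm x.1 x.2 q.out.1 q.out.2), smul_mul_assoc, one_mul]
  have hwinj : Function.Injective w := by
    intro q q' e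
    have h1 : ∀ x : B, x.1 * q.out.1 * x.1⁻¹ * (q.out.1)⁻¹ = x.1 * q'.out.1 * x.1⁻¹ * (q'.out.1)⁻¹ := by
      intro x
      apply Linj
      rw [hc _ (hcm x.1 x.2 q.out.1 q.out.2), hc _ (hcm x.1 x.2 q'.out.1 q'.out.2)]
      have := congrFun e x
      simp only [w] at this
      rw [this]
    have h2 : (q.out)⁻¹ * q'.out ∈ Z' := by
      rw [Subgroup.mem_subgroupOf]
      apply hce
      · exact B.mul_mem (B.inv_mem q.out.2) q'.out.2
      · intro y hy
        have h3 := h1 ⟨y⁻¹, B.inv_mem hy⟩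
        simp only [inv_inv] at h3
        show (q.out.1)⁻¹ * q'.out.1 * y = y * ((q.out.1)⁻¹ * q'.out.1)
        have h4 : q.out.1 * y * (q.out.1)⁻¹ = q'.out.1 * y * (q'.out.1)⁻¹ := by
          have := congrArg (fun g => y * g) h3
          simp only [mul_assoc, mul_inv_cancel_left] at this
          simpa only [mul_assoc] using this
        calc (q.out.1)⁻¹ * q'.out.1 * y = (q.out.1)⁻¹ * (q'.out.1 * y * (q'.out.1)⁻¹) * q'.out.1 := by group
          _ = (q.out.1)⁻¹ * (q.out.1 * y * (q.out.1)⁻¹) * q'.out.1 := by rw [h4]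
          _ = y * ((q.out.1)⁻¹ * q'.out.1) := by group
    have h3 := QuotientGroup.eq.mpr h2
    rwa [QuotientGroup.out_eq', QuotientGroup.out_eq'] at h3
  have hli : LinearIndependent ℂ (fun q : B ⧸ Z' => L q.out.1) := by
    refine (hind.comp hwinj).linearIndependent _ (fun q => ?_) (fun q => ?_)
    · rw [Function.comp_apply, Submodule.mem_iInf]
      intro x
      rw [Module.End.mem_maxGenEigenspace]
      refine ⟨1, ?_⟩
      rw [pow_one, LinearMap.sub_apply, heig]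
      simp
    · intro h0
      have h1 : L q.out.1 * L (q.out.1)⁻¹ = 1 := by rw [← Lmul, mul_inv_cancel, L1]
      rw [h0, zero_mul] at h1
      obtain ⟨v, hv⟩ := exists_ne (0 : V)
      exact hv (LinearMap.congr_fun h1 v).symm
  haveI : Fintype (B ⧸ Z') := Fintype.ofFinite _
  have hcard := hli.fintype_card_le_finrank
  rw [Module.finrank_linearMap, ← Nat.card_eq_fintype_card] at hcard
  have h1 : Nat.card B = Nat.card (B ⧸ Z') * Nat.card Z' := Subgroup.card_eq_card_quotient_mul_card_subgroup Z'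
  have h2 : Nat.card Z' = Nat.card Z := Nat.card_congr (Subgroup.subgroupOfEquivOfLe hZB).toEquiv
  have h3 : Nat.card (B ⧸ Z') = d ^ 2 := by
    rw [hd, h2] at h1
    exact (Nat.eq_of_mul_eq_mul_right Nat.card_pos h1).symm
  rw [h3] at hcard
  nlinarith [hcard]

end Cfsg.Agent.Lib.H55L1
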