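import Cfsg.Agent.Lib.H55KR3

set_option autoImplicit false
set_option maxHeartbeats 1000000

/-! Piece S0 of S4265 (helper2): the order of a symplectic group. -/

namespace Cfsg.Agent.Lib.H55S0

open Cfsg.Agent.Lib.H55KR

theorem orb {X : Type} [Group X] [Finite X] {Y : Type} [Finite Y] (T : Subgroup X) (f : X → Y)
    (hf : ∀ a b : X, f a = f b → a⁻¹ * b ∈ T) : Nat.card X ≤ Nat.card Y * Nat.card T := by
  rw [Subgroup.card_eq_card_quotient_mul_card_subgroup T]
  apply Nat.mul_le_mul_right
  apply Nat.card_le_card_of_injective (fun q : X ⧸ T => f q.out)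
  intro q q' h
  have h1 := hf _ _ h
  rw [← QuotientGroup.out_eq' q, ← QuotientGroup.out_eq' q']
  exact QuotientGroup.eq.2 h1

theorem gen {p : ℕ} (hp : p.Prime) : ∀ (n : ℕ) (X W : Type) [Group X] [Finite X] [AddCommGroup W] [Module (ZMod p) W]
    [Finite W] (φ : X →* (W ≃ₗ[ZMod p] W)) (β : W →ₗ[ZMod p] W →ₗ[ZMod p] ZMod p), SF p n X W φ β →
    Nat.card X ≤ ∏ i ∈ Finset.range n, ((p ^ (2 * (i + 1)) - 1) * p ^ (2 * i + 1)) := by
  haveI : Fact p.Prime := ⟨hp⟩
  intro n
  induction n with
  | zero =>
    intro X W _ _ _ _ _ φ β h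
    rw [Finset.range_zero, Finset.prod_empty]
    have h0 : Module.finrank (ZMod p) W = 0 := h.dim
    haveI : Subsingleton W := Module.finrank_zero_iff.1 h0
    haveI : Subsingleton X := ⟨fun a b => h.inj (by ext w; exact Subsingleton.elim _ _)⟩
    exact (Nat.card_of_subsingleton (1 : X)).le
  | succ n ih =>
    intro X W _ _ _ _ _ φ β h
    have hWpos : 0 < Module.finrank (ZMod p) W := by rw [h.dim]; omega
    haveI : Nontrivial W := Module.nontrivial_of_finrank_pos hWpos
    obtain ⟨e, he⟩ := exists_ne (0 : W)
    obtain ⟨f0, hf0⟩ : ∃ y, β e y ≠ 0 := by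
      by_contra hcon
      push Not at hcon
      exact he (h.nondeg e hcon)
    obtain ⟨f, hf⟩ : ∃ f, β e f = 1 := ⟨(β e f0)⁻¹ • f0, by rw [map_smul, smul_eq_mul, inv_mul_cancel₀ hf0]⟩
    have hsk : ∀ x y, β x y = - β y x := by
      intro x y
      have h1 := h.alt (x + y)
      rw [map_add, map_add, LinearMap.add_apply, LinearMap.add_apply, h.alt, h.alt, zero_add, add_zero] at h1
      exact eq_neg_of_add_eq_zero_right h1
    have hfe : β f e = -1 := by rw [hsk, hf]
    -- stabilisers
    let T1 : Subgroup X :=
      { carrier := {g | φ g e = e}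
        mul_mem' := by
          intro a b ha hb
          have ha' : φ a e = e := ha
          have hb' : φ b e = e := hb
          show φ (a * b) e = e
          rw [map_mul, LinearEquiv.mul_apply, hb', ha']
        one_mem' := by show φ 1 e = e; rw [map_one]; rfl
        inv_mem' := by
          intro a ha
          have ha' : φ a e = e := ha
          show φ a⁻¹ e = e
          have : φ a⁻¹ (φ a e) = e := by rw [← LinearEquiv.mul_apply, ← map_mul, inv_mul_cancel, map_one]; rfl
          rwa [ha'] at this }
    have hT1 : ∀ g, g ∈ T1 ↔ φ g e = e := fun g => Iff.rfl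
    let T2 : Subgroup T1 :=
      { carrier := {g | φ (g : X) f = f}
        mul_mem' := by
          intro a b ha hb
          have ha' : φ (a : X) f = f := ha
          have hb' : φ (b : X) f = f := hb
          show φ ((a * b : T1) : X) f = f
          rw [Subgroup.coe_mul, map_mul, LinearEquiv.mul_apply, hb', ha']
        one_mem' := by show φ ((1 : T1) : X) f = f; rw [Subgroup.coe_one, map_one]; rfl
        inv_mem' := by
          intro a ha
          have ha' : φ (a : X) f = f := ha
          show φ ((a⁻¹ : T1) : X) f = f
          have : φ (a : X)⁻¹ (φ (a : X) f) = f := by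
            rw [← LinearEquiv.mul_apply, ← map_mul, inv_mul_cancel, map_one]; rfl
          rw [ha'] at this
          exact this }
    have hT2 : ∀ g, g ∈ T2 ↔ φ (g : X) f = f := fun g => Iff.rfl
    have hinvm : ∀ (g : X) (w : W), φ g⁻¹ (φ g w) = w := by
      intro g w
      rw [← LinearEquiv.mul_apply, ← map_mul, inv_mul_cancel, map_one]; rfl
    have hinvm' : ∀ (g : X) (w : W), φ g (φ g⁻¹ w) = w := by
      intro g w
      rw [← LinearEquiv.mul_apply, ← map_mul, mul_inv_cancel, map_one]; rfl
    -- the orthogonal complement
    let L : W →ₗ[ZMod p] (ZMod p × ZMod p) := (β e).prod (β f)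
    let U : Submodule (ZMod p) W := LinearMap.ker L
    have hU : ∀ w, w ∈ U ↔ β e w = 0 ∧ β f w = 0 := by
      intro w
      show w ∈ LinearMap.ker L ↔ _
      rw [LinearMap.mem_ker]
      exact Prod.ext_iff
    have hdec : ∀ w, w - ((- β f w) • e + (β e w) • f) ∈ U := by
      intro w
      rw [hU]
      constructor
      · simp only [map_sub, map_add, map_smul, h.alt, hf, smul_eq_mul]; ring
      · simp only [map_sub, map_add, map_smul, h.alt, hfe, smul_eq_mul]; ring
    have hLs : LinearMap.range L = ⊤ := by
      rw [LinearMap.range_eq_top]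
      rintro ⟨a, b⟩
      refine ⟨(-b) • e + a • f, ?_⟩
      show (β e _, β f _) = (a, b)
      simp only [map_add, map_smul, h.alt, hf, hfe, smul_eq_mul]
      ext <;> simp
    have hdimU : Module.finrank (ZMod p) U = 2 * n := by
      have h1 := LinearMap.finrank_range_add_finrank_ker L
      rw [hLs, finrank_top, Module.finrank_prod, Module.finrank_self, h.dim] at h1
      have : Module.finrank (ZMod p) U = Module.finrank (ZMod p) (LinearMap.ker L) := rfl
      omega
    have hT12 : ∀ g : T2, φ ((g : T1) : X) e = e ∧ φ ((g : T1) : X) f = f := fun g => ⟨g.1.2, g.2⟩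
    have hmem : ∀ g : T2, ∀ w ∈ U, φ ((g : T1) : X) w ∈ U := by
      intro g w hw
      rw [hU] at hw ⊢
      obtain ⟨g1, g2⟩ := hT12 g
      constructor
      · have := h.inv ((g : T1) : X) e w
        rw [g1, hw.1] at this; exact this
      · have := h.inv ((g : T1) : X) f w
        rw [g2, hw.2] at this; exact this
    let res : T2 → (U ≃ₗ[ZMod p] U) := fun g =>
      { toFun := fun x => ⟨φ ((g : T1) : X) x, hmem g x x.2⟩
        map_add' := by intro x y; apply Subtype.ext; simp
        map_smul' := by intro c x; apply Subtype.ext; simp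
        invFun := fun x => ⟨φ (((g⁻¹ : T2) : T1) : X) x, hmem g⁻¹ x x.2⟩
        left_inv := by
          intro x; apply Subtype.ext
          exact hinvm _ _
        right_inv := by
          intro x; apply Subtype.ext
          exact hinvm' _ _ }
    have hres : ∀ (g : T2) (x : U), ((res g x : U) : W) = φ ((g : T1) : X) x := fun g x => rfl
    let ψ : T2 →* (U ≃ₗ[ZMod p] U) := MonoidHom.mk' res (by
      intro a b
      apply LinearEquiv.ext
      intro x
      apply Subtype.ext
      rw [LinearEquiv.mul_apply, hres, hres, hres]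
      show φ (((a : T1) : X) * ((b : T1) : X)) x = _
      rw [map_mul, LinearEquiv.mul_apply])
    have hψ : ∀ (g : T2) (x : U), ((ψ g x : U) : W) = φ ((g : T1) : X) x := fun g x => rfl
    let γ : U →ₗ[ZMod p] U →ₗ[ZMod p] ZMod p := β.domRestrict₁₂ U U
    have hγ : ∀ x y : U, γ x y = β x y := fun x y => rfl
    have hSF : SF p n T2 U ψ γ :=
      { inj := by
          rw [injective_iff_map_eq_one]
          intro g hg
          have h1 : ∀ w, φ ((g : T1) : X) w = w := by
            intro w
            have h2 := hdec w
            set u := w - ((- β f w) • e + (β e w) • f) with hu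
            have h3 : φ ((g : T1) : X) u = u := by
              have := hψ g ⟨u, h2⟩
              rw [hg] at this
              exact this.symm
            have h4 : w = u + ((- β f w) • e + (β e w) • f) := by rw [hu]; abel
            obtain ⟨g1, g2⟩ := hT12 g
            calc φ ((g : T1) : X) w = φ ((g : T1) : X) (u + ((- β f w) • e + (β e w) • f)) := by rw [← h4]
              _ = u + ((- β f w) • e + (β e w) • f) := by rw [map_add, map_add, map_smul, map_smul, h3, g1, g2]
              _ = w := h4.symm
          have h2 : ((g : T1) : X) = 1 := h.inj (by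
            rw [map_one]
            apply LinearEquiv.ext
            intro w
            exact h1 w)
          apply Subtype.ext
          apply Subtype.ext
          exact h2
        alt := fun x => h.alt x
        nondeg := by
          intro x hx
          have hxU := (hU x).1 x.2
          apply Subtype.ext
          apply h.nondeg
          intro w
          have h2 := hdec w
          have h3 := hx ⟨_, h2⟩
          rw [hγ] at h3
          simp only [map_sub, map_add, map_smul, smul_eq_mul] at h3
          rw [hsk (x : W) e, hsk (x : W) f, hxU.1, hxU.2] at h3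
          simpa using h3
        inv := fun g x y => h.inv _ _ _
        dim := hdimU }
    have hrec := ih T2 U ψ γ hSF
    have hcard : Nat.card (ZMod p) = p := Nat.card_zmod p
    -- first count
    have c1 : Nat.card X ≤ (p ^ (2 * (n + 1)) - 1) * Nat.card T1 := by
      have h1 := orb (Y := {w : W // w ≠ 0}) T1 (fun g => ⟨φ g e, fun h0 => he (by
        have := hinvm g e
        rw [h0, map_zero] at this
        exact this.symm)⟩) (by
        intro a b hab
        have h2 : φ a e = φ b e := congrArg Subtype.val hab
        rw [hT1, map_mul, LinearEquiv.mul_apply, ← h2, hinvm])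
      have h2 : Nat.card {w : W // w ≠ 0} = p ^ (2 * (n + 1)) - 1 := by
        have h3 : Nat.card W = p ^ (2 * (n + 1)) := by
          rw [Module.natCard_eq_pow_finrank (K := ZMod p), hcard, h.dim]
        rw [← h3]
        haveI := Fintype.ofFinite W
        classical
        rw [Nat.card_eq_fintype_card, Nat.card_eq_fintype_card, Fintype.card_subtype_compl, Fintype.card_subtype_eq]
      rwa [h2] at h1
    have c2 : Nat.card T1 ≤ p ^ (2 * n + 1) * Nat.card T2 := by
      have h1 := orb (Y := {w : W // β e w = 1}) T2 (fun g => ⟨φ (g : X) f, by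
        have := h.inv (g : X) e f
        rw [(hT1 _).1 g.2, hf] at this
        exact this⟩) (by
        intro a b hab
        have h2 : φ (a : X) f = φ (b : X) f := congrArg Subtype.val hab
        rw [hT2]
        show φ ((a : X)⁻¹ * (b : X)) f = f
        rw [map_mul, LinearEquiv.mul_apply, ← h2, hinvm])
      have hk : Nat.card (LinearMap.ker (β e)) = p ^ (2 * n + 1) := by
        have hr : LinearMap.range (β e) = ⊤ := by
          rw [LinearMap.range_eq_top]
          intro a
          exact ⟨a • f, by rw [map_smul, hf, smul_eq_mul, mul_one]⟩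
        have h3 := LinearMap.finrank_range_add_finrank_ker (β e)
        rw [hr, finrank_top, Module.finrank_self, h.dim] at h3
        have h4 : Module.finrank (ZMod p) (LinearMap.ker (β e)) = 2 * n + 1 := by omega
        rw [Module.natCard_eq_pow_finrank (K := ZMod p), hcard, h4]
      have h2 : Nat.card {w : W // β e w = 1} ≤ p ^ (2 * n + 1) := by
        rw [← hk]
        apply Nat.card_le_card_of_injective (fun w : {w : W // β e w = 1} => (⟨w.1 - f, by
          rw [LinearMap.mem_ker, map_sub, w.2, hf, sub_self]⟩ : LinearMap.ker (β e)))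
        intro a b hab
        have h5 : a.1 - f = b.1 - f := congrArg Subtype.val hab
        exact Subtype.ext (sub_left_injective h5)
      exact h1.trans (Nat.mul_le_mul_right _ h2)
    rw [Finset.prod_range_succ]
    calc Nat.card X ≤ (p ^ (2 * (n + 1)) - 1) * Nat.card T1 := c1
      _ ≤ (p ^ (2 * (n + 1)) - 1) * (p ^ (2 * n + 1) * Nat.card T2) := Nat.mul_le_mul_left _ c2
      _ ≤ (p ^ (2 * (n + 1)) - 1) * (p ^ (2 * n + 1) * ∏ i ∈ Finset.range n, ((p ^ (2 * (i + 1)) - 1) * p ^ (2 * i + 1))) :=
          Nat.mul_le_mul_left _ (Nat.mul_le_mul_left _ hrec)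
      _ = _ := by ring

variable {p n : ℕ} {X W : Type} [Group X] [Finite X] [AddCommGroup W] [Module (ZMod p) W] [Finite W]
    {φ : X →* (W ≃ₗ[ZMod p] W)} {β : W →ₗ[ZMod p] W →ₗ[ZMod p] ZMod p}

theorem s0 (hp : p.Prime) (h : SF p n X W φ β) :
    Nat.card X ≤ ∏ i ∈ Finset.range n, ((p ^ (2 * (i + 1)) - 1) * p ^ (2 * i + 1)) := gen hp n X W φ β h

end Cfsg.Agent.Lib.H55S0
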