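import Mathlib
import Cfsg.Agent.Lib.H55KR3

set_option autoImplicit false
set_option maxRecDepth 100000

namespace Cfsg.Agent.Lib.H55S31

open Cfsg.Agent.Lib.H55KR Module

/-- `SL(2,3)` -/
abbrev SL3 : Type := Matrix.SpecialLinearGroup (Fin 2) (ZMod 3)

theorem sq2 : ∀ g : SL3, ∃ a b : SL3, g = a ^ 2 * b ^ 2 := by decide +kernel

theorem cj : ∃ l : List SL3, l.length ≤ 9 ∧ ∀ g : SL3, ∃ r ∈ l, ∃ x : SL3, x * g * x⁻¹ = r := by
  refine ⟨[1, -1, ⟨!![1,1;0,1], by decide⟩, ⟨!![1,-1;0,1], by decide⟩, ⟨!![-1,1;0,-1], by decide⟩,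
    ⟨!![-1,-1;0,-1], by decide⟩, ⟨!![0,1;-1,0], by decide⟩], by decide, ?_⟩
  decide +kernel

theorem crd : Nat.card SL3 = 24 := by
  rw [Nat.card_eq_fintype_card]
  decide +kernel

theorem kb_SL3 (Y : Subgroup SL3) : Nat.card (ConjClasses Y) ≤ 9 := by
  have hle : Nat.card (ConjClasses Y) ≤ Nat.card Y :=
    Nat.card_le_card_of_surjective ConjClasses.mk ConjClasses.mk_surjective
  have hd : Nat.card Y ∣ 24 := by rw [← crd]; exact Subgroup.card_subgroup_dvd_card Y
  by_cases h9 : Nat.card Y ≤ 9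
  · exact hle.trans h9
  have hcases : Nat.card Y = 12 ∨ Nat.card Y = 24 := by
    have h24 := Nat.le_of_dvd (by norm_num) hd
    have h : ∀ m ≤ 24, m ∣ 24 → ¬ m ≤ 9 → m = 12 ∨ m = 24 := by decide
    exact h _ h24 hd h9
  have htop : Y = ⊤ := by
    rcases hcases with h | h
    · exfalso
      have hi : Y.index = 2 := by
        have := Y.card_mul_index
        rw [h, crd] at this
        omega
      have hs : ∀ a : SL3, a ^ 2 ∈ Y := fun a => Subgroup.sq_mem_of_index_two hi a
      have h1 : Y = ⊤ := by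
        rw [eq_top_iff]
        intro g _
        obtain ⟨a, b, rfl⟩ := sq2 g
        exact Y.mul_mem (hs a) (hs b)
      rw [h1, Subgroup.index_top] at hi
      omega
    · exact Subgroup.eq_top_of_card_eq Y (by rw [h, crd])
  subst htop
  obtain ⟨l, hl, hc⟩ := cj
  have hsurj : Function.Surjective (fun i : Fin l.length =>
      ConjClasses.mk (⟨l.get i, Subgroup.mem_top _⟩ : (⊤ : Subgroup SL3))) := by
    intro c
    obtain ⟨⟨g, hg⟩, rfl⟩ := ConjClasses.exists_rep c
    obtain ⟨r, hr, x, hx⟩ := hc g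
    obtain ⟨i, hi⟩ := List.get_of_mem hr
    refine ⟨i, ?_⟩
    show ConjClasses.mk _ = ConjClasses.mk _
    rw [ConjClasses.mk_eq_mk_iff_isConj]
    apply IsConj.symm
    rw [isConj_iff]
    refine ⟨⟨x, Subgroup.mem_top _⟩, Subtype.ext ?_⟩
    show x * g * x⁻¹ = l.get i
    rw [hi, hx]
  calc Nat.card _ ≤ Nat.card (Fin l.length) := Nat.card_le_card_of_surjective _ hsurj
    _ = l.length := Nat.card_fin _
    _ ≤ 9 := hl

theorem exists_hom {X W : Type} [Group X] [Finite X] [AddCommGroup W] [Module (ZMod 3) W] [Finite W]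
    {φ : X →* (W ≃ₗ[ZMod 3] W)} {β : W →ₗ[ZMod 3] W →ₗ[ZMod 3] ZMod 3} (h : SF 3 1 X W φ β) :
    ∃ f : X →* SL3, Function.Injective f := by
  haveI : Fact (Nat.Prime 3) := ⟨Nat.prime_three⟩
  have hdim : finrank (ZMod 3) W = 2 := h.dim
  haveI : Module.Finite (ZMod 3) W := Module.Finite.of_finite
  let b : Basis (Fin 2) (ZMod 3) W := finBasisOfFinrankEq (ZMod 3) W hdim
  let F : X → Matrix (Fin 2) (Fin 2) (ZMod 3) := fun g => LinearMap.toMatrix b b ((φ g : W ≃ₗ[ZMod 3] W) : W →ₗ[ZMod 3] W)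
  have hexp : ∀ g j, φ g (b j) = F g 0 j • b 0 + F g 1 j • b 1 := by
    intro g j
    have h1 := b.sum_repr (φ g (b j))
    rw [Fin.sum_univ_two] at h1
    rw [← h1]
    simp only [F, LinearMap.toMatrix_apply]
    rfl
  have hskew : β (b 1) (b 0) = - β (b 0) (b 1) := by
    have h1 := h.alt (b 0 + b 1)
    rw [map_add, map_add, LinearMap.add_apply, LinearMap.add_apply, h.alt, h.alt, zero_add, add_zero] at h1
    linear_combination h1
  have hne : β (b 0) (b 1) ≠ 0 := by
    intro h0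
    apply b.ne_zero 0
    apply h.nondeg
    intro y
    have h1 := b.sum_repr y
    rw [Fin.sum_univ_two] at h1
    rw [← h1, map_add, map_smul, map_smul, h.alt, h0, smul_zero, smul_zero, add_zero]
  have hdet : ∀ g, (F g).det = 1 := by
    intro g
    have h1 := h.inv g (b 0) (b 1)
    rw [hexp g 0, hexp g 1] at h1
    simp only [map_add, map_smul, LinearMap.add_apply, LinearMap.smul_apply, h.alt, hskew, smul_eq_mul] at h1
    rw [Matrix.det_fin_two]
    apply mul_right_cancel₀ hne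
    linear_combination h1
  refine ⟨{ toFun := fun g => ⟨F g, hdet g⟩, map_one' := ?_, map_mul' := ?_ }, ?_⟩
  · apply Subtype.ext
    show F 1 = 1
    simp only [F, map_one]
    exact LinearMap.toMatrix_one b
  · intro g g'
    apply Subtype.ext
    show F (g * g') = F g * F g'
    simp only [F, map_mul]
    exact LinearMap.toMatrix_mul b _ _
  · intro g g' hgg
    apply h.inj
    have h1 : F g = F g' := congrArg Subtype.val hgg
    have h2 := (LinearMap.toMatrix b b).injective h1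
    apply LinearEquiv.ext
    intro x
    exact LinearMap.congr_fun h2 x

theorem s31 (hK : K1S) {X W : Type} [Group X] [Finite X] [AddCommGroup W] [Module (ZMod 3) W] [Finite W]
    {φ : X →* (W ≃ₗ[ZMod 3] W)} {β : W →ₗ[ZMod 3] W →ₗ[ZMod 3] ZMod 3} (h : SF 3 1 X W φ β) : KB X 9 := by
  obtain ⟨f, hf⟩ := exists_hom h
  intro Y
  have e : Y ≃* Y.map f := Y.equivMapOfInjective f hf
  refine le_trans ?_ (kb_SL3 (Y.map f))
  exact Nat.card_le_card_of_surjective (ConjClasses.map e.symm.toMonoidHom)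
    (ConjClasses.map_surjective e.symm.surjective)

end Cfsg.Agent.Lib.H55S31
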