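import Cfsg.Agent.Lib.H55Emb

set_option autoImplicit false
set_option linter.all false

namespace Cfsg.Agent.Lib.H55S32

open Cfsg.Agent.Lib.H55KR

theorem not_solvable_of_perfect {S : Type*} [Group S] [Nontrivial S] (h : commutator S = ⊤) : ¬ Group.IsSolvable S := by
  intro hs
  obtain ⟨n, hn⟩ := (Group.isSolvable_def S).1 hs
  have : ∀ k, derivedSeries S k = ⊤ := by
    intro k
    induction k with
    | zero => exact derivedSeries_zero S
    | succ k ih => rw [derivedSeries_succ, ih]; exact h
  rw [this n] at hn
  exact top_ne_bot hn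

/-- small index subgroups of simple groups -/
theorem eq_top_of_index {P : Type*} [Group P] [Finite P] [IsSimpleGroup P] (M : Subgroup P) (k : ℕ) (hM : M.index ≤ k)
    (hP : k.factorial < Nat.card P) : M = ⊤ := by
  rcases IsSimpleGroup.eq_bot_or_eq_top_of_normal M.normalCore inferInstance with h | h
  · exfalso
    have h1 : Function.Injective (MulAction.toPermHom P (P ⧸ M)) := by
      rw [← MonoidHom.ker_eq_bot_iff, ← Subgroup.normalCore_eq_ker, h]
    have h2 := Nat.card_le_card_of_injective _ h1
    rw [Nat.card_perm] at h2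
    have h3 : (Nat.card (P ⧸ M)).factorial ≤ k.factorial := Nat.factorial_le hM
    omega
  · rw [eq_top_iff, ← h]
    exact M.normalCore_le

theorem s32 {X W : Type} [Group X] [Finite X] [AddCommGroup W] [Module (ZMod 3) W] [Finite W]
    {φ : X →* (W ≃ₗ[ZMod 3] W)} {β : W →ₗ[ZMod 3] W →ₗ[ZMod 3] ZMod 3} (hs : Group.IsSolvable X)
    (h : SF 3 2 X W φ β) : Nat.card X ≤ 6561 := by
  obtain ⟨f, hf⟩ := H55Emb.emb (by norm_num) h
  have hc := H55Emb.card_symp 3 2 (by norm_num)
  haveI : Fact (Nat.Prime 3) := ⟨by norm_num⟩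
  have hc : Nat.card (Matrix.symplecticGroup (Fin 2) (ZMod 3)) = 51840 := by
    rw [hc]; simp [Finset.prod_range_succ]
  by_contra hlt
  push Not at hlt
  haveI : Finite (Matrix.symplecticGroup (Fin 2) (ZMod 3)) := Nat.finite_of_card_ne_zero (by rw [hc]; norm_num)
  let Z := Subgroup.center (Matrix.symplecticGroup (Fin 2) (ZMod 3))
  have hZ : Nat.card Z = 2 := ClSymp3.card_center (F := ZMod 3) (q := 3) (by rw [ZMod.card]) 2 (by norm_num)
  let P := Matrix.symplecticGroup (Fin 2) (ZMod 3) ⧸ Z
  haveI hsimp : IsSimpleGroup P := ClSymp3.simple 2 le_rfl (fun _ => by rw [ZMod.card])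
  have hP : Nat.card P = 25920 := by
    have := Subgroup.card_eq_card_quotient_mul_card_subgroup Z
    rw [hc, hZ] at this
    change 51840 = Nat.card P * 2 at this
    omega
  let q : X →* P := (QuotientGroup.mk' Z).comp f
  have hidx : q.range.index ≤ 7 := by
    have h1 : q.range = f.range.map (QuotientGroup.mk' Z) := by
      rw [MonoidHom.range_comp]
    have h2 : q.range.index ∣ f.range.index := by
      rw [h1]
      exact Subgroup.index_map_dvd _ (QuotientGroup.mk'_surjective Z)
    have h3 : Nat.card f.range = Nat.card X := Nat.card_congr (MonoidHom.ofInjective hf).symm.toEquiv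
    have h4 := f.range.card_mul_index
    rw [h3, hc] at h4
    have h5 : f.range.index ≤ 7 := by
      by_contra h6
      push Not at h6
      nlinarith
    have h6 : 0 < f.range.index := by
      rcases Nat.eq_zero_or_pos f.range.index with h | h
      · rw [h] at h4; omega
      · exact h
    exact (Nat.le_of_dvd h6 h2).trans h5
  have htop := eq_top_of_index q.range 7 hidx (by rw [hP]; decide)
  have hns : ¬ Group.IsSolvable P := by
    haveI := hsimp.toNontrivial
    apply not_solvable_of_perfect
    have h1 := ClSymp3.perfect (F := ZMod 3) 2 (Or.inr (Or.inl ⟨rfl, by rw [ZMod.card]⟩))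
    have h2 : (commutator (Matrix.symplecticGroup (Fin 2) (ZMod 3))).map (QuotientGroup.mk' Z) = commutator P := by
      rw [commutator_def, Subgroup.map_commutator, ← MonoidHom.range_eq_map, MonoidHom.range_eq_top.2 (QuotientGroup.mk'_surjective _)]
      rfl
    rw [← h2, h1, ← MonoidHom.range_eq_map, MonoidHom.range_eq_top.2 (QuotientGroup.mk'_surjective _)]
  exact hns (Group.isSolvable_of_surjective (f := q) (MonoidHom.range_eq_top.1 htop))

end Cfsg.Agent.Lib.H55S32
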