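import Cfsg.Agent.Lib.H55Emb

set_option autoImplicit false
set_option linter.all false

namespace Cfsg.Agent.Lib.H55S51

open Cfsg.Agent.Lib.H55KR

/-- a nontrivial perfect group is not solvable -/
theorem not_solvable_of_perfect {S : Type*} [Group S] [Nontrivial S] (h : commutator S = ⊤) : ¬ Group.IsSolvable S := by
  intro hs
  obtain ⟨n, hn⟩ := (Group.isSolvable_def S).1 hs
  have : ∀ k, derivedSeries S k = ⊤ := by
    intro k
    induction k with
    | zero => exact derivedSeries_zero S
    | succ k ih => rw [derivedSeries_succ, ih]; exact h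
  rw [this n] at hn
  exact top_ne_bot hn

theorem s51 {X W : Type} [Group X] [Finite X] [AddCommGroup W] [Module (ZMod 5) W] [Finite W]
    {φ : X →* (W ≃ₗ[ZMod 5] W)} {β : W →ₗ[ZMod 5] W →ₗ[ZMod 5] ZMod 5} (hs : Group.IsSolvable X)
    (h : SF 5 1 X W φ β) : Nat.card X ≤ 81 := by
  obtain ⟨f, hf⟩ := H55Emb.emb (by norm_num) h
  have hc := H55Emb.card_symp 5 1 (by norm_num)
  norm_num at hc
  by_contra hlt
  push Not at hlt
  haveI : Finite (Matrix.symplecticGroup (Fin 1) (ZMod 5)) := Nat.finite_of_card_ne_zero (by rw [hc]; norm_num)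
  have hd : Nat.card X ∣ 120 := by rw [← hc]; exact Subgroup.card_dvd_of_injective f hf
  have h120 : Nat.card X = 120 := by
    obtain ⟨k, hk⟩ := hd
    have : k = 1 := by
      rcases Nat.lt_or_ge k 2 with h2 | h2
      · interval_cases k
        · omega
        · rfl
      · nlinarith
    rw [this, mul_one] at hk
    exact hk.symm
  have hb : Function.Bijective f := by
    rw [Nat.bijective_iff_injective_and_card]
    exact ⟨hf, by rw [h120, hc]⟩
  haveI : Fact (Nat.Prime 5) := ⟨by norm_num⟩
  have hns : ¬ Group.IsSolvable (Matrix.symplecticGroup (Fin 1) (ZMod 5)) := by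
    haveI : Nontrivial (Matrix.symplecticGroup (Fin 1) (ZMod 5)) := by
      rw [← Finite.one_lt_card_iff_nontrivial, hc]; norm_num
    apply not_solvable_of_perfect
    exact ClSymp3.perfect 1 (Or.inr (Or.inr (by rw [ZMod.card]; norm_num)))
  exact hns (Group.isSolvable_of_surjective (f := f) hb.2)

end Cfsg.Agent.Lib.H55S51
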