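import Cfsg.Agent.Lib.H55KR3

set_option autoImplicit false

namespace Cfsg.Agent.Lib.H55SA
open Cfsg.Agent.Lib.H55KR

theorem base (p : ℕ) (hp : 7 ≤ p) : p ^ 3 ≤ 3 ^ (p - 1) := by
  obtain ⟨k, rfl⟩ : ∃ k, p = k + 7 := ⟨p - 7, by omega⟩
  clear hp
  have : ∀ k : ℕ, (k + 7) ^ 3 ≤ 3 ^ (k + 6) := by
    intro k
    induction k with
    | zero => norm_num
    | succ k ih =>
      have h1 : (k + 1 + 7) ^ 3 ≤ 3 * (k + 7) ^ 3 := by nlinarith [sq_nonneg k, Nat.zero_le k, Nat.zero_le (k ^ 3), Nat.zero_le (k ^ 2)]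
      calc (k + 1 + 7) ^ 3 ≤ 3 * (k + 7) ^ 3 := h1
        _ ≤ 3 * 3 ^ (k + 6) := by omega
        _ = 3 ^ (k + 1 + 6) := by ring
  exact this k

theorem sum7 (x n : ℕ) (hx : 6 ≤ x) : 2 * n ^ 2 + n ≤ 3 * ∑ i ∈ Finset.range n, (x + 1) ^ i := by
  have h6 : ∀ i : ℕ, 4 * i + 1 ≤ 7 ^ i := by
    intro i
    induction i with
    | zero => norm_num
    | succ i ih => rw [pow_succ]; omega
  induction n with
  | zero => simp
  | succ n ih =>
    rw [Finset.sum_range_succ]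
    have h1 : 7 ^ n ≤ (x + 1) ^ n := Nat.pow_le_pow_left (by omega) n
    have h2 := h6 n
    nlinarith

theorem sa (p n : ℕ) (hp : p.Prime) (hn : 1 ≤ n) (h2 : ¬ (p = 2 ∧ n ≤ 5)) (h3 : ¬ (p = 3 ∧ n ≤ 2))
    (h5 : ¬ (p = 5 ∧ n = 1)) : p ^ (2 * n ^ 2 + n) ≤ 3 ^ (p ^ n - 1) := by
  by_cases h7 : 7 ≤ p
  · obtain ⟨x, rfl⟩ : ∃ x, p = x + 1 := ⟨p - 1, by omega⟩
    have hb := base (x + 1) h7
    have hs := sum7 x n (by omega)
    have hg := geom_sum_mul_add x n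
    have hM : (x + 1) ^ n - 1 = x * ∑ i ∈ Finset.range n, (x + 1) ^ i := by
      rw [← hg, Nat.add_sub_cancel, mul_comm]
    rw [hM]
    calc (x + 1) ^ (2 * n ^ 2 + n) ≤ (x + 1) ^ (3 * ∑ i ∈ Finset.range n, (x + 1) ^ i) :=
          Nat.pow_le_pow_right (by omega) hs
      _ = ((x + 1) ^ 3) ^ (∑ i ∈ Finset.range n, (x + 1) ^ i) := by rw [pow_mul]
      _ ≤ (3 ^ (x + 1 - 1)) ^ (∑ i ∈ Finset.range n, (x + 1) ^ i) := Nat.pow_le_pow_left hb _
      _ = 3 ^ (x * ∑ i ∈ Finset.range n, (x + 1) ^ i) := by rw [Nat.add_sub_cancel, ← pow_mul]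
  · have hp' : p = 2 ∨ p = 3 ∨ p = 5 := by
      have := hp.two_le
      interval_cases p
      · exact Or.inl rfl
      · exact Or.inr (Or.inl rfl)
      · exact absurd hp (by norm_num)
      · exact Or.inr (Or.inr rfl)
      · exact absurd hp (by norm_num)
    rcases hp' with rfl | rfl | rfl
    · have hn6 : 6 ≤ n := by
        by_contra h; exact h2 ⟨rfl, by omega⟩
      have key : ∀ k : ℕ, 2 * (2 * (k + 6) ^ 2 + (k + 6)) + 3 ≤ 3 * 2 ^ (k + 6) := by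
        intro k
        induction k with
        | zero => norm_num
        | succ k ih =>
          have : 2 ^ (k + 1 + 6) = 2 * 2 ^ (k + 6) := by ring
          rw [this]; nlinarith
      obtain ⟨k, rfl⟩ : ∃ k, n = k + 6 := ⟨n - 6, by omega⟩
      have hk := key k
      have hpos : 1 ≤ 2 ^ (k + 6) := Nat.one_le_two_pow
      obtain ⟨M, hM⟩ : ∃ M, 2 ^ (k + 6) = M + 1 := ⟨2 ^ (k + 6) - 1, by omega⟩
      rw [hM, Nat.add_sub_cancel]
      rw [hM] at hk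
      rw [← Nat.pow_le_pow_iff_left (n := 2) (by norm_num), ← pow_mul, ← pow_mul]
      calc 2 ^ ((2 * (k + 6) ^ 2 + (k + 6)) * 2) ≤ 2 ^ (3 * M) := Nat.pow_le_pow_right (by norm_num) (by omega)
        _ = 8 ^ M := by rw [pow_mul]; norm_num
        _ ≤ 9 ^ M := Nat.pow_le_pow_left (by norm_num) _
        _ = 3 ^ (M * 2) := by rw [mul_comm, pow_mul]; norm_num
    · have hn3 : 3 ≤ n := by
        by_contra h; exact h3 ⟨rfl, by omega⟩
      have key : ∀ k : ℕ, 2 * (k + 3) ^ 2 + (k + 3) + 1 ≤ 3 ^ (k + 3) := by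
        intro k
        induction k with
        | zero => norm_num
        | succ k ih =>
          have : 3 ^ (k + 1 + 3) = 3 * 3 ^ (k + 3) := by ring
          rw [this]; nlinarith
      obtain ⟨k, rfl⟩ : ∃ k, n = k + 3 := ⟨n - 3, by omega⟩
      have hk := key k
      exact Nat.pow_le_pow_right (by norm_num) (by omega)
    · have hn2 : 2 ≤ n := by
        by_contra h; exact h5 ⟨rfl, by omega⟩
      have key : ∀ k : ℕ, 3 * (2 * (k + 2) ^ 2 + (k + 2)) + 2 ≤ 2 * 5 ^ (k + 2) := by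
        intro k
        induction k with
        | zero => norm_num
        | succ k ih =>
          have : 5 ^ (k + 1 + 2) = 5 * 5 ^ (k + 2) := by ring
          rw [this]; nlinarith
      obtain ⟨k, rfl⟩ : ∃ k, n = k + 2 := ⟨n - 2, by omega⟩
      have hk := key k
      have hpos : 1 ≤ 5 ^ (k + 2) := Nat.one_le_pow _ _ (by norm_num)
      obtain ⟨M, hM⟩ : ∃ M, 5 ^ (k + 2) = M + 1 := ⟨5 ^ (k + 2) - 1, by omega⟩
      rw [hM, Nat.add_sub_cancel]
      rw [hM] at hk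
      rw [← Nat.pow_le_pow_iff_left (n := 2) (by norm_num), ← pow_mul, ← pow_mul]
      calc 5 ^ ((2 * (k + 2) ^ 2 + (k + 2)) * 2) = 25 ^ (2 * (k + 2) ^ 2 + (k + 2)) := by
            rw [mul_comm, pow_mul]; norm_num
        _ ≤ 27 ^ (2 * (k + 2) ^ 2 + (k + 2)) := Nat.pow_le_pow_left (by norm_num) _
        _ = 3 ^ (3 * (2 * (k + 2) ^ 2 + (k + 2))) := by rw [pow_mul]; norm_num
        _ ≤ 3 ^ (M * 2) := Nat.pow_le_pow_right (by norm_num) (by omega)

end Cfsg.Agent.Lib.H55SA
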