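import Cfsg.Agent.Lib.H55KR3

set_option autoImplicit false
set_option linter.all false

namespace Cfsg.Agent.Lib.H55T0b
open Cfsg.Agent.Lib.H55KR

open scoped Pointwise

variable {X W : Type} [Group X] [Finite X] [AddCommGroup W] [Module (ZMod 2) W] [Finite W]
    {φ : X →* (W ≃ₗ[ZMod 2] W)}

/-- fixed space -/
def CW (φ : X →* (W ≃ₗ[ZMod 2] W)) (S : Subgroup X) : Submodule (ZMod 2) W where
  carrier := {w | ∀ s ∈ S, φ s w = w}
  add_mem' := by
    intro a b ha hb s hs
    rw [map_add, ha s hs, hb s hs]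
  zero_mem' := fun s _ => map_zero _
  smul_mem' := by
    intro c x hx s hs
    rw [map_smul, hx s hs]

theorem mem_CW {S : Subgroup X} {w : W} : w ∈ CW φ S ↔ ∀ s ∈ S, φ s w = w := Iff.rfl

theorem phi_mul (g h : X) (w : W) : φ (g * h) w = φ g (φ h w) := by rw [map_mul]; rfl

theorem phi_one (w : W) : φ 1 w = w := by rw [map_one]; rfl

theorem phi_inv (g : X) (w : W) : φ g⁻¹ (φ g w) = w := by
  rw [← phi_mul, inv_mul_cancel, phi_one]

theorem phi_inv' (g : X) (w : W) : φ g (φ g⁻¹ w) = w := by
  rw [← phi_mul, mul_inv_cancel, phi_one]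

theorem CW_anti {S S' : Subgroup X} (h : S ≤ S') : CW φ S' ≤ CW φ S := fun _ hw s hs => hw s (h hs)

theorem CW_sup {S S' : Subgroup X} {w : W} (h : w ∈ CW φ S) (h' : w ∈ CW φ S') : w ∈ CW φ (S ⊔ S') := by
  have h1 : S ⊔ S' ≤ ({ carrier := {s | φ s w = w}
                        mul_mem' := fun {a b} ha hb => by
                          show φ (a * b) w = w
                          rw [phi_mul]
                          have hb' : φ b w = w := hb
                          rw [hb']; exact ha
                        one_mem' := phi_one w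
                        inv_mem' := fun {a} ha => by
                          show φ a⁻¹ w = w
                          have ha' : φ a w = w := ha
                          conv_lhs => rw [← ha']
                          exact phi_inv a w } : Subgroup X) := by
    apply sup_le
    · intro s hs; exact h s hs
    · intro s hs; exact h' s hs
  intro s hs
  exact h1 hs

theorem CW_conj (g : X) (S : Subgroup X) :
    (CW φ S).map (φ g : W →ₗ[ZMod 2] W) = CW φ (S.map (MulAut.conj g).toMonoidHom) := by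
  ext w
  constructor
  · rintro ⟨u, hu, rfl⟩ s hs
    obtain ⟨t, ht, rfl⟩ := hs
    show φ (g * t * g⁻¹) (φ g u) = φ g u
    rw [phi_mul, phi_mul, phi_inv, hu t ht]
  · intro hw
    refine ⟨φ g⁻¹ w, ?_, phi_inv' g w⟩
    intro t ht
    have h1 := hw (g * t * g⁻¹) ⟨t, ht, rfl⟩
    have h2 : φ (g⁻¹ * (g * t * g⁻¹)) w = φ g⁻¹ w := by rw [phi_mul, h1]
    rw [← phi_mul]
    rw [← h2]
    congr 2
    group

theorem mem_CW_conj (g : X) (S : Subgroup X) (w : W) (hw : w ∈ CW φ S) :
    φ g w ∈ CW φ (S.map (MulAut.conj g).toMonoidHom) := by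
  rw [← CW_conj]; exact ⟨w, hw, rfl⟩

/-- a 2-group has fixed points -/
theorem exists_fix_two [Nontrivial W] (S : Subgroup X) (hS : IsPGroup 2 S) : CW φ S ≠ ⊥ := by
  letI : MulAction S W :=
    { smul := fun s w => φ s w
      one_smul := fun w => phi_one w
      mul_smul := fun a b w => phi_mul (φ := φ) (a : X) (b : X) w }
  haveI : Fact (Nat.Prime 2) := ⟨Nat.prime_two⟩
  have h2 : 2 ∣ Nat.card W := by
    rw [Module.natCard_eq_pow_finrank (K := ZMod 2), Nat.card_zmod]
    apply dvd_pow_self
    exact (Module.finrank_pos (R := ZMod 2) (M := W)).ne'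
  obtain ⟨b, hb, hb0⟩ := hS.exists_fixed_point_of_prime_dvd_card_of_fixed_point W h2 (a := (0 : W))
    (fun s => map_zero (φ s))
  intro h
  have h3 : b ∈ CW φ S := fun s hs => hb ⟨s, hs⟩
  rw [h, Submodule.mem_bot] at h3
  exact hb0 h3.symm

/-- averaging over a subgroup -/
noncomputable def NN (φ : X →* (W ≃ₗ[ZMod 2] W)) (S : Subgroup X) : W →ₗ[ZMod 2] W :=
  ∑ᶠ s : S, (φ (s : X) : W →ₗ[ZMod 2] W)

theorem NN_apply [Fintype X] [DecidablePred (· ∈ (⊤ : Subgroup X))] (S : Subgroup X) [Fintype S] (w : W) :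
    NN φ S w = ∑ s : S, φ (s : X) w := by
  rw [NN, finsum_eq_sum_of_fintype, LinearMap.sum_apply]
  rfl

theorem NN_fix (S : Subgroup X) (hodd : Odd (Nat.card S)) {w : W} (hw : w ∈ CW φ S) : NN φ S w = w := by
  classical
  letI := Fintype.ofFinite X
  letI := Fintype.ofFinite S
  rw [NN_apply, Finset.sum_congr rfl (fun s _ => hw s.1 s.2), Finset.sum_const, Finset.card_univ,
    ← Nat.card_eq_fintype_card]
  obtain ⟨m, hm⟩ := hodd
  rw [hm, add_smul, one_smul, mul_smul]
  have h2 : (2 : ℕ) • (m • w) = 0 := by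
    have : ((2 : ℕ) : ZMod 2) • (m • w) = 0 := by
      rw [show ((2 : ℕ) : ZMod 2) = 0 from rfl, zero_smul]
    rwa [Nat.cast_smul_eq_nsmul] at this
  rw [h2, zero_add]

theorem NN_mem (S : Subgroup X) (w : W) : NN φ S w ∈ CW φ S := by
  classical
  letI := Fintype.ofFinite X
  letI := Fintype.ofFinite S
  intro s hs
  rw [NN_apply, map_sum]
  have : ∀ t : S, φ s (φ (t : X) w) = φ ((⟨s, hs⟩ * t : S) : X) w := by
    intro t
    rw [← phi_mul]; rfl
  rw [Finset.sum_congr rfl (fun t _ => this t)]
  exact Fintype.sum_equiv (Equiv.mulLeft (⟨s, hs⟩ : S)) _ _ (fun t => rfl)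

theorem NN_mem' (S S' : Subgroup X) (hc : ∀ s ∈ S, ∀ s' ∈ S', s * s' = s' * s) {w : W} (hw : w ∈ CW φ S') :
    NN φ S w ∈ CW φ S' := by
  classical
  letI := Fintype.ofFinite X
  letI := Fintype.ofFinite S
  intro s' hs'
  rw [NN_apply, map_sum]
  apply Finset.sum_congr rfl
  intro t _
  rw [← phi_mul, ← hc t t.2 s' hs', phi_mul, hw s' hs']

/-- the sum argument -/
theorem sum_arg {r : ℕ} (hr : r.Prime) (x y : X) (hxy : x * y = y * x) (hxr : x ^ r = 1) (hyr : y ^ r = 1)
    (hfree : ∀ z ∈ Subgroup.closure ({x, y} : Set X), z ≠ 1 → ∀ w, φ z w = w → w = 0)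
    (hx : x ≠ 1) (hy : y ∉ Subgroup.zpowers x) (w : W) : r • w = 0 := by
  classical
  haveI : Fact r.Prime := ⟨hr⟩
  have hy1 : y ≠ 1 := fun h => hy (by rw [h]; exact one_mem _)
  have hzx : x ∈ Subgroup.closure ({x, y} : Set X) := Subgroup.subset_closure (by simp)
  have hzy : y ∈ Subgroup.closure ({x, y} : Set X) := Subgroup.subset_closure (by simp)
  -- norms of nontrivial elements vanish
  have hN : ∀ z ∈ Subgroup.closure ({x, y} : Set X), z ^ r = 1 → z ≠ 1 → ∑ k ∈ Finset.range r, φ (z ^ k) w = 0 := by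
    intro z hz hzr hz1
    apply hfree z hz hz1
    rw [map_sum]
    have h1 : ∀ k, φ z (φ (z ^ k) w) = φ (z ^ (k + 1)) w := fun k => by rw [← phi_mul, ← pow_succ']
    rw [Finset.sum_congr rfl (fun k _ => h1 k)]
    have h2 := Finset.sum_range_succ (fun k => φ (z ^ k) w) r
    have h3 := Finset.sum_range_succ' (fun k => φ (z ^ k) w) r
    rw [h2] at h3
    rw [hzr, pow_zero] at h3
    exact (add_right_cancel h3).symm
  have hcomm : Commute x y := hxy
  have h1 : ∀ i ∈ Finset.range r, ∑ k ∈ Finset.range r, φ ((x * y ^ i) ^ k) w = 0 := by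
    intro i hi
    apply hN
    · exact mul_mem hzx (pow_mem hzy i)
    · rw [(hcomm.pow_right i).mul_pow, hxr, one_mul, ← pow_mul, mul_comm, pow_mul, hyr, one_pow]
    · intro h
      rcases Nat.eq_zero_or_pos i with h0 | h0
      · rw [h0, pow_zero, mul_one] at h; exact hx h
      · apply hy
        have hyi : y ^ i ∈ Subgroup.zpowers x := by
          have : y ^ i = x⁻¹ := by rw [eq_inv_iff_mul_eq_one, ← h]; exact (hcomm.pow_right i).eq.symm
          rw [this]; exact inv_mem (Subgroup.mem_zpowers x)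
        have hcop : Nat.Coprime i r := by
          rw [Nat.coprime_comm]
          exact (Nat.Prime.coprime_iff_not_dvd hr).2 (Nat.not_dvd_of_pos_of_lt h0 (Finset.mem_range.1 hi))
        have h4 : ∃ m : ℕ, (y ^ i) ^ m = y := by
          have h5 : orderOf y = r := orderOf_eq_prime hyr hy1
          rw [← h5] at hcop
          exact exists_pow_eq_self_of_coprime hcop
        obtain ⟨m, hm⟩ := h4
        rw [← hm]; exact pow_mem hyi m
  have h2 : ∑ i ∈ Finset.range r, ∑ k ∈ Finset.range r, φ ((x * y ^ i) ^ k) w = 0 :=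
    Finset.sum_eq_zero h1
  rw [Finset.sum_comm] at h2
  have h3 : ∀ k ∈ Finset.range r, ∑ i ∈ Finset.range r, φ ((x * y ^ i) ^ k) w = if k = 0 then r • w else 0 := by
    intro k hk
    have h4 : ∀ i, φ ((x * y ^ i) ^ k) w = φ (x ^ k) (φ ((y ^ k) ^ i) w) := by
      intro i
      rw [(hcomm.pow_right i).mul_pow, phi_mul, ← pow_mul, ← pow_mul, mul_comm i k]
    rw [Finset.sum_congr rfl (fun i _ => h4 i), ← map_sum]
    split
    · rename_i h0
      rw [h0]
      simp only [pow_zero, one_pow, phi_one, Finset.sum_const, Finset.card_range]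
    · rename_i h0
      rw [hN (y ^ k) (pow_mem hzy k) (by rw [← pow_mul, mul_comm, pow_mul, hyr, one_pow]), map_zero]
      intro h5
      have h6 : r ∣ k := by
        rw [← orderOf_eq_prime hyr hy1]
        exact orderOf_dvd_of_pow_eq_one h5
      exact absurd (Nat.le_of_dvd (Nat.pos_of_ne_zero h0) h6) (not_le.2 (Finset.mem_range.1 hk))
  rw [Finset.sum_congr rfl h3, Finset.sum_ite_eq' (Finset.range r) 0] at h2
  rwa [if_pos (Finset.mem_range.2 hr.pos)] at h2

theorem exists_A (hs : Group.IsSolvable X) (hX : Nontrivial X) : ∃ (r : ℕ) (A : Subgroup X), r.Prime ∧ A ≠ ⊥ ∧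
    A.Normal ∧ (∀ a ∈ A, ∀ b ∈ A, a * b = b * a) ∧ ∀ a ∈ A, a ^ r = 1 := by
  classical
  have hex : ∃ n, derivedSeries X n = ⊥ := hs.solvable
  have hn := Nat.find_spec hex
  have hn0 : Nat.find hex ≠ 0 := by
    intro h
    rw [h, derivedSeries_zero] at hn
    exact top_ne_bot hn
  obtain ⟨m, hm⟩ := Nat.exists_eq_succ_of_ne_zero hn0
  have hD : derivedSeries X m ≠ ⊥ := Nat.find_min hex (by rw [hm]; exact Nat.lt_succ_self m)
  rw [hm, Nat.succ_eq_add_one, derivedSeries_succ] at hn
  have hDc : ∀ a ∈ derivedSeries X m, ∀ b ∈ derivedSeries X m, a * b = b * a := by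
    intro a ha b hb
    have h1 := Subgroup.commutator_mem_commutator ha hb
    rw [hn, Subgroup.mem_bot] at h1
    exact commutatorElement_eq_one_iff_mul_comm.1 h1
  have hc1 : Nat.card (derivedSeries X m) ≠ 1 := fun h => hD (Subgroup.card_eq_one.1 h)
  obtain ⟨r, hr, hrd⟩ := Nat.exists_prime_and_dvd hc1
  haveI : Fact r.Prime := ⟨hr⟩
  obtain ⟨x, hx⟩ := exists_prime_orderOf_dvd_card' r hrd
  refine ⟨r, { carrier := {x | x ∈ derivedSeries X m ∧ x ^ r = 1}
               mul_mem' := ?_, one_mem' := ⟨one_mem _, one_pow _⟩, inv_mem' := ?_ }, hr, ?_, ?_, ?_, ?_⟩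
  · rintro a b ⟨ha, har⟩ ⟨hb, hbr⟩
    exact ⟨mul_mem ha hb, by rw [Commute.mul_pow (hDc a ha b hb), har, hbr, one_mul]⟩
  · rintro a ⟨ha, har⟩
    exact ⟨inv_mem ha, by rw [inv_pow, har, inv_one]⟩
  · intro h
    have h1 : (x : X) ∈ (⊥ : Subgroup X) := by
      rw [← h]
      refine ⟨x.2, ?_⟩
      have := pow_orderOf_eq_one x
      rw [hx] at this
      exact_mod_cast congrArg Subtype.val this
    rw [Subgroup.mem_bot] at h1
    have h2 : x = 1 := Subtype.ext h1
    rw [h2, orderOf_one] at hx
    exact hr.one_lt.ne hx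
  · constructor
    rintro a ⟨ha, har⟩ g
    refine ⟨(derivedSeries_normal X m).conj_mem a ha g, ?_⟩
    rw [conj_pow, har, mul_one, mul_inv_cancel]
  · rintro a ⟨ha, -⟩ b ⟨hb, -⟩
    exact hDc a ha b hb
  · rintro a ⟨-, har⟩
    exact har

theorem CW_normal (hirr : Irr 2 φ) (hinj : Function.Injective φ) {S : Subgroup X} (hS : S.Normal) (h : CW φ S ≠ ⊥) :
    S = ⊥ := by
  have h1 := hirr (CW φ S) (by
    intro g x hx s hs
    have h2 := hx (g⁻¹ * s * g) (by
      have := hS.conj_mem s hs g⁻¹
      rwa [inv_inv] at this)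
    have h3 : φ (g * (g⁻¹ * s * g)) x = φ g x := by rw [phi_mul, h2]
    rw [← phi_mul, ← h3]
    congr 2
    group)
  rcases h1 with h1 | h1
  · exact absurd h1 h
  · rw [eq_bot_iff]
    intro s hs
    rw [Subgroup.mem_bot]
    apply hinj
    rw [map_one]
    ext w
    have : w ∈ CW φ S := by rw [h1]; trivial
    exact this s hs

theorem finrank_conj (g : X) (S : Subgroup X) :
    Module.finrank (ZMod 2) (CW φ (S.map (MulAut.conj g).toMonoidHom)) = Module.finrank (ZMod 2) (CW φ S) := by
  rw [← CW_conj]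
  exact LinearEquiv.finrank_map_eq (φ g) _

theorem map_conj_mul (g h : X) (S : Subgroup X) :
    (S.map (MulAut.conj h).toMonoidHom).map (MulAut.conj g).toMonoidHom = S.map (MulAut.conj (g * h)).toMonoidHom := by
  rw [Subgroup.map_map]
  congr 1
  ext x
  simp [MulAut.conj_apply, mul_assoc]

theorem map_conj_one (S : Subgroup X) : S.map (MulAut.conj (1 : X)).toMonoidHom = S := by
  ext x
  constructor
  · rintro ⟨t, ht, rfl⟩
    simpa using ht
  · intro hx
    exact ⟨x, hx, by simp⟩

theorem t0 (hs : Group.IsSolvable X) (hinj : Function.Injective φ) (hirr : Irr 2 φ) (hX : Nontrivial X) :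
    (∃ a : X, (orderOf a).Prime ∧ orderOf a ≠ 2 ∧ (Subgroup.zpowers a).Normal ∧ ∀ w, φ a w = w → w = 0) ∨
    (∃ k d : ℕ, 2 ≤ k ∧ 2 ≤ d ∧ k * d = Module.finrank (ZMod 2) W ∧
      ∃ U : Fin k → Submodule (ZMod 2) W, iSupIndep U ∧ (⨆ i, U i = ⊤) ∧
        (∀ i, Module.finrank (ZMod 2) (U i) = d) ∧
        ∀ g : X, ∀ i, ∃ j, (U i).map (φ g : W →ₗ[ZMod 2] W) = U j) := by
  classical
  obtain ⟨r, A, hr, hA1, hAn, hAc, hAr⟩ := exists_A hs hX
  haveI : Fact r.Prime := ⟨hr⟩
  haveI hWn : Nontrivial W := by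
    by_contra hcon
    rw [not_nontrivial_iff_subsingleton] at hcon
    obtain ⟨x, y, hxy⟩ := hX
    apply hxy
    apply hinj
    ext w
    exact Subsingleton.elim _ _
  have hApg : IsPGroup r A := fun a => ⟨1, by rw [pow_one]; exact Subtype.ext (hAr a a.2)⟩
  have hCA : CW φ A = ⊥ := by
    by_contra h
    exact hA1 (CW_normal hirr hinj hAn h)
  have hr2 : r ≠ 2 := by
    rintro rfl
    exact exists_fix_two A hApg hCA
  have hodd : ∀ S : Subgroup X, S ≤ A → Odd (Nat.card S) := by
    intro S hS
    obtain ⟨m, hm⟩ := IsPGroup.iff_card.1 (hApg.to_le hS)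
    rw [hm]
    exact (hr.odd_of_ne_two hr2).pow
  have hordx : ∀ x ∈ A, x ≠ 1 → orderOf x = r := fun x hx hx1 => orderOf_eq_prime (hAr x hx) hx1
  -- maximal B
  obtain ⟨B, hBmax⟩ := (Set.toFinite {S : Subgroup X | S ≤ A ∧ CW φ S ≠ ⊥}).exists_maximal (by
    refine ⟨⊥, bot_le, ?_⟩
    intro h
    obtain ⟨w, hw⟩ := exists_ne (0 : W)
    have : w ∈ CW φ (⊥ : Subgroup X) := by
      intro s hs
      rw [Subgroup.mem_bot.1 hs, phi_one]
    rw [h] at this
    exact hw (by simpa using this))
  have hBA : B ≤ A := hBmax.1.1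
  have hB1 : CW φ B ≠ ⊥ := hBmax.1.2
  have hBm : ∀ S ≤ A, CW φ S ≠ ⊥ → B ≤ S → S ≤ B := fun S h1 h2 h3 => hBmax.2 ⟨h1, h2⟩ h3
  by_cases hBn : B.Normal
  · left
    have hB : B = ⊥ := CW_normal hirr hinj hBn hB1
    have hfree : ∀ z ∈ A, z ≠ 1 → ∀ w, φ z w = w → w = 0 := by
      intro z hz hz1 w hw
      have h1 : CW φ (Subgroup.zpowers z) = ⊥ := by
        by_contra h
        have h2 := hBm (Subgroup.zpowers z) (Subgroup.zpowers_le.2 hz) h (by rw [hB]; exact bot_le)
        rw [hB] at h2
        exact hz1 (Subgroup.mem_bot.1 (h2 (Subgroup.mem_zpowers z)))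
      have h2 : w ∈ CW φ (Subgroup.zpowers z) := by
        have h3 : Subgroup.zpowers z ≤ ({ carrier := {s | φ s w = w}
                                          mul_mem' := fun {a b} ha hb => by
                                            show φ (a * b) w = w
                                            rw [phi_mul]
                                            have hb' : φ b w = w := hb
                                            rw [hb']; exact ha
                                          one_mem' := phi_one w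
                                          inv_mem' := fun {a} ha => by
                                            show φ a⁻¹ w = w
                                            have ha' : φ a w = w := ha
                                            conv_lhs => rw [← ha']
                                            exact phi_inv a w } : Subgroup X) := by
          rw [Subgroup.zpowers_le]; exact hw
        intro s hs
        exact h3 hs
      rw [h1] at h2
      simpa using h2
    obtain ⟨x0, hx0⟩ := Subgroup.ne_bot_iff_exists_ne_one.1 hA1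
    obtain ⟨x, hx, hx1⟩ : ∃ x : X, x ∈ A ∧ x ≠ 1 := ⟨x0.1, x0.2, fun h => hx0 (Subtype.ext h)⟩
    by_cases hAx : A ≤ Subgroup.zpowers x
    · have hAeq : Subgroup.zpowers x = A := le_antisymm (Subgroup.zpowers_le.2 hx) hAx
      refine ⟨x, ?_, ?_, ?_, hfree x hx hx1⟩
      · rw [hordx x hx hx1]; exact hr
      · rw [hordx x hx hx1]; exact hr2
      · rw [hAeq]; exact hAn
    · exfalso
      obtain ⟨y, hy, hyx⟩ := SetLike.not_le_iff_exists.1 hAx
      have hcl : Subgroup.closure ({x, y} : Set X) ≤ A := by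
        rw [Subgroup.closure_le]
        rintro z (rfl | hz)
        · exact hx
        · rw [Set.mem_singleton_iff.1 hz]; exact hy
      obtain ⟨w, hw⟩ := exists_ne (0 : W)
      have h1 := sum_arg hr x y (hAc x hx y hy) (hAr x hx) (hAr y hy) (fun z hz => hfree z (hcl hz)) hx1 hyx w
      have h2 : (2 : ℕ) • w = 0 := by
        have : ((2 : ℕ) : ZMod 2) • w = 0 := by
          rw [show ((2 : ℕ) : ZMod 2) = 0 from rfl, zero_smul]
        rwa [Nat.cast_smul_eq_nsmul] at this
      obtain ⟨m, hm⟩ := hr.odd_of_ne_two hr2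
      rw [hm, add_smul, one_smul, mul_comm, mul_smul, h2, smul_zero, zero_add] at h1
      exact hw h1
  · right
    -- conjugates of B
    let 𝓑 := {S : Subgroup X // ∃ g : X, S = B.map (MulAut.conj g).toMonoidHom}
    haveI : Finite 𝓑 := inferInstance
    let e := Finite.equivFin 𝓑
    have hSA : ∀ S : 𝓑, (S : Subgroup X) ≤ A := by
      rintro ⟨S, g, rfl⟩
      rintro _ ⟨t, ht, rfl⟩
      exact hAn.conj_mem t (hBA ht) g
    have hcomm : ∀ S S' : 𝓑, ∀ s ∈ (S : Subgroup X), ∀ s' ∈ (S' : Subgroup X), s * s' = s' * s :=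
      fun S S' s hs s' hs' => hAc s (hSA S hs) s' (hSA S' hs')
    have hSmax : ∀ S S' : 𝓑, S ≠ S' → CW φ ((S : Subgroup X) ⊔ S') = ⊥ := by
      intro S S' hne
      by_contra h
      obtain ⟨g, hg⟩ := S.2
      have h1 : ((S : Subgroup X) ⊔ S').map (MulAut.conj g⁻¹).toMonoidHom ≤ A := by
        rintro _ ⟨t, ht, rfl⟩
        exact hAn.conj_mem t ((sup_le (hSA S) (hSA S')) ht) g⁻¹
      have h2 : CW φ (((S : Subgroup X) ⊔ S').map (MulAut.conj g⁻¹).toMonoidHom) ≠ ⊥ := by
        rw [← CW_conj]
        intro h3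
        apply h
        rw [eq_bot_iff]
        intro u hu
        have h4 : φ g⁻¹ u ∈ (CW φ ((S : Subgroup X) ⊔ S')).map (φ g⁻¹ : W →ₗ[ZMod 2] W) := ⟨u, hu, rfl⟩
        rw [h3, Submodule.mem_bot] at h4
        rw [Submodule.mem_bot]
        apply (φ g⁻¹).injective
        rw [h4, map_zero]
      have h3 : B ≤ ((S : Subgroup X) ⊔ S').map (MulAut.conj g⁻¹).toMonoidHom := by
        have h4 : B = (S : Subgroup X).map (MulAut.conj g⁻¹).toMonoidHom := by
          rw [hg, map_conj_mul, inv_mul_cancel, map_conj_one]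
        conv_lhs => rw [h4]
        exact Subgroup.map_mono le_sup_left
      have h4 := hBm _ h1 h2 h3
      have h5 : (S : Subgroup X) ⊔ S' ≤ S := by
        have h6 := Subgroup.map_mono (f := (MulAut.conj g).toMonoidHom) h4
        rw [map_conj_mul, mul_inv_cancel, map_conj_one, ← hg] at h6
        exact h6
      have h6 : (S' : Subgroup X) ≤ S := le_sup_right.trans h5
      have h7 : Nat.card (S' : Subgroup X) = Nat.card (S : Subgroup X) := by
        obtain ⟨g', hg'⟩ := S'.2
        rw [hg, hg']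
        exact (Subgroup.card_map_of_injective (MulAut.conj g').injective).trans
          (Subgroup.card_map_of_injective (MulAut.conj g).injective).symm
      apply hne
      exact Subtype.ext (Subgroup.eq_of_le_of_card_ge h6 h7.ge).symm
    have hSfr : ∀ S : 𝓑, Module.finrank (ZMod 2) (CW φ (S : Subgroup X)) = Module.finrank (ZMod 2) (CW φ B) := by
      rintro ⟨S, g, rfl⟩
      exact finrank_conj g B
    let U : Fin (Nat.card 𝓑) → Submodule (ZMod 2) W := fun i => CW φ ((e.symm i : 𝓑) : Subgroup X)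
    have hperm : ∀ g : X, ∀ i, ∃ j, (U i).map (φ g : W →ₗ[ZMod 2] W) = U j := by
      intro g i
      obtain ⟨h, hh⟩ := (e.symm i).2
      refine ⟨e ⟨((e.symm i : 𝓑) : Subgroup X).map (MulAut.conj g).toMonoidHom, g * h, ?_⟩, ?_⟩
      · rw [← map_conj_mul, ← hh]
      · show (CW φ _).map _ = CW φ ((e.symm (e _) : 𝓑) : Subgroup X)
        rw [e.symm_apply_apply, CW_conj]
    have hind : iSupIndep U := by
      intro i
      rw [Submodule.disjoint_def]
      intro x hx hx'
      have h1 : (⨆ (j : Fin (Nat.card 𝓑)) (_ : j ≠ i), U j) ≤ LinearMap.ker (NN φ ((e.symm i : 𝓑) : Subgroup X)) := by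
        apply iSup₂_le
        intro j hj u hu
        rw [LinearMap.mem_ker]
        have h2 := NN_mem (φ := φ) ((e.symm i : 𝓑) : Subgroup X) u
        have h3 := NN_mem' (φ := φ) ((e.symm i : 𝓑) : Subgroup X) ((e.symm j : 𝓑) : Subgroup X)
          (hcomm _ _) hu
        have h4 := CW_sup h2 h3
        rw [hSmax _ _ (fun h => hj (e.symm.injective h).symm)] at h4
        simpa using h4
      have h2 := h1 hx'
      rw [LinearMap.mem_ker, NN_fix _ (hodd _ (hSA _)) hx] at h2
      exact h2
    have hsup : ⨆ i, U i = ⊤ := by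
      rcases hirr (⨆ i, U i) (by
        intro g x hx
        have h1 : (⨆ i, U i) ≤ (⨆ i, U i).comap (φ g : W →ₗ[ZMod 2] W) := by
          apply iSup_le
          intro i u hu
          obtain ⟨j, hj⟩ := hperm g i
          have : φ g u ∈ U j := by rw [← hj]; exact ⟨u, hu, rfl⟩
          exact Submodule.mem_iSup_of_mem j this
        exact h1 hx) with h | h
      · exfalso
        have h1 : U (e ⟨B, 1, (map_conj_one B).symm⟩) ≤ ⊥ := by rw [← h]; exact le_iSup U _
        apply hB1
        rw [eq_bot_iff]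
        have h2 : U (e ⟨B, 1, (map_conj_one B).symm⟩) = CW φ B := by
          show CW φ ((e.symm (e _) : 𝓑) : Subgroup X) = CW φ B
          rw [e.symm_apply_apply]
        rwa [h2] at h1
      · exact h
    refine ⟨Nat.card 𝓑, Module.finrank (ZMod 2) (CW φ B), ?_, ?_, ?_, U, hind, hsup, fun i => hSfr _, hperm⟩
    · by_contra hcon
      push Not at hcon
      haveI : Subsingleton 𝓑 := (Finite.card_le_one_iff_subsingleton).1 (by omega)
      apply hBn
      constructor
      intro b hb g
      have h1 : (⟨B.map (MulAut.conj g).toMonoidHom, g, rfl⟩ : 𝓑) = ⟨B, 1, (map_conj_one B).symm⟩ :=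
        Subsingleton.elim _ _
      have h2 : B.map (MulAut.conj g).toMonoidHom = B := congrArg Subtype.val h1
      rw [← h2]
      exact ⟨b, hb, rfl⟩
    · by_contra hcon
      push Not at hcon
      have h0 : Module.finrank (ZMod 2) (CW φ B) ≠ 0 := by
        intro h
        exact hB1 (Submodule.finrank_eq_zero.1 h)
      have h1 : Module.finrank (ZMod 2) (CW φ B) = 1 := by omega
      obtain ⟨v, hv, hvw⟩ := finrank_eq_one_iff'.1 h1
      have h2 : (v : W) ∈ CW φ A := by
        intro a ha
        have h3 : φ a (v : W) ∈ CW φ B := by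
          intro s hs
          rw [← phi_mul, hAc s (hBA hs) a ha, phi_mul, v.2 s hs]
        obtain ⟨c, hc⟩ := hvw ⟨_, h3⟩
        have h4 : φ a (v : W) = c • (v : W) := (congrArg Subtype.val hc).symm
        have hc01' : ∀ c : ZMod 2, c = 0 ∨ c = 1 := by decide
        have hc01 := hc01' c
        rcases hc01 with rfl | rfl
        · exfalso
          rw [zero_smul] at h4
          apply hv
          apply Subtype.ext
          have h5 := phi_inv (φ := φ) a (v : W)
          rw [h4, map_zero] at h5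
          exact h5.symm
        · rw [h4, one_smul]
      rw [hCA] at h2
      exact hv (Subtype.ext (by simpa using h2))
    · have hint : DirectSum.IsInternal U :=
        DirectSum.isInternal_submodule_of_iSupIndep_of_iSup_eq_top hind hsup
      have h1 := (LinearEquiv.ofBijective (DirectSum.coeLinearMap U) hint).finrank_eq
      rw [Module.finrank_directSum] at h1
      rw [← h1, Finset.sum_congr rfl (fun i _ => hSfr _), Finset.sum_const, Finset.card_univ, Fintype.card_fin,
        smul_eq_mul]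

end Cfsg.Agent.Lib.H55T0b
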