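import Cfsg.Agent.Lib.H55KR3

/-! S4265 piece T1a: imprimitive linear groups -/

set_option autoImplicit false
set_option linter.all false

namespace Cfsg.Agent.Lib.H55T1a

open Cfsg.Agent.Lib.H55KR

variable {X W : Type} [Group X] [Finite X] [AddCommGroup W] [Module (ZMod 2) W] [Finite W]
    {φ : X →* (W ≃ₗ[ZMod 2] W)}

theorem map_mul' (g h : X) (S : Submodule (ZMod 2) W) :
    S.map (φ (g * h) : W →ₗ[ZMod 2] W) = (S.map (φ h : W →ₗ[ZMod 2] W)).map (φ g : W →ₗ[ZMod 2] W) := by
  rw [← Submodule.map_comp, map_mul]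
  rfl

theorem map_one' (S : Submodule (ZMod 2) W) : S.map (φ (1 : X) : W →ₗ[ZMod 2] W) = S := by
  rw [map_one]
  exact Submodule.map_id S

/-- the action on the summands -/
theorem exists_hom {k d : ℕ} (hd : d ≠ 0) (U : Fin k → Submodule (ZMod 2) W) (hind : iSupIndep U)
    (hdim : ∀ i, Module.finrank (ZMod 2) (U i) = d)
    (hperm : ∀ g : X, ∀ i, ∃ j, (U i).map (φ g : W →ₗ[ZMod 2] W) = U j) :
    ∃ f : X →* Equiv.Perm (Fin k), ∀ g i, (U i).map (φ g : W →ₗ[ZMod 2] W) = U (f g i) := by
  have hne : ∀ i, U i ≠ ⊥ := by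
    intro i h
    have := hdim i
    rw [h, finrank_bot] at this
    exact hd this.symm
  have hinj : Function.Injective U := by
    intro i j hij
    by_contra hne'
    have h1 := hind.pairwiseDisjoint hne'
    rw [Function.onFun, hij, disjoint_self] at h1
    exact hne j h1
  choose s hs using hperm
  let A : MulAction X (Fin k) :=
    { smul := s
      one_smul := fun i => hinj (by
        show U (s 1 i) = U i
        rw [← hs, map_one'])
      mul_smul := fun g h i => hinj (by
        show U (s (g * h) i) = U (s g (s h i))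
        rw [← hs, ← hs, ← hs, map_mul']) }
  exact ⟨@MulAction.toPermHom X (Fin k) _ A, fun g i => hs g i⟩

/-- restriction to a summand -/
noncomputable def rst (φ : X →* (W ≃ₗ[ZMod 2] W)) (N : Subgroup X) (S : Submodule (ZMod 2) W)
    (h : ∀ g ∈ N, S.map (φ g : W →ₗ[ZMod 2] W) = S) : N →* (S ≃ₗ[ZMod 2] S) where
  toFun g := LinearEquiv.ofSubmodules (φ g) S S (h g g.2)
  map_one' := by
    apply LinearEquiv.ext
    intro x
    apply Subtype.ext
    show φ ((1 : N) : X) x = x
    rw [Subgroup.coe_one, map_one]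
    rfl
  map_mul' a b := by
    apply LinearEquiv.ext
    intro x
    apply Subtype.ext
    show φ ((a * b : N) : X) x = φ a (φ b x)
    rw [Subgroup.coe_mul, map_mul]
    rfl

theorem rst_apply (φ : X →* (W ≃ₗ[ZMod 2] W)) (N : Subgroup X) (S : Submodule (ZMod 2) W)
    (h : ∀ g ∈ N, S.map (φ g : W →ₗ[ZMod 2] W) = S) (g : N) (x : S) : ((rst φ N S h g x : S) : W) = φ g x := rfl

/-- joint faithfulness -/
theorem joint (hinj : Function.Injective φ) {k : ℕ} (U : Fin k → Submodule (ZMod 2) W) (hsup : ⨆ i, U i = ⊤)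
    (N : Subgroup X) (h : ∀ i, ∀ g ∈ N, (U i).map (φ g : W →ₗ[ZMod 2] W) = U i) (g : N)
    (hg : ∀ i, rst φ N (U i) (h i) g = 1) : g = 1 := by
  have h1 : ∀ w : W, φ g w = w := by
    have hle : (⊤ : Submodule (ZMod 2) W) ≤ LinearMap.ker ((φ g : W →ₗ[ZMod 2] W) - LinearMap.id) := by
      rw [← hsup]
      apply iSup_le
      intro i x hx
      rw [LinearMap.mem_ker]
      have h2 := congrArg (fun f : (U i) ≃ₗ[ZMod 2] (U i) => ((f ⟨x, hx⟩ : U i) : W)) (hg i)
      have h3 : φ g x = x := h2
      show φ g x - x = 0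
      rw [h3, sub_self]
    intro w
    have := hle (show w ∈ ⊤ from trivial)
    rw [LinearMap.mem_ker] at this
    exact sub_eq_zero.1 this
  apply Subtype.ext
  apply hinj
  rw [Subgroup.coe_one, map_one]
  apply LinearEquiv.ext
  intro w
  exact h1 w

theorem t1 (hs : Group.IsSolvable X) (hinj : Function.Injective φ) {k d c : ℕ}
    (U : Fin k → Submodule (ZMod 2) W) (hind : iSupIndep U) (hsup : ⨆ i, U i = ⊤)
    (hdim : ∀ i, Module.finrank (ZMod 2) (U i) = d)
    (hperm : ∀ g : X, ∀ i, ∃ j, (U i).map (φ g : W →ₗ[ZMod 2] W) = U j)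
    (hc : ∀ (Y V : Type) [Group Y] [Finite Y] [AddCommGroup V] [Module (ZMod 2) V] [Finite V]
      (ψ : Y →* (V ≃ₗ[ZMod 2] V)), Function.Injective ψ → Group.IsSolvable Y →
        Module.finrank (ZMod 2) V = d → Nat.card Y ≤ c) : Nat.card X ≤ c ^ k * k.factorial := by
  classical
  haveI := hs
  by_cases hd : d = 0
  · subst hd
    have hbot : ∀ i, U i = ⊥ := fun i => Submodule.finrank_eq_zero.1 (hdim i)
    have htop : (⊤ : Submodule (ZMod 2) W) = ⊥ := by rw [← hsup]; simp [hbot]
    have hW : ∀ w : W, w = 0 := fun w => (Submodule.mem_bot (ZMod 2)).1 (by rw [← htop]; trivial)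
    have hX : ∀ x y : X, x = y := fun x y => hinj (LinearEquiv.ext (fun w => by rw [hW (φ x w), hW (φ y w)]))
    haveI : Subsingleton X := ⟨hX⟩
    have h1 : Nat.card X = 1 := Nat.card_unique
    have h2 : Nat.card X ≤ c := hc X W φ hinj hs (by rw [← finrank_top, htop, finrank_bot])
    rw [h1] at h2 ⊢
    exact Nat.mul_pos (Nat.pow_pos h2) (Nat.factorial_pos k)
  · obtain ⟨f, hf⟩ := exists_hom hd U hind hdim hperm
    set N := f.ker with hN
    have hNU : ∀ i, ∀ g ∈ N, (U i).map (φ g : W →ₗ[ZMod 2] W) = U i := by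
      intro i g hg
      rw [hf, (MonoidHom.mem_ker).1 hg]
      rfl
    haveI : ∀ i, Finite ((U i) ≃ₗ[ZMod 2] (U i)) := fun i => DFunLike.finite _
    have hRi : ∀ i, Nat.card (rst φ N (U i) (hNU i)).range ≤ c := by
      intro i
      haveI : Group.IsSolvable N := inferInstance
      haveI : Group.IsSolvable (rst φ N (U i) (hNU i)).range := by
        exact Group.isSolvable_of_surjective (rst φ N (U i) (hNU i)).rangeRestrict_surjective
      exact hc _ _ (rst φ N (U i) (hNU i)).range.subtype (Subtype.val_injective) inferInstance (hdim i)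
    have hNc : Nat.card N ≤ c ^ k := by
      have h1 : Nat.card N ≤ Nat.card (∀ i, (rst φ N (U i) (hNU i)).range) := by
        apply Nat.card_le_card_of_injective (fun g i => (rst φ N (U i) (hNU i)).rangeRestrict g)
        intro a b hab
        have h2 : a * b⁻¹ = 1 := by
          apply joint hinj U hsup N hNU
          intro i
          have h3 : rst φ N (U i) (hNU i) a = rst φ N (U i) (hNU i) b :=
            congrArg (fun t : ∀ i, (rst φ N (U i) (hNU i)).range => ((t i : (rst φ N (U i) (hNU i)).range) : (U i) ≃ₗ[ZMod 2] (U i))) hab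
          rw [map_mul, map_inv, h3, mul_inv_cancel]
        exact mul_inv_eq_one.1 h2
      refine h1.trans ?_
      rw [Nat.card_pi]
      calc ∏ i, Nat.card (rst φ N (U i) (hNU i)).range ≤ ∏ i : Fin k, c := Finset.prod_le_prod' (fun i _ => hRi i)
        _ = c ^ k := by rw [Finset.prod_const, Finset.card_univ, Fintype.card_fin]
    have hidx : N.index ≤ k.factorial := by
      rw [hN, Subgroup.index_ker]
      have h1 := Subgroup.card_le_card_group f.range
      rw [Nat.card_perm, Nat.card_fin] at h1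
      exact h1
    rw [← Subgroup.card_mul_index N]
    exact Nat.mul_le_mul hNc hidx

end Cfsg.Agent.Lib.H55T1a
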