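import Cfsg.Agent.Lib.H55T1a

/-! S4265 piece T1b: imprimitive linear groups, class numbers -/

set_option autoImplicit false
set_option linter.all false

namespace Cfsg.Agent.Lib.H55T1b

open Cfsg.Agent.Lib.H55KR Cfsg.Agent.Lib.H55T1a

theorem cc_equiv {A B : Type} [Group A] [Group B] (e : A ≃* B) : Nat.card (ConjClasses A) = Nat.card (ConjClasses B) := by
  apply Nat.card_congr
  refine Quotient.congr e.toEquiv ?_
  intro a b
  show IsConj a b ↔ IsConj (e a) (e b)
  constructor
  · intro h
    exact e.toMonoidHom.map_isConj h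
  · intro h
    have h2 := e.symm.toMonoidHom.map_isConj h
    have e1 : e.symm.toMonoidHom (e a) = a := e.symm_apply_apply a
    have e2 : e.symm.toMonoidHom (e b) = b := e.symm_apply_apply b
    rwa [e1, e2] at h2

theorem cc_le_card {A : Type} [Group A] [Finite A] : Nat.card (ConjClasses A) ≤ Nat.card A :=
  Nat.card_le_card_of_surjective (ConjClasses.mk) (ConjClasses.mk_surjective)

theorem quot (hK : K1S) {A B : Type} [Group A] [Finite A] [Group B] (f : A →* B) :
    Nat.card (ConjClasses A) ≤ Nat.card (ConjClasses f.ker) * Nat.card (ConjClasses f.range) := by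
  have h1 := hK A f.ker
  rwa [cc_equiv (QuotientGroup.quotientKerEquivRange f)] at h1

/-- joint embedding -/
theorem jnt (hK : K1S) : ∀ (k : ℕ) (c : ℕ) (N : Type) [Group N] [Finite N] (R : Fin k → Type) [∀ i, Group (R i)]
    (f : ∀ i, N →* R i), (∀ g, (∀ i, f i g = 1) → g = 1) →
      (∀ i (Y : Subgroup (R i)), Nat.card (ConjClasses Y) ≤ c) → Nat.card (ConjClasses N) ≤ c ^ k := by
  intro k
  induction k with
  | zero =>
    intro c N _ _ R _ f hf hc
    have : ∀ x y : N, x = y := fun x y => by rw [hf x (fun i => i.elim0), hf y (fun i => i.elim0)]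
    haveI : Subsingleton N := ⟨this⟩
    have h1 : Nat.card N = 1 := Nat.card_unique
    rw [pow_zero, ← h1]
    exact cc_le_card
  | succ k ih =>
    intro c N _ _ R _ f hf hc
    have h1 := quot hK (f 0)
    have h2 := hc 0 (f 0).range
    have h3 : Nat.card (ConjClasses (f 0).ker) ≤ c ^ k := by
      apply ih c (f 0).ker (fun i => R i.succ) (fun i => (f i.succ).comp (f 0).ker.subtype)
      · intro g hg
        apply Subtype.ext
        rw [Subgroup.coe_one]
        apply hf
        intro i
        refine Fin.cases ?_ (fun j => ?_) i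
        · exact (MonoidHom.mem_ker).1 g.2
        · exact hg j
      · intro i Y
        exact hc i.succ Y
    calc Nat.card (ConjClasses N) ≤ _ := h1
      _ ≤ c ^ k * c := Nat.mul_le_mul h3 h2
      _ = c ^ (k + 1) := by rw [pow_succ]

variable {X W : Type} [Group X] [Finite X] [AddCommGroup W] [Module (ZMod 2) W] [Finite W]
    {φ : X →* (W ≃ₗ[ZMod 2] W)}

theorem aux (hK : K1S) (hinj : Function.Injective φ) {k d c : ℕ}
    (U : Fin k → Submodule (ZMod 2) W) (hind : iSupIndep U) (hsup : ⨆ i, U i = ⊤)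
    (hdim : ∀ i, Module.finrank (ZMod 2) (U i) = d)
    (hperm : ∀ g : X, ∀ i, ∃ j, (U i).map (φ g : W →ₗ[ZMod 2] W) = U j)
    (hc : ∀ (Y V : Type) [Group Y] [Finite Y] [AddCommGroup V] [Module (ZMod 2) V] [Finite V]
      (ψ : Y →* (V ≃ₗ[ZMod 2] V)), Function.Injective ψ →
        Module.finrank (ZMod 2) V = d → KB Y c) : Nat.card (ConjClasses X) ≤ c ^ k * k.factorial := by
  classical
  by_cases hd : d = 0
  · subst hd
    have hbot : ∀ i, U i = ⊥ := fun i => Submodule.finrank_eq_zero.1 (hdim i)
    have htop : (⊤ : Submodule (ZMod 2) W) = ⊥ := by rw [← hsup]; simp [hbot]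
    have hW : ∀ w : W, w = 0 := fun w => (Submodule.mem_bot (ZMod 2)).1 (by rw [← htop]; trivial)
    have hX : ∀ x y : X, x = y := fun x y => hinj (LinearEquiv.ext (fun w => by rw [hW (φ x w), hW (φ y w)]))
    haveI : Subsingleton X := ⟨hX⟩
    have h1 : Nat.card X = 1 := Nat.card_unique
    have h2 := hc X W φ hinj (by rw [← finrank_top, htop, finrank_bot]) ⊤
    have h3 : 0 < Nat.card (ConjClasses (⊤ : Subgroup X)) := by
      haveI : Finite (ConjClasses (⊤ : Subgroup X)) := Quotient.finite _
      haveI : Nonempty (ConjClasses (⊤ : Subgroup X)) := ⟨ConjClasses.mk 1⟩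
      exact Nat.card_pos
    calc Nat.card (ConjClasses X) ≤ Nat.card X := cc_le_card
      _ = 1 := h1
      _ ≤ c ^ k * k.factorial := Nat.mul_pos (Nat.pow_pos (lt_of_lt_of_le h3 h2)) (Nat.factorial_pos k)
  · obtain ⟨f, hf⟩ := exists_hom hd U hind hdim hperm
    have hNU : ∀ i, ∀ g ∈ f.ker, (U i).map (φ g : W →ₗ[ZMod 2] W) = U i := by
      intro i g hg
      rw [hf, (MonoidHom.mem_ker).1 hg]
      rfl
    haveI : ∀ i, Finite ((U i) ≃ₗ[ZMod 2] (U i)) := fun i => DFunLike.finite _
    have h1 := quot hK f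
    have h2 : Nat.card (ConjClasses f.range) ≤ k.factorial := by
      refine cc_le_card.trans ?_
      have h3 := Subgroup.card_le_card_group f.range
      rw [Nat.card_perm, Nat.card_fin] at h3
      exact h3
    have h3 : Nat.card (ConjClasses f.ker) ≤ c ^ k := by
      apply jnt hK k c f.ker (fun i => (rst φ f.ker (U i) (hNU i)).range)
        (fun i => (rst φ f.ker (U i) (hNU i)).rangeRestrict)
      · intro g hg
        apply joint hinj U hsup f.ker hNU
        intro i
        exact congrArg (fun t : (rst φ f.ker (U i) (hNU i)).range => (t : (U i) ≃ₗ[ZMod 2] (U i))) (hg i)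
      · intro i
        exact hc _ _ (rst φ f.ker (U i) (hNU i)).range.subtype (Subtype.val_injective) (hdim i)
    exact h1.trans (Nat.mul_le_mul h3 h2)

theorem t1KB (hK : K1S) (hinj : Function.Injective φ) {k d c : ℕ}
    (U : Fin k → Submodule (ZMod 2) W) (hind : iSupIndep U) (hsup : ⨆ i, U i = ⊤)
    (hdim : ∀ i, Module.finrank (ZMod 2) (U i) = d)
    (hperm : ∀ g : X, ∀ i, ∃ j, (U i).map (φ g : W →ₗ[ZMod 2] W) = U j)
    (hc : ∀ (Y V : Type) [Group Y] [Finite Y] [AddCommGroup V] [Module (ZMod 2) V] [Finite V]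
      (ψ : Y →* (V ≃ₗ[ZMod 2] V)), Function.Injective ψ →
        Module.finrank (ZMod 2) V = d → KB Y c) : KB X (c ^ k * k.factorial) := by
  intro Y
  exact aux (φ := φ.comp Y.subtype) hK (hinj.comp Subtype.val_injective) U hind hsup hdim
    (fun g i => hperm (g : X) i) hc

end Cfsg.Agent.Lib.H55T1b
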