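import Cfsg.Agent.Lib.H55KR3

/-! Piece T2a of S4265 (helper30): groups of 2 x 2 matrices over `F_2`. -/

set_option autoImplicit false

namespace Cfsg.Agent.Lib.H55T2a

open Cfsg.Agent.Lib.H55KR

variable {X W : Type} [Group X] [Finite X] [AddCommGroup W] [Module (ZMod 2) W] [Finite W]
    {φ : X →* (W ≃ₗ[ZMod 2] W)}

/-- a group with an injection into `S_3` has at most `3` classes -/
theorem conj_le {Y : Type} [Group Y] [Finite Y] (f : Y →* Equiv.Perm (Fin 3)) (hf : Function.Injective f) :
    Nat.card (ConjClasses Y) ≤ 3 := by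
  have h6 : Nat.card (Equiv.Perm (Fin 3)) = 6 := by
    rw [Nat.card_perm, Nat.card_eq_fintype_card, Fintype.card_fin]; rfl
  have hdvd := Subgroup.card_dvd_of_injective f hf
  rw [h6] at hdvd
  have hle : Nat.card Y ≤ 6 := Nat.le_of_dvd (by norm_num) hdvd
  by_cases hY : Nat.card Y = 6
  · have hbij : Function.Bijective f := (Nat.bijective_iff_injective_and_card f).2 ⟨hf, by rw [hY, h6]⟩
    have hs : Function.Surjective (ConjClasses.map (MulEquiv.ofBijective f hbij).symm.toMonoidHom) :=
      ConjClasses.map_surjective (MulEquiv.ofBijective f hbij).symm.surjective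
    have h1 := Nat.card_le_card_of_surjective _ hs
    have h2 : Nat.card (ConjClasses (Equiv.Perm (Fin 3))) = 3 := by
      rw [Nat.card_eq_fintype_card]
      decide
    rw [h2] at h1
    exact h1
  · have h3 : Nat.card Y ≤ 3 := by
      generalize Nat.card Y = m at *
      interval_cases m <;> omega
    exact (Nat.card_le_card_of_surjective _ ConjClasses.mk_surjective).trans h3

theorem t2a (hinj : Function.Injective φ) (hd : Module.finrank (ZMod 2) W = 2) :
    Nat.card X ≤ 6 ∧ KB X 3 := by
  classical
  have hW : Nat.card W = 4 := by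
    rw [Module.natCard_eq_pow_finrank (K := ZMod 2), hd, Nat.card_zmod]
    norm_num
  have h3 : Nat.card {w : W // w ≠ 0} = 3 := by
    have h1 := Set.ncard_compl ({0} : Set W)
    rw [Set.ncard_singleton, hW] at h1
    rw [← Nat.card_coe_set_eq] at h1
    exact h1
  let σ : X →* Equiv.Perm {w : W // w ≠ 0} :=
    { toFun := fun x => (φ x).toEquiv.subtypeEquiv (fun w => by simp)
      map_one' := by
        ext w
        simp
      map_mul' := by
        intro x y
        ext w
        simp }
  have hσ : Function.Injective σ := by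
    intro x y h
    apply hinj
    ext w
    by_cases hw : w = 0
    · rw [hw, map_zero, map_zero]
    · have := congrArg (fun s : Equiv.Perm {w : W // w ≠ 0} => ((s ⟨w, hw⟩ : {w : W // w ≠ 0}) : W)) h
      exact this
  let e := Finite.equivFinOfCardEq h3
  let f : X →* Equiv.Perm (Fin 3) := e.permCongrHom.toMonoidHom.comp σ
  have hf : Function.Injective f := e.permCongrHom.injective.comp hσ
  refine ⟨?_, ?_⟩
  · have h1 := Nat.card_le_card_of_injective f hf
    rwa [Nat.card_perm, Nat.card_eq_fintype_card (α := Fin 3), Fintype.card_fin] at h1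
  · intro Y
    exact conj_le (f.comp Y.subtype) (hf.comp Y.subtype_injective)

end Cfsg.Agent.Lib.H55T2a
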