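import Cfsg.Agent.Lib.H55KR3
import Cfsg.Agent.Lib.ClSeven

set_option autoImplicit false

namespace Cfsg.Agent.Lib.H55T2b

open Cfsg.Agent.Lib.H55KR Matrix MatrixGroups Cfsg.Agent.Lib.ClSeven

/-- a solvable subgroup of a simple group of order 168 has order at most 33 -/
theorem card_le_of_simple168 {G : Type} [Group G] [Finite G] [IsSimpleGroup G] (h : Nat.card G = 168)
    (H : Subgroup G) (hs : Group.IsSolvable H) : Nat.card H ≤ 33 := by
  by_contra hlt
  push Not at hlt
  have hne : H ≠ ⊤ := by
    rintro rfl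
    have hsG : Group.IsSolvable G := by
      have := hs
      exact Group.isSolvable_of_surjective (f := (⊤ : Subgroup G).subtype) (fun x => ⟨⟨x, trivial⟩, rfl⟩)
    have hc : ∀ a b : G, a * b = b * a := IsSimpleGroup.comm_iff_isSolvable.mpr hsG
    let _ : CommGroup G := { (inferInstance : Group G) with mul_comm := hc }
    have hp : (Nat.card G).Prime := IsSimpleGroup.prime_card
    rw [h] at hp
    revert hp
    norm_num
  have hidx := H.card_mul_index
  rw [h] at hidx
  have h4 : H.index ≤ 4 := by
    by_contra h5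
    push Not at h5
    have : 34 * 5 ≤ Nat.card H * H.index := Nat.mul_le_mul hlt h5
    omega
  have hk : H.normalCore = ⊥ := by
    rcases (inferInstance : H.normalCore.Normal).eq_bot_or_eq_top with h0 | h0
    · exact h0
    · exact absurd (top_le_iff.mp (h0 ▸ H.normalCore_le)) hne
  have hinj : Function.Injective (MulAction.toPermHom G (G ⧸ H)) := by
    rw [← MonoidHom.ker_eq_bot_iff, ← Subgroup.normalCore_eq_ker]
    exact hk
  have hle := Nat.card_le_card_of_injective _ hinj
  rw [h, Nat.card_perm] at hle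
  have h1 : Nat.card (G ⧸ H) ≤ 4 := h4
  have h2 : (Nat.card (G ⧸ H)).factorial ≤ Nat.factorial 4 := Nat.factorial_le h1
  have h3 : Nat.factorial 4 = 24 := rfl
  omega

noncomputable def glEquiv {W : Type} [AddCommGroup W] [Module (ZMod 2) W]
    (b : Module.Basis (Fin 3) (ZMod 2) W) : (W ≃ₗ[ZMod 2] W) ≃* GL (Fin 3) (ZMod 2) :=
  (LinearMap.GeneralLinearGroup.generalLinearEquiv (ZMod 2) W).symm.trans
    (Units.mapEquiv (LinearMap.toMatrixAlgEquiv b).toMulEquiv)

theorem simple_gl32 : IsSimpleGroup (GL (Fin 3) (ZMod 2)) := by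
  have : IsSimpleGroup (ProjectiveSpecialLinearGroup (Fin 2) (ZMod 7)) :=
    Matrix.ProjectiveSpecialLinearGroup.rank_two_simple (by rw [Nat.card_eq_fintype_card, ZMod.card]; norm_num)
  have hb := bijective_of_simple pslHom _ pslHom_ne (by rw [card_psl27, card_gl32])
  have e := MulEquiv.ofBijective pslHom hb
  exact e.symm.isSimpleGroup

variable {X W : Type} [Group X] [Finite X] [AddCommGroup W] [Module (ZMod 2) W] [Finite W]
  {φ : X →* (W ≃ₗ[ZMod 2] W)}

theorem t2b (hinj : Function.Injective φ) (hs : Group.IsSolvable X)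
    (hd : Module.finrank (ZMod 2) W = 3) : Nat.card X ≤ 33 := by
  have := simple_gl32
  have b : Module.Basis (Fin 3) (ZMod 2) W := Module.finBasisOfFinrankEq (ZMod 2) W hd
  let f : X →* GL (Fin 3) (ZMod 2) := (glEquiv b).toMonoidHom.comp φ
  have hf : Function.Injective f := (glEquiv b).injective.comp hinj
  have e : X ≃* f.range := MonoidHom.ofInjective hf
  rw [Nat.card_congr e.toEquiv]
  refine card_le_of_simple168 card_gl32 f.range ?_
  exact Group.isSolvable_of_surjective (f := e.toMonoidHom) e.surjective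

end Cfsg.Agent.Lib.H55T2b
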