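import Mathlib
import Cfsg.Agent.Lib.H55KR3
import Cfsg.Agent.Lib.GL4A8
import Cfsg.Agent.Lib.BrauerFowler

set_option autoImplicit false

/-! Solvable subgroups of `GL(4,2)` (S4265, helper73) -/

namespace Cfsg.Agent.Lib.H55T2c

open Cfsg.Agent.Lib.H55KR

instance simpleA8' : IsSimpleGroup (alternatingGroup (Fin 8)) := alternatingGroup.isSimpleGroup (by simp)

theorem not_solv : ¬ Group.IsSolvable (alternatingGroup (Fin 8)) := by
  intro h
  have h1 := (IsSimpleGroup.comm_iff_isSolvable (G := alternatingGroup (Fin 8))).2 h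
  let _ : CommGroup (alternatingGroup (Fin 8)) :=
    { (inferInstance : Group (alternatingGroup (Fin 8))) with mul_comm := h1 }
  have h2 := IsSimpleGroup.prime_card (α := alternatingGroup (Fin 8))
  rw [GL4A8.card_A8] at h2
  norm_num at h2

variable {X W : Type} [Group X] [Finite X] [AddCommGroup W] [Module (ZMod 2) W] [Finite W]
    {φ : X →* (W ≃ₗ[ZMod 2] W)}

theorem exists_hom (hinj : Function.Injective φ) (hd : Module.finrank (ZMod 2) W = 4) :
    ∃ f : X →* Matrix.GeneralLinearGroup (Fin 4) (ZMod 2), Function.Injective f := by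
  haveI : Fact (Nat.Prime 2) := ⟨Nat.prime_two⟩
  haveI : Module.Finite (ZMod 2) W := Module.Finite.of_finite
  let b : Module.Basis (Fin 4) (ZMod 2) W := Module.finBasisOfFinrankEq (ZMod 2) W hd
  let e : (W →ₗ[ZMod 2] W) ≃ₐ[ZMod 2] Matrix (Fin 4) (Fin 4) (ZMod 2) := LinearMap.toMatrixAlgEquiv b
  let e1 : (W →ₗ[ZMod 2] W)ˣ ≃* Matrix.GeneralLinearGroup (Fin 4) (ZMod 2) := Units.mapEquiv e.toMulEquiv
  let e2 : (W ≃ₗ[ZMod 2] W) ≃* (W →ₗ[ZMod 2] W)ˣ := (LinearMap.GeneralLinearGroup.generalLinearEquiv (ZMod 2) W).symm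
  exact ⟨(e2.trans e1).toMonoidHom.comp φ, (e2.trans e1).injective.comp hinj⟩

theorem t2c (hinj : Function.Injective φ) (hs : Group.IsSolvable X) (hd : Module.finrank (ZMod 2) W = 4) :
    Nat.card X ≤ 2678 := by
  obtain ⟨f, hf⟩ := exists_hom hinj hd
  let ψ : X →* alternatingGroup (Fin 8) := GL4A8.equivA8.toMonoidHom.comp f
  have hψ : Function.Injective ψ := GL4A8.equivA8.injective.comp hf
  have hc : Nat.card ψ.range = Nat.card X := (Nat.card_congr (ψ.ofInjective hψ).toEquiv).symm
  have hne : ψ.range ≠ ⊤ := by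
    intro h
    apply not_solv
    have hsur : Function.Surjective ψ := MonoidHom.range_eq_top.1 h
    exact Group.isSolvable_of_surjective hsur
  have h1 := BrauerFowler.card_le_factorial_index ψ.range hne
  rw [GL4A8.card_A8] at h1
  have h2 : 8 ≤ ψ.range.index := by
    by_contra hcon
    have h3 : ψ.range.index ≤ 7 := by omega
    have h4 := Nat.factorial_le h3
    have h5 : Nat.factorial 7 = 5040 := by norm_num [Nat.factorial]
    omega
  have h3 := ψ.range.card_mul_index
  rw [GL4A8.card_A8, hc] at h3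
  nlinarith

end Cfsg.Agent.Lib.H55T2c
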