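import Cfsg.Agent.Lib.H55KR3

/-! S4265, piece T3a (helper19) -/

set_option autoImplicit false
set_option linter.all false

namespace Cfsg.Agent.Lib.H55T3a

open Cfsg.Agent.Lib.H55KR

/-- the sign character of `ZMod 2` -/
def sg (x : ZMod 2) : ℤ := if x = 0 then 1 else -1

theorem sg_add (x y : ZMod 2) : sg (x + y) = sg x * sg y := by revert x y; decide

theorem N1_eq (n : ℕ) : 2 * (N1 n : ℤ) = 4 ^ n - (-2) ^ n := by
  induction n with
  | zero => simp [N1]
  | succ n ih =>
    have h1 : 2 * N1 n ≤ 3 * 4 ^ n := by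
      have : (2 * N1 n : ℤ) ≤ 3 * 4 ^ n := by
        rw [ih]
        have h2 : -((-2 : ℤ) ^ n) ≤ 2 ^ n := by
          have : |(-2 : ℤ) ^ n| = 2 ^ n := by rw [abs_pow]; norm_num
          have h3 := neg_abs_le ((-2 : ℤ) ^ n)
          rw [this] at h3; linarith
        have h4 : (2 : ℤ) ^ n ≤ 4 ^ n := pow_le_pow_left₀ (by norm_num) (by norm_num) n
        have h5 : (0 : ℤ) ≤ 4 ^ n := by positivity
        linarith
      exact_mod_cast this
    rw [N1, Nat.cast_sub h1]
    push_cast
    have e : (2 : ℤ) * (3 * 4 ^ n - 2 * (N1 n : ℤ)) = 6 * 4 ^ n - 2 * (2 * (N1 n : ℤ)) := by ring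
    rw [e, ih, pow_succ, pow_succ]; ring

variable {W : Type} [AddCommGroup W] [Module (ZMod 2) W] [Finite W] {β : W →ₗ[ZMod 2] W →ₗ[ZMod 2] ZMod 2}

theorem two_eq (w : W) : w + w = 0 := by
  have : (2 : ZMod 2) • w = w + w := two_smul _ w
  rw [← this]
  have h : (2 : ZMod 2) = 0 := by decide
  rw [h, zero_smul]

theorem z2 (x : ZMod 2) : x + x = 0 := by revert x; decide

theorem sym (alt : ∀ x, β x x = 0) (x y : W) : β x y = β y x := by
  have h := alt (x + y)
  simp only [map_add, LinearMap.add_apply, alt, zero_add, add_zero] at h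
  have h2 : β x y + β x y = 0 := z2 _
  have h3 : β y x = - β x y := by
    rw [eq_neg_iff_add_eq_zero]
    first | exact h | (rw [add_comm]; exact h)
  rw [h3, ← add_eq_zero_iff_eq_neg]; exact h2

theorem polar (alt : ∀ x, β x x = 0) (a : W →ₗ[ZMod 2] W)
    (ha : ∀ w, a (a w) + a w + w = 0) (hinv : ∀ x y, β (a x) (a y) = β x y) (w v : W) :
    β (w + v) (a (w + v)) = β w (a w) + β v (a v) + β w v := by
  have h1 : a (a w) = a w + w := by
    have := ha w
    rw [add_assoc, add_eq_zero_iff_eq_neg] at this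
    rw [this, neg_eq_iff_add_eq_zero]
    exact two_eq _
  have h2 : β v (a w) = β w v + β w (a v) := by
    rw [sym alt v (a w), ← hinv (a w) v, h1, map_add, LinearMap.add_apply, hinv]
  rw [map_add a, map_add β, LinearMap.add_apply, map_add, map_add, h2]
  have h3 := z2 (β w (a v))
  linear_combination h3

theorem t3a (n : ℕ) (alt : ∀ x, β x x = 0) (nondeg : ∀ x, (∀ y, β x y = 0) → x = 0)
    (dim : Module.finrank (ZMod 2) W = 2 * n) (a : W →ₗ[ZMod 2] W)
    (ha : ∀ w, a (a w) + a w + w = 0) (hinv : ∀ x y, β (a x) (a y) = β x y) :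
    Nat.card {w : W // β w (a w) = 1} = N1 n := by
  classical
  haveI := Fintype.ofFinite W
  set q : W → ZMod 2 := fun w => β w (a w) with hq
  have hpol : ∀ w v, q (w + v) = q w + q v + β w v := polar alt a ha hinv
  have hcard : (Fintype.card W : ℤ) = 4 ^ n := by
    have h := Module.card_eq_pow_finrank (K := ZMod 2) (V := W)
    rw [dim, ZMod.card, pow_mul] at h
    rw [h]; norm_num
  set Sm : ℤ := ∑ w : W, sg (q w) with hS
  -- the inner sum
  have hin : ∀ u : W, u ≠ 0 → ∑ w : W, sg (β w u) = 0 := by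
    intro u hu
    obtain ⟨w0, hw0⟩ : ∃ w0, β u w0 ≠ 0 := by
      by_contra hcon
      push Not at hcon
      exact hu (nondeg u hcon)
    have h1 : sg (β w0 u) = -1 := by
      rw [sym alt w0 u]
      unfold sg; rw [if_neg hw0]
    have h2 : ∑ w : W, sg (β w u) = ∑ w : W, sg (β (w + w0) u) :=
      (Equiv.sum_comp (Equiv.addRight w0) (fun w => sg (β w u))).symm
    have h3 : ∀ w, sg (β (w + w0) u) = - sg (β w u) := by
      intro w
      rw [map_add, LinearMap.add_apply, sg_add, h1]; ring
    rw [Finset.sum_congr rfl fun w _ => h3 w, Finset.sum_neg_distrib] at h2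
    linarith
  have hSS : Sm * Sm = 4 ^ n := by
    have h1 : Sm * Sm = ∑ u : W, ∑ w : W, sg (q w) * sg (q (w + u)) := by
      rw [Finset.sum_comm, hS, Finset.sum_mul]
      refine Finset.sum_congr rfl fun w _ => ?_
      rw [Finset.mul_sum]
      exact (Equiv.sum_comp (Equiv.addLeft w) (fun v => sg (q w) * sg (q v))).symm
    have h2 : ∀ u w : W, sg (q w) * sg (q (w + u)) = sg (q u) * sg (β w u) := by
      intro u w
      rw [← sg_add, ← sg_add, hpol]
      congr 1
      linear_combination z2 (q w)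
    rw [h1]
    simp only [h2, ← Finset.mul_sum]
    rw [Finset.sum_eq_single (0 : W)]
    · have : q 0 = 0 := by simp [hq]
      rw [this]
      simp [sg, hcard]
    · intro u _ hu
      rw [hin u hu, mul_zero]
    · intro h; exact absurd (Finset.mem_univ _) h
  -- count
  have hcnt : Sm = 4 ^ n - 2 * (Nat.card {w : W // β w (a w) = 1} : ℤ) := by
    have h1 : ∀ w : W, sg (q w) = 1 - 2 * (if q w = 1 then 1 else 0) := by
      intro w
      generalize q w = x
      revert x; decide
    rw [hS, Finset.sum_congr rfl fun w _ => h1 w, Finset.sum_sub_distrib, ← Finset.mul_sum, Finset.sum_const,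
      Finset.card_univ, nsmul_eq_mul, mul_one, hcard, Nat.card_eq_fintype_card, Fintype.card_subtype, Finset.card_filter]
    push_cast
    rfl
  -- divisibility by three
  have hq_inv : ∀ w, q (a w) = q w := fun w => hinv _ _
  let f : Function.End {w : W // β w (a w) = 1} := fun w => ⟨a w.1, by
    have := w.2
    rw [hinv]; exact this⟩
  have ha3 : ∀ w, a (a (a w)) = w := by
    intro w
    have h1 := ha (a w)
    have h2 := ha w
    have h3 : a (a (a w)) = -(a (a w) + a w) := by
      rw [eq_neg_iff_add_eq_zero, ← add_assoc]; exact h1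
    rw [h3]
    rw [neg_eq_iff_add_eq_zero]; exact h2
  have hf3 : f ^ 3 ^ 1 = 1 := by
    rw [pow_one, pow_succ, pow_two]
    funext w
    exact Subtype.ext (ha3 w.1)
  haveI : Fact (Nat.Prime 3) := ⟨Nat.prime_three⟩
  have hmod := Equiv.Perm.card_fixedPoints_modEq hf3
  have hfp : Fintype.card f.fixedPoints = 0 := by
    rw [Fintype.card_eq_zero_iff]
    constructor
    rintro ⟨w, hw⟩
    have h1 : a w.1 = w.1 := congrArg Subtype.val hw
    have h2 := ha w.1
    rw [h1, h1, two_eq, zero_add] at h2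
    have h3 := w.2
    rw [h2] at h3
    simp at h3
  rw [hfp, ← Nat.card_eq_fintype_card] at hmod
  have h3 : (3 : ℤ) ∣ (Nat.card {w : W // β w (a w) = 1} : ℤ) := by
    exact_mod_cast (Nat.modEq_zero_iff_dvd.1 hmod)
  obtain ⟨c, hc⟩ := h3
  -- conclusion
  have hp : (Sm - (-2) ^ n) * (Sm + (-2) ^ n) = 0 := by
    have : ((-2 : ℤ) ^ n) * ((-2) ^ n) = 4 ^ n := by rw [← mul_pow]; norm_num
    linear_combination hSS - this
  have hm4 : (3 : ℤ) ∣ 4 ^ n - 1 := by
    have := sub_dvd_pow_sub_pow (4 : ℤ) 1 n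
    rw [one_pow] at this
    norm_num at this; exact this
  have hm2 : (3 : ℤ) ∣ (-2) ^ n - 1 := by
    have := sub_dvd_pow_sub_pow (-2 : ℤ) 1 n
    rw [one_pow] at this
    norm_num at this
    exact this
  have hSeq : Sm = (-2) ^ n := by
    rcases mul_eq_zero.1 hp with h | h
    · linarith
    · exfalso
      have h1 : Sm = - (-2) ^ n := by linarith
      obtain ⟨c1, hc1⟩ := hm4
      obtain ⟨c2, hc2⟩ := hm2
      rw [hcnt, hc] at h1
      omega
  have h1 := N1_eq n
  have h2 : (2 : ℤ) * (Nat.card {w : W // β w (a w) = 1} : ℤ) = 2 * N1 n := by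
    rw [h1]; linarith
  have h4 : (Nat.card {w : W // β w (a w) = 1} : ℤ) = N1 n := by linarith
  exact_mod_cast h4

end Cfsg.Agent.Lib.H55T3a
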