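import Cfsg.Agent.Lib.H55KR3

set_option autoImplicit false

namespace Cfsg.Agent.Lib.H55T3b

open Cfsg.Agent.Lib.H55KR

theorem two_eq_zero {W : Type} [AddCommGroup W] [Module (ZMod 2) W] (w : W) : w + w = 0 := by
  have h : (2 : ZMod 2) • w = 0 := by
    rw [show (2 : ZMod 2) = 0 from rfl, zero_smul]
  rwa [two_smul] at h

theorem z2 (x : ZMod 2) : x = 0 ∨ x = 1 := by
  revert x; decide

/-- existence of a vector with `β w (a w) = 1` -/
theorem exists_one {W : Type} [AddCommGroup W] [Module (ZMod 2) W] {β : W →ₗ[ZMod 2] W →ₗ[ZMod 2] ZMod 2}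
    (alt : ∀ x, β x x = 0) (nondeg : ∀ x, (∀ y, β x y = 0) → x = 0)
    (a : W →ₗ[ZMod 2] W) (ha : ∀ w, a (a w) + a w + w = 0) (hinv : ∀ x y, β (a x) (a y) = β x y)
    (hne : ∃ w : W, w ≠ 0) : ∃ w, β w (a w) = 1 := by
  by_contra hcon
  push Not at hcon
  have h0 : ∀ w, β w (a w) = 0 := fun w => (z2 _).resolve_right (hcon w)
  have hsym : ∀ x y, β x y = β y x := by
    intro x y
    have h1 := alt (x + y)
    rw [map_add, map_add, LinearMap.add_apply, LinearMap.add_apply, alt, alt, zero_add, add_zero] at h1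
    rcases z2 (β x y) with h2 | h2 <;> rcases z2 (β y x) with h3 | h3 <;> rw [h2, h3] at h1 ⊢ <;> revert h1 <;> decide
  obtain ⟨w, hw⟩ := hne
  apply hw
  apply nondeg
  intro u
  have h1 := h0 (w + u)
  rw [map_add, map_add, map_add, LinearMap.add_apply, LinearMap.add_apply, h0 w, h0 u] at h1
  -- β w (a u) + β u (a w) = 0
  have h2 : β w (a u) + β u (a w) = 0 := by
    rw [← h1]; ring
  have h3 : β u (a w) = β w (a (a u)) := by
    -- β u (a w) = β (a u) (a (a w)) = β (a (a u)) (a (a (a w))) and a^3 = 1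
    have h4 : a (a (a w)) = w := by
      have e1 := ha w
      have e2 := congrArg a e1
      rw [map_add, map_add, map_zero] at e2
      -- a a a w + a a w + a w = 0 ; a a w + a w + w = 0
      have e3 : a (a (a w)) + a (a w) + a w + (a (a w) + a w + w) = 0 := by rw [e2, e1, add_zero]
      have e4 : a (a (a w)) + w + ((a (a w) + a (a w)) + (a w + a w)) = 0 := by rw [← e3]; abel
      rw [two_eq_zero, two_eq_zero, add_zero, add_zero] at e4
      have e5 : a (a (a w)) + w + w = w := by rw [e4, zero_add]
      rw [add_assoc, two_eq_zero, add_zero] at e5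
      exact e5
    rw [← hinv u (a w), ← hinv (a u) (a (a w)), h4, hsym]
  rw [h3, ← map_add] at h2
  have h5 : a u + a (a u) = u := by
    have e1 := ha u
    have e2 : a u + a (a u) + u = 0 := by rw [← e1]; abel
    have e3 : a u + a (a u) + u + u = u := by rw [e2, zero_add]
    rw [add_assoc, two_eq_zero, add_zero] at e3
    exact e3
  rwa [h5] at h2

theorem main (hcount : ∀ (m : ℕ) (V : Type) [AddCommGroup V] [Module (ZMod 2) V] [Finite V]
      (γ : V →ₗ[ZMod 2] V →ₗ[ZMod 2] ZMod 2) (b : V →ₗ[ZMod 2] V), (∀ x, γ x x = 0) →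
      (∀ x, (∀ y, γ x y = 0) → x = 0) → Module.finrank (ZMod 2) V = 2 * m →
      (∀ w, b (b w) + b w + w = 0) → (∀ x y, γ (b x) (b y) = γ x y) →
      Nat.card {w : V // γ w (b w) = 1} = N1 m) :
    ∀ (n : ℕ) (X W : Type) [Group X] [Finite X] [AddCommGroup W] [Module (ZMod 2) W] [Finite W]
      (β : W →ₗ[ZMod 2] W →ₗ[ZMod 2] ZMod 2) (φ : X →* Module.End (ZMod 2) W)
      (_ : ∀ x, β x x = 0) (_ : ∀ x, (∀ y, β x y = 0) → x = 0)
      (_ : Module.finrank (ZMod 2) W = 2 * n) (a : W →ₗ[ZMod 2] W)
      (_ : ∀ w, a (a w) + a w + w = 0) (_ : ∀ x y, β (a x) (a y) = β x y)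
      (_ : ∀ g : X, (∀ w, φ g w = w) → g = 1) (_ : ∀ g x y, β (φ g x) (φ g y) = β x y)
      (_ : ∀ g x, φ g (a x) = a (φ g x)), Nat.card X ≤ ∏ i ∈ Finset.range n, N1 (i + 1) := by
  intro n
  induction n with
  | zero =>
    intro X W _ _ _ _ _ β φ alt nondeg dim a ha hinv hinj hφ hcomm
    have h1 : Subsingleton W := by
      rw [mul_zero] at dim
      exact Module.finrank_zero_iff.1 dim
    have h2 : Subsingleton X := by
      constructor
      intro x y
      rw [hinj x (fun w => Subsingleton.elim _ _), hinj y (fun w => Subsingleton.elim _ _)]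
    rw [Finset.prod_range_zero]
    exact Finite.card_le_one_iff_subsingleton.2 h2
  | succ n ih =>
    intro X W _ _ _ _ _ β φ alt nondeg dim a ha hinv hinj hφ hcomm
    classical
    have hsym : ∀ x y, β x y = β y x := by
      intro x y
      have h1 := alt (x + y)
      rw [map_add, map_add, LinearMap.add_apply, LinearMap.add_apply, alt, alt, zero_add, add_zero] at h1
      rcases z2 (β x y) with h2 | h2 <;> rcases z2 (β y x) with h3 | h3 <;> rw [h2, h3] at h1 ⊢ <;> revert h1 <;>
        decide
    have hne : ∃ w : W, w ≠ 0 := by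
      by_contra hc
      push Not at hc
      have : Subsingleton W := ⟨fun x y => by rw [hc x, hc y]⟩
      have := Module.finrank_zero_of_subsingleton (R := ZMod 2) (M := W)
      omega
    obtain ⟨w₁, hw₁⟩ := exists_one alt nondeg a ha hinv hne
    -- the stabilizer
    let Y : Subgroup X :=
      { carrier := {g | φ g w₁ = w₁}
        one_mem' := by change φ 1 w₁ = w₁; rw [map_one]; rfl
        mul_mem' := by
          intro x y hx hy
          change φ (x * y) w₁ = w₁
          change φ x w₁ = w₁ at hx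
          change φ y w₁ = w₁ at hy
          rw [map_mul, Module.End.mul_apply, hy, hx]
        inv_mem' := by
          intro x hx
          change φ x⁻¹ w₁ = w₁
          change φ x w₁ = w₁ at hx
          have : φ x⁻¹ (φ x w₁) = w₁ := by
            rw [← Module.End.mul_apply, ← map_mul, inv_mul_cancel, map_one]; rfl
          rwa [hx] at this }
    have hY : ∀ g, g ∈ Y ↔ φ g w₁ = w₁ := fun g => Iff.rfl
    -- orbit bound
    have hT : ∀ g : X, β (φ g w₁) (a (φ g w₁)) = 1 := by
      intro g; rw [← hcomm, hφ, hw₁]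
    have hcard : Nat.card X ≤ N1 (n + 1) * Nat.card Y := by
      rw [← hcount (n + 1) W β a alt nondeg dim ha hinv, ← Nat.card_prod]
      let r : {w : W // β w (a w) = 1} → X := fun t =>
        if h : ∃ g : X, φ g w₁ = t.1 then h.choose else 1
      have hr : ∀ g : X, φ (r ⟨φ g w₁, hT g⟩) w₁ = φ g w₁ := by
        intro g
        have h : ∃ g' : X, φ g' w₁ = φ g w₁ := ⟨g, rfl⟩
        have e : r ⟨φ g w₁, hT g⟩ = h.choose := dif_pos h
        rw [e]; exact h.choose_spec
      refine Nat.card_le_card_of_injective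
        (fun g => ((⟨φ g w₁, hT g⟩, ⟨(r ⟨φ g w₁, hT g⟩)⁻¹ * g, ?_⟩) : {w : W // β w (a w) = 1} × Y)) ?_
      · rw [hY, map_mul, Module.End.mul_apply]
        refine (congrArg (φ (r ⟨φ g w₁, hT g⟩)⁻¹) (hr g).symm).trans ?_
        rw [← Module.End.mul_apply, ← map_mul, inv_mul_cancel, map_one]
        rfl
      · intro g g' hgg
        have e1 := congrArg Prod.fst hgg
        have e2 := congrArg (fun p => (p.2 : X)) hgg
        simp only at e1 e2
        rw [e1] at e2
        exact mul_left_cancel e2
    -- the complement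
    let V : Submodule (ZMod 2) W := LinearMap.ker (β w₁) ⊓ LinearMap.ker (β (a w₁))
    have hV : ∀ v, v ∈ V ↔ β w₁ v = 0 ∧ β (a w₁) v = 0 := by
      intro v; rw [Submodule.mem_inf, LinearMap.mem_ker, LinearMap.mem_ker]
    have hβ1 : β (a w₁) w₁ = 1 := by rw [hsym]; exact hw₁
    have haa : ∀ x y, β x (a y) = β (a (a x)) y := by
      intro x y
      have h4 : a (a (a y)) = y := by
        have e1 := ha y
        have e2 := congrArg a e1
        rw [map_add, map_add, map_zero] at e2
        have e3 : a (a (a y)) + a (a y) + a y + (a (a y) + a y + y) = 0 := by rw [e2, e1, add_zero]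
        have e4 : a (a (a y)) + y + ((a (a y) + a (a y)) + (a y + a y)) = 0 := by rw [← e3]; abel
        rw [two_eq_zero, two_eq_zero, add_zero, add_zero] at e4
        have e5 : a (a (a y)) + y + y = y := by rw [e4, zero_add]
        rw [add_assoc, two_eq_zero, add_zero] at e5
        exact e5
      rw [← hinv x (a y), ← hinv (a x) (a (a y)), h4]
    have ha2 : ∀ x, a (a x) = a x + x := by
      intro x
      have e1 := ha x
      have e3 : a (a x) + (a x + x) + (a x + x) = a x + x := by
        rw [← add_assoc (a (a x)), e1, zero_add]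
      rw [add_assoc, two_eq_zero, add_zero] at e3
      exact e3
    have haV : ∀ v ∈ V, a v ∈ V := by
      intro v hv
      rw [hV] at hv ⊢
      constructor
      · rw [haa, ha2, map_add, LinearMap.add_apply, hv.1, hv.2, add_zero]
      · rw [hinv]; exact hv.1
    have hgV : ∀ g ∈ Y, ∀ v ∈ V, φ g v ∈ V := by
      intro g hg v hv
      rw [hV] at hv ⊢
      rw [hY] at hg
      constructor
      · have := hφ g w₁ v
        rwa [hg, hv.1] at this
      · have := hφ g (a w₁) v
        rwa [hcomm, hg, hv.2] at this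
    -- decomposition
    have hdec : ∀ w : W, w + (β (a w₁) w) • w₁ + (β w₁ w) • a w₁ ∈ V := by
      intro w
      rw [hV]
      constructor
      · rw [map_add, map_add, map_smul, map_smul, alt, hw₁, smul_zero, add_zero, smul_eq_mul, mul_one]
        exact CharTwo.add_self_eq_zero _
      · rw [map_add, map_add, map_smul, map_smul, alt, hβ1, smul_zero, add_zero, smul_eq_mul, mul_one]
        exact CharTwo.add_self_eq_zero _
    have hdimV : Module.finrank (ZMod 2) V = 2 * n := by
      let f : W →ₗ[ZMod 2] (ZMod 2 × ZMod 2) := (β w₁).prod (β (a w₁))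
      have hker : LinearMap.ker f = V := LinearMap.ker_prod _ _
      have hsurj : LinearMap.range f = ⊤ := by
        rw [LinearMap.range_eq_top]
        rintro ⟨x, y⟩
        refine ⟨x • a w₁ + y • w₁, ?_⟩
        have e1 : β w₁ (x • a w₁ + y • w₁) = x := by
          rw [map_add, map_smul, map_smul, hw₁, alt, smul_zero, add_zero, smul_eq_mul, mul_one]
        have e2 : β (a w₁) (x • a w₁ + y • w₁) = y := by
          rw [map_add, map_smul, map_smul, alt, hβ1, smul_zero, zero_add, smul_eq_mul, mul_one]
        exact Prod.ext e1 e2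
      have h1 := LinearMap.finrank_range_add_finrank_ker f
      rw [hsurj, hker, finrank_top, Module.finrank_prod, Module.finrank_self, dim] at h1
      omega
    -- the form, the operator, the action on V
    let γ : V →ₗ[ZMod 2] V →ₗ[ZMod 2] ZMod 2 := (β.domRestrict₁₂ V V)
    have hγ : ∀ x y : V, γ x y = β x y := fun x y => rfl
    let ψ : Y →* Module.End (ZMod 2) V :=
      { toFun := fun g => (φ g).restrict (fun v hv => hgV g g.2 v hv)
        map_one' := by
          ext v
          change φ (1 : X) (v : W) = v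
          rw [map_one]; rfl
        map_mul' := by
          intro x y
          ext v
          change φ ((x : X) * y) (v : W) = φ x (φ y v)
          rw [map_mul]; rfl }
    have hψ : ∀ (g : Y) (v : V), ((ψ g v : V) : W) = φ g v := fun g v => rfl
    have h := ih Y V γ ψ (fun x => alt x) (by
      intro x hx
      apply Subtype.ext
      apply nondeg
      intro y
      have h1 := hx ⟨_, hdec y⟩
      rw [hγ] at h1
      have hx2 := (hV _).1 x.2
      simp only at h1
      rw [map_add, map_add, map_smul, map_smul, hsym (x : W) w₁, hsym (x : W) (a w₁), hx2.1, hx2.2, smul_zero,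
        smul_zero, add_zero, add_zero] at h1
      exact h1) hdimV (a.restrict haV) (fun w => Subtype.ext (ha w)) (fun x y => hinv x y) (by
      intro g hg
      apply Subtype.ext
      apply hinj
      intro w
      have hg1 : φ g w₁ = w₁ := g.2
      have h1 : φ (g : X) (w + (β (a w₁) w) • w₁ + (β w₁ w) • a w₁) = w + (β (a w₁) w) • w₁ + (β w₁ w) • a w₁ := by
        have := congrArg Subtype.val (hg ⟨_, hdec w⟩)
        exact this
      rw [map_add, map_add, map_smul, map_smul, hcomm, hg1] at h1
      exact add_right_cancel (add_right_cancel h1)) (fun g x y => hφ g x y) (fun g x => Subtype.ext (hcomm g x))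
    rw [Finset.prod_range_succ, mul_comm]
    exact hcard.trans (Nat.mul_le_mul_left _ h)

variable {X W : Type} [Group X] [Finite X] [AddCommGroup W] [Module (ZMod 2) W] [Finite W]
    {φ : X →* (W ≃ₗ[ZMod 2] W)} {β : W →ₗ[ZMod 2] W →ₗ[ZMod 2] ZMod 2}

theorem t3b (n : ℕ) (alt : ∀ x, β x x = 0) (nondeg : ∀ x, (∀ y, β x y = 0) → x = 0)
    (dim : Module.finrank (ZMod 2) W = 2 * n) (a : W →ₗ[ZMod 2] W)
    (ha : ∀ w, a (a w) + a w + w = 0) (hinv : ∀ x y, β (a x) (a y) = β x y)
    (hinj : Function.Injective φ) (hφ : ∀ g x y, β (φ g x) (φ g y) = β x y)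
    (hcomm : ∀ g x, φ g (a x) = a (φ g x))
    (hcount : ∀ (m : ℕ) (V : Type) [AddCommGroup V] [Module (ZMod 2) V] [Finite V]
      (γ : V →ₗ[ZMod 2] V →ₗ[ZMod 2] ZMod 2) (b : V →ₗ[ZMod 2] V), (∀ x, γ x x = 0) →
      (∀ x, (∀ y, γ x y = 0) → x = 0) → Module.finrank (ZMod 2) V = 2 * m →
      (∀ w, b (b w) + b w + w = 0) → (∀ x y, γ (b x) (b y) = γ x y) →
      Nat.card {w : V // γ w (b w) = 1} = N1 m) :
    Nat.card X ≤ ∏ i ∈ Finset.range n, N1 (i + 1) := by
  refine main hcount n X W β (LinearEquiv.automorphismGroup.toLinearMapMonoidHom.comp φ) alt nondeg dim a ha hinv ?_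
    (fun g x y => hφ g x y) (fun g x => hcomm g x)
  intro g hg
  apply hinj
  rw [map_one]
  ext w
  exact hg w

end Cfsg.Agent.Lib.H55T3b
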