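import Cfsg.Agent.Lib.H55KR3

/-! Piece T3c of S4265-PLAN (helper91) -/

set_option autoImplicit false
set_option linter.all false

namespace Cfsg.Agent.Lib.H55T3c

open Cfsg.Agent.Lib.H55KR

theorem t3c {X : Type} [Group X] [Finite X] (a : X) (ha : (orderOf a).Prime) (hn : (Subgroup.zpowers a).Normal) :
    Nat.card X ≤ (orderOf a - 1) * Nat.card (Subgroup.centralizer ({a} : Set X)) := by
  classical
  have h1 := Subgroup.card_mul_index (MulAction.stabilizer (ConjAct X) a)
  have h2 : Nat.card (ConjAct X) = Nat.card X := rfl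
  rw [← Subgroup.nat_card_centralizer_nat_card_stabilizer, MulAction.index_stabilizer, h2] at h1
  have h3 : (MulAction.orbit (ConjAct X) a).ncard ≤ orderOf a - 1 := by
    have hsub : MulAction.orbit (ConjAct X) a ⊆ ((Subgroup.zpowers a : Subgroup X) : Set X) \ {1} := by
      rintro _ ⟨g, rfl⟩
      refine ⟨?_, ?_⟩
      · exact hn.conj_mem a (Subgroup.mem_zpowers a) (ConjAct.ofConjAct g)
      · intro h
        have h4 : ConjAct.ofConjAct g * a * (ConjAct.ofConjAct g)⁻¹ = 1 := h
        have h5 : a = 1 := by
          have := congrArg (fun t => (ConjAct.ofConjAct g)⁻¹ * t * ConjAct.ofConjAct g) h4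
          simpa [mul_assoc] using this
        rw [h5, orderOf_one] at ha
        exact Nat.not_prime_one ha
    have h6 := Set.ncard_le_ncard hsub (Set.toFinite _)
    have h7 : (((Subgroup.zpowers a : Subgroup X) : Set X) \ {1}).ncard = orderOf a - 1 := by
      rw [Set.ncard_diff_singleton_of_mem (one_mem _), ← Nat.card_coe_set_eq]
      show Nat.card ↥(Subgroup.zpowers a) - 1 = _
      rw [Nat.card_zpowers]
    rw [h7] at h6
    exact h6
  rw [← h1, mul_comm]
  exact Nat.mul_le_mul_right _ h3

end Cfsg.Agent.Lib.H55T3c
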