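import Cfsg.Agent.Lib.H55KR3

/-! S4265, piece T3d: possible orders of fixed point free elements of prime order. -/

set_option autoImplicit false

namespace Cfsg.Agent.Lib.H55T3d
open Cfsg.Agent.Lib.H55KR

variable {X W : Type} [Group X] [Finite X] [AddCommGroup W] [Module (ZMod 2) W] [Finite W]
    {φ : X →* (W ≃ₗ[ZMod 2] W)} {β : W →ₗ[ZMod 2] W →ₗ[ZMod 2] ZMod 2}

theorem dvd_card (m : ℕ) (dim : Module.finrank (ZMod 2) W = 2 * m) (a : X) (ha : (orderOf a).Prime)
    (hfix : ∀ w, φ a w = w → w = 0) : orderOf a ∣ 2 ^ (2 * m) - 1 := by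
  have : Fact (orderOf a).Prime := ⟨ha⟩
  let _ : MulAction (Subgroup.zpowers a) W := MulAction.compHom W (φ.comp (Subgroup.zpowers a).subtype)
  have hsm : ∀ (g : Subgroup.zpowers a) (w : W), g • w = φ (g : X) w := fun g w => rfl
  have hp : IsPGroup (orderOf a) (Subgroup.zpowers a) := by
    apply IsPGroup.of_card (n := 1)
    rw [Nat.card_zpowers, pow_one]
  have h1 := hp.card_modEq_card_fixedPoints W
  have h2 : MulAction.fixedPoints (Subgroup.zpowers a) W = {0} := by
    ext w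
    rw [MulAction.mem_fixedPoints, Set.mem_singleton_iff]
    constructor
    · intro h
      exact hfix w (h ⟨a, Subgroup.mem_zpowers a⟩)
    · rintro rfl g
      rw [hsm, map_zero]
  have h3 : Nat.card W = 2 ^ (2 * m) := by
    have := Module.natCard_eq_pow_finrank (K := ZMod 2) (V := W)
    rw [this, dim, Nat.card_zmod]
  rw [h2, h3, show Nat.card ({0} : Set W) = 1 from Nat.card_unique] at h1
  exact (Nat.modEq_iff_dvd' Nat.one_le_two_pow).1 h1.symm

theorem t3d (m : ℕ) (dim : Module.finrank (ZMod 2) W = 2 * m) (a : X) (ha : (orderOf a).Prime)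
    (hfix : ∀ w, φ a w = w → w = 0) :
    (m = 2 → orderOf a = 3 ∨ orderOf a = 5) ∧ (m = 3 → orderOf a = 3 ∨ orderOf a = 7) ∧
    (m = 4 → orderOf a = 3 ∨ orderOf a = 5 ∨ orderOf a = 17) ∧
    (m = 5 → orderOf a = 3 ∨ orderOf a = 11 ∨ orderOf a = 31) := by
  have h := dvd_card (φ := φ) m dim a ha hfix
  have key : ∀ p : ℕ, p.Prime → orderOf a ∣ p → orderOf a = p := fun p hp hd =>
    (Nat.prime_dvd_prime_iff_eq ha hp).1 hd
  refine ⟨?_, ?_, ?_, ?_⟩
  · rintro rfl
    have h1 : orderOf a ∣ 3 * 5 := h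
    rcases (Nat.Prime.dvd_mul ha).1 h1 with h2 | h2
    · exact Or.inl (key _ (by norm_num) h2)
    · exact Or.inr (key _ (by norm_num) h2)
  · rintro rfl
    have h1 : orderOf a ∣ 3 * (3 * 7) := h
    rcases (Nat.Prime.dvd_mul ha).1 h1 with h2 | h2
    · exact Or.inl (key _ (by norm_num) h2)
    · rcases (Nat.Prime.dvd_mul ha).1 h2 with h2 | h2
      · exact Or.inl (key _ (by norm_num) h2)
      · exact Or.inr (key _ (by norm_num) h2)
  · rintro rfl
    have h1 : orderOf a ∣ 3 * (5 * 17) := h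
    rcases (Nat.Prime.dvd_mul ha).1 h1 with h2 | h2
    · exact Or.inl (key _ (by norm_num) h2)
    · rcases (Nat.Prime.dvd_mul ha).1 h2 with h2 | h2
      · exact Or.inr (Or.inl (key _ (by norm_num) h2))
      · exact Or.inr (Or.inr (key _ (by norm_num) h2))
  · rintro rfl
    have h1 : orderOf a ∣ 3 * (11 * 31) := h
    rcases (Nat.Prime.dvd_mul ha).1 h1 with h2 | h2
    · exact Or.inl (key _ (by norm_num) h2)
    · rcases (Nat.Prime.dvd_mul ha).1 h2 with h2 | h2
      · exact Or.inr (Or.inl (key _ (by norm_num) h2))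
      · exact Or.inr (Or.inr (key _ (by norm_num) h2))

end Cfsg.Agent.Lib.H55T3d
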