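import Cfsg.Agent.Lib.H55KR3
import Cfsg.Agent.Lib.H55T3c

/-! S4265, piece T4 (helper19) -/

set_option autoImplicit false
set_option linter.all false

namespace Cfsg.Agent.Lib.H55T4

open Cfsg.Agent.Lib.H55KR

variable {X W : Type} [Group X] [Finite X] [AddCommGroup W] [Module (ZMod 2) W] [Finite W]
    {φ : X →* (W ≃ₗ[ZMod 2] W)} {β : W →ₗ[ZMod 2] W →ₗ[ZMod 2] ZMod 2}

/-- an element of prime order `p` acting without fixed points on a subset: `p` divides its size -/
theorem free_dvd {p : ℕ} (hp : p.Prime) (a : X) (ha : a ^ p = 1) (P : W → Prop) (hP : ∀ w, P w → P (φ a w))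
    (hf : ∀ w, P w → φ a w = w → False) : p ∣ Nat.card {w : W // P w} := by
  classical
  haveI : Fact p.Prime := ⟨hp⟩
  haveI := Fintype.ofFinite {w : W // P w}
  let f : Function.End {w : W // P w} := fun w => ⟨φ a w.1, hP _ w.2⟩
  have hpow : ∀ (j : ℕ) (w : {w : W // P w}), ((f ^ j) w).1 = φ (a ^ j) w.1 := by
    intro j
    induction j with
    | zero => intro w; simp; rfl
    | succ j ih =>
      intro w
      have h1 : (f ^ (j + 1)) w = (f ^ j) (f w) := by rw [pow_succ]; rfl
      rw [h1, ih, pow_succ, map_mul]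
      rfl
  have hf1 : f ^ p ^ 1 = 1 := by
    rw [pow_one]
    funext w
    apply Subtype.ext
    rw [hpow, ha, map_one]
    rfl
  have hmod := Equiv.Perm.card_fixedPoints_modEq hf1
  have hfp : Fintype.card f.fixedPoints = 0 := by
    rw [Fintype.card_eq_zero_iff]
    constructor
    rintro ⟨w, hw⟩
    exact hf w.1 w.2 (congrArg Subtype.val hw)
  rw [hfp, ← Nat.card_eq_fintype_card] at hmod
  exact Nat.modEq_zero_iff_dvd.1 hmod

theorem card_ne_zero' : Nat.card {w : W // w ≠ 0} + 1 = Nat.card W := by
  classical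
  haveI := Fintype.ofFinite W
  rw [Nat.card_eq_fintype_card, Nat.card_eq_fintype_card, Fintype.card_subtype_compl, Fintype.card_subtype_eq]
  have : 0 < Fintype.card W := Fintype.card_pos
  omega

theorem t4 (h : SF 2 2 X W φ β) (a : X) (ha : orderOf a = 5) (hn : (Subgroup.zpowers a).Normal)
    (hfix : ∀ w, φ a w = w → w = 0)
    (hcount : ∀ (b : W →ₗ[ZMod 2] W), (∀ w, b (b w) + b w + w = 0) → (∀ x y, β (b x) (b y) = β x y) →
      Nat.card {w : W // β w (b w) = 1} = 6) : Nat.card X ≤ 20 := by
  classical
  have h5 : Nat.Prime 5 := by norm_num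
  have hcW : Nat.card W = 16 := by
    haveI := Fintype.ofFinite W
    have h1 := Module.card_eq_pow_finrank (K := ZMod 2) (V := W)
    rw [h.dim, ZMod.card] at h1
    rw [Nat.card_eq_fintype_card, h1]; norm_num
  have hc0 : Nat.card {w : W // w ≠ 0} = 15 := by
    have := card_ne_zero' (W := W); omega
  have ha5 : a ^ 5 = 1 := by rw [← ha]; exact pow_orderOf_eq_one a
  set C := Subgroup.centralizer ({a} : Set X) with hC
  -- semiregularity of `C`
  have hsemi : ∀ c ∈ C, ∀ w : W, w ≠ 0 → φ c w = w → c = 1 := by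
    intro c hc w hw hcw
    have hca : c * a = a * c := by
      rw [hC, Subgroup.mem_centralizer_singleton_iff] at hc
      first | exact hc | exact hc.symm
    -- the fixed space
    let F : Submodule (ZMod 2) W := LinearMap.ker ((φ c : W →ₗ[ZMod 2] W) - LinearMap.id)
    have hF : ∀ v, v ∈ F ↔ φ c v = v := by
      intro v
      rw [LinearMap.mem_ker, LinearMap.sub_apply, LinearMap.id_apply, sub_eq_zero]
      rfl
    have hFa : ∀ v, v ∈ F → φ a v ∈ F := by
      intro v hv
      rw [hF] at hv ⊢
      have h1 : φ c (φ a v) = φ (c * a) v := by rw [map_mul]; rfl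
      rw [h1, hca, map_mul]
      change φ a (φ c v) = _
      rw [hv]
    have h1 : 5 ∣ Nat.card {v : W // v ∈ F ∧ v ≠ 0} := by
      refine free_dvd (φ := φ) h5 a ha5 _ ?_ ?_
      · rintro v ⟨h1, h2⟩
        refine ⟨hFa v h1, ?_⟩
        intro h3
        exact h2 (by simpa using h3)
      · rintro v ⟨h1, h2⟩ h3
        exact h2 (hfix v h3)
    have h2 : Nat.card {v : W // v ∈ F ∧ v ≠ 0} + 1 = Nat.card F := by
      rw [← card_ne_zero' (W := F)]
      congr 1
      refine Nat.card_congr ⟨fun v => ⟨⟨v.1, v.2.1⟩, fun h => v.2.2 (congrArg Subtype.val h)⟩,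
        fun v => ⟨v.1.1, v.1.2, fun h => v.2 (Subtype.ext h)⟩, fun v => rfl, fun v => rfl⟩
    have h3 : ∃ k, Nat.card F = 2 ^ k := by
      haveI := Fintype.ofFinite F
      refine ⟨Module.finrank (ZMod 2) F, ?_⟩
      rw [Nat.card_eq_fintype_card, Module.card_eq_pow_finrank (K := ZMod 2) (V := F), ZMod.card]
    obtain ⟨k, hk⟩ := h3
    have hk4 : k ≤ 4 := by
      have h4 : Nat.card F ≤ Nat.card W := Nat.card_le_card_of_injective _ (Subtype.val_injective)
      rw [hk, hcW] at h4
      by_contra hlt
      have : 2 ^ 5 ≤ 2 ^ k := Nat.pow_le_pow_right (by norm_num) (by omega)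
      omega
    obtain ⟨q, hq⟩ := h1
    have hkk : k = 0 ∨ k = 4 := by
      rw [hk, hq] at h2
      interval_cases k <;> first | (left; rfl) | (right; rfl) | (exfalso; norm_num at h2; omega)
    rcases hkk with hk0 | hk0
    · exfalso
      rw [hk0, pow_zero] at hk
      haveI : Subsingleton F := (Nat.card_eq_one_iff_unique.1 hk).1
      have h4 : (⟨w, (hF w).2 hcw⟩ : F) = 0 := Subsingleton.elim _ _
      exact hw (congrArg Subtype.val h4)
    · have h4 : F = ⊤ := by
        have h5 : (F : Set W) = Set.univ := by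
          apply Set.eq_of_subset_of_ncard_le (Set.subset_univ _)
          rw [Set.ncard_univ, hcW]
          have : (F : Set W).ncard = Nat.card F := rfl
          rw [this, hk, hk0]
          norm_num
        exact SetLike.coe_injective (by rw [h5]; rfl)
      apply h.inj
      rw [map_one]
      ext v
      have : v ∈ F := by rw [h4]; trivial
      exact (hF v).1 this
  -- `|C| ≤ 15`
  have hle : Nat.card C ≤ 15 := by
    obtain ⟨⟨w, hw⟩⟩ : Nonempty {w : W // w ≠ 0} := by
      apply (Nat.card_pos_iff.1 (by rw [hc0]; norm_num)).1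
    rw [← hc0]
    refine Nat.card_le_card_of_injective (fun c : C => (⟨φ c.1 w, fun h => hw (by simpa using h)⟩ : {w : W // w ≠ 0})) ?_
    intro c d hcd
    have h1 : φ c.1 w = φ d.1 w := congrArg Subtype.val hcd
    have h2 : φ (d.1⁻¹ * c.1) w = w := by
      rw [map_mul]
      change φ d.1⁻¹ (φ c.1 w) = w
      rw [h1]
      change (φ d.1⁻¹ * φ d.1) w = w
      rw [← map_mul, inv_mul_cancel, map_one]; rfl
    have h3 := hsemi _ (C.mul_mem (C.inv_mem d.2) c.2) w hw h2
    exact Subtype.ext (inv_mul_eq_one.1 h3).symm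
  -- only the prime five
  have hpr : ∀ {p : ℕ}, p.Prime → p ∣ Nat.card C → p = 5 := by
    intro p hp hpd
    haveI : Fact p.Prime := ⟨hp⟩
    obtain ⟨c, hc⟩ := exists_prime_orderOf_dvd_card' p hpd
    have hcp : (c : X) ^ p = 1 := by
      have := pow_orderOf_eq_one c
      rw [hc] at this
      exact_mod_cast this
    have hc1 : (c : X) ≠ 1 := by
      intro h1
      have : c = 1 := Subtype.ext h1
      rw [this, orderOf_one] at hc
      exact hp.one_lt.ne hc
    have hcf : ∀ w : W, φ (c : X) w = w → w = 0 := by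
      intro w hw
      by_contra hne
      exact hc1 (hsemi c c.2 w hne hw)
    have h1 : p ∣ 15 := by
      rw [← hc0]
      refine free_dvd (φ := φ) hp c hcp _ ?_ ?_
      · intro v hv h2; exact hv (by simpa using h2)
      · intro v hv h2; exact hv (hcf v h2)
    have h2 : p = 3 ∨ p = 5 := by
      have h3 : p ∣ 3 * 5 := by norm_num; exact h1
      rcases (Nat.Prime.dvd_mul hp).1 h3 with h4 | h4
      · left; exact (Nat.prime_dvd_prime_iff_eq hp Nat.prime_three).1 h4
      · right; exact (Nat.prime_dvd_prime_iff_eq hp h5).1 h4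
    rcases h2 with h2 | h2
    · exfalso
      subst h2
      -- `c² + c + 1 = 0`
      have hquad : ∀ w, φ (c : X) (φ (c : X) w) + φ (c : X) w + w = 0 := by
        intro w
        apply hcf
        have h3 : φ (c : X) (φ (c : X) (φ (c : X) w)) = w := by
          change (φ (c : X) * φ (c : X) * φ (c : X)) w = w
          rw [← map_mul, ← map_mul]
          have : (c : X) * c * c = 1 := by rw [← hcp, pow_succ, pow_two]
          rw [this, map_one]; rfl
        rw [map_add, map_add, h3]
        abel
      have h6 := hcount (φ (c : X) : W →ₗ[ZMod 2] W) hquad (fun x y => h.inv c x y)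
      have hca : (c : X) * a = a * c := by
        have h9 : (c : X) ∈ Subgroup.centralizer ({a} : Set X) := c.2
        rw [Subgroup.mem_centralizer_singleton_iff] at h9
        first | exact h9 | exact h9.symm
      have h7 : 5 ∣ Nat.card {w : W // β w ((φ (c : X) : W →ₗ[ZMod 2] W) w) = 1} := by
        refine free_dvd (φ := φ) h5 a ha5 _ ?_ ?_
        · intro w hw
          have h8 : φ (c : X) (φ a w) = φ a (φ (c : X) w) := by
            change (φ (c : X) * φ a) w = (φ a * φ (c : X)) w
            rw [← map_mul, ← map_mul, hca]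
          change β (φ a w) (φ (c : X) (φ a w)) = 1
          rw [h8, h.inv]
          exact hw
        · intro w hw h8
          have := hfix w h8
          rw [this] at hw
          simp at hw
      rw [h6] at h7
      omega
    · exact h2
  have hC5 : Nat.card C ≤ 5 := by
    have h1 := Nat.eq_prime_pow_of_unique_prime_dvd (n := Nat.card C) (p := 5) (Nat.card_pos.ne') (fun {d} hd hdd => hpr hd hdd)
    set e := (Nat.card C).primeFactorsList.length
    rw [h1] at hle ⊢
    have : e ≤ 1 := by
      by_contra hcon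
      have : 5 ^ 2 ≤ 5 ^ e := Nat.pow_le_pow_right (by norm_num) (by omega)
      omega
    calc 5 ^ e ≤ 5 ^ 1 := Nat.pow_le_pow_right (by norm_num) this
      _ = 5 := by norm_num
  have h1 := H55T3c.t3c a (by rw [ha]; exact h5) hn
  rw [ha] at h1
  calc Nat.card X ≤ (5 - 1) * Nat.card C := h1
    _ ≤ (5 - 1) * 5 := Nat.mul_le_mul_left _ hC5
    _ = 20 := by norm_num

end Cfsg.Agent.Lib.H55T4
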