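import Cfsg.Agent.Lib.H55KR3

set_option autoImplicit false
set_option linter.all false

namespace Cfsg.Agent.Lib.H55T5

open Cfsg.Agent.Lib.H55KR

/-- class equation bound -/
theorem two_classes_le {X : Type} [Group X] [Finite X] :
    2 * Nat.card (ConjClasses X) ≤ Nat.card X + Nat.card (Subgroup.center X) := by
  classical
  have h0 : 0 < Nat.card X := Nat.card_pos
  have h1 := card_comm_eq_card_conjClasses_mul_card X
  -- sum over g of |C(g)|
  haveI := Fintype.ofFinite X
  have h2 : Nat.card {p : X × X // Commute p.1 p.2} = ∑ g : X, Nat.card (Subgroup.centralizer ({g} : Set X)) := by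
    have e : {p : X × X // Commute p.1 p.2} ≃ Σ g : X, Subgroup.centralizer ({g} : Set X) :=
      { toFun := fun p => ⟨p.1.1, ⟨p.1.2, by
          rw [Subgroup.mem_centralizer_singleton_iff]
          exact p.2.eq.symm⟩⟩
        invFun := fun s => ⟨(s.1, s.2.1), by
          have := s.2.2
          rw [Subgroup.mem_centralizer_singleton_iff] at this
          exact this.symm⟩
        left_inv := fun p => rfl
        right_inv := fun s => rfl }
    rw [Nat.card_congr e, Nat.card_sigma]
  have h3 : ∀ g : X, 2 * Nat.card (Subgroup.centralizer ({g} : Set X)) ≤ Nat.card X + (if g ∈ Subgroup.center X then Nat.card X else 0) := by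
    intro g
    have h4 := (Subgroup.centralizer ({g} : Set X)).card_mul_index
    split_ifs with hg
    · have := Subgroup.card_le_card_group (Subgroup.centralizer ({g} : Set X))
      omega
    · have h5 : (Subgroup.centralizer ({g} : Set X)).index ≠ 1 := by
        intro h6
        rw [Subgroup.index_eq_one] at h6
        apply hg
        rw [Subgroup.mem_center_iff]
        intro x
        have : x ∈ Subgroup.centralizer ({g} : Set X) := by rw [h6]; trivial
        rwa [Subgroup.mem_centralizer_singleton_iff] at this
      have h6 : (Subgroup.centralizer ({g} : Set X)).index ≠ 0 := Subgroup.index_ne_zero_of_finite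
      have h7 : 2 ≤ (Subgroup.centralizer ({g} : Set X)).index := by omega
      nlinarith
  have h4 : 2 * (Nat.card (ConjClasses X) * Nat.card X) ≤ Nat.card X * Nat.card X + Nat.card (Subgroup.center X) * Nat.card X := by
    rw [← h1, h2, Finset.mul_sum]
    refine (Finset.sum_le_sum (fun g _ => h3 g)).trans ?_
    rw [Finset.sum_add_distrib, Finset.sum_const, Finset.card_univ, ← Nat.card_eq_fintype_card, smul_eq_mul]
    apply Nat.add_le_add_left
    rw [← Finset.sum_filter, Finset.sum_const, smul_eq_mul]
    apply Nat.mul_le_mul_right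
    rw [Nat.card_eq_fintype_card, Fintype.card_subtype]
  have h5 : (2 * Nat.card (ConjClasses X)) * Nat.card X ≤ (Nat.card X + Nat.card (Subgroup.center X)) * Nat.card X := by
    nlinarith
  exact Nat.le_of_mul_le_mul_right h5 h0

theorem card_classes_le {Y : Type} [Group Y] [Finite Y] : Nat.card (ConjClasses Y) ≤ Nat.card Y :=
  Nat.card_le_card_of_surjective ConjClasses.mk ConjClasses.mk_surjective

variable {X W : Type} [Group X] [Finite X] [AddCommGroup W] [Module (ZMod 2) W] [Finite W]
    {φ : X →* (W ≃ₗ[ZMod 2] W)} {β : W →ₗ[ZMod 2] W →ₗ[ZMod 2] ZMod 2}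

/-- abelian irreducible groups are semiregular -/
theorem abelian_le (hinj : Function.Injective φ) (hirr : Irr 2 φ) (hd : Module.finrank (ZMod 2) W = 4)
    (hab : ∀ x y : X, x * y = y * x) : Nat.card X ≤ 15 := by
  haveI : Fact (Nat.Prime 2) := ⟨Nat.prime_two⟩
  haveI : Module.Finite (ZMod 2) W := Module.Finite.of_finite
  have hcard : Nat.card W = 16 := by
    have := Module.natCard_eq_pow_finrank (K := ZMod 2) (V := W)
    rw [this, hd]; simp
  haveI : Nontrivial W := by
    rw [← Finite.one_lt_card_iff_nontrivial, hcard]; norm_num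
  obtain ⟨w, hw⟩ := exists_ne (0 : W)
  have hfree : ∀ x : X, φ x w = w → x = 1 := by
    intro x hx
    let U : Submodule (ZMod 2) W := LinearMap.ker ((φ x : W →ₗ[ZMod 2] W) - LinearMap.id)
    have hU : ∀ v, v ∈ U ↔ φ x v = v := by
      intro v
      rw [LinearMap.mem_ker, LinearMap.sub_apply, sub_eq_zero]
      rfl
    rcases hirr U (by
      intro g v hv
      rw [hU] at hv ⊢
      have : φ x (φ g v) = φ (x * g) v := by rw [map_mul]; rfl
      rw [this, hab, map_mul]
      show φ g (φ x v) = φ g v
      rw [hv]) with h | h
    · exfalso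
      have : w ∈ U := (hU w).2 hx
      rw [h, Submodule.mem_bot] at this
      exact hw this
    · apply hinj
      rw [map_one]
      apply LinearEquiv.ext
      intro v
      have : v ∈ U := by rw [h]; trivial
      exact (hU v).1 this
  have hinj2 : Function.Injective (fun x : X => (⟨φ x w, by
      intro h0
      apply hw
      exact (φ x).injective (by rw [h0, map_zero])⟩ : {v : W // v ≠ 0})) := by
    intro x y hxy
    have h1 : φ x w = φ y w := congrArg Subtype.val hxy
    have h2 : φ (y⁻¹ * x) w = w := by
      rw [map_mul, map_inv]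
      show (φ y)⁻¹ (φ x w) = w
      rw [h1]
      exact (φ y).symm_apply_apply w
    have := hfree _ h2
    exact (inv_mul_eq_one.1 this).symm
  have h1 := Nat.card_le_card_of_injective _ hinj2
  have h2 : Nat.card {v : W // v ≠ 0} = 15 := by
    haveI := Fintype.ofFinite W
    classical
    have h3 := Fintype.card_subtype_compl (fun v : W => v = 0)
    rw [Nat.card_eq_fintype_card]
    rw [Nat.card_eq_fintype_card] at hcard
    have h4 : Fintype.card {v : W // v = 0} = 1 := Fintype.card_subtype_eq 0
    rw [hcard, h4] at h3
    convert h3 using 1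
  omega

theorem t5 (h : SF 2 2 X W φ β) (hirr : Irr 2 φ) (hc : Nat.card X ≤ 36) : KB X 27 := by
  intro Y
  by_cases h27 : Nat.card Y ≤ 27
  · exact card_classes_le.trans h27
  push Not at h27
  have h1 := Y.card_mul_index
  have h0 : 0 < Nat.card X := Nat.card_pos
  have hidx : Y.index = 1 := by
    have h2 : Y.index < 2 := by
      by_contra h3
      push Not at h3
      nlinarith
    have h3 : Y.index ≠ 0 := Subgroup.index_ne_zero_of_finite
    omega
  have hY : Y = ⊤ := Subgroup.index_eq_one.1 hidx
  subst hY
  by_cases hab : ∀ x y : X, x * y = y * x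
  · exfalso
    have h4 := abelian_le h.inj hirr h.dim hab
    rw [Subgroup.card_top] at h27
    omega
  · have h2 := two_classes_le (X := (⊤ : Subgroup X))
    have h3 : 2 * Nat.card (Subgroup.center (⊤ : Subgroup X)) ≤ Nat.card (⊤ : Subgroup X) := by
      have h4 := (Subgroup.center (⊤ : Subgroup X)).card_mul_index
      have h5 : (Subgroup.center (⊤ : Subgroup X)).index ≠ 1 := by
        intro h6
        rw [Subgroup.index_eq_one] at h6
        apply hab
        intro x y
        have h7 : (⟨x, trivial⟩ : (⊤ : Subgroup X)) ∈ Subgroup.center (⊤ : Subgroup X) := by rw [h6]; trivial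
        rw [Subgroup.mem_center_iff] at h7
        exact (congrArg Subtype.val (h7 ⟨y, trivial⟩)).symm
      have h6 : (Subgroup.center (⊤ : Subgroup X)).index ≠ 0 := Subgroup.index_ne_zero_of_finite
      have h7 : 2 ≤ (Subgroup.center (⊤ : Subgroup X)).index := by omega
      nlinarith
    rw [Subgroup.card_top] at h2 h3
    omega

end Cfsg.Agent.Lib.H55T5
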