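import Cfsg.Agent.Lib.H55KR3

/-! S4265, piece T6 (helper45) -/

set_option autoImplicit false
set_option linter.unusedSectionVars false

namespace Cfsg.Agent.Lib.H55T6

open Cfsg.Agent.Lib.H55KR

section idx
variable {X : Type} [Group X] [Finite X]

theorem index_le (a : X) (ha : orderOf a = 7) (hn : (Subgroup.zpowers a).Normal) :
    (Subgroup.centralizer ({a} : Set X)).index ≤ 6 := by
  have h1 : ((Subgroup.zpowers a : Set X) \ {1}).ncard = 6 := by
    have h2 : (Subgroup.zpowers a : Set X).ncard = 7 := by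
      rw [← Nat.card_coe_set_eq]
      exact (Nat.card_zpowers a).trans ha
    have h3 := Set.ncard_sdiff_singleton_add_one (s := (Subgroup.zpowers a : Set X)) (a := 1) (one_mem _) (Set.toFinite _)
    omega
  rw [← h1, ← Nat.card_coe_set_eq]
  show Nat.card (X ⧸ Subgroup.centralizer ({a} : Set X)) ≤ _
  have ha1 : a ≠ 1 := by
    rintro rfl
    rw [orderOf_one] at ha
    omega
  refine Nat.card_le_card_of_injective (fun q => (⟨q.out * a * q.out⁻¹, hn.conj_mem a (Subgroup.mem_zpowers a) _, ?_⟩ :
    ((Subgroup.zpowers a : Set X) \ {1} : Set X))) ?_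
  · intro h
    rw [Set.mem_singleton_iff, mul_inv_eq_one] at h
    exact ha1 (mul_left_cancel (h.trans (mul_one _).symm))
  · intro q q' h
    have h3 : q.out * a * q.out⁻¹ = q'.out * a * q'.out⁻¹ := congrArg Subtype.val h
    have h4 : (q'.out)⁻¹ * q.out ∈ Subgroup.centralizer ({a} : Set X) := by
      rw [Subgroup.mem_centralizer_iff]
      intro y hy
      rw [Set.mem_singleton_iff.1 hy]
      have h5 : q.out * a = q'.out * a * q'.out⁻¹ * q.out := by rw [← h3]; group
      calc a * ((q'.out)⁻¹ * q.out) = (q'.out)⁻¹ * (q'.out * a * q'.out⁻¹ * q.out) := by group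
        _ = (q'.out)⁻¹ * q.out * a := by rw [← h5]; group
    rw [← QuotientGroup.out_eq' q, ← QuotientGroup.out_eq' q']
    exact (QuotientGroup.eq.2 h4).symm
end idx

variable {X W : Type} [Group X] [Finite X] [AddCommGroup W] [Module (ZMod 2) W] [Finite W]
    {φ : X →* (W ≃ₗ[ZMod 2] W)} {β : W →ₗ[ZMod 2] W →ₗ[ZMod 2] ZMod 2}

theorem two (x : W) : x + x = 0 := ZModModule.add_self x

theorem eq_of_add {x y : W} (h : x + y = 0) : x = y := by
  have : y = -x := (neg_eq_of_add_eq_zero_right h).symm
  rw [this]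
  exact eq_neg_of_add_eq_zero_left (two x)

/-- three independent vectors -/
theorem three (A : W →ₗ[ZMod 2] W) (h7 : ∀ v, A (A (A (A (A (A (A v)))))) = v) (hfix : ∀ v, A v = v → v = 0)
    {v : W} (hv : v ≠ 0) (U : Submodule (ZMod 2) W) (hU : ∀ u ∈ U, A u ∈ U) (hvU : v ∈ U) :
    3 ≤ Module.finrank (ZMod 2) U := by
  have hli : LinearIndependent (ZMod 2) ![(⟨v, hvU⟩ : U), ⟨A v, hU _ hvU⟩, ⟨A (A v), hU _ (hU _ hvU)⟩] := by
    rw [Fintype.linearIndependent_iff]
    intro g hg
    rw [Fin.sum_univ_three] at hg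
    have hg' : g 0 • v + g 1 • A v + g 2 • A (A v) = 0 := by
      have := congrArg Subtype.val hg
      simpa using this
    have key : ∀ x y z : ZMod 2, x • v + y • A v + z • A (A v) = 0 → x = 0 ∧ y = 0 ∧ z = 0 := by
      intro x y z
      have c2 : A (A v) = v → False := by
        intro h
        have h1 := h7 v
        rw [h, h, h] at h1
        exact hv (hfix v h1)
      have c3 : A (A (A v)) = v → False := by
        intro h
        have h1 := h7 v
        rw [h, h] at h1
        exact hv (hfix v h1)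
      have hz : ∀ t : ZMod 2, t = 0 ∨ t = 1 := by decide
      intro h
      rcases hz x with rfl | rfl <;> rcases hz y with rfl | rfl <;> rcases hz z with rfl | rfl <;>
        simp only [zero_smul, one_smul, zero_add, add_zero] at h
      · exact ⟨rfl, rfl, rfl⟩
      · exfalso
        have h1 := h7 v
        rw [h] at h1
        simp at h1
        exact hv h1.symm
      · exfalso
        have h1 := h7 v
        rw [h] at h1
        simp at h1
        exact hv h1.symm
      · exfalso
        have h3 := hfix _ (eq_of_add h).symm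
        have h1 := h7 v
        rw [h3] at h1
        simp at h1
        exact hv h1.symm
      · exact absurd h hv
      · exact absurd (eq_of_add h).symm (fun h' => c2 h')
      · exact absurd (hfix v (eq_of_add h).symm) hv
      · exfalso
        have h3 : v + A v = A (A v) := eq_of_add h
        have h4 : A (A (A v)) = v := by
          rw [← h3, map_add, ← h3]
          calc A v + (v + A v) = v + (A v + A v) := by abel
            _ = v := by rw [two, add_zero]
        exact c3 h4
    obtain ⟨h0, h1, h2⟩ := key _ _ _ hg'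
    intro i
    fin_cases i
    · exact h0
    · exact h1
    · exact h2
  have := hli.fintype_card_le_finrank
  simpa using this

theorem t6 (h : SF 2 3 X W φ β) (a : X) (ha : orderOf a = 7) (hn : (Subgroup.zpowers a).Normal)
    (hfix : ∀ w, φ a w = w → w = 0) : Nat.card X ≤ 2187 := by
  classical
  have hfd : FiniteDimensional (ZMod 2) W := Module.Finite.of_finite
  let A : W →ₗ[ZMod 2] W := (φ a : W →ₗ[ZMod 2] W)
  have hA : ∀ v, A v = φ a v := fun _ => rfl
  have h7 : ∀ v, A (A (A (A (A (A (A v)))))) = v := by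
    intro v
    have h1 : (φ a) ^ 7 = 1 := by rw [← map_pow, ← ha, pow_orderOf_eq_one, map_one]
    have h2 : ((φ a) ^ 7) v = v := by rw [h1]; rfl
    exact h2
  have hfix' : ∀ v, A v = v → v = 0 := hfix
  have h0 : ∀ v, A v = 0 → v = 0 := fun v hv => (φ a).map_eq_zero_iff.1 hv
  have hinv : ∀ x y, β (A x) (A y) = β x y := fun x y => h.inv a x y
  have hdim : Module.finrank (ZMod 2) W = 6 := h.dim
  -- symmetry of `β`
  have hsym : ∀ x y, β x y = β y x := by
    intro x y
    have h1 := h.alt (x + y)
    rw [map_add β, LinearMap.add_apply, map_add (β x), map_add (β y), h.alt, h.alt, zero_add, add_zero] at h1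
    exact eq_of_add (W := ZMod 2) h1
  let f : W →ₗ[ZMod 2] W := A ∘ₗ A ∘ₗ A + A + LinearMap.id
  let f' : W →ₗ[ZMod 2] W := A ∘ₗ A ∘ₗ A + A ∘ₗ A + LinearMap.id
  have hf : ∀ v, f v = A (A (A v)) + A v + v := fun _ => rfl
  have hf' : ∀ v, f' v = A (A (A v)) + A (A v) + v := fun _ => rfl
  have hcop : ∀ v, f v = 0 → f' v = 0 → v = 0 := by
    intro v h1 h2
    rw [hf] at h1
    rw [hf'] at h2
    have h3 : A (A v) = A v := by
      have h4 : A (A (A v)) + A v + v + (A (A (A v)) + A (A v) + v) = 0 := by rw [h1, h2, add_zero]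
      have h5 : A v + A (A v) = 0 := by
        calc A v + A (A v) = (A (A (A v)) + A (A (A v))) + (v + v) + (A v + A (A v)) := by rw [two, two, zero_add, zero_add]
          _ = A (A (A v)) + A v + v + (A (A (A v)) + A (A v) + v) := by abel
          _ = 0 := h4
      exact (eq_of_add h5).symm
    exact h0 v (hfix' _ h3)
  have hff : ∀ v, f (f' v) = 0 := by
    intro v
    have h1 : f (f' v) = v + A v + A (A v) + A (A (A v)) + A (A (A (A v))) + A (A (A (A (A v)))) + A (A (A (A (A (A v))))) +
        (A (A (A v)) + A (A (A v))) := by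
      rw [hf, hf']
      simp only [map_add]
      abel
    rw [h1, two, add_zero]
    apply hfix'
    simp only [map_add, h7]
    abel
  have hff' : ∀ v, f' (f v) = 0 := by
    intro v
    have h1 : f' (f v) = v + A v + A (A v) + A (A (A v)) + A (A (A (A v))) + A (A (A (A (A v)))) + A (A (A (A (A (A v))))) +
        (A (A (A v)) + A (A (A v))) := by
      rw [hf', hf]
      simp only [map_add]
      abel
    rw [h1, two, add_zero]
    apply hfix'
    simp only [map_add, h7]
    abel
  -- neither is zero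
  have hne : ∃ x : W, x ≠ 0 := by
    by_contra hno
    have : Subsingleton W := ⟨fun x y => by
      rw [not_exists] at hno
      rw [not_not.1 (hno x), not_not.1 (hno y)]⟩
    rw [Module.finrank_zero_of_subsingleton] at hdim
    omega
  obtain ⟨x0, hx0⟩ := hne
  have adj1 : (∀ v, f v = 0) → ∀ v, f' v = 0 := by
    intro h1 y
    apply h.nondeg
    intro x
    rw [hsym]
    have h2 : β (f x) (A (A (A y))) = 0 := by rw [h1, map_zero, LinearMap.zero_apply]
    rw [hf, map_add, map_add, LinearMap.add_apply, LinearMap.add_apply, hinv, hinv, hinv, hinv] at h2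
    rw [hf', map_add, map_add]
    rw [← h2]
    ring
  have adj2 : (∀ v, f' v = 0) → ∀ v, f v = 0 := by
    intro h1 y
    apply h.nondeg
    intro x
    rw [hsym]
    have h2 : β (f' x) (A (A (A y))) = 0 := by rw [h1, map_zero, LinearMap.zero_apply]
    rw [hf', map_add, map_add, LinearMap.add_apply, LinearMap.add_apply, hinv, hinv, hinv, hinv, hinv] at h2
    rw [hf, map_add, map_add]
    rw [← h2]
    ring
  obtain ⟨x1, hx1⟩ : ∃ x, f x ≠ 0 := by
    by_contra hno
    rw [not_exists] at hno
    have h1 : ∀ v, f v = 0 := fun v => not_not.1 (hno v)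
    exact hx0 (hcop x0 (h1 x0) (adj1 h1 x0))
  obtain ⟨x2, hx2⟩ : ∃ x, f' x ≠ 0 := by
    by_contra hno
    rw [not_exists] at hno
    have h1 : ∀ v, f' v = 0 := fun v => not_not.1 (hno v)
    exact hx0 (hcop x0 (adj2 h1 x0) (h1 x0))
  obtain ⟨w, hw1, hw2⟩ : ∃ w, f w ≠ 0 ∧ f' w ≠ 0 := by
    by_cases h1 : f' x1 = 0
    · by_cases h2 : f x2 = 0
      · refine ⟨x1 + x2, ?_, ?_⟩
        · rwa [map_add, h2, add_zero]
        · rwa [map_add, h1, zero_add]
      · exact ⟨x2, h2, hx2⟩
    · exact ⟨x1, hx1, h1⟩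
  -- the centralizer acts semiregularly on `w`
  have hinj : ∀ c ∈ Subgroup.centralizer ({a} : Set X), φ c w = w → c = 1 := by
    intro c hc hcw
    have hca : ∀ v, φ c (A v) = A (φ c v) := by
      intro v
      have h1 : a * c = c * a := (Subgroup.mem_centralizer_iff.1 hc) a (Set.mem_singleton a)
      have h2 : φ (a * c) v = φ (c * a) v := by rw [h1]
      rw [map_mul, map_mul] at h2
      exact h2.symm
    let N : Submodule (ZMod 2) W := LinearMap.ker ((φ c : W →ₗ[ZMod 2] W) - LinearMap.id)
    have hN : ∀ v, v ∈ N ↔ φ c v = v := by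
      intro v
      rw [LinearMap.mem_ker, LinearMap.sub_apply, LinearMap.id_apply, sub_eq_zero]
      rfl
    have hNA : ∀ v ∈ N, A v ∈ N := by
      intro v hv
      rw [hN] at hv ⊢
      rw [hca, hv]
    have hwN : w ∈ N := (hN w).2 hcw
    have hfN : ∀ v ∈ N, f v ∈ N := fun v hv => by
      rw [hf]
      exact N.add_mem (N.add_mem (hNA _ (hNA _ (hNA _ hv))) (hNA _ hv)) hv
    have hf'N : ∀ v ∈ N, f' v ∈ N := fun v hv => by
      rw [hf']
      exact N.add_mem (N.add_mem (hNA _ (hNA _ (hNA _ hv))) (hNA _ (hNA _ hv))) hv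
    have hA1 : ∀ v, f v = 0 → f (A v) = 0 := by
      intro v hv
      have : f (A v) = A (f v) := by rw [hf, hf]; simp only [map_add]
      rw [this, hv, map_zero]
    have hA2 : ∀ v, f' v = 0 → f' (A v) = 0 := by
      intro v hv
      have : f' (A v) = A (f' v) := by rw [hf', hf']; simp only [map_add]
      rw [this, hv, map_zero]
    have d1 := three A h7 hfix' hw2 (N ⊓ LinearMap.ker f) (fun u hu => ⟨hNA _ hu.1, LinearMap.mem_ker.2 (hA1 _ (LinearMap.mem_ker.1 hu.2))⟩)
      ⟨hf'N _ hwN, LinearMap.mem_ker.2 (hff w)⟩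
    have d2 := three A h7 hfix' hw1 (N ⊓ LinearMap.ker f') (fun u hu => ⟨hNA _ hu.1, LinearMap.mem_ker.2 (hA2 _ (LinearMap.mem_ker.1 hu.2))⟩)
      ⟨hfN _ hwN, LinearMap.mem_ker.2 (hff' w)⟩
    have d3 : (N ⊓ LinearMap.ker f) ⊓ (N ⊓ LinearMap.ker f') = ⊥ := by
      rw [eq_bot_iff]
      rintro v ⟨hv1, hv2⟩
      exact (Submodule.mem_bot _).2 (hcop v (LinearMap.mem_ker.1 hv1.2) (LinearMap.mem_ker.1 hv2.2))
    have d4 := Submodule.finrank_sup_add_finrank_inf_eq (N ⊓ LinearMap.ker f) (N ⊓ LinearMap.ker f')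
    rw [d3, finrank_bot, add_zero] at d4
    have d5 : Module.finrank (ZMod 2) ((N ⊓ LinearMap.ker f) ⊔ (N ⊓ LinearMap.ker f') : Submodule (ZMod 2) W) ≤ Module.finrank (ZMod 2) N :=
      Submodule.finrank_mono (sup_le inf_le_left inf_le_left)
    have d6 : N = ⊤ := by
      apply Submodule.eq_top_of_finrank_eq
      have := Submodule.finrank_le N
      omega
    apply h.inj
    rw [map_one]
    ext v
    have : v ∈ N := by rw [d6]; exact Submodule.mem_top
    exact (hN v).1 this
  have hcard : Nat.card (Subgroup.centralizer ({a} : Set X)) ≤ 64 := by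
    have h1 : Nat.card W = 64 := by
      rw [Module.natCard_eq_pow_finrank (K := ZMod 2), hdim, Nat.card_zmod]
      norm_num
    rw [← h1]
    refine Nat.card_le_card_of_injective (fun c => φ (c : X) w) ?_
    intro c c' hcc
    have h2 : φ ((c' : X)⁻¹ * c) w = w := by
      rw [map_mul]
      show φ ((c' : X)⁻¹) (φ (c : X) w) = w
      have h3 : φ (c : X) w = φ (c' : X) w := hcc
      rw [h3, map_inv]
      exact LinearEquiv.symm_apply_apply _ _
    have h3 := hinj _ (mul_mem (inv_mem c'.2) c.2) h2
    exact Subtype.ext (inv_mul_eq_one.1 h3).symm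
  have h8 := Subgroup.card_mul_index (Subgroup.centralizer ({a} : Set X))
  have h9 := index_le a ha hn
  rw [← h8]
  calc Nat.card (Subgroup.centralizer ({a} : Set X)) * (Subgroup.centralizer ({a} : Set X)).index ≤ 64 * 6 := Nat.mul_le_mul hcard h9
    _ ≤ 2187 := by norm_num

end Cfsg.Agent.Lib.H55T6
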