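import Mathlib
import Cfsg.Agent.Lib.H55KR3

/-! S4265, piece T7 (helper83). -/

set_option autoImplicit false
set_option linter.all false

namespace Cfsg.Agent.Lib.H55T7

open Cfsg.Agent.Lib.H55KR

variable {X W : Type} [Group X] [Finite X] [AddCommGroup W] [Module (ZMod 2) W] [Finite W]
    {φ : X →* (W ≃ₗ[ZMod 2] W)} {β : W →ₗ[ZMod 2] W →ₗ[ZMod 2] ZMod 2}

/-- an element of prime order without nonzero fixed vectors acts freely on invariant submodules -/
theorem dvd_of_inv (a : X) (ha : (orderOf a).Prime) (hfix : ∀ w, φ a w = w → w = 0)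
    (U : Submodule (ZMod 2) W) (hU : ∀ u ∈ U, φ a u ∈ U) :
    orderOf a ∣ 2 ^ Module.finrank (ZMod 2) U - 1 := by
  classical
  haveI : Fact (orderOf a).Prime := ⟨ha⟩
  haveI : Fintype U := Fintype.ofFinite U
  let f : Function.End U := fun u => ⟨φ a u.1, hU u.1 u.2⟩
  have hiter : ∀ (n : ℕ) (u : U), ((f ^ n) u : U).1 = φ (a ^ n) u.1 := by
    intro n
    induction n with
    | zero => intro u; rw [pow_zero, pow_zero, map_one]; rfl
    | succ n ih =>
      intro u
      rw [pow_succ']
      change (f ((f ^ n) u)).1 = _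
      change φ a ((f ^ n) u).1 = _
      rw [ih u, pow_succ', map_mul]
      rfl
  have hf : f ^ (orderOf a) ^ 1 = 1 := by
    funext u
    apply Subtype.ext
    rw [hiter, pow_one, pow_orderOf_eq_one, map_one]
    rfl
  have h1 := Equiv.Perm.card_fixedPoints_modEq (α := U) (f := f) (p := orderOf a) (n := 1) hf
  have h2 : Fintype.card f.fixedPoints = 1 := by
    rw [Fintype.card_eq_one_iff]
    refine ⟨⟨0, ?_⟩, ?_⟩
    · change f 0 = 0
      apply Subtype.ext
      change φ a 0 = 0
      exact map_zero _
    · rintro ⟨u, hu⟩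
      apply Subtype.ext
      have hu' : f u = u := hu
      have h3 : φ a u.1 = u.1 := congrArg Subtype.val hu'
      apply Subtype.ext
      exact hfix _ h3
  rw [h2] at h1
  have h3 : Fintype.card U = 2 ^ Module.finrank (ZMod 2) U := by
    rw [Module.card_eq_pow_finrank (K := ZMod 2) (V := U), ZMod.card]
  rw [h3] at h1
  exact (Nat.modEq_iff_dvd' Nat.one_le_two_pow).1 h1.symm

/-- `N/C` bound -/
theorem nc {X : Type} [Group X] [Finite X] (a : X) (hn : (Subgroup.zpowers a).Normal) (ha : a ≠ 1) :
    Nat.card X ≤ (orderOf a - 1) * Nat.card (Subgroup.centralizer ({a} : Set X)) := by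
  classical
  let T := {b : X // b ∈ ((Subgroup.zpowers a : Set X) \ {1})}
  have hT : Nat.card T = orderOf a - 1 := by
    have h1 : ((Subgroup.zpowers a : Set X) \ {1}).ncard = orderOf a - 1 := by
      rw [Set.ncard_sdiff_singleton_of_mem (Subgroup.one_mem _), ← Nat.card_zpowers]
      rfl
    exact h1
  let q : X → T := fun g => ⟨g * a * g⁻¹, hn.conj_mem a (Subgroup.mem_zpowers a) g, by
    intro h
    apply ha
    have h1 : g * a * g⁻¹ = 1 := h
    rw [mul_inv_eq_one] at h1
    exact mul_left_cancel (h1.trans (mul_one g).symm)⟩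
  let sec : T → X := fun b => if h : ∃ g, q g = b then h.choose else 1
  have hsec : ∀ g, q (sec (q g)) = q g := by
    intro g
    have h : ∃ g', q g' = q g := ⟨g, rfl⟩
    have : sec (q g) = h.choose := dif_pos h
    rw [this]
    exact h.choose_spec
  have hmem : ∀ g, (sec (q g))⁻¹ * g ∈ Subgroup.centralizer ({a} : Set X) := by
    intro g
    rw [Subgroup.mem_centralizer_singleton_iff]
    have h1 : sec (q g) * a * (sec (q g))⁻¹ = g * a * g⁻¹ := congrArg Subtype.val (hsec g)
    have h2 : a = (sec (q g))⁻¹ * (g * a * g⁻¹) * sec (q g) := by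
      rw [← h1]; group
    have h3 : a * ((sec (q g))⁻¹ * g) = (sec (q g))⁻¹ * g * a := by
      calc a * ((sec (q g))⁻¹ * g) = ((sec (q g))⁻¹ * (g * a * g⁻¹) * sec (q g)) * ((sec (q g))⁻¹ * g) := by rw [← h2]
        _ = (sec (q g))⁻¹ * g * a := by group
    first
      | exact h3
      | exact h3.symm
  let F : X → T × Subgroup.centralizer ({a} : Set X) := fun g => (q g, ⟨(sec (q g))⁻¹ * g, hmem g⟩)
  have hF : Function.Injective F := by
    intro g g' h
    have h1 : q g = q g' := congrArg Prod.fst h
    have h2 : (sec (q g))⁻¹ * g = (sec (q g'))⁻¹ * g' := congrArg (fun z => (z.2 : X)) h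
    rw [← h1] at h2
    exact mul_left_cancel h2
  have h3 := Nat.card_le_card_of_injective F hF
  rw [Nat.card_prod, hT] at h3
  exact h3

theorem t7 (hinj : Function.Injective φ) (a : X) (e j : ℕ) (ha : (orderOf a).Prime)
    (he : ∀ i : ℕ, 0 < i → orderOf a ∣ 2 ^ i - 1 → e ∣ i)
    (dim : Module.finrank (ZMod 2) W = e * j) (hn : (Subgroup.zpowers a).Normal)
    (hfix : ∀ w, φ a w = w → w = 0) : Nat.card X ≤ (orderOf a - 1) * (2 ^ (e * j)) ^ j := by
  classical
  have ha1 : a ≠ 1 := by
    intro h
    rw [h, orderOf_one] at ha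
    exact Nat.not_prime_one ha
  refine (nc a hn ha1).trans (Nat.mul_le_mul_left _ ?_)
  -- invariant submodules have dimension divisible by `e`
  have hdiv : ∀ U : Submodule (ZMod 2) W, (∀ u ∈ U, φ a u ∈ U) → e ∣ Module.finrank (ZMod 2) U := by
    intro U hU
    rcases Nat.eq_zero_or_pos (Module.finrank (ZMod 2) U) with h0 | h0
    · rw [h0]; exact dvd_zero _
    · exact he _ h0 (dvd_of_inv a ha hfix U hU)
  let Sp : ∀ {m : ℕ}, (Fin m → W) → Submodule (ZMod 2) W := fun {m} w =>
    Submodule.span (ZMod 2) {x | ∃ (k : Fin m) (i : ℕ), x = φ (a ^ i) (w k)}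
  have hSpi : ∀ {m : ℕ} (w : Fin m → W), ∀ u ∈ Sp w, φ a u ∈ Sp w := by
    intro m w u hu
    refine Submodule.span_induction (p := fun u _ => φ a u ∈ Sp w) ?_ ?_ ?_ ?_ hu
    · rintro x ⟨k, i, rfl⟩
      apply Submodule.subset_span
      refine ⟨k, i + 1, ?_⟩
      rw [pow_succ', map_mul]
      rfl
    · rw [map_zero]; exact Submodule.zero_mem _
    · intro x y _ _ hx hy
      rw [map_add]; exact Submodule.add_mem _ hx hy
    · intro c x _ hx
      rw [map_smul]; exact Submodule.smul_mem _ _ hx
  have hgen : ∀ m ≤ j, ∃ w : Fin m → W, e * m ≤ Module.finrank (ZMod 2) (Sp w) := by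
    intro m
    induction m with
    | zero => intro _; exact ⟨fun _ => 0, by simp⟩
    | succ m ih =>
      intro hm
      obtain ⟨w, hw⟩ := ih (by omega)
      by_cases htop : Sp w = ⊤
      · refine ⟨Fin.snoc w 0, ?_⟩
        have h1 : Sp w ≤ Sp (Fin.snoc (α := fun _ => W) w 0) := by
          apply Submodule.span_mono
          rintro x ⟨k, i, rfl⟩
          exact ⟨k.castSucc, i, by rw [Fin.snoc_castSucc]⟩
        have h2 : Sp (Fin.snoc (α := fun _ => W) w 0) = ⊤ := by
          rw [htop] at h1
          exact top_le_iff.1 h1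
        rw [h2, finrank_top, dim]
        exact Nat.mul_le_mul_left _ hm
      · obtain ⟨v, hv⟩ : ∃ v, v ∉ Sp w := by
          by_contra hcon
          push Not at hcon
          exact htop (eq_top_iff.2 fun x _ => hcon x)
        refine ⟨Fin.snoc w v, ?_⟩
        have h1 : Sp w ≤ Sp (Fin.snoc (α := fun _ => W) w v) := by
          apply Submodule.span_mono
          rintro x ⟨k, i, rfl⟩
          exact ⟨k.castSucc, i, by rw [Fin.snoc_castSucc]⟩
        have h2 : v ∈ Sp (Fin.snoc (α := fun _ => W) w v) := by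
          apply Submodule.subset_span
          refine ⟨Fin.last m, 0, ?_⟩
          rw [Fin.snoc_last, pow_zero, map_one]
          rfl
        have h3 : Sp w < Sp (Fin.snoc (α := fun _ => W) w v) :=
          lt_of_le_of_ne h1 (fun h => hv (h ▸ h2))
        have h4 := Submodule.finrank_lt_finrank_of_lt h3
        obtain ⟨c, hc⟩ := hdiv _ (hSpi (Fin.snoc (α := fun _ => W) w v))
        rw [hc] at h4 ⊢
        have h5 : e * m < e * c := lt_of_le_of_lt hw h4
        have h6 : m < c := Nat.lt_of_mul_lt_mul_left h5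
        exact Nat.mul_le_mul_left _ h6
  obtain ⟨w, hw⟩ := hgen j le_rfl
  have htop : Sp w = ⊤ := by
    apply Submodule.eq_top_of_finrank_eq
    apply le_antisymm (Submodule.finrank_le _)
    rw [dim]; exact hw
  let F : Subgroup.centralizer ({a} : Set X) → (Fin j → W) := fun c k => φ c.1 (w k)
  have hF : Function.Injective F := by
    intro c c' h
    apply Subtype.ext
    apply hinj
    apply LinearEquiv.ext
    intro x
    have hx : x ∈ Sp w := by rw [htop]; trivial
    refine Submodule.span_induction (p := fun u _ => φ c.1 u = φ c'.1 u) ?_ ?_ ?_ ?_ hx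
    · rintro x ⟨k, i, rfl⟩
      have h1 : φ c.1 (w k) = φ c'.1 (w k) := congrFun h k
      have hcomm : ∀ d : Subgroup.centralizer ({a} : Set X), φ d.1 (φ (a ^ i) (w k)) = φ (a ^ i) (φ d.1 (w k)) := by
        intro d
        have h2 : d.1 * a ^ i = a ^ i * d.1 := by
          have h3 : Commute d.1 a := by
            have := Subgroup.mem_centralizer_singleton_iff.1 d.2
            first
              | exact this
              | exact this.symm
          exact (h3.pow_right i)
        change (φ d.1 * φ (a ^ i)) (w k) = (φ (a ^ i) * φ d.1) (w k)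
        rw [← map_mul, ← map_mul, h2]
      rw [hcomm, hcomm, h1]
    · rw [map_zero, map_zero]
    · intro x y _ _ hx hy
      rw [map_add, map_add, hx, hy]
    · intro c x _ hx
      rw [map_smul, map_smul, hx]
  have h3 := Nat.card_le_card_of_injective F hF
  have h4 : Nat.card (Fin j → W) = (2 ^ (e * j)) ^ j := by
    rw [Nat.card_pi, Finset.prod_const, Finset.card_univ, Fintype.card_fin]
    haveI : Fintype W := Fintype.ofFinite W
    rw [Nat.card_eq_fintype_card, Module.card_eq_pow_finrank (K := ZMod 2) (V := W), ZMod.card, dim]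
  rw [h4] at h3
  exact h3

end Cfsg.Agent.Lib.H55T7
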