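import Cfsg.Agent.Lib.H55KR3
import Cfsg.Agent.Lib.H55K2
import Cfsg.Agent.Lib.Cores

set_option autoImplicit false

namespace Cfsg.Agent.Lib.H55W2a

open Cfsg.Agent.Lib.H55KR

section
variable {M V : Type} [Group M] [AddCommGroup V] [Module ℂ V]

/-- the restriction of the action to an invariant subspace -/
noncomputable def res (σ : M →* (V ≃ₗ[ℂ] V)) (U : Submodule ℂ V)
    (h : ∀ g : M, U.map (σ g : V →ₗ[ℂ] V) = U) : M →* (U ≃ₗ[ℂ] U) where
  toFun g := (σ g).ofSubmodules U U (h g)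
  map_one' := by
    ext x
    rw [LinearEquiv.ofSubmodules_apply, map_one]; rfl
  map_mul' g g' := by
    ext x
    rw [LinearEquiv.ofSubmodules_apply, map_mul]; rfl

theorem res_apply (σ : M →* (V ≃ₗ[ℂ] V)) (U : Submodule ℂ V)
    (h : ∀ g : M, U.map (σ g : V →ₗ[ℂ] V) = U) (g : M) (x : U) : ((res σ U h g x : U) : V) = σ g x := rfl

theorem res_eq_one {σ : M →* (V ≃ₗ[ℂ] V)} {ι : Type} {U : ι → Submodule ℂ V}
    (h : ∀ g : M, ∀ i, (U i).map (σ g : V →ₗ[ℂ] V) = U i) (hsup : ⨆ i, U i = ⊤)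
    (hinj : Function.Injective σ) {g : M} (hg : ∀ i, res σ (U i) (fun g => h g i) g = 1) : g = 1 := by
  apply hinj
  rw [map_one]
  apply LinearEquiv.toLinearMap_injective
  have h1 : (⊤ : Submodule ℂ V) ≤ LinearMap.eqLocus ((σ g : V ≃ₗ[ℂ] V) : V →ₗ[ℂ] V) ((1 : V ≃ₗ[ℂ] V) : V →ₗ[ℂ] V) := by
    rw [← hsup, iSup_le_iff]
    intro i x hx
    rw [LinearMap.mem_eqLocus]
    have h2 := congrArg (fun f : (U i) ≃ₗ[ℂ] (U i) => ((f ⟨x, hx⟩ : U i) : V)) (hg i)
    exact h2
  ext x
  exact h1 (Submodule.mem_top : x ∈ ⊤)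

theorem finrank_sum [FiniteDimensional ℂ V] {k : ℕ} {U : Fin k → Submodule ℂ V} (hind : iSupIndep U)
    (hsup : ⨆ i, U i = ⊤) : ∑ i, Module.finrank ℂ (U i) = Module.finrank ℂ V := by
  classical
  have hI := DirectSum.isInternal_submodule_of_iSupIndep_of_iSup_eq_top hind hsup
  rw [← (LinearEquiv.ofBijective (DirectSum.coeLinearMap U) hI).finrank_eq, Module.finrank_directSum]

end

theorem w2a (hK : K1S) : W2aS := by
  intro M V _ _ _ _ _ σ hFn k U hs hinj hind hsup hbot hU hP
  classical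
  let τ : ∀ i, M →* (U i ≃ₗ[ℂ] U i) := fun i => res σ (U i) (fun g => hU g i)
  have hfin : ∀ i, Finite (τ i).range := fun i => Set.finite_range (τ i) |>.to_subtype
  have hsol : ∀ i, Group.IsSolvable (τ i).range := fun i =>
    Group.isSolvable_of_surjective (τ i).rangeRestrict_surjective
  have hpos : ∀ i, 1 ≤ Module.finrank ℂ (U i) := by
    intro i
    by_contra hcon
    have h0 : Module.finrank ℂ (U i) = 0 := by omega
    exact hbot i (Submodule.finrank_eq_zero.1 h0)
  let F : ∀ i, Subgroup (τ i).range := fun i => Cfsg.fittingSubgroup (τ i).range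
  have hFN : ∀ i, (F i).Normal := fun i => Cfsg.Agent.Lib.Cores.fittingSubgroup_normal _
  have hKB : ∀ i, KB ((τ i).range ⧸ F i) (3 ^ (Module.finrank ℂ (U i) - 1)) := by
    intro i
    exact hP i (τ i).range (U i) (τ i).range.subtype (hsol i) Subtype.val_injective rfl (hpos i)
  let θ : M →* (∀ i, (τ i).range ⧸ F i) :=
    MonoidHom.pi (fun i => (QuotientGroup.mk' (F i)).comp (τ i).rangeRestrict)
  have hθ : ∀ g ∈ θ.ker, ∀ i, (τ i).rangeRestrict g ∈ F i := by
    intro g hg i
    have h1 : θ g i = 1 := by rw [MonoidHom.mem_ker.1 hg]; rfl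
    exact (QuotientGroup.eq_one_iff _).1 h1
  -- the kernel is nilpotent
  have hnil : Group.IsNilpotent θ.ker := by
    have hFnil : ∀ i, Group.IsNilpotent (F i) := fun i =>
      Cfsg.Agent.Lib.Cores.isNilpotent_fittingSubgroup (τ i).range
    have hPnil : Group.IsNilpotent (∀ i, F i) := Group.isNilpotent_pi
    let η : θ.ker →* (∀ i, F i) :=
      { toFun := fun g i => ⟨(τ i).rangeRestrict g, hθ g g.2 i⟩
        map_one' := by
          funext i
          apply Subtype.ext
          exact map_one (τ i).rangeRestrict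
        map_mul' := fun a b => by
          funext i
          apply Subtype.ext
          exact map_mul (τ i).rangeRestrict _ _ }
    have hη : Function.Injective η := by
      rw [injective_iff_map_eq_one]
      intro g hg
      apply Subtype.ext
      refine res_eq_one hU hsup hinj (fun i => ?_)
      have h1 : ((η g i : F i) : (τ i).range) = 1 := by rw [hg]; rfl
      exact congrArg Subtype.val h1
    exact Group.nilpotent_of_mulEquiv (MonoidHom.ofInjective hη).symm
  have hle : θ.ker ≤ Cfsg.fittingSubgroup M :=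
    Cfsg.Agent.Lib.Cores.le_fittingSubgroup inferInstance hnil
  have hfin2 : ∀ i, Finite ((τ i).range ⧸ F i) := fun i => inferInstance
  have h1 : KB (∀ i, (τ i).range ⧸ F i) (∏ i, 3 ^ (Module.finrank ℂ (U i) - 1)) :=
    H55K2.pi hK (fun i => (τ i).range ⧸ F i) _ hKB
  have h2 : KB (M ⧸ θ.ker) (∏ i, 3 ^ (Module.finrank ℂ (U i) - 1)) :=
    H55K2.of_inj (QuotientGroup.kerLift θ) (QuotientGroup.kerLift_injective θ) h1
  have h3 : KB (M ⧸ Cfsg.fittingSubgroup M) (∏ i, 3 ^ (Module.finrank ℂ (U i) - 1)) := by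
    refine H55K2.of_surj (QuotientGroup.map θ.ker (Cfsg.fittingSubgroup M) (MonoidHom.id M) hle) ?_ h2
    intro x
    obtain ⟨g, rfl⟩ := QuotientGroup.mk_surjective x
    exact ⟨QuotientGroup.mk g, rfl⟩
  refine H55K2.mono h3 (le_of_eq ?_)
  rw [Finset.prod_pow_eq_pow_sum]
  congr 1
  have h4 := finrank_sum hind hsup
  have h5 : ∑ i, (Module.finrank ℂ (U i) - 1) + k = Module.finrank ℂ V := by
    rw [← h4]
    have h6 : ∑ i : Fin k, Module.finrank ℂ (U i) = ∑ i : Fin k, ((Module.finrank ℂ (U i) - 1) + 1) :=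
      Finset.sum_congr rfl (fun i _ => (Nat.sub_add_cancel (hpos i)).symm)
    rw [h6, Finset.sum_add_distrib]
    simp
  omega

end Cfsg.Agent.Lib.H55W2a
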