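import Cfsg.Agent.Lib.H55KR3

/-!
# S4265, piece W2b: the imprimitive step
-/

set_option autoImplicit false

namespace Cfsg.Agent.Lib.H55W2b

open Cfsg.Agent.Lib.H55KR

theorem kb_of_card {X : Type} [Group X] [Finite X] {b : ℕ} (h : Nat.card X ≤ b) : KB X b := by
  intro Y
  have h1 : Nat.card (ConjClasses Y) ≤ Nat.card Y :=
    Nat.card_le_card_of_surjective (ConjClasses.mk : Y → ConjClasses Y) ConjClasses.mk_surjective
  have h2 : Nat.card Y ≤ Nat.card X :=
    Nat.card_le_card_of_injective (Y.subtype) (Subgroup.subtype_injective Y)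
  omega

theorem fit_normal (X : Type) [Group X] : (Cfsg.fittingSubgroup X).Normal := by
  unfold Cfsg.fittingSubgroup
  rw [sSup_eq_iSup']
  have h : ∀ i : {N : Subgroup X | N.Normal ∧ Group.IsNilpotent N}, (i : Subgroup X).Normal :=
    fun i => i.2.1
  constructor
  intro n hn g
  induction hn using Subgroup.iSup_induction' with
  | hp i x hx => exact Subgroup.mem_iSup_of_mem i ((h i).conj_mem x hx g)
  | h1 => simp
  | hmul x y _ _ hx hy =>
    have : g * (x * y) * g⁻¹ = (g * x * g⁻¹) * (g * y * g⁻¹) := by group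
    rw [this]
    exact Subgroup.mul_mem _ hx hy

/-- the permutation action on the blocks -/
theorem exists_hom {G V : Type} [Group G] [AddCommGroup V] [Module ℂ V]
    (ρ : G →* (V ≃ₗ[ℂ] V)) (k : ℕ) (U : Fin k → Submodule ℂ V) (hU : Function.Injective U)
    (hperm : ∀ g : G, ∀ i, ∃ j, (U i).map (ρ g : V →ₗ[ℂ] V) = U j) :
    ∃ f : G →* Equiv.Perm (Fin k), ∀ g i, (U i).map (ρ g : V →ₗ[ℂ] V) = U (f g i) := by
  classical
  choose s hs using hperm
  have hmul : ∀ g h i, s (g * h) i = s g (s h i) := by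
    intro g h i
    apply hU
    rw [← hs, ← hs, ← hs, map_mul, ← Submodule.map_comp]
    rfl
  have hone : ∀ i, s 1 i = i := by
    intro i
    apply hU
    rw [← hs, map_one]
    exact Submodule.map_id _
  refine ⟨MonoidHom.mk' (fun g => ⟨s g, s g⁻¹, fun i => ?_, fun i => ?_⟩) ?_, ?_⟩
  · rw [← hmul, inv_mul_cancel, hone]
  · rw [← hmul, mul_inv_cancel, hone]
  · intro g h
    ext i
    simp [hmul]
  · intro g i
    exact hs g i

theorem w2b (hK : K1S) (hY0 : Y0S) (hW : W2aS) (hD : DS) (r : ℕ) (IH : ∀ r' < r, PS r')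
    {G V : Type} [Group G] [Finite G] [AddCommGroup V] [Module ℂ V] [FiniteDimensional ℂ V]
    (ρ : G →* (V ≃ₗ[ℂ] V)) [(Cfsg.fittingSubgroup G).Normal] (hs : Group.IsSolvable G)
    (hinj : Function.Injective ρ) (hr : Module.finrank ℂ V = r)
    (k : ℕ) (U : Fin k → Submodule ℂ V) (hk : 2 ≤ k) (hind : iSupIndep U) (hsup : ⨆ i, U i = ⊤)
    (hbot : ∀ i, U i ≠ ⊥) (hU : Function.Injective U)
    (hperm : ∀ g : G, ∀ i, ∃ j, (U i).map (ρ g : V →ₗ[ℂ] V) = U j) :
    KB (G ⧸ Cfsg.fittingSubgroup G) (3 ^ (r - 1)) := by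
  classical
  obtain ⟨f, hf⟩ := exists_hom ρ k U hU hperm
  have hkr : k ≤ r := by
    have h1 := hind.subtype_ne_bot_le_finrank
    have h2 : Fintype.card {i // U i ≠ ⊥} = k := by
      rw [Fintype.card_subtype, Finset.filter_true_of_mem (fun i _ => hbot i), Finset.card_univ,
        Fintype.card_fin]
    omega
  have hlt : ∀ i, Module.finrank ℂ (U i) < r := by
    intro i
    rw [← hr]
    apply Submodule.finrank_lt
    intro htop
    obtain ⟨j, hj⟩ : ∃ j : Fin k, j ≠ i := by
      haveI : Nontrivial (Fin k) := Fin.nontrivial_iff_two_le.mpr hk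
      exact exists_ne i
    have hd : Disjoint (U i) (U j) := hind.pairwiseDisjoint hj.symm
    rw [htop] at hd
    exact hbot j (top_disjoint.mp hd)
  haveI hMs : Group.IsSolvable f.ker := by
    haveI := hs
    infer_instance
  haveI hfM : (Cfsg.fittingSubgroup f.ker).Normal := fit_normal _
  haveI hfG := fit_normal G
  have hM : KB (f.ker ⧸ Cfsg.fittingSubgroup f.ker) (3 ^ (Module.finrank ℂ V - k)) := by
    refine hW f.ker V (ρ.comp f.ker.subtype) k U hMs ?_ hind hsup hbot ?_ ?_
    · intro x y hxy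
      exact Subtype.ext (hinj hxy)
    · intro g i
      have := hf g i
      have hg : f (g : G) = 1 := g.2
      rw [hg] at this
      exact this
    · intro i
      exact IH _ (hlt i)
  have hQ : KB (G ⧸ (f.ker ⊔ (⊥ : Subgroup G))) (3 ^ (k - 1)) := by
    apply kb_of_card
    have e1 : Nat.card (G ⧸ (f.ker ⊔ (⊥ : Subgroup G))) = Nat.card (G ⧸ f.ker) := by
      rw [sup_bot_eq]
    rw [e1, Nat.card_congr (QuotientGroup.quotientKerEquivRange f).toEquiv]
    haveI : Nonempty (Fin k) := ⟨⟨0, by omega⟩⟩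
    have h := hD (Fin k) f.range (by have := hs; exact Group.isSolvable_of_surjective f.rangeRestrict_surjective)
    rwa [Nat.card_fin] at h
  have hbotn : Group.IsNilpotent (⊥ : Subgroup G) := inferInstance
  have := hY0 G f.ker ⊥ (3 ^ (Module.finrank ℂ V - k)) (3 ^ (k - 1)) hbotn hM hQ
  rw [← pow_add] at this
  have e : Module.finrank ℂ V - k + (k - 1) = r - 1 := by omega
  rwa [e] at this

end Cfsg.Agent.Lib.H55W2b
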