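import Cfsg.Agent.Lib.H55KR3

/-! S4265 piece X1a (helper24): a chief factor of a solvable group is elementary abelian. -/

set_option autoImplicit false

namespace Cfsg.Agent.Lib.H55X1a

open Cfsg.Agent.Lib.H55KR

theorem comm_aux {G : Type} [Group G] (Z D : Subgroup G) (hZ : Z ≤ Subgroup.center G) [Z.Normal] :
    ⁅Z ⊔ D, Z ⊔ D⁆ ≤ ⁅D, D⁆ := by
  rw [Subgroup.commutator_le]
  intro g1 h1 g2 h2
  obtain ⟨z1, hz1, d1, hd1, rfl⟩ := Subgroup.mem_sup_of_normal_left.mp h1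
  obtain ⟨z2, hz2, d2, hd2, rfl⟩ := Subgroup.mem_sup_of_normal_left.mp h2
  have c1 : ∀ g, g * z1 = z1 * g := fun g => Subgroup.mem_center_iff.mp (hZ hz1) g
  have c2 : ∀ g, g * z2 = z2 * g := fun g => Subgroup.mem_center_iff.mp (hZ hz2) g
  have key : z1 * d1 * (z2 * d2) * (z1 * d1)⁻¹ * (z2 * d2)⁻¹ = d1 * d2 * d1⁻¹ * d2⁻¹ := by
    have e1 : z1 * d1 * (z2 * d2) * (z1 * d1)⁻¹ * (z2 * d2)⁻¹ =
        z1 * (d1 * z2 * d2 * d1⁻¹) * z1⁻¹ * d2⁻¹ * z2⁻¹ := by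
      group
    rw [e1, ← c1 (d1 * z2 * d2 * d1⁻¹)]
    have e2 : d1 * z2 * d2 * d1⁻¹ * z1 * z1⁻¹ * d2⁻¹ * z2⁻¹ = (d1 * z2) * (d2 * d1⁻¹ * d2⁻¹) * z2⁻¹ := by group
    rw [e2, c2 d1]
    have e3 : z2 * d1 * (d2 * d1⁻¹ * d2⁻¹) * z2⁻¹ = z2 * (d1 * d2 * d1⁻¹ * d2⁻¹) * z2⁻¹ := by group
    rw [e3, ← c2]
    group
  rw [commutatorElement_def, key, ← commutatorElement_def]
  exact Subgroup.commutator_mem_commutator hd1 hd2

theorem x1a {G : Type} [Group G] [Finite G] (Z E : Subgroup G) (hs : Group.IsSolvable G)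
    (h : CF G Z E) : ∃ p : ℕ, p.Prime ∧ (∀ e ∈ E, e ^ p ∈ Z) ∧
      ∀ x ∈ E, ∀ y ∈ E, x * y * x⁻¹ * y⁻¹ ∈ Z := by
  classical
  have hEn : E.Normal := h.nor
  have hZn : Z.Normal := by
    constructor
    intro z hz g
    have h1 : g * z = z * g := Subgroup.mem_center_iff.mp (h.cen hz) g
    rw [h1, mul_inv_cancel_right]
    exact hz
  have hcomm : ⁅E, E⁆ ≤ Z := by
    rcases h.min (Z ⊔ ⁅E, E⁆) inferInstance le_sup_left
        (sup_le h.lt.le (Subgroup.commutator_le_left E E)) with h1 | h1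
    · rw [← h1]; exact le_sup_right
    · exfalso
      have key : ∀ n, E ≤ Z ⊔ derivedSeries G n := by
        intro n
        induction n with
        | zero => simp
        | succ n ih =>
          calc E = Z ⊔ ⁅E, E⁆ := h1.symm
            _ ≤ Z ⊔ ⁅Z ⊔ derivedSeries G n, Z ⊔ derivedSeries G n⁆ :=
              sup_le_sup_left (Subgroup.commutator_mono ih ih) Z
            _ ≤ Z ⊔ ⁅derivedSeries G n, derivedSeries G n⁆ :=
              sup_le_sup_left (comm_aux Z _ h.cen) Z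
            _ = Z ⊔ derivedSeries G (n + 1) := rfl
      obtain ⟨n, hn⟩ := hs.solvable
      have h2 := key n
      rw [hn, sup_bot_eq] at h2
      exact absurd h2 (not_le_of_gt h.lt)
  have hcomm' : ∀ x ∈ E, ∀ y ∈ E, x * y * x⁻¹ * y⁻¹ ∈ Z := fun x hx y hy =>
    hcomm (Subgroup.commutator_mem_commutator hx hy)
  have hco : ∀ x ∈ E, ∀ y ∈ E, Commute (x : G ⧸ Z) (y : G ⧸ Z) := by
    intro x hx y hy
    show (x : G ⧸ Z) * (y : G ⧸ Z) = (y : G ⧸ Z) * (x : G ⧸ Z)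
    have h1 : ((x * y * x⁻¹ * y⁻¹ : G) : G ⧸ Z) = 1 := (QuotientGroup.eq_one_iff _).mpr (hcomm' x hx y hy)
    have h2 : (x : G ⧸ Z) * (y : G ⧸ Z) * (x : G ⧸ Z)⁻¹ * (y : G ⧸ Z)⁻¹ = 1 := h1
    rw [mul_inv_eq_one, mul_inv_eq_iff_eq_mul] at h2
    exact h2
  obtain ⟨e0, he0, he0Z⟩ := Set.exists_of_ssubset (show (Z : Set G) ⊂ E from h.lt)
  have hne : (e0 : G ⧸ Z) ≠ 1 := fun h1 => he0Z ((QuotientGroup.eq_one_iff _).mp h1)
  have hord : orderOf (e0 : G ⧸ Z) ≠ 1 := fun h1 => hne (orderOf_eq_one_iff.mp h1)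
  obtain ⟨p, hp, hpd⟩ := Nat.exists_prime_and_dvd hord
  have hpos : 0 < orderOf (e0 : G ⧸ Z) := orderOf_pos _
  refine ⟨p, hp, ?_, hcomm'⟩
  let N : Subgroup G :=
    { carrier := {x | x ∈ E ∧ x ^ p ∈ Z}
      one_mem' := ⟨E.one_mem, by simp [Z.one_mem]⟩
      mul_mem' := by
        rintro a b ⟨ha, ha'⟩ ⟨hb, hb'⟩
        refine ⟨E.mul_mem ha hb, ?_⟩
        rw [← QuotientGroup.eq_one_iff] at ha' hb' ⊢
        rw [QuotientGroup.mk_pow] at ha' hb' ⊢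
        rw [QuotientGroup.mk_mul, (hco a ha b hb).mul_pow, ha', hb', one_mul]
      inv_mem' := by
        rintro a ⟨ha, ha'⟩
        exact ⟨E.inv_mem ha, by rw [inv_pow]; exact Z.inv_mem ha'⟩ }
  have hNn : N.Normal := by
    constructor
    rintro x ⟨hx, hx'⟩ g
    exact ⟨hEn.conj_mem x hx g, by rw [conj_pow]; exact hZn.conj_mem _ hx' g⟩
  have hZN : Z ≤ N := fun z hz => ⟨h.lt.le hz, Z.pow_mem hz p⟩
  have hNE : N ≤ E := fun x hx => hx.1
  rcases h.min N hNn hZN hNE with h1 | h1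
  · exfalso
    set m := orderOf (e0 : G ⧸ Z) / p with hm
    have hmp : m * p = orderOf (e0 : G ⧸ Z) := Nat.div_mul_cancel hpd
    have hmem : e0 ^ m ∈ N := by
      refine ⟨E.pow_mem he0 m, ?_⟩
      rw [← pow_mul, hmp, ← QuotientGroup.eq_one_iff, QuotientGroup.mk_pow, pow_orderOf_eq_one]
    rw [h1, ← QuotientGroup.eq_one_iff, QuotientGroup.mk_pow] at hmem
    have hd := orderOf_dvd_of_pow_eq_one hmem
    have hmpos : 0 < m := Nat.pos_of_ne_zero (fun h0 => by rw [h0, zero_mul] at hmp; omega)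
    have hle := Nat.le_of_dvd hmpos hd
    have : m * 1 < m * p := Nat.mul_lt_mul_of_pos_left hp.one_lt hmpos
    omega
  · intro e he
    rw [← h1] at he
    exact he.2

end Cfsg.Agent.Lib.H55X1a
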