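import Cfsg.Agent.Lib.H55KR3
import Cfsg.Agent.Lib.AltForm
set_option autoImplicit false
set_option linter.all false

namespace Cfsg.Agent.Lib.H55X1b

open Cfsg.Agent.Lib.H55KR

/-- the abstract linear algebra part -/
theorem abst {X W : Type} [Group X] [AddCommGroup W] (p : ℕ) [hfact : Fact p.Prime] [Module (ZMod p) W] [Finite W]
    (ψ : X → W → W) (h1 : ∀ x, ψ 1 x = x) (hm : ∀ g h x, ψ (g * h) x = ψ g (ψ h x))
    (hadd : ∀ g x y, ψ g (x + y) = ψ g x + ψ g y) (hinj : ∀ g, (∀ x, ψ g x = x) → g = 1)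
    (f : W → W → ZMod p)
    (hl : ∀ a b c, f (a + b) c = f a c + f b c) (hr : ∀ a b c, f a (b + c) = f a b + f a c)
    (halt : ∀ a, f a a = 0) (hnd : ∀ a, (∀ b, f a b = 0) → a = 0)
    (hinv : ∀ g a b, f (ψ g a) (ψ g b) = f a b)
    (hirr : ∀ H : AddSubgroup W, (∀ g, ∀ a ∈ H, ψ g a ∈ H) → H = ⊥ ∨ H = ⊤) (hA : Nontrivial W) :
    ∃ (n : ℕ) (φ : X →* (W ≃ₗ[ZMod p] W)) (β : W →ₗ[ZMod p] W →ₗ[ZMod p] ZMod p),
      1 ≤ n ∧ SF p n X W φ β ∧ Irr p φ ∧ Nat.card W = (p ^ n) ^ 2 := by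
  let e : X → (W →+ W) := fun m => AddMonoidHom.mk' (ψ m) (hadd m)
  have he : ∀ m x, e m x = ψ m x := fun m x => rfl
  let φ : X →* (W ≃ₗ[ZMod p] W) :=
    { toFun := fun g => LinearEquiv.ofLinear ((e g).toZModLinearMap p) ((e g⁻¹).toZModLinearMap p)
        (by
          refine LinearMap.ext fun x => ?_
          rw [LinearMap.comp_apply, AddMonoidHom.coe_toZModLinearMap, AddMonoidHom.coe_toZModLinearMap, he, he, LinearMap.id_apply,
            ← hm, mul_inv_cancel, h1])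
        (by
          refine LinearMap.ext fun x => ?_
          rw [LinearMap.comp_apply, AddMonoidHom.coe_toZModLinearMap, AddMonoidHom.coe_toZModLinearMap, he, he, LinearMap.id_apply,
            ← hm, inv_mul_cancel, h1])
      map_one' := by
        refine LinearEquiv.ext fun x => ?_
        rw [LinearEquiv.ofLinear_apply, AddMonoidHom.coe_toZModLinearMap, he, h1]; rfl
      map_mul' := fun g h => by
        refine LinearEquiv.ext fun x => ?_
        rw [LinearEquiv.mul_apply, LinearEquiv.ofLinear_apply, LinearEquiv.ofLinear_apply, LinearEquiv.ofLinear_apply,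
          AddMonoidHom.coe_toZModLinearMap, AddMonoidHom.coe_toZModLinearMap, AddMonoidHom.coe_toZModLinearMap, he, he, he, hm] }
  let F : W → (W →+ ZMod p) := fun x => AddMonoidHom.mk' (fun y => f x y) (fun y z => hr _ _ _)
  let G1 : W →+ (W →ₗ[ZMod p] ZMod p) := AddMonoidHom.mk' (fun x => (F x).toZModLinearMap p) (fun x y => by
    refine LinearMap.ext fun z => ?_
    rw [LinearMap.add_apply, AddMonoidHom.coe_toZModLinearMap, AddMonoidHom.coe_toZModLinearMap, AddMonoidHom.coe_toZModLinearMap]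
    exact hl x y z)
  let β : W →ₗ[ZMod p] W →ₗ[ZMod p] ZMod p := G1.toZModLinearMap p
  have hβ : ∀ x y, β x y = f x y := fun x y => by
    show (G1.toZModLinearMap p) x y = _
    rw [AddMonoidHom.coe_toZModLinearMap]
    show ((F x).toZModLinearMap p) y = _
    rw [AddMonoidHom.coe_toZModLinearMap]
    rfl
  have hφ : ∀ g x, φ g x = ψ g x := fun g x => by
    simp only [φ, MonoidHom.coe_mk, OneHom.coe_mk, LinearEquiv.ofLinear_apply, AddMonoidHom.coe_toZModLinearMap, he]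
  have hβalt : ∀ x, β x x = 0 := fun x => by rw [hβ]; exact halt _
  have hβnd : ∀ x, (∀ y, β x y = 0) → x = 0 := fun x hx => hnd x (fun b => by rw [← hβ]; exact hx b)
  have hfd : FiniteDimensional (ZMod p) W := inferInstance
  obtain ⟨n, hn⟩ := Cfsg.Agent.Lib.AltForm.even_finrank β hβalt hβnd
  have hcard : Nat.card W = p ^ Module.finrank (ZMod p) W := by
    have := Module.natCard_eq_pow_finrank (K := ZMod p) (V := W)
    rw [Nat.card_zmod] at this
    exact this
  refine ⟨n, φ, β, ?_, ⟨?_, hβalt, hβnd, ?_, ?_⟩, ?_, ?_⟩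
  · rcases Nat.eq_zero_or_pos n with h0 | h0
    · exfalso
      rw [h0] at hn
      rw [hn, pow_zero] at hcard
      have := Finite.one_lt_card_iff_nontrivial.2 hA
      omega
    · exact h0
  · rw [injective_iff_map_eq_one]
    intro g hg
    refine hinj g fun x => ?_
    rw [← hφ, hg]; rfl
  · intro g x y
    rw [hβ, hβ, hφ, hφ]
    exact hinv _ _ _
  · rw [hn]; ring
  · intro U hU
    rcases hirr U.toAddSubgroup (fun g a ha => by rw [← hφ]; exact hU g _ ha) with h | h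
    · left
      rw [Submodule.eq_bot_iff]
      intro x hx
      have : x ∈ U.toAddSubgroup := hx
      rw [h, AddSubgroup.mem_bot] at this
      exact this
    · right
      rw [Submodule.eq_top_iff']
      intro x
      have : x ∈ U.toAddSubgroup := by rw [h]; exact AddSubgroup.mem_top _
      exact this
  · rw [hcard, hn, ← pow_mul]; congr 1; ring


section grp

variable {G : Type} [Group G]

/-- the commutator -/
def cm (a b : G) : G := a * b * a⁻¹ * b⁻¹

theorem cm_mul_left {a b c : G} (h : ∀ x : G, cm b c * x = x * cm b c) : cm (a * b) c = cm a c * cm b c := by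
  have e : cm (a * b) c = a * (cm b c) * c * a⁻¹ * c⁻¹ := by unfold cm; group
  rw [e, ← h a, mul_assoc (cm b c), mul_assoc (cm b c), mul_assoc (cm b c), h]
  unfold cm; group

theorem cm_mul_right {a b c : G} (h : ∀ x : G, cm a c * x = x * cm a c) : cm a (b * c) = cm a b * cm a c := by
  have e : cm a (b * c) = a * b * a⁻¹ * (cm a c) * b⁻¹ := by unfold cm; group
  rw [e, mul_assoc, h b⁻¹]
  unfold cm; group

theorem cm_self (a : G) : cm a a = 1 := by unfold cm; group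

theorem cm_central_left {a z : G} (hz : ∀ x : G, z * x = x * z) : cm z a = 1 := by
  unfold cm; rw [hz a]; group

theorem cm_central_right {a z : G} (hz : ∀ x : G, z * x = x * z) : cm a z = 1 := by
  unfold cm; rw [← hz a]; group

theorem cm_conj (g a b : G) : cm (g * a * g⁻¹) (g * b * g⁻¹) = g * cm a b * g⁻¹ := by
  unfold cm; group

theorem cm_eq_one {a b : G} : cm a b = 1 ↔ a * b = b * a := by
  unfold cm
  rw [mul_inv_eq_one, mul_inv_eq_iff_eq_mul]

end grp

/-- the group theoretic part, for an abstract model `W` of `E / Z` -/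
theorem main {G : Type} [Group G] [Finite G] (Z E K : Subgroup G) [K.Normal]
    (h : CF G Z E) (hK : IsKer Z E K) (p : ℕ) [hp : Fact p.Prime] (hpow : ∀ e ∈ E, e ^ p ∈ Z)
    (hcomm : ∀ x ∈ E, ∀ y ∈ E, x * y * x⁻¹ * y⁻¹ ∈ Z)
    {W : Type} [AddCommGroup W] [Module (ZMod p) W] [Finite W] (m : E → W) (hsurj : Function.Surjective m)
    (hmul : ∀ a b, m (a * b) = m a + m b) (hz : ∀ a, m a = 0 ↔ (a : G) ∈ Z)
    (hcard : Nat.card E = Nat.card W * Nat.card Z) :
    ∃ (n : ℕ) (φ : (G ⧸ K) →* (W ≃ₗ[ZMod p] W)) (β : W →ₗ[ZMod p] W →ₗ[ZMod p] ZMod p),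
      1 ≤ n ∧ SF p n (G ⧸ K) W φ β ∧ Irr p φ ∧ Nat.card E = (p ^ n) ^ 2 * Nat.card Z := by
  classical
  have hnE := h.nor
  have hcen : ∀ z ∈ Z, ∀ x : G, z * x = x * z := fun z hz x => ((Subgroup.mem_center_iff.1 (h.cen hz)) x).symm
  have hcm : ∀ a ∈ E, ∀ b ∈ E, cm a b ∈ Z := hcomm
  have hcmc : ∀ a ∈ E, ∀ b ∈ E, ∀ x : G, cm a b * x = x * cm a b := fun a ha b hb => hcen _ (hcm a ha b hb)
  have hpow' : ∀ a ∈ E, ∀ b ∈ E, ∀ n : ℕ, cm (a ^ n) b = cm a b ^ n := by
    intro a ha b hb n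
    induction n with
    | zero => rw [pow_zero, pow_zero]; unfold cm; group
    | succ n ih => rw [pow_succ, pow_succ, cm_mul_left (hcmc a ha b hb), ih]
  have hcmp : ∀ a ∈ E, ∀ b ∈ E, cm a b ^ p = 1 := by
    intro a ha b hb
    rw [← hpow' a ha b hb, cm_central_left (hcen _ (hpow a ha))]
  -- an element of order `p` in `Z`
  obtain ⟨ζ, hζZ, hζ⟩ : ∃ ζ ∈ Z, orderOf ζ = p := by
    by_contra hne
    push Not at hne
    have hall : ∀ a ∈ E, ∀ b ∈ E, cm a b = 1 := by
      intro a ha b hb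
      by_contra h1
      exact hne _ (hcm a ha b hb) (orderOf_eq_prime (hcmp a ha b hb) h1)
    have : E ≤ Z := fun x hx => h.self x hx (fun y hy => cm_eq_one.1 (hall x hx y hy))
    exact absurd h.lt (not_lt_of_ge this)
  have hpowζ : ∀ c ∈ Z, c ^ p = 1 → ∃ i : ℕ, ζ ^ i = c := by
    intro c hc hcp
    have hcyc := h.cyc
    have : Fintype Z := Fintype.ofFinite _
    let S : Finset Z := Finset.univ.filter (fun a : Z => a ^ p = 1)
    have hS : S.card ≤ p := IsCyclic.card_pow_eq_one_le hp.out.pos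
    let ζ' : Z := ⟨ζ, hζZ⟩
    have hζ' : orderOf ζ' = p := by rw [← hζ]; exact (Subgroup.orderOf_mk ζ hζZ)
    let T : Finset Z := (Finset.range p).image (fun i : ℕ => ζ' ^ i)
    have hT : T.card = p := by
      rw [Finset.card_image_of_injOn, Finset.card_range]
      intro i hi j hj hij
      rw [Finset.mem_coe, Finset.mem_range] at hi hj
      exact pow_injOn_Iio_orderOf (by rw [hζ']; exact hi) (by rw [hζ']; exact hj) hij
    have hTS : T ⊆ S := by
      intro x hx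
      obtain ⟨i, _, rfl⟩ := Finset.mem_image.1 hx
      refine Finset.mem_filter.2 ⟨Finset.mem_univ _, ?_⟩
      rw [← pow_mul, mul_comm, pow_mul]
      have : ζ' ^ p = 1 := by rw [← hζ']; exact pow_orderOf_eq_one _
      rw [this, one_pow]
    have hTeq : T = S := Finset.eq_of_subset_of_card_le hTS (by rw [hT]; exact hS)
    have hcS : (⟨c, hc⟩ : Z) ∈ S := Finset.mem_filter.2 ⟨Finset.mem_univ _, Subtype.ext hcp⟩
    rw [← hTeq] at hcS
    obtain ⟨i, _, hi⟩ := Finset.mem_image.1 hcS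
    exact ⟨i, congrArg Subtype.val hi⟩
  -- the index
  let ν : G → ZMod p := fun c => if h : ∃ i : ℕ, ζ ^ i = c then ((Classical.choose h : ℕ) : ZMod p) else 0
  have hν : ∀ i : ℕ, ν (ζ ^ i) = (i : ZMod p) := by
    intro i
    have hex : ∃ j : ℕ, ζ ^ j = ζ ^ i := ⟨i, rfl⟩
    have e : ν (ζ ^ i) = ((Classical.choose hex : ℕ) : ZMod p) := dif_pos hex
    rw [e, ZMod.natCast_eq_natCast_iff]
    have := Classical.choose_spec hex
    rw [pow_eq_pow_iff_modEq, hζ] at this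
    exact this
  have hνmul : ∀ c ∈ Z, ∀ d ∈ Z, c ^ p = 1 → d ^ p = 1 → ν (c * d) = ν c + ν d := by
    intro c hc d hd hcp hdp
    obtain ⟨i, rfl⟩ := hpowζ c hc hcp
    obtain ⟨j, rfl⟩ := hpowζ d hd hdp
    rw [← pow_add, hν, hν, hν, Nat.cast_add]
  have hνzero : ∀ c ∈ Z, c ^ p = 1 → ν c = 0 → c = 1 := by
    intro c hc hcp h0
    obtain ⟨i, rfl⟩ := hpowζ c hc hcp
    rw [hν, ZMod.natCast_eq_zero_iff] at h0
    obtain ⟨k, rfl⟩ := h0
    rw [pow_mul, ← hζ, pow_orderOf_eq_one, one_pow]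
  have hν1 : ν 1 = 0 := by
    have := hν 0
    rw [pow_zero, Nat.cast_zero] at this
    exact this
  -- the form
  have hm1 : m 1 = 0 := (hz 1).2 (one_mem _)
  have hminv : ∀ a, m a⁻¹ = - m a := by
    intro a
    have := hmul a a⁻¹
    rw [mul_inv_cancel, hm1] at this
    exact (neg_eq_of_add_eq_zero_right this.symm).symm
  have hmeq : ∀ a b : E, m a = m b → ∃ z ∈ Z, (a : G) = z * b := by
    intro a b hab
    refine ⟨(a : G) * (b : G)⁻¹, ?_, by group⟩
    have := (hz (a * b⁻¹)).1 (by rw [hmul, hminv, hab, add_neg_cancel])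
    exact this
  have hmeq' : ∀ a b : E, ∀ z ∈ Z, (a : G) = z * b → m a = m b := by
    intro a b z hzz hab
    have h1 : a = (⟨z, h.lt.le hzz⟩ : E) * b := Subtype.ext hab
    rw [h1, hmul, (hz _).2 hzz, zero_add]
  have hcongr : ∀ a a' b b' : E, m a = m a' → m b = m b' → cm (a : G) b = cm (a' : G) b' := by
    intro a a' b b' h1 h2
    obtain ⟨z, hz1, e1⟩ := hmeq a a' h1
    obtain ⟨w, hw1, e2⟩ := hmeq b b' h2
    rw [e1, e2]
    unfold cm
    have hzc := hcen z hz1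
    have hwc := hcen w hw1
    calc z * (a' : G) * (w * b') * (z * a')⁻¹ * (w * b')⁻¹ = z * (a' * w) * b' * (a' : G)⁻¹ * (z⁻¹ * (b' : G)⁻¹) * w⁻¹ := by group
      _ = z * (w * a') * b' * (a' : G)⁻¹ * (z⁻¹ * (b' : G)⁻¹) * w⁻¹ := by rw [hwc a']
      _ = z * w * (a' * b' * (a' : G)⁻¹ * z⁻¹ * (b' : G)⁻¹) * w⁻¹ := by group
      _ = z * w * (a' * b' * (a' : G)⁻¹ * (b' : G)⁻¹ * z⁻¹) * w⁻¹ := by
          rw [mul_assoc (↑a' * ↑b' * (↑a' : G)⁻¹) z⁻¹, mul_assoc (↑a' * ↑b' * (↑a' : G)⁻¹) ((b' : G)⁻¹) z⁻¹]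
          have : z⁻¹ * (b' : G)⁻¹ = (b' : G)⁻¹ * z⁻¹ := hcen _ (Z.inv_mem hz1) _
          rw [this]
      _ = (z * w) * ((a' * b' * (a' : G)⁻¹ * (b' : G)⁻¹) * (z⁻¹ * w⁻¹)) := by group
      _ = ((a' * b' * (a' : G)⁻¹ * (b' : G)⁻¹) * (z⁻¹ * w⁻¹)) * (z * w) := by
          rw [hcen (z * w) (Z.mul_mem hz1 hw1)]
      _ = (a' * b' * (a' : G)⁻¹ * (b' : G)⁻¹) * (z⁻¹ * (w⁻¹ * z) * w) := by group
      _ = a' * b' * (a' : G)⁻¹ * (b' : G)⁻¹ := by rw [hcen w⁻¹ (Z.inv_mem hw1) z]; group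
  choose s hs using hsurj
  let f : W → W → ZMod p := fun x y => ν (cm (s x : G) (s y))
  have hf : ∀ a b : E, f (m a) (m b) = ν (cm (a : G) b) := by
    intro a b
    show ν (cm (s (m a) : G) (s (m b))) = _
    rw [hcongr (s (m a)) a (s (m b)) b (hs _) (hs _)]
  have hind : ∀ x : W, ∃ a : E, m a = x := fun x => ⟨s x, hs x⟩
  have hl : ∀ a b c, f (a + b) c = f a c + f b c := by
    intro x y z
    obtain ⟨a, rfl⟩ := hind x
    obtain ⟨b, rfl⟩ := hind y
    obtain ⟨c, rfl⟩ := hind z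
    rw [← hmul, hf, hf, hf, Subgroup.coe_mul, cm_mul_left (hcmc b b.2 c c.2),
      hνmul _ (hcm a a.2 c c.2) _ (hcm b b.2 c c.2) (hcmp a a.2 c c.2) (hcmp b b.2 c c.2)]
  have hr : ∀ a b c, f a (b + c) = f a b + f a c := by
    intro x y z
    obtain ⟨a, rfl⟩ := hind x
    obtain ⟨b, rfl⟩ := hind y
    obtain ⟨c, rfl⟩ := hind z
    rw [← hmul, hf, hf, hf, Subgroup.coe_mul, cm_mul_right (hcmc a a.2 c c.2),
      hνmul _ (hcm a a.2 b b.2) _ (hcm a a.2 c c.2) (hcmp a a.2 b b.2) (hcmp a a.2 c c.2)]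
  have halt : ∀ a, f a a = 0 := by
    intro x
    obtain ⟨a, rfl⟩ := hind x
    rw [hf, cm_self, hν1]
  have hnd : ∀ a, (∀ b, f a b = 0) → a = 0 := by
    intro x hx
    obtain ⟨a, rfl⟩ := hind x
    rw [hz]
    refine h.self a a.2 fun y hy => ?_
    have := hx (m ⟨y, hy⟩)
    rw [hf] at this
    exact cm_eq_one.1 (hνzero _ (hcm a a.2 y hy) (hcmp a a.2 y hy) this)
  -- the action
  let cj : G → E → E := fun g e => ⟨g * e * g⁻¹, hnE.conj_mem e e.2 g⟩
  let ψ : (G ⧸ K) → W → W := fun g x => m (cj g.out (s x))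
  have hψ : ∀ (g : G) (e : E), ψ (g : G ⧸ K) (m e) = m (cj g e) := by
    intro g e
    show m (cj ((g : G ⧸ K)).out (s (m e))) = m (cj g e)
    obtain ⟨k, hk⟩ := QuotientGroup.mk_out_eq_mul K g
    obtain ⟨z, hz1, e1⟩ := hmeq (s (m e)) e (hs _)
    have hk1 := (hK k.1).1 k.2 e.1 e.2
    refine hmeq' _ _ (z * ((k : G) * e * (k : G)⁻¹ * (e : G)⁻¹)) (Z.mul_mem hz1 hk1) ?_
    show (g : G ⧸ K).out * (s (m e) : G) * ((g : G ⧸ K).out)⁻¹ = _ * (g * (e : G) * g⁻¹)
    rw [hk, e1]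
    have hzc := hcen z hz1
    have hkc := hcen _ hk1
    calc g * (k : G) * (z * e) * (g * k)⁻¹ = (g * k) * z * (e * (k : G)⁻¹ * g⁻¹) := by group
      _ = z * (g * k) * (e * (k : G)⁻¹ * g⁻¹) := by rw [← hzc (g * k)]
      _ = z * (g * ((k : G) * e * (k : G)⁻¹ * (e : G)⁻¹)) * e * g⁻¹ := by group
      _ = z * (((k : G) * e * (k : G)⁻¹ * (e : G)⁻¹) * g) * e * g⁻¹ := by rw [hkc g]
      _ = z * ((k : G) * e * (k : G)⁻¹ * (e : G)⁻¹) * (g * e * g⁻¹) := by group
  have h1 : ∀ x, ψ 1 x = x := by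
    intro x
    obtain ⟨a, rfl⟩ := hind x
    have := hψ 1 a
    rw [QuotientGroup.mk_one] at this
    rw [this]
    congr 1
    apply Subtype.ext
    show 1 * (a : G) * 1⁻¹ = a
    group
  have hm' : ∀ g h x, ψ (g * h) x = ψ g (ψ h x) := by
    intro g g' x
    obtain ⟨a, rfl⟩ := hind x
    induction g using QuotientGroup.induction_on with
    | H g =>
      induction g' using QuotientGroup.induction_on with
      | H g' =>
        rw [← QuotientGroup.mk_mul, hψ (g * g') a, hψ g' a, hψ g (cj g' a)]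
        congr 1
        apply Subtype.ext
        show g * g' * (a : G) * (g * g')⁻¹ = g * (g' * a * g'⁻¹) * g⁻¹
        group
  have hadd : ∀ g x y, ψ g (x + y) = ψ g x + ψ g y := by
    intro g x y
    obtain ⟨a, rfl⟩ := hind x
    obtain ⟨b, rfl⟩ := hind y
    induction g using QuotientGroup.induction_on with
    | H g =>
      rw [← hmul, hψ, hψ, hψ, ← hmul]
      congr 1
      apply Subtype.ext
      show g * ((a : G) * b) * g⁻¹ = (g * a * g⁻¹) * (g * b * g⁻¹)
      group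
  have hinj : ∀ g, (∀ x, ψ g x = x) → g = 1 := by
    intro g hg
    induction g using QuotientGroup.induction_on with
    | H g =>
      rw [QuotientGroup.eq_one_iff, hK]
      intro e he
      have := hg (m ⟨e, he⟩)
      rw [hψ] at this
      obtain ⟨z, hz1, e1⟩ := hmeq _ _ this
      have e1' : g * e * g⁻¹ = z * e := e1
      rw [e1', mul_inv_cancel_right]
      exact hz1
  have hinv : ∀ g a b, f (ψ g a) (ψ g b) = f a b := by
    intro g x y
    obtain ⟨a, rfl⟩ := hind x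
    obtain ⟨b, rfl⟩ := hind y
    induction g using QuotientGroup.induction_on with
    | H g =>
      rw [hψ, hψ, hf, hf]
      show ν (cm (g * (a : G) * g⁻¹) (g * (b : G) * g⁻¹)) = _
      rw [cm_conj, ← hcmc a a.2 b b.2 g, mul_inv_cancel_right]
  have hirr : ∀ H : AddSubgroup W, (∀ g, ∀ a ∈ H, ψ g a ∈ H) → H = ⊥ ∨ H = ⊤ := by
    intro H hH
    let N : Subgroup G :=
      { carrier := {g | ∃ hg : g ∈ E, m ⟨g, hg⟩ ∈ H}
        one_mem' := ⟨E.one_mem, by
          have : m ⟨1, E.one_mem⟩ = 0 := hm1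
          rw [this]; exact H.zero_mem⟩
        mul_mem' := by
          rintro a b ⟨ha, ha'⟩ ⟨hb, hb'⟩
          refine ⟨E.mul_mem ha hb, ?_⟩
          have : m ⟨a * b, E.mul_mem ha hb⟩ = m ⟨a, ha⟩ + m ⟨b, hb⟩ := hmul ⟨a, ha⟩ ⟨b, hb⟩
          rw [this]; exact H.add_mem ha' hb'
        inv_mem' := by
          rintro a ⟨ha, ha'⟩
          refine ⟨E.inv_mem ha, ?_⟩
          have : m ⟨a⁻¹, E.inv_mem ha⟩ = - m ⟨a, ha⟩ := hminv ⟨a, ha⟩
          rw [this]; exact H.neg_mem ha' }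
    have hN : ∀ g (hg : g ∈ E), g ∈ N ↔ m ⟨g, hg⟩ ∈ H := fun g hg => ⟨fun ⟨_, h⟩ => h, fun h => ⟨hg, h⟩⟩
    have hNn : N.Normal := ⟨fun n hn g => by
      obtain ⟨hnE', hn'⟩ := hn
      refine ⟨hnE.conj_mem n hnE' g, ?_⟩
      have := hH (g : G ⧸ K) _ hn'
      rw [hψ] at this
      exact this⟩
    have hZN : Z ≤ N := fun z hzz => ⟨h.lt.le hzz, by rw [(hz ⟨z, h.lt.le hzz⟩).2 hzz]; exact H.zero_mem⟩
    have hNE : N ≤ E := fun g hg => hg.1
    rcases h.min N hNn hZN hNE with h1 | h1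
    · left
      rw [AddSubgroup.eq_bot_iff_forall]
      intro x hx
      obtain ⟨a, rfl⟩ := hind x
      rw [hz, ← h1]
      exact (hN a a.2).2 hx
    · right
      rw [AddSubgroup.eq_top_iff']
      intro x
      obtain ⟨a, rfl⟩ := hind x
      exact (hN a a.2).1 (by rw [h1]; exact a.2)
  have hnt : Nontrivial W := by
    obtain ⟨e, heE, heZ⟩ := SetLike.exists_of_lt h.lt
    exact ⟨m ⟨e, heE⟩, 0, fun h0 => heZ ((hz _).1 h0)⟩
  obtain ⟨n, φ, β, hn, hSF, hIrr, hcW⟩ := abst p ψ h1 hm' hadd hinj f hl hr halt hnd hinv hirr hnt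
  exact ⟨n, φ, β, hn, hSF, hIrr, by rw [hcard, hcW]⟩

theorem x1b {G : Type} [Group G] [Finite G] (Z E K : Subgroup G) [K.Normal]
    (h : CF G Z E) (hK : IsKer Z E K) (p : ℕ) (hp : p.Prime) (hpow : ∀ e ∈ E, e ^ p ∈ Z)
    (hcomm : ∀ x ∈ E, ∀ y ∈ E, x * y * x⁻¹ * y⁻¹ ∈ Z) :
    ∃ (n : ℕ) (W : Type) (_ : AddCommGroup W) (_ : Module (ZMod p) W) (_ : Finite W)
      (φ : (G ⧸ K) →* (W ≃ₗ[ZMod p] W)) (β : W →ₗ[ZMod p] W →ₗ[ZMod p] ZMod p),
      1 ≤ n ∧ SF p n (G ⧸ K) W φ β ∧ Irr p φ ∧ Nat.card E = (p ^ n) ^ 2 * Nat.card Z := by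
  have hfact : Fact p.Prime := ⟨hp⟩
  have hcen : ∀ z ∈ Z, ∀ x : G, z * x = x * z := fun z hz x => ((Subgroup.mem_center_iff.1 (h.cen hz)) x).symm
  have hNn : (Z.subgroupOf E).Normal := ⟨fun n hn g => by
    rw [Subgroup.mem_subgroupOf] at hn ⊢
    rw [Subgroup.coe_mul, Subgroup.coe_mul, Subgroup.coe_inv, ← hcen _ hn (g : G), mul_inv_cancel_right]
    exact hn⟩
  letI instA : AddCommGroup (Additive (E ⧸ Z.subgroupOf E)) :=
    { (inferInstance : AddGroup (Additive (E ⧸ Z.subgroupOf E))) with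
      add_comm := fun x y => by
        show Additive.ofMul (x.toMul * y.toMul) = Additive.ofMul (y.toMul * x.toMul)
        congr 1
        generalize x.toMul = x'
        generalize y.toMul = y'
        induction x' using QuotientGroup.induction_on with
        | H a =>
          induction y' using QuotientGroup.induction_on with
          | H b =>
            rw [← QuotientGroup.mk_mul, ← QuotientGroup.mk_mul, QuotientGroup.eq_iff_div_mem, Subgroup.mem_subgroupOf,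
              div_eq_mul_inv, mul_inv_rev]
            have := hcomm a a.2 b b.2
            simpa [mul_assoc] using this }
  letI instM : Module (ZMod p) (Additive (E ⧸ Z.subgroupOf E)) := AddCommGroup.zmodModule (n := p) (fun x => by
    show Additive.ofMul (x.toMul ^ p) = Additive.ofMul 1
    congr 1
    generalize x.toMul = x'
    induction x' using QuotientGroup.induction_on with
    | H a =>
      rw [← QuotientGroup.mk_pow, QuotientGroup.eq_one_iff, Subgroup.mem_subgroupOf]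
      exact hpow a a.2)
  have hfin : Finite (Additive (E ⧸ Z.subgroupOf E)) := inferInstanceAs (Finite (E ⧸ Z.subgroupOf E))
  obtain ⟨n, φ, β, h1, h2, h3, h4⟩ := main Z E K h hK p hpow hcomm (W := Additive (E ⧸ Z.subgroupOf E))
    (fun e => Additive.ofMul (QuotientGroup.mk e)) (fun x => by
      obtain ⟨e, he⟩ := QuotientGroup.mk_surjective x.toMul
      exact ⟨e, congrArg Additive.ofMul he⟩) (fun a b => rfl) (fun a => by
      have : (Additive.ofMul (QuotientGroup.mk a : E ⧸ Z.subgroupOf E) = 0) ↔ (QuotientGroup.mk a : E ⧸ Z.subgroupOf E) = 1 := Iff.rfl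
      rw [this, QuotientGroup.eq_one_iff, Subgroup.mem_subgroupOf]) (by
      have e1 := Subgroup.card_eq_card_quotient_mul_card_subgroup (Z.subgroupOf E)
      rw [e1, Nat.card_congr (Subgroup.subgroupOfEquivOfLe h.lt.le).toEquiv]
      rfl)
  exact ⟨n, _, instA, instM, hfin, φ, β, h1, h2, h3, h4⟩

end Cfsg.Agent.Lib.H55X1b
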