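import Cfsg.Agent.Lib.H55KR3
import Mathlib

/-! S4265, piece X2 (helper90). -/

set_option autoImplicit false
set_option linter.style.haveILetI false

namespace Cfsg.Agent.Lib.H55X2

open Cfsg.Agent.Lib.H55KR

theorem cen_comm {G : Type} [Group G] {Z : Subgroup G} (hZ : Z ≤ Subgroup.center G) {z : G} (hz : z ∈ Z) (x : G) :
    z * x = x * z := (Subgroup.mem_center_iff.1 (hZ hz) x).symm

/-- commutation with `u` -/
def chi {G : Type} [Group G] {Z E : Subgroup G} (hZ : Z ≤ Subgroup.center G) (u : G)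
    (hu : ∀ e ∈ E, u * e * u⁻¹ * e⁻¹ ∈ Z) : E →* Z where
  toFun e := ⟨u * e * u⁻¹ * (e : G)⁻¹, hu e e.2⟩
  map_one' := by apply Subtype.ext; simp
  map_mul' e e' := by
    apply Subtype.ext
    have hc := cen_comm hZ (hu e' e'.2) ((e : G)⁻¹)
    change u * (e * e') * u⁻¹ * ((e : G) * e')⁻¹ = (u * e * u⁻¹ * (e : G)⁻¹) * (u * e' * u⁻¹ * (e' : G)⁻¹)
    calc u * (e * e') * u⁻¹ * ((e : G) * e')⁻¹ = u * e * u⁻¹ * ((u * e' * u⁻¹ * (e' : G)⁻¹) * (e : G)⁻¹) := by group
      _ = (u * e * u⁻¹ * (e : G)⁻¹) * (u * e' * u⁻¹ * (e' : G)⁻¹) := by rw [hc]; group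

theorem chi_val {G : Type} [Group G] {Z E : Subgroup G} (hZ : Z ≤ Subgroup.center G) (u : G)
    (hu : ∀ e ∈ E, u * e * u⁻¹ * e⁻¹ ∈ Z) (e : E) : ((chi hZ u hu e : Z) : G) = u * e * u⁻¹ * (e : G)⁻¹ := rfl

theorem chi_Z {G : Type} [Group G] {Z E : Subgroup G} (hZ : Z ≤ Subgroup.center G) (u : G)
    (hu : ∀ e ∈ E, u * e * u⁻¹ * e⁻¹ ∈ Z) (e : E) (he : e ∈ Z.subgroupOf E) : chi hZ u hu e = 1 := by
  apply Subtype.ext
  rw [chi_val]
  have := cen_comm hZ (Subgroup.mem_subgroupOf.1 he) u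
  rw [← this]
  simp

theorem chi_eq {G : Type} [Group G] {Z E : Subgroup G} (hZ : Z ≤ Subgroup.center G) {u v : G}
    (hu : ∀ e ∈ E, u * e * u⁻¹ * e⁻¹ ∈ Z) (hv : ∀ e ∈ E, v * e * v⁻¹ * e⁻¹ ∈ Z)
    (h : chi hZ u hu = chi hZ v hv) : ∀ e ∈ E, u * e * u⁻¹ = v * e * v⁻¹ := by
  intro e he
  have h1 : ((chi hZ u hu ⟨e, he⟩ : Z) : G) = ((chi hZ v hv ⟨e, he⟩ : Z) : G) := by rw [h]
  rw [chi_val, chi_val] at h1
  exact mul_right_cancel h1

theorem ex_emb {Z : Type} [Group Z] [Finite Z] [IsCyclic Z] : ∃ ι : Z →* ℂˣ, Function.Injective ι := by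
  haveI : NeZero (Nat.card Z) := ⟨Nat.card_pos.ne'⟩
  have e : Z ≃* rootsOfUnity (Nat.card Z) ℂ := mulEquivOfCyclicCardEq (by rw [Complex.card_rootsOfUnity])
  exact ⟨(rootsOfUnity (Nat.card Z) ℂ).subtype.comp e.toMonoidHom,
    (Subtype.val_injective).comp e.injective⟩

theorem comm_aux {G : Type} [Group G] (a b x y : G) (ca : ∀ u, a * u = u * a) (cb : ∀ u, b * u = u * b) :
    (a * x) * (b * y) * (a * x)⁻¹ * (b * y)⁻¹ = x * y * x⁻¹ * y⁻¹ := by
  have h1 : a * x * (b * y) * (a * x)⁻¹ * (b * y)⁻¹ = a * (x * b) * y * x⁻¹ * (y * a)⁻¹ * b⁻¹ := by group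
  rw [h1, ← cb x, ← ca y]
  have h2 : a * (b * x) * y * x⁻¹ * (a * y)⁻¹ * b⁻¹ = (a * b) * (x * y * x⁻¹ * y⁻¹) * (b * a)⁻¹ := by group
  have h3 : ∀ u, (a * b) * u = u * (b * a) := fun u => by rw [mul_assoc, cb, ca, mul_assoc]
  rw [h2, h3, mul_inv_cancel_right]

theorem x2 : X2S := by
  intro G _ _ Z E h g hg
  have hZ := h.cen
  haveI := h.cyc
  haveI := h.nor
  have hZE : Z ≤ E := h.lt.le
  by_cases hcm : ∀ x ∈ E, ∀ y ∈ E, x * y * x⁻¹ * y⁻¹ ∈ Z
  · obtain ⟨ι, hι⟩ := ex_emb (Z := Z)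
    haveI hN : (Z.subgroupOf E).Normal := by
      refine ⟨fun n hn x => ?_⟩
      rw [Subgroup.mem_subgroupOf] at hn ⊢
      change (x : G) * n * (x : G)⁻¹ ∈ Z
      rw [← cen_comm hZ hn, mul_inv_cancel_right]
      exact hn
    letI : CommGroup (E ⧸ Z.subgroupOf E) :=
      { (inferInstance : Group (E ⧸ Z.subgroupOf E)) with
        mul_comm := by
          intro a b
          induction a using QuotientGroup.induction_on with
          | H a =>
            induction b using QuotientGroup.induction_on with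
            | H b =>
              rw [← QuotientGroup.mk_mul, ← QuotientGroup.mk_mul, QuotientGroup.eq, Subgroup.mem_subgroupOf]
              have := hcm _ (E.inv_mem b.2) _ (E.inv_mem a.2)
              change ((a : G) * b)⁻¹ * ((b : G) * a) ∈ Z
              have e1 : ((a : G) * b)⁻¹ * ((b : G) * a) = (b : G)⁻¹ * (a : G)⁻¹ * ((b : G)⁻¹)⁻¹ * ((a : G)⁻¹)⁻¹ := by group
              rw [e1]; exact this }
    let L : ∀ u : G, (∀ e ∈ E, u * e * u⁻¹ * e⁻¹ ∈ Z) → ((E ⧸ Z.subgroupOf E) →* ℂˣ) := fun u hu =>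
      QuotientGroup.lift (Z.subgroupOf E) (ι.comp (chi hZ u hu)) (fun e he => by
        change ι (chi hZ u hu e) = 1
        rw [chi_Z hZ u hu e he, map_one])
    have hL : ∀ u v hu hv, L u hu = L v hv → ∀ e ∈ E, u * e * u⁻¹ = v * e * v⁻¹ := by
      intro u v hu hv he
      apply chi_eq hZ hu hv
      ext1 x
      apply hι
      have := congrArg (fun F : (E ⧸ Z.subgroupOf E) →* ℂˣ => F (QuotientGroup.mk x)) he
      exact this
    obtain ⟨eq⟩ := CommGroup.monoidHom_mulEquiv_of_hasEnoughRootsOfUnity (E ⧸ Z.subgroupOf E) ℂ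
    let Φ : (E ⧸ Z.subgroupOf E) → ((E ⧸ Z.subgroupOf E) →* ℂˣ) := fun q =>
      L (q.out : G) (fun e he => hcm _ q.out.2 _ he)
    have hΦ : Function.Injective Φ := by
      intro q q' hq
      have h1 := hL _ _ _ _ hq
      have h2 : ((q.out : E) : G)⁻¹ * ((q'.out : E) : G) ∈ Z := by
        apply h.self _ (E.mul_mem (E.inv_mem q.out.2) q'.out.2)
        intro y hy
        have h3 := h1 y hy
        have h4 : (q.out : G)⁻¹ * (q'.out : G) * y = (q.out : G)⁻¹ * ((q'.out : G) * y * (q'.out : G)⁻¹) * (q'.out : G) := by group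
        rw [h4, ← h3]; group
      have h5 : (QuotientGroup.mk q.out : E ⧸ Z.subgroupOf E) = QuotientGroup.mk q'.out := by
        rw [QuotientGroup.eq, Subgroup.mem_subgroupOf]
        exact h2
      rwa [QuotientGroup.out_eq', QuotientGroup.out_eq'] at h5
    have hs : Function.Surjective (eq ∘ Φ) := Finite.surjective_of_injective (eq.injective.comp hΦ)
    obtain ⟨q, hq⟩ := hs (eq (L g hg))
    have h6 : Φ q = L g hg := eq.injective hq
    have h7 := hL _ _ _ _ h6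
    refine ⟨(q.out : G)⁻¹, E.inv_mem q.out.2, fun y hy => ?_⟩
    have hy' : g⁻¹ * y * g ∈ E := by
      have := h.nor.conj_mem y hy g⁻¹
      rwa [inv_inv] at this
    have h8 := h7 ((q.out : G)⁻¹ * y * (q.out : G)) (E.mul_mem (E.mul_mem (E.inv_mem q.out.2) hy) q.out.2)
    have h9 : y = g * ((q.out : G)⁻¹ * y * (q.out : G)) * g⁻¹ := by
      rw [← h8]; group
    calc g * (q.out : G)⁻¹ * y = (g * ((q.out : G)⁻¹ * y * (q.out : G)) * g⁻¹) * (g * (q.out : G)⁻¹) := by group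
      _ = y * (g * (q.out : G)⁻¹) := by rw [← h9]
  · refine ⟨1, E.one_mem, ?_⟩
    haveI hZn : Z.Normal := ⟨fun n hn x => by rw [← cen_comm hZ hn, mul_inv_cancel_right]; exact hn⟩
    have hle : Z ⊔ ⁅E, E⁆ ≤ E := sup_le hZE (Subgroup.commutator_le_left E E)
    rcases h.min (Z ⊔ ⁅E, E⁆) inferInstance le_sup_left hle with h1 | h1
    · exfalso
      apply hcm
      intro x hx y hy
      rw [← h1]
      exact (le_sup_right : ⁅E, E⁆ ≤ Z ⊔ ⁅E, E⁆) (Subgroup.commutator_mem_commutator hx hy)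
    · have hM : Z ⊔ ⁅E, E⁆ ≤ Subgroup.centralizer ({g} : Set G) := by
        refine sup_le ?_ (Subgroup.commutator_le.2 ?_)
        · intro z hz
          rw [Subgroup.mem_centralizer_singleton_iff]
          exact cen_comm hZ hz g
        · intro x hx y hy
          change x * y * x⁻¹ * y⁻¹ ∈ _
          rw [Subgroup.mem_centralizer_singleton_iff]
          have hx' := hg x hx
          have hy' := hg y hy
          set a := g * x * g⁻¹ * x⁻¹ with ha
          set b := g * y * g⁻¹ * y⁻¹ with hb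
          have e1 : g * x * g⁻¹ = a * x := by rw [ha]; group
          have e2 : g * y * g⁻¹ = b * y := by rw [hb]; group
          have ca := cen_comm hZ hx'
          have cb := cen_comm hZ hy'
          have e3 : g * (x * y * x⁻¹ * y⁻¹) * g⁻¹ = (g * x * g⁻¹) * (g * y * g⁻¹) * (g * x * g⁻¹)⁻¹ * (g * y * g⁻¹)⁻¹ := by
            group
          have e4 : (a * x) * (b * y) * (a * x)⁻¹ * (b * y)⁻¹ = x * y * x⁻¹ * y⁻¹ := comm_aux a b x y ca cb
          rw [e1, e2, e4] at e3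
          have : g * (x * y * x⁻¹ * y⁻¹) = (x * y * x⁻¹ * y⁻¹) * g := by
            calc g * (x * y * x⁻¹ * y⁻¹) = (g * (x * y * x⁻¹ * y⁻¹) * g⁻¹) * g := by group
              _ = (x * y * x⁻¹ * y⁻¹) * g := by rw [e3]
          exact this.symm
      intro y hy
      rw [mul_one]
      have h2' : y ∈ Z ⊔ ⁅E, E⁆ := by rw [h1]; exact hy
      have h2 : y ∈ Subgroup.centralizer ({g} : Set G) := hM h2'
      rw [Subgroup.mem_centralizer_singleton_iff] at h2
      exact h2.symm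

end Cfsg.Agent.Lib.H55X2
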