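import Cfsg.Agent.Lib.H55K1
import Cfsg.Agent.Lib.H55K2
import Cfsg.Agent.Lib.H55D1
import Cfsg.Agent.Lib.H55D2
import Cfsg.Agent.Lib.H55D3
import Cfsg.Agent.Lib.H55SA
import Cfsg.Agent.Lib.H55S0
import Cfsg.Agent.Lib.H55S31
import Cfsg.Agent.Lib.H55S51
import Cfsg.Agent.Lib.H55S32
import Cfsg.Agent.Lib.H55T0b
import Cfsg.Agent.Lib.H55T1a
import Cfsg.Agent.Lib.H55T1b
import Cfsg.Agent.Lib.H55T2a
import Cfsg.Agent.Lib.H55T2b
import Cfsg.Agent.Lib.H55T2c
import Cfsg.Agent.Lib.H55T2d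
import Cfsg.Agent.Lib.H55T3a
import Cfsg.Agent.Lib.H55T3b
import Cfsg.Agent.Lib.H55T3c
import Cfsg.Agent.Lib.H55T3d
import Cfsg.Agent.Lib.H55T4
import Cfsg.Agent.Lib.H55T5
import Cfsg.Agent.Lib.H55T6
import Cfsg.Agent.Lib.H55T7
import Cfsg.Agent.Lib.H55W1
import Cfsg.Agent.Lib.H55Y0
import Cfsg.Agent.Lib.H55W2a
import Cfsg.Agent.Lib.H55W2b
import Cfsg.Agent.Lib.H55L1
import Cfsg.Agent.Lib.H55X1a
import Cfsg.Agent.Lib.H55X1b
import Cfsg.Agent.Lib.H55X2
import Cfsg.Agent.Lib.H55Y1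
import Cfsg.Agent.Lib.H55KR3
set_option autoImplicit false
namespace Cfsg.Agent.Lib.H55Asm
open Cfsg.Agent.Lib.H55KR

theorem dps : DPS := by
  intro α _ _ G hs hp
  rcases subsingleton_or_nontrivial α with h | h
  · have : Subsingleton G := inferInstance
    rw [Nat.card_eq_one_iff_unique.mpr ⟨this, ⟨1⟩⟩]
    exact Nat.one_le_pow _ _ (by norm_num)
  · obtain ⟨p, a, hp1, ha, hc, hG⟩ := Cfsg.Agent.Lib.H55D2.d2 α G hs hp
    rw [hc]
    exact hG.trans (Cfsg.Agent.Lib.H55D3.d3 p a hp1 ha)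

theorem ds : DS := Cfsg.Agent.Lib.H55D1.d1 dps

section p2
variable {X W : Type} [Group X] [Finite X] [AddCommGroup W] [Module (ZMod 2) W] [Finite W]
    {φ : X →* (W ≃ₗ[ZMod 2] W)} {β : W →ₗ[ZMod 2] W →ₗ[ZMod 2] ZMod 2}

/-- the centraliser of `a` for `a` of order three -/
theorem three {n : ℕ} (h : SF 2 n X W φ β) (a : X) (ha : orderOf a = 3)
    (hn : (Subgroup.zpowers a).Normal) (hfix : ∀ w, φ a w = w → w = 0) :
    Nat.card X ≤ 2 * ∏ i ∈ Finset.range n, N1 (i + 1) := by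
  have h3 := Cfsg.Agent.Lib.H55T3c.t3c a (by rw [ha]; norm_num) hn
  rw [ha] at h3
  refine h3.trans (Nat.mul_le_mul_left _ ?_)
  set C := Subgroup.centralizer ({a} : Set X)
  have haw : ∀ w, (φ a).toLinearMap ((φ a).toLinearMap w) + (φ a).toLinearMap w + w = 0 := by
    intro w
    have h1 : φ a (φ a (φ a w)) = w := by
      have : φ (a ^ 3) w = w := by rw [← ha, pow_orderOf_eq_one, map_one]; rfl
      have h2 : a ^ 3 = a * (a * a) := by rw [pow_succ, pow_two, mul_assoc]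
      rw [h2, map_mul, map_mul] at this
      exact this
    apply hfix
    simp only [LinearEquiv.coe_coe, map_add, h1]
    abel
  exact Cfsg.Agent.Lib.H55T3b.t3b (X := C) (φ := φ.comp C.subtype) n h.alt h.nondeg h.dim (φ a).toLinearMap haw
    (fun x y => h.inv a x y) (fun x y hxy => Subtype.ext (h.inj hxy))
    (fun g x y => h.inv g.1 x y)
    (fun g x => by
      have hg : a * g.1 = g.1 * a := (Subgroup.mem_centralizer_singleton_iff.mp g.2).symm
      have h2 : φ (a * g.1) x = φ (g.1 * a) x := by rw [hg]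
      simp only [map_mul] at h2
      exact h2.symm)
    (fun m V _ _ _ γ b h1 h2 h3 h4 h5 => Cfsg.Agent.Lib.H55T3a.t3a m h1 h2 h3 b h4 h5)

theorem n2 (hK : K1S) (hs : Group.IsSolvable X) (h : SF 2 2 X W φ β) (hirr : Irr 2 φ) : KB X 27 := by
  rcases subsingleton_or_nontrivial X with hX | hX
  · exact Cfsg.Agent.Lib.H55K2.of_card (by rw [Nat.card_eq_one_iff_unique.mpr ⟨hX, ⟨1⟩⟩]; norm_num)
  rcases Cfsg.Agent.Lib.H55T0b.t0 hs h.inj hirr hX with ⟨a, hp, h2, hn, hfix⟩ | ⟨k, d, hk, hd, hkd, U, hi, hsup, hdim, hperm⟩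
  · rcases (Cfsg.Agent.Lib.H55T3d.t3d 2 h.dim a hp hfix).1 rfl with h3 | h5
    · have := three h a h3 hn hfix
      refine Cfsg.Agent.Lib.H55T5.t5 h hirr (this.trans ?_)
      simp [Finset.prod_range_succ, N1]
    · refine Cfsg.Agent.Lib.H55K2.of_card ((Cfsg.Agent.Lib.H55T4.t4 h a h5 hn hfix ?_).trans (by norm_num))
      intro b hb1 hb2
      have := Cfsg.Agent.Lib.H55T3a.t3a 2 h.alt h.nondeg h.dim b hb1 hb2
      simpa [N1] using this
  · rw [h.dim] at hkd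
    have hk2 : k = 2 := by
      have : k * 2 ≤ 4 := by nlinarith
      omega
    subst hk2
    have hd2 : d = 2 := by omega
    subst hd2
    refine Cfsg.Agent.Lib.H55K2.mono (Cfsg.Agent.Lib.H55T1b.t1KB hK h.inj U hi hsup hdim hperm (c := 3) ?_) (by decide)
    intro Y V _ _ _ _ _ ψ hψ hV
    exact (Cfsg.Agent.Lib.H55T2a.t2a hψ hV).2

theorem n3 (hs : Group.IsSolvable X) (h : SF 2 3 X W φ β) (hirr : Irr 2 φ) : Nat.card X ≤ 2187 := by
  rcases subsingleton_or_nontrivial X with hX | hX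
  · rw [Nat.card_eq_one_iff_unique.mpr ⟨hX, ⟨1⟩⟩]; norm_num
  rcases Cfsg.Agent.Lib.H55T0b.t0 hs h.inj hirr hX with ⟨a, hp, h2, hn, hfix⟩ | ⟨k, d, hk, hd, hkd, U, hi, hsup, hdim, hperm⟩
  · rcases (Cfsg.Agent.Lib.H55T3d.t3d 3 h.dim a hp hfix).2.1 rfl with h3 | h5
    · refine (three h a h3 hn hfix).trans ?_
      simp [Finset.prod_range_succ, N1]
    · exact Cfsg.Agent.Lib.H55T6.t6 h a h5 hn hfix
  · rw [h.dim] at hkd
    have hk3 : k ≤ 3 := by nlinarith
    interval_cases k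
    · have hd2 : d = 3 := by omega
      subst hd2
      refine (Cfsg.Agent.Lib.H55T1a.t1 hs h.inj U hi hsup hdim hperm (c := 33) ?_).trans (by decide)
      intro Y V _ _ _ _ _ ψ hψ hY hV
      exact Cfsg.Agent.Lib.H55T2b.t2b hψ hY hV
    · have hd2 : d = 2 := by omega
      subst hd2
      refine (Cfsg.Agent.Lib.H55T1a.t1 hs h.inj U hi hsup hdim hperm (c := 6) ?_).trans (by decide)
      intro Y V _ _ _ _ _ ψ hψ hY hV
      exact (Cfsg.Agent.Lib.H55T2a.t2a hψ hV).1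

theorem n4 (hs : Group.IsSolvable X) (h : SF 2 4 X W φ β) (hirr : Irr 2 φ) :
    Nat.card X ≤ 3 ^ 15 := by
  rcases subsingleton_or_nontrivial X with hX | hX
  · rw [Nat.card_eq_one_iff_unique.mpr ⟨hX, ⟨1⟩⟩]; norm_num
  rcases Cfsg.Agent.Lib.H55T0b.t0 hs h.inj hirr hX with ⟨a, hp, h2, hn, hfix⟩ | ⟨k, d, hk, hd, hkd, U, hi, hsup, hdim, hperm⟩
  · rcases (Cfsg.Agent.Lib.H55T3d.t3d 4 h.dim a hp hfix).2.2.1 rfl with h3 | h5 | h17
    · refine (three h a h3 hn hfix).trans ?_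
      simp [Finset.prod_range_succ, N1]
    · refine (Cfsg.Agent.Lib.H55T7.t7 h.inj a 4 2 hp ?_ h.dim hn hfix).trans (by rw [h5]; norm_num)
      rw [h5]
      intro i hi hdvd
      have hmod : (2 : ℕ) ^ i % 5 = 1 := by
        have : 1 ≤ 2 ^ i := Nat.one_le_two_pow
        omega
      have h4 : (2 : ℕ) ^ i % 5 = 2 ^ (i % 4) % 5 := by
        conv_lhs => rw [← Nat.div_add_mod i 4, pow_add, pow_mul, Nat.mul_mod, Nat.pow_mod]
        norm_num
      have : i % 4 < 4 := Nat.mod_lt _ (by norm_num)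
      rw [hmod] at h4
      interval_cases hh : i % 4 <;> simp at h4
      exact Nat.dvd_of_mod_eq_zero hh
    · refine (Cfsg.Agent.Lib.H55T7.t7 h.inj a 8 1 hp ?_ h.dim hn hfix).trans (by rw [h17]; norm_num)
      rw [h17]
      intro i hi hdvd
      have hmod : (2 : ℕ) ^ i % 17 = 1 := by
        have : 1 ≤ 2 ^ i := Nat.one_le_two_pow
        omega
      have h4 : (2 : ℕ) ^ i % 17 = 2 ^ (i % 8) % 17 := by
        conv_lhs => rw [← Nat.div_add_mod i 8, pow_add, pow_mul, Nat.mul_mod, Nat.pow_mod]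
        norm_num
      have : i % 8 < 8 := Nat.mod_lt _ (by norm_num)
      rw [hmod] at h4
      interval_cases hh : i % 8 <;> simp at h4
      exact Nat.dvd_of_mod_eq_zero hh
  · rw [h.dim] at hkd
    have hk3 : k ≤ 4 := by nlinarith
    interval_cases k
    · have hd2 : d = 4 := by omega
      subst hd2
      refine (Cfsg.Agent.Lib.H55T1a.t1 hs h.inj U hi hsup hdim hperm (c := 2678) ?_).trans (by decide)
      intro Y V _ _ _ _ _ ψ hψ hY hV
      exact Cfsg.Agent.Lib.H55T2c.t2c hψ hY hV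
    · omega
    · have hd2 : d = 2 := by omega
      subst hd2
      refine (Cfsg.Agent.Lib.H55T1a.t1 hs h.inj U hi hsup hdim hperm (c := 6) ?_).trans (by decide)
      intro Y V _ _ _ _ _ ψ hψ hY hV
      exact (Cfsg.Agent.Lib.H55T2a.t2a hψ hV).1

theorem n5 (hs : Group.IsSolvable X) (h : SF 2 5 X W φ β) (hirr : Irr 2 φ) :
    Nat.card X ≤ 3 ^ 31 := by
  rcases subsingleton_or_nontrivial X with hX | hX
  · rw [Nat.card_eq_one_iff_unique.mpr ⟨hX, ⟨1⟩⟩]; norm_num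
  rcases Cfsg.Agent.Lib.H55T0b.t0 hs h.inj hirr hX with ⟨a, hp, h2, hn, hfix⟩ | ⟨k, d, hk, hd, hkd, U, hi, hsup, hdim, hperm⟩
  · rcases (Cfsg.Agent.Lib.H55T3d.t3d 5 h.dim a hp hfix).2.2.2 rfl with h3 | h11 | h31
    · refine (three h a h3 hn hfix).trans ?_
      simp [Finset.prod_range_succ, N1]
    · refine (Cfsg.Agent.Lib.H55T7.t7 h.inj a 10 1 hp ?_ h.dim hn hfix).trans (by rw [h11]; norm_num)
      rw [h11]
      intro i hi hdvd
      have hmod : (2 : ℕ) ^ i % 11 = 1 := by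
        have : 1 ≤ 2 ^ i := Nat.one_le_two_pow
        omega
      have h4 : (2 : ℕ) ^ i % 11 = 2 ^ (i % 10) % 11 := by
        conv_lhs => rw [← Nat.div_add_mod i 10, pow_add, pow_mul, Nat.mul_mod, Nat.pow_mod]
        norm_num
      have : i % 10 < 10 := Nat.mod_lt _ (by norm_num)
      rw [hmod] at h4
      interval_cases hh : i % 10 <;> simp at h4
      exact Nat.dvd_of_mod_eq_zero hh
    · refine (Cfsg.Agent.Lib.H55T7.t7 h.inj a 5 2 hp ?_ h.dim hn hfix).trans (by rw [h31]; norm_num)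
      rw [h31]
      intro i hi hdvd
      have hmod : (2 : ℕ) ^ i % 31 = 1 := by
        have : 1 ≤ 2 ^ i := Nat.one_le_two_pow
        omega
      have h4 : (2 : ℕ) ^ i % 31 = 2 ^ (i % 5) % 31 := by
        conv_lhs => rw [← Nat.div_add_mod i 5, pow_add, pow_mul, Nat.mul_mod, Nat.pow_mod]
        norm_num
      have : i % 5 < 5 := Nat.mod_lt _ (by norm_num)
      rw [hmod] at h4
      interval_cases hh : i % 5 <;> simp at h4
      exact Nat.dvd_of_mod_eq_zero hh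
  · rw [h.dim] at hkd
    have hk3 : k ≤ 5 := by nlinarith
    interval_cases k
    · have hd2 : d = 5 := by omega
      subst hd2
      refine (Cfsg.Agent.Lib.H55T1a.t1 hs h.inj U hi hsup hdim hperm (c := 9999360) ?_).trans (by decide)
      intro Y V _ _ _ _ _ ψ hψ hY hV
      exact Cfsg.Agent.Lib.H55T2d.t2d hψ hV
    · omega
    · omega
    · have hd2 : d = 2 := by omega
      subst hd2
      refine (Cfsg.Agent.Lib.H55T1a.t1 hs h.inj U hi hsup hdim hperm (c := 6) ?_).trans (by decide)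
      intro Y V _ _ _ _ _ ψ hψ hY hV
      exact (Cfsg.Agent.Lib.H55T2a.t2a hψ hV).1
end p2


theorem prod_le (p n : ℕ) (hp : 1 ≤ p) :
    ∏ i ∈ Finset.range n, ((p ^ (2 * (i + 1)) - 1) * p ^ (2 * i + 1)) ≤ p ^ (2 * n ^ 2 + n) := by
  induction n with
  | zero => simp
  | succ n ih =>
    rw [Finset.prod_range_succ]
    have h1 : p ^ (2 * (n + 1) ^ 2 + (n + 1)) = p ^ (2 * n ^ 2 + n) * (p ^ (2 * (n + 1)) * p ^ (2 * n + 1)) := by
      rw [← pow_add, ← pow_add]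
      congr 1
      ring
    rw [h1]
    exact Nat.mul_le_mul ih (Nat.mul_le_mul_right _ (Nat.sub_le _ _))

theorem ss : SS := by
  intro p n hp X W _ _ _ _ _ φ β hn hs h hirr
  by_cases h2 : p = 2 ∧ n ≤ 5
  · obtain ⟨rfl, hn5⟩ := h2
    interval_cases n
    · exact (Cfsg.Agent.Lib.H55T2a.t2a h.inj (by rw [h.dim])).2
    · exact n2 Cfsg.Agent.Lib.H55K1.k1 hs h hirr
    · exact Cfsg.Agent.Lib.H55K2.of_card ((n3 hs h hirr).trans (by norm_num))
    · exact Cfsg.Agent.Lib.H55K2.of_card ((n4 hs h hirr).trans (by norm_num))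
    · exact Cfsg.Agent.Lib.H55K2.of_card ((n5 hs h hirr).trans (by norm_num))
  by_cases h3 : p = 3 ∧ n ≤ 2
  · obtain ⟨rfl, hn5⟩ := h3
    interval_cases n
    · exact Cfsg.Agent.Lib.H55S31.s31 Cfsg.Agent.Lib.H55K1.k1 h
    · exact Cfsg.Agent.Lib.H55K2.of_card ((Cfsg.Agent.Lib.H55S32.s32 hs h).trans (by norm_num))
  by_cases h5 : p = 5 ∧ n = 1
  · obtain ⟨rfl, rfl⟩ := h5
    exact Cfsg.Agent.Lib.H55K2.of_card ((Cfsg.Agent.Lib.H55S51.s51 hs h).trans (by norm_num))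
  exact Cfsg.Agent.Lib.H55K2.of_card (((Cfsg.Agent.Lib.H55S0.s0 hp h).trans (prod_le p n hp.one_lt.le)).trans (Cfsg.Agent.Lib.H55SA.sa p n hp hn h2 h3 h5))

theorem xs : XS := by
  intro G _ _ Z E K _ hs hCF hK
  obtain ⟨p, hp, hpow, hcomm⟩ := Cfsg.Agent.Lib.H55X1a.x1a Z E hs hCF
  obtain ⟨n, W, _, _, _, φ, β, hn, hSF, hirr, hcard⟩ := Cfsg.Agent.Lib.H55X1b.x1b Z E K hCF hK p hp hpow hcomm
  refine ⟨p ^ n, ?_, hcard, ?_⟩
  · calc 2 ≤ p := hp.two_le
      _ = p ^ 1 := (pow_one p).symm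
      _ ≤ p ^ n := Nat.pow_le_pow_right hp.pos hn
  · have : Group.IsSolvable (G ⧸ K) := by
      have := hs
      exact inferInstance
    exact ss p n hp (G ⧸ K) W φ β hn this hSF hirr

section
variable {G V : Type} [Group G] [Finite G] [AddCommGroup V] [Module ℂ V] [FiniteDimensional ℂ V]

/-- the scalar elements -/
def scal (ρ : G →* (V ≃ₗ[ℂ] V)) : Subgroup G where
  carrier := {g | ∃ c : ℂ, ∀ v, ρ g v = c • v}
  one_mem' := ⟨1, fun v => by simp⟩
  mul_mem' := by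
    rintro a b ⟨c, hc⟩ ⟨d, hd⟩
    refine ⟨c * d, fun v => ?_⟩
    rw [map_mul]
    show ρ a (ρ b v) = _
    rw [hd, hc, smul_smul]
  inv_mem' := by
    rintro a ⟨c, hc⟩
    by_cases h0 : c = 0
    · refine ⟨0, fun v => ?_⟩
      have h1 : ρ a (ρ a⁻¹ v) = v := by
        have : ρ (a * a⁻¹) v = v := by simp
        rw [map_mul] at this
        exact this
      have h2 : ρ a (ρ a⁻¹ v) = 0 := by rw [hc, h0, zero_smul]
      have h3 : v = 0 := by rw [← h1, h2]
      rw [h3]; simp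
    · refine ⟨c⁻¹, fun v => ?_⟩
      have h1 : ρ a (ρ a⁻¹ v) = v := by
        have : ρ (a * a⁻¹) v = v := by simp
        rw [map_mul] at this
        exact this
      rw [hc] at h1
      calc ρ a⁻¹ v = c⁻¹ • (c • ρ a⁻¹ v) := by rw [smul_smul, inv_mul_cancel₀ h0, one_smul]
        _ = c⁻¹ • v := by rw [h1]

theorem scal_le_center (ρ : G →* (V ≃ₗ[ℂ] V)) (hinj : Function.Injective ρ) :
    scal ρ ≤ Subgroup.center G := by
  rintro z ⟨c, hc⟩
  rw [Subgroup.mem_center_iff]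
  intro g
  apply hinj
  ext v
  rw [map_mul, map_mul]
  show ρ g (ρ z v) = ρ z (ρ g v)
  rw [hc, hc, map_smul]

theorem scal_cyclic (ρ : G →* (V ≃ₗ[ℂ] V)) (hinj : Function.Injective ρ) [Nontrivial V] :
    IsCyclic (scal ρ) := by
  obtain ⟨v0, hv0⟩ := exists_ne (0 : V)
  have hu : ∀ c d : ℂ, c • v0 = d • v0 → c = d := fun c d h => smul_left_injective ℂ hv0 h
  let f : scal ρ →* ℂ :=
    { toFun := fun z => z.2.choose
      map_one' := by
        apply hu
        rw [← (1 : scal ρ).2.choose_spec v0]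
        simp
      map_mul' := fun x y => by
        apply hu
        rw [← (x * y).2.choose_spec v0, mul_smul, ← y.2.choose_spec v0, ← x.2.choose_spec]
        simp only [Subgroup.coe_mul, map_mul]
        rfl }
  have hf : Function.Injective f := by
    intro x y hxy
    apply Subtype.ext
    apply hinj
    ext v
    rw [x.2.choose_spec v, y.2.choose_spec v]
    exact congrArg (· • v) hxy
  exact isCyclic_of_injective_ringHom f hf

end


theorem main (r : ℕ) : PS r := by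
  induction r using Nat.strong_induction_on with
  | _ r IH =>
  intro G _ _ V _ _ _ ρ _ hs hinj hr h1
  by_cases hA : ∃ A : Subgroup G, A.Normal ∧ (∀ x ∈ A, ∀ y ∈ A, x * y = y * x) ∧
      ∃ a ∈ A, ¬ ∃ c : ℂ, ∀ v, ρ a v = c • v
  · obtain ⟨A, hAn, hab, hns⟩ := hA
    obtain ⟨k, U, hk, hind, hsup, hbot, hU, hperm⟩ := Cfsg.Agent.Lib.H55W1.w1 ρ A hAn hab hns
    exact Cfsg.Agent.Lib.H55W2b.w2b Cfsg.Agent.Lib.H55K1.k1 (Cfsg.Agent.Lib.H55Y0.y0 Cfsg.Agent.Lib.H55K1.k1) (Cfsg.Agent.Lib.H55W2a.w2a Cfsg.Agent.Lib.H55K1.k1) ds r IH ρ hs hinj hr k U hk hind hsup hbot hU hperm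
  · push Not at hA
    have : Nontrivial V := Module.nontrivial_of_finrank_pos (R := ℂ) (by omega)
    obtain ⟨d, B, hd, hZB, hcard, hcm, hce, hKB⟩ := Cfsg.Agent.Lib.H55Y1.y1 Cfsg.Agent.Lib.H55K1.k1 xs Cfsg.Agent.Lib.H55X2.x2 (Cfsg.Agent.Lib.H55Y0.y0 Cfsg.Agent.Lib.H55K1.k1) hs (scal ρ)
      (scal_le_center ρ hinj) (scal_cyclic ρ hinj) (fun A hAn hab a ha => hA A hAn hab a ha)
    have hdr := Cfsg.Agent.Lib.H55L1.l1 ρ hinj (scal ρ) B hZB (fun z hz => hz) hcm hce d hcard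
    rw [hr] at hdr
    exact Cfsg.Agent.Lib.H55K2.mono hKB (Nat.pow_le_pow_right (by norm_num) (by omega))

theorem card_congr {X Y : Type} [Group X] [Group Y] (e : X ≃* Y) :
    Nat.card (ConjClasses X) = Nat.card (ConjClasses Y) := by
  refine Nat.card_congr ⟨ConjClasses.map (e : X →* Y), ConjClasses.map (e.symm : Y →* X), ?_, ?_⟩
  · intro c
    obtain ⟨x, rfl⟩ := ConjClasses.exists_rep c
    show ConjClasses.mk (e.symm (e x)) = ConjClasses.mk x
    rw [MulEquiv.symm_apply_apply]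
  · intro c
    obtain ⟨x, rfl⟩ := ConjClasses.exists_rep c
    show ConjClasses.mk (e (e.symm x)) = ConjClasses.mk x
    rw [MulEquiv.apply_symm_apply]

theorem final (r : ℕ) (hr : 1 ≤ r) (G : Subgroup (GL (Fin r) ℂ)) [Finite ↥G] (hsolv : Group.IsSolvable ↥G)
    [hF : (Cfsg.fittingSubgroup ↥G).Normal] (H : Subgroup ↥G) :
    Nat.card (ConjClasses (↥H ⧸ (Cfsg.fittingSubgroup ↥G).subgroupOf H)) ≤ 3 ^ (r - 1) := by
  let e : GL (Fin r) ℂ ≃* ((Fin r → ℂ) ≃ₗ[ℂ] (Fin r → ℂ)) :=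
    Matrix.GeneralLinearGroup.toLin.trans (LinearMap.GeneralLinearGroup.generalLinearEquiv ℂ _)
  let ρ : G →* ((Fin r → ℂ) ≃ₗ[ℂ] (Fin r → ℂ)) := e.toMonoidHom.comp G.subtype
  have hρ : Function.Injective ρ := fun x y h => Subtype.ext (e.injective h)
  have h := main r G (Fin r → ℂ) ρ hsolv hρ (by simp) hr
  set F := Cfsg.fittingSubgroup ↥G with hFdef
  let f : H →* (G ⧸ F) := (QuotientGroup.mk' F).comp H.subtype
  have hker : f.ker = F.subgroupOf H := by
    ext x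
    simp [f, MonoidHom.mem_ker, Subgroup.mem_subgroupOf]
  have h2 : Nat.card (ConjClasses (H ⧸ f.ker)) = Nat.card (ConjClasses f.range) :=
    card_congr (QuotientGroup.quotientKerEquivRange f)
  have h3 : Nat.card (ConjClasses (H ⧸ F.subgroupOf H)) = Nat.card (ConjClasses (H ⧸ f.ker)) :=
    card_congr (QuotientGroup.quotientMulEquivOfEq hker.symm)
  rw [h3, h2]
  exact h f.range



end Cfsg.Agent.Lib.H55Asm
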