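import Cfsg.Agent.S3908
import Cfsg.Agent.Lib.MinNormSolv
import Cfsg.Agent.Lib.CoprimeAction
import Cfsg.Agent.Lib.CoprimeAction2
import Cfsg.Agent.Lib.Fitting
import Cfsg.Agent.Lib.H34Basic
import Cfsg.Agent.Lib.TransferApps
import Cfsg.Agent.Lib.ConjSylow
import Cfsg.Agent.Lib.Supersolvable2

/-! Groups in which abelian subgroups of equal order are conjugate (solvable case). -/

set_option autoImplicit false
set_option linter.unusedSectionVars false

namespace Cfsg.Agent.Lib.H55Bq

open Subgroup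
open scoped Pointwise

universe u

/-- abelian subgroups of the same order are conjugate -/
def Bp (G : Type u) [Group G] : Prop :=
  ∀ A B : Subgroup G, IsMulCommutative ↥A → IsMulCommutative ↥B → Nat.card ↥A = Nat.card ↥B →
    ∃ g : G, B = A.map (MulAut.conj g).toMonoidHom

theorem quat_order_two {n : ℕ} [NeZero n] {g : QuaternionGroup n} (hg : orderOf g = 2) :
    g = QuaternionGroup.a (n : ZMod (2 * n)) := by
  rcases g with i | i
  · have h1 : (QuaternionGroup.a i : QuaternionGroup n) ^ 2 = 1 := by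
      rw [← hg]; exact pow_orderOf_eq_one _
    rw [sq, QuaternionGroup.a_mul_a, QuaternionGroup.one_def] at h1
    have h2 : i + i = 0 := by
      injection h1
    have h0 : i ≠ 0 := by
      rintro rfl
      rw [QuaternionGroup.a_zero, orderOf_one] at hg
      omega
    have hn : 0 < n := Nat.pos_of_ne_zero (NeZero.ne n)
    have : NeZero (2 * n) := ⟨by omega⟩
    have h3 : ((i.val + i.val : ℕ) : ZMod (2 * n)) = 0 := by
      push_cast
      rw [ZMod.natCast_zmod_val]
      exact h2
    rw [ZMod.natCast_eq_zero_iff] at h3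
    have h4 : i.val < 2 * n := ZMod.val_lt i
    have h5 : i.val ≠ 0 := by
      intro h; exact h0 ((ZMod.val_eq_zero i).1 h)
    have h6 : i.val = n := by
      obtain ⟨k, hk⟩ := h3
      have hk1 : k = 1 := by
        rcases k with _ | _ | k
        · omega
        · rfl
        · exfalso
          have : 2 * n * (k + 1 + 1) = 2 * n * k + 4 * n := by ring
          omega
      subst hk1
      omega
    congr 1
    calc i = ((i.val : ℕ) : ZMod (2 * n)) := (ZMod.natCast_zmod_val i).symm
      _ = (n : ZMod (2 * n)) := by rw [h6]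
  · rw [QuaternionGroup.orderOf_xa] at hg
    omega

/-- In a cyclic or quaternion `p`-group two subgroups of order `p` coincide. -/
theorem zpowers_eq {P : Type u} [Group P] [Finite P] {p : ℕ} [hp : Fact p.Prime]
    (h : IsCyclic P ∨ (p = 2 ∧ ∃ n : ℕ, 1 ≤ n ∧ Nonempty (P ≃* QuaternionGroup (2 ^ n))))
    {x y : P} (hx : orderOf x = p) (hy : orderOf y = p) : zpowers x = zpowers y := by
  rcases h with h | ⟨rfl, n, hn, ⟨φ⟩⟩
  · apply Cfsg.Agent.Lib.TransferApps.cyclic_subgroup_eq_of_card
    rw [Nat.card_zpowers, Nat.card_zpowers, hx, hy]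
  · have : NeZero (2 ^ n) := ⟨by positivity⟩
    have h1 : φ x = φ y := by
      rw [quat_order_two (g := φ x) (by rw [MulEquiv.orderOf_eq]; exact hx),
        quat_order_two (g := φ y) (by rw [MulEquiv.orderOf_eq]; exact hy)]
    rw [φ.injective h1]

/-- elements of order 4 are conjugate up to generators -/
theorem mem_conj_zpowers {G : Type u} [Group G] (hB : Bp G) {x y : G}
    (h : orderOf x = orderOf y) : ∃ g : G, ∃ k : ℤ, x = g * y ^ k * g⁻¹ := by
  obtain ⟨g, hg⟩ := hB (zpowers y) (zpowers x) inferInstance inferInstance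
    (by rw [Nat.card_zpowers, Nat.card_zpowers, h])
  have h1 : x ∈ zpowers x := mem_zpowers x
  rw [hg] at h1
  obtain ⟨w, ⟨k, rfl⟩, hw⟩ := h1
  exact ⟨g, k, hw.symm⟩

/-- no generalized quaternion Sylow subgroups of order `≥ 16` -/
theorem quat_false {G : Type u} [Group G] [Finite G] [Group.IsSolvable G] (hB : Bp G)
    (P : Sylow 2 G) {n : ℕ} (hn : 2 ≤ n)
    (φ : ↥(P : Subgroup G) ≃* QuaternionGroup (2 ^ n)) : False := by
  have : Fact (Nat.Prime 2) := ⟨Nat.prime_two⟩
  have hNZ : NeZero (2 ^ n) := ⟨by positivity⟩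
  set K : Subgroup G := Cfsg.pPrimeCore 2 G with hK
  have hKn : K.Normal := Cfsg.Agent.Lib.Fitting.normal_pPrimeCore 2
  set π := QuotientGroup.mk' K with hπ
  have hπs : Function.Surjective π := QuotientGroup.mk'_surjective _
  have hcoreBot : Cfsg.pPrimeCore 2 (G ⧸ K) = ⊥ :=
    Cfsg.Agent.Lib.Fitting.pPrimeCore_quotient_pPrimeCore 2
  have hsolQ : Group.IsSolvable (G ⧸ K) := inferInstance
  set T : Subgroup (G ⧸ K) := Cfsg.pCore 2 (G ⧸ K) with hT
  have hTn : T.Normal := Cfsg.Agent.Lib.Fitting.normal_pCore 2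
  have hTp : IsPGroup 2 T := Cfsg.Agent.Lib.Fitting.isPGroup_pCore 2
  have hCT : centralizer (T : Set (G ⧸ K)) ≤ T :=
    Cfsg.Agent.Lib.H34Basic.centralizer_pCore_le 2 hcoreBot
  have hcardP : Nat.card ↥(P : Subgroup G) = 4 * 2 ^ n := by
    rw [Nat.card_congr φ.toEquiv, Nat.card_eq_fintype_card, QuaternionGroup.card]
  -- `π` is injective on `P`
  have hKcop : (Nat.card K).Coprime 2 := Cfsg.Agent.Lib.Fitting.coprime_card_pPrimeCore 2
  have hKP : ∀ x ∈ (P : Subgroup G), x ∈ K → x = 1 := by
    intro x hx hxK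
    obtain ⟨k, hk⟩ := (IsPGroup.iff_orderOf.1 P.2) ⟨x, hx⟩
    rw [Subgroup.orderOf_mk] at hk
    have h1 : orderOf x ∣ Nat.card K := by
      have := orderOf_dvd_natCard (⟨x, hxK⟩ : K)
      rwa [Subgroup.orderOf_mk] at this
    have h2 : (orderOf x).Coprime 2 := Nat.Coprime.coprime_dvd_left h1 hKcop
    rcases k with _ | k
    · rw [pow_zero] at hk
      exact orderOf_eq_one_iff.1 hk
    · exfalso
      rw [hk] at h2
      have := Nat.Coprime.eq_one_of_dvd h2.symm (dvd_pow_self 2 (by omega))
      omega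
  have hinj : ∀ x ∈ (P : Subgroup G), ∀ y ∈ (P : Subgroup G), π x = π y → x = y := by
    intro x hx y hy h
    have h1 : x⁻¹ * y ∈ K := (QuotientGroup.eq).1 h
    have h2 := hKP _ (mul_mem (inv_mem hx) hy) h1
    exact (inv_mul_eq_one.1 h2)
  -- elements of `T` lift to `P`
  have hTP : T ≤ (P : Subgroup G).map π := by
    have h1 : ∃ Q : Sylow 2 (G ⧸ K), (Q : Subgroup (G ⧸ K)) = (P : Subgroup G).map π :=
      ⟨P.mapSurjective hπs, rfl⟩
    obtain ⟨Q, hQ⟩ := h1
    rw [← hQ]
    exact Cfsg.Agent.Lib.Fitting.pCore_le_sylow 2 Q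
  -- an element of order 4 in `P` whose image is in `T`
  have hex : ∃ c ∈ (P : Subgroup G), orderOf c = 4 ∧ π c ∈ T := by
    by_contra hcon
    push Not at hcon
    have h1 : ∀ t ∈ T, ∀ s : G ⧸ K, s * t = t * s := by
      have hord : ∀ c ∈ (P : Subgroup G), π c ∈ T → c ^ 2 = 1 := by
        intro c hc hcT
        obtain ⟨k, hk⟩ := (IsPGroup.iff_orderOf.1 P.2) ⟨c, hc⟩
        rw [Subgroup.orderOf_mk] at hk
        rcases Nat.lt_or_ge k 2 with hk2 | hk2
        · apply orderOf_dvd_iff_pow_eq_one.1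
          rw [hk]
          calc 2 ^ k ∣ 2 ^ 1 := pow_dvd_pow 2 (by omega)
            _ = 2 := pow_one 2
        · exfalso
          refine hcon (c ^ 2 ^ (k - 2)) (pow_mem hc _) ?_ ?_
          · rw [orderOf_pow_of_dvd (pow_ne_zero _ (by norm_num)) (by
              rw [hk]; exact pow_dvd_pow 2 (by omega)), hk, Nat.pow_div (by omega) (by norm_num)]
            have : k - (k - 2) = 2 := by omega
            rw [this]
          · rw [map_pow]; exact pow_mem hcT _
      have huni : ∀ c ∈ (P : Subgroup G), ∀ d ∈ (P : Subgroup G), π c ∈ T → π d ∈ T →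
          c ≠ 1 → d ≠ 1 → c = d := by
        intro c hc d hd hcT hdT hc1 hd1
        have o1 : orderOf (⟨c, hc⟩ : ↥(P : Subgroup G)) = 2 := by
          rw [Subgroup.orderOf_mk]
          exact orderOf_eq_prime (hord c hc hcT) hc1
        have o2 : orderOf (⟨d, hd⟩ : ↥(P : Subgroup G)) = 2 := by
          rw [Subgroup.orderOf_mk]
          exact orderOf_eq_prime (hord d hd hdT) hd1
        have h1 : φ ⟨c, hc⟩ = φ ⟨d, hd⟩ := by
          rw [quat_order_two (g := φ ⟨c, hc⟩) (by rw [MulEquiv.orderOf_eq]; exact o1),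
            quat_order_two (g := φ ⟨d, hd⟩) (by rw [MulEquiv.orderOf_eq]; exact o2)]
        exact congrArg Subtype.val (φ.injective h1)
      intro t ht s
      obtain ⟨c, hc, rfl⟩ := hTP ht
      have h2 : s * π c * s⁻¹ ∈ T := hTn.conj_mem _ ht s
      obtain ⟨d, hd, hds⟩ := hTP h2
      by_cases hc1 : c = 1
      · subst hc1; simp
      · have hd1 : d ≠ 1 := by
          rintro rfl
          rw [map_one] at hds
          have : π c = 1 := by
            have h3 := congrArg (fun z => s⁻¹ * z * s) hds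
            simp only [mul_assoc, inv_mul_cancel, mul_one, inv_mul_cancel_left] at h3
            exact h3.symm
          apply hc1
          apply hinj c hc 1 (one_mem _)
          rw [this, map_one]
        have := huni c hc d hd ht (by rw [hds]; exact h2) hc1 hd1
        subst this
        rw [eq_mul_inv_iff_mul_eq] at hds
        exact hds.symm
    have h2 : (⊤ : Subgroup (G ⧸ K)) ≤ T := by
      intro s _
      apply hCT
      rw [mem_centralizer_iff]
      intro t ht
      exact (h1 t ht s).symm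
    -- then `P` has exponent 2
    have h3 : orderOf (φ.symm (QuaternionGroup.xa 0)) = 4 := by
      rw [MulEquiv.orderOf_eq, QuaternionGroup.orderOf_xa]
    exact hcon (φ.symm (QuaternionGroup.xa 0)) (φ.symm (QuaternionGroup.xa 0)).2
      (by rw [Subgroup.orderOf_coe]; exact h3) (h2 (mem_top _))
  obtain ⟨c, hcP, hc4, hcT⟩ := hex
  have hall4 : ∀ d : G, orderOf d = 4 → π d ∈ T := by
    intro d hd
    obtain ⟨g, k, rfl⟩ := mem_conj_zpowers hB (x := d) (y := c) (by rw [hd, hc4])
    rw [map_mul, map_mul, map_inv, map_zpow]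
    exact hTn.conj_mem _ (zpow_mem hcT k) _
  -- `P` is generated by elements of order 4
  have hPT : ∀ d ∈ (P : Subgroup G), π d ∈ T := by
    intro d hd
    have key : ∀ q : QuaternionGroup (2 ^ n), π ((φ.symm q : ↥(P : Subgroup G)) : G) ∈ T := by
      have hxa : ∀ i : ZMod (2 * 2 ^ n),
          π ((φ.symm (QuaternionGroup.xa i) : ↥(P : Subgroup G)) : G) ∈ T := by
        intro i
        apply hall4
        rw [Subgroup.orderOf_coe, MulEquiv.orderOf_eq, QuaternionGroup.orderOf_xa]
      intro q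
      rcases q with i | i
      · have h1 : (QuaternionGroup.a i : QuaternionGroup (2 ^ n)) =
            QuaternionGroup.xa 0 * QuaternionGroup.xa (i - ((2 ^ n : ℕ) : ZMod (2 * 2 ^ n))) := by
          rw [QuaternionGroup.xa_mul_xa]
          congr 1
          ring
        rw [h1, map_mul, Subgroup.coe_mul, map_mul]
        exact mul_mem (hxa _) (hxa _)
      · exact hxa i
    have := key (φ ⟨d, hd⟩)
    rwa [MulEquiv.symm_apply_apply] at this
  -- `w ∈ P` with `w ^ 2` of order 4
  set w : ↥(P : Subgroup G) := φ.symm (QuaternionGroup.a 1 ^ (2 ^ (n - 2))) with hw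
  have hw4 : orderOf ((w : G) ^ 2) = 4 := by
    have h1 : orderOf (w ^ 2) = 4 := by
      rw [hw, ← map_pow, MulEquiv.orderOf_eq, ← pow_mul, orderOf_pow_of_dvd (by positivity)
        (by
          rw [QuaternionGroup.orderOf_a_one, ← pow_succ, ← pow_succ']
          exact pow_dvd_pow 2 (by omega)), QuaternionGroup.orderOf_a_one, ← pow_succ, ← pow_succ',
        Nat.pow_div (by omega) (by norm_num)]
      have : n + 1 - (n - 2 + 1) = 2 := by omega
      rw [this]
    rw [← Subgroup.coe_pow, Subgroup.orderOf_coe, h1]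
  set x : ↥(P : Subgroup G) := φ.symm (QuaternionGroup.xa 0) with hx
  have hx4 : orderOf (x : G) = 4 := by
    rw [Subgroup.orderOf_coe, hx, MulEquiv.orderOf_eq, QuaternionGroup.orderOf_xa]
  obtain ⟨g, k, hgk⟩ := mem_conj_zpowers hB (x := (x : G)) (y := (w : G) ^ 2) (by rw [hx4, hw4])
  -- `x` is a square of an element whose image lies in `T`
  have hT' : π (g * (w : G) ^ k * g⁻¹) ∈ T := by
    rw [map_mul, map_mul, map_inv, map_zpow]
    exact hTn.conj_mem _ (zpow_mem (hPT _ w.2) k) _
  obtain ⟨v, hv, hvg⟩ := hTP hT'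
  have hxv : (x : G) = v ^ 2 := by
    apply hinj _ x.2 _ (pow_mem hv 2)
    rw [map_pow, hvg, hgk, ← map_pow]
    congr 1
    rw [conj_pow, ← zpow_natCast, ← zpow_natCast, ← zpow_mul, ← zpow_mul, mul_comm]
  have hsq : φ x = (φ ⟨v, hv⟩) ^ 2 := by
    rw [← map_pow]
    congr 1
    exact Subtype.ext hxv
  rw [hx, MulEquiv.apply_symm_apply] at hsq
  generalize φ ⟨v, hv⟩ = q at hsq
  rcases q with i | i
  · rw [sq, QuaternionGroup.a_mul_a] at hsq
    cases hsq
  · rw [QuaternionGroup.xa_sq] at hsq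
    cases hsq

section
variable {G : Type u} [Group G] [Finite G]

/-- the two possibilities for an elementary abelian normal `p`-subgroup -/
theorem dich [Group.IsSolvable G] (hB : Bp G) {N : Subgroup G} (hNn : N.Normal) {p : ℕ}
    [hp : Fact p.Prime] (hNb : N ≠ ⊥) (hNp : ∀ x ∈ N, x ^ p = 1) :
    (∀ g : G, (∃ k : ℕ, orderOf g = p ^ k) → g ∈ N) ∨
    ((∀ x : G, orderOf x = p → x ∈ N) ∧ Nat.card N = p ∧
      ∀ P : Sylow p G, IsCyclic ↥(P : Subgroup G) ∨ (p = 2 ∧ Nat.card ↥(P : Subgroup G) = 8)) := by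
  obtain ⟨y, hyN, hy1⟩ := N.bot_or_exists_ne_one.resolve_left hNb
  have hyo : orderOf y = p := orderOf_eq_prime (hNp y hyN) hy1
  have hord : ∀ x : G, orderOf x = p → x ∈ N := by
    intro x hx
    obtain ⟨g, k, rfl⟩ := mem_conj_zpowers hB (x := x) (y := y) (by rw [hx, hyo])
    exact hNn.conj_mem _ (zpow_mem hyN k) g
  by_cases hex : ∃ P : Sylow p G, ∀ x ∈ (P : Subgroup G), x ^ p = 1
  · left
    obtain ⟨P, hP⟩ := hex
    rintro g ⟨k, hk⟩
    have hg : IsPGroup p (zpowers g) := by
      apply IsPGroup.of_card (n := k)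
      rw [Nat.card_zpowers, hk]
    obtain ⟨Q, hQ⟩ := hg.exists_le_sylow
    obtain ⟨c, hc⟩ := MulAction.exists_smul_eq G P Q
    have hgQ : g ∈ (Q : Subgroup G) := hQ (mem_zpowers g)
    rw [← hc] at hgQ
    rw [Sylow.coe_subgroup_smul, Subgroup.mem_pointwise_smul_iff_inv_smul_mem] at hgQ
    have h1 := hP _ hgQ
    rw [MulAut.smul_def, MulAut.conj_inv_apply, show c⁻¹ * g * c = c⁻¹ * g * (c⁻¹)⁻¹ by
      rw [inv_inv], conj_pow] at h1
    have h2 : g ^ p = 1 := by
      have := congrArg (fun z => c * z * c⁻¹) h1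
      simpa [mul_assoc] using this
    by_cases hg1 : g = 1
    · rw [hg1]; exact one_mem _
    · exact hord g (orderOf_eq_prime h2 hg1)
  · right
    have hall : ∀ P : Sylow p G, IsCyclic ↥(P : Subgroup G) ∨
        (p = 2 ∧ ∃ n : ℕ, 1 ≤ n ∧ Nonempty (↥(P : Subgroup G) ≃* QuaternionGroup (2 ^ n))) := by
      intro P
      rcases Cfsg.Agent.S3908.struct hB P with h | h
      · exact absurd ⟨P, h⟩ hex
      · exact h
    refine ⟨hord, ?_, ?_⟩
    · have hNpg : IsPGroup p N := by
        intro x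
        exact ⟨1, by rw [pow_one]; exact Subtype.ext (hNp x x.2)⟩
      obtain ⟨P, hP⟩ := hNpg.exists_le_sylow
      have h1 : N = zpowers y := by
        apply le_antisymm
        · intro x hx
          by_cases hx1 : x = 1
          · rw [hx1]; exact one_mem _
          · have hxo : orderOf x = p := orderOf_eq_prime (hNp x hx) hx1
            have h2 := zpowers_eq (hall P) (x := ⟨x, hP hx⟩) (y := ⟨y, hP hyN⟩)
              (by rw [Subgroup.orderOf_mk]; exact hxo) (by rw [Subgroup.orderOf_mk]; exact hyo)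
            have h3 : (⟨x, hP hx⟩ : ↥(P : Subgroup G)) ∈ zpowers (⟨y, hP hyN⟩ : ↥(P : Subgroup G)) := by
              rw [← h2]; exact mem_zpowers _
            obtain ⟨k, hk⟩ := h3
            exact ⟨k, congrArg Subtype.val hk⟩
        · rw [zpowers_le]; exact hyN
      rw [h1, Nat.card_zpowers, hyo]
    · intro P
      rcases hall P with h | ⟨rfl, n, hn, ⟨φ⟩⟩
      · exact Or.inl h
      · right
        refine ⟨rfl, ?_⟩
        have hn1 : n = 1 := by
          by_contra hne
          exact quat_false hB P (n := n) (by omega) φ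
        subst hn1
        have : NeZero (2 ^ 1) := ⟨by norm_num⟩
        rw [Nat.card_congr φ.toEquiv, Nat.card_eq_fintype_card, QuaternionGroup.card]
        norm_num

/-- two Sylow subgroups of `G` inside `C` are conjugate in `C` -/
theorem sylow_conj_in {p : ℕ} [hp : Fact p.Prime] {TA TB C : Subgroup G} (hA : TA ≤ C)
    (hB : TB ≤ C) (hcA : Nat.card TA = p ^ (Nat.card G).factorization p)
    (hcB : Nat.card TB = p ^ (Nat.card G).factorization p) :
    ∃ c ∈ C, TB = TA.map (MulAut.conj c).toMonoidHom := by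
  have key : ∀ T : Subgroup G, T ≤ C → Nat.card T = p ^ (Nat.card G).factorization p →
      Nat.card (T.subgroupOf C) = p ^ (Nat.card C).factorization p := by
    intro T hT hc
    have h1 : Nat.card (T.subgroupOf C) = Nat.card T := Nat.card_congr (subgroupOfEquivOfLe hT).toEquiv
    rw [h1, hc]
    congr 1
    apply le_antisymm
    · rw [← hp.out.pow_dvd_iff_le_factorization Nat.card_pos.ne', ← hc]
      exact card_dvd_of_le hT
    · exact (Nat.factorization_le_iff_dvd Nat.card_pos.ne' Nat.card_pos.ne').2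
        (card_subgroup_dvd_card C) p
  obtain ⟨c, hc⟩ := MulAction.exists_smul_eq C (Sylow.ofCard _ (key TA hA hcA))
    (Sylow.ofCard _ (key TB hB hcB))
  have h1 := congrArg (fun S : Sylow p C => (S : Subgroup C).map C.subtype) hc
  simp only [Sylow.coe_subgroup_smul] at h1
  refine ⟨c, c.2, ?_⟩
  have h2 : ((Sylow.ofCard _ (key TB hB hcB) : Sylow p C) : Subgroup C).map C.subtype = TB := by
    change (TB.subgroupOf C).map C.subtype = TB
    rw [subgroupOf_map_subtype, inf_eq_left.2 hB]
  rw [h2] at h1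
  rw [← h1]
  ext x
  constructor
  · rintro ⟨w, hw, rfl⟩
    have hw' : w ∈ (MulAut.conj c • (TA.subgroupOf C) : Subgroup C) := hw
    rw [Subgroup.mem_pointwise_smul_iff_inv_smul_mem, MulAut.smul_def, MulAut.conj_inv_apply,
      mem_subgroupOf] at hw'
    exact ⟨_, hw', by simp [mul_assoc]⟩
  · rintro ⟨t, ht, rfl⟩
    refine ⟨c * ⟨t, hA ht⟩ * c⁻¹, ?_, by simp⟩
    change c * ⟨t, hA ht⟩ * c⁻¹ ∈ (MulAut.conj c • (TA.subgroupOf C) : Subgroup C)
    rw [Subgroup.mem_pointwise_smul_iff_inv_smul_mem, MulAut.smul_def, MulAut.conj_inv_apply,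
      mem_subgroupOf]
    simpa [mul_assoc] using ht

theorem comm_sup {A B : Subgroup G} (hA : IsMulCommutative A) (hB : IsMulCommutative B)
    (hAB : A ≤ centralizer (B : Set G)) : IsMulCommutative (A ⊔ B : Subgroup G) := by
  have self : ∀ {C : Subgroup G}, IsMulCommutative C → C ≤ centralizer (C : Set G) := by
    intro C hC x hx
    rw [mem_centralizer_iff]
    intro y hy
    exact isMulCommutative_iff_of_setLike.mp hC y hy x hx
  have hle : A ⊔ B ≤ centralizer ((A ⊔ B : Subgroup G) : Set G) := by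
    rw [sup_le_iff]
    have hBA : B ≤ centralizer (A : Set G) := le_centralizer_iff.1 hAB
    refine ⟨?_, ?_⟩
    · rw [le_centralizer_iff, sup_le_iff]
      exact ⟨self hA, hBA⟩
    · rw [le_centralizer_iff, sup_le_iff]
      exact ⟨hAB, self hB⟩
  rw [isMulCommutative_iff_of_setLike]
  intro x hx y hy
  exact (mem_centralizer_iff.1 (hle hy)) x hx

theorem card_sup_eq {A B : Subgroup G} (hn : B ≤ normalizer (A : Set G))
    (hc : (Nat.card A).Coprime (Nat.card B)) :
    Nat.card (A ⊔ B : Subgroup G) = Nat.card A * Nat.card B := by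
  have h := Cfsg.Agent.Lib.ConjSylow.card_sup_mul_card_inf (H := B) (K := A) hn
  have h2 : Nat.card (B ⊓ A : Subgroup G) = 1 := by
    apply Nat.eq_one_of_dvd_coprimes hc (card_dvd_of_le inf_le_right) (card_dvd_of_le inf_le_left)
  rw [h2, mul_one, sup_comm, mul_comm] at h
  exact h

/-- The core of the argument. -/
theorem core [Group.IsSolvable G] (hB : Bp G) {N : Subgroup G} (hNn : N.Normal) {p : ℕ}
    [hp : Fact p.Prime] (hNb : N ≠ ⊥) (hNp : ∀ x ∈ N, x ^ p = 1)
    {H TA TB : Subgroup G} (hH : IsMulCommutative H) (hHp : (Nat.card H).Coprime p)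
    (hTA : IsPGroup p TA) (hTB : IsPGroup p TB) (hNA : N ≤ TA) (hNB : N ≤ TB)
    (hHA : ∀ t ∈ TA, ∀ h ∈ H, t * h * t⁻¹ * h⁻¹ ∈ N)
    (hHB : ∀ t ∈ TB, ∀ h ∈ H, t * h * t⁻¹ * h⁻¹ ∈ N)
    (hcard : Nat.card TA = Nat.card TB) :
    ∃ c : G, TB ⊔ H = (TA ⊔ H).map (MulAut.conj c).toMonoidHom := by
  have hNpg : IsPGroup p N := by
    intro x
    exact ⟨1, by rw [pow_one]; exact Subtype.ext (hNp x x.2)⟩
  have triv : ∀ T : Subgroup G, IsPGroup p T → ∀ x ∈ T, ∃ k : ℕ, orderOf x = p ^ k := by
    intro T hT x hx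
    obtain ⟨k, hk⟩ := (IsPGroup.iff_orderOf.1 hT) ⟨x, hx⟩
    rw [Subgroup.orderOf_mk] at hk
    exact ⟨k, hk⟩
  -- `H` normalises `T`
  have hnorm : ∀ T : Subgroup G, N ≤ T → (∀ t ∈ T, ∀ h ∈ H, t * h * t⁻¹ * h⁻¹ ∈ N) →
      H ≤ normalizer (T : Set G) := by
    intro T hNT hT
    rw [le_normalizer_iff]
    intro h hh t ht
    have h1 := hT (t⁻¹) (inv_mem ht) h hh
    have h2 : h * t * h⁻¹ = t * (t⁻¹ * h * (t⁻¹)⁻¹ * h⁻¹) := by group
    rw [h2]
    exact mul_mem ht (hNT h1)
  have hcopT : ∀ T : Subgroup G, IsPGroup p T → (Nat.card H).Coprime (Nat.card T) := by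
    intro T hT
    obtain ⟨k, hk⟩ := IsPGroup.iff_card.1 hT
    rw [hk]
    exact Nat.Coprime.pow_right k hHp
  have hcomm : ∀ T : Subgroup G, (∀ t ∈ T, ∀ h ∈ H, t * h * t⁻¹ * h⁻¹ ∈ N) → ⁅T, H⁆ ≤ N := by
    intro T hT
    rw [commutator_le]
    intro t ht h hh
    exact hT t ht h hh
  rcases dich hB hNn hNb hNp with h1 | ⟨hord, hcN, hall⟩
  · have e1 : TA = N := le_antisymm (fun x hx => h1 x (triv TA hTA x hx)) hNA
    have e2 : TB = N := le_antisymm (fun x hx => h1 x (triv TB hTB x hx)) hNB
    refine ⟨1, ?_⟩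
    rw [e1, e2]
    ext x
    simp
  by_cases hc : N ≤ centralizer (H : Set G)
  · have hsolN : Group.IsSolvable H := Group.isSolvable_of_comm fun a b => (isMulCommutative_iff.mp hH) a b
    have cA : TA ≤ centralizer (H : Set G) :=
      Cfsg.Agent.Lib.CoprimeAction2.le_centralizer_of_series (hnorm TA hNA hHA) (hcopT TA hTA)
        (Or.inl hsolN) (hcomm TA hHA) hc
    have cB : TB ≤ centralizer (H : Set G) :=
      Cfsg.Agent.Lib.CoprimeAction2.le_centralizer_of_series (hnorm TB hNB hHB) (hcopT TB hTB)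
        (Or.inl hsolN) (hcomm TB hHB) hc
    by_cases hab : IsMulCommutative TA ∧ IsMulCommutative TB
    · obtain ⟨g, hg⟩ := hB (TA ⊔ H) (TB ⊔ H) (comm_sup hab.1 hH cA) (comm_sup hab.2 hH cB) (by
        rw [card_sup_eq (hnorm TA hNA hHA) (hcopT TA hTA).symm,
          card_sup_eq (hnorm TB hNB hHB) (hcopT TB hTB).symm, hcard])
      exact ⟨g, hg⟩
    · -- then both are Sylow subgroups
      have hsyl : Nat.card TA = p ^ (Nat.card G).factorization p := by
        by_contra hne
        apply hab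
        have key : ∀ T : Subgroup G, IsPGroup p T → Nat.card T ≠ p ^ (Nat.card G).factorization p →
            IsMulCommutative T := by
          intro T hT hTne
          obtain ⟨P, hP⟩ := hT.exists_le_sylow
          rcases hall P with hcy | ⟨rfl, h8⟩
          · rw [isMulCommutative_iff_of_setLike]
            intro x hx y hy
            have : IsMulCommutative ↥(P : Subgroup G) := inferInstance
            exact isMulCommutative_iff_of_setLike.mp this x (hP hx) y (hP hy)
          · have h3 : Nat.card T ∣ 2 ^ 3 := by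
              have := card_dvd_of_le hP
              rw [h8] at this
              exact this
            rw [← P.card_eq_multiplicity, h8] at hTne
            obtain ⟨k, hk, hkk⟩ := (Nat.dvd_prime_pow Nat.prime_two).1 h3
            have hk2 : k ≤ 2 := by
              by_contra hk2
              have : k = 3 := by omega
              subst this
              exact hTne (by rw [hkk]; norm_num)
            interval_cases k
            · have : Subsingleton T := (Nat.card_eq_one_iff_unique.1 (by simpa using hkk)).1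
              exact ⟨⟨fun a b => Subsingleton.elim _ _⟩⟩
            · have : IsCyclic T := isCyclic_of_prime_card (p := 2) (by simpa using hkk)
              infer_instance
            · exact IsPGroup.isMulCommutative_of_card_eq_prime_sq hkk
        exact ⟨key TA hTA hne, key TB hTB (by rw [← hcard]; exact hne)⟩
      obtain ⟨c, hcC, hcT⟩ := sylow_conj_in cA cB hsyl (by rw [← hcard]; exact hsyl)
      refine ⟨c, ?_⟩
      rw [Subgroup.map_sup, ← hcT]
      congr 1
      ext x
      rw [Cfsg.Agent.Lib.ConjSylow.mem_conj]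
      constructor
      · intro hx
        rw [mul_assoc, (mem_centralizer_iff.1 hcC) x hx, inv_mul_cancel_left]
        exact hx
      · intro hx
        have h2 := (mem_centralizer_iff.1 hcC) _ hx
        have h3 : x = c⁻¹ * x * c := by
          have : c⁻¹ * x * c * c = x * c := by
            rw [h2]; group
          exact (mul_right_cancel this).symm
        rw [h3]; exact hx
  · -- `TA = N = TB`
    have key : ∀ T : Subgroup G, IsPGroup p T → N ≤ T →
        (∀ t ∈ T, ∀ h ∈ H, t * h * t⁻¹ * h⁻¹ ∈ N) → T = N := by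
      intro T hT hNT hTH
      have hbot : T ⊓ centralizer (H : Set G) = ⊥ := by
        by_contra hne
        obtain ⟨x, hx, hx1⟩ := (T ⊓ centralizer (H : Set G)).bot_or_exists_ne_one.resolve_left hne
        obtain ⟨k, hk⟩ := triv T hT x hx.1
        have hk0 : k ≠ 0 := by
          rintro rfl
          rw [pow_zero] at hk
          exact hx1 (orderOf_eq_one_iff.1 hk)
        have ho : orderOf (x ^ p ^ (k - 1)) = p := by
          rw [orderOf_pow_of_dvd (pow_ne_zero _ hp.out.ne_zero) (by
            rw [hk]; exact pow_dvd_pow p (by omega)), hk, Nat.pow_div (by omega) hp.out.pos]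
          have : k - (k - 1) = 1 := by omega
          rw [this, pow_one]
        have hmem := hord _ ho
        have hN : N = zpowers (x ^ p ^ (k - 1)) := by
          symm
          apply Subgroup.eq_of_le_of_card_ge
          · rw [zpowers_le]; exact hmem
          · rw [Nat.card_zpowers, ho, hcN]
        apply hc
        rw [hN, zpowers_le]
        exact pow_mem hx.2 _
      have hsolN : Group.IsSolvable H := Group.isSolvable_of_comm fun a b => (isMulCommutative_iff.mp hH) a b
      have h2 := Cfsg.Agent.Lib.CoprimeAction2.commutator_sup_centralizer (hnorm T hNT hTH)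
        (hcopT T hT) (Or.inl hsolN)
      rw [hbot, sup_bot_eq] at h2
      apply le_antisymm _ hNT
      rw [← h2]
      exact hcomm T hTH
    refine ⟨1, ?_⟩
    rw [key TA hTA hNA hHA, key TB hTB hNB hHB]
    ext x
    simp

theorem decomp {N : Subgroup G} {p : ℕ} [hp : Fact p.Prime]
    (hNpg : IsPGroup p N) {A : Subgroup G} (hNA : N ≤ A)
    (hA : ∀ a ∈ A, ∀ b ∈ A, a * b * a⁻¹ * b⁻¹ ∈ N) :
    ∃ T H : Subgroup G, IsPGroup p T ∧ N ≤ T ∧ T ≤ A ∧ H ≤ A ∧ T ⊔ H = A ∧ IsMulCommutative H ∧
      (Nat.card H).Coprime p ∧ Nat.card T = p ^ (Nat.card A).factorization p ∧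
      Nat.card H * Nat.card T = Nat.card A := by
  have hNA' : IsPGroup p (N.subgroupOf A) := hNpg.of_equiv (subgroupOfEquivOfLe hNA).symm
  obtain ⟨Q, hQ⟩ := hNA'.exists_le_sylow
  set T : Subgroup G := (Q : Subgroup A).map A.subtype with hT
  have hTA : T ≤ A := map_subtype_le _
  have hNT : N ≤ T := by
    intro x hx
    exact ⟨⟨x, hNA hx⟩, hQ (mem_subgroupOf.2 hx), rfl⟩
  have hTp : IsPGroup p T := Q.2.map _
  have hTc : Nat.card T = p ^ (Nat.card A).factorization p := by
    rw [hT, card_map_of_injective A.subtype_injective]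
    exact Q.card_eq_multiplicity
  have hTsub : T.subgroupOf A = Q := by
    rw [hT, Subgroup.subgroupOf, comap_map_eq_self_of_injective A.subtype_injective]
  have hrel : T.relIndex A = (Q : Subgroup A).index := by
    rw [Subgroup.relIndex, hTsub]
  have hnorm : A ≤ normalizer (T : Set G) := by
    rw [le_normalizer_iff]
    intro a ha t ht
    have h2 : a * t * a⁻¹ = (a * t * a⁻¹ * t⁻¹) * t := by group
    rw [h2]
    exact mul_mem (hNT (hA a ha t (hTA ht))) ht
  have hnd : ¬ p ∣ (Q : Subgroup A).index := Q.not_dvd_index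
  have hcopi : (T.relIndex A).Coprime p := by
    rw [hrel]
    exact ((Nat.Prime.coprime_iff_not_dvd hp.out).2 hnd).symm
  obtain ⟨H, hHA, hHc, hTH, hsup⟩ := Cfsg.Agent.Lib.CoprimeAction.exists_complement_rel hnorm (by
    rw [inf_eq_left.2 hTA, hTc]
    exact Nat.Coprime.pow_left _ hcopi.symm)
  rw [inf_eq_left.2 hTA] at hsup
  refine ⟨T, H, hTp, hNT, hTA, hHA, hsup, ?_, ?_, hTc, ?_⟩
  · rw [isMulCommutative_iff_of_setLike]
    intro x hx y hy
    have h1 : x * y * x⁻¹ * y⁻¹ ∈ T ⊓ H :=
      ⟨hNT (hA x (hHA hx) y (hHA hy)),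
        H.mul_mem (H.mul_mem (H.mul_mem hx hy) (H.inv_mem hx)) (H.inv_mem hy)⟩
    rw [hTH, mem_bot] at h1
    have h2 : x * y * x⁻¹ = y := by
      rw [mul_inv_eq_one] at h1; exact h1
    rw [mul_inv_eq_iff_eq_mul] at h2
    exact h2
  · rw [hHc]; exact hcopi
  · rw [hHc, Subgroup.relIndex, hTsub, hT, card_map_of_injective A.subtype_injective]
    exact (Q : Subgroup A).index_mul_card

theorem map_mk_conj {N : Subgroup G} [N.Normal] (A : Subgroup G) (g : G) :
    (A.map (MulAut.conj g).toMonoidHom).map (QuotientGroup.mk' N) =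
      (A.map (QuotientGroup.mk' N)).map (MulAut.conj (QuotientGroup.mk' N g)).toMonoidHom := by
  rw [Subgroup.map_map, Subgroup.map_map]
  congr 1

/-- quotients by elementary abelian normal subgroups -/
theorem step [Group.IsSolvable G] (hB : Bp G) {N : Subgroup G} [hNn : N.Normal] {p : ℕ}
    [hp : Fact p.Prime] (hNb : N ≠ ⊥) (hNp : ∀ x ∈ N, x ^ p = 1) : Bp (G ⧸ N) := by
  intro A' B' hA' hB' hcard
  have hNpg : IsPGroup p N := by
    intro x
    exact ⟨1, by rw [pow_one]; exact Subtype.ext (hNp x x.2)⟩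
  set π := QuotientGroup.mk' N with hπ
  have hπs : Function.Surjective π := QuotientGroup.mk'_surjective _
  have hπN : ∀ x : G, π x = 1 ↔ x ∈ N := fun x => QuotientGroup.eq_one_iff x
  set A : Subgroup G := A'.comap π with hA
  set B : Subgroup G := B'.comap π with hBd
  have hmapA : A.map π = A' := map_comap_eq_self_of_surjective hπs _
  have hmapB : B.map π = B' := map_comap_eq_self_of_surjective hπs _
  have hNle : ∀ C : Subgroup (G ⧸ N), N ≤ C.comap π := by
    intro C x hx
    change π x ∈ C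
    rw [(hπN x).2 hx]; exact one_mem _
  have hcm : ∀ C : Subgroup (G ⧸ N), IsMulCommutative C → ∀ a ∈ C.comap π, ∀ b ∈ C.comap π,
      a * b * a⁻¹ * b⁻¹ ∈ N := by
    intro C hC a ha b hb
    rw [← hπN]
    have h1 := isMulCommutative_iff_of_setLike.mp hC (π a) ha (π b) hb
    simp only [map_mul, map_inv]
    rw [h1]; group
  have hcc : ∀ C : Subgroup (G ⧸ N), Nat.card (C.comap π) = Nat.card N * Nat.card C := by
    intro C
    rw [mul_comm]
    exact Cfsg.Agent.Lib.Supersolvable.card_comap_mk' N C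
  have hcardAB : Nat.card A = Nat.card B := by rw [hA, hBd, hcc, hcc, hcard]
  obtain ⟨TA, HA, a1, a2, a3, a4, a5, a6, a7, a8, a9⟩ := decomp hNpg (hNle A') (hcm A' hA')
  obtain ⟨TB, HB, b1, b2, b3, b4, b5, b6, b7, b8, b9⟩ := decomp hNpg (hNle B') (hcm B' hB')
  have hTT : Nat.card TA = Nat.card TB := by
    have h0 : Nat.card (comap π A') = Nat.card (comap π B') := hcardAB
    rw [a8, b8, h0]
  have hHH : Nat.card HA = Nat.card HB := by
    have h1 : Nat.card HA * Nat.card TA = Nat.card HB * Nat.card TA := by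
      rw [a9, hTT, b9]; exact hcardAB
    exact Nat.eq_of_mul_eq_mul_right Nat.card_pos h1
  obtain ⟨g, hg⟩ := hB HA HB a6 b6 hHH
  set TA' : Subgroup G := TA.map (MulAut.conj g).toMonoidHom with hTA'
  have hconjN : ∀ x ∈ N, ∀ c : G, c * x * c⁻¹ ∈ N := fun x hx c => hNn.conj_mem x hx c
  obtain ⟨c, hc⟩ := core hB hNn hNb hNp (H := HB) (TA := TA') (TB := TB) b6 b7 (a1.map _) b1
    (by
      intro x hx
      exact ⟨g⁻¹ * x * g, a2 (by simpa using hconjN x hx g⁻¹), by
        rw [MulEquiv.coe_toMonoidHom, MulAut.conj_apply]; group⟩) b2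
    (by
      rintro _ ⟨t, ht, rfl⟩ h hh
      rw [hg] at hh
      obtain ⟨k, hk, rfl⟩ := hh
      have h1 := hcm A' hA' t (a3 ht) k (a4 hk)
      have h2 := hconjN _ h1 g
      have h3 : g * (t * k * t⁻¹ * k⁻¹) * g⁻¹ =
          (MulAut.conj g).toMonoidHom t * (MulAut.conj g).toMonoidHom k *
            ((MulAut.conj g).toMonoidHom t)⁻¹ * ((MulAut.conj g).toMonoidHom k)⁻¹ := by
        simp only [MulEquiv.coe_toMonoidHom, MulAut.conj_apply]
        group
      rw [← h3]; exact h2)
    (fun t ht h hh => hcm B' hB' t (b3 ht) h (b4 hh))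
    (by rw [hTA', card_map_of_injective (MulAut.conj g).injective]; exact hTT)
  have h1 : B = A.map (MulAut.conj (c * g)).toMonoidHom := by
    have e1 : TB ⊔ HB = B := b5
    have e2 : TA ⊔ HA = A := a5
    rw [← e1, hc, hg, hTA', ← Subgroup.map_sup, e2, Subgroup.map_map]
    congr 1
    ext x
    simp [mul_assoc]
  refine ⟨π (c * g), ?_⟩
  rw [← hmapB, h1, map_mk_conj, hmapA]

end

theorem Bp.of_equiv {G : Type u} [Group G] {H : Type u} [Group H] (hB : Bp G) (e : G ≃* H) :
    Bp H := by
  intro A B hA hB' hc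
  obtain ⟨g, hg⟩ := hB (A.comap e.toMonoidHom) (B.comap e.toMonoidHom) (by
      rw [isMulCommutative_iff_of_setLike]
      intro x hx y hy
      apply e.injective
      rw [map_mul, map_mul]
      exact isMulCommutative_iff_of_setLike.mp hA _ hx _ hy) (by
      rw [isMulCommutative_iff_of_setLike]
      intro x hx y hy
      apply e.injective
      rw [map_mul, map_mul]
      exact isMulCommutative_iff_of_setLike.mp hB' _ hx _ hy) (by
      have key : ∀ C : Subgroup H, Nat.card (C.comap e.toMonoidHom) = Nat.card C := fun C =>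
        Nat.card_congr (e.toEquiv.subtypeEquiv (fun x => Iff.rfl))
      rw [key, key, hc])
  refine ⟨e g, ?_⟩
  ext x
  constructor
  · intro hx
    have h1 : e.symm x ∈ B.comap e.toMonoidHom := by
      change e (e.symm x) ∈ B
      rwa [e.apply_symm_apply]
    rw [hg] at h1
    obtain ⟨a, ha, hax⟩ := h1
    refine ⟨e a, ha, ?_⟩
    have h2 := congrArg e hax
    simpa using h2
  · rintro ⟨a, ha, rfl⟩
    have h1 : g * e.symm a * g⁻¹ ∈ B.comap e.toMonoidHom := by
      rw [hg]
      refine ⟨e.symm a, ?_, by simp⟩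
      change e (e.symm a) ∈ A
      rwa [e.apply_symm_apply]
    have h2 : e (g * e.symm a * g⁻¹) ∈ B := h1
    simpa using h2

theorem main (n : ℕ) : ∀ (G : Type u) [Group G] [Finite G] [Group.IsSolvable G], Bp G →
    Nat.card G = n → ∀ (M : Subgroup G) [M.Normal], Bp (G ⧸ M) := by
  induction n using Nat.strong_induction_on with
  | _ n ih =>
  intro G _ _ _ hB hn M hMn
  by_cases hM : M = ⊥
  · subst hM
    exact hB.of_equiv QuotientGroup.quotientBot.symm
  · -- a minimal normal subgroup of `G` inside `M`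
    have hex : ∃ k : ℕ, ∃ N : Subgroup G, N.Normal ∧ N ≤ M ∧ N ≠ ⊥ ∧ Nat.card N = k :=
      ⟨_, M, hMn, le_rfl, hM, rfl⟩
    classical
    obtain ⟨N, hNn, hNM, hNb, hNc⟩ := Nat.find_spec hex
    have hmin : ∀ K : Subgroup G, K.Normal → K ≤ N → K = ⊥ ∨ K = N := by
      intro K hK hKN
      by_cases hKb : K = ⊥
      · exact Or.inl hKb
      · right
        apply Subgroup.eq_of_le_of_card_ge hKN
        rw [hNc]
        exact Nat.find_min' hex ⟨K, hK, hKN.trans hNM, hKb, rfl⟩
    obtain ⟨p, hp, -, hNp⟩ := Cfsg.Agent.Lib.MinNormSolv.elementary_of_minimal hNb hmin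
    have : Fact p.Prime := ⟨hp⟩
    have hQ : Bp (G ⧸ N) := step hB hNb hNp
    have hlt : Nat.card (G ⧸ N) < n := by
      rw [← hn]
      have h1 := N.card_eq_card_quotient_mul_card_subgroup
      have h2 : 1 < Nat.card N := N.one_lt_card_iff_ne_bot.2 hNb
      have h3 : 0 < Nat.card (G ⧸ N) := Nat.card_pos
      rw [h1]
      nlinarith
    have h4 := ih _ hlt (G ⧸ N) hQ rfl (M.map (QuotientGroup.mk' N))
    exact h4.of_equiv (QuotientGroup.quotientQuotientEquivQuotient N M hNM)

end Cfsg.Agent.Lib.H55Bq
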