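import Cfsg.Agent.Lib.H55KR3
import Cfsg.Agent.Lib.AltForm
import Cfsg.Agent.Lib.ClSympOrd
import Cfsg.Agent.Lib.ClSymp3

/-! S4265: embedding of the symplectic actions in `Matrix.symplecticGroup` (helper35) -/

set_option autoImplicit false
set_option linter.all false

namespace Cfsg.Agent.Lib.H55Emb

open Cfsg.Agent.Lib.H55KR Module

section
variable {F : Type*} [Field F]

/-- the standard form attached to `J` -/
noncomputable def JB (m : ℕ) : (Fin m ⊕ Fin m → F) →ₗ[F] (Fin m ⊕ Fin m → F) →ₗ[F] F :=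
  LinearMap.mk₂ F (fun u v => u ⬝ᵥ (Matrix.J (Fin m) F).mulVec v)
    (fun u v w => by rw [add_dotProduct]) (fun c u v => by rw [smul_dotProduct])
    (fun u v w => by rw [Matrix.mulVec_add, dotProduct_add]) (fun c u v => by rw [Matrix.mulVec_smul, dotProduct_smul])

lemma JB_apply (m : ℕ) (u v : Fin m ⊕ Fin m → F) : JB m u v = u ⬝ᵥ (Matrix.J (Fin m) F).mulVec v := rfl
lemma JB_alt (m : ℕ) (u : Fin m ⊕ Fin m → F) : JB m u u = 0 := by
  rw [JB_apply, Matrix.J]
  simp only [dotProduct, Matrix.mulVec, Fintype.sum_sum_type, Matrix.fromBlocks_apply₁₁, Matrix.fromBlocks_apply₁₂,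
    Matrix.fromBlocks_apply₂₁, Matrix.fromBlocks_apply₂₂, Matrix.zero_apply, zero_mul, Finset.sum_const_zero,
    Matrix.neg_apply, zero_add, add_zero]
  simp [Matrix.one_apply]
  rw [← sub_eq_neg_add, ← Finset.sum_sub_distrib]
  apply Finset.sum_eq_zero
  intro i _
  ring

lemma JB_nondeg (m : ℕ) (u : Fin m ⊕ Fin m → F) (h : ∀ v, JB m u v = 0) : u = 0 := by
  have h1 : Matrix.vecMul u (Matrix.J (Fin m) F) = 0 := by
    funext j
    have := h (Pi.single j 1)
    rw [JB_apply, Matrix.dotProduct_mulVec] at this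
    simpa using this
  have h2 := congrArg (fun v => Matrix.vecMul v (Matrix.J (Fin m) F)) h1
  simp only [Matrix.vecMul_vecMul, Matrix.J_squared, Matrix.zero_vecMul] at h2
  rw [Matrix.vecMul_neg, Matrix.vecMul_one] at h2
  exact neg_eq_zero.mp h2


/-- a matrix preserving `JB` is symplectic -/
lemma mem_symp (m : ℕ) (A : Matrix (Fin m ⊕ Fin m) (Fin m ⊕ Fin m) F)
    (h : ∀ u v, JB m (A.mulVec u) (A.mulVec v) = JB m u v) : A ∈ Matrix.symplecticGroup (Fin m) F := by
  rw [SymplecticGroup.mem_iff']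
  apply Matrix.ext_of_mulVec_single
  intro j
  funext i
  have h1 := h (Pi.single i 1) (Pi.single j 1)
  rw [JB_apply, JB_apply] at h1
  have h2 : ∀ w : Fin m ⊕ Fin m → F, w i = (Pi.single i (1 : F)) ⬝ᵥ w := by
    intro w; simp
  rw [h2 ((A.transpose * Matrix.J (Fin m) F * A).mulVec _), h2 ((Matrix.J (Fin m) F).mulVec _), ← h1]
  rw [← Matrix.mulVec_mulVec, ← Matrix.mulVec_mulVec, Matrix.dotProduct_mulVec _ (Matrix.transpose A), Matrix.vecMul_transpose]
end

theorem emb {p n : ℕ} {X W : Type} [Group X] [Finite X] [AddCommGroup W] [Module (ZMod p) W] [Finite W]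
    {φ : X →* (W ≃ₗ[ZMod p] W)} {β : W →ₗ[ZMod p] W →ₗ[ZMod p] ZMod p} (hp : p.Prime) (h : SF p n X W φ β) :
    ∃ f : X →* Matrix.symplecticGroup (Fin n) (ZMod p), Function.Injective f := by
  haveI : Fact p.Prime := ⟨hp⟩
  haveI : Module.Finite (ZMod p) W := Module.Finite.of_finite
  obtain ⟨g, hg⟩ := Cfsg.Agent.Lib.AltForm.exists_isometry β h.alt h.nondeg (JB (F := ZMod p) n) (JB_alt n) (JB_nondeg n) (by
    rw [h.dim, finrank_pi, Fintype.card_sum, Fintype.card_fin]; omega)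
  let M : X → Matrix (Fin n ⊕ Fin n) (Fin n ⊕ Fin n) (ZMod p) := fun x =>
    LinearMap.toMatrix' ((g : W →ₗ[ZMod p] _) ∘ₗ (φ x : W →ₗ[ZMod p] W) ∘ₗ (g.symm : _ →ₗ[ZMod p] W))
  have hmul : ∀ x (u : Fin n ⊕ Fin n → ZMod p), (M x).mulVec u = g (φ x (g.symm u)) := by
    intro x u
    rw [← Matrix.toLin'_apply, Matrix.toLin'_toMatrix']
    rfl
  have hext : ∀ A B : Matrix (Fin n ⊕ Fin n) (Fin n ⊕ Fin n) (ZMod p), (∀ u, A.mulVec u = B.mulVec u) → A = B := by
    intro A B hAB
    apply Matrix.ext_of_mulVec_single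
    intro j
    exact hAB _
  have hM1 : M 1 = 1 := by
    apply hext
    intro u
    rw [hmul, map_one, Matrix.one_mulVec]
    simp
  have hM2 : ∀ x y, M (x * y) = M x * M y := by
    intro x y
    apply hext
    intro u
    rw [hmul, ← Matrix.mulVec_mulVec, hmul, hmul, map_mul, LinearEquiv.symm_apply_apply]
    rfl
  let f : X →* Matrix.symplecticGroup (Fin n) (ZMod p) :=
    { toFun := fun x => ⟨M x, by
            apply mem_symp
            intro u v
            rw [hmul, hmul, hg, h.inv, ← hg, LinearEquiv.apply_symm_apply, LinearEquiv.apply_symm_apply]⟩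
      map_one' := Subtype.ext hM1
      map_mul' := fun x y => Subtype.ext (hM2 x y) }
  refine ⟨f, ?_⟩
  intro x y hxy
  apply h.inj
  apply LinearEquiv.ext
  intro w
  have h0 : M x = M y := congrArg Subtype.val hxy
  have h1 : (M x).mulVec (g w) = (M y).mulVec (g w) := by rw [h0]
  rw [hmul, hmul, LinearEquiv.symm_apply_apply] at h1
  exact g.injective h1

theorem card_symp (p n : ℕ) (hp : p.Prime) : Nat.card (Matrix.symplecticGroup (Fin n) (ZMod p)) =
    p ^ (n ^ 2) * ∏ i ∈ Finset.range n, (p ^ (2 * (i + 1)) - 1) := by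
  haveI : Fact p.Prime := ⟨hp⟩
  haveI : NeZero p := ⟨hp.ne_zero⟩
  rw [ClSympOrd.card_symplectic, ZMod.card]

end Cfsg.Agent.Lib.H55Emb
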