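import Cfsg.Agent.Lib.H55KR3

/-!
# Gallagher's inequality `k(G) ≤ k(N) k(G/N)` (piece K1 of S4265)
-/

set_option autoImplicit false

namespace Cfsg.Agent.Lib.H55K1

open Cfsg.Agent.Lib.H55KR

open scoped Classical in
/-- commuting indicator -/
noncomputable def ci {G : Type} [Group G] (g h : G) : ℕ := if g * h = h * g then 1 else 0

theorem ci_comm {G : Type} [Group G] (g h : G) : ci g h = ci h g := by
  unfold ci
  by_cases hh : g * h = h * g
  · rw [if_pos hh, if_pos hh.symm]
  · rw [if_neg hh, if_neg (fun e => hh e.symm)]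

open scoped Classical in
/-- the elements of a coset commuting with `h` -/
theorem coset_le {G : Type} [Group G] [Fintype G] (N : Subgroup G) [N.Normal] (a : G ⧸ N) (h : G) :
    ∑ g ∈ Finset.univ.filter (fun g : G => (g : G ⧸ N) = a), ci g h ≤
      ∑ g ∈ Finset.univ.filter (fun g : G => g ∈ N), ci g h := by
  unfold ci
  rw [← Finset.card_filter, ← Finset.card_filter, Finset.filter_filter, Finset.filter_filter]
  rcases (Finset.univ.filter fun g : G => (g : G ⧸ N) = a ∧ g * h = h * g).eq_empty_or_nonempty with he | ⟨g₁, hg₁⟩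
  · rw [he]; simp
  · rw [Finset.mem_filter] at hg₁
    obtain ⟨-, h1, h2⟩ := hg₁
    apply Finset.card_le_card_of_injOn (fun g => g₁⁻¹ * g)
    · intro g hg
      rw [Finset.mem_coe, Finset.mem_filter] at hg
      rw [Finset.mem_coe, Finset.mem_filter]
      refine ⟨Finset.mem_univ _, ?_, ?_⟩
      · exact QuotientGroup.eq.1 (h1.trans hg.2.1.symm)
      · have h3 : g₁⁻¹ * h = h * g₁⁻¹ := by
          rw [inv_mul_eq_iff_eq_mul, ← mul_assoc, h2, mul_assoc, mul_inv_cancel, mul_one]
        show g₁⁻¹ * g * h = h * (g₁⁻¹ * g)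
        rw [mul_assoc, hg.2.2, ← mul_assoc, h3, mul_assoc]
    · intro x _ y _ hxy
      exact mul_left_cancel hxy

theorem card_comm (G : Type) [Group G] [Fintype G] :
    (∑ h : G, ∑ g : G, ci g h) = Nat.card (ConjClasses G) * Nat.card G := by
  classical
  rw [← card_comm_eq_card_conjClasses_mul_card, Nat.card_eq_fintype_card,
    Fintype.card_subtype, Finset.card_filter, Fintype.sum_prod_type, Finset.sum_comm]
  refine Finset.sum_congr rfl fun g _ => Finset.sum_congr rfl fun h _ => ?_
  unfold ci Commute SemiconjBy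
  congr

theorem k1 : K1S := by
  intro G _ _ N _
  classical
  have := Fintype.ofFinite G
  have hGN : Nat.card G = Nat.card (G ⧸ N) * Nat.card N := Subgroup.card_eq_card_quotient_mul_card_subgroup N
  have hpos : 0 < Nat.card G := Nat.card_pos
  apply Nat.le_of_mul_le_mul_right (c := Nat.card G) _ hpos
  rw [← card_comm G]
  have e2 : Nat.card (ConjClasses N) * Nat.card (ConjClasses (G ⧸ N)) * Nat.card G =
      (Nat.card (ConjClasses N) * Nat.card N) * (Nat.card (ConjClasses (G ⧸ N)) * Nat.card (G ⧸ N)) := by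
    rw [hGN]; ring
  rw [e2, ← card_comm N, ← card_comm (G ⧸ N)]
  -- the pairs over one pair of cosets
  have hsub : ∀ f : G → ℕ, ∑ n ∈ Finset.univ.filter (fun g : G => g ∈ N), f n = ∑ n : N, f n := by
    intro f
    exact Finset.sum_subtype _ (fun x => by simp) f
  have hN : ∀ a b : G ⧸ N, (∑ h ∈ Finset.univ.filter (fun h : G => (h : G ⧸ N) = b),
      ∑ g ∈ Finset.univ.filter (fun g : G => (g : G ⧸ N) = a), ci g h) ≤ ∑ h : N, ∑ g : N, ci g h := by
    intro a b
    calc (∑ h ∈ Finset.univ.filter (fun h : G => (h : G ⧸ N) = b),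
        ∑ g ∈ Finset.univ.filter (fun g : G => (g : G ⧸ N) = a), ci g h)
        ≤ ∑ h ∈ Finset.univ.filter (fun h : G => (h : G ⧸ N) = b),
          ∑ g ∈ Finset.univ.filter (fun g : G => g ∈ N), ci g h :=
          Finset.sum_le_sum fun h _ => coset_le N a h
      _ = ∑ g ∈ Finset.univ.filter (fun g : G => g ∈ N),
          ∑ h ∈ Finset.univ.filter (fun h : G => (h : G ⧸ N) = b), ci h g := by
          rw [Finset.sum_comm]
          exact Finset.sum_congr rfl fun g _ => Finset.sum_congr rfl fun h _ => ci_comm g h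
      _ ≤ ∑ g ∈ Finset.univ.filter (fun g : G => g ∈ N),
          ∑ h ∈ Finset.univ.filter (fun h : G => h ∈ N), ci h g :=
          Finset.sum_le_sum fun g _ => coset_le N b g
      _ = ∑ h : N, ∑ g : N, ci g h := by
          rw [hsub]
          refine Finset.sum_congr rfl fun h _ => ?_
          rw [hsub]
          refine Finset.sum_congr rfl fun g _ => ?_
          by_cases hh : g * h = h * g
          · rw [ci, ci, if_pos hh, if_pos (by rw [← Subgroup.coe_mul, hh, Subgroup.coe_mul])]
          · have hh' : ¬ ((g : G) * h = h * g) := fun e => hh (Subtype.ext e)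
            rw [ci, ci, if_neg hh, if_neg hh']
  have hQ : ∀ a b : G ⧸ N, (∑ h ∈ Finset.univ.filter (fun h : G => (h : G ⧸ N) = b),
      ∑ g ∈ Finset.univ.filter (fun g : G => (g : G ⧸ N) = a), ci g h) ≤
      (∑ h : N, ∑ g : N, ci g h) * ci a b := by
    intro a b
    by_cases hab : a * b = b * a
    · rw [show ci a b = 1 from if_pos hab, mul_one]
      exact hN a b
    · rw [show ci a b = 0 from if_neg hab, mul_zero]
      apply le_of_eq
      refine Finset.sum_eq_zero fun h hh => Finset.sum_eq_zero fun g hg => ?_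
      rw [Finset.mem_filter] at hh hg
      apply if_neg
      intro hgh
      apply hab
      rw [← hh.2, ← hg.2, ← QuotientGroup.mk_mul, hgh, QuotientGroup.mk_mul]
  calc (∑ h : G, ∑ g : G, ci g h)
      = ∑ b : G ⧸ N, ∑ h ∈ Finset.univ.filter (fun h : G => (h : G ⧸ N) = b), ∑ g : G, ci g h :=
        (Finset.sum_fiberwise Finset.univ (fun h : G => (h : G ⧸ N)) _).symm
    _ = ∑ b : G ⧸ N, ∑ h ∈ Finset.univ.filter (fun h : G => (h : G ⧸ N) = b), ∑ a : G ⧸ N,
          ∑ g ∈ Finset.univ.filter (fun g : G => (g : G ⧸ N) = a), ci g h := by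
        refine Finset.sum_congr rfl fun b _ => Finset.sum_congr rfl fun h _ => ?_
        exact (Finset.sum_fiberwise Finset.univ (fun g : G => (g : G ⧸ N)) _).symm
    _ = ∑ b : G ⧸ N, ∑ a : G ⧸ N, ∑ h ∈ Finset.univ.filter (fun h : G => (h : G ⧸ N) = b),
          ∑ g ∈ Finset.univ.filter (fun g : G => (g : G ⧸ N) = a), ci g h := by
        refine Finset.sum_congr rfl fun b _ => ?_
        rw [Finset.sum_comm]
    _ ≤ ∑ b : G ⧸ N, ∑ a : G ⧸ N, (∑ h : N, ∑ g : N, ci g h) * ci a b :=
        Finset.sum_le_sum fun b _ => Finset.sum_le_sum fun a _ => hQ a b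
    _ = (∑ h : N, ∑ g : N, ci g h) * ∑ b : G ⧸ N, ∑ a : G ⧸ N, ci a b := by
        rw [Finset.mul_sum]
        refine Finset.sum_congr rfl fun b _ => ?_
        rw [Finset.mul_sum]

end Cfsg.Agent.Lib.H55K1
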