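import Mathlib

/-!
# Definitions for S4265 (k(H / (H ∩ F(G))) ≤ 3^(r-1) for solvable complex linear groups)
-/

set_option autoImplicit false

namespace Cfsg.Agent.Lib.H55KR

/-- every subgroup of `X` has at most `b` conjugacy classes -/
def KB (X : Type) [Group X] (b : ℕ) : Prop :=
  ∀ Y : Subgroup X, Nat.card (ConjClasses Y) ≤ b

/-- Gallagher's inequality (piece K1) -/
def K1S : Prop := ∀ (G : Type) [Group G] [Finite G] (N : Subgroup G) [N.Normal],
  Nat.card (ConjClasses G) ≤ Nat.card (ConjClasses N) * Nat.card (ConjClasses (G ⧸ N))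

/-- `X` acts faithfully on `W` (dimension `2 n` over `ZMod p`) preserving a nondegenerate
alternating form -/
structure SF (p n : ℕ) (X W : Type) [Group X] [AddCommGroup W] [Module (ZMod p) W]
    (φ : X →* (W ≃ₗ[ZMod p] W)) (β : W →ₗ[ZMod p] W →ₗ[ZMod p] ZMod p) : Prop where
  inj : Function.Injective φ
  alt : ∀ x, β x x = 0
  nondeg : ∀ x, (∀ y, β x y = 0) → x = 0
  inv : ∀ g x y, β (φ g x) (φ g y) = β x y
  dim : Module.finrank (ZMod p) W = 2 * n

/-- irreducible action -/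
def Irr (p : ℕ) {X W : Type} [Group X] [AddCommGroup W] [Module (ZMod p) W]
    (φ : X →* (W ≃ₗ[ZMod p] W)) : Prop :=
  ∀ U : Submodule (ZMod p) W, (∀ g, ∀ x ∈ U, φ g x ∈ U) → U = ⊥ ∨ U = ⊤

end Cfsg.Agent.Lib.H55KR
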