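import Cfsg.Prelude
import Cfsg.Agent.Lib.H55KR

/-!
# Statements used as black boxes in the pieces of S4265
-/

set_option autoImplicit false

namespace Cfsg.Agent.Lib.H55KR

/-- order bound for solvable permutation groups (piece D) -/
def DS : Prop := ∀ (α : Type) [Finite α] [Nonempty α] (G : Subgroup (Equiv.Perm α)),
  Group.IsSolvable G → Nat.card G ≤ 3 ^ (Nat.card α - 1)

/-- primitive case -/
def DPS : Prop := ∀ (α : Type) [Finite α] [Nonempty α] (G : Subgroup (Equiv.Perm α)),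
  Group.IsSolvable G → MulAction.IsPreprimitive G α → Nat.card G ≤ 3 ^ (Nat.card α - 1)

/-- the theorem in dimension `r` -/
def PS (r : ℕ) : Prop := ∀ (G : Type) [Group G] [Finite G] (V : Type) [AddCommGroup V]
  [Module ℂ V] [FiniteDimensional ℂ V] (ρ : G →* (V ≃ₗ[ℂ] V)) [(Cfsg.fittingSubgroup G).Normal],
  Group.IsSolvable G → Function.Injective ρ → Module.finrank ℂ V = r → 1 ≤ r →
    KB (G ⧸ Cfsg.fittingSubgroup G) (3 ^ (r - 1))

/-- irreducible symplectic solvable groups (pieces S, T) -/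
def SS : Prop := ∀ (p n : ℕ) (_ : p.Prime) (X W : Type) [Group X] [Finite X] [AddCommGroup W]
  [Module (ZMod p) W] [Finite W] (φ : X →* (W ≃ₗ[ZMod p] W))
  (β : W →ₗ[ZMod p] W →ₗ[ZMod p] ZMod p), 1 ≤ n → Group.IsSolvable X → SF p n X W φ β → Irr p φ →
    KB X (3 ^ (p ^ n - 1))

/-- the data of a noncentral chief factor `E / Z` -/
structure CF (G : Type) [Group G] (Z E : Subgroup G) : Prop where
  cen : Z ≤ Subgroup.center G
  cyc : IsCyclic Z
  nor : E.Normal
  lt : Z < E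
  min : ∀ N : Subgroup G, N.Normal → Z ≤ N → N ≤ E → N = Z ∨ N = E
  self : ∀ x ∈ E, (∀ y ∈ E, x * y = y * x) → x ∈ Z

/-- the kernel of the action on the chief factor `E / Z` -/
def IsKer {G : Type} [Group G] (Z E K : Subgroup G) : Prop :=
  ∀ g, g ∈ K ↔ ∀ e ∈ E, g * e * g⁻¹ * e⁻¹ ∈ Z

/-- the chief factor step -/
def XS : Prop := ∀ (G : Type) [Group G] [Finite G] (Z E K : Subgroup G) [K.Normal],
  Group.IsSolvable G → CF G Z E → IsKer Z E K →
    ∃ u : ℕ, 2 ≤ u ∧ Nat.card E = u ^ 2 * Nat.card Z ∧ KB (G ⧸ K) (3 ^ (u - 1))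

/-- unitary numbers 3, 6, 36, 120, 528 -/
def N1 : ℕ → ℕ
  | 0 => 0
  | (n + 1) => 3 * 4 ^ n - 2 * N1 n

end Cfsg.Agent.Lib.H55KR
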