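import Cfsg.Agent.Lib.H55KR3

/-!
# Definitions for S4990
-/

set_option autoImplicit false
open Cfsg

namespace Cfsg.Agent.Lib.H55KR

/-- class at most two -/
def Cl2 {G : Type} [Group G] (N : Subgroup G) : Prop :=
  ∀ x ∈ N, ∀ y ∈ N, ∀ z ∈ N, (x * y * x⁻¹ * y⁻¹) * z = z * (x * y * x⁻¹ * y⁻¹)

/-- the theorem in dimension `r` over the field `K` (class two version) -/
def PS2 (K : Type) [Field K] (r : ℕ) : Prop := ∀ (G : Type) [Group G] [Finite G] (V : Type)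
  [AddCommGroup V] [Module K V] [FiniteDimensional K V] (ρ : G →* (V ≃ₗ[K] V)),
  ((Nat.card G : ℕ) : K) ≠ 0 → Group.IsSolvable G → Function.Injective ρ →
  Module.finrank K V = r → 1 ≤ r →
    ∃ (N : Subgroup G) (_ : N.Normal), Cl2 N ∧ KB (G ⧸ N) (3 ^ (r - 1))

/-- coprime linear case -/
def A4S : Prop := ∀ (p : ℕ) [Fact p.Prime] (X : Type) [Group X] [Finite X] (V N : Subgroup X)
  [V.Normal] [N.Normal] (b : ℕ), (∀ v ∈ V, v ^ p = 1) → ¬ p ∣ V.index →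
  Subgroup.centralizer (V : Set X) = V → V ≤ N →
  (∀ x ∈ N, ∀ y ∈ N, ∀ z ∈ N, (x * y * x⁻¹ * y⁻¹) * z * (x * y * x⁻¹ * y⁻¹)⁻¹ * z⁻¹ ∈ V) →
  KB (X ⧸ N) b → Nat.card (ConjClasses X) ≤ b * Nat.card V

/-- `k(QV) ≤ 3^(n-1) |V|` for solvable `Q` -/
def A5S : Prop := ∀ (p : ℕ) [Fact p.Prime] (X : Type) [Group X] [Finite X] (V : Subgroup X)
  [V.Normal] (n : ℕ), Group.IsSolvable X → (∀ v ∈ V, v ^ p = 1) → ¬ p ∣ V.index →
  Subgroup.centralizer (V : Set X) = V → 1 ≤ n → Nat.card V = p ^ n →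
  Nat.card (ConjClasses X) ≤ 3 ^ (n - 1) * p ^ n

/-- solvable groups without normal `p'`-subgroups -/
def A6S : Prop := ∀ (p : ℕ) [Fact p.Prime] (X : Type) [Group X] [Finite X],
  Group.IsSolvable X → Cfsg.pPrimeCore p X = ⊥ → 1 ≤ (Nat.card X).factorization p →
  Nat.card (ConjClasses X) ≤ 3 ^ ((Nat.card X).factorization p - 1) * p ^ ((Nat.card X).factorization p)

end Cfsg.Agent.Lib.H55KR
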