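import Cfsg.Agent.Lib.H55SftNE
import Cfsg.Agent.Lib.H55Sft5
import Cfsg.Agent.Lib.BG08a
import Cfsg.Agent.Lib.WielandtFix2
import Cfsg.Agent.Lib.CoprimeGen
import Cfsg.Agent.Lib.HallPi

/-!
# Element orders in solvable groups, tools (helper55)

Rank two elementary abelian subgroups, Frobenius actions, commuting triples of elements of distinct prime orders.
-/

set_option autoImplicit false
set_option linter.unusedSectionVars false

namespace Cfsg.Agent.Lib.H55Spec1

open Subgroup commutatorElement Cfsg Cfsg.Agent.Lib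
open Cfsg.Agent.Lib.LocBase

universe u

variable {G : Type u} [Group G] [Finite G]

/-- elementary abelian of rank at least two -/
structure Rk2 (a : ℕ) (E : Subgroup G) : Prop where
  comm : IsMulCommutative E
  exp : ∀ x ∈ E, x ^ a = 1
  ncyc : ¬ IsCyclic E

theorem Rk2.orderOf_eq {a : ℕ} (ha : a.Prime) {E : Subgroup G} (h : Rk2 a E) {e : G} (he : e ∈ E) (h1 : e ≠ 1) :
    orderOf e = a := by
  have := Fact.mk ha
  exact orderOf_eq_prime (h.exp e he) h1

theorem Rk2.isPGroup {a : ℕ} {E : Subgroup G} (h : Rk2 a E) : IsPGroup a E :=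
  fun x => ⟨1, Subtype.ext (by simpa using h.exp x x.2)⟩

theorem Rk2.ne_bot {a : ℕ} {E : Subgroup G} (h : Rk2 a E) : E ≠ ⊥ := by
  rintro rfl
  exact h.ncyc inferInstance

theorem isCyclic_of_le_zpowers {E : Subgroup G} {x : G} (h : E ≤ zpowers x) : IsCyclic E := by
  have h1 : IsCyclic (E.subgroupOf (zpowers x)) := inferInstance
  exact isCyclic_of_surjective (subgroupOfEquivOfLe h).toMonoidHom (subgroupOfEquivOfLe h).surjective

theorem Rk2.exists_not_mem {a : ℕ} {E : Subgroup G} (h : Rk2 a E) (x : G) : ∃ e ∈ E, e ∉ zpowers x := by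
  by_contra hc
  push Not at hc
  exact h.ncyc (isCyclic_of_le_zpowers hc)

theorem zpowers_eq_of_mem {a : ℕ} (ha : a.Prime) {x y : G} (hx : orderOf x = a) (hy : y ∈ zpowers x) (h1 : y ≠ 1) :
    zpowers y = zpowers x := by
  apply eq_of_le_of_card_ge (by rw [zpowers_le]; exact hy)
  rw [Nat.card_zpowers, Nat.card_zpowers]
  have h2 : orderOf y ∣ a := by
    rw [← hx, ← Nat.card_zpowers x]
    have := Subgroup.orderOf_dvd_natCard (zpowers x) hy
    exact this
  rcases (Nat.dvd_prime ha).1 h2 with h3 | h3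
  · rw [orderOf_eq_one_iff] at h3; exact absurd h3 h1
  · rw [h3, hx]

theorem mem_zpowers_of_cyclic {C : Subgroup G} (hC : IsCyclic C) {a : ℕ} (ha : a.Prime) {x y : G} (hx : x ∈ C)
    (hy : y ∈ C) (hxo : orderOf x = a) (hya : y ^ a = 1) : y ∈ zpowers x := by
  classical
  have := Fintype.ofFinite C
  have h1 : (Finset.univ.filter fun x : C => x ^ a = 1).card ≤ a := IsCyclic.card_pow_eq_one_le ha.pos
  have h2 : (Finset.univ.filter fun t : C => t ∈ zpowers (⟨x, hx⟩ : C)).card = a := by
    rw [← hxo, ← Subgroup.orderOf_mk x hx, ← Nat.card_zpowers, Nat.card_eq_fintype_card, Fintype.card_subtype]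
  have h3 : (Finset.univ.filter fun t : C => t ∈ zpowers (⟨x, hx⟩ : C)) =
      Finset.univ.filter fun t : C => t ^ a = 1 := by
    apply Finset.eq_of_subset_of_card_le
    · intro t ht
      rw [Finset.mem_filter] at ht ⊢
      obtain ⟨k, rfl⟩ := ht.2
      refine ⟨Finset.mem_univ _, ?_⟩
      change ((⟨x, hx⟩ : C) ^ k) ^ a = 1
      have hxa : (⟨x, hx⟩ : C) ^ a = 1 := by
        apply Subtype.ext
        rw [SubmonoidClass.coe_pow, OneMemClass.coe_one, ← hxo, pow_orderOf_eq_one]
      rw [← zpow_natCast, ← zpow_mul, mul_comm, zpow_mul, zpow_natCast, hxa, one_zpow]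
    · rw [h2]; exact h1
  have h4 : (⟨y, hy⟩ : C) ∈ (Finset.univ.filter fun t : C => t ∈ zpowers (⟨x, hx⟩ : C)) := by
    rw [h3, Finset.mem_filter]
    exact ⟨Finset.mem_univ _, Subtype.ext (by simpa using hya)⟩
  rw [Finset.mem_filter] at h4
  obtain ⟨k, hk⟩ := h4.2
  refine ⟨k, ?_⟩
  have := congrArg Subtype.val hk
  simpa using this

theorem Rk2.of_pair {a : ℕ} (ha : a.Prime) {x y : G} (hx : orderOf x = a) (hy : orderOf y = a) (hxy : x * y = y * x)
    (hyx : y ∉ zpowers x) : Rk2 a (closure {x, y} : Subgroup G) := by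
  have hcomm : ∀ u ∈ ({x, y} : Set G), ∀ v ∈ ({x, y} : Set G), u * v = v * u := by
    intro u hu v hv
    simp only [Set.mem_insert_iff, Set.mem_singleton_iff] at hu hv
    rcases hu with rfl | rfl <;> rcases hv with rfl | rfl
    · rfl
    · exact hxy
    · exact hxy.symm
    · rfl
  have hc : ∀ u ∈ closure ({x, y} : Set G), ∀ v ∈ closure ({x, y} : Set G), u * v = v * u := by
    intro u hu v hv
    have h1 : closure ({x, y} : Set G) ≤ centralizer ({x, y} : Set G) := by
      rw [closure_le]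
      intro w hw
      rw [SetLike.mem_coe, mem_centralizer_iff]
      intro t ht
      exact hcomm t ht w hw
    have h2 : closure ({x, y} : Set G) ≤ centralizer (closure ({x, y} : Set G) : Set G) := by
      rw [centralizer_closure]; exact h1
    exact (mem_centralizer_iff.1 (h2 hu) v hv).symm
  refine ⟨?_, ?_, ?_⟩
  · rw [isMulCommutative_iff_of_setLike]
    exact hc
  · intro u hu
    induction hu using closure_induction with
    | mem w hw =>
      simp only [Set.mem_insert_iff, Set.mem_singleton_iff] at hw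
      rcases hw with rfl | rfl
      · rw [← hx, pow_orderOf_eq_one]
      · rw [← hy, pow_orderOf_eq_one]
    | one => exact one_pow _
    | mul u v hu hv h1 h2 =>
      have : Commute u v := hc u hu v hv
      rw [this.mul_pow, h1, h2, one_mul]
    | inv u hu h1 => rw [inv_pow, h1, inv_one]
  · intro hcyc
    exact hyx (mem_zpowers_of_cyclic hcyc ha (subset_closure (by simp)) (subset_closure (by simp)) hx
      (by rw [← hy, pow_orderOf_eq_one]))

/-- rank two groups have fixed points -/
theorem Rk2.fix {a : ℕ} (ha : a.Prime) {E P : Subgroup G} (h : Rk2 a E) (hEP : E ≤ normalizer (P : Set G))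
    (hcop : (Nat.card P).Coprime a) (hP : P ≠ ⊥) : ∃ e ∈ E, e ≠ 1 ∧ P ⊓ centralizer ({e} : Set G) ≠ ⊥ := by
  have := Fact.mk ha
  by_contra hc
  push Not at hc
  apply hP
  have h1 : (Nat.card E).Coprime (Nat.card P) := by
    obtain ⟨k, hk⟩ := IsPGroup.iff_card.mp h.isPGroup
    rw [hk]; exact (Nat.Coprime.pow_right k hcop).symm
  rw [← CoprimeGen.iSup_centralizer_eq h.comm h.ncyc hEP h1, eq_bot_iff]
  apply iSup₂_le
  rintro e ⟨he, he1⟩
  rw [hc e he he1]

/-- a `p`-group without rank two subgroups has a unique subgroup of order `p` -/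
theorem exists_unique_of_not_rk2 {a : ℕ} (ha : a.Prime) {D : Subgroup G} (hD : IsPGroup a D) (hD1 : D ≠ ⊥)
    (h : ∀ E ≤ D, ¬ Rk2 a E) : ∃ y ∈ D, orderOf y = a ∧ ∀ x ∈ D, orderOf x = a → x ∈ zpowers y := by
  have := Fact.mk ha
  have hnt : Nontrivial D := (Subgroup.nontrivial_iff_ne_bot D).2 hD1
  have hz : Nontrivial (Subgroup.center D) := hD.center_nontrivial
  have hzp : IsPGroup a (Subgroup.center D) := hD.to_subgroup _
  have hd : a ∣ Nat.card (Subgroup.center D) := by
    rcases hzp.card_eq_or_dvd with h1 | h1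
    · exact absurd h1 (Finite.one_lt_card).ne'
    · exact h1
  obtain ⟨⟨⟨y, hy⟩, hyz⟩, hyo⟩ := exists_prime_orderOf_dvd_card' a hd
  have hyo' : orderOf y = a := by
    rw [← hyo]
    rw [← Subgroup.orderOf_coe, ← Subgroup.orderOf_coe]
  refine ⟨y, hy, hyo', ?_⟩
  intro x hx hxo
  by_contra hn
  have hcm : y * x = x * y := by
    have := Subgroup.mem_center_iff.1 hyz ⟨x, hx⟩
    exact (congrArg Subtype.val this).symm
  refine h (closure {y, x}) ?_ (Rk2.of_pair ha hyo' hxo hcm hn)
  rw [closure_le]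
  rintro w hw
  simp only [Set.mem_insert_iff, Set.mem_singleton_iff] at hw
  rcases hw with rfl | rfl
  · exact hy
  · exact hx

theorem zpowers_le_normalizer_of_unique {a : ℕ} {D L : Subgroup G} (hL : L ≤ normalizer (D : Set G)) {y : G}
    (hy : y ∈ D) (hyo : orderOf y = a) (hu : ∀ x ∈ D, orderOf x = a → x ∈ zpowers y) :
    L ≤ normalizer (zpowers y : Set G) := by
  intro g hg
  apply mem_normalizer_of_map_conj_le
  rintro _ ⟨_, ⟨k, rfl⟩, rfl⟩
  have h1 : g * y * g⁻¹ ∈ zpowers y := by
    apply hu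
    · exact (mem_normalizer_iff.1 (hL hg) y).1 hy
    · rw [← hyo]
      exact orderOf_injective (MulAut.conj g).toMonoidHom (MulAut.conj g).injective y
  have h2 : (MulAut.conj g).toMonoidHom ((fun x => y ^ x) k) = (g * y * g⁻¹) ^ k := by
    simp
  rw [h2]
  exact zpow_mem h1 k

/-- `x ∈ D` of order `a` in nontrivial `a`-groups -/
theorem exists_order {a : ℕ} (ha : a.Prime) {D : Subgroup G} (hD : IsPGroup a D) (hD1 : D ≠ ⊥) :
    ∃ y ∈ D, orderOf y = a := by
  have := Fact.mk ha
  have hd : a ∣ Nat.card D := by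
    rcases hD.card_eq_or_dvd with h1 | h1
    · exact absurd (Subgroup.card_eq_one.1 h1) hD1
    · exact h1
  obtain ⟨⟨y, hy⟩, hyo⟩ := exists_prime_orderOf_dvd_card' a hd
  exact ⟨y, hy, by rw [← hyo, ← Subgroup.orderOf_coe]⟩

theorem mem_centralizer_singleton' {x g : G} : x ∈ centralizer ({g} : Set G) ↔ g * x = x * g := by
  rw [mem_centralizer_iff]
  simp

/-- Frobenius actions -/
theorem frob {T P : Subgroup G} {z : G} (hz1 : z ≠ 1) (hzT : z ∈ normalizer (T : Set G))
    (hTP : T ≤ normalizer (P : Set G)) (hzP : z ∈ normalizer (P : Set G)) (hsolv : Group.IsSolvable P)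
    (hcT : (Nat.card P).Coprime (Nat.card T)) (hcz : (Nat.card P).Coprime (orderOf z))
    (hfpf : ∀ e ∈ zpowers z, e ≠ 1 → T ⊓ centralizer ({e} : Set G) = ⊥)
    (hP : P ⊓ centralizer ({z} : Set G) = ⊥) : T ≤ centralizer (P : Set G) := by
  have hZb : centralizer ({z} : Set G) = centralizer (zpowers z : Set G) := by
    rw [Subgroup.zpowers_eq_closure, centralizer_closure]
  have hZT : zpowers z ≤ normalizer (T : Set G) := by rw [zpowers_le]; exact hzT
  have hZP : zpowers z ≤ normalizer (P : Set G) := by rw [zpowers_le]; exact hzP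
  have hf' : ∀ e ∈ zpowers z, e ≠ 1 → ∀ u ∈ T, e * u = u * e → u = 1 := by
    intro e he he1 u hu heu
    have : u ∈ T ⊓ centralizer ({e} : Set G) := ⟨hu, mem_centralizer_singleton'.2 heu⟩
    rw [hfpf e he he1] at this
    exact this
  have hTZ : T ⊓ zpowers z = ⊥ := by
    rw [eq_bot_iff]
    rintro e ⟨heT, hez⟩
    by_contra he1
    exact he1 (hf' e hez he1 e heT rfl)
  have hcard : Nat.card ↥(T ⊔ zpowers z) = Nat.card T * Nat.card (zpowers z) := by
    rw [SubgroupTools.card_sup_of_disjoint hZT (disjoint_iff.2 hTZ)]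
  have hcop : Nat.Coprime (Nat.card P) (Nat.card ↥(T ⊔ zpowers z)) := by
    rw [hcard, Nat.card_zpowers]
    exact Nat.Coprime.mul_right hcT hcz
  have key := WielandtFix.frobenius_wielandt T (zpowers z) P hTZ
    (fun e he u hu => (mem_normalizer_iff.1 (hZT he) u).1 hu) hf' (sup_le hTP hZP) hsolv hcop
  rw [← hZb, hP] at key
  have h2 : P ⊓ centralizer ((T ⊔ zpowers z : Subgroup G) : Set G) = ⊥ := by
    rw [eq_bot_iff, ← hP, hZb]
    exact inf_le_inf_left _ (centralizer_le (SetLike.coe_subset_coe.2 le_sup_right))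
  rw [h2, card_bot, one_pow, one_mul, one_mul] at key
  have h3 : P ⊓ centralizer (T : Set G) = P :=
    eq_of_le_of_card_ge inf_le_left key.le
  rw [Subgroup.le_centralizer_iff]
  exact inf_eq_left.1 h3

/-- Frobenius actions, prime order -/
theorem frob_prime {a : ℕ} (ha : a.Prime) {T P : Subgroup G} {z : G} (hz : orderOf z = a)
    (hzT : z ∈ normalizer (T : Set G))
    (hTP : T ≤ normalizer (P : Set G)) (hzP : z ∈ normalizer (P : Set G)) (hsolv : Group.IsSolvable P)
    (hcT : (Nat.card P).Coprime (Nat.card T)) (hcz : (Nat.card P).Coprime a)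
    (hfpf : T ⊓ centralizer ({z} : Set G) = ⊥)
    (hP : P ⊓ centralizer ({z} : Set G) = ⊥) : T ≤ centralizer (P : Set G) := by
  refine frob ?_ hzT hTP hzP hsolv hcT (by rw [hz]; exact hcz) ?_ hP
  · rintro rfl
    rw [orderOf_one] at hz
    exact ha.one_lt.ne hz
  · intro e he he1
    have h1 := zpowers_eq_of_mem ha hz he he1
    rw [← hfpf]
    congr 1
    have h2 : ∀ t : G, centralizer ({t} : Set G) = centralizer (zpowers t : Set G) := by
      intro t
      rw [Subgroup.zpowers_eq_closure, centralizer_closure]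
    rw [h2 e, h2 z, h1]

end Cfsg.Agent.Lib.H55Spec1
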