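import Cfsg.Agent.Lib.H55Spec1

/-!
# Element orders in solvable groups, the case of two primes in the Fitting subgroup (helper55)
-/

set_option autoImplicit false
set_option linter.unusedSectionVars false

namespace Cfsg.Agent.Lib.H55Spec1

open Subgroup commutatorElement Cfsg Cfsg.Agent.Lib
open Cfsg.Agent.Lib.LocBase Cfsg.Agent.Lib.BG08
open Cfsg.Agent.Lib.H55Sft (exists_pCoreOf_ne_bot dvd_of_pCoreOf_ne_bot)

universe u

variable {G : Type u} [Group G] [Finite G]

variable (G) in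
/-- no commuting triples of elements of orders `a`, `b`, `c` -/
def NTr (a b c : ℕ) : Prop :=
  ∀ x y z : G, orderOf x = a → orderOf y = b → orderOf z = c → x * y = y * x → x * z = z * x → y * z = z * y → False

theorem NTr.swap12 {a b c : ℕ} (h : NTr G a b c) : NTr G b a c :=
  fun x y z hx hy hz hxy hxz hyz => h y x z hy hx hz hxy.symm hyz hxz

theorem NTr.swap23 {a b c : ℕ} (h : NTr G a b c) : NTr G a c b :=
  fun x y z hx hy hz hxy hxz hyz => h x z y hx hz hy hxz hxy hyz.symm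

variable (G) in
/-- four primes without commuting triples -/
structure Quad (p q r s : ℕ) : Prop where
  hp : p.Prime
  hq : q.Prime
  hr : r.Prime
  hs : s.Prime
  pq : p ≠ q
  pr : p ≠ r
  ps : p ≠ s
  qr : q ≠ r
  qs : q ≠ s
  rs : r ≠ s
  n1 : NTr G p q r
  n2 : NTr G p q s
  n3 : NTr G p r s
  n4 : NTr G q r s

theorem Quad.swap12 {p q r s : ℕ} (h : Quad G p q r s) : Quad G q p r s :=
  ⟨h.hq, h.hp, h.hr, h.hs, h.pq.symm, h.qr, h.qs, h.pr, h.ps, h.rs, h.n1.swap12, h.n2.swap12, h.n4, h.n3⟩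

theorem Quad.swap23 {p q r s : ℕ} (h : Quad G p q r s) : Quad G p r q s :=
  ⟨h.hp, h.hr, h.hq, h.hs, h.pr, h.pq, h.ps, h.qr.symm, h.rs, h.qs, h.n1.swap23, h.n3, h.n2, h.n4.swap12⟩

theorem Quad.swap34 {p q r s : ℕ} (h : Quad G p q r s) : Quad G p q s r :=
  ⟨h.hp, h.hq, h.hs, h.hr, h.pq, h.ps, h.pr, h.qs, h.qr, h.rs.symm, h.n2, h.n1, h.n3.swap23, h.n4.swap23⟩

theorem isSolvable_of_isPGroup {p : ℕ} (hp : p.Prime) {P : Subgroup G} (hP : IsPGroup p P) : Group.IsSolvable P := by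
  have := Fact.mk hp
  have := hP.isNilpotent
  infer_instance

theorem card_coprime {p q : ℕ} (hp : p.Prime) (hq : q.Prime) (hpq : p ≠ q) {P Q : Subgroup G} (hP : IsPGroup p P)
    (hQ : IsPGroup q Q) : (Nat.card P).Coprime (Nat.card Q) := by
  have := Fact.mk hp
  have := Fact.mk hq
  obtain ⟨k, hk⟩ := IsPGroup.iff_card.mp hP
  obtain ⟨l, hl⟩ := IsPGroup.iff_card.mp hQ
  rw [hk, hl]
  exact Nat.Coprime.pow k l ((Nat.coprime_primes hp hq).2 hpq)

theorem card_coprime' {p q : ℕ} (hp : p.Prime) (hq : q.Prime) (hpq : p ≠ q) {P : Subgroup G} (hP : IsPGroup p P) :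
    (Nat.card P).Coprime q := by
  have := Fact.mk hp
  obtain ⟨k, hk⟩ := IsPGroup.iff_card.mp hP
  rw [hk]
  exact Nat.Coprime.pow_left k ((Nat.coprime_primes hp hq).2 hpq)

theorem inf_two {p b c : ℕ} (hp : p.Prime) (h : NTr G p b c) {P : Subgroup G} (hP : IsPGroup p P) {y z : G}
    (hy : orderOf y = b) (hz : orderOf z = c) (hyz : y * z = z * y) :
    P ⊓ centralizer ({y} : Set G) ⊓ centralizer ({z} : Set G) = ⊥ := by
  by_contra hne
  obtain ⟨u, hu, huo⟩ := exists_order hp (hP.to_le (inf_le_left.trans inf_le_left)) hne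
  obtain ⟨⟨_, huy⟩, huz⟩ := hu
  exact h u y z huo hy hz (mem_centralizer_singleton'.1 huy).symm (mem_centralizer_singleton'.1 huz).symm hyz

theorem le_normalizer_centralizer_singleton {E : Subgroup G} {y : G} (h : E ≤ centralizer ({y} : Set G)) :
    E ≤ normalizer (centralizer ({y} : Set G) : Set G) := h.trans le_normalizer

theorem no_fix {p b c : ℕ} (hp : p.Prime) (hc : c.Prime) (hpc : p ≠ c) (h : NTr G p b c) {P : Subgroup G}
    (hP : IsPGroup p P) {E : Subgroup G} (hE : Rk2 c E) (hEP : E ≤ normalizer (P : Set G)) {y : G}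
    (hy : orderOf y = b) (hEy : E ≤ centralizer ({y} : Set G)) : P ⊓ centralizer ({y} : Set G) = ⊥ := by
  by_contra hne
  have h1 : E ≤ normalizer ((P ⊓ centralizer ({y} : Set G) : Subgroup G) : Set G) :=
    le_normalizer_inf hEP (le_normalizer_centralizer_singleton hEy)
  have h2 : IsPGroup p (P ⊓ centralizer ({y} : Set G) : Subgroup G) := hP.to_le inf_le_left
  obtain ⟨e, he, he1, hfix⟩ := hE.fix hc h1 (card_coprime' hp hc hpc h2) hne
  exact hfix (inf_two hp h hP hy (hE.orderOf_eq hc he he1) (mem_centralizer_singleton'.1 (hEy he)))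

theorem two_or {p q r : ℕ} (hp : p.Prime) (hq : q.Prime) (h : NTr G p q r) {P Q : Subgroup G}
    (hP : IsPGroup p P) (hQ : IsPGroup q Q) (hPQ : P ≤ centralizer (Q : Set G)) {y : G} (hy : orderOf y = r) :
    P ⊓ centralizer ({y} : Set G) = ⊥ ∨ Q ⊓ centralizer ({y} : Set G) = ⊥ := by
  by_contra hne
  push Not at hne
  obtain ⟨u, ⟨huP, huy⟩, huo⟩ := exists_order hp (hP.to_le inf_le_left) hne.1
  obtain ⟨v, ⟨hvQ, hvy⟩, hvo⟩ := exists_order hq (hQ.to_le inf_le_left) hne.2
  exact h u v y huo hvo hy (mem_centralizer_iff.1 (hPQ huP) v hvQ).symm (mem_centralizer_singleton'.1 huy).symm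
    (mem_centralizer_singleton'.1 hvy).symm

theorem inf_centralizer_eq_self {P : Subgroup G} {y : G} (h : y ∈ centralizer (P : Set G)) :
    P ⊓ centralizer ({y} : Set G) = P := by
  apply inf_eq_left.2
  intro u hu
  rw [mem_centralizer_singleton']
  exact (mem_centralizer_iff.1 h u hu).symm

theorem zpowers_inf_centralizer {a : ℕ} (ha : a.Prime) {y z : G} (hy : orderOf y = a) (h : ¬ y * z = z * y) :
    zpowers y ⊓ centralizer ({z} : Set G) = ⊥ := by
  rw [eq_bot_iff]
  rintro w ⟨hw, hwz⟩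
  by_contra hw1
  apply h
  have h1 := zpowers_eq_of_mem ha hy hw hw1
  have h2 : zpowers w ≤ centralizer ({z} : Set G) := by rw [zpowers_le]; exact hwz
  rw [h1] at h2
  exact (mem_centralizer_singleton'.1 (h2 (mem_zpowers y))).symm

theorem core_eq_bot {p q r s : ℕ} (h : Quad G p q r s) {P Q L : Subgroup G} (hP : IsPGroup p P)
    (hQ : IsPGroup q Q) (hP1 : P ≠ ⊥) (hQ1 : Q ≠ ⊥) (hPQ : P ≤ centralizer (Q : Set G))
    (hLP : L ≤ normalizer (P : Set G)) (hLQ : L ≤ normalizer (Q : Set G)) {E : Subgroup G} (hE : Rk2 s E)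
    (hEL : E ≤ L) : pCoreOf r (L ⊓ centralizer (P : Set G)) = ⊥ := by
  by_contra hne
  set D := pCoreOf r (L ⊓ centralizer (P : Set G)) with hDdef
  have hDL : D ≤ L := (pCoreOf_le _).trans inf_le_left
  have hDP : D ≤ centralizer (P : Set G) := (pCoreOf_le _).trans inf_le_right
  have hLD : L ≤ normalizer (D : Set G) :=
    (le_normalizer_inf le_normalizer (le_normalizer_centralizer hLP)).trans (normalizer_le_normalizer_pCoreOf r _)
  have hDr : IsPGroup r D := isPGroup_pCoreOf r _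
  have hQy : ∀ y ∈ D, orderOf y = r → Q ⊓ centralizer ({y} : Set G) = ⊥ := by
    intro y hy hyo
    rcases two_or h.hp h.hq h.n1 hP hQ hPQ hyo with h1 | h1
    · rw [inf_centralizer_eq_self (hDP hy)] at h1
      exact absurd h1 hP1
    · exact h1
  have hno : ∀ E' ≤ D, ¬ Rk2 r E' := by
    intro E' hE' hrk
    obtain ⟨e, he, he1, hfix⟩ := hrk.fix h.hr ((hE'.trans hDL).trans hLQ) (card_coprime' h.hq h.hr h.qr hQ) hQ1
    exact hfix (hQy e (hE' he) (hrk.orderOf_eq h.hr he he1))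
  obtain ⟨y, hyD, hyo, hu⟩ := exists_unique_of_not_rk2 h.hr hDr hne hno
  have hLy : L ≤ normalizer (zpowers y : Set G) := zpowers_le_normalizer_of_unique hLD hyD hyo hu
  obtain ⟨z, hz, hz1, hfix⟩ := hE.fix h.hs (hEL.trans hLP) (card_coprime' h.hp h.hs h.ps hP) hP1
  have hzo := hE.orderOf_eq h.hs hz hz1
  apply hfix
  by_cases hc : y * z = z * y
  · have h1 := inf_two h.hp h.n3 hP hyo hzo hc
    rwa [inf_centralizer_eq_self (hDP hyD)] at h1
  · rcases two_or h.hp h.hq h.n2 hP hQ hPQ hzo with h1 | h1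
    · exact h1
    · exfalso
      have h2 : zpowers y ≤ centralizer (Q : Set G) := by
        refine frob_prime h.hs hzo (hLy (hEL hz)) ?_ (hLQ (hEL hz)) (isSolvable_of_isPGroup h.hq hQ) ?_
          (card_coprime' h.hq h.hs h.qs hQ) (zpowers_inf_centralizer h.hr hyo hc) h1
        · rw [zpowers_le]; exact hLQ (hDL hyD)
        · rw [Nat.card_zpowers, hyo]; exact card_coprime' h.hq h.hr h.qr hQ
      have h3 := hQy y hyD hyo
      rw [inf_centralizer_eq_self (h2 (mem_zpowers y))] at h3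
      exact hQ1 h3

theorem faithful {p q r s : ℕ} (h : Quad G p q r s) {P Q L : Subgroup G} (hP : IsPGroup p P)
    (hQ : IsPGroup q Q) (hP1 : P ≠ ⊥) (hQ1 : Q ≠ ⊥) (hPQ : P ≤ centralizer (Q : Set G))
    (hLP : L ≤ normalizer (P : Set G)) (hLQ : L ≤ normalizer (Q : Set G)) (hLs : Group.IsSolvable L)
    (hL : ∀ t : ℕ, t.Prime → t ∣ Nat.card L → t = r ∨ t = s)
    {E F : Subgroup G} (hE : Rk2 s E) (hEL : E ≤ L) (hF : Rk2 r F) (hFL : F ≤ L) :
    L ⊓ centralizer (P : Set G) = ⊥ := by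
  by_contra hne
  obtain ⟨t, ht, htc⟩ := exists_pCoreOf_ne_bot (SubgroupTools.isSolvable_of_le inf_le_left hLs) hne
  have h1 : t ∣ Nat.card L :=
    (dvd_of_pCoreOf_ne_bot ht htc).trans (Subgroup.card_dvd_of_le ((pCoreOf_le _).trans inf_le_left))
  rcases hL t ht h1 with rfl | rfl
  · exact htc (core_eq_bot h hP hQ hP1 hQ1 hPQ hLP hLQ hE hEL)
  · exact htc (core_eq_bot h.swap34 hP hQ hP1 hQ1 hPQ hLP hLQ hF hFL)

/-- `[T, z]` trivial from commutator statement -/
theorem mem_centralizer_of_commutator {T : Subgroup G} {z : G} (h : ⁅T, zpowers z⁆ = ⊥) :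
    z ∈ centralizer (T : Set G) := by
  rw [commutator_eq_bot_iff_le_centralizer, Subgroup.le_centralizer_iff] at h
  exact h (mem_zpowers z)

/-- elements `z` of order `s` without fixed points on `P` centralise the `r`-groups, `r` odd -/
theorem centralize_of_odd {p r s : ℕ} (hp : p.Prime) (hr : r.Prime) (hs : s.Prime) (hpr : p ≠ r) (hps : p ≠ s)
    (hrs : r ≠ s) (hr2 : r ≠ 2) {P L T : Subgroup G} (hP : IsPGroup p P) (hLP : L ≤ normalizer (P : Set G))
    (hfaith : L ⊓ centralizer (P : Set G) = ⊥) (hT : IsPGroup r T) (hTL : T ≤ L) {z : G} (hzL : z ∈ L)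
    (hzo : orderOf z = s) (hzT : z ∈ normalizer (T : Set G)) (hfix : P ⊓ centralizer ({z} : Set G) = ⊥) :
    z ∈ centralizer (T : Set G) := by
  have := Fact.mk hp
  have := Fact.mk hr
  have := Fact.mk hs
  apply mem_centralizer_of_commutator
  have hodd : Odd (Nat.card T) := by
    obtain ⟨k, hk⟩ := IsPGroup.iff_card.mp hT
    rw [hk]
    exact (hr.odd_of_ne_two hr2).pow
  have h1 : ⁅T, zpowers z⁆ ≤ centralizer (P : Set G) :=
    H55SftNE.ne_odd hpr hps hrs hP hT (by rw [← hzo, pow_orderOf_eq_one]) hzT (hLP hzL) (hTL.trans hLP) hodd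
      (by rw [hfix]; exact bot_le)
  have h2 : ⁅T, zpowers z⁆ ≤ T := commutator_le_left_of_le (by rw [zpowers_le]; exact hzT)
  rw [eq_bot_iff, ← hfaith]
  exact le_inf (h2.trans hTL) h1

/-- a solvable `{r,s}`-group: elements of order `s` cannot centralise `O_r` if `O_s = 1` -/
theorem core_ne_bot {r s : ℕ} (hr : r.Prime) (hs : s.Prime) (hrs : r ≠ s) {L : Subgroup G}
    (hLs : Group.IsSolvable L) (hL : ∀ t : ℕ, t.Prime → t ∣ Nat.card L → t = r ∨ t = s) {z : G} (hzL : z ∈ L)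
    (hzo : orderOf z = s) (hz : z ∈ centralizer (pCoreOf r L : Set G)) : pCoreOf s L ≠ ⊥ := by
  intro h0
  have hpure : ∀ t : ℕ, t.Prime → t ≠ r → pCoreOf t L = ⊥ := by
    intro t ht htr
    by_contra hne
    have h1 : t ∣ Nat.card L := (dvd_of_pCoreOf_ne_bot ht hne).trans (Subgroup.card_dvd_of_le (pCoreOf_le _))
    rcases hL t ht h1 with rfl | rfl
    · exact htr rfl
    · exact hne h0
  have h1 : fittingOf L = pCoreOf r L := by
    apply le_antisymm
    · apply fittingOf_le_of_forall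
      intro t ht
      by_cases htr : t = r
      · rw [htr]
      · rw [hpure t ht htr]; exact bot_le
    · exact pCoreOf_le_fittingOf hr L
  have h2 : z ∈ pCoreOf r L := by
    rw [← h1]
    apply inf_centralizer_fittingOf_le hLs
    rw [h1]
    exact ⟨hzL, hz⟩
  have h3 : z = 1 := by
    refine eq_one_of_isPGroup_of_pow (isPGroup_pCoreOf r L) h2 (n := s) ?_ (by rw [← hzo, pow_orderOf_eq_one])
    exact (Nat.coprime_primes hs hr).2 hrs.symm
  rw [h3, orderOf_one] at hzo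
  exact hs.one_lt.ne hzo

/-- fixed-point-free involutions invert -/
theorem invert {P : Subgroup G} {y : G} (hy : y ∈ normalizer (P : Set G)) (hy2 : y * y = 1)
    (hfix : P ⊓ centralizer ({y} : Set G) = ⊥) {u : G} (hu : u ∈ P) : y * u * y⁻¹ = u⁻¹ := by
  have hmem : ∀ w : P, y * (w : G) * y⁻¹ * (w : G)⁻¹ ∈ P := fun w =>
    P.mul_mem ((mem_normalizer_iff.1 hy w).1 w.2) (P.inv_mem w.2)
  let f : P → P := fun w => ⟨_, hmem w⟩
  have hinj : Function.Injective f := by
    intro v w hvw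
    have h1 : y * (v : G) * y⁻¹ * (v : G)⁻¹ = y * (w : G) * y⁻¹ * (w : G)⁻¹ := congrArg Subtype.val hvw
    have h2 : y * ((w : G)⁻¹ * v) * y⁻¹ = (w : G)⁻¹ * v := by
      have e1 : y * ((w : G)⁻¹ * v) * y⁻¹ = (y * (w : G) * y⁻¹)⁻¹ * (y * (v : G) * y⁻¹) := by group
      have e2 : y * (v : G) * y⁻¹ = y * (w : G) * y⁻¹ * (w : G)⁻¹ * v := by rw [← h1]; group
      rw [e1, e2]; group
    have h3 : (w : G)⁻¹ * v ∈ P ⊓ centralizer ({y} : Set G) := by
      refine ⟨P.mul_mem (P.inv_mem w.2) v.2, mem_centralizer_singleton'.2 ?_⟩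
      rw [mul_inv_eq_iff_eq_mul] at h2
      exact h2
    rw [hfix, mem_bot, inv_mul_eq_one] at h3
    exact Subtype.ext h3.symm
  obtain ⟨v, hv⟩ := (Finite.injective_iff_surjective.1 hinj) ⟨u, hu⟩
  have hv' : y * (v : G) * y⁻¹ * (v : G)⁻¹ = u := congrArg Subtype.val hv
  have hyi : y⁻¹ = y := inv_eq_of_mul_eq_one_left hy2
  rw [← hv', hyi]
  calc y * (y * (v : G) * y * (v : G)⁻¹) * y = (y * y) * (v : G) * y * (v : G)⁻¹ * y := by group
    _ = (v : G) * y * (v : G)⁻¹ * y := by rw [hy2, one_mul]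
    _ = (v : G) * y⁻¹ * (v : G)⁻¹ * y⁻¹ := by rw [hyi]
    _ = (y * (v : G) * y * (v : G)⁻¹)⁻¹ := by group

theorem commute_aux {r s : ℕ} (hr : r.Prime) (hs : s.Prime) (hrs : r ≠ s) {A B : Subgroup G} (hA : IsPGroup r A)
    (hB : IsPGroup s B) (hAB : A ≤ centralizer (B : Set G)) {y z : G} (hyo : orderOf y = r) (hzo : orderOf z = s)
    (hzB : z ∈ normalizer (B : Set G)) (hyB : y ∈ centralizer (B : Set G)) (hzA : z ∈ centralizer (A : Set G))
    (hc : ⁅y, z⁆ ∈ A ⊔ B) : y * z = z * y := by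
  have := Fact.mk hr
  have := Fact.mk hs
  have hBA : B ≤ centralizer (A : Set G) := Subgroup.le_centralizer_iff.1 hAB
  obtain ⟨a, ha, b, hb, hab⟩ := exists_mul_of_mem_sup_of_le (hBA.trans (centralizer_le_normalizer _)) hc
  have h1 : y * z * y⁻¹ = a * (b * z) := by
    have : y * z * y⁻¹ = ⁅y, z⁆ * z := by rw [commutatorElement_def]; group
    rw [this, hab]; group
  have h2 : Commute a (b * z) := by
    have e1 : a * b = b * a := (mem_centralizer_iff.1 (hAB ha) b hb).symm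
    have e2 : a * z = z * a := mem_centralizer_iff.1 hzA a ha
    exact Commute.mul_right e1 e2
  have h3 : (y * z * y⁻¹) ^ s = 1 := by
    rw [conj_pow, ← hzo, pow_orderOf_eq_one]; group
  have h4 : (b * z) ^ s ∈ B := by
    have := mul_pow_mem_coset hb hzB s
    rw [← hzo, pow_orderOf_eq_one] at this
    rw [← hzo]
    simpa using this
  rw [h1, h2.mul_pow] at h3
  have h5 : a ^ s ∈ B := by
    rw [eq_inv_of_mul_eq_one_left h3]
    exact B.inv_mem h4
  have h6 : a ^ s = 1 := by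
    have : a ^ s ∈ A ⊓ B := ⟨pow_mem ha s, h5⟩
    rw [inf_eq_bot_of_isPGroup hrs hA hB] at this
    exact this
  have h7 : a = 1 := eq_one_of_isPGroup_of_pow hA ha ((Nat.coprime_primes hs hr).2 hrs.symm) h6
  rw [h7, one_mul] at hab
  have h8 : ⁅y, z⁆ ∈ (⊥ : Subgroup G) := by
    refine commutator_mem_of_coprime hB ?_ (by rw [hab]; exact hb) ?_ ?_ ?_
    · rw [hyo]; exact (Nat.coprime_primes hr hs).2 hrs
    · rw [normalizer_eq_top_iff.2 inferInstance]; exact mem_top _
    · rw [normalizer_eq_top_iff.2 inferInstance]; exact mem_top _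
    · rw [hab, mem_bot, commutatorElement_eq_one_iff_mul_comm]
      exact (mem_centralizer_iff.1 hyB b hb).symm
  rw [mem_bot, commutatorElement_eq_one_iff_mul_comm] at h8
  exact h8

end Cfsg.Agent.Lib.H55Spec1
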