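import Cfsg.Agent.Lib.H55Spec2

/-!
# Element orders in solvable groups, the case of two primes in the Fitting subgroup, end (helper55)
-/

set_option autoImplicit false
set_option linter.unusedSectionVars false

namespace Cfsg.Agent.Lib.H55Spec1

open Subgroup commutatorElement Cfsg Cfsg.Agent.Lib
open Cfsg.Agent.Lib.LocBase Cfsg.Agent.Lib.BG08
open Cfsg.Agent.Lib.H55Sft (exists_pCoreOf_ne_bot dvd_of_pCoreOf_ne_bot)

universe u

variable {G : Type u} [Group G] [Finite G]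

theorem Rk2.exists_ne_one {a : ℕ} {E : Subgroup G} (h : Rk2 a E) : ∃ e ∈ E, e ≠ 1 := by
  obtain ⟨e, he, h1⟩ := h.exists_not_mem 1
  exact ⟨e, he, fun h0 => h1 (by rw [h0]; exact one_mem _)⟩

theorem Rk2.le_centralizer_singleton {a : ℕ} (ha : a.Prime) {E : Subgroup G} (h : Rk2 a E) {y : G}
    (hy : ∀ e ∈ E, orderOf e = a → y * e = e * y) : E ≤ centralizer ({y} : Set G) := by
  intro e he
  rw [mem_centralizer_singleton']
  by_cases h1 : e = 1
  · rw [h1]; simp
  · exact hy e he (h.orderOf_eq ha he h1)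

theorem fittingOf_le_sup {r s : ℕ} {L : Subgroup G} (hL : ∀ t : ℕ, t.Prime → t ∣ Nat.card L → t = r ∨ t = s) :
    fittingOf L ≤ pCoreOf r L ⊔ pCoreOf s L := by
  apply fittingOf_le_of_forall
  intro t ht
  by_cases h0 : pCoreOf t L = ⊥
  · rw [h0]; exact bot_le
  · have h1 : t ∣ Nat.card L := (dvd_of_pCoreOf_ne_bot ht h0).trans (Subgroup.card_dvd_of_le (pCoreOf_le _))
    rcases hL t ht h1 with rfl | rfl
    · exact le_sup_left
    · exact le_sup_right

theorem mem_fittingOf_of_cores {r s : ℕ} {L : Subgroup G} (hLs : Group.IsSolvable L)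
    (hL : ∀ t : ℕ, t.Prime → t ∣ Nat.card L → t = r ∨ t = s) {c : G} (hc : c ∈ L)
    (h1 : c ∈ centralizer (pCoreOf r L : Set G)) (h2 : c ∈ centralizer (pCoreOf s L : Set G)) :
    c ∈ fittingOf L := by
  apply inf_centralizer_fittingOf_le hLs
  refine ⟨hc, ?_⟩
  have h3 : zpowers c ≤ centralizer (fittingOf L : Set G) := by
    apply le_centralizer_fittingOf
    intro t ht
    rw [zpowers_le]
    by_cases h0 : pCoreOf t L = ⊥
    · rw [h0, mem_centralizer_iff]
      intro x hx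
      rw [SetLike.mem_coe, mem_bot] at hx
      rw [hx]; simp
    · have h4 : t ∣ Nat.card L := (dvd_of_pCoreOf_ne_bot ht h0).trans (Subgroup.card_dvd_of_le (pCoreOf_le _))
      rcases hL t ht h4 with rfl | rfl
      · exact h1
      · exact h2
  exact h3 (mem_zpowers c)

theorem caseII_odd {p q r s : ℕ} (h : Quad G p q r s) (hr2 : r ≠ 2) (hs2 : s ≠ 2) {P Q L : Subgroup G}
    (hP : IsPGroup p P)
    (hQ : IsPGroup q Q) (hP1 : P ≠ ⊥) (hQ1 : Q ≠ ⊥) (hPQ : P ≤ centralizer (Q : Set G))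
    (hLP : L ≤ normalizer (P : Set G)) (hLQ : L ≤ normalizer (Q : Set G)) (hLs : Group.IsSolvable L)
    (hL : ∀ t : ℕ, t.Prime → t ∣ Nat.card L → t = r ∨ t = s)
    {E F : Subgroup G} (hE : Rk2 s E) (hEL : E ≤ L) (hF : Rk2 r F) (hFL : F ≤ L) : False := by
  have hfP := faithful h hP hQ hP1 hQ1 hPQ hLP hLQ hLs hL hE hEL hF hFL
  have hQP : Q ≤ centralizer (P : Set G) := Subgroup.le_centralizer_iff.1 hPQ
  have hfQ := faithful h.swap12 hQ hP hQ1 hP1 hQP hLQ hLP hLs hL hE hEL hF hFL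
  obtain ⟨y, hy, hy1, hfix⟩ := hF.fix h.hr (hFL.trans hLP) (card_coprime' h.hp h.hr h.pr hP) hP1
  have hyo := hF.orderOf_eq h.hr hy hy1
  have hyL := hFL hy
  have hyB : y ∈ centralizer (pCoreOf s L : Set G) := by
    rcases two_or h.hp h.hq h.n1 hP hQ hPQ hyo with h1 | h1
    · exact centralize_of_odd h.hp h.hs h.hr h.ps h.pr h.rs.symm hs2 hP hLP hfP (isPGroup_pCoreOf s L)
        (pCoreOf_le L) hyL hyo (le_normalizer_pCoreOf s L hyL) h1
    · exact centralize_of_odd h.hq h.hs h.hr h.qs h.qr h.rs.symm hs2 hQ hLQ hfQ (isPGroup_pCoreOf s L)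
        (pCoreOf_le L) hyL hyo (le_normalizer_pCoreOf s L hyL) h1
  refine hfix (no_fix h.hp h.hs h.ps h.n3 hP hE (hEL.trans hLP) hyo (hE.le_centralizer_singleton h.hs ?_))
  intro z hz hzo
  have hzL := hEL hz
  have hzA : z ∈ centralizer (pCoreOf r L : Set G) := by
    rcases two_or h.hp h.hq h.n2 hP hQ hPQ hzo with h1 | h1
    · exact centralize_of_odd h.hp h.hr h.hs h.pr h.ps h.rs hr2 hP hLP hfP (isPGroup_pCoreOf r L)
        (pCoreOf_le L) hzL hzo (le_normalizer_pCoreOf r L hzL) h1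
    · exact centralize_of_odd h.hq h.hr h.hs h.qr h.qs h.rs hr2 hQ hLQ hfQ (isPGroup_pCoreOf r L)
        (pCoreOf_le L) hzL hzo (le_normalizer_pCoreOf r L hzL) h1
  have := Fact.mk h.hr
  have := Fact.mk h.hs
  refine commute_aux h.hr h.hs h.rs (isPGroup_pCoreOf r L) (isPGroup_pCoreOf s L)
    (pCoreOf_le_centralizer_pCoreOf h.rs L) hyo hzo (le_normalizer_pCoreOf s L hzL) hyB hzA ?_
  apply fittingOf_le_sup hL
  apply mem_fittingOf_of_cores hLs hL
  · rw [commutatorElement_def]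
    exact L.mul_mem (L.mul_mem (L.mul_mem hyL hzL) (L.inv_mem hyL)) (L.inv_mem hzL)
  · rw [commutatorElement_def]
    have h1 : y ∈ normalizer (centralizer (pCoreOf r L : Set G) : Set G) :=
      le_normalizer_centralizer (le_normalizer_pCoreOf r L) hyL
    exact mul_mem ((mem_normalizer_iff.1 h1 z).1 hzA) (inv_mem hzA)
  · rw [commutatorElement_def]
    have h1 : z ∈ normalizer (centralizer (pCoreOf s L : Set G) : Set G) :=
      le_normalizer_centralizer (le_normalizer_pCoreOf s L) hzL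
    have h2 := (mem_normalizer_iff.1 h1 y⁻¹).1 (inv_mem hyB)
    have : y * z * y⁻¹ * z⁻¹ = y * (z * y⁻¹ * z⁻¹) := by group
    rw [this]
    exact mul_mem hyB h2

theorem caseII_two {p q s : ℕ} (h : Quad G p q 2 s) {P Q L : Subgroup G} (hP : IsPGroup p P)
    (hQ : IsPGroup q Q) (hP1 : P ≠ ⊥) (hQ1 : Q ≠ ⊥) (hPQ : P ≤ centralizer (Q : Set G))
    (hLP : L ≤ normalizer (P : Set G)) (hLQ : L ≤ normalizer (Q : Set G)) (hLs : Group.IsSolvable L)
    (hL : ∀ t : ℕ, t.Prime → t ∣ Nat.card L → t = 2 ∨ t = s)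
    {E F : Subgroup G} (hE : Rk2 s E) (hEL : E ≤ L) (hF : Rk2 2 F) (hFL : F ≤ L) : False := by
  have hfP := faithful h hP hQ hP1 hQ1 hPQ hLP hLQ hLs hL hE hEL hF hFL
  have hQP : Q ≤ centralizer (P : Set G) := Subgroup.le_centralizer_iff.1 hPQ
  have hfQ := faithful h.swap12 hQ hP hQ1 hP1 hQP hLQ hLP hLs hL hE hEL hF hFL
  have h2core : pCoreOf 2 L ≠ ⊥ := by
    obtain ⟨y, hy, hy1⟩ := hF.exists_ne_one
    have hyo := hF.orderOf_eq h.hr hy hy1
    have hyL := hFL hy
    refine core_ne_bot h.hs h.hr h.rs.symm hLs (fun t ht h1 => (hL t ht h1).symm) hyL hyo ?_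
    rcases two_or h.hp h.hq h.n1 hP hQ hPQ hyo with h1 | h1
    · exact centralize_of_odd h.hp h.hs h.hr h.ps h.pr h.rs.symm h.rs.symm hP hLP hfP (isPGroup_pCoreOf s L)
        (pCoreOf_le L) hyL hyo (le_normalizer_pCoreOf s L hyL) h1
    · exact centralize_of_odd h.hq h.hs h.hr h.qs h.qr h.rs.symm h.rs.symm hQ hLQ hfQ (isPGroup_pCoreOf s L)
        (pCoreOf_le L) hyL hyo (le_normalizer_pCoreOf s L hyL) h1
  have := Fact.mk h.hr
  set C : Subgroup G := pCoreOf 2 L ⊓ centralizer (pCoreOf 2 L : Set G) with hCdef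
  have hC2 : IsPGroup 2 C := (isPGroup_pCoreOf 2 L).to_le inf_le_left
  have hCL : C ≤ L := inf_le_left.trans (pCoreOf_le L)
  have hCab : IsMulCommutative C := by
    rw [isMulCommutative_iff_of_setLike]
    rintro a ha b hb
    exact mem_centralizer_iff.1 hb.2 a ha.1
  have hLC : L ≤ normalizer (C : Set G) :=
    le_normalizer_inf (le_normalizer_pCoreOf 2 L) (le_normalizer_centralizer (le_normalizer_pCoreOf 2 L))
  have hC1 : C ≠ ⊥ := by
    intro h0
    have hnt : Nontrivial (pCoreOf 2 L) := (Subgroup.nontrivial_iff_ne_bot _).2 h2core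
    have hz : Nontrivial (Subgroup.center (pCoreOf 2 L)) := (isPGroup_pCoreOf 2 L).center_nontrivial
    obtain ⟨x, hx⟩ := exists_ne (1 : Subgroup.center (pCoreOf 2 L))
    apply hx
    have hxC : ((x : pCoreOf 2 L) : G) ∈ C := by
      refine mem_inf.2 ⟨(x : pCoreOf 2 L).2, mem_centralizer_iff.2 ?_⟩
      intro g hg
      have := Subgroup.mem_center_iff.1 x.2 ⟨g, hg⟩
      exact congrArg Subtype.val this
    rw [h0, mem_bot] at hxC
    exact Subtype.ext (Subtype.ext hxC)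
  have hzC : ∀ z ∈ L, orderOf z = s → z ∈ centralizer (C : Set G) := by
    intro z hzL hzo
    have hcop : (Nat.card (zpowers z)).Coprime (Nat.card C) := by
      rw [Nat.card_zpowers, hzo]
      exact (card_coprime' h.hr h.hs h.rs hC2).symm
    have hZC : zpowers z ≤ normalizer (C : Set G) := by rw [zpowers_le]; exact hLC hzL
    have hTC : ⁅C, zpowers z⁆ ≤ C := commutator_le_left_of_le hZC
    have hT2 : IsPGroup 2 (⁅C, zpowers z⁆ : Subgroup G) := hC2.to_le hTC
    have hzT : z ∈ normalizer ((⁅C, zpowers z⁆ : Subgroup G) : Set G) :=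
      le_normalizer_commutator hZC (le_normalizer (H := zpowers z)) (mem_zpowers z)
    have hTz : ⁅C, zpowers z⁆ ⊓ centralizer ({z} : Set G) = ⊥ := by
      rw [eq_bot_iff, ← CoprimeAction2.inf_commutator_eq_bot_of_abelian hZC hcop]
      refine le_inf (le_inf (inf_le_left.trans hTC) ?_) inf_le_left
      rw [Subgroup.zpowers_eq_closure, centralizer_closure]
      exact inf_le_right
    apply mem_centralizer_of_commutator
    rcases two_or h.hp h.hq h.n2 hP hQ hPQ hzo with h1 | h1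
    · rw [eq_bot_iff, ← hfP]
      refine le_inf (hTC.trans hCL) ?_
      exact frob_prime h.hs hzo hzT ((hTC.trans hCL).trans hLP) (hLP hzL) (isSolvable_of_isPGroup h.hp hP)
        (card_coprime h.hp h.hr h.pr hP hT2) (card_coprime' h.hp h.hs h.ps hP) hTz h1
    · rw [eq_bot_iff, ← hfQ]
      refine le_inf (hTC.trans hCL) ?_
      exact frob_prime h.hs hzo hzT ((hTC.trans hCL).trans hLQ) (hLQ hzL) (isSolvable_of_isPGroup h.hq hQ)
        (card_coprime h.hq h.hr h.qr hQ hT2) (card_coprime' h.hq h.hs h.qs hQ) hTz h1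
  obtain ⟨y, hyC, hyo⟩ := exists_order h.hr hC2 hC1
  have hEy : E ≤ centralizer ({y} : Set G) := by
    apply hE.le_centralizer_singleton h.hs
    intro e he heo
    exact mem_centralizer_iff.1 (hzC e (hEL he) heo) y hyC
  have hPy := no_fix h.hp h.hs h.ps h.n3 hP hE (hEL.trans hLP) hyo hEy
  have hQy := no_fix h.hq h.hs h.qs h.n4 hQ hE (hEL.trans hLQ) hyo hEy
  obtain ⟨y', hy', hyn⟩ := hF.exists_not_mem y
  have hy'1 : y' ≠ 1 := by
    rintro rfl
    exact hyn (one_mem _)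
  have hy'o := hF.orderOf_eq h.hr hy' hy'1
  have hyL := hCL hyC
  have hyy : y * y = 1 := by rw [← sq, ← hyo, pow_orderOf_eq_one]
  have hyy' : y' * y' = 1 := by rw [← sq, ← hy'o, pow_orderOf_eq_one]
  have key : ∀ R : Subgroup G, L ≤ normalizer (R : Set G) → L ⊓ centralizer (R : Set G) = ⊥ →
      R ⊓ centralizer ({y} : Set G) = ⊥ → R ⊓ centralizer ({y'} : Set G) = ⊥ → False := by
    intro R hLR hfR h1 h2
    have h3 : y * y' ∈ L ⊓ centralizer (R : Set G) := by
      refine mem_inf.2 ⟨L.mul_mem hyL (hFL hy'), mem_centralizer_iff.2 ?_⟩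
      intro u hu
      have e1 := invert (hLR (hFL hy')) hyy' h2 hu
      have e2 := invert (hLR hyL) hyy h1 (R.inv_mem hu)
      rw [inv_inv] at e2
      have e3 : (y * y') * u * (y * y')⁻¹ = u := by
        have : (y * y') * u * (y * y')⁻¹ = y * (y' * u * y'⁻¹) * y⁻¹ := by group
        rw [this, e1, e2]
      rw [mul_inv_eq_iff_eq_mul] at e3
      exact e3.symm
    rw [hfR, mem_bot] at h3
    apply hyn
    rw [eq_inv_of_mul_eq_one_right h3]
    exact inv_mem (mem_zpowers y)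
  rcases two_or h.hp h.hq h.n1 hP hQ hPQ hy'o with h1 | h1
  · exact key P hLP hfP hPy h1
  · exact key Q hLQ hfQ hQy h1

/-- **Case II**: two primes in the Fitting subgroup -/
theorem caseII {p q r s : ℕ} (h : Quad G p q r s) {P Q L : Subgroup G} (hP : IsPGroup p P)
    (hQ : IsPGroup q Q) (hP1 : P ≠ ⊥) (hQ1 : Q ≠ ⊥) (hPQ : P ≤ centralizer (Q : Set G))
    (hLP : L ≤ normalizer (P : Set G)) (hLQ : L ≤ normalizer (Q : Set G)) (hLs : Group.IsSolvable L)
    (hL : ∀ t : ℕ, t.Prime → t ∣ Nat.card L → t = r ∨ t = s)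
    {E F : Subgroup G} (hE : Rk2 s E) (hEL : E ≤ L) (hF : Rk2 r F) (hFL : F ≤ L) : False := by
  by_cases hr2 : r = 2
  · subst hr2
    exact caseII_two h hP hQ hP1 hQ1 hPQ hLP hLQ hLs hL hE hEL hF hFL
  by_cases hs2 : s = 2
  · subst hs2
    exact caseII_two h.swap34 hP hQ hP1 hQ1 hPQ hLP hLQ hLs (fun t ht h1 => (hL t ht h1).symm) hF hFL hE hEL
  exact caseII_odd h hr2 hs2 hP hQ hP1 hQ1 hPQ hLP hLQ hLs hL hE hEL hF hFL

end Cfsg.Agent.Lib.H55Spec1
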