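import Cfsg.Agent.Lib.H55Spec3

/-!
# Element orders in solvable groups, one prime in the Fitting subgroup, first case (helper55)
-/

set_option autoImplicit false
set_option linter.unusedSectionVars false

namespace Cfsg.Agent.Lib.H55Spec1

open Subgroup commutatorElement Cfsg Cfsg.Agent.Lib
open Cfsg.Agent.Lib.LocBase Cfsg.Agent.Lib.BG08
open Cfsg.Agent.Lib.H55Sft (exists_pCoreOf_ne_bot dvd_of_pCoreOf_ne_bot)

universe u

variable {G : Type u} [Group G] [Finite G]

variable (G) in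
/-- elements of order `a` do not commute with elements of each of the orders `b`, `c`, `d` -/
def FA (a b c d : ℕ) : Prop :=
  ∀ x u v w : G, orderOf x = a → orderOf u = b → orderOf v = c → orderOf w = d → x * u = u * x →
    x * v = v * x → x * w = w * x → False

theorem FA.swap23 {a b c d : ℕ} (h : FA G a b c d) : FA G a c b d :=
  fun x u v w hx hu hv hw h1 h2 h3 => h x v u w hx hv hu hw h2 h1 h3

theorem FA.swap34 {a b c d : ℕ} (h : FA G a b c d) : FA G a b d c :=
  fun x u v w hx hu hv hw h1 h2 h3 => h x u w v hx hu hw hv h1 h3 h2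

/-- an element of prime order `e` acting nontrivially on a group of order `s` -/
theorem dvd_sub_one {r s : ℕ} (hr : r.Prime) (hs : s.Prime) {e z : G} (he : orderOf e = r) (hz : orderOf z = s)
    (hez : e ∈ normalizer (zpowers z : Set G)) (hc : ¬ z * e = e * z) : r ∣ s - 1 := by
  have := Fact.mk hr
  -- the cyclic group generated by `e` acts on the group generated by `z`
  have hZ : zpowers e ≤ normalizer (zpowers z : Set G) := by rw [zpowers_le]; exact hez
  let act : MulAction (zpowers e) (zpowers z) :=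
    { smul := fun a v => ⟨(a : G) * v * (a : G)⁻¹, (mem_normalizer_iff.1 (hZ a.2) v).1 v.2⟩
      one_smul := fun v => Subtype.ext (by
        change ((1 : zpowers e) : G) * v * ((1 : zpowers e) : G)⁻¹ = v
        simp)
      mul_smul := fun a b v => Subtype.ext (by
        change ((a * b : zpowers e) : G) * v * ((a * b : zpowers e) : G)⁻¹ =
          (a : G) * ((b : G) * v * (b : G)⁻¹) * (a : G)⁻¹
        rw [Subgroup.coe_mul]
        group) }
  have hp : IsPGroup r (zpowers e) := IsPGroup.of_card (n := 1) (by rw [Nat.card_zpowers, he, pow_one])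
  have hmod := hp.card_modEq_card_fixedPoints (zpowers z)
  have hfp : Nat.card (MulAction.fixedPoints (zpowers e) (zpowers z)) = 1 := by
    rw [Nat.card_eq_one_iff_unique]
    constructor
    · constructor
      rintro ⟨v, hv⟩ ⟨w, hw⟩
      have key : ∀ v : zpowers z, v ∈ MulAction.fixedPoints (zpowers e) (zpowers z) → v = 1 := by
        intro v hv
        rw [MulAction.mem_fixedPoints] at hv
        have h1 := congrArg Subtype.val (hv ⟨e, mem_zpowers e⟩)
        have h2 : e * (v : G) * e⁻¹ = v := h1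
        have h3 : (v : G) ∈ zpowers z ⊓ centralizer ({e} : Set G) := by
          refine ⟨v.2, mem_centralizer_singleton'.2 ?_⟩
          rw [mul_inv_eq_iff_eq_mul] at h2
          exact h2
        rw [zpowers_inf_centralizer hs hz hc, mem_bot] at h3
        exact Subtype.ext h3
      exact Subtype.ext ((key v hv).trans (key w hw).symm)
    · refine ⟨⟨1, ?_⟩⟩
      rw [MulAction.mem_fixedPoints]
      intro a
      apply Subtype.ext
      change (a : G) * ((1 : zpowers z) : G) * (a : G)⁻¹ = ((1 : zpowers z) : G)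
      simp
  rw [hfp, Nat.card_zpowers, hz] at hmod
  exact (Nat.modEq_iff_dvd' hs.one_lt.le).1 hmod.symm

/-- not dividing: commuting -/
theorem commute_of_not_dvd {r s : ℕ} (hr : r.Prime) (hs : s.Prime) {e z : G} (he : orderOf e = r) (hz : orderOf z = s)
    (hez : e ∈ normalizer (zpowers z : Set G)) (hd : ¬ r ∣ s - 1) : z * e = e * z := by
  by_contra hc
  exact hd (dvd_sub_one hr hs he hz hez hc)

theorem not_dvd_self {r : ℕ} (hr : r.Prime) : ¬ r ∣ r - 1 := by
  intro h
  have h1 := Nat.le_of_dvd (by have := hr.one_lt; omega) h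
  have := hr.one_lt
  omega

theorem not_dvd_of_dvd {r s : ℕ} (hr : r.Prime) (hs : s.Prime) (h : r ∣ s - 1) : ¬ s ∣ r - 1 := by
  intro h2
  have h1 := Nat.le_of_dvd (by have := hs.one_lt; omega) h
  have h3 := Nat.le_of_dvd (by have := hr.one_lt; omega) h2
  have := hr.one_lt
  have := hs.one_lt
  omega

theorem centralizer_singleton_eq (t : G) : centralizer ({t} : Set G) = centralizer (zpowers t : Set G) := by
  rw [Subgroup.zpowers_eq_closure, centralizer_closure]

/-- a product of commuting elements without fixed points generates a group acting semiregularly -/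
theorem inf_centralizer_mul {r s : ℕ} (hr : r.Prime) (hs : s.Prime) (hrs : r ≠ s) {B : Subgroup G} {y z : G}
    (hy : orderOf y = r) (hz : orderOf z = s) (hyz : y * z = z * y)
    (h1 : B ⊓ centralizer ({y} : Set G) = ⊥) (h2 : B ⊓ centralizer ({z} : Set G) = ⊥) {e : G}
    (he : e ∈ zpowers (y * z)) (he1 : e ≠ 1) : B ⊓ centralizer ({e} : Set G) = ⊥ := by
  have hc : Commute y z := hyz
  obtain ⟨k, rfl⟩ := he
  change (y * z) ^ k ≠ 1 at he1
  change B ⊓ centralizer ({(y * z) ^ k} : Set G) = ⊥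
  have h3 : (y * z) ^ k = y ^ k * z ^ k := hc.mul_zpow k
  have hyr : y ^ r = 1 := by rw [← hy, pow_orderOf_eq_one]
  have hzs : z ^ s = 1 := by rw [← hz, pow_orderOf_eq_one]
  have hcg : ∀ (t : G) (n : ℕ), centralizer ({t} : Set G) ≤ centralizer ({t ^ n} : Set G) := by
    intro t n
    rw [centralizer_singleton_eq, centralizer_singleton_eq]
    apply centralizer_le
    rw [SetLike.coe_subset_coe, zpowers_le]
    exact ⟨n, by simp⟩
  have hsy : ((y * z) ^ k) ^ s = (y ^ k) ^ s := by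
    rw [h3, (hc.zpow_zpow k k).mul_pow, ← zpow_natCast (z ^ k), ← zpow_mul, mul_comm k, zpow_mul, zpow_natCast, hzs,
      one_zpow, mul_one]
  have hrz : ((y * z) ^ k) ^ r = (z ^ k) ^ r := by
    rw [h3, (hc.zpow_zpow k k).mul_pow, ← zpow_natCast (y ^ k), ← zpow_mul, mul_comm k, zpow_mul, zpow_natCast, hyr,
      one_zpow, one_mul]
  by_cases hyk : y ^ k = 1
  · have hzk : z ^ k ≠ 1 := by
      intro h0
      apply he1
      rw [h3, hyk, h0, one_mul]
    rw [h3, hyk, one_mul, centralizer_singleton_eq,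
      zpowers_eq_of_mem hs hz (⟨k, rfl⟩ : z ^ k ∈ zpowers z) hzk, ← centralizer_singleton_eq]
    exact h2
  · -- `(y ^ k) ^ s ≠ 1`
    have h4 : (y ^ k) ^ s ≠ 1 := by
      intro h0
      have h5 : orderOf (y ^ k) ∣ s := orderOf_dvd_of_pow_eq_one h0
      have h6 : orderOf (y ^ k) ∣ r := by
        apply orderOf_dvd_of_pow_eq_one
        rw [← zpow_natCast, ← zpow_mul, mul_comm, zpow_mul, zpow_natCast, hyr, one_zpow]
      have h7 : orderOf (y ^ k) = 1 := Nat.eq_one_of_dvd_coprimes ((Nat.coprime_primes hr hs).2 hrs) h6 h5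
      exact hyk (orderOf_eq_one_iff.1 h7)
    have h5 : (y ^ k) ^ s ∈ zpowers y := by
      rw [← zpow_natCast, ← zpow_mul]
      exact ⟨_, rfl⟩
    rw [eq_bot_iff, ← h1]
    refine inf_le_inf_left _ ((hcg _ s).trans ?_)
    rw [hsy, centralizer_singleton_eq, zpowers_eq_of_mem hr hy h5 h4, ← centralizer_singleton_eq]

/-- the data in Case I.1 -/
structure CI (P B Y L : Subgroup G) (p q r s : ℕ) : Prop where
  quad : Quad G p q r s
  f3 : FA G r p q s
  f4 : FA G s p q r
  hP : IsPGroup p P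
  hB : IsPGroup q B
  hP1 : P ≠ ⊥
  hB1 : B ≠ ⊥
  hYP : Y ≤ normalizer (P : Set G)
  hYB : Y ≤ normalizer (B : Set G)
  hBY : B ≤ Y
  hLY : L ≤ Y
  hfY : Y ⊓ centralizer (P : Set G) = ⊥
  hfB : L ⊓ centralizer (B : Set G) = ⊥
  hLs : Group.IsSolvable L
  hL : ∀ t : ℕ, t.Prime → t ∣ Nat.card L → t = r ∨ t = s
  hE : ∃ E ≤ L, Rk2 s E
  hF : ∃ F ≤ L, Rk2 r F

theorem CI.swap {P B Y L : Subgroup G} {p q r s : ℕ} (h : CI P B Y L p q r s) : CI P B Y L p q s r :=
  ⟨h.quad.swap34, h.f4, h.f3, h.hP, h.hB, h.hP1, h.hB1, h.hYP, h.hYB, h.hBY, h.hLY, h.hfY, h.hfB, h.hLs,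
    fun t ht h1 => (h.hL t ht h1).symm, h.hF, h.hE⟩

theorem CI.ne_or {P B Y L : Subgroup G} {p q r s : ℕ} (h : CI P B Y L p q r s) {y z : G} (hy : y ∈ L) (hz : z ∈ L)
    (hyo : orderOf y = r) (hzo : orderOf z = s) (hyz : y * z = z * y) :
    ¬ (B ⊓ centralizer ({y} : Set G) = ⊥ ∧ B ⊓ centralizer ({z} : Set G) = ⊥) := by
  rintro ⟨h1, h2⟩
  have Q := h.quad
  have hc : Commute y z := hyz
  have hyzL : y * z ∈ L := L.mul_mem hy hz
  have hcop : orderOf (y * z) = r * s := by
    rw [hc.orderOf_mul_eq_mul_orderOf_of_coprime, hyo, hzo]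
    rw [hyo, hzo]
    exact (Nat.coprime_primes Q.hr Q.hs).2 Q.rs
  have h3 : B ≤ centralizer (P : Set G) := by
    refine frob (z := y * z) ?_ (h.hYB (h.hLY hyzL)) (h.hBY.trans h.hYP) (h.hYP (h.hLY hyzL))
      (isSolvable_of_isPGroup Q.hp h.hP) (card_coprime Q.hp Q.hq Q.pq h.hP h.hB) ?_ ?_ ?_
    · intro h0
      rw [h0, orderOf_one] at hcop
      have := Nat.eq_one_of_mul_eq_one_right hcop.symm
      exact Q.hr.one_lt.ne' this
    · rw [hcop]
      exact Nat.Coprime.mul_right (card_coprime' Q.hp Q.hr Q.pr h.hP) (card_coprime' Q.hp Q.hs Q.ps h.hP)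
    · intro e he he1
      exact inf_centralizer_mul Q.hr Q.hs Q.rs hyo hzo hyz h1 h2 he he1
    · rw [eq_bot_iff, ← inf_two Q.hp Q.n3 h.hP hyo hzo hyz]
      rintro u ⟨hu, huyz⟩
      have hcu : Commute (y * z) u := mem_centralizer_singleton'.1 huyz
      have hys : (y * z) ^ s = y ^ s := by
        rw [hc.mul_pow, ← hzo, pow_orderOf_eq_one, mul_one]
      have hzr : (y * z) ^ r = z ^ r := by
        rw [hc.mul_pow, ← hyo, pow_orderOf_eq_one, one_mul]
      have hs1 : y ^ s ≠ 1 := by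
        intro h0
        have h5 := orderOf_dvd_of_pow_eq_one h0
        rw [hyo, Nat.prime_dvd_prime_iff_eq Q.hr Q.hs] at h5
        exact Q.rs h5
      have hr1 : z ^ r ≠ 1 := by
        intro h0
        have h5 := orderOf_dvd_of_pow_eq_one h0
        rw [hzo, Nat.prime_dvd_prime_iff_eq Q.hs Q.hr] at h5
        exact Q.rs h5.symm
      refine ⟨⟨hu, ?_⟩, ?_⟩
      · change u ∈ centralizer ({y} : Set G)
        rw [centralizer_singleton_eq, ← zpowers_eq_of_mem Q.hr hyo (⟨s, by simp⟩ : y ^ s ∈ zpowers y) hs1,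
          ← centralizer_singleton_eq, mem_centralizer_singleton', ← hys]
        exact hcu.pow_left s
      · change u ∈ centralizer ({z} : Set G)
        rw [centralizer_singleton_eq, ← zpowers_eq_of_mem Q.hs hzo (⟨r, by simp⟩ : z ^ r ∈ zpowers z) hr1,
          ← centralizer_singleton_eq, mem_centralizer_singleton', ← hzr]
        exact hcu.pow_left r
  apply h.hB1
  rw [eq_bot_iff, ← h.hfY]
  exact le_inf h.hBY h3

/-- an element of order `s` commuting with `y`, where `y` has fixed points on `B` -/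
theorem CI.fix_P {P B Y L : Subgroup G} {p q r s : ℕ} (h : CI P B Y L p q r s) {y z : G} (hz : z ∈ L)
    (hyo : orderOf y = r) (hzo : orderOf z = s) (hyz : y * z = z * y) (hBy : B ⊓ centralizer ({y} : Set G) ≠ ⊥) :
    P ⊓ centralizer ({z} : Set G) ≠ ⊥ := by
  intro h1
  have Q := h.quad
  have h3 : B ⊓ centralizer ({y} : Set G) ≤ centralizer (P : Set G) := by
    refine frob_prime Q.hs hzo ?_ ((inf_le_left.trans h.hBY).trans h.hYP) (h.hYP (h.hLY hz))
      (isSolvable_of_isPGroup Q.hp h.hP) (card_coprime Q.hp Q.hq Q.pq h.hP (h.hB.to_le inf_le_left))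
      (card_coprime' Q.hp Q.hs Q.ps h.hP) (inf_two Q.hq Q.n4 h.hB hyo hzo hyz) h1
    have h4 : zpowers z ≤ normalizer ((B ⊓ centralizer ({y} : Set G) : Subgroup G) : Set G) := by
      apply le_normalizer_inf
      · rw [zpowers_le]; exact h.hYB (h.hLY hz)
      · apply le_normalizer_centralizer_singleton
        rw [zpowers_le, mem_centralizer_singleton']
        exact hyz
    exact h4 (mem_zpowers z)
  apply hBy
  rw [eq_bot_iff, ← h.hfY]
  exact le_inf (inf_le_left.trans h.hBY) h3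

theorem CI.fix_B {P B Y L : Subgroup G} {p q r s : ℕ} (h : CI P B Y L p q r s) {y z : G} (hz : z ∈ L)
    (hyo : orderOf y = r) (hzo : orderOf z = s) (hyz : y * z = z * y) (hBy : B ⊓ centralizer ({y} : Set G) ≠ ⊥) :
    B ⊓ centralizer ({z} : Set G) = ⊥ := by
  by_contra h1
  have Q := h.quad
  have h2 := h.fix_P hz hyo hzo hyz hBy
  obtain ⟨u, ⟨_, huz⟩, huo⟩ := exists_order Q.hp (h.hP.to_le inf_le_left) h2
  obtain ⟨v, ⟨_, hvz⟩, hvo⟩ := exists_order Q.hq (h.hB.to_le inf_le_left) h1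
  exact h.f4 z u v y hzo huo hvo hyo (mem_centralizer_singleton'.1 huz) (mem_centralizer_singleton'.1 hvz)
    hyz.symm

theorem CI.fix_P' {P B Y L : Subgroup G} {p q r s : ℕ} (h : CI P B Y L p q r s) {y z : G}
    (hyo : orderOf y = r) (hzo : orderOf z = s) (hyz : y * z = z * y) (hBy : B ⊓ centralizer ({y} : Set G) ≠ ⊥) :
    P ⊓ centralizer ({y} : Set G) = ⊥ := by
  by_contra h1
  have Q := h.quad
  obtain ⟨u, ⟨_, huz⟩, huo⟩ := exists_order Q.hp (h.hP.to_le inf_le_left) h1
  obtain ⟨v, ⟨_, hvz⟩, hvo⟩ := exists_order Q.hq (h.hB.to_le inf_le_left) hBy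
  exact h.f3 y u v z hyo huo hvo hzo (mem_centralizer_singleton'.1 huz) (mem_centralizer_singleton'.1 hvz) hyz

theorem CI.false_aux {P B Y L : Subgroup G} {p q r s : ℕ} (h : CI P B Y L p q r s) {y z : G} (hy : y ∈ L)
    (hz : z ∈ L) (hyo : orderOf y = r) (hzo : orderOf z = s) (hyz : y * z = z * y)
    (hBy : B ⊓ centralizer ({y} : Set G) ≠ ⊥) : False := by
  have Q := h.quad
  have := Fact.mk Q.hr
  have := Fact.mk Q.hs
  have hPy := h.fix_P' hyo hzo hyz hBy
  have hBz := h.fix_B hz hyo hzo hyz hBy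
  have hyY := h.hLY hy
  have hLP : L ≤ normalizer (P : Set G) := h.hLY.trans h.hYP
  have hLB : L ≤ normalizer (B : Set G) := h.hLY.trans h.hYB
  have hfP : L ⊓ centralizer (P : Set G) = ⊥ := by
    rw [eq_bot_iff, ← h.hfY]
    exact inf_le_inf_right _ h.hLY
  have hq2 : q = 2 := by
    by_contra hq2
    have h1 := centralize_of_odd Q.hp Q.hq Q.hr Q.pq Q.pr Q.qr hq2 h.hP h.hYP h.hfY h.hB h.hBY hyY hyo
      (h.hYB hyY) hPy
    have h2 : y ∈ L ⊓ centralizer (B : Set G) := ⟨hy, h1⟩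
    rw [h.hfB, mem_bot] at h2
    rw [h2, orderOf_one] at hyo
    exact Q.hr.one_lt.ne hyo
  have hr2 : r ≠ 2 := fun h0 => Q.qr (hq2.trans h0.symm)
  have hs2 : s ≠ 2 := fun h0 => Q.qs (hq2.trans h0.symm)
  -- `y` centralises `O_s(L)`
  have hyD : y ∈ centralizer (pCoreOf s L : Set G) :=
    centralize_of_odd Q.hp Q.hs Q.hr Q.ps Q.pr Q.rs.symm hs2 h.hP hLP hfP (isPGroup_pCoreOf s L) (pCoreOf_le L)
      hy hyo (le_normalizer_pCoreOf s L hy) hPy
  -- `z` centralises `O_r(L)`
  have hzD : z ∈ centralizer (pCoreOf r L : Set G) :=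
    centralize_of_odd Q.hq Q.hr Q.hs Q.qr Q.qs Q.rs hr2 h.hB hLB h.hfB (isPGroup_pCoreOf r L) (pCoreOf_le L)
      hz hzo (le_normalizer_pCoreOf r L hz) hBz
  have hDs1 : pCoreOf s L ≠ ⊥ := core_ne_bot Q.hr Q.hs Q.rs h.hLs h.hL hz hzo hzD
  have hDr1 : pCoreOf r L ≠ ⊥ :=
    core_ne_bot Q.hs Q.hr Q.rs.symm h.hLs (fun t ht h1 => (h.hL t ht h1).symm) hy hyo hyD
  have hcomm : ∀ w ∈ pCoreOf s L, y * w = w * y := fun w hw => (mem_centralizer_iff.1 hyD w hw).symm
  have hnoD : ∀ E ≤ pCoreOf s L, ¬ Rk2 s E := by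
    intro E hE hrk
    obtain ⟨e, he, he1, hfix⟩ := hrk.fix Q.hs ((hE.trans (pCoreOf_le L)).trans hLB) (card_coprime' Q.hq Q.hs Q.qs h.hB)
      h.hB1
    exact hfix (h.fix_B (pCoreOf_le L (hE he)) hyo (hrk.orderOf_eq Q.hs he he1) (hcomm e (hE he)) hBy)
  obtain ⟨z0, hz0D, hz0o, hu0⟩ := exists_unique_of_not_rk2 Q.hs (isPGroup_pCoreOf s L) hDs1 hnoD
  have hLz0 : L ≤ normalizer (zpowers z0 : Set G) :=
    zpowers_le_normalizer_of_unique (le_normalizer_pCoreOf s L) hz0D hz0o hu0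
  have hPz0 : P ⊓ centralizer ({z0} : Set G) ≠ ⊥ := h.fix_P (pCoreOf_le L hz0D) hyo hz0o (hcomm z0 hz0D) hBy
  have hnor : ∀ E ≤ L, E ≤ centralizer ({z0} : Set G) → ¬ Rk2 r E := by
    intro E hEL hEz hrk
    exact hPz0 (no_fix Q.hp Q.hr Q.pr Q.n3.swap23 h.hP hrk (hEL.trans hLP) hz0o hEz)
  obtain ⟨F, hFL, hF⟩ := h.hF
  obtain ⟨E, hEL, hE⟩ := h.hE
  have hdvd : r ∣ s - 1 := by
    by_contra hd
    refine hnor F hFL ?_ hF
    apply hF.le_centralizer_singleton Q.hr
    intro e he heo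
    exact commute_of_not_dvd Q.hr Q.hs heo hz0o (hLz0 (hFL he)) hd
  have hndvd : ¬ s ∣ r - 1 := not_dvd_of_dvd Q.hr Q.hs hdvd
  -- `O_r(L)`
  have hnoDr : ∀ E ≤ pCoreOf r L, ¬ Rk2 r E := by
    intro E hE
    refine hnor E (hE.trans (pCoreOf_le L)) ?_
    have h1 : E ≤ centralizer (pCoreOf s L : Set G) := hE.trans (pCoreOf_le_centralizer_pCoreOf Q.rs L)
    refine h1.trans ?_
    apply centralizer_le
    rw [Set.singleton_subset_iff]
    exact hz0D
  obtain ⟨y0, hy0D, hy0o, hv0⟩ := exists_unique_of_not_rk2 Q.hr (isPGroup_pCoreOf r L) hDr1 hnoDr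
  have hLy0 : L ≤ normalizer (zpowers y0 : Set G) :=
    zpowers_le_normalizer_of_unique (le_normalizer_pCoreOf r L) hy0D hy0o hv0
  have hy0L := pCoreOf_le L hy0D
  have hyy0 : y0 * y = y * y0 := commute_of_not_dvd Q.hr Q.hr hyo hy0o (hLy0 hy) (not_dvd_self Q.hr)
  have hy0z0 : z0 * y0 = y0 * z0 :=
    mem_centralizer_iff.1 (pCoreOf_le_centralizer_pCoreOf Q.rs L hy0D) z0 hz0D
  have hymem : y ∈ zpowers y0 := by
    by_contra hn
    refine hnor (closure {y0, y}) ?_ ?_ (Rk2.of_pair Q.hr hy0o hyo hyy0 hn)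
    · rw [closure_le]
      rintro w hw
      simp only [Set.mem_insert_iff, Set.mem_singleton_iff] at hw
      rcases hw with rfl | rfl
      · exact hy0L
      · exact hy
    · rw [closure_le]
      rintro w hw
      simp only [Set.mem_insert_iff, Set.mem_singleton_iff] at hw
      rcases hw with rfl | rfl
      · exact mem_centralizer_singleton'.2 hy0z0
      · exact mem_centralizer_singleton'.2 (hcomm z0 hz0D).symm
  have hy1 : y ≠ 1 := by
    intro h0
    rw [h0, orderOf_one] at hyo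
    exact Q.hr.one_lt.ne hyo
  have hEy : E ≤ centralizer ({y} : Set G) := by
    apply hE.le_centralizer_singleton Q.hs
    intro e he heo
    have h1 := commute_of_not_dvd Q.hs Q.hr heo hy0o (hLy0 (hEL he)) hndvd
    obtain ⟨k, rfl⟩ := hymem
    exact (Commute.zpow_left (h1 : Commute y0 e) k)
  exact hBy (no_fix Q.hq Q.hs Q.qs Q.n4 h.hB hE (hEL.trans hLB) hyo hEy)

/-- **Case I.1** -/
theorem CI.false {P B Y L : Subgroup G} {p q r s : ℕ} (h : CI P B Y L p q r s) {y z : G} (hy : y ∈ L)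
    (hz : z ∈ L) (hyo : orderOf y = r) (hzo : orderOf z = s) (hyz : y * z = z * y) : False := by
  have h1 := h.ne_or hy hz hyo hzo hyz
  rw [not_and_or] at h1
  rcases h1 with h1 | h1
  · exact h.false_aux hy hz hyo hzo hyz h1
  · exact h.swap.false_aux hz hy hzo hyo hyz.symm h1

end Cfsg.Agent.Lib.H55Spec1
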