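import Cfsg.Agent.Lib.H55Spec4
import Cfsg.Agent.Lib.OmegaFix

/-!
# Element orders in solvable groups, one prime in the Fitting subgroup, second case (helper55)
-/

set_option autoImplicit false
set_option linter.unusedSectionVars false

namespace Cfsg.Agent.Lib.H55Spec1

open Subgroup commutatorElement Cfsg Cfsg.Agent.Lib
open Cfsg.Agent.Lib.LocBase Cfsg.Agent.Lib.BG08 Cfsg.Agent.Lib.HallPi
open Cfsg.Agent.Lib.H55Sft (exists_pCoreOf_ne_bot dvd_of_pCoreOf_ne_bot)

universe u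

variable {G : Type u} [Group G] [Finite G]

/-- the data in Case I.2 -/
structure CJ (P Y : Subgroup G) (p q r s : ℕ) : Prop where
  quad : Quad G p q r s
  hP : IsPGroup p P
  hP1 : P ≠ ⊥
  hYP : Y ≤ normalizer (P : Set G)
  hfY : Y ⊓ centralizer (P : Set G) = ⊥
  hYs : Group.IsSolvable Y
  hY : ∀ t : ℕ, t.Prime → t ∣ Nat.card Y → t = q ∨ t = r ∨ t = s
  hq1 : pCoreOf q Y ≠ ⊥
  hr1 : pCoreOf r Y ≠ ⊥
  hEq : ∃ E ≤ Y, Rk2 q E
  hEr : ∃ E ≤ Y, Rk2 r E
  hEs : ∃ E ≤ Y, Rk2 s E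

variable {P Y : Subgroup G} {p q r s : ℕ}

theorem CJ.swap (h : CJ P Y p q r s) : CJ P Y p r q s :=
  ⟨h.quad.swap23, h.hP, h.hP1, h.hYP, h.hfY, h.hYs,
    fun t ht h1 => by rcases h.hY t ht h1 with h2 | h2 | h2 <;> simp [h2],
    h.hr1, h.hq1, h.hEr, h.hEq, h.hEs⟩

theorem CJ.fixB (h : CJ P Y p q r s) {y0 z : G} (hy0 : y0 ∈ pCoreOf r Y) (hy0o : orderOf y0 = r)
    (hzo : orderOf z = s) (hc : y0 * z = z * y0) : pCoreOf q Y ⊓ centralizer ({z} : Set G) = ⊥ := by
  have := Fact.mk h.quad.hr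
  have := Fact.mk h.quad.hq
  have h1 := inf_two h.quad.hq h.quad.n4 (isPGroup_pCoreOf q Y) hy0o hzo hc
  have h2 : pCoreOf q Y ⊓ centralizer ({y0} : Set G) = pCoreOf q Y :=
    inf_centralizer_eq_self (pCoreOf_le_centralizer_pCoreOf h.quad.qr.symm Y hy0)
  rwa [h2] at h1

theorem CJ.fixP (h : CJ P Y p q r s) {y0 z : G} (hy0 : y0 ∈ pCoreOf r Y) (hy0o : orderOf y0 = r)
    (hz : z ∈ Y) (hzo : orderOf z = s) (hc : y0 * z = z * y0) : P ⊓ centralizer ({z} : Set G) ≠ ⊥ := by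
  intro h1
  have Q := h.quad
  have h3 : pCoreOf q Y ≤ centralizer (P : Set G) :=
    frob_prime Q.hs hzo (le_normalizer_pCoreOf q Y hz) ((pCoreOf_le Y).trans h.hYP) (h.hYP hz)
      (isSolvable_of_isPGroup Q.hp h.hP) (card_coprime Q.hp Q.hq Q.pq h.hP (isPGroup_pCoreOf q Y))
      (card_coprime' Q.hp Q.hs Q.ps h.hP) (h.fixB hy0 hy0o hzo hc) h1
  apply h.hq1
  rw [eq_bot_iff, ← h.hfY]
  exact le_inf (pCoreOf_le Y) h3

theorem CJ.false_aux (h : CJ P Y p q r s) (hno : ∀ E ≤ pCoreOf r Y, ¬ Rk2 r E) : False := by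
  have Q := h.quad
  have := Fact.mk Q.hq
  have := Fact.mk Q.hr
  have := Fact.mk Q.hs
  obtain ⟨y0, hy0, hy0o, hu0⟩ := exists_unique_of_not_rk2 Q.hr (isPGroup_pCoreOf r Y) h.hr1 hno
  have hYy0 : Y ≤ normalizer (zpowers y0 : Set G) :=
    zpowers_le_normalizer_of_unique (le_normalizer_pCoreOf r Y) hy0 hy0o hu0
  have hy0Y := pCoreOf_le Y hy0
  obtain ⟨Er, hErY, hEr⟩ := h.hEr
  obtain ⟨Es, hEsY, hEs⟩ := h.hEs
  have hy01 : y0 ≠ 1 := by
    intro h0
    rw [h0, orderOf_one] at hy0o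
    exact Q.hr.one_lt.ne hy0o
  -- no rank two `s`-subgroups commute with `y0`
  have hnos : ∀ E ≤ Y, E ≤ centralizer ({y0} : Set G) → ¬ Rk2 s E := by
    intro E hEY hEy hrk
    obtain ⟨e, he, he1, hfix⟩ := hrk.fix Q.hs (hEY.trans (le_normalizer_pCoreOf q Y))
      (card_coprime' Q.hq Q.hs Q.qs (isPGroup_pCoreOf q Y)) h.hq1
    exact hfix (h.fixB hy0 hy0o (hrk.orderOf_eq Q.hs he he1) (mem_centralizer_singleton'.1 (hEy he)))
  have hdvd : s ∣ r - 1 := by
    by_contra hd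
    refine hnos Es hEsY ?_ hEs
    apply hEs.le_centralizer_singleton Q.hs
    intro e he heo
    exact commute_of_not_dvd Q.hs Q.hr heo hy0o (hYy0 (hEsY he)) hd
  have hndvd : ¬ r ∣ s - 1 := not_dvd_of_dvd Q.hs Q.hr hdvd
  have hr2 : r ≠ 2 := by
    intro h0
    rw [h0] at hdvd
    have h1 := Nat.le_of_dvd (by norm_num) hdvd
    have := Q.hs.two_le
    omega
  -- the centraliser of `y0`
  set Y0 : Subgroup G := Y ⊓ centralizer ({y0} : Set G) with hY0
  have hY0s : Group.IsSolvable Y0 := SubgroupTools.isSolvable_of_le inf_le_left h.hYs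
  have hErY0 : Er ≤ Y0 := by
    refine le_inf hErY (hEr.le_centralizer_singleton Q.hr ?_)
    intro e he heo
    exact commute_of_not_dvd Q.hr Q.hr heo hy0o (hYy0 (hErY he)) (not_dvd_self Q.hr)
  have hsY0 : s ∣ Nat.card Y0 := by
    have h1 : zpowers y0 ≠ ⊥ := by rwa [Ne, zpowers_eq_bot]
    obtain ⟨e, he, he1, hfix⟩ := hEs.fix Q.hs (hEsY.trans hYy0)
      (by rw [Nat.card_zpowers, hy0o]; exact (Nat.coprime_primes Q.hr Q.hs).2 Q.rs) h1
    have heo := hEs.orderOf_eq Q.hs he he1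
    have hc : y0 * e = e * y0 := by
      by_contra hc
      exact hfix (zpowers_inf_centralizer Q.hr hy0o hc)
    have h2 : e ∈ Y0 := ⟨hEsY he, mem_centralizer_singleton'.2 hc⟩
    rw [← heo]
    exact Subgroup.orderOf_dvd_natCard Y0 h2
  obtain ⟨X, hX, hErX⟩ := exists_le_isPiHallOf (π := ({r, s} : Set ℕ)) hY0s Er hErY0 (by
    obtain ⟨k, hk⟩ := IsPGroup.iff_card.mp hEr.isPGroup
    rw [hk]
    exact piNum_prime_pow Q.hr (by simp))
  rw [isPiHallOf_iff] at hX
  obtain ⟨hXY0, hXπ, hXi⟩ := hX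
  have hXY : X ≤ Y := hXY0.trans inf_le_left
  have hXs : Group.IsSolvable X := SubgroupTools.isSolvable_of_le hXY h.hYs
  have hXt : ∀ t : ℕ, t.Prime → t ∣ Nat.card X → t = r ∨ t = s := by
    intro t ht h1
    have := hXπ t ht h1
    simpa using this
  have hXy0 : ∀ x ∈ X, y0 * x = x * y0 := fun x hx => mem_centralizer_singleton'.1 (hXY0 hx).2
  have hsX : s ∣ Nat.card X := by
    have h1 := SubgroupTools.card_mul_relIndex_of_le hXY0
    rw [← h1] at hsY0
    rcases Q.hs.dvd_mul.1 hsY0 with h2 | h2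
    · exact h2
    · exact absurd (by simp : s ∈ ({r, s} : Set ℕ)) (hXi s Q.hs h2)
  obtain ⟨⟨z, hzX⟩, hzo'⟩ := exists_prime_orderOf_dvd_card' s hsX
  have hzo : orderOf z = s := by rw [← hzo', ← Subgroup.orderOf_coe]
  -- `O_s(Y)` is trivial
  have hBs : pCoreOf s Y = ⊥ := by
    by_contra hne
    obtain ⟨w, hw, hwo⟩ := exists_order Q.hs (isPGroup_pCoreOf s Y) hne
    have h1 : y0 * w = w * y0 :=
      mem_centralizer_iff.1 (pCoreOf_le_centralizer_pCoreOf Q.rs.symm Y hw) y0 hy0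
    have h2 := h.fixB hy0 hy0o hwo h1
    rw [inf_centralizer_eq_self (pCoreOf_le_centralizer_pCoreOf Q.qs.symm Y hw)] at h2
    exact h.hq1 h2
  -- `z` centralises `O_r(Y)`
  have hzcop : (Nat.card (zpowers z)).Coprime r := by
    rw [Nat.card_zpowers, hzo]; exact (Nat.coprime_primes Q.hs Q.hr).2 Q.rs.symm
  have hzBr : zpowers z ≤ centralizer (pCoreOf r Y : Set G) := by
    refine OmegaFix.le_centralizer_of_pow_eq_one hr2 _ _ _ rfl (isPGroup_pCoreOf r Y) ?_ hzcop ?_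
    · rw [zpowers_le]; exact le_normalizer_pCoreOf r Y (hXY hzX)
    · intro x hx hxr a ha
      by_cases hx1 : x = 1
      · rw [hx1]; simp
      · have hxo := orderOf_eq_prime hxr hx1
        obtain ⟨k, hk⟩ := hu0 x hx hxo
        have hk' : y0 ^ k = x := hk
        obtain ⟨l, hl⟩ := ha
        have hl' : z ^ l = a := hl
        rw [← hk', ← hl']
        have : Commute z y0 := (hXy0 z hzX).symm
        exact this.zpow_zpow l k
  -- `z` centralises `O_r(X)`
  have hzDr : z ∈ centralizer (pCoreOf r X : Set G) := by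
    apply mem_centralizer_of_commutator
    have hZn : zpowers z ≤ normalizer (pCoreOf r X : Set G) := by
      rw [zpowers_le]; exact le_normalizer_pCoreOf r X hzX
    have hcop2 : (Nat.card (zpowers z)).Coprime (Nat.card (pCoreOf r X)) := by
      rw [Nat.card_zpowers, hzo]
      exact (card_coprime' Q.hr Q.hs Q.rs (isPGroup_pCoreOf r X)).symm
    apply CoprimeAction2.commutator_eq_bot_of_commutator_commutator hZn hcop2
      (Or.inr (isSolvable_of_isPGroup Q.hr (isPGroup_pCoreOf r X)))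
    have hTX : ⁅pCoreOf r X, zpowers z⁆ ≤ pCoreOf r X := commutator_le_left_of_le hZn
    have hTY : ⁅pCoreOf r X, zpowers z⁆ ≤ Y := (hTX.trans (pCoreOf_le X)).trans hXY
    have h1 : ⁅pCoreOf r X, zpowers z⁆ ≤ centralizer (pCoreOf q Y : Set G) := by
      have hodd : Odd (Nat.card (pCoreOf r X)) := by
        obtain ⟨k, hk⟩ := IsPGroup.iff_card.mp (isPGroup_pCoreOf r X)
        rw [hk]
        exact (Q.hr.odd_of_ne_two hr2).pow
      refine H55SftNE.ne_odd Q.qr Q.qs Q.rs (isPGroup_pCoreOf q Y) (isPGroup_pCoreOf r X)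
        (by rw [← hzo, pow_orderOf_eq_one]) (le_normalizer_pCoreOf r X hzX)
        (le_normalizer_pCoreOf q Y (hXY hzX)) (((pCoreOf_le X).trans hXY).trans (le_normalizer_pCoreOf q Y)) hodd ?_
      rw [h.fixB hy0 hy0o hzo (hXy0 z hzX)]
      exact bot_le
    have h2 : ⁅pCoreOf r X, zpowers z⁆ ≤ centralizer (pCoreOf r Y : Set G) := by
      have h3 : pCoreOf r X ≤ normalizer (centralizer (pCoreOf r Y : Set G) : Set G) :=
        le_normalizer_centralizer (((pCoreOf_le X).trans hXY).trans (le_normalizer_pCoreOf r Y))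
      rw [commutator_le]
      intro a ha b hb
      rw [commutatorElement_def]
      exact mul_mem ((mem_normalizer_iff.1 (h3 ha) b).1 (hzBr hb)) (inv_mem (hzBr hb))
    have h3 : ⁅pCoreOf r X, zpowers z⁆ ≤ fittingOf Y := by
      refine le_trans (le_inf hTY ?_) (inf_centralizer_fittingOf_le h.hYs)
      apply le_centralizer_fittingOf
      intro t ht
      by_cases h0 : pCoreOf t Y = ⊥
      · rw [h0]
        intro x _
        rw [mem_centralizer_iff]
        intro g hg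
        rw [SetLike.mem_coe, mem_bot] at hg
        rw [hg]; simp
      · have h4 : t ∣ Nat.card Y := (dvd_of_pCoreOf_ne_bot ht h0).trans (Subgroup.card_dvd_of_le (pCoreOf_le _))
        rcases h.hY t ht h4 with rfl | rfl | rfl
        · exact h1
        · exact h2
        · exact absurd hBs h0
    have h4 : ⁅pCoreOf r X, zpowers z⁆ ≤ pCoreOf r Y :=
      le_pCoreOf_of_le_fittingOf h3 ((isPGroup_pCoreOf r X).to_le hTX)
    rw [commutator_eq_bot_iff_le_centralizer, Subgroup.le_centralizer_iff]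
    exact hzBr.trans (centralizer_le (SetLike.coe_subset_coe.2 h4))
  have hDs1 : pCoreOf s X ≠ ⊥ := core_ne_bot Q.hr Q.hs Q.rs hXs hXt hzX hzo hzDr
  have hDsy0 : pCoreOf s X ≤ centralizer ({y0} : Set G) := (pCoreOf_le X).trans (hXY0.trans inf_le_right)
  obtain ⟨z', hz', hz'o, hu'⟩ := exists_unique_of_not_rk2 Q.hs (isPGroup_pCoreOf s X) hDs1
    (fun E hE => hnos E ((hE.trans (pCoreOf_le X)).trans hXY) (hE.trans hDsy0))
  have hXz' : X ≤ normalizer (zpowers z' : Set G) :=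
    zpowers_le_normalizer_of_unique (le_normalizer_pCoreOf s X) hz' hz'o hu'
  have hz'X := pCoreOf_le X hz'
  have hErz' : Er ≤ centralizer ({z'} : Set G) := by
    apply hEr.le_centralizer_singleton Q.hr
    intro e he heo
    exact commute_of_not_dvd Q.hr Q.hs heo hz'o (hXz' (hErX he)) hndvd
  exact h.fixP hy0 hy0o (hXY hz'X) hz'o (hXy0 z' hz'X)
    (no_fix Q.hp Q.hr Q.pr Q.n3.swap23 h.hP hEr (hErY.trans h.hYP) hz'o hErz')

/-- **Case I.2** -/
theorem CJ.false (h : CJ P Y p q r s) : False := by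
  have Q := h.quad
  have := Fact.mk Q.hq
  have := Fact.mk Q.hr
  by_cases hr : ∀ E ≤ pCoreOf r Y, ¬ Rk2 r E
  · exact h.false_aux hr
  push Not at hr
  obtain ⟨E, hE, hEr⟩ := hr
  refine h.swap.false_aux ?_
  intro F hF hFr
  obtain ⟨e, he, he1, hfix⟩ := hFr.fix Q.hq ((hF.trans (pCoreOf_le Y)).trans h.hYP)
    (card_coprime' Q.hp Q.hq Q.pq h.hP) h.hP1
  have heo := hFr.orderOf_eq Q.hq he he1
  refine hfix (no_fix Q.hp Q.hr Q.pr Q.n1 h.hP hEr ((hE.trans (pCoreOf_le Y)).trans h.hYP) heo ?_)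
  have h1 : E ≤ centralizer (pCoreOf q Y : Set G) := hE.trans (pCoreOf_le_centralizer_pCoreOf Q.qr.symm Y)
  refine h1.trans ?_
  apply centralizer_le
  rw [Set.singleton_subset_iff]
  exact hF he

end Cfsg.Agent.Lib.H55Spec1
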