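import Cfsg.Agent.Lib.H55KR3

/-! S4265 piece T2d (helper24): the order of a linear group of degree 5 over the field with 2 elements. -/

set_option autoImplicit false

namespace Cfsg.Agent.Lib.H55T2d

open Cfsg.Agent.Lib.H55KR

variable {X W : Type} [Group X] [Finite X] [AddCommGroup W] [Module (ZMod 2) W] [Finite W]
    {φ : X →* (W ≃ₗ[ZMod 2] W)} {β : W →ₗ[ZMod 2] W →ₗ[ZMod 2] ZMod 2}

omit [Finite X] in
/-- the order of a linear group of degree `n` over the field with 2 elements -/
theorem card_le (hinj : Function.Injective φ) {n : ℕ} (hd : Module.finrank (ZMod 2) W = n) :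
    Nat.card X ≤ ∏ i : Fin n, (2 ^ n - 2 ^ (i : ℕ)) := by
  classical
  haveI : Module.Finite (ZMod 2) W := Module.Finite.of_finite
  let b : Module.Basis (Fin n) (ZMod 2) W := Module.finBasisOfFinrankEq (ZMod 2) W hd
  let f : X → {s : Fin n → W // LinearIndependent (ZMod 2) s} := fun g =>
    ⟨fun i => φ g (b i), b.linearIndependent.map' (φ g : W →ₗ[ZMod 2] W) (LinearEquiv.ker _)⟩
  have hf : Function.Injective f := by
    intro g g' h
    apply hinj
    apply LinearEquiv.toLinearMap_injective
    apply b.ext
    intro i
    have h1 := congrArg Subtype.val h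
    exact congrFun h1 i
  have h1 := Nat.card_le_card_of_injective f hf
  rw [card_linearIndependent (le_of_eq hd.symm)] at h1
  simpa [hd, ZMod.card] using h1

theorem t2d (hinj : Function.Injective φ) (hd : Module.finrank (ZMod 2) W = 5) :
    Nat.card X ≤ 9999360 := by
  have h := card_le hinj hd
  refine h.trans ?_
  simp [Fin.prod_univ_succ]

end Cfsg.Agent.Lib.H55T2d
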