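import Mathlib
import Cfsg.Agent.Lib.LocBase

/-!
Homomorphisms of subgroups to symmetric groups with image containing the alternating group (helper56).
-/

set_option autoImplicit false
set_option linter.unusedSectionVars false

namespace Cfsg.Agent.Lib.H56AltA

open Subgroup Equiv Equiv.Perm Cfsg.Agent.Lib.LocBase
open scoped commutatorElement

section perm

variable {α : Type*} [Fintype α] [DecidableEq α]

theorem exists_notMem {s : Finset α} (h : s.card < Fintype.card α) : ∃ x, x ∉ s := by
  by_contra hcon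
  push Not at hcon
  have : s = Finset.univ := by rw [Finset.eq_univ_iff_forall]; exact hcon
  rw [this, Finset.card_univ] at h
  omega

theorem three_mem {x y z : α} (hxy : x ≠ y) (hxz : x ≠ z) : swap x y * swap x z ∈ alternatingGroup α :=
  mul_mem_alternatingGroup_of_isSwap ⟨x, y, hxy, rfl⟩ ⟨x, z, hxz, rfl⟩

theorem centralizer_alt (h4 : 4 ≤ Fintype.card α) : centralizer (alternatingGroup α : Set (Perm α)) = ⊥ := by
  rw [eq_bot_iff]
  intro σ hσ
  rw [mem_bot]
  by_contra hne
  obtain ⟨x, hx⟩ : ∃ x, σ x ≠ x := by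
    by_contra hcon
    push Not at hcon
    exact hne (Equiv.ext hcon)
  obtain ⟨z, hz⟩ := exists_notMem (s := {x, σ x}) (lt_of_le_of_lt Finset.card_le_two (by omega))
  obtain ⟨w, hw⟩ := exists_notMem (s := {x, σ x, z}) (lt_of_le_of_lt Finset.card_le_three (by omega))
  simp only [Finset.mem_insert, Finset.mem_singleton, not_or] at hz hw
  have h1 := mem_centralizer_iff.mp hσ _ (three_mem (x := x) (y := z) (z := w) (Ne.symm hz.1) (Ne.symm hw.1))
  have h2 := congrArg (fun τ : Perm α => τ x) h1
  simp only [Perm.mul_apply, swap_apply_left] at h2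
  rw [swap_apply_of_ne_of_ne hw.1 hw.2.2, swap_apply_of_ne_of_ne hx (Ne.symm hw.2.1),
    swap_apply_of_ne_of_ne hx (Ne.symm hz.2)] at h2
  exact hw.1 (σ.injective h2).symm

theorem card_alt (h2 : 2 ≤ Fintype.card α) :
    2 * Nat.card (alternatingGroup α) = (Fintype.card α).factorial := by
  have : Nontrivial α := Fintype.one_lt_card_iff_nontrivial.mp (by omega)
  rw [two_mul_nat_card_alternatingGroup, Nat.card_eq_fintype_card, Fintype.card_perm]

theorem alt_ne_bot (h4 : 4 ≤ Fintype.card α) : alternatingGroup α ≠ ⊥ := by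
  intro h
  have h1 := card_alt (α := α) (by omega)
  rw [h, card_bot] at h1
  have h2 : Nat.factorial 4 ≤ (Fintype.card α).factorial := Nat.factorial_le h4
  have h3 : Nat.factorial 4 = 24 := rfl
  omega

/-- subgroups normalized by the alternating group -/
theorem eq_bot_or_alt_le (h5 : 5 ≤ Fintype.card α) {R : Subgroup (Perm α)}
    (hR : alternatingGroup α ≤ normalizer (R : Set (Perm α))) : R = ⊥ ∨ alternatingGroup α ≤ R := by
  have hs : IsSimpleGroup (alternatingGroup α) := alternatingGroup.isSimpleGroup (by rwa [Nat.card_eq_fintype_card])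
  have hn : (R.subgroupOf (alternatingGroup α)).Normal := normal_subgroupOf_of_le_normalizer hR
  rcases hn.eq_bot_or_eq_top with h | h
  · left
    rw [subgroupOf_eq_bot, disjoint_iff] at h
    have h1 : ⁅R, alternatingGroup α⁆ ≤ ⊥ := by
      rw [← h]
      refine le_inf ?_ ?_
      · exact commutator_le_left_of_le hR
      · have : (alternatingGroup α).Normal := inferInstance
        exact commutator_le_right _ _
    rw [le_bot_iff, commutator_eq_bot_iff_le_centralizer, centralizer_alt (by omega), le_bot_iff] at h1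
    exact h1
  · right
    exact subgroupOf_eq_top.mp h

theorem not_isSolvable_of_alt_le (h5 : 5 ≤ Fintype.card α) {R : Subgroup (Perm α)} (hR : alternatingGroup α ≤ R)
    (hs : Group.IsSolvable R) : False := by
  have h1 : Group.IsSolvable (alternatingGroup α) := by
    have := hs
    exact solvable_of_solvable_injective (f := inclusion hR) (inclusion_injective hR)
  have h2 : Nontrivial (alternatingGroup α) :=
    alternatingGroup.nontrivial_of_three_le_card (by rw [Nat.card_eq_fintype_card]; omega)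
  have h3 := Group.IsSolvable.commutator_lt_top_of_nontrivial (alternatingGroup α)
  rw [commutator_alternatingGroup_eq_top (by rwa [Nat.card_eq_fintype_card])] at h3
  exact lt_irrefl _ h3

/-- the alternating group is transitive -/
theorem exists_alt_move (h3 : 3 ≤ Fintype.card α) (x y : α) : ∃ σ ∈ alternatingGroup α, σ x = y := by
  by_cases hxy : x = y
  · exact ⟨1, one_mem _, by simpa using hxy⟩
  · obtain ⟨z, hz⟩ := exists_notMem (s := {x, y}) (lt_of_le_of_lt Finset.card_le_two (by omega))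
    simp only [Finset.mem_insert, Finset.mem_singleton, not_or] at hz
    refine ⟨swap x z * swap x y, three_mem (Ne.symm hz.1) hxy, ?_⟩
    rw [Perm.mul_apply, swap_apply_left, swap_apply_of_ne_of_ne (Ne.symm hxy) (Ne.symm hz.2)]

/-- the stabilizer of a point in the alternating group is transitive on the other points -/
theorem exists_alt_move_fix (h4 : 4 ≤ Fintype.card α) {p x y : α} (hx : x ≠ p) (hy : y ≠ p) :
    ∃ σ ∈ alternatingGroup α, σ x = y ∧ σ p = p := by
  by_cases hxy : x = y
  · exact ⟨1, one_mem _, by simpa using hxy, rfl⟩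
  · obtain ⟨z, hz⟩ := exists_notMem (s := {x, y, p}) (lt_of_le_of_lt Finset.card_le_three (by omega))
    simp only [Finset.mem_insert, Finset.mem_singleton, not_or] at hz
    refine ⟨swap x z * swap x y, three_mem (Ne.symm hz.1) hxy, ?_, ?_⟩
    · rw [Perm.mul_apply, swap_apply_left, swap_apply_of_ne_of_ne (Ne.symm hxy) (Ne.symm hz.2.1)]
    · rw [Perm.mul_apply, swap_apply_of_ne_of_ne (Ne.symm hx) (Ne.symm hy),
        swap_apply_of_ne_of_ne (Ne.symm hx) (Ne.symm hz.2.2)]

end perm

section img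

variable {G : Type*} [Group G] {B : Subgroup G} {α : Type*}

/-- the image of a subgroup of `G` under a homomorphism defined on the subgroup `B` -/
def img (f : ↥B →* Perm α) (X : Subgroup G) : Subgroup (Perm α) := (X.subgroupOf B).map f

variable {f : ↥B →* Perm α}

theorem mem_img {X : Subgroup G} {σ : Perm α} :
    σ ∈ img f X ↔ ∃ x, ∃ hx : x ∈ B, x ∈ X ∧ f ⟨x, hx⟩ = σ := by
  constructor
  · rintro ⟨x, hx, rfl⟩
    exact ⟨x, x.2, hx, rfl⟩
  · rintro ⟨x, hx, hxX, rfl⟩
    exact ⟨⟨x, hx⟩, hxX, rfl⟩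

theorem img_mono {X Y : Subgroup G} (h : X ≤ Y) : img f X ≤ img f Y :=
  Subgroup.map_mono (subgroupOf_mono B h)

theorem img_self : img f B = f.range := by
  unfold img
  rw [subgroupOf_self, ← MonoidHom.range_eq_map]

theorem img_normalizer {X Y : Subgroup G} (h : Y ≤ normalizer (X : Set G)) :
    img f Y ≤ normalizer (img f X : Set (Perm α)) := by
  rw [le_normalizer_iff]
  intro σ hσ τ hτ
  obtain ⟨y, hyB, hy, rfl⟩ := mem_img.mp hσ
  obtain ⟨x, hxB, hx, rfl⟩ := mem_img.mp hτ
  rw [← map_inv, ← map_mul, ← map_mul]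
  exact mem_img.mpr ⟨y * x * y⁻¹, B.mul_mem (B.mul_mem hyB hxB) (B.inv_mem hyB),
    conj_mem_of_le_normalizer h hy hx, rfl⟩

theorem img_eq_bot {X : Subgroup G} : img f X = ⊥ ↔ ∀ x (hx : x ∈ B), x ∈ X → f ⟨x, hx⟩ = 1 := by
  rw [eq_bot_iff]
  constructor
  · intro h x hx hxX
    exact mem_bot.mp (h (mem_img.mpr ⟨x, hx, hxX, rfl⟩))
  · intro h σ hσ
    obtain ⟨x, hxB, hx, rfl⟩ := mem_img.mp hσ
    exact mem_bot.mpr (h x hxB hx)

theorem img_bot : img f (⊥ : Subgroup G) = ⊥ := by
  rw [img_eq_bot]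
  intro x hx h
  have := mem_bot.mp h
  subst this
  exact map_one f

theorem img_commutator {X Y : Subgroup G} (hX : X ≤ B) (hY : Y ≤ B) : img f ⁅X, Y⁆ = ⁅img f X, img f Y⁆ := by
  unfold img
  rw [← map_commutator]
  congr 1
  apply Subgroup.map_injective B.subtype_injective
  rw [map_commutator, map_subgroupOf_eq_of_le hX, map_subgroupOf_eq_of_le hY, map_subgroupOf_eq_of_le]
  exact commutator_le.mpr fun x hx y hy => by
    rw [commutatorElement_def]
    exact B.mul_mem (B.mul_mem (B.mul_mem (hX hx) (hY hy)) (B.inv_mem (hX hx))) (B.inv_mem (hY hy))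

theorem card_img_dvd {X Y : Subgroup G} (hYB : Y ≤ B) (h : img f X = ⊥) :
    Nat.card (img f Y) ∣ X.relIndex Y := by
  unfold img
  rw [← relIndex_ker]
  have h1 : X.subgroupOf B ≤ f.ker := by
    intro x hx
    rw [MonoidHom.mem_ker]
    exact img_eq_bot.mp h x x.2 hx
  have h2 := relIndex_dvd_of_le_left (Y.subgroupOf B) h1
  rwa [relIndex_subgroupOf hYB] at h2

variable [Fintype α] [DecidableEq α]

theorem img_cases (h5 : 5 ≤ Fintype.card α) {X Y : Subgroup G} (hY : alternatingGroup α ≤ img f Y)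
    (h : Y ≤ normalizer (X : Set G)) : img f X = ⊥ ∨ alternatingGroup α ≤ img f X :=
  eq_bot_or_alt_le h5 (hY.trans (img_normalizer h))

theorem img_of_lt [Finite G] (h5 : 5 ≤ Fintype.card α) {X Y : Subgroup G} (hYB : Y ≤ B)
    (hY : alternatingGroup α ≤ img f Y)
    (h : Y ≤ normalizer (X : Set G)) (hlt : X.relIndex Y < Nat.card (alternatingGroup α)) :
    alternatingGroup α ≤ img f X := by
  rcases img_cases h5 hY h with h1 | h1
  · exfalso
    have h2 := card_img_dvd hYB h1
    have h3 := card_le_of_le hY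
    have h4 : 0 < X.relIndex Y := Nat.pos_of_ne_zero (Subgroup.index_ne_zero_of_finite)
    have h6 := Nat.le_of_dvd h4 h2
    omega
  · exact h1

theorem img_inf (h5 : 5 ≤ Fintype.card α) {X Y Z : Subgroup G} (hX : X ≤ Z) (hY : Y ≤ Z) (hZ : Z ≤ B)
    (hZX : Z ≤ normalizer (X : Set G)) (hZY : Z ≤ normalizer (Y : Set G))
    (h1 : alternatingGroup α ≤ img f X) (h2 : alternatingGroup α ≤ img f Y) :
    alternatingGroup α ≤ img f (X ⊓ Y) := by
  have h3 : ⁅X, Y⁆ ≤ X ⊓ Y :=
    le_inf (commutator_le_left_of_le (hY.trans hZX)) (commutator_le_right_of_le (hX.trans hZY))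
  calc alternatingGroup α = ⁅alternatingGroup α, alternatingGroup α⁆ :=
        (commutator_alternatingGroup_eq_self (by rwa [Nat.card_eq_fintype_card])).symm
    _ ≤ ⁅img f X, img f Y⁆ := commutator_mono h1 h2
    _ = img f ⁅X, Y⁆ := (img_commutator (hX.trans hZ) (hY.trans hZ)).symm
    _ ≤ img f (X ⊓ Y) := img_mono h3

theorem img_iInf (h5 : 5 ≤ Fintype.card α) {ι : Type*} [Finite ι] {X : ι → Subgroup G} {Z : Subgroup G} (hZ : Z ≤ B)
    (hX : ∀ i, X i ≤ Z) (hn : ∀ i, Z ≤ normalizer (X i : Set G))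
    (h0 : alternatingGroup α ≤ img f Z) (h1 : ∀ i, alternatingGroup α ≤ img f (X i)) :
    alternatingGroup α ≤ img f (Z ⊓ ⨅ i, X i) := by
  classical
  have : Fintype ι := Fintype.ofFinite ι
  have key : ∀ s : Finset ι, Z ≤ normalizer ((Z ⊓ ⨅ i ∈ s, X i : Subgroup G) : Set G) ∧
      alternatingGroup α ≤ img f (Z ⊓ ⨅ i ∈ s, X i) := by
    intro s
    induction s using Finset.induction_on with
    | empty =>
      simp only [Finset.notMem_empty, not_false_eq_true, iInf_neg, iInf_top, inf_top_eq]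
      exact ⟨le_normalizer, h0⟩
    | insert a s _ ih =>
      rw [Finset.iInf_insert]
      have e : Z ⊓ (X a ⊓ ⨅ i ∈ s, X i) = X a ⊓ (Z ⊓ ⨅ i ∈ s, X i) := by
        rw [inf_left_comm]
      rw [e]
      exact ⟨le_normalizer_inf (hn a) ih.1, img_inf h5 (hX a) inf_le_left hZ (hn a) ih.1 (h1 a) ih.2⟩
  have h2 := (key Finset.univ).2
  simpa using h2

end img

end Cfsg.Agent.Lib.H56AltA
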