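import Cfsg.Agent.Lib.TW62b

/-!
# The Thompson-Wielandt theorem, III: Fitting-free two-point stabilizers (helper62)
-/

set_option autoImplicit false
set_option linter.unusedSectionVars false

open Subgroup Cfsg

namespace Cfsg.Agent.Lib.TW62

open Cfsg.Agent.Lib.Components Cfsg.Agent.Lib.Layer Cfsg.Agent.Lib.CompRel
  Cfsg.Agent.Lib.BenderMax Cfsg.Agent.Lib.H22BenderMax Cfsg.Agent.Lib.LocBase
open scoped commutatorElement

section

variable {G : Type*} [Group G] [Finite G] {M₁ M₂ : Subgroup G}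

theorem Hyp.FA_eq_bot (H : Hyp M₁ M₂) {g : G} (hg : M₂ = M₁.map (MulAut.conj g).toMonoidHom)
    (hF : FA (M₁ ⊓ M₂) ≤ A1 M₁ M₂) : FA (M₁ ⊓ M₂) = ⊥ := by
  rw [eq_bot_iff]
  refine FA_le_of_OA fun p hp => ?_
  haveI : Fact p.Prime := ⟨hp⟩
  set D := M₁ ⊓ M₂ with hD
  rw [le_bot_iff]
  by_contra hne
  set R₁ := OA p D with hR1
  have hR1D : R₁ ≤ D := OA_le D p
  have hA1D : A1 M₁ M₂ ≤ D := cr_le _ _
  have hR1A : R₁ ≤ A1 M₁ M₂ := (OA_le_FA D p).trans hF
  have h1 : R₁ = OA p (A1 M₁ M₂) := by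
    apply le_antisymm
    · exact le_OA hR1A (hA1D.trans (le_normalizer_OA D p)) (isPGroup_OA D p)
    · refine le_OA ((OA_le _ p).trans hA1D) ?_ (isPGroup_OA _ p)
      exact (inf_le_left.trans A1_n).trans (OA_char p _)
  have hM1 : M₁ ≤ normalizer (R₁ : Set G) := by
    rw [h1]
    exact A1_n.trans (OA_char p _)
  have hR1M1 : R₁ ≤ M₁ := hR1D.trans inf_le_left
  set R₂ := R₁.map (MulAut.conj g).toMonoidHom with hR2
  have hM2 : M₂ ≤ normalizer (R₂ : Set G) := by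
    rw [hR2, ← map_conj_normalizer, hg]
    exact map_conj_mono g hM1
  have hR2M : R₂ ≤ M₂ := by rw [hR2, hg]; exact map_conj_mono g hR1M1
  have hR2p : IsPGroup p ↥R₂ := isPGroup_map_conj (isPGroup_OA D p) g
  have hinf : R₂ ⊓ M₁ ≤ R₁ := by
    refine le_OA (le_inf inf_le_right (inf_le_left.trans hR2M)) ?_ (isPGroup_mono hR2p inf_le_left)
    exact le_normalizer_inf (inf_le_right.trans hM2) (inf_le_left.trans le_normalizer)
  have hR12 : R₁ ≤ normalizer (R₂ : Set G) := (hR1D.trans inf_le_right).trans hM2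
  have hSp : IsPGroup p ↥(R₂ ⊔ R₁) := isPGroup_sup hR2p (isPGroup_OA D p) hR12
  have hSM : (R₂ ⊔ R₁) ⊓ M₁ ≤ R₁ := by
    rintro x ⟨hx, hxM⟩
    have hx' : x ∈ R₁ ⊔ R₂ := by rw [sup_comm]; exact hx
    rw [Components.mem_sup_of_le_normalizer hR12] at hx'
    obtain ⟨b, hb, a, ha, rfl⟩ := hx'
    have h11 : a ∈ M₁ := (M₁.mul_mem_cancel_left (hR1M1 hb)).mp hxM
    exact mul_mem hb (hinf ⟨ha, h11⟩)
  have hN1 : normalizer (R₁ : Set G) ≤ M₁ := H.n1 _ hne hR1M1 hM1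
  have heq : R₂ ⊔ R₁ = R₁ := by
    by_contra hne2
    have hlt : R₁ < R₂ ⊔ R₁ := lt_of_le_of_ne le_sup_right (Ne.symm hne2)
    have h8 := GroupUtil.lt_inf_normalizer_of_isPGroup hSp hlt
    exact absurd ((inf_le_inf_left _ hN1).trans hSM) (not_le_of_gt h8)
  have h9 : R₂ ≤ R₁ := by rw [← heq]; exact le_sup_left
  have h10 : R₂ = R₁ := Subgroup.eq_of_le_of_card_ge h9 (card_map_conj _ _).ge
  have hN2 : normalizer (R₂ : Set G) ≤ M₂ := H.n2 _ (h10 ▸ hne) hR2M hM2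
  apply H.ne
  apply le_antisymm
  · calc M₁ ≤ _ := hM1
      _ = _ := by rw [h10]
      _ ≤ M₂ := hN2
  · calc M₂ ≤ _ := hM2
      _ = _ := by rw [h10]
      _ ≤ M₁ := hN1

theorem Hyp.bot_or (H : Hyp M₁ M₂) (hF : FA (M₁ ⊓ M₂) = ⊥) : A2 M₁ M₂ = ⊥ ∨ A2 M₂ M₁ = ⊥ := by
  by_contra hcon
  push Not at hcon
  obtain ⟨-, p, hp, h1, -⟩ := H.main hcon.1 hcon.2
  haveI : Fact p.Prime := ⟨hp⟩
  apply hcon.1
  rw [eq_bot_iff, ← hF]
  refine le_trans ?_ (OA_le_FA _ p)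
  exact le_OA (A2_le1.trans (cr_le _ _)) (inf_le_left.trans A2_n) h1

end

section perm

variable {G Ω : Type*} [Group G] [Finite G] [MulAction G Ω] [FaithfulSMul G Ω]

theorem ker_le (a b : Ω) {x : G} (hx : x ∈ MulAction.stabilizer G a)
    (h : MulAction.toPermHom (MulAction.stabilizer G a) (MulAction.orbit (MulAction.stabilizer G a) b)
      ⟨x, hx⟩ = 1) : x ∈ A1 (MulAction.stabilizer G a) (MulAction.stabilizer G b) := by
  refine mem_cr.mpr ⟨hx, fun m hm => ?_⟩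
  have h1 := congrArg (fun σ => ((σ ⟨m⁻¹ • b, ⟨⟨m⁻¹, inv_mem hm⟩, rfl⟩⟩ :
    MulAction.orbit (MulAction.stabilizer G a) b) : Ω)) h
  have h2 : x • m⁻¹ • b = m⁻¹ • b := h1
  refine mem_inf.mpr ⟨mul_mem (mul_mem hm hx) (inv_mem hm), ?_⟩
  rw [MulAction.mem_stabilizer_iff, mul_smul, mul_smul, h2, smul_inv_smul]

theorem FA_le_A1 (a b : Ω)
    (hF : fittingSubgroup ↥(((MulAction.stabilizer G b).subgroupOf (MulAction.stabilizer G a)).map
      (MulAction.toPermHom (MulAction.stabilizer G a) (MulAction.orbit (MulAction.stabilizer G a) b))) = ⊥) :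
    FA (MulAction.stabilizer G a ⊓ MulAction.stabilizer G b) ≤
      A1 (MulAction.stabilizer G a) (MulAction.stabilizer G b) := by
  set M₁ := MulAction.stabilizer G a
  set M₂ := MulAction.stabilizer G b
  set f := MulAction.toPermHom M₁ (MulAction.orbit M₁ b) with hf
  set F := FA (M₁ ⊓ M₂) with hFd
  set E := (M₂.subgroupOf M₁).map f with hE
  have hFD : F ≤ M₁ ⊓ M₂ := FA_le _
  have h1 : (F.subgroupOf M₁).map f ≤ E := Subgroup.map_mono (subgroupOf_mono _ (hFD.trans inf_le_right))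
  have h2 : E ≤ normalizer ((F.subgroupOf M₁).map f : Set _) := by
    have h3 : M₂.subgroupOf M₁ ≤ normalizer (F.subgroupOf M₁ : Set M₁) := by
      rw [le_normalizer_iff]
      intro k hk x hx
      rw [mem_subgroupOf] at hx ⊢
      exact conj_mem_of_le_normalizer (le_normalizer_FA (A := M₁ ⊓ M₂)) ⟨k.2, hk⟩ hx
    exact (Subgroup.map_mono h3).trans (Subgroup.le_normalizer_map f)
  have h3 : ((F.subgroupOf M₁).map f).subgroupOf E ≤ fittingSubgroup ↥E := by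
    refine le_sSup ⟨normal_subgroupOf_of_le_normalizer h2, ?_⟩
    have h4 : Group.IsNilpotent ↥F := isNilpotent_FA _
    have h5 : Group.IsNilpotent ↥(F.subgroupOf M₁) := Cores.isNilpotent_subgroupOf h4 _
    have h6 : Group.IsNilpotent ↥((F.subgroupOf M₁).map f) :=
      Group.nilpotent_of_surjective (f.subgroupMap (F.subgroupOf M₁))
        (f.subgroupMap_surjective (F.subgroupOf M₁))
    exact Cores.isNilpotent_subgroupOf h6 _
  rw [hF, le_bot_iff, Subgroup.subgroupOf_eq_bot] at h3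
  have h4 : (F.subgroupOf M₁).map f = ⊥ := by
    rw [eq_bot_iff]
    exact h3 le_rfl h1
  intro x hx
  refine ker_le a b (hFD hx).1 ?_
  have : f ⟨x, (hFD hx).1⟩ ∈ (F.subgroupOf M₁).map f := ⟨⟨x, (hFD hx).1⟩, hx, rfl⟩
  rw [h4] at this
  exact this

end perm

end Cfsg.Agent.Lib.TW62
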