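import Cfsg.Agent.Lib.H56AltA
import Cfsg.Agent.Lib.TW62c
import Cfsg.Agent.Lib.SubgroupTools

/-!
Multiply transitive suborbits: cores (helper56).
-/

set_option autoImplicit false
set_option linter.unusedSectionVars false

namespace Cfsg.Agent.Lib.H56AltB

open Subgroup Equiv Equiv.Perm Cfsg.Agent.Lib Cfsg.Agent.Lib.LocBase Cfsg.Agent.Lib.H56AltA
open Cfsg.Agent.Lib.TW62 (cr mem_cr cr_le le_normalizer_cr le_cr)
open scoped commutatorElement

variable {G : Type*} [Group G]

theorem fac_lt {α : Type*} [Fintype α] [DecidableEq α] {n : ℕ} (hα : Fintype.card α = n) (h6 : 6 ≤ n) :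
    (n - 1).factorial < Nat.card (alternatingGroup α) := by
  have h1 := card_alt (α := α) (by omega)
  rw [hα] at h1
  have h2 : n.factorial = n * (n - 1).factorial := (Nat.mul_factorial_pred (by omega)).symm
  have h3 : 0 < (n - 1).factorial := Nat.factorial_pos _
  have h4 : 6 * (n - 1).factorial ≤ n * (n - 1).factorial := Nat.mul_le_mul_right _ h6
  omega

theorem eq_one_of_cr {A D : Subgroup G} (h : cr A D = ⊥) {x : G} (hx : x ∈ A) (h1 : ∀ m ∈ A, m * x * m⁻¹ ∈ D) :
    x = 1 := by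
  have : x ∈ cr A D := mem_cr.mpr ⟨hx, h1⟩
  rw [h] at this
  exact mem_bot.mp this

theorem conj_normalizes {D Z : Subgroup G} {m : G} (h : Z ≤ normalizer (D : Set G))
    (hm : m ∈ normalizer (Z : Set G)) : Z ≤ normalizer ((D.map (MulAut.conj m).toMonoidHom : Subgroup G) : Set G) := by
  have h1 := map_conj_mono m h
  rwa [map_conj_normalizer, map_conj_eq_of_mem hm] at h1

theorem conj_le {D Z : Subgroup G} {m : G} (h : D ≤ Z) (hm : m ∈ normalizer (Z : Set G)) :
    D.map (MulAut.conj m).toMonoidHom ≤ Z := by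
  have h1 := map_conj_mono m h
  rwa [map_conj_eq_of_mem hm] at h1

theorem relIndex_conj {D Z : Subgroup G} {m : G} (hm : m ∈ normalizer (Z : Set G)) :
    (D.map (MulAut.conj m).toMonoidHom).relIndex Z = D.relIndex Z := by
  conv_lhs => rw [← map_conj_eq_of_mem hm]
  rw [Subgroup.relIndex_map_map_of_injective _ _ (MulAut.conj m).injective]

theorem alt_le_img_conj {B : Subgroup G} {α : Type*} [Fintype α] [DecidableEq α] {f : ↥B →* Perm α}
    {D : Subgroup G} {m : G} (hm : m ∈ B) (h : alternatingGroup α ≤ img f D) :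
    alternatingGroup α ≤ img f (D.map (MulAut.conj m).toMonoidHom) := by
  intro σ hσ
  have h1 : (f ⟨m, hm⟩)⁻¹ * σ * f ⟨m, hm⟩ ∈ alternatingGroup α := by
    have h2 : (alternatingGroup α).Normal := inferInstance
    have := h2.conj_mem σ hσ (f ⟨m, hm⟩)⁻¹
    simpa using this
  obtain ⟨x, hx, hxD, e⟩ := mem_img.mp (h h1)
  refine mem_img.mpr ⟨m * x * m⁻¹, B.mul_mem (B.mul_mem hm hx) (B.inv_mem hm), ⟨x, hxD, rfl⟩, ?_⟩
  have h3 : (⟨m * x * m⁻¹, B.mul_mem (B.mul_mem hm hx) (B.inv_mem hm)⟩ : ↥B) = ⟨m, hm⟩ * ⟨x, hx⟩ * ⟨m, hm⟩⁻¹ := rfl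
  rw [h3, map_mul, map_mul, e, map_inv]
  group

variable [Finite G]

theorem relIndex_pos (X Y : Subgroup G) : 0 < X.relIndex Y :=
  Nat.pos_of_ne_zero Subgroup.index_ne_zero_of_finite

theorem card_img_eq {B : Subgroup G} {α : Type*} {f : ↥B →* Perm α} {X : Subgroup G} (hXB : X ≤ B)
    (h : ∀ x (hx : x ∈ B), x ∈ X → f ⟨x, hx⟩ = 1 → x = 1) : Nat.card (img f X) = Nat.card X := by
  unfold img
  rw [SubgroupTools.card_map_of_disjoint_ker, SubgroupTools.card_subgroupOf_of_le hXB]
  rw [disjoint_iff, eq_bot_iff]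
  intro x hx
  rw [mem_bot]
  have h1 : f x = 1 := by
    first | exact MonoidHom.mem_ker.mp hx.1 | exact MonoidHom.mem_ker.mp hx.2
  have h2 : (x : G) ∈ X := by
    first | exact mem_subgroupOf.mp hx.2 | exact mem_subgroupOf.mp hx.1
  exact Subtype.ext (h x x.2 h2 h1)

/-- the index of the other core -/
theorem index_core {A B T K L : Subgroup G} (hTB : T ≤ B) (hKT : K ≤ T) (hLT : L ≤ T) (hTA : T ≤ A)
    (hK : A ≤ normalizer (K : Set G)) (hL : B ≤ normalizer (L : Set G))
    (hcore : cr A (K ⊓ L) = ⊥ ∨ cr B (K ⊓ L) = ⊥) {n : ℕ} (h6 : 6 ≤ n)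
    (hKi : K.relIndex T ≤ (n - 1).factorial) (hLi : L.relIndex T ≤ (n - 1).factorial)
    {α : Type*} [Fintype α] [DecidableEq α] (hα : Fintype.card α = n) (f : ↥B →* Perm α)
    (hf : alternatingGroup α ≤ f.range) : Nat.card (alternatingGroup α) ≤ L.relIndex B := by
  have h5 : 5 ≤ Fintype.card α := by omega
  have hlt := fac_lt hα h6
  by_contra hcon
  push Not at hcon
  have hTK : T ≤ normalizer (K : Set G) := hTA.trans hK
  have hTL : T ≤ normalizer (L : Set G) := hTB.trans hL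
  have hTD : T ≤ normalizer ((K ⊓ L : Subgroup G) : Set G) := le_normalizer_inf hTK hTL
  have h1 : alternatingGroup α ≤ img f L := by
    refine img_of_lt h5 le_rfl ?_ hL hcon
    rw [img_self]; exact hf
  have h2 : alternatingGroup α ≤ img f (K ⊓ L) := by
    refine img_of_lt h5 (hLT.trans hTB) h1 (hLT.trans hTD) ?_
    rw [inf_relIndex_right]
    calc K.relIndex L ≤ K.relIndex T := relIndex_le_of_le_right hLT (relIndex_pos _ _).ne'
      _ ≤ _ := hKi
      _ < _ := hlt
  have hDL : K ⊓ L ≤ L := inf_le_right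
  have hDK : K ⊓ L ≤ K := inf_le_left
  rcases hcore with hc | hc
  · have h3 : alternatingGroup α ≤ img f ((K ⊓ L) ⊓ ⨅ m : ↥A, (K ⊓ L) ⊓ (K ⊓ L).map (MulAut.conj (m : G)).toMonoidHom) := by
      refine img_iInf h5 (hDL.trans (hLT.trans hTB)) (fun i => inf_le_left) (fun m => ?_) h2 (fun m => ?_)
      · refine le_normalizer_inf le_normalizer ?_
        exact hDK.trans (conj_normalizes (hKT.trans hTD) (hK m.2))
      · refine img_of_lt h5 (hDL.trans (hLT.trans hTB)) h2 ?_ ?_
        · refine le_normalizer_inf le_normalizer ?_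
          exact hDK.trans (conj_normalizes (hKT.trans hTD) (hK m.2))
        · rw [inf_relIndex_left]
          calc ((K ⊓ L).map (MulAut.conj (m : G)).toMonoidHom).relIndex (K ⊓ L)
              ≤ ((K ⊓ L).map (MulAut.conj (m : G)).toMonoidHom).relIndex K :=
                relIndex_le_of_le_right hDK (relIndex_pos _ _).ne'
            _ = (K ⊓ L).relIndex K := relIndex_conj (hK m.2)
            _ = L.relIndex K := inf_relIndex_left K L
            _ ≤ L.relIndex T := relIndex_le_of_le_right hKT (relIndex_pos _ _).ne'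
            _ ≤ _ := hLi
            _ < _ := hlt
    have h4 : (K ⊓ L) ⊓ ⨅ m : ↥A, (K ⊓ L) ⊓ (K ⊓ L).map (MulAut.conj (m : G)).toMonoidHom = ⊥ := by
      rw [eq_bot_iff]
      intro x hx
      rw [mem_bot]
      apply eq_one_of_cr hc (hTA (hKT hx.1.1))
      intro m hm
      have h7 := (mem_iInf.mp hx.2 ⟨m⁻¹, A.inv_mem hm⟩).2
      have h8 := mem_map_conj.mp h7
      simpa using h8
    rw [h4, img_bot] at h3
    exact alt_ne_bot (α := α) (by omega) (le_bot_iff.mp h3)
  · have h3 : alternatingGroup α ≤ img f (L ⊓ ⨅ m : ↥B, (K ⊓ L).map (MulAut.conj (m : G)).toMonoidHom) := by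
      refine img_iInf h5 (hLT.trans hTB) (fun m => conj_le hDL (hL m.2)) (fun m => ?_) h1 (fun m => ?_)
      · exact conj_normalizes (hLT.trans hTD) (hL m.2)
      · exact alt_le_img_conj m.2 h2
    have h4 : L ⊓ ⨅ m : ↥B, (K ⊓ L).map (MulAut.conj (m : G)).toMonoidHom = ⊥ := by
      rw [eq_bot_iff]
      intro x hx
      rw [mem_bot]
      apply eq_one_of_cr hc (hTB (hLT hx.1))
      intro m hm
      have h7 := mem_iInf.mp hx.2 ⟨m⁻¹, B.inv_mem hm⟩
      have h8 := mem_map_conj.mp h7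
      simpa using h8
    rw [h4, img_bot] at h3
    exact alt_ne_bot (α := α) (by omega) (le_bot_iff.mp h3)

end Cfsg.Agent.Lib.H56AltB
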