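import Cfsg.Agent.Lib.H56AltB

/-!
Multiply transitive suborbits: the two cores intersect trivially (helper56).
-/

set_option autoImplicit false
set_option linter.unusedSectionVars false

namespace Cfsg.Agent.Lib.H56AltC

open Subgroup Equiv Equiv.Perm Cfsg.Agent.Lib Cfsg.Agent.Lib.LocBase Cfsg.Agent.Lib.H56AltA Cfsg.Agent.Lib.H56AltB
open Cfsg.Agent.Lib.TW62 (cr mem_cr cr_le le_normalizer_cr le_cr)
open scoped commutatorElement

variable {G : Type*} [Group G] [Finite G]

/-- no proper nontrivial normal subgroups, ambient form -/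
def Simp (X : Subgroup G) : Prop := ∀ Y ≤ X, X ≤ normalizer (Y : Set G) → Y = ⊥ ∨ Y = X

theorem Simp.conj {X : Subgroup G} (h : Simp X) (g : G) : Simp (X.map (MulAut.conj g).toMonoidHom) := by
  intro Y hY hn
  have e1 : (Y.map (MulAut.conj g⁻¹).toMonoidHom).map (MulAut.conj g).toMonoidHom = Y := by
    rw [← map_conj_mul, mul_inv_cancel, map_conj_one]
  have h1 : Y.map (MulAut.conj g⁻¹).toMonoidHom ≤ X := by
    rw [← map_conj_le_map_conj g, e1]; exact hY
  have h2 : X ≤ normalizer ((Y.map (MulAut.conj g⁻¹).toMonoidHom : Subgroup G) : Set G) := by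
    rw [← map_conj_le_map_conj g, map_conj_normalizer, e1]; exact hn
  rcases h _ h1 h2 with h3 | h3
  · left
    rw [← e1, h3, Subgroup.map_bot]
  · right
    rw [← e1, h3]

theorem commutator_le_bot_of {X Y : Subgroup G} (h1 : X ≤ normalizer (Y : Set G)) (h2 : Y ≤ normalizer (X : Set G))
    (h : X ⊓ Y = ⊥) : X ≤ centralizer (Y : Set G) := by
  rw [← commutator_eq_bot_iff_le_centralizer, eq_bot_iff, ← h]
  exact le_inf (commutator_le_left_of_le h2) (commutator_le_right_of_le h1)

/-- the data of a homomorphism to a symmetric group with given kernel -/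
structure Act (A K : Subgroup G) (α : Type*) [Fintype α] [DecidableEq α] (f : ↥A →* Perm α) : Prop where
  ker : ∀ x (hx : x ∈ A), f ⟨x, hx⟩ = 1 ↔ x ∈ K
  alt : alternatingGroup α ≤ f.range

section pair

variable {A B T K L : Subgroup G} {α β γ : Type*} [Fintype α] [DecidableEq α] [Fintype β] [DecidableEq β]
  [Fintype γ] [DecidableEq γ]

/-- T is double coset representative -/
theorem two_trans {f : ↥A →* Perm α} (hf : Act A K α f) {p : α} (hfT : ∀ x (hx : x ∈ A), f ⟨x, hx⟩ p = p ↔ x ∈ T)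
    (hTA : T ≤ A) (h4 : 4 ≤ Fintype.card α) {x y : G} (hx : x ∈ A) (hy : y ∈ A) (hxT : x ∉ T) (hyT : y ∉ T) :
    ∃ t ∈ T, ∃ t' ∈ T, y = t * x * t' := by
  have h1 : f ⟨x, hx⟩ p ≠ p := fun h => hxT ((hfT x hx).mp h)
  have h2 : f ⟨y, hy⟩ p ≠ p := fun h => hyT ((hfT y hy).mp h)
  obtain ⟨σ, hσ, e1, e2⟩ := exists_alt_move_fix h4 h1 h2
  obtain ⟨t, ht⟩ := MonoidHom.mem_range.mp (hf.alt hσ)
  have htT : (t : G) ∈ T := by
    rw [← hfT t t.2]
    show f t p = p
    rw [ht]; exact e2
  refine ⟨t, htT, (t * x)⁻¹ * y, ?_, by group⟩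
  rw [← hfT _ (A.mul_mem (A.inv_mem (A.mul_mem t.2 hx)) hy)]
  have h3 : (⟨((t : G) * x)⁻¹ * y, A.mul_mem (A.inv_mem (A.mul_mem t.2 hx)) hy⟩ : ↥A) =
      (t * ⟨x, hx⟩)⁻¹ * ⟨y, hy⟩ := rfl
  rw [h3, map_mul, map_inv, map_mul, ht, Perm.mul_apply, Perm.inv_eq_iff_eq, Perm.mul_apply, e1]

/-- main disjointness theorem -/
theorem inf_eq_bot (hTA : T ≤ A) (hTB : T ≤ B) (hKT : K ≤ T) (hLT : L ≤ T)
    (hK : A ≤ normalizer (K : Set G)) (hL : B ≤ normalizer (L : Set G))
    {n : ℕ} (h6 : 6 ≤ n) (hα : Fintype.card α = n) (hβ : Fintype.card β = n - 1) (hγ : Fintype.card γ = n)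
    {f : ↥A →* Perm α} (hf : Act A K α f) {p : α} (hfT : ∀ x (hx : x ∈ A), f ⟨x, hx⟩ p = p ↔ x ∈ T)
    {g : ↥T →* Perm β} (hg : Act T L β g) {f2 : ↥B →* Perm γ} (hf2 : Act B L γ f2)
    (hZ : L ⊓ centralizer (L : Set G) = ⊥) (hKL : ¬ K ≤ L) (hcore : cr A (K ⊓ L) = ⊥)
    (hLi : L.relIndex T ≤ (n - 1).factorial) {g0 : G} (hg0 : B = A.map (MulAut.conj g0).toMonoidHom) :
    K ⊓ L = ⊥ := by
  by_contra hD
  have hKA : K ≤ A := hKT.trans hTA
  have hLB : L ≤ B := hLT.trans hTB
  have hTK : T ≤ normalizer (K : Set G) := hTA.trans hK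
  have hTL : T ≤ normalizer (L : Set G) := hTB.trans hL
  have hTD : T ≤ normalizer ((K ⊓ L : Subgroup G) : Set G) := le_normalizer_inf hTK hTL
  have h5β : 5 ≤ Fintype.card β := by omega
  have hltα := fac_lt hα h6
  -- 2. elements outside T do not normalize D
  have hnn : ∀ x ∈ A, x ∉ T → x ∉ normalizer ((K ⊓ L : Subgroup G) : Set G) := by
    intro x hx hxT hxn
    apply hD
    rw [eq_bot_iff, ← hcore]
    refine le_cr (inf_le_left.trans hKA) le_rfl ?_
    intro y hy
    by_cases hyT : y ∈ T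
    · exact hTD hyT
    · obtain ⟨t, ht, t', ht', e⟩ := two_trans hf hfT hTA (by omega) hx hy hxT hyT
      rw [e]
      exact Subgroup.mul_mem _ (Subgroup.mul_mem _ (hTD ht) hxn) (hTD ht')
  -- 3.
  have hTimg : alternatingGroup β ≤ img g T := by rw [img_self]; exact hg.alt
  have hKimg : alternatingGroup β ≤ img g K := by
    rcases img_cases h5β hTimg hTK with h | h
    · exfalso
      apply hKL
      intro x hx
      exact (hg.ker x (hKT hx)).mp (img_eq_bot.mp h x (hKT hx) hx)
    · exact h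
  -- 4.
  have hKn : ∀ x ∈ A, K ≤ normalizer (((K ⊓ L).map (MulAut.conj x).toMonoidHom : Subgroup G) : Set G) :=
    fun x hx => conj_normalizes (hKT.trans hTD) (hK hx)
  have hKle : ∀ x ∈ A, (K ⊓ L).map (MulAut.conj x).toMonoidHom ≤ K := fun x hx => conj_le inf_le_left (hK hx)
  have hDx : ∀ x ∈ A, x ∉ T → alternatingGroup β ≤ img g ((K ⊓ L).map (MulAut.conj x).toMonoidHom) := by
    intro x hx hxT
    rcases img_cases h5β hKimg (hKn x hx) with h | h
    · exfalso
      apply hnn x hx hxT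
      apply mem_normalizer_of_map_conj_le
      refine le_inf (hKle x hx) ?_
      intro y hy
      have hyT : y ∈ T := hKT (hKle x hx hy)
      exact (hg.ker y hyT).mp (img_eq_bot.mp h y hyT hy)
    · exact h
  -- 5.
  set ι := {x : G // x ∈ A ∧ x ∉ T} with hι
  set Sb : Subgroup G := K ⊓ ⨅ x : ι, (K ⊓ L).map (MulAut.conj (x : G)).toMonoidHom with hSb
  have hSimg : alternatingGroup β ≤ img g Sb :=
    img_iInf h5β hKT (fun i => hKle i i.2.1) (fun i => hKn i i.2.1) hKimg (fun i => hDx i i.2.1 i.2.2)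
  have hSmem : ∀ k, k ∈ Sb ↔ k ∈ K ∧ ∀ x ∈ A, x ∉ T → x⁻¹ * k * x ∈ K ⊓ L := by
    intro k
    rw [hSb, Subgroup.mem_inf, mem_iInf]
    constructor
    · rintro ⟨h1, h2⟩
      exact ⟨h1, fun x hx hxT => mem_map_conj.mp (h2 ⟨x, hx, hxT⟩)⟩
    · rintro ⟨h1, h2⟩
      exact ⟨h1, fun x => mem_map_conj.mpr (h2 x x.2.1 x.2.2)⟩
  have hSne : Sb ≠ ⊥ := by
    intro h
    rw [h, img_bot] at hSimg
    exact alt_ne_bot (α := β) (by omega) (le_bot_iff.mp hSimg)
  have hSK : Sb ≤ K := inf_le_left
  have hTS : T ≤ normalizer (Sb : Set G) := by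
    rw [le_normalizer_iff]
    intro t ht k hk
    rw [hSmem] at hk ⊢
    refine ⟨conj_mem_of_le_normalizer hTK ht hk.1, fun x hx hxT => ?_⟩
    have h1 := hk.2 (t⁻¹ * x) (A.mul_mem (A.inv_mem (hTA ht)) hx) (by
      intro h
      apply hxT
      have := T.mul_mem ht h
      simpa using this)
    have e : x⁻¹ * (t * k * t⁻¹) * x = (t⁻¹ * x)⁻¹ * k * (t⁻¹ * x) := by group
    rw [e]; exact h1
  -- 6.
  have hSD : Sb ⊓ (K ⊓ L) = ⊥ := by
    rw [eq_bot_iff]
    intro k hk
    rw [mem_bot]
    have hk1 := (hSmem k).mp hk.1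
    apply eq_one_of_cr hcore (hKA hk1.1)
    intro m hm
    by_cases hmT : m ∈ T
    · exact conj_mem_of_le_normalizer hTD hmT hk.2
    · have := hk1.2 m⁻¹ (A.inv_mem hm) (fun h => hmT (by simpa using T.inv_mem h))
      simpa using this
  -- 7.
  have hSL : Sb ⊓ L = ⊥ := by
    rw [eq_bot_iff, ← hSD]
    exact fun k hk => ⟨hk.1, hSK hk.1, hk.2⟩
  have hSc : Sb ≤ centralizer (L : Set G) :=
    commutator_le_bot_of ((hSK.trans hKT).trans hTL) (hLT.trans hTS) hSL
  -- 8.
  set C : Subgroup G := B ⊓ centralizer (L : Set G) with hC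
  have hBC : B ≤ normalizer (C : Set G) :=
    le_normalizer_inf le_normalizer (le_normalizer_centralizer hL)
  have hSC : Sb ≤ C := le_inf ((hSK.trans hKT).trans hTB) hSc
  have hCL : ∀ x (hx : x ∈ B), x ∈ C → f2 ⟨x, hx⟩ = 1 → x = 1 := by
    intro x hx hxC h
    have h1 := (hf2.ker x hx).mp h
    have h2 : x ∈ L ⊓ centralizer (L : Set G) := ⟨h1, hxC.2⟩
    rw [hZ] at h2
    exact mem_bot.mp h2
  have h5γ : 5 ≤ Fintype.card γ := by omega
  have hBimg : alternatingGroup γ ≤ img f2 B := by rw [img_self]; exact hf2.alt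
  have hCimg : alternatingGroup γ ≤ img f2 C := by
    rcases img_cases h5γ hBimg hBC with h | h
    · exfalso
      apply hSne
      rw [eq_bot_iff]
      intro x hx
      have hxC := hSC hx
      exact mem_bot.mpr (hCL x hxC.1 hxC (img_eq_bot.mp h x hxC.1 hxC))
    · exact h
  set X : Subgroup G := ⁅C, C⁆ with hX
  have hCC : X ≤ C := commutator_le_left_of_le le_normalizer
  have hXB : X ≤ B := hCC.trans inf_le_left
  have hBX : B ≤ normalizer (X : Set G) := le_normalizer_commutator hBC hBC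
  have hXimg : img f2 X = alternatingGroup γ := by
    rw [hX, img_commutator inf_le_left inf_le_left]
    apply le_antisymm
    · exact (commutator_mono le_top le_top).trans alternatingGroup.commutator_perm_le
    · calc alternatingGroup γ = ⁅alternatingGroup γ, alternatingGroup γ⁆ :=
            (commutator_alternatingGroup_eq_self (by rwa [Nat.card_eq_fintype_card])).symm
        _ ≤ _ := commutator_mono hCimg hCimg
  have hXcard : Nat.card X = Nat.card (alternatingGroup γ) := by
    rw [← hXimg]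
    exact (card_img_eq hXB (fun x hx h => hCL x hx (hCC h))).symm
  have hXs : Simp X := by
    intro Y hY hn
    rcases img_cases h5γ hXimg.ge hn with h | h
    · left
      rw [eq_bot_iff]
      intro y hy
      exact mem_bot.mpr (hCL y (hXB (hY hy)) (hCC (hY hy)) (img_eq_bot.mp h y (hXB (hY hy)) hy))
    · right
      apply Subgroup.eq_of_le_of_card_ge hY
      rw [hXcard, ← card_img_eq (hY.trans hXB) (fun x hx h => hCL x hx (hCC (hY h)))]
      exact card_le_of_le h
  -- 9. transport to A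
  set X' : Subgroup G := X.map (MulAut.conj g0⁻¹).toMonoidHom with hX'
  have hBA : B.map (MulAut.conj g0⁻¹).toMonoidHom = A := by
    rw [hg0, ← map_conj_mul, inv_mul_cancel, map_conj_one]
  have hX'A : X' ≤ A := by
    have := map_conj_mono g0⁻¹ hXB
    rwa [hBA] at this
  have hAX' : A ≤ normalizer (X' : Set G) := by
    have := map_conj_mono g0⁻¹ hBX
    rwa [hBA, map_conj_normalizer] at this
  have hX's : Simp X' := hXs.conj _
  have hX'card : Nat.card X' = Nat.card (alternatingGroup α) := by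
    rw [hX', card_map_conj, hXcard]
    have e1 := card_alt (α := α) (by omega)
    have e2 := card_alt (α := γ) (by omega)
    rw [hα] at e1
    rw [hγ] at e2
    omega
  have hX'ne : X' ≠ ⊥ := by
    intro h
    rw [h, card_bot] at hX'card
    have := Nat.factorial_pos (n - 1)
    omega
  have hXK : X' ≤ normalizer ((X' ⊓ K : Subgroup G) : Set G) :=
    le_normalizer_inf le_normalizer (hX'A.trans hK)
  rcases hX's _ inf_le_left hXK with h | h
  · -- trivial intersection
    have h1 : X' ≤ centralizer (K : Set G) :=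
      commutator_le_bot_of (hX'A.trans hK) (hKA.trans hAX') h
    have h5α : 5 ≤ Fintype.card α := by omega
    have hAimg : alternatingGroup α ≤ img f A := by rw [img_self]; exact hf.alt
    have h2 : alternatingGroup α ≤ img f X' := by
      rcases img_cases h5α hAimg hAX' with h2 | h2
      · exfalso
        apply hX'ne
        rw [eq_bot_iff, ← h]
        intro x hx
        exact ⟨hx, (hf.ker x (hX'A hx)).mp (img_eq_bot.mp h2 x (hX'A hx) hx)⟩
      · exact h2
    obtain ⟨z, hz⟩ := exists_notMem (s := {p}) (by rw [Finset.card_singleton]; omega)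
    rw [Finset.mem_singleton] at hz
    obtain ⟨σ, hσ, e⟩ := exists_alt_move (α := α) (by omega) p z
    obtain ⟨x, hxA, hx, ex⟩ := mem_img.mp (h2 hσ)
    have hxT : x ∉ T := by
      intro hxT
      have := (hfT x hxA).mpr hxT
      rw [ex, e] at this
      exact hz this
    apply hSne
    rw [eq_bot_iff, ← hSD]
    intro k hk
    refine ⟨hk, ?_⟩
    have h3 := ((hSmem k).mp hk).2 x hxA hxT
    have h4 := mem_centralizer_iff.mp (h1 hx) k (hSK hk)
    have e2 : x⁻¹ * k * x = k := by rw [mul_assoc, h4]; group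
    rwa [e2] at h3
  · -- X' ≤ K
    have hX'K : X' ≤ K := by rw [← h]; exact inf_le_right
    have h1 : ∀ x ∈ A, X' ≤ (K ⊓ L).map (MulAut.conj x).toMonoidHom := by
      intro x hx
      have h2 : X' ≤ normalizer ((X' ⊓ (K ⊓ L).map (MulAut.conj x).toMonoidHom : Subgroup G) : Set G) :=
        le_normalizer_inf le_normalizer (hX'K.trans (hKn x hx))
      rcases hX's _ inf_le_left h2 with h3 | h3
      · exfalso
        have h4 : Nat.card X' = ((K ⊓ L).map (MulAut.conj x).toMonoidHom).relIndex X' := by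
          have := relIndex_bot_left (H := X')
          rw [← h3, inf_relIndex_left] at this
          exact this.symm
        have h7 : ((K ⊓ L).map (MulAut.conj x).toMonoidHom).relIndex X' ≤ (n - 1).factorial := by
          calc ((K ⊓ L).map (MulAut.conj x).toMonoidHom).relIndex X'
              ≤ ((K ⊓ L).map (MulAut.conj x).toMonoidHom).relIndex K :=
                relIndex_le_of_le_right hX'K (relIndex_pos _ _).ne'
            _ = (K ⊓ L).relIndex K := relIndex_conj (hK hx)
            _ = L.relIndex K := inf_relIndex_left K L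
            _ ≤ L.relIndex T := relIndex_le_of_le_right hKT (relIndex_pos _ _).ne'
            _ ≤ _ := hLi
        omega
      · rw [← h3]; exact inf_le_right
    apply hX'ne
    rw [eq_bot_iff]
    intro x hx
    rw [mem_bot]
    apply eq_one_of_cr hcore (hX'A hx)
    intro m hm
    have := mem_map_conj.mp (h1 m⁻¹ (A.inv_mem hm) hx)
    simpa using this

end pair

end Cfsg.Agent.Lib.H56AltC
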