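import Cfsg.Agent.Lib.H56AltC

/-!
Multiply transitive suborbits: the structure of the stabilizer (helper56).
-/

set_option autoImplicit false
set_option linter.unusedSectionVars false

namespace Cfsg.Agent.Lib.H56AltD

open Subgroup Equiv Equiv.Perm Cfsg.Agent.Lib Cfsg.Agent.Lib.LocBase Cfsg.Agent.Lib.H56AltA Cfsg.Agent.Lib.H56AltB
open Cfsg.Agent.Lib.H56AltC
open scoped commutatorElement

section pair

variable {G : Type*} [Group G] [Finite G]
variable {A B T K L : Subgroup G} {α β γ : Type*} [Fintype α] [DecidableEq α] [Fintype β] [DecidableEq β]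
  [Fintype γ] [DecidableEq γ]

theorem exists_q (hTA : T ≤ A) (hTB : T ≤ B) (hKT : K ≤ T) (hLT : L ≤ T)
    (hK : A ≤ normalizer (K : Set G)) (hL : B ≤ normalizer (L : Set G))
    {n : ℕ} (h6 : 6 ≤ n) (hα : Fintype.card α = n) (hβ : Fintype.card β = n - 1)
    {f : ↥A →* Perm α} (hf : Act A K α f) {p : α} (hfT : ∀ x (hx : x ∈ A), f ⟨x, hx⟩ p = p ↔ x ∈ T)
    {g : ↥T →* Perm β} (hg : Act T L β g)
    (hKL : K ⊓ L = ⊥) (hK1 : K ≠ ⊥) (hL1 : L ≠ ⊥) :
    ∃ q : ↥A →* Perm β, (∀ x : ↥A, f x = 1 → q x = 1 → x = 1) ∧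
      (∀ τ ∈ alternatingGroup β, ∃ x : ↥A, f x = 1 ∧ q x = τ) ∧
      (∀ σ ∈ alternatingGroup α, ∃ x : ↥A, q x = 1 ∧ f x = σ) ∧
      (∀ x : ↥A, ∃ t : ↥T, q x = g t) := by
  have hKA : K ≤ A := hKT.trans hTA
  have hTK : T ≤ normalizer (K : Set G) := hTA.trans hK
  have hTL : T ≤ normalizer (L : Set G) := hTB.trans hL
  have h5β : 5 ≤ Fintype.card β := by omega
  have h5α : 5 ≤ Fintype.card α := by omega
  have hTimg : alternatingGroup β ≤ img g T := by rw [img_self]; exact hg.alt
  have hKimg : alternatingGroup β ≤ img g K := by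
    rcases img_cases h5β hTimg hTK with h | h
    · exfalso
      apply hK1
      rw [eq_bot_iff, ← hKL]
      intro x hx
      exact ⟨hx, (hg.ker x (hKT hx)).mp (img_eq_bot.mp h x (hKT hx) hx)⟩
    · exact h
  set C : Subgroup G := A ⊓ centralizer (K : Set G) with hC
  have hAC : A ≤ normalizer (C : Set G) := le_normalizer_inf le_normalizer (le_normalizer_centralizer hK)
  have hCT : ∀ c ∈ T, c ∈ C → c ∈ L := by
    intro c hc hcC
    rw [← hg.ker c hc]
    have h1 : g ⟨c, hc⟩ ∈ centralizer (alternatingGroup β : Set (Perm β)) := by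
      rw [mem_centralizer_iff]
      intro σ hσ
      obtain ⟨k, hkT, hk, rfl⟩ := mem_img.mp (hKimg hσ)
      rw [← map_mul, ← map_mul]
      congr 1
      exact Subtype.ext (mem_centralizer_iff.mp hcC.2 k hk)
    rw [centralizer_alt (by omega)] at h1
    exact mem_bot.mp h1
  have hLC : L ≤ C := le_inf (hLT.trans hTA) (commutator_le_bot_of (hLT.trans hTK) (hKT.trans hTL) (by rw [inf_comm]; exact hKL))
  have hAimg : alternatingGroup α ≤ img f A := by rw [img_self]; exact hf.alt
  have hCimg : alternatingGroup α ≤ img f C := by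
    rcases img_cases h5α hAimg hAC with h | h
    · exfalso
      apply hL1
      rw [eq_bot_iff, ← hKL]
      intro x hx
      have hxC := hLC hx
      exact ⟨(hf.ker x hxC.1).mp (img_eq_bot.mp h x hxC.1 hxC), hx⟩
    · exact h
  have hdec : ∀ a : ↥A, ∃ t : ↥T, (t : G)⁻¹ * a ∈ C := by
    intro a
    obtain ⟨σ, hσ, e⟩ := exists_alt_move (α := α) (by omega) p (f a p)
    obtain ⟨c, hcA, hc, ec⟩ := mem_img.mp (hCimg hσ)
    have h1 : c⁻¹ * a ∈ T := by
      rw [← hfT _ (A.mul_mem (A.inv_mem hcA) a.2)]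
      have h3 : (⟨c⁻¹ * a, A.mul_mem (A.inv_mem hcA) a.2⟩ : ↥A) = (⟨c, hcA⟩)⁻¹ * a := rfl
      rw [h3, map_mul, map_inv, ec, Perm.mul_apply, Perm.inv_eq_iff_eq, e]
    refine ⟨⟨c⁻¹ * a, h1⟩, ?_⟩
    have h2 : (c⁻¹ * (a : G))⁻¹ * c * (c⁻¹ * a) ∈ C :=
      conj_mem_of_le_normalizer' hAC (hTA h1) hc
    have e2 : (c⁻¹ * (a : G))⁻¹ * a = (c⁻¹ * (a : G))⁻¹ * c * (c⁻¹ * a) := by group
    rw [e2]; exact h2
  choose t ht using hdec
  have hwd : ∀ (a : ↥A) (s : ↥T), (s : G)⁻¹ * a ∈ C → g (t a) = g s := by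
    intro a s hs
    have h1 : ((t a : G)⁻¹ * s) ∈ L := by
      apply hCT _ (T.mul_mem (T.inv_mem (t a).2) s.2)
      have := C.mul_mem (ht a) (C.inv_mem hs)
      have e : (t a : G)⁻¹ * a * ((s : G)⁻¹ * a)⁻¹ = (t a : G)⁻¹ * s := by group
      rwa [e] at this
    have h2 := (hg.ker _ (T.mul_mem (T.inv_mem (t a).2) s.2)).mpr h1
    have h3 : (⟨(t a : G)⁻¹ * s, T.mul_mem (T.inv_mem (t a).2) s.2⟩ : ↥T) = (t a)⁻¹ * s := rfl
    rw [h3, map_mul, map_inv, inv_mul_eq_one] at h2
    exact h2
  let q : ↥A →* Perm β := MonoidHom.mk' (fun a => g (t a)) (by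
    intro a b
    show g (t (a * b)) = g (t a) * g (t b)
    rw [← map_mul]
    apply hwd
    have h1 : (t b : G)⁻¹ * ((t a : G)⁻¹ * a) * (t b) ∈ C := conj_mem_of_le_normalizer' hAC (hTA (t b).2) (ht a)
    have h2 := C.mul_mem h1 (ht b)
    have e : (t b : G)⁻¹ * ((t a : G)⁻¹ * a) * (t b) * ((t b : G)⁻¹ * b) =
        (((t a * t b : ↥T) : G))⁻¹ * ((a * b : ↥A) : G) := by
      rw [Subgroup.coe_mul, Subgroup.coe_mul]; group
    rwa [e] at h2)
  have hq : ∀ a, q a = g (t a) := fun _ => rfl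
  refine ⟨q, ?_, ?_, ?_, fun x => ⟨t x, rfl⟩⟩
  · intro x hx hqx
    have h1 : (x : G) ∈ K := (hf.ker x x.2).mp hx
    rw [hq] at hqx
    have h2 : (t x : G) ∈ L := (hg.ker _ (t x).2).mp hqx
    have h3 : (x : G) ∈ C := by
      have := C.mul_mem (hLC h2) (ht x)
      have e : (t x : G) * ((t x : G)⁻¹ * x) = x := by group
      rwa [e] at this
    have h4 : (x : G) ∈ K ⊓ L := ⟨h1, hCT x (hKT h1) h3⟩
    rw [hKL] at h4
    exact Subtype.ext (mem_bot.mp h4)
  · intro τ hτ
    obtain ⟨k, hkT, hk, e⟩ := mem_img.mp (hKimg hτ)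
    refine ⟨⟨k, hKA hk⟩, (hf.ker k (hKA hk)).mpr hk, ?_⟩
    rw [hq, hwd ⟨k, hKA hk⟩ ⟨k, hkT⟩ (by simp), e]
  · intro σ hσ
    obtain ⟨c, hcA, hc, e⟩ := mem_img.mp (hCimg hσ)
    refine ⟨⟨c, hcA⟩, ?_, e⟩
    rw [hq, hwd ⟨c, hcA⟩ 1 (by simpa using hc), map_one]

theorem core_le {n : ℕ} (h6 : 6 ≤ n) (hγ : Fintype.card γ = n)
    {f2 : ↥B →* Perm γ} (hf2 : Act B L γ f2) {N : Subgroup G} (hN : N ≤ B) (hBN : B ≤ normalizer (N : Set G))
    (hc : Nat.card N ≤ (n - 1).factorial) : N ≤ L := by
  have hBimg : alternatingGroup γ ≤ img f2 B := by rw [img_self]; exact hf2.alt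
  rcases img_cases (by omega) hBimg hBN with h | h
  · intro x hx
    exact (hf2.ker x (hN hx)).mp (img_eq_bot.mp h x (hN hx) hx)
  · exfalso
    have h1 := card_le_of_le h
    have h2 := fac_lt hγ h6
    have h3 : Nat.card (img f2 N) ≤ Nat.card N := by
      unfold img
      have h4 := Nat.le_of_dvd Nat.card_pos (Subgroup.card_map_dvd (H := N.subgroupOf B) f2)
      rw [SubgroupTools.card_subgroupOf_of_le hN] at h4
      exact h4
    omega

theorem card_core_eq (hKA : K ≤ A) (hLB : L ≤ B)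
    (hK : A ≤ normalizer (K : Set G)) (hL : B ≤ normalizer (L : Set G))
    {n : ℕ} (h6 : 6 ≤ n) (hα : Fintype.card α = n) (hγ : Fintype.card γ = n)
    {f : ↥A →* Perm α} (hf : Act A K α f) {f2 : ↥B →* Perm γ} (hf2 : Act B L γ f2)
    (hcK : Nat.card K ≤ (n - 1).factorial) (hcL : Nat.card L ≤ (n - 1).factorial)
    {g0 : G} (hg0 : B = A.map (MulAut.conj g0).toMonoidHom) : Nat.card K = Nat.card L := by
  have hBA : B.map (MulAut.conj g0⁻¹).toMonoidHom = A := by
    rw [hg0, ← map_conj_mul, inv_mul_cancel, map_conj_one]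
  apply le_antisymm
  · have h1 : K.map (MulAut.conj g0).toMonoidHom ≤ L := by
      apply core_le h6 hγ hf2
      · rw [hg0]; exact map_conj_mono g0 hKA
      · have := map_conj_mono g0 hK
        rwa [map_conj_normalizer, ← hg0] at this
      · rw [card_map_conj]; exact hcK
    rw [← card_map_conj K g0]
    exact card_le_of_le h1
  · have h1 : L.map (MulAut.conj g0⁻¹).toMonoidHom ≤ K := by
      apply core_le h6 hα hf
      · have := map_conj_mono g0⁻¹ hLB
        rwa [hBA] at this
      · have := map_conj_mono g0⁻¹ hL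
        rwa [map_conj_normalizer, hBA] at this
      · rw [card_map_conj]; exact hcL
    rw [← card_map_conj L g0⁻¹]
    exact card_le_of_le h1

end pair

section classify

variable {X : Type*} [Group X] [Finite X] {n m : ℕ}

theorem unit_cases (u : ℤˣ) : u = 1 ∨ u = -1 := Int.units_eq_one_or u

theorem classify (f : X →* Perm (Fin n)) (q : X →* Perm (Fin m))
    (h1 : ∀ x, f x = 1 → q x = 1 → x = 1)
    (h2 : ∀ τ ∈ alternatingGroup (Fin m), ∃ x, f x = 1 ∧ q x = τ)
    (h3 : ∀ σ ∈ alternatingGroup (Fin n), ∃ x, q x = 1 ∧ f x = σ)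
    (h4 : (∀ x, sign (f x) = 1) → ∀ x, sign (q x) = 1) :
    ((∀ x, sign (f x) = 1) ∧ Nonempty (X ≃* alternatingGroup (Fin n) × alternatingGroup (Fin m))) ∨
    (f.range = ⊤ ∧ (Nonempty (X ≃* Perm (Fin n) × Perm (Fin m)) ∨
       Nonempty (X ≃* Perm (Fin n) × alternatingGroup (Fin m)) ∨
       Nonempty (X ≃* ((Perm.sign.comp (MonoidHom.fst (Perm (Fin n)) (Perm (Fin m)))) *
         (Perm.sign.comp (MonoidHom.snd (Perm (Fin n)) (Perm (Fin m))))).ker))) := by
  have star : ∀ σ τ, sign σ = 1 → sign τ = 1 → ∃ x, f x = σ ∧ q x = τ := by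
    intro σ τ hσ hτ
    obtain ⟨x, hx1, hx2⟩ := h2 τ (mem_alternatingGroup.mpr hτ)
    obtain ⟨y, hy1, hy2⟩ := h3 σ (mem_alternatingGroup.mpr hσ)
    exact ⟨x * y, by rw [map_mul, hx1, hy2, one_mul], by rw [map_mul, hx2, hy1, mul_one]⟩
  have star2 : ∀ σ τ x0, sign (f x0) = sign σ → sign (q x0) = sign τ → ∃ x, f x = σ ∧ q x = τ := by
    intro σ τ x0 hσ hτ
    obtain ⟨x, hx1, hx2⟩ := star ((f x0)⁻¹ * σ) ((q x0)⁻¹ * τ) (by rw [map_mul, map_inv, hσ, inv_mul_cancel])
      (by rw [map_mul, map_inv, hτ, inv_mul_cancel])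
    exact ⟨x0 * x, by rw [map_mul, hx1, mul_inv_cancel_left], by rw [map_mul, hx2, mul_inv_cancel_left]⟩
  have hinj : ∀ x y, f x = f y → q x = q y → x = y := by
    intro x y hx hy
    have := h1 (x⁻¹ * y) (by rw [map_mul, map_inv, hx, inv_mul_cancel]) (by rw [map_mul, map_inv, hy, inv_mul_cancel])
    exact inv_mul_eq_one.mp this
  by_cases hp : ∀ x, sign (f x) = 1
  · left
    have hq := h4 hp
    refine ⟨hp, ?_⟩
    let Φ : X →* alternatingGroup (Fin n) × alternatingGroup (Fin m) :=
      MonoidHom.prod (f.codRestrict _ (fun x => mem_alternatingGroup.mpr (hp x)))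
        (q.codRestrict _ (fun x => mem_alternatingGroup.mpr (hq x)))
    refine ⟨MulEquiv.ofBijective Φ ⟨?_, ?_⟩⟩
    · intro x y hxy
      have e1 : f x = f y := congrArg (fun z => (z.1 : Perm (Fin n))) hxy
      have e2 : q x = q y := congrArg (fun z => (z.2 : Perm (Fin m))) hxy
      exact hinj x y e1 e2
    · rintro ⟨⟨σ, hσ⟩, ⟨τ, hτ⟩⟩
      obtain ⟨x, hx1, hx2⟩ := star σ τ (mem_alternatingGroup.mp hσ) (mem_alternatingGroup.mp hτ)
      exact ⟨x, Prod.ext (Subtype.ext hx1) (Subtype.ext hx2)⟩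
  · right
    push Not at hp
    obtain ⟨x0, hx0⟩ := hp
    have hx0' : sign (f x0) = -1 := (unit_cases _).resolve_left hx0
    refine ⟨?_, ?_⟩
    · rw [eq_top_iff]
      intro σ _
      rcases unit_cases (sign σ) with h | h
      · obtain ⟨x, hx, _⟩ := star2 σ 1 1 (by rw [map_one, map_one, h]) (by rw [map_one])
        exact ⟨x, hx⟩
      · obtain ⟨x, hx, _⟩ := star2 σ (q x0) x0 (by rw [hx0', h]) rfl
        exact ⟨x, hx⟩
    · by_cases hq : ∀ x, sign (q x) = 1
      · right; left
        let Φ : X →* Perm (Fin n) × alternatingGroup (Fin m) :=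
          MonoidHom.prod f (q.codRestrict _ (fun x => mem_alternatingGroup.mpr (hq x)))
        refine ⟨MulEquiv.ofBijective Φ ⟨?_, ?_⟩⟩
        · intro x y hxy
          have e1 : f x = f y := (Prod.ext_iff.mp hxy).1
          have e2 : q x = q y := congrArg (fun z => (z.2 : Perm (Fin m))) hxy
          exact hinj x y e1 e2
        · rintro ⟨σ, ⟨τ, hτ⟩⟩
          have hτ' := mem_alternatingGroup.mp hτ
          have : ∃ x, f x = σ ∧ q x = τ := by
            rcases unit_cases (sign σ) with h | h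
            · exact star σ τ h hτ'
            · exact star2 σ τ x0 (by rw [hx0', h]) (by rw [hq, hτ'])
          obtain ⟨x, hx1, hx2⟩ := this
          exact ⟨x, Prod.ext hx1 (Subtype.ext hx2)⟩
      · push Not at hq
        obtain ⟨x1, hx1⟩ := hq
        have hx1' : sign (q x1) = -1 := (unit_cases _).resolve_left hx1
        by_cases hr : ∀ x, sign (f x) = sign (q x)
        · right; right
          let Φ : X →* ((Perm.sign.comp (MonoidHom.fst (Perm (Fin n)) (Perm (Fin m)))) *
             (Perm.sign.comp (MonoidHom.snd (Perm (Fin n)) (Perm (Fin m))))).ker :=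
            (f.prod q).codRestrict _ (fun x => by
              rw [MonoidHom.mem_ker]
              show sign (f x) * sign (q x) = 1
              rw [hr x]
              exact Int.units_mul_self _)
          refine ⟨MulEquiv.ofBijective Φ ⟨?_, ?_⟩⟩
          · intro x y hxy
            have e0 := congrArg Subtype.val hxy
            have e1 : f x = f y := (Prod.ext_iff.mp e0).1
            have e2 : q x = q y := (Prod.ext_iff.mp e0).2
            exact hinj x y e1 e2
          · rintro ⟨⟨σ, τ⟩, hστ⟩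
            have hst : sign σ * sign τ = 1 := MonoidHom.mem_ker.mp hστ
            have : ∃ x, f x = σ ∧ q x = τ := by
              rcases unit_cases (sign σ) with h | h
              · apply star σ τ h
                rw [h, one_mul] at hst
                exact hst
              · apply star2 σ τ x0 (by rw [hx0', h])
                rw [← hr, hx0']
                rw [h] at hst
                rcases unit_cases (sign τ) with h' | h'
                · rw [h'] at hst; simp at hst
                · exact h'.symm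
            obtain ⟨x, hx1, hx2⟩ := this
            exact ⟨x, Subtype.ext (Prod.ext hx1 hx2)⟩
        · left
          push Not at hr
          obtain ⟨x2, hx2⟩ := hr
          have pat : ∀ a b : ℤˣ, ∃ x, sign (f x) = a ∧ sign (q x) = b := by
            have k0 : ∃ x, sign (f x) = 1 ∧ sign (q x) = 1 := ⟨1, by simp, by simp⟩
            have hmul : ∀ a b c d : ℤˣ, (∃ x, sign (f x) = a ∧ sign (q x) = b) → (∃ x, sign (f x) = c ∧ sign (q x) = d) →
                ∃ x, sign (f x) = a * c ∧ sign (q x) = b * d := by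
              rintro a b c d ⟨x, hx, hx'⟩ ⟨y, hy, hy'⟩
              exact ⟨x * y, by rw [map_mul, map_mul, hx, hy], by rw [map_mul, map_mul, hx', hy']⟩
            have k1 : (∃ x, sign (f x) = -1 ∧ sign (q x) = 1) ∧ (∃ x, sign (f x) = 1 ∧ sign (q x) = -1) := by
              rcases unit_cases (sign (f x2)) with ha | ha <;> rcases unit_cases (sign (q x2)) with hb | hb
              · exact absurd (ha.trans hb.symm) hx2
              · refine ⟨?_, ⟨x2, ha, hb⟩⟩
                rcases unit_cases (sign (q x0)) with hc | hc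
                · exact ⟨x0, hx0', hc⟩
                · have := hmul _ _ _ _ ⟨x0, hx0', hc⟩ ⟨x2, ha, hb⟩
                  simpa using this
              · refine ⟨⟨x2, ha, hb⟩, ?_⟩
                rcases unit_cases (sign (f x1)) with hc | hc
                · exact ⟨x1, hc, hx1'⟩
                · have := hmul _ _ _ _ ⟨x1, hc, hx1'⟩ ⟨x2, ha, hb⟩
                  simpa using this
              · exact absurd (ha.trans hb.symm) hx2
            intro a b
            rcases unit_cases a with rfl | rfl <;> rcases unit_cases b with rfl | rfl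
            · exact k0
            · exact k1.2
            · exact k1.1
            · have := hmul _ _ _ _ k1.1 k1.2
              simpa using this
          refine ⟨MulEquiv.ofBijective (f.prod q) ⟨?_, ?_⟩⟩
          · intro x y hxy
            have e1 : f x = f y := (Prod.ext_iff.mp hxy).1
            have e2 : q x = q y := (Prod.ext_iff.mp hxy).2
            exact hinj x y e1 e2
          · rintro ⟨σ, τ⟩
            obtain ⟨x3, hx3, hx3'⟩ := pat (sign σ) (sign τ)
            obtain ⟨x, hx1, hx2⟩ := star2 σ τ x3 hx3 hx3'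
            exact ⟨x, Prod.ext hx1 hx2⟩

end classify

end Cfsg.Agent.Lib.H56AltD
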