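import Cfsg.Agent.Lib.H56AltD

/-!
Multiply transitive suborbits: permutation groups (helper56).
-/

set_option autoImplicit false
set_option linter.unusedSectionVars false

namespace Cfsg.Agent.Lib.H56AltE

open Subgroup Equiv Equiv.Perm Cfsg.Agent.Lib Cfsg.Agent.Lib.LocBase Cfsg.Agent.Lib.H56AltA Cfsg.Agent.Lib.H56AltB
open Cfsg.Agent.Lib.H56AltC Cfsg.Agent.Lib.H56AltD
open Cfsg.Agent.Lib.TW62 (cr mem_cr cr_le le_normalizer_cr le_cr A1 A2)
open Cfsg.Agent.Lib.BenderMax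
open scoped commutatorElement

section hom

variable {G : Type*} [Group G] {A T K : Subgroup G} {α β : Type*} [Fintype α] [DecidableEq α]
  [Fintype β] [DecidableEq β]

theorem exists_restrict (hTA : T ≤ A) {f : ↥A →* Perm α} (hf : Act A K α f) {p : α}
    (hfT : ∀ x (hx : x ∈ A), f ⟨x, hx⟩ p = p ↔ x ∈ T) (hcard : Fintype.card β = Fintype.card α - 1) :
    ∃ τ : ↥T →* Perm β, Act T K β τ := by
  have hp : ∀ (t : ↥T), f ⟨t, hTA t.2⟩ p = p := fun t => (hfT t (hTA t.2)).mpr t.2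
  have h : ∀ (t : ↥T) (x : α), (f ⟨t, hTA t.2⟩ x ≠ p) ↔ x ≠ p := by
    intro t x
    constructor
    · intro h1 h2; subst h2; exact h1 (hp t)
    · intro h1 h2
      apply h1
      apply (f ⟨t, hTA t.2⟩).injective
      rw [h2, hp t]
  let τ0 : ↥T →* Perm {x : α // x ≠ p} :=
    MonoidHom.mk' (fun t => subtypePerm (f ⟨t, hTA t.2⟩) (h t)) (by
      intro s t
      ext x
      simp only [subtypePerm_apply, Perm.mul_apply]
      have : (⟨((s * t : ↥T) : G), hTA (s * t).2⟩ : ↥A) = ⟨s, hTA s.2⟩ * ⟨t, hTA t.2⟩ := rfl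
      rw [this, map_mul, Perm.mul_apply])
  have hτ0 : ∀ (t : ↥T) (x : {x : α // x ≠ p}), ((τ0 t x : {x : α // x ≠ p}) : α) = f ⟨t, hTA t.2⟩ x := fun _ _ => rfl
  have hc : Fintype.card {x : α // x ≠ p} = Fintype.card β := by
    rw [Fintype.card_subtype_compl, Fintype.card_subtype_eq, hcard]
  have e : {x : α // x ≠ p} ≃ β := Fintype.equivOfCardEq hc
  refine ⟨(e.permCongrHom : Perm {x : α // x ≠ p} ≃* Perm β).toMonoidHom.comp τ0, ?_, ?_⟩
  · intro x hx
    have h1 : ((e.permCongrHom : Perm {x : α // x ≠ p} ≃* Perm β).toMonoidHom.comp τ0) ⟨x, hx⟩ = 1 ↔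
        τ0 ⟨x, hx⟩ = 1 := by
      show (e.permCongrHom : Perm {x : α // x ≠ p} ≃* Perm β) (τ0 ⟨x, hx⟩) = 1 ↔ _
      exact MulEquiv.map_eq_one_iff _
    rw [h1, ← hf.ker x (hTA hx)]
    constructor
    · intro h2
      ext y
      rw [Perm.one_apply]
      by_cases hy : y = p
      · rw [hy]; exact hp ⟨x, hx⟩
      · have h3 := hτ0 ⟨x, hx⟩ ⟨y, hy⟩
        rw [h2, Perm.one_apply] at h3
        exact h3.symm
    · intro h2
      ext y
      rw [hτ0]
      show f ⟨x, hTA hx⟩ y = _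
      rw [h2]; rfl
  · intro σ hσ
    have hσ1 : sign σ = 1 := mem_alternatingGroup.mp hσ
    set σ' : Perm {x : α // x ≠ p} := e.symm.permCongr σ with hσ'
    have hs : sign σ' = 1 := by rw [hσ', sign_permCongr, hσ1]
    have hs2 : ofSubtype σ' ∈ alternatingGroup α := by
      rw [mem_alternatingGroup, sign_ofSubtype, hs]
    obtain ⟨a, ha⟩ := MonoidHom.mem_range.mp (hf.alt hs2)
    have haT : (a : G) ∈ T := by
      rw [← hfT a a.2]
      show f a p = p
      rw [ha]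
      exact ofSubtype_apply_of_not_mem σ' (by simp)
    refine ⟨⟨a, haT⟩, ?_⟩
    show (e.permCongrHom : Perm {x : α // x ≠ p} ≃* Perm β) (τ0 ⟨a, haT⟩) = σ
    have h2 : τ0 ⟨a, haT⟩ = σ' := by
      ext y
      rw [hτ0]
      show f a y = _
      rw [ha, ofSubtype_apply_coe]
    rw [h2, hσ']
    show e.permCongr (e.symm.permCongr σ) = σ
    ext y
    simp

theorem act_ker {f : ↥A →* Perm α} {p : α}
    (hfT : ∀ x (hx : x ∈ A), f ⟨x, hx⟩ p = p ↔ x ∈ T) (htr : ∀ i, ∃ m : ↥A, f m p = i) :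
    ∀ x (hx : x ∈ A), f ⟨x, hx⟩ = 1 ↔ x ∈ cr A T := by
  intro x hx
  constructor
  · intro h
    rw [mem_cr]
    refine ⟨hx, fun m hm => ?_⟩
    rw [← hfT _ (A.mul_mem (A.mul_mem hm hx) (A.inv_mem hm))]
    have h3 : (⟨m * x * m⁻¹, A.mul_mem (A.mul_mem hm hx) (A.inv_mem hm)⟩ : ↥A) = ⟨m, hm⟩ * ⟨x, hx⟩ * ⟨m, hm⟩⁻¹ := rfl
    rw [h3, map_mul, map_mul, h, map_inv]
    simp
  · intro h
    ext i
    obtain ⟨m, rfl⟩ := htr i
    have h1 := (mem_cr.mp h).2 (m : G)⁻¹ (A.inv_mem m.2)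
    have h2 : (m : G)⁻¹ * x * (m : G)⁻¹⁻¹ ∈ A := A.mul_mem (A.mul_mem (A.inv_mem m.2) hx) (A.inv_mem (A.inv_mem m.2))
    rw [← hfT _ h2] at h1
    have h3 : (⟨(m : G)⁻¹ * x * (m : G)⁻¹⁻¹, h2⟩ : ↥A) = m⁻¹ * ⟨x, hx⟩ * m⁻¹⁻¹ := rfl
    rw [h3, map_mul, map_mul, map_inv, map_inv, map_inv, inv_inv, Perm.mul_apply, Perm.mul_apply, Perm.inv_eq_iff_eq] at h1
    rw [Perm.one_apply]
    exact h1

theorem card_range [Finite G] {f : ↥A →* Perm α} (hKA : K ≤ A) (hf : ∀ x (hx : x ∈ A), f ⟨x, hx⟩ = 1 ↔ x ∈ K) :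
    Nat.card f.range = K.relIndex A := by
  rw [← Subgroup.index_ker]
  unfold Subgroup.relIndex
  congr 1
  ext x
  rw [MonoidHom.mem_ker, mem_subgroupOf]
  exact hf x x.2

end hom

section perm

variable {G Ω : Type*} [Group G] [Finite G] [MulAction G Ω]

theorem exists_f (a b : Ω) {d : ℕ} (hd : Nat.card (MulAction.orbit (MulAction.stabilizer G a) b) = d) (h0 : d ≠ 0) :
    ∃ (f : ↥(MulAction.stabilizer G a) →* Perm (Fin d)) (p : Fin d),
      (∀ x (hx : x ∈ MulAction.stabilizer G a), f ⟨x, hx⟩ p = p ↔ x ∈ MulAction.stabilizer G a ⊓ MulAction.stabilizer G b) ∧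
      (∀ i, ∃ m : ↥(MulAction.stabilizer G a), f m p = i) ∧
      f.range.index = (MulAction.toPermHom (MulAction.stabilizer G a)
        (MulAction.orbit (MulAction.stabilizer G a) b)).range.index := by
  have hfin : Finite (MulAction.orbit (MulAction.stabilizer G a) b) := Nat.finite_of_card_ne_zero (by rwa [hd])
  have e : MulAction.orbit (MulAction.stabilizer G a) b ≃ Fin d := Finite.equivFinOfCardEq hd
  set F := MulAction.toPermHom (MulAction.stabilizer G a) (MulAction.orbit (MulAction.stabilizer G a) b) with hF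
  set pt : MulAction.orbit (MulAction.stabilizer G a) b := ⟨b, MulAction.mem_orbit_self b⟩ with hpt
  set f : ↥(MulAction.stabilizer G a) →* Perm (Fin d) :=
    (e.permCongrHom : Perm (MulAction.orbit (MulAction.stabilizer G a) b) ≃* Perm (Fin d)).toMonoidHom.comp F with hf
  have hfe : ∀ x y, f x (e y) = e (F x y) := by
    intro x y
    show (e.permCongr (F x)) (e y) = _
    rw [Equiv.permCongr_apply, Equiv.symm_apply_apply]
  refine ⟨f, e pt, ?_, ?_, ?_⟩
  · intro x hx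
    rw [hfe, EmbeddingLike.apply_eq_iff_eq, Subgroup.mem_inf]
    constructor
    · intro h
      exact ⟨hx, MulAction.mem_stabilizer_iff.mpr (congrArg Subtype.val h)⟩
    · intro h
      exact Subtype.ext (MulAction.mem_stabilizer_iff.mp h.2)
  · intro i
    obtain ⟨y, rfl⟩ := e.surjective i
    obtain ⟨y, ⟨m, hm⟩⟩ := y
    refine ⟨m, ?_⟩
    rw [hfe]
    congr 1
    exact Subtype.ext hm
  · rw [hf, MonoidHom.range_comp]
    exact Subgroup.index_map_equiv F.range (e.permCongrHom : Perm (MulAction.orbit (MulAction.stabilizer G a) b) ≃* Perm (Fin d))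

end perm

end Cfsg.Agent.Lib.H56AltE
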