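import Cfsg.Agent.Lib.H56AltE

/-!
Multiply transitive suborbits: final assembly (helper56).
-/

set_option autoImplicit false
set_option linter.unusedSectionVars false

namespace Cfsg.Agent.Lib.H56AltF

open Subgroup Equiv Equiv.Perm Cfsg.Agent.Lib Cfsg.Agent.Lib.LocBase Cfsg.Agent.Lib.H56AltA Cfsg.Agent.Lib.H56AltB
open Cfsg.Agent.Lib.H56AltC Cfsg.Agent.Lib.H56AltD Cfsg.Agent.Lib.H56AltE
open Cfsg.Agent.Lib.TW62 (cr mem_cr cr_le le_normalizer_cr le_cr A1 A2 relIndex_B1)
open Cfsg.Agent.Lib.BenderMax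
open scoped commutatorElement

variable {G : Type*} [Group G] [Finite G]

/-- nilpotent normal subgroups die -/
theorem FA_le_of_act {T K : Subgroup G} {β : Type*} [Fintype β] [DecidableEq β] (h5 : 5 ≤ Fintype.card β)
    {τ : ↥T →* Perm β} (hτ : Act T K β τ) : FA T ≤ K := by
  have hTimg : alternatingGroup β ≤ img τ T := by rw [img_self]; exact hτ.alt
  rcases img_cases h5 hTimg (le_normalizer_FA T) with h | h
  · intro x hx
    have hxT := FA_le T hx
    exact (hτ.ker x hxT).mp (img_eq_bot.mp h x hxT hx)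
  · exfalso
    apply not_isSolvable_of_alt_le h5 h
    have h1 : Group.IsNilpotent ↥(FA T) := isNilpotent_FA T
    have h2 : Group.IsNilpotent ↥((FA T).subgroupOf T) :=
      (Group.isNilpotent_congr (Subgroup.subgroupOfEquivOfLe (FA_le T))).mpr h1
    have h3 : Group.IsSolvable ↥((FA T).subgroupOf T) := inferInstance
    have h4 : Function.Surjective (τ.subgroupMap ((FA T).subgroupOf T)) := MonoidHom.subgroupMap_surjective _ _
    exact solvable_of_surjective h4

theorem bot_of_abelian {T N : Subgroup G} (hF : FA T = ⊥) (hN : N ≤ T) (hn : T ≤ normalizer (N : Set G))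
    (hc : N ≤ centralizer (N : Set G)) : N = ⊥ := by
  rw [eq_bot_iff, ← hF]
  have h1 : (N.subgroupOf T).Normal := normal_subgroupOf_of_le_normalizer hn
  have h2 : Group.IsNilpotent ↥(N.subgroupOf T) := by
    let c : CommGroup ↥(N.subgroupOf T) :=
      { (inferInstance : Group ↥(N.subgroupOf T)) with
        mul_comm := by
          intro x y
          apply Subtype.ext
          apply Subtype.ext
          exact mem_centralizer_iff.mp (hc (mem_subgroupOf.mp y.2)) _ (mem_subgroupOf.mp x.2) }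
    exact @CommGroup.isNilpotent _ c
  have h3 := Subgroup.map_mono (f := T.subtype) (Cores.le_fittingSubgroup h1 h2)
  rwa [map_subgroupOf_eq_of_le hN] at h3

theorem main_group {A B : Subgroup G} (H : TW62.Hyp A B) {g0 : G} (hg0 : B = A.map (MulAut.conj g0).toMonoidHom)
    {d : ℕ} (h6 : 6 ≤ d) (hi1 : (A ⊓ B).relIndex A = d) (hi2 : (A ⊓ B).relIndex B = d)
    (f : ↥A →* Perm (Fin d)) (p : Fin d) (hfT : ∀ x (hx : x ∈ A), f ⟨x, hx⟩ p = p ↔ x ∈ A ⊓ B)
    (htr : ∀ i, ∃ m : ↥A, f m p = i) (halt : f.range.index ≤ 2)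
    (f2 : ↥B →* Perm (Fin d)) (p2 : Fin d) (hfT2 : ∀ x (hx : x ∈ B), f2 ⟨x, hx⟩ p2 = p2 ↔ x ∈ B ⊓ A)
    (htr2 : ∀ i, ∃ m : ↥B, f2 m p2 = i) (hK1 : A1 A B ≠ ⊥) :
    ((∀ x, sign (f x) = 1) ∧ Nonempty (↥A ≃* alternatingGroup (Fin d) × alternatingGroup (Fin (d - 1)))) ∨
    (f.range = ⊤ ∧ (Nonempty (↥A ≃* Perm (Fin d) × Perm (Fin (d - 1))) ∨
       Nonempty (↥A ≃* Perm (Fin d) × alternatingGroup (Fin (d - 1))) ∨
       Nonempty (↥A ≃* ((Perm.sign.comp (MonoidHom.fst (Perm (Fin d)) (Perm (Fin (d - 1))))) *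
         (Perm.sign.comp (MonoidHom.snd (Perm (Fin d)) (Perm (Fin (d - 1)))))).ker))) := by
  have cd : Fintype.card (Fin d) = d := Fintype.card_fin d
  have cd1 : Fintype.card (Fin (d - 1)) = d - 1 := Fintype.card_fin _
  have cd1' : Fintype.card (Fin (d - 1)) = Fintype.card (Fin d) - 1 := by rw [cd, cd1]
  have h5' : 5 ≤ Fintype.card (Fin (d - 1)) := by rw [cd1]; omega
  set T := A ⊓ B with hT
  have hTBA : B ⊓ A = T := inf_comm _ _
  rw [hTBA] at hfT2
  have hTA : T ≤ A := inf_le_left
  have hTB : T ≤ B := inf_le_right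
  set K := A1 A B with hKd
  set L := A1 B A with hLd
  have hKcr : K = cr A T := rfl
  have hLcr : L = cr B T := by rw [hLd, A1, hTBA]
  have hKT : K ≤ T := cr_le _ _
  have hLT : L ≤ T := by rw [hLcr]; exact cr_le _ _
  have hK : A ≤ normalizer (K : Set G) := le_normalizer_cr _ _
  have hL : B ≤ normalizer (L : Set G) := le_normalizer_cr _ _
  have hTK : T ≤ normalizer (K : Set G) := hTA.trans hK
  have hTL : T ≤ normalizer (L : Set G) := hTB.trans hL
  have hf : Act A K (Fin d) f := ⟨by rw [hKcr]; exact act_ker hfT htr, alternatingGroup_le_of_index_le_two halt⟩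
  have hker2 : ∀ x (hx : x ∈ B), f2 ⟨x, hx⟩ = 1 ↔ x ∈ L := by rw [hLcr]; exact act_ker hfT2 htr2
  obtain ⟨τA, hτA⟩ := exists_restrict (β := Fin (d - 1)) hTA hf hfT cd1'
  -- Fitting subgroup
  have hF : FA T = ⊥ := H.FA_eq_bot hg0 (FA_le_of_act h5' hτA)
  have hcore := H.bot_or hF
  have hA2 : A2 A B = cr A (K ⊓ L) := rfl
  have hA2' : A2 B A = cr B (K ⊓ L) := by rw [A2, inf_comm]
  rw [hA2, hA2'] at hcore
  -- indices
  have hLi : L.relIndex T ≤ (d - 1).factorial :=
    Nat.le_of_dvd (Nat.factorial_pos _) (relIndex_B1 hi2)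
  have hKi : K.relIndex T ≤ (d - 1).factorial := by
    have h1 := relIndex_B1 (M₁ := B) (M₂ := A) (d := d) (by rw [hTBA]; exact hi1)
    rw [hTBA] at h1
    exact Nat.le_of_dvd (Nat.factorial_pos _) h1
  -- the other action
  have hconj : ∀ x : ↥B, g0⁻¹ * (x : G) * g0 ∈ A := by
    intro x
    exact mem_map_conj.mp (hg0.le x.2)
  let φ : ↥B →* ↥A := MonoidHom.mk' (fun x => ⟨g0⁻¹ * (x : G) * g0, hconj x⟩) (by
    intro x y
    apply Subtype.ext
    show g0⁻¹ * ((x : G) * (y : G)) * g0 = (g0⁻¹ * (x : G) * g0) * (g0⁻¹ * (y : G) * g0)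
    group)
  have hφ : Function.Surjective φ := by
    intro y
    refine ⟨⟨g0 * y * g0⁻¹, by rw [hg0]; exact ⟨y, y.2, rfl⟩⟩, ?_⟩
    apply Subtype.ext
    show g0⁻¹ * (g0 * (y : G) * g0⁻¹) * g0 = y
    group
  have hrg : (f.comp φ).range = f.range := by
    rw [MonoidHom.range_comp, MonoidHom.range_eq_top.mpr hφ, ← MonoidHom.range_eq_map]
  have hge : Nat.card (alternatingGroup (Fin d)) ≤ L.relIndex B :=
    index_core hTB hKT hLT hTA hK hL hcore h6 hKi hLi cd (f.comp φ) (by rw [hrg]; exact hf.alt)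
  have hcalt := card_alt (α := Fin d) (by rw [cd]; omega)
  rw [cd] at hcalt
  have hcalt' := card_alt (α := Fin (d - 1)) (by rw [cd1]; omega)
  rw [cd1] at hcalt'
  have hLB : L ≤ B := hLT.trans hTB
  have hKA : K ≤ A := hKT.trans hTA
  have halt2 : alternatingGroup (Fin d) ≤ f2.range := by
    apply alternatingGroup_le_of_index_le_two
    have h1 : Nat.card f2.range * f2.range.index = Nat.card (Perm (Fin d)) := Subgroup.card_mul_index _
    rw [card_range hLB hker2, Nat.card_eq_fintype_card, Fintype.card_perm, cd, ← hcalt] at h1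
    by_contra hcon
    push Not at hcon
    have h2 : 0 < Nat.card (alternatingGroup (Fin d)) := Nat.card_pos
    have h3 : Nat.card (alternatingGroup (Fin d)) * 3 ≤ L.relIndex B * f2.range.index := Nat.mul_le_mul hge hcon
    omega
  have hf2 : Act B L (Fin d) f2 := ⟨hker2, halt2⟩
  obtain ⟨τB, hτB⟩ := exists_restrict (β := Fin (d - 1)) hTB hf2 hfT2 cd1'
  -- orders
  have e1 : Nat.card K * K.relIndex A = Nat.card A := SubgroupTools.card_mul_relIndex_of_le hKA
  have e2 : Nat.card L * L.relIndex B = Nat.card B := SubgroupTools.card_mul_relIndex_of_le hLB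
  have eAB : Nat.card B = Nat.card A := by rw [hg0, card_map_conj]
  have e3 : Nat.card T * d = Nat.card A := by
    rw [← hi1]; exact SubgroupTools.card_mul_relIndex_of_le hTA
  have hZ : L ⊓ centralizer (L : Set G) = ⊥ := by
    apply bot_of_abelian hF (inf_le_left.trans hLT)
    · exact le_normalizer_inf hTL (le_normalizer_centralizer hTL)
    · exact inf_le_right.trans (centralizer_le (SetLike.coe_subset_coe.mpr inf_le_left))
  have hZK : K ⊓ centralizer (K : Set G) = ⊥ := by
    apply bot_of_abelian hF (inf_le_left.trans hKT)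
    · exact le_normalizer_inf hTK (le_normalizer_centralizer hTK)
    · exact inf_le_right.trans (centralizer_le (SetLike.coe_subset_coe.mpr inf_le_left))
  have hL1 : L ≠ ⊥ := by
    intro hL1
    have h1 : Nat.card (f2.range) ≤ Nat.card (Perm (Fin d)) := Subgroup.card_le_card_group _
    rw [card_range hLB hker2, Nat.card_eq_fintype_card, Fintype.card_perm, cd] at h1
    rw [hL1, card_bot, one_mul, ← hL1] at e2
    have h2 : Nat.card (alternatingGroup (Fin d)) ≤ K.relIndex A := by
      rw [← card_range hKA hf.ker]; exact card_le_of_le hf.alt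
    have h3 : Nat.card K * Nat.card (alternatingGroup (Fin d)) ≤ 2 * Nat.card (alternatingGroup (Fin d)) := by
      calc Nat.card K * Nat.card (alternatingGroup (Fin d)) ≤ Nat.card K * K.relIndex A := Nat.mul_le_mul_left _ h2
        _ = L.relIndex B := by rw [e1, ← eAB, e2]
        _ ≤ _ := by rw [hcalt]; exact h1
    have h4 : Nat.card K ≤ 2 := Nat.le_of_mul_le_mul_right h3 Nat.card_pos
    apply hK1
    rw [← hZK]
    apply le_antisymm _ inf_le_left
    refine le_inf le_rfl ?_
    intro x hx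
    rw [mem_centralizer_iff]
    intro y hy
    by_contra hne
    have hx1 : x ≠ 1 := by rintro rfl; exact hne (by simp)
    have hy1 : y ≠ 1 := by rintro rfl; exact hne (by simp)
    have hxy : x ≠ y := by rintro rfl; exact hne rfl
    have h7 : ({1, x, y} : Set G).ncard = 3 := Set.ncard_eq_three.mpr ⟨1, x, y, Ne.symm hx1, Ne.symm hy1, hxy, rfl⟩
    have h8 : ({1, x, y} : Set G) ⊆ (K : Set G) := by
      rintro z (rfl | rfl | rfl)
      · exact K.one_mem
      · exact hx
      · exact hy
    have h9 := Set.ncard_le_ncard h8 (Set.toFinite _)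
    rw [h7, ← Nat.card_coe_set_eq] at h9
    have : Nat.card (K : Set G) = Nat.card K := rfl
    omega
  -- disjointness
  have hKL : K ⊓ L = ⊥ := by
    rcases hcore with hc | hc
    · refine inf_eq_bot hTA hTB hKT hLT hK hL h6 cd cd1 cd hf hfT hτB hf2 hZ ?_ hc hLi hg0
      intro h
      apply hK1
      rw [eq_bot_iff, ← hc]
      exact le_cr hKA (le_inf le_rfl h) hK
    · rw [inf_comm]
      have hg0' : A = B.map (MulAut.conj g0⁻¹).toMonoidHom := by
        rw [hg0, ← map_conj_mul, inv_mul_cancel, map_conj_one]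
      refine inf_eq_bot hTB hTA hLT hKT hL hK h6 cd cd1 cd hf2 hfT2 hτA hf hZK ?_ (by rw [inf_comm]; exact hc) hKi hg0'
      intro h
      apply hL1
      rw [eq_bot_iff, ← hc]
      exact le_cr hLB (le_inf h le_rfl) hL
  have hcK : Nat.card K ≤ (d - 1).factorial := by
    have h1 := inf_relIndex_left K L
    rw [hKL, relIndex_bot_left] at h1
    rw [h1]
    exact (relIndex_le_of_le_right hKT (relIndex_pos _ _).ne').trans hLi
  have hcL : Nat.card L ≤ (d - 1).factorial := by
    have h1 := inf_relIndex_right K L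
    rw [hKL, relIndex_bot_left] at h1
    rw [h1]
    exact (relIndex_le_of_le_right hLT (relIndex_pos _ _).ne').trans hKi
  have hcKL := card_core_eq hKA hLB hK hL h6 cd cd hf hf2 hcK hcL hg0
  obtain ⟨q, q1, q2, q3, q4⟩ := exists_q hTA hTB hKT hLT hK hL h6 cd cd1 hf hfT hτB hKL hK1 hL1
  refine classify f q q1 q2 q3 ?_
  intro hs x
  obtain ⟨t, ht⟩ := q4 x
  rw [ht]
  -- the image of τB is the alternating group
  have r1 : f.range = alternatingGroup (Fin d) := by
    apply le_antisymm _ hf.alt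
    rintro _ ⟨y, rfl⟩
    exact mem_alternatingGroup.mpr (hs y)
  have r2 : K.relIndex A = Nat.card (alternatingGroup (Fin d)) := by
    rw [← card_range hKA hf.ker, r1]
  have r3 : Nat.card τB.range = L.relIndex T := card_range hLT hτB.ker
  have r4 : Nat.card L * L.relIndex T = Nat.card T := SubgroupTools.card_mul_relIndex_of_le hLT
  have r5 : L.relIndex T * d = Nat.card (alternatingGroup (Fin d)) := by
    apply Nat.eq_of_mul_eq_mul_left (Nat.card_pos (α := L))
    calc Nat.card L * (L.relIndex T * d) = (Nat.card L * L.relIndex T) * d := by ring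
      _ = Nat.card A := by rw [r4, e3]
      _ = Nat.card K * K.relIndex A := e1.symm
      _ = _ := by rw [hcKL, r2]
  have r6 : L.relIndex T = Nat.card (alternatingGroup (Fin (d - 1))) := by
    have h1 : d.factorial = d * (d - 1).factorial := (Nat.mul_factorial_pred (by omega)).symm
    rw [← hcalt, ← hcalt', ← r5] at h1
    have h2 : d * (2 * L.relIndex T) = d * (2 * Nat.card (alternatingGroup (Fin (d - 1)))) := by
      rw [← h1]; ring
    have h3 := Nat.eq_of_mul_eq_mul_left (by omega) h2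
    omega
  have r7 : alternatingGroup (Fin (d - 1)) = τB.range := by
    apply Subgroup.eq_of_le_of_card_ge hτB.alt
    rw [r3, r6]
  have r8 : τB t ∈ alternatingGroup (Fin (d - 1)) := by rw [r7]; exact ⟨t, rfl⟩
  exact mem_alternatingGroup.mp r8

theorem main {Ω : Type*} [MulAction G Ω] [FaithfulSMul G Ω]
    (hprim : MulAction.IsPreprimitive G Ω) (a b : Ω) (d : ℕ)
    (hd : Nat.card (MulAction.orbit (MulAction.stabilizer G a) b) = d) (h6 : 6 ≤ d)
    (halt : (MulAction.toPermHom (MulAction.stabilizer G a) (MulAction.orbit (MulAction.stabilizer G a) b)).range.index ≤ 2)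
    (hunf : ¬ Function.Injective (MulAction.toPermHom (MulAction.stabilizer G a) (MulAction.orbit (MulAction.stabilizer G a) b))) :
    ((MulAction.toPermHom (MulAction.stabilizer G a) (MulAction.orbit (MulAction.stabilizer G a) b)).range.index = 2 ∧
      Nonempty (MulAction.stabilizer G a ≃* alternatingGroup (Fin d) × alternatingGroup (Fin (d - 1)))) ∨
    ((MulAction.toPermHom (MulAction.stabilizer G a) (MulAction.orbit (MulAction.stabilizer G a) b)).range = ⊤ ∧
      (Nonempty (MulAction.stabilizer G a ≃* Equiv.Perm (Fin d) × Equiv.Perm (Fin (d - 1))) ∨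
       Nonempty (MulAction.stabilizer G a ≃* Equiv.Perm (Fin d) × alternatingGroup (Fin (d - 1))) ∨
       Nonempty (MulAction.stabilizer G a ≃* ((Equiv.Perm.sign.comp (MonoidHom.fst (Equiv.Perm (Fin d)) (Equiv.Perm (Fin (d - 1))))) *
         (Equiv.Perm.sign.comp (MonoidHom.snd (Equiv.Perm (Fin d)) (Equiv.Perm (Fin (d - 1)))))).ker))) := by
  have H := TW62.hyp_of_prim hprim a b hd (by omega)
  obtain ⟨g0, -, hg0⟩ := TW62.exists_conj hprim a b
  have hi1 := TW62.relIndex_eq a b hd
  have hi2 := TW62.relIndex_eq' hprim a b hd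
  have hd' : Nat.card (MulAction.orbit (MulAction.stabilizer G b) a) = d := by
    have h1 := TW62.relIndex_eq b a (d := Nat.card (MulAction.orbit (MulAction.stabilizer G b) a)) rfl
    rw [← h1, inf_comm]; exact hi2
  obtain ⟨f, p, hfT, htr, hfi⟩ := exists_f a b hd (by omega)
  obtain ⟨f2, p2, hfT2, htr2, -⟩ := exists_f b a hd' (by omega)
  rw [← hfi] at halt
  have hK1 : A1 (MulAction.stabilizer G a) (MulAction.stabilizer G b) ≠ ⊥ := by
    intro h
    apply hunf
    rw [injective_iff_map_eq_one]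
    intro x hx
    have h1 := TW62.ker_le a b x.2 hx
    rw [h] at h1
    exact Subtype.ext (mem_bot.mp h1)
  have hfin : Finite (MulAction.orbit (MulAction.stabilizer G a) b) := Nat.finite_of_card_ne_zero (by rw [hd]; omega)
  rcases main_group H hg0 h6 hi1 hi2 f p hfT htr halt f2 p2 hfT2 htr2 hK1 with h | h
  · left
    refine ⟨?_, h.2⟩
    rw [← hfi]
    have r1 : f.range = alternatingGroup (Fin d) := by
      apply le_antisymm _ (alternatingGroup_le_of_index_le_two halt)
      rintro _ ⟨y, rfl⟩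
      exact mem_alternatingGroup.mpr (h.1 y)
    have : Nontrivial (Fin d) := Fin.nontrivial_iff_two_le.mpr (by omega)
    rw [r1, alternatingGroup.index_eq_two]
  · right
    refine ⟨?_, h.2⟩
    rw [h.1, Subgroup.index_top] at hfi
    exact Subgroup.index_eq_one.mp hfi.symm

end Cfsg.Agent.Lib.H56AltF
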