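import Cfsg.Agent.Lib.BBlockA

/-!
# S2985, part A: reductions (helper56)
-/

set_option autoImplicit false
set_option linter.unusedSectionVars false

namespace Cfsg.Agent.Lib.H56Bau

open Subgroup Cfsg Cfsg.Agent.Lib.LocBase Cfsg.Agent.Lib.PReduced Cfsg.Agent.Lib.BBlock
open Cfsg.Agent.Lib.BBlock.Blk (WE)
open scoped commutatorElement

universe u
variable {G : Type u} [Group G] [Finite G] {p : ℕ} [hp : Fact p.Prime]

theorem le_N_pCore (K : Subgroup G) : K ≤ normalizer (pCore p G : Set G) := by
  rw [Subgroup.normalizer_eq_top_iff.mpr (pCore_normal p G)]; exact le_top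

theorem isPGroup_of_pRes_le (hG : centralizer (pCore p G : Set G) ≤ pCore p G) {K : Subgroup G}
    (h : pRes p K ≤ centralizer (pCore p G : Set G)) : IsPGroup p K := by
  rw [isPGroup_iff_pRes_eq_bot, ← pRes_pRes, ← isPGroup_iff_pRes_eq_bot]
  exact (isPGroup_pCore p G).to_le (h.trans hG)

section
variable {T E : Subgroup G} (h : Blk p T E)
include h

theorem fin {X : Subgroup G} (hE : E ≤ normalizer (X : Set G)) (hB : baumannSubgroupOf p T ≤ normalizer (X : Set G))
    (hP : IsPGroup p (⁅E, X⁆ : Subgroup G)) : X ≤ normalizer (E : Set G) := by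
  have h1 : E ≤ normalizer ((⁅E, X⁆ : Subgroup G) : Set G) := normalizer_commutator_ge_left _ _
  have h2 : X ≤ normalizer ((⁅E, X⁆ : Subgroup G) : Set G) := normalizer_commutator_ge_right _ _
  have h3 : baumannSubgroupOf p T ≤ normalizer ((⁅E, X⁆ : Subgroup G) : Set G) :=
    le_normalizer_commutator h.bau_le_N hB
  have h4 := normalizes h.syl h.res h.comm hP h3 h1
  refine normalizes_of_sup h.res hP h4 h2 ?_
  rw [commutator_comm]

variable (hG : centralizer (pCore p G : Set G) ≤ pCore p G)
include hG

theorem comm_pCore_le : ⁅pCore p G, E⁆ ≤ pCoreOf p E := by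
  have h1 : ⁅pCore p G, E⁆ ≤ pCore p G := commutator_le_left_of_le (le_N_pCore E)
  have h2 : ⁅pCore p G, E⁆ ≤ E := commutator_le_right_of_le (h.pCore_le_N hG)
  refine (le_inf h2 h1).trans (LocBase.le_pCoreOf inf_le_left ?_ ?_)
  · exact le_normalizer_inf le_normalizer (le_N_pCore E)
  · exact (isPGroup_pCore p G).to_le inf_le_right

theorem comm_idem : ⁅⁅pCore p G, E⁆, E⁆ = ⁅pCore p G, E⁆ := by
  have := commutator_pRes_idem (isPGroup_pCore p G) (le_N_pCore (p := p) E)
  rwa [h.res] at this

theorem pCore_le_C : pCore p G ≤ centralizer (WE p E : Set G) := by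
  rw [Subgroup.le_centralizer_iff]
  exact (h.main84 hG).1.trans (OZ_le_centralizer _)

theorem small (hs : ⁅pCore p G, E⁆ ≤ OZ p (pCoreOf p E)) : centralizer (WE p E : Set G) ≤ normalizer (E : Set G) := by
  set C := centralizer (WE p E : Set G) with hC
  have hPE : ⁅pCore p G, E⁆ ≤ WE p E := by
    rw [← comm_idem h hG]
    exact commutator_mono hs le_rfl
  have hEW : E ≤ normalizer (WE p E : Set G) := normalizer_commutator_ge_right _ _
  have hEC : E ≤ normalizer (C : Set G) := le_normalizer_centralizer hEW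
  have hCW : C ≤ normalizer (WE p E : Set G) := Subgroup.centralizer_le_normalizer _
  have hPC : pCore p G ≤ C := pCore_le_C h hG
  have hBW : baumannSubgroupOf p T ≤ normalizer (WE p E : Set G) := by
    refine le_normalizer_commutator ?_ h.bau_le_N
    exact h.bau_le_N.trans ((normalizer_le_normalizer_pCoreOf p E).trans (normalizer_le_normalizer_OZ p _))
  have hBC : baumannSubgroupOf p T ≤ normalizer (C : Set G) := le_normalizer_centralizer hBW
  refine fin h hEC hBC ?_
  have h1 : ⁅⁅E, C⁆, pCore p G⁆ ≤ WE p E := by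
    refine PAct.three_subgroups hEW hCW (hPC.trans hCW) ?_ ?_
    · refine (commutator_mono (commutator_le_right_of_le (le_N_pCore C)) le_rfl).trans hPE
    · refine (commutator_mono hPE le_rfl).trans ?_
      rw [commutator_comm, commutator_eq_bot_iff_le_centralizer.mpr le_rfl]
      exact bot_le
  have h2 : ⁅E, C⁆ ≤ C := commutator_le_right_of_le hEC
  apply isPGroup_of_pRes_le hG
  refine pRes_le_centralizer_of_chain (Q := WE p E) (isPGroup_pCore p G) (le_N_pCore _) ?_ ?_
  · rw [commutator_comm]
    exact (commutator_mono (pRes_le p _) le_rfl).trans h1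
  · exact (pRes_le p _).trans h2

end

end Cfsg.Agent.Lib.H56Bau
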