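import Cfsg.Agent.Lib.H56BauA
import Cfsg.Agent.Lib.PAction

/-!
# S2985, part B: natural sections, nilpotent action (helper56)
-/

set_option autoImplicit false
set_option linter.unusedSectionVars false

namespace Cfsg.Agent.Lib.H56Bau

open Subgroup Cfsg Cfsg.Agent.Lib.LocBase Cfsg.Agent.Lib.PReduced Cfsg.Agent.Lib.BBlock
open scoped commutatorElement Matrix

universe u
variable {G : Type u} [Group G]

/-- a natural section, with the maps extended to the whole group -/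
structure NatSec (F : Type*) [Field F] (E U U₀ : Subgroup G) where
  ρ : G → SL2 F
  ψ : G → (Fin 2 → F)
  nor : E ≤ normalizer (U : Set G)
  le : U₀ ≤ U
  ρ_mul : ∀ a ∈ E, ∀ b ∈ E, ρ (a * b) = ρ a * ρ b
  ρ_mem : ∀ a ∈ E, ρ a ∈ commutator (SL2 F)
  ρ_surj : ∀ r ∈ commutator (SL2 F), ∃ a ∈ E, ρ a = r
  ψ_mul : ∀ u ∈ U, ∀ v ∈ U, ψ (u * v) = ψ u + ψ v
  ψ_surj : ∀ v, ∃ u ∈ U, ψ u = v
  ψ_ker : ∀ u ∈ U, (ψ u = 0 ↔ u ∈ U₀)
  act : ∀ a ∈ E, ∀ u ∈ U, ψ (a * u * a⁻¹) = (ρ a : Matrix (Fin 2) (Fin 2) F) *ᵥ (ψ u)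

open Classical in
theorem natSec_of {F : Type*} [Field F] {E U U₀ : Subgroup G}
    (h : ActsAsSL2OnSection F (commutator (Matrix.SpecialLinearGroup (Fin 2) F)) E U U₀) : Nonempty (NatSec F E U U₀) := by
  obtain ⟨h1, h2, ρ, ψ, hρ, hψ, hker, hact⟩ := h
  have e1 : ∀ a (ha : a ∈ E), (if h : a ∈ E then ρ ⟨a, h⟩ else 1) = ρ ⟨a, ha⟩ := fun a ha => dif_pos ha
  have e2 : ∀ a (ha : a ∈ U), (if h : a ∈ U then Multiplicative.toAdd (ψ ⟨a, h⟩) else 0) =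
    Multiplicative.toAdd (ψ ⟨a, ha⟩) := fun a ha => dif_pos ha
  refine ⟨{ ρ := fun a => if h : a ∈ E then ρ ⟨a, h⟩ else 1
            ψ := fun a => if h : a ∈ U then Multiplicative.toAdd (ψ ⟨a, h⟩) else 0
            nor := h1
            le := h2
            ρ_mul := ?_, ρ_mem := ?_, ρ_surj := ?_, ψ_mul := ?_, ψ_surj := ?_, ψ_ker := ?_, act := ?_ }⟩
  · intro a ha b hb
    rw [e1 a ha, e1 b hb, e1 _ (mul_mem ha hb), ← map_mul]; rfl
  · intro a ha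
    rw [e1 a ha, ← hρ]; exact ⟨_, rfl⟩
  · intro r hr
    rw [← hρ] at hr
    obtain ⟨a, ha⟩ := hr
    exact ⟨a, a.2, by rw [e1 _ a.2]; exact ha⟩
  · intro u hu v hv
    rw [e2 u hu, e2 v hv, e2 _ (mul_mem hu hv), ← toAdd_mul, ← map_mul]; rfl
  · intro v
    obtain ⟨u, hu⟩ := hψ (Multiplicative.ofAdd v)
    exact ⟨u, u.2, by rw [e2 _ u.2]; change Multiplicative.toAdd (ψ u) = v; rw [hu]; rfl⟩
  · intro u hu
    rw [e2 u hu]
    exact hker ⟨u, hu⟩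
  · intro a ha u hu
    obtain ⟨w, hw, hw2⟩ := hact ⟨a, ha⟩ ⟨u, hu⟩
    have h3 : a * u * a⁻¹ ∈ U := conj_mem_of_le_normalizer h1 ha hu
    have h4 : w = ⟨a * u * a⁻¹, h3⟩ := Subtype.ext hw
    rw [h4] at hw2
    rw [e2 u hu, e2 _ h3, e1 a ha]
    exact hw2

namespace NatSec

variable {F : Type*} [Field F] {E U U₀ : Subgroup G} (s : NatSec F E U U₀)
include s

theorem ρ_one : s.ρ 1 = 1 := by
  have := s.ρ_mul 1 E.one_mem 1 E.one_mem
  rw [mul_one] at this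
  exact (left_eq_mul.mp this)

theorem ρ_inv {a : G} (ha : a ∈ E) : s.ρ a⁻¹ = (s.ρ a)⁻¹ := by
  have := s.ρ_mul a ha a⁻¹ (inv_mem ha)
  rw [mul_inv_cancel, s.ρ_one] at this
  exact (inv_eq_of_mul_eq_one_right this.symm).symm

theorem ρ_pow {a : G} (ha : a ∈ E) (n : ℕ) : s.ρ (a ^ n) = s.ρ a ^ n := by
  induction n with
  | zero => rw [pow_zero, pow_zero, s.ρ_one]
  | succ n ih => rw [pow_succ, pow_succ, s.ρ_mul _ (pow_mem ha n) _ ha, ih]

theorem ψ_one : s.ψ 1 = 0 := by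
  have := s.ψ_mul 1 U.one_mem 1 U.one_mem
  rw [mul_one] at this
  exact (left_eq_add.mp this)

theorem ψ_inv {u : G} (hu : u ∈ U) : s.ψ u⁻¹ = - s.ψ u := by
  have := s.ψ_mul u hu u⁻¹ (inv_mem hu)
  rw [mul_inv_cancel, s.ψ_one] at this
  exact (neg_eq_of_add_eq_zero_right this.symm).symm

theorem ψ_zero {u : G} (hu : u ∈ U₀) : s.ψ u = 0 := (s.ψ_ker u (s.le hu)).mpr hu

theorem ψ_eq {u v : G} (hu : u ∈ U) (hv : v ∈ U) : s.ψ u = s.ψ v ↔ u⁻¹ * v ∈ U₀ := by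
  rw [← s.ψ_ker _ (mul_mem (inv_mem hu) hv), s.ψ_mul _ (inv_mem hu) _ hv, s.ψ_inv hu, neg_add_eq_zero]

theorem nor₀ : E ≤ normalizer (U₀ : Set G) := by
  have h1 : ∀ e ∈ E, ∀ u ∈ U₀, e * u * e⁻¹ ∈ U₀ := by
    intro e he u hu
    have h2 : e * u * e⁻¹ ∈ U := conj_mem_of_le_normalizer s.nor he (s.le hu)
    rw [← s.ψ_ker _ h2, s.act e he u (s.le hu), s.ψ_zero hu, Matrix.mulVec_zero]
  intro e he
  rw [mem_normalizer_iff]
  intro u
  refine ⟨h1 e he u, fun hu => ?_⟩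
  have := h1 e⁻¹ (inv_mem he) _ hu
  have e1 : e⁻¹ * (e * u * e⁻¹) * e⁻¹⁻¹ = u := by group
  rwa [e1] at this

/-- elements of `E` acting trivially -/
theorem ρ_eq_one {e : G} (he : e ∈ E) (h : ∀ u ∈ U, ⁅e, u⁆ ∈ U₀) : s.ρ e = 1 := by
  have key : ∀ v, (s.ρ e : Matrix (Fin 2) (Fin 2) F) *ᵥ v = v := by
    intro v
    obtain ⟨u, hu, rfl⟩ := s.ψ_surj v
    rw [← s.act e he u hu]
    have e1 : e * u * e⁻¹ = ⁅e, u⁆ * u := by rw [commutatorElement_def]; group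
    rw [e1, s.ψ_mul _ (s.le (h u hu)) _ hu, s.ψ_zero (h u hu), zero_add]
  apply Subtype.ext
  apply Matrix.ext_of_mulVec_single
  intro i
  rw [key]
  exact (Matrix.one_mulVec _).symm

end NatSec

/-- a normal section of a `p`-group covered by commutators is trivial -/
theorem le_of_comm_sup [Finite G] {p : ℕ} [hp : Fact p.Prime] {R Q W : Subgroup G} (hR : IsPGroup p R) (hQR : Q ≤ R)
    (hWR : W ≤ R) (hRW : R ≤ normalizer (W : Set G)) (h : Q ≤ ⁅Q, R⁆ ⊔ W) : Q ≤ W := by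
  have hn : (W.subgroupOf R).Normal := Subgroup.normal_subgroupOf_of_le_normalizer hRW
  let q := QuotientGroup.mk' (W.subgroupOf R)
  have : Group.IsNilpotent (↥R ⧸ W.subgroupOf R) := (hR.to_quotient _).isNilpotent
  have e1 : (⁅Q.subgroupOf R, ⊤⁆ : Subgroup R).map R.subtype = ⁅Q, R⁆ := by
    rw [Subgroup.map_commutator, map_subgroupOf_eq_of_le hQR, ← MonoidHom.range_eq_map, Subgroup.range_subtype]
  have h1 : Q.subgroupOf R ≤ ⁅Q.subgroupOf R, ⊤⁆ ⊔ W.subgroupOf R := by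
    rw [← map_subtype_le_map_subtype, Subgroup.map_sup, e1, map_subgroupOf_eq_of_le hQR, map_subgroupOf_eq_of_le hWR]
    exact h
  have h2 : (Q.subgroupOf R).map q ≤ ⁅(Q.subgroupOf R).map q, (⊤ : Subgroup _)⁆ := by
    refine (Subgroup.map_mono h1).trans ?_
    rw [Subgroup.map_sup, Subgroup.map_commutator]
    refine sup_le (commutator_mono le_rfl le_top) ?_
    have : (W.subgroupOf R).map q = ⊥ := by
      rw [Subgroup.map_eq_bot_iff, QuotientGroup.ker_mk']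
    rw [this]; exact bot_le
  have h3 := PAction.eq_bot_of_le_comm h2
  rw [Subgroup.map_eq_bot_iff, QuotientGroup.ker_mk'] at h3
  intro x hx
  exact h3 (show (⟨x, hQR hx⟩ : ↥R) ∈ Q.subgroupOf R from hx)

/-- elements of `Q` commuting with `b` modulo `N` -/
def cen (b : G) (N Q : Subgroup G) (h : Q ≤ normalizer (N : Set G)) : Subgroup G where
  carrier := {u | u ∈ Q ∧ ⁅u, b⁆ ∈ N}
  mul_mem' := by
    rintro u v ⟨hu, hu'⟩ ⟨hv, hv'⟩
    refine ⟨mul_mem hu hv, ?_⟩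
    rw [commutatorElement_mul_left_eq_conj_mul]
    exact N.mul_mem ((mem_normalizer_iff.mp (h hu) _).mp hv') hu'
  one_mem' := ⟨Q.one_mem, by rw [commutatorElement_one_left]; exact N.one_mem⟩
  inv_mem' := by
    rintro u ⟨hu, hu'⟩
    refine ⟨inv_mem hu, ?_⟩
    have e : ⁅u⁻¹, b⁆ = u⁻¹ * ⁅u, b⁆⁻¹ * (u⁻¹)⁻¹ := by
      simp only [commutatorElement_def]; group
    rw [e]
    exact (mem_normalizer_iff.mp (h (inv_mem hu)) _).mp (N.inv_mem hu')

theorem mem_cen {b : G} {N Q : Subgroup G} {h : Q ≤ normalizer (N : Set G)} {u : G} :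
    u ∈ cen b N Q h ↔ u ∈ Q ∧ ⁅u, b⁆ ∈ N := Iff.rfl

/-- from generators to the cyclic group -/
theorem comm_zpowers_le {b : G} {X N : Subgroup G} (hb : b ∈ normalizer (N : Set G)) (h : ∀ x ∈ X, ⁅x, b⁆ ∈ N) :
    ⁅X, zpowers b⁆ ≤ N := by
  rw [commutator_comm, zpowers_eq_closure]
  apply commutator_closure_le
  · rw [← zpowers_eq_closure, zpowers_le]; exact hb
  · intro x hx a ha
    rw [Set.mem_singleton_iff.mp hx, ← commutatorElement_inv]
    exact inv_mem (h a ha)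

end Cfsg.Agent.Lib.H56Bau
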