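import Cfsg.Agent.Lib.H56BauB

/-!
# S2985, part C: the exceptional configuration (helper56)
-/

set_option autoImplicit false
set_option linter.unusedSectionVars false

namespace Cfsg.Agent.Lib.H56Bau

open Subgroup Cfsg Cfsg.Agent.Lib.LocBase Cfsg.Agent.Lib.PReduced Cfsg.Agent.Lib.BBlock
open Cfsg.Agent.Lib.BBlock.Blk (WE)
open scoped commutatorElement Matrix

universe u
variable {G : Type u} [Group G] [Finite G]

abbrev Qo (E : Subgroup G) : Subgroup G := pCoreOf 3 E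
abbrev Wo (E : Subgroup G) : Subgroup G := OZ 3 (pCoreOf 3 E)
abbrev Zo (E : Subgroup G) : Subgroup G := OZ 3 (pCoreOf 3 E) ⊓ centralizer (E : Set G)

structure Exc (T E : Subgroup G) (F : Type) [Field F] where
  blk : Blk 3 T E
  hG : centralizer (pCore 3 G : Set G) ≤ pCore 3 G
  h3 : (3 : F) = 0
  fin : Finite F
  sQ : NatSec F E (Qo E) (Wo E)
  sW : NatSec F E (Wo E) (Zo E)
  QQ : ⁅Qo E, Qo E⁆ = Zo E
  cardZ : Nat.card (Zo E) = Nat.card F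
  kQ : ∀ e ∈ E, sQ.ρ e = 1 → e ∈ Qo E
  kW : ∀ e ∈ E, sW.ρ e = 1 → e ∈ Qo E
  nq : ∀ b ∈ baumannSubgroupOf 3 T, b ∉ centralizer (Wo E : Set G) →
    ¬ ⁅⁅Qo E, Subgroup.zpowers b⁆, Subgroup.zpowers b⁆ ≤ Zo E
  big : ⁅pCore 3 G, E⁆ = Qo E
  t : G
  i0 : G
  j0 : G
  ht : t ∈ E
  hi0 : i0 ∈ E
  hj0 : j0 ∈ E
  tt : t * t = 1
  tρ : (sQ.ρ t : Matrix (Fin 2) (Fin 2) F) = -1
  iρ : (sQ.ρ i0 : Matrix (Fin 2) (Fin 2) F) = !![0, -1; 1, 0]
  jρ : (sQ.ρ j0 : Matrix (Fin 2) (Fin 2) F) = !![1, 1; 1, -1]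
  ijt : t⁻¹ * ⁅i0, j0⁆ ∈ Qo E

/-- involutions in `SL₂` -/
theorem sl2_sq {F : Type*} [Field F] (h2 : (2 : F) ≠ 0) {r : SL2 F} (hr : r * r = 1) :
    r = 1 ∨ (r : Matrix (Fin 2) (Fin 2) F) = -1 := by
  have hd := r.2
  rw [Matrix.det_fin_two] at hd
  have hm : (r : Matrix (Fin 2) (Fin 2) F) * (r : Matrix (Fin 2) (Fin 2) F) = 1 := by
    have := congrArg Subtype.val hr
    exact this
  set M := (r : Matrix (Fin 2) (Fin 2) F) with hM
  have h00 := congrFun (congrFun hm 0) 0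
  have h01 := congrFun (congrFun hm 0) 1
  have h10 := congrFun (congrFun hm 1) 0
  have h11 := congrFun (congrFun hm 1) 1
  simp only [Matrix.mul_apply, Fin.sum_univ_two, Matrix.one_apply, Fin.isValue] at h00 h01 h10 h11
  simp at h00 h01 h10 h11
  change M 0 0 * M 1 1 - M 0 1 * M 1 0 = 1 at hd
  have hs : M 0 0 * (M 0 0 + M 1 1) = 2 := by linear_combination h00 + hd
  have hs2 : M 1 1 * (M 0 0 + M 1 1) = 2 := by linear_combination h11 + hd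
  have hne : M 0 0 + M 1 1 ≠ 0 := by
    intro h; rw [h, mul_zero] at hs; exact h2 hs.symm
  have hb : M 0 1 = 0 := by
    have : M 0 1 * (M 0 0 + M 1 1) = 0 := by linear_combination h01
    exact (mul_eq_zero.mp this).resolve_right hne
  have hc : M 1 0 = 0 := by
    have : M 1 0 * (M 0 0 + M 1 1) = 0 := by linear_combination h10
    exact (mul_eq_zero.mp this).resolve_right hne
  have had : M 0 0 = M 1 1 := mul_right_cancel₀ hne (hs.trans hs2.symm)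
  have ha : (M 0 0 - 1) * (M 0 0 + 1) = 0 := by
    rw [hb, zero_mul, add_zero] at h00
    linear_combination h00
  rcases mul_eq_zero.mp ha with h | h
  · left
    have h1 : M 0 0 = 1 := sub_eq_zero.mp h
    apply Subtype.ext
    change M = 1
    ext i j
    fin_cases i <;> fin_cases j <;> simp [hb, hc, h1, ← had]
  · right
    have h1 : M 0 0 = -1 := eq_neg_of_add_eq_zero_left h
    ext i j
    fin_cases i <;> fin_cases j <;> simp [hb, hc, h1, ← had]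

namespace Exc

variable {T E : Subgroup G} {F : Type} [Field F] (x : Exc T E F)
include x

theorem two_ne : (2 : F) ≠ 0 := by
  intro h
  have h1 : (1 : F) = 0 := by linear_combination x.h3 - h
  exact one_ne_zero h1

theorem Wn : E ≤ normalizer (Wo E : Set G) := x.sQ.nor₀
theorem Qn : E ≤ normalizer (Qo E : Set G) := x.sQ.nor
theorem Zn : E ≤ normalizer (Zo E : Set G) := x.sW.nor₀
omit x in
theorem WQ : Wo E ≤ Qo E := OZ_le _
omit x in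
theorem ZW : Zo E ≤ Wo E := inf_le_left
omit x in
theorem QE : Qo E ≤ E := pCoreOf_le E
omit x in
theorem Qcen : Qo E ≤ centralizer (Wo E : Set G) := le_centralizer_OZ _
omit x in
theorem NEQ : normalizer (E : Set G) ≤ normalizer (Qo E : Set G) := normalizer_le_normalizer_pCoreOf 3 E
omit x in
theorem NEW : normalizer (E : Set G) ≤ normalizer (Wo E : Set G) := NEQ.trans (normalizer_le_normalizer_OZ 3 _)
omit x in
theorem NEZ : normalizer (E : Set G) ≤ normalizer (Zo E : Set G) :=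
  le_normalizer_inf NEW (le_normalizer_centralizer le_rfl)
omit x in
theorem NEWE : normalizer (E : Set G) ≤ normalizer (WE 3 E : Set G) := le_normalizer_commutator NEW le_rfl

theorem Qcomm {u v : G} (hu : u ∈ Qo E) (hv : v ∈ Qo E) : ⁅u, v⁆ ∈ Zo E := by
  rw [← x.QQ]; exact commutator_mem_commutator hu hv

theorem W3 {w : G} (hw : w ∈ Wo E) : w * w * w = 1 := by
  have := (mem_OZ.mp hw).2.2
  rw [← pow_three']; exact this

omit x in
theorem Wcomm {w u : G} (hw : w ∈ Wo E) (hu : u ∈ Qo E) : w * u = u * w :=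
  mem_centralizer_iff.mp (Qcen hu) w hw

omit x in
theorem Zcomm {z e : G} (hz : z ∈ Zo E) (he : e ∈ E) : z * e = e * z :=
  (mem_centralizer_iff.mp hz.2 e he).symm

theorem ρQ {u : G} (hu : u ∈ Qo E) : x.sQ.ρ u = 1 :=
  x.sQ.ρ_eq_one (QE hu) fun _ hv => ZW (x.Qcomm hu hv)

theorem ρWQ {u : G} (hu : u ∈ Qo E) : x.sW.ρ u = 1 := by
  refine x.sW.ρ_eq_one (QE hu) fun v hv => ?_
  have : ⁅u, v⁆ = 1 := by
    rw [commutatorElement_eq_one_iff_mul_comm, Wcomm hv hu]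
  rw [this]; exact one_mem _

/-- involutions of `E / Q` -/
theorem inv_E {g : G} (hg : g ∈ E) (hQ : g ∉ Qo E) (h2 : g * g ∈ Qo E) :
    (x.sQ.ρ g : Matrix (Fin 2) (Fin 2) F) = -1 ∧ (x.sW.ρ g : Matrix (Fin 2) (Fin 2) F) = -1 := by
  constructor
  · rcases sl2_sq x.two_ne (r := x.sQ.ρ g) (by rw [← x.sQ.ρ_mul g hg g hg, x.ρQ h2]) with h | h
    · exact absurd (x.kQ g hg h) hQ
    · exact h
  · rcases sl2_sq x.two_ne (r := x.sW.ρ g) (by rw [← x.sW.ρ_mul g hg g hg, x.ρWQ h2]) with h | h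
    · exact absurd (x.kW g hg h) hQ
    · exact h

theorem tinv : x.t⁻¹ = x.t := inv_eq_of_mul_eq_one_right x.tt

theorem t_not : x.t ∉ Qo E := by
  intro h
  have h1 := x.ρQ h
  have h2 := x.tρ
  rw [h1] at h2
  have h3 := congrFun (congrFun h2 0) 0
  simp at h3
  apply x.two_ne
  linear_combination h3

theorem tρW : (x.sW.ρ x.t : Matrix (Fin 2) (Fin 2) F) = -1 :=
  (x.inv_E x.ht x.t_not (by rw [x.tt]; exact one_mem _)).2

/-- conjugates of `t` under `N(E)` -/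
theorem conj_t {n : G} (hn : n ∈ normalizer (E : Set G)) : ∃ q ∈ Qo E, n * x.t * n⁻¹ = x.t * q := by
  have h1 : n * x.t * n⁻¹ ∈ E := (mem_normalizer_iff.mp hn _).mp x.ht
  have h2 : n * x.t * n⁻¹ ∉ Qo E := by
    intro h
    exact x.t_not ((mem_normalizer_iff.mp (NEQ hn) _).mpr h)
  have h3 : n * x.t * n⁻¹ * (n * x.t * n⁻¹) = 1 := by
    have : n * x.t * n⁻¹ * (n * x.t * n⁻¹) = n * (x.t * x.t) * n⁻¹ := by group
    rw [this, x.tt]; group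
  have h4 := (x.inv_E h1 h2 (by rw [h3]; exact one_mem _)).1
  refine ⟨x.t⁻¹ * (n * x.t * n⁻¹), ?_, by group⟩
  apply x.kQ _ (mul_mem (inv_mem x.ht) h1)
  rw [x.sQ.ρ_mul _ (inv_mem x.ht) _ h1, x.tinv]
  apply Subtype.ext
  change (x.sQ.ρ x.t : Matrix (Fin 2) (Fin 2) F) * (x.sQ.ρ (n * x.t * n⁻¹) : Matrix (Fin 2) (Fin 2) F) = 1
  rw [x.tρ, h4]; simp

/-- `t` inverts `Q / W` -/
theorem t_Q {u : G} (hu : u ∈ Qo E) : x.sQ.ψ (x.t * u * x.t⁻¹) = - x.sQ.ψ u := by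
  rw [x.sQ.act x.t x.ht u hu, x.tρ, Matrix.neg_mulVec, Matrix.one_mulVec]

theorem t_W {w : G} (hw : w ∈ Wo E) : w * (x.t * w * x.t⁻¹) ∈ Zo E := by
  have h1 : x.t * w * x.t⁻¹ ∈ Wo E := conj_mem_of_le_normalizer x.Wn x.ht hw
  rw [← x.sW.ψ_ker _ (mul_mem hw h1), x.sW.ψ_mul _ hw _ h1, x.sW.act x.t x.ht w hw, x.tρW, Matrix.neg_mulVec,
    Matrix.one_mulVec, add_neg_cancel]

/-- the subgroup of `W` inverted by `t` -/
theorem mem_WE {w : G} : w ∈ WE 3 E ↔ w ∈ Wo E ∧ x.t * w * x.t⁻¹ = w⁻¹ := by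
  let I : Subgroup G :=
    { carrier := {w | w ∈ Wo E ∧ x.t * w * x.t⁻¹ = w⁻¹}
      mul_mem' := by
        rintro a b ⟨ha, ha'⟩ ⟨hb, hb'⟩
        refine ⟨mul_mem ha hb, ?_⟩
        have : x.t * (a * b) * x.t⁻¹ = (x.t * a * x.t⁻¹) * (x.t * b * x.t⁻¹) := by group
        rw [this, ha', hb', mul_inv_rev, ← mul_inv_rev, ← mul_inv_rev, Wcomm hb (WQ ha)]
      one_mem' := ⟨one_mem _, by group⟩
      inv_mem' := by
        rintro a ⟨ha, ha'⟩
        refine ⟨inv_mem ha, ?_⟩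
        have : x.t * a⁻¹ * x.t⁻¹ = (x.t * a * x.t⁻¹)⁻¹ := by group
        rw [this, ha'] }
  have hI : ∀ {w}, w ∈ I ↔ w ∈ Wo E ∧ x.t * w * x.t⁻¹ = w⁻¹ := Iff.rfl
  rw [← hI]
  have hcomm : ∀ {w}, w ∈ Wo E → ⁅w, x.t⁆ ∈ I := by
    intro w hw
    have h1 : x.t * w * x.t⁻¹ ∈ Wo E := conj_mem_of_le_normalizer x.Wn x.ht hw
    have e1 : ⁅w, x.t⁆ = w * (x.t * w * x.t⁻¹)⁻¹ := by rw [commutatorElement_def]; group
    rw [e1, hI]
    refine ⟨mul_mem hw (inv_mem h1), ?_⟩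
    have e2 : x.t * (w * (x.t * w * x.t⁻¹)⁻¹) * x.t⁻¹ = (x.t * w * x.t⁻¹) * ((x.t * x.t) * w * (x.t * x.t)⁻¹)⁻¹ := by group
    rw [e2, x.tt]; group
  -- `W = I Z`
  have hdec : ∀ {w}, w ∈ Wo E → ∃ a ∈ I, ∃ z ∈ Zo E, w = a * z := by
    intro w hw
    have h1 : x.t * w * x.t⁻¹ ∈ Wo E := conj_mem_of_le_normalizer x.Wn x.ht hw
    refine ⟨⁅w, x.t⁆⁻¹, inv_mem (hcomm hw), (w * (x.t * w * x.t⁻¹))⁻¹, inv_mem (x.t_W hw), ?_⟩
    have e1 : ⁅w, x.t⁆⁻¹ = (x.t * w * x.t⁻¹) * w⁻¹ := by rw [commutatorElement_def]; group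
    have h4 : (x.t * w * x.t⁻¹) * w⁻¹ = w⁻¹ * (x.t * w * x.t⁻¹) := by
      have := Wcomm (inv_mem hw) (WQ h1)
      exact this.symm
    rw [e1, mul_inv_rev, h4]
    have e2 : w⁻¹ * (x.t * w * x.t⁻¹) * ((x.t * w * x.t⁻¹)⁻¹ * w⁻¹) = w⁻¹ * w⁻¹ := by group
    rw [e2]
    have h5 := x.W3 hw
    calc w = w * (w * w * w)⁻¹ := by rw [h5]; simp
      _ = w⁻¹ * w⁻¹ := by group
  have hEI : ∀ e ∈ E, ∀ w ∈ I, e * w * e⁻¹ ∈ I := by
    intro e he w hw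
    obtain ⟨hw1, hw2⟩ := hI.mp hw
    obtain ⟨q, hq, hq'⟩ := x.conj_t (le_normalizer (inv_mem he))
    have h1 : e * w * e⁻¹ ∈ Wo E := conj_mem_of_le_normalizer x.Wn he hw1
    refine hI.mpr ⟨h1, ?_⟩
    have e1 : x.t * (e * w * e⁻¹) * x.t⁻¹ = e * ((e⁻¹ * x.t * e⁻¹⁻¹) * w * (e⁻¹ * x.t * e⁻¹⁻¹)⁻¹) * e⁻¹ := by group
    have e2 : x.t * q * w * (x.t * q)⁻¹ = x.t * (q * w * q⁻¹) * x.t⁻¹ := by group
    rw [e1, hq', e2, ← Wcomm hw1 hq, mul_inv_cancel_right, hw2]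
    group
  constructor
  · intro hw
    have h1 : WE 3 E ≤ I := by
      rw [commutator_le]
      intro a ha e he
      obtain ⟨b, hb, z, hz, rfl⟩ := hdec ha
      have hb1 : e * b⁻¹ * e⁻¹ ∈ I := hEI e he _ (inv_mem hb)
      have e1 : ⁅b * z, e⁆ = b * (z * (e * z⁻¹) * e⁻¹) * (e * b⁻¹ * e⁻¹) := by
        rw [commutatorElement_def]; group
      have e2 : e * z⁻¹ = z⁻¹ * e := (Zcomm (inv_mem hz) he).symm
      rw [e1, e2]
      have e3 : b * (z * (z⁻¹ * e) * e⁻¹) * (e * b⁻¹ * e⁻¹) = b * (e * b⁻¹ * e⁻¹) := by group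
      rw [e3]
      exact mul_mem hb hb1
    exact h1 hw
  · intro hw
    obtain ⟨hw1, hw2⟩ := hI.mp hw
    have h1 : ⁅w, x.t⁆ ∈ WE 3 E := commutator_mem_commutator hw1 x.ht
    have e1 : ⁅w, x.t⁆ = w * (x.t * w * x.t⁻¹)⁻¹ := by rw [commutatorElement_def]; group
    rw [e1, hw2, inv_inv] at h1
    have h5 := x.W3 hw1
    have e2 : w = (w * w)⁻¹ := by
      rw [eq_inv_iff_mul_eq_one, ← mul_assoc]; exact h5
    rw [e2]
    exact inv_mem h1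

/-- `W = W_E Z` -/
theorem W_dec {w : G} (hw : w ∈ Wo E) : ∃ a ∈ WE 3 E, ∃ z ∈ Zo E, w = a * z := by
  have h1 : x.t * w * x.t⁻¹ ∈ Wo E := conj_mem_of_le_normalizer x.Wn x.ht hw
  have h0 : ⁅w, x.t⁆ ∈ WE 3 E := commutator_mem_commutator hw x.ht
  refine ⟨⁅w, x.t⁆⁻¹, inv_mem h0, (w * (x.t * w * x.t⁻¹))⁻¹, inv_mem (x.t_W hw), ?_⟩
  have e1 : ⁅w, x.t⁆⁻¹ = (x.t * w * x.t⁻¹) * w⁻¹ := by rw [commutatorElement_def]; group
  have h4 : (x.t * w * x.t⁻¹) * w⁻¹ = w⁻¹ * (x.t * w * x.t⁻¹) := (Wcomm (inv_mem hw) (WQ h1)).symm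
  rw [e1, mul_inv_rev, h4]
  have e2 : w⁻¹ * (x.t * w * x.t⁻¹) * ((x.t * w * x.t⁻¹)⁻¹ * w⁻¹) = w⁻¹ * w⁻¹ := by group
  rw [e2]
  have h5 := x.W3 hw
  calc w = w * (w * w * w)⁻¹ := by rw [h5]; simp
    _ = w⁻¹ * w⁻¹ := by group

/-- `C_E(W_E) = Q` -/
theorem cen_E {e : G} (he : e ∈ E) (hc : e ∈ centralizer (WE 3 E : Set G)) : e ∈ Qo E := by
  apply x.kW e he
  refine x.sW.ρ_eq_one he fun w hw => ?_
  obtain ⟨a, ha, z, hz, rfl⟩ := x.W_dec hw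
  have h1 : a * e = e * a := mem_centralizer_iff.mp hc a ha
  have h2 := Zcomm hz he
  have : ⁅e, a * z⁆ = 1 := by
    rw [commutatorElement_eq_one_iff_mul_comm, ← mul_assoc, ← h1, mul_assoc, ← h2, mul_assoc]
  rw [this]; exact one_mem _

theorem Q_ne_W : Qo E ≠ Wo E := by
  intro h
  have h1 : ⁅Qo E, Qo E⁆ = ⊥ := by
    rw [commutator_eq_bot_iff_le_centralizer]
    nth_rewrite 2 [h]
    exact Qcen
  have := x.fin
  rw [x.QQ] at h1
  have h2 := x.cardZ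
  rw [h1, Subgroup.card_bot] at h2
  have h4 : 1 < Nat.card F := Finite.one_lt_card
  omega

theorem irrQ {X : Subgroup G} (h1 : Wo E ≤ X) (h2 : X ≤ Qo E) (h3 : E ≤ normalizer (X : Set G)) : X = Wo E ∨ X = Qo E := by
  rcases x.blk.alt with h | ⟨h, -⟩
  · exact absurd h x.Q_ne_W
  · exact h X h1 h2 h3

theorem Qp : IsPGroup 3 (Qo E) := isPGroup_pCoreOf 3 E

/-- `3`-groups acting on `Q / W` -/
theorem comm_Q {X : Subgroup G} (hX : IsPGroup 3 X) (hQ : X ≤ normalizer (Qo E : Set G)) (hW : X ≤ normalizer (Wo E : Set G))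
    (hE : ⁅X, E⁆ ≤ Qo E) : ⁅Qo E, X⁆ ≤ Wo E := by
  set R := Qo E ⊔ X with hR
  have hRp : IsPGroup 3 R := isPGroup_sup x.Qp hX hQ
  have hRW : R ≤ normalizer (Wo E : Set G) := sup_le (QE.trans x.Wn) hW
  have hRQ : R ≤ normalizer (Qo E : Set G) := sup_le le_normalizer hQ
  have hER : E ≤ normalizer (R : Set G) := by
    have key : ∀ e ∈ E, ∀ r ∈ R, e * r * e⁻¹ ∈ R := by
      intro e he r hr
      obtain ⟨q, hq, y, hy, rfl⟩ := exists_mul_of_mem_sup_of_le hQ hr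
      have e1 : e * (q * y) * e⁻¹ = (e * q * e⁻¹) * ⁅y, e⁆⁻¹ * y := by rw [commutatorElement_def]; group
      rw [e1]
      exact mul_mem (mul_mem ((le_sup_left : Qo E ≤ R) (conj_mem_of_le_normalizer x.Qn he hq))
        (inv_mem ((le_sup_left : Qo E ≤ R) (hE (commutator_mem_commutator hy he))))) ((le_sup_right : X ≤ R) hy)
    intro e he
    rw [mem_normalizer_iff]
    intro r
    refine ⟨key e he r, fun h => ?_⟩
    have := key e⁻¹ (inv_mem he) _ h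
    have e1 : e⁻¹ * (e * r * e⁻¹) * e⁻¹⁻¹ = r := by group
    rwa [e1] at this
  have h1 : ⁅Qo E, R⁆ ≤ Qo E := commutator_le_left_of_le hRQ
  rcases x.irrQ (X := ⁅Qo E, R⁆ ⊔ Wo E) le_sup_right (sup_le h1 WQ)
    (le_normalizer_sup (le_normalizer_commutator x.Qn hER) x.Wn) with h | h
  · exact (commutator_mono le_rfl le_sup_right).trans (le_sup_left.trans h.le)
  · exfalso
    apply x.Q_ne_W
    exact le_antisymm (le_of_comm_sup hRp le_sup_left (WQ.trans le_sup_left) hRW h.ge) WQ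

end Exc

end Cfsg.Agent.Lib.H56Bau
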