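import Cfsg.Agent.Lib.H56BauC

/-!
# S2985, part D: the map `Π : P → F²` (helper56)
-/

set_option autoImplicit false
set_option linter.unusedSectionVars false

namespace Cfsg.Agent.Lib.H56Bau

open Subgroup Cfsg Cfsg.Agent.Lib.LocBase Cfsg.Agent.Lib.PReduced Cfsg.Agent.Lib.BBlock
open Cfsg.Agent.Lib.BBlock.Blk (WE)
open scoped commutatorElement Matrix

universe u
variable {G : Type u} [Group G] [Finite G]

abbrev Po (G : Type u) [Group G] : Subgroup G := pCore 3 G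
abbrev Vo (G : Type u) [Group G] : Subgroup G := OZ 3 (pCore 3 G)
abbrev Yo (G : Type u) [Group G] : Subgroup G := centralizer (OZ 3 (pCore 3 G) : Set G)

theorem Vn (g : G) : g ∈ normalizer (Vo G : Set G) := normalizer_le_normalizer_OZ 3 _ (le_N_pCore (p := 3) ⊤ (mem_top g))

theorem Yn (g : G) : g ∈ normalizer (Yo G : Set G) :=
  le_normalizer_centralizer (K := ⊤) (fun g _ => Vn g) (mem_top g)

theorem Pn (g : G) : g ∈ normalizer (Po G : Set G) := le_N_pCore (p := 3) ⊤ (mem_top g)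

theorem conjP {g r : G} (hr : r ∈ Po G) : g * r * g⁻¹ ∈ Po G := (mem_normalizer_iff.mp (Pn g) _).mp hr
theorem conjY {g r : G} (hr : r ∈ Yo G) : g * r * g⁻¹ ∈ Yo G := (mem_normalizer_iff.mp (Yn g) _).mp hr
theorem conjV {g r : G} (hr : r ∈ Vo G) : g * r * g⁻¹ ∈ Vo G := (mem_normalizer_iff.mp (Vn g) _).mp hr

namespace Exc

variable {T E : Subgroup G} {F : Type} [Field F] (x : Exc T E F)
include x

theorem PN : Po G ≤ normalizer (E : Set G) := x.blk.pCore_le_N x.hG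

theorem QP : Qo E ≤ Po G := by
  rw [← x.big]; exact commutator_le_left_of_le (le_N_pCore E)

theorem Pp : IsPGroup 3 (Po G) := isPGroup_pCore 3 G

theorem QPW : ⁅Qo E, Po G⁆ ≤ Wo E :=
  x.comm_Q x.Pp (x.PN.trans NEQ) (x.PN.trans NEW) x.big.le

theorem PW : Po G ≤ centralizer (Wo E : Set G) := by
  have h1 : ⁅⁅Qo E, Qo E⁆, Po G⁆ ≤ ⊥ := by
    have hn : ∀ K : Subgroup G, K ≤ normalizer ((⊥ : Subgroup G) : Set G) := by
      intro K; rw [Subgroup.normalizer_eq_top_iff.mpr inferInstance]; exact le_top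
    have h2 : ⁅Wo E, Qo E⁆ ≤ ⊥ := by
      rw [le_bot_iff, commutator_eq_bot_iff_le_centralizer, Subgroup.le_centralizer_iff]
      exact Qcen
    refine PAct.three_subgroups (hn _) (hn _) (hn _) ((commutator_mono x.QPW le_rfl).trans h2) ?_
    rw [commutator_comm (Po G)]
    exact (commutator_mono x.QPW le_rfl).trans h2
  rw [x.QQ, le_bot_iff, commutator_eq_bot_iff_le_centralizer] at h1
  have h2 := pCore_le_C x.blk x.hG
  intro r hr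
  rw [mem_centralizer_iff]
  intro w hw
  obtain ⟨a, ha, z, hz, rfl⟩ := x.W_dec hw
  have h3 := mem_centralizer_iff.mp (h2 hr) a ha
  have h4 : r * z = z * r := mem_centralizer_iff.mp (h1 hz) r hr
  rw [mul_assoc, ← h4, ← mul_assoc, h3, mul_assoc]

theorem Pcomm {w r : G} (hw : w ∈ Wo E) (hr : r ∈ Po G) : w * r = r * w := mem_centralizer_iff.mp (x.PW hr) w hw

theorem WV : Wo E ≤ Vo G := by
  intro w hw
  rw [mem_OZ]
  refine ⟨x.QP (WQ hw), ?_, (mem_OZ.mp hw).2.2⟩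
  rw [mem_centralizer_iff]
  intro r hr
  exact (x.Pcomm hw hr).symm

theorem VQ : Vo G ⊓ Qo E ≤ Wo E := by
  rintro v ⟨hv, hq⟩
  replace hv := mem_OZ.mp (show v ∈ OZ 3 (pCore 3 G) from hv)
  rw [mem_OZ]
  exact ⟨hq, centralizer_le x.QP hv.2.1, hv.2.2⟩

theorem PY : Po G ≤ Yo G := le_centralizer_OZ _
theorem QY : Qo E ≤ Yo G := x.QP.trans x.PY

theorem Ycomm {w y : G} (hw : w ∈ Wo E) (hy : y ∈ Yo G) : w * y = y * w := mem_centralizer_iff.mp hy w (x.WV hw)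

theorem Yconj {w y : G} (hw : w ∈ Wo E) (hy : y ∈ Yo G) : y * w * y⁻¹ = w := by
  rw [← x.Ycomm hw hy]; group

/-- the map `Π` -/
def Pi (r : G) : Fin 2 → F := - x.sQ.ψ ⁅r, x.t⁆

theorem commt {r : G} (hr : r ∈ Po G) : ⁅r, x.t⁆ ∈ Qo E := by
  rw [← x.big]; exact commutator_mem_commutator hr x.ht

theorem comme {r e : G} (hr : r ∈ Po G) (he : e ∈ E) : ⁅e, r⁆ ∈ Qo E := by
  rw [← x.big, ← commutatorElement_inv]; exact inv_mem (commutator_mem_commutator hr he)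

theorem commQP {r q : G} (hr : r ∈ Po G) (hq : q ∈ Qo E) : ⁅r, q⁆ ∈ Wo E := by
  rw [← commutatorElement_inv]; exact inv_mem (x.QPW (commutator_mem_commutator hq hr))

theorem ψ_conjP {r q : G} (hr : r ∈ Po G) (hq : q ∈ Qo E) : x.sQ.ψ (r * q * r⁻¹) = x.sQ.ψ q := by
  have e1 : r * q * r⁻¹ = ⁅r, q⁆ * q := by rw [commutatorElement_def]; group
  rw [e1, x.sQ.ψ_mul _ (WQ (x.commQP hr hq)) _ hq, x.sQ.ψ_zero (x.commQP hr hq), zero_add]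

theorem three_smul (v : Fin 2 → F) : v + v + v = 0 := by
  have : v + v + v = (3 : F) • v := by
    ext i; simp; ring
  rw [this, x.h3, zero_smul]

theorem Pi_Q {u : G} (hu : u ∈ Qo E) : x.Pi u = x.sQ.ψ u := by
  have h1 : x.t * u * x.t⁻¹ ∈ Qo E := conj_mem_of_le_normalizer x.Qn x.ht hu
  have e1 : ⁅u, x.t⁆ = u * (x.t * u * x.t⁻¹)⁻¹ := by rw [commutatorElement_def]; group
  unfold Pi
  rw [e1, x.sQ.ψ_mul _ hu _ (inv_mem h1), x.sQ.ψ_inv h1, x.t_Q hu]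
  have := x.three_smul (x.sQ.ψ u)
  rw [neg_neg, eq_comm, ← sub_eq_zero, sub_neg_eq_add, ← add_assoc]
  exact this

theorem Pi_mul {r s : G} (hr : r ∈ Po G) (hs : s ∈ Po G) : x.Pi (r * s) = x.Pi r + x.Pi s := by
  unfold Pi
  rw [commutatorElement_mul_left_eq_conj_mul, x.sQ.ψ_mul _ _ _ (x.commt hr), x.ψ_conjP hr (x.commt hs), neg_add_rev]
  exact conj_mem_of_le_normalizer (x.PN.trans NEQ) hr (x.commt hs)

theorem Pi_one : x.Pi 1 = 0 := by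
  unfold Pi; rw [commutatorElement_one_left, x.sQ.ψ_one, neg_zero]

theorem Pi_inv {r : G} (hr : r ∈ Po G) : x.Pi r⁻¹ = - x.Pi r := by
  have := x.Pi_mul hr (inv_mem hr)
  rw [mul_inv_cancel, x.Pi_one] at this
  exact (neg_eq_of_add_eq_zero_right this.symm).symm

/-- `Π` and elements of `N(E)` -/
theorem Pi_N {n r : G} (hn : n ∈ normalizer (E : Set G)) (hr : r ∈ Po G) :
    x.Pi (n * r * n⁻¹) = - x.sQ.ψ (n * ⁅r, x.t⁆ * n⁻¹) := by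
  unfold Pi
  obtain ⟨q, hq, hq'⟩ := x.conj_t (inv_mem hn)
  have e1 : ⁅n * r * n⁻¹, x.t⁆ = n * ⁅r, n⁻¹ * x.t * n⁻¹⁻¹⁆ * n⁻¹ := by
    simp only [commutatorElement_def]; group
  have e2 : ⁅r, x.t * q⁆ = ⁅r, x.t⁆ * (x.t * ⁅r, q⁆ * x.t⁻¹) := by
    simp only [commutatorElement_def]; group
  have h1 : x.t * ⁅r, q⁆ * x.t⁻¹ ∈ Wo E := conj_mem_of_le_normalizer x.Wn x.ht (x.commQP hr hq)
  have h2 : n * (x.t * ⁅r, q⁆ * x.t⁻¹) * n⁻¹ ∈ Wo E := (mem_normalizer_iff.mp (NEW hn) _).mp h1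
  have h3 : n * ⁅r, x.t⁆ * n⁻¹ ∈ Qo E := (mem_normalizer_iff.mp (NEQ hn) _).mp (x.commt hr)
  have e3 : n * (⁅r, x.t⁆ * (x.t * ⁅r, q⁆ * x.t⁻¹)) * n⁻¹ = (n * ⁅r, x.t⁆ * n⁻¹) * (n * (x.t * ⁅r, q⁆ * x.t⁻¹) * n⁻¹) := by
    group
  rw [e1, hq', e2, e3, x.sQ.ψ_mul _ h3 _ (WQ h2), x.sQ.ψ_zero h2, add_zero]

theorem Pi_E {e r : G} (he : e ∈ E) (hr : r ∈ Po G) :
    x.Pi (e * r * e⁻¹) = (x.sQ.ρ e : Matrix (Fin 2) (Fin 2) F) *ᵥ x.Pi r := by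
  rw [x.Pi_N (le_normalizer he) hr, x.sQ.act e he _ (x.commt hr)]
  unfold Pi
  rw [Matrix.mulVec_neg]

/-- the kernel of `Π` -/
def K : Subgroup G where
  carrier := {m | m ∈ Po G ∧ x.Pi m = 0}
  mul_mem' := by
    rintro a b ⟨ha, ha'⟩ ⟨hb, hb'⟩
    exact ⟨mul_mem ha hb, by rw [x.Pi_mul ha hb, ha', hb', add_zero]⟩
  one_mem' := ⟨one_mem _, x.Pi_one⟩
  inv_mem' := by
    rintro a ⟨ha, ha'⟩
    exact ⟨inv_mem ha, by rw [x.Pi_inv ha, ha', neg_zero]⟩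

theorem mem_K {m : G} : m ∈ x.K ↔ m ∈ Po G ∧ x.Pi m = 0 := Iff.rfl

theorem K_conj {n m : G} (hn : n ∈ normalizer (E : Set G)) (hm : m ∈ x.K) : n * m * n⁻¹ ∈ x.K := by
  obtain ⟨h1, h2⟩ := x.mem_K.mp hm
  refine x.mem_K.mpr ⟨conjP h1, ?_⟩
  rw [x.Pi_N hn h1]
  unfold Pi at h2
  have h3 : ⁅m, x.t⁆ ∈ Wo E := by
    rw [← x.sQ.ψ_ker _ (x.commt h1)]
    exact neg_eq_zero.mp h2
  rw [x.sQ.ψ_zero ((mem_normalizer_iff.mp (NEW hn) _).mp h3), neg_zero]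

theorem KQ {m : G} (hm : m ∈ x.K) (hq : m ∈ Qo E) : m ∈ Wo E := by
  rw [← x.sQ.ψ_ker m hq, ← x.Pi_Q hq]; exact hm.2

theorem K_comm {m e : G} (hm : m ∈ x.K) (he : e ∈ E) : ⁅e, m⁆ ∈ Wo E := by
  refine x.KQ ?_ (x.comme hm.1 he)
  rw [commutatorElement_def]
  exact mul_mem (x.K_conj (le_normalizer he) hm) (inv_mem hm)

theorem P_dec {r : G} (hr : r ∈ Po G) : ∃ q ∈ Qo E, ∃ m ∈ x.K, r = q * m := by
  obtain ⟨q, hq, hq'⟩ := x.sQ.ψ_surj (x.Pi r)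
  refine ⟨q, hq, q⁻¹ * r, x.mem_K.mpr ⟨mul_mem (inv_mem (x.QP hq)) hr, ?_⟩, by group⟩
  rw [x.Pi_mul (inv_mem (x.QP hq)) hr, x.Pi_inv (x.QP hq), x.Pi_Q hq, hq', neg_add_cancel]

/-- `W ≤ K` -/
theorem WK : Wo E ≤ x.K := fun w hw => x.mem_K.mpr ⟨x.QP (WQ hw), by rw [x.Pi_Q (WQ hw), x.sQ.ψ_zero hw]⟩

end Exc

end Cfsg.Agent.Lib.H56Bau
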