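import Cfsg.Agent.Lib.H56BauD

/-!
# S2985, part E: the form, and the matrices `C(y)` (helper56)
-/

set_option autoImplicit false
set_option linter.unusedSectionVars false

namespace Cfsg.Agent.Lib.H56Bau

open Subgroup Cfsg Cfsg.Agent.Lib.LocBase Cfsg.Agent.Lib.PReduced Cfsg.Agent.Lib.BBlock
open Cfsg.Agent.Lib.BBlock.Blk (WE)
open scoped commutatorElement Matrix

section SLfacts

variable {F : Type*} [Field F]

theorem up_mul (a b : F) : up a * up b = up (a + b) := by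
  apply Subtype.ext
  change !![1, a; 0, 1] * !![1, b; 0, 1] = !![1, a + b; 0, 1]
  ext i j
  fin_cases i <;> fin_cases j <;> simp [Matrix.mul_apply, Fin.sum_univ_two, add_comm]

/-- all root elements lie in the derived group, or the field has three elements -/
theorem dich : (∀ c : F, up c ∈ commutator (SL2 F) ∧ lo c ∈ commutator (SL2 F)) ∨ (∀ t : F, t ≠ 0 → t ^ 2 = 1) := by
  by_cases h : ∃ t : F, t ≠ 0 ∧ t ^ 2 ≠ 1
  · obtain ⟨t, ht, ht2⟩ := h
    left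
    intro b
    constructor
    · have h1 : t ^ 2 - 1 ≠ 0 := sub_ne_zero.mpr ht2
      have h2 : up b = ⁅dg t ht, up ((t ^ 2 - 1)⁻¹ * b)⁆ := by
        rw [up_comm]; congr 1; field_simp
      rw [h2]
      exact commutator_mem_commutator (mem_top _) (mem_top _)
    · have h1 : t⁻¹ ^ 2 - 1 ≠ 0 := by
        rw [sub_ne_zero, inv_pow]
        intro h
        apply ht2
        exact inv_eq_one.mp h
      have h2 : lo b = ⁅dg t ht, lo ((t⁻¹ ^ 2 - 1)⁻¹ * b)⁆ := by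
        rw [lo_comm, ← mul_assoc, mul_inv_cancel₀ h1, one_mul]
      rw [h2]
      exact commutator_mem_commutator (mem_top _) (mem_top _)
  · right
    push Not at h
    exact h

def wS (c : F) (hc : c ≠ 0) : SL2 F := ⟨!![0, c; -c⁻¹, 0], by simp [Matrix.det_fin_two, hc]⟩

theorem wS_mem (h3 : (3 : F) = 0) (c : F) (hc : c ≠ 0) : wS c hc ∈ commutator (SL2 F) := by
  rcases dich (F := F) with h | h
  · have h1 : wS c hc = up c * lo (-c⁻¹) * up c := by
      apply Subtype.ext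
      change !![0, c; -c⁻¹, 0] = !![1, c; 0, 1] * !![1, 0; -c⁻¹, 1] * !![1, c; 0, 1]
      ext i j
      fin_cases i <;> fin_cases j <;> simp [Matrix.mul_apply, Fin.sum_univ_two, hc]
    rw [h1]
    exact mul_mem (mul_mem (h c).1 (h _).2) (h c).1
  · have h0 : ⁅up (1 : F), lo (1 : F)⁆ ∈ commutator (SL2 F) := commutator_mem_commutator (mem_top _) (mem_top _)
    have hc2 := h c hc
    have h1 : (c - 1) * (c + 1) = 0 := by linear_combination hc2
    rcases mul_eq_zero.mp h1 with h4 | h4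
    · have h5 : c = 1 := sub_eq_zero.mp h4
      subst h5
      have h6 : wS 1 hc = ⁅up (1 : F), lo (1 : F)⁆⁻¹ := by
        rw [eq_inv_iff_mul_eq_one]
        apply Subtype.ext
        change !![0, 1; -1⁻¹, 0] * (⁅up (1 : F), lo (1 : F)⁆ : SL2 F).1 = 1
        rw [cc_eq]
        ext i j
        fin_cases i <;> fin_cases j <;> simp [Matrix.mul_apply, Fin.sum_univ_two, h3]
      rw [h6]; exact inv_mem h0
    · have h5 : c = -1 := eq_neg_of_add_eq_zero_left h4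
      subst h5
      have h6 : wS (-1) hc = ⁅up (1 : F), lo (1 : F)⁆ := by
        apply Subtype.ext
        rw [cc_eq]
        change !![0, -1; -(-1)⁻¹, 0] = _
        ext i j
        fin_cases i <;> fin_cases j <;> simp [h3, inv_neg]
      rw [h6]; exact h0

end SLfacts

def dt {F : Type*} [Field F] (a b : Fin 2 → F) : F := a 0 * b 1 - a 1 * b 0

universe u
variable {G : Type u} [Group G] [Finite G]

namespace Exc

variable {T E : Subgroup G} {F : Type} [Field F] (x : Exc T E F)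

noncomputable def lift (v : Fin 2 → F) : G := (x.sQ.ψ_surj v).choose

theorem lift_mem (v : Fin 2 → F) : x.lift v ∈ Qo E := (x.sQ.ψ_surj v).choose_spec.1
theorem ψ_lift (v : Fin 2 → F) : x.sQ.ψ (x.lift v) = v := (x.sQ.ψ_surj v).choose_spec.2

noncomputable def frm (a b : Fin 2 → F) : G := ⁅x.lift a, x.lift b⁆

theorem frm_eq {u v : G} (hu : u ∈ Qo E) (hv : v ∈ Qo E) : ⁅u, v⁆ = x.frm (x.sQ.ψ u) (x.sQ.ψ v) := by
  set u' := x.lift (x.sQ.ψ u) with hu'
  set v' := x.lift (x.sQ.ψ v) with hv'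
  have h1 : u'⁻¹ * u ∈ Wo E := (x.sQ.ψ_eq (x.lift_mem _) hu).mp (x.ψ_lift _)
  have h2 : v'⁻¹ * v ∈ Wo E := (x.sQ.ψ_eq (x.lift_mem _) hv).mp (x.ψ_lift _)
  have hu'm : u' ∈ Qo E := x.lift_mem _
  have hv'm : v' ∈ Qo E := x.lift_mem _
  have key : ∀ a b w : G, a ∈ Qo E → b ∈ Qo E → w ∈ Wo E → ⁅a * w, b⁆ = ⁅a, b⁆ := by
    intro a b w ha hb hw
    have : ⁅w, b⁆ = 1 := by rw [commutatorElement_eq_one_iff_mul_comm]; exact Wcomm hw hb
    rw [commutatorElement_mul_left_eq_conj_mul, this]; group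
  have e1 : u = u' * (u'⁻¹ * u) := by group
  have e2 : v = v' * (v'⁻¹ * v) := by group
  rw [e1, key _ _ _ hu'm hv h1, ← commutatorElement_inv, e2, key _ _ _ hv'm hu'm h2, commutatorElement_inv]
  rw [← e1, ← e2]
  rfl

theorem frm_mem (a b : Fin 2 → F) : x.frm a b ∈ Zo E := x.Qcomm (x.lift_mem _) (x.lift_mem _)

theorem frm_inv (a b : Fin 2 → F) : (x.frm a b)⁻¹ = x.frm b a := commutatorElement_inv _ _

theorem frm_add (a b c : Fin 2 → F) : x.frm (a + b) c = x.frm a c * x.frm b c := by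
  have h1 := x.frm_eq (mul_mem (x.lift_mem a) (x.lift_mem b)) (x.lift_mem c)
  rw [x.sQ.ψ_mul _ (x.lift_mem a) _ (x.lift_mem b), x.ψ_lift, x.ψ_lift, x.ψ_lift] at h1
  rw [← h1, commutatorElement_mul_left_eq_conj_mul]
  have h2 : x.lift a * ⁅x.lift b, x.lift c⁆ * (x.lift a)⁻¹ = ⁅x.lift b, x.lift c⁆ := by
    have := Zcomm (x.frm_mem b c) (QE (x.lift_mem a))
    unfold frm at this
    rw [← this]; group
  rw [h2]
  exact Zcomm (x.frm_mem b c) (QE (WQ (ZW (x.frm_mem a c))))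

theorem frm_add' (a b c : Fin 2 → F) : x.frm c (a + b) = x.frm c a * x.frm c b := by
  rw [← x.frm_inv, frm_add, mul_inv_rev, x.frm_inv, x.frm_inv]
  exact Zcomm (x.frm_mem c b) (QE (WQ (ZW (x.frm_mem c a))))

theorem frm_zero (c : Fin 2 → F) : x.frm 0 c = 1 := by
  have := x.frm_add 0 0 c
  rw [add_zero] at this
  exact left_eq_mul.mp this

theorem frm_zero' (c : Fin 2 → F) : x.frm c 0 = 1 := by
  rw [← x.frm_inv, x.frm_zero, inv_one]

theorem frm_neg (a c : Fin 2 → F) : x.frm (-a) c = (x.frm a c)⁻¹ := by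
  have := x.frm_add a (-a) c
  rw [add_neg_cancel, x.frm_zero] at this
  exact (inv_eq_of_mul_eq_one_right this.symm).symm

theorem frm_neg' (a c : Fin 2 → F) : x.frm c (-a) = (x.frm c a)⁻¹ := by
  rw [← x.frm_inv, x.frm_neg, x.frm_inv, x.frm_inv]

theorem frm_self (a : Fin 2 → F) : x.frm a a = 1 := commutatorElement_self _

theorem frm_act {r : SL2 F} (hr : r ∈ commutator (SL2 F)) (a b : Fin 2 → F) :
    x.frm ((r : Matrix (Fin 2) (Fin 2) F) *ᵥ a) ((r : Matrix (Fin 2) (Fin 2) F) *ᵥ b) = x.frm a b := by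
  obtain ⟨e, he, rfl⟩ := x.sQ.ρ_surj r hr
  have h1 := x.frm_eq (conj_mem_of_le_normalizer x.Qn he (x.lift_mem a)) (conj_mem_of_le_normalizer x.Qn he (x.lift_mem b))
  rw [x.sQ.act e he _ (x.lift_mem a), x.sQ.act e he _ (x.lift_mem b), x.ψ_lift, x.ψ_lift] at h1
  rw [← h1]
  have h2 : ⁅e * x.lift a * e⁻¹, e * x.lift b * e⁻¹⁆ = e * x.frm a b * e⁻¹ := by
    unfold frm; simp only [commutatorElement_def]; group
  rw [h2, ← Zcomm (x.frm_mem a b) he]; group

theorem frm_i (a b : F) : x.frm ![a, 0] ![0, b] = x.frm ![1, 0] ![0, a * b] := by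
  by_cases hb : b = 0
  · have e1 : (![0, b] : Fin 2 → F) = 0 := by ext i; fin_cases i <;> simp [hb]
    have e2 : (![0, a * b] : Fin 2 → F) = 0 := by ext i; fin_cases i <;> simp [hb]
    rw [e1, e2, x.frm_zero', x.frm_zero']
  · have hb' : b⁻¹ ≠ 0 := inv_ne_zero hb
    rw [← x.frm_act (wS_mem x.h3 _ hb')]
    have e1 : ((wS b⁻¹ hb' : SL2 F) : Matrix (Fin 2) (Fin 2) F) *ᵥ ![a, 0] = -![0, a * b] := by
      change !![0, b⁻¹; -b⁻¹⁻¹, 0] *ᵥ ![a, 0] = _
      ext i; fin_cases i <;> simp [mul_comm]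
    have e2 : ((wS b⁻¹ hb' : SL2 F) : Matrix (Fin 2) (Fin 2) F) *ᵥ ![0, b] = ![1, 0] := by
      change !![0, b⁻¹; -b⁻¹⁻¹, 0] *ᵥ ![0, b] = _
      ext i; fin_cases i <;> simp [hb]
    rw [e1, e2, x.frm_neg, x.frm_inv]

theorem frm_1 (a b : F) : x.frm ![a, 0] ![b, 0] = 1 := by
  rcases dich (F := F) with h | h
  · have h1 := x.frm_act (h b).1 ![a, 0] ![0, 1]
    have e1 : ((up b : SL2 F) : Matrix (Fin 2) (Fin 2) F) *ᵥ ![a, 0] = ![a, 0] := by
      change !![1, b; 0, 1] *ᵥ ![a, 0] = _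
      ext i; fin_cases i <;> simp
    have e2 : ((up b : SL2 F) : Matrix (Fin 2) (Fin 2) F) *ᵥ ![0, 1] = ![0, 1] + ![b, 0] := by
      change !![1, b; 0, 1] *ᵥ ![0, 1] = _
      ext i; fin_cases i <;> simp
    rw [e1, e2, x.frm_add'] at h1
    exact mul_eq_left.mp h1
  · by_cases ha : a = 0
    · have e1 : (![a, 0] : Fin 2 → F) = 0 := by ext i; fin_cases i <;> simp [ha]
      rw [e1, x.frm_zero]
    by_cases hb : b = 0
    · have e1 : (![b, 0] : Fin 2 → F) = 0 := by ext i; fin_cases i <;> simp [hb]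
      rw [e1, x.frm_zero']
    have h1 : (a - b) * (a + b) = 0 := by
      have h2 := h a ha
      have h3 := h b hb
      linear_combination h2 - h3
    rcases mul_eq_zero.mp h1 with h4 | h4
    · rw [sub_eq_zero.mp h4, x.frm_self]
    · rw [eq_neg_of_add_eq_zero_left h4]
      have e1 : (![-b, 0] : Fin 2 → F) = -![b, 0] := by ext i; fin_cases i <;> simp
      rw [e1, x.frm_neg, x.frm_self, inv_one]

theorem frm_2 (a b : F) : x.frm ![0, a] ![0, b] = 1 := by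
  rw [← x.frm_act (wS_mem x.h3 1 one_ne_zero)]
  have e1 : ∀ c : F, ((wS 1 one_ne_zero : SL2 F) : Matrix (Fin 2) (Fin 2) F) *ᵥ ![0, c] = ![c, 0] := by
    intro c
    change !![0, 1; -1⁻¹, 0] *ᵥ ![0, c] = _
    ext i; fin_cases i <;> simp
  rw [e1, e1, x.frm_1]

noncomputable def gf (c : F) : G := x.frm ![1, 0] ![0, c]

theorem gf_mem (c : F) : x.gf c ∈ Zo E := x.frm_mem _ _

theorem gf_add (a b : F) : x.gf (a + b) = x.gf a * x.gf b := by
  unfold gf
  rw [← x.frm_add']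
  congr 1
  ext i; fin_cases i <;> simp

theorem gf_neg (a : F) : x.gf (-a) = (x.gf a)⁻¹ := by
  unfold gf
  rw [← x.frm_neg']
  congr 1
  ext i; fin_cases i <;> simp

theorem gf_zero : x.gf 0 = 1 := by
  have := x.gf_add 0 0
  rw [add_zero] at this
  exact left_eq_mul.mp this

theorem frm_det (a b : Fin 2 → F) : x.frm a b = x.gf (dt a b) := by
  have ea : a = ![a 0, 0] + ![0, a 1] := by ext i; fin_cases i <;> simp
  have eb : b = ![b 0, 0] + ![0, b 1] := by ext i; fin_cases i <;> simp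
  have h1 : x.frm a b = x.frm (![a 0, 0] + ![0, a 1]) (![b 0, 0] + ![0, b 1]) := by rw [← ea, ← eb]
  rw [h1, x.frm_add, x.frm_add', x.frm_add', x.frm_1, x.frm_2, x.frm_i (a 0) (b 1), ← x.frm_inv ![b 0, 0] ![0, a 1],
    x.frm_i (b 0) (a 1)]
  unfold dt
  rw [sub_eq_add_neg, x.gf_add, x.gf_neg, one_mul, mul_one, mul_comm (b 0)]
  rfl

theorem comm_det {u v : G} (hu : u ∈ Qo E) (hv : v ∈ Qo E) : ⁅u, v⁆ = x.gf (dt (x.sQ.ψ u) (x.sQ.ψ v)) := by
  rw [x.frm_eq hu hv, x.frm_det]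

theorem gf_surj {z : G} (hz : z ∈ Zo E) : ∃ c, x.gf c = z := by
  let R : Subgroup G :=
    { carrier := Set.range x.gf
      mul_mem' := by
        rintro _ _ ⟨a, rfl⟩ ⟨b, rfl⟩
        exact ⟨a + b, x.gf_add a b⟩
      one_mem' := ⟨0, x.gf_zero⟩
      inv_mem' := by
        rintro _ ⟨a, rfl⟩
        exact ⟨-a, x.gf_neg a⟩ }
  rw [← x.QQ] at hz
  have : ⁅Qo E, Qo E⁆ ≤ R := by
    rw [commutator_le]
    intro u hu v hv
    exact ⟨_, (x.comm_det hu hv).symm⟩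
  exact this hz

theorem gf_inj : Function.Injective x.gf := by
  have := x.fin
  let f : F → ↥(Zo E) := fun c => ⟨x.gf c, x.gf_mem c⟩
  have hf : Function.Surjective f := by
    rintro ⟨z, hz⟩
    obtain ⟨c, rfl⟩ := x.gf_surj hz
    exact ⟨c, rfl⟩
  have h1 : Function.Bijective f := (Nat.bijective_iff_surjective_and_card f).mpr ⟨hf, x.cardZ.symm⟩
  intro a b hab
  exact h1.1 (Subtype.ext hab)

noncomputable def lam : G → F := Function.invFun x.gf

theorem lam_gf (c : F) : x.lam (x.gf c) = c := Function.leftInverse_invFun x.gf_inj c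

theorem gf_lam {z : G} (hz : z ∈ Zo E) : x.gf (x.lam z) = z := by
  obtain ⟨c, rfl⟩ := x.gf_surj hz
  rw [x.lam_gf]

theorem lam_mul {z z' : G} (hz : z ∈ Zo E) (hz' : z' ∈ Zo E) : x.lam (z * z') = x.lam z + x.lam z' := by
  apply x.gf_inj
  rw [x.gf_add, x.gf_lam hz, x.gf_lam hz', x.gf_lam (mul_mem hz hz')]

theorem lam_one : x.lam 1 = 0 := by
  rw [← x.gf_zero, x.lam_gf]

/-- the form on `W` -/
noncomputable def kap (w : G) : F := - x.lam (w * (x.t * w * x.t⁻¹))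

theorem kap_mul {w w' : G} (hw : w ∈ Wo E) (hw' : w' ∈ Wo E) : x.kap (w * w') = x.kap w + x.kap w' := by
  unfold kap
  have h1 : x.t * w * x.t⁻¹ ∈ Wo E := conj_mem_of_le_normalizer x.Wn x.ht hw
  have e1 : w * w' * (x.t * (w * w') * x.t⁻¹) = (w * (x.t * w * x.t⁻¹)) * (w' * (x.t * w' * x.t⁻¹)) := by
    have h2 := Wcomm hw' (WQ h1)
    calc w * w' * (x.t * (w * w') * x.t⁻¹) = w * (w' * (x.t * w * x.t⁻¹)) * (x.t * w' * x.t⁻¹) := by group
      _ = w * ((x.t * w * x.t⁻¹) * w') * (x.t * w' * x.t⁻¹) := by rw [h2]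
      _ = _ := by group
  rw [e1, x.lam_mul (x.t_W hw) (x.t_W hw')]
  ring

theorem kap_Z {z : G} (hz : z ∈ Zo E) : x.kap z = x.lam z := by
  unfold kap
  have e1 : x.t * z * x.t⁻¹ = z := by rw [← Zcomm hz x.ht]; group
  rw [e1, x.lam_mul hz hz]
  linear_combination (-x.lam z) * x.h3

theorem kap_one : x.kap 1 = 0 := by
  rw [x.kap_Z (one_mem _), x.lam_one]

theorem kap_inv {w : G} (hw : w ∈ Wo E) : x.kap w⁻¹ = - x.kap w := by
  have := x.kap_mul hw (inv_mem hw)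
  rw [mul_inv_cancel, x.kap_one] at this
  exact (neg_eq_of_add_eq_zero_right this.symm).symm

/-- the main formula for the form -/
theorem kap_comm {r v : G} (hr : r ∈ Po G) (hv : v ∈ Qo E) : x.kap ⁅r, v⁆ = dt (x.Pi r) (x.sQ.ψ v) := by
  obtain ⟨q, hq, m, hm, rfl⟩ := x.P_dec hr
  have hmP := hm.1
  have h1 : ⁅m, v⁆ ∈ Wo E := x.commQP hmP hv
  have e1 : q * ⁅m, v⁆ * q⁻¹ = ⁅m, v⁆ := by rw [← Wcomm h1 hq]; group
  rw [commutatorElement_mul_left_eq_conj_mul, e1, x.kap_mul h1 (ZW (x.Qcomm hq hv)), x.Pi_mul (x.QP hq) hmP, hm.2, add_zero,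
    x.Pi_Q hq, x.kap_Z (x.Qcomm hq hv), x.comm_det hq hv, x.lam_gf, add_eq_right]
  -- `⁅m, v⁆` is inverted by `t`
  have h2 : x.t * ⁅m, v⁆ * x.t⁻¹ = ⁅m, v⁆⁻¹ := by
    have h3 : ⁅x.t, m⁆ ∈ Wo E := x.K_comm hm x.ht
    have h4 : v * (x.t * v * x.t⁻¹) ∈ Wo E := by
      have h5 : x.t * v * x.t⁻¹ ∈ Qo E := conj_mem_of_le_normalizer x.Qn x.ht hv
      rw [← x.sQ.ψ_ker _ (mul_mem hv h5), x.sQ.ψ_mul _ hv _ h5, x.t_Q hv, add_neg_cancel]
    have e2 : x.t * ⁅m, v⁆ * x.t⁻¹ = ⁅⁅x.t, m⁆ * m, v⁻¹ * (v * (x.t * v * x.t⁻¹))⁆ := by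
      simp only [commutatorElement_def]; group
    rw [e2]
    set w := ⁅x.t, m⁆
    set w' := v * (x.t * v * x.t⁻¹)
    have c1 : ∀ a b : G, a ∈ Po G → b ∈ Po G → ∀ w ∈ Wo E, ⁅w * a, b⁆ = ⁅a, b⁆ := by
      intro a b ha hb w hw
      have e3 : ⁅w * a, b⁆ = w * ⁅a, b⁆ * w⁻¹ * ⁅w, b⁆ := by rw [commutatorElement_mul_left_eq_conj_mul]
      have e4 : ⁅w, b⁆ = 1 := by rw [commutatorElement_eq_one_iff_mul_comm]; exact x.Pcomm hw hb
      have e5 : w * ⁅a, b⁆ = ⁅a, b⁆ * w := x.Pcomm hw (by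
        rw [commutatorElement_def]
        exact mul_mem (mul_mem (mul_mem ha hb) (inv_mem ha)) (inv_mem hb))
      rw [e3, e4, e5]; group
    have hvP : v⁻¹ ∈ Po G := inv_mem (x.QP hv)
    rw [c1 m _ hmP (mul_mem hvP (x.QP (WQ h4))) w h3, ← commutatorElement_inv, x.Pcomm h4 hvP |>.symm,
      c1 _ _ hvP hmP w' h4, commutatorElement_inv]
    have e6 : ⁅m, v⁻¹⁆ = v⁻¹ * ⁅m, v⁆⁻¹ * v := by simp only [commutatorElement_def]; group
    have h6 := Wcomm (inv_mem h1) hv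
    rw [e6, mul_assoc, h6]; group
  unfold kap
  rw [h2, mul_inv_cancel, x.lam_one, neg_zero]

end Exc

end Cfsg.Agent.Lib.H56Bau
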