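import Cfsg.Agent.Lib.H56BauE

/-!
# S2985, part F: the matrices `C(y)` (helper56)
-/

set_option autoImplicit false
set_option linter.unusedSectionVars false

namespace Cfsg.Agent.Lib.H56Bau

open Subgroup Cfsg Cfsg.Agent.Lib.LocBase Cfsg.Agent.Lib.PReduced Cfsg.Agent.Lib.BBlock
open Cfsg.Agent.Lib.BBlock.Blk (WE)
open scoped commutatorElement Matrix

universe u
variable {G : Type u} [Group G] [Finite G]

namespace Exc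

variable {T E : Subgroup G} {F : Type} [Field F] (x : Exc T E F)

theorem adj_rel {y u v : G} (hy : y ∈ Yo G) (hu : u ∈ Qo E) (hv : v ∈ Qo E) :
    dt (x.Pi (y * u * y⁻¹)) (x.sQ.ψ v) = dt (x.sQ.ψ u) (x.Pi (y⁻¹ * v * y⁻¹⁻¹)) := by
  have h1 : ⁅y⁻¹ * v * y⁻¹⁻¹, u⁆ ∈ Wo E := x.commQP (conjP (x.QP hv)) hu
  have e1 : ⁅y * u * y⁻¹, v⁆ = ⁅y⁻¹ * v * y⁻¹⁻¹, u⁆⁻¹ := by
    have e2 : ⁅y * u * y⁻¹, v⁆ = y * ⁅y⁻¹ * v * y⁻¹⁻¹, u⁆⁻¹ * y⁻¹ := by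
      simp only [commutatorElement_def]; group
    rw [e2, x.Yconj (inv_mem h1) hy]
  rw [← x.kap_comm (conjP (x.QP hu)) hv, e1, x.kap_inv h1, x.kap_comm (conjP (x.QP hv)) hu]
  unfold dt; ring

noncomputable def Cm (y : G) : Matrix (Fin 2) (Fin 2) F :=
  !![x.Pi (y * x.lift ![1, 0] * y⁻¹) 0, x.Pi (y * x.lift ![0, 1] * y⁻¹) 0;
     x.Pi (y * x.lift ![1, 0] * y⁻¹) 1, x.Pi (y * x.lift ![0, 1] * y⁻¹) 1]

theorem Pi_formula {y u : G} (hy : y ∈ Yo G) (hu : u ∈ Qo E) :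
    x.Pi (y * u * y⁻¹) 0 = x.sQ.ψ u 0 * x.Pi (y⁻¹ * x.lift ![0, 1] * y⁻¹⁻¹) 1 -
      x.sQ.ψ u 1 * x.Pi (y⁻¹ * x.lift ![0, 1] * y⁻¹⁻¹) 0 ∧
    x.Pi (y * u * y⁻¹) 1 = - (x.sQ.ψ u 0 * x.Pi (y⁻¹ * x.lift ![1, 0] * y⁻¹⁻¹) 1) +
      x.sQ.ψ u 1 * x.Pi (y⁻¹ * x.lift ![1, 0] * y⁻¹⁻¹) 0 := by
  have h1 := x.adj_rel hy hu (x.lift_mem ![1, 0])
  have h2 := x.adj_rel hy hu (x.lift_mem ![0, 1])
  rw [x.ψ_lift] at h1 h2
  unfold dt at h1 h2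
  simp only [Fin.isValue, Matrix.cons_val_zero, Matrix.cons_val_one] at h1 h2
  constructor
  · linear_combination h2
  · linear_combination -h1

theorem Cm_adj {y : G} (hy : y ∈ Yo G) : x.Cm y = (x.Cm y⁻¹).adjugate := by
  have h1 := x.Pi_formula hy (x.lift_mem ![1, 0])
  have h2 := x.Pi_formula hy (x.lift_mem ![0, 1])
  rw [x.ψ_lift] at h1 h2
  simp only [Fin.isValue, Matrix.cons_val_zero, Matrix.cons_val_one, one_mul, zero_mul, sub_zero, zero_sub, add_zero,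
    neg_zero, zero_add] at h1 h2
  unfold Cm
  rw [Matrix.adjugate_fin_two_of, h1.1, h1.2, h2.1, h2.2]

theorem Cm_spec {y u : G} (hy : y ∈ Yo G) (hu : u ∈ Qo E) : x.Pi (y * u * y⁻¹) = x.Cm y *ᵥ x.sQ.ψ u := by
  have h0 := x.Pi_formula hy hu
  rw [x.Cm_adj hy]
  unfold Cm
  rw [Matrix.adjugate_fin_two_of]
  ext i
  fin_cases i
  · simp only [Fin.zero_eta, Fin.isValue, Matrix.mulVec, dotProduct, Fin.sum_univ_two]
    rw [h0.1]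
    simp
    ring
  · simp only [Fin.mk_one, Fin.isValue, Matrix.mulVec, dotProduct, Fin.sum_univ_two]
    rw [h0.2]
    simp
    ring

theorem Cm_ext {y : G} {M : Matrix (Fin 2) (Fin 2) F} (h : ∀ u ∈ Qo E, x.Pi (y * u * y⁻¹) = M *ᵥ x.sQ.ψ u) : x.Cm y = M := by
  unfold Cm
  rw [h _ (x.lift_mem _), h _ (x.lift_mem _), x.ψ_lift, x.ψ_lift]
  ext i j
  fin_cases i <;> fin_cases j <;> simp [Matrix.mulVec, dotProduct, Fin.sum_univ_two]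

theorem Cm_P {r : G} (hr : r ∈ Po G) : x.Cm r = 1 := by
  apply x.Cm_ext
  intro u hu
  have h1 : r * u * r⁻¹ ∈ Qo E := conj_mem_of_le_normalizer (x.PN.trans NEQ) hr hu
  rw [x.Pi_Q h1, x.ψ_conjP hr hu, Matrix.one_mulVec]

theorem Cm_Q {q : G} (hq : q ∈ Qo E) : x.Cm q = 1 := x.Cm_P (x.QP hq)
theorem Cm_one : x.Cm 1 = 1 := x.Cm_P (one_mem _)

/-- the main functional equation -/
theorem Cm_F {k l s : G} (hk : k ∈ Yo G) (hl : l ∈ Yo G) (hs : s ∈ E) :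
    x.Cm (k * (s * l * s⁻¹)) = (x.Cm (k * l) + x.Cm k * ((x.sQ.ρ s : Matrix (Fin 2) (Fin 2) F) - 1) * x.Cm l) *
      (x.sQ.ρ s⁻¹ : Matrix (Fin 2) (Fin 2) F) := by
  apply x.Cm_ext
  intro u hu
  set v := s⁻¹ * u * s⁻¹⁻¹ with hv
  have hvQ : v ∈ Qo E := conj_mem_of_le_normalizer x.Qn (inv_mem hs) hu
  have hψ : x.sQ.ψ v = (x.sQ.ρ s⁻¹ : Matrix (Fin 2) (Fin 2) F) *ᵥ x.sQ.ψ u := x.sQ.act _ (inv_mem hs) _ hu
  set r := l * v * l⁻¹ with hr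
  have hrP : r ∈ Po G := conjP (x.QP hvQ)
  have hsr : ⁅s, r⁆ ∈ Qo E := x.comme hrP hs
  have e1 : k * (s * l * s⁻¹) * u * (k * (s * l * s⁻¹))⁻¹ = (k * ⁅s, r⁆ * k⁻¹) * (k * r * k⁻¹) := by
    rw [hr, hv]; simp only [commutatorElement_def]; group
  have e2 : k * r * k⁻¹ = (k * l) * v * (k * l)⁻¹ := by rw [hr]; group
  have e3 : x.sQ.ψ ⁅s, r⁆ = ((x.sQ.ρ s : Matrix (Fin 2) (Fin 2) F) - 1) *ᵥ (x.Cm l *ᵥ x.sQ.ψ v) := by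
    rw [← x.Cm_spec hl hvQ, ← x.Pi_Q hsr, commutatorElement_def, x.Pi_mul (conjP hrP) (inv_mem hrP), x.Pi_E hs hrP,
      x.Pi_inv hrP, Matrix.sub_mulVec, Matrix.one_mulVec, sub_eq_add_neg]
  rw [e1, x.Pi_mul (conjP (x.QP hsr)) (conjP hrP), e2, x.Cm_spec hk hsr, x.Cm_spec (mul_mem hk hl) hvQ, e3, hψ]
  simp only [Matrix.mulVec_mulVec, ← Matrix.add_mulVec, Matrix.add_mul, Matrix.mul_assoc]
  congr 1
  rw [add_comm]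

theorem Cm_one_iff {y : G} (hy : y ∈ Yo G) : x.Cm y = 1 ↔ ∀ u ∈ Qo E, y * u * y⁻¹ * u⁻¹ ∈ x.K := by
  constructor
  · intro h u hu
    refine x.mem_K.mpr ⟨mul_mem (conjP (x.QP hu)) (inv_mem (x.QP hu)), ?_⟩
    rw [x.Pi_mul (conjP (x.QP hu)) (inv_mem (x.QP hu)), x.Cm_spec hy hu, h, x.Pi_inv (x.QP hu), x.Pi_Q hu,
      Matrix.one_mulVec, add_neg_cancel]
  · intro h
    apply x.Cm_ext
    intro u hu
    have h1 := (x.mem_K.mp (h u hu)).2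
    rw [x.Pi_mul (conjP (x.QP hu)) (inv_mem (x.QP hu)), x.Pi_inv (x.QP hu), x.Pi_Q hu, add_neg_eq_zero] at h1
    rw [h1, Matrix.one_mulVec]

theorem Cm_neg_iff {y : G} (hy : y ∈ Yo G) : x.Cm y = -1 ↔ ∀ u ∈ Qo E, y * u * y⁻¹ * u ∈ x.K := by
  constructor
  · intro h u hu
    refine x.mem_K.mpr ⟨mul_mem (conjP (x.QP hu)) (x.QP hu), ?_⟩
    rw [x.Pi_mul (conjP (x.QP hu)) (x.QP hu), x.Cm_spec hy hu, h, x.Pi_Q hu, Matrix.neg_mulVec,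
      Matrix.one_mulVec, neg_add_cancel]
  · intro h
    apply x.Cm_ext
    intro u hu
    have h1 := (x.mem_K.mp (h u hu)).2
    rw [x.Pi_mul (conjP (x.QP hu)) (x.QP hu), x.Pi_Q hu, add_eq_zero_iff_eq_neg] at h1
    rw [h1, Matrix.neg_mulVec, Matrix.one_mulVec]

theorem Cm_one_conj {n y : G} (hn : n ∈ normalizer (E : Set G)) (hy : y ∈ Yo G) (h : x.Cm y = 1) :
    x.Cm (n * y * n⁻¹) = 1 := by
  rw [x.Cm_one_iff (conjY hy)]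
  intro u hu
  have h1 : n⁻¹ * u * n⁻¹⁻¹ ∈ Qo E := (mem_normalizer_iff.mp (NEQ (inv_mem hn)) _).mp hu
  have h2 := x.K_conj hn ((x.Cm_one_iff hy).mp h _ h1)
  convert h2 using 1
  group

theorem Cm_neg_conj {n y : G} (hn : n ∈ normalizer (E : Set G)) (hy : y ∈ Yo G) (h : x.Cm y = -1) :
    x.Cm (n * y * n⁻¹) = -1 := by
  rw [x.Cm_neg_iff (conjY hy)]
  intro u hu
  have h1 : n⁻¹ * u * n⁻¹⁻¹ ∈ Qo E := (mem_normalizer_iff.mp (NEQ (inv_mem hn)) _).mp hu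
  have h2 := x.K_conj hn ((x.Cm_neg_iff hy).mp h _ h1)
  convert h2 using 1
  group

end Exc

end Cfsg.Agent.Lib.H56Bau
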