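import Cfsg.Agent.Lib.H56BauF

/-!
# S2985, part G: algebra of the matrices `C(y)` (helper56)
-/

set_option autoImplicit false
set_option linter.unusedSectionVars false

namespace Cfsg.Agent.Lib.H56Bau

open Subgroup Cfsg Cfsg.Agent.Lib.LocBase Cfsg.Agent.Lib.PReduced Cfsg.Agent.Lib.BBlock
open Cfsg.Agent.Lib.BBlock.Blk (WE)
open scoped commutatorElement Matrix

section alg

variable {F : Type*} [Field F]

theorem alg1 (A S : Matrix (Fin 2) (Fin 2) F) (hS : S.det = 1) :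
    (1 + A * (S - 1) * A.adjugate).det = 1 - A.det * (1 - A.det) * (2 - (S 0 0 + S 1 1)) := by
  rw [Matrix.adjugate_fin_two, Matrix.det_fin_two, Matrix.det_fin_two A]
  rw [Matrix.det_fin_two] at hS
  simp only [Matrix.add_apply, Matrix.mul_apply, Matrix.sub_apply, Fin.sum_univ_two, Matrix.one_apply_eq, Fin.isValue,
    Matrix.of_apply, Matrix.cons_val', Matrix.cons_val_zero, Matrix.cons_val_one, Matrix.cons_val_fin_one, ne_eq, zero_ne_one,
    one_ne_zero, not_false_eq_true, Matrix.one_apply_ne]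
  linear_combination ((A 0 0 * A 1 1 - A 0 1 * A 1 0) ^ 2) * hS

theorem alg2 (h3 : (3 : F) = 0) (M : Matrix (Fin 2) (Fin 2) F)
    (h : ∀ S : Matrix (Fin 2) (Fin 2) F, (S = 1 ∨ S = !![0, -1; 1, 0] ∨ S = !![1, 1; 1, -1] ∨ S = !![-1, 1; 1, 1]) →
      (M + S).det = 1 ∧ (M - S).det = 1) : M = 0 := by
  have a1 := h 1 (by tauto)
  have a2 := h !![0, -1; 1, 0] (by tauto)
  have a3 := h !![1, 1; 1, -1] (by tauto)
  have a4 := h !![-1, 1; 1, 1] (by tauto)
  simp only [Matrix.det_fin_two, Matrix.add_apply, Matrix.sub_apply, Matrix.one_apply_eq, Fin.isValue, Matrix.of_apply,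
    Matrix.cons_val', Matrix.cons_val_zero, Matrix.cons_val_one, Matrix.cons_val_fin_one, ne_eq, zero_ne_one,
    one_ne_zero, not_false_eq_true, Matrix.one_apply_ne] at a1 a2 a3 a4
  obtain ⟨p1, m1⟩ := a1
  obtain ⟨p2, m2⟩ := a2
  obtain ⟨p3, m3⟩ := a3
  obtain ⟨p4, m4⟩ := a4
  -- `tr M = 0`
  have t1 : M 0 0 + M 1 1 = 0 := by linear_combination (-1) * (p1 - m1) + (M 0 0 + M 1 1) * h3
  have t2 : M 1 0 - M 0 1 = 0 := by linear_combination (-1) * (p2 - m2) + (M 1 0 - M 0 1) * h3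
  have t3 : - M 0 0 + M 1 1 - M 0 1 - M 1 0 = 0 := by
    linear_combination (-1) * (p3 - m3) + (- M 0 0 + M 1 1 - M 0 1 - M 1 0) * h3
  have t4 : M 0 0 - M 1 1 - M 0 1 - M 1 0 = 0 := by
    linear_combination (-1) * (p4 - m4) + (M 0 0 - M 1 1 - M 0 1 - M 1 0) * h3
  have q1 : M 0 1 = 0 := by linear_combination t2 - t3 - t4 - M 1 0 * h3
  have q2 : M 1 0 = 0 := by linear_combination -t2 - t3 - t4 - M 0 1 * h3
  have q3 : M 0 0 = 0 := by linear_combination -t1 - t3 + t4 + M 1 1 * h3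
  have q4 : M 1 1 = 0 := by linear_combination -t1 + t3 - t4 + M 0 0 * h3
  ext i j
  fin_cases i <;> fin_cases j <;> simp [q1, q2, q3, q4]

end alg

universe u
variable {G : Type u} [Group G] [Finite G]

namespace Exc

variable {T E : Subgroup G} {F : Type} [Field F] (x : Exc T E F)

/-- matrix of `ρ` -/
abbrev R (s : G) : Matrix (Fin 2) (Fin 2) F := (x.sQ.ρ s : Matrix (Fin 2) (Fin 2) F)

theorem R_mul {a b : G} (ha : a ∈ E) (hb : b ∈ E) : x.R (a * b) = x.R a * x.R b := by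
  unfold R
  rw [x.sQ.ρ_mul a ha b hb]; rfl

theorem R_inv_mul {a : G} (ha : a ∈ E) : x.R a⁻¹ * x.R a = 1 := by
  rw [← x.R_mul (inv_mem ha) ha, inv_mul_cancel]
  unfold R
  rw [x.sQ.ρ_one]; rfl

theorem R_mul_inv {a : G} (ha : a ∈ E) : x.R a * x.R a⁻¹ = 1 := by
  rw [← x.R_mul ha (inv_mem ha), mul_inv_cancel]
  unfold R
  rw [x.sQ.ρ_one]; rfl

theorem R_det (a : G) : (x.R a).det = 1 := (x.sQ.ρ a).2

include x in
theorem three_mat (M : Matrix (Fin 2) (Fin 2) F) : M + M + M = 0 := by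
  have : M + M + M = (3 : F) • M := by
    ext i j
    simp only [Matrix.add_apply, Matrix.smul_apply, smul_eq_mul]
    ring
  rw [this, x.h3, zero_smul]

theorem Cm_t {k l : G} (hk : k ∈ Yo G) (hl : l ∈ Yo G) :
    x.Cm (k * (x.t * l * x.t⁻¹)) = - x.Cm (k * l) - x.Cm k * x.Cm l := by
  rw [x.Cm_F hk hl x.ht]
  have h1 : (x.sQ.ρ x.t⁻¹ : Matrix (Fin 2) (Fin 2) F) = -1 := by rw [x.tinv]; exact x.tρ
  rw [h1, x.tρ]
  have h2 := x.three_mat (x.Cm k * x.Cm l)
  have h4 : (x.Cm (k * l) + x.Cm k * (-1 - 1) * x.Cm l) * -1 = - x.Cm (k * l) + (x.Cm k * x.Cm l + x.Cm k * x.Cm l) := by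
    simp only [Matrix.mul_sub, Matrix.sub_mul, Matrix.mul_neg, Matrix.mul_one, Matrix.neg_mul]
    abel
  rw [h4, add_eq_zero_iff_eq_neg.mp h2, sub_eq_add_neg]

theorem Cm_inv {k : G} (hk : k ∈ Yo G) : x.Cm k⁻¹ = (x.Cm k).adjugate := by
  have := x.Cm_adj (inv_mem hk)
  rwa [inv_inv] at this

theorem conjYt {k s : G} (hk : k ∈ Yo G) : s * k * s⁻¹ ∈ Yo G := conjY hk

section
variable (H : ∀ y ∈ Yo G, x.Cm y ≠ 0)
include H

theorem det_ne {k : G} (hk : k ∈ Yo G) : (x.Cm k).det ≠ 0 := by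
  intro hd
  set l := k⁻¹ * (x.t * k * x.t⁻¹) with hl
  have hlY : l ∈ Yo G := mul_mem (inv_mem hk) (conjY hk)
  have h1 : x.Cm l = -1 := by
    rw [hl, x.Cm_t (inv_mem hk) hk, x.Cm_inv hk, Matrix.adjugate_mul, hd, zero_smul, inv_mul_cancel, x.Cm_one, sub_zero]
  have h2 : x.Cm (k * l) = x.Cm k := by
    have e1 : k * l = 1 * (x.t * k * x.t⁻¹) := by rw [hl]; group
    rw [e1, x.Cm_t (one_mem _) hk, one_mul, x.Cm_one, one_mul]
    have h3 := x.three_mat (x.Cm k)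
    have : x.Cm k = -(x.Cm k + x.Cm k) := (neg_eq_of_add_eq_zero_right h3).symm
    rw [← neg_add', ← this]
  apply H (k * (x.t * l * x.t⁻¹)) (mul_mem hk (conjY hlY))
  rw [x.Cm_t hk hlY, h2, h1, mul_neg, mul_one]
  abel

theorem det_one {k : G} (hk : k ∈ Yo G) : (x.Cm k).det = 1 := by
  by_contra hne
  have h0 := x.det_ne H hk
  set δ := (x.Cm k).det with hδ
  -- choose `s`
  have hs : ∃ s ∈ E, δ * (1 - δ) * (2 - (x.R s 0 0 + x.R s 1 1)) = 1 := by
    rcases dich (F := F) with h | h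
    · have hδ2 : δ * (1 - δ) ≠ 0 := mul_ne_zero h0 (sub_ne_zero.mpr (Ne.symm hne))
      set τ := 2 - (δ * (1 - δ))⁻¹ with hτ
      have h1 : up τ * wS (-1) (neg_ne_zero.mpr one_ne_zero) ∈ commutator (SL2 F) :=
        mul_mem (h τ).1 (wS_mem x.h3 _ _)
      obtain ⟨s, hs, hs2⟩ := x.sQ.ρ_surj _ h1
      refine ⟨s, hs, ?_⟩
      have h2 : x.R s = !![τ, -1; 1, 0] := by
        unfold R
        rw [hs2]
        change !![1, τ; 0, 1] * !![0, -1; -(-1)⁻¹, 0] = _
        ext i j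
        fin_cases i <;> fin_cases j <;> simp [Matrix.mul_apply, Fin.sum_univ_two, inv_neg]
      rw [h2]
      simp only [Matrix.of_apply, Matrix.cons_val', Matrix.cons_val_zero, Matrix.cons_val_one, Matrix.cons_val_fin_one,
        Fin.isValue, add_zero]
      rw [hτ, sub_sub_cancel, mul_inv_cancel₀ hδ2]
    · refine ⟨x.t, x.ht, ?_⟩
      have h2 : x.R x.t = -1 := x.tρ
      rw [h2]
      have h4 := h δ h0
      have h5 : (δ - 1) * (δ + 1) = 0 := by linear_combination h4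
      have h6 : δ + 1 = 0 := (mul_eq_zero.mp h5).resolve_left (sub_ne_zero.mpr hne)
      have h7 : δ = -1 := eq_neg_of_add_eq_zero_left h6
      rw [h7]
      simp only [Matrix.neg_apply, Matrix.one_apply_eq]
      linear_combination (-3) * x.h3
  obtain ⟨s, hs, hs2⟩ := hs
  apply x.det_ne H (mul_mem hk (conjY (g := s) (inv_mem hk)))
  rw [x.Cm_F hk (inv_mem hk) hs, Matrix.det_mul, mul_inv_cancel, x.Cm_one, x.Cm_inv hk]
  have h8 := alg1 (x.Cm k) (x.R s) (x.R_det s)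
  rw [h8, ← hδ, hs2]
  simp

/-- **multiplicativity** -/
theorem Cm_mul {k l : G} (hk : k ∈ Yo G) (hl : l ∈ Yo G) : x.Cm (k * l) = x.Cm k * x.Cm l := by
  set A := x.Cm k with hA
  set B := x.Cm l with hB
  set X := x.Cm (k * l) with hX
  have dA : A.det = 1 := x.det_one H hk
  have dB : B.det = 1 := x.det_one H hl
  have a1 : A * A.adjugate = 1 := by rw [Matrix.mul_adjugate, dA, one_smul]
  have b1 : B.adjugate * B = 1 := by rw [Matrix.adjugate_mul, dB, one_smul]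
  set M := A.adjugate * X * B.adjugate - 1 with hM
  have key : ∀ s ∈ E, (M + x.R s).det = 1 := by
    intro s hs
    have h1 := x.det_one H (mul_mem hk (conjY (g := s) hl))
    rw [x.Cm_F hk hl hs, Matrix.det_mul] at h1
    have h2 : (x.sQ.ρ s⁻¹ : Matrix (Fin 2) (Fin 2) F).det = 1 := x.R_det s⁻¹
    rw [h2, mul_one, ← hA, ← hB, ← hX] at h1
    have h3 : A * (M + x.R s) * B = X + A * (x.R s - 1) * B := by
      rw [hM]
      calc A * (A.adjugate * X * B.adjugate - 1 + x.R s) * B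
          = (A * A.adjugate) * X * (B.adjugate * B) + A * (x.R s - 1) * B := by noncomm_ring
        _ = _ := by rw [a1, b1, one_mul, mul_one]
    have h4 := congrArg Matrix.det h3
    rw [Matrix.det_mul, Matrix.det_mul, dA, dB, one_mul, mul_one] at h4
    rw [h4]; exact h1
  have key2 : ∀ s ∈ E, (M + x.R s).det = 1 ∧ (M - x.R s).det = 1 := by
    intro s hs
    refine ⟨key s hs, ?_⟩
    have h1 := key (x.t * s) (mul_mem x.ht hs)
    rw [x.R_mul x.ht hs] at h1
    have h2 : x.R x.t = -1 := x.tρ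
    rw [h2, neg_one_mul, ← sub_eq_add_neg] at h1
    exact h1
  have h0 : M = 0 := by
    apply alg2 x.h3
    rintro S (rfl | rfl | rfl | rfl)
    · have h1 := key2 1 (one_mem _)
      have h2 : x.R 1 = 1 := by unfold R; rw [x.sQ.ρ_one]; rfl
      rwa [h2] at h1
    · have h1 := key2 x.i0 x.hi0
      have h2 : x.R x.i0 = _ := x.iρ
      rwa [h2] at h1
    · have h1 := key2 x.j0 x.hj0
      have h2 : x.R x.j0 = _ := x.jρ
      rwa [h2] at h1
    · have h1 := key2 (x.i0 * x.j0) (mul_mem x.hi0 x.hj0)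
      rw [x.R_mul x.hi0 x.hj0] at h1
      have h2 : x.R x.j0 = _ := x.jρ
      have h3 : x.R x.i0 = _ := x.iρ
      have h4 : (!![0, -1; 1, 0] : Matrix (Fin 2) (Fin 2) F) * !![1, 1; 1, -1] = !![-1, 1; 1, 1] := by
        ext i j
        fin_cases i <;> fin_cases j <;> simp [Matrix.mul_apply, Fin.sum_univ_two]
      rwa [h2, h3, h4] at h1
  have h1 : A.adjugate * X * B.adjugate = 1 := sub_eq_zero.mp h0
  calc X = (A * A.adjugate) * X * (B.adjugate * B) := by rw [a1, b1, one_mul, mul_one]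
    _ = A * (A.adjugate * X * B.adjugate) * B := by noncomm_ring
    _ = A * B := by rw [h1, mul_one]

theorem Cm_conj {s l : G} (hl : l ∈ Yo G) (hs : s ∈ E) : x.Cm (s * l * s⁻¹) = x.R s * x.Cm l * x.R s⁻¹ := by
  have h1 := x.Cm_F (one_mem (Yo G)) hl hs
  rw [one_mul, one_mul, x.Cm_one, one_mul] at h1
  rw [h1]
  congr 1
  rw [sub_mul, one_mul]
  exact add_sub_cancel _ _

end

end Exc

end Cfsg.Agent.Lib.H56Bau
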