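import Cfsg.Agent.Lib.H56BauG

/-!
# S2985, part H: contradictions from quadratic elements (helper56)
-/

set_option autoImplicit false
set_option linter.unusedSectionVars false

namespace Cfsg.Agent.Lib.H56Bau

open Subgroup Cfsg Cfsg.Agent.Lib.LocBase Cfsg.Agent.Lib.PReduced Cfsg.Agent.Lib.BBlock
open Cfsg.Agent.Lib.BBlock.Blk (WE)
open scoped commutatorElement Matrix

universe u
variable {G : Type u} [Group G] [Finite G]

theorem norm_bau {p : ℕ} [Fact p.Prime] {T X : Subgroup G} (hT : IsSyl p T ⊤) (hX : IsPGroup p X)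
    (hB : baumannSubgroupOf p T ≤ X) : normalizer (X : Set G) ≤ normalizer (baumannSubgroupOf p T : Set G) := by
  intro g hg
  obtain ⟨S, hS, hXS⟩ := exists_isSyl_ge hX (le_top : X ≤ ⊤)
  have h1 := bau_eq_of_syl hT hS (hB.trans hXS)
  have hT' : IsSyl p (T.map (MulAut.conj g).toMonoidHom) ⊤ := by
    have := hT.map_conj g
    rwa [map_conj_eq_of_mem (k := g) (A := ⊤) (by rw [Subgroup.normalizer_eq_top_iff.mpr inferInstance]; exact mem_top g)] at this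
  have h2 : baumannSubgroupOf p (T.map (MulAut.conj g).toMonoidHom) ≤ S := by
    rw [← bau_map_conj]
    refine (map_conj_mono g hB).trans ?_
    rw [map_conj_eq_of_mem hg]; exact hXS
  have h3 := bau_eq_of_syl hT' hS h2
  apply mem_normalizer_of_map_conj_eq
  rw [bau_map_conj, ← h3, h1]

/-- an involution acting on a coset of a group of odd order -/
theorem odd_adjust {y b : G} {D : Subgroup G} (hD : IsPGroup 3 D) (hy : y * y = 1) (h : b⁻¹ * (y * b * y⁻¹) ∈ D) :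
    ∃ e ∈ D, (b * e) * y = y * (b * e) := by
  set d := b⁻¹ * (y * b * y⁻¹) with hd
  have hyi : y⁻¹ = y := inv_eq_of_mul_eq_one_right hy
  have h1 : y * d * y⁻¹ = d⁻¹ := by
    have e1 : y * d * y⁻¹ = (y * b * y⁻¹)⁻¹ * ((y * y) * b * (y * y)⁻¹) := by rw [hd]; group
    rw [e1, hy, hd]; group
  obtain ⟨k, hk⟩ := hD ⟨d, h⟩
  have hk' : d ^ 3 ^ k = 1 := by
    have := congrArg Subtype.val hk
    simpa using this
  have hodd : Odd (3 ^ k) := Odd.pow (by decide)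
  obtain ⟨m, hm⟩ := hodd
  refine ⟨d ^ (m + 1), pow_mem h _, ?_⟩
  have h2 : y * d ^ (m + 1) * y⁻¹ = (d ^ (m + 1))⁻¹ := by
    rw [← conj_pow, h1, inv_pow]
  have h3 : y * b = b * d * y := by rw [hd]; group
  have h4 : d * (d ^ (m + 1))⁻¹ = d ^ (m + 1) := by
    rw [mul_inv_eq_iff_eq_mul, ← pow_add]
    have : m + 1 + (m + 1) = 3 ^ k + 1 := by omega
    rw [this, pow_succ, hk', one_mul]
  symm
  calc y * (b * d ^ (m + 1)) = (y * b) * d ^ (m + 1) := by group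
    _ = b * d * (y * d ^ (m + 1) * y⁻¹) * y := by rw [h3]; group
    _ = b * (d * (d ^ (m + 1))⁻¹) * y := by rw [h2]; group
    _ = b * d ^ (m + 1) * y := by rw [h4]

namespace Exc

variable {T E : Subgroup G} {F : Type} [Field F] (x : Exc T E F)

/-- quadratic elements -/
structure Quad (b : G) : Prop where
  mem : b ∈ baumannSubgroupOf 3 T
  not : b ∉ centralizer (WE 3 E : Set G)
  q1 : ∀ w ∈ Wo E, ⁅⁅w, b⁆, b⁆ ∈ Zo E
  q2 : ∀ u ∈ Qo E, ⁅⁅u, b⁆, b⁆ ∈ Wo E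

include x

theorem BN : baumannSubgroupOf 3 T ≤ normalizer (E : Set G) := x.blk.bau_le_N

theorem BC_Q {e u : G} (he : e ∈ baumannSubgroupOf 3 T) (hc : e ∈ centralizer (WE 3 E : Set G)) (hu : u ∈ Qo E) :
    ⁅u, e⁆ ∈ Wo E := by
  set X := baumannSubgroupOf 3 T ⊓ centralizer (WE 3 E : Set G) with hX
  have hXN : X ≤ normalizer (E : Set G) := inf_le_left.trans x.BN
  have hXp : IsPGroup 3 X := (x.blk.syl.pgroup.to_le (bau_le 3 T)).to_le inf_le_left
  have h1 : ⁅X, E⁆ ≤ Qo E := by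
    intro g hg
    have h2 : g ∈ E := commutator_le_right_of_le hXN hg
    have h3 : g ∈ centralizer (WE 3 E : Set G) := by
      have hEC : E ≤ normalizer (centralizer (WE 3 E : Set G) : Set G) :=
        le_normalizer_centralizer (le_normalizer.trans NEWE)
      exact (commutator_mono inf_le_right le_rfl).trans (commutator_le_left_of_le hEC) hg
    exact x.cen_E h2 h3
  exact x.comm_Q hXp (hXN.trans NEQ) (hXN.trans NEW) h1 (commutator_mem_commutator hu ⟨he, hc⟩)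

theorem NQ {b y : G} (hb : Quad (T := T) (E := E) b) (hy : y * y = 1) {Δ : Subgroup G} (hΔ : IsPGroup 3 Δ)
    (hBΔ : baumannSubgroupOf 3 T ≤ normalizer (Δ : Set G)) (hyΔ : y ∈ normalizer (Δ : Set G))
    (hcomm : ∀ c ∈ baumannSubgroupOf 3 T, ⁅c, y⁆ ∈ Δ) (hΔC : Δ ≤ centralizer (WE 3 E : Set G)) {Q2 : Subgroup G}
    (hQ2 : Q2 ≤ Qo E) (hdec : ∀ u ∈ Qo E, ∃ w ∈ Wo E, ∃ q ∈ Q2, u = w * q) (hint : Q2 ⊓ Wo E ≤ Zo E)
    (hnorm : ∀ c ∈ baumannSubgroupOf 3 T, c * y = y * c → c ∈ normalizer (Q2 : Set G)) : False := by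
  set B := baumannSubgroupOf 3 T with hB
  have hBp : IsPGroup 3 B := x.blk.syl.pgroup.to_le (bau_le 3 T)
  have hyi : y⁻¹ = y := inv_eq_of_mul_eq_one_right hy
  -- `y` normalizes `B`
  have hyB : y ∈ normalizer (B : Set G) := by
    have h1 : y ∈ normalizer ((Δ ⊔ B : Subgroup G) : Set G) := by
      apply mem_normalizer_of_map_conj_le
      rw [Subgroup.map_sup, map_conj_eq_of_mem hyΔ]
      refine sup_le le_sup_left ?_
      rintro _ ⟨c, hc, rfl⟩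
      change y * c * y⁻¹ ∈ _
      have e1 : y * c * y⁻¹ = ⁅c, y⁆⁻¹ * c := by simp only [commutatorElement_def]; group
      rw [e1]
      exact mul_mem ((le_sup_left : Δ ≤ Δ ⊔ B) (inv_mem (hcomm c hc))) ((le_sup_right : B ≤ Δ ⊔ B) hc)
    exact norm_bau x.blk.syl (isPGroup_sup hΔ hBp hBΔ) le_sup_right h1
  have h1 : b⁻¹ * (y * b * y⁻¹) ∈ Δ ⊓ B := by
    refine Subgroup.mem_inf.mpr ⟨?_, mul_mem (inv_mem hb.mem) ((mem_normalizer_iff.mp hyB _).mp hb.mem)⟩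
    have e1 : b⁻¹ * (y * b * y⁻¹) = ⁅b⁻¹, y⁆ := by simp only [commutatorElement_def]; group
    rw [e1]
    exact hcomm _ (inv_mem hb.mem)
  obtain ⟨e, he, hey⟩ := odd_adjust (hΔ.to_le inf_le_left) hy h1
  set b' := b * e with hb'
  have heC : e ∈ centralizer (WE 3 E : Set G) := hΔC he.1
  have hb'B : b' ∈ B := mul_mem hb.mem he.2
  have hb'N : b' ∈ normalizer (E : Set G) := x.BN hb'B
  have hbN : b ∈ normalizer (E : Set G) := x.BN hb.mem
  have hWEW : WE 3 E ≤ Wo E := commutator_le_left_of_le x.Wn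
  have hfe : ∀ a : G, ⁅a, b'⁆ = ⁅a, b⁆ * (b * ⁅a, e⁆ * b⁻¹) := by
    intro a; rw [hb']; simp only [commutatorElement_def]; group
  have hcW : ∀ a ∈ WE 3 E, ⁅a, b'⁆ = ⁅a, b⁆ := by
    intro a ha
    have : ⁅a, e⁆ = 1 := by
      rw [commutatorElement_eq_one_iff_mul_comm]
      exact mem_centralizer_iff.mp heC a ha
    rw [hfe, this]; group
  have hn' : b' ∉ centralizer (Wo E : Set G) := by
    intro hc
    apply hb.not
    have h2 : b = b' * e⁻¹ := by rw [hb']; group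
    rw [h2]
    exact mul_mem (centralizer_le hWEW hc) (inv_mem heC)
  apply x.nq b' hb'B hn'
  have hQZ : Qo E ≤ normalizer (Zo E : Set G) := QE.trans x.Zn
  set R := cen b' (Zo E) (Qo E) hQZ with hR
  have hZR : Zo E ≤ R := fun z hz => mem_cen.mpr ⟨WQ (ZW hz), by
    rw [commutatorElement_def, mul_assoc, mul_assoc, ← mul_assoc b']
    exact mul_mem hz ((mem_normalizer_iff.mp (NEZ hb'N) _).mp (inv_mem hz))⟩
  have hRQ : R ≤ Qo E := fun _ h => h.1
  have hQR : Qo E ≤ normalizer (R : Set G) := by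
    rw [le_normalizer_iff_commutator_le_left]
    refine (commutator_mono hRQ le_rfl).trans ?_
    rw [x.QQ]; exact hZR
  have hb'R : b' ∈ normalizer (R : Set G) := by
    apply mem_normalizer_of_map_conj_le
    rintro _ ⟨r, hr, rfl⟩
    change b' * r * b'⁻¹ ∈ R
    refine mem_cen.mpr ⟨(mem_normalizer_iff.mp (NEQ hb'N) _).mp hr.1, ?_⟩
    have e1 : ⁅b' * r * b'⁻¹, b'⁆ = b' * ⁅r, b'⁆ * b'⁻¹ := by simp only [commutatorElement_def]; group
    rw [e1]
    exact (mem_normalizer_iff.mp (NEZ hb'N) _).mp hr.2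
  have hcQ : ∀ a ∈ Qo E, ∀ n ∈ normalizer (E : Set G), ⁅a, n⁆ ∈ Qo E := by
    intro a ha n hn
    rw [commutatorElement_def, mul_assoc, mul_assoc, ← mul_assoc n]
    exact mul_mem ha ((mem_normalizer_iff.mp (NEQ hn) _).mp (inv_mem ha))
  have hcW' : ∀ a ∈ Wo E, ∀ n ∈ normalizer (E : Set G), ⁅a, n⁆ ∈ Wo E := by
    intro a ha n hn
    rw [commutatorElement_def, mul_assoc, mul_assoc, ← mul_assoc n]
    exact mul_mem ha ((mem_normalizer_iff.mp (NEW hn) _).mp (inv_mem ha))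
  have hcWE : ∀ a ∈ WE 3 E, ∀ n ∈ normalizer (E : Set G), ⁅a, n⁆ ∈ WE 3 E := by
    intro a ha n hn
    rw [commutatorElement_def, mul_assoc, mul_assoc, ← mul_assoc n]
    exact mul_mem ha ((mem_normalizer_iff.mp (NEWE hn) _).mp (inv_mem ha))
  set K2 := cen b' R (Qo E) hQR with hK2
  have k1 : WE 3 E ≤ K2 := by
    intro a ha
    refine mem_cen.mpr ⟨WQ (hWEW ha), mem_cen.mpr ⟨hcQ _ (WQ (hWEW ha)) _ hb'N, ?_⟩⟩
    rw [hcW a ha, hcW _ (hcWE a ha b hbN)]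
    exact hb.q1 a (hWEW ha)
  have k2 : Zo E ≤ K2 := by
    intro z hz
    exact mem_cen.mpr ⟨WQ (ZW hz), hZR (mem_cen.mp (hZR hz)).2⟩
  have kW : ∀ u ∈ Qo E, ⁅⁅u, b'⁆, b'⁆ ∈ Wo E := by
    have f1 : ∀ u ∈ Qo E, ∃ w ∈ Wo E, ⁅u, b'⁆ = ⁅u, b⁆ * w := fun u hu =>
      ⟨b * ⁅u, e⁆ * b⁻¹, (mem_normalizer_iff.mp (NEW hbN) _).mp (x.BC_Q he.2 heC hu), hfe u⟩
    intro u hu
    obtain ⟨w, hw, hw2⟩ := f1 u hu
    obtain ⟨w', hw', hw2'⟩ := f1 ⁅u, b⁆ (hcQ u hu b hbN)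
    rw [hw2, commutatorElement_mul_left_eq_conj_mul, hw2']
    refine mul_mem ?_ (mul_mem (hb.q2 u hu) hw')
    exact conj_mem_of_le_normalizer (QE.trans x.Wn) (hcQ u hu b hbN) (hcW' w hw b' hb'N)
  have k3 : Q2 ≤ K2 := by
    intro q hq
    have hb'Q2 := hnorm b' hb'B hey
    have c1 : ∀ a ∈ Q2, ⁅a, b'⁆ ∈ Q2 := by
      intro a ha
      rw [commutatorElement_def, mul_assoc, mul_assoc, ← mul_assoc b']
      exact mul_mem ha ((mem_normalizer_iff.mp hb'Q2 _).mp (inv_mem ha))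
    refine mem_cen.mpr ⟨hQ2 hq, mem_cen.mpr ⟨hcQ _ (hQ2 hq) _ hb'N, hint ⟨c1 _ (c1 q hq), kW q (hQ2 hq)⟩⟩⟩
  have k4 : Qo E ≤ K2 := by
    intro u hu
    obtain ⟨w, hw, q, hq, rfl⟩ := hdec u hu
    obtain ⟨a, ha, z, hz, rfl⟩ := x.W_dec hw
    exact mul_mem (mul_mem (k1 ha) (k2 hz)) (k3 hq)
  have h5 : ⁅Qo E, zpowers b'⁆ ≤ R := comm_zpowers_le hb'R fun u hu => (mem_cen.mp (k4 hu)).2
  exact (commutator_mono h5 le_rfl).trans (comm_zpowers_le (NEZ hb'N) fun r hr => (mem_cen.mp hr).2)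

end Exc

end Cfsg.Agent.Lib.H56Bau
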