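import Cfsg.Agent.Lib.H56BauH

/-!
# S2985, part I: `C(y) ≠ 0`, and involutions acting as `-1` (helper56)
-/

set_option autoImplicit false
set_option linter.unusedSectionVars false

namespace Cfsg.Agent.Lib.H56Bau

open Subgroup Cfsg Cfsg.Agent.Lib.LocBase Cfsg.Agent.Lib.PReduced Cfsg.Agent.Lib.BBlock
open Cfsg.Agent.Lib.BBlock.Blk (WE)
open scoped commutatorElement Matrix

universe u
variable {G : Type u} [Group G] [Finite G]

namespace Exc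

variable {T E : Subgroup G} {F : Type} [Field F] (x : Exc T E F)
include x

theorem sq_mem_Z {w : G} (hw : w ∈ Wo E) (h : w * w ∈ Zo E) : w ∈ Zo E := by
  have e1 : w = (w * w) * (w * w) := by
    calc w = w * (w * w * w) := by rw [x.W3 hw, mul_one]
      _ = _ := by group
  rw [e1]; exact mul_mem h h

theorem YWE : Yo G ≤ centralizer (WE 3 E : Set G) :=
  centralizer_le ((commutator_le_left_of_le x.Wn).trans x.WV)

theorem YW : Yo G ≤ centralizer (Wo E : Set G) := centralizer_le x.WV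

theorem YNW : Yo G ≤ normalizer (Wo E : Set G) := x.YW.trans (Subgroup.centralizer_le_normalizer _)

omit x in
/-- elements acting trivially on `P / W` -/
def Gam (E : Subgroup G) : Subgroup G where
  carrier := {g | g ∈ normalizer (Wo E : Set G) ∧ ∀ r ∈ Po G, ⁅g, r⁆ ∈ Wo E}
  mul_mem' := by
    rintro g h ⟨hg, hg'⟩ ⟨hh, hh'⟩
    refine ⟨mul_mem hg hh, fun r hr => ?_⟩
    rw [commutatorElement_mul_left_eq_conj_mul]
    exact mul_mem ((mem_normalizer_iff.mp hg _).mp (hh' r hr)) (hg' r hr)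
  one_mem' := ⟨one_mem _, fun r _ => by rw [commutatorElement_one_left]; exact one_mem _⟩
  inv_mem' := by
    rintro g ⟨hg, hg'⟩
    refine ⟨inv_mem hg, fun r hr => ?_⟩
    have e : ⁅g⁻¹, r⁆ = g⁻¹ * ⁅g, r⁆⁻¹ * (g⁻¹)⁻¹ := by
      simp only [commutatorElement_def]; group
    rw [e]
    exact (mem_normalizer_iff.mp (inv_mem hg) _).mp (inv_mem (hg' r hr))

omit x in
theorem mem_Gam {g : G} : g ∈ Gam E ↔ g ∈ normalizer (Wo E : Set G) ∧ ∀ r ∈ Po G, ⁅g, r⁆ ∈ Wo E := Iff.rfl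

theorem Gam_N : normalizer (E : Set G) ≤ normalizer (Gam E : Set G) := by
  intro n hn
  apply mem_normalizer_of_map_conj_le
  rintro _ ⟨g, hg, rfl⟩
  change n * g * n⁻¹ ∈ _
  obtain ⟨h1, h2⟩ := mem_Gam.mp hg
  refine mem_Gam.mpr ⟨mul_mem (mul_mem (NEW hn) h1) (inv_mem (NEW hn)), fun r hr => ?_⟩
  have e1 : ⁅n * g * n⁻¹, r⁆ = n * ⁅g, n⁻¹ * r * n⁻¹⁻¹⁆ * n⁻¹ := by simp only [commutatorElement_def]; group
  rw [e1]
  exact (mem_normalizer_iff.mp (NEW hn) _).mp (h2 _ (conjP hr))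

theorem Gam_p : IsPGroup 3 (Gam E ⊓ Yo G : Subgroup G) := by
  apply isPGroup_of_pRes_le x.hG
  refine pRes_le_centralizer_of_chain (Q := Wo E) x.Pp (le_N_pCore _) ?_ ?_
  · rw [commutator_le]
    intro r hr g hg
    rw [← commutatorElement_inv]
    exact inv_mem ((mem_Gam.mp (pRes_le _ _ hg).1).2 r hr)
  · exact ((pRes_le _ _).trans inf_le_right).trans x.YW

/-- **Claim 1** -/
theorem Cm_ne {b : G} (hb : Quad (T := T) (E := E) b) : ∀ y ∈ Yo G, x.Cm y ≠ 0 := by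
  intro y hy h0
  have h1 : ∀ u ∈ Qo E, y * u * y⁻¹ ∈ x.K := by
    intro u hu
    refine x.mem_K.mpr ⟨conjP (x.QP hu), ?_⟩
    rw [x.Cm_spec hy hu, h0, Matrix.zero_mulVec]
  have h1' : ∀ u ∈ Qo E, y⁻¹ * u * y⁻¹⁻¹ ∈ x.K := by
    intro u hu
    refine x.mem_K.mpr ⟨conjP (x.QP hu), ?_⟩
    rw [x.Cm_spec (inv_mem hy) hu, x.Cm_inv hy, h0, Matrix.adjugate_fin_two]
    simp
  set E' := E.map (MulAut.conj y).toMonoidHom with hE'
  have hPE' : ⁅E', Po G⁆ = (Qo E).map (MulAut.conj y).toMonoidHom := by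
    rw [← x.big, commutator_comm (Po G), Subgroup.map_commutator]
    congr 1
    exact (map_conj_eq_of_mem (Pn y)).symm
  have hyW : y ∈ normalizer (Wo E : Set G) := x.YNW hy
  have hE'W : E' ≤ normalizer (Wo E : Set G) := by
    rintro _ ⟨e, he, rfl⟩
    exact mul_mem (mul_mem hyW (x.Wn he)) (inv_mem hyW)
  have h3 : ⁅⁅E, E'⁆, Po G⁆ ≤ Wo E := by
    refine PAct.three_subgroups x.Wn hE'W (x.PN.trans NEW) ?_ ?_
    · rw [hPE', commutator_le]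
      rintro _ ⟨u, hu, rfl⟩ e he
      rw [← commutatorElement_inv]
      exact inv_mem (x.K_comm (h1 u hu) he)
    · rw [x.big, commutator_le]
      rintro u hu _ ⟨e, he, rfl⟩
      change ⁅u, y * e * y⁻¹⁆ ∈ _
      have e1 : ⁅u, y * e * y⁻¹⁆ = y * ⁅e, y⁻¹ * u * y⁻¹⁻¹⁆⁻¹ * y⁻¹ := by simp only [commutatorElement_def]; group
      rw [e1, x.Yconj (inv_mem (x.K_comm (h1' u hu) he)) hy]
      exact inv_mem (x.K_comm (h1' u hu) he)
  set γ := ⁅x.i0, y * x.j0 * y⁻¹⁆ with hγ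
  have hγG : γ ∈ Gam E := by
    refine mem_Gam.mpr ⟨?_, fun r hr => h3 (commutator_mem_commutator (commutator_mem_commutator x.hi0
      (mem_map_of_mem _ x.hj0)) hr)⟩
    have a1 : y * x.j0 * y⁻¹ ∈ normalizer (Wo E : Set G) := mul_mem (mul_mem hyW (x.Wn x.hj0)) (inv_mem hyW)
    have a2 := x.Wn x.hi0
    rw [hγ, commutatorElement_def]
    exact mul_mem (mul_mem (mul_mem a2 a1) (inv_mem a2)) (inv_mem a1)
  -- `γ ∈ Y t`
  have hγt : γ * x.t⁻¹ ∈ Yo G := by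
    set c := ⁅y, x.j0⁆ with hc
    have hcY : c ∈ Yo G := by
      have e1 : c = y * (x.j0 * y⁻¹ * x.j0⁻¹) := by rw [hc, commutatorElement_def]; group
      rw [e1]; exact mul_mem hy (conjY (inv_mem hy))
    set q := x.t⁻¹ * ⁅x.i0, x.j0⁆ with hq
    have hqY : q ∈ Yo G := x.QY x.ijt
    have e2 : γ * x.t⁻¹ = (x.i0 * c * x.i0⁻¹) * (x.t * q * x.t⁻¹) * (x.t * c⁻¹ * x.t⁻¹) := by
      rw [hq, hγ, hc]; simp only [commutatorElement_def]; group
    rw [e2]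
    exact mul_mem (mul_mem (conjY hcY) (conjY hqY)) (conjY (inv_mem hcY))
  have hγ2 : γ * γ ∈ Gam E ⊓ Yo G := by
    refine Subgroup.mem_inf.mpr ⟨mul_mem hγG hγG, ?_⟩
    have e1 : γ * γ = (γ * x.t⁻¹) * (x.t * (γ * x.t⁻¹) * x.t⁻¹) * (x.t * x.t) := by group
    rw [e1, x.tt, mul_one]
    exact mul_mem hγt (conjY hγt)
  obtain ⟨k, hk⟩ := x.Gam_p ⟨_, hγ2⟩
  have hk' : (γ * γ) ^ 3 ^ k = 1 := by
    have := congrArg Subtype.val hk
    simpa using this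
  set s := γ ^ 3 ^ k with hs
  have hss : s * s = 1 := by
    rw [hs, ← pow_add, ← two_mul, pow_mul, pow_two]; exact hk'
  have hsG : s ∈ Gam E := pow_mem hγG _
  have hsY : s * x.t⁻¹ ∈ Yo G := by
    have h4 := mul_pow_mem_coset hγt (Yn x.t) (3 ^ k)
    have e1 : γ * x.t⁻¹ * x.t = γ := by group
    rw [e1] at h4
    obtain ⟨m, hm⟩ : Odd (3 ^ k) := Odd.pow (by decide)
    have h5 : x.t ^ 3 ^ k = x.t := by
      rw [hm, pow_succ, pow_mul, pow_two, x.tt, one_pow, one_mul]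
    rwa [h5] at h4
  have hst : ∀ w ∈ Wo E, s * w * s⁻¹ = x.t * w * x.t⁻¹ := by
    intro w hw
    have h6 : x.t * w * x.t⁻¹ ∈ Wo E := conj_mem_of_le_normalizer x.Wn x.ht hw
    have h7 := x.Yconj h6 hsY
    rw [← h7]; group
  -- apply `NQ`
  refine x.NQ (y := s) (Δ := Gam E ⊓ Yo G) (Q2 := Qo E ⊓ centralizer {s}) hb hss x.Gam_p ?_ ?_ ?_ ?_ inf_le_left ?_ ?_ ?_
  · exact le_normalizer_inf (x.BN.trans x.Gam_N) (fun g _ => Yn g)
  · exact le_normalizer_inf (K := Gam E) le_normalizer (fun g _ => Yn g) hsG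
  · intro c hc
    refine Subgroup.mem_inf.mpr ⟨?_, ?_⟩
    · rw [commutatorElement_def]
      exact mul_mem ((mem_normalizer_iff.mp (x.Gam_N (x.BN hc)) _).mp hsG) (inv_mem hsG)
    · obtain ⟨q, hq, hq'⟩ := x.conj_t (x.BN hc)
      have e1 : ⁅c, s⁆ = (c * (s * x.t⁻¹) * c⁻¹) * (c * x.t * c⁻¹ * x.t⁻¹) * (s * x.t⁻¹)⁻¹ := by
        rw [commutatorElement_def]; group
      rw [e1, hq']
      exact mul_mem (mul_mem (conjY hsY) (conjY (x.QY hq))) (inv_mem hsY)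
  · exact inf_le_right.trans x.YWE
  · intro u hu
    have h8 : u⁻¹ * (s * u * s⁻¹) ∈ Wo E := by
      have e1 : u⁻¹ * (s * u * s⁻¹) = ⁅s, u⁻¹⁆⁻¹ := by simp only [commutatorElement_def]; group
      rw [e1]
      exact inv_mem ((mem_Gam.mp hsG).2 _ (inv_mem (x.QP hu)))
    obtain ⟨e, he, he'⟩ := odd_adjust (x.Qp.to_le WQ) hss h8
    refine ⟨e⁻¹, inv_mem he, u * e, Subgroup.mem_inf.mpr ⟨mul_mem hu (WQ he), ?_⟩, ?_⟩
    · rw [mem_centralizer_singleton_iff]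
      exact he'
    · rw [← Wcomm he hu]; group
  · rintro w ⟨⟨hw1, hw2⟩, hw⟩
    apply x.sq_mem_Z hw
    have h9 := x.t_W hw
    rw [← hst w hw] at h9
    have h10 : w * s = s * w := mem_centralizer_singleton_iff.mp hw2
    have h11 : s * w * s⁻¹ = w := by rw [← h10]; group
    rwa [h11] at h9
  · intro c hc hcs
    refine le_normalizer_inf (K := zpowers c) ?_ ?_ (mem_zpowers c)
    · rw [zpowers_le]; exact NEQ (x.BN hc)
    · rw [zpowers_le]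
      apply le_normalizer
      rw [mem_centralizer_singleton_iff]
      exact hcs

/-- **involutions acting as `-1`** -/
theorem NQ2 {b : G} (hb : Quad (T := T) (E := E) b) {D : Subgroup G} (hDY : D ≤ Yo G)
    (hBD : baumannSubgroupOf 3 T ≤ normalizer (D : Set G)) {Δ : Subgroup G} (hΔ : ∀ {d}, d ∈ Δ ↔ d ∈ D ∧ x.Cm d = 1)
    (hΔp : IsPGroup 3 Δ) {y : G} (hyD : y ∈ D) (hyy : y * y = 1) (hyQ : y ∈ normalizer (Qo E : Set G))
    (hy1 : x.Cm y = -1) : False := by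
  have H := x.Cm_ne hb
  have hyY := hDY hyD
  have hyinv : x.Cm y⁻¹ = -1 := by
    rw [inv_eq_of_mul_eq_one_right hyy]; exact hy1
  -- `y` inverts `Q / W`
  have hψ : ∀ u ∈ Qo E, u * (y * u * y⁻¹) ∈ Wo E := by
    intro u hu
    have h1 : y * u * y⁻¹ ∈ Qo E := (mem_normalizer_iff.mp hyQ _).mp hu
    rw [← x.sQ.ψ_ker _ (mul_mem hu h1), x.sQ.ψ_mul _ hu _ h1, ← x.Pi_Q h1, x.Cm_spec hyY hu, hy1, Matrix.neg_mulVec,
      Matrix.one_mulVec, add_neg_cancel]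
  let Q2 : Subgroup G :=
    { carrier := {q | q ∈ Qo E ∧ q * (y * q * y⁻¹) ∈ Zo E}
      mul_mem' := by
        rintro a c ⟨ha, ha'⟩ ⟨hc, hc'⟩
        refine ⟨mul_mem ha hc, ?_⟩
        have e1 : a * c * (y * (a * c) * y⁻¹) = a * ⁅c, y * a * y⁻¹⁆ * a⁻¹ * (a * (y * a * y⁻¹)) * (c * (y * c * y⁻¹)) := by
          simp only [commutatorElement_def]; group
        rw [e1]
        refine mul_mem (mul_mem ?_ ha') hc'
        exact conj_mem_of_le_normalizer (QE.trans x.Zn) ha (x.Qcomm hc ((mem_normalizer_iff.mp hyQ _).mp ha))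
      one_mem' := ⟨one_mem _, by
        have : (1 : G) * (y * 1 * y⁻¹) = 1 := by group
        rw [this]; exact one_mem _⟩
      inv_mem' := by
        rintro a ⟨ha, ha'⟩
        refine ⟨inv_mem ha, ?_⟩
        have e1 : a⁻¹ * (y * a⁻¹ * y⁻¹) = (a⁻¹ * (a * (y * a * y⁻¹)) * a⁻¹⁻¹)⁻¹ := by group
        rw [e1]
        exact inv_mem (conj_mem_of_le_normalizer (QE.trans x.Zn) (inv_mem ha) ha') }
  have hQ2m : ∀ {q}, q ∈ Q2 ↔ q ∈ Qo E ∧ q * (y * q * y⁻¹) ∈ Zo E := Iff.rfl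
  refine x.NQ (y := y) (Δ := Δ) (Q2 := Q2) hb hyy hΔp ?_ ?_ ?_ ?_ (fun _ h => h.1) ?_ ?_ ?_
  · intro c hc
    apply mem_normalizer_of_map_conj_le
    rintro _ ⟨d, hd, rfl⟩
    change c * d * c⁻¹ ∈ _
    obtain ⟨h1, h2⟩ := hΔ.mp hd
    exact hΔ.mpr ⟨(mem_normalizer_iff.mp (hBD hc) _).mp h1, x.Cm_one_conj (x.BN hc) (hDY h1) h2⟩
  · apply mem_normalizer_of_map_conj_le
    rintro _ ⟨d, hd, rfl⟩
    change y * d * y⁻¹ ∈ _
    obtain ⟨h1, h2⟩ := hΔ.mp hd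
    refine hΔ.mpr ⟨mul_mem (mul_mem hyD h1) (inv_mem hyD), ?_⟩
    rw [x.Cm_mul H (mul_mem hyY (hDY h1)) (inv_mem hyY), x.Cm_mul H hyY (hDY h1), hy1, h2, hyinv]
    simp
  · intro c hc
    have h1 : c * y * c⁻¹ ∈ D := (mem_normalizer_iff.mp (hBD hc) _).mp hyD
    rw [commutatorElement_def]
    refine hΔ.mpr ⟨mul_mem h1 (inv_mem hyD), ?_⟩
    rw [x.Cm_mul H (hDY h1) (inv_mem hyY), x.Cm_neg_conj (x.BN hc) hyY hy1, hyinv]
    simp
  · exact fun d hd => x.YWE (hDY (hΔ.mp hd).1)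
  · intro u hu
    set m := u * (y * u * y⁻¹) with hm
    have hmW : m ∈ Wo E := hψ u hu
    refine ⟨m⁻¹, inv_mem hmW, m * u, hQ2m.mpr ⟨mul_mem (WQ hmW) hu, ?_⟩, by group⟩
    have e1 : m * u * (y * (m * u) * y⁻¹) = m * u * (y * m * y⁻¹) * (y * u * y⁻¹) := by group
    rw [e1, x.Yconj hmW hyY, mul_assoc m, ← Wcomm hmW hu]
    have e2 : m * (m * u) * (y * u * y⁻¹) = m * m * m := by
      nth_rewrite 5 [hm]; group
    rw [e2, x.W3 hmW]
    exact one_mem _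
  · rintro w ⟨⟨-, hw2⟩, hw⟩
    apply x.sq_mem_Z hw
    rwa [x.Yconj hw hyY] at hw2
  · intro c hc hcy
    apply mem_normalizer_of_map_conj_le
    rintro _ ⟨q, hq, rfl⟩
    change c * q * c⁻¹ ∈ _
    obtain ⟨h1, h2⟩ := hQ2m.mp hq
    refine hQ2m.mpr ⟨(mem_normalizer_iff.mp (NEQ (x.BN hc)) _).mp h1, ?_⟩
    have e1 : c * q * c⁻¹ * (y * (c * q * c⁻¹) * y⁻¹) = c * (q * (y * q * y⁻¹)) * c⁻¹ := by
      have e2 : y * (c * q * c⁻¹) * y⁻¹ = (y * c) * q * (y * c)⁻¹ := by group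
      rw [e2, ← hcy]; group
    rw [e1]
    exact (mem_normalizer_iff.mp (NEZ (x.BN hc)) _).mp h2

end Exc

end Cfsg.Agent.Lib.H56Bau
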