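import Cfsg.Agent.Lib.H56BauI

/-!
# S2985, part J: `C_G(V)` normalizes `E` (helper56)
-/

set_option autoImplicit false
set_option linter.unusedSectionVars false

namespace Cfsg.Agent.Lib.H56Bau

open Subgroup Cfsg Cfsg.Agent.Lib.LocBase Cfsg.Agent.Lib.PReduced Cfsg.Agent.Lib.BBlock
open Cfsg.Agent.Lib.BBlock.Blk (WE)
open scoped commutatorElement Matrix

section alg

variable {F : Type*} [Field F]

theorem cayley (A : Matrix (Fin 2) (Fin 2) F) (hA : A.det = 1) : A * A = (A 0 0 + A 1 1) • A - 1 := by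
  rw [Matrix.det_fin_two] at hA
  ext i j
  fin_cases i <;> fin_cases j <;> simp [Matrix.mul_apply, Fin.sum_univ_two] <;>
    first | ring1 | linear_combination (-1 : F) * hA

theorem sq_eq_neg (A : Matrix (Fin 2) (Fin 2) F) (hA : A.det = 1) (h : A 0 0 + A 1 1 = 0) : A * A = -1 := by
  rw [cayley A hA, h, zero_smul, zero_sub]

/-- a commutator of trace `0` -/
theorem alg3 (h3 : (3 : F) = 0) (hbig : ∀ c : F, up c ∈ commutator (SL2 F) ∧ lo c ∈ commutator (SL2 F))
    (A : Matrix (Fin 2) (Fin 2) F) (hA : A.det = 1) (h1 : A ≠ 1) (h2 : A ≠ -1) :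
    ∃ S ∈ commutator (SL2 F),
      (A * ((S : Matrix (Fin 2) (Fin 2) F) * A.adjugate * (S : Matrix (Fin 2) (Fin 2) F).adjugate)) 0 0 +
      (A * ((S : Matrix (Fin 2) (Fin 2) F) * A.adjugate * (S : Matrix (Fin 2) (Fin 2) F).adjugate)) 1 1 = 0 := by
  have hd := hA
  rw [Matrix.det_fin_two] at hd
  by_cases h10 : A 1 0 = 0
  · by_cases h01 : A 0 1 = 0
    · have hne : A 0 0 - A 1 1 ≠ 0 := by
        intro h
        have h4 : A 0 0 = A 1 1 := sub_eq_zero.mp h
        have h5 : (A 1 1 - 1) * (A 1 1 + 1) = 0 := by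
          rw [h4, h01] at hd; linear_combination hd
        rcases mul_eq_zero.mp h5 with h6 | h6
        · apply h1
          have h7 := sub_eq_zero.mp h6
          ext i j
          fin_cases i <;> fin_cases j <;> simp [h10, h01, h7, h4]
        · apply h2
          have h7 := eq_neg_of_add_eq_zero_left h6
          ext i j
          fin_cases i <;> fin_cases j <;> simp [h10, h01, h7, h4]
      set c := (A 0 0 - A 1 1)⁻¹ with hc
      have hcc : c * (A 0 0 - A 1 1) = 1 := inv_mul_cancel₀ hne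
      refine ⟨lo 1 * up c * lo (-1), mul_mem (mul_mem (hbig 1).2 (hbig c).1) (hbig _).2, ?_⟩
      have e1 : ((lo 1 * up c * lo (-1) : SL2 F) : Matrix (Fin 2) (Fin 2) F) = !![1 - c, c; -c, 1 + c] := by
        change !![1, 0; 1, 1] * !![1, c; 0, 1] * !![1, 0; -1, 1] = _
        ext i j
        fin_cases i <;> fin_cases j <;> simp [Matrix.mul_apply, Fin.sum_univ_two] <;> ring
      rw [e1, Matrix.adjugate_fin_two_of, Matrix.adjugate_fin_two]
      simp only [Matrix.mul_apply, Fin.sum_univ_two, Fin.isValue,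
        Matrix.of_apply, Matrix.cons_val', Matrix.cons_val_zero, Matrix.cons_val_one, Matrix.cons_val_fin_one]
      rw [h10, h01]
      rw [h10, h01] at hd
      linear_combination (2 + 0 * c) * hd + (c * (A 0 0 - A 1 1) + 1) * hcc + h3
    · set c := (A 0 1)⁻¹ with hc
      have hcc : c * A 0 1 = 1 := inv_mul_cancel₀ h01
      refine ⟨lo c, (hbig c).2, ?_⟩
      have e1 : ((lo c : SL2 F) : Matrix (Fin 2) (Fin 2) F) = !![1, 0; c, 1] := rfl
      rw [e1, Matrix.adjugate_fin_two_of, Matrix.adjugate_fin_two]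
      simp only [Matrix.mul_apply, Fin.sum_univ_two, Fin.isValue,
        Matrix.of_apply, Matrix.cons_val', Matrix.cons_val_zero, Matrix.cons_val_one, Matrix.cons_val_fin_one]
      linear_combination 2 * hd + (c * A 0 1 + 1) * hcc + h3
  · set c := (A 1 0)⁻¹ with hc
    have hcc : c * A 1 0 = 1 := inv_mul_cancel₀ h10
    refine ⟨up c, (hbig c).1, ?_⟩
    have e1 : ((up c : SL2 F) : Matrix (Fin 2) (Fin 2) F) = !![1, c; 0, 1] := rfl
    rw [e1, Matrix.adjugate_fin_two_of, Matrix.adjugate_fin_two]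
    simp only [Matrix.mul_apply, Fin.sum_univ_two, Fin.isValue,
      Matrix.of_apply, Matrix.cons_val', Matrix.cons_val_zero, Matrix.cons_val_one, Matrix.cons_val_fin_one]
    linear_combination 2 * hd + (c * A 1 0 + 1) * hcc + h3

end alg

end Cfsg.Agent.Lib.H56Bau
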