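import Cfsg.Agent.Lib.H56BauJ

/-!
# S2985, part K: `C_G(V)` normalizes `E` (helper56)
-/

set_option autoImplicit false
set_option linter.unusedSectionVars false

namespace Cfsg.Agent.Lib.H56Bau

open Subgroup Cfsg Cfsg.Agent.Lib.LocBase Cfsg.Agent.Lib.PReduced Cfsg.Agent.Lib.BBlock
open Cfsg.Agent.Lib.BBlock.Blk (WE)
open scoped commutatorElement Matrix

universe u
variable {G : Type u} [Group G] [Finite G]

namespace Exc

variable {T E : Subgroup G} {F : Type} [Field F] (x : Exc T E F)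
include x

theorem Cm_pow (H : ∀ y ∈ Yo G, x.Cm y ≠ 0) {k : G} (hk : k ∈ Yo G) (n : ℕ) : x.Cm (k ^ n) = x.Cm k ^ n := by
  induction n with
  | zero => rw [pow_zero, pow_zero, x.Cm_one]
  | succ n ih => rw [pow_succ, pow_succ, x.Cm_mul H (pow_mem hk n) hk, ih]

theorem NQ3 {b : G} (hb : Quad (T := T) (E := E) b) {D : Subgroup G} (hDY : D ≤ Yo G)
    (hBD : baumannSubgroupOf 3 T ≤ normalizer (D : Set G)) {Δ : Subgroup G} (hΔ : ∀ {d}, d ∈ Δ ↔ d ∈ D ∧ x.Cm d = 1)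
    (hΔp : IsPGroup 3 Δ) {k : G} (hkD : k ∈ D) (hkQ : k ∈ normalizer (Qo E : Set G)) (hk1 : x.Cm k = -1) : False := by
  have H := x.Cm_ne hb
  have h1 : k * k ∈ Δ := hΔ.mpr ⟨mul_mem hkD hkD, by rw [x.Cm_mul H (hDY hkD) (hDY hkD), hk1]; simp⟩
  obtain ⟨m, hm⟩ := hΔp ⟨_, h1⟩
  have hm' : (k * k) ^ 3 ^ m = 1 := by
    have := congrArg Subtype.val hm
    simpa using this
  refine x.NQ2 hb hDY hBD hΔ hΔp (y := k ^ 3 ^ m) (pow_mem hkD _) ?_ (pow_mem hkQ _) ?_
  · rw [← pow_add, ← two_mul, pow_mul, pow_two]; exact hm'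
  · rw [x.Cm_pow H (hDY hkD), hk1]
    exact Odd.neg_one_pow (Odd.pow (by decide))

theorem exists_neg (H : ∀ y ∈ Yo G, x.Cm y ≠ 0) {D : Subgroup G} (hDY : D ≤ Yo G) (hED : E ≤ normalizer (D : Set G))
    {Δ : Subgroup G} (hΔ : ∀ {d}, d ∈ Δ ↔ d ∈ D ∧ x.Cm d = 1)
    (hΔp : IsPGroup 3 Δ) (hD : ¬ IsPGroup 3 D) : ∃ k ∈ D, x.Cm k = -1 := by
  have h1 : ¬ pRes 3 D ≤ ⊥ := by
    rw [le_bot_iff, ← isPGroup_iff_pRes_eq_bot]; exact hD
  rw [pRes_le_iff] at h1
  push Not at h1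
  obtain ⟨d, hd, hdo, hd1⟩ := h1
  have hdY := hDY hd
  have hdΔ : d ∉ Δ := by
    intro h
    apply hd1
    rw [mem_bot]
    exact eq_one_of_isPGroup_of_pow hΔp h hdo (pow_orderOf_eq_one d)
  have hA1 : x.Cm d ≠ 1 := fun h => hdΔ (hΔ.mpr ⟨hd, h⟩)
  have hdet := x.det_one H hdY
  rcases dich (F := F) with h | h
  · by_cases hA2 : x.Cm d = -1
    · exact ⟨d, hd, hA2⟩
    obtain ⟨S, hS, hS2⟩ := alg3 x.h3 h (x.Cm d) hdet hA1 hA2
    obtain ⟨s, hs, hs2⟩ := x.sQ.ρ_surj S hS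
    set k := d * (s * d⁻¹ * s⁻¹) with hk
    have hkD : k ∈ D := mul_mem hd (conj_mem_of_le_normalizer hED hs (inv_mem hd))
    have hkC : x.Cm k = x.Cm d * ((S : Matrix (Fin 2) (Fin 2) F) * (x.Cm d).adjugate *
        (S : Matrix (Fin 2) (Fin 2) F).adjugate) := by
      rw [hk, x.Cm_mul H hdY (conjY (inv_mem hdY)), x.Cm_conj H (inv_mem hdY) hs, x.Cm_inv hdY]
      have e1 : x.R s = S := by unfold R; rw [hs2]
      have e2 : x.R s⁻¹ = (S : Matrix (Fin 2) (Fin 2) F).adjugate := by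
        unfold R; rw [x.sQ.ρ_inv hs, hs2]; rfl
      rw [e1, e2]
    refine ⟨k * k, mul_mem hkD hkD, ?_⟩
    rw [x.Cm_mul H (hDY hkD) (hDY hkD)]
    apply sq_eq_neg _ (x.det_one H (hDY hkD))
    rw [hkC]; exact hS2
  · by_cases hτ : x.Cm d 0 0 + x.Cm d 1 1 = 0
    · refine ⟨d * d, mul_mem hd hd, ?_⟩
      rw [x.Cm_mul H hdY hdY]
      exact sq_eq_neg _ hdet hτ
    · have h2 := h _ hτ
      have hc := cayley (x.Cm d) hdet
      set τ := x.Cm d 0 0 + x.Cm d 1 1 with hτd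
      have h4 : (τ - 1) * (τ + 1) = 0 := by linear_combination h2
      have h5 : x.Cm (d ^ 3) = x.Cm d * (x.Cm d * x.Cm d) := by
        rw [x.Cm_pow H hdY, pow_succ, pow_two, mul_assoc]
      rcases mul_eq_zero.mp h4 with h6 | h6
      · refine ⟨d ^ 3, pow_mem hd 3, ?_⟩
        rw [h5, hc, sub_eq_zero.mp h6, one_smul, mul_sub, mul_one, hc, sub_eq_zero.mp h6, one_smul]
        abel
      · exfalso
        apply hdΔ
        have h7 : d ^ 3 ^ 1 ∈ Δ := by
          rw [pow_one]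
          refine hΔ.mpr ⟨pow_mem hd 3, ?_⟩
          rw [h5, hc, eq_neg_of_add_eq_zero_left h6, neg_one_smul, mul_sub, mul_neg, mul_one, hc,
            eq_neg_of_add_eq_zero_left h6, neg_one_smul]
          abel
        exact mem_of_coprime_of_pow_mem hdo h7

/-- **Step I** -/
theorem stepI {b : G} (hb : Quad (T := T) (E := E) b) : Yo G ≤ normalizer (E : Set G) := by
  have H := x.Cm_ne hb
  set D := ⁅E, Yo G⁆ with hD
  have hEY : E ≤ normalizer (Yo G : Set G) := fun g _ => Yn g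
  have hBY : baumannSubgroupOf 3 T ≤ normalizer (Yo G : Set G) := fun g _ => Yn g
  have hDY : D ≤ Yo G := commutator_le_right_of_le hEY
  have hED : E ≤ normalizer (D : Set G) := normalizer_commutator_ge_left _ _
  have hYD : Yo G ≤ normalizer (D : Set G) := normalizer_commutator_ge_right _ _
  have hBD : baumannSubgroupOf 3 T ≤ normalizer (D : Set G) := le_normalizer_commutator x.BN hBY
  let Δ : Subgroup G :=
    { carrier := {d | d ∈ D ∧ x.Cm d = 1}
      mul_mem' := by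
        rintro a c ⟨ha, ha'⟩ ⟨hc, hc'⟩
        exact ⟨mul_mem ha hc, by rw [x.Cm_mul H (hDY ha) (hDY hc), ha', hc', one_mul]⟩
      one_mem' := ⟨one_mem _, x.Cm_one⟩
      inv_mem' := by
        rintro a ⟨ha, ha'⟩
        refine ⟨inv_mem ha, ?_⟩
        rw [x.Cm_inv (hDY ha), ha', Matrix.adjugate_one] }
  have hΔ : ∀ {d}, d ∈ Δ ↔ d ∈ D ∧ x.Cm d = 1 := Iff.rfl
  -- `Δ` is a `3`-group
  set L := E ⊔ Yo G with hL
  have hLΔ : L ≤ normalizer (Δ : Set G) := by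
    refine sup_le ?_ ?_
    · intro e he
      apply mem_normalizer_of_map_conj_le
      rintro _ ⟨d, hd, rfl⟩
      change e * d * e⁻¹ ∈ Δ
      exact hΔ.mpr ⟨conj_mem_of_le_normalizer hED he hd.1, x.Cm_one_conj (le_normalizer he) (hDY hd.1) hd.2⟩
    · intro y hy
      apply mem_normalizer_of_map_conj_le
      rintro _ ⟨d, hd, rfl⟩
      change y * d * y⁻¹ ∈ Δ
      refine hΔ.mpr ⟨conj_mem_of_le_normalizer hYD hy hd.1, ?_⟩
      rw [x.Cm_mul H (mul_mem hy (hDY hd.1)) (inv_mem hy), x.Cm_mul H hy (hDY hd.1), hd.2, mul_one,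
        ← x.Cm_mul H hy (inv_mem hy), mul_inv_cancel, x.Cm_one]
  let K' : Subgroup G :=
    { carrier := {m | m ∈ Po G ∧ ∀ l ∈ Yo G, l * m * l⁻¹ ∈ x.K}
      mul_mem' := by
        rintro a c ⟨ha, ha'⟩ ⟨hc, hc'⟩
        refine ⟨mul_mem ha hc, fun l hl => ?_⟩
        have e1 : l * (a * c) * l⁻¹ = (l * a * l⁻¹) * (l * c * l⁻¹) := by group
        rw [e1]; exact mul_mem (ha' l hl) (hc' l hl)
      one_mem' := ⟨one_mem _, fun l _ => by
        have e1 : l * 1 * l⁻¹ = 1 := by group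
        rw [e1]; exact one_mem _⟩
      inv_mem' := by
        rintro a ⟨ha, ha'⟩
        refine ⟨inv_mem ha, fun l hl => ?_⟩
        have e1 : l * a⁻¹ * l⁻¹ = (l * a * l⁻¹)⁻¹ := by group
        rw [e1]; exact inv_mem (ha' l hl) }
  have hK' : ∀ {m}, m ∈ K' ↔ m ∈ Po G ∧ ∀ l ∈ Yo G, l * m * l⁻¹ ∈ x.K := Iff.rfl
  have hLK : L ≤ normalizer (K' : Set G) := by
    refine sup_le ?_ ?_
    · intro e he
      apply mem_normalizer_of_map_conj_le
      rintro _ ⟨m, hm, rfl⟩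
      change e * m * e⁻¹ ∈ K'
      refine hK'.mpr ⟨conjP hm.1, fun l hl => ?_⟩
      have e1 : l * (e * m * e⁻¹) * l⁻¹ = e * ((e⁻¹ * l * e⁻¹⁻¹) * m * (e⁻¹ * l * e⁻¹⁻¹)⁻¹) * e⁻¹ := by group
      rw [e1]
      exact x.K_conj (le_normalizer he) (hm.2 _ (conjY hl))
    · intro y hy
      apply mem_normalizer_of_map_conj_le
      rintro _ ⟨m, hm, rfl⟩
      change y * m * y⁻¹ ∈ K'
      refine hK'.mpr ⟨conjP hm.1, fun l hl => ?_⟩
      have e1 : l * (y * m * y⁻¹) * l⁻¹ = (l * y) * m * (l * y)⁻¹ := by group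
      rw [e1]
      exact hm.2 _ (mul_mem hl hy)
  have hEL : E ≤ L := le_sup_left
  have hDn : D ≤ ncl L E := by
    rw [hD, commutator_le]
    intro e he y hy
    have e1 : ⁅e, y⁆ = e * (y * e⁻¹ * y⁻¹) := by rw [commutatorElement_def]; group
    rw [e1]
    exact mul_mem (le_ncl L E he) (conj_mem_of_le_normalizer (le_normalizer_ncl L E)
      ((le_sup_right : Yo G ≤ L) hy) (inv_mem (le_ncl L E he)))
  have hΔp : IsPGroup 3 Δ := by
    apply isPGroup_of_pRes_le x.hG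
    set X := pRes 3 Δ with hX
    have hXΔ : X ≤ Δ := pRes_le _ _
    have hXn : X ≤ ncl L E := (hXΔ.trans (fun _ h => h.1)).trans hDn
    have c1 : ⁅Po G, X⁆ ≤ ncl L (Qo E) :=
      (commutator_mono le_rfl hXn).trans (LocMore.commutator_ncl_le (le_N_pCore _) (le_normalizer_ncl _ _) hEL
        (x.big.le.trans (le_ncl _ _)))
    have c2 : ⁅ncl L (Qo E), X⁆ ≤ K' := by
      rw [commutator_comm]
      refine (commutator_mono hXΔ le_rfl).trans (LocMore.commutator_ncl_le hLΔ hLK (QE.trans hEL) ?_)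
      rw [commutator_le]
      intro d hd u hu
      have huP := x.QP hu
      refine hK'.mpr ⟨?_, fun l hl => ?_⟩
      · rw [commutatorElement_def]
        exact mul_mem (conjP huP) (inv_mem huP)
      · have hdY := hDY hd.1
        have e1 : l * ⁅d, u⁆ * l⁻¹ = ((l * d) * u * (l * d)⁻¹) * (l * u * l⁻¹)⁻¹ := by
          rw [commutatorElement_def]; group
        rw [e1]
        refine x.mem_K.mpr ⟨mul_mem (conjP huP) (inv_mem (conjP huP)), ?_⟩
        rw [x.Pi_mul (conjP huP) (inv_mem (conjP huP)), x.Pi_inv (conjP huP), x.Cm_spec (mul_mem hl hdY) hu,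
          x.Cm_spec hl hu, x.Cm_mul H hl hdY, hd.2, mul_one, add_neg_cancel]
    have c3 : ⁅K', X⁆ ≤ Wo E := by
      refine (commutator_mono le_rfl hXn).trans (LocMore.commutator_ncl_le hLK (sup_le x.Wn x.YNW) hEL ?_)
      rw [commutator_le]
      intro m hm e he
      have h5 : m ∈ x.K := by
        have := hm.2 1 (one_mem _)
        simpa using this
      rw [← commutatorElement_inv]
      exact inv_mem (x.K_comm h5 he)
    have c4 : ⁅Wo E, X⁆ = ⊥ := by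
      rw [commutator_eq_bot_iff_le_centralizer, Subgroup.le_centralizer_iff]
      exact (hXΔ.trans (fun _ h => hDY h.1)).trans x.YW
    have c5 : ⁅⁅Po G, X⁆, X⁆ = ⁅Po G, X⁆ := commutator_pRes_idem x.Pp (le_N_pCore _)
    rw [Subgroup.le_centralizer_iff, ← commutator_eq_bot_iff_le_centralizer, ← le_bot_iff, ← c4]
    have d1 : ⁅Po G, X⁆ ≤ K' := by
      rw [← c5]; exact (commutator_mono c1 le_rfl).trans c2
    have d2 : ⁅Po G, X⁆ ≤ Wo E := by
      rw [← c5]; exact (commutator_mono d1 le_rfl).trans c3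
    rw [← c5]
    exact commutator_mono d2 le_rfl
  by_cases hDp : IsPGroup 3 D
  · exact H56Bau.fin x.blk hEY hBY hDp
  · exfalso
    obtain ⟨k, hk, hk1⟩ := x.exists_neg H hDY hED hΔ hΔp hDp
    -- commute with `t`
    have hkY := hDY hk
    have hkinv : x.Cm k⁻¹ = -1 := by
      rw [x.Cm_inv hkY, hk1, Matrix.adjugate_fin_two]
      ext i j
      fin_cases i <;> fin_cases j <;> simp
    have h6 : k⁻¹ * (x.t * k * x.t⁻¹) ∈ Δ := by
      refine hΔ.mpr ⟨mul_mem (inv_mem hk) (conj_mem_of_le_normalizer hED x.ht hk), ?_⟩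
      rw [x.Cm_mul H (inv_mem hkY) (conjY hkY), hkinv, x.Cm_neg_conj (le_normalizer x.ht) hkY hk1]
      simp
    obtain ⟨e, he, het⟩ := odd_adjust hΔp x.tt h6
    have hkD : k * e ∈ D := mul_mem hk he.1
    refine x.NQ3 hb hDY hBD hΔ hΔp hkD ?_ (by rw [x.Cm_mul H hkY (hDY he.1), hk1, he.2, mul_one])
    set z := k * e with hz
    have hzY : z ∈ Yo G := hDY hkD
    apply mem_normalizer_of_map_conj_le
    rintro _ ⟨u, hu, rfl⟩
    change z * u * z⁻¹ ∈ _
    have huP : u⁻¹ ∈ Po G := inv_mem (x.QP hu)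
    have h7 : x.sQ.ψ ⁅u⁻¹, x.t⁆ = x.sQ.ψ u := by
      have h8 := x.Pi_Q (inv_mem hu)
      unfold Pi at h8
      rw [x.sQ.ψ_inv hu] at h8
      exact neg_injective h8
    have h9 := (x.sQ.ψ_eq (x.commt huP) hu).mp h7
    have e1 : z * u * z⁻¹ = ⁅z * u⁻¹ * z⁻¹, z * x.t * z⁻¹⁆ * (z * (⁅u⁻¹, x.t⁆⁻¹ * u) * z⁻¹) := by
      simp only [commutatorElement_def]; group
    have e2 : z * x.t * z⁻¹ = x.t := by rw [het]; group
    rw [e1, e2, x.Yconj h9 hzY]
    exact mul_mem (x.commt (conjP huP)) (WQ h9)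

theorem EY_Q {b : G} (hb : Quad (T := T) (E := E) b) : ⁅E, Yo G⁆ ≤ Qo E := by
  intro g hg
  have h1 : g ∈ E := commutator_le_left_of_le (x.stepI hb) hg
  have h2 : g ∈ Yo G := commutator_le_right_of_le (fun g _ => Yn g) hg
  exact x.cen_E h1 (x.YWE h2)

end Exc

end Cfsg.Agent.Lib.H56Bau
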