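import Cfsg.Agent.Lib.H56BauK

/-!
# S2985, part L: `C_G(W_E)` normalizes `E` (helper56)
-/

set_option autoImplicit false
set_option linter.unusedSectionVars false

namespace Cfsg.Agent.Lib.H56Bau

open Subgroup Cfsg Cfsg.Agent.Lib.LocBase Cfsg.Agent.Lib.PReduced Cfsg.Agent.Lib.BBlock
open Cfsg.Agent.Lib.BBlock.Blk (WE)
open scoped commutatorElement Matrix

universe u
variable {G : Type u} [Group G] [Finite G]

/-- general form of **S2983** -/
theorem normalizes_gen {p : ℕ} [hp : Fact p.Prime] {E B Q : Subgroup G} (hE1 : pRes p E = E) (hE2 : ⁅E, B⁆ = E)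
    (hQ : IsPGroup p Q) (hBQ : B ≤ normalizer (Q : Set G)) (hEQ : E ≤ normalizer (Q : Set G))
    (key : Q ≤ normalizer (B : Set G)) : Q ≤ normalizer (E : Set G) := by
  have hBE : B ≤ normalizer (E : Set G) := le_normalizer_of_commutator_eq hE2
  by_contra hcon
  set Q₁ := Q ⊓ normalizer (E : Set G) with hQ₁
  have hlt : Q₁ < Q := lt_of_le_of_ne inf_le_left (fun e => hcon (by rw [← e]; exact inf_le_right))
  have hlt2 := LocMore.lt_inf_normalizer hQ hlt
  set Q₂ := Q ⊓ normalizer (Q₁ : Set G) with hQ₂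
  have hEN : E ≤ normalizer (E : Set G) := le_normalizer
  have hNN : ∀ K : Subgroup G, K ≤ normalizer (E : Set G) → K ≤ normalizer (Q : Set G) →
      K ≤ normalizer (Q₁ : Set G) ∧ K ≤ normalizer (Q₂ : Set G) := by
    intro K h1 h2
    have h3 : K ≤ normalizer (Q₁ : Set G) := le_normalizer_inf h2 (h1.trans le_normalizer)
    exact ⟨h3, le_normalizer_inf h2 (h3.trans le_normalizer)⟩
  obtain ⟨hE1', hE2'⟩ := hNN E hEN hEQ
  obtain ⟨hB1, hB2⟩ := hNN B hBE hBQ
  have hQ₂N : Q₂ ≤ normalizer (Q₁ : Set G) := inf_le_right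
  have hQ₁p : IsPGroup p Q₁ := hQ.to_le inf_le_left
  have h1 : ⁅Q₂, B⁆ ≤ Q₁ := by
    refine le_inf ?_ ?_
    · exact (commutator_mono inf_le_left le_rfl).trans (commutator_le_left_of_le hBQ)
    · exact (commutator_le_right_of_le ((inf_le_left : Q₂ ≤ Q).trans key)).trans hBE
  have h2 : ⁅⁅E, B⁆, Q₂⁆ ≤ Q₁ := by
    refine PAct.three_subgroups hE1' hB1 hQ₂N ?_ ?_
    · rw [commutator_comm B]
      exact (commutator_mono h1 le_rfl).trans (commutator_le_left_of_le hE1')
    · exact (commutator_mono (commutator_le_left_of_le hE2') le_rfl).trans h1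
  rw [hE2, commutator_comm] at h2
  have h3 := normalizes_of_sup hE1 hQ₁p inf_le_right hQ₂N h2
  exact absurd (le_inf inf_le_left h3 : Q₂ ≤ Q₁) (not_le_of_gt hlt2)

theorem map_pRes_le {p : ℕ} {G' : Type*} [Group G'] (f : G →* G') (H : Subgroup G) :
    (pRes p H).map f ≤ pRes p (H.map f) := by
  rw [map_le_iff_le_comap, pRes_le_iff]
  intro g hg ho
  exact mem_pRes (mem_map_of_mem f hg) (Nat.Coprime.coprime_dvd_left (orderOf_map_dvd f g) ho)

namespace Exc

variable {T E : Subgroup G} {F : Type} [Field F] (x : Exc T E F)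
include x

omit x in
abbrev Ce (E : Subgroup G) : Subgroup G := centralizer (WE 3 E : Set G)

theorem EC : E ≤ normalizer (Ce E : Set G) := le_normalizer_centralizer (le_normalizer.trans NEWE)
theorem BC : baumannSubgroupOf 3 T ≤ normalizer (Ce E : Set G) := le_normalizer_centralizer (x.BN.trans NEWE)
theorem PC : Po G ≤ Ce E := pCore_le_C x.blk x.hG

theorem VE : ⁅Vo G, E⁆ ≤ WE 3 E := by
  have h1 : ⁅Vo G, E⁆ ≤ Wo E := by
    refine le_trans (le_inf (commutator_le_left_of_le (fun g _ => Vn g)) ?_) x.VQ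
    exact (commutator_mono (OZ_le _) le_rfl).trans x.big.le
  have h2 : ⁅⁅Vo G, E⁆, E⁆ = ⁅Vo G, E⁆ := by
    have := commutator_pRes_idem (x.Pp.to_le (OZ_le _) : IsPGroup 3 (Vo G)) (K := E) (fun g _ => Vn g)
    rwa [x.blk.res] at this
  rw [← h2]
  exact commutator_mono h1 le_rfl

theorem D_res : pRes 3 ⁅E, Ce E⁆ ≤ Yo G := by
  have hDC : ⁅E, Ce E⁆ ≤ Ce E := commutator_le_right_of_le x.EC
  have hCW : Ce E ≤ normalizer (WE 3 E : Set G) := Subgroup.centralizer_le_normalizer _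
  have h1 : ⁅⁅E, Ce E⁆, Vo G⁆ ≤ WE 3 E := by
    refine PAct.three_subgroups (le_normalizer.trans NEWE) hCW (((OZ_le _).trans x.PC).trans hCW) ?_ ?_
    · exact (commutator_mono (commutator_le_right_of_le (fun g _ => Vn g)) le_rfl).trans x.VE
    · refine (commutator_mono x.VE le_rfl).trans ?_
      rw [commutator_comm, commutator_eq_bot_iff_le_centralizer.mpr le_rfl]
      exact bot_le
  refine pRes_le_centralizer_of_chain (P := Vo G) (Q := WE 3 E) (x.Pp.to_le (OZ_le _)) (fun g _ => Vn g) ?_ ?_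
  · rw [commutator_comm]
    exact (commutator_mono (pRes_le _ _) le_rfl).trans h1
  · exact (pRes_le _ _).trans hDC

/-- `[E, C(W_E)] ≤ C(V)` -/
theorem D_le_Y : ⁅E, Ce E⁆ ≤ Yo G := by
  set D := ⁅E, Ce E⁆ with hD
  set B := baumannSubgroupOf 3 T with hB
  have hBp : IsPGroup 3 B := x.blk.syl.pgroup.to_le (bau_le 3 T)
  have hYn : (Yo G).Normal := ⟨fun y hy g => conjY hy⟩
  have hED : E ≤ normalizer (D : Set G) := normalizer_commutator_ge_left _ _
  have hCD : Ce E ≤ normalizer (D : Set G) := normalizer_commutator_ge_right _ _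
  have hBD : B ≤ normalizer (D : Set G) := le_normalizer_commutator x.BN x.BC
  have hDC : D ≤ Ce E := commutator_le_right_of_le x.EC
  let π := QuotientGroup.mk' (Yo G)
  have hker : ∀ {H : Subgroup G}, H ≤ Yo G → H.map π = ⊥ := by
    intro H hH
    rw [Subgroup.map_eq_bot_iff, QuotientGroup.ker_mk']; exact hH
  have hEr : pRes 3 (E.map π) = E.map π := by
    apply le_antisymm (pRes_le _ _)
    have := map_pRes_le (p := 3) π E
    rwa [x.blk.res] at this
  have hEB : ⁅E.map π, B.map π⁆ = E.map π := by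
    rw [← Subgroup.map_commutator, x.blk.comm]
  have hDp : IsPGroup 3 (D.map π) := by
    rintro ⟨_, d, hd, rfl⟩
    obtain ⟨k, hk⟩ := exists_pow_mem_pRes (p := 3) (H := D) hd
    refine ⟨k, ?_⟩
    apply Subtype.ext
    change (π d) ^ 3 ^ k = 1
    rw [← map_pow]
    have h1 := x.D_res hk
    exact (QuotientGroup.eq_one_iff _).mpr h1
  have hmapN : ∀ {A K : Subgroup G}, A ≤ normalizer (K : Set G) → A.map π ≤ normalizer (K.map π : Set _) := by
    intro A K h
    exact (Subgroup.map_mono h).trans (Subgroup.le_normalizer_map _)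
  have hDB : D.map π ≤ normalizer (B.map π : Set _) := by
    obtain ⟨R, hR, hBR⟩ := exists_isSyl_ge hBp (le_sup_right : B ≤ D ⊔ B)
    have h1 : IsSyl 3 (R ⊓ D) D := hR.inf_normal le_sup_left (sup_le le_normalizer hBD)
    have h2 := h1.sup_pRes
    rw [← h2, Subgroup.map_sup, hker x.D_res, sup_bot_eq]
    apply hmapN
    refine inf_le_left.trans (le_normalizer.trans (norm_bau x.blk.syl hR.pgroup hBR))
  have hDN : D.map π ≤ normalizer (E.map π : Set _) :=
    normalizes_gen hEr hEB hDp (hmapN hBD) (hmapN hED) hDB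
  have hCN : (Ce E).map π ≤ normalizer (E.map π : Set _) := by
    refine normalizes_of_sup hEr hDp hDN (hmapN hCD) ?_
    rw [← Subgroup.map_commutator, commutator_comm]
  rw [hD, commutator_le]
  intro e he c hc
  have h3 : π ⁅e, c⁆ ∈ E.map π := by
    rw [map_commutatorElement]
    exact commutator_le_left_of_le hCN (commutator_mem_commutator (mem_map_of_mem π he) (mem_map_of_mem π hc))
  obtain ⟨e', he', hee⟩ := h3
  have h4 : e'⁻¹ * ⁅e, c⁆ ∈ Yo G := by
    rw [← QuotientGroup.eq_one_iff]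
    change π (e'⁻¹ * ⁅e, c⁆) = 1
    rw [map_mul, map_inv, hee, inv_mul_cancel]
  have h5 : ⁅e, c⁆ ∈ Ce E := hDC (commutator_mem_commutator he hc)
  have h6 : e' ∈ Ce E := by
    have e1 : e' = ⁅e, c⁆ * (e'⁻¹ * ⁅e, c⁆)⁻¹ := by group
    rw [e1]; exact mul_mem h5 (inv_mem (x.YWE h4))
  have h7 := x.QY (x.cen_E he' h6)
  have e2 : ⁅e, c⁆ = e' * (e'⁻¹ * ⁅e, c⁆) := by group
  rw [e2]; exact mul_mem h7 h4

/-- elements of `C_G(W_E)` commuting with `t` normalize `Q` -/
theorem C_NQ_of_comm {z : G} (hz : z ∈ Ce E) (hzt : z * x.t = x.t * z) : z ∈ normalizer (Qo E : Set G) := by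
  let Q₀ : Subgroup G := Qo E ⊓ (Qo E).comap (MulAut.conj z).toMonoidHom
  have hQ₀ : ∀ {u}, u ∈ Q₀ ↔ u ∈ Qo E ∧ z * u * z⁻¹ ∈ Qo E := Iff.rfl
  have hWEW : WE 3 E ≤ Wo E := commutator_le_left_of_le x.Wn
  have hdec : ∀ u ∈ Qo E, ∃ v ∈ Q₀, ∃ w ∈ Zo E, u = v * w := by
    intro u hu
    have huP : u⁻¹ ∈ Po G := inv_mem (x.QP hu)
    have h7 : x.sQ.ψ ⁅u⁻¹, x.t⁆ = x.sQ.ψ u := by
      have h8 := x.Pi_Q (inv_mem hu)
      unfold Pi at h8
      rw [x.sQ.ψ_inv hu] at h8
      exact neg_injective h8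
    have h9 := (x.sQ.ψ_eq (x.commt huP) hu).mp h7
    obtain ⟨a, ha, w, hw, haw⟩ := x.W_dec h9
    refine ⟨⁅u⁻¹, x.t⁆ * a, ?_, w, hw, ?_⟩
    · refine hQ₀.mpr ⟨mul_mem (x.commt huP) (WQ (hWEW ha)), ?_⟩
      have e1 : z * (⁅u⁻¹, x.t⁆ * a) * z⁻¹ = ⁅z * u⁻¹ * z⁻¹, z * x.t * z⁻¹⁆ * (z * a * z⁻¹) := by
        simp only [commutatorElement_def]; group
      have e2 : z * x.t * z⁻¹ = x.t := by rw [hzt]; group
      have e3 : z * a * z⁻¹ = a := by
        have := mem_centralizer_iff.mp hz a ha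
        rw [← this]; group
      rw [e1, e2, e3]
      exact mul_mem (x.commt (conjP huP)) (WQ (hWEW ha))
    · rw [mul_assoc, ← haw]; group
  have hZ : Zo E ≤ Q₀ := by
    rw [← x.QQ, commutator_le]
    intro u hu v hv
    obtain ⟨u', hu', w, hw, rfl⟩ := hdec u hu
    obtain ⟨v', hv', w', hw', rfl⟩ := hdec v hv
    have key : ∀ a c w : G, a ∈ Qo E → c ∈ Qo E → w ∈ Zo E → ⁅a * w, c⁆ = ⁅a, c⁆ := by
      intro a c w ha hc hw
      have : ⁅w, c⁆ = 1 := by rw [commutatorElement_eq_one_iff_mul_comm]; exact Wcomm (ZW hw) hc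
      rw [commutatorElement_mul_left_eq_conj_mul, this]; group
    rw [key u' _ w hu'.1 hv hw, ← commutatorElement_inv, key v' u' w' hv'.1 hu'.1 hw', commutatorElement_inv]
    rw [commutatorElement_def]
    exact mul_mem (mul_mem (mul_mem hu' hv') (inv_mem hu')) (inv_mem hv')
  apply mem_normalizer_of_map_conj_le
  rintro _ ⟨u, hu, rfl⟩
  obtain ⟨v, hv, w, hw, rfl⟩ := hdec u hu
  exact (hQ₀.mp (mul_mem hv (hZ hw))).2

theorem scalar_of {A : Matrix (Fin 2) (Fin 2) F} (hA : A.det = 1) (hi : x.R x.i0 * A = A * x.R x.i0)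
    (hj : x.R x.j0 * A = A * x.R x.j0) : A = 1 ∨ A = -1 := by
  have h1 : x.R x.i0 = !![0, -1; 1, 0] := x.iρ
  have h2 : x.R x.j0 = !![1, 1; 1, -1] := x.jρ
  rw [h1] at hi
  rw [h2] at hj
  rw [Matrix.det_fin_two] at hA
  have a00 := congrFun (congrFun hi 0) 0
  have a01 := congrFun (congrFun hi 0) 1
  have b00 := congrFun (congrFun hj 0) 0
  simp only [Matrix.mul_apply, Fin.sum_univ_two, Matrix.of_apply, Matrix.cons_val', Matrix.cons_val_zero, Matrix.cons_val_one,
    Matrix.cons_val_fin_one, Fin.isValue] at a00 a01 b00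
  have c1 : A 0 1 = 0 := by
    have : 2 * A 0 1 = 0 := by linear_combination -a00 - b00
    exact (mul_eq_zero.mp this).resolve_left x.two_ne
  have c2 : A 1 0 = 0 := by linear_combination -a00 - c1
  have c3 : A 0 0 = A 1 1 := by linear_combination a01
  have c4 : (A 1 1 - 1) * (A 1 1 + 1) = 0 := by
    rw [c1, c3] at hA; linear_combination hA
  rcases mul_eq_zero.mp c4 with h | h
  · left
    have h7 := sub_eq_zero.mp h
    ext i j
    fin_cases i <;> fin_cases j <;> simp [c1, c2, c3, h7]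
  · right
    have h7 := eq_neg_of_add_eq_zero_left h
    ext i j
    fin_cases i <;> fin_cases j <;> simp [c1, c2, c3, h7]

/-- **Step II** -/
theorem stepII {b : G} (hb : Quad (T := T) (E := E) b) : Ce E ≤ normalizer (E : Set G) := by
  have H := x.Cm_ne hb
  set D := ⁅E, Ce E⁆ with hD
  have hDY : D ≤ Yo G := x.D_le_Y
  have hED : E ≤ normalizer (D : Set G) := normalizer_commutator_ge_left _ _
  have hCD : Ce E ≤ normalizer (D : Set G) := normalizer_commutator_ge_right _ _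
  have hBD : baumannSubgroupOf 3 T ≤ normalizer (D : Set G) := le_normalizer_commutator x.BN x.BC
  have hDC : D ≤ Ce E := commutator_le_right_of_le x.EC
  have hEDQ : ⁅E, D⁆ ≤ Qo E := (commutator_mono le_rfl hDY).trans (x.EY_Q hb)
  have hDD : ⁅D, D⁆ ≤ Po G := by
    refine PAct.three_subgroups (N := Po G) (le_N_pCore _) (le_N_pCore _) (le_N_pCore _) ?_ ?_
    · refine (commutator_mono (commutator_le_right_of_le hCD) le_rfl).trans ?_
      rw [commutator_comm]
      exact hEDQ.trans x.QP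
    · rw [commutator_comm D]
      exact (commutator_mono (hEDQ.trans x.QP) le_rfl).trans (commutator_le_left_of_le (le_N_pCore _))
  have hPn : (Po G).Normal := pCore_normal 3 G
  -- conjugates of `t`
  have hct : ∀ c ∈ Ce E, c⁻¹ * (x.t * c * x.t⁻¹) ∈ Po G := by
    intro c hc
    let π := QuotientGroup.mk' (Po G)
    have hπ : ∀ {g : G}, g ∈ Po G → π g = 1 := fun {g} hg => (QuotientGroup.eq_one_iff _).mpr hg
    have hcomm : ∀ {a d : G}, ⁅a, d⁆ ∈ Po G → Commute (π a) (π d) := by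
      intro a d h
      have := hπ h
      rw [map_commutatorElement, commutatorElement_eq_one_iff_mul_comm] at this
      exact this
    obtain ⟨d, hd⟩ : ∃ d, d = ⁅c, x.i0⁆ := ⟨_, rfl⟩
    obtain ⟨d', hd'⟩ : ∃ d, d = ⁅c, x.j0⁆ := ⟨_, rfl⟩
    have hdD : d ∈ D := by
      rw [hd, ← commutatorElement_inv]; exact inv_mem (commutator_mem_commutator x.hi0 hc)
    have hd'D : d' ∈ D := by
      rw [hd', ← commutatorElement_inv]; exact inv_mem (commutator_mem_commutator x.hj0 hc)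
    have cED : ∀ {e d : G}, e ∈ E → d ∈ D → Commute (π d) (π e) := fun {e d} he hd =>
      (hcomm (x.QP (hEDQ (commutator_mem_commutator he hd)))).symm
    have c1 := cED x.hi0 hdD
    have c2 := cED x.hj0 hdD
    have c3 := cED x.hi0 hd'D
    have c4 := cED x.hj0 hd'D
    have c5 : Commute (π d) (π d') := hcomm (hDD (commutator_mem_commutator hdD hd'D))
    have e1 : c * ⁅x.i0, x.j0⁆ * c⁻¹ = ⁅d * x.i0, d' * x.j0⁆ := by
      rw [hd, hd']; simp only [commutatorElement_def]; group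
    have e2 : π (c * ⁅x.i0, x.j0⁆ * c⁻¹) = π ⁅x.i0, x.j0⁆ := by
      rw [e1, map_commutatorElement, map_mul, map_mul, map_commutatorElement, commutatorElement_mul_left_eq_conj_mul]
      have f1 : ⁅π d, π d' * π x.j0⁆ = 1 := by
        rw [commutatorElement_eq_one_iff_commute]
        exact c5.mul_right c2
      have f2 : ⁅π x.i0, π d' * π x.j0⁆ = ⁅π x.i0, π x.j0⁆ := by
        rw [← commutatorElement_inv, commutatorElement_mul_left_eq_conj_mul]
        have f3 : ⁅π d', π x.i0⁆ = 1 := commutatorElement_eq_one_iff_commute.mpr c3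
        have f4 : Commute (π d') ⁅π x.j0, π x.i0⁆ := by
          rw [commutatorElement_def]
          exact ((c4.mul_right c3).mul_right c4.inv_right).mul_right c3.inv_right
        rw [f3, mul_one, f4.eq, mul_inv_cancel_right, commutatorElement_inv]
      have f5 : Commute (π d) ⁅π x.i0, π x.j0⁆ := by
        rw [commutatorElement_def]
        exact ((c1.mul_right c2).mul_right c1.inv_right).mul_right c2.inv_right
      rw [f1, f2, mul_one, f5.eq, mul_inv_cancel_right]
    have e3 : ⁅x.i0, x.j0⁆ = x.t * (x.t⁻¹ * ⁅x.i0, x.j0⁆) := by group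
    have e4 : π ⁅x.i0, x.j0⁆ = π x.t := by
      rw [e3, map_mul, hπ (x.QP x.ijt), mul_one]
    rw [map_mul, map_mul, e4] at e2
    rw [← QuotientGroup.eq_one_iff]
    change π (c⁻¹ * (x.t * c * x.t⁻¹)) = 1
    rw [map_mul, map_mul, map_mul, map_inv, map_inv]
    rw [map_inv] at e2
    have e5 : π c * π x.t = π x.t * π c := by
      have := mul_inv_eq_iff_eq_mul.mp e2
      exact this
    rw [← e5]; group
  have hCQ : Ce E ≤ normalizer (Qo E : Set G) := by
    intro c hc
    obtain ⟨e, he, het⟩ := odd_adjust x.Pp x.tt (hct c hc)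
    have h1 := x.C_NQ_of_comm (mul_mem hc (x.PC he)) het
    have h2 : c = c * e * e⁻¹ := by group
    rw [h2]
    exact mul_mem h1 (inv_mem ((x.PN.trans NEQ) he))
  have hDP : ⁅D, Po G⁆ ≤ Qo E := by
    refine PAct.three_subgroups (N := Qo E) x.Qn hCQ (x.PN.trans NEQ) ?_ ?_
    · exact (commutator_mono (commutator_le_right_of_le (le_N_pCore _)) le_rfl).trans x.big.le
    · rw [x.big]
      exact commutator_le_left_of_le hCQ
  let Δ : Subgroup G :=
    { carrier := {d | d ∈ D ∧ x.Cm d = 1}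
      mul_mem' := by
        rintro a c ⟨ha, ha'⟩ ⟨hc, hc'⟩
        exact ⟨mul_mem ha hc, by rw [x.Cm_mul H (hDY ha) (hDY hc), ha', hc', one_mul]⟩
      one_mem' := ⟨one_mem _, x.Cm_one⟩
      inv_mem' := by
        rintro a ⟨ha, ha'⟩
        refine ⟨inv_mem ha, ?_⟩
        rw [x.Cm_inv (hDY ha), ha', Matrix.adjugate_one] }
  have hΔ : ∀ {d}, d ∈ Δ ↔ d ∈ D ∧ x.Cm d = 1 := Iff.rfl
  have hΔD : Δ ≤ D := fun _ h => h.1
  have hΔp : IsPGroup 3 Δ := by
    apply isPGroup_of_pRes_le x.hG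
    set X := pRes 3 Δ with hX
    have hXΔ : X ≤ Δ := pRes_le _ _
    have c1 : ⁅Po G, X⁆ ≤ Qo E := by
      rw [commutator_comm]
      exact (commutator_mono (hXΔ.trans hΔD) le_rfl).trans hDP
    have c2 : ⁅Qo E, X⁆ ≤ Wo E := by
      rw [commutator_comm]
      refine (commutator_mono hXΔ le_rfl).trans ?_
      rw [commutator_le]
      intro d hd u hu
      have h1 : d * u * d⁻¹ ∈ Qo E := (mem_normalizer_iff.mp (hCQ (hDC hd.1)) _).mp hu
      rw [commutatorElement_def, ← x.sQ.ψ_ker _ (mul_mem h1 (inv_mem hu)), x.sQ.ψ_mul _ h1 _ (inv_mem hu), x.sQ.ψ_inv hu,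
        ← x.Pi_Q h1, x.Cm_spec (hDY hd.1) hu, hd.2, Matrix.one_mulVec, add_neg_cancel]
    have c4 : ⁅Wo E, X⁆ = ⊥ := by
      rw [commutator_eq_bot_iff_le_centralizer, Subgroup.le_centralizer_iff]
      exact (hXΔ.trans (fun _ h => hDY h.1)).trans x.YW
    have c5 : ⁅⁅Po G, X⁆, X⁆ = ⁅Po G, X⁆ := commutator_pRes_idem x.Pp (le_N_pCore _)
    rw [Subgroup.le_centralizer_iff, ← commutator_eq_bot_iff_le_centralizer, ← le_bot_iff, ← c4]
    have d2 : ⁅Po G, X⁆ ≤ Wo E := by
      rw [← c5]; exact (commutator_mono c1 le_rfl).trans c2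
    rw [← c5]
    exact commutator_mono d2 le_rfl
  have hDΔ : D ≤ Δ := by
    intro d hd
    have hdY := hDY hd
    have hcom : ∀ s ∈ E, x.R s * x.Cm d = x.Cm d * x.R s := by
      intro s hs
      have h1 : ⁅s, d⁆ ∈ Qo E := hEDQ (commutator_mem_commutator hs hd)
      have h2 : x.Cm (s * d * s⁻¹) = x.Cm d := by
        have e1 : s * d * s⁻¹ = ⁅s, d⁆ * d := by rw [commutatorElement_def]; group
        rw [e1, x.Cm_mul H (x.QY h1) hdY, x.Cm_Q h1, one_mul]
      rw [x.Cm_conj H hdY hs] at h2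
      calc x.R s * x.Cm d = (x.R s * x.Cm d * x.R s⁻¹) * x.R s := by
            rw [mul_assoc (x.R s * x.Cm d), x.R_inv_mul hs, mul_one]
        _ = _ := by rw [h2]
    rcases x.scalar_of (x.det_one H hdY) (hcom _ x.hi0) (hcom _ x.hj0) with h | h
    · exact hΔ.mpr ⟨hd, h⟩
    · exact (x.NQ3 hb hDY hBD hΔ hΔp hd (hCQ (hDC hd)) h).elim
  exact H56Bau.fin x.blk x.EC x.BC (hΔp.to_le hDΔ)

end Exc

end Cfsg.Agent.Lib.H56Bau
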