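import Cfsg.Agent.Lib.H56BauH

/-!
# S2985, part M: existence of quadratic elements (helper56)
-/

set_option autoImplicit false
set_option linter.unusedSectionVars false

namespace Cfsg.Agent.Lib.H56Bau

open Subgroup Cfsg Cfsg.Agent.Lib.LocBase Cfsg.Agent.Lib.PReduced Cfsg.Agent.Lib.BBlock
open Cfsg.Agent.Lib.BBlock.Blk (WE)
open scoped commutatorElement Matrix

section mat

variable {F : Type*} [Field F]

theorem cayley0 (A : Matrix (Fin 2) (Fin 2) F) : A * A = (A 0 0 + A 1 1) • A - A.det • (1 : Matrix (Fin 2) (Fin 2) F) := by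
  rw [Matrix.det_fin_two]
  ext i j
  fin_cases i <;> fin_cases j <;> simp [Matrix.mul_apply, Fin.sum_univ_two] <;> ring

theorem unip (h3 : (3 : F) = 0) (M : Matrix (Fin 2) (Fin 2) F) {k : ℕ} (h : M ^ 3 ^ k = 1) : (M - 1) * (M - 1) = 0 := by
  have : CharP F 3 := (CharP.charP_iff_prime_eq_zero Nat.prime_three).mpr (by exact_mod_cast h3)
  have : CharP (Matrix (Fin 2) (Fin 2) F) 3 := Matrix.charP 3
  have h1 : (M - 1) ^ 3 ^ k = 0 := by
    rw [sub_pow_char_pow_of_commute (p := 3) _ (Commute.one_right M), h, one_pow, sub_self]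
  set N := M - 1 with hN
  have h2 : N.det = 0 := by
    have h4 : N.det ^ 3 ^ k = 0 := by
      rw [← Matrix.det_pow, h1, Matrix.det_zero]
    exact pow_eq_zero_iff (by positivity) |>.mp h4
  have hc := cayley0 N
  rw [h2, zero_smul, sub_zero] at hc
  set τ := N 0 0 + N 1 1 with hτ
  have h5 : ∀ m : ℕ, N ^ (m + 1) = τ ^ m • N := by
    intro m
    induction m with
    | zero => simp
    | succ m ih => rw [pow_succ, ih, Matrix.smul_mul, hc, smul_smul, pow_succ]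
  have h6 : τ ^ 3 ^ k • N = 0 := by
    rw [← h5, pow_succ, h1, zero_mul]
  rcases smul_eq_zero.mp h6 with h7 | h7
  · have h8 : τ = 0 := pow_eq_zero_iff (by positivity) |>.mp h7
    rw [hc, h8, zero_smul]
  · rw [h7, mul_zero]

end mat

universe u
variable {G : Type u} [Group G] [Finite G]

namespace NatSec

variable {F : Type*} [Field F] {E U U₀ : Subgroup G} (s : NatSec F E U U₀)

theorem exists_beta {b : G} (hU : b ∈ normalizer (U : Set G)) (hU₀ : b ∈ normalizer (U₀ : Set G)) :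
    ∃ β : (Fin 2 → F) → (Fin 2 → F), (∀ u ∈ U, s.ψ (b * u * b⁻¹) = β (s.ψ u)) ∧ ∀ v w, β (v + w) = β v + β w := by
  have hc : ∀ u ∈ U, b * u * b⁻¹ ∈ U := fun u hu => (mem_normalizer_iff.mp hU _).mp hu
  have key : ∀ u ∈ U, ∀ v ∈ U, s.ψ u = s.ψ v → s.ψ (b * u * b⁻¹) = s.ψ (b * v * b⁻¹) := by
    intro u hu v hv h
    rw [s.ψ_eq (hc u hu) (hc v hv)]
    have h1 := (s.ψ_eq hu hv).mp h
    have e1 : (b * u * b⁻¹)⁻¹ * (b * v * b⁻¹) = b * (u⁻¹ * v) * b⁻¹ := by group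
    rw [e1]; exact (mem_normalizer_iff.mp hU₀ _).mp h1
  choose l hl hl' using s.ψ_surj
  refine ⟨fun v => s.ψ (b * l v * b⁻¹), fun u hu => key u hu _ (hl _) (hl' _).symm, fun v w => ?_⟩
  have h1 : s.ψ (b * l (v + w) * b⁻¹) = s.ψ (b * (l v * l w) * b⁻¹) := by
    apply key _ (hl _) _ (mul_mem (hl _) (hl _))
    rw [hl', s.ψ_mul _ (hl _) _ (hl _), hl', hl']
  have e1 : b * (l v * l w) * b⁻¹ = (b * l v * b⁻¹) * (b * l w * b⁻¹) := by group
  change s.ψ (b * l (v + w) * b⁻¹) = _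
  rw [h1, e1, s.ψ_mul _ (hc _ (hl _)) _ (hc _ (hl _))]

theorem beta_iter {b : G} (hU : b ∈ normalizer (U : Set G)) {β : (Fin 2 → F) → (Fin 2 → F)}
    (hβ : ∀ u ∈ U, s.ψ (b * u * b⁻¹) = β (s.ψ u)) (n : ℕ) : ∀ u ∈ U, s.ψ (b ^ n * u * (b ^ n)⁻¹) = β^[n] (s.ψ u) := by
  induction n with
  | zero => intro u _; simp
  | succ n ih =>
    intro u hu
    have e1 : b ^ (n + 1) * u * (b ^ (n + 1))⁻¹ = b ^ n * (b * u * b⁻¹) * (b ^ n)⁻¹ := by
      rw [pow_succ]; group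
    rw [e1, ih _ ((mem_normalizer_iff.mp hU _).mp hu), hβ u hu, Function.iterate_succ_apply]

theorem quad_of_beta {b : G} (hU : b ∈ normalizer (U : Set G)) {β : (Fin 2 → F) → (Fin 2 → F)}
    (hβ : ∀ u ∈ U, s.ψ (b * u * b⁻¹) = β (s.ψ u)) (hadd : ∀ v w, β (v + w) = β v + β w)
    (hN : ∀ v, β (v - β v) = v - β v) : ∀ u ∈ U, ⁅⁅u, b⁆, b⁆ ∈ U₀ := by
  have hc : ∀ u ∈ U, b * u * b⁻¹ ∈ U := fun u hu => (mem_normalizer_iff.mp hU _).mp hu
  have hneg : ∀ v, β (-v) = - β v := by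
    intro v
    have h0 : β 0 = 0 := by
      have := hadd 0 0
      rw [add_zero] at this
      exact left_eq_add.mp this
    have := hadd v (-v)
    rw [add_neg_cancel, h0] at this
    exact (neg_eq_of_add_eq_zero_right this.symm).symm
  have key : ∀ u ∈ U, ⁅u, b⁆ ∈ U ∧ s.ψ ⁅u, b⁆ = s.ψ u - β (s.ψ u) := by
    intro u hu
    have e1 : ⁅u, b⁆ = u * (b * u⁻¹ * b⁻¹) := by rw [commutatorElement_def]; group
    have h1 := hc _ (inv_mem hu)
    rw [e1]
    refine ⟨mul_mem hu h1, ?_⟩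
    rw [s.ψ_mul _ hu _ h1, hβ _ (inv_mem hu), s.ψ_inv hu, hneg, sub_eq_add_neg]
  intro u hu
  obtain ⟨h1, h2⟩ := key u hu
  obtain ⟨h3, h4⟩ := key _ h1
  rw [← s.ψ_ker _ h3, h4, h2, hN, sub_self]

/-- the linear case -/
theorem quad_lin (h3 : (3 : F) = 0) {b : G} (hU : b ∈ normalizer (U : Set G)) {k : ℕ} (hb : b ^ 3 ^ k = 1)
    {M : Matrix (Fin 2) (Fin 2) F} (hM : ∀ u ∈ U, s.ψ (b * u * b⁻¹) = M *ᵥ (s.ψ u)) : ∀ u ∈ U, ⁅⁅u, b⁆, b⁆ ∈ U₀ := by
  have hit : ∀ (n : ℕ) (v : Fin 2 → F), (fun v => M *ᵥ v)^[n] v = (M ^ n) *ᵥ v := by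
    intro n
    induction n with
    | zero => intro v; simp
    | succ n ih => intro v; rw [Function.iterate_succ_apply, ih, pow_succ, Matrix.mulVec_mulVec]
  have h1 : M ^ 3 ^ k = 1 := by
    apply Matrix.ext_of_mulVec_single
    intro i
    obtain ⟨u, hu, hu2⟩ := s.ψ_surj (Pi.single i 1)
    have h2 := s.beta_iter hU hM (3 ^ k) u hu
    rw [hit, hb, hu2] at h2
    rw [← h2, Matrix.one_mulVec]
    have : (1 : G) * u * 1⁻¹ = u := by group
    rw [this, hu2]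
  have h2 := unip h3 M h1
  refine s.quad_of_beta hU (β := fun v => M *ᵥ v) hM (fun v w => Matrix.mulVec_add _ _ _) ?_
  intro v
  have h4 : ((M - 1) * (M - 1)) *ᵥ v = 0 := by rw [h2, Matrix.zero_mulVec]
  have e0 : ∀ w, (M - 1) *ᵥ w = M *ᵥ w - w := by intro w; rw [Matrix.sub_mulVec, Matrix.one_mulVec]
  rw [← Matrix.mulVec_mulVec, e0, e0, sub_eq_zero] at h4
  change M *ᵥ (v - M *ᵥ v) = v - M *ᵥ v
  have e1 : v - M *ᵥ v = - (M *ᵥ v - v) := by abel
  rw [e1, Matrix.mulVec_neg, h4]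

/-- commuting with the root group -/
theorem quad_up (h3 : (3 : F) = 0) {b : G} (hU : b ∈ normalizer (U : Set G)) (hU₀ : b ∈ normalizer (U₀ : Set G)) {k : ℕ}
    (hb : b ^ 3 ^ k = 1) {e : F → G} (he : ∀ c, e c ∈ E) (he2 : ∀ c, s.ρ (e c) = up c)
    (hcom : ∀ c, ∀ u ∈ U, s.ψ (e c * (b * u * b⁻¹) * (e c)⁻¹) = s.ψ (b * (e c * u * (e c)⁻¹) * b⁻¹)) :
    ∀ u ∈ U, ⁅⁅u, b⁆, b⁆ ∈ U₀ := by
  obtain ⟨β, hβ, hadd⟩ := s.exists_beta hU hU₀
  have hc : ∀ u ∈ U, b * u * b⁻¹ ∈ U := fun u hu => (mem_normalizer_iff.mp hU _).mp hu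
  have hβc : ∀ (c : F) (v : Fin 2 → F), (!![1, c; 0, 1] : Matrix (Fin 2) (Fin 2) F) *ᵥ β v = β (!![1, c; 0, 1] *ᵥ v) := by
    intro c v
    obtain ⟨u, hu, rfl⟩ := s.ψ_surj v
    have h1 := hcom c u hu
    rw [s.act _ (he c) _ (hc u hu), hβ u hu, hβ _ (conj_mem_of_le_normalizer s.nor (he c) hu), s.act _ (he c) _ hu, he2] at h1
    exact h1
  have hup : ∀ (c : F) (v : Fin 2 → F), (!![1, c; 0, 1] : Matrix (Fin 2) (Fin 2) F) *ᵥ v = ![v 0 + c * v 1, v 1] := by
    intro c v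
    ext i; fin_cases i <;> simp [Matrix.mulVec, dotProduct, Fin.sum_univ_two]
  simp only [hup] at hβc
  -- first coordinate axis
  have h1 : ∀ y : F, β ![y, 0] 1 = 0 := by
    intro y
    have h := hβc 1 ![y, 0]
    simp only [Matrix.cons_val_zero, Matrix.cons_val_one, mul_zero, add_zero, one_mul, Fin.isValue] at h
    have := congrFun h 0
    simp only [Matrix.cons_val_zero, Fin.isValue, add_eq_left] at this
    exact this
  have h2 : ∀ c y : F, β ![c * y, 0] 0 = c * β ![0, y] 1 := by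
    intro c y
    have h := hβc c ![0, y]
    have e1 : (![(![0, y] : Fin 2 → F) 0 + c * (![0, y] : Fin 2 → F) 1, (![0, y] : Fin 2 → F) 1] : Fin 2 → F) = ![c * y, 0] + ![0, y] := by
      ext i; fin_cases i <;> simp
    rw [e1, hadd] at h
    have := congrFun h 0
    simp only [Matrix.cons_val_zero, Fin.isValue, Pi.add_apply] at this
    linear_combination -this
  set a := β ![0, 1] 1 with ha
  have h4 : ∀ y : F, β ![y, 0] = ![y * a, 0] := by
    intro y
    have := h2 y 1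
    rw [mul_one] at this
    ext i; fin_cases i
    · exact this
    · exact h1 y
  have h5 : ∀ y : F, β ![0, y] 1 = a * y := by
    intro y
    have := h2 1 y
    rw [one_mul, one_mul, h4] at this
    simp only [Matrix.cons_val_zero, Fin.isValue] at this
    rw [← this, mul_comm]
  have h6 : ∀ (n : ℕ) (y : F), β^[n] ![y, 0] = ![y * a ^ n, 0] := by
    intro n
    induction n with
    | zero => intro y; simp
    | succ n ih => intro y; rw [Function.iterate_succ_apply, h4, ih, pow_succ, mul_assoc, mul_comm a]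
  have h7 : a ^ 3 ^ k = 1 := by
    obtain ⟨u, hu, hu2⟩ := s.ψ_surj ![1, 0]
    have h8 := s.beta_iter hU hβ (3 ^ k) u hu
    have : (1 : G) * u * 1⁻¹ = u := by group
    rw [hb, this, hu2, h6, one_mul] at h8
    have := congrFun h8 0
    simp only [Matrix.cons_val_zero, Fin.isValue] at this
    exact this.symm
  have h8 : a = 1 := by
    have : CharP F 3 := (CharP.charP_iff_prime_eq_zero Nat.prime_three).mpr (by exact_mod_cast h3)
    have h9 : (a - 1) ^ 3 ^ k = 0 := by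
      rw [sub_pow_char_pow, h7, one_pow, sub_self]
    exact sub_eq_zero.mp (pow_eq_zero_iff (by positivity) |>.mp h9)
  have h9 : ∀ v, v - β v = ![- β ![0, v 1] 0, 0] := by
    intro v
    have e1 : v = ![v 0, 0] + ![0, v 1] := by ext i; fin_cases i <;> simp
    have e2 : β v = ![v 0, 0] + β ![0, v 1] := by
      conv_lhs => rw [e1]
      rw [hadd, h4, h8, mul_one]
    rw [e2]
    have h10 := h5 (v 1)
    rw [h8, one_mul] at h10
    ext i; fin_cases i
    · change v 0 - (v 0 + β ![0, v 1] 0) = - β ![0, v 1] 0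
      ring
    · change v 1 - (0 + β ![0, v 1] 1) = 0
      rw [h10]; ring
  refine s.quad_of_beta hU hβ hadd ?_
  intro v
  rw [h9 v, h4, h8, mul_one]

end NatSec

end Cfsg.Agent.Lib.H56Bau
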