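import Mathlib
import Cfsg.Agent.Lib.OmegaMeta
import Cfsg.Agent.Lib.PGroupMeta
import Cfsg.Agent.Lib.MaxClassCrit

set_option autoImplicit false

/-! Automorphisms of order `p` of metacyclic `p`-groups (S4079). -/

namespace Cfsg.Agent.Lib.H56MetaAut

open Subgroup Cfsg
open Cfsg.Agent.Lib
open scoped commutatorElement

universe u

/-- a `p`-group (`p` odd) with a cyclic derived subgroup satisfies the regularity relation. -/
theorem reg_aux {K : Type u} [Group K] [Finite K] {p : ℕ} [hp : Fact p.Prime] (hp2 : p ≠ 2) (hK : IsPGroup p K)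
    (hc : IsCyclic (commutator K)) (a b : K) :
    ∃ c ∈ powerClosure p 1 (commutator K), (a * b) ^ p ^ 1 = a ^ p ^ 1 * b ^ p ^ 1 * c := by
  set N := powerClosure p 1 (commutator K) with hN
  have hNn : N.Normal := by
    constructor
    intro x hx g
    exact H70Regular.conj_mem_powerClosure (fun y hy => (inferInstance : (commutator K).Normal).conj_mem y hy g) hx
  set π := QuotientGroup.mk' N with hπ
  have hπs : Function.Surjective π := QuotientGroup.mk'_surjective N
  have hcm : commutator (K ⧸ N) = (commutator K).map π := by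
    rw [commutator_def, commutator_def, map_commutator, Subgroup.map_top_of_surjective π hπs]
  have hexp : ∀ x ∈ commutator (K ⧸ N), x ^ p = 1 := by
    rw [hcm]
    rintro _ ⟨x, hx, rfl⟩
    rw [← map_pow]
    apply (QuotientGroup.eq_one_iff _).2
    have := H70Regular.pow_mem_powerClosure (p := p) (n := 1) hx
    rwa [pow_one] at this
  have hcyc : IsCyclic (commutator (K ⧸ N)) := by
    rw [hcm]
    exact isCyclic_of_surjective (π.subgroupMap (commutator K)) (π.subgroupMap_surjective (commutator K))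
  have hcard : Nat.card (commutator (K ⧸ N)) ≤ p :=
    PGroupMeta.card_le_of_isCyclic hcyc le_rfl hexp
  have hQ : IsPGroup p (K ⧸ N) := hK.to_quotient N
  -- the derived subgroup is central
  have hcen : commutator (K ⧸ N) ≤ center (K ⧸ N) := by
    obtain ⟨k, hk⟩ := IsPGroup.iff_card.1 (hQ.to_subgroup (commutator (K ⧸ N)))
    rcases Nat.lt_or_ge k 1 with h1 | h1
    · have : k = 0 := by omega
      rw [this, pow_zero] at hk
      rw [Subgroup.card_eq_one.1 hk]
      exact bot_le
    · apply PGroupRank.le_center_of_card_eq_prime hQ inferInstance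
      apply le_antisymm hcard
      rw [hk]
      exact Nat.le_self_pow (by omega) p
  have hcl : (⊤ : Subgroup (K ⧸ N)).lowerCentralSeries (p - 1) = ⊥ := by
    have h1 : (⊤ : Subgroup (K ⧸ N)).lowerCentralSeries 2 = ⊥ := by
      have h2 : (⊤ : Subgroup (K ⧸ N)).lowerCentralSeries 1 = commutator (K ⧸ N) := rfl
      rw [Subgroup.lowerCentralSeries_succ, h2, eq_bot_iff, commutator_le]
      intro x hx y _
      rw [mem_bot, commutatorElement_eq_one_iff_mul_comm]
      exact (mem_center_iff.1 (hcen hx) y).symm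
    rw [eq_bot_iff, ← h1]
    apply Subgroup.lowerCentralSeries_antitone
    have := hp.out.two_le
    omega
  obtain ⟨c, hc1, hc2⟩ := H70Regular.regAt_of_class hcl (π a) (π b)
  have hc3 : c = 1 := by
    have h1 : powerClosure p 1 ⁅closure ({π a, π b} : Set (K ⧸ N)), closure ({π a, π b} : Set (K ⧸ N))⁆ = ⊥ := by
      apply H70Regular.powerClosure_eq_bot
      intro x hx
      rw [pow_one]
      exact hexp x (commutator_mono le_top le_top hx)
    rw [h1] at hc1
    exact hc1
  rw [hc3, mul_one, ← map_mul, ← map_pow, ← map_pow, ← map_pow, ← map_mul] at hc2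
  have h4 := QuotientGroup.eq.1 hc2
  refine ⟨(a ^ p ^ 1 * b ^ p ^ 1)⁻¹ * (a * b) ^ p ^ 1, ?_, by group⟩
  have h5 := inv_mem h4
  rwa [mul_inv_rev, inv_inv] at h5

theorem regAt {L : Type u} [Group L] [Finite L] {p : ℕ} [hp : Fact p.Prime] (hp2 : p ≠ 2) (hL : IsPGroup p L)
    (hmc : IsMetacyclic L) : H70Regular.RegAt p 1 L := by
  intro a b
  set K := closure ({a, b} : Set L) with hK
  have ha : a ∈ K := subset_closure (by simp)
  have hb : b ∈ K := subset_closure (by simp)
  have hKm : IsMetacyclic K := PGroupMeta.IsMetacyclic.of_injective hmc K.subtype K.subtype_injective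
  obtain ⟨c, hc, hab⟩ := reg_aux hp2 (hL.to_subgroup K) (PGroupMeta.isCyclic_commutator_of_isMetacyclic hKm)
    (⟨a, ha⟩ : K) ⟨b, hb⟩
  refine ⟨c, ?_, congrArg Subtype.val hab⟩
  rw [← map_subtype_commutator, ← H70Regular.powerClosure_map]
  exact ⟨c, hc, rfl⟩

/-- the facts used about `L`. -/
structure MA (p : ℕ) {L : Type u} [Group L] (E : Subgroup L) : Prop where
  memE : ∀ x, x ∈ E ↔ x ^ p = 1
  cardE : Nat.card E = p ^ 2
  commE : ∀ x ∈ E, ∀ y ∈ E, x * y = y * x
  root : ∀ e ∈ E, ∃ u, u ^ p = e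
  cen : ∀ u, u ^ p ^ 2 = 1 → ∀ e ∈ E, u * e = e * u
  powm : ∀ u v : L, u ^ p ^ 2 = 1 → v ^ p ^ 2 = 1 → (u * v) ^ p = u ^ p * v ^ p
  mulT : ∀ u v : L, u ^ p ^ 2 = 1 → v ^ p ^ 2 = 1 → (u * v) ^ p ^ 2 = 1
  powinj : ∀ (i : ℕ) (x y : L), x ^ p ^ i = y ^ p ^ i ↔ (x * y⁻¹) ^ p ^ i = 1
  idx : ∃ M : Subgroup L, M.Normal ∧ E ≤ M ∧ M.index = p ^ 2

theorem exists_MA {L : Type u} [Group L] [Finite L] [Nontrivial L] {p : ℕ} [hp : Fact p.Prime] (hp2 : p ≠ 2)
    (hL : IsPGroup p L) (hmc : IsMetacyclic L) (hnc : ∀ C : Subgroup L, IsCyclic C → C.index ≠ p) :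
    ∃ E : Subgroup L, MA p E := by
  have hreg := regAt hp2 hL hmc
  have hregn : ∀ n, H70Regular.RegAt p n L := H70Regular.regAt_of_one hL hreg
  have hpi : ∀ (i : ℕ) (x y : L), x ^ p ^ i = y ^ p ^ i ↔ (x * y⁻¹) ^ p ^ i = 1 :=
    fun i x y => H70Regular.pow_eq_iff hL (hregn i) x y
  -- a subgroup of index `p`
  have hncyc : ¬ IsCyclic L := by
    intro hc
    obtain ⟨k, hk⟩ := IsPGroup.iff_card.1 hL
    have hk1 : k ≠ 0 := by
      rintro rfl
      rw [pow_zero] at hk
      exact absurd hk Finite.one_lt_card.ne'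
    obtain ⟨H, hH⟩ := Sylow.exists_subgroup_card_pow_prime p (n := k - 1) (G := L) (by
      rw [hk]; exact pow_dvd_pow p (by omega))
    apply hnc H (isCyclic_of_injective H.subtype H.subtype_injective)
    have h1 := H.card_mul_index
    rw [hH, hk] at h1
    have h2 : p ^ k = p ^ (k - 1) * p := by rw [← pow_succ]; congr 1; omega
    rw [h2] at h1
    exact Nat.eq_of_mul_eq_mul_left (pow_pos hp.out.pos _) h1
  obtain ⟨⟨hE1, hE2⟩, hE3⟩ := NormalRankTwoIn.omega_metacyclic hp2 hL hmc hncyc
  set E := omegaOne p (⊤ : Subgroup L) with hE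
  have hmem : ∀ x, x ∈ E ↔ x ^ p = 1 := by
    intro x
    exact ⟨hE2 x, fun hx => subset_closure ⟨mem_top x, hx⟩⟩
  have hcomm : ∀ x ∈ E, ∀ y ∈ E, x * y = y * x := fun x hx y hy =>
    congrArg Subtype.val (hE1.is_comm.comm ⟨x, hx⟩ ⟨y, hy⟩)
  have hEn : E.Normal := by
    constructor
    intro x hx g
    rw [hmem] at hx ⊢
    rw [conj_pow, hx]; simp
  set M := powerClosure p 1 (⊤ : Subgroup L) with hM
  have hMpow : ∀ x ∈ M, ∃ y, x = y ^ p := by
    intro x hx
    obtain ⟨y, -, hy⟩ := H70Regular.exists_pow_eq hL hreg _ ⊤ rfl x hx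
    rw [pow_one] at hy
    exact ⟨y, hy⟩
  have hpowM : ∀ y : L, y ^ p ∈ M := by
    intro y
    have := H70Regular.pow_mem_powerClosure (p := p) (n := 1) (mem_top y)
    rwa [pow_one] at this
  have hMn : M.Normal := by
    constructor
    intro x hx g
    exact H70Regular.conj_mem_powerClosure (fun y _ => mem_top _) hx
  have hle1 : Nat.card L ≤ p ^ 2 * Nat.card M := by
    rw [← hE3]
    exact OmegaMeta.card_omega_ge hL hreg M hpowM E hmem
  have hle2 : Nat.card M * p ^ 2 ≤ Nat.card L := by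
    have h1 : Nat.card M ≤ E.index := by
      rw [index_eq_card]
      apply Nat.card_le_card_of_injective (fun x : M => (((hMpow x x.2).choose : L) : L ⧸ E))
      intro x y hxy
      have h2 := (QuotientGroup.eq (s := E)).1 hxy
      obtain ⟨u, hu⟩ : ∃ u, u = (hMpow x x.2).choose := ⟨_, rfl⟩
      obtain ⟨v, hv⟩ : ∃ v, v = (hMpow y y.2).choose := ⟨_, rfl⟩
      have hu' : (x : L) = u ^ p := by rw [hu]; exact (hMpow x x.2).choose_spec
      have hv' : (y : L) = v ^ p := by rw [hv]; exact (hMpow y y.2).choose_spec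
      rw [← hu, ← hv] at h2
      have h3 : v * u⁻¹ ∈ E := by
        have := hEn.conj_mem _ h2 u
        have h4 : u * (u⁻¹ * v) * u⁻¹ = v * u⁻¹ := by group
        rwa [h4] at this
      have h4 := (hpi 1 v u).2 (by rw [pow_one]; exact (hmem _).1 h3)
      rw [pow_one] at h4
      apply Subtype.ext
      rw [hu', hv', h4]
    calc Nat.card M * p ^ 2 ≤ E.index * p ^ 2 := Nat.mul_le_mul_right _ h1
      _ = Nat.card L := by rw [← hE3, index_mul_card]
  have hMidx : M.index = p ^ 2 := by
    have h1 := M.index_mul_card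
    have h2 : M.index * Nat.card M = p ^ 2 * Nat.card M := by
      rw [h1]
      apply le_antisymm hle1
      rw [mul_comm]; exact hle2
    exact Nat.eq_of_mul_eq_mul_right Nat.card_pos h2
  -- `M` is not cyclic
  have hMnc : ¬ IsCyclic M := by
    intro hc
    obtain ⟨⟨z, hz⟩, hgen⟩ := hc.exists_generator
    obtain ⟨x, rfl⟩ := hMpow z hz
    have h1 : Nat.card M = orderOf (x ^ p) := by
      rw [← Nat.card_zpowers]
      apply le_antisymm
      · apply Nat.card_le_card_of_injective (fun y : M => (⟨y, by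
          obtain ⟨k, hk⟩ := mem_zpowers_iff.1 (hgen y)
          exact mem_zpowers_iff.2 ⟨k, by rw [← hk]; rfl⟩⟩ : zpowers (x ^ p)))
        intro a b hab
        exact Subtype.ext (by simpa using hab)
      · exact Nat.card_le_card_of_injective _ (inclusion_injective (zpowers_le.2 hz))
    by_cases hx1 : x = 1
    · rw [hx1, one_pow, orderOf_one] at h1
      -- `|L| ≤ p ^ 2`
      rw [h1, mul_one] at hle1
      have h2 : Nat.card L = p ^ 2 := by
        apply le_antisymm hle1
        rw [← hE3]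
        exact Nat.card_le_card_of_injective _ E.subtype_injective
      obtain ⟨H, hH⟩ := Sylow.exists_subgroup_card_pow_prime p (n := 1) (G := L) (by
        rw [h2]; exact pow_dvd_pow p (by omega))
      rw [pow_one] at hH
      apply hnc H (isCyclic_of_prime_card hH)
      have h3 := H.card_mul_index
      rw [hH, h2, pow_two] at h3
      exact Nat.eq_of_mul_eq_mul_left hp.out.pos h3
    · obtain ⟨k, hk⟩ := (IsPGroup.iff_orderOf.1 hL) x
      have hk0 : k ≠ 0 := by
        rintro rfl
        rw [pow_zero, orderOf_eq_one_iff] at hk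
        exact hx1 hk
      have h2 : orderOf x = p * orderOf (x ^ p) := by
        rw [orderOf_pow_of_dvd hp.out.ne_zero (by rw [hk]; exact dvd_pow_self p hk0)]
        exact (Nat.mul_div_cancel' (by rw [hk]; exact dvd_pow_self p hk0)).symm
      have h3 := (zpowers x).card_mul_index
      rw [Nat.card_zpowers] at h3
      have h4 : (zpowers x).index ≤ p := by
        have h5 : orderOf x * (zpowers x).index ≤ orderOf x * p := by
          rw [h3]
          refine hle1.trans ?_
          rw [h1, h2]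
          have : p ^ 2 * orderOf (x ^ p) = p * orderOf (x ^ p) * p := by ring
          rw [this]
        exact Nat.le_of_mul_le_mul_left h5 (orderOf_pos x)
      obtain ⟨j, hj⟩ := hL.index (zpowers x)
      have hj0 : j = 0 := by
        by_contra hj0
        have h5 : p ≤ p ^ j := Nat.le_self_pow hj0 p
        exact hnc (zpowers x) inferInstance (le_antisymm h4 (by rw [hj]; exact h5))
      rw [hj0, pow_zero, index_eq_one] at hj
      apply hncyc
      exact ⟨x, fun y => (show y ∈ zpowers x by rw [hj]; trivial)⟩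
  have hEM : E ≤ M := by
    have hMm : IsMetacyclic M := PGroupMeta.IsMetacyclic.of_injective hmc M.subtype M.subtype_injective
    obtain ⟨⟨-, h2⟩, h3⟩ := NormalRankTwoIn.omega_metacyclic hp2 (hL.to_subgroup M) hMm hMnc
    have h4 : (omegaOne p (⊤ : Subgroup M)).map M.subtype = E := by
      apply Subgroup.eq_of_le_of_card_ge
      · rintro _ ⟨x, hx, rfl⟩
        rw [hmem]
        exact congrArg Subtype.val (h2 x hx)
      · rw [Subgroup.card_map_of_injective M.subtype_injective, h3, hE3]
    rw [← h4]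
    exact map_subtype_le _
  have hroot : ∀ e ∈ E, ∃ u, u ^ p = e := by
    intro e he
    obtain ⟨y, hy⟩ := hMpow e (hEM he)
    exact ⟨y, hy.symm⟩
  have hmulT : ∀ u v : L, u ^ p ^ 2 = 1 → v ^ p ^ 2 = 1 → (u * v) ^ p ^ 2 = 1 := fun u v hu hv =>
    H70Regular.mul_pow_eq_one hL (hregn 2) _ ⊤ rfl u (mem_top _) v (mem_top _) hu hv
  -- `T = Ω₂(L)`
  let T : Subgroup L :=
    { carrier := {x | x ^ p ^ 2 = 1}
      one_mem' := one_pow _
      mul_mem' := fun {a b} ha hb => hmulT a b ha hb
      inv_mem' := by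
        intro a ha
        show (a⁻¹) ^ p ^ 2 = 1
        have ha' : a ^ p ^ 2 = 1 := ha
        rw [inv_pow, ha', inv_one] }
  have hTE : ∀ u ∈ T, u ^ p ∈ E := by
    intro u hu
    rw [hmem, ← pow_mul, ← pow_two]
    exact hu
  have hET : E ≤ T := by
    intro e he
    show e ^ p ^ 2 = 1
    rw [pow_two, pow_mul, (hmem e).1 he, one_pow]
  have hTidx : (E.subgroupOf T).index ≤ p ^ 2 := by
    rw [← hE3, index_eq_card]
    let f : ↥T ⧸ E.subgroupOf T → E := fun q => ⟨(q.out : L)⁻¹ ^ p, by
      rw [inv_pow]; exact inv_mem (hTE _ q.out.2)⟩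
    apply Nat.card_le_card_of_injective f
    intro a b hab
    have h1 : ((a.out : L)⁻¹) ^ p = ((b.out : L)⁻¹) ^ p := congrArg Subtype.val hab
    have h2 := (hpi 1 (a.out : L)⁻¹ (b.out : L)⁻¹).1 (by simpa using h1)
    rw [pow_one, ← hmem, inv_inv] at h2
    rw [← QuotientGroup.out_eq' a, ← QuotientGroup.out_eq' b, QuotientGroup.eq]
    exact h2
  have hTc : ∀ u ∈ T, ∀ v ∈ T, ⁅u, v⁆ ∈ E := by
    intro u hu v hv
    have hn : (E.subgroupOf T).Normal := inferInstance
    have hc : ∀ a b : ↥T ⧸ E.subgroupOf T, a * b = b * a := by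
      obtain ⟨k, hk⟩ := IsPGroup.iff_card.1 ((hL.to_subgroup T).to_quotient (E.subgroupOf T))
      rw [index_eq_card, hk] at hTidx
      have hk2 : k ≤ 2 := (Nat.pow_le_pow_iff_right hp.out.one_lt).1 hTidx
      interval_cases k
      · rw [pow_zero] at hk
        have := (Nat.card_eq_one_iff_unique.1 hk).1
        intro a b; exact Subsingleton.elim _ _
      · rw [pow_one] at hk
        have := isCyclic_of_prime_card hk
        intro a b
        exact (IsCyclic.isMulCommutative (α := ↥T ⧸ E.subgroupOf T)).is_comm.comm a b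
      · intro a b
        exact (IsPGroup.isMulCommutative_of_card_eq_prime_sq hk).is_comm.comm a b
    have h1 : QuotientGroup.mk' (E.subgroupOf T) ⁅(⟨u, hu⟩ : T), ⟨v, hv⟩⁆ = 1 := by
      rw [map_commutatorElement, commutatorElement_eq_one_iff_mul_comm]
      exact hc _ _
    have h2 := (QuotientGroup.eq_one_iff _).1 h1
    exact h2
  refine ⟨E, hmem, hE3, hcomm, hroot, ?_, ?_, hmulT, hpi, ⟨M, hMn, hEM, hMidx⟩⟩
  · intro u hu e he
    obtain ⟨w, rfl⟩ := hroot e he
    have hw : w ∈ T := by
      show w ^ p ^ 2 = 1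
      rw [pow_two, pow_mul]
      exact (hmem _).1 he
    have h1 := hTc u hu w hw
    rw [hmem] at h1
    have h2 := (hpi 1 (u * w * u⁻¹) w).2 (by rw [pow_one]; exact h1)
    rw [pow_one, conj_pow] at h2
    calc u * w ^ p = u * w ^ p * u⁻¹ * u := by group
      _ = w ^ p * u := by rw [h2]
  · intro u v hu hv
    have h1 := hTc u hu v hv
    rw [hmem] at h1
    have h2 := H70Regular.mul_pow_of_commutator hL hreg (a := u) (b := v) (by rw [pow_one]; exact h1)
    rw [pow_one] at h2
    exact h2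

end Cfsg.Agent.Lib.H56MetaAut
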