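import Mathlib
import Cfsg.Agent.Lib.H56MetaAut
import Cfsg.Agent.Lib.MaxClassNormal

set_option autoImplicit false

/-! Automorphisms of order `p` of metacyclic `p`-groups, the two implications (S4079). -/

namespace Cfsg.Agent.Lib.H56MetaAut

open Subgroup Cfsg
open Cfsg.Agent.Lib

universe u

variable {L : Type u} [Group L] [Finite L] {p : ℕ} [hp : Fact p.Prime]

/-- fixed points in an invariant subgroup. -/
def fixS (a : MulAut L) (H : Subgroup L) : Subgroup L where
  carrier := {x | x ∈ H ∧ a x = x}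
  one_mem' := ⟨one_mem _, map_one a⟩
  mul_mem' := by
    rintro x y ⟨hx, hx'⟩ ⟨hy, hy'⟩
    exact ⟨mul_mem hx hy, by rw [map_mul, hx', hy']⟩
  inv_mem' := by
    rintro x ⟨hx, hx'⟩
    exact ⟨inv_mem hx, by rw [map_inv, hx']⟩

omit hp in
theorem fix_mod [Fact p.Prime] {a : MulAut L} (ha : a ^ p = 1) {H : Subgroup L} (hi : ∀ x ∈ H, a x ∈ H) :
    Nat.card H ≡ Nat.card (fixS a H) [MOD p] := by
  classical
  haveI : Fintype H := Fintype.ofFinite _
  let f : Function.End H := fun x => ⟨a x, hi x x.2⟩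
  have hk : ∀ (k : ℕ) (x : H), ((f ^ k) x : L) = (a ^ k) (x : L) := by
    intro k
    induction k with
    | zero => intro x; rfl
    | succ k ih =>
      intro x
      rw [pow_succ', pow_succ', MulAut.mul_apply]
      show a (((f ^ k) x : H) : L) = _
      rw [ih]
  have hf : f ^ p ^ 1 = 1 := by
    funext x
    apply Subtype.ext
    rw [pow_one, hk, ha]
    rfl
  have h1 := Equiv.Perm.card_fixedPoints_modEq hf
  rw [← Nat.card_eq_fintype_card, ← Nat.card_eq_fintype_card] at h1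
  have h2 : Nat.card f.fixedPoints = Nat.card (fixS a H) := by
    apply Nat.card_congr
    exact
      { toFun := fun x => ⟨(x.1 : L), x.1.2, congrArg Subtype.val x.2⟩
        invFun := fun x => ⟨⟨x.1, x.2.1⟩, Subtype.ext x.2.2⟩
        left_inv := fun x => rfl
        right_inv := fun x => rfl }
  rwa [h2] at h1

theorem fix_ge {a : MulAut L} (ha : a ^ p = 1) {H : Subgroup L} (hi : ∀ x ∈ H, a x ∈ H)
    (hH : p ∣ Nat.card H) : p ≤ Nat.card (fixS a H) := by
  have h1 := fix_mod ha hi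
  have h2 : Nat.card (fixS a H) ≡ 0 [MOD p] := h1.symm.trans ((Nat.modEq_zero_iff_dvd).2 hH)
  exact Nat.le_of_dvd Nat.card_pos ((Nat.modEq_zero_iff_dvd).1 h2)

theorem E_inv {E : Subgroup L} (h : MA p E) (a : MulAut L) : ∀ x ∈ E, a x ∈ E := by
  intro x hx
  rw [h.memE] at hx ⊢
  rw [← map_pow, hx, map_one]

theorem unip {E : Subgroup L} (h : MA p E) {a : MulAut L} (ha : a ^ p = 1) :
    ∀ e ∈ E, a (e⁻¹ * a e) = e⁻¹ * a e := by
  let δ : E →* L :=
    { toFun := fun e => (e : L)⁻¹ * a e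
      map_one' := by simp
      map_mul' := by
        intro x y
        have h1 := h.commE _ (E_inv h a x x.2) _ (inv_mem y.2)
        show ((x * y : E) : L)⁻¹ * a ((x * y : E) : L) = ((x : L)⁻¹ * a x) * ((y : L)⁻¹ * a y)
        rw [Subgroup.coe_mul, map_mul, mul_inv_rev, h.commE _ (inv_mem y.2) _ (inv_mem x.2)]
        calc (x : L)⁻¹ * (y : L)⁻¹ * (a x * a y) = (x : L)⁻¹ * ((y : L)⁻¹ * a x) * a y := by group
          _ = (x : L)⁻¹ * (a x * (y : L)⁻¹) * a y := by rw [h1]
          _ = _ := by group }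
  have hker : p ≤ Nat.card δ.ker := by
    have h1 := fix_ge ha (E_inv h a) (by rw [h.cardE]; exact dvd_pow_self p (by norm_num))
    refine h1.trans ?_
    apply Nat.card_le_card_of_injective (fun x : fixS a E => (⟨⟨x.1, x.2.1⟩, by
      rw [MonoidHom.mem_ker]
      show (x.1 : L)⁻¹ * a x.1 = 1
      rw [x.2.2, inv_mul_cancel]⟩ : δ.ker))
    intro x y hxy
    exact Subtype.ext (congrArg (fun z : δ.ker => (z.1 : L)) hxy)
  have hrange : Nat.card δ.range ≤ p := by
    have h3 : Nat.card δ.ker * Nat.card δ.range = p ^ 2 := by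
      rw [← h.cardE, ← Subgroup.index_ker]; exact Subgroup.card_mul_index _
    by_contra hcon
    push Not at hcon
    have h4 : p * p < Nat.card δ.ker * Nat.card δ.range :=
      Nat.mul_lt_mul_of_le_of_lt hker hcon Nat.card_pos
    rw [h3, pow_two] at h4
    exact lt_irrefl _ h4
  have hdvd : Nat.card δ.range ∣ p ^ 2 := by
    rw [← h.cardE, ← Subgroup.index_ker]
    exact Subgroup.index_dvd_card _
  have hi : ∀ x ∈ δ.range, a x ∈ δ.range := by
    rintro _ ⟨e, rfl⟩
    refine ⟨⟨a e, E_inv h a e e.2⟩, ?_⟩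
    show (a e)⁻¹ * a (a e) = a ((e : L)⁻¹ * a e)
    rw [map_mul, map_inv]
  intro e he
  have hmem : e⁻¹ * a e ∈ δ.range := ⟨⟨e, he⟩, rfl⟩
  obtain ⟨k, hk2, hk⟩ := (Nat.dvd_prime_pow hp.out).1 hdvd
  rcases Nat.eq_zero_or_pos k with h0 | h0
  · rw [h0, pow_zero] at hk
    rw [Subgroup.card_eq_one.1 hk, mem_bot] at hmem
    rw [hmem, map_one]
  · have h1 := fix_ge ha hi (by rw [hk]; exact dvd_pow_self p (by omega))
    have h2 : fixS a δ.range = δ.range := by
      apply Subgroup.eq_of_le_of_card_ge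
      · intro x hx; exact hx.1
      · exact hrange.trans h1
    rw [← h2] at hmem
    exact hmem.2

/-- the iterates of `a` on `u`. -/
theorem iter {a : MulAut L} {u v e f : L} (h1 : a u = u * v) (h2 : a v = v * e) (h3 : a e = e * f) (h4 : a f = f)
    (hve : v * e = e * v) (hef : e * f = f * e) (n : ℕ) :
    (a ^ n) u = u * v ^ n * e ^ (n.choose 2) * f ^ (n.choose 3) := by
  induction n with
  | zero => simp
  | succ n ih =>
    rw [pow_succ', MulAut.mul_apply, ih, map_mul, map_mul, map_mul, map_pow, map_pow, map_pow, h1, h2, h3, h4,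
      (show Commute v e from hve).mul_pow, (show Commute e f from hef).mul_pow]
    have e2 : (n + 1).choose 2 = n + n.choose 2 := by
      rw [Nat.choose_succ_succ' n 1, Nat.choose_one_right]
    have e3 : (n + 1).choose 3 = n.choose 2 + n.choose 3 := Nat.choose_succ_succ' n 2
    rw [e2, e3, pow_succ' v n, pow_add, pow_add]
    group

/-- the forward direction. -/
theorem forward {E : Subgroup L} (h : MA p E) (hp2 : p ≠ 2) {a : MulAut L} (ha : a ^ p = 1)
    {x : L} (hx : x ∈ E) (hax : a x ≠ x) (hL : IsPGroup p L) : p = 3 ∧ Nat.card (fixS a (⊤ : Subgroup L)) = 3 := by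
  have hun := unip h ha
  have hEi := E_inv h a
  obtain ⟨u, rfl⟩ := h.root x hx
  have hu : u ^ p ^ 2 = 1 := by rw [pow_two, pow_mul]; exact (h.memE _).1 hx
  have hau : (a u) ^ p ^ 2 = 1 := by rw [← map_pow, hu, map_one]
  have hui : (u⁻¹) ^ p ^ 2 = 1 := by rw [inv_pow, hu, inv_one]
  obtain ⟨v, hv⟩ : ∃ v, v = u⁻¹ * a u := ⟨_, rfl⟩
  have hvT : v ^ p ^ 2 = 1 := by rw [hv]; exact h.mulT _ _ hui hau
  have hvp : v ^ p = (u ^ p)⁻¹ * a (u ^ p) := by
    rw [hv, h.powm _ _ hui hau, inv_pow, map_pow]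
  have hw1 : v ^ p ≠ 1 := by
    rw [hvp]
    intro h1
    apply hax
    exact (inv_mul_eq_one.1 h1).symm
  have hwE : v ^ p ∈ E := by rw [h.memE, ← pow_mul, ← pow_two]; exact hvT
  have hwf : a (v ^ p) = v ^ p := by
    rw [hvp]; exact hun _ hx
  have hav : (a v) ^ p ^ 2 = 1 := by rw [← map_pow, hvT, map_one]
  have hvi : (v⁻¹) ^ p ^ 2 = 1 := by rw [inv_pow, hvT, inv_one]
  obtain ⟨e, he⟩ : ∃ e, e = v⁻¹ * a v := ⟨_, rfl⟩
  have heE : e ∈ E := by
    rw [h.memE, he, h.powm _ _ hvi hav, inv_pow, ← map_pow, hwf, inv_mul_cancel]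
  obtain ⟨f, hf⟩ : ∃ f, f = e⁻¹ * a e := ⟨_, rfl⟩
  have hff : a f = f := by rw [hf]; exact hun e heE
  have hfE : f ∈ E := by rw [hf]; exact mul_mem (inv_mem heE) (hEi _ heE)
  have e1 : a u = u * v := by rw [hv]; group
  have e2 : a v = v * e := by rw [he]; group
  have e3 : a e = e * f := by rw [hf]; group
  have hit := iter e1 e2 e3 hff (h.cen v hvT e heE) (h.commE e heE f hfE) p
  rw [ha, MulAut.one_apply] at hit
  have hc2 : e ^ (p.choose 2) = 1 := by
    have h1 : p ∣ p.choose 2 := hp.out.dvd_choose_self (by norm_num) (by have := hp.out.two_le; omega)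
    obtain ⟨c, hc⟩ := h1
    rw [hc, pow_mul, (h.memE e).1 heE, one_pow]
  rw [hc2, mul_one] at hit
  have hp3 : p = 3 := by
    by_contra hne
    have h1 : p ∣ p.choose 3 := by
      apply hp.out.dvd_choose_self (by norm_num)
      have := hp.out.two_le
      omega
    obtain ⟨c, hc⟩ := h1
    rw [hc, pow_mul, (h.memE f).1 hfE, one_pow, mul_one] at hit
    exact hw1 (left_eq_mul.1 hit)
  subst hp3
  refine ⟨rfl, ?_⟩
  have hf1 : f ≠ 1 := by
    rintro rfl
    rw [one_pow, mul_one] at hit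
    exact hw1 (left_eq_mul.1 hit)
  -- the fixed points in `E` are the powers of `w = v ^ 3`
  have hFE : Nat.card (fixS a E) = 3 := by
    have h1 := fix_ge ha hEi (by rw [h.cardE]; exact dvd_pow_self 3 (by norm_num))
    have h2 : Nat.card (fixS a E) ∣ 3 ^ 2 := by
      rw [← h.cardE]
      exact Subgroup.card_dvd_of_le (fun x hx => hx.1)
    obtain ⟨k, hk2, hk⟩ := (Nat.dvd_prime_pow Nat.prime_three).1 h2
    interval_cases k
    · rw [hk] at h1; norm_num at h1
    · rw [hk]; norm_num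
    · exfalso
      have h3 : fixS a E = E := by
        apply Subgroup.eq_of_le_of_card_ge
        · intro x hx; exact hx.1
        · rw [hk, h.cardE]
      rw [← h3] at hx
      exact hax hx.2
  have hwF : v ^ 3 ∈ fixS a E := ⟨hwE, hwf⟩
  have hle : fixS a (⊤ : Subgroup L) ≤ E := by
    intro c hc
    by_contra hcE
    -- an element of order 9 which is a power of `c`
    obtain ⟨d, hd, hd9, hdE⟩ : ∃ d ∈ fixS a (⊤ : Subgroup L), d ^ 3 ^ 2 = 1 ∧ d ∉ E := by
      obtain ⟨k, hk⟩ := (IsPGroup.iff_orderOf.1 hL) c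
      have hk2 : 2 ≤ k := by
        by_contra hk2
        apply hcE
        rw [h.memE]
        apply orderOf_dvd_iff_pow_eq_one.1
        rw [hk]
        exact (pow_dvd_pow 3 (by omega : k ≤ 1)).trans (by norm_num)
      refine ⟨c ^ 3 ^ (k - 2), pow_mem hc _, ?_, ?_⟩
      · rw [← pow_mul, ← pow_add]
        apply orderOf_dvd_iff_pow_eq_one.1
        rw [hk]
        exact pow_dvd_pow 3 (by omega)
      · rw [h.memE, ← pow_mul]
        intro h1
        have h2 := orderOf_dvd_of_pow_eq_one h1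
        rw [hk, ← pow_succ, Nat.pow_dvd_pow_iff_le_right (by norm_num)] at h2
        omega
    have hd3 : d ^ 3 ∈ fixS a E := by
      refine ⟨?_, (pow_mem hd 3).2⟩
      rw [h.memE, ← pow_mul]
      exact hd9
    have hd31 : d ^ 3 ≠ 1 := fun h1 => hdE ((h.memE d).2 h1)
    haveI : Fact (Nat.Prime 3) := ⟨Nat.prime_three⟩
    obtain ⟨j, hj⟩ : ∃ j : ℤ, (d ^ 3) ^ j = v ^ 3 := by
      have h1 := mem_zpowers_of_prime_card (p := 3) hFE (g := ⟨d ^ 3, hd3⟩) (g' := ⟨v ^ 3, hwF⟩)
        (fun h1 => hd31 (congrArg Subtype.val h1))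
      obtain ⟨j, hj⟩ := mem_zpowers_iff.1 h1
      exact ⟨j, by simpa using congrArg Subtype.val hj⟩
    have hvd : v ^ 3 ^ 1 = (d ^ j) ^ 3 ^ 1 := by
      rw [pow_one, ← hj, ← zpow_natCast, ← zpow_natCast, zpow_comm]
    have h1 := (h.powinj 1 v (d ^ j)).1 hvd
    rw [pow_one, ← h.memE] at h1
    obtain ⟨e0, he0⟩ : ∃ e0, e0 = v * (d ^ j)⁻¹ := ⟨_, rfl⟩
    rw [← he0] at h1
    have h2 : v = e0 * d ^ j := by rw [he0]; group
    have hadj : a (d ^ j) = d ^ j := by rw [map_zpow, hd.2]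
    have hdj : (d ^ j) ^ 3 ^ 2 = 1 := by
      rw [← zpow_natCast, zpow_comm, zpow_natCast, hd9, one_zpow]
    have h3 : e = e0⁻¹ * a e0 := by
      rw [he, h2, map_mul, hadj]
      have h4 := h.cen (d ^ j) hdj _ (mul_mem (inv_mem h1) (hEi _ h1))
      calc (e0 * d ^ j)⁻¹ * (a e0 * d ^ j) = (d ^ j)⁻¹ * ((e0⁻¹ * a e0) * d ^ j) := by group
        _ = (d ^ j)⁻¹ * (d ^ j * (e0⁻¹ * a e0)) := by rw [h4]
        _ = e0⁻¹ * a e0 := by group
    apply hf1
    rw [hf, h3, hun e0 h1]
    group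
  have h5 : fixS a (⊤ : Subgroup L) = fixS a E := by
    apply le_antisymm
    · intro x hx
      exact ⟨hle hx, hx.2⟩
    · intro x hx
      exact ⟨mem_top _, hx.2⟩
  rw [h5, hFE]

/-- the converse. -/
theorem all_in_E {E : Subgroup L} (h : MA 3 E) {a : MulAut L} (ha : a ^ 3 = 1)
    (hfix : ∀ x ∈ E, a x = x) (i : ℕ) : ∀ x : L, x ^ 3 ^ i = 1 → x⁻¹ * a x ∈ E := by
  have hEn : ∀ x ∈ E, ∀ g : L, g * x * g⁻¹ ∈ E := by
    intro x hx g
    rw [h.memE] at hx ⊢
    rw [conj_pow, hx]; simp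
  induction i with
  | zero =>
    intro x hx
    rw [pow_zero, pow_one] at hx
    rw [hx, map_one, inv_one, mul_one]
    exact one_mem _
  | succ i ih =>
    intro x hx
    have h1 : x ^ 3 ^ i ∈ E := by
      rw [h.memE, ← pow_mul, ← pow_succ]; exact hx
    have h2 : (a x) ^ 3 ^ i = x ^ 3 ^ i := by rw [← map_pow, hfix _ h1]
    have h3 := (h.powinj i _ _).1 h2
    obtain ⟨c, hc⟩ : ∃ c, c = x⁻¹ * a x := ⟨_, rfl⟩
    have h4 : c ^ 3 ^ i = 1 := by
      have h5 : c = x⁻¹ * (a x * x⁻¹) * (x⁻¹)⁻¹ := by rw [hc]; group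
      rw [h5, conj_pow, h3]; simp
    obtain ⟨f, hf⟩ : ∃ f, f = c⁻¹ * a c := ⟨_, rfl⟩
    have hfE : f ∈ E := by rw [hf]; exact ih c h4
    have haf := hfix f hfE
    have e1 : a x = x * c := by rw [hc]; group
    have e2 : a c = c * f := by rw [hf]; group
    have e3 : a (a (a x)) = x := by
      have := DFunLike.congr_fun ha x
      rw [pow_succ, pow_two] at this
      exact this
    have e4 : c * (c * f) * (c * f * f) = 1 := by
      rw [e1, map_mul, e1, e2, map_mul, map_mul, map_mul, e1, e2, haf] at e3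
      have h5 : x * c * (c * f) * (c * f * f) = x * (c * (c * f) * (c * f * f)) := by group
      rw [h5] at e3
      exact mul_eq_left.1 e3
    have e5 : c ^ 3 ∈ E := by
      have h5 : c ^ 3 = ((c⁻¹ * f * (c⁻¹)⁻¹) * f * f)⁻¹ := by
        rw [eq_inv_iff_mul_eq_one, ← e4]
        simp only [pow_succ, pow_zero, one_mul]
        group
      rw [h5]
      exact inv_mem (mul_mem (mul_mem (hEn f hfE c⁻¹) hfE) hfE)
    have e6 : c * f = f * c := h.cen c (by rw [pow_two, pow_mul]; exact (h.memE _).1 e5) f hfE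
    rw [← hc, h.memE]
    have e7 : c ^ 3 * f ^ 3 = 1 := by
      rw [← e4]
      calc c ^ 3 * f ^ 3 = c * c * (c * f) * f * f := by
            simp only [pow_succ, pow_zero, one_mul, mul_assoc]
        _ = c * c * (f * c) * f * f := by rw [e6]
        _ = _ := by group
    rwa [(h.memE f).1 hfE, mul_one] at e7

end Cfsg.Agent.Lib.H56MetaAut
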