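import Mathlib
import Cfsg.Agent.Lib.H56MetaAutB

set_option autoImplicit false

/-! S4079. -/

namespace Cfsg.Agent.Lib.H56MetaAut

open Cfsg Cfsg.Agent.Lib

theorem mul_comm' {G : Type*} [Group G] {a : G} (x y : Subgroup.zpowers a) : x * y = y * x := by
  obtain ⟨i, hi⟩ := Subgroup.mem_zpowers_iff.1 x.2
  obtain ⟨j, hj⟩ := Subgroup.mem_zpowers_iff.1 y.2
  apply Subtype.ext
  rw [Subgroup.coe_mul, Subgroup.coe_mul, ← hi, ← hj, zpow_mul_comm]

theorem main {L : Type*} [Group L] [Finite L] {p : ℕ} [Fact p.Prime]
    (hp : p ≠ 2) (hL : IsPGroup p L) (hmc : Cfsg.IsMetacyclic L) (hnc : ∀ C : Subgroup L, IsCyclic C → C.index ≠ p)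
    (a : MulAut L) (ha : orderOf a = p) (m : ℕ) (hm : Nat.card L = p ^ m) :
    (∃ x : L, orderOf x = p ∧ a x ≠ x) ↔
    (p = 3 ∧ Group.nilpotencyClass (SemidirectProduct L ↥(Subgroup.zpowers a) (Subgroup.zpowers a).subtype) = m) := by
  classical
  haveI hnt : Nontrivial L := by
    by_contra hcon
    rw [not_nontrivial_iff_subsingleton] at hcon
    have h1 : a = 1 := by
      ext x; exact Subsingleton.elim _ _
    rw [h1, orderOf_one] at ha
    exact (Fact.out : p.Prime).one_lt.ne ha
  have hpp : p.Prime := Fact.out
  obtain ⟨E, h⟩ := exists_MA hp hL hmc hnc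
  have ha' : a ^ p = 1 := by rw [← ha]; exact pow_orderOf_eq_one a
  set X := SemidirectProduct L ↥(Subgroup.zpowers a) (Subgroup.zpowers a).subtype with hX
  haveI : Finite X := Finite.of_equiv _ SemidirectProduct.equivProd.symm
  have hcX : Nat.card X = p ^ (m + 1) := by
    rw [hX, SemidirectProduct.card, hm, Nat.card_zpowers, ha, pow_succ]
  have hidxm : 2 ≤ m := by
    have h1 : p ^ 2 ∣ p ^ m := by
      rw [← h.cardE, ← hm]; exact Subgroup.card_subgroup_dvd_card E
    exact (Nat.pow_dvd_pow_iff_le_right hpp.one_lt).1 h1
  constructor
  · rintro ⟨x, hx, hax⟩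
    have hxE : x ∈ E := by rw [h.memE, ← hx]; exact pow_orderOf_eq_one x
    obtain ⟨hp3, hfix⟩ := forward h hp ha' hxE hax hL
    subst hp3
    refine ⟨rfl, ?_⟩
    let s : X := SemidirectProduct.inr ⟨a, Subgroup.mem_zpowers a⟩
    have hmem : ∀ y : X, y ∈ Subgroup.centralizer ({s} : Set X) ↔ a y.left = y.left := by
      intro y
      rw [Subgroup.mem_centralizer_singleton_iff]
      constructor
      · intro h1
        have h2 := congrArg SemidirectProduct.left h1
        rw [SemidirectProduct.mul_left, SemidirectProduct.mul_left] at h2
        simp [s] at h2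
        first | exact h2 | exact h2.symm
      · intro h1
        apply SemidirectProduct.ext
        · rw [SemidirectProduct.mul_left, SemidirectProduct.mul_left]
          simp [s]
          first | exact h1 | exact h1.symm
        · rw [SemidirectProduct.mul_right, SemidirectProduct.mul_right]
          exact mul_comm' _ _
    have hcA : Nat.card (Subgroup.centralizer ({s} : Set X)) = 3 ^ 2 := by
      have h1 : Nat.card (Subgroup.centralizer ({s} : Set X)) =
          Nat.card (fixS a (⊤ : Subgroup L) × Subgroup.zpowers a) := by
        apply Nat.card_congr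
        exact
          { toFun := fun y => (⟨y.1.left, ⟨trivial, (hmem y.1).1 y.2⟩⟩, y.1.right)
            invFun := fun z => ⟨⟨z.1.1, z.2⟩, (hmem _).2 z.1.2.2⟩
            left_inv := fun y => rfl
            right_inv := fun z => rfl }
      rw [h1, Nat.card_prod, hfix, Nat.card_zpowers, ha]
      norm_num
    have h2 := MaxClassCrit.nilpotencyClass_of_self_centralizing (p := 3) (m + 1) hcX
      (Subgroup.centralizer ({s} : Set X)) hcA (by
        apply Subgroup.centralizer_le
        rw [Set.singleton_subset_iff]
        exact (hmem s).2 (by simp [s]))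
    rw [h2]; rfl
  · rintro ⟨hp3, hcl⟩
    subst hp3
    by_contra hcon
    push Not at hcon
    have hfix : ∀ x ∈ E, a x = x := by
      intro x hx
      by_cases hx1 : x = 1
      · rw [hx1, map_one]
      · apply hcon
        exact orderOf_eq_prime ((h.memE x).1 hx) hx1
    have hall : ∀ x : L, x⁻¹ * a x ∈ E := by
      intro x
      obtain ⟨k, hk⟩ := hL x
      exact all_in_E h ha' hfix k x hk
    obtain ⟨M, hMn, hEM, hMi⟩ := h.idx
    have hallM : ∀ b ∈ Subgroup.zpowers a, ∀ x : L, QuotientGroup.mk' M (b x) = QuotientGroup.mk' M x := by
      intro b hb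
      have h1 : Subgroup.zpowers a ≤ ({ carrier := {b | ∀ x : L, QuotientGroup.mk' M (b x) = QuotientGroup.mk' M x}
                                        one_mem' := fun x => rfl
                                        mul_mem' := by
                                          intro b c hb hc x
                                          rw [MulAut.mul_apply, hb, hc]
                                        inv_mem' := by
                                          intro b hb x
                                          have := hb (b⁻¹ x)
                                          rw [MulAut.apply_inv_self] at this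
                                          exact this.symm } : Subgroup (MulAut L)) := by
        rw [Subgroup.zpowers_le]
        intro x
        exact ((QuotientGroup.eq (s := M)).2 (hEM (hall x))).symm
      exact h1 hb
    let φ : X →* (L ⧸ M) × Subgroup.zpowers a :=
      { toFun := fun y => (QuotientGroup.mk' M y.left, y.right)
        map_one' := rfl
        map_mul' := by
          intro y z
          rw [SemidirectProduct.mul_left, SemidirectProduct.mul_right, map_mul]
          have h1 := hallM y.right y.right.2 z.left
          show (QuotientGroup.mk' M y.left * QuotientGroup.mk' M ((y.right : MulAut L) z.left), y.right * z.right) = _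
          rw [h1]
          rfl }
    have hLM : ∀ x y : L ⧸ M, x * y = y * x := by
      have h1 : Nat.card (L ⧸ M) = 3 ^ 2 := by rw [← Subgroup.index_eq_card, hMi]
      exact (IsPGroup.isMulCommutative_of_card_eq_prime_sq h1).is_comm.comm
    have hcomm : commutator X ≤ φ.ker := by
      rw [commutator_def, Subgroup.commutator_le]
      intro x _ y _
      rw [MonoidHom.mem_ker, map_commutatorElement, commutatorElement_eq_one_iff_mul_comm]
      apply Prod.ext
      · exact hLM _ _
      · exact mul_comm' _ _
    have hker : Nat.card φ.ker ≤ Nat.card M := by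
      apply Nat.card_le_card_of_injective (fun y : φ.ker => (⟨y.1.left, by
        have h1 : φ y.1 = 1 := y.2
        exact (QuotientGroup.eq_one_iff _).1 (congrArg Prod.fst h1)⟩ : M))
      intro y z hyz
      have h1 : φ y.1 = 1 := y.2
      have h2 : φ z.1 = 1 := z.2
      apply Subtype.ext
      apply SemidirectProduct.ext
      · exact congrArg Subtype.val hyz
      · exact (congrArg Prod.snd h1).trans (congrArg Prod.snd h2).symm
    have hM : Nat.card M * 3 ^ 2 = 3 ^ m := by
      rw [← hMi, ← hm]; exact Subgroup.card_mul_index M
    have h3 := MaxClassNormal.card_lcs (p := 3) (n := m + 1) (by omega) hcX (by rw [hcl]; rfl) (i := 1) le_rfl (by omega)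
    have h4 : (⊤ : Subgroup X).lowerCentralSeries 1 = commutator X := rfl
    rw [h4] at h3
    have h5 : Nat.card (commutator X) ≤ Nat.card M :=
      (Nat.card_le_card_of_injective _ (Subgroup.inclusion_injective hcomm)).trans hker
    rw [h3] at h5
    have h6 : 3 ^ (m + 1 - 1 - 1) * 3 ^ 2 ≤ 3 ^ m := by
      rw [← hM]; exact Nat.mul_le_mul_right _ h5
    rw [← pow_add] at h6
    have h7 := (Nat.pow_le_pow_iff_right (by norm_num : 1 < 3)).1 h6
    omega

end Cfsg.Agent.Lib.H56MetaAut
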