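import Mathlib
import Cfsg.Agent.Lib.UniqueInvolution

set_option autoImplicit false

/-! Groups of order 162 (S3376). -/

namespace Cfsg.Agent.Lib.H56Order162

open Equiv

theorem cycleType_eq (σ : Perm (Fin 9)) (h3 : orderOf σ = 3) (hf : ∀ x, σ x ≠ x) :
    σ.cycleType = Multiset.replicate 3 3 := by
  obtain ⟨n, hn⟩ := Perm.cycleType_prime_order (σ := σ) (by rw [h3]; exact Nat.prime_three)
  rw [h3] at hn
  have hs : σ.cycleType.sum = 9 := by
    rw [Perm.sum_cycleType]
    have : σ.support = Finset.univ := by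
      ext x; simp [hf x]
    rw [this, Finset.card_univ, Fintype.card_fin]
  rw [hn] at hs
  simp at hs
  rw [hn]
  congr 1
  omega

theorem orderOf_eq (σ : Perm (Fin 9)) (h : σ ^ 3 = 1) (h1 : σ ≠ 1) : orderOf σ = 3 :=
  orderOf_eq_prime h h1

theorem main {G : Type*} [Group G] [Finite G] (hG : Nat.card G = 162)
    (S : Sylow 3 G) (T : Sylow 2 G) (J : Subgroup G) [hJn : J.Normal] (hJcomm : IsMulCommutative J)
    (hJexp : ∀ a ∈ J, a ^ 3 = 1) (hJcard : Nat.card J = 27)
    (Z : Subgroup G) (hZ : Z = (S : Subgroup G) ⊓ Subgroup.centralizer ((S : Subgroup G) : Set G)) (hZcard : Nat.card Z = 3)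
    (hZT : Z ≤ Subgroup.centralizer ((T : Subgroup G) : Set G))
    (hST : (S : Subgroup G) ⊓ Subgroup.centralizer ((T : Subgroup G) : Set G) ≠ S) :
    ∃ (f : G →* Perm (Fin 9)) (z : G), Function.Injective f ∧ orderOf (f z) = 3 ∧ (∀ x, f z x ≠ x) ∧
      ∀ g, g * z = z * g := by
  classical
  haveI : Fact (Nat.Prime 3) := ⟨Nat.prime_three⟩
  haveI : Fact (Nat.Prime 2) := ⟨Nat.prime_two⟩
  have hf162 : (162 : ℕ) = 3 ^ 4 * 2 := by norm_num
  have hScard : Nat.card S = 81 := by
    rw [S.card_eq_multiplicity, hG, hf162, Nat.factorization_mul (by norm_num) (by norm_num),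
      Nat.Prime.factorization_pow Nat.prime_three, Nat.Prime.factorization Nat.prime_two]
    simp
  have hTcard : Nat.card T = 2 := by
    rw [T.card_eq_multiplicity, hG, hf162, Nat.factorization_mul (by norm_num) (by norm_num),
      Nat.Prime.factorization_pow Nat.prime_three, Nat.Prime.factorization Nat.prime_two]
    simp
  obtain ⟨t, ht1, htT⟩ : ∃ t : G, t ≠ 1 ∧ (T : Subgroup G) = Subgroup.zpowers t := by
    have hnt : Nontrivial (T : Subgroup G) := by
      rw [← Finite.one_lt_card_iff_nontrivial]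
      show 1 < Nat.card T
      omega
    obtain ⟨t, ht⟩ := exists_ne (1 : (T : Subgroup G))
    have ht1 : (t : G) ≠ 1 := fun h => ht (Subtype.ext h)
    refine ⟨t, ht1, ?_⟩
    have hle : Subgroup.zpowers (t : G) ≤ T := by
      rw [Subgroup.zpowers_le]; exact t.2
    symm
    apply Subgroup.eq_of_le_of_card_ge hle
    have h1 : Nat.card (Subgroup.zpowers (t : G)) ∣ 2 := by
      have := Subgroup.card_dvd_of_le hle
      rwa [show Nat.card (T : Subgroup G) = 2 from hTcard] at this
    have h2 : Nat.card (Subgroup.zpowers (t : G)) ≠ 1 := by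
      intro h
      rw [Subgroup.card_eq_one, Subgroup.zpowers_eq_bot] at h
      exact ht1 h
    have h3 := (Nat.dvd_prime Nat.prime_two).1 h1
    rcases h3 with h3 | h3
    · exact absurd h3 h2
    · rw [h3]
      exact hTcard.le
  have htmem : t ∈ (T : Subgroup G) := by rw [htT]; exact Subgroup.mem_zpowers t
  have hto : orderOf t = 2 := by
    have : Nat.card (Subgroup.zpowers t) = 2 := by rw [← htT]; exact hTcard
    rwa [Nat.card_zpowers] at this
  have ht2 : t * t = 1 := by
    have := pow_orderOf_eq_one t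
    rwa [hto, sq] at this
  have hJp : IsPGroup 3 J := IsPGroup.of_card (n := 3) (by rw [hJcard]; norm_num)
  have hJS : J ≤ S := IsPGroup.le_sylow_of_normal hJp S
  have htJ : t ∉ J := by
    intro h
    have h3 := hJexp t h
    have h4 : t ^ 3 = t := by rw [pow_succ, sq, ht2, one_mul]
    exact ht1 (h4 ▸ h3)
  -- normal subgroups inside `J`
  have hnorm : ∀ N : Subgroup G, N.Normal → N ≤ J → N ≠ ⊥ → Z ≤ N := by
    intro N hN hNJ hNe
    haveI := hN
    have hSp : IsPGroup 3 (S : Subgroup G) := S.isPGroup'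
    haveI : (N.subgroupOf (S : Subgroup G)).Normal := inferInstance
    have hNe' : N.subgroupOf (S : Subgroup G) ≠ ⊥ := by
      rw [Ne, Subgroup.subgroupOf_eq_bot, disjoint_iff, inf_eq_left.2 (hNJ.trans hJS)]
      exact hNe
    obtain ⟨c, hc, hc1, hcc⟩ := UniqueInvolution.exists_central_of_normal hSp _ hNe'
    have hcZ : (c : G) ∈ Z := by
      rw [hZ]
      refine ⟨c.2, ?_⟩
      show (c : G) ∈ Subgroup.centralizer _
      rw [Subgroup.mem_centralizer_iff]
      intro g hg
      exact congrArg Subtype.val (hcc ⟨g, hg⟩)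
    have hcz : Subgroup.zpowers (c : G) = Z := by
      apply Subgroup.eq_of_le_of_card_ge
      · rw [Subgroup.zpowers_le]; exact hcZ
      · have h1 : Nat.card (Subgroup.zpowers (c : G)) ∣ Nat.card Z := by
          apply Subgroup.card_dvd_of_le
          rw [Subgroup.zpowers_le]; exact hcZ
        rw [hZcard] at h1
        rcases (Nat.dvd_prime Nat.prime_three).1 h1 with h | h
        · rw [Subgroup.card_eq_one, Subgroup.zpowers_eq_bot] at h
          exact absurd (Subtype.ext h) hc1
        · rw [h, hZcard]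
    rw [← hcz, Subgroup.zpowers_le]
    exact hc
  have hJne : J ≠ ⊥ := by
    intro h
    rw [h, Subgroup.card_bot] at hJcard
    omega
  have hZJ : Z ≤ J := hnorm J hJn le_rfl hJne
  obtain ⟨z, hz1, hzZ⟩ : ∃ z : G, z ≠ 1 ∧ z ∈ Z := by
    have hnt : Nontrivial Z := by
      rw [← Finite.one_lt_card_iff_nontrivial]
      omega
    obtain ⟨z, hz⟩ := exists_ne (1 : Z)
    exact ⟨z, fun h => hz (Subtype.ext h), z.2⟩
  have hz3 : z ^ 3 = 1 := hJexp z (hZJ hzZ)
  have hzt : t * z = z * t := (Subgroup.mem_centralizer_iff.1 (hZT hzZ)) t htmem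
  -- `z` is central
  have hzc : ∀ g, g * z = z * g := by
    have hC : Subgroup.centralizer ({z} : Set G) = ⊤ := by
      have h1 : (S : Subgroup G) ≤ Subgroup.centralizer ({z} : Set G) := by
        intro g hg
        rw [Subgroup.mem_centralizer_singleton_iff]
        have hzZ' := hzZ
        rw [hZ] at hzZ'
        exact (Subgroup.mem_centralizer_iff.1 hzZ'.2) g hg
      have h2 : (T : Subgroup G) ≤ Subgroup.centralizer ({z} : Set G) := by
        rw [htT, Subgroup.zpowers_le, Subgroup.mem_centralizer_singleton_iff]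
        exact hzt
      apply Subgroup.eq_top_of_card_eq
      have d1 := Subgroup.card_dvd_of_le h1
      have d2 := Subgroup.card_dvd_of_le h2
      rw [show Nat.card (S : Subgroup G) = 81 from hScard] at d1
      rw [show Nat.card (T : Subgroup G) = 2 from hTcard] at d2
      have d3 := (Subgroup.centralizer ({z} : Set G)).card_subgroup_dvd_card
      rw [hG] at d3 ⊢
      have d4 : 81 * 2 ∣ Nat.card (Subgroup.centralizer ({z} : Set G)) :=
        Nat.Coprime.mul_dvd_of_dvd_of_dvd (by norm_num) d1 d2
      exact Nat.dvd_antisymm d3 d4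
    intro g
    have : g ∈ Subgroup.centralizer ({z} : Set G) := by rw [hC]; trivial
    exact Subgroup.mem_centralizer_singleton_iff.1 this
  -- the functional
  letI : CommGroup J := { (inferInstance : Group J) with mul_comm := fun a b => hJcomm.is_comm.comm a b }
  obtain ⟨φ, hφ⟩ : ∃ φ : J →* ℂˣ, φ ⟨z, hZJ hzZ⟩ ≠ 1 :=
    CommGroup.exists_apply_ne_one_of_hasEnoughRootsOfUnity J ℂ (fun h => hz1 (congrArg Subtype.val h))
  let ct : J →* J := 
    { toFun := fun a => ⟨t * a * t⁻¹, hJn.conj_mem _ a.2 t⟩
      map_one' := by ext; simp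
      map_mul' := by intro a b; ext; simp }
  let ψ : J →* ℂˣ := φ * φ.comp ct
  have hψz : ψ ⟨z, hZJ hzZ⟩ ≠ 1 := by
    have e : ct ⟨z, hZJ hzZ⟩ = ⟨z, hZJ hzZ⟩ := by
      apply Subtype.ext
      show t * z * t⁻¹ = z
      rw [hzt, mul_inv_cancel_right]
    have e2 : ψ ⟨z, hZJ hzZ⟩ = φ ⟨z, hZJ hzZ⟩ * φ ⟨z, hZJ hzZ⟩ := by
      show φ ⟨z, hZJ hzZ⟩ * φ (ct ⟨z, hZJ hzZ⟩) = _
      rw [e]
    rw [e2]
    intro h
    have h3 : φ ⟨z, hZJ hzZ⟩ ^ 3 = 1 := by
      rw [← map_pow, show (⟨z, hZJ hzZ⟩ : J) ^ 3 = 1 from Subtype.ext hz3, map_one]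
    apply hφ
    rw [← sq] at h
    rw [pow_succ, h, one_mul] at h3
    exact h3
  have hψt : ∀ a, ψ (ct a) = ψ a := by
    intro a
    have e : ct (ct a) = a := by
      apply Subtype.ext
      show t * (t * a * t⁻¹) * t⁻¹ = a
      have : t⁻¹ = t := inv_eq_of_mul_eq_one_left ht2
      rw [this]
      calc t * (t * (a : G) * t) * t = (t * t) * a * (t * t) := by group
        _ = a := by rw [ht2]; simp
    show φ (ct a) * φ (ct (ct a)) = φ a * φ (ct a)
    rw [e, mul_comm]
  let B : Subgroup G := ψ.ker.map J.subtype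
  have hBmem : ∀ g, g ∈ B ↔ ∃ h : g ∈ J, ψ ⟨g, h⟩ = 1 := by
    intro g
    constructor
    · rintro ⟨a, ha, rfl⟩
      exact ⟨a.2, ha⟩
    · rintro ⟨h, h'⟩
      exact ⟨⟨g, h⟩, h', rfl⟩
  have hBcard : Nat.card B = 9 := by
    have h1 : Nat.card B = Nat.card ψ.ker := Subgroup.card_map_of_injective Subtype.val_injective
    have h2 := ψ.ker.card_mul_index
    rw [Subgroup.index_ker, hJcard] at h2
    have h3 : Nat.card ψ.range = 3 := by
      haveI : Finite ψ.range := Finite.of_surjective ψ.rangeRestrict ψ.rangeRestrict_surjective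
      have hcyc : IsCyclic ψ.range := inferInstance
      obtain ⟨c, hc⟩ := hcyc.exists_generator
      have ho : orderOf c = Nat.card ψ.range := orderOf_eq_card_of_forall_mem_zpowers hc
      have hc3 : c ^ 3 = 1 := by
        obtain ⟨a, ha⟩ := c.2
        apply Subtype.ext
        show (c : ℂˣ) ^ 3 = 1
        rw [← ha, ← map_pow, show a ^ 3 = 1 from Subtype.ext (hJexp _ a.2), map_one]
      have hd : orderOf c ∣ 3 := orderOf_dvd_of_pow_eq_one hc3
      rcases (Nat.dvd_prime Nat.prime_three).1 hd with h | h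
      · exfalso
        rw [h] at ho
        have hb := Subgroup.card_eq_one.1 ho.symm
        apply hψz
        have : ψ ⟨z, hZJ hzZ⟩ ∈ ψ.range := ⟨_, rfl⟩
        rw [hb] at this
        exact this
      · rw [← ho, h]
    rw [h3] at h2
    omega
  have hzB : z ∉ B := by
    rw [hBmem]
    rintro ⟨_, h⟩
    exact hψz h
  have hBt : ∀ b ∈ B, t * b * t⁻¹ ∈ B := by
    intro b hb
    rw [hBmem] at hb ⊢
    obtain ⟨h, h'⟩ := hb
    exact ⟨hJn.conj_mem _ h t, by rw [← h']; exact hψt ⟨b, h⟩⟩
  have htinv : t⁻¹ = t := inv_eq_of_mul_eq_one_left ht2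
  -- the subgroup `H`
  let H : Subgroup G :=
    { carrier := {g | g ∈ B ∨ g * t ∈ B}
      one_mem' := Or.inl B.one_mem
      mul_mem' := by
        rintro a b (ha | ha) (hb | hb)
        · exact Or.inl (B.mul_mem ha hb)
        · exact Or.inr (by rw [mul_assoc]; exact B.mul_mem ha hb)
        · right
          have : a * b * t = (a * t) * (t * b * t⁻¹) := by
            rw [htinv]
            calc a * b * t = a * (t * t) * b * t := by rw [ht2, mul_one]
              _ = _ := by group
          rw [this]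
          exact B.mul_mem ha (hBt b hb)
        · left
          have : a * b = (a * t) * (t * (b * t) * t⁻¹) := by
            rw [htinv]
            calc a * b = a * (t * t) * b * (t * t) := by rw [ht2, mul_one, mul_one]
              _ = _ := by group
          rw [this]
          exact B.mul_mem ha (hBt _ hb)
      inv_mem' := by
        rintro a (ha | ha)
        · exact Or.inl (B.inv_mem ha)
        · right
          have : a⁻¹ * t = t * (a * t)⁻¹ * t⁻¹ := by
            rw [mul_inv_rev, htinv]
            calc a⁻¹ * t = (t * t) * a⁻¹ * t := by rw [ht2, one_mul]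
              _ = _ := by group
          rw [this]
          exact hBt _ (B.inv_mem ha) }
  have hHmem : ∀ g, g ∈ H ↔ g ∈ B ∨ g * t ∈ B := fun g => Iff.rfl
  have hBJ : B ≤ J := by
    rintro _ ⟨a, _, rfl⟩
    exact a.2
  have hHJ : ∀ g, g ∈ H → g ∈ J → g ∈ B := by
    intro g hg hgJ
    rcases (hHmem g).1 hg with h | h
    · exact h
    · exfalso
      apply htJ
      have := J.mul_mem (J.inv_mem hgJ) (hBJ h)
      rwa [inv_mul_cancel_left] at this
  have hBH : B ≤ H := fun g hg => Or.inl hg
  have htH : t ∈ H := by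
    right
    rw [ht2]; exact B.one_mem
  have hHcard : 18 ∣ Nat.card H := by
    have d1 := Subgroup.card_dvd_of_le hBH
    have d2 : Nat.card (Subgroup.zpowers t) ∣ Nat.card H := by
      apply Subgroup.card_dvd_of_le
      rw [Subgroup.zpowers_le]; exact htH
    rw [hBcard] at d1
    rw [Nat.card_zpowers, hto] at d2
    exact Nat.Coprime.mul_dvd_of_dvd_of_dvd (m := 9) (n := 2) (by norm_num) d1 d2
  have hHindex : H.index ∣ 9 := by
    obtain ⟨c, hc⟩ := hHcard
    have := H.card_mul_index
    rw [hG, hc] at this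
    refine ⟨c, ?_⟩
    nlinarith
  -- trivial core
  have hcore : H.normalCore = ⊥ := by
    set N := H.normalCore with hN
    have hNJ : N ⊓ J = ⊥ := by
      by_contra hne
      have h1 : Z ≤ N ⊓ J := hnorm _ inferInstance inf_le_right hne
      have h2 := h1 hzZ
      exact hzB (hHJ z (Subgroup.normalCore_le H h2.1) h2.2)
    by_contra hne
    obtain ⟨n, hn, hn1⟩ : ∃ n : G, n ∈ N ∧ n ≠ 1 := by
      obtain ⟨n0, hn0⟩ := Subgroup.ne_bot_iff_exists_ne_one.1 hne
      exact ⟨n0, n0.2, fun h' => hn0 (Subtype.ext h')⟩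
    have hnJ : ∀ m ∈ N, m ∈ J → m = 1 := by
      intro m hm hmJ
      have : m ∈ N ⊓ J := ⟨hm, hmJ⟩
      rw [hNJ] at this
      exact this
    have hnt : n * t ∈ B := by
      rcases (hHmem n).1 (Subgroup.normalCore_le H hn) with h | h
      · exact absurd (hnJ n hn (hBJ h)) hn1
      · exact h
    -- `n` is central
    have huniq : ∀ m ∈ N, m ≠ 1 → m = n := by
      intro m hm hm1
      have hmt : m * t ∈ B := by
        rcases (hHmem m).1 (Subgroup.normalCore_le H hm) with h | h
        · exact absurd (hnJ m hm (hBJ h)) hm1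
        · exact h
      have h1 : m * n⁻¹ ∈ J := by
        have : m * n⁻¹ = (m * t) * (n * t)⁻¹ := by group
        rw [this]
        exact J.mul_mem (hBJ hmt) (J.inv_mem (hBJ hnt))
      exact mul_inv_eq_one.1 (hnJ _ (N.mul_mem hm (N.inv_mem hn)) h1)
    have hnc : ∀ g, g * n = n * g := by
      intro g
      have h1 : g * n * g⁻¹ ∈ N := (inferInstance : N.Normal).conj_mem n hn g
      have h2 : g * n * g⁻¹ ≠ 1 := fun h => hn1 (by simpa using h)
      have h3 := huniq _ h1 h2
      exact mul_inv_eq_iff_eq_mul.1 h3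
    have hn2 : n ^ 2 = 1 := by
      by_contra h
      have h1 := huniq (n ^ 2) (N.pow_mem hn 2) h
      rw [sq] at h1
      exact hn1 (mul_eq_left.1 h1)
    -- `n ∈ T`
    have hnT : n ∈ (T : Subgroup G) := by
      have hNp : IsPGroup 2 (Subgroup.zpowers n) := by
        apply IsPGroup.of_card (n := 1)
        rw [Nat.card_zpowers, pow_one]
        exact orderOf_eq_prime hn2 hn1
      haveI : (Subgroup.zpowers n).Normal := by
        constructor
        intro a ha g
        obtain ⟨i, rfl⟩ := Subgroup.mem_zpowers_iff.1 ha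
        have : g * n ^ i * g⁻¹ = n ^ i := by
          rw [← conj_zpow, hnc g, mul_inv_cancel_right]
        rw [this]; exact ha
      exact IsPGroup.le_sylow_of_normal hNp T (Subgroup.mem_zpowers n)
    have hnt' : n = t := by
      rw [htT] at hnT
      obtain ⟨i, hi⟩ := Subgroup.mem_zpowers_iff.1 hnT
      rcases Int.even_or_odd' i with ⟨k, rfl | rfl⟩
      · exfalso
        apply hn1
        rw [← hi, zpow_mul, zpow_ofNat, sq, ht2, one_zpow]
      · rw [← hi, zpow_add, zpow_mul, zpow_ofNat, sq, ht2, one_zpow, one_mul, zpow_one]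
    apply hST
    apply inf_eq_left.2
    intro g _
    rw [htT, Subgroup.mem_centralizer_iff]
    intro a ha
    obtain ⟨i, rfl⟩ := Subgroup.mem_zpowers_iff.1 ha
    have : g * t = t * g := by rw [← hnt']; exact hnc g
    exact ((Commute.zpow_right this i).eq).symm
  -- the action
  have hzH : z ∉ H := fun h => hzB (hHJ z h (hZJ hzZ))
  let f0 : G →* Perm (G ⧸ H) := MulAction.toPermHom G (G ⧸ H)
  have hf0 : Function.Injective f0 := by
    rw [← MonoidHom.ker_eq_bot_iff, ← Subgroup.normalCore_eq_ker]
    exact hcore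
  have hindex : H.index = 9 := by
    -- `H` has index `9`
    have h9 : H.index ∣ 3 ^ 2 := hHindex
    obtain ⟨k, hk, hk'⟩ := (Nat.dvd_prime_pow Nat.prime_three).1 h9
    have hle : Nat.card H ≤ 18 := by
      have h1 : (B.subgroupOf H).index ≤ 2 := by
        have : (B.subgroupOf H).index ∣ 2 ∨ (B.subgroupOf H).index ≤ 2 := by
          right
          have hsurj : Function.Surjective (fun b : Fin 2 => ((if b = 0 then (1 : H) else ⟨t, htH⟩ : H) : H ⧸ (B.subgroupOf H))) := by
            intro q
            induction q using QuotientGroup.induction_on with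
            | H g =>
              rcases (hHmem g.1).1 g.2 with h | h
              · refine ⟨0, ?_⟩
                simp only [if_true]
                rw [QuotientGroup.eq]
                rw [Subgroup.mem_subgroupOf]
                simpa using h
              · refine ⟨1, ?_⟩
                simp only [Fin.one_eq_zero_iff, OfNat.ofNat_ne_one, if_false]
                rw [QuotientGroup.eq]
                rw [Subgroup.mem_subgroupOf]
                show t⁻¹ * g.1 ∈ B
                have := hBt _ h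
                have e : t * ((g : G) * t) * t⁻¹ = t⁻¹ * g.1 := by
                  rw [mul_assoc t, mul_inv_cancel_right, htinv]
                rwa [e] at this
          have := Nat.card_le_card_of_surjective _ hsurj
          rw [Nat.card_eq_fintype_card (α := Fin 2), Fintype.card_fin] at this
          exact this
        rcases this with h | h
        · exact Nat.le_of_dvd (by norm_num) h
        · exact h
      have h2 := (B.subgroupOf H).card_mul_index
      have h3 : Nat.card (B.subgroupOf H) = 9 := by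
        rw [Nat.card_congr (Subgroup.subgroupOfEquivOfLe hBH).toEquiv, hBcard]
      rw [h3] at h2
      omega
    have h4 := H.card_mul_index
    rw [hG] at h4
    have h5 := Nat.le_of_dvd (by norm_num) hHindex
    nlinarith
  have e9 : (G ⧸ H) ≃ Fin 9 := by
    have : Nat.card (G ⧸ H) = 9 := hindex
    exact Finite.equivFinOfCardEq this
  let f : G →* Perm (Fin 9) := (e9.permCongrHom : Perm (G ⧸ H) ≃* Perm (Fin 9)).toMonoidHom.comp f0
  have hf : Function.Injective f := (e9.permCongrHom : Perm (G ⧸ H) ≃* Perm (Fin 9)).injective.comp hf0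
  refine ⟨f, z, hf, ?_, ?_, hzc⟩
  · rw [orderOf_injective f hf]
    exact orderOf_eq_prime hz3 hz1
  · intro x hx
    have h1 : f0 z (e9.symm x) = e9.symm x := by
      have h2 : f z x = e9 (f0 z (e9.symm x)) := by
        simp [f]
      rw [h2] at hx
      exact (e9.apply_eq_iff_eq_symm_apply).1 hx
    obtain ⟨g, hg⟩ := QuotientGroup.mk_surjective (e9.symm x)
    rw [← hg] at h1
    have h3 : (((z * g : G)) : G ⧸ H) = (g : G ⧸ H) := h1
    rw [QuotientGroup.eq, ← hzc g] at h3
    have h4 : (g * z)⁻¹ * g = z⁻¹ := by group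
    rw [h4] at h3
    exact hzH (by simpa using H.inv_mem h3)

theorem card_centralizer_eq (σ : Perm (Fin 9)) (h : σ.cycleType = Multiset.replicate 3 3) :
    Nat.card (Subgroup.centralizer ({σ} : Set (Perm (Fin 9)))) = 162 := by
  rw [Perm.nat_card_centralizer, h]
  simp [Multiset.toFinset_replicate, Multiset.count_replicate, Nat.factorial]

theorem centralizer_equiv {K : Type*} [Group K] {a b : K} (h : IsConj a b) :
    Nonempty (Subgroup.centralizer ({a} : Set K) ≃* Subgroup.centralizer ({b} : Set K)) := by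
  obtain ⟨c, hc⟩ := isConj_iff.1 h
  have : (Subgroup.centralizer ({a} : Set K)).map (MulAut.conj c).toMonoidHom =
      Subgroup.centralizer ({b} : Set K) := by
    ext g
    constructor
    · rintro ⟨x, hx, rfl⟩
      have hx' : x * a = a * x := Subgroup.mem_centralizer_singleton_iff.1 hx
      rw [Subgroup.mem_centralizer_singleton_iff]
      show c * x * c⁻¹ * b = b * (c * x * c⁻¹)
      rw [← hc]
      calc c * x * c⁻¹ * (c * a * c⁻¹) = c * (x * a) * c⁻¹ := by group
        _ = c * (a * x) * c⁻¹ := by rw [hx']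
        _ = _ := by group
    · intro hg
      have hg' : g * b = b * g := Subgroup.mem_centralizer_singleton_iff.1 hg
      refine ⟨c⁻¹ * g * c, ?_, ?_⟩
      · show c⁻¹ * g * c ∈ Subgroup.centralizer ({a} : Set K)
        rw [Subgroup.mem_centralizer_singleton_iff]
        have ha : a = c⁻¹ * b * c := by rw [← hc]; group
        rw [ha]
        calc c⁻¹ * g * c * (c⁻¹ * b * c) = c⁻¹ * (g * b) * c := by group
          _ = c⁻¹ * (b * g) * c := by rw [hg']
          _ = _ := by group
      · show c * (c⁻¹ * g * c) * c⁻¹ = g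
        group
  rw [← this]
  exact ⟨(Subgroup.centralizer ({a} : Set K)).equivMapOfInjective _ (MulAut.conj c).injective⟩

theorem final {G : Type*} [Group G] [Finite G] (hG : Nat.card G = 162)
    (S : Sylow 3 G) (T : Sylow 2 G) (J : Subgroup G) [hJn : J.Normal] (hJcomm : IsMulCommutative J)
    (hJexp : ∀ a ∈ J, a ^ 3 = 1) (hJcard : Nat.card J = 27)
    (Z : Subgroup G) (hZ : Z = (S : Subgroup G) ⊓ Subgroup.centralizer ((S : Subgroup G) : Set G)) (hZcard : Nat.card Z = 3)
    (hZT : Z ≤ Subgroup.centralizer ((T : Subgroup G) : Set G))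
    (hST : (S : Subgroup G) ⊓ Subgroup.centralizer ((T : Subgroup G) : Set G) ≠ S) (τ : Perm (Fin 9))
    (hτ : τ ^ 3 = 1) (hτf : ∀ x, τ x ≠ x) :
    Nonempty (G ≃* Subgroup.centralizer ({τ} : Set (Perm (Fin 9)))) := by
  obtain ⟨f, z, hf, ho, hfix, hzc⟩ := main hG S T J hJcomm hJexp hJcard Z hZ hZcard hZT hST
  have c1 := cycleType_eq (f z) ho hfix
  have hτ1 : τ ≠ 1 := by
    rintro rfl
    exact hτf 0 rfl
  have c2 := cycleType_eq τ (orderOf_eq τ hτ hτ1) hτf
  have hconj : IsConj (f z) τ := Perm.isConj_iff_cycleType_eq.2 (c1.trans c2.symm)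
  obtain ⟨e⟩ := centralizer_equiv hconj
  have hr : f.range = Subgroup.centralizer ({f z} : Set (Perm (Fin 9))) := by
    apply Subgroup.eq_of_le_of_card_ge
    · rintro _ ⟨g, rfl⟩
      rw [Subgroup.mem_centralizer_singleton_iff, ← map_mul, hzc, map_mul]
    · rw [card_centralizer_eq _ c1, ← Nat.card_congr (MonoidHom.ofInjective hf).toEquiv, hG]
  exact ⟨((MonoidHom.ofInjective hf).trans (MulEquiv.subgroupCongr hr)).trans e⟩

end Cfsg.Agent.Lib.H56Order162
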