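import Mathlib

/-!
Conjugate powers of an irreducible operator over `F_p` are Frobenius powers.
-/

set_option autoImplicit false

namespace Cfsg.Agent.Lib.H58Frob

open Polynomial

/-- in a finite field: if `y` is a root of the minimal polynomial of `x` then `y = x^(p^i)` -/
theorem frob_field {K : Type*} [Field K] [Finite K] {p : ℕ} [hp : Fact p.Prime] [Algebra (ZMod p) K] (x y : K)
    (h : aeval y (minpoly (ZMod p) x) = 0) : ∃ i : ℕ, y = x ^ (p ^ i) := by
  have hint : IsIntegral (ZMod p) x := Algebra.IsIntegral.isIntegral x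
  have h1 : IsConjRoot (ZMod p) x y := (isConjRoot_iff_aeval_eq_zero hint).mpr h
  obtain ⟨σ, hσ⟩ := isConjRoot_iff_exists_algEquiv.mp h1.symm
  obtain ⟨i, hi⟩ := (FiniteField.bijective_frobeniusAlgEquivOfAlgebraic_pow (ZMod p) K).2 σ
  refine ⟨i, ?_⟩
  rw [← hσ, ← hi]
  simp only [AlgEquiv.coe_pow, FiniteField.coe_frobeniusAlgEquivOfAlgebraic_iterate]
  simp [ZMod.card]

/-- `X` irreducible over `F_q` and `X^j` conjugate to `X`: then `X^j = X^(q^i)` -/
theorem frob_end {q : ℕ} [hq : Fact q.Prime] {V : Type*} [AddCommGroup V] [Finite V] [Nontrivial V]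
    [Module (ZMod q) V] (T : Module.End (ZMod q) V)
    (hirr : ∀ W : Submodule (ZMod q) V, (∀ w ∈ W, T w ∈ W) → W = ⊥ ∨ W = ⊤) (j : ℕ)
    (U U' : Module.End (ZMod q) V) (hUU' : U * U' = 1) (hU : U * T = T ^ j * U) : ∃ i : ℕ, T ^ j = T ^ (q ^ i) := by
  classical
  obtain ⟨v, hv⟩ := exists_ne (0 : V)
  have : Finite (Module.End (ZMod q) V) := Finite.of_injective (fun f => (f : V → V)) DFunLike.coe_injective
  let R := Algebra.adjoin (ZMod q) ({T} : Set (Module.End (ZMod q) V))
  have hmc : IsMulCommutative R := Algebra.isMulCommutative_adjoin (ZMod q) (by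
    intro a ha b hb
    rw [Set.mem_singleton_iff] at ha hb
    rw [ha, hb])
  let _ : CommRing R := { (inferInstance : Ring R) with mul_comm := hmc.is_comm.comm }
  have hTR : T ∈ R := Algebra.subset_adjoin rfl
  have hcomm : ∀ r : R, (r : Module.End (ZMod q) V) * T = T * r := by
    intro r
    have := mul_comm r ⟨T, hTR⟩
    exact congrArg Subtype.val this
  have hinj : ∀ r : R, r ≠ 0 → ∀ w : V, (r : Module.End (ZMod q) V) w = 0 → w = 0 := by
    intro r hr w hw
    have h1 := hirr (LinearMap.ker (r : Module.End (ZMod q) V)) (by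
      intro w hw
      rw [LinearMap.mem_ker] at hw ⊢
      have h2 : ((r : Module.End (ZMod q) V) * T) w = (T * r) w := by rw [hcomm r]
      rw [Module.End.mul_apply, Module.End.mul_apply, hw, map_zero] at h2
      exact h2)
    rcases h1 with h1 | h1
    · have : w ∈ LinearMap.ker (r : Module.End (ZMod q) V) := hw
      rw [h1] at this
      simpa using this
    · exfalso
      apply hr
      apply Subtype.ext
      rw [LinearMap.ker_eq_top] at h1
      exact h1
  have hnzd : NoZeroDivisors R := ⟨by
    intro a b hab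
    by_contra hcon
    push Not at hcon
    apply hcon.2
    apply Subtype.ext
    ext w
    have h1 : (a : Module.End (ZMod q) V) ((b : Module.End (ZMod q) V) w) = 0 := by
      have := congrArg (fun r : R => (r : Module.End (ZMod q) V) w) hab
      exact this
    exact hinj a hcon.1 _ h1⟩
  have hnontriv : Nontrivial R := ⟨⟨0, 1, by
    intro h
    have := congrArg (fun r : R => (r : Module.End (ZMod q) V) v) h
    apply hv
    exact this.symm⟩⟩
  have hdom : IsDomain R := NoZeroDivisors.to_isDomain R
  let _ : Fintype R := Fintype.ofFinite R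
  let _ : Field R := Fintype.fieldOfDomain R
  let x : R := ⟨T, hTR⟩
  have haev : ∀ P : (ZMod q)[X], U * aeval T P = aeval (T ^ j) P * U := by
    intro P
    induction P using Polynomial.induction_on' with
    | add P Q hP hQ => rw [map_add, map_add, mul_add, add_mul, hP, hQ]
    | monomial n a =>
      rw [aeval_monomial, aeval_monomial, ← mul_assoc, ← Algebra.commutes, mul_assoc, mul_assoc]
      congr 1
      induction n with
      | zero => simp
      | succ n ih => rw [pow_succ, ← mul_assoc, ih, mul_assoc, hU, ← mul_assoc, ← pow_succ]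
  have hx : aeval (x ^ j) (minpoly (ZMod q) x) = 0 := by
    have h1 : aeval T (minpoly (ZMod q) x) = 0 := by
      have h2 := congrArg R.val (minpoly.aeval (ZMod q) x)
      rw [← Polynomial.aeval_algHom_apply] at h2
      simpa using h2
    have h3 := haev (minpoly (ZMod q) x)
    rw [h1, mul_zero] at h3
    have h4 : aeval (T ^ j) (minpoly (ZMod q) x) = 0 := by
      calc aeval (T ^ j) (minpoly (ZMod q) x) = aeval (T ^ j) (minpoly (ZMod q) x) * (U * U') := by rw [hUU', mul_one]
        _ = 0 := by rw [← mul_assoc, ← h3, zero_mul]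
    apply Subtype.ext
    have h5 : R.val (aeval (x ^ j) (minpoly (ZMod q) x)) = aeval (T ^ j) (minpoly (ZMod q) x) := by
      rw [← Polynomial.aeval_algHom_apply]
      rfl
    rw [h4] at h5
    exact h5
  obtain ⟨i, hi⟩ := frob_field (p := q) x (x ^ j) hx
  refine ⟨i, ?_⟩
  exact congrArg Subtype.val hi

theorem frob_add_aux {q : ℕ} [hq : Fact q.Prime] {V : Type*} [AddCommGroup V] [Finite V] [Nontrivial V]
    [Module (ZMod q) V] (e : ℕ → V ≃+ V) (he0 : ∀ x, e 0 x = x) (he : ∀ k x, e (k + 1) x = e k (e 1 x))
    (hirr : ∀ B : AddSubgroup V, (∀ b ∈ B, e 1 b ∈ B) → B = ⊥ ∨ B = ⊤) (j : ℕ) (u : V ≃+ V)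
    (hu : ∀ x, u (e 1 x) = e j (u x)) : ∃ i : ℕ, ∀ x, e j x = e (q ^ i) x := by
  let T : Module.End (ZMod q) V := (e 1).toAddMonoidHom.toZModLinearMap q
  let U : Module.End (ZMod q) V := u.toAddMonoidHom.toZModLinearMap q
  let U' : Module.End (ZMod q) V := u.symm.toAddMonoidHom.toZModLinearMap q
  have hT : ∀ x, T x = e 1 x := fun x => rfl
  have hTk : ∀ (k : ℕ) (x : V), (T ^ k) x = e k x := by
    intro k
    induction k with
    | zero => intro x; simp [he0]
    | succ k ih =>
      intro x
      rw [pow_succ, Module.End.mul_apply, hT, ih, he k]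
  obtain ⟨i, hi⟩ := frob_end T (by
    intro W hW
    rcases hirr W.toAddSubgroup (fun b hb => hW b hb) with hB | hB
    · left
      rw [eq_bot_iff]
      intro w hw
      have : w ∈ W.toAddSubgroup := hw
      rw [hB, AddSubgroup.mem_bot] at this
      exact this
    · right
      rw [eq_top_iff]
      intro w _
      have : w ∈ W.toAddSubgroup := by rw [hB]; trivial
      exact this) j U U' (by
    ext x
    exact u.apply_symm_apply x) (by
    ext x
    rw [Module.End.mul_apply, Module.End.mul_apply, hTk]
    exact hu x)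
  refine ⟨i, fun x => ?_⟩
  rw [← hTk, ← hTk, hi]

theorem frob_mul {q : ℕ} [hq : Fact q.Prime] {A : Type*} [CommGroup A] [Finite A] [Nontrivial A]
    (hA : ∀ a : A, a ^ q = 1) (e : MulAut A) (hirr : ∀ B : Subgroup A, (∀ b ∈ B, e b ∈ B) → B = ⊥ ∨ B = ⊤) (j : ℕ)
    (u : MulAut A) (hu : u * e = e ^ j * u) : ∃ i : ℕ, e ^ j = e ^ (q ^ i) := by
  let _ : Module (ZMod q) (Additive A) := AddCommGroup.zmodModule (n := q) (by
    intro x
    exact congrArg Additive.ofMul (hA x.toMul))
  have hfin : Finite (Additive A) := inferInstanceAs (Finite A)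
  have hnt : Nontrivial (Additive A) := inferInstanceAs (Nontrivial A)
  obtain ⟨i, hi⟩ := frob_add_aux (q := q) (V := Additive A) (fun k => MulEquiv.toAdditive (e ^ k))
    (fun x => rfl) (fun k x => by rw [pow_succ, pow_one]; rfl) (by
    intro B hB
    rcases hirr (AddSubgroup.toSubgroup' B) (fun b hb => by
      have := hB (Additive.ofMul b) hb
      rw [pow_one] at this
      exact this) with h | h
    · left
      rw [eq_bot_iff]
      intro w hw
      have : (Additive.toMul w : A) ∈ (AddSubgroup.toSubgroup' B) := hw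
      rw [h, Subgroup.mem_bot] at this
      exact congrArg Additive.ofMul this
    · right
      rw [eq_top_iff]
      intro w _
      have : (Additive.toMul w : A) ∈ (AddSubgroup.toSubgroup' B) := by rw [h]; trivial
      exact this) j (MulEquiv.toAdditive u) (by
    intro x
    have := congrArg (fun f : MulAut A => Additive.ofMul (f x.toMul)) hu
    rw [pow_one]
    exact this)
  refine ⟨i, ?_⟩
  ext x
  exact hi (Additive.ofMul x)

end Cfsg.Agent.Lib.H58Frob
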