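import Cfsg.Agent.Lib.AbEq3
import Cfsg.Agent.Lib.BlockThird
import Cfsg.Agent.Lib.Codegree
import Cfsg.Agent.Lib.H76Char

/-!
# Two coprime `p'`-subgroups whose orders multiply to the number of `p`-regular elements (helper62)
-/

set_option autoImplicit false
set_option linter.all false
set_option maxHeartbeats 400000

namespace Cfsg.Agent.Lib.H62Three

open Cfsg Cfsg.Agent.Lib.AbPim Cfsg.Agent.Lib.CharBasic Cfsg.Agent.Lib.BlockGA Cfsg.Agent.Lib.BlockThird
open Cfsg.Agent.Lib.IndFun (indFun_one indFun_eq_zero indFun_isClassFunction frobenius_reciprocity)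
open scoped ComplexConjugate

universe u

variable {G : Type u} [Group G] [Finite G]

/-- the inner product of two permutation characters on coprime subgroups -/
theorem inner_perm [Fintype G] (Q R : Subgroup G) (h : (Nat.card Q).Coprime (Nat.card R)) :
    classInner (indFun Q (fun x => (((1 : Q →* ℂˣ) x : ℂˣ) : ℂ))) (indFun R (fun x => (((1 : R →* ℂˣ) x : ℂˣ) : ℂ))) *
      (Nat.card Q * Nat.card R : ℂ) = Nat.card G := by
  classical
  have hone : ∀ g : G, g ≠ 1 → indFun Q (fun x => (((1 : Q →* ℂˣ) x : ℂˣ) : ℂ)) g *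
      conj (indFun R (fun x => (((1 : R →* ℂˣ) x : ℂˣ) : ℂ)) g) = 0 := by
    intro g hg
    by_cases h1 : ∃ x : G, x⁻¹ * g * x ∈ Q
    · by_cases h2 : ∃ x : G, x⁻¹ * g * x ∈ R
      · exfalso
        obtain ⟨x, hx⟩ := h1
        obtain ⟨y, hy⟩ := h2
        apply hg
        have e1 : orderOf g ∣ Nat.card Q := by
          have := Subgroup.orderOf_dvd_natCard Q hx
          have h3 : orderOf (x⁻¹ * g * x) = orderOf g := by
            have := orderOf_injective (MulAut.conj x⁻¹).toMonoidHom (MulAut.conj x⁻¹).injective g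
            rw [← this]; congr 1; simp
          rwa [h3] at this
        have e2 : orderOf g ∣ Nat.card R := by
          have := Subgroup.orderOf_dvd_natCard R hy
          have h3 : orderOf (y⁻¹ * g * y) = orderOf g := by
            have := orderOf_injective (MulAut.conj y⁻¹).toMonoidHom (MulAut.conj y⁻¹).injective g
            rw [← this]; congr 1; simp
          rwa [h3] at this
        exact orderOf_eq_one_iff.1 (Nat.dvd_one.1 (h ▸ Nat.dvd_gcd e1 e2))
      · rw [indFun_eq_zero R _ g (fun x hx => h2 ⟨x, hx⟩), map_zero, mul_zero]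
    · rw [indFun_eq_zero Q _ g (fun x hx => h1 ⟨x, hx⟩), zero_mul]
  rw [classInner_def, Finset.sum_eq_single 1 (fun g _ hg => hone g hg) (fun h => absurd (Finset.mem_univ _) h),
    indFun_one, indFun_one]
  have hQ : (Nat.card G : ℂ) = Nat.card Q * Q.index := by
    rw [← Nat.cast_mul, Subgroup.card_mul_index]
  have hR : (Nat.card G : ℂ) = Nat.card R * R.index := by
    rw [← Nat.cast_mul, Subgroup.card_mul_index]
  have hG : (Nat.card G : ℂ) ≠ 0 := Nat.cast_ne_zero.2 Nat.card_pos.ne'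
  simp only [MonoidHom.one_apply, Units.val_one, mul_one, map_natCast]
  calc (Nat.card G : ℂ)⁻¹ * ((Q.index : ℂ) * R.index) * (Nat.card Q * Nat.card R) =
      (Nat.card G : ℂ)⁻¹ * ((Nat.card Q * Q.index) * (Nat.card R * R.index)) := by ring
    _ = (Nat.card G : ℂ)⁻¹ * (Nat.card G * Nat.card G) := by rw [← hQ, ← hR]
    _ = _ := by rw [← mul_assoc, inv_mul_cancel₀ hG, one_mul]

/-- multiplicities dominate those of the principal indecomposable -/
theorem dom [Fintype G] {p : ℕ} {M : Ideal AlgInt} [hMm : M.IsMaximal] (hM : IsPModular p M)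
    {hB : IsPBlock M (principalBlock M G)} (P : PD hB)
    {j0 : Fin P.n} (h0 : lin ((triv G : IrrCharacter G) : G → ℂ) (P.F j0) = 1)
    (h1 : ∀ j, j ≠ j0 → lin ((triv G : IrrCharacter G) : G → ℂ) (P.F j) = 0)
    {a : IrrCharacter G → ℕ} (ha : ∀ χ : IrrCharacter G, lin (χ : G → ℂ) (P.F j0) = a χ)
    (K : Subgroup G) (hK : ¬ p ∣ Nat.card K) :
    ∃ u : IrrCharacter G → ℕ, (∀ χ : IrrCharacter G, classInner (indFun K (fun x => (((1 : K →* ℂˣ) x : ℂˣ) : ℂ))) (χ : G → ℂ) = u χ) ∧
      ∀ χ, a χ ≤ u χ := by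
  classical
  haveI := hMm.isPrime
  haveI := Fintype.ofFinite K
  obtain ⟨E, hE, hE2⟩ := exists_BId hM hB K hK 1
  have hch : IsCharacter G (indFun K (fun x => (((1 : K →* ℂˣ) x : ℂˣ) : ℂ))) := by
    apply IsCharacter.indFun
    have : (fun x : K => (((1 : K →* ℂˣ) x : ℂˣ) : ℂ)) = fun _ => 1 := by funext x; simp
    rw [this]
    exact isIrrCharacter_fun_one.isCharacter
  choose u hu using fun χ : IrrCharacter G => hch.classInner_nat χ.2.isCharacter
  refine ⟨u, hu, ?_⟩
  intro χ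
  by_cases hχ : χ ∈ principalBlock M G
  · have h2 := P.lin_eq hE χ
    rw [← hE2 χ hχ, hu] at h2
    have h3 := P.lin_eq hE (triv G)
    rw [← hE2 _ triv_mem, frobenius_reciprocity K _ _ (triv G).2.isClassFunction] at h3
    have h4 : classInner (fun x : K => (((1 : K →* ℂˣ) x : ℂˣ) : ℂ)) (fun x : K => ((triv G : IrrCharacter G) : G → ℂ) x) = 1 := by
      have : (fun x : K => (((1 : K →* ℂˣ) x : ℂˣ) : ℂ)) = fun _ => 1 := by funext x; simp
      rw [this]
      exact isIrrCharacter_fun_one.classInner_self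
    rw [h4, Finset.sum_eq_single j0 (fun j _ hj => by rw [h1 j hj, mul_zero]) (fun h => absurd (Finset.mem_univ _) h), h0, mul_one] at h3
    have h5 : P.r E j0 = 1 := by exact_mod_cast h3.symm
    choose m hm using fun j => lin_nat (P.hF j).idem χ
    have h6 : (u χ : ℂ) = ((∑ j, P.r E j * m j : ℕ) : ℂ) := by
      rw [h2]
      push_cast
      exact Finset.sum_congr rfl fun j _ => by rw [hm]
    have h7 : u χ = ∑ j, P.r E j * m j := by exact_mod_cast h6
    rw [h7]
    have h8 : a χ = P.r E j0 * m j0 := by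
      rw [h5, one_mul]
      have := ha χ
      rw [hm] at this
      exact_mod_cast this.symm
    rw [h8]
    exact Finset.single_le_sum (f := fun j => P.r E j * m j) (fun _ _ => Nat.zero_le _) (Finset.mem_univ j0)
  · have h2 := ha χ
    rw [(P.hF j0).lin_eq_zero hχ] at h2
    have : a χ = 0 := by exact_mod_cast h2.symm
    omega

/-- **Main.** -/
theorem main {p : ℕ} (hp : p.Prime) (Q R : Subgroup G) (h : (Nat.card Q).Coprime (Nat.card R))
    (hQ : ¬ p ∣ Nat.card Q) (hR : ¬ p ∣ Nat.card R)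
    (hD : Nat.card {g : G // ¬ p ∣ orderOf g} = Nat.card Q * Nat.card R) :
    ∃ N : Subgroup G, N.Normal ∧ Nat.card N = Nat.card Q * Nat.card R := by
  classical
  haveI := Fintype.ofFinite G
  haveI : Fact p.Prime := ⟨hp⟩
  obtain ⟨M, hM⟩ := H76Char.exists_isPModular p
  haveI : M.IsMaximal := hM.2.1
  haveI : M.IsPrime := this.isPrime
  have hB : IsPBlock M (principalBlock M G) := isPBlock_principal
  obtain ⟨P⟩ := exists_PD hB
  choose t ht using fun j => lin_nat (P.hF j).idem (triv G)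
  have hdeg := P.deg (triv_mem (M := M) (G := G))
  have hdeg' : 1 = ∑ j, P.d j * t j := by
    have : (1 : ℂ) = ((∑ j, P.d j * t j : ℕ) : ℂ) := by
      have h0 : (1 : ℂ) = ((triv G : IrrCharacter G) : G → ℂ) 1 := rfl
      rw [h0, hdeg]
      push_cast
      exact Finset.sum_congr rfl fun j _ => by rw [← ht]
    exact_mod_cast this
  obtain ⟨j0, hj0, hj⟩ : ∃ j0, t j0 = 1 ∧ ∀ j, j ≠ j0 → t j = 0 := by
    obtain ⟨j0, -, hj0⟩ : ∃ j0 ∈ Finset.univ, P.d j0 * t j0 ≠ 0 := by
      by_contra hcon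
      push_neg at hcon
      rw [Finset.sum_eq_zero hcon] at hdeg'
      exact one_ne_zero hdeg'
    rw [← Finset.add_sum_erase _ _ (Finset.mem_univ j0)] at hdeg'
    have h1 : P.d j0 * t j0 = 1 := by omega
    have h2 : ∑ j ∈ Finset.univ.erase j0, P.d j * t j = 0 := by omega
    refine ⟨j0, Nat.eq_one_of_mul_eq_one_left h1, fun j hjj => ?_⟩
    have h3 := (Finset.sum_eq_zero_iff.1 h2) j (Finset.mem_erase.2 ⟨hjj, Finset.mem_univ _⟩)
    haveI := P.hd j
    exact (Nat.mul_eq_zero.1 h3).resolve_left (NeZero.ne _)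
  choose a ha using fun χ => lin_nat (P.hF j0).idem χ
  have ha1 : a (triv G) = 1 := by
    have h1 := ha (triv G)
    rw [ht, hj0] at h1
    exact_mod_cast h1.symm
  obtain ⟨u, hu, hau⟩ := dom hM P (j0 := j0) (by rw [ht, hj0]; norm_num) (fun j hjj => by rw [ht, hj j hjj]; norm_num) ha Q hQ
  obtain ⟨v, hv, hav⟩ := dom hM P (j0 := j0) (by rw [ht, hj0]; norm_num) (fun j hjj => by rw [ht, hj j hjj]; norm_num) ha R hR
  -- the bound
  have hN : (∑ χ : IrrCharacter G, a χ ^ 2) * (Nat.card Q * Nat.card R) ≤ Nat.card G := by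
    have h1 := inner_perm Q R h
    rw [(indFun_isClassFunction Q _).classInner_eq_sum, Finset.sum_congr rfl fun χ _ => by rw [hu χ, hv χ, Complex.conj_natCast]] at h1
    have h2 : (∑ χ : IrrCharacter G, u χ * v χ) * (Nat.card Q * Nat.card R) = Nat.card G := by exact_mod_cast h1
    rw [← h2]
    apply Nat.mul_le_mul_right
    refine Finset.sum_le_sum fun χ _ => ?_
    rw [sq]
    exact Nat.mul_le_mul (hau χ) (hav χ)
  -- the character
  obtain ⟨f, hf⟩ : ∃ f, f = P.Ph j0 := ⟨_, rfl⟩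
  have hfe : f = ∑ χ : IrrCharacter G, (a χ : ℂ) • (χ : G → ℂ) := by
    rw [hf, PD.Ph]
    exact Finset.sum_congr rfl fun χ _ => by rw [ha]
  have hfc : IsCharacter G f := by
    rw [hfe]
    exact isCharacter_sum _ _ fun χ _ => χ.2.isCharacter.natCast_smul _
  have hfv : ∀ g : G, p ∣ orderOf g → f g = 0 := fun g hg => by rw [hf]; exact P.Ph_sing hM j0 hg
  have hfi : ∀ χ : IrrCharacter G, classInner f (χ : G → ℂ) = a χ := by
    intro χ
    rw [hfe, classInner_sum_left, Finset.sum_eq_single χ]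
    · rw [classInner_smul_left, χ.2.classInner_self, mul_one]
    · intro ψ _ hψ
      rw [classInner_smul_left, ψ.2.classInner_eq_zero χ.2, mul_zero]
      intro h
      exact hψ (Subtype.ext h)
    · intro h; exact absurd (Finset.mem_univ _) h
  have hG0 : (Nat.card G : ℝ) ≠ 0 := Nat.cast_ne_zero.2 Nat.card_pos.ne'
  have hG0' : (Nat.card G : ℂ) ≠ 0 := Nat.cast_ne_zero.2 Nat.card_pos.ne'
  have hsum : ∑ g : G, f g = Nat.card G := by
    have h1 := hfi (triv G)
    rw [ha1, classInner_def] at h1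
    simp only [coe_triv, map_one, mul_one, Nat.cast_one] at h1
    field_simp at h1
    exact h1
  have hsq : ∑ g : G, ‖f g‖ ^ 2 = (Nat.card G : ℝ) * ((∑ χ : IrrCharacter G, a χ ^ 2 : ℕ) : ℝ) := by
    have h1 := hfc.isClassFunction.classInner_eq_sum f
    have h1' : ∑ χ : IrrCharacter G, classInner f (χ : G → ℂ) * conj (classInner f (χ : G → ℂ)) =
        ∑ χ : IrrCharacter G, (a χ : ℂ) * a χ :=
      Finset.sum_congr rfl fun χ _ => by rw [hfi χ, Complex.conj_natCast]
    rw [classInner_self, h1'] at h1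
    have h2 : ((Nat.card G : ℝ)⁻¹ * ∑ g : G, ‖f g‖ ^ 2 : ℝ) = ((∑ χ : IrrCharacter G, a χ * a χ : ℕ) : ℝ) := by
      exact_mod_cast h1
    have h3 : (∑ χ : IrrCharacter G, a χ * a χ) = ∑ χ : IrrCharacter G, a χ ^ 2 := Finset.sum_congr rfl fun χ _ => (sq _).symm
    rw [h3] at h2
    rw [← h2, ← mul_assoc, mul_inv_cancel₀ hG0, one_mul]
  obtain ⟨k, hk⟩ : ∃ k : ℕ, k = Nat.card Q * Nat.card R := ⟨_, rfl⟩
  rw [← hk] at hN hD ⊢
  have hk0 : (k : ℝ) ≠ 0 := by
    rw [hk]
    exact Nat.cast_ne_zero.2 (Nat.mul_ne_zero Nat.card_pos.ne' Nat.card_pos.ne')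
  obtain ⟨w, hw⟩ : ∃ w : ℝ, w = (Nat.card G : ℝ) / k := ⟨_, rfl⟩
  have hw0 : w ≠ 0 := by rw [hw]; exact div_ne_zero hG0 hk0
  have hDc : (Finset.univ.filter fun g : G => ¬ p ∣ orderOf g).card = k := by
    rw [← hD, Nat.card_eq_fintype_card, Fintype.card_subtype]
  have hval : ∀ g : G, ¬ p ∣ orderOf g → f g = w := by
    have h1 : ∑ g ∈ Finset.univ.filter (fun g : G => ¬ p ∣ orderOf g), ‖f g - w‖ ^ 2 ≤ 0 := by
      have h2 : ∀ g : G, ‖f g - w‖ ^ 2 = ‖f g‖ ^ 2 - 2 * w * (f g).re + w ^ 2 := by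
        intro g
        rw [← Complex.normSq_eq_norm_sq, ← Complex.normSq_eq_norm_sq, Complex.normSq_apply, Complex.normSq_apply]
        simp only [Complex.sub_re, Complex.ofReal_re, Complex.sub_im, Complex.ofReal_im, sub_zero]
        ring
      rw [Finset.sum_congr rfl fun g _ => h2 g, Finset.sum_add_distrib, Finset.sum_sub_distrib, Finset.sum_const, hDc,
        nsmul_eq_mul, ← Finset.mul_sum]
      have h3 : ∑ g ∈ Finset.univ.filter (fun g : G => ¬ p ∣ orderOf g), ‖f g‖ ^ 2 = ∑ g : G, ‖f g‖ ^ 2 := by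
        rw [Finset.sum_filter]
        refine Finset.sum_congr rfl fun g _ => ?_
        by_cases h : p ∣ orderOf g
        · rw [if_neg (not_not.2 h), hfv g h, norm_zero]; norm_num
        · rw [if_pos h]
      have h4 : ∑ g ∈ Finset.univ.filter (fun g : G => ¬ p ∣ orderOf g), (f g).re = Nat.card G := by
        have h5 : ∑ g ∈ Finset.univ.filter (fun g : G => ¬ p ∣ orderOf g), (f g).re = ∑ g : G, (f g).re := by
          rw [Finset.sum_filter]
          refine Finset.sum_congr rfl fun g _ => ?_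
          by_cases h : p ∣ orderOf g
          · rw [if_neg (not_not.2 h), hfv g h, Complex.zero_re]
          · rw [if_pos h]
        rw [h5, ← Complex.re_sum, hsum, Complex.natCast_re]
      rw [h3, h4, hsq]
      have h6 : ((∑ χ : IrrCharacter G, a χ ^ 2 : ℕ) : ℝ) * k ≤ Nat.card G := by exact_mod_cast hN
      have h7 : w * k = Nat.card G := by rw [hw, div_mul_cancel₀ _ hk0]
      have h8 : ((∑ χ : IrrCharacter G, a χ ^ 2 : ℕ) : ℝ) ≤ w := by
        rw [hw, le_div_iff₀ (lt_of_le_of_ne (Nat.cast_nonneg k) (Ne.symm hk0))]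
        exact h6
      have h9 : (0 : ℝ) ≤ Nat.card G := Nat.cast_nonneg _
      have h10 := mul_le_mul_of_nonneg_left h8 h9
      have h11 : (k : ℝ) * w ^ 2 = Nat.card G * w := by rw [← h7]; ring
      rw [h11]
      linarith
    have h2 : ∑ g ∈ Finset.univ.filter (fun g : G => ¬ p ∣ orderOf g), ‖f g - w‖ ^ 2 = 0 :=
      le_antisymm h1 (Finset.sum_nonneg fun g _ => by positivity)
    intro g hg
    have h3 := (Finset.sum_eq_zero_iff_of_nonneg (fun g _ => by positivity)).1 h2 g (Finset.mem_filter.2 ⟨Finset.mem_univ _, hg⟩)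
    have h4 : ‖f g - w‖ = 0 := by simpa using h3
    exact sub_eq_zero.1 (norm_eq_zero.1 h4)
  have h1r : ¬ p ∣ orderOf (1 : G) := by rw [orderOf_one]; exact hp.one_lt.ne' ∘ Nat.dvd_one.1
  have hf1 : f 1 = w := hval 1 h1r
  refine ⟨Codegree.kerS hfc, Codegree.kerS_normal hfc, ?_⟩
  rw [← hD]
  apply Nat.card_congr
  refine Equiv.subtypeEquivRight fun g => ?_
  rw [Codegree.mem_kerS, hf1]
  constructor
  · intro h1 h2
    rw [hfv g h2] at h1
    exact hw0 (by exact_mod_cast h1.symm)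
  · exact hval g

end Cfsg.Agent.Lib.H62Three
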