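import Mathlib

/-!
# Minimal degree of primitive groups: Babai's bound (helper64)
-/

set_option autoImplicit false
open scoped Classical Pointwise

namespace Cfsg.Agent.Lib.H64Babai

section Dist

variable (G : Type*) {Ω : Type*} [Group G] [MulAction G Ω]

/-- `z` distinguishes `x` and `y`: the pairs `(z, x)` and `(z, y)` lie in different orbitals. -/
def Dist (z x y : Ω) : Prop := ¬ ∃ g : G, g • z = z ∧ g • x = y

variable {G}

theorem dist_symm {z x y : Ω} (h : Dist G z x y) : Dist G z y x := by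
  rintro ⟨g, h1, h2⟩
  exact h ⟨g⁻¹, inv_smul_eq_iff.2 h1.symm, inv_smul_eq_iff.2 h2.symm⟩

theorem dist_tri {z x y w : Ω} (h : Dist G z x w) : Dist G z x y ∨ Dist G z y w := by
  by_contra hcon
  rw [not_or] at hcon
  obtain ⟨h1, h2⟩ := hcon
  unfold Dist at h1 h2
  push Not at h1 h2
  obtain ⟨g, hg1, hg2⟩ := h1
  obtain ⟨k, hk1, hk2⟩ := h2
  exact h ⟨k * g, by rw [mul_smul, hg1, hk1], by rw [mul_smul, hg2, hk2]⟩

theorem dist_smul {z x y : Ω} (g : G) (h : Dist G z x y) : Dist G (g • z) (g • x) (g • y) := by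
  rintro ⟨k, h1, h2⟩
  refine h ⟨g⁻¹ * k * g, ?_, ?_⟩
  · rw [mul_smul, mul_smul, h1, inv_smul_smul]
  · rw [mul_smul, mul_smul, h2, inv_smul_smul]

theorem dist_of_adj {Γ : SimpleGraph Ω} (hinv : ∀ (g : G) u v, Γ.Adj u v → Γ.Adj (g • u) (g • v))
    {z u v : Ω} (h1 : Γ.Adj z u) (h2 : ¬ Γ.Adj z v) : Dist G z u v := by
  rintro ⟨g, hg1, hg2⟩
  apply h2
  rw [← hg1, ← hg2]
  exact hinv g _ _ h1

theorem dist_smul_le {Γ : SimpleGraph Ω} (hinv : ∀ (g : G) u v, Γ.Adj u v → Γ.Adj (g • u) (g • v))
    (hc : Γ.Connected) (g : G) (u v : Ω) : Γ.dist (g • u) (g • v) ≤ Γ.dist u v := by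
  obtain ⟨p, hp⟩ := hc.exists_walk_length_eq_dist u v
  let f : Γ →g Γ := ⟨fun x => g • x, fun {a b} h => hinv g a b h⟩
  have := SimpleGraph.dist_le (p.map f)
  rw [SimpleGraph.Walk.length_map, hp] at this
  exact this

theorem dist_smul_eq {Γ : SimpleGraph Ω} (hinv : ∀ (g : G) u v, Γ.Adj u v → Γ.Adj (g • u) (g • v))
    (hc : Γ.Connected) (g : G) (u v : Ω) : Γ.dist (g • u) (g • v) = Γ.dist u v := by
  apply le_antisymm (dist_smul_le hinv hc g u v)
  have := dist_smul_le hinv hc g⁻¹ (g • u) (g • v)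
  rwa [inv_smul_smul, inv_smul_smul] at this

theorem dist_of_dist_ne {Γ : SimpleGraph Ω} (hinv : ∀ (g : G) u v, Γ.Adj u v → Γ.Adj (g • u) (g • v))
    (hc : Γ.Connected) {z u v : Ω} (h : Γ.dist z u ≠ Γ.dist z v) : Dist G z u v := by
  rintro ⟨g, hg1, hg2⟩
  apply h
  have := dist_smul_eq hinv hc g z u
  rw [hg1, hg2] at this
  exact this.symm

theorem exists_parent {Γ : SimpleGraph Ω} (hc : Γ.Connected) {z v : Ω} (hv : v ≠ z) :
    ∃ u, Γ.Adj u v ∧ Γ.dist z v = Γ.dist z u + 1 := by
  obtain ⟨p, hp⟩ := hc.exists_walk_length_eq_dist v z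
  cases p with
  | nil => exact absurd rfl hv
  | @cons _ u _ h q =>
    rw [SimpleGraph.Walk.length_cons] at hp
    refine ⟨u, h.symm, ?_⟩
    rw [SimpleGraph.dist_comm, ← hp, SimpleGraph.dist_comm (v := u)]
    have h1 := SimpleGraph.dist_le q
    have h2 : Γ.dist v z ≤ Γ.dist v u + Γ.dist u z := hc.dist_triangle
    have h3 : Γ.dist v u = 1 := SimpleGraph.dist_eq_one_iff_adj.2 h
    omega

end Dist

section Count

variable (G : Type*) {Ω : Type*} [Group G] [MulAction G Ω] [Fintype Ω]

noncomputable def D (x y : Ω) : ℕ := (Finset.univ.filter fun z => Dist G z x y).card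

variable {G}

theorem D_symm (x y : Ω) : D G x y = D G y x := by
  unfold D
  congr 1
  ext z
  simp only [Finset.mem_filter, Finset.mem_univ, true_and]
  exact ⟨dist_symm, dist_symm⟩

theorem D_tri (x y w : Ω) : D G x w ≤ D G x y + D G y w := by
  unfold D
  rw [← Finset.card_union_add_card_inter]
  refine le_trans (Finset.card_le_card ?_) (Nat.le_add_right _ _)
  intro z hz
  simp only [Finset.mem_filter, Finset.mem_univ, true_and, Finset.mem_union] at hz ⊢
  exact dist_tri hz

theorem D_smul (g : G) (x y : Ω) : D G (g • x) (g • y) = D G x y := by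
  unfold D
  symm
  apply Finset.card_bij (fun z _ => g • z)
  · intro z hz
    simp only [Finset.mem_filter, Finset.mem_univ, true_and] at hz ⊢
    exact dist_smul g hz
  · intro a _ b _ h
    exact smul_left_cancel g h
  · intro b hb
    simp only [Finset.mem_filter, Finset.mem_univ, true_and] at hb
    refine ⟨g⁻¹ • b, ?_, smul_inv_smul g b⟩
    simp only [Finset.mem_filter, Finset.mem_univ, true_and]
    have := dist_smul g⁻¹ hb
    rwa [inv_smul_smul, inv_smul_smul] at this

theorem D_le_moved (g : G) (x : Ω) :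
    D G x (g • x) ≤ (Finset.univ.filter fun z : Ω => g • z ≠ z).card := by
  unfold D
  apply Finset.card_le_card
  intro z hz
  simp only [Finset.mem_filter, Finset.mem_univ, true_and] at hz ⊢
  intro h
  exact hz ⟨g, h, rfl⟩

/-- the neighbourhood bound. -/
theorem nbr_le {Γ : SimpleGraph Ω} (hinv : ∀ (g : G) u v, Γ.Adj u v → Γ.Adj (g • u) (g • v)) (u v : Ω) :
    Γ.degree u ≤ D G u v + (Γ.neighborFinset u ∩ Γ.neighborFinset v).card := by
  unfold D
  rw [← SimpleGraph.card_neighborFinset_eq_degree]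
  refine le_trans ?_ (Finset.card_union_le _ _)
  apply Finset.card_le_card
  intro z hz
  rw [SimpleGraph.mem_neighborFinset] at hz
  rw [Finset.mem_union, Finset.mem_inter, SimpleGraph.mem_neighborFinset, SimpleGraph.mem_neighborFinset,
    Finset.mem_filter]
  by_cases hv : Γ.Adj v z
  · exact Or.inr ⟨hz, hv⟩
  · exact Or.inl ⟨Finset.mem_univ _, dist_of_adj hinv hz.symm (fun h => hv h.symm)⟩

theorem bfs {Γ : SimpleGraph Ω} (hinv : ∀ (g : G) u v, Γ.Adj u v → Γ.Adj (g • u) (g • v))
    (hc : Γ.Connected) (z : Ω) :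
    2 * (Fintype.card Ω - 1) ≤
      (Finset.univ.filter fun p : Ω × Ω => Γ.Adj p.1 p.2 ∧ Dist G z p.1 p.2).card := by
  have hpar : ∀ v : Ω, ∃ u, v ≠ z → Γ.Adj u v ∧ Γ.dist z v = Γ.dist z u + 1 := by
    intro v
    by_cases hv : v = z
    · exact ⟨v, fun h => absurd hv h⟩
    · obtain ⟨u, hu⟩ := exists_parent hc hv
      exact ⟨u, fun _ => hu⟩
  choose par hpar using hpar
  have h1 : ((Finset.univ.erase z) ×ˢ (Finset.univ : Finset Bool)).card = 2 * (Fintype.card Ω - 1) := by
    rw [Finset.card_product, Finset.card_erase_of_mem (Finset.mem_univ z), Finset.card_univ,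
      Finset.card_univ, Fintype.card_bool, mul_comm]
  rw [← h1]
  apply Finset.card_le_card_of_injOn (fun p => if p.2 then (par p.1, p.1) else (p.1, par p.1))
  · rintro ⟨v, b⟩ hp
    have hv : v ≠ z := by simpa using hp
    obtain ⟨ha, hd⟩ := hpar v hv
    cases b
    · simp only [Bool.false_eq_true, if_false, Finset.coe_filter, Finset.mem_univ, true_and,
        Set.mem_ofPred_eq]
      exact ⟨ha.symm, dist_of_dist_ne hinv hc (by omega)⟩
    · simp only [if_true, Finset.coe_filter, Finset.mem_univ, true_and, Set.mem_ofPred_eq]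
      exact ⟨ha, dist_of_dist_ne hinv hc (by omega)⟩
  · rintro ⟨v, b⟩ hp ⟨w, c⟩ hq h
    have hv : v ≠ z := by simpa using hp
    have hw : w ≠ z := by simpa using hq
    have hv1 := (hpar v hv).2
    have hw1 := (hpar w hw).2
    cases b <;> cases c <;> simp only [Bool.false_eq_true, if_false, if_true, Prod.mk.injEq] at h ⊢
    · exact ⟨h.1, trivial⟩
    · exfalso
      rw [h.2] at hv1
      rw [← h.1] at hw1
      omega
    · exfalso
      rw [h.1] at hv1
      rw [← h.2] at hw1
      omega
    · exact ⟨h.2, trivial⟩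

theorem valency_bound {Γ : SimpleGraph Ω}
    (hinv : ∀ (g : G) u v, Γ.Adj u v → Γ.Adj (g • u) (g • v))
    (hc : Γ.Connected) {E K : ℕ} (hE : ∀ u v, Γ.Adj u v → D G u v ≤ E) (hK : ∀ u, Γ.degree u = K) :
    2 * (Fintype.card Ω - 1) ≤ K * E := by
  have hne : Nonempty Ω := hc.nonempty
  have hn : 0 < Fintype.card Ω := Fintype.card_pos
  have h1 : Fintype.card Ω * (2 * (Fintype.card Ω - 1)) ≤
      ∑ z : Ω, (Finset.univ.filter fun p : Ω × Ω => Γ.Adj p.1 p.2 ∧ Dist G z p.1 p.2).card := by
    have := Finset.card_nsmul_le_sum (Finset.univ : Finset Ω)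
      (fun z => (Finset.univ.filter fun p : Ω × Ω => Γ.Adj p.1 p.2 ∧ Dist G z p.1 p.2).card)
      (2 * (Fintype.card Ω - 1)) (fun z _ => bfs hinv hc z)
    rw [Finset.card_univ, smul_eq_mul] at this
    exact this
  have h2 : ∑ z : Ω, (Finset.univ.filter fun p : Ω × Ω => Γ.Adj p.1 p.2 ∧ Dist G z p.1 p.2).card
      = ∑ p ∈ (Finset.univ.filter fun p : Ω × Ω => Γ.Adj p.1 p.2), D G p.1 p.2 := by
    unfold D
    simp only [Finset.card_filter]
    rw [Finset.sum_comm, Finset.sum_filter]
    apply Finset.sum_congr rfl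
    intro p _
    by_cases hp : Γ.Adj p.1 p.2
    · simp [hp]
    · simp [hp]
  have h3 : ∑ p ∈ (Finset.univ.filter fun p : Ω × Ω => Γ.Adj p.1 p.2), D G p.1 p.2
      ≤ (Finset.univ.filter fun p : Ω × Ω => Γ.Adj p.1 p.2).card * E := by
    rw [← smul_eq_mul]
    apply Finset.sum_le_card_nsmul
    intro p hp
    exact hE _ _ (Finset.mem_filter.1 hp).2
  have h4 : (Finset.univ.filter fun p : Ω × Ω => Γ.Adj p.1 p.2).card = Fintype.card Ω * K := by
    rw [Finset.card_filter, Fintype.sum_prod_type]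
    have : ∀ u : Ω, (∑ v : Ω, if Γ.Adj (u, v).1 (u, v).2 then 1 else 0) = K := by
      intro u
      rw [← hK u, ← Finset.card_filter, ← SimpleGraph.card_neighborFinset_eq_degree]
      congr 1
      ext v
      simp
    rw [Finset.sum_congr rfl (fun u _ => this u), Finset.sum_const, Finset.card_univ, smul_eq_mul]
  rw [h2] at h1
  have h5 := h1.trans h3
  rw [h4, mul_assoc] at h5
  exact Nat.le_of_mul_le_mul_left h5 hn

theorem inter_bound {Γ : SimpleGraph Ω}
    (hinv : ∀ (g : G) u v, Γ.Adj u v → Γ.Adj (g • u) (g • v))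
    {E K : ℕ} (hE : ∀ u v : Ω, D G u v ≤ E) (hK : ∀ u, Γ.degree u = K) (x : Ω) :
    Fintype.card Ω * K ≤ (Fintype.card Ω - 1) * E + K * K := by
  have h1 : ∑ v : Ω, (Γ.neighborFinset x ∩ Γ.neighborFinset v).card = K * K := by
    have : ∀ v : Ω, (Γ.neighborFinset x ∩ Γ.neighborFinset v).card
        = ∑ w ∈ Γ.neighborFinset x, if Γ.Adj v w then 1 else 0 := by
      intro v
      rw [← Finset.card_filter]
      congr 1
      ext w
      simp
    rw [Finset.sum_congr rfl (fun v _ => this v), Finset.sum_comm]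
    have h2 : ∀ w : Ω, (∑ v : Ω, if Γ.Adj v w then 1 else 0) = K := by
      intro w
      rw [← hK w, ← Finset.card_filter, ← SimpleGraph.card_neighborFinset_eq_degree]
      congr 1
      ext v
      simp [SimpleGraph.adj_comm]
    rw [Finset.sum_congr rfl (fun w _ => h2 w), Finset.sum_const,
      SimpleGraph.card_neighborFinset_eq_degree, hK x, smul_eq_mul]
  have h3 : ∀ v : Ω, K ≤ (if v = x then 0 else E) + (Γ.neighborFinset x ∩ Γ.neighborFinset v).card := by
    intro v
    by_cases hv : v = x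
    · rw [if_pos hv, hv, Finset.inter_self, SimpleGraph.card_neighborFinset_eq_degree, hK x]
      omega
    · rw [if_neg hv]
      have := nbr_le (Ω := Ω) hinv x v
      rw [hK x] at this
      exact this.trans (Nat.add_le_add_right (hE x v) _)
  have h4 := Finset.sum_le_sum (fun v (_ : v ∈ (Finset.univ : Finset Ω)) => h3 v)
  rw [Finset.sum_const, Finset.card_univ, smul_eq_mul, Finset.sum_add_distrib, h1] at h4
  refine h4.trans (Nat.add_le_add_right ?_ _)
  rw [Finset.sum_ite, Finset.sum_const_zero, zero_add, Finset.sum_const, smul_eq_mul]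
  apply Nat.mul_le_mul_right
  have h5 : (Finset.univ.filter fun v : Ω => ¬ v = x) = Finset.univ.erase x := by
    ext v; simp
  rw [h5, Finset.card_erase_of_mem (Finset.mem_univ x), Finset.card_univ]

theorem all_le {Γ : SimpleGraph Ω}
    (hinv : ∀ (g : G) u v, Γ.Adj u v → Γ.Adj (g • u) (g • v))
    (hc : Γ.Connected) {E K : ℕ} (hE : ∀ u v, Γ.Adj u v → D G u v ≤ E) (hK : ∀ u, Γ.degree u = K)
    (hEK : 3 * E < K) (u v : Ω) : D G u v ≤ 2 * E := by
  have key : ∀ v : Ω, v = u ∨ Γ.Adj u v ∨ ∃ w, Γ.Adj u w ∧ Γ.Adj w v := by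
    intro v
    obtain ⟨p⟩ := hc.preconnected v u
    induction p with
    | nil => exact Or.inl rfl
    | @cons a b c h q ih =>
      rcases ih with h1 | h1 | ⟨w, h1, h2⟩
      · subst h1; exact Or.inr (Or.inl h.symm)
      · exact Or.inr (Or.inr ⟨b, h1, h.symm⟩)
      · have h3 : D G c a ≤ 3 * E := by
          have e1 := D_tri (G := G) c w a
          have e2 := D_tri (G := G) w b a
          have e3 := hE _ _ h1
          have e4 := hE _ _ h2
          have e5 := hE _ _ h.symm
          omega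
        have h4 := nbr_le hinv c a
        rw [hK c] at h4
        have h5 : 0 < (Γ.neighborFinset c ∩ Γ.neighborFinset a).card := by omega
        obtain ⟨x, hx⟩ := Finset.card_pos.1 h5
        rw [Finset.mem_inter, SimpleGraph.mem_neighborFinset, SimpleGraph.mem_neighborFinset] at hx
        exact Or.inr (Or.inr ⟨x, hx.1, hx.2.symm⟩)
  rcases key v with h | h | ⟨w, h1, h2⟩
  · subst h
    have : D G v v = 0 := by
      unfold D
      rw [Finset.card_eq_zero, Finset.filter_eq_empty_iff]
      intro z _ hz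
      exact hz ⟨1, one_smul _ _, one_smul _ _⟩
    omega
  · have := hE _ _ h; omega
  · have e1 := D_tri (G := G) u w v
    have e3 := hE _ _ h1
    have e4 := hE _ _ h2
    omega

end Count

section Prim

variable {G Ω : Type*} [Group G] [MulAction G Ω]

theorem connected [MulAction.IsPreprimitive G Ω] {Γ : SimpleGraph Ω}
    (hinv : ∀ (g : G) u v, Γ.Adj u v → Γ.Adj (g • u) (g • v)) {x y : Ω} (hxy : Γ.Adj x y) :
    Γ.Connected := by
  have hreach : ∀ (g : G) (u v : Ω), Γ.Reachable u v → Γ.Reachable (g • u) (g • v) := by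
    intro g u v h
    exact h.map (⟨fun x => g • x, fun {a b} h => hinv g a b h⟩ : Γ →g Γ)
  have hreach' : ∀ (g : G) (u v : Ω), Γ.Reachable (g • u) (g • v) → Γ.Reachable u v := by
    intro g u v h
    have := hreach g⁻¹ _ _ h
    rwa [inv_smul_smul, inv_smul_smul] at this
  have hblock : MulAction.IsBlock G {v : Ω | Γ.Reachable x v} := by
    rw [MulAction.isBlock_iff_smul_eq_or_disjoint]
    intro g
    by_cases hd : Disjoint (g • {v : Ω | Γ.Reachable x v}) {v : Ω | Γ.Reachable x v}
    · exact Or.inr hd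
    · left
      rw [Set.not_disjoint_iff] at hd
      obtain ⟨w, ⟨w', hw', rfl⟩, hw⟩ := hd
      replace hw' : Γ.Reachable x w' := hw'
      replace hw : Γ.Reachable x (g • w') := hw
      have h1 : Γ.Reachable x (g • x) := hw.trans (hreach g _ _ hw').symm
      ext v
      constructor
      · rintro ⟨v', hv', rfl⟩
        exact h1.trans (hreach g _ _ hv')
      · intro hv
        refine ⟨g⁻¹ • v, ?_, smul_inv_smul g v⟩
        apply hreach' g
        rw [smul_inv_smul]
        exact h1.symm.trans hv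
  rcases MulAction.IsPreprimitive.isTrivialBlock_of_isBlock hblock with h | h
  · exfalso
    have := h (show x ∈ {v : Ω | Γ.Reachable x v} from SimpleGraph.Reachable.refl x)
      (show y ∈ {v : Ω | Γ.Reachable x v} from hxy.reachable)
    subst this
    exact Γ.loopless.irrefl x hxy
  · rw [SimpleGraph.connected_iff]
    refine ⟨?_, ⟨x⟩⟩
    intro u v
    have hu : u ∈ {v : Ω | Γ.Reachable x v} := by rw [h]; trivial
    have hv : v ∈ {v : Ω | Γ.Reachable x v} := by rw [h]; trivial
    exact SimpleGraph.Reachable.trans (SimpleGraph.Reachable.symm hu) hv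

end Prim

section ThreeCycle

variable {α : Type*} [Fintype α]

omit [Fintype α] in
theorem app_inv (g : Equiv.Perm α) (x : α) : g (g⁻¹ x) = x := g.apply_symm_apply x

omit [Fintype α] in
theorem inv_app (g : Equiv.Perm α) (x : α) : g⁻¹ (g x) = x := g.symm_apply_apply x

theorem isThreeCycle_comm (g k : Equiv.Perm α) (a : α) (hg : g a ≠ a) (hk : k a ≠ a)
    (h : ∀ x, g x ≠ x → k x ≠ x → x = a) : (g * k * g⁻¹ * k⁻¹).IsThreeCycle := by
  rw [← card_support_eq_three_iff]
  -- basic facts
  have hgg : ∀ x, g x ≠ x → g (g x) ≠ g x := fun x hx hc => hx (g.injective hc)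
  have hkk : ∀ x, k x ≠ x → k (k x) ≠ k x := fun x hx hc => hx (k.injective hc)
  have hg' : ∀ x, g x ≠ x → x ≠ a → k x = x := by
    intro x hx hxa
    by_contra hc
    exact hxa (h x hx hc)
  have hk' : ∀ x, k x ≠ x → x ≠ a → g x = x := by
    intro x hx hxa
    by_contra hc
    exact hxa (h x hc hx)
  have hgi : ∀ x, g x ≠ x → g (g⁻¹ x) ≠ g⁻¹ x := by
    intro x hx hc
    rw [app_inv] at hc
    apply hx
    have := congrArg g hc
    rw [app_inv] at this
    exact this
  have hki : ∀ x, k x ≠ x → k (k⁻¹ x) ≠ k⁻¹ x := by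
    intro x hx hc
    rw [app_inv] at hc
    apply hx
    have := congrArg k hc
    rw [app_inv] at this
    exact this
  have hgfix : ∀ x, g x = x → g⁻¹ x = x := fun x hx => by
    rw [Equiv.Perm.inv_eq_iff_eq]; exact hx.symm
  have hkfix : ∀ x, k x = x → k⁻¹ x = x := fun x hx => by
    rw [Equiv.Perm.inv_eq_iff_eq]; exact hx.symm
  -- values
  have hka : g (k a) = k a := hk' _ (hkk a hk) hk
  have hga : k (g a) = g a := hg' _ (hgg a hg) hg
  have hkia : g (k⁻¹ a) = k⁻¹ a := by
    apply hk' _ (hki a hk)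
    intro hc
    have := congrArg k hc
    rw [app_inv] at this
    exact hk this.symm
  have hgia : k (g⁻¹ a) = g⁻¹ a := by
    apply hg' _ (hgi a hg)
    intro hc
    have := congrArg g hc
    rw [app_inv] at this
    exact hg this.symm
  have hne : g a ≠ k a := by
    intro hc
    have := h (g a) (hgg a hg) (by rw [hc]; exact hkk a hk)
    exact hg this
  have e1 : (g * k * g⁻¹ * k⁻¹) a = g a := by
    simp only [Equiv.Perm.mul_apply]
    rw [hgfix _ hkia, app_inv]
  have e2 : (g * k * g⁻¹ * k⁻¹) (g a) = k a := by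
    simp only [Equiv.Perm.mul_apply]
    rw [hkfix _ hga, inv_app, hka]
  have e3 : (g * k * g⁻¹ * k⁻¹) (k a) = a := by
    simp only [Equiv.Perm.mul_apply]
    rw [inv_app, hgia, app_inv]
  have e4 : ∀ x, x ≠ a → x ≠ g a → x ≠ k a → (g * k * g⁻¹ * k⁻¹) x = x := by
    intro x hxa hxg hxk
    simp only [Equiv.Perm.mul_apply]
    by_cases hkx : k x = x
    · rw [hkfix x hkx]
      by_cases hgx : g x = x
      · rw [hgfix x hgx, hkx, hgx]
      · have h1 : k (g⁻¹ x) = g⁻¹ x := by
          apply hg' _ (hgi x hgx)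
          intro hc
          apply hxg
          rw [← hc, app_inv]
        rw [h1, app_inv]
    · have h1 : g (k⁻¹ x) = k⁻¹ x := by
        apply hk' _ (hki x hkx)
        intro hc
        apply hxk
        rw [← hc, app_inv]
      rw [hgfix _ h1, app_inv]
      exact hk' x hkx hxa
  have hsupp : (g * k * g⁻¹ * k⁻¹).support = {a, g a, k a} := by
    ext x
    rw [Equiv.Perm.mem_support, Finset.mem_insert, Finset.mem_insert, Finset.mem_singleton]
    constructor
    · intro hx
      by_contra hcon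
      rw [not_or, not_or] at hcon
      exact hx (e4 x hcon.1 hcon.2.1 hcon.2.2)
    · rintro (rfl | rfl | rfl)
      · rw [e1]; exact hg
      · rw [e2]; exact hne.symm
      · rw [e3]; exact hk.symm
  rw [hsupp]
  exact Finset.card_eq_three.2 ⟨a, g a, k a, hg.symm, hk.symm, hne, rfl⟩

end ThreeCycle

section Homog

variable {G Ω : Type*} [Group G] [MulAction G Ω] [Fintype Ω] [Fintype G]

/-- number of `h` with `h • a ∈ S`. -/
theorem count_one (htr : ∀ a b : Ω, ∃ g : G, g • a = b) (S : Finset Ω) (a : Ω) :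
    Fintype.card Ω * (Finset.univ.filter fun h : G => h • a ∈ S).card = Fintype.card G * S.card := by
  have h1 : ∀ b : Ω, (Finset.univ.filter fun h : G => h • b ∈ S).card
      = (Finset.univ.filter fun h : G => h • a ∈ S).card := by
    intro b
    obtain ⟨g, hg⟩ := htr a b
    apply Finset.card_bij (fun h _ => h * g)
    · intro h hh
      simp only [Finset.mem_filter, Finset.mem_univ, true_and] at hh ⊢
      rw [mul_smul, hg]; exact hh
    · intro x _ y _ hxy
      exact mul_right_cancel hxy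
    · intro h hh
      simp only [Finset.mem_filter, Finset.mem_univ, true_and] at hh
      refine ⟨h * g⁻¹, ?_, by group⟩
      simp only [Finset.mem_filter, Finset.mem_univ, true_and]
      rw [mul_smul, ← hg, inv_smul_smul]; exact hh
  have h2 : ∑ b : Ω, (Finset.univ.filter fun h : G => h • b ∈ S).card = Fintype.card G * S.card := by
    simp only [Finset.card_filter]
    rw [Finset.sum_comm]
    have : ∀ h : G, (∑ b : Ω, if h • b ∈ S then 1 else 0) = S.card := by
      intro h
      rw [← Finset.card_filter]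
      apply Finset.card_bij (fun b _ => h • b)
      · intro b hb
        simpa using hb
      · intro x _ y _ hxy
        exact smul_left_cancel h hxy
      · intro c hc
        exact ⟨h⁻¹ • c, by simpa using hc, smul_inv_smul h c⟩
    rw [Finset.sum_congr rfl (fun h _ => this h), Finset.sum_const, Finset.card_univ, smul_eq_mul]
  rw [← h2, Finset.sum_congr rfl (fun b _ => h1 b), Finset.sum_const, Finset.card_univ, smul_eq_mul]

/-- number of `h` with `h • a, h • b ∈ S`. -/
theorem count_two (hho : ∀ a b c d : Ω, a ≠ b → c ≠ d → ∃ g : G, (g • a = c ∧ g • b = d) ∨ (g • a = d ∧ g • b = c))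
    (S : Finset Ω) (a b : Ω) (hab : a ≠ b) :
    (Fintype.card Ω * (Fintype.card Ω - 1)) * (Finset.univ.filter fun h : G => h • a ∈ S ∧ h • b ∈ S).card
      = Fintype.card G * (S.card * (S.card - 1)) := by
  have h1 : ∀ c d : Ω, c ≠ d → (Finset.univ.filter fun h : G => h • c ∈ S ∧ h • d ∈ S).card
      = (Finset.univ.filter fun h : G => h • a ∈ S ∧ h • b ∈ S).card := by
    intro c d hcd
    obtain ⟨g, hg⟩ := hho a b c d hab hcd
    apply Finset.card_bij (fun h _ => h * g)
    · intro h hh
      simp only [Finset.mem_filter, Finset.mem_univ, true_and] at hh ⊢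
      rw [mul_smul, mul_smul]
      rcases hg with ⟨e1, e2⟩ | ⟨e1, e2⟩
      · rw [e1, e2]; exact hh
      · rw [e1, e2]; exact hh.symm
    · intro x _ y _ hxy
      exact mul_right_cancel hxy
    · intro h hh
      simp only [Finset.mem_filter, Finset.mem_univ, true_and] at hh
      refine ⟨h * g⁻¹, ?_, by group⟩
      simp only [Finset.mem_filter, Finset.mem_univ, true_and]
      rw [mul_smul, mul_smul]
      rcases hg with ⟨e1, e2⟩ | ⟨e1, e2⟩
      · rw [← e1, ← e2, inv_smul_smul, inv_smul_smul]; exact hh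
      · rw [← e1, ← e2, inv_smul_smul, inv_smul_smul]; exact hh.symm
  have h2 : ∑ p ∈ (Finset.univ : Finset Ω).offDiag,
      (Finset.univ.filter fun h : G => h • p.1 ∈ S ∧ h • p.2 ∈ S).card
      = Fintype.card G * (S.card * (S.card - 1)) := by
    simp only [Finset.card_filter]
    rw [Finset.sum_comm]
    have : ∀ h : G, (∑ p ∈ (Finset.univ : Finset Ω).offDiag, if h • p.1 ∈ S ∧ h • p.2 ∈ S then 1 else 0)
        = S.card * (S.card - 1) := by
      intro h
      rw [← Finset.card_filter, Nat.mul_sub, mul_one, ← Finset.offDiag_card]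
      apply Finset.card_bij (fun p _ => (h • p.1, h • p.2))
      · rintro ⟨x, y⟩ hb
        simp only [Finset.mem_filter, Finset.mem_offDiag, Finset.mem_univ, true_and] at hb ⊢
        exact ⟨hb.2.1, hb.2.2, fun hc => hb.1 (smul_left_cancel h hc)⟩
      · rintro ⟨x, y⟩ _ ⟨x', y'⟩ _ hxy
        simp only [Prod.mk.injEq] at hxy ⊢
        exact ⟨smul_left_cancel h hxy.1, smul_left_cancel h hxy.2⟩
      · rintro ⟨x, y⟩ hc
        rw [Finset.mem_offDiag] at hc
        refine ⟨(h⁻¹ • x, h⁻¹ • y), ?_, by simp⟩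
        simp only [Finset.mem_filter, Finset.mem_offDiag, Finset.mem_univ, true_and, smul_inv_smul]
        exact ⟨fun hcc => hc.2.2 (smul_left_cancel h⁻¹ hcc), hc.1, hc.2.1⟩
    rw [Finset.sum_congr rfl (fun h _ => this h), Finset.sum_const, Finset.card_univ, smul_eq_mul]
  rw [← h2, Finset.sum_congr rfl (fun p hp => h1 p.1 p.2 (Finset.mem_offDiag.1 hp).2.2),
    Finset.sum_const, Finset.offDiag_card, Finset.card_univ, smul_eq_mul, Nat.mul_sub, mul_one]

/-- if `(m - 1)^2 < n - 1` there is a translate of `S` meeting `S` in exactly one point. -/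
theorem exists_one (htr : ∀ a b : Ω, ∃ g : G, g • a = b)
    (hho : ∀ a b c d : Ω, a ≠ b → c ≠ d → ∃ g : G, (g • a = c ∧ g • b = d) ∨ (g • a = d ∧ g • b = c))
    (S : Finset Ω) (hS : 0 < S.card) (hm : (S.card - 1) * (S.card - 1) < Fintype.card Ω - 1) :
    ∃ h : G, (S.filter fun a => h • a ∈ S).card = 1 := by
  by_contra hcon
  push Not at hcon
  set n := Fintype.card Ω with hn
  set m := S.card with hmdef
  have hG : 0 < Fintype.card G := Fintype.card_pos
  have h1 : ∑ h : G, (S.filter fun a => h • a ∈ S).card = ∑ a ∈ S, (Finset.univ.filter fun h : G => h • a ∈ S).card := by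
    simp only [Finset.card_filter]
    rw [Finset.sum_comm]
  have h2 : ∑ h : G, (S.filter fun a => h • a ∈ S).card * ((S.filter fun a => h • a ∈ S).card - 1)
      = ∑ p ∈ S.offDiag, (Finset.univ.filter fun h : G => h • p.1 ∈ S ∧ h • p.2 ∈ S).card := by
    simp only [Finset.card_filter (fun h : G => h • _ ∈ S ∧ h • _ ∈ S)]
    rw [Finset.sum_comm]
    apply Finset.sum_congr rfl
    intro h _
    rw [← Finset.card_filter, Nat.mul_sub, mul_one, ← Finset.offDiag_card]
    congr 1
    ext p
    simp only [Finset.mem_filter, Finset.mem_offDiag]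
    tauto
  have h3 : ∑ h : G, (S.filter fun a => h • a ∈ S).card
      ≤ ∑ h : G, (S.filter fun a => h • a ∈ S).card * ((S.filter fun a => h • a ∈ S).card - 1) := by
    apply Finset.sum_le_sum
    intro h _
    have := hcon h
    generalize (S.filter fun a => h • a ∈ S).card = c at this ⊢
    rcases Nat.eq_zero_or_pos c with hc | hc
    · simp [hc]
    · have : 1 ≤ c - 1 := by omega
      calc c = c * 1 := (mul_one c).symm
        _ ≤ c * (c - 1) := Nat.mul_le_mul_left _ this
  rw [h1, h2] at h3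
  -- multiply by n (n-1)
  have h4 : n * (n - 1) * ∑ a ∈ S, (Finset.univ.filter fun h : G => h • a ∈ S).card
      = (n - 1) * (m * (Fintype.card G * m)) := by
    rw [mul_comm n (n - 1), mul_assoc, Finset.mul_sum, Finset.sum_congr rfl (fun a _ => count_one htr S a),
      Finset.sum_const, smul_eq_mul]
  have h5 : n * (n - 1) * ∑ p ∈ S.offDiag, (Finset.univ.filter fun h : G => h • p.1 ∈ S ∧ h • p.2 ∈ S).card
      = (m * (m - 1)) * (Fintype.card G * (m * (m - 1))) := by
    rw [Finset.mul_sum, Finset.sum_congr rfl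
      (fun p hp => count_two hho S p.1 p.2 (Finset.mem_offDiag.1 hp).2.2), Finset.sum_const,
      smul_eq_mul, Finset.offDiag_card, Nat.mul_sub m m 1, mul_one]
  have h6 := Nat.mul_le_mul_left (n * (n - 1)) h3
  rw [h4, h5] at h6
  have h7 : (Fintype.card G * (m * m)) * (n - 1) ≤ (Fintype.card G * (m * m)) * ((m - 1) * (m - 1)) := by
    calc (Fintype.card G * (m * m)) * (n - 1) = (n - 1) * (m * (Fintype.card G * m)) := by ring
      _ ≤ (m * (m - 1)) * (Fintype.card G * (m * (m - 1))) := h6
      _ = _ := by ring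
  have h8 : 0 < Fintype.card G * (m * m) := by positivity
  have h9 := Nat.le_of_mul_le_mul_left h7 h8
  omega

end Homog

section Main

variable {G Ω : Type*} [Group G] [MulAction G Ω] [Fintype Ω]

/-- the symmetric orbital graph of a pair of distinct points. -/
def orbGraph (G : Type*) {Ω : Type*} [Group G] [MulAction G Ω] (x y : Ω) (hxy : x ≠ y) : SimpleGraph Ω where
  Adj u v := ∃ g : G, (g • x = u ∧ g • y = v) ∨ (g • x = v ∧ g • y = u)
  symm := ⟨fun u v ⟨g, hg⟩ => ⟨g, hg.symm⟩⟩
  loopless := ⟨fun u ⟨g, hg⟩ => by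
    rcases hg with ⟨h1, h2⟩ | ⟨h1, h2⟩ <;> exact hxy (smul_left_cancel g (h1.trans h2.symm))⟩

omit [Fintype Ω] in
theorem orbGraph_inv {x y : Ω} (hxy : x ≠ y) (g : G) (u v : Ω) (h : (orbGraph G x y hxy).Adj u v) :
    (orbGraph G x y hxy).Adj (g • u) (g • v) := by
  obtain ⟨k, hk⟩ := h
  refine ⟨g * k, ?_⟩
  rw [mul_smul, mul_smul]
  rcases hk with ⟨h1, h2⟩ | ⟨h1, h2⟩
  · left; rw [h1, h2]; exact ⟨rfl, rfl⟩
  · right; rw [h1, h2]; exact ⟨rfl, rfl⟩

theorem D_orbGraph {x y : Ω} (hxy : x ≠ y) {u v : Ω} (h : (orbGraph G x y hxy).Adj u v) :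
    D G u v = D G x y := by
  obtain ⟨k, hk⟩ := h
  rcases hk with ⟨h1, h2⟩ | ⟨h1, h2⟩
  · rw [← h1, ← h2, D_smul]
  · rw [← h1, ← h2, D_symm, D_smul]

theorem degree_eq [MulAction.IsPretransitive G Ω] {Γ : SimpleGraph Ω}
    (hinv : ∀ (g : G) u v, Γ.Adj u v → Γ.Adj (g • u) (g • v)) (x u : Ω) : Γ.degree u = Γ.degree x := by
  obtain ⟨g, rfl⟩ := MulAction.exists_smul_eq G x u
  rw [← SimpleGraph.card_neighborFinset_eq_degree, ← SimpleGraph.card_neighborFinset_eq_degree]
  symm
  apply Finset.card_bij (fun v _ => g • v)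
  · intro v hv
    rw [SimpleGraph.mem_neighborFinset] at hv ⊢
    exact hinv g _ _ hv
  · intro a _ b _ h
    exact smul_left_cancel g h
  · intro b hb
    rw [SimpleGraph.mem_neighborFinset] at hb
    refine ⟨g⁻¹ • b, ?_, smul_inv_smul g b⟩
    rw [SimpleGraph.mem_neighborFinset]
    have := hinv g⁻¹ _ _ hb
    rwa [inv_smul_smul] at this

theorem main [hprim : MulAction.IsPreprimitive G Ω] [Finite G] [FaithfulSMul G Ω]
    (hA : ¬ alternatingGroup Ω ≤ (MulAction.toPermHom G Ω).range) (g : G) (hg : g ≠ 1) :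
    Fintype.card Ω ≤ (2 * (Finset.univ.filter fun z : Ω => g • z ≠ z).card + 1) ^ 2 := by
  have hfG : Fintype G := Fintype.ofFinite G
  by_contra hcon
  push Not at hcon
  set S := Finset.univ.filter fun z : Ω => g • z ≠ z with hS
  set m := S.card with hm
  set n := Fintype.card Ω with hn
  have htr : ∀ a b : Ω, ∃ g : G, g • a = b := MulAction.exists_smul_eq G
  -- a moved point
  obtain ⟨x, hx⟩ : ∃ x : Ω, g • x ≠ x := by
    by_contra hc
    push Not at hc
    apply hg
    apply FaithfulSMul.eq_of_smul_eq_smul (α := Ω)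
    intro a
    rw [hc a, one_smul]
  have hxS : x ∈ S := by simp [hS, hx]
  have hgxS : g • x ∈ S := by
    simp only [hS, Finset.mem_filter, Finset.mem_univ, true_and]
    intro hc
    exact hx (smul_left_cancel g hc)
  have hm2 : 2 ≤ m := by
    have : ({x, g • x} : Finset Ω).card = 2 := Finset.card_pair hx.symm
    rw [← this]
    apply Finset.card_le_card
    intro z hz
    rw [Finset.mem_insert, Finset.mem_singleton] at hz
    rcases hz with rfl | rfl
    · exact hxS
    · exact hgxS
  have hDm : D G x (g • x) ≤ m := D_le_moved g x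
  set y := g • x with hy
  have hxy : x ≠ y := hx.symm
  set Γ := orbGraph G x y hxy with hΓ
  have hinv : ∀ (g : G) u v, Γ.Adj u v → Γ.Adj (g • u) (g • v) := orbGraph_inv hxy
  have hadj : Γ.Adj x y := ⟨1, Or.inl ⟨one_smul _ _, one_smul _ _⟩⟩
  have hc : Γ.Connected := connected hinv hadj
  have hE : ∀ u v, Γ.Adj u v → D G u v ≤ m := fun u v h => by rw [D_orbGraph hxy h]; exact hDm
  have hK : ∀ u, Γ.degree u = Γ.degree x := fun u => degree_eq hinv x u
  set K := Γ.degree x with hKdef
  by_cases hcomp : ∀ a b : Ω, a ≠ b → Γ.Adj a b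
  · -- 2-homogeneous case
    have hho : ∀ a b c d : Ω, a ≠ b → c ≠ d → ∃ g : G, (g • a = c ∧ g • b = d) ∨ (g • a = d ∧ g • b = c) := by
      intro a b c d hab hcd
      obtain ⟨k, hk⟩ := hcomp a b hab
      obtain ⟨l, hl⟩ := hcomp c d hcd
      refine ⟨l * k⁻¹, ?_⟩
      rw [mul_smul, mul_smul]
      rcases hk with ⟨h1, h2⟩ | ⟨h1, h2⟩ <;> rcases hl with ⟨h3, h4⟩ | ⟨h3, h4⟩
      · left; rw [← h1, ← h2, inv_smul_smul, inv_smul_smul]; exact ⟨h3, h4⟩
      · right; rw [← h1, ← h2, inv_smul_smul, inv_smul_smul]; exact ⟨h3, h4⟩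
      · right; rw [← h1, ← h2, inv_smul_smul, inv_smul_smul]; exact ⟨h4, h3⟩
      · left; rw [← h1, ← h2, inv_smul_smul, inv_smul_smul]; exact ⟨h4, h3⟩
    have hmm : (m - 1) * (m - 1) < n - 1 := by
      have : (m - 1) * (m - 1) ≤ m * m := Nat.mul_le_mul (Nat.sub_le _ _) (Nat.sub_le _ _)
      have h2 : (2 * m + 1) ^ 2 = 4 * (m * m) + 4 * m + 1 := by ring
      omega
    obtain ⟨h, hh⟩ := exists_one htr hho S (by omega) hmm
    obtain ⟨a, ha⟩ := Finset.card_eq_one.1 hh
    have haS : a ∈ S ∧ h • a ∈ S := by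
      have : a ∈ S.filter fun a => h • a ∈ S := by rw [ha]; exact Finset.mem_singleton_self a
      exact Finset.mem_filter.1 this
    have huniq : ∀ z, z ∈ S → h • z ∈ S → z = a := by
      intro z hz hz'
      have : z ∈ S.filter fun a => h • a ∈ S := Finset.mem_filter.2 ⟨hz, hz'⟩
      rw [ha] at this
      exact Finset.mem_singleton.1 this
    have hSmem : ∀ z, z ∈ S ↔ g • z ≠ z := by intro z; simp [hS]
    set φ := MulAction.toPermHom G Ω with hφ
    have hφa : ∀ (k : G) (z : Ω), φ k z = k • z := fun k z => rfl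
    apply hA
    refine Equiv.Perm.alternatingGroup_le_of_isPreprimitive_of_isThreeCycle_mem ?_
      (isThreeCycle_comm (φ g) (φ (h⁻¹ * g * h)) a ?_ ?_ ?_) ?_
    · exact MulAction.IsPreprimitive.of_surjective (f := ({ toFun := id, map_smul' := fun k z => rfl } :
        Ω →ₑ[φ.rangeRestrict] Ω)) Function.surjective_id
    · rw [hφa]; exact (hSmem a).1 haS.1
    · rw [hφa, mul_smul, mul_smul]
      intro hc
      apply (hSmem _).1 haS.2
      rw [inv_smul_eq_iff] at hc
      exact hc
    · intro z hz1 hz2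
      rw [hφa] at hz1
      rw [hφa, mul_smul, mul_smul] at hz2
      apply huniq z ((hSmem z).2 hz1)
      rw [hSmem]
      intro hc
      apply hz2
      rw [hc, inv_smul_smul]
    · exact mul_mem (mul_mem (mul_mem ⟨g, rfl⟩ ⟨_, rfl⟩) (inv_mem ⟨g, rfl⟩)) (inv_mem ⟨_, rfl⟩)
  · -- rank at least three
    push Not at hcomp
    obtain ⟨a, b, hab, hnadj⟩ := hcomp
    have hmn : 4 * (m * m) + 4 * m + 1 < n := by
      have h2 : (2 * m + 1) ^ 2 = 4 * (m * m) + 4 * m + 1 := by ring
      omega
    have hv := valency_bound hinv hc hE hK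
    have h3K : 3 * m < K := by
      by_contra hle
      push Not at hle
      have h1 : K * m ≤ 3 * m * m := Nat.mul_le_mul_right _ hle
      have h2 : 3 * m * m = 3 * (m * m) := by ring
      omega
    have hall : ∀ u v : Ω, D G u v ≤ 2 * m := all_le hinv hc hE hK h3K
    -- the other graph
    set Γ' := orbGraph G a b hab with hΓ'
    have hinv' : ∀ (g : G) u v, Γ'.Adj u v → Γ'.Adj (g • u) (g • v) := orbGraph_inv hab
    have hadj' : Γ'.Adj a b := ⟨1, Or.inl ⟨one_smul _ _, one_smul _ _⟩⟩
    have hc' : Γ'.Connected := connected hinv' hadj'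
    have hK' : ∀ u, Γ'.degree u = Γ'.degree x := fun u => degree_eq hinv' x u
    have hdisj : ∀ u v, Γ'.Adj u v → ¬ Γ.Adj u v := by
      rintro u v ⟨k, hk⟩ h
      apply hnadj
      rcases hk with ⟨h1, h2⟩ | ⟨h1, h2⟩
      · have := hinv k⁻¹ _ _ h
        rwa [← h1, ← h2, inv_smul_smul, inv_smul_smul] at this
      · have := hinv k⁻¹ _ _ h.symm
        rwa [← h1, ← h2, inv_smul_smul, inv_smul_smul] at this
    have hsum : Γ.degree x + Γ'.degree x ≤ n - 1 := by
      rw [← SimpleGraph.card_neighborFinset_eq_degree, ← SimpleGraph.card_neighborFinset_eq_degree,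
        ← Finset.card_union_of_disjoint]
      · have : n - 1 = (Finset.univ.erase x).card := by
          rw [Finset.card_erase_of_mem (Finset.mem_univ x), Finset.card_univ]
        rw [this]
        apply Finset.card_le_card
        intro z hz
        rw [Finset.mem_union, SimpleGraph.mem_neighborFinset, SimpleGraph.mem_neighborFinset] at hz
        rw [Finset.mem_erase]
        refine ⟨?_, Finset.mem_univ _⟩
        rintro rfl
        rcases hz with hz | hz
        · exact Γ.loopless.irrefl _ hz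
        · exact Γ'.loopless.irrefl _ hz
      · rw [Finset.disjoint_left]
        intro z hz hz'
        rw [SimpleGraph.mem_neighborFinset] at hz hz'
        exact hdisj _ _ hz' hz
    -- choose the smaller one
    have final : ∀ Γ₀ : SimpleGraph Ω, (∀ (g : G) u v, Γ₀.Adj u v → Γ₀.Adj (g • u) (g • v)) →
        Γ₀.Connected → 2 * Γ₀.degree x ≤ n - 1 → False := by
      intro Γ₀ hinv₀ hc₀ hdeg
      have hK₀ : ∀ u, Γ₀.degree u = Γ₀.degree x := fun u => degree_eq hinv₀ x u
      set k := Γ₀.degree x with hk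
      have e1 := valency_bound hinv₀ hc₀ (E := 2 * m) (fun u v _ => hall u v) hK₀
      have e2 := inter_bound hinv₀ hall hK₀ x
      -- n k ≤ (n-1) 2m + k k
      have hk0 : 0 < k := by
        rcases Nat.eq_zero_or_pos k with h | h
        · rw [h] at e1; omega
        · exact h
      have e3 : k < 4 * m := by
        by_contra hle
        push Not at hle
        have f1 : (n - 1) * (2 * m) * 2 ≤ (n - 1) * k := by
          calc (n - 1) * (2 * m) * 2 = (n - 1) * (4 * m) := by ring
            _ ≤ (n - 1) * k := Nat.mul_le_mul_left _ hle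
        have f2 : 2 * (k * k) ≤ (n - 1) * k := by
          calc 2 * (k * k) = (2 * k) * k := by ring
            _ ≤ (n - 1) * k := Nat.mul_le_mul_right _ hdeg
        have f3 : n * k = (n - 1) * k + k := by
          obtain ⟨n', hn'⟩ : ∃ n', n = n' + 1 := ⟨n - 1, by omega⟩
          rw [hn', Nat.add_sub_cancel]; ring
        have e2' : n * k ≤ (n - 1) * (2 * m) + k * k := e2
        omega
      have e4 : k * (2 * m) ≤ 4 * m * (2 * m) := Nat.mul_le_mul_right _ e3.le
      have e5 : 4 * m * (2 * m) = 8 * (m * m) := by ring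
      have e6 : 2 * (n - 1) ≤ k * (2 * m) := e1
      omega
    rcases le_total (Γ.degree x) (Γ'.degree x) with h | h
    · exact final Γ hinv hc (by omega)
    · exact final Γ' hinv' hc' (by omega)

end Main

end Cfsg.Agent.Lib.H64Babai
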