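import Mathlib
import Cfsg.Agent.S4035
import Cfsg.Agent.Lib.CycNorm
import Cfsg.Agent.Lib.ClassPow
import Cfsg.Agent.Lib.CoprimeAction2
import Cfsg.Agent.Lib.H70Basic
import Cfsg.Agent.Lib.LocBase

/-!
(helper64) Class sizes `{1, m, m n}` with `m`, `n` coprime: the basic structure. For a prime `r ∣ m` and a noncentral
`r`-element `w`, the centralizer of `w` is the direct product of an `r`-group and an `r'`-group.
-/

set_option autoImplicit false

namespace Cfsg.Agent.Lib.H64CSa

open Subgroup Cfsg.Agent.Lib Cfsg.Agent.Lib.CycNorm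

/-- the centralizer of an element -/
abbrev C {G : Type*} [Group G] (g : G) : Subgroup G := Subgroup.centralizer ({g} : Set G)

/-- `r`-elements -/
def El {G : Type*} [Group G] (r : ℕ) (g : G) : Prop := ∃ k, orderOf g = r ^ k

section basic

variable {G : Type*} [Group G]

theorem memC {x g : G} : x ∈ C g ↔ Commute x g := Subgroup.mem_centralizer_singleton_iff

theorem memC' {x g : G} : x ∈ C g ↔ g ∈ C x := by
  rw [memC, memC]; exact ⟨fun h => h.symm, fun h => h.symm⟩

theorem center_le (g : G) : center G ≤ C g := Subgroup.center_le_centralizer _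

theorem mem_center_of_C_eq_top {g : G} (h : C g = ⊤) : g ∈ center G := by
  rw [Subgroup.mem_center_iff]
  intro x
  have : x ∈ C g := by rw [h]; trivial
  exact memC.1 this

theorem C_eq_top {g : G} (h : g ∈ center G) : C g = ⊤ := by
  rw [eq_top_iff]
  intro x _
  exact memC.2 (Subgroup.mem_center_iff.1 h x)

theorem index_eq_one_iff {g : G} : (C g).index = 1 ↔ g ∈ center G := by
  rw [Subgroup.index_eq_one]
  exact ⟨mem_center_of_C_eq_top, C_eq_top⟩

theorem El.of_pow [Finite G] {r : ℕ} (hr : r.Prime) {g : G} {k : ℕ} (h : g ^ r ^ k = 1) : El r g := by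
  have h1 : orderOf g ∣ r ^ k := orderOf_dvd_of_pow_eq_one h
  obtain ⟨j, -, hj⟩ := (Nat.dvd_prime_pow hr).1 h1
  exact ⟨j, hj⟩

theorem El.pow_eq {r : ℕ} {g : G} (h : El r g) : ∃ k, g ^ r ^ k = 1 := by
  obtain ⟨k, hk⟩ := h
  exact ⟨k, by rw [← hk]; exact pow_orderOf_eq_one g⟩

theorem El.coprime {r : ℕ} {g h : G} (hg : El r g) (hh : (orderOf h).Coprime r) :
    (orderOf g).Coprime (orderOf h) := by
  obtain ⟨k, hk⟩ := hg
  rw [hk]
  exact (hh.symm).pow_left k

theorem El.of_mem [Finite G] {r : ℕ} (hr : r.Prime) {P : Subgroup G} (hP : IsPGroup r P) {g : G} (hg : g ∈ P) :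
    El r g := by
  obtain ⟨k, hk⟩ := hP ⟨g, hg⟩
  exact El.of_pow hr (k := k) (by simpa using congrArg Subtype.val hk)

theorem El.zpowers {r : ℕ} {g : G} (hg : El r g) : IsPGroup r (Subgroup.zpowers g) := by
  obtain ⟨k, hk⟩ := hg
  exact IsPGroup.of_card (n := k) (by rw [Nat.card_zpowers, hk])

theorem El.eq_one {r : ℕ} {g : G} (hg : El r g) (hg' : (orderOf g).Coprime r) : g = 1 := by
  have h1 := hg.coprime hg'
  rw [Nat.coprime_self] at h1
  exact orderOf_eq_one_iff.1 h1

theorem El.pow [Finite G] {r : ℕ} (hr : r.Prime) {g : G} (hg : El r g) (n : ℕ) : El r (g ^ n) := by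
  obtain ⟨k, hk⟩ := hg.pow_eq
  exact El.of_pow hr (k := k) (by rw [← pow_mul, mul_comm, pow_mul, hk, one_pow])

theorem coprime_pow {r : ℕ} {g : G} (hg : (orderOf g).Coprime r) (n : ℕ) : (orderOf (g ^ n)).Coprime r :=
  Nat.Coprime.coprime_dvd_left (orderOf_pow_dvd n) hg

theorem coprime_of_mem {r : ℕ} {K : Subgroup G} (hK : (Nat.card K).Coprime r) {g : G} (hg : g ∈ K) :
    (orderOf g).Coprime r := by
  refine Nat.Coprime.coprime_dvd_left ?_ hK
  rw [← Subgroup.orderOf_mk g hg]
  exact orderOf_dvd_natCard _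

/-- `C = R × K`, `R` an `r`-group, `K` an `r'`-group -/
structure Split (r : ℕ) (C R K : Subgroup G) : Prop where
  hR : R ≤ C
  hK : K ≤ C
  pR : IsPGroup r R
  cK : (Nat.card K).Coprime r
  comm : ∀ x ∈ R, ∀ y ∈ K, Commute x y
  sup : C ≤ R ⊔ K

namespace Split

variable {r : ℕ} {C R K : Subgroup G}

theorem exists_mul (h : Split r C R K) {x : G} (hx : x ∈ C) : ∃ a ∈ R, ∃ b ∈ K, x = a * b := by
  have h1 := h.sup hx
  have hn : K ≤ normalizer (R : Set G) := by
    intro y hy
    rw [Subgroup.mem_normalizer_iff]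
    intro z
    constructor
    · intro hz
      rw [(h.comm z hz y hy).symm.eq, mul_assoc, mul_inv_cancel, mul_one]
      exact hz
    · intro hz
      have h2 := h.comm _ hz y hy
      have h3 : y * z * y⁻¹ = z := by
        have h4 : y * z = y * (y * z * y⁻¹) := by
          rw [← h2.eq]; group
        have h5 := mul_left_cancel h4
        exact h5.symm
      rw [h3] at hz
      exact hz
  rw [← SetLike.mem_coe, Subgroup.coe_mul_of_right_le_normalizer_left R K hn] at h1
  obtain ⟨a, ha, b, hb, hab⟩ := h1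
  exact ⟨a, ha, b, hb, hab.symm⟩

theorem mem_R [Finite G] (h : Split r C R K) (hr : r.Prime) {x : G} : x ∈ R ↔ x ∈ C ∧ El r x := by
  constructor
  · intro hx
    exact ⟨h.hR hx, El.of_mem hr h.pR hx⟩
  · rintro ⟨hx, hel⟩
    obtain ⟨a, ha, b, hb, rfl⟩ := h.exists_mul hx
    obtain ⟨k, hk⟩ := hel.pow_eq
    obtain ⟨j, hj⟩ := (El.of_mem hr h.pR ha).pow_eq
    have hb1 : b ^ r ^ (k + j) = 1 := by
      have h1 : (a * b) ^ r ^ (k + j) = 1 := by
        rw [pow_add, pow_mul, hk, one_pow]
      rw [(h.comm a ha b hb).mul_pow] at h1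
      have h2 : a ^ r ^ (k + j) = 1 := by
        rw [add_comm, pow_add, pow_mul, hj, one_pow]
      rwa [h2, one_mul] at h1
    have hb2 : b = 1 := (El.of_pow hr hb1).eq_one (coprime_of_mem h.cK hb)
    rw [hb2, mul_one]
    exact ha

theorem mem_K [Finite G] (h : Split r C R K) (hr : r.Prime) {x : G} : x ∈ K ↔ x ∈ C ∧ (orderOf x).Coprime r := by
  constructor
  · intro hx
    exact ⟨h.hK hx, coprime_of_mem h.cK hx⟩
  · rintro ⟨hx, hel⟩
    obtain ⟨a, ha, b, hb, hab⟩ := h.exists_mul hx
    have hbo := coprime_of_mem h.cK hb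
    have h1 : a ^ (orderOf x * orderOf b) = 1 := by
      have h2 : x ^ (orderOf x * orderOf b) = 1 := by rw [pow_mul, pow_orderOf_eq_one, one_pow]
      rw [hab, (h.comm a ha b hb).mul_pow, ← hab] at h2
      have h3 : b ^ (orderOf x * orderOf b) = 1 := by
        rw [mul_comm, pow_mul, pow_orderOf_eq_one, one_pow]
      rwa [h3, mul_one] at h2
    have h4 : (orderOf a).Coprime r :=
      Nat.Coprime.coprime_dvd_left (orderOf_dvd_of_pow_eq_one h1) (Nat.Coprime.mul_left hel hbo)
    have h5 : a = 1 := (El.of_mem hr h.pR ha).eq_one h4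
    rw [hab, h5, one_mul]
    exact hb

theorem inf [Finite G] (h : Split r C R K) (hr : r.Prime) : R ⊓ K = ⊥ := by
  rw [eq_bot_iff]
  rintro x ⟨hx1, hx2⟩
  exact Subgroup.mem_bot.2 ((El.of_mem hr h.pR hx1).eq_one (coprime_of_mem h.cK hx2))

theorem card [Finite G] (h : Split r C R K) (hr : r.Prime) : Nat.card C = Nat.card R * Nat.card K := by
  have e : R × K ≃ C := by
    refine Equiv.ofBijective (fun p => ⟨p.1.1 * p.2.1, C.mul_mem (h.hR p.1.2) (h.hK p.2.2)⟩) ⟨?_, ?_⟩
    · rintro ⟨⟨a, ha⟩, ⟨b, hb⟩⟩ ⟨⟨a', ha'⟩, ⟨b', hb'⟩⟩ hab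
      have h1 : a * b = a' * b' := congrArg Subtype.val hab
      have h2 : a'⁻¹ * a = b' * b⁻¹ := by
        rw [inv_mul_eq_iff_eq_mul, ← mul_assoc, ← h1, mul_inv_cancel_right]
      have h3 : a'⁻¹ * a ∈ R ⊓ K := ⟨R.mul_mem (R.inv_mem ha') ha, by
        rw [h2]; exact K.mul_mem hb' (K.inv_mem hb)⟩
      rw [h.inf hr, Subgroup.mem_bot] at h3
      have h4 : a' = a := inv_mul_eq_one.1 h3
      rw [h3] at h2
      have h5 : b' = b := mul_inv_eq_one.1 h2.symm
      subst h4 h5
      rfl
    · rintro ⟨x, hx⟩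
      obtain ⟨a, ha, b, hb, hab⟩ := h.exists_mul hx
      exact ⟨⟨⟨a, ha⟩, ⟨b, hb⟩⟩, Subtype.ext hab.symm⟩
  rw [← Nat.card_congr e, Nat.card_prod]

theorem conj [Finite G] (h : Split r C R K) {g : G} (hg : g ∈ normalizer (C : Set G)) (hr : r.Prime) :
    g ∈ normalizer (R : Set G) ∧ g ∈ normalizer (K : Set G) := by
  have hinv : g⁻¹ ∈ normalizer (C : Set G) := Subgroup.inv_mem _ hg
  rw [Subgroup.mem_normalizer_iff] at hg
  constructor
  · rw [Subgroup.mem_normalizer_iff]
    intro x
    rw [h.mem_R hr, h.mem_R hr, ← hg x]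
    unfold El
    have : orderOf (g * x * g⁻¹) = orderOf x := by
      rw [← MulAut.conj_apply]; exact MulEquiv.orderOf_eq _ _
    rw [this]
  · rw [Subgroup.mem_normalizer_iff]
    intro x
    rw [h.mem_K hr, h.mem_K hr, ← hg x]
    have : orderOf (g * x * g⁻¹) = orderOf x := by
      rw [← MulAut.conj_apply]; exact MulEquiv.orderOf_eq _ _
    rw [this]

end Split

/-- the `r`-part (canonical) -/
def RR (r : ℕ) (w : G) : Subgroup G := Subgroup.closure {x | x ∈ C w ∧ El r x}

/-- the `r'`-part (canonical) -/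
def KK (r : ℕ) (w : G) : Subgroup G := Subgroup.closure {x | x ∈ C w ∧ (orderOf x).Coprime r}

theorem Split.canon [Finite G] {r : ℕ} (hr : r.Prime) {w : G} {R K : Subgroup G} (h : Split r (C w) R K) :
    Split r (C w) (RR r w) (KK r w) := by
  have h1 : RR r w = R := by
    refine le_antisymm ((Subgroup.closure_le _).2 fun x hx => (h.mem_R hr).2 hx) fun x hx => ?_
    exact Subgroup.subset_closure ((h.mem_R hr).1 hx)
  have h2 : KK r w = K := by
    refine le_antisymm ((Subgroup.closure_le _).2 fun x hx => (h.mem_K hr).2 hx) fun x hx => ?_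
    exact Subgroup.subset_closure ((h.mem_K hr).1 hx)
  rw [h1, h2]
  exact h

end basic

/-- class sizes `{1, m, m n}` -/
structure Hyp (G : Type*) [Group G] (m n : ℕ) : Prop where
  hm : 1 < m
  hn : 1 < n
  cop : m.Coprime n
  ix : ∀ g : G, g ∉ center G → (C g).index = m ∨ (C g).index = m * n
  ex : ∃ g : G, (C g).index = m
  ex' : ∃ g : G, (C g).index = m * n

section main

variable {G : Type*} [Group G] [Finite G] {m n : ℕ}

set_option linter.unusedSectionVars false

theorem exists_parts' {r : ℕ} (hr : r.Prime) (g : G) : ∃ u v : G, El r u ∧ (orderOf v).Coprime r ∧ g = u * v ∧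
    Commute u v ∧ (∃ a, u = g ^ a) ∧ (∃ b, v = g ^ b) := by
  obtain ⟨a, b, h1, h2, h3⟩ := exists_parts r hr g
  exact ⟨g ^ a, g ^ b, h1, h2, h3, (Commute.refl g).pow_pow _ _, ⟨a, rfl⟩, ⟨b, rfl⟩⟩

theorem Hyp.index_dvd (h : Hyp G m n) {x y : G} (hx : x ∉ center G) (hy : y ∉ center G) (hle : C x ≤ C y) :
    (C x).index = (C y).index ∨ ((C y).index = m ∧ (C x).index = m * n) := by
  have h1 : (C y).index ∣ (C x).index := Subgroup.index_dvd_of_le hle
  rcases h.ix x hx with h2 | h2 <;> rcases h.ix y hy with h3 | h3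
  · left; rw [h2, h3]
  · exfalso
    rw [h2, h3] at h1
    have h4 := Nat.le_of_dvd (by have := h.hm; omega) h1
    have h5 : m * 1 < m * n := Nat.mul_lt_mul_of_pos_left h.hn (by have := h.hm; omega)
    omega
  · right; exact ⟨h3, h2⟩
  · left; rw [h2, h3]

variable {r : ℕ}

theorem Hyp.not_dvd (h : Hyp G m n) (hr : r.Prime) (hrm : r ∣ m) : ¬ r ∣ n := by
  intro hrn
  have := Nat.dvd_gcd hrm hrn
  rw [h.cop] at this
  exact hr.one_lt.ne' (Nat.dvd_one.1 this)

/-- exponent of the `r`-part of `C(g)`, `g` noncentral -/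
noncomputable def cc (G : Type*) [Group G] (m r : ℕ) : ℕ := (Nat.card G).factorization r - m.factorization r

theorem Hyp.fact_index (h : Hyp G m n) (hr : r.Prime) (hrm : r ∣ m) {g : G} (hg : g ∉ center G) :
    ((C g).index).factorization r = m.factorization r := by
  rcases h.ix g hg with h1 | h1
  · rw [h1]
  · have hm := h.hm
    have hn := h.hn
    rw [h1, Nat.factorization_mul (by omega) (by omega), Finsupp.add_apply,
      Nat.factorization_eq_zero_of_not_dvd (h.not_dvd hr hrm), add_zero]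

theorem Hyp.fact_card (h : Hyp G m n) (hr : r.Prime) (hrm : r ∣ m) {g : G} (hg : g ∉ center G) :
    (Nat.card (C g)).factorization r = cc G m r := by
  have h1 := Subgroup.card_mul_index (C g)
  have h2 : (Nat.card G).factorization r = (Nat.card (C g)).factorization r + ((C g).index).factorization r := by
    rw [← h1, Nat.factorization_mul Nat.card_pos.ne' Subgroup.index_ne_zero_of_finite, Finsupp.add_apply]
  rw [h.fact_index hr hrm hg] at h2
  unfold cc
  omega

theorem Hyp.fact_G (h : Hyp G m n) (hr : r.Prime) (hrm : r ∣ m) :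
    (Nat.card G).factorization r = cc G m r + m.factorization r := by
  obtain ⟨g, hg⟩ := h.ex
  have hgc : g ∉ center G := by
    intro hcon
    rw [index_eq_one_iff.2 hcon] at hg
    have := h.hm
    omega
  have h1 := Subgroup.card_mul_index (C g)
  rw [← h.fact_card hr hrm hgc, ← h1, Nat.factorization_mul Nat.card_pos.ne' Subgroup.index_ne_zero_of_finite,
    Finsupp.add_apply, hg]

/-- an `r`-subgroup of `C(g)` has order at most `r ^ c` -/
theorem Hyp.card_le (h : Hyp G m n) (hr : r.Prime) (hrm : r ∣ m) {g : G} (hg : g ∉ center G) {S : Subgroup G}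
    (hS : S ≤ C g) (hp : IsPGroup r S) : Nat.card S ≤ r ^ cc G m r := by
  have : Fact r.Prime := ⟨hr⟩
  obtain ⟨k, hk⟩ := IsPGroup.iff_card.1 hp
  rw [hk]
  refine Nat.pow_le_pow_right hr.pos ?_
  have h1 : r ^ k ∣ Nat.card (C g) := by
    rw [← hk]; exact Subgroup.card_dvd_of_le hS
  rw [← h.fact_card hr hrm hg]
  exact (hr.pow_dvd_iff_le_factorization Nat.card_pos.ne').1 h1

theorem Hyp.exists_syl (h : Hyp G m n) (hr : r.Prime) (hrm : r ∣ m) {g : G} (hg : g ∉ center G) :
    ∃ S : Subgroup G, S ≤ C g ∧ IsPGroup r S ∧ Nat.card S = r ^ cc G m r := by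
  have : Fact r.Prime := ⟨hr⟩
  obtain ⟨T⟩ : Nonempty (Sylow r (C g)) := inferInstance
  refine ⟨(T : Subgroup (C g)).map (C g).subtype, Subgroup.map_subtype_le _, T.2.map _, ?_⟩
  rw [H70Basic.card_sylow_map, h.fact_card hr hrm hg]

/-- **the main splitting** -/
theorem Hyp.split (h : Hyp G m n) (hr : r.Prime) (hrm : r ∣ m) {w : G} (hw : w ∉ center G) (hwr : El r w) :
    Split r (C w) (RR r w) (KK r w) := by
  have : Fact r.Prime := ⟨hr⟩
  have hmp := h.hm
  have hnp := h.hn
  obtain ⟨P⟩ : Nonempty (Sylow r (C w)) := inferInstance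
  have key : ∀ x : C w, (orderOf x).Coprime r → ¬ r ∣ (ConjClasses.mk x).carrier.ncard := by
    intro x hx
    rw [Cfsg.Agent.S4035.card_carrier, ClassPow.index_centralizer_subgroup]
    have hx' : (orderOf (x : G)).Coprime r := by rwa [Subgroup.orderOf_coe]
    have hcomm : Commute w (x : G) := (memC.1 x.2).symm
    have hC := H70Basic.centralizer_mul_of_coprime hcomm (hwr.coprime hx')
    have hwx : w * (x : G) ∉ center G := by
      intro hcon
      apply hw
      apply mem_center_of_C_eq_top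
      rw [eq_top_iff, ← C_eq_top hcon]
      show C (w * (x : G)) ≤ C w
      rw [show C (w * (x : G)) = C w ⊓ C (x : G) from hC]
      exact inf_le_left
    have hle : C (w * (x : G)) ≤ C w := by
      rw [show C (w * (x : G)) = C w ⊓ C (x : G) from hC]
      exact inf_le_left
    have hmul : (C (x : G)).relIndex (C w) * (C w).index = (C (w * (x : G))).index := by
      rw [← Subgroup.inf_relIndex_right, Subgroup.relIndex_mul_index inf_le_right]
      show _ = (centralizer ({w * (x : G)} : Set G)).index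
      rw [hC, inf_comm]
    have hw0 : 0 < (C w).index := Nat.pos_of_ne_zero Subgroup.index_ne_zero_of_finite
    intro hdvd
    rcases h.index_dvd hwx hw hle with h1 | ⟨h1, h2⟩
    · rw [h1] at hmul
      have h3 : (C (x : G)).relIndex (C w) = 1 := by
        have h4 : (C (x : G)).relIndex (C w) * (C w).index = 1 * (C w).index := by rw [hmul, one_mul]
        exact Nat.eq_of_mul_eq_mul_right hw0 h4
      rw [h3] at hdvd
      exact hr.one_lt.ne' (Nat.dvd_one.1 hdvd)
    · rw [h1, h2, mul_comm] at hmul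
      have h3 : (C (x : G)).relIndex (C w) = n := Nat.eq_of_mul_eq_mul_left (by omega) hmul
      rw [h3] at hdvd
      exact h.not_dvd hr hrm hdvd
  obtain ⟨hPn, H, hHn, hHr, hinf, hsup⟩ := Cfsg.Agent.S4035.result key P
  have hsplit : Split r (C w) ((P : Subgroup (C w)).map (C w).subtype) (H.map (C w).subtype) := by
    refine ⟨Subgroup.map_subtype_le _, Subgroup.map_subtype_le _, P.2.map _, ?_, ?_, ?_⟩
    · rw [Subgroup.card_map_of_injective (C w).subtype_injective]
      exact ((Nat.Prime.coprime_iff_not_dvd hr).2 hHr).symm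
    · rintro _ ⟨a, ha, rfl⟩ _ ⟨b, hb, rfl⟩
      have h1 := Subgroup.commute_of_normal_of_disjoint _ _ hPn hHn (disjoint_iff.2 hinf) a b ha hb
      exact h1.map (C w).subtype
    · rw [← Subgroup.map_sup, hsup]
      intro x hx
      exact ⟨⟨x, hx⟩, trivial, rfl⟩
  exact hsplit.canon hr

theorem Hyp.card_RR (h : Hyp G m n) (hr : r.Prime) (hrm : r ∣ m) {w : G} (hw : w ∉ center G) (hwr : El r w) :
    Nat.card (RR r w) = r ^ cc G m r := by
  have : Fact r.Prime := ⟨hr⟩
  have hs := h.split hr hrm hw hwr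
  refine le_antisymm (h.card_le hr hrm hw hs.hR hs.pR) ?_
  obtain ⟨S, hS, hp, hc⟩ := h.exists_syl hr hrm hw
  rw [← hc]
  refine Nat.le_of_dvd Nat.card_pos (Subgroup.card_dvd_of_le fun x hx => ?_)
  exact (hs.mem_R hr).2 ⟨hS hx, El.of_mem hr hp hx⟩

/-- an `r`-subgroup `S` of order `≥ r^c` in `C(g)` containing ... is Sylow -/
theorem Hyp.eq_of_le (h : Hyp G m n) (hr : r.Prime) (hrm : r ∣ m) {g : G} (hg : g ∉ center G) {S T : Subgroup G}
    (hS : Nat.card S = r ^ cc G m r) (hST : S ≤ T) (hT : T ≤ C g) (hp : IsPGroup r T) : T = S := by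
  refine (Subgroup.eq_of_le_of_card_ge hST ?_).symm
  rw [hS]
  exact h.card_le hr hrm hg hT hp

/-- class sizes inside `C(w)` -/
theorem Hyp.rel (h : Hyp G m n) {w : G} (hw : w ∉ center G) (hwr : El r w)
    {y : G} (hy : (orderOf y).Coprime r) (hyw : y ∈ C w) :
    C w ≤ C y ∨ ((C w).index = m ∧ (C y).relIndex (C w) = n) := by
  have hmp := h.hm
  have hcomm : Commute w y := (memC.1 hyw).symm
  have hC := H70Basic.centralizer_mul_of_coprime hcomm (hwr.coprime hy)
  have hle : C (w * y) ≤ C w := by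
    rw [show C (w * y) = C w ⊓ C y from hC]
    exact inf_le_left
  have hwx : w * y ∉ center G := by
    intro hcon
    apply hw
    apply mem_center_of_C_eq_top
    rw [eq_top_iff, ← C_eq_top hcon]
    exact hle
  have hmul : (C y).relIndex (C w) * (C w).index = (C (w * y)).index := by
    rw [← Subgroup.inf_relIndex_right, Subgroup.relIndex_mul_index inf_le_right]
    show _ = (centralizer ({w * y} : Set G)).index
    rw [hC, inf_comm]
  have hw0 : 0 < (C w).index := Nat.pos_of_ne_zero Subgroup.index_ne_zero_of_finite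
  rcases h.index_dvd hwx hw hle with h1 | ⟨h1, h2⟩
  · left
    rw [h1] at hmul
    have h3 : (C y).relIndex (C w) = 1 := by
      have h4 : (C y).relIndex (C w) * (C w).index = 1 * (C w).index := by rw [hmul, one_mul]
      exact Nat.eq_of_mul_eq_mul_right hw0 h4
    exact Subgroup.relIndex_eq_one.1 h3
  · right
    refine ⟨h1, ?_⟩
    rw [h1, h2, mul_comm] at hmul
    exact Nat.eq_of_mul_eq_mul_left (by omega) hmul

end main

end Cfsg.Agent.Lib.H64CSa
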