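import Mathlib
import Cfsg.Agent.Lib.H64CSa

/-!
(helper64) Class sizes `{1, m, m n}`: consequences of the splitting of the centralizers of `r`-elements.
-/

set_option autoImplicit false
set_option linter.unusedSectionVars false

namespace Cfsg.Agent.Lib.H64CSb

open Subgroup Cfsg.Agent.Lib Cfsg.Agent.Lib.H64CSa

variable {G : Type*} [Group G] [Finite G] {m n r : ℕ}

theorem _root_.Cfsg.Agent.Lib.H64CSa.Hyp.dvd_index (h : Hyp G m n) (hrm : r ∣ m) {g : G} (hg : g ∉ center G) :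
    r ∣ (C g).index := by
  rcases h.ix g hg with h1 | h1
  · rw [h1]; exact hrm
  · rw [h1]; exact hrm.mul_right n

theorem _root_.Cfsg.Agent.Lib.H64CSa.Hyp.center_sylow (h : Hyp G m n) (hr : r.Prime) (hrm : r ∣ m)
    (R : Sylow r G) {z : G} (hz : ∀ x ∈ (R : Subgroup G), Commute x z) : z ∈ center G := by
  have : Fact r.Prime := ⟨hr⟩
  by_contra hcon
  have h1 := h.dvd_index hrm hcon
  have h2 : (R : Subgroup G) ≤ C z := fun x hx => memC.2 (hz x hx)
  exact R.not_dvd_index (h1.trans (Subgroup.index_dvd_of_le h2))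

theorem card_lt {A B : Subgroup G} (h : A < B) : Nat.card A < Nat.card B := by
  refine lt_of_le_of_ne (Nat.le_of_dvd Nat.card_pos (Subgroup.card_dvd_of_le h.le)) fun heq => ?_
  exact h.ne (Subgroup.eq_of_le_of_card_ge h.le heq.ge)

theorem center_normalizes (A : Subgroup G) {x : G} (hx : x ∈ center G) : x ∈ normalizer (A : Set G) := by
  rw [Subgroup.mem_normalizer_iff]
  intro y
  rw [← (Subgroup.mem_center_iff.1 hx y), mul_inv_cancel_right]

theorem exists_noncentral (h : Hyp G m n) : ∃ g : G, g ∉ center G := by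
  obtain ⟨g, hg⟩ := h.ex
  refine ⟨g, fun hcon => ?_⟩
  rw [index_eq_one_iff.2 hcon] at hg
  have := h.hm
  omega

theorem _root_.Cfsg.Agent.Lib.H64CSa.Hyp.sylow_not_le (h : Hyp G m n) (hr : r.Prime) (hrm : r ∣ m)
    (R : Sylow r G) : ¬ (R : Subgroup G) ≤ center G := by
  have : Fact r.Prime := ⟨hr⟩
  intro hcon
  obtain ⟨g, hg⟩ := exists_noncentral h
  exact R.not_dvd_index ((h.dvd_index hrm hg).trans (Subgroup.index_dvd_of_le (hcon.trans (center_le g))))

theorem _root_.Cfsg.Agent.Lib.H64CSa.Hyp.card_center_lt (h : Hyp G m n) (hr : r.Prime) (hrm : r ∣ m)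
    (R : Sylow r G) : Nat.card ((R : Subgroup G) ⊓ center G : Subgroup G) < r ^ cc G m r := by
  have : Fact r.Prime := ⟨hr⟩
  obtain ⟨w, hwR, hwZ⟩ := SetLike.not_le_iff_exists.1 (h.sylow_not_le hr hrm R)
  have h1 : (R : Subgroup G) ⊓ center G < (R : Subgroup G) ⊓ C w := by
    refine lt_of_le_of_ne (inf_le_inf_left _ (center_le w)) fun heq => hwZ ?_
    have : w ∈ (R : Subgroup G) ⊓ C w := ⟨hwR, memC.2 (Commute.refl w)⟩
    rw [← heq] at this
    exact this.2
  refine lt_of_lt_of_le (card_lt h1) (h.card_le hr hrm hwZ inf_le_right ?_)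
  exact R.2.to_le inf_le_left

theorem le_sylow_of_central (hr : r.Prime) (R : Sylow r G) {S : Subgroup G} (hS : IsPGroup r S) (hSc : S ≤ center G) :
    S ≤ (R : Subgroup G) := by
  have : Fact r.Prime := ⟨hr⟩
  have hn : S ≤ normalizer ((R : Subgroup G) : Set G) := hSc.trans (fun x hx => center_normalizes _ hx)
  have h1 : IsPGroup r ((R : Subgroup G) ⊔ S : Subgroup G) := LocBase.isPGroup_sup R.2 hS hn
  have h2 := R.3 h1 le_sup_left
  rw [← h2]
  exact le_sup_right

/-- every noncentral element commutes with a noncentral `r`-element -/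
theorem _root_.Cfsg.Agent.Lib.H64CSa.Hyp.exists_r (h : Hyp G m n) (hr : r.Prime) (hrm : r ∣ m) {g : G}
    (hg : g ∉ center G) : ∃ w : G, w ∉ center G ∧ El r w ∧ Commute w g := by
  have : Fact r.Prime := ⟨hr⟩
  obtain ⟨R⟩ : Nonempty (Sylow r G) := inferInstance
  obtain ⟨S, hS, hp, hc⟩ := h.exists_syl hr hrm hg
  by_contra hcon
  push Not at hcon
  have h1 : S ≤ center G := by
    intro w hw
    by_contra hwc
    exact hcon w hwc (El.of_mem hr hp hw) (memC.1 (hS hw))
  have h2 : S ≤ (R : Subgroup G) ⊓ center G := le_inf (le_sylow_of_central hr R hp h1) h1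
  have h3 := Nat.le_of_dvd Nat.card_pos (Subgroup.card_dvd_of_le h2)
  rw [hc] at h3
  exact absurd (h.card_center_lt hr hrm R) (not_lt.2 h3)

section W

variable (h : Hyp G m n) (hr : r.Prime) (hrm : r ∣ m) {w : G} (hw : w ∉ center G) (hwr : El r w)

include h hr hrm hw hwr

theorem self_mem : w ∈ RR r w :=
  ((h.split hr hrm hw hwr).mem_R hr).2 ⟨memC.2 (Commute.refl w), hwr⟩

theorem mem_RR {x : G} : x ∈ RR r w ↔ Commute x w ∧ El r x := by
  rw [(h.split hr hrm hw hwr).mem_R hr, memC]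

theorem mem_KK {x : G} : x ∈ KK r w ↔ Commute x w ∧ (orderOf x).Coprime r := by
  rw [(h.split hr hrm hw hwr).mem_K hr, memC]

theorem commRK {x y : G} (hx : x ∈ RR r w) (hy : y ∈ KK r w) : Commute x y :=
  (h.split hr hrm hw hwr).comm x hx y hy

/-- commuting noncentral `r`-elements have the same `K` -/
theorem KK_eq {w' : G} (hw' : w' ∉ center G) (hwr' : El r w') (hc : Commute w w') : KK r w = KK r w' := by
  have aux : ∀ {u v : G}, u ∉ center G → El r u → v ∉ center G → El r v → Commute u v → KK r u ≤ KK r v := by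
    intro u v hu hur hv hvr huv y hy
    have h1 : v ∈ RR r u := (mem_RR h hr hrm hu hur).2 ⟨huv.symm, hvr⟩
    have h2 := commRK h hr hrm hu hur h1 hy
    exact (mem_KK h hr hrm hv hvr).2 ⟨h2.symm, ((mem_KK h hr hrm hu hur).1 hy).2⟩
  exact le_antisymm (aux hw hwr hw' hwr' hc) (aux hw' hwr' hw hwr hc.symm)

/-- a noncentral element of `Z(R_w)` has the same centralizer as `w` -/
theorem C_eq {w' : G} (hw' : w' ∉ center G) (hwr' : w' ∈ RR r w) (hc : ∀ x ∈ RR r w, Commute x w') :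
    C w' = C w ∧ RR r w' = RR r w ∧ KK r w' = KK r w := by
  have hel := ((mem_RR h hr hrm hw hwr).1 hwr').2
  have hcomm := ((mem_RR h hr hrm hw hwr).1 hwr').1
  have hK := KK_eq h hr hrm hw' hel hw hwr hcomm
  have hs := h.split hr hrm hw hwr
  have hs' := h.split hr hrm hw' hel
  have hle : RR r w ≤ RR r w' := fun x hx => (mem_RR h hr hrm hw' hel).2 ⟨hc x hx, ((mem_RR h hr hrm hw hwr).1 hx).2⟩
  have hR : RR r w' = RR r w :=
    h.eq_of_le hr hrm hw' (h.card_RR hr hrm hw hwr) hle hs'.hR hs'.pR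
  refine ⟨?_, hR, hK⟩
  apply le_antisymm
  · intro x hx
    obtain ⟨a, ha, b, hb, rfl⟩ := hs'.exists_mul hx
    rw [hR] at ha
    rw [hK] at hb
    exact mul_mem (hs.hR ha) (hs.hK hb)
  · intro x hx
    obtain ⟨a, ha, b, hb, rfl⟩ := hs.exists_mul hx
    rw [← hR] at ha
    rw [← hK] at hb
    exact mul_mem (hs'.hR ha) (hs'.hK hb)

/-- for `y ∈ K_w`, `R_w` lies in `C(y)` -/
theorem RR_le_C {y : G} (hy : y ∈ KK r w) : RR r w ≤ C y := fun _ hx => memC.2 (commRK h hr hrm hw hwr hx hy)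

/-- the `r`-subgroups of `C(y)` containing `R_w` are `R_w` -/
theorem eq_RR {y : G} (hyc : y ∉ center G) {T : Subgroup G} (hT : IsPGroup r T)
    (hTy : T ≤ C y) (hle : RR r w ≤ T) : T = RR r w :=
  h.eq_of_le hr hrm hyc (h.card_RR hr hrm hw hwr) hle hTy hT

theorem KK_central (hi : (C w).index ≠ m) {y : G} (hy : y ∈ KK r w) : C w ≤ C y := by
  have h1 := (mem_KK h hr hrm hw hwr).1 hy
  rcases h.rel hw hwr h1.2 (memC.2 h1.1) with h2 | ⟨h2, -⟩
  · exact h2
  · exact absurd h2 hi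

theorem KK_rel {y : G} (hy : y ∈ KK r w) : C w ≤ C y ∨ ((C w).index = m ∧ (C y).relIndex (C w) = n) := by
  have h1 := (mem_KK h hr hrm hw hwr).1 hy
  exact h.rel hw hwr h1.2 (memC.2 h1.1)

end W

/-- **Lemma L**: an `r'`-element `y` normalizing the `r`-group `D` and commuting with a noncentral element of `D`
centralizes `D`. -/
theorem lemL (h : Hyp G m n) (hr : r.Prime) (hrm : r ∣ m) {D : Subgroup G} (hD : IsPGroup r D) {y w : G}
    (hy : (orderOf y).Coprime r) (hyD : y ∈ normalizer (D : Set G)) (hwD : w ∈ D) (hw : w ∉ center G)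
    (hc : Commute w y) : D ≤ C y := by
  have : Fact r.Prime := ⟨hr⟩
  have hwr := El.of_mem hr hD hwD
  have hyK : y ∈ KK r w := (mem_KK h hr hrm hw hwr).2 ⟨hc.symm, hy⟩
  have key := CoprimeAction2.thompson_PxQ (p := r) (P := D ⊓ C y) (Q := zpowers y) (hD.to_le inf_le_left)
    (by rw [Nat.card_zpowers]; exact hy) ?_ (Nat.card D) D rfl hD ?_ ?_ ?_
  · intro x hx
    have h1 := key (Subgroup.mem_zpowers y)
    rw [Subgroup.mem_centralizer_iff] at h1
    exact memC.2 (h1 x hx)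
  · intro x hx
    rw [Subgroup.mem_centralizer_iff]
    rintro _ ⟨k, rfl⟩
    exact ((memC.1 hx.2).symm.zpow_left k).eq
  · exact inf_le_left.trans Subgroup.le_normalizer
  · rw [Subgroup.zpowers_le]; exact hyD
  · rintro x ⟨hxD, hx⟩
    replace hxD : x ∈ D := hxD
    replace hx : x ∈ centralizer ((D ⊓ C y : Subgroup G) : Set G) := hx
    rw [Subgroup.mem_centralizer_iff] at hx ⊢
    have h1 : Commute x w := (hx w ⟨hwD, memC.2 hc⟩).symm
    have h2 : x ∈ RR r w := (mem_RR h hr hrm hw hwr).2 ⟨h1, El.of_mem hr hD hxD⟩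
    have h3 : Commute x y := commRK h hr hrm hw hwr h2 hyK
    rintro _ ⟨k, rfl⟩
    exact (h3.symm.zpow_left k).eq

end Cfsg.Agent.Lib.H64CSb
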