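import Mathlib
import Cfsg.Agent.Lib.H64CSb
import Cfsg.Agent.Lib.Cores
import Cfsg.Agent.Lib.FrobAction

/-!
(helper64) Class sizes `{1, m, m n}`: elements `w` of `Z_2(R) ∖ Z(R)`.
-/

set_option autoImplicit false
set_option linter.unusedSectionVars false

namespace Cfsg.Agent.Lib.H64CSe

open Subgroup Cfsg.Agent.Lib Cfsg.Agent.Lib.H64CSa Cfsg.Agent.Lib.H64CSb
open scoped commutatorElement

variable {G : Type*} [Group G] [Finite G] {m n r : ℕ}

theorem central_comm {z x : G} (hz : z ∈ center G) : Commute z x := (Subgroup.mem_center_iff.1 hz x).symm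

theorem conj_pow {u y z : G} (hz : z ∈ center G) (h : u * y * u⁻¹ = z * y) (k : ℕ) :
    u ^ k * y * (u ^ k)⁻¹ = z ^ k * y := by
  induction k with
  | zero => simp
  | succ k ih =>
    have h2 : u ^ (k + 1) * y * (u ^ (k + 1))⁻¹ = u * (u ^ k * y * (u ^ k)⁻¹) * u⁻¹ := by
      rw [pow_succ']; group
    rw [h2, ih]
    have h3 : u * (z ^ k * y) * u⁻¹ = z ^ k * (u * y * u⁻¹) := by
      have h4 : u * z ^ k = z ^ k * u := (Subgroup.mem_center_iff.1 (pow_mem hz k) u)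
      rw [← mul_assoc, h4]; group
    rw [h3, h, pow_succ]; group

/-- coprime trick -/
theorem eq_one_of_coprime {u y z : G} (hz : z ∈ center G) (hu : El r u) (hzr : (orderOf z).Coprime r)
    (h : u * y * u⁻¹ = z * y) : z = 1 := by
  obtain ⟨k, hk⟩ := hu.pow_eq
  have h1 := conj_pow hz h (r ^ k)
  rw [hk] at h1
  have h2 : z ^ r ^ k = 1 := by
    have : 1 * y = z ^ r ^ k * y := by rw [← h1]; group
    exact (mul_right_cancel this).symm
  have h3 : orderOf z ∣ r ^ k := orderOf_dvd_of_pow_eq_one h2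
  have h4 : (orderOf z).Coprime (r ^ k) := hzr.pow_right k
  exact orderOf_eq_one_iff.1 (Nat.eq_one_of_dvd_coprimes h4 dvd_rfl h3)

/-- `w0 ∈ Z_2(R) ∖ Z(R)` -/
structure Z2 {G : Type*} [Group G] {r : ℕ} (R : Sylow r G) (w0 : G) : Prop where
  mem : w0 ∈ (R : Subgroup G)
  nc : w0 ∉ center G
  z : ∀ g ∈ (R : Subgroup G), g * w0 * g⁻¹ * w0⁻¹ ∈ center G

section A2

variable (h : Hyp G m n) (hr : r.Prime) (hrm : r ∣ m) {R : Sylow r G} {w0 : G} (c : Z2 R w0)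

include hr c in
theorem Z2.el : El r w0 := El.of_mem hr R.2 c.mem

include c in
theorem Z2.norm_C : (R : Subgroup G) ≤ normalizer (C w0 : Set G) := by
  have aux : ∀ g ∈ (R : Subgroup G), ∀ x ∈ C w0, g * x * g⁻¹ ∈ C w0 := by
    intro g hg x hx
    rw [memC] at hx ⊢
    have h1 : Commute (g * x * g⁻¹) (g * w0 * g⁻¹) := hx.map (MulAut.conj g)
    have h2 : Commute (g * x * g⁻¹) (g * w0 * g⁻¹ * w0⁻¹) := Subgroup.mem_center_iff.1 (c.z g hg) _
    have h3 := h2.inv_right.mul_right h1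
    have h4 : (g * w0 * g⁻¹ * w0⁻¹)⁻¹ * (g * w0 * g⁻¹) = w0 := by group
    rwa [h4] at h3
  intro g hg
  rw [Subgroup.mem_normalizer_iff]
  intro x
  refine ⟨aux g hg x, fun hx => ?_⟩
  have := aux g⁻¹ (inv_mem hg) _ hx
  simpa [mul_assoc] using this

include h hr hrm c in
theorem Z2.RR_le : RR r w0 ≤ (R : Subgroup G) := by
  have : Fact r.Prime := ⟨hr⟩
  have hs := h.split hr hrm c.nc (c.el hr)
  have hn : (R : Subgroup G) ≤ normalizer (RR r w0 : Set G) := fun g hg => (hs.conj (c.norm_C hg) hr).1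
  have h1 : IsPGroup r (RR r w0 ⊔ (R : Subgroup G) : Subgroup G) := LocBase.isPGroup_sup hs.pR R.2 hn
  have h2 := R.3 h1 le_sup_right
  rw [← h2]
  exact le_sup_left

include h hr hrm c in
theorem Z2.norm_RR : (R : Subgroup G) ≤ normalizer (RR r w0 : Set G) := by
  have hs := h.split hr hrm c.nc (c.el hr)
  exact fun g hg => (hs.conj (c.norm_C hg) hr).1

include h hr hrm c in
theorem Z2.norm_KK : (R : Subgroup G) ≤ normalizer (KK r w0 : Set G) := by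
  have hs := h.split hr hrm c.nc (c.el hr)
  exact fun g hg => (hs.conj (c.norm_C hg) hr).2

include h hr hrm c in
theorem Z2.mem_iff {x : G} (hx : x ∈ (R : Subgroup G)) : x ∈ RR r w0 ↔ Commute x w0 := by
  rw [mem_RR h hr hrm c.nc (c.el hr)]
  exact ⟨fun h => h.1, fun h => ⟨h, El.of_mem hr R.2 hx⟩⟩

include h hr hrm c in
/-- elements of `R ∖ R_0` centralize no noncentral element of `K_0` -/
theorem Z2.fpf {u y : G} (hu : u ∈ (R : Subgroup G)) (huR : u ∉ RR r w0) (hy : y ∈ KK r w0) (hc : Commute u y) :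
    y ∈ center G := by
  by_contra hyc
  have hs := h.split hr hrm c.nc (c.el hr)
  have hT : RR r w0 ⊔ zpowers u ≤ (R : Subgroup G) :=
    sup_le (c.RR_le h hr hrm) ((Subgroup.zpowers_le).2 hu)
  have hTy : RR r w0 ⊔ zpowers u ≤ C y :=
    sup_le (RR_le_C h hr hrm c.nc (c.el hr) hy) ((Subgroup.zpowers_le).2 (memC.2 hc))
  have h1 := eq_RR h hr hrm c.nc (c.el hr) hyc (R.2.to_le hT) hTy le_sup_left
  apply huR
  rw [← h1]
  exact mem_sup_right (mem_zpowers u)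

include c in
theorem Z2.conj_eq {g : G} : g * w0 * g⁻¹ = (g * w0 * g⁻¹ * w0⁻¹) * w0 := by group

include h hr hrm c in
/-- `w0 ^ r` is central -/
theorem Z2.pow_central : w0 ^ r ∈ center G := by
  have : Fact r.Prime := ⟨hr⟩
  by_contra hcon
  have hw0r : w0 ^ r ∈ RR r w0 := (RR r w0).pow_mem (self_mem h hr hrm c.nc (c.el hr)) r
  have hC := (C_eq h hr hrm c.nc (c.el hr) hcon hw0r fun x hx =>
    (((mem_RR h hr hrm c.nc (c.el hr)).1 hx).1).pow_right r).1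
  -- `z_g ^ r = 1 → z_g = 1`
  have key : ∀ g ∈ (R : Subgroup G), (g * w0 * g⁻¹ * w0⁻¹) ^ r = 1 → g * w0 * g⁻¹ * w0⁻¹ = 1 := by
    intro g hg h1
    have hz := c.z g hg
    set z := g * w0 * g⁻¹ * w0⁻¹ with hzd
    have h2 : g * w0 * g⁻¹ = z * w0 := by rw [hzd]; group
    have h3 : g * w0 ^ r * g⁻¹ = w0 ^ r := by
      have h4 : g * w0 ^ r * g⁻¹ = (g * w0 * g⁻¹) ^ r := by
        rw [← MulAut.conj_apply, map_pow, MulAut.conj_apply]
      rw [h4, h2, (central_comm hz).mul_pow, h1, one_mul]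
    have h5 : g ∈ C (w0 ^ r) := memC.2 (mul_inv_eq_iff_eq_mul.1 h3)
    rw [hC] at h5
    have h6 : g * w0 = w0 * g := memC.1 h5
    rw [hzd, h6]; group
  have key2 : ∀ k : ℕ, ∀ g ∈ (R : Subgroup G), (g * w0 * g⁻¹ * w0⁻¹) ^ r ^ k = 1 → g * w0 * g⁻¹ * w0⁻¹ = 1 := by
    intro k
    induction k with
    | zero => intro g _ h1; simpa using h1
    | succ k ih =>
      intro g hg h1
      have hz := c.z g hg
      have h2 := conj_pow hz c.conj_eq (r ^ k)
      have h3 : (g ^ r ^ k) * w0 * (g ^ r ^ k)⁻¹ * w0⁻¹ = (g * w0 * g⁻¹ * w0⁻¹) ^ r ^ k := by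
        rw [h2]; group
      have h4 := key (g ^ r ^ k) (pow_mem hg _) (by rw [h3, ← pow_mul, ← pow_succ]; exact h1)
      rw [h3] at h4
      exact ih g hg h4
  apply c.nc
  apply h.center_sylow hr hrm R
  intro g hg
  have hzR : g * w0 * g⁻¹ * w0⁻¹ ∈ (R : Subgroup G) :=
    mul_mem (mul_mem (mul_mem hg c.mem) (inv_mem hg)) (inv_mem c.mem)
  obtain ⟨k, hk⟩ := (El.of_mem hr R.2 hzR).pow_eq
  have h1 := key2 k g hg hk
  rw [mul_inv_eq_one, mul_inv_eq_iff_eq_mul] at h1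
  exact h1

include h hr hrm c in
theorem Z2.pow_mem_RR {g : G} (hg : g ∈ (R : Subgroup G)) : g ^ r ∈ RR r w0 := by
  have hz := c.z g hg
  rw [c.mem_iff h hr hrm (pow_mem hg r)]
  have h1 : (g * w0 * g⁻¹ * w0⁻¹) ^ r = 1 := by
    have h2 : g * w0 ^ r * g⁻¹ = (g * w0 * g⁻¹) ^ r := by rw [← MulAut.conj_apply, map_pow, MulAut.conj_apply]
    rw [c.conj_eq (g := g), (central_comm hz).mul_pow] at h2
    have h3 : g * w0 ^ r * g⁻¹ = w0 ^ r := by
      rw [(Subgroup.mem_center_iff.1 (c.pow_central h hr hrm) g), mul_inv_cancel_right]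
    rw [h3] at h2
    have h4 : 1 * w0 ^ r = (g * w0 * g⁻¹ * w0⁻¹) ^ r * w0 ^ r := by rw [one_mul]; exact h2
    exact (mul_right_cancel h4).symm
  have h5 := conj_pow hz c.conj_eq r
  rw [h1, one_mul, mul_inv_eq_iff_eq_mul] at h5
  exact h5

include h hr hrm c in
theorem Z2.comm_mem_RR {g k : G} (hg : g ∈ (R : Subgroup G)) (hk : k ∈ (R : Subgroup G)) :
    g * k * g⁻¹ * k⁻¹ ∈ RR r w0 := by
  have hzg := c.z g hg
  have hzk := c.z k hk
  rw [c.mem_iff h hr hrm (mul_mem (mul_mem (mul_mem hg hk) (inv_mem hg)) (inv_mem hk))]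
  have h1 : (g * k) * w0 * (g * k)⁻¹ = (k * g) * w0 * (k * g)⁻¹ := by
    have h2 : ∀ a b : G, a * w0 * a⁻¹ * w0⁻¹ ∈ center G → b * w0 * b⁻¹ * w0⁻¹ ∈ center G →
        (a * b) * w0 * (a * b)⁻¹ = (b * w0 * b⁻¹ * w0⁻¹) * (a * w0 * a⁻¹ * w0⁻¹) * w0 := by
      intro a b ha hb
      have h3 : (a * b) * w0 * (a * b)⁻¹ = a * (b * w0 * b⁻¹ * w0⁻¹) * w0 * a⁻¹ := by group
      rw [h3, (Subgroup.mem_center_iff.1 hb a)]
      group
    rw [h2 g k hzg hzk, h2 k g hzk hzg, (Subgroup.mem_center_iff.1 hzg _)]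
  have h3 : (k * g)⁻¹ * (g * k) * w0 = w0 * ((k * g)⁻¹ * (g * k)) := by
    have h4 : (k * g)⁻¹ * ((g * k) * w0 * (g * k)⁻¹) * (g * k) =
        (k * g)⁻¹ * ((k * g) * w0 * (k * g)⁻¹) * (g * k) := by rw [h1]
    calc (k * g)⁻¹ * (g * k) * w0 = (k * g)⁻¹ * ((g * k) * w0 * (g * k)⁻¹) * (g * k) := by group
      _ = (k * g)⁻¹ * ((k * g) * w0 * (k * g)⁻¹) * (g * k) := h4
      _ = w0 * ((k * g)⁻¹ * (g * k)) := by group
  -- conj by `k g`
  have h5 : Commute ((k * g)⁻¹ * (g * k)) w0 := h3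
  have h6 := h5.map (MulAut.conj (k * g))
  have h7 : MulAut.conj (k * g) ((k * g)⁻¹ * (g * k)) = g * k * g⁻¹ * k⁻¹ := by
    rw [MulAut.conj_apply]; group
  rw [h7] at h6
  have hkg : k * g * w0 * (k * g)⁻¹ * w0⁻¹ ∈ center G := c.z _ (mul_mem hk hg)
  have h8 : Commute (g * k * g⁻¹ * k⁻¹) (k * g * w0 * (k * g)⁻¹ * w0⁻¹) := Subgroup.mem_center_iff.1 hkg _
  have h9 : Commute (g * k * g⁻¹ * k⁻¹) (k * g * w0 * (k * g)⁻¹) := h6
  have h10 := h8.inv_right.mul_right h9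
  have h11 : (k * g * w0 * (k * g)⁻¹ * w0⁻¹)⁻¹ * (k * g * w0 * (k * g)⁻¹) = w0 := by group
  rwa [h11] at h10

end A2

end Cfsg.Agent.Lib.H64CSe
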