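import Mathlib
import Cfsg.Agent.Lib.H64CSe
import Cfsg.Agent.Lib.PGroupOdd

/-!
(helper64) Class sizes `{1, m, m n}`: `|R : R_0| = r`.
-/

set_option autoImplicit false
set_option linter.unusedSectionVars false

namespace Cfsg.Agent.Lib.H64CSf

open Subgroup Cfsg.Agent.Lib Cfsg.Agent.Lib.H64CSa Cfsg.Agent.Lib.H64CSb Cfsg.Agent.Lib.H64CSe

variable {G : Type*} [Group G] [Finite G] {m n r : ℕ}

theorem card_sylow (h : Hyp G m n) (hr : r.Prime) (hrm : r ∣ m) (R : Sylow r G) :
    Nat.card (R : Subgroup G) = r ^ cc G m r * r ^ m.factorization r := by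
  have : Fact r.Prime := ⟨hr⟩
  rw [R.card_eq_multiplicity, h.fact_G hr hrm, pow_add]

theorem fact_pos (h : Hyp G m n) (hr : r.Prime) (hrm : r ∣ m) : 0 < m.factorization r :=
  hr.factorization_pos_of_dvd (by have := h.hm; omega) hrm

/-- existence of elements of `Z_2(R) ∖ Z(R)` in noncentral normal subgroups of `R` -/
theorem exists_Z2 (h : Hyp G m n) (hr : r.Prime) (hrm : r ∣ m) (R : Sylow r G) {D : Subgroup G}
    (hDR : D ≤ (R : Subgroup G)) (hn : (R : Subgroup G) ≤ normalizer (D : Set G)) (hDZ : ¬ D ≤ center G) :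
    ∃ w ∈ D, Z2 R w := by
  have : Fact r.Prime := ⟨hr⟩
  have hD1 : (D.subgroupOf (R : Subgroup G)).Normal := Subgroup.normal_subgroupOf_of_le_normalizer hn
  set q := QuotientGroup.mk' (center (R : Subgroup G)) with hq
  have hcen : ∀ x : (R : Subgroup G), x ∈ center (R : Subgroup G) → (x : G) ∈ center G := by
    intro x hx
    apply h.center_sylow hr hrm R
    intro y hy
    have h1 := Subgroup.mem_center_iff.1 hx ⟨y, hy⟩
    exact congrArg Subtype.val h1
  have hN : ((D.subgroupOf (R : Subgroup G)).map q).Normal := hD1.map _ (QuotientGroup.mk'_surjective _)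
  have hN1 : (D.subgroupOf (R : Subgroup G)).map q ≠ ⊥ := by
    obtain ⟨d, hd, hdZ⟩ := SetLike.not_le_iff_exists.1 hDZ
    intro hbot
    apply hdZ
    apply hcen ⟨d, hDR hd⟩
    rw [← QuotientGroup.eq_one_iff]
    have h1 : q ⟨d, hDR hd⟩ ∈ (D.subgroupOf (R : Subgroup G)).map q := ⟨_, Subgroup.mem_subgroupOf.2 hd, rfl⟩
    rw [hbot] at h1
    exact Subgroup.mem_bot.1 h1
  obtain ⟨x, hxN, hxc, hxo⟩ := PGroupOdd.exists_central_mem
    (R := (R : Subgroup G) ⧸ center (R : Subgroup G)) (p := r) (R.2.to_quotient _) hN hN1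
  obtain ⟨w, hwD, rfl⟩ := hxN
  refine ⟨w, Subgroup.mem_subgroupOf.1 hwD, w.2, ?_, ?_⟩
  · intro hcon
    have h1 : q w = 1 := by
      refine (QuotientGroup.eq_one_iff _).2 ?_
      rw [Subgroup.mem_center_iff]
      intro y
      exact Subtype.ext (Subgroup.mem_center_iff.1 hcon y)
    rw [h1, orderOf_one] at hxo
    exact hr.one_lt.ne hxo
  · intro g hg
    have h1 : q ((⟨g, hg⟩ : (R : Subgroup G)) * w * (⟨g, hg⟩ : (R : Subgroup G))⁻¹ * w⁻¹) = 1 := by
      rw [map_mul, map_mul, map_mul, map_inv, map_inv, Subgroup.mem_center_iff.1 hxc]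
      group
    exact hcen _ ((QuotientGroup.eq_one_iff _).1 h1)

section act

variable (h : Hyp G m n) (hr : r.Prime) (hrm : r ∣ m) {R : Sylow r G} {w0 : G} (c : Z2 R w0)

include h hr hrm c

theorem relIndex_eq : (RR r w0).relIndex (R : Subgroup G) = r ^ m.factorization r := by
  have h1 := Cores.card_mul_relIndex (c.RR_le h hr hrm)
  rw [h.card_RR hr hrm c.nc (c.el hr), card_sylow h hr hrm R] at h1
  exact Nat.eq_of_mul_eq_mul_left (pow_pos hr.pos _) h1

/-- fixed points on `K_0` modulo the centre -/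
theorem fpf_mod {u y : G} (hu : u ∈ (R : Subgroup G)) (huR : u ∉ RR r w0) (hy : y ∈ KK r w0)
    (hc : u * y * u⁻¹ * y⁻¹ ∈ center G) : y ∈ center G := by
  have h1 : u * y * u⁻¹ = (u * y * u⁻¹ * y⁻¹) * y := by group
  have hs := h.split hr hrm c.nc (c.el hr)
  have h2 : u * y * u⁻¹ * y⁻¹ ∈ KK r w0 :=
    mul_mem (LocBase.conj_mem_of_le_normalizer (c.norm_KK h hr hrm) hu hy) (inv_mem hy)
  have h3 := eq_one_of_coprime hc (El.of_mem hr R.2 hu) (coprime_of_mem hs.cK h2) h1
  refine c.fpf h hr hrm hu huR hy ?_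
  rw [h3, one_mul, mul_inv_eq_iff_eq_mul] at h1
  exact h1

theorem relIndex_eq_prime (hab : ∀ x ∈ KK r w0, ∀ y ∈ KK r w0, Commute x y) (hnc : ¬ KK r w0 ≤ center G) :
    (RR r w0).relIndex (R : Subgroup G) = r := by
  have : Fact r.Prime := ⟨hr⟩
  have hs := h.split hr hrm c.nc (c.el hr)
  set π := QuotientGroup.mk' (center G) with hπ
  set V : Subgroup (G ⧸ center G) := (KK r w0).map π with hV
  have hnV : ∀ u : (R : Subgroup G), (π.comp (R : Subgroup G).subtype) u ∈ normalizer (V : Set (G ⧸ center G)) := by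
    intro u
    have h1 := Subgroup.le_normalizer_map (H := KK r w0) π
    exact h1 ⟨u, c.norm_KK h hr hrm u.2, rfl⟩
  let act : (R : Subgroup G) →* MulAut V :=
    (V.normalizerMonoidHom).comp ((π.comp (R : Subgroup G).subtype).codRestrict (normalizer (V : Set (G ⧸ center G))) hnV)
  have act_apply : ∀ (u : (R : Subgroup G)) (v : V), ((act u v : V) : G ⧸ center G) = π u * v * (π u)⁻¹ :=
    fun _ _ => rfl
  have memπ : ∀ x : G, π x = 1 ↔ x ∈ center G := fun x => QuotientGroup.eq_one_iff x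
  have hfix : ∀ (u : (R : Subgroup G)), (u : G) ∉ RR r w0 → ∀ v : V, act u v = v → v = 1 := by
    rintro u hu ⟨_, y, hy, rfl⟩ hv
    have h1 := congrArg Subtype.val hv
    rw [act_apply] at h1
    have h2 : (u : G) * y * (u : G)⁻¹ * y⁻¹ ∈ center G := by
      rw [← memπ, map_mul, map_mul, map_mul, map_inv, map_inv, mul_inv_eq_one]
      exact h1
    have h3 := fpf_mod h hr hrm c u.2 hu hy h2
    exact Subtype.ext ((memπ y).2 h3)
  have htriv : ∀ (u : (R : Subgroup G)), (u : G) ∈ RR r w0 → act u = 1 := by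
    intro u hu
    ext v
    obtain ⟨_, y, hy, rfl⟩ := v
    rw [act_apply]
    have h1 : Commute (u : G) y := commRK h hr hrm c.nc (c.el hr) hu hy
    show π u * π y * (π u)⁻¹ = π y
    rw [mul_inv_eq_iff_eq_mul, ← map_mul, h1.eq, map_mul]
  obtain ⟨y0, hy0, hy0Z⟩ := SetLike.not_le_iff_exists.1 hnc
  have hntV : Nontrivial V := by
    refine ⟨⟨⟨π y0, y0, hy0, rfl⟩, 1, fun heq => hy0Z ?_⟩⟩
    exact (memπ y0).1 (congrArg Subtype.val heq)
  have hker : ∀ u : (R : Subgroup G), act u = 1 → (u : G) ∈ RR r w0 := by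
    intro u hu
    by_contra hcon
    obtain ⟨v, hv⟩ := exists_ne (1 : V)
    exact hv (hfix u hcon v (by rw [hu]; rfl))
  have hVc : ∀ a b : V, a * b = b * a := by
    rintro ⟨_, x, hx, rfl⟩ ⟨_, y, hy, rfl⟩
    apply Subtype.ext
    show π x * π y = π y * π x
    rw [← map_mul, (hab x hx y hy).eq, map_mul]
  let _ : CommGroup V := { (inferInstance : Group V) with mul_comm := hVc }
  have hf : FrobAction.IsFPF (act.range.subtype) := by
    rintro ⟨_, u, rfl⟩ hne v hv
    refine hfix u (fun hu => hne ?_) v hv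
    exact Subtype.ext (htriv u hu)
  have hcomm : ∀ a b : act.range, a * b = b * a := by
    rintro ⟨_, g, rfl⟩ ⟨_, k, rfl⟩
    apply Subtype.ext
    show act g * act k = act k * act g
    have h1 : act (g * k * g⁻¹ * k⁻¹) = 1 := htriv _ (c.comm_mem_RR h hr hrm g.2 k.2)
    rw [map_mul, map_mul, map_mul, map_inv, map_inv, mul_inv_eq_one, mul_inv_eq_iff_eq_mul] at h1
    exact h1
  have hcyc : IsCyclic act.range := FrobAction.isCyclic_of_comm hf hcomm
  obtain ⟨γ, hγ⟩ := hcyc.exists_generator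
  have hγr : γ ^ r = 1 := by
    obtain ⟨_, u, rfl⟩ := γ
    apply Subtype.ext
    show (act u) ^ r = 1
    rw [← map_pow]
    exact htriv _ (c.pow_mem_RR h hr hrm u.2)
  have hcard : Nat.card act.range ∣ r := by
    rw [← orderOf_eq_card_of_forall_mem_zpowers hγ]
    exact orderOf_dvd_of_pow_eq_one hγr
  have hkereq : act.ker = (RR r w0).subgroupOf (R : Subgroup G) := by
    ext u
    rw [MonoidHom.mem_ker, Subgroup.mem_subgroupOf]
    exact ⟨hker u, htriv u⟩
  have hidx : (RR r w0).relIndex (R : Subgroup G) = Nat.card act.range := by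
    rw [← Subgroup.index_ker, hkereq]; rfl
  rw [hidx]
  rcases (Nat.dvd_prime hr).1 hcard with h1 | h1
  · exfalso
    rw [← hidx, relIndex_eq h hr hrm c] at h1
    have h2 := Nat.one_lt_pow (fact_pos h hr hrm).ne' hr.one_lt
    omega
  · exact h1

/-- `|K_0 : K_0 ∩ Z| ≡ 1` mod `r` -/
theorem relIndex_modEq {u0 : G} (hu0 : u0 ∈ (R : Subgroup G)) (hu0R : u0 ∉ RR r w0) :
    (center G).relIndex (KK r w0) ≡ 1 [MOD r] := by
  have : Fact r.Prime := ⟨hr⟩
  set π := QuotientGroup.mk' (center G) with hπ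
  set V : Subgroup (G ⧸ center G) := (KK r w0).map π with hV
  have hnV : ∀ u : (R : Subgroup G), (π.comp (R : Subgroup G).subtype) u ∈ normalizer (V : Set (G ⧸ center G)) := by
    intro u
    have h1 := Subgroup.le_normalizer_map (H := KK r w0) π
    exact h1 ⟨u, c.norm_KK h hr hrm u.2, rfl⟩
  let act : (R : Subgroup G) →* MulAut V :=
    (V.normalizerMonoidHom).comp ((π.comp (R : Subgroup G).subtype).codRestrict (normalizer (V : Set (G ⧸ center G))) hnV)
  have act_apply : ∀ (u : (R : Subgroup G)) (v : V), ((act u v : V) : G ⧸ center G) = π u * v * (π u)⁻¹ :=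
    fun _ _ => rfl
  have memπ : ∀ x : G, π x = 1 ↔ x ∈ center G := fun x => QuotientGroup.eq_one_iff x
  have hfix : ∀ (u : (R : Subgroup G)), (u : G) ∉ RR r w0 → ∀ v : V, act u v = v → v = 1 := by
    rintro u hu ⟨_, y, hy, rfl⟩ hv
    have h1 := congrArg Subtype.val hv
    rw [act_apply] at h1
    have h2 : (u : G) * y * (u : G)⁻¹ * y⁻¹ ∈ center G := by
      rw [← memπ, map_mul, map_mul, map_mul, map_inv, map_inv, mul_inv_eq_one]
      exact h1
    have h3 := fpf_mod h hr hrm c u.2 hu hy h2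
    exact Subtype.ext ((memπ y).2 h3)
  let _ : MulAction (R : Subgroup G) V := MulAction.compHom V act
  have h1 := R.2.card_modEq_card_fixedPoints V
  have h2 : MulAction.fixedPoints (R : Subgroup G) V = {1} := by
    ext v
    rw [Set.mem_singleton_iff]
    constructor
    · intro hv
      exact hfix ⟨u0, hu0⟩ hu0R v (hv ⟨u0, hu0⟩)
    · rintro rfl u
      exact map_one (act u)
  have h3 : Nat.card (MulAction.fixedPoints (R : Subgroup G) V) = 1 := by
    rw [h2]; simp
  rw [h3] at h1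
  have h4 : (center G).relIndex (KK r w0) = Nat.card V := by
    have h5 := Subgroup.relIndex_ker π (K := KK r w0)
    rw [hπ, QuotientGroup.ker_mk'] at h5
    exact h5
  rw [h4]
  exact h1

theorem fact_one (hab : ∀ x ∈ KK r w0, ∀ y ∈ KK r w0, Commute x y) (hnc : ¬ KK r w0 ≤ center G) :
    m.factorization r = 1 := by
  have h1 := relIndex_eq_prime h hr hrm c hab hnc
  rw [relIndex_eq h hr hrm c] at h1
  exact Nat.pow_right_injective hr.two_le (by simpa using h1)

end act

end Cfsg.Agent.Lib.H64CSf
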