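import Mathlib
import Cfsg.Agent.Lib.H64CSf

/-!
(helper64) Class sizes `{1, m, m n}`: the case in which some `w ∈ Z_2(R) ∖ Z(R)` has class size `m`.
-/

set_option autoImplicit false
set_option linter.unusedSectionVars false

namespace Cfsg.Agent.Lib.H64CSg

open Subgroup Cfsg.Agent.Lib Cfsg.Agent.Lib.H64CSa Cfsg.Agent.Lib.H64CSb Cfsg.Agent.Lib.H64CSe Cfsg.Agent.Lib.H64CSf
open scoped commutatorElement

theorem normal_of_norm {G : Type*} [Group G] {A : Subgroup G} (h : ∀ g : G, g ∈ normalizer (A : Set G)) : A.Normal := by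
  refine ⟨fun x hx g => ?_⟩
  exact (Subgroup.mem_normalizer_iff.1 (h g) x).1 hx

/-- the derived group of `A⟨u⟩`, `A` abelian normal -/
theorem card_commutator {P : Type*} [Group P] [Finite P] {A : Subgroup P} (hn : A.Normal)
    (hab : ∀ a ∈ A, ∀ b ∈ A, a * b = b * a) {u : P} (hsup : A ⊔ zpowers u = ⊤) :
    Nat.card (commutator P) = (C u).relIndex A := by
  have hA' : ∀ a : A, (a : P) * u * (a : P)⁻¹ * u⁻¹ ∈ A := fun a => by
    have h1 := hn.conj_mem _ (A.inv_mem a.2) u
    have h2 : (a : P) * u * (a : P)⁻¹ * u⁻¹ = a * (u * (a : P)⁻¹ * u⁻¹) := by group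
    rw [h2]; exact A.mul_mem a.2 h1
  let φ : A →* P := MonoidHom.mk' (fun a => (a : P) * u * (a : P)⁻¹ * u⁻¹) (by
    intro a b
    show ((a * b : A) : P) * u * ((a * b : A) : P)⁻¹ * u⁻¹ = (a * u * (a : P)⁻¹ * u⁻¹) * (b * u * (b : P)⁻¹ * u⁻¹)
    have h1 : ((a * b : A) : P) * u * ((a * b : A) : P)⁻¹ * u⁻¹ =
        a * (b * u * (b : P)⁻¹ * u⁻¹) * (u * (a : P)⁻¹ * u⁻¹) := by
      rw [Subgroup.coe_mul]; group
    rw [h1, hab _ a.2 _ (hA' b), mul_assoc, ← hab _ (A.mul_mem a.2 (hn.conj_mem _ (A.inv_mem a.2) u)) _ (hA' b)]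
    group)
  have hφ : ∀ a : A, φ a = (a : P) * u * (a : P)⁻¹ * u⁻¹ := fun _ => rfl
  have hker : φ.ker = (C u).subgroupOf A := by
    ext a
    rw [MonoidHom.mem_ker, Subgroup.mem_subgroupOf, memC, hφ, mul_inv_eq_one, mul_inv_eq_iff_eq_mul]
    exact Iff.rfl
  have hle : φ.range ≤ A := by
    rintro _ ⟨a, rfl⟩
    exact hA' a
  have hconjA : ∀ b ∈ φ.range, ∀ a ∈ A, a * b * a⁻¹ ∈ φ.range := by
    intro b hb a ha
    rw [hab a ha b (hle hb), mul_inv_cancel_right]
    exact hb
  have hconju : ∀ b ∈ φ.range, u * b * u⁻¹ ∈ φ.range := by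
    rintro _ ⟨a, rfl⟩
    refine ⟨⟨u * a * u⁻¹, hn.conj_mem _ a.2 u⟩, ?_⟩
    rw [hφ, hφ]
    show (u * (a : P) * u⁻¹) * u * (u * (a : P) * u⁻¹)⁻¹ * u⁻¹ = _
    group
  have hBn : φ.range.Normal := by
    apply normal_of_norm
    have h1 : A ⊔ zpowers u ≤ normalizer ((φ.range : Subgroup P) : Set P) := by
      refine sup_le (fun a ha => ?_) (Subgroup.zpowers_le.2 ?_)
      · apply LocBase.mem_normalizer_of_map_conj_le
        rintro _ ⟨b, hb, rfl⟩
        exact hconjA b hb a ha
      · apply LocBase.mem_normalizer_of_map_conj_le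
        rintro _ ⟨b, hb, rfl⟩
        exact hconju b hb
    intro g
    apply h1
    rw [hsup]; trivial
  have h2 : commutator P ≤ φ.range := by
    have h3 : ∀ x y : P ⧸ φ.range, x * y = y * x := by
      set q := QuotientGroup.mk' φ.range with hq
      have hgen : A.map q ⊔ zpowers (q u) = ⊤ := by
        rw [← MonoidHom.map_zpowers, ← Subgroup.map_sup, hsup, ← MonoidHom.range_eq_map, MonoidHom.range_eq_top]
        exact QuotientGroup.mk'_surjective _
      have hAu : ∀ a ∈ A, q a * q u = q u * q a := by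
        intro a ha
        have h4 : q (a * u * a⁻¹ * u⁻¹) = 1 := (QuotientGroup.eq_one_iff _).2 ⟨⟨a, ha⟩, rfl⟩
        rw [map_mul, map_mul, map_mul, map_inv, map_inv, mul_inv_eq_one, mul_inv_eq_iff_eq_mul] at h4
        exact h4
      have hcA : A.map q ≤ center (P ⧸ φ.range) := by
        rintro _ ⟨a, ha, rfl⟩
        rw [Subgroup.mem_center_iff]
        have h5 : A.map q ⊔ zpowers (q u) ≤ C (q a) := by
          refine sup_le ?_ (Subgroup.zpowers_le.2 (memC.2 (hAu a ha).symm))
          rintro _ ⟨b, hb, rfl⟩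
          rw [memC]
          show q b * q a = q a * q b
          rw [← map_mul, hab b hb a ha, map_mul]
        intro g
        have h6 : g ∈ C (q a) := h5 (by rw [hgen]; trivial)
        exact memC.1 h6
      have hcu : q u ∈ center (P ⧸ φ.range) := by
        rw [Subgroup.mem_center_iff]
        have h5 : A.map q ⊔ zpowers (q u) ≤ C (q u) := by
          refine sup_le ?_ (Subgroup.zpowers_le.2 (memC.2 (Commute.refl _)))
          rintro _ ⟨b, hb, rfl⟩
          rw [memC]
          exact hAu b hb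
        intro g
        have h6 : g ∈ C (q u) := h5 (by rw [hgen]; trivial)
        exact memC.1 h6
      intro x y
      have h7 : y ∈ center (P ⧸ φ.range) := by
        have h8 : A.map q ⊔ zpowers (q u) ≤ center (P ⧸ φ.range) := sup_le hcA (Subgroup.zpowers_le.2 hcu)
        apply h8
        rw [hgen]; trivial
      exact Subgroup.mem_center_iff.1 h7 x
    rw [commutator_def, Subgroup.commutator_le]
    intro x _ y _
    rw [← QuotientGroup.eq_one_iff, commutatorElement_def]
    have h4 := h3 (x : P ⧸ φ.range) (y : P ⧸ φ.range)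
    show ((x : P ⧸ φ.range)) * y * (x : P ⧸ φ.range)⁻¹ * (y : P ⧸ φ.range)⁻¹ = 1
    rw [h4]; group
  have h3 : φ.range ≤ commutator P := by
    rintro _ ⟨a, rfl⟩
    rw [hφ, commutator_def]
    exact Subgroup.commutator_mem_commutator trivial trivial
  rw [le_antisymm h2 h3, ← Subgroup.index_ker, hker]
  rfl

variable {G : Type*} [Group G] [Finite G] {m n r : ℕ}

/-- the conclusion -/
structure Concl {G : Type*} [Group G] {r : ℕ} (m n : ℕ) (R : Sylow r G) : Prop where
  eq : m = r
  dvd : m ∣ n - 1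
  M : ∃ M : Subgroup G, M.Normal ∧ (∀ x, x ∈ M ↔ (C x).index = 1 ∨ (C x).index = m) ∧ M.index = m ∧
    ∀ x ∈ M, ∀ y ∈ M, x * y = y * x
  N : ∃ N : Subgroup G, N.Normal ∧ (Nat.card N).Coprime m ∧ ∃ a : ℕ, N.index = m ^ a
  com : Nat.card (commutator (R : Subgroup G)) = m

section final

variable {a : ℕ} (h : Hyp G m n) (hr : r.Prime) (hrm : r ∣ m) (hma : m = r ^ a) {R : Sylow r G} {w : G}
  (c : Z2 R w) (hi : (C w).index = m)

include h hr hma c hi in
theorem normal_C : (C w).Normal := by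
  have : Fact r.Prime := ⟨hr⟩
  apply normal_of_norm
  have h1 : (normalizer ((C w : Subgroup G) : Set G)).index ∣ r ^ a := by
    rw [← hma, ← hi]
    exact Subgroup.index_dvd_of_le Subgroup.le_normalizer
  have h2 : (normalizer ((C w : Subgroup G) : Set G)).index ∣ (R : Subgroup G).index :=
    Subgroup.index_dvd_of_le c.norm_C
  have h3 : ¬ r ∣ (normalizer ((C w : Subgroup G) : Set G)).index := fun hd => R.not_dvd_index (hd.trans h2)
  obtain ⟨k, -, hk⟩ := (Nat.dvd_prime_pow hr).1 h1
  have h4 : (normalizer ((C w : Subgroup G) : Set G)).index = 1 := by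
    rcases Nat.eq_zero_or_pos k with hk0 | hk0
    · rw [hk, hk0, pow_zero]
    · exact absurd (hk ▸ dvd_pow_self r hk0.ne') h3
  intro g
  rw [Subgroup.index_eq_one.1 h4]
  trivial

include h hr hrm hma c hi

theorem normal_K : (KK r w).Normal := by
  have h1 := normal_C h hr hma c hi
  exact normal_of_norm fun g => ((h.split hr hrm c.nc (c.el hr)).conj (by
    rw [Subgroup.normalizer_eq_top]; trivial) hr).2

theorem normal_R0 : (RR r w).Normal := by
  have h1 := normal_C h hr hma c hi
  exact normal_of_norm fun g => ((h.split hr hrm c.nc (c.el hr)).conj (by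
    rw [Subgroup.normalizer_eq_top]; trivial) hr).1

theorem index_K : ∃ j, (KK r w).index = r ^ j := by
  have hs := h.split hr hrm c.nc (c.el hr)
  have h1 := Subgroup.relIndex_mul_index hs.hK
  have h2 := Cores.card_mul_relIndex hs.hK
  rw [hs.card hr, mul_comm] at h2
  have h3 : (KK r w).relIndex (C w) = Nat.card (RR r w) := Nat.eq_of_mul_eq_mul_right Nat.card_pos h2
  rw [h3, h.card_RR hr hrm c.nc (c.el hr), hi, hma, ← pow_add] at h1
  exact ⟨_, h1.symm⟩

/-- `r'`-elements are in `K` -/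
theorem mem_K_of_coprime {v : G} (hv : (orderOf v).Coprime r) : v ∈ KK r w := by
  have hn := normal_K h hr hrm hma c hi
  obtain ⟨j, hj⟩ := index_K h hr hrm hma c hi
  have h1 : v ^ (r ^ j) ∈ KK r w := by
    rw [← hj]; exact Subgroup.pow_index_mem _ _
  have h2 : (r ^ j).Coprime (orderOf v) := (hv.symm).pow_left j
  obtain ⟨k, hk⟩ := exists_pow_eq_self_of_coprime h2
  rw [← hk]
  exact pow_mem h1 k

theorem mem_R0_of_comm {y g : G} (hy : y ∈ KK r w) (hyc : y ∉ center G) (hg : El r g) (hc : Commute y g) :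
    g ∈ RR r w := by
  have : Fact r.Prime := ⟨hr⟩
  have hs := h.split hr hrm c.nc (c.el hr)
  have hn := normal_R0 h hr hrm hma c hi
  have hT : IsPGroup r (RR r w ⊔ zpowers g : Subgroup G) :=
    LocBase.isPGroup_sup hs.pR hg.zpowers (by rw [Subgroup.normalizer_eq_top]; exact le_top)
  have hTy : RR r w ⊔ zpowers g ≤ C y :=
    sup_le (RR_le_C h hr hrm c.nc (c.el hr) hy) ((Subgroup.zpowers_le).2 (memC.2 hc.symm))
  rw [← eq_RR h hr hrm c.nc (c.el hr) hyc hT hTy le_sup_left]
  exact mem_sup_right (mem_zpowers g)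

theorem relIndex_K_cases (g : G) : (C g).relIndex (KK r w) ∣ (C g).index ∧
    ((C g).relIndex (KK r w)).Coprime r ∧ ∃ i, (C g).index = (C g).relIndex (KK r w) * r ^ i := by
  have hs := h.split hr hrm c.nc (c.el hr)
  have hn := normal_K h hr hrm hma c hi
  obtain ⟨j, hj⟩ := index_K h hr hrm hma c hi
  have h1 := ClassPow.relIndex_dvd_index (C g) (KK r w)
  have h2 : ((C g).relIndex (KK r w)).Coprime r :=
    Nat.Coprime.coprime_dvd_left (Subgroup.relIndex_dvd_card _ _) hs.cK
  refine ⟨h1, h2, ?_⟩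
  have h3 : (C g).relIndex (KK r w) = (C g).relIndex (C g ⊔ KK r w) := by
    rw [HallPi.relIndex_eq_relIndex_sup (H := C g) (N := KK r w) (by rw [Subgroup.normalizer_eq_top]; exact le_top),
      sup_comm]
  have h4 := Subgroup.relIndex_mul_index (H := C g) (K := C g ⊔ KK r w) le_sup_left
  have h5 : (C g ⊔ KK r w).index ∣ r ^ j := by
    rw [← hj]; exact Subgroup.index_dvd_of_le le_sup_right
  obtain ⟨i, -, hii⟩ := (Nat.dvd_prime_pow hr).1 h5
  exact ⟨i, by rw [← h4, hii, h3]⟩

theorem relIndex_of_mn {g : G} (hg : (C g).index = m * n) : (C g).relIndex (KK r w) = n := by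
  obtain ⟨h1, h2, i, h3⟩ := relIndex_K_cases h hr hrm hma c hi g
  rw [hg] at h1 h3
  apply Nat.dvd_antisymm
  · refine Nat.Coprime.dvd_of_dvd_mul_left ?_ h1
    rw [hma]; exact h2.pow_right a
  · have h4 : n ∣ (C g).relIndex (KK r w) * r ^ i := by rw [← h3]; exact dvd_mul_left _ _
    refine Nat.Coprime.dvd_of_dvd_mul_right ?_ h4
    have h5 := h.cop.symm
    rw [hma] at h5
    refine Nat.Coprime.pow_right i ?_
    refine (Nat.Coprime.coprime_dvd_right ?_ h5)
    refine dvd_pow_self r fun ha => ?_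
    rw [ha, pow_zero] at hma
    have := h.hm
    omega

theorem le_of_m {g : G} (hg : (C g).index = m) : KK r w ≤ C g := by
  obtain ⟨h1, h2, i, h3⟩ := relIndex_K_cases h hr hrm hma c hi g
  rw [hg, hma] at h1
  have h4 : (C g).relIndex (KK r w) = 1 := Nat.eq_one_of_dvd_coprimes (h2.pow_right a) dvd_rfl h1
  exact Subgroup.relIndex_eq_one.1 h4

theorem K_not_le : ¬ KK r w ≤ center G := by
  intro hcon
  obtain ⟨g, hg⟩ := h.ex'
  have h1 := relIndex_of_mn h hr hrm hma c hi hg
  rw [Subgroup.relIndex_eq_one.2 (hcon.trans (center_le g))] at h1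
  have := h.hn
  omega

/-- `g ∉ C(w)` centralizes no noncentral element of `K` -/
theorem central_of_comm {g y : G} (hg : g ∉ C w) (hy : y ∈ KK r w) (hc : Commute g y) : y ∈ center G := by
  by_contra hyc
  have hs := h.split hr hrm c.nc (c.el hr)
  obtain ⟨u, v, hu, hv, hguv, huv, ⟨i, hui⟩, ⟨j, hvj⟩⟩ := exists_parts' hr g
  have h1 : v ∈ C w := hs.hK (mem_K_of_coprime h hr hrm hma c hi hv)
  have h2 : Commute y u := by rw [hui]; exact hc.symm.pow_right i
  have h3 := mem_R0_of_comm h hr hrm hma c hi hy hyc hu h2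
  apply hg
  rw [hguv]
  exact mul_mem (hs.hR h3) h1

theorem index_of_not_mem {g : G} (hg : g ∉ C w) : (C g).index = m * n := by
  have hgc : g ∉ center G := fun hcon => hg (memC.2 (central_comm hcon))
  rcases h.ix g hgc with h1 | h1
  · exfalso
    have h2 := le_of_m h hr hrm hma c hi h1
    apply K_not_le h hr hrm hma c hi
    intro y hy
    exact central_of_comm h hr hrm hma c hi hg hy (memC.1 (h2 hy)).symm
  · exact h1

theorem exists_not_mem : ∃ g : G, g ∉ C w := by
  by_contra hcon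
  push Not at hcon
  have h1 : C w = ⊤ := by rw [eq_top_iff]; intro x _; exact hcon x
  exact c.nc (mem_center_of_C_eq_top h1)

theorem relIndex_center : (center G).relIndex (KK r w) = n := by
  obtain ⟨g, hg⟩ := exists_not_mem h hr hrm hma c hi
  rw [← relIndex_of_mn h hr hrm hma c hi (index_of_not_mem h hr hrm hma c hi hg)]
  rw [← Subgroup.inf_relIndex_right, ← Subgroup.inf_relIndex_right (C g)]
  congr 1
  apply le_antisymm
  · exact inf_le_inf_right _ (center_le g)
  · rintro x ⟨hx1, hx2⟩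
    exact ⟨central_of_comm h hr hrm hma c hi hg hx2 (memC.1 hx1).symm, hx2⟩

theorem K_abelian : ∀ x ∈ KK r w, ∀ y ∈ KK r w, Commute x y := by
  intro x hx y hy
  by_cases hyc : y ∈ center G
  · exact (central_comm hyc).symm
  suffices hle : KK r w ≤ C y from memC.1 (hle hx)
  rcases h.ix y hyc with h1 | h1
  · exact le_of_m h hr hrm hma c hi h1
  · exfalso
    have h2 := relIndex_of_mn h hr hrm hma c hi h1
    rw [← relIndex_center h hr hrm hma c hi] at h2
    have h3 := Cores.card_mul_relIndex (K := C y ⊓ KK r w) (L := KK r w) inf_le_right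
    have h4 := Cores.card_mul_relIndex (K := center G ⊓ KK r w) (L := KK r w) inf_le_right
    rw [Subgroup.inf_relIndex_right] at h3 h4
    rw [h2, ← h4] at h3
    have hpos : 0 < (center G).relIndex (KK r w) := by
      rw [relIndex_center h hr hrm hma c hi]
      have := h.hn
      omega
    have h5 := Nat.eq_of_mul_eq_mul_right hpos h3
    have h6 : center G ⊓ KK r w = C y ⊓ KK r w :=
      Subgroup.eq_of_le_of_card_ge (inf_le_inf_right _ (center_le y)) h5.le
    have h7 : y ∈ C y ⊓ KK r w := ⟨memC.2 (Commute.refl y), hy⟩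
    rw [← h6] at h7
    exact hyc h7.1

theorem K_le_C {g : G} (hg : g ∈ C w) : KK r w ≤ C g := by
  have hs := h.split hr hrm c.nc (c.el hr)
  obtain ⟨x, hx, y, hy, rfl⟩ := hs.exists_mul hg
  intro z hz
  rw [memC]
  exact ((commRK h hr hrm c.nc (c.el hr) hx hz).symm).mul_right (K_abelian h hr hrm hma c hi z hz y hy)

theorem mem_C_iff (g : G) : g ∈ C w ↔ (C g).index = 1 ∨ (C g).index = m := by
  constructor
  · intro hg
    by_cases hgc : g ∈ center G
    · left; exact index_eq_one_iff.2 hgc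
    · rcases h.ix g hgc with h1 | h1
      · exact Or.inr h1
      · exfalso
        have h2 := relIndex_of_mn h hr hrm hma c hi h1
        rw [Subgroup.relIndex_eq_one.2 (K_le_C h hr hrm hma c hi hg)] at h2
        have := h.hn
        omega
  · intro hg
    by_contra hcon
    have h1 := index_of_not_mem h hr hrm hma c hi hcon
    have hm := h.hm
    have hn := h.hn
    have h2 : m * 1 < m * n := Nat.mul_lt_mul_of_pos_left hn (by omega)
    rcases hg with h3 | h3 <;> omega

theorem R0_abelian : ∀ x ∈ RR r w, ∀ y ∈ RR r w, Commute x y := by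
  intro x hx y hy
  have hs := h.split hr hrm c.nc (c.el hr)
  by_cases hyc : y ∈ center G
  · exact (central_comm hyc).symm
  have hyel := ((mem_RR h hr hrm c.nc (c.el hr)).1 hy).2
  have hyw := ((mem_RR h hr hrm c.nc (c.el hr)).1 hy).1
  have hs' := h.split hr hrm hyc hyel
  have hK := KK_eq h hr hrm hyc hyel c.nc (c.el hr) hyw
  have hle : RR r y ≤ RR r w := by
    intro z hz
    have hzel := ((mem_RR h hr hrm hyc hyel).1 hz).2
    have hzC : z ∈ C w := by
      by_contra hcon
      apply K_not_le h hr hrm hma c hi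
      intro k hk
      refine central_of_comm h hr hrm hma c hi hcon hk ?_
      rw [← hK] at hk
      exact commRK h hr hrm hyc hyel hz hk
    exact (hs.mem_R hr).2 ⟨hzC, hzel⟩
  have heq : RR r y = RR r w := by
    refine Subgroup.eq_of_le_of_card_ge hle ?_
    rw [h.card_RR hr hrm c.nc (c.el hr), h.card_RR hr hrm hyc hyel]
  rw [← heq] at hx
  exact ((mem_RR h hr hrm hyc hyel).1 hx).1

theorem C_abelian : ∀ x ∈ C w, ∀ y ∈ C w, x * y = y * x := by
  intro x hx y hy
  have hs := h.split hr hrm c.nc (c.el hr)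
  obtain ⟨a1, ha1, b1, hb1, rfl⟩ := hs.exists_mul hx
  have h1 : Commute b1 y := memC.1 (K_le_C h hr hrm hma c hi hy hb1)
  have h2 : Commute a1 y := by
    obtain ⟨a2, ha2, b2, hb2, rfl⟩ := hs.exists_mul hy
    exact (R0_abelian h hr hrm hma c hi a1 ha1 a2 ha2).mul_right (commRK h hr hrm c.nc (c.el hr) ha1 hb2)
  exact h2.mul_left h1

theorem m_eq : m = r := by
  have h1 := fact_one h hr hrm c (K_abelian h hr hrm hma c hi) (K_not_le h hr hrm hma c hi)
  rw [hma, hr.factorization_pow, Finsupp.single_eq_same] at h1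
  rw [hma, h1, pow_one]

theorem R0_relIndex : (RR r w).relIndex (R : Subgroup G) = r :=
  relIndex_eq_prime h hr hrm c (K_abelian h hr hrm hma c hi) (K_not_le h hr hrm hma c hi)

theorem exists_u : ∃ u ∈ (R : Subgroup G), u ∉ RR r w := by
  by_contra hcon
  push Not at hcon
  have h1 := Subgroup.relIndex_eq_one.2 (show (R : Subgroup G) ≤ RR r w from hcon)
  rw [R0_relIndex h hr hrm hma c hi] at h1
  exact hr.one_lt.ne' h1

theorem dvd_n : r ∣ n - 1 := by
  obtain ⟨u, hu, huR⟩ := exists_u h hr hrm hma c hi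
  have h1 := relIndex_modEq h hr hrm c hu huR
  rw [relIndex_center h hr hrm hma c hi] at h1
  exact (Nat.modEq_iff_dvd' h.hn.le).1 h1.symm

theorem card_comm : Nat.card (commutator (R : Subgroup G)) = r := by
  have : Fact r.Prime := ⟨hr⟩
  have hs := h.split hr hrm c.nc (c.el hr)
  have hnR := normal_R0 h hr hrm hma c hi
  have hRc := c.RR_le h hr hrm
  obtain ⟨u0, hu0, hu0R⟩ := exists_u h hr hrm hma c hi
  have hu0c : u0 ∉ center G := by
    intro hcon
    exact hu0R ((c.mem_iff h hr hrm hu0).2 (central_comm hcon))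
  obtain ⟨S, hS, hSp, hSc⟩ := h.exists_syl hr hrm hu0c
  have hu0S : u0 ∈ S := by
    have hzp : IsPGroup r (S ⊔ zpowers u0 : Subgroup G) := by
      refine LocBase.isPGroup_sup hSp (El.of_mem hr R.2 hu0).zpowers ?_
      rw [Subgroup.zpowers_le]
      apply LocBase.mem_normalizer_of_map_conj_le
      rintro _ ⟨s, hs', rfl⟩
      have h1 : u0 * s = s * u0 := (memC.1 (hS hs')).symm
      show u0 * s * u0⁻¹ ∈ S
      rw [h1, mul_inv_cancel_right]
      exact hs'
    have hle : S ⊔ zpowers u0 ≤ C u0 := sup_le hS (Subgroup.zpowers_le.2 (memC.2 (Commute.refl _)))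
    rw [← h.eq_of_le hr hrm hu0c hSc le_sup_left hle hzp]
    exact mem_sup_right (mem_zpowers u0)
  obtain ⟨T, hT⟩ := hSp.exists_le_sylow
  obtain ⟨g, hg⟩ := MulAction.exists_smul_eq G T R
  have hmem : ∀ x ∈ S, g * x * g⁻¹ ∈ (R : Subgroup G) := by
    intro x hx
    rw [← hg, Sylow.coe_subgroup_smul]
    exact Subgroup.smul_mem_pointwise_smul _ _ _ (hT hx)
  set u := g * u0 * g⁻¹ with hu
  have huR : u ∈ (R : Subgroup G) := hmem u0 hu0S
  have hur : u ∉ RR r w := by
    intro hcon
    apply hu0R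
    have h1 := hnR.conj_mem _ hcon g⁻¹
    have h2 : g⁻¹ * u * g⁻¹⁻¹ = u0 := by rw [hu]; group
    rwa [h2] at h1
  have huc : u ∉ center G := by
    intro hcon
    exact hur ((c.mem_iff h hr hrm huR).2 (central_comm hcon))
  -- the centralizer of `u` in `R` has order `r ^ c`
  set T1 : Subgroup G := (R : Subgroup G) ⊓ C u with hT1
  have hT1c : Nat.card T1 = r ^ cc G m r := by
    apply le_antisymm
    · exact h.card_le hr hrm huc inf_le_right (R.2.to_le inf_le_left)
    · have h1 : S.map (MulAut.conj g).toMonoidHom ≤ T1 := by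
        rintro _ ⟨x, hx, rfl⟩
        refine ⟨hmem x hx, memC.2 ?_⟩
        exact (memC.1 (hS hx)).map (MulAut.conj g)
      have h2 := Nat.le_of_dvd Nat.card_pos (Subgroup.card_dvd_of_le h1)
      rw [Subgroup.card_map_of_injective (MulAut.conj g).injective, hSc] at h2
      exact h2
  -- work in `R`
  set A : Subgroup (R : Subgroup G) := (RR r w).subgroupOf (R : Subgroup G) with hA
  have hAn : A.Normal := by
    rw [hA]; exact Subgroup.normal_subgroupOf
  have hAidx : A.index = r := R0_relIndex h hr hrm hma c hi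
  have huA : (⟨u, huR⟩ : (R : Subgroup G)) ∉ A := fun hcon => hur (Subgroup.mem_subgroupOf.1 hcon)
  have hmax : ∀ B : Subgroup (R : Subgroup G), A ≤ B → (⟨u, huR⟩ : (R : Subgroup G)) ∈ B → B = ⊤ := by
    intro B hAB huB
    have h1 := Subgroup.index_dvd_of_le hAB
    rw [hAidx] at h1
    rcases (Nat.dvd_prime hr).1 h1 with h2 | h2
    · exact Subgroup.index_eq_one.1 h2
    · exfalso
      have h3 := Subgroup.relIndex_mul_index hAB
      rw [hAidx, h2] at h3
      have h4 : A.relIndex B = 1 := Nat.eq_of_mul_eq_mul_right hr.pos (by rw [h3, one_mul])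
      exact huA (Subgroup.relIndex_eq_one.1 h4 huB)
  have hcard := card_commutator (P := (R : Subgroup G)) (A := A) (u := ⟨u, huR⟩) hAn (by
    intro x hx y hy
    exact Subtype.ext (R0_abelian h hr hrm hma c hi _ (Subgroup.mem_subgroupOf.1 hx) _ (Subgroup.mem_subgroupOf.1 hy)))
    (hmax _ le_sup_left (mem_sup_right (mem_zpowers _)))
  rw [hcard]
  have hCu : C (⟨u, huR⟩ : (R : Subgroup G)) = (C u).subgroupOf (R : Subgroup G) := by
    ext x
    rw [Subgroup.mem_subgroupOf, memC, memC]
    constructor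
    · intro h1; exact h1.map (R : Subgroup G).subtype
    · intro h1; exact Subtype.ext h1
  have hCidx : (C (⟨u, huR⟩ : (R : Subgroup G))).index = r := by
    have h1 : (C (⟨u, huR⟩ : (R : Subgroup G))).index = T1.relIndex (R : Subgroup G) := by
      rw [hCu, hT1, inf_comm, Subgroup.inf_relIndex_right]; rfl
    rw [h1]
    have h2 := Cores.card_mul_relIndex (K := T1) (L := (R : Subgroup G)) inf_le_left
    have h3 := Cores.card_mul_relIndex hRc
    rw [R0_relIndex h hr hrm hma c hi, h.card_RR hr hrm c.nc (c.el hr)] at h3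
    rw [← h3, hT1c] at h2
    exact Nat.eq_of_mul_eq_mul_left (pow_pos hr.pos _) h2
  have hsup : C (⟨u, huR⟩ : (R : Subgroup G)) ⊔ A = ⊤ :=
    hmax _ le_sup_right (mem_sup_left (memC.2 (Commute.refl _)))
  have h5 : (C (⟨u, huR⟩ : (R : Subgroup G))).relIndex A =
      (C (⟨u, huR⟩ : (R : Subgroup G))).relIndex (C (⟨u, huR⟩ : (R : Subgroup G)) ⊔ A) := by
    rw [HallPi.relIndex_eq_relIndex_sup (by rw [Subgroup.normalizer_eq_top]; exact le_top), sup_comm]
  rw [h5, hsup, Subgroup.relIndex_top_right, hCidx]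

theorem concl : Concl m n R := by
  have hmr := m_eq h hr hrm hma c hi
  have hs := h.split hr hrm c.nc (c.el hr)
  refine ⟨hmr, ?_, ⟨C w, normal_C h hr hma c hi, mem_C_iff h hr hrm hma c hi, hi, C_abelian h hr hrm hma c hi⟩,
    ⟨KK r w, normal_K h hr hrm hma c hi, ?_, ?_⟩, ?_⟩
  · rw [hmr]; exact dvd_n h hr hrm hma c hi
  · rw [hmr]; exact hs.cK
  · rw [hmr]; exact index_K h hr hrm hma c hi
  · rw [card_comm h hr hrm hma c hi, ← hmr]

end final

end Cfsg.Agent.Lib.H64CSg
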