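import Mathlib
import Cfsg.Agent.Lib.H64CSg

/-!
(helper64) Class sizes `{1, m, m n}` with `m` a power of the prime `r`: end of the proof.
-/

set_option autoImplicit false
set_option linter.unusedSectionVars false

namespace Cfsg.Agent.Lib.H64CSh

open Subgroup Cfsg.Agent.Lib Cfsg.Agent.Lib.H64CSa Cfsg.Agent.Lib.H64CSb Cfsg.Agent.Lib.H64CSe Cfsg.Agent.Lib.H64CSf
open Cfsg.Agent.Lib.H64CSg

variable {G : Type*} [Group G] [Finite G] {m n r a : ℕ}

theorem normal_of_index_eq_prime {X : Type*} [Group X] [Finite X] {p : ℕ} [hp : Fact p.Prime] (hR : IsPGroup p X)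
    {A : Subgroup X} (hC : A.index = p) : A.Normal := by
  apply Subgroup.normal_of_index_eq_minFac_card
  rw [hC]
  obtain ⟨n, hn⟩ := IsPGroup.iff_card.mp hR
  have hn0 : n ≠ 0 := by
    rintro rfl
    have h1 : A.index ∣ Nat.card X := A.index_dvd_card
    rw [hC, hn, pow_zero, Nat.dvd_one] at h1
    exact hp.out.one_lt.ne' h1
  rw [hn, hp.out.pow_minFac hn0]

theorem nc_of_index (h : Hyp G m n) {x : G} (hi : (C x).index = m) : x ∉ center G := by
  intro hcon
  rw [index_eq_one_iff.2 hcon] at hi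
  have := h.hm
  omega

/-- first case: a noncentral `r`-element with class size `m` -/
theorem caseI (h : Hyp G m n) (hr : r.Prime) (hrm : r ∣ m) (hma : m = r ^ a) (R : Sylow r G) {x : G} (hx : El r x)
    (hi : (C x).index = m) : Concl m n R := by
  have : Fact r.Prime := ⟨hr⟩
  -- move `x` into `R`
  obtain ⟨T, hT⟩ := hx.zpowers.exists_le_sylow
  obtain ⟨g, hg⟩ := MulAction.exists_smul_eq G T R
  have hxR : g * x * g⁻¹ ∈ (R : Subgroup G) := by
    rw [← hg, Sylow.coe_subgroup_smul]
    exact Subgroup.smul_mem_pointwise_smul _ _ _ (hT (mem_zpowers x))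
  have hi' : (C (g * x * g⁻¹)).index = m := by
    rw [← hi]; exact ClassPow.index_centralizer_conj x g
  generalize g * x * g⁻¹ = x' at hxR hi'
  clear hi hx hT hg
  have hx' : El r x' := El.of_mem hr R.2 hxR
  have hxc := nc_of_index h hi'
  have hs := h.split hr hrm hxc hx'
  -- all conjugates of `x'` are in `R`
  have hconj : ∀ g : G, g * x' * g⁻¹ ∈ (R : Subgroup G) := by
    intro g
    obtain ⟨p, hp, k, hk, rfl⟩ := CoprimeAction2.exists_mul_of_coprime_relIndex (P := (R : Subgroup G)) (H := C x')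
      (K := ⊤) le_top le_top (by
        rw [Subgroup.relIndex_top_right, Subgroup.relIndex_top_right, hi', hma]
        exact ((Nat.Prime.coprime_iff_not_dvd hr).2 R.not_dvd_index).symm.pow_right a) (k := g) trivial
    have h1 : k * x' * k⁻¹ = x' := by rw [(memC.1 hk).eq, mul_inv_cancel_right]
    have h2 : p * k * x' * (p * k)⁻¹ = p * (k * x' * k⁻¹) * p⁻¹ := by group
    rw [h2, h1]
    exact mul_mem (mul_mem hp hxR) (inv_mem hp)
  set D : Subgroup G := Subgroup.normalClosure {x'} with hD
  have hDR : D ≤ (R : Subgroup G) := by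
    rw [hD, Subgroup.normalClosure, Subgroup.closure_le]
    intro y hy
    rw [Group.mem_conjugatesOfSet_iff] at hy
    obtain ⟨z, hz, hzy⟩ := hy
    rw [Set.mem_singleton_iff] at hz
    rw [hz, isConj_iff] at hzy
    obtain ⟨c, hc⟩ := hzy
    rw [← hc]
    exact hconj c
  have hDn : D.Normal := Subgroup.normalClosure_normal
  have hxD : x' ∈ D := Subgroup.subset_normalClosure rfl
  have hDp : IsPGroup r D := R.2.to_le hDR
  have hcen : ∀ y ∈ KK r x', D ≤ C y := by
    intro y hy
    have h1 := (mem_KK h hr hrm hxc hx').1 hy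
    exact lemL h hr hrm hDp h1.2 (by rw [Subgroup.normalizer_eq_top]; trivial) hxD hxc h1.1.symm
  obtain ⟨w, hwD, hw⟩ := exists_Z2 h hr hrm R hDR (by rw [Subgroup.normalizer_eq_top]; exact le_top)
    (fun hcon => hxc (hcon hxD))
  refine concl h hr hrm hma hw ?_
  rcases h.ix w hw.nc with h1 | h1
  · exact h1
  · exfalso
    have hle : KK r x' ≤ C w := fun y hy => memC'.1 (hcen y hy hwD)
    have h2 := Subgroup.index_dvd_of_le hle
    have h3 := Subgroup.relIndex_mul_index hs.hK
    have h4 := Cores.card_mul_relIndex hs.hK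
    rw [hs.card hr, mul_comm] at h4
    have h5 : (KK r x').relIndex (C x') = Nat.card (RR r x') := Nat.eq_of_mul_eq_mul_right Nat.card_pos h4
    rw [h5, h.card_RR hr hrm hxc hx', hi', hma, ← pow_add] at h3
    rw [h1, ← h3] at h2
    have h6 : n ∣ r ^ (cc G (r ^ a) r + a) := (dvd_mul_left n m).trans h2
    have h7 : ¬ r ∣ n := h.not_dvd hr hrm
    have h8 : n.Coprime (r ^ (cc G (r ^ a) r + a)) := (((Nat.Prime.coprime_iff_not_dvd hr).2 h7).symm).pow_right _
    have h9 := Nat.eq_one_of_dvd_coprimes h8 dvd_rfl h6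
    have := h.hn
    omega

/-- a power of prime power order which is noncentral -/
theorem exists_prime_part (k : ℕ) : ∀ g : G, orderOf g = k → g ∉ center G →
    ∃ p : ℕ, p.Prime ∧ ∃ i, El p (g ^ i) ∧ g ^ i ∉ center G := by
  induction k using Nat.strong_induction_on with
  | _ k ih =>
  intro g hgk hg
  have hg1 : orderOf g ≠ 1 := by
    intro h1
    rw [orderOf_eq_one_iff] at h1
    rw [h1] at hg
    exact hg (one_mem _)
  obtain ⟨p, hp, hpd⟩ := Nat.exists_prime_and_dvd hg1
  obtain ⟨u, v, hu, hv, hguv, huv, ⟨i, hui⟩, ⟨j, hvj⟩⟩ := exists_parts' hp g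
  by_cases huc : u ∈ center G
  · have hvc : v ∉ center G := by
      intro hvc
      apply hg
      rw [hguv]
      exact mul_mem huc hvc
    have hlt : orderOf v < k := by
      have h1 : orderOf v ∣ orderOf g := by rw [hvj]; exact orderOf_pow_dvd j
      refine lt_of_le_of_ne (by rw [← hgk]; exact Nat.le_of_dvd (orderOf_pos g) h1) fun heq => ?_
      rw [heq, ← hgk] at hv
      have h2 := Nat.dvd_gcd hpd dvd_rfl
      rw [hv] at h2
      exact hp.one_lt.ne' (Nat.dvd_one.1 h2)
    obtain ⟨q, hq, l, h1, h2⟩ := ih _ hlt v rfl hvc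
    refine ⟨q, hq, j * l, ?_, ?_⟩
    · rw [pow_mul, ← hvj]; exact h1
    · rw [pow_mul, ← hvj]; exact h2
  · exact ⟨p, hp, i, by rw [← hui]; exact hu, by rw [← hui]; exact huc⟩

section caseA

variable (h : Hyp G m n) (hr : r.Prime) (hrm : r ∣ m)
  (hA : ∀ w : G, w ∉ center G → El r w → (C w).index = m * n)

include h hr hrm hA

theorem index_ne {w : G} (hw : w ∉ center G) (hwr : El r w) : (C w).index ≠ m := by
  intro hcon
  have h1 := hA w hw hwr
  rw [hcon] at h1
  have hm := h.hm
  have hn := h.hn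
  have h2 : m * 1 < m * n := Nat.mul_lt_mul_of_pos_left hn (by omega)
  omega

theorem KK_c {w y : G} (hw : w ∉ center G) (hwr : El r w) (hy : y ∈ KK r w) : C w ≤ C y :=
  KK_central h hr hrm hw hwr (index_ne h hr hrm hA hw hwr) hy

theorem KK_ab {w : G} (hw : w ∉ center G) (hwr : El r w) : ∀ x ∈ KK r w, ∀ y ∈ KK r w, Commute x y := by
  intro x hx y hy
  have hs := h.split hr hrm hw hwr
  exact memC.1 (KK_c h hr hrm hA hw hwr hy (hs.hK hx))

theorem card_KK {w v : G} (hw : w ∉ center G) (hwr : El r w) (hv : v ∉ center G) (hvr : El r v) :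
    Nat.card (KK r w) = Nat.card (KK r v) := by
  have h1 := Subgroup.card_mul_index (C w)
  have h2 := Subgroup.card_mul_index (C v)
  rw [hA w hw hwr, (h.split hr hrm hw hwr).card hr, h.card_RR hr hrm hw hwr] at h1
  rw [hA v hv hvr, (h.split hr hrm hv hvr).card hr, h.card_RR hr hrm hv hvr, ← h1] at h2
  have hm := h.hm
  have hn := h.hn
  have hpos : 0 < m * n := Nat.mul_pos (by omega) (by omega)
  have h3 := Nat.eq_of_mul_eq_mul_right hpos h2
  exact (Nat.eq_of_mul_eq_mul_left (pow_pos hr.pos _) h3).symm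

theorem KK_not_le {x : G} (hxc : x ∉ center G) (hxr : (orderOf x).Coprime r) {w : G} (hw : w ∉ center G)
    (hwr : El r w) : ¬ KK r w ≤ center G := by
  intro hcon
  obtain ⟨v, hv, hvr, hvx⟩ := h.exists_r hr hrm hxc
  have hxK : x ∈ KK r v := (mem_KK h hr hrm hv hvr).2 ⟨hvx.symm, hxr⟩
  have hle : KK r w ≤ KK r v := by
    intro y hy
    exact (mem_KK h hr hrm hv hvr).2 ⟨central_comm (hcon hy), ((mem_KK h hr hrm hw hwr).1 hy).2⟩
  have heq := Subgroup.eq_of_le_of_card_ge hle (card_KK h hr hrm hA hw hwr hv hvr).ge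
  rw [← heq] at hxK
  exact hxc (hcon hxK)

/-- (A3), first part -/
theorem mem_C_of_coprime {x : G} (hxr : (orderOf x).Coprime r) (hi : (C x).index = r)
    {v : G} (hv : (orderOf v).Coprime r) : v ∈ C x := by
  by_cases hvc : v ∈ center G
  · exact memC.2 (central_comm hvc)
  obtain ⟨w, hw, hwr, hwv⟩ := h.exists_r hr hrm hvc
  have hs := h.split hr hrm hw hwr
  have hvK : v ∈ KK r w := (mem_KK h hr hrm hw hwr).2 ⟨hwv.symm, hv⟩
  by_cases hwx : w ∈ C x
  · have hxK : x ∈ KK r w := (mem_KK h hr hrm hw hwr).2 ⟨(memC.1 hwx).symm, hxr⟩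
    exact memC.2 (KK_ab h hr hrm hA hw hwr v hvK x hxK)
  · -- `w` is an `r`-cycle on `G / X`
    have hpow : ∀ d : ℕ, w ^ d ∈ C x → r ∣ d := by
      intro d hd
      by_contra hcon
      apply hwx
      have h1 : d.Coprime (orderOf w) := by
        obtain ⟨k, hk⟩ := hwr
        rw [hk]
        exact (((Nat.Prime.coprime_iff_not_dvd hr).2 hcon).symm).pow_right k
      obtain ⟨e, he⟩ := exists_pow_eq_self_of_coprime h1
      rw [← he]
      exact pow_mem hd e
    have hinj : Function.Injective (fun i : Fin r => ((w ^ (i : ℕ) : G) : G ⧸ C x)) := by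
      have aux : ∀ i j : Fin r, (i : ℕ) ≤ j → ((w ^ (i : ℕ) : G) : G ⧸ C x) = ((w ^ (j : ℕ) : G) : G ⧸ C x) → i = j := by
        intro i j hij heq
        rw [QuotientGroup.eq] at heq
        have h1 : (w ^ (i : ℕ))⁻¹ * w ^ (j : ℕ) = w ^ ((j : ℕ) - i) := by
          rw [inv_mul_eq_iff_eq_mul, ← pow_add]
          congr 1
          omega
        rw [h1] at heq
        have h2 := hpow _ heq
        have h3 : (j : ℕ) - i < r := lt_of_le_of_lt (Nat.sub_le _ _) j.2
        have h4 := Nat.eq_zero_of_dvd_of_lt h2 h3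
        apply Fin.ext
        omega
      intro i j heq
      rcases le_total (i : ℕ) (j : ℕ) with hij | hij
      · exact aux i j hij heq
      · exact (aux j i hij heq.symm).symm
    have hsurj : Function.Surjective (fun i : Fin r => ((w ^ (i : ℕ) : G) : G ⧸ C x)) := by
      have hcard : Nat.card (G ⧸ C x) = Nat.card (Fin r) := by
        rw [Nat.card_eq_fintype_card (α := Fin r), Fintype.card_fin]
        exact hi
      exact (Function.Injective.bijective_of_nat_card_le hinj hcard.le).2
    have hwrr : w ^ r ∈ C x := by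
      obtain ⟨i, hii⟩ := hsurj ((w ^ r : G) : G ⧸ C x)
      have h1 : (w ^ (i : ℕ))⁻¹ * w ^ r ∈ C x := QuotientGroup.eq.1 hii
      have h2 : (w ^ (i : ℕ))⁻¹ * w ^ r = w ^ (r - i) := by
        rw [inv_mul_eq_iff_eq_mul, ← pow_add]
        congr 1
        have := i.2
        omega
      rw [h2] at h1
      have h3 := hpow _ h1
      have h4 : (i : ℕ) = 0 := by
        by_contra hcon
        have h5 := Nat.le_of_dvd (by have := i.2; omega) h3
        omega
      rw [h4, Nat.sub_zero] at h1
      exact h1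
    obtain ⟨i, hii⟩ := hsurj ((v : G) : G ⧸ C x)
    have hk : (w ^ (i : ℕ))⁻¹ * v ∈ C x := QuotientGroup.eq.1 hii
    have hvr : v ^ r ∈ C x := by
      have h1 : Commute (w ^ (i : ℕ)) ((w ^ (i : ℕ))⁻¹ * v) := by
        have h2 : Commute (w ^ (i : ℕ)) v := hwv.pow_left _
        exact ((Commute.refl (w ^ (i : ℕ))).inv_right).mul_right h2
      have h3 : v = w ^ (i : ℕ) * ((w ^ (i : ℕ))⁻¹ * v) := by group
      rw [h3, h1.mul_pow]
      refine mul_mem ?_ (pow_mem hk r)
      rw [← pow_mul, mul_comm, pow_mul]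
      exact pow_mem hwrr _
    obtain ⟨e, he⟩ := exists_pow_eq_self_of_coprime (x := v) (n := r) hv.symm
    rw [← he]
    exact pow_mem hvr e

/-- (A3), second part -/
theorem normal_C_of {x : G} (hxr : (orderOf x).Coprime r) (hi : (C x).index = r) :
    (C x).Normal := by
  have : Fact r.Prime := ⟨hr⟩
  set O : Subgroup G := LocBase.pRes r (⊤ : Subgroup G) with hO
  have hOn : O.Normal := LocBase.pRes_top_normal r
  have hOX : O ≤ C x := by
    rw [hO, LocBase.pRes_le_iff]
    intro v _ hv
    exact mem_C_of_coprime h hr hrm hA hxr hi hv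
  have hQ : IsPGroup r (G ⧸ O) := by
    intro q
    obtain ⟨g, rfl⟩ := QuotientGroup.mk'_surjective _ q
    obtain ⟨u, v, hu, hv, hguv, huv, -, -⟩ := exists_parts' hr g
    obtain ⟨k, hk⟩ := hu.pow_eq
    refine ⟨k, ?_⟩
    have h1 : QuotientGroup.mk' O v = 1 := (QuotientGroup.eq_one_iff _).2 (LocBase.mem_pRes trivial hv)
    rw [hguv, map_mul, h1, mul_one, ← map_pow, hk, map_one]
  have hidx : ((C x).map (QuotientGroup.mk' O)).index = r := by
    rw [Subgroup.index_map_eq _ (QuotientGroup.mk'_surjective _) (by rw [QuotientGroup.ker_mk']; exact hOX), hi]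
  have hn := normal_of_index_eq_prime hQ hidx
  have hcomap : ((C x).map (QuotientGroup.mk' O)).comap (QuotientGroup.mk' O) = C x := by
    rw [Subgroup.comap_map_eq, QuotientGroup.ker_mk', sup_eq_left.2 hOX]
  rw [← hcomap]
  exact hn.comap _

/-- the case (A) is impossible -/
theorem caseA (hma : m = r ^ a) : False := by
  have : Fact r.Prime := ⟨hr⟩
  obtain ⟨R⟩ : Nonempty (Sylow r G) := inferInstance
  have hm1 := h.hm
  have hn1 := h.hn
  -- an element `x` of prime power order with class size `m`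
  obtain ⟨g, hg⟩ := h.ex
  obtain ⟨p, hp, i, hxp, hxc⟩ := exists_prime_part (orderOf g) g rfl (nc_of_index h hg)
  have hxi : (C (g ^ i)).index = m := by
    have hle : C g ≤ C (g ^ i) := fun y hy => memC.2 ((memC.1 hy).pow_right i)
    rcases h.index_dvd (nc_of_index h hg) hxc hle with h1 | ⟨h1, h2⟩
    · rw [← h1, hg]
    · exact h1
  generalize g ^ i = x at hxp hxc hxi
  have hpr : p ≠ r := by
    rintro rfl
    exact index_ne h hr hrm hA hxc hxp hxi
  have hxr : (orderOf x).Coprime r := by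
    obtain ⟨k, hk⟩ := hxp
    rw [hk]
    exact Nat.Coprime.pow_left k ((Nat.coprime_primes hp hr).2 hpr)
  -- `m = r`
  have hRc : ¬ (R : Subgroup G) ≤ center G := h.sylow_not_le hr hrm R
  obtain ⟨w0, hw0R, hw0⟩ := exists_Z2 h hr hrm R le_rfl Subgroup.le_normalizer hRc
  have hmr : m = r := by
    have h1 := fact_one h hr hrm hw0 (KK_ab h hr hrm hA hw0.nc (hw0.el hr))
      (KK_not_le h hr hrm hA hxc hxr hw0.nc (hw0.el hr))
    rw [hma, hr.factorization_pow, Finsupp.single_eq_same] at h1
    rw [hma, h1, pow_one]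
  have hnr : n.Coprime r := by rw [← hmr]; exact h.cop.symm
  have hXn : (C x).Normal := normal_C_of h hr hrm hA hxr (by rw [hxi, hmr])
  have hXr : ∀ v : G, (orderOf v).Coprime r → v ∈ C x := fun v hv =>
    mem_C_of_coprime h hr hrm hA hxr (by rw [hxi, hmr]) hv
  -- `w2 ∈ R ∖ X`
  obtain ⟨w2, hw2R, hw2X⟩ : ∃ w ∈ (R : Subgroup G), w ∉ C x := by
    by_contra hcon
    push Not at hcon
    have h1 := Subgroup.index_dvd_of_le (show (R : Subgroup G) ≤ C x from hcon)
    rw [hxi, hmr] at h1
    exact R.not_dvd_index h1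
  have hw2c : w2 ∉ center G := fun hcon => hw2X (memC.2 (central_comm hcon))
  have hw2r : El r w2 := El.of_mem hr R.2 hw2R
  obtain ⟨y', hy'K, hy'c⟩ := SetLike.not_le_iff_exists.1 (KK_not_le h hr hrm hA hxc hxr hw2c hw2r)
  obtain ⟨q, hq, j, hyq, hyc⟩ := exists_prime_part (orderOf y') y' rfl hy'c
  have hyK : y' ^ j ∈ KK r w2 := pow_mem hy'K j
  generalize y' ^ j = y at hyq hyc hyK
  have hyr : (orderOf y).Coprime r := ((mem_KK h hr hrm hw2c hw2r).1 hyK).2
  have hyX : y ∈ C x := hXr y hyr
  have hxy : Commute x y := (memC.1 hyX).symm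
  rcases h.ix y hyc with hyi | hyi
  · -- `C(y)` has index `r`
    have hYn : (C y).Normal := normal_C_of h hr hrm hA hyr (by rw [hyi, hmr])
    have hYr : ∀ v : G, (orderOf v).Coprime r → v ∈ C y := fun v hv =>
      mem_C_of_coprime h hr hrm hA hyr (by rw [hyi, hmr]) hv
    have hw2Y : w2 ∈ C y := memC.2 ((mem_KK h hr hrm hw2c hw2r).1 hyK).1.symm
    have hinf : C x ⊓ C y ≤ C (x * y) := by
      rintro t ⟨ht1, ht2⟩
      exact memC.2 ((memC.1 ht1).mul_right (memC.1 ht2))
    have hne : C (x * y) ≠ C x ⊓ C y := by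
      intro heq
      have h1 : (C x ⊓ C y).index = (C x).relIndex (C y) * m := by
        rw [← Subgroup.relIndex_mul_index (H := C x ⊓ C y) (K := C y) inf_le_right, Subgroup.inf_relIndex_right, hyi]
      have h2 : (C x).relIndex (C y) ∣ r := by
        rw [← hmr, ← hxi]; exact Subgroup.relIndex_dvd_index_of_normal _ _
      have h3 : (C (x * y)).index = (C x).relIndex (C y) * m := by rw [heq, h1]
      have h4 : (C x).relIndex (C y) ≠ 1 := by
        intro h5
        have h6 := Subgroup.relIndex_eq_one.1 h5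
        exact hw2X (h6 hw2Y)
      have h5 : (C x).relIndex (C y) = r := ((Nat.dvd_prime hr).1 h2).resolve_left h4
      rw [h5] at h3
      have hr1 := hr.one_lt
      by_cases hxyc : x * y ∈ center G
      · rw [index_eq_one_iff.2 hxyc] at h3
        have h6 : r * m ≠ 1 := by
          intro h7
          have := Nat.eq_one_of_mul_eq_one_right h7
          omega
        exact h6 h3.symm
      · rcases h.ix _ hxyc with h6 | h6
        · rw [h6] at h3
          have h7 : 1 * m = r * m := by rw [one_mul]; exact h3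
          have h8 := Nat.eq_of_mul_eq_mul_right (by omega) h7
          omega
        · rw [h6, mul_comm] at h3
          have h8 := Nat.eq_of_mul_eq_mul_right (show 0 < m by omega) h3
          rw [h8] at hnr
          rw [Nat.coprime_self] at hnr
          omega
    obtain ⟨t, htg, htn⟩ := SetLike.exists_of_lt (lt_of_le_of_ne hinf hne.symm)
    obtain ⟨w3, v, hw3, hv, htuv, huv, ⟨i1, hui⟩, -⟩ := exists_parts' hr t
    have hw3n : w3 ∉ C x ⊓ C y := by
      intro hcon
      apply htn
      rw [htuv]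
      exact mul_mem hcon ⟨hXr v hv, hYr v hv⟩
    have hw3g : w3 ∈ C (x * y) := by rw [hui]; exact pow_mem htg i1
    have hw3c : Commute w3 (x * y) := memC.1 hw3g
    have hw3X : w3 ∉ C x := by
      intro hcon
      apply hw3n
      refine ⟨hcon, memC.2 ?_⟩
      have h1 := ((memC.1 hcon).inv_right).mul_right hw3c
      rwa [inv_mul_cancel_left] at h1
    -- the element `δ`
    set δ : G := w3 * x * w3⁻¹ * x⁻¹ with hδ
    have hyw : w3 * y * w3⁻¹ ∈ C x := hXn.conj_mem _ hyX w3
    have hδ2 : δ = y * (w3 * y * w3⁻¹)⁻¹ := by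
      have h1 : (w3 * x * w3⁻¹) * (w3 * y * w3⁻¹) = x * y := by
        have h2 : (w3 * x * w3⁻¹) * (w3 * y * w3⁻¹) = w3 * (x * y) * w3⁻¹ := by group
        rw [h2, hw3c.eq, mul_inv_cancel_right]
      have h3 : w3 * x * w3⁻¹ = x * y * (w3 * y * w3⁻¹)⁻¹ := by rw [← h1]; group
      have h4 : Commute x (y * (w3 * y * w3⁻¹)⁻¹) :=
        hxy.mul_right ((memC.1 hyw).symm.inv_right)
      rw [hδ, h3, mul_assoc x y, h4.eq, mul_inv_cancel_right]
    have conj_comm : ∀ z : G, (C z).Normal → ∀ t ∈ C z, Commute (w3 * z * w3⁻¹) t := by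
      intro z hz t ht
      have h1 : w3⁻¹ * t * w3⁻¹⁻¹ ∈ C z := hz.conj_mem _ ht w3⁻¹
      have h2 := (memC.1 h1).symm.map (MulAut.conj w3)
      have h3 : MulAut.conj w3 (w3⁻¹ * t * w3⁻¹⁻¹) = t := by rw [MulAut.conj_apply]; group
      rw [h3] at h2
      exact h2
    have hδX : C x ≤ C δ := by
      intro t ht
      rw [memC, hδ]
      exact ((conj_comm x hXn t ht).symm).mul_right (memC.1 ht).inv_right
    have hδY : C y ≤ C δ := by
      intro t ht
      rw [memC, hδ2]
      exact (memC.1 ht).mul_right ((conj_comm y hYn t ht).symm).inv_right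
    have hδc : δ ∈ center G := by
      by_contra hcon
      rcases h.index_dvd hxc hcon hδX with h1 | ⟨h1, h2⟩
      · have h2 : C x = C δ := by
          refine Subgroup.eq_of_le_of_card_ge hδX ?_
          have h3 := Subgroup.card_mul_index (C x)
          have h4 := Subgroup.card_mul_index (C δ)
          rw [← h3, h1] at h4
          exact (Nat.eq_of_mul_eq_mul_right (Nat.pos_of_ne_zero Subgroup.index_ne_zero_of_finite) h4).le
        apply hw2X
        rw [h2]
        exact hδY hw2Y
      · rw [hxi] at h2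
        have h3 : m * 1 < m * n := Nat.mul_lt_mul_of_pos_left hn1 (by omega)
        omega
    have hδx : w3 * x * w3⁻¹ = δ * x := by rw [hδ]; group
    have hδo : (orderOf δ).Coprime r := by
      refine Nat.Coprime.coprime_dvd_left (orderOf_dvd_of_pow_eq_one ?_) hxr
      have h1 : (w3 * x * w3⁻¹) ^ orderOf x = 1 := by
        rw [← MulAut.conj_apply, ← map_pow, pow_orderOf_eq_one, map_one]
      rw [hδx, (central_comm hδc).mul_pow, pow_orderOf_eq_one, mul_one] at h1
      exact h1
    have hδ1 := eq_one_of_coprime hδc hw3 hδo hδx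
    rw [hδ1, one_mul, mul_inv_eq_iff_eq_mul] at hδx
    exact hw3X (memC.2 hδx)
  · -- `C(y) = C(w2)`
    have hle := KK_c h hr hrm hA hw2c hw2r hyK
    have heq : C w2 = C y := by
      refine Subgroup.eq_of_le_of_card_ge hle ?_
      have h3 := Subgroup.card_mul_index (C w2)
      have h4 := Subgroup.card_mul_index (C y)
      rw [hA w2 hw2c hw2r] at h3
      rw [hyi, ← h3] at h4
      exact (Nat.eq_of_mul_eq_mul_right (Nat.mul_pos (by omega) (by omega)) h4).le
    apply hw2X
    have h1 : x ∈ C y := memC.2 hxy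
    rw [← heq] at h1
    exact memC'.1 h1

end caseA

/-- the main result -/
theorem main (h : Hyp G m n) (hr : r.Prime) (hrm : r ∣ m) (hma : m = r ^ a) (R : Sylow r G) : Concl m n R := by
  by_cases hA : ∃ w : G, El r w ∧ (C w).index = m
  · obtain ⟨w, hw, hi⟩ := hA
    exact caseI h hr hrm hma R hw hi
  · exfalso
    push Not at hA
    exact caseA h hr hrm (fun w hw hwr => (h.ix w hw).resolve_left (hA w hwr)) hma

end Cfsg.Agent.Lib.H64CSh
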