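import Cfsg.Prelude
import Cfsg.Agent.Lib.LocBase
import Cfsg.Agent.Lib.Cores2
import Cfsg.Agent.Lib.PNilp
import Cfsg.Agent.Lib.Transfer
import Cfsg.Agent.Lib.BaerSuzuki
import Cfsg.Agent.Lib.SubgroupTools

/-!
Left-normed commutator values and nilpotency of the terms of the lower central series.
-/
set_option autoImplicit false

namespace Cfsg.Agent.Lib.H64Gam

open scoped Pointwise
open Subgroup

/-- left-normed commutator values of length `k + 1` -/
def Val {G : Type*} [Group G] : ℕ → G → Prop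
  | 0, _ => True
  | k + 1, x => ∃ y z, Val k y ∧ x = y * z * y⁻¹ * z⁻¹

section
variable {G : Type*} [Group G] {H : Type*} [Group H]

theorem Val.map {k : ℕ} {x : G} (f : G →* H) (h : Val k x) : Val k (f x) := by
  induction k generalizing x with
  | zero => trivial
  | succ k ih =>
    obtain ⟨y, z, hy, rfl⟩ := h
    exact ⟨f y, f z, ih hy, by simp⟩

theorem Val.lift {k : ℕ} {x : H} (f : G →* H) (hf : Function.Surjective f) (h : Val k x) :
    ∃ y : G, Val k y ∧ f y = x := by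
  induction k generalizing x with
  | zero => obtain ⟨y, hy⟩ := hf x; exact ⟨y, trivial, hy⟩
  | succ k ih =>
    obtain ⟨y, z, hy, rfl⟩ := h
    obtain ⟨y', hy', rfl⟩ := ih hy
    obtain ⟨z', rfl⟩ := hf z
    exact ⟨y' * z' * y'⁻¹ * z'⁻¹, ⟨y', z', hy', rfl⟩, by simp⟩

theorem Val.conj {k : ℕ} {x : G} (g : G) (h : Val k x) : Val k (g * x * g⁻¹) :=
  h.map (MulAut.conj g).toMonoidHom

theorem Val.mem {k : ℕ} {x : G} (h : Val k x) : x ∈ (⊤ : Subgroup G).lowerCentralSeries k := by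
  induction k generalizing x with
  | zero => exact mem_top _
  | succ k ih =>
    obtain ⟨y, z, hy, rfl⟩ := h
    exact commutator_mem_commutator (ih hy) (mem_top z)

theorem lcs_le {k : ℕ} {M : Subgroup G} (hM : M.Normal) (h : ∀ x : G, Val k x → x ∈ M) :
    (⊤ : Subgroup G).lowerCentralSeries k ≤ M := by
  induction k generalizing M with
  | zero => intro x _; exact h x trivial
  | succ k ih =>
    rw [Subgroup.lowerCentralSeries_succ, commutator_le]
    let C : Subgroup G := (center (G ⧸ M)).comap (QuotientGroup.mk' M)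
    have hC : C.Normal := inferInstance
    have h1 : (⊤ : Subgroup G).lowerCentralSeries k ≤ C := by
      apply ih hC
      intro x hx
      rw [mem_comap, mem_center_iff]
      intro g
      obtain ⟨g, rfl⟩ := QuotientGroup.mk'_surjective M g
      have h2 := h _ ⟨x, g, hx, rfl⟩
      have h3 : QuotientGroup.mk' M (x * g * x⁻¹ * g⁻¹) = 1 := (QuotientGroup.eq_one_iff _).2 h2
      rw [map_mul, map_mul, map_mul, map_inv, map_inv, mul_inv_eq_one, mul_inv_eq_iff_eq_mul] at h3
      exact h3.symm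
    intro x hx g _
    have h2 := mem_center_iff.1 (h1 hx) (QuotientGroup.mk' M g)
    rw [← QuotientGroup.eq_one_iff]
    change QuotientGroup.mk' M (x * g * x⁻¹ * g⁻¹) = 1
    rw [map_mul, map_mul, map_mul, map_inv, map_inv, mul_inv_eq_one, mul_inv_eq_iff_eq_mul]
    exact h2.symm

theorem fold_succ {k : ℕ} (F : G → G → G) (f : Fin (k + 2) → G) :
    ((List.ofFn f).tail).foldl F (f 0) =
      F (((List.ofFn fun i : Fin (k + 1) => f i.castSucc).tail).foldl F (f 0)) (f (Fin.last _)) := by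
  rw [List.ofFn_succ, List.tail_cons, List.ofFn_succ', List.concat_eq_append, List.foldl_append,
    List.ofFn_succ, List.tail_cons]
  rfl

theorem val_iff {k : ℕ} {x : G} : Val k x ↔
    ∃ f : Fin (k + 1) → G, x = ((List.ofFn f).tail).foldl (fun a b => a * b * a⁻¹ * b⁻¹) (f 0) := by
  induction k generalizing x with
  | zero =>
    refine ⟨fun _ => ⟨fun _ => x, ?_⟩, fun _ => trivial⟩
    simp
  | succ k ih =>
    constructor
    · rintro ⟨y, z, hy, rfl⟩
      obtain ⟨f, rfl⟩ := ih.1 hy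
      refine ⟨Fin.snoc f z, ?_⟩
      rw [fold_succ]
      have h2 : (Fin.snoc f z : Fin (k + 2) → G) 0 = f 0 := by
        exact Fin.snoc_castSucc (α := fun _ => G) (x := z) (p := f) (i := 0)
      rw [h2]
      simp
    · rintro ⟨f, rfl⟩
      exact ⟨_, f (Fin.last (k + 1)), ih.2 ⟨fun i => f i.castSucc, rfl⟩, fold_succ _ f⟩

end

/-! ### iterated commutators with a fixed element -/
section
variable {G : Type*} [Group G]

/-- `[v, b]` -/
def del (b v : G) : G := v * b * v⁻¹ * b⁻¹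

theorem del_val (b v : G) (k : ℕ) : Val k ((del b)^[k] v) := by
  induction k with
  | zero => trivial
  | succ k ih =>
    rw [Function.iterate_succ_apply']
    exact ⟨_, b, ih, rfl⟩

theorem map_del {H : Type*} [Group H] (f : G →* H) (b v : G) (k : ℕ) :
    f ((del b)^[k] v) = (del (f b))^[k] (f v) := by
  induction k with
  | zero => rfl
  | succ k ih =>
    rw [Function.iterate_succ_apply', Function.iterate_succ_apply', ← ih]
    simp [del]

theorem del_mem {b v : G} {Y : Subgroup G} (hb : ∀ y ∈ Y, b * y * b⁻¹ ∈ Y) (hv : v ∈ Y) (k : ℕ) :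
    (del b)^[k] v ∈ Y := by
  induction k with
  | zero => exact hv
  | succ k ih =>
    rw [Function.iterate_succ_apply']
    have h1 := mul_mem ih (hb _ (inv_mem ih))
    have h2 : del b ((del b)^[k] v) = (del b)^[k] v * (b * ((del b)^[k] v)⁻¹ * b⁻¹) := by
      unfold del; group
    rw [h2]; exact h1

/-- If `[u, b]` commutes with `b` then it is trivial. -/
theorem del_eq_one [Finite G] {p : ℕ} [hp : Fact p.Prime] {b u : G} {Y : Subgroup G} (hY : IsPGroup p Y)
    (hb : ∀ y ∈ Y, b * y * b⁻¹ ∈ Y) (hpb : ¬ p ∣ orderOf b) (hu : u ∈ Y) (hc : Commute (del b u) b) :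
    del b u = 1 := by
  set c := del b u with hcdef
  have hcY : c ∈ Y := del_mem hb hu 1
  -- `u * b * u⁻¹ = c * b`, with `c` commuting with `b`
  have h1 : u * b * u⁻¹ = c * b := by rw [hcdef]; unfold del; group
  have h2 : (c * b) ^ orderOf b = 1 := by
    rw [← h1, conj_pow, pow_orderOf_eq_one]; group
  rw [hc.mul_pow, pow_orderOf_eq_one, mul_one] at h2
  obtain ⟨n, hn⟩ := hY ⟨c, hcY⟩
  have h3 : c ^ p ^ n = 1 := congrArg Subtype.val hn
  have h4 : Nat.Coprime (p ^ n) (orderOf b) := Nat.Coprime.pow_left _ ((hp.out.coprime_iff_not_dvd).2 hpb)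
  have h5 := Nat.dvd_gcd (orderOf_dvd_of_pow_eq_one h3) (orderOf_dvd_of_pow_eq_one h2)
  rw [h4] at h5
  exact orderOf_eq_one_iff.1 (Nat.dvd_one.1 h5)

theorem not_commute_del [Finite G] {p : ℕ} [hp : Fact p.Prime] {b v : G} {Y : Subgroup G} (hY : IsPGroup p Y)
    (hb : ∀ y ∈ Y, b * y * b⁻¹ ∈ Y) (hpb : ¬ p ∣ orderOf b) (hv : v ∈ Y) (hc : ¬ Commute v b) (k : ℕ) :
    ¬ Commute ((del b)^[k] v) b := by
  induction k with
  | zero => exact hc
  | succ k ih =>
    rw [Function.iterate_succ_apply']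
    intro h
    apply ih
    have h1 := del_eq_one hY hb hpb (del_mem hb hv k) h
    unfold del at h1
    rw [mul_inv_eq_one, mul_inv_eq_iff_eq_mul] at h1
    exact h1

/-- the property used in the classification -/
def DS (k : ℕ) (G : Type*) [Group G] : Prop :=
  ∀ b : G, Val k b → ∀ p : ℕ, p.Prime → ∀ Y : Subgroup G, IsPGroup p Y → (∀ y ∈ Y, b * y * b⁻¹ ∈ Y) →
    ¬ p ∣ orderOf b → ∀ y ∈ Y, Commute y b

theorem DS.subgroup {k : ℕ} (h : DS k G) (H : Subgroup G) : DS k H := by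
  intro b hb p hp Y hY hn hpb y hy
  have h1 := h (b : G) (hb.map H.subtype) p hp (Y.map H.subtype) (hY.map _) (by
    rintro _ ⟨z, hz, rfl⟩
    exact ⟨b * z * b⁻¹, hn z hz, by simp⟩) (by rwa [orderOf_coe]) (y : G) ⟨y, hy, rfl⟩
  exact Subtype.ext h1

theorem ds_of_cond [Finite G] {k : ℕ} (h : ∀ x y : G, Val k x → Val k y → (orderOf x).Coprime (orderOf y) →
    (∀ r : ℕ, r.Prime → r ∣ orderOf x * orderOf y → r ∣ orderOf (x * y)) ∨
      orderOf x * orderOf y ≤ orderOf (x * y)) : DS k G := by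
  intro b hb p hp Y hY hn hpb v hv
  have : Fact p.Prime := ⟨hp⟩
  by_contra hc
  -- `a = [y, b]`, a nontrivial value in `Y`
  obtain ⟨y, hy, ha, hval⟩ : ∃ y ∈ Y, del b y ≠ 1 ∧ Val k (del b y) := by
    cases k with
    | zero =>
      refine ⟨v, hv, fun h1 => hc ?_, trivial⟩
      unfold del at h1
      rwa [mul_inv_eq_one, mul_inv_eq_iff_eq_mul] at h1
    | succ k =>
      refine ⟨(del b)^[k] v, del_mem hn hv k, fun h1 => not_commute_del hY hn hpb hv hc k ?_, ?_⟩
      · unfold del at h1 ⊢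
        rwa [mul_inv_eq_one, mul_inv_eq_iff_eq_mul] at h1
      · have h0 := del_val b v (k + 1)
        rwa [Function.iterate_succ_apply'] at h0
  set a := del b y with hadef
  have haY : a ∈ Y := del_mem hn hy 1
  have h1 : a * b = y * b * y⁻¹ := by rw [hadef]; unfold del; group
  have h2 : orderOf (a * b) = orderOf b := by
    rw [h1]; exact MulEquiv.orderOf_eq (MulAut.conj y) b
  obtain ⟨n, hn'⟩ := hY ⟨a, haY⟩
  have h3 : a ^ p ^ n = 1 := congrArg Subtype.val hn'
  obtain ⟨m, -, hm⟩ := (Nat.dvd_prime_pow hp).1 (orderOf_dvd_of_pow_eq_one h3)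
  have hm0 : m ≠ 0 := by
    rintro rfl
    rw [pow_zero, orderOf_eq_one_iff] at hm
    exact ha hm
  have hpa : p ∣ orderOf a := by rw [hm]; exact dvd_pow_self p hm0
  have hcop : (orderOf a).Coprime (orderOf b) := by
    rw [hm]; exact Nat.Coprime.pow_left _ ((hp.coprime_iff_not_dvd).2 hpb)
  rcases h a b hval hb hcop with h4 | h4
  · apply hpb
    rw [← h2]
    exact h4 p hp (hpa.mul_right _)
  · rw [h2] at h4
    have h5 : 2 ≤ orderOf a := hp.two_le.trans (Nat.le_of_dvd (orderOf_pos a) hpa)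
    have h6 := orderOf_pos b
    nlinarith

end

/-! ### the solvable case -/
section
variable {G : Type*} [Group G] [Finite G]

/-- the product of the `O_p(G)`, `p ≠ q` -/
def K (q : ℕ) (G : Type*) [Group G] : Subgroup G := ⨆ p : {p : Nat.Primes // (p : ℕ) ≠ q}, pCore ((p : Nat.Primes) : ℕ) G

instance K_normal (q : ℕ) : (K q G).Normal := by
  unfold K; infer_instance

theorem fit_eq {q : ℕ} (hq : q.Prime) : fittingSubgroup G = pCore q G ⊔ K q G := by
  rw [Cores.fittingSubgroup_eq_iSup]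
  apply le_antisymm
  · apply iSup_le
    intro p
    by_cases h : (p : ℕ) = q
    · rw [h]; exact le_sup_left
    · exact (le_iSup (fun p : {p : Nat.Primes // (p : ℕ) ≠ q} => pCore ((p : Nat.Primes) : ℕ) G) ⟨p, h⟩).trans
        le_sup_right
  · apply sup_le
    · exact le_iSup (fun p : Nat.Primes => pCore (p : ℕ) G) ⟨q, hq⟩
    · apply iSup_le
      intro p
      exact le_iSup (fun p : Nat.Primes => pCore (p : ℕ) G) (p : Nat.Primes)

theorem K_le {q : ℕ} (hq : q.Prime) : K q G ≤ pPrimeCore q G := by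
  apply iSup_le
  intro p
  apply Cores.le_pPrimeCore (pCore_normal _ _)
  have : Fact ((p : Nat.Primes) : ℕ).Prime := ⟨(p : Nat.Primes).2⟩
  obtain ⟨n, hn⟩ := IsPGroup.iff_card.1 (Cores.isPGroup_pCore ((p : Nat.Primes) : ℕ) G)
  rw [hn]
  apply Nat.Coprime.pow_left
  rw [Nat.coprime_primes (p : Nat.Primes).2 hq]
  exact p.2

/-- A subgroup `T` in which the part centralizing `K_q` has `q`-power index modulo `K_q`. -/
theorem nilp_of {q : ℕ} (hq : q.Prime) {C Z : Subgroup G} (hZC : ∀ z ∈ Z, ∀ c ∈ C, Commute z c)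
    (h : ∀ c ∈ C, ∃ n : ℕ, c ^ q ^ n ∈ Z) : Group.IsNilpotent C := by
  have : Fact q.Prime := ⟨hq⟩
  have h1 : IsPGroup q (C ⧸ center C) := by
    intro x
    obtain ⟨c, rfl⟩ := QuotientGroup.mk_surjective x
    obtain ⟨n, hn⟩ := h c c.2
    refine ⟨n, ?_⟩
    rw [← QuotientGroup.mk_pow, QuotientGroup.eq_one_iff, mem_center_iff]
    intro g
    apply Subtype.ext
    exact (hZC _ hn g g.2).symm.eq
  have : Finite (C ⧸ center C) := inferInstance
  exact Group.of_quotient_center_nilpotent h1.isNilpotent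
theorem fit_pow_mem {q : ℕ} (hq : q.Prime) {f : G} (hf : f ∈ fittingSubgroup G) : ∃ n : ℕ, f ^ q ^ n ∈ K q G := by
  rw [fit_eq hq] at hf
  obtain ⟨a, ha, b, hb, rfl⟩ := mem_sup_of_normal_right.1 hf
  obtain ⟨n, hn⟩ := Cores.isPGroup_pCore q G ⟨a, ha⟩
  have h3 : a ^ q ^ n = 1 := congrArg Subtype.val hn
  refine ⟨n, ?_⟩
  rw [← QuotientGroup.eq_one_iff, QuotientGroup.mk_pow, QuotientGroup.mk_mul,
    (QuotientGroup.eq_one_iff b).2 hb, mul_one, ← QuotientGroup.mk_pow, h3, QuotientGroup.mk_one]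

theorem not_dvd_of_pow {q p n : ℕ} (hq : q.Prime) (hp : p.Prime) (hpq : p ≠ q) {c : G} (h : c ^ q ^ n = 1) :
    ¬ p ∣ orderOf c := by
  intro h1
  have h2 := hp.dvd_of_dvd_pow (h1.trans (orderOf_dvd_of_pow_eq_one h))
  exact hpq ((Nat.prime_dvd_prime_iff_eq hp hq).1 h2)

theorem val_mem_fit {k : ℕ} (hDS : DS k G) {q : ℕ} (hq : q.Prime) {T : Subgroup G} (hTn : T.Normal)
    (hT : ∀ t ∈ T, ∃ n : ℕ, t ^ q ^ n ∈ fittingSubgroup G) {c : G} (hc : Val k c) (hcT : c ∈ T)
    {n : ℕ} (hcq : c ^ q ^ n = 1) : c ∈ fittingSubgroup G := by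
  have hCn : (T ⊓ centralizer (K q G : Set G)).Normal := inferInstance
  have hnil : Group.IsNilpotent ↥(T ⊓ centralizer (K q G : Set G)) := by
    apply nilp_of hq (Z := K q G)
    · intro z hz c hc
      exact (mem_centralizer_iff.1 hc.2 z hz)
    · intro c hc
      obtain ⟨n, hn⟩ := hT c hc.1
      obtain ⟨m, hm⟩ := fit_pow_mem hq hn
      exact ⟨n + m, by rw [pow_add, pow_mul]; exact hm⟩
  apply Cores.le_fittingSubgroup hCn hnil
  refine ⟨hcT, ?_⟩
  have h1 : K q G ≤ centralizer ({c} : Set G) := by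
    apply iSup_le
    rintro ⟨p, hp⟩
    intro y hy
    rw [mem_centralizer_singleton_iff]
    exact (hDS c hc p p.2 (pCore p G) (Cores.isPGroup_pCore _ _)
      (fun y hy => (pCore_normal _ _).conj_mem y hy c) (not_dvd_of_pow hq p.2 hp hcq) y hy).eq
  show c ∈ centralizer (K q G : Set G)
  rw [mem_centralizer_iff]
  intro z hz
  exact mem_centralizer_singleton_iff.1 (h1 hz)

open Cfsg.Agent.Lib.LocBase in
theorem sup_eq {q : ℕ} [Fact q.Prime] {Q T F : Subgroup G} (hQ : IsSyl q Q T) (hF : F ≤ T)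
    (hT : ∀ t ∈ T, ∃ n : ℕ, t ^ q ^ n ∈ F) : Q ⊔ F = T := by
  apply le_antisymm (sup_le hQ.le hF)
  rw [← hQ.sup_pRes]
  apply sup_le_sup_left
  rw [pRes_le_iff]
  intro x hx hxo
  obtain ⟨n, hn⟩ := hT x hx
  obtain ⟨m, hm⟩ := exists_pow_eq_self_of_coprime (x := x) (Nat.Coprime.pow_left n hxo.symm)
  rw [← hm]
  exact pow_mem hn m

open Cfsg.Agent.Lib.LocBase in
theorem quot_comm' {k : ℕ} (hDS : DS k G) {q : ℕ} (hq : q.Prime) {F : Subgroup G} [F.Normal]
    (hF : F = fittingSubgroup G) {b : G ⧸ F}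
    (hb : ¬ q ∣ orderOf b) {y : G ⧸ F} (hy : y ∈ pCore q (G ⧸ F)) :
    Commute y b := by
  have : Fact q.Prime := ⟨hq⟩
  set π := QuotientGroup.mk' F with hπ
  have hπs : Function.Surjective π := QuotientGroup.mk'_surjective F
  set T := (pCore q (G ⧸ F)).comap π with hT
  have hTn : T.Normal := (pCore_normal _ _).comap π
  have hFT : F ≤ T := by
    intro f hf
    rw [hT, mem_comap, hπ, QuotientGroup.mk'_apply, (QuotientGroup.eq_one_iff f).2 hf]
    exact one_mem _
  have hTq : ∀ t ∈ T, ∃ n : ℕ, t ^ q ^ n ∈ F := by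
    intro t ht
    obtain ⟨n, hn⟩ := Cores.isPGroup_pCore q (G ⧸ F) ⟨π t, ht⟩
    refine ⟨n, ?_⟩
    rw [← QuotientGroup.eq_one_iff]
    exact congrArg Subtype.val hn
  obtain ⟨Q, hQ⟩ := exists_isSyl q T
  have hQF := sup_eq hQ hFT hTq
  -- values in `Q` lie in `F`
  have hQv : ∀ c ∈ Q, Val k c → c ∈ F := by
    intro c hc hv
    obtain ⟨n, hn⟩ := hQ.pgroup ⟨c, hc⟩
    rw [hF] at hTq ⊢
    exact val_mem_fit hDS hq hTn hTq hv (hQ.le hc) (n := n) (congrArg Subtype.val hn)
  -- lift `b`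
  obtain ⟨g, hg⟩ := hπs b
  obtain ⟨t, ht, b1, hb1, hgb⟩ := hQ.frattini le_top (by rw [normalizer_eq_top_iff.2 hTn]) (mem_top g)
  rw [← hQF] at ht
  obtain ⟨v, hv, f, hf, rfl⟩ := mem_sup_of_normal_right.1 ht
  -- `v⁻¹ g = f * b1`, so `π (v * b1) = b` up to `F`
  have hb2 : v * b1 ∈ normalizer (Q : Set G) := mul_mem (le_normalizer hv) hb1.2
  have hb3 : π (v * b1) = b := by
    rw [← hg, hgb, map_mul, map_mul, map_mul, show π f = 1 from (QuotientGroup.eq_one_iff f).2 hf, mul_one]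
  obtain ⟨m, hm⟩ := PNilp.exists_pow_coprime q (v * b1)
  set c := (v * b1) ^ q ^ m with hc
  have hcN : c ∈ normalizer (Q : Set G) := pow_mem hb2 _
  have hcb : π c = b ^ q ^ m := by rw [hc, map_pow, hb3]
  have hcq : ¬ q ∣ orderOf c := by
    rw [← hq.coprime_iff_not_dvd]; exact hm.symm
  -- it suffices to commute with `π c`
  suffices h : Commute y (π c) by
    obtain ⟨j, hj⟩ := exists_pow_eq_self_of_coprime (x := b) (n := q ^ m)
      (Nat.Coprime.pow_left _ ((hq.coprime_iff_not_dvd).2 hb))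
    rw [← hj, ← hcb]
    exact h.pow_right j
  by_contra hcon
  -- lift `y` to `Q`
  obtain ⟨y1, rfl⟩ := hπs y
  have hy1 : y1 ∈ T := hy
  rw [← hQF] at hy1
  obtain ⟨u, hu, f', hf', rfl⟩ := mem_sup_of_normal_right.1 hy1
  have hπu : π (u * f') = π u := by
    rw [map_mul, show π f' = 1 from (QuotientGroup.eq_one_iff f').2 hf', mul_one]
  rw [hπu] at hcon
  have h1 : ¬ q ∣ orderOf (π c) := fun h => hcq (h.trans (orderOf_map_dvd π c))
  have h2 := not_commute_del (Cores.isPGroup_pCore q (G ⧸ F))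
    (fun y hy => (pCore_normal _ _).conj_mem y hy (π c)) h1 (show π u ∈ _ from hQ.le hu) hcon k
  rw [← map_del] at h2
  have h3 : (del c)^[k] u ∈ Q := del_mem (fun y hy => (mem_normalizer_iff.1 hcN y).1 hy) hu k
  have h4 := hQv _ h3 (del_val c u k)
  rw [show π ((del c)^[k] u) = 1 from (QuotientGroup.eq_one_iff _).2 h4] at h2
  exact h2 (Commute.one_left _)

theorem quot_comm {k : ℕ} (hDS : DS k G) {q : ℕ} (hq : q.Prime) {b : G ⧸ fittingSubgroup G}
    (hb : ¬ q ∣ orderOf b) {y : G ⧸ fittingSubgroup G} (hy : y ∈ pCore q (G ⧸ fittingSubgroup G)) :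
    Commute y b := quot_comm' hDS hq rfl hb hy

/-- the quotient by the Fitting subgroup is nilpotent -/
theorem quot_nilp [Group.IsSolvable G] {k : ℕ} (hDS : DS k G) : fittingSubgroup (G ⧸ fittingSubgroup G) = ⊤ := by
  set F := fittingSubgroup G with hF
  apply Cores.eq_top_of_forall_sylow_le
  intro r hr R
  have hsol : Group.IsSolvable (G ⧸ F) := inferInstance
  have hCn : (centralizer (K r (G ⧸ F) : Set (G ⧸ F))).Normal := inferInstance
  have hnil : Group.IsNilpotent ↥(centralizer (K r (G ⧸ F) : Set (G ⧸ F))) := by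
    apply nilp_of hr.out (Z := K r (G ⧸ F))
    · intro z hz c hc
      exact mem_centralizer_iff.1 hc z hz
    · intro c hc
      obtain ⟨m, hm⟩ := PNilp.exists_pow_coprime r c
      refine ⟨m, ?_⟩
      have h1 : c ^ r ^ m ∈ fittingSubgroup (G ⧸ F) := by
        apply Cores.centralizer_fittingSubgroup_le
        have h2 : fittingSubgroup (G ⧸ F) ≤ centralizer ({c ^ r ^ m} : Set (G ⧸ F)) := by
          rw [fit_eq hr.out]
          apply sup_le
          · intro y hy
            rw [mem_centralizer_singleton_iff]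
            exact (quot_comm hDS hr.out ((hr.out.coprime_iff_not_dvd).1 hm.symm) hy).eq
          · intro y hy
            rw [mem_centralizer_singleton_iff]
            exact mem_centralizer_iff.1 (pow_mem hc _) y hy
        rw [mem_centralizer_iff]
        intro y hy
        exact mem_centralizer_singleton_iff.1 (h2 hy)
      obtain ⟨n, hn⟩ := fit_pow_mem hr.out h1
      obtain ⟨j, hj⟩ := exists_pow_eq_self_of_coprime (x := c ^ r ^ m) (n := r ^ n) (Nat.Coprime.pow_left _ hm.symm)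
      rw [← hj]
      exact pow_mem hn j
  refine le_trans ?_ (Cores.le_fittingSubgroup hCn hnil)
  intro x hx
  rw [mem_centralizer_iff]
  intro z hz
  have h1 : K r (G ⧸ F) ≤ centralizer ({x} : Set (G ⧸ F)) := by
    apply iSup_le
    rintro ⟨p, hp⟩
    intro y hy
    rw [mem_centralizer_singleton_iff]
    obtain ⟨n, hn⟩ := R.isPGroup' ⟨x, hx⟩
    exact (quot_comm hDS p.2 (not_dvd_of_pow hr.out p.2 hp (n := n) (congrArg Subtype.val hn)) hy).eq
  exact mem_centralizer_singleton_iff.1 (h1 hz)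

open Cfsg.Agent.Lib.LocBase in
/-- in a solvable group with `DS k`, the values lie in the Fitting subgroup -/
theorem val_mem [Group.IsSolvable G] {k : ℕ} (hDS : DS k G) {x : G} (hx : Val k x) :
    x ∈ fittingSubgroup G := by
  obtain ⟨F, hF⟩ : ∃ F, F = fittingSubgroup G := ⟨_, rfl⟩
  have hFn : F.Normal := by rw [hF]; infer_instance
  have htop : fittingSubgroup (G ⧸ F) = ⊤ := by
    subst hF
    exact quot_nilp hDS
  rw [← hF]
  let π := QuotientGroup.mk' F
  have hπs : Function.Surjective π := QuotientGroup.mk'_surjective F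
  suffices h : ∀ q : ℕ, q.Prime → π x ∈ pPrimeCore q (G ⧸ F) by
    rw [← QuotientGroup.eq_one_iff]
    change π x = 1
    rw [← orderOf_eq_one_iff]
    by_contra h1
    obtain ⟨q, hq, hqd⟩ := Nat.exists_prime_and_dvd h1
    exact (hq.coprime_iff_not_dvd).1 (Cores.coprime_orderOf_of_mem_pPrimeCore (h q hq)).symm hqd
  intro q hq
  have : Fact q.Prime := ⟨hq⟩
  apply K_le hq
  let T := (pCore q (G ⧸ F)).comap π
  have hTn : T.Normal := (pCore_normal _ _).comap π
  have hFT : F ≤ T := by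
    intro f hf
    show π f ∈ pCore q (G ⧸ F)
    rw [show π f = 1 from (QuotientGroup.eq_one_iff f).2 hf]
    exact one_mem _
  have hTq : ∀ t ∈ T, ∃ n : ℕ, t ^ q ^ n ∈ F := by
    intro t ht
    obtain ⟨n, hn⟩ := Cores.isPGroup_pCore q (G ⧸ F) ⟨π t, ht⟩
    refine ⟨n, ?_⟩
    rw [← QuotientGroup.eq_one_iff]
    exact congrArg Subtype.val hn
  obtain ⟨Q, hQ⟩ := exists_isSyl q T
  have hQF := sup_eq hQ hFT hTq
  have hQv : ∀ c ∈ Q, Val k c → c ∈ F := by
    intro c hc hv
    obtain ⟨n, hn⟩ := hQ.pgroup ⟨c, hc⟩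
    rw [hF] at hTq ⊢
    exact val_mem_fit hDS hq hTn hTq hv (hQ.le hc) (n := n) (congrArg Subtype.val hn)
  let ρ := QuotientGroup.mk' (K q (G ⧸ F))
  have hρs : Function.Surjective ρ := QuotientGroup.mk'_surjective _
  have hs : Function.Surjective ((ρ.comp π).comp Q.subtype) := by
    intro z
    obtain ⟨w, rfl⟩ := hρs z
    have hw : w ∈ fittingSubgroup (G ⧸ F) := by rw [htop]; exact mem_top _
    rw [fit_eq hq] at hw
    obtain ⟨a, ha, b, hb, rfl⟩ := mem_sup_of_normal_right.1 hw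
    obtain ⟨t, rfl⟩ := hπs a
    have ht : t ∈ Q ⊔ F := by rw [hQF]; exact ha
    obtain ⟨u, hu, f, hf, rfl⟩ := mem_sup_of_normal_right.1 ht
    refine ⟨⟨u, hu⟩, ?_⟩
    show ρ (π u) = _
    rw [map_mul π, show π f = 1 from (QuotientGroup.eq_one_iff f).2 hf, mul_one, map_mul ρ,
      show ρ b = 1 from (QuotientGroup.eq_one_iff b).2 hb, mul_one]
  obtain ⟨y, hy, e⟩ := (hx.map (ρ.comp π)).lift _ hs
  have h1 := hQv y y.2 (hy.map Q.subtype)
  have h2 : ρ (π x) = 1 := by
    rw [show ρ (π x) = ρ (π y) from e.symm, show π y = 1 from (QuotientGroup.eq_one_iff _).2 h1, map_one]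
  exact (QuotientGroup.eq_one_iff _).1 h2

end

/-! ### an involution which is a value -/
section
variable {G : Type*} [Group G] [Finite G]

theorem exists_invol (k : ℕ) (b : G) (hb : ¬ 2 ∣ orderOf b) : ∀ n : ℕ, ∀ Q : Subgroup G, Nat.card Q = n →
    IsPGroup 2 Q → (∀ y ∈ Q, b * y * b⁻¹ ∈ Q) → (∃ v ∈ Q, ¬ Commute v b) →
    ∃ a : G, Val k a ∧ orderOf a = 2 := by
  intro n
  induction n using Nat.strong_induction_on with
  | _ n ih =>
  rintro Q hn hQ hbQ ⟨v, hvQ, hvb⟩
  have hv1 : v ≠ 1 := by rintro rfl; exact hvb (Commute.one_left b)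
  by_cases hD : ∃ D : Subgroup G, D < Q ∧ (∀ y ∈ D, b * y * b⁻¹ ∈ D) ∧ ∃ v ∈ D, ¬ Commute v b
  · obtain ⟨D, hDQ, h1, h2⟩ := hD
    refine ih (Nat.card D) ?_ D rfl (hQ.to_le hDQ.le) h1 h2
    rw [← hn]
    exact lt_of_le_of_ne (Nat.le_of_dvd Nat.card_pos (card_dvd_of_le hDQ.le))
      (fun e => hDQ.ne (Subgroup.eq_of_le_of_card_ge hDQ.le e.ge))
  push Not at hD
  -- the squares
  let D : Subgroup G := closure {x | ∃ y ∈ Q, x = y * y}
  have hDle : D ≤ Q := by
    rw [closure_le]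
    rintro _ ⟨y, hy, rfl⟩
    exact mul_mem hy hy
  have hDn : ∀ g : G, (∀ y ∈ Q, g * y * g⁻¹ ∈ Q) → ∀ y ∈ D, g * y * g⁻¹ ∈ D := by
    intro g hg y hy
    have h1 : D ≤ D.comap (MulAut.conj g).toMonoidHom := by
      rw [closure_le]
      rintro _ ⟨y, hy, rfl⟩
      apply Subgroup.subset_closure
      exact ⟨g * y * g⁻¹, hg y hy, by simp⟩
    exact h1 hy
  have hDlt : D < Q := by
    refine lt_of_le_of_ne hDle fun he => ?_
    -- an index two subgroup of `Q`
    obtain ⟨m, hm⟩ := IsPGroup.iff_card.1 hQ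
    have hm0 : m ≠ 0 := by
      rintro rfl
      rw [pow_zero] at hm
      have := (Subgroup.card_eq_one.1 hm)
      rw [this] at hvQ
      exact hv1 (mem_bot.1 hvQ)
    obtain ⟨j, rfl⟩ := Nat.exists_eq_succ_of_ne_zero hm0
    obtain ⟨M, hM⟩ := Sylow.exists_subgroup_card_pow_prime (G := Q) 2 (n := j)
      (by rw [hm]; exact pow_dvd_pow 2 (Nat.le_succ j))
    have hMi : M.index = 2 := by
      have h1 := M.card_mul_index
      rw [hM, hm, pow_succ] at h1
      exact Nat.eq_of_mul_eq_mul_left (by positivity) h1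
    have h2 : D ≤ M.map Q.subtype := by
      rw [closure_le]
      rintro _ ⟨y, hy, rfl⟩
      exact ⟨⟨y, hy⟩ * ⟨y, hy⟩, mul_self_mem_of_index_two hMi _, rfl⟩
    rw [he] at h2
    have h3 : M = ⊤ := by
      rw [eq_top_iff]
      rintro ⟨x, hx⟩ -
      obtain ⟨z, hz, e⟩ := h2 hx
      have : z = ⟨x, hx⟩ := Subtype.ext e
      rw [← this]; exact hz
    rw [h3, index_top] at hMi
    omega
  have hDb : ∀ x ∈ D, Commute x b := hD D hDlt (hDn b hbQ)
  -- `Q` centralizes `D`
  have hDZ : ∀ d ∈ D, ∀ x ∈ Q, Commute x d := by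
    let C : Subgroup G := Q ⊓ centralizer (D : Set G)
    have hCQ : C = Q := by
      by_contra hne
      have hlt : C < Q := lt_of_le_of_ne inf_le_left hne
      have h1 : ∀ x ∈ C, Commute x b := by
        apply hD C hlt
        rintro y ⟨hy, hy2⟩
        refine ⟨hbQ y hy, ?_⟩
        show b * y * b⁻¹ ∈ centralizer (D : Set G)
        rw [mem_centralizer_iff]
        intro d hd
        have h3 : d * b = b * d := hDb d hd
        have h4 : d * y = y * d := mem_centralizer_iff.1 hy2 d hd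
        have h5 : d * b⁻¹ = b⁻¹ * d := (Commute.inv_right (show Commute d b from h3)).eq
        calc d * (b * y * b⁻¹) = (d * b) * y * b⁻¹ := by group
          _ = b * (d * y) * b⁻¹ := by rw [h3]; group
          _ = b * y * (d * b⁻¹) := by rw [h4]; group
          _ = b * y * b⁻¹ * d := by rw [h5]; group
      -- `v⁻¹ b v b⁻¹ ∈ C`
      have h2 : del b v⁻¹ ∈ C := by
        refine ⟨del_mem hbQ (inv_mem hvQ) 1, ?_⟩
        show del b v⁻¹ ∈ centralizer (D : Set G)
        rw [mem_centralizer_iff]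
        intro d hd
        have hd1 : v * d * v⁻¹ ∈ D := hDn v (fun y hy => mul_mem (mul_mem hvQ hy) (inv_mem hvQ)) d hd
        have h3 := hDb _ hd1
        have h4 := hDb _ hd
        have h5 : b * (v * d * v⁻¹) * b⁻¹ = v * d * v⁻¹ := by
          rw [← h3.eq]; group
        have h6 : b⁻¹ * d * b = d := by
          rw [mul_assoc, h4.eq]; group
        unfold del
        have h7 : v⁻¹ * b * v⁻¹⁻¹ * b⁻¹ * d * (v⁻¹ * b * v⁻¹⁻¹ * b⁻¹)⁻¹ = d := by
          have e1 : v⁻¹ * b * v⁻¹⁻¹ * b⁻¹ * d * (v⁻¹ * b * v⁻¹⁻¹ * b⁻¹)⁻¹ =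
              v⁻¹ * (b * (v * (b⁻¹ * d * b) * v⁻¹) * b⁻¹) * v := by group
          rw [e1, h6, h5]; group
        rw [mul_inv_eq_iff_eq_mul] at h7
        exact h7.symm
      have h3 := del_eq_one (p := 2) hQ hbQ hb (inv_mem hvQ) (h1 _ h2)
      unfold del at h3
      rw [mul_inv_eq_one, mul_inv_eq_iff_eq_mul] at h3
      exact hvb (Commute.inv_left_iff.1 h3)
    intro d hd x hx
    rw [← hCQ] at hx
    exact (mem_centralizer_iff.1 hx.2 d hd).symm
  cases k with
  | zero =>
    have h1 : Nontrivial Q := ⟨⟨v, hvQ⟩, 1, fun h => hv1 (congrArg Subtype.val h)⟩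
    obtain ⟨m, hm⟩ := (IsPGroup.nontrivial_iff_card hQ).1 h1
    obtain ⟨x, hx⟩ := exists_prime_orderOf_dvd_card' (G := Q) 2 (by rw [hm.2]; exact dvd_pow_self 2 hm.1.ne')
    exact ⟨x, trivial, by rwa [orderOf_coe]⟩
  | succ j =>
    set w := (del b)^[j] v with hw
    have hwQ : w ∈ Q := del_mem hbQ hvQ j
    have hwb : ¬ Commute w b := not_commute_del (p := 2) hQ hbQ hb hvQ hvb j
    have hwv : Val j w := del_val b v j
    have hwD : w * w ∈ D := Subgroup.subset_closure ⟨w, hwQ, rfl⟩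
    -- for all `u`, if `u w⁻¹ u⁻¹` commutes with `w` and `u` commutes with `w²`: `[w, u]² = 1`
    by_cases hu : ∃ u ∈ Q, ¬ Commute w u
    · obtain ⟨u, huQ, hu⟩ := hu
      refine ⟨w * u * w⁻¹ * u⁻¹, ⟨w, u, hwv, rfl⟩, ?_⟩
      have hne : w * u * w⁻¹ * u⁻¹ ≠ 1 := by
        intro h
        rw [mul_inv_eq_one, mul_inv_eq_iff_eq_mul] at h
        exact hu h
      apply orderOf_eq_prime _ hne
      -- all squares of elements of `Q` are central in `Q`, so commutators are central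
      have hsq : ∀ x ∈ Q, ∀ y ∈ Q, Commute y (x * x) := fun x hx y hy => hDZ _ (Subgroup.subset_closure ⟨x, hx, rfl⟩) y hy
      -- `[w,u] = (w u)² u⁻² (u w⁻¹ u⁻¹)²`-type identity
      have hc : ∀ y ∈ Q, Commute y (w * u * w⁻¹ * u⁻¹) := by
        intro y hy
        have e1 : w * u * w⁻¹ * u⁻¹ = (w * u) * (w * u) * (u⁻¹ * (w⁻¹ * w⁻¹) * u) * (u⁻¹ * u⁻¹) := by group
        have h1 : Commute y ((w * u) * (w * u)) := hsq _ (mul_mem hwQ huQ) y hy
        have h2 : Commute y (u⁻¹ * u⁻¹) := hsq _ (inv_mem huQ) y hy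
        have h3 : u⁻¹ * (w⁻¹ * w⁻¹) * u = w⁻¹ * w⁻¹ := by
          rw [mul_assoc, ← (hsq _ (inv_mem hwQ) u huQ).eq]; group
        rw [e1, h3]
        exact (h1.mul_right (hsq _ (inv_mem hwQ) y hy)).mul_right h2
      have h4 := hsq w hwQ u huQ
      have h5 := hc w hwQ
      -- `[w,u] * [w,u] = w [w,u] u w⁻¹ u⁻¹ = w w u w⁻¹ u⁻¹ u w⁻¹ u⁻¹ = w² u w⁻² u⁻¹ = 1`
      have e2 : (w * u * w⁻¹ * u⁻¹) ^ 2 = 1 := by
        have e3 : (w * u * w⁻¹ * u⁻¹) ^ 2 = (w * u * w⁻¹ * u⁻¹) * w * u * w⁻¹ * u⁻¹ := by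
          rw [pow_two]; group
        rw [e3, ← h5.eq]
        have e4 : w * (w * u * w⁻¹ * u⁻¹) * u * w⁻¹ * u⁻¹ = (w * w) * u * (w * w)⁻¹ * u⁻¹ := by group
        rw [e4, ← h4.eq]; group
      exact e2
    · push Not at hu
      refine ⟨del b w, ⟨w, b, hwv, rfl⟩, ?_⟩
      have hne : del b w ≠ 1 := by
        intro h
        unfold del at h
        rw [mul_inv_eq_one, mul_inv_eq_iff_eq_mul] at h
        exact hwb h
      apply orderOf_eq_prime _ hne
      have h5 : Commute w (del b w) := hu _ (del_mem hbQ hwQ 1)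
      have h4 : Commute (w * w) b := hDb _ hwD
      have e3 : (del b w) ^ 2 = (del b w) * w * b * w⁻¹ * b⁻¹ := by
        rw [pow_two]; unfold del; group
      rw [e3, ← h5.eq]
      have e4 : w * (del b w) * b * w⁻¹ * b⁻¹ = (w * w) * b * (w * w)⁻¹ * b⁻¹ := by unfold del; group
      rw [e4, h4.eq]; group

end

/-! ### the general case -/
section
universe u
variable {G : Type u} [Group G] [Finite G]

theorem isSolvable_sup {X Y : Subgroup G} (hX : Group.IsSolvable X) (hY : Group.IsSolvable Y)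
    (hn : Y ≤ normalizer (X : Set G)) : Group.IsSolvable ↥(X ⊔ Y) := by
  have hXn : (X.subgroupOf (X ⊔ Y)).Normal := by
    apply normal_subgroupOf_of_le_normalizer
    exact sup_le le_normalizer hn
  have h3 : Group.IsSolvable ↥(X.subgroupOf (X ⊔ Y)) :=
    Group.isSolvable_of_isSolvable_injective
      (f := (Subgroup.subgroupOfEquivOfLe (le_sup_left : X ≤ X ⊔ Y)).toMonoidHom)
      (Subgroup.subgroupOfEquivOfLe (le_sup_left : X ≤ X ⊔ Y)).injective
  have h4 : Group.IsSolvable (↥(X ⊔ Y) ⧸ X.subgroupOf (X ⊔ Y)) := by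
    have hsurj : Function.Surjective
        ((QuotientGroup.mk' (X.subgroupOf (X ⊔ Y))).comp
          (Subgroup.inclusion (le_sup_right : Y ≤ X ⊔ Y))) := by
      intro q
      obtain ⟨z, rfl⟩ := QuotientGroup.mk'_surjective _ q
      have hz := z.2
      rw [SubgroupTools.mem_sup_of_le_normalizer hn] at hz
      obtain ⟨x, hx, y, hy, hxy⟩ := hz
      refine ⟨⟨y, hy⟩, ?_⟩
      simp only [MonoidHom.comp_apply, QuotientGroup.mk'_apply]
      rw [QuotientGroup.eq, mem_subgroupOf]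
      have h5 : ((((Subgroup.inclusion (le_sup_right : Y ≤ X ⊔ Y)) ⟨y, hy⟩)⁻¹ * z :
          ↥(X ⊔ Y)) : G) = y⁻¹ * x * y := by
        rw [Subgroup.coe_mul, ← hxy]
        simp [mul_assoc]
      rw [h5]
      have h6 := (Subgroup.mem_normalizer_iff.1 (inv_mem (hn hy)) x).1 hx
      rwa [inv_inv] at h6
    exact Group.isSolvable_of_surjective hsurj
  exact Group.isSolvable_of_ker_le_range (X.subgroupOf (X ⊔ Y)).subtype
    (QuotientGroup.mk' (X.subgroupOf (X ⊔ Y))) (by
      rw [QuotientGroup.ker_mk', Subgroup.range_subtype])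

theorem isSolvable_ext {H : Type u} [Group H] (f : G →* H) (hk : Group.IsSolvable f.ker)
    (hH : Group.IsSolvable H) : Group.IsSolvable G :=
  Group.isSolvable_of_ker_le_range f.ker.subtype f (by rw [Subgroup.range_subtype])

/-- iterated commutators with an inverting element -/
theorem del_inv {a h : G} (ha : a * h * a⁻¹ = h⁻¹) (j : ℕ) : (del a)^[j] h = h ^ (2 ^ j) := by
  induction j with
  | zero => simp
  | succ j ih =>
    rw [Function.iterate_succ_apply', ih]
    have h1 : a * (h ^ (2 ^ j))⁻¹ * a⁻¹ = h ^ (2 ^ j) := by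
      have h2 : a * h ^ (2 ^ j) * a⁻¹ = (h ^ (2 ^ j))⁻¹ := by
        rw [← conj_pow, ha, inv_pow]
      have h3 := congrArg (fun x => x⁻¹) h2
      simp only [mul_inv_rev, inv_inv] at h3
      rw [← mul_assoc] at h3
      exact h3
    have h2 : del a (h ^ (2 ^ j)) = h ^ (2 ^ j) * (a * (h ^ (2 ^ j))⁻¹ * a⁻¹) := by unfold del; group
    rw [h2, h1, ← pow_add]
    congr 1
    rw [pow_succ]; ring

theorem solvable_of_ds (hFT : ∀ (H : Type u) [Group H] [Finite H], Odd (Nat.card H) → Group.IsSolvable H)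
    {k : ℕ} (hDS : DS k G) : Group.IsSolvable G := by
  by_contra hns
  have hRs : Group.IsSolvable (pCore 2 G) := by
    have h1 : Group.IsNilpotent (pCore 2 G) := (Cores.isPGroup_pCore 2 G).isNilpotent
    infer_instance
  obtain ⟨R, hR⟩ : ∃ R, R = pCore 2 G := ⟨_, rfl⟩
  have hRn : R.Normal := by rw [hR]; infer_instance
  let π := QuotientGroup.mk' R
  have hπs : Function.Surjective π := QuotientGroup.mk'_surjective R
  have hker : Group.IsSolvable π.ker := by rw [QuotientGroup.ker_mk', hR]; exact hRs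
  have hq : ¬ Group.IsSolvable (G ⧸ R) := fun h => hns (isSolvable_ext π hker h)
  have hcore : pCore 2 (G ⧸ R) = ⊥ := by subst hR; exact Cores.pCore_quotient_pCore 2 G
  -- not 2-nilpotent
  have hnil : ¬ HasNormalPComplement 2 (G ⧸ R) := by
    intro h
    obtain ⟨N, hN, h1, j, hj⟩ := PNilp.hasNormalPComplement_iff.1 h
    apply hq
    have h2 : Group.IsSolvable N := hFT N (Nat.not_even_iff_odd.1 (fun h => h1 h.two_dvd))
    have h3 : Group.IsSolvable ((G ⧸ R) ⧸ N) := by
      have h4 : IsPGroup 2 ((G ⧸ R) ⧸ N) := IsPGroup.of_card (n := j) (by rw [← hj]; rfl)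
      have h5 : Group.IsNilpotent ((G ⧸ R) ⧸ N) := h4.isNilpotent
      infer_instance
    exact isSolvable_ext (QuotientGroup.mk' N) (by rw [QuotientGroup.ker_mk']; exact h2) h3
  rw [Transfer.hasNormalPComplement_iff_forall_centralizer] at hnil
  push Not at hnil
  obtain ⟨Q, hQ, g, hg, hgo, hgc⟩ := hnil
  obtain ⟨a', ha', ha'2⟩ := exists_invol k g (fun h => (Nat.prime_two.coprime_iff_not_dvd).1 hgo.symm h)
    _ Q rfl hQ (fun y hy => (mem_normalizer_iff.1 hg y).1 hy) (by
      by_contra hcon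
      push Not at hcon
      apply hgc
      rw [mem_centralizer_iff]
      exact fun y hy => (hcon y hy).eq)
  obtain ⟨a, ha, rfl⟩ := ha'.lift π hπs
  obtain ⟨h', hh1, hho, hinv⟩ := BaerSuzuki.exists_inverted_odd (π a) ha'2 (by
    intro N hN hN2 hmem
    have h1 := Cores.le_pCore hN hN2 hmem
    rw [hcore, mem_bot] at h1
    rw [h1, orderOf_one] at ha'2
    omega)
  obtain ⟨h, rfl⟩ := hπs h'
  -- the preimage of the dihedral group
  set D := zpowers (π h) ⊔ zpowers (π a) with hD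
  have hDs : Group.IsSolvable D := by
    apply isSolvable_sup inferInstance inferInstance
    rw [zpowers_le, mem_normalizer_iff]
    intro x
    have key : ∀ x ∈ zpowers (π h), π a * x * (π a)⁻¹ ∈ zpowers (π h) := by
      rintro x ⟨i, rfl⟩
      show π a * (π h) ^ i * (π a)⁻¹ ∈ _
      rw [← conj_zpow, hinv]
      exact zpow_mem (inv_mem (mem_zpowers _)) i
    refine ⟨key x, fun hx => ?_⟩
    have h1 := key _ hx
    have h2 : (π a) * (π a) = 1 := by rw [← pow_two, ← ha'2, pow_orderOf_eq_one]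
    have h3 : π a * (π a * x * (π a)⁻¹) * (π a)⁻¹ = x := by
      rw [inv_eq_of_mul_eq_one_right h2]
      calc π a * (π a * x * π a) * π a = (π a * π a) * x * (π a * π a) := by group
        _ = x := by rw [h2]; group
    rwa [h3] at h1
  let L : Subgroup G := D.comap π
  have hLs : Group.IsSolvable L := by
    let f : L →* D := (π.comp L.subtype).codRestrict D (fun x => x.2)
    refine isSolvable_ext f ?_ hDs
    have h1 : ∀ x : f.ker, (x : G) ∈ π.ker := by
      intro x
      have h2 : f x = 1 := x.2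
      exact congrArg Subtype.val h2
    exact Group.isSolvable_of_isSolvable_injective
      (f := ((L.subtype.comp f.ker.subtype).codRestrict π.ker h1)) (by
        intro x y hxy
        have := congrArg (Subtype.val) hxy
        exact Subtype.ext (Subtype.ext this))
  have haL : a ∈ L := (le_sup_right : zpowers (π a) ≤ D) (mem_zpowers _)
  have hhL : h ∈ L := (le_sup_left : zpowers (π h) ≤ D) (mem_zpowers _)
  have hw := val_mem (hDS.subgroup L) (del_val (⟨a, haL⟩ : L) ⟨h, hhL⟩ k)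
  obtain ⟨n, hn⟩ := fit_pow_mem Nat.prime_two hw
  -- `a` centralizes `K 2 L`
  have haK : ∀ y ∈ K 2 L, Commute (y : G) a := by
    intro y hy
    have h1 : K 2 L ≤ centralizer ({(⟨a, haL⟩ : L)} : Set L) := by
      apply iSup_le
      rintro ⟨p, hp⟩
      intro y hy
      rw [mem_centralizer_singleton_iff]
      apply Subtype.ext
      -- `a` has order a power of two
      have h2 : ∃ m : ℕ, a ^ 2 ^ m = 1 := by
        have h3 : a ^ 2 ∈ R := by
          rw [← QuotientGroup.eq_one_iff]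
          show π (a ^ 2) = 1
          rw [map_pow, ← ha'2, pow_orderOf_eq_one]
        rw [hR] at h3
        obtain ⟨m, hm⟩ := Cores.isPGroup_pCore 2 G ⟨_, h3⟩
        refine ⟨m + 1, ?_⟩
        have h4 : (a ^ 2) ^ 2 ^ m = 1 := congrArg Subtype.val hm
        rw [← pow_mul] at h4
        rw [pow_succ, mul_comm]; exact h4
      obtain ⟨m, hm⟩ := h2
      exact (hDS a ha p p.2 ((pCore (p : ℕ) L).map L.subtype) ((Cores.isPGroup_pCore _ _).map _) (by
        rintro _ ⟨z, hz, rfl⟩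
        exact ⟨⟨a, haL⟩ * z * ⟨a, haL⟩⁻¹, (pCore_normal _ _).conj_mem z hz _, rfl⟩)
        (not_dvd_of_pow Nat.prime_two p.2 hp hm) y ⟨y, hy, rfl⟩).eq
    have h2 := mem_centralizer_singleton_iff.1 (h1 hy)
    exact congrArg Subtype.val h2
  have h1 := haK _ hn
  have h2 : (((del (⟨a, haL⟩ : L))^[k] ⟨h, hhL⟩ ^ 2 ^ n : L) : G) = ((del a)^[k] h) ^ 2 ^ n := by
    have := map_del L.subtype (⟨a, haL⟩ : L) ⟨h, hhL⟩ k
    rw [SubmonoidClass.coe_pow]
    exact congrArg (fun x => x ^ 2 ^ n) this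
  rw [h2] at h1
  have h3 := h1.map π
  rw [map_pow, map_del, del_inv hinv, ← pow_mul, ← pow_add] at h3
  -- inverted and centralized
  have h4 : π a * (π h) ^ 2 ^ (k + n) * (π a)⁻¹ = ((π h) ^ 2 ^ (k + n))⁻¹ := by
    rw [← conj_pow, hinv, inv_pow]
  rw [← h3.eq] at h4
  have h5 : (π h) ^ (2 * 2 ^ (k + n)) = 1 := by
    rw [two_mul, pow_add]
    rw [mul_inv_cancel_right] at h4
    nth_rw 1 [h4]
    group
  have h6 : orderOf (π h) ∣ 2 ^ (k + n + 1) := by
    apply orderOf_dvd_of_pow_eq_one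
    rw [pow_succ, mul_comm]; exact h5
  have h7 : Nat.Coprime (orderOf (π h)) (2 ^ (k + n + 1)) := Nat.Coprime.pow_right _ (Nat.coprime_two_right.2 hho)
  have h8 := Nat.dvd_gcd dvd_rfl h6
  rw [h7] at h8
  exact hh1 (orderOf_eq_one_iff.1 (Nat.dvd_one.1 h8))

theorem nilp_of_ds (hFT : ∀ (H : Type u) [Group H] [Finite H], Odd (Nat.card H) → Group.IsSolvable H)
    {k : ℕ} (hDS : DS k G) : Group.IsNilpotent ↥((⊤ : Subgroup G).lowerCentralSeries k) := by
  have hs := solvable_of_ds hFT hDS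
  have h1 : (⊤ : Subgroup G).lowerCentralSeries k ≤ fittingSubgroup G :=
    lcs_le inferInstance (fun x hx => val_mem hDS hx)
  exact Cores.isNilpotent_of_le (Cores.isNilpotent_fittingSubgroup G) h1

end

end Cfsg.Agent.Lib.H64Gam
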