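import Mathlib
import Cfsg.Prelude.Def_HallClasses
import Cfsg.Agent.Lib.JordanCycle
import Cfsg.Agent.Lib.RelSylow

/-!
Sets of primes `π` such that every finite group has a Hall `π`-subgroup (helper64).
-/

set_option autoImplicit false

namespace Cfsg.Agent.Lib.H64HallPi

open Cfsg Equiv MulAction
open scoped Pointwise

theorem exists_cycle {n q : ℕ} (hq : 2 ≤ q) (hqn : q ≤ n) :
    ∃ g : Perm (Fin n), g.IsCycle ∧ g.support.card = q := by
  obtain ⟨g, hg⟩ := (Equiv.Perm.exists_with_cycleType_iff (Fin n) (m := {q})).mpr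
    ⟨by simpa using hqn, by simpa using hq⟩
  refine ⟨g, ?_, ?_⟩
  · rw [← Equiv.Perm.card_cycleType_eq_one, hg]; rfl
  · rw [← Equiv.Perm.sum_cycleType, hg]; simp

/-- A subgroup of `S_n` of index prime to `q` contains a `q`-cycle. -/
theorem exists_cycle_mem {n q : ℕ} (hq : q.Prime) (hqn : q ≤ n) (H : Subgroup (Perm (Fin n)))
    (hH : ¬ q ∣ H.index) : ∃ g ∈ H, g.IsCycle ∧ g.support.card = q := by
  have : Fact q.Prime := ⟨hq⟩
  obtain ⟨σ, hσ, hσc⟩ := exists_cycle hq.two_le hqn
  have ho : orderOf σ = q := by rw [hσ.orderOf, hσc]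
  have hz : IsPGroup q (Subgroup.zpowers σ) := by
    apply IsPGroup.of_card (n := 1)
    rw [Nat.card_zpowers, ho, pow_one]
  obtain ⟨P, hP⟩ := RelSylow.exists_syl q H
  have hPt : RelSylow.IsSyl q P ⊤ := by
    refine ⟨le_top, hP.2.1, ?_⟩
    rw [Subgroup.relIndex_top_right, ← Subgroup.relIndex_mul_index hP.1]
    intro hd
    rcases hq.dvd_mul.mp hd with h | h
    · exact hP.2.2 h
    · exact hH h
  obtain ⟨h, _, hh⟩ := hPt.exists_conj_le hz le_top
  obtain ⟨y, hy, hyσ⟩ := hh (Subgroup.mem_zpowers σ)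
  have hy' : y = h⁻¹ * σ * h := by
    have : h * y * h⁻¹ = σ := hyσ
    rw [← this]; group
  refine ⟨y, hP.1 hy, ?_, ?_⟩
  · rw [hy']
    have := hσ.conj (g := h⁻¹)
    rwa [inv_inv] at this
  · rw [hy', ← hσc]
    have := Equiv.Perm.card_support_conj (σ := h⁻¹) (τ := σ)
    rwa [inv_inv] at this

/-- A subgroup of `S_n`, `n = p ^ a`, of index prime to `p` is transitive. -/
theorem pretransitive_of_index {n p a : ℕ} (hp : p.Prime) (hn : n = p ^ a)
    (H : Subgroup (Perm (Fin n))) (hH : ¬ p ∣ H.index) : IsPretransitive H (Fin n) := by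
  have hn0 : 0 < n := by rw [hn]; exact pow_pos hp.pos a
  let x : Fin n := ⟨0, hn0⟩
  have h1 : Nat.card (orbit H x) * Nat.card (stabilizer H x) = Nat.card H := by
    rw [← Nat.card_prod]
    exact Nat.card_congr (orbitProdStabilizerEquivGroup H x)
  have h2 : Nat.card (orbit (Perm (Fin n)) x) * Nat.card (stabilizer (Perm (Fin n)) x) =
      Nat.card (Perm (Fin n)) := by
    rw [← Nat.card_prod]
    exact Nat.card_congr (orbitProdStabilizerEquivGroup (Perm (Fin n)) x)
  have h3 : Nat.card (orbit (Perm (Fin n)) x) = n := by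
    rw [orbit_eq_univ]
    simp
  have h4 : Nat.card (stabilizer H x) ∣ Nat.card (stabilizer (Perm (Fin n)) x) := by
    let f : stabilizer H x →* stabilizer (Perm (Fin n)) x :=
      { toFun := fun h => ⟨((h : H) : Perm (Fin n)), h.2⟩
        map_one' := rfl
        map_mul' := fun _ _ => rfl }
    apply Subgroup.card_dvd_of_injective f
    intro a b hab
    have := congrArg (fun z : stabilizer (Perm (Fin n)) x => (z : Perm (Fin n))) hab
    exact Subtype.ext (Subtype.ext this)
  obtain ⟨t, ht⟩ := h4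
  have h5 := H.card_mul_index
  rw [← h1, ← h2, h3, ht] at h5
  have h6 : Nat.card (orbit H x) * H.index = n * t := by
    have hpos : 0 < Nat.card (stabilizer H x) := Nat.card_pos
    apply Nat.eq_of_mul_eq_mul_left hpos
    calc Nat.card (stabilizer H x) * (Nat.card (orbit H x) * H.index)
        = Nat.card (orbit H x) * Nat.card (stabilizer H x) * H.index := by ring
      _ = n * (Nat.card (stabilizer H x) * t) := h5
      _ = Nat.card (stabilizer H x) * (n * t) := by ring
  have h7 : p ^ a ∣ Nat.card (orbit H x) := by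
    have h8 : p ^ a ∣ Nat.card (orbit H x) * H.index := by
      rw [h6, ← hn]; exact dvd_mul_right _ _
    exact Nat.Coprime.dvd_of_dvd_mul_right
      (Nat.Coprime.pow_left a ((Nat.Prime.coprime_iff_not_dvd hp).mpr hH)) h8
  have h9 : orbit H x = Set.univ := by
    apply Set.eq_of_subset_of_ncard_le (Set.subset_univ _)
    rw [Set.ncard_univ, Nat.card_eq_fintype_card, Fintype.card_fin]
    have hnt : Nonempty (orbit H x) := ⟨⟨x, mem_orbit_self x⟩⟩
    have h10 : 0 < Nat.card (orbit H x) := Nat.card_pos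
    have := Nat.le_of_dvd h10 h7
    rw [← hn] at this
    exact this
  exact (isPretransitive_iff_orbit_eq_univ x).mpr h9

theorem preprimitive_sq {p q : ℕ} (hp : p.Prime) (hpq : p < q)
    (H : Subgroup (Perm (Fin (p ^ 2)))) (hH : ¬ p ∣ H.index) {g : Perm (Fin (p ^ 2))} (hg : g ∈ H)
    (hgc : g.IsCycle) (hgq : g.support.card = q) (hq : q.Prime) : IsPreprimitive H (Fin (p ^ 2)) := by
  have hpt := pretransitive_of_index hp rfl H hH
  refine ⟨fun {B} hB => ?_⟩
  by_contra hcon
  unfold IsTrivialBlock at hcon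
  push Not at hcon
  obtain ⟨hns, hnu⟩ := hcon
  have hBnt : B.Nontrivial := hns
  have hBne : B.Nonempty := hBnt.nonempty
  -- `|B| = p`
  have hBc : B.ncard = p := by
    have h1 : B.ncard ∣ p ^ 2 := by
      have := hB.ncard_dvd_card hBne
      rwa [Nat.card_eq_fintype_card, Fintype.card_fin] at this
    obtain ⟨k, hk, hk2⟩ := (Nat.dvd_prime_pow hp).mp h1
    interval_cases k
    · exfalso
      have := (Set.one_lt_ncard (s := B)).mpr hBnt
      rw [hk2, pow_zero] at this
      exact lt_irrefl _ this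
    · rw [hk2, pow_one]
    · exfalso
      apply hnu
      apply Set.eq_of_subset_of_ncard_le (Set.subset_univ _)
      rw [Set.ncard_univ, Nat.card_eq_fintype_card, Fintype.card_fin, hk2]
  obtain ⟨x, hx⟩ : ∃ x, g x ≠ x := ⟨hgc.choose, hgc.choose_spec.1⟩
  obtain ⟨b, hb⟩ := hBne
  obtain ⟨h, hh⟩ := hpt.exists_smul_eq b x
  set B' := h • B with hB'
  have hB'b : IsBlock H B' := hB.translate h
  have hxB' : x ∈ B' := ⟨b, hb, hh⟩
  have hB'c : B'.ncard = p := by rw [hB', Set.ncard_smul_set, hBc]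
  have hcoe : ∀ (k : H) (y : Fin (p ^ 2)), k • y = (k : Perm (Fin (p ^ 2))) y := fun _ _ => rfl
  have hmem := hB'b.smul_eq_of_mem
  -- `g • B' = B'`
  have hgB : (⟨g, hg⟩ : H) • B' = B' := by
    by_contra hne
    -- `B'` is inside the support
    have hsupp : ∀ y ∈ B', g y ≠ y := by
      intro y hy hgy
      exact hne (hmem hy (by rw [hcoe, hgy]; exact hy))
    have hnt : B'.Nontrivial := by
      apply (Set.one_lt_ncard (s := B')).mp
      rw [hB'c]
      exact hp.one_lt
    obtain ⟨y, hy, hyx⟩ := hnt.exists_ne x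
    obtain ⟨i, hi⟩ := hgc.sameCycle hx (hsupp y hy)
    -- `g ^ i • B' = B'`
    have h1 : (⟨g, hg⟩ : H) ^ i • B' = B' := by
      apply hmem hxB'
      rw [hcoe]
      change ((g ^ i : Perm (Fin (p ^ 2)))) x ∈ B'
      rw [hi]; exact hy
    have hgo : orderOf g = q := by rw [hgc.orderOf, hgq]
    have hiq : IsCoprime i (q : ℤ) := by
      rw [Int.isCoprime_iff_gcd_eq_one, Int.gcd_comm]
      rw [← Int.isCoprime_iff_gcd_eq_one, (Nat.prime_iff_prime_int.mp hq).coprime_iff_not_dvd]
      intro hd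
      have h2 : g ^ i = 1 := by
        rw [← hgo] at hd
        exact orderOf_dvd_iff_zpow_eq_one.mp hd
      rw [h2] at hi
      exact hyx hi.symm
    obtain ⟨u, v, huv⟩ := hiq
    apply hne
    have h2 : (⟨g, hg⟩ : H) = ((⟨g, hg⟩ : H) ^ i) ^ u := by
      rw [← zpow_mul]
      have e1 : i * u = 1 - v * q := by linarith
      rw [e1, zpow_sub, zpow_one, mul_comm v, zpow_mul]
      have e2 : (⟨g, hg⟩ : H) ^ (q : ℤ) = 1 := by
        apply Subtype.ext
        change g ^ (q : ℤ) = 1
        rw [zpow_natCast, ← hgo, pow_orderOf_eq_one]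
      rw [e2, one_zpow, inv_one, mul_one]
    have h3 : (⟨g, hg⟩ : H) ^ i ∈ stabilizer H B' := h1
    have h4 : (⟨g, hg⟩ : H) ∈ stabilizer H B' := by
      rw [h2]; exact zpow_mem h3 u
    exact h4
  -- the support is inside `B'`
  have hle : (g.support : Set (Fin (p ^ 2))) ⊆ B' := by
    intro y hy
    have hy' : g y ≠ y := Equiv.Perm.mem_support.mp hy
    obtain ⟨i, hi⟩ := hgc.sameCycle hx hy'
    have h3 : (⟨g, hg⟩ : H) ^ i ∈ stabilizer H B' := zpow_mem (show _ ∈ stabilizer H B' from hgB) i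
    have h4 : (⟨g, hg⟩ : H) ^ i • B' = B' := h3
    rw [← h4]
    exact ⟨x, hxB', hi⟩
  have h5 := Set.ncard_le_ncard hle
  rw [Set.ncard_coe_finset, hgq, hB'c] at h5
  omega

/-- primes up to `n` divide the order of a group containing `A_n`, `n ≥ 4`. -/
theorem prime_dvd_of_alternating_le {n r : ℕ} (hn : 4 ≤ n) (hr : r.Prime) (hrn : r ≤ n)
    (H : Subgroup (Perm (Fin n))) (hH : alternatingGroup (Fin n) ≤ H) : r ∣ Nat.card H := by
  refine dvd_trans ?_ (Subgroup.card_dvd_of_le hH)
  have hnt : Nontrivial (Fin n) := Fin.nontrivial_iff_two_le.mpr (by omega)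
  have h1 : 2 * Nat.card (alternatingGroup (Fin n)) = n.factorial := by
    rw [two_mul_nat_card_alternatingGroup, Nat.card_eq_fintype_card, Fintype.card_perm, Fintype.card_fin]
  by_cases hr2 : r = 2
  · subst hr2
    have h2 : 4 ∣ n.factorial := Nat.dvd_factorial (by norm_num) hn
    rw [← h1] at h2
    omega
  · have h2 : r ∣ 2 * Nat.card (alternatingGroup (Fin n)) := by
      rw [h1]; exact Nat.dvd_factorial hr.pos hrn
    rcases hr.dvd_mul.mp h2 with h | h
    · exact absurd ((Nat.prime_dvd_prime_iff_eq hr Nat.prime_two).mp h) hr2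
    · exact h

variable {π : Set ℕ}

theorem primes_le_sq (hE : ∀ (G : Type) [Group G] [Finite G], IsEPiGroup π G) {p q : ℕ}
    (hp : p.Prime) (hq : q.Prime) (hpπ : p ∈ π) (hqπ : q ∈ π) (hpq : p < q) (hq2 : q + 3 ≤ p ^ 2)
    {r : ℕ} (hr : r.Prime) (hrp : r ≤ p ^ 2) : r ∈ π := by
  obtain ⟨H, hH1, hH2⟩ := hE (Perm (Fin (p ^ 2)))
  obtain ⟨g, hg, hgc, hgq⟩ := exists_cycle_mem hq (by omega) H (hH2 q hq hqπ)
  have hprim := preprimitive_sq hp hpq H (hH2 p hp hpπ) hg hgc hgq hq
  have hle := JordanCycle.jordan H hprim hq (by rwa [Fintype.card_fin]) hgc hgq hg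
  have hp2 := hp.two_le
  exact hH1 r hr (prime_dvd_of_alternating_le (by nlinarith) hr hrp H hle)

theorem primes_le (hE : ∀ (G : Type) [Group G] [Finite G], IsEPiGroup π G) {p q : ℕ}
    (hp : p.Prime) (hq : q.Prime) (hpπ : p ∈ π) (hqπ : q ∈ π) (hpq : p + 3 ≤ q)
    {r : ℕ} (hr : r.Prime) (hrq : r ≤ q) : r ∈ π := by
  obtain ⟨H, hH1, hH2⟩ := hE (Perm (Fin q))
  obtain ⟨g, hg, hgc, hgq⟩ := exists_cycle_mem hp (by omega) H (hH2 p hp hpπ)
  have hpt : IsPretransitive H (Fin q) := pretransitive_of_index (a := 1) hq (pow_one q).symm H (hH2 q hq hqπ)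
  have hprim : IsPreprimitive H (Fin q) := IsPreprimitive.of_prime_card (by
    rw [Nat.card_eq_fintype_card, Fintype.card_fin]; exact hq)
  have hle := JordanCycle.jordan H hprim hp (by rwa [Fintype.card_fin]) hgc hgq hg
  have hp2 := hp.two_le
  exact hH1 r hr (prime_dvd_of_alternating_le (by omega) hr hrq H hle)

/-- `S_6` has no subgroup of index 5. -/
theorem index_ne_five (H : Subgroup (Perm (Fin 6))) : H.index ≠ 5 := by
  intro h5
  have hc : Nat.card (Perm (Fin 6)) = 720 := by
    rw [Nat.card_eq_fintype_card, Fintype.card_perm, Fintype.card_fin]; rfl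
  let f : Perm (Fin 6) →* Perm (Perm (Fin 6) ⧸ H) := MulAction.toPermHom (Perm (Fin 6)) (Perm (Fin 6) ⧸ H)
  have hcH : Nat.card (Perm (Fin 6) ⧸ H) = 5 := by rw [← Subgroup.index_eq_card, h5]
  have hkH : f.ker ≤ H := by
    change (MulAction.toPermHom (Perm (Fin 6)) (Perm (Fin 6) ⧸ H)).ker ≤ H
    rw [← Subgroup.normalCore_eq_ker]
    exact Subgroup.normalCore_le H
  by_cases hker : f.ker = ⊥
  · have hinj : Function.Injective f := (MonoidHom.ker_eq_bot_iff f).1 hker
    have h1 := Subgroup.card_dvd_of_injective f hinj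
    rw [hc, Nat.card_perm, hcH] at h1
    have h2 : Nat.factorial 5 = 120 := rfl
    rw [h2] at h1
    exact absurd (Nat.le_of_dvd (by norm_num) h1) (by norm_num)
  · have hnt : Nontrivial f.ker := (Subgroup.nontrivial_iff_ne_bot _).2 hker
    have hle := Equiv.Perm.alternatingGroup_le_of_normal (α := Fin 6) (N := f.ker) (by simp) hnt
    have h2 : H.index ∣ (alternatingGroup (Fin 6)).index := Subgroup.index_dvd_of_le (hle.trans hkH)
    rw [alternatingGroup.index_eq_two, h5] at h2
    exact absurd (Nat.le_of_dvd (by norm_num) h2) (by norm_num)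

theorem five_mem (hE : ∀ (G : Type) [Group G] [Finite G], IsEPiGroup π G) (h2 : 2 ∈ π) (h3 : 3 ∈ π) :
    5 ∈ π := by
  obtain ⟨H, hH1, hH2⟩ := hE (Perm (Fin 6))
  have hc : Nat.card (Perm (Fin 6)) = 720 := by
    rw [Nat.card_eq_fintype_card, Fintype.card_perm, Fintype.card_fin]; rfl
  have h4 : Nat.card H * H.index = 720 := by rw [← hc]; exact H.card_mul_index
  have h5 := hH2 2 Nat.prime_two h2
  have h6 := hH2 3 Nat.prime_three h3
  have h7 : H.index ∣ 5 := by
    have h8 : H.index ∣ 2 ^ 4 * (3 ^ 2 * 5) := ⟨Nat.card H, by rw [mul_comm] at h4; omega⟩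
    have h9 : (H.index).Coprime (2 ^ 4) :=
      Nat.Coprime.pow_right 4 ((Nat.Prime.coprime_iff_not_dvd Nat.prime_two).mpr h5).symm
    have h10 : (H.index).Coprime (3 ^ 2) :=
      Nat.Coprime.pow_right 2 ((Nat.Prime.coprime_iff_not_dvd Nat.prime_three).mpr h6).symm
    exact h10.dvd_of_dvd_mul_left (h9.dvd_of_dvd_mul_left h8)
  rcases (Nat.dvd_prime Nat.prime_five).mp h7 with h8 | h8
  · apply hH1 5 Nat.prime_five
    rw [h8, mul_one] at h4
    rw [h4]; norm_num
  · exact absurd h8 (index_ne_five H)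

theorem all_primes (hE : ∀ (G : Type) [Group G] [Finite G], IsEPiGroup π G) {p q : ℕ}
    (hp : p.Prime) (hq : q.Prime) (hpπ : p ∈ π) (hqπ : q ∈ π) (hpq : p < q) :
    ∀ r : ℕ, r.Prime → r ∈ π := by
  -- 2 and 3
  have h23 : 2 ∈ π ∧ 3 ∈ π := by
    by_cases h1 : p + 3 ≤ q
    · have h2 := hp.two_le
      exact ⟨primes_le hE hp hq hpπ hqπ h1 Nat.prime_two (by omega),
        primes_le hE hp hq hpπ hqπ h1 Nat.prime_three (by omega)⟩
    · by_cases h2 : p = 2
      · have h3 : q = 3 := by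
          have : q = 3 ∨ q = 4 := by omega
          rcases this with h | h
          · exact h
          · rw [h] at hq; exact absurd hq (by norm_num)
        rw [h2] at hpπ; rw [h3] at hqπ
        exact ⟨hpπ, hqπ⟩
      · have h3 : 3 ≤ p := by have := hp.two_le; omega
        have h4 : q + 3 ≤ p ^ 2 := by
          have h5 : q ≤ p + 2 := by omega
          by_cases h6 : p = 3
          · subst h6; omega
          · by_cases h7 : p = 4
            · rw [h7] at hp; exact absurd hp (by norm_num)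
            · have h8 : 5 ≤ p := by omega
              nlinarith
        exact ⟨primes_le_sq hE hp hq hpπ hqπ hpq h4 Nat.prime_two (by nlinarith),
          primes_le_sq hE hp hq hpπ hqπ hpq h4 Nat.prime_three (by nlinarith)⟩
  obtain ⟨h2, h3⟩ := h23
  have h5 := five_mem hE h2 h3
  have h7 : 7 ∈ π := primes_le_sq hE Nat.prime_three Nat.prime_five h3 h5 (by norm_num) (by norm_num)
    (by norm_num) (by norm_num)
  have h25 : ∀ r : ℕ, r.Prime → r ≤ 25 → r ∈ π := fun r hr hr25 =>
    primes_le_sq hE Nat.prime_five (by norm_num : Nat.Prime 7) h5 h7 (by norm_num) (by norm_num) hr hr25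
  intro r
  induction r using Nat.strong_induction_on with
  | _ r ih =>
  intro hr
  by_cases hr25 : r ≤ 25
  · exact h25 r hr hr25
  -- Bertrand twice
  obtain ⟨s, hs, hs1, hs2⟩ := Nat.exists_prime_lt_and_le_two_mul (r / 4) (by omega)
  obtain ⟨t, ht, ht1, ht2⟩ := Nat.exists_prime_lt_and_le_two_mul s hs.ne_zero
  have hs3 : 2 * s ≤ r := by omega
  have hr2 : ¬ 2 ∣ r := fun h => by
    have := (Nat.prime_dvd_prime_iff_eq Nat.prime_two hr).mp h
    omega
  have htr : t < r := by
    have : t ≠ r := by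
      intro h
      apply hr2
      have : r = 2 * s := by omega
      exact ⟨s, this⟩
    omega
  have hs4 : r < 4 * s + 4 := by omega
  have hs7 : 7 ≤ s := by omega
  refine primes_le_sq hE hs ht (ih s (by omega) hs) (ih t htr ht) ht1 (by nlinarith) hr (by nlinarith)

/-- `D_π` implies `E_π`. -/
theorem isEPiGroup_of_isDPiGroup {G : Type*} [Group G] [Finite G] (h : IsDPiGroup π G) :
    IsEPiGroup π G := by
  have hex : ∀ K : Subgroup G, IsPiSubgroup π K → ∃ M, K ≤ M ∧ Maximal (IsPiSubgroup π) M := by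
    intro K hK
    exact (Set.toFinite {M : Subgroup G | IsPiSubgroup π M}).exists_le_maximal hK
  obtain ⟨H, _, hH⟩ := hex ⊥ (by
    intro p hp hd
    rw [Subgroup.card_bot] at hd
    exact absurd (Nat.dvd_one.mp hd) hp.one_lt.ne')
  refine ⟨H, hH.prop, ?_⟩
  intro p hp hpπ hd
  have hpF : Fact p.Prime := ⟨hp⟩
  obtain ⟨P⟩ : Nonempty (Sylow p G) := inferInstance
  obtain ⟨K, hPK, hK⟩ := hex P (by
    intro r hr hd
    obtain ⟨n, hn⟩ := IsPGroup.iff_card.mp P.2
    have hd' : r ∣ p ^ n := by rw [← hn]; exact hd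
    rw [(Nat.prime_dvd_prime_iff_eq hr hp).mp (hr.dvd_of_dvd_pow hd')]
    exact hpπ)
  obtain ⟨g, rfl⟩ := h H K hH hK
  have h1 : (P : Subgroup G).index = (P : Subgroup G).relIndex (H.map (MulAut.conj g).toMonoidHom) *
      (H.map (MulAut.conj g).toMonoidHom).index := (Subgroup.relIndex_mul_index hPK).symm
  have h2 : (H.map (MulAut.conj g).toMonoidHom).index = H.index := by
    have h3 := (H.map (MulAut.conj g).toMonoidHom).card_mul_index
    rw [RelSylow.card_conj, ← H.card_mul_index] at h3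
    exact Nat.eq_of_mul_eq_mul_left Nat.card_pos h3
  apply P.not_dvd_index
  rw [h1, h2]
  exact hd.trans (dvd_mul_left _ _)

/-- `D_π` holds for a single prime or all primes. -/
theorem isDPiGroup_of_cond {G : Type*} [Group G] [Finite G]
    (h : (∀ p q : ℕ, p.Prime → q.Prime → p ∈ π → q ∈ π → p = q) ∨ ∀ p : ℕ, p.Prime → p ∈ π) :
    IsDPiGroup π G := by
  intro H K hH hK
  rcases h with h | h
  · by_cases hex : ∃ p : ℕ, p.Prime ∧ p ∈ π
    · obtain ⟨p, hp, hpπ⟩ := hex
      have hpF : Fact p.Prime := ⟨hp⟩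
      have h1 : ∀ X : Subgroup G, IsPiSubgroup π X → IsPGroup p X := by
        intro X hX
        rw [IsPGroup.iff_card]
        exact ⟨_, Nat.eq_prime_pow_of_unique_prime_dvd Nat.card_pos.ne'
          (fun {r} hr hd => h r p hr hp (hX r hr hd) hpπ)⟩
      have h2 : ∀ P : Sylow p G, IsPiSubgroup π (P : Subgroup G) := by
        intro P r hr hd
        obtain ⟨n, hn⟩ := IsPGroup.iff_card.mp P.2
        have hd' : r ∣ p ^ n := by rw [← hn]; exact hd
        rw [(Nat.prime_dvd_prime_iff_eq hr hp).mp (hr.dvd_of_dvd_pow hd')]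
        exact hpπ
      have h3 : ∀ X : Subgroup G, Maximal (IsPiSubgroup π) X → ∃ P : Sylow p G, (P : Subgroup G) = X := by
        intro X hX
        obtain ⟨P, hP⟩ := (h1 X hX.prop).exists_le_sylow
        exact ⟨P, (hX.eq_of_le (h2 P) hP).symm⟩
      obtain ⟨P, rfl⟩ := h3 H hH
      obtain ⟨Q, rfl⟩ := h3 K hK
      obtain ⟨g, hg⟩ := MulAction.exists_smul_eq G P Q
      refine ⟨g, ?_⟩
      rw [← hg]
      rfl
    · push Not at hex
      have h1 : ∀ X : Subgroup G, IsPiSubgroup π X → X = ⊥ := by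
        intro X hX
        rw [← Subgroup.card_eq_one]
        by_contra hne
        obtain ⟨r, hr, hd⟩ := Nat.exists_prime_and_dvd hne
        exact hex r hr (hX r hr hd)
      refine ⟨1, ?_⟩
      rw [h1 K hK.prop, h1 H hH.prop, Subgroup.map_bot]
  · have h1 : ∀ X : Subgroup G, Maximal (IsPiSubgroup π) X → X = ⊤ := by
      intro X hX
      exact hX.eq_of_le (fun r hr _ => h r hr) le_top
    refine ⟨1, ?_⟩
    rw [h1 K hK, h1 H hH]
    exact (Subgroup.map_top_of_surjective _ (MulAut.conj (1 : G)).surjective).symm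

end Cfsg.Agent.Lib.H64HallPi
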