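import Mathlib
import Cfsg.Agent.Lib.LocBase
import Cfsg.Agent.Lib.PReduced
import Cfsg.Agent.Lib.Layer
import Cfsg.Agent.Lib.Components
import Cfsg.Agent.Lib.CoprimeAction
import Cfsg.Agent.Lib.CoprimeAction2
import Cfsg.Agent.Lib.PGroupMeta
import Cfsg.Agent.Lib.H70Frattini

/-!
# Isolated `p`-minimal subgroups: the group modulo its `p`-core (helper64)
-/

set_option autoImplicit false
set_option linter.unusedSectionVars false

namespace Cfsg.Agent.Lib.H64IsoHat

open Subgroup Cfsg Cfsg.Agent.Lib Cfsg.Agent.Lib.LocBase Cfsg.Agent.Lib.Components Cfsg.Agent.Lib.Layer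
  Cfsg.Agent.Lib.PReduced

open scoped commutatorElement

variable {H : Type*} [Group H] [Finite H]

/-- coprime action centralizing Sylow `r`-subgroups for all primes `r ≠ t` -/
theorem isPGroup_commutator {A K : Subgroup H} (hAK : A ≤ normalizer (K : Set H))
    (hcop : (Nat.card A).Coprime (Nat.card K)) (hsolv : Group.IsSolvable A ∨ Group.IsSolvable K)
    {t : ℕ} [ht : Fact t.Prime]
    (h : ∀ r : ℕ, r.Prime → r ≠ t → ∃ Rr : Subgroup H, IsSyl r Rr K ∧ Rr ≤ centralizer (A : Set H)) :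
    IsPGroup t ↥(⁅K, A⁆ : Subgroup H) := by
  obtain ⟨T, hTK, hTp, hTi, hAT⟩ := CoprimeAction.exists_invariant_sylow hAK hcop hsolv t
  set C := K ⊓ centralizer (A : Set H) with hC
  have hCK : C ≤ K := inf_le_left
  have hc : (C.relIndex K).Coprime (T.relIndex K) := by
    rw [Nat.coprime_iff_gcd_eq_one]
    by_contra hne
    obtain ⟨r, hr, hrd⟩ := Nat.exists_prime_and_dvd hne
    have h1 : r ∣ C.relIndex K := hrd.trans (Nat.gcd_dvd_left _ _)
    have h2 : r ∣ T.relIndex K := hrd.trans (Nat.gcd_dvd_right _ _)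
    by_cases hrt : r = t
    · rw [hrt] at h2; exact hTi h2
    · obtain ⟨Rr, hRr, hRA⟩ := h r hr hrt
      apply hRr.ndvd
      exact h1.trans (Subgroup.relIndex_dvd_of_le_left K (le_inf hRr.le hRA))
  have hle : ⁅K, A⁆ ≤ T := by
    rw [commutator_le]
    intro k hk a ha
    obtain ⟨c, hc', τ, hτ, hcτ⟩ := CoprimeAction2.exists_mul_of_coprime_relIndex (H := T) (P := C) (K := K)
      hTK hCK hc (K.inv_mem hk)
    have h1 : a * c = c * a := by
      have := mem_centralizer_iff.1 hc'.2 a ha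
      exact this
    have h2 : ⁅k, a⁆ = τ⁻¹ * (a * τ * a⁻¹) := by
      have h3 : k = τ⁻¹ * c⁻¹ := by
        rw [← mul_inv_rev, hcτ, inv_inv]
      rw [commutatorElement_def, h3]
      calc τ⁻¹ * c⁻¹ * a * (τ⁻¹ * c⁻¹)⁻¹ * a⁻¹ = τ⁻¹ * c⁻¹ * (a * c) * τ * a⁻¹ := by group
        _ = τ⁻¹ * c⁻¹ * (c * a) * τ * a⁻¹ := by rw [h1]
        _ = _ := by group
    rw [h2]
    exact T.mul_mem (T.inv_mem hτ) (conj_mem_of_le_normalizer hAT ha hτ)
  exact hTp.to_le hle

/-- structure of a normal subgroup `Y` such that each normal subgroup not containing `Y` centralizes `Y`. -/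
theorem structure_of_norm {Y : Subgroup H} (hY : Y.Normal)
    (hnorm : ∀ N : Subgroup H, N.Normal → Y ≤ N ∨ ⁅N, Y⁆ = ⊥) :
    ⁅(⁅Y, Y⁆ : Subgroup H), Y⁆ = ⊥ ∨ (⁅Y, Y⁆ = Y ∧ Y ≠ ⊥ ∧ Y = sSup {K : Subgroup H | IsComponent K ∧ K ≤ Y}) := by
  rcases hnorm ⁅Y, Y⁆ inferInstance with h1 | h1
  swap
  · exact Or.inl h1
  have hperf : ⁅Y, Y⁆ = Y := le_antisymm (commutator_le_self _) h1
  by_cases hY1 : Y = ⊥
  · left; rw [hY1]; simp
  right
  refine ⟨hperf, hY1, ?_⟩
  set E := sSup {K : Subgroup H | IsComponent K ∧ K ≤ Y} with hE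
  have hEY : E ≤ Y := sSup_le fun K hK => hK.2
  have hEn : E.Normal := by
    rw [← normalizer_eq_top_iff, eq_top_iff]
    intro g _
    apply mem_normalizer_of_map_conj_le
    rw [hE, Subgroup.map_le_iff_le_comap]
    apply sSup_le
    rintro K ⟨hK, hKY⟩
    rw [← Subgroup.map_le_iff_le_comap]
    apply le_sSup
    refine ⟨isComponent_conj g hK, ?_⟩
    have h2 := map_conj_mono g hKY
    have hYt : g ∈ normalizer (Y : Set H) := by
      rw [normalizer_eq_top_iff.2 hY]; trivial
    rwa [map_conj_eq_of_mem hYt] at h2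
  rcases hnorm E hEn with h2 | h2
  · exact le_antisymm h2 hEY
  exfalso
  -- no component lies in `Y`
  have hno : ∀ K : Subgroup H, IsComponent K → ¬ K ≤ Y := by
    intro K hK hKY
    have h3 : K ≤ E := le_sSup ⟨hK, hKY⟩
    apply component_not_le_centralizer_self hK
    rw [le_centralizer_iff_commutator, eq_bot_iff, ← h2]
    exact commutator_mono h3 hKY
  have hlayer : Y ≤ centralizer (layer H : Set H) := by
    apply le_centralizer_comm
    apply sSup_le
    intro K hK
    exact (component_le_or_le_centralizer hK hY.isSubnormal).resolve_left (hno K hK)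
  have hfitt : Y ≤ centralizer (fittingSubgroup H : Set H) := by
    have hn : (fittingSubgroup H ⊓ Y).Normal := inferInstance
    rcases hnorm _ hn with h3 | h3
    · exfalso
      apply hY1
      have h4 : Y ≤ fittingSubgroup H := h3.trans inf_le_left
      have h5 : Group.IsSolvable Y := isSolvable_of_le' h4 isSolvable_fittingSubgroup
      have h6 : Group.IsPerfect Y := isPerfect_iff'.2 hperf
      by_contra h7
      have : Nontrivial Y := (Subgroup.nontrivial_iff_ne_bot Y).2 h7
      exact Group.IsPerfect.not_isSolvable Y h5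
    · have h4 : ⁅(⁅Y, fittingSubgroup H⁆ : Subgroup H), Y⁆ = ⊥ := by
        rw [eq_bot_iff, ← h3]
        apply commutator_mono _ le_rfl
        rw [inf_comm]
        exact commutator_le_inf _ _
      have h5 : ⁅(⁅fittingSubgroup H, Y⁆ : Subgroup H), Y⁆ = ⊥ := by
        rw [commutator_comm (fittingSubgroup H) Y]; exact h4
      have h6 : ⁅(⁅Y, Y⁆ : Subgroup H), fittingSubgroup H⁆ = ⊥ :=
        commutator_commutator_eq_bot_of_rotate h4 h5
      rw [hperf] at h6
      exact le_centralizer_iff_commutator.2 h6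
  have h3 : Y ≤ centralizer (generalizedFittingSubgroup H : Set H) := by
    unfold generalizedFittingSubgroup
    exact le_centralizer_sup hlayer hfitt
  have h4 : Y ≤ generalizedFittingSubgroup H := h3.trans centralizer_genFitting_le
  apply hY1
  apply eq_bot_of_perfect_of_le_centralizer hperf
  exact h3.trans (centralizer_le (by exact_mod_cast h4))


/-- The situation in `G / O_p(G)`. -/
structure Hat (p : ℕ) (S Q R Y L : Subgroup H) : Prop where
  hY : Y.Normal
  hSp : IsPGroup p S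
  hSL : S ≤ L
  hQS : Q ≤ S
  hQL : L ≤ normalizer (Q : Set H)
  hYL : Y ⊔ L = ⊤
  hRL : R ⊔ L = ⊤
  hYnL : ¬ Y ≤ L
  hQn : ¬ Q.Normal
  hRY : R ≤ Y
  hSR : S ≤ normalizer (R : Set H)
  hRY' : ∀ N : Subgroup H, N.Normal → R ≤ N → Y ≤ N
  norm : ∀ N : Subgroup H, N.Normal → Y ≤ N ∨ (⁅N, Y⁆ = ⊥ ∧ ⁅N, Q⁆ = ⊥)
  inv : ∀ W : Subgroup H, W ≤ Y → S ≤ normalizer (W : Set H) → R ≤ W ∨ W ≤ L
  hpc : pCore p H = ⊥

section

variable {p : ℕ} [hp : Fact p.Prime] {S Q R Y L : Subgroup H}

theorem normal_iff_top {N : Subgroup H} : N.Normal ↔ (⊤ : Subgroup H) ≤ normalizer (N : Set H) := by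
  rw [← normalizer_eq_top_iff, top_le_iff]

theorem Hat.normal_of (h : Hat p S Q R Y L) {N : Subgroup H} (h1 : Y ≤ normalizer (N : Set H))
    (h2 : L ≤ normalizer (N : Set H)) : N.Normal := by
  rw [normal_iff_top, ← h.hYL]
  exact sup_le h1 h2

theorem Hat.Y_ne_bot (h : Hat p S Q R Y L) : Y ≠ ⊥ := by
  intro h1
  apply h.hYnL
  rw [h1]; exact bot_le

theorem Hat.R_ne_bot (h : Hat p S Q R Y L) : R ≠ ⊥ := by
  intro h1
  apply h.Y_ne_bot
  rw [eq_bot_iff]
  exact h.hRY' ⊥ inferInstance (by rw [h1])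

theorem Hat.top_le_Y (h : Hat p S Q R Y L) : (⊤ : Subgroup H) ≤ normalizer (Y : Set H) := normal_iff_top.1 h.hY

/-- `S` permutes the components of `Y` transitively. -/
theorem Hat.transitive (h : Hat p S Q R Y L) (hperf : ⁅Y, Y⁆ = Y)
    (hsup : Y = sSup {K : Subgroup H | IsComponent K ∧ K ≤ Y}) {K₁ K₂ : Subgroup H}
    (hK₁ : IsComponent K₁) (hK₁Y : K₁ ≤ Y) (hK₂ : IsComponent K₂) (hK₂Y : K₂ ≤ Y) :
    ∃ s ∈ S, K₂ = K₁.map (MulAut.conj s).toMonoidHom := by
  by_contra hcon
  push Not at hcon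
  -- a component in `Y` is normalized by `Y`
  have hYn : ∀ K : Subgroup H, IsComponent K → Y ≤ normalizer (K : Set H) := by
    intro K hK
    have h1 : sSup {K' : Subgroup H | IsComponent K' ∧ K' ≤ Y} ≤ normalizer (K : Set H) := by
      apply sSup_le
      rintro K' ⟨hK', -⟩
      rcases component_eq_or_le_centralizer hK' hK with h2 | h2
      · rw [h2]; exact le_normalizer
      · exact h2.trans (centralizer_le_normalizer' K)
    rw [← hsup] at h1
    exact h1
  -- no component of `Y` lies in `L`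
  have hnoL : ∀ K : Subgroup H, IsComponent K → K ≤ Y → ¬ K ≤ L := by
    intro K hK hKY hKL
    have h1 : ncl L K ≤ L := ncl_le hKL le_normalizer
    have h2 : (ncl L K).Normal := by
      apply h.normal_of _ (le_normalizer_ncl L K)
      -- `Y` normalizes each conjugate
      intro y hy
      apply mem_normalizer_of_map_conj_le
      unfold ncl
      rw [Subgroup.map_iSup]
      apply iSup_le
      intro g
      have h3 := hYn _ (isComponent_conj (g : H) hK) hy
      rw [map_conj_eq_of_mem h3]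
      exact le_iSup (fun g : ↥L => K.map (MulAut.conj (g : H)).toMonoidHom) g
    rcases h.norm _ h2 with h3 | h3
    · exact h.hYnL (h3.trans h1)
    · apply component_not_le_centralizer_self hK
      rw [le_centralizer_iff_commutator, eq_bot_iff, ← h3.1]
      exact commutator_mono (le_ncl L K) hKY
  have hncl : ∀ K : Subgroup H, IsComponent K → K ≤ Y → R ≤ ncl S K := by
    intro K hK hKY
    have h1 : ncl S K ≤ Y := ncl_le hKY (le_top.trans h.top_le_Y)
    rcases h.inv _ h1 (le_normalizer_ncl S K) with h2 | h2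
    · exact h2
    · exact absurd ((le_ncl S K).trans h2) (hnoL K hK hKY)
  have hR1 := hncl K₁ hK₁ hK₁Y
  have hR2 := hncl K₂ hK₂ hK₂Y
  -- `R` is centralized by `Y`
  have hRc : Y ≤ centralizer (R : Set H) := by
    have h1 : sSup {K' : Subgroup H | IsComponent K' ∧ K' ≤ Y} ≤ centralizer (R : Set H) := by
      apply sSup_le
      rintro K ⟨hK, hKY⟩
      by_cases hc : ∃ s ∈ S, K = K₁.map (MulAut.conj s).toMonoidHom
      · -- `K` commutes with `ncl S K₂`
        obtain ⟨s, hs, hKs⟩ := hc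
        have h2 : K ≤ centralizer (ncl S K₂ : Set H) := by
          apply le_centralizer_iSup
          rintro ⟨g, hg⟩
          apply components_commute hK (isComponent_conj g hK₂)
          intro h3
          apply hcon (g⁻¹ * s) (S.mul_mem (S.inv_mem hg) hs)
          have h4 := congrArg (Subgroup.map (MulAut.conj g⁻¹).toMonoidHom) h3
          rw [← map_conj_mul, inv_mul_cancel, map_conj_one, hKs, ← map_conj_mul] at h4
          exact h4.symm
        exact h2.trans (centralizer_le (by exact_mod_cast hR2))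
      · have h2 : K ≤ centralizer (ncl S K₁ : Set H) := by
          apply le_centralizer_iSup
          rintro ⟨g, hg⟩
          apply components_commute hK (isComponent_conj g hK₁)
          intro h3
          exact hc ⟨g, hg, h3⟩
        exact h2.trans (centralizer_le (by exact_mod_cast hR1))
    rw [← hsup] at h1
    exact h1
  have hcn : (centralizer (Y : Set H)).Normal := by
    have := h.hY
    infer_instance
  have h1 : Y ≤ centralizer (Y : Set H) := h.hRY' _ hcn (le_centralizer_comm hRc)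
  exact h.Y_ne_bot (eq_bot_of_perfect_of_le_centralizer hperf h1)

/-- The nilpotent case: `p` does not divide `|Y|`. -/
theorem Hat.not_dvd (h : Hat p S Q R Y L) (hnil : Group.IsNilpotent Y) : ¬ p ∣ Nat.card Y := by
  intro hdvd
  obtain ⟨T⟩ : Nonempty (Sylow p Y) := inferInstance
  have hTn : (T : Subgroup Y).Normal :=
    Sylow.normal_of_normalizerCondition (Group.normalizerCondition_of_isNilpotent) T
  have hTc : (T : Subgroup Y).Characteristic := T.characteristic_of_normal hTn
  have := h.hY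
  have h1 : ((T : Subgroup Y).map Y.subtype).Normal := map_subtype_normal hTc
  have h2 : (T : Subgroup Y).map Y.subtype ≤ pCore p H := le_pCore h1 (T.2.map _)
  rw [h.hpc, le_bot_iff, Subgroup.map_eq_bot_iff_of_injective _ Y.subtype_injective] at h2
  have h3 := T.not_dvd_index
  rw [h2, Subgroup.index_bot] at h3
  exact h3 hdvd

/-- The coprime case. -/
theorem Hat.coprime_case (h : Hat p S Q R Y L) (hpY : ¬ p ∣ Nat.card Y) :
    Y = R ∧ ∃ t : ℕ, t.Prime ∧ t ≠ p ∧ IsPGroup t Y := by
  have hYn := h.hY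
  have hSY : S ≤ normalizer (Y : Set H) := le_top.trans h.top_le_Y
  have hQY : Q ≤ normalizer (Y : Set H) := le_top.trans h.top_le_Y
  have hcopS : (Nat.card S).Coprime (Nat.card Y) := by
    obtain ⟨k, hk⟩ := IsPGroup.iff_card.mp h.hSp
    rw [hk]
    exact Nat.Coprime.pow_left k ((Nat.Prime.coprime_iff_not_dvd hp.out).2 hpY)
  have hQp : IsPGroup p Q := h.hSp.to_le h.hQS
  have hcopQ : (Nat.card Q).Coprime (Nat.card Y) :=
    Nat.Coprime.coprime_dvd_left (Subgroup.card_dvd_of_le h.hQS) hcopS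
  have hsolS : Group.IsSolvable S := by
    have := h.hSp.isNilpotent
    infer_instance
  have hsolQ : Group.IsSolvable Q := by
    have := hQp.isNilpotent
    infer_instance
  have hQYbot : Q ⊓ Y = ⊥ := by
    rw [eq_bot_iff]
    intro x hx
    rw [mem_bot]
    have h1 : orderOf x ∣ Nat.card Q := by
      have := orderOf_dvd_natCard (⟨x, hx.1⟩ : Q)
      rwa [Subgroup.orderOf_mk] at this
    have h2 : orderOf x ∣ Nat.card Y := by
      have := orderOf_dvd_natCard (⟨x, hx.2⟩ : Y)
      rwa [Subgroup.orderOf_mk] at this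
    exact orderOf_eq_one_iff.1 (Nat.eq_one_of_dvd_coprimes hcopQ h1 h2)
  -- subgroups of `Y ∩ L` are centralized by `Q`
  have hcentr : ∀ W : Subgroup H, W ≤ Y → W ≤ L → ⁅W, Q⁆ = ⊥ := by
    intro W hWY hWL
    rw [eq_bot_iff, ← hQYbot]
    apply le_inf
    · exact commutator_le_right_of_le (hWL.trans h.hQL)
    · exact (commutator_mono hWY le_rfl).trans (commutator_le_left_of_le hQY)
  -- `[Y,Q] = Y`
  have hYQ : ⁅Y, Q⁆ = Y := by
    have h1 : (⁅Y, Q⁆ : Subgroup H).Normal := by
      apply h.normal_of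
      · exact normalizer_commutator_ge_left Y Q
      · exact le_normalizer_commutator (le_top.trans h.top_le_Y) h.hQL
    rcases h.norm _ h1 with h2 | h2
    · exact le_antisymm (commutator_le_left_of_le hQY) h2
    · exfalso
      have h3 := CoprimeAction2.commutator_eq_bot_of_commutator_commutator hQY hcopQ (Or.inl hsolQ) h2.2
      apply h.hQn
      apply h.normal_of _ h.hQL
      exact (le_centralizer_iff_commutator.2 h3).trans (centralizer_le_normalizer' Q)
  -- invariant Sylow subgroups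
  have hsyl : ∀ r : ℕ, r.Prime → ∃ Yr : Subgroup H, IsSyl r Yr Y ∧ S ≤ normalizer (Yr : Set H) := by
    intro r hr
    have : Fact r.Prime := ⟨hr⟩
    obtain ⟨Yr, h1, h2, h3, h4⟩ := CoprimeAction.exists_invariant_sylow hSY hcopS (Or.inl hsolS) r
    exact ⟨Yr, ⟨h1, h2, h3⟩, h4⟩
  choose! Yr hYr hSYr using hsyl
  obtain ⟨t, ht, hRt⟩ : ∃ t : ℕ, t.Prime ∧ R ≤ Yr t := by
    by_contra hcon
    push Not at hcon
    apply h.hYnL
    have h1 : ∀ r : ℕ, r.Prime → Yr r ≤ L := fun r hr =>
      (h.inv _ (hYr r hr).le (hSYr r hr)).resolve_left (hcon r hr)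
    have h2 : (Y ⊓ L).relIndex Y = 1 := by
      by_contra hne
      obtain ⟨r, hr, hrd⟩ := Nat.exists_prime_and_dvd hne
      apply (hYr r hr).ndvd
      exact hrd.trans (Subgroup.relIndex_dvd_of_le_left Y (le_inf (hYr r hr).le (h1 r hr)))
    exact (Subgroup.relIndex_eq_one.1 h2).trans inf_le_right
  have hft : Fact t.Prime := ⟨ht⟩
  have hother : ∀ r : ℕ, r.Prime → r ≠ t → Yr r ≤ centralizer (Q : Set H) := by
    intro r hr hrt
    have hfr : Fact r.Prime := ⟨hr⟩
    rw [le_centralizer_iff_commutator]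
    apply hcentr _ (hYr r hr).le
    refine (h.inv _ (hYr r hr).le (hSYr r hr)).resolve_left ?_
    intro hle
    apply h.R_ne_bot
    have h1 : IsPGroup r R := (hYr r hr).pgroup.to_le hle
    have h2 : IsPGroup t R := (hYr t ht).pgroup.to_le hRt
    rw [eq_bot_iff]
    intro x hx
    have h3 := IsPGroup.disjoint_of_ne r t hrt R R h1 h2
    exact h3.le_bot ⟨hx, hx⟩
  have hYt : IsPGroup t Y := by
    rw [← hYQ]
    exact isPGroup_commutator hQY hcopQ (Or.inl hsolQ) (fun r hr hrt => ⟨Yr r, hYr r hr, hother r hr hrt⟩)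
  have htp : t ≠ p := by
    rintro rfl
    rcases hYt.card_eq_or_dvd with h1 | h1
    · exact h.Y_ne_bot (Subgroup.card_eq_one.1 h1)
    · exact hpY h1
  refine ⟨?_, t, ht, htp, hYt⟩
  -- `Y = R`
  set Φ : Subgroup H := (frattini Y).map Y.subtype with hΦ
  have hΦn : Φ.Normal := map_subtype_normal inferInstance
  have hΦY : Φ ≤ Y := map_subtype_le _
  set π := QuotientGroup.mk' Φ with hπ
  have hker : π.ker = Φ := QuotientGroup.ker_mk' Φ
  have hVel : IsElementaryAbelian t (Y.map π) := by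
    constructor
    · rw [isMulCommutative_iff_of_setLike]
      rintro _ ⟨a, ha, rfl⟩ _ ⟨b, hb, rfl⟩
      have h1 : (⁅(⟨a, ha⟩ : Y), ⟨b, hb⟩⁆) ∈ frattini Y :=
        H70Frattini.commutator_le_frattini hYt (commutator_mem_commutator (mem_top _) (mem_top _))
      have h2 : ⁅a, b⁆ ∈ Φ := ⟨_, h1, rfl⟩
      have h3 : π ⁅a, b⁆ = 1 := (QuotientGroup.eq_one_iff _).2 h2
      rw [map_commutatorElement, commutatorElement_eq_one_iff_mul_comm] at h3
      exact h3
    · rintro _ ⟨a, ha, rfl⟩
      have h1 : (⟨a, ha⟩ : Y) ^ t ∈ frattini Y := H70Frattini.pow_mem_frattini hYt _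
      have h2 : a ^ t ∈ Φ := ⟨_, h1, rfl⟩
      rw [← map_pow]
      exact (QuotientGroup.eq_one_iff _).2 h2
  have hmapn : ∀ X W : Subgroup H, X ≤ normalizer (W : Set H) → X.map π ≤ normalizer ((W.map π : Subgroup (H ⧸ Φ)) : Set (H ⧸ Φ)) := by
    intro X W hXW
    rintro _ ⟨x, hx, rfl⟩
    apply mem_normalizer_of_map_conj_le
    rintro _ ⟨_, ⟨w, hw, rfl⟩, rfl⟩
    refine ⟨x * w * x⁻¹, conj_mem_of_le_normalizer hXW hx hw, ?_⟩
    show π (x * w * x⁻¹) = π x * π w * (π x)⁻¹
    rw [map_mul, map_mul, map_inv]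
  have hcopt : (Nat.card (S.map π)).Coprime t := by
    have h1 : IsPGroup p (S.map π) := h.hSp.map _
    obtain ⟨k, hk⟩ := IsPGroup.iff_card.mp h1
    rw [hk]
    exact Nat.Coprime.pow_left k ((Nat.coprime_primes hp.out ht).2 htp.symm)
  obtain ⟨W, hWV, hSW, hUW, hUWV⟩ := PGroupMeta.exists_invariant_complement (p := t) (U := R.map π) (V := Y.map π)
    (A := S.map π) hVel (Subgroup.map_mono h.hRY) (hmapn _ _ hSY) (hmapn _ _ h.hSR) hcopt
  have hfr : frattini Y ≠ ⊤ := by
    intro h1
    have h2 : (⊥ : Subgroup Y) = ⊤ := frattini_nongenerating (by rw [h1]; simp)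
    apply h.Y_ne_bot
    rw [← Subgroup.card_eq_one, ← Subgroup.card_top, ← h2, Subgroup.card_bot]
  have hW'Y : W.comap π ≤ Y := by
    intro x hx
    obtain ⟨y, hy, hyx⟩ := hWV hx
    have h1 : y⁻¹ * x ∈ Φ := QuotientGroup.eq.1 hyx
    have h2 := Y.mul_mem hy (hΦY h1)
    rwa [mul_inv_cancel_left] at h2
  have hSW' : S ≤ normalizer ((W.comap π : Subgroup H) : Set H) := by
    intro s hs
    apply mem_normalizer_of_map_conj_le
    rintro _ ⟨w, hw, rfl⟩
    show π (s * w * s⁻¹) ∈ W
    rw [map_mul, map_mul, map_inv]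
    exact conj_mem_of_le_normalizer hSW ⟨s, hs, rfl⟩ hw
  have hWbot : W = ⊥ := by
    rcases h.inv _ hW'Y hSW' with h1 | h1
    · exfalso
      have h2 : R.map π ≤ ⊥ := by
        rw [← hUW]
        exact le_inf le_rfl (Subgroup.map_le_iff_le_comap.2 h1)
      have h3 : R ≤ Φ := by
        rw [Subgroup.map_le_iff_le_comap] at h2
        have h4 : (⊥ : Subgroup (H ⧸ Φ)).comap π = Φ := by
          rw [MonoidHom.comap_bot, hker]
        rwa [h4] at h2
      have h4 : Y ≤ Φ := h.hRY' Φ hΦn h3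
      apply hfr
      rw [eq_top_iff]
      intro y _
      obtain ⟨z, hz, hzy⟩ := h4 y.2
      rwa [Subtype.ext hzy] at hz
    · have h2 := hcentr _ hW'Y h1
      have h3 : W ≤ centralizer ((Q.map π : Subgroup (H ⧸ Φ)) : Set (H ⧸ Φ)) := by
        rw [le_centralizer_iff_commutator, ← Subgroup.map_comap_eq_self_of_surjective
          (QuotientGroup.mk'_surjective Φ) W, ← Subgroup.map_commutator, h2, Subgroup.map_bot]
      have := hVel.1
      have h4 := CoprimeAction2.inf_commutator_eq_bot_of_abelian (A := Q.map π) (V := Y.map π)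
        (hmapn _ _ hQY) (by
          obtain ⟨k, hk⟩ := IsPGroup.iff_card.mp (hQp.map π)
          obtain ⟨l, hl⟩ := IsPGroup.iff_card.mp (hYt.map π)
          rw [hk, hl]
          exact Nat.Coprime.pow _ _ ((Nat.coprime_primes hp.out ht).2 htp.symm))
      rw [← Subgroup.map_commutator, hYQ] at h4
      rw [eq_bot_iff, ← h4]
      exact le_inf (le_inf hWV h3) hWV
  rw [hWbot, sup_bot_eq] at hUWV
  have h1 : R.subgroupOf Y ⊔ frattini Y = ⊤ := by
    rw [eq_top_iff]
    intro y _
    have h2 : π (y : H) ∈ R.map π := by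
      rw [hUWV]; exact ⟨y, y.2, rfl⟩
    obtain ⟨x, hx, hxy⟩ := h2
    have h3 : x⁻¹ * (y : H) ∈ Φ := QuotientGroup.eq.1 hxy
    obtain ⟨z, hz, hzy⟩ := h3
    have h4 : y = (⟨x, h.hRY hx⟩ : Y) * z := by
      apply Subtype.ext
      show (y : H) = x * (z : H)
      have h5 : (z : H) = x⁻¹ * y := hzy
      rw [h5]; group
    rw [h4]
    exact mul_mem_sup (show (⟨x, h.hRY hx⟩ : Y) ∈ R.subgroupOf Y from hx) hz
  have h2 := frattini_nongenerating h1
  rw [subgroupOf_eq_top] at h2
  exact le_antisymm h2 h.hRY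

end

end Cfsg.Agent.Lib.H64IsoHat
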