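import Mathlib
import Cfsg.Agent.Lib.LocBase

/-!
(helper64) An abstract counting lemma about sets of involutions with the property that the product of
two non-commuting members normalizes no nontrivial 2-subgroup.
-/

set_option autoImplicit false

namespace Cfsg.Agent.Lib.H64RealY

open Subgroup Cfsg.Agent.Lib.LocBase

variable {Y : Type*} [Group Y]

theorem isPGroup_zpowers_of_mul_self {t : Y} (ht : t * t = 1) : IsPGroup 2 (zpowers t) := by
  rintro ⟨x, hx⟩
  obtain ⟨m, rfl⟩ := mem_zpowers_iff.1 hx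
  refine ⟨1, Subtype.ext ?_⟩
  change (t ^ m) ^ (2 ^ 1) = 1
  rw [pow_one, ← zpow_natCast, ← zpow_mul, mul_comm, zpow_mul]
  change (t ^ (2 : ℤ)) ^ m = 1
  rw [zpow_two, ht, one_zpow]

theorem isPGroup_zpowers_of_pow {p : ℕ} {t : Y} {k : ℕ} (ht : t ^ (p ^ k) = 1) : IsPGroup p (zpowers t) := by
  rintro ⟨x, hx⟩
  obtain ⟨m, rfl⟩ := mem_zpowers_iff.1 hx
  refine ⟨k, Subtype.ext ?_⟩
  change (t ^ m) ^ (p ^ k) = 1
  rw [← zpow_natCast, ← zpow_mul, mul_comm, zpow_mul, zpow_natCast, ht, one_zpow]

theorem mem_normalizer_zpowers_of_comm {a b : Y} (h : a * b = b * a) :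
    a ∈ normalizer (zpowers b : Set Y) := by
  have h1 : a ∈ centralizer (zpowers b : Set Y) := by
    rw [mem_centralizer_iff]
    rintro _ ⟨m, rfl⟩
    exact ((show Commute a b from h).zpow_right m).eq.symm
  exact centralizer_le_normalizer _ h1

theorem closure_commute {W : Set Y} (hW : ∀ a ∈ W, ∀ b ∈ W, a * b = b * a) :
    ∀ a ∈ closure W, ∀ b ∈ closure W, a * b = b * a := by
  have h1 : ∀ a ∈ W, ∀ b ∈ closure W, a * b = b * a := by
    intro a ha
    have : closure W ≤ centralizer ({a} : Set Y) := by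
      rw [closure_le]
      intro b hb
      exact mem_centralizer_singleton_iff.2 (hW b hb a ha)
    intro b hb
    exact (mem_centralizer_singleton_iff.1 (this hb)).symm
  intro a ha b hb
  have : closure W ≤ centralizer ({b} : Set Y) := by
    rw [closure_le]
    intro c hc
    exact mem_centralizer_singleton_iff.2 (h1 c hc b hb)
  exact mem_centralizer_singleton_iff.1 (this ha)

theorem isPGroup_closure {W : Set Y} (hW : ∀ a ∈ W, ∀ b ∈ W, a * b = b * a) (hW2 : ∀ a ∈ W, a * a = 1) :
    IsPGroup 2 (closure W) := by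
  have hc := closure_commute hW
  have h2 : ∀ x ∈ closure W, x * x = 1 := by
    intro x hx
    induction hx using closure_induction with
    | mem x hx => exact hW2 x hx
    | one => simp
    | mul a b ha hb iha ihb =>
      have h3 := hc a ha b hb
      calc a * b * (a * b) = a * (b * a) * b := by group
        _ = a * (a * b) * b := by rw [h3]
        _ = (a * a) * (b * b) := by group
        _ = 1 := by rw [iha, ihb, one_mul]
    | inv a ha iha => rw [← mul_inv_rev, iha, inv_one]
  rintro ⟨x, hx⟩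
  refine ⟨1, Subtype.ext ?_⟩
  change x ^ (2 ^ 1) = 1
  rw [pow_one, pow_two]
  exact h2 x hx

/-- The counting lemma. -/
theorem eq_of_commute [Finite Y] (T : Set Y) (hT2 : ∀ t ∈ T, t * t = 1) (hT1 : ∀ t ∈ T, t ≠ 1)
    (hconj : ∀ t ∈ T, ∀ g : Y, g * t * g⁻¹ ∈ T)
    (ha : ∀ t ∈ T, ∀ D : Subgroup Y, IsPGroup 2 D → t ∈ D → ∀ d ∈ D, t * d = d * t)
    (hb : ∀ s ∈ T, ∀ t ∈ T, s * t = t * s ∨
      ∀ D : Subgroup Y, IsPGroup 2 D → s * t ∈ normalizer (D : Set Y) → D = ⊥)
    (hc : ∀ D : Subgroup Y, D.Normal → IsPGroup 2 D → D = ⊥)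
    {s t : Y} (hs : s ∈ T) (ht : t ∈ T) (hst : s * t = t * s) : s = t := by
  classical
  by_contra hne
  -- commuting is transitive on `T`
  have htrans : ∀ a ∈ T, ∀ b ∈ T, ∀ c ∈ T, a * b = b * a → b * c = c * b → a * c = c * a := by
    intro a haT b hbT c hcT hab hbc
    rcases hb a haT c hcT with h | h
    · exact h
    · exfalso
      have h1 : zpowers b = ⊥ := h _ (isPGroup_zpowers_of_mul_self (hT2 b hbT))
        (mem_normalizer_zpowers_of_comm (by
          calc a * c * b = a * (c * b) := by group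
            _ = a * (b * c) := by rw [hbc]
            _ = (a * b) * c := by group
            _ = (b * a) * c := by rw [hab]
            _ = b * (a * c) := by group))
      exact hT1 b hbT (zpowers_eq_bot.1 h1)
  set W : Set Y := {w | w ∈ T ∧ w * t = t * w} with hW
  have htW : t ∈ W := ⟨ht, rfl⟩
  have hsW : s ∈ W := ⟨hs, hst⟩
  have hWW : ∀ a ∈ W, ∀ b ∈ W, a * b = b * a := fun a ha' b hb' =>
    htrans a ha'.1 t ht b hb'.1 ha'.2 hb'.2.symm
  have hW2 : ∀ a ∈ W, a * a = 1 := fun a ha' => hT2 a ha'.1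
  have hWp : IsPGroup 2 (closure W) := isPGroup_closure hWW hW2
  have hWne : closure W ≠ ⊥ := by
    intro h
    have : t ∈ closure W := subset_closure htW
    rw [h, mem_bot] at this
    exact hT1 t ht this
  set N : Subgroup Y := normalizer W with hN
  have hNW : N ≤ normalizer (closure W : Set Y) := Subgroup.normalizer_le_normalizer_closure W
  -- 2-elements of `N` centralize `W`
  have h2N : ∀ v ∈ N, (∃ k : ℕ, v ^ (2 ^ k) = 1) → ∀ w ∈ W, w * v = v * w := by
    rintro v hv ⟨k, hk⟩ w hw
    have hD : IsPGroup 2 ↥(closure W ⊔ zpowers v) :=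
      isPGroup_sup hWp (isPGroup_zpowers_of_pow hk) (by rw [zpowers_le]; exact hNW hv)
    exact ha w hw.1 _ hD (le_sup_left (α := Subgroup Y) (subset_closure hw)) v
      (le_sup_right (α := Subgroup Y) (mem_zpowers v))
  have hTN : ∀ u ∈ T, u ∈ N → u ∈ W := by
    intro u hu huN
    refine ⟨hu, ?_⟩
    exact (h2N u huN ⟨1, by rw [pow_one, pow_two, hT2 u hu]⟩ t htW).symm
  have hWN : ∀ u ∈ W, u ∈ N := by
    intro u hu
    change ∀ x, x ∈ W ↔ u * x * u⁻¹ ∈ W
    have key : ∀ x ∈ W, u * x * u⁻¹ = x := by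
      intro x hx
      rw [hWW u hu x hx]; group
    intro x
    constructor
    · intro hx; rw [key x hx]; exact hx
    · intro hx
      have h1 := key _ hx
      have h2 : u * x * u⁻¹ = x := by
        have h3 : u * (u * x * u⁻¹) * u⁻¹ = u * x * u⁻¹ := h1
        have h4 : u * x * u⁻¹ = x := by
          calc u * x * u⁻¹ = u⁻¹ * (u * (u * x * u⁻¹) * u⁻¹) * u := by group
            _ = u⁻¹ * (u * x * u⁻¹) * u := by rw [h3]
            _ = x := by group
        exact h4
      rwa [h2] at hx
  -- the coset map on `T \ N`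
  have hinj1 : ∀ u ∈ T, ∀ v ∈ T, u ∉ N → v ∉ N → (u : Y ⧸ N) = (v : Y ⧸ N) → u = v := by
    intro u hu v hv huN hvN huv
    have hmem : u * v ∈ N := by
      have := QuotientGroup.eq.1 huv
      rwa [show u⁻¹ = u from inv_eq_of_mul_eq_one_left (hT2 u hu)] at this
    by_contra huv'
    rcases hb u hu v hv with h | h
    · -- commuting
      have hv2 : (u * v) ^ (2 ^ 1) = 1 := by
        rw [pow_one, pow_two]
        calc u * v * (u * v) = u * (v * u) * v := by group
          _ = u * (u * v) * v := by rw [h]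
          _ = (u * u) * (v * v) := by group
          _ = 1 := by rw [hT2 u hu, hT2 v hv, one_mul]
      have h3 := h2N _ hmem ⟨1, hv2⟩ t htW
      rcases hb t ht u hu with h4 | h4
      · exact huN (hWN u ⟨hu, h4.symm⟩)
      · have h5 : u * (u * v) = (u * v) * u := by
          rw [mul_assoc, h]
        have h6 := h4 _ (isPGroup_zpowers_of_pow hv2) (mem_normalizer_zpowers_of_comm (by
          calc t * u * (u * v) = t * (u * (u * v)) := by group
            _ = t * ((u * v) * u) := by rw [h5]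
            _ = (t * (u * v)) * u := by group
            _ = ((u * v) * t) * u := by rw [h3]
            _ = (u * v) * (t * u) := by group))
        rw [zpowers_eq_bot] at h6
        apply huv'
        have : u * v = u * u := by rw [h6, hT2 u hu]
        exact (mul_left_cancel this).symm
    · exact hWne (h _ hWp (hNW hmem))
  have hinj2 : ∀ q q' : Y ⧸ N, ∀ w ∈ W, ∀ w' ∈ W,
      q.out * w * q.out⁻¹ = q'.out * w' * q'.out⁻¹ → q = q' ∧ w = w' := by
    intro q q' w hw w' hw' heq
    set g : Y := q'.out⁻¹ * q.out with hg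
    have h1 : g * w * g⁻¹ = w' := by
      calc g * w * g⁻¹ = q'.out⁻¹ * (q.out * w * q.out⁻¹) * q'.out := by rw [hg]; group
        _ = q'.out⁻¹ * (q'.out * w' * q'.out⁻¹) * q'.out := by rw [heq]
        _ = w' := by group
    have h2 : ∀ x ∈ W, g * x * g⁻¹ ∈ W := by
      intro x hx
      refine ⟨hconj x hx.1 g, ?_⟩
      apply htrans _ (hconj x hx.1 g) w' hw'.1 t ht _ hw'.2
      rw [← h1]
      have := hWW x hx w hw
      calc g * x * g⁻¹ * (g * w * g⁻¹) = g * (x * w) * g⁻¹ := by group
        _ = g * (w * x) * g⁻¹ := by rw [this]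
        _ = g * w * g⁻¹ * (g * x * g⁻¹) := by group
    have h3 : g ∈ N := by
      change ∀ x, x ∈ W ↔ g * x * g⁻¹ ∈ W
      have hfin : W.Finite := Set.toFinite W
      have himg : (fun x => g * x * g⁻¹) '' W = W := by
        apply Set.eq_of_subset_of_ncard_le
        · rintro _ ⟨x, hx, rfl⟩; exact h2 x hx
        · rw [Set.ncard_image_of_injective]
          intro a b hab
          simpa using hab
        · exact hfin
      intro x
      constructor
      · exact h2 x
      · intro hx
        rw [← himg] at hx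
        obtain ⟨y, hy, hyx⟩ := hx
        have : y = x := by simpa using hyx
        rwa [← this]
    have h4 : q = q' := by
      rw [← QuotientGroup.out_eq' q, ← QuotientGroup.out_eq' q']
      symm
      exact QuotientGroup.eq.2 h3
    refine ⟨h4, ?_⟩
    subst h4
    have h5 : g = 1 := by rw [hg]; group
    rw [h5] at h1
    simpa using h1
  -- counting
  have hc1 : Nat.card (Y ⧸ N) * Nat.card W ≤ Nat.card T := by
    rw [← Nat.card_prod]
    apply Nat.card_le_card_of_injective (fun z : (Y ⧸ N) × W =>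
      (⟨z.1.out * z.2.1 * z.1.out⁻¹, hconj _ z.2.2.1 _⟩ : T))
    rintro ⟨q, w⟩ ⟨q', w'⟩ h
    obtain ⟨h1, h2⟩ := hinj2 q q' w w.2 w' w'.2 (congrArg Subtype.val h)
    exact Prod.ext h1 (Subtype.ext h2)
  have hc2 : Nat.card T ≤ Nat.card W + (Nat.card (Y ⧸ N) - 1) := by
    have h1 : T ⊆ W ∪ {u | u ∈ T ∧ u ∉ N} := by
      intro u hu
      by_cases h : u ∈ N
      · exact Or.inl (hTN u hu h)
      · exact Or.inr ⟨hu, h⟩
    have h2 : Nat.card T ≤ Nat.card W + Set.ncard {u | u ∈ T ∧ u ∉ N} := by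
      rw [Nat.card_coe_set_eq, Nat.card_coe_set_eq]
      exact (Set.ncard_le_ncard h1 (Set.toFinite _)).trans (Set.ncard_union_le _ _)
    have h3 : Set.ncard {u | u ∈ T ∧ u ∉ N} ≤ Nat.card (Y ⧸ N) - 1 := by
      have h4 : Set.ncard {u | u ∈ T ∧ u ∉ N} ≤ Set.ncard ({((1 : Y) : Y ⧸ N)}ᶜ : Set (Y ⧸ N)) := by
        apply Set.ncard_le_ncard_of_injOn (fun u : Y => (QuotientGroup.mk u : Y ⧸ N))
        · rintro u ⟨_, hu⟩
          rw [Set.mem_compl_iff, Set.mem_singleton_iff]
          intro h
          apply hu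
          have := QuotientGroup.eq.1 h
          simpa using this
        · rintro u ⟨hu, huN⟩ v ⟨hv, hvN⟩ huv
          exact hinj1 u hu v hv huN hvN huv
      rwa [Set.ncard_compl, Set.ncard_singleton] at h4
    omega
  have hw2 : 2 ≤ Nat.card W := by
    have h1 : ({s, t} : Set Y) ⊆ W := by
      rintro x (rfl | rfl)
      · exact hsW
      · exact htW
    have h2 := Set.ncard_le_ncard h1 (Set.toFinite _)
    rw [Set.ncard_pair hne] at h2
    rwa [Nat.card_coe_set_eq]
  have hq1 : 1 ≤ Nat.card (Y ⧸ N) := Nat.card_pos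
  have hq : Nat.card (Y ⧸ N) = 1 := by
    by_contra hq2
    have h1 : 2 ≤ Nat.card (Y ⧸ N) := by omega
    obtain ⟨m, hm⟩ := Nat.exists_eq_add_of_le h1
    obtain ⟨l, hl⟩ := Nat.exists_eq_add_of_le hw2
    rw [hm, hl] at hc1
    rw [hm, hl] at hc2
    have h3 := hc1.trans hc2
    have h4 : (2 + m) * (2 + l) = 4 + 2 * m + 2 * l + m * l := by ring
    omega
  have hNtop : N = ⊤ := by
    rw [← index_eq_one, index_eq_card]; exact hq
  apply hWne
  apply hc _ _ hWp
  rw [← normalizer_eq_top_iff, eq_top_iff, ← hNtop]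
  exact hNW

end Cfsg.Agent.Lib.H64RealY
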