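import Mathlib
import Cfsg.Agent.Lib.LocBase
import Cfsg.Agent.Lib.BaerSuzuki
import Cfsg.Agent.Lib.CycNorm
import Cfsg.Agent.Lib.HallConverse
import Cfsg.Agent.Lib.H64RealY

/-!
(helper64) Finite groups in which, for every real element `x` of odd prime power order, the class size of
`x` is coprime to the number of Sylow 2-subgroups are solvable.
-/

set_option autoImplicit false
set_option linter.unusedSectionVars false

namespace Cfsg.Agent.Lib.H64RealCl

open Subgroup Cfsg.Agent.Lib.LocBase Cfsg.Agent.Lib.H64RealY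

universe u

/-- The property: class sizes of real elements of odd prime power order are coprime to the number of Sylow
2-subgroups. -/
def PP (G : Type u) [Group G] : Prop :=
  ∀ (S : Sylow 2 G) (x : G) (r k : ℕ), r.Prime → r ≠ 2 → orderOf x = r ^ k → IsConj x x⁻¹ →
    (centralizer ({x} : Set G)).index.Coprime (normalizer ((S : Subgroup G) : Set G)).index

variable {G : Type u} [Group G] [Finite G]

/-- 2-central involution -/
def TC (t : G) : Prop := t * t = 1 ∧ ∃ S : Sylow 2 G, t ∈ (S : Subgroup G) ∧ t ∈ centralizer ((S : Subgroup G) : Set G)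

/-- elements of odd prime order inverted by a 2-central involution -/
def RC (x : G) : Prop := (∃ r : ℕ, r.Prime ∧ r ≠ 2 ∧ orderOf x = r) ∧ ∃ t : G, TC t ∧ t * x * t⁻¹ = x⁻¹

theorem TC.conj {t : G} (h : TC t) (g : G) : TC (g * t * g⁻¹) := by
  obtain ⟨h1, S, h2, h3⟩ := h
  refine ⟨by
    calc g * t * g⁻¹ * (g * t * g⁻¹) = g * (t * t) * g⁻¹ := by group
      _ = 1 := by rw [h1]; group, g • S, ?_, ?_⟩
  · rw [Sylow.coe_subgroup_smul]
    exact ⟨t, h2, rfl⟩
  · rw [Sylow.coe_subgroup_smul, mem_centralizer_iff]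
    rintro _ ⟨s, hs, rfl⟩
    have := (mem_centralizer_iff.1 h3) s hs
    change g * s * g⁻¹ * (g * t * g⁻¹) = g * t * g⁻¹ * (g * s * g⁻¹)
    calc g * s * g⁻¹ * (g * t * g⁻¹) = g * (s * t) * g⁻¹ := by group
      _ = g * (t * s) * g⁻¹ := by rw [this]
      _ = g * t * g⁻¹ * (g * s * g⁻¹) := by group

theorem RC.ne_one {x : G} (h : RC x) : x ≠ 1 := by
  obtain ⟨⟨r, hr, -, hx⟩, -⟩ := h
  rintro rfl
  rw [orderOf_one] at hx
  exact hr.one_lt.ne hx

theorem RC.odd {x : G} (h : RC x) : Odd (orderOf x) := by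
  obtain ⟨⟨r, hr, hr2, hx⟩, -⟩ := h
  rw [hx]; exact hr.odd_of_ne_two hr2

theorem RC.isConj {x : G} (h : RC x) : IsConj x x⁻¹ := by
  obtain ⟨-, t, -, ht⟩ := h
  exact isConj_iff.2 ⟨t, ht⟩

theorem mem_of_sq_mem {x : G} (hx : Odd (orderOf x)) {H : Subgroup G} (h : x ^ 2 ∈ H) : x ∈ H := by
  obtain ⟨m, hm⟩ := hx
  have h1 : x = (x ^ 2) ^ (m + 1) := by
    rw [← pow_mul, show 2 * (m + 1) = (2 * m + 1) + 1 by ring, ← hm, pow_succ, pow_orderOf_eq_one, one_mul]
  rw [h1]; exact pow_mem h _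

/-- transitivity of `C(x)` on the Sylow 2-subgroups -/
theorem exists_conj (hG : PP G) {x : G} (hx : RC x) (S T : Sylow 2 G) :
    ∃ c ∈ centralizer ({x} : Set G), c • S = T := by
  obtain ⟨⟨r, hr, hr2, hxr⟩, -⟩ := id hx
  have h1 := hG S x r 1 hr hr2 (by rw [hxr, pow_one]) hx.isConj
  obtain ⟨g, hg⟩ := MulAction.exists_smul_eq G S T
  obtain ⟨c, hc, n, hn, hcn⟩ := HallConverse.exists_mul_of_coprime_index h1 g
  refine ⟨c, hc, ?_⟩
  rw [← hg, ← hcn, mul_smul]
  congr 1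
  exact (Sylow.smul_eq_iff_mem_normalizer.2 hn).symm

theorem exists_inverting (hG : PP G) {x : G} (hx : RC x) {t : G} (ht : TC t) (htx : t * x * t⁻¹ = x⁻¹)
    (S : Sylow 2 G) : ∃ c ∈ centralizer ({x} : Set G), c * t * c⁻¹ ∈ (S : Subgroup G) ∧
      c * t * c⁻¹ ∈ centralizer ((S : Subgroup G) : Set G) ∧ (c * t * c⁻¹) * x * (c * t * c⁻¹)⁻¹ = x⁻¹ := by
  obtain ⟨h1, T, h2, h3⟩ := ht
  obtain ⟨c, hc, hcT⟩ := exists_conj hG hx T S
  refine ⟨c, hc, ?_, ?_, ?_⟩
  · rw [← hcT, Sylow.coe_subgroup_smul]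
    exact ⟨t, h2, rfl⟩
  · rw [← hcT, Sylow.coe_subgroup_smul, mem_centralizer_iff]
    rintro _ ⟨s, hs, rfl⟩
    have := (mem_centralizer_iff.1 h3) s hs
    change c * s * c⁻¹ * (c * t * c⁻¹) = c * t * c⁻¹ * (c * s * c⁻¹)
    calc c * s * c⁻¹ * (c * t * c⁻¹) = c * (s * t) * c⁻¹ := by group
      _ = c * (t * s) * c⁻¹ := by rw [this]
      _ = c * t * c⁻¹ * (c * s * c⁻¹) := by group
  · have h4 : c * x = x * c := mem_centralizer_singleton_iff.1 hc
    have h5 : c⁻¹ * x * c = x := by rw [mul_assoc, ← h4]; group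
    have h6 : c * x⁻¹ * c⁻¹ = x⁻¹ := by
      have : c * x * c⁻¹ = x := by rw [h4]; group
      calc c * x⁻¹ * c⁻¹ = (c * x * c⁻¹)⁻¹ := by group
        _ = x⁻¹ := by rw [this]
    calc (c * t * c⁻¹) * x * (c * t * c⁻¹)⁻¹ = c * (t * (c⁻¹ * x * c) * t⁻¹) * c⁻¹ := by group
      _ = c * x⁻¹ * c⁻¹ := by rw [h5, htx]
      _ = x⁻¹ := h6

/-- every 2-subgroup normalized by `x` is centralized by `x` -/
theorem centralizes (hG : PP G) {x : G} (hx : RC x) {D : Subgroup G} (hD : IsPGroup 2 D)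
    (hxD : x ∈ normalizer (D : Set G)) : D ≤ centralizer ({x} : Set G) := by
  obtain ⟨-, t, ht, htx⟩ := id hx
  obtain ⟨S, hDS⟩ := hD.exists_le_sylow
  obtain ⟨c, hc, h1, h2, h3⟩ := exists_inverting hG hx ht htx S
  set s := c * t * c⁻¹ with hs
  rw [mem_centralizer_iff] at h2
  intro d hd
  have h4 : d * s = s * d := h2 d (hDS hd)
  have h5 : (x * d * x⁻¹) * s = s * (x * d * x⁻¹) :=
    h2 _ (hDS ((mem_normalizer_iff.1 hxD d).1 hd))
  -- `d` commutes with `x⁻¹ s x` and `s`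
  have h6 : d * (x⁻¹ * s * x) = (x⁻¹ * s * x) * d := by
    calc d * (x⁻¹ * s * x) = x⁻¹ * ((x * d * x⁻¹) * s) * x := by group
      _ = x⁻¹ * (s * (x * d * x⁻¹)) * x := by rw [h5]
      _ = (x⁻¹ * s * x) * d := by group
  have h7 : (x⁻¹ * s * x) * s⁻¹ = (x ^ 2)⁻¹ := by
    calc (x⁻¹ * s * x) * s⁻¹ = x⁻¹ * (s * x * s⁻¹) := by group
      _ = x⁻¹ * x⁻¹ := by rw [h3]
      _ = (x ^ 2)⁻¹ := by rw [pow_two, mul_inv_rev]
  have h8 : (x ^ 2)⁻¹ ∈ centralizer ({d} : Set G) := by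
    rw [← h7]
    exact mul_mem (mem_centralizer_singleton_iff.2 h6.symm)
      (inv_mem (mem_centralizer_singleton_iff.2 h4.symm))
  have h9 : x ∈ centralizer ({d} : Set G) := mem_of_sq_mem hx.odd (by rw [← inv_inv (x ^ 2)]; exact inv_mem h8)
  exact mem_centralizer_singleton_iff.2 (mem_centralizer_singleton_iff.1 h9).symm

/-- An element that is not a 2-element has a power of odd prime order. -/
theorem exists_pow_odd_prime (h : G) (hh : ∀ k : ℕ, h ^ (2 ^ k) ≠ 1) :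
    ∃ m r : ℕ, r.Prime ∧ r ≠ 2 ∧ orderOf (h ^ m) = r := by
  have hpos : 0 < orderOf h := orderOf_pos h
  by_contra hcon
  push Not at hcon
  have h1 : ∀ r : ℕ, r.Prime → r ∣ orderOf h → r = 2 := by
    intro r hr hrd
    by_contra hr2
    apply hcon (orderOf h / r) r hr hr2
    rw [orderOf_pow_of_dvd (Nat.div_pos (Nat.le_of_dvd hpos hrd) hr.pos).ne' (Nat.div_dvd_of_dvd hrd)]
    exact Nat.div_div_self hrd hpos.ne'
  have h2 : orderOf h = 2 ^ (orderOf h).primeFactorsList.length := Nat.eq_prime_pow_of_unique_prime_dvd hpos.ne'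
    (fun {d} hd hdd => h1 d hd hdd)
  exact hh _ (by rw [← h2, pow_orderOf_eq_one])

/-- Setting: `x` maximizes the 2-part of the centralizer order; `P` is a Sylow 2-subgroup of `C(x)`. -/
structure MaxP (x : G) (P : Subgroup G) : Prop where
  rc : RC x
  le : P ≤ centralizer ({x} : Set G)
  pgrp : IsPGroup 2 P
  max : ∀ w : G, RC w → ∀ D : Subgroup G, IsPGroup 2 D → D ≤ centralizer ({w} : Set G) → Nat.card D ≤ Nat.card P

theorem exists_maxP (h : ∃ x : G, RC x) : ∃ (x : G) (P : Subgroup G), MaxP x P := by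
  classical
  let A : Set (G × Subgroup G) := {z | RC z.1 ∧ IsPGroup 2 z.2 ∧ z.2 ≤ centralizer ({z.1} : Set G)}
  have hA : A.Nonempty := by
    obtain ⟨x, hx⟩ := h
    exact ⟨(x, ⊥), hx, IsPGroup.of_bot, bot_le⟩
  obtain ⟨z, hz, hmax⟩ := (Set.toFinite A).exists_maximalFor (fun z => Nat.card z.2) A hA
  refine ⟨z.1, z.2, hz.1, hz.2.2, hz.2.1, ?_⟩
  intro w hw D hD hDw
  by_contra hlt
  push Not at hlt
  have := hmax (j := (w, D)) ⟨hw, hD, hDw⟩ hlt.le
  simp only at this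
  omega

theorem MaxP.eq_of_le (hG : PP G) {x : G} {P : Subgroup G} (hP : MaxP x P) {w : G} (hw : RC w) {D : Subgroup G}
    (hD : IsPGroup 2 D) (hPD : P ≤ D) (hwD : w ∈ normalizer (D : Set G)) : D = P := by
  have h1 := centralizes hG hw hD hwD
  exact (Subgroup.eq_of_le_of_card_ge hPD (hP.max w hw D hD h1)).symm

section Quot

variable {P : Subgroup G}

/-- preimage in `G` of a subgroup of `N(P)/P` -/
def pre (P : Subgroup G) (D : Subgroup (↥(normalizer (P : Set G)) ⧸ P.subgroupOf (normalizer (P : Set G)))) :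
    Subgroup G :=
  (D.comap (QuotientGroup.mk' (P.subgroupOf (normalizer (P : Set G))))).map (normalizer (P : Set G)).subtype

theorem mem_pre {D : Subgroup (↥(normalizer (P : Set G)) ⧸ P.subgroupOf (normalizer (P : Set G)))}
    {n : normalizer (P : Set G)} :
    (n : G) ∈ pre P D ↔ (QuotientGroup.mk' (P.subgroupOf (normalizer (P : Set G))) n) ∈ D := by
  constructor
  · rintro ⟨m, hm, hmn⟩
    have : m = n := Subtype.ext hmn
    rw [← this]; exact hm
  · intro h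
    exact ⟨n, h, rfl⟩

theorem le_pre (D : Subgroup (↥(normalizer (P : Set G)) ⧸ P.subgroupOf (normalizer (P : Set G)))) : P ≤ pre P D := by
  intro a ha
  refine (mem_pre (n := ⟨a, le_normalizer ha⟩)).2 ?_
  have : QuotientGroup.mk' (P.subgroupOf (normalizer (P : Set G))) ⟨a, le_normalizer ha⟩ = 1 :=
    (QuotientGroup.eq_one_iff _).2 ha
  rw [this]; exact one_mem D

theorem isPGroup_pre (hP : IsPGroup 2 P)
    {D : Subgroup (↥(normalizer (P : Set G)) ⧸ P.subgroupOf (normalizer (P : Set G)))}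
    (hD : IsPGroup 2 D) : IsPGroup 2 (pre P D) := by
  apply IsPGroup.map
  apply hD.comap_of_ker_isPGroup
  rw [QuotientGroup.ker_mk']
  exact hP.comap_subtype

theorem mem_normalizer_pre {D : Subgroup (↥(normalizer (P : Set G)) ⧸ P.subgroupOf (normalizer (P : Set G)))}
    {n : normalizer (P : Set G)}
    (hn : QuotientGroup.mk' (P.subgroupOf (normalizer (P : Set G))) n ∈ normalizer (D : Set _)) :
    (n : G) ∈ normalizer (pre P D : Set G) := by
  apply mem_normalizer_of_map_conj_le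
  rintro _ ⟨_, ⟨m, hm, rfl⟩, rfl⟩
  have h1 : ((n * m * n⁻¹ : normalizer (P : Set G)) : G) ∈ pre P D := by
    rw [mem_pre, map_mul, map_mul, map_inv]
    exact (mem_normalizer_iff.1 hn _).1 hm
  exact h1

theorem eq_bot_of_pre_eq {D : Subgroup (↥(normalizer (P : Set G)) ⧸ P.subgroupOf (normalizer (P : Set G)))}
    (h : pre P D = P) : D = ⊥ := by
  rw [eq_bot_iff]
  intro y hy
  obtain ⟨n, rfl⟩ := QuotientGroup.mk'_surjective _ y
  have h1 : (n : G) ∈ pre P D := mem_pre.2 hy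
  rw [h] at h1
  rw [mem_bot]
  exact (QuotientGroup.eq_one_iff _).2 h1

end Quot

section Main

variable {x : G} {P : Subgroup G}

theorem eq_bot_of_normalized (hG : PP G) (hP : MaxP x P) {w : normalizer (P : Set G)} (hw : RC (w : G))
    {D : Subgroup (↥(normalizer (P : Set G)) ⧸ P.subgroupOf (normalizer (P : Set G)))} (hD : IsPGroup 2 D)
    (hwD : QuotientGroup.mk' (P.subgroupOf (normalizer (P : Set G))) w ∈ normalizer (D : Set _)) : D = ⊥ := by
  apply eq_bot_of_pre_eq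
  exact hP.eq_of_le hG hw (isPGroup_pre hP.pgrp hD) (le_pre D) (mem_normalizer_pre hwD)

theorem centralizer_le : centralizer (P : Set G) ≤ normalizer (P : Set G) := centralizer_le_normalizer _

theorem mem_centralizer_P (hP : MaxP x P) : x ∈ centralizer (P : Set G) := by
  rw [mem_centralizer_iff]
  intro a ha
  exact (mem_centralizer_singleton_iff.1 (hP.le ha))

theorem no_normal (hG : PP G) (hP : MaxP x P)
    {D : Subgroup (↥(normalizer (P : Set G)) ⧸ P.subgroupOf (normalizer (P : Set G)))} (hDn : D.Normal)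
    (hD : IsPGroup 2 D) : D = ⊥ := by
  refine eq_bot_of_normalized hG hP (w := ⟨x, centralizer_le (mem_centralizer_P hP)⟩) hP.rc hD ?_
  rw [normalizer_eq_top_iff.2 hDn]
  exact mem_top _

/-- the set of 2-central involutions in `C(P) \ P` -/
def TT (P : Subgroup G) (t : G) : Prop := TC t ∧ t ∈ centralizer (P : Set G) ∧ t ∉ P

theorem TT.conj {t : G} (ht : TT P t) {n : G} (hn : n ∈ normalizer (P : Set G)) : TT P (n * t * n⁻¹) := by
  refine ⟨ht.1.conj n, conj_mem_of_le_normalizer (le_normalizer_centralizer le_rfl) hn ht.2.1, ?_⟩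
  intro h
  exact ht.2.2 ((mem_normalizer_iff.1 hn t).2 h)

/-- product of two elements of `TT`, if not a 2-element -/
theorem exists_rc {s t : G} (hs : TT P s) (ht : TT P t) (h : ∀ k : ℕ, (s * t) ^ (2 ^ k) ≠ 1) :
    ∃ m : ℕ, RC ((s * t) ^ m) ∧ (s * t) ^ m ∈ centralizer (P : Set G) ∧ s * (s * t) ^ m * s⁻¹ = ((s * t) ^ m)⁻¹ := by
  obtain ⟨m, r, hr, hr2, hm⟩ := exists_pow_odd_prime _ h
  have h1 : s * (s * t) * s⁻¹ = (s * t)⁻¹ := by
    have e1 : s⁻¹ = s := inv_eq_of_mul_eq_one_left hs.1.1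
    have e2 : t⁻¹ = t := inv_eq_of_mul_eq_one_left ht.1.1
    rw [mul_inv_rev, e1, e2]
    calc s * (s * t) * s = (s * s) * t * s := by group
      _ = t * s := by rw [hs.1.1, one_mul]
  have h2 : s * (s * t) ^ m * s⁻¹ = ((s * t) ^ m)⁻¹ := by
    rw [← conj_pow, h1, inv_pow]
  exact ⟨m, ⟨⟨r, hr, hr2, hm⟩, s, hs.1, h2⟩, pow_mem (mul_mem hs.2.1 ht.2.1) m, h2⟩

/-- a product of two elements of `TT` which is not a 2-element normalizes no nontrivial 2-subgroup of `N(P)/P` -/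
theorem no_norm (hG : PP G) (hP : MaxP x P) {s t : normalizer (P : Set G)} (hs : TT P (s : G)) (ht : TT P (t : G))
    (h : ∀ k : ℕ, ((s : G) * t) ^ (2 ^ k) ≠ 1)
    {D : Subgroup (↥(normalizer (P : Set G)) ⧸ P.subgroupOf (normalizer (P : Set G)))} (hD : IsPGroup 2 D)
    (hwD : QuotientGroup.mk' (P.subgroupOf (normalizer (P : Set G))) (s * t) ∈ normalizer (D : Set _)) : D = ⊥ := by
  obtain ⟨m, hm, -, -⟩ := exists_rc hs ht h
  refine eq_bot_of_normalized hG hP (w := (s * t) ^ m) ?_ hD ?_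
  · have : (((s * t) ^ m : normalizer (P : Set G)) : G) = ((s : G) * t) ^ m := by push_cast; rfl
    rw [this]; exact hm
  · rw [map_pow]; exact pow_mem hwD m

/-- existence of an inverted element of `RC` in `C(P)` -/
theorem exists_rc_of_TT (hG : PP G) (hP : MaxP x P) {t : normalizer (P : Set G)} (ht : TT P (t : G)) :
    ∃ w : G, RC w ∧ w ∈ centralizer (P : Set G) ∧ (t : G) * w * (t : G)⁻¹ = w⁻¹ := by
  set ρ := QuotientGroup.mk' (P.subgroupOf (normalizer (P : Set G))) with hρ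
  have htt : t * t = 1 := Subtype.ext ht.1.1
  have ht1 : ρ t ≠ 1 := fun h =>
    ht.2.2 ((QuotientGroup.eq_one_iff (N := P.subgroupOf (normalizer (P : Set G))) t).1 h)
  have ho : orderOf (ρ t) = 2 := by
    apply orderOf_eq_prime _ ht1
    rw [← map_pow, pow_two, htt, map_one]
  obtain ⟨h, hh1, hho, hht⟩ := BaerSuzuki.exists_inverted_odd (ρ t) ho (by
    intro M hM hMp htM
    rw [no_normal hG hP hM hMp, mem_bot] at htM
    exact ht1 htM)
  obtain ⟨g, rfl⟩ := QuotientGroup.mk'_surjective _ h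
  have hts : TT P ((g * t * g⁻¹ : normalizer (P : Set G)) : G) := ht.conj g.2
  have hk : ρ (t * (g * t * g⁻¹)) = (ρ g ^ 2)⁻¹ := by
    have e1 : (ρ t)⁻¹ = ρ t := by
      apply inv_eq_of_mul_eq_one_left
      rw [← map_mul, htt, map_one]
    rw [map_mul, map_mul, map_mul, map_inv]
    calc ρ t * (ρ g * ρ t * (ρ g)⁻¹) = (ρ t * ρ g * ρ t) * (ρ g)⁻¹ := by group
      _ = (ρ t * ρ g * (ρ t)⁻¹) * (ρ g)⁻¹ := by rw [e1]
      _ = (ρ g)⁻¹ * (ρ g)⁻¹ := by rw [hht]
      _ = (ρ g ^ 2)⁻¹ := by rw [pow_two, mul_inv_rev]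
  have hnot : ∀ k : ℕ, ((t : G) * ((g * t * g⁻¹ : normalizer (P : Set G)) : G)) ^ (2 ^ k) ≠ 1 := by
    intro k hk'
    have h1 : (t * (g * t * g⁻¹)) ^ (2 ^ k) = 1 := Subtype.ext hk'
    have h2 : ((ρ g ^ 2)⁻¹) ^ (2 ^ k) = 1 := by
      rw [← hk, ← map_pow, h1, map_one]
    have h3 : ρ g ^ (2 ^ (k + 1)) = 1 := by
      rw [inv_pow, inv_eq_one, ← pow_mul] at h2
      rw [pow_succ, mul_comm]; exact h2
    have h4 : orderOf (ρ g) ∣ 2 ^ (k + 1) := orderOf_dvd_of_pow_eq_one h3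
    have h5 : orderOf (ρ g) = 1 := by
      have h6 : Nat.Coprime (orderOf (ρ g)) (2 ^ (k + 1)) := (Nat.coprime_two_right.2 hho).pow_right _
      exact Nat.eq_one_of_dvd_coprimes h6 dvd_rfl h4
    exact hh1 (orderOf_eq_one_iff.1 h5)
  obtain ⟨m, hm1, hm2, hm3⟩ := exists_rc ht hts hnot
  exact ⟨_, hm1, hm2, hm3⟩

/-- an element of `TT` is central modulo `P` in every 2-subgroup containing it and `P` -/
theorem comm_mod (hG : PP G) (hP : MaxP x P) {t : normalizer (P : Set G)} (ht : TT P (t : G))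
    {D : Subgroup G} (hD : IsPGroup 2 D) (hPD : P ≤ D) (hDN : D ≤ normalizer (P : Set G)) (htD : (t : G) ∈ D)
    {d : G} (hd : d ∈ D) : d * (t : G) * d⁻¹ * (t : G)⁻¹ ∈ P := by
  obtain ⟨w, hw, hwP, htw⟩ := exists_rc_of_TT hG hP ht
  obtain ⟨S, hDS⟩ := hD.exists_le_sylow
  obtain ⟨c, hc, h1, h2, h3⟩ := exists_inverting hG hw ht.1 htw S
  set s := c * (t : G) * c⁻¹ with hs
  -- `t s` centralizes `w` and `P` and is in `S`
  have h4 : (t : G) * s ∈ (S : Subgroup G) := mul_mem (hDS htD) h1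
  have hss : s * s = 1 := (ht.1.conj c).1
  have htt : (t : G) * t = 1 := ht.1.1
  have e1 : (t : G)⁻¹ = t := inv_eq_of_mul_eq_one_left htt
  have e2 : s⁻¹ = s := inv_eq_of_mul_eq_one_left hss
  have h5 : (t : G) * s ∈ centralizer ({w} : Set G) := by
    rw [mem_centralizer_singleton_iff]
    have a1 : s * w = w⁻¹ * s := by rw [← h3]; group
    have a2 : (t : G) * w = w⁻¹ * t := by rw [← htw]; group
    have a3 : (t : G) * w⁻¹ = w * t := by
      have : (t : G) * w * t = w⁻¹ := by rw [← htw, e1]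
      calc (t : G) * w⁻¹ = t * (t * w * t) := by rw [this]
        _ = (t * t) * w * t := by group
        _ = w * t := by rw [htt, one_mul]
    calc (t : G) * s * w = t * (s * w) := by group
      _ = t * (w⁻¹ * s) := by rw [a1]
      _ = (t * w⁻¹) * s := by group
      _ = w * t * s := by rw [a3]
      _ = w * (t * s) := by group
  have h6 : (t : G) * s ∈ centralizer (P : Set G) := by
    apply mul_mem ht.2.1
    rw [mem_centralizer_iff] at h2 ⊢
    intro a ha
    exact h2 a (hDS (hPD ha))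
  have h7 : (t : G) * s ∈ P := by
    obtain ⟨k, hk⟩ := S.isPGroup' ⟨_, h4⟩
    have hk' : ((t : G) * s) ^ (2 ^ k) = 1 := by simpa using congrArg Subtype.val hk
    have hE : IsPGroup 2 ↥(P ⊔ zpowers ((t : G) * s)) :=
      isPGroup_sup hP.pgrp (isPGroup_zpowers_of_pow hk') (by
        rw [zpowers_le]; exact centralizer_le h6)
    have hwE : w ∈ normalizer ((P ⊔ zpowers ((t : G) * s) : Subgroup G) : Set G) := by
      apply centralizer_le_normalizer
      rw [mem_centralizer_iff]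
      have : (P ⊔ zpowers ((t : G) * s) : Subgroup G) ≤ centralizer ({w} : Set G) := by
        apply sup_le
        · intro a ha
          exact mem_centralizer_singleton_iff.2 (mem_centralizer_iff.1 hwP a ha)
        · rw [zpowers_le]; exact h5
      intro a ha
      exact mem_centralizer_singleton_iff.1 (this ha)
    have := hP.eq_of_le hG hw hE le_sup_left hwE
    exact this.le ((le_sup_right (α := Subgroup G)) (mem_zpowers _))
  have h8 : d * s = s * d := mem_centralizer_iff.1 h2 d (hDS hd)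
  have h9 : d * ((t : G) * s) * d⁻¹ ∈ P := (mem_normalizer_iff.1 (hDN hd) _).1 h7
  have h10 : d * (t : G) * d⁻¹ * (t : G)⁻¹ = (d * ((t : G) * s) * d⁻¹) * ((t : G) * s)⁻¹ := by
    have h11 : d⁻¹ * s⁻¹ = s⁻¹ * d⁻¹ := by rw [← mul_inv_rev, ← mul_inv_rev, h8]
    calc d * (t : G) * d⁻¹ * (t : G)⁻¹ = d * (t : G) * s * (s⁻¹ * d⁻¹) * (t : G)⁻¹ := by group
      _ = d * (t : G) * s * (d⁻¹ * s⁻¹) * (t : G)⁻¹ := by rw [h11]
      _ = (d * ((t : G) * s) * d⁻¹) * ((t : G) * s)⁻¹ := by group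
  rw [h10]
  exact mul_mem h9 (inv_mem h7)

/-- commuting elements of `TT` are congruent modulo `P` -/
theorem congr_mod (hG : PP G) (hP : MaxP x P) {s t : G} (hs : TT P s) (ht : TT P t) (hst : s * t = t * s) :
    s * t ∈ P := by
  classical
  set ρ := QuotientGroup.mk' (P.subgroupOf (normalizer (P : Set G))) with hρ
  let T : Set (↥(normalizer (P : Set G)) ⧸ P.subgroupOf (normalizer (P : Set G))) :=
    {y | ∃ n : normalizer (P : Set G), ρ n = y ∧ TT P (n : G)}
  have hsN : s ∈ normalizer (P : Set G) := centralizer_le hs.2.1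
  have htN : t ∈ normalizer (P : Set G) := centralizer_le ht.2.1
  have hT2 : ∀ y ∈ T, y * y = 1 := by
    rintro _ ⟨n, rfl, hn⟩
    rw [← map_mul, show n * n = 1 from Subtype.ext hn.1.1, map_one]
  have hT1 : ∀ y ∈ T, y ≠ 1 := by
    rintro _ ⟨n, rfl, hn⟩ h
    exact hn.2.2 ((QuotientGroup.eq_one_iff (N := P.subgroupOf (normalizer (P : Set G))) n).1 h)
  have key : (ρ ⟨s, hsN⟩) = (ρ ⟨t, htN⟩) := by
    apply eq_of_commute T hT2 hT1
    · rintro _ ⟨n, rfl, hn⟩ g
      obtain ⟨m, rfl⟩ := QuotientGroup.mk'_surjective _ g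
      exact ⟨m * n * m⁻¹, by rw [map_mul, map_mul, map_inv], hn.conj m.2⟩
    · rintro _ ⟨n, rfl, hn⟩ D hD hnD d hd
      obtain ⟨m, rfl⟩ := QuotientGroup.mk'_surjective _ d
      have h1 := comm_mod hG hP hn (isPGroup_pre hP.pgrp hD) (le_pre D)
        (map_subtype_le _) (mem_pre.2 hnD) (mem_pre.2 hd)
      have h2 : ρ (m * n * m⁻¹ * n⁻¹) = 1 :=
        (QuotientGroup.eq_one_iff (N := P.subgroupOf (normalizer (P : Set G))) _).2 h1
      rw [map_mul, map_mul, map_mul, map_inv, map_inv, mul_inv_eq_one, mul_inv_eq_iff_eq_mul] at h2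
      exact h2.symm
    · rintro _ ⟨n, rfl, hn⟩ _ ⟨m, rfl, hm⟩
      by_cases h : ∃ k : ℕ, ((n : G) * m) ^ (2 ^ k) = 1
      · left
        obtain ⟨k, hk⟩ := h
        -- `⟨n, m⟩ P` is a 2-group
        have hnm : n * (n * m) * n⁻¹ = (n * m)⁻¹ := by
          have e1 : n⁻¹ = n := inv_eq_of_mul_eq_one_left (Subtype.ext hn.1.1)
          have e2 : m⁻¹ = m := inv_eq_of_mul_eq_one_left (Subtype.ext hm.1.1)
          rw [mul_inv_rev, e1, e2]
          calc n * (n * m) * n = (n * n) * m * n := by group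
            _ = m * n := by rw [show n * n = 1 from Subtype.ext hn.1.1, one_mul]
        have h1 : IsPGroup 2 ↥(zpowers ((n : G) * m) ⊔ zpowers (n : G)) := by
          apply isPGroup_sup (isPGroup_zpowers_of_pow hk) (isPGroup_zpowers_of_mul_self hn.1.1)
          rw [zpowers_le, CycNorm.mem_normalizer_zpowers_iff]
          have h2 : (n : G) * ((n : G) * m) * (n : G)⁻¹ = ((n : G) * m)⁻¹ := congrArg Subtype.val hnm
          rw [h2]
          exact inv_mem (mem_zpowers _)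
        have hle : zpowers ((n : G) * m) ⊔ zpowers (n : G) ≤ centralizer (P : Set G) := by
          apply sup_le
          · rw [zpowers_le]; exact mul_mem hn.2.1 hm.2.1
          · rw [zpowers_le]; exact hn.2.1
        have h3 : IsPGroup 2 ↥(P ⊔ (zpowers ((n : G) * m) ⊔ zpowers (n : G))) :=
          isPGroup_sup hP.pgrp h1 (hle.trans centralizer_le)
        have hnD : (n : G) ∈ P ⊔ (zpowers ((n : G) * m) ⊔ zpowers (n : G)) :=
          (le_sup_right.trans le_sup_right : zpowers (n : G) ≤ _) (mem_zpowers _)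
        have hnmD : (n : G) * m ∈ P ⊔ (zpowers ((n : G) * m) ⊔ zpowers (n : G)) :=
          (le_sup_left.trans le_sup_right : zpowers ((n : G) * m) ≤ _) (mem_zpowers _)
        have hmD : (m : G) ∈ P ⊔ (zpowers ((n : G) * m) ⊔ zpowers (n : G)) := by
          have := mul_mem (inv_mem hnD) hnmD
          rwa [inv_mul_cancel_left] at this
        have h4 := comm_mod hG hP hn h3 le_sup_left
          (sup_le le_normalizer (hle.trans centralizer_le)) hnD hmD
        have h2 : ρ (m * n * m⁻¹ * n⁻¹) = 1 :=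
          (QuotientGroup.eq_one_iff (N := P.subgroupOf (normalizer (P : Set G))) _).2 h4
        rw [map_mul, map_mul, map_mul, map_inv, map_inv, mul_inv_eq_one, mul_inv_eq_iff_eq_mul] at h2
        exact h2.symm
      · right
        push Not at h
        intro D hD hnD
        rw [← map_mul] at hnD
        exact no_norm hG hP hn hm h hD hnD
    · intro D hDn hD
      exact no_normal hG hP hDn hD
    · exact ⟨_, rfl, hs⟩
    · exact ⟨_, rfl, ht⟩
    · rw [← map_mul, ← map_mul]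
      congr 1
      exact Subtype.ext hst
  have h1 : ρ (⟨s, hsN⟩ * ⟨t, htN⟩) = 1 := by
    rw [map_mul, key]
    exact hT2 _ ⟨_, rfl, ht⟩
  exact (QuotientGroup.eq_one_iff (N := P.subgroupOf (normalizer (P : Set G))) _).1 h1

/-- The conjugates of `x` commute. -/
theorem conj_commute (hG : PP G) (hP : MaxP x P) (g₁ g₂ : G) :
    (g₁ * x * g₁⁻¹) * (g₂ * x * g₂⁻¹) = (g₂ * x * g₂⁻¹) * (g₁ * x * g₁⁻¹) := by
  obtain ⟨S, hPS⟩ := hP.pgrp.exists_le_sylow
  obtain ⟨-, t₀, ht₀, ht₀x⟩ := id hP.rc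
  obtain ⟨c, hc, h1, h2, h3⟩ := exists_inverting hG hP.rc ht₀ ht₀x S
  set t := c * t₀ * c⁻¹ with ht
  have htc : TC t := ht₀.conj c
  have hx1 := hP.rc.ne_one
  have hxodd := hP.rc.odd
  have htP : t ∉ P := by
    intro h
    have h4 := mem_centralizer_singleton_iff.1 (hP.le h)
    have h5 : x⁻¹ = x := by rw [← h3, h4]; group
    have h6 : x ^ 2 ∈ (⊥ : Subgroup G) := by
      rw [mem_bot, pow_two]
      nth_rewrite 1 [← h5]
      group
    exact hx1 (mem_bot.1 (mem_of_sq_mem hxodd h6))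
  have hTt : TT P t := by
    refine ⟨htc, ?_, htP⟩
    rw [mem_centralizer_iff] at h2 ⊢
    intro a ha
    exact h2 a (hPS ha)
  -- every central involution of `S` acts on `x` as `±1`
  have hA : ∀ a : G, a * a = 1 → a ∈ (S : Subgroup G) → a ∈ centralizer ((S : Subgroup G) : Set G) →
      a * x * a⁻¹ = x ∨ a * x * a⁻¹ = x⁻¹ := by
    intro a ha2 haS haC
    by_cases haP : a ∈ P
    · left
      have := mem_centralizer_singleton_iff.1 (hP.le haP)
      rw [this]; group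
    · right
      have hTa : TT P a := by
        refine ⟨⟨ha2, S, haS, haC⟩, ?_, haP⟩
        rw [mem_centralizer_iff] at haC ⊢
        intro b hb
        exact haC b (hPS hb)
      have h4 : a * t ∈ P := congr_mod hG hP hTa hTt (mem_centralizer_iff.1 h2 a haS)
      have h5 := mem_centralizer_singleton_iff.1 (hP.le h4)
      have e1 : t⁻¹ = t := inv_eq_of_mul_eq_one_left htc.1
      have h6 : a = (a * t) * t := by rw [mul_assoc, htc.1, mul_one]
      have h7 : (a * t) * x * (a * t)⁻¹ = x := by rw [h5]; group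
      have h8 : (a * t) * x⁻¹ * (a * t)⁻¹ = x⁻¹ := by
        calc (a * t) * x⁻¹ * (a * t)⁻¹ = ((a * t) * x * (a * t)⁻¹)⁻¹ := by group
          _ = x⁻¹ := by rw [h7]
      calc a * x * a⁻¹ = (a * t) * (t * x * t⁻¹) * (a * t)⁻¹ := by
            rw [h6]; rw [e1]
            have : (a * t * t) = a := by rw [mul_assoc, htc.1, mul_one]
            rw [this]
            rw [mul_inv_rev, e1]
            calc a * x * a⁻¹ = a * 1 * x * 1 * a⁻¹ := by group
              _ = a * (t * t) * x * (t * t) * a⁻¹ := by rw [htc.1]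
              _ = _ := by group
        _ = (a * t) * x⁻¹ * (a * t)⁻¹ := by rw [h3]
        _ = x⁻¹ := h8
  -- same for all conjugates
  have hA' : ∀ g : G, (∀ a : G, a * a = 1 → a ∈ (S : Subgroup G) → a ∈ centralizer ((S : Subgroup G) : Set G) →
      a * (g * x * g⁻¹) * a⁻¹ = g * x * g⁻¹ ∨ a * (g * x * g⁻¹) * a⁻¹ = (g * x * g⁻¹)⁻¹) ∧
      ∃ a : G, a * a = 1 ∧ a ∈ (S : Subgroup G) ∧ a ∈ centralizer ((S : Subgroup G) : Set G) ∧
        a * (g * x * g⁻¹) * a⁻¹ = (g * x * g⁻¹)⁻¹ := by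
    intro g
    obtain ⟨c, hc, hcS⟩ := exists_conj hG hP.rc S (g⁻¹ • S)
    have hn : g * c ∈ normalizer ((S : Subgroup G) : Set G) := by
      apply Sylow.smul_eq_iff_mem_normalizer.1
      rw [mul_smul, hcS, smul_inv_smul]
    have hcx : c * x * c⁻¹ = x := by
      rw [mem_centralizer_singleton_iff.1 hc]; group
    set n := g * c with hn'
    have hgx : g * x * g⁻¹ = n * x * n⁻¹ := by
      calc g * x * g⁻¹ = g * (c * x * c⁻¹) * g⁻¹ := by rw [hcx]
        _ = n * x * n⁻¹ := by rw [hn']; group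
    have hnZ : ∀ m ∈ normalizer ((S : Subgroup G) : Set G), ∀ a : G, a * a = 1 → a ∈ (S : Subgroup G) →
        a ∈ centralizer ((S : Subgroup G) : Set G) → (m * a * m⁻¹) * (m * a * m⁻¹) = 1 ∧
        m * a * m⁻¹ ∈ (S : Subgroup G) ∧ m * a * m⁻¹ ∈ centralizer ((S : Subgroup G) : Set G) := by
      intro m hm a ha1 ha2 ha3
      refine ⟨?_, (mem_normalizer_iff.1 hm a).1 ha2, conj_mem_of_le_normalizer
        (le_normalizer_centralizer le_rfl) hm ha3⟩
      calc (m * a * m⁻¹) * (m * a * m⁻¹) = m * (a * a) * m⁻¹ := by group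
        _ = 1 := by rw [ha1]; group
    rw [hgx]
    constructor
    · intro a ha1 ha2 ha3
      obtain ⟨b1, b2, b3⟩ := hnZ n⁻¹ (inv_mem hn) a ha1 ha2 ha3
      rw [inv_inv] at b1 b2 b3
      rcases hA _ b1 b2 b3 with h | h
      · left
        calc a * (n * x * n⁻¹) * a⁻¹ = n * ((n⁻¹ * a * n) * x * (n⁻¹ * a * n)⁻¹) * n⁻¹ := by group
          _ = n * x * n⁻¹ := by rw [h]
      · right
        calc a * (n * x * n⁻¹) * a⁻¹ = n * ((n⁻¹ * a * n) * x * (n⁻¹ * a * n)⁻¹) * n⁻¹ := by group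
          _ = (n * x * n⁻¹)⁻¹ := by rw [h]; group
    · obtain ⟨b1, b2, b3⟩ := hnZ n hn t htc.1 h1 h2
      refine ⟨_, b1, b2, b3, ?_⟩
      calc (n * t * n⁻¹) * (n * x * n⁻¹) * (n * t * n⁻¹)⁻¹ = n * (t * x * t⁻¹) * n⁻¹ := by group
        _ = (n * x * n⁻¹)⁻¹ := by rw [h3]; group
  set x₁ := g₁ * x * g₁⁻¹ with hx₁
  set x₂ := g₂ * x * g₂⁻¹ with hx₂
  obtain ⟨a, a1, a2, a3, a4⟩ := (hA' g₂).2
  rw [← hx₂] at a4
  have h5 := (hA' g₁).1 a a1 a2 a3
  rw [← hx₁] at h5
  have h6 := (hA' (x₂⁻¹ * g₁)).1 a a1 a2 a3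
  have e3 : x₂⁻¹ * g₁ * x * (x₂⁻¹ * g₁)⁻¹ = x₂⁻¹ * x₁ * x₂ := by rw [hx₁]; group
  rw [e3] at h6
  have e4 : a * (x₂⁻¹ * x₁ * x₂) * a⁻¹ = x₂ * (a * x₁ * a⁻¹) * x₂⁻¹ := by
    have : a * x₂⁻¹ * a⁻¹ = x₂ := by
      calc a * x₂⁻¹ * a⁻¹ = (a * x₂ * a⁻¹)⁻¹ := by group
        _ = x₂ := by rw [a4, inv_inv]
    calc a * (x₂⁻¹ * x₁ * x₂) * a⁻¹ = (a * x₂⁻¹ * a⁻¹) * (a * x₁ * a⁻¹) * (a * x₂ * a⁻¹) := by group
      _ = x₂ * (a * x₁ * a⁻¹) * x₂⁻¹ := by rw [this, a4]
  rw [e4] at h6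
  -- conclude that `x₂ ^ 2` conjugates `x₁` to `x₁` or its inverse
  have h7 : (x₂ ^ 2) * x₁ * (x₂ ^ 2)⁻¹ = x₁ ∨ (x₂ ^ 2) * x₁ * (x₂ ^ 2)⁻¹ = x₁⁻¹ := by
    have e5 : (x₂ ^ 2) * x₁ * (x₂ ^ 2)⁻¹ = x₂ * (x₂ * x₁ * x₂⁻¹) * x₂⁻¹ := by rw [pow_two]; group
    rw [e5]
    rcases h5 with h | h <;> rcases h6 with h' | h' <;> rw [h] at h'
    · left; rw [h']; group
    · right; rw [h']; group
    · right
      have : x₂ * x₁ * x₂⁻¹ = (x₂⁻¹ * x₁ * x₂)⁻¹ := by rw [← h']; group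
      rw [this]; group
    · left
      have : x₂ * x₁ * x₂⁻¹ = x₂⁻¹ * x₁ * x₂ := by
        rw [← inv_inj, ← h']; group
      rw [this]; group
  have ho2 : Odd (orderOf x₂) := by
    rw [hx₂]
    have := orderOf_injective (MulAut.conj g₂).toMonoidHom (MulAut.conj g₂).injective x
    have h8 : orderOf (g₂ * x * g₂⁻¹) = orderOf x := by simpa using this
    rw [h8]; exact hxodd
  have ho1 : Odd (orderOf x₁) := by
    rw [hx₁]
    have := orderOf_injective (MulAut.conj g₁).toMonoidHom (MulAut.conj g₁).injective x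
    have h8 : orderOf (g₁ * x * g₁⁻¹) = orderOf x := by simpa using this
    rw [h8]; exact hxodd
  have h8 : x₂ ^ 2 ∈ centralizer ({x₁} : Set G) := by
    rw [mem_centralizer_singleton_iff]
    rcases h7 with h | h
    · calc x₂ ^ 2 * x₁ = (x₂ ^ 2 * x₁ * (x₂ ^ 2)⁻¹) * x₂ ^ 2 := by group
        _ = x₁ * x₂ ^ 2 := by rw [h]
    · -- then `x₁ = x₁⁻¹`
      have h9 : (x₂ ^ 2) ^ 2 ∈ centralizer ({x₁} : Set G) := by
        rw [mem_centralizer_singleton_iff]
        set y := x₂ ^ 2 with hy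
        have h10 : y * x₁⁻¹ * y⁻¹ = x₁ := by
          calc y * x₁⁻¹ * y⁻¹ = (y * x₁ * y⁻¹)⁻¹ := by group
            _ = x₁ := by rw [h, inv_inv]
        have h11 : y ^ 2 * x₁ * (y ^ 2)⁻¹ = x₁ := by
          calc y ^ 2 * x₁ * (y ^ 2)⁻¹ = y * (y * x₁ * y⁻¹) * y⁻¹ := by rw [pow_two]; group
            _ = x₁ := by rw [h, h10]
        calc y ^ 2 * x₁ = (y ^ 2 * x₁ * (y ^ 2)⁻¹) * y ^ 2 := by group
          _ = x₁ * y ^ 2 := by rw [h11]
      have h12 : Odd (orderOf (x₂ ^ 2)) := by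
        obtain ⟨m, hm⟩ := ho2
        have : orderOf (x₂ ^ 2) ∣ orderOf x₂ := orderOf_pow_dvd 2
        obtain ⟨l, hl⟩ := this
        rw [hl] at hm
        have h13 : Odd (orderOf (x₂ ^ 2) * l) := ⟨m, hm⟩
        exact (Nat.odd_mul.1 h13).1
      have h13 := mem_of_sq_mem h12 h9
      exact mem_centralizer_singleton_iff.1 h13
  have h9 := mem_of_sq_mem ho2 h8
  exact (mem_centralizer_singleton_iff.1 h9).symm

end Main

end Cfsg.Agent.Lib.H64RealCl
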