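import Mathlib
import Cfsg.Agent.Lib.H64RealCl
import Cfsg.Agent.Lib.ClassPow
import Cfsg.Agent.Lib.TwoClosed
import Cfsg.Agent.Lib.RealElems

/-!
(helper64) Solvability of finite groups whose class sizes of real elements of odd prime power order are
coprime to the number of Sylow 2-subgroups; lifting real elements of odd prime power order.
-/

set_option autoImplicit false
set_option linter.unusedSectionVars false

namespace Cfsg.Agent.Lib.H64RealSol

open Subgroup Cfsg.Agent.Lib.LocBase Cfsg.Agent.Lib.H64RealY Cfsg.Agent.Lib.H64RealCl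

universe u

/-- odd powers of an inverting element invert -/
theorem inverts_odd_pow {Q : Type*} [Group Q] {v y : Q} (h : v * y * v⁻¹ = y⁻¹) {m : ℕ} (hm : Odd m) :
    v ^ m * y * (v ^ m)⁻¹ = y⁻¹ := by
  obtain ⟨l, rfl⟩ := hm
  have h2 : v ^ 2 * y * (v ^ 2)⁻¹ = y := by
    calc v ^ 2 * y * (v ^ 2)⁻¹ = v * (v * y * v⁻¹) * v⁻¹ := by rw [pow_two]; group
      _ = v * y⁻¹ * v⁻¹ := by rw [h]
      _ = (v * y * v⁻¹)⁻¹ := by group
      _ = y := by rw [h, inv_inv]
  have h3 : ∀ l : ℕ, (v ^ 2) ^ l * y * ((v ^ 2) ^ l)⁻¹ = y := by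
    intro l
    induction l with
    | zero => simp
    | succ l ih =>
      calc (v ^ 2) ^ (l + 1) * y * ((v ^ 2) ^ (l + 1))⁻¹ = (v ^ 2) ^ l * (v ^ 2 * y * (v ^ 2)⁻¹) * ((v ^ 2) ^ l)⁻¹ := by
            rw [pow_succ]; group
        _ = y := by rw [h2, ih]
  calc v ^ (2 * l + 1) * y * (v ^ (2 * l + 1))⁻¹ = v * ((v ^ 2) ^ l * y * ((v ^ 2) ^ l)⁻¹) * v⁻¹ := by
        rw [pow_succ', pow_mul]; group
    _ = y⁻¹ := by rw [h3, h]

/-- Real elements of odd prime power order lift to real elements of prime power order. -/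
theorem exists_real_lift {G Q : Type*} [Group G] [Finite G] [Group Q] (f : G →* Q) (hf : Function.Surjective f)
    {y : Q} {r k : ℕ} (hr : r.Prime) (hr2 : r ≠ 2) (hy : orderOf y = r ^ k) (hreal : IsConj y y⁻¹) :
    ∃ x : G, (∃ j, orderOf x = r ^ j) ∧ IsConj x x⁻¹ ∧ f x = y := by
  classical
  have hrF : Fact r.Prime := ⟨hr⟩
  obtain ⟨g', hg'⟩ := isConj_iff.1 hreal
  obtain ⟨g₀, rfl⟩ := hf g'
  set L : Subgroup G := (zpowers y).comap f with hL
  obtain ⟨T, hT⟩ := exists_isSyl r L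
  have hg₀L : g₀ ∈ normalizer (L : Set G) := by
    apply mem_normalizer_of_map_conj_le
    rintro _ ⟨l, hl, rfl⟩
    change f (g₀ * l * g₀⁻¹) ∈ zpowers y
    obtain ⟨m, hm⟩ := mem_zpowers_iff.1 (show f l ∈ zpowers y from hl)
    rw [map_mul, map_mul, map_inv, ← hm, ← conj_zpow, hg']
    exact zpow_mem (inv_mem (mem_zpowers y)) _
  obtain ⟨n, hn, w, ⟨-, hwT⟩, hgw⟩ := hT.frattini le_normalizer le_rfl hg₀L
  have hfn : f n ∈ zpowers y := hn
  have hfw : f w * y * (f w)⁻¹ = y⁻¹ := by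
    have e1 : f w = (f n)⁻¹ * f g₀ := by rw [hgw, map_mul]; group
    obtain ⟨m, hm⟩ := mem_zpowers_iff.1 hfn
    rw [e1, ← hm]
    calc (y ^ m)⁻¹ * f g₀ * y * ((y ^ m)⁻¹ * f g₀)⁻¹ = (y ^ m)⁻¹ * (f g₀ * y * (f g₀)⁻¹) * y ^ m := by group
      _ = (y ^ m)⁻¹ * y⁻¹ * y ^ m := by rw [hg']
      _ = y⁻¹ := by group
  obtain ⟨k2, m, hm, hkm⟩ := Nat.exists_eq_pow_mul_and_not_dvd (orderOf_pos w).ne' 2 (by norm_num)
  set v := w ^ m with hv
  have hmodd : Odd m := by
    rw [← Nat.not_even_iff_odd, even_iff_two_dvd]; exact hm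
  have hv2 : v ^ (2 ^ k2) = 1 := by
    rw [hv, ← pow_mul, mul_comm, ← hkm, pow_orderOf_eq_one]
  have hvT : v ∈ normalizer (T : Set G) := pow_mem hwT m
  have hfv : f v * y * (f v)⁻¹ = y⁻¹ := by
    rw [hv, map_pow]; exact inverts_odd_pow hfw hmodd
  -- an element of `T` over `y`
  obtain ⟨x1, hx1T, hx1⟩ : ∃ x ∈ T, f x = y := by
    obtain ⟨x0, hx0⟩ := hf y
    obtain ⟨a, b, ⟨c, ha⟩, hb, hab⟩ := CycNorm.exists_parts r hr x0
    have h1 : y ^ b = 1 := by
      have h2 : orderOf (y ^ b) ∣ orderOf (x0 ^ b) := by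
        rw [← hx0, ← map_pow]; exact orderOf_map_dvd f _
      have h3 : orderOf (y ^ b) ∣ r ^ k := by rw [← hy]; exact orderOf_pow_dvd b
      have h4 : orderOf (y ^ b) = 1 := Nat.eq_one_of_dvd_coprimes (Nat.Coprime.pow_right k hb) h2 h3
      exact orderOf_eq_one_iff.1 h4
    have h2 : f (x0 ^ a) = y := by
      have h3 : y = y ^ a * y ^ b := by
        conv_lhs => rw [← hx0, hab, map_mul, map_pow, map_pow, hx0]
      rw [map_pow, hx0]
      conv_rhs => rw [h3]
      rw [h1, mul_one]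
    have h3 : IsPGroup r (zpowers (x0 ^ a)) := by
      apply isPGroup_zpowers_of_pow (k := c)
      rw [← ha, pow_orderOf_eq_one]
    have h4 : zpowers (x0 ^ a) ≤ L := by
      rw [zpowers_le]
      change f (x0 ^ a) ∈ zpowers y
      rw [h2]; exact mem_zpowers y
    obtain ⟨l, hl, hle⟩ := hT.exists_conj_le h3 h4
    refine ⟨l * x0 ^ a * l⁻¹, hle ⟨x0 ^ a, mem_zpowers _, rfl⟩, ?_⟩
    obtain ⟨m', hm'⟩ := mem_zpowers_iff.1 (show f l ∈ zpowers y from hl)
    rw [map_mul, map_mul, map_inv, h2, ← hm']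
    group
  -- counting
  let Ω : Set G := {x | x ∈ T ∧ f x = y}
  have hΩ : ¬ 2 ∣ Nat.card Ω := by
    have e : Nat.card Ω = Nat.card ↥(T ⊓ f.ker) := by
      apply Nat.card_congr
      refine ⟨fun x => ⟨x1⁻¹ * x.1, Subgroup.mem_inf.2 ⟨mul_mem (inv_mem hx1T) x.2.1, ?_⟩⟩,
        fun z => ⟨x1 * z.1, mul_mem hx1T (Subgroup.mem_inf.1 z.2).1, ?_⟩, ?_, ?_⟩
      · have := x.2.2
        rw [MonoidHom.mem_ker, map_mul, map_inv, hx1, this, inv_mul_cancel]
      · have := (Subgroup.mem_inf.1 z.2).2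
        rw [MonoidHom.mem_ker] at this
        rw [map_mul, this, mul_one, hx1]
      · intro x; ext; simp
      · intro x; ext; simp
    rw [e]
    obtain ⟨j, hj⟩ := IsPGroup.iff_card.1 (hT.pgroup.to_le (inf_le_left : T ⊓ f.ker ≤ T))
    rw [hj]
    intro h
    exact hr2 ((Nat.prime_dvd_prime_iff_eq Nat.prime_two hr).1 (Nat.prime_two.dvd_of_dvd_pow h)).symm
  have hmap : ∀ x : G, x ∈ Ω → (v * x * v⁻¹)⁻¹ ∈ Ω := by
    rintro x ⟨hx1, hx2⟩
    refine ⟨inv_mem ((mem_normalizer_iff.1 hvT x).1 hx1), ?_⟩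
    rw [map_inv, map_mul, map_mul, map_inv, hx2, hfv, inv_inv]
  let σ' : Ω → Ω := fun x => ⟨(v * x.1 * v⁻¹)⁻¹, hmap x x.2⟩
  have hσinj : Function.Injective σ' := by
    intro a b hab
    have := congrArg Subtype.val hab
    exact Subtype.ext (by simpa [σ'] using this)
  let σ : Equiv.Perm Ω := Equiv.ofBijective σ' (Finite.injective_iff_bijective.1 hσinj)
  have hσ2 : ∀ (j : ℕ) (x : Ω), (((σ ^ 2) ^ j) x : G) = v ^ (2 * j) * x.1 * (v ^ (2 * j))⁻¹ := by
    intro j
    induction j with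
    | zero => intro x; simp
    | succ j ih =>
      intro x
      rw [pow_succ', Equiv.Perm.mul_apply]
      have h1 : ∀ z : Ω, ((σ ^ 2) z : G) = v ^ 2 * z.1 * (v ^ 2)⁻¹ := by
        intro z
        rw [pow_two, Equiv.Perm.mul_apply]
        change (v * ((v * z.1 * v⁻¹)⁻¹) * v⁻¹)⁻¹ = _
        simp only [pow_two, mul_inv_rev, inv_inv, mul_assoc]
      rw [h1, ih, show 2 * (j + 1) = 2 + 2 * j by ring, pow_add]
      group
  have hσ1 : σ ^ 2 ^ (k2 + 1) = 1 := by
    ext x
    rw [pow_succ', pow_mul, hσ2]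
    have : v ^ (2 * 2 ^ k2) = 1 := by rw [mul_comm, pow_mul, hv2, one_pow]
    rw [this]; simp
  have : Fintype Ω := Fintype.ofFinite _
  obtain ⟨x, hx⟩ := Equiv.Perm.exists_fixed_point_of_prime (p := 2) (n := k2 + 1)
    (by rwa [← Nat.card_eq_fintype_card]) hσ1
  have hx' : (v * x.1 * v⁻¹)⁻¹ = x.1 := congrArg Subtype.val hx
  refine ⟨x.1, ?_, ?_, x.2.2⟩
  · obtain ⟨j, hj⟩ := IsPGroup.iff_orderOf.1 hT.pgroup ⟨x.1, x.2.1⟩
    exact ⟨j, by rwa [Subgroup.orderOf_mk] at hj⟩
  · refine isConj_iff.2 ⟨v, ?_⟩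
    have h9 := congrArg (fun z : G => z⁻¹) hx'
    simpa only [inv_inv] using h9

theorem card_sylow {G : Type*} [Group G] [Finite G] (S : Sylow 2 G) :
    (normalizer ((S : Subgroup G) : Set G)).index = Nat.card (Sylow 2 G) :=
  (Sylow.card_eq_index_normalizer S).symm

theorem PP.subgroup {G : Type u} [Group G] [Finite G] (N : Subgroup G) [N.Normal] (h : PP G) : PP N := by
  intro S x r k hr hr2 hx hreal
  obtain ⟨S₀⟩ : Nonempty (Sylow 2 G) := inferInstance
  have h1 := h S₀ x r k hr hr2 (by rw [Subgroup.orderOf_coe]; exact hx) (by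
    have := N.subtype.map_isConj hreal
    simpa using this)
  have h2 : (centralizer ({x} : Set N)).index ∣ (centralizer ({(x : G)} : Set G)).index := by
    rw [ClassPow.index_centralizer_subgroup]
    exact ClassPow.relIndex_dvd_index _ _
  have h3 : (normalizer ((S : Subgroup N) : Set N)).index ∣ (normalizer ((S₀ : Subgroup G) : Set G)).index := by
    have hS₁ : IsSyl 2 ((S₀ : Subgroup G) ⊓ N) N := (isSyl_top S₀).inf_normal le_top
      (by rw [normalizer_eq_top_iff.2 (inferInstance : N.Normal)])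
    obtain ⟨S₁, hS₁'⟩ := hS₁.exists_sylow
    rw [card_sylow S, ← card_sylow S₁, hS₁']
    have h4 : (normalizer ((S₀ : Subgroup G) : Set G)).subgroupOf N ≤
        normalizer ((((S₀ : Subgroup G) ⊓ N).subgroupOf N : Subgroup N) : Set N) := by
      intro n hn
      rw [mem_subgroupOf] at hn
      rw [mem_normalizer_iff]
      intro a
      rw [mem_subgroupOf, mem_subgroupOf, Subgroup.mem_inf, Subgroup.mem_inf]
      push_cast
      rw [← mem_normalizer_iff.1 hn a]
      simp [a.2, N.mul_mem, N.inv_mem, n.2]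
    exact (index_dvd_of_le h4).trans (ClassPow.relIndex_dvd_index _ _)
  exact (h1.coprime_dvd_left h2).coprime_dvd_right h3

theorem PP.quotient {G : Type u} [Group G] [Finite G] (N : Subgroup G) [N.Normal] (h : PP G) : PP (G ⧸ N) := by
  intro S y r k hr hr2 hy hreal
  obtain ⟨x, ⟨j, hxj⟩, hxr, rfl⟩ := exists_real_lift (QuotientGroup.mk' N) (QuotientGroup.mk'_surjective N) hr hr2 hy hreal
  obtain ⟨S₀⟩ : Nonempty (Sylow 2 G) := inferInstance
  have h1 := h S₀ x r j hr hr2 hxj hxr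
  have h2 := ClassPow.index_centralizer_quotient_dvd N x
  have h3 : (normalizer ((S : Subgroup (G ⧸ N)) : Set (G ⧸ N))).index ∣ (normalizer ((S₀ : Subgroup G) : Set G)).index := by
    rw [card_sylow S, ← card_sylow (S₀.mapSurjective (QuotientGroup.mk'_surjective N))]
    have h4 : (normalizer ((S₀ : Subgroup G) : Set G)).map (QuotientGroup.mk' N) ≤
        normalizer (((S₀.mapSurjective (QuotientGroup.mk'_surjective N) : Sylow 2 (G ⧸ N)) : Subgroup (G ⧸ N)) : Set _) := by
      rw [Sylow.coe_mapSurjective]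
      exact le_normalizer_map _
    exact (index_dvd_of_le h4).trans (index_map_dvd _ (QuotientGroup.mk'_surjective N))
  exact (h1.coprime_dvd_left h2).coprime_dvd_right h3

/-- Main theorem (modulo the odd order theorem). -/
theorem solvable_of_PP (hFT : ∀ (G : Type u) [Group G] [Finite G], Odd (Nat.card G) → Group.IsSolvable G)
    (G : Type u) [Group G] [Finite G] (h : PP G) : Group.IsSolvable G := by
  refine ClassPow.solvable_induction (fun G _ => PP G) (fun G _ _ N _ h => PP.subgroup N h)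
    (fun G _ _ N _ h => PP.quotient N h) ?_ (Nat.card G) G rfl h
  clear h
  intro G _ _ hs hG
  by_cases hodd : Odd (Nat.card G)
  · exact hFT G hodd
  by_contra hns
  -- the center is trivial
  have hnc : ∀ N : Subgroup G, N.Normal → Group.IsSolvable N → N = ⊥ := by
    intro N hN hsol
    rcases hN.eq_bot_or_eq_top with h | h
    · exact h
    · exfalso
      apply hns
      subst h
      exact Group.isSolvable_of_surjective (f := (Subgroup.topEquiv : (⊤ : Subgroup G) ≃* G).toMonoidHom)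
        (Subgroup.topEquiv : (⊤ : Subgroup G) ≃* G).surjective
  -- a central involution of a Sylow 2-subgroup
  obtain ⟨S⟩ : Nonempty (Sylow 2 G) := inferInstance
  have h2 : 2 ∣ Nat.card G := even_iff_two_dvd.1 (Nat.not_odd_iff_even.1 hodd)
  have hSne : (S : Subgroup G) ≠ ⊥ := S.ne_bot_of_dvd_card h2
  have : Nontrivial (S : Subgroup G) := (Subgroup.nontrivial_iff_ne_bot _).2 hSne
  have hZ : Nontrivial (center (S : Subgroup G)) := S.isPGroup'.center_nontrivial
  obtain ⟨z, hz⟩ : ∃ z : center (S : Subgroup G), orderOf z = 2 := by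
    have hZp : IsPGroup 2 (center (S : Subgroup G)) := S.isPGroup'.to_subgroup _
    obtain ⟨n, hn, hc⟩ := hZp.nontrivial_iff_card.1 hZ
    apply exists_prime_orderOf_dvd_card'
    rw [hc]
    exact dvd_pow_self 2 hn.ne'
  have hz' : orderOf (z : G) = 2 := by
    rw [Subgroup.orderOf_coe, Subgroup.orderOf_coe]; exact hz
  have hzz : (z : G) * z = 1 := by
    have h := pow_orderOf_eq_one ((z : (S : Subgroup G)) : G)
    rwa [hz', pow_two] at h
  have hTC : TC (z : G) := by
    refine ⟨hzz, S, z.1.2, ?_⟩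
    rw [mem_centralizer_iff]
    intro s hs
    have := mem_center_iff.1 z.2 ⟨s, hs⟩
    exact congrArg Subtype.val this
  obtain ⟨h, hh1, hho, hht⟩ := BaerSuzuki.exists_inverted_odd (z : G) hz' (by
    intro M hM hMp hzM
    have hMs : Group.IsSolvable M := by
      have : Group.IsNilpotent M := hMp.isNilpotent
      infer_instance
    rw [hnc M hM hMs, mem_bot] at hzM
    rw [hzM, orderOf_one] at hz'
    exact absurd hz' (by norm_num))
  obtain ⟨m, r, hr, hr2, hmr⟩ := exists_pow_odd_prime h (by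
    intro k hk
    have h4 : orderOf h ∣ 2 ^ k := orderOf_dvd_of_pow_eq_one hk
    have h6 : Nat.Coprime (orderOf h) (2 ^ k) := (Nat.coprime_two_right.2 hho).pow_right _
    exact hh1 (orderOf_eq_one_iff.1 (Nat.eq_one_of_dvd_coprimes h6 dvd_rfl h4)))
  have hRC : RC (h ^ m) := ⟨⟨r, hr, hr2, hmr⟩, z, hTC, by rw [← conj_pow, hht, inv_pow]⟩
  obtain ⟨x, P, hP⟩ := exists_maxP ⟨_, hRC⟩
  -- the normal closure of `x` is abelian
  have hcomm : ∀ a ∈ Group.conjugatesOfSet ({x} : Set G), ∀ b ∈ Group.conjugatesOfSet ({x} : Set G), a * b = b * a := by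
    intro a ha b hb
    rw [Group.mem_conjugatesOfSet_iff] at ha hb
    obtain ⟨_, rfl, ha⟩ := ha
    obtain ⟨_, rfl, hb⟩ := hb
    obtain ⟨g₁, rfl⟩ := isConj_iff.1 ha
    obtain ⟨g₂, rfl⟩ := isConj_iff.1 hb
    exact conj_commute hG hP g₁ g₂
  have hN : (normalClosure ({x} : Set G)).Normal := normalClosure_normal
  have hNs : Group.IsSolvable (normalClosure ({x} : Set G)) := by
    have hc := closure_commute hcomm
    have : ∀ a b : normalClosure ({x} : Set G), a * b = b * a := fun a b => Subtype.ext (hc a a.2 b b.2)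
    let _ : CommGroup (normalClosure ({x} : Set G)) := { (inferInstance : Group (normalClosure ({x} : Set G))) with mul_comm := this }
    infer_instance
  have := hnc _ hN hNs
  have hx : x ∈ normalClosure ({x} : Set G) := subset_normalClosure rfl
  rw [this, mem_bot] at hx
  exact hP.rc.ne_one hx

end Cfsg.Agent.Lib.H64RealSol
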