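import Mathlib
import Cfsg.Agent.Lib.H64RealSol

/-!
(helper64) Groups with a real element of odd class size coprime to all even real class sizes.
-/

set_option autoImplicit false
set_option linter.unusedSectionVars false

namespace Cfsg.Agent.Lib.H64RealGraph

open Subgroup Cfsg.Agent.Lib.LocBase Cfsg.Agent.Lib.H64RealY Cfsg.Agent.Lib.H64RealCl Cfsg.Agent.Lib.H64RealSol

universe u

/-- class size -/
noncomputable def cl {G : Type u} [Group G] (x : G) : ℕ := (centralizer ({x} : Set G)).index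

/-- `z` is a real element with odd class size `≠ 1`, coprime to all even real class sizes -/
structure ZZ {G : Type u} [Group G] (z : G) : Prop where
  real : IsConj z z⁻¹
  odd : ¬ 2 ∣ cl z
  ne : cl z ≠ 1
  cop : ∀ x : G, IsConj x x⁻¹ → 2 ∣ cl x → (cl x).Coprime (cl z)

variable {G : Type u} [Group G] [Finite G]

theorem cl_dvd {x y : G} (h : centralizer ({x} : Set G) ≤ centralizer ({y} : Set G)) : cl y ∣ cl x :=
  index_dvd_of_le h

theorem two_dvd_cl {x : G} (hx : IsConj x x⁻¹) (hodd : Odd (orderOf x)) (h1 : x ≠ 1) : 2 ∣ cl x :=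
  RealElems.two_dvd_index_of_real hx (fun h => h1 (RealElems.eq_one_of_sq_of_odd h hodd))

theorem ZZ.sq {z : G} (h : ZZ z) : z * z = 1 := by
  by_contra hne
  exact h.odd (RealElems.two_dvd_index_of_real h.real (by rwa [pow_two]))

theorem ZZ.no_real {z : G} (h : ZZ z) {y : G} (hyz : y * z = z * y) (hodd : Odd (orderOf y))
    (hreal : IsConj y y⁻¹) : y = 1 := by
  by_contra hy1
  have h2 := two_dvd_cl hreal hodd hy1
  have hcop := h.cop y hreal h2
  obtain ⟨g, hg⟩ := isConj_iff.1 hreal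
  obtain ⟨c, hc, d, hd, hcd⟩ := HallConverse.exists_mul_of_coprime_index (H := centralizer ({z} : Set G))
    (K := centralizer ({y} : Set G)) hcop.symm g
  have hdy : d * y * d⁻¹ = y := by rw [mem_centralizer_singleton_iff.1 hd]; group
  have hcz : c * z * c⁻¹ = z := by rw [mem_centralizer_singleton_iff.1 hc]; group
  have hcy : c * y * c⁻¹ = y⁻¹ := by
    calc c * y * c⁻¹ = c * (d * y * d⁻¹) * c⁻¹ := by rw [hdy]
      _ = (c * d) * y * (c * d)⁻¹ := by group
      _ = y⁻¹ := by rw [hcd, hg]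
  have hz1 : z⁻¹ = z := inv_eq_of_mul_eq_one_left h.sq
  have hzy : IsConj (z * y) (z * y)⁻¹ := by
    refine isConj_iff.2 ⟨c, ?_⟩
    have h3 : y⁻¹ * z = z * y⁻¹ := by
      rw [inv_mul_eq_iff_eq_mul, ← mul_assoc, hyz, mul_inv_cancel_right]
    calc c * (z * y) * c⁻¹ = (c * z * c⁻¹) * (c * y * c⁻¹) := by group
      _ = z * y⁻¹ := by rw [hcz, hcy]
      _ = y⁻¹ * z := h3.symm
      _ = (z * y)⁻¹ := by rw [mul_inv_rev, hz1]
  -- `z` is a power of `z * y`
  have hpow : (z * y) ^ orderOf y = z := by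
    rw [(show Commute z y from hyz.symm).mul_pow, pow_orderOf_eq_one, mul_one]
    obtain ⟨m, hm⟩ := hodd
    rw [hm, pow_succ, pow_mul, pow_two, h.sq, one_pow, one_mul]
  have hle1 : centralizer ({z * y} : Set G) ≤ centralizer ({z} : Set G) := by
    intro a ha
    rw [mem_centralizer_singleton_iff] at ha ⊢
    have h3 : Commute a ((z * y) ^ orderOf y) := (show Commute a (z * y) from ha).pow_right _
    rwa [hpow] at h3
  have hle2 : centralizer ({z * y} : Set G) ≤ centralizer ({y} : Set G) := by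
    intro a ha
    have h3 := mem_centralizer_singleton_iff.1 (hle1 ha)
    rw [mem_centralizer_singleton_iff] at ha ⊢
    calc a * y = a * (z * z) * y := by rw [h.sq, mul_one]
      _ = (a * z) * (z * y) := by group
      _ = (z * a) * (z * y) := by rw [h3]
      _ = z * (a * (z * y)) := by group
      _ = z * ((z * y) * a) := by rw [ha]
      _ = (z * z) * y * a := by group
      _ = y * a := by rw [h.sq, one_mul]
  have h3 := h.cop _ hzy (h2.trans (cl_dvd hle2))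
  exact h.ne (Nat.eq_one_of_dvd_coprimes h3 (cl_dvd hle1) dvd_rfl)

/-- a Sylow 2-subgroup of `G` normalized by `C(z)` -/
theorem ZZ.exists_sylow {z : G} (h : ZZ z) : ∃ S : Sylow 2 G, (S : Subgroup G) ≤ centralizer ({z} : Set G) ∧
    centralizer ({z} : Set G) ≤ normalizer ((S : Subgroup G) : Set G) := by
  obtain ⟨T, hT⟩ := exists_isSyl 2 (centralizer ({z} : Set G))
  have hT2 : IsSyl 2 T ⊤ := by
    refine ⟨le_top, hT.pgroup, ?_⟩
    rw [relIndex_top_right, ← relIndex_mul_index hT.le, Nat.prime_two.dvd_mul]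
    rintro (h1 | h1)
    · exact hT.ndvd h1
    · exact h.odd h1
  obtain ⟨S, hS⟩ := hT2.exists_sylow_top
  refine ⟨S, by rw [hS]; exact hT.le, ?_⟩
  rw [hS]
  obtain ⟨S', hS'⟩ := hT.exists_sylow
  have h1 := TwoClosed.sylow_two_normal _ (centralizer ({z} : Set G)) le_rfl (by
    intro x hx hreal
    apply Subtype.ext
    apply h.no_real (mem_centralizer_singleton_iff.1 x.2)
    · rw [Subgroup.orderOf_coe]; exact hx
    · have := (centralizer ({z} : Set G)).subtype.map_isConj hreal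
      simpa using this) S'
  rw [hS'] at h1
  exact le_normalizer_of_normal_subgroupOf hT.le

theorem ZZ.pp {z : G} (h : ZZ z) : PP G := by
  intro S x r k hr hr2 hx hreal
  by_cases hx1 : x = 1
  · subst hx1
    have : (centralizer ({1} : Set G)).index = 1 := by
      rw [index_eq_one, eq_top_iff]
      intro a _
      rw [mem_centralizer_singleton_iff]; simp
    rw [this]; exact Nat.coprime_one_left _
  · have h2 := two_dvd_cl hreal (by rw [hx]; exact (hr.odd_of_ne_two hr2).pow) hx1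
    have h3 := h.cop x hreal h2
    obtain ⟨T, -, hT⟩ := h.exists_sylow
    rw [card_sylow S, ← card_sylow T]
    exact h3.coprime_dvd_right (index_dvd_of_le hT)

theorem solvable_of_odd (hFT : ∀ (G : Type u) [Group G] [Finite G], Odd (Nat.card G) → Group.IsSolvable G)
    (h : ∀ x : G, IsConj x x⁻¹ → ¬ 2 ∣ cl x) : Group.IsSolvable G := by
  obtain ⟨S⟩ : Nonempty (Sylow 2 G) := inferInstance
  have hSn : (S : Subgroup G).Normal := TwoClosed.sylow_two_normal _ G le_rfl (by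
    intro x hx hreal
    by_contra hne
    exact h x hreal (two_dvd_cl hreal hx hne)) S
  have h1 : Group.IsSolvable (S : Subgroup G) := by
    have : Group.IsNilpotent (S : Subgroup G) := S.isPGroup'.isNilpotent
    infer_instance
  have h2 : Group.IsSolvable (G ⧸ (S : Subgroup G)) := by
    apply hFT
    rw [← index_eq_card, ← Nat.not_even_iff_odd, even_iff_two_dvd]
    exact Sylow.not_dvd_index S
  exact Group.isSolvable_of_ker_le_range (S : Subgroup G).subtype (QuotientGroup.mk' (S : Subgroup G)) (by simp)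

/-- the graph dichotomy -/
theorem dichotomy (h : ∃ π₁ π₂ : Set ℕ, π₁.Nonempty ∧ π₂.Nonempty ∧ Disjoint π₁ π₂ ∧
      (∀ q ∈ π₁ ∪ π₂, q.Prime ∧ ∃ x : G, IsConj x x⁻¹ ∧ q ∣ cl x) ∧
      (∀ q : ℕ, q.Prime → (∃ x : G, IsConj x x⁻¹ ∧ q ∣ cl x) → q ∈ π₁ ∨ q ∈ π₂) ∧
      ∀ a ∈ π₁, ∀ b ∈ π₂, ∀ x : G, IsConj x x⁻¹ → ¬ (a ∣ cl x ∧ b ∣ cl x)) :
    (∀ x : G, IsConj x x⁻¹ → ¬ 2 ∣ cl x) ∨ ∃ z : G, ZZ z := by
  obtain ⟨π₁, π₂, ⟨a, ha⟩, ⟨b, hb⟩, hdisj, hsub, hcover, hnoedge⟩ := h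
  by_cases h2 : ∀ x : G, IsConj x x⁻¹ → ¬ 2 ∣ cl x
  · exact Or.inl h2
  right
  push Not at h2
  obtain ⟨x₀, hx₀, hx₀2⟩ := h2
  -- auxiliary statement, symmetric in the two parts
  have key : ∀ σ₁ σ₂ : Set ℕ, 2 ∈ σ₁ → ∀ b ∈ σ₂, b.Prime → (∃ x : G, IsConj x x⁻¹ ∧ b ∣ cl x) →
      (∀ q : ℕ, q.Prime → (∃ x : G, IsConj x x⁻¹ ∧ q ∣ cl x) → q ∈ σ₁ ∨ q ∈ σ₂) →
      (∀ a ∈ σ₁, ∀ b ∈ σ₂, ∀ x : G, IsConj x x⁻¹ → ¬ (a ∣ cl x ∧ b ∣ cl x)) → ∃ z : G, ZZ z := by
    rintro σ₁ σ₂ h2 b hb hbp ⟨z, hz, hbz⟩ hcov hno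
    refine ⟨z, hz, fun h => hno 2 h2 b hb z hz ⟨h, hbz⟩, ?_, ?_⟩
    · intro h
      rw [h] at hbz
      exact hbp.one_lt.ne' (Nat.dvd_one.1 hbz)
    · intro x hx hx2
      rw [Nat.coprime_iff_gcd_eq_one]
      by_contra hne
      obtain ⟨q, hq, hqd⟩ := Nat.exists_prime_and_dvd hne
      have hqx : q ∣ cl x := hqd.trans (Nat.gcd_dvd_left _ _)
      have hqz : q ∣ cl z := hqd.trans (Nat.gcd_dvd_right _ _)
      rcases hcov q hq ⟨x, hx, hqx⟩ with h | h
      · exact hno q h b hb z hz ⟨hqz, hbz⟩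
      · exact hno 2 h2 q h x hx ⟨hx2, hqx⟩
  rcases hcover 2 Nat.prime_two ⟨x₀, hx₀, hx₀2⟩ with h | h
  · obtain ⟨hbp, hbx⟩ := hsub b (Or.inr hb)
    exact key π₁ π₂ h b hb hbp hbx hcover hnoedge
  · obtain ⟨hap, hax⟩ := hsub a (Or.inl ha)
    exact key π₂ π₁ h a ha hap hax (fun q hq h => (hcover q hq h).symm)
      (fun c hc d hd x hx h => hnoedge d hd c hc x hx h.symm)

theorem solvable (hFT : ∀ (G : Type u) [Group G] [Finite G], Odd (Nat.card G) → Group.IsSolvable G)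
    (h : (∀ x : G, IsConj x x⁻¹ → ¬ 2 ∣ cl x) ∨ ∃ z : G, ZZ z) : Group.IsSolvable G := by
  rcases h with h | ⟨z, hz⟩
  · exact solvable_of_odd hFT h
  · exact solvable_of_PP hFT G hz.pp

end Cfsg.Agent.Lib.H64RealGraph
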