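import Mathlib
import Cfsg.Agent.Lib.H64RealGraph
import Cfsg.Agent.Lib.Cores2

/-!
(helper64) Groups with disconnected real class size graph: structure of the subgroup generated by the
2-elements.
-/

set_option autoImplicit false
set_option linter.unusedSectionVars false

namespace Cfsg.Agent.Lib.H64RealGraph2

open Subgroup Cfsg Cfsg.Agent.Lib.LocBase Cfsg.Agent.Lib.H64RealY Cfsg.Agent.Lib.H64RealCl Cfsg.Agent.Lib.H64RealSol
  Cfsg.Agent.Lib.H64RealGraph Cfsg.Agent.Lib.Cores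

universe u

variable {G : Type u} [Group G] [Finite G]

/-- disconnectedness of the real class size graph -/
def Disc (G : Type u) [Group G] : Prop := ∃ π₁ π₂ : Set ℕ, π₁.Nonempty ∧ π₂.Nonempty ∧ Disjoint π₁ π₂ ∧
      (∀ q ∈ π₁ ∪ π₂, q.Prime ∧ ∃ x : G, IsConj x x⁻¹ ∧ q ∣ cl x) ∧
      (∀ q : ℕ, q.Prime → (∃ x : G, IsConj x x⁻¹ ∧ q ∣ cl x) → q ∈ π₁ ∨ q ∈ π₂) ∧
      ∀ a ∈ π₁, ∀ b ∈ π₂, ∀ x : G, IsConj x x⁻¹ → ¬ (a ∣ cl x ∧ b ∣ cl x)

theorem isConj_mul_of_coprime {a b : G} (h : (cl a).Coprime (cl b)) {a' b' : G} (ha : IsConj a a') (hb : IsConj b b') :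
    IsConj (a * b) (a' * b') := by
  obtain ⟨g, rfl⟩ := isConj_iff.1 ha
  obtain ⟨g', rfl⟩ := isConj_iff.1 hb
  obtain ⟨c, hc, d, hd, hcd⟩ := HallConverse.exists_mul_of_coprime_index (H := centralizer ({a} : Set G))
    (K := centralizer ({b} : Set G)) h (g⁻¹ * g')
  refine isConj_iff.2 ⟨g * c, ?_⟩
  have hda : c * a * c⁻¹ = a := by rw [mem_centralizer_singleton_iff.1 hc]; group
  have hdb : d * b * d⁻¹ = b := by rw [mem_centralizer_singleton_iff.1 hd]; group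
  have hg' : g' = g * (c * d) := by rw [hcd]; group
  calc g * c * (a * b) * (g * c)⁻¹ = g * (c * a * c⁻¹) * (c * b * c⁻¹) * g⁻¹ := by group
    _ = g * a * (c * b * c⁻¹) * g⁻¹ := by rw [hda]
    _ = g * a * (c * (d * b * d⁻¹) * c⁻¹) * g⁻¹ := by rw [hdb]
    _ = (g * a * g⁻¹) * ((g * (c * d)) * b * (g * (c * d))⁻¹) := by group
    _ = (g * a * g⁻¹) * (g' * b * g'⁻¹) := by rw [← hg']

theorem even_of_products {z₁ z₂ : G} (hz₂ : z₂ * z₂ = 1)
    (hcomm : ∀ g : G, z₂ * (g * z₂ * g⁻¹) = (g * z₂ * g⁻¹) * z₂)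
    (h1 : (cl z₁).Coprime (cl z₂)) (h2 : (cl (z₁ * z₂)).Coprime (cl z₂)) (hne : cl z₂ ≠ 1) : 2 ∣ cl z₁ := by
  classical
  have hnc : ∃ g : G, g * z₂ * g⁻¹ ≠ z₂ := by
    by_contra hcon
    push Not at hcon
    apply hne
    unfold cl
    rw [index_eq_one, eq_top_iff]
    intro g _
    rw [mem_centralizer_singleton_iff]
    calc g * z₂ = (g * z₂ * g⁻¹) * g := by group
      _ = z₂ * g := by rw [hcon g]
  obtain ⟨g, hg⟩ := hnc
  set y := g * z₂ * g⁻¹ with hy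
  have hyy : y * y = 1 := by
    rw [hy]
    calc g * z₂ * g⁻¹ * (g * z₂ * g⁻¹) = g * (z₂ * z₂) * g⁻¹ := by group
      _ = 1 := by rw [hz₂]; group
  have hyc : z₂ * y = y * z₂ := hcomm g
  have hstep : ∀ z : G, IsConj z₁ z → IsConj z₁ (z * (z₂ * y)) := by
    intro z hz
    have h3 : IsConj (z₁ * z₂) (z * z₂) := isConj_mul_of_coprime h1 hz (IsConj.refl _)
    have h4 : IsConj (z₁ * z₂ * z₂) (z * z₂ * y) := isConj_mul_of_coprime h2 h3 (isConj_iff.2 ⟨g, rfl⟩)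
    rwa [mul_assoc, hz₂, mul_one, mul_assoc] at h4
  by_contra h2'
  let C := {h : G // IsConj z₁ h}
  have hcard : Nat.card C = cl z₁ := RealElems.card_class z₁
  let σ' : C → C := fun z => ⟨z.1 * (z₂ * y), hstep z.1 z.2⟩
  have hinv : ∀ z : C, σ' (σ' z) = z := by
    intro z
    apply Subtype.ext
    change z.1 * (z₂ * y) * (z₂ * y) = z.1
    calc z.1 * (z₂ * y) * (z₂ * y) = z.1 * (z₂ * (y * z₂) * y) := by group
      _ = z.1 * (z₂ * (z₂ * y) * y) := by rw [hyc]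
      _ = z.1 * ((z₂ * z₂) * (y * y)) := by group
      _ = z.1 := by rw [hz₂, hyy]; group
  let σ : Equiv.Perm C := ⟨σ', σ', hinv, hinv⟩
  have hσ : σ ^ 2 ^ 1 = 1 := by
    ext z
    rw [pow_one, pow_two, Equiv.Perm.mul_apply]
    exact congrArg Subtype.val (hinv z)
  have : Fintype C := Fintype.ofFinite _
  obtain ⟨z, hz⟩ := Equiv.Perm.exists_fixed_point_of_prime (p := 2) (n := 1)
    (by rwa [← Nat.card_eq_fintype_card, hcard]) hσ
  have hz' : z.1 * (z₂ * y) = z.1 := congrArg Subtype.val hz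
  have h5 : z₂ * y = 1 := by
    have := mul_left_cancel (a := z.1) (b := z₂ * y) (c := 1) (by rw [hz', mul_one])
    exact this
  apply hg
  calc y = (z₂ * z₂) * y := by rw [hz₂, one_mul]
    _ = z₂ * (z₂ * y) := by group
    _ = z₂ := by rw [h5, mul_one]

theorem exists_even (h : Disc G) : ∃ x : G, IsConj x x⁻¹ ∧ 2 ∣ cl x := by
  by_contra hcon
  push Not at hcon
  obtain ⟨π₁, π₂, ⟨a, ha⟩, ⟨b, hb⟩, hdisj, hsub, hcover, hnoedge⟩ := h
  obtain ⟨hap, z₁, hz₁, haz⟩ := hsub a (Or.inl ha)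
  obtain ⟨hbp, z₂, hz₂, hbz⟩ := hsub b (Or.inr hb)
  have hsq : ∀ x : G, IsConj x x⁻¹ → x * x = 1 := by
    intro x hx
    by_contra hne
    exact hcon x hx (RealElems.two_dvd_index_of_real hx (by rwa [pow_two]))
  obtain ⟨S⟩ : Nonempty (Sylow 2 G) := inferInstance
  have hSn : (S : Subgroup G).Normal := TwoClosed.sylow_two_normal _ G le_rfl (by
    intro x hx hreal
    by_contra hne
    exact hcon x hreal (two_dvd_cl hreal hx hne)) S
  -- real elements are in `Z(S)`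
  have hSZ : ∀ x : G, IsConj x x⁻¹ → x ∈ (S : Subgroup G) ∧ (S : Subgroup G) ≤ centralizer ({x} : Set G) := by
    intro x hx
    constructor
    · have h1 : IsPGroup 2 (zpowers x) := isPGroup_zpowers_of_mul_self (hsq x hx)
      obtain ⟨T, hT⟩ := h1.exists_le_sylow
      have : T = S := by
        obtain ⟨g, hg⟩ := MulAction.exists_smul_eq G S T
        rw [← hg]
        exact Sylow.smul_eq_of_normal
      rw [← this]
      exact hT (mem_zpowers x)
    · obtain ⟨T, hT⟩ := exists_isSyl 2 (centralizer ({x} : Set G))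
      have hT2 : IsSyl 2 T ⊤ := by
        refine ⟨le_top, hT.pgroup, ?_⟩
        rw [relIndex_top_right, ← relIndex_mul_index hT.le, Nat.prime_two.dvd_mul]
        rintro (h1 | h1)
        · exact hT.ndvd h1
        · exact hcon x hx h1
      obtain ⟨T', hT'⟩ := hT2.exists_sylow_top
      have : T' = S := by
        obtain ⟨g, hg⟩ := MulAction.exists_smul_eq G S T'
        rw [← hg]
        exact Sylow.smul_eq_of_normal
      rw [← this, hT']
      exact hT.le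
  have hcommS : ∀ x y : G, IsConj x x⁻¹ → IsConj y y⁻¹ → x * y = y * x := by
    intro x y hx hy
    exact (mem_centralizer_singleton_iff.1 ((hSZ x hx).2 (hSZ y hy).1)).symm
  have hconjreal : ∀ x g : G, IsConj x x⁻¹ → IsConj (g * x * g⁻¹) (g * x * g⁻¹)⁻¹ := by
    intro x g hx
    have h1 : IsConj x (g * x * g⁻¹) := isConj_iff.2 ⟨g, rfl⟩
    have h2 : IsConj x⁻¹ (g * x * g⁻¹)⁻¹ := isConj_iff.2 ⟨g, by group⟩
    exact (h1.symm.trans hx).trans h2
  have hw : IsConj (z₁ * z₂) (z₁ * z₂)⁻¹ := by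
    have : (z₁ * z₂)⁻¹ = z₁ * z₂ := by
      rw [mul_inv_rev, inv_eq_of_mul_eq_one_left (hsq z₁ hz₁), inv_eq_of_mul_eq_one_left (hsq z₂ hz₂)]
      exact hcommS z₂ z₁ hz₂ hz₁
    rw [this]
  have hcop : ∀ (x y : G), IsConj x x⁻¹ → IsConj y y⁻¹ → (∀ q ∈ π₂, ¬ q ∣ cl x) → (∃ b ∈ π₂, b ∣ cl y) →
      (cl x).Coprime (cl y) := by
    rintro x y hx hy h1 ⟨b, hb, hby⟩
    rw [Nat.coprime_iff_gcd_eq_one]
    by_contra hne
    obtain ⟨q, hq, hqd⟩ := Nat.exists_prime_and_dvd hne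
    have hqx : q ∣ cl x := hqd.trans (Nat.gcd_dvd_left _ _)
    have hqy : q ∣ cl y := hqd.trans (Nat.gcd_dvd_right _ _)
    rcases hcover q hq ⟨x, hx, hqx⟩ with h | h
    · exact hnoedge q h b hb y hy ⟨hqy, hby⟩
    · exact h1 q h hqx
  have hcop' : ∀ (x y : G), IsConj x x⁻¹ → IsConj y y⁻¹ → (∀ q ∈ π₁, ¬ q ∣ cl x) → (∃ b ∈ π₁, b ∣ cl y) →
      (cl x).Coprime (cl y) := by
    rintro x y hx hy h1 ⟨b, hb, hby⟩
    rw [Nat.coprime_iff_gcd_eq_one]
    by_contra hne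
    obtain ⟨q, hq, hqd⟩ := Nat.exists_prime_and_dvd hne
    have hqx : q ∣ cl x := hqd.trans (Nat.gcd_dvd_left _ _)
    have hqy : q ∣ cl y := hqd.trans (Nat.gcd_dvd_right _ _)
    rcases hcover q hq ⟨x, hx, hqx⟩ with h | h
    · exact h1 q h hqx
    · exact hnoedge b hb q h y hy ⟨hby, hqy⟩
  have h12 : (cl z₁).Coprime (cl z₂) := hcop z₁ z₂ hz₁ hz₂
    (fun q hq h => hnoedge a ha q hq z₁ hz₁ ⟨haz, h⟩) ⟨b, hb, hbz⟩
  have hne1 : cl z₁ ≠ 1 := by
    intro h; rw [h] at haz; exact hap.one_lt.ne' (Nat.dvd_one.1 haz)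
  have hne2 : cl z₂ ≠ 1 := by
    intro h; rw [h] at hbz; exact hbp.one_lt.ne' (Nat.dvd_one.1 hbz)
  by_cases hcase : ∃ q ∈ π₂, q ∣ cl (z₁ * z₂)
  · -- then no prime of `π₁` divides
    obtain ⟨q, hq, hqd⟩ := hcase
    have h3 : (cl (z₁ * z₂)).Coprime (cl z₁) := hcop' _ _ hw hz₁
      (fun r hr h => hnoedge r hr q hq _ hw ⟨h, hqd⟩) ⟨a, ha, haz⟩
    rw [hcommS z₁ z₂ hz₁ hz₂] at h3
    exact hcon z₂ hz₂ (even_of_products (hsq z₁ hz₁)
      (fun g => hcommS _ _ hz₁ (hconjreal z₁ g hz₁)) h12.symm h3 hne1)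
  · push Not at hcase
    have h3 : (cl (z₁ * z₂)).Coprime (cl z₂) := hcop _ _ hw hz₂ hcase ⟨b, hb, hbz⟩
    exact hcon z₁ hz₁ (even_of_products (hsq z₂ hz₂)
      (fun g => hcommS _ _ hz₂ (hconjreal z₂ g hz₂)) h12 h3 hne2)

/-- no real elements of `q`-power order when `q` is odd and does not divide the class size of `z` -/
theorem no_real_q {z : G} (hz : ZZ z) {q : ℕ} [hq : Fact q.Prime] (hq2 : q ≠ 2) (hqz : ¬ q ∣ cl z) (x : G)
    (hx : IsConj x x⁻¹) (k : ℕ) (hk : orderOf x = q ^ k) : x = 1 := by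
  classical
  let C := {h : G // IsConj z h}
  have hcard : Nat.card C = cl z := RealElems.card_class z
  have hmap : ∀ y : G, IsConj z y → IsConj z (x * y * x⁻¹) := fun y hy =>
    hy.trans (isConj_iff.2 ⟨x, rfl⟩)
  have hmap' : ∀ y : G, IsConj z y → IsConj z (x⁻¹ * y * x) := fun y hy =>
    hy.trans (isConj_iff.2 ⟨x⁻¹, by group⟩)
  let σ : Equiv.Perm C := ⟨fun y => ⟨x * y.1 * x⁻¹, hmap y.1 y.2⟩, fun y => ⟨x⁻¹ * y.1 * x, hmap' y.1 y.2⟩,
    fun y => Subtype.ext (by simp [mul_assoc]), fun y => Subtype.ext (by simp [mul_assoc])⟩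
  have hσn : ∀ (n : ℕ) (y : C), ((σ ^ n) y : G) = x ^ n * y.1 * (x ^ n)⁻¹ := by
    intro n
    induction n with
    | zero => intro y; simp
    | succ n ih =>
      intro y
      rw [pow_succ', Equiv.Perm.mul_apply]
      change x * ((σ ^ n) y).1 * x⁻¹ = _
      rw [ih, pow_succ']
      group
  have hσ : σ ^ q ^ k = 1 := by
    ext y
    rw [hσn, ← hk, pow_orderOf_eq_one]
    simp
  have : Fintype C := Fintype.ofFinite _
  obtain ⟨y, hy⟩ := Equiv.Perm.exists_fixed_point_of_prime (p := q) (n := k)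
    (by rwa [← Nat.card_eq_fintype_card, hcard]) hσ
  have hy' : x * y.1 * x⁻¹ = y.1 := congrArg Subtype.val hy
  obtain ⟨g, hg⟩ := isConj_iff.1 y.2
  have h1 : g⁻¹ * x * g = 1 := by
    apply hz.no_real
    · have : x * (g * z * g⁻¹) * x⁻¹ = g * z * g⁻¹ := by rw [hg]; exact hy'
      calc g⁻¹ * x * g * z = g⁻¹ * (x * (g * z * g⁻¹) * x⁻¹) * x * g := by group
        _ = g⁻¹ * (g * z * g⁻¹) * x * g := by rw [this]
        _ = z * (g⁻¹ * x * g) := by group
    · have h2 := RealElems.orderOf_conj' x g⁻¹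
      rw [inv_inv] at h2
      rw [h2, hk]
      exact (hq.out.odd_of_ne_two hq2).pow
    · have h2 : IsConj x (g⁻¹ * x * g) := isConj_iff.2 ⟨g⁻¹, by group⟩
      have h3 : IsConj x⁻¹ (g⁻¹ * x * g)⁻¹ := isConj_iff.2 ⟨g⁻¹, by group⟩
      exact (h2.symm.trans hx).trans h3
  calc x = g * (g⁻¹ * x * g) * g⁻¹ := by group
    _ = 1 := by rw [h1]; group

theorem two_elements_mem (hsol : Group.IsSolvable G) {q : ℕ} [hq : Fact q.Prime] (hq2 : q ≠ 2)
    (h : ∀ x : G, IsConj x x⁻¹ → ∀ k : ℕ, orderOf x = q ^ k → x = 1) {v : G} {k : ℕ} (hv : v ^ (2 ^ k) = 1) :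
    v ∈ pPrimeCore q G := by
  set ρ := QuotientGroup.mk' (pPrimeCore q G) with hρ
  have hO : pPrimeCore q (G ⧸ pPrimeCore q G) = ⊥ := pPrimeCore_quotient_pPrimeCore q G
  have hcent := centralizer_pCore_le (p := q) hO
  have hR : IsPGroup q (pCore q (G ⧸ pPrimeCore q G)) := LocBase.isPGroup_pCore q _
  have hRn : (pCore q (G ⧸ pPrimeCore q G)).Normal := pCore_normal _ _
  -- no real `q`-elements in the quotient
  have hnr : ∀ y ∈ pCore q (G ⧸ pPrimeCore q G), IsConj y y⁻¹ → y = 1 := by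
    intro y hy hreal
    obtain ⟨j, hj⟩ := IsPGroup.iff_orderOf.1 hR ⟨y, hy⟩
    rw [Subgroup.orderOf_mk] at hj
    obtain ⟨x, ⟨l, hl⟩, hxr, hxy⟩ := exists_real_lift ρ (QuotientGroup.mk'_surjective _) hq.out hq2 hj hreal
    rw [← hxy, h x hxr l hl, map_one]
  have hstep : ∀ u : G ⧸ pPrimeCore q G, u ^ 2 ∈ centralizer (pCore q (G ⧸ pPrimeCore q G) : Set _) →
      u ∈ centralizer (pCore q (G ⧸ pPrimeCore q G) : Set _) := by
    intro u hu
    rw [mem_centralizer_iff] at hu ⊢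
    intro a ha
    have h1 := hu a ha
    have h2 : u ^ 2 * a * (u ^ 2)⁻¹ = a := by rw [← h1]; group
    have h3 : a⁻¹ * (u * a * u⁻¹) = 1 := by
      apply hnr _ (mul_mem (inv_mem ha) (hRn.conj_mem a ha u))
      refine isConj_iff.2 ⟨u, ?_⟩
      calc u * (a⁻¹ * (u * a * u⁻¹)) * u⁻¹ = (u * a⁻¹ * u⁻¹) * (u ^ 2 * a * (u ^ 2)⁻¹) := by rw [pow_two]; group
        _ = (u * a⁻¹ * u⁻¹) * a := by rw [h2]
        _ = (a⁻¹ * (u * a * u⁻¹))⁻¹ := by group
    have h4 : u * a * u⁻¹ = a := by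
      rw [inv_mul_eq_one] at h3; exact h3.symm
    calc a * u = (u * a * u⁻¹) * u := by rw [h4]
      _ = u * a := by group
  have hall : ∀ j : ℕ, ∀ u : G ⧸ pPrimeCore q G, u ^ (2 ^ j) = 1 →
      u ∈ centralizer (pCore q (G ⧸ pPrimeCore q G) : Set _) := by
    intro j
    induction j with
    | zero =>
      intro u hu
      rw [pow_zero, pow_one] at hu
      rw [hu]; exact one_mem _
    | succ j ih =>
      intro u hu
      apply hstep
      apply ih
      rw [← pow_mul, ← pow_succ']; exact hu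
  have h1 : (ρ v) ^ (2 ^ k) = 1 := by rw [← map_pow, hv, map_one]
  have h2 := hcent (hall k (ρ v) h1)
  have h3 : ρ v = 1 := by
    apply eq_one_of_isPGroup_of_pow hR h2 _ h1
    exact Nat.Coprime.pow_left k ((Nat.coprime_primes Nat.prime_two hq.out).2 hq2.symm)
  exact (QuotientGroup.eq_one_iff v).1 h3

theorem main (hFT : ∀ (G : Type u) [Group G] [Finite G], Odd (Nat.card G) → Group.IsSolvable G) (h : Disc G) :
    (∃ x : G, IsConj x x⁻¹ ∧ 2 ∣ cl x) ∧ ((∀ P : Sylow 2 G, (P : Subgroup G).Normal) ∨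
      (Disc ↥(Subgroup.closure {g : G | ∃ k : ℕ, orderOf g = 2 ^ k}) ∧
        ∀ x : ↥(Subgroup.closure {g : G | ∃ k : ℕ, orderOf g = 2 ^ k}), IsConj x x⁻¹ →
          (Odd (cl x) ∨ ∃ j : ℕ, cl x = 2 ^ j))) := by
  have hev := exists_even h
  refine ⟨hev, ?_⟩
  by_cases hP : ∀ P : Sylow 2 G, (P : Subgroup G).Normal
  · exact Or.inl hP
  right
  push Not at hP
  obtain ⟨P, hP⟩ := hP
  obtain ⟨z, hz⟩ : ∃ z : G, ZZ z := by
    rcases dichotomy h with h1 | h1
    · obtain ⟨x, hx, hx2⟩ := hev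
      exact absurd hx2 (h1 x hx)
    · exact h1
  have hsol : Group.IsSolvable G := solvable hFT (Or.inr ⟨z, hz⟩)
  set K : Subgroup G := Subgroup.closure {g : G | ∃ k : ℕ, orderOf g = 2 ^ k} with hK
  have hKn : K.Normal := RealElems.closure_normal_of_conj (by
    rintro s ⟨k, hk⟩ g
    exact ⟨k, by rw [RealElems.orderOf_conj', hk]⟩)
  have hmemK : ∀ g : G, ∀ k : ℕ, orderOf g = 2 ^ k → g ∈ K := fun g k hk => subset_closure ⟨k, hk⟩
  have hPK : (P : Subgroup G) ≤ K := by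
    intro g hg
    obtain ⟨k, hk⟩ := IsPGroup.iff_orderOf.1 P.isPGroup' ⟨g, hg⟩
    rw [Subgroup.orderOf_mk] at hk
    exact hmemK g k hk
  -- real elements of `K`
  have hrealK : ∀ x : K, IsConj x x⁻¹ → IsConj (x : G) (x : G)⁻¹ := by
    intro x hx
    have := K.subtype.map_isConj hx
    simpa using this
  have hclK : ∀ x : K, cl x ∣ cl (x : G) := by
    intro x
    unfold cl
    rw [ClassPow.index_centralizer_subgroup]
    exact ClassPow.relIndex_dvd_index _ _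
  obtain ⟨x, hxodd, hxreal, hx1⟩ : ∃ x : K, Odd (orderOf x) ∧ IsConj x x⁻¹ ∧ x ≠ 1 := by
    by_contra hcon
    push Not at hcon
    have h1 := TwoClosed.sylow_two_normal _ K le_rfl hcon (P.subtype hPK)
    have h2 : ((P.subtype hPK : Sylow 2 K) : Subgroup K).Characteristic := Sylow.characteristic_of_normal _ h1
    have h3 : (((P.subtype hPK : Sylow 2 K) : Subgroup K).map K.subtype).Normal := inferInstance
    rw [Sylow.coe_subtype, Subgroup.map_subgroupOf_eq_of_le hPK] at h3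
    exact hP h3
  have hx2 : 2 ∣ cl x := two_dvd_cl hxreal hxodd hx1
  have hz1 : z ≠ 1 := by
    rintro rfl
    apply hz.ne
    unfold cl
    rw [index_eq_one, eq_top_iff]
    intro a _
    rw [mem_centralizer_singleton_iff]; simp
  have hzK : z ∈ K := hmemK z 1 (by rw [pow_one]; exact orderOf_eq_prime (by rw [pow_two]; exact hz.sq) hz1)
  set zK : K := ⟨z, hzK⟩ with hzK'
  have hzKreal : IsConj zK zK⁻¹ := by
    have : zK⁻¹ = zK := inv_eq_of_mul_eq_one_left (Subtype.ext hz.sq)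
    rw [this]
  have hzKne : cl zK ≠ 1 := by
    intro h1
    unfold cl at h1
    rw [index_eq_one] at h1
    have h2 : x ∈ centralizer ({zK} : Set K) := by rw [h1]; exact mem_top _
    have h3 := congrArg Subtype.val (mem_centralizer_singleton_iff.1 h2)
    apply hx1
    apply Subtype.ext
    apply hz.no_real h3
    · rw [Subgroup.orderOf_coe]; exact hxodd
    · exact hrealK x hxreal
  have hpow : ∀ y : K, IsConj y y⁻¹ → (Odd (cl y) ∨ ∃ j : ℕ, cl y = 2 ^ j) := by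
    intro y hy
    by_cases h2 : 2 ∣ cl y
    · right
      have h3 := hz.cop (y : G) (hrealK y hy) (h2.trans (hclK y))
      have hne : cl y ≠ 0 := index_ne_zero_of_finite
      refine ⟨_, Nat.eq_prime_pow_of_unique_prime_dvd hne ?_⟩
      intro q hq hqy
      by_contra hq2
      have : Fact q.Prime := ⟨hq⟩
      have hqz : ¬ q ∣ cl z := by
        intro h4
        have h5 : q ∣ 1 := by
          rw [← h3]
          exact Nat.dvd_gcd (hqy.trans (hclK y)) h4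
        exact hq.one_lt.ne' (Nat.dvd_one.1 h5)
      have h4 : K ≤ pPrimeCore q G := by
        rw [hK, closure_le]
        rintro g ⟨k, hk⟩
        exact two_elements_mem hsol hq2 (fun x hx k hk => no_real_q hz hq2 hqz x hx k hk)
          (k := k) (by rw [← hk, pow_orderOf_eq_one])
      have h5 : q ∣ Nat.card (pPrimeCore q G) :=
        (hqy.trans (index_dvd_card _)).trans (Subgroup.card_dvd_of_le h4)
      have h6 := coprime_card_pPrimeCore q G
      exact hq.one_lt.ne' (Nat.eq_one_of_dvd_coprimes h6 h5 dvd_rfl)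
    · left
      rw [← Nat.not_even_iff_odd, even_iff_two_dvd]
      exact h2
  refine ⟨⟨{2}, {q | q.Prime ∧ q ≠ 2 ∧ ∃ y : K, IsConj y y⁻¹ ∧ q ∣ cl y}, ⟨2, rfl⟩, ?_, ?_, ?_, ?_, ?_⟩, hpow⟩
  · obtain ⟨q, hq, hqd⟩ := Nat.exists_prime_and_dvd hzKne
    refine ⟨q, hq, ?_, zK, hzKreal, hqd⟩
    rintro rfl
    exact hz.odd (hqd.trans (hclK zK))
  · rw [Set.disjoint_singleton_left]
    rintro ⟨-, h, -⟩
    exact h rfl
  · rintro q (hq | hq)
    · have hq' : q = 2 := hq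
      rw [hq']
      exact ⟨Nat.prime_two, x, hxreal, hx2⟩
    · exact ⟨hq.1, hq.2.2⟩
  · intro q hq hex
    by_cases h2 : q = 2
    · exact Or.inl h2
    · exact Or.inr ⟨hq, h2, hex⟩
  · rintro a ha b ⟨hb, hb2, -⟩ y hy ⟨h1, h2⟩
    have ha' : a = 2 := ha
    subst ha'
    rcases hpow y hy with h3 | ⟨j, hj⟩
    · exact (Nat.not_even_iff_odd.2 h3) (even_iff_two_dvd.2 h1)
    · rw [hj] at h2
      exact hb2 ((Nat.prime_dvd_prime_iff_eq hb Nat.prime_two).1 (hb.dvd_of_dvd_pow h2))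

end Cfsg.Agent.Lib.H64RealGraph2
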