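import Cfsg.Agent.Lib.H64SylFix2

/-!
Fixed points and orbits of a Sylow subgroup of a transitive group.
-/
set_option autoImplicit false

namespace Cfsg.Agent.Lib.H64SylFix

open scoped Pointwise
open MulAction

variable {G Ω : Type*} [Group G] [Finite G] [MulAction G Ω] [Finite Ω] {p : ℕ} [Fact p.Prime]

omit [Fact p.Prime] in
theorem mem_fixed_smul {R : Sylow p G} {g : G} {ω : Ω} :
    (((g • R : Sylow p G) : Subgroup G) ≤ stabilizer G (g • ω)) ↔ (R : Subgroup G) ≤ stabilizer G ω := by
  constructor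
  · intro h x hx
    have h1 : g * x * g⁻¹ ∈ ((g • R : Sylow p G) : Subgroup G) := ⟨x, hx, rfl⟩
    have h2 := h h1
    rw [mem_stabilizer_iff] at h2 ⊢
    have h3 : (g * x * g⁻¹) • g • ω = g • x • ω := by
      rw [smul_smul, inv_mul_cancel_right, mul_smul]
    rw [h3] at h2
    exact smul_left_cancel g h2
  · intro h y hy
    have hy' : y ∈ MulAut.conj g • (R : Subgroup G) := hy
    obtain ⟨x, hx, rfl⟩ := hy'
    have h2 := h hx
    rw [mem_stabilizer_iff] at h2 ⊢
    have h3 : (g * x * g⁻¹) • g • ω = g • x • ω := by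
      rw [smul_smul, inv_mul_cancel_right, mul_smul]
    exact h3.trans (by rw [h2])

/-- the number of fixed points of a Sylow `p`-subgroup of a faithful transitive group of order
divisible by `p` is at most `(p-1)/(2p-1)` times the degree -/
theorem fixed_le [FaithfulSMul G Ω] (htrans : IsPretransitive G Ω) (hpG : p ∣ Nat.card G)
    (P : Sylow p G) :
    (2 * p - 1) * Nat.card {ω : Ω // (P : Subgroup G) ≤ stabilizer G ω} ≤ (p - 1) * Nat.card Ω := by
  classical
  have hp : p.Prime := Fact.out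
  haveI : Fintype Ω := Fintype.ofFinite _
  haveI : Fintype (Sylow p G) := Fintype.ofFinite _
  have hnot : ∀ ω : Ω, ¬ ∀ R : Sylow p G, (R : Subgroup G) ≤ stabilizer G ω := by
    intro ω hall
    have h1 : (P : Subgroup G) = ⊥ := by
      rw [eq_bot_iff]
      intro x hx
      rw [Subgroup.mem_bot]
      apply FaithfulSMul.eq_of_smul_eq_smul (α := Ω)
      intro ω'
      obtain ⟨g, rfl⟩ := htrans.exists_smul_eq ω ω'
      have h2 := hall (g⁻¹ • P)
      rw [← mem_fixed_smul (g := g), smul_inv_smul] at h2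
      rw [one_smul]
      exact h2 hx
    have h3 := P.card_eq_multiplicity
    rw [h1, Subgroup.card_bot] at h3
    have h4 : 0 < (Nat.card G).factorization p :=
      hp.factorization_pos_of_dvd Nat.card_pos.ne' hpG
    have h5 : p ^ 1 ≤ p ^ (Nat.card G).factorization p := Nat.pow_le_pow_right hp.pos h4
    rw [← h3, pow_one] at h5
    exact absurd hp.one_lt (not_lt.2 h5)
  have hω : ∀ ω : Ω, (2 * p - 1) * Nat.card {R : Sylow p G // (R : Subgroup G) ≤ stabilizer G ω} ≤
      (p - 1) * Nat.card (Sylow p G) := by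
    intro ω
    by_cases hne : ∃ R : Sylow p G, (R : Subgroup G) ≤ stabilizer G ω
    · exact card_le _ hne (hnot ω)
    · have : IsEmpty {R : Sylow p G // (R : Subgroup G) ≤ stabilizer G ω} :=
        ⟨fun R => hne ⟨R.1, R.2⟩⟩
      rw [Nat.card_of_isEmpty]
      simp
  have hconst : ∀ R : Sylow p G, Nat.card {ω : Ω // (R : Subgroup G) ≤ stabilizer G ω} =
      Nat.card {ω : Ω // (P : Subgroup G) ≤ stabilizer G ω} := by
    intro R
    obtain ⟨g, rfl⟩ := MulAction.exists_smul_eq G P R
    refine (Nat.card_congr ((MulAction.toPerm g : Equiv.Perm Ω).subtypeEquiv fun ω => ?_)).symm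
    exact mem_fixed_smul.symm
  have hdc : ∑ ω : Ω, Nat.card {R : Sylow p G // (R : Subgroup G) ≤ stabilizer G ω} =
      ∑ R : Sylow p G, Nat.card {ω : Ω // (R : Subgroup G) ≤ stabilizer G ω} := by
    simp_rw [Nat.card_eq_fintype_card, Fintype.card_subtype]
    exact Finset.sum_card_bipartiteAbove_eq_sum_card_bipartiteBelow
      (fun (ω : Ω) (R : Sylow p G) => (R : Subgroup G) ≤ stabilizer G ω)
  have h1 : ∑ ω : Ω, (2 * p - 1) * Nat.card {R : Sylow p G // (R : Subgroup G) ≤ stabilizer G ω} ≤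
      ∑ _ω : Ω, (p - 1) * Nat.card (Sylow p G) := Finset.sum_le_sum fun ω _ => hω ω
  rw [← Finset.mul_sum, hdc, Finset.sum_congr rfl (fun R _ => hconst R), Finset.sum_const,
    Finset.sum_const, Finset.card_univ, Finset.card_univ, ← Nat.card_eq_fintype_card,
    ← Nat.card_eq_fintype_card, smul_eq_mul, smul_eq_mul] at h1
  have hpos : 0 < Nat.card (Sylow p G) := Nat.card_pos
  refine Nat.le_of_mul_le_mul_left ?_ hpos
  calc Nat.card (Sylow p G) * ((2 * p - 1) * Nat.card {ω : Ω // (P : Subgroup G) ≤ stabilizer G ω})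
      = (2 * p - 1) * (Nat.card (Sylow p G) * Nat.card {ω : Ω // (P : Subgroup G) ≤ stabilizer G ω}) := by
        ring
    _ ≤ Nat.card Ω * ((p - 1) * Nat.card (Sylow p G)) := h1
    _ = Nat.card (Sylow p G) * ((p - 1) * Nat.card Ω) := by ring

omit [Finite G] in
/-- orbits of a `p`-group -/
theorem orbits_le (P : Subgroup G) (hP : IsPGroup p P) :
    p * Nat.card (orbitRel.Quotient P Ω) ≤
      Nat.card Ω + (p - 1) * Nat.card {ω : Ω // P ≤ stabilizer G ω} := by
  classical
  have hp : p.Prime := Fact.out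
  haveI : Fintype (orbitRel.Quotient P Ω) := Fintype.ofFinite _
  have h1 : Nat.card Ω = ∑ q : orbitRel.Quotient P Ω, Nat.card (orbit P q.out) := by
    rw [Nat.card_congr (selfEquivSigmaOrbits P Ω), Nat.card_sigma]
  have h2 : ∀ q : orbitRel.Quotient P Ω,
      p ≤ Nat.card (orbit P q.out) + (p - 1) * (if Nat.card (orbit P q.out) = 1 then 1 else 0) := by
    intro q
    obtain ⟨n, hn⟩ := hP.card_orbit q.out
    rcases Nat.eq_zero_or_pos n with h0 | h0
    · rw [h0, pow_zero] at hn
      rw [if_pos hn, hn]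
      have := hp.one_lt
      omega
    · have : p ^ 1 ≤ p ^ n := Nat.pow_le_pow_right hp.pos h0
      rw [pow_one] at this
      omega
  have h3 := Finset.sum_le_sum (s := Finset.univ) fun q _ => h2 q
  rw [Finset.sum_const, Finset.card_univ, Finset.sum_add_distrib, ← h1, ← Finset.mul_sum,
    Finset.sum_boole, smul_eq_mul, ← Nat.card_eq_fintype_card, mul_comm] at h3
  refine h3.trans (Nat.add_le_add_left (Nat.mul_le_mul_left _ ?_) _)
  simp only [Nat.cast_id]
  have h4 : (Finset.univ.filter fun q : orbitRel.Quotient P Ω => Nat.card (orbit P q.out) = 1).card =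
      Nat.card {q : orbitRel.Quotient P Ω // Nat.card (orbit P q.out) = 1} := by
    rw [Nat.card_eq_fintype_card, Fintype.card_subtype]
  rw [h4]
  refine Nat.card_le_card_of_injective (fun q => ⟨q.1.out, ?_⟩) ?_
  · intro x hx
    have h5 := (Nat.card_eq_one_iff_unique.1 q.2).1
    have h6 := Set.subsingleton_coe _ |>.1 h5
    exact h6 (mem_orbit (q.1.out) (⟨x, hx⟩ : P)) (mem_orbit_self _)
  · intro q q' h
    have h5 : q.1.out = q'.1.out := congrArg Subtype.val h
    apply Subtype.ext
    rw [← q.1.out_eq, ← q'.1.out_eq, h5]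

/-- the number of orbits of a Sylow `p`-subgroup -/
theorem sylow_orbits_le [FaithfulSMul G Ω] (htrans : IsPretransitive G Ω) (hpG : p ∣ Nat.card G)
    (P : Sylow p G) :
    (2 * p - 1) * Nat.card (orbitRel.Quotient (P : Subgroup G) Ω) ≤ p * Nat.card Ω := by
  have hp : p.Prime := Fact.out
  have h1 := fixed_le htrans hpG P
  have h2 := orbits_le (Ω := Ω) (P : Subgroup G) P.2
  obtain ⟨k, rfl⟩ : ∃ k, p = k + 1 := ⟨p - 1, by have := hp.pos; omega⟩
  have e1 : 2 * (k + 1) - 1 = 2 * k + 1 := by omega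
  have e2 : k + 1 - 1 = k := by omega
  rw [e1, e2] at h1
  rw [e2] at h2
  rw [e1]
  set n := Nat.card Ω
  set f := Nat.card {ω : Ω // (P : Subgroup G) ≤ stabilizer G ω}
  set o := Nat.card (orbitRel.Quotient (P : Subgroup G) Ω)
  refine Nat.le_of_mul_le_mul_left ?_ (Nat.succ_pos k)
  have h3 : (2 * k + 1) * ((k + 1) * o) ≤ (2 * k + 1) * (n + k * f) := Nat.mul_le_mul_left _ h2
  have h4 : k * ((2 * k + 1) * f) ≤ k * (k * n) := Nat.mul_le_mul_left _ h1
  show (k + 1) * ((2 * k + 1) * o) ≤ (k + 1) * ((k + 1) * n)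
  nlinarith [h3, h4]

end Cfsg.Agent.Lib.H64SylFix
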