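import Cfsg.Prelude
import Cfsg.Agent.Lib.LocBase
import Cfsg.Agent.Lib.HallConverse
import Cfsg.Agent.Lib.ClassPow
import Cfsg.Agent.Lib.ThreePrimes

/-!
Sylow numbers: sections, and groups all of whose Sylow numbers are prime powers.
-/
set_option autoImplicit false

namespace Cfsg.Agent.Lib.H64SylNum

open scoped Pointwise
open Subgroup Cfsg.Agent.Lib.LocBase

section
variable {G : Type*} [Group G] [Finite G] {p : ℕ} [Fact p.Prime]

theorem card_quotient_dvd (N : Subgroup G) [N.Normal] :
    Nat.card (Sylow p (G ⧸ N)) ∣ Nat.card (Sylow p G) := by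
  obtain ⟨P⟩ : Nonempty (Sylow p G) := inferInstance
  have hf : Function.Surjective (QuotientGroup.mk' N) := QuotientGroup.mk'_surjective N
  set Q := P.mapSurjective hf with hQ
  rw [Q.card_eq_index_normalizer, P.card_eq_index_normalizer,
    ← Subgroup.index_comap_of_surjective _ hf]
  apply index_dvd_of_le
  intro g hg
  rw [mem_comap, ← SetLike.mem_coe]
  have h1 : ((Q : Subgroup (G ⧸ N)) : Set (G ⧸ N)) = ((P : Subgroup G).map (QuotientGroup.mk' N) : Subgroup (G ⧸ N)) := by
    rw [hQ, Sylow.coe_mapSurjective]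
  show QuotientGroup.mk' N g ∈ normalizer ((Q : Subgroup (G ⧸ N)) : Set (G ⧸ N))
  rw [h1]
  exact le_normalizer_map _ ⟨g, hg, rfl⟩

theorem relIndex_of_sup {H N : Subgroup G} [N.Normal] (h : H ⊔ N = ⊤) : H.relIndex N = H.index := by
  have h1 := relIndex_mul_index (inf_le_right : H ⊓ N ≤ N)
  have h2 := relIndex_mul_index (inf_le_left : H ⊓ N ≤ H)
  rw [inf_relIndex_right] at h1
  rw [inf_relIndex_left] at h2
  have h3 : N.relIndex H = N.index := by
    rw [← relIndex_sup_right, h, relIndex_top_right]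
  rw [h3, ← h1, mul_comm] at h2
  exact (Nat.eq_of_mul_eq_mul_right (Nat.pos_of_ne_zero index_ne_zero_of_finite) h2).symm

theorem card_normal_dvd (N : Subgroup G) [N.Normal] :
    Nat.card (Sylow p N) ∣ Nat.card (Sylow p G) := by
  obtain ⟨P⟩ : Nonempty (Sylow p G) := inferInstance
  have h1 : IsSyl p ((P : Subgroup G) ⊓ N) N :=
    (isSyl_top P).inf_normal le_top (by rw [normalizer_eq_top_iff.2 inferInstance])
  obtain ⟨Q, hQ⟩ := h1.exists_sylow
  have h2 : Nat.card (Sylow p N) = (normalizer (((P : Subgroup G) ⊓ N : Subgroup G) : Set G)).index := by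
    rw [Q.card_eq_index_normalizer]
    have h3 := Q.normalizer_sup_eq_top
    rw [← relIndex_of_sup (N := N) (H := normalizer (((P : Subgroup G) ⊓ N : Subgroup G) : Set G))]
    · have h4 : (Q : Subgroup N) = ((P : Subgroup G) ⊓ N).subgroupOf N := hQ
      have h5 : ((Q : Subgroup N) : Set N) = (((P : Subgroup G) ⊓ N).subgroupOf N : Subgroup N) := by
        rw [h4]
      show (normalizer ((Q : Subgroup N) : Set N)).index = _
      rw [h5, ← subgroupOf_normalizer_eq inf_le_right]
      rfl
    · have h4 : ((Q : Subgroup N)).map N.subtype = (P : Subgroup G) ⊓ N := by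
        rw [hQ, subgroupOf_map_subtype, inf_assoc, inf_idem]
      rw [← h4]; exact h3
  rw [h2, P.card_eq_index_normalizer]
  apply index_dvd_of_le
  exact le_normalizer_inf le_rfl (by rw [normalizer_eq_top_iff.2 inferInstance]; exact le_top)

end

section
variable {G : Type*} [Group G] [Finite G]

/-- if the numbers of Sylow r- and v-subgroups are coprime and r does not divide the second one,
every Sylow r-subgroup normalizes every Sylow v-subgroup -/
theorem le_normalizer_of_coprime {r v : ℕ} [Fact r.Prime] [Fact v.Prime]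
    (hco : (Nat.card (Sylow r G)).Coprime (Nat.card (Sylow v G)))
    (hr : ¬ r ∣ Nat.card (Sylow v G)) (R : Sylow r G) (V : Sylow v G) :
    (R : Subgroup G) ≤ normalizer (V : Set G) := by
  obtain ⟨V0, hV0⟩ := R.2.nonempty_fixed_point_of_prime_not_dvd_card (Sylow v G) hr
  have hRV0 : (R : Subgroup G) ≤ normalizer (V0 : Set G) := by
    intro x hx
    exact Sylow.smul_eq_iff_mem_normalizer.1 (hV0 ⟨x, hx⟩)
  obtain ⟨g, rfl⟩ := MulAction.exists_smul_eq G V0 V
  rw [R.card_eq_index_normalizer, V0.card_eq_index_normalizer] at hco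
  obtain ⟨x, hx, y, hy, rfl⟩ := HallConverse.exists_mul_of_coprime_index hco g
  have h1 : (x * y) • V0 = x • V0 := by
    rw [mul_smul, Sylow.smul_eq_iff_mem_normalizer.2 hy]
  rw [h1]
  intro z hz
  have h2 : x⁻¹ * z * x ∈ (R : Subgroup G) := by
    have := (mem_normalizer_iff''.1 hx z).1 hz
    exact this
  have h3 := hRV0 h2
  rw [← Sylow.smul_eq_iff_mem_normalizer] at h3 ⊢
  calc z • x • V0 = x • ((x⁻¹ * z * x) • V0) := by
        rw [smul_smul, smul_smul]; congr 1; group
    _ = x • V0 := by rw [h3]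

end

/-- the property that all Sylow numbers are prime powers -/
def PPS (G : Type*) [Group G] : Prop :=
  ∀ (r : ℕ) [Fact r.Prime], Nat.card (Sylow r G) = 1 ∨ IsPrimePow (Nat.card (Sylow r G))

theorem pp_of_dvd {m n : ℕ} (h : m ∣ n) (hn : n = 1 ∨ IsPrimePow n) : m = 1 ∨ IsPrimePow m := by
  rcases hn with rfl | hn
  · left; exact Nat.dvd_one.1 h
  · by_cases hm : m = 1
    · exact Or.inl hm
    · exact Or.inr (hn.dvd h hm)

universe u

theorem simple_case (G : Type u) [Group G] [Finite G] [IsSimpleGroup G] (h : PPS G) :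
    Group.IsSolvable G := by
  classical
  by_contra hns
  -- no normal Sylow subgroup for primes dividing the order
  have hne1 : ∀ (r : ℕ) [Fact r.Prime], r ∣ Nat.card G → Nat.card (Sylow r G) ≠ 1 := by
    intro r _ hr h1
    obtain ⟨R⟩ : Nonempty (Sylow r G) := inferInstance
    have hn : (R : Subgroup G).Normal := by
      have h2 : (normalizer (R : Set G)).index = 1 := by rw [← R.card_eq_index_normalizer, h1]
      rw [index_eq_one] at h2
      exact normalizer_eq_top_iff.1 h2
    rcases hn.eq_bot_or_eq_top with h2 | h2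
    · have h3 := R.card_eq_multiplicity
      rw [h2, card_bot] at h3
      have h4 : 0 < (Nat.card G).factorization r :=
        (Fact.out : r.Prime).factorization_pos_of_dvd Nat.card_pos.ne' hr
      have h5 := Nat.pow_le_pow_right (Fact.out : r.Prime).pos h4
      rw [Nat.succ_eq_add_one, zero_add, pow_one] at h5
      have := (Fact.out : r.Prime).one_lt
      omega
    · have h3 : IsPGroup r (⊤ : Subgroup G) := h2 ▸ R.2
      have h4 : IsPGroup r G := h3.of_surjective (⊤ : Subgroup G).subtype (fun x => ⟨⟨x, mem_top x⟩, rfl⟩)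
      have := h4.isNilpotent
      exact hns inferInstance
  -- the prime q(r)
  have hq : ∀ r : ℕ, r.Prime → r ∣ Nat.card G → ∃ q k : ℕ, q.Prime ∧ 0 < k ∧
      (∀ [Fact r.Prime], Nat.card (Sylow r G) = q ^ k) := by
    intro r hr hrG
    have := Fact.mk hr
    rcases h r with h1 | h1
    · exact absurd h1 (hne1 r hrG)
    · obtain ⟨q, k, hq, hk, hqk⟩ := h1
      exact ⟨q, k, hq.nat_prime, hk, fun {_} => hqk.symm⟩
  -- key dichotomy
  have key : ∀ r v : ℕ, ∀ (hr : r.Prime) (hv : v.Prime), r ∣ Nat.card G → v ∣ Nat.card G → r ≠ v →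
      ∀ a b k l : ℕ, a.Prime → b.Prime → 0 < k → 0 < l →
      (∀ [Fact r.Prime], Nat.card (Sylow r G) = a ^ k) →
      (∀ [Fact v.Prime], Nat.card (Sylow v G) = b ^ l) → a = b ∨ b = r := by
    intro r v hr hv hrG hvG hrv a b k l ha hb hk hl hra hvb
    have := Fact.mk hr
    have := Fact.mk hv
    by_contra hcon
    push Not at hcon
    obtain ⟨hab, hbr⟩ := hcon
    have hco : (Nat.card (Sylow r G)).Coprime (Nat.card (Sylow v G)) := by
      rw [hra, hvb]
      exact Nat.Coprime.pow _ _ ((Nat.coprime_primes ha hb).2 hab)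
    have hnd : ¬ r ∣ Nat.card (Sylow v G) := by
      rw [hvb]
      intro hd
      exact hbr ((Nat.prime_dvd_prime_iff_eq hr hb).1 (hr.dvd_of_dvd_pow hd)).symm
    -- the kernel of the action on Sylow v-subgroups
    obtain ⟨R⟩ : Nonempty (Sylow r G) := inferInstance
    have hker : ((MulAction.toPermHom G (Sylow v G)).ker) = ⊤ := by
      rcases (inferInstance : ((MulAction.toPermHom G (Sylow v G)).ker).Normal).eq_bot_or_eq_top
        with h2 | h2
      · exfalso
        have hle : (R : Subgroup G) ≤ (MulAction.toPermHom G (Sylow v G)).ker := by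
          intro x hx
          rw [MonoidHom.mem_ker]
          ext1 V
          exact Sylow.smul_eq_iff_mem_normalizer.2 (le_normalizer_of_coprime hco hnd R V hx)
        rw [h2, le_bot_iff] at hle
        have h3 := R.card_eq_multiplicity
        rw [hle, card_bot] at h3
        have h4 : 0 < (Nat.card G).factorization r :=
          hr.factorization_pos_of_dvd Nat.card_pos.ne' hrG
        have h5 := Nat.pow_le_pow_right hr.pos h4
        rw [Nat.succ_eq_add_one, zero_add, pow_one] at h5
        have := hr.one_lt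
        omega
      · exact h2
    apply hne1 v hvG
    rw [Nat.card_eq_one_iff_unique]
    refine ⟨⟨fun V V' => ?_⟩, inferInstance⟩
    obtain ⟨g, rfl⟩ := MulAction.exists_smul_eq G V V'
    have hg : g ∈ (MulAction.toPermHom G (Sylow v G)).ker := by rw [hker]; exact mem_top g
    rw [MonoidHom.mem_ker] at hg
    exact (congrArg (fun σ : Equiv.Perm (Sylow v G) => σ V) hg).symm
  obtain ⟨p1, p2, p3, hp1, hp2, hp3, hd1, hd2, hd3, h12, h13, h23⟩ :=
    ThreePrimes.exists_three_primes hns
  -- q(r) ≠ r and q(r) divides |G|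
  have hqne : ∀ r a k : ℕ, r.Prime → a.Prime → 0 < k →
      (∀ [Fact r.Prime], Nat.card (Sylow r G) = a ^ k) → a ≠ r ∧ a ∣ Nat.card G := by
    intro r a k hr ha hk hra
    have := Fact.mk hr
    constructor
    · rintro rfl
      have h1 := card_sylow_modEq_one a G
      rw [hra] at h1
      have h2 : a ^ k ≡ 0 [MOD a] := (Nat.modEq_zero_iff_dvd).2 (dvd_pow_self a hk.ne')
      have h3 := (Nat.modEq_zero_iff_dvd).1 (h1.symm.trans h2)
      exact ha.one_lt.ne' (Nat.dvd_one.1 h3)
    · obtain ⟨R⟩ : Nonempty (Sylow r G) := inferInstance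
      have h1 := R.card_dvd_index
      rw [hra] at h1
      exact ((dvd_pow_self a hk.ne').trans h1).trans (index_dvd_card _)
  -- choose r = p1, s = q(p1)
  obtain ⟨s, k, hs, hk, hrs⟩ := hq p1 hp1 hd1
  obtain ⟨hsr, hsG⟩ := hqne p1 s k hp1 hs hk hrs
  obtain ⟨t, l, ht, hl, hst⟩ := hq s hs hsG
  obtain ⟨hts, htG⟩ := hqne s t l hs ht hl hst
  -- t = p1
  have htp : t = p1 := by
    rcases key p1 s hp1 hs hd1 hsG hsr.symm s t k l hs ht hk hl hrs hst with h1 | h1
    · exact absurd h1.symm hts
    · exact h1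
  -- a third prime v
  obtain ⟨v, hv, hvG, hv1, hvs⟩ : ∃ v : ℕ, v.Prime ∧ v ∣ Nat.card G ∧ v ≠ p1 ∧ v ≠ s := by
    by_cases h : p2 = s
    · exact ⟨p3, hp3, hd3, h13.symm, fun h' => h23 (h.trans h'.symm)⟩
    · exact ⟨p2, hp2, hd2, h12.symm, h⟩
  obtain ⟨w, m, hw, hm, hvw⟩ := hq v hv hvG
  -- q(v) = s
  have hws : w = s := by
    rcases key v p1 hv hp1 hvG hd1 hv1 w s m k hw hs hm hk hvw hrs with h1 | h1
    · exact h1
    · exact absurd h1.symm hvs
  -- contradiction with the pair (s, v)
  rcases key v s hv hs hvG hsG hvs w t m l hw ht hm hl hvw hst with h1 | h1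
  · rw [hws] at h1
    exact hts h1.symm
  · rw [htp] at h1
    exact hv1 h1.symm

theorem solvable (G : Type u) [Group G] [Finite G] (h : PPS G) : Group.IsSolvable G := by
  refine ClassPow.solvable_induction (fun G _ => PPS G) (fun G _ _ N _ h => ?_)
    (fun G _ _ N _ h => ?_) (fun G _ _ _ h => simple_case G h) (Nat.card G) G rfl h
  · intro r _
    exact pp_of_dvd (card_normal_dvd N) (h r)
  · intro r _
    exact pp_of_dvd (card_quotient_dvd N) (h r)

end Cfsg.Agent.Lib.H64SylNum
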