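import Cfsg.Agent.Lib.HallPi
import Cfsg.Agent.Lib.H32Cores
import Cfsg.Agent.Lib.Fitting
import Cfsg.Agent.Lib.SolvFPF
import Cfsg.Agent.Lib.FrobAction2
import Cfsg.Agent.Lib.FrobAction3

/-!
# Solvable groups with a disconnected prime graph are Frobenius or 2-Frobenius (helper64)
-/

set_option autoImplicit false
open Cfsg
open scoped Pointwise commutatorElement

namespace Cfsg.Agent.Lib.H64TwoFrob

open Subgroup Cfsg.Agent.Lib.HallPi

/-- every element is a `σ`-element or a `σᶜ`-element. -/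
def Sep (σ : Set ℕ) (G : Type*) [Group G] : Prop :=
  ∀ g : G, PiNum σ (orderOf g) ∨ PiNum σᶜ (orderOf g)

variable {G : Type*} [Group G] {σ : Set ℕ}

theorem Sep.compl (h : Sep σ G) : Sep σᶜ G := fun g => by rw [compl_compl]; exact (h g).symm

theorem Sep.quotient (h : Sep σ G) (N : Subgroup G) [N.Normal] : Sep σ (G ⧸ N) := by
  intro g
  obtain ⟨x, rfl⟩ := QuotientGroup.mk'_surjective N g
  have hd := orderOf_map_dvd (QuotientGroup.mk' N) x
  exact (h x).imp (fun h => h.of_dvd hd) (fun h => h.of_dvd hd)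

theorem Sep.eq_one_of_commute (h : Sep σ G) {x y : G} (hxy : Commute x y)
    (hx : PiNum σ (orderOf x)) (hy : PiNum σᶜ (orderOf y)) : x = 1 ∨ y = 1 := by
  have hcop : (orderOf x).Coprime (orderOf y) := hx.coprime hy
  have h1 := hxy.orderOf_mul_eq_mul_orderOf_of_coprime hcop
  rcases h (x * y) with h2 | h2
  · right
    exact orderOf_eq_one_iff.1 ((h2.of_dvd (h1 ▸ dvd_mul_left _ _)).eq_one hy)
  · left
    exact orderOf_eq_one_iff.1 (hx.eq_one (h2.of_dvd (h1 ▸ dvd_mul_right _ _)))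

theorem piNum_orderOf {N : Subgroup G} (hN : PiNum σ (Nat.card N)) {x : G} (hx : x ∈ N) :
    PiNum σ (orderOf x) :=
  hN.of_dvd (Subgroup.orderOf_dvd_natCard N hx)

theorem Sep.inf_centralizer (h : Sep σ G) {N : Subgroup G} (hN : PiNum σ (Nat.card N)) {t : G}
    (ht : PiNum σᶜ (orderOf t)) (ht1 : t ≠ 1) : N ⊓ centralizer {t} = ⊥ := by
  rw [eq_bot_iff]
  rintro x ⟨hx, hxt⟩
  rw [mem_bot]
  exact (h.eq_one_of_commute (mem_centralizer_singleton_iff.1 hxt) (piNum_orderOf hN hx) ht).resolve_right ht1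

/-- a nontrivial abelian normal subgroup inside a nontrivial nilpotent normal subgroup. -/
theorem exists_abelian {N : Subgroup G} [hNn : N.Normal] (hnil : Group.IsNilpotent N) (hN1 : N ≠ ⊥) :
    ∃ V : Subgroup G, V.Normal ∧ V ≤ N ∧ V ≠ ⊥ ∧ ∀ a b : V, a * b = b * a := by
  refine ⟨(center N).map N.subtype, inferInstance, map_subtype_le _, ?_, ?_⟩
  · have : Nontrivial N := (nontrivial_iff_ne_bot N).2 hN1
    have h1 : center N ≠ ⊥ := Group.IsNilpotent.center_ne_bot N
    intro h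
    rw [Subgroup.map_eq_bot_iff_of_injective _ N.subtype_injective] at h
    exact h1 h
  · rintro ⟨a, a', ha, rfl⟩ ⟨b, b', hb, rfl⟩
    have h1 := mem_center_iff.1 ha b'
    have h2 : (b' : G) * a' = a' * b' := congrArg Subtype.val h1
    exact Subtype.ext h2.symm

theorem isComplement'_of {N T : Subgroup G} [N.Normal] (h1 : N ⊓ T = ⊥) (h2 : N ⊔ T = ⊤) :
    IsComplement' N T := by
  refine isComplement'_of_disjoint_and_mul_eq_univ (disjoint_iff.2 h1) ?_
  rw [← normal_mul, h2]; rfl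

variable [Finite G]

theorem Sep.isNilpotent (h : Sep σ G) [hs : Group.IsSolvable G] {N : Subgroup G} [hNn : N.Normal]
    (hN : PiNum σ (Nat.card N)) {t : G} (ht : PiNum σᶜ (orderOf t)) (ht1 : t ≠ 1) :
    Group.IsNilpotent N := by
  obtain ⟨q, hq, hqt⟩ := Nat.exists_prime_and_dvd (fun h => ht1 (orderOf_eq_one_iff.1 h))
  set r : G := t ^ (orderOf t / q) with hr
  have hrq : orderOf r = q := orderOf_pow_orderOf_div (orderOf_pos t).ne' hqt
  have hr1 : r ≠ 1 := by
    intro h1
    rw [h1, orderOf_one] at hrq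
    exact hq.one_lt.ne hrq
  have hrσ : PiNum σᶜ (orderOf r) := by rw [hrq]; exact ht.of_dvd hqt
  refine SolvFPF.isNilpotent_of_normalizer (K := N) (R := zpowers r) inferInstance ?_ ?_ ?_
  · rw [normalizer_eq_top_iff.mpr hNn]; exact le_top
  · rw [Nat.card_zpowers, hrq]; exact hq
  · rw [eq_bot_iff]
    refine le_trans (inf_le_inf_left _ (centralizer_le (Set.singleton_subset_iff.2 (mem_zpowers r)))) ?_
    rw [h.inf_centralizer hN hrσ hr1]

/-- setup: `T` acts fixed-point-freely on an abelian `V`. -/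
theorem exists_act (h : Sep σ G) {N T : Subgroup G} [hNn : N.Normal] (hN : PiNum σ (Nat.card N))
    (hN1 : N ≠ ⊥) (hnil : Group.IsNilpotent N) (hT : PiNum σᶜ (Nat.card T)) :
    (¬ 2 ∣ Nat.card T → IsZGroup T) ∧
      ∀ t s : T, t * t = 1 → t ≠ 1 → s * s = 1 → s ≠ 1 → t = s := by
  obtain ⟨V, hVn, hVN, hV1, hVc⟩ := exists_abelian hnil hN1
  have hTV : T ≤ normalizer (V : Set G) := by rw [normalizer_eq_top_iff.mpr hVn]; exact le_top
  have hV : PiNum σ (Nat.card V) := hN.of_dvd (card_dvd_of_le hVN)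
  have hfpf : FrobAction.IsFPF (FrobAction2.conjAct hTV) :=
    FrobAction2.isFPF_conjAct hTV fun t ht ht1 => h.inf_centralizer hV (piNum_orderOf hT ht) ht1
  have : Nontrivial V := (nontrivial_iff_ne_bot V).2 hV1
  let _ : CommGroup V := { (inferInstance : Group V) with mul_comm := hVc }
  exact ⟨fun hodd => FrobAction3.isZGroup_of_odd hfpf hodd,
    fun t s ht ht1 hs hs1 => FrobAction.invol_unique hfpf ht ht1 hs hs1⟩

/-- a cyclic nontrivial `O_{σ'}(H)` is a Hall subgroup. -/
theorem hall_of_cyclic (h : Sep σ G) [hs : Group.IsSolvable G] (hK1 : piCore σᶜ G ≠ ⊥)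
    (hcyc : IsCyclic (piCore σᶜ G)) : IsPiHall σᶜ (piCore σᶜ G) := by
  set K := piCore σᶜ G with hK
  have hKn : PiNum σᶜ (Nat.card K) := H32Cores.piCore_primes _ _
  obtain ⟨k, hkK, hk1⟩ := (ne_bot_iff_exists_ne_one.1 hK1 |> fun ⟨x, hx⟩ => (⟨x, x.2, fun h => hx (Subtype.ext h)⟩ : ∃ k, k ∈ K ∧ k ≠ 1))
  have hCK : centralizer (K : Set G) ≤ K := by
    refine H32Cores.le_piCore inferInstance ?_
    intro p hp hpC hpσ
    have := Fact.mk hp
    obtain ⟨⟨c, hc⟩, hcp⟩ := exists_prime_orderOf_dvd_card' p hpC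
    rw [Subgroup.orderOf_mk] at hcp
    have hcomm : Commute c k := (mem_centralizer_iff.1 hc k hkK).symm
    rcases h.eq_one_of_commute hcomm (by
      rw [hcp]; intro q hq hqp; rw [(Nat.prime_dvd_prime_iff_eq hq hp).1 hqp]; exact hpσ)
      (piNum_orderOf hKn hkK) with h1 | h1
    · rw [h1, orderOf_one] at hcp
      exact hp.one_lt.ne hcp
    · exact hk1 h1
  have hcomm : commutator G ≤ centralizer (K : Set G) := by
    rw [commutator_def, commutator_le]
    intro x _ y _
    have h1 : (MulAut.conjNormal x : MulAut K) * MulAut.conjNormal y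
        = MulAut.conjNormal y * MulAut.conjNormal x := by
      apply (IsCyclic.mulAutMulEquiv K).injective
      rw [map_mul, map_mul, mul_comm]
    rw [mem_centralizer_iff]
    intro z hz
    have h2 : (MulAut.conjNormal (x * y) : MulAut K) = MulAut.conjNormal (y * x) := by
      rw [map_mul, map_mul, h1]
    have h3 := congrArg (fun φ : MulAut K => ((φ ⟨x⁻¹ * y⁻¹ * z * (y * x), by
      have := (inferInstance : K.Normal).conj_mem z hz (y * x)⁻¹
      simpa [mul_assoc] using this⟩ : K) : G)) h2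
    simp only [MulAut.conjNormal_apply] at h3
    have h4 : ⁅x, y⁆ * z * ⁅x, y⁆⁻¹ = z := by
      rw [commutatorElement_def]
      calc x * y * x⁻¹ * y⁻¹ * z * (x * y * x⁻¹ * y⁻¹)⁻¹
          = x * y * (x⁻¹ * y⁻¹ * z * (y * x)) * (x * y)⁻¹ := by group
        _ = y * x * (x⁻¹ * y⁻¹ * z * (y * x)) * (y * x)⁻¹ := h3
        _ = z := by group
    exact (mul_inv_eq_iff_eq_mul.1 h4).symm
  obtain ⟨T, hT, hKT⟩ := exists_le_isPiHall K hKn
  have hTn : T.Normal := by
    constructor
    intro t ht g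
    have h1 : ⁅g, t⁆ ∈ T := hKT (hCK (hcomm (by
      rw [commutator_def]; exact commutator_mem_commutator (mem_top g) (mem_top t))))
    have h2 : g * t * g⁻¹ = ⁅g, t⁆ * t := by rw [commutatorElement_def]; group
    rw [h2]; exact T.mul_mem h1 ht
  have hTK : T ≤ K := H32Cores.le_piCore hTn (isPiHall_iff.1 hT).1
  rw [le_antisymm hKT hTK]
  exact hT

theorem main (h : Sep σ G) [hs : Group.IsSolvable G] (hN1 : piCore σ G ≠ ⊥)
    (hτ : ∃ q : ℕ, q.Prime ∧ q ∉ σ ∧ q ∣ Nat.card G) :
    (∃ C : Subgroup G, Cfsg.IsFrobeniusComplement C) ∨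
    (∃ (H K : Subgroup G) (_ : H.Normal), K.Normal ∧ H < K ∧
      (∃ C : Subgroup ↥K, Cfsg.IsFrobeniusComplement C ∧
        Cfsg.frobeniusKernel C = (H.subgroupOf K : Set ↥K)) ∧
      (∃ C : Subgroup (G ⧸ H), Cfsg.IsFrobeniusComplement C ∧
        Cfsg.frobeniusKernel C = (K.map (QuotientGroup.mk' H) : Set (G ⧸ H)))) := by
  set N := piCore σ G with hNdef
  have hN : PiNum σ (Nat.card N) := H32Cores.piCore_primes σ G
  obtain ⟨q, hq, hqσ, hqG⟩ := hτ
  have := Fact.mk hq
  obtain ⟨t, ht⟩ := exists_prime_orderOf_dvd_card' q hqG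
  have htσ : PiNum σᶜ (orderOf t) := by
    rw [ht]; intro p hp hpq; rw [(Nat.prime_dvd_prime_iff_eq hp hq).1 hpq]; exact hqσ
  have ht1 : t ≠ 1 := by
    rintro rfl
    rw [orderOf_one] at ht
    exact hq.one_lt.ne ht
  have hNnil : Group.IsNilpotent N := h.isNilpotent hN htσ ht1
  have hcore : piCore σ (G ⧸ N) = ⊥ := H32Cores.piCore_quotient_eq_bot σ
  have hsep := h.quotient N
  set Kb := piCore σᶜ (G ⧸ N) with hKb
  have hKbn : PiNum σᶜ (Nat.card Kb) := H32Cores.piCore_primes _ _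
  have hqN : Nontrivial (G ⧸ N) := by
    have h1 : (QuotientGroup.mk' N t) ≠ 1 := by
      intro h1
      have h2 : t ∈ N := (QuotientGroup.eq_one_iff t).1 h1
      exact ht1 (orderOf_eq_one_iff.1 ((piNum_orderOf hN h2).eq_one htσ))
    exact ⟨⟨_, _, h1⟩⟩
  have hKb1 : Kb ≠ ⊥ := by
    intro hbot
    apply Fitting.fittingSubgroup_ne_bot (G := G ⧸ N)
    rw [Fitting.fittingSubgroup_eq_iSup_pCore, iSup_eq_bot]
    rintro ⟨p, hp⟩
    have := Fact.mk hp
    change pCore p (G ⧸ N) = ⊥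
    have hpn : (pCore p (G ⧸ N)).Normal := Fitting.normal_pCore p
    obtain ⟨n, hn⟩ := IsPGroup.iff_card.1 (Fitting.isPGroup_pCore (p := p) (G := G ⧸ N))
    by_cases hpσ : p ∈ σ
    · rw [eq_bot_iff, ← hcore]
      refine H32Cores.le_piCore hpn ?_
      rw [hn]
      exact piNum_prime_pow hp hpσ
    · rw [eq_bot_iff, ← hbot]
      refine H32Cores.le_piCore hpn ?_
      rw [hn]
      exact piNum_prime_pow hp hpσ
  set K := Kb.comap (QuotientGroup.mk' N) with hK
  have hNK : N ≤ K := by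
    intro x hx
    rw [hK, mem_comap, QuotientGroup.mk'_apply, (QuotientGroup.eq_one_iff x).mpr hx]
    exact Subgroup.one_mem _
  have hKmap : K.map (QuotientGroup.mk' N) = Kb :=
    map_comap_eq_self_of_surjective (QuotientGroup.mk'_surjective N) Kb
  have hrel : N.relIndex K = Nat.card Kb := by
    have := relIndex_ker K (QuotientGroup.mk' N)
    rw [QuotientGroup.ker_mk', hKmap] at this
    exact this
  obtain ⟨T, hTK, hNT, hNTK, hTc⟩ := HallPi.exists_complement_rel hNK
    (by rw [normalizer_eq_top_iff.2 inferInstance]; exact le_top) (hN.coprime (hrel ▸ hKbn))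
  have hT : PiNum σᶜ (Nat.card T) := by rw [hTc, hrel]; exact hKbn
  have hTmap : T.map (QuotientGroup.mk' N) = Kb := by
    rw [← hKmap, ← hNTK, Subgroup.map_sup, QuotientGroup.map_mk'_self, bot_sup_eq]
  have hT1 : T ≠ ⊥ := by
    rintro rfl
    rw [Subgroup.map_bot] at hTmap
    exact hKb1 hTmap.symm
  have hinj : ∀ x ∈ T, (QuotientGroup.mk' N x) = 1 → x = 1 := by
    intro x hx hx1
    have h2 : x ∈ N := (QuotientGroup.eq_one_iff x).1 hx1
    have : x ∈ N ⊓ T := ⟨h2, hx⟩
    rwa [hNT, mem_bot] at this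
  obtain ⟨hZ, hinv⟩ := exists_act h hN hN1 hNnil hT
  obtain ⟨S, hS⟩ := exists_isPiHall (G := G ⧸ N) σ
  rw [isPiHall_iff] at hS
  by_cases hS1 : S = ⊥
  · -- Frobenius
    left
    have h1 : Kb = ⊤ := by
      rw [eq_top_iff]
      refine H32Cores.le_piCore inferInstance ?_
      rw [card_top]
      rw [hS1, index_bot] at hS
      exact hS.2
    have h2 : N ⊔ T = ⊤ := by rw [hNTK, hK, h1, comap_top]
    exact ⟨T, (FrobGroup.isFrobeniusComplement_iff (isComplement'_of hNT h2) hN1 hT1).2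
      fun x hx hx1 => h.inf_centralizer hN (piNum_orderOf hT hx) hx1⟩
  right
  obtain ⟨s, hsS, hs1⟩ : ∃ s ∈ S, s ≠ 1 := by
    obtain ⟨⟨x, hx⟩, hx1⟩ := ne_bot_iff_exists_ne_one.1 hS1
    exact ⟨x, hx, fun h => hx1 (Subtype.ext h)⟩
  have hKbnil : Group.IsNilpotent Kb := by
    refine hsep.compl.isNilpotent hKbn (t := s) ?_ hs1
    rw [compl_compl]
    exact piNum_orderOf hS.1 hsS
  -- the isomorphism
  let f : T →* G ⧸ N := (QuotientGroup.mk' N).comp T.subtype
  have hfinj : Function.Injective f := by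
    rw [← MonoidHom.ker_eq_bot_iff, eq_bot_iff]
    intro x hx
    exact mem_bot.2 (Subtype.ext (hinj x x.2 hx))
  have hfr : f.range = Kb := by
    rw [MonoidHom.range_comp, range_subtype, hTmap]
  let e : T ≃* Kb := (MonoidHom.ofInjective hfinj).trans (MulEquiv.subgroupCongr hfr)
  have hTnil : Group.IsNilpotent T := (Group.isNilpotent_congr e).2 hKbnil
  have hodd : ¬ 2 ∣ Nat.card T := by
    intro h2
    obtain ⟨x, hx⟩ := exists_prime_orderOf_dvd_card' 2 h2
    have hx1 : x ≠ 1 := by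
      rintro rfl
      rw [orderOf_one] at hx
      exact absurd hx (by norm_num)
    have hxx : x * x = 1 := by rw [← pow_two, ← hx]; exact pow_orderOf_eq_one x
    -- conjugate
    have hmem : s * (e x : G ⧸ N) * s⁻¹ ∈ Kb := (inferInstance : Kb.Normal).conj_mem _ (e x).2 s
    obtain ⟨y, hy⟩ := e.surjective ⟨_, hmem⟩
    have hy' : (e y : G ⧸ N) = s * (e x : G ⧸ N) * s⁻¹ := congrArg Subtype.val hy
    have hyy : y * y = 1 := by
      apply e.injective
      apply Subtype.ext
      rw [map_mul, coe_mul, hy', map_one, coe_one]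
      have h3 : (e x : G ⧸ N) * (e x : G ⧸ N) = 1 := by
        rw [← coe_mul, ← map_mul, hxx, map_one, coe_one]
      calc s * (e x : G ⧸ N) * s⁻¹ * (s * (e x : G ⧸ N) * s⁻¹)
          = s * ((e x : G ⧸ N) * (e x : G ⧸ N)) * s⁻¹ := by group
        _ = 1 := by rw [h3]; group
    have hy1 : y ≠ 1 := by
      rintro rfl
      rw [map_one, coe_one] at hy'
      apply hx1
      apply e.injective
      apply Subtype.ext
      rw [map_one, coe_one]
      have : (e x : G ⧸ N) = s⁻¹ * (s * (e x : G ⧸ N) * s⁻¹) * s := by group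
      rw [this, ← hy']; group
    have hxy : y = x := hinv y x hyy hy1 hxx hx1
    rw [hxy] at hy'
    have hcomm : Commute s (e x : G ⧸ N) := (mul_inv_eq_iff_eq_mul.1 hy'.symm)
    rcases hsep.eq_one_of_commute hcomm (piNum_orderOf hS.1 hsS) (piNum_orderOf hKbn (e x).2) with h4 | h4
    · exact hs1 h4
    · apply hx1
      apply e.injective
      rw [map_one]
      exact Subtype.ext h4
  have hTZ : IsZGroup T := hZ hodd
  have hTcyc : IsCyclic T := inferInstance
  have hKbcyc : IsCyclic Kb := isCyclic_of_surjective e e.surjective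
  have hHall := isPiHall_iff.1 (hall_of_cyclic hsep hKb1 hKbcyc)
  rw [compl_compl] at hHall
  have hcompl : IsComplement' Kb S := by
    refine isComplement'_of_coprime ?_ (hKbn.coprime' hS.1)
    have h1 : Nat.card S ∣ Kb.index := by
      refine PiNum.dvd_of_dvd_mul_left (π := σ) hS.1 hKbn ?_
      rw [card_mul_index]; exact card_subgroup_dvd_card S
    have h2 : Kb.index ∣ Nat.card S := by
      refine PiNum.dvd_of_dvd_mul_right (π := σ) hHall.2 hS.2 ?_
      rw [card_mul_index, ← card_mul_index Kb]; exact dvd_mul_left _ _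
    rw [Nat.dvd_antisymm h1 h2, card_mul_index]
  refine ⟨N, K, inferInstance, inferInstance, ?_, ?_, ?_⟩
  · refine lt_of_le_of_ne hNK ?_
    intro hEq
    rw [← hEq, QuotientGroup.map_mk'_self] at hKmap
    exact hKb1 hKmap.symm
  · have hN1' : N.subgroupOf K ≠ ⊥ := by
      intro hbot
      rw [subgroupOf_eq_bot, disjoint_iff, inf_eq_left.2 hNK] at hbot
      exact hN1 hbot
    have hT1' : T.subgroupOf K ≠ ⊥ := by
      intro hbot
      rw [subgroupOf_eq_bot, disjoint_iff, inf_eq_left.2 hTK] at hbot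
      exact hT1 hbot
    have hc : IsComplement' (N.subgroupOf K) (T.subgroupOf K) := by
      apply isComplement'_of
      · rw [subgroupOf, subgroupOf, ← comap_inf, hNT]; exact bot_subgroupOf K
      · rw [← subgroupOf_sup hNK hTK, hNTK, subgroupOf_self]
    have hF : IsFrobeniusComplement (T.subgroupOf K) := by
      refine (FrobGroup.isFrobeniusComplement_iff hc hN1' hT1').2 ?_
      rintro ⟨x, hxK⟩ hx hx1
      rw [eq_bot_iff]
      rintro ⟨y, hyK⟩ ⟨hy, hyx⟩
      have h1 : y ∈ N ⊓ centralizer {x} :=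
        ⟨hy, mem_centralizer_singleton_iff.2 (congrArg Subtype.val (mem_centralizer_singleton_iff.1 hyx))⟩
      rw [h.inf_centralizer (t := x) hN (piNum_orderOf hT hx) (fun h => hx1 (Subtype.ext h)), mem_bot] at h1
      exact mem_bot.2 (Subtype.ext h1)
    exact ⟨T.subgroupOf K, hF, FrobGroup.kernel_eq_of_complement hc hF⟩
  · rw [hKmap]
    have hF : IsFrobeniusComplement S := by
      refine (FrobGroup.isFrobeniusComplement_iff hcompl hKb1 hS1).2 ?_
      intro x hx hx1
      refine hsep.compl.inf_centralizer hKbn ?_ hx1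
      rw [compl_compl]
      exact piNum_orderOf hS.1 hx
    exact ⟨S, hF, FrobGroup.kernel_eq_of_complement hcompl hF⟩

end Cfsg.Agent.Lib.H64TwoFrob
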