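import Cfsg.Agent.Lib.PGUa
import Cfsg.Agent.Lib.PG0

set_option autoImplicit false

/-!
# S2212, piece U1a (helper66): `GU₃(q)/Z`, `q` even, has an involution
-/

namespace Cfsg.Agent.Lib.H66PG

open Cfsg

theorem exists_inv {F : Type*} [Field F] [Fintype F] [CharP F 2] {q : ℕ} (hq : 2 < q) (hF : Fintype.card F = q ^ 2) :
    ∃ y : ↥(Cfsg.GU 3 F q) ⧸ Subgroup.center ↥(Cfsg.GU 3 F q), orderOf y = 2 := by
  have h2 : Fact (Nat.Prime 2) := ⟨Nat.prime_two⟩
  have hF2 : 2 ∣ Fintype.card F := by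
    rw [← CharP.cast_eq_zero_iff F 2]
    exact FiniteField.cast_card_eq_zero F
  have hq2 : 2 ∣ q := by
    rw [hF] at hF2; exact Nat.prime_two.dvd_of_dvd_pow hF2
  have hG : 2 ∣ Nat.card (GU 3 F q) := by
    rw [Cfsg.Agent.Lib.ClUnitary.card_GU hF 3]
    refine Dvd.dvd.mul_right (dvd_pow hq2 (by norm_num)) _
  have hZ : ¬ 2 ∣ Nat.card (Subgroup.center (GU 3 F q)) := by
    intro h
    obtain ⟨z, hz⟩ := exists_prime_orderOf_dvd_card' 2 h
    obtain ⟨c, hc⟩ := (Cfsg.Agent.Lib.PGU.center_GU hF (by norm_num) z.1).1 z.2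
    have hz2 : z * z = 1 := by
      rw [← pow_two, ← hz]; exact pow_orderOf_eq_one z
    have h1 : ((z.1.1 : GL (Fin 3) F) : Matrix (Fin 3) (Fin 3) F) * ((z.1.1 : GL (Fin 3) F) : Matrix (Fin 3) (Fin 3) F) = 1 := by
      have := congrArg (fun w : Subgroup.center (GU 3 F q) => ((w.1.1 : GL (Fin 3) F) : Matrix (Fin 3) (Fin 3) F)) hz2
      exact this
    rw [hc, ← map_mul] at h1
    have h3 : c * c = 1 := by
      have := congrFun (congrFun h1 0) 0
      simpa using this
    have h4 : c = 1 := by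
      have h5 : (c - 1) * (c - 1) = 0 := by
        have h6 : (2 : F) = 0 := CharTwo.two_eq_zero
        linear_combination h3 + (1 - c) * h6
      exact sub_eq_zero.1 (mul_self_eq_zero.1 h5)
    rw [h4, map_one] at hc
    have h7 : z = 1 := by
      apply Subtype.ext; apply Subtype.ext; apply Units.ext
      exact hc
    rw [h7, orderOf_one] at hz
    norm_num at hz
  have hQ : 2 ∣ Nat.card (GU 3 F q ⧸ Subgroup.center (GU 3 F q)) := by
    have h8 := Subgroup.card_mul_index (Subgroup.center (GU 3 F q))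
    rw [Subgroup.index_eq_card] at h8
    rw [← h8] at hG
    exact (Nat.prime_two.dvd_mul.1 hG).resolve_left hZ
  exact exists_prime_orderOf_dvd_card' 2 hQ

end Cfsg.Agent.Lib.H66PG
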