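import Cfsg.Agent.Lib.H67Pal0
import Cfsg.Agent.Lib.H16PalP4
import Cfsg.Agent.Lib.H16PalP5

/-!
# Palfy's three primes theorem, piece P7 (helper67)
-/

set_option autoImplicit false
set_option linter.all false

namespace Cfsg.Agent.Lib.H67Pal

open Subgroup Cfsg Cfsg.Agent.Lib Cfsg.Agent.Lib.CharBasic Cfsg.Agent.Lib.Clifford Cfsg.Agent.Lib.H16Pal0

universe u

variable {G : Type u} [Group G] [Finite G]

theorem nas_uniq {p : ℕ} [Fact p.Prime] {L A : Subgroup G} (hAL : A ≤ L) (h : NAS p L A) :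
    ∃ P : Sylow p L, (∀ g ∈ P, (g : G) ∈ A) ∧ (∀ a ∈ P, ∀ b ∈ P, a * b = b * a) ∧
      ∀ P' : Sylow p L, (∀ g ∈ P', (g : G) ∈ A) → P' = P := by
  obtain ⟨W, hWA, hAW, hW, hWi, hWab⟩ := h
  have hWL : W ≤ L := hWA.trans hAL
  have h1 : IsPGroup p (W.subgroupOf L) := hW.comap_subtype
  have h2 : ¬ p ∣ (W.subgroupOf L).index := hWi
  let P : Sylow p L := h1.toSylow h2
  refine ⟨P, fun g hg => hWA hg, fun a ha b hb => Subtype.ext (hWab a ha b hb), ?_⟩
  intro P' hP'
  have h3 : (P' : Subgroup L) ≤ normalizer ((P : Subgroup L) : Set L) := by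
    intro g hg
    have h4 := hAW (hP' g hg)
    rw [mem_normalizer_iff] at h4 ⊢
    intro x
    exact h4 x
  have h5 : IsPGroup p ↥((P' : Subgroup L) ⊔ (P : Subgroup L)) := P'.isPGroup'.to_sup_of_normal_right' P.isPGroup' h3
  have h6 := P'.is_maximal' h5 le_sup_left
  have h7 := P.is_maximal' h5 le_sup_right
  exact Sylow.ext (h6.symm.trans h7)

theorem syl_normal {p : ℕ} [Fact p.Prime] {L V A : Subgroup G} [hVn : V.Normal] (hAL : A ≤ L) (h : NAS p L A)
    (hcs : CS p L V) (hCA : ∀ g ∈ L, (∀ v ∈ V, g * v = v * g) → g ∈ A) :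
    ∃ P : Sylow p L, (P : Subgroup L).Normal ∧ (∀ a ∈ P, ∀ b ∈ P, a * b = b * a) ∧
      ∀ a ∈ P, ∀ v ∈ V, (a : G) * v = v * a := by
  obtain ⟨P, hP1, hP2, hP3⟩ := nas_uniq hAL h
  obtain ⟨U, hUL, hU, hUi, hUV⟩ := hcs
  have h1 : IsPGroup p (U.subgroupOf L) := hU.comap_subtype
  let P0 : Sylow p L := h1.toSylow hUi
  have hP0 : ∀ g ∈ P0, ∀ v ∈ V, (g : G) * v = v * g := fun g hg v hv => hUV g hg v hv
  have hconj : ∀ g : L, g • P0 = P := by
    intro g
    apply hP3
    intro x hx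
    apply hCA _ x.2
    intro v hv
    have h2 : g⁻¹ * x * g ∈ P0 := by
      have h3 : x ∈ ((g • P0 : Sylow p L) : Subgroup L) := hx
      rw [Sylow.coe_subgroup_smul, Subgroup.mem_pointwise_smul_iff_inv_smul_mem] at h3
      change (MulAut.conj g)⁻¹ x ∈ (P0 : Subgroup L) at h3
      rw [← map_inv, MulAut.conj_apply, inv_inv] at h3
      exact h3
    have h4 := hP0 _ h2 ((g : G)⁻¹ * v * g) (by
      have := hVn.conj_mem v hv (g : G)⁻¹
      rwa [inv_inv] at this)
    rw [Subgroup.coe_mul, Subgroup.coe_mul, Subgroup.coe_inv] at h4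
    calc (x : G) * v = g * (((g : G)⁻¹ * x * g) * ((g : G)⁻¹ * v * g)) * (g : G)⁻¹ := by group
      _ = g * (((g : G)⁻¹ * v * g) * ((g : G)⁻¹ * x * g)) * (g : G)⁻¹ := by rw [h4]
      _ = v * x := by group
  have hPP : P0 = P := by rw [← hconj 1, one_smul]
  refine ⟨P, ?_, hP2, by rw [← hPP]; exact hP0⟩
  have h2 : normalizer ((P : Subgroup L) : Set L) = ⊤ := by
    rw [eq_top_iff]
    intro g _
    have h3 := hconj g
    rw [hPP] at h3
    exact Sylow.smul_eq_iff_mem_normalizer.1 h3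
  exact normalizer_eq_top_iff.1 h2

/-- the conjugation action of the complement -/
noncomputable def rho (T L : Subgroup G) [T.Normal] : L →* MulAut T := (MulAut.conjNormal (H := T)).comp L.subtype

theorem rho_apply (T L : Subgroup G) [T.Normal] (g : L) (x : T) : ((rho T L g x : T) : G) = g * x * (g : G)⁻¹ := rfl

theorem cj_rho (T L : Subgroup G) [T.Normal] (g : L) (θ : T → ℂ) (x : T) : cj T (g : G) θ x = θ (rho T L g x) := rfl

theorem mem_comm_iff {T V : Subgroup G} (hV : ⁅T, T⁆ = V) (x : T) : x ∈ commutator T ↔ (x : G) ∈ V := by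
  rw [← hV, ← Subgroup.map_subtype_commutator]
  constructor
  · intro h
    exact ⟨x, h, rfl⟩
  · rintro ⟨y, hy, he⟩
    rwa [← Subtype.ext he]

theorem relIndex_map_sub {L : Subgroup G} (Q : Subgroup L) : (Q.map L.subtype).relIndex L = Q.index := by
  unfold relIndex subgroupOf
  rw [comap_map_eq_self_of_injective L.subtype_injective]

/-- a nontrivial character exists -/
theorem exists_irr_ne {V : Subgroup G} (hV : V ≠ ⊥) : ∃ lam : V → ℂ, IsIrrCharacter V lam ∧ lam ≠ 1 := by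
  by_contra hcon
  push Not at hcon
  obtain ⟨v, hv1⟩ := Subgroup.ne_bot_iff_exists_ne_one.1 hV
  apply hv1
  have h1 : IsConj v 1 := by
    rw [isConj_iff_forall_irr]
    intro χ
    rw [hcon χ χ.2]
    rfl
  exact isConj_one_left.1 h1

theorem p7 {T V L : Subgroup G} {t p q : ℕ} [hTn : T.Normal] [hVn : V.Normal] (h : SB T V L t p q) (hcp : CS p L V)
    (hcq : ¬ CS q L V)
    (h9a : ∀ θ : T → ℂ, IsIrrCharacter T θ → θ 1 ≠ 1 → NAS p L (inertia T θ ⊓ L))
    (h9b : ∀ lam : V → ℂ, IsIrrCharacter V lam → lam ≠ 1 → NAS p L (inertia V lam ⊓ L) ∧ NAS q L (inertia V lam ⊓ L)) :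
    False := by
  haveI := h.sol
  haveI : Fact p.Prime := ⟨h.pp⟩
  haveI : Fact q.Prime := ⟨h.pq⟩
  -- the normal Sylow subgroup
  obtain ⟨lam0, hl0, hl01⟩ := exists_irr_ne h.V1
  obtain ⟨U, hUn, hUab, hUV⟩ := syl_normal (V := V) (A := inertia V lam0 ⊓ L) inf_le_right (h9b lam0 hl0 hl01).1 hcp (by
    intro g hg hc
    refine ⟨?_, hg⟩
    change cj V g lam0 = lam0
    funext v
    rw [cj_apply]
    congr 1
    apply Subtype.ext
    change g * v * g⁻¹ = v
    rw [hc v v.2, mul_inv_cancel_right])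
  have hUniq : ∀ P : Sylow p L, P = U := by
    intro P
    haveI := hUn
    haveI := Sylow.unique_of_normal U hUn
    exact Subsingleton.elim _ _
  have hfixU : ∀ A : Subgroup G, A ≤ L → NAS p L A → ∀ a ∈ U, (a : G) ∈ A := by
    intro A hA hn a ha
    obtain ⟨P, hP, -, -⟩ := nas_uniq hA hn
    apply hP
    rw [hUniq P]
    exact ha
  -- index of `L`
  have hTL : ∀ g : G, ∃ a ∈ T, ∃ b ∈ L, a * b = g := fun g => Subgroup.mem_sup_of_normal_left.1 (by rw [h.TL']; exact mem_top g)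
  have hcompl : IsComplement' T L := isComplement'_of_disjoint_and_mul_eq_univ (disjoint_iff.2 h.TL) (by
    rw [Set.eq_univ_iff_forall]
    intro g
    obtain ⟨a, ha, b, hb, he⟩ := hTL g
    exact ⟨a, ha, b, hb, he⟩)
  have hLi : L.index = Nat.card T := hcompl.index_eq_card
  obtain ⟨k, hk⟩ : ∃ k, Nat.card T = t ^ k := by
    haveI : Fact t.Prime := ⟨h.pt⟩
    exact h.Tt.exists_card_eq
  -- the subgroup of `G`
  obtain ⟨P, hP⟩ : ∃ P : Subgroup G, P = (U : Subgroup L).map L.subtype := ⟨_, rfl⟩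
  have hPL : P ≤ L := by rw [hP]; exact Subgroup.map_subtype_le _
  have hmemP : ∀ a : L, a ∈ U ↔ (a : G) ∈ P := by
    intro a
    rw [hP]
    constructor
    · intro ha; exact ⟨a, ha, rfl⟩
    · rintro ⟨b, hb, he⟩
      rwa [← Subtype.ext he]
  have hPp : IsPGroup p P := by rw [hP]; exact U.isPGroup'.map _
  have hPi : ¬ p ∣ P.index := by
    rw [← relIndex_mul_index hPL, hLi, hk]
    intro hd
    rcases (Nat.Prime.dvd_mul h.pp).mp hd with hd | hd
    · have h1 : P.relIndex L = (U : Subgroup L).index := by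
        rw [hP]
        exact relIndex_map_sub _
      rw [h1] at hd
      exact U.not_dvd_index hd
    · exact h.tp ((Nat.prime_dvd_prime_iff_eq h.pp h.pt).1 (h.pp.dvd_of_dvd_pow hd)).symm
  have hPn : ∀ b ∈ L, ∀ u ∈ P, b * u * b⁻¹ ∈ P := by
    intro b hb u hu
    have h1 := hUn.conj_mem ⟨u, hPL hu⟩ ((hmemP _).2 hu) ⟨b, hb⟩
    exact (hmemP _).1 h1
  have hTP : (T ⊔ P).Normal := by
    constructor
    intro n hn g
    obtain ⟨x, hx, u, hu, rfl⟩ := Subgroup.mem_sup_of_normal_left.1 hn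
    obtain ⟨a, ha, b, hb, rfl⟩ := hTL g
    have h1 : b * (x * u) * b⁻¹ ∈ T ⊔ P := by
      have e : b * (x * u) * b⁻¹ = (b * x * b⁻¹) * (b * u * b⁻¹) := by group
      rw [e]
      exact mul_mem (mem_sup_left (hTn.conj_mem x hx b)) (mem_sup_right (hPn b hb u hu))
    have e : a * b * (x * u) * (a * b)⁻¹ = a * (b * (x * u) * b⁻¹) * a⁻¹ := by group
    rw [e]
    exact mul_mem (mul_mem (mem_sup_left ha) h1) (inv_mem (mem_sup_left ha))
  have hcV := h.hV
  refine contra (rho T L) (U : Subgroup L) (t := t) (w := q) h.pt h.Tt h.cop.symm ?_ ?_ ?_ ?_ ?_ ?_ ?_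
  · -- the commutator subgroup is central
    intro v hv
    rw [Subgroup.mem_center_iff]
    intro x
    apply Subtype.ext
    exact (h.VZ v ((mem_comm_iff hcV v).1 hv) x x.2).symm
  · intro a ha v hv
    apply Subtype.ext
    rw [rho_apply, hUV a ha v ((mem_comm_iff hcV v).1 hv), mul_inv_cancel_right]
  · by_contra hcon
    push Not at hcon
    apply h.np
    have hc : ∀ u ∈ P, ∀ x ∈ T, u * x = x * u := by
      intro u hu x hx
      have h1 := congrArg Subtype.val (hcon ⟨u, hPL hu⟩ ((hmemP _).2 hu) ⟨x, hx⟩)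
      rw [rho_apply] at h1
      exact mul_inv_eq_iff_eq_mul.1 h1
    refine ⟨P, ⟨?_⟩, ?_, hPp, hPi⟩
    · intro u hu g
      obtain ⟨a, ha, b, hb, rfl⟩ := hTL g
      have h1 := hPn b hb u hu
      have e : a * b * u * (a * b)⁻¹ = a * (b * u * b⁻¹) * a⁻¹ := by group
      rw [e, ← hc _ h1 a ha, mul_inv_cancel_right]
      exact h1
    · intro x hx y hy
      exact congrArg Subtype.val (hUab ⟨x, hPL hx⟩ ((hmemP _).2 hx) ⟨y, hPL hy⟩ ((hmemP _).2 hy))
  · intro θ hθ hθ1 a ha x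
    have h1 := hfixU _ inf_le_right (h9a θ hθ hθ1) a ha
    have h2 : cj T (a : G) θ = θ := h1.1
    exact congrFun h2 x
  · intro lam hlam
    let e : ↥(commutator T) → V := fun v => ⟨v.1.1, (mem_comm_iff hcV v.1).1 v.2⟩
    have hVT : V ≤ T := by rw [← hcV]; exact Subgroup.commutator_le_self T
    let ei : V →* ↥(commutator T) :=
      { toFun := fun v => ⟨⟨v.1, hVT v.2⟩, (mem_comm_iff hcV _).2 v.2⟩
        map_one' := rfl
        map_mul' := fun a b => rfl }
    let f : V →* ℂˣ := lam.comp ei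
    have hf : ∀ v : ↥(commutator T), f (e v) = lam v := fun v => rfl
    have hne : (fun v : V => (f v : ℂ)) ≠ 1 := by
      intro h1
      apply hlam
      ext v
      have h2 := congrFun h1 (e v)
      change ((lam v : ℂˣ) : ℂ) = 1
      exact h2
    obtain ⟨Q, hQ, -, hQu⟩ := nas_uniq inf_le_right (h9b _ (isIrrCharacter_of_unitsHom f) hne).2
    refine ⟨Q, ?_, ?_⟩
    · intro g hg v
      have h1 : cj V (g : G) (fun v : V => (f v : ℂ)) = (fun v : V => (f v : ℂ)) := (hQ g hg).1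
      exact Units.ext (congrFun h1 (e v))
    · intro Q' hQ'
      apply hQu
      intro g hg
      refine ⟨?_, g.2⟩
      change cj V (g : G) (fun v : V => (f v : ℂ)) = (fun v : V => (f v : ℂ))
      funext v
      exact congrArg Units.val (hQ' g hg (ei v))
  · intro μ hμ
    obtain ⟨a, ha, x, hx⟩ := hμ
    have hirr := isIrrCharacter_of_unitsHom μ
    have hn : NAS q L (inertia T (fun x : T => (μ x : ℂ)) ⊓ L) := by
      apply H16PalP5.p5lin h.TL h.TL' hirr (by simp) h.pq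
      intro χ hχ
      apply h.degpq χ
      letI := Fintype.ofFinite T
      refine H16PalP4.dvd_deg h.pp hPp hPi hTP ((hmemP a).1 ha) ⟨_, hirr⟩ ?_ χ hχ
      intro h1
      exact hx (Units.ext (congrFun h1 x))
    obtain ⟨Q, hQ, -, hQu⟩ := nas_uniq inf_le_right hn
    refine ⟨Q, ?_, ?_⟩
    · intro g hg v
      have h1 : cj T (g : G) (fun v : T => (μ v : ℂ)) = (fun v : T => (μ v : ℂ)) := (hQ g hg).1
      exact Units.ext (congrFun h1 v)
    · intro Q' hQ'
      apply hQu
      intro g hg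
      refine ⟨?_, g.2⟩
      change cj T (g : G) (fun v : T => (μ v : ℂ)) = (fun v : T => (μ v : ℂ))
      funext v
      exact congrArg Units.val (hQ' g hg v)
  · intro Q
    by_contra hcon
    push Not at hcon
    apply hcq
    refine ⟨(Q : Subgroup L).map L.subtype, Subgroup.map_subtype_le _, Q.isPGroup'.map _, ?_, ?_⟩
    · have h1 : ((Q : Subgroup L).map L.subtype).relIndex L = (Q : Subgroup L).index := relIndex_map_sub _
      rw [h1]
      exact Q.not_dvd_index
    · rintro _ ⟨g, hg, rfl⟩ v hv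
      have hVT : V ≤ T := by rw [← hcV]; exact Subgroup.commutator_le_self T
      have h1 := congrArg Subtype.val (hcon g hg ⟨v, hVT hv⟩ ((mem_comm_iff hcV _).2 hv))
      rw [rho_apply] at h1
      exact mul_inv_eq_iff_eq_mul.1 h1

end Cfsg.Agent.Lib.H67Pal
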