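import Cfsg.Agent.Lib.CharBasic2
import Mathlib

/-!
# A counting argument about coprime actions on groups of class two
-/

set_option autoImplicit false
set_option linter.all false

namespace Cfsg.Agent.Lib.H67Pal

open Cfsg Cfsg.Agent.Lib.CharBasic
open scoped commutatorElement

universe u v

/-- arithmetic -/
theorem arith_aux {t ν m e : ℕ} (ht : t.Prime) (hν : ¬ t ∣ ν) (hν1 : 1 < ν) (hm : 1 ≤ m) (h1 : t ^ m - 1 = ν * (t ^ e - 1)) :
    t ^ e ∣ ν - 1 ∧ ¬ t ^ (e + 1) ∣ ν - 1 := by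
  have ht2 := ht.two_le
  have hpm : 1 ≤ t ^ m := Nat.one_le_pow _ _ (by omega)
  have hpe : 1 ≤ t ^ e := Nat.one_le_pow _ _ (by omega)
  have hm2 : 2 ≤ t ^ m := le_trans ht2 (Nat.le_self_pow (by omega) t)
  have he0 : 0 < t ^ e - 1 := by
    by_contra hcon
    have : t ^ e - 1 = 0 := by omega
    rw [this, mul_zero] at h1
    omega
  have hlt : t ^ e < t ^ m := by
    have h2 : t ^ e - 1 < ν * (t ^ e - 1) := by nlinarith
    omega
  have hem : e < m := (Nat.pow_lt_pow_iff_right (by omega)).1 hlt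
  have h2 : ν * t ^ e = t ^ m + (ν - 1) := by
    have h3 : ν * (t ^ e - 1) = ν * t ^ e - ν := by rw [Nat.mul_sub, mul_one]
    have h4 : ν ≤ ν * t ^ e := Nat.le_mul_of_pos_right _ (by omega)
    omega
  constructor
  · have h3 : t ^ e ∣ t ^ m + (ν - 1) := by
      rw [← h2]
      exact Dvd.intro_left _ rfl
    exact (Nat.dvd_add_right (pow_dvd_pow _ hem.le)).1 h3
  · intro h3
    have h4 : t ^ (e + 1) ∣ ν * t ^ e := by
      rw [h2]
      exact dvd_add (pow_dvd_pow _ hem) h3
    rw [pow_succ, mul_comm ν] at h4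
    exact hν (Nat.dvd_of_mul_dvd_mul_left (by omega) h4)

/-- arithmetic -/
theorem arith {t ν m n e c : ℕ} (ht : t.Prime) (hν : ¬ t ∣ ν) (hν1 : 1 < ν) (hm : 1 ≤ m) (hn : 1 ≤ n)
    (h1 : t ^ m - 1 = ν * (t ^ e - 1)) (h2 : t ^ n - 1 = ν * (t ^ c - 1)) : t ^ m = t ^ n := by
  obtain ⟨a1, a2⟩ := arith_aux ht hν hν1 hm h1
  obtain ⟨b1, b2⟩ := arith_aux ht hν hν1 hn h2
  have hec : e = c := by
    by_contra hne
    rcases Nat.lt_or_gt_of_ne hne with h | h
    · exact a2 ((pow_dvd_pow _ h).trans b1)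
    · exact b2 ((pow_dvd_pow _ h).trans a1)
  subst hec
  have ht2 := ht.two_le
  have hpm : 1 ≤ t ^ m := Nat.one_le_pow _ _ (by omega)
  have hpn : 1 ≤ t ^ n := Nat.one_le_pow _ _ (by omega)
  omega

section count

variable {L : Type u} [Group L] [Finite L] {X : Type v} [Group X] [Finite X]

/-- fixed points of a set -/
def fixsub (ρ : L →* MulAut X) (P : Subgroup L) : Subgroup X where
  carrier := {x | ∀ g ∈ P, ρ g x = x}
  one_mem' := fun g _ => map_one _
  mul_mem' := fun {a b} ha hb g hg => by rw [map_mul, ha g hg, hb g hg]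
  inv_mem' := fun {a} ha g hg => by rw [map_inv, ha g hg]

/-- counting by fixed points of Sylow subgroups -/
theorem count_fix (ρ : L →* MulAut X) (Y : Subgroup X) (hY : ∀ g, ∀ y ∈ Y, ρ g y ∈ Y) {w : ℕ} [Fact w.Prime]
    (h : ∀ x ∈ Y, x ≠ 1 → ∃! P : Sylow w L, ∀ g ∈ P, ρ g x = x) (P0 : Sylow w L) :
    Nat.card Y - 1 = Nat.card (Sylow w L) * (Nat.card ↥(fixsub ρ P0 ⊓ Y) - 1) := by
  classical
  have card_ne : ∀ Z : Subgroup X, Nat.card {x : X // x ∈ Z ∧ x ≠ 1} = Nat.card Z - 1 := by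
    intro Z
    have h1 : Nat.card {x : X // x ∈ Z ∧ x ≠ 1} = Nat.card {z : Z // z ≠ 1} := by
      apply Nat.card_congr
      exact {
        toFun := fun x => ⟨⟨x.1, x.2.1⟩, fun e => x.2.2 (congrArg Subtype.val e)⟩
        invFun := fun z => ⟨z.1.1, z.1.2, fun e => z.2 (Subtype.ext e)⟩
        left_inv := fun x => rfl
        right_inv := fun z => rfl }
    rw [h1]
    haveI := Fintype.ofFinite Z
    rw [Nat.card_eq_fintype_card, Nat.card_eq_fintype_card]
    have h2 := Fintype.card_subtype_compl (fun z : Z => z = 1)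
    rw [Fintype.card_subtype_eq] at h2
    exact h2
  -- the conjugates have the same number of fixed points
  have hconj : ∀ P : Sylow w L, Nat.card {x : X // x ∈ fixsub ρ P ⊓ Y ∧ x ≠ 1} = Nat.card {x : X // x ∈ fixsub ρ P0 ⊓ Y ∧ x ≠ 1} := by
    intro P
    obtain ⟨g, rfl⟩ := MulAction.exists_smul_eq L P0 P
    have mem_iff : ∀ a : L, a ∈ (g • P0 : Sylow w L) ↔ g⁻¹ * a * g ∈ P0 := by
      intro a
      change a ∈ ((g • P0 : Sylow w L) : Subgroup L) ↔ _
      rw [Sylow.coe_subgroup_smul, Subgroup.mem_pointwise_smul_iff_inv_smul_mem]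
      change (MulAut.conj g)⁻¹ a ∈ (P0 : Subgroup L) ↔ _
      rw [← map_inv, MulAut.conj_apply, inv_inv]
      rfl
    apply Nat.card_congr
    exact {
      toFun := fun x => ⟨ρ g⁻¹ x.1, ⟨⟨by
          intro a ha
          have h1 := x.2.1.1 (g * a * g⁻¹) ((mem_iff _).2 (by
            have : g⁻¹ * (g * a * g⁻¹) * g = a := by group
            rw [this]; exact ha))
          have h2 : ρ a (ρ g⁻¹ x.1) = ρ g⁻¹ (ρ (g * a * g⁻¹) x.1) := by
            rw [← MulAut.mul_apply, ← map_mul, ← MulAut.mul_apply, ← map_mul]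
            congr 2
            group
          rw [h2, h1], hY _ _ x.2.1.2⟩, fun e => x.2.2 (by rwa [map_eq_one_iff _ (ρ g⁻¹).injective] at e)⟩⟩
      invFun := fun x => ⟨ρ g x.1, ⟨⟨by
          intro a ha
          have h1 := x.2.1.1 (g⁻¹ * a * g) ((mem_iff _).1 ha)
          have h2 : ρ a (ρ g x.1) = ρ g (ρ (g⁻¹ * a * g) x.1) := by
            rw [← MulAut.mul_apply, ← map_mul, ← MulAut.mul_apply, ← map_mul]
            congr 2
            group
          rw [h2, h1], hY _ _ x.2.1.2⟩, fun e => x.2.2 (by rwa [map_eq_one_iff _ (ρ g).injective] at e)⟩⟩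
      left_inv := fun x => Subtype.ext (by
        change ρ g (ρ g⁻¹ x.1) = x.1
        rw [← MulAut.mul_apply, ← map_mul, mul_inv_cancel, map_one]; rfl)
      right_inv := fun x => Subtype.ext (by
        change ρ g⁻¹ (ρ g x.1) = x.1
        rw [← MulAut.mul_apply, ← map_mul, inv_mul_cancel, map_one]; rfl) }
  rw [← card_ne Y, ← card_ne (fixsub ρ P0 ⊓ Y)]
  have e : {x : X // x ∈ Y ∧ x ≠ 1} ≃ Σ P : Sylow w L, {x : X // x ∈ fixsub ρ P ⊓ Y ∧ x ≠ 1} := {
    toFun := fun x => ⟨(h x.1 x.2.1 x.2.2).choose, ⟨x.1, ⟨(h x.1 x.2.1 x.2.2).choose_spec.1, x.2.1⟩, x.2.2⟩⟩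
    invFun := fun y => ⟨y.2.1, y.2.2.1.2, y.2.2.2⟩
    left_inv := fun x => rfl
    right_inv := by
      rintro ⟨P, x, hx⟩
      have h1 : (h x hx.1.2 hx.2).choose = P := ((h x hx.1.2 hx.2).choose_spec.2 P hx.1.1).symm
      exact Sigma.subtype_ext h1 rfl }
  haveI := Fintype.ofFinite (Sylow w L)
  rw [Nat.card_congr e, Nat.card_sigma]
  rw [Finset.sum_congr rfl (fun P _ => hconj P), Finset.sum_const, Finset.card_univ, ← Nat.card_eq_fintype_card, smul_eq_mul]

end count

section dual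

variable {L : Type u} [Group L] {T : Type v} [Group T]

/-- the action on the linear characters -/
def dual (ρ : L →* MulAut T) : L →* MulAut (T →* ℂˣ) where
  toFun g :=
    { toFun := fun μ => μ.comp (ρ g⁻¹ : T ≃* T).toMonoidHom
      invFun := fun μ => μ.comp (ρ g : T ≃* T).toMonoidHom
      left_inv := fun μ => by
        ext x
        change (μ (ρ g⁻¹ (ρ g x)) : ℂ) = _
        rw [← MulAut.mul_apply, ← map_mul, inv_mul_cancel, map_one]; rfl
      right_inv := fun μ => by
        ext x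
        change (μ (ρ g (ρ g⁻¹ x)) : ℂ) = _
        rw [← MulAut.mul_apply, ← map_mul, mul_inv_cancel, map_one]; rfl
      map_mul' := fun μ ν => rfl }
  map_one' := by
    ext μ x
    change (μ (ρ 1⁻¹ x) : ℂ) = _
    rw [inv_one, map_one]; rfl
  map_mul' := fun a b => by
    ext μ x
    change (μ (ρ (a * b)⁻¹ x) : ℂ) = (μ (ρ b⁻¹ (ρ a⁻¹ x)) : ℂ)
    rw [mul_inv_rev, map_mul]; rfl

theorem dual_apply (ρ : L →* MulAut T) (g : L) (μ : T →* ℂˣ) (x : T) : dual ρ g μ x = μ (ρ g⁻¹ x) := rfl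

theorem dual_fix_iff (ρ : L →* MulAut T) (P : Subgroup L) (μ : T →* ℂˣ) :
    (∀ g ∈ P, dual ρ g μ = μ) ↔ ∀ g ∈ P, ∀ x, μ (ρ g x) = μ x := by
  constructor
  · intro h g hg x
    have h1 := h g⁻¹ (P.inv_mem hg)
    have h2 := DFunLike.congr_fun h1 x
    rw [dual_apply, inv_inv] at h2
    exact h2
  · intro h g hg
    ext x
    rw [dual_apply, h g⁻¹ (P.inv_mem hg)]

end dual

/-- linear characters separate the cosets of the commutator subgroup -/
theorem exists_hom_ne {T : Type u} [Group T] [Finite T] {x : T} (hx : x ∉ commutator T) : ∃ μ : T →* ℂˣ, μ x ≠ 1 := by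
  have h1 : Abelianization.of x ≠ 1 := by
    intro h
    apply hx
    rw [← Abelianization.ker_of]
    exact h
  have : NeZero (Monoid.exponent (Abelianization T)) := ⟨Monoid.exponent_ne_zero_of_finite⟩
  obtain ⟨f, hf⟩ := CommGroup.exists_apply_ne_one_of_hasEnoughRootsOfUnity (Abelianization T) ℂ h1
  exact ⟨f.comp Abelianization.of, hf⟩

/-- number of linear characters trivial on a normal subgroup with abelian factor group -/
theorem card_annih {T : Type u} [Group T] [Finite T] (D : Subgroup T) [D.Normal] (hD : commutator T ≤ D) :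
    Nat.card {μ : T →* ℂˣ // ∀ x ∈ D, μ x = 1} = D.index := by
  have e : {μ : T →* ℂˣ // ∀ x ∈ D, μ x = 1} ≃ (T ⧸ D →* ℂˣ) := {
    toFun := fun μ => QuotientGroup.lift D μ.1 μ.2
    invFun := fun f => ⟨f.comp (QuotientGroup.mk' D), fun x hx => by
      change f (x : T ⧸ D) = 1
      rw [(QuotientGroup.eq_one_iff x).2 hx, map_one]⟩
    left_inv := fun μ => by
      apply Subtype.ext
      ext x
      rfl
    right_inv := fun f => by
      ext x
      rfl }
  rw [Nat.card_congr e, card_hom_units]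
  have h1 : commutator (T ⧸ D) = ⊥ := by
    rw [eq_bot_iff, commutator_def, Subgroup.commutator_le]
    intro a _ b _
    induction a using QuotientGroup.induction_on with | H a => ?_
    induction b using QuotientGroup.induction_on with | H b => ?_
    rw [Subgroup.mem_bot]
    change ((⁅a, b⁆ : T) : T ⧸ D) = 1
    rw [QuotientGroup.eq_one_iff]
    apply hD
    rw [commutator_def]
    exact Subgroup.commutator_mem_commutator (Subgroup.mem_top _) (Subgroup.mem_top _)
  rw [h1, Subgroup.index_bot]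
  rfl

section main

variable {L : Type u} [Group L] [Finite L] {T : Type v} [Group T] [Finite T] (ρ : L →* MulAut T) (U : Subgroup L)

/-- a commuting increment of coprime order is trivial -/
theorem step_one (hc : (Nat.card L).Coprime (Nat.card T)) {a : L} {x z : T} (h : ρ a x = x * z) (hz : ρ a z = z) : z = 1 := by
  have h1 : ∀ n : ℕ, ρ (a ^ n) x = x * z ^ n := by
    intro n
    induction n with
    | zero => rw [pow_zero, map_one, pow_zero, mul_one]; rfl
    | succ n ih =>
      rw [pow_succ', map_mul, MulAut.mul_apply, ih, map_mul, h, map_pow, hz, pow_succ', mul_assoc]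
  have h2 := h1 (Nat.card L)
  rw [pow_card_eq_one', map_one] at h2
  change x = x * _ at h2
  have h3 : z ^ Nat.card L = 1 := by
    have := h2.symm
    rwa [mul_eq_left] at this
  have h4 : z ^ Nat.card T = 1 := pow_card_eq_one'
  have h5 : orderOf z ∣ Nat.gcd (Nat.card L) (Nat.card T) := Nat.dvd_gcd (orderOf_dvd_of_pow_eq_one h3) (orderOf_dvd_of_pow_eq_one h4)
  rw [hc] at h5
  exact orderOf_eq_one_iff.1 (Nat.dvd_one.1 h5)

/-- elements fixed modulo the commutator subgroup -/
theorem step_fix (hc : (Nat.card L).Coprime (Nat.card T)) (hUV : ∀ a ∈ U, ∀ v ∈ commutator T, ρ a v = v)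
    {x : T} (h : ∀ a ∈ U, x⁻¹ * ρ a x ∈ commutator T) : x ∈ fixsub ρ U := by
  intro a ha
  have h1 : ρ a x = x * (x⁻¹ * ρ a x) := by group
  have h2 := step_one ρ hc h1 (hUV a ha _ (h a ha))
  rw [h1, h2, mul_one]

/-- nonlinear characters vanish at the elements moved modulo the commutator subgroup -/
theorem vanish (hinv : ∀ θ : T → ℂ, IsIrrCharacter T θ → θ 1 ≠ 1 → ∀ a ∈ U, ∀ x, θ (ρ a x) = θ x)
    {x : T} {a : L} (ha : a ∈ U) (h : x⁻¹ * ρ a x ∉ commutator T) {θ : T → ℂ} (hθ : IsIrrCharacter T θ) (hθ1 : θ 1 ≠ 1) :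
    θ x = 0 := by
  obtain ⟨μ, hμ⟩ := exists_hom_ne h
  have h1 := hinv θ hθ hθ1 a ha x
  have hl : (fun g => (μ g : ℂ)) 1 = 1 := by simp
  have h2 := hinv (θ * fun g => (μ g : ℂ)) (hθ.mul_linear (isCharacter_of_unitsHom μ) hl) (by
    rw [Pi.mul_apply, map_one, Units.val_one, mul_one]
    exact hθ1) a ha x
  rw [Pi.mul_apply, Pi.mul_apply, h1] at h2
  by_contra hne
  have h3 := mul_left_cancel₀ hne h2
  have h4 : μ (ρ a x) = μ x := Units.ext h3
  apply hμ
  rw [map_mul, h4, map_inv, inv_mul_cancel]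

/-- the centralizer of an element at which all nonlinear characters vanish -/
theorem card_cent {x : T} (h : ∀ θ : T → ℂ, IsIrrCharacter T θ → θ 1 ≠ 1 → θ x = 0) :
    Nat.card (Subgroup.centralizer ({x} : Set T)) = (commutator T).index := by
  classical
  have := Fintype.ofFinite T
  have h1 := column_orthogonality x x
  rw [if_pos (IsConj.refl x)] at h1
  have h2 : ∀ χ : IrrCharacter T, (χ : T → ℂ) x * (starRingEnd ℂ) ((χ : T → ℂ) x) = if (χ : T → ℂ) 1 = 1 then 1 else 0 := by
    intro χ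
    split_ifs with h3
    · exact χ.2.isCharacter.mul_conj_of_linear h3 x
    · rw [h χ χ.2 h3, zero_mul]
  rw [Finset.sum_congr rfl (fun χ _ => h2 χ), Finset.sum_boole] at h1
  have h3 : (Finset.univ.filter fun χ : IrrCharacter T => (χ : T → ℂ) 1 = 1).card = Nat.card {χ : IrrCharacter T // (χ : T → ℂ) 1 = 1} := by
    rw [Nat.card_eq_fintype_card, Fintype.card_subtype]
  rw [h3, card_linear] at h1
  exact_mod_cast h1.symm

/-- invariant linear characters trivial on the fixed points are trivial -/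
theorem dual_triv (hc : (Nat.card L).Coprime (Nat.card T)) (hUV : ∀ a ∈ U, ∀ v ∈ commutator T, ρ a v = v)
    {μ : T →* ℂˣ} (hμ : ∀ x ∈ fixsub ρ U, μ x = 1) (hf : ∀ a ∈ U, ∀ x, μ (ρ a x) = μ x) : μ = 1 := by
  classical
  haveI := Fintype.ofFinite U
  ext y
  rw [MonoidHom.one_apply, Units.val_one]
  obtain ⟨N, hN⟩ : ∃ N : T, N = ((Finset.univ : Finset ↥U).toList.map (fun a : ↥U => ρ (a : L) y)).prod := ⟨_, rfl⟩
  have hab : ∀ z : T, ∀ b : L, Abelianization.of (ρ b z) = Abelianization.map (ρ b : T ≃* T).toMonoidHom (Abelianization.of z) := fun z b => rfl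
  have hN' : Abelianization.of N = ∏ a : U, Abelianization.of (ρ a y) := by
    rw [hN, map_list_prod, List.map_map, ← Finset.prod_map_toList]
    rfl
  have hNf : N ∈ fixsub ρ U := by
    apply step_fix ρ U hc hUV
    intro b hb
    rw [← Abelianization.ker_of, MonoidHom.mem_ker, map_mul, map_inv, inv_mul_eq_one, hab, hN', map_prod]
    have e : ∀ a : U, Abelianization.map (ρ b : T ≃* T).toMonoidHom (Abelianization.of (ρ a y)) = Abelianization.of (ρ (((⟨b, hb⟩ : U) * a : U) : L) y) := by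
      intro a
      rw [← hab, Subgroup.coe_mul, map_mul]
      rfl
    rw [Finset.prod_congr rfl (fun a _ => e a)]
    exact (Equiv.prod_comp (Equiv.mulLeft (⟨b, hb⟩ : U)) (fun a : U => Abelianization.of (ρ a y))).symm
  have h1 : μ N = μ y ^ Nat.card U := by
    rw [hN, map_list_prod, List.map_map]
    have e : (μ : T → ℂˣ) ∘ (fun a : U => ρ a y) = fun _ => μ y := by
      funext a
      exact hf a a.2 y
    rw [e, List.map_const', List.prod_replicate, Finset.length_toList, Finset.card_univ, Nat.card_eq_fintype_card]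
  rw [hμ N hNf] at h1
  have h2 : μ y ^ Nat.card T = 1 := by
    rw [← map_pow, pow_card_eq_one', map_one]
  have h3 : (Nat.card U).Coprime (Nat.card T) := hc.coprime_dvd_left (Subgroup.card_subgroup_dvd_card U)
  have h5 : orderOf (μ y) ∣ Nat.gcd (Nat.card U) (Nat.card T) := Nat.dvd_gcd (orderOf_dvd_of_pow_eq_one h1.symm) (orderOf_dvd_of_pow_eq_one h2)
  rw [h3] at h5
  rw [orderOf_eq_one_iff.1 (Nat.dvd_one.1 h5), Units.val_one]

/-- the key inequality -/
theorem card_lt (hc : (Nat.card L).Coprime (Nat.card T)) (hVZ : commutator T ≤ Subgroup.center T)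
    (hUV : ∀ a ∈ U, ∀ v ∈ commutator T, ρ a v = v) (hU : ∃ a ∈ U, ∃ y, ρ a y ≠ y)
    (hinv : ∀ θ : T → ℂ, IsIrrCharacter T θ → θ 1 ≠ 1 → ∀ a ∈ U, ∀ x, θ (ρ a x) = θ x) :
    Nat.card (commutator T) < (fixsub ρ U).index := by
  obtain ⟨a, ha, y, hy⟩ := hU
  obtain ⟨x, hx⟩ : ∃ x, x = y⁻¹ * ρ a y := ⟨_, rfl⟩
  have hxy : ρ a y = y * x := by rw [hx]; group
  have hx1 : x ≠ 1 := by
    intro h
    rw [h, mul_one] at hxy
    exact hy hxy
  have hxa : ρ a x ≠ x := fun h => hx1 (step_one ρ hc hxy h)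
  have hxD : x ∉ fixsub ρ U := fun h => hxa (h a ha)
  -- `x` commutes with the fixed points
  have hcomm : ∀ d ∈ fixsub ρ U, x * d = d * x := by
    intro d hd
    have hz : ⁅y, d⁆ ∈ commutator T := Subgroup.commutator_mem_commutator (Subgroup.mem_top _) (Subgroup.mem_top _)
    have h1 := hUV a ha _ hz
    rw [map_commutatorElement, hd a ha, hxy] at h1
    rw [commutatorElement_def, commutatorElement_def] at h1
    have h2 : y * x * d * (y * x)⁻¹ = y * d * y⁻¹ := by
      have := congrArg (· * d) h1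
      simpa [mul_assoc] using this
    have h3 : x * d * x⁻¹ = d := by
      calc x * d * x⁻¹ = y⁻¹ * (y * x * d * (y * x)⁻¹) * y := by group
        _ = y⁻¹ * (y * d * y⁻¹) * y := by rw [h2]
        _ = d := by group
    exact mul_inv_eq_iff_eq_mul.1 h3
  have hlt : fixsub ρ U < Subgroup.centralizer ({x} : Set T) := by
    refine lt_of_le_of_ne ?_ ?_
    · intro d hd
      rw [Subgroup.mem_centralizer_singleton_iff]
      exact (hcomm d hd).symm
    · intro h
      apply hxD
      rw [h, Subgroup.mem_centralizer_singleton_iff]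
  obtain ⟨b, hb, hbx⟩ : ∃ b ∈ U, x⁻¹ * ρ b x ∉ commutator T := by
    by_contra hcon
    push Not at hcon
    exact hxD (step_fix ρ U hc hUV hcon)
  have hcard := card_cent (x := x) fun θ hθ hθ1 => vanish ρ U hinv hb hbx hθ hθ1
  have h1 := Subgroup.card_mul_index (commutator T)
  have h2 := Subgroup.card_mul_index (fixsub ρ U)
  have h3 : Nat.card (fixsub ρ U) < Nat.card (Subgroup.centralizer ({x} : Set T)) :=
    Set.ncard_lt_ncard (SetLike.coe_ssubset_coe.2 hlt) (Set.toFinite _)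
  rw [hcard] at h3
  have hp : 0 < Nat.card T := Nat.card_pos
  have hpos : 0 < Nat.card (fixsub ρ U) := Nat.card_pos
  by_contra hcon
  push Not at hcon
  have h4 : Nat.card (fixsub ρ U) * (fixsub ρ U).index ≤ Nat.card (fixsub ρ U) * Nat.card (commutator T) := Nat.mul_le_mul_left _ hcon
  have h5 : Nat.card (fixsub ρ U) * Nat.card (commutator T) < (commutator T).index * Nat.card (commutator T) :=
    Nat.mul_lt_mul_of_pos_right h3 Nat.card_pos
  rw [h2] at h4
  rw [mul_comm (commutator T).index, h1] at h5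
  omega

theorem comm_bot {A : Type*} [Group A] (h : ∀ x y : A, x * y = y * x) : commutator A = ⊥ := by
  rw [eq_bot_iff, commutator_def, Subgroup.commutator_le]
  intro a _ b _
  rw [Subgroup.mem_bot, commutatorElement_eq_one_iff_mul_comm]
  exact h a b

/-- the action on the commutator subgroup -/
noncomputable def rhoV : L →* MulAut (commutator T) := (MulAut.characteristic (commutator T)).comp ρ

theorem pow_of_pgroup {t : ℕ} [Fact t.Prime] {X : Type*} [Group X] [Finite X] (h : IsPGroup t X) : ∃ n, Nat.card X = t ^ n :=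
  h.exists_card_eq

/-- the abstract form of the contradiction -/
theorem contra {t w : ℕ} (ht : t.Prime) [Fact w.Prime] (hT : IsPGroup t T) (hc : (Nat.card L).Coprime (Nat.card T))
    [hUn : U.Normal] (hVZ : commutator T ≤ Subgroup.center T)
    (hUV : ∀ a ∈ U, ∀ v ∈ commutator T, ρ a v = v) (hU : ∃ a ∈ U, ∃ y, ρ a y ≠ y)
    (hinv : ∀ θ : T → ℂ, IsIrrCharacter T θ → θ 1 ≠ 1 → ∀ a ∈ U, ∀ x, θ (ρ a x) = θ x)
    (hV : ∀ lam : ↥(commutator T) →* ℂˣ, lam ≠ 1 → ∃! P : Sylow w L, ∀ g ∈ P, ∀ v, lam (rhoV ρ g v) = lam v)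
    (hμ : ∀ μ : T →* ℂˣ, (∃ a ∈ U, ∃ x, μ (ρ a x) ≠ μ x) → ∃! P : Sylow w L, ∀ g ∈ P, ∀ x, μ (ρ g x) = μ x)
    (hW : ∀ P : Sylow w L, ∃ g ∈ P, ∃ v ∈ commutator T, ρ g v ≠ v) : False := by
  classical
  haveI : Fact t.Prime := ⟨ht⟩
  set D := fixsub ρ U with hD
  have hVD : commutator T ≤ D := fun v hv a ha => hUV a ha v hv
  haveI hDn : D.Normal := by
    constructor
    intro n hn g
    have h1 : g * n * g⁻¹ * n⁻¹ ∈ D := hVD (Subgroup.commutator_mem_commutator (Subgroup.mem_top _) (Subgroup.mem_top _))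
    have h2 := D.mul_mem h1 hn
    rwa [inv_mul_cancel_right] at h2
  have hDL : ∀ g : L, ∀ x ∈ D, ρ g x ∈ D := by
    intro g x hx a ha
    have h1 := hx (g⁻¹ * a * g) (by
      have := hUn.conj_mem a ha g⁻¹
      rwa [inv_inv] at this)
    rw [← MulAut.mul_apply, ← map_mul]
    have h2 : a * g = g * (g⁻¹ * a * g) := by group
    rw [h2, map_mul, MulAut.mul_apply, h1]
  -- the subgroup of linear characters
  let Y : Subgroup (T →* ℂˣ) :=
    { carrier := {μ | ∀ x ∈ D, μ x = 1}
      one_mem' := fun x _ => rfl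
      mul_mem' := fun {a b} ha hb x hx => by rw [MonoidHom.mul_apply, ha x hx, hb x hx, mul_one]
      inv_mem' := fun {a} ha x hx => by rw [MonoidHom.inv_apply, ha x hx, inv_one] }
  have hYcard : Nat.card Y = D.index := card_annih D hVD
  have hfin : Finite (T →* ℂˣ) := by
    apply Nat.finite_of_card_ne_zero
    rw [card_hom_units]
    exact Subgroup.index_ne_zero_of_finite
  have hfinV : Finite (↥(commutator T) →* ℂˣ) := by
    apply Nat.finite_of_card_ne_zero
    rw [card_hom_units]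
    exact Subgroup.index_ne_zero_of_finite
  obtain ⟨P0⟩ : Nonempty (Sylow w L) := inferInstance
  have hYinv : ∀ g, ∀ y ∈ Y, dual ρ g y ∈ Y := by
    intro g y hy x hx
    rw [dual_apply]
    exact hy _ (hDL _ x hx)
  have c1 := count_fix (dual ρ) Y hYinv (w := w) (by
    intro μ hμY hμ1
    have h1 : ∃ a ∈ U, ∃ x, μ (ρ a x) ≠ μ x := by
      by_contra hcon
      push Not at hcon
      exact hμ1 (dual_triv ρ U hc hUV hμY hcon)
    obtain ⟨P, hP, hPu⟩ := hμ μ h1
    exact ⟨P, (dual_fix_iff ρ P μ).2 hP, fun P' hP' => hPu P' ((dual_fix_iff ρ P' μ).1 hP')⟩) P0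
  have hfixV : ∀ μ ∈ (⊤ : Subgroup (↥(commutator T) →* ℂˣ)), μ ≠ 1 → ∃! P : Sylow w L, ∀ g ∈ P, dual (rhoV ρ) g μ = μ := by
    intro μ _ hμ1
    obtain ⟨P, hP, hPu⟩ := hV μ hμ1
    exact ⟨P, (dual_fix_iff (rhoV ρ) P μ).2 hP, fun P' hP' => hPu P' ((dual_fix_iff (rhoV ρ) P' μ).1 hP')⟩
  have c2 := count_fix (X := ↥(commutator T) →* ℂˣ) (dual (rhoV ρ)) ⊤ (fun _ _ _ => Subgroup.mem_top _) (w := w) hfixV P0
  -- the commutator subgroup is abelian
  have hVab : ∀ x y : ↥(commutator T), x * y = y * x := by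
    intro x y
    apply Subtype.ext
    exact (Subgroup.mem_center_iff.1 (hVZ x.2) y).symm
  have hcV : commutator ↥(commutator T) = ⊥ := comm_bot hVab
  have hVcard : Nat.card (↥(commutator T) →* ℂˣ) = Nat.card (commutator T) := by
    rw [card_hom_units, hcV, Subgroup.index_bot]
  rw [Subgroup.card_top, hVcard] at c2
  rw [hYcard] at c1
  -- orders are powers of `t`
  obtain ⟨n, hn⟩ : ∃ n, Nat.card (commutator T) = t ^ n := (hT.to_subgroup _).exists_card_eq
  have hXt : IsPGroup t (T →* ℂˣ) := by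
    obtain ⟨k, hk⟩ := hT.exists_card_eq
    intro μ
    refine ⟨k, ?_⟩
    ext x
    rw [MonoidHom.pow_apply, ← map_pow, ← hk, pow_card_eq_one', map_one]
    rfl
  have hXtV : IsPGroup t (↥(commutator T) →* ℂˣ) := by
    intro μ
    refine ⟨n, ?_⟩
    ext x
    rw [MonoidHom.pow_apply, ← map_pow, ← hn, pow_card_eq_one', map_one]
    rfl
  obtain ⟨e, he⟩ : ∃ e, Nat.card ↥(fixsub (dual ρ) P0 ⊓ Y) = t ^ e := (hXt.to_subgroup _).exists_card_eq
  obtain ⟨c, hcc⟩ := (hXtV.to_subgroup (fixsub (X := ↥(commutator T) →* ℂˣ) (dual (rhoV ρ)) (P0 : Subgroup L) ⊓ ⊤)).exists_card_eq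
  obtain ⟨m, hm⟩ : ∃ m, D.index = t ^ m := by
    obtain ⟨k, hk⟩ := hT.exists_card_eq
    have : D.index ∣ t ^ k := by
      rw [← hk]; exact Subgroup.index_dvd_card D
    obtain ⟨m, _, hm⟩ := (Nat.dvd_prime_pow ht).1 this
    exact ⟨m, hm⟩
  have hlt := card_lt ρ U hc hVZ hUV hU hinv
  rw [he, hm] at c1
  rw [hcc, hn] at c2
  rw [← hD, hn, hm] at hlt
  have hmn : n < m := (Nat.pow_lt_pow_iff_right ht.one_lt).1 hlt
  -- the number of Sylow subgroups
  have hcop : ¬ t ∣ Nat.card (Sylow w L) := by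
    intro h1
    have h2 : t ∣ Nat.card L := h1.trans (Sylow.card_dvd_index P0 |>.trans (Subgroup.index_dvd_card _))
    have h3 : t ∣ Nat.card T := by
      obtain ⟨k, hk⟩ := hT.exists_card_eq
      rw [hk]
      apply dvd_pow_self
      rintro rfl
      have h5 : D.index ∣ Nat.card T := Subgroup.index_dvd_card D
      rw [hk, pow_zero, Nat.dvd_one, hm] at h5
      have h6 : m = 0 := by
        by_contra hne
        have := Nat.one_lt_pow hne ht.one_lt
        omega
      omega
    have h4 := Nat.dvd_gcd h2 h3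
    rw [hc] at h4
    exact ht.one_lt.ne' (Nat.dvd_one.1 h4)
  obtain ⟨g0, hg0, v0, hv0, hne0⟩ := hW P0
  have hn1 : 1 ≤ n := by
    by_contra hcon
    have hn0 : n = 0 := by omega
    rw [hn0, pow_zero] at hn
    have h1 := Subgroup.card_eq_one.1 hn
    rw [h1, Subgroup.mem_bot] at hv0
    rw [hv0, map_one] at hne0
    exact hne0 rfl
  have hν1 : 1 < Nat.card (Sylow w L) := by
    by_contra hcon
    have hpos : 0 < Nat.card (Sylow w L) := Nat.card_pos
    have h1 : Nat.card (Sylow w L) = 1 := by omega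
    have hss : Subsingleton (Sylow w L) := (Nat.card_eq_one_iff_unique.1 h1).1
    -- a character of the commutator subgroup distinguishing `v0` and its image
    have h2 : (rhoV ρ g0 ⟨v0, hv0⟩) * (⟨v0, hv0⟩ : ↥(commutator T))⁻¹ ∉ commutator ↥(commutator T) := by
      rw [hcV, Subgroup.mem_bot, mul_inv_eq_one]
      intro h3
      exact hne0 (congrArg Subtype.val h3)
    obtain ⟨lam, hlam⟩ := exists_hom_ne h2
    have h3 : lam ≠ 1 := by
      rintro rfl
      exact hlam rfl
    obtain ⟨P, hP, -⟩ := hV lam h3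
    have h4 := hP g0 (by rw [Subsingleton.elim P P0]; exact hg0) ⟨v0, hv0⟩
    apply hlam
    rw [map_mul, h4, map_inv, mul_inv_cancel]
  have := arith ht hcop hν1 (by omega) hn1 c1 c2
  omega

end main

end Cfsg.Agent.Lib.H67Pal
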