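import Mathlib
import Cfsg.Agent.Lib.H52E16g
import Cfsg.Agent.Lib.StructConst

/-!
# Counting 2-singular elements through the principal block (helper70)
-/

set_option autoImplicit false
set_option maxHeartbeats 400000

open Subgroup

namespace Cfsg.Agent.Lib.H70AbA

open Cfsg Cfsg.Agent.Lib.BlockRing Cfsg.Agent.Lib.BlockThird
open Cfsg.Agent.Lib.CharBasic Cfsg.Agent.Lib.H52E16b Cfsg.Agent.Lib.H52Dih5
open scoped ComplexConjugate Classical

universe u
variable {G : Type u} [Group G] [Fintype G] {M : Ideal AlgInt}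

/-- the 2-singular elements -/
noncomputable def Sg (G : Type u) [Group G] [Fintype G] : Finset G := Finset.univ.filter (fun g : G => 2 ∣ orderOf g)

/-- the involutions -/
noncomputable def Iv (G : Type u) [Group G] [Fintype G] : Finset G := Finset.univ.filter (fun g : G => orderOf g = 2)

theorem mem_Sg {g : G} : g ∈ Sg G ↔ 2 ∣ orderOf g := by simp [Sg]

theorem mem_Iv {g : G} : g ∈ Iv G ↔ orderOf g = 2 := by simp [Iv]

theorem Iv_sub : Iv G ⊆ Sg G := fun g hg => mem_Sg.2 (by rw [mem_Iv.1 hg])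

noncomputable def ind (S : Finset G) : G → ℂ := fun g => if g ∈ S then 1 else 0

theorem ind_congr {S T : Finset G} {g h : G} (e : g ∈ S ↔ h ∈ T) : ind S g = ind T h := by
  unfold ind
  by_cases hg : g ∈ S
  · rw [if_pos hg, if_pos (e.1 hg)]
  · rw [if_neg hg, if_neg (fun hh => hg (e.2 hh))]

theorem orderOf_conj' (c g : G) : orderOf (c * g * c⁻¹) = orderOf g := BlockThird.orderOf_conj _ _

theorem ind_cf_Sg : IsClassFunction G (ind (Sg G)) := by
  intro g h
  apply ind_congr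
  rw [mem_Sg, mem_Sg, orderOf_conj']

theorem ind_cf_Iv : IsClassFunction G (ind (Iv G)) := by
  intro g h
  apply ind_congr
  rw [mem_Iv, mem_Iv, orderOf_conj']

theorem ind_inv_Sg (g : G) : ind (Sg G) g⁻¹ = ind (Sg G) g := by
  apply ind_congr
  rw [mem_Sg, mem_Sg, orderOf_inv]

theorem ind_inv_Iv (g : G) : ind (Iv G) g⁻¹ = ind (Iv G) g := by
  apply ind_congr
  rw [mem_Iv, mem_Iv, orderOf_inv]

theorem sec_Sg : Sec 2 (ind (Sg G)) := by
  have key : ∀ g u : G, IsPPart 2 g u → (2 ∣ orderOf g ↔ u ≠ 1) := by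
    rintro g u ⟨s, hs, hc, ⟨k, hk⟩, hodd⟩
    have h1 : orderOf g = orderOf u * orderOf s := by
      rw [← hs]
      apply hc.orderOf_mul_eq_mul_orderOf_of_coprime
      rw [hk]
      exact Nat.Coprime.pow_left k ((Nat.prime_two.coprime_iff_not_dvd).2 hodd)
    constructor
    · rintro h rfl
      rw [h1, orderOf_one, one_mul] at h
      exact hodd h
    · intro hu
      rw [h1]
      apply Dvd.dvd.mul_right
      rw [hk]
      rcases Nat.eq_zero_or_pos k with rfl | hk0
      · exact absurd (orderOf_eq_one_iff.mp (by rw [hk]; rfl)) hu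
      · exact dvd_pow_self 2 hk0.ne'
  intro g h u v hu hv huv
  apply ind_congr
  rw [mem_Sg, mem_Sg, key g u hu, key h v hv]
  have : u = 1 ↔ v = 1 := by
    constructor
    · rintro rfl; exact isConj_one_right.mp huv
    · rintro rfl; exact isConj_one_left.mp huv
  rw [Ne, Ne, this]

theorem conv (hM : IsPModular 2 M) {F : G → ℂ} (hF : Sec 2 F) {f : G → ℂ} (hf : IsClassFunction G f)
    (hs : ∀ g, f g⁻¹ = f g) (w : G) :
    ∑ g, f g * F (g⁻¹ * w) = ∑ χ ∈ PB M G, cF F (triv G) χ *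
      ((∑ g, f g * (χ : G → ℂ) g) * (χ : G → ℂ) w / (χ : G → ℂ) 1) := by
  haveI := isPrime hM
  have h1 : ∀ x, F x = ∑ χ ∈ PB M G, cF F (triv G) χ * (χ : G → ℂ) x := by
    intro x
    have := expand hM hF (mem_PB.mpr triv_mem) x
    rw [this, coe_triv, mul_one]
  calc ∑ g, f g * F (g⁻¹ * w) = ∑ g, f g * ∑ χ ∈ PB M G, cF F (triv G) χ * (χ : G → ℂ) (g⁻¹ * w) := by
        refine Finset.sum_congr rfl fun g _ => ?_
        rw [h1 (g⁻¹ * w)]
    _ = ∑ χ ∈ PB M G, cF F (triv G) χ * ∑ g, f g * (χ : G → ℂ) (g⁻¹ * w) := by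
        simp only [Finset.mul_sum]
        rw [Finset.sum_comm]
        refine Finset.sum_congr rfl fun χ _ => Finset.sum_congr rfl fun g _ => ?_
        ring
    _ = _ := by
        refine Finset.sum_congr rfl fun χ _ => ?_
        congr 1
        rw [← StructConst.sum_mul_irr hf χ.2]
        rw [← Equiv.sum_comp (Equiv.inv G)]
        refine Finset.sum_congr rfl fun g _ => ?_
        simp only [Equiv.inv_apply, inv_inv]
        rw [hs, χ.2.isClassFunction.mul_comm]

theorem conv_ind (T S : Finset G) (w : G) :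
    ∑ g, ind T g * ind S (g⁻¹ * w) = ((T.filter (fun t => t⁻¹ * w ∈ S)).card : ℂ) := by
  unfold ind
  rw [Finset.card_filter, Nat.cast_sum]
  rw [← Finset.sum_filter_add_sum_filter_not Finset.univ (fun g => g ∈ T)]
  have h2 : ∑ x ∈ Finset.univ.filter (fun g => g ∉ T), (if x ∈ T then (1 : ℂ) else 0) * (if x⁻¹ * w ∈ S then 1 else 0) = 0 := by
    refine Finset.sum_eq_zero fun x hx => ?_
    rw [Finset.mem_filter] at hx
    rw [if_neg hx.2, zero_mul]
  rw [h2, add_zero]
  have h3 : Finset.univ.filter (fun g => g ∈ T) = T := by ext; simp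
  rw [h3]
  refine Finset.sum_congr rfl fun x hx => ?_
  rw [if_pos hx, one_mul]
  push_cast
  rfl

theorem sum_ind_mul (T : Finset G) (χ : G → ℂ) {d : ℂ} (h : ∀ t ∈ T, χ t = d) :
    ∑ g, ind T g * χ g = T.card * d := by
  unfold ind
  rw [← Finset.sum_filter_add_sum_filter_not Finset.univ (fun g => g ∈ T)]
  have h2 : ∑ x ∈ Finset.univ.filter (fun g => g ∉ T), (if x ∈ T then (1 : ℂ) else 0) * χ x = 0 := by
    refine Finset.sum_eq_zero fun x hx => ?_
    rw [Finset.mem_filter] at hx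
    rw [if_neg hx.2, zero_mul]
  rw [h2, add_zero]
  have h3 : Finset.univ.filter (fun g => g ∈ T) = T := by ext; simp
  rw [h3, Finset.sum_congr rfl (g := fun _ => d)]
  · rw [Finset.sum_const, nsmul_eq_mul]
  · intro x hx
    rw [if_pos hx, one_mul, h x hx]

section

variable (hM : IsPModular 2 M) {a : G}
  (hconst : ∀ χ ∈ PB M G, ∀ g : G, 2 ∣ orderOf g → (χ : G → ℂ) g = (χ : G → ℂ) a)

include hM hconst

/-- (C2) -/
theorem conv_eq (w : G) :
    (Sg G).card * ((Iv G).filter (fun t => t⁻¹ * w ∈ Sg G)).card =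
      (Iv G).card * ((Sg G).filter (fun s => s⁻¹ * w ∈ Sg G)).card := by
  have h1 := conv hM sec_Sg ind_cf_Sg ind_inv_Sg w
  have h2 := conv hM sec_Sg ind_cf_Iv ind_inv_Iv w
  rw [conv_ind] at h1 h2
  have h3 : ((Sg G).card : ℂ) * (((Iv G).filter (fun t => t⁻¹ * w ∈ Sg G)).card : ℂ) =
      ((Iv G).card : ℂ) * (((Sg G).filter (fun s => s⁻¹ * w ∈ Sg G)).card : ℂ) := by
    rw [h1, h2, Finset.mul_sum, Finset.mul_sum]
    refine Finset.sum_congr rfl fun χ hχ => ?_
    rw [sum_ind_mul (Sg G) (χ : G → ℂ) (d := (χ : G → ℂ) a) (fun t ht => hconst χ hχ t (mem_Sg.1 ht)),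
      sum_ind_mul (Iv G) (χ : G → ℂ) (d := (χ : G → ℂ) a) (fun t ht => hconst χ hχ t (mem_Sg.1 (Iv_sub ht)))]
    ring
  exact_mod_cast h3

/-- (C1) -/
theorem conv_const {w w' : G} (hw : 2 ∣ orderOf w) (hw' : 2 ∣ orderOf w') :
    ((Sg G).filter (fun s => s⁻¹ * w ∈ Sg G)).card = ((Sg G).filter (fun s => s⁻¹ * w' ∈ Sg G)).card := by
  have h1 := conv hM sec_Sg ind_cf_Sg ind_inv_Sg w
  have h2 := conv hM sec_Sg ind_cf_Sg ind_inv_Sg w'
  rw [conv_ind] at h1 h2
  have h3 : (((Sg G).filter (fun s => s⁻¹ * w ∈ Sg G)).card : ℂ) =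
      (((Sg G).filter (fun s => s⁻¹ * w' ∈ Sg G)).card : ℂ) := by
    rw [h1, h2]
    refine Finset.sum_congr rfl fun χ hχ => ?_
    rw [hconst χ hχ w hw, hconst χ hχ w' hw']
  exact_mod_cast h3

end

end Cfsg.Agent.Lib.H70AbA
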