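import Mathlib
import Cfsg.Agent.Lib.H70AbA

/-!
# Coset counting of 2-singular elements (helper70)
-/

set_option autoImplicit false
set_option maxHeartbeats 400000

open Subgroup

namespace Cfsg.Agent.Lib.H70AbB

open Cfsg Cfsg.Agent.Lib.H70AbA
open scoped Classical

universe u
variable {G : Type u} [Group G] [Fintype G]

structure CC (H Y X : Subgroup G) (r e : ℕ) : Prop where
  hXY : X ≤ Y
  hYH : Y ≤ H
  cY : Nat.card Y = Nat.card X * r
  cH : Nat.card H = Nat.card Y * e
  hr : 2 ≤ r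
  sing : ∀ g ∈ H, (2 ∣ orderOf g ↔ (g ∈ Y ∧ g ∉ X))
  ex : ∀ g : G, 2 ∣ orderOf g → ∃ y, y⁻¹ * g * y ∈ H
  un : ∀ g y : G, 2 ∣ orderOf g → g ∈ H → y⁻¹ * g * y ∈ H → y ∈ H

variable {H Y X : Subgroup G} {r e : ℕ}

theorem card_filter_mem (K : Subgroup G) : (Finset.univ.filter (fun g : G => g ∈ K)).card = Nat.card K := by
  rw [Nat.card_eq_fintype_card, Fintype.card_subtype]

theorem conj_Sg {g : G} (c : G) (h : 2 ∣ orderOf g) : 2 ∣ orderOf (c⁻¹ * g * c) := by
  have := orderOf_conj' c⁻¹ g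
  rw [inv_inv] at this
  rw [this]; exact h

theorem conj_Sg' {g : G} (c : G) : 2 ∣ orderOf (c⁻¹ * g * c) ↔ 2 ∣ orderOf g := by
  have := orderOf_conj' c⁻¹ g
  rw [inv_inv] at this
  rw [this]

/-- the 2-singular elements of `H` -/
theorem CC.card_SH (h : CC H Y X r e) : ((Sg G).filter (fun g => g ∈ H)).card = (r - 1) * Nat.card X := by
  have h1 : (Sg G).filter (fun g => g ∈ H) =
      (Finset.univ.filter (fun g : G => g ∈ Y)) \ (Finset.univ.filter (fun g : G => g ∈ X)) := by
    ext g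
    simp only [Finset.mem_filter, Finset.mem_sdiff, mem_Sg, Finset.mem_univ, true_and]
    constructor
    · rintro ⟨h1, h2⟩
      exact (h.sing g h2).1 h1
    · rintro ⟨h1, h2⟩
      exact ⟨(h.sing g (h.hYH h1)).2 ⟨h1, h2⟩, h.hYH h1⟩
  rw [h1, Finset.card_sdiff_of_subset, card_filter_mem, card_filter_mem, h.cY, Nat.sub_mul, mul_comm r, one_mul]
  intro g hg
  simp only [Finset.mem_filter, Finset.mem_univ, true_and] at hg ⊢
  exact h.hXY hg

/-- the number of 2-singular elements -/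
theorem CC.card_S (h : CC H Y X r e) : (Sg G).card = H.index * ((r - 1) * Nat.card X) := by
  choose f hf using h.ex
  let F : G → G ⧸ H := fun g => if hg : 2 ∣ orderOf g then QuotientGroup.mk (f g hg) else QuotientGroup.mk 1
  have hF : ∀ g, 2 ∣ orderOf g → ∀ c : G ⧸ H, F g = c ↔ c.out⁻¹ * g * c.out ∈ H := by
    intro g hg c
    have h1 : F g = QuotientGroup.mk (f g hg) := by
      show (if hg : 2 ∣ orderOf g then _ else _) = _
      rw [dif_pos hg]
    rw [h1]
    constructor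
    · intro h2
      rw [← QuotientGroup.out_eq' c, QuotientGroup.eq] at h2
      have e1 : c.out⁻¹ * g * c.out = ((f g hg)⁻¹ * c.out)⁻¹ * ((f g hg)⁻¹ * g * f g hg) * ((f g hg)⁻¹ * c.out) := by group
      rw [e1]
      exact H.mul_mem (H.mul_mem (H.inv_mem h2) (hf g hg)) h2
    · intro h2
      rw [← QuotientGroup.out_eq' c, QuotientGroup.eq]
      refine h.un _ _ (conj_Sg (f g hg) hg) (hf g hg) ?_
      have e1 : ((f g hg)⁻¹ * c.out)⁻¹ * ((f g hg)⁻¹ * g * f g hg) * ((f g hg)⁻¹ * c.out) = c.out⁻¹ * g * c.out := by group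
      rw [e1]; exact h2
  rw [Finset.card_eq_sum_card_fiberwise (f := F) (t := Finset.univ) (fun g _ => Finset.mem_univ _)]
  rw [Finset.sum_congr rfl (g := fun _ => (r - 1) * Nat.card X)]
  · rw [Finset.sum_const, smul_eq_mul, Finset.card_univ, ← Nat.card_eq_fintype_card, ← Subgroup.index_eq_card]
  · intro c _
    rw [← h.card_SH]
    refine Finset.card_bij (fun g _ => c.out⁻¹ * g * c.out) ?_ ?_ ?_
    · intro g hg
      rw [Finset.mem_filter, mem_Sg] at hg
      rw [Finset.mem_filter, mem_Sg]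
      exact ⟨conj_Sg _ hg.1, (hF g hg.1 c).1 hg.2⟩
    · intro g _ g' _ hgg
      exact mul_left_cancel (mul_right_cancel hgg)
    · intro b hb
      rw [Finset.mem_filter, mem_Sg] at hb
      have e1 : c.out⁻¹ * (c.out * b * c.out⁻¹) * c.out = b := by group
      have h2 : 2 ∣ orderOf (c.out * b * c.out⁻¹) := by rw [orderOf_conj']; exact hb.1
      refine ⟨c.out * b * c.out⁻¹, ?_, e1⟩
      rw [Finset.mem_filter, mem_Sg]
      exact ⟨h2, (hF _ h2 c).2 (by rw [e1]; exact hb.2)⟩

/-- (3) -/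
theorem CC.step3 (h : CC H Y X r e)
    (hc : ∀ w, w ∈ Sg G → ((Sg G).filter (fun s => s⁻¹ * w ∈ Sg G)).card = (r - 2) * Nat.card X)
    {w s : G} (hw : 2 ∣ orderOf w) (hwH : w ∈ H) (hs : 2 ∣ orderOf s) (hsw : 2 ∣ orderOf (s⁻¹ * w)) : s ∈ H := by
  obtain ⟨hwY, hwX⟩ := (h.sing w hwH).1 hw
  set A : Finset G := ((Finset.univ.filter (fun g : G => g ∈ Y)) \ (Finset.univ.filter (fun g : G => g ∈ X))) \
    (Finset.univ.filter (fun g : G => g⁻¹ * w ∈ X)) with hA
  have hcwX : (Finset.univ.filter (fun g : G => g⁻¹ * w ∈ X)).card = Nat.card X := by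
    rw [← card_filter_mem]
    refine Finset.card_bij (fun g _ => g⁻¹ * w) ?_ ?_ ?_
    · intro g hg
      simpa using hg
    · intro g _ g' _ hgg
      exact inv_injective (mul_right_cancel hgg)
    · intro b hb
      refine ⟨w * b⁻¹, ?_, by group⟩
      simp only [Finset.mem_filter, Finset.mem_univ, true_and] at hb ⊢
      have : (w * b⁻¹)⁻¹ * w = b := by group
      rw [this]; exact hb
  have hcA : A.card = (r - 2) * Nat.card X := by
    rw [hA, Finset.card_sdiff_of_subset, Finset.card_sdiff_of_subset, card_filter_mem, card_filter_mem, hcwX, h.cY, Nat.sub_mul,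
      mul_comm r, Nat.sub_sub]
    · congr 1; ring
    · intro g hg
      simp only [Finset.mem_filter, Finset.mem_univ, true_and] at hg ⊢
      exact h.hXY hg
    · intro g hg
      simp only [Finset.mem_sdiff, Finset.mem_filter, Finset.mem_univ, true_and] at hg ⊢
      have h1 : g ∈ Y := by
        have : g = w * (g⁻¹ * w)⁻¹ := by group
        rw [this]; exact Y.mul_mem hwY (Y.inv_mem (h.hXY hg))
      refine ⟨h1, fun h2 => hwX ?_⟩
      have : w = g * (g⁻¹ * w) := by group
      rw [this]; exact X.mul_mem h2 hg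
  have hsub : A ⊆ (Sg G).filter (fun s => s⁻¹ * w ∈ Sg G) := by
    intro g hg
    rw [hA] at hg
    simp only [Finset.mem_sdiff, Finset.mem_filter, Finset.mem_univ, true_and] at hg
    rw [Finset.mem_filter, mem_Sg, mem_Sg]
    have h2 : g⁻¹ * w ∈ Y := Y.mul_mem (Y.inv_mem hg.1.1) hwY
    exact ⟨(h.sing g (h.hYH hg.1.1)).2 hg.1, (h.sing _ (h.hYH h2)).2 ⟨h2, hg.2⟩⟩
  have heq := Finset.eq_of_subset_of_card_le hsub (by rw [hc w (mem_Sg.2 hw), hcA])
  have hs' : s ∈ A := by
    rw [heq, Finset.mem_filter, mem_Sg, mem_Sg]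
    exact ⟨hs, hsw⟩
  rw [hA] at hs'
  simp only [Finset.mem_sdiff, Finset.mem_filter, Finset.mem_univ, true_and] at hs'
  exact h.hYH hs'.1.1

/-- (4) -/
theorem CC.step4 (h : CC H Y X r e)
    (hc : ∀ w, w ∈ Sg G → ((Sg G).filter (fun s => s⁻¹ * w ∈ Sg G)).card = (r - 2) * Nat.card X)
    {g b : G} (hg : 2 ∣ orderOf g) (hgH : g ∉ H) (hb : 2 ∣ orderOf b) (hbH : b ∈ H) : ¬ 2 ∣ orderOf (g * b) := by
  intro hw
  obtain ⟨y, hy⟩ := h.ex _ hw
  have e1 : (y⁻¹ * g * y)⁻¹ * (y⁻¹ * (g * b) * y) = y⁻¹ * b * y := by group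
  have h1 : y⁻¹ * g * y ∈ H := by
    refine h.step3 hc (conj_Sg y hw) hy (conj_Sg y hg) ?_
    rw [e1]; exact conj_Sg y hb
  have h2 : y⁻¹ * b * y ∈ H := by
    rw [← e1]; exact H.mul_mem (H.inv_mem h1) hy
  have h3 : y ∈ H := h.un b y hb hbH h2
  apply hgH
  have : g = y * (y⁻¹ * g * y) * y⁻¹ := by group
  rw [this]
  exact H.mul_mem (H.mul_mem h3 h1) (H.inv_mem h3)

theorem CC.fiber_le (h : CC H Y X r e)
    (hc : ∀ w, w ∈ Sg G → ((Sg G).filter (fun s => s⁻¹ * w ∈ Sg G)).card = (r - 2) * Nat.card X)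
    {s : G} (hs : 2 ∣ orderOf s) (hsH : s ∉ H) {s' : G} (hs' : 2 ∣ orderOf s') (hb : s⁻¹ * s' ∈ Y) : s⁻¹ * s' ∈ X := by
  by_contra hX
  have h1 : 2 ∣ orderOf (s⁻¹ * s') := (h.sing _ (h.hYH hb)).2 ⟨hb, hX⟩
  have h2 := h.step4 hc hs hsH h1 (h.hYH hb)
  rw [mul_inv_cancel_left] at h2
  exact h2 hs'

/-- the cosets outside `H` -/
noncomputable def T (H Y : Subgroup G) : Finset (G ⧸ Y) := Finset.univ.filter (fun c => c.out ∉ H)

theorem mk_mem_T {H Y : Subgroup G} (hYH : Y ≤ H) {g : G} : (QuotientGroup.mk g : G ⧸ Y) ∈ T H Y ↔ g ∉ H := by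
  unfold T
  simp only [Finset.mem_filter, Finset.mem_univ, true_and]
  have h1 : (QuotientGroup.mk g : G ⧸ Y).out⁻¹ * g ∈ H := by
    apply hYH
    rw [← QuotientGroup.eq, QuotientGroup.out_eq']
  rw [not_iff_not]
  constructor
  · intro h
    have : g = (QuotientGroup.mk g : G ⧸ Y).out * ((QuotientGroup.mk g : G ⧸ Y).out⁻¹ * g) := by group
    rw [this]; exact H.mul_mem h h1
  · intro h
    have : (QuotientGroup.mk g : G ⧸ Y).out = g * ((QuotientGroup.mk g : G ⧸ Y).out⁻¹ * g)⁻¹ := by group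
    rw [this]; exact H.mul_mem h (H.inv_mem h1)

theorem CC.card_T (h : CC H Y X r e) : (T H Y).card = (H.index - 1) * e := by
  have h1 : (Finset.univ.filter (fun g : G => g ∉ H)).card = (T H Y).card * Nat.card Y := by
    rw [Finset.card_eq_sum_card_fiberwise (f := fun g => (QuotientGroup.mk g : G ⧸ Y)) (t := T H Y)]
    · rw [Finset.sum_congr rfl (g := fun _ => Nat.card Y)]
      · rw [Finset.sum_const, smul_eq_mul]
      · intro c hc
        rw [← card_filter_mem Y]
        refine Finset.card_bij (fun g _ => c.out⁻¹ * g) ?_ ?_ ?_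
        · intro g hg
          rw [Finset.mem_filter] at hg
          simp only [Finset.mem_filter, Finset.mem_univ, true_and]
          rw [← QuotientGroup.eq, QuotientGroup.out_eq', hg.2]
        · intro g _ g' _ hgg
          exact mul_left_cancel hgg
        · intro b hb
          simp only [Finset.mem_filter, Finset.mem_univ, true_and] at hb
          have e2 : (QuotientGroup.mk (c.out * b) : G ⧸ Y) = c := by
            conv_rhs => rw [← QuotientGroup.out_eq' c]
            rw [QuotientGroup.eq]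
            have : (c.out * b)⁻¹ * c.out = b⁻¹ := by group
            rw [this]; exact Y.inv_mem hb
          refine ⟨c.out * b, ?_, by group⟩
          simp only [Finset.mem_filter, Finset.mem_univ, true_and]
          refine ⟨?_, e2⟩
          rw [← mk_mem_T h.hYH, e2]; exact hc
    · intro g hg
      simp only [Finset.coe_filter, Finset.mem_univ, true_and, Set.mem_setOf_eq] at hg
      exact (mk_mem_T h.hYH).2 hg
  have h2 : (Finset.univ.filter (fun g : G => g ∉ H)).card + Nat.card H = Nat.card G := by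
    rw [← card_filter_mem H, Nat.card_eq_fintype_card, ← Finset.card_univ, add_comm]
    exact Finset.card_filter_add_card_filter_not _
  have h3 := H.card_mul_index
  have hY : 0 < Nat.card Y := Nat.card_pos
  have hi : 0 < H.index := Nat.pos_of_ne_zero H.index_ne_zero_of_finite
  have h4 : (T H Y).card * Nat.card Y + Nat.card Y * e = Nat.card Y * e * H.index := by
    rw [← h1, ← h.cH, h2, h3]
  obtain ⟨n, hn⟩ : ∃ n, H.index = n + 1 := ⟨H.index - 1, by omega⟩
  rw [hn] at h4 ⊢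
  have h5 : Nat.card Y * ((T H Y).card) = Nat.card Y * (n * e) := by nlinarith [h4]
  have := Nat.eq_of_mul_eq_mul_left hY h5
  rw [this, Nat.add_sub_cancel]

theorem CC.card_SnH (h : CC H Y X r e) :
    ((Sg G).filter (fun g => g ∉ H)).card = (H.index - 1) * ((r - 1) * Nat.card X) := by
  have h1 : ((Sg G).filter (fun g => g ∈ H)).card + ((Sg G).filter (fun g => g ∉ H)).card = (Sg G).card :=
    Finset.card_filter_add_card_filter_not _
  rw [h.card_SH, h.card_S] at h1
  have hi : 0 < H.index := Nat.pos_of_ne_zero H.index_ne_zero_of_finite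
  obtain ⟨n, hn⟩ : ∃ n, H.index = n + 1 := ⟨H.index - 1, by omega⟩
  rw [hn] at h1 ⊢
  rw [Nat.add_sub_cancel]
  nlinarith

/-- the fibre over a coset outside `H` -/
noncomputable def fib (Y : Subgroup G) (c : G ⧸ Y) : Finset G :=
  (Sg G).filter (fun s => (QuotientGroup.mk s : G ⧸ Y) = c)

theorem CC.sum_fib (h : CC H Y X r e) :
    ∑ c ∈ T H Y, (fib Y c).card = (H.index - 1) * ((r - 1) * Nat.card X) := by
  rw [← h.card_SnH]
  rw [Finset.card_eq_sum_card_fiberwise (f := fun g => (QuotientGroup.mk g : G ⧸ Y)) (t := T H Y)]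
  · refine Finset.sum_congr rfl fun c hc => ?_
    congr 1
    ext s
    unfold fib
    simp only [Finset.mem_filter]
    constructor
    · rintro ⟨h1, h2⟩
      refine ⟨⟨h1, ?_⟩, h2⟩
      rw [← mk_mem_T h.hYH, h2]; exact hc
    · rintro ⟨⟨h1, _⟩, h2⟩
      exact ⟨h1, h2⟩
  · intro g hg
    simp only [Finset.coe_filter, Set.mem_setOf_eq] at hg
    exact (mk_mem_T h.hYH).2 hg.2

theorem CC.card_fib_le (h : CC H Y X r e)
    (hc : ∀ w, w ∈ Sg G → ((Sg G).filter (fun s => s⁻¹ * w ∈ Sg G)).card = (r - 2) * Nat.card X)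
    {c : G ⧸ Y} (hcT : c ∈ T H Y) : (fib Y c).card ≤ Nat.card X := by
  rcases (fib Y c).eq_empty_or_nonempty with h0 | ⟨s, hs⟩
  · rw [h0]; simp
  unfold fib at hs
  rw [Finset.mem_filter, mem_Sg] at hs
  have hsH : s ∉ H := by rw [← mk_mem_T h.hYH, hs.2]; exact hcT
  rw [← card_filter_mem X]
  refine Finset.card_le_card_of_injOn (fun s' => s⁻¹ * s') ?_ (fun a _ b _ hab => mul_left_cancel hab)
  intro s' hs'
  have hs'' : s' ∈ fib Y c := hs'
  unfold fib at hs''
  rw [Finset.mem_filter, mem_Sg] at hs''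
  simp only [Finset.coe_filter, Finset.mem_univ, true_and, Set.mem_setOf_eq]
  refine h.fiber_le hc hs.1 hsH hs''.1 ?_
  rw [← QuotientGroup.eq, hs.2, hs''.2]

/-- the inequality -/
theorem CC.le (h : CC H Y X r e)
    (hc : ∀ w, w ∈ Sg G → ((Sg G).filter (fun s => s⁻¹ * w ∈ Sg G)).card = (r - 2) * Nat.card X)
    (hne : H ≠ ⊤) : r - 1 ≤ e := by
  have h1 := h.sum_fib
  have h2 : ∑ c ∈ T H Y, (fib Y c).card ≤ (T H Y).card * Nat.card X := by
    rw [← smul_eq_mul]
    exact Finset.sum_le_card_nsmul _ _ _ (fun c hcT => h.card_fib_le hc hcT)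
  rw [h1, h.card_T, mul_assoc] at h2
  have hi : 1 < H.index := by
    have h0 := H.index_ne_zero_of_finite
    have h1 : H.index ≠ 1 := fun h => hne (Subgroup.index_eq_one.mp h)
    omega
  have h3 : 0 < H.index - 1 := by omega
  have h4 := Nat.le_of_mul_le_mul_left h2 h3
  exact Nat.le_of_mul_le_mul_right h4 Nat.card_pos

/-- equality in every coset -/
theorem CC.card_fib (h : CC H Y X r (r - 1))
    (hc : ∀ w, w ∈ Sg G → ((Sg G).filter (fun s => s⁻¹ * w ∈ Sg G)).card = (r - 2) * Nat.card X)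
    {c : G ⧸ Y} (hcT : c ∈ T H Y) : (fib Y c).card = Nat.card X := by
  have h1 := h.sum_fib
  have h2 : ∑ c ∈ T H Y, (fib Y c).card = ∑ c ∈ T H Y, Nat.card X := by
    rw [h1, Finset.sum_const, smul_eq_mul, h.card_T]
    ring
  exact (Finset.sum_eq_sum_iff_of_le (fun c hcT => h.card_fib_le hc hcT)).1 h2 c hcT

/-- (6) -/
theorem CC.mul_mem (h : CC H Y X r (r - 1))
    (hc : ∀ w, w ∈ Sg G → ((Sg G).filter (fun s => s⁻¹ * w ∈ Sg G)).card = (r - 2) * Nat.card X)
    {s x : G} (hs : 2 ∣ orderOf s) (hx : x ∈ X) : 2 ∣ orderOf (s * x) := by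
  by_cases hsH : s ∈ H
  · obtain ⟨h1, h2⟩ := (h.sing s hsH).1 hs
    have h3 : s * x ∈ Y := Y.mul_mem h1 (h.hXY hx)
    refine (h.sing _ (h.hYH h3)).2 ⟨h3, fun h4 => h2 ?_⟩
    have : s = s * x * x⁻¹ := by group
    rw [this]; exact X.mul_mem h4 (X.inv_mem hx)
  · set c : G ⧸ Y := QuotientGroup.mk s with hcdef
    have hcT : c ∈ T H Y := (mk_mem_T h.hYH).2 hsH
    have h1 := h.card_fib hc hcT
    rw [← card_filter_mem X] at h1
    have hmaps : ∀ s' ∈ fib Y c, (fun s' => s⁻¹ * s') s' ∈ Finset.univ.filter (fun g : G => g ∈ X) := by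
      intro s' hs'
      unfold fib at hs'
      rw [Finset.mem_filter, mem_Sg] at hs'
      simp only [Finset.mem_filter, Finset.mem_univ, true_and]
      refine h.fiber_le hc hs hsH hs'.1 ?_
      rw [← QuotientGroup.eq, hs'.2]
    have hsurj := Finset.surj_on_of_inj_on_of_card_le (s := fib Y c) (t := Finset.univ.filter (fun g : G => g ∈ X))
      (fun s' _ => s⁻¹ * s') hmaps (fun a b _ _ hab => mul_left_cancel hab) (by rw [h1]) x (by simpa using hx)
    obtain ⟨s', hs', hxs⟩ := hsurj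
    unfold fib at hs'
    rw [Finset.mem_filter, mem_Sg] at hs'
    rw [hxs, mul_inv_cancel_left]
    exact hs'.1

/-- the normal closure of `X` has odd order -/
theorem CC.odd_normalClosure (h : CC H Y X r (r - 1))
    (hc : ∀ w, w ∈ Sg G → ((Sg G).filter (fun s => s⁻¹ * w ∈ Sg G)).card = (r - 2) * Nat.card X) :
    ¬ 2 ∣ Nat.card (Subgroup.normalClosure (X : Set G)) := by
  intro hd
  haveI : Fact (Nat.Prime 2) := ⟨Nat.prime_two⟩
  obtain ⟨t, ht⟩ := exists_prime_orderOf_dvd_card' 2 hd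
  have ht' : orderOf (t : G) = 2 := by rw [Subgroup.orderOf_coe]; exact ht
  have key : ∀ n ∈ Subgroup.normalClosure (X : Set G), ∀ s : G, 2 ∣ orderOf s → 2 ∣ orderOf (s * n) := by
    intro n hn
    unfold Subgroup.normalClosure at hn
    induction hn using Subgroup.closure_induction with
    | mem y hy =>
      intro s hs
      rw [Group.mem_conjugatesOfSet_iff] at hy
      obtain ⟨x, hx, hxy⟩ := hy
      obtain ⟨c, rfl⟩ := isConj_iff.mp hxy
      have h1 := h.mul_mem hc (s := c⁻¹ * s * c) (x := x) (conj_Sg c hs) hx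
      have e1 : s * (c * x * c⁻¹) = c * (c⁻¹ * s * c * x) * c⁻¹ := by group
      rw [e1, orderOf_conj']
      exact h1
    | one => intro s hs; rw [mul_one]; exact hs
    | mul a b _ _ iha ihb => intro s hs; rw [← mul_assoc]; exact ihb _ (iha s hs)
    | inv a ha iha =>
      intro s hs
      -- finite order: `a⁻¹ = a ^ k`
      have h2 : ∀ k : ℕ, ∀ s : G, 2 ∣ orderOf s → 2 ∣ orderOf (s * a ^ k) := by
        intro k
        induction k with
        | zero => intro s hs; rw [pow_zero, mul_one]; exact hs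
        | succ k ih => intro s hs; rw [pow_succ, ← mul_assoc]; exact iha _ (ih s hs)
      have h3 : a⁻¹ = a ^ (orderOf a - 1) := by
        have h4 : a * a ^ (orderOf a - 1) = 1 := by
          rw [← pow_succ', Nat.sub_add_cancel (orderOf_pos a), pow_orderOf_eq_one]
        exact (eq_inv_of_mul_eq_one_right h4).symm
      rw [h3]; exact h2 _ s hs
  have h1 := key (t : G)⁻¹ ((Subgroup.normalClosure (X : Set G)).inv_mem t.2) t (by rw [ht'])
  rw [mul_inv_cancel, orderOf_one] at h1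
  omega

end Cfsg.Agent.Lib.H70AbB
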