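import Mathlib
import Cfsg.Agent.Lib.H70AbB

/-!
# The structure constant of the set of 2-singular elements (helper70)
-/

set_option autoImplicit false
set_option maxHeartbeats 400000

open Subgroup

namespace Cfsg.Agent.Lib.H70AbC

open Cfsg Cfsg.Agent.Lib.H70AbA Cfsg.Agent.Lib.H70AbB Cfsg.Agent.Lib.H52Dih5
open scoped Classical

universe u
variable {G : Type u} [Group G] [Fintype G]
variable {H Y X : Subgroup G} {r e : ℕ}

/-- conjugation invariant sets of 2-singular elements -/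
theorem card_conj (h : CC H Y X r e) (Z : Finset G) (hZ : ∀ g ∈ Z, 2 ∣ orderOf g)
    (hZc : ∀ g c : G, c⁻¹ * g * c ∈ Z ↔ g ∈ Z) : Z.card = H.index * (Z.filter (fun g => g ∈ H)).card := by
  choose f hf using h.ex
  let F : G → G ⧸ H := fun g => if hg : 2 ∣ orderOf g then QuotientGroup.mk (f g hg) else QuotientGroup.mk 1
  have hF : ∀ g, 2 ∣ orderOf g → ∀ c : G ⧸ H, F g = c ↔ c.out⁻¹ * g * c.out ∈ H := by
    intro g hg c
    have h1 : F g = QuotientGroup.mk (f g hg) := by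
      show (if hg : 2 ∣ orderOf g then _ else _) = _
      rw [dif_pos hg]
    rw [h1]
    constructor
    · intro h2
      rw [← QuotientGroup.out_eq' c, QuotientGroup.eq] at h2
      have e1 : c.out⁻¹ * g * c.out = ((f g hg)⁻¹ * c.out)⁻¹ * ((f g hg)⁻¹ * g * f g hg) * ((f g hg)⁻¹ * c.out) := by group
      rw [e1]
      exact H.mul_mem (H.mul_mem (H.inv_mem h2) (hf g hg)) h2
    · intro h2
      rw [← QuotientGroup.out_eq' c, QuotientGroup.eq]
      refine h.un _ _ (conj_Sg (f g hg) hg) (hf g hg) ?_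
      have e1 : ((f g hg)⁻¹ * c.out)⁻¹ * ((f g hg)⁻¹ * g * f g hg) * ((f g hg)⁻¹ * c.out) = c.out⁻¹ * g * c.out := by group
      rw [e1]; exact h2
  rw [Finset.card_eq_sum_card_fiberwise (f := F) (t := Finset.univ) (fun g _ => Finset.mem_univ _)]
  rw [Finset.sum_congr rfl (g := fun _ => (Z.filter (fun g => g ∈ H)).card)]
  · rw [Finset.sum_const, smul_eq_mul, Finset.card_univ, ← Nat.card_eq_fintype_card, ← Subgroup.index_eq_card]
  · intro c _
    refine Finset.card_bij (fun g _ => c.out⁻¹ * g * c.out) ?_ ?_ ?_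
    · intro g hg
      rw [Finset.mem_filter] at hg
      rw [Finset.mem_filter]
      exact ⟨(hZc g _).2 hg.1, (hF g (hZ g hg.1) c).1 hg.2⟩
    · intro g _ g' _ hgg
      exact mul_left_cancel (mul_right_cancel hgg)
    · intro b hb
      rw [Finset.mem_filter] at hb
      have e1 : c.out⁻¹ * (c.out * b * c.out⁻¹) * c.out = b := by group
      have h2 : c.out * b * c.out⁻¹ ∈ Z := by rw [← hZc _ c.out, e1]; exact hb.1
      refine ⟨c.out * b * c.out⁻¹, ?_, e1⟩
      rw [Finset.mem_filter]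
      exact ⟨h2, (hF _ (hZ _ h2) c).2 (by rw [e1]; exact hb.2)⟩

/-- two involutions whose product has even order -/
theorem dihedral_mem (h : CC H Y X r e) {a t : G} (ha : orderOf a = 2) (haH : a ∈ H) (ht : orderOf t = 2)
    (hta : 2 ∣ orderOf (t⁻¹ * a)) : t ∈ H := by
  have ha2 : a * a = 1 := by rw [← sq, ← ha, pow_orderOf_eq_one]
  have ht2 : t * t = 1 := by rw [← sq, ← ht, pow_orderOf_eq_one]
  have hai : a⁻¹ = a := inv_eq_of_mul_eq_one_left ha2
  have hti : t⁻¹ = t := inv_eq_of_mul_eq_one_left ht2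
  rw [hti] at hta
  obtain ⟨m, hm⟩ := hta
  have hm0 : 0 < m := by
    have := orderOf_pos (t * a)
    omega
  set z := (t * a) ^ m with hz
  have hzo : orderOf z = 2 := by
    rw [hz, orderOf_pow' _ hm0.ne', hm, Nat.gcd_mul_left_left, Nat.mul_div_cancel _ hm0]
  have hz2 : z * z = 1 := by rw [← sq, ← hzo, pow_orderOf_eq_one]
  have hzi : z⁻¹ = z := inv_eq_of_mul_eq_one_left hz2
  -- `a` inverts `t a`
  have h1 : a * (t * a) * a⁻¹ = (t * a)⁻¹ := by
    rw [mul_inv_rev, hai, hti]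
    calc a * (t * a) * a = a * t * (a * a) := by group
      _ = a * t := by rw [ha2, mul_one]
  have h2 : a * z * a⁻¹ = z := by
    rw [hz, ← conj_pow, h1, inv_pow]
    exact hzi
  have h3 : t * (t * a) * t⁻¹ = (t * a)⁻¹ := by
    rw [mul_inv_rev, hai, hti]
    calc t * (t * a) * t = (t * t) * a * t := by group
      _ = a * t := by rw [ht2, one_mul]
  have h4 : t * z * t⁻¹ = z := by
    rw [hz, ← conj_pow, h3, inv_pow]
    exact hzi
  have h5 : z ∈ H := by
    refine h.un a z (by rw [ha]) haH ?_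
    have : z⁻¹ * a * z = a := by
      have h6 : a * z = z * a := by
        calc a * z = a * z * a⁻¹ * a := by group
          _ = z * a := by rw [h2]
      rw [mul_assoc, h6, inv_mul_cancel_left]
    rw [this]; exact haH
  refine h.un z t (by rw [hzo]) h5 ?_
  have : t⁻¹ * z * t = z := by
    have h6 : t * z = z * t := by
      calc t * z = t * z * t⁻¹ * t := by group
        _ = z * t := by rw [h4]
    rw [mul_assoc, ← h6, inv_mul_cancel_left]
  rw [this]; exact h5

variable {M : Ideal AlgInt}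

theorem count (h : CC H Y X r e) {a : G} (ha : orderOf a = 2) {P : Subgroup G} (hPY : P ≤ Y) (hPX : P ⊓ X = ⊥)
    (hPc : Nat.card P = r) (haP : a ∈ P) (htr : ∀ b ∈ P, b ≠ 1 → ∃ g ∈ H, g * a * g⁻¹ = b)
    (hXn : ∀ g ∈ H, ∀ x ∈ X, g * x * g⁻¹ ∈ X)
    (h1 : (Sg G).card * ((Iv G).filter (fun t => t⁻¹ * a ∈ Sg G)).card =
      (Iv G).card * ((Sg G).filter (fun s => s⁻¹ * a ∈ Sg G)).card) :
    ((Sg G).filter (fun s => s⁻¹ * a ∈ Sg G)).card = (r - 2) * Nat.card X := by
  have haH : a ∈ H := h.hYH (hPY haP)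
  -- decomposition of `Y`
  have hdec : ∀ y ∈ Y, ∃ b ∈ P, b⁻¹ * y ∈ X := by
    have hinj : Function.Injective (fun q : P × X => (⟨(q.1 : G) * (q.2 : G),
        Y.mul_mem (hPY q.1.2) (h.hXY q.2.2)⟩ : Y)) := by
      rintro ⟨v, w⟩ ⟨v', w'⟩ hvw
      have h1 : (v : G) * w = v' * w' := congrArg Subtype.val hvw
      have h2 : (v' : G)⁻¹ * v = w' * (w : G)⁻¹ := by
        rw [inv_mul_eq_iff_eq_mul, ← mul_assoc, ← h1, mul_inv_cancel_right]
      have h3 : (v' : G)⁻¹ * v ∈ P ⊓ X :=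
        ⟨P.mul_mem (P.inv_mem v'.2) v.2, by rw [h2]; exact X.mul_mem w'.2 (X.inv_mem w.2)⟩
      have h4 := h3
      rw [hPX, mem_bot] at h3
      rw [h2, hPX, mem_bot] at h4
      have e1 : v = v' := Subtype.ext (inv_mul_eq_one.mp h3).symm
      have e2 : w = w' := Subtype.ext (mul_inv_eq_one.mp h4).symm
      rw [e1, e2]
    have hbij := (Nat.bijective_iff_injective_and_card _).mpr ⟨hinj, by
      rw [Nat.card_prod, hPc, h.cY, mul_comm]⟩
    intro x hx
    obtain ⟨⟨v, w⟩, hvw⟩ := hbij.2 ⟨x, hx⟩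
    refine ⟨v, v.2, ?_⟩
    have : (v : G) * w = x := congrArg Subtype.val hvw
    rw [← this, inv_mul_cancel_left]
    exact w.2
  have huni : ∀ b ∈ P, ∀ b' ∈ P, ∀ y, b⁻¹ * y ∈ X → b'⁻¹ * y ∈ X → b = b' := by
    intro b hb b' hb' y h1 h2
    have h3 : b'⁻¹ * b ∈ P ⊓ X := by
      refine ⟨P.mul_mem (P.inv_mem hb') hb, ?_⟩
      have : b'⁻¹ * b = (b'⁻¹ * y) * (b⁻¹ * y)⁻¹ := by group
      rw [this]; exact X.mul_mem h2 (X.inv_mem h1)
    rw [hPX, mem_bot] at h3
    exact (inv_mul_eq_one.mp h3).symm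
  set i := ((Iv G).filter (fun t => a⁻¹ * t ∈ X)).card with hi
  set IH := ((Iv G).filter (fun t => t ∈ H)).card with hIH
  -- `i_b = i`
  have hib : ∀ b ∈ P, b ≠ 1 → ((Iv G).filter (fun t => b⁻¹ * t ∈ X)).card = i := by
    intro b hb hb1
    obtain ⟨g, hg, rfl⟩ := htr b hb hb1
    rw [hi]
    refine Finset.card_bij (fun t _ => g⁻¹ * t * g) ?_ ?_ ?_
    · intro t ht
      rw [Finset.mem_filter, mem_Iv] at ht
      rw [Finset.mem_filter, mem_Iv]
      refine ⟨?_, ?_⟩
      · have := orderOf_conj' g⁻¹ t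
        rw [inv_inv] at this
        rw [this]; exact ht.1
      · have h2 := hXn g⁻¹ (H.inv_mem hg) _ ht.2
        have e1 : g⁻¹ * ((g * a * g⁻¹)⁻¹ * t) * g⁻¹⁻¹ = a⁻¹ * (g⁻¹ * t * g) := by group
        rw [← e1]; exact h2
    · intro t _ t' _ htt
      exact mul_left_cancel (mul_right_cancel htt)
    · intro t ht
      rw [Finset.mem_filter, mem_Iv] at ht
      refine ⟨g * t * g⁻¹, ?_, by group⟩
      rw [Finset.mem_filter, mem_Iv]
      refine ⟨by rw [orderOf_conj']; exact ht.1, ?_⟩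
      have h2 := hXn g hg _ ht.2
      have e1 : g * (a⁻¹ * t) * g⁻¹ = (g * a * g⁻¹)⁻¹ * (g * t * g⁻¹) := by group
      rw [← e1]; exact h2
  have hIHi : IH = (r - 1) * i := by
    choose! f hf using hdec
    rw [hIH, Finset.card_eq_sum_card_fiberwise (f := f)
      (t := (Finset.univ.filter (fun g : G => g ∈ P)).erase 1)]
    · rw [Finset.sum_congr rfl (g := fun _ => i)]
      · rw [Finset.sum_const, smul_eq_mul, Finset.card_erase_of_mem (by simp), card_filter_mem, hPc]
      · intro b hb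
        rw [Finset.mem_erase] at hb
        simp only [Finset.mem_filter, Finset.mem_univ, true_and] at hb
        rw [← hib b hb.2 hb.1]
        congr 1
        ext t
        simp only [Finset.mem_filter, mem_Iv]
        constructor
        · rintro ⟨⟨h2, h3⟩, h4⟩
          have h5 := (h.sing t h3).1 (by rw [h2])
          refine ⟨h2, ?_⟩
          rw [← h4]; exact (hf t h5.1).2
        · rintro ⟨h2, h3⟩
          have h4 : t ∈ Y := by
            have : t = b * (b⁻¹ * t) := by group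
            rw [this]; exact Y.mul_mem (hPY hb.2) (h.hXY h3)
          exact ⟨⟨h2, h.hYH h4⟩, huni _ (hf t h4).1 _ hb.2 t (hf t h4).2 h3⟩
    · intro t ht
      simp only [Finset.coe_filter, Set.mem_setOf_eq, mem_Iv] at ht
      have h5 := (h.sing t ht.2).1 (by rw [ht.1])
      have h6 := hf t h5.1
      simp only [Finset.coe_erase, Finset.coe_filter, Finset.mem_univ, true_and, Set.mem_diff, Set.mem_setOf_eq,
        Set.mem_singleton_iff]
      refine ⟨h6.1, fun h7 => h5.2 ?_⟩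
      rw [h7, inv_one, one_mul] at h6
      exact h6.2
  have hI : (Iv G).card = H.index * IH := by
    refine card_conj h (Iv G) (fun g hg => by rw [mem_Iv.1 hg]) ?_
    intro g c
    rw [mem_Iv, mem_Iv]
    have := orderOf_conj' c⁻¹ g
    rw [inv_inv] at this
    rw [this]
  have hcnt : ((Iv G).filter (fun t => t⁻¹ * a ∈ Sg G)).card + i = IH := by
    rw [hIH, ← Finset.card_filter_add_card_filter_not (s := (Iv G).filter (fun t => t ∈ H))
      (fun t => t⁻¹ * a ∈ Sg G)]
    congr 1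
    · congr 1
      ext t
      simp only [Finset.mem_filter, mem_Iv, mem_Sg]
      constructor
      · rintro ⟨h2, h3⟩
        exact ⟨⟨h2, dihedral_mem h ha haH h2 h3⟩, h3⟩
      · rintro ⟨⟨h2, _⟩, h3⟩
        exact ⟨h2, h3⟩
    · rw [hi]
      congr 1
      ext t
      simp only [Finset.mem_filter, mem_Iv, mem_Sg]
      constructor
      · rintro ⟨h2, h3⟩
        have h4 : t ∈ H := by
          have : t = a * (a⁻¹ * t) := by group
          rw [this]; exact H.mul_mem haH (h.hYH (h.hXY h3))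
        refine ⟨⟨h2, h4⟩, fun h5 => ?_⟩
        have h6 : t⁻¹ * a ∈ X := by
          have : t⁻¹ * a = (a⁻¹ * t)⁻¹ := by group
          rw [this]; exact X.inv_mem h3
        exact ((h.sing _ (h.hYH (h.hXY h6))).1 h5).2 h6
      · rintro ⟨⟨h2, h4⟩, h5⟩
        refine ⟨h2, ?_⟩
        have h6 : t ∈ Y := ((h.sing t h4).1 (by rw [h2])).1
        have h7 : t⁻¹ * a ∈ Y := Y.mul_mem (Y.inv_mem h6) (hPY haP)
        have h8 : t⁻¹ * a ∈ X := by
          by_contra h9
          exact h5 ((h.sing _ (h.hYH h7)).2 ⟨h7, h9⟩)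
        have : a⁻¹ * t = (t⁻¹ * a)⁻¹ := by group
        rw [this]; exact X.inv_mem h8
  have hi0 : 0 < i := by
    rw [hi, Finset.card_pos]
    exact ⟨a, by rw [Finset.mem_filter, mem_Iv, inv_mul_cancel]; exact ⟨ha, X.one_mem⟩⟩
  have hn0 : 0 < H.index := Nat.pos_of_ne_zero H.index_ne_zero_of_finite
  rw [h.card_S, hI] at h1
  have hr := h.hr
  obtain ⟨k, hk⟩ : ∃ k, r = k + 2 := ⟨r - 2, by omega⟩
  set N := ((Iv G).filter (fun t => t⁻¹ * a ∈ Sg G)).card
  set c := ((Sg G).filter (fun s => s⁻¹ * a ∈ Sg G)).card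
  rw [hIHi] at h1 hcnt
  rw [hk] at h1 hcnt ⊢
  have e1 : k + 2 - 1 = k + 1 := rfl
  have e2 : k + 2 - 2 = k := rfl
  rw [e1] at h1 hcnt
  rw [e2]
  have hN : N = k * i := by
    have : N + i = k * i + i := by rw [hcnt]; ring
    omega
  rw [hN] at h1
  have h2 : (H.index * (k + 1) * i) * (Nat.card X * k) = (H.index * (k + 1) * i) * c := by
    calc _ = H.index * ((k + 1) * Nat.card X) * (k * i) := by ring
      _ = _ := by rw [h1]; ring
  have h3 : 0 < H.index * (k + 1) * i := by positivity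
  have := Nat.eq_of_mul_eq_mul_left h3 h2
  rw [← this]; ring

/-- **The main step**: `X` generates a normal subgroup of odd order. -/
theorem odd_closure (hM : IsPModular 2 M) (h : CC H Y X r (r - 1)) {a : G} (ha : orderOf a = 2) {P : Subgroup G} (hPY : P ≤ Y)
    (hPX : P ⊓ X = ⊥) (hPc : Nat.card P = r) (haP : a ∈ P) (htr : ∀ b ∈ P, b ≠ 1 → ∃ g ∈ H, g * a * g⁻¹ = b)
    (hXn : ∀ g ∈ H, ∀ x ∈ X, g * x * g⁻¹ ∈ X)
    (hconst : ∀ χ ∈ PB M G, ∀ g : G, 2 ∣ orderOf g → (χ : G → ℂ) g = (χ : G → ℂ) a) :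
    (∀ w, w ∈ Sg G → ((Sg G).filter (fun s => s⁻¹ * w ∈ Sg G)).card = (r - 2) * Nat.card X) ∧
    ¬ 2 ∣ Nat.card (Subgroup.normalClosure (X : Set G)) := by
  have h1 := count h ha hPY hPX hPc haP htr hXn (conv_eq hM hconst a)
  have h2 : ∀ w, w ∈ Sg G → ((Sg G).filter (fun s => s⁻¹ * w ∈ Sg G)).card = (r - 2) * Nat.card X := by
    intro w hw
    rw [← h1]
    exact conv_const hM hconst (mem_Sg.1 hw) (by rw [ha])
  exact ⟨h2, h.odd_normalClosure h2⟩

end Cfsg.Agent.Lib.H70AbC
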