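import Mathlib
import Cfsg.Agent.Lib.H70AbC
import Cfsg.Agent.Lib.FrobSchur
import Cfsg.Agent.Lib.ColTools

/-!
# The principal block when the centralizers of involutions are elementary abelian (helper70)
-/

set_option autoImplicit false
set_option maxHeartbeats 400000

open Subgroup

namespace Cfsg.Agent.Lib.H70AbD

open Cfsg Cfsg.Agent.Lib.BlockRing Cfsg.Agent.Lib.BlockThird
open Cfsg.Agent.Lib.CharBasic Cfsg.Agent.Lib.H52E16b Cfsg.Agent.Lib.H52Dih5
open Cfsg.Agent.Lib.H70AbA Cfsg.Agent.Lib.H70AbB Cfsg.Agent.Lib.H70AbC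
open Cfsg.Agent.Lib.FrobSchur (fsInd)
open scoped ComplexConjugate Classical

universe u
variable {G : Type u} [Group G] [Fintype G] {M : Ideal AlgInt}

/-- the numerical part -/
theorem numeric {ι : Type*} (s : Finset ι) (n m d ν : ι → ℤ) {q I Gc : ℤ} (hq : 0 < q)
    (hn : ∀ i ∈ s, n i = q * m i + d i) (hm : ∀ i ∈ s, 0 ≤ m i) (hν : ∀ i ∈ s, ν i ≤ 1)
    (h1 : ∑ i ∈ s, n i ^ 2 = Gc) (h2 : ∑ i ∈ s, n i * d i = 0) (h3 : ∑ i ∈ s, d i ^ 2 = q)
    (h4 : ∑ i ∈ s, ν i * n i = 1 + I) (h5 : ∑ i ∈ s, ν i * d i = 0) (h6 : Gc = q * I) :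
    ∀ i ∈ s, m i = 0 ∨ m i = 1 := by
  have e1 : q ^ 2 * ∑ i ∈ s, m i ^ 2 = Gc + q := by
    have : ∀ i ∈ s, q ^ 2 * m i ^ 2 = n i ^ 2 - 2 * (n i * d i) + d i ^ 2 := fun i hi => by rw [hn i hi]; ring
    rw [Finset.mul_sum, Finset.sum_congr rfl this, Finset.sum_add_distrib, Finset.sum_sub_distrib,
      ← Finset.mul_sum, h1, h2, h3]; ring
  have e2 : q * ∑ i ∈ s, ν i * m i = 1 + I := by
    have : ∀ i ∈ s, q * (ν i * m i) = ν i * n i - ν i * d i := fun i hi => by rw [hn i hi]; ring
    rw [Finset.mul_sum, Finset.sum_congr rfl this, Finset.sum_sub_distrib, h4, h5]; ring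
  have e3 : ∑ i ∈ s, (m i ^ 2 - ν i * m i) = 0 := by
    have : q ^ 2 * ∑ i ∈ s, (m i ^ 2 - ν i * m i) = 0 := by
      rw [Finset.sum_sub_distrib, mul_sub, e1, sq, mul_assoc, e2, h6]; ring
    rcases mul_eq_zero.1 this with h | h
    · exact absurd h (by positivity)
    · exact h
  have e4 : ∀ i ∈ s, 0 ≤ m i ^ 2 - ν i * m i := by
    intro i hi
    have a1 := hm i hi
    have a2 := hν i hi
    have a3 : ν i * m i ≤ 1 * m i := mul_le_mul_of_nonneg_right a2 a1
    nlinarith
  intro i hi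
  have e5 := (Finset.sum_eq_zero_iff_of_nonneg e4).1 e3 i hi
  have a1 := hm i hi
  have a2 := hν i hi
  by_contra hc
  push Not at hc
  have a4 : 2 ≤ m i := by
    rcases hc with ⟨b1, b2⟩
    omega
  have a3 : ν i * m i ≤ 1 * m i := mul_le_mul_of_nonneg_right a2 a1
  nlinarith

theorem sum_sub (K : Subgroup G) {χ : G → ℂ} (hχ : IsCharacter G χ) :
    ∃ m : ℕ, ∑ g ∈ Finset.univ.filter (fun g : G => g ∈ K), χ g = (Nat.card K : ℂ) * m := by
  obtain ⟨m, hm⟩ := (hχ.restrict K).classInner_nat (isCharacter_one (G := K))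
  refine ⟨m, ?_⟩
  rw [← hm, classInner_def, mul_inv_cancel_left₀ (by exact_mod_cast (Nat.card_pos (α := K)).ne')]
  simp only [Pi.one_apply, map_one, mul_one]
  exact (Finset.sum_subtype _ (fun g => by simp) _)

theorem sum_univ_zero {χ : IrrCharacter G} (h : χ ≠ triv G) : ∑ g : G, (χ : G → ℂ) g = 0 := by
  have h1 := irr_orthonormal χ (triv G)
  rw [if_neg h, classInner_def, coe_triv] at h1
  simp only [map_one, mul_one] at h1
  rcases mul_eq_zero.1 h1 with h2 | h2
  · exact absurd h2 (inv_ne_zero (by exact_mod_cast (Nat.card_pos (α := G)).ne'))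
  · exact h2

structure L4 (P H : Subgroup G) (q : ℕ) : Prop where
  hq : 4 ≤ q
  hPH : P ≤ H
  cP : Nat.card P = q
  cH : Nat.card H = q * (q - 1)
  hHI : ∀ g ∈ H, orderOf g = 2 → g ∈ P
  hP2 : ∀ g ∈ P, g ≠ 1 → orderOf g = 2
  hsing : ∀ g : G, 2 ∣ orderOf g → orderOf g = 2
  hconj : ∀ s t : G, orderOf s = 2 → orderOf t = 2 → IsConj s t
  hcent : ∀ a : G, orderOf a = 2 → Nat.card (centralizer ({a} : Set G)) = q
  hcos : ∀ g : G, g ∉ H → ((Iv G).filter (fun s => s⁻¹ * g ∈ P)).card = 1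
  hn : q < H.index

variable {P H : Subgroup G} {q : ℕ}

theorem L4.card_c (h : L4 P H q) (g : G) : (((Iv G).filter (fun s => s⁻¹ * g ∈ P)).card : ℂ) =
    (if g ∈ P then ((q - 1 : ℕ) : ℂ) else 0) + (if g ∈ H then 0 else 1) := by
  by_cases hgP : g ∈ P
  · rw [if_pos hgP, if_pos (h.hPH hgP), add_zero]
    have : (Iv G).filter (fun s => s⁻¹ * g ∈ P) = (Finset.univ.filter (fun g : G => g ∈ P)).erase 1 := by
      ext s
      simp only [Finset.mem_filter, mem_Iv, Finset.mem_erase, Finset.mem_univ, true_and]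
      constructor
      · rintro ⟨h1, h2⟩
        refine ⟨?_, ?_⟩
        · rintro rfl; rw [orderOf_one] at h1; omega
        · have e1 : s = g * (s⁻¹ * g)⁻¹ := by group
          rw [e1]; exact P.mul_mem hgP (P.inv_mem h2)
      · rintro ⟨h1, h2⟩
        exact ⟨h.hP2 s h2 h1, P.mul_mem (P.inv_mem h2) hgP⟩
    rw [this, Finset.card_erase_of_mem (by simp), card_filter_mem, h.cP]
  · rw [if_neg hgP, zero_add]
    by_cases hgH : g ∈ H
    · rw [if_pos hgH]
      have : (Iv G).filter (fun s => s⁻¹ * g ∈ P) = ∅ := by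
        rw [Finset.filter_eq_empty_iff]
        intro s hs hsg
        rw [mem_Iv] at hs
        have hsH : s ∈ H := by
          have e1 : s = g * (s⁻¹ * g)⁻¹ := by group
          rw [e1]; exact H.mul_mem hgH (H.inv_mem (h.hPH hsg))
        have hsP := h.hHI s hsH hs
        apply hgP
        have e1 : g = s * (s⁻¹ * g) := by group
        rw [e1]; exact P.mul_mem hsP hsg
      rw [this]; simp
    · rw [if_neg hgH, h.hcos g hgH]; simp

theorem L4.ident (h : L4 P H q) {a : G} (ha : orderOf a = 2) {χ : IrrCharacter G} (hχ : χ ≠ triv G) {m1 mH : ℕ}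
    (h1 : ∑ g ∈ Finset.univ.filter (fun g : G => g ∈ P), (χ : G → ℂ) g = (q : ℂ) * m1)
    (h2 : ∑ g ∈ Finset.univ.filter (fun g : G => g ∈ H), (χ : G → ℂ) g = ((q * (q - 1) : ℕ) : ℂ) * mH) :
    ((Iv G).card : ℂ) * (χ : G → ℂ) a * ((q : ℂ) * m1) =
      (χ : G → ℂ) 1 * (((q - 1 : ℕ) : ℂ) * ((q : ℂ) * m1) - ((q * (q - 1) : ℕ) : ℂ) * mH) := by
  have hcf := χ.2.isClassFunction
  have h10 := χ.2.one_ne_zero
  have hval : ∀ t ∈ Iv G, (χ : G → ℂ) t = (χ : G → ℂ) a := fun t ht =>
    hcf.conj_eq (h.hconj t a (mem_Iv.1 ht) ha)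
  -- first evaluation
  have e1 : ∑ b ∈ Finset.univ.filter (fun g : G => g ∈ P), ∑ s : G, ind (Iv G) s * (χ : G → ℂ) (b * s) =
      ((Iv G).card : ℂ) * (χ : G → ℂ) a * ((q : ℂ) * m1) / (χ : G → ℂ) 1 := by
    have : ∀ b ∈ Finset.univ.filter (fun g : G => g ∈ P), ∑ s : G, ind (Iv G) s * (χ : G → ℂ) (b * s) =
        (((Iv G).card : ℂ) * (χ : G → ℂ) a / (χ : G → ℂ) 1) * (χ : G → ℂ) b := by
      intro b _
      rw [StructConst.sum_mul_irr ind_cf_Iv χ.2, sum_ind_mul (Iv G) (χ : G → ℂ) hval]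
      ring
    rw [Finset.sum_congr rfl this, ← Finset.mul_sum, h1]
    ring
  -- second evaluation
  have e2 : ∑ b ∈ Finset.univ.filter (fun g : G => g ∈ P), ∑ s : G, ind (Iv G) s * (χ : G → ℂ) (b * s) =
      ∑ g : G, (((Iv G).filter (fun s => s⁻¹ * g ∈ P)).card : ℂ) * (χ : G → ℂ) g := by
    rw [Finset.sum_comm]
    have f1 : ∀ s : G, ∑ b ∈ Finset.univ.filter (fun g : G => g ∈ P), ind (Iv G) s * (χ : G → ℂ) (b * s) =
        ∑ g : G, (if s ∈ Iv G ∧ s⁻¹ * g ∈ P then (χ : G → ℂ) g else 0) := by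
      intro s
      by_cases hs : s ∈ Iv G
      · have : ind (Iv G) s = 1 := by unfold ind; rw [if_pos hs]
        simp only [this, one_mul, hs, true_and]
        rw [← Finset.sum_filter]
        refine Finset.sum_bij (fun b _ => s * b) ?_ ?_ ?_ ?_
        · intro b hb
          simp only [Finset.mem_filter, Finset.mem_univ, true_and] at hb ⊢
          rwa [inv_mul_cancel_left]
        · intro b _ b' _ hbb
          exact mul_left_cancel hbb
        · intro g hg
          simp only [Finset.mem_filter, Finset.mem_univ, true_and] at hg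
          exact ⟨s⁻¹ * g, by simpa using hg, by group⟩
        · intro b _
          exact hcf.mul_comm b s
      · have : ind (Iv G) s = 0 := by unfold ind; rw [if_neg hs]
        simp only [this, zero_mul, Finset.sum_const_zero, hs, false_and, if_false]
    rw [Finset.sum_congr rfl (fun s _ => f1 s), Finset.sum_comm]
    refine Finset.sum_congr rfl fun g _ => ?_
    rw [← Finset.sum_filter, Finset.sum_const, nsmul_eq_mul]
    congr 2
    congr 1
    ext s
    simp
  have e3 : ∑ g : G, (((Iv G).filter (fun s => s⁻¹ * g ∈ P)).card : ℂ) * (χ : G → ℂ) g =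
      ((q - 1 : ℕ) : ℂ) * ((q : ℂ) * m1) - ((q * (q - 1) : ℕ) : ℂ) * mH := by
    have f1 : ∀ g : G, (((Iv G).filter (fun s => s⁻¹ * g ∈ P)).card : ℂ) * (χ : G → ℂ) g =
        (if g ∈ P then ((q - 1 : ℕ) : ℂ) * (χ : G → ℂ) g else 0) + ((χ : G → ℂ) g - if g ∈ H then (χ : G → ℂ) g else 0) := by
      intro g
      rw [h.card_c g]
      split_ifs <;> ring
    rw [Finset.sum_congr rfl (fun g _ => f1 g), Finset.sum_add_distrib, Finset.sum_sub_distrib, sum_univ_zero hχ,
      ← Finset.sum_filter, ← Finset.sum_filter, ← Finset.mul_sum, h1, h2]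
    ring
  rw [e2, e3, eq_div_iff h10] at e1
  rw [← e1]; ring

theorem L4.card_Iv (h : L4 P H q) {a : G} (ha : orderOf a = 2) : (Iv G).card * q = Nat.card G := by
  have h1 := card_isConj_mul_card_centralizer a
  rw [h.hcent a ha] at h1
  rw [← h1]
  congr 1
  rw [Nat.card_eq_fintype_card, Fintype.card_subtype]
  congr 1
  ext g
  rw [mem_Iv]
  simp only [Finset.mem_filter, Finset.mem_univ, true_and]
  constructor
  · intro hg; exact h.hconj a g ha hg
  · intro hg
    rw [← BlockCount.orderOf_isConj hg, ha]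

/-- the values on involutions -/
theorem L4.values (h : L4 P H q) {a : G} (ha : orderOf a = 2) (χ : IrrCharacter G) :
    (χ : G → ℂ) a = 0 ∨ (χ : G → ℂ) a = 1 ∨ (χ : G → ℂ) a = -1 := by
  have ha2 : a ^ 2 = 1 := by rw [← ha, pow_orderOf_eq_one]
  choose n0 n1 hn0 hn1 _ using fun χ : IrrCharacter G => ColTools.val_two χ.2.isCharacter a ha2
  choose m1 hm1 using fun χ : IrrCharacter G => sum_sub P χ.2.isCharacter
  choose mH hmH using fun χ : IrrCharacter G => sum_sub H χ.2.isCharacter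
  have ha1 : a ≠ 1 := by rintro rfl; rw [orderOf_one] at ha; omega
  have hqC : (q : ℂ) ≠ 0 := by
    have := h.hq
    exact_mod_cast (by omega : q ≠ 0)
  -- the sum over P
  have hP : ∀ χ : IrrCharacter G, ∑ g ∈ Finset.univ.filter (fun g : G => g ∈ P), (χ : G → ℂ) g =
      (χ : G → ℂ) 1 + ((q : ℂ) - 1) * (χ : G → ℂ) a := by
    intro χ
    rw [← Finset.add_sum_erase _ _ (show (1 : G) ∈ Finset.univ.filter (fun g : G => g ∈ P) by simp)]
    congr 1
    rw [Finset.sum_congr rfl (g := fun _ => (χ : G → ℂ) a)]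
    · rw [Finset.sum_const, Finset.card_erase_of_mem (by simp), card_filter_mem, h.cP, nsmul_eq_mul]
      have := h.hq
      rw [Nat.cast_sub (by omega)]
      simp
    · intro g hg
      rw [Finset.mem_erase] at hg
      simp only [Finset.mem_filter, Finset.mem_univ, true_and] at hg
      exact χ.2.isClassFunction.conj_eq (h.hconj g a (h.hP2 g hg.2 hg.1) ha)
  -- integers
  let n : IrrCharacter G → ℤ := fun χ => (n0 χ : ℤ) + n1 χ
  let d : IrrCharacter G → ℤ := fun χ => (n0 χ : ℤ) - n1 χ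
  let m : IrrCharacter G → ℤ := fun χ => (m1 χ : ℤ) - d χ
  have hnC : ∀ χ : IrrCharacter G, (χ : G → ℂ) 1 = (n χ : ℂ) := fun χ => by rw [hn0]; simp [n]
  have hdC : ∀ χ : IrrCharacter G, (χ : G → ℂ) a = (d χ : ℂ) := fun χ => by rw [hn1]; simp [d]
  have hrel : ∀ χ, n χ + ((q : ℤ) - 1) * d χ = q * m1 χ := by
    intro χ
    have h1 := hP χ
    rw [hm1, hnC, hdC, h.cP] at h1
    exact_mod_cast h1.symm
  have hnm : ∀ χ, n χ = q * m χ + d χ := by
    intro χ
    have := hrel χ
    simp only [m]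
    linear_combination this
  have hm0 : ∀ χ, 0 ≤ m χ := by
    intro χ
    have h1 : (q : ℤ) * m χ = 2 * n1 χ := by
      have := hnm χ
      simp only [n, d] at this
      linarith
    have hq := h.hq
    by_contra hneg
    push Not at hneg
    have : (q : ℤ) * m χ < 0 := mul_neg_of_pos_of_neg (by omega) hneg
    omega
  have hfs : ∀ χ : IrrCharacter G, ∃ ν : ℤ, fsInd (χ : G → ℂ) = ν ∧ ν ≤ 1 := by
    intro χ
    rcases (FrobSchur.fsInd_trichotomy χ.2).1 with h1 | h1 | h1
    · exact ⟨0, by rw [h1]; simp, by norm_num⟩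
    · exact ⟨1, by rw [h1]; simp, by norm_num⟩
    · exact ⟨-1, by rw [h1]; simp, by norm_num⟩
  choose ν hν hν1 using hfs
  have hI := h.card_Iv ha
  have hm01 : ∀ χ, m χ = 0 ∨ m χ = 1 := by
    have := numeric (Finset.univ : Finset (IrrCharacter G)) n m d ν (q := (q : ℤ)) (I := ((Iv G).card : ℤ))
      (Gc := (Nat.card G : ℤ)) (by have := h.hq; omega) (fun χ _ => hnm χ) (fun χ _ => hm0 χ) (fun χ _ => hν1 χ)
      ?_ ?_ ?_ ?_ ?_ (by exact_mod_cast (by rw [mul_comm]; exact hI.symm))
    · exact fun χ => this χ (Finset.mem_univ _)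
    · have h1 := sum_degree_sq (G := G)
      simp only [hnC] at h1
      exact_mod_cast h1
    · have h1 := sum_degree_mul a ha1
      simp only [hnC, hdC] at h1
      exact_mod_cast h1
    · have h1 := column_orthogonality a a
      rw [if_pos (IsConj.refl a), h.hcent a ha] at h1
      simp only [hdC, map_intCast] at h1
      have h2 : ∀ χ, d χ ^ 2 = d χ * d χ := fun χ => sq _
      rw [Finset.sum_congr rfl (fun χ _ => h2 χ)]
      exact_mod_cast h1
    · have h1 := FrobSchur.card_sq_eq_one (G := G)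
      have h2 : Nat.card {s : G // s * s = 1} = 1 + (Iv G).card := by
        rw [Nat.card_eq_fintype_card, Fintype.card_subtype]
        have : Finset.univ.filter (fun s : G => s * s = 1) = insert 1 (Iv G) := by
          ext s
          simp only [Finset.mem_filter, Finset.mem_univ, true_and, Finset.mem_insert, mem_Iv]
          constructor
          · intro hs
            by_cases hs1 : s = 1
            · left; exact hs1
            · right; exact orderOf_eq_prime (by rw [sq]; exact hs) hs1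
          · rintro (rfl | hs)
            · simp
            · rw [← sq, ← hs, pow_orderOf_eq_one]
        rw [this, Finset.card_insert_of_notMem (by rw [mem_Iv, orderOf_one]; norm_num)]
        ring
      rw [h2] at h1
      simp only [hν, hnC] at h1
      exact_mod_cast h1.symm
    · have h1 := FrobSchur.card_sq_eq (G := G) a
      have h2 : IsEmpty {s : G // s * s = a} := by
        refine ⟨fun ⟨s, hs⟩ => ?_⟩
        have h3 : orderOf (s ^ 2) = 2 := by rw [sq, hs, ha]
        have h4 : 2 ∣ orderOf s := by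
          rw [← h3]; exact orderOf_pow_dvd 2
        have h5 := h.hsing s h4
        rw [show s ^ 2 = 1 by rw [← h5, pow_orderOf_eq_one], orderOf_one] at h3
        omega
      rw [Nat.card_of_isEmpty] at h1
      simp only [hν, hdC] at h1
      exact_mod_cast h1.symm
  by_cases hχ : χ = triv G
  · right; left; rw [hχ]; rfl
  have hdge : -1 ≤ d χ := by
    have h1 : m χ = m1 χ - d χ := rfl
    rcases hm01 χ with h2 | h2 <;> omega
  have hdle : d χ ≤ 1 := by
    by_cases hm10 : m1 χ = 0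
    · have h1 : m χ = m1 χ - d χ := rfl
      rw [hm10] at h1
      rcases hm01 χ with h2 | h2 <;> omega
    · have h1 := h.ident ha hχ (by rw [hm1 χ, h.cP]) (by rw [hmH χ, h.cH])
      rw [hdC, hnC] at h1
      have h2 : ((Iv G).card : ℤ) * d χ * (q * m1 χ) = n χ * (((q - 1 : ℕ) : ℤ) * (q * m1 χ) - ((q * (q - 1) : ℕ) : ℤ) * mH χ) := by
        exact_mod_cast h1
      have hqq := h.hq
      have hnpos : 0 < n χ := by
        obtain ⟨k, hk, hk'⟩ := χ.2.exists_degree
        rw [hnC] at hk'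
        have : n χ = k := by exact_mod_cast hk'
        omega
      have h3 : ((Iv G).card : ℤ) * d χ * (q * m1 χ) ≤ n χ * ((q : ℤ) - 1) * (q * m1 χ) := by
        rw [h2]
        have e1 : (((q - 1 : ℕ) : ℤ)) = (q : ℤ) - 1 := by rw [Nat.cast_sub (by omega)]; simp
        rw [e1]
        have e2 : 0 ≤ n χ * (((q * (q - 1) : ℕ) : ℤ) * mH χ) := by positivity
        nlinarith
      have h4 : (0 : ℤ) < q * m1 χ := by
        have : 0 < m1 χ := Nat.pos_of_ne_zero hm10
        positivity
      have h5 : ((Iv G).card : ℤ) * d χ ≤ n χ * ((q : ℤ) - 1) := le_of_mul_le_mul_right h3 h4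
      have h6 : (Iv G).card = H.index * (q - 1) := by
        have h7 := H.card_mul_index
        rw [h.cH, ← hI] at h7
        have h8 : q * (H.index * (q - 1)) = q * (Iv G).card := by rw [mul_comm q (Iv G).card, ← h7]; ring
        exact (Nat.eq_of_mul_eq_mul_left (by omega) h8).symm
      rw [h6] at h5
      have e1 : (((q - 1 : ℕ) : ℤ)) = (q : ℤ) - 1 := by rw [Nat.cast_sub (by omega)]; simp
      rw [Nat.cast_mul, e1] at h5
      have h9 : (H.index : ℤ) * d χ ≤ n χ := by
        have h10 : ((H.index : ℤ) * d χ) * ((q : ℤ) - 1) ≤ n χ * ((q : ℤ) - 1) := by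
          calc _ = (H.index : ℤ) * ((q : ℤ) - 1) * d χ := by ring
            _ ≤ _ := h5
        exact le_of_mul_le_mul_right h10 (by omega)
      have h11 : m χ ≤ 1 := by rcases hm01 χ with h | h <;> omega
      have h12 := hnm χ
      have h13 := h.hn
      by_contra hd2
      push Not at hd2
      have h14 : (q : ℤ) * m χ ≤ q := by nlinarith
      have h15 : ((H.index : ℤ) - 1) * d χ ≤ q := by nlinarith
      have h16 : (q : ℤ) * 2 ≤ ((H.index : ℤ) - 1) * d χ := by
        apply mul_le_mul <;> omega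
      omega
  rw [hdC]
  have : d χ = 0 ∨ d χ = 1 ∨ d χ = -1 := by omega
  rcases this with h1 | h1 | h1 <;> rw [h1] <;> simp

/-- **L4** -/
theorem L4.card_PB (hM : IsPModular 2 M) (h : L4 P H q) {a : G} (ha : orderOf a = 2)
    (hodd : ¬ 2 ∣ (centralizer ({a} : Set G)).index) :
    (PB M G).card = q := by
  haveI := isPrime hM
  have h1 := column_orthogonality a a
  rw [if_pos (IsConj.refl a), h.hcent a ha] at h1
  have hin : ∀ χ ∈ PB M G, (χ : G → ℂ) a * conj ((χ : G → ℂ) a) = 1 := by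
    intro χ hχ
    have h0 : (χ : G → ℂ) a ≠ 0 := by
      intro h0
      have h2 : SameBlock M (fun _ : G => (1 : ℂ)) (χ : G → ℂ) := mem_PB.1 hχ
      have h3 := h2 a
      unfold centralChar at h3
      rw [h0] at h3
      simp only [mul_one, div_one, mul_zero, zero_div, sub_zero] at h3
      have h4 : ∃ k : ℕ, (centralizer ({a} : Set G)).index = 2 * k + 1 := by
        refine ⟨(centralizer ({a} : Set G)).index / 2, ?_⟩
        omega
      obtain ⟨k, hk⟩ := h4
      rw [hk] at h3
      have h5 : MemLocalIdeal M ((2 : ℕ) * (k : ℂ)) := idl_mul_right (idl_p hM) (loc_natCast k)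
      have h6 : MemLocalIdeal M (((2 * k + 1 : ℕ) : ℂ) - (2 : ℕ) * (k : ℂ)) := idl_sub h3 h5
      apply one_not_idl (M := M)
      have h7 : (((2 * k + 1 : ℕ) : ℂ) - (2 : ℕ) * (k : ℂ)) = 1 := by push_cast; ring
      rwa [h7] at h6
    rcases h.values ha χ with h2 | h2 | h2
    · exact absurd h2 h0
    · rw [h2]; simp
    · rw [h2]; simp
  have hout : ∀ χ : IrrCharacter G, χ ∉ PB M G → (χ : G → ℂ) a * conj ((χ : G → ℂ) a) = 0 := by
    intro χ hχ
    have h2 : classInner (ind (Sg G)) (χ : G → ℂ) = 0 := by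
      have h3 : ind (Sg G) = fun x => ∑ ψ ∈ PB M G, cF (ind (Sg G)) (triv G) ψ * (ψ : G → ℂ) x := by
        funext x
        have := expand hM (sec_Sg (G := G)) (mem_PB.mpr (triv_mem (M := M))) x
        rw [this, coe_triv, mul_one]
      rw [h3, classInner_def]
      simp only [Finset.sum_mul]
      rw [Finset.sum_comm, Finset.mul_sum]
      refine Finset.sum_eq_zero fun ψ hψ => ?_
      have h4 := irr_orthonormal ψ χ
      rw [if_neg (fun e : ψ = χ => hχ (e ▸ hψ)), classInner_def] at h4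
      have h5 : ∑ x : G, cF (ind (Sg G)) (triv G) ψ * (ψ : G → ℂ) x * conj ((χ : G → ℂ) x) =
          cF (ind (Sg G)) (triv G) ψ * ∑ x : G, (ψ : G → ℂ) x * conj ((χ : G → ℂ) x) := by
        rw [Finset.mul_sum]
        exact Finset.sum_congr rfl fun x _ => by ring
      rw [h5, mul_left_comm, h4, mul_zero]
    have h3 : classInner (ind (Sg G)) (χ : G → ℂ) = (Nat.card G : ℂ)⁻¹ * ((Sg G).card * conj ((χ : G → ℂ) a)) := by
      rw [classInner_def]
      congr 1
      apply sum_ind_mul (Sg G) (fun g => conj ((χ : G → ℂ) g))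
      intro t ht
      congr 1
      exact χ.2.isClassFunction.conj_eq (h.hconj t a (h.hsing t (mem_Sg.1 ht)) ha)
    rw [h2] at h3
    have h4 : (Nat.card G : ℂ)⁻¹ ≠ 0 := inv_ne_zero (by exact_mod_cast (Nat.card_pos (α := G)).ne')
    have h5 : ((Sg G).card : ℂ) ≠ 0 := by
      have : 0 < (Sg G).card := Finset.card_pos.2 ⟨a, mem_Sg.2 (by rw [ha])⟩
      exact_mod_cast this.ne'
    have h6 : conj ((χ : G → ℂ) a) = 0 := by
      rcases mul_eq_zero.1 h3.symm with h7 | h7
      · exact absurd h7 h4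
      · rcases mul_eq_zero.1 h7 with h8 | h8
        · exact absurd h8 h5
        · exact h8
    rw [h6, mul_zero]
  have h2 : ∑ χ : IrrCharacter G, (χ : G → ℂ) a * conj ((χ : G → ℂ) a) = ((PB M G).card : ℂ) := by
    rw [← Finset.sum_filter_add_sum_filter_not Finset.univ (fun χ => χ ∈ PB M G)]
    rw [Finset.sum_congr rfl (g := fun _ => (1 : ℂ)) (fun χ hχ => hin χ (by simpa using hχ)),
      Finset.sum_eq_zero (s := Finset.univ.filter (fun χ => χ ∉ PB M G)) (fun χ hχ => hout χ (by simpa using hχ))]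
    rw [Finset.sum_const, nsmul_eq_mul, mul_one, add_zero]
    congr 2
    ext χ; simp
  rw [h2] at h1
  exact_mod_cast h1

end Cfsg.Agent.Lib.H70AbD
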