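import Cfsg.Agent.Lib.H70Miller
import Cfsg.Agent.Lib.H3PGroup
import Cfsg.Agent.Lib.MinimalClass

set_option autoImplicit false

/-!
# Number of subgroups of 2-groups not of maximal class (helper70)
-/

namespace Cfsg.Agent.Lib.H70Miller

open MulAction Subgroup
open scoped Pointwise

universe u

/-- two independent elements of `R` generate `R`. -/
theorem le_of_mem {p : ℕ} (hp : p.Prime) {P : Type u} [Group P] [Finite P] {R : Subgroup P} {z r : P}
    (hR : Nat.card R = p ^ 2) (hz : z ∈ R) (hzo : orderOf z = p) (hr : r ∈ R) (hrz : r ∉ zpowers z) {E : Subgroup P}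
    (hzE : z ∈ E) (hrE : r ∈ E) : R ≤ E := by
  have h1 : zpowers z ≤ R ⊓ E := by
    rw [zpowers_le]; exact ⟨hz, hzE⟩
  have h2 : Nat.card (R ⊓ E : Subgroup P) ∣ p ^ 2 := by
    rw [← hR]; exact Subgroup.card_dvd_of_le inf_le_left
  obtain ⟨i, hi, hi2⟩ := (Nat.dvd_prime_pow hp).1 h2
  have h3 : 1 < i := by
    by_contra h4
    push Not at h4
    have h5 : Nat.card (R ⊓ E : Subgroup P) ≤ Nat.card (zpowers z) := by
      rw [hi2, Nat.card_zpowers, hzo]
      calc p ^ i ≤ p ^ 1 := Nat.pow_le_pow_right hp.pos h4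
        _ = p := pow_one p
    have h6 := Subgroup.eq_of_le_of_card_ge h1 h5
    apply hrz
    rw [h6]
    exact ⟨hr, hrE⟩
  have h4 : i = 2 := by omega
  have h5 : R ⊓ E = R := Subgroup.eq_of_le_of_card_ge inf_le_left (by rw [hi2, h4, hR])
  rw [← h5]
  exact inf_le_right

theorem rk_of_normal {p : ℕ} [hp : Fact p.Prime] {P : Type u} [Group P] [Finite P] (hP : IsPGroup p P) {R : Subgroup P}
    (hn : R.Normal) (hc : Nat.card R = p ^ 2) (he : ∀ x ∈ R, x ^ p = 1) : ∃ z, Rk p R z := by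
  have hR1 : R ≠ ⊥ := by
    intro h
    rw [h, card_bot] at hc
    have := hp.out.one_lt
    nlinarith
  obtain ⟨z, hzR, hzc, hzo⟩ := NormalRankTwo.exists_central_of_normal hP R hR1
  refine ⟨z, hn, hzc, hzo, hzR, hc, he, ?_⟩
  have hzle : zpowers z ≤ center P := by rw [zpowers_le]; exact hzc
  have hzn : (zpowers z).Normal := ⟨fun x hx g => by
    have := mem_center_iff.1 (hzle hx) g
    rw [this, mul_inv_cancel_right]; exact hx⟩
  have hnle : ¬ R ≤ zpowers z := by
    intro h
    have := Subgroup.card_le_of_le h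
    rw [hc, Nat.card_zpowers, hzo] at this
    have := hp.out.one_lt
    nlinarith
  obtain ⟨w, hwR, hwz, hw, -⟩ := H3PGroup.exists_central_mod hP (zpowers z) R hnle
  let E : Subgroup P := (center (P ⧸ zpowers z)).comap (QuotientGroup.mk' (zpowers z))
  have hE : ∀ x, x ∈ E ↔ ∀ g : P, g * x * g⁻¹ * x⁻¹ ∈ zpowers z := by
    intro x
    rw [mem_comap, mem_center_iff]
    constructor
    · intro h g
      have h1 := h (QuotientGroup.mk' (zpowers z) g)
      rw [← QuotientGroup.eq_one_iff]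
      change QuotientGroup.mk' (zpowers z) (g * x * g⁻¹ * x⁻¹) = 1
      rw [map_mul, map_mul, map_mul, h1, map_inv, map_inv, mul_inv_cancel_right, mul_inv_cancel]
    · intro h g
      obtain ⟨g, rfl⟩ := QuotientGroup.mk'_surjective (zpowers z) g
      have h1 := h g
      rw [← QuotientGroup.eq_one_iff] at h1
      change QuotientGroup.mk' (zpowers z) (g * x * g⁻¹ * x⁻¹) = 1 at h1
      rw [map_mul, map_mul, map_mul, map_inv, map_inv] at h1
      exact mul_inv_eq_iff_eq_mul.1 (mul_inv_eq_one.1 h1)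
  have hle : R ≤ E := by
    apply le_of_mem hp.out hc hzR hzo hwR hwz
    · rw [hE]
      intro g
      rw [mem_center_iff.1 hzc g, mul_inv_cancel_right, mul_inv_cancel]
      exact (zpowers z).one_mem
    · rw [hE]
      intro g
      obtain ⟨a, ha, h⟩ := hw g
      rw [h]
      have h2 := mem_center_iff.1 (hzle ha) w
      rw [h2, mul_inv_cancel_right]
      exact ha
  intro x hx g
  exact (hE x).1 (hle hx) g

/-- normal noncyclic abelian subgroups give normal subgroups of type `(2,2)` -/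
theorem rk_of_noncyclic {P : Type u} [Group P] [Finite P] (hP : IsPGroup 2 P) {A : Subgroup P}
    (hn : A.Normal) (hab : IsMulCommutative A) (hc : ¬ IsCyclic A) : ∃ R z, Rk 2 (P := P) R z := by
  haveI : Fact (Nat.Prime 2) := ⟨Nat.prime_two⟩
  have hAc : A ≤ centralizer (A : Set P) := by
    rw [Subgroup.le_centralizer_iff_isMulCommutative]; exact hab
  have hr : 2 < Nat.card (NormalFour.omega A hAc) := by
    by_contra hle
    push Not at hle
    apply hc
    obtain ⟨a, ha⟩ := UniqueInvolution.cyclic_of_comm (hP.to_subgroup A) (fun x y => mul_comm' x y) (by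
      intro x y hx hy
      have hmem : ∀ x : A, orderOf x = 2 → (x : P) ∈ NormalFour.omega A hAc := by
        intro x hx
        refine ⟨x.2, ?_⟩
        have h1 : x ^ 2 = 1 := by rw [← hx]; exact pow_orderOf_eq_one x
        rw [pow_two] at h1
        exact congrArg Subtype.val h1
      have hxy : x = y := by
        by_contra hne
        have hx1 : x ≠ 1 := by rintro rfl; rw [orderOf_one] at hx; omega
        have hy1 : y ≠ 1 := by rintro rfl; rw [orderOf_one] at hy; omega
        have h3 : ({1, (x : P), (y : P)} : Set P) ⊆ (NormalFour.omega A hAc : Set P) := by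
          rintro w (rfl | rfl | rfl)
          · exact one_mem _
          · exact hmem x hx
          · exact hmem y hy
        have h4 : Set.ncard ({1, (x : P), (y : P)} : Set P) = 3 := by
          rw [Set.ncard_eq_three]
          exact ⟨1, x, y, fun h => hx1 (Subtype.ext h.symm), fun h => hy1 (Subtype.ext h.symm),
            fun h => hne (Subtype.ext h), rfl⟩
        have h5 := Set.ncard_le_ncard h3 (Set.toFinite _)
        rw [h4] at h5
        have h6 : (NormalFour.omega A hAc : Set P).ncard = Nat.card (NormalFour.omega A hAc) := rfl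
        omega
      rw [hxy]; exact mem_zpowers y)
    exact ⟨⟨a, ha⟩⟩
  obtain ⟨z, w, -, -, hz, hw, hz1, hw1, hwz, hzS, hwS⟩ := NormalFour.exists_normal_four (S := ⊤) (A := A)
    (hP.to_subgroup _) le_top (by rw [Subgroup.normalizer_eq_top]) hAc hr
  have hcom : w * z = z * w := hzS w (mem_top _)
  set R := NormalFour.four z w hz hw hcom with hR
  have hmem : ∀ x, x ∈ R ↔ x = 1 ∨ x = z ∨ x = w ∨ x = w * z := fun x => Iff.rfl
  have hwz1 : w * z ≠ 1 := by
    intro h
    apply hwz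
    have : w = z⁻¹ := mul_eq_one_iff_eq_inv.1 h
    rw [this]; exact inv_eq_of_mul_eq_one_left hz
  have hcard : Nat.card R = 2 ^ 2 := by
    have h1 : (R : Set P) = {1, z, w, w * z} := by
      ext x; exact hmem x
    have h2 : (R : Set P).ncard = 4 := by
      have hwzz : w * z ≠ z := fun h => hw1 (mul_eq_right.1 h)
      have hwzw : w * z ≠ w := fun h => hz1 (mul_eq_left.1 h)
      rw [h1, Set.ncard_insert_of_notMem, Set.ncard_insert_of_notMem, Set.ncard_insert_of_notMem, Set.ncard_singleton]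
      · simp only [Set.mem_singleton_iff]; exact hwzw.symm
      · simp only [Set.mem_insert_iff, Set.mem_singleton_iff, not_or]; exact ⟨hwz.symm, hwzz.symm⟩
      · simp only [Set.mem_insert_iff, Set.mem_singleton_iff, not_or]; exact ⟨hz1.symm, hw1.symm, hwz1.symm⟩
    exact h2
  have hnor : R.Normal := by
    constructor
    intro x hx g
    have hgz : g * z * g⁻¹ = z := by rw [hzS g (mem_top _), mul_inv_cancel_right]
    have hgw := hwS g (mem_top _)
    have e : g * (w * z) * g⁻¹ = (g * w * g⁻¹) * (g * z * g⁻¹) := by group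
    rw [hmem] at hx ⊢
    rcases hx with rfl | rfl | rfl | rfl
    · left; group
    · right; left; exact hgz
    · rcases hgw with h | h
      · right; right; left; exact h
      · right; right; right; exact h
    · rw [e, hgz]
      rcases hgw with h | h
      · right; right; right; rw [h]
      · right; right; left; rw [h, mul_assoc, hz, mul_one]
  obtain ⟨z', hz'⟩ := rk_of_normal hP hnor hcard (by
    intro x hx
    rw [hmem] at hx
    rw [pow_two]
    rcases hx with rfl | rfl | rfl | rfl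
    · group
    · exact hz
    · exact hw
    · rw [hcom, mul_assoc, ← mul_assoc w z w, hcom, mul_assoc z w w, hw, mul_one, hz])
  exact ⟨R, z', hz'⟩

/-- a two-group with an element whose centralizer has order at most four -/
theorem class_of_centralizer {P : Type u} [Group P] [Finite P] {m : ℕ} (hP : Nat.card P = 2 ^ m) (hna : ¬ IsMulCommutative P)
    {y : P} (hy : Nat.card (centralizer {y} : Subgroup P) ≤ 4) : Group.nilpotencyClass P = m - 1 := by
  haveI : Fact (Nat.Prime 2) := ⟨Nat.prime_two⟩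
  have hPg : IsPGroup 2 P := IsPGroup.of_card hP
  haveI : Nontrivial P := by
    by_contra h
    rw [not_nontrivial_iff_subsingleton] at h
    exact hna ⟨⟨fun a b => Subsingleton.elim _ _⟩⟩
  have hZ := hPg.center_nontrivial
  have hZle : center P ≤ centralizer {y} := Subgroup.center_le_centralizer _
  have hne : center P ≠ centralizer {y} := by
    intro h
    have hy1 : y ∈ (centralizer {y} : Subgroup P) := by rw [mem_centralizer_singleton_iff]
    rw [← h] at hy1
    have h2 : (centralizer {y} : Subgroup P) = ⊤ := by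
      rw [eq_top_iff]
      intro x _
      rw [mem_centralizer_singleton_iff]
      exact mem_center_iff.1 hy1 x
    rw [h2] at h
    apply hna
    exact ⟨⟨fun a b => ((mem_center_iff.1 (h ▸ mem_top b : b ∈ center P)) a)⟩⟩
  obtain ⟨i, hi, hi2⟩ := (Nat.dvd_prime_pow Nat.prime_two).1 (hP ▸ Subgroup.card_subgroup_dvd_card (centralizer {y} : Subgroup P))
  obtain ⟨j, hj, hj2⟩ := (Nat.dvd_prime_pow Nat.prime_two).1 (hP ▸ Subgroup.card_subgroup_dvd_card (center P))
  have h1 : 1 < Nat.card (center P) := Finite.one_lt_card_iff_nontrivial.2 hZ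
  have h2 : Nat.card (center P) < Nat.card (centralizer {y} : Subgroup P) := by
    apply lt_of_le_of_ne (Subgroup.card_le_of_le hZle)
    intro h
    exact hne (Subgroup.eq_of_le_of_card_ge hZle h.ge)
  rw [hj2] at h1 h2
  rw [hi2] at h2 hy
  have hj0 : 0 < j := by
    rcases Nat.eq_zero_or_pos j with rfl | h
    · simp at h1
    · exact h
  have hji : j < i := (Nat.pow_lt_pow_iff_right (by norm_num)).1 h2
  have hi3 : i ≤ 2 := by
    by_contra hcon
    push Not at hcon
    have : 2 ^ 3 ≤ 2 ^ i := Nat.pow_le_pow_right (by norm_num) hcon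
    omega
  have hi4 : i = 2 := by omega
  rw [hi4] at hi2
  apply MaxClassCrit.nilpotencyClass_of_self_centralizing m hP _ hi2
  apply Subgroup.centralizer_le
  rw [Set.singleton_subset_iff]
  exact mem_centralizer_singleton_iff.2 rfl

/-- criterion with a cyclic subgroup of index two -/
theorem card_centralizer_le {P : Type u} [Group P] [Finite P] {U : Subgroup P} (hU : IsCyclic U) (hi : U.index = 2)
    {y : P} (h : ∀ g ∈ U, g * y = y * g → g ^ 2 = 1) : Nat.card (centralizer {y} : Subgroup P) ≤ 4 := by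
  classical
  set C := (centralizer {y} : Subgroup P) with hC
  have h1 : Nat.card (U ⊓ C : Subgroup P) ≤ 2 := by
    haveI := Fintype.ofFinite U
    have h2 := IsCyclic.card_pow_eq_one_le (α := U) (n := 2) (by norm_num)
    have h3 : Nat.card (U ⊓ C : Subgroup P) ≤ Nat.card {a : U // a ^ 2 = 1} := by
      refine Nat.card_le_card_of_injective (fun g => (⟨⟨g.1, g.2.1⟩, Subtype.ext ?_⟩ : {a : U // a ^ 2 = 1})) ?_
      · exact h g.1 g.2.1 (mem_centralizer_singleton_iff.1 g.2.2)
      · intro a b hab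
        have : (a : P) = b := congrArg (fun z => ((z : {a : U // a ^ 2 = 1}).1 : P)) hab
        exact Subtype.ext this
    rw [Nat.card_eq_fintype_card (α := {a : U // a ^ 2 = 1}), Fintype.card_subtype] at h3
    exact h3.trans h2
  have hn : U.Normal := Subgroup.normal_of_index_eq_two hi
  have h2 : U.relIndex C ≤ 2 := by
    rw [← hi]
    exact Nat.le_of_dvd (by rw [hi]; norm_num) (Subgroup.relIndex_dvd_index_of_normal U C)
  have h3 : Nat.card (U ⊓ C : Subgroup P) * U.relIndex C = Nat.card C := by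
    rw [← Subgroup.inf_relIndex_right]
    have := Subgroup.relIndex_mul_relIndex (⊥ : Subgroup P) (U ⊓ C) C bot_le inf_le_right
    rwa [Subgroup.relIndex_bot_left, Subgroup.relIndex_bot_left] at this
  rw [← h3]
  nlinarith

/-- `y u y⁻¹ = u⁻¹` -/
theorem sq_of_inv {P : Type u} [Group P] {u y : P} (h : y * u * y⁻¹ = u⁻¹) :
    ∀ g ∈ zpowers u, g * y = y * g → g ^ 2 = 1 := by
  intro g hg hgy
  obtain ⟨i, rfl⟩ := mem_zpowers_iff.1 hg
  have h1 : y * u ^ i * y⁻¹ = (u ^ i)⁻¹ := by
    rw [← conj_zpow, h, inv_zpow]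
  rw [← hgy, mul_inv_cancel_right] at h1
  rw [pow_two]
  exact mul_eq_one_iff_eq_inv.2 h1

theorem class_of_inv {P : Type u} [Group P] [Finite P] {m : ℕ} (hP : Nat.card P = 2 ^ m) (hna : ¬ IsMulCommutative P)
    {u y : P} (hu : 2 * orderOf u = Nat.card P) (h : ∀ g ∈ zpowers u, g * y = y * g → g ^ 2 = 1) :
    Group.nilpotencyClass P = m - 1 := by
  apply class_of_centralizer hP hna (y := y)
  apply card_centralizer_le (U := zpowers u) inferInstance _ h
  have h1 := (zpowers u).card_mul_index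
  rw [Nat.card_zpowers, ← hu, mul_comm 2] at h1
  exact Nat.eq_of_mul_eq_mul_left (orderOf_pos u) h1

theorem class_dihedral {P : Type u} [Group P] [Finite P] {m n : ℕ} (hP : Nat.card P = 2 ^ m) (hna : ¬ IsMulCommutative P)
    (e : P ≃* DihedralGroup n) : Group.nilpotencyClass P = m - 1 := by
  have hc : Nat.card P = 2 * n := by rw [Nat.card_congr e.toEquiv, DihedralGroup.nat_card]
  apply class_of_inv hP hna (u := e.symm (DihedralGroup.r 1)) (y := e.symm (DihedralGroup.sr 0))
  · rw [hc, MulEquiv.orderOf_eq, DihedralGroup.orderOf_r_one]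
  · apply sq_of_inv
    rw [← map_inv, ← map_inv, ← map_mul, ← map_mul]
    congr 1
    simp

theorem class_quaternion {P : Type u} [Group P] [Finite P] {m n : ℕ} (hP : Nat.card P = 2 ^ m) (hna : ¬ IsMulCommutative P)
    (e : P ≃* QuaternionGroup n) : Group.nilpotencyClass P = m - 1 := by
  have hn : n ≠ 0 := by
    rintro rfl
    have h1 : orderOf (e.symm (QuaternionGroup.a 1)) = 0 := by
      rw [MulEquiv.orderOf_eq, QuaternionGroup.orderOf_a_one]
    have := orderOf_pos (e.symm (QuaternionGroup.a 1))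
    omega
  haveI : NeZero n := ⟨hn⟩
  have hc : Nat.card P = 4 * n := by rw [Nat.card_congr e.toEquiv, Nat.card_eq_fintype_card, QuaternionGroup.card]
  apply class_of_inv hP hna (u := e.symm (QuaternionGroup.a 1)) (y := e.symm (QuaternionGroup.xa 0))
  · rw [hc, MulEquiv.orderOf_eq, QuaternionGroup.orderOf_a_one]; ring
  · apply sq_of_inv
    rw [← map_inv, ← map_inv, ← map_mul, ← map_mul]
    congr 1
    rw [mul_inv_eq_iff_eq_mul, QuaternionGroup.xa_mul_a]
    have : (QuaternionGroup.a 1 : QuaternionGroup n)⁻¹ = QuaternionGroup.a (-1) := rfl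
    rw [this, QuaternionGroup.a_mul_xa]
    simp

theorem class_quasi {P : Type u} [Group P] [Finite P] {m : ℕ} (hP : Nat.card P = 2 ^ m) (hna : ¬ IsMulCommutative P)
    (h : IsQuasiDihedral P) : Group.nilpotencyClass P = m - 1 := by
  obtain ⟨n, hn, hc, x, y, hx, hy, hxy⟩ := h
  apply class_of_inv hP hna (u := x) (y := y)
  · rw [hc, hx, pow_succ]; ring
  · intro g hg hgy
    obtain ⟨i, rfl⟩ := mem_zpowers_iff.1 hg
    have h1 : y * x ^ i * y⁻¹ = (x ^ i) ^ (2 ^ (n - 1) - 1) := by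
      rw [← conj_zpow, hxy, ← zpow_natCast, ← zpow_mul, ← zpow_natCast, ← zpow_mul, mul_comm]
    rw [← hgy, mul_inv_cancel_right] at h1
    obtain ⟨k, rfl⟩ : ∃ k, n = k + 3 := ⟨n - 3, by omega⟩
    have e1 : 2 ^ (k + 3 - 1) - 1 = (2 ^ (k + 3 - 1) - 2) + 1 := by
      have : 2 ^ 2 ≤ 2 ^ (k + 3 - 1) := Nat.pow_le_pow_right (by norm_num) (by omega)
      omega
    rw [e1, pow_succ] at h1
    have h2 : (x ^ i) ^ (2 ^ (k + 3 - 1) - 2) = 1 := mul_eq_right.1 h1.symm
    have h3 : (x ^ i) ^ (2 ^ (k + 3)) = 1 := by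
      rw [← zpow_natCast, ← zpow_mul, mul_comm, zpow_mul, zpow_natCast, ← hx, pow_orderOf_eq_one, one_zpow]
    have h4 := orderOf_dvd_of_pow_eq_one h2
    have h5 := orderOf_dvd_of_pow_eq_one h3
    have e2 : 2 ^ (k + 3 - 1) = 4 * 2 ^ k := by
      rw [show k + 3 - 1 = k + 2 by omega, pow_add]; ring
    have e3 : 2 ^ (k + 3) = 8 * 2 ^ k := by rw [pow_add]; ring
    have e4 : 0 < 2 ^ k := by positivity
    rw [e2] at h4
    rw [e3] at h5
    have h6 : orderOf (x ^ i) ∣ 4 := by
      have h7 := Nat.dvd_sub h5 (h4.mul_left 2)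
      have h8 : 8 * 2 ^ k - 2 * (4 * 2 ^ k - 2) = 4 := by omega
      rwa [h8] at h7
    have h7 : orderOf (x ^ i) ∣ 2 := by
      have h8 := Nat.dvd_sub (h6.mul_right (2 ^ k)) h4
      have h9 : 4 * 2 ^ k - (4 * 2 ^ k - 2) = 2 := by omega
      rwa [h9] at h8
    exact orderOf_dvd_iff_pow_eq_one.1 h7

/-- existence of the normal four-group -/
theorem exists_rk_two {P : Type u} [Group P] [Finite P] {m : ℕ} (hP : Nat.card P = 2 ^ m) (hnc : ¬ IsCyclic P)
    (hcl : Group.nilpotencyClass P ≠ m - 1) : ∃ (R : Subgroup P) (z : P), Rk 2 R z ∧ ¬ centralizer (R : Set P) ≤ R := by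
  haveI : Fact (Nat.Prime 2) := ⟨Nat.prime_two⟩
  have hPg : IsPGroup 2 P := IsPGroup.of_card hP
  have key : ∀ (R : Subgroup P) (z : P), Rk 2 R z → ¬ centralizer (R : Set P) ≤ R := by
    intro R z h hle
    exact hcl (MaxClassCrit.nilpotencyClass_of_self_centralizing m hP R h.card hle)
  suffices ∃ (R : Subgroup P) (z : P), Rk 2 R z by
    obtain ⟨R, z, h⟩ := this
    exact ⟨R, z, h, key R z h⟩
  haveI : Group.IsNilpotent P := hPg.isNilpotent
  obtain ⟨A, hAn, hAab, hAC⟩ := MinimalClass.exists_self_centralizing_normal_abelian (G := P)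
  by_cases hAc : IsCyclic A
  · have hna : ¬ IsMulCommutative P := by
      intro hab
      have h1 : A = ⊤ := by
        rw [← hAC, eq_top_iff]
        intro x _
        rw [mem_centralizer_iff]
        intro y _
        exact mul_comm' y x
      rw [h1] at hAc
      exact hnc ((Subgroup.topEquiv (G := P)).isCyclic.1 hAc)
    obtain ⟨n, hn⟩ := IsPGroup.iff_card.1 (hPg.to_subgroup A)
    rcases Cfsg.Agent.S3761.result hPg hna A hAc n hn hAC with ⟨-, -, h1⟩ | ⟨-, h2, h3, h4⟩
    · exfalso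
      rcases h1 with ⟨k, ⟨e⟩⟩ | ⟨k, ⟨e⟩⟩ | h1
      · exact hcl (class_dihedral hP hna e)
      · exact hcl (class_quaternion hP hna e)
      · exact hcl (class_quasi hP hna h1)
    · haveI := h4
      obtain ⟨z, hz⟩ := rk_of_normal hPg (inferInstance) h3 h2.2
      exact ⟨_, z, hz⟩
  · exact rk_of_noncyclic hPg hAn hAab hAc

theorem ncard_of_closed {P : Type u} [Group P] [Finite P] (R : Subgroup P) (S : Set P)
    (hS : ∀ x ∈ S, ∀ r ∈ R, x * r ∈ S) : S.ncard = Nat.card R * ((QuotientGroup.mk : P → P ⧸ R) '' S).ncard := by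
  rw [← H70Kulakoff.ncard_preimage_mk]
  congr 1
  ext x
  constructor
  · intro hx; exact ⟨x, hx, rfl⟩
  · rintro ⟨y, hy, hxy⟩
    have h6 : y⁻¹ * x ∈ R := QuotientGroup.eq.1 hxy
    have := hS y hy _ h6
    rwa [mul_inv_cancel_left] at this

theorem two_dvd_sq {Q : Type u} [Group Q] [Finite Q] (h : 2 ∣ Nat.card Q) : 2 ∣ ({y : Q | y ^ 2 = 1}).ncard :=
  FrobDvd.frobenius_dvd 2 h

theorem Rk.four_dvd {P : Type u} [Group P] [Finite P] (hP : IsPGroup 2 P) {R : Subgroup P} {z : P} (h : Rk 2 R z)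
    (hC : ¬ centralizer (R : Set P) ≤ R) : 4 ∣ ({x : P | x ^ 2 = 1}).ncard := by
  classical
  haveI : Fact (Nat.Prime 2) := ⟨Nat.prime_two⟩
  haveI := h.nor
  set C := centralizer (R : Set P) with hCdef
  have hcomm : IsMulCommutative R := IsPGroup.isMulCommutative_of_card_eq_prime_sq h.card
  have hRC : R ≤ C := by
    rw [hCdef, Subgroup.le_centralizer_iff_isMulCommutative]; exact hcomm
  have hcR : Nat.card R = 4 := by rw [h.card]; norm_num
  have hsplit : ({x : P | x ^ 2 = 1}).ncard = ({x : P | x ∈ C ∧ x ^ 2 = 1}).ncard + ({x : P | x ∉ C ∧ x ^ 2 = 1}).ncard := by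
    have e : {x : P | x ^ 2 = 1} = {x : P | x ∈ C ∧ x ^ 2 = 1} ∪ {x : P | x ∉ C ∧ x ^ 2 = 1} := by
      ext x; simp only [Set.mem_setOf_eq, Set.mem_union]; tauto
    rw [e, Set.ncard_union_eq]
    rw [Set.disjoint_left]
    rintro x ⟨h1, _⟩ ⟨h2, _⟩
    exact h2 h1
  have hA1 : 4 ∣ ({x : P | x ∈ C ∧ x ^ 2 = 1}).ncard := by
    rw [ncard_of_closed R _ (by
      rintro x ⟨hx, hx2⟩ r hr
      refine ⟨C.mul_mem hx (hRC hr), ?_⟩
      have hxr : Commute x r := (mem_centralizer_iff.1 hx r hr).symm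
      rw [hxr.mul_pow, hx2, h.exp r hr, one_mul]), hcR]
    exact dvd_mul_right _ _
  rw [hsplit]
  refine dvd_add hA1 ?_
  have hmemz : ∀ a ∈ zpowers z, a = 1 ∨ a = z := by
    intro a ha
    have hz2 : z ^ 2 = 1 := by rw [← h.zo]; exact pow_orderOf_eq_one z
    obtain ⟨k, rfl⟩ := mem_zpowers_iff.1 ha
    rcases Int.even_or_odd k with ⟨m, rfl⟩ | ⟨m, rfl⟩
    · left; rw [← two_mul, zpow_mul, zpow_ofNat, hz2, one_zpow]
    · right; rw [zpow_add, zpow_mul, zpow_one, zpow_ofNat, hz2, one_zpow, one_mul]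
  -- an element of `R` outside `⟨z⟩`
  obtain ⟨r1, hr1, hr1z⟩ : ∃ r ∈ R, r ∉ zpowers z := by
    by_contra hcon
    push Not at hcon
    have h1 : R ≤ zpowers z := hcon
    have h2 := Subgroup.card_le_of_le h1
    rw [hcR, Nat.card_zpowers, h.zo] at h2
    omega
  have hgen : ∀ x : P, ∀ r ∈ R, r ∉ zpowers z → x * r = r * x → x ∈ C := by
    intro x r hr hrz hxr
    have h1 : R ≤ centralizer {x} := by
      apply le_of_mem Nat.prime_two h.card h.zR h.zo hr hrz
      · rw [mem_centralizer_singleton_iff]; exact (mem_center_iff.1 h.zc x).symm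
      · rw [mem_centralizer_singleton_iff]; exact hxr.symm
    rw [hCdef, mem_centralizer_iff]
    intro y hy
    exact mem_centralizer_singleton_iff.1 (h1 hy)
  have hcz : ∀ x, x ∉ C → x * r1 * x⁻¹ * r1⁻¹ = z := by
    intro x hx
    rcases hmemz _ (h.com r1 hr1 x) with h1 | h1
    · exfalso
      apply hx
      exact hgen x r1 hr1 hr1z (mul_inv_eq_iff_eq_mul.1 (mul_inv_eq_one.1 h1))
    · exact h1
  have hz1 : z ≠ 1 := by
    intro h1
    have := h.zo
    rw [h1, orderOf_one] at this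
    omega
  have hzz : z * z = 1 := by
    rw [← pow_two]
    have := pow_orderOf_eq_one z
    rwa [h.zo] at this
  have hr12 : r1 * r1 = 1 := by rw [← pow_two]; exact h.exp r1 hr1
  have hsq : ∀ x, x ∉ C → x ^ 2 ∈ R → (x * r1) ^ 2 = z * x ^ 2 := by
    intro x hx hx2
    have h1 : x * r1 = z * r1 * x := by
      have := hcz x hx
      calc x * r1 = (x * r1 * x⁻¹ * r1⁻¹) * r1 * x := by group
        _ = z * r1 * x := by rw [this]
    have h2 : x ^ 2 * r1 = r1 * x ^ 2 := by
      have := mul_comm' (⟨x ^ 2, hx2⟩ : R) ⟨r1, hr1⟩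
      exact congrArg Subtype.val this
    calc (x * r1) ^ 2 = (x * r1) * (x * r1) := pow_two _
      _ = (z * r1 * x) * (x * r1) := by rw [← h1]
      _ = z * r1 * (x ^ 2 * r1) := by rw [pow_two]; group
      _ = z * (r1 * r1) * x ^ 2 := by rw [h2]; group
      _ = z * x ^ 2 := by rw [hr12, mul_one]
  have hsq2 : ∀ x, x ∉ C → x ^ 2 ∈ R → x ^ 2 = 1 ∨ x ^ 2 = z := by
    intro x hx hx2
    apply hmemz
    by_contra h1
    exact hx (hgen x _ hx2 h1 (by rw [← pow_succ, ← pow_succ']))
  set B : Set P := {x | x ∉ C ∧ x ^ 2 ∈ R} with hB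
  have hxC : ∀ x r, r ∈ R → (x * r ∈ C ↔ x ∈ C) := by
    intro x r hr
    constructor
    · intro h1
      have := C.mul_mem h1 (C.inv_mem (hRC hr))
      rwa [mul_inv_cancel_right] at this
    · intro h1; exact C.mul_mem h1 (hRC hr)
  have hBcl : ∀ x ∈ B, ∀ r ∈ R, x * r ∈ B := by
    rintro x ⟨hx, hx2⟩ r hr
    refine ⟨fun h1 => hx ((hxC x r hr).1 h1), ?_⟩
    have e : (x * r) ^ 2 = (x * r * x⁻¹) * (x ^ 2 * r) := by rw [pow_two, pow_two]; group
    rw [e]
    exact R.mul_mem (h.nor.conj_mem r hr x) (R.mul_mem hx2 hr)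
  have hBc := ncard_of_closed R B hBcl
  rw [hcR] at hBc
  -- the image
  set D : Subgroup (P ⧸ R) := C.map (QuotientGroup.mk' R) with hD
  have hmemD : ∀ x : P, (QuotientGroup.mk x : P ⧸ R) ∈ D ↔ x ∈ C := by
    intro x
    constructor
    · rintro ⟨y, hy, hyx⟩
      have h6 : y⁻¹ * x ∈ R := QuotientGroup.eq.1 hyx
      have := C.mul_mem hy (hRC h6)
      rwa [mul_inv_cancel_left] at this
    · intro hx; exact ⟨x, hx, rfl⟩
  have himg : (QuotientGroup.mk : P → P ⧸ R) '' B = {y | y ∉ D ∧ y ^ 2 = 1} := by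
    ext y
    obtain ⟨x, rfl⟩ := QuotientGroup.mk_surjective y
    constructor
    · rintro ⟨w, ⟨hw, hw2⟩, hwx⟩
      rw [← hwx]
      refine ⟨fun h1 => hw ((hmemD w).1 h1), ?_⟩
      rw [← QuotientGroup.mk_pow, QuotientGroup.eq_one_iff]; exact hw2
    · rintro ⟨h1, h2⟩
      refine ⟨x, ⟨fun h3 => h1 ((hmemD x).2 h3), ?_⟩, rfl⟩
      rwa [← QuotientGroup.mk_pow, QuotientGroup.eq_one_iff] at h2
  have hDcard : 2 ∣ Nat.card D := by
    have h1 : Nat.card D ≠ 1 := by
      intro h1
      have h2 : D = ⊥ := Subgroup.card_eq_one.1 h1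
      apply hC
      intro x hx
      have h3 : (QuotientGroup.mk x : P ⧸ R) ∈ D := (hmemD x).2 hx
      rw [h2, mem_bot, QuotientGroup.eq_one_iff] at h3
      exact h3
    obtain ⟨n, hn⟩ := IsPGroup.iff_card.1 ((hP.to_quotient R).to_subgroup D)
    rw [hn] at h1 ⊢
    rcases Nat.eq_zero_or_pos n with rfl | hn0
    · simp at h1
    · exact dvd_pow_self 2 hn0.ne'
  have hev1 : 2 ∣ ({y : P ⧸ R | y ^ 2 = 1}).ncard := two_dvd_sq (hDcard.trans (Subgroup.card_subgroup_dvd_card D))
  have hev2 : 2 ∣ ({y : P ⧸ R | y ∈ D ∧ y ^ 2 = 1}).ncard := by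
    have h1 := two_dvd_sq hDcard
    have h2 : ({y : P ⧸ R | y ∈ D ∧ y ^ 2 = 1}).ncard = ({y : D | y ^ 2 = 1}).ncard := by
      have e : {y : P ⧸ R | y ∈ D ∧ y ^ 2 = 1} = (Subtype.val : D → P ⧸ R) '' {y : D | y ^ 2 = 1} := by
        ext y
        constructor
        · rintro ⟨h1, h2⟩; exact ⟨⟨y, h1⟩, Subtype.ext h2, rfl⟩
        · rintro ⟨w, hw, rfl⟩; exact ⟨w.2, congrArg Subtype.val hw⟩
      rw [e, Set.ncard_image_of_injective _ Subtype.val_injective]
    rw [h2]; exact h1
  have hev : 2 ∣ ({y : P ⧸ R | y ∉ D ∧ y ^ 2 = 1}).ncard := by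
    have e : {y : P ⧸ R | y ^ 2 = 1} = {y : P ⧸ R | y ∈ D ∧ y ^ 2 = 1} ∪ {y : P ⧸ R | y ∉ D ∧ y ^ 2 = 1} := by
      ext x; simp only [Set.mem_setOf_eq, Set.mem_union]; tauto
    rw [e, Set.ncard_union_eq] at hev1
    · exact (Nat.dvd_add_right hev2).1 hev1
    · rw [Set.disjoint_left]
      rintro x ⟨h1, _⟩ ⟨h2, _⟩
      exact h2 h1
  rw [himg] at hBc
  -- halves
  have hBsplit : B.ncard = ({x : P | x ∉ C ∧ x ^ 2 = 1}).ncard + ({x : P | x ∉ C ∧ x ^ 2 = z}).ncard := by
    have e : B = {x : P | x ∉ C ∧ x ^ 2 = 1} ∪ {x : P | x ∉ C ∧ x ^ 2 = z} := by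
      ext x
      constructor
      · rintro ⟨h1, h2⟩
        rcases hsq2 x h1 h2 with h3 | h3
        · left; exact ⟨h1, h3⟩
        · right; exact ⟨h1, h3⟩
      · rintro (⟨h1, h2⟩ | ⟨h1, h2⟩)
        · exact ⟨h1, by rw [h2]; exact R.one_mem⟩
        · exact ⟨h1, by rw [h2]; exact h.zR⟩
    rw [e, Set.ncard_union_eq]
    rw [Set.disjoint_left]
    rintro x ⟨_, h1⟩ ⟨_, h2⟩
    rw [h1] at h2
    exact hz1 h2.symm
  have heq : ({x : P | x ∉ C ∧ x ^ 2 = z}).ncard = ({x : P | x ∉ C ∧ x ^ 2 = 1}).ncard := by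
    have e : {x : P | x ∉ C ∧ x ^ 2 = z} = (fun x => x * r1) '' {x : P | x ∉ C ∧ x ^ 2 = 1} := by
      ext x
      constructor
      · rintro ⟨h1, h2⟩
        refine ⟨x * r1, ⟨fun h3 => h1 ((hxC x r1 hr1).1 h3), ?_⟩, ?_⟩
        · rw [hsq x h1 (by rw [h2]; exact h.zR), h2, hzz]
        · simp only; rw [mul_assoc, hr12, mul_one]
      · rintro ⟨y, ⟨h1, h2⟩, rfl⟩
        refine ⟨fun h3 => h1 ((hxC y r1 hr1).1 h3), ?_⟩
        simp only
        rw [hsq y h1 (by rw [h2]; exact R.one_mem), h2, mul_one]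
    rw [e, Set.ncard_image_of_injective _ (mul_left_injective r1)]
  rw [hBsplit, heq] at hBc
  obtain ⟨c, hc⟩ := hev
  refine ⟨c, ?_⟩
  rw [hc] at hBc
  omega

theorem hall_kulakoff {G : Type u} [Group G] [Finite G] {p : ℕ} [Fact p.Prime] (m : ℕ)
    (hG : Nat.card G = p ^ m) (hnc : ¬ IsCyclic G) (h2 : p = 2 → Group.nilpotencyClass G ≠ m - 1)
    (k : ℕ) (hk1 : 1 ≤ k) (hk2 : k < m) :
    Nat.card {H : Subgroup G // Nat.card H = p ^ k} ≡ 1 + p [MOD p ^ 2] := by
  have hp : p.Prime := Fact.out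
  have hd : p ^ (k + 1) ∣ Nat.card G := by rw [hG]; exact pow_dvd_pow p hk2
  have hPg : IsPGroup p G := IsPGroup.of_card hG
  obtain ⟨j, rfl⟩ : ∃ j, k = j + 1 := ⟨k - 1, by omega⟩
  by_cases hp2 : p = 2
  · subst hp2
    obtain ⟨R, z, h, hC⟩ := exists_rk_two hG hnc (h2 rfl)
    rcases Nat.eq_zero_or_pos j with rfl | hj
    · obtain ⟨c, hc⟩ := h.four_dvd hPg hC
      have h3 : ({x : G | x ^ 2 = 1}).ncard = ({x : G | orderOf x = 2}).ncard + 1 := by
        have e : {x : G | x ^ 2 = 1} = insert 1 {x : G | orderOf x = 2} := by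
          ext x
          simp only [Set.mem_setOf_eq, Set.mem_insert_iff]
          rw [← orderOf_dvd_iff_pow_eq_one, Nat.dvd_prime Nat.prime_two, orderOf_eq_one_iff]
        rw [e, Set.ncard_insert_of_notMem]
        simp
      have h4 := card_cyclic (G := G) 2
      have h5 : Nat.card {K : Subgroup G // Nat.card K = 2 ∧ IsCyclic K} = Nat.card {K : Subgroup G // Nat.card K = 2 ^ (0 + 1)} := by
        apply Nat.card_congr
        apply Equiv.subtypeEquivRight
        intro K
        norm_num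
        intro h6
        exact isCyclic_of_prime_card h6
      rw [h5, Nat.totient_two, mul_one] at h4
      rw [h3, h4] at hc
      have h6 : Nat.card {K : Subgroup G // Nat.card K = 2 ^ (0 + 1)} = 4 * c - 1 := by omega
      rw [h6]
      have : 1 ≤ c := by omega
      obtain ⟨d, rfl⟩ : ∃ d, c = d + 1 := ⟨c - 1, by omega⟩
      have h7 : 4 * (d + 1) - 1 = (1 + 2) + 2 ^ 2 * d := by omega
      rw [h7]
      exact (Nat.modEq_iff_dvd' (Nat.le_add_right _ _)).2 (by simp) |>.symm
    · apply of_cyclic_zero hp hd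
      rw [Nat.modEq_zero_iff_dvd]
      apply h.miller hp
      calc 3 ≤ 2 ^ 2 := by norm_num
        _ ≤ 2 ^ (j + 1) := Nat.pow_le_pow_right (by norm_num) (by omega)
  · obtain ⟨R, z, h⟩ := exists_rk_odd hp2 hPg hnc
    apply of_cyclic_zero hp hd
    rw [Nat.modEq_zero_iff_dvd]
    apply h.miller hp
    have h3 : 3 ≤ p := lt_of_le_of_ne hp.two_le (Ne.symm hp2)
    calc 3 ≤ p := h3
      _ = p ^ 1 := (pow_one p).symm
      _ ≤ p ^ (j + 1) := Nat.pow_le_pow_right hp.pos (by omega)

end Cfsg.Agent.Lib.H70Miller
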