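import Mathlib
import Cfsg.Prelude.Def_Transfer
import Cfsg.Prelude.Def_Solvable
import Cfsg.Agent.Lib.PNilp
import Cfsg.Agent.Lib.Transfer
import Cfsg.Agent.Lib.CoprimeAction2
import Cfsg.Agent.Lib.H70Frattini

/-!
# Minimal non-`p`-nilpotent sections (helper70)

* `minimal_structure` : a finite group which is not `p`-nilpotent but whose proper subgroups and proper
  quotients are: `K = P⟨g⟩`, `P` elementary abelian normal, `g` of prime order `≠ p`, `C_P(g) = 1`.
* `exists_section` : every finite group which is not `p`-nilpotent has such a section.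
-/

set_option autoImplicit false

open Subgroup Cfsg

namespace Cfsg.Agent.Lib.H70PNil

open Cfsg.Agent.Lib.PNilp Cfsg.Agent.Lib.Transfer Cfsg.Agent.Lib.CoprimeAction2

theorem orderOf_zpow_dvd_self {G : Type*} [Group G] (x : G) (k : ℤ) : orderOf (x ^ k) ∣ orderOf x := by
  apply orderOf_dvd_of_pow_eq_one
  rw [← zpow_natCast, ← zpow_mul, mul_comm, zpow_mul, zpow_natCast, pow_orderOf_eq_one, one_zpow]

theorem mem_center_of_commute {K : Type*} [Group K] {P : Subgroup K} {g z : K}
    (htop : P ⊔ zpowers g = ⊤) (h1 : ∀ x ∈ P, x * z = z * x) (h2 : g * z = z * g) :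
    z ∈ center K := by
  have h3 : (⊤ : Subgroup K) ≤ centralizer {z} := by
    rw [← htop]
    refine sup_le ?_ ?_
    · intro x hx
      rw [mem_centralizer_singleton_iff]
      exact h1 x hx
    · rw [zpowers_le, mem_centralizer_singleton_iff]
      exact h2
  rw [mem_center_iff]
  intro x
  exact mem_centralizer_singleton_iff.1 (h3 (mem_top x))

theorem minimal_structure {K : Type*} [Group K] [Finite K] {p : ℕ} [hp : Fact p.Prime]
    (hn : ¬ HasNormalPComplement p K)
    (hsub : ∀ M : Subgroup K, M ≠ ⊤ → HasNormalPComplement p M)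
    (hquot : ∀ N : Subgroup K, ∀ _ : N.Normal, N ≠ ⊥ → HasNormalPComplement p (K ⧸ N)) :
    ∃ (P : Subgroup K) (g : K), P.Normal ∧ P ≠ ⊥ ∧ IsPGroup p P ∧ (∀ x ∈ P, x ^ p = 1) ∧
      (∀ x ∈ P, ∀ y ∈ P, x * y = y * x) ∧ (orderOf g).Prime ∧ (orderOf g).Coprime p ∧
      P ⊔ zpowers g = ⊤ ∧ (∀ x ∈ P, x * g = g * x → x = 1) := by
  -- no normal p'-subgroups
  have h1 : ∀ N : Subgroup K, N.Normal → ¬ p ∣ Nat.card N → N = ⊥ := by
    intro N hN hpN
    by_contra hne
    exact hn (HasNormalPComplement.of_quotient N hpN (hquot N hN hne))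
  -- a normal p-subgroup
  obtain ⟨P, hPp, hPne, hPn⟩ : ∃ P : Subgroup K, IsPGroup p P ∧ P ≠ ⊥ ∧ P.Normal := by
    have h2 := hn
    rw [hasNormalPComplement_iff_normalizers] at h2
    push Not at h2
    obtain ⟨Q, hQ, hQne, hQn⟩ := h2
    refine ⟨Q, hQ, hQne, ?_⟩
    rw [← normalizer_eq_top_iff]
    by_contra h3
    exact hQn (hsub _ h3)
  -- O^p(K) = K
  have h3 : pResidual p K = ⊤ := by
    by_contra hne
    have h4 := (hasNormalPComplement_iff_pResidual).1 (hsub _ hne)
    rw [pResidual_pResidual, Subgroup.card_top] at h4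
    exact hn ((hasNormalPComplement_iff_pResidual).2 h4)
  have h4 : ¬ p ∣ Nat.card (K ⧸ P) := by
    have h5 := (hasNormalPComplement_iff_pResidual).1 (hquot P hPn hPne)
    rw [← map_pResidual_of_surjective p (QuotientGroup.mk' P) (QuotientGroup.mk'_surjective P), h3,
      ← MonoidHom.range_eq_map, MonoidHom.range_eq_top.2 (QuotientGroup.mk'_surjective P),
      Subgroup.card_top] at h5
    exact h5
  have h5 : ∀ x : K, (∃ k : ℕ, x ^ p ^ k = 1) → x ∈ P := by
    rintro x ⟨k, hk⟩
    have h6 : orderOf (x : K ⧸ P) ∣ p ^ k := by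
      apply orderOf_dvd_of_pow_eq_one
      rw [← QuotientGroup.mk_pow, hk]; rfl
    have h7 : orderOf (x : K ⧸ P) ∣ Nat.card (K ⧸ P) := orderOf_dvd_natCard _
    have h8 : orderOf (x : K ⧸ P) = 1 := by
      apply Nat.eq_one_of_dvd_coprimes _ h6 h7
      apply Nat.Coprime.pow_left
      exact (Nat.Prime.coprime_iff_not_dvd hp.out).2 h4
    rw [orderOf_eq_one_iff, QuotientGroup.eq_one_iff] at h8
    exact h8
  -- generation
  have h7 : ∀ g : K, (orderOf g).Coprime p → g ∉ centralizer (P : Set K) → P ⊔ zpowers g = ⊤ := by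
    intro g hg hgP
    by_contra hne
    have hM := hsub _ hne
    set M := P ⊔ zpowers g with hMdef
    have hPM : P ≤ M := le_sup_left
    have hgM : g ∈ M := (le_sup_right : zpowers g ≤ M) (mem_zpowers g)
    have h8 := mem_centralizer_of_hasNormalPComplement hM (P.subgroupOf M)
      hPp.comap_subtype ⟨g, hgM⟩ (by
        rw [normalizer_eq_top_iff.2 inferInstance]; trivial) (by rw [← Subgroup.orderOf_coe]; exact hg)
    apply hgP
    rw [mem_centralizer_iff] at h8 ⊢
    intro x hx
    exact congrArg Subtype.val (h8 ⟨x, hPM hx⟩ (by exact hx))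
  -- images in quotients commute
  have h8 : ∀ N : Subgroup K, N.Normal → N ≠ ⊥ → ∀ g : K, (orderOf g).Coprime p → ∀ x ∈ P,
      g * x * g⁻¹ * x⁻¹ ∈ N := by
    intro N hN hne g hg x hx
    have h9 := mem_centralizer_of_hasNormalPComplement (hquot N hN hne) (P.map (QuotientGroup.mk' N))
      (hPp.map _) (QuotientGroup.mk' N g) (by
        have : (P.map (QuotientGroup.mk' N)).Normal := hPn.map _ (QuotientGroup.mk'_surjective N)
        rw [normalizer_eq_top_iff.2 this]; trivial)
      (Nat.Coprime.coprime_dvd_left (orderOf_map_dvd _ g) hg)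
    rw [mem_centralizer_iff] at h9
    have h10 := h9 (QuotientGroup.mk' N x) ⟨x, hx, rfl⟩
    rw [← QuotientGroup.eq_one_iff]
    change (QuotientGroup.mk' N) (g * x * g⁻¹ * x⁻¹) = 1
    rw [map_mul, map_mul, map_mul, map_inv, map_inv, ← h10]
    group
  -- a p'-element acting nontrivially
  obtain ⟨g, hg, hgP⟩ : ∃ g : K, (orderOf g).Coprime p ∧ g ∉ centralizer (P : Set K) := by
    by_contra hcon
    push Not at hcon
    apply hn
    apply hasNormalPComplement_of_local
    intro D hD _ g _ hgo
    have h9 : D ≤ P := by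
      intro x hx
      obtain ⟨k, hk⟩ := hD ⟨x, hx⟩
      exact h5 x ⟨k, congrArg Subtype.val hk⟩
    have h10 := hcon g hgo
    rw [mem_centralizer_iff] at h10 ⊢
    exact fun x hx => h10 x (h9 hx)
  have hcopP : ∀ g : K, (orderOf g).Coprime p → (Nat.card (zpowers g)).Coprime (Nat.card P) := by
    intro g hg
    rw [Nat.card_zpowers]
    obtain ⟨k, hk⟩ := IsPGroup.iff_card.1 hPp
    rw [hk]
    exact Nat.Coprime.pow_right k hg
  have hzn : ∀ g : K, zpowers g ≤ normalizer (P : Set K) := by
    intro g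
    rw [normalizer_eq_top_iff.2 hPn]; exact le_top
  -- Frattini
  have h9 : (frattini P).map P.subtype = ⊥ := by
    by_contra hne
    have hΦn : ((frattini P).map P.subtype).Normal := inferInstance
    apply hgP
    have h10 := le_centralizer_of_frattini (hzn g) (by
      refine Nat.Coprime.coprime_dvd_right ?_ (hcopP g hg)
      exact Subgroup.card_subgroup_dvd_card _) (by
        intro a ha x hx
        apply h8 _ hΦn hne a _ x hx
        obtain ⟨k, rfl⟩ := mem_zpowers_iff.1 ha
        exact Nat.Coprime.coprime_dvd_left (orderOf_zpow_dvd_self _ k) hg)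
    exact h10 (mem_zpowers g)
  have h10 : frattini P = ⊥ := by
    rwa [map_eq_bot_iff_of_injective _ P.subtype_injective] at h9
  have hab : ∀ x ∈ P, ∀ y ∈ P, x * y = y * x := by
    intro x hx y hy
    have h11 : commutator P ≤ ⊥ := by
      rw [← h10]; exact Cfsg.Agent.Lib.H70Frattini.commutator_le_frattini hPp
    have h12 : (⟨x, hx⟩ : P) * ⟨y, hy⟩ = ⟨y, hy⟩ * ⟨x, hx⟩ := by
      have h13 := h11 (Subgroup.commutator_mem_commutator (mem_top (⟨x, hx⟩ : P)) (mem_top ⟨y, hy⟩))
      rw [Subgroup.mem_bot] at h13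
      exact commutatorElement_eq_one_iff_mul_comm.1 h13
    exact congrArg Subtype.val h12
  have hexp : ∀ x ∈ P, x ^ p = 1 := by
    intro x hx
    have h11 := Cfsg.Agent.Lib.H70Frattini.pow_mem_frattini hPp ⟨x, hx⟩
    rw [h10, Subgroup.mem_bot] at h11
    exact congrArg Subtype.val h11
  -- faithful action
  have h11 : ∀ z ∈ zpowers g, z ∈ centralizer (P : Set K) → z = 1 := by
    intro z hz hzc
    have hzcen : z ∈ center K := by
      apply mem_center_of_commute (h7 g hg hgP) (mem_centralizer_iff.1 hzc)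
      obtain ⟨k, rfl⟩ := mem_zpowers_iff.1 hz
      exact (Commute.refl g).zpow_right k
    have hZn : (zpowers z).Normal := by
      constructor
      intro a ha b
      have hac : a ∈ center K := (zpowers_le.2 hzcen) ha
      rw [mem_center_iff.1 hac b, mul_inv_cancel_right]
      exact ha
    have h12 : zpowers z = ⊥ := by
      apply h1 _ hZn
      intro hd
      rw [Nat.card_zpowers] at hd
      obtain ⟨k, rfl⟩ := mem_zpowers_iff.1 hz
      have h13 := hd.trans (orderOf_zpow_dvd_self _ k)
      exact (Nat.Prime.coprime_iff_not_dvd hp.out).1 hg.symm h13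
    rw [zpowers_eq_bot] at h12
    exact h12
  have hg1 : orderOf g ≠ 1 := by
    intro h
    rw [orderOf_eq_one_iff] at h
    apply hgP
    rw [h]; exact one_mem _
  obtain ⟨r, hr, hrg⟩ := Nat.exists_prime_and_dvd hg1
  set h := g ^ (orderOf g / r) with hh
  have hho : orderOf h = r := by
    rw [hh, orderOf_pow_of_dvd, Nat.div_div_self hrg (orderOf_pos g).ne']
    · exact (Nat.div_pos (Nat.le_of_dvd (orderOf_pos g) hrg) hr.pos).ne'
    · exact Nat.div_dvd_of_dvd hrg
  have hhP : h ∉ centralizer (P : Set K) := by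
    intro hc
    have h12 := h11 h (by rw [hh]; exact pow_mem (mem_zpowers g) _) hc
    rw [h12, orderOf_one] at hho
    exact hr.one_lt.ne hho
  have hhcop : (orderOf h).Coprime p := by
    rw [hho]; exact Nat.Coprime.coprime_dvd_left hrg hg
  refine ⟨P, h, hPn, hPne, hPp, hexp, hab, by rw [hho]; exact hr, hhcop, h7 h hhcop hhP, ?_⟩
  intro x hx hxh
  by_contra hx1
  have hxcen : x ∈ center K := by
    apply mem_center_of_commute (h7 h hhcop hhP) _ hxh.symm
    intro y hy
    exact hab y hy x hx
  have hZn : (zpowers x).Normal := by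
    constructor
    intro a ha b
    have hac : a ∈ center K := (zpowers_le.2 hxcen) ha
    rw [mem_center_iff.1 hac b, mul_inv_cancel_right]
    exact ha
  have hne : zpowers x ≠ ⊥ := by
    rwa [Ne, zpowers_eq_bot]
  have h12 : ⁅P, zpowers h⁆ ≤ zpowers x := by
    rw [commutator_comm, commutator_le]
    intro a ha y hy
    obtain ⟨k, rfl⟩ := mem_zpowers_iff.1 ha
    exact h8 _ hZn hne _ (Nat.Coprime.coprime_dvd_left (orderOf_zpow_dvd_self _ k) hhcop) y hy
  have h13 : P ≤ centralizer (zpowers h : Set K) := by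
    apply le_centralizer_of_series (hzn h) (hcopP h hhcop) (Or.inl inferInstance) h12
    rw [zpowers_le, mem_centralizer_iff]
    rintro a ha
    exact ((mem_center_iff.1 hxcen) a)
  apply hhP
  rw [mem_centralizer_iff]
  intro y hy
  exact (mem_centralizer_iff.1 (h13 hy) h (mem_zpowers h)).symm

theorem exists_section {G : Type*} [Group G] [Finite G] {p : ℕ} [hp : Fact p.Prime]
    (hn : ¬ HasNormalPComplement p G) :
    ∃ (H : Subgroup G) (N : Subgroup H) (_ : N.Normal) (P : Subgroup (H ⧸ N)) (g : H ⧸ N),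
      P.Normal ∧ P ≠ ⊥ ∧ IsPGroup p P ∧ (∀ x ∈ P, x ^ p = 1) ∧
      (∀ x ∈ P, ∀ y ∈ P, x * y = y * x) ∧ (orderOf g).Prime ∧ (orderOf g).Coprime p ∧
      P ⊔ zpowers g = ⊤ ∧ (∀ x ∈ P, x * g = g * x → x = 1) := by
  -- minimal subgroup
  have hwf : WellFounded ((· < ·) : Subgroup G → Subgroup G → Prop) := wellFounded_lt
  obtain ⟨H, hH, hHmin⟩ := hwf.has_min {H : Subgroup G | ¬ HasNormalPComplement p H} ⟨⊤, by
    intro h
    exact hn (HasNormalPComplement.of_mulEquiv h Subgroup.topEquiv)⟩
  have hwf2 : WellFounded ((· > ·) : Subgroup H → Subgroup H → Prop) := wellFounded_gt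
  obtain ⟨N, ⟨hNn, hN⟩, hNmax⟩ := hwf2.has_min
    {N : Subgroup H | ∃ _ : N.Normal, ¬ HasNormalPComplement p (H ⧸ N)} ⟨⊥, inferInstance, by
      intro h
      exact hH (HasNormalPComplement.of_mulEquiv h QuotientGroup.quotientBot)⟩
  refine ⟨H, N, hNn, ?_⟩
  apply minimal_structure hN
  · intro M hM
    have h1 : M.comap (QuotientGroup.mk' N) ≠ ⊤ := by
      intro h
      apply hM
      rw [← map_comap_eq_self_of_surjective (QuotientGroup.mk'_surjective N) M, h,
        ← MonoidHom.range_eq_map, MonoidHom.range_eq_top.2 (QuotientGroup.mk'_surjective N)]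
    set L := M.comap (QuotientGroup.mk' N) with hL
    have h2 : L.map H.subtype < H := by
      refine lt_of_le_of_ne (map_subtype_le _) ?_
      intro h
      apply h1
      apply map_injective H.subtype_injective
      rw [h, ← MonoidHom.range_eq_map, range_subtype]
    have h3 : HasNormalPComplement p (L.map H.subtype) := by
      by_contra h4
      exact hHmin _ h4 h2
    have h4 : HasNormalPComplement p L :=
      HasNormalPComplement.of_mulEquiv h3 (L.equivMapOfInjective _ H.subtype_injective).symm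
    refine HasNormalPComplement.of_surjective h4 ((QuotientGroup.mk' N).subgroupComap M) ?_
    rintro ⟨y, hy⟩
    obtain ⟨x, rfl⟩ := QuotientGroup.mk'_surjective N y
    exact ⟨⟨x, hy⟩, rfl⟩
  · intro R hR hRne
    have h1 : N < R.comap (QuotientGroup.mk' N) := by
      refine lt_of_le_of_ne ?_ ?_
      · intro x hx
        rw [mem_comap, QuotientGroup.mk'_apply, (QuotientGroup.eq_one_iff x).2 hx]
        exact one_mem _
      · intro h
        apply hRne
        rw [← map_comap_eq_self_of_surjective (QuotientGroup.mk'_surjective N) R, ← h]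
        rw [eq_bot_iff]
        rintro _ ⟨x, hx, rfl⟩
        rw [Subgroup.mem_bot, QuotientGroup.mk'_apply]
        exact (QuotientGroup.eq_one_iff x).2 hx
    have h2 : HasNormalPComplement p (H ⧸ R.comap (QuotientGroup.mk' N)) := by
      by_contra h3
      exact hNmax _ ⟨inferInstance, h3⟩ h1
    have hle : R.comap (QuotientGroup.mk' N) ≤ ((QuotientGroup.mk' R).comp (QuotientGroup.mk' N)).ker := by
      intro x hx
      rw [MonoidHom.mem_ker, MonoidHom.comp_apply]
      exact (QuotientGroup.eq_one_iff _).2 hx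
    refine HasNormalPComplement.of_surjective h2 (QuotientGroup.lift _ _ hle) ?_
    apply QuotientGroup.lift_surjective_of_surjective
    exact (QuotientGroup.mk'_surjective R).comp (QuotientGroup.mk'_surjective N)

end Cfsg.Agent.Lib.H70PNil
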