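import Cfsg.Agent.Lib.H70SqG
import Cfsg.Agent.Lib.ZJLocal
import Cfsg.Agent.S0659

/-!
# Groups acted on by `C_q × C_q` with abelian centralizers (S4323), part 8 (helper70)
-/

set_option autoImplicit false
set_option maxHeartbeats 400000

namespace Cfsg.Agent.Lib.H70SqH

open Subgroup Cfsg Cfsg.Agent.Lib.SubgroupTools Cfsg.Agent.Lib.CoprimeAction Cfsg.Agent.Lib.CoprimeAction2
  Cfsg.Agent.Lib.CoprimeGen Cfsg.Agent.Lib.H70SqA Cfsg.Agent.Lib.H70SqB Cfsg.Agent.Lib.H70SqC
  Cfsg.Agent.Lib.H70SqD Cfsg.Agent.Lib.H70SqE Cfsg.Agent.Lib.H70SqF Cfsg.Agent.Lib.H70SqG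
  Cfsg.Agent.Lib.H31Local Cfsg.Agent.Lib.RelSylow

open scoped commutatorElement Pointwise

universe u

variable {G : Type u} [Group G] [Finite G] {q : ℕ} {A H : Subgroup G}

theorem solv_of_isPGroup {t : ℕ} (ht : t.Prime) {X : Subgroup G} (h : IsPGroup t X) :
    Group.IsSolvable X := by
  have := Fact.mk ht
  have := h.isNilpotent
  infer_instance

theorem no_compl (h : MinC q A H) {t : ℕ} (ht : t.Prime) (hd : t ∣ Nat.card H) :
    ¬ HasNormalPComplement t ↥H := by
  have := Fact.mk ht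
  intro hc
  rw [PNilp.hasNormalPComplement_iff_pResidual] at hc
  have hchar : (pResidual t ↥H).Characteristic := PNilp.pResidual_characteristic t
  have h1 : normalizer (H : Set G) ≤ normalizer (((pResidual t ↥H).map H.subtype : Subgroup G) : Set G) :=
    PCoreTools.normalizer_le_of_characteristic hchar
  rcases h.simp _ (map_subtype_le _) (h.norm.trans h1) (le_normalizer.trans h1) with h2 | h2
  · rw [map_eq_bot_iff_of_injective _ H.subtype_injective] at h2
    obtain ⟨k, hk⟩ := PNilp.pResidual_index (G := ↥H) t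
    rw [h2, index_bot] at hk
    exact h.nsol (solv_of_isPGroup ht (IsPGroup.of_card hk))
  · have h3 : pResidual t ↥H = ⊤ := by
      apply map_injective H.subtype_injective
      rw [h2, ← MonoidHom.range_eq_map, range_subtype]
    rw [h3, card_top] at hc
    exact hc hd

/-- **Lemma B** (Burnside) -/
theorem lemB (h : MinC q A H) {t : ℕ} (ht : t.Prime) {T : Subgroup G} (hT : IsSyl t T H)
    (hAT : A ≤ normalizer (T : Set G)) (hT1 : T ≠ ⊥) {a : G} (ha : a ∈ A) (ha1 : a ≠ 1)
    (hTa : ∀ x ∈ T, x * a = a * x) : False := by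
  have := Fact.mk ht
  have h0 := h.toCtx.toCtx0
  set N := H ⊓ normalizer (T : Set G) with hN
  have hAN : A ≤ normalizer (N : Set G) := le_norm_inf h.norm (hAT.trans le_normalizer)
  have hzA : zpowers a ≤ A := zpowers_le.2 ha
  have hzT : zpowers a ≤ centralizer (T : Set G) := by
    rw [zpowers_le, mem_centralizer_iff]
    exact hTa
  have hNT : N ≤ centralizer (T : Set G) := by
    rw [← commutator_sup_centralizer (A := zpowers a) (K := N) (hzA.trans hAN)
      (Nat.Coprime.coprime_dvd_left (card_dvd_of_le hzA) (h0.cop_of_le inf_le_left))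
      (Or.inl inferInstance)]
    apply sup_le
    · rw [commutator_le]
      intro x hx y hy
      rw [commutatorElement_def]
      exact mul_mem ((mem_normalizer_iff.1 (le_norm_cent (inf_le_right : N ≤ normalizer (T : Set G)) hx) y).1
        (hzT hy)) (inv_mem (hzT hy))
    · rintro x ⟨hx1, hx2⟩
      rw [mem_centralizer_iff]
      intro v hv
      exact h0.ab a ha ha1 v (hT.1 hv) x hx1.1 (hTa v hv)
        (mem_centralizer_iff.1 hx2 a (mem_zpowers a)).symm
  obtain ⟨P, hP1, hP2⟩ := hT.exists_sylow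
  have hPc : normalizer ((P : Subgroup ↥H) : Set ↥H) ≤ centralizer (P : Set ↥H) := by
    intro x hx
    have hxN : (x : G) ∈ N := by
      refine mem_inf.2 ⟨x.2, ?_⟩
      have h1 := H31Local.le_normalizer_FOf H
      rw [mem_normalizer_iff]
      intro y
      constructor
      · intro hy
        have h2 : (⟨y, hT.1 hy⟩ : ↥H) ∈ (P : Subgroup ↥H) := by rw [hP2]; exact mem_subgroupOf.2 hy
        have h3 := (mem_normalizer_iff.1 hx _).1 h2
        rw [hP2] at h3
        exact mem_subgroupOf.1 h3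
      · intro hy
        have h4 : y ∈ H := by
          have h5 := H.mul_mem (H.mul_mem (H.inv_mem x.2) (hT.1 hy)) x.2
          have h6 : (x : G)⁻¹ * ((x : G) * y * (x : G)⁻¹) * x = y := by group
          rwa [h6] at h5
        have h2 : x * (⟨y, h4⟩ : ↥H) * x⁻¹ ∈ (P : Subgroup ↥H) := by
          rw [hP2]; exact mem_subgroupOf.2 hy
        have h3 := (mem_normalizer_iff.1 hx _).2 h2
        rw [hP2] at h3
        exact mem_subgroupOf.1 h3
    rw [mem_centralizer_iff]
    intro y hy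
    have hy' : y ∈ (P : Subgroup ↥H) := hy
    rw [hP2] at hy'
    exact Subtype.ext (mem_centralizer_iff.1 (hNT hxN) (y : G) (mem_subgroupOf.1 hy'))
  have hdvd : t ∣ Nat.card H := by
    rcases hT.2.1.card_eq_or_dvd with h1 | h1
    · exact absurd (Subgroup.card_eq_one.1 h1) hT1
    · exact h1.trans (card_dvd_of_le hT.1)
  apply no_compl h ht hdvd
  exact ⟨P, _, inferInstance, MonoidHom.ker_transferSylow_isComplement' P hPc⟩

namespace Pair

open H70SqF.Pair H70SqG.Pair

variable {r s : ℕ} {R S M L W : Subgroup G}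

/-- **Claim 6** -/
theorem claim6 (P : Pair q A H r s R S) : Sst P = ⊥ := by
  by_contra hne
  have := Fact.mk P.hr
  have := Fact.mk P.hs
  have h0 := P.toCtx.toCtx0
  have hnc : ¬ Sst P ≤ centralizer (R : Set G) := fun h1 => hne (claim4 P h1)
  have hfS := fmSst P
  -- step i
  have step : ∀ b ∈ A, b ≠ 1 → ¬ cf (Sst P) b ≤ centralizer (R : Set G) → ∀ c ∈ A, c ∉ zpowers b →
      cf S c ≤ Sst P := by
    intro b hb hb1 hbc c hc hcb
    have hc1 : c ≠ 1 := by rintro rfl; exact hcb (one_mem _)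
    rcases claim5 P hc hc1 with h1 | h1
    · exact h1
    · exfalso
      apply hbc
      refine lem1' P.toCtx hb hb1 hc hcb P.hr P.hR.1 (inf_le_left.trans hfS.le) P.hR.2.1 P.aR
        (fun y hy => (mem_cf.1 hy).2) (norm_cf h0 hfS.inv hb)
        (not_dvd_of_p P.hs P.hr P.hrs.symm (P.hS.2.1.to_le (inf_le_left.trans inf_le_left)))
        (inf_le_left.trans inf_le_right) ?_
      intro v hv hvc y hy
      exact mem_centralizer_iff.1 (comm_st P (mem_cf.1 hy).1) v (h1 (mem_cf.2 ⟨hv, hvc⟩)) |>.symm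
  obtain ⟨b, hb, hb1, hbc⟩ : ∃ b ∈ A, b ≠ 1 ∧ ¬ cf (Sst P) b ≤ centralizer (R : Set G) := by
    by_contra hno
    push Not at hno
    apply hnc
    apply h0.gen_le hfS.le hfS.inv
    intro a ha ha1 x hx hxa
    exact hno a ha ha1 (mem_cf.2 ⟨hx, hxa⟩)
  have hstep := step b hb hb1 hbc
  have hSb : ¬ cf S b ≤ Sst P := by
    intro h1
    apply S_ne P
    apply h0.gen_le P.hS.1 P.aS
    intro c hc hc1 x hx hxc
    by_cases hcb : c ∈ zpowers b
    · exact h1 (mem_cf.2 ⟨hx, comm_of_zpowers h0 hb hc1 hcb hxc⟩)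
    · exact hstep c hc hcb (mem_cf.2 ⟨hx, hxc⟩)
  have hcR : ∀ c ∈ A, c ∉ zpowers b → cf (Sst P) c ≤ centralizer (R : Set G) := by
    intro c hc hcb
    have hc1 : c ≠ 1 := by rintro rfl; exact hcb (one_mem _)
    by_contra hno
    exact hSb (step c hc hc1 hno b hb (not_mem_symm h0 hb hb1 hc hcb))
  set N1 := S ⊓ normalizer (Sst P : Set G) with hN1
  have hAN1 : A ≤ normalizer (N1 : Set G) := le_norm_inf P.aS (hfS.inv.trans le_normalizer)
  have hN1ne : ¬ N1 ≤ Sst P := by
    intro h1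
    exact S_ne P (eq_of_norm_le P.hs P.hS.2.1 (inf_le_left : Sst P ≤ S) h1).ge
  have hN1b : ¬ cf N1 b ≤ Sst P := by
    intro h1
    apply hN1ne
    apply h0.gen_le (inf_le_left.trans P.hS.1) hAN1
    intro c hc hc1 x hx hxc
    by_cases hcb : c ∈ zpowers b
    · exact h1 (mem_cf.2 ⟨hx, comm_of_zpowers h0 hb hc1 hcb hxc⟩)
    · exact hstep c hc hcb (mem_cf.2 ⟨hx.1, hxc⟩)
  set W := Sst P ⊓ centralizer (R : Set G) with hW
  have hAW : A ≤ normalizer (W : Set G) := le_norm_inf hfS.inv (le_norm_cent P.aR)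
  have hSW : Sst P ≤ normalizer (W : Set G) := le_norm_inf le_normalizer (le_norm_cent inf_le_right)
  have hE2 : ⁅Sst P, zpowers b⁆ ≤ W := by
    apply comm_le_of_gen h0 hfS.le hfS.inv hAW hSW hb
    intro c hc hc1 hcb
    exact le_inf inf_le_left (hcR c hc hcb)
  have hzA : zpowers b ≤ A := zpowers_le.2 hb
  have hE2bot : ⁅Sst P, zpowers b⁆ = ⊥ := by
    by_contra hE
    have hAE : A ≤ normalizer ((⁅Sst P, zpowers b⁆ : Subgroup G) : Set G) := by
      apply le_norm_comm2 hfS.inv
      apply le_norm_of_conj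
      intro g hg x hx
      rw [h0.comm g hg x (hzA hx), mul_inv_cancel_right]; exact hx
    have hfE : Fm A H r s ⁅Sst P, zpowers b⁆ := hfS.mono (hE2.trans inf_le_left) hAE
    obtain ⟨L0, k1, k2, k3⟩ := P.exists_hall hfE hE
    have k4 : R ≤ L0 := by
      apply k3 R P.fmR
      exact (le_centralizer_iff.1 (hE2.trans inf_le_right)).trans cent_norm
    have k5 := F3 P k1 k4
    have k6 : cf N1 b ≤ L0 := by
      apply k3 _ (P.fmS.mono (inf_le_left.trans inf_le_left) (norm_cf h0 hAN1 hb))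
      apply le_norm_comm2 (inf_le_left.trans inf_le_right)
      apply le_norm_of_conj
      intro g hg x hx
      obtain ⟨n, rfl⟩ := mem_zpowers_iff.1 hx
      have h1 : g * b ^ n = b ^ n * g := Commute.zpow_right (show Commute g b from (mem_cf.1 hg).2) n
      rw [h1, mul_inv_cancel_right]; exact hx
    exact hN1b (le_inf (inf_le_left.trans inf_le_left) (k6.trans k5))
  rw [commutator_eq_bot_iff_le_centralizer] at hE2bot
  -- `S ≤ C(b)`
  have hfin : ∀ x ∈ S, x * b = b * x := by
    have h1 : S ≤ centralizer {b} := by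
      apply h0.gen_le P.hS.1 P.aS
      intro c hc hc1 x hx hxc
      by_cases hcb : c ∈ zpowers b
      · have := comm_of_zpowers h0 hb hc1 hcb hxc
        exact (mem_cf.2 ⟨hx, this⟩ : x ∈ cf S b).2
      · have h2 := hstep c hc hcb (mem_cf.2 ⟨hx, hxc⟩)
        have h3 := mem_centralizer_iff.1 (hE2bot h2) b (mem_zpowers b)
        have h4 := P.toCtx.two hb hb1 hc hcb (P.hS.1 hx) h3.symm hxc
        rw [h4]; exact one_mem _
    intro x hx
    exact (mem_centralizer_iff.1 (h1 hx) b rfl).symm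
  have hSne : S ≠ ⊥ := by
    rintro rfl
    exact hne (le_bot_iff.1 inf_le_left)
  exact lemB P.toMinC P.hs P.hS P.aS hSne hb hb1 hfin

/-- **Claim 7** -/
theorem claim7 (P : Pair q A H r s R S) {a : G} (ha : a ∈ A) (ha1 : a ≠ 1) :
    cf S a = ⊥ ∨ cf R a = ⊥ := by
  rcases claim5 P ha ha1 with h1 | h1
  · left
    rw [claim6 P] at h1
    exact le_bot_iff.1 h1
  · right
    have h2 : Rst P = Sst P.symm := rfl
    rw [h2, claim6 P.symm] at h1
    exact le_bot_iff.1 h1

end Pair

end Cfsg.Agent.Lib.H70SqH
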