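import Cfsg.Agent.Lib.H70SqH

/-!
# Groups acted on by `C_q × C_q` with abelian centralizers (S4323), part 9 (helper70)
-/

set_option autoImplicit false
set_option maxHeartbeats 400000

namespace Cfsg.Agent.Lib.H70SqI

open Subgroup Cfsg Cfsg.Agent.Lib.SubgroupTools Cfsg.Agent.Lib.CoprimeAction Cfsg.Agent.Lib.CoprimeAction2
  Cfsg.Agent.Lib.CoprimeGen Cfsg.Agent.Lib.H70SqA Cfsg.Agent.Lib.H70SqB Cfsg.Agent.Lib.H70SqC
  Cfsg.Agent.Lib.H70SqD Cfsg.Agent.Lib.H70SqE Cfsg.Agent.Lib.H70SqF Cfsg.Agent.Lib.H70SqG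
  Cfsg.Agent.Lib.H70SqH Cfsg.Agent.Lib.H31Local Cfsg.Agent.Lib.RelSylow

open scoped commutatorElement Pointwise

universe u

variable {G : Type u} [Group G] [Finite G] {q : ℕ} {A H : Subgroup G}

theorem centralizer_OOf {t : ℕ} (ht : t.Prime) {M : Subgroup G} (hM : Group.IsSolvable M)
    (h : pPrimeCore t ↥M = ⊥) : M ⊓ centralizer (OOf t M : Set G) ≤ OOf t M := by
  have := Fact.mk ht
  rintro x ⟨hxM, hx⟩
  have h1 : (⟨x, hxM⟩ : M) ∈ centralizer (pCore t ↥M : Set ↥M) := by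
    rw [mem_centralizer_iff]
    intro y hy
    exact Subtype.ext (mem_centralizer_iff.1 hx (y : G) ⟨y, hy, rfl⟩)
  exact ⟨_, Cores.centralizer_pCore_le h h1, rfl⟩

theorem isPGroup_of_unique {t : ℕ} (ht : t.Prime) {X : Subgroup G}
    (h : ∀ u : ℕ, u.Prime → u ∣ Nat.card X → u = t) : IsPGroup t X := by
  have := Fact.mk ht
  exact IsPGroup.iff_card.2 ⟨_, Nat.eq_prime_pow_of_unique_prime_dvd Nat.card_pos.ne'
    (fun {d} hd hdd => h d hd hdd)⟩

theorem lemHH0 (h : Ctx q A H) (hsol : Group.IsSolvable H) {t : ℕ} (ht : t.Prime)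
    (hcore : pPrimeCore t ↥H = ⊥) {a1 a2 : G} (h1 : a1 ∈ A) (h11 : a1 ≠ 1) (h2 : a2 ∈ A)
    (h12 : a2 ∉ zpowers a1) (f1 : ∀ x ∈ OOf t H, x * a1 = a1 * x → x = 1)
    (f2 : ∀ x ∈ OOf t H, x * a2 = a2 * x → x = 1) : IsPGroup t H := by
  have := Fact.mk ht
  have h0 := h.toCtx0
  apply isPGroup_of_unique ht
  intro u hu hd
  by_contra hne
  have := Fact.mk hu
  obtain ⟨U, hU1, hU2, hU3, hAU⟩ := exists_invariant_sylow h.norm h.cop' (Or.inl h0.solvA) u
  have hVt := isPGroup_OOf t H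
  have hHV := le_normalizer_OOf t H
  have hAV : A ≤ normalizer (OOf t H : Set G) := h.norm.trans (norm_OOf t H)
  have hVH := OOf_le t H
  have key : U ≤ centralizer (OOf t H : Set G) := by
    apply h0.gen_le hU1 hAU
    intro b hb hb1 x hx hxb
    have main : ∀ a ∈ A, a ∉ zpowers b → (∀ x ∈ OOf t H, x * a = a * x → x = 1) →
        cf U b ≤ centralizer (OOf t H : Set G) := by
      intro a ha hab hf
      refine lem1' h hb hb1 ha hab ht hVH (inf_le_left.trans hU1) hVt hAV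
        (fun y hy => (mem_cf.1 hy).2) (norm_cf h0 hAU hb)
        (not_dvd_of_p hu ht hne (hU2.to_le inf_le_left)) ((inf_le_left.trans hU1).trans hHV) ?_
      intro v hv hva y _
      rw [hf v hv hva]; simp
    have hx' : x ∈ cf U b := mem_cf.2 ⟨hx, hxb⟩
    by_cases hab : a1 ∈ zpowers b
    · refine main a2 h2 ?_ f2 hx'
      intro hab2
      have hba : b ∈ zpowers a1 := by
        by_contra hno
        exact not_mem_symm h0 h1 h11 hb hno hab
      exact h12 ((zpowers_le.2 hba) hab2)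
    · exact main a1 h1 hab f1 hx'
  have hUV : U ≤ OOf t H := (le_inf hU1 key).trans (centralizer_OOf ht hsol hcore)
  have hU1' : U = ⊥ := by
    rw [eq_bot_iff]
    intro x hx
    have h3 := inf_eq_bot_of_coprime' (cop_p ht hVt (not_dvd_of_p hu ht hne hU2))
    have h4 : x ∈ OOf t H ⊓ U := ⟨hUV hx, hx⟩
    rw [h3] at h4; exact h4
  apply hU3
  rw [hU1', relIndex_bot_left]
  exact hd

/-- `O_{t'}` in the ambient group -/
def DOf (t : ℕ) (M : Subgroup G) : Subgroup G := (pPrimeCore t ↥M).map M.subtype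

omit [Finite G] in
theorem DOf_le (t : ℕ) (M : Subgroup G) : DOf t M ≤ M := map_subtype_le _

omit [Finite G] in
theorem norm_DOf (t : ℕ) (M : Subgroup G) : normalizer (M : Set G) ≤ normalizer (DOf t M : Set G) :=
  PCoreTools.normalizer_le_of_characteristic (PCoreTools.pPrimeCore_characteristic t ↥M)

theorem not_dvd_DOf {t : ℕ} (ht : t.Prime) (M : Subgroup G) : ¬ t ∣ Nat.card (DOf t M) := by
  have := Fact.mk ht
  unfold DOf
  rw [card_map_of_injective M.subtype_injective]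
  exact PCoreTools.not_dvd_card_pPrimeCore t

theorem core_im {t : ℕ} (ht : t.Prime) (M : Subgroup G) : pPrimeCore t ↥(im (DOf t M) M) = ⊥ := by
  have := Fact.mk ht
  set D := DOf t M with hD
  have hMD : M ≤ normalizer (D : Set G) := le_normalizer.trans (norm_DOf t M)
  obtain ⟨L, hDL, hLD, hL⟩ := exists_pullback (D := D) (DOf t (im D M))
  have hLM : L ≤ M := by
    intro x hx
    have h1 := pr_mem_im (hLD hx) hx
    rw [hL] at h1
    exact (pr_mem_im_iff (hLD hx) (DOf_le t M)).1 (DOf_le t _ h1)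
  have hML : M ≤ normalizer (L : Set G) := by
    apply le_norm_of_conj
    intro g hg x hx
    have h1 := pr_mem_im (hLD hx) hx
    rw [hL] at h1
    have h2 := (mem_normalizer_iff.1 ((le_normalizer.trans (norm_DOf t (im D M)))
      (pr_mem_im (hMD hg) hg)) _).1 h1
    rw [← hL] at h2
    exact (pr_mem_im_iff (mul_mem (mul_mem (hMD hg) (hLD hx)) (inv_mem (hMD hg))) hDL).1 h2
  have hLt : ¬ t ∣ Nat.card L := by
    intro hd
    obtain ⟨x, hx⟩ := exists_prime_orderOf_dvd_card' t hd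
    have hx' : orderOf (x : G) = t := by rw [orderOf_coe]; exact hx
    have hxD : (x : G) ∈ D := by
      rw [← pr_eq_one (hLD x.2)]
      have h1 := pr_mem_im (hLD x.2) x.2
      rw [hL] at h1
      have h2 : orderOf (pr D ⟨(x : G), hLD x.2⟩) ∣ t := by
        rw [← hx, ← orderOf_coe x]
        apply orderOf_dvd_of_pow_eq_one
        rw [← map_pow]
        have : (⟨(x : G), hLD x.2⟩ : ↥(normalizer (D : Set G))) ^ orderOf (x : G) = 1 :=
          Subtype.ext (pow_orderOf_eq_one _)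
        rw [this, map_one]
      have h3 : orderOf (pr D ⟨(x : G), hLD x.2⟩) ∣ Nat.card (DOf t (im D M)) := by
        have := orderOf_dvd_natCard (⟨_, h1⟩ : ↥(DOf t (im D M)))
        rwa [Subgroup.orderOf_mk] at this
      rw [← orderOf_eq_one_iff]
      rcases (Nat.dvd_prime ht).1 h2 with h4 | h4
      · exact h4
      · exact absurd (h4 ▸ h3) (not_dvd_DOf ht _)
    apply not_dvd_DOf ht M
    have := orderOf_dvd_natCard (⟨_, hxD⟩ : ↥D)
    rwa [Subgroup.orderOf_mk, hx'] at this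
  have h1 : L ≤ D := PCoreTools.le_map_pPrimeCore hLM hML hLt
  have h2 : DOf t (im D M) = ⊥ := by
    rw [← hL, im_eq_bot hLD]
    exact h1
  unfold DOf at h2
  rwa [map_eq_bot_iff_of_injective _ (subtype_injective _)] at h2

theorem isSolvable_im {D L : Subgroup G} (h : Group.IsSolvable L) : Group.IsSolvable (im D L) := by
  have h2 : Group.IsSolvable (L.subgroupOf (normalizer (D : Set G))) := isSolvable_subgroupOf _ h
  exact Group.isSolvable_of_surjective
    ((pr D).subgroupMap_surjective (L.subgroupOf (normalizer (D : Set G))))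

theorem lemHH (h : Ctx q A H) (hsol : Group.IsSolvable H) {t : ℕ} (ht : t.Prime)
    {T : Subgroup G} (hT : IsSyl t T H) (hAT : A ≤ normalizer (T : Set G))
    {a1 a2 : G} (h1 : a1 ∈ A) (h11 : a1 ≠ 1) (h2 : a2 ∈ A)
    (h12 : a2 ∉ zpowers a1) (f1 : ∀ x ∈ T, x * a1 = a1 * x → x = 1)
    (f2 : ∀ x ∈ T, x * a2 = a2 * x → x = 1) : HasNormalPComplement t ↥H := by
  have := Fact.mk ht
  set D := DOf t H with hD
  have hDH : D ≤ H := DOf_le t H
  have hAD : A ≤ normalizer (D : Set G) := h.norm.trans (norm_DOf t H)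
  have hHD : H ≤ normalizer (D : Set G) := le_normalizer.trans (norm_DOf t H)
  have hq := h.quot hDH hAD hHD
  have hVT : OOf t (im D H) ≤ im D T := isSyl_le_OOf ht (isSyl_im ht hT hHD)
  have hfix : ∀ a (ha : a ∈ A), (∀ x ∈ T, x * a = a * x → x = 1) →
      ∀ x ∈ OOf t (im D H), x * pr D ⟨a, hAD ha⟩ = pr D ⟨a, hAD ha⟩ * x → x = 1 := by
    intro a ha hf x hx hxa
    obtain ⟨x, hx', h3, rfl⟩ := mem_im.1 (hVT hx)
    rw [pr_comm_iff] at hxa
    have h4 : x⁻¹ * (a * x * a⁻¹) ∈ T :=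
      mul_mem (inv_mem h3) ((mem_normalizer_iff.1 (hAT ha) x).1 h3)
    have h5 := inf_eq_bot_of_coprime' (cop_p ht hT.2.1 (not_dvd_DOf ht H))
    have h6 : x⁻¹ * (a * x * a⁻¹) ∈ T ⊓ DOf t H := ⟨h4, hxa⟩
    rw [h5, mem_bot, inv_mul_eq_one, eq_mul_inv_iff_mul_eq] at h6
    rw [pr_eq_one, hf x h3 h6]; exact one_mem _
  have hp := lemHH0 hq (isSolvable_im hsol) ht (core_im ht H) (a1 := pr D ⟨a1, hAD h1⟩)
    (a2 := pr D ⟨a2, hAD h2⟩) (pr_mem_im _ h1) (by
      intro h0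
      rw [pr_eq_one] at h0
      exact h11 (h.toCtx0.disj hDH h1 h0)) (pr_mem_im _ h2) (by
      intro h0
      obtain ⟨n, hn⟩ := mem_zpowers_iff.1 h0
      rw [← map_zpow] at hn
      have h3 : (⟨a1, hAD h1⟩ : ↥(normalizer (D : Set G))) ^ n = ⟨a1 ^ n, zpow_mem (hAD h1) n⟩ := rfl
      rw [h3, pr_eq_iff] at hn
      have h4 : (a1 ^ n)⁻¹ * a2 ∈ A := mul_mem (inv_mem (zpow_mem h1 n)) h2
      have h5 := h.toCtx0.disj hDH h4 hn
      rw [inv_mul_eq_one] at h5
      exact h12 (h5 ▸ zpow_mem (mem_zpowers a1) n)) (hfix a1 h1 f1) (hfix a2 h2 f2)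
  apply PNilp.HasNormalPComplement.of_quotient (pPrimeCore t ↥H) (PCoreTools.not_dvd_card_pPrimeCore t)
  apply PNilp.hasNormalPComplement_of_isPGroup
  intro x
  obtain ⟨x, rfl⟩ := QuotientGroup.mk_surjective x
  obtain ⟨k, hk⟩ := hp ⟨_, pr_mem_im (hHD x.2) x.2⟩
  refine ⟨k, ?_⟩
  have h3 : (pr D ⟨(x : G), hHD x.2⟩) ^ t ^ k = 1 := congrArg Subtype.val hk
  rw [← map_pow] at h3
  have h4 : (x : G) ^ t ^ k ∈ D := (pr_eq_one (D := D) (x := (x : G) ^ t ^ k) (pow_mem (hHD x.2) _)).1 h3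
  rw [← QuotientGroup.mk_pow, QuotientGroup.eq_one_iff]
  obtain ⟨y, hy, hyx⟩ := h4
  have : y = x ^ t ^ k := Subtype.ext hyx
  rw [← this]; exact hy

theorem zj_map {X : Type u} [Group X] [Finite X] (e : X ≃* X) (P : Subgroup X)
    (h : P.map e.toMonoidHom = P) :
    (centerThompsonAOf P).map e.toMonoidHom = centerThompsonAOf P := by
  rw [ZJThm.centerThompsonAOf_eq, ← (ZJThm.fam_ab (p := 2)).ZJ_map e P, h]

/-- **Claim 9** -/
theorem claim9 (h : MinC q A H) {t : ℕ} (ht : t.Prime) (ht2 : t ≠ 2) {T : Subgroup G}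
    (hT : IsSyl t T H) (hAT : A ≤ normalizer (T : Set G)) (hT1 : T ≠ ⊥)
    {a1 a2 : G} (h1 : a1 ∈ A) (h11 : a1 ≠ 1) (h2 : a2 ∈ A)
    (h12 : a2 ∉ zpowers a1) (f1 : ∀ x ∈ T, x * a1 = a1 * x → x = 1)
    (f2 : ∀ x ∈ T, x * a2 = a2 * x → x = 1) : False := by
  have := Fact.mk ht
  obtain ⟨P, hP1, hP2⟩ := hT.exists_sylow
  set Z0 := centerThompsonAOf (P : Subgroup ↥H) with hZ0
  have hZ0ne : Z0 ≠ ⊥ := by
    rw [hZ0, ZJThm.centerThompsonAOf_eq]
    apply ZJLocal.ZJ_ne_bot P.2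
    intro h0
    apply hT1
    rw [← hP1, h0, Subgroup.map_bot]
  have hZ0P : Z0 ≤ (P : Subgroup ↥H) := by
    rw [hZ0, ZJThm.centerThompsonAOf_eq]
    exact (ZJThm.fam_ab (p := t)).ZJ_le_self _
  set Z := Z0.map H.subtype with hZ
  have hZT : Z ≤ T := by rw [← hP1]; exact map_mono hZ0P
  -- elements normalising `H` and `T` normalise `Z`
  have hnorm : normalizer (H : Set G) ⊓ normalizer (T : Set G) ≤ normalizer (Z : Set G) := by
    apply le_norm_of_conj
    rintro g ⟨hgH, hgT⟩ _ ⟨z, hz, rfl⟩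
    have hmap : (P : Subgroup ↥H).map (PCoreTools.conjAut g hgH).toMonoidHom = P := by
      apply eq_of_le_of_card_ge
      · rintro _ ⟨x, hx, rfl⟩
        rw [hP2] at hx ⊢
        exact mem_subgroupOf.2 ((mem_normalizer_iff.1 hgT _).1 (mem_subgroupOf.1 hx))
      · rw [card_map_of_injective (PCoreTools.conjAut g hgH).injective]
    have h3 := zj_map (PCoreTools.conjAut g hgH) _ hmap
    have h4 : PCoreTools.conjAut g hgH z ∈ Z0 := by
      rw [hZ0, ← h3]
      exact ⟨z, hz, rfl⟩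
    exact ⟨_, h4, rfl⟩
  have hAZ : A ≤ normalizer (Z : Set G) := (le_inf h.norm hAT).trans hnorm
  set N0 := normalizer (Z0 : Set ↥H) with hN0
  set K := N0.map H.subtype with hK
  have hKeq : K = H ⊓ normalizer (Z : Set G) := by
    apply le_antisymm
    · apply le_inf (map_subtype_le _)
      apply le_norm_of_conj
      rintro _ ⟨g, hg, rfl⟩ _ ⟨z, hz, rfl⟩
      exact ⟨g * z * g⁻¹, (mem_normalizer_iff.1 hg z).1 hz, rfl⟩
    · rintro g ⟨hg1, hg2⟩
      refine ⟨⟨g, hg1⟩, ?_, rfl⟩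
      rw [SetLike.mem_coe, hN0, mem_normalizer_iff]
      intro z
      have h3 := mem_normalizer_iff.1 hg2 (z : G)
      constructor
      · intro hz
        obtain ⟨w, hw, hwz⟩ := h3.1 ⟨z, hz, rfl⟩
        have : w = ⟨g, hg1⟩ * z * ⟨g, hg1⟩⁻¹ := Subtype.ext hwz
        rw [← this]; exact hw
      · intro hz
        obtain ⟨w, hw, hwz⟩ := h3.2 ⟨_, hz, rfl⟩
        have : w = z := Subtype.ext hwz
        rw [← this]; exact hw
  have hKH : K ≤ H := map_subtype_le _
  have hAK : A ≤ normalizer (K : Set G) := by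
    rw [hKeq]
    exact le_norm_inf h.norm (hAZ.trans le_normalizer)
  have hTK : T ≤ K := by
    rw [hKeq]
    exact le_inf hT.1 ((le_inf (hT.1.trans le_normalizer) le_normalizer).trans hnorm)
  have hKne : K ≠ H := by
    intro hKH'
    have h3 : H ≤ normalizer (Z : Set G) := by
      rw [← hKH', hKeq]; exact inf_le_right
    rcases h.simp Z (hZT.trans hT.1) hAZ h3 with h4 | h4
    · rw [hZ, map_eq_bot_iff_of_injective _ H.subtype_injective] at h4
      exact hZ0ne h4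
    · apply h.nsol
      apply solv_of_isPGroup ht
      rw [← h4]
      exact hT.2.1.to_le hZT
  have hsK := h.prop K hKH hKne hAK
  have hdvd : t ∣ Nat.card H := by
    rcases hT.2.1.card_eq_or_dvd with h3 | h3
    · exact absurd (Subgroup.card_eq_one.1 h3) hT1
    · exact h3.trans (card_dvd_of_le hT.1)
  apply no_compl h ht hdvd
  apply Cfsg.Agent.S0659.result ht2 P
  have h5 := lemHH (h.toCtx.restrict hKH hAK) hsK ht (hT.of_le hTK hKH) hAT h1 h11 h2 h12 f1 f2
  exact PNilp.HasNormalPComplement.of_mulEquiv h5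
    (N0.equivMapOfInjective H.subtype H.subtype_injective).symm

end Cfsg.Agent.Lib.H70SqI
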