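import Cfsg.Agent.Lib.H70SqI
import Cfsg.Agent.Lib.HallConverse

/-!
# Groups acted on by `C_q × C_q` with abelian centralizers (S4323), part 10 (helper70)
-/

set_option autoImplicit false
set_option maxHeartbeats 400000

namespace Cfsg.Agent.Lib.H70SqJ

open Subgroup Cfsg Cfsg.Agent.Lib.SubgroupTools Cfsg.Agent.Lib.CoprimeAction Cfsg.Agent.Lib.CoprimeAction2
  Cfsg.Agent.Lib.CoprimeGen Cfsg.Agent.Lib.H70SqA Cfsg.Agent.Lib.H70SqB Cfsg.Agent.Lib.H70SqC
  Cfsg.Agent.Lib.H70SqD Cfsg.Agent.Lib.H70SqE Cfsg.Agent.Lib.H70SqF Cfsg.Agent.Lib.H70SqG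
  Cfsg.Agent.Lib.H70SqH Cfsg.Agent.Lib.H70SqI Cfsg.Agent.Lib.H31Local Cfsg.Agent.Lib.RelSylow

open scoped commutatorElement Pointwise

universe u

variable {G : Type u} [Group G] [Finite G] {q : ℕ} {A H : Subgroup G}

namespace Pair

open H70SqF.Pair H70SqG.Pair H70SqH.Pair

variable {r s : ℕ} {R S M L W : Subgroup G}

theorem false_odd (P : Pair q A H r s R S) (hs2 : s ≠ 2) : False := by
  have h0 := P.toCtx.toCtx0
  have hRne : R ≠ ⊥ := by
    intro h1
    apply P.ntp
    rw [h1, bot_sup_eq]; exact P.fmS.tp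
  have hSne : S ≠ ⊥ := by
    intro h1
    apply P.ntp
    rw [h1, sup_bot_eq]; exact P.fmR.tp
  by_cases hex : ∃ a ∈ A, a ≠ 1 ∧ cf S a = ⊥
  · obtain ⟨a, ha, ha1, hSa⟩ := hex
    have hR : ∀ b ∈ A, b ∉ zpowers a → cf R b = ⊥ := by
      intro b hb hba
      have hb1 : b ≠ 1 := by rintro rfl; exact hba (one_mem _)
      rcases claim7 P hb hb1 with h1 | h1
      · exfalso
        refine claim9 P.toMinC P.hs hs2 P.hS P.aS hSne ha ha1 hb hba ?_ ?_
        · intro x hx hxa
          have : x ∈ cf S a := mem_cf.2 ⟨hx, hxa⟩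
          rw [hSa] at this; exact this
        · intro x hx hxb
          have : x ∈ cf S b := mem_cf.2 ⟨hx, hxb⟩
          rw [h1] at this; exact this
      · exact h1
    have h1 : R ≤ centralizer {a} := by
      apply h0.gen_le P.hR.1 P.aR
      intro c hc hc1 x hx hxc
      by_cases hca : c ∈ zpowers a
      · exact (mem_cf.2 ⟨hx, comm_of_zpowers h0 ha hc1 hca hxc⟩ : x ∈ cf R a).2
      · have h2 : x ∈ cf R c := mem_cf.2 ⟨hx, hxc⟩
        rw [hR c hc hca, mem_bot] at h2
        rw [h2]; exact one_mem _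
    exact lemB P.toMinC P.hr P.hR P.aR hRne ha ha1 fun x hx =>
      (mem_centralizer_iff.1 (h1 hx) a rfl).symm
  · push Not at hex
    apply hRne
    rw [eq_bot_iff]
    apply h0.gen_le P.hR.1 P.aR
    intro c hc hc1 x hx hxc
    rcases claim7 P hc hc1 with h1 | h1
    · exact absurd h1 (hex c hc hc1)
    · have h2 : x ∈ cf R c := mem_cf.2 ⟨hx, hxc⟩
      rwa [h1] at h2

theorem false (P : Pair q A H r s R S) : False := by
  by_cases hs2 : s = 2
  · exact false_odd P.symm (fun h => P.hrs (h.trans hs2.symm))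
  · exact false_odd P hs2

end Pair

/-! ### permuting Sylow subgroups -/

theorem card_le_of_TP {r s : ℕ} (hr : r.Prime) (hs : s.Prime) {K R S : Subgroup G}
    (hTP : TP r s K) (hR : IsSyl r R K) (hS : IsSyl s S K) : Nat.card K ≤ Nat.card R * Nat.card S := by
  have h1 := card_mul_relIndex_of_le hR.1
  have h2 := card_mul_relIndex_of_le hS.1
  have h3 : (R.relIndex K).Coprime (S.relIndex K) := by
    rw [Nat.coprime_iff_gcd_eq_one]
    by_contra hne
    obtain ⟨p, hp, hd⟩ := Nat.exists_prime_and_dvd hne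
    have hd1 := hd.trans (Nat.gcd_dvd_left _ _)
    have hd2 := hd.trans (Nat.gcd_dvd_right _ _)
    rcases hTP p hp (hd1.trans (relIndex_dvd_card _ _)) with h | h
    · subst h; exact hR.2.2 hd1
    · subst h; exact hS.2.2 hd2
  have h4 : R.relIndex K ∣ Nat.card S * S.relIndex K := by
    rw [h2]; exact relIndex_dvd_card _ _
  have h5 : R.relIndex K ∣ Nat.card S := h3.dvd_of_dvd_mul_right h4
  rw [← h1]
  exact Nat.mul_le_mul_left _ (Nat.le_of_dvd Nat.card_pos h5)

theorem coe_mul_eq {r s : ℕ} (hr : r.Prime) (hs : s.Prime) (hrs : r ≠ s) {R S : Subgroup G}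
    (hTP : TP r s (R ⊔ S)) (hR : IsSyl r R (R ⊔ S)) (hS : IsSyl s S (R ⊔ S)) :
    (R : Set G) * (S : Set G) = ((R ⊔ S : Subgroup G) : Set G) := by
  have h1 := card_mul_set R S
  have h2 : R ⊓ S = ⊥ := inf_eq_bot_of_coprime' (cop_p hr hR.2.1 (not_dvd_of_p hs hr hrs.symm hS.2.1))
  rw [h2, card_bot, mul_one] at h1
  have h3 := card_le_of_TP hr hs hTP hR hS
  apply Set.eq_of_subset_of_ncard_le
  · rintro _ ⟨x, hx, y, hy, rfl⟩
    exact mul_mem ((le_sup_left : R ≤ R ⊔ S) hx) ((le_sup_right : S ≤ R ⊔ S) hy)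
  · rw [← Nat.card_coe_set_eq, ← Nat.card_coe_set_eq, h1]
    exact h3
  · exact Set.toFinite _

theorem perm {r s : ℕ} (hr : r.Prime) (hs : s.Prime) (hrs : r ≠ s) {R S : Subgroup G}
    (hTP : TP r s (R ⊔ S)) (hR : IsSyl r R H) (hS : IsSyl s S H) :
    (R : Set G) * (S : Set G) = (S : Set G) * (R : Set G) := by
  have := Fact.mk hr
  have := Fact.mk hs
  have hle : R ⊔ S ≤ H := sup_le hR.1 hS.1
  have h1 := coe_mul_eq hr hs hrs hTP (hR.of_le le_sup_left hle) (hS.of_le le_sup_right hle)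
  have h2 := coe_mul_eq hs hr hrs.symm (R := S) (S := R) (by rw [sup_comm]; exact hTP.symm)
    (by rw [sup_comm]; exact hS.of_le le_sup_right hle) (by rw [sup_comm]; exact hR.of_le le_sup_left hle)
  rw [h1, h2, sup_comm]

theorem minC_false (h : MinC q A H) : False := by
  classical
  apply h.nsol
  have hex : ∀ p : Nat.Primes, ∃ T : Subgroup G, IsSyl (p : ℕ) T H ∧ A ≤ normalizer (T : Set G) := by
    intro p
    have := Fact.mk p.2
    obtain ⟨T, h1, h2, h3, h4⟩ := exists_invariant_sylow h.norm h.cop' (Or.inl h.toCtx.toCtx0.solvA) p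
    exact ⟨T, ⟨h1, h2, h3⟩, h4⟩
  choose T hT hAT using hex
  have hex2 : ∀ p : Nat.Primes, ∃ Q : Sylow (p : ℕ) ↥H, (Q : Subgroup ↥H) = (T p).subgroupOf H := by
    intro p
    have := Fact.mk p.2
    obtain ⟨Q, _, h2⟩ := (hT p).exists_sylow
    exact ⟨Q, h2⟩
  choose Q hQ using hex2
  apply HallConverse.solvable_of_permuting_sylows Q
  have half : ∀ p p' : Nat.Primes, (Q p : Set ↥H) * (Q p' : Set ↥H) ⊆ (Q p' : Set ↥H) * (Q p : Set ↥H) := by
    intro p p'
    by_cases hpp : p = p'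
    · subst hpp; exact subset_rfl
    have hne : (p : ℕ) ≠ (p' : ℕ) := fun h => hpp (Subtype.ext h)
    have hTP : TP (p : ℕ) (p' : ℕ) (T p ⊔ T p') := by
      by_contra hno
      exact Pair.false (r := (p : ℕ)) (s := (p' : ℕ)) (R := T p) (S := T p')
        { toMinC := h, hr := p.2, hs := p'.2, hrs := hne, hR := hT p, hS := hT p', aR := hAT p,
          aS := hAT p', ntp := hno }
    have h1 := perm p.2 p'.2 hne hTP (hT p) (hT p')
    rintro _ ⟨x, hx, y, hy, rfl⟩
    have hx' : x ∈ (Q p : Subgroup ↥H) := hx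
    have hy' : y ∈ (Q p' : Subgroup ↥H) := hy
    rw [hQ] at hx' hy'
    have h2 : (x : G) * (y : G) ∈ (T p : Set G) * (T p' : Set G) :=
      ⟨x, mem_subgroupOf.1 hx', y, mem_subgroupOf.1 hy', rfl⟩
    rw [h1] at h2
    obtain ⟨c, hc, d, hd, hcd⟩ := h2
    refine ⟨⟨c, (hT p').1 hc⟩, ?_, ⟨d, (hT p).1 hd⟩, ?_, Subtype.ext hcd⟩
    · show (⟨c, (hT p').1 hc⟩ : ↥H) ∈ (Q p' : Subgroup ↥H)
      rw [hQ]; exact mem_subgroupOf.2 hc
    · show (⟨d, (hT p).1 hd⟩ : ↥H) ∈ (Q p : Subgroup ↥H)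
      rw [hQ]; exact mem_subgroupOf.2 hd
  exact fun p p' => Set.Subset.antisymm (half p p') (half p' p)

/-! ### reduction -/

theorem solv_of_im {D L : Subgroup G} (hL : L ≤ normalizer (D : Set G))
    (hsD : Group.IsSolvable D) (hsL : Group.IsSolvable (im D L)) : Group.IsSolvable L := by
  let g : ↥L →* ↥(im D L) :=
    { toFun := fun x => ⟨pr D ⟨x, hL x.2⟩, pr_mem_im (hL x.2) x.2⟩
      map_one' := Subtype.ext ((pr_eq_one _).2 (one_mem _))
      map_mul' := fun x y => Subtype.ext (by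
        show pr D ⟨(x : G) * y, _⟩ = pr D ⟨x, _⟩ * pr D ⟨y, _⟩
        rw [← map_mul]; rfl) }
  have h1 : Group.IsSolvable ↥(D.subgroupOf L) := isSolvable_subgroupOf _ hsD
  apply Group.isSolvable_of_ker_le_range (D.subgroupOf L).subtype g
  intro x hx
  rw [range_subtype, mem_subgroupOf]
  rw [MonoidHom.mem_ker] at hx
  exact (pr_eq_one (hL x.2)).1 (congrArg Subtype.val hx)

theorem card_im_lt {D L : Subgroup G} (hDL : D ≤ L) (hL : L ≤ normalizer (D : Set G)) (hD : D ≠ ⊥) :
    Nat.card (im D L) < Nat.card L := by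
  have h1 := card_map_mul_card_inf_ker (pr D) (L.subgroupOf (normalizer (D : Set G)))
  rw [card_subgroupOf_of_le hL] at h1
  have h2 : D.subgroupOf (normalizer (D : Set G)) ≤ L.subgroupOf (normalizer (D : Set G)) ⊓ (pr D).ker := by
    rw [QuotientGroup.ker_mk']
    exact le_inf (comap_mono hDL) le_rfl
  have h3 : Nat.card D ≤ Nat.card (L.subgroupOf (normalizer (D : Set G)) ⊓ (pr D).ker : Subgroup _) := by
    rw [← card_subgroupOf_of_le (le_normalizer : D ≤ normalizer (D : Set G))]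
    exact Nat.card_le_card_of_injective _ (inclusion_injective h2)
  have h4 : 1 < Nat.card D := by
    rw [Subgroup.one_lt_card_iff_ne_bot]; exact hD
  have h5 : 0 < Nat.card (im D L) := Nat.card_pos
  have h6 : Nat.card (im D L) * Nat.card (L.subgroupOf (normalizer (D : Set G)) ⊓ (pr D).ker : Subgroup _) =
    Nat.card L := h1
  nlinarith

theorem main (n : ℕ) : ∀ {G : Type u} [Group G] [Finite G] {q : ℕ} {A H : Subgroup G} (_ : Ctx0 q A H)
    (_ : Nat.card H = n), Group.IsSolvable H := by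
  induction n using Nat.strong_induction_on with
  | _ n ih =>
  intro G _ _ q A H h hn
  subst hn
  set D := H ⊓ centralizer (A : Set G) with hD
  by_cases hD1 : D = ⊥
  · by_contra hns
    refine minC_false (q := q) (A := A) (H := H) ⟨⟨h, ?_⟩, hns, ?_, ?_⟩
    · intro x hx hxA
      have : x ∈ D := ⟨hx, mem_centralizer_iff.2 fun a ha => (hxA a ha).symm⟩
      rw [hD1] at this; exact this
    · intro K hK hne hAK
      refine ih _ ?_ (h.restrict hK hAK) rfl
      rcases lt_or_ge (Nat.card K) (Nat.card H) with h0 | h0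
      · exact h0
      · exact absurd (eq_of_le_of_card_ge hK h0) hne
    · intro N hN hAN hHN
      by_contra hno
      push Not at hno
      apply hns
      apply solv_of_im hHN
      · refine ih _ ?_ (h.restrict hN hAN) rfl
        rcases lt_or_ge (Nat.card N) (Nat.card H) with h0 | h0
        · exact h0
        · exact absurd (eq_of_le_of_card_ge hN h0) hno.2
      · exact ih _ (card_im_lt hN hHN hno.1) (h.quot hN hAN hHN) rfl
  · have hcen : H ≤ centralizer (D : Set G) := by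
      apply h.gen_le le_rfl h.norm
      intro a ha ha1 x hx hxa
      rw [mem_centralizer_iff]
      intro d hd
      exact h.ab a ha ha1 d hd.1 x hx (mem_centralizer_iff.1 hd.2 a ha).symm hxa
    have hHD : H ≤ normalizer (D : Set G) := hcen.trans cent_norm
    have hAD : A ≤ normalizer (D : Set G) :=
      (le_centralizer_iff.1 (inf_le_right : D ≤ centralizer (A : Set G))).trans cent_norm
    apply solv_of_im hHD
    · apply Group.isSolvable_of_comm
      intro a b
      exact Subtype.ext (mem_centralizer_iff.1 (hcen b.2.1) (a : G) a.2)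
    · exact ih _ (card_im_lt inf_le_left hHD hD1) (h.quot inf_le_left hAD hHD) rfl

end Cfsg.Agent.Lib.H70SqJ
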