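import Mathlib
import Cfsg.Agent.Lib.NormalCyclic
import Cfsg.Agent.Lib.NormalFour
import Cfsg.Agent.Lib.H70Frattini

/-!
# Number of generators of linear 2-groups (helper70)
-/

set_option autoImplicit false
open Subgroup

namespace Cfsg.Agent.Lib.H70TwoLin

universe u v

section Squares

variable {P Q : Type*} [Group P] [Group Q]

/-- the subgroup generated by the squares -/
def sq (P : Type*) [Group P] : Subgroup P := closure (Set.range fun x : P => x ^ 2)

/-- index of the subgroup generated by the squares -/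
noncomputable def e (P : Type*) [Group P] : ℕ := (sq P).index

theorem pow_two_mem (x : P) : x ^ 2 ∈ sq P := subset_closure ⟨x, rfl⟩

theorem sq_map_le (f : P →* Q) : (sq P).map f ≤ sq Q := by
  unfold sq
  rw [MonoidHom.map_closure, closure_le]
  rintro _ ⟨_, ⟨x, rfl⟩, rfl⟩
  exact subset_closure ⟨f x, (map_pow f x 2).symm⟩

theorem sq_map_surj (f : P →* Q) (hf : Function.Surjective f) : (sq P).map f = sq Q := by
  refine le_antisymm (sq_map_le f) ?_
  unfold sq
  rw [closure_le]
  rintro _ ⟨y, rfl⟩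
  obtain ⟨x, rfl⟩ := hf y
  exact ⟨x ^ 2, subset_closure ⟨x, rfl⟩, map_pow f x 2⟩

instance sq_normal : (sq P).Normal := by
  constructor
  intro x hx g
  have h1 : (MulAut.conj g).toMonoidHom x ∈ (sq P).map (MulAut.conj g).toMonoidHom := ⟨x, hx, rfl⟩
  have h2 := sq_map_le _ h1
  simpa using h2

theorem e_pos [Finite P] : 0 < e P := Nat.pos_of_ne_zero Subgroup.index_ne_zero_of_finite

theorem e_le_of_surjective [Finite P] (f : P →* Q) (hf : Function.Surjective f) : e Q ≤ e P := by
  unfold e
  rw [← sq_map_surj f hf, index_map, MonoidHom.range_eq_top.2 hf, index_top, mul_one]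
  exact Nat.le_of_dvd (Nat.pos_of_ne_zero Subgroup.index_ne_zero_of_finite) (index_dvd_of_le le_sup_left)

theorem e_le_mul [Finite P] (K : Subgroup P) [K.Normal] : e P ≤ e (P ⧸ K) * e K := by
  have h1 : (sq P).index = (sq P).relIndex (sq P ⊔ K) * (sq P ⊔ K).index :=
    (relIndex_mul_index le_sup_left).symm
  have h2 : (sq P ⊔ K).index = e (P ⧸ K) := by
    unfold e
    rw [← sq_map_surj (QuotientGroup.mk' K) (QuotientGroup.mk'_surjective K), index_map,
      QuotientGroup.ker_mk', MonoidHom.range_eq_top.2 (QuotientGroup.mk'_surjective K), index_top, mul_one]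
  have h3 : (sq P).relIndex (sq P ⊔ K) ≤ e K := by
    rw [sup_comm, relIndex_sup_right]
    unfold e
    refine Nat.le_of_dvd (Nat.pos_of_ne_zero Subgroup.index_ne_zero_of_finite) (index_dvd_of_le ?_)
    exact map_le_iff_le_comap.1 (sq_map_le K.subtype)
  calc e P = (sq P).relIndex (sq P ⊔ K) * (sq P ⊔ K).index := h1
    _ ≤ e K * e (P ⧸ K) := by rw [h2]; exact Nat.mul_le_mul_right _ h3
    _ = _ := mul_comm _ _

theorem e_le_index_mul [Finite P] (H : Subgroup P) : e P ≤ H.index * e H := by
  have h1 : e P ≤ ((sq H).map H.subtype).index :=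
    Nat.le_of_dvd (Nat.pos_of_ne_zero Subgroup.index_ne_zero_of_finite) (index_dvd_of_le (sq_map_le H.subtype))
  rw [index_map_subtype, mul_comm] at h1
  exact h1

theorem sq_le_frattini [Finite P] (hP : IsPGroup 2 P) : sq P ≤ frattini P := by
  have : Fact (Nat.Prime 2) := ⟨Nat.prime_two⟩
  unfold sq
  rw [closure_le]
  rintro _ ⟨x, rfl⟩
  exact Cfsg.Agent.Lib.H70Frattini.pow_mem_frattini hP x

theorem index_frattini_le [Finite P] (hP : IsPGroup 2 P) : (frattini P).index ≤ e P :=
  Nat.le_of_dvd (Nat.pos_of_ne_zero Subgroup.index_ne_zero_of_finite) (index_dvd_of_le (sq_le_frattini hP))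

theorem quot_sq (x : P ⧸ sq P) : x ^ 2 = 1 := by
  obtain ⟨y, rfl⟩ := QuotientGroup.mk_surjective x
  rw [← QuotientGroup.mk_pow, QuotientGroup.eq_one_iff]
  exact pow_two_mem y

theorem e_le_of_two_gen [Finite P] {a b : P} (h : closure {a, b} = ⊤) : e P ≤ 4 := by
  have h0 : e P = Nat.card (P ⧸ sq P) := rfl
  rw [h0]
  set A : P ⧸ sq P := QuotientGroup.mk a with hA
  set B : P ⧸ sq P := QuotientGroup.mk b with hB
  have hsq : ∀ x : P ⧸ sq P, x * x = 1 := fun x => by rw [← pow_two]; exact quot_sq x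
  have hcomm : ∀ x y : P ⧸ sq P, x * y = y * x := by
    intro x y
    have h1 := hsq (x * y)
    have h2 : ∀ z : P ⧸ sq P, z⁻¹ = z := fun z => inv_eq_of_mul_eq_one_left (hsq z)
    calc x * y = (x * y)⁻¹ := (h2 _).symm
      _ = y⁻¹ * x⁻¹ := mul_inv_rev _ _
      _ = y * x := by rw [h2, h2]
  have hcl : closure {A, B} = (⊤ : Subgroup (P ⧸ sq P)) := by
    have h1 : (closure {a, b}).map (QuotientGroup.mk' (sq P)) = ⊤ := by
      rw [h, ← MonoidHom.range_eq_map, MonoidHom.range_eq_top]
      exact QuotientGroup.mk'_surjective _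
    rw [MonoidHom.map_closure, Set.image_pair] at h1
    exact h1
  have hsurj : Function.Surjective (fun i : Fin 2 × Fin 2 => A ^ (i.1 : ℕ) * B ^ (i.2 : ℕ)) := by
    intro x
    have hx : x ∈ closure ({A, B} : Set (P ⧸ sq P)) := by rw [hcl]; exact mem_top x
    have key : ∀ y ∈ closure ({A, B} : Set (P ⧸ sq P)), y = 1 ∨ y = A ∨ y = B ∨ y = A * B := by
      intro y hy
      induction hy using closure_induction with
      | mem z hz =>
        rcases hz with rfl | hz
        · exact Or.inr (Or.inl rfl)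
        · exact Or.inr (Or.inr (Or.inl hz))
      | one => exact Or.inl rfl
      | mul y z _ _ hy hz =>
        rcases hy with rfl | rfl | rfl | rfl
        · rw [one_mul]; exact hz
        · rcases hz with rfl | rfl | rfl | rfl
          · right; left; rw [mul_one]
          · left; exact hsq _
          · right; right; right; rfl
          · right; right; left; rw [← mul_assoc, hsq, one_mul]
        · rcases hz with rfl | rfl | rfl | rfl
          · right; right; left; rw [mul_one]
          · right; right; right; exact hcomm _ _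
          · left; exact hsq _
          · right; left; rw [hcomm A B, ← mul_assoc, hsq, one_mul]
        · rcases hz with rfl | rfl | rfl | rfl
          · right; right; right; rw [mul_one]
          · right; right; left; rw [hcomm A B, mul_assoc, hsq, mul_one]
          · right; left; rw [mul_assoc, hsq, mul_one]
          · left; exact hsq _
      | inv y _ hy =>
        have h2 : y⁻¹ = y := inv_eq_of_mul_eq_one_left (hsq y)
        rw [h2]; exact hy
    rcases key x hx with rfl | rfl | rfl | rfl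
    · exact ⟨(0, 0), by simp⟩
    · exact ⟨(1, 0), by simp⟩
    · exact ⟨(0, 1), by simp⟩
    · exact ⟨(1, 1), by simp⟩
  have := Nat.card_le_card_of_surjective _ hsurj
  simpa using this

theorem e_le_of_cyclic [Finite P] [hc : IsCyclic P] : e P ≤ 2 := by
  have h0 : e P = Nat.card (P ⧸ sq P) := rfl
  rw [h0]
  obtain ⟨g, hg⟩ := (isCyclic_of_surjective (QuotientGroup.mk' (sq P))
    (QuotientGroup.mk'_surjective (sq P))).exists_generator
  have h1 : Nat.card (P ⧸ sq P) = orderOf g := (orderOf_eq_card_of_forall_mem_zpowers hg).symm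
  rw [h1]
  exact Nat.le_of_dvd (by norm_num) (orderOf_dvd_of_pow_eq_one (quot_sq g))

theorem e_le_of_no_noncyclic [Finite P] (hP : IsPGroup 2 P)
    (hn : ∀ A : Subgroup P, A.Normal → IsMulCommutative A → IsCyclic A) : e P ≤ 4 := by
  by_cases hcyc : IsCyclic P
  · exact e_le_of_cyclic.trans (by norm_num)
  · rcases Cfsg.Agent.Lib.NormalCyclic.classify hP hn hcyc with ⟨n, hn1, ⟨f⟩⟩ | ⟨n, hn3, ⟨f⟩⟩ | ⟨n, hn3, hcard, x, y, hx, hy, hxy⟩
    · refine (e_le_of_surjective f.symm.toMonoidHom f.symm.surjective).trans ?_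
      have : Finite (QuaternionGroup (2 ^ n)) := Finite.of_equiv _ f.toEquiv
      refine e_le_of_two_gen (a := QuaternionGroup.a 1) (b := QuaternionGroup.xa 0) ?_
      rw [eq_top_iff]
      have ha : ∀ i : ZMod (2 * 2 ^ n), (QuaternionGroup.a i : QuaternionGroup (2 ^ n)) ∈
          closure {(QuaternionGroup.a 1 : QuaternionGroup (2 ^ n)), QuaternionGroup.xa 0} := by
        intro i
        have : (QuaternionGroup.a i : QuaternionGroup (2 ^ n)) = (QuaternionGroup.a 1) ^ (i.val) := by
          rw [QuaternionGroup.a_one_pow, ZMod.natCast_zmod_val]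
        rw [this]
        exact pow_mem (subset_closure (by simp)) _
      rintro (i | i) _
      · exact ha i
      · have : (QuaternionGroup.xa i : QuaternionGroup (2 ^ n)) = QuaternionGroup.xa 0 * QuaternionGroup.a i := by
          simp
        rw [this]
        exact mul_mem (subset_closure (by simp)) (ha i)
    · refine (e_le_of_surjective f.symm.toMonoidHom f.symm.surjective).trans ?_
      have : Finite (DihedralGroup (2 ^ n)) := Finite.of_equiv _ f.toEquiv
      refine e_le_of_two_gen (a := DihedralGroup.r 1) (b := DihedralGroup.sr 0) ?_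
      rw [eq_top_iff]
      have ha : ∀ i : ZMod (2 ^ n), (DihedralGroup.r i : DihedralGroup (2 ^ n)) ∈
          closure {(DihedralGroup.r 1 : DihedralGroup (2 ^ n)), DihedralGroup.sr 0} := by
        intro i
        have : (DihedralGroup.r i : DihedralGroup (2 ^ n)) = (DihedralGroup.r 1) ^ (i.val) := by
          rw [DihedralGroup.r_one_pow, ZMod.natCast_zmod_val]
        rw [this]
        exact pow_mem (subset_closure (by simp)) _
      rintro (i | i) _
      · exact ha i
      · have : (DihedralGroup.sr i : DihedralGroup (2 ^ n)) = DihedralGroup.sr 0 * DihedralGroup.r i := by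
          simp
        rw [this]
        exact mul_mem (subset_closure (by simp)) (ha i)
    · refine e_le_of_two_gen (a := x) (b := y) ?_
      have hyx : y ∉ zpowers x := by
        intro h
        obtain ⟨k, hk⟩ := mem_zpowers_iff.1 h
        have h1 : y * x * y⁻¹ = x := by
          rw [← hk]; group
        rw [h1] at hxy
        have h2 : x ^ (2 ^ (n - 1) - 1 - 1) = 1 := by
          have h4 : 2 ≤ 2 ^ (n - 1) := by
            calc 2 = 2 ^ 1 := by norm_num
              _ ≤ 2 ^ (n - 1) := Nat.pow_le_pow_right (by norm_num) (by omega)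
          have h3 : x ^ (2 ^ (n - 1) - 1) = x ^ (2 ^ (n - 1) - 1 - 1) * x := by
            rw [← pow_succ]; congr 1; omega
          rw [h3] at hxy
          exact (mul_eq_right.1 hxy.symm)
        have h3 := orderOf_dvd_of_pow_eq_one h2
        rw [hx] at h3
        have h4 : 4 ≤ 2 ^ (n - 1) := by
          calc 4 = 2 ^ 2 := by norm_num
            _ ≤ 2 ^ (n - 1) := Nat.pow_le_pow_right (by norm_num) (by omega)
        have h5 := Nat.le_of_dvd (by omega) h3
        have h6 : 2 ^ n = 2 * 2 ^ (n - 1) := by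
          rw [← pow_succ']; congr 1; omega
        omega
      have hxle : zpowers x ≤ closure {x, y} := by
        rw [zpowers_le]; exact subset_closure (by simp)
      have hidx : (zpowers x).index = 2 := by
        have h1 := (zpowers x).card_mul_index
        rw [Nat.card_zpowers, hx, hcard, pow_succ] at h1
        exact Nat.eq_of_mul_eq_mul_left (by positivity) h1
      have h1 := index_dvd_of_le hxle
      rw [hidx] at h1
      rcases (Nat.dvd_prime Nat.prime_two).1 h1 with h2 | h2
      · exact index_eq_one.1 h2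
      · exfalso
        apply hyx
        have h3 : zpowers x = closure {x, y} := by
          apply Subgroup.eq_of_le_of_card_ge hxle
          have h4 := (zpowers x).card_mul_index
          have h5 := (closure {x, y}).card_mul_index
          rw [hidx] at h4
          rw [h2] at h5
          omega
        rw [h3]; exact subset_closure (by simp)

end Squares

section Action

variable {P : Type v} {V : Type u} [Group P] [CommGroup V]

/-- restriction of an action to an invariant subgroup -/
def resHom (φ : P →* MulAut V) (H : Subgroup P) (W : Subgroup V) (hW : ∀ g ∈ H, ∀ w ∈ W, φ g w ∈ W) : H →* MulAut W where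
  toFun g :=
    { toFun := fun w => ⟨φ (g : P) (w : V), hW g g.2 w w.2⟩
      invFun := fun w => ⟨φ ((g⁻¹ : H) : P) (w : V), hW _ (g⁻¹).2 w w.2⟩
      left_inv := fun w => Subtype.ext (by
        change φ ((g⁻¹ : H) : P) (φ (g : P) (w : V)) = (w : V)
        rw [← MulAut.mul_apply, ← map_mul, Subgroup.coe_inv, inv_mul_cancel, map_one]; rfl)
      right_inv := fun w => Subtype.ext (by
        change φ (g : P) (φ ((g⁻¹ : H) : P) (w : V)) = (w : V)
        rw [← MulAut.mul_apply, ← map_mul, Subgroup.coe_inv, mul_inv_cancel, map_one]; rfl)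
      map_mul' := fun a b => Subtype.ext (map_mul (φ (g : P)) (a : V) (b : V)) }
  map_one' := by
    ext w
    change ((φ (1 : P) (w : V) : V)) = w
    rw [map_one]; rfl
  map_mul' g h := by
    ext w
    change φ (g * h : P) (w : V) = φ (g : P) (φ (h : P) (w : V))
    rw [map_mul]; rfl

theorem resHom_apply (φ : P →* MulAut V) (H : Subgroup P) (W : Subgroup V) (hW : ∀ g ∈ H, ∀ w ∈ W, φ g w ∈ W)
    (g : H) (w : W) : ((resHom φ H W hW g w : W) : V) = φ (g : P) (w : V) := rfl

/-- the action on the quotient by an invariant subgroup -/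
def quoHom (φ : P →* MulAut V) (H : Subgroup P) (W : Subgroup V) (hW : ∀ g ∈ H, ∀ w ∈ W, φ g w ∈ W) :
    H →* MulAut (V ⧸ W) where
  toFun g :=
    { toFun := QuotientGroup.map W W (φ g).toMonoidHom (fun w hw => hW g g.2 w hw)
      invFun := QuotientGroup.map W W (φ (g⁻¹ : H)).toMonoidHom (fun w hw => hW _ (g⁻¹).2 w hw)
      left_inv := by
        intro w
        obtain ⟨w, rfl⟩ := QuotientGroup.mk_surjective w
        change (QuotientGroup.mk (φ ((g⁻¹ : H) : P) (φ g w)) : V ⧸ W) = QuotientGroup.mk w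
        rw [← MulAut.mul_apply, ← map_mul, Subgroup.coe_inv, inv_mul_cancel, map_one]; rfl
      right_inv := by
        intro w
        obtain ⟨w, rfl⟩ := QuotientGroup.mk_surjective w
        change (QuotientGroup.mk (φ g (φ ((g⁻¹ : H) : P) w)) : V ⧸ W) = QuotientGroup.mk w
        rw [← MulAut.mul_apply, ← map_mul, Subgroup.coe_inv, mul_inv_cancel, map_one]; rfl
      map_mul' := fun a b => map_mul _ a b }
  map_one' := by
    ext w
    obtain ⟨w, rfl⟩ := QuotientGroup.mk_surjective w
    change (QuotientGroup.mk (φ (1 : P) w) : V ⧸ W) = QuotientGroup.mk w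
    rw [map_one]; rfl
  map_mul' g h := by
    ext w
    obtain ⟨w, rfl⟩ := QuotientGroup.mk_surjective w
    change (QuotientGroup.mk (φ (g * h : P) w) : V ⧸ W) = QuotientGroup.mk (φ g (φ h w))
    rw [map_mul]; rfl

theorem quoHom_mk (φ : P →* MulAut V) (H : Subgroup P) (W : Subgroup V) (hW : ∀ g ∈ H, ∀ w ∈ W, φ g w ∈ W)
    (g : H) (w : V) : quoHom φ H W hW g (QuotientGroup.mk w) = QuotientGroup.mk (φ g w) := rfl

/-- coprime action: trivial on `W` and `V / W` implies trivial -/
theorem eq_one_of_stab {r : ℕ} (hr : Odd r) (hV : ∀ v : V, v ^ r = 1) (hP : IsPGroup 2 P) (φ : P →* MulAut V)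
    (W : Subgroup V) (g : P) (h1 : ∀ w ∈ W, φ g w = w) (h2 : ∀ v : V, v⁻¹ * φ g v ∈ W) : φ g = 1 := by
  obtain ⟨s, hs⟩ := hP g
  ext v
  set w := v⁻¹ * φ g v with hw
  have hgv : φ g v = v * w := by rw [hw]; group
  have hwW : w ∈ W := h2 v
  have h3 : ∀ j : ℕ, φ (g ^ j) v = v * w ^ j := by
    intro j
    induction j with
    | zero => simp
    | succ j ih =>
      rw [pow_succ', map_mul, MulAut.mul_apply, ih, map_mul, map_pow, h1 w hwW, hgv, pow_succ', mul_assoc]
  have h4 := h3 (2 ^ s)
  rw [hs, map_one, MulAut.one_apply] at h4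
  have h5 : w ^ 2 ^ s = 1 := (mul_eq_left.1 h4.symm)
  have h6 : orderOf w ∣ Nat.gcd (2 ^ s) r := Nat.dvd_gcd (orderOf_dvd_of_pow_eq_one h5) (orderOf_dvd_of_pow_eq_one (hV w))
  have h7 : Nat.gcd (2 ^ s) r = 1 := Nat.Coprime.pow_left s (Nat.coprime_two_left.2 hr)
  rw [h7] at h6
  have h8 : w = 1 := orderOf_eq_one_iff.1 (Nat.dvd_one.1 h6)
  rw [hgv, h8, mul_one]; rfl

/-- splitting the estimate along an invariant subgroup -/
theorem e_split [Finite P] {r : ℕ} (hr : Odd r) (hV : ∀ v : V, v ^ r = 1) (hP : IsPGroup 2 P) (φ : P →* MulAut V)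
    (hφ : Function.Injective φ) (H : Subgroup P) (W : Subgroup V) (hW : ∀ g ∈ H, ∀ w ∈ W, φ g w ∈ W) :
    ∃ (Q₁ : Type v) (_ : Group Q₁) (_ : Finite Q₁) (ψ₁ : Q₁ →* MulAut W) (Q₂ : Type v) (_ : Group Q₂) (_ : Finite Q₂)
      (ψ₂ : Q₂ →* MulAut (V ⧸ W)), IsPGroup 2 Q₁ ∧ Function.Injective ψ₁ ∧ IsPGroup 2 Q₂ ∧ Function.Injective ψ₂ ∧
      (∀ U : Subgroup W, (∀ g : Q₁, ∀ u ∈ U, ψ₁ g u ∈ U) → (∀ g ∈ H, ∀ u ∈ U.map W.subtype, φ g u ∈ U.map W.subtype)) ∧
      e H ≤ e Q₁ * e Q₂ ∧ Nat.card H = Nat.card Q₁ * Nat.card Q₂ := by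
  set K := (resHom φ H W hW).ker with hK
  refine ⟨H ⧸ K, inferInstance, inferInstance, QuotientGroup.kerLift (resHom φ H W hW), K, inferInstance, inferInstance,
    (quoHom φ H W hW).comp K.subtype, (hP.to_subgroup H).to_quotient K, QuotientGroup.kerLift_injective _,
    (hP.to_subgroup H).to_subgroup K, ?_, ?_, e_le_mul K, Subgroup.card_eq_card_quotient_mul_card_subgroup K⟩
  · rw [injective_iff_map_eq_one]
    intro k hk
    have h1 : φ ((k : H) : P) = 1 := by
      refine eq_one_of_stab hr hV hP φ W _ ?_ ?_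
      · intro w hw
        have h2 : resHom φ H W hW k = 1 := k.2
        have h3 := congrArg (fun f => ((f ⟨w, hw⟩ : W) : V)) h2
        exact h3
      · intro v
        have h3 := congrArg (fun f => f (QuotientGroup.mk v)) hk
        have h4 : (QuotientGroup.mk (φ ((k : H) : P) v) : V ⧸ W) = QuotientGroup.mk v := h3
        exact QuotientGroup.eq.1 h4.symm
    have h2 := hφ (h1.trans (map_one φ).symm)
    exact Subtype.ext (Subtype.ext h2)
  · intro U hU g hg u hu
    obtain ⟨u, hu, rfl⟩ := hu
    have := hU (QuotientGroup.mk ⟨g, hg⟩) u hu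
    exact ⟨_, this, rfl⟩

theorem card_omega_gt {P : Type*} [Group P] [Finite P] (hP : IsPGroup 2 P) (A : Subgroup P) (hA : IsMulCommutative A)
    (hAc : ¬ IsCyclic A) (hab : A ≤ centralizer (A : Set P)) : 2 < Nat.card (NormalFour.omega A hab) := by
  have : Fact (Nat.Prime 2) := ⟨Nat.prime_two⟩
  by_contra hcon
  push Not at hcon
  have hside : ∀ x y : A, orderOf x = 2 → orderOf y = 2 → y ∈ zpowers x := by
    intro x y hx hy
    by_contra hxy
    have hx1 : x ≠ 1 := fun h => by rw [h, orderOf_one] at hx; omega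
    have hy1 : y ≠ 1 := fun h => by rw [h, orderOf_one] at hy; omega
    have hyx : y ≠ x := fun h => hxy (h ▸ mem_zpowers x)
    have hmem : ∀ t : A, orderOf t ∣ 2 → (t : P) ∈ NormalFour.omega A hab := by
      intro t ht
      refine ⟨t.2, ?_⟩
      have := orderOf_dvd_iff_pow_eq_one.1 ht
      rw [pow_two] at this
      exact congrArg Subtype.val this
    have hinj : Function.Injective (fun i : Fin 3 =>
        (if i = 0 then ⟨((1 : A) : P), hmem 1 (by simp)⟩ else if i = 1 then ⟨(x : P), hmem x (by rw [hx])⟩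
          else ⟨(y : P), hmem y (by rw [hy])⟩ : NormalFour.omega A hab)) := by
      intro i j hij
      have hx1' : (x : P) ≠ 1 := fun h => hx1 (Subtype.ext h)
      have hy1' : (y : P) ≠ 1 := fun h => hy1 (Subtype.ext h)
      fin_cases i <;> fin_cases j <;> simp at hij <;> first | rfl | exact absurd hij hx1 | exact absurd hij.symm hx1 | exact absurd hij hy1 | exact absurd hij.symm hy1 | exact absurd hij hyx | exact absurd hij.symm hyx | exact absurd hij hx1' | exact absurd hij.symm hx1' | exact absurd hij hy1' | exact absurd hij.symm hy1'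
    have := Nat.card_le_card_of_injective _ hinj
    simp at this
    omega
  rcases Cfsg.Agent.Lib.UniqueInvolution.isCyclic_or_quaternion (hP.to_subgroup A) hside with h | ⟨-, n, hn, ⟨f⟩⟩
  · exact hAc h
  · have h1 : ∀ x y : QuaternionGroup (2 ^ n), x * y = y * x := by
      intro x y
      apply f.symm.injective
      rw [map_mul, map_mul]
      exact hA.is_comm.comm _ _
    have h2 := h1 (QuaternionGroup.a 1) (QuaternionGroup.xa 0)
    rw [QuaternionGroup.a_mul_xa, QuaternionGroup.xa_mul_a] at h2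
    simp only [zero_sub, zero_add, QuaternionGroup.xa.injEq] at h2
    have h3 : ((2 : ℕ) : ZMod (2 * 2 ^ n)) = 0 := by
      have : (1 : ZMod (2 * 2 ^ n)) + 1 = 0 := by nth_rewrite 1 [← h2]; ring
      push_cast; rw [← this]; ring
    rw [ZMod.natCast_eq_zero_iff] at h3
    have h4 := Nat.le_of_dvd (by norm_num) h3
    have h5 : 2 ≤ 2 ^ n := by
      calc 2 = 2 ^ 1 := by norm_num
        _ ≤ 2 ^ n := Nat.pow_le_pow_right (by norm_num) hn
    omega

theorem imprim [Finite P] [Finite V] {r : ℕ} (hr : Odd r) (hV : ∀ v : V, v ^ r = 1) (hP : IsPGroup 2 P)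
    (φ : P →* MulAut V) (hφ : Function.Injective φ)
    (hirr : ∀ W : Subgroup V, (∀ g, ∀ w ∈ W, φ g w ∈ W) → W = ⊥ ∨ W = ⊤) (A : Subgroup P) [A.Normal]
    (hA : IsMulCommutative A) (hAc : ¬ IsCyclic A) :
    ∃ (H : Subgroup P) (V₁ : Subgroup V), H.index = 2 ∧ (∀ g ∈ H, ∀ v ∈ V₁, φ g v ∈ V₁) ∧
      V₁.index = Nat.card V₁ ∧ (∀ W ≤ V₁, (∀ g ∈ H, ∀ w ∈ W, φ g w ∈ W) → W = ⊥ ∨ W = V₁) ∧ sq P ≠ ⊥ := by
  have hab : A ≤ centralizer (A : Set P) := by
    intro a ha
    rw [mem_centralizer_iff]
    intro b hb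
    exact congrArg Subtype.val (hA.is_comm.comm (⟨b, hb⟩ : A) ⟨a, ha⟩)
  obtain ⟨z, w, -, -, hz2, hw2, hz1, hw1, hwz, hzc, hw⟩ := NormalFour.exists_normal_four (S := (⊤ : Subgroup P)) (A := A)
    (hP.to_subgroup _) le_top (by rw [normalizer_eq_top A]) hab (card_omega_gt hP A hA hAc hab)
  replace hzc : ∀ g, g * z = z * g := fun g => hzc g (mem_top g)
  replace hw : ∀ g, g * w * g⁻¹ = w ∨ g * w * g⁻¹ = w * z := fun g => hw g (mem_top g)
  have hsquare : ∀ v : V, v * v = 1 → v = 1 := by
    intro v hv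
    have h6 : orderOf v ∣ Nat.gcd 2 r :=
      Nat.dvd_gcd (orderOf_dvd_of_pow_eq_one (by rw [pow_two]; exact hv)) (orderOf_dvd_of_pow_eq_one (hV v))
    rw [Nat.coprime_two_left.2 hr] at h6
    exact orderOf_eq_one_iff.1 (Nat.dvd_one.1 h6)
  -- central involutions act as inversion
  have hinv : ∀ t : P, t * t = 1 → t ≠ 1 → (∀ g, g * t = t * g) → ∀ v, φ t v = v⁻¹ := by
    intro t ht ht1 htc v
    let W : Subgroup V :=
      { carrier := {v | φ t v = v}
        one_mem' := map_one _
        mul_mem' := fun {a b} ha hb => by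
          change φ t (a * b) = a * b
          rw [map_mul, (ha : φ t a = a), (hb : φ t b = b)]
        inv_mem' := fun {a} ha => by
          change φ t a⁻¹ = a⁻¹
          rw [map_inv, (ha : φ t a = a)] }
    have hWm : ∀ v, v ∈ W ↔ φ t v = v := fun v => Iff.rfl
    rcases hirr W (by
      intro g w hw
      rw [hWm] at hw ⊢
      rw [← MulAut.mul_apply, ← map_mul, ← htc, map_mul, MulAut.mul_apply, hw]) with h | h
    · have h1 : v * φ t v ∈ W := by
        rw [hWm, map_mul, ← MulAut.mul_apply, ← map_mul, ht, map_one, MulAut.one_apply, mul_comm]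
      rw [h, mem_bot] at h1
      exact (inv_eq_of_mul_eq_one_right h1).symm
    · exfalso
      apply ht1
      apply hφ
      rw [map_one]
      ext v
      have : v ∈ W := by rw [h]; exact mem_top v
      exact this
  have hzinv := hinv z hz2 hz1 hzc
  obtain ⟨x, hx⟩ : ∃ x, x * w * x⁻¹ = w * z := by
    by_contra hcon
    push Not at hcon
    have hwc : ∀ g, g * w = w * g := by
      intro g
      have := (hw g).resolve_right (hcon g)
      rw [mul_inv_eq_iff_eq_mul] at this
      exact this
    have hwinv := hinv w hw2 hw1 hwc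
    apply hwz
    apply hφ
    ext v
    rw [hzinv, hwinv]
  have hwzw : w * z ≠ w := fun h => hz1 (mul_eq_left.1 h)
  set H : Subgroup P := centralizer ({w} : Set P) with hH
  have hmemH : ∀ g, g ∈ H ↔ g * w * g⁻¹ = w := by
    intro g
    rw [hH, mem_centralizer_singleton_iff, mul_inv_eq_iff_eq_mul]
  have hxH : x ∉ H := by
    rw [hmemH, hx]; exact hwzw
  have hidx : H.index = 2 := by
    rw [index_eq_two_iff]
    refine ⟨x, fun b => ?_⟩
    have h1 : b * x * w * (b * x)⁻¹ = (b * w * b⁻¹) * z := by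
      have : b * x * w * (b * x)⁻¹ = b * (x * w * x⁻¹) * b⁻¹ := by group
      rw [this, hx]
      calc b * (w * z) * b⁻¹ = b * w * (z * b⁻¹) := by group
        _ = b * w * (b⁻¹ * z) := by rw [hzc]
        _ = _ := by group
    rcases hw b with h | h
    · right
      refine ⟨(hmemH b).2 h, fun h2 => ?_⟩
      rw [hmemH, h1, h] at h2
      exact hwzw h2
    · left
      refine ⟨?_, fun h2 => ?_⟩
      · rw [hmemH, h1, h, mul_assoc, hz2, mul_one]
      · rw [hmemH, h] at h2
        exact hwzw h2
  have hHn : H.Normal := normal_of_index_eq_two hidx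
  let V₁ : Subgroup V :=
    { carrier := {v | φ w v = v}
      one_mem' := map_one _
      mul_mem' := fun {a b} ha hb => by
        change φ w (a * b) = a * b
        rw [map_mul, (ha : φ w a = a), (hb : φ w b = b)]
      inv_mem' := fun {a} ha => by
        change φ w a⁻¹ = a⁻¹
        rw [map_inv, (ha : φ w a = a)] }
  have hV1m : ∀ v, v ∈ V₁ ↔ φ w v = v := fun v => Iff.rfl
  have hV1inv : ∀ g ∈ H, ∀ v ∈ V₁, φ g v ∈ V₁ := by
    intro g hg v hv
    rw [hV1m] at hv ⊢
    have h1 : g * w = w * g := by rwa [hmemH, mul_inv_eq_iff_eq_mul] at hg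
    rw [← MulAut.mul_apply, ← map_mul, ← h1, map_mul, MulAut.mul_apply, hv]
  -- elements of `x V₁ ∩ V₁`
  have hdisj : ∀ v ∈ V₁, φ x v ∈ V₁ → v = 1 := by
    intro v hv hxv
    rw [hV1m] at hv hxv
    have h1 : x * w = w * z * x := by rw [← hx]; group
    have h2 : φ (w * z) (φ x v) = φ x v := by
      rw [← MulAut.mul_apply, ← map_mul, ← h1, map_mul, MulAut.mul_apply, hv]
    rw [map_mul, MulAut.mul_apply, hzinv, map_inv, hxv] at h2
    have h3 : φ x v = 1 := by
      apply hsquare
      nth_rewrite 1 [← h2]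
      rw [inv_mul_cancel]
    exact (map_eq_one_iff (φ x) (φ x).injective).1 h3
  have hgen : ∀ W ≤ V₁, (∀ g ∈ H, ∀ w ∈ W, φ g w ∈ W) → W ≠ ⊥ → W ⊔ W.map (φ x).toMonoidHom = ⊤ := by
    intro W hWV hWinv hWne
    refine (hirr _ ?_).resolve_left ?_
    · intro g v hv
      obtain ⟨a, ha, b, hb, rfl⟩ := mem_sup.1 hv
      obtain ⟨c, hc, rfl⟩ := hb
      change φ g (a * φ x c) ∈ _
      rw [map_mul, ← MulAut.mul_apply, ← map_mul]
      by_cases hg : g ∈ H
      · refine mul_mem (mem_sup_left (hWinv g hg a ha)) (mem_sup_right ?_)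
        refine ⟨φ (x⁻¹ * g * x) c, hWinv _ ?_ c hc, ?_⟩
        · have := hHn.conj_mem g hg x⁻¹
          rwa [inv_inv] at this
        · change φ x (φ (x⁻¹ * g * x) c) = _
          rw [← MulAut.mul_apply, ← map_mul]
          congr 2; group
      · rw [mul_comm]
        refine mul_mem (mem_sup_left ?_) (mem_sup_right ?_)
        · refine hWinv _ ?_ c hc
          rw [mul_mem_iff_of_index_two hidx]
          exact ⟨fun h => absurd h hg, fun h => absurd h hxH⟩
        · refine ⟨φ (x⁻¹ * g) a, hWinv _ ?_ a ha, ?_⟩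
          · rw [mul_mem_iff_of_index_two hidx]
            exact ⟨fun h => absurd (by simpa using inv_mem h) hxH, fun h => absurd h hg⟩
          · change φ x (φ (x⁻¹ * g) a) = _
            rw [← MulAut.mul_apply, ← map_mul]
            congr 2; group
    · intro h
      apply hWne
      rw [eq_bot_iff, ← h]
      exact le_sup_left
  have hV1ne : V₁ ≠ ⊥ := by
    intro h
    apply hwz
    apply hφ
    ext v
    rw [hzinv]
    have h1 : v * φ w v ∈ V₁ := by
      rw [hV1m, map_mul, ← MulAut.mul_apply, ← map_mul, hw2, map_one, MulAut.one_apply, mul_comm]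
    rw [h, mem_bot] at h1
    exact (inv_eq_of_mul_eq_one_right h1).symm
  refine ⟨H, V₁, hidx, hV1inv, ?_, ?_, ?_⟩
  · have h1 : IsComplement' (V₁.map (φ x).toMonoidHom) V₁ := by
      apply isComplement'_of_disjoint_and_mul_eq_univ
      · rw [disjoint_iff, eq_bot_iff]
        rintro _ ⟨⟨v, hv, rfl⟩, hv2⟩
        rw [mem_bot, hdisj v hv hv2, map_one]
      · rw [← coe_top, ← hgen V₁ le_rfl hV1inv hV1ne, sup_comm, ← Subgroup.mul_normal]
    rw [h1.index_eq_card, card_map_of_injective (φ x).injective]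
  · intro W hWV hWinv
    by_cases hWne : W = ⊥
    · exact Or.inl hWne
    · right
      refine le_antisymm hWV fun v hv => ?_
      have h1 : v ∈ W ⊔ W.map (φ x).toMonoidHom := by rw [hgen W hWV hWinv hWne]; exact mem_top v
      obtain ⟨a, ha, b, ⟨c, hc, rfl⟩, rfl⟩ := mem_sup.1 h1
      have h2 : (φ x).toMonoidHom c ∈ V₁ := by
        have := mul_mem (inv_mem (hWV ha)) hv
        rwa [inv_mul_cancel_left] at this
      have h3 := hdisj c (hWV hc) h2
      rw [h3, map_one, mul_one]; exact ha
  · intro h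
    have h1 : ∀ g : P, g * g = 1 := by
      intro g
      have := pow_two_mem g
      rw [h, mem_bot, pow_two] at this
      exact this
    have h2 : ∀ z : P, z⁻¹ = z := fun z => inv_eq_of_mul_eq_one_left (h1 z)
    apply hxH
    rw [hmemH, mul_inv_eq_iff_eq_mul]
    calc x * w = (x * w)⁻¹ := (h2 _).symm
      _ = w⁻¹ * x⁻¹ := mul_inv_rev _ _
      _ = w * x := by rw [h2, h2]

end Action

section Main

theorem card_mulAut_of_prime {V : Type*} [CommGroup V] [Finite V] {r : ℕ} (hr : r.Prime) (hc : Nat.card V = r) :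
    Nat.card (MulAut V) = r - 1 ∧ IsCyclic (MulAut V) := by
  have : Fact r.Prime := ⟨hr⟩
  have hcyc : IsCyclic V := isCyclic_of_prime_card hc
  subst hc
  have : IsCyclic (ZMod (Nat.card V))ˣ := inferInstance
  refine ⟨?_, ?_⟩
  · rw [Nat.card_congr (IsCyclic.mulAutMulEquiv V).toEquiv, Nat.card_eq_fintype_card, ZMod.card_units_eq_totient,
      Nat.totient_prime hr]
  · exact isCyclic_of_surjective (IsCyclic.mulAutMulEquiv V).symm.toMonoidHom (IsCyclic.mulAutMulEquiv V).symm.surjective

theorem main {r : ℕ} (hr : r.Prime) (hr2 : r ≠ 2) (n : ℕ) : ∀ (V : Type u) [CommGroup V] [Finite V],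
    Nat.card V = r ^ n → 1 ≤ n → (∀ v : V, v ^ r = 1) → ∀ (P : Type v) [Group P] [Finite P], IsPGroup 2 P →
    ∀ φ : P →* MulAut V, Function.Injective φ → 2 * e P ≤ 4 ^ n ∧ (r = 3 → 2 * (e P) ^ 2 ≤ 8 ^ n) := by
  induction n using Nat.strong_induction_on with
  | _ n IH =>
  intro V _ _ hcV hn hV P _ _ hP φ hφ
  have hodd : Odd r := hr.odd_of_ne_two hr2
  by_cases hirr : ∀ W : Subgroup V, (∀ g, ∀ w ∈ W, φ g w ∈ W) → W = ⊥ ∨ W = ⊤
  swap
  · push Not at hirr
    obtain ⟨W, hW, hW1, hW2⟩ := hirr
    obtain ⟨n₁, hn₁, hc₁⟩ : ∃ k ≤ n, Nat.card W = r ^ k := by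
      have := W.card_subgroup_dvd_card
      rw [hcV] at this
      exact (Nat.dvd_prime_pow hr).1 this
    have hmul := Subgroup.card_eq_card_quotient_mul_card_subgroup W
    have hc₂ : Nat.card (V ⧸ W) = r ^ (n - n₁) := by
      rw [hcV, hc₁] at hmul
      have h1 : r ^ n = r ^ (n - n₁) * r ^ n₁ := by rw [← pow_add]; congr 1; omega
      rw [h1] at hmul
      exact (Nat.eq_of_mul_eq_mul_right (pow_pos hr.pos _) hmul).symm
    have h1 : 1 ≤ n₁ := by
      by_contra h
      have h0 : n₁ = 0 := by omega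
      rw [h0, pow_zero, card_eq_one] at hc₁
      exact hW1 hc₁
    have h2 : n₁ < n := by
      refine lt_of_le_of_ne hn₁ fun h => hW2 ?_
      rw [← Subgroup.card_eq_iff_eq_top, hc₁, hcV, h]
    obtain ⟨Q₁, _, _, ψ₁, Q₂, _, _, ψ₂, hQ₁, hψ₁, hQ₂, hψ₂, -, he, -⟩ := e_split hodd hV hP φ hφ ⊤ W (fun g _ => hW g)
    have heP : e P ≤ e Q₁ * e Q₂ := by
      refine (e_le_index_mul (⊤ : Subgroup P)).trans ?_
      rw [index_top, one_mul]; exact he
    have i1 := IH n₁ h2 W hc₁ h1 (fun w => Subtype.ext (hV w)) Q₁ hQ₁ ψ₁ hψ₁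
    have i2 := IH (n - n₁) (by omega) (V ⧸ W) hc₂ (by omega) (fun w => by
      obtain ⟨w, rfl⟩ := QuotientGroup.mk_surjective w
      rw [← QuotientGroup.mk_pow, hV, QuotientGroup.mk_one]) Q₂ hQ₂ ψ₂ hψ₂
    have hsum : n = n₁ + (n - n₁) := by omega
    refine ⟨?_, fun h3 => ?_⟩
    · rw [hsum, pow_add]
      have := Nat.mul_le_mul i1.1 i2.1
      nlinarith [@e_pos Q₁ _ _, @e_pos Q₂ _ _]
    · rw [hsum, pow_add]
      have := Nat.mul_le_mul (i1.2 h3) (i2.2 h3)
      have h4 : (e P) ^ 2 ≤ (e Q₁ * e Q₂) ^ 2 := Nat.pow_le_pow_left heP 2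
      nlinarith [@e_pos Q₁ _ _, @e_pos Q₂ _ _]
  by_cases hcyc : ∀ A : Subgroup P, A.Normal → IsMulCommutative A → IsCyclic A
  · have h4 := e_le_of_no_noncyclic hP hcyc
    rcases Nat.lt_or_ge 1 n with h1 | h1
    · refine ⟨?_, fun _ => ?_⟩
      · calc 2 * e P ≤ 4 ^ 2 := by omega
          _ ≤ 4 ^ n := Nat.pow_le_pow_right (by norm_num) h1
      · calc 2 * e P ^ 2 ≤ 2 * 4 ^ 2 := Nat.mul_le_mul_left _ (Nat.pow_le_pow_left h4 2)
          _ ≤ 8 ^ 2 := by norm_num
          _ ≤ 8 ^ n := Nat.pow_le_pow_right (by norm_num) h1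
    · have h1' : n = 1 := by omega
      subst h1'
      rw [pow_one] at hcV
      obtain ⟨-, hc⟩ := card_mulAut_of_prime hr hcV
      have hPc : IsCyclic P := isCyclic_of_injective φ hφ
      have h2 := @e_le_of_cyclic P _ _ hPc
      refine ⟨by omega, fun _ => ?_⟩
      have := Nat.pow_le_pow_left h2 2
      omega
  · push Not at hcyc
    obtain ⟨A, hAn, hAc, hA⟩ := hcyc
    obtain ⟨H, V₁, hidx, hV₁, hcard, hirr₁, hsq⟩ := imprim hodd hV hP φ hφ hirr A hAc hA
    have hmul := V₁.card_mul_index
    rw [hcard, hcV] at hmul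
    obtain ⟨m, hmn, hc₁⟩ : ∃ k ≤ n, Nat.card V₁ = r ^ k := by
      have := V₁.card_subgroup_dvd_card
      rw [hcV] at this
      exact (Nat.dvd_prime_pow hr).1 this
    have hn2 : n = m + m := by
      rw [hc₁, ← pow_add] at hmul
      exact (Nat.pow_right_injective hr.two_le hmul).symm
    have hc₂ : Nat.card (V ⧸ V₁) = r ^ m := by
      rw [← Subgroup.index_eq_card, hcard, hc₁]
    obtain ⟨Q₁, _, _, ψ₁, Q₂, _, _, ψ₂, hQ₁, hψ₁, hQ₂, hψ₂, htr, he, hcH⟩ := e_split hodd hV hP φ hφ H V₁ hV₁
    have heP : e P ≤ 2 * (e Q₁ * e Q₂) := by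
      refine (e_le_index_mul H).trans ?_
      rw [hidx]; exact Nat.mul_le_mul_left _ he
    have i1 := IH m (by omega) V₁ hc₁ (by omega) (fun w => Subtype.ext (hV w)) Q₁ hQ₁ ψ₁ hψ₁
    have i2 := IH m (by omega) (V ⧸ V₁) hc₂ (by omega) (fun w => by
      obtain ⟨w, rfl⟩ := QuotientGroup.mk_surjective w
      rw [← QuotientGroup.mk_pow, hV, QuotientGroup.mk_one]) Q₂ hQ₂ ψ₂ hψ₂
    refine ⟨?_, fun h3 => ?_⟩
    · rw [hn2, pow_add]
      have := Nat.mul_le_mul i1.1 i2.1
      nlinarith
    · -- `r = 3`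
      have e1pow : ∃ k, e Q₁ = 2 ^ k := by
        have : Fact (Nat.Prime 2) := ⟨Nat.prime_two⟩
        obtain ⟨k, hk⟩ := (hQ₁.to_quotient (sq Q₁)).exists_card_eq
        exact ⟨k, hk⟩
      have e2pow : ∃ k, e Q₂ = 2 ^ k := by
        have : Fact (Nat.Prime 2) := ⟨Nat.prime_two⟩
        obtain ⟨k, hk⟩ := (hQ₂.to_quotient (sq Q₂)).exists_card_eq
        exact ⟨k, hk⟩
      have i1' := i1.2 h3
      have i2' := i2.2 h3
      have heP2 : (e P) ^ 2 ≤ (2 * (e Q₁ * e Q₂)) ^ 2 := Nat.pow_le_pow_left heP 2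
      rcases Nat.even_or_odd m with hm | hm
      · have hgen : ∀ t k : ℕ, t = 2 ^ k → 2 * t ^ 2 ≤ 8 ^ m → 4 * t ^ 2 ≤ 8 ^ m := by
          intro t k ht h
          rw [ht] at h ⊢
          have h8 : 8 ^ m = 2 ^ (3 * m) := by rw [pow_mul]; norm_num
          rw [h8] at h ⊢
          have h5 : 2 * (2 ^ k) ^ 2 = 2 ^ (2 * k + 1) := by rw [← pow_mul, pow_succ, mul_comm k]; ring
          have h6 : 4 * (2 ^ k) ^ 2 = 2 ^ (2 * k + 2) := by rw [← pow_mul, pow_add, mul_comm k]; ring
          rw [h5] at h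
          rw [h6]
          have h7 := (Nat.pow_le_pow_iff_right (by norm_num : 1 < 2)).1 h
          apply Nat.pow_le_pow_right (by norm_num)
          obtain ⟨q, hq⟩ := hm
          omega
        obtain ⟨k₁, hk₁⟩ := e1pow
        obtain ⟨k₂, hk₂⟩ := e2pow
        have j1 := hgen _ k₁ hk₁ i1'
        have j2 := hgen _ k₂ hk₂ i2'
        have := Nat.mul_le_mul j1 j2
        rw [hn2, pow_add]
        nlinarith
      · rcases Nat.lt_or_ge 1 m with hm1 | hm1
        · have he1 : e Q₁ ≤ 4 := by
            refine e_le_of_no_noncyclic hQ₁ ?_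
            intro B hBn hBc
            by_contra hB
            obtain ⟨-, V₂, -, -, hcard₂, -, -⟩ := imprim hodd (fun w : V₁ => Subtype.ext (hV w)) hQ₁ ψ₁ hψ₁ (by
              intro U hU
              have h1 := hirr₁ (U.map V₁.subtype) (by rintro _ ⟨x, _, rfl⟩; exact x.2) (htr U hU)
              rcases h1 with h1 | h1
              · left
                exact (Subgroup.map_eq_bot_iff_of_injective U V₁.subtype_injective).1 h1
              · right
                rw [eq_top_iff]
                intro x _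
                have : (x : V) ∈ U.map V₁.subtype := by rw [h1]; exact x.2
                obtain ⟨y, hy, hyx⟩ := this
                have : y = x := Subtype.ext hyx
                rwa [← this]) B hBc hB
            have hmul₂ := V₂.card_mul_index
            rw [hcard₂, hc₁] at hmul₂
            obtain ⟨k, -, hk⟩ : ∃ k ≤ m, Nat.card V₂ = r ^ k := by
              have := V₂.card_subgroup_dvd_card
              rw [hc₁] at this
              exact (Nat.dvd_prime_pow hr).1 this
            rw [hk, ← pow_add] at hmul₂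
            have := Nat.pow_right_injective hr.two_le hmul₂
            obtain ⟨q, hq⟩ := hm
            omega
          rw [hn2, pow_add]
          have h8 : 8 ^ 2 ≤ 8 ^ m := Nat.pow_le_pow_right (by norm_num) hm1
          have h9 : e P ≤ 8 * e Q₂ := heP.trans (by nlinarith)
          have h10 := Nat.pow_le_pow_left h9 2
          nlinarith
        · have hm1' : m = 1 := by obtain ⟨q, hq⟩ := hm; omega
          have hc₁' : Nat.card V₁ = 3 := by rw [hc₁, hm1', h3]; norm_num
          have hc₂' : Nat.card (V ⧸ V₁) = 3 := by rw [hc₂, hm1', h3]; norm_num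
          have b1 : Nat.card Q₁ ≤ 2 := by
            have := Nat.card_le_card_of_injective ψ₁ hψ₁
            rw [(card_mulAut_of_prime Nat.prime_three hc₁').1] at this
            exact this
          have b2 : Nat.card Q₂ ≤ 2 := by
            have := Nat.card_le_card_of_injective ψ₂ hψ₂
            rw [(card_mulAut_of_prime Nat.prime_three hc₂').1] at this
            exact this
          have b3 : Nat.card P ≤ 8 := by
            rw [← H.card_mul_index, hidx, hcH]
            nlinarith
          have b4 : 2 ≤ Nat.card (sq P) := by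
            by_contra h
            apply hsq
            rw [← Subgroup.card_eq_one]
            have : 0 < Nat.card (sq P) := Nat.card_pos
            omega
          have b5 : Nat.card (sq P) * e P = Nat.card P := (sq P).card_mul_index
          have b6 : e P ≤ 4 := by nlinarith
          have := Nat.pow_le_pow_left b6 2
          rw [hn2, hm1']
          norm_num at this ⊢
          omega

end Main

end Cfsg.Agent.Lib.H70TwoLin
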