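import Cfsg.Agent.Lib.H72AvgSolv

set_option autoImplicit false

/-!
# Centralizer orders along a chief factor (helper72)
-/

namespace Cfsg.Agent.Lib.H72AvgChief

open Module Cfsg.Agent.Lib.H72AvgFix Cfsg.Agent.Lib.H72AvgSolv
open scoped commutatorElement

universe u v

variable {G : Type v} [Group G] [Finite G]

theorem card_inf_map (N : Subgroup G) [N.Normal] (C : Subgroup G) :
    Nat.card (N ⊓ C : Subgroup G) * Nat.card (C.map (QuotientGroup.mk' N)) = Nat.card C := by
  have h1 := Subgroup.relIndex_ker C (QuotientGroup.mk' N)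
  rw [QuotientGroup.ker_mk', ← Subgroup.inf_relIndex_right] at h1
  rw [← h1]
  have h2 := Subgroup.relIndex_mul_relIndex (⊥ : Subgroup G) (N ⊓ C) C bot_le inf_le_right
  rwa [Subgroup.relIndex_bot_left, Subgroup.relIndex_bot_left] at h2

theorem fact_inf_map (p : ℕ) (N : Subgroup G) [N.Normal] (C : Subgroup G) :
    (Nat.card C).factorization p = (Nat.card (N ⊓ C : Subgroup G)).factorization p +
      (Nat.card (C.map (QuotientGroup.mk' N))).factorization p := by
  rw [← card_inf_map N C, Nat.factorization_mul Nat.card_pos.ne' Nat.card_pos.ne']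
  rfl

theorem inf_inf_eq {N M : Subgroup G} (h : N ≤ M) (C : Subgroup G) :
    N ⊓ (C ⊓ M) = C ⊓ N := by
  ext x
  simp only [Subgroup.mem_inf]
  constructor
  · rintro ⟨a, b, -⟩; exact ⟨b, a⟩
  · rintro ⟨a, b⟩; exact ⟨b, a, h b⟩

theorem fact_le (p : ℕ) {N M : Subgroup G} [N.Normal] (h : N ≤ M) (C : Subgroup G) :
    (Nat.card (C ⊓ M : Subgroup G)).factorization p ≤
      (Nat.card (C ⊓ N : Subgroup G)).factorization p + (N.relIndex M).factorization p := by
  rw [fact_inf_map p N (C ⊓ M), inf_inf_eq h]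
  apply Nat.add_le_add_left
  have h1 := Subgroup.relIndex_ker M (QuotientGroup.mk' N)
  rw [QuotientGroup.ker_mk'] at h1
  rw [h1]
  exact (Nat.factorization_le_iff_dvd Nat.card_pos.ne' Nat.card_pos.ne').mpr
    (Subgroup.card_dvd_of_le (Subgroup.map_mono inf_le_right)) p

/-- The representation attached to a conjugation action. -/
def rep {p : ℕ} {V : Type v} [AddCommGroup V] [Module (ZMod p) V] {Q : Type v} [Group Q]
    (π : G →* Q) (Mb : Subgroup Q) [Mb.Normal] (e : V ≃ Mb)
    (he : ∀ a b : V, e (a + b) = e a * e b) : Representation (ZMod p) G V where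
  toFun g := AddMonoidHom.toZModLinearMap p
    (AddMonoidHom.mk' (fun v => e.symm (MulAut.conjNormal (π g) (e v))) (by
      intro a b
      apply e.injective
      rw [e.apply_symm_apply, he, map_mul, he, e.apply_symm_apply, e.apply_symm_apply]))
  map_one' := by
    ext v
    show e.symm (MulAut.conjNormal (π 1) (e v)) = v
    rw [map_one, map_one, MulAut.one_apply, e.symm_apply_apply]
  map_mul' := by
    intro g h
    ext v
    show e.symm (MulAut.conjNormal (π (g * h)) (e v)) =
      e.symm (MulAut.conjNormal (π g) (e (e.symm (MulAut.conjNormal (π h) (e v)))))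
    rw [map_mul, map_mul, MulAut.mul_apply, e.apply_symm_apply]

theorem rep_apply {p : ℕ} {V : Type v} [AddCommGroup V] [Module (ZMod p) V] {Q : Type v} [Group Q]
    (π : G →* Q) (Mb : Subgroup Q) [Mb.Normal] (e : V ≃ Mb)
    (he : ∀ a b : V, e (a + b) = e a * e b) (g : G) (v : V) :
    ((e (rep (p := p) π Mb e he g v) : Mb) : Q) = π g * (e v : Mb) * (π g)⁻¹ := by
  show ((e (e.symm (MulAut.conjNormal (π g) (e v))) : Mb) : Q) = _
  rw [e.apply_symm_apply, MulAut.conjNormal_apply]

theorem chief_avg_core [Fintype G] (hs : Group.IsSolvable G) {p : ℕ} [hp : Fact p.Prime]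
    {N M : Subgroup G} [hN : N.Normal] [hM : M.Normal] (hNM : N ≤ M)
    (hchief : ∀ K : Subgroup G, K.Normal → N ≤ K → K ≤ M → K = N ∨ K = M)
    (hD : 2 ≤ (N.relIndex M).factorization p)
    (π : G →* G ⧸ N) (hπ : π = QuotientGroup.mk' N) (Mb : Subgroup (G ⧸ N)) (hMb : Mb = M.map π)
    [hMbn : Mb.Normal]
    {V : Type v} [AddCommGroup V] [Module (ZMod p) V] [Finite V] (e : V ≃ Mb)
    (he : ∀ a b : V, e (a + b) = e a * e b) :
    2 * ∑ g : G, (Nat.card (Subgroup.centralizer ({g} : Set G) ⊓ M : Subgroup G)).factorization p ≤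
      2 * ∑ g : G,
        (Nat.card (Subgroup.centralizer ({g} : Set G) ⊓ N : Subgroup G)).factorization p +
        Nat.card G * (N.relIndex M).factorization p := by
  classical
  have hπ1 : ∀ x : G, π x = 1 ↔ x ∈ N := by
    intro x; rw [hπ]; exact QuotientGroup.eq_one_iff x
  have hπM : ∀ v : V, ∃ x ∈ M, π x = (e v : G ⧸ N) := by
    intro v
    have h1 : ((e v : Mb) : G ⧸ N) ∈ M.map π := hMb ▸ (e v).2
    exact h1
  set ρ : Representation (ZMod p) G V := rep π Mb e he with hρdef
  have hρ : ∀ (g : G) (v : V), ((e (ρ g v) : Mb) : G ⧸ N) =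
      π g * (e v : Mb) * (π g)⁻¹ := fun g v => rep_apply π Mb e he g v
  have he0 : e 0 = 1 := by
    have h1 := he 0 0
    rw [add_zero] at h1
    exact (mul_eq_left.mp h1.symm)
  have heneg : ∀ a, e (-a) = (e a)⁻¹ := by
    intro a
    rw [eq_inv_iff_mul_eq_one, ← he, neg_add_cancel, he0]
  have hcardV : Nat.card V = N.relIndex M := by
    have h1 := Subgroup.relIndex_ker M π
    rw [← hMb, hπ, QuotientGroup.ker_mk'] at h1
    rw [h1]
    exact Nat.card_congr e
  have hfin : finrank (ZMod p) V = (N.relIndex M).factorization p := by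
    rw [← hcardV, Module.natCard_eq_pow_finrank (K := ZMod p) (V := V), Nat.card_zmod,
      Nat.factorization_pow]
    simp [hp.out.factorization_self]
  -- irreducibility
  have hirr : ∀ W : Submodule (ZMod p) V, (∀ g, W ≤ W.comap (ρ g)) → W = ⊥ ∨ W = ⊤ := by
    intro W hW
    let K : Subgroup G :=
      { carrier := {x : G | ∃ v ∈ W, ((e v : Mb) : G ⧸ N) = π x}
        mul_mem' := by
          rintro a b ⟨v, hv, hva⟩ ⟨w, hw, hwb⟩
          refine ⟨v + w, W.add_mem hv hw, ?_⟩
          rw [he, Subgroup.coe_mul, hva, hwb, map_mul]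
        one_mem' := ⟨0, W.zero_mem, by rw [he0, map_one]; rfl⟩
        inv_mem' := by
          rintro a ⟨v, hv, hva⟩
          exact ⟨-v, W.neg_mem hv, by rw [heneg, Subgroup.coe_inv, hva, map_inv]⟩ }
    have hKn : K.Normal := by
      refine ⟨?_⟩
      rintro x ⟨v, hv, hvx⟩ g
      exact ⟨ρ g v, hW g hv, by rw [hρ, hvx, map_mul, map_mul, map_inv]⟩
    have hNK : N ≤ K := by
      intro x hx
      have h1 : π x = 1 := (hπ1 x).mpr hx
      exact ⟨0, W.zero_mem, by rw [he0, h1]; rfl⟩
    have hKM : K ≤ M := by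
      rintro x ⟨v, hv, hvx⟩
      obtain ⟨y, hy, hxy⟩ := hπM v
      rw [hvx] at hxy
      have h1 : y⁻¹ * x ∈ N := by
        rw [← hπ1, map_mul, map_inv, hxy, inv_mul_cancel]
      have h2 := M.mul_mem hy (hNM h1)
      rwa [mul_inv_cancel_left] at h2
    rcases hchief K hKn hNK hKM with h | h
    · left
      rw [eq_bot_iff]
      intro v hv
      obtain ⟨x, hx, hxv⟩ := hπM v
      have hxK : x ∈ K := ⟨v, hv, hxv.symm⟩
      rw [h] at hxK
      have h1 : π x = 1 := (hπ1 x).mpr hxK
      have h2 : e v = 1 := Subtype.ext (by rw [← hxv]; exact h1)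
      rw [← he0] at h2
      exact e.injective h2
    · right
      rw [eq_top_iff]
      intro v _
      obtain ⟨x, hx, hxv⟩ := hπM v
      have hxK : x ∈ K := by rw [h]; exact hx
      obtain ⟨w, hw, hwx⟩ := hxK
      have : e v = e w := Subtype.ext (by rw [← hxv, hwx])
      rw [e.injective this]
      exact hw
  -- nontriviality of the action
  have hnt : ∃ (g : G) (v : V), ρ g v ≠ v := by
    by_contra hno
    push Not at hno
    have hpos : 0 < finrank (ZMod p) V := by omega
    have : Nontrivial V := Module.nontrivial_of_finrank_pos hpos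
    obtain ⟨v, hv⟩ := exists_ne (0 : V)
    rcases hirr (Submodule.span (ZMod p) {v}) (fun g w hw => by
      rw [Submodule.mem_comap, hno g w]; exact hw) with h | h
    · exact hv (Submodule.span_singleton_eq_bot.mp h)
    · have h1 := finrank_span_singleton (K := ZMod p) hv
      rw [h, finrank_top] at h1
      omega
  have key := avg_solvable hs ρ hirr hnt
  have hfx : ∀ g : G, Nat.card (fx ρ g) =
      Nat.card (Mb ⊓ Subgroup.centralizer ({π g} : Set (G ⧸ N)) : Subgroup (G ⧸ N)) := by
    intro g
    refine Nat.card_congr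
      { toFun := fun v => ⟨((e (v : V) : Mb) : G ⧸ N), (e (v : V)).2, ?_⟩
        invFun := fun x => ⟨e.symm ⟨(x : G ⧸ N), x.2.1⟩, ?_⟩
        left_inv := fun v => by
          apply Subtype.ext
          exact e.symm_apply_apply _
        right_inv := fun x => by
          apply Subtype.ext
          show ((e (e.symm ⟨(x : G ⧸ N), x.2.1⟩) : Mb) : G ⧸ N) = x
          rw [e.apply_symm_apply] }
    · refine Subgroup.mem_centralizer_singleton_iff.mpr ?_
      have h1 : ρ g (v : V) = v := mem_fx.mp v.2
      have h2 := hρ g (v : V)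
      rw [h1] at h2
      have h3 : ((e (v : V) : Mb) : G ⧸ N) * π g = π g * ((e (v : V) : Mb) : G ⧸ N) := by
        conv_lhs => rw [h2]
        group
      exact h3
    · rw [mem_fx]
      have h1 := Subgroup.mem_centralizer_singleton_iff.mp x.2.2
      apply e.injective
      apply Subtype.ext
      rw [hρ, e.apply_symm_apply]
      have h1' : (x : G ⧸ N) * π g = π g * x := h1
      show π g * (x : G ⧸ N) * (π g)⁻¹ = x
      rw [← h1']; group
  have hle : ∀ g : G, (Nat.card (Subgroup.centralizer ({g} : Set G) ⊓ M :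
      Subgroup G)).factorization p ≤ (Nat.card (Subgroup.centralizer ({g} : Set G) ⊓ N :
      Subgroup G)).factorization p + finrank (ZMod p) (fx ρ g) := by
    intro g
    rw [fact_inf_map p N (_ ⊓ M), inf_inf_eq hNM, ← hπ]
    apply Nat.add_le_add_left
    have h1 : finrank (ZMod p) (fx ρ g) = (Nat.card (fx ρ g)).factorization p := by
      rw [Module.natCard_eq_pow_finrank (K := ZMod p) (V := fx ρ g), Nat.card_zmod,
        Nat.factorization_pow]
      simp [hp.out.factorization_self]
    rw [h1, hfx g]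
    apply (Nat.factorization_le_iff_dvd Nat.card_pos.ne' Nat.card_pos.ne').mpr
    apply Subgroup.card_dvd_of_le
    rintro _ ⟨x, ⟨hx1, hx2⟩, rfl⟩
    refine ⟨by rw [hMb]; exact ⟨x, hx2, rfl⟩, ?_⟩
    refine Subgroup.mem_centralizer_singleton_iff.mpr ?_
    have h2 : x * g = g * x := Subgroup.mem_centralizer_singleton_iff.mp hx1
    show π x * π g = π g * π x
    rw [← map_mul, h2, map_mul]
  have hsum := Finset.sum_le_sum (fun (g : G) (_ : g ∈ Finset.univ) => hle g)
  rw [Finset.sum_add_distrib] at hsum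
  rw [hfin] at key
  omega

/-- The conjugation representation on a normal elementary abelian subgroup. -/
@[reducible] def addInst {Q : Type v} [Group Q] (M : Subgroup Q)
    (hab : ∀ a ∈ M, ∀ b ∈ M, a * b = b * a) : CommGroup M :=
  { (inferInstance : Group M) with
    mul_comm := fun a b => Subtype.ext (hab a a.2 b b.2) }

theorem chief_avg [Fintype G] (hs : Group.IsSolvable G) {p : ℕ} [hp : Fact p.Prime]
    {N M : Subgroup G} [hN : N.Normal] [hM : M.Normal] (hNM : N ≤ M)
    (hchief : ∀ K : Subgroup G, K.Normal → N ≤ K → K ≤ M → K = N ∨ K = M)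
    (hab : ⁅M, M⁆ ≤ N) (hpow : ∀ m ∈ M, m ^ p ∈ N)
    (hD : 2 ≤ (N.relIndex M).factorization p) :
    2 * ∑ g : G, (Nat.card (Subgroup.centralizer ({g} : Set G) ⊓ M : Subgroup G)).factorization p ≤
      2 * ∑ g : G,
        (Nat.card (Subgroup.centralizer ({g} : Set G) ⊓ N : Subgroup G)).factorization p +
        Nat.card G * (N.relIndex M).factorization p := by
  classical
  have hMbn : (M.map (QuotientGroup.mk' N)).Normal := hM.map _ (QuotientGroup.mk'_surjective N)
  have habb : ∀ a ∈ M.map (QuotientGroup.mk' N), ∀ b ∈ M.map (QuotientGroup.mk' N),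
      a * b = b * a := by
    rintro _ ⟨a, ha, rfl⟩ _ ⟨b, hb, rfl⟩
    have h1 : ⁅a, b⁆ ∈ N := hab (Subgroup.commutator_mem_commutator ha hb)
    have h2 : (QuotientGroup.mk' N) ⁅a, b⁆ = 1 := (QuotientGroup.eq_one_iff _).mpr h1
    rw [map_commutatorElement, commutatorElement_eq_one_iff_mul_comm] at h2
    exact h2
  let i1 : CommGroup (M.map (QuotientGroup.mk' N)) := addInst _ habb
  let V := Additive (M.map (QuotientGroup.mk' N))
  let i2 : AddCommGroup V := Additive.addCommGroup
  let i3 : Module (ZMod p) V := AddCommGroup.zmodModule (n := p) (by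
    intro x
    have h1 : (Additive.toMul x : (M.map (QuotientGroup.mk' N))) ^ p = 1 := by
      obtain ⟨y, hy⟩ := (Additive.toMul x : (M.map (QuotientGroup.mk' N))).2
      apply Subtype.ext
      show ((Additive.toMul x : (M.map (QuotientGroup.mk' N))) : G ⧸ N) ^ p = 1
      rw [← hy.2, ← map_pow]
      exact (QuotientGroup.eq_one_iff _).mpr (hpow y hy.1)
    exact h1)
  have : Finite V := inferInstanceAs (Finite (M.map (QuotientGroup.mk' N)))
  exact chief_avg_core hs hNM hchief hD _ rfl _ rfl (V := V) Additive.toMul (fun a b => rfl)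

end Cfsg.Agent.Lib.H72AvgChief
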