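import Mathlib

set_option autoImplicit false

/-!
# Average dimension of fixed point spaces (helper72)

`avg_rep`: let `A` be an abelian normal subgroup of the finite group `H`, of order prime to the
characteristic, acting on `V` without nonzero fixed vectors.  Then for every `x` the average of
`dim C_V(a x)`, `a ∈ A`, is at most `dim V / 2`.
-/

namespace Cfsg.Agent.Lib.H72AvgFix

open Module

universe u v w

section

variable {k : Type w} [Field k] {H : Type v} [Group H]

/-- The fixed space of one element. -/
def fx {V : Type u} [AddCommGroup V] [Module k V] (ρ : Representation k H V) (g : H) :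
    Submodule k V := LinearMap.ker (ρ g - LinearMap.id)

theorem mem_fx {V : Type u} [AddCommGroup V] [Module k V] {ρ : Representation k H V} {g : H}
    {v : V} : v ∈ fx ρ g ↔ ρ g v = v := by
  rw [fx, LinearMap.mem_ker, LinearMap.sub_apply, LinearMap.id_apply, sub_eq_zero]

/-- Subadditivity of the dimension of the fixed space. -/
theorem finrank_fx_le {V : Type u} [AddCommGroup V] [Module k V] [FiniteDimensional k V]
    (ρ : Representation k H V) (W : Submodule k V) (hW : ∀ g, W ≤ W.comap (ρ g)) (g : H) :
    finrank k (fx ρ g) ≤ finrank k (fx (ρ.quotient W hW) g) +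
      finrank k (fx ((⟨W, hW⟩ : Subrepresentation ρ).toRepresentation) g) := by
  set ρ1 := (⟨W, hW⟩ : Subrepresentation ρ).toRepresentation with hρ1
  let f : fx ρ g →ₗ[k] (V ⧸ W) := W.mkQ.comp (fx ρ g).subtype
  have h1 := LinearMap.finrank_range_add_finrank_ker f
  have h2 : finrank k (LinearMap.range f) ≤ finrank k (fx (ρ.quotient W hW) g) := by
    apply Submodule.finrank_mono
    rintro _ ⟨v, rfl⟩
    rw [mem_fx]
    show (ρ.quotient W hW) g (W.mkQ (v : V)) = W.mkQ (v : V)
    have := mem_fx.mp v.2
    show W.mkQ (ρ g (v : V)) = W.mkQ (v : V)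
    rw [this]
  have h3 : finrank k (LinearMap.ker f) ≤ finrank k (fx ρ1 g) := by
    have hmem : ∀ v : LinearMap.ker f, ((v : fx ρ g) : V) ∈ W := by
      intro v
      have := LinearMap.mem_ker.mp v.2
      exact (Submodule.Quotient.mk_eq_zero W).mp this
    let e : LinearMap.ker f →ₗ[k] fx ρ1 g :=
      { toFun := fun v => ⟨⟨((v : fx ρ g) : V), hmem v⟩, by
          rw [mem_fx]
          apply Subtype.ext
          exact mem_fx.mp (v : fx ρ g).2⟩
        map_add' := fun a b => rfl
        map_smul' := fun a b => rfl }
    apply LinearMap.finrank_le_finrank_of_injective (f := e)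
    intro a b hab
    have : ((e a : W) : V) = ((e b : W) : V) := by rw [hab]
    exact Subtype.ext (Subtype.ext this)
  omega

end

section Irr

variable {k : Type w} [Field k] {H : Type v} [Group H] [Finite H]
variable {V : Type u} [AddCommGroup V] [Module k V] [FiniteDimensional k V]

/-- The trace operator of a subgroup. -/
noncomputable def nm (ρ : Representation k H V) (B : Subgroup H) [Fintype B] : V →ₗ[k] V :=
  ∑ b : B, ρ (b : H)

theorem nm_apply (ρ : Representation k H V) (B : Subgroup H) [Fintype B] (v : V) :
    nm ρ B v = ∑ b : B, ρ (b : H) v := by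
  simp [nm]

theorem nm_fixed (ρ : Representation k H V) (B : Subgroup H) [Fintype B] (v : V) {b : H}
    (hb : b ∈ B) : ρ b (nm ρ B v) = nm ρ B v := by
  rw [nm_apply, map_sum]
  apply Fintype.sum_equiv (Equiv.mulLeft (⟨b, hb⟩ : B))
  intro c
  simp [map_mul]

theorem nm_of_fixed (ρ : Representation k H V) (B : Subgroup H) [Fintype B] {v : V}
    (hv : ∀ b ∈ B, ρ b v = v) : nm ρ B v = (Nat.card B : k) • v := by
  rw [nm_apply, Finset.sum_congr rfl (fun (b : B) _ => hv (b : H) b.2), Finset.sum_const,
    Finset.card_univ, ← Nat.card_eq_fintype_card, Nat.cast_smul_eq_nsmul]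

theorem nm_comm (ρ : Representation k H V) (B : Subgroup H) [Fintype B] (v : V) {a : H}
    (ha : ∀ b ∈ B, a * b = b * a) : nm ρ B (ρ a v) = ρ a (nm ρ B v) := by
  rw [nm_apply, nm_apply, map_sum]
  apply Finset.sum_congr rfl
  intro b _
  rw [← Module.End.mul_apply, ← map_mul, ← ha (b : H) b.2, map_mul, Module.End.mul_apply]

theorem avg_irr (A : Subgroup H) [A.Normal] [Fintype A] (hab : ∀ a ∈ A, ∀ b ∈ A, a * b = b * a)
    (hcop : (Nat.card A : k) ≠ 0) (x : H) (hgen : ∀ h : H, ∃ a ∈ A, ∃ n : ℤ, h = a * x ^ n)
    (ρ : Representation k H V) (hfix : ∀ v, (∀ a ∈ A, ρ a v = v) → v = 0)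
    (hirr : ∀ W : Submodule k V, (∀ g, W ≤ W.comap (ρ g)) → W = ⊥ ∨ W = ⊤)
    (hV : ∃ v : V, v ≠ 0) :
    2 * ∑ a : A, finrank k (fx ρ (a * x)) ≤ Nat.card A * finrank k V := by
  classical
  -- the maximal subgroup `B`
  obtain ⟨B, ⟨hBA, v0, hv0, hv0B⟩, hBmax⟩ : ∃ B : Subgroup H,
      (B ≤ A ∧ ∃ v : V, v ≠ 0 ∧ ∀ b ∈ B, ρ b v = v) ∧
      ∀ B' : Subgroup H, B' ≤ A → (∃ v : V, v ≠ 0 ∧ ∀ b ∈ B', ρ b v = v) → B ≤ B' → B' = B := by
    have hfin : {B : Subgroup H | B ≤ A ∧ ∃ v : V, v ≠ 0 ∧ ∀ b ∈ B, ρ b v = v}.Finite :=
      Set.toFinite _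
    obtain ⟨v, hv⟩ := hV
    have hne : {B : Subgroup H | B ≤ A ∧ ∃ v : V, v ≠ 0 ∧ ∀ b ∈ B, ρ b v = v}.Nonempty := by
      refine ⟨⊥, bot_le, v, hv, ?_⟩
      intro b hb
      rw [Subgroup.mem_bot.mp hb, map_one]; rfl
    obtain ⟨B, hB⟩ := hfin.exists_maximal hne
    refine ⟨B, hB.1, ?_⟩
    intro B' h1 h2 h3
    exact le_antisymm (hB.2 ⟨h1, h2⟩ h3) h3
  have : Fintype B := Fintype.ofFinite B
  have hBk : (Nat.card B : k) ≠ 0 := by
    obtain ⟨c, hc⟩ := Subgroup.card_dvd_of_le hBA
    intro h
    apply hcop
    rw [hc]; push_cast; rw [h, zero_mul]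
  -- the key consequence of maximality
  have hkey : ∀ (c : H), c ∈ A → c ∉ B → ∀ v : V, (∀ b ∈ B, ρ b v = v) → ρ c v = v → v = 0 := by
    intro c hc hcB v hv hcv
    by_contra hv0
    have h1 := hBmax (B ⊔ Subgroup.zpowers c) (sup_le hBA (by simpa using hc)) ⟨v, hv0, ?_⟩
      le_sup_left
    · apply hcB
      rw [← h1]
      exact le_sup_right (a := B) (Subgroup.mem_zpowers c)
    · intro b hb
      have h2 : B ⊔ Subgroup.zpowers c ≤
          { carrier := {b : H | ρ b v = v}
            mul_mem' := by
              intro a b ha hb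
              show ρ (a * b) v = v
              rw [map_mul, Module.End.mul_apply, show ρ b v = v from hb]; exact ha
            one_mem' := by show ρ 1 v = v; simp
            inv_mem' := by
              intro a ha
              show ρ a⁻¹ v = v
              have : ρ a v = v := ha
              conv_lhs => rw [← this]
              rw [← Module.End.mul_apply, ← map_mul, inv_mul_cancel, map_one]; rfl } := by
        apply sup_le
        · exact fun b hb => hv b hb
        · rw [Subgroup.zpowers_le]; exact hcv
      exact h2 hb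
  have hBneA : ∃ c ∈ A, c ∉ B := by
    by_contra hno
    push Not at hno
    exact hv0 (hfix v0 (fun a ha => hv0B a (hno a ha)))
  by_cases hx : ∀ b ∈ B, x * b * x⁻¹ ∈ B
  · -- Case 1: `x` normalizes `B`; then `B` acts trivially.
    have hxz : ∀ n : ℤ, ∀ b ∈ B, (x ^ n)⁻¹ * b * x ^ n ∈ B := by
      have hxN : x ∈ Subgroup.normalizer (B : Set H) := by
        have hmap : B.map (MulAut.conj x).toMonoidHom = B := by
          apply Subgroup.eq_of_le_of_card_ge
          · rintro _ ⟨b, hb, rfl⟩
            simpa using hx b hb
          · rw [Subgroup.card_map_of_injective (MulAut.conj x).injective]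
        rw [Subgroup.mem_normalizer_iff]
        intro h
        constructor
        · intro hh; exact hx h hh
        · intro hh
          rw [← hmap] at hh
          obtain ⟨b, hb, hb2⟩ := hh
          have : b = h := by
            have : x * b * x⁻¹ = x * h * x⁻¹ := by simpa using hb2
            simpa using this
          rwa [← this]
      intro n b hb
      have h1 : (x ^ n)⁻¹ ∈ Subgroup.normalizer (B : Set H) :=
        Subgroup.inv_mem _ (Subgroup.zpow_mem _ hxN n)
      have h2 := (Subgroup.mem_normalizer_iff.mp h1 b).mp hb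
      simpa using h2
    let W : Submodule k V :=
      { carrier := {v : V | ∀ b ∈ B, ρ b v = v}
        add_mem' := by
          intro a b ha hb c hc
          rw [map_add, ha c hc, hb c hc]
        zero_mem' := by intro c hc; simp
        smul_mem' := by
          intro r a ha c hc
          rw [map_smul, ha c hc] }
    have hWinv : ∀ g, W ≤ W.comap (ρ g) := by
      intro g w hw b hb
      obtain ⟨a, ha, n, rfl⟩ := hgen g
      have h1 : b * (a * x ^ n) = (a * x ^ n) * ((x ^ n)⁻¹ * b * x ^ n) := by
        have := hab a ha b (hBA hb)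
        calc b * (a * x ^ n) = (b * a) * x ^ n := by group
          _ = (a * b) * x ^ n := by rw [this]
          _ = _ := by group
      rw [← Module.End.mul_apply, ← map_mul, h1, map_mul, Module.End.mul_apply,
        hw _ (hxz n b hb)]
    have hWtop : W = ⊤ := by
      rcases hirr W hWinv with h | h
      · exfalso
        apply hv0
        have : v0 ∈ W := hv0B
        rw [h] at this
        simpa using this
      · exact h
    have hBtriv : ∀ v : V, ∀ b ∈ B, ρ b v = v := by
      intro v
      have : v ∈ W := by rw [hWtop]; trivial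
      exact this
    obtain ⟨c, hcA, hcB⟩ := hBneA
    have hpair : ∀ a : A, finrank k (fx ρ (a * x)) + finrank k (fx ρ ((c * a) * x)) ≤
        finrank k V := by
      intro a
      apply Submodule.finrank_add_finrank_le_of_disjoint
      rw [Submodule.disjoint_def]
      intro v h1 h2
      rw [mem_fx] at h1 h2
      apply hkey c hcA hcB v (hBtriv v)
      rw [mul_assoc, map_mul, Module.End.mul_apply, h1] at h2
      exact h2
    have hsum := Finset.sum_le_sum (fun (a : A) (_ : a ∈ Finset.univ) => hpair a)
    rw [Finset.sum_add_distrib, Finset.sum_const, Finset.card_univ,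
      ← Nat.card_eq_fintype_card, smul_eq_mul] at hsum
    have hshift : ∑ a : A, finrank k (fx ρ ((c * a) * x)) = ∑ a : A, finrank k (fx ρ (a * x)) := by
      apply Fintype.sum_equiv (Equiv.mulLeft (⟨c, hcA⟩ : A))
      intro a
      rfl
    omega
  · -- Case 2
    have hone : ∀ a : A, 2 * finrank k (fx ρ (a * x)) ≤ finrank k V := by
      intro a
      set y : H := a * x with hy
      let W : Submodule k V :=
        { carrier := {v : V | ∀ b ∈ B, ρ b v = v}
          add_mem' := by
            intro a b ha hb c hc
            rw [map_add, ha c hc, hb c hc]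
          zero_mem' := by intro c hc; simp
          smul_mem' := by
            intro r a ha c hc
            rw [map_smul, ha c hc] }
      -- the conjugate of `B` by `y`
      push Not at hx
      obtain ⟨b0, hb0, hb0x⟩ := hx
      have hyb : y * b0 * y⁻¹ ∉ B := by
        have h1 : y * b0 * y⁻¹ = x * b0 * x⁻¹ := by
          have h2 : x * b0 * x⁻¹ ∈ A := ‹A.Normal›.conj_mem b0 (hBA hb0) x
          have h3 := hab a a.2 _ h2
          calc y * b0 * y⁻¹ = (a : H) * (x * b0 * x⁻¹) * (a : H)⁻¹ := by rw [hy]; group
            _ = (x * b0 * x⁻¹) * (a : H) * (a : H)⁻¹ := by rw [h3]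
            _ = _ := by group
        rw [h1]; exact hb0x
      have hybA : y * b0 * y⁻¹ ∈ A := ‹A.Normal›.conj_mem b0 (hBA hb0) y
      have hdisj : Disjoint W (W.map (ρ y)) := by
        rw [Submodule.disjoint_def]
        rintro _ hv ⟨w, hw, rfl⟩
        apply hkey _ hybA hyb _ hv
        rw [← Module.End.mul_apply, ← map_mul, show y * b0 * y⁻¹ * y = y * b0 by group, map_mul,
          Module.End.mul_apply, hw b0 hb0]
      have hinj : Function.Injective (ρ y) := by
        intro u v huv
        have : ρ y⁻¹ (ρ y u) = ρ y⁻¹ (ρ y v) := by rw [huv]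
        rw [← Module.End.mul_apply, ← Module.End.mul_apply, ← map_mul, inv_mul_cancel,
          map_one] at this
        exact this
      have hWmap : finrank k (W.map (ρ y)) = finrank k W :=
        (Submodule.equivMapOfInjective (ρ y) hinj W).finrank_eq.symm
      have h2W : 2 * finrank k W ≤ finrank k V := by
        have := Submodule.finrank_add_finrank_le_of_disjoint hdisj
        rw [hWmap] at this
        omega
      have hle : finrank k (fx ρ y) ≤ finrank k W := by
        let e : fx ρ y →ₗ[k] W :=
          { toFun := fun v => ⟨nm ρ B (v : V), fun b hb => nm_fixed ρ B _ hb⟩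
            map_add' := by intro u v; apply Subtype.ext; simp
            map_smul' := by intro r v; apply Subtype.ext; simp }
        apply LinearMap.finrank_le_finrank_of_injective (f := e)
        rw [injective_iff_map_eq_zero]
        intro u hu
        have hu0 : nm ρ B (u : V) = 0 := congrArg Subtype.val hu
        have huy : ρ y (u : V) = u := mem_fx.mp u.2
        let K : Submodule k V :=
          { carrier := {v : V | ∀ h : H, nm ρ B (ρ h v) = 0}
            add_mem' := by
              intro a b ha hb h
              rw [map_add, map_add, ha h, hb h, add_zero]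
            zero_mem' := by intro h; simp
            smul_mem' := by
              intro r a ha h
              rw [map_smul, map_smul, ha h, smul_zero] }
        have hKinv : ∀ g, K ≤ K.comap (ρ g) := by
          intro g v hv h
          have h1 := hv (h * g)
          rw [map_mul, Module.End.mul_apply] at h1
          exact h1
        have hK : K = ⊥ := by
          rcases hirr K hKinv with h | h
          · exact h
          · exfalso
            have h1 : v0 ∈ K := by rw [h]; trivial
            have h2 := h1 1
            rw [map_one, Module.End.one_apply, nm_of_fixed ρ B hv0B] at h2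
            rcases smul_eq_zero.mp h2 with h3 | h3
            · exact hBk h3
            · exact hv0 h3
        have huK : (u : V) ∈ K := by
          intro h
          obtain ⟨a', ha', n, rfl⟩ := hgen h
          -- `x ^ n ∈ A * y ^ n`
          have h1 : ∃ a'' ∈ A, a' * x ^ n = a'' * y ^ n := by
            refine ⟨a' * x ^ n * (y ^ n)⁻¹, ?_, by group⟩
            have h2 : (QuotientGroup.mk' A) (a' * x ^ n * (y ^ n)⁻¹) = 1 := by
              have h3 : (QuotientGroup.mk' A) (a : H) = 1 :=
                (QuotientGroup.eq_one_iff (a : H)).mpr a.2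
              have h4 : (QuotientGroup.mk' A) a' = 1 :=
                (QuotientGroup.eq_one_iff a').mpr ha'
              simp only [hy, map_mul, map_zpow, map_inv, h3, h4, one_mul, mul_inv_cancel]
            exact (QuotientGroup.eq_one_iff _).mp h2
          obtain ⟨a'', ha'', h2⟩ := h1
          have h3 : ρ (y ^ n) (u : V) = u := by
            have hst : y ^ n ∈
              ({ carrier := {b : H | ρ b (u : V) = u}
                 mul_mem' := by
                   intro a b ha hb
                   show ρ (a * b) (u : V) = u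
                   rw [map_mul, Module.End.mul_apply, show ρ b (u : V) = u from hb]; exact ha
                 one_mem' := by show ρ 1 (u : V) = u; simp
                 inv_mem' := by
                   intro a ha
                   show ρ a⁻¹ (u : V) = u
                   have : ρ a (u : V) = u := ha
                   conv_lhs => rw [← this]
                   rw [← Module.End.mul_apply, ← map_mul, inv_mul_cancel, map_one]; rfl } :
                Subgroup H) := Subgroup.zpow_mem _ huy n
            exact hst
          rw [h2, map_mul, Module.End.mul_apply, h3,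
            nm_comm ρ B _ (fun b hb => hab a'' ha'' b (hBA hb)), hu0, map_zero]
        rw [hK] at huK
        exact Subtype.ext (by simpa using huK)
      omega
    have hsum := Finset.sum_le_sum (fun (a : A) (_ : a ∈ Finset.univ) => hone a)
    rw [← Finset.mul_sum, Finset.sum_const, Finset.card_univ,
      ← Nat.card_eq_fintype_card, smul_eq_mul] at hsum
    exact hsum

end Irr

section Gen

variable {k : Type w} [Field k] {H : Type v} [Group H] [Finite H]

theorem avg_gen (A : Subgroup H) [A.Normal] [Fintype A]
    (hab : ∀ a ∈ A, ∀ b ∈ A, a * b = b * a)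
    (hcop : (Nat.card A : k) ≠ 0) (x : H) (hgen : ∀ h : H, ∃ a ∈ A, ∃ n : ℤ, h = a * x ^ n) :
    ∀ (n : ℕ) (V : Type u) [AddCommGroup V] [Module k V] [FiniteDimensional k V]
      (ρ : Representation k H V) (_ : ∀ v, (∀ a ∈ A, ρ a v = v) → v = 0)
      (_ : finrank k V = n),
      2 * ∑ a : A, finrank k (fx ρ (a * x)) ≤ Nat.card A * finrank k V := by
  intro n
  induction n using Nat.strong_induction_on with
  | _ n ih =>
  intro V _ _ _ ρ hfix hn
  by_cases hirr : ∀ W : Submodule k V, (∀ g, W ≤ W.comap (ρ g)) → W = ⊥ ∨ W = ⊤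
  · by_cases hV : ∃ v : V, v ≠ 0
    · exact avg_irr A hab hcop x hgen ρ hfix hirr hV
    · push Not at hV
      have : Subsingleton V := ⟨fun a b => by rw [hV a, hV b]⟩
      have h1 : ∀ a : A, finrank k (fx ρ (a * x)) = 0 := fun a => finrank_zero_of_subsingleton
      simp [h1]
  · push Not at hirr
    obtain ⟨W, hW, hWb, hWt⟩ := hirr
    have hsum := Submodule.finrank_quotient_add_finrank W
    have hWpos : 0 < finrank k W := by
      rw [Nat.pos_iff_ne_zero]
      intro h
      exact hWb (Submodule.finrank_eq_zero.mp h)
    have hWlt : finrank k W < finrank k V :=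
      Submodule.finrank_lt hWt
    let ρ1 : Representation k H W := (⟨W, hW⟩ : Subrepresentation ρ).toRepresentation
    let ρ2 : Representation k H (V ⧸ W) := ρ.quotient W hW
    have i1 := ih (finrank k W) (by omega) W ρ1 (by
      intro v hv
      apply Subtype.ext
      apply hfix
      intro a ha
      exact congrArg Subtype.val (hv a ha)) rfl
    have i2 := ih (finrank k (V ⧸ W)) (by omega) (V ⧸ W) ρ2 (by
      intro v hv
      obtain ⟨u, rfl⟩ := W.mkQ_surjective v
      have h1 : nm ρ A u = 0 := hfix _ (fun a ha => nm_fixed ρ A u ha)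
      have h2 : nm ρ2 A (W.mkQ u) = W.mkQ (nm ρ A u) := by
        rw [nm_apply, nm_apply, map_sum]
        rfl
      rw [nm_of_fixed ρ2 A hv, h1, map_zero] at h2
      rcases smul_eq_zero.mp h2 with h3 | h3
      · exact absurd h3 hcop
      · exact h3) rfl
    have hle : ∀ a : A, finrank k (fx ρ (a * x)) ≤
        finrank k (fx ρ2 (a * x)) + finrank k (fx ρ1 (a * x)) := fun a => finrank_fx_le ρ W hW _
    have hs := Finset.sum_le_sum (fun (a : A) (_ : a ∈ Finset.univ) => hle a)
    rw [Finset.sum_add_distrib] at hs
    calc 2 * ∑ a : A, finrank k (fx ρ (a * x))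
        ≤ 2 * ∑ a : A, finrank k (fx ρ2 (a * x)) + 2 * ∑ a : A, finrank k (fx ρ1 (a * x)) := by
          omega
      _ ≤ Nat.card A * finrank k (V ⧸ W) + Nat.card A * finrank k W := by omega
      _ = Nat.card A * finrank k V := by rw [← hsum]; ring

/-- The averaging lemma for a coset of an abelian normal subgroup. -/
theorem avg_rep {V : Type u} [AddCommGroup V] [Module k V] [FiniteDimensional k V]
    (ρ : Representation k H V) (A : Subgroup H) [hA : A.Normal] [Fintype A]
    (hab : ∀ a ∈ A, ∀ b ∈ A, a * b = b * a) (hcop : (Nat.card A : k) ≠ 0)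
    (hfix : ∀ v, (∀ a ∈ A, ρ a v = v) → v = 0) (x : H) :
    2 * ∑ a : A, finrank k (fx ρ (a * x)) ≤ Nat.card A * finrank k V := by
  classical
  set H' : Subgroup H := A ⊔ Subgroup.zpowers x with hH'
  set A' : Subgroup H' := A.subgroupOf H' with hA'
  have : Fintype A' := Fintype.ofFinite A'
  let e : A' ≃* A := Subgroup.subgroupOfEquivOfLe (le_sup_left : A ≤ H')
  have hcard : Nat.card A' = Nat.card A := Nat.card_congr e.toEquiv
  let x' : H' := ⟨x, (le_sup_right : Subgroup.zpowers x ≤ H') (Subgroup.mem_zpowers x)⟩
  let ρ' : Representation k H' V := ρ.comp H'.subtype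
  have hgen : ∀ h : H', ∃ a ∈ A', ∃ n : ℤ, h = a * x' ^ n := by
    intro h
    have h1 : (h : H) ∈ A ⊔ Subgroup.zpowers x := h.2
    rw [← SetLike.mem_coe, Subgroup.normal_mul] at h1
    obtain ⟨a, ha, z, hz, haz⟩ := h1
    obtain ⟨n, rfl⟩ := Subgroup.mem_zpowers_iff.mp hz
    refine ⟨⟨a, (le_sup_left : A ≤ H') ha⟩, ha, n, ?_⟩
    apply Subtype.ext
    simp [x', ← haz]
  have key := avg_gen (k := k) A' (by
      intro a ha b hb
      apply Subtype.ext
      exact hab a ha b hb) (by rw [hcard]; exact hcop) x' hgen (finrank k V) V ρ' (by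
      intro v hv
      apply hfix
      intro a ha
      exact hv ⟨a, (le_sup_left : A ≤ H') ha⟩ ha) rfl
  rw [hcard] at key
  have hs : ∑ a : A', finrank k (fx ρ' (a * x')) = ∑ a : A, finrank k (fx ρ (a * x)) := by
    apply Fintype.sum_equiv e.toEquiv
    intro a
    rfl
  rw [hs] at key
  exact key

/-- Average over the whole group. -/
theorem avg_all {V : Type u} [AddCommGroup V] [Module k V] [FiniteDimensional k V]
    (ρ : Representation k H V) [Fintype H] (A : Subgroup H) [hA : A.Normal]
    (hab : ∀ a ∈ A, ∀ b ∈ A, a * b = b * a) (hcop : (Nat.card A : k) ≠ 0)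
    (hfix : ∀ v, (∀ a ∈ A, ρ a v = v) → v = 0) :
    2 * ∑ h : H, finrank k (fx ρ h) ≤ Nat.card H * finrank k V := by
  classical
  have : Fintype A := Fintype.ofFinite A
  have h1 := Finset.sum_le_sum (fun (x : H) (_ : x ∈ Finset.univ) =>
    avg_rep ρ A hab hcop hfix x)
  rw [Finset.sum_const, Finset.card_univ, ← Nat.card_eq_fintype_card, smul_eq_mul,
    ← Finset.mul_sum, Finset.sum_comm] at h1
  have h2 : ∀ a : A, ∑ x : H, finrank k (fx ρ (a * x)) = ∑ x : H, finrank k (fx ρ x) := by
    intro a
    apply Fintype.sum_equiv (Equiv.mulLeft (a : H))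
    intro x
    rfl
  rw [Finset.sum_congr rfl (fun a _ => h2 a), Finset.sum_const, Finset.card_univ,
    ← Nat.card_eq_fintype_card, smul_eq_mul] at h1
  have h3 : 0 < Nat.card A := Nat.card_pos
  have h4 : Nat.card A * (2 * ∑ h : H, finrank k (fx ρ h)) ≤
      Nat.card A * (Nat.card H * finrank k V) := by
    calc Nat.card A * (2 * ∑ h : H, finrank k (fx ρ h))
        = 2 * (Nat.card A * ∑ h : H, finrank k (fx ρ h)) := by ring
      _ ≤ Nat.card H * (Nat.card A * finrank k V) := h1
      _ = _ := by ring
  exact Nat.le_of_mul_le_mul_left h4 h3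

end Gen

end Cfsg.Agent.Lib.H72AvgFix
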