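import Cfsg.Agent.Lib.H72AvgFix
import Cfsg.Agent.Lib.Fitting
import Cfsg.Agent.Lib.H70Basic2

set_option autoImplicit false

/-!
# Average dimension of fixed point spaces: solvable groups and chief factors (helper72)
-/

namespace Cfsg.Agent.Lib.H72AvgSolv

open Module Cfsg.Agent.Lib.H72AvgFix

universe u v

/-- The sum over a group of a function which factors through a quotient. -/
theorem sum_comp_mk {G : Type v} [Group G] [Fintype G] (K : Subgroup G) [K.Normal]
    [Fintype (G ⧸ K)] (F : G ⧸ K → ℕ) :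
    ∑ g : G, F (QuotientGroup.mk g) = Nat.card K * ∑ h : G ⧸ K, F h := by
  classical
  have h1 : ∀ h : G ⧸ K, (Finset.univ.filter (fun g : G => (QuotientGroup.mk' K) g = h)).card =
      (Finset.univ.filter (fun g : G => (QuotientGroup.mk' K) g = 1)).card := by
    intro h
    obtain ⟨g, rfl⟩ := QuotientGroup.mk'_surjective K h
    exact MonoidHom.card_fiber_eq_of_mem_range (QuotientGroup.mk' K) ⟨g, rfl⟩ ⟨1, map_one _⟩
  have h2 : (Finset.univ.filter (fun g : G => (QuotientGroup.mk' K) g = 1)).card = Nat.card K := by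
    rw [Nat.card_eq_fintype_card, Fintype.card_subtype]
    congr 1
    ext g
    simp
  rw [← Finset.sum_fiberwise Finset.univ (fun g : G => (QuotientGroup.mk' K) g)
    (fun g => F (QuotientGroup.mk g)), Finset.mul_sum]
  apply Finset.sum_congr rfl
  intro h _
  rw [← h2, ← h1 h, ← smul_eq_mul, ← Finset.sum_const]
  apply Finset.sum_congr rfl
  intro g hg
  have : (QuotientGroup.mk' K) g = h := (Finset.mem_filter.mp hg).2
  rw [← this]
  rfl

theorem avg_solvable {G : Type v} [Group G] [Fintype G] (hs : Group.IsSolvable G) {p : ℕ}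
    [Fact p.Prime] {V : Type u} [AddCommGroup V] [Module (ZMod p) V] [Finite V]
    (ρ : Representation (ZMod p) G V)
    (hirr : ∀ W : Submodule (ZMod p) V, (∀ g, W ≤ W.comap (ρ g)) → W = ⊥ ∨ W = ⊤)
    (hnt : ∃ (g : G) (v : V), ρ g v ≠ v) :
    2 * ∑ g : G, finrank (ZMod p) (fx ρ g) ≤ Nat.card G * finrank (ZMod p) V := by
  classical
  have : FiniteDimensional (ZMod p) V := inferInstance
  set K : Subgroup G := ρ.ker with hK
  have : Fintype (G ⧸ K) := Fintype.ofFinite _
  let σ : Representation (ZMod p) (G ⧸ K) V := QuotientGroup.lift K ρ (le_refl _)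
  have hσ : ∀ g : G, σ (QuotientGroup.mk g) = ρ g := fun g => rfl
  have hinj : ∀ h : G ⧸ K, σ h = 1 → h = 1 := by
    intro h hh
    obtain ⟨g, rfl⟩ := QuotientGroup.mk'_surjective K h
    have : g ∈ K := hh
    exact (QuotientGroup.eq_one_iff g).mpr this
  have hN : Nontrivial (G ⧸ K) := by
    by_contra hno
    rw [not_nontrivial_iff_subsingleton] at hno
    obtain ⟨g, v, hgv⟩ := hnt
    apply hgv
    have h1 : (QuotientGroup.mk g : G ⧸ K) = 1 := Subsingleton.elim _ _
    rw [← hσ g, h1, map_one]; rfl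
  have hsH : Group.IsSolvable (G ⧸ K) := inferInstance
  obtain ⟨A, hAn, hAb, hAmin⟩ := H70Basic2.exists_minimal_normal (G := G ⧸ K)
  obtain ⟨hcomm, q, hq, hqA⟩ := Fitting.minimal_normal_solvable hAb inferInstance hAmin
  have hab : ∀ a ∈ A, ∀ b ∈ A, a * b = b * a := isMulCommutative_iff_of_setLike.mp hcomm
  -- fixed space of A
  let W : Submodule (ZMod p) V :=
    { carrier := {v : V | ∀ b ∈ A, σ b v = v}
      add_mem' := by
        intro a b ha hb c hc
        rw [map_add, ha c hc, hb c hc]
      zero_mem' := by intro c hc; simp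
      smul_mem' := by
        intro r a ha c hc
        rw [map_smul, ha c hc] }
  have hWinv : ∀ g, W ≤ W.comap (ρ g) := by
    intro g w hw b hb
    have h1 : (QuotientGroup.mk g : G ⧸ K)⁻¹ * b * (QuotientGroup.mk g) ∈ A := by
      have := hAn.conj_mem b hb (QuotientGroup.mk g : G ⧸ K)⁻¹
      rwa [inv_inv] at this
    have h2 := hw _ h1
    rw [← hσ g, ← Module.End.mul_apply, ← map_mul,
      show b * (QuotientGroup.mk g : G ⧸ K) = (QuotientGroup.mk g) *
        ((QuotientGroup.mk g : G ⧸ K)⁻¹ * b * (QuotientGroup.mk g)) by group,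
      map_mul, Module.End.mul_apply, h2]
  have hWbot : W = ⊥ := by
    rcases hirr W hWinv with h | h
    · exact h
    · exfalso
      apply hAb
      rw [eq_bot_iff]
      intro b hb
      rw [Subgroup.mem_bot]
      apply hinj
      ext v
      have : v ∈ W := by rw [h]; trivial
      exact this b hb
  have hfix : ∀ v, (∀ a ∈ A, σ a v = v) → v = 0 := by
    intro v hv
    have : v ∈ W := hv
    rw [hWbot] at this
    simpa using this
  obtain ⟨g0, v0, hgv0⟩ := hnt
  have hVnt : Nontrivial V := ⟨_, _, hgv0⟩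
  have hpV : p ∣ Nat.card V := by
    rw [Module.natCard_eq_pow_finrank (K := ZMod p) (V := V), Nat.card_zmod]
    exact dvd_pow_self p (Nat.pos_iff_ne_zero.mp finrank_pos)
  have hAq : IsPGroup q A := by
    have : Fact q.Prime := ⟨hq⟩
    intro a
    exact ⟨1, by apply Subtype.ext; simpa using hqA a a.2⟩
  have hpq : p ≠ q := by
    rintro rfl
    let act : MulAction A V :=
      { smul := fun a v => σ (a : G ⧸ K) v
        one_smul := fun v => by show σ (1 : G ⧸ K) v = v; rw [map_one]; rfl
        mul_smul := fun a b v => by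
          show σ ((a : G ⧸ K) * b) v = σ a (σ b v)
          rw [map_mul]; rfl }
    have h0 : (0 : V) ∈ MulAction.fixedPoints A V := by
      intro a
      show σ (a : G ⧸ K) 0 = 0
      simp
    obtain ⟨b, hb, hb0⟩ := hAq.exists_fixed_point_of_prime_dvd_card_of_fixed_point V hpV h0
    apply hb0
    exact (hfix b (fun a ha => hb ⟨a, ha⟩)).symm
  have hcop : (Nat.card A : ZMod p) ≠ 0 := by
    have : Fact q.Prime := ⟨hq⟩
    obtain ⟨n, hn⟩ := (IsPGroup.iff_card (G := A)).mp hAq
    intro h
    rw [hn, ZMod.natCast_eq_zero_iff] at h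
    have := (Fact.out : p.Prime).dvd_of_dvd_pow h
    exact hpq ((Nat.prime_dvd_prime_iff_eq Fact.out hq).mp this)
  have key := avg_all σ A hab hcop hfix
  have hsum := sum_comp_mk K (fun h => finrank (ZMod p) (fx σ h))
  have hsum' : ∑ g : G, finrank (ZMod p) (fx ρ g) = Nat.card K * ∑ h, finrank (ZMod p) (fx σ h) :=
    hsum
  rw [hsum', ← K.card_mul_index, show K.index = Nat.card (G ⧸ K) from rfl]
  calc 2 * (Nat.card K * ∑ h, finrank (ZMod p) (fx σ h))
      = Nat.card K * (2 * ∑ h, finrank (ZMod p) (fx σ h)) := by ring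
    _ ≤ Nat.card K * (Nat.card (G ⧸ K) * finrank (ZMod p) V) := Nat.mul_le_mul_left _ key
    _ = _ := by ring

end Cfsg.Agent.Lib.H72AvgSolv
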