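import Mathlib
import Cfsg.Agent.Lib.HallConverse
import Cfsg.Agent.Lib.CycSelf2
import Cfsg.Agent.Lib.MinimalClass
import Cfsg.Agent.Lib.ThompsonTransfer
import Cfsg.Agent.Lib.CoprimeGen
import Cfsg.Agent.Lib.H72Baer

/-!
# Perfect linear groups of order prime to the characteristic with orbits of `2`-power size
-/

set_option autoImplicit false

namespace Cfsg.Agent.Lib.H72Orbit2

open Subgroup Cfsg.Agent.Lib

/-- the situation. -/
structure Hyp (q : ℕ) (H V : Type*) [Group H] [AddCommGroup V] [DistribMulAction H V] : Prop where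
  prime : q.Prime
  odd : q ≠ 2
  tors : ∀ v : V, q • v = 0
  cop : ¬ q ∣ Nat.card H
  orb : ∀ v : V, ∃ a : ℕ, (MulAction.stabilizer H v).index = 2 ^ a
  irr : ∀ W : AddSubgroup V, (∀ h : H, ∀ w ∈ W, h • w ∈ W) → W = ⊥ ∨ W = ⊤
  faith : ∀ h : H, (∀ v : V, h • v = v) → h = 1
  perf : commutator H = ⊤

namespace Hyp

variable {q : ℕ} {H V : Type*} [Group H] [Finite H] [AddCommGroup V] [Finite V] [DistribMulAction H V]
variable (h : Hyp q H V)
include h

theorem two_ne {v : V} (hv : v + v = 0) : v = 0 := by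
  have h1 : 2 • v = 0 := by rw [two_nsmul]; exact hv
  have h2 := addOrderOf_dvd_iff_nsmul_eq_zero.2 h1
  have h3 := addOrderOf_dvd_iff_nsmul_eq_zero.2 (h.tors v)
  have h4 : Nat.Coprime 2 q := (Nat.coprime_primes Nat.prime_two h.prime).2 (Ne.symm h.odd)
  have h5 := Nat.dvd_gcd h2 h3
  rw [h4.gcd_eq_one] at h5
  exact AddMonoid.addOrderOf_eq_one_iff.1 (Nat.dvd_one.1 h5)

theorem neg_ne {v : V} (hv : -v = v) : v = 0 := by
  apply h.two_ne
  nth_rw 1 [← hv]
  exact neg_add_cancel v

/-- the orbits are those of a Sylow `2`-subgroup. -/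
theorem exists_P {P : Subgroup H} (hPi : ¬ 2 ∣ P.index) (g : H) (v : V) : ∃ x ∈ P, g • v = x • v := by
  obtain ⟨a, ha⟩ := h.orb v
  have hcop : P.index.Coprime (MulAction.stabilizer H v).index := by
    rw [ha]
    exact Nat.Coprime.pow_right _ ((Nat.Prime.coprime_iff_not_dvd Nat.prime_two).2 hPi).symm
  obtain ⟨k, hk, d, hd, rfl⟩ := HallConverse.exists_mul_of_coprime_index hcop g
  refine ⟨k, hk, ?_⟩
  rw [mul_smul, MulAction.mem_stabilizer_iff.1 hd]

theorem irrP {P : Subgroup H} (hPi : ¬ 2 ∣ P.index) (W : AddSubgroup V) (hW : ∀ x ∈ P, ∀ w ∈ W, x • w ∈ W) :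
    W = ⊥ ∨ W = ⊤ := by
  apply h.irr
  intro g w hw
  obtain ⟨x, hx, hxw⟩ := h.exists_P hPi g w
  rw [hxw]
  exact hW x hx w hw

/-- central involutions of `P` invert `V`. -/
theorem central_neg {P : Subgroup H} (hPi : ¬ 2 ∣ P.index) {z : H} (hzP : ∀ x ∈ P, x * z = z * x) (hz2 : z * z = 1)
    (hz1 : z ≠ 1) (v : V) : z • v = -v := by
  let W : AddSubgroup V :=
    { carrier := {v | z • v = v}
      zero_mem' := smul_zero z
      add_mem' := fun {a b} ha hb => by
        rw [Set.mem_setOf_eq] at ha hb ⊢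
        rw [smul_add, ha, hb]
      neg_mem' := fun {a} ha => by
        rw [Set.mem_setOf_eq] at ha ⊢
        rw [smul_neg, ha] }
  have hW : ∀ x ∈ P, ∀ w ∈ W, x • w ∈ W := by
    intro x hx w hw
    change z • x • w = x • w
    have hw' : z • w = w := hw
    rw [smul_smul, ← hzP x hx, mul_smul, hw']
  rcases h.irrP hPi W hW with h1 | h1
  · have h2 : v + z • v ∈ W := by
      change z • (v + z • v) = v + z • v
      rw [smul_add, smul_smul, hz2, one_smul, add_comm]
    rw [h1, AddSubgroup.mem_bot] at h2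
    exact (neg_eq_of_add_eq_zero_right h2).symm
  · exfalso
    apply hz1
    apply h.faith
    intro v
    have h2 : v ∈ W := by rw [h1]; exact AddSubgroup.mem_top v
    exact h2

theorem eq_of_smul {x y : H} (hxy : ∀ v : V, x • v = y • v) : x = y := by
  have h1 : y⁻¹ * x = 1 := by
    apply h.faith
    intro v
    rw [mul_smul, hxy v, inv_smul_smul]
  rw [inv_mul_eq_one] at h1
  exact h1.symm

theorem central_of_neg {z : H} (hz : ∀ v : V, z • v = -v) (g : H) : g * z = z * g := by
  apply h.eq_of_smul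
  intro v
  rw [mul_smul, mul_smul, hz, hz, smul_neg]

/-- There is no normal Klein four-group in `P`. -/
theorem no_klein {P : Subgroup H} (hPi : ¬ 2 ∣ P.index) {z t : H} (hz : ∀ v : V, z • v = -v) (ht2 : t * t = 1)
    (ht1 : t ≠ 1) (htz : t ≠ z) (htP : t ∈ P) (hn : ∀ x ∈ P, x⁻¹ * t * x = t ∨ x⁻¹ * t * x = t * z) : False := by
  let V1 : AddSubgroup V :=
    { carrier := {v | t • v = v}
      zero_mem' := smul_zero t
      add_mem' := fun {a b} ha hb => by
        rw [Set.mem_setOf_eq] at ha hb ⊢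
        rw [smul_add, ha, hb]
      neg_mem' := fun {a} ha => by
        rw [Set.mem_setOf_eq] at ha ⊢
        rw [smul_neg, ha] }
  let V2 : AddSubgroup V :=
    { carrier := {v | t • v = -v}
      zero_mem' := by
        rw [Set.mem_setOf_eq, smul_zero, neg_zero]
      add_mem' := fun {a b} ha hb => by
        rw [Set.mem_setOf_eq] at ha hb ⊢
        rw [smul_add, ha, hb, neg_add]
      neg_mem' := fun {a} ha => by
        rw [Set.mem_setOf_eq] at ha ⊢
        rw [smul_neg, ha] }
  have m1 : ∀ v, v ∈ V1 ↔ t • v = v := fun v => Iff.rfl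
  have m2 : ∀ v, v ∈ V2 ↔ t • v = -v := fun v => Iff.rfl
  -- the union is invariant
  have hU : ∀ g : H, ∀ v : V, (v ∈ V1 ∨ v ∈ V2) → (g • v ∈ V1 ∨ g • v ∈ V2) := by
    intro g v hv
    obtain ⟨x, hx, hxv⟩ := h.exists_P hPi g v
    rw [hxv]
    have e1 : t • x • v = x • (x⁻¹ * t * x) • v := by
      rw [smul_smul, smul_smul]; congr 1; group
    rw [m1, m2, e1]
    rw [m1, m2] at hv
    rcases hn x hx with h1 | h1
    · rw [h1]
      rcases hv with hv | hv
      · left; rw [hv]
      · right; rw [hv, smul_neg]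
    · rw [h1, mul_smul, hz, smul_neg, smul_neg]
      rcases hv with hv | hv
      · right; rw [hv]
      · left; rw [hv, smul_neg, neg_neg]
  -- each image of V1 is in V1 or V2
  have hone : ∀ (A : AddSubgroup V), (∀ v ∈ A, v ∈ V1 ∨ v ∈ V2) → (∀ v ∈ A, v ∈ V1) ∨ (∀ v ∈ A, v ∈ V2) := by
    intro A hA
    by_contra hcon
    push Not at hcon
    obtain ⟨⟨a, ha, ha1⟩, b, hb, hb2⟩ := hcon
    have ha2 := (hA a ha).resolve_left ha1
    have hb1 := (hA b hb).resolve_right hb2
    rcases hA (a + b) (add_mem ha hb) with h1 | h1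
    · exact ha1 ((AddSubgroup.add_mem_cancel_right V1 hb1).1 h1)
    · exact hb2 ((AddSubgroup.add_mem_cancel_left V2 ha2).1 h1)
  have hdec : ∀ v : V, ∃ a ∈ V1, ∃ b ∈ V2, v + v = a + b := by
    intro v
    refine ⟨v + t • v, ?_, v - t • v, ?_, ?_⟩
    · rw [m1, smul_add, smul_smul, ht2, one_smul, add_comm]
    · rw [m2, smul_sub, smul_smul, ht2, one_smul, neg_sub]
    · abel
  have hne1 : ∃ v, v ∉ V1 := by
    by_contra hcon
    push Not at hcon
    exact ht1 (h.faith t fun v => hcon v)
  have hne2 : ∃ v, v ∉ V2 := by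
    by_contra hcon
    push Not at hcon
    apply htz
    apply h.eq_of_smul
    intro v
    rw [hz]
    exact hcon v
  have hdiv : ∀ (W : AddSubgroup V) (v : V), v + v ∈ W → v ∈ W := by
    intro W v hv
    obtain ⟨k, hk⟩ := (h.prime.eq_two_or_odd').resolve_left h.odd
    have h1 : v = (k + 1) • (v + v) := by
      rw [← two_nsmul, smul_smul, show (k + 1) * 2 = (2 * k + 1) + 1 by ring, ← hk, succ_nsmul, h.tors, zero_add]
    rw [h1]
    exact AddSubgroup.nsmul_mem _ hv _
  -- commutators with t
  have hcomm : ∀ g : H, g * t = t * g ∨ g * t = t * z * g := by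
    intro g
    have h1 : (∀ v ∈ V1, g • v ∈ V1) ∨ (∀ v ∈ V1, g • v ∈ V2) := by
      have h2 := hone (V1.map (DistribMulAction.toAddMonoidHom V g)) (by
        rintro _ ⟨v, hv, rfl⟩
        exact hU g v (Or.inl hv))
      rcases h2 with h2 | h2
      · left; intro v hv; exact h2 _ ⟨v, hv, rfl⟩
      · right; intro v hv; exact h2 _ ⟨v, hv, rfl⟩
    have h2 : (∀ v ∈ V2, g • v ∈ V1) ∨ (∀ v ∈ V2, g • v ∈ V2) := by
      have h2 := hone (V2.map (DistribMulAction.toAddMonoidHom V g)) (by
        rintro _ ⟨v, hv, rfl⟩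
        exact hU g v (Or.inr hv))
      rcases h2 with h2 | h2
      · left; intro v hv; exact h2 _ ⟨v, hv, rfl⟩
      · right; intro v hv; exact h2 _ ⟨v, hv, rfl⟩
    have key : ∀ W : AddSubgroup V, (∀ v ∈ V1, g • v ∈ W) → (∀ v ∈ V2, g • v ∈ W) → ∀ w : V, w ∈ W := by
      intro W h3 h4 w
      apply hdiv
      obtain ⟨a, ha, b, hb, hab⟩ := hdec (g⁻¹ • w)
      have h5 : w + w = g • a + g • b := by
        rw [← smul_add, ← hab, smul_add, smul_inv_smul]
      rw [h5]
      exact add_mem (h3 a ha) (h4 b hb)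
    rcases h1 with h1 | h1 <;> rcases h2 with h2 | h2
    · exfalso
      obtain ⟨v, hv⟩ := hne1
      exact hv (key V1 h1 h2 v)
    · left
      apply h.eq_of_smul
      intro v
      have : ∀ w : V, w + w = 0 → w = 0 := fun w => h.two_ne
      apply sub_eq_zero.1
      apply this
      obtain ⟨a, ha, b, hb, hab⟩ := hdec v
      have e1 : (g * t) • a = (t * g) • a := by
        rw [mul_smul, mul_smul, (m1 a).1 ha, (m1 _).1 (h1 a ha)]
      have e2 : (g * t) • b = (t * g) • b := by
        rw [mul_smul, mul_smul, (m2 b).1 hb, (m2 _).1 (h2 b hb), smul_neg]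
      calc (g * t) • v - (t * g) • v + ((g * t) • v - (t * g) • v)
          = (g * t) • (v + v) - (t * g) • (v + v) := by rw [smul_add, smul_add]; abel
        _ = 0 := by rw [hab, smul_add, smul_add, e1, e2, sub_self]
    · right
      apply h.eq_of_smul
      intro v
      have : ∀ w : V, w + w = 0 → w = 0 := fun w => h.two_ne
      apply sub_eq_zero.1
      apply this
      obtain ⟨a, ha, b, hb, hab⟩ := hdec v
      have e1 : (g * t) • a = (t * z * g) • a := by
        rw [mul_smul, mul_smul, mul_smul, (m1 a).1 ha, hz, smul_neg, (m2 _).1 (h1 a ha), neg_neg]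
      have e2 : (g * t) • b = (t * z * g) • b := by
        rw [mul_smul, mul_smul, mul_smul, (m2 b).1 hb, hz, smul_neg, smul_neg, (m1 _).1 (h2 b hb)]
      calc (g * t) • v - (t * z * g) • v + ((g * t) • v - (t * z * g) • v)
          = (g * t) • (v + v) - (t * z * g) • (v + v) := by rw [smul_add, smul_add]; abel
        _ = 0 := by rw [hab, smul_add, smul_add, e1, e2, sub_self]
    · exfalso
      obtain ⟨v, hv⟩ := hne2
      exact hv (key V2 h1 h2 v)
  have hzc := h.central_of_neg hz
  have hz2 : z * z = 1 := by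
    apply h.faith
    intro v
    rw [mul_smul, hz, hz, neg_neg]
  -- the centralizer of t has index at most two, hence is everything
  let f : H →* center H :=
    { toFun := fun g => ⟨g * t * g⁻¹ * t⁻¹, by
        rw [mem_center_iff]
        intro k
        rcases hcomm g with h1 | h1
        · rw [h1]; group
        · have : g * t * g⁻¹ * t⁻¹ = z := by
            rw [h1]
            calc t * z * g * g⁻¹ * t⁻¹ = t * z * t⁻¹ := by group
              _ = z := by rw [hzc t]; group
          rw [this]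
          exact hzc k⟩
      map_one' := by
        apply Subtype.ext
        simp
      map_mul' := by
        intro a b
        apply Subtype.ext
        simp only [Subgroup.coe_mul]
        rcases hcomm a with h1 | h1 <;> rcases hcomm b with h2 | h2
        · have e1 : b * t * b⁻¹ = t := by rw [h2]; group
          have e2 : a * t * a⁻¹ = t := by rw [h1]; group
          calc a * b * t * (a * b)⁻¹ * t⁻¹ = a * (b * t * b⁻¹) * a⁻¹ * t⁻¹ := by group
            _ = a * t * a⁻¹ * t⁻¹ := by rw [e1]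
            _ = _ := by rw [e1]; group
        · have e1 : b * t * b⁻¹ = t * z := by rw [h2]; group
          have e2 : a * t * a⁻¹ = t := by rw [h1]; group
          calc a * b * t * (a * b)⁻¹ * t⁻¹ = a * (b * t * b⁻¹) * a⁻¹ * t⁻¹ := by group
            _ = a * t * (z * a⁻¹) * t⁻¹ := by rw [e1]; group
            _ = (a * t * a⁻¹) * z * t⁻¹ := by rw [← hzc a⁻¹]; group
            _ = a * t * a⁻¹ * t⁻¹ * (b * t * b⁻¹ * t⁻¹) := by rw [e1, e2]; group
        · have e1 : b * t * b⁻¹ = t := by rw [h2]; group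
          have e2 : a * t * a⁻¹ = t * z := by rw [h1]; group
          calc a * b * t * (a * b)⁻¹ * t⁻¹ = a * (b * t * b⁻¹) * a⁻¹ * t⁻¹ := by group
            _ = a * t * a⁻¹ * t⁻¹ := by rw [e1]
            _ = a * t * a⁻¹ * t⁻¹ * (b * t * b⁻¹ * t⁻¹) := by rw [e1, e2]; group
        · have e1 : b * t * b⁻¹ = t * z := by rw [h2]; group
          have e2 : a * t * a⁻¹ = t * z := by rw [h1]; group
          calc a * b * t * (a * b)⁻¹ * t⁻¹ = a * (b * t * b⁻¹) * a⁻¹ * t⁻¹ := by group
            _ = a * t * (z * a⁻¹) * t⁻¹ := by rw [e1]; group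
            _ = (a * t * a⁻¹) * z * t⁻¹ := by rw [← hzc a⁻¹]; group
            _ = a * t * a⁻¹ * t⁻¹ * (t * z * t⁻¹) := by rw [e2]; group
            _ = a * t * a⁻¹ * t⁻¹ * (b * t * b⁻¹ * t⁻¹) := by rw [e1] }
  have hker : ∀ g : H, g * t = t * g := by
    intro g
    have h1 : g ∈ f.ker := by
      have h3 : commutator H ≤ f.ker := by
        rw [commutator_def, Subgroup.commutator_le]
        intro a _ b _
        rw [MonoidHom.mem_ker, map_commutatorElement, commutatorElement_eq_one_iff_mul_comm]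
        exact Subtype.ext (mem_center_iff.1 (f b).2 (f a))
      apply h3
      rw [h.perf]
      exact mem_top g
    have h2 : g * t * g⁻¹ * t⁻¹ = 1 := congrArg Subtype.val h1
    calc g * t = (g * t * g⁻¹ * t⁻¹) * (t * g) := by group
      _ = _ := by rw [h2, one_mul]
  apply htz
  apply h.eq_of_smul
  intro v
  rw [hz]
  exact h.central_neg hPi (fun x _ => hker x) ht2 ht1 v

theorem no_index_two (M : Subgroup H) (hM : M.index = 2) : False := by
  have h1 : commutator H ≤ M := by
    rw [commutator_def, Subgroup.commutator_le]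
    intro a _ b _
    rw [commutatorElement_def]
    have hm := @Subgroup.mul_mem_iff_of_index_two H _ M hM
    rw [hm, hm, hm, inv_mem_iff, inv_mem_iff]
    tauto
  rw [h.perf, top_le_iff] at h1
  rw [h1, index_top] at hM
  norm_num at hM

omit [Finite V] in
omit h in
theorem center_mem {P : Subgroup H} {z : P} (hz : z ∈ center P) (x : H) (hx : x ∈ P) : x * z = z * x := by
  have := mem_center_iff.1 hz ⟨x, hx⟩
  exact congrArg Subtype.val this

/-- Every normal abelian subgroup of `P` is cyclic. -/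
theorem isCyclic_of_normal {P : Subgroup H} (hP : IsPGroup 2 P) (hPi : ¬ 2 ∣ P.index) (A : Subgroup P) (hA : A.Normal)
    (hAc : IsMulCommutative A) : IsCyclic A := by
  have : Fact (Nat.Prime 2) := ⟨Nat.prime_two⟩
  by_contra hnc
  obtain ⟨r, x, y, hr, hxA, hyA, hx1, hxr, hyr, hyx⟩ := CoprimeGen.exists_rank_two hAc hnc
  have hr2 : r = 2 := by
    obtain ⟨k, hk⟩ := hP x
    have : Fact r.Prime := ⟨hr⟩
    have h1 : orderOf x = r := orderOf_eq_prime hxr hx1
    have h2 : r ∣ 2 ^ k := h1 ▸ orderOf_dvd_of_pow_eq_one hk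
    exact (Nat.prime_dvd_prime_iff_eq hr Nat.prime_two).1 (hr.dvd_of_dvd_pow h2)
  subst hr2
  have : Nontrivial P := ⟨⟨x, 1, hx1⟩⟩
  have : Group.IsNilpotent P := hP.isNilpotent
  -- the subgroup of involutions of A
  have hcomm : ∀ a ∈ A, ∀ b ∈ A, a * b = b * a := fun a ha b hb =>
    isMulCommutative_iff_of_setLike.mp hAc a ha b hb
  let Ω : Subgroup P :=
    { carrier := {a | a ∈ A ∧ a ^ 2 = 1}
      one_mem' := ⟨one_mem _, one_pow _⟩
      mul_mem' := by
        rintro a b ⟨ha, ha2⟩ ⟨hb, hb2⟩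
        refine ⟨mul_mem ha hb, ?_⟩
        have : Commute a b := hcomm a ha b hb
        rw [this.mul_pow, ha2, hb2, one_mul]
      inv_mem' := by
        rintro a ⟨ha, ha2⟩
        exact ⟨inv_mem ha, by rw [inv_pow, ha2, inv_one]⟩ }
  have hΩn : Ω.Normal := by
    refine ⟨?_⟩
    rintro a ⟨ha, ha2⟩ g
    refine ⟨hA.conj_mem a ha g, ?_⟩
    rw [conj_pow, ha2, mul_one, mul_inv_cancel]
  have hΩ1 : Ω ≠ ⊥ := by
    intro h1
    apply hx1
    have h2 : x ∈ Ω := ⟨hxA, hxr⟩
    rwa [h1, mem_bot] at h2
  obtain ⟨z, hzΩ, hzc, hz1⟩ := MinimalClass.exists_mem_center_of_normal Ω hΩ1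
  have hz2 : z * z = 1 := by
    rw [← pow_two]; exact hzΩ.2
  have hzneg : ∀ v : V, (z : H) • v = -v := by
    apply h.central_neg hPi (z := (z : H)) (center_mem hzc)
    · exact congrArg Subtype.val hz2
    · intro h1; exact hz1 (Subtype.ext h1)
  have hzn : (zpowers z).Normal := by
    refine ⟨?_⟩
    rintro _ ⟨k, rfl⟩ g
    have h1 : g * z ^ k * g⁻¹ = z ^ k := by
      have h2 : Commute g (z ^ k) := Commute.zpow_right (mem_center_iff.1 hzc g) k
      rw [h2.eq]; group
    change g * z ^ k * g⁻¹ ∈ _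
    rw [h1]
    exact ⟨k, rfl⟩
  have hzp : ∀ w ∈ zpowers z, w = 1 ∨ w = z := by
    rintro w ⟨k, rfl⟩
    change z ^ k = 1 ∨ z ^ k = z
    rcases Int.even_or_odd' k with ⟨m, rfl | rfl⟩
    · left; rw [zpow_mul, zpow_ofNat, pow_two, hz2, one_zpow]
    · right; rw [zpow_add, zpow_mul, zpow_ofNat, pow_two, hz2, one_zpow, one_mul, zpow_one]
  have hΩb : (Ω.map (QuotientGroup.mk' (zpowers z))).Normal :=
    Subgroup.Normal.map hΩn _ (QuotientGroup.mk'_surjective _)
  have hΩb1 : Ω.map (QuotientGroup.mk' (zpowers z)) ≠ ⊥ := by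
    intro h1
    rw [Subgroup.map_eq_bot_iff, QuotientGroup.ker_mk'] at h1
    have hx : x = z := (hzp x (h1 ⟨hxA, hxr⟩)).resolve_left hx1
    apply hyx
    rw [hx]
    exact h1 ⟨hyA, hyr⟩
  obtain ⟨tb, ⟨t, ht, rfl⟩, htc, ht1⟩ := MinimalClass.exists_mem_center_of_normal _ hΩb1
  have htz : t ∉ zpowers z := by
    intro h1
    apply ht1
    rw [QuotientGroup.mk'_apply, QuotientGroup.eq_one_iff]; exact h1
  refine h.no_klein hPi (z := (z : H)) (t := (t : H)) hzneg ?_ ?_ ?_ t.2 ?_
  · have h1 : t ^ 2 = 1 := ht.2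
    rw [pow_two] at h1
    exact congrArg Subtype.val h1
  · intro h1
    apply htz
    have : t = 1 := Subtype.ext h1
    rw [this]; exact one_mem _
  · intro h1
    apply htz
    have : t = z := Subtype.ext h1
    rw [this]; exact mem_zpowers z
  · intro g hg
    have h1 := mem_center_iff.1 htc (QuotientGroup.mk' _ ⟨g, hg⟩)
    rw [← map_mul, ← map_mul, QuotientGroup.mk'_apply, QuotientGroup.mk'_apply, QuotientGroup.eq] at h1
    rcases hzp _ h1 with h2 | h2
    · left
      rw [inv_mul_eq_one] at h2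
      have h3 : g * (t : H) = t * g := congrArg Subtype.val h2
      rw [mul_assoc, ← h3]; group
    · right
      rw [inv_mul_eq_iff_eq_mul] at h2
      have h3 : (t : H) * g = g * t * z := congrArg Subtype.val h2
      rw [mul_assoc, h3]; group

/-- `P` has just one involution, and it inverts `V`. -/
theorem unique_involution (P : Sylow 2 H) (hP1 : (P : Subgroup H) ≠ ⊥) :
    ∃ z ∈ (P : Subgroup H), z ≠ 1 ∧ z * z = 1 ∧ (∀ v : V, z • v = -v) ∧
      ∀ t ∈ (P : Subgroup H), t * t = 1 → t = 1 ∨ t = z := by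
  have : Fact (Nat.Prime 2) := ⟨Nat.prime_two⟩
  have hP := P.isPGroup'
  have hPi := P.not_dvd_index
  have : Nontrivial (P : Subgroup H) := by
    rwa [Subgroup.nontrivial_iff_ne_bot]
  have : Group.IsNilpotent (P : Subgroup H) := hP.isNilpotent
  have hZ : Nontrivial (center (P : Subgroup H)) := hP.center_nontrivial
  obtain ⟨z0, hz0⟩ : ∃ z : center (P : Subgroup H), orderOf z = 2 := by
    apply exists_prime_orderOf_dvd_card'
    have h1 : IsPGroup 2 (center (P : Subgroup H)) := hP.to_subgroup _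
    obtain ⟨n, hn, hc⟩ := h1.nontrivial_iff_card.1 hZ
    rw [hc]
    exact dvd_pow_self 2 hn.ne'
  obtain ⟨⟨z, hzP⟩, hzc⟩ := z0
  have hz1 : z ≠ 1 := by
    rintro rfl
    have : (⟨⟨1, hzP⟩, hzc⟩ : center (P : Subgroup H)) = 1 := rfl
    rw [this, orderOf_one] at hz0
    norm_num at hz0
  have hz2 : z * z = 1 := by
    have h1 : (⟨⟨z, hzP⟩, hzc⟩ : center (P : Subgroup H)) ^ 2 = 1 := orderOf_dvd_iff_pow_eq_one.1 (by rw [hz0])
    rw [pow_two] at h1
    exact congrArg Subtype.val (congrArg Subtype.val h1)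
  have hzneg : ∀ v : V, z • v = -v := h.central_neg hPi (center_mem (z := ⟨z, hzP⟩) hzc) hz2 hz1
  have huniq : ∀ t : (P : Subgroup H), t ∈ center (P : Subgroup H) → t * t = 1 → t ≠ 1 → (t : H) = z := by
    intro t htc ht2 ht1
    apply h.eq_of_smul
    intro v
    rw [hzneg]
    refine h.central_neg hPi (center_mem htc) (congrArg Subtype.val ht2) ?_ v
    intro h1; exact ht1 (Subtype.ext h1)
  refine ⟨z, hzP, hz1, hz2, hzneg, ?_⟩
  intro t htP ht2
  by_contra hcon
  push Not at hcon
  obtain ⟨ht1, htz⟩ := hcon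
  by_cases hna : ∃ a b : (P : Subgroup H), a * b ≠ b * a
  swap
  · push Not at hna
    apply htz
    refine huniq ⟨t, htP⟩ ?_ ?_ ?_
    · rw [mem_center_iff]
      intro g
      exact hna g _
    · exact Subtype.ext ht2
    · intro h1; exact ht1 (congrArg Subtype.val h1)
  obtain ⟨A, hAn, hAc, hAC⟩ := MinimalClass.exists_self_centralizing_normal_abelian (G := (P : Subgroup H))
  have hcyc := h.isCyclic_of_normal hP hPi A hAn hAc
  obtain ⟨u, rfl⟩ := A.isCyclic_iff_exists_zpowers_eq_top.1 hcyc
  obtain ⟨m, hm⟩ : ∃ m, orderOf u = 2 ^ m := IsPGroup.iff_orderOf.1 hP u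
  have hm1 : m ≠ 0 := by
    rintro rfl
    rw [pow_zero, orderOf_eq_one_iff] at hm
    subst hm
    rw [zpowers_one_eq_bot] at hAC
    obtain ⟨a, b, hab⟩ := hna
    have h1 : ∀ a : (P : Subgroup H), a = 1 := by
      intro a
      have : a ∈ (⊥ : Subgroup (P : Subgroup H)) := by
        rw [← hAC, mem_centralizer_iff]
        intro b hb
        rw [SetLike.mem_coe, mem_bot] at hb
        rw [hb, one_mul, mul_one]
      rwa [mem_bot] at this
    exact hab (by rw [h1 a, h1 b])
  obtain ⟨n, rfl⟩ := Nat.exists_eq_succ_of_ne_zero hm1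
  have hctx : CycSelf.Ctx 2 n u := ⟨hP, hm, hAn, hAC, hna⟩
  rcases CycSelf.two_case hctx with ⟨hcard, -⟩ | ⟨-, hel, hc4, hch⟩
  · have hidx : (zpowers u).index = 2 := by
      have h1 := (zpowers u).card_mul_index
      rw [Nat.card_zpowers, hm, hcard] at h1
      have h2 : 2 ^ (n + 2) = 2 ^ n.succ * 2 := by rw [← pow_succ]
      rw [h2] at h1
      exact Nat.eq_of_mul_eq_mul_left (by positivity) h1
    have hno : ∀ g : H, g * t * g⁻¹ ∉ (zpowers u).map (P : Subgroup H).subtype := by
      rintro g ⟨w, hw, hwt⟩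
      have hw2 : w * w = 1 := by
        apply Subtype.ext
        have : (w : H) * w = 1 := by
          have e : (w : H) = g * t * g⁻¹ := hwt
          rw [e]
          calc g * t * g⁻¹ * (g * t * g⁻¹) = g * (t * t) * g⁻¹ := by group
            _ = 1 := by rw [ht2]; group
        exact this
      have hw1 : w ≠ 1 := by
        rintro rfl
        have e : (1 : H) = g * t * g⁻¹ := hwt
        apply ht1
        calc t = g⁻¹ * (g * t * g⁻¹) * g := by group
          _ = 1 := by rw [← e]; group
      have hwz := (hctx.mem_z_iff hw).1 (by rw [pow_two]; exact hw2)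
      have hwc : w ∈ center (P : Subgroup H) := by
        have h1 := hctx.z_central
        exact (zpowers_le.2 h1) hwz
      have h3 := huniq w hwc hw2 hw1
      apply htz
      have e : (w : H) = g * t * g⁻¹ := hwt
      calc t = g⁻¹ * (g * t * g⁻¹) * g := by group
        _ = g⁻¹ * z * g := by rw [← e, h3]
        _ = z := by rw [h.central_of_neg hzneg]; group
    obtain ⟨M, -, hM, -⟩ := ThompsonTransfer.thompson_transfer P ((zpowers u).map (P : Subgroup H).subtype) (by
      rw [Subgroup.relIndex]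
      refine Eq.trans ?_ hidx
      congr 1
      exact Subgroup.comap_map_eq_self_of_injective (Subtype.coe_injective) _) t
      (orderOf_eq_prime (by rw [pow_two]; exact ht2) ht1) htP hno
    exact h.no_index_two M hM
  · have hn := hch
    have h4 := h.isCyclic_of_normal hP hPi (Cfsg.omegaOne 2 (centralizer (zpowers (u ^ 2) : Set (P : Subgroup H)))) inferInstance hel.1
    obtain ⟨w, hw⟩ := h4.exists_generator
    have h5 : orderOf w = 2 ^ 2 := by
      rw [orderOf_eq_card_of_forall_mem_zpowers hw, hc4]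
    have h6 : w ^ 2 = 1 := Subtype.ext (hel.2 w w.2)
    have h7 := orderOf_dvd_of_pow_eq_one h6
    rw [h5] at h7
    norm_num at h7

/-- `P` acts semiregularly. -/
theorem semireg (P : Sylow 2 H) {x : H} (hx : x ∈ (P : Subgroup H)) {v : V} (hv : v ≠ 0) (hxv : x • v = v) : x = 1 := by
  by_contra hx1
  have hP1 : (P : Subgroup H) ≠ ⊥ := by
    intro h1
    rw [h1, mem_bot] at hx
    exact hx1 hx
  obtain ⟨z, hzP, hz1, hz2, hz, huniq⟩ := h.unique_involution P hP1
  obtain ⟨m, hm⟩ : ∃ m, orderOf x = 2 ^ m := by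
    obtain ⟨m, hm⟩ := IsPGroup.iff_orderOf.1 P.isPGroup' ⟨x, hx⟩
    refine ⟨m, ?_⟩
    rw [← hm, ← Subgroup.orderOf_coe]
  have hm1 : m ≠ 0 := by
    rintro rfl
    rw [pow_zero, orderOf_eq_one_iff] at hm
    exact hx1 hm
  obtain ⟨n, rfl⟩ := Nat.exists_eq_succ_of_ne_zero hm1
  have h1 : x ^ 2 ^ n ≠ 1 := by
    intro h1
    have h2 := Nat.le_of_dvd (by positivity) (orderOf_dvd_of_pow_eq_one h1)
    rw [hm] at h2
    have := Nat.pow_lt_pow_right (a := 2) (by norm_num) (Nat.lt_succ_self n)
    omega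
  have h2 : x ^ 2 ^ n * x ^ 2 ^ n = 1 := by
    rw [← pow_add, ← mul_two, ← pow_succ, ← hm, pow_orderOf_eq_one]
  have h3 := (huniq _ (pow_mem hx _) h2).resolve_left h1
  have h4 : ∀ k : ℕ, x ^ k • v = v := by
    intro k
    induction k with
    | zero => rw [pow_zero, one_smul]
    | succ k ih => rw [pow_succ, mul_smul, hxv, ih]
  have h5 := h4 (2 ^ n)
  rw [h3, hz] at h5
  exact hv (h.neg_ne h5)

theorem card_dvd (P : Sylow 2 H) : Nat.card (P : Subgroup H) ∣ Nat.card V - 1 := by
  classical
  let act : MulAction (P : Subgroup H) {v : V // v ≠ 0} :=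
    { smul := fun g t => ⟨g.1 • t.1, by
        intro h0
        apply t.2
        have : (g.1)⁻¹ • g.1 • t.1 = 0 := by rw [h0, smul_zero]
        rwa [inv_smul_smul] at this⟩
      one_smul := fun t => Subtype.ext (one_smul H t.1)
      mul_smul := fun g h t => Subtype.ext (mul_smul g.1 h.1 t.1) }
  have hs : ∀ b : {v : V // v ≠ 0}, MulAction.stabilizer (P : Subgroup H) b = ⊥ := by
    intro b
    rw [eq_bot_iff]
    intro a ha
    rw [mem_bot]
    apply Subtype.ext
    exact h.semireg P a.2 b.2 (congrArg Subtype.val ha)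
  have hc : Nat.card {v : V // v ≠ 0} = Nat.card V - 1 := by
    have := Fintype.ofFinite V
    rw [Nat.card_eq_fintype_card, Nat.card_eq_fintype_card, Fintype.card_subtype_compl, Fintype.card_subtype_eq]
  rw [← hc, Nat.card_congr (MulAction.selfEquivOrbitsQuotientProd hs), Nat.card_prod]
  exact Dvd.intro_left _ rfl

end Hyp

/-- A partition into pairwise "independent" parts has many parts. -/
theorem count_aux {ι : Type*} [Fintype ι] [DecidableEq ι] (n : ι → ℝ) (S : ℝ) (hS : 1 < S) (h1 : ∀ i, 1 ≤ n i)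
    (hlt : ∀ i, n i < S) (hpair : ∀ i j, i ≠ j → n i * n j ≤ S) (hsum : ∑ i, (n i - 1) = S - 1) :
    S ≤ ((Fintype.card ι : ℝ) - 1) ^ 2 ∧ 1 ≤ (Fintype.card ι : ℝ) := by
  have hcard : 1 ≤ (Fintype.card ι : ℝ) := by
    rcases isEmpty_or_nonempty ι with hι | hι
    · rw [Finset.univ_eq_empty, Finset.sum_empty] at hsum
      linarith
    · exact_mod_cast Fintype.card_pos
  refine ⟨?_, hcard⟩
  by_cases hbig : ∃ i, S < n i * n i
  · obtain ⟨i, hi⟩ := hbig
    have h2 : ∑ j ∈ Finset.univ.erase i, (n j - 1) = S - n i := by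
      have := Finset.add_sum_erase Finset.univ (fun j => n j - 1) (Finset.mem_univ i)
      rw [hsum] at this
      linarith
    have h3 : n i * (S - n i) ≤ ((Fintype.card ι : ℝ) - 1) * (S - n i) := by
      calc n i * (S - n i) = ∑ j ∈ Finset.univ.erase i, (n i * (n j - 1)) := by rw [← h2, Finset.mul_sum]
        _ ≤ ∑ j ∈ Finset.univ.erase i, (S - n i) := by
          apply Finset.sum_le_sum
          intro j hj
          have := hpair i j (Finset.ne_of_mem_erase hj).symm
          linarith
        _ = _ := by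
          rw [Finset.sum_const, Finset.card_erase_of_mem (Finset.mem_univ i), Finset.card_univ, nsmul_eq_mul]
          congr 1
          rw [Nat.cast_sub (by exact_mod_cast hcard)]
          norm_num
    have h4 : n i ≤ (Fintype.card ι : ℝ) - 1 := le_of_mul_le_mul_right h3 (by linarith [hlt i])
    have h5 : 0 ≤ n i := by linarith [h1 i]
    nlinarith
  · push Not at hbig
    have hr : 0 ≤ S := by linarith
    have h2 : ∀ i, n i ≤ Real.sqrt S := by
      intro i
      apply Real.le_sqrt_of_sq_le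
      rw [pow_two]
      exact hbig i
    have h3 : S - 1 ≤ (Fintype.card ι : ℝ) * (Real.sqrt S - 1) := by
      rw [← hsum]
      calc ∑ i, (n i - 1) ≤ ∑ i : ι, (Real.sqrt S - 1) := Finset.sum_le_sum fun i _ => by linarith [h2 i]
        _ = _ := by rw [Finset.sum_const, Finset.card_univ, nsmul_eq_mul]
    have h4 : Real.sqrt S * Real.sqrt S = S := Real.mul_self_sqrt hr
    have h5 : 1 < Real.sqrt S := by
      rw [show (1 : ℝ) = Real.sqrt 1 by simp]
      exact Real.sqrt_lt_sqrt (by norm_num) hS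
    have h6 : (Real.sqrt S + 1) * (Real.sqrt S - 1) ≤ (Fintype.card ι : ℝ) * (Real.sqrt S - 1) := by nlinarith
    have h7 : Real.sqrt S + 1 ≤ (Fintype.card ι : ℝ) := le_of_mul_le_mul_right h6 (by linarith)
    nlinarith

namespace Hyp

variable {q : ℕ} {H V : Type*} [Group H] [Finite H] [AddCommGroup V] [Finite V] [DistribMulAction H V]
variable (h : Hyp q H V)
include h

/-- The partition argument. -/
theorem card_le (P : Sylow 2 H) {g : H} (hg : g ∉ (P : Subgroup H)) (hV : 1 < Nat.card V) :
    Nat.card V ≤ (Nat.card (P : Subgroup H) - 1) ^ 2 := by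
  classical
  have hPi := P.not_dvd_index
  have := Fintype.ofFinite (P : Subgroup H)
  have := Fintype.ofFinite V
  let A : ↥(P : Subgroup H) → AddSubgroup V := fun x =>
    { carrier := {v | g • v = (x : H) • v}
      zero_mem' := by rw [Set.mem_setOf_eq, smul_zero, smul_zero]
      add_mem' := fun {a b} ha hb => by
        rw [Set.mem_setOf_eq] at ha hb ⊢
        rw [smul_add, smul_add, ha, hb]
      neg_mem' := fun {a} ha => by
        rw [Set.mem_setOf_eq] at ha ⊢
        rw [smul_neg, smul_neg, ha] }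
  have mA : ∀ x v, v ∈ A x ↔ g • v = (x : H) • v := fun x v => Iff.rfl
  have hdisj : ∀ x y v, x ≠ y → v ∈ A x → v ∈ A y → v = 0 := by
    intro x y v hxy hx hy
    by_contra hv
    rw [mA] at hx hy
    apply hxy
    have h1 : ((x : H)⁻¹ * y) • v = v := by
      rw [mul_smul, ← hy, hx, inv_smul_smul]
    have h2 := h.semireg P (mul_mem (inv_mem x.2) y.2) hv h1
    rw [inv_mul_eq_one] at h2
    exact Subtype.ext h2
  have hcov : ∀ v, ∃ x, v ∈ A x := by
    intro v
    obtain ⟨x, hx, hxv⟩ := h.exists_P hPi g v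
    exact ⟨⟨x, hx⟩, hxv⟩
  have hcardV : (Finset.univ : Finset V).card = Nat.card V := by
    rw [Finset.card_univ, Nat.card_eq_fintype_card]
  have hnA : ∀ x, (Finset.univ.filter fun v : V => v ∈ A x).card = Nat.card (A x) := by
    intro x
    rw [Nat.card_eq_fintype_card, Fintype.card_subtype]
  have hsum : ∑ x : (P : Subgroup H), (Nat.card (A x) - 1) = Nat.card V - 1 := by
    have h1 : (Finset.univ : Finset V).erase 0 = (Finset.univ : Finset (P : Subgroup H)).biUnion
        (fun x => (Finset.univ.filter fun v : V => v ∈ A x).erase 0) := by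
      ext v
      simp only [Finset.mem_erase, Finset.mem_univ, and_true, Finset.mem_biUnion, Finset.mem_filter, true_and]
      constructor
      · intro hv
        obtain ⟨x, hx⟩ := hcov v
        exact ⟨x, hv, hx⟩
      · rintro ⟨x, hv, -⟩
        exact hv
    have h2 := congrArg Finset.card h1
    rw [Finset.card_erase_of_mem (Finset.mem_univ _), hcardV, Finset.card_biUnion] at h2
    · rw [h2]
      apply Finset.sum_congr rfl
      intro x _
      rw [Finset.card_erase_of_mem, hnA]
      rw [Finset.mem_filter]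
      exact ⟨Finset.mem_univ _, zero_mem _⟩
    · intro x _ y _ hxy
      rw [Function.onFun, Finset.disjoint_left]
      intro v hv hv'
      rw [Finset.mem_erase, Finset.mem_filter] at hv hv'
      exact hv.1 (hdisj x y v hxy hv.2.2 hv'.2.2)
  have hpos : ∀ x, 1 ≤ Nat.card (A x) := fun x => Nat.card_pos
  have hlt : ∀ x, Nat.card (A x) < Nat.card V := by
    intro x
    have h1 : A x ≠ ⊤ := by
      intro h1
      apply hg
      have h2 : g = x := by
        apply h.eq_of_smul
        intro v
        have : v ∈ A x := by rw [h1]; exact AddSubgroup.mem_top v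
        exact this
      rw [h2]; exact x.2
    rw [← AddSubgroup.card_top (G := V)]
    exact Set.Finite.card_lt_card (Set.toFinite _) (SetLike.coe_ssubset_coe.2 (lt_of_le_of_ne le_top h1))
  have hpair : ∀ x y, x ≠ y → Nat.card (A x) * Nat.card (A y) ≤ Nat.card V := by
    intro x y hxy
    rw [← Nat.card_prod]
    apply Nat.card_le_card_of_injective (fun ab : A x × A y => (ab.1 : V) + ab.2)
    apply AddSubgroup.add_injective_of_disjoint
    rw [disjoint_iff, eq_bot_iff]
    intro v hv
    exact hdisj x y v hxy hv.1 hv.2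
  have key := count_aux (fun x : (P : Subgroup H) => (Nat.card (A x) : ℝ)) (Nat.card V : ℝ) (by exact_mod_cast hV)
    (fun x => by exact_mod_cast hpos x) (fun x => by exact_mod_cast hlt x) (fun x y hxy => by exact_mod_cast hpair x y hxy)
    (by
      have h1 : ((∑ x : (P : Subgroup H), (Nat.card (A x) - 1) : ℕ) : ℝ) = ((Nat.card V - 1 : ℕ) : ℝ) := by rw [hsum]
      rw [Nat.cast_sub hV.le] at h1
      push_cast at h1
      rw [← h1]
      apply Finset.sum_congr rfl
      intro x _
      rw [Nat.cast_sub (hpos x)]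
      norm_num)
  obtain ⟨h1, h2⟩ := key
  rw [← Nat.card_eq_fintype_card] at h1 h2
  have h3 : 1 ≤ Nat.card (P : Subgroup H) := by exact_mod_cast h2
  have h4 : ((Nat.card V : ℕ) : ℝ) ≤ (((Nat.card (P : Subgroup H) - 1) ^ 2 : ℕ) : ℝ) := by
    rw [Nat.cast_pow, Nat.cast_sub h3]
    push_cast
    exact h1
  exact_mod_cast h4

end Hyp

/-- `q^e + 1 = 2^a` -/
theorem nt1 {q e a : ℕ} (hq : 3 ≤ q) (hodd : Odd q) (he : 2 ≤ e) (h : q ^ e + 1 = 2 ^ a) : False := by
  have hbig : 9 ≤ q ^ e := by
    calc 9 = 3 ^ 2 := by norm_num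
      _ ≤ q ^ 2 := Nat.pow_le_pow_left hq 2
      _ ≤ q ^ e := Nat.pow_le_pow_right (by omega) he
  rcases Nat.even_or_odd' e with ⟨m, rfl | rfl⟩
  · -- even
    have h1 : (q ^ m) ^ 2 % 4 = 1 := by
      have h2 : q ^ m % 2 = 1 := Nat.odd_iff.1 hodd.pow
      have h3 : q ^ m % 4 = 1 ∨ q ^ m % 4 = 3 := by omega
      rcases h3 with h3 | h3 <;> rw [Nat.pow_mod, h3]
    rw [← pow_mul, mul_comm] at h1
    have h4 : 2 ≤ a := by
      by_contra h5
      have : 2 ^ a ≤ 2 ^ 1 := Nat.pow_le_pow_right (by norm_num) (by omega)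
      omega
    have h6 : 4 ∣ 2 ^ a := by
      have : 2 ^ 2 ∣ 2 ^ a := pow_dvd_pow 2 h4
      simpa using this
    omega
  · have h1 : (∑ i ∈ Finset.range (2 * m + 1), (-(q : ℤ)) ^ i) * (-(q : ℤ) - 1) = (-(q : ℤ)) ^ (2 * m + 1) - 1 := geom_sum_mul _ _
    have h2 : (∑ i ∈ Finset.range (2 * m + 1), (-(q : ℤ)) ^ i) * ((q : ℤ) + 1) = 2 ^ a := by
      have h3 : (-(q : ℤ)) ^ (2 * m + 1) = - (q : ℤ) ^ (2 * m + 1) := Odd.neg_pow ⟨m, rfl⟩ _
      have h4 : ((q : ℤ)) ^ (2 * m + 1) + 1 = 2 ^ a := by exact_mod_cast h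
      rw [h3] at h1
      linarith
    set T := ∑ i ∈ Finset.range (2 * m + 1), (-(q : ℤ)) ^ i with hT
    have hTodd : Odd T := by
      have h3 : ∀ n : ℕ, (Odd (∑ i ∈ Finset.range n, (-(q : ℤ)) ^ i) ↔ Odd n) := by
        intro n
        induction n with
        | zero => simp
        | succ n ih =>
          have : Odd ((-(q : ℤ)) ^ n) := by
            apply Odd.pow
            rw [odd_neg]; exact_mod_cast hodd
          rw [Finset.sum_range_succ, Int.odd_add', Nat.odd_add, ← Int.not_odd_iff_even, ih]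
          simp [this]
      exact (h3 _).2 ⟨m, rfl⟩
    have h5 : (2 : ℤ) ^ a ∣ (q : ℤ) + 1 := by
      have hcop : IsCoprime ((2 : ℤ) ^ a) T := by
        apply IsCoprime.pow_left
        rw [Int.isCoprime_iff_gcd_eq_one]
        have := Int.odd_iff.1 hTodd
        rw [Int.gcd_comm]
        exact Int.isCoprime_iff_gcd_eq_one.1 (by
          obtain ⟨k, hk⟩ := hTodd
          exact ⟨1, -k, by rw [hk]; ring⟩)
      exact hcop.dvd_of_dvd_mul_left ⟨1, by rw [mul_one, h2]⟩
    have h6 := Int.le_of_dvd (by positivity) h5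
    have h7 : ((q : ℤ)) ^ (2 * m + 1) + 1 = 2 ^ a := by exact_mod_cast h
    have h8 : (q : ℤ) ^ 2 ≤ (q : ℤ) ^ (2 * m + 1) := by
      apply pow_le_pow_right₀
      · exact_mod_cast (by omega : 1 ≤ q)
      · exact he
    have h9 : (3 : ℤ) ≤ q := by exact_mod_cast hq
    nlinarith

theorem nt2 {q e a : ℕ} (hq : 3 ≤ q) (hodd : Odd q) (he : 2 ≤ e) (h : q ^ e = 2 ^ a + 1) : q = 3 ∧ e = 2 ∧ a = 3 := by
  rcases Nat.even_or_odd' e with ⟨m, rfl | rfl⟩
  · have hm : 1 ≤ m := by omega
    have h1 : (q ^ m - 1) * (q ^ m + 1) = 2 ^ a := by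
      have h2 : 1 ≤ q ^ m := Nat.one_le_pow _ _ (by omega)
      zify [h2]
      have h3 : ((q : ℤ) ^ (2 * m)) = 2 ^ a + 1 := by exact_mod_cast h
      have h4 : ((q : ℤ) ^ (2 * m)) = (q : ℤ) ^ m * (q : ℤ) ^ m := by rw [two_mul, pow_add]
      rw [h4] at h3
      linarith
    obtain ⟨b, -, hb⟩ := (Nat.dvd_prime_pow Nat.prime_two).1 (Dvd.intro _ h1)
    obtain ⟨c, -, hc⟩ := (Nat.dvd_prime_pow Nat.prime_two).1 (Dvd.intro_left _ h1)
    have hqm : 3 ≤ q ^ m := by
      calc 3 ≤ q := hq
        _ = q ^ 1 := (pow_one q).symm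
        _ ≤ q ^ m := Nat.pow_le_pow_right (by omega) hm
    have hb1 : b < 2 := by
      by_contra hb2
      have h4 : 4 ∣ 2 ^ b := by
        have : 2 ^ 2 ∣ 2 ^ b := pow_dvd_pow 2 (by omega)
        simpa using this
      have hc2 : 2 ≤ c := by
        by_contra h5
        have : 2 ^ c ≤ 2 ^ 1 := Nat.pow_le_pow_right (by norm_num) (by omega)
        omega
      have h5 : 4 ∣ 2 ^ c := by
        have : 2 ^ 2 ∣ 2 ^ c := pow_dvd_pow 2 hc2
        simpa using this
      omega
    have hb3 : 2 ^ b ≤ 2 := by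
      calc 2 ^ b ≤ 2 ^ 1 := Nat.pow_le_pow_right (by norm_num) (by omega)
        _ = 2 := by norm_num
    have h5 : q ^ m = 3 := by omega
    have h6 : m = 1 := by
      by_contra hm1
      have : 3 ^ 2 ≤ q ^ m := by
        calc 3 ^ 2 ≤ q ^ 2 := Nat.pow_le_pow_left hq 2
          _ ≤ q ^ m := Nat.pow_le_pow_right (by omega) (by omega)
      omega
    subst h6
    rw [pow_one] at h5
    subst h5
    refine ⟨rfl, rfl, ?_⟩
    have : 2 ^ a = 2 ^ 3 := by
      norm_num at h ⊢
      omega
    exact Nat.pow_right_injective (le_refl 2) this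
  · exfalso
    have h1 : (∑ i ∈ Finset.range (2 * m + 1), q ^ i) * (q - 1) = q ^ (2 * m + 1) - 1 := by
      have := Nat.geomSum_eq (m := q) (by omega) (2 * m + 1)
      rw [this]
      exact Nat.div_mul_cancel (Nat.sub_one_dvd_pow_sub_one q (2 * m + 1))
    set T := ∑ i ∈ Finset.range (2 * m + 1), q ^ i with hT
    have hTodd : Odd T := by
      rw [hT, Finset.odd_sum_iff_odd_card_odd]
      rw [Finset.filter_true_of_mem, Finset.card_range]
      · exact ⟨m, rfl⟩
      · intro i _
        exact hodd.pow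
    rw [h, Nat.add_sub_cancel] at h1
    obtain ⟨b, -, hb⟩ := (Nat.dvd_prime_pow Nat.prime_two).1 (Dvd.intro _ h1)
    have hb0 : b = 0 := by
      by_contra hb0
      have : Even T := by rw [hb]; exact (Nat.even_pow.2 ⟨even_two, hb0⟩)
      exact (Nat.not_even_iff_odd.2 hTodd) this
    rw [hb0, pow_zero] at hb
    rw [hb, one_mul] at h1
    have h8 : q ^ 2 ≤ q ^ (2 * m + 1) := Nat.pow_le_pow_right (by omega) he
    have h9 : q ^ 2 = q * q := by ring
    have h10 : 3 * q ≤ q * q := Nat.mul_le_mul_right q hq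
    omega


theorem nt3 {q d f S N : ℕ} (hq : q.Prime) (hq2 : q ≠ 2) (hd : 1 ≤ d) (hS : S = q ^ d) (hN : N = 2 ^ f) (hdvd : N ∣ S - 1)
    (hle : S ≤ (N - 1) ^ 2) : d = 1 ∨ d = 2 ∨ (q = 3 ∧ d = 4 ∧ N = 16) := by
  have hodd : Odd q := hq.odd_of_ne_two hq2
  have hq3 : 3 ≤ q := by
    have := hq.two_le
    omega
  subst hS hN
  rcases Nat.even_or_odd' d with ⟨e, rfl | rfl⟩
  · right
    by_cases he1 : e = 1
    · left; omega
    right
    have he : 2 ≤ e := by omega
    have hQ9 : 9 ≤ q ^ e := by
      calc 9 = 3 ^ 2 := by norm_num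
        _ ≤ q ^ 2 := Nat.pow_le_pow_left hq3 2
        _ ≤ q ^ e := Nat.pow_le_pow_right (by omega) he
    have hsq : q ^ (2 * e) = q ^ e * q ^ e := by rw [two_mul, pow_add]
    have h1 : q ^ e + 1 ≤ 2 ^ f := by
      by_contra hcon
      have h2 : 2 ^ f - 1 < q ^ e := by omega
      have h3 : (2 ^ f - 1) ^ 2 < (q ^ e) ^ 2 := Nat.pow_lt_pow_left h2 (by norm_num)
      rw [hsq] at hle
      rw [pow_two (q ^ e)] at h3
      omega
    have hf : f ≠ 0 := by
      rintro rfl
      rw [pow_zero] at h1
      omega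
    obtain ⟨g, rfl⟩ := Nat.exists_eq_succ_of_ne_zero hf
    have hf2 : 2 ^ (g + 1) = 2 * 2 ^ g := by rw [pow_succ, mul_comm]
    rw [Nat.succ_eq_add_one, hf2] at h1 hdvd
    have hfac : q ^ (2 * e) - 1 = (q ^ e - 1) * (q ^ e + 1) := by
      have h2 : 1 ≤ q ^ e := by omega
      have h3 : 1 ≤ q ^ (2 * e) := Nat.one_le_pow _ _ (by omega)
      zify [h2, h3]
      rw [show ((q : ℤ) ^ (2 * e)) = (q : ℤ) ^ e * (q : ℤ) ^ e by rw [two_mul, pow_add]]
      ring
    rw [hfac] at hdvd
    have hQ2 : q ^ e % 2 = 1 := Nat.odd_iff.1 hodd.pow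
    have hQ4 : q ^ e % 4 = 1 ∨ q ^ e % 4 = 3 := by omega
    have hgodd : ∀ m : ℕ, m % 2 = 1 → (2 ^ g).Coprime m := by
      intro m hm
      apply Nat.Coprime.pow_left
      rw [Nat.prime_two.coprime_iff_not_dvd]
      omega
    rcases hQ4 with h4 | h4
    · -- q^e + 1 = 2 m
      obtain ⟨m, hm⟩ : ∃ m, q ^ e + 1 = 2 * m := ⟨(q ^ e + 1) / 2, by omega⟩
      have hm2 : m % 2 = 1 := by omega
      have h5 : 2 ^ g ∣ q ^ e - 1 := by
        apply (hgodd m hm2).dvd_of_dvd_mul_right
        rw [hm] at hdvd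
        have : (q ^ e - 1) * (2 * m) = 2 * ((q ^ e - 1) * m) := by ring
        rw [this] at hdvd
        exact Nat.dvd_of_mul_dvd_mul_left (by norm_num) hdvd
      obtain ⟨c, hc⟩ := h5
      have hc1 : c = 1 := by
        have h6 : c < 2 := by
          by_contra h7
          have : 2 ^ g * 2 ≤ 2 ^ g * c := Nat.mul_le_mul_left _ (by omega)
          omega
        have h7 : c ≠ 0 := by
          rintro rfl
          rw [mul_zero] at hc
          omega
        omega
      rw [hc1, mul_one] at hc
      obtain ⟨h8, h9, h10⟩ := nt2 hq3 hodd he (show q ^ e = 2 ^ g + 1 by omega)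
      refine ⟨h8, by omega, ?_⟩
      rw [h10]
      norm_num
    · exfalso
      obtain ⟨m, hm⟩ : ∃ m, q ^ e - 1 = 2 * m := ⟨(q ^ e - 1) / 2, by omega⟩
      have hm2 : m % 2 = 1 := by omega
      have h5 : 2 ^ g ∣ q ^ e + 1 := by
        apply (hgodd m hm2).dvd_of_dvd_mul_left
        rw [hm] at hdvd
        have : (2 * m) * (q ^ e + 1) = 2 * (m * (q ^ e + 1)) := by ring
        rw [this] at hdvd
        exact Nat.dvd_of_mul_dvd_mul_left (by norm_num) hdvd
      obtain ⟨c, hc⟩ := h5
      have hc1 : c = 1 ∨ c = 2 := by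
        have h6 : c < 3 := by
          by_contra h7
          have : 2 ^ g * 3 ≤ 2 ^ g * c := Nat.mul_le_mul_left _ (by omega)
          omega
        have h7 : c ≠ 0 := by
          rintro rfl
          rw [mul_zero] at hc
          omega
        omega
      rcases hc1 with rfl | rfl
      · rw [mul_one] at hc
        exact nt1 hq3 hodd he hc
      · apply nt1 (a := g + 1) hq3 hodd he
        rw [hc, pow_succ]
  · by_cases he : e = 0
    · left; omega
    exfalso
    have h1 : (∑ i ∈ Finset.range (2 * e + 1), q ^ i) * (q - 1) = q ^ (2 * e + 1) - 1 := by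
      have := Nat.geomSum_eq (m := q) (by omega) (2 * e + 1)
      rw [this]
      exact Nat.div_mul_cancel (Nat.sub_one_dvd_pow_sub_one q (2 * e + 1))
    set T := ∑ i ∈ Finset.range (2 * e + 1), q ^ i with hT
    have hTodd : Odd T := by
      rw [hT, Finset.odd_sum_iff_odd_card_odd]
      rw [Finset.filter_true_of_mem, Finset.card_range]
      · exact ⟨e, rfl⟩
      · intro i _
        exact hodd.pow
    rw [← h1] at hdvd
    have hcop : (2 ^ f).Coprime T := by
      apply Nat.Coprime.pow_left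
      rw [Nat.prime_two.coprime_iff_not_dvd]
      have := Nat.odd_iff.1 hTodd
      omega
    have h2 := Nat.le_of_dvd (by omega) (hcop.dvd_of_dvd_mul_left hdvd)
    have h3 : (2 ^ f - 1) ^ 2 < q ^ 2 := Nat.pow_lt_pow_left (by omega) (by norm_num)
    have h4 : q ^ 2 ≤ q ^ (2 * e + 1) := Nat.pow_le_pow_right (by omega) (by omega)
    omega

namespace Hyp

variable {q : ℕ} {H V : Type*} [Group H] [Finite H] [AddCommGroup V] [Finite V] [DistribMulAction H V]
variable (h : Hyp q H V)
include h

theorem exists_fixed {r : ℕ} [hr : Fact r.Prime] (hr2 : r ≠ 2) {g : H} (hg : orderOf g = r) (v : V) :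
    ∃ k : H, g • k • v = k • v := by
  obtain ⟨a, ha⟩ := h.orb v
  have h1 : ¬ r ∣ (MulAction.stabilizer H v).index := by
    rw [ha]
    exact H72Baer.prime_not_dvd_pow hr.out Nat.prime_two hr2 a
  obtain ⟨T, hT⟩ := H72Baer.exists_sylow_le h1
  have h2 : IsPGroup r (zpowers g) := by
    apply IsPGroup.of_card (n := 1)
    rw [Nat.card_zpowers, hg, pow_one]
  obtain ⟨R, hR⟩ := h2.exists_le_sylow
  obtain ⟨k, hk⟩ := MulAction.exists_smul_eq H T R
  refine ⟨k, ?_⟩
  have h3 : k⁻¹ * g * k ∈ (T : Subgroup H) := by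
    have h4 : g ∈ ((k • T : Sylow r H) : Subgroup H) := by
      rw [hk]; exact hR (mem_zpowers g)
    rw [Sylow.coe_subgroup_smul, Subgroup.mem_pointwise_smul_iff_inv_smul_mem, ← map_inv, MulAut.smul_def, MulAut.conj_apply,
      inv_inv] at h4
    exact h4
  have h5 := hT h3
  rw [MulAction.mem_stabilizer_iff, mul_smul, mul_smul, inv_smul_eq_iff] at h5
  exact h5

/-- the fixed points of `g`. -/
def fix (H V : Type*) [Group H] [AddCommGroup V] [DistribMulAction H V] (g : H) : AddSubgroup V :=
  { carrier := {v | g • v = v}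
    zero_mem' := smul_zero g
    add_mem' := fun {a b} ha hb => by
      rw [Set.mem_setOf_eq] at ha hb ⊢
      rw [smul_add, ha, hb]
    neg_mem' := fun {a} ha => by
      rw [Set.mem_setOf_eq] at ha ⊢
      rw [smul_neg, ha] }

omit h [Finite H] [Finite V] in
theorem mem_fix (g : H) (v : V) : v ∈ fix H V g ↔ g • v = v := Iff.rfl

omit h [Finite H] [Finite V] in
theorem pow_smul_of_add {g : H} {w c : V} (hw : g • w = w + c) (hc : g • c = c) (n : ℕ) : g ^ n • w = w + n • c := by
  induction n with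
  | zero => rw [pow_zero, one_smul, zero_smul, add_zero]
  | succ n ih =>
    rw [pow_succ', mul_smul, ih, smul_add, hw, succ_nsmul]
    have : g • (n • c) = n • c := by
      have h1 := map_nsmul (DistribMulAction.toAddMonoidHom V g) n c
      have h2 : g • (n • c) = n • g • c := h1
      rw [h2, hc]
    rw [this]
    abel

/-- a coprime automorphism cannot be unipotent. -/
theorem fixed_of_add {g : H} {w c : V} (hw : g • w = w + c) (hc : g • c = c) : g • w = w := by
  have h1 := pow_smul_of_add hw hc (Nat.card H)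
  rw [pow_card_eq_one', one_smul] at h1
  have h2 : Nat.card H • c = 0 := by
    have : w + 0 = w + Nat.card H • c := by rw [add_zero]; exact h1
    exact (add_left_cancel this).symm
  have h3 := addOrderOf_dvd_iff_nsmul_eq_zero.2 h2
  have h4 := addOrderOf_dvd_iff_nsmul_eq_zero.2 (h.tors c)
  rcases (Nat.dvd_prime h.prime).1 h4 with h5 | h5
  · rw [hw, AddMonoid.addOrderOf_eq_one_iff.1 h5, add_zero]
  · exact absurd (h5 ▸ h3) h.cop

theorem case_one {g : H} (hV : Nat.card V = q) {v : V} (hv : v ≠ 0) (hgv : g • v = v) : g = 1 := by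
  have : Fact q.Prime := ⟨h.prime⟩
  have hcard := AddSubgroup.card_addSubgroup_dvd_card (fix H V g)
  rw [hV] at hcard
  apply h.faith
  intro w
  rcases (Nat.dvd_prime h.prime).1 hcard with h1 | h1
  · exfalso
    rw [AddSubgroup.card_eq_one] at h1
    have h2 : v ∈ fix H V g := hgv
    rw [h1, AddSubgroup.mem_bot] at h2
    exact hv h2
  · have h2 : fix H V g = ⊤ := by
      apply AddSubgroup.eq_top_of_card_eq
      rw [h1, hV]
    have h3 : w ∈ fix H V g := by rw [h2]; exact AddSubgroup.mem_top w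
    exact h3

theorem case_two_aux [Fact q.Prime] [Module (ZMod q) V] {g : H} (hV : Nat.card V = q ^ 2) {v : V} (hv : v ≠ 0)
    (hgv : g • v = v) : g = 1 := by
  classical
  have hfin : Module.finrank (ZMod q) V = 2 := by
    have := Fintype.ofFinite V
    have h1 := Module.card_eq_pow_finrank (K := ZMod q) (V := V)
    rw [ZMod.card, ← Nat.card_eq_fintype_card, hV] at h1
    exact (Nat.pow_right_injective h.prime.two_le h1).symm
  let ρ : H → (V →ₗ[ZMod q] V) := fun g => (DistribMulAction.toAddMonoidHom V g).toZModLinearMap q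
  have hρ : ∀ (g : H) (v : V), ρ g v = g • v := fun g v => rfl
  let D : H →* ZMod q :=
    { toFun := fun g => LinearMap.det (ρ g)
      map_one' := by
        have : ρ 1 = LinearMap.id := by
          ext v
          rw [hρ, one_smul]; rfl
        rw [this, LinearMap.det_id]
      map_mul' := by
        intro a b
        have : ρ (a * b) = ρ a ∘ₗ ρ b := by
          ext v
          rw [hρ, mul_smul, LinearMap.comp_apply, hρ, hρ]
        rw [this, LinearMap.det_comp] }
  have hdet : LinearMap.det (ρ g) = 1 := by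
    have h3 : commutator H ≤ (D.toHomUnits).ker := by
      rw [commutator_def, Subgroup.commutator_le]
      intro a _ b _
      rw [MonoidHom.mem_ker, map_commutatorElement, commutatorElement_eq_one_iff_mul_comm, mul_comm]
    rw [h.perf] at h3
    have h4 := h3 (mem_top g)
    rw [MonoidHom.mem_ker] at h4
    exact congrArg Units.val h4
  -- a basis
  obtain ⟨w, hw⟩ : ∃ w : V, w ∉ Submodule.span (ZMod q) {v} := by
    by_contra hcon
    push Not at hcon
    have h1 : Submodule.span (ZMod q) {v} = ⊤ := by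
      rw [eq_top_iff]
      intro w _
      exact hcon w
    have h2 := finrank_span_singleton (K := ZMod q) hv
    rw [h1, finrank_top, hfin] at h2
    norm_num at h2
  have hli : LinearIndependent (ZMod q) ![v, w] := by
    rw [LinearIndependent.pair_iff]
    intro s t hst
    have ht : t = 0 := by
      by_contra ht
      apply hw
      rw [Submodule.mem_span_singleton]
      refine ⟨-(t⁻¹ * s), ?_⟩
      have h1 : t • w = -(s • v) := by
        rw [eq_neg_iff_add_eq_zero, add_comm]; exact hst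
      calc -(t⁻¹ * s) • v = t⁻¹ • (-(s • v)) := by rw [neg_smul, smul_neg, mul_smul]
        _ = w := by rw [← h1, smul_smul, inv_mul_cancel₀ ht, one_smul]
    refine ⟨?_, ht⟩
    rw [ht, zero_smul, add_zero] at hst
    exact (smul_eq_zero.1 hst).resolve_right hv
  let b := basisOfLinearIndependentOfCardEqFinrank hli (by rw [Fintype.card_fin, hfin])
  have hb0 : b 0 = v := by
    simp [b]
  have hb1 : b 1 = w := by
    simp [b]
  obtain ⟨x, y, hxy⟩ : ∃ x y : ZMod q, g • w = x • v + y • w := by
    refine ⟨b.repr (g • w) 0, b.repr (g • w) 1, ?_⟩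
    have h1 := b.sum_repr (g • w)
    rw [Fin.sum_univ_two, hb0, hb1] at h1
    exact h1.symm
  have hy : y = 1 := by
    rw [← LinearMap.det_toMatrix b, Matrix.det_fin_two] at hdet
    simp only [LinearMap.toMatrix_apply, hb0, hb1, hρ] at hdet
    rw [hgv, hxy] at hdet
    have e0 : b.repr v = Finsupp.single 0 1 := by rw [← hb0, b.repr_self]
    have e1 : b.repr w = Finsupp.single 1 1 := by rw [← hb1, b.repr_self]
    rw [map_add, map_smul, map_smul, e0, e1] at hdet
    simpa using hdet
  have hw1 : g • w = w := by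
    apply h.fixed_of_add (c := x • v)
    · rw [hxy, hy, one_smul, add_comm]
    · have : ρ g (x • v) = x • ρ g v := map_smul _ _ _
      rw [hρ, hρ, hgv] at this
      exact this
  apply h.faith
  intro u
  have h1 := b.sum_repr u
  rw [Fin.sum_univ_two, hb0, hb1] at h1
  have h2 : ρ g u = u := by
    rw [← h1, map_add, map_smul, map_smul, hρ, hρ, hgv, hw1]
  exact h2

theorem case_two {g : H} (hV : Nat.card V = q ^ 2) {v : V} (hv : v ≠ 0) (hgv : g • v = v) : g = 1 := by
  let _ : Module (ZMod q) V := AddCommGroup.zmodModule h.tors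
  have : Fact q.Prime := ⟨h.prime⟩
  exact h.case_two_aux hV hv hgv

theorem case_four (P : Sylow 2 H) (hq : q = 3) (hV : Nat.card V = 3 ^ 4) (hP : Nat.card (P : Subgroup H) = 16)
    {r : ℕ} [hr : Fact r.Prime] (hr2 : r ≠ 2) {g : H} (hg : orderOf g = r) : False := by
  classical
  subst hq
  have hPi := P.not_dvd_index
  have hP1 : (P : Subgroup H) ≠ ⊥ := by
    intro h1
    rw [h1, card_bot] at hP
    norm_num at hP
  obtain ⟨z, hzP, hz1, hz2, hz, huniq⟩ := h.unique_involution P hP1
  have := Fintype.ofFinite V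
  have := Fintype.ofFinite (P : Subgroup H)
  set C := fix H V g with hC
  have hcardC := AddSubgroup.card_addSubgroup_dvd_card C
  rw [hV] at hcardC
  obtain ⟨c, hc4, hcc⟩ := (Nat.dvd_prime_pow Nat.prime_three).1 hcardC
  -- double count
  have hcount : 2 * 80 ≤ 16 * (Nat.card C - 1) := by
    let f : ↥(P : Subgroup H) × {v : V // v ∈ C ∧ v ≠ 0} → {v : V // v ≠ 0} := fun xc => ⟨(xc.1 : H) • (xc.2 : V), by
      intro h0
      apply xc.2.2.2
      have : (xc.1 : H)⁻¹ • (xc.1 : H) • (xc.2 : V) = 0 := by rw [h0, smul_zero]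
      rwa [inv_smul_smul] at this⟩
    have hfib : ∀ v : {v : V // v ≠ 0}, 2 ≤ (Finset.univ.filter fun xc => f xc = v).card := by
      intro v
      obtain ⟨k, hk⟩ := h.exists_fixed hr2 hg (v : V)
      obtain ⟨x, hx, hxk⟩ := h.exists_P hPi k⁻¹ (k • (v : V))
      rw [inv_smul_smul] at hxk
      have hkv : k • (v : V) ≠ 0 := by
        intro h0
        apply v.2
        have : k⁻¹ • k • (v : V) = 0 := by rw [h0, smul_zero]
        rwa [inv_smul_smul] at this
      have h1 : (⟨⟨x, hx⟩, ⟨k • (v : V), hk, hkv⟩⟩ : ↥(P : Subgroup H) × {v : V // v ∈ C ∧ v ≠ 0}) ∈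
          (Finset.univ.filter fun xc => f xc = v) := by
        rw [Finset.mem_filter]
        exact ⟨Finset.mem_univ _, Subtype.ext hxk.symm⟩
      have h2 : (⟨⟨x * z, mul_mem hx hzP⟩, ⟨-(k • (v : V)), neg_mem (s := C) hk, neg_ne_zero.2 hkv⟩⟩ :
          ↥(P : Subgroup H) × {v : V // v ∈ C ∧ v ≠ 0}) ∈ (Finset.univ.filter fun xc => f xc = v) := by
        rw [Finset.mem_filter]
        refine ⟨Finset.mem_univ _, Subtype.ext ?_⟩
        change (x * z) • -(k • (v : V)) = v
        rw [mul_smul, hz, neg_neg]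
        exact hxk.symm
      have h3 : (1 : ℕ) < (Finset.univ.filter fun xc => f xc = v).card := by
        rw [Finset.one_lt_card]
        refine ⟨_, h1, _, h2, ?_⟩
        intro h4
        have h5 : k • (v : V) = -(k • (v : V)) := congrArg (fun t => (t.2 : V)) h4
        exact hkv (h.neg_ne h5.symm)
      exact h3
    have h1 : (Finset.univ : Finset (↥(P : Subgroup H) × {v : V // v ∈ C ∧ v ≠ 0})).card =
        ∑ v : {v : V // v ≠ 0}, (Finset.univ.filter fun xc => f xc = v).card :=
      Finset.card_eq_sum_card_fiberwise fun _ _ => Finset.mem_univ _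
    have h2 : ∑ v : {v : V // v ≠ 0}, 2 ≤ ∑ v : {v : V // v ≠ 0}, (Finset.univ.filter fun xc => f xc = v).card :=
      Finset.sum_le_sum fun v _ => hfib v
    rw [← h1, Finset.sum_const, Finset.card_univ, Finset.card_univ, Fintype.card_prod, ← Nat.card_eq_fintype_card (α := ↥(P : Subgroup H)),
      hP, smul_eq_mul, Fintype.card_subtype_compl, Fintype.card_subtype_eq, ← Nat.card_eq_fintype_card (α := V), hV] at h2
    have h3 : Fintype.card {v : V // v ∈ C ∧ v ≠ 0} = Nat.card C - 1 := by
      rw [Fintype.card_subtype, show (Finset.univ.filter fun v : V => v ∈ C ∧ v ≠ 0) = (Finset.univ.filter fun v : V => v ∈ C).erase 0 by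
        ext v
        simp only [Finset.mem_filter, Finset.mem_univ, true_and, Finset.mem_erase]
        tauto]
      rw [Finset.card_erase_of_mem, Nat.card_eq_fintype_card, Fintype.card_subtype]
      rw [Finset.mem_filter]
      exact ⟨Finset.mem_univ _, zero_mem _⟩
    rw [h3] at h2
    have h5 : (3 ^ 4 - 1) * 2 ≤ 16 * (Nat.card C - 1) := h2
    omega
  -- C has index 3 or 1
  have hc3 : 3 ≤ c := by
    by_contra hcon
    have : 3 ^ c ≤ 3 ^ 2 := Nat.pow_le_pow_right (by norm_num) (by omega)
    omega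
  have hidx : C.index ∣ 3 := by
    have h1 := C.card_mul_index
    rw [hcc, hV, show 3 ^ 4 = 3 ^ 3 * 3 by norm_num] at h1
    have h2 : 3 ^ 3 ∣ 3 ^ c := pow_dvd_pow 3 hc3
    obtain ⟨e, he⟩ := h2
    rw [he, mul_assoc] at h1
    have h3 := Nat.eq_of_mul_eq_mul_left (by norm_num) h1
    exact Dvd.intro_left _ h3
  have hall : ∀ v : V, g • v = v := by
    rcases (Nat.dvd_prime Nat.prime_three).1 hidx with h1 | h1
    · intro v
      have : v ∈ C := by
        rw [AddSubgroup.index_eq_one.1 h1]; exact AddSubgroup.mem_top v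
      exact this
    · intro v
      -- quotient of order 3
      have hquot : Nat.card (V ⧸ C) = 3 := h1
      have hcy : IsAddCyclic (V ⧸ C) := isAddCyclic_of_prime_card hquot
      by_contra hv
      have hvC : v ∉ C := hv
      have hgvC : g • v ∉ C := by
        intro h2
        apply hvC
        have h3 : g • g • v = g • v := h2
        exact smul_left_cancel g h3
      have h3 : g • v - v ∈ C ∨ g • v + v ∈ C := by
        have hne1 : (QuotientAddGroup.mk v : V ⧸ C) ≠ 0 := by
          rwa [Ne, QuotientAddGroup.eq_zero_iff]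
        have hne2 : (QuotientAddGroup.mk (g • v) : V ⧸ C) ≠ 0 := by
          rwa [Ne, QuotientAddGroup.eq_zero_iff]
        have hz3 : (QuotientAddGroup.mk (g • v) : V ⧸ C) ∈ AddSubgroup.zmultiples (QuotientAddGroup.mk v : V ⧸ C) := by
          have h4 : AddSubgroup.zmultiples (QuotientAddGroup.mk v : V ⧸ C) = ⊤ := by
            have h5 := AddSubgroup.card_addSubgroup_dvd_card (AddSubgroup.zmultiples (QuotientAddGroup.mk v : V ⧸ C))
            rw [hquot] at h5
            rcases (Nat.dvd_prime Nat.prime_three).1 h5 with h6 | h6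
            · exfalso
              rw [AddSubgroup.card_eq_one, AddSubgroup.zmultiples_eq_bot] at h6
              exact hne1 h6
            · apply AddSubgroup.eq_top_of_card_eq
              rw [h6, hquot]
          rw [h4]
          exact AddSubgroup.mem_top _
        obtain ⟨k, hk⟩ := hz3
        have h3v : (3 : ℤ) • (QuotientAddGroup.mk v : V ⧸ C) = 0 := by
          rw [← QuotientAddGroup.mk_zsmul]
          have : (3 : ℤ) • v = 0 := by
            have := h.tors v
            exact_mod_cast this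
          rw [this, QuotientAddGroup.mk_zero]
        change k • (QuotientAddGroup.mk v : V ⧸ C) = _ at hk
        have hk3 : k % 3 = 0 ∨ k % 3 = 1 ∨ k % 3 = 2 := by omega
        have hkk : k • (QuotientAddGroup.mk v : V ⧸ C) = (k % 3) • (QuotientAddGroup.mk v : V ⧸ C) := by
          conv_lhs => rw [← Int.emod_add_mul_ediv k 3]
          rw [add_smul, mul_comm 3, mul_smul, h3v, smul_zero, add_zero]
        rcases hk3 with h4 | h4 | h4
        · rw [hkk, h4, zero_smul] at hk
          exact absurd hk.symm hne2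
        · left
          rw [hkk, h4, one_smul] at hk
          rw [← QuotientAddGroup.eq_zero_iff, QuotientAddGroup.mk_sub, hk, sub_self]
        · right
          rw [hkk, h4] at hk
          rw [← QuotientAddGroup.eq_zero_iff, QuotientAddGroup.mk_add, ← hk, ← h3v]
          rw [show (3 : ℤ) = 2 + 1 by norm_num, add_smul, one_smul]
      rcases h3 with h3 | h3
      · have h4 : g • v = v + (g • v - v) := by abel
        exact hv (h.fixed_of_add h4 h3)
      · -- g • v = - v + c
        have h4 : g • v = -v + (g • v + v) := by abel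
        have h5 : g • (g • v + v) = g • v + v := h3
        have h6 : g • g • v = v := by
          rw [smul_add] at h5
          exact (add_left_cancel (b := g • g • v) (c := v) (a := g • v) (by rw [add_comm]; exact h5))
        have h7 : g ^ 2 = 1 ∨ True := Or.inr trivial
        obtain ⟨m, hm⟩ := (hr.out.eq_two_or_odd').resolve_left hr2
        have h8 : ∀ m : ℕ, g ^ (2 * m) • v = v := by
          intro m
          induction m with
          | zero => rw [mul_zero, pow_zero, one_smul]
          | succ m ih => rw [mul_add, pow_add, mul_smul, mul_one, pow_two, mul_smul, h6, ih]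
        have h9 : g ^ r = 1 := by rw [← hg]; exact pow_orderOf_eq_one g
        have h10 : g ^ r • v = g • v := by
          rw [hm, pow_succ', mul_smul, h8 m]
        rw [h9, one_smul] at h10
        exact hv h10.symm
  have := h.faith g hall
  rw [this, orderOf_one] at hg
  exact hr.out.one_lt.ne hg

/-- **Theorem.** -/
theorem eq_one (x : H) : x = 1 := by
  have hf2 : Fact (Nat.Prime 2) := ⟨Nat.prime_two⟩
  obtain ⟨P⟩ : Nonempty (Sylow 2 H) := inferInstance
  by_cases htop : (P : Subgroup H) = ⊤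
  · -- `H` is a `2`-group
    by_contra hx
    have hH : IsPGroup 2 H := by
      intro y
      obtain ⟨k, hk⟩ := P.isPGroup' ⟨y, by rw [htop]; exact mem_top y⟩
      exact ⟨k, congrArg Subtype.val hk⟩
    have hnt : Nontrivial H := ⟨⟨x, 1, hx⟩⟩
    have hnil : Group.IsNilpotent H := hH.isNilpotent
    have hsol : Group.IsSolvable H := inferInstance
    have h1 := Group.IsSolvable.commutator_lt_top_of_nontrivial (G := H)
    exact h1.ne h.perf
  · exfalso
    obtain ⟨g, hg⟩ : ∃ g, g ∉ (P : Subgroup H) := by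
      by_contra hcon
      push Not at hcon
      exact htop (by rw [eq_top_iff]; exact fun y _ => hcon y)
    have : Fact q.Prime := ⟨h.prime⟩
    have hV1 : 1 < Nat.card V := by
      by_contra hcon
      have h1 : Subsingleton V := by
        have : Nat.card V ≤ 1 := by omega
        exact Finite.card_le_one_iff_subsingleton.1 this
      have h2 : g = 1 := h.faith g fun v => Subsingleton.elim _ _
      rw [h2] at hg
      exact hg (one_mem _)
    obtain ⟨d, hd⟩ : ∃ d, Nat.card V = q ^ d := by
      letI : Module (ZMod q) V := AddCommGroup.zmodModule h.tors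
      have := Fintype.ofFinite V
      have h1 := Module.card_eq_pow_finrank (K := ZMod q) (V := V)
      rw [ZMod.card, ← Nat.card_eq_fintype_card] at h1
      exact ⟨_, h1⟩
    have hd1 : 1 ≤ d := by
      by_contra hcon
      have : d = 0 := by omega
      rw [this, pow_zero] at hd
      omega
    obtain ⟨f, hf⟩ : ∃ f, Nat.card (P : Subgroup H) = 2 ^ f := IsPGroup.iff_card.1 P.isPGroup'
    -- an element of odd prime order
    obtain ⟨r, hr, hr2, hrd⟩ : ∃ r : ℕ, r.Prime ∧ r ≠ 2 ∧ r ∣ Nat.card H := by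
      by_contra hcon
      push Not at hcon
      have h1 : Nat.card H = 2 ^ (Nat.card H).primeFactorsList.length :=
        Nat.eq_prime_pow_of_unique_prime_dvd Nat.card_pos.ne' (fun {d} hd hdd => by
          by_contra hd2
          exact hcon d hd hd2 hdd)
      have hH : IsPGroup 2 H := IsPGroup.of_card h1
      apply hg
      have h2 : (P : Subgroup H) = ⊤ := by
        apply P.is_maximal' (IsPGroup.to_subgroup hH ⊤) le_top |>.symm
      rw [h2]; exact mem_top g
    have hrf : Fact r.Prime := ⟨hr⟩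
    obtain ⟨y, hy⟩ := exists_prime_orderOf_dvd_card' r hrd
    have hy1 : y ≠ 1 := by
      rintro rfl
      rw [orderOf_one] at hy
      exact hr.one_lt.ne hy
    obtain ⟨v, hv⟩ : ∃ v : V, v ≠ 0 := by
      have : Nontrivial V := Finite.one_lt_card_iff_nontrivial.1 hV1
      exact exists_ne 0
    obtain ⟨k, hk⟩ := h.exists_fixed hr2 hy v
    have hkv : k • v ≠ 0 := by
      intro h0
      apply hv
      have : k⁻¹ • k • v = 0 := by rw [h0, smul_zero]
      rwa [inv_smul_smul] at this
    rcases nt3 h.prime h.odd hd1 hd hf (h.card_dvd P) (h.card_le P hg hV1) with h1 | h1 | ⟨h1, h2, h3⟩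
    · rw [h1, pow_one] at hd
      exact hy1 (h.case_one hd hkv hk)
    · rw [h1] at hd
      exact hy1 (h.case_two hd hkv hk)
    · refine h.case_four P h1 ?_ h3 hr2 hy
      rw [hd, h1, h2]

end Hyp

end Cfsg.Agent.Lib.H72Orbit2
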