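import Cfsg.Agent.S0857
import Cfsg.Agent.Lib.CliffordCorr
import Cfsg.Agent.Lib.BlockDeg
import Cfsg.Agent.Lib.RelMGroup
import Cfsg.Agent.Lib.RelM2
import Cfsg.Agent.Lib.H72AvgChief

set_option autoImplicit false

/-!
# Primitive characters of solvable groups and class sizes (helper72)

For a primitive irreducible character `χ` of a finite solvable group `G` and a prime `p`, the
average over `g ∈ G` of the exponent of `p` in `|G : C_G(g)|` is at least the exponent of `p` in
`χ 1`.
-/

namespace Cfsg.Agent.Lib.H72PrimChar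

open Cfsg Cfsg.Agent.Lib.CharBasic Cfsg.Agent.Lib.Clifford Cfsg.Agent.Lib.BlockDeg
open scoped ComplexConjugate

universe u

variable {G : Type u} [Group G] [Fintype G]

/-- A primitive character restricts homogeneously to normal subgroups. -/
theorem homogeneous (χ : IrrCharacter G)
    (hprim : ¬ ∃ (H : Subgroup G), H ≠ ⊤ ∧ ∃ θ : ↥H → ℂ, Cfsg.IsCharacter ↥H θ ∧
      Cfsg.indFun H θ = (χ : G → ℂ)) (N : Subgroup G) [N.Normal] :
    ∃ (θ : N → ℂ) (e : ℂ), IsIrrCharacter N θ ∧ (fun n : N => (χ : G → ℂ) n) = e • θ := by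
  classical
  have := Fintype.ofFinite N
  have hres : IsCharacter N (fun n : N => (χ : G → ℂ) n) := χ.2.isCharacter.restrict N
  have h0 : (fun n : N => (χ : G → ℂ) n) ≠ 0 := by
    intro h
    exact χ.2.one_ne_zero (congrFun h 1)
  obtain ⟨θ, hθ⟩ := Clifford.exists_constituent hres h0
  have hinv : ∀ g : G, cj N g (θ : N → ℂ) = θ := by
    by_contra hno
    apply hprim
    obtain ⟨ψ, hψ, hind, -⟩ := CliffordCorr.corr_surj (T := inertia N (θ : N → ℂ))
      (le_inertia θ.2.isClassFunction) θ.2 (fun g => mem_inertia) χ.2 hθ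
    refine ⟨inertia N (θ : N → ℂ), ?_, ψ, hψ.isCharacter, hind⟩
    intro h
    apply hno
    intro g
    have : g ∈ inertia N (θ : N → ℂ) := by rw [h]; trivial
    exact this
  exact ⟨θ, _, θ.2, res_eq_smul_of_invariant χ.2 θ.2 hinv hθ⟩

theorem main_ind (hs : Group.IsSolvable G) (χ : IrrCharacter G)
    (hhom : ∀ (N : Subgroup G) [N.Normal], ∃ (θ : N → ℂ) (e : ℂ), IsIrrCharacter N θ ∧
      (fun n : N => (χ : G → ℂ) n) = e • θ) (p : ℕ) [hp : Fact p.Prime] :
    ∀ (n : ℕ) (M : Subgroup G) [M.Normal], Nat.card M = n →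
      ∀ (θ : M → ℂ) (e : ℂ), IsIrrCharacter M θ → (fun n : M => (χ : G → ℂ) n) = e • θ →
      ∑ g : G, (Nat.card (Subgroup.centralizer ({g} : Set G) ⊓ M : Subgroup G)).factorization p +
        Nat.card G * (charDegree θ).factorization p ≤ Nat.card G * (Nat.card M).factorization p := by
  classical
  intro n
  induction n using Nat.strong_induction_on with
  | _ n ih =>
  intro M hM hn θ e hθ hχθ
  have he0 : e ≠ 0 := by
    rintro rfl
    have h1 := congrFun hχθ 1
    simp only [zero_smul, Pi.zero_apply] at h1
    exact χ.2.one_ne_zero h1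
  by_cases hMb : M = ⊥
  · subst hMb
    have h1 : (charDegree θ).factorization p = 0 := by
      have h2 := charDegree_dvd_card hθ
      rw [Subgroup.card_bot, Nat.dvd_one] at h2
      rw [h2]; simp
    have h3 : ∀ g : G, (Nat.card (Subgroup.centralizer ({g} : Set G) ⊓ ⊥ :
        Subgroup G)).factorization p = 0 := by
      intro g
      rw [inf_bot_eq, Subgroup.card_bot]; simp
    rw [h1, Finset.sum_congr rfl (fun g _ => h3 g)]
    simp
  -- the chief factor
  obtain ⟨L, hL, -, hLM, hchief⟩ := RelMGroup.exists_chief (N := (⊥ : Subgroup G)) (K := M)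
    (bot_lt_iff_ne_bot.mpr hMb)
  have hab : ⁅M, M⁆ ≤ L := RelMGroup.commutator_le (N := ⊥) inferInstance bot_le hLM hchief
  obtain ⟨B, q, hBn, hLB, hBM, hq, hBq⟩ := RelM2.exists_chief_above hLM
  have hBeq : B = M := (hchief B hBn hLB.le hBM).resolve_left hLB.ne'
  subst hBeq
  have hcardlt : Nat.card L < Nat.card B :=
    Nat.lt_of_le_of_ne (Subgroup.card_le_of_le hLM.le)
      (fun h => hLM.ne (Subgroup.eq_of_le_of_card_ge hLM.le h.ge))
  have hidx : L.relIndex B * Nat.card L = Nat.card B := by
    have h2 := Subgroup.relIndex_mul_relIndex (⊥ : Subgroup G) L B bot_le hLM.le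
    rw [Subgroup.relIndex_bot_left, Subgroup.relIndex_bot_left] at h2
    rw [mul_comm]; exact h2
  have hidx0 : L.relIndex B ≠ 0 := by
    intro h
    rw [h, zero_mul] at hidx
    exact Nat.card_pos.ne hidx
  have hfactM : (Nat.card B).factorization p =
      (Nat.card L).factorization p + (L.relIndex B).factorization p := by
    rw [← hidx, Nat.factorization_mul hidx0 Nat.card_pos.ne', Finsupp.add_apply, add_comm]
  have hsumle : ∑ g : G, (Nat.card (Subgroup.centralizer ({g} : Set G) ⊓ B :
      Subgroup G)).factorization p ≤ ∑ g : G, (Nat.card (Subgroup.centralizer ({g} : Set G) ⊓ L :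
      Subgroup G)).factorization p + Nat.card G * (L.relIndex B).factorization p := by
    have h1 := Finset.sum_le_sum (fun (g : G) (_ : g ∈ Finset.univ) =>
      H72AvgChief.fact_le p hLM.le (Subgroup.centralizer ({g} : Set G)))
    rw [Finset.sum_add_distrib, Finset.sum_const, Finset.card_univ,
      ← Nat.card_eq_fintype_card, smul_eq_mul] at h1
    exact h1
  -- invariance
  have hinv : ∀ (g : G) (n : B), θ ⟨g * n * g⁻¹, hBn.conj_mem (n : G) n.2 g⟩ = θ n := by
    intro g n
    have h1 := congrFun hχθ ⟨g * n * g⁻¹, hBn.conj_mem (n : G) n.2 g⟩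
    have h2 := congrFun hχθ n
    have h3 : (χ : G → ℂ) (g * n * g⁻¹) = (χ : G → ℂ) n := χ.2.isClassFunction _ _
    simp only [Pi.smul_apply, smul_eq_mul] at h1 h2
    rw [h3, h2] at h1
    exact (mul_left_cancel₀ he0 h1).symm
  have hres : ∀ (f : ℂ) (φ : L → ℂ), (fun x : L => θ ⟨(x : G), hLM.le x.2⟩) = f • φ →
      (fun n : L => (χ : G → ℂ) n) = (e * f) • φ := by
    intro f φ h
    funext x
    have h1 := congrFun hχθ ⟨(x : G), hLM.le x.2⟩
    have h2 := congrFun h x
    simp only [Pi.smul_apply, smul_eq_mul] at h1 h2 ⊢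
    rw [h1, h2]; ring
  rcases Cfsg.Agent.S0857.result B L hLM hchief hab θ hθ hinv with h | h | h
  · -- the restriction is irreducible
    have h1 := ih (Nat.card L) (by omega) L rfl _ (e * 1) h (hres 1 _ (by rw [one_smul]))
    have hdeg : charDegree (fun x : L => θ ⟨(x : G), hLM.le x.2⟩) = charDegree θ := rfl
    rw [hdeg] at h1
    rw [hfactM]
    nlinarith [h1, hsumle]
  · -- fully ramified
    obtain ⟨φ, f, hφ, hres1, hf⟩ := h
    have h1 := ih (Nat.card L) (by omega) L rfl φ _ hφ (hres f φ hres1)
    have hf0 : f ≠ 0 := by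
      rintro rfl
      apply hidx0
      rw [← hf]; rfl
    have hdeg : charDegree θ = f * charDegree φ := by
      have h2 := congrFun hres1 1
      simp only [Pi.smul_apply, smul_eq_mul] at h2
      have h3 : θ 1 = f * φ 1 := h2
      rw [← charDegree_cast hθ.isCharacter, ← charDegree_cast hφ.isCharacter] at h3
      exact_mod_cast h3
    have hdegf : (charDegree θ).factorization p =
        f.factorization p + (charDegree φ).factorization p := by
      rw [hdeg, Nat.factorization_mul hf0 (charDegree_pos hφ).ne']; rfl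
    have hD : (L.relIndex B).factorization p = 2 * f.factorization p := by
      rw [← hf, Nat.factorization_pow]; rfl
    rw [hdegf, hfactM]
    rcases Nat.eq_zero_or_pos (f.factorization p) with h0 | h0
    · rw [h0] at hD ⊢
      rw [hD] at hsumle ⊢
      simp only [mul_zero, add_zero, zero_add] at hsumle ⊢
      omega
    · have hpdvd : p ∣ L.relIndex B := by
        by_contra hno
        have := Nat.factorization_eq_zero_of_not_dvd hno
        omega
      have hqp : q = p := by
        have h2 := Subgroup.relIndex_ker B (QuotientGroup.mk' L)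
        rw [QuotientGroup.ker_mk'] at h2
        rw [h2] at hpdvd
        obtain ⟨x, hx⟩ := exists_prime_orderOf_dvd_card' p hpdvd
        obtain ⟨y, hy, hyx⟩ := x.2
        have h3 : x ^ q = 1 := by
          apply Subtype.ext
          rw [Subgroup.coe_pow, ← hyx, ← map_pow]
          exact (QuotientGroup.eq_one_iff _).mpr (hBq y hy)
        have h4 := orderOf_dvd_of_pow_eq_one h3
        rw [hx] at h4
        exact ((Nat.prime_dvd_prime_iff_eq hp.out hq).mp h4).symm
      subst hqp
      have h2 := H72AvgChief.chief_avg hs hLM.le hchief hab hBq (by omega)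
      rw [hD] at h2 ⊢
      have h3 : Nat.card G * (2 * f.factorization q) = 2 * (Nat.card G * f.factorization q) := by
        ring
      have h4 : Nat.card G * (f.factorization q + (charDegree φ).factorization q) =
        Nat.card G * f.factorization q + Nat.card G * (charDegree φ).factorization q := by ring
      have h5 : Nat.card G * ((Nat.card L).factorization q + 2 * f.factorization q) =
        Nat.card G * (Nat.card L).factorization q + 2 * (Nat.card G * f.factorization q) := by ring
      rw [h4, h5]
      rw [h3] at h2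
      omega
  · -- the third case is impossible
    exfalso
    obtain ⟨F, hF, hFcard, hFsum⟩ := h
    have := Fintype.ofFinite L
    obtain ⟨θ', e', hθ', hχ'⟩ := hhom L
    have hge : 2 ≤ F.card := by
      rw [hFcard]
      rcases Nat.lt_or_ge (L.relIndex B) 2 with h1 | h1
      · exfalso
        have h2 : L.relIndex B = 1 := by omega
        rw [h2, one_mul] at hidx
        omega
      · exact h1
    obtain ⟨φ, hφF, hφne⟩ : ∃ φ ∈ F, φ ≠ θ' := by
      obtain ⟨a, ha, b, hb, hab'⟩ := Finset.one_lt_card.mp hge
      by_cases h1 : a = θ'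
      · exact ⟨b, hb, fun h2 => hab' (h1.trans h2.symm)⟩
      · exact ⟨a, ha, h1⟩
    have h1 := hres 1 (∑ φ ∈ F, φ) (by rw [one_smul]; exact hFsum)
    rw [hχ'] at h1
    have h2 : classInner (e' • θ') φ = classInner ((e * 1) • ∑ φ ∈ F, φ) φ := by rw [h1]
    rw [classInner_smul_left, classInner_smul_left, hθ'.classInner_eq_zero (hF φ hφF) (Ne.symm hφne),
      classInner_sum_left, Finset.sum_eq_single φ, (hF φ hφF).classInner_self] at h2
    · simp only [mul_zero, mul_one] at h2
      exact he0 h2.symm
    · intro b hb hbne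
      exact (hF b hb).classInner_eq_zero (hF φ hφF) hbne
    · intro h3
      exact absurd hφF h3

/-- The main theorem. -/
theorem main (hs : Group.IsSolvable G) (χ : IrrCharacter G)
    (hprim : ¬ ∃ (H : Subgroup G), H ≠ ⊤ ∧ ∃ θ : ↥H → ℂ, Cfsg.IsCharacter ↥H θ ∧
      Cfsg.indFun H θ = (χ : G → ℂ)) (p : ℕ) [hp : Fact p.Prime] :
    ∃ g : G, (charDegree (χ : G → ℂ)).factorization p ≤
      ((Subgroup.centralizer ({g} : Set G)).index).factorization p := by
  classical
  have hirr : IsIrrCharacter (⊤ : Subgroup G) (fun x : (⊤ : Subgroup G) => (χ : G → ℂ) x) :=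
    (isIrrCharacter_comp_mulEquiv_iff (Subgroup.topEquiv (G := G))).mpr χ.2
  have h1 := main_ind hs χ (fun N _ => homogeneous χ hprim N) p (Nat.card (⊤ : Subgroup G)) ⊤ rfl
    _ 1 hirr (by rw [one_smul])
  have hdeg : charDegree (fun x : (⊤ : Subgroup G) => (χ : G → ℂ) x) = charDegree (χ : G → ℂ) :=
    rfl
  rw [hdeg, Subgroup.card_top] at h1
  by_contra hno
  push Not at hno
  have h2 : ∀ g : G, (Nat.card G).factorization p + 1 ≤
      (Nat.card (Subgroup.centralizer ({g} : Set G) ⊓ ⊤ : Subgroup G)).factorization p +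
        (charDegree (χ : G → ℂ)).factorization p := by
    intro g
    have h3 := hno g
    have h4 : (Nat.card G).factorization p =
        (Nat.card (Subgroup.centralizer ({g} : Set G))).factorization p +
        ((Subgroup.centralizer ({g} : Set G)).index).factorization p := by
      rw [← Subgroup.card_mul_index (Subgroup.centralizer ({g} : Set G)),
        Nat.factorization_mul Nat.card_pos.ne' Subgroup.index_ne_zero_of_finite]
      rfl
    rw [inf_top_eq]
    omega
  have h5 := Finset.sum_le_sum (fun (g : G) (_ : g ∈ Finset.univ) => h2 g)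
  simp only [Finset.sum_add_distrib, Finset.sum_const, Finset.card_univ,
    ← Nat.card_eq_fintype_card, smul_eq_mul] at h5
  have h6 : 0 < Nat.card G := Nat.card_pos
  omega

end Cfsg.Agent.Lib.H72PrimChar
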