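import Cfsg.Agent.Lib.H72PrimChar
import Cfsg.Agent.Lib.H72AvgChiefC
import Cfsg.Agent.Lib.BG15Core
import Cfsg.Agent.Lib.Cores

set_option autoImplicit false

/-!
# Primitive characters and class sizes: version with an invariance group (helper72)
-/

namespace Cfsg.Agent.Lib.H72PrimChar2

open Cfsg Cfsg.Agent.Lib.CharBasic Cfsg.Agent.Lib.Clifford Cfsg.Agent.Lib.BlockDeg
  Cfsg.Agent.Lib
open scoped ComplexConjugate commutatorElement

universe u

variable {G : Type u} [Group G] [Fintype G]

theorem main_ind (hs : Group.IsSolvable G) (χ : IrrCharacter G)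
    (hhom : ∀ (N : Subgroup G) [N.Normal], ∃ (θ : N → ℂ) (e : ℂ), IsIrrCharacter N θ ∧
      (fun n : N => (χ : G → ℂ) n) = e • θ) (p : ℕ) [hp : Fact p.Prime]
    (K : Subgroup G) (hK : ∀ L B : Subgroup G, L.Normal → B.Normal → L < B →
      (∀ D : Subgroup G, D.Normal → L ≤ D → D ≤ B → D = L ∨ D = B) →
      (∀ b ∈ B, b ^ p ∈ L) → ⁅K, B⁆ ≤ L) :
    ∀ (n : ℕ) (M : Subgroup G) [M.Normal], Nat.card M = n →
      ∀ (θ : M → ℂ) (e : ℂ), IsIrrCharacter M θ → (fun n : M => (χ : G → ℂ) n) = e • θ →
      ∃ a : G → ℕ, (∀ g, (Nat.card (Subgroup.centralizer ({g} : Set G) ⊓ M :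
        Subgroup G)).factorization p ≤ a g) ∧ (∀ g, ∀ k ∈ K, a (g * k) = a g) ∧
      ∑ g : G, a g + Nat.card G * (charDegree θ).factorization p ≤
        Nat.card G * (Nat.card M).factorization p := by
  classical
  intro n
  induction n using Nat.strong_induction_on with
  | _ n ih =>
  intro M hM hn θ e hθ hχθ
  have he0 : e ≠ 0 := by
    rintro rfl
    have h1 := congrFun hχθ 1
    simp only [zero_smul, Pi.zero_apply] at h1
    exact χ.2.one_ne_zero h1
  by_cases hMb : M = ⊥
  · subst hMb
    have h1 : (charDegree θ).factorization p = 0 := by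
      have h2 := charDegree_dvd_card hθ
      rw [Subgroup.card_bot, Nat.dvd_one] at h2
      rw [h2]; simp
    have h3 : ∀ g : G, (Nat.card (Subgroup.centralizer ({g} : Set G) ⊓ ⊥ :
        Subgroup G)).factorization p = 0 := by
      intro g
      rw [inf_bot_eq, Subgroup.card_bot]; simp
    refine ⟨fun _ => 0, fun g => (h3 g).le, fun _ _ _ => rfl, ?_⟩
    rw [h1]
    simp
  -- the chief factor
  obtain ⟨L, hL, -, hLM, hchief⟩ := RelMGroup.exists_chief (N := (⊥ : Subgroup G)) (K := M)
    (bot_lt_iff_ne_bot.mpr hMb)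
  have hab : ⁅M, M⁆ ≤ L := RelMGroup.commutator_le (N := ⊥) inferInstance bot_le hLM hchief
  obtain ⟨B, q, hBn, hLB, hBM, hq, hBq⟩ := RelM2.exists_chief_above hLM
  have hBeq : B = M := (hchief B hBn hLB.le hBM).resolve_left hLB.ne'
  subst hBeq
  have hcardlt : Nat.card L < Nat.card B :=
    Nat.lt_of_le_of_ne (Subgroup.card_le_of_le hLM.le)
      (fun h => hLM.ne (Subgroup.eq_of_le_of_card_ge hLM.le h.ge))
  have hidx : L.relIndex B * Nat.card L = Nat.card B := by
    have h2 := Subgroup.relIndex_mul_relIndex (⊥ : Subgroup G) L B bot_le hLM.le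
    rw [Subgroup.relIndex_bot_left, Subgroup.relIndex_bot_left] at h2
    rw [mul_comm]; exact h2
  have hidx0 : L.relIndex B ≠ 0 := by
    intro h
    rw [h, zero_mul] at hidx
    exact Nat.card_pos.ne hidx
  have hfactM : (Nat.card B).factorization p =
      (Nat.card L).factorization p + (L.relIndex B).factorization p := by
    rw [← hidx, Nat.factorization_mul hidx0 Nat.card_pos.ne', Finsupp.add_apply, add_comm]
  have hle : ∀ g : G, (Nat.card (Subgroup.centralizer ({g} : Set G) ⊓ B :
      Subgroup G)).factorization p ≤ (Nat.card (Subgroup.centralizer ({g} : Set G) ⊓ L :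
      Subgroup G)).factorization p + (L.relIndex B).factorization p := fun g =>
    H72AvgChief.fact_le p hLM.le (Subgroup.centralizer ({g} : Set G))
  -- invariance
  have hinv : ∀ (g : G) (n : B), θ ⟨g * n * g⁻¹, hBn.conj_mem (n : G) n.2 g⟩ = θ n := by
    intro g n
    have h1 := congrFun hχθ ⟨g * n * g⁻¹, hBn.conj_mem (n : G) n.2 g⟩
    have h2 := congrFun hχθ n
    have h3 : (χ : G → ℂ) (g * n * g⁻¹) = (χ : G → ℂ) n := χ.2.isClassFunction _ _
    simp only [Pi.smul_apply, smul_eq_mul] at h1 h2
    rw [h3, h2] at h1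
    exact (mul_left_cancel₀ he0 h1).symm
  have hres : ∀ (f : ℂ) (φ : L → ℂ), (fun x : L => θ ⟨(x : G), hLM.le x.2⟩) = f • φ →
      (fun n : L => (χ : G → ℂ) n) = (e * f) • φ := by
    intro f φ h
    funext x
    have h1 := congrFun hχθ ⟨(x : G), hLM.le x.2⟩
    have h2 := congrFun h x
    simp only [Pi.smul_apply, smul_eq_mul] at h1 h2 ⊢
    rw [h1, h2]; ring
  rcases Cfsg.Agent.S0857.result B L hLM hchief hab θ hθ hinv with h | h | h
  · -- the restriction is irreducible
    obtain ⟨a, ha1, ha2, ha3⟩ := ih (Nat.card L) (by omega) L rfl _ (e * 1) h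
      (hres 1 _ (by rw [one_smul]))
    have hdeg : charDegree (fun x : L => θ ⟨(x : G), hLM.le x.2⟩) = charDegree θ := rfl
    rw [hdeg] at ha3
    refine ⟨fun g => a g + (L.relIndex B).factorization p, fun g => ?_, fun g k hk => ?_, ?_⟩
    · have := hle g
      have := ha1 g
      show _ ≤ a g + _
      omega
    · show a (g * k) + _ = a g + _
      rw [ha2 g k hk]
    · rw [hfactM, Finset.sum_add_distrib, Finset.sum_const, Finset.card_univ,
        ← Nat.card_eq_fintype_card, smul_eq_mul]
      nlinarith [ha3]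
  · -- fully ramified
    obtain ⟨φ, f, hφ, hres1, hf⟩ := h
    obtain ⟨a, ha1, ha2, ha3⟩ := ih (Nat.card L) (by omega) L rfl φ _ hφ (hres f φ hres1)
    have hf0 : f ≠ 0 := by
      rintro rfl
      apply hidx0
      rw [← hf]; rfl
    have hdeg : charDegree θ = f * charDegree φ := by
      have h2 := congrFun hres1 1
      simp only [Pi.smul_apply, smul_eq_mul] at h2
      have h3 : θ 1 = f * φ 1 := h2
      rw [← charDegree_cast hθ.isCharacter, ← charDegree_cast hφ.isCharacter] at h3
      exact_mod_cast h3
    have hdegf : (charDegree θ).factorization p =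
        f.factorization p + (charDegree φ).factorization p := by
      rw [hdeg, Nat.factorization_mul hf0 (charDegree_pos hφ).ne']; rfl
    have hD : (L.relIndex B).factorization p = 2 * f.factorization p := by
      rw [← hf, Nat.factorization_pow]; rfl
    rw [hdegf, hfactM]
    rcases Nat.eq_zero_or_pos (f.factorization p) with h0 | h0
    · rw [h0] at hD ⊢
      rw [hD] at hle ⊢
      refine ⟨a, fun g => ?_, ha2, ?_⟩
      · have := hle g
        have := ha1 g
        omega
      · simp only [mul_zero, add_zero, zero_add] at ha3 ⊢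
        exact ha3
    · have hpdvd : p ∣ L.relIndex B := by
        by_contra hno
        have := Nat.factorization_eq_zero_of_not_dvd hno
        omega
      have hqp : q = p := by
        have h2 := Subgroup.relIndex_ker B (QuotientGroup.mk' L)
        rw [QuotientGroup.ker_mk'] at h2
        rw [h2] at hpdvd
        obtain ⟨x, hx⟩ := exists_prime_orderOf_dvd_card' p hpdvd
        obtain ⟨y, hy, hyx⟩ := x.2
        have h3 : x ^ q = 1 := by
          apply Subtype.ext
          rw [Subgroup.coe_pow, ← hyx, ← map_pow]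
          exact (QuotientGroup.eq_one_iff _).mpr (hBq y hy)
        have h4 := orderOf_dvd_of_pow_eq_one h3
        rw [hx] at h4
        exact ((Nat.prime_dvd_prime_iff_eq hp.out hq).mp h4).symm
      subst hqp
      obtain ⟨c, hc1, hc2, hc3⟩ := H72AvgChiefC.chief_c hs hLM.le hchief hab hBq (by omega)
      refine ⟨fun g => a g + c g, fun g => ?_, fun g k hk => ?_, ?_⟩
      · have := hc1 g
        have := ha1 g
        show _ ≤ a g + c g
        omega
      · show a (g * k) + c (g * k) = a g + c g
        rw [ha2 g k hk, hc2 g k]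
        intro m hm
        exact hK L B hL hBn hLM hchief hBq (Subgroup.commutator_mem_commutator hk hm)
      · rw [Finset.sum_add_distrib]
        rw [hD] at hc3 ⊢
        have h3 : Nat.card G * (2 * f.factorization q) = 2 * (Nat.card G * f.factorization q) := by
          ring
        have h4 : Nat.card G * (f.factorization q + (charDegree φ).factorization q) =
          Nat.card G * f.factorization q + Nat.card G * (charDegree φ).factorization q := by ring
        have h5 : Nat.card G * ((Nat.card L).factorization q + 2 * f.factorization q) =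
          Nat.card G * (Nat.card L).factorization q + 2 * (Nat.card G * f.factorization q) := by
            ring
        rw [h4, h5]
        rw [h3] at hc3
        omega
  · -- the third case is impossible
    exfalso
    obtain ⟨F, hF, hFcard, hFsum⟩ := h
    have := Fintype.ofFinite L
    obtain ⟨θ', e', hθ', hχ'⟩ := hhom L
    have hge : 2 ≤ F.card := by
      rw [hFcard]
      rcases Nat.lt_or_ge (L.relIndex B) 2 with h1 | h1
      · exfalso
        have h2 : L.relIndex B = 1 := by omega
        rw [h2, one_mul] at hidx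
        omega
      · exact h1
    obtain ⟨φ, hφF, hφne⟩ : ∃ φ ∈ F, φ ≠ θ' := by
      obtain ⟨a, ha, b, hb, hab'⟩ := Finset.one_lt_card.mp hge
      by_cases h1 : a = θ'
      · exact ⟨b, hb, fun h2 => hab' (h1.trans h2.symm)⟩
      · exact ⟨a, ha, h1⟩
    have h1 := hres 1 (∑ φ ∈ F, φ) (by rw [one_smul]; exact hFsum)
    rw [hχ'] at h1
    have h2 : classInner (e' • θ') φ = classInner ((e * 1) • ∑ φ ∈ F, φ) φ := by rw [h1]
    rw [classInner_smul_left, classInner_smul_left, hθ'.classInner_eq_zero (hF φ hφF) (Ne.symm hφne),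
      classInner_sum_left, Finset.sum_eq_single φ, (hF φ hφF).classInner_self] at h2
    · simp only [mul_zero, mul_one] at h2
      exact he0 h2.symm
    · intro b hb hbne
      exact (hF b hb).classInner_eq_zero (hF φ hφF) hbne
    · intro h3
      exact absurd hφF h3


/-- A normal subgroup `K = P ⊔ F` with `P` a `p`-group and `F` nilpotent normal centralizes the
`p`-chief factors. -/
theorem sup_central {p : ℕ} [hp : Fact p.Prime] (P F : Subgroup G) [hF : F.Normal]
    (hFn : Group.IsNilpotent F) (hP : IsPGroup p P) [hPF : (P ⊔ F).Normal]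
    (L B : Subgroup G) (hL : L.Normal) (hB : B.Normal) (hLB : L < B)
    (hmin : ∀ D : Subgroup G, D.Normal → L ≤ D → D ≤ B → D = L ∨ D = B)
    (hpow : ∀ b ∈ B, b ^ p ∈ L) : ⁅P ⊔ F, B⁆ ≤ L := by
  classical
  have h1 := BG15Core.chief_central hLB hmin hFn
  have h2 := BG15Core.quot_min hLB hmin
  set f := QuotientGroup.mk' L with hf
  have hfs : Function.Surjective f := QuotientGroup.mk'_surjective L
  have hker : f.ker = L := QuotientGroup.ker_mk' L
  have hBn : (B.map f).Normal := hB.map f hfs
  have hKn : ((P ⊔ F).map f).Normal := hPF.map f hfs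
  have hBb : B.map f ≠ ⊥ := by
    intro h
    rw [Subgroup.map_eq_bot_iff, hker] at h
    exact absurd h (not_le_of_gt hLB)
  have hFB : F.map f ≤ Subgroup.centralizer (B.map f : Set (G ⧸ L)) := by
    rw [Subgroup.le_centralizer_iff, ← Subgroup.commutator_eq_bot_iff_le_centralizer,
      ← Subgroup.map_commutator, Subgroup.map_eq_bot_iff, hker]
    exact h1
  have hPp : IsPGroup p (P.map f) := hP.map f
  have hBp : IsPGroup p (B.map f) := by
    rintro ⟨_, b, hb, rfl⟩
    refine ⟨1, ?_⟩
    apply Subtype.ext
    show (f b) ^ p ^ 1 = 1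
    rw [pow_one, ← map_pow]
    exact (QuotientGroup.eq_one_iff _).mpr (hpow b hb)
  have hBnt : Nontrivial (B.map f) := (Subgroup.nontrivial_iff_ne_bot _).mpr hBb
  have hpdvd : p ∣ Nat.card (B.map f) := by
    obtain ⟨n, hn⟩ := IsPGroup.iff_card.mp hBp
    rcases n with _ | n
    · rw [pow_zero] at hn
      exact absurd hn (Finite.one_lt_card (α := B.map f)).ne'
    · rw [hn]; exact dvd_pow_self p (Nat.succ_ne_zero n)
  let act : MulAction (P.map f) (B.map f) :=
    MulAction.compHom _ ((MulAut.conjNormal (H := B.map f)).comp (P.map f).subtype)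
  have hact : ∀ (x : P.map f) (b : B.map f), ((x • b : B.map f) : G ⧸ L) =
      (x : G ⧸ L) * b * (x : G ⧸ L)⁻¹ := fun x b => MulAut.conjNormal_apply _ _
  have h0 : (1 : B.map f) ∈ MulAction.fixedPoints (P.map f) (B.map f) := by
    intro x
    apply Subtype.ext
    rw [hact]
    simp
  obtain ⟨b, hb, hb1⟩ := hPp.exists_fixed_point_of_prime_dvd_card_of_fixed_point _ hpdvd h0
  have hcen : B.map f ⊓ Subgroup.centralizer ((P ⊔ F).map f : Set (G ⧸ L)) = B.map f := by
    refine (h2 _ inferInstance inf_le_left).resolve_left ?_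
    intro h
    apply hb1
    have hmem : (b : G ⧸ L) ∈ B.map f ⊓ Subgroup.centralizer ((P ⊔ F).map f : Set (G ⧸ L)) := by
      refine ⟨b.2, ?_⟩
      have h3 : (P ⊔ F).map f ≤ Subgroup.centralizer ({(b : G ⧸ L)} : Set (G ⧸ L)) := by
        rw [Subgroup.map_sup]
        apply sup_le
        · intro x hx
          rw [Subgroup.mem_centralizer_singleton_iff]
          have h4 := congrArg Subtype.val (hb ⟨x, hx⟩)
          rw [hact] at h4
          have h5 : x * (b : G ⧸ L) * x⁻¹ = b := h4
          calc x * (b : G ⧸ L) = (x * (b : G ⧸ L) * x⁻¹) * x := by group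
            _ = b * x := by rw [h5]
        · intro x hx
          rw [Subgroup.mem_centralizer_singleton_iff]
          exact (Subgroup.mem_centralizer_iff.mp (hFB hx) b b.2).symm
      refine Subgroup.mem_centralizer_iff.mpr ?_
      intro x hx
      exact Subgroup.mem_centralizer_singleton_iff.mp (h3 hx)
    rw [h, Subgroup.mem_bot] at hmem
    exact Subtype.ext hmem.symm
  have h6 : B.map f ≤ Subgroup.centralizer ((P ⊔ F).map f : Set (G ⧸ L)) := by
    rw [← hcen]; exact inf_le_right
  rw [Subgroup.le_centralizer_iff, ← Subgroup.commutator_eq_bot_iff_le_centralizer,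
      ← Subgroup.map_commutator, Subgroup.map_eq_bot_iff, hker] at h6
  exact h6

end Cfsg.Agent.Lib.H72PrimChar2
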