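import Cfsg.Agent.Lib.H76Alg2

/-!
# Symmetric local algebras with centre of dimension at most four are commutative
-/

set_option autoImplicit false
set_option linter.all false

namespace Cfsg.Agent.Lib.H76Alg

universe u v

section comm

variable {k : Type v} [Field k] {R : Type u} [Ring R] [Algebra k R]

/-- the commutator space -/
def KS (k : Type v) [Field k] (R : Type u) [Ring R] [Algebra k R] : Submodule k R :=
  Submodule.span k {x | ∃ a b : R, x = a * b - b * a}

theorem comm_mem_KS (a b : R) : a * b - b * a ∈ KS k R := Submodule.subset_span ⟨a, b, rfl⟩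

theorem Tr_eq : Tr k R = (KS k R).dualAnnihilator := by
  ext f
  rw [Submodule.mem_dualAnnihilator]
  constructor
  · intro hf w hw
    induction hw using Submodule.span_induction with
    | mem x hx =>
      obtain ⟨a, b, rfl⟩ := hx
      rw [map_sub, hf a b, sub_self]
    | zero => exact map_zero f
    | add x y _ _ hx hy => rw [map_add, hx, hy, add_zero]
    | smul c x _ hx => rw [map_smul, hx, smul_zero]
  · intro h a b
    have := h _ (comm_mem_KS (k := k) a b)
    rwa [map_sub, sub_eq_zero] at this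

theorem finrank_KS_add [FiniteDimensional k R] :
    Module.finrank k (KS k R) + Module.finrank k (Tr k R) = Module.finrank k R := by
  rw [Tr_eq]
  exact Subspace.finrank_add_finrank_dualAnnihilator_eq (KS k R)

theorem lam_KS {lam : R →ₗ[k] k} (hl : SymF lam) {x : R} (hx : x ∈ KS k R) : lam x = 0 := by
  induction hx using Submodule.span_induction with
  | mem x hx =>
    obtain ⟨a, b, rfl⟩ := hx
    rw [map_sub, hl.tr, sub_self]
  | zero => exact map_zero _
  | add x y _ _ hx hy => rw [map_add, hx, hy, add_zero]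
  | smul c x _ hx => rw [map_smul, hx, smul_zero]

variable {N : Submodule k R}

theorem LocD.KS_le (h : LocD k N) : KS k R ≤ N ^ 2 := by
  unfold KS
  rw [Submodule.span_le]
  rintro _ ⟨a, b, rfl⟩
  obtain ⟨c, hc⟩ := h.dec a
  obtain ⟨d, hd⟩ := h.dec b
  have h1 : a * b - b * a = (a - c • (1 : R)) * (b - d • (1 : R)) - (b - d • (1 : R)) * (a - c • (1 : R)) := by
    simp only [sub_mul, mul_sub, smul_mul_assoc, mul_smul_comm, one_mul, mul_one, smul_sub]
    rw [smul_comm d c]
    abel
  rw [h1, pow_two]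
  exact Submodule.sub_mem _ (Submodule.mul_mem_mul hc hd) (Submodule.mul_mem_mul hd hc)

/-- socle elements are detected by the form -/
theorem LocD.lam_ne_zero (h : LocD k N) {lam : R →ₗ[k] k} (hl : SymF lam) {s : R} (hs : s ≠ 0)
    (hN : ∀ n ∈ N, n * s = 0) : lam s ≠ 0 := by
  intro h0
  apply hs
  apply hl.nd
  intro b
  obtain ⟨c, hc⟩ := h.dec b
  have h1 : b = (b - c • (1 : R)) + c • (1 : R) := by abel
  rw [h1, mul_add, map_add, hl.tr, hN _ hc, map_zero, zero_add, mul_smul_comm, mul_one, map_smul, h0,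
    smul_zero]

/-- the socle has dimension one -/
theorem LocD.soc_unique (h : LocD k N) {lam : R →ₗ[k] k} (hl : SymF lam) {s t : R} (hs : s ≠ 0)
    (hsN : ∀ n ∈ N, n * s = 0) (htN : ∀ n ∈ N, n * t = 0) : t ∈ Submodule.span k {s} := by
  have h1 := h.lam_ne_zero hl hs hsN
  rw [Submodule.mem_span_singleton]
  refine ⟨lam t / lam s, ?_⟩
  by_contra hne
  have h2 : t - (lam t / lam s) • s ≠ 0 := fun h3 => hne (sub_eq_zero.mp h3).symm
  apply h.lam_ne_zero hl h2
  · intro n hn
    rw [mul_sub, htN n hn, mul_smul_comm, hsN n hn, smul_zero, sub_zero]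
  · rw [map_sub, map_smul, smul_eq_mul, div_mul_cancel₀ _ h1, sub_self]

/-- a nonzero left ideal contains a socle element -/
theorem LocD.exists_soc (h : LocD k N) {I : Submodule k R} (hI : ∀ r, ∀ x ∈ I, r * x ∈ I) (hne : I ≠ ⊥) :
    ∃ s ∈ I, s ≠ 0 ∧ ∀ n ∈ N, n * s = 0 := by
  obtain ⟨m, hm⟩ := h.nil
  have h1 : ∃ j : ℕ, N ^ j * I ≠ ⊥ ∧ N ^ (j + 1) * I = ⊥ := by
    by_contra hcon
    push Not at hcon
    have h2 : ∀ j : ℕ, N ^ j * I ≠ ⊥ := by
      intro j
      induction j with
      | zero => rw [pow_zero, one_mul]; exact hne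
      | succ j ih => exact hcon j ih
    apply h2 m
    rw [hm, Submodule.bot_mul]
  obtain ⟨j, hj1, hj2⟩ := h1
  obtain ⟨s, hs, hs0⟩ := Submodule.exists_mem_ne_zero_of_ne_bot hj1
  have h3 : N ^ j * I ≤ I := by
    rw [Submodule.mul_le]
    intro a _ b hb
    exact hI a b hb
  refine ⟨s, h3 hs, hs0, fun n hn => ?_⟩
  have h4 : n * s ∈ N ^ (j + 1) * I := by
    rw [pow_succ', mul_assoc]
    exact Submodule.mul_mem_mul hn hs
  rw [hj2] at h4
  exact h4

/-- an ideal inside the commutator space is zero -/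
theorem LocD.eq_bot_of_le_KS (h : LocD k N) {lam : R →ₗ[k] k} (hl : SymF lam) {I : Submodule k R}
    (hI : ∀ r, ∀ x ∈ I, r * x ∈ I) (hle : I ≤ KS k R) : I = ⊥ := by
  by_contra hne
  obtain ⟨s, hs, hs0, hsN⟩ := h.exists_soc hI hne
  exact h.lam_ne_zero hl hs0 hsN (lam_KS hl (hle hs))

theorem LocD.pow_ideal (h : LocD k N) {m : ℕ} (hm : m ≠ 0) (r : R) {x : R} (hx : x ∈ N ^ m) :
    r * x ∈ N ^ m := by
  obtain ⟨m, rfl⟩ := Nat.exists_eq_succ_of_ne_zero hm
  rw [Nat.succ_eq_add_one, pow_succ'] at hx ⊢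
  have h1 : (⊤ : Submodule k R) * (N * N ^ m) ≤ N * N ^ m := by
    rw [← mul_assoc]
    refine smul_mono ?_ le_rfl
    rw [Submodule.mul_le]
    intro a _ b hb
    exact h.lmul a b hb
  exact h1 (Submodule.mul_mem_mul Submodule.mem_top hx)

/-- the powers of `N` stabilize only at zero -/
theorem LocD.eq_bot_of_le_succ (h : LocD k N) {m : ℕ} (hle : N ^ m ≤ N ^ (m + 1)) : N ^ m = ⊥ := by
  obtain ⟨n, hn⟩ := h.nil
  have h1 : ∀ j : ℕ, N ^ m ≤ N ^ (m + j) := by
    intro j
    induction j with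
    | zero => exact le_rfl
    | succ j ih =>
      refine ih.trans ?_
      rw [pow_add, show m + (j + 1) = (m + 1) + j by ring, pow_add]
      exact smul_mono hle le_rfl
  rw [eq_bot_iff]
  refine (h1 n).trans ?_
  rw [pow_add, hn, Submodule.mul_bot]

theorem LocD.comm_of_KS_bot (hK : KS k R = ⊥) (a b : R) : a * b = b * a := by
  have := comm_mem_KS (k := k) a b
  rw [hK, Submodule.mem_bot, sub_eq_zero] at this
  exact this

theorem exists_gen_two [FiniteDimensional k R] {W N : Submodule k R} (hW : W ≤ N)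
    (h : Module.finrank k N ≤ Module.finrank k W + 2) :
    ∃ x ∈ N, ∃ y ∈ N, N ≤ Submodule.span k {x, y} ⊔ W := by
  by_cases hN : N ≤ W
  · exact ⟨0, N.zero_mem, 0, N.zero_mem, hN.trans le_sup_right⟩
  obtain ⟨x, hx, hxW⟩ := Set.not_subset.mp hN
  have h1 : W < Submodule.span k {x} ⊔ W := by
    refine lt_of_le_of_ne le_sup_right ?_
    intro h2
    apply hxW
    rw [SetLike.mem_coe, h2]
    exact Submodule.mem_sup_left (Submodule.mem_span_singleton_self x)
  have h2 := Submodule.finrank_lt_finrank_of_lt h1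
  have h3 : Submodule.span k {x} ⊔ W ≤ N := sup_le (by rw [Submodule.span_le]; simpa using hx) hW
  obtain ⟨y, hy, hyN⟩ := exists_gen_one h3 (by omega)
  refine ⟨x, hx, y, hy, hyN.trans ?_⟩
  refine sup_le ?_ (sup_le ?_ le_sup_right)
  · refine le_trans (Submodule.span_mono ?_) le_sup_left
    simp
  · refine le_trans (Submodule.span_mono ?_) le_sup_left
    simp

/-- products modulo a power in terms of generators -/
theorem LocD.key_rel (h : LocD k N) {c u v w : R} {β γ : k} (hu : u ∈ N) (hw : w ∈ N)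
    (h1 : u * v - β • c ∈ N ^ 3) (h2 : v * w - γ • c ∈ N ^ 3) :
    β • (c * w) - γ • (u * c) ∈ N ^ 4 := by
  have e1 : (u * v - β • c) * w ∈ N ^ 4 := by
    rw [pow_succ N 3]
    exact Submodule.mul_mem_mul h1 hw
  have e2 : u * (v * w - γ • c) ∈ N ^ 4 := by
    rw [pow_succ' N 3]
    exact Submodule.mul_mem_mul hu h2
  have e3 := Submodule.sub_mem _ e2 e1
  have e4 : u * (v * w - γ • c) - (u * v - β • c) * w = β • (c * w) - γ • (u * c) := by
    rw [mul_sub, sub_mul, mul_assoc, mul_smul_comm, smul_mul_assoc]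
    abel
  rwa [e4] at e3

/-- the linear algebra of the cubic relations -/
theorem cubic_zero {V : Type*} [AddCommGroup V] [Module k V] {a b d : k} {X Y X' Y' : V}
    (h1 : a • X' = a • X) (h2 : a • Y' = (1 + b) • X) (h3 : (1 + b) • X' = b • X)
    (h4 : (1 + b) • Y' = d • X) (h5 : b • X' = a • Y) (h6 : b • Y' = (1 + b) • Y)
    (h7 : d • X' = b • Y) (h8 : d • Y' = d • Y) : X = 0 ∧ Y = 0 ∧ X' = 0 ∧ Y' = 0 := by
  have hX' : X' = b • X - a • Y := by linear_combination (norm := module) h3 - h5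
  have hY' : Y' = d • X - (1 + b) • Y := by linear_combination (norm := module) h4 - h6
  have key : X = 0 ∧ Y = 0 := by
    by_cases ha : a = 0
    · subst ha
      rw [hX'] at h3 h5 h7
      rw [hY'] at h2 h4 h6 h8
      have e1 : (1 + b) • X = 0 := by linear_combination (norm := module) -h2
      have e2 : b ^ 2 • X = 0 := by linear_combination (norm := module) h5
      have e3 : X = 0 := by linear_combination (norm := module) (1 - b) • e1 + e2
      refine ⟨e3, ?_⟩
      rw [e3] at h6 h7 h4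
      have e4 : b • Y = 0 := by linear_combination (norm := module) -h7
      have e5 : (1 + b) ^ 2 • Y = 0 := by linear_combination (norm := module) -h4
      linear_combination (norm := module) e5 - (2 + b) • e4
    · have e1 : (b - 1) • X = a • Y := by
        have : a • ((b - 1) • X - a • Y) = 0 := by
          rw [hX'] at h1
          linear_combination (norm := module) h1
        rcases smul_eq_zero.mp this with h | h
        · exact absurd h ha
        · exact sub_eq_zero.mp h
      have e2 : b ^ 2 • X = (a * (1 + b)) • Y := by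
        rw [hX'] at h5
        linear_combination (norm := module) h5
      have e3 : X = 0 := by linear_combination (norm := module) e2 - (1 + b) • e1
      refine ⟨e3, ?_⟩
      rw [e3, smul_zero] at e1
      exact (smul_eq_zero.mp e1.symm).resolve_left ha
  obtain ⟨hX, hY⟩ := key
  refine ⟨hX, hY, ?_, ?_⟩
  · rw [hX', hX, hY, smul_zero, smul_zero, sub_zero]
  · rw [hY', hX, hY, smul_zero, smul_zero, sub_zero]

theorem LocD.pow_ideal' (h : LocD k N) {m : ℕ} (hm : m ≠ 0) (r : R) {x : R} (hx : x ∈ N ^ m) :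
    x * r ∈ N ^ m := by
  obtain ⟨m, rfl⟩ := Nat.exists_eq_succ_of_ne_zero hm
  rw [Nat.succ_eq_add_one, pow_succ] at hx ⊢
  have h1 : (N ^ m * N) * (⊤ : Submodule k R) ≤ N ^ m * N := by
    rw [mul_assoc]
    refine smul_mono le_rfl ?_
    rw [Submodule.mul_le]
    intro a ha b _
    exact h.rmul b a ha
  exact h1 (Submodule.mul_mem_mul hx Submodule.mem_top)

/-- commutators modulo the cube of the radical, for two generators -/
theorem LocD.KS_le_two (h : LocD k N) {x y : R} (hx : x ∈ N) (hy : y ∈ N)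
    (hN : N ≤ Submodule.span k {x, y} ⊔ N ^ 2) :
    KS k R ≤ Submodule.span k {x * y - y * x} ⊔ N ^ 3 := by
  unfold KS
  rw [Submodule.span_le]
  rintro _ ⟨a, b, rfl⟩
  obtain ⟨c, hc⟩ := h.dec a
  obtain ⟨d, hd⟩ := h.dec b
  have h1 : a * b - b * a = (a - c • (1 : R)) * (b - d • (1 : R)) - (b - d • (1 : R)) * (a - c • (1 : R)) := by
    simp only [sub_mul, mul_sub, smul_mul_assoc, mul_smul_comm, one_mul, mul_one, smul_sub]
    rw [smul_comm d c]
    abel
  rw [h1]
  obtain ⟨z, hz, n', hn', h2⟩ := Submodule.mem_sup.mp (hN hc)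
  obtain ⟨w, hw, m', hm', h3⟩ := Submodule.mem_sup.mp (hN hd)
  obtain ⟨α, β, hz⟩ := Submodule.mem_span_pair.mp hz
  obtain ⟨γ, δ, hw⟩ := Submodule.mem_span_pair.mp hw
  rw [← h2, ← h3, ← hz, ← hw]
  have e0 : ∀ u ∈ N, ∀ v ∈ N ^ 2, u * v ∈ N ^ 3 := by
    intro u hu v hv
    rw [pow_succ' N 2]
    exact Submodule.mul_mem_mul hu hv
  have e1 : ∀ u ∈ N, ∀ v ∈ N ^ 2, v * u ∈ N ^ 3 := by
    intro u hu v hv
    rw [pow_succ N 2]
    exact Submodule.mul_mem_mul hv hu
  have hzN : α • x + β • y ∈ N := N.add_mem (N.smul_mem _ hx) (N.smul_mem _ hy)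
  have hwN : γ • x + δ • y ∈ N := N.add_mem (N.smul_mem _ hx) (N.smul_mem _ hy)
  have hn'N : n' ∈ N := h.pow_le 2 (by norm_num) hn'
  have hm'N : m' ∈ N := h.pow_le 2 (by norm_num) hm'
  have e2 : (α • x + β • y + n') * (γ • x + δ • y + m') - (γ • x + δ • y + m') * (α • x + β • y + n') =
      (α * δ - β * γ) • (x * y - y * x) +
      ((α • x + β • y) * m' + n' * (γ • x + δ • y) + n' * m'
        - ((γ • x + δ • y) * n' + m' * (α • x + β • y) + m' * n')) := by
    simp only [add_mul, mul_add, smul_mul_assoc, mul_smul_comm, smul_smul, smul_sub, sub_smul, smul_add]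
    rw [mul_comm γ α, mul_comm δ α, mul_comm γ β, mul_comm δ β]
    abel
  rw [e2]
  refine Submodule.add_mem_sup (Submodule.smul_mem _ _ (Submodule.mem_span_singleton_self _)) ?_
  refine Submodule.sub_mem _ (Submodule.add_mem _ (Submodule.add_mem _ ?_ ?_) ?_)
    (Submodule.add_mem _ (Submodule.add_mem _ ?_ ?_) ?_)
  · exact e0 _ hzN _ hm'
  · exact e1 _ hwN _ hn'
  · exact e0 _ hn'N _ hm'
  · exact e0 _ hwN _ hn'
  · exact e1 _ hzN _ hm'
  · exact e0 _ hm'N _ hn'

/-- if the square is spanned by the commutator modulo the cube, the cube is zero -/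
theorem LocD.cube_eq_bot (h : LocD k N) {x y : R} (hx : x ∈ N) (hy : y ∈ N)
    (hN : N ≤ Submodule.span k {x, y} ⊔ N ^ 2)
    (h2 : N ^ 2 ≤ Submodule.span k {x * y - y * x} ⊔ N ^ 3) : N ^ 3 = ⊥ := by
  obtain ⟨c, hc⟩ : ∃ c, c = x * y - y * x := ⟨_, rfl⟩
  rw [← hc] at h2
  by_cases hcN : c ∈ N ^ 3
  · have h3 : N ^ 2 ≤ N ^ 3 := h2.trans (sup_le (by rw [Submodule.span_le]; simpa using hcN) le_rfl)
    have h4 := h.eq_bot_of_le_succ h3
    rw [eq_bot_iff, ← h4]
    exact h.pow_anti (by norm_num) (by norm_num)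
  have hrel : ∀ u ∈ N, ∀ v ∈ N, ∃ β : k, u * v - β • c ∈ N ^ 3 := by
    intro u hu v hv
    have h3 : u * v ∈ N ^ 2 := by rw [pow_two]; exact Submodule.mul_mem_mul hu hv
    obtain ⟨z, hz, n', hn', h4⟩ := Submodule.mem_sup.mp (h2 h3)
    obtain ⟨β, rfl⟩ := Submodule.mem_span_singleton.mp hz
    exact ⟨β, by rw [← h4]; simpa using hn'⟩
  obtain ⟨a, ha⟩ := hrel x hx x hx
  obtain ⟨b', hb'⟩ := hrel x hx y hy
  obtain ⟨b, hb⟩ := hrel y hy x hx
  obtain ⟨d, hd⟩ := hrel y hy y hy
  have hbb : b' = 1 + b := by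
    by_contra hne
    apply hcN
    have h3 : (1 + b - b') • c ∈ N ^ 3 := by
      have h4 := Submodule.sub_mem _ hb' hb
      have h5 : x * y - b' • c - (y * x - b • c) = (1 + b - b') • c := by
        have h6 : x * y - b' • c - (y * x - b • c) = (x * y - y * x) + (b - b') • c := by
          rw [sub_smul]; abel
        rw [h6, ← hc]
        module
      rwa [h5] at h4
    have h4 : (1 + b - b') ≠ 0 := fun h5 => hne (by rw [sub_eq_zero] at h5; exact h5.symm)
    have h5 := Submodule.smul_mem _ (1 + b - b')⁻¹ h3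
    rwa [smul_smul, inv_mul_cancel₀ h4, one_smul] at h5
  rw [hbb] at hb'
  -- the cubic relations
  set π := (N ^ 4 : Submodule k R).mkQ with hπ
  have hrel2 : ∀ {β γ : k} {u w : R}, β • (c * w) - γ • (u * c) ∈ N ^ 4 →
      β • π (c * w) = γ • π (u * c) := by
    intro β γ u w h3
    have h4 : π (β • (c * w) - γ • (u * c)) = 0 := by
      rw [hπ, Submodule.mkQ_apply, Submodule.Quotient.mk_eq_zero]
      exact h3
    rw [map_sub, map_smul, map_smul, sub_eq_zero] at h4
    exact h4
  obtain ⟨hX, hY, -, -⟩ := cubic_zero (k := k) (X := π (x * c)) (Y := π (y * c)) (X' := π (c * x))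
    (Y' := π (c * y)) (hrel2 (h.key_rel hx hx ha ha)) (hrel2 (h.key_rel hx hy ha hb'))
    (hrel2 (h.key_rel hx hx hb' hb)) (hrel2 (h.key_rel hx hy hb' hd))
    (hrel2 (h.key_rel hy hx hb ha)) (hrel2 (h.key_rel hy hy hb hb'))
    (hrel2 (h.key_rel hy hx hd hb)) (hrel2 (h.key_rel hy hy hd hd))
  rw [hπ, Submodule.mkQ_apply, Submodule.Quotient.mk_eq_zero] at hX hY
  apply h.eq_bot_of_le_succ
  calc N ^ 3 = N * N ^ 2 := pow_succ' _ _
    _ ≤ (Submodule.span k {x, y} ⊔ N ^ 2) * (Submodule.span k {c} ⊔ N ^ 3) := smul_mono hN h2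
    _ ≤ N ^ 4 := by
      rw [Submodule.sup_mul, Submodule.mul_sup, Submodule.mul_sup]
      refine sup_le (sup_le ?_ ?_) (sup_le ?_ ?_)
      · rw [Submodule.span_mul_span, Submodule.span_le]
        rintro _ ⟨u, hu, v, hv, rfl⟩
        rw [Set.mem_singleton_iff] at hv
        subst hv
        rcases hu with rfl | hu
        · exact hX
        · rw [Set.mem_singleton_iff] at hu
          subst hu
          exact hY
      · have h3 : Submodule.span k {x, y} ≤ N := by
          rw [Submodule.span_le]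
          rintro u (rfl | hu)
          · exact hx
          · rw [Set.mem_singleton_iff] at hu
            subst hu
            exact hy
        refine (smul_mono h3 le_rfl).trans ?_
        rw [← pow_succ']
      · have h3 : Submodule.span k {c} ≤ N ^ 2 := by
          rw [Submodule.span_le, Set.singleton_subset_iff, hc]
          rw [pow_two]
          exact Submodule.sub_mem _ (Submodule.mul_mem_mul hx hy) (Submodule.mul_mem_mul hy hx)
        refine (smul_mono le_rfl h3).trans ?_
        rw [← pow_add]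
      · rw [← pow_add]
        exact h.pow_anti (by norm_num) (by norm_num)

/-- **symmetric local algebras whose centre has dimension at most four are commutative** -/
theorem LocD.comm_of_Tr_le_four [Nontrivial R] [FiniteDimensional k R] (h : LocD k N)
    {lam : R →ₗ[k] k} (hl : SymF lam) (h4 : Module.finrank k (Tr k R) ≤ 4) (a b : R) :
    a * b = b * a := by
  by_contra hnc
  have hK0 : KS k R ≠ ⊥ := fun hK => hnc (LocD.comm_of_KS_bot hK a b)
  have hKpos : 0 < Module.finrank k (KS k R) := by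
    rw [Module.finrank_pos_iff, Submodule.nontrivial_iff_ne_bot]
    exact hK0
  have hfR := h.finrank
  have hfK := finrank_KS_add (k := k) (R := R)
  have hKle := h.KS_le
  have hidl : ∀ m : ℕ, m ≠ 0 → ∀ r, ∀ x ∈ N ^ m, r * x ∈ N ^ m := fun m hm r x hx => h.pow_ideal hm r hx
  have hKlt : Module.finrank k (KS k R) < Module.finrank k (N ^ 2 : Submodule k R) := by
    apply Submodule.finrank_lt_finrank_of_lt
    refine lt_of_le_of_ne hKle ?_
    intro heq
    have h5 := h.eq_bot_of_le_KS hl (hidl 2 (by norm_num)) heq.ge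
    rw [← heq] at h5
    exact hK0 h5
  have hN2 : N ^ 2 ≤ N := h.pow_le 2 (by norm_num)
  have h5 : ¬ Module.finrank k N ≤ Module.finrank k (N ^ 2 : Submodule k R) + 1 := by
    intro h6
    obtain ⟨x, hx, hxN⟩ := exists_gen_one hN2 h6
    exact hnc (h.comm_of_one hx hxN a b)
  obtain ⟨x, hx, y, hy, hxy⟩ := exists_gen_two hN2 (by omega)
  have hKs := h.KS_le_two hx hy hxy
  have h6 : Module.finrank k (N ^ 2 : Submodule k R) = Module.finrank k (KS k R) + 1 := by omega
  have hN3 : N ^ 3 ≠ ⊥ := by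
    intro h7
    -- then `N ^ 2` is in the socle
    have h8 : N ^ 2 ≠ ⊥ := by
      intro h9
      rw [h9, finrank_bot] at h6
      omega
    obtain ⟨s, hs, hs0⟩ := Submodule.exists_mem_ne_zero_of_ne_bot h8
    have h9 : ∀ t ∈ N ^ 2, ∀ n ∈ N, n * t = 0 := by
      intro t ht n hn
      have : n * t ∈ N ^ 3 := by rw [pow_succ' N 2]; exact Submodule.mul_mem_mul hn ht
      rw [h7] at this
      exact this
    have h10 : N ^ 2 ≤ Submodule.span k {s} := fun t ht => h.soc_unique hl hs0 (h9 s hs) (h9 t ht)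
    have h11 := Submodule.finrank_mono h10
    rw [finrank_span_singleton hs0] at h11
    omega
  apply hN3
  apply h.cube_eq_bot hx hy hxy
  obtain ⟨s, hs, hs0, hsN⟩ := h.exists_soc (hidl 3 (by norm_num)) hN3
  have h7 : s ∉ KS k R := fun h8 => h.lam_ne_zero hl hs0 hsN (lam_KS hl h8)
  have hs2 : s ∈ N ^ 2 := h.pow_anti (by norm_num) (by norm_num) hs
  have h8 : KS k R < KS k R ⊔ Submodule.span k {s} := by
    refine lt_of_le_of_ne le_sup_left ?_
    intro h9
    apply h7
    rw [h9]
    exact Submodule.mem_sup_right (Submodule.mem_span_singleton_self s)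
  have h9 := Submodule.finrank_lt_finrank_of_lt h8
  have h10 : KS k R ⊔ Submodule.span k {s} ≤ N ^ 2 :=
    sup_le hKle (by rw [Submodule.span_le]; simpa using hs2)
  have h11 : KS k R ⊔ Submodule.span k {s} = N ^ 2 := Submodule.eq_of_le_of_finrank_le h10 (by omega)
  rw [← h11]
  refine sup_le hKs (le_trans ?_ le_sup_right)
  rw [Submodule.span_le]
  simpa using hs

theorem LocD.finrank_of_Tr_le_four [Nontrivial R] [FiniteDimensional k R] (h : LocD k N)
    {lam : R →ₗ[k] k} (hl : SymF lam) (h4 : Module.finrank k (Tr k R) ≤ 4) :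
    Module.finrank k R = Module.finrank k (Tr k R) :=
  (finrank_Tr_of_comm (h.comm_of_Tr_le_four hl h4)).symm

end comm

end Cfsg.Agent.Lib.H76Alg
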