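import Cfsg.Agent.Lib.CharBasic2
import Mathlib.GroupTheory.GroupAction.MultipleTransitivity

set_option autoImplicit false

/-!
Irreducible characters of 4-transitive groups (helper76), used by S4560.
-/

namespace Cfsg.Agent.Lib.H76Four

open scoped ComplexConjugate
open Cfsg Cfsg.Agent.Lib Cfsg.Agent.Lib.CharBasic

universe u v

variable {G : Type u} [Group G] [Fintype G] {Ω : Type v} [Fintype Ω] [DecidableEq Ω] [MulAction G Ω]

/-- twisted Burnside lemma for a transitive set -/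
theorem twist {Y : Type v} [Fintype Y] [DecidableEq Y] [MulAction G Y] (X : Finset Y) (hne : X.Nonempty)
    (hinv : ∀ (g : G), ∀ x ∈ X, g • x ∈ X) (htr : ∀ x ∈ X, ∀ y ∈ X, ∃ g : G, g • x = y) (s : Y → Y)
    (hs : ∀ x ∈ X, s x ∈ X) : ∑ g : G, (X.filter (fun x => g • x = s x)).card = Fintype.card G := by
  classical
  have h1 : ∑ g : G, (X.filter (fun x => g • x = s x)).card =
      ∑ x ∈ X, (Finset.univ.filter (fun g : G => g • x = s x)).card := by
    simp only [Finset.card_filter]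
    rw [Finset.sum_comm]
  have h2 : ∀ x ∈ X, ∀ y ∈ X, (Finset.univ.filter (fun g : G => g • x = y)).card * X.card = Fintype.card G := by
    intro x hx y hy
    obtain ⟨g₀, hg₀⟩ := htr x hx y hy
    have h3 : (Finset.univ.filter (fun g : G => g • x = y)).card = Fintype.card (MulAction.stabilizer G x) := by
      rw [← Fintype.card_subtype]
      apply Fintype.card_congr
      exact
        { toFun := fun g => ⟨g₀⁻¹ * g, by
            rw [MulAction.mem_stabilizer_iff, mul_smul, g.2, ← hg₀, inv_smul_smul]⟩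
          invFun := fun g => ⟨g₀ * g, by
            rw [mul_smul, MulAction.mem_stabilizer_iff.1 g.2, hg₀]⟩
          left_inv := fun g => by simp
          right_inv := fun g => by simp }
    have h4 : X.card = Fintype.card (MulAction.orbit G x) := by
      rw [← Fintype.card_coe X]
      apply Fintype.card_congr
      apply Equiv.subtypeEquivRight
      intro z
      constructor
      · intro hz
        obtain ⟨g, hg⟩ := htr x hx z hz
        exact ⟨g, hg⟩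
      · rintro ⟨g, rfl⟩
        exact hinv g x hx
    rw [h3, h4, mul_comm]
    exact MulAction.card_orbit_mul_card_stabilizer_eq_card_group G x
  rw [h1]
  obtain ⟨x₀, hx₀⟩ := hne
  have hpos : 0 < X.card := Finset.card_pos.2 ⟨x₀, hx₀⟩
  apply Nat.eq_of_mul_eq_mul_right hpos
  rw [Finset.sum_mul, Finset.sum_congr rfl (fun x hx => h2 x hx (s x) (hs x hx)), Finset.sum_const, smul_eq_mul, mul_comm]

/-- the fixed points -/
def Fx (Ω : Type v) [Fintype Ω] [DecidableEq Ω] [MulAction G Ω] (g : G) : Finset Ω :=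
  Finset.univ.filter (fun a => g • a = a)

/-- the points in 2-cycles -/
def Tw (Ω : Type v) [Fintype Ω] [DecidableEq Ω] [MulAction G Ω] (g : G) : Finset Ω :=
  Finset.univ.filter (fun a => g • g • a = a ∧ g • a ≠ a)

theorem mem_Fx {g : G} {a : Ω} : a ∈ Fx Ω g ↔ g • a = a := by simp [Fx]

theorem mem_Tw {g : G} {a : Ω} : a ∈ Tw Ω g ↔ g • g • a = a ∧ g • a ≠ a := by simp [Tw]

theorem sum_descFactorial (k : ℕ) (hk : MulAction.IsMultiplyPretransitive G Ω k) (hcard : k ≤ Fintype.card Ω) :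
    ∑ g : G, ((Fx Ω g).card.descFactorial k) = Fintype.card G := by
  classical
  have h1 := MulAction.sum_card_fixedBy_eq_card_orbits_mul_card_group G (Fin k ↪ Ω)
  have hne : Nonempty (Fin k ↪ Ω) := by
    apply Function.Embedding.nonempty_of_card_le
    rw [Fintype.card_fin]; exact hcard
  have h2 : Fintype.card (Quotient (MulAction.orbitRel G (Fin k ↪ Ω))) = 1 := by
    rw [Fintype.card_eq_one_iff_nonempty_unique]
    obtain ⟨x₀⟩ := hne
    refine ⟨⟨⟨Quotient.mk'' x₀⟩, ?_⟩⟩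
    intro q
    induction q using Quotient.inductionOn' with
    | h x =>
      apply Quotient.sound'
      rw [MulAction.orbitRel_apply]
      exact MulAction.exists_smul_eq G x₀ x
  rw [h2, one_mul] at h1
  rw [← h1]
  apply Finset.sum_congr rfl
  intro g _
  have e : MulAction.fixedBy (Fin k ↪ Ω) g ≃ (Fin k ↪ {a : Ω // a ∈ Fx Ω g}) :=
    { toFun := fun x => ⟨fun i => ⟨(x : Fin k ↪ Ω) i, by
        rw [mem_Fx]
        have := congrArg (fun y : Fin k ↪ Ω => y i) x.2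
        exact this⟩, fun i j hij => (x : Fin k ↪ Ω).injective (congrArg Subtype.val hij)⟩
      invFun := fun y => ⟨⟨fun i => (y i : Ω), fun i j hij => y.injective (Subtype.ext hij)⟩, by
        rw [MulAction.mem_fixedBy]
        ext i
        exact mem_Fx.1 (y i).2⟩
      left_inv := fun x => rfl
      right_inv := fun y => rfl }
  rw [Fintype.card_congr e, Fintype.card_embedding_eq, Fintype.card_fin, Fintype.card_coe]

/-! ### transitivity on tuples -/

section Tuples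

omit [Fintype G] in
theorem trans4 (ht : MulAction.IsMultiplyPretransitive G Ω 4) {a b c d a' b' c' d' : Ω}
    (h : a ≠ b ∧ a ≠ c ∧ a ≠ d ∧ b ≠ c ∧ b ≠ d ∧ c ≠ d)
    (h' : a' ≠ b' ∧ a' ≠ c' ∧ a' ≠ d' ∧ b' ≠ c' ∧ b' ≠ d' ∧ c' ≠ d') :
    ∃ g : G, g • a = a' ∧ g • b = b' ∧ g • c = c' ∧ g • d = d' := by
  have hinj : ∀ {a b c d : Ω}, (a ≠ b ∧ a ≠ c ∧ a ≠ d ∧ b ≠ c ∧ b ≠ d ∧ c ≠ d) →
      Function.Injective ![a, b, c, d] := by
    rintro a b c d ⟨h1, h2, h3, h4, h5, h6⟩ i j hij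
    fin_cases i <;> fin_cases j <;> simp_all
  obtain ⟨g, hg⟩ := ht.exists_smul_eq ⟨![a, b, c, d], hinj h⟩ ⟨![a', b', c', d'], hinj h'⟩
  have h0 := congrArg (fun y : Fin 4 ↪ Ω => y 0) hg
  have h1 := congrArg (fun y : Fin 4 ↪ Ω => y 1) hg
  have h2 := congrArg (fun y : Fin 4 ↪ Ω => y 2) hg
  have h3 := congrArg (fun y : Fin 4 ↪ Ω => y 3) hg
  exact ⟨g, h0, h1, h2, h3⟩

omit [Fintype G] in
theorem trans3 (ht : MulAction.IsMultiplyPretransitive G Ω 3) {a b c a' b' c' : Ω}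
    (h : a ≠ b ∧ a ≠ c ∧ b ≠ c) (h' : a' ≠ b' ∧ a' ≠ c' ∧ b' ≠ c') :
    ∃ g : G, g • a = a' ∧ g • b = b' ∧ g • c = c' := by
  have hinj : ∀ {a b c : Ω}, (a ≠ b ∧ a ≠ c ∧ b ≠ c) → Function.Injective ![a, b, c] := by
    rintro a b c ⟨h1, h2, h3⟩ i j hij
    fin_cases i <;> fin_cases j <;> simp_all
  obtain ⟨g, hg⟩ := ht.exists_smul_eq ⟨![a, b, c], hinj h⟩ ⟨![a', b', c'], hinj h'⟩
  have h0 := congrArg (fun y : Fin 3 ↪ Ω => y 0) hg
  have h1 := congrArg (fun y : Fin 3 ↪ Ω => y 1) hg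
  have h2 := congrArg (fun y : Fin 3 ↪ Ω => y 2) hg
  exact ⟨g, h0, h1, h2⟩

omit [Fintype G] in
theorem trans2 (ht : MulAction.IsMultiplyPretransitive G Ω 2) {a b a' b' : Ω}
    (h : a ≠ b) (h' : a' ≠ b') : ∃ g : G, g • a = a' ∧ g • b = b' := by
  have hinj : ∀ {a b : Ω}, a ≠ b → Function.Injective ![a, b] := by
    rintro a b h1 i j hij
    fin_cases i <;> fin_cases j <;> simp_all
  obtain ⟨g, hg⟩ := ht.exists_smul_eq ⟨![a, b], hinj h⟩ ⟨![a', b'], hinj h'⟩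
  have h0 := congrArg (fun y : Fin 2 ↪ Ω => y 0) hg
  have h1 := congrArg (fun y : Fin 2 ↪ Ω => y 1) hg
  exact ⟨g, h0, h1⟩

theorem exists_distinct4 (hcard : 4 ≤ Fintype.card Ω) :
    ∃ a b c d : Ω, a ≠ b ∧ a ≠ c ∧ a ≠ d ∧ b ≠ c ∧ b ≠ d ∧ c ≠ d := by
  have hne : Nonempty (Fin 4 ↪ Ω) := by
    apply Function.Embedding.nonempty_of_card_le
    rw [Fintype.card_fin]; exact hcard
  obtain ⟨x⟩ := hne
  refine ⟨x 0, x 1, x 2, x 3, ?_⟩
  simp [x.injective.eq_iff]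

/-- `Σ t = |G|` -/
theorem sum_t (ht : MulAction.IsMultiplyPretransitive G Ω 2) (hcard : 4 ≤ Fintype.card Ω) :
    ∑ g : G, (Tw Ω g).card = Fintype.card G := by
  classical
  obtain ⟨a₀, b₀, c₀, d₀, h0⟩ := exists_distinct4 hcard
  rw [← twist (G := G) (Y := Ω × Ω) (Finset.univ.filter (fun p => p.1 ≠ p.2)) ⟨(a₀, b₀), by simp [h0.1]⟩
    (by
      rintro g ⟨a, b⟩ hp
      simpa using hp) (by
      rintro ⟨a, b⟩ hp ⟨a', b'⟩ hp'
      simp only [Finset.mem_filter, Finset.mem_univ, true_and] at hp hp'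
      obtain ⟨g, h1, h2⟩ := trans2 ht hp hp'
      exact ⟨g, Prod.ext h1 h2⟩) (fun p => (p.2, p.1)) (by
      rintro ⟨a, b⟩ hp
      simp only [Finset.mem_filter, Finset.mem_univ, true_and] at hp ⊢
      exact hp.symm)]
  apply Finset.sum_congr rfl
  intro g _
  refine Finset.card_bij (fun a _ => (a, g • a)) ?_ ?_ ?_
  · intro a ha
    rw [mem_Tw] at ha
    simp only [Finset.mem_filter, Finset.mem_univ, true_and, Prod.smul_mk, Prod.mk.injEq]
    exact ⟨ha.2.symm, ha.1⟩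
  · intro a _ b _ hab
    exact congrArg Prod.fst hab
  · rintro ⟨a, b⟩ hp
    simp only [Finset.mem_filter, Finset.mem_univ, true_and, Prod.smul_mk, Prod.mk.injEq] at hp
    obtain ⟨h1, h2, h3⟩ := hp
    refine ⟨a, ?_, ?_⟩
    · rw [mem_Tw, h2, h3]
      exact ⟨rfl, h1.symm⟩
    · rw [h2]

/-- `Σ t f = |G|` -/
theorem sum_tf (ht : MulAction.IsMultiplyPretransitive G Ω 3) (hcard : 4 ≤ Fintype.card Ω) :
    ∑ g : G, (Tw Ω g).card * (Fx Ω g).card = Fintype.card G := by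
  classical
  obtain ⟨a₀, b₀, c₀, d₀, h0⟩ := exists_distinct4 hcard
  rw [← twist (G := G) (Y := Ω × Ω × Ω)
    (Finset.univ.filter (fun p => p.1 ≠ p.2.1 ∧ p.1 ≠ p.2.2 ∧ p.2.1 ≠ p.2.2)) ⟨(a₀, b₀, c₀), by
      simp only [Finset.mem_filter, Finset.mem_univ, true_and]; exact ⟨h0.1, h0.2.1, h0.2.2.2.1⟩⟩
    (by
      rintro g ⟨a, b, c⟩ hp
      simpa using hp) (by
      rintro ⟨a, b, c⟩ hp ⟨a', b', c'⟩ hp'
      simp only [Finset.mem_filter, Finset.mem_univ, true_and] at hp hp'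
      obtain ⟨g, h1, h2, h3⟩ := trans3 ht hp hp'
      exact ⟨g, Prod.ext h1 (Prod.ext h2 h3)⟩) (fun p => (p.2.1, p.1, p.2.2)) (by
      rintro ⟨a, b, c⟩ hp
      simp only [Finset.mem_filter, Finset.mem_univ, true_and] at hp ⊢
      exact ⟨hp.1.symm, hp.2.2, hp.2.1⟩)]
  apply Finset.sum_congr rfl
  intro g _
  rw [← Finset.card_product]
  refine Finset.card_bij (fun p _ => (p.1, g • p.1, p.2)) ?_ ?_ ?_
  · rintro ⟨a, c⟩ hp
    rw [Finset.mem_product, mem_Tw, mem_Fx] at hp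
    simp only [Finset.mem_filter, Finset.mem_univ, true_and, Prod.smul_mk, Prod.mk.injEq]
    obtain ⟨⟨h1, h2⟩, h3⟩ := hp
    have h1' : g • g • a = a := h1
    have h2' : g • a ≠ a := h2
    have h3' : g • c = c := h3
    refine ⟨⟨h2'.symm, ?_, ?_⟩, h1', h3'⟩
    · rintro rfl; exact h2' h3'
    · intro h
      have h4 : g • a = g • c := by rw [h3']; exact h
      have h5 := smul_left_cancel g h4
      rw [h5] at h2'
      exact h2' h3'
  · rintro ⟨a, c⟩ _ ⟨a', c'⟩ _ hab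
    simp only [Prod.mk.injEq] at hab
    exact Prod.ext hab.1 hab.2.2
  · rintro ⟨a, b, c⟩ hp
    simp only [Finset.mem_filter, Finset.mem_univ, true_and, Prod.smul_mk, Prod.mk.injEq] at hp
    obtain ⟨h1, h2, h3, h4⟩ := hp
    refine ⟨(a, c), ?_, ?_⟩
    · rw [Finset.mem_product, mem_Tw, mem_Fx]
      exact ⟨⟨by show g • g • a = a; rw [h2, h3], by show g • a ≠ a; rw [h2]; exact h1.1.symm⟩, h4⟩
    · show (a, g • a, c) = _
      rw [h2]

/-- `Σ t f (f-1) = |G|` -/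
theorem sum_tff (ht : MulAction.IsMultiplyPretransitive G Ω 4) (hcard : 4 ≤ Fintype.card Ω) :
    ∑ g : G, (Tw Ω g).card * (Fx Ω g).offDiag.card = Fintype.card G := by
  classical
  obtain ⟨a₀, b₀, c₀, d₀, h0⟩ := exists_distinct4 hcard
  rw [← twist (G := G) (Y := Ω × Ω × Ω × Ω)
    (Finset.univ.filter (fun p => p.1 ≠ p.2.1 ∧ p.1 ≠ p.2.2.1 ∧ p.1 ≠ p.2.2.2 ∧ p.2.1 ≠ p.2.2.1 ∧ p.2.1 ≠ p.2.2.2 ∧
      p.2.2.1 ≠ p.2.2.2)) ⟨(a₀, b₀, c₀, d₀), by
      simp only [Finset.mem_filter, Finset.mem_univ, true_and]; exact h0⟩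
    (by
      rintro g ⟨a, b, c, d⟩ hp
      simpa using hp) (by
      rintro ⟨a, b, c, d⟩ hp ⟨a', b', c', d'⟩ hp'
      simp only [Finset.mem_filter, Finset.mem_univ, true_and] at hp hp'
      obtain ⟨g, h1, h2, h3, h4⟩ := trans4 ht hp hp'
      exact ⟨g, Prod.ext h1 (Prod.ext h2 (Prod.ext h3 h4))⟩) (fun p => (p.2.1, p.1, p.2.2.1, p.2.2.2)) (by
      rintro ⟨a, b, c, d⟩ hp
      simp only [Finset.mem_filter, Finset.mem_univ, true_and] at hp ⊢
      exact ⟨hp.1.symm, hp.2.2.2.1, hp.2.2.2.2.1, hp.2.1, hp.2.2.1, hp.2.2.2.2.2⟩)]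
  apply Finset.sum_congr rfl
  intro g _
  rw [← Finset.card_product]
  refine Finset.card_bij (fun p _ => (p.1, g • p.1, p.2.1, p.2.2)) ?_ ?_ ?_
  · rintro ⟨a, c, d⟩ hp
    rw [Finset.mem_product, mem_Tw, Finset.mem_offDiag, mem_Fx, mem_Fx] at hp
    simp only [Finset.mem_filter, Finset.mem_univ, true_and, Prod.smul_mk, Prod.mk.injEq]
    obtain ⟨⟨h1, h2⟩, h3, h4, h5⟩ := hp
    have h1' : g • g • a = a := h1
    have h2' : g • a ≠ a := h2
    have h3' : g • c = c := h3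
    have h4' : g • d = d := h4
    have key : ∀ x : Ω, g • x = x → a ≠ x ∧ g • a ≠ x := by
      intro x hx
      refine ⟨?_, ?_⟩
      · rintro rfl; exact h2' hx
      · intro h
        have h6 : g • a = g • x := by rw [hx]; exact h
        have h7 := smul_left_cancel g h6
        rw [h7] at h2'
        exact h2' hx
    exact ⟨⟨h2'.symm, (key c h3').1, (key d h4').1, (key c h3').2, (key d h4').2, h5⟩, h1', h3', h4'⟩
  · rintro ⟨a, c, d⟩ _ ⟨a', c', d'⟩ _ hab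
    simp only [Prod.mk.injEq] at hab
    exact Prod.ext hab.1 (Prod.ext hab.2.2.1 hab.2.2.2)
  · rintro ⟨a, b, c, d⟩ hp
    simp only [Finset.mem_filter, Finset.mem_univ, true_and, Prod.smul_mk, Prod.mk.injEq] at hp
    obtain ⟨h1, h2, h3, h4, h5⟩ := hp
    refine ⟨(a, c, d), ?_, ?_⟩
    · rw [Finset.mem_product, mem_Tw, Finset.mem_offDiag, mem_Fx, mem_Fx]
      exact ⟨⟨by show g • g • a = a; rw [h2, h3], by show g • a ≠ a; rw [h2]; exact h1.1.symm⟩, h4, h5, h1.2.2.2.2.2⟩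
    · show (a, g • a, c, d) = _
      rw [h2]

/-- `Σ t (t-2) = |G|` -/
theorem sum_tt (ht : MulAction.IsMultiplyPretransitive G Ω 4) (hcard : 4 ≤ Fintype.card Ω) :
    ∑ g : G, ∑ a ∈ Tw Ω g, ((Tw Ω g).filter (fun c => c ≠ a ∧ c ≠ g • a)).card = Fintype.card G := by
  classical
  obtain ⟨a₀, b₀, c₀, d₀, h0⟩ := exists_distinct4 hcard
  rw [← twist (G := G) (Y := Ω × Ω × Ω × Ω)
    (Finset.univ.filter (fun p => p.1 ≠ p.2.1 ∧ p.1 ≠ p.2.2.1 ∧ p.1 ≠ p.2.2.2 ∧ p.2.1 ≠ p.2.2.1 ∧ p.2.1 ≠ p.2.2.2 ∧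
      p.2.2.1 ≠ p.2.2.2)) ⟨(a₀, b₀, c₀, d₀), by
      simp only [Finset.mem_filter, Finset.mem_univ, true_and]; exact h0⟩
    (by
      rintro g ⟨a, b, c, d⟩ hp
      simpa using hp) (by
      rintro ⟨a, b, c, d⟩ hp ⟨a', b', c', d'⟩ hp'
      simp only [Finset.mem_filter, Finset.mem_univ, true_and] at hp hp'
      obtain ⟨g, h1, h2, h3, h4⟩ := trans4 ht hp hp'
      exact ⟨g, Prod.ext h1 (Prod.ext h2 (Prod.ext h3 h4))⟩) (fun p => (p.2.1, p.1, p.2.2.2, p.2.2.1)) (by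
      rintro ⟨a, b, c, d⟩ hp
      simp only [Finset.mem_filter, Finset.mem_univ, true_and] at hp ⊢
      exact ⟨hp.1.symm, hp.2.2.2.2.1, hp.2.2.2.1, hp.2.2.1, hp.2.1, hp.2.2.2.2.2.symm⟩)]
  apply Finset.sum_congr rfl
  intro g _
  rw [← Finset.card_sigma]
  refine Finset.card_bij (fun p _ => (p.1, g • p.1, p.2, g • p.2)) ?_ ?_ ?_
  · rintro ⟨a, c⟩ hp
    rw [Finset.mem_sigma, mem_Tw, Finset.mem_filter, mem_Tw] at hp
    simp only [Finset.mem_filter, Finset.mem_univ, true_and, Prod.smul_mk, Prod.mk.injEq]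
    obtain ⟨⟨h1, h2⟩, ⟨h3, h4⟩, h5, h6⟩ := hp
    have h1' : g • g • a = a := h1
    have h2' : g • a ≠ a := h2
    have h3' : g • g • c = c := h3
    have h4' : g • c ≠ c := h4
    have h5' : c ≠ a := h5
    have h6' : c ≠ g • a := h6
    refine ⟨⟨h2'.symm, h5'.symm, ?_, h6'.symm, ?_, h4'.symm⟩, h1', h3'⟩
    · intro h
      apply h6'
      rw [h, h3']
    · intro h
      exact h5' (smul_left_cancel g h).symm
  · rintro ⟨a, c⟩ _ ⟨a', c'⟩ _ hab
    simp only [Prod.mk.injEq] at hab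
    obtain ⟨h1, -, h3, -⟩ := hab
    subst h1; subst h3; rfl
  · rintro ⟨a, b, c, d⟩ hp
    simp only [Finset.mem_filter, Finset.mem_univ, true_and, Prod.smul_mk, Prod.mk.injEq] at hp
    obtain ⟨h1, h2, h3, h4, h5⟩ := hp
    refine ⟨⟨a, c⟩, ?_, ?_⟩
    · rw [Finset.mem_sigma, mem_Tw, Finset.mem_filter, mem_Tw]
      refine ⟨⟨by show g • g • a = a; rw [h2, h3], by show g • a ≠ a; rw [h2]; exact h1.1.symm⟩,
        ⟨by show g • g • c = c; rw [h4, h5], by show g • c ≠ c; rw [h4]; exact h1.2.2.2.2.2.symm⟩, ?_, ?_⟩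
      · exact h1.2.1.symm
      · show c ≠ g • a
        rw [h2]; exact h1.2.2.2.1.symm
    · show (a, g • a, c, g • c) = _
      rw [h2, h4]

theorem card_filter_tw (g : G) {a : Ω} (ha : a ∈ Tw Ω g) :
    ((Tw Ω g).filter (fun c => c ≠ a ∧ c ≠ g • a)).card + 2 = (Tw Ω g).card := by
  have hga : g • a ∈ Tw Ω g := by
    rw [mem_Tw] at ha ⊢
    refine ⟨by rw [ha.1], ?_⟩
    intro h
    exact ha.2 (smul_left_cancel g h)
  have hne : g • a ≠ a := (mem_Tw.1 ha).2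
  have h1 : (Tw Ω g).filter (fun c => c ≠ a ∧ c ≠ g • a) = ((Tw Ω g).erase a).erase (g • a) := by
    ext c
    simp only [Finset.mem_filter, Finset.mem_erase]
    tauto
  rw [h1, Finset.card_erase_of_mem (Finset.mem_erase.2 ⟨hne, hga⟩), Finset.card_erase_of_mem ha]
  have h2 : 1 < (Tw Ω g).card := Finset.one_lt_card.2 ⟨a, ha, g • a, hga, hne.symm⟩
  omega

end Tuples

end Cfsg.Agent.Lib.H76Four
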