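import Cfsg.Agent.Lib.H76Four

set_option autoImplicit false

/-!
Irreducible characters of 4-transitive groups, part 2 (helper76), used by S4560.
-/

namespace Cfsg.Agent.Lib.H76Four

open scoped ComplexConjugate
open Cfsg Cfsg.Agent.Lib Cfsg.Agent.Lib.CharBasic

universe u v

theorem df2 (n : ℕ) : ((n.descFactorial 2 : ℕ) : ℂ) = (n : ℂ) ^ 2 - n := by
  rcases n with _ | n
  · simp
  · simp only [Nat.descFactorial_succ, Nat.descFactorial_zero]
    push_cast
    simp
    ring

theorem df3 (n : ℕ) : ((n.descFactorial 3 : ℕ) : ℂ) = (n : ℂ) ^ 3 - 3 * (n : ℂ) ^ 2 + 2 * n := by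
  rcases n with _ | _ | n
  · simp
  · norm_num
  · have h : (n + 1 + 1).descFactorial 3 = (n + 2) * (n + 1) * n := by
      simp only [Nat.descFactorial_succ, Nat.descFactorial_zero, Nat.sub_zero]
      have e1 : n + 1 + 1 - 2 = n := by omega
      have e2 : n + 1 + 1 - 1 = n + 1 := by omega
      rw [e1, e2]; ring
    rw [h]; push_cast; ring

theorem df4 (n : ℕ) : ((n.descFactorial 4 : ℕ) : ℂ) = (n : ℂ) ^ 4 - 6 * (n : ℂ) ^ 3 + 11 * (n : ℂ) ^ 2 - 6 * n := by
  rcases n with _ | _ | _ | n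
  · simp
  · norm_num
  · norm_num
  · have h : (n + 1 + 1 + 1).descFactorial 4 = (n + 3) * (n + 2) * (n + 1) * n := by
      simp only [Nat.descFactorial_succ, Nat.descFactorial_zero, Nat.sub_zero]
      have e1 : n + 1 + 1 + 1 - 3 = n := by omega
      have e2 : n + 1 + 1 + 1 - 2 = n + 1 := by omega
      have e3 : n + 1 + 1 + 1 - 1 = n + 2 := by omega
      rw [e1, e2, e3]; ring
    rw [h]; push_cast; ring

variable {G : Type u} [Group G] [Fintype G] {Ω : Type v} [Fintype Ω] [DecidableEq Ω] [MulAction G Ω]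

/-- the moments -/
structure Moments (G : Type u) [Group G] [Fintype G] (Ω : Type v) [Fintype Ω] [DecidableEq Ω] [MulAction G Ω] : Prop where
  f1 : ∑ g : G, ((Fx Ω g).card : ℂ) = Fintype.card G
  f2 : ∑ g : G, ((Fx Ω g).card : ℂ) ^ 2 = 2 * Fintype.card G
  f3 : ∑ g : G, ((Fx Ω g).card : ℂ) ^ 3 = 5 * Fintype.card G
  f4 : ∑ g : G, ((Fx Ω g).card : ℂ) ^ 4 = 15 * Fintype.card G
  t1 : ∑ g : G, ((Tw Ω g).card : ℂ) = Fintype.card G
  tf : ∑ g : G, ((Tw Ω g).card : ℂ) * ((Fx Ω g).card : ℂ) = Fintype.card G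
  tff : ∑ g : G, ((Tw Ω g).card : ℂ) * ((Fx Ω g).card : ℂ) ^ 2 = 2 * Fintype.card G
  tt : ∑ g : G, ((Tw Ω g).card : ℂ) ^ 2 = 3 * Fintype.card G

theorem moments (ht : MulAction.IsMultiplyPretransitive G Ω 4) (hcard : 4 ≤ Fintype.card Ω) : Moments G Ω := by
  have hle : ∀ m : ℕ, m ≤ 4 → MulAction.IsMultiplyPretransitive G Ω m := fun m hm =>
    MulAction.isMultiplyPretransitive_of_le (n := 4) hm (by rw [Nat.card_eq_fintype_card]; exact hcard)
  have h1 : ∑ g : G, ((Fx Ω g).card : ℂ) = Fintype.card G := by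
    have h := sum_descFactorial (G := G) (Ω := Ω) 1 (hle 1 (by omega)) (by omega)
    simp only [Nat.descFactorial_one] at h
    exact_mod_cast h
  have h2 : ∑ g : G, ((Fx Ω g).card : ℂ) ^ 2 = 2 * Fintype.card G := by
    have h := congrArg (fun n : ℕ => (n : ℂ)) (sum_descFactorial (G := G) (Ω := Ω) 2 (hle 2 (by omega)) (by omega))
    push_cast at h
    simp only [df2, Finset.sum_sub_distrib, h1] at h
    linear_combination h
  have h3 : ∑ g : G, ((Fx Ω g).card : ℂ) ^ 3 = 5 * Fintype.card G := by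
    have h := congrArg (fun n : ℕ => (n : ℂ)) (sum_descFactorial (G := G) (Ω := Ω) 3 (hle 3 (by omega)) (by omega))
    push_cast at h
    simp only [df3, Finset.sum_sub_distrib, Finset.sum_add_distrib, ← Finset.mul_sum, h1, h2] at h
    linear_combination h
  have h4 : ∑ g : G, ((Fx Ω g).card : ℂ) ^ 4 = 15 * Fintype.card G := by
    have h := congrArg (fun n : ℕ => (n : ℂ)) (sum_descFactorial (G := G) (Ω := Ω) 4 (hle 4 (by omega)) (by omega))
    push_cast at h
    simp only [df4, Finset.sum_sub_distrib, Finset.sum_add_distrib, ← Finset.mul_sum, h1, h2, h3] at h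
    linear_combination h
  have h5 : ∑ g : G, ((Tw Ω g).card : ℂ) = Fintype.card G := by
    have h := sum_t (G := G) (Ω := Ω) (hle 2 (by omega)) hcard
    exact_mod_cast h
  have h6 : ∑ g : G, ((Tw Ω g).card : ℂ) * ((Fx Ω g).card : ℂ) = Fintype.card G := by
    have h := sum_tf (G := G) (Ω := Ω) (hle 3 (by omega)) hcard
    exact_mod_cast h
  have h7 : ∑ g : G, ((Tw Ω g).card : ℂ) * ((Fx Ω g).card : ℂ) ^ 2 = 2 * Fintype.card G := by
    have h := congrArg (fun n : ℕ => (n : ℂ)) (sum_tff (G := G) (Ω := Ω) ht hcard)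
    push_cast at h
    have h0 : ∀ g : G, ((Tw Ω g).card : ℂ) * ((Fx Ω g).offDiag.card : ℂ) =
        ((Tw Ω g).card : ℂ) * ((Fx Ω g).card : ℂ) ^ 2 - ((Tw Ω g).card : ℂ) * ((Fx Ω g).card : ℂ) := by
      intro g
      rw [Finset.offDiag_card, Nat.cast_sub (Nat.le_mul_self _)]
      push_cast
      ring
    rw [Finset.sum_congr rfl (fun g _ => h0 g), Finset.sum_sub_distrib, h6] at h
    linear_combination h
  have h8 : ∑ g : G, ((Tw Ω g).card : ℂ) ^ 2 = 3 * Fintype.card G := by
    have h := congrArg (fun n : ℕ => (n : ℂ)) (sum_tt (G := G) (Ω := Ω) ht hcard)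
    push_cast at h
    have h0 : ∀ g : G, ∑ a ∈ Tw Ω g, (((Tw Ω g).filter (fun c => c ≠ a ∧ c ≠ g • a)).card : ℂ) =
        ((Tw Ω g).card : ℂ) ^ 2 - 2 * ((Tw Ω g).card : ℂ) := by
      intro g
      have h01 : ∀ a ∈ Tw Ω g, (((Tw Ω g).filter (fun c => c ≠ a ∧ c ≠ g • a)).card : ℂ) = ((Tw Ω g).card : ℂ) - 2 := by
        intro a ha
        have := card_filter_tw g ha
        rw [← this]; push_cast; ring
      rw [Finset.sum_congr rfl h01, Finset.sum_const, nsmul_eq_mul]
      ring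
    rw [Finset.sum_congr rfl (fun g _ => h0 g), Finset.sum_sub_distrib, ← Finset.mul_sum, h5] at h
    linear_combination h
  exact ⟨h1, h2, h3, h4, h5, h6, h7, h8⟩

/-- action on unordered pairs -/
@[reducible] def actSym2 (G : Type u) [Group G] (Ω : Type v) [MulAction G Ω] : MulAction G (Sym2 Ω) where
  smul g z := z.map (fun a => g • a)
  one_smul z := by
    show z.map (fun a => (1 : G) • a) = z
    simp only [one_smul]
    exact congrFun Sym2.map_id' z
  mul_smul g h z := by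
    show z.map (fun a => (g * h) • a) = (z.map (fun a => h • a)).map (fun a => g • a)
    rw [Sym2.map_map]
    congr 1
    funext a
    exact mul_smul g h a

theorem card_fixed_sym2 (g : G) :
    2 * (Finset.univ.filter (fun z : Sym2 Ω => z.map (fun a => g • a) = z)).card =
      (Fx Ω g).card ^ 2 + (Fx Ω g).card + (Tw Ω g).card := by
  classical
  set S := Finset.univ.filter (fun z : Sym2 Ω => z.map (fun a => g • a) = z) with hS
  set A := Finset.univ.filter (fun p : Ω × Ω => s(g • p.1, g • p.2) = s(p.1, p.2)) with hA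
  have hAS : ∀ p ∈ A, s(p.1, p.2) ∈ S := by
    intro p hp
    rw [hA, Finset.mem_filter] at hp
    rw [hS, Finset.mem_filter]
    exact ⟨Finset.mem_univ _, hp.2⟩
  have h1 := Finset.card_eq_sum_card_fiberwise (f := fun p : Ω × Ω => s(p.1, p.2)) (s := A) (t := S) hAS
  have h2 : ∀ z ∈ S, (A.filter (fun p => s(p.1, p.2) = z)).card + (if z.IsDiag then 1 else 0) = 2 := by
    intro z
    induction z using Sym2.ind with
    | h a b =>
      intro hz
      rw [hS, Finset.mem_filter] at hz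
      have hz2 : s(g • a, g • b) = s(a, b) := hz.2
      have hfib : A.filter (fun p => s(p.1, p.2) = s(a, b)) = {(a, b), (b, a)} := by
        ext ⟨c, d⟩
        simp only [hA, Finset.mem_filter, Finset.mem_univ, true_and, Finset.mem_insert, Finset.mem_singleton,
          Prod.mk.injEq]
        constructor
        · rintro ⟨-, h⟩
          exact Sym2.eq_iff.1 h
        · rintro (⟨rfl, rfl⟩ | ⟨rfl, rfl⟩)
          · exact ⟨hz2, rfl⟩
          · refine ⟨?_, Sym2.eq_swap⟩
            rw [Sym2.eq_swap, hz2, Sym2.eq_swap]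
      rw [hfib]
      by_cases hab : a = b
      · subst hab
        simp
      · rw [Finset.card_pair (by simp [hab]), if_neg (by simpa using hab)]
  have h3 : A.card + (S.filter (fun z => z.IsDiag)).card = 2 * S.card := by
    rw [h1, Finset.card_filter, ← Finset.sum_add_distrib, Finset.sum_congr rfl h2, Finset.sum_const, smul_eq_mul, mul_comm]
  have h4 : (S.filter (fun z => z.IsDiag)).card = (Fx Ω g).card := by
    symm
    refine Finset.card_bij (fun a _ => s(a, a)) ?_ ?_ ?_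
    · intro a ha
      rw [mem_Fx] at ha
      rw [Finset.mem_filter, hS, Finset.mem_filter]
      refine ⟨⟨Finset.mem_univ _, ?_⟩, by simp⟩
      show s(g • a, g • a) = s(a, a)
      rw [ha]
    · intro a _ b _ hab
      have := Sym2.eq_iff.1 hab
      tauto
    · intro z hz
      rw [Finset.mem_filter, hS, Finset.mem_filter] at hz
      induction z using Sym2.ind with
      | h a b =>
        obtain ⟨⟨-, h5⟩, h6⟩ := hz
        have h7 : a = b := by simpa using h6
        subst h7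
        have h8 : s(g • a, g • a) = s(a, a) := h5
        refine ⟨a, ?_, rfl⟩
        rw [mem_Fx]
        have := Sym2.eq_iff.1 h8
        tauto
  have h5 : A = (Fx Ω g ×ˢ Fx Ω g) ∪ (Tw Ω g).image (fun a => (a, g • a)) := by
    ext ⟨a, b⟩
    simp only [hA, Finset.mem_filter, Finset.mem_univ, true_and, Finset.mem_union, Finset.mem_product, mem_Fx,
      Finset.mem_image, mem_Tw, Prod.mk.injEq]
    constructor
    · intro h
      rcases Sym2.eq_iff.1 h with ⟨h1, h2⟩ | ⟨h1, h2⟩
      · left; exact ⟨h1, h2⟩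
      · by_cases hab : a = b
        · subst hab
          left; exact ⟨h1, h1⟩
        · right
          refine ⟨a, ⟨?_, ?_⟩, rfl, h1⟩
          · rw [h1, h2]
          · rw [h1]; exact fun h => hab h.symm
    · rintro (⟨h1, h2⟩ | ⟨c, ⟨h1, h2⟩, rfl, h3⟩)
      · rw [h1, h2]
      · rw [← h3, h1, Sym2.eq_swap]
  have h6 : Disjoint (Fx Ω g ×ˢ Fx Ω g) ((Tw Ω g).image (fun a => (a, g • a))) := by
    rw [Finset.disjoint_left]
    rintro ⟨a, b⟩ h1 h2
    rw [Finset.mem_product, mem_Fx] at h1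
    rw [Finset.mem_image] at h2
    obtain ⟨c, hc, hc2⟩ := h2
    rw [Prod.mk.injEq] at hc2
    rw [mem_Tw] at hc
    apply hc.2
    rw [hc2.1]
    exact h1.1
  have h7 : A.card = (Fx Ω g).card ^ 2 + (Tw Ω g).card := by
    rw [h5, Finset.card_union_of_disjoint h6, Finset.card_product, Finset.card_image_of_injective]
    · ring
    · intro a b hab
      exact congrArg Prod.fst hab
  rw [← h3, h4, h7]
  ring

/-- the permutation character -/
noncomputable def pc (Ω : Type v) [Fintype Ω] [DecidableEq Ω] [MulAction G Ω] (g : G) : ℂ := ((Fx Ω g).card : ℂ)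

noncomputable def tc (Ω : Type v) [Fintype Ω] [DecidableEq Ω] [MulAction G Ω] (g : G) : ℂ := ((Tw Ω g).card : ℂ)

theorem isCharacter_pc : IsCharacter G (pc (G := G) Ω) := by
  have h := isCharacter_perm (G := G) (X := Ω)
  have h1 : (fun g : G => (Nat.card (MulAction.fixedBy Ω g) : ℂ)) = pc Ω := by
    funext g
    rw [pc, Nat.card_eq_fintype_card]
    congr 1
    rw [Fx, ← Fintype.card_subtype]
    rfl
  rwa [h1] at h

theorem isCharacter_sym : IsCharacter G (fun g => (pc Ω g ^ 2 + pc Ω g + tc Ω g) / 2) := by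
  classical
  let _ := actSym2 G Ω
  have h := isCharacter_perm (G := G) (X := Sym2 Ω)
  have h1 : (fun g : G => (Nat.card (MulAction.fixedBy (Sym2 Ω) g) : ℂ)) =
      fun g => (pc Ω g ^ 2 + pc Ω g + tc Ω g) / 2 := by
    funext g
    have h2 := card_fixed_sym2 (G := G) (Ω := Ω) g
    have h3 : Nat.card (MulAction.fixedBy (Sym2 Ω) g) =
        (Finset.univ.filter (fun z : Sym2 Ω => z.map (fun a => g • a) = z)).card := by
      rw [Nat.card_eq_fintype_card, ← Fintype.card_subtype]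
      rfl
    have h4 : (2 : ℂ) * (Nat.card (MulAction.fixedBy (Sym2 Ω) g) : ℂ) = pc Ω g ^ 2 + pc Ω g + tc Ω g := by
      rw [h3, pc, tc]
      exact_mod_cast h2
    rw [← h4]
    ring
  rwa [h1] at h

theorem Fx_one : (Fx Ω (1 : G)).card = Fintype.card Ω := by
  have : Fx Ω (1 : G) = Finset.univ := by
    ext a
    simp [mem_Fx]
  rw [this, Finset.card_univ]

theorem Tw_one : (Tw Ω (1 : G)).card = 0 := by
  rw [Finset.card_eq_zero]
  ext a
  simp [mem_Tw]

theorem irr1 (ht : MulAction.IsMultiplyPretransitive G Ω 4) (hcard : 4 ≤ Fintype.card Ω) :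
    IsIrrCharacter G (fun g => pc Ω g - 1) := by
  have hm := moments ht hcard
  have hcG : (Fintype.card G : ℂ) ≠ 0 := by exact_mod_cast Fintype.card_ne_zero
  apply IsGeneralizedCharacter.irr_of_norm_one
  · exact (isCharacter_pc.isGeneralized.sub isIrrCharacter_fun_one.isGeneralized)
  · rw [classInner_def, Nat.card_eq_fintype_card]
    have h1 : ∀ g : G, (pc Ω g - 1) * conj (pc Ω g - 1) = pc Ω g ^ 2 - 2 * pc Ω g + 1 := by
      intro g
      simp only [pc, map_sub, map_natCast, map_one]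
      ring
    rw [Finset.sum_congr rfl (fun g _ => h1 g)]
    simp only [pc]
    rw [Finset.sum_add_distrib, Finset.sum_sub_distrib, ← Finset.mul_sum, hm.f1, hm.f2, Finset.sum_const,
      Finset.card_univ, nsmul_eq_mul]
    field_simp
    ring
  · simp only [pc, Fx_one]
    simp
    omega

theorem irr2 (ht : MulAction.IsMultiplyPretransitive G Ω 4) (hcard : 4 ≤ Fintype.card Ω) :
    IsIrrCharacter G (fun g => (pc Ω g ^ 2 - 3 * pc Ω g + tc Ω g) / 2) := by
  have hm := moments ht hcard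
  have hcG : (Fintype.card G : ℂ) ≠ 0 := by exact_mod_cast Fintype.card_ne_zero
  apply IsGeneralizedCharacter.irr_of_norm_one
  · have h1 := (isCharacter_sym (G := G) (Ω := Ω)).isGeneralized.sub
      ((isCharacter_pc (G := G) (Ω := Ω)).isGeneralized.add (isCharacter_pc (G := G) (Ω := Ω)).isGeneralized)
    have h2 : ((fun g => (pc Ω g ^ 2 + pc Ω g + tc Ω g) / 2) - (pc Ω + pc Ω) : G → ℂ) =
        fun g => (pc Ω g ^ 2 - 3 * pc Ω g + tc Ω g) / 2 := by
      funext g
      simp only [Pi.sub_apply, Pi.add_apply]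
      ring
    rwa [h2] at h1
  · rw [classInner_def, Nat.card_eq_fintype_card]
    have h1 : ∀ g : G, ((pc Ω g ^ 2 - 3 * pc Ω g + tc Ω g) / 2) * conj ((pc Ω g ^ 2 - 3 * pc Ω g + tc Ω g) / 2) =
        ((pc Ω g ^ 4 - 6 * pc Ω g ^ 3 + 9 * pc Ω g ^ 2) + (2 * (tc Ω g * pc Ω g ^ 2) - 6 * (tc Ω g * pc Ω g)) + tc Ω g ^ 2) / 4 := by
      intro g
      simp only [pc, tc, map_sub, map_add, map_mul, map_pow, map_natCast, map_div₀, map_ofNat]
      ring
    rw [Finset.sum_congr rfl (fun g _ => h1 g), ← Finset.sum_div]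
    simp only [pc, tc]
    rw [Finset.sum_add_distrib, Finset.sum_add_distrib, Finset.sum_add_distrib, Finset.sum_sub_distrib, Finset.sum_sub_distrib,
      ← Finset.mul_sum, ← Finset.mul_sum, ← Finset.mul_sum, ← Finset.mul_sum, hm.f2, hm.f3, hm.f4, hm.tf, hm.tff, hm.tt]
    field_simp
    ring
  · simp only [pc, tc, Fx_one, Tw_one]
    have h4 : (4 : ℝ) ≤ (Fintype.card Ω : ℝ) := by exact_mod_cast hcard
    have h5 : (((Fintype.card Ω : ℂ) ^ 2 - 3 * (Fintype.card Ω : ℂ) + ((0 : ℕ) : ℂ)) / 2).re =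
        ((Fintype.card Ω : ℝ) ^ 2 - 3 * (Fintype.card Ω : ℝ)) / 2 := by
      have : (((Fintype.card Ω : ℂ) ^ 2 - 3 * (Fintype.card Ω : ℂ) + ((0 : ℕ) : ℂ)) / 2) =
        ((((Fintype.card Ω : ℝ) ^ 2 - 3 * (Fintype.card Ω : ℝ)) / 2 : ℝ) : ℂ) := by push_cast; ring
      rw [this, Complex.ofReal_re]
    rw [h5]
    nlinarith

theorem irr3 (ht : MulAction.IsMultiplyPretransitive G Ω 4) (hcard : 4 ≤ Fintype.card Ω) :
    IsIrrCharacter G (fun g => (pc Ω g ^ 2 - 3 * pc Ω g + 2 - tc Ω g) / 2) := by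
  have hm := moments ht hcard
  have hcG : (Fintype.card G : ℂ) ≠ 0 := by exact_mod_cast Fintype.card_ne_zero
  apply IsGeneralizedCharacter.irr_of_norm_one
  · have h1 := (((isCharacter_pc (G := G) (Ω := Ω)).isGeneralized.mul (isCharacter_pc (G := G) (Ω := Ω)).isGeneralized).sub
      ((isCharacter_sym (G := G) (Ω := Ω)).isGeneralized.add (isCharacter_pc (G := G) (Ω := Ω)).isGeneralized)).add
      (isIrrCharacter_fun_one (G := G)).isGeneralized
    have h2 : (pc Ω * pc Ω - ((fun g => (pc Ω g ^ 2 + pc Ω g + tc Ω g) / 2) + pc Ω) + (fun _ => 1) : G → ℂ) =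
        fun g => (pc Ω g ^ 2 - 3 * pc Ω g + 2 - tc Ω g) / 2 := by
      funext g
      simp only [Pi.sub_apply, Pi.add_apply, Pi.mul_apply]
      ring
    rwa [h2] at h1
  · rw [classInner_def, Nat.card_eq_fintype_card]
    have h1 : ∀ g : G, ((pc Ω g ^ 2 - 3 * pc Ω g + 2 - tc Ω g) / 2) * conj ((pc Ω g ^ 2 - 3 * pc Ω g + 2 - tc Ω g) / 2) =
        ((pc Ω g ^ 4 - 6 * pc Ω g ^ 3 + 13 * pc Ω g ^ 2) + (6 * (tc Ω g * pc Ω g) - 2 * (tc Ω g * pc Ω g ^ 2)) +
          (tc Ω g ^ 2 - 4 * tc Ω g) + (4 - 12 * pc Ω g)) / 4 := by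
      intro g
      simp only [pc, tc, map_sub, map_add, map_mul, map_pow, map_natCast, map_div₀, map_ofNat]
      ring
    rw [Finset.sum_congr rfl (fun g _ => h1 g), ← Finset.sum_div]
    simp only [pc, tc]
    rw [Finset.sum_add_distrib, Finset.sum_add_distrib, Finset.sum_add_distrib, Finset.sum_add_distrib,
      Finset.sum_sub_distrib, Finset.sum_sub_distrib, Finset.sum_sub_distrib, Finset.sum_sub_distrib,
      ← Finset.mul_sum, ← Finset.mul_sum, ← Finset.mul_sum, ← Finset.mul_sum, ← Finset.mul_sum, ← Finset.mul_sum,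
      hm.f1, hm.f2, hm.f3, hm.f4, hm.tf, hm.tff, hm.tt, hm.t1, Finset.sum_const, Finset.card_univ, nsmul_eq_mul]
    field_simp
    ring
  · simp only [pc, tc, Fx_one, Tw_one]
    have h4 : (4 : ℝ) ≤ (Fintype.card Ω : ℝ) := by exact_mod_cast hcard
    have h5 : (((Fintype.card Ω : ℂ) ^ 2 - 3 * (Fintype.card Ω : ℂ) + 2 - ((0 : ℕ) : ℂ)) / 2).re =
        ((Fintype.card Ω : ℝ) ^ 2 - 3 * (Fintype.card Ω : ℝ) + 2) / 2 := by
      have : (((Fintype.card Ω : ℂ) ^ 2 - 3 * (Fintype.card Ω : ℂ) + 2 - ((0 : ℕ) : ℂ)) / 2) =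
        ((((Fintype.card Ω : ℝ) ^ 2 - 3 * (Fintype.card Ω : ℝ) + 2) / 2 : ℝ) : ℂ) := by push_cast; ring
      rw [this, Complex.ofReal_re]
    rw [h5]
    nlinarith

end Cfsg.Agent.Lib.H76Four
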