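import Cfsg.Agent.Lib.H76Alg4
import Mathlib.LinearAlgebra.Eigenspace.Triangularizable

/-!
# Graded symmetric algebras generated in degree one: duality
-/

set_option autoImplicit false
set_option linter.all false

namespace Cfsg.Agent.Lib.H76GS

open Module

universe u v

variable {k : Type v} [Field k] {S : Type u} [Ring S] [Algebra k S]

/-- left multiples -/
def lv (v : S) (X : Submodule k S) : Submodule k S := X.map (LinearMap.mulLeft k v)

/-- right multiples -/
def rv (v : S) (X : Submodule k S) : Submodule k S := X.map (LinearMap.mulRight k v)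

theorem mem_lv {v : S} {X : Submodule k S} {z : S} : z ∈ lv v X ↔ ∃ x ∈ X, v * x = z := by
  unfold lv
  rw [Submodule.mem_map]
  rfl

theorem mem_rv {v : S} {X : Submodule k S} {z : S} : z ∈ rv v X ↔ ∃ x ∈ X, x * v = z := by
  unfold rv
  rw [Submodule.mem_map]
  rfl

theorem mul_mem_lv {v : S} {X : Submodule k S} {x : S} (hx : x ∈ X) : v * x ∈ lv v X := mem_lv.2 ⟨x, hx, rfl⟩

theorem mul_mem_rv {v : S} {X : Submodule k S} {x : S} (hx : x ∈ X) : x * v ∈ rv v X := mem_rv.2 ⟨x, hx, rfl⟩

theorem lv_mono {v : S} {X Y : Submodule k S} (h : X ≤ Y) : lv v X ≤ lv v Y := Submodule.map_mono h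

theorem lv_le_mul {v : S} {X Y : Submodule k S} (hv : v ∈ Y) : lv v X ≤ Y * X := by
  intro z hz
  obtain ⟨x, hx, rfl⟩ := mem_lv.1 hz
  exact Submodule.mul_mem_mul hv hx

theorem rv_le_mul {v : S} {X Y : Submodule k S} (hv : v ∈ Y) : rv v X ≤ X * Y := by
  intro z hz
  obtain ⟨x, hx, rfl⟩ := mem_rv.1 hz
  exact Submodule.mul_mem_mul hx hv

theorem lv_mul (v : S) (X Y : Submodule k S) : lv v (X * Y) = lv v X * Y := by
  apply le_antisymm
  · intro z hz
    obtain ⟨x, hx, rfl⟩ := mem_lv.1 hz
    induction hx using Submodule.mul_induction_on' with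
    | mem_mul_mem a ha b hb =>
      rw [← mul_assoc]
      exact Submodule.mul_mem_mul (mul_mem_lv ha) hb
    | add a ha b hb h1 h2 =>
      rw [mul_add]
      exact Submodule.add_mem _ (h1 (mul_mem_lv ha)) (h2 (mul_mem_lv hb))
  · rw [Submodule.mul_le]
    intro a ha b hb
    obtain ⟨x, hx, rfl⟩ := mem_lv.1 ha
    rw [mul_assoc]
    exact mul_mem_lv (Submodule.mul_mem_mul hx hb)

theorem rv_mul (v : S) (X Y : Submodule k S) : rv v (X * Y) = X * rv v Y := by
  apply le_antisymm
  · intro z hz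
    obtain ⟨x, hx, rfl⟩ := mem_rv.1 hz
    induction hx using Submodule.mul_induction_on' with
    | mem_mul_mem a ha b hb =>
      rw [mul_assoc]
      exact Submodule.mul_mem_mul ha (mul_mem_rv hb)
    | add a ha b hb h1 h2 =>
      rw [add_mul]
      exact Submodule.add_mem _ (h1 (mul_mem_rv ha)) (h2 (mul_mem_rv hb))
  · rw [Submodule.mul_le]
    intro a ha b hb
    obtain ⟨x, hx, rfl⟩ := mem_rv.1 hb
    rw [← mul_assoc]
    exact mul_mem_rv (Submodule.mul_mem_mul ha hx)

theorem lv_span (ξ : S) (X : Submodule k S) : Submodule.span k {ξ} * X = lv ξ X := by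
  apply le_antisymm
  · rw [Submodule.mul_le]
    intro a ha b hb
    obtain ⟨c, rfl⟩ := Submodule.mem_span_singleton.1 ha
    rw [smul_mul_assoc]
    exact Submodule.smul_mem _ _ (mul_mem_lv hb)
  · exact lv_le_mul (Submodule.mem_span_singleton_self ξ)

/-- rank-nullity for a submodule -/
theorem finrank_map_add {X : Submodule k S} [FiniteDimensional k X] (f : S →ₗ[k] S) :
    finrank k (X.map f) + finrank k (X ⊓ LinearMap.ker f : Submodule k S) = finrank k X := by
  have h1 := LinearMap.finrank_range_add_finrank_ker (f.domRestrict X)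
  have h2 : LinearMap.range (f.domRestrict X) = X.map f := by
    rw [LinearMap.range_domRestrict]
  have h3 : finrank k (LinearMap.ker (f.domRestrict X)) = finrank k (X ⊓ LinearMap.ker f : Submodule k S) := by
    have : (LinearMap.ker (f.domRestrict X)).map X.subtype = X ⊓ LinearMap.ker f := by
      rw [LinearMap.ker_domRestrict, Submodule.map_comap_subtype]
    rw [← Submodule.finrank_map_subtype_eq X (LinearMap.ker (f.domRestrict X)), this]
  rw [← h2, ← h3]
  exact h1

/-- graded symmetric algebras generated in degree one -/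
structure GS (V : Submodule k S) (lam : S →ₗ[k] k) (m : ℕ) : Prop where
  fg : V.FG
  tr : ∀ a b, lam (a * b) = lam (b * a)
  nd : ∀ i j, i + j = m → ∀ a ∈ V ^ i, (∀ b ∈ V ^ j, lam (a * b) = 0) → a = 0

variable {V : Submodule k S} {lam : S →ₗ[k] k} {m : ℕ}

theorem GS.fin (h : GS V lam m) (i : ℕ) : FiniteDimensional k (V ^ i : Submodule k S) :=
  Module.Finite.iff_fg.2 (h.fg.pow i)

theorem fin_of_le {X Y : Submodule k S} (h : X ≤ Y) [FiniteDimensional k Y] : FiniteDimensional k X :=
  Submodule.finiteDimensional_of_le h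

/-- orthogonal subspaces -/
theorem GS.ann (h : GS V lam m) {i j : ℕ} (hij : i + j = m) {U U' : Submodule k S} (hU : U ≤ V ^ i)
    (hU' : U' ≤ V ^ j) (ho : ∀ a ∈ U, ∀ b ∈ U', lam (a * b) = 0) :
    finrank k U + finrank k U' ≤ finrank k (V ^ i : Submodule k S) := by
  have := h.fin i
  have := h.fin j
  have : FiniteDimensional k U := fin_of_le hU
  have : FiniteDimensional k U' := fin_of_le hU'
  -- the map to the dual
  let Ψ : U' →ₗ[k] Dual k (V ^ i : Submodule k S) :=
    { toFun := fun b => (lam ∘ₗ LinearMap.mulRight k (b : S)) ∘ₗ (V ^ i : Submodule k S).subtype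
      map_add' := by
        intro b c
        ext a
        show lam ((a : S) * ((b : S) + (c : S))) = lam ((a : S) * b) + lam ((a : S) * c)
        rw [mul_add, map_add]
      map_smul' := by
        intro c b
        ext a
        show lam ((a : S) * (c • (b : S))) = c • lam ((a : S) * b)
        rw [mul_smul_comm, map_smul] }
  have hinj : Function.Injective Ψ := by
    rw [← LinearMap.ker_eq_bot, LinearMap.ker_eq_bot']
    intro b hb
    apply Subtype.ext
    apply h.nd j i (by omega) _ (hU' b.2)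
    intro a ha
    rw [h.tr]
    have := LinearMap.congr_fun hb ⟨a, ha⟩
    exact this
  have hle : LinearMap.range Ψ ≤ (U.comap (V ^ i : Submodule k S).subtype).dualAnnihilator := by
    rintro _ ⟨b, rfl⟩
    rw [Submodule.mem_dualAnnihilator]
    intro a ha
    exact ho _ (Submodule.mem_comap.1 ha) _ b.2
  have h1 := Submodule.finrank_mono hle
  rw [LinearMap.finrank_range_of_inj hinj] at h1
  have h2 := Subspace.finrank_add_finrank_dualAnnihilator_eq (U.comap (V ^ i : Submodule k S).subtype)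
  have h3 : finrank k (U.comap (V ^ i : Submodule k S).subtype) = finrank k U := by
    rw [← Submodule.finrank_map_subtype_eq, Submodule.map_comap_subtype, inf_eq_right.2 hU]
  omega

theorem GS.finrank_le (h : GS V lam m) {i j : ℕ} (hij : i + j = m) :
    finrank k (V ^ j : Submodule k S) ≤ finrank k (V ^ i : Submodule k S) := by
  have h1 := h.ann hij (U := ⊥) (U' := V ^ j) bot_le le_rfl (by
    intro a ha b _
    rw [(Submodule.mem_bot k).1 ha, zero_mul, map_zero])
  rw [finrank_bot] at h1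
  omega

theorem GS.finrank_symm (h : GS V lam m) {i j : ℕ} (hij : i + j = m) :
    finrank k (V ^ i : Submodule k S) = finrank k (V ^ j : Submodule k S) :=
  le_antisymm (h.finrank_le (by omega)) (h.finrank_le hij)

theorem pow_mul_le {i j l : ℕ} (hl : i + j = l) : V ^ i * V ^ j ≤ V ^ l := by
  rw [← pow_add, hl]

/-- left rank = right rank -/
theorem GS.rank_symm (h : GS V lam m) {i j l : ℕ} (hijl : i + j + l = m) {y : S} (hy : y ∈ V ^ i) :
    finrank k (lv y (V ^ j)) = finrank k (rv y (V ^ l)) := by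
  have := h.fin j
  have := h.fin l
  apply le_antisymm
  · have h1 : finrank k (rv y (V ^ l)) + finrank k (V ^ l ⊓ LinearMap.ker (LinearMap.mulRight k y) : Submodule k S)
        = finrank k (V ^ l : Submodule k S) := finrank_map_add _
    have h2 := h.ann (i := i + j) (j := l) (by omega) (U := lv y (V ^ j))
      (U' := V ^ l ⊓ LinearMap.ker (LinearMap.mulRight k y))
      ((lv_le_mul hy).trans (pow_mul_le rfl)) inf_le_left (by
        intro a ha b hb
        obtain ⟨t, ht, rfl⟩ := mem_lv.1 ha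
        have hb2 : b * y = 0 := hb.2
        rw [h.tr, ← mul_assoc, hb2, zero_mul, map_zero])
    rw [h.finrank_symm (i := i + j) (j := l) (by omega)] at h2
    omega
  · have h1 : finrank k (lv y (V ^ j)) + finrank k (V ^ j ⊓ LinearMap.ker (LinearMap.mulLeft k y) : Submodule k S)
        = finrank k (V ^ j : Submodule k S) := finrank_map_add _
    have h2 := h.ann (i := l + i) (j := j) (by omega) (U := rv y (V ^ l))
      (U' := V ^ j ⊓ LinearMap.ker (LinearMap.mulLeft k y))
      ((rv_le_mul hy).trans (pow_mul_le rfl)) inf_le_left (by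
        intro a ha b hb
        obtain ⟨t, ht, rfl⟩ := mem_rv.1 ha
        have hb2 : y * b = 0 := hb.2
        rw [mul_assoc, hb2, mul_zero, map_zero])
    rw [h.finrank_symm (i := l + i) (j := j) (by omega)] at h2
    omega

/-- left multiples do not vanish -/
theorem GS.lv_ne_bot (h : GS V lam m) {i j : ℕ} (hij : i + j ≤ m) {y : S} (hy : y ∈ V ^ i) (hy0 : y ≠ 0) :
    lv y (V ^ j) ≠ ⊥ := by
  intro hbot
  apply hy0
  obtain ⟨l, hl⟩ := Nat.exists_eq_add_of_le hij
  apply h.nd i (j + l) (by omega) y hy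
  intro b hb
  have h1 : y * b ∈ lv y (V ^ j * V ^ l) := mul_mem_lv (by rwa [← pow_add])
  rw [lv_mul, hbot, Submodule.bot_mul, Submodule.mem_bot] at h1
  rw [h1, map_zero]

theorem GS.rv_ne_bot (h : GS V lam m) {i j : ℕ} (hij : i + j ≤ m) {y : S} (hy : y ∈ V ^ i) (hy0 : y ≠ 0) :
    rv y (V ^ j) ≠ ⊥ := by
  intro hbot
  apply hy0
  obtain ⟨l, hl⟩ := Nat.exists_eq_add_of_le hij
  apply h.nd i (l + j) (by omega) y hy
  intro b hb
  have h1 : b * y ∈ rv y (V ^ l * V ^ j) := mul_mem_rv (by rwa [← pow_add])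
  rw [rv_mul, hbot, Submodule.mul_bot, Submodule.mem_bot] at h1
  rw [h.tr, h1, map_zero]

theorem finrank_pos_of_ne {X : Submodule k S} [FiniteDimensional k X] (h : X ≠ ⊥) : 1 ≤ finrank k X := by
  rw [Nat.one_le_iff_ne_zero]
  intro h0
  exact h (Submodule.finrank_eq_zero.1 h0)

theorem fin_lv (v : S) (X : Submodule k S) [FiniteDimensional k X] : FiniteDimensional k (lv v X) := by
  unfold lv; infer_instance

theorem fin_rv (v : S) (X : Submodule k S) [FiniteDimensional k X] : FiniteDimensional k (rv v X) := by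
  unfold rv; infer_instance

theorem GS.lv_pos (h : GS V lam m) {i j : ℕ} (hij : i + j ≤ m) {y : S} (hy : y ∈ V ^ i) (hy0 : y ≠ 0) :
    1 ≤ finrank k (lv y (V ^ j)) := by
  have := h.fin j
  have := fin_lv y (V ^ j)
  exact finrank_pos_of_ne (h.lv_ne_bot hij hy hy0)

theorem GS.rv_pos (h : GS V lam m) {i j : ℕ} (hij : i + j ≤ m) {y : S} (hy : y ∈ V ^ i) (hy0 : y ≠ 0) :
    1 ≤ finrank k (rv y (V ^ j)) := by
  have := h.fin j
  have := fin_rv y (V ^ j)
  exact finrank_pos_of_ne (h.rv_ne_bot hij hy hy0)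

theorem mem_pow_one {v : S} (hv : v ∈ V) : v ∈ V ^ 1 := by rwa [pow_one]

/-- zero products -/
theorem GS.zero_pair (h : GS V lam m) (hm : 3 ≤ m) {v u : S} (hv : v ∈ V) (hu : u ∈ V) (hvu : v * u = 0) :
    finrank k (lv u (V ^ 1)) + finrank k (lv v (V ^ 2)) ≤ finrank k (V ^ 2 : Submodule k S) := by
  rw [h.rank_symm (i := 1) (j := 2) (l := m - 3) (by omega) (mem_pow_one hv)]
  apply h.ann (i := 2) (j := m - 2) (by omega)
  · exact (lv_le_mul (mem_pow_one hu)).trans (pow_mul_le rfl)
  · exact (rv_le_mul (mem_pow_one hv)).trans (pow_mul_le (by omega))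
  · intro a ha b hb
    obtain ⟨x, hx, rfl⟩ := mem_lv.1 ha
    obtain ⟨y, hy, rfl⟩ := mem_rv.1 hb
    have e : lam (u * x * (y * v)) = lam (v * u * (x * y)) := by
      rw [show u * x * (y * v) = (u * x * y) * v by noncomm_ring, h.tr]
      congr 1
      noncomm_ring
    rw [e, hvu, zero_mul, map_zero]

theorem GS.zero_pair' (h : GS V lam m) (hm : 3 ≤ m) {v u : S} (hv : v ∈ V) (hu : u ∈ V) (hvu : v * u = 0) :
    finrank k (rv v (V ^ 1)) + finrank k (rv u (V ^ 2)) ≤ finrank k (V ^ 2 : Submodule k S) := by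
  rw [← h.rank_symm (i := 1) (j := m - 3) (l := 2) (by omega) (mem_pow_one hu)]
  apply h.ann (i := 2) (j := m - 2) (by omega)
  · exact (rv_le_mul (mem_pow_one hv)).trans (pow_mul_le rfl)
  · exact (lv_le_mul (mem_pow_one hu)).trans (pow_mul_le (by omega))
  · intro a ha b hb
    obtain ⟨x, hx, rfl⟩ := mem_rv.1 ha
    obtain ⟨y, hy, rfl⟩ := mem_lv.1 hb
    rw [show x * v * (u * y) = x * (v * u) * y by noncomm_ring, hvu, mul_zero, zero_mul, map_zero]

/-- a linear map to a smaller space has a kernel -/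
theorem exists_ker {X : Submodule k S} [FiniteDimensional k X] (f : S →ₗ[k] S)
    (h : finrank k (X.map f) < finrank k X) : ∃ x ∈ X, x ≠ 0 ∧ f x = 0 := by
  have h1 := finrank_map_add (X := X) f
  have h2 : X ⊓ LinearMap.ker f ≠ ⊥ := by
    intro h0
    rw [h0, finrank_bot] at h1
    omega
  obtain ⟨x, hx, hx0⟩ := Submodule.exists_mem_ne_zero_of_ne_bot h2
  exact ⟨x, hx.1, hx0, hx.2⟩

theorem exists_rzero {X Y : Submodule k S} [FiniteDimensional k X] [FiniteDimensional k Y] {a : S}
    (hXY : ∀ x ∈ X, x * a ∈ Y) (h : finrank k Y < finrank k X) : ∃ x ∈ X, x ≠ 0 ∧ x * a = 0 := by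
  apply exists_ker (LinearMap.mulRight k a)
  refine lt_of_le_of_lt (Submodule.finrank_mono ?_) h
  rintro _ ⟨x, hx, rfl⟩
  exact hXY x hx

theorem exists_lzero {X Y : Submodule k S} [FiniteDimensional k X] [FiniteDimensional k Y] {a : S}
    (hXY : ∀ x ∈ X, a * x ∈ Y) (h : finrank k Y < finrank k X) : ∃ x ∈ X, x ≠ 0 ∧ a * x = 0 := by
  apply exists_ker (LinearMap.mulLeft k a)
  refine lt_of_le_of_lt (Submodule.finrank_mono ?_) h
  rintro _ ⟨x, hx, rfl⟩
  exact hXY x hx

end Cfsg.Agent.Lib.H76GS
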