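import Cfsg.Agent.Lib.H76GS9

/-!
# Symmetric local algebras with five dimensional centre have dimension at most eight
-/

set_option autoImplicit false
set_option linter.all false

namespace Cfsg.Agent.Lib.H76GS

open Module Cfsg.Agent.Lib.H76Alg

universe u v

variable {k : Type v} [Field k] {R : Type u} [Ring R] [Algebra k R] {N : Submodule k R}

/-- commutators of squares -/
theorem cm_sq_sq (h : LocD k N) {a b : R} (ha : a ∈ N ^ 2) (hb : b ∈ N ^ 2) : a * b - b * a ∈ cm N (N ^ 3) := by
  rw [pow_two] at ha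
  induction ha using Submodule.mul_induction_on' with
  | mem_mul_mem p hp q hq =>
    have e : p * q * b - b * (p * q) = (p * (q * b) - q * b * p) + (q * (b * p) - b * p * q) := by noncomm_ring
    rw [e]
    exact Submodule.add_mem _ (mem_cm hp (mul_mem_pow rfl (mem_pow_one' hq) hb))
      (mem_cm hq (mul_mem_pow rfl hb (mem_pow_one' hp)))
  | add p _ q _ h1 h2 =>
    have e : (p + q) * b - b * (p + q) = (p * b - b * p) + (q * b - b * q) := by noncomm_ring
    rw [e]
    exact Submodule.add_mem _ h1 h2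

/-- two generators -/
theorem r2 [IsAlgClosed k] [FiniteDimensional k R] (h : LocD k N) {lam : R →ₗ[k] k} (hl : SymF lam)
    {m : ℕ} (hm : 4 ≤ m) (hN' : N ^ (m + 1) = ⊥) {x y : R} (hx : x ∈ N) (hy : y ∈ N)
    (hN : N ≤ Submodule.span k {x, y} ⊔ N ^ 2) {s : R} (hs : s ∈ N ^ m) (hls : lam s ≠ 0)
    (hN3 : N ^ 3 ≤ KS k R ⊔ Submodule.span k {s}) (hc : x * y - y * x ∉ N ^ 3)
    (hd1 : finrank k N = finrank k (N ^ 2 : Submodule k R) + 2)
    (hd2 : finrank k (N ^ 2 : Submodule k R) = finrank k (N ^ 3 : Submodule k R) + 2) :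
    finrank k (N ^ 3 : Submodule k R) ≤ 3 := by
  have hNm : N ^ m ≠ ⊥ := by
    intro h0
    rw [h0, Submodule.mem_bot] at hs
    rw [hs, map_zero] at hls
    exact hls rfl
  obtain ⟨S, _, _, V, lamS, z, hg⟩ := exists_grd h hl (by omega) hNm hN'
  have hzs : ∀ i, 1 ≤ i → i < m → z i s = 0 := fun i hi him => hg.kill h hN' hi him him hs
  have hs3 : s ∈ N ^ 3 := h.pow_anti (by omega) (by omega) hs
  have hcm3 : cm N (N ^ 2) ≤ N ^ 3 := by
    have h1 := cm_le_pow (N := N) 1 2 3 rfl
    rwa [pow_one] at h1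
  have hcm4 : cm N (N ^ 3) ≤ N ^ 4 := by
    have h1 := cm_le_pow (N := N) 1 3 4 rfl
    rwa [pow_one] at h1
  -- elements of the cube
  have hcube : ∀ {p q : R}, p ∈ N → q ∈ N → N ≤ Submodule.span k {p, q} ⊔ N ^ 2 → p * q - q * p ∉ N ^ 3 →
      ∀ a ∈ N ^ 3, ∃ κ ∈ cm N (N ^ 2), ∃ c : k, a = κ + c • s := by
    intro p q hp hq hpq hpqc a ha
    obtain ⟨κ, hκ, t, ht, hat⟩ := Submodule.mem_sup.1 (hN3 ha)
    obtain ⟨c, rfl⟩ := Submodule.mem_span_singleton.1 ht
    obtain ⟨r, hr, κ', hκ', hpk⟩ := Submodule.mem_sup.1 (KS_two h hp hq hpq hκ)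
    obtain ⟨γ, rfl⟩ := Submodule.mem_span_singleton.1 hr
    by_cases hγ : γ = 0
    · subst hγ
      rw [zero_smul, zero_add] at hpk
      exact ⟨κ', hκ', c, by rw [← hat, hpk]⟩
    · exfalso
      apply hpqc
      have h1 : γ • (p * q - q * p) ∈ N ^ 3 := by
        have e : γ • (p * q - q * p) = a - κ' - c • s := by
          rw [← hat, ← hpk]; abel
        rw [e]
        exact Submodule.sub_mem _ (Submodule.sub_mem _ ha (hcm3 hκ')) (Submodule.smul_mem _ _ hs3)
      have h2 := Submodule.smul_mem _ γ⁻¹ h1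
      rwa [smul_smul, inv_mul_cancel₀ hγ, one_smul] at h2
  have hV3 : V ^ 3 ≤ cm V (V ^ 2) := by
    intro v hv
    obtain ⟨a, ha, rfl⟩ := hg.lift (by omega) hv
    obtain ⟨κ, hκ, c, rfl⟩ := hcube hx hy hN hc a ha
    rw [map_add, map_smul, hzs 3 (by omega) (by omega), smul_zero, add_zero]
    have h4 := hg.map_cm (i := 1) (j := 2) le_rfl (by omega) (a := κ) (by rw [pow_one]; exact hκ)
    rwa [pow_one] at h4
  have hd1' := hg.finrank_le h hN' (i := 1) le_rfl (by omega)
  have hd2' := hg.finrank_le h hN' (i := 2) (by omega) (by omega)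
  rw [show 1 + 1 = 2 from rfl, pow_one N] at hd1'
  rw [show 2 + 1 = 3 from rfl] at hd2'
  obtain ⟨x', hx', y', hy', hx'0, hV, hxx, hyy, hV2, hdV, hdV2, hind⟩ :=
    hg.gs.two_gen hm (hg.ne_bot (by omega) hs hls) (by omega) (by omega) hV3
  -- the length is four
  have hm4 : m = 4 := by
    by_contra hm4
    have hm5 : 5 ≤ m := by omega
    obtain ⟨p, hp, hpx⟩ := hg.lift le_rfl (mem_pow_one hx')
    obtain ⟨q, hq, hqy⟩ := hg.lift le_rfl (mem_pow_one hy')
    rw [pow_one] at hp hq
    have hp1 := mem_pow_one' (k := k) hp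
    have hq1 := mem_pow_one' (k := k) hq
    have hker1 : ∀ a ∈ N, z 1 a = 0 → a ∈ N ^ 2 := fun a ha ha0 =>
      hg.ker_eq h hN' (i := 1) le_rfl (by omega) (by
        rw [pow_one N, hd1, hdV]
        exact (add_comm _ _).le) (mem_pow_one' ha) ha0
    have hker2 : ∀ a ∈ N ^ 2, z 2 a = 0 → a ∈ N ^ 3 := fun a ha ha0 =>
      hg.ker_eq h hN' (i := 2) (by omega) (by omega) (by
        rw [hd2, hdV2]
        exact (add_comm _ _).le) ha ha0
    have m11 : ∀ a ∈ N, ∀ b ∈ N, z 1 a * z 1 b = z 2 (a * b) := fun a ha b hb =>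
      hg.mul 1 1 le_rfl le_rfl a (mem_pow_one' ha) b (mem_pow_one' hb)
    have m12 : ∀ a ∈ N, ∀ b ∈ N ^ 2, z 1 a * z 2 b = z 3 (a * b) := fun a ha b hb =>
      hg.mul 1 2 le_rfl (by omega) a (mem_pow_one' ha) b hb
    have m21 : ∀ a ∈ N ^ 2, ∀ b ∈ N, z 2 a * z 1 b = z 3 (a * b) := fun a ha b hb =>
      hg.mul 2 1 (by omega) le_rfl a ha b (mem_pow_one' hb)
    have e2 : ∀ a ∈ N, ∀ b ∈ N, a * b ∈ N ^ 2 := fun a ha b hb => mul_mem_pow rfl (mem_pow_one' ha) (mem_pow_one' hb)
    have hpq : N ≤ Submodule.span k {p, q} ⊔ N ^ 2 := by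
      intro n hn
      obtain ⟨α, β, hab⟩ := Submodule.mem_span_pair.1 (hV (by
        have := hg.mem le_rfl (mem_pow_one' hn)
        rwa [pow_one] at this))
      have h1 : n - (α • p + β • q) ∈ N ^ 2 := by
        apply hker1
        · exact N.sub_mem hn (N.add_mem (N.smul_mem _ hp) (N.smul_mem _ hq))
        · rw [map_sub, map_add, map_smul, map_smul, hpx, hqy, hab, sub_self]
      have e : n = (α • p + β • q) + (n - (α • p + β • q)) := by abel
      rw [e]
      exact Submodule.add_mem_sup (Submodule.mem_span_pair.2 ⟨α, β, rfl⟩) h1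
    have hpp : p * p ∈ N ^ 3 := by
      apply hker2 _ (e2 p hp p hp)
      rw [← m11 p hp p hp, hpx, hxx]
    have hqq : q * q ∈ N ^ 3 := by
      apply hker2 _ (e2 q hq q hq)
      rw [← m11 q hq q hq, hqy, hyy]
    have hsq : N ^ 2 ≤ Submodule.span k {p * q, q * p} ⊔ N ^ 3 := by
      intro n hn
      obtain ⟨α, β, hab⟩ := Submodule.mem_span_pair.1 (hV2 (hg.mem (by omega) hn))
      have h1 : n - (α • (p * q) + β • (q * p)) ∈ N ^ 3 := by
        apply hker2
        · exact Submodule.sub_mem _ hn (Submodule.add_mem _ (Submodule.smul_mem _ _ (e2 p hp q hq))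
            (Submodule.smul_mem _ _ (e2 q hq p hp)))
        · rw [map_sub, map_add, map_smul, map_smul, ← m11 p hp q hq, ← m11 q hq p hp, hpx, hqy, hab, sub_self]
      have e : n = (α • (p * q) + β • (q * p)) + (n - (α • (p * q) + β • (q * p))) := by abel
      rw [e]
      exact Submodule.add_mem_sup (Submodule.mem_span_pair.2 ⟨α, β, rfl⟩) h1
    have hcpq : p * q - q * p ∉ N ^ 3 := by
      intro h0
      apply hc
      have h1 := KS_two h hp hq hpq (comm_mem_KS (k := k) x y)
      refine (sup_le ?_ hcm3) h1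
      rw [Submodule.span_singleton_le_iff_mem]
      exact h0
    refine hg.gs.two_gen_four hm5 hx' hy' hx'0 hV hxx hyy hV2 ?_
    intro v hv
    obtain ⟨a, ha, rfl⟩ := hg.lift (by omega) hv
    obtain ⟨κ, hκ, c, hac⟩ := hcube hp hq hpq hcpq a (h.pow_anti (by omega) (by omega) ha)
    -- expand `κ`
    have hκ2 : κ ∈ Submodule.span k {p * (p * q) - p * q * p, p * (q * p) - q * p * p,
        q * (p * q) - p * q * q, q * (q * p) - q * p * q} ⊔ cm N (N ^ 3) := by
      rw [sup_eq_span] at hpq hsq
      refine cm_le hpq hsq ?_ hκ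
      have hN2 : N ^ 2 ≤ N := h.pow_le 2 (by omega)
      have hN23 : N ^ 3 ≤ N ^ 2 := h.pow_anti (by omega) (by omega)
      rintro a (ha | ha) b (hb | hb)
      · refine Submodule.mem_sup_left (Submodule.subset_span ?_)
        rcases ha with rfl | rfl <;> rcases hb with rfl | rfl <;> simp
      · refine Submodule.mem_sup_right (mem_cm ?_ hb)
        rcases ha with rfl | rfl <;> assumption
      · refine Submodule.mem_sup_right (cm_sq_sq h ha ?_)
        rcases hb with rfl | rfl
        · exact e2 p hp q hq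
        · exact e2 q hq p hp
      · exact Submodule.mem_sup_right (cm_sq_sq h ha (hN23 hb))
    obtain ⟨t, ht, κ', hκ', htk⟩ := Submodule.mem_sup.1 hκ2
    rw [Submodule.mem_span_insert] at ht
    obtain ⟨a1, t1, ht1, rfl⟩ := ht
    obtain ⟨a2, a3, a4, rfl⟩ := Submodule.mem_span_triple.1 ht1
    have hz3 : z 3 κ = 0 := by
      have h1 : z 3 a = 0 := hg.kill h hN' (by omega) (by omega) (by omega) ha
      rwa [hac, map_add, map_smul, hzs 3 (by omega) (by omega), smul_zero, add_zero] at h1
    have hz3' : z 3 κ' = 0 := hg.kill h hN' (by omega) (by omega) (by omega) (hcm4 hκ')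
    have hxx' : ∀ t, x' * (x' * t) = 0 := fun t => by rw [← mul_assoc, hxx, zero_mul]
    have hyy' : ∀ t, y' * (y' * t) = 0 := fun t => by rw [← mul_assoc, hyy, zero_mul]
    have e12 : ∀ a ∈ N, ∀ b ∈ N, ∀ c ∈ N, z 3 (a * (b * c)) = z 1 a * (z 1 b * z 1 c) := by
      intro a ha b hb c hc
      rw [m11 b hb c hc, m12 a ha _ (e2 b hb c hc)]
    have e21 : ∀ a ∈ N, ∀ b ∈ N, ∀ c ∈ N, z 3 (a * b * c) = z 1 a * (z 1 b * z 1 c) := by
      intro a ha b hb c hc
      rw [mul_assoc, e12 a ha b hb c hc]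
    rw [← htk] at hz3
    simp only [map_add, map_smul, map_sub] at hz3
    rw [hz3', add_zero, e12 p hp p hp q hq, e21 p hp q hq p hp, e12 p hp q hq p hp, e21 q hq p hp p hp,
      e12 q hq p hp q hq, e21 p hp q hq q hq, e12 q hq q hq p hp, e21 q hq p hp q hq, hpx, hqy, hxx', hyy', hxx, hyy,
      mul_zero, mul_zero] at hz3
    have hz4 : (a2 - a1) • (x' * (y' * x')) + (a3 - a4) • (y' * (x' * y')) = 0 := by
      rw [← hz3]
      module
    obtain ⟨h12, h34⟩ := hind _ _ hz4
    have h12' : a2 = a1 := sub_eq_zero.1 h12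
    have h34' : a3 = a4 := sub_eq_zero.1 h34
    subst h12'
    subst h34'
    have hκ3 : κ ∈ cm N (N ^ 3) := by
      rw [← htk]
      have e : a2 • (p * (p * q) - p * q * p) + (a2 • (p * (q * p) - q * p * p) + a3 • (q * (p * q) - p * q * q)
          + a3 • (q * (q * p) - q * p * q)) + κ' =
          a2 • (p * p * q - q * (p * p)) + a3 • (q * q * p - p * (q * q)) + κ' := by
        have e1 : (p * (p * q) - p * q * p) + (p * (q * p) - q * p * p) = p * p * q - q * (p * p) := by
          noncomm_ring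
        have e2 : (q * (p * q) - p * q * q) + (q * (q * p) - q * p * q) = q * q * p - p * (q * q) := by
          noncomm_ring
        rw [← e1, ← e2, smul_add, smul_add]
        abel
      rw [e]
      exact Submodule.add_mem _ (Submodule.add_mem _ (Submodule.smul_mem _ _ (mem_cm' hq hpp))
        (Submodule.smul_mem _ _ (mem_cm' hp hqq))) hκ'
    rw [hac, map_add, map_smul, hzs 4 (by omega) (by omega), smul_zero, add_zero]
    have h4 := hg.map_cm (i := 1) (j := 3) le_rfl (by omega) (a := κ) (by rw [pow_one]; exact hκ3)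
    rwa [pow_one] at h4
  subst hm4
  -- the cube
  have h1 := finrank_map_add' (X := N ^ 3) (z 3)
  rw [hg.rng 3 (by omega)] at h1
  have h2 := hg.gs.finrank_symm (i := 3) (j := 1) rfl
  have hs0 : s ≠ 0 := by
    rintro rfl
    rw [map_zero] at hls
    exact hls rfl
  have hsoc : ∀ b ∈ N ^ 4, ∀ n ∈ N, n * b = 0 := by
    intro b hb n hn
    have : n * b ∈ N ^ (4 + 1) := by
      rw [pow_succ']
      exact Submodule.mul_mem_mul hn hb
    rwa [hN'] at this
  have h3 : N ^ 3 ⊓ LinearMap.ker (z 3) ≤ Submodule.span k {s} := by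
    rintro a ⟨ha, ha0⟩
    have ha0 : z 3 a = 0 := ha0
    apply h.soc_unique hl hs0 (hsoc s hs)
    intro n hn
    apply hl.nd
    intro b
    have hbn : b * n ∈ N := h.lmul b n hn
    rw [hl.tr, ← mul_assoc, hl.tr]
    have h5 := hg.mul 3 1 (by omega) le_rfl a ha (b * n) (mem_pow_one' hbn)
    rw [ha0, zero_mul] at h5
    have h6 := hg.lm (a * (b * n)) (mul_mem_pow rfl ha (mem_pow_one' hbn))
    rw [← h6, ← h5, map_zero]
  have h4 := Submodule.finrank_mono h3
  rw [finrank_span_singleton hs0] at h4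
  omega

/-- **the dimension is at most eight** -/
theorem finrank_le_eight [IsAlgClosed k] [Nontrivial R] [FiniteDimensional k R] (h : LocD k N)
    {lam : R →ₗ[k] k} (hl : SymF lam) (h5 : finrank k (Tr k R) = 5) : finrank k R ≤ 8 := by
  by_cases hcomm : ∀ a b : R, a * b = b * a
  · rw [← finrank_Tr_of_comm hcomm, h5]
    omega
  have hK0 : KS k R ≠ ⊥ := fun hK => hcomm (LocD.comm_of_KS_bot hK)
  have hfR := h.finrank
  have hfK := finrank_KS_add (k := k) (R := R)
  have hKle := h.KS_le
  have hN2le : N ^ 2 ≤ N := h.pow_le 2 (by omega)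
  -- the length
  obtain ⟨m, hNm, hN'⟩ : ∃ m : ℕ, N ^ m ≠ ⊥ ∧ N ^ (m + 1) = ⊥ := by
    obtain ⟨n, hn⟩ := h.nil
    by_contra hcon
    push Not at hcon
    have h2 : ∀ j : ℕ, N ^ j ≠ ⊥ := by
      intro j
      induction j with
      | zero =>
        rw [pow_zero]
        intro h0
        have h1 : (1 : R) ∈ (1 : Submodule k R) := Submodule.one_le.1 le_rfl
        rw [h0, Submodule.mem_bot] at h1
        exact one_ne_zero h1
      | succ j ih => exact hcon j ih
    exact h2 n hn
  have hm2 : 2 ≤ m := by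
    by_contra hcon
    apply hK0
    rw [eq_bot_iff, ← hN']
    exact hKle.trans (h.pow_anti (by omega) (by omega))
  obtain ⟨s, hs, hs0⟩ := Submodule.exists_mem_ne_zero_of_ne_bot hNm
  have hsoc : ∀ b ∈ N ^ m, ∀ n ∈ N, n * b = 0 := by
    intro b hb n hn
    have : n * b ∈ N ^ (m + 1) := by
      rw [pow_succ']
      exact Submodule.mul_mem_mul hn hb
    rwa [hN'] at this
  have hls := h.lam_ne_zero hl hs0 (hsoc s hs)
  have hsK : s ∉ KS k R := fun h8 => hls (lam_KS hl h8)
  have hNms : N ^ m ≤ Submodule.span k {s} := fun t ht => h.soc_unique hl hs0 (hsoc s hs) (hsoc t ht)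
  have hKs : finrank k (KS k R) + 1 ≤ finrank k (KS k R ⊔ Submodule.span k {s} : Submodule k R) := by
    have h8 : KS k R < KS k R ⊔ Submodule.span k {s} := by
      refine lt_of_le_of_ne le_sup_left ?_
      intro h9
      apply hsK
      rw [h9]
      exact Submodule.mem_sup_right (Submodule.mem_span_singleton_self s)
    exact Submodule.finrank_lt_finrank_of_lt h8
  have hs2 : s ∈ N ^ 2 := h.pow_anti (by omega) hm2 hs
  have hKs2 : KS k R ⊔ Submodule.span k {s} ≤ N ^ 2 :=
    sup_le hKle (by rw [Submodule.span_singleton_le_iff_mem]; exact hs2)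
  have hKs3 := Submodule.finrank_mono hKs2
  have hr1 : finrank k (N ^ 2 : Submodule k R) + 2 ≤ finrank k N := by
    by_contra hcon
    obtain ⟨x, hx, hxN⟩ := exists_gen_one hN2le (by omega)
    exact hcomm (h.comm_of_one hx hxN)
  -- three generators
  obtain ⟨x, hx, y, hy, w, hw, hxyw⟩ : ∃ x ∈ N, ∃ y ∈ N, ∃ w ∈ N, N ≤ Submodule.span k {x, y, w} ⊔ N ^ 2 := by
    have hne : ¬ N ≤ N ^ 2 := by
      intro h0
      have := Submodule.finrank_mono h0
      omega
    obtain ⟨x, hx, hxW⟩ := Set.not_subset.mp hne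
    have h1 : N ^ 2 < Submodule.span k {x} ⊔ N ^ 2 := by
      refine lt_of_le_of_ne le_sup_right ?_
      intro h2
      apply hxW
      rw [SetLike.mem_coe, h2]
      exact Submodule.mem_sup_left (Submodule.mem_span_singleton_self x)
    have h2 := Submodule.finrank_lt_finrank_of_lt h1
    have h3 : Submodule.span k {x} ⊔ N ^ 2 ≤ N := sup_le (by rw [Submodule.span_le]; simpa using hx) hN2le
    obtain ⟨y, hy, w, hw, hyw⟩ := exists_gen_two h3 (by omega)
    refine ⟨x, hx, y, hy, w, hw, hyw.trans ?_⟩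
    refine sup_le ?_ (sup_le ?_ le_sup_right)
    · refine le_trans (Submodule.span_mono ?_) le_sup_left
      rintro t (rfl | rfl) <;> simp
    · refine le_trans (Submodule.span_mono ?_) le_sup_left
      rintro t rfl; simp
  rcases Nat.lt_or_ge m 4 with hm3 | hm4
  · -- small length
    have h1 := KS_three h hx hy hw hxyw
    have h2 : cm N (N ^ 2) ≤ ⊥ := by
      have h3 := cm_le_pow (N := N) 1 2 3 rfl
      rw [pow_one] at h3
      intro t ht
      have h4 : t ∈ N ^ m := by
        have h5 := h3 ht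
        rcases Nat.lt_or_ge m 3 with h6 | h6
        · have h7 := h.pow_anti (a := m + 1) (b := 3) (by omega) (by omega) h5
          rw [hN', Submodule.mem_bot] at h7
          rw [h7]; exact Submodule.zero_mem _
        · have : m = 3 := by omega
          rw [this]; exact h5
      obtain ⟨c, rfl⟩ := Submodule.mem_span_singleton.1 (hNms h4)
      have h5 := lam_KS hl (cm_le_KS _ _ ht)
      rw [map_smul, smul_eq_mul] at h5
      rw [(mul_eq_zero.1 h5).resolve_right hls, zero_smul]
      exact Submodule.zero_mem _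
    have h3 : KS k R ≤ Submodule.span k {x * y - y * x, x * w - w * x, y * w - w * y} :=
      h1.trans (sup_le le_rfl (h2.trans bot_le))
    have h4 := Submodule.finrank_mono h3
    have h5 := finrank_span_triple_le (k := k) (x * y - y * x) (x * w - w * x) (y * w - w * y)
    omega
  · have hr : finrank k (N ^ 2 : Submodule k R) + 3 ≤ finrank k N ∨
        finrank k N = finrank k (N ^ 2 : Submodule k R) + 2 := by omega
    rcases hr with hr | hr
    · exfalso
      have h1 : KS k R ⊔ Submodule.span k {s} = N ^ 2 := Submodule.eq_of_le_of_finrank_le hKs2 (by omega)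
      exact false_r3 h hl hm4 hN' hx hy hw hxyw hs hls h1.ge
    · obtain ⟨x, hx, y, hy, hxy⟩ := exists_gen_two hN2le (by omega)
      have hs3 : s ∈ N ^ 3 := h.pow_anti (by omega) (by omega) hs
      have hN3 : N ^ 3 ≠ ⊥ := by
        intro h0
        rw [h0, Submodule.mem_bot] at hs3
        exact hs0 hs3
      have hKS := KS_two h hx hy hxy
      have hcm3 : cm N (N ^ 2) ≤ N ^ 3 := by
        have h1 := cm_le_pow (N := N) 1 2 3 rfl
        rwa [pow_one] at h1
      have hKS3 : KS k R ≤ Submodule.span k {x * y - y * x} ⊔ N ^ 3 := hKS.trans (sup_le_sup_left hcm3 _)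
      have hN32 : N ^ 3 ≤ N ^ 2 := h.pow_anti (by omega) (by omega)
      by_cases hc : x * y - y * x ∈ N ^ 3
      · exfalso
        have hK3 : KS k R ⊔ Submodule.span k {s} ≤ N ^ 3 := by
          refine sup_le (hKS3.trans (sup_le ?_ le_rfl)) ?_
          · rw [Submodule.span_singleton_le_iff_mem]; exact hc
          · rw [Submodule.span_singleton_le_iff_mem]; exact hs3
        have h1 := Submodule.finrank_mono hK3
        obtain ⟨e, he, he2⟩ := exists_gen_one hN32 (by omega)
        exact hcomm (comm_of_sq_one h hl hx hy hxy he he2 hc hN3)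
      · have hKN : KS k R ⊔ N ^ 3 < N ^ 2 := by
          refine lt_of_le_of_ne (sup_le hKle hN32) ?_
          intro h0
          apply hN3
          apply h.cube_eq_bot hx hy hxy
          rw [← h0]
          exact sup_le hKS3 le_sup_right
        have h1 := Submodule.finrank_lt_finrank_of_lt hKN
        have h2 : KS k R ⊔ Submodule.span k {s} ≤ KS k R ⊔ N ^ 3 := sup_le_sup_left (by
          rw [Submodule.span_singleton_le_iff_mem]; exact hs3) _
        have h3 := Submodule.finrank_mono h2
        have h4 : KS k R ⊔ Submodule.span k {s} = KS k R ⊔ N ^ 3 := Submodule.eq_of_le_of_finrank_le h2 (by omega)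
        have h5 : N ^ 3 ≤ KS k R ⊔ Submodule.span k {s} := by rw [h4]; exact le_sup_right
        -- dimensions
        have h6 : KS k R ⊔ N ^ 3 = Submodule.span k {x * y - y * x} ⊔ N ^ 3 := by
          apply le_antisymm
          · exact sup_le hKS3 le_sup_right
          · refine sup_le_sup_right ?_ _
            rw [Submodule.span_singleton_le_iff_mem]
            exact comm_mem_KS x y
        have h7 : N ^ 3 < Submodule.span k {x * y - y * x} ⊔ N ^ 3 := by
          refine lt_of_le_of_ne le_sup_right ?_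
          intro h0
          apply hc
          rw [h0]
          exact Submodule.mem_sup_left (Submodule.mem_span_singleton_self _)
        have h8 := Submodule.finrank_lt_finrank_of_lt h7
        have h9 := finrank_sup_le (Submodule.span k {x * y - y * x}) (N ^ 3)
        have h10 := finrank_span_one_le (k := k) (x * y - y * x)
        rw [h6] at h1 h3
        rw [h6] at h4
        have h11 : finrank k (KS k R ⊔ Submodule.span k {s} : Submodule k R) =
            finrank k (Submodule.span k {x * y - y * x} ⊔ N ^ 3 : Submodule k R) := by rw [h4]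
        have h12 := r2 h hl hm4 hN' hx hy hxy hs hls h5 hc hr (by omega)
        omega

end Cfsg.Agent.Lib.H76GS
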