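import Cfsg.Agent.Lib.H76GS1

/-!
# Graded symmetric algebras with three generators: subspaces with small products
-/

set_option autoImplicit false
set_option linter.all false

namespace Cfsg.Agent.Lib.H76GS

open Module

universe u v

variable {k : Type v} [Field k] {S : Type u} [Ring S] [Algebra k S]
variable {V : Submodule k S} {lam : S →ₗ[k] k} {m : ℕ}

theorem finrank_sup_span_le (X : Submodule k S) [FiniteDimensional k X] (x : S) :
    finrank k (X ⊔ Submodule.span k {x} : Submodule k S) ≤ finrank k X + 1 := by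
  have h1 := Submodule.finrank_add_le_finrank_add_finrank X (Submodule.span k {x})
  have h2 : finrank k (Submodule.span k {x}) ≤ 1 := by
    have := finrank_span_le_card (R := k) ({x} : Set S)
    simpa using this
  omega

theorem finrank_sup_le (X Y : Submodule k S) [FiniteDimensional k X] [FiniteDimensional k Y] :
    finrank k (X ⊔ Y : Submodule k S) ≤ finrank k X + finrank k Y :=
  Submodule.finrank_add_le_finrank_add_finrank X Y

/-- complement of a hyperplane -/
theorem le_sup_span {W X : Submodule k S} [FiniteDimensional k X] (hW : W ≤ X)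
    (hd : finrank k X ≤ finrank k W + 1) {x : S} (hx : x ∈ X) (hxW : x ∉ W) : X = W ⊔ Submodule.span k {x} := by
  have : FiniteDimensional k W := fin_of_le hW
  symm
  apply Submodule.eq_of_le_of_finrank_le
  · exact sup_le hW (by rw [Submodule.span_singleton_le_iff_mem]; exact hx)
  · have h1 : W < W ⊔ Submodule.span k {x} := by
      refine lt_of_le_of_ne le_sup_left ?_
      intro h2
      apply hxW
      rw [h2]
      exact Submodule.mem_sup_right (Submodule.mem_span_singleton_self x)
    have h2 := Submodule.finrank_lt_finrank_of_lt h1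
    omega

theorem exists_not_mem_of_finrank_lt {W X : Submodule k S} [FiniteDimensional k W]
    (hd : finrank k W < finrank k X) : ∃ x ∈ X, x ∉ W := by
  by_contra hcon
  push Not at hcon
  have : X ≤ W := hcon
  have h1 := Submodule.finrank_mono this
  omega

/-- a nonzero subspace of dimension at most one -/
theorem eq_span_of_le_one {X : Submodule k S} [FiniteDimensional k X] (hd : finrank k X ≤ 1) {x : S} (hx : x ∈ X)
    (hx0 : x ≠ 0) : X = Submodule.span k {x} := by
  symm
  apply Submodule.eq_of_le_of_finrank_le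
  · rw [Submodule.span_singleton_le_iff_mem]; exact hx
  · rw [finrank_span_singleton hx0]; exact hd

/-- **no plane `W` with `W V` of dimension one** -/
theorem GS.no_plane (h : GS V lam m) (hm : 3 ≤ m) (hV : finrank k (V ^ 1 : Submodule k S) = 3)
    (hV2 : finrank k (V ^ 2 : Submodule k S) = 3) {W : Submodule k S} (hWV : W ≤ V ^ 1) (hW : finrank k W = 2)
    (hd : finrank k (W * V : Submodule k S) ≤ 1) : False := by
  have f1 := h.fin 1
  have f2 := h.fin 2
  have fm := h.fin (m - 3)
  have fW : FiniteDimensional k W := fin_of_le hWV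
  have hWV' : W ≤ V := by rwa [pow_one] at hWV
  have hWV2 : W * V ≤ V ^ 2 := by rw [pow_two]; exact H76Alg.smul_mono hWV' le_rfl
  have fWV : FiniteDimensional k (W * V : Submodule k S) := fin_of_le hWV2
  -- `V = W + k x`
  obtain ⟨x, hx, hxW⟩ := exists_not_mem_of_finrank_lt (W := W) (X := V ^ 1) (by omega)
  have hxV : x ∈ V := by rwa [pow_one] at hx
  have key : ∀ y ∈ V, y ∉ W → V ^ 2 ≤ W * V ⊔ lv y V := by
    intro y hy hyW
    have h1 := le_sup_span hWV (by omega) (mem_pow_one hy) hyW
    rw [pow_one] at h1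
    calc V ^ 2 = V * V := pow_two V
      _ = (W ⊔ Submodule.span k {y}) * V := by rw [← h1]
      _ = W * V ⊔ lv y V := by rw [Submodule.sup_mul, lv_span]
      _ ≤ _ := le_rfl
  have hx2 : 2 ≤ finrank k (lv x (V ^ 1)) := by
    have h1 := key x hxV hxW
    have := fin_lv x (V ^ 1)
    rw [pow_one] at this ⊢
    have h2 := Submodule.finrank_mono h1
    have h3 := finrank_sup_le (W * V) (lv x V)
    omega
  -- `w x = 0`
  obtain ⟨w, hw, hw0, hwx⟩ := exists_rzero (X := W) (Y := W * V) (a := x)
    (fun z hz => Submodule.mul_mem_mul hz hxV) (by omega)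
  have hwV : w ∈ V := hWV' hw
  have h1 := h.zero_pair hm hwV hxV hwx
  have h2 : finrank k (lv w (V ^ 2)) ≤ 1 := by omega
  -- the product `ξ`
  obtain ⟨ξ', hξ', hξ0'⟩ := Submodule.exists_mem_ne_zero_of_ne_bot
    (h.lv_ne_bot (i := 1) (j := 1) (by omega) (mem_pow_one hwV) hw0)
  obtain ⟨b₀, hb₀, hwb₀⟩ := mem_lv.1 hξ'
  obtain ⟨ξ, hξdef⟩ : ∃ ξ, ξ = w * b₀ := ⟨_, rfl⟩
  have hb₀V : b₀ ∈ V := by rwa [pow_one] at hb₀
  have hξ0 : ξ ≠ 0 := by rw [hξdef, hwb₀]; exact hξ0'
  have hξWV : ξ ∈ W * V := by rw [hξdef]; exact Submodule.mul_mem_mul hw hb₀V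
  have hspan : W * V = Submodule.span k {ξ} := eq_span_of_le_one hd hξWV hξ0
  have hξ2 : ξ ∈ V ^ 2 := hWV2 hξWV
  have hwVξ : lv w V = Submodule.span k {ξ} := by
    apply le_antisymm
    · rw [← hspan]; exact lv_le_mul hw
    · rw [Submodule.span_singleton_le_iff_mem, hξdef]; exact mul_mem_lv hb₀V
  have h3 : lv w (V ^ 2) = lv ξ V := by rw [pow_two, lv_mul, hwVξ, lv_span]
  rw [h3] at h2
  -- `η`
  obtain ⟨η, hη, hη0⟩ := Submodule.exists_mem_ne_zero_of_ne_bot
    (h.lv_ne_bot (i := 2) (j := 1) (by omega) hξ2 hξ0)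
  obtain ⟨b₁, hb₁, hηb⟩ := mem_lv.1 hη
  rw [pow_one] at hb₁ hη
  have fξV : FiniteDimensional k (lv ξ V) := by
    have := fin_lv ξ (V ^ 1)
    rwa [pow_one] at this
  have hξV : lv ξ V = Submodule.span k {η} := eq_span_of_le_one h2 hη hη0
  have hη3 : η ∈ V ^ 3 := by
    rw [← hηb, pow_succ]
    exact Submodule.mul_mem_mul hξ2 hb₁
  -- `H`
  set H : Submodule k S := V ^ 1 ⊓ LinearMap.ker (LinearMap.mulLeft k ξ) with hH
  have hHd : 2 ≤ finrank k H := by
    have h4 : finrank k (lv ξ (V ^ 1)) + finrank k H = finrank k (V ^ 1 : Submodule k S) := finrank_map_add _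
    rw [pow_one] at h4
    rw [pow_one] at hV
    omega
  have hHV : H ≤ V := by rw [← pow_one V]; exact inf_le_left
  -- `T`
  set T : Submodule k S := V ^ 2 ⊓ (⨅ w : W, LinearMap.ker (LinearMap.mulLeft k (w : S))) with hT
  have hTm : ∀ t, t ∈ T ↔ t ∈ V ^ 2 ∧ ∀ w ∈ W, w * t = 0 := by
    intro t
    rw [hT, Submodule.mem_inf, Submodule.mem_iInf]
    refine and_congr_right fun _ => ?_
    constructor
    · intro h5 w hw
      exact h5 ⟨w, hw⟩
    · rintro h5 ⟨w, hw⟩
      exact h5 w hw
  have fT : FiniteDimensional k T := fin_of_le (show T ≤ V ^ 2 from inf_le_left)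
  have hTd : finrank k T ≤ 1 := by
    -- an element pairing with `η`
    obtain ⟨ρ, hρ, hρη⟩ : ∃ ρ ∈ V ^ (m - 3), lam (η * ρ) ≠ 0 := by
      by_contra hcon
      push Not at hcon
      exact hη0 (h.nd 3 (m - 3) (by omega) η hη3 hcon)
    have h4 : finrank k (lv ρ W) = 2 := by
      have h5 : finrank k (lv ρ W) + finrank k (W ⊓ LinearMap.ker (LinearMap.mulLeft k ρ) : Submodule k S)
        = finrank k W := finrank_map_add _
      have h6 : (W ⊓ LinearMap.ker (LinearMap.mulLeft k ρ) : Submodule k S) = ⊥ := by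
        rw [eq_bot_iff]
        rintro z ⟨hz, hz2⟩
        rw [Submodule.mem_bot]
        by_contra hz0
        have hz2 : ρ * z = 0 := hz2
        have hzV : z ∈ V := hWV' hz
        obtain ⟨ξ₁, hξ₁, hξ₁0⟩ := Submodule.exists_mem_ne_zero_of_ne_bot
          (h.lv_ne_bot (i := 1) (j := 1) (by omega) (mem_pow_one hzV) hz0)
        obtain ⟨a, ha, hza⟩ := mem_lv.1 hξ₁
        rw [pow_one] at ha
        have h7 : z * a ∈ Submodule.span k {ξ} := by rw [← hspan]; exact Submodule.mul_mem_mul hz ha
        obtain ⟨c, hc⟩ := Submodule.mem_span_singleton.1 h7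
        have hc0 : c ≠ 0 := by
          rintro rfl
          rw [zero_smul] at hc
          exact hξ₁0 (by rw [← hza, ← hc])
        have h8 : lam (a * b₁ * (ρ * z)) = c * lam (η * ρ) := by
          have e1 : lam (a * b₁ * (ρ * z)) = lam (z * a * (b₁ * ρ)) := by
            rw [show a * b₁ * (ρ * z) = (a * b₁ * ρ) * z by noncomm_ring, h.tr]
            congr 1
            noncomm_ring
          rw [e1, ← hc, smul_mul_assoc, ← mul_assoc, hηb, map_smul, smul_eq_mul]
        rw [hz2, mul_zero, map_zero] at h8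
        exact mul_ne_zero hc0 hρη h8.symm
      rw [h6, finrank_bot] at h5
      omega
    have h5 := h.ann (i := 2) (j := m - 2) (by omega) (U := T) (U' := lv ρ W) inf_le_left (by
      refine (lv_le_mul (X := W) hρ).trans ?_
      refine (H76Alg.smul_mono le_rfl hWV).trans (pow_mul_le (by omega))) (by
      intro t ht b hb
      obtain ⟨w, hw, rfl⟩ := mem_lv.1 hb
      rw [show t * (ρ * w) = (t * ρ) * w by noncomm_ring, h.tr,
        show w * (t * ρ) = (w * t) * ρ by noncomm_ring, ((hTm t).1 ht).2 w hw, zero_mul, map_zero])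
    omega
  have hVH : ∀ b ∈ V, ∀ c ∈ H, b * c ∈ T := by
    intro b hb c hc
    rw [hTm]
    refine ⟨by rw [pow_two]; exact Submodule.mul_mem_mul hb (hHV hc), ?_⟩
    intro w hw
    have h4 : w * b ∈ Submodule.span k {ξ} := by rw [← hspan]; exact Submodule.mul_mem_mul hw hb
    obtain ⟨d, hd⟩ := Submodule.mem_span_singleton.1 h4
    have h5 : ξ * c = 0 := hc.2
    rw [← mul_assoc, ← hd, smul_mul_assoc, h5, smul_zero]
  -- `ξ ∉ T`
  have hξT : ξ ∉ T := by
    intro hcon
    have h4 : V ^ 2 ≤ W * V ⊔ lv x V := key x hxV hxW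
    have h5 : W * V ≤ T := by rw [hspan, Submodule.span_singleton_le_iff_mem]; exact hcon
    by_cases hHtop : V ≤ H
    · have h6 : lv x V ≤ T := by
        intro z hz
        obtain ⟨c, hc, rfl⟩ := mem_lv.1 hz
        exact hVH x hxV c (hHtop hc)
      have h7 := Submodule.finrank_mono (h4.trans (sup_le h5 h6))
      omega
    · obtain ⟨x', hx', hx'H⟩ := Set.not_subset.1 hHtop
      have h6 := le_sup_span (W := H) (X := V ^ 1) inf_le_left (by omega) (mem_pow_one hx') hx'H
      have h7 : lv x V ≤ T ⊔ Submodule.span k {x * x'} := by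
        intro z hz
        obtain ⟨c, hc, rfl⟩ := mem_lv.1 hz
        have hc' : c ∈ V ^ 1 := mem_pow_one hc
        rw [h6] at hc'
        obtain ⟨c₁, hc₁, c₂, hc₂, rfl⟩ := Submodule.mem_sup.1 hc'
        obtain ⟨d, rfl⟩ := Submodule.mem_span_singleton.1 hc₂
        rw [mul_add, mul_smul_comm]
        exact Submodule.add_mem_sup (hVH x hxV c₁ hc₁) (Submodule.smul_mem _ _ (Submodule.mem_span_singleton_self _))
      have h8 := Submodule.finrank_mono (h4.trans (sup_le (h5.trans le_sup_left) h7))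
      have h9 := finrank_sup_span_le T (x * x')
      omega
  -- `W y = 0`
  obtain ⟨y, hy, hy0, hWy⟩ : ∃ y ∈ V, y ≠ 0 ∧ ∀ w ∈ W, w * y = 0 := by
    -- `W = k w + k w'`
    obtain ⟨w', hw', hw'w⟩ := exists_not_mem_of_finrank_lt (W := Submodule.span k {w}) (X := W) (by
      rw [finrank_span_singleton hw0]; omega)
    have h4 : W = Submodule.span k {w} ⊔ Submodule.span k {w'} :=
      le_sup_span (by rw [Submodule.span_singleton_le_iff_mem]; exact hw)
        (by rw [finrank_span_singleton hw0]; omega) hw' hw'w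
    -- first kernel
    have h5 : finrank k (lv w (V ^ 1)) + finrank k (V ^ 1 ⊓ LinearMap.ker (LinearMap.mulLeft k w) : Submodule k S)
      = finrank k (V ^ 1 : Submodule k S) := finrank_map_add _
    have h6 : finrank k (lv w (V ^ 1)) = 1 := by
      rw [pow_one, hwVξ, finrank_span_singleton hξ0]
    set K := (V ^ 1 ⊓ LinearMap.ker (LinearMap.mulLeft k w) : Submodule k S) with hK
    have fK : FiniteDimensional k K := fin_of_le (show K ≤ V ^ 1 from inf_le_left)
    have f7 : FiniteDimensional k (Submodule.span k {ξ}) := inferInstance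
    obtain ⟨y, hy, hy0, hy1⟩ := exists_lzero (X := K) (Y := Submodule.span k {ξ}) (a := w') (by
      intro z hz
      rw [← hspan]
      exact Submodule.mul_mem_mul hw' (by have := hz.1; rwa [pow_one] at this)) (by
      rw [finrank_span_singleton hξ0]; omega)
    have hyV : y ∈ V := by have := hy.1; rwa [pow_one] at this
    refine ⟨y, hyV, hy0, ?_⟩
    intro z hz
    rw [h4] at hz
    obtain ⟨z₁, hz₁, z₂, hz₂, rfl⟩ := Submodule.mem_sup.1 hz
    obtain ⟨d₁, rfl⟩ := Submodule.mem_span_singleton.1 hz₁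
    obtain ⟨d₂, rfl⟩ := Submodule.mem_span_singleton.1 hz₂
    have h8 : w * y = 0 := hy.2
    rw [add_mul, smul_mul_assoc, smul_mul_assoc, h8, hy1, smul_zero, smul_zero, add_zero]
  have hyT : ∀ b ∈ V, y * b ∈ T := by
    intro b hb
    rw [hTm]
    refine ⟨by rw [pow_two]; exact Submodule.mul_mem_mul hy hb, ?_⟩
    intro w hw
    rw [← mul_assoc, hWy w hw, zero_mul]
  by_cases hyW : y ∈ W
  · obtain ⟨z, hz, hz0⟩ := Submodule.exists_mem_ne_zero_of_ne_bot
      (h.lv_ne_bot (i := 1) (j := 1) (by omega) (mem_pow_one hy) hy0)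
    obtain ⟨b, hb, rfl⟩ := mem_lv.1 hz
    rw [pow_one] at hb
    have h4 : y * b ∈ Submodule.span k {ξ} := by rw [← hspan]; exact Submodule.mul_mem_mul hyW hb
    obtain ⟨c, hc⟩ := Submodule.mem_span_singleton.1 h4
    have hc0 : c ≠ 0 := by
      rintro rfl
      rw [zero_smul] at hc
      exact hz0 hc.symm
    apply hξT
    have h5 := T.smul_mem c⁻¹ (hyT b hb)
    rwa [← hc, smul_smul, inv_mul_cancel₀ hc0, one_smul] at h5
  · have h4 := key y hy hyW
    have h5 : lv y V ≤ T := by
      intro z hz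
      obtain ⟨b, hb, rfl⟩ := mem_lv.1 hz
      exact hyT b hb
    have h6 := Submodule.finrank_mono (h4.trans (sup_le_sup_left h5 _))
    have h7 := finrank_sup_le (W * V) T
    omega

/-- consequences for single elements -/
theorem GS.no_jump (h : GS V lam m) (hm : 4 ≤ m) (hV : finrank k (V ^ 1 : Submodule k S) = 3)
    (hV2 : finrank k (V ^ 2 : Submodule k S) = 3) {v : S} (hv : v ∈ V) (hv0 : v ≠ 0)
    (hb : 2 ≤ finrank k (rv v (V ^ 1))) {j : ℕ} (hj1 : 1 ≤ j) (hjm : j + 3 ≤ m)
    (hj : finrank k (lv v (V ^ j)) ≤ 1) : False := by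
  have f1 := h.fin 1
  have f2 := h.fin 2
  have hend : 2 ≤ finrank k (lv v (V ^ (m - 2))) := by
    rw [h.rank_symm (i := 1) (j := m - 2) (l := 1) (by omega) (mem_pow_one hv)]
    exact hb
  -- the last `j`
  obtain ⟨i, hi1, him, hi, hi'⟩ : ∃ i, 1 ≤ i ∧ i + 3 ≤ m ∧ finrank k (lv v (V ^ i)) ≤ 1 ∧
      2 ≤ finrank k (lv v (V ^ (i + 1))) := by
    by_contra hcon
    push Not at hcon
    have h1 : ∀ n, j + n + 2 ≤ m → finrank k (lv v (V ^ (j + n))) ≤ 1 := by
      intro n
      induction n with
      | zero => intro _; exact hj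
      | succ n ih =>
        intro hn
        have h2 := ih (by omega)
        have h3 := hcon (j + n) (by omega) (by omega) h2
        rw [show j + (n + 1) = j + n + 1 by ring]
        omega
    have h2 := h1 (m - 2 - j) (by omega)
    rw [show j + (m - 2 - j) = m - 2 by omega] at h2
    omega
  obtain ⟨i, rfl⟩ := Nat.exists_eq_add_of_le' hi1
  have fi := h.fin (i + 1)
  have fi' := h.fin i
  have g1 := fin_lv v (V ^ (i + 1))
  obtain ⟨ω, hω, hω0⟩ := Submodule.exists_mem_ne_zero_of_ne_bot
    (h.lv_ne_bot (i := 1) (j := i + 1) (by omega) (mem_pow_one hv) hv0)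
  have hspan := eq_span_of_le_one hi hω hω0
  -- the element `y`
  obtain ⟨y, hy, b, hbV, hyb⟩ : ∃ y ∈ lv v (V ^ i), ∃ b ∈ V, y * b ≠ 0 := by
    by_contra hcon
    push Not at hcon
    have h1 : lv v (V ^ (i + 1)) = ⊥ := by
      rw [pow_succ, lv_mul, eq_bot_iff, Submodule.mul_le]
      intro y hy b hb
      rw [hcon y hy b hb]
      exact Submodule.zero_mem _
    exact h.lv_ne_bot (i := 1) (j := i + 1) (by omega) (mem_pow_one hv) hv0 h1
  have hyi : y ∈ V ^ (i + 1) := by
    have := lv_le_mul (X := V ^ i) (mem_pow_one hv) hy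
    rw [← pow_add] at this
    rwa [add_comm 1 i] at this
  have hyV : lv y V ≤ Submodule.span k {ω} := by
    rw [← hspan, pow_succ, lv_mul]
    exact lv_le_mul hy
  have hyV' : lv y V = Submodule.span k {ω} := by
    have : FiniteDimensional k (lv y V) := fin_of_le hyV
    have h1 := Submodule.finrank_mono hyV
    rw [finrank_span_singleton hω0] at h1
    have h2 := eq_span_of_le_one h1 (mul_mem_lv hbV) hyb
    have h3 := eq_span_of_le_one (X := Submodule.span k {ω}) (by rw [finrank_span_singleton hω0])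
      (hyV (mul_mem_lv hbV)) hyb
    rw [h2, h3]
  -- `y V² = ω V`
  have h1 : lv y (V ^ 2) = lv v (V ^ (i + 1 + 1)) := by
    rw [pow_two, lv_mul, hyV', pow_succ V (i + 1), lv_mul, hspan]
  -- `W`
  set W : Submodule k S := V ^ 1 ⊓ LinearMap.ker (LinearMap.mulLeft k y) with hW
  have hWd : finrank k W = 2 := by
    have h4 : finrank k (lv y (V ^ 1)) + finrank k W = finrank k (V ^ 1 : Submodule k S) := finrank_map_add _
    rw [pow_one, hyV', finrank_span_singleton hω0] at h4
    rw [pow_one] at hV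
    omega
  have hWV : W ≤ V ^ 1 := inf_le_left
  have hWV' : W ≤ V := by rwa [pow_one] at hWV
  apply h.no_plane (by omega) hV hV2 hWV hWd
  have h2 := h.ann (i := 2) (j := m - 2) (by omega) (U := W * V) (U' := rv y (V ^ (m - 2 - (i + 1))))
    (by rw [pow_two]; exact H76Alg.smul_mono hWV' le_rfl)
    ((rv_le_mul hyi).trans (pow_mul_le (by omega))) (by
      intro a ha b hb
      obtain ⟨ρ, hρ, rfl⟩ := mem_rv.1 hb
      rw [show a * (ρ * y) = (a * ρ) * y by noncomm_ring, h.tr, ← mul_assoc]
      have h3 : y * a = 0 := by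
        induction ha using Submodule.mul_induction_on' with
        | mem_mul_mem w hw c hc =>
          have : y * w = 0 := hw.2
          rw [← mul_assoc, this, zero_mul]
        | add a _ b _ h1 h2 => rw [mul_add, h1, h2, add_zero]
      rw [h3, zero_mul, map_zero])
  rw [← h.rank_symm (i := i + 1) (j := 2) (l := m - 2 - (i + 1)) (by omega) hyi, h1] at h2
  omega

end Cfsg.Agent.Lib.H76GS
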