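import Cfsg.Agent.Lib.H76GS2

/-!
# Graded symmetric algebras with three generators whose square consists of commutators
-/

set_option autoImplicit false
set_option linter.all false

namespace Cfsg.Agent.Lib.H76GS

open Module MulOpposite

universe u v

variable {k : Type v} [Field k] {S : Type u} [Ring S] [Algebra k S]
variable {V : Submodule k S} {lam : S →ₗ[k] k} {m : ℕ}

/-! ### the opposite algebra -/

/-- the opposite subspace -/
noncomputable def opS (X : Submodule k S) : Submodule k Sᵐᵒᵖ :=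
  X.map (↑(opLinearEquiv k : S ≃ₗ[k] Sᵐᵒᵖ) : S →ₗ[k] Sᵐᵒᵖ)

theorem mem_opS {X : Submodule k S} {z : Sᵐᵒᵖ} : z ∈ opS X ↔ unop z ∈ X := by
  unfold opS
  rw [Submodule.mem_map]
  constructor
  · rintro ⟨x, hx, rfl⟩
    exact hx
  · intro h
    exact ⟨unop z, h, rfl⟩

theorem opS_pow (X : Submodule k S) (n : ℕ) : opS (X ^ n) = (opS X) ^ n := Submodule.map_op_pow _ _

theorem opS_lv (x : S) (X : Submodule k S) : opS (lv x X) = rv (op x) (opS X) := by
  ext z
  rw [mem_opS, mem_lv, mem_rv]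
  constructor
  · rintro ⟨t, ht, h⟩
    refine ⟨op t, mem_opS.2 ht, ?_⟩
    rw [← op_mul, h, op_unop]
  · rintro ⟨t, ht, rfl⟩
    exact ⟨unop t, mem_opS.1 ht, rfl⟩

theorem opS_rv (x : S) (X : Submodule k S) : opS (rv x X) = lv (op x) (opS X) := by
  ext z
  rw [mem_opS, mem_rv, mem_lv]
  constructor
  · rintro ⟨t, ht, h⟩
    refine ⟨op t, mem_opS.2 ht, ?_⟩
    rw [← op_mul, h, op_unop]
  · rintro ⟨t, ht, rfl⟩
    exact ⟨unop t, mem_opS.1 ht, rfl⟩

theorem finrank_opS (X : Submodule k S) : finrank k (opS X) = finrank k X :=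
  LinearEquiv.finrank_map_eq (opLinearEquiv k : S ≃ₗ[k] Sᵐᵒᵖ) X

theorem GS.op (h : GS V lam m) :
    GS (opS V) (lam ∘ₗ ((opLinearEquiv k : S ≃ₗ[k] Sᵐᵒᵖ).symm : Sᵐᵒᵖ →ₗ[k] S)) m where
  fg := h.fg.map _
  tr := by
    intro a b
    show lam (unop (a * b)) = lam (unop (b * a))
    rw [unop_mul, unop_mul, h.tr]
  nd := by
    intro i j hij a ha hab
    rw [← opS_pow, mem_opS] at ha
    apply unop_injective
    rw [unop_zero]
    apply h.nd i j hij _ ha
    intro b hb
    have h1 := hab (MulOpposite.op b) (by rw [← opS_pow, mem_opS]; exact hb)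
    have h2 : lam (unop (a * MulOpposite.op b)) = 0 := h1
    rw [unop_mul, unop_op] at h2
    rw [h.tr]
    exact h2

theorem GS.no_jump' (h : GS V lam m) (hm : 4 ≤ m) (hV : finrank k (V ^ 1 : Submodule k S) = 3)
    (hV2 : finrank k (V ^ 2 : Submodule k S) = 3) {v : S} (hv : v ∈ V) (hv0 : v ≠ 0)
    (hb : 2 ≤ finrank k (lv v (V ^ 1))) {j : ℕ} (hj1 : 1 ≤ j) (hjm : j + 3 ≤ m)
    (hj : finrank k (rv v (V ^ j)) ≤ 1) : False := by
  apply h.op.no_jump hm (v := MulOpposite.op v) (j := j) ?_ ?_ ?_ ?_ ?_ hj1 hjm ?_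
  · rw [← opS_pow, finrank_opS, hV]
  · rw [← opS_pow, finrank_opS, hV2]
  · rw [mem_opS]; exact hv
  · intro h0
    exact hv0 (op_injective h0)
  · rw [← opS_pow, ← opS_lv, finrank_opS]
    exact hb
  · rw [← opS_pow, ← opS_rv, finrank_opS]
    exact hj

/-! ### commutator spaces -/

/-- the commutator space -/
def cm (X Y : Submodule k S) : Submodule k S := Submodule.span k {z | ∃ a ∈ X, ∃ b ∈ Y, z = a * b - b * a}

theorem cm_le {X Y Z : Submodule k S} {s t : Set S} (hX : X ≤ Submodule.span k s) (hY : Y ≤ Submodule.span k t)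
    (h : ∀ a ∈ s, ∀ b ∈ t, a * b - b * a ∈ Z) : cm X Y ≤ Z := by
  unfold cm
  rw [Submodule.span_le]
  rintro _ ⟨a, ha, b, hb, rfl⟩
  have ha' := hX ha
  have hb' := hY hb
  rw [SetLike.mem_coe]
  clear ha hb
  induction ha' using Submodule.span_induction with
  | mem a ha =>
    induction hb' using Submodule.span_induction with
    | mem b hb => exact h a ha b hb
    | zero => rw [mul_zero, zero_mul, sub_zero]; exact Z.zero_mem
    | add b c _ _ h1 h2 =>
      rw [show a * (b + c) - (b + c) * a = (a * b - b * a) + (a * c - c * a) by noncomm_ring]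
      exact Z.add_mem h1 h2
    | smul r b _ h1 =>
      rw [mul_smul_comm, smul_mul_assoc, ← smul_sub]
      exact Z.smul_mem _ h1
  | zero => rw [mul_zero, zero_mul, sub_zero]; exact Z.zero_mem
  | add c d _ _ h1 h2 =>
    rw [show (c + d) * b - b * (c + d) = (c * b - b * c) + (d * b - b * d) by noncomm_ring]
    exact Z.add_mem h1 h2
  | smul r c _ h1 =>
    rw [mul_smul_comm, smul_mul_assoc, ← smul_sub]
    exact Z.smul_mem _ h1

/-- zero pairs exist -/
theorem exists_zero_pair_aux [IsAlgClosed k] {X Y : Submodule k S} [FiniteDimensional k X] [FiniteDimensional k Y]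
    (hXY : ∀ v ∈ X, ∀ x ∈ X, LinearMap.mulLeft k v x ∈ Y) (hX : 2 ≤ finrank k X)
    (hY : finrank k Y ≤ finrank k X) : ∃ v ∈ X, ∃ u ∈ X, v ≠ 0 ∧ u ≠ 0 ∧ v * u = 0 := by
  obtain ⟨v₁, hv₁, hv₁0⟩ := Submodule.exists_mem_ne_zero_of_ne_bot (p := X) (by
    intro h0
    rw [h0, finrank_bot] at hX
    omega)
  obtain ⟨v₂, hv₂, hv₂0⟩ := exists_not_mem_of_finrank_lt (W := Submodule.span k {v₁}) (X := X) (by
    rw [finrank_span_singleton hv₁0]; omega)
  obtain ⟨f₁, hf₁⟩ : ∃ f₁ : X →ₗ[k] Y, ∀ x : X, (f₁ x : S) = v₁ * x :=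
    ⟨(LinearMap.mulLeft k v₁).restrict (hXY v₁ hv₁), fun _ => rfl⟩
  obtain ⟨f₂, hf₂⟩ : ∃ f₂ : X →ₗ[k] Y, ∀ x : X, (f₂ x : S) = v₂ * x :=
    ⟨(LinearMap.mulLeft k v₂).restrict (hXY v₂ hv₂), fun _ => rfl⟩
  by_cases hinj : Function.Injective f₁
  · have hdim : finrank k X = finrank k Y :=
      le_antisymm (LinearMap.finrank_le_finrank_of_injective hinj) hY
    obtain ⟨e, he⟩ : ∃ e : X ≃ₗ[k] Y, ∀ x, e x = f₁ x :=
      ⟨f₁.linearEquivOfInjective hinj hdim, fun x => LinearMap.linearEquivOfInjective_apply hinj hdim x⟩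
    have : Nontrivial X := by
      rw [Submodule.nontrivial_iff_ne_bot]
      intro h0
      rw [h0, finrank_bot] at hX
      omega
    obtain ⟨c, hc⟩ := Module.End.exists_eigenvalue ((e.symm : Y →ₗ[k] X) ∘ₗ f₂)
    obtain ⟨w, hw⟩ := hc.exists_hasEigenvector
    have hw1 : e.symm (f₂ w) = c • w := Module.End.mem_eigenspace_iff.1 hw.1
    have hw2 : f₂ w = c • f₁ w := by
      have := congrArg e hw1
      rwa [LinearEquiv.apply_symm_apply, map_smul, he] at this
    have hw3 : v₂ * (w : S) = c • (v₁ * (w : S)) := by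
      rw [← hf₁, ← hf₂, hw2]
      rfl
    refine ⟨v₂ - c • v₁, X.sub_mem hv₂ (X.smul_mem _ hv₁), w, w.2, ?_, ?_, ?_⟩
    · intro h0
      apply hv₂0
      rw [Submodule.mem_span_singleton]
      exact ⟨c, (sub_eq_zero.1 h0).symm⟩
    · intro h0
      exact hw.2 (Subtype.ext h0)
    · rw [sub_mul, smul_mul_assoc, hw3, sub_self]
  · rw [← LinearMap.ker_eq_bot] at hinj
    obtain ⟨w, hw, hw0⟩ := Submodule.exists_mem_ne_zero_of_ne_bot hinj
    refine ⟨v₁, hv₁, w, w.2, hv₁0, fun h0 => hw0 (Subtype.ext h0), ?_⟩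
    rw [← hf₁, LinearMap.mem_ker.1 hw]
    rfl

theorem GS.exists_zero_pair [IsAlgClosed k] (h : GS V lam m) (hV : 2 ≤ finrank k (V ^ 1 : Submodule k S))
    (hV2 : finrank k (V ^ 2 : Submodule k S) ≤ finrank k (V ^ 1 : Submodule k S)) :
    ∃ v ∈ V, ∃ u ∈ V, v ≠ 0 ∧ u ≠ 0 ∧ v * u = 0 := by
  have f1 := h.fin 1
  have f2 := h.fin 2
  obtain ⟨v, hv, u, hu, h1, h2, h3⟩ := exists_zero_pair_aux (X := V ^ 1) (Y := V ^ 2) (by
    intro v hv x hx
    rw [pow_one] at hv hx
    rw [pow_two]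
    exact Submodule.mul_mem_mul hv hx) hV hV2
  rw [pow_one] at hv hu
  exact ⟨v, hv, u, hu, h1, h2, h3⟩

/-- the square has dimension at least two -/
theorem GS.two_le_sq [IsAlgClosed k] (h : GS V lam m) (hm : 3 ≤ m) (hV : 2 ≤ finrank k (V ^ 1 : Submodule k S)) :
    2 ≤ finrank k (V ^ 2 : Submodule k S) := by
  by_contra hcon
  obtain ⟨v, hv, u, hu, hv0, hu0, hvu⟩ := h.exists_zero_pair hV (by omega)
  have h1 := h.zero_pair hm hv hu hvu
  have h2 := h.lv_pos (i := 1) (j := 1) (by omega) (mem_pow_one hu) hu0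
  have h3 := h.lv_pos (i := 1) (j := 2) (by omega) (mem_pow_one hv) hv0
  omega

/-- the square does not have dimension two -/
theorem GS.sq_ne_two (h : GS V lam m) (hm : 3 ≤ m) (hV : finrank k (V ^ 1 : Submodule k S) = 3)
    (hV2 : finrank k (V ^ 2 : Submodule k S) = 2) : False := by
  have f1 := h.fin 1
  have f2 := h.fin 2
  have hmul : ∀ a ∈ V, ∀ b ∈ V, a * b ∈ V ^ 2 := by
    intro a ha b hb
    rw [pow_two]
    exact Submodule.mul_mem_mul ha hb
  have hone : ∀ u ∈ V, u ≠ 0 → finrank k (lv u V) ≤ 1 := by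
    intro u hu hu0
    obtain ⟨v, hv, hv0, hvu⟩ := exists_rzero (X := V ^ 1) (Y := V ^ 2) (a := u) (by
      intro x hx
      rw [pow_one] at hx
      exact hmul x hx u hu) (by omega)
    rw [pow_one] at hv
    have h1 := h.zero_pair hm hv hu hvu
    have h3 := h.lv_pos (i := 1) (j := 2) (by omega) (mem_pow_one hv) hv0
    rw [pow_one] at h1
    omega
  have fl : ∀ u, FiniteDimensional k (lv u V) := by
    intro u
    have := fin_lv u (V ^ 1)
    rwa [pow_one] at this
  have key : ∀ u ∈ V, ∀ a ∈ V, u * a ≠ 0 → lv u V = Submodule.span k {u * a} := by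
    intro u hu a ha hua
    have := fl u
    apply eq_span_of_le_one (hone u hu (by rintro rfl; exact hua (zero_mul _))) (mul_mem_lv ha) hua
  have claim : ∀ x ∈ V, ∀ z ∈ V, ∀ a ∈ V, x * a = 0 → z * a ≠ 0 → lv x V ≤ Submodule.span k {z * a} := by
    intro x hx z hz a ha hxa hza t ht
    obtain ⟨g, hg, rfl⟩ := mem_lv.1 ht
    have h1 : (x + z) * a = z * a := by rw [add_mul, hxa, zero_add]
    have h2 := key (x + z) (V.add_mem hx hz) a ha (by rw [h1]; exact hza)
    rw [h1] at h2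
    have h3 := key z hz a ha hza
    have h4 : (x + z) * g ∈ Submodule.span k {z * a} := by rw [← h2]; exact mul_mem_lv hg
    have h5 : z * g ∈ Submodule.span k {z * a} := by rw [← h3]; exact mul_mem_lv hg
    have h6 := Submodule.sub_mem _ h4 h5
    rwa [add_mul, add_sub_cancel_right] at h6
  obtain ⟨x, hx, hx0⟩ := Submodule.exists_mem_ne_zero_of_ne_bot (p := V) (by
    intro h0
    rw [pow_one, h0, finrank_bot] at hV
    omega)
  -- another image
  obtain ⟨y, hy, hyx⟩ : ∃ y ∈ V, ¬ lv y V ≤ lv x V := by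
    by_contra hcon
    push Not at hcon
    have h1 : V ^ 2 ≤ lv x V := by
      rw [pow_two, Submodule.mul_le]
      intro a ha b hb
      exact hcon a ha (mul_mem_lv hb)
    have := fl x
    have h2 := Submodule.finrank_mono h1
    have h3 := hone x hx hx0
    omega
  obtain ⟨a, ha, ha0, hxa⟩ := exists_lzero (X := V ^ 1) (Y := V ^ 2) (a := x) (by
      intro z hz
      rw [pow_one] at hz
      exact hmul x hx z hz) (by omega)
  rw [pow_one] at ha
  have hxV : lv x V ≠ ⊥ := by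
    have := h.lv_ne_bot (i := 1) (j := 1) (by omega) (mem_pow_one hx) hx0
    rwa [pow_one] at this
  obtain ⟨t, ht, ht0⟩ := Submodule.exists_mem_ne_zero_of_ne_bot hxV
  -- `lv x V` is spanned by any vector in which it is contained
  have hxs : ∀ w : S, lv x V ≤ Submodule.span k {w} → Submodule.span k {w} ≤ lv x V := by
    intro w hw
    rw [Submodule.span_singleton_le_iff_mem]
    obtain ⟨c, hc⟩ := Submodule.mem_span_singleton.1 (hw ht)
    have hc0 : c ≠ 0 := by
      rintro rfl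
      rw [zero_smul] at hc
      exact ht0 hc.symm
    have := (lv x V).smul_mem c⁻¹ ht
    rwa [← hc, smul_smul, inv_mul_cancel₀ hc0, one_smul] at this
  by_cases hya : y * a = 0
  · obtain ⟨z, hz, hza⟩ : ∃ z ∈ V, z * a ≠ 0 := by
      by_contra hcon
      push Not at hcon
      apply h.rv_ne_bot (i := 1) (j := 1) (by omega) (mem_pow_one ha) ha0
      rw [eq_bot_iff]
      intro t ht
      obtain ⟨z, hz, rfl⟩ := mem_rv.1 ht
      rw [pow_one] at hz
      rw [hcon z hz]
      exact Submodule.zero_mem _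
    exact hyx ((claim y hy z hz a ha hya hza).trans (hxs _ (claim x hx z hz a ha hxa hza)))
  · have h1 := key y hy a ha hya
    apply hyx
    rw [h1]
    exact hxs _ (claim x hx y hy a ha hxa hya)

end Cfsg.Agent.Lib.H76GS
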