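import Cfsg.Agent.Lib.H76GS3

/-!
# Graded symmetric algebras with three generators: the special case
-/

set_option autoImplicit false
set_option linter.all false

namespace Cfsg.Agent.Lib.H76GS

open Module

universe u v

variable {k : Type v} [Field k] {S : Type u} [Ring S] [Algebra k S]
variable {V : Submodule k S} {lam : S →ₗ[k] k} {m : ℕ}

theorem lv_eq_bot_of_span {X : Submodule k S} {s : Set S} {w : S} (hX : X ≤ Submodule.span k s)
    (h : ∀ x ∈ s, w * x = 0) : lv w X = ⊥ := by
  rw [eq_bot_iff]
  intro t ht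
  obtain ⟨x, hx, rfl⟩ := mem_lv.1 ht
  rw [Submodule.mem_bot]
  have hx' := hX hx
  clear hx ht
  induction hx' using Submodule.span_induction with
  | mem x hx => exact h x hx
  | zero => exact mul_zero _
  | add x y _ _ h1 h2 => rw [mul_add, h1, h2, add_zero]
  | smul c x _ h1 => rw [mul_smul_comm, h1, smul_zero]

theorem GS.special_aux (h : GS V lam m) (hm : 4 ≤ m) (hc2 : V ^ 2 ≤ cm V V) (hc3 : V ^ 3 ≤ cm V (V ^ 2))
    {u y z : S} (hu : u ∈ V) (hy : y ∈ V) (hz : z ∈ V) (hspan : V ≤ Submodule.span k {u, y, z})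
    (huu : u * u = 0) (huz : u * z = 0) (hyu : y * u = 0) (hu0 : u ≠ 0) (huy0 : u * y ≠ 0) : False := by
  have hmul : ∀ a ∈ V, ∀ b ∈ V, a * b ∈ V ^ 2 := by
    intro a ha b hb
    rw [pow_two]
    exact Submodule.mul_mem_mul ha hb
  -- the square
  have hV2 : V ^ 2 ≤ Submodule.span k {u * y, z * u, y * z - z * y} := by
    refine hc2.trans (cm_le hspan hspan ?_)
    have m1 : u * y ∈ Submodule.span k ({u * y, z * u, y * z - z * y} : Set S) :=
      Submodule.subset_span (by simp)
    have m2 : z * u ∈ Submodule.span k ({u * y, z * u, y * z - z * y} : Set S) :=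
      Submodule.subset_span (by simp)
    have m3 : y * z - z * y ∈ Submodule.span k ({u * y, z * u, y * z - z * y} : Set S) :=
      Submodule.subset_span (by simp)
    rintro a (rfl | rfl | rfl) b (rfl | rfl | rfl)
    · rw [sub_self]; exact Submodule.zero_mem _
    · rw [hyu, sub_zero]; exact m1
    · rw [huz, zero_sub]; exact Submodule.neg_mem _ m2
    · rw [hyu, zero_sub]; exact Submodule.neg_mem _ m1
    · rw [sub_self]; exact Submodule.zero_mem _
    · exact m3
    · rw [huz, sub_zero]; exact m2
    · have := Submodule.neg_mem _ m3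
      rwa [neg_sub] at this
    · rw [sub_self]; exact Submodule.zero_mem _
  obtain ⟨α, β, γ, hyy⟩ := Submodule.mem_span_triple.1 (hV2 (hmul y hy y hy))
  obtain ⟨α', β', γ', hzz⟩ := Submodule.mem_span_triple.1 (hV2 (hmul z hz z hz))
  obtain ⟨ρ, σ, τ, hzy⟩ := Submodule.mem_span_triple.1 (hV2 (hmul z hz y hy))
  -- assoc forms
  have huu' : ∀ t, u * (u * t) = 0 := fun t => by rw [← mul_assoc, huu, zero_mul]
  have huz' : ∀ t, u * (z * t) = 0 := fun t => by rw [← mul_assoc, huz, zero_mul]
  have hyu' : ∀ t, y * (u * t) = 0 := fun t => by rw [← mul_assoc, hyu, zero_mul]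
  obtain ⟨A, hA⟩ : ∃ A, A = u * (y * z) := ⟨_, rfl⟩
  obtain ⟨B, hB⟩ : ∃ B, B = y * (z * u) := ⟨_, rfl⟩
  obtain ⟨C, hC⟩ : ∃ C, C = z * (u * y) := ⟨_, rfl⟩
  obtain ⟨D, hD⟩ : ∃ D, D = u * (y * (z * u)) := ⟨_, rfl⟩
  have hA0 : A ≠ 0 := by
    intro hA0
    apply h.lv_ne_bot (i := 1) (j := 2) (by omega) (mem_pow_one hu) hu0
    apply lv_eq_bot_of_span hV2
    rintro x (rfl | rfl | rfl)
    · exact huu' _
    · exact huz' _
    · rw [mul_sub, huz', sub_zero, ← hA, hA0]
  -- `τ = 0`
  have hτ : τ = 0 := by
    have h1 : u * (z * y) = τ • A := by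
      rw [← hzy]
      simp only [mul_add, mul_smul_comm, mul_sub, huu', huz', smul_zero, zero_add, sub_zero, ← hA]
    rw [huz'] at h1
    exact (smul_eq_zero.1 h1.symm).resolve_right hA0
  rw [hτ, zero_smul, add_zero] at hzy
  have huyy : u * (y * y) = γ • A := by
    rw [← hyy]
    simp only [mul_add, mul_smul_comm, mul_sub, huu', huz', smul_zero, zero_add, sub_zero, ← hA]
  have huyzy : u * (y * (z * y)) = σ • D := by
    rw [← hzy]
    simp only [mul_add, mul_smul_comm, mul_sub, hyu', smul_zero, mul_zero, zero_add, ← hD]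
  have hAu : A * u = D := by rw [hA, hD]; simp only [mul_assoc]
  have hAy : A * y = σ • D := by rw [hA, ← huyzy]; simp only [mul_assoc]
  have hγD : γ • D = 0 := by
    rw [← hAu, ← smul_mul_assoc, ← huyy]
    simp only [mul_assoc, hyu, mul_zero]
  -- `γ = 0`
  have hγ : γ = 0 := by
    by_contra hγ
    have hD0 : D = 0 := (smul_eq_zero.1 hγD).resolve_left hγ
    have hξ : u * y * (y * z - z * y) = 0 := by
      have h1 : u * y * (y * y) = γ • (u * y * (y * z - z * y)) := by
        rw [← hyy]
        simp only [mul_add, mul_smul_comm, mul_assoc, hyu', mul_zero, smul_zero, zero_add, ← hD, hD0]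
      have h2 : u * y * (y * y) = 0 := by
        have h3 : u * y * (y * y) = (u * (y * y)) * y := by noncomm_ring
        rw [h3, huyy, smul_mul_assoc, hAy, hD0, smul_zero, smul_zero]
      rw [h2] at h1
      exact (smul_eq_zero.1 h1.symm).resolve_left hγ
    apply h.lv_ne_bot (i := 2) (j := 2) (by omega) (hmul u hu y hy) huy0
    apply lv_eq_bot_of_span hV2
    rintro x (rfl | rfl | rfl)
    · rw [mul_assoc, hyu', mul_zero]
    · rw [mul_assoc, ← hD, hD0]
    · exact hξ
  rw [hγ, zero_smul] at huyy
  rw [hγ, zero_smul, add_zero] at hyy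
  have hA3 : A ∈ V ^ 3 := by
    rw [hA, pow_succ' V 2]
    exact Submodule.mul_mem_mul hu (hmul y hy z hz)
  have huyyz : u * (y * (y * z)) = 0 := by
    rw [show u * (y * (y * z)) = u * (y * y) * z by noncomm_ring, huyy, zero_mul]
  have hAz : A * z = β' • D + γ' • (-(σ • D)) := by
    rw [hA, mul_assoc, mul_assoc, ← hzz]
    simp only [mul_add, mul_smul_comm, mul_sub, hyu', mul_zero, smul_zero, zero_add, ← hD, huyyz, huyzy,
      zero_sub]
  have hspan1 : V ^ 1 ≤ Submodule.span k {u, y, z} := by rw [pow_one]; exact hspan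
  have hD0 : D ≠ 0 := by
    intro hD0
    apply h.lv_ne_bot (i := 3) (j := 1) (by omega) hA3 hA0
    apply lv_eq_bot_of_span hspan1
    rintro x (rfl | rfl | rfl)
    · rw [hAu, hD0]
    · rw [hAy, hD0, smul_zero]
    · rw [hAz, hD0]; simp
  have hγ' : γ' = 0 := by
    have h1 : u * (z * z * u) = γ' • D := by
      rw [← hzz]
      simp only [mul_add, add_mul, mul_smul_comm, smul_mul_assoc, mul_sub, sub_mul, mul_assoc, hyu, mul_zero, huz',
        smul_zero, zero_add, ← hD, sub_zero, huu']
    rw [mul_assoc, huz'] at h1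
    exact (smul_eq_zero.1 h1.symm).resolve_right hD0
  rw [hγ', zero_smul, add_zero] at hzz
  -- degree three
  have hyyz : y * (y * z) = α • A := by
    rw [← mul_assoc, ← hyy, add_mul, smul_mul_assoc, smul_mul_assoc, mul_assoc, mul_assoc, huz, mul_zero,
      smul_zero, add_zero, ← hA]
  have hyzy : y * (z * y) = σ • B := by
    rw [← hzy, mul_add, mul_smul_comm, mul_smul_comm, hyu', smul_zero, zero_add, ← hB]
  have hzyy : z * y * y = σ • C := by
    rw [← hzy, add_mul, smul_mul_assoc, smul_mul_assoc, mul_assoc, mul_assoc, huyy, smul_zero, zero_add, ← hC]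
  have hzzu : z * (z * u) = 0 := by
    rw [← mul_assoc, ← hzz, add_mul, smul_mul_assoc, smul_mul_assoc, mul_assoc, mul_assoc, hyu, huu, mul_zero,
      mul_zero, smul_zero, smul_zero, add_zero]
  have hzyy' : z * (y * y) = α • C := by
    rw [← hyy, mul_add, mul_smul_comm, mul_smul_comm, hzzu, smul_zero, add_zero, ← hC]
  have hασ : (α - σ) • C = 0 := by
    rw [sub_smul, ← hzyy, ← hzyy', mul_assoc, sub_self]
  have hzyz : z * y * z = ρ • A := by
    rw [← hzy, add_mul, smul_mul_assoc, smul_mul_assoc, mul_assoc, mul_assoc, huz, mul_zero, smul_zero, add_zero,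
      ← hA]
  have hzzy : z * z * y = β' • C := by
    rw [← hzz, add_mul, smul_mul_assoc, smul_mul_assoc, mul_assoc, mul_assoc, huyy, smul_zero, zero_add, ← hC]
  have hzzy' : z * (z * y) = ρ • C := by
    rw [← hzy, mul_add, mul_smul_comm, mul_smul_comm, hzzu, smul_zero, add_zero, ← hC]
  have hβρ : (β' - ρ) • C = 0 := by
    rw [sub_smul, ← hzzy, ← hzzy', mul_assoc, sub_self]
  have hyzz : y * (z * z) = β' • B := by
    rw [← hzz, mul_add, mul_smul_comm, mul_smul_comm, hyu', smul_zero, zero_add, ← hB]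
  have hBu : B * u = 0 := by rw [hB]; simp only [mul_assoc, huu, mul_zero]
  have hCu : C * u = 0 := by rw [hC]; simp only [mul_assoc, hyu, mul_zero]
  have huA : u * A = 0 := by rw [hA, huu']
  have huB : u * B = D := by rw [hB, hD]
  have huC : u * C = 0 := by rw [hC, huz']
  by_cases hC0 : C = 0
  · -- `D` is annihilated by everything
    have hD4 : D ∈ V ^ 4 := by
      rw [← hAu, pow_succ V 3]
      exact Submodule.mul_mem_mul hA3 hu
    rcases Nat.lt_or_ge 4 m with hm5 | hm4
    · apply h.lv_ne_bot (i := 4) (j := 1) (by omega) hD4 hD0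
      apply lv_eq_bot_of_span hspan1
      rintro x (rfl | rfl | rfl)
      · rw [hD]; simp only [mul_assoc, huu, mul_zero]
      · rw [hD]; simp only [mul_assoc, ← hC, hC0, mul_zero]
      · rw [hD]; simp only [mul_assoc, huz, mul_zero]
    · have hm' : m = 4 := by omega
      apply hD0
      apply h.nd 4 0 (by omega) D hD4
      intro b hb
      rw [pow_zero, Submodule.mem_one] at hb
      obtain ⟨c, rfl⟩ := hb
      rw [← Algebra.commutes, ← Algebra.smul_def, map_smul, ← hAu, h.tr, huA, map_zero, smul_zero]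
  · have hα : α = σ := by
      have := (smul_eq_zero.1 hασ).resolve_right hC0
      exact sub_eq_zero.1 this
    have hβ : β' = ρ := by
      have := (smul_eq_zero.1 hβρ).resolve_right hC0
      exact sub_eq_zero.1 this
    have hV3 : V ^ 3 ≤ Submodule.span k {A - B, B - C} := by
      refine hc3.trans (cm_le hspan hV2 ?_)
      have m1 : A - B ∈ Submodule.span k ({A - B, B - C} : Set S) := Submodule.subset_span (by simp)
      have m2 : B - C ∈ Submodule.span k ({A - B, B - C} : Set S) := Submodule.subset_span (by simp)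
      have e1 : y * (y * z - z * y) - (y * z - z * y) * y = σ • (A - B) - σ • (B - C) := by
        rw [mul_sub, sub_mul, hyyz, hyzy, hzyy, mul_assoc, hyzy, hα]
        module
      have e2 : z * (y * z - z * y) - (y * z - z * y) * z = (2 * ρ) • (A - B) + ρ • (B - C) := by
        rw [mul_sub, sub_mul, hzzy', hzyz, ← mul_assoc, hzyz, mul_assoc, hyzz, hβ]
        module
      rintro a (rfl | rfl | rfl) b (rfl | rfl | rfl)
      · rw [huu', mul_assoc, hyu, mul_zero, sub_zero]; exact Submodule.zero_mem _
      · rw [huz', mul_assoc, huu, mul_zero, sub_zero]; exact Submodule.zero_mem _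
      · rw [mul_sub, huz', sub_zero, sub_mul, mul_assoc, mul_assoc, hyu, mul_zero, sub_zero, ← hA, ← hB]; exact m1
      · rw [hyu', mul_assoc, huyy, sub_zero]; exact Submodule.zero_mem _
      · rw [← hB, mul_assoc, ← hC]; exact m2
      · rw [e1]
        exact Submodule.sub_mem _ (Submodule.smul_mem _ _ m1) (Submodule.smul_mem _ _ m2)
      · rw [← hC, mul_assoc, ← hA, show C - A = -((A - B) + (B - C)) by abel]
        exact Submodule.neg_mem _ (Submodule.add_mem _ m1 m2)
      · rw [hzzu, mul_assoc, huz, mul_zero, sub_zero]; exact Submodule.zero_mem _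
      · rw [e2]
        exact Submodule.add_mem _ (Submodule.smul_mem _ _ m1) (Submodule.smul_mem _ _ m2)
    obtain ⟨s, t, hst⟩ := Submodule.mem_span_pair.1 (hV3 hA3)
    -- multiply by `u`
    have h1 : s • D = D := by
      have := congrArg (fun w => w * u) hst
      simp only [add_mul, smul_mul_assoc, sub_mul, hAu, hBu, hCu, sub_zero, smul_zero, add_zero] at this
      exact this
    have h2 : (t - s) • D = 0 := by
      have := congrArg (fun w => u * w) hst
      simp only [mul_add, mul_smul_comm, mul_sub, huA, huB, huC, sub_zero, zero_sub] at this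
      rw [sub_smul]
      rw [smul_neg] at this
      rw [← this]
      abel
    have hs : s = 1 := by
      have : (s - 1) • D = 0 := by rw [sub_smul, one_smul, h1, sub_self]
      exact sub_eq_zero.1 ((smul_eq_zero.1 this).resolve_right hD0)
    have ht : t = s := sub_eq_zero.1 ((smul_eq_zero.1 h2).resolve_right hD0)
    rw [ht, hs, one_smul, one_smul] at hst
    apply hC0
    rw [sub_add_sub_cancel] at hst
    exact sub_eq_self.1 hst

end Cfsg.Agent.Lib.H76GS
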