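import Cfsg.Agent.Lib.H76GS4

/-!
# Graded symmetric algebras with three generators: the contradiction
-/

set_option autoImplicit false
set_option linter.all false

namespace Cfsg.Agent.Lib.H76GS

open Module

universe u v

variable {k : Type v} [Field k] {S : Type u} [Ring S] [Algebra k S]
variable {V : Submodule k S} {lam : S →ₗ[k] k} {m : ℕ}

theorem finrank_span_one_le (a : S) : finrank k (Submodule.span k ({a} : Set S)) ≤ 1 := by
  have := finrank_span_le_card (R := k) ({a} : Set S)
  simpa using this

theorem finrank_span_pair_le (a b : S) : finrank k (Submodule.span k ({a, b} : Set S)) ≤ 2 := by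
  rw [Submodule.span_insert]
  have h1 := finrank_sup_le (Submodule.span k {a}) (Submodule.span k {b})
  have h2 := finrank_span_one_le (k := k) a
  have h3 := finrank_span_one_le (k := k) b
  omega

theorem finrank_span_triple_le (a b c : S) : finrank k (Submodule.span k ({a, b, c} : Set S)) ≤ 3 := by
  rw [Submodule.span_insert]
  have f : FiniteDimensional k (Submodule.span k ({b, c} : Set S)) := FiniteDimensional.span_of_finite k (by simp)
  have h1 := finrank_sup_le (Submodule.span k {a}) (Submodule.span k {b, c})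
  have h2 := finrank_span_one_le (k := k) a
  have h3 := finrank_span_pair_le (k := k) b c
  omega

theorem span_pair_lt {x y : S} (hx : x ≠ 0) (hy : y ∉ Submodule.span k {x}) :
    finrank k (Submodule.span k ({x, y} : Set S)) = 2 := by
  have f : FiniteDimensional k (Submodule.span k ({x, y} : Set S)) := FiniteDimensional.span_of_finite k (by simp)
  have h1 : Submodule.span k {x} < Submodule.span k ({x, y} : Set S) := by
    refine lt_of_le_of_ne (Submodule.span_mono (by simp)) ?_
    intro h
    apply hy
    rw [h]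
    exact Submodule.subset_span (by simp)
  have h2 := Submodule.finrank_lt_finrank_of_lt h1
  rw [finrank_span_singleton hx] at h2
  have h3 := finrank_span_pair_le (k := k) x y
  omega

/-- a three dimensional space from two independent vectors -/
theorem exists_third {X : Submodule k S} [FiniteDimensional k X] (hX : finrank k X = 3) {x y : S} (hx : x ∈ X)
    (hy : y ∈ X) (hx0 : x ≠ 0) (hyx : y ∉ Submodule.span k {x}) :
    ∃ z ∈ X, z ∉ Submodule.span k ({x, y} : Set S) ∧ X ≤ Submodule.span k {x, y, z} := by
  have f : FiniteDimensional k (Submodule.span k ({x, y} : Set S)) := FiniteDimensional.span_of_finite k (by simp)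
  have h2 := span_pair_lt hx0 hyx
  obtain ⟨z, hz, hzW⟩ := exists_not_mem_of_finrank_lt (W := Submodule.span k ({x, y} : Set S)) (X := X) (by omega)
  refine ⟨z, hz, hzW, ?_⟩
  have h3 : Submodule.span k ({x, y} : Set S) ≤ X := by
    rw [Submodule.span_le]
    rintro t (rfl | rfl)
    · exact hx
    · exact hy
  rw [le_sup_span h3 (by omega) hz hzW]
  refine sup_le (Submodule.span_mono ?_) (Submodule.span_mono ?_)
  · rintro t (rfl | rfl) <;> simp
  · rintro t rfl; simp

theorem third_of_notMem {X : Submodule k S} [FiniteDimensional k X] (hX : finrank k X = 3) {x y z : S} (hx : x ∈ X)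
    (hy : y ∈ X) (hx0 : x ≠ 0) (hyx : y ∉ Submodule.span k {x}) (hz : z ∈ X)
    (hzW : z ∉ Submodule.span k ({x, y} : Set S)) : X ≤ Submodule.span k {x, y, z} := by
  have f : FiniteDimensional k (Submodule.span k ({x, y} : Set S)) := FiniteDimensional.span_of_finite k (by simp)
  have h2 := span_pair_lt hx0 hyx
  have h3 : Submodule.span k ({x, y} : Set S) ≤ X := by
    rw [Submodule.span_le]
    rintro t (rfl | rfl)
    · exact hx
    · exact hy
  rw [le_sup_span h3 (by omega) hz hzW]
  refine sup_le (Submodule.span_mono ?_) (Submodule.span_mono ?_)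
  · rintro t (rfl | rfl) <;> simp
  · rintro t rfl; simp

theorem cm_pair {x y : S} (hV : V ≤ Submodule.span k {x, y}) : cm V V ≤ Submodule.span k {x * y - y * x} := by
  have m1 : x * y - y * x ∈ Submodule.span k ({x * y - y * x} : Set S) := Submodule.mem_span_singleton_self _
  apply cm_le hV hV
  rintro a (rfl | rfl) b (rfl | rfl)
  · rw [sub_self]; exact Submodule.zero_mem _
  · exact m1
  · have := Submodule.neg_mem _ m1
    rwa [neg_sub] at this
  · rw [sub_self]; exact Submodule.zero_mem _

theorem cm_triple {x y z : S} (hV : V ≤ Submodule.span k {x, y, z}) :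
    cm V V ≤ Submodule.span k {x * y - y * x, x * z - z * x, y * z - z * y} := by
  set Z := Submodule.span k ({x * y - y * x, x * z - z * x, y * z - z * y} : Set S) with hZ
  have m1 : x * y - y * x ∈ Z := Submodule.subset_span (by simp)
  have m2 : x * z - z * x ∈ Z := Submodule.subset_span (by simp)
  have m3 : y * z - z * y ∈ Z := Submodule.subset_span (by simp)
  have n1 : y * x - x * y ∈ Z := by have := Submodule.neg_mem _ m1; rwa [neg_sub] at this
  have n2 : z * x - x * z ∈ Z := by have := Submodule.neg_mem _ m2; rwa [neg_sub] at this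
  have n3 : z * y - y * z ∈ Z := by have := Submodule.neg_mem _ m3; rwa [neg_sub] at this
  clear_value Z
  apply cm_le hV hV
  rintro a (rfl | rfl | rfl) b (rfl | rfl | rfl) <;>
    first | assumption | (rw [sub_self]; exact Submodule.zero_mem _)

/-- elements commuting with `u` are multiples of `u` -/
theorem GS.centr (h : GS V lam m) (hV : finrank k (V ^ 1 : Submodule k S) = 3)
    (hV2 : finrank k (V ^ 2 : Submodule k S) = 3) (hc2 : V ^ 2 ≤ cm V V) {u t : S} (hu : u ∈ V) (hu0 : u ≠ 0)
    (ht : t ∈ V) (hut : u * t = t * u) : t ∈ Submodule.span k {u} := by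
  by_contra hcon
  have f1 := h.fin 1
  obtain ⟨s, hs, hsW, hspan⟩ := exists_third hV (mem_pow_one hu) (mem_pow_one ht) hu0 hcon
  rw [pow_one] at hspan
  have h1 := hc2.trans (cm_triple hspan)
  have h2 : Submodule.span k ({u * t - t * u, u * s - s * u, t * s - s * t} : Set S) ≤
      Submodule.span k ({u * s - s * u, t * s - s * t} : Set S) := by
    rw [Submodule.span_le]
    rintro x (rfl | rfl | rfl)
    · rw [hut, sub_self]; exact Submodule.zero_mem _
    · exact Submodule.subset_span (by simp)
    · exact Submodule.subset_span (by simp)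
  have f : FiniteDimensional k (Submodule.span k ({u * s - s * u, t * s - s * t} : Set S)) :=
    FiniteDimensional.span_of_finite k (by simp)
  have h3 := Submodule.finrank_mono (h1.trans h2)
  have h4 := finrank_span_pair_le (k := k) (u * s - s * u) (t * s - s * t)
  omega

theorem GS.special (h : GS V lam m) (hm : 4 ≤ m) (hV : finrank k (V ^ 1 : Submodule k S) = 3)
    (hV2 : finrank k (V ^ 2 : Submodule k S) = 3) (hc2 : V ^ 2 ≤ cm V V) (hc3 : V ^ 3 ≤ cm V (V ^ 2))
    {u : S} (hu : u ∈ V) (hu0 : u ≠ 0) (ha : finrank k (lv u (V ^ 1)) ≤ 1)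
    (hb : finrank k (rv u (V ^ 1)) ≤ 1) : False := by
  have f1 := h.fin 1
  set P : Submodule k S := V ^ 1 ⊓ LinearMap.ker (LinearMap.mulLeft k u) with hP
  set Q : Submodule k S := V ^ 1 ⊓ LinearMap.ker (LinearMap.mulRight k u) with hQ
  have hPd : finrank k (lv u (V ^ 1)) + finrank k P = finrank k (V ^ 1 : Submodule k S) := finrank_map_add _
  have hQd : finrank k (rv u (V ^ 1)) + finrank k Q = finrank k (V ^ 1 : Submodule k S) := finrank_map_add _
  have hPV : P ≤ V ^ 1 := inf_le_left
  have hQV : Q ≤ V ^ 1 := inf_le_left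
  have fP : FiniteDimensional k P := fin_of_le hPV
  have fQ : FiniteDimensional k Q := fin_of_le hQV
  have hPm : ∀ t ∈ P, u * t = 0 := fun t ht => ht.2
  have hQm : ∀ t ∈ Q, t * u = 0 := fun t ht => ht.2
  have hcen : ∀ t, t ∈ V → u * t = 0 → t * u = 0 → t ∈ Submodule.span k {u} := fun t ht h1 h2 =>
    h.centr hV hV2 hc2 hu hu0 ht (by rw [h1, h2])
  have huu : u * u = 0 := by
    have h1 := Submodule.finrank_sup_add_finrank_inf_eq P Q
    have h2 := Submodule.finrank_mono (sup_le hPV hQV)
    have h3 : P ⊓ Q ≠ ⊥ := by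
      intro h0
      rw [h0, finrank_bot] at h1
      omega
    obtain ⟨t, ht, ht0⟩ := Submodule.exists_mem_ne_zero_of_ne_bot h3
    have htV : t ∈ V := by have := hPV ht.1; rwa [pow_one] at this
    obtain ⟨c, hc⟩ := Submodule.mem_span_singleton.1 (hcen t htV (hPm t ht.1) (hQm t ht.2))
    have hc0 : c ≠ 0 := by
      rintro rfl
      rw [zero_smul] at hc
      exact ht0 hc.symm
    have h4 := hPm t ht.1
    rw [← hc, mul_smul_comm] at h4
    exact (smul_eq_zero.1 h4).resolve_left hc0
  obtain ⟨z, hz, hzu⟩ := exists_not_mem_of_finrank_lt (W := Submodule.span k {u}) (X := P) (by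
    rw [finrank_span_singleton hu0]; omega)
  obtain ⟨y, hy, hyu⟩ := exists_not_mem_of_finrank_lt (W := Submodule.span k {u}) (X := Q) (by
    rw [finrank_span_singleton hu0]; omega)
  have hzV : z ∈ V := by have := hPV hz; rwa [pow_one] at this
  have hyV : y ∈ V := by have := hQV hy; rwa [pow_one] at this
  have huy0 : u * y ≠ 0 := fun h0 => hyu (hcen y hyV h0 (hQm y hy))
  have hzW : y ∉ Submodule.span k ({u, z} : Set S) := by
    intro hmem
    obtain ⟨a, b, hab⟩ := Submodule.mem_span_pair.1 hmem
    apply huy0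
    rw [← hab, mul_add, mul_smul_comm, mul_smul_comm, huu, hPm z hz, smul_zero, smul_zero, add_zero]
  have hspan := third_of_notMem hV (mem_pow_one hu) (mem_pow_one hzV) hu0 hzu (mem_pow_one hyV) hzW
  rw [pow_one] at hspan
  have hspan' : V ≤ Submodule.span k {u, y, z} := by
    refine hspan.trans (Submodule.span_mono ?_)
    rintro t (rfl | rfl | rfl) <;> simp
  exact h.special_aux hm hc2 hc3 hu hyV hzV hspan' huu (hPm z hz) (hQm y hy) hu0 huy0

/-- **no graded symmetric algebra with at most three generators and commutator square** -/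
theorem GS.false_three [IsAlgClosed k] (h : GS V lam m) (hm : 4 ≤ m) (hne : V ≠ ⊥)
    (hV : finrank k (V ^ 1 : Submodule k S) ≤ 3) (hc2 : V ^ 2 ≤ cm V V)
    (hc3 : finrank k (V ^ 2 : Submodule k S) = 3 → V ^ 3 ≤ cm V (V ^ 2)) : False := by
  have f1 := h.fin 1
  have f2 := h.fin 2
  obtain ⟨x, hx, hx0⟩ := Submodule.exists_mem_ne_zero_of_ne_bot hne
  have hV0 : 1 ≤ finrank k (V ^ 1 : Submodule k S) := by
    apply finrank_pos_of_ne
    rw [pow_one]
    exact hne
  -- dimension one
  have h1 : finrank k (V ^ 1 : Submodule k S) ≠ 1 := by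
    intro h1
    have h2 := eq_span_of_le_one h1.le (mem_pow_one hx) hx0
    apply h.lv_ne_bot (i := 1) (j := 1) (by omega) (mem_pow_one hx) hx0
    rw [eq_bot_iff]
    refine (lv_le_mul (mem_pow_one hx)).trans ((pow_mul_le rfl).trans (hc2.trans ?_))
    have h3 : V ≤ Submodule.span k {x} := by rw [pow_one] at h2; exact h2.le
    apply cm_le h3 h3
    rintro a rfl b rfl
    rw [sub_self]
    exact Submodule.zero_mem _
  have h2 := h.two_le_sq (by omega) (by omega)
  obtain ⟨y, hy, hyx⟩ := exists_not_mem_of_finrank_lt (W := Submodule.span k {x}) (X := V ^ 1) (by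
    rw [finrank_span_singleton hx0]; omega)
  -- dimension two
  have h3 : finrank k (V ^ 1 : Submodule k S) ≠ 2 := by
    intro h3
    have h4 := le_sup_span (W := Submodule.span k {x}) (X := V ^ 1)
      (by rw [Submodule.span_singleton_le_iff_mem]; exact mem_pow_one hx)
      (by rw [finrank_span_singleton hx0]; omega) hy hyx
    have h5 : V ≤ Submodule.span k {x, y} := by
      rw [pow_one] at h4
      rw [Submodule.span_insert]
      exact h4.le
    have h6 := Submodule.finrank_mono (hc2.trans (cm_pair h5))
    have h7 := finrank_span_one_le (k := k) (x * y - y * x)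
    omega
  have hV3 : finrank k (V ^ 1 : Submodule k S) = 3 := by omega
  obtain ⟨z, hz, -, hspan⟩ := exists_third hV3 (mem_pow_one hx) hy hx0 hyx
  rw [pow_one] at hspan
  have h4 : finrank k (V ^ 2 : Submodule k S) ≤ 3 := by
    have f : FiniteDimensional k (Submodule.span k ({x * y - y * x, x * z - z * x, y * z - z * y} : Set S)) :=
      FiniteDimensional.span_of_finite k (by simp)
    have h6 := Submodule.finrank_mono (hc2.trans (cm_triple hspan))
    have h7 := finrank_span_triple_le (k := k) (x * y - y * x) (x * z - z * x) (y * z - z * y)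
    omega
  have h5 : finrank k (V ^ 2 : Submodule k S) ≠ 2 := fun h5 => h.sq_ne_two (by omega) hV3 h5
  have hV2 : finrank k (V ^ 2 : Submodule k S) = 3 := by omega
  have hc3' := hc3 hV2
  -- all ranks are at least two
  have hsp : ∀ u ∈ V, u ≠ 0 → ¬ (finrank k (lv u (V ^ 1)) ≤ 1 ∧ finrank k (rv u (V ^ 1)) ≤ 1) :=
    fun u hu hu0 hcon => h.special hm hV3 hV2 hc2 hc3' hu hu0 hcon.1 hcon.2
  have ha : ∀ u ∈ V, u ≠ 0 → 2 ≤ finrank k (lv u (V ^ 1)) := by
    intro u hu hu0
    by_contra hcon
    have h6 : 2 ≤ finrank k (rv u (V ^ 1)) := by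
      by_contra h6
      exact hsp u hu hu0 ⟨by omega, by omega⟩
    exact h.no_jump hm hV3 hV2 hu hu0 h6 (j := 1) le_rfl (by omega) (by omega)
  have hb : ∀ u ∈ V, u ≠ 0 → 2 ≤ finrank k (rv u (V ^ 1)) := by
    intro u hu hu0
    by_contra hcon
    exact h.no_jump' hm hV3 hV2 hu hu0 (ha u hu hu0) (j := 1) le_rfl (by omega) (by omega)
  obtain ⟨v, hv, u, hu, hv0, hu0, hvu⟩ := h.exists_zero_pair (by omega) (by omega)
  have h6 := h.zero_pair (by omega) hv hu hvu
  have h7 := ha u hu hu0
  have h8 := hb v hv hv0
  rcases Nat.lt_or_ge 4 m with hm5 | hm4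
  · exact h.no_jump hm hV3 hV2 hv hv0 h8 (j := 2) (by omega) (by omega) (by omega)
  · have h9 := h.rank_symm (i := 1) (j := 2) (l := 1) (by omega) (mem_pow_one hv)
    omega

end Cfsg.Agent.Lib.H76GS
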