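import Cfsg.Agent.Lib.H76GS5

/-!
# Graded symmetric algebras with two generators
-/

set_option autoImplicit false
set_option linter.all false

namespace Cfsg.Agent.Lib.H76GS

open Module

universe u v

variable {k : Type v} [Field k] {S : Type u} [Ring S] [Algebra k S]
variable {V : Submodule k S} {lam : S →ₗ[k] k} {m : ℕ}

theorem sq_le_pair {x y : S} (hV : V ≤ Submodule.span k {x, y}) :
    V ^ 2 ≤ Submodule.span k {x * x, x * y, y * x, y * y} := by
  rw [pow_two]
  refine (H76Alg.smul_mono hV hV).trans ?_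
  rw [Submodule.span_mul_span, Submodule.span_le]
  rintro _ ⟨a, (rfl | rfl), b, (rfl | rfl), rfl⟩
  · exact Submodule.subset_span (by simp)
  · exact Submodule.subset_span (by simp)
  · exact Submodule.subset_span (by simp)
  · exact Submodule.subset_span (by simp)

theorem GS.two_gen [IsAlgClosed k] (h : GS V lam m) (hm : 4 ≤ m) (hne : V ≠ ⊥)
    (hV : finrank k (V ^ 1 : Submodule k S) ≤ 2) (hV2 : finrank k (V ^ 2 : Submodule k S) ≤ 2)
    (hc3 : V ^ 3 ≤ cm V (V ^ 2)) :
    ∃ x ∈ V, ∃ y ∈ V, x ≠ 0 ∧ V ≤ Submodule.span k {x, y} ∧ x * x = 0 ∧ y * y = 0 ∧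
      V ^ 2 ≤ Submodule.span k {x * y, y * x} ∧ finrank k (V ^ 1 : Submodule k S) = 2 ∧
      finrank k (V ^ 2 : Submodule k S) = 2 ∧
      (∀ a b : k, a • (x * (y * x)) + b • (y * (x * y)) = 0 → a = 0 ∧ b = 0) := by
  have f1 := h.fin 1
  have f2 := h.fin 2
  have hmul : ∀ a ∈ V, ∀ b ∈ V, a * b ∈ V ^ 2 := by
    intro a ha b hb
    rw [pow_two]
    exact Submodule.mul_mem_mul ha hb
  obtain ⟨x₀, hx₀, hx₀0⟩ := Submodule.exists_mem_ne_zero_of_ne_bot hne
  have hV0 : 1 ≤ finrank k (V ^ 1 : Submodule k S) := by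
    apply finrank_pos_of_ne
    rw [pow_one]
    exact hne
  have hnb : ∀ x ∈ V, x ≠ 0 → V ^ 3 ≠ ⊥ := by
    intro x hx hx0 h0
    apply h.lv_ne_bot (i := 1) (j := 2) (by omega) (mem_pow_one hx) hx0
    rw [eq_bot_iff, ← h0]
    exact (lv_le_mul (mem_pow_one hx)).trans (pow_mul_le rfl)
  -- dimension one
  have h1 : finrank k (V ^ 1 : Submodule k S) ≠ 1 := by
    intro h1
    have h2 := eq_span_of_le_one h1.le (mem_pow_one hx₀) hx₀0
    have h3 : V ≤ Submodule.span k {x₀} := by rw [pow_one] at h2; exact h2.le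
    have h4 : V ^ 2 ≤ Submodule.span k {x₀ * x₀} := by
      rw [pow_two]
      refine (H76Alg.smul_mono h3 h3).trans ?_
      rw [Submodule.span_mul_span, Set.singleton_mul_singleton]
    apply hnb x₀ hx₀ hx₀0
    rw [eq_bot_iff]
    refine hc3.trans (cm_le h3 h4 ?_)
    rintro a rfl b rfl
    rw [mul_assoc, sub_self]
    exact Submodule.zero_mem _
  have hV' : finrank k (V ^ 1 : Submodule k S) = 2 := by omega
  have h2 := h.two_le_sq (by omega) (by omega)
  have hV2' : finrank k (V ^ 2 : Submodule k S) = 2 := by omega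
  obtain ⟨v, hv, x, hx, hv0, hx0, hvx⟩ := h.exists_zero_pair (by omega) (by omega)
  have h3 := h.zero_pair (by omega) hv hx hvx
  have h4 := h.zero_pair' (by omega) hv hx hvx
  have h5 := h.lv_pos (i := 1) (j := 2) (by omega) (mem_pow_one hv) hv0
  have h6 := h.rv_pos (i := 1) (j := 2) (by omega) (mem_pow_one hx) hx0
  have hspan2 : ∀ w ∈ V, w ∉ Submodule.span k {x} → V ≤ Submodule.span k {x, w} := by
    intro w hw hwx
    have h4 := le_sup_span (W := Submodule.span k {x}) (X := V ^ 1)
      (by rw [Submodule.span_singleton_le_iff_mem]; exact mem_pow_one hx)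
      (by rw [finrank_span_singleton hx0]; omega) (mem_pow_one hw) hwx
    rw [pow_one] at h4
    rw [Submodule.span_insert]
    exact h4.le
  -- `v` is a multiple of `x`
  have hvx' : v ∈ Submodule.span k {x} := by
    by_contra hcon
    have hsp := hspan2 v hv hcon
    have hsq := sq_le_pair hsp
    by_cases hxv : x * v = 0
    · apply hnb x hx hx0
      rw [eq_bot_iff]
      refine hc3.trans (cm_le hsp hsq ?_)
      have e : ∀ a b : S, a = 0 → b = 0 → a - b ∈ (⊥ : Submodule k S) := by
        rintro a b rfl rfl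
        rw [sub_zero]; exact Submodule.zero_mem _
      rintro a (rfl | rfl) b (rfl | rfl | rfl | rfl)
      · rw [mul_assoc, sub_self]; exact Submodule.zero_mem _
      · rw [hxv]; simp
      · rw [hvx]; simp
      · apply e
        · rw [← mul_assoc, hxv, zero_mul]
        · rw [mul_assoc, hvx, mul_zero]
      · apply e
        · rw [← mul_assoc, hvx, zero_mul]
        · rw [mul_assoc, hxv, mul_zero]
      · rw [hxv]; simp
      · rw [hvx]; simp
      · rw [mul_assoc, sub_self]; exact Submodule.zero_mem _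
    · have fl := fin_lv x (V ^ 1)
      have fr := fin_rv v (V ^ 1)
      have e1 := eq_span_of_le_one (X := lv x (V ^ 1)) (by omega) (mul_mem_lv (mem_pow_one hv)) hxv
      have e2 := eq_span_of_le_one (X := rv v (V ^ 1)) (by omega) (mul_mem_rv (mem_pow_one hx)) hxv
      have e3 : x * x ∈ Submodule.span k {x * v} := by rw [← e1]; exact mul_mem_lv (mem_pow_one hx)
      have e4 : v * v ∈ Submodule.span k {x * v} := by rw [← e2]; exact mul_mem_rv (mem_pow_one hv)
      have e5 : V ^ 2 ≤ Submodule.span k {x * v} := by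
        refine hsq.trans ?_
        rw [Submodule.span_le]
        rintro t (rfl | rfl | rfl | rfl)
        · exact e3
        · exact Submodule.mem_span_singleton_self _
        · rw [hvx]; exact Submodule.zero_mem _
        · exact e4
      have e6 := Submodule.finrank_mono e5
      have e7 := finrank_span_one_le (k := k) (x * v)
      omega
  have hxx : x * x = 0 := by
    obtain ⟨c, rfl⟩ := Submodule.mem_span_singleton.1 hvx'
    have hc0 : c ≠ 0 := by
      rintro rfl
      exact hv0 (zero_smul _ _)
    rw [smul_mul_assoc] at hvx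
    exact (smul_eq_zero.1 hvx).resolve_left hc0
  have hxx' : ∀ t, x * (x * t) = 0 := fun t => by rw [← mul_assoc, hxx, zero_mul]
  obtain ⟨w, hw, hwx⟩ := exists_not_mem_of_finrank_lt (W := Submodule.span k {x}) (X := V ^ 1) (by
    rw [finrank_span_singleton hx0]; omega)
  rw [pow_one] at hw
  have hsp := hspan2 w hw hwx
  have hsp1 : V ^ 1 ≤ Submodule.span k {x, w} := by rw [pow_one]; exact hsp
  have hxw0 : x * w ≠ 0 := by
    intro h0
    apply h.lv_ne_bot (i := 1) (j := 1) (by omega) (mem_pow_one hx) hx0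
    apply lv_eq_bot_of_span hsp1
    rintro t (rfl | rfl)
    · exact hxx
    · exact h0
  have hwx0 : w * x ≠ 0 := by
    intro h0
    apply h.rv_ne_bot (i := 1) (j := 1) (by omega) (mem_pow_one hx) hx0
    rw [eq_bot_iff]
    intro t ht
    obtain ⟨s, hs, rfl⟩ := mem_rv.1 ht
    obtain ⟨a, b, rfl⟩ := Submodule.mem_span_pair.1 (hsp1 hs)
    rw [add_mul, smul_mul_assoc, smul_mul_assoc, hxx, h0, smul_zero, smul_zero, add_zero]
    exact Submodule.zero_mem _
  have hsq := sq_le_pair hsp
  have hnx3 := h.lv_ne_bot (i := 1) (j := 3) (by omega) (mem_pow_one hx) hx0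
  -- `x w` and `w x` are independent
  have hind : x * w ∉ Submodule.span k {w * x} := by
    intro hmem
    obtain ⟨c, hc⟩ := Submodule.mem_span_singleton.1 hmem
    have e1 : x * (w * x) = 0 := by
      rw [← mul_assoc, ← hc, smul_mul_assoc, mul_assoc, hxx, mul_zero, smul_zero]
    have e2 : w * (x * w) = c • (w * (w * x)) := by rw [← hc, mul_smul_comm]
    have e3 : x * (w * w) = (c * c) • (w * (w * x)) := by
      rw [← mul_assoc, ← hc, smul_mul_assoc, mul_assoc, e2, smul_smul]
    have hsq' : V ^ 2 ≤ Submodule.span k {w * x, w * w} := by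
      refine hsq.trans ?_
      rw [Submodule.span_le]
      rintro t (rfl | rfl | rfl | rfl)
      · rw [hxx]; exact Submodule.zero_mem _
      · rw [← hc]; exact Submodule.smul_mem _ _ (Submodule.subset_span (by simp))
      · exact Submodule.subset_span (by simp)
      · exact Submodule.subset_span (by simp)
    have m1 : w * (w * x) ∈ Submodule.span k {w * (w * x)} := Submodule.mem_span_singleton_self _
    have e4 : V ^ 3 ≤ Submodule.span k {w * (w * x)} := by
      refine hc3.trans (cm_le hsp hsq' ?_)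
      rintro a (rfl | rfl) b (rfl | rfl)
      · rw [e1, mul_assoc, hxx, mul_zero, sub_zero]; exact Submodule.zero_mem _
      · rw [e3, mul_assoc]
        exact Submodule.sub_mem _ (Submodule.smul_mem _ _ m1) m1
      · rw [mul_assoc, e2]
        exact Submodule.sub_mem _ m1 (Submodule.smul_mem _ _ m1)
      · rw [mul_assoc, sub_self]; exact Submodule.zero_mem _
    apply hnx3
    apply lv_eq_bot_of_span e4
    rintro t rfl
    rw [show x * (w * (w * x)) = x * (w * w) * x by noncomm_ring, e3, smul_mul_assoc, mul_assoc, mul_assoc, hxx,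
      mul_zero, mul_zero, smul_zero]
  have hW2 : V ^ 2 ≤ Submodule.span k {x * w, w * x} := by
    have e1 := le_sup_span (W := Submodule.span k {w * x}) (X := V ^ 2)
      (by rw [Submodule.span_singleton_le_iff_mem]; exact hmul w hw x hx)
      (by rw [finrank_span_singleton hwx0]; omega) (hmul x hx w hw) hind
    rw [e1]
    refine sup_le (Submodule.span_mono ?_) (Submodule.span_mono ?_)
    · rintro t rfl; simp
    · rintro t rfl; simp
  obtain ⟨a, b, hww⟩ := Submodule.mem_span_pair.1 (hW2 (hmul w hw w hw))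
  have hxww : x * (w * w) = b • (x * (w * x)) := by
    rw [← hww, mul_add, mul_smul_comm, mul_smul_comm, hxx', smul_zero, zero_add]
  have hwwx : w * w * x = a • (x * (w * x)) := by
    rw [← hww, add_mul, smul_mul_assoc, smul_mul_assoc, mul_assoc, mul_assoc, hxx, mul_zero, smul_zero, add_zero]
  have hV3' : ∀ {p q : S}, V ≤ Submodule.span k {p, q} → V ^ 2 ≤ Submodule.span k {p * q, q * p} →
      V ^ 3 ≤ Submodule.span k {p * (p * q), p * (q * p), q * (p * q), q * (q * p)} := by
    intro p q h1 h2
    rw [pow_succ' V 2]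
    refine (H76Alg.smul_mono h1 h2).trans ?_
    rw [Submodule.span_mul_span, Submodule.span_le]
    rintro _ ⟨s, (rfl | rfl), t, (rfl | rfl), rfl⟩
    · exact Submodule.subset_span (by simp)
    · exact Submodule.subset_span (by simp)
    · exact Submodule.subset_span (by simp)
    · exact Submodule.subset_span (by simp)
  have hwxw0 : w * (x * w) ≠ 0 := by
    intro h0
    apply hnx3
    apply lv_eq_bot_of_span (hV3' hsp hW2)
    rintro t (rfl | rfl | rfl | rfl)
    · rw [hxx']
    · rw [hxx']
    · rw [h0, mul_zero]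
    · rw [show w * (w * x) = w * w * x by noncomm_ring, hwwx, mul_smul_comm, hxx', smul_zero]
  have hab : a = b := by
    have e1 : w * w * w = (a * b) • (x * (w * x)) + b • (w * (x * w)) := by
      conv_lhs => rw [← hww]
      rw [add_mul, smul_mul_assoc, smul_mul_assoc, mul_assoc, hxww, smul_smul, mul_assoc]
    have e2 : w * (w * w) = a • (w * (x * w)) + (a * b) • (x * (w * x)) := by
      conv_lhs => rw [← hww]
      rw [mul_add, mul_smul_comm, mul_smul_comm, show w * (w * x) = w * w * x by noncomm_ring, hwwx, smul_smul,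
        mul_comm b a]
    have e3 : (b - a) • (w * (x * w)) = 0 := by
      rw [mul_assoc, e2] at e1
      rw [sub_smul, sub_eq_zero]
      have := e1.symm
      rw [add_comm (a • _)] at this
      exact add_left_cancel this
    exact (sub_eq_zero.1 ((smul_eq_zero.1 e3).resolve_right hwxw0)).symm
  -- the second square-zero element
  obtain ⟨y, hydef⟩ : ∃ y, y = w - a • x := ⟨_, rfl⟩
  have hyV : y ∈ V := by rw [hydef]; exact V.sub_mem hw (V.smul_mem _ hx)
  have hxy : x * y = x * w := by rw [hydef, mul_sub, mul_smul_comm, hxx, smul_zero, sub_zero]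
  have hyx : y * x = w * x := by rw [hydef, sub_mul, smul_mul_assoc, hxx, smul_zero, sub_zero]
  have hyy : y * y = 0 := by
    rw [hydef, sub_mul, mul_sub, mul_sub, smul_mul_assoc, smul_mul_assoc, mul_smul_comm, mul_smul_comm, hxx,
      smul_zero, smul_zero, sub_zero, ← hww, hab]
    abel
  have hyy' : ∀ t, y * (y * t) = 0 := fun t => by rw [← mul_assoc, hyy, zero_mul]
  have hspy : V ≤ Submodule.span k {x, y} := by
    apply hspan2 y hyV
    intro hmem
    apply hwx
    have : w = y + a • x := by rw [hydef]; abel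
    rw [this]
    exact Submodule.add_mem _ hmem (Submodule.smul_mem _ _ (Submodule.mem_span_singleton_self _))
  have hW2y : V ^ 2 ≤ Submodule.span k {x * y, y * x} := by rw [hxy, hyx]; exact hW2
  refine ⟨x, hx, y, hyV, hx0, hspy, hxx, hyy, hW2y, hV', hV2', ?_⟩
  intro α β hαβ
  -- if the four fold products vanish we are done
  have hfour : ¬ (x * (y * (x * y)) = 0) := by
    intro h0
    apply hnx3
    apply lv_eq_bot_of_span (hV3' hspy hW2y)
    rintro t (rfl | rfl | rfl | rfl)
    · rw [hxx']
    · rw [hxx']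
    · exact h0
    · rw [hyy', mul_zero]
  constructor
  · have := congrArg (fun t => t * y) hαβ
    simp only [add_mul, smul_mul_assoc, mul_assoc, hyy, mul_zero, smul_zero, add_zero, zero_mul] at this
    exact (smul_eq_zero.1 this).resolve_right hfour
  · have := congrArg (fun t => x * t) hαβ
    simp only [mul_add, mul_smul_comm, hxx', smul_zero, zero_add, mul_zero] at this
    exact (smul_eq_zero.1 this).resolve_right hfour

/-- the length is four -/
theorem GS.two_gen_four (h : GS V lam m) (hm : 5 ≤ m) {x y : S} (hx : x ∈ V) (hy : y ∈ V) (hx0 : x ≠ 0)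
    (hV : V ≤ Submodule.span k {x, y}) (hxx : x * x = 0) (hyy : y * y = 0)
    (hV2 : V ^ 2 ≤ Submodule.span k {x * y, y * x}) (hc4 : V ^ 4 ≤ cm V (V ^ 3)) : False := by
  have hxx' : ∀ t, x * (x * t) = 0 := fun t => by rw [← mul_assoc, hxx, zero_mul]
  have hyy' : ∀ t, y * (y * t) = 0 := fun t => by rw [← mul_assoc, hyy, zero_mul]
  have hV3 : V ^ 3 ≤ Submodule.span k {x * (y * x), y * (x * y)} := by
    rw [pow_succ' V 2]
    refine (H76Alg.smul_mono hV hV2).trans ?_
    rw [Submodule.span_mul_span, Submodule.span_le]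
    rintro _ ⟨s, (rfl | rfl), t, (rfl | rfl), rfl⟩
    · show s * (s * y) ∈ _
      rw [hxx']; exact Submodule.zero_mem _
    · exact Submodule.subset_span (by simp)
    · exact Submodule.subset_span (by simp)
    · show s * (s * x) ∈ _
      rw [hyy']; exact Submodule.zero_mem _
  obtain ⟨g, hg⟩ : ∃ g, g = x * (y * (x * y)) - y * (x * (y * x)) := ⟨_, rfl⟩
  have m1 : g ∈ Submodule.span k {g} := Submodule.mem_span_singleton_self _
  have hV4 : V ^ 4 ≤ Submodule.span k {g} := by
    refine hc4.trans (cm_le hV hV3 ?_)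
    rintro a (rfl | rfl) b (rfl | rfl)
    · simp only [hxx', mul_assoc, hxx, mul_zero, sub_zero]; exact Submodule.zero_mem _
    · simp only [mul_assoc]
      rw [← hg]; exact m1
    · simp only [mul_assoc]
      have := Submodule.neg_mem _ m1
      rwa [hg, neg_sub, ← hg] at this
    · simp only [hyy', mul_assoc, hyy, mul_zero, sub_zero]; exact Submodule.zero_mem _
  have hmul : ∀ {i : ℕ} {a b : S}, a ∈ V → b ∈ V ^ i → a * b ∈ V ^ (i + 1) := by
    intro i a b ha hb
    rw [pow_succ']
    exact Submodule.mul_mem_mul ha hb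
  have h4 : x * (y * (x * y)) ∈ V ^ 4 := hmul hx (hmul hy (hmul hx (by rwa [pow_one])))
  obtain ⟨t, ht⟩ := Submodule.mem_span_singleton.1 (hV4 h4)
  have hxg : x * g = -(x * (y * (x * (y * x)))) := by rw [hg, mul_sub, hxx', zero_sub]
  have hgx : g * x = x * (y * (x * (y * x))) := by
    rw [hg, sub_mul]; simp only [mul_assoc, hxx, mul_zero, sub_zero]
  have hxg0 : x * g = 0 := by
    have e1 := congrArg (fun s => x * s) ht
    have e2 := congrArg (fun s => s * x) ht
    simp only [mul_smul_comm, smul_mul_assoc, hxx', mul_assoc, hxg, hgx, smul_neg] at e1 e2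
    rw [hxg, neg_eq_zero, ← e2]
    exact neg_eq_zero.1 e1
  apply h.lv_ne_bot (i := 1) (j := 4) (by omega) (mem_pow_one hx) hx0
  apply lv_eq_bot_of_span hV4
  rintro s rfl
  exact hxg0

end Cfsg.Agent.Lib.H76GS
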