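import Cfsg.Agent.Lib.H76GS6
import Mathlib.Algebra.Polynomial.AlgebraMap
import Mathlib.RingTheory.Ideal.Quotient.Operations

/-!
# The graded symmetric algebra of a symmetric local algebra
-/

set_option autoImplicit false
set_option linter.all false

namespace Cfsg.Agent.Lib.H76GS

open Module Polynomial Cfsg.Agent.Lib.H76Alg

universe u v

variable {k : Type v} [Field k] {R : Type u} [Ring R] [Algebra k R]

/-- the filtration -/
def Nf (N : Submodule k R) (i : ℕ) : Submodule k R := if i = 0 then ⊤ else N ^ i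

variable {N : Submodule k R}

theorem Nf_of_pos {i : ℕ} (hi : 1 ≤ i) : Nf N i = N ^ i := by
  unfold Nf
  rw [if_neg (by omega)]

theorem Nf_mul (h : LocD k N) {i j : ℕ} {a b : R} (ha : a ∈ Nf N i) (hb : b ∈ Nf N j) : a * b ∈ Nf N (i + j) := by
  rcases Nat.eq_zero_or_pos i with rfl | hi
  · rcases Nat.eq_zero_or_pos j with rfl | hj
    · unfold Nf
      rw [if_pos rfl]
      trivial
    · rw [zero_add]
      rw [Nf_of_pos hj] at hb ⊢
      exact h.pow_ideal (by omega) a hb
  · rcases Nat.eq_zero_or_pos j with rfl | hj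
    · rw [add_zero]
      rw [Nf_of_pos hi] at ha ⊢
      exact h.pow_ideal' (by omega) b ha
    · rw [Nf_of_pos hi] at ha
      rw [Nf_of_pos hj] at hb
      rw [Nf_of_pos (by omega), pow_add]
      exact Submodule.mul_mem_mul ha hb

/-- the Rees algebra -/
def TT (h : LocD k N) : Subalgebra k R[X] where
  carrier := {f | ∀ i, f.coeff i ∈ Nf N i}
  mul_mem' := by
    intro f g hf hg i
    rw [coeff_mul]
    apply Submodule.sum_mem
    intro x hx
    have := Nf_mul h (hf x.1) (hg x.2)
    rwa [Finset.HasAntidiagonal.mem_antidiagonal.1 hx] at this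
  add_mem' := by
    intro f g hf hg i
    rw [coeff_add]
    exact Submodule.add_mem _ (hf i) (hg i)
  algebraMap_mem' := by
    intro c i
    rw [Polynomial.algebraMap_apply, coeff_C]
    split_ifs with h0
    · rw [h0]; unfold Nf; rw [if_pos rfl]; trivial
    · exact Submodule.zero_mem _

theorem mem_TT {h : LocD k N} {f : R[X]} : f ∈ TT h ↔ ∀ i, f.coeff i ∈ Nf N i := Iff.rfl

/-- the form on the Rees algebra -/
noncomputable def LL (h : LocD k N) (lam : R →ₗ[k] k) (m : ℕ) : TT h →ₗ[k] k where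
  toFun f := lam ((f : R[X]).coeff m)
  map_add' f g := by
    show lam (((f : R[X]) + (g : R[X])).coeff m) = _
    rw [coeff_add, map_add]
  map_smul' c f := by
    show lam ((c • (f : R[X])).coeff m) = _
    rw [coeff_smul, map_smul]
    rfl

theorem LL_apply (h : LocD k N) (lam : R →ₗ[k] k) (m : ℕ) (f : TT h) : LL h lam m f = lam ((f : R[X]).coeff m) := rfl

theorem LL_comm (h : LocD k N) {lam : R →ₗ[k] k} (htr : ∀ a b, lam (a * b) = lam (b * a)) (m : ℕ) (f g : TT h) :
    LL h lam m (f * g) = LL h lam m (g * f) := by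
  rw [LL_apply, LL_apply]
  show lam (((f : R[X]) * (g : R[X])).coeff m) = lam (((g : R[X]) * (f : R[X])).coeff m)
  rw [coeff_mul, coeff_mul, map_sum, map_sum]
  refine Finset.sum_bij (fun x _ => x.swap) ?_ ?_ ?_ ?_
  · intro x hx
    rw [Finset.HasAntidiagonal.mem_antidiagonal] at hx ⊢
    rw [← hx]
    exact add_comm _ _
  · intro x _ y _ hxy
    exact Prod.swap_injective hxy
  · intro x hx
    refine ⟨x.swap, ?_, Prod.swap_swap x⟩
    rw [Finset.HasAntidiagonal.mem_antidiagonal] at hx ⊢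
    rw [← hx]
    exact add_comm _ _
  · intro x _
    exact htr _ _

/-- the kernel ideal -/
def II (h : LocD k N) (lam : R →ₗ[k] k) (m : ℕ) : Ideal (TT h) where
  carrier := {f | ∀ g, LL h lam m (g * f) = 0}
  add_mem' := by
    intro a b ha hb g
    rw [mul_add, map_add, ha, hb, add_zero]
  zero_mem' := by
    intro g
    rw [mul_zero, map_zero]
  smul_mem' := by
    intro c f hf g
    rw [smul_eq_mul, ← mul_assoc]
    exact hf _

theorem mem_II {h : LocD k N} {lam : R →ₗ[k] k} {m : ℕ} {f : TT h} :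
    f ∈ II h lam m ↔ ∀ g, LL h lam m (g * f) = 0 := Iff.rfl

theorem II_two (h : LocD k N) {lam : R →ₗ[k] k} (htr : ∀ a b, lam (a * b) = lam (b * a)) (m : ℕ) :
    (II h lam m).IsTwoSided := ⟨by
  intro a b ha
  rw [mem_II] at ha ⊢
  intro g
  rw [← mul_assoc, LL_comm h htr, ← mul_assoc]
  exact ha _⟩

/-- monomials -/
noncomputable def mon (h : LocD k N) (i : ℕ) : Nf N i →ₗ[k] TT h where
  toFun a := ⟨monomial i (a : R), by
    rw [mem_TT]
    intro j
    rw [coeff_monomial]
    split_ifs with h0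
    · rw [← h0]; exact a.2
    · exact Submodule.zero_mem _⟩
  map_add' a b := Subtype.ext (by
    show monomial i ((a : R) + (b : R)) = monomial i (a : R) + monomial i (b : R)
    rw [map_add])
  map_smul' c a := Subtype.ext (by
    show monomial i (c • (a : R)) = c • monomial i (a : R)
    rw [Polynomial.smul_monomial])

theorem coe_mon (h : LocD k N) (i : ℕ) (a : Nf N i) : ((mon h i a : TT h) : R[X]) = monomial i (a : R) := rfl

theorem mon_mul (h : LocD k N) {i j : ℕ} (a : Nf N i) (b : Nf N j) :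
    mon h i a * mon h j b = mon h (i + j) ⟨(a : R) * b, Nf_mul h a.2 b.2⟩ := Subtype.ext (by
  show monomial i (a : R) * monomial j (b : R) = monomial (i + j) ((a : R) * b)
  rw [monomial_mul_monomial])

/-- the graded algebra attached to a local algebra -/
structure Grd (N : Submodule k R) (lam : R →ₗ[k] k) (m : ℕ) {S : Type u} [Ring S] [Algebra k S]
    (V : Submodule k S) (lamS : S →ₗ[k] k) (z : ℕ → R →ₗ[k] S) : Prop where
  gs : GS V lamS m
  rng : ∀ i, 1 ≤ i → (N ^ i).map (z i) = V ^ i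
  mul : ∀ i j, 1 ≤ i → 1 ≤ j → ∀ a ∈ N ^ i, ∀ b ∈ N ^ j, z i a * z j b = z (i + j) (a * b)
  lm : ∀ a ∈ N ^ m, lamS (z m a) = lam a
  ker : ∀ i j, 1 ≤ i → 1 ≤ j → i + j = m → ∀ a ∈ N ^ i, (∀ b ∈ N ^ j, lam (a * b) = 0) → z i a = 0

theorem exists_grd [FiniteDimensional k R] (h : LocD k N) {lam : R →ₗ[k] k} (hl : SymF lam) {m : ℕ} (hm : 1 ≤ m)
    (hN : N ^ m ≠ ⊥) (hN' : N ^ (m + 1) = ⊥) :
    ∃ (S : Type u) (_ : Ring S) (_ : Algebra k S) (V : Submodule k S) (lamS : S →ₗ[k] k) (z : ℕ → R →ₗ[k] S),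
      Grd N lam m V lamS z := by
  have htw : (II h lam m).IsTwoSided := II_two h hl.tr m
  set S := (TT h) ⧸ (II h lam m) with hS
  set π : TT h →ₐ[k] S := Ideal.Quotient.mkₐ k (II h lam m) with hπ
  have hsurj : Function.Surjective π := Ideal.Quotient.mkₐ_surjective k (II h lam m)
  have hker : ∀ f, π f = 0 ↔ f ∈ II h lam m := by
    intro f
    rw [hπ, Ideal.Quotient.mkₐ_eq_mk, Ideal.Quotient.eq_zero_iff_mem]
  -- the form
  obtain ⟨lamS, hlamS⟩ : ∃ lamS : S →ₗ[k] k, ∀ f, lamS (π f) = LL h lam m f := by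
    have hle : LinearMap.ker π.toLinearMap ≤ LinearMap.ker (LL h lam m) := by
      intro f hf
      have h1 : f ∈ II h lam m := (hker f).1 hf
      have h2 := mem_II.1 h1 1
      rw [one_mul] at h2
      exact h2
    obtain ⟨g, hg⟩ := LinearMap.exists_rightInverse_of_surjective π.toLinearMap
      (LinearMap.range_eq_top.2 hsurj)
    refine ⟨LL h lam m ∘ₗ g, fun f => ?_⟩
    have h1 : g (π f) - f ∈ LinearMap.ker π.toLinearMap := by
      rw [LinearMap.mem_ker, map_sub, sub_eq_zero]
      exact LinearMap.congr_fun hg (π f)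
    have h2 := hle h1
    rw [LinearMap.mem_ker, map_sub, sub_eq_zero] at h2
    exact h2
  -- the maps `z`
  obtain ⟨z, hz⟩ : ∃ z : ℕ → R →ₗ[k] S, ∀ i (a : Nf N i), z i a = π (mon h i a) := by
    have h1 : ∀ i, ∃ z : R →ₗ[k] S, z ∘ₗ (Nf N i).subtype = π.toLinearMap ∘ₗ mon h i := fun i =>
      LinearMap.exists_extend _
    choose z hz using h1
    exact ⟨z, fun i a => LinearMap.congr_fun (hz i) a⟩
  have hmul : ∀ i j, 1 ≤ i → 1 ≤ j → ∀ a ∈ N ^ i, ∀ b ∈ N ^ j, z i a * z j b = z (i + j) (a * b) := by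
    intro i j hi hj a ha b hb
    rw [← Nf_of_pos hi] at ha
    rw [← Nf_of_pos hj] at hb
    have h1 := hz i ⟨a, ha⟩
    have h2 := hz j ⟨b, hb⟩
    have h3 := hz (i + j) ⟨a * b, Nf_mul h ha hb⟩
    simp only at h1 h2 h3
    rw [h1, h2, h3, ← map_mul, mon_mul]
  have hrng : ∀ i, (N ^ (i + 1)).map (z (i + 1)) = (N.map (z 1)) ^ (i + 1) := by
    intro i
    induction i with
    | zero => rw [zero_add, pow_one, pow_one]
    | succ i ih =>
      rw [pow_succ (N.map (z 1)) (i + 1), ← ih]
      apply le_antisymm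
      · rw [Submodule.map_le_iff_le_comap, pow_succ, Submodule.mul_le]
        intro a ha b hb
        rw [Submodule.mem_comap, ← hmul (i + 1) 1 (by omega) le_rfl a ha b (by rwa [pow_one])]
        exact Submodule.mul_mem_mul (Submodule.mem_map_of_mem ha) (Submodule.mem_map_of_mem hb)
      · rw [Submodule.mul_le]
        rintro _ ⟨a, ha, rfl⟩ _ ⟨b, hb, rfl⟩
        rw [hmul (i + 1) 1 (by omega) le_rfl a ha b (by rwa [pow_one])]
        refine Submodule.mem_map_of_mem ?_
        rw [pow_succ N (i + 1)]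
        exact Submodule.mul_mem_mul ha hb
  have hlm : ∀ a ∈ N ^ m, lamS (z m a) = lam a := by
    intro a ha
    rw [← Nf_of_pos hm] at ha
    have h1 := hz m ⟨a, ha⟩
    simp only at h1
    rw [h1, hlamS, LL_apply, coe_mon, coeff_monomial, if_pos rfl]
  have hkr : ∀ i j, 1 ≤ i → i + j = m → ∀ a ∈ N ^ i, (∀ b ∈ Nf N j, lam (a * b) = 0) → z i a = 0 := by
    intro i j hi hij a ha hb
    rw [← Nf_of_pos hi] at ha
    have h1 := hz i ⟨a, ha⟩
    simp only at h1
    rw [h1, hker, mem_II]
    intro g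
    rw [LL_comm h hl.tr, LL_apply]
    show lam ((monomial i a * (g : R[X])).coeff m) = 0
    rw [← hij, add_comm i j, coeff_monomial_mul]
    exact hb _ (g.2 j)
  obtain ⟨b₀, hb₀, hb₀0⟩ := Submodule.exists_mem_ne_zero_of_ne_bot hN
  have hsoc : ∀ b ∈ N ^ m, ∀ n ∈ N, n * b = 0 := by
    intro b hb n hn
    have : n * b ∈ N ^ (m + 1) := by
      rw [pow_succ']
      exact Submodule.mul_mem_mul hn hb
    rwa [hN'] at this
  refine ⟨S, inferInstance, inferInstance, N.map (z 1), lamS, z, ⟨?_, ?_, ?_⟩, ?_, hmul, hlm, ?_⟩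
  · apply Submodule.FG.map
    exact Module.Finite.iff_fg.1 inferInstance
  · intro a b
    obtain ⟨f, rfl⟩ := hsurj a
    obtain ⟨g, rfl⟩ := hsurj b
    rw [← map_mul, ← map_mul, hlamS, hlamS]
    exact LL_comm h hl.tr m f g
  · intro i j hij a ha hab
    rcases Nat.eq_zero_or_pos i with rfl | hi
    · rw [pow_zero, Submodule.mem_one] at ha
      obtain ⟨c, rfl⟩ := ha
      have hjm : j = m := by omega
      subst hjm
      have h1 := hab (z j b₀) (by
        obtain ⟨j, rfl⟩ := Nat.exists_eq_add_of_le' hm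
        rw [← hrng]
        exact Submodule.mem_map_of_mem hb₀)
      rw [← Algebra.smul_def, map_smul, hlm b₀ hb₀, smul_eq_mul] at h1
      have h2 := h.lam_ne_zero hl hb₀0 (hsoc b₀ hb₀)
      have h3 := (mul_eq_zero.1 h1).resolve_right h2
      rw [h3, map_zero]
    · rcases Nat.eq_zero_or_pos j with rfl | hj
      · have him : i = m := by omega
        subst him
        obtain ⟨i, rfl⟩ := Nat.exists_eq_add_of_le' hi
        rw [← hrng] at ha
        obtain ⟨a₀, ha₀, rfl⟩ := ha
        have h1 := hab 1 (by rw [pow_zero]; exact Submodule.one_le.1 le_rfl)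
        rw [mul_one, hlm a₀ ha₀] at h1
        by_contra hne
        have ha00 : a₀ ≠ 0 := by
          rintro rfl
          exact hne (map_zero _)
        exact h.lam_ne_zero hl ha00 (hsoc a₀ ha₀) h1
      · obtain ⟨i, rfl⟩ := Nat.exists_eq_add_of_le' hi
        rw [← hrng] at ha
        obtain ⟨a₀, ha₀, rfl⟩ := ha
        apply hkr (i + 1) j (by omega) hij a₀ ha₀
        intro b hb
        rw [Nf_of_pos hj] at hb
        obtain ⟨j, rfl⟩ := Nat.exists_eq_add_of_le' hj
        have h1 := hab (z (j + 1) b) (by rw [← hrng]; exact Submodule.mem_map_of_mem hb)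
        rw [hmul (i + 1) (j + 1) (by omega) (by omega) a₀ ha₀ b hb, hij] at h1
        rwa [hlm] at h1
        rw [← hij, pow_add]
        exact Submodule.mul_mem_mul ha₀ hb
  · intro i hi
    obtain ⟨i, rfl⟩ := Nat.exists_eq_add_of_le' hi
    exact hrng i
  · intro i j hi hj hij a ha hb
    apply hkr i j hi hij a ha
    rw [Nf_of_pos hj]
    exact hb

end Cfsg.Agent.Lib.H76GS
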