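import Cfsg.Agent.Lib.H76GS7

/-!
# Symmetric local algebras whose square has dimension one modulo the cube
-/

set_option autoImplicit false
set_option linter.all false

namespace Cfsg.Agent.Lib.H76GS

open Module Cfsg.Agent.Lib.H76Alg

universe u v

variable {k : Type v} [Field k] {R : Type u} [Ring R] [Algebra k R] {N : Submodule k R}

theorem comm_of_two_comm (h : LocD k N) {x y : R} (hx : x ∈ N) (hy : y ∈ N)
    (hN : N ≤ Submodule.span k {x, y} ⊔ N ^ 2) (hxy : x * y = y * x) (a b : R) : a * b = b * a := by
  have h1 := h.adjoin_eq_top (V := Submodule.span k {x, y}) (by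
    rw [Submodule.span_le]
    rintro t (rfl | rfl)
    · exact hx
    · exact hy) hN
  have h2 : Algebra.adjoin k {x, y} = ⊤ := by
    rw [eq_top_iff, ← h1, Algebra.adjoin_le_iff]
    intro z hz
    obtain ⟨c, d, rfl⟩ := Submodule.mem_span_pair.mp hz
    exact (Algebra.adjoin k {x, y}).add_mem
      ((Algebra.adjoin k {x, y}).smul_mem (Algebra.subset_adjoin (by simp)) c)
      ((Algebra.adjoin k {x, y}).smul_mem (Algebra.subset_adjoin (by simp)) d)
  have ha : a ∈ Algebra.adjoin k {x, y} := by rw [h2]; trivial
  have hb : b ∈ Algebra.adjoin k {x, y} := by rw [h2]; trivial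
  have h3 : (⟨a, ha⟩ : Algebra.adjoin k {x, y}) * ⟨b, hb⟩ = ⟨b, hb⟩ * ⟨a, ha⟩ := by
    apply Subtype.ext
    exact (Algebra.isMulCommutative_adjoin k (s := {x, y}) (by
      rintro s (rfl | rfl) t (rfl | rfl)
      · rfl
      · exact hxy
      · exact hxy.symm
      · rfl)).is_comm.comm _ _ |> congrArg Subtype.val
  exact congrArg Subtype.val h3

theorem mul_mem_pow {i j l : ℕ} (hl : i + j = l) {a b : R} (ha : a ∈ N ^ i) (hb : b ∈ N ^ j) : a * b ∈ N ^ l := by
  rw [← hl, pow_add]
  exact Submodule.mul_mem_mul ha hb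

theorem mem_pow_one' {a : R} (ha : a ∈ N) : a ∈ N ^ 1 := by rwa [pow_one]

/-- the degenerate case -/
theorem degenerate (h : LocD k N) {lam : R →ₗ[k] k} (hl : SymF lam) {x y : R} (hx : x ∈ N) (hy : y ∈ N)
    (hN : N ≤ Submodule.span k {x, y} ⊔ N ^ 2) (h2 : N ^ 2 ≤ Submodule.span k {x * x} ⊔ N ^ 3)
    (hxy : x * y ∈ N ^ 3) (hyx : y * x ∈ N ^ 3) (a b : R) : a * b = b * a := by
  obtain ⟨n, hn⟩ := h.nil
  have hxp : ∀ i, x ^ i ∈ N ^ i := fun i => Submodule.pow_mem_pow N hx i
  have step : ∀ i, N ^ (i + 2) ≤ Submodule.span k {x ^ (i + 2)} ⊔ N ^ (i + 3) := by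
    intro i
    induction i with
    | zero => simpa [pow_two] using h2
    | succ i ih =>
      calc N ^ (i + 1 + 2) = N ^ (i + 2) * N := by rw [← pow_succ]
        _ ≤ (Submodule.span k {x ^ (i + 2)} ⊔ N ^ (i + 3)) * (Submodule.span k {x, y} ⊔ N ^ 2) := smul_mono ih hN
        _ ≤ _ := by
          rw [Submodule.sup_mul, Submodule.mul_sup]
          refine sup_le (sup_le ?_ ?_) ?_
          · rw [Submodule.span_mul_span, Submodule.span_le]
            rintro _ ⟨s, hs, t, (rfl | rfl), rfl⟩
            · rw [Set.mem_singleton_iff] at hs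
              subst hs
              refine Submodule.mem_sup_left (Submodule.mem_span_singleton.2 ⟨1, ?_⟩)
              rw [one_smul]
              show t ^ (i + 1 + 2) = t ^ (i + 2) * t
              rw [← pow_succ]
            · rw [Set.mem_singleton_iff] at hs
              subst hs
              refine Submodule.mem_sup_right ?_
              show x ^ (i + 2) * t ∈ _
              rw [pow_succ x (i + 1), mul_assoc]
              exact mul_mem_pow (by omega) (hxp (i + 1)) hxy
          · refine le_trans ?_ le_sup_right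
            rw [Submodule.mul_le]
            intro s hs t ht
            obtain ⟨c, rfl⟩ := Submodule.mem_span_singleton.1 hs
            exact mul_mem_pow (by omega) (Submodule.smul_mem _ _ (hxp (i + 2))) ht
          · refine le_trans ?_ le_sup_right
            have h4 : Submodule.span k {x, y} ⊔ N ^ 2 ≤ N := sup_le (by
              rw [Submodule.span_le]
              rintro t (rfl | rfl)
              · exact hx
              · exact hy) (h.pow_le 2 (by omega))
            refine (smul_mono le_rfl h4).trans ?_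
            rw [← pow_succ]
  obtain ⟨Q, hQ⟩ : ∃ Q : Submodule k R, Q = Submodule.span k {z | ∃ j : ℕ, z = x ^ (j + 2)} := ⟨_, rfl⟩
  have hxQ : ∀ j, x ^ (j + 2) ∈ Q := fun j => by rw [hQ]; exact Submodule.subset_span ⟨j, rfl⟩
  have hQN : Q ≤ N ^ 2 := by
    rw [hQ, Submodule.span_le]
    rintro _ ⟨j, rfl⟩
    exact h.pow_anti (by omega) (by omega) (hxp (j + 2))
  have hNQ : N ^ 2 ≤ Q := by
    have h3 : ∀ i, N ^ 2 ≤ Q ⊔ N ^ (i + 2) := by
      intro i
      induction i with
      | zero => exact le_sup_right
      | succ i ih =>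
        refine ih.trans (sup_le le_sup_left ?_)
        refine (step i).trans (sup_le_sup ?_ (le_of_eq (by congr 1)))
        rw [Submodule.span_singleton_le_iff_mem]
        exact hxQ i
    refine (h3 n).trans ?_
    rw [pow_add, hn, Submodule.bot_mul, sup_bot_eq]
  have hNQ3 : N ^ 3 ≤ rv x Q := by
    have h3 : ∀ i, N ^ 3 ≤ rv x Q ⊔ N ^ (i + 3) := by
      intro i
      induction i with
      | zero => exact le_sup_right
      | succ i ih =>
        refine ih.trans (sup_le le_sup_left ?_)
        refine (step (i + 1)).trans (sup_le_sup ?_ (le_of_eq (by congr 1)))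
        rw [Submodule.span_singleton_le_iff_mem]
        have := mul_mem_rv (v := x) (hxQ i)
        rwa [← pow_succ] at this
    refine (h3 n).trans ?_
    rw [pow_add, hn, Submodule.bot_mul, sup_bot_eq]
  obtain ⟨f, hf, hfx⟩ := mem_rv.1 (hNQ3 hyx)
  obtain ⟨y', hy'⟩ : ∃ y', y' = y - f := ⟨_, rfl⟩
  have hfN : f ∈ N ^ 2 := hQN hf
  have hfN1 : f ∈ N := h.pow_le 2 (by omega) hfN
  have hy'N : y' ∈ N := by rw [hy']; exact N.sub_mem hy hfN1
  have hyx' : y' * x = 0 := by rw [hy', sub_mul, hfx, sub_self]
  have hN' : N ≤ Submodule.span k {x, y'} ⊔ N ^ 2 := by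
    refine hN.trans (sup_le ?_ le_sup_right)
    rw [Submodule.span_le]
    rintro t (rfl | rfl)
    · exact Submodule.mem_sup_left (Submodule.subset_span (by simp))
    · have : t = y' + f := by rw [hy']; abel
      rw [this]
      exact Submodule.add_mem_sup (Submodule.subset_span (by simp)) hfN
  have hgN : x * y' ∈ N ^ 3 := by
    rw [hy', mul_sub]
    exact Submodule.sub_mem _ hxy (mul_mem_pow (by omega) (mem_pow_one' hx) hfN)
  obtain ⟨g, hg⟩ : ∃ g, g = x * y' := ⟨_, rfl⟩
  rw [← hg] at hgN
  have hgQ : g ∈ Q := hNQ (h.pow_anti (by omega) (by omega) hgN)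
  have hcomm : ∀ q ∈ Q, x * q = q * x := by
    intro q hq
    rw [hQ] at hq
    induction hq using Submodule.span_induction with
    | mem q hq =>
      obtain ⟨j, rfl⟩ := hq
      rw [← pow_succ, ← pow_succ']
    | zero => simp
    | add a b _ _ h1 h2 => rw [mul_add, add_mul, h1, h2]
    | smul c a _ h1 => rw [mul_smul_comm, smul_mul_assoc, h1]
  have hy'Q : ∀ q ∈ Q, y' * q = 0 := by
    intro q hq
    rw [hQ] at hq
    induction hq using Submodule.span_induction with
    | mem q hq =>
      obtain ⟨j, rfl⟩ := hq
      rw [pow_succ', ← mul_assoc, hyx', zero_mul]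
    | zero => simp
    | add a b _ _ h1 h2 => rw [mul_add, h1, h2, add_zero]
    | smul c a _ h1 => rw [mul_smul_comm, h1, smul_zero]
  have hxg : x * g = 0 := by
    rw [hcomm g hgQ, hg, mul_assoc, hyx', mul_zero]
  have hQg : ∀ q ∈ Q, q * g = 0 := by
    intro q hq
    rw [hQ] at hq
    induction hq using Submodule.span_induction with
    | mem q hq =>
      obtain ⟨j, rfl⟩ := hq
      rw [pow_succ, mul_assoc, hxg, mul_zero]
    | zero => simp
    | add a b _ _ h1 h2 => rw [add_mul, h1, h2, add_zero]
    | smul c a _ h1 => rw [smul_mul_assoc, h1, smul_zero]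
  have hg0 : g = 0 := by
    by_contra hne
    apply h.lam_ne_zero hl hne
    · intro t ht
      obtain ⟨s, hs, q, hq, rfl⟩ := Submodule.mem_sup.1 (hN' ht)
      obtain ⟨c, d, rfl⟩ := Submodule.mem_span_pair.1 hs
      rw [add_mul, add_mul, smul_mul_assoc, smul_mul_assoc, hxg, hy'Q g hgQ, hQg q (hNQ hq), smul_zero, smul_zero,
        add_zero, add_zero]
    · have h5 := comm_mem_KS (k := k) x y'
      rw [hyx', sub_zero, ← hg] at h5
      exact lam_KS hl h5
  exact comm_of_two_comm h hx hy'N hN' (by rw [← hg, hg0, hyx']) a b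

/-- **square of dimension one modulo the cube** -/
theorem comm_of_sq_one (h : LocD k N) {lam : R →ₗ[k] k} (hl : SymF lam) {x y e : R} (hx : x ∈ N) (hy : y ∈ N)
    (hN : N ≤ Submodule.span k {x, y} ⊔ N ^ 2) (heN : e ∈ N ^ 2) (h2 : N ^ 2 ≤ Submodule.span k {e} ⊔ N ^ 3)
    (hxy : x * y - y * x ∈ N ^ 3) (hN3 : N ^ 3 ≠ ⊥) (r s : R) : r * s = s * r := by
  have hrel : ∀ u ∈ N, ∀ v ∈ N, ∃ β : k, u * v - β • e ∈ N ^ 3 := by
    intro u hu v hv
    have h3 : u * v ∈ N ^ 2 := by rw [pow_two]; exact Submodule.mul_mem_mul hu hv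
    obtain ⟨z, hz, n', hn', h4⟩ := Submodule.mem_sup.mp (h2 h3)
    obtain ⟨β, rfl⟩ := Submodule.mem_span_singleton.mp hz
    exact ⟨β, by rw [← h4]; simpa using hn'⟩
  obtain ⟨a, ha⟩ := hrel x hx x hx
  obtain ⟨b, hb⟩ := hrel x hx y hy
  obtain ⟨d, hd⟩ := hrel y hy y hy
  have hb' : y * x - b • e ∈ N ^ 3 := by
    have h3 := Submodule.sub_mem _ hb hxy
    have h4 : x * y - b • e - (x * y - y * x) = y * x - b • e := by abel
    rwa [h4] at h3
  have hNle : Submodule.span k {x, y} ≤ N := by
    rw [Submodule.span_le]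
    rintro t (rfl | rfl)
    · exact hx
    · exact hy
  by_cases hdet : a * d - b * b = 0
  · by_cases ha0 : a = 0
    · have hb0 : b = 0 := by
        rw [ha0, zero_mul, zero_sub, neg_eq_zero] at hdet
        exact mul_self_eq_zero.1 hdet
      subst ha0
      subst hb0
      rw [zero_smul, sub_zero] at ha hb hb'
      have hd0 : d ≠ 0 := by
        rintro rfl
        rw [zero_smul, sub_zero] at hd
        apply hN3
        have h3 : N ^ 2 ≤ N ^ 3 := by
          calc N ^ 2 = N * N := pow_two N
            _ ≤ (Submodule.span k {x, y} ⊔ N ^ 2) * (Submodule.span k {x, y} ⊔ N ^ 2) := smul_mono hN hN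
            _ ≤ N ^ 3 := by
              rw [Submodule.sup_mul, Submodule.mul_sup]
              refine sup_le (sup_le ?_ ?_) ?_
              · rw [Submodule.span_mul_span, Submodule.span_le]
                rintro _ ⟨s, (rfl | rfl), t, (rfl | rfl), rfl⟩
                · exact ha
                · exact hb
                · exact hb'
                · exact hd
              · refine (smul_mono hNle le_rfl).trans ?_
                rw [← pow_succ']
              · refine (smul_mono le_rfl (sup_le hNle (h.pow_le 2 (by omega)))).trans ?_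
                rw [← pow_succ]
        rw [eq_bot_iff, ← h.eq_bot_of_le_succ h3]
        exact h.pow_anti (by omega) (by omega)
      refine degenerate h hl hy hx ?_ ?_ hb' hb r s
      · rw [show ({y, x} : Set R) = {x, y} from Set.pair_comm y x]
        exact hN
      · refine h2.trans (sup_le ?_ le_sup_right)
        rw [Submodule.span_singleton_le_iff_mem]
        have e1 : e = d⁻¹ • (y * y) + -(d⁻¹ • (y * y - d • e)) := by
          rw [smul_sub, smul_smul, inv_mul_cancel₀ hd0, one_smul]; abel
        rw [e1]
        exact Submodule.add_mem_sup (Submodule.smul_mem _ _ (Submodule.mem_span_singleton_self _))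
          (Submodule.neg_mem _ (Submodule.smul_mem _ _ hd))
    · -- replace `y`
      obtain ⟨y₁, hy₁⟩ : ∃ y₁, y₁ = y - (b / a) • x := ⟨_, rfl⟩
      have hba : b / a * a = b := div_mul_cancel₀ b ha0
      refine degenerate h hl hx (y := y₁) ?_ ?_ ?_ ?_ ?_ r s
      · rw [hy₁]; exact N.sub_mem hy (N.smul_mem _ hx)
      · refine hN.trans (sup_le ?_ le_sup_right)
        rw [Submodule.span_le]
        rintro t (rfl | rfl)
        · exact Submodule.mem_sup_left (Submodule.subset_span (by simp))
        · refine Submodule.mem_sup_left ?_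
          have : t = y₁ + (b / a) • x := by rw [hy₁]; abel
          rw [this]
          exact Submodule.add_mem _ (Submodule.subset_span (by simp))
            (Submodule.smul_mem _ _ (Submodule.subset_span (by simp)))
      · refine h2.trans (sup_le ?_ le_sup_right)
        rw [Submodule.span_singleton_le_iff_mem]
        have e1 : e = a⁻¹ • (x * x) + -(a⁻¹ • (x * x - a • e)) := by
          rw [smul_sub, smul_smul, inv_mul_cancel₀ ha0, one_smul]; abel
        rw [e1]
        exact Submodule.add_mem_sup (Submodule.smul_mem _ _ (Submodule.mem_span_singleton_self _))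
          (Submodule.neg_mem _ (Submodule.smul_mem _ _ ha))
      · have e1 : x * y₁ = (x * y - b • e) - (b / a) • (x * x - a • e) := by
          rw [hy₁, mul_sub, mul_smul_comm, smul_sub, smul_smul, hba]; abel
        rw [e1]
        exact Submodule.sub_mem _ hb (Submodule.smul_mem _ _ ha)
      · have e1 : y₁ * x = (y * x - b • e) - (b / a) • (x * x - a • e) := by
          rw [hy₁, sub_mul, smul_mul_assoc, smul_sub, smul_smul, hba]; abel
        rw [e1]
        exact Submodule.sub_mem _ hb' (Submodule.smul_mem _ _ ha)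
  · exfalso
    apply hN3
    set π := (N ^ 4 : Submodule k R).mkQ with hπ
    have hrel2 : ∀ {β γ : k} {u w : R}, β • (e * w) - γ • (u * e) ∈ N ^ 4 →
        β • π (e * w) = γ • π (u * e) := by
      intro β γ u w h3
      have h4 : π (β • (e * w) - γ • (u * e)) = 0 := by
        rw [hπ, Submodule.mkQ_apply, Submodule.Quotient.mk_eq_zero]
        exact h3
      rw [map_sub, map_smul, map_smul, sub_eq_zero] at h4
      exact h4
    have r2 := hrel2 (h.key_rel hx hy ha hb)
    have r4 := hrel2 (h.key_rel hx hy hb hd)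
    have r5 := hrel2 (h.key_rel hy hx hb' ha)
    have r7 := hrel2 (h.key_rel hy hx hd hb')
    have hY : π (e * y) = 0 := by
      have : (a * d - b * b) • π (e * y) = 0 := by
        linear_combination (norm := module) d • r2 - b • r4
      exact (smul_eq_zero.1 this).resolve_left hdet
    have hX : π (e * x) = 0 := by
      have : (a * d - b * b) • π (e * x) = 0 := by
        linear_combination (norm := module) a • r7 - b • r5
      exact (smul_eq_zero.1 this).resolve_left hdet
    rw [hπ, Submodule.mkQ_apply, Submodule.Quotient.mk_eq_zero] at hX hY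
    apply h.eq_bot_of_le_succ
    calc N ^ 3 = N ^ 2 * N := pow_succ _ _
      _ ≤ (Submodule.span k {e} ⊔ N ^ 3) * (Submodule.span k {x, y} ⊔ N ^ 2) := smul_mono h2 hN
      _ ≤ N ^ 4 := by
        rw [Submodule.sup_mul, Submodule.mul_sup]
        refine sup_le (sup_le ?_ ?_) ?_
        · rw [Submodule.span_mul_span, Submodule.span_le]
          rintro _ ⟨u, hu, v, (rfl | rfl), rfl⟩
          · rw [Set.mem_singleton_iff] at hu
            subst hu
            exact hX
          · rw [Set.mem_singleton_iff] at hu
            subst hu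
            exact hY
        · have h3 : Submodule.span k {e} ≤ N ^ 2 := by
            rw [Submodule.span_singleton_le_iff_mem]; exact heN
          refine (smul_mono h3 le_rfl).trans ?_
          rw [← pow_add]
        · refine (smul_mono le_rfl (sup_le hNle (h.pow_le 2 (by omega)))).trans ?_
          rw [← pow_succ]

end Cfsg.Agent.Lib.H76GS
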