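import Cfsg.Agent.Lib.H76GS8

/-!
# Symmetric local algebras with five dimensional centre
-/

set_option autoImplicit false
set_option linter.all false

namespace Cfsg.Agent.Lib.H76GS

open Module Cfsg.Agent.Lib.H76Alg

universe u v

variable {k : Type v} [Field k] {R : Type u} [Ring R] [Algebra k R] {N : Submodule k R}

theorem mem_cm {X Y : Submodule k R} {a b : R} (ha : a ∈ X) (hb : b ∈ Y) : a * b - b * a ∈ cm X Y :=
  Submodule.subset_span ⟨a, ha, b, hb, rfl⟩

theorem mem_cm' {X Y : Submodule k R} {a b : R} (ha : a ∈ X) (hb : b ∈ Y) : b * a - a * b ∈ cm X Y := by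
  have := Submodule.neg_mem _ (mem_cm ha hb)
  rwa [neg_sub] at this

theorem KS_le_cm (h : LocD k N) : KS k R ≤ cm N N := by
  unfold KS
  rw [Submodule.span_le]
  rintro _ ⟨a, b, rfl⟩
  obtain ⟨c, hc⟩ := h.dec a
  obtain ⟨d, hd⟩ := h.dec b
  have h1 : a * b - b * a = (a - c • (1 : R)) * (b - d • (1 : R)) - (b - d • (1 : R)) * (a - c • (1 : R)) := by
    simp only [sub_mul, mul_sub, smul_mul_assoc, mul_smul_comm, one_mul, mul_one, smul_sub]
    rw [smul_comm d c]
    abel
  rw [h1]
  exact mem_cm hc hd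

theorem cm_le_KS (X Y : Submodule k R) : cm X Y ≤ KS k R := by
  unfold cm
  rw [Submodule.span_le]
  rintro _ ⟨a, _, b, _, rfl⟩
  exact comm_mem_KS a b

theorem cm_le_pow (i j l : ℕ) (hl : i + j = l) : cm (N ^ i) (N ^ j) ≤ N ^ l := by
  unfold cm
  rw [Submodule.span_le]
  rintro _ ⟨a, ha, b, hb, rfl⟩
  exact Submodule.sub_mem _ (mul_mem_pow hl ha hb) (mul_mem_pow (by omega) hb ha)

theorem sup_eq_span (s : Set R) (X : Submodule k R) : Submodule.span k s ⊔ X = Submodule.span k (s ∪ (X : Set R)) := by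
  rw [Submodule.span_union, Submodule.span_eq]

theorem KS_three (h : LocD k N) {x y z : R} (hx : x ∈ N) (hy : y ∈ N) (hz : z ∈ N)
    (hN : N ≤ Submodule.span k {x, y, z} ⊔ N ^ 2) :
    KS k R ≤ Submodule.span k {x * y - y * x, x * z - z * x, y * z - z * y} ⊔ cm N (N ^ 2) := by
  refine (KS_le_cm h).trans ?_
  rw [sup_eq_span] at hN
  have hN2 : N ^ 2 ≤ N := h.pow_le 2 (by omega)
  set Z := Submodule.span k ({x * y - y * x, x * z - z * x, y * z - z * y} : Set R) ⊔ cm N (N ^ 2) with hZ
  have m1 : x * y - y * x ∈ Z := Submodule.mem_sup_left (Submodule.subset_span (by simp))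
  have m2 : x * z - z * x ∈ Z := Submodule.mem_sup_left (Submodule.subset_span (by simp))
  have m3 : y * z - z * y ∈ Z := Submodule.mem_sup_left (Submodule.subset_span (by simp))
  have n1 : y * x - x * y ∈ Z := by have := Submodule.neg_mem _ m1; rwa [neg_sub] at this
  have n2 : z * x - x * z ∈ Z := by have := Submodule.neg_mem _ m2; rwa [neg_sub] at this
  have n3 : z * y - y * z ∈ Z := by have := Submodule.neg_mem _ m3; rwa [neg_sub] at this
  have hZc : cm N (N ^ 2) ≤ Z := le_sup_right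
  clear_value Z
  have hmem : ∀ t ∈ ({x, y, z} : Set R), t ∈ N := by
    rintro t (rfl | rfl | rfl) <;> assumption
  apply cm_le hN hN
  rintro a (ha | ha) b (hb | hb)
  · rcases ha with rfl | rfl | rfl <;> rcases hb with rfl | rfl | rfl <;>
      first | assumption | (rw [sub_self]; exact Submodule.zero_mem _)
  · exact hZc (mem_cm (hmem a ha) hb)
  · exact hZc (mem_cm' (hmem b hb) ha)
  · exact hZc (mem_cm (hN2 ha) hb)

theorem KS_two (h : LocD k N) {x y : R} (hx : x ∈ N) (hy : y ∈ N)
    (hN : N ≤ Submodule.span k {x, y} ⊔ N ^ 2) :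
    KS k R ≤ Submodule.span k {x * y - y * x} ⊔ cm N (N ^ 2) := by
  refine (KS_le_cm h).trans ?_
  rw [sup_eq_span] at hN
  have hN2 : N ^ 2 ≤ N := h.pow_le 2 (by omega)
  set Z := Submodule.span k ({x * y - y * x} : Set R) ⊔ cm N (N ^ 2) with hZ
  have m1 : x * y - y * x ∈ Z := Submodule.mem_sup_left (Submodule.subset_span (by simp))
  have n1 : y * x - x * y ∈ Z := by have := Submodule.neg_mem _ m1; rwa [neg_sub] at this
  have hZc : cm N (N ^ 2) ≤ Z := le_sup_right
  clear_value Z
  have hmem : ∀ t ∈ ({x, y} : Set R), t ∈ N := by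
    rintro t (rfl | rfl) <;> assumption
  apply cm_le hN hN
  rintro a (ha | ha) b (hb | hb)
  · rcases ha with rfl | rfl <;> rcases hb with rfl | rfl <;>
      first | assumption | (rw [sub_self]; exact Submodule.zero_mem _)
  · exact hZc (mem_cm (hmem a ha) hb)
  · exact hZc (mem_cm' (hmem b hb) ha)
  · exact hZc (mem_cm (hN2 ha) hb)

theorem finrank_map_add' {S : Type u} [Ring S] [Algebra k S] {X : Submodule k R} [FiniteDimensional k X]
    (f : R →ₗ[k] S) :
    finrank k (X.map f) + finrank k (X ⊓ LinearMap.ker f : Submodule k R) = finrank k X := by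
  have h1 := LinearMap.finrank_range_add_finrank_ker (f.domRestrict X)
  have h2 : LinearMap.range (f.domRestrict X) = X.map f := by
    rw [LinearMap.range_domRestrict]
  have h3 : finrank k (LinearMap.ker (f.domRestrict X)) = finrank k (X ⊓ LinearMap.ker f : Submodule k R) := by
    have : (LinearMap.ker (f.domRestrict X)).map X.subtype = X ⊓ LinearMap.ker f := by
      rw [LinearMap.ker_domRestrict, Submodule.map_comap_subtype]
    rw [← Submodule.finrank_map_subtype_eq X (LinearMap.ker (f.domRestrict X)), this]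
  rw [← h2, ← h3]
  exact h1

section grd

variable {lam : R →ₗ[k] k} {m : ℕ} {S : Type u} [Ring S] [Algebra k S] {V : Submodule k S} {lamS : S →ₗ[k] k}
  {z : ℕ → R →ₗ[k] S}

theorem Grd.kill (h : LocD k N) (hg : Grd N lam m V lamS z) (hN' : N ^ (m + 1) = ⊥) {i l : ℕ} (hi : 1 ≤ i)
    (him : i < m) (hil : i < l) {a : R} (ha : a ∈ N ^ l) : z i a = 0 := by
  apply hg.ker i (m - i) hi (by omega) (by omega) a (h.pow_anti hi (by omega) ha)
  intro b hb
  have h1 : a * b ∈ N ^ (l + (m - i)) := mul_mem_pow rfl ha hb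
  have h2 := h.pow_anti (a := m + 1) (b := l + (m - i)) (by omega) (by omega) h1
  rw [hN', Submodule.mem_bot] at h2
  rw [h2, map_zero]

theorem Grd.mem (hg : Grd N lam m V lamS z) {i : ℕ} (hi : 1 ≤ i) {a : R} (ha : a ∈ N ^ i) : z i a ∈ V ^ i := by
  rw [← hg.rng i hi]
  exact Submodule.mem_map_of_mem ha

theorem Grd.lift (hg : Grd N lam m V lamS z) {i : ℕ} (hi : 1 ≤ i) {v : S} (hv : v ∈ V ^ i) :
    ∃ a ∈ N ^ i, z i a = v := by
  rw [← hg.rng i hi] at hv
  exact hv

theorem Grd.map_cm (hg : Grd N lam m V lamS z) {i j : ℕ} (hi : 1 ≤ i) (hj : 1 ≤ j) {a : R}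
    (ha : a ∈ cm (N ^ i) (N ^ j)) : z (i + j) a ∈ cm (V ^ i) (V ^ j) := by
  unfold cm at ha
  induction ha using Submodule.span_induction with
  | mem c hc =>
    obtain ⟨a, ha, b, hb, rfl⟩ := hc
    have e1 := hg.mul i j hi hj a ha b hb
    have e2 := hg.mul j i hj hi b hb a ha
    rw [add_comm j i] at e2
    rw [map_sub, ← e1, ← e2]
    exact mem_cm (hg.mem hi ha) (hg.mem hj hb)
  | zero => rw [map_zero]; exact Submodule.zero_mem _
  | add a b _ _ h1 h2 => rw [map_add]; exact Submodule.add_mem _ h1 h2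
  | smul c a _ h1 => rw [map_smul]; exact Submodule.smul_mem _ _ h1

theorem Grd.finrank_le (h : LocD k N) [FiniteDimensional k R] (hg : Grd N lam m V lamS z)
    (hN' : N ^ (m + 1) = ⊥) {i : ℕ} (hi : 1 ≤ i) (him : i < m) :
    finrank k (V ^ i : Submodule k S) + finrank k (N ^ (i + 1) : Submodule k R) ≤ finrank k (N ^ i : Submodule k R) := by
  have h1 := finrank_map_add' (X := N ^ i) (z i)
  rw [hg.rng i hi] at h1
  have h2 : N ^ (i + 1) ≤ N ^ i ⊓ LinearMap.ker (z i) :=
    le_inf (h.pow_anti hi (by omega)) (fun a ha => hg.kill h hN' hi him (Nat.lt_succ_self i) ha)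
  have h3 := Submodule.finrank_mono h2
  omega

theorem Grd.ker_eq (h : LocD k N) [FiniteDimensional k R] (hg : Grd N lam m V lamS z)
    (hN' : N ^ (m + 1) = ⊥) {i : ℕ} (hi : 1 ≤ i) (him : i < m)
    (hd : finrank k (N ^ i : Submodule k R) ≤ finrank k (V ^ i : Submodule k S) + finrank k (N ^ (i + 1) : Submodule k R))
    {a : R} (ha : a ∈ N ^ i) (ha0 : z i a = 0) : a ∈ N ^ (i + 1) := by
  have h1 := finrank_map_add' (X := N ^ i) (z i)
  rw [hg.rng i hi] at h1
  have h2 : N ^ (i + 1) ≤ N ^ i ⊓ LinearMap.ker (z i) :=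
    le_inf (h.pow_anti hi (by omega)) (fun a ha => hg.kill h hN' hi him (Nat.lt_succ_self i) ha)
  have h3 := Submodule.eq_of_le_of_finrank_le h2 (by omega)
  rw [h3]
  exact ⟨ha, ha0⟩

theorem Grd.ne_bot (hg : Grd N lam m V lamS z) (hm : 1 ≤ m) {s : R} (hs : s ∈ N ^ m) (hls : lam s ≠ 0) :
    V ≠ ⊥ := by
  rintro rfl
  have h1 := hg.mem hm hs
  obtain ⟨n, rfl⟩ := Nat.exists_eq_add_of_le' hm
  rw [pow_succ, Submodule.mul_bot, Submodule.mem_bot] at h1
  have h2 := hg.lm s hs
  rw [h1, map_zero] at h2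
  exact hls h2.symm

end grd

theorem indep_three {S : Type u} [Ring S] [Algebra k S] {p q r : S}
    (h3 : 3 ≤ finrank k (Submodule.span k ({p, q, r} : Set S))) {α β γ : k}
    (h0 : α • p + β • q + γ • r = 0) : α = 0 ∧ β = 0 ∧ γ = 0 := by
  have key : ∀ {a b c : S} {x y w : k}, ({a, b, c} : Set S) = {p, q, r} → x • a + y • b + w • c = 0 → x = 0 := by
    intro a b c x y w hs h1
    by_contra hx
    have e1 : a = (-(x⁻¹ * y)) • b + (-(x⁻¹ * w)) • c := by
      have h2 : a = x⁻¹ • (x • a) := by rw [smul_smul, inv_mul_cancel₀ hx, one_smul]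
      have h3 : x • a = -(y • b) - w • c := by
        linear_combination (norm := module) h1
      rw [h2, h3]
      module
    have h4 : Submodule.span k ({a, b, c} : Set S) ≤ Submodule.span k {b, c} := by
      rw [Submodule.span_le]
      rintro t (rfl | rfl | rfl)
      · rw [e1]
        exact Submodule.add_mem _ (Submodule.smul_mem _ _ (Submodule.subset_span (by simp)))
          (Submodule.smul_mem _ _ (Submodule.subset_span (by simp)))
      · exact Submodule.subset_span (by simp)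
      · exact Submodule.subset_span (by simp)
    have f : FiniteDimensional k (Submodule.span k ({b, c} : Set S)) := FiniteDimensional.span_of_finite k (by simp)
    have h5 := Submodule.finrank_mono h4
    rw [hs] at h5
    have h6 := finrank_span_pair_le (k := k) b c
    omega
  refine ⟨key rfl h0, ?_, ?_⟩
  · apply key (a := q) (b := p) (c := r) (x := β) (y := α) (w := γ)
    · ext t; simp only [Set.mem_insert_iff, Set.mem_singleton_iff]; tauto
    · rw [← h0]; abel
  · apply key (a := r) (b := p) (c := q) (x := γ) (y := α) (w := β)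
    · ext t; simp only [Set.mem_insert_iff, Set.mem_singleton_iff]; tauto
    · rw [← h0]; abel

/-- three generators -/
theorem false_r3 [IsAlgClosed k] [FiniteDimensional k R] (h : LocD k N) {lam : R →ₗ[k] k} (hl : SymF lam)
    {m : ℕ} (hm : 4 ≤ m) (hN' : N ^ (m + 1) = ⊥) {x y w : R} (hx : x ∈ N) (hy : y ∈ N) (hw : w ∈ N)
    (hN : N ≤ Submodule.span k {x, y, w} ⊔ N ^ 2) {s : R} (hs : s ∈ N ^ m) (hls : lam s ≠ 0)
    (hN2 : N ^ 2 ≤ KS k R ⊔ Submodule.span k {s}) : False := by
  have hNm : N ^ m ≠ ⊥ := by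
    intro h0
    rw [h0, Submodule.mem_bot] at hs
    rw [hs, map_zero] at hls
    exact hls rfl
  obtain ⟨S, _, _, V, lamS, z, hg⟩ := exists_grd h hl (by omega) hNm hN'
  have hzs : ∀ i, 1 ≤ i → i < m → z i s = 0 := fun i hi him => hg.kill h hN' hi him him hs
  have hV2 : V ^ 2 ≤ cm V V := by
    intro v hv
    obtain ⟨a, ha, rfl⟩ := hg.lift (by omega) hv
    obtain ⟨κ, hκ, t, ht, rfl⟩ := Submodule.mem_sup.1 (hN2 ha)
    obtain ⟨c, rfl⟩ := Submodule.mem_span_singleton.1 ht
    rw [map_add, map_smul, hzs 2 (by omega) (by omega), smul_zero, add_zero]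
    have h1 := KS_le_cm h hκ
    have h2 := hg.map_cm (i := 1) (j := 1) le_rfl le_rfl (a := κ) (by rw [pow_one]; exact h1)
    rwa [pow_one] at h2
  have hKS := KS_three h hx hy hw hN
  have hz2 : ∀ {κ : R}, κ ∈ cm N (N ^ 2) → z 2 κ = 0 := by
    intro κ hκ
    have h1 := cm_le_pow (N := N) 1 2 3 rfl (by rw [pow_one]; exact hκ)
    exact hg.kill h hN' (by omega) (by omega) (by omega) h1
  apply hg.gs.false_three hm (hg.ne_bot (by omega) hs hls) ?_ hV2 ?_
  · have h1 : V ^ 1 ≤ Submodule.span k {z 1 x, z 1 y, z 1 w} := by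
      intro v hv
      obtain ⟨a, ha, rfl⟩ := hg.lift le_rfl hv
      rw [pow_one] at ha
      obtain ⟨t, ht, n, hn, rfl⟩ := Submodule.mem_sup.1 (hN ha)
      obtain ⟨α, β, γ, rfl⟩ := Submodule.mem_span_triple.1 ht
      rw [map_add, hg.kill h hN' le_rfl (by omega) (by omega) hn, add_zero, map_add, map_add, map_smul, map_smul,
        map_smul]
      exact Submodule.mem_span_triple.2 ⟨α, β, γ, rfl⟩
    have f : FiniteDimensional k (Submodule.span k ({z 1 x, z 1 y, z 1 w} : Set S)) :=
      FiniteDimensional.span_of_finite k (by simp)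
    exact (Submodule.finrank_mono h1).trans (finrank_span_triple_le _ _ _)
  · intro hd
    intro v hv
    obtain ⟨a, ha, rfl⟩ := hg.lift (by omega) hv
    have ha2 : a ∈ N ^ 2 := h.pow_anti (by omega) (by omega) ha
    obtain ⟨κ, hκ, t, ht, hat⟩ := Submodule.mem_sup.1 (hN2 ha2)
    obtain ⟨c, rfl⟩ := Submodule.mem_span_singleton.1 ht
    obtain ⟨p, hp, κ', hκ', hpk⟩ := Submodule.mem_sup.1 (hKS hκ)
    obtain ⟨α, β, γ, rfl⟩ := Submodule.mem_span_triple.1 hp
    -- the image of the square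
    have h1 : V ^ 2 ≤ Submodule.span k {z 2 (x * y - y * x), z 2 (x * w - w * x), z 2 (y * w - w * y)} := by
      intro v hv
      obtain ⟨a, ha, rfl⟩ := hg.lift (by omega) hv
      obtain ⟨κ, hκ, t, ht, rfl⟩ := Submodule.mem_sup.1 (hN2 ha)
      obtain ⟨c, rfl⟩ := Submodule.mem_span_singleton.1 ht
      obtain ⟨p, hp, κ', hκ', rfl⟩ := Submodule.mem_sup.1 (hKS hκ)
      obtain ⟨α, β, γ, rfl⟩ := Submodule.mem_span_triple.1 hp
      rw [map_add, map_smul, hzs 2 (by omega) (by omega), smul_zero, add_zero, map_add, hz2 hκ', add_zero,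
        map_add, map_add, map_smul, map_smul, map_smul]
      exact Submodule.mem_span_triple.2 ⟨α, β, γ, rfl⟩
    have f : FiniteDimensional k (Submodule.span k
        ({z 2 (x * y - y * x), z 2 (x * w - w * x), z 2 (y * w - w * y)} : Set S)) :=
      FiniteDimensional.span_of_finite k (by simp)
    have h2 := Submodule.finrank_mono h1
    rw [hd] at h2
    have h3 : z 2 a = 0 := hg.kill h hN' (by omega) (by omega) (by omega) ha
    rw [← hat, ← hpk, map_add, map_smul, hzs 2 (by omega) (by omega), smul_zero, add_zero, map_add, hz2 hκ',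
      add_zero, map_add, map_add, map_smul, map_smul, map_smul] at h3
    obtain ⟨rfl, rfl, rfl⟩ := indep_three h2 h3
    rw [zero_smul, zero_smul, zero_smul, add_zero, add_zero, zero_add] at hpk
    rw [← hat, map_add, map_smul, hzs 3 (by omega) (by omega), smul_zero, add_zero, ← hpk]
    have h4 := hg.map_cm (i := 1) (j := 2) le_rfl (by omega) (a := κ') (by rw [pow_one]; exact hκ')
    rwa [pow_one] at h4

end Cfsg.Agent.Lib.H76GS
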