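import Cfsg.Agent.Lib.H30LinC
import Cfsg.Agent.Lib.Zsigmondy

/-!
# Transitive linear groups with exactly two good classes (helper76)
-/

set_option autoImplicit false
set_option linter.all false

open Subgroup

universe u

namespace Cfsg.Agent.Lib.H76K3A

open Cfsg.Agent.Lib Cfsg.Agent.Lib.H30LinA Cfsg.Agent.Lib.H30LinB Cfsg.Agent.Lib.H30LinC Cfsg.Agent.Lib.H50Out

variable {V : Type u} [CommGroup V] [Finite V]

theorem isCyclic_of_le {G : Type*} [Group G] {H K : Subgroup G} (h : H ≤ K) (hK : IsCyclic K) : IsCyclic H :=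
  isCyclic_of_injective (Subgroup.inclusion h) (Subgroup.inclusion_injective h)

theorem card_pow' {p n : ℕ} [hp : Fact p.Prime] (hV : Nat.card V = p ^ n) (U : Subgroup V) :
    ∃ u, u ≤ n ∧ Nat.card U = p ^ u := by
  have h := U.card_subgroup_dvd_card
  rw [hV, Nat.dvd_prime_pow hp.out] at h
  exact h

/-- elements of primitive prime order are irreducible -/
theorem irr_of_zsig {p n r : ℕ} [hp : Fact p.Prime] (hV : Nat.card V = p ^ n) [hr : Fact r.Prime] (hr2 : r ≠ p)
    (hz : ∀ i, 1 ≤ i → i < n → ¬ r ∣ p ^ i - 1) {g : MulAut V} (hg : orderOf g = r) : Irr g := by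
  have hf : ∀ U : Subgroup V, (∀ u ∈ U, g u ∈ U) → ∃ u j : ℕ, Nat.card U = p ^ u ∧
      Nat.card (Critical2.fixIn g U) = p ^ j ∧ j ≤ u ∧ u ≤ n ∧ r ∣ p ^ (u - j) - 1 := by
    intro U hU
    obtain ⟨u, hu, hcu⟩ := card_pow' hV U
    obtain ⟨j, hj, hcj⟩ := card_pow' hV (Critical2.fixIn g U)
    have h1 := Critical2.dvd_of_card hr2 g hg U (zpowers_inv hU) hcu hcj
    exact ⟨u, j, hcu, hcj, h1.1, hu, h1.2⟩
  have h0 : Nat.card (Critical2.fixIn g ⊤) = 1 := by
    obtain ⟨u, j, hu, hj, hju, hun, hd⟩ := hf ⊤ (fun _ _ => Subgroup.mem_top _)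
    have hun' : u = n := by
      rw [Subgroup.card_top, hV] at hu
      exact (Nat.pow_right_injective hp.out.two_le hu).symm
    subst hun'
    by_contra hne
    have hj0 : j ≠ 0 := by rintro rfl; exact hne (by rw [hj, pow_zero])
    by_cases hju' : u - j = 0
    · have h3 : Critical2.fixIn g ⊤ = ⊤ := by
        apply Subgroup.eq_top_of_card_eq
        rw [hj, hV]; congr 1; omega
      have h4 : g = 1 := by
        ext v
        have : v ∈ Critical2.fixIn g (⊤ : Subgroup V) := by rw [h3]; exact Subgroup.mem_top v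
        exact this.2
      rw [h4, orderOf_one] at hg
      exact hr.out.one_lt.ne hg
    · exact hz (u - j) (by omega) (by omega) hd
  intro U hU
  obtain ⟨u, j, hu, hj, hju, hun, hd⟩ := hf U hU
  have hj0 : j = 0 := by
    have h1 : Nat.card (Critical2.fixIn g U) ∣ Nat.card (Critical2.fixIn g ⊤) :=
      Subgroup.card_dvd_of_le (fun x hx => ⟨Subgroup.mem_top _, hx.2⟩)
    rw [h0, hj, Nat.dvd_one] at h1
    by_contra hne
    have := Nat.one_lt_pow hne hp.out.one_lt
    omega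
  subst hj0
  rw [Nat.sub_zero] at hd
  rcases Nat.eq_zero_or_pos u with h | h
  · left
    rw [← Subgroup.card_eq_one, hu, h, pow_zero]
  · right
    have : u = n := by
      by_contra hne
      exact hz u h (by omega) hd
    apply Subgroup.eq_top_of_card_eq
    rw [hu, hV, this]

/-- automorphism groups of groups of prime order are cyclic -/
theorem cyclic_of_prime {p : ℕ} [hp : Fact p.Prime] (hV : Nat.card V = p) (Y : Subgroup (MulAut V)) : IsCyclic Y := by
  haveI : Nontrivial V := by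
    rw [← Finite.one_lt_card_iff_nontrivial, hV]
    exact hp.out.one_lt
  apply centralizer_cyclic (g := 1) _ Y (fun h _ => by simp)
  intro U _
  exact Subgroup.eq_bot_or_eq_top_of_prime_card U (hp := ⟨by rw [hV]; exact hp.out⟩)

theorem odd_real {G : Type*} [Group G] [Finite G] {Y : Subgroup G} (hodd : ¬ 2 ∣ Nat.card Y) {g y : G} (hg : g ∈ Y) (hy : y ∈ Y)
    (h : y * g * y⁻¹ = g⁻¹) : g = 1 := by
  have hord : ∀ z ∈ Y, Nat.Coprime 2 (orderOf z) := by
    intro z hz
    rw [Nat.Prime.coprime_iff_not_dvd Nat.prime_two]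
    intro h2
    apply hodd
    have h3 := orderOf_dvd_natCard (⟨z, hz⟩ : Y)
    rw [Subgroup.orderOf_mk] at h3
    exact h2.trans h3
  have h1 : y * g = g⁻¹ * y := by rw [← h]; group
  have h2 : Commute (y ^ 2) g := by
    show y ^ 2 * g = g * y ^ 2
    have h3 : y * g⁻¹ = g * y := by
      have h4 : (y * g * y⁻¹)⁻¹ = g := by rw [h, inv_inv]
      calc y * g⁻¹ = (y * g * y⁻¹)⁻¹ * y := by group
        _ = g * y := by rw [h4]
    rw [pow_two, mul_assoc, h1, ← mul_assoc, h3, mul_assoc]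
  obtain ⟨m, hm⟩ := exists_pow_eq_self_of_coprime (hord y hy)
  have h3 : Commute y g := by rw [← hm]; exact h2.pow_left m
  have h4 : g = g⁻¹ := by
    rw [← h, h3.eq]; group
  have h5 : g ^ 2 = 1 := by
    rw [pow_two]
    nth_rewrite 2 [h4]
    exact mul_inv_cancel g
  have h6 := orderOf_dvd_of_pow_eq_one h5
  have h7 := hord g hg
  rw [← orderOf_eq_one_iff]
  exact Nat.eq_one_of_dvd_coprimes h7 h6 dvd_rfl

/-- the hypotheses -/
structure Data (p : ℕ) (Y : Subgroup (MulAut V)) (Good : MulAut V → Prop) : Prop where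
  tr : ∀ v w : V, v ≠ 1 → w ≠ 1 → ∃ y ∈ Y, y v = w
  cop : ¬ p ∣ Nat.card Y
  g1 : ∀ g ∈ Y, IsCyclic ↥(Y ⊓ centralizer {g}) → Good g
  g2 : ∀ g ∈ Y, ∀ h ∈ Y, g ≠ 1 → h ≠ 1 → Good g → Good h → ∃ y ∈ Y, y * g * y⁻¹ = h
  inv : ∀ g ∈ Y, Good g → Good g⁻¹
  ex : ∃ g ∈ Y, g ≠ 1 ∧ Good g
  sq : ∀ x ∈ Y, x ≠ 1 → Good x → ∃ s1 s2 : ℕ, s1 + s2 = Nat.card ↥(Y ⊓ centralizer {x}) ∧ IsSquare (s1 * s2) ∧
    0 < s1 ∧ 0 < s2
  st : ∀ v : V, v ≠ 1 → IsCyclic (MulAction.stabilizer Y v) → ∀ y ∈ Y, y v = v → y = 1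

variable {p : ℕ} [hp : Fact p.Prime] {Y : Subgroup (MulAut V)} {Good : MulAut V → Prop}

theorem Data.ne_two (h : Data p Y Good) : p ≠ 2 := by
  rintro rfl
  obtain ⟨g, hg, hg1, hgg⟩ := h.ex
  obtain ⟨y, hy, hyg⟩ := h.g2 g hg g⁻¹ (inv_mem hg) hg1 (inv_ne_one.2 hg1) hgg (h.inv g hg hgg)
  exact hg1 (odd_real h.cop hg hy hyg)

theorem Data.one (h : Data p Y Good) (hV : Nat.card V = p) : Nat.card V = 3 := by
  have hcyc := cyclic_of_prime hV Y
  haveI : Nontrivial V := by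
    rw [← Finite.one_lt_card_iff_nontrivial, hV]
    exact hp.out.one_lt
  have hcomm : ∀ a ∈ Y, ∀ b ∈ Y, a * b = b * a := by
    letI : CommGroup Y := IsCyclic.commGroup
    intro a ha b hb
    exact congrArg Subtype.val (mul_comm (⟨a, ha⟩ : Y) ⟨b, hb⟩)
  have hgood : ∀ g ∈ Y, Good g := fun g hg => h.g1 g hg (isCyclic_of_le inf_le_left hcyc)
  obtain ⟨g, hg, hg1, hgg⟩ := h.ex
  have h2 : ∀ x ∈ Y, x = 1 ∨ x = g := by
    intro x hx
    by_cases hx1 : x = 1
    · exact Or.inl hx1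
    · obtain ⟨y, hy, hyx⟩ := h.g2 x hx g hg hx1 hg1 (hgood x hx) hgg
      right
      rw [← hyx, hcomm y hy x hx]; group
  have h3 : Nat.card Y ≤ 2 := by
    have : Nat.card Y ≤ Nat.card Bool := by
      classical
      apply Nat.card_le_card_of_injective (fun y : Y => decide ((y : MulAut V) = 1))
      intro a b hab
      apply Subtype.ext
      have hab' : ((a : MulAut V) = 1) ↔ ((b : MulAut V) = 1) := by simpa using hab
      rcases h2 a a.2 with ha | ha
      · rw [ha, hab'.1 ha]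
      · rcases h2 b b.2 with hb | hb
        · rw [hb, hab'.2 hb]
        · rw [ha, hb]
    simpa using this
  obtain ⟨v, hv⟩ := exists_ne (1 : V)
  have h4 := card_sub_one_dvd Y h.tr hv
  have h5 : Nat.card V - 1 ≤ Nat.card Y := by
    rw [← h4]
    exact Nat.le_mul_of_pos_right _ Nat.card_pos
  have h6 := h.ne_two
  have h7 := hp.out.two_le
  omega

end Cfsg.Agent.Lib.H76K3A
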