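import Cfsg.Agent.Lib.H76K3A

/-!
# Transitive linear groups with exactly two good classes: degree two (helper76)
-/

set_option autoImplicit false
set_option linter.all false

open Subgroup

universe u

namespace Cfsg.Agent.Lib.H76K3A

open Cfsg.Agent.Lib Cfsg.Agent.Lib.H30LinA Cfsg.Agent.Lib.H30LinB Cfsg.Agent.Lib.H30LinC Cfsg.Agent.Lib.H50Out

variable {V : Type u} [CommGroup V] [Finite V] {p : ℕ} [hp : Fact p.Prime] {Y : Subgroup (MulAut V)}
  {Good : MulAut V → Prop}

/-- the exponent is `p` -/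
theorem Data.pow_eq_one (h : Data p Y Good) {n : ℕ} (hV : Nat.card V = p ^ n) (v : V) : v ^ p = 1 := by
  by_cases hv : v = 1
  · rw [hv, one_pow]
  · have hn : n ≠ 0 := by
      rintro rfl
      rw [pow_zero, Nat.card_eq_one_iff_unique] at hV
      obtain ⟨hs, -⟩ := hV
      exact hv (Subsingleton.elim _ _)
    obtain ⟨w, hw⟩ := exists_prime_orderOf_dvd_card' (G := V) p (by rw [hV]; exact dvd_pow_self p hn)
    have hw1 : w ≠ 1 := by
      rintro rfl
      rw [orderOf_one] at hw
      exact hp.out.one_lt.ne hw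
    obtain ⟨y, -, hy⟩ := h.tr w v hw1 hv
    rw [← hy, ← map_pow, ← hw, pow_orderOf_eq_one, map_one]

/-- the action on a quotient -/
noncomputable def qa (U : Subgroup V) : stab U →* MulAut (V ⧸ U) where
  toFun φ := QuotientGroup.congr U U (φ : MulAut V) (by
    ext x
    rw [Subgroup.mem_map]
    constructor
    · rintro ⟨u, hu, rfl⟩
      exact (φ.2 u).2 hu
    · intro hx
      refine ⟨(φ : MulAut V)⁻¹ x, ?_, ?_⟩
      · rw [← φ.2 ((φ : MulAut V)⁻¹ x)]
        show (φ : MulAut V) ((φ : MulAut V)⁻¹ x) ∈ U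
        rw [MulAut.apply_inv_self]; exact hx
      · show (φ : MulAut V) ((φ : MulAut V)⁻¹ x) = x
        rw [MulAut.apply_inv_self])
  map_one' := by
    ext x
    obtain ⟨x, rfl⟩ := QuotientGroup.mk_surjective x
    rfl
  map_mul' a b := by
    ext x
    obtain ⟨x, rfl⟩ := QuotientGroup.mk_surjective x
    rfl

theorem qa_mk (U : Subgroup V) (φ : stab U) (x : V) :
    qa U φ (QuotientGroup.mk x : V ⧸ U) = (QuotientGroup.mk ((φ : MulAut V) x) : V ⧸ U) := rfl

/-- an automorphism of order prime to `p` trivial on `U` and `V/U` is trivial -/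
theorem eq_one_of_triv (hexp : ∀ v : V, v ^ p = 1) {U : Subgroup V} {y : MulAut V} (hy : ¬ p ∣ orderOf y)
    (h1 : ∀ u ∈ U, y u = u) (h2 : ∀ v, y v * v⁻¹ ∈ U) : y = 1 := by
  have h3 : ∀ k : ℕ, ∀ v, (y ^ k) v = (y v * v⁻¹) ^ k * v := by
    intro k v
    induction k with
    | zero => simp
    | succ k ih =>
      rw [pow_succ', MulAut.mul_apply, ih, map_mul, map_pow, h1 _ (h2 v), pow_succ]
      rw [mul_assoc, mul_assoc, inv_mul_cancel, mul_one]
  have h4 : y ^ p = 1 := by
    ext v
    rw [h3, hexp, one_mul, MulAut.one_apply]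
  have h5 := orderOf_dvd_of_pow_eq_one h4
  rw [Nat.dvd_prime hp.out] at h5
  rcases h5 with h5 | h5
  · exact orderOf_eq_one_iff.1 h5
  · exact absurd (by rw [h5]) hy

theorem Data.not_dvd_order (h : Data p Y Good) {y : MulAut V} (hy : y ∈ Y) : ¬ p ∣ orderOf y := by
  intro hd
  apply h.cop
  have h3 := orderOf_dvd_natCard (⟨y, hy⟩ : Y)
  rw [Subgroup.orderOf_mk] at h3
  exact hd.trans h3

/-- degree two: the group is semiregular -/
theorem Data.semireg (h : Data p Y Good) (hV : Nat.card V = p ^ 2) {v : V} (hv : v ≠ 1) {y : MulAut V} (hy : y ∈ Y)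
    (hyv : y v = v) : y = 1 := by
  apply h.st v hv ?_ y hy hyv
  have hexp := h.pow_eq_one hV
  have hord : orderOf v = p := orderOf_eq_prime (hexp v) hv
  set U := zpowers v with hU
  have hUc : Nat.card U = p := by rw [hU, Nat.card_zpowers, hord]
  have hfix : ∀ z : MulAut V, z v = v → ∀ u ∈ U, z u = u := by
    rintro z hz _ ⟨k, rfl⟩
    show z (v ^ k) = v ^ k
    rw [map_zpow, hz]
  have hst : ∀ z : MulAut V, z v = v → z ∈ stab U := by
    intro z hz s
    constructor
    · intro hs
      have h1 := hfix z⁻¹ (by conv_lhs => rw [← hz]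
                              exact MulAut.inv_apply_self V z v) _ hs
      rw [MulAut.inv_apply_self] at h1
      rw [h1]; exact hs
    · intro hs
      rw [hfix z hz s hs]; exact hs
  have hq : Nat.card (V ⧸ U) = p := by
    have h1 := U.card_mul_index
    rw [hUc, hV, pow_two] at h1
    exact Nat.eq_of_mul_eq_mul_left hp.out.pos h1
  let f0 : MulAction.stabilizer Y v →* stab U :=
    { toFun := fun z => ⟨((z : Y) : MulAut V), hst _ (MulAction.mem_stabilizer_iff.1 z.2)⟩
      map_one' := rfl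
      map_mul' := fun a b => rfl }
  haveI : IsCyclic (MulAut (V ⧸ U)) := by
    haveI : IsCyclic (⊤ : Subgroup (MulAut (V ⧸ U))) := cyclic_of_prime hq ⊤
    exact isCyclic_of_injective (Subgroup.topEquiv (G := MulAut (V ⧸ U))).symm.toMonoidHom
      (Subgroup.topEquiv (G := MulAut (V ⧸ U))).symm.injective
  apply isCyclic_of_injective ((qa U).comp f0)
  rw [← MonoidHom.ker_eq_bot_iff, Subgroup.eq_bot_iff_forall]
  intro z hz
  have hz1 : qa U (f0 z) = 1 := hz
  apply Subtype.ext
  apply Subtype.ext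
  apply eq_one_of_triv hexp (h.not_dvd_order (z : Y).2) (hfix _ (MulAction.mem_stabilizer_iff.1 z.2))
  intro w
  have h2 := DFunLike.congr_fun hz1 (QuotientGroup.mk w : V ⧸ U)
  rw [qa_mk, MulAut.one_apply, eq_comm, QuotientGroup.eq] at h2
  rw [mul_comm]
  exact h2

/-- a non-scalar element has a cyclic centralizer -/
theorem Data.cyc_two (h : Data p Y Good) (hV : Nat.card V = p ^ 2) {x : MulAut V} (hx : x ∈ Y)
    (hns : ¬ ∃ a : ℤ, ∀ w, x w = w ^ a) : IsCyclic ↥(Y ⊓ centralizer {x}) := by
  haveI : Nontrivial V := by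
    rw [← Finite.one_lt_card_iff_nontrivial, hV]
    exact Nat.one_lt_pow two_ne_zero hp.out.one_lt
  by_cases hirr : Irr x
  · apply centralizer_cyclic hirr
    intro y hy
    exact (mem_centralizer_singleton_iff.1 hy.2)
  · unfold Irr at hirr
    push Not at hirr
    obtain ⟨U, hU, hUb, hUt⟩ := hirr
    have hprop : ∀ W : Subgroup V, W ≠ ⊥ → W ≠ ⊤ → Nat.card W = p := by
      intro W h1 h2
      obtain ⟨u, hu, hc⟩ := card_pow' hV W
      have : u ≠ 0 := by
        rintro rfl
        rw [pow_zero] at hc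
        exact h1 (Subgroup.card_eq_one.1 hc)
      have : u ≠ 2 := by
        rintro rfl
        exact h2 (Subgroup.eq_top_of_card_eq _ (by rw [hc, hV]))
      have : u = 1 := by omega
      rw [hc, this, pow_one]
    have hUc := hprop U hUb hUt
    haveI : IsCyclic U := isCyclic_of_prime_card hUc
    obtain ⟨u0, hu0⟩ := IsCyclic.exists_generator (α := U)
    obtain ⟨a, ha⟩ := hu0 ⟨x u0, hU _ u0.2⟩
    have ha' : x (u0 : V) = (u0 : V) ^ a := (congrArg Subtype.val ha).symm
    let E : Subgroup V :=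
      { carrier := {w | x w = w ^ a}
        one_mem' := by simp
        mul_mem' := fun {s t} hs ht => by
          show x (s * t) = (s * t) ^ a
          rw [map_mul, show x s = s ^ a from hs, show x t = t ^ a from ht, mul_zpow]
        inv_mem' := fun {s} hs => by
          show x s⁻¹ = s⁻¹ ^ a
          rw [map_inv, show x s = s ^ a from hs, inv_zpow] }
    have hE : ∀ w, w ∈ E ↔ x w = w ^ a := fun w => Iff.rfl
    have hu0E : (u0 : V) ∈ E := ha'
    have hu01 : (u0 : V) ≠ 1 := by
      intro h0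
      apply hUb
      rw [Subgroup.eq_bot_iff_forall]
      intro w hw
      obtain ⟨k, hk⟩ := hu0 ⟨w, hw⟩
      have : (u0 : V) ^ k = w := congrArg Subtype.val hk
      rw [← this, h0, one_zpow]
    have hEc : Nat.card E = p := by
      apply hprop
      · intro h0
        rw [h0, Subgroup.mem_bot] at hu0E
        exact hu01 hu0E
      · intro h0
        apply hns
        refine ⟨a, fun w => ?_⟩
        rw [← hE, h0]; trivial
    have hst : ∀ y ∈ Y ⊓ centralizer {x}, y ∈ stab E := by
      have key : ∀ y : MulAut V, y * x = x * y → ∀ w ∈ E, y w ∈ E := by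
        intro y hy w hw
        rw [hE, ← MulAut.mul_apply, ← hy, MulAut.mul_apply, (hE w).1 hw, map_zpow]
      intro y hy s
      have hc : y * x = x * y := mem_centralizer_singleton_iff.1 hy.2
      constructor
      · intro hs
        have h1 := key y⁻¹ (by rw [inv_mul_eq_iff_eq_mul, ← mul_assoc, hc, mul_inv_cancel_right]) _ hs
        rwa [MulAut.inv_apply_self] at h1
      · exact key y hc s
    let f : ↥(Y ⊓ centralizer {x}) →* (⊤ : Subgroup (MulAut E)) :=
      { toFun := fun y => ⟨restr E ⟨y, hst y y.2⟩, trivial⟩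
        map_one' := rfl
        map_mul' := fun a b => rfl }
    haveI : IsCyclic (⊤ : Subgroup (MulAut E)) := cyclic_of_prime hEc ⊤
    apply isCyclic_of_injective f
    rw [← MonoidHom.ker_eq_bot_iff, Subgroup.eq_bot_iff_forall]
    intro y hy
    have hy1 : restr E ⟨y, hst y y.2⟩ = 1 := congrArg Subtype.val hy
    have h2 := congrArg Subtype.val (DFunLike.congr_fun hy1 ⟨u0, hu0E⟩)
    apply Subtype.ext
    exact h.semireg hV hu01 y.2.1 h2

theorem Data.two (h : Data p Y Good) (hV : Nat.card V = p ^ 2) : False := by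
  classical
  haveI : Nontrivial V := by
    rw [← Finite.one_lt_card_iff_nontrivial, hV]
    exact Nat.one_lt_pow two_ne_zero hp.out.one_lt
  have hexp := h.pow_eq_one hV
  obtain ⟨v, hv⟩ := exists_ne (1 : V)
  have hord : orderOf v = p := orderOf_eq_prime (hexp v) hv
  have hp2 := hp.out.two_le
  have hp3 := h.ne_two
  -- the order
  have hY : Nat.card Y = p ^ 2 - 1 := by
    have h1 := card_sub_one_dvd Y h.tr hv
    have h2 : Nat.card (MulAction.stabilizer Y v) = 1 := by
      rw [Subgroup.card_eq_one, Subgroup.eq_bot_iff_forall]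
      intro y hy
      apply Subtype.ext
      exact h.semireg hV hv y.2 (MulAction.mem_stabilizer_iff.1 hy)
    rw [h2, mul_one, hV] at h1
    exact h1.symm
  -- scalars
  set S : Set (MulAut V) := {y | y ∈ Y ∧ ∃ a : ℤ, ∀ w, y w = w ^ a} with hS
  have hSc : Nat.card S ≤ p - 1 := by
    let f : S → {u : zpowers v // u ≠ 1} := fun y => ⟨⟨(y : MulAut V) v, by
        obtain ⟨a, ha⟩ := y.2.2
        exact ⟨a, (ha v).symm⟩⟩, by
        intro h0
        apply hv
        have h1 : (y : MulAut V) v = 1 := congrArg Subtype.val h0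
        exact (map_eq_one_iff _ (y : MulAut V).injective).1 h1⟩
    have hf : Function.Injective f := by
      intro a b hab
      have h1 : (a : MulAut V) v = (b : MulAut V) v := congrArg (fun z => ((z.1 : zpowers v) : V)) hab
      apply Subtype.ext
      have h2 : ((b : MulAut V))⁻¹ * (a : MulAut V) = 1 := by
        apply h.semireg hV hv (mul_mem (inv_mem b.2.1) a.2.1)
        rw [MulAut.mul_apply, h1, MulAut.inv_apply_self]
      rw [inv_mul_eq_one] at h2
      exact h2.symm
    have h1 := Nat.card_le_card_of_injective f hf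
    have h2 : Nat.card {u : zpowers v // u ≠ 1} = p - 1 := by
      have h3 : Nat.card (zpowers v) = p := by rw [Nat.card_zpowers, hord]
      have h4 : ({u : zpowers v | u ≠ 1} : Set (zpowers v)) = {1}ᶜ := rfl
      have h5 : Nat.card {u : zpowers v // u ≠ 1} = ({1}ᶜ : Set (zpowers v)).ncard := rfl
      rw [h5, Set.ncard_compl, Set.ncard_singleton, h3]
    omega
  -- a non-scalar element
  have hex : ∃ x ∈ Y, x ∉ S := by
    by_contra hcon
    push Not at hcon
    have h1 : Nat.card Y ≤ Nat.card S :=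
      Nat.card_le_card_of_injective (fun y : Y => (⟨y, hcon y y.2⟩ : S)) (fun a b hab => by
        apply Subtype.ext
        exact congrArg (fun z : S => (z : MulAut V)) hab)
    have h2 : p ^ 2 - 1 = (p - 1) * (p + 1) := by
      obtain ⟨q, rfl⟩ : ∃ q, p = q + 1 := ⟨p - 1, by omega⟩
      have : (q + 1) ^ 2 = q * (q + 1 + 1) + 1 := by ring
      rw [this]; simp
    rw [hY, h2] at h1
    have h3 : (p - 1) * 2 ≤ (p - 1) * (p + 1) := Nat.mul_le_mul_left _ (by omega)
    omega
  obtain ⟨x, hx, hxS⟩ := hex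
  have hns : ∀ y ∈ Y, y ∉ S → Good y ∧ y ≠ 1 := by
    intro y hy hyS
    refine ⟨h.g1 y hy (h.cyc_two hV hy (fun h0 => hyS ⟨hy, h0⟩)), ?_⟩
    rintro rfl
    exact hyS ⟨hy, 1, fun w => by simp⟩
  set D := Y ⊓ centralizer {x} with hD
  have hD2 : 2 ≤ Nat.card D := by
    have hxD : x ∈ D := ⟨hx, mem_centralizer_singleton_iff.2 rfl⟩
    have h1 : D ≠ ⊥ := by
      intro h0
      rw [h0, Subgroup.mem_bot] at hxD
      exact (hns x hx hxS).2 hxD
    have := (Subgroup.one_lt_card_iff_ne_bot D).2 h1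
    omega
  -- the non-scalar elements form one class
  have hcl : Nat.card {y : Y // (y : MulAut V) ∉ S} * Nat.card D ≤ Nat.card Y := by
    rw [← Nat.card_prod]
    have hch : ∀ y : {y : Y // (y : MulAut V) ∉ S}, ∃ z ∈ Y, z * x * z⁻¹ = (y : Y) := fun y =>
      h.g2 x hx _ (y : Y).2 (hns x hx hxS).2 (hns _ (y : Y).2 y.2).2 (hns x hx hxS).1 (hns _ (y : Y).2 y.2).1
    choose z hz hzx using hch
    apply Nat.card_le_card_of_injective (fun q : {y : Y // (y : MulAut V) ∉ S} × D =>
      (⟨z q.1 * q.2, mul_mem (hz q.1) q.2.2.1⟩ : Y))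
    rintro ⟨a, d⟩ ⟨b, e⟩ hab
    have h1 : z a * (d : MulAut V) = z b * (e : MulAut V) := congrArg Subtype.val hab
    have key : ∀ (c : {y : Y // (y : MulAut V) ∉ S}) (g : D), (z c * (g : MulAut V)) * x * (z c * (g : MulAut V))⁻¹ = (c : Y) := by
      intro c g
      have h2 : (g : MulAut V) * x = x * (g : MulAut V) := mem_centralizer_singleton_iff.1 g.2.2
      rw [← hzx c]
      calc z c * (g : MulAut V) * x * (z c * (g : MulAut V))⁻¹ = z c * ((g : MulAut V) * x) * (g : MulAut V)⁻¹ * (z c)⁻¹ := by group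
        _ = z c * x * (z c)⁻¹ := by rw [h2]; group
    have h2 : a = b := by
      apply Subtype.ext
      apply Subtype.ext
      rw [← key a d, h1, key b e]
    subst h2
    have h3 : (d : MulAut V) = e := mul_left_cancel h1
    rw [Prod.mk.injEq]
    exact ⟨rfl, Subtype.ext h3⟩
  have hsum : Nat.card Y ≤ Nat.card S + Nat.card {y : Y // (y : MulAut V) ∉ S} := by
    rw [← Nat.card_sum]
    apply Nat.card_le_card_of_injective (fun y : Y =>
      if hy : (y : MulAut V) ∈ S then (Sum.inl ⟨y, hy⟩ : S ⊕ {y : Y // (y : MulAut V) ∉ S}) else Sum.inr ⟨y, hy⟩)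
    intro a b hab
    by_cases ha : (a : MulAut V) ∈ S <;> by_cases hb : (b : MulAut V) ∈ S
    · simp only [ha, hb, dif_pos, Sum.inl.injEq] at hab
      exact Subtype.ext (congrArg (fun z : S => (z : MulAut V)) hab)
    · simp [ha, hb] at hab
    · simp [ha, hb] at hab
    · simp only [ha, hb, dif_neg, not_false_eq_true, Sum.inr.injEq] at hab
      exact congrArg (fun z : {y : Y // (y : MulAut V) ∉ S} => (z : Y)) hab
  have h2 : p ^ 2 - 1 = (p - 1) * (p + 1) := by
    obtain ⟨q, rfl⟩ : ∃ q, p = q + 1 := ⟨p - 1, by omega⟩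
    have : (q + 1) ^ 2 = q * (q + 1 + 1) + 1 := by ring
    rw [this]; simp
  have h3 : (p - 1) * 4 ≤ (p - 1) * (p + 1) := Nat.mul_le_mul_left _ (by omega)
  have h4 : Nat.card {y : Y // (y : MulAut V) ∉ S} * 2 ≤ Nat.card Y := (Nat.mul_le_mul_left _ hD2).trans hcl
  omega

end Cfsg.Agent.Lib.H76K3A
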