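import Cfsg.Agent.Lib.H76K3B

/-!
# Transitive linear groups with exactly two good classes: counting conjugates (helper76)
-/

set_option autoImplicit false
set_option linter.all false

open Subgroup

universe u v

namespace Cfsg.Agent.Lib.H76K3A

open Cfsg.Agent.Lib Cfsg.Agent.Lib.H30LinA Cfsg.Agent.Lib.H30LinB Cfsg.Agent.Lib.H30LinC Cfsg.Agent.Lib.H50Out

open Polynomial in
/-- an irreducible operator is conjugate to at most `dim` of its powers -/
theorem lin_count {F : Type v} {W : Type u} [Field F] [AddCommGroup W] [Module F W] [Finite W] [Nontrivial W]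
    {x : Module.End F W} (hirr : ∀ U : Submodule F W, (∀ u ∈ U, x u ∈ U) → U = ⊥ ∨ U = ⊤) {r : ℕ}
    (hpow : Set.InjOn (fun k : ℕ => x ^ k) (Set.Ico 1 r))
    (hc : ∀ k, 1 ≤ k → k < r → ∃ y z : Module.End F W, z * y = 1 ∧ y * x * z = x ^ k) :
    r - 1 ≤ Module.finrank F W := by
  classical
  haveI : Module.Finite F W := Module.Finite.of_finite
  have hfm : x.charpoly.Monic := LinearMap.charpoly_monic _
  have hroot : ∀ k, 1 ≤ k → k < r → aeval (x ^ k) x.charpoly = 0 := by
    intro k h1 h2
    obtain ⟨y, z, hzy, hy⟩ := hc k h1 h2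
    haveI : Finite (Module.End F W) := Finite.of_injective
      (fun f : Module.End F W => (f : W → W)) (fun f g h => by
        apply LinearMap.ext; intro v; exact congrFun h v)
    have hyz : y * z = 1 := mul_eq_one_comm.1 hzy
    have h3 : ∀ i : ℕ, (x ^ k) ^ i = y * x ^ i * z := by
      intro i
      rw [← hy]
      induction i with
      | zero => rw [pow_zero, pow_zero, mul_one, hyz]
      | succ i ih =>
        rw [pow_succ, ih, pow_succ]
        calc y * x ^ i * z * (y * x * z) = y * x ^ i * (z * y) * x * z := by simp only [mul_assoc]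
          _ = y * (x ^ i * x) * z := by rw [hzy]; simp only [mul_assoc, one_mul]
    have h4 := LinearMap.aeval_self_charpoly x
    rw [aeval_eq_sum_range] at h4 ⊢
    have h5 : ∑ i ∈ Finset.range (x.charpoly.natDegree + 1), x.charpoly.coeff i • (x ^ k) ^ i =
        y * (∑ i ∈ Finset.range (x.charpoly.natDegree + 1), x.charpoly.coeff i • x ^ i) * z := by
      rw [Finset.mul_sum, Finset.sum_mul]
      apply Finset.sum_congr rfl
      intro i _
      rw [h3, mul_smul_comm, smul_mul_assoc]
    rw [h5, h4, mul_zero, zero_mul]
  haveI : Finite (Module.End F W) := Finite.of_injective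
    (fun f : Module.End F W => (f : W → W)) (fun f g h => by
      apply LinearMap.ext; intro v; exact congrFun h v)
  let K := Subalgebra.centralizer F ({x} : Set (Module.End F W))
  haveI : Finite K := inferInstance
  haveI : Nontrivial K := by
    refine ⟨⟨0, 1, fun h => ?_⟩⟩
    obtain ⟨v, hv⟩ := exists_ne (0 : W)
    have h1 : (0 : Module.End F W) = 1 := congrArg Subtype.val h
    exact hv (DFunLike.congr_fun h1 v).symm
  have hcomm : ∀ f ∈ K, ∀ v, f (x v) = x (f v) := by
    intro f hf v
    have h1 := Subalgebra.mem_centralizer_iff F |>.1 hf x rfl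
    exact (DFunLike.congr_fun h1 v).symm
  haveI : NoZeroDivisors K := by
    refine ⟨fun {a b} hab => ?_⟩
    have hU : ∀ u ∈ LinearMap.ker (a : Module.End F W), x u ∈ LinearMap.ker (a : Module.End F W) := by
      intro u hu
      rw [LinearMap.mem_ker] at hu ⊢
      rw [hcomm a a.2, hu, map_zero]
    rcases hirr _ hU with h | h
    · right
      apply Subtype.ext
      refine LinearMap.ext fun v => ?_
      have h1 : (b : Module.End F W) v ∈ LinearMap.ker (a : Module.End F W) := by
        rw [LinearMap.mem_ker]
        have := DFunLike.congr_fun (congrArg Subtype.val hab) v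
        exact this
      rw [h] at h1
      exact h1
    · left
      apply Subtype.ext
      refine LinearMap.ext fun v => ?_
      have h1 : v ∈ LinearMap.ker (a : Module.End F W) := h ▸ Submodule.mem_top
      exact h1
  haveI : IsDomain K := NoZeroDivisors.to_isDomain K
  have hF : IsField K := Finite.isDomain_to_isField K
  letI : CommRing K := { (inferInstance : Ring K) with mul_comm := hF.mul_comm }
  let z : ℕ → K := fun k => ⟨x ^ k, by
    rw [Subalgebra.mem_centralizer_iff]
    rintro _ rfl
    rw [← pow_succ', ← pow_succ]⟩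
  have hz : ∀ k, 1 ≤ k → k < r → aeval (z k) x.charpoly = 0 := by
    intro k h1 h2
    have h3 := hroot k h1 h2
    apply Subtype.ext
    have h4 := Polynomial.aeval_algHom_apply K.val (z k) x.charpoly
    have h5 : K.val (z k) = x ^ k := rfl
    rw [h5, h3] at h4
    exact h4.symm
  set g : K[X] := x.charpoly.map (algebraMap F K) with hg
  have hg0 : g ≠ 0 := (hfm.map _).ne_zero
  have hsub : (Finset.Ico 1 r).image z ⊆ g.roots.toFinset := by
    intro w hw
    obtain ⟨k, hk, rfl⟩ := Finset.mem_image.1 hw
    rw [Finset.mem_Ico] at hk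
    rw [Multiset.mem_toFinset, mem_roots hg0, IsRoot, hg, eval_map_algebraMap]
    exact hz k hk.1 hk.2
  have hcard : ((Finset.Ico 1 r).image z).card = r - 1 := by
    rw [Finset.card_image_of_injOn, Nat.card_Ico]
    intro a ha b hb hab
    rw [Finset.coe_Ico] at ha hb
    exact hpow ha hb (congrArg Subtype.val hab)
  calc r - 1 = ((Finset.Ico 1 r).image z).card := hcard.symm
    _ ≤ g.roots.toFinset.card := Finset.card_le_card hsub
    _ ≤ Multiset.card g.roots := Multiset.toFinset_card_le _
    _ ≤ g.natDegree := card_roots' g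
    _ ≤ x.charpoly.natDegree := natDegree_map_le
    _ = Module.finrank F W := LinearMap.charpoly_natDegree _

variable {V : Type u} [CommGroup V] [Finite V] {p : ℕ} [hp : Fact p.Prime]

theorem conj_count_aux {n r : ℕ} [Module (ZMod p) (Additive V)] (hV : Nat.card V = p ^ n) [Nontrivial V]
    {x : MulAut V} (hx : Irr x) (hxr : orderOf x = r) (hc : ∀ k, 1 ≤ k → k < r → ∃ y : MulAut V, y * x * y⁻¹ = x ^ k) :
    r - 1 ≤ n := by
  haveI : Finite (Additive V) := inferInstanceAs (Finite V)
  haveI : Nontrivial (Additive V) := inferInstanceAs (Nontrivial V)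
  haveI : Module.Finite (ZMod p) (Additive V) := Module.Finite.of_finite
  let T : MulAut V → (Additive V →ₗ[ZMod p] Additive V) := fun y =>
    AddMonoidHom.toZModLinearMap p (MonoidHom.toAdditive (MulEquiv.toMonoidHom y) : Additive V →+ Additive V)
  have hT : ∀ (y : MulAut V) (v : Additive V), T y v = Additive.ofMul (y v.toMul) := fun _ _ => rfl
  let L : MulAut V →* Module.End (ZMod p) (Additive V) :=
    { toFun := T
      map_one' := by
        apply LinearMap.ext
        intro v
        rw [hT]
        rfl
      map_mul' := fun a b => by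
        apply LinearMap.ext
        intro v
        rw [Module.End.mul_apply, hT, hT, hT]
        rfl }
  have hL : ∀ y, L y = T y := fun _ => rfl
  have hLinj : Function.Injective L := by
    intro a b hab
    ext v
    exact DFunLike.congr_fun hab (Additive.ofMul v)
  have hf : Module.finrank (ZMod p) (Additive V) = n := by
    have h1 := Module.natCard_eq_pow_finrank (K := ZMod p) (V := Additive V)
    rw [Nat.card_zmod] at h1
    have h2 : Nat.card (Additive V) = p ^ n := hV
    rw [h2] at h1
    exact (Nat.pow_right_injective hp.out.two_le h1).symm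
  rw [← hf]
  apply lin_count (x := L x)
  · intro U hU
    let U' : Subgroup V :=
      { carrier := {v | Additive.ofMul v ∈ U}
        mul_mem' := fun {a b} ha hb => U.add_mem ha hb
        one_mem' := U.zero_mem
        inv_mem' := fun {a} ha => U.neg_mem ha }
    have hm : ∀ v : V, v ∈ U' ↔ Additive.ofMul v ∈ U := fun _ => Iff.rfl
    have h1 : ∀ u ∈ U', x u ∈ U' := by
      intro u hu
      exact hU (Additive.ofMul u) hu
    rcases hx U' h1 with h | h
    · left
      rw [Submodule.eq_bot_iff]
      intro w hw
      have : w.toMul ∈ U' := hw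
      rw [h, Subgroup.mem_bot] at this
      exact this
    · right
      rw [Submodule.eq_top_iff']
      intro w
      have : w.toMul ∈ U' := by rw [h]; trivial
      exact this
  · intro a ha b hb hab
    have h1 : L (x ^ a) = L (x ^ b) := by rw [map_pow, map_pow]; exact hab
    have h2 := hLinj h1
    exact pow_injOn_Iio_orderOf (by rw [Set.mem_Iio, hxr]; exact ha.2) (by rw [Set.mem_Iio, hxr]; exact hb.2) h2
  · intro k h1 h2
    obtain ⟨y, hy⟩ := hc k h1 h2
    refine ⟨L y, L y⁻¹, ?_, ?_⟩
    · rw [← map_mul, inv_mul_cancel, map_one]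
    · rw [← map_mul, ← map_mul, hy, map_pow]

theorem conj_count {n r : ℕ} (hexp : ∀ v : V, v ^ p = 1) (hV : Nat.card V = p ^ n) [Nontrivial V]
    {x : MulAut V} (hx : Irr x) (hxr : orderOf x = r) (hc : ∀ k, 1 ≤ k → k < r → ∃ y : MulAut V, y * x * y⁻¹ = x ^ k) :
    r - 1 ≤ n := by
  letI : Module (ZMod p) (Additive V) := AddCommGroup.zmodModule (fun v => hexp v.toMul)
  exact conj_count_aux hV hx hxr hc

end Cfsg.Agent.Lib.H76K3A
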