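import Cfsg.Agent.Lib.H76K3C

/-!
# Transitive linear groups with exactly two good classes: the main theorem (helper76)
-/

set_option autoImplicit false
set_option linter.all false

open Subgroup

universe u v

namespace Cfsg.Agent.Lib.H76K3A

open Cfsg.Agent.Lib Cfsg.Agent.Lib.H30LinA Cfsg.Agent.Lib.H30LinB Cfsg.Agent.Lib.H30LinC Cfsg.Agent.Lib.H50Out

variable {V : Type u} [CommGroup V] [Finite V] {p : ℕ} [hp : Fact p.Prime] {Y : Subgroup (MulAut V)}
  {Good : MulAut V → Prop}

theorem orderOf_conj {G : Type*} [Group G] (y x : G) : orderOf (y * x * y⁻¹) = orderOf x := by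
  have := orderOf_injective (MulAut.conj y).toMonoidHom (MulAut.conj y).injective x
  simpa using this

/-- primitive prime divisors -/
theorem Data.ppd (h : Data p Y Good) {n : ℕ} (hn : 1 ≤ n) (hV : Nat.card V = p ^ n) {r : ℕ} [hr : Fact r.Prime]
    (hrd : r ∣ p ^ n - 1) (hz : ∀ i, 1 ≤ i → i < n → ¬ r ∣ p ^ i - 1) :
    r = n + 1 ∧ ¬ r ^ 2 ∣ p ^ n - 1 ∧ ∃ x ∈ Y, x ≠ 1 ∧ Good x ∧ orderOf x = r ∧ Nat.card ↥(Y ⊓ centralizer {x}) = r := by
  haveI : Nontrivial V := by
    rw [← Finite.one_lt_card_iff_nontrivial, hV]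
    exact Nat.one_lt_pow (by omega) hp.out.one_lt
  have hrp : r ≠ p := by
    rintro rfl
    have h1 : r ∣ r ^ n := dvd_pow_self r (by omega)
    have h2 : r ∣ 1 := by
      have h3 := (Nat.dvd_sub_iff_right (Nat.one_le_pow _ _ hr.out.pos) h1).1 hrd
      exact h3
    exact hr.out.one_lt.ne' (Nat.dvd_one.1 h2)
  have hexp := h.pow_eq_one hV
  obtain ⟨v, hv⟩ := exists_ne (1 : V)
  have hdvd : p ^ n - 1 ∣ Nat.card Y := by
    rw [← hV]
    exact ⟨_, (card_sub_one_dvd Y h.tr hv).symm⟩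
  have hirr : ∀ x ∈ Y, orderOf x = r → Irr x := fun x _ hxr => irr_of_zsig hV hrp hz hxr
  have hne1 : ∀ x : MulAut V, orderOf x = r → x ≠ 1 := by
    rintro x hx rfl
    rw [orderOf_one] at hx
    exact hr.out.one_lt.ne hx
  -- the centralizer of an element of order `r`
  have hcen : ∀ x ∈ Y, orderOf x = r → Good x ∧ Nat.card ↥(Y ⊓ centralizer {x}) = r := by
    intro x hx hxr
    have hI := hirr x hx hxr
    have hcyc : IsCyclic ↥(Y ⊓ centralizer {x}) := centralizer_cyclic hI _ (fun y hy => mem_centralizer_singleton_iff.1 hy.2)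
    have hg := h.g1 x hx hcyc
    refine ⟨hg, ?_⟩
    obtain ⟨g, hgen⟩ := IsCyclic.exists_generator (α := ↥(Y ⊓ centralizer {x}))
    have hxD : x ∈ Y ⊓ centralizer {x} := ⟨hx, mem_centralizer_singleton_iff.2 rfl⟩
    obtain ⟨k, hk⟩ := hgen ⟨x, hxD⟩
    have hk' : (g : MulAut V) ^ k = x := congrArg Subtype.val hk
    have hcomm : ∀ y : MulAut V, y * g = g * y → y * x = x * y := by
      intro y hy
      rw [← hk']
      exact (show Commute y g from hy).zpow_right k
    have hcyc2 : IsCyclic ↥(Y ⊓ centralizer {(g : MulAut V)}) :=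
      centralizer_cyclic hI _ (fun y hy => hcomm y (mem_centralizer_singleton_iff.1 hy.2))
    have hg2 := h.g1 g g.2.1 hcyc2
    have hg1 : (g : MulAut V) ≠ 1 := by
      intro h0
      rw [h0, one_zpow] at hk'
      exact hne1 x hxr hk'.symm
    obtain ⟨y, -, hy⟩ := h.g2 x hx g g.2.1 (hne1 x hxr) hg1 hg hg2
    have h1 : orderOf (g : MulAut V) = r := by rw [← hy, orderOf_conj, hxr]
    rw [← h1, Subgroup.orderOf_coe]
    exact (orderOf_eq_card_of_forall_mem_zpowers hgen).symm
  -- `r` divides the order exactly once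
  have hsq : ¬ r ^ 2 ∣ Nat.card Y := by
    intro hd
    obtain ⟨K, hK⟩ := Sylow.exists_subgroup_card_pow_prime (G := Y) r hd
    haveI : Nontrivial K := by
      rw [← Finite.one_lt_card_iff_nontrivial, hK]
      exact Nat.one_lt_pow two_ne_zero hr.out.one_lt
    have hKp : IsPGroup r K := IsPGroup.of_card hK
    obtain ⟨x, hx⟩ := exists_prime_orderOf_dvd_card' (G := center K) r (by
      have h1 := hKp.to_subgroup (center K)
      obtain ⟨m, hm⟩ := IsPGroup.iff_card.1 h1
      haveI := hKp.center_nontrivial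
      have h2 : 1 < Nat.card (center K) := Finite.one_lt_card
      rw [hm] at h2 ⊢
      apply dvd_pow_self
      rintro rfl
      simp at h2)
    set x' : MulAut V := (((x : K) : Y) : MulAut V) with hx'
    have hxr : orderOf x' = r := by
      rw [hx', Subgroup.orderOf_coe, Subgroup.orderOf_coe, Subgroup.orderOf_coe, hx]
    have h1 := (hcen x' ((x : K) : Y).2 hxr).2
    have h2 : (K.map Y.subtype) ≤ Y ⊓ centralizer {x'} := by
      rintro _ ⟨k, hk, rfl⟩
      refine ⟨k.2, mem_centralizer_singleton_iff.2 ?_⟩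
      have h3 := Subgroup.mem_center_iff.1 x.2 ⟨k, hk⟩
      exact congrArg (fun z : K => ((z : Y) : MulAut V)) h3
    have h3 := Nat.le_of_dvd Nat.card_pos (Subgroup.card_dvd_of_le h2)
    rw [h1, Subgroup.card_map_of_injective Y.subtype_injective, hK] at h3
    have h4 := hr.out.one_lt
    nlinarith
  -- an element of order `r`
  obtain ⟨x, hxr⟩ := exists_prime_orderOf_dvd_card' (G := Y) r (hrd.trans hdvd)
  have hxr' : orderOf (x : MulAut V) = r := by rw [Subgroup.orderOf_coe, hxr]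
  have hI := hirr x x.2 hxr'
  obtain ⟨hgx, hcx⟩ := hcen x x.2 hxr'
  refine ⟨?_, fun h0 => hsq (h0.trans hdvd), x, x.2, hne1 _ hxr', hgx, hxr', hcx⟩
  have hle : r - 1 ≤ n := by
    apply conj_count hexp hV hI hxr'
    intro k h1 h2
    have h3 : orderOf ((x : MulAut V) ^ k) = r := by
      rw [orderOf_pow' _ (by omega), hxr', Nat.Coprime.gcd_eq_one, Nat.div_one]
      rw [Nat.Prime.coprime_iff_not_dvd hr.out]
      intro h0
      have := Nat.le_of_dvd (by omega) h0
      omega
    have h4 := (hcen _ (pow_mem x.2 k) h3).1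
    obtain ⟨y, -, hy⟩ := h.g2 x x.2 _ (pow_mem x.2 k) (hne1 _ hxr') (hne1 _ h3) hgx h4
    exact ⟨y, hy⟩
  have hge : n ≤ r - 1 := by
    by_contra hlt
    push Not at hlt
    have h1 : r ∣ p ^ (r - 1) - 1 := by
      have h2 : (p : ZMod r) ^ (r - 1) = 1 := by
        apply ZMod.pow_card_sub_one_eq_one
        intro h0
        rw [ZMod.natCast_eq_zero_iff, Nat.prime_dvd_prime_iff_eq hr.out hp.out] at h0
        exact hrp h0
      exact (Zsigmondy.dvd_pow_sub_one_iff hp.out.one_lt.le).2 h2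
    have h2 := hr.out.two_le
    exact hz (r - 1) (by omega) hlt h1
  have h2 := hr.out.two_le
  omega

/-- divisibility of a set by the orbit lengths -/
theorem dvd_card_of_orbits {H X : Type*} [Group H] [Finite H] [Finite X] [MulAction H X] {m : ℕ}
    (hm : ∀ x : X, m ∣ (MulAction.stabilizer H x).index) : m ∣ Nat.card X := by
  classical
  haveI := Fintype.ofFinite H
  haveI := Fintype.ofFinite X
  haveI : Fintype (Quotient (MulAction.orbitRel H X)) := Fintype.ofFinite _
  rw [Nat.card_congr (MulAction.selfEquivSigmaOrbitsQuotientStabilizer H X), Nat.card_sigma]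
  apply Finset.dvd_sum
  intro ω _
  exact hm _

/-- the exceptional case `3^4` -/
theorem Data.no_81 (h : Data 3 Y Good) (hV : Nat.card V = 3 ^ 4) : False := by
  classical
  haveI : Fact (Nat.Prime 3) := ⟨Nat.prime_three⟩
  haveI : Fact (Nat.Prime 5) := ⟨Nat.prime_five⟩
  haveI : Fact (Nat.Prime 2) := ⟨Nat.prime_two⟩
  haveI : Nontrivial V := by
    rw [← Finite.one_lt_card_iff_nontrivial, hV]
    norm_num
  have hexp := h.pow_eq_one hV
  obtain ⟨-, -, x, hx, hx1, -, hxr, hc⟩ := h.ppd (n := 4) (by norm_num) hV (r := 5) (by norm_num) (by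
    intro i h1 h2
    interval_cases i <;> norm_num)
  -- the inversion is not in `Y`
  set ι : MulAut V := MulEquiv.inv V with hι
  have hιv : ∀ v, ι v = v⁻¹ := fun v => rfl
  have hιY : ι ∉ Y := by
    intro h0
    have h1 : ι ∈ Y ⊓ centralizer {x} := by
      refine ⟨h0, mem_centralizer_singleton_iff.2 ?_⟩
      ext v
      rw [MulAut.mul_apply, MulAut.mul_apply, hιv, hιv, map_inv]
    have h2 := orderOf_dvd_natCard (⟨ι, h1⟩ : ↥(Y ⊓ centralizer {x}))
    rw [hc, Subgroup.orderOf_mk] at h2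
    have h3 : ι ^ 2 = 1 := by
      ext v
      rw [pow_two, MulAut.mul_apply, hιv, hιv, inv_inv, MulAut.one_apply]
    have h4 := orderOf_dvd_of_pow_eq_one h3
    have h5 : orderOf ι = 1 := Nat.eq_one_of_dvd_coprimes (by norm_num : Nat.Coprime 2 5) h4 h2
    rw [orderOf_eq_one_iff] at h5
    obtain ⟨v, hv⟩ := exists_ne (1 : V)
    apply hv
    have h6 : v⁻¹ = v := by rw [← hιv, h5, MulAut.one_apply]
    have h7 : v ^ 2 = 1 := by
      rw [pow_two]
      nth_rewrite 1 [← h6]
      exact inv_mul_cancel v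
    have h8 := hexp v
    rw [pow_succ, h7, one_mul] at h8
    exact h8
  -- a Sylow 2-subgroup
  obtain ⟨v₀, hv₀⟩ := exists_ne (1 : V)
  have h80 : ∀ v : V, v ≠ 1 → 80 * Nat.card (MulAction.stabilizer Y v) = Nat.card Y := by
    intro v hv
    have := card_sub_one_dvd Y h.tr hv
    rw [hV] at this
    exact this
  obtain ⟨S⟩ : Nonempty (Sylow 2 Y) := inferInstance
  have hSp : IsPGroup 2 (S : Subgroup Y) := S.isPGroup'
  have h16 : 2 ^ 4 ∣ Nat.card (S : Subgroup Y) := by
    apply S.pow_dvd_card_of_pow_dvd_card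
    rw [← h80 v₀ hv₀]
    exact Dvd.dvd.mul_right (by norm_num) _
  haveI : Nontrivial (S : Subgroup Y) := by
    rw [← Finite.one_lt_card_iff_nontrivial]
    have := Nat.le_of_dvd Nat.card_pos h16
    omega
  obtain ⟨z, hz⟩ := exists_prime_orderOf_dvd_card' (G := center (S : Subgroup Y)) 2 (by
      have h1 := hSp.to_subgroup (center (S : Subgroup Y))
      obtain ⟨m, hm⟩ := IsPGroup.iff_card.1 h1
      haveI := hSp.center_nontrivial
      have h2 : 1 < Nat.card (center (S : Subgroup Y)) := Finite.one_lt_card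
      rw [hm] at h2 ⊢
      apply dvd_pow_self
      rintro rfl
      simp at h2)
  set z' : MulAut V := (((z : (S : Subgroup Y)) : Y) : MulAut V) with hz'
  have hz2 : orderOf z' = 2 := by
    rw [hz', Subgroup.orderOf_coe, Subgroup.orderOf_coe, Subgroup.orderOf_coe, hz]
  have hzz : ∀ v, z' (z' v) = v := by
    intro v
    rw [← MulAut.mul_apply, ← pow_two, ← hz2, pow_orderOf_eq_one, MulAut.one_apply]
  have hzc : ∀ s : (S : Subgroup Y), ((s : Y) : MulAut V) * z' = z' * ((s : Y) : MulAut V) := by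
    intro s
    exact congrArg (fun w : (S : Subgroup Y) => ((w : Y) : MulAut V)) (Subgroup.mem_center_iff.1 z.2 s)
  set K := Critical2.fixIn z' (⊤ : Subgroup V) with hK
  have hKm : ∀ v, v ∈ K ↔ z' v = v := fun v => ⟨fun h => h.2, fun h => ⟨trivial, h⟩⟩
  have hKt : K ≠ ⊤ := by
    intro h0
    have h1 : z' = 1 := by
      ext v
      exact (hKm v).1 (h0 ▸ Subgroup.mem_top v)
    rw [h1, orderOf_one] at hz2
    omega
  have hKb : K ≠ ⊥ := by
    intro h0
    apply hιY
    have h1 : z' = ι := by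
      ext v
      have h2 : v * z' v ∈ K := by
        rw [hKm, map_mul, hzz, mul_comm]
      rw [h0, Subgroup.mem_bot] at h2
      rw [hιv]
      exact (inv_eq_of_mul_eq_one_right h2).symm
    rw [← h1]
    exact ((z : (S : Subgroup Y)) : Y).2
  -- the action on `K \ {1}`
  let act : MulAction (S : Subgroup Y) {v : V // v ∈ K ∧ v ≠ 1} :=
    { smul := fun s v => ⟨((s : Y) : MulAut V) v, by
        refine ⟨?_, ?_⟩
        · rw [hKm, ← MulAut.mul_apply, ← hzc, MulAut.mul_apply, (hKm _).1 v.2.1]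
        · intro h1
          exact v.2.2 ((map_eq_one_iff _ ((s : Y) : MulAut V).injective).1 h1)⟩
      one_smul := fun v => Subtype.ext rfl
      mul_smul := fun a b v => Subtype.ext rfl }
  have h16' : 2 ^ 4 ∣ Nat.card {v : V // v ∈ K ∧ v ≠ 1} := by
    apply @dvd_card_of_orbits (S : Subgroup Y) {v : V // v ∈ K ∧ v ≠ 1} _ _ _ act
    intro v
    set Sv := @MulAction.stabilizer (S : Subgroup Y) {v : V // v ∈ K ∧ v ≠ 1} _ act v with hSv
    have h1 : Nat.card Sv ∣ Nat.card (MulAction.stabilizer Y (v : V)) := by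
      have hle : Sv.map (S : Subgroup Y).subtype ≤ MulAction.stabilizer Y (v : V) := by
        rintro _ ⟨s, hs, rfl⟩
        rw [MulAction.mem_stabilizer_iff]
        exact congrArg Subtype.val (MulAction.mem_stabilizer_iff.1 hs)
      have h2 := Subgroup.card_dvd_of_le hle
      rwa [Subgroup.card_map_of_injective (S : Subgroup Y).subtype_injective] at h2
    obtain ⟨c, hc2⟩ := IsPGroup.iff_card.1 (hSp.to_subgroup Sv)
    obtain ⟨a, ha⟩ := IsPGroup.iff_card.1 hSp
    have h2 : 2 ^ (c + 4) ∣ Nat.card (S : Subgroup Y) := by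
      apply S.pow_dvd_card_of_pow_dvd_card
      rw [← h80 v v.2.2]
      obtain ⟨m, hm⟩ := h1
      rw [hm, hc2]
      exact ⟨5 * m, by ring⟩
    have h3 := Sv.card_mul_index
    rw [hc2] at h3
    rw [← h3, pow_add] at h2
    exact Nat.dvd_of_mul_dvd_mul_left (by positivity) h2
  have hcard : Nat.card {v : V // v ∈ K ∧ v ≠ 1} = Nat.card K - 1 := by
    have h1 : Nat.card {v : V // v ∈ K ∧ v ≠ 1} = Nat.card ({1}ᶜ : Set K) := by
      apply Nat.card_congr
      exact ⟨fun v => ⟨⟨v, v.2.1⟩, fun h0 => v.2.2 (congrArg Subtype.val h0)⟩,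
        fun w => ⟨w.1, w.1.2, fun h0 => w.2 (Subtype.ext h0)⟩, fun _ => rfl, fun _ => rfl⟩
    rw [h1]
    show ({1}ᶜ : Set K).ncard = _
    rw [Set.ncard_compl, Set.ncard_singleton]
  obtain ⟨j, hj, hcK⟩ := card_pow' hV K
  rw [hcard, hcK] at h16'
  have hj0 : j ≠ 0 := by
    rintro rfl
    rw [pow_zero] at hcK
    exact hKb (Subgroup.card_eq_one.1 hcK)
  have hj4 : j ≠ 4 := by
    rintro rfl
    exact hKt (Subgroup.eq_top_of_card_eq _ (by rw [hcK, hV]))
  interval_cases j <;> first | omega | (norm_num at h16')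

theorem no_seven : ∀ a : ℕ, a ≤ 7 → 0 < a → a < 7 → ¬ IsSquare (a * (7 - a)) := by
  intro a h1 h2 h3
  rintro ⟨b, hb⟩
  have hb4 : b < 4 := by
    by_contra hlt
    push Not at hlt
    have h4 : 16 ≤ b * b := Nat.mul_le_mul hlt hlt
    have h5 : a * (7 - a) ≤ 12 := by interval_cases a <;> norm_num
    omega
  interval_cases a <;> interval_cases b <;> omega

/-- **Transitive linear groups with exactly two good classes** -/
theorem Data.main (h : Data p Y Good) [Nontrivial V] (hVp : IsPGroup p V) : Nat.card V = 3 := by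
  obtain ⟨n, hV⟩ := IsPGroup.iff_card.1 hVp
  have hp2 := h.ne_two
  have hn0 : n ≠ 0 := by
    rintro rfl
    have := Finite.one_lt_card (α := V)
    rw [hV] at this
    simp at this
  by_cases hn1 : n = 1
  · subst hn1
    exact h.one (by rw [hV, pow_one])
  by_cases hn2 : n = 2
  · subst hn2
    exact (h.two hV).elim
  exfalso
  have hn3 : 3 ≤ n := by omega
  have h7 : ∀ (r : ℕ), r = 7 → r ∣ p ^ n - 1 → (∀ i, 1 ≤ i → i < n → ¬ r ∣ p ^ i - 1) → False := by
    rintro r rfl h1 h2
    haveI : Fact (Nat.Prime 7) := ⟨by norm_num⟩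
    obtain ⟨-, -, x, hx, hx1, hg, -, hc⟩ := h.ppd (by omega) hV h1 h2
    obtain ⟨s1, s2, h3, h4, h5, h6⟩ := h.sq x hx hx1 hg
    rw [hc] at h3
    have h7 : s2 = 7 - s1 := by omega
    rw [h7] at h4
    exact no_seven s1 (by omega) h5 (by omega) h4
  by_cases hexc : (p, n) ∈ Zsigmondy.exc
  · simp only [Zsigmondy.exc, List.mem_cons, Prod.mk.injEq, List.not_mem_nil, or_false] at hexc
    have h4p : p ≠ 4 := by
      rintro rfl
      exact absurd hp.out (by norm_num)
    have hcases : (p = 3 ∧ n = 4) ∨ (p = 3 ∧ n = 6) ∨ (p = 5 ∧ n = 6) := by omega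
    rcases hcases with ⟨rfl, rfl⟩ | ⟨rfl, rfl⟩ | ⟨rfl, rfl⟩
    · exact h.no_81 hV
    · exact h7 7 rfl (by norm_num) (by intro i h1 h2; interval_cases i <;> norm_num)
    · exact h7 7 rfl (by norm_num) (by intro i h1 h2; interval_cases i <;> norm_num)
  · obtain ⟨m, hm, hco, hm3⟩ := Zsigmondy.primitive_part hp.out.two_le hn3 hexc
    have hprime : ∀ r : ℕ, r.Prime → r ∣ m → r = n + 1 ∧ ¬ r ^ 2 ∣ p ^ n - 1 := by
      intro r hr hrm
      haveI : Fact r.Prime := ⟨hr⟩
      obtain ⟨h1, h2, -⟩ := h.ppd (by omega) hV (hrm.trans hm) (by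
        intro i h1 h2 h3
        have h4 := hco i h1 h2
        have h5 := Nat.dvd_gcd hrm h3
        rw [h4] at h5
        exact hr.one_lt.ne' (Nat.dvd_one.1 h5))
      exact ⟨h1, h2⟩
    obtain ⟨r, hr, hrm⟩ := Nat.exists_prime_and_dvd (n := m) (by omega)
    obtain ⟨hr1, hr2⟩ := hprime r hr hrm
    obtain ⟨m', rfl⟩ := hrm
    have hm'1 : m' = 1 := by
      by_contra hne
      obtain ⟨s, hs, hsm⟩ := Nat.exists_prime_and_dvd hne
      obtain ⟨hs1, -⟩ := hprime s hs (hsm.mul_left r)
      have hrs : s = r := by omega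
      subst hrs
      apply hr2
      obtain ⟨t, rfl⟩ := hsm
      exact (Dvd.intro t (by ring)).trans hm
    rw [hm'1, mul_one] at hm3
    omega

end Cfsg.Agent.Lib.H76K3A
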