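import Cfsg.Agent.Lib.RMck2
import Cfsg.Agent.Lib.InvLocal
import Cfsg.Agent.Lib.Cores
import Cfsg.Agent.Lib.BlockNormP
import Cfsg.Agent.Lib.DefectZero

/-!
# Good elements relative to an invariant character (helper76)
-/

set_option autoImplicit false
set_option linter.all false

namespace Cfsg.Agent.Lib.H76K3E

open scoped ComplexConjugate
open Cfsg Cfsg.Agent.Lib Cfsg.Agent.Lib.CharBasic Cfsg.Agent.Lib.Clifford Cfsg.Agent.Lib.CliffordCorr
open Cfsg.Agent.Lib.CanonExt Cfsg.Agent.Lib.RMck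

universe u

attribute [local instance 5000] Fintype.ofFinite

variable {G : Type u} [Group G] [Finite G] {M : Subgroup G} [hM : M.Normal] {φ : G → ℂ}

/-- good elements -/
def Gd (M : Subgroup G) (φ : G → ℂ) (x : G) : Prop :=
  ∀ y, y * x * y⁻¹ * x⁻¹ ∈ M → Ext M φ (M ⊔ Subgroup.closure {x, y})

open scoped Classical in
theorem sq_val (h1 : IrrOn M φ) (h3 : ∀ g m, m ∈ M → φ (g * m * g⁻¹) = φ m) (x : G) :
    sq M φ x = if Gd M φ x then (Nat.card (cM M x) : ℂ) else 0 := by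
  have hxH : x ∈ M ⊔ Subgroup.zpowers x := Subgroup.mem_sup_right (Subgroup.mem_zpowers _)
  have hMH : M ≤ M ⊔ Subgroup.zpowers x := le_sup_left
  obtain ⟨e, he, hee⟩ := exists_ext (x := x) hMH le_rfl hxH h1 ⟨by
    rw [Subgroup.normalizer_eq_top_iff.mpr hM]; trivial, fun n hn => h3 _ _ hn⟩
  obtain ⟨γ, hγ, hγ'⟩ := exists_gamma h1 h3 he hee
  rw [sq_eq h1 h3 he hee hγ]
  have hiff : Gd M φ x ↔ γ = 1 := by
    constructor
    · intro h
      ext y
      rw [(gamma_iff le_rfl h1 h1 h3 he hee hγ hγ' y y.2).2 (h y y.2)]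
      rfl
    · intro h y hy
      rw [← gamma_iff le_rfl h1 h1 h3 he hee hγ hγ' ⟨y, hy⟩ hy, h]
      rfl
  rw [← map_sum, sum_hom_units γ]
  by_cases hg : γ = 1
  · rw [if_pos hg, if_pos (hiff.mpr hg), Nat.card_eq_fintype_card, map_natCast]
  · rw [if_neg hg, if_neg (fun h => hg (hiff.mp h))]
    simp

/-- the characters over `φ` -/
abbrev SS (M : Subgroup G) (φ : G → ℂ) : Type u := {χ : IrrCharacter G // ip M (χ : G → ℂ) φ ≠ 0}

open scoped Classical in
theorem sum_Gd (h1 : IrrOn M φ) (h3 : ∀ g m, m ∈ M → φ (g * m * g⁻¹) = φ m) :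
    ∑ x : G, (if Gd M φ x then Nat.card (cM M x) else 0) = Nat.card (SS M φ) * Nat.card M * Nat.card G := by
  have h := sum_sq M φ
  rw [Finset.sum_congr rfl (fun x _ => sq_val h1 h3 x)] at h
  have h2 : ((∑ x : G, (if Gd M φ x then Nat.card (cM M x) else 0) : ℕ) : ℂ) =
      ((Nat.card (SS M φ) * Nat.card M * Nat.card G : ℕ) : ℂ) := by
    push_cast
    rw [← h]
  exact_mod_cast h2

theorem sq_conj (x z : G) : sq M φ (z * x * z⁻¹) = sq M φ x := by
  classical
  unfold RMck.sq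
  apply Finset.sum_congr rfl
  intro χ _
  split_ifs with h
  · refine Fintype.sum_equiv (MulAut.conjNormal z⁻¹ : M ≃* M).toEquiv _ _ (fun m => ?_)
    have h1 : (χ : G → ℂ) (m * (z * x * z⁻¹)) = (χ : G → ℂ) (((MulAut.conjNormal z⁻¹ : M ≃* M) m : M) * x) := by
      rw [MulAut.conjNormal_apply, ← χ.2.isClassFunction (z⁻¹ * m * z⁻¹⁻¹ * x) z]
      congr 1
      group
    show (χ : G → ℂ) (m * (z * x * z⁻¹)) * conj ((χ : G → ℂ) (m * (z * x * z⁻¹))) =
      (χ : G → ℂ) (((MulAut.conjNormal z⁻¹ : M ≃* M) m : M) * x) *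
        conj ((χ : G → ℂ) (((MulAut.conjNormal z⁻¹ : M ≃* M) m : M) * x))
    rw [h1]
  · rfl

/-- conjugate modulo `M` -/
def Cj (M : Subgroup G) (x y : G) : Prop := ∃ z, z * x * z⁻¹ * y⁻¹ ∈ M

theorem cj_iff {x y : G} : Cj M x y ↔ IsConj (x : G ⧸ M) (y : G ⧸ M) := by
  rw [isConj_iff]
  constructor
  · rintro ⟨z, hz⟩
    refine ⟨(z : G ⧸ M), ?_⟩
    have h1 : ((z * x * z⁻¹ * y⁻¹ : G) : G ⧸ M) = 1 := (QuotientGroup.eq_one_iff _).2 hz
    have h2 : (z : G ⧸ M) * (x : G ⧸ M) * (z : G ⧸ M)⁻¹ * (y : G ⧸ M)⁻¹ = 1 := h1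
    exact mul_inv_eq_one.1 h2
  · rintro ⟨z, hz⟩
    obtain ⟨z, rfl⟩ := QuotientGroup.mk_surjective z
    refine ⟨z, ?_⟩
    rw [← QuotientGroup.eq_one_iff]
    show (z : G ⧸ M) * (x : G ⧸ M) * (z : G ⧸ M)⁻¹ * (y : G ⧸ M)⁻¹ = 1
    rw [hz, mul_inv_cancel]

theorem sq_cj {x y : G} (h : Cj M x y) : sq M φ y = sq M φ x := by
  obtain ⟨z, hz⟩ := h
  rw [← sq_conj x z]
  have h1 : z * x * z⁻¹ = (z * x * z⁻¹ * y⁻¹) * y := by group
  rw [h1, sq_left_inv M φ hz]

theorem Gd.cj (h1 : IrrOn M φ) (h3 : ∀ g m, m ∈ M → φ (g * m * g⁻¹) = φ m) {x y : G} (hx : Gd M φ x) (h : Cj M x y) :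
    Gd M φ y ∧ Nat.card (cM M y) = Nat.card (cM M x) := by
  classical
  have h2 := sq_cj (φ := φ) h
  rw [sq_val h1 h3, sq_val h1 h3, if_pos hx] at h2
  have h0 : (Nat.card (cM M x) : ℂ) ≠ 0 := by exact_mod_cast Nat.card_pos.ne'
  by_cases hy : Gd M φ y
  · rw [if_pos hy] at h2
    exact ⟨hy, by exact_mod_cast h2⟩
  · rw [if_neg hy] at h2
    exact absurd h2.symm h0

theorem mem_cM_iff {x y : G} : y ∈ cM M x ↔ (y : G ⧸ M) ∈ Subgroup.centralizer {(x : G ⧸ M)} := by
  rw [mem_cM, Subgroup.mem_centralizer_singleton_iff, ← QuotientGroup.eq_one_iff]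
  show (y : G ⧸ M) * (x : G ⧸ M) * (y : G ⧸ M)⁻¹ * (x : G ⧸ M)⁻¹ = 1 ↔ _
  rw [mul_inv_eq_one, mul_inv_eq_iff_eq_mul]

theorem card_cM (x : G) : Nat.card (cM M x) = Nat.card M * Nat.card (Subgroup.centralizer {(x : G ⧸ M)}) := by
  rw [← Cores.card_comap_mk]
  congr 1
  have : cM M x = (Subgroup.centralizer {(x : G ⧸ M)}).comap (QuotientGroup.mk' M) := by
    ext y
    rw [mem_cM_iff]
    rfl
  rw [this]

/-- the class -/
theorem card_Cj (x : G) : Nat.card {y : G // Cj M x y} * Nat.card (cM M x) = Nat.card M * Nat.card G := by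
  classical
  have h1 : Nat.card {y : G // Cj M x y} = Nat.card M * Nat.card {e : G ⧸ M // IsConj (x : G ⧸ M) e} := by
    have h2 := BlockNormP.sum_quot M (fun e : G ⧸ M => if IsConj (x : G ⧸ M) e then (1 : ℂ) else 0)
    rw [← Finset.sum_filter, ← Finset.sum_filter] at h2
    simp only [Finset.sum_const, nsmul_eq_mul, mul_one] at h2
    rw [← Fintype.card_subtype, ← Fintype.card_subtype, ← Nat.card_eq_fintype_card, ← Nat.card_eq_fintype_card] at h2
    have h3 : Nat.card {y : G // Cj M x y} = Nat.card {y : G // IsConj (x : G ⧸ M) (y : G ⧸ M)} := by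
      apply Nat.card_congr
      exact Equiv.subtypeEquivRight (fun y => cj_iff)
    rw [h3]
    exact_mod_cast h2
  have h2 := InvLocal.card_conj_mul_card_centralizer (x : G ⧸ M)
  have h3 : Nat.card M * Nat.card (G ⧸ M) = Nat.card G := by
    rw [mul_comm, ← Subgroup.index_eq_card, Subgroup.index_mul_card]
  rw [h1, card_cM, ← h3, ← h2]
  ring

theorem Cj.symm {x y : G} (h : Cj M x y) : Cj M y x := by
  rw [cj_iff] at h ⊢
  exact h.symm

theorem Cj.trans {x y z : G} (h : Cj M x y) (h' : Cj M y z) : Cj M x z := by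
  rw [cj_iff] at h h' ⊢
  exact h.trans h'

theorem Cj.refl (x : G) : Cj M x x := by
  rw [cj_iff]

/-- inequivalent good elements -/
theorem card_le_SS (h1 : IrrOn M φ) (h3 : ∀ g m, m ∈ M → φ (g * m * g⁻¹) = φ m) (R : Finset G)
    (hR : ∀ r ∈ R, Gd M φ r) (hd : ∀ r ∈ R, ∀ s ∈ R, Cj M r s → r = s) : R.card ≤ Nat.card (SS M φ) := by
  classical
  have hs := sum_Gd h1 h3
  have h4 : ∑ r ∈ R, ∑ x : G, (if Cj M r x then Nat.card (cM M x) else 0) ≤
      ∑ x : G, (if Gd M φ x then Nat.card (cM M x) else 0) := by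
    rw [Finset.sum_comm]
    apply Finset.sum_le_sum
    intro x _
    by_cases hx : ∃ r ∈ R, Cj M r x
    · obtain ⟨r, hr, hrx⟩ := hx
      rw [Finset.sum_eq_single r, if_pos hrx, if_pos ((hR r hr).cj h1 h3 hrx).1]
      · intro s hs' hsr
        rw [if_neg]
        intro hsx
        exact hsr (hd s hs' r hr (hsx.trans hrx.symm))
      · intro h; exact absurd hr h
    · push Not at hx
      rw [Finset.sum_eq_zero (fun r hr => if_neg (hx r hr))]
      exact Nat.zero_le _
  have h5 : ∀ r ∈ R, ∑ x : G, (if Cj M r x then Nat.card (cM M x) else 0) = Nat.card M * Nat.card G := by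
    intro r hr
    rw [← card_Cj (M := M) r, ← Finset.sum_filter]
    rw [Finset.sum_congr rfl (g := fun _ => Nat.card (cM M r)) (fun x hx => ((hR r hr).cj h1 h3 (Finset.mem_filter.1 hx).2).2)]
    rw [Finset.sum_const, smul_eq_mul, ← Fintype.card_subtype, ← Nat.card_eq_fintype_card]
  rw [Finset.sum_congr rfl h5, Finset.sum_const, smul_eq_mul, hs, mul_assoc] at h4
  have h6 : 0 < Nat.card M * Nat.card G := Nat.mul_pos Nat.card_pos Nat.card_pos
  exact Nat.le_of_mul_le_mul_right h4 h6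

/-- cyclic extensions -/
theorem gd_of_cyclic (h1 : IrrOn M φ) (h3 : ∀ g m, m ∈ M → φ (g * m * g⁻¹) = φ m) {x z : G} (hz : z ∈ cM M x)
    (hc : cM M x ≤ M ⊔ Subgroup.zpowers z) : Gd M φ x := by
  intro y hy
  obtain ⟨e, he, hee⟩ := exists_ext (x := z) (le_cM x) hc hz h1 ⟨by
    rw [Subgroup.normalizer_eq_top_iff.mpr hM]; trivial, fun n hn => h3 _ _ hn⟩
  have hxc : x ∈ cM M x := by
    rw [mem_cM]; simp
  have hle : M ⊔ Subgroup.closure {x, y} ≤ cM M x := by
    refine sup_le (le_cM x) ?_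
    rw [Subgroup.closure_le]
    rintro w (rfl | rfl)
    · exact hxc
    · exact hy
  refine ⟨e, ?_, hee⟩
  apply irrOn_of_res (K := M) le_sup_left (he.ch.res hle)
  exact h1.congr fun m hm => (hee m hm).symm

theorem gd_one (h1 : IrrOn M φ) (h3 : ∀ g m, m ∈ M → φ (g * m * g⁻¹) = φ m) {x : G} (hx : x ∈ M) : Gd M φ x := by
  intro y hy
  have hle : M ⊔ Subgroup.closure {x, y} ≤ M ⊔ Subgroup.zpowers y := by
    refine sup_le le_sup_left ?_
    rw [Subgroup.closure_le]
    rintro w (rfl | rfl)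
    · exact Subgroup.mem_sup_left hx
    · exact Subgroup.mem_sup_right (Subgroup.mem_zpowers _)
  obtain ⟨e, he, hee⟩ := exists_ext (x := y) (N := M) (H := M ⊔ Subgroup.closure {x, y}) le_sup_left hle
    (Subgroup.mem_sup_right (Subgroup.subset_closure (by simp))) h1 ⟨by
    rw [Subgroup.normalizer_eq_top_iff.mpr hM]; trivial, fun n hn => h3 _ _ hn⟩
  exact ⟨e, he, hee⟩

theorem Gd.inv {x : G} (h : Gd M φ x) : Gd M φ x⁻¹ := by
  intro y hy
  have h1 : y * x * y⁻¹ * x⁻¹ ∈ M := by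
    rw [← mem_cM, mem_cM_iff] at hy ⊢
    rw [Subgroup.mem_centralizer_singleton_iff] at hy ⊢
    have h2 : Commute (y : G ⧸ M) (x : G ⧸ M)⁻¹ := hy
    exact (Commute.inv_right_iff.1 h2)
  have h2 := h y h1
  have h3 : Subgroup.closure {x⁻¹, y} = Subgroup.closure {x, y} := by
    apply le_antisymm
    · rw [Subgroup.closure_le]
      rintro w (rfl | rfl)
      · exact inv_mem (Subgroup.subset_closure (by simp))
      · exact Subgroup.subset_closure (by simp)
    · rw [Subgroup.closure_le]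
      rintro w (rfl | rfl)
      · have := inv_mem (Subgroup.subset_closure (by simp : w⁻¹ ∈ ({w⁻¹, y} : Set G)))
        rwa [inv_inv] at this
      · exact Subgroup.subset_closure (by simp)
  rw [h3]
  exact h2

theorem gd_unique (h1 : IrrOn M φ) (h3 : ∀ g m, m ∈ M → φ (g * m * g⁻¹) = φ m) (hS : Nat.card (SS M φ) ≤ 2) {x y : G}
    (hx : Gd M φ x) (hy : Gd M φ y) (hxM : x ∉ M) (hyM : y ∉ M) : Cj M x y := by
  classical
  by_contra hn
  have hone : ∀ w, Cj M 1 w → w ∈ M := by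
    intro w hw
    rw [cj_iff] at hw
    have h4 : ((1 : G) : G ⧸ M) = 1 := rfl
    rw [h4, isConj_one_right] at hw
    exact (QuotientGroup.eq_one_iff w).1 hw
  have hx1 : (1 : G) ≠ x := fun h => hxM (h ▸ M.one_mem)
  have hy1 : (1 : G) ≠ y := fun h => hyM (h ▸ M.one_mem)
  have hxy : x ≠ y := fun h => hn (h ▸ Cj.refl x)
  have := card_le_SS h1 h3 {1, x, y} (by
    intro r hr
    simp only [Finset.mem_insert, Finset.mem_singleton] at hr
    rcases hr with rfl | rfl | rfl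
    · exact gd_one h1 h3 M.one_mem
    · exact hx
    · exact hy) (by
    intro r hr s hs h
    simp only [Finset.mem_insert, Finset.mem_singleton] at hr hs
    rcases hr with rfl | rfl | rfl <;> rcases hs with rfl | rfl | rfl
    · rfl
    · exact absurd (hone _ h) hxM
    · exact absurd (hone _ h) hyM
    · exact absurd (hone _ h.symm) hxM
    · rfl
    · exact absurd h hn
    · exact absurd (hone _ h.symm) hyM
    · exact absurd h.symm hn
    · rfl)
  rw [Finset.card_insert_of_notMem (by simp [hx1, hy1]), Finset.card_insert_of_notMem (by simp [hxy]),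
    Finset.card_singleton] at this
  omega

/-- for `x ∈ M` everything commutes with `x` modulo `M` -/
theorem cM_eq_top {x : G} (hx : x ∈ M) : cM M x = ⊤ := by
  rw [eq_top_iff]
  intro y _
  rw [mem_cM_iff, Subgroup.mem_centralizer_singleton_iff, (QuotientGroup.eq_one_iff x).2 hx, mul_one, one_mul]

theorem gd_exists (h1 : IrrOn M φ) (h3 : ∀ g m, m ∈ M → φ (g * m * g⁻¹) = φ m) (hS : Nat.card (SS M φ) = 2) :
    ∃ x, x ∉ M ∧ Gd M φ x := by
  classical
  by_contra hno
  push Not at hno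
  have hs := sum_Gd h1 h3
  have h4 : ∀ x : G, (if Gd M φ x then Nat.card (cM M x) else 0) = if x ∈ M then Nat.card G else 0 := by
    intro x
    by_cases hx : x ∈ M
    · rw [if_pos hx, if_pos (gd_one h1 h3 hx), cM_eq_top hx, Subgroup.card_top]
    · rw [if_neg hx, if_neg (hno x hx)]
  rw [Finset.sum_congr rfl (fun x _ => h4 x), ← Finset.sum_filter, Finset.sum_const, smul_eq_mul,
    ← Fintype.card_subtype, ← Nat.card_eq_fintype_card, hS] at hs
  have h5 : Nat.card {x : G // x ∈ M} = Nat.card M := rfl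
  rw [h5] at hs
  have h6 : 0 < Nat.card M * Nat.card G := Nat.mul_pos Nat.card_pos Nat.card_pos
  nlinarith

/-- rank one and cyclic quotient -/
theorem eq_top_of_one (h1 : IrrOn M φ) (h3 : ∀ g m, m ∈ M → φ (g * m * g⁻¹) = φ m) (hS : Nat.card (SS M φ) = 1)
    {z : G} (hz : (⊤ : Subgroup G) ≤ M ⊔ Subgroup.zpowers z) : M = ⊤ := by
  classical
  have hn : M ⊔ Subgroup.zpowers z ≤ Subgroup.normalizer (M : Set G) := by
    rw [Subgroup.normalizer_eq_top_iff.mpr hM]; exact le_top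
  have hcomm : ∀ x y : G, Commute (x : G ⧸ M) (y : G ⧸ M) := by
    have key : ∀ x : G, (x : G ⧸ M) ∈ Subgroup.zpowers (z : G ⧸ M) := by
      intro x
      have hx : x ∈ M ⊔ Subgroup.zpowers z := hz trivial
      have h4 : M ⊔ Subgroup.zpowers z ≤ (Subgroup.zpowers (z : G ⧸ M)).comap (QuotientGroup.mk' M) := by
        refine sup_le ?_ ?_
        · intro m hm
          rw [Subgroup.mem_comap]
          have : (QuotientGroup.mk' M) m = 1 := (QuotientGroup.eq_one_iff m).2 hm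
          rw [this]
          exact one_mem _
        · rw [Subgroup.zpowers_le]
          exact Subgroup.mem_zpowers _
      exact h4 hx
    intro x y
    obtain ⟨i, hi⟩ := Subgroup.mem_zpowers_iff.1 (key x)
    obtain ⟨j, hj⟩ := Subgroup.mem_zpowers_iff.1 (key y)
    rw [← hi, ← hj]
    exact ((Commute.refl _).zpow_left i).zpow_right j
  have htop : ∀ x : G, cM M x = ⊤ := by
    intro x
    rw [eq_top_iff]
    intro y _
    rw [mem_cM_iff, Subgroup.mem_centralizer_singleton_iff]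
    exact hcomm y x
  have hgd : ∀ x : G, Gd M φ x := fun x => gd_of_cyclic h1 h3 (z := z) (by rw [htop]; trivial) (by rw [htop]; exact hz)
  have hs := sum_Gd h1 h3
  have h4 : ∀ x : G, (if Gd M φ x then Nat.card (cM M x) else 0) = Nat.card G := by
    intro x
    rw [if_pos (hgd x), htop, Subgroup.card_top]
  rw [Finset.sum_congr rfl (fun x _ => h4 x), Finset.sum_const, smul_eq_mul, Finset.card_univ,
    ← Nat.card_eq_fintype_card, hS, one_mul] at hs
  exact Subgroup.eq_top_of_card_eq _ (Nat.eq_of_mul_eq_mul_right Nat.card_pos hs.symm)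

end Cfsg.Agent.Lib.H76K3E
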