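import Cfsg.Agent.Lib.H76K3E
import Cfsg.Agent.Lib.CharCentral
import Cfsg.Agent.Lib.CharBasic2

/-!
# Two characters over an invariant character: coset norms (helper76)
-/

set_option autoImplicit false
set_option linter.all false

namespace Cfsg.Agent.Lib.H76K3E

open scoped ComplexConjugate
open Cfsg Cfsg.Agent.Lib Cfsg.Agent.Lib.CharBasic Cfsg.Agent.Lib.Clifford Cfsg.Agent.Lib.CliffordCorr
open Cfsg.Agent.Lib.CanonExt Cfsg.Agent.Lib.RMck

universe u

attribute [local instance 5000] Fintype.ofFinite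

variable {G : Type u} [Group G] [Finite G] {M : Subgroup G} [hM : M.Normal] {φ : G → ℂ}

/-- the norm over a coset -/
noncomputable def F (M : Subgroup G) (χ : G → ℂ) (y : G) : ℂ := ∑ m : M, χ (m * y) * conj (χ (m * y))

theorem F_real (χ : G → ℂ) (y : G) : ∃ r : ℝ, 0 ≤ r ∧ F M χ y = (r : ℂ) := by
  refine ⟨∑ m : M, Complex.normSq (χ (m * y)), Finset.sum_nonneg (fun m _ => Complex.normSq_nonneg _), ?_⟩
  unfold F
  push_cast
  apply Finset.sum_congr rfl
  intro m _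
  rw [Complex.mul_conj]

theorem F_left {χ : G → ℂ} {m : G} (hm : m ∈ M) (y : G) : F M χ (m * y) = F M χ y := by
  unfold F
  refine Fintype.sum_equiv (Equiv.mulRight (⟨m, hm⟩ : M)) _ _ (fun n => ?_)
  show χ (n * (m * y)) * conj (χ (n * (m * y))) = χ ((n * m : G) * y) * conj (χ ((n * m : G) * y))
  rw [mul_assoc]

theorem F_conj {χ : G → ℂ} (hχ : IsClassFunction G χ) (x z : G) : F M χ (z * x * z⁻¹) = F M χ x := by
  unfold F
  refine Fintype.sum_equiv (MulAut.conjNormal z⁻¹ : M ≃* M).toEquiv _ _ (fun m => ?_)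
  have h1 : χ (m * (z * x * z⁻¹)) = χ (((MulAut.conjNormal z⁻¹ : M ≃* M) m : M) * x) := by
    rw [MulAut.conjNormal_apply, ← hχ (z⁻¹ * m * z⁻¹⁻¹ * x) z]
    congr 1
    group
  show χ (m * (z * x * z⁻¹)) * conj (χ (m * (z * x * z⁻¹))) =
    χ (((MulAut.conjNormal z⁻¹ : M ≃* M) m : M) * x) * conj (χ (((MulAut.conjNormal z⁻¹ : M ≃* M) m : M) * x))
  rw [h1]

theorem F_cj {χ : G → ℂ} (hχ : IsClassFunction G χ) {x y : G} (h : Cj M x y) : F M χ y = F M χ x := by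
  obtain ⟨z, hz⟩ := h
  rw [← F_conj hχ x z]
  have h1 : z * x * z⁻¹ = (z * x * z⁻¹ * y⁻¹) * y := by group
  rw [h1, F_left hz]

theorem sum_F {χ : G → ℂ} (hχ : IsIrrCharacter G χ) : ∑ y : G, F M χ y = (Nat.card M : ℂ) * Nat.card G := by
  unfold F
  rw [Finset.sum_comm]
  have h2 : ∀ m : M, ∑ y : G, χ (m * y) * conj (χ (m * y)) = Nat.card G := by
    intro m
    have h3 : ∑ y : G, χ (m * y) * conj (χ (m * y)) = ∑ y : G, χ y * conj (χ y) :=
      Fintype.sum_equiv (Equiv.mulLeft (m : G)) _ _ (fun y => rfl)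
    have h0 : (Nat.card G : ℂ) ≠ 0 := by exact_mod_cast Nat.card_pos.ne'
    rw [h3]
    have h4 := hχ.classInner_self
    rw [classInner_def] at h4
    have h5 := congrArg (fun z => (Nat.card G : ℂ) * z) h4
    simp only [mul_one] at h5
    rw [← mul_assoc, mul_inv_cancel₀ h0, one_mul] at h5
    exact h5
  rw [Finset.sum_congr rfl (fun m _ => h2 m), Finset.sum_const, Finset.card_univ, nsmul_eq_mul,
    Nat.card_eq_fintype_card (α := M)]

theorem F_mem (h1 : IrrOn M φ) (h3 : ∀ g m, m ∈ M → φ (g * m * g⁻¹) = φ m) {χ : IrrCharacter G}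
    (hχ : ip M (χ : G → ℂ) φ ≠ 0) :
    ∃ e : ℕ, 0 < e ∧ ∀ y ∈ M, F M (χ : G → ℂ) y = (e : ℂ) ^ 2 * Nat.card M := by
  obtain ⟨e, he⟩ := (χ.2.isCharacter.restrict M).classInner_nat (IrrOn.ch h1)
  have he' : ip M (χ : G → ℂ) φ = e := he
  refine ⟨e, Nat.pos_of_ne_zero (fun h => hχ (by rw [he', h]; simp)), ?_⟩
  intro y hy
  have hy1 : F M (χ : G → ℂ) y = F M (χ : G → ℂ) 1 := by
    have := F_left (χ := (χ : G → ℂ)) hy 1
    rwa [mul_one] at this
  rw [hy1]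
  unfold F
  have h5 : ∀ m : M, (χ : G → ℂ) (m * 1) * conj ((χ : G → ℂ) (m * 1)) = (e : ℂ) ^ 2 * (φ m * conj (φ m)) := by
    intro m
    rw [mul_one, res_scal h1 h3 χ.2 hχ m m.2, he', map_mul, Complex.conj_natCast]
    ring
  rw [Finset.sum_congr rfl (fun m _ => h5 m), ← Finset.mul_sum]
  congr 1
  have h0 : (Nat.card M : ℂ) ≠ 0 := by exact_mod_cast Nat.card_pos.ne'
  have h4 := (show IsIrrCharacter M (fun m : M => φ m) from h1).classInner_self
  rw [classInner_def] at h4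
  have h5 := congrArg (fun z => (Nat.card M : ℂ) * z) h4
  simp only [mul_one] at h5
  rw [← mul_assoc, mul_inv_cancel₀ h0, one_mul] at h5
  exact h5

theorem avg_integral {ψ : G → ℂ} (hψ : IsCharacter G ψ) (y : G) :
    IsIntegral ℤ ((Nat.card M : ℂ)⁻¹ * ∑ m : M, ψ (m * y)) := by
  have h0 : (Nat.card M : ℂ) ≠ 0 := by exact_mod_cast Nat.card_pos.ne'
  have h1 : (Nat.card M : ℂ)⁻¹ * ∑ m : M, ψ (m * y) =
      ∑ γ : IrrCharacter G, classInner ψ (γ : G → ℂ) * ((Nat.card M : ℂ)⁻¹ * ∑ m : M, (γ : G → ℂ) (m * y)) := by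
    have h2 : ∀ m : M, ψ (m * y) = ∑ γ : IrrCharacter G, classInner ψ (γ : G → ℂ) * (γ : G → ℂ) (m * y) :=
      fun m => hψ.isClassFunction.expansion_apply _
    rw [Finset.sum_congr rfl (fun m _ => h2 m), Finset.sum_comm, Finset.mul_sum]
    apply Finset.sum_congr rfl
    intro γ _
    rw [← Finset.mul_sum]
    ring
  rw [h1]
  apply IsIntegral.sum
  intro γ _
  apply IsIntegral.mul
  · obtain ⟨n, hn⟩ := hψ.classInner_nat γ.2.isCharacter
    rw [hn]
    have h5 : IsIntegral ℤ (algebraMap ℤ ℂ (n : ℤ)) := isIntegral_algebraMap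
    simpa using h5
  · by_cases hc : ∀ n : M, (γ : G → ℂ) n = (γ : G → ℂ) 1
    · have h2 : ∀ m : M, (γ : G → ℂ) (m * y) = (γ : G → ℂ) y := fun m =>
        CosetAvg.mul_eq_of_const' γ.2.isCharacter hc m y
      rw [Finset.sum_congr rfl (fun m _ => h2 m), Finset.sum_const, Finset.card_univ, nsmul_eq_mul,
        ← Nat.card_eq_fintype_card, ← mul_assoc, inv_mul_cancel₀ h0, one_mul]
      exact DefectZero.isIntegral_value γ.2.isCharacter y
    · push Not at hc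
      rw [CosetAvg.sum_coset_eq_zero γ.2 hc, mul_zero]
      exact isIntegral_zero

theorem F_int (χ : IrrCharacter G) (y : G) : IsIntegral ℤ ((Nat.card M : ℂ)⁻¹ * F M (χ : G → ℂ) y) :=
  avg_integral (M := M) (χ.2.isCharacter.mul χ.2.isCharacter.conj) y

theorem sum_split {f : G → ℂ} {x : G} (hxM : x ∉ M) {a b : ℂ} (h1 : ∀ y ∈ M, f y = a) (h2 : ∀ y, Cj M x y → f y = b)
    (h3 : ∀ y, y ∉ M → ¬ Cj M x y → f y = 0) :
    ∑ y : G, f y = (Nat.card M : ℂ) * a + (Nat.card {y : G // Cj M x y} : ℂ) * b := by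
  classical
  have h4 : ∀ y, f y = (if y ∈ M then a else 0) + (if Cj M x y then b else 0) := by
    intro y
    by_cases hy : y ∈ M
    · have hn : ¬ Cj M x y := by
        intro h
        apply hxM
        rw [cj_iff, (QuotientGroup.eq_one_iff y).2 hy, isConj_one_left] at h
        exact (QuotientGroup.eq_one_iff x).1 h
      rw [if_pos hy, if_neg hn, add_zero, h1 y hy]
    · by_cases hc : Cj M x y
      · rw [if_neg hy, if_pos hc, zero_add, h2 y hc]
      · rw [if_neg hy, if_neg hc, h3 y hy hc, add_zero]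
  rw [Finset.sum_congr rfl (fun y _ => h4 y), Finset.sum_add_distrib, ← Finset.sum_filter, ← Finset.sum_filter,
    Finset.sum_const, Finset.sum_const, nsmul_eq_mul, nsmul_eq_mul, ← Fintype.card_subtype, ← Fintype.card_subtype,
    ← Nat.card_eq_fintype_card, ← Nat.card_eq_fintype_card]

theorem gd_two (h1 : IrrOn M φ) (h3 : ∀ g m, m ∈ M → φ (g * m * g⁻¹) = φ m) (hS : Nat.card (SS M φ) = 2) {x : G}
    (hxM : x ∉ M) (hx : Gd M φ x) :
    ∃ s1 s2 : ℕ, Nat.card (cM M x) = (s1 + s2) * Nat.card M ∧ IsSquare (s1 * s2) ∧ 0 < s1 ∧ 0 < s2 := by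
  classical
  have hM0 : (Nat.card M : ℂ) ≠ 0 := by exact_mod_cast Nat.card_pos.ne'
  obtain ⟨χ1, χ2, hne, huniv⟩ := Nat.card_eq_two_iff.1 hS
  have hsq : ∀ y, RMck.sq M φ y = F M (χ1.1 : G → ℂ) y + F M (χ2.1 : G → ℂ) y := by
    intro y
    have h4 : RMck.sq M φ y = ∑ χ : IrrCharacter G, if ip M (χ : G → ℂ) φ ≠ 0 then F M (χ : G → ℂ) y else 0 := rfl
    rw [h4, ← Finset.sum_filter]
    have h5 : Finset.univ.filter (fun χ : IrrCharacter G => ip M (χ : G → ℂ) φ ≠ 0) = {χ1.1, χ2.1} := by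
      ext χ
      simp only [Finset.mem_filter, Finset.mem_univ, true_and, Finset.mem_insert, Finset.mem_singleton]
      constructor
      · intro h
        have h6 : (⟨χ, h⟩ : SS M φ) ∈ ({χ1, χ2} : Set (SS M φ)) := by rw [huniv]; trivial
        rcases h6 with h6 | h6
        · left; exact congrArg Subtype.val h6
        · right; exact congrArg Subtype.val h6
      · rintro (rfl | rfl)
        · exact χ1.2
        · exact χ2.2
    rw [h5, Finset.sum_pair (fun h => hne (Subtype.ext h))]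
  -- vanishing on the bad elements
  have hbad : ∀ y, y ∉ M → ¬ Cj M x y → F M (χ1.1 : G → ℂ) y = 0 ∧ F M (χ2.1 : G → ℂ) y = 0 := by
    intro y hyM hyc
    have h4 : RMck.sq M φ y = 0 := by
      rw [sq_val h1 h3, if_neg]
      intro hy
      exact hyc (gd_unique h1 h3 hS.le hx hy hxM hyM)
    rw [hsq] at h4
    obtain ⟨r1, hr1, e1⟩ := F_real (M := M) (χ1.1 : G → ℂ) y
    obtain ⟨r2, hr2, e2⟩ := F_real (M := M) (χ2.1 : G → ℂ) y
    rw [e1, e2] at h4 ⊢
    have h5 : r1 + r2 = 0 := by exact_mod_cast h4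
    have h6 : r1 = 0 := by linarith
    have h7 : r2 = 0 := by linarith
    rw [h6, h7]
    simp
  obtain ⟨e1, he1, hF1⟩ := F_mem h1 h3 χ1.2
  obtain ⟨e2, he2, hF2⟩ := F_mem h1 h3 χ2.2
  obtain ⟨c, hc⟩ : ∃ c, Nat.card (cM M x) = Nat.card M * c := ⟨_, card_cM x⟩
  obtain ⟨E, hE⟩ : ∃ E, Nat.card G = Nat.card M * E := ⟨M.index, (Subgroup.card_mul_index M).symm⟩
  have hE0 : E ≠ 0 := by
    rintro rfl
    rw [mul_zero] at hE
    exact Nat.card_pos.ne' hE
  have hc0 : c ≠ 0 := by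
    rintro rfl
    rw [mul_zero] at hc
    exact Nat.card_pos.ne' hc
  set κ := Nat.card {y : G // Cj M x y} with hκ
  have hκc : κ * c = Nat.card M * E := by
    have h4 := card_Cj (M := M) x
    rw [hc, hE, ← hκ] at h4
    have h5 : Nat.card M * (κ * c) = Nat.card M * (Nat.card M * E) := by rw [← h4]; ring
    exact Nat.eq_of_mul_eq_mul_left Nat.card_pos h5
  have hκc' : (κ : ℂ) * c = (Nat.card M : ℂ) * E := by exact_mod_cast hκc
  have hEc : (E : ℂ) ≠ 0 := by exact_mod_cast hE0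
  have hcc : (c : ℂ) ≠ 0 := by exact_mod_cast hc0
  have hEG : (Nat.card G : ℂ) = (Nat.card M : ℂ) * E := by exact_mod_cast hE
  -- the norm equation
  have key : ∀ (χ : IrrCharacter G) (e : ℕ), (∀ y ∈ M, F M (χ : G → ℂ) y = (e : ℂ) ^ 2 * Nat.card M) →
      (∀ y, y ∉ M → ¬ Cj M x y → F M (χ : G → ℂ) y = 0) →
      (E : ℂ) * ((Nat.card M : ℂ)⁻¹ * F M (χ : G → ℂ) x) = c * (E - (e : ℂ) ^ 2) := by
    intro χ e h4 h5
    have h6 := sum_split hxM h4 (fun y hy => F_cj χ.2.isClassFunction hy) h5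
    rw [sum_F χ.2, hEG, ← hκ] at h6
    have h7 : (κ : ℂ) * (c * F M (χ : G → ℂ) x) = c * ((Nat.card M : ℂ) * ((Nat.card M : ℂ) * E) -
        (Nat.card M : ℂ) * ((e : ℂ) ^ 2 * Nat.card M)) := by
      rw [h6]; ring
    have h8 : (Nat.card M : ℂ) * E * F M (χ : G → ℂ) x = c * ((Nat.card M : ℂ) * ((Nat.card M : ℂ) * E) -
        (Nat.card M : ℂ) * ((e : ℂ) ^ 2 * Nat.card M)) := by
      rw [← h7, ← hκc']; ring
    have h9 : (Nat.card M : ℂ) * (E * F M (χ : G → ℂ) x) = (Nat.card M : ℂ) * (c * (Nat.card M : ℂ) * (E - (e : ℂ) ^ 2)) := by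
      rw [← mul_assoc, h8]; ring
    have h10 := mul_left_cancel₀ hM0 h9
    rw [mul_left_comm, h10]
    field_simp
  have k1 := key χ1.1 e1 hF1 (fun y hy hy' => (hbad y hy hy').1)
  have k2 := key χ2.1 e2 hF2 (fun y hy hy' => (hbad y hy hy').2)
  set S1 := (Nat.card M : ℂ)⁻¹ * F M (χ1.1 : G → ℂ) x with hS1
  set S2 := (Nat.card M : ℂ)⁻¹ * F M (χ2.1 : G → ℂ) x with hS2
  have hsum : S1 + S2 = c := by
    rw [hS1, hS2, ← mul_add, ← hsq, sq_val h1 h3, if_pos hx, hc]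
    push_cast
    rw [← mul_assoc, inv_mul_cancel₀ hM0, one_mul]
  have hint : ∀ (χ : IrrCharacter G) (e : ℕ), (E : ℂ) * ((Nat.card M : ℂ)⁻¹ * F M (χ : G → ℂ) x) = c * (E - (e : ℂ) ^ 2) →
      ∃ n : ℤ, (Nat.card M : ℂ)⁻¹ * F M (χ : G → ℂ) x = n := by
    intro χ e h4
    apply CharCentral.exists_int_of_isIntegral_rat (F_int χ x) ((c : ℚ) * (E - (e : ℚ) ^ 2) / E)
    push_cast
    rw [← h4]
    field_simp
  obtain ⟨n1, hn1⟩ := hint χ1.1 e1 k1
  obtain ⟨n2, hn2⟩ := hint χ2.1 e2 k2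
  rw [← hS1] at hn1
  rw [← hS2] at hn2
  rw [hn1] at k1 hsum
  rw [hn2] at k2 hsum
  have k1' : (E : ℤ) * n1 = c * (E - (e1 : ℤ) ^ 2) := by exact_mod_cast k1
  have k2' : (E : ℤ) * n2 = c * (E - (e2 : ℤ) ^ 2) := by exact_mod_cast k2
  have hsum' : n1 + n2 = c := by exact_mod_cast hsum
  have hEe : (E : ℤ) = (e1 : ℤ) ^ 2 + (e2 : ℤ) ^ 2 := by
    have h4 : (E : ℤ) * c = c * (2 * E - (e1 : ℤ) ^ 2 - (e2 : ℤ) ^ 2) := by
      rw [← hsum', mul_add, k1', k2']; push_cast [← hsum']; ring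
    have hcz : (c : ℤ) ≠ 0 := by exact_mod_cast hc0
    have h5 : (c : ℤ) * E = c * (2 * E - (e1 : ℤ) ^ 2 - (e2 : ℤ) ^ 2) := by rw [← h4]; ring
    have h6 := mul_left_cancel₀ hcz h5
    linarith
  have k1'' : (E : ℤ) * n1 = c * (e2 : ℤ) ^ 2 := by rw [k1', hEe]; ring
  have k2'' : (E : ℤ) * n2 = c * (e1 : ℤ) ^ 2 := by rw [k2', hEe]; ring
  have hEz : (0 : ℤ) < E := by exact_mod_cast Nat.pos_of_ne_zero hE0
  have hcz : (0 : ℤ) < c := by exact_mod_cast Nat.pos_of_ne_zero hc0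
  have hp1 : 0 < n1 := by
    have h4 : (0 : ℤ) < E * n1 := by
      rw [k1'']
      have : (0 : ℤ) < e2 := by exact_mod_cast he2
      positivity
    exact (mul_pos_iff_of_pos_left hEz).1 h4
  have hp2 : 0 < n2 := by
    have h4 : (0 : ℤ) < E * n2 := by
      rw [k2'']
      have : (0 : ℤ) < e1 := by exact_mod_cast he1
      positivity
    exact (mul_pos_iff_of_pos_left hEz).1 h4
  obtain ⟨s1, rfl⟩ := Int.eq_ofNat_of_zero_le hp1.le
  obtain ⟨s2, rfl⟩ := Int.eq_ofNat_of_zero_le hp2.le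
  refine ⟨s1, s2, ?_, ?_, by exact_mod_cast hp1, by exact_mod_cast hp2⟩
  · have h4 : s1 + s2 = c := by exact_mod_cast hsum'
    rw [h4, hc, mul_comm]
  · have h4 : E * s1 = c * e2 ^ 2 := by exact_mod_cast k1''
    have h5 : E * s2 = c * e1 ^ 2 := by exact_mod_cast k2''
    have h6 : E ^ 2 * (s1 * s2) = (c * e1 * e2) ^ 2 := by
      calc E ^ 2 * (s1 * s2) = (E * s1) * (E * s2) := by ring
        _ = _ := by rw [h4, h5]; ring
    have h7 : E ∣ c * e1 * e2 := by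
      rw [← Nat.pow_dvd_pow_iff two_ne_zero, ← h6]
      exact Dvd.intro _ rfl
    obtain ⟨w, hw⟩ := h7
    refine ⟨w, ?_⟩
    have h8 : E ^ 2 * (s1 * s2) = E ^ 2 * (w * w) := by rw [h6, hw]; ring
    exact Nat.eq_of_mul_eq_mul_left (by positivity) h8

end Cfsg.Agent.Lib.H76K3E
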