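import Cfsg.Agent.Lib.BlockDom
import Cfsg.Agent.Lib.FongSwan3
import Cfsg.Agent.Lib.DefZeroCount
import Cfsg.Agent.Lib.PLength

set_option autoImplicit false
set_option linter.all false

/-!
# The rank of a block with a normal defect group: the number of its characters with the defect group in
the kernel (helper76), used by S4609
-/

namespace Cfsg.Agent.Lib.H76K3G

open Cfsg Cfsg.Agent.Lib.CharBasic Cfsg.Agent.Lib.BlockRing Cfsg.Agent.Lib.BlockIdem
open Cfsg.Agent.Lib.BlockGA Cfsg.Agent.Lib.BlockPair Cfsg.Agent.Lib.BlockCount Cfsg.Agent.Lib.BlockDefect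
open Cfsg.Agent.Lib.BlockOsima Cfsg.Agent.Lib.BlockDeg Cfsg.Agent.Lib.H76Blk Cfsg.Agent.Lib.H76Blk2

universe u

variable {G : Type u} [Group G] [Finite G] {p : ℕ} {M : Ideal AlgInt}

/-- `p`-regular elements which are conjugate modulo a normal `p`-subgroup are conjugate (any group) -/
theorem isConj_of_mk' [hp : Fact p.Prime] {P : Subgroup G} [hPn : P.Normal] (hP : IsPGroup p P) {x y : G}
    (hx : ¬ p ∣ orderOf x) (hy : ¬ p ∣ orderOf y) (h : IsConj (x : G ⧸ P) (y : G ⧸ P)) : IsConj x y := by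
  suffices key : ∀ x y : G, ¬ p ∣ orderOf x → ¬ p ∣ orderOf y → (x : G ⧸ P) = (y : G ⧸ P) → IsConj x y by
    rw [isConj_iff] at h
    obtain ⟨c, hc⟩ := h
    obtain ⟨g, rfl⟩ := QuotientGroup.mk_surjective c
    have h1 : IsConj x (g * x * g⁻¹) := isConj_iff.2 ⟨g, rfl⟩
    refine h1.trans (key _ _ ?_ hy hc)
    rw [orderOf_conj'']; exact hx
  intro x y hx hy hxy
  obtain ⟨X, hXdef⟩ : ∃ X : Subgroup G, X = Subgroup.zpowers x ⊔ P := ⟨_, rfl⟩
  have hxX : x ∈ X := by rw [hXdef]; exact Subgroup.mem_sup_left (Subgroup.mem_zpowers x)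
  have hPX : P ≤ X := by rw [hXdef]; exact le_sup_right
  have hyX : y ∈ X := by
    have h1 : x⁻¹ * y ∈ P := QuotientGroup.eq.1 hxy
    have h2 := X.mul_mem hxX (hPX h1)
    rwa [mul_inv_cancel_left] at h2
  have hPsub : IsPGroup p (P.subgroupOf X) := hP.comap_subtype
  have hXps : IsPSolvable p X := by
    have hcov : ∀ w : X, ∃ k : ℤ, (w : X ⧸ P.subgroupOf X) = ((⟨x, hxX⟩ : X) : X ⧸ P.subgroupOf X) ^ k := by
      intro w
      have h1 : (w : G) ∈ Subgroup.zpowers x ⊔ P := by rw [← hXdef]; exact w.2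
      obtain ⟨a, ha, b, hb, hab⟩ := Subgroup.mem_sup_of_normal_right.1 h1
      obtain ⟨k, hk⟩ := Subgroup.mem_zpowers_iff.1 ha
      refine ⟨k, ?_⟩
      rw [← QuotientGroup.mk_zpow]
      symm
      rw [QuotientGroup.eq, Subgroup.mem_subgroupOf]
      have h2 : ((((⟨x, hxX⟩ : X) ^ k)⁻¹ * w : X) : G) = b := by
        rw [Subgroup.coe_mul, Subgroup.coe_inv, Subgroup.coe_zpow, ← hab, ← hk]
        group
      rw [h2]; exact hb
    have hcomm : ∀ a b : X ⧸ P.subgroupOf X, a * b = b * a := by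
      intro a b
      obtain ⟨w, rfl⟩ := QuotientGroup.mk_surjective a
      obtain ⟨v, rfl⟩ := QuotientGroup.mk_surjective b
      obtain ⟨k, hk⟩ := hcov w
      obtain ⟨l, hl⟩ := hcov v
      rw [hk, hl, ← zpow_add, ← zpow_add, add_comm]
    have hsol : Group.IsSolvable (X ⧸ P.subgroupOf X) := isSolvable_of_comm hcomm
    have hpow : ∃ m : ℕ, Nat.card (P.subgroupOf X) = p ^ m := IsPGroup.iff_card.1 hPsub
    exact ClassProdPS.isPSolvable_of_quotient (P.subgroupOf X) (Or.inl hpow) PLength.isPSolvable_of_isSolvable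
  have hx' : ¬ p ∣ orderOf (⟨x, hxX⟩ : X) := by rwa [Subgroup.orderOf_mk]
  have hy' : ¬ p ∣ orderOf (⟨y, hyX⟩ : X) := by rwa [Subgroup.orderOf_mk]
  have he : ((⟨x, hxX⟩ : X) : X ⧸ P.subgroupOf X) = ((⟨y, hyX⟩ : X) : X ⧸ P.subgroupOf X) := by
    rw [QuotientGroup.eq, Subgroup.mem_subgroupOf]
    exact QuotientGroup.eq.1 hxy
  have h1 : IsConj (⟨x, hxX⟩ : X) (⟨y, hyX⟩ : X) :=
    FongSwan.isConj_of_mk hXps hPsub hx' hy' (by rw [he])
  obtain ⟨c, hc⟩ := isConj_iff.1 h1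
  exact isConj_iff.2 ⟨c, congrArg Subtype.val hc⟩

variable {P : Subgroup G} [hPn : P.Normal]

/-- class functions on `p`-regular elements are inflated from `G ⧸ P` -/
theorem exists_T_eq' [hp : Fact p.Prime] (hP : IsPGroup p P) {v : G → ℂ} (hv : IsClassFunction G v)
    (hv0 : ∀ g, p ∣ orderOf g → v g = 0) :
    ∃ f : G ⧸ P → ℂ, IsClassFunction (G ⧸ P) f ∧ T p P f = v := by
  classical
  have hcj : ∀ {x y : G}, IsConj x y → v x = v y := by
    intro x y h
    obtain ⟨c, hc⟩ := isConj_iff.1 h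
    rw [← hc, hv]
  have hch : ∀ y : G ⧸ P, ∃ x : G, ¬ p ∣ orderOf y → (¬ p ∣ orderOf x ∧ (x : G ⧸ P) = y) := by
    intro y
    by_cases hy : p ∣ orderOf y
    · exact ⟨1, fun h => absurd hy h⟩
    · obtain ⟨x, hx⟩ := exists_regular_lift hp.out P hy
      exact ⟨x, fun _ => hx⟩
  choose l hl using hch
  refine ⟨fun y => if p ∣ orderOf y then 0 else v (l y), ?_, ?_⟩
  · intro y z
    obtain ⟨g, rfl⟩ := QuotientGroup.mk_surjective z
    have e : orderOf ((g : G ⧸ P) * y * (g : G ⧸ P)⁻¹) = orderOf y := by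
      have := orderOf_injective (MulAut.conj (g : G ⧸ P)).toMonoidHom (MulAut.conj (g : G ⧸ P)).injective y
      simpa using this
    simp only [e]
    by_cases hy : p ∣ orderOf y
    · rw [if_pos hy, if_pos hy]
    · rw [if_neg hy, if_neg hy]
      obtain ⟨h1, h2⟩ := hl y hy
      obtain ⟨h3, h4⟩ := hl ((g : G ⧸ P) * y * (g : G ⧸ P)⁻¹) (by rw [e]; exact hy)
      apply hcj
      apply isConj_of_mk' hP h3 h1
      rw [h4, h2]
      exact (isConj_iff.2 ⟨(g : G ⧸ P), rfl⟩).symm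
  · funext x
    rw [T_apply]
    by_cases hx : p ∣ orderOf x
    · rw [if_pos hx, hv0 x hx]
    · rw [if_neg hx, if_neg (regular_mk hx)]
      obtain ⟨h1, h2⟩ := hl (x : G ⧸ P) (regular_mk hx)
      exact hcj (isConj_of_mk' hP h1 hx (by rw [h2]))

/-- the characters of the quotient inflating into `B` -/
def Sb (P : Subgroup G) [P.Normal] (B : Set (IrrCharacter G)) : Set (IrrCharacter (G ⧸ P)) := {ψ | infl P ψ ∈ B}

theorem rsp_eq' [hp : Fact p.Prime] (hM : IsPModular p M) (hP : IsPGroup p P)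
    {B : Set (IrrCharacter G)} (hB : IsPBlock M B) :
    rsp p B = (rsp p (Sb P B)).map (T p P) := by
  classical
  have := isPrime hM
  have := Fintype.ofFinite G
  have := Fintype.ofFinite (G ⧸ P)
  have hmem : ∀ ψ : IrrCharacter (G ⧸ P), infl P ψ ∈ B ↔ ψ ∈ Sb P B := fun ψ => Iff.rfl
  apply le_antisymm
  · rw [rsp, Submodule.span_le]
    rintro _ ⟨χ, hχ, rfl⟩
    have hv : preg p (χ : G → ℂ) ∈ rsp p B := Submodule.subset_span ⟨χ, hχ, rfl⟩
    obtain ⟨f, hf, hTf⟩ := exists_T_eq' hP (rsp_classFunction hv) (fun g hg => rsp_reg hv hg)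
    have hfe := hf.expansion
    set c : IrrCharacter (G ⧸ P) → ℂ := fun ψ => classInner f (ψ : G ⧸ P → ℂ) with hc
    set v₁ : G → ℂ := ∑ ψ : IrrCharacter (G ⧸ P) with ψ ∈ Sb P B, c ψ • preg p (infl P ψ : G → ℂ) with hv₁
    set v₂ : G → ℂ := ∑ ψ : IrrCharacter (G ⧸ P) with ψ ∉ Sb P B, c ψ • preg p (infl P ψ : G → ℂ) with hv₂
    have hT : ∀ ψ : IrrCharacter (G ⧸ P), T p P (ψ : G ⧸ P → ℂ) = preg p (infl P ψ : G → ℂ) := fun ψ => rfl
    have hsum : preg p (χ : G → ℂ) = v₁ + v₂ := by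
      rw [← hTf, hfe, map_sum, hv₁, hv₂, Finset.sum_filter_add_sum_filter_not]
      apply Finset.sum_congr rfl
      intro ψ _
      rw [map_smul, hT]
    have hv₁m : v₁ ∈ rsp p B := by
      apply Submodule.sum_mem
      intro ψ hψ
      apply Submodule.smul_mem
      apply Submodule.subset_span
      exact ⟨infl P ψ, (hmem ψ).2 (Finset.mem_filter.1 hψ).2, rfl⟩
    have hv₂m : v₂ ∈ rsp p B := by
      have : v₂ = preg p (χ : G → ℂ) - v₁ := by rw [hsum]; ring
      rw [this]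
      exact Submodule.sub_mem _ hv hv₁m
    have h0 : classInner v₂ v₂ = 0 := by
      conv_lhs => rw [hv₂]
      rw [classInner_sum_left]
      apply Finset.sum_eq_zero
      intro ψ hψ
      rw [classInner_smul_left]
      have h1 : classInner (preg p (infl P ψ : G → ℂ)) v₂ = 0 := by
        apply rsp_orth hM (isPBlock_blockOf (M := M) (infl P ψ)) hB
        · intro h
          apply (Finset.mem_filter.1 hψ).2
          rw [← hmem, ← h]
          exact mem_blockOf_self _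
        · exact Submodule.subset_span ⟨infl P ψ, mem_blockOf_self _, rfl⟩
        · exact hv₂m
      rw [h1, mul_zero]
    have h1 : v₂ = 0 := classInner_self_eq_zero.1 h0
    rw [h1, add_zero] at hsum
    show preg p (χ : G → ℂ) ∈ _
    rw [hsum, hv₁]
    apply Submodule.sum_mem
    intro ψ hψ
    apply Submodule.smul_mem
    rw [Submodule.mem_map]
    exact ⟨preg p (ψ : G ⧸ P → ℂ), Submodule.subset_span ⟨ψ, (Finset.mem_filter.1 hψ).2, rfl⟩, T_preg p P ψ⟩
  · rw [Submodule.map_le_iff_le_comap, rsp, Submodule.span_le]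
    rintro _ ⟨ψ, hψ, rfl⟩
    show T p P (preg p (ψ : G ⧸ P → ℂ)) ∈ rsp p B
    rw [T_preg]
    exact Submodule.subset_span ⟨infl P ψ, hψ, rfl⟩

theorem finrank_eq' [hp : Fact p.Prime] (hM : IsPModular p M) (hP : IsPGroup p P)
    {B : Set (IrrCharacter G)} (hB : IsPBlock M B) :
    blockRank p B = Module.finrank ℂ (rsp p (Sb P B)) := by
  classical
  rw [BlockCount.blockRank_eq, rsp_eq' hM hP hB]
  have hinj : Function.Injective ((T p P).domRestrict (rsp p (Sb P B))) := by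
    rw [← LinearMap.ker_eq_bot, LinearMap.ker_eq_bot']
    rintro ⟨f, hf⟩ h
    apply Subtype.ext
    funext y
    show f y = 0
    by_cases hy : p ∣ orderOf y
    · exact rsp_reg hf hy
    · obtain ⟨x, hx, rfl⟩ := exists_regular_lift hM.1 P hy
      have h1 := congrFun h x
      have h2 : T p P f x = 0 := h1
      rw [T_apply, if_neg hx] at h2
      exact h2
  have h1 := LinearMap.finrank_range_of_inj hinj
  rw [← h1, LinearMap.range_domRestrict]

/-- characters of the block of the quotient have `p`-defect zero -/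
theorem preg_eq_self [hp : Fact p.Prime] (hM : IsPModular p M)
    {B : Set (IrrCharacter G)} (hB : IsPBlock M B) (hD : IsDefectGroup p M B P) {ψ : IrrCharacter (G ⧸ P)}
    (hψ : ψ ∈ Sb P B) : preg p (ψ : G ⧸ P → ℂ) = (ψ : G ⧸ P → ℂ) := by
  have h1 := card_le_blockDefect_add (p := p) (show infl P ψ ∈ B from hψ)
  have h2 : charDegree (infl P ψ : G → ℂ) = charDegree (ψ : G ⧸ P → ℂ) := by
    have e1 := charDegree_cast_irr (infl P ψ)
    have e2 := charDegree_cast_irr ψ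
    have e3 : (infl P ψ : G → ℂ) 1 = (ψ : G ⧸ P → ℂ) 1 := rfl
    rw [← e2] at e3
    rw [e3] at e1
    exact_mod_cast e1
  have h3 : (Nat.card (G ⧸ P)).factorization p ≤ (charDegree (ψ : G ⧸ P → ℂ)).factorization p := by
    rw [nuDeg, h2, Subgroup.card_eq_card_quotient_mul_card_subgroup P,
      Nat.factorization_mul Nat.card_pos.ne' Nat.card_pos.ne', Finsupp.add_apply, defectGroup_card hM hB hD,
      Nat.Prime.factorization_pow hp.out, Finsupp.single_eq_same] at h1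
    omega
  funext y
  unfold preg
  split_ifs with hy
  · exact (DefZeroCount.vanish hp.out ψ.2 h3 hy).symm
  · rfl

theorem blockRank_eq_card_Sb [hp : Fact p.Prime] (hM : IsPModular p M)
    {B : Set (IrrCharacter G)} (hB : IsPBlock M B) (hD : IsDefectGroup p M B P) :
    blockRank p B = Nat.card (Sb P B) := by
  classical
  have hP : IsPGroup p P := defectGroup_isPGroup hD
  rw [finrank_eq' hM hP hB]
  have h1 : rsp p (Sb P B) = Submodule.span ℂ (Set.range (fun ψ : Sb P B => ((ψ : IrrCharacter (G ⧸ P)) : G ⧸ P → ℂ))) := by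
    rw [rsp]
    congr 1
    ext f
    constructor
    · rintro ⟨ψ, hψ, rfl⟩
      exact ⟨⟨ψ, hψ⟩, (preg_eq_self hM hB hD hψ).symm⟩
    · rintro ⟨⟨ψ, hψ⟩, rfl⟩
      exact ⟨ψ, hψ, preg_eq_self hM hB hD hψ⟩
  have := Fintype.ofFinite (Sb P B)
  rw [h1, finrank_span_eq_card, Nat.card_eq_fintype_card]
  exact (irr_linearIndependent (G := G ⧸ P)).comp _ Subtype.val_injective

theorem infl_injective : Function.Injective (infl P) := by
  intro ψ θ h
  apply Subtype.ext
  funext y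
  obtain ⟨g, rfl⟩ := QuotientGroup.mk_surjective y
  exact congrFun (congrArg (fun χ : IrrCharacter G => (χ : G → ℂ)) h) g

/-- **the rank of a block with a normal defect group** -/
theorem blockRank_eq_card [hp : Fact p.Prime] (hM : IsPModular p M)
    {B : Set (IrrCharacter G)} (hB : IsPBlock M B) (hD : IsDefectGroup p M B P) :
    blockRank p B = Nat.card {χ : IrrCharacter G // χ ∈ B ∧ ∀ u ∈ P, (χ : G → ℂ) u = (χ : G → ℂ) 1} := by
  rw [blockRank_eq_card_Sb hM hB hD]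
  have h0 : ∀ ψ : IrrCharacter (G ⧸ P), ∀ u ∈ P, (infl P ψ : G → ℂ) u = (infl P ψ : G → ℂ) 1 := by
    intro ψ u hu
    show (ψ : G ⧸ P → ℂ) ((u : G) : G ⧸ P) = (ψ : G ⧸ P → ℂ) ((1 : G) : G ⧸ P)
    rw [(QuotientGroup.eq_one_iff u).2 hu]
    rfl
  refine Nat.card_eq_of_bijective
    (fun ψ : Sb P B => (⟨infl P (ψ : IrrCharacter (G ⧸ P)), ψ.2, h0 _⟩ :
      {χ : IrrCharacter G // χ ∈ B ∧ ∀ u ∈ P, (χ : G → ℂ) u = (χ : G → ℂ) 1})) ⟨?_, ?_⟩
  · intro ψ θ h
    apply Subtype.ext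
    exact infl_injective (congrArg Subtype.val h)
  · rintro ⟨χ, hχ, hχP⟩
    obtain ⟨ψ, hψ, h⟩ := χ.2.deflate P hχP
    have e : infl P ⟨ψ, hψ⟩ = χ := Subtype.ext (funext fun g => h g)
    refine ⟨⟨⟨ψ, hψ⟩, ?_⟩, ?_⟩
    · show infl P ⟨ψ, hψ⟩ ∈ B
      rw [e]; exact hχ
    · apply Subtype.ext
      exact e

end Cfsg.Agent.Lib.H76K3G
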