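import Cfsg.Agent.Lib.H76K3F
import Cfsg.Agent.Lib.H76K3G
import Cfsg.Agent.Lib.AbLocal
import Cfsg.Agent.Lib.H76Ker
import Cfsg.Agent.S4654

set_option autoImplicit false
set_option linter.all false

/-!
# Blocks with a normal abelian defect group: Clifford theory over the centralizer (helper76), used by S4609
-/

namespace Cfsg.Agent.Lib.H76K3H

open Cfsg Cfsg.Agent.Lib.BlockRing Cfsg.Agent.Lib.BlockGA Cfsg.Agent.Lib.BlockIdem
open Cfsg.Agent.Lib.BlkIdem Cfsg.Agent.Lib.BlockAlg Cfsg.Agent.Lib.PairAlg Cfsg.Agent.Lib.PairMax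
open Cfsg.Agent.Lib.BrauerPairs Cfsg.Agent.Lib.NormalPBlk Cfsg.Agent.Lib.DefPairs
open Cfsg.Agent.Lib.BlkTransport Cfsg.Agent.Lib.BlkFus Cfsg.Agent.Lib.InducedPair
open Cfsg.Agent.Lib.BlockCount Cfsg.Agent.Lib.BlockPair Cfsg.Agent.Lib.PairCount
open Cfsg.Agent.Lib.AbFusion Cfsg.Agent.Lib.AbCount Cfsg.Agent.Lib.Clifford Cfsg.Agent.Lib.CliffordCorr
open Cfsg.Agent.Lib.CharBasic Cfsg.Agent.Lib.BlockSecond

universe u

variable {p : ℕ} [hp : Fact p.Prime] {M : Ideal AlgInt} [hMm : M.IsMaximal] [hchar : CharP (Kf M) p]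
  {G : Type u} [Group G] [Finite G] {B : Set (IrrCharacter G)} {P : Subgroup G} {c : MonoidAlgebra (Kf M) G}

theorem pr_self (h : AbMax p B P c) : pr p P c P = c := by
  have h1 := pr_spec h.pair (le_refl P)
  apply pr_eq h.pair
  exact PLE.refl _

theorem e_spec (h : AbMax p B P c) : IsPBlock M (bQ p P c P) ∧ bid M _ (bQ p P c P) = c := by
  have h1 := (pr_pair h.pair (le_refl P)).2
  have h2 := blkOf_spec h1
  rw [pr_self h] at h2
  have h3 : bQ p P c P = blkOf M (Subgroup.centralizer (P : Set G)) c := by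
    show blkOf M _ (pr p P c P) = _
    rw [pr_self h]
  rw [h3]
  exact h2

theorem lin_cj {χ : G → ℂ} (hχ : IsClassFunction G χ) (x : G) (w : GA G) :
    lin χ (BrauerMap.cj x w) = lin χ w := by
  have := Fintype.ofFinite G
  rw [lin_apply, lin_apply]
  rw [← Equiv.sum_comp (MulAut.conj x).toEquiv]
  refine Finset.sum_congr rfl fun g _ => ?_
  have e : (MulAut.conj x).toEquiv g = x * g * x⁻¹ := rfl
  rw [e, BrauerMap.cj_coeff, hχ]
  congr 2
  group

theorem lin_cid (χ : G → ℂ) (H : Subgroup G) (b : Set (IrrCharacter H)) :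
    lin χ (cid H b) = lin (fun h : H => χ h) (eB b) := by
  rw [← lin_incH]
  congr 1

theorem lin_eB_ne_zero_iff {K : Type u} [Group K] [Finite K] [Fintype K] {f : K → ℂ} (hf : IsCharacter K f)
    (b : Set (IrrCharacter K)) :
    lin f (eB b) ≠ 0 ↔ ∃ θ ∈ b, classInner f ((θ : IrrCharacter K) : K → ℂ) ≠ 0 := by
  classical
  rw [BlockCover.lin_eB]
  constructor
  · intro h
    by_contra hno
    push Not at hno
    apply h
    apply Finset.sum_eq_zero
    intro θ _
    split_ifs with h1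
    · rw [hno θ h1, mul_zero]
    · rfl
  · rintro ⟨θ, hθ, h1⟩ h0
    have hch : ∀ ψ : IrrCharacter K, ∃ n : ℕ, (if ψ ∈ b then (ψ : K → ℂ) 1 * classInner f (ψ : K → ℂ) else 0) = (n : ℂ) := by
      intro ψ
      split_ifs
      · obtain ⟨m, -, hm⟩ := ψ.2.exists_degree
        obtain ⟨n, hn⟩ := hf.classInner_nat ψ.2.isCharacter
        exact ⟨m * n, by rw [hm, hn]; push_cast; ring⟩
      · exact ⟨0, by simp⟩
    choose n hn using hch
    rw [Finset.sum_congr rfl fun ψ _ => hn ψ] at h0
    have h2 : ∑ ψ : IrrCharacter K, n ψ = 0 := by exact_mod_cast h0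
    have h3 := (Finset.sum_eq_zero_iff.1 h2) θ (Finset.mem_univ _)
    have h4 := hn θ
    rw [if_pos hθ, h3] at h4
    have h5 : (θ : K → ℂ) 1 * classInner f (θ : K → ℂ) ≠ 0 := mul_ne_zero θ.2.one_ne_zero h1
    exact h5 (by rw [h4]; simp)

/-- **the members of a block with a normal defect group are the characters over the block of the centralizer** -/
theorem mem_iff (hM : IsPModular p M) [hPn : P.Normal] (h : AbMax p B P c)
    [Fintype (Subgroup.centralizer (P : Set G))] (χ : IrrCharacter G) :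
    χ ∈ B ↔ ∃ θ ∈ bQ p P c P, classInner (fun n : Subgroup.centralizer (P : Set G) => (χ : G → ℂ) n)
      ((θ : IrrCharacter (Subgroup.centralizer (P : Set G))) : Subgroup.centralizer (P : Set G) → ℂ) ≠ 0 := by
  classical
  have := Fintype.ofFinite G
  obtain ⟨he, hec⟩ := e_spec h
  have hBe : BrauerMap.br P (bidG M B) * bid M _ (bQ p P c P) = bid M _ (bQ p P c P) := by
    rw [hec]; exact h.br
  obtain ⟨h1, h2⟩ := S4654.eB_eq_tr hM h.pair.1 h.blk he hBe (T := stab ⊤ (bid M _ (bQ p P c P))) rfl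
  rw [← lin_eB_ne_zero_iff (χ.2.isCharacter.restrict _), ← lin_cid]
  have h3 := S4654.sum_cj_eq h1
  rw [← h2] at h3
  have h4 := congrArg (lin (χ : G → ℂ)) h3
  rw [lin_sum, lin_smul] at h4
  simp only [lin_cj χ.2.isClassFunction] at h4
  rw [Finset.sum_const, Finset.card_univ, nsmul_eq_mul] at h4
  have hT0 : ((Nat.card (stab ⊤ (bid M _ (bQ p P c P))) : ℕ) : ℂ) ≠ 0 := by exact_mod_cast Nat.card_pos.ne'
  have hG0 : ((Fintype.card G : ℕ) : ℂ) ≠ 0 := by exact_mod_cast Fintype.card_pos.ne'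
  have h5 : χ ∈ B ↔ lin (χ : G → ℂ) (eB B) ≠ 0 := by
    constructor
    · intro h0 h6
      have h7 := omega_eB_mem h0
      rw [omega, h6, zero_div] at h7
      exact zero_ne_one h7
    · intro h0
      by_contra h6
      have h7 := omega_eB_not_mem h6
      rw [omega, div_eq_zero_iff] at h7
      rcases h7 with h7 | h7
      · exact h0 h7
      · exact χ.2.one_ne_zero h7
  rw [h5]
  constructor
  · intro h6 h7
    rw [h7, mul_zero] at h4
    exact mul_ne_zero hT0 h6 h4.symm
  · intro h6 h7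
    rw [h7, mul_zero] at h4
    exact mul_ne_zero hG0 h6 h4

/-- the unique character of the block of the centralizer with the defect group in the kernel -/
theorem exists_theta (hM : IsPModular p M) (h : AbMax p B P c) :
    ∃ θ : IrrCharacter (Subgroup.centralizer (P : Set G)), θ ∈ bQ p P c P ∧
      (∀ u : Subgroup.centralizer (P : Set G), (u : G) ∈ P → (θ : Subgroup.centralizer (P : Set G) → ℂ) u =
        (θ : Subgroup.centralizer (P : Set G) → ℂ) 1) ∧
      ∀ θ' ∈ bQ p P c P, (∀ u : Subgroup.centralizer (P : Set G), (u : G) ∈ P →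
        (θ' : Subgroup.centralizer (P : Set G) → ℂ) u = (θ' : Subgroup.centralizer (P : Set G) → ℂ) 1) →
        θ' = θ := by
  have h1 := h.resQ (le_refl P)
  have h2 := (h1.nilpotent hM (Nat.card (Subgroup.centralizer (P : Set G))) le_rfl (by
    intro t ht x hx
    apply Subtype.ext
    have h3 := Subgroup.mem_centralizer_iff.1 t.2 (x : G) (Subgroup.mem_subgroupOf.1 hx)
    show (t : G) * (x : G) * (t : G)⁻¹ = x
    rw [← h3]; group)).1
  have hn : (P.subgroupOf (Subgroup.centralizer (P : Set G))).Normal := by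
    constructor
    intro n hn g
    rw [Subgroup.mem_subgroupOf] at hn ⊢
    have h3 := Subgroup.mem_centralizer_iff.1 g.2 (n : G) hn
    have h4 : ((g * n * g⁻¹ : Subgroup.centralizer (P : Set G)) : G) = n := by
      show (g : G) * (n : G) * (g : G)⁻¹ = n
      rw [← h3]; group
    rw [h4]; exact hn
  rw [H76K3G.blockRank_eq_card hM h1.blk h1.isDefectGroup] at h2
  obtain ⟨hs, hne⟩ := Nat.card_eq_one_iff_unique.1 h2
  obtain ⟨⟨θ, hθ, hθP⟩⟩ := hne
  refine ⟨θ, hθ, fun u hu => hθP u (Subgroup.mem_subgroupOf.2 hu), ?_⟩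
  intro θ' hθ' hθ'P
  exact congrArg Subtype.val (hs.elim
    ⟨θ', hθ', fun u hu => hθ'P u (Subgroup.mem_subgroupOf.1 hu)⟩ ⟨θ, hθ, hθP⟩)

/-- the kernel condition lifts -/
theorem ker_iff (hM : IsPModular p M) [hPn : P.Normal] (h : AbMax p B P c)
    [Fintype (Subgroup.centralizer (P : Set G))] {θ : IrrCharacter (Subgroup.centralizer (P : Set G))}
    (h1 : θ ∈ bQ p P c P)
    (h2 : ∀ u : Subgroup.centralizer (P : Set G), (u : G) ∈ P → (θ : Subgroup.centralizer (P : Set G) → ℂ) u =
        (θ : Subgroup.centralizer (P : Set G) → ℂ) 1)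
    (h3 : ∀ θ' ∈ bQ p P c P, (∀ u : Subgroup.centralizer (P : Set G), (u : G) ∈ P →
        (θ' : Subgroup.centralizer (P : Set G) → ℂ) u = (θ' : Subgroup.centralizer (P : Set G) → ℂ) 1) →
        θ' = θ) (χ : IrrCharacter G) :
    (χ ∈ B ∧ ∀ u ∈ P, (χ : G → ℂ) u = (χ : G → ℂ) 1) ↔
      classInner (fun n : Subgroup.centralizer (P : Set G) => (χ : G → ℂ) n)
        (θ : Subgroup.centralizer (P : Set G) → ℂ) ≠ 0 := by
  classical
  have := Fintype.ofFinite G
  constructor
  · rintro ⟨h4, h5⟩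
    obtain ⟨θ', hθ', h6⟩ := (mem_iff hM h χ).1 h4
    have h7 : θ' = θ := by
      apply h3 θ' hθ'
      intro u hu
      exact H76Ker.of_constituent (χ.2.isCharacter.restrict _) θ'.2 h6 (h5 u hu)
    rw [← h7]; exact h6
  · intro h4
    refine ⟨(mem_iff hM h χ).2 ⟨θ, h1, h4⟩, ?_⟩
    obtain ⟨b, hb, hb'⟩ := Clifford.degree_le_of_constituent (χ.2.isCharacter.restrict _) θ.2 h4
    have := Fintype.ofFinite P
    intro u hu
    refine H76Ker.eq_one_of_trivial_constituent χ.2 P ?_ hu
    have hPC : P ≤ Subgroup.centralizer (P : Set G) := h.ab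
    have e1 : (fun n : P => (χ : G → ℂ) n) = (fun n : P => (θ : Subgroup.centralizer (P : Set G) → ℂ) ⟨n, hPC n.2⟩) +
        (fun n : P => b ⟨n, hPC n.2⟩) := by
      funext n
      exact congrFun hb' ⟨(n : G), hPC n.2⟩
    have e2 : (fun n : P => (θ : Subgroup.centralizer (P : Set G) → ℂ) ⟨n, hPC n.2⟩) =
        ((θ : Subgroup.centralizer (P : Set G) → ℂ) 1) • (1 : P → ℂ) := by
      funext n
      rw [Pi.smul_apply, Pi.one_apply, smul_eq_mul, mul_one]
      exact h2 ⟨n, hPC n.2⟩ n.2
    have hbc : IsCharacter P (fun n : P => b ⟨n, hPC n.2⟩) := hb.comp (Subgroup.inclusion hPC)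
    obtain ⟨k, hk⟩ := hbc.classInner_nat (isIrrCharacter_one : IsIrrCharacter P (1 : P → ℂ)).isCharacter
    obtain ⟨d, hd0, hd⟩ := θ.2.exists_degree
    rw [e1, classInner_add_left, hk, e2, classInner_smul_left,
      (isIrrCharacter_one : IsIrrCharacter P (1 : P → ℂ)).classInner_self, mul_one, hd]
    have : ((d : ℂ) + (k : ℂ)) = ((d + k : ℕ) : ℂ) := by push_cast; ring
    rw [this]
    exact_mod_cast (by omega : d + k ≠ 0)

/-- the inertia group -/
theorem mem_T_iff' [hPn : P.Normal] (h : AbMax p B P c)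
    {θ : IrrCharacter (Subgroup.centralizer (P : Set G))}
    (h1 : θ ∈ bQ p P c P)
    (h2 : ∀ u : Subgroup.centralizer (P : Set G), (u : G) ∈ P → (θ : Subgroup.centralizer (P : Set G) → ℂ) u =
        (θ : Subgroup.centralizer (P : Set G) → ℂ) 1)
    (h3 : ∀ θ' ∈ bQ p P c P, (∀ u : Subgroup.centralizer (P : Set G), (u : G) ∈ P →
        (θ' : Subgroup.centralizer (P : Set G) → ℂ) u = (θ' : Subgroup.centralizer (P : Set G) → ℂ) 1) →
        θ' = θ) (g : G) :
    g ∈ stab (Subgroup.normalizer (P : Set G)) c ↔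
      Clifford.cj (Subgroup.centralizer (P : Set G)) g (θ : Subgroup.centralizer (P : Set G) → ℂ) =
        (θ : Subgroup.centralizer (P : Set G) → ℂ) := by
  have := hMm.isPrime
  obtain ⟨he, hec⟩ := e_spec h
  have hgP : g ∈ Subgroup.normalizer (P : Set G) := by rw [Subgroup.normalizer_eq_top]; trivial
  have hgN : g ∈ Subgroup.normalizer ((Subgroup.centralizer (P : Set G) : Subgroup G) : Set G) :=
    normalizer_le_normalizer_centralizer P hgP
  rw [mem_stab]
  have key : ∀ (θ' : IrrCharacter (Subgroup.centralizer (P : Set G))),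
      irrMap (conjIso g (normalizer_iff hgN)) θ' = θ ↔
      Clifford.cj (Subgroup.centralizer (P : Set G)) g (θ : Subgroup.centralizer (P : Set G) → ℂ) =
        (θ' : Subgroup.centralizer (P : Set G) → ℂ) := by
    intro θ'
    constructor
    · intro hh
      rw [← hh]
      funext n
      rw [Clifford.cj_apply, irrMap_apply]
      refine congrArg _ (Subtype.ext ?_)
      rw [conjIso_symm_coe]
      show g⁻¹ * (g * (n : G) * g⁻¹) * g = n
      group
    · intro hh
      apply Subtype.ext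
      funext n
      rw [irrMap_apply, ← hh, Clifford.cj_apply]
      refine congrArg _ (Subtype.ext ?_)
      show g * (((conjIso g (normalizer_iff hgN)).symm n : Subgroup.centralizer (P : Set G)) : G) * g⁻¹ = n
      rw [conjIso_symm_coe]
      group
  constructor
  · rintro ⟨-, h4⟩
    rw [← hec, ← stabilizesBlock_iff hgN he] at h4
    obtain ⟨-, h5⟩ := h4
    obtain ⟨θ', hθ', h6⟩ := h5 θ h1
    have h7 : θ' = θ := by
      apply h3 θ' hθ'
      intro u hu
      have h8 : g⁻¹ * (u : G) * g ∈ P := by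
        have := hPn.conj_mem (u : G) hu g⁻¹
        simpa using this
      have h9 := h6 ⟨g⁻¹ * (u : G) * g, h.ab h8⟩ u (by
        show (u : G) = g * (g⁻¹ * (u : G) * g) * g⁻¹
        group)
      have h10 := h6 1 1 (by simp)
      rw [h9, h10]
      exact h2 _ h8
    rw [← key]
    apply Subtype.ext
    funext n
    rw [irrMap_apply]
    have h8 := h6 ((conjIso g (normalizer_iff hgN)).symm n) n (by rw [conjIso_symm_coe]; group)
    rw [h7] at h8
    exact h8.symm
  · intro h4
    rw [← key] at h4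
    refine ⟨hgP, ?_⟩
    rw [← hec, ← bid_irrMap g (normalizer_iff hgN)]
    congr 1
    exact block_eq_of_mem (isPBlock_irrMap _ he) he (χ := θ) ⟨θ, h1, h4⟩ h1

/-- **Clifford theory of a block with a normal abelian defect group** -/
theorem LS (hM : IsPModular p M) [hPn : P.Normal] (h : AbMax p B P c) :
    ∃ φ : ↥(stab (Subgroup.normalizer (P : Set G)) c) → ℂ,
      RMck.IrrOn ((Subgroup.centralizer (P : Set G)).subgroupOf (stab (Subgroup.normalizer (P : Set G)) c)) φ ∧
      (∀ g m, m ∈ (Subgroup.centralizer (P : Set G)).subgroupOf (stab (Subgroup.normalizer (P : Set G)) c) →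
        φ (g * m * g⁻¹) = φ m) ∧
      Nat.card (H76K3E.SS ((Subgroup.centralizer (P : Set G)).subgroupOf
        (stab (Subgroup.normalizer (P : Set G)) c)) φ) = blockRank p B := by
  classical
  have := Fintype.ofFinite G
  have := Fintype.ofFinite (Subgroup.centralizer (P : Set G))
  obtain ⟨θ, h1, h2, h3⟩ := exists_theta hM h
  obtain ⟨T, hTdef⟩ : ∃ T : Subgroup G, T = stab (Subgroup.normalizer (P : Set G)) c := ⟨_, rfl⟩
  obtain ⟨C, hCdef⟩ : ∃ C : Subgroup G, C = Subgroup.centralizer (P : Set G) := ⟨_, rfl⟩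
  have hT : ∀ g : G, g ∈ T ↔ Clifford.cj (Subgroup.centralizer (P : Set G)) g (θ : Subgroup.centralizer (P : Set G) → ℂ) =
        (θ : Subgroup.centralizer (P : Set G) → ℂ) := by
    intro g
    rw [hTdef]; exact mem_T_iff' h h1 h2 h3 g
  have hCT : Subgroup.centralizer (P : Set G) ≤ T := by
    intro g hg
    rw [hT]
    exact cj_of_mem θ.2.isClassFunction hg
  rw [← hTdef]
  refine ⟨fun t => RMck.lf (Subgroup.centralizer (P : Set G)) (θ : Subgroup.centralizer (P : Set G) → ℂ) (t : G), ?_, ?_, ?_⟩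
  · have h4 : RMck.IrrOn (Subgroup.centralizer (P : Set G))
        (RMck.lf (Subgroup.centralizer (P : Set G)) (θ : Subgroup.centralizer (P : Set G) → ℂ)) := RMck.irrOn_lf.2 θ.2
    exact (RMck.irrOn_sub hCT).2 h4
  · intro g m hm
    rw [Subgroup.mem_subgroupOf] at hm
    have h4 := congrFun ((hT g).1 g.2) ⟨(m : G), hm⟩
    rw [Clifford.cj_apply] at h4
    have h5 : (g : G) * (m : G) * (g : G)⁻¹ ∈ Subgroup.centralizer (P : Set G) :=
      (inferInstance : (Subgroup.centralizer (P : Set G)).Normal).conj_mem _ hm _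
    show RMck.lf _ _ ((g : G) * (m : G) * (g : G)⁻¹) = RMck.lf _ _ (m : G)
    rw [RMck.lf_mem _ _ h5, RMck.lf_mem _ _ hm]
    exact h4
  · have := Fintype.ofFinite T
    have e0 : blockRank p B = Nat.card {χ : IrrCharacter G //
        classInner (fun n : Subgroup.centralizer (P : Set G) => (χ : G → ℂ) n)
        (θ : Subgroup.centralizer (P : Set G) → ℂ) ≠ 0} := by
      rw [H76K3G.blockRank_eq_card hM h.blk h.isDefectGroup]
      exact Nat.card_congr (Equiv.subtypeEquivRight (ker_iff hM h h1 h2 h3))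
    have hip : ∀ ψ : T → ℂ, RMck.ip ((Subgroup.centralizer (P : Set G)).subgroupOf T) ψ
        (fun t => RMck.lf (Subgroup.centralizer (P : Set G)) (θ : Subgroup.centralizer (P : Set G) → ℂ) (t : G)) =
        classInner (resTo (Subgroup.centralizer (P : Set G)) T hCT ψ) (θ : Subgroup.centralizer (P : Set G) → ℂ) := by
      intro ψ
      have := Fintype.ofFinite ((Subgroup.centralizer (P : Set G)).subgroupOf T)
      rw [← classInner_resTo]
      unfold RMck.ip
      have e1 : (fun h : (Subgroup.centralizer (P : Set G)).subgroupOf T =>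
          RMck.lf (Subgroup.centralizer (P : Set G)) (θ : Subgroup.centralizer (P : Set G) → ℂ) ((h : T) : G)) =
          fun x => (θ : Subgroup.centralizer (P : Set G) → ℂ) (subEquiv _ T hCT x) := by
        funext x
        rw [RMck.lf_mem _ _ (Subgroup.mem_subgroupOf.1 x.2)]
        rfl
      rw [e1]
      congr!
    rw [e0]
    refine Nat.card_eq_of_bijective (fun ψ : H76K3E.SS ((Subgroup.centralizer (P : Set G)).subgroupOf T) (fun t => RMck.lf (Subgroup.centralizer (P : Set G)) (θ : Subgroup.centralizer (P : Set G) → ℂ) (t : G)) =>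
      (⟨⟨indFun T ((ψ : IrrCharacter T) : T → ℂ), (corr_irr hCT θ.2 hT (ψ : IrrCharacter T).2 (by
        rw [← hip]; exact ψ.2)).1⟩, by
          have h4 := (corr_irr hCT θ.2 hT (ψ : IrrCharacter T).2 (by rw [← hip]; exact ψ.2)).2
          show classInner (fun n : Subgroup.centralizer (P : Set G) => indFun T ((ψ : IrrCharacter T) : T → ℂ) n) _ ≠ 0
          rw [h4, ← hip]
          exact ψ.2⟩ : {χ : IrrCharacter G //
        classInner (fun n : Subgroup.centralizer (P : Set G) => (χ : G → ℂ) n)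
        (θ : Subgroup.centralizer (P : Set G) → ℂ) ≠ 0})) ⟨?_, ?_⟩
    · intro ψ ψ' heq
      have h4 : indFun T ((ψ : IrrCharacter T) : T → ℂ) = indFun T ((ψ' : IrrCharacter T) : T → ℂ) :=
        congrArg (fun χ => ((χ : {χ : IrrCharacter G // _}) : IrrCharacter G).1) heq
      apply Subtype.ext
      apply Subtype.ext
      exact corr_inj hCT θ.2 hT (ψ : IrrCharacter T).2 (ψ' : IrrCharacter T).2 (by rw [← hip]; exact ψ.2)
        (by rw [← hip]; exact ψ'.2) h4
    · rintro ⟨χ, hχ⟩
      obtain ⟨ψ, hψ, h4, h5⟩ := corr_surj hCT θ.2 hT χ.2 hχ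
      refine ⟨⟨⟨ψ, hψ⟩, ?_⟩, ?_⟩
      · show RMck.ip _ ψ _ ≠ 0
        rw [hip, h5]
        exact hχ
      · apply Subtype.ext
        apply Subtype.ext
        exact h4

end Cfsg.Agent.Lib.H76K3H
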