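import Cfsg.Agent.Lib.H76K3D
import Cfsg.Agent.Lib.H76K3H

set_option autoImplicit false
set_option linter.all false

/-!
# Blocks with three characters and a normal abelian defect group (helper76), used by S4609
-/

namespace Cfsg.Agent.Lib.H76K3I

open Cfsg Cfsg.Agent.Lib.RMck Cfsg.Agent.Lib.H76K3A Cfsg.Agent.Lib.H76K3E Subgroup

universe u v

section abstract

variable {T : Type u} [Group T] [Finite T] {V : Type v} [CommGroup V] [Finite V] {p : ℕ} [hp : Fact p.Prime]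
  (f : T →* MulAut V) {M : Subgroup T} [hM : M.Normal] {φ : T → ℂ}

theorem map_cM (hker : ∀ t, f t = 1 ↔ t ∈ M) (x : T) : (cM M x).map f = f.range ⊓ centralizer {f x} := by
  ext y
  constructor
  · rintro ⟨t, ht, rfl⟩
    refine ⟨⟨t, rfl⟩, ?_⟩
    have h1 : t * x * t⁻¹ * x⁻¹ ∈ M := mem_cM.1 ht
    rw [← hker] at h1
    show f t ∈ centralizer {f x}
    rw [Subgroup.mem_centralizer_singleton_iff]
    simp only [map_mul, map_inv] at h1
    rw [mul_inv_eq_one, mul_inv_eq_iff_eq_mul] at h1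
    exact h1
  · rintro ⟨⟨t, rfl⟩, ht⟩
    refine ⟨t, ?_, rfl⟩
    have ht' := Subgroup.mem_centralizer_singleton_iff.1 ht
    show t ∈ cM M x
    rw [mem_cM, ← hker]
    simp only [map_mul, map_inv]
    rw [mul_inv_eq_one, mul_inv_eq_iff_eq_mul]
    exact ht'

theorem card_map (hker : ∀ t, f t = 1 ↔ t ∈ M) {K : Subgroup T} (hK : M ≤ K) :
    Nat.card K = Nat.card (K.map f) * Nat.card M := by
  have h1 : f.ker = M := by
    ext t
    rw [MonoidHom.mem_ker, hker]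
  have h2 := Subgroup.relIndex_ker K f
  rw [h1] at h2
  rw [← h2, mul_comm]
  exact (FongSwan.card_mul_relIndex' hK).symm

theorem data_of (hker : ∀ t, f t = 1 ↔ t ∈ M) (h1 : IrrOn M φ) (h3 : ∀ g m, m ∈ M → φ (g * m * g⁻¹) = φ m)
    (hS : Nat.card (SS M φ) = 2) (htr : ∀ v w : V, v ≠ 1 → w ≠ 1 → ∃ t, f t v = w)
    (hcop : ¬ p ∣ Nat.card f.range)
    (hst : ∀ v : V, v ≠ 1 → IsCyclic (MulAction.stabilizer f.range v) → ∀ t, f t v = v → f t = 1) :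
    Data p f.range (fun y => ∃ t, f t = y ∧ Gd M φ t) := by
  refine ⟨?_, hcop, ?_, ?_, ?_, ?_, ?_, ?_⟩
  · intro v w hv hw
    obtain ⟨t, ht⟩ := htr v w hv hw
    exact ⟨f t, ⟨t, rfl⟩, ht⟩
  · rintro _ ⟨x, rfl⟩ hcyc
    refine ⟨x, rfl, ?_⟩
    obtain ⟨⟨g0, hg0⟩, hgen⟩ := hcyc.exists_generator
    have h4 : g0 ∈ (cM M x).map f := by rw [map_cM f hker]; exact hg0
    obtain ⟨z, hz, rfl⟩ := h4
    refine gd_of_cyclic h1 h3 hz ?_
    intro w hw
    have h5 : f w ∈ f.range ⊓ centralizer {f x} := by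
      rw [← map_cM f hker]; exact ⟨w, hw, rfl⟩
    obtain ⟨k, hk⟩ := Subgroup.mem_zpowers_iff.1 (hgen ⟨f w, h5⟩)
    have h6 : f z ^ k = f w := congrArg Subtype.val hk
    have h7 : w * (z ^ k)⁻¹ ∈ M := by
      rw [← hker, map_mul, map_inv, map_zpow, h6, mul_inv_cancel]
    have h8 : w = (w * (z ^ k)⁻¹) * z ^ k := by group
    rw [h8]
    exact mul_mem (Subgroup.mem_sup_left h7) (Subgroup.mem_sup_right (Subgroup.mem_zpowers_iff.2 ⟨k, rfl⟩))
  · rintro _ - _ - hg1 hh1 ⟨x, rfl, hx⟩ ⟨y, rfl, hy⟩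
    obtain ⟨z, hz⟩ := gd_unique h1 h3 hS.le hx hy (fun h => hg1 ((hker x).2 h)) (fun h => hh1 ((hker y).2 h))
    refine ⟨f z, ⟨z, rfl⟩, ?_⟩
    rw [← hker] at hz
    simp only [map_mul, map_inv] at hz
    rw [mul_inv_eq_one] at hz
    exact hz
  · rintro _ - ⟨x, rfl, hx⟩
    exact ⟨x⁻¹, map_inv _ _, hx.inv⟩
  · obtain ⟨x, hx, hgx⟩ := gd_exists h1 h3 hS
    exact ⟨f x, ⟨x, rfl⟩, fun h => hx ((hker x).1 h), x, rfl, hgx⟩
  · rintro _ - hx1 ⟨x, rfl, hx⟩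
    obtain ⟨s1, s2, h4, h5, h6, h7⟩ := gd_two h1 h3 hS (fun h => hx1 ((hker x).2 h)) hx
    refine ⟨s1, s2, ?_, h5, h6, h7⟩
    rw [card_map f hker (le_cM x), map_cM f hker] at h4
    exact (Nat.eq_of_mul_eq_mul_right Nat.card_pos h4).symm
  · intro v hv hcyc y hy hyv
    obtain ⟨t, rfl⟩ := hy
    exact hst v hv hcyc t hyv

end abstract

end Cfsg.Agent.Lib.H76K3I
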