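import Cfsg.Agent.Lib.H76K3I

set_option autoImplicit false
set_option linter.all false

/-!
# Blocks with three characters and a normal abelian defect group: the defect group has order three (helper76),
used by S4609
-/

namespace Cfsg.Agent.Lib.H76K3J

open Cfsg Cfsg.Agent.Lib.BlockRing Cfsg.Agent.Lib.BlockGA Cfsg.Agent.Lib.BlockIdem
open Cfsg.Agent.Lib.BlkIdem Cfsg.Agent.Lib.BlockAlg Cfsg.Agent.Lib.PairAlg Cfsg.Agent.Lib.PairMax
open Cfsg.Agent.Lib.BrauerPairs Cfsg.Agent.Lib.NormalPBlk Cfsg.Agent.Lib.DefPairs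
open Cfsg.Agent.Lib.BlkTransport Cfsg.Agent.Lib.BlkFus Cfsg.Agent.Lib.InducedPair
open Cfsg.Agent.Lib.BlockCount Cfsg.Agent.Lib.BlockPair Cfsg.Agent.Lib.PairCount
open Cfsg.Agent.Lib.AbFusion Cfsg.Agent.Lib.AbCount Cfsg.Agent.Lib.H76K3A Cfsg.Agent.Lib.H76K3E

universe u v

theorem card_of_data {T : Type u} [Group T] [Finite T] {V : Type v} [hV : Group V] [Finite V] [Nontrivial V]
    {p : ℕ} [hp : Fact p.Prime] (hcomm : ∀ a b : V, a * b = b * a) (hVp : IsPGroup p V)
    (f : T →* MulAut V) {M : Subgroup T} [hM : M.Normal] {φ : T → ℂ} (hker : ∀ t, f t = 1 ↔ t ∈ M)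
    (h1 : RMck.IrrOn M φ) (h3 : ∀ g m, m ∈ M → φ (g * m * g⁻¹) = φ m)
    (hS : Nat.card (SS M φ) = 2) (htr : ∀ v w : V, v ≠ 1 → w ≠ 1 → ∃ t, f t v = w)
    (hcop : ¬ p ∣ Nat.card f.range)
    (hst : ∀ v : V, v ≠ 1 → IsCyclic (MulAction.stabilizer f.range v) → ∀ t, f t v = v → f t = 1) :
    Nat.card V = 3 := by
  letI : CommGroup V := { toGroup := hV, mul_comm := hcomm }
  exact Data.main (H76K3I.data_of f hker h1 h3 hS htr hcop hst) hVp

variable {p : ℕ} [hp : Fact p.Prime] {M : Ideal AlgInt} [hMm : M.IsMaximal] [hchar : CharP (Kf M) p]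
  {G : Type u} [Group G] [Finite G] {B : Set (IrrCharacter G)} {P : Subgroup G} {c : MonoidAlgebra (Kf M) G}

theorem transitive_of (hM : IsPModular p M) (h : AbMax p B P c) (hk : Nat.card B = 3) (hl : blockRank p B = 2)
    {v w : G} (hv : v ∈ P) (hw : w ∈ P) (hv1 : v ≠ 1) (hw1 : w ≠ 1) :
    ∃ t ∈ stab (Subgroup.normalizer (P : Set G)) c, t * v * t⁻¹ = w := by
  classical
  have := Fintype.ofFinite P
  set T := stab (Subgroup.normalizer (P : Set G)) c with hT
  let r : Setoid P :=
    { r := fun x y => ∃ t ∈ T, t * (x : G) * t⁻¹ = y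
      iseqv :=
        { refl := fun x => ⟨1, one_mem _, by group⟩
          symm := by
            rintro x y ⟨t, ht, hxy⟩
            exact ⟨t⁻¹, inv_mem ht, by rw [← hxy]; group⟩
          trans := by
            rintro x y z ⟨t, ht, hxy⟩ ⟨s, hs, hyz⟩
            exact ⟨s * t, mul_mem hs ht, by rw [← hyz, ← hxy]; group⟩ } }
  by_contra hno
  let rep : P → P := fun x => (Quotient.mk r x).out
  have hrep : ∀ x : P, ∃ t ∈ T, t * (x : G) * t⁻¹ = rep x := by
    intro x
    have h1 : r.r (rep x) x := Quotient.mk_out (s := r) x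
    exact r.symm h1
  have hrepeq : ∀ x y : P, (∃ t ∈ T, t * (x : G) * t⁻¹ = y) → rep x = rep y := by
    intro x y hxy
    have h1 : Quotient.mk r x = Quotient.mk r y := Quotient.sound hxy
    show (Quotient.mk r x).out = (Quotient.mk r y).out
    rw [h1]
  have hrep' : ∀ x y : P, rep x = rep y → ∃ t ∈ T, t * (x : G) * t⁻¹ = y := by
    intro x y hxy
    obtain ⟨t, ht, h1⟩ := hrep x
    obtain ⟨s, hs, h2⟩ := hrep y
    refine ⟨s⁻¹ * t, mul_mem (inv_mem hs) ht, ?_⟩
    have h3 : s⁻¹ * t * (x : G) * (s⁻¹ * t)⁻¹ = s⁻¹ * (t * (x : G) * t⁻¹) * s := by group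
    rw [h3, h1, hxy, ← h2]; group
  let R : Finset G := Finset.univ.image (fun x : P => (rep x : G))
  have hRm : ∀ x : P, (rep x : G) ∈ R := fun x => Finset.mem_image.2 ⟨x, Finset.mem_univ _, rfl⟩
  have hcount := h.card_eq hM R (by
    intro y hy
    obtain ⟨x, -, rfl⟩ := Finset.mem_image.1 hy
    exact (rep x).2) (by
    intro x hx
    refine ⟨rep ⟨x, hx⟩, ⟨hRm _, hrep ⟨x, hx⟩⟩, ?_⟩
    rintro y ⟨hy, hxy⟩
    obtain ⟨z, -, rfl⟩ := Finset.mem_image.1 hy
    have h1 := hrepeq ⟨x, hx⟩ (rep z) hxy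
    have h2 := hrepeq z (rep z) (hrep z)
    rw [h1, ← h2])
  have hpos : ∀ y ∈ R, 1 ≤ lq p P c (Subgroup.zpowers y) := by
    intro y hy
    obtain ⟨x, -, rfl⟩ := Finset.mem_image.1 hy
    exact h.lq_pos (rep x).2
  have h1r : (rep 1 : G) = 1 := by
    obtain ⟨t, -, ht⟩ := hrep 1
    rw [← ht]
    show t * 1 * t⁻¹ = 1
    group
  have hsub : ({(1 : G), (rep ⟨v, hv⟩ : G), (rep ⟨w, hw⟩ : G)} : Finset G) ⊆ R := by
    intro y hy
    simp only [Finset.mem_insert, Finset.mem_singleton] at hy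
    rcases hy with rfl | rfl | rfl
    · rw [← h1r]; exact hRm 1
    · exact hRm _
    · exact hRm _
  have hne1 : ∀ (x : G) (hx : x ∈ P), x ≠ 1 → (rep ⟨x, hx⟩ : G) ≠ 1 := by
    intro x hx hx1 h2
    obtain ⟨t, -, ht⟩ := hrep ⟨x, hx⟩
    rw [h2] at ht
    apply hx1
    have h3 : t * x * t⁻¹ = 1 := ht
    rwa [mul_inv_eq_one, mul_eq_left] at h3
  have hne2 : (rep ⟨v, hv⟩ : G) ≠ (rep ⟨w, hw⟩ : G) := fun h2 =>
    hno (hrep' ⟨v, hv⟩ ⟨w, hw⟩ (Subtype.ext h2))
  have hsum := Finset.sum_le_sum_of_subset (f := fun y => lq p P c (Subgroup.zpowers y)) hsub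
  rw [← hcount, hk, Finset.sum_insert, Finset.sum_pair hne2] at hsum
  · have e1 : lq p P c (Subgroup.zpowers (1 : G)) = 2 := by
      rw [Subgroup.zpowers_one_eq_bot, h.lq_bot, hl]
    have e2 := hpos _ (hRm ⟨v, hv⟩)
    have e3 := hpos _ (hRm ⟨w, hw⟩)
    rw [e1] at hsum
    omega
  · simp only [Finset.mem_insert, Finset.mem_singleton, not_or]
    exact ⟨(hne1 v hv hv1).symm, (hne1 w hw hw1).symm⟩

theorem lq_eq_one (hM : IsPModular p M) (h : AbMax p B P c) (hk : Nat.card B = 3) (hl : blockRank p B = 2)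
    {v : G} (hv : v ∈ P) (hv1 : v ≠ 1) : lq p P c (Subgroup.zpowers v) = 1 := by
  classical
  have hcount := h.card_eq hM {1, v} (by
    intro y hy
    simp only [Finset.mem_insert, Finset.mem_singleton] at hy
    rcases hy with rfl | rfl
    · exact one_mem _
    · exact hv) (by
    intro x hx
    by_cases hx1 : x = 1
    · refine ⟨1, ⟨by simp, 1, one_mem _, by rw [hx1]; group⟩, ?_⟩
      rintro y ⟨-, t, -, ht⟩
      rw [← ht, hx1]; group
    · obtain ⟨t, ht, htv⟩ := transitive_of hM h hk hl hx hv hx1 hv1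
      refine ⟨v, ⟨by simp, t, ht, htv⟩, ?_⟩
      rintro y ⟨hy, s, -, hs⟩
      simp only [Finset.mem_insert, Finset.mem_singleton] at hy
      rcases hy with rfl | rfl
      · exfalso
        rw [mul_inv_eq_one, mul_eq_left] at hs
        exact hx1 hs
      · rfl)
  rw [Finset.sum_pair (Ne.symm hv1), Subgroup.zpowers_one_eq_bot, h.lq_bot, hl, hk] at hcount
  omega

/-- **main theorem for a normal abelian defect group and rank two** -/
theorem card_three (hM : IsPModular p M) [hPn : P.Normal] (h : AbMax p B P c) (hk : Nat.card B = 3)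
    (hl : blockRank p B = 2) : Nat.card P = 3 := by
  classical
  -- the defect group is not trivial
  have hPne : P ≠ ⊥ := by
    intro hP
    have hcount := h.card_eq hM {1} (by
      intro y hy
      rw [Finset.mem_singleton] at hy
      rw [hy]; exact one_mem _) (by
      intro x hx
      rw [hP, Subgroup.mem_bot] at hx
      refine ⟨1, ⟨by simp, 1, one_mem _, by rw [hx]; group⟩, ?_⟩
      rintro y ⟨hy, -⟩
      simpa using hy)
    rw [Finset.sum_singleton, Subgroup.zpowers_one_eq_bot, h.lq_bot, hl, hk] at hcount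
    omega
  have : Nontrivial P := (Subgroup.nontrivial_iff_ne_bot P).2 hPne
  obtain ⟨φ, h1, h3, hS⟩ := H76K3H.LS hM h
  rw [hl] at hS
  have hcomm : ∀ a b : P, a * b = b * a := by
    intro a b
    exact Subtype.ext (Subgroup.mem_centralizer_iff.1 (h.ab a.2) b b.2).symm
  obtain ⟨f, hf⟩ : ∃ f : ↥(stab (Subgroup.normalizer (P : Set G)) c) →* MulAut P,
      ∀ t v, ((f t v : P) : G) = (t : G) * (v : G) * (t : G)⁻¹ :=
    ⟨(MulAut.conjNormal (H := P)).comp (stab (Subgroup.normalizer (P : Set G)) c).subtype,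
      fun t v => MulAut.conjNormal_apply _ _⟩
  have hker : ∀ t, f t = 1 ↔ t ∈ (Subgroup.centralizer (P : Set G)).subgroupOf
      (stab (Subgroup.normalizer (P : Set G)) c) := by
    intro t
    rw [Subgroup.mem_subgroupOf, Subgroup.mem_centralizer_iff]
    constructor
    · intro h4 v hv
      have h5 := hf t ⟨v, hv⟩
      rw [h4] at h5
      have h6 : v = (t : G) * v * (t : G)⁻¹ := h5
      rw [eq_mul_inv_iff_mul_eq] at h6
      exact h6
    · intro h4
      apply MulEquiv.ext
      intro v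
      apply Subtype.ext
      rw [hf]
      show (t : G) * (v : G) * (t : G)⁻¹ = v
      rw [← h4 v v.2, mul_inv_cancel_right]
  refine card_of_data (p := p) hcomm h.pair.1 f hker h1 h3 hS ?_ ?_ ?_
  · intro v w hv hw
    obtain ⟨t, ht, htv⟩ := transitive_of hM h hk hl v.2 w.2 (fun h4 => hv (Subtype.ext h4))
      (fun h4 => hw (Subtype.ext h4))
    refine ⟨⟨t, ht⟩, Subtype.ext ?_⟩
    rw [hf]
    exact htv
  · have h4 : f.ker = (Subgroup.centralizer (P : Set G)).subgroupOf (stab (Subgroup.normalizer (P : Set G)) c) := by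
      ext t
      rw [MonoidHom.mem_ker, hker]
    rw [← Subgroup.index_ker, h4]
    exact h.not_dvd_relIndex
  · intro v hv hcyc t0 ht0
    have hv' : (v : G) ≠ 1 := fun h4 => hv (Subtype.ext h4)
    have hlv := lq_eq_one hM h hk hl v.2 hv'
    have h' := h.res v.2
    have hbr : blockRank p (bu p P c (v : G)) = 1 := by
      rw [lq_zpowers] at hlv
      exact hlv
    have hPn' : (P.subgroupOf (Subgroup.centralizer ({(v : G)} : Set G))).Normal := hPn.subgroupOf _
    obtain ⟨φ', h1', h3', hS'⟩ := H76K3H.LS hM h'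
    rw [hbr] at hS'
    have hfix : ∀ t : ↥(stab (Subgroup.normalizer (P : Set G)) c), f t v = v →
        (t : G) ∈ Subgroup.centralizer ({(v : G)} : Set G) := by
      intro t ht
      have h5 := hf t v
      rw [ht] at h5
      rw [Subgroup.mem_centralizer_singleton_iff]
      exact (eq_mul_inv_iff_mul_eq.1 h5).symm
    have hmem : ∀ s : Subgroup.centralizer ({(v : G)} : Set G),
        s ∈ stab (Subgroup.normalizer ((P.subgroupOf (Subgroup.centralizer ({(v : G)} : Set G)) :
        Subgroup (Subgroup.centralizer ({(v : G)} : Set G))) : Set (Subgroup.centralizer ({(v : G)} : Set G))))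
        (BlockAlg.res (Subgroup.centralizer ({(v : G)} : Set G)) c) ↔
      (s : G) ∈ stab (Subgroup.normalizer (P : Set G)) c := fun s => h.mem_stab_res v.2
    have hcent : ∀ s : Subgroup.centralizer ({(v : G)} : Set G),
        s ∈ Subgroup.centralizer ((P.subgroupOf (Subgroup.centralizer ({(v : G)} : Set G)) :
          Subgroup (Subgroup.centralizer ({(v : G)} : Set G))) : Set (Subgroup.centralizer ({(v : G)} : Set G))) ↔
        (s : G) ∈ Subgroup.centralizer (P : Set G) := by
      intro s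
      rw [Subgroup.mem_centralizer_iff, Subgroup.mem_centralizer_iff]
      constructor
      · intro h5 u hu
        exact congrArg Subtype.val (h5 ⟨u, h.P_le v.2 hu⟩ (Subgroup.mem_subgroupOf.2 hu))
      · intro h5 u hu
        exact Subtype.ext (h5 u (Subgroup.mem_subgroupOf.1 hu))
    obtain ⟨⟨⟨g0, ⟨z0, hz0⟩⟩, hg0⟩, hgen⟩ := hcyc.exists_generator
    have hz0v : f z0 v = v := by
      have h5 : g0 v = v := hg0
      rw [hz0]; exact h5
    obtain ⟨z, hz⟩ : ∃ z : ↥(stab (Subgroup.normalizer ((P.subgroupOf (Subgroup.centralizer ({(v : G)} : Set G)) :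
        Subgroup (Subgroup.centralizer ({(v : G)} : Set G))) : Set (Subgroup.centralizer ({(v : G)} : Set G))))
        (BlockAlg.res (Subgroup.centralizer ({(v : G)} : Set G)) c)),
        ((z : Subgroup.centralizer ({(v : G)} : Set G)) : G) = z0 :=
      ⟨⟨⟨z0, hfix z0 hz0v⟩, (hmem _).2 z0.2⟩, rfl⟩
    have htop := eq_top_of_one h1' h3' hS' (z := z) (by
      intro s _
      have hs0 : ((s : Subgroup.centralizer ({(v : G)} : Set G)) : G) ∈
          stab (Subgroup.normalizer (P : Set G)) c := (hmem _).1 s.2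
      have hsv : f ⟨_, hs0⟩ v = v := by
        apply Subtype.ext
        rw [hf]
        have h5 := Subgroup.mem_centralizer_singleton_iff.1 (s : Subgroup.centralizer ({(v : G)} : Set G)).2
        show ((s : Subgroup.centralizer ({(v : G)} : Set G)) : G) * (v : G) *
          ((s : Subgroup.centralizer ({(v : G)} : Set G)) : G)⁻¹ = v
        rw [h5, mul_inv_cancel_right]
      obtain ⟨k, hk'⟩ := Subgroup.mem_zpowers_iff.1 (hgen ⟨⟨f ⟨_, hs0⟩, ⟨_, rfl⟩⟩, hsv⟩)
      have h6 : g0 ^ k = f ⟨_, hs0⟩ := congrArg (fun y => ((y : ↥(MulAction.stabilizer f.range v)) : f.range).1) hk'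
      rw [← hz0, ← map_zpow] at h6
      have h7 : f (⟨_, hs0⟩ * (z0 ^ k)⁻¹) = 1 := by
        rw [map_mul, map_inv, h6, mul_inv_cancel]
      rw [hker, Subgroup.mem_subgroupOf] at h7
      have h8 : s * (z ^ k)⁻¹ ∈ (Subgroup.centralizer ((P.subgroupOf (Subgroup.centralizer ({(v : G)} : Set G)) :
          Subgroup (Subgroup.centralizer ({(v : G)} : Set G))) : Set (Subgroup.centralizer ({(v : G)} : Set G)))).subgroupOf
          (stab (Subgroup.normalizer ((P.subgroupOf (Subgroup.centralizer ({(v : G)} : Set G)) :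
        Subgroup (Subgroup.centralizer ({(v : G)} : Set G))) : Set (Subgroup.centralizer ({(v : G)} : Set G))))
        (BlockAlg.res (Subgroup.centralizer ({(v : G)} : Set G)) c)) := by
        rw [Subgroup.mem_subgroupOf, hcent]
        have h9 : (((s * (z ^ k)⁻¹ : ↥(stab (Subgroup.normalizer ((P.subgroupOf (Subgroup.centralizer ({(v : G)} : Set G)) :
        Subgroup (Subgroup.centralizer ({(v : G)} : Set G))) : Set (Subgroup.centralizer ({(v : G)} : Set G))))
        (BlockAlg.res (Subgroup.centralizer ({(v : G)} : Set G)) c))) : Subgroup.centralizer ({(v : G)} : Set G)) : G) =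
            ((s : Subgroup.centralizer ({(v : G)} : Set G)) : G) * ((z0 : G) ^ k)⁻¹ := by
          rw [← hz]
          rfl
        rw [h9]
        exact h7
      have h10 : s = (s * (z ^ k)⁻¹) * z ^ k := by group
      rw [h10]
      exact mul_mem (Subgroup.mem_sup_left h8) (Subgroup.mem_sup_right (Subgroup.mem_zpowers_iff.2 ⟨k, rfl⟩)))
    rw [hker, Subgroup.mem_subgroupOf]
    have h11 : (⟨⟨(t0 : G), hfix t0 ht0⟩, (hmem _).2 t0.2⟩ : ↥(stab (Subgroup.normalizer ((P.subgroupOf (Subgroup.centralizer ({(v : G)} : Set G)) :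
        Subgroup (Subgroup.centralizer ({(v : G)} : Set G))) : Set (Subgroup.centralizer ({(v : G)} : Set G))))
        (BlockAlg.res (Subgroup.centralizer ({(v : G)} : Set G)) c))) ∈
        (Subgroup.centralizer ((P.subgroupOf (Subgroup.centralizer ({(v : G)} : Set G)) :
          Subgroup (Subgroup.centralizer ({(v : G)} : Set G))) : Set (Subgroup.centralizer ({(v : G)} : Set G)))).subgroupOf
          (stab (Subgroup.normalizer ((P.subgroupOf (Subgroup.centralizer ({(v : G)} : Set G)) :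
        Subgroup (Subgroup.centralizer ({(v : G)} : Set G))) : Set (Subgroup.centralizer ({(v : G)} : Set G))))
        (BlockAlg.res (Subgroup.centralizer ({(v : G)} : Set G)) c)) := by
      rw [htop]; trivial
    rw [Subgroup.mem_subgroupOf, hcent] at h11
    exact h11

end Cfsg.Agent.Lib.H76K3J
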