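import Cfsg.Agent.Lib.H76Setup

set_option autoImplicit false

/-!
The local data for fully ramified characters (helper76), used by S4563, S4564.
-/

namespace Cfsg.Agent.Lib.H76LData

open scoped ComplexConjugate
open Cfsg Cfsg.Agent.Lib.CharBasic Cfsg.Agent.Lib.Clifford Cfsg.Agent.Lib.CliffordCorr
open Cfsg.Agent.Lib.H76FullRam Cfsg.Agent.Lib.H76Ram Cfsg.Agent.Lib.H76Setup

universe u

/-- The local situation in `L = N_H(S)`. -/
structure LData {L : Type u} [Group L] [Fintype L] (p : ℕ) (Z S Y P : Subgroup L) [Z.Normal] [S.Normal] [Y.Normal]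
    (θ : Z → ℂ) (X : L → ℂ) (e a k n : ℕ) : Prop where
  hZS : Z ≤ S
  hSY : S ≤ Y
  hSP : S ≤ P
  hθ : IsIrrCharacter Z θ
  hinv : ∀ g : L, cj Z g θ = θ
  hX : IsCharacter L X
  hoff : ∀ g, g ∉ Z → X g = 0
  hres : ∀ z : Z, X z = e * θ z
  hPZ : Z.relIndex P = (p ^ a) ^ 2
  he : e = p ^ a * k
  hk : ¬ p ∣ k
  hYS : ¬ p ∣ S.relIndex Y
  hPS : S.relIndex P = p ^ n

section

variable {L : Type u} [Group L] [Fintype L] {p : ℕ} [hp : Fact p.Prime] {Z S Y P : Subgroup L} [Z.Normal] [S.Normal]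
  [Y.Normal] {θ : Z → ℂ} {X : L → ℂ} {e a k n : ℕ}

theorem LData.mult (D : LData p Z S Y P θ X e a k n) {ψ : P → ℂ} (hψ : IsIrrCharacter P ψ) [Fintype Z]
    (hover : classInner (resTo Z P (D.hZS.trans D.hSP) ψ) θ ≠ 0) :
    classInner (resTo Z P (D.hZS.trans D.hSP) ψ) θ = ((p ^ a : ℕ) : ℂ) :=
  mult_eq (D.hZS.trans D.hSP) D.hθ D.hinv D.hX D.hoff e D.hres p a k D.hPZ D.he D.hk hψ hover

theorem LData.uniq (D : LData p Z S Y P θ X e a k n) {ψ ψ' : P → ℂ} (hψ : IsIrrCharacter P ψ) [Fintype Z]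
    (hover : classInner (resTo Z P (D.hZS.trans D.hSP) ψ) θ ≠ 0) (hψ' : IsIrrCharacter P ψ')
    (hover' : classInner (resTo Z P (D.hZS.trans D.hSP) ψ') θ ≠ 0) : ψ' = ψ :=
  H76Ram.uniq (D.hZS.trans D.hSP) D.hθ D.hinv D.hX D.hoff e D.hres p a k D.hPZ D.he D.hk hψ hover hψ' hover'

/-- `ψ` vanishes off `Z`. -/
theorem LData.off (D : LData p Z S Y P θ X e a k n) {ψ : P → ℂ} (hψ : IsIrrCharacter P ψ) [Fintype Z]
    (hover : classInner (resTo Z P (D.hZS.trans D.hSP) ψ) θ ≠ 0) : ∀ x : P, (x : L) ∉ Z → ψ x = 0 := by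
  classical
  have := Fintype.ofFinite P
  have := Fintype.ofFinite (Z.subgroupOf P)
  have hZP := D.hZS.trans D.hSP
  have hm := D.mult hψ hover
  have hresψ : resTo Z P hZP ψ = ((p ^ a : ℕ) : ℂ) • θ := by
    rw [← hm]
    exact resTo_eq_smul hZP hψ D.hθ (fun g _ => D.hinv g) hover
  let θ' : Z.subgroupOf P → ℂ := fun n => θ (subEquiv Z P hZP n)
  have hθ' : IsIrrCharacter (Z.subgroupOf P) θ' := (isIrrCharacter_comp_mulEquiv_iff (subEquiv Z P hZP)).2 D.hθ
  have hc1 := classInner_resTo P hZP ψ θ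
  have hcon : classInner (fun n : Z.subgroupOf P => ψ n) θ' ≠ 0 := by
    rw [hc1]; exact hover
  have hfr := fully_ramified_iff (N := Z.subgroupOf P) hψ hθ' hcon
  have hex : ∃ e : ℕ, (fun n : Z.subgroupOf P => ψ n) = (e : ℂ) • θ' ∧ e ^ 2 = (Z.subgroupOf P).index := by
    refine ⟨p ^ a, ?_, ?_⟩
    · funext n
      exact congrFun hresψ (subEquiv Z P hZP n)
    · exact D.hPZ.symm
  intro x hx
  exact (hfr.1.1 hex).1 x (by rw [Subgroup.mem_subgroupOf]; exact hx)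

theorem LData.exists_eta (D : LData p Z S Y P θ X e a k n) [Fintype Z] :
    ∃ η : S → ℂ, IsIrrCharacter S η ∧ classInner (resTo Z S D.hZS η) θ ≠ 0 := by
  obtain ⟨η, hη, h1, _⟩ := exists_over (Z := Z) (S := Z) (P := S) le_rfl D.hZS D.hθ D.hθ (by
    have : resTo Z Z le_rfl θ = θ := rfl
    rw [this, D.hθ.classInner_self]; exact one_ne_zero)
  exact ⟨η, hη, h1⟩

/-- the conclusion -/
theorem LData.final (D : LData p Z S Y P θ X e a k n) [Fintype Z]
    (hR : ∀ η : S → ℂ, IsIrrCharacter S η → classInner (resTo Z S D.hZS η) θ ≠ 0 → inertia S η ⊓ P ≤ S) :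
    ∃ I : Subgroup L, Y ≤ I ∧ I.index = p ^ n := by
  classical
  have := Fintype.ofFinite S
  obtain ⟨η, hη, hover⟩ := D.exists_eta
  have htr : ∀ η' : S → ℂ, IsIrrCharacter S η' → classInner (resTo Z S D.hZS η') θ ≠ 0 →
      ∃ x ∈ P, η' = cj S x η := by
    intro η' hη' hover'
    exact transitive D.hZS D.hSP D.hθ (fun ψ ψ' h1 h2 h3 h4 => D.uniq h1 h3 h2 h4) hη hη' hover hover'
  obtain ⟨h1, h2⟩ := inertia_of_transitive D.hZS D.hSY D.hinv p n D.hYS D.hPS hη hover htr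
  refine ⟨inertia S η, h1, ?_⟩
  rw [h2, ← D.hPS, ← Subgroup.inf_relIndex_right (inertia S η) P]
  congr 1
  exact le_antisymm (hR η hη hover) (le_inf (le_inertia hη.isClassFunction) D.hSP)

end

/-- The data in `H`. -/
theorem exists_data {H : Type u} [Group H] [Fintype H] (Z K : Subgroup H) [Z.Normal] [K.Normal] [Fintype Z]
    (hZK : Z ≤ K) (χ : IrrCharacter H)
    (θ : IrrCharacter ↥Z) (e : ℕ) (he : e ^ 2 = Z.index)
    (hres : ∀ z : ↥Z, (χ : H → ℂ) z = (e : ℂ) * (θ : ↥Z → ℂ) z) (p : ℕ) [hp : Fact p.Prime]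
    (P₀ : Sylow p H) (L : Subgroup H) [Fintype L]
    (hL : L = Subgroup.normalizer (((Z ⊔ (P₀ : Subgroup H)) ⊓ K : Subgroup H) : Set H)) :
    ∃ (hZL : Z ≤ L) (hSn : (((Z ⊔ (P₀ : Subgroup H)) ⊓ K).subgroupOf L).Normal) (hPL : Z ⊔ (P₀ : Subgroup H) ≤ L)
      (a k n m : ℕ), 
      K ⊔ L = ⊤ ∧ K.index = p ^ n * m ∧ ¬ p ∣ m ∧
      LData p (Z.subgroupOf L) (((Z ⊔ (P₀ : Subgroup H)) ⊓ K).subgroupOf L) (K.subgroupOf L)
        ((Z ⊔ (P₀ : Subgroup H)).subgroupOf L) (fun z => (θ : Z → ℂ) (subEquiv Z L hZL z)) (fun g => (χ : H → ℂ) g) e a k n := by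
  classical
  obtain ⟨he0, hci, hoff, hinv, huniq⟩ := unpack Z χ θ e he hres
  obtain ⟨h1, h2, ⟨n, m, h3, h4, h5⟩, b, m', h6, h7, h8⟩ := setup Z K hZK p P₀
  set P : Subgroup H := Z ⊔ (P₀ : Subgroup H) with hP
  have hZS : Z ≤ P ⊓ K := le_inf le_sup_left hZK
  have hPL : P ≤ L := by
    rw [hL]
    intro x hx
    rw [Subgroup.mem_normalizer_iff]
    intro y
    have hKn : K.Normal := inferInstance
    constructor
    · rintro ⟨hy1, hy2⟩
      exact ⟨P.mul_mem (P.mul_mem hx hy1) (P.inv_mem hx), hKn.conj_mem y hy2 x⟩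
    · rintro ⟨hy1, hy2⟩
      refine ⟨?_, ?_⟩
      · have := P.mul_mem (P.mul_mem (P.inv_mem hx) hy1) hx
        have e : x⁻¹ * (x * y * x⁻¹) * x = y := by group
        rwa [e] at this
      · have := hKn.conj_mem _ hy2 x⁻¹
        have e : x⁻¹ * (x * y * x⁻¹) * x⁻¹⁻¹ = y := by group
        rwa [e] at this
  have hZL : Z ≤ L := le_sup_left.trans hPL
  have hSL : P ⊓ K ≤ L := inf_le_left.trans hPL
  have hSn : ((P ⊓ K).subgroupOf L).Normal := by
    rw [hL]
    exact Subgroup.normal_in_normalizer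
  -- e = p ^ a * k with b = 2 a
  have hepos : 0 < e := Nat.pos_of_ne_zero he0
  obtain ⟨a, k, hk, hek⟩ : ∃ a k, ¬ p ∣ k ∧ e = p ^ a * k := by
    obtain ⟨a, k, hk, hek⟩ := Nat.exists_eq_pow_mul_and_not_dvd he0 p hp.out.ne_one
    exact ⟨a, k, hk, hek⟩
  have hb : p ^ b = (p ^ a) ^ 2 := by
    have h9 : p ^ b * m' = (p ^ a) ^ 2 * k ^ 2 := by
      rw [← h7, ← he, hek]; ring
    have hk2 : ¬ p ∣ k ^ 2 := fun h => hk (hp.out.dvd_of_dvd_pow h)
    rw [← pow_mul] at h9 ⊢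
    have e1 : b = a * 2 := by
      have hm'0 : m' ≠ 0 := by rintro rfl; exact h8 (dvd_zero p)
      have hk20 : k ^ 2 ≠ 0 := by intro h; exact hk2 (h ▸ dvd_zero p)
      have h10 := congrArg (fun x => x.factorization p) h9
      simp only [Nat.factorization_mul (pow_ne_zero _ hp.out.ne_zero) hm'0,
        Nat.factorization_mul (pow_ne_zero _ hp.out.ne_zero) hk20, Finsupp.add_apply,
        hp.out.factorization_pow, Finsupp.single_eq_same, Nat.factorization_eq_zero_of_not_dvd h8,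
        Nat.factorization_eq_zero_of_not_dvd hk2, add_zero] at h10
      exact h10
    rw [e1]
  refine ⟨hZL, hSn, hPL, a, k, n, m, ?_, h4, h5, ?_⟩
  · rw [hL]; exact h1
  · refine
      { hZS := ?_
        hSY := ?_
        hSP := ?_
        hθ := (isIrrCharacter_comp_mulEquiv_iff (subEquiv Z L hZL)).2 θ.2
        hinv := ?_
        hX := χ.2.isCharacter.restrict L
        hoff := ?_
        hres := ?_
        hPZ := ?_
        he := hek
        hk := hk
        hYS := ?_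
        hPS := ?_ }
    · exact Subgroup.comap_mono hZS
    · exact Subgroup.comap_mono inf_le_right
    · exact Subgroup.comap_mono inf_le_left
    · intro g
      funext z
      have h10 := congrFun (hinv (g : H)) (subEquiv Z L hZL z)
      rw [cj_apply] at h10 ⊢
      exact h10
    · intro g hg
      exact hoff g (by rw [Subgroup.mem_subgroupOf] at hg; exact hg)
    · intro z
      exact hres (subEquiv Z L hZL z)
    · rw [Subgroup.relIndex_subgroupOf hPL, h6, hb]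
    · have : (P ⊓ K).relIndex (K ⊓ L) ∣ (P ⊓ K).relIndex K := by
        have h11 := Subgroup.relIndex_mul_relIndex (P ⊓ K) (K ⊓ L) K (le_inf inf_le_right hSL) inf_le_left
        exact ⟨_, h11.symm⟩
      intro h
      apply h2
      apply h.trans
      have h12 : ((P ⊓ K).subgroupOf L).relIndex (K.subgroupOf L) = (P ⊓ K).relIndex (K ⊓ L) := by
        rw [← Subgroup.relIndex_subgroupOf (inf_le_right : K ⊓ L ≤ L)]
        rw [Subgroup.inf_subgroupOf_right]
      rw [h12]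
      exact this
    · rw [Subgroup.relIndex_subgroupOf hPL, h3]

end Cfsg.Agent.Lib.H76LData
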