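import Mathlib
import Cfsg.Agent.Lib.PrimeGraphExt

/-! (helper76) The prime graph of `PSp(6,3)`: abstract part. -/

set_option autoImplicit false
set_option linter.unusedSectionVars false

namespace Cfsg.Agent.Lib.H76PG

open Cfsg.Agent.Lib.PrimeGraphExt SemidirectProduct

/-- the prime graph with vertices 2, 3, 5, 7, 13 and edges 2-3, 2-5, 2-7, 3-5. -/
structure Spec13 (G : Type*) [Group G] : Prop where
  primes : ∀ r : ℕ, r.Prime → (r ∣ Nat.card G ↔ r = 2 ∨ r = 3 ∨ r = 5 ∨ r = 7 ∨ r = 13)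
  e6 : ∃ g : G, orderOf g = 6
  e10 : ∃ g : G, orderOf g = 10
  e14 : ∃ g : G, orderOf g = 14
  e15 : ∃ g : G, orderOf g = 15
  n26 : ¬ ∃ g : G, orderOf g = 26
  n21 : ¬ ∃ g : G, orderOf g = 21
  n39 : ¬ ∃ g : G, orderOf g = 39
  n35 : ¬ ∃ g : G, orderOf g = 35
  n65 : ¬ ∃ g : G, orderOf g = 65
  n91 : ¬ ∃ g : G, orderOf g = 91

theorem Spec13.imp {G H : Type*} [Group G] [Group H] (hG : Spec13 G) (hH : Spec13 H) {r s : ℕ} (hr : r.Prime)
    (hs : s.Prime) (hrs : r ≠ s) (h : ∃ g : G, orderOf g = r * s) : ∃ g : H, orderOf g = r * s := by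
  have hr1 : r ∣ Nat.card G := by
    obtain ⟨g, hg⟩ := h
    have := orderOf_dvd_natCard g
    rw [hg] at this
    exact (Dvd.intro _ rfl).trans this
  have hs1 : s ∣ Nat.card G := by
    obtain ⟨g, hg⟩ := h
    have := orderOf_dvd_natCard g
    rw [hg] at this
    exact (Dvd.intro_left _ rfl).trans this
  rw [hG.primes r hr] at hr1
  rw [hG.primes s hs] at hs1
  have k6 := hH.e6
  have k10 := hH.e10
  have k14 := hH.e14
  have k15 := hH.e15
  have n26 := hG.n26
  have n21 := hG.n21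
  have n39 := hG.n39
  have n35 := hG.n35
  have n65 := hG.n65
  have n91 := hG.n91
  rcases hr1 with rfl | rfl | rfl | rfl | rfl <;> rcases hs1 with rfl | rfl | rfl | rfl | rfl <;>
    first
    | exact absurd rfl hrs
    | (norm_num at h ⊢
       first
       | exact k6
       | exact k10
       | exact k14
       | exact k15
       | exact absurd h n26
       | exact absurd h n21
       | exact absurd h n39
       | exact absurd h n35
       | exact absurd h n65
       | exact absurd h n91)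

theorem Spec13.sameGraph {G H : Type*} [Group G] [Group H] (hG : Spec13 G) (hH : Spec13 H) : SameGraph G H :=
  ⟨fun r hr => by rw [hG.primes r hr, hH.primes r hr], fun _ _ hr hs hrs =>
    ⟨fun h => hG.imp hH hr hs hrs h, fun h => hH.imp hG hr hs hrs h⟩⟩

section ext
variable {K V A : Type*} [Group K] [AddCommGroup V] [DistribMulAction K V] [Group A]

/-- the action -/
def ψ (K V : Type*) [Group K] [AddCommGroup V] [DistribMulAction K V] : K →* MulAut (Multiplicative V) :=
  ((MulAutMultiplicative V).symm.toMonoidHom).comp (DistribMulAction.toAddAut K V)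

theorem ψ_apply (k : K) (v : V) : ψ K V k (Multiplicative.ofAdd v) = Multiplicative.ofAdd (k • v) := rfl

theorem pow_two_mul (hV : ∀ v : V, v + v = 0) {h : Multiplicative V ⋊[ψ K V] K} {m : ℕ} (hm : (rightHom h) ^ m = 1) :
    h ^ (m * 2) = 1 := by
  have hker : h ^ m ∈ (rightHom : Multiplicative V ⋊[ψ K V] K →* K).ker := by
    rw [MonoidHom.mem_ker, map_pow, hm]
  rw [← range_inl_eq_ker_rightHom] at hker
  obtain ⟨w, hw⟩ := hker
  rw [pow_mul, ← hw, ← map_pow]
  have : w ^ 2 = 1 := by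
    rw [pow_two]
    exact hV (Multiplicative.toAdd w)
  rw [this, map_one]

theorem dvd_of_pow (hV : ∀ v : V, v + v = 0) {h : Multiplicative V ⋊[ψ K V] K} {m n : ℕ} (hn : orderOf h = n)
    (hm : (rightHom h) ^ m = 1) : n ∣ m * 2 := by
  rw [← hn]
  exact orderOf_dvd_of_pow_eq_one (pow_two_mul hV hm)

theorem kappa_one (κ : K →* A) (hA : ∀ a : A, a ^ 3 = 1) {h : Multiplicative V ⋊[ψ K V] K} {n : ℕ} (hn : orderOf h = n)
    (hc : Nat.Coprime n 3) : κ (rightHom h) = 1 := by
  have h1 : orderOf (κ (rightHom h)) ∣ n := by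
    rw [← hn]
    exact (orderOf_map_dvd κ _).trans (orderOf_map_dvd _ _)
  have h2 : orderOf (κ (rightHom h)) ∣ 3 := orderOf_dvd_of_pow_eq_one (hA _)
  have h3 := Nat.dvd_gcd h1 h2
  rw [hc.gcd_eq_one, Nat.dvd_one, orderOf_eq_one_iff] at h3
  exact h3

theorem fixed_of_commute {h : Multiplicative V ⋊[ψ K V] K} {w : Multiplicative V} (hc : h * inl w = inl w * h) :
    (rightHom h) • (Multiplicative.toAdd w) = Multiplicative.toAdd w := by
  have h1 := congrArg SemidirectProduct.left hc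
  rw [mul_left, mul_left, left_inl, right_inl, map_one, MulAut.one_apply, mul_comm w] at h1
  have h2 : ψ K V (rightHom h) w = w := mul_left_cancel h1
  exact h2

/-- the abstract criterion -/
theorem spec [Finite K] [Finite V] (κ : K →* A) (hA : ∀ a : A, a ^ 3 = 1) (hV : ∀ v : V, v + v = 0)
    (h1 : ∀ k : K, κ k = 1 → k ^ 4 = 1 ∨ k ^ 5 = 1 ∨ k ^ 7 = 1 ∨ k ^ 13 = 1)
    (h2 : ∀ k s : K, κ s = 1 → (s ^ 7 = 1 ∨ s ^ 13 = 1) → s ≠ 1 → k * s = s * k → κ k = 1)
    (h3 : ∀ (s : K) (v : V), κ s = 1 → s ^ 13 = 1 → s ≠ 1 → s • v = v → v = 0)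
    (e15 : ∃ x y : K, orderOf x = 3 ∧ orderOf y = 5 ∧ Commute x y)
    (e6 : ∃ x y : K, orderOf x = 2 ∧ orderOf y = 3 ∧ Commute x y)
    (e10 : ∃ (y : K) (v : V), orderOf y = 5 ∧ v ≠ 0 ∧ y • v = v)
    (e14 : ∃ (y : K) (v : V), orderOf y = 7 ∧ v ≠ 0 ∧ y • v = v)
    (e13 : ∃ y : K, orderOf y = 13) : Spec13 (Multiplicative V ⋊[ψ K V] K) := by
  have hfin : Finite (Multiplicative V ⋊[ψ K V] K) := by
    have : Finite (Multiplicative V) := inferInstanceAs (Finite V)
    exact Finite.of_equiv _ (SemidirectProduct.equivProd (φ := ψ K V)).symm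
  have key : ∀ (h : Multiplicative V ⋊[ψ K V] K) (n : ℕ), orderOf h = n → κ (rightHom h) = 1 →
      n ∣ 8 ∨ n ∣ 10 ∨ n ∣ 14 ∨ ((rightHom h) ^ 13 = 1 ∧ n ∣ 26) := by
    intro h n hn hκ
    rcases h1 _ hκ with h4 | h4 | h4 | h4
    · exact Or.inl (dvd_of_pow hV hn h4)
    · exact Or.inr (Or.inl (dvd_of_pow hV hn h4))
    · exact Or.inr (Or.inr (Or.inl (dvd_of_pow hV hn h4)))
    · exact Or.inr (Or.inr (Or.inr ⟨h4, dvd_of_pow hV hn h4⟩))
  have o6 : ∃ g : Multiplicative V ⋊[ψ K V] K, orderOf g = 6 := by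
    obtain ⟨x, y, hx, hy, hc⟩ := e6
    refine ⟨inr (x * y), ?_⟩
    rw [orderOf_injective _ inr_injective, hc.orderOf_mul_eq_mul_orderOf_of_coprime (by rw [hx, hy]; norm_num), hx, hy]
  have o15 : ∃ g : Multiplicative V ⋊[ψ K V] K, orderOf g = 15 := by
    obtain ⟨x, y, hx, hy, hc⟩ := e15
    refine ⟨inr (x * y), ?_⟩
    rw [orderOf_injective _ inr_injective, hc.orderOf_mul_eq_mul_orderOf_of_coprime (by rw [hx, hy]; norm_num), hx, hy]
  have oo : ∀ (y : K) (v : V) (n : ℕ), Nat.Coprime 2 n → orderOf y = n → v ≠ 0 → y • v = v →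
      ∃ g : Multiplicative V ⋊[ψ K V] K, orderOf g = 2 * n := by
    intro y v n hcop hn hv hyv
    have ho : orderOf (inl (Multiplicative.ofAdd v) : Multiplicative V ⋊[ψ K V] K) = 2 := by
      rw [orderOf_injective _ inl_injective]
      apply orderOf_eq_prime
      · rw [pow_two]
        exact hV v
      · exact hv
    have hc : Commute (inl (Multiplicative.ofAdd v) : Multiplicative V ⋊[ψ K V] K) (inr y) := by
      apply SemidirectProduct.ext
      · rw [mul_left, mul_left, left_inl, left_inr, right_inl, right_inr, map_one, ψ_apply, hyv, mul_one, one_mul]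
      · rw [mul_right, mul_right, right_inl, right_inr, one_mul, mul_one]
    refine ⟨inl (Multiplicative.ofAdd v) * inr y, ?_⟩
    · rw [hc.orderOf_mul_eq_mul_orderOf_of_coprime (by rw [ho, orderOf_injective _ inr_injective, hn]; exact hcop), ho,
        orderOf_injective _ inr_injective, hn]
  have o10 : ∃ g : Multiplicative V ⋊[ψ K V] K, orderOf g = 10 := by
    obtain ⟨y, v, hy, hv, hyv⟩ := e10
    exact oo y v 5 (by norm_num) hy hv hyv
  have o14 : ∃ g : Multiplicative V ⋊[ψ K V] K, orderOf g = 14 := by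
    obtain ⟨y, v, hy, hv, hyv⟩ := e14
    exact oo y v 7 (by norm_num) hy hv hyv
  have comm3 : ∀ (h : Multiplicative V ⋊[ψ K V] K) (n : ℕ), orderOf h = 3 * n → n = 7 ∨ n = 13 → κ (rightHom h) = 1 := by
    intro h n hn h7
    have e1 : (rightHom h) ^ (3 * n) = 1 := by rw [← map_pow, ← hn, pow_orderOf_eq_one, map_one]
    refine h2 (rightHom h) ((rightHom h) ^ 3) (by rw [map_pow, hA]) ?_ ?_ (by rw [← pow_succ, ← pow_succ'])
    · rcases h7 with rfl | rfl
      · left; rw [← pow_mul]; exact e1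
      · right; rw [← pow_mul]; exact e1
    · intro h4
      have h5 := dvd_of_pow hV hn h4
      rcases h7 with rfl | rfl <;> norm_num at h5
  refine ⟨?_, o6, o10, o14, o15, ?_, ?_, ?_, ?_, ?_, ?_⟩
  · intro r hr
    constructor
    · intro hd
      have : Fact r.Prime := ⟨hr⟩
      obtain ⟨h, hh⟩ := exists_prime_orderOf_dvd_card' r hd
      by_cases h3' : r = 3
      · exact Or.inr (Or.inl h3')
      have hκ := kappa_one κ hA hh ((Nat.coprime_primes hr Nat.prime_three).2 h3')
      have pr : ∀ a b : ℕ, a.Prime → b.Prime → r ∣ a * b → r = a ∨ r = b := by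
        intro a b ha hb hab
        rcases (Nat.Prime.dvd_mul hr).1 hab with h | h
        · exact Or.inl ((Nat.prime_dvd_prime_iff_eq hr ha).1 h)
        · exact Or.inr ((Nat.prime_dvd_prime_iff_eq hr hb).1 h)
      rcases key h r hh hκ with h4 | h4 | h4 | ⟨-, h4⟩
      · left
        exact (Nat.prime_dvd_prime_iff_eq hr Nat.prime_two).1 (hr.dvd_of_dvd_pow (show r ∣ 2 ^ 3 from h4))
      · rcases pr 2 5 (by norm_num) (by norm_num) h4 with h | h <;> omega
      · rcases pr 2 7 (by norm_num) (by norm_num) h4 with h | h <;> omega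
      · rcases pr 2 13 (by norm_num) (by norm_num) h4 with h | h <;> omega
    · have aux : ∀ (n : ℕ), (∃ g : Multiplicative V ⋊[ψ K V] K, orderOf g = n) → r ∣ n → r ∣ Nat.card (Multiplicative V ⋊[ψ K V] K) := by
        rintro n ⟨g, hg⟩ hd
        have := orderOf_dvd_natCard g
        rw [hg] at this
        exact hd.trans this
      rintro (rfl | rfl | rfl | rfl | rfl)
      · exact aux 6 o6 (by norm_num)
      · exact aux 6 o6 (by norm_num)
      · exact aux 10 o10 (by norm_num)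
      · exact aux 14 o14 (by norm_num)
      · obtain ⟨y, hy⟩ := e13
        exact aux 13 ⟨inr y, by rw [orderOf_injective _ inr_injective, hy]⟩ (by norm_num)
  · -- 26
    rintro ⟨h, hh⟩
    have hκ := kappa_one κ hA hh (by norm_num)
    rcases key h 26 hh hκ with h4 | h4 | h4 | ⟨h4, -⟩
    · norm_num at h4
    · norm_num at h4
    · norm_num at h4
    · have hk1 : rightHom h ≠ 1 := by
        intro h5
        have := dvd_of_pow (m := 1) hV hh (by rw [pow_one]; exact h5)
        norm_num at this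
      have hker : h ^ 13 ∈ (rightHom : Multiplicative V ⋊[ψ K V] K →* K).ker := by
        rw [MonoidHom.mem_ker, map_pow, h4]
      rw [← range_inl_eq_ker_rightHom] at hker
      obtain ⟨w, hw⟩ := hker
      have hc : h * inl w = inl w * h := by
        rw [hw, ← pow_succ, ← pow_succ']
      have h5 := h3 _ _ hκ h4 hk1 (fixed_of_commute hc)
      have h6 : w = 1 := h5
      rw [h6, map_one] at hw
      have h7 := orderOf_dvd_of_pow_eq_one hw.symm
      rw [hh] at h7
      norm_num at h7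
  · rintro ⟨h, hh⟩
    rcases key h 21 hh (comm3 h 7 hh (Or.inl rfl)) with h4 | h4 | h4 | ⟨-, h4⟩ <;> norm_num at h4
  · rintro ⟨h, hh⟩
    rcases key h 39 hh (comm3 h 13 hh (Or.inr rfl)) with h4 | h4 | h4 | ⟨-, h4⟩ <;> norm_num at h4
  · rintro ⟨h, hh⟩
    rcases key h 35 hh (kappa_one κ hA hh (by norm_num)) with h4 | h4 | h4 | ⟨-, h4⟩ <;> norm_num at h4
  · rintro ⟨h, hh⟩
    rcases key h 65 hh (kappa_one κ hA hh (by norm_num)) with h4 | h4 | h4 | ⟨-, h4⟩ <;> norm_num at h4
  · rintro ⟨h, hh⟩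
    rcases key h 91 hh (kappa_one κ hA hh (by norm_num)) with h4 | h4 | h4 | ⟨-, h4⟩ <;> norm_num at h4

end ext

end Cfsg.Agent.Lib.H76PG
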