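import Mathlib
import Cfsg.Agent.Lib.SpPGD67
import Cfsg.Agent.Lib.SympSpec2
import Cfsg.Agent.Lib.ClSympOrd
import Cfsg.Agent.Lib.ClSymp3
import Cfsg.Agent.Lib.H76PGA

/-! (helper76) The prime graph of `PSp(6,3)`. -/

set_option autoImplicit false
set_option linter.unusedSectionVars false

namespace Cfsg.Agent.Lib.H76PG

open Module Cfsg.Agent.Lib.InvSub Cfsg.Agent.Lib.PrimeOrd Cfsg.Agent.Lib.Sesq Cfsg.Agent.Lib.HermAlg Cfsg.Agent.Lib.SpPG67

variable {F : Type*} [Field F] [Fintype F]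

theorem ord_three {r k : ℕ} (hk : 0 < k) (h1 : ((3 : ℕ) : ZMod r) ^ k = 1) (h2 : ∀ m < k, 0 < m → ((3 : ℕ) : ZMod r) ^ m ≠ 1) :
    orderOf ((3 : ℕ) : ZMod r) = k := (orderOf_eq_iff hk).2 ⟨h1, fun m hm h0 => h2 m hm h0⟩

theorem o5 : orderOf ((3 : ℕ) : ZMod 5) = 4 := ord_three (by norm_num) (by decide) (by decide)
theorem o7 : orderOf ((3 : ℕ) : ZMod 7) = 6 := ord_three (by norm_num) (by decide) (by decide)
theorem o13 : orderOf ((3 : ℕ) : ZMod 13) = 3 := ord_three (by norm_num) (by decide) (by decide)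

variable (hF : Fintype.card F = 3)
include hF

theorem charThree : CharP F 3 := by
  obtain ⟨p, hc⟩ := CharP.exists F
  have hp0 : p ≠ 0 := CharP.char_ne_zero_of_finite F p
  have hp : p.Prime := (CharP.char_is_prime_or_zero F p).resolve_right hp0
  have : Fact p.Prime := ⟨hp⟩
  obtain ⟨n, -, hn⟩ := FiniteField.card F p
  rw [hF] at hn
  have h1 : p ∣ 3 := by rw [hn]; exact dvd_pow_self p n.ne_zero
  rw [← (Nat.prime_dvd_prime_iff_eq hp Nat.prime_three).1 h1]
  exact hc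

theorem csz5 : csz F 5 = 2 * 2 := csz_of 4 2 5 (by rw [hF, o5]) (Or.inr ⟨by decide, rfl⟩)
theorem csz7 : csz F 7 = 2 * 3 := csz_of 6 3 7 (by rw [hF, o7]) (Or.inr ⟨by decide, rfl⟩)
theorem csz13 : csz F 13 = 2 * 3 := csz_of 3 3 13 (by rw [hF, o13]) (Or.inl ⟨by decide, rfl⟩)

theorem two_ne : (2 : F) ≠ 0 := by
  have := charThree hF
  intro h
  have h1 : ((2 : ℕ) : F) = 0 := by exact_mod_cast h
  rw [CharP.cast_eq_zero_iff F 3] at h1
  norm_num at h1

theorem neg_ord {V : Type*} [AddCommGroup V] [Module F V] [Nontrivial V] : (-1 : Module.End F V) ^ 2 = 1 ∧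
    ∀ k : ℕ, (-1 : Module.End F V) ^ k = 1 → 2 ∣ k := by
  refine ⟨by simp, fun k hk => ?_⟩
  rcases Nat.even_or_odd k with h | h
  · exact h.two_dvd
  · exfalso
    rw [h.neg_one_pow] at hk
    obtain ⟨x, hx⟩ := exists_ne (0 : V)
    have h1 := LinearMap.congr_fun hk x
    simp at h1
    have h2 : (2 : F) • x = 0 := by
      rw [two_smul]
      nth_rw 1 [← h1]
      simp
    exact hx ((smul_eq_zero.1 h2).resolve_left (two_ne hF))

theorem p10 : 10 ∈ Set.range (orderOf : Cfsg.PSp 3 F → ℕ) := by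
  have hc := charThree hF
  obtain ⟨T, hT, hTE, hT1, hd⟩ := exists_po_full (F := F) (p := 3) (r := 5) Nat.prime_three hc (by norm_num) (by norm_num) (by decide) (e := 2) (csz5 hF).symm 1 le_rfl
  have hnt1 : Nontrivial (Fin (1 * 2) ⊕ Fin (1 * 2) → F) := Module.nontrivial_of_finrank_pos (R := F) (by omega)
  have hnt2 : Nontrivial (Fin 1 ⊕ Fin 1 → F) := Module.nontrivial_of_finrank_pos (R := F) (by rw [B_dim]; norm_num)
  have hneg := neg_ord (V := Fin 1 ⊕ Fin 1 → F) hF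
  exact mem_range_prod (n := 3) (N₁ := 5) (N₂ := 2) (T₂ := (-1 : Module.End F (Fin 1 ⊕ Fin 1 → F))) (by rw [B_dim, B_dim]) hT.alt (B_alt 1) hT.nd (B_nd 1) hT.iso
    (fun x y => by rw [LinearMap.neg_apply, LinearMap.neg_apply, Module.End.one_apply, Module.End.one_apply, map_neg, map_neg (SympMat.B 1 F), LinearMap.neg_apply, neg_neg])
    (by norm_num) hT.pow hneg.1 (fun k hk => po_order hT hT1 hk) hneg.2

theorem p6 : 6 ∈ Set.range (orderOf : Cfsg.PSp 3 F → ℕ) := by
  have hc := charThree hF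
  have hnt1 : Nontrivial (Fin 2 ⊕ Fin 2 → F) := Module.nontrivial_of_finrank_pos (R := F) (by rw [B_dim]; norm_num)
  have hnt2 : Nontrivial (Fin 1 ⊕ Fin 1 → F) := Module.nontrivial_of_finrank_pos (R := F) (by rw [B_dim]; norm_num)
  obtain ⟨v, hv⟩ := exists_ne (0 : Fin 2 ⊕ Fin 2 → F)
  obtain ⟨h1, h2⟩ := tv_order (p := 3) (B_alt (F := F) 2) (B_nd 2) hv
  have hneg := neg_ord (V := Fin 1 ⊕ Fin 1 → F) hF
  exact mem_range_prod (n := 3) (N₁ := 3) (N₂ := 2) (T₂ := (-1 : Module.End F (Fin 1 ⊕ Fin 1 → F))) (by rw [B_dim, B_dim]) (B_alt 2) (B_alt 1) (B_nd 2) (B_nd 1) (tv_iso (B_alt _) v)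
    (fun x y => by rw [LinearMap.neg_apply, LinearMap.neg_apply, Module.End.one_apply, Module.End.one_apply, map_neg, map_neg (SympMat.B 1 F), LinearMap.neg_apply, neg_neg])
    (by norm_num) h1 hneg.1 h2 hneg.2

theorem p14 : 14 ∈ Set.range (orderOf : Cfsg.PSp 3 F → ℕ) := by
  have hc := charThree hF
  have : Fact (Nat.Prime 3) := ⟨Nat.prime_three⟩
  have hfin : Finite (Cfsg.PSp 3 F) := inferInstance
  obtain ⟨g, hg⟩ := SympSpec.exists_nonsplit (p := 3) (n := 3) (two_ne hF) (by norm_num)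
  rw [Nat.card_eq_fintype_card, hF] at hg
  obtain ⟨m, hm⟩ : 14 ∣ orderOf g := by
    obtain ⟨c, hc⟩ := hg
    exact ⟨c, by omega⟩
  have hm0 : m ≠ 0 := by
    rintro rfl
    have := orderOf_pos g
    omega
  refine ⟨g ^ m, ?_⟩
  rw [orderOf_pow_of_dvd hm0 (Dvd.intro_left _ hm.symm), hm, Nat.mul_div_cancel _ (Nat.pos_of_ne_zero hm0)]

theorem q26 : 26 ∉ Set.range (orderOf : Cfsg.PSp 3 F → ℕ) := by
  have hc := charThree hF
  have h2 := two_ne hF
  have hnt : Nontrivial (Fin 3 ⊕ Fin 3 → F) := Module.nontrivial_of_finrank_pos (R := F) (by rw [B_dim]; norm_num)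
  rintro ⟨g, hg⟩
  obtain ⟨T, hT, -, hTk⟩ := SympSpec.exists_isom g
  have hTI : Iso (σ := RingHom.id F) (SympMat.B 3 F) T := hT
  have hk' : ∀ k : ℕ, (∃ c : F, T ^ k = c • (1 : Module.End F (Fin 3 ⊕ Fin 3 → F))) ↔ 26 ∣ k := fun k => by
    rw [← hg, orderOf_dvd_iff_pow_eq_one, hTk]
  obtain ⟨c, hcc⟩ := (hk' 26).2 dvd_rfl
  have hc2 := scalar_sq (B_nd 3) hTI hcc
  obtain ⟨y, hy⟩ : ∃ y, T ^ 4 = y := ⟨_, rfl⟩
  obtain ⟨w, hw⟩ : ∃ w, T ^ 13 = w := ⟨_, rfl⟩
  have hyw : y * w = w * y := by rw [← hy, ← hw, ← pow_add, ← pow_add]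
  have hy13 : y ^ 13 = 1 := by
    rw [← hy, ← pow_mul, show 4 * 13 = 26 * 2 by norm_num, pow_mul, hcc, _root_.smul_pow, one_pow, pow_two, hc2, one_smul]
  have hy1 : y ≠ 1 := by
    intro h
    have := (hk' 4).1 ⟨1, by rw [hy, h, one_smul]⟩
    norm_num at this
  have hw2 : w * w = c • 1 := by rw [← hw, ← pow_add]; exact hcc
  have hws : ¬ ∃ d : F, w = d • 1 := by
    rintro ⟨d, hd⟩
    have := (hk' 13).1 ⟨d, by rw [hw, hd]⟩
    norm_num at this
  have hyI : Iso (σ := RingHom.id F) (SympMat.B 3 F) y := by rw [← hy]; exact iso_pow hTI 4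
  have hwI : Iso (σ := RingHom.id F) (SympMat.B 3 F) w := by rw [← hw]; exact iso_pow hTI 13
  have hPO := po_of Nat.prime_three hc hyI (r := 13) (by norm_num) (by norm_num) (by decide) hy13
  obtain ⟨m1, m2, m3, m4, m5, m6⟩ := po_moved hPO
  have hMpos : 0 < finrank F (perp (σ := RingHom.id F) (SympMat.B 3 F) (E y 1)) := by
    rw [Nat.pos_iff_ne_zero]
    intro h0
    exact perp_pos hPO hy1 (Submodule.finrank_eq_zero.1 h0)
  rw [csz13 hF] at m6
  have h6 := Nat.le_of_dvd hMpos m6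
  rw [B_dim] at m5
  have hE0 : finrank F (E y (1 : F)) = 0 := by omega
  have hE : E y (1 : F) = ⊥ := Submodule.finrank_eq_zero.1 hE0
  have hcases : c = 1 ∨ c = -1 := by
    have : (c - 1) * (c + 1) = 0 := by linear_combination hc2
    rcases mul_eq_zero.1 this with h | h
    · exact Or.inl (sub_eq_zero.1 h)
    · exact Or.inr (eq_neg_of_add_eq_zero_left h)
  rcases hcases with rfl | rfl
  · -- involution
    rw [one_smul] at hw2
    have hww : ∀ x, w (w x) = x := fun x => LinearMap.congr_fun hw2 x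
    have hmem : ∀ z, z + w z ∈ E w (1 : F) := by
      intro z
      rw [Module.End.mem_eigenspace_iff, one_smul, map_add, hww, add_comm]
    have hnd : ND (σ := RingHom.id F) (SympMat.B 3 F) (E w (1 : F)) := by
      intro x hx hxy
      apply B_nd 3 x trivial
      intro z _
      have h3 := hxy (z + w z) (hmem z)
      have h4 : w x = x := by
        have := Module.End.mem_eigenspace_iff.1 hx
        rwa [one_smul] at this
      have h5 := hwI x z
      rw [h4] at h5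
      rw [map_add, h5] at h3
      have h6 : (2 : F) * SympMat.B 3 F x z = 0 := by
        rw [two_mul]; exact h3
      exact (mul_eq_zero.1 h6).resolve_left h2
    have hinv : Inv y (E w (1 : F)) := inv_E_of_comm hyw
    have hd := hPO.csz_dvd _ rfl hinv hnd (by rw [hE, inf_bot_eq])
    rw [csz13 hF] at hd
    have hle := Submodule.finrank_le (E w (1 : F))
    rw [B_dim] at hle
    rcases Nat.eq_zero_or_pos (finrank F (E w (1 : F))) with h0 | h0
    · apply hws
      refine ⟨-1, ?_⟩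
      have h7 : E w (1 : F) = ⊥ := Submodule.finrank_eq_zero.1 h0
      apply LinearMap.ext
      intro z
      have h8 := hmem z
      rw [h7, Submodule.mem_bot] at h8
      show w z = (-1 : F) • z
      rw [neg_one_smul]
      exact eq_neg_of_add_eq_zero_right h8
    · apply hws
      refine ⟨1, ?_⟩
      have h7 := Nat.le_of_dvd h0 hd
      have h8 : E w (1 : F) = ⊤ := Submodule.eq_top_of_finrank_eq (by rw [B_dim]; omega)
      rw [one_smul]
      exact E_eq_top h8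
  · -- element of order 4
    have hord : orderOf ((Fintype.card F : ℕ) : ZMod 13) = 3 := by rw [hF, o13]
    have hno : ¬ Even (orderOf ((Fintype.card F : ℕ) : ZMod 13)) := by rw [hord]; decide
    obtain ⟨U, hUM, hU, hUf⟩ := hPO.ss.ex ⊤ (fun _ _ => trivial) top_ne_bot (by rw [disjoint_iff, inf_comm]; exact (top_inf_eq _).trans hE)
    have hUw : Inv w U := stable hPO hno (M := ⊤) hPO.nd (by rw [top_inf_eq]; exact hE) (by rw [finrank_top, B_dim, hord]) hwI hyw.symm (fun _ _ => trivial) le_top hU hUf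
    rw [hord] at hUf
    have h3 : (w.restrict hUw) * (w.restrict hUw) = (-1 : F) • (1 : Module.End F U) := by
      apply LinearMap.ext
      intro x
      apply Subtype.ext
      have := LinearMap.congr_fun hw2 (x : Fin 3 ⊕ Fin 3 → F)
      exact this
    have h4 := congrArg LinearMap.det h3
    rw [LinearMap.det_smul, hUf, map_one, Module.End.mul_eq_comp, LinearMap.det_comp] at h4
    obtain ⟨d, hd⟩ : ∃ d, LinearMap.det (w.restrict hUw) = d := ⟨_, rfl⟩
    rw [hd] at h4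
    have h5 : d ^ 3 = d := by
      have := FiniteField.pow_card d
      rwa [hF] at this
    have h7 : (2 : F) * d = 0 := by linear_combination (-1 : F) * h5 + d * h4
    have h8 : d = 0 := (mul_eq_zero.1 h7).resolve_left h2
    rw [h8] at h4
    norm_num at h4

theorem q_rs {r s k l ηk ηl : ℕ} (hr : r.Prime) (hs : s.Prime) (hr2 : r ≠ 2) (hs2 : s ≠ 2) (hr3 : r ≠ 3) (hs3 : s ≠ 3)
    (hrs : r ≠ s) (hsG : s ∣ Nat.card (Cfsg.PSp 3 F)) (hk : k = orderOf ((3 : ℕ) : ZMod r)) (hl : l = orderOf ((3 : ℕ) : ZMod s))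
    (hηk : (Odd k ∧ ηk = k) ∨ (Even k ∧ 2 * ηk = k)) (hηl : (Odd l ∧ ηl = l) ∨ (Even l ∧ 2 * ηl = l)) (hkl : ηk ≤ ηl)
    (h : 3 < ηk + ηl ∧ ¬ ∃ t : ℕ, Odd t ∧ l = k * t) : ¬ ∃ g : Cfsg.PSp 3 F, orderOf g = r * s := by
  have hc := charThree hF
  exact (rs_iff (F := F) (p := 3) (n := 3) Nat.prime_three hc (by norm_num) hr hs hr2 hs2 hr3 hs3 hrs hsG (by rw [hF]; exact hk) (by rw [hF]; exact hl)
    hηk hηl hkl).2 h

theorem card_psp : Nat.card (Cfsg.PSp 3 F) = 4585351680 := by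
  have h2 := two_ne hF
  have h := Subgroup.card_eq_card_quotient_mul_card_subgroup (Subgroup.center (Matrix.symplecticGroup (Fin 3) F))
  have hcen : Nat.card (Subgroup.center (Matrix.symplecticGroup (Fin 3) F)) = 2 := by
    rw [ClSymp3.card_center hF 3 (by norm_num)]
    rfl
  rw [hcen, ClSympOrd.card_symplectic, hF] at h
  have e : 3 ^ (3 ^ 2) * ∏ i ∈ Finset.range 3, (3 ^ (2 * (i + 1)) - 1) = 9170703360 := by
    simp [Finset.prod_range_succ]
  rw [e] at h
  have h' : Nat.card (Cfsg.PSp 3 F) * 2 = 9170703360 := h.symm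
  omega

theorem pspec : Spec13 (Cfsg.PSp 3 F) := by
  have hc := charThree hF
  have hcard := card_psp hF
  refine ⟨?_, p6 hF, p10 hF, p14 hF, ?_, fun h => q26 hF h, ?_, ?_, ?_, ?_, ?_⟩
  · intro r hr
    rw [hcard, show 4585351680 = 2 ^ 9 * (3 ^ 9 * (5 * (7 * 13))) by norm_num]
    constructor
    · intro h
      rcases (Nat.Prime.dvd_mul hr).1 h with h | h
      · exact Or.inl ((Nat.prime_dvd_prime_iff_eq hr Nat.prime_two).1 (hr.dvd_of_dvd_pow h))
      rcases (Nat.Prime.dvd_mul hr).1 h with h | h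
      · exact Or.inr (Or.inl ((Nat.prime_dvd_prime_iff_eq hr Nat.prime_three).1 (hr.dvd_of_dvd_pow h)))
      rcases (Nat.Prime.dvd_mul hr).1 h with h | h
      · exact Or.inr (Or.inr (Or.inl ((Nat.prime_dvd_prime_iff_eq hr (by norm_num)).1 h)))
      rcases (Nat.Prime.dvd_mul hr).1 h with h | h
      · exact Or.inr (Or.inr (Or.inr (Or.inl ((Nat.prime_dvd_prime_iff_eq hr (by norm_num)).1 h))))
      · exact Or.inr (Or.inr (Or.inr (Or.inr ((Nat.prime_dvd_prime_iff_eq hr (by norm_num)).1 h))))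
    · rintro (rfl | rfl | rfl | rfl | rfl) <;> norm_num
  · by_contra hcon
    have h1 : 5 * 3 ∉ Set.range (orderOf : Cfsg.PSp 3 F → ℕ) := by
      rintro ⟨g, hg⟩
      exact hcon ⟨g, hg⟩
    have h2 := (rp_iff (F := F) (p := 3) (n := 3) Nat.prime_three hc (by norm_num) (r := 5) (by norm_num) (by norm_num) (by norm_num) (csz5 hF)).1 h1
    norm_num at h2
  · exact fun ⟨g, hg⟩ => (rp_iff (F := F) (p := 3) (n := 3) Nat.prime_three hc (by norm_num) (r := 7) (by norm_num) (by norm_num) (by norm_num) (csz7 hF)).2 (by norm_num) ⟨g, hg⟩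
  · exact fun ⟨g, hg⟩ => (rp_iff (F := F) (p := 3) (n := 3) Nat.prime_three hc (by norm_num) (r := 13) (by norm_num) (by norm_num) (by norm_num) (csz13 hF)).2 (by norm_num) ⟨g, hg⟩
  · exact q_rs hF (r := 5) (s := 7) (k := 4) (l := 6) (ηk := 2) (ηl := 3) (by norm_num) (by norm_num) (by norm_num) (by norm_num) (by norm_num) (by norm_num) (by norm_num)
      (by rw [hcard]; norm_num) o5.symm o7.symm (Or.inr ⟨by decide, rfl⟩) (Or.inr ⟨by decide, rfl⟩) (by norm_num) ⟨by norm_num, by rintro ⟨t, -, ht⟩; omega⟩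
  · exact q_rs hF (r := 5) (s := 13) (k := 4) (l := 3) (ηk := 2) (ηl := 3) (by norm_num) (by norm_num) (by norm_num) (by norm_num) (by norm_num) (by norm_num) (by norm_num)
      (by rw [hcard]; norm_num) o5.symm o13.symm (Or.inr ⟨by decide, rfl⟩) (Or.inl ⟨by decide, rfl⟩) (by norm_num) ⟨by norm_num, by rintro ⟨t, -, ht⟩; omega⟩
  · exact q_rs hF (r := 7) (s := 13) (k := 6) (l := 3) (ηk := 3) (ηl := 3) (by norm_num) (by norm_num) (by norm_num) (by norm_num) (by norm_num) (by norm_num) (by norm_num)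
      (by rw [hcard]; norm_num) o7.symm o13.symm (Or.inr ⟨by decide, rfl⟩) (Or.inl ⟨by decide, rfl⟩) (by norm_num) ⟨by norm_num, by rintro ⟨t, -, ht⟩; omega⟩

end Cfsg.Agent.Lib.H76PG
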