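import Cfsg.Agent.Lib.H76Nil
import Cfsg.Agent.Lib.AbCount3
import Cfsg.Agent.Lib.BlockDom

/-!
# Parity of the number of characters in a `2`-block with abelian defect group of order at most eight
-/

set_option autoImplicit false
set_option linter.all false

namespace Cfsg.Agent.Lib.H76Par

open Cfsg Cfsg.Agent.Lib.BlockRing Cfsg.Agent.Lib.BlockGA Cfsg.Agent.Lib.BlockIdem
open Cfsg.Agent.Lib.BlkIdem Cfsg.Agent.Lib.BlockAlg Cfsg.Agent.Lib.PairAlg Cfsg.Agent.Lib.PairMax
open Cfsg.Agent.Lib.BrauerPairs Cfsg.Agent.Lib.NormalPBlk Cfsg.Agent.Lib.DefPairs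
open Cfsg.Agent.Lib.BlkTransport Cfsg.Agent.Lib.BlkFus Cfsg.Agent.Lib.InducedPair
open Cfsg.Agent.Lib.BlockCount Cfsg.Agent.Lib.BlockPair Cfsg.Agent.Lib.PairCount
open Cfsg.Agent.Lib.AbFusion Cfsg.Agent.Lib.BlkNil Cfsg.Agent.Lib.AbCount Cfsg.Agent.Lib.H76Nil

universe u v

/-- orbits have size dividing the index -/
theorem card_orbit {G : Type u} [Group G] [Finite G] (T C : Subgroup G) (r : G)
    (hC : C ≤ Subgroup.centralizer ({r} : Set G)) :
    Nat.card {y : G // ∃ t ∈ T, t * r * t⁻¹ = y} ∣ C.relIndex T := by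
  have h1 : (Subgroup.centralizer ({r} : Set G)).relIndex T ∣ C.relIndex T := Subgroup.relIndex_dvd_of_le_left T hC
  refine dvd_trans (dvd_of_eq ?_) h1
  -- the bijection
  symm
  unfold Subgroup.relIndex Subgroup.index
  refine Nat.card_congr (Equiv.ofBijective (Quotient.lift (fun t : T =>
    (⟨(t : G) * r * (t : G)⁻¹, t, t.2, rfl⟩ : {y : G // ∃ t ∈ T, t * r * t⁻¹ = y})) ?_) ⟨?_, ?_⟩)
  · intro a b hab
    have h2 : a⁻¹ * b ∈ (Subgroup.centralizer ({r} : Set G)).subgroupOf T := QuotientGroup.leftRel_apply.1 hab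
    rw [Subgroup.mem_subgroupOf, Subgroup.mem_centralizer_singleton_iff] at h2
    apply Subtype.ext
    show (a : G) * r * (a : G)⁻¹ = (b : G) * r * (b : G)⁻¹
    have h3 : ((a : G)⁻¹ * b) * r = r * ((a : G)⁻¹ * b) := h2
    calc (a : G) * r * (a : G)⁻¹ = (a : G) * (r * ((a : G)⁻¹ * b)) * (b : G)⁻¹ := by group
      _ = (a : G) * (((a : G)⁻¹ * b) * r) * (b : G)⁻¹ := by rw [h3]
      _ = _ := by group
  · rintro ⟨a⟩ ⟨b⟩ hab
    have h2 : (a : G) * r * (a : G)⁻¹ = (b : G) * r * (b : G)⁻¹ := congrArg Subtype.val hab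
    apply Quotient.sound
    apply QuotientGroup.leftRel_apply.2
    rw [Subgroup.mem_subgroupOf, Subgroup.mem_centralizer_singleton_iff]
    show ((a : G)⁻¹ * b) * r = r * ((a : G)⁻¹ * b)
    calc ((a : G)⁻¹ * b) * r = (a : G)⁻¹ * ((b : G) * r * (b : G)⁻¹) * b := by group
      _ = (a : G)⁻¹ * ((a : G) * r * (a : G)⁻¹) * b := by rw [h2]
      _ = _ := by group
  · rintro ⟨y, t, ht, rfl⟩
    exact ⟨QuotientGroup.mk ⟨t, ht⟩, rfl⟩

variable {M : Ideal AlgInt} [hMm : M.IsMaximal] [hchar : CharP (Kf M) 2] [Fact (Nat.Prime 2)]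
  {G : Type u} [Group G] [Finite G] {B : Set (IrrCharacter G)} {P : Subgroup G} {c : MonoidAlgebra (Kf M) G}

/-- small abelian defect groups: the rank is odd -/
theorem odd_rank (hM : IsPModular 2 M) (h : AbMax 2 B P c) (h4 : Nat.card P ≤ 4) : Odd (blockRank 2 B) := by
  have hN : ∀ t ∈ stab (Subgroup.normalizer (P : Set G)) c, ∀ x ∈ P, t * x * t⁻¹ ∈ P := fun t ht x hx =>
    (Subgroup.mem_normalizer_iff.1 (stab_le _ _ ht) x).1 hx
  by_cases hV : IsKleinFour P
  · obtain ⟨h1, -, h3⟩ := h.klein hM hV _ rfl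
    rw [h3]
    rcases h1 with h1 | h1 <;> rw [h1] <;> decide
  · -- `P` is cyclic
    obtain ⟨n, hn⟩ := (IsPGroup.iff_card (p := 2) (G := P)).1 h.pair.1
    have hcyc : IsCyclic P := by
      rcases (by
        have : n < 3 := by
          by_contra hcon
          have : 2 ^ 3 ≤ 2 ^ n := Nat.pow_le_pow_right (by norm_num) (by omega)
          omega
        omega : n = 0 ∨ n = 1 ∨ n = 2) with rfl | rfl | rfl
      · rw [pow_zero] at hn
        have := Finite.card_le_one_iff_subsingleton.mp hn.le
        infer_instance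
      · exact isCyclic_of_prime_card (p := 2) (by rw [hn, pow_one])
      · by_contra hcyc
        apply hV
        have hc4 : Nat.card P = 4 := by rw [hn]; norm_num
        refine ⟨hc4, ?_⟩
        have h1 : Monoid.exponent P ∣ 2 := by
          apply Monoid.exponent_dvd_of_forall_pow_eq_one
          intro x
          have h2 : orderOf x ∣ 4 := by rw [← hc4]; exact orderOf_dvd_natCard x
          have h3 : orderOf x ≠ 4 := fun h => hcyc (isCyclic_of_orderOf_eq_card x (h.trans hc4.symm))
          have h4 : orderOf x ≤ 4 := Nat.le_of_dvd (by norm_num) h2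
          rw [← orderOf_dvd_iff_pow_eq_one]
          have h5 : 0 < orderOf x := orderOf_pos x
          interval_cases (orderOf x)
          · norm_num
          · norm_num
          · omega
          · omega
        have h3 : Monoid.exponent P ≠ 1 := by
          intro h
          have := Monoid.exp_eq_one_iff.1 h
          exact hcyc inferInstance
        exact ((Nat.dvd_prime Nat.prime_two).1 h1).resolve_left h3
    have h1 : blockRank 2 B = 1 := by
      refine (AbMax.nilpotent hM _ le_rfl h ?_).1
      intro t ht x hx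
      have h2 : t ∈ Subgroup.centralizer (P : Set G) := by
        apply AbDefect.mem_centralizer_of_pow h.pair h.max h.ab ht (n := 1)
        rw [pow_one]
        obtain ⟨g, hg⟩ := hcyc.exists_generator
        have hgt : t * g * t⁻¹ ∈ P := hN t ht g g.2
        obtain ⟨j, hj⟩ := Subgroup.mem_zpowers_iff.1 (hg ⟨t * g * t⁻¹, hgt⟩)
        have hj' : t * g * t⁻¹ = (g : G) ^ j := by
          have := congrArg (fun z : P => (z : G)) hj
          simpa using this.symm
        have hord : orderOf (g : G) = Nat.card P := by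
          rw [Subgroup.orderOf_coe, orderOf_eq_card_of_forall_mem_zpowers hg]
        -- `j` is odd unless `g` is trivial
        have hz : ∀ i : ℤ, t * (g : G) ^ i * t⁻¹ = (t * g * t⁻¹) ^ i := by
          intro i
          have := (map_zpow (MulAut.conj t) (g : G) i)
          simpa using this
        have h5 : t * (t * g * t⁻¹) * t⁻¹ = (g : G) ^ (j * j) := by
          calc t * (t * g * t⁻¹) * t⁻¹ = t * (g : G) ^ j * t⁻¹ := by rw [hj']
            _ = (t * g * t⁻¹) ^ j := hz j
            _ = ((g : G) ^ j) ^ j := by rw [hj']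
            _ = _ := (zpow_mul _ _ _).symm
        obtain ⟨i, hi⟩ : ∃ i : ℤ, (g : G) ^ (j * i) = g := by
          have hgt' : t⁻¹ * g * t⁻¹⁻¹ ∈ P := hN t⁻¹ (inv_mem ht) g g.2
          obtain ⟨i, hi⟩ := Subgroup.mem_zpowers_iff.1 (hg ⟨t⁻¹ * g * t⁻¹⁻¹, hgt'⟩)
          have hi' : (g : G) ^ i = t⁻¹ * g * t⁻¹⁻¹ := by
            have := congrArg (fun z : P => (z : G)) hi
            simpa using this
          refine ⟨i, ?_⟩
          rw [zpow_mul, ← hj', ← hz, hi']
          group
        have h6 : (g : G) ^ (j * j) = g := by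
          have h7 : ((Nat.card P : ℕ) : ℤ) ∣ j * i - 1 := by
            have h8 : (g : G) ^ (j * i) = (g : G) ^ (1 : ℤ) := by rw [hi, zpow_one]
            rw [zpow_eq_zpow_iff_modEq, hord] at h8
            exact (Int.modEq_iff_dvd.1 h8.symm)
          have h8 : ((Nat.card P : ℕ) : ℤ) ∣ j * j - 1 := by
            have hc : Nat.card P = 1 ∨ Nat.card P = 2 ∨ Nat.card P = 4 := by
              rcases (by
                have : n < 3 := by
                  by_contra hcon
                  have : 2 ^ 3 ≤ 2 ^ n := Nat.pow_le_pow_right (by norm_num) (by omega)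
                  omega
                omega : n = 0 ∨ n = 1 ∨ n = 2) with rfl | rfl | rfl
              · left; simpa using hn
              · right; left; simpa using hn
              · right; right; simpa using hn
            have hodd : Nat.card P ≠ 1 → j % 2 = 1 := by
              intro hne
              by_contra hcon
              obtain ⟨l, hl⟩ : ∃ l, j = 2 * l := ⟨j / 2, by omega⟩
              have h9 : (2 : ℤ) ∣ j * i - 1 := by
                refine dvd_trans ?_ h7
                rcases hc with hc | hc | hc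
                · exact absurd hc hne
                · rw [hc]; norm_num
                · rw [hc]; norm_num
              obtain ⟨q, hq⟩ := h9
              have h10 : j * i = 2 * (l * i) := by rw [hl]; ring
              omega
            rcases hc with hc | hc | hc
            · rw [hc]; simp
            · have hodd := hodd (by omega)
              obtain ⟨i, hi⟩ : ∃ i, j = 2 * i + 1 := ⟨j / 2, by omega⟩
              rw [hc]
              exact ⟨2 * i * i + 2 * i, by rw [hi]; push_cast; ring⟩
            · have hodd := hodd (by omega)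
              obtain ⟨i, hi⟩ : ∃ i, j = 2 * i + 1 := ⟨j / 2, by omega⟩
              rw [hc]
              exact ⟨i * i + i, by rw [hi]; push_cast; ring⟩
          obtain ⟨i, hi⟩ := h8
          have h9 : j * j = Nat.card P * i + 1 := by omega
          rw [h9, zpow_add, zpow_mul, zpow_natCast, ← hord, pow_orderOf_eq_one, one_zpow, one_mul, zpow_one]
        have h7 : t ^ 2 * (g : G) * (t ^ 2)⁻¹ = g := by
          have e : t ^ 2 * (g : G) * (t ^ 2)⁻¹ = t * (t * g * t⁻¹) * t⁻¹ := by
            rw [sq, mul_inv_rev]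
            simp only [mul_assoc]
          rw [e, h5, h6]
        rw [Subgroup.mem_centralizer_iff]
        intro y hy
        obtain ⟨i, hi⟩ := Subgroup.mem_zpowers_iff.1 (hg ⟨y, hy⟩)
        have hi' : (g : G) ^ i = y := by
          have := congrArg (fun z : P => (z : G)) hi
          simpa using this
        have h8 : Commute (t ^ 2) (g : G) := by
          show t ^ 2 * (g : G) = g * t ^ 2
          calc t ^ 2 * (g : G) = (t ^ 2 * (g : G) * (t ^ 2)⁻¹) * t ^ 2 := by group
            _ = _ := by rw [h7]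
        have h9 := h8.zpow_right i
        rw [hi'] at h9
        exact h9.eq.symm
      have h3 := Subgroup.mem_centralizer_iff.1 h2 x hx
      rw [← h3]; group
    rw [h1]; decide

/-- the local ranks are odd -/
theorem odd_local (hM : IsPModular 2 M) (h : AbMax 2 B P c) (h8 : Nat.card P ≤ 8) {u : G} (hu : u ∈ P) (hu1 : u ≠ 1) :
    Odd (lq 2 P c (Subgroup.zpowers u)) := by
  rw [lq_zpowers, lr]
  have h1 := h.res hu
  set H := Subgroup.centralizer ({u} : Set G) with hH
  have huH : u ∈ H := Subgroup.mem_centralizer_singleton_iff.2 rfl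
  set u' : H := ⟨u, huH⟩ with hu'
  set Q : Subgroup H := Subgroup.zpowers u' with hQ
  have hcen : ∀ g : H, u' * g = g * u' := by
    intro g
    apply Subtype.ext
    exact (Subgroup.mem_centralizer_singleton_iff.1 g.2).symm
  have hQn : Q.Normal := by
    constructor
    intro n hn g
    obtain ⟨i, rfl⟩ := Subgroup.mem_zpowers_iff.1 hn
    have : Commute u' g := hcen g
    have h2 := (this.zpow_left i).eq
    rw [← h2, mul_inv_cancel_right]
    exact hn
  have hQp : IsPGroup 2 Q := by
    obtain ⟨k, hk⟩ := orderOf_mem h.pair.1 hu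
    apply IsPGroup.of_card (n := k)
    rw [hQ, Nat.card_zpowers, ← hk]
    exact Subgroup.orderOf_mk u huH
  have hQC : Subgroup.centralizer (Q : Set H) = ⊤ := by
    rw [eq_top_iff]
    intro g _
    rw [Subgroup.mem_centralizer_iff]
    intro y hy
    obtain ⟨i, rfl⟩ := Subgroup.mem_zpowers_iff.1 hy
    have : Commute u' g := hcen g
    exact (this.zpow_left i).eq
  obtain ⟨Bbar, hBbar, -, hrk, hD, -⟩ := BlockDom.exists_dom hM hQp (by rw [hQC]; exact sup_top_eq _) h1.blk
  show Odd (blockRank 2 (bu 2 P c u))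
  rw [hrk]
  have h2 := hD _ h1.isDefectGroup
  have hQP : Q ≤ P.subgroupOf H := by
    rw [hQ, Subgroup.zpowers_le, Subgroup.mem_subgroupOf]
    exact hu
  have hab : ∀ x ∈ (P.subgroupOf H).map (QuotientGroup.mk' Q), ∀ y ∈ (P.subgroupOf H).map (QuotientGroup.mk' Q),
      x * y = y * x := by
    rintro _ ⟨x, hx, rfl⟩ _ ⟨y, hy, rfl⟩
    rw [← map_mul, ← map_mul]
    congr 1
    exact (Subgroup.mem_centralizer_iff.1 (h1.ab hx) y hy).symm
  obtain ⟨c', hc'⟩ := exists_abMax hBbar h2 hab
  apply odd_rank hM hc'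
  have h3 := Cores.card_map_mk (N := Q) (H := P.subgroupOf H) hQP
  have h4 : Nat.card (P.subgroupOf H) = Nat.card P :=
    Nat.card_congr (Subgroup.subgroupOfEquivOfLe (h.P_le hu)).toEquiv
  have h5 : 2 ≤ Nat.card Q := by
    have : Nat.card Q ≠ 1 := by
      intro h6
      rw [Subgroup.card_eq_one, hQ, Subgroup.zpowers_eq_bot] at h6
      exact hu1 (congrArg Subtype.val h6)
    have := Nat.card_pos (α := Q)
    omega
  have h3' : Nat.card ((P.subgroupOf H).map (QuotientGroup.mk' Q)) * Nat.card Q = Nat.card P := by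
    rw [mul_comm]; exact h3.trans h4
  by_contra hcon
  change ¬ (Nat.card ((P.subgroupOf H).map (QuotientGroup.mk' Q)) ≤ 4) at hcon
  have h6 : 5 * 2 ≤ Nat.card ((P.subgroupOf H).map (QuotientGroup.mk' Q)) * Nat.card Q :=
    Nat.mul_le_mul (by omega) h5
  omega

/-- **the number of characters has the parity of the order of the defect group** -/
theorem parity (hM : IsPModular 2 M) (h : AbMax 2 B P c) (h8 : Nat.card P ≤ 8) (hl : Odd (blockRank 2 B)) :
    Nat.card B % 2 = Nat.card P % 2 := by
  classical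
  have := Fintype.ofFinite G
  have hN : ∀ t ∈ stab (Subgroup.normalizer (P : Set G)) c, ∀ x ∈ P, t * x * t⁻¹ ∈ P := fun t ht x hx =>
    (Subgroup.mem_normalizer_iff.1 (stab_le _ _ ht) x).1 hx
  obtain ⟨R, hR, hRrep⟩ := exists_orbit_reps (P := P) (stab (Subgroup.normalizer (P : Set G)) c) hN
  have h1 := h.card_eq hM R hR hRrep
  have hodd : ∀ r ∈ R, lq 2 P c (Subgroup.zpowers r) % 2 = 1 := by
    intro r hr
    rw [← Nat.odd_iff]
    by_cases hr1 : r = 1
    · rw [hr1, Subgroup.zpowers_one_eq_bot, h.lq_bot]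
      exact hl
    · exact odd_local hM h h8 (hR r hr) hr1
  have h2 : Nat.card B % 2 = R.card % 2 := by
    rw [h1, Finset.sum_nat_mod, Finset.sum_congr rfl hodd, Finset.sum_const, smul_eq_mul, mul_one]
  rw [h2]
  -- the orbits
  choose! f hf using hRrep
  have h3 : (Finset.univ.filter (fun x => x ∈ P)).card = Nat.card P := by
    rw [Nat.card_eq_fintype_card, Fintype.card_subtype]
  have h4 := Finset.card_eq_sum_card_fiberwise (f := f) (s := Finset.univ.filter (fun x => x ∈ P)) (t := R) (by
    intro x hx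
    rw [Finset.mem_coe, Finset.mem_filter] at hx
    exact (hf x hx.2).1.1)
  rw [← h3, h4, Finset.sum_nat_mod]
  have h5 : ∀ r ∈ R, ((Finset.univ.filter (fun x => x ∈ P)).filter (fun x => f x = r)).card % 2 = 1 := by
    intro r hr
    rw [← Nat.odd_iff]
    have h6 := card_orbit (stab (Subgroup.normalizer (P : Set G)) c) (Subgroup.centralizer (P : Set G)) r
      (Subgroup.centralizer_le (Set.singleton_subset_iff.2 (hR r hr)))
    have h7 : ((Finset.univ.filter (fun x => x ∈ P)).filter (fun x => f x = r)).card =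
        Nat.card {y : G // ∃ t ∈ stab (Subgroup.normalizer (P : Set G)) c, t * r * t⁻¹ = y} := by
      rw [Nat.card_eq_fintype_card, Fintype.card_subtype]
      congr 1
      ext y
      simp only [Finset.mem_filter, Finset.mem_univ, true_and]
      constructor
      · rintro ⟨hy, rfl⟩
        obtain ⟨⟨-, t, ht, hty⟩, -⟩ := hf y hy
        exact ⟨t⁻¹, inv_mem ht, by rw [← hty]; group⟩
      · rintro ⟨t, ht, rfl⟩
        have hy : t * r * t⁻¹ ∈ P := hN t ht r (hR r hr)
        refine ⟨hy, ?_⟩
        symm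
        exact (hf _ hy).2 r ⟨hr, t⁻¹, inv_mem ht, by group⟩
    rw [h7]
    have h8 := h.not_dvd_relIndex
    rw [← Nat.not_even_iff_odd]
    intro h9
    exact h8 (dvd_trans h9.two_dvd h6)
  rw [Finset.sum_congr rfl h5, Finset.sum_const, smul_eq_mul, mul_one]

end Cfsg.Agent.Lib.H76Par
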