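import Cfsg.Agent.Lib.H76RO
import Mathlib.GroupTheory.Transfer

set_option autoImplicit false

/-!
Real irreducible characters of odd degree: Clifford reduction (helper76), used by S4581.
-/

namespace Cfsg.Agent.Lib.H76RO

open scoped ComplexConjugate
open Cfsg Cfsg.Agent.Lib Cfsg.Agent.Lib.CharBasic Cfsg.Agent.Lib.Clifford Cfsg.Agent.Lib.CliffordCorr
open Cfsg.Agent.Lib.H76RealExt Cfsg.Agent.Lib.H76Ker

universe u v

variable {G : Type u} [Group G] {P : Type v} [Group P]

/-- a linear constituent of a pulled back character is trivial on the kernel -/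
theorem eq_one_of_ker [Finite G] [Fintype P] (i : P →* G) {ψ : P → ℂ} (hψ : IsIrrCharacter P ψ) {χ : G → ℂ}
    (hχ : IsCharacter G χ) (h : classInner (fun x => χ (i x)) ψ ≠ 0) {x : P} (hx : i x = 1) : ψ x = ψ 1 :=
  of_constituent (hχ.comp i) hψ h (by simp only [hx, map_one])

/-- restricting to a normal subgroup in the image -/
theorem restrict_ne_zero [Finite G] [Fintype P] (V : Subgroup G) [Fintype V] (i : P →* G) (hV : V ≤ i.range)
    {ψ : P → ℂ} (hψ : IsIrrCharacter P ψ) (lam : V → ℂ)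
    (hl : ∀ (x : P) (hx : i x ∈ V), lam ⟨i x, hx⟩ = ψ x)
    {χ : G → ℂ} (hχ : IsCharacter G χ) (h : classInner (fun x => χ (i x)) ψ ≠ 0) :
    classInner (fun v : V => χ v) lam ≠ 0 := by
  classical
  obtain ⟨b, hb, hb2⟩ := Clifford.degree_le_of_constituent (hχ.comp i) hψ h
  have := Fintype.ofFinite (V.comap i)
  let f : V.comap i →* V := (i.comp (V.comap i).subtype).codRestrict V (fun x => x.2)
  have hf : Function.Surjective f := by
    intro v
    obtain ⟨x, hx⟩ := hV v.2
    exact ⟨⟨x, by rw [Subgroup.mem_comap, hx]; exact v.2⟩, Subtype.ext hx⟩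
  rw [← classInner_comp_hom hf]
  have e1 : (fun x : V.comap i => lam (f x)) = fun x : V.comap i => ψ (x : P) := by
    funext x
    exact hl x x.2
  have e2 : (fun x : V.comap i => χ (f x)) = (fun x : V.comap i => ψ (x : P)) + fun x : V.comap i => b (x : P) := by
    funext x
    exact congrFun hb2 (x : P)
  rw [e1, e2]
  apply classInner_add_ne_zero (hψ.isCharacter.restrict _) (hb.restrict _) (hψ.isCharacter.restrict _)
  intro h0
  have h1 := classInner_self_eq_zero.1 h0
  have h2 := congrFun h1 1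
  exact hψ.one_ne_zero h2

theorem exists_lam {A : Type*} [Group A] (i : P →* G) (ν : P →* A) (hker : ∀ x, i x = 1 → ν x = 1) (V : Subgroup G)
    (hV : V ≤ i.range) : ∃ lam : V →* A, ∀ (x : P) (hx : i x ∈ V), lam ⟨i x, hx⟩ = ν x := by
  have hs : Function.Surjective i.rangeRestrict := i.rangeRestrict_surjective
  let g : i.range →* A := i.rangeRestrict.liftOfSurjective hs ⟨ν, fun x hx => by
    rw [MonoidHom.mem_ker] at hx ⊢
    exact hker x (congrArg Subtype.val hx)⟩
  refine ⟨g.comp (Subgroup.inclusion hV), fun x hx => ?_⟩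
  have h1 : g (i.rangeRestrict x) = ν x := MonoidHom.liftOfRightInverse_comp_apply _ _ _ _ x
  rw [← h1]
  rfl

/-- a sign character of a subgroup of odd index whose restriction to a normal subgroup is invariant: the restriction
extends to the whole group. -/
theorem exists_mu [Finite G] (V Q : Subgroup G) [hV : V.Normal] (hVQ : V ≤ Q) (hQ : Odd Q.index) (ν : Q →* ℤˣ)
    (hinv : ∀ (g v : G) (hv : v ∈ V), ν ⟨g * v * g⁻¹, hVQ (hV.conj_mem v hv g)⟩ = ν ⟨v, hVQ hv⟩) :
    ∃ μ : G →* ℤˣ, ∀ (v : G) (hv : v ∈ V), μ v = ν ⟨v, hVQ hv⟩ := by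
  classical
  refine ⟨ν.transfer, fun v hv => ?_⟩
  obtain ⟨T⟩ : Nonempty Q.LeftTransversal := inferInstance
  rw [MonoidHom.transfer_def ν T v]
  unfold Subgroup.leftTransversals.diff
  have h1 : ∀ q : G ⧸ Q, v⁻¹ • q = q := by
    intro q
    obtain ⟨g, rfl⟩ := QuotientGroup.mk_surjective q
    show ((v⁻¹ * g : G) : G ⧸ Q) = (g : G ⧸ Q)
    rw [eq_comm, QuotientGroup.eq]
    apply hVQ
    have := hV.conj_mem (v⁻¹) (V.inv_mem hv) g⁻¹
    simpa [mul_assoc] using this
  have h2 : ∀ q : G ⧸ Q, (((v • T).2.leftQuotientEquiv q : ((v • T : Q.LeftTransversal) : Set G)) : G) =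
      v * (T.2.leftQuotientEquiv q : (T : Set G)) := by
    intro q
    rw [Subgroup.smul_apply_eq_smul_apply_inv_smul, h1]
    rfl
  have h3 : ∀ q : G ⧸ Q, ν ⟨((T.2.leftQuotientEquiv q : (T : Set G)) : G)⁻¹ *
      ((v • T).2.leftQuotientEquiv q : ((v • T : Q.LeftTransversal) : Set G)),
        QuotientGroup.leftRel_apply.mp <|
          Quotient.exact' ((T.2.leftQuotientEquiv.symm_apply_apply q).trans
            ((v • T).2.leftQuotientEquiv.symm_apply_apply q).symm)⟩ = ν ⟨v, hVQ hv⟩ := by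
    intro q
    have h4 := hinv ((T.2.leftQuotientEquiv q : (T : Set G)) : G)⁻¹ v hv
    rw [← h4]
    congr 1
    apply Subtype.ext
    show ((T.2.leftQuotientEquiv q : (T : Set G)) : G)⁻¹ *
      ((v • T).2.leftQuotientEquiv q : ((v • T : Q.LeftTransversal) : Set G)) =
      ((T.2.leftQuotientEquiv q : (T : Set G)) : G)⁻¹ * v * ((T.2.leftQuotientEquiv q : (T : Set G)) : G)⁻¹⁻¹
    rw [h2, inv_inv, mul_assoc]
  let _ := Q.fintypeQuotientOfFiniteIndex
  refine (Finset.prod_congr rfl (fun q _ => h3 q)).trans ?_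
  rw [Finset.prod_const, Finset.card_univ]
  have h5 : Odd (Fintype.card (G ⧸ Q)) := by
    have h6 : Fintype.card (G ⧸ Q) = Q.index := by
      rw [← Nat.card_eq_fintype_card]; rfl
    rw [h6]; exact hQ
  obtain ⟨k, hk⟩ := h5
  rw [hk, pow_succ, pow_mul, Int.units_sq, one_pow, one_mul]

end Cfsg.Agent.Lib.H76RO
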