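import Cfsg.Agent.Lib.H76RO2
import Cfsg.Agent.Lib.Cores3

set_option autoImplicit false

/-!
Real irreducible characters of odd degree: Clifford reduction (helper76), used by S4581.
-/

namespace Cfsg.Agent.Lib.H76RO

open scoped ComplexConjugate Pointwise
open Cfsg Cfsg.Agent.Lib Cfsg.Agent.Lib.CharBasic Cfsg.Agent.Lib.Clifford Cfsg.Agent.Lib.CliffordCorr
open Cfsg.Agent.Lib.H76RealExt Cfsg.Agent.Lib.H76Ker

universe u v

variable {G : Type u} [Group G] {P : Type v} [Group P]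

/-- multiplicities and the Clifford correspondence -/
theorem mult_eq [Fintype G] [Fintype P] (V : Subgroup G) [hV : V.Normal] [Fintype V] (T : Subgroup G) [Fintype T]
    (hVT : V ≤ T) (i : P →* G) (hiT : ∀ x, i x ∈ T) (hVi : V ≤ i.range) {ν : P → ℂ} (hν : IsIrrCharacter P ν)
    (lam : V → ℂ) (hlam : ∀ (x : P) (hx : i x ∈ V), lam ⟨i x, hx⟩ = ν x)
    {χ : G → ℂ} (hχ : IsIrrCharacter G χ) {ψ : T → ℂ} (hψ : IsIrrCharacter T ψ) (hind : indFun T ψ = χ)
    (hm : classInner (resTo V T hVT ψ) lam = classInner (fun v : V => χ v) lam) :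
    classInner (fun x => χ (i x)) ν = classInner (fun x => ψ (i.codRestrict T hiT x)) ν := by
  classical
  have h1 : classInner (fun t : T => χ t) ψ ≠ 0 := by
    have h2 := IndFun.frobenius_reciprocity T ψ χ hχ.isClassFunction
    rw [hind, hχ.classInner_self] at h2
    rw [← conj_classInner, ← h2, map_one]
    exact one_ne_zero
  obtain ⟨b, hb, hb2⟩ := Clifford.degree_le_of_constituent (hχ.isCharacter.restrict T) hψ h1
  have h3 : (fun x => χ (i x)) = (fun x => ψ (i.codRestrict T hiT x)) + fun x => b (i.codRestrict T hiT x) := by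
    funext x
    exact congrFun hb2 (i.codRestrict T hiT x)
  rw [h3, classInner_add_left]
  have h4 : classInner (fun x => b (i.codRestrict T hiT x)) ν = 0 := by
    by_contra h5
    have hfin : Fintype (V.subgroupOf T) := Fintype.ofFinite _
    have h6 := restrict_ne_zero (V.subgroupOf T) (i.codRestrict T hiT) (by
      intro t ht
      obtain ⟨x, hx⟩ := hVi (Subgroup.mem_subgroupOf.1 ht)
      exact ⟨x, Subtype.ext hx⟩) hν (fun v => lam (subEquiv V T hVT v)) (by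
      intro x hx
      exact hlam x (Subgroup.mem_subgroupOf.1 hx)) hb h5
    rw [classInner_resTo T hVT b lam] at h6
    have h7 : (fun v : V => χ v) = resTo V T hVT ψ + resTo V T hVT b := by
      funext v
      exact congrFun hb2 ⟨(v : G), hVT v.2⟩
    rw [h7, classInner_add_left] at hm
    apply h6
    linear_combination -hm
  rw [h4, add_zero]

/-- the real version of the Clifford correspondence -/
theorem clifford_real [Fintype G] (V : Subgroup G) [hV : V.Normal] [Fintype V] (lam : V →* ℤˣ) (T : Subgroup G) [Fintype T]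
    (hT : ∀ g, g ∈ T ↔ cj V g (sg lam) = sg lam) (hVT : V ≤ T)
    {χ : G → ℂ} (hχ : IsIrrCharacter G χ) {d : ℕ} (hd : χ 1 = d) (hodd : Odd d)
    (h1 : classInner (fun v : V => χ v) (sg lam) ≠ 0) :
    ∃ (ψ : T → ℂ) (e : ℕ), IsIrrCharacter T ψ ∧ ψ 1 = e ∧ Odd e ∧ indFun T ψ = χ ∧
      (∀ (v : G) (hv : v ∈ V), ψ ⟨v, hVT hv⟩ = ψ 1 * sg lam ⟨v, hv⟩) ∧
      classInner (resTo V T hVT ψ) (sg lam) = classInner (fun v : V => χ v) (sg lam) ∧
      ((∀ g, conj (χ g) = χ g) → ∀ t, conj (ψ t) = ψ t) := by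
  classical
  obtain ⟨ψ, h2, h3, h4⟩ := corr_surj hVT (isIrr_sg lam) hT hχ h1
  obtain ⟨e, he0, he⟩ := h2.exists_degree
  have h5 : d = T.index * e := by
    have h6 := IndFun.indFun_one T ψ
    rw [h3, hd, he] at h6
    have h7 : (d : ℂ) = ((T.index * e : ℕ) : ℂ) := by
      push_cast
      exact h6
    exact_mod_cast h7
  have h5' : Odd e := by
    rw [h5, Nat.odd_mul] at hodd
    exact hodd.2
  have h8 : classInner (resTo V T hVT ψ) (sg lam) ≠ 0 := by rw [h4]; exact h1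
  have h9 := resTo_eq_smul hVT h2 (isIrr_sg lam) (fun g hg => (hT g).1 hg) h8
  refine ⟨ψ, e, h2, he, h5', h3, ?_, h4, ?_⟩
  · intro v hv
    have h10 := congrFun h9 ⟨v, hv⟩
    have h11 := congrFun h9 1
    rw [Pi.smul_apply, smul_eq_mul] at h10 h11
    rw [sg_one, mul_one] at h11
    have h12 : resTo V T hVT ψ 1 = ψ 1 := rfl
    have h13 : resTo V T hVT ψ ⟨v, hv⟩ = ψ ⟨v, hVT hv⟩ := rfl
    rw [← h13, h10, ← h11, h12]
  · intro hr t
    have h10 : (fun t => conj (ψ t)) = ψ := by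
      apply corr_inj hVT (isIrr_sg lam) hT h2.conj h2 _ h8
      · funext g
        rw [← conj_indFun, h3, hr]
      · have h11 : resTo V T hVT (fun t => conj (ψ t)) = fun v => conj (resTo V T hVT ψ v) := rfl
        have h12 : sg lam = fun v => conj (sg lam v) := funext fun v => (conj_sg lam v).symm
        rw [h11, h12, classInner_conj_conj, ← conj_classInner]
        simpa using h8
    exact congrFun h10 t

/-- passage to `T / V` -/
theorem descend [Fintype G] (V : Subgroup G) [hV : V.Normal] (lam : V →* ℤˣ) (T : Subgroup G)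
    (hT : ∀ g, g ∈ T ↔ cj V g (sg lam) = sg lam) (hVT : V ≤ T) (μ : T →* ℤˣ)
    (hμ : ∀ (v : G) (hv : v ∈ V), μ ⟨v, hVT hv⟩ = lam ⟨v, hv⟩)
    {χ : G → ℂ} (hχ : IsIrrCharacter G χ) {d : ℕ} (hd : χ 1 = d) (hodd : Odd d) [Fintype V]
    (h1 : classInner (fun v : V => χ v) (sg lam) ≠ 0) :
    ∃ (ψ : T ⧸ V.subgroupOf T → ℂ) (e : ℕ), IsIrrCharacter (T ⧸ V.subgroupOf T) ψ ∧ Odd e ∧ ψ 1 = e ∧
      indFun T (fun t => sg μ t * ψ (t : T ⧸ V.subgroupOf T)) = χ ∧
      ((∀ g, conj (χ g) = χ g) → ∀ t, conj (ψ t) = ψ t) ∧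
      ∀ (P : Type v) [Group P] [Fintype P] (i : P →* G) (hiT : ∀ x, i x ∈ T), V ≤ i.range → ∀ (ν : P →* ℤˣ),
        (∀ x (hx : i x ∈ V), lam ⟨i x, hx⟩ = ν x) →
        classInner (fun x => χ (i x)) (sg ν) =
          classInner (fun x => ψ ((i.codRestrict T hiT x : T) : T ⧸ V.subgroupOf T))
            (sg (ν * μ.comp (i.codRestrict T hiT))) := by
  classical
  have := Fintype.ofFinite T
  obtain ⟨ψ₁, e, h2, h3, h4, h5, h6, h7, h8⟩ := clifford_real V lam T hT hVT hχ hd hodd h1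
  have hmul : IsIrrCharacter T (fun t => sg μ t * ψ₁ t) := by
    have h9 := h2.mul_linear (isIrr_sg μ).isCharacter (sg_one μ)
    have h10 : (fun t => sg μ t * ψ₁ t) = ψ₁ * sg μ := by
      funext t
      rw [Pi.mul_apply, mul_comm]
    rw [h10]
    exact h9
  obtain ⟨ψ, h9, h10⟩ := hmul.deflate (V.subgroupOf T) (by
    intro v hv
    have hv' := Subgroup.mem_subgroupOf.1 hv
    have e1 : ψ₁ v = ψ₁ 1 * sg lam ⟨(v : G), hv'⟩ := h6 v hv'
    have e2 : sg μ v = sg lam ⟨(v : G), hv'⟩ := by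
      rw [sg_eq_iff]
      exact hμ v hv'
    rw [e1, e2, sg_one, one_mul]
    have e3 := sg_mul_self lam ⟨(v : G), hv'⟩
    linear_combination ψ₁ 1 * e3)
  refine ⟨ψ, e, h9, h4, ?_, ?_, ?_, ?_⟩
  · have := h10 1
    rw [QuotientGroup.mk_one] at this
    rw [this, sg_one, one_mul, h3]
  · rw [← h5]
    congr 1
    funext t
    rw [h10, ← mul_assoc, sg_mul_self, one_mul]
  · intro hr t
    obtain ⟨t, rfl⟩ := QuotientGroup.mk_surjective t
    rw [h10, map_mul, conj_sg, h8 hr]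
  · intro P _ _ i hiT hVi ν hν
    rw [mult_eq V T hVT i hiT hVi (isIrr_sg ν) (sg lam) (fun x hx => by rw [sg_eq_iff]; exact hν x hx) hχ h2 h5 h7]
    rw [classInner_def, classInner_def]
    congr 1
    apply Finset.sum_congr rfl
    intro x _
    rw [h10, sg_mul, map_mul, conj_sg, conj_sg]
    have e4 : sg (μ.comp (i.codRestrict T hiT)) x = sg μ (i.codRestrict T hiT x) := rfl
    rw [e4]
    have e5 := sg_mul_self μ (i.codRestrict T hiT x)
    linear_combination (-(ψ₁ (i.codRestrict T hiT x) * sg ν x)) * e5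

theorem exists_conj_le [Finite G] {R Q : Subgroup G} (hR : IsPGroup 2 R) (hQ : IsPGroup 2 Q) (hQi : ¬ 2 ∣ Q.index) :
    ∃ g : G, ∀ r ∈ R, g * r * g⁻¹ ∈ Q := by
  obtain ⟨S, hS⟩ := hR.exists_le_sylow
  let Q' : Sylow 2 G := hQ.toSylow hQi
  obtain ⟨g, hg⟩ := MulAction.exists_smul_eq G S Q'
  refine ⟨g, fun r hr => ?_⟩
  have h1 : g * r * g⁻¹ ∈ (g • S : Sylow 2 G) := by
    have h2 : MulAut.conj g • r ∈ MulAut.conj g • (S : Subgroup G) := Subgroup.smul_mem_pointwise_smul r _ _ (hS hr)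
    exact h2
  rw [hg] at h1
  exact h1

theorem normal_le [Finite G] {V Q : Subgroup G} [hVn : V.Normal] (hV : IsPGroup 2 V) (hQ : IsPGroup 2 Q)
    (hQi : ¬ 2 ∣ Q.index) : V ≤ Q := by
  obtain ⟨g, hg⟩ := exists_conj_le hV hQ hQi
  intro v hv
  have h1 := hg (g⁻¹ * v * g⁻¹⁻¹) (hVn.conj_mem v hv g⁻¹)
  simpa [mul_assoc] using h1

theorem exists_conj_mod [Finite G] (V R Q : Subgroup G) [V.Normal] (hR : IsPGroup 2 R) (hQ : IsPGroup 2 Q)
    (hQi : ¬ 2 ∣ Q.index) (h : ∀ r ∈ R, ∃ q ∈ Q, q⁻¹ * r ∈ V) : ∃ v ∈ V, ∀ r ∈ R, v * r * v⁻¹ ∈ Q := by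
  have hRX : R ≤ Q ⊔ V := by
    intro r hr
    obtain ⟨q, hq, hv⟩ := h r hr
    have h1 : r = q * (q⁻¹ * r) := by group
    rw [h1]
    exact mul_mem (Subgroup.mem_sup_left hq) (Subgroup.mem_sup_right hv)
  have hQX : Q ≤ Q ⊔ V := le_sup_left
  obtain ⟨x, hx⟩ := exists_conj_le (G := (Q ⊔ V : Subgroup G)) (R := R.subgroupOf (Q ⊔ V)) (Q := Q.subgroupOf (Q ⊔ V))
    (hR.comap_of_injective (Q ⊔ V).subtype (Subgroup.subtype_injective _))
    (hQ.comap_of_injective (Q ⊔ V).subtype (Subgroup.subtype_injective _))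
    (fun hd => hQi (hd.trans (Subgroup.relIndex_dvd_index_of_le hQX)))
  obtain ⟨q, hq, v, hv, hqv⟩ := Subgroup.mem_sup_of_normal_right.1 x.2
  refine ⟨v, hv, fun r hr => ?_⟩
  have h2 := hx ⟨r, hRX hr⟩ (Subgroup.mem_subgroupOf.2 hr)
  rw [Subgroup.mem_subgroupOf] at h2
  have h3 : (x : G) * r * (x : G)⁻¹ ∈ Q := h2
  rw [← hqv] at h3
  have h4 := mul_mem (mul_mem (inv_mem hq) h3) hq
  have h5 : q⁻¹ * (q * v * r * (q * v)⁻¹) * q = v * r * v⁻¹ := by group
  rwa [h5] at h4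

/-- a nontrivial solvable group has a nontrivial normal subgroup which is a `2`-group or has odd order -/
theorem exists_normal_section [Finite G] [Group.IsSolvable G] (hG : Nontrivial G) :
    ∃ V : Subgroup G, V.Normal ∧ V ≠ ⊥ ∧ (Odd (Nat.card V) ∨ IsPGroup 2 V) := by
  obtain ⟨V, hVn, hV1, -, hmin⟩ := Cores.exists_minNormal_le (G := G) (K := ⊤) inferInstance (by
    intro h
    exact not_subsingleton G ((Subgroup.subsingleton_iff).1 ⟨fun a b => by
      rw [eq_bot_iff.2 ((le_top : a ≤ ⊤).trans h.le), eq_bot_iff.2 ((le_top : b ≤ ⊤).trans h.le)]⟩))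
  obtain ⟨p, hp, hx⟩ := Cores.minNormal_elementary hV1 hmin (Cores.minNormal_abelian hV1 hmin)
  refine ⟨V, hVn, hV1, ?_⟩
  have hpV : IsPGroup p V := by
    intro x
    exact ⟨1, by rw [pow_one]; exact Subtype.ext (hx x x.2)⟩
  by_cases hp2 : p = 2
  · right; rw [← hp2]; exact hpV
  · left
    have : Fact p.Prime := ⟨hp⟩
    obtain ⟨k, hk⟩ := hpV.exists_card_eq
    rw [hk]
    exact (hp.odd_of_ne_two hp2).pow

end Cfsg.Agent.Lib.H76RO
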