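import Cfsg.Agent.Lib.H76RO3

set_option autoImplicit false

/-!
Real irreducible characters of odd degree: the induction (helper76), used by S4581.
-/

namespace Cfsg.Agent.Lib.H76RO

open scoped ComplexConjugate Pointwise
open Cfsg Cfsg.Agent.Lib Cfsg.Agent.Lib.CharBasic Cfsg.Agent.Lib.Clifford Cfsg.Agent.Lib.CliffordCorr
open Cfsg.Agent.Lib.H76RealExt Cfsg.Agent.Lib.H76Ker

universe u v

/-- `χ` is determined by `ν` -/
def S1 (G : Type u) [Group G] : Prop :=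
  ∀ (P : Type v) [Group P] [Fintype P], IsPGroup 2 P → ∀ i : P →* G, ¬ 2 ∣ i.range.index → ∀ (ν : P →* ℤˣ)
    (χ χ' : G → ℂ), RO χ → RO χ' → OM (fun x => χ (i x)) (sg ν) → OM (fun x => χ' (i x)) (sg ν) → χ = χ'

/-- `ν` is determined by `χ` up to conjugation -/
def S2 (G : Type u) [Group G] : Prop :=
  ∀ (P : Type v) [Group P] [Fintype P], IsPGroup 2 P → ∀ i i' : P →* G, ¬ 2 ∣ i.range.index →
    ¬ 2 ∣ i'.range.index → ∀ (ν ν' : P →* ℤˣ) (χ : G → ℂ), RO χ → OM (fun x => χ (i x)) (sg ν) →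
    OM (fun x => χ (i' x)) (sg ν') →
    ∃ g : G, (∀ x, ∃ y, i' y = g * i x * g⁻¹) ∧ ∀ x y, i' y = g * i x * g⁻¹ → ν' y = ν x

variable {G : Type u} [Group G] {P : Type v} [Group P]

theorem nu_ker [Finite G] [Fintype P] (i : P →* G) (ν : P →* ℤˣ) {χ : G → ℂ} (hχ : IsCharacter G χ)
    (h : classInner (fun x => χ (i x)) (sg ν) ≠ 0) (x : P) (hx : i x = 1) : ν x = 1 := by
  have h1 := eq_one_of_ker i (isIrr_sg ν) hχ h hx
  rw [sg_eq_iff] at h1
  rw [h1, map_one]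

theorem index_range_mk [Finite G] (V : Subgroup G) [V.Normal] (i : P →* G) (hi : ¬ 2 ∣ i.range.index) :
    ¬ 2 ∣ ((QuotientGroup.mk' V).comp i).range.index := by
  intro h
  apply hi
  apply h.trans
  rw [MonoidHom.range_comp, ← Subgroup.index_comap_of_surjective _ (QuotientGroup.mk'_surjective V)]
  exact Subgroup.index_dvd_of_le (Subgroup.le_comap_map _ _)

theorem index_range_restrict [Finite G] (T : Subgroup G) (i : P →* G) (hiT : ∀ x, i x ∈ T) (hi : ¬ 2 ∣ i.range.index) :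
    ¬ 2 ∣ (i.codRestrict T hiT).range.index := by
  intro h
  apply hi
  apply h.trans
  have h1 : (i.codRestrict T hiT).range = i.range.subgroupOf T := by
    ext t
    rw [Subgroup.mem_subgroupOf]
    constructor
    · rintro ⟨x, rfl⟩; exact ⟨x, rfl⟩
    · rintro ⟨x, hx⟩; exact ⟨x, Subtype.ext hx⟩
  rw [h1]
  exact Subgroup.relIndex_dvd_index_of_le (by
    rintro _ ⟨x, rfl⟩; exact hiT x)

/-- deflation of real odd degree characters -/
theorem RO.deflate [Finite G] {χ : G → ℂ} (h : RO χ) (V : Subgroup G) [V.Normal] (hV : ∀ v ∈ V, χ v = χ 1) :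
    ∃ ψ : G ⧸ V → ℂ, RO ψ ∧ ∀ g : G, ψ g = χ g := by
  obtain ⟨h1, h2, d, h3, h4⟩ := h
  obtain ⟨ψ, h5, h6⟩ := h1.deflate V hV
  refine ⟨ψ, ⟨h5, ?_, d, h3, ?_⟩, h6⟩
  · intro g
    obtain ⟨g, rfl⟩ := QuotientGroup.mk_surjective g
    rw [h6, h2]
  · have := h6 1
    rw [QuotientGroup.mk_one] at this
    rw [this, h4]

/-- the data attached to `ν` -/
theorem exists_data [Finite G] [Fintype P] (hP : IsPGroup 2 P) (V : Subgroup G) [hV : V.Normal] (h2 : IsPGroup 2 V)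
    (i : P →* G) (hi : ¬ 2 ∣ i.range.index) (ν : P →* ℤˣ) (hker : ∀ x, i x = 1 → ν x = 1) :
    ∃ lam : V →* ℤˣ, (∀ (x : P) (hx : i x ∈ V), lam ⟨i x, hx⟩ = ν x) ∧ (∀ x, i x ∈ inertia V (sg lam)) ∧
      V ≤ inertia V (sg lam) ∧ ∃ μ : inertia V (sg lam) →* ℤˣ,
        ∀ (v : G) (hv : v ∈ V) (hv' : v ∈ inertia V (sg lam)), μ ⟨v, hv'⟩ = lam ⟨v, hv⟩ := by
  have hVi : V ≤ i.range := normal_le h2 (by
    exact hP.of_surjective i.rangeRestrict i.rangeRestrict_surjective) hi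
  obtain ⟨lam, hlam⟩ := exists_lam i ν hker V hVi
  have h3 : ∀ x, i x ∈ inertia V (sg lam) := by
    intro x
    rw [mem_inertia']
    rintro ⟨v, hv⟩
    obtain ⟨y, rfl⟩ := hVi hv
    rw [sg_eq_iff]
    have h4 : i (x * y * x⁻¹) ∈ V := by
      rw [map_mul, map_mul, map_inv]
      exact hV.conj_mem _ hv _
    have h5 := hlam (x * y * x⁻¹) h4
    have h6 := hlam y hv
    have h7 : (⟨i x * i y * (i x)⁻¹, hV.conj_mem _ hv _⟩ : V) = ⟨i (x * y * x⁻¹), h4⟩ := Subtype.ext (by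
      show _ = _
      simp)
    rw [h7, h5, h6, map_mul, map_mul, map_inv, mul_comm (ν x), mul_inv_cancel_right]
  have h4 : V ≤ inertia V (sg lam) := fun v hv => by
    obtain ⟨x, rfl⟩ := hVi hv
    exact h3 x
  refine ⟨lam, hlam, h3, h4, ?_⟩
  set T := inertia V (sg lam) with hT
  -- the sign character of the range
  have hs : Function.Surjective i.rangeRestrict := i.rangeRestrict_surjective
  obtain ⟨lam', hlam'⟩ := exists_lam i ν hker i.range le_rfl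
  let Q : Subgroup T := i.range.subgroupOf T
  let ν₁ : Q →* ℤˣ := lam'.comp
    { toFun := fun y => ⟨((y : T) : G), Subgroup.mem_subgroupOf.1 y.2⟩
      map_one' := rfl
      map_mul' := fun _ _ => rfl }
  have hVQ : V.subgroupOf T ≤ Q := fun v hv => Subgroup.mem_subgroupOf.2 (hVi (Subgroup.mem_subgroupOf.1 hv))
  have hν₁ : ∀ (v : T) (hv : v ∈ V.subgroupOf T), ν₁ ⟨v, hVQ hv⟩ = lam ⟨(v : G), Subgroup.mem_subgroupOf.1 hv⟩ := by
    intro v hv
    have hv' := Subgroup.mem_subgroupOf.1 hv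
    obtain ⟨x, hx⟩ := hVi hv'
    have h5 : i x ∈ V := by rw [hx]; exact hv'
    have h6 := hlam x h5
    have h7 := hlam' x ⟨x, rfl⟩
    have e1 : (⟨(v : G), hv'⟩ : V) = ⟨i x, h5⟩ := Subtype.ext hx.symm
    rw [e1, h6, ← h7]
    show lam' _ = lam' _
    congr 1
    exact Subtype.ext hx.symm
  obtain ⟨μ, hμ⟩ := exists_mu (V.subgroupOf T) Q hVQ (by
    rw [← Nat.not_even_iff_odd, even_iff_two_dvd]
    intro hd
    exact hi (hd.trans (Subgroup.relIndex_dvd_index_of_le (by rintro _ ⟨x, rfl⟩; exact h3 x)))) ν₁ (by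
    intro g v hv
    rw [hν₁ v hv, hν₁ (g * v * g⁻¹) ((inferInstance : (V.subgroupOf T).Normal).conj_mem v hv g)]
    have h8 := (mem_inertia'.1 g.2) ⟨(v : G), Subgroup.mem_subgroupOf.1 hv⟩
    rw [sg_eq_iff] at h8
    exact h8)
  refine ⟨μ, fun v hv hv' => ?_⟩
  rw [hμ ⟨v, hv'⟩ (Subgroup.mem_subgroupOf.2 hv), hν₁ ⟨v, hv'⟩ (Subgroup.mem_subgroupOf.2 hv)]

end Cfsg.Agent.Lib.H76RO
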