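import Cfsg.Agent.Lib.H76RO4

set_option autoImplicit false

/-!
Real irreducible characters of odd degree: the induction (helper76), used by S4581.
-/

namespace Cfsg.Agent.Lib.H76RO

open scoped ComplexConjugate Pointwise
open Cfsg Cfsg.Agent.Lib Cfsg.Agent.Lib.CharBasic Cfsg.Agent.Lib.Clifford Cfsg.Agent.Lib.CliffordCorr
open Cfsg.Agent.Lib.H76RealExt Cfsg.Agent.Lib.H76Ker

universe u v

variable {G : Type u} [Group G] {P : Type v} [Group P]

theorem irr_of_subsingleton [Finite G] [Subsingleton G] {χ : G → ℂ} (hχ : IsIrrCharacter G χ) : χ = 1 := by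
  have h1 : χ 1 = 1 := hχ.one_eq_one_of_comm (fun a b => Subsingleton.elim _ _)
  funext g
  rw [Subsingleton.elim g 1, h1, Pi.one_apply]

theorem card_quotient_lt [Finite G] (V : Subgroup G) [V.Normal] (hV : V ≠ ⊥) : Nat.card (G ⧸ V) < Nat.card G := by
  have h1 := Subgroup.card_eq_card_quotient_mul_card_subgroup V
  have h2 : 1 < Nat.card V := (Subgroup.one_lt_card_iff_ne_bot V).2 hV
  have h3 : 0 < Nat.card (G ⧸ V) := Nat.card_pos
  nlinarith

theorem card_quotient_lt' [Finite G] (V T : Subgroup G) [V.Normal] (hVT : V ≤ T) (hV : V ≠ ⊥) :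
    Nat.card (T ⧸ V.subgroupOf T) < Nat.card G := by
  have h1 : Nat.card (T ⧸ V.subgroupOf T) < Nat.card T := by
    apply card_quotient_lt
    intro h
    apply hV
    rw [Subgroup.subgroupOf_eq_bot] at h
    have h3 := h.eq_bot_of_le hVT
    exact h3
  exact h1.trans_le (Subgroup.card_le_card_group T)

theorem main (n : ℕ) : ∀ (G : Type u) [Group G] [Finite G] [Group.IsSolvable G], Nat.card G = n →
    S1.{u, v} G ∧ S2.{u, v} G := by
  induction n using Nat.strong_induction_on with
  | _ n ih =>
    intro G _ _ _ hn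
    classical
    have := Fintype.ofFinite G
    rcases subsingleton_or_nontrivial G with hG | hG
    · refine ⟨fun P _ _ hP i hi ν χ χ' hχ hχ' hom hom' => ?_, fun P _ _ hP i i' hi hi' ν ν' χ hχ hom hom' => ?_⟩
      · rw [irr_of_subsingleton hχ.1, irr_of_subsingleton hχ'.1]
      · refine ⟨1, fun x => ⟨1, Subsingleton.elim _ _⟩, fun x y _ => ?_⟩
        rw [nu_ker i ν hχ.1.isCharacter hom.ne_zero x (Subsingleton.elim _ _),
          nu_ker i' ν' hχ.1.isCharacter hom'.ne_zero y (Subsingleton.elim _ _)]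
    obtain ⟨V, hVn, hV1, hV⟩ := exists_normal_section hG
    rcases hV with hodd | h2
    · obtain ⟨ih1, ih2⟩ := ih _ (by rw [← hn]; exact card_quotient_lt V hV1) (G ⧸ V) rfl
      refine ⟨fun P _ _ hP i hi ν χ χ' hχ hχ' hom hom' => ?_, fun P _ _ hP i i' hi hi' ν ν' χ hχ hom hom' => ?_⟩
      · obtain ⟨ψ, h1, h2⟩ := hχ.deflate V (fun v hv => trivial_on_odd hχ V hodd hv)
        obtain ⟨ψ', h1', h2'⟩ := hχ'.deflate V (fun v hv => trivial_on_odd hχ' V hodd hv)
        have h3 := ih1 P hP ((QuotientGroup.mk' V).comp i) (index_range_mk V i hi) ν ψ ψ' h1 h1' (by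
          have e : (fun x => ψ (((QuotientGroup.mk' V).comp i) x)) = fun x => χ (i x) := funext fun x => h2 (i x)
          rw [e]; exact hom) (by
          have e : (fun x => ψ' (((QuotientGroup.mk' V).comp i) x)) = fun x => χ' (i x) := funext fun x => h2' (i x)
          rw [e]; exact hom')
        funext g
        rw [← h2, ← h2', h3]
      · obtain ⟨ψ, h1, h2⟩ := hχ.deflate V (fun v hv => trivial_on_odd hχ V hodd hv)
        obtain ⟨g, c1, c2⟩ := ih2 P hP ((QuotientGroup.mk' V).comp i) ((QuotientGroup.mk' V).comp i')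
          (index_range_mk V i hi) (index_range_mk V i' hi') ν ν' ψ h1 (by
          have e : (fun x => ψ (((QuotientGroup.mk' V).comp i) x)) = fun x => χ (i x) := funext fun x => h2 (i x)
          rw [e]; exact hom) (by
          have e : (fun x => ψ (((QuotientGroup.mk' V).comp i') x)) = fun x => χ (i' x) := funext fun x => h2 (i' x)
          rw [e]; exact hom')
        obtain ⟨g, rfl⟩ := QuotientGroup.mk_surjective g
        obtain ⟨v, hv, h3⟩ := exists_conj_mod V ((MulAut.conj g).toMonoidHom.comp i).range i'.range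
          (hP.of_surjective _ (MonoidHom.rangeRestrict_surjective _))
          (hP.of_surjective _ (MonoidHom.rangeRestrict_surjective _)) hi' (by
            rintro _ ⟨x, rfl⟩
            obtain ⟨y, hy⟩ := c1 x
            refine ⟨i' y, ⟨y, rfl⟩, ?_⟩
            have hy' : ((i' y : G) : G ⧸ V) = ((g * i x * g⁻¹ : G) : G ⧸ V) := hy
            rw [QuotientGroup.eq] at hy'
            exact hy')
        have hvg : ((v * g : G) : G ⧸ V) = (g : G ⧸ V) := by
          rw [QuotientGroup.mk_mul, (QuotientGroup.eq_one_iff v).2 hv, one_mul]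
        refine ⟨v * g, fun x => ?_, fun x y hxy => ?_⟩
        · obtain ⟨y, hy⟩ := h3 (g * i x * g⁻¹) ⟨x, rfl⟩
          refine ⟨y, ?_⟩
          rw [hy]; group
        · apply c2
          show ((i' y : G) : G ⧸ V) = (g : G ⧸ V) * ((i x : G) : G ⧸ V) * (g : G ⧸ V)⁻¹
          rw [hxy, QuotientGroup.mk_mul, QuotientGroup.mk_mul, QuotientGroup.mk_inv, hvg]
    · have hPr : ∀ {P : Type v} [Group P] [Fintype P] (hP : IsPGroup 2 P) (i : P →* G), ¬ 2 ∣ i.range.index →
          V ≤ i.range := fun hP i hi => normal_le h2 (hP.of_surjective _ i.rangeRestrict_surjective) hi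
      refine ⟨fun P _ _ hP i hi ν χ χ' hχ hχ' hom hom' => ?_, fun P _ _ hP i i' hi hi' ν ν' χ hχ hom hom' => ?_⟩
      · have hker := nu_ker i ν hχ.1.isCharacter hom.ne_zero
        obtain ⟨lam, hlam, hiT, hVT, μ, hμ⟩ := exists_data hP V h2 i hi ν hker
        have hsl : ∀ (x : P) (hx : i x ∈ V), sg lam ⟨i x, hx⟩ = sg ν x := fun x hx => by
          rw [sg_eq_iff]; exact hlam x hx
        have hov := restrict_ne_zero V i (hPr hP i hi) (isIrr_sg ν) (sg lam) hsl hχ.1.isCharacter hom.ne_zero
        have hov' := restrict_ne_zero V i (hPr hP i hi) (isIrr_sg ν) (sg lam) hsl hχ'.1.isCharacter hom'.ne_zero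
        obtain ⟨d, hd, hd1⟩ := hχ.2.2
        obtain ⟨d', hd', hd1'⟩ := hχ'.2.2
        obtain ⟨ψ, e, h3, h4, h5, h6, h7, h8⟩ := descend.{u, v} V lam (inertia V (sg lam)) (fun g => mem_inertia) hVT μ
          (fun v hv => hμ v hv _) hχ.1 hd1 hd hov
        obtain ⟨ψ', e', h3', h4', h5', h6', h7', h8'⟩ := descend.{u, v} V lam (inertia V (sg lam)) (fun g => mem_inertia) hVT μ
          (fun v hv => hμ v hv _) hχ'.1 hd1' hd' hov'
        obtain ⟨ih1, -⟩ := ih _ (by rw [← hn]; exact card_quotient_lt' V (inertia V (sg lam)) hVT hV1)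
          ((inertia V (sg lam)) ⧸ V.subgroupOf (inertia V (sg lam))) rfl
        have h9 := h8 P i hiT (hPr hP i hi) ν hlam
        have h9' := h8' P i hiT (hPr hP i hi) ν hlam
        have h10 := ih1 P hP ((QuotientGroup.mk' _).comp (i.codRestrict _ hiT))
          (index_range_mk _ _ (index_range_restrict _ i hiT hi)) (ν * μ.comp (i.codRestrict _ hiT)) ψ ψ'
          ⟨h3, h7 hχ.2.1, e, h4, h5⟩ ⟨h3', h7' hχ'.2.1, e', h4', h5'⟩ (by
            obtain ⟨m, hm, hm2⟩ := hom
            exact ⟨m, hm, by rw [← hm2, h9]; rfl⟩) (by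
            obtain ⟨m, hm, hm2⟩ := hom'
            exact ⟨m, hm, by rw [← hm2, h9']; rfl⟩)
        rw [← h6, ← h6', h10]
      · have hker := nu_ker i ν hχ.1.isCharacter hom.ne_zero
        have hker' := nu_ker i' ν' hχ.1.isCharacter hom'.ne_zero
        obtain ⟨lam, hlam, hiT, hVT, μ, hμ⟩ := exists_data hP V h2 i hi ν hker
        obtain ⟨lam', hlam', -⟩ := exists_data hP V h2 i' hi' ν' hker'
        have hsl : ∀ (x : P) (hx : i x ∈ V), sg lam ⟨i x, hx⟩ = sg ν x := fun x hx => by
          rw [sg_eq_iff]; exact hlam x hx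
        have hsl' : ∀ (x : P) (hx : i' x ∈ V), sg lam' ⟨i' x, hx⟩ = sg ν' x := fun x hx => by
          rw [sg_eq_iff]; exact hlam' x hx
        have hov := restrict_ne_zero V i (hPr hP i hi) (isIrr_sg ν) (sg lam) hsl hχ.1.isCharacter hom.ne_zero
        have hov' := restrict_ne_zero V i' (hPr hP i' hi') (isIrr_sg ν') (sg lam') hsl' hχ.1.isCharacter hom'.ne_zero
        obtain ⟨g, hg⟩ := exists_cj_eq hχ.1 (isIrr_sg lam') (isIrr_sg lam) hov' hov
        -- `lam = cj g lam'`
        let i'' : P →* G := (MulAut.conj g⁻¹).toMonoidHom.comp i'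
        have hi''a : ∀ x, i'' x = g⁻¹ * i' x * g := fun x => by
          show g⁻¹ * i' x * g⁻¹⁻¹ = _
          rw [inv_inv]
        have hi'' : ¬ 2 ∣ i''.range.index := by
          intro h
          apply hi'
          have e : i''.range = i'.range.map (MulAut.conj g⁻¹).toMonoidHom := MonoidHom.range_comp _ _
          rw [e] at h
          have e2 := Subgroup.index_map_equiv i'.range (MulAut.conj g⁻¹)
          rw [show (i'.range.map (MulAut.conj g⁻¹).toMonoidHom).index = i'.range.index from e2] at h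
          exact h
        have hlam'' : ∀ (x : P) (hx : i'' x ∈ V), lam ⟨i'' x, hx⟩ = ν' x := by
          intro x hx
          have h4 := congrFun hg ⟨i'' x, hx⟩
          rw [cj_apply, sg_eq_iff] at h4
          have h5 : i' x ∈ V := by
            have := hVn.conj_mem _ hx g
            rw [hi''a] at this
            have h6 : g * (g⁻¹ * i' x * g) * g⁻¹ = i' x := by group
            rwa [h6] at this
          rw [h4, ← hlam' x h5]
          congr 1
          apply Subtype.ext
          show g * i'' x * g⁻¹ = i' x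
          rw [hi''a]; group
        have hi''T : ∀ x, i'' x ∈ inertia V (sg lam) := by
          intro x
          rw [mem_inertia']
          rintro ⟨v, hv⟩
          obtain ⟨y, hy⟩ := hPr hP i'' hi'' hv
          subst hy
          rw [sg_eq_iff]
          have h4 : i'' (x * y * x⁻¹) ∈ V := by
            rw [map_mul, map_mul, map_inv]
            exact hVn.conj_mem _ hv _
          have h5 := hlam'' (x * y * x⁻¹) h4
          have h6 := hlam'' y hv
          have h7 : (⟨i'' x * i'' y * (i'' x)⁻¹, hVn.conj_mem _ hv _⟩ : V) = ⟨i'' (x * y * x⁻¹), h4⟩ := Subtype.ext (by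
            show i'' x * i'' y * (i'' x)⁻¹ = i'' (x * y * x⁻¹)
            rw [map_mul, map_mul, map_inv])
          rw [h7, h5, h6, map_mul, map_mul, map_inv, mul_comm (ν' x), mul_inv_cancel_right]
        obtain ⟨d, hd, hd1⟩ := hχ.2.2
        obtain ⟨ψ, e, h3, h4, h5, h6, h7, h8⟩ := descend.{u, v} V lam (inertia V (sg lam)) (fun g => mem_inertia) hVT μ
          (fun v hv => hμ v hv _) hχ.1 hd1 hd hov
        obtain ⟨-, ih2⟩ := ih _ (by rw [← hn]; exact card_quotient_lt' V (inertia V (sg lam)) hVT hV1)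
          ((inertia V (sg lam)) ⧸ V.subgroupOf (inertia V (sg lam))) rfl
        have h9 := h8 P i hiT (hPr hP i hi) ν hlam
        have h9' := h8 P i'' hi''T (hPr hP i'' hi'') ν' hlam''
        have e0 : (fun x => χ (i'' x)) = fun x => χ (i' x) := by
          funext x
          rw [hi''a]
          exact hχ.1.isClassFunction.conj_eq' _ _
        rw [e0] at h9'
        obtain ⟨t, c1, c2⟩ := ih2 P hP ((QuotientGroup.mk' _).comp (i.codRestrict _ hiT))
          ((QuotientGroup.mk' _).comp (i''.codRestrict _ hi''T))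
          (index_range_mk _ _ (index_range_restrict _ i hiT hi))
          (index_range_mk _ _ (index_range_restrict _ i'' hi''T hi'')) (ν * μ.comp (i.codRestrict _ hiT))
          (ν' * μ.comp (i''.codRestrict _ hi''T)) ψ
          ⟨h3, h7 hχ.2.1, e, h4, h5⟩ (by
            obtain ⟨m, hm, hm2⟩ := hom
            exact ⟨m, hm, by rw [← hm2, h9]; rfl⟩) (by
            obtain ⟨m, hm, hm2⟩ := hom'
            exact ⟨m, hm, by rw [← hm2, h9']; rfl⟩)
        obtain ⟨t, rfl⟩ := QuotientGroup.mk_surjective t
        refine ⟨g * t, fun x => ?_, fun x y hxy => ?_⟩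
        · obtain ⟨y, hy⟩ := c1 x
          have hy' : ((i''.codRestrict _ hi''T y : inertia V (sg lam)) : (inertia V (sg lam)) ⧸ V.subgroupOf (inertia V (sg lam)))
            = ((t * i.codRestrict _ hiT x * t⁻¹ : inertia V (sg lam)) : (inertia V (sg lam)) ⧸ V.subgroupOf (inertia V (sg lam))) := hy
          rw [QuotientGroup.eq, Subgroup.mem_subgroupOf] at hy'
          have hy'' : (i'' y)⁻¹ * ((t : G) * i x * (t : G)⁻¹) ∈ V := hy'
          obtain ⟨z, hz⟩ := hPr hP i'' hi'' hy''
          refine ⟨y * z, ?_⟩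
          have h10 : i'' (y * z) = (t : G) * i x * (t : G)⁻¹ := by
            rw [map_mul, hz]; group
          rw [hi''a] at h10
          have h11 : i' (y * z) = g * (g⁻¹ * i' (y * z) * g) * g⁻¹ := by group
          rw [h11, h10]; group
        · have h10 : i'' y = (t : G) * i x * (t : G)⁻¹ := by
            rw [hi''a, hxy]; group
          have h11 : i''.codRestrict _ hi''T y = t * i.codRestrict _ hiT x * t⁻¹ := Subtype.ext h10
          have h12 := c2 x y (by
            show ((i''.codRestrict _ hi''T y : inertia V (sg lam)) : (inertia V (sg lam)) ⧸ V.subgroupOf (inertia V (sg lam))) = _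
            rw [h11]; rfl)
          rw [MonoidHom.mul_apply, MonoidHom.mul_apply, MonoidHom.comp_apply, MonoidHom.comp_apply, h11, map_mul,
            map_mul, map_inv, mul_comm (μ t), mul_inv_cancel_right] at h12
          exact mul_right_cancel h12

end Cfsg.Agent.Lib.H76RO
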