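import Cfsg.Agent.Lib.H76RO5
import Cfsg.Agent.Lib.H76Ext

set_option autoImplicit false

/-!
Groups all of whose odd degree irreducible characters are real (helper76), used by S4581.
-/

namespace Cfsg.Agent.Lib.H76RO

open scoped ComplexConjugate Pointwise
open Cfsg Cfsg.Agent.Lib Cfsg.Agent.Lib.CharBasic Cfsg.Agent.Lib.Clifford Cfsg.Agent.Lib.CliffordCorr
open Cfsg.Agent.Lib.H76RealExt Cfsg.Agent.Lib.H76Ker Cfsg.Agent.Lib.H76PAct

universe u v

variable {G : Type u} [Group G] {P : Type v} [Group P]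

theorem odd_iff_not_two_dvd {n : ℕ} : Odd n ↔ ¬ 2 ∣ n := by
  rw [← Nat.not_even_iff_odd, even_iff_two_dvd]

/-- all irreducible characters of odd degree are real -/
def AllReal (G : Type u) [Group G] : Prop :=
  ∀ (χ : G → ℂ) (d : ℕ), IsIrrCharacter G χ → χ 1 = d → Odd d → ∀ g, conj (χ g) = χ g

theorem coprime_of_odd_pgroup [Finite G] {V Q : Subgroup G} (hV : Odd (Nat.card V)) (hQ : IsPGroup 2 Q) {v : G}
    (hv : v ∈ V) (hv' : v ∈ Q) : v = 1 := by
  obtain ⟨k, hk⟩ := hQ.exists_card_eq
  have h1 : orderOf v ∣ Nat.card V := Subgroup.orderOf_dvd_natCard V hv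
  have h2 : orderOf v ∣ 2 ^ k := by
    rw [← hk]; exact Subgroup.orderOf_dvd_natCard Q hv'
  have h3 : Nat.Coprime (Nat.card V) (2 ^ k) := Nat.Coprime.pow_right _ (Nat.coprime_two_right.2 hV)
  exact orderOf_eq_one_iff.1 (Nat.eq_one_of_dvd_coprimes h3 h1 h2)

/-- invariant characters of a normal subgroup of odd order lie under characters of odd degree -/
theorem exists_odd_over [Fintype G] (V Q : Subgroup G) [hVn : V.Normal] [Fintype V] (hV : Odd (Nat.card V)) (hQ : IsPGroup 2 Q)
    (hQi : ¬ 2 ∣ Q.index) {θ : V → ℂ} (hθ : IsIrrCharacter V θ) (hinv : ∀ g ∈ Q, cj V g θ = θ) :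
    ∃ (χ : G → ℂ) (d : ℕ), IsIrrCharacter G χ ∧ χ 1 = d ∧ Odd d ∧ classInner (fun v : V => χ v) θ ≠ 0 := by
  classical
  set X : Subgroup G := Q ⊔ V with hX
  have hVX : V ≤ X := le_sup_right
  have hQX : Q ≤ X := le_sup_left
  have := Fintype.ofFinite X
  have := Fintype.ofFinite (V.subgroupOf X)
  let θ' : V.subgroupOf X → ℂ := fun n => θ (subEquiv V X hVX n)
  have hθ' : IsIrrCharacter (V.subgroupOf X) θ' := (isIrrCharacter_comp_mulEquiv_iff (subEquiv V X hVX)).2 hθ
  have hinvX : ∀ g ∈ X, cj V g θ = θ := by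
    intro g hg
    obtain ⟨q, hq, v, hv, rfl⟩ := Subgroup.mem_sup_of_normal_right.1 hg
    rw [← cj_cj, hinv q hq, cj_of_mem hθ.isClassFunction hv]
  obtain ⟨k, hk⟩ := hQ.exists_card_eq
  have hcop : Nat.Coprime (V.subgroupOf X).index (Nat.card (V.subgroupOf X)) := by
    rw [Nat.card_congr (subEquiv V X hVX).toEquiv]
    have h1 : (V.subgroupOf X).index ∣ Nat.card Q := by
      have h2 : (V.subgroupOf X).index = V.relIndex (Q ⊔ V) := rfl
      rw [h2, Subgroup.relIndex_sup_right]
      exact Subgroup.relIndex_dvd_card V Q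
    rw [hk] at h1
    exact (Nat.Coprime.pow_left _ (Nat.coprime_two_left.2 hV)).coprime_dvd_left h1
  obtain ⟨η, hη, hηV⟩ := H76Ext.exists_extension_of_coprime_card (V.subgroupOf X) hθ' (fun g => by
    funext n
    have h1 := congrFun (hinvX g g.2) (subEquiv V X hVX n)
    exact h1) hcop
  obtain ⟨e, he0, he⟩ := hη.exists_degree
  have heodd : Odd e := by
    have h1 := hηV 1
    have h2 : θ' 1 = e := by
      rw [← h1]; exact he
    have h3 := CharApps.irr_degree_dvd_card hθ' h2
    rw [Nat.card_congr (subEquiv V X hVX).toEquiv] at h3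
    exact hV.of_dvd_nat h3
  have hind : IsCharacter G (indFun X η) := hη.isCharacter.indFun X
  have hXi : Odd X.index := by
    rw [odd_iff_not_two_dvd]
    intro h
    exact hQi (h.trans (Subgroup.index_dvd_of_le hQX))
  obtain ⟨χ, d, h1, h2, h3, h4⟩ := exists_pprime_constituent (p := 2) hind (X.index * e) (by
    rw [IndFun.indFun_one, he]; push_cast; rfl) (by
    rw [← odd_iff_not_two_dvd]; exact hXi.mul heodd)
  refine ⟨χ, d, h1, h3, odd_iff_not_two_dvd.2 h4, ?_⟩
  rw [IndFun.frobenius_reciprocity X η χ h1.isClassFunction] at h2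
  have h5 : classInner (fun x : X => χ x) η ≠ 0 := by
    rw [← conj_classInner]; exact (map_ne_zero _).mpr h2
  obtain ⟨b, hb, hb2⟩ := Clifford.degree_le_of_constituent (h1.isCharacter.restrict X) hη h5
  have h6 : (fun v : V => χ v) = θ + fun v : V => b ⟨v, hVX v.2⟩ := by
    funext v
    have h7 := congrFun hb2 ⟨v, hVX v.2⟩
    have h8 := hηV ⟨⟨v, hVX v.2⟩, Subgroup.mem_subgroupOf.2 v.2⟩
    have h9 : θ' ⟨⟨v, hVX v.2⟩, Subgroup.mem_subgroupOf.2 v.2⟩ = θ v := rfl
    rw [h9] at h8
    rw [Pi.add_apply] at h7 ⊢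
    rw [← h8]
    exact h7
  rw [h6]
  exact classInner_add_ne_zero hθ.isCharacter (hb.comp (Subgroup.inclusion hVX)) hθ.isCharacter (by
    rw [hθ.classInner_self]; exact one_ne_zero)

theorem mainR1 (n : ℕ) : ∀ (G : Type u) [Group G] [Finite G] [Group.IsSolvable G], Nat.card G = n →
    ∀ (P : Type v) [Group P] [Fintype P], IsPGroup 2 P → ∀ i : P →* G, ¬ 2 ∣ i.range.index →
    (∀ g, (∀ x, ∃ y, i y = g * i x * g⁻¹) → g ∈ i.range) → (∀ (ν : P →* ℂˣ) (x : P), ν x ^ 2 = 1) → AllReal G := by
  induction n using Nat.strong_induction_on with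
  | _ n ih =>
    intro G _ _ _ hn P _ _ hP i hi hN hlin χ d hχ hd hodd
    classical
    have := Fintype.ofFinite G
    rcases subsingleton_or_nontrivial G with hG | hG
    · intro g
      rw [irr_of_subsingleton hχ, Pi.one_apply, map_one]
    obtain ⟨V, hVn, hV1, hV⟩ := exists_normal_section hG
    have := Fintype.ofFinite V
    have hPr : IsPGroup 2 i.range := hP.of_surjective _ i.rangeRestrict_surjective
    rcases hV with hVodd | h2
    · -- odd case
      obtain ⟨θ, m, h1, h2, h3, h4, h5⟩ := exists_invariant_constituent V i.range hPr hχ.isCharacter d hd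
        (odd_iff_not_two_dvd.1 hodd)
      have hC : V ⊓ Subgroup.centralizer (i.range : Set G) = ⊥ := by
        rw [eq_bot_iff]
        intro v hv
        obtain ⟨hv1, hv2⟩ := Subgroup.mem_inf.1 hv
        rw [Subgroup.mem_centralizer_iff] at hv2
        have h6 : v ∈ i.range := by
          apply hN
          intro x
          refine ⟨x, ?_⟩
          have := hv2 (i x) ⟨x, rfl⟩
          rw [← this, mul_inv_cancel_right]
        rw [Subgroup.mem_bot]
        exact coprime_of_odd_pgroup hVodd hPr hv1 h6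
      have h6 : θ = 1 := invariant_eq_one V i.range hPr hC h1 h5 m h3 h4
      rw [h6] at h2
      obtain ⟨ψ, h7, h8⟩ := hχ.deflate V (fun v hv => eq_one_of_trivial_constituent hχ V h2 hv)
      have h9 := ih _ (by rw [← hn]; exact card_quotient_lt V hV1) (G ⧸ V) rfl P hP ((QuotientGroup.mk' V).comp i)
        (index_range_mk V i hi) (by
          intro g hg
          obtain ⟨g, rfl⟩ := QuotientGroup.mk_surjective g
          obtain ⟨v, hv, h3⟩ := exists_conj_mod V ((MulAut.conj g).toMonoidHom.comp i).range i.range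
            (hP.of_surjective _ (MonoidHom.rangeRestrict_surjective _)) hPr hi (by
            rintro _ ⟨x, rfl⟩
            obtain ⟨y, hy⟩ := hg x
            refine ⟨i y, ⟨y, rfl⟩, ?_⟩
            have hy' : ((i y : G) : G ⧸ V) = ((g * i x * g⁻¹ : G) : G ⧸ V) := hy
            rw [QuotientGroup.eq] at hy'
            exact hy')
          obtain ⟨z, hz⟩ := hN (v * g) (fun x => by
            obtain ⟨y, hy⟩ := h3 (g * i x * g⁻¹) ⟨x, rfl⟩
            refine ⟨y, ?_⟩
            rw [hy]; group)
          refine ⟨z, ?_⟩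
          show ((i z : G) : G ⧸ V) = (g : G ⧸ V)
          rw [hz, QuotientGroup.mk_mul, (QuotientGroup.eq_one_iff v).2 hv, one_mul]) hlin
      intro g
      rw [← h8]
      apply h9 ψ d h7 _ hodd
      have := h8 1
      rw [QuotientGroup.mk_one] at this
      rw [this, hd]
    · -- 2-group case
      have hVi : V ≤ i.range := normal_le h2 hPr hi
      obtain ⟨α, m, h1, h2', h3, h4⟩ := exists_pprime_constituent (p := 2) (hχ.isCharacter.comp i) d
        (by simp only [map_one]; exact hd) (odd_iff_not_two_dvd.1 hodd)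
      have h5 := linear_of_pgroup hP h1 h3 h4
      subst h5
      obtain ⟨f, hf⟩ := h1.isCharacter.exists_hom (by rw [h3]; simp)
      obtain ⟨ν, rfl⟩ := exists_sg h1 (by rw [h3]; simp) (by
        intro x
        have h6 : (f x : ℂ) * f x = 1 := by
          rw [← sq, ← Units.val_pow_eq_pow_val, hlin f x, Units.val_one]
        have h7 : α x = (f x : ℂ) := by
          rw [hf]
        rcases mul_self_eq_one_iff.1 h6 with h8 | h8
        · rw [h7, h8, map_one]
        · rw [h7, h8, map_neg, map_one])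
      have hker := nu_ker i ν hχ.isCharacter h2'
      obtain ⟨lam, hlam, hiT, hVT, μ, hμ⟩ := exists_data hP V h2 i hi ν hker
      have hsl : ∀ (x : P) (hx : i x ∈ V), sg lam ⟨i x, hx⟩ = sg ν x := fun x hx => by
        rw [sg_eq_iff]; exact hlam x hx
      have hov := restrict_ne_zero V i hVi (isIrr_sg ν) (sg lam) hsl hχ.isCharacter h2'
      obtain ⟨ψ, e, h5, h6, h7, h8, h9, -⟩ := descend.{u, v} V lam (inertia V (sg lam)) (fun g => mem_inertia) hVT μ
        (fun v hv => hμ v hv _) hχ hd hodd hov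
      have h10 := ih _ (by rw [← hn]; exact card_quotient_lt' V (inertia V (sg lam)) hVT hV1)
        ((inertia V (sg lam)) ⧸ V.subgroupOf (inertia V (sg lam))) rfl P hP
        ((QuotientGroup.mk' _).comp (i.codRestrict _ hiT))
        (index_range_mk _ _ (index_range_restrict _ i hiT hi)) (by
          intro t ht
          obtain ⟨t, rfl⟩ := QuotientGroup.mk_surjective t
          have h11 : (t : G) ∈ i.range := by
            apply hN
            intro x
            obtain ⟨y, hy⟩ := ht x
            have hy' : ((i.codRestrict _ hiT y : inertia V (sg lam)) : (inertia V (sg lam)) ⧸ V.subgroupOf (inertia V (sg lam)))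
              = ((t * i.codRestrict _ hiT x * t⁻¹ : inertia V (sg lam)) : (inertia V (sg lam)) ⧸ V.subgroupOf (inertia V (sg lam))) := hy
            rw [QuotientGroup.eq, Subgroup.mem_subgroupOf] at hy'
            have hy'' : (i y)⁻¹ * ((t : G) * i x * (t : G)⁻¹) ∈ V := hy'
            obtain ⟨z, hz⟩ := hVi hy''
            refine ⟨y * z, ?_⟩
            rw [map_mul, hz]; group
          obtain ⟨z, hz⟩ := h11
          refine ⟨z, ?_⟩
          have h12 : i.codRestrict _ hiT z = t := Subtype.ext hz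
          show ((i.codRestrict _ hiT z : inertia V (sg lam)) : (inertia V (sg lam)) ⧸ V.subgroupOf (inertia V (sg lam))) = _
          rw [h12]) hlin ψ e h5 h7 h6
      intro g
      rw [← h8, conj_indFun]
      congr 1
      funext t
      rw [map_mul, conj_sg, h10]

end Cfsg.Agent.Lib.H76RO
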