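import Cfsg.Agent.Lib.H76RO6

set_option autoImplicit false

/-!
Groups all of whose odd degree irreducible characters are real, necessity (helper76), used by S4581.
-/

namespace Cfsg.Agent.Lib.H76RO

open scoped ComplexConjugate Pointwise
open Cfsg Cfsg.Agent.Lib Cfsg.Agent.Lib.CharBasic Cfsg.Agent.Lib.Clifford Cfsg.Agent.Lib.CliffordCorr
open Cfsg.Agent.Lib.H76RealExt Cfsg.Agent.Lib.H76Ker Cfsg.Agent.Lib.H76PAct

universe u v

variable {G : Type u} [Group G] {P : Type v} [Group P]

theorem AllReal.quotient (h : AllReal G) (V : Subgroup G) [V.Normal] : AllReal (G ⧸ V) := by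
  intro χ d h1 h2 h3 g
  obtain ⟨g, rfl⟩ := QuotientGroup.mk_surjective g
  exact h (fun g => χ (g : G ⧸ V)) d (h1.inflate V) (by
    show χ ((1 : G) : G ⧸ V) = _
    rw [QuotientGroup.mk_one, h2]) h3 g

/-- a linear character of a Sylow subgroup lies under an irreducible character of odd degree -/
theorem exists_odd_over_lin [Fintype G] [Fintype P] (i : P →* G) (hi : ¬ 2 ∣ i.range.index) {ν : P → ℂ}
    (hν : IsIrrCharacter P ν) (ν' : i.range → ℂ) (hν' : IsIrrCharacter i.range ν') (h1 : ν' 1 = 1)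
    (h : ∀ x : P, ν' (i.rangeRestrict x) = ν x) :
    ∃ (χ : G → ℂ) (d : ℕ), IsIrrCharacter G χ ∧ χ 1 = d ∧ Odd d ∧ classInner (fun x => χ (i x)) ν ≠ 0 := by
  classical
  have := Fintype.ofFinite i.range
  obtain ⟨χ, d, h2, h3, h4, h5⟩ := exists_pprime_constituent (p := 2) (hν'.isCharacter.indFun i.range) i.range.index (by
    rw [IndFun.indFun_one, h1, mul_one]) hi
  refine ⟨χ, d, h2, h4, odd_iff_not_two_dvd.2 h5, ?_⟩
  rw [IndFun.frobenius_reciprocity i.range ν' χ h2.isClassFunction] at h3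
  have h6 : classInner (fun x : i.range => χ x) ν' ≠ 0 := by
    rw [← conj_classInner]; exact (map_ne_zero _).mpr h3
  rw [← classInner_comp_hom i.rangeRestrict_surjective] at h6
  have e1 : (fun x => ν' (i.rangeRestrict x)) = ν := funext h
  rw [e1] at h6
  exact h6

theorem mainR2 (n : ℕ) : ∀ (G : Type u) [Group G] [Finite G] [Group.IsSolvable G], Nat.card G = n →
    ∀ (P : Type v) [Group P] [Fintype P], IsPGroup 2 P → ∀ i : P →* G, ¬ 2 ∣ i.range.index → AllReal G →
    (∀ g, (∀ x, ∃ y, i y = g * i x * g⁻¹) → g ∈ i.range) ∧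
      (∀ (ν : P →* ℂˣ), (∀ x, i x = 1 → ν x = 1) → ∀ (x : P), ν x ^ 2 = 1) := by
  induction n using Nat.strong_induction_on with
  | _ n ih =>
    intro G _ _ _ hn P _ _ hP i hi hall
    classical
    have := Fintype.ofFinite G
    rcases subsingleton_or_nontrivial G with hG | hG
    · refine ⟨fun g _ => ⟨1, Subsingleton.elim _ _⟩, fun ν hν x => ?_⟩
      rw [hν x (Subsingleton.elim _ _), one_pow]
    obtain ⟨V, hVn, hV1, hV⟩ := exists_normal_section hG
    have := Fintype.ofFinite V
    have hPr : IsPGroup 2 i.range := hP.of_surjective _ i.rangeRestrict_surjective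
    obtain ⟨ih1, ih2⟩ := ih _ (by rw [← hn]; exact card_quotient_lt V hV1) (G ⧸ V) rfl P hP
      ((QuotientGroup.mk' V).comp i) (index_range_mk V i hi) (hall.quotient V)
    -- the image of a normalizing element
    have himg : ∀ g, (∀ x, ∃ y, i y = g * i x * g⁻¹) → ∃ z, (i z)⁻¹ * g ∈ V := by
      intro g hg
      obtain ⟨z, hz⟩ := ih1 (g : G ⧸ V) (fun x => by
        obtain ⟨y, hy⟩ := hg x
        refine ⟨y, ?_⟩
        show ((i y : G) : G ⧸ V) = (g : G ⧸ V) * ((i x : G) : G ⧸ V) * (g : G ⧸ V)⁻¹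
        rw [hy]; rfl)
      refine ⟨z, ?_⟩
      have hz' : ((i z : G) : G ⧸ V) = (g : G ⧸ V) := hz
      rw [QuotientGroup.eq] at hz'
      exact hz'
    rcases hV with hVodd | h2
    · -- odd case
      constructor
      · -- the normalizer
        intro g hg
        obtain ⟨z, hz⟩ := himg g hg
        set v := (i z)⁻¹ * g with hv
        -- `v` centralises the range
        have hvn : ∀ x, ∃ y, i y = v * i x * v⁻¹ := by
          intro x
          obtain ⟨y, hy⟩ := hg x
          refine ⟨z⁻¹ * y * z, ?_⟩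
          rw [map_mul, map_mul, map_inv, hy, hv]; group
        have hvc : ∀ x, v * i x * v⁻¹ = i x := by
          intro x
          obtain ⟨y, hy⟩ := hvn x
          have h3 : v * i x * v⁻¹ * (i x)⁻¹ ∈ V := by
            have := V.mul_mem hz (hVn.conj_mem _ (V.inv_mem hz) (i x))
            have e : v * (i x * v⁻¹ * (i x)⁻¹) = v * i x * v⁻¹ * (i x)⁻¹ := by group
            rwa [e] at this
          have h4 : v * i x * v⁻¹ * (i x)⁻¹ ∈ i.range := by
            rw [← hy]
            exact i.range.mul_mem ⟨y, rfl⟩ (i.range.inv_mem ⟨x, rfl⟩)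
          have h5 := coprime_of_odd_pgroup hVodd hPr h3 h4
          exact mul_inv_eq_one.1 h5
        have hv1 : v = 1 := by
          by_contra hne
          obtain ⟨θ, h3, h4, h5⟩ := exists_nontrivial_invariant V i.range hPr hz (by
            rintro _ ⟨x, rfl⟩
            have := hvc x
            rw [mul_inv_eq_iff_eq_mul] at this
            exact this.symm) hne
          obtain ⟨χ, d, h6, h7, h8, h9⟩ := exists_odd_over V i.range hVodd hPr hi h3 h5
          have h10 : RO χ := ⟨h6, hall χ d h6 h7 h8, d, h8, h7⟩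
          have h11 : (fun v : V => χ v) = fun v => χ 1 := by
            funext v
            exact trivial_on_odd h10 V hVodd v.2
          rw [h11] at h9
          apply h9
          have h12 : (fun v : V => χ 1) = (χ 1) • (1 : V → ℂ) := by
            funext v; simp
          rw [h12, classInner_smul_left, (isIrrCharacter_one : IsIrrCharacter V (1 : V → ℂ)).classInner_eq_zero h3
            (fun h => h4 h.symm), mul_zero]
        have h3 : i z = g := by
          rw [hv] at hv1
          have := mul_eq_one_iff_eq_inv.1 hv1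
          exact inv_injective this
        exact ⟨z, h3⟩
      · intro ν hν x
        apply ih2 ν
        intro x hx
        apply hν
        have hx' : ((i x : G) : G ⧸ V) = 1 := hx
        rw [QuotientGroup.eq_one_iff] at hx'
        exact coprime_of_odd_pgroup hVodd hPr hx' ⟨x, rfl⟩
    · -- 2-group case
      have hVi : V ≤ i.range := normal_le h2 hPr hi
      have hnorm : ∀ g, (∀ x, ∃ y, i y = g * i x * g⁻¹) → g ∈ i.range := by
        intro g hg
        obtain ⟨z, hz⟩ := himg g hg
        obtain ⟨w, hw⟩ := hVi hz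
        refine ⟨z * w, ?_⟩
        rw [map_mul, hw]; group
      refine ⟨hnorm, fun ν hν x => ?_⟩
      -- factor `ν` through the range
      obtain ⟨ν', hν'⟩ := exists_lam i ν hν i.range le_rfl
      have h3 : IsIrrCharacter i.range (fun y => ((ν' y : ℂˣ) : ℂ)) := isIrrCharacter_of_unitsHom ν'
      have h4 : IsIrrCharacter P (fun y => ((ν y : ℂˣ) : ℂ)) := isIrrCharacter_of_unitsHom ν
      obtain ⟨χ, d, h5, h6, h7, h8⟩ := exists_odd_over_lin i hi h4 (fun y => ((ν' y : ℂˣ) : ℂ)) h3 (by simp)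
        (fun x => by
          show ((ν' ⟨i x, ⟨x, rfl⟩⟩ : ℂˣ) : ℂ) = _
          rw [hν' x ⟨x, rfl⟩])
      have hreal := hall χ d h5 h6 h7
      obtain ⟨ν₂, hom⟩ := exists_nu hP i h5.isCharacter hreal h6 h7
      have hker := nu_ker i ν₂ h5.isCharacter hom.ne_zero
      obtain ⟨lam, hlam, hiT, hVT, μ, hμ⟩ := exists_data hP V h2 i hi ν₂ hker
      have hsl : ∀ (x : P) (hx : i x ∈ V), sg lam ⟨i x, hx⟩ = sg ν₂ x := fun x hx => by
        rw [sg_eq_iff]; exact hlam x hx
      have hov := restrict_ne_zero V i hVi (isIrr_sg ν₂) (sg lam) hsl h5.isCharacter hom.ne_zero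
      let lam₁ : V → ℂ := fun v => ((ν' ⟨(v : G), hVi v.2⟩ : ℂˣ) : ℂ)
      have hlam₁ : IsIrrCharacter V lam₁ := isIrrCharacter_of_unitsHom (ν'.comp (Subgroup.inclusion hVi))
      have hov₁ := restrict_ne_zero V i hVi h4 lam₁ (fun x hx => by
        show ((ν' ⟨i x, _⟩ : ℂˣ) : ℂ) = _
        rw [hν' x ⟨x, rfl⟩]) h5.isCharacter h8
      obtain ⟨g, hg⟩ := exists_cj_eq h5 hlam₁ (isIrr_sg lam) hov₁ hov
      -- `sg lam = cj g lam₁`
      have hinv₁ : ∀ x, cj V (i x) lam₁ = lam₁ := by
        intro x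
        funext v
        obtain ⟨v, hv⟩ := v
        rw [cj_apply]
        show ((ν' ⟨i x * v * (i x)⁻¹, _⟩ : ℂˣ) : ℂ) = ((ν' ⟨v, _⟩ : ℂˣ) : ℂ)
        have e : (⟨i x * v * (i x)⁻¹, hVi (hVn.conj_mem v hv (i x))⟩ : i.range) = ⟨i x, ⟨x, rfl⟩⟩ * ⟨v, hVi hv⟩ * ⟨i x, ⟨x, rfl⟩⟩⁻¹ := rfl
        rw [e, map_mul, map_mul, map_inv, mul_comm (ν' ⟨i x, ⟨x, rfl⟩⟩), mul_inv_cancel_right]
      -- conjugate of the range in the inertia group
      let T := inertia V (sg lam)
      have hgT : ∀ x, g⁻¹ * i x * g ∈ T := by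
        intro x
        show cj V (g⁻¹ * i x * g) (sg lam) = sg lam
        rw [hg, cj_cj]
        have e : g * (g⁻¹ * i x * g) = i x * g := by group
        rw [e, ← cj_cj, hinv₁]
      have hQT : IsPGroup 2 (i.range.subgroupOf T) := hPr.comap_of_injective T.subtype (Subgroup.subtype_injective _)
      have hQTi : ¬ 2 ∣ (i.range.subgroupOf T).index := fun hd =>
        hi (hd.trans (Subgroup.relIndex_dvd_index_of_le (by rintro _ ⟨x, rfl⟩; exact hiT x)))
      let j : P →* T := ((MulAut.conj g⁻¹).toMonoidHom.comp i).codRestrict T (fun x => by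
        show g⁻¹ * i x * g⁻¹⁻¹ ∈ T
        rw [inv_inv]; exact hgT x)
      obtain ⟨t, ht⟩ := exists_conj_le (G := T) (R := j.range) (Q := i.range.subgroupOf T)
        (hP.of_surjective _ j.rangeRestrict_surjective) hQT hQTi
      have ht' : (t : G) * g⁻¹ ∈ i.range := by
        apply hnorm
        intro x
        have h9 := ht (j x) ⟨x, rfl⟩
        rw [Subgroup.mem_subgroupOf] at h9
        obtain ⟨y, hy⟩ := h9
        refine ⟨y, ?_⟩
        rw [hy]
        show (t : G) * (g⁻¹ * i x * g⁻¹⁻¹) * (t : G)⁻¹ = _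
        group
      obtain ⟨w, hw⟩ := ht'
      have hll : lam₁ = sg lam := by
        have h9 : g = (i w)⁻¹ * t := by
          rw [hw]; group
        have h10 : cj V (t : G)⁻¹ (sg lam) = lam₁ := by
          rw [hg, cj_cj, h9]
          have e : (i w)⁻¹ * (t : G) * (t : G)⁻¹ = i w⁻¹ := by rw [map_inv]; group
          rw [e, hinv₁]
        rw [← h10]
        have h11 : (t : G)⁻¹ ∈ T := T.inv_mem t.2
        exact h11
      -- twist by the extension
      let cμ : T →* ℂˣ := (Units.map (Int.castRingHom ℂ).toMonoidHom).comp μ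
      let ν₀ : P →* ℂˣ := ν * cμ.comp (i.codRestrict T hiT)
      have hcμ : ∀ t, cμ t ^ 2 = 1 := by
        intro t
        show (Units.map (Int.castRingHom ℂ).toMonoidHom (μ t)) ^ 2 = 1
        rw [← map_pow, Int.units_sq, map_one]
      have h12 : ν₀ x ^ 2 = 1 := by
        apply ih2 ν₀
        intro y hy
        have hy' : ((i y : G) : G ⧸ V) = 1 := hy
        rw [QuotientGroup.eq_one_iff] at hy'
        have h13 := congrFun hll ⟨i y, hy'⟩
        have h14 : lam₁ ⟨i y, hy'⟩ = ((ν y : ℂˣ) : ℂ) := by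
          show ((ν' ⟨i y, _⟩ : ℂˣ) : ℂ) = _
          rw [hν' y ⟨y, rfl⟩]
        have h15 : ((cμ (i.codRestrict T hiT y) : ℂˣ) : ℂ) = sg lam ⟨i y, hy'⟩ := by
          have h16 := hμ (i y) hy' (hiT y)
          show (((μ ⟨i y, hiT y⟩ : ℤˣ) : ℤ) : ℂ) = (((lam ⟨i y, hy'⟩ : ℤˣ) : ℤ) : ℂ)
          rw [h16]
        show ν y * cμ (i.codRestrict T hiT y) = 1
        apply Units.ext
        rw [Units.val_mul, ← h14, h15, h13, sg_mul_self, Units.val_one]
      have h13 : ν₀ x = ν x * cμ (i.codRestrict T hiT x) := rfl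
      rw [h13, mul_pow, hcμ, mul_one] at h12
      exact h12

end Cfsg.Agent.Lib.H76RO
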