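import Mathlib
import Cfsg.Agent.Lib.SzFixed
import Cfsg.Agent.Lib.SzLie

/-! (helper76) Elements of `Sz(8)` via characteristic polynomials. -/

set_option autoImplicit false
set_option linter.unusedSectionVars false
set_option linter.unusedSimpArgs false

namespace Cfsg.Agent.Lib.H76Sz

open Matrix Polynomial Cfsg.Lie Cfsg.Agent.Lib.SzFixed Cfsg.Agent.Lib.CharpolyFour

variable {F : Type*} [Field F]

/-- the trace -/
def tr4 (g : GL (Fin 4) F) : F := g.1 0 0 + g.1 1 1 + g.1 2 2 + g.1 3 3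

/-- the characteristic polynomial -/
noncomputable def pp (a b : F) : F[X] := X ^ 4 + C a * X ^ 3 + C b * X ^ 2 + C a * X + 1

variable [CharP F 2]

theorem e2_eq {k : ℕ} {g : GL (Fin 4) F} (hg : IsSz k g) : e2 g.1 = tr4 g ^ (2 ^ k) := by
  obtain ⟨hsp, hst⟩ := hg
  have h2 : (2 : F) = 0 := CharTwo.two_eq_zero
  have : Fact (Nat.Prime 2) := ⟨Nat.prime_two⟩
  have hfr : ∀ x y : F, (x + y) ^ (2 ^ k) = x ^ (2 ^ k) + y ^ (2 ^ k) := fun x y => add_pow_char_pow x y 2 k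
  have h0 := congrFun (congrFun hst 0) 0
  have h1 := congrFun (congrFun hst 1) 1
  have h2' := congrFun (congrFun hst 2) 2
  have h3 := congrFun (congrFun hst 3) 3
  simp only [star4, pairOf, Matrix.of_apply, Matrix.map_apply] at h0 h1 h2' h3
  simp at h0 h1 h2' h3
  rw [tr4, hfr, hfr, hfr, ← h0, ← h1, ← h2', ← h3]
  have hr := row_rel hsp 0 3
  have hc := col_rel' hsp 0 3
  have hr' := row_rel hsp 1 2
  simp at hr hc hr'
  simp only [e2]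
  linear_combination hc + hr' + (1 - g.1 1 0 * g.1 2 3 - g.1 2 0 * g.1 1 3 - g.1 0 3 * g.1 3 0
    - g.1 1 2 * g.1 2 1) * h2

theorem aeval_pp {g : GL (Fin 4) F} (hg : IsSz 2 g) : aeval g.1 (pp (tr4 g) (tr4 g ^ 4)) = 0 := by
  have h := Matrix.aeval_self_charpoly g.1
  have h2 : (2 : F[X]) = 0 := CharTwo.two_eq_zero
  have e : g.1.charpoly = pp (tr4 g) (tr4 g ^ 4) := by
    rw [charpoly_four, e2_eq hg, e3_eq hg.1, det_eq_one hg.1]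
    show X ^ 4 - C (tr4 g) * X ^ 3 + C (tr4 g ^ 4) * X ^ 2 - C (tr4 g) * X + C 1 = _
    rw [pp, C_1]
    linear_combination (-(C (tr4 g) * X ^ 3) - C (tr4 g) * X) * h2
  rwa [e] at h

theorem aeval_of_dvd {M : Matrix (Fin 4) (Fin 4) F} {p q : F[X]} (h : aeval M p = 0) (hd : p ∣ q) : aeval M q = 0 := by
  obtain ⟨r, rfl⟩ := hd
  rw [map_mul, h, zero_mul]

theorem pow_of_dvd {M : Matrix (Fin 4) (Fin 4) F} {p : F[X]} (h : aeval M p = 0) {n : ℕ} (hd : p ∣ X ^ n + 1) : M ^ n = 1 := by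
  have h1 := aeval_of_dvd h hd
  rw [map_add, map_pow, aeval_X, map_one] at h1
  rw [← neg_eq_of_add_eq_zero_right h1]
  ext i j
  simp [CharTwo.neg_eq]

theorem dvd0 : pp (0 : F) 0 ∣ X ^ 4 + 1 := by
  refine ⟨1, ?_⟩
  rw [pp, C_0]; ring

theorem dvd1 : pp (1 : F) 1 ∣ X ^ 5 + 1 := by
  refine ⟨X + 1, ?_⟩
  have h2 : (2 : F[X]) = 0 := CharTwo.two_eq_zero
  rw [pp, C_1]
  linear_combination (-(X ^ 4 + X ^ 3 + X ^ 2 + X)) * h2

theorem dvd7 {a : F} (ha : a ^ 3 + a + 1 = 0) : pp a (a ^ 4) ∣ X ^ 7 + 1 := by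
  obtain ⟨A, hA⟩ : ∃ A : F[X], A = C a := ⟨_, rfl⟩
  have h2 : (2 : F[X]) = 0 := CharTwo.two_eq_zero
  have h3 : A ^ 3 + A + 1 = 0 := by
    rw [hA, ← C_pow, ← C_add, ← C_1, ← C_add, ha, C_0]
  refine ⟨X^3 + A*X^2 + A*X + 1, ?_⟩
  rw [pp, C_pow, ← hA]
  linear_combination (- A*X^5 - A^2*X^4 + X^4 - A^2*X^3 + X^3 - A*X^2) * h3 +
    (- A*X^6 - A*X^4 - X^4 - A*X^3 - X^3 - A*X) * h2

theorem dvd13 {a : F} (ha : a ^ 3 + a ^ 2 + 1 = 0) : pp a (a ^ 4) ∣ X ^ 13 + 1 := by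
  obtain ⟨A, hA⟩ : ∃ A : F[X], A = C a := ⟨_, rfl⟩
  have h2 : (2 : F[X]) = 0 := CharTwo.two_eq_zero
  have h3 : A ^ 3 + A ^ 2 + 1 = 0 := by
    rw [hA, ← C_pow, ← C_pow, ← C_add, ← C_1, ← C_add, ha, C_0]
  refine ⟨X^9 + A*X^8 + A*X^7 + X^7 + A^2*X^6 + A*X^6 + X^6 + A*X^5 + A*X^4 + A^2*X^3 + A*X^3 + X^3 + A*X^2 + X^2 + A*X + 1, ?_⟩
  rw [pp, C_pow, ← hA]
  linear_combination (- A*X^11 + X^11 - A^2*X^10 + A*X^10 - X^10 - A^2*X^9 - X^9 - A^3*X^8 - A*X^8 + 2*X^8 - A^2*X^7 + A*X^7 - 2*X^7 - A^2*X^6 + A*X^6 - 2*X^6 - A^3*X^5 - A*X^5 + 2*X^5 - A^2*X^4 - X^4 - A^2*X^3 + A*X^3 - X^3 - A*X^2 + X^2) * h3 +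
    (- A*X^12 - A^2*X^11 - X^11 - 2*A*X^10 - A*X^9 - 2*A^2*X^8 - A*X^8 - X^8 - 2*A*X^7 - 2*A*X^6 - 2*A^2*X^5 - A*X^5 - X^5 - A*X^4 - 2*A*X^3 - A^2*X^2 - X^2 - A*X) * h2

theorem bezout {a : F} (ha : a ^ 3 + a ^ 2 + 1 = 0) : ∃ U V : F[X], pp a (a ^ 4) * U + pp (a ^ 2) (a ^ 8) * V = 1 := by
  obtain ⟨A, hA⟩ : ∃ A : F[X], A = C a := ⟨_, rfl⟩
  have h2 : (2 : F[X]) = 0 := CharTwo.two_eq_zero
  have h3 : A ^ 3 + A ^ 2 + 1 = 0 := by
    rw [hA, ← C_pow, ← C_pow, ← C_add, ← C_1, ← C_add, ha, C_0]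
  refine ⟨A*X^3 + X^3 + A^2*X^2 + A*X^2 + X^2 + A^2 + A + 1, A*X^3 + X^3 + X + A^2 + A, ?_⟩
  rw [pp, pp, C_pow, C_pow, C_pow, ← hA]
  linear_combination (-1 : F[X]) * ((- X^6 - A^6*X^5 + A^3*X^5 - 2*A^2*X^5 + A*X^5 - 3*X^5 - A^3*X^4 - A*X^4 + X^4 - A^5*X^3 + A^4*X^3 - A^3*X^3 + 2*A^2*X^3 - 4*A*X^3 + 2*X^3 - A^7*X^2 + A^4*X^2 - 2*A^3*X^2 + A^2*X^2 - 3*A*X^2 + 5*X^2 - A*X - X) * h3 +
    (- A*X^7 - X^7 - A^2*X^6 - A*X^6 + 2*A^2*X^5 - A*X^5 + X^5 - 3*A^2*X^4 - A*X^4 - X^4 - 3*A^2*X^3 - 2*X^3 - 4*A^2*X^2 + A*X^2 - 3*X^2 - A^2 - A) * h2)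

section eight
variable (h8 : ∀ x : F, x ^ 8 = x)
include h8

theorem four_cases (a : F) : a = 0 ∨ a = 1 ∨ a ^ 3 + a + 1 = 0 ∨ a ^ 3 + a ^ 2 + 1 = 0 := by
  have h2 : (2 : F) = 0 := CharTwo.two_eq_zero
  have h : a * ((a - 1) * ((a ^ 3 + a + 1) * (a ^ 3 + a ^ 2 + 1))) = 0 := by
    linear_combination h8 a + (a ^ 5 - a ^ 4) * h2
  rcases mul_eq_zero.1 h with h | h
  · exact Or.inl h
  rcases mul_eq_zero.1 h with h | h
  · exact Or.inr (Or.inl (sub_eq_zero.1 h))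
  rcases mul_eq_zero.1 h with h | h
  · exact Or.inr (Or.inr (Or.inl h))
  · exact Or.inr (Or.inr (Or.inr h))

end eight

theorem gl_pow {g : GL (Fin 4) F} {n : ℕ} (h : g.1 ^ n = 1) : g ^ n = 1 := by
  apply Units.ext
  rw [Units.val_pow_eq_pow_val, h, Units.val_one]

theorem pow_four {g : GL (Fin 4) F} (hg : IsSz 2 g) (ht : tr4 g = 0) : g ^ 4 = 1 := by
  have h := aeval_pp hg
  rw [ht, zero_pow (by norm_num)] at h
  exact gl_pow (pow_of_dvd h dvd0)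

theorem pow_five {g : GL (Fin 4) F} (hg : IsSz 2 g) (ht : tr4 g = 1) : g ^ 5 = 1 := by
  have h := aeval_pp hg
  rw [ht, one_pow] at h
  exact gl_pow (pow_of_dvd h dvd1)

theorem pow_seven {g : GL (Fin 4) F} (hg : IsSz 2 g) (ht : tr4 g ^ 3 + tr4 g + 1 = 0) : g ^ 7 = 1 :=
  gl_pow (pow_of_dvd (aeval_pp hg) (dvd7 ht))

theorem pow_thirteen {g : GL (Fin 4) F} (hg : IsSz 2 g) (ht : tr4 g ^ 3 + tr4 g ^ 2 + 1 = 0) : g ^ 13 = 1 :=
  gl_pow (pow_of_dvd (aeval_pp hg) (dvd13 ht))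

/-- explicit value -/
def PP (M : Matrix (Fin 4) (Fin 4) F) (a b : F) : Matrix (Fin 4) (Fin 4) F :=
  M ^ 4 + a • M ^ 3 + b • M ^ 2 + a • M + 1

theorem aeval_eq_PP (M : Matrix (Fin 4) (Fin 4) F) (a b : F) : aeval M (pp a b) = PP M a b := by
  rw [pp, PP]
  simp only [map_add, map_mul, map_pow, aeval_X, aeval_C, map_one, Algebra.algebraMap_eq_smul_one, smul_mul_assoc, one_mul]

theorem PP_map (f : F →+* F) (M : Matrix (Fin 4) (Fin 4) F) (a b : F) : (PP M a b).map f = PP (M.map f) (f a) (f b) := by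
  have h : ∀ A : Matrix (Fin 4) (Fin 4) F, A.map f = f.mapMatrix A := fun A => rfl
  have h' : ∀ (c : F) (A : Matrix (Fin 4) (Fin 4) F), f.mapMatrix (c • A) = f c • f.mapMatrix A := by
    intro c A
    ext i j
    simp
  rw [h, h, PP, PP]
  simp only [map_add, map_pow, h', map_one]

theorem PP_transpose (M : Matrix (Fin 4) (Fin 4) F) (a b : F) : (PP M a b)ᵀ = PP Mᵀ a b := by
  rw [PP, PP]
  simp only [Matrix.transpose_add, Matrix.transpose_smul, Matrix.transpose_pow, Matrix.transpose_one]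

theorem tr4_inv {g : GL (Fin 4) F} (hg : IsSz 2 g) : tr4 g⁻¹ = tr4 g := by
  have h1 : g.1.adjugate = (g⁻¹).1 := by
    have h2 : g.1.adjugate * g.1 = 1 := by rw [Matrix.adjugate_mul, det_eq_one hg.1, one_smul]
    calc g.1.adjugate = g.1.adjugate * (g.1 * (g⁻¹).1) := by rw [← Units.val_mul, mul_inv_cancel, Units.val_one, mul_one]
      _ = (g⁻¹).1 := by rw [← mul_assoc, h2, one_mul]
  have h3 := trace_adjugate g.1
  rw [h1, e3_eq hg.1, Matrix.trace, Fin.sum_univ_four] at h3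
  exact h3

theorem aeval_comm {M X B : Matrix (Fin 4) (Fin 4) F} (h : M * X = X * B) (q : F[X]) : aeval M q * X = X * aeval B q := by
  induction q using Polynomial.induction_on with
  | C c => rw [aeval_C, aeval_C, Algebra.commutes]
  | add p q hp hq => rw [map_add, map_add, add_mul, mul_add, hp, hq]
  | monomial n c ih =>
    have e : ∀ N : Matrix (Fin 4) (Fin 4) F, aeval N (C c * Polynomial.X ^ (n + 1)) = aeval N (C c * Polynomial.X ^ n) * N := by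
      intro N
      rw [pow_succ, ← mul_assoc]
      rw [map_mul (aeval N) (C c * Polynomial.X ^ n), aeval_X]
    rw [e, e, mul_assoc, h, ← mul_assoc, ih, mul_assoc]

/-- the element of order 13 has no fixed vectors on `V ⊗ V^σ`. -/
theorem fpf (hmem : ∀ g : GL (Fin 4) F, IsSz 2 g → IsSz 2 g⁻¹) {g : GL (Fin 4) F} (hg : IsSz 2 g) (ht : tr4 g ^ 3 + tr4 g ^ 2 + 1 = 0) {X : Matrix (Fin 4) (Fin 4) F}
    (hX : g.1 * X * (g.1.map (frobenius F 2))ᵀ = X) : X = 0 := by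
  obtain ⟨B, hB⟩ : ∃ B, B = ((g⁻¹).1.map (frobenius F 2))ᵀ := ⟨_, rfl⟩
  have h1 : (g.1.map (frobenius F 2))ᵀ * B = 1 := by
    rw [hB, ← Matrix.transpose_mul, ← Matrix.map_mul, ← Units.val_mul, inv_mul_cancel, Units.val_one,
      Matrix.map_one _ (map_zero _) (map_one _), Matrix.transpose_one]
  have h2 : g.1 * X = X * B := by
    nth_rw 2 [← hX]
    rw [mul_assoc, h1, mul_one]
  have h3 : aeval B (pp (tr4 g ^ 2) (tr4 g ^ 8)) = 0 := by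
    have h4 := aeval_pp (hmem g hg)
    rw [tr4_inv hg, aeval_eq_PP] at h4
    have h5 : ((PP (g⁻¹).1 (tr4 g) (tr4 g ^ 4)).map (frobenius F 2))ᵀ = ((0 : Matrix (Fin 4) (Fin 4) F).map (frobenius F 2))ᵀ := by
      rw [h4]
    rw [PP_map, PP_transpose, ← hB] at h5
    rw [aeval_eq_PP]
    have e1 : frobenius F 2 (tr4 g) = tr4 g ^ 2 := rfl
    have e2 : frobenius F 2 (tr4 g ^ 4) = tr4 g ^ 8 := by
      show (tr4 g ^ 4) ^ 2 = _
      ring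
    rw [e1, e2] at h5
    rw [h5]
    ext i j
    simp
  obtain ⟨U, V, hUV⟩ := bezout ht
  have h6 : aeval B (1 : F[X]) = 1 := map_one _
  rw [← hUV, map_add, map_mul, map_mul, h3, zero_mul, add_zero] at h6
  calc X = X * (aeval B (pp (tr4 g) (tr4 g ^ 4)) * aeval B U) := by rw [h6, mul_one]
    _ = (aeval g.1 (pp (tr4 g) (tr4 g ^ 4)) * X) * aeval B U := by rw [← mul_assoc, aeval_comm h2]
    _ = 0 := by rw [aeval_pp hg, zero_mul, zero_mul]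

end Cfsg.Agent.Lib.H76Sz
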