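import Mathlib
import Cfsg.Agent.Lib.H76SzB
import Cfsg.Agent.Lib.H76PGA

/-! (helper76) `Sz(8):3` and its 48-dimensional module. -/

set_option autoImplicit false
set_option linter.unusedSectionVars false
set_option linter.unusedSimpArgs false

namespace Cfsg.Agent.Lib.H76Sz

open Matrix Cfsg.Lie Cfsg.Agent.Lib.SzFixed

variable {F : Type*} [Field F]

/-- entrywise application -/
def ent (τ : RingAut F) : GL (Fin 4) F →* GL (Fin 4) F :=
  Units.map ((RingEquiv.toRingHom τ).mapMatrix : Matrix (Fin 4) (Fin 4) F →+* Matrix (Fin 4) (Fin 4) F)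

theorem ent_val (τ : RingAut F) (g : GL (Fin 4) F) : (ent τ g).1 = g.1.map τ := rfl

theorem ent_isSz {τ : RingAut F} {g : GL (Fin 4) F} (hg : IsSz 2 g) : IsSz 2 (ent τ g) := by
  refine ⟨?_, ?_⟩
  · have h1 := (SzLie.mem_Sp4_iff g).1 hg.1
    rw [SzLie.mem_Sp4_iff, ent_val]
    have h2 := congrArg (fun A : Matrix (Fin 4) (Fin 4) F => (RingEquiv.toRingHom τ).mapMatrix A) h1
    simp only [map_mul] at h2
    have h3 : (RingEquiv.toRingHom τ).mapMatrix (SzLie.Tm F) = SzLie.Tm F := by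
      ext i j
      fin_cases i <;> fin_cases j <;> simp [SzLie.Tm]
    rw [h3] at h2
    exact h2
  · rw [ent_val]
    have h1 : (star4 g.1).map τ = (g.1.map (fun x => x ^ (2 ^ 2))).map τ := by rw [hg.2]
    have h2 : star4 (g.1.map τ) = (star4 g.1).map τ := by
      ext i j
      simp [star4]
    rw [h2, h1]
    ext i j
    simp

variable (F) in
/-- the group `Sz(8)` -/
abbrev SS [CharP F 2] : Subgroup (GL (Fin 4) F) := Cfsg.Lie.Sz F (2 ^ 2)

variable [CharP F 2]

/-- the action of the field automorphisms -/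
@[reducible] def actA (F : Type*) [Field F] [CharP F 2] : MulDistribMulAction (RingAut F) (SS F) where
  smul τ s := ⟨ent τ s.1, mem_Sz_iff.2 (ent_isSz (mem_Sz_iff.1 s.2))⟩
  one_smul s := by
    apply Subtype.ext
    apply Units.ext
    ext i j
    rfl
  mul_smul τ τ' s := by
    apply Subtype.ext
    apply Units.ext
    ext i j
    rfl
  smul_mul τ s t := by
    apply Subtype.ext
    exact map_mul (ent τ) s.1 t.1
  smul_one τ := by
    apply Subtype.ext
    exact map_one (ent τ)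

/-- as a homomorphism -/
def phiA (F : Type*) [Field F] [CharP F 2] : RingAut F →* MulAut (SS F) :=
  @MulDistribMulAction.toMulAut (RingAut F) (SS F) _ _ (actA F)

theorem phiA_val (τ : RingAut F) (s : SS F) : (phiA F τ s).1.1 = s.1.1.map τ := rfl

section eight
variable (h8 : ∀ x : F, x ^ 8 = x)

/-- the Frobenius automorphism -/
def sig : RingAut F where
  toFun x := x ^ 2
  invFun x := x ^ 4
  left_inv x := by
    show (x ^ 2) ^ 4 = x
    rw [← pow_mul]; exact h8 x
  right_inv x := by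
    show (x ^ 4) ^ 2 = x
    rw [← pow_mul]; exact h8 x
  map_mul' x y := mul_pow x y 2
  map_add' x y := by
    show (x + y) ^ 2 = x ^ 2 + y ^ 2
    exact CharTwo.add_sq x y

theorem sig_apply (x : F) : sig h8 x = x ^ 2 := rfl

theorem sig_cube : (sig h8) ^ 3 = 1 := by
  apply RingEquiv.ext
  intro x
  show ((x ^ 2) ^ 2) ^ 2 = x
  rw [← pow_mul, ← pow_mul]
  exact h8 x

/-- the group of automorphisms -/
abbrev AA : Subgroup (RingAut F) := Subgroup.zpowers (sig h8)

theorem AA_cases (τ : AA h8) : (τ : RingAut F) = 1 ∨ (τ : RingAut F) = sig h8 ∨ (τ : RingAut F) = (sig h8) ^ 2 := by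
  obtain ⟨τ, k, rfl⟩ := τ
  have h3 : (sig h8) ^ (3 : ℤ) = 1 := by
    have := sig_cube h8
    exact_mod_cast this
  have e := zpow_eq_zpow_emod k h3
  have hk : k % 3 = 0 ∨ k % 3 = 1 ∨ k % 3 = 2 := by omega
  show (sig h8) ^ k = 1 ∨ (sig h8) ^ k = _ ∨ (sig h8) ^ k = _
  rcases hk with h | h | h
  · left; rw [e, h]; rfl
  · right; left; rw [e, h]; exact zpow_one _
  · right; right; rw [e, h]; exact zpow_ofNat _ 2

theorem AA_cube (τ : AA h8) : τ ^ 3 = 1 := by
  apply Subtype.ext
  obtain ⟨τ, k, rfl⟩ := τ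
  show ((sig h8) ^ k) ^ 3 = 1
  rw [← _root_.zpow_natCast, ← _root_.zpow_mul, mul_comm, _root_.zpow_mul, _root_.zpow_natCast, sig_cube, _root_.one_zpow]

theorem AA_fixed {τ : AA h8} (hτ : τ ≠ 1) {x : F} (hx : (τ : RingAut F) x = x) : x = 0 ∨ x = 1 := by
  have key : x ^ 2 = x → x = 0 ∨ x = 1 := by
    intro h
    have h1 : x * (x - 1) = 0 := by linear_combination h
    rcases mul_eq_zero.1 h1 with h2 | h2
    · exact Or.inl h2
    · exact Or.inr (sub_eq_zero.1 h2)
  rcases AA_cases h8 τ with h | h | h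
  · exact absurd (Subtype.ext h) hτ
  · rw [h] at hx
    exact key hx
  · rw [h] at hx
    have hx' : (x ^ 2) ^ 2 = x := hx
    apply key
    have h9 := h8 x
    have e : x ^ 8 = (((x ^ 2) ^ 2)) ^ 2 := by ring
    rw [e, hx'] at h9
    exact h9

/-- the group `Sz(8):3` -/
abbrev KK : Type _ := SemidirectProduct (SS F) (AA h8) ((phiA F).comp (AA h8).subtype)

/-- the action on 4 × 4 matrices -/
@[reducible] def actV : DistribMulAction (KK h8) (Matrix (Fin 4) (Fin 4) F) where
  smul k X := k.left.1.1 * X.map (k.right : RingAut F) * (k.left.1.1.map (frobenius F 2))ᵀ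
  one_smul X := by
    show ((1 : KK h8).left.1.1) * X.map _ * ((1 : KK h8).left.1.1.map (frobenius F 2))ᵀ = X
    rw [SemidirectProduct.one_left, SemidirectProduct.one_right]
    show (1 : Matrix (Fin 4) (Fin 4) F) * X.map (1 : RingAut F) * ((1 : Matrix (Fin 4) (Fin 4) F).map (frobenius F 2))ᵀ = X
    rw [Matrix.map_one _ (map_zero _) (map_one _), Matrix.transpose_one, one_mul, mul_one]
    ext i j
    rfl
  mul_smul k k' X := by
    show ((k * k').left.1.1) * X.map ((k * k').right : RingAut F) * ((k * k').left.1.1.map (frobenius F 2))ᵀ =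
      k.left.1.1 * (k'.left.1.1 * X.map (k'.right : RingAut F) * (k'.left.1.1.map (frobenius F 2))ᵀ).map (k.right : RingAut F) *
        (k.left.1.1.map (frobenius F 2))ᵀ
    rw [SemidirectProduct.mul_left, SemidirectProduct.mul_right]
    have e1 : (k.left * (((phiA F).comp (AA h8).subtype) k.right) k'.left).1.1 = k.left.1.1 * (k'.left.1.1.map (k.right : RingAut F)) := rfl
    have e2 : X.map ((k.right * k'.right : AA h8) : RingAut F) = (X.map (k'.right : RingAut F)).map (k.right : RingAut F) := by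
      ext i j
      rfl
    have e3 : ∀ A B : Matrix (Fin 4) (Fin 4) F, (A * B).map (k.right : RingAut F) = A.map (k.right : RingAut F) * B.map (k.right : RingAut F) :=
      fun A B => map_mul ((RingEquiv.toRingHom (k.right : RingAut F)).mapMatrix : Matrix (Fin 4) (Fin 4) F →+* Matrix (Fin 4) (Fin 4) F) A B
    have e4 : (((k'.left.1.1.map (frobenius F 2))ᵀ).map (k.right : RingAut F)) = ((k'.left.1.1.map (k.right : RingAut F)).map (frobenius F 2))ᵀ := by
      ext i j
      show (k.right : RingAut F) ((k'.left.1.1 j i) ^ 2) = ((k.right : RingAut F) (k'.left.1.1 j i)) ^ 2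
      rw [map_pow]
    rw [e1, e2, e3, e3, e4, Matrix.map_mul, Matrix.transpose_mul]
    simp only [mul_assoc]
  smul_zero k := by
    show k.left.1.1 * (0 : Matrix (Fin 4) (Fin 4) F).map (k.right : RingAut F) * _ = 0
    rw [Matrix.map_zero _ (map_zero _), mul_zero, zero_mul]
  smul_add k X Y := by
    show k.left.1.1 * (X + Y).map (k.right : RingAut F) * _ = k.left.1.1 * X.map (k.right : RingAut F) * _ + k.left.1.1 * Y.map (k.right : RingAut F) * _
    rw [Matrix.map_add _ (fun a b => map_add _ a b), mul_add, add_mul]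

/-! elements -/

/-- the elements `g(b)` -/
def gm (b : F) : Matrix (Fin 4) (Fin 4) F := !![0, 0, 0, 1; 0, 0, 1, 0; 0, 1, 0, b; 1, 0, b, b ^ 4]

/-- inverses -/
def gm' (b : F) : Matrix (Fin 4) (Fin 4) F := !![b ^ 4, b, 0, 1; b, 0, 1, 0; 0, 1, 0, 0; 1, 0, 0, 0]

theorem gm_mul (b : F) : gm b * gm' b = 1 := by
  have hc : (2 : F) = 0 := CharTwo.two_eq_zero
  ext i j
  fin_cases i <;> fin_cases j <;> simp [gm, gm', Matrix.mul_apply, Fin.sum_univ_four, CharTwo.add_self_eq_zero]

theorem gm_mul' (b : F) : gm' b * gm b = 1 := mul_eq_one_comm.1 (gm_mul b)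

/-- the element of `GL` -/
def gg (b : F) : GL (Fin 4) F := ⟨gm b, gm' b, gm_mul b, gm_mul' b⟩

theorem gg_val (b : F) : (gg b).1 = gm b := rfl

include h8 in
theorem gg_isSz (b : F) : IsSz 2 (gg b) := by
  have hc : (2 : F) = 0 := CharTwo.two_eq_zero
  have h16 : b ^ 16 = b ^ 2 := by
    have : b ^ 16 = (b ^ 8) ^ 2 := by ring
    rw [this, h8]
  refine ⟨?_, ?_⟩
  · rw [SzLie.mem_Sp4_iff, gg_val]
    ext i j
    fin_cases i <;> fin_cases j <;> simp [gm, SzLie.Tm, Matrix.mul_apply, Fin.sum_univ_four, CharTwo.add_self_eq_zero]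
  · rw [gg_val]
    ext i j
    fin_cases i <;> fin_cases j <;> simp [gm, star4, pairOf, CharTwo.neg_eq, ← pow_mul, h16] <;> ring

theorem tr_gg (b : F) : tr4 (gg b) = b ^ 4 := by
  rw [tr4, gg_val]
  simp [gm]

/-- the torus -/
def hm (t : F) : Matrix (Fin 4) (Fin 4) F := Matrix.diagonal ![t, t ^ 3, t ^ 4, t ^ 6]

theorem hm_mul {t : F} (h : t ^ 7 = 1) : hm t * hm (t ^ 6) = 1 := by
  rw [hm, hm, Matrix.diagonal_mul_diagonal, ← Matrix.diagonal_one]
  congr 1
  funext i
  fin_cases i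
  · show t * t ^ 6 = 1
    linear_combination h
  · show t ^ 3 * (t ^ 6) ^ 3 = 1
    linear_combination (t ^ 14 + t ^ 7 + 1) * h
  · show t ^ 4 * (t ^ 6) ^ 4 = 1
    linear_combination (t ^ 21 + t ^ 14 + t ^ 7 + 1) * h
  · show t ^ 6 * (t ^ 6) ^ 6 = 1
    linear_combination (t ^ 35 + t ^ 28 + t ^ 21 + t ^ 14 + t ^ 7 + 1) * h

/-- the torus elements -/
def hh (t : F) (h : t ^ 7 = 1) : GL (Fin 4) F := ⟨hm t, hm (t ^ 6), hm_mul h, mul_eq_one_comm.1 (hm_mul h)⟩

theorem hh_val (t : F) (h : t ^ 7 = 1) : (hh t h).1 = hm t := rfl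

theorem hh_isSz (t : F) (h : t ^ 7 = 1) : IsSz 2 (hh t h) := by
  refine ⟨?_, ?_⟩
  · rw [SzLie.mem_Sp4_iff, hh_val]
    ext i j
    fin_cases i <;> fin_cases j <;> simp [hm, SzLie.Tm, Matrix.mul_apply, Fin.sum_univ_four] <;> linear_combination h
  · rw [hh_val]
    ext i j
    fin_cases i <;> fin_cases j <;> simp [hm, star4, pairOf]
    · ring
    · linear_combination (- t ^ 5) * h
    · linear_combination (t ^ 2 - t ^ 9 - t ^ 2) * h
    · linear_combination (t ^ 3 - t ^ 17 - t ^ 10 - t ^ 3) * h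

end eight

end Cfsg.Agent.Lib.H76Sz
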