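import Mathlib
import Cfsg.Agent.Lib.H76SzC

/-! (helper76) `2^48:Sz(8):3` has the prime graph of `PSp(6,3)`; unbounded version. -/

set_option autoImplicit false
set_option linter.unusedSectionVars false
set_option linter.unusedSimpArgs false

namespace Cfsg.Agent.Lib.H76PG

open Cfsg.Agent.Lib.PrimeGraphExt SemidirectProduct

theorem unb {K V A : Type} [Group K] [AddCommGroup V] [DistribMulAction K V] [Group A]
    [Finite K] [Finite V] (κ : K →* A) (hA : ∀ a : A, a ^ 3 = 1) (hV : ∀ v : V, v + v = 0)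
    (h1 : ∀ k : K, κ k = 1 → k ^ 4 = 1 ∨ k ^ 5 = 1 ∨ k ^ 7 = 1 ∨ k ^ 13 = 1)
    (h2 : ∀ k s : K, κ s = 1 → (s ^ 7 = 1 ∨ s ^ 13 = 1) → s ≠ 1 → k * s = s * k → κ k = 1)
    (h3 : ∀ (s : K) (v : V), κ s = 1 → s ^ 13 = 1 → s ≠ 1 → s • v = v → v = 0)
    (e15 : ∃ x y : K, orderOf x = 3 ∧ orderOf y = 5 ∧ Commute x y)
    (e6 : ∃ x y : K, orderOf x = 2 ∧ orderOf y = 3 ∧ Commute x y)
    (e10 : ∃ (y : K) (v : V), orderOf y = 5 ∧ v ≠ 0 ∧ y • v = v)
    (e14 : ∃ (y : K) (v : V), orderOf y = 7 ∧ v ≠ 0 ∧ y • v = v)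
    (e13 : ∃ y : K, orderOf y = 13) {G : Type*} [Group G] (hG : Spec13 G) (N : ℕ) :
    ∃ (H : Type) (_ : Group H) (_ : Finite H), N < Nat.card H ∧ SameGraph G H := by
  have hs := spec κ hA hV h1 h2 h3 e15 e6 e10 e14 e13
  have hfin : Finite (Multiplicative V ⋊[ψ K V] K) := by
    have : Finite (Multiplicative V) := inferInstanceAs (Finite V)
    exact Finite.of_equiv _ (SemidirectProduct.equivProd (φ := ψ K V)).symm
  letI : DistribMulAction (Multiplicative V ⋊[ψ K V] K) V := DistribMulAction.compHom V (rightHom : Multiplicative V ⋊[ψ K V] K →* K)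
  obtain ⟨H, iH, fH, hN, hHs⟩ := unbounded (K := Multiplicative V ⋊[ψ K V] K) (V := V) 2 Nat.prime_two
    (fun v => by rw [two_nsmul]; exact hV v)
    (by
      obtain ⟨y, v, -, hv, -⟩ := e10
      exact ⟨v, hv⟩)
    ((hs.primes 2 Nat.prime_two).2 (Or.inl rfl))
    (by
      intro r hr hr2
      by_cases hd : r ∣ Nat.card (Multiplicative V ⋊[ψ K V] K)
      · rcases (hs.primes r hr).1 hd with rfl | rfl | rfl | rfl | rfl
        · exact absurd rfl hr2
        · exact Or.inl hs.e6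
        · exact Or.inl hs.e10
        · exact Or.inl hs.e14
        · right
          intro g hg v hv
          have hκ := kappa_one κ hA hg (by norm_num)
          refine h3 (rightHom g) v hκ (by rw [← map_pow, ← hg, pow_orderOf_eq_one, map_one]) ?_ hv
          intro h4
          have := dvd_of_pow (m := 1) hV hg (by rw [pow_one]; exact h4)
          norm_num at this
      · right
        intro g hg
        exfalso
        apply hd
        rw [← hg]
        exact orderOf_dvd_natCard g) N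
  exact ⟨H, iH, fH, hN, (hG.sameGraph hs).trans hHs⟩

end Cfsg.Agent.Lib.H76PG

namespace Cfsg.Agent.Lib.H76Sz

open Matrix Cfsg.Lie Cfsg.Agent.Lib.SzFixed Cfsg.Agent.Lib.H76PG SemidirectProduct Cfsg.Agent.Lib.PrimeGraphExt

section
variable {F : Type} [Field F] [CharP F 2] (h8 : ∀ x : F, x ^ 8 = x)

theorem pow_coprime {G : Type*} [Group G] {s : G} {m n : ℕ} (hm : s ^ m = 1) (hn : s ^ n = 1) (hc : Nat.Coprime m n) : s = 1 := by
  have h3 := Nat.dvd_gcd (orderOf_dvd_of_pow_eq_one hm) (orderOf_dvd_of_pow_eq_one hn)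
  rw [hc.gcd_eq_one, Nat.dvd_one, orderOf_eq_one_iff] at h3
  exact h3

/-- elements with trivial image are in the normal subgroup -/
theorem eq_inl {k : KK h8} (hk : rightHom k = 1) : k = inl k.left := by
  apply SemidirectProduct.ext
  · rfl
  · exact hk

theorem sz_pow {s : SS F} {n : ℕ} (h : s.1 ^ n = 1) : s ^ n = 1 := Subtype.ext h

theorem inl_pow {s : SS F} {n : ℕ} (h : s.1 ^ n = 1) : (inl s : KK h8) ^ n = 1 := by
  rw [← map_pow, sz_pow h, map_one]

theorem c1 (k : KK h8) (hk : rightHom k = 1) : k ^ 4 = 1 ∨ k ^ 5 = 1 ∨ k ^ 7 = 1 ∨ k ^ 13 = 1 := by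
  rw [eq_inl h8 hk]
  have hs := mem_Sz_iff.1 k.left.2
  rcases four_cases h8 (tr4 k.left.1) with h | h | h | h
  · exact Or.inl (inl_pow h8 (pow_four hs h))
  · exact Or.inr (Or.inl (inl_pow h8 (pow_five hs h)))
  · exact Or.inr (Or.inr (Or.inl (inl_pow h8 (pow_seven hs h))))
  · exact Or.inr (Or.inr (Or.inr (inl_pow h8 (pow_thirteen hs h))))

theorem c2 (k s : KK h8) (hs : rightHom s = 1) (h7 : s ^ 7 = 1 ∨ s ^ 13 = 1) (h1 : s ≠ 1) (hc : k * s = s * k) :
    rightHom k = 1 := by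
  by_contra hk
  have hsz := mem_Sz_iff.1 s.left.2
  have e1 := congrArg SemidirectProduct.left hc
  rw [mul_left, mul_left] at e1
  have hs' : s.right = 1 := hs
  rw [hs', map_one, MulAut.one_apply] at e1
  have e2 : k.left.1.1 * (s.left.1.1.map (k.right : RingAut F)) = s.left.1.1 * k.left.1.1 := congrArg (fun x : SS F => x.1.1) e1
  have e3 : s.left.1.1.map (k.right : RingAut F) = (k.left.1⁻¹).1 * (s.left.1.1 * k.left.1.1) := by
    rw [← e2, ← mul_assoc, ← Units.val_mul, inv_mul_cancel, Units.val_one, one_mul]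
  have e4 : Matrix.trace (s.left.1.1.map (k.right : RingAut F)) = Matrix.trace s.left.1.1 := by
    rw [e3, Matrix.trace_mul_comm, mul_assoc, ← Units.val_mul, mul_inv_cancel, Units.val_one, mul_one]
  have e5 : (k.right : RingAut F) (tr4 s.left.1) = tr4 s.left.1 := by
    rw [Matrix.trace, Matrix.trace, Fin.sum_univ_four, Fin.sum_univ_four] at e4
    rw [tr4, map_add, map_add, map_add]
    exact e4
  have e6 := AA_fixed h8 (τ := k.right) hk e5
  apply h1
  rcases e6 with h | h
  · have h4 : s ^ 4 = 1 := by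
      rw [eq_inl h8 hs]
      exact inl_pow h8 (pow_four hsz h)
    rcases h7 with h7 | h7
    · exact pow_coprime h4 h7 (by norm_num)
    · exact pow_coprime h4 h7 (by norm_num)
  · have h5 : s ^ 5 = 1 := by
      rw [eq_inl h8 hs]
      exact inl_pow h8 (pow_five hsz h)
    rcases h7 with h7 | h7
    · exact pow_coprime h5 h7 (by norm_num)
    · exact pow_coprime h5 h7 (by norm_num)

theorem smul_inl (s : SS F) (X : Matrix (Fin 4) (Fin 4) F) : letI := actV h8
    (inl s : KK h8) • X = s.1.1 * X * (s.1.1.map (frobenius F 2))ᵀ := by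
  show s.1.1 * X.map ((1 : AA h8) : RingAut F) * (s.1.1.map (frobenius F 2))ᵀ = _
  have : X.map ((1 : AA h8) : RingAut F) = X := by
    ext i j
    rfl
  rw [this]

theorem c3 (s : KK h8) (X : Matrix (Fin 4) (Fin 4) F) (hs : rightHom s = 1) (h13 : s ^ 13 = 1) (h1 : s ≠ 1) : letI := actV h8
    s • X = X → X = 0 := by
  intro hX
  have hsz := mem_Sz_iff.1 s.left.2
  rw [eq_inl h8 hs, smul_inl] at hX
  refine fpf (fun g hg => mem_Sz_iff.1 (inv_mem (mem_Sz_iff.2 hg))) hsz ?_ hX
  rcases four_cases h8 (tr4 s.left.1) with h | h | h | h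
  · exfalso
    apply h1
    refine pow_coprime (m := 4) ?_ h13 (by norm_num)
    rw [eq_inl h8 hs]
    exact inl_pow h8 (pow_four hsz h)
  · exfalso
    apply h1
    refine pow_coprime (m := 5) ?_ h13 (by norm_num)
    rw [eq_inl h8 hs]
    exact inl_pow h8 (pow_five hsz h)
  · exfalso
    apply h1
    refine pow_coprime (m := 7) ?_ h13 (by norm_num)
    rw [eq_inl h8 hs]
    exact inl_pow h8 (pow_seven hsz h)
  · exact h

theorem inl_order {s : SS F} {p : ℕ} [Fact p.Prime] (h : s.1 ^ p = 1) (h1 : s.1 ≠ 1) : orderOf (inl s : KK h8) = p := by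
  rw [orderOf_injective _ inl_injective]
  exact orderOf_eq_prime (sz_pow h) (fun h2 => h1 (congrArg Subtype.val h2))

theorem gg_ne_one (b : F) : gg b ≠ 1 := by
  intro h
  have h1 := congrFun (congrFun (congrArg (fun g : GL (Fin 4) F => g.1) h) 0) 0
  have h2 : gm b 0 0 = (1 : Matrix (Fin 4) (Fin 4) F) 0 0 := h1
  simp [gm] at h2

/-- the element of order 5 -/
def g5 : SS F := ⟨gg 1, mem_Sz_iff.2 (gg_isSz h8 1)⟩

theorem g5_order : orderOf (inl (g5 h8) : KK h8) = 5 := by
  have : Fact (Nat.Prime 5) := ⟨by norm_num⟩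
  exact inl_order h8 (pow_five (gg_isSz h8 1) (by rw [tr_gg, one_pow] : tr4 (gg (1 : F)) = 1)) (gg_ne_one 1)

theorem sig_ne_one (hx : ∃ x : F, x ≠ 0 ∧ x ≠ 1) : (⟨sig h8, Subgroup.mem_zpowers _⟩ : AA h8) ≠ 1 := by
  obtain ⟨x, h0, h1⟩ := hx
  intro h
  have h2 := congrArg (fun τ : AA h8 => (τ : RingAut F) x) h
  have h3 : x ^ 2 = x := h2
  have h4 : x * (x - 1) = 0 := by linear_combination h3
  rcases mul_eq_zero.1 h4 with h5 | h5
  · exact h0 h5
  · exact h1 (sub_eq_zero.1 h5)

theorem inr_order (hx : ∃ x : F, x ≠ 0 ∧ x ≠ 1) : orderOf (inr (⟨sig h8, Subgroup.mem_zpowers _⟩ : AA h8) : KK h8) = 3 := by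
  have : Fact (Nat.Prime 3) := ⟨by norm_num⟩
  rw [orderOf_injective _ inr_injective]
  exact orderOf_eq_prime (AA_cube h8 _) (sig_ne_one h8 hx)

theorem commute_of_fixed {s : SS F} (hs : s.1.1.map (sig h8) = s.1.1) :
    Commute (inr (⟨sig h8, Subgroup.mem_zpowers _⟩ : AA h8) : KK h8) (inl s) := by
  apply SemidirectProduct.ext
  · rw [mul_left, mul_left, left_inr, left_inl, right_inr, right_inl, map_one, one_mul, mul_one]
    apply Subtype.ext
    apply Units.ext
    exact hs
  · rw [mul_right, mul_right, right_inr, right_inl, one_mul, mul_one]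

include h8 in
theorem main [Finite F] (hx : ∃ x : F, x ≠ 0 ∧ x ≠ 1) {G : Type*} [Group G] (hG : Spec13 G) (N : ℕ) :
    ∃ (H : Type) (_ : Group H) (_ : Finite H), N < Nat.card H ∧ SameGraph G H := by
  letI := actV h8
  have hfinA : Finite (RingAut F) := Finite.of_injective (fun (τ : RingAut F) (x : F) => τ x) (fun τ τ' h => RingEquiv.ext (fun x => congrFun h x))
  have hfinS : Finite (SS F) := inferInstance
  have hfin : Finite (KK h8) := Finite.of_equiv _ (SemidirectProduct.equivProd (φ := (phiA F).comp (AA h8).subtype)).symm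
  have f2 : Fact (Nat.Prime 2) := ⟨by norm_num⟩
  have f7 : Fact (Nat.Prime 7) := ⟨by norm_num⟩
  have f13 : Fact (Nat.Prime 13) := ⟨by norm_num⟩
  refine unb (K := KK h8) (V := Matrix (Fin 4) (Fin 4) F) (A := AA h8) rightHom (AA_cube h8) ?_ (c1 h8) (c2 h8) ?_ ?_ ?_ ?_ ?_ ?_ hG N
  · intro v
    ext i j
    exact CharTwo.add_self_eq_zero _
  · exact fun s v hs h13 h1 hv => c3 h8 s v hs h13 h1 hv
  · refine ⟨_, _, inr_order h8 hx, g5_order h8, commute_of_fixed h8 ?_⟩
    show (gm (1 : F)).map (sig h8) = gm 1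
    ext i j
    fin_cases i <;> fin_cases j <;> simp [gm, sig_apply]
  · refine ⟨inl ⟨Jgl F, Jgl_mem 2⟩, _, inl_order h8 Jgl_sq Jgl_ne_one, inr_order h8 hx, (commute_of_fixed h8 ?_).symm⟩
    show (SzFixed.J F).map (sig h8) = SzFixed.J F
    ext i j
    fin_cases i <;> fin_cases j <;> simp [SzFixed.J, sig_apply]
  · refine ⟨_, SzFixed.J F, g5_order h8, ?_, ?_⟩
    · intro h
      have := congrFun (congrFun h 0) 3
      simp [SzFixed.J] at this
    · rw [smul_inl]
      have e : (g5 h8).1.1.map (frobenius F 2) = (g5 h8).1.1 := by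
        show (gm (1 : F)).map (frobenius F 2) = gm 1
        ext i j
        fin_cases i <;> fin_cases j <;> simp [gm]
      rw [e]
      exact SzFixed.mul_transpose (gg_isSz h8 1).1
  · obtain ⟨x, h0, h1⟩ := hx
    have h7 : x ^ 7 = 1 := by
      have h := h8 x
      have h1 : x * (x ^ 7 - 1) = 0 := by linear_combination h
      exact sub_eq_zero.1 ((mul_eq_zero.1 h1).resolve_left h0)
    refine ⟨inl ⟨hh x h7, mem_Sz_iff.2 (hh_isSz x h7)⟩, Matrix.single 0 1 1, inl_order h8 ?_ ?_, ?_, ?_⟩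
    · show (hh x h7) ^ 7 = 1
      apply gl_pow
      rw [hh_val, hm, Matrix.diagonal_pow, ← Matrix.diagonal_one]
      congr 1
      funext i
      fin_cases i
      · exact h7
      · show (x ^ 3) ^ 7 = 1
        rw [← pow_mul, mul_comm, pow_mul, h7, one_pow]
      · show (x ^ 4) ^ 7 = 1
        rw [← pow_mul, mul_comm, pow_mul, h7, one_pow]
      · show (x ^ 6) ^ 7 = 1
        rw [← pow_mul, mul_comm, pow_mul, h7, one_pow]
    · intro h
      have h2 := congrFun (congrFun (congrArg (fun g : GL (Fin 4) F => g.1) h) 0) 0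
      have h3 : hm x 0 0 = (1 : Matrix (Fin 4) (Fin 4) F) 0 0 := h2
      simp [hm] at h3
      exact h1 h3
    · intro h
      have := congrFun (congrFun h 0) 1
      simp at this
    · rw [smul_inl]
      show hm x * Matrix.single 0 1 1 * ((hm x).map (frobenius F 2))ᵀ = Matrix.single 0 1 1
      have e : ((hm x).map (frobenius F 2))ᵀ = Matrix.diagonal ![x ^ 2, (x ^ 3) ^ 2, (x ^ 4) ^ 2, (x ^ 6) ^ 2] := by
        ext i j
        fin_cases i <;> fin_cases j <;> simp [hm, frobenius_def]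
      rw [e, hm]
      ext i j
      fin_cases i <;> fin_cases j <;> simp [Matrix.single, Matrix.mul_apply, Matrix.diagonal, Fin.sum_univ_four]
      linear_combination h7
  · obtain ⟨x, h0, h1⟩ := hx
    obtain ⟨a, ha⟩ : ∃ a : F, a ^ 3 + a ^ 2 + 1 = 0 := by
      rcases four_cases h8 x with h | h | h | h
      · exact absurd h h0
      · exact absurd h h1
      · refine ⟨x + 1, ?_⟩
        have hc : (2 : F) = 0 := CharTwo.two_eq_zero
        linear_combination h + (2 * x ^ 2 + 2 * x + 1) * hc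
      · exact ⟨x, h⟩
    refine ⟨inl ⟨gg (a ^ 2), mem_Sz_iff.2 (gg_isSz h8 (a ^ 2))⟩, inl_order h8 (pow_thirteen (gg_isSz h8 (a ^ 2)) ?_) (gg_ne_one _)⟩
    have : (a ^ 2) ^ 4 = a := by
      rw [← pow_mul]; exact h8 a
    rw [tr_gg, this]
    exact ha

end

end Cfsg.Agent.Lib.H76Sz
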