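import Cfsg.Agent.Lib.MGroups
import Cfsg.Agent.Lib.IndStages
import Cfsg.Agent.Lib.DefectZeroVanish
import Cfsg.Agent.Lib.CharBasic2
import Cfsg.Agent.Lib.BlockPair

/-!
# Generalized characters vanishing on `p`-singular elements

They are integral combinations of characters induced from linear characters of `p'`-subgroups.
-/

set_option autoImplicit false
set_option linter.all false

namespace Cfsg.Agent.Lib.H76Vreg

open Cfsg Cfsg.Agent.Lib Cfsg.Agent.Lib.CharBasic Cfsg.Agent.Lib.IndFun Cfsg.Agent.Lib.BrauerInd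
open scoped ComplexConjugate

universe u

/-- elementary groups are nilpotent -/
theorem nilpotent_of_elementary {E : Type u} [Group E] [Finite E] {q : ℕ} (hq : q.Prime)
    (hE : IsElementary q E) : Group.IsNilpotent E := by
  obtain ⟨x, hx, -, k, hk⟩ := hE
  haveI : Fact q.Prime := ⟨hq⟩
  have hle : Subgroup.zpowers x ≤ Subgroup.center E := Subgroup.zpowers_le.mpr hx
  haveI hnorm : (Subgroup.zpowers x).Normal := by
    constructor
    intro n hn g
    have := Subgroup.mem_center_iff.mp (hle hn) g
    rw [this, mul_assoc, mul_inv_cancel, mul_one]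
    exact hn
  have hquot : IsPGroup q (E ⧸ Subgroup.zpowers x) := by
    apply IsPGroup.of_card (n := k)
    rw [← hk]; rfl
  haveI := hquot.isNilpotent
  exact Subgroup.isNilpotent_of_ker_le_center (QuotientGroup.mk' (Subgroup.zpowers x))
    (by rw [QuotientGroup.ker_mk']; exact hle)

/-- projection of an elementary group on its `p'`-part -/
theorem exists_proj {E : Type u} [Group E] [Finite E] {p q : ℕ} (hp : p.Prime) (hq : q.Prime)
    (hE : IsElementary q E) :
    ∃ (K : Subgroup E) (a : ℕ) (π : E →* K), (∀ y, y ∈ K ↔ (orderOf y).Coprime p) ∧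
      Nat.card E = Nat.card K * p ^ a ∧ ∀ k : K, π k = k := by
  obtain ⟨K, a, h1, h2, h3⟩ := DefectZeroVanish.elementary_structure p q hp hq hE
  haveI : Fact p.Prime := ⟨hp⟩
  haveI := nilpotent_of_elementary hq hE
  obtain ⟨P⟩ : Nonempty (Sylow p E) := inferInstance
  haveI : (P : Subgroup E).Normal := inferInstance
  have hKp : (Nat.card K).Coprime p := DefectZeroVanish.coprime_card_of_forall hp K h1
  have hPc : Nat.card P = p ^ a := by
    rw [P.card_eq_multiplicity, h2, Nat.factorization_mul Nat.card_pos.ne' (pow_ne_zero _ hp.ne_zero),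
      Finsupp.add_apply, Nat.factorization_eq_zero_of_not_dvd
        ((Nat.Prime.coprime_iff_not_dvd hp).mp hKp.symm), hp.factorization_pow, zero_add,
      Finsupp.single_eq_same]
  -- `P` centralizes `K`
  have hcomm : ∀ k ∈ K, ∀ x ∈ P, Commute k x := by
    intro k hk x hx
    have h4 := h3 k hk
    obtain ⟨Q⟩ : Nonempty (Sylow p (Subgroup.centralizer ({k} : Set E))) := inferInstance
    have h5 : Nat.card Q = p ^ a := by
      have h6 : Nat.card (Subgroup.centralizer ({k} : Set E)) ∣ Nat.card K * p ^ a := by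
        rw [← h2]; exact Subgroup.card_subgroup_dvd_card _
      have h7 : (Nat.card (Subgroup.centralizer ({k} : Set E))).factorization p = a := by
        apply le_antisymm
        · have := (Nat.factorization_le_iff_dvd Nat.card_pos.ne' (by rw [← h2]; exact Nat.card_pos.ne')).mpr h6 p
          rw [← h2, ] at this
          rw [h2, Nat.factorization_mul Nat.card_pos.ne' (pow_ne_zero _ hp.ne_zero),
            Finsupp.add_apply, Nat.factorization_eq_zero_of_not_dvd
            ((Nat.Prime.coprime_iff_not_dvd hp).mp hKp.symm), hp.factorization_pow, zero_add,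
            Finsupp.single_eq_same] at this
          exact this
        · exact (hp.pow_dvd_iff_le_factorization Nat.card_pos.ne').mp h4
      rw [Q.card_eq_multiplicity, h7]
    have h6 : IsPGroup p ((Q : Subgroup (Subgroup.centralizer ({k} : Set E))).map (Subgroup.subtype _)) :=
      Q.isPGroup'.map _
    have h7 : (Q : Subgroup (Subgroup.centralizer ({k} : Set E))).map (Subgroup.subtype _) ≤ P := by
      obtain ⟨P', hP'⟩ := h6.exists_le_sylow
      have : P' = P := by
        haveI := Sylow.unique_of_normal P inferInstance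
        exact Subsingleton.elim _ _
      rw [← this]
      exact hP'
    have h8 : (Q : Subgroup (Subgroup.centralizer ({k} : Set E))).map (Subgroup.subtype _) = P := by
      apply Subgroup.eq_of_le_of_card_ge h7
      rw [Subgroup.card_map_of_injective (Subgroup.subtype_injective _)]
      show Nat.card P ≤ Nat.card Q
      rw [hPc, h5]
    have h9 : x ∈ (Q : Subgroup (Subgroup.centralizer ({k} : Set E))).map (Subgroup.subtype _) := by
      rw [h8]; exact hx
    obtain ⟨y, -, rfl⟩ := h9
    exact ((Subgroup.mem_centralizer_singleton_iff.mp y.2)).symm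
  have hcomp : Function.Bijective (fun x : K × (P : Subgroup E) => (x.1 : E) * x.2) := by
    rw [Nat.bijective_iff_injective_and_card]
    constructor
    · rintro ⟨k, x⟩ ⟨k', x'⟩ h
      simp only at h
      have h4 : (k' : E)⁻¹ * (k : E) = x' * (x : E)⁻¹ := by
        rw [eq_mul_inv_iff_mul_eq, mul_assoc, h, ← mul_assoc, inv_mul_cancel, one_mul]
      have h5 : (k' : E)⁻¹ * (k : E) ∈ K ⊓ (P : Subgroup E) := by
        refine ⟨K.mul_mem (K.inv_mem k'.2) k.2, ?_⟩
        rw [h4]
        exact (P : Subgroup E).mul_mem x'.2 ((P : Subgroup E).inv_mem x.2)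
      have h6 : K ⊓ (P : Subgroup E) = ⊥ := Subgroup.inf_eq_bot_of_coprime (by
        show (Nat.card K).Coprime (Nat.card P)
        rw [hPc]
        exact hKp.pow_right a)
      rw [h6, Subgroup.mem_bot] at h5
      have h7 : (k : E) = k' := by
        rw [inv_mul_eq_one] at h5
        exact h5.symm
      have h8 : (x : E) = x' := by
        rw [h7] at h
        exact mul_left_cancel h
      exact Prod.ext (Subtype.ext h7) (Subtype.ext h8)
    · rw [Nat.card_prod, h2]
      show Nat.card K * Nat.card P = _
      rw [hPc]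
  let f : K × (P : Subgroup E) →* E :=
    { toFun := fun x => (x.1 : E) * x.2
      map_one' := by simp
      map_mul' := by
        rintro ⟨k, x⟩ ⟨k', x'⟩
        show (k * k' : E) * (x * x') = k * x * (k' * x')
        have := hcomm k' k'.2 x x.2
        calc (k * k' : E) * (x * x') = k * (k' * x) * x' := by simp only [mul_assoc]
          _ = k * (x * k') * x' := by rw [this.eq]
          _ = _ := by simp only [mul_assoc] }
  let e : K × (P : Subgroup E) ≃* E := MulEquiv.ofBijective f hcomp
  refine ⟨K, a, (MonoidHom.fst _ _).comp e.symm.toMonoidHom, h1, h2, fun k => ?_⟩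
  have : e.symm (k : E) = (k, 1) := by
    rw [MulEquiv.symm_apply_eq]
    show (k : E) = k * ((1 : (P : Subgroup E)) : E)
    simp
  show (e.symm (k : E)).1 = k
  rw [this]

/-- Generalized characters of elementary groups vanishing on `p`-singular elements. -/
theorem elem_ind {E : Type u} [Group E] [Fintype E] {p q : ℕ} (hp : p.Prime) (hq : q.Prime)
    (hE : IsElementary q E) {η : E → ℂ} (hη : IsGeneralizedCharacter E η)
    (h0 : ∀ g, p ∣ orderOf g → η g = 0) :
    ∃ (K : Subgroup E) (ξ : K → ℂ), ¬ p ∣ Nat.card K ∧ IsGeneralizedCharacter K ξ ∧ η = indFun K ξ := by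
  classical
  obtain ⟨K, a, π, h1, h2, h3⟩ := exists_proj hp hq hE
  have hKp : (Nat.card K).Coprime p := DefectZeroVanish.coprime_card_of_forall hp K h1
  have hp0 : (p : ℂ) ≠ 0 := by exact_mod_cast hp.ne_zero
  have hK0 : (Nat.card K : ℂ) ≠ 0 := by exact_mod_cast Nat.card_pos.ne'
  have hcl : IsClassFunction K (fun k : K => ((p : ℂ) ^ a)⁻¹ * η k) := by
    intro g h
    show ((p : ℂ) ^ a)⁻¹ * η ((h * g * h⁻¹ : K) : E) = _
    push_cast
    rw [hη.isClassFunction]
  have hpreg : ∀ g : E, g ∉ K → η g = 0 := by
    intro g hg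
    apply h0
    by_contra hcon
    exact hg ((h1 g).mpr (((Nat.Prime.coprime_iff_not_dvd hp).mpr hcon).symm))
  refine ⟨K, fun k => ((p : ℂ) ^ a)⁻¹ * η k, ?_, ?_, ?_⟩
  · exact (Nat.Prime.coprime_iff_not_dvd hp).mp hKp.symm
  · apply isGeneralized_of_classInner hcl
    intro χ hχ
    have hχ' : IsCharacter E (fun g => χ (π g)) := hχ.isCharacter.comp π
    obtain ⟨n, hn⟩ := hη.classInner_int hχ'.isGeneralized
    refine ⟨n, ?_⟩
    rw [← hn, classInner, classInner]
    have h4 : ∑ g : E, η g * conj (χ (π g)) = ∑ k : K, η k * conj (χ k) := by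
      have h5 : ∑ g : E, η g * conj (χ (π g)) =
          ∑ g ∈ Finset.univ.filter (fun g : E => g ∈ K), η g * conj (χ (π g)) := by
        symm
        apply Finset.sum_subset (Finset.subset_univ _)
        intro g _ hg
        rw [hpreg g (by simpa using hg), zero_mul]
      rw [h5, Finset.sum_subtype (Finset.univ.filter (fun g : E => g ∈ K)) (p := fun x => x ∈ K)
        (by intro x; simp)]
      refine Finset.sum_congr rfl fun k _ => ?_
      rw [h3 k]
    rw [h4, h2]
    push_cast
    rw [mul_inv, mul_assoc]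
    congr 1
    rw [Finset.mul_sum]
    refine Finset.sum_congr rfl fun k _ => ?_
    ring
  · funext g
    rw [indFun_apply]
    by_cases hg : g ∈ K
    · have h4 : ∀ x : E, extendByZero K (fun k : K => ((p : ℂ) ^ a)⁻¹ * η k) (x⁻¹ * g * x) =
          ((p : ℂ) ^ a)⁻¹ * η g := by
        intro x
        have h5 : orderOf (x⁻¹ * g * x) = orderOf g := by
          have := orderOf_injective (MulAut.conj x⁻¹).toMonoidHom (MulAut.conj x⁻¹).injective g
          have e : (MulAut.conj x⁻¹).toMonoidHom g = x⁻¹ * g * x := by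
            show x⁻¹ * g * x⁻¹⁻¹ = _
            rw [inv_inv]
          rwa [e] at this
        have h6 : x⁻¹ * g * x ∈ K := by
          rw [h1, h5, ← h1]; exact hg
        rw [extendByZero_mem K _ h6]
        show ((p : ℂ) ^ a)⁻¹ * η (x⁻¹ * g * x) = _
        have h7 := hη.isClassFunction g x⁻¹
        rw [inv_inv] at h7
        rw [h7]
      rw [Finset.sum_congr rfl (fun x _ => h4 x), Finset.sum_const, Finset.card_univ, nsmul_eq_mul,
        ← Nat.card_eq_fintype_card, h2]
      push_cast
      have := pow_ne_zero a hp0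
      field_simp
    · rw [hpreg g hg]
      symm
      rw [Finset.sum_eq_zero, mul_zero]
      intro x _
      apply extendByZero_not_mem
      intro h
      apply hg
      have h5 : orderOf (x⁻¹ * g * x) = orderOf g := by
        have := orderOf_injective (MulAut.conj x⁻¹).toMonoidHom (MulAut.conj x⁻¹).injective g
        have e : (MulAut.conj x⁻¹).toMonoidHom g = x⁻¹ * g * x := by
          show x⁻¹ * g * x⁻¹⁻¹ = _
          rw [inv_inv]
        rwa [e] at this
      rw [h1, ← h5, ← h1]; exact h

/-- functions induced from linear characters of `p'`-subgroups -/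
def linReg (p : ℕ) (G : Type u) [Group G] [Fintype G] : Set (G → ℂ) :=
  {F | ∃ K : Subgroup G, ¬ p ∣ Nat.card K ∧ ∃ lam : K →* ℂˣ, F = indFun K (fun c => (lam c : ℂ))}

/-- induction maps the closure of a set into a closure -/
theorem indFun_mem_closure {G : Type u} [Group G] [Fintype G] (E : Subgroup G) {S : Set (E → ℂ)}
    {T : Set (G → ℂ)} (h : ∀ F ∈ S, indFun E F ∈ AddSubgroup.closure T) {F : E → ℂ}
    (hF : F ∈ AddSubgroup.closure S) : indFun E F ∈ AddSubgroup.closure T := by
  induction hF using AddSubgroup.closure_induction with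
  | mem x hx => exact h x hx
  | zero => rw [indFun_zero]; exact AddSubgroup.zero_mem _
  | add x y _ _ hx hy => rw [indFun_add]; exact AddSubgroup.add_mem _ hx hy
  | neg x _ hx => rw [indFun_neg]; exact AddSubgroup.neg_mem _ hx

/-- **generalized characters vanishing on `p`-singular elements** -/
theorem mem_closure {G : Type u} [Group G] [Fintype G] {p : ℕ} (hp : p.Prime) {θ : G → ℂ}
    (hθ : IsGeneralizedCharacter G θ) (h0 : ∀ g, p ∣ orderOf g → θ g = 0) :
    θ ∈ AddSubgroup.closure (linReg p G) := by
  classical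
  obtain ⟨l, hl, hsum⟩ := BrauerInd.exists_list_one (G := G)
  rw [BrauerInd.classFunction_eq_list_sum l hsum θ hθ.isClassFunction]
  apply list_sum_mem
  intro F hF
  obtain ⟨t, ht, rfl⟩ := List.mem_map.mp hF
  obtain ⟨⟨q, hq, htE⟩, htφ⟩ := hl t ht
  have h1 : (t.2.2 : ℂ) • indFun t.1 (fun e : t.1 => t.2.1 e * θ e) =
      t.2.2 • indFun t.1 (fun e : t.1 => t.2.1 e * θ e) := Int.cast_smul_eq_zsmul ℂ _ _
  rw [h1]
  apply AddSubgroup.zsmul_mem
  obtain ⟨E, φ, n⟩ := t
  simp only at htE htφ ⊢
  have hη : IsGeneralizedCharacter E (fun e : E => φ e * θ e) :=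
    htφ.isGeneralized.mul (hθ.restrict E)
  obtain ⟨K, ξ, hK, hξ, hind⟩ := elem_ind hp hq htE hη (by
    intro g hg
    rw [h0 (g : G) (by rwa [Subgroup.orderOf_coe]), mul_zero])
  rw [hind]
  apply indFun_mem_closure E (S := linReg p E)
  · rintro _ ⟨K', hK', lam, rfl⟩
    obtain ⟨lam', h1⟩ := MGroups.indFun_indFun_hom E K' lam
    rw [h1]
    refine AddSubgroup.subset_closure ⟨_, ?_, lam', rfl⟩
    rw [Subgroup.card_map_of_injective (Subgroup.subtype_injective _)]
    exact hK'
  · -- `indFun K ξ` with `ξ` generalized character of the `p'`-group `K`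
    obtain ⟨ξ₁, ξ₂, hξ₁, hξ₂, rfl⟩ := hξ
    have key : ∀ ξ : K → ℂ, IsCharacter K ξ → indFun K ξ ∈ AddSubgroup.closure (linReg p E) := by
      intro ξ hξ
      apply indFun_mem_closure K (S := {F : K → ℂ | ∃ E : Subgroup K,
        (∃ p : ℕ, p.Prime ∧ IsElementary p E) ∧ ∃ lam : E →* ℂˣ, F = indFun E (fun c => (lam c : ℂ))})
      · rintro _ ⟨K', hK', lam, rfl⟩
        obtain ⟨lam', h1⟩ := MGroups.indFun_indFun_hom K K' lam
        rw [h1]
        refine AddSubgroup.subset_closure ⟨_, ?_, lam', rfl⟩
        rw [Subgroup.card_map_of_injective (Subgroup.subtype_injective _)]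
        intro h
        exact hK (h.trans (Subgroup.card_subgroup_dvd_card _))
      · exact MGroups.mem_closure_linInd hξ
    rw [indFun_sub]
    exact AddSubgroup.sub_mem _ (key ξ₁ hξ₁) (key ξ₂ hξ₂)

end Cfsg.Agent.Lib.H76Vreg
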