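import Mathlib
import Cfsg.Agent.Lib.ThompsonJ

/-!
Cubic action of abelian subgroups of maximal order (helper81), abstract part.
-/

set_option autoImplicit false

namespace Cfsg.Agent.Lib.H81Cubic

universe u

section abstract
variable {M : Type*} [AddCommGroup M] {A : Type*} [Group A]

/-- The operator `a - 1`. -/
def D (φ : A →* AddMonoid.End M) (a : A) : AddMonoid.End M := φ a - 1

/-- product of the operators `a - 1`. -/
def DL (φ : A →* AddMonoid.End M) (l : List A) : AddMonoid.End M := (l.map (D φ)).prod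

theorem D_apply (φ : A →* AddMonoid.End M) (a : A) (m : M) : D φ a m = φ a m - m := rfl

theorem D_comm (φ : A →* AddMonoid.End M) {a b : A} (h : a * b = b * a) :
    D φ a * D φ b = D φ b * D φ a := by
  unfold D
  have h1 : φ a * φ b = φ b * φ a := by rw [← map_mul, ← map_mul, h]
  simp only [sub_mul, mul_sub, mul_one, one_mul, h1]
  abel

theorem D_mul (φ : A →* AddMonoid.End M) (a b : A) :
    D φ (a * b) = D φ a * D φ b + D φ a + D φ b := by
  unfold D
  rw [map_mul]
  simp only [sub_mul, mul_sub, mul_one, one_mul]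
  abel

theorem DL_cons (φ : A →* AddMonoid.End M) (a : A) (l : List A) :
    DL φ (a :: l) = D φ a * DL φ l := by
  simp [DL]

theorem DL_append (φ : A →* AddMonoid.End M) (l l' : List A) :
    DL φ (l ++ l') = DL φ l * DL φ l' := by
  simp [DL]

theorem DL_comm (φ : A →* AddMonoid.End M) (hc : ∀ a b : A, a * b = b * a) (l : List A) (a : A) :
    D φ a * DL φ l = DL φ l * D φ a := by
  induction l with
  | nil => simp [DL]
  | cons b l ih =>
    rw [DL_cons, ← mul_assoc, D_comm φ (hc a b), mul_assoc, ih, mul_assoc]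

theorem cubic_abs (φ : A →* AddMonoid.End M) (hc : ∀ a b : A, a * b = b * a) (T : Set A)
    (Z : AddSubgroup M) (hZ : ∀ a, ∀ z ∈ Z, φ a z ∈ Z)
    (hT : ∀ t ∈ T, ∀ m, D φ t m ∈ Z)
    (hnil : ∀ m : M, ∃ n, ∀ l : List A, l.length = n → DL φ l m = 0)
    (hdich : ∀ v : M, (∃ a b, D φ a (D φ b v) ≠ 0) →
      ∀ a : A, (∀ b, D φ b (D φ a v) = 0) → a ∈ T)
    (hsurj : ∀ v : M, ∀ w ∈ AddSubgroup.closure (Set.range fun a => D φ a v),
      ∃ e : A, ∃ s, (∀ b, D φ b s = 0) ∧ w = D φ e v + s) :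
    ∀ v : M, ∀ a b c, D φ a (D φ b (D φ c v)) ∈ Z := by
  classical
  intro v a b c
  have hex := hnil v
  set n := Nat.find hex with hn
  have hspec := Nat.find_spec hex
  rw [← hn] at hspec
  by_cases hn3 : n ≤ 3
  · -- then it vanishes
    have : D φ a (D φ b (D φ c v)) = 0 := by
      have h1 : ∀ l : List A, n ≤ l.length → DL φ l v = 0 := by
        intro l hl
        have e : l = l.take (l.length - n) ++ l.drop (l.length - n) := (List.take_append_drop _ _).symm
        rw [e, DL_append]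
        change DL φ _ (DL φ _ v) = 0
        rw [hspec (l.drop (l.length - n)) (by rw [List.length_drop]; omega), map_zero]
      have h2 := h1 [a, b, c] (by simpa using hn3)
      simpa [DL] using h2
    rw [this]; exact Z.zero_mem
  · push Not at hn3
    have hlt := Nat.find_min hex (m := n - 1) (by omega)
    push Not at hlt
    obtain ⟨l, hl, hlv⟩ := hlt
    -- l = a1 :: a2 :: l'
    obtain ⟨a1, l1, rfl⟩ : ∃ a1 l1, l = a1 :: l1 := by
      cases l with
      | nil => simp at hl; omega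
      | cons x y => exact ⟨x, y, rfl⟩
    obtain ⟨a2, l', rfl⟩ : ∃ a1 l2, l1 = a1 :: l2 := by
      cases l1 with
      | nil => simp at hl; omega
      | cons x y => exact ⟨x, y, rfl⟩
    have hl' : l'.length = n - 3 := by simp at hl; omega
    set v' := DL φ l' v with hv'
    have h1 : ∃ a b, D φ a (D φ b v') ≠ 0 := by
      refine ⟨a1, a2, ?_⟩
      rw [DL_cons, DL_cons] at hlv
      exact hlv
    have hT' := hdich v' h1
    -- w
    set w := D φ b (D φ c v) with hw
    have hwcl : w ∈ AddSubgroup.closure (Set.range fun a => D φ a v) := by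
      have e : w = D φ (b * c) v - D φ b v - D φ c v := by
        rw [D_mul]
        change _ = (D φ b (D φ c v) + D φ b v + D φ c v) - D φ b v - D φ c v
        rw [hw]; abel
      rw [e]
      refine sub_mem (sub_mem ?_ ?_) ?_ <;> exact AddSubgroup.subset_closure ⟨_, rfl⟩
    obtain ⟨e, s, hs, hwe⟩ := hsurj v w hwcl
    have heT : e ∈ T := by
      apply hT' e
      intro d
      -- D d (D e (DL l' v)) = D d (DL l' (D e v))
      have h2 : D φ e v' = DL φ l' (D φ e v) := by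
        have := congrArg (fun f : AddMonoid.End M => f v) (DL_comm φ hc l' e)
        exact this
      have h3 : D φ e v = w - s := by rw [hwe]; abel
      rw [h2, h3, map_sub, map_sub]
      have h4 : D φ d (DL φ l' s) = 0 := by
        have := congrArg (fun f : AddMonoid.End M => f s) (DL_comm φ hc l' d)
        change D φ d (DL φ l' s) = DL φ l' (D φ d s) at this
        rw [this, hs, map_zero]
      have h5 : D φ d (DL φ l' w) = 0 := by
        have h6 := hspec (d :: (l' ++ [b, c])) (by simp [hl']; omega)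
        rw [DL_cons, DL_append] at h6
        change D φ d (DL φ l' (DL φ [b, c] v)) = 0 at h6
        have h7 : DL φ [b, c] v = w := by simp [DL, hw]
        rwa [h7] at h6
      rw [h4, h5, sub_zero]
    have h8 := hT e heT v
    rw [hwe, map_add, hs, add_zero, D_apply]
    exact sub_mem (hZ _ _ h8) h8

end abstract

section grp
open Subgroup Cfsg.Agent.Lib.ThompsonJ
open scoped commutatorElement IsMulCommutative

variable {X : Type u} [Group X]

/-- The property of being abelian. -/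
abbrev Ab (A : Subgroup X) : Prop := IsMulCommutative A

theorem comm_of {A : Subgroup X} (h : IsMulCommutative A) {a b : X} (ha : a ∈ A) (hb : b ∈ A) :
    a * b = b * a := congrArg Subtype.val (h.is_comm.comm (⟨a, ha⟩ : A) ⟨b, hb⟩)

theorem of_comm {A : Subgroup X} (h : ∀ a ∈ A, ∀ b ∈ A, a * b = b * a) : IsMulCommutative A :=
  ⟨⟨fun a b => Subtype.ext (h a a.2 b b.2)⟩⟩

/-- Abelian subgroups of maximal order are self-centralizing. -/
theorem self_cent [Finite X] {P B : Subgroup X} (hB : B ∈ maxIn Ab P) {z : X} (hz : z ∈ P)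
    (hzB : ∀ b ∈ B, b * z = z * b) : z ∈ B := by
  have hcom : IsMulCommutative ↥(closure ((B : Set X) ∪ {z})) := by
    apply Subgroup.isMulCommutative_closure
    rintro s (hs | hs) t (ht | ht)
    · exact comm_of hB.2.1 hs ht
    · rw [Set.mem_singleton_iff] at ht
      subst ht
      exact hzB s hs
    · rw [Set.mem_singleton_iff] at hs
      subst hs
      exact (hzB t ht).symm
    · rw [Set.mem_singleton_iff] at hs ht
      subst hs; subst ht; rfl
  have hle : B ≤ closure ((B : Set X) ∪ {z}) := fun b hb => subset_closure (Or.inl hb)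
  have hP : closure ((B : Set X) ∪ {z}) ≤ P := by
    rw [closure_le]
    rintro s (hs | hs)
    · exact hB.1 hs
    · rw [Set.mem_singleton_iff] at hs
      subst hs; exact hz
  have hc := hB.2.2 _ hP hcom
  have : B = closure ((B : Set X) ∪ {z}) := Subgroup.eq_of_le_of_card_ge hle hc
  rw [this]
  exact subset_closure (Or.inr rfl)

/-- The replacement lemma, with all elements of the new group. -/
theorem repl [Finite X] {P A : Subgroup X} (hA : A ∈ maxIn Ab P) {v : X} (hv : v ∈ P)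
    {Y : Subgroup X} (hY : IsMulCommutative Y) (hYP : Y ≤ P) (hxY : ∀ a ∈ A, a * v * a⁻¹ * v⁻¹ ∈ Y) :
    ∃ M ∈ maxIn Ab P, M ≤ Y ⊔ A ∧ A ⊓ Y ≤ M ∧ (∀ a ∈ A, a * v * a⁻¹ * v⁻¹ ∈ M) ∧
      (∀ i ∈ A, v⁻¹ * i * v ∈ A → i ∈ M) ∧
      (∀ m ∈ M, ∃ a ∈ A, ∃ i ∈ A, m = a * v * a⁻¹ * v⁻¹ * i) := by
  classical
  let I : Subgroup X := A ⊓ A.map (MulAut.conj v).toMonoidHom
  have memI : ∀ i, i ∈ I ↔ i ∈ A ∧ v⁻¹ * i * v ∈ A := by
    intro i
    constructor
    · rintro ⟨h1, h2⟩
      obtain ⟨a, ha, rfl⟩ := h2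
      refine ⟨h1, ?_⟩
      have : v⁻¹ * ((MulAut.conj v).toMonoidHom a) * v = a := by
        simp [mul_assoc]
      rw [this]; exact ha
    · rintro ⟨h1, h2⟩
      exact ⟨h1, ⟨_, h2, by simp [mul_assoc]⟩⟩
  let K : Set X := {k | ∃ a ∈ A, k = a * v * a⁻¹ * v⁻¹}
  let M : Subgroup X := closure (K ∪ (I : Set X))
  have hKM : ∀ a ∈ A, a * v * a⁻¹ * v⁻¹ ∈ M := fun b hb => subset_closure (Or.inl ⟨b, hb, rfl⟩)
  have hIM : ∀ i ∈ I, i ∈ M := fun i hi => subset_closure (Or.inr hi)
  have hIK : ∀ i ∈ I, ∀ k ∈ K, i * k = k * i := by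
    rintro i hi _ ⟨b, hb, rfl⟩
    rw [memI] at hi
    have h1 : Commute i b := comm_of hA.2.1 hi.1 hb
    have h2 : Commute (v⁻¹ * i * v) b⁻¹ := comm_of hA.2.1 hi.2 (inv_mem hb)
    have h3 : Commute i (v * b⁻¹ * v⁻¹) := by
      have h4 : (v⁻¹ * i * v) * b⁻¹ = b⁻¹ * (v⁻¹ * i * v) := h2
      show i * (v * b⁻¹ * v⁻¹) = v * b⁻¹ * v⁻¹ * i
      calc i * (v * b⁻¹ * v⁻¹) = v * ((v⁻¹ * i * v) * b⁻¹) * v⁻¹ := by group
        _ = v * (b⁻¹ * (v⁻¹ * i * v)) * v⁻¹ := by rw [h4]
        _ = _ := by group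
    have h5 : b * v * b⁻¹ * v⁻¹ = b * (v * b⁻¹ * v⁻¹) := by group
    rw [h5]
    exact h1.mul_right h3
  have hMcomm : IsMulCommutative M := by
    apply Subgroup.isMulCommutative_closure
    rintro s (hs | hs) t (ht | ht)
    · obtain ⟨b, hb, rfl⟩ := hs
      obtain ⟨c, hc, rfl⟩ := ht
      exact comm_of hY (hxY b hb) (hxY c hc)
    · exact (hIK t ht s hs).symm
    · exact hIK s hs t ht
    · exact comm_of hA.2.1 hs.1 ht.1
  have hMle : M ≤ Y ⊔ A := by
    show Subgroup.closure _ ≤ _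
    rw [closure_le]
    rintro s (hs | hs)
    · obtain ⟨b, hb, rfl⟩ := hs
      exact mem_sup_left (hxY b hb)
    · exact mem_sup_right hs.1
  have hMP : M ≤ P := hMle.trans (sup_le hYP hA.1)
  have hMA : Nat.card M ≤ Nat.card A := hA.2.2 M hMP hMcomm
  -- cardinality
  have h1 : Nat.card A = Nat.card (↥A ⧸ I.subgroupOf A) * Nat.card (I.subgroupOf A) :=
    Subgroup.card_eq_card_quotient_mul_card_subgroup _
  have h2 : Nat.card (I.subgroupOf A) = Nat.card I :=
    Nat.card_congr (Subgroup.subgroupOfEquivOfLe (inf_le_left : I ≤ A)).toEquiv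
  rw [h2, ← Nat.card_prod] at h1
  let f : (↥A ⧸ I.subgroupOf A) × I → M := fun q =>
    ⟨((q.1.out : A) : X) * v * ((q.1.out : A) : X)⁻¹ * v⁻¹ * (q.2 : X),
      mul_mem (hKM _ q.1.out.2) (hIM _ q.2.2)⟩
  have hfinj : Function.Injective f := by
    rintro ⟨q, i⟩ ⟨r, j⟩ hqr
    have heq : ((q.out : A) : X) * v * ((q.out : A) : X)⁻¹ * v⁻¹ * (i : X) =
        ((r.out : A) : X) * v * ((r.out : A) : X)⁻¹ * v⁻¹ * (j : X) := congrArg Subtype.val hqr
    set b : X := ((q.out : A) : X) with hb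
    set c : X := ((r.out : A) : X) with hc
    have hbA : b ∈ A := q.out.2
    have hcA : c ∈ A := r.out.2
    have hi := (memI _).1 i.2
    have hj := (memI _).1 j.2
    -- b⁻¹ * c ∈ I
    have h3 : v⁻¹ * (c⁻¹ * b) * v = (c⁻¹) * (v⁻¹ * j * v) * (v⁻¹ * i * v)⁻¹ * b := by
      have h4 : (c⁻¹ * b) * v = v * c⁻¹ * v⁻¹ * j * (i : X)⁻¹ * v * b := by
        have h5 : b * v = (c * v * c⁻¹ * v⁻¹ * (j : X)) * (i : X)⁻¹ * v * b := by
          rw [← heq]; group
        rw [mul_assoc, h5]; group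
      calc v⁻¹ * (c⁻¹ * b) * v = v⁻¹ * ((c⁻¹ * b) * v) := by group
        _ = v⁻¹ * (v * c⁻¹ * v⁻¹ * j * (i : X)⁻¹ * v * b) := by rw [h4]
        _ = _ := by group
    have h5 : c⁻¹ * b ∈ I := by
      rw [memI]
      refine ⟨mul_mem (inv_mem hcA) hbA, ?_⟩
      rw [h3]
      exact mul_mem (mul_mem (mul_mem (inv_mem hcA) hj.2) (inv_mem hi.2)) hbA
    have h6 : q = r := by
      rw [← Quotient.out_eq q, ← Quotient.out_eq r]
      have : (QuotientGroup.mk r.out : ↥A ⧸ I.subgroupOf A) = QuotientGroup.mk q.out := by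
        rw [QuotientGroup.eq]
        rw [Subgroup.mem_subgroupOf]
        exact h5
      exact this.symm
    subst h6
    have h7 : (i : X) = j := mul_left_cancel heq
    rw [Subtype.ext h7]
  have hcard : Nat.card A ≤ Nat.card M := by
    rw [h1]; exact Nat.card_le_card_of_injective f hfinj
  have hfbij : Function.Bijective f := by
    rw [Nat.bijective_iff_injective_and_card]
    exact ⟨hfinj, by rw [← h1]; exact le_antisymm hcard hMA⟩
  refine ⟨M, ⟨hMP, hMcomm, fun C hC hC' => (hA.2.2 C hC hC').trans hcard⟩, hMle, ?_, hKM,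
    fun i hi hi' => hIM i ((memI i).2 ⟨hi, hi'⟩), ?_⟩
  · rintro y ⟨hy1, hy2⟩
    have hy1' : y ∈ A := hy1
    have hy2' : y ∈ Y := hy2
    refine hIM y ((memI y).2 ⟨hy1, ?_⟩)
    -- v⁻¹ y v centralizes A
    apply self_cent hA (mul_mem (mul_mem (inv_mem hv) (hA.1 hy1')) hv)
    intro b hb
    have c1 : Commute y b⁻¹ := comm_of hA.2.1 hy1 (inv_mem hb)
    have c1' : Commute y b := comm_of hA.2.1 hy1 hb
    have c2 : Commute y (b⁻¹ * v * b⁻¹⁻¹ * v⁻¹) := comm_of hY hy2 (hxY b⁻¹ (inv_mem hb))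
    have c3 : Commute y (b * (b⁻¹ * v * b⁻¹⁻¹ * v⁻¹)) := c1'.mul_right c2
    have e : b * (b⁻¹ * v * b⁻¹⁻¹ * v⁻¹) = v * b * v⁻¹ := by group
    rw [e] at c3
    have c4 : y * (v * b * v⁻¹) = (v * b * v⁻¹) * y := c3
    calc b * (v⁻¹ * y * v) = v⁻¹ * ((v * b * v⁻¹) * y) * v := by group
      _ = v⁻¹ * (y * (v * b * v⁻¹)) * v := by rw [c4]
      _ = v⁻¹ * y * v * b := by group
  · intro m hm
    obtain ⟨⟨q, i⟩, hq⟩ := hfbij.2 ⟨m, hm⟩
    exact ⟨_, q.out.2, _, i.2.1, (congrArg Subtype.val hq).symm⟩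

/-- conjugation action on an abelian subgroup. -/
def cact {A V : Subgroup X} (hV : IsMulCommutative V) (hAV : A ≤ normalizer (V : Set X)) :
    A →* AddMonoid.End (Additive V) where
  toFun a :=
    { toFun := fun m => Additive.ofMul ⟨(a : X) * (m.toMul : X) * (a : X)⁻¹,
        ((mem_normalizer_iff.1 (hAV a.2)) _).1 m.toMul.2⟩
      map_zero' := by
        apply Additive.toMul.injective
        apply Subtype.ext
        simp
      map_add' := by
        intro m m'
        apply Additive.toMul.injective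
        apply Subtype.ext
        simp }
  map_one' := by
    refine AddMonoidHom.ext fun m => ?_
    apply Additive.toMul.injective
    apply Subtype.ext
    show (1 : X) * (m.toMul : X) * (1 : X)⁻¹ = (m.toMul : X)
    simp
  map_mul' a b := by
    refine AddMonoidHom.ext fun m => ?_
    apply Additive.toMul.injective
    apply Subtype.ext
    show ((a : X) * (b : X)) * (m.toMul : X) * ((a : X) * (b : X))⁻¹ =
      (a : X) * ((b : X) * (m.toMul : X) * (b : X)⁻¹) * (a : X)⁻¹
    group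

theorem coe_D {A V : Subgroup X} (hV : IsMulCommutative V) (hAV : A ≤ normalizer (V : Set X))
    (a : A) (m : Additive V) :
    (((D (cact hV hAV) a m).toMul : V) : X) = ⁅(a : X), (m.toMul : X)⁆ := by
  rw [commutatorElement_def, D_apply, toMul_sub, ← div_eq_mul_inv]
  rfl

theorem D_eq_zero {A V : Subgroup X} (hV : IsMulCommutative V) (hAV : A ≤ normalizer (V : Set X))
    (a : A) (m : Additive V) :
    D (cact hV hAV) a m = 0 ↔ (a : X) * (m.toMul : X) = (m.toMul : X) * a := by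
  rw [← commutatorElement_eq_one_iff_mul_comm, ← coe_D hV hAV]
  constructor
  · intro h; rw [h]; rfl
  · intro h
    apply Additive.toMul.injective
    exact Subtype.ext h

theorem nil_aux {A V : Subgroup X} (hV : IsMulCommutative V) (hAV : A ≤ normalizer (V : Set X))
    {P : Subgroup X} (hAP : A ≤ P) (hVP : V ≤ P) (m : Additive V) (l : List A) :
    (((DL (cact hV hAV) l m).toMul : V) : X) ∈ P.lowerCentralSeries l.length := by
  induction l with
  | nil => exact hVP (m.toMul).2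
  | cons a l ih =>
    rw [DL_cons]
    change (((D (cact hV hAV) a (DL (cact hV hAV) l m)).toMul : V) : X) ∈ _
    rw [coe_D]
    rw [List.length_cons, Subgroup.lowerCentralSeries_succ, ← commutatorElement_inv]
    exact inv_mem (commutator_mem_commutator ih (hAP a.2))

theorem cubic [Finite X] {p : ℕ} [Fact p.Prime] {P A V Z T₀ : Subgroup X} (hP : IsPGroup p P)
    (hA : A ∈ maxIn Ab P) (hV : IsMulCommutative V) (hVP : V ≤ P)
    (hAV : A ≤ normalizer (V : Set X))
    (hZ : ∀ a ∈ A, ∀ z ∈ Z, a * z * a⁻¹ ∈ Z)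
    (hT0 : ∀ t ∈ A, t ∈ T₀ → ∀ v ∈ V, ⁅t, v⁆ ∈ Z)
    (hVT : ∀ v ∈ V, ∀ t ∈ T₀, v⁻¹ * t * v ∈ T₀)
    (hmax : ∀ M ∈ maxIn Ab P, M ≤ V ⊔ A → ¬ M ≤ T₀ →
      Nat.card ↥(M ⊓ V) ≤ Nat.card ↥(A ⊓ V)) :
    ∀ v ∈ V, ∀ a ∈ A, ∀ b ∈ A, ∀ c ∈ A, ⁅a, ⁅b, ⁅c, v⁆⁆⁆ ∈ Z := by
  intro v hv a ha b hb c hc
  have hcomm : ∀ a b : A, a * b = b * a := fun a b => Subtype.ext (comm_of hA.2.1 a.2 b.2)
  have hrepl : ∀ v ∈ V, _ := fun v hv => repl hA (hVP hv) hV hVP (fun a ha => by
    have h1 : a * v * a⁻¹ ∈ V := ((mem_normalizer_iff.1 (hAV ha)) _).1 hv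
    exact mul_mem h1 (inv_mem hv))
  have key := cubic_abs (cact hV hAV) hcomm {t : A | (t : X) ∈ T₀}
    ((Z.subgroupOf V).toAddSubgroup) ?_ ?_ ?_ ?_ ?_ (Additive.ofMul ⟨v, hv⟩) ⟨a, ha⟩ ⟨b, hb⟩ ⟨c, hc⟩
  · have h1 : (((D (cact hV hAV) ⟨a, ha⟩ (D (cact hV hAV) ⟨b, hb⟩ (D (cact hV hAV) ⟨c, hc⟩
        (Additive.ofMul ⟨v, hv⟩)))).toMul : V) : X) ∈ Z := key
    rw [coe_D, coe_D, coe_D] at h1
    exact h1
  · intro a z hz
    exact hZ a a.2 (z.toMul : X) hz
  · intro t ht m
    show (((D (cact hV hAV) t m).toMul : V) : X) ∈ Z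
    rw [coe_D]
    exact hT0 t t.2 ht _ (m.toMul).2
  · intro m
    have hn : Group.IsNilpotent P := hP.isNilpotent
    obtain ⟨n, hn⟩ := (isNilpotent_iff_lowerCentralSeries P).1 hn
    refine ⟨n, fun l hl => ?_⟩
    have h1 := nil_aux hV hAV hA.1 hVP m l
    rw [hl, hn, mem_bot] at h1
    apply Additive.toMul.injective
    exact Subtype.ext h1
  · rintro v ⟨a, b, hab⟩ d hd
    obtain ⟨M, hM, hMle, hMY, hKM, hMi, -⟩ := hrepl (v.toMul : X) (v.toMul).2
    have h1 : ⁅(b : X), (v.toMul : X)⁆ ∉ A := by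
      intro h
      apply hab
      rw [D_eq_zero, coe_D]
      exact comm_of hA.2.1 a.2 h
    have h2 : ⁅(b : X), (v.toMul : X)⁆ ∈ M ⊓ V := by
      refine ⟨hKM b b.2, ?_⟩
      show _ ∈ V
      have h3 : (b : X) * (v.toMul : X) * (b : X)⁻¹ ∈ V :=
        ((mem_normalizer_iff.1 (hAV b.2)) _).1 (v.toMul).2
      exact mul_mem h3 (inv_mem (v.toMul).2)
    have h3 : A ⊓ V ≤ M ⊓ V := le_inf hMY inf_le_right
    have h4 : ¬ Nat.card ↥(M ⊓ V) ≤ Nat.card ↥(A ⊓ V) := by
      intro h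
      have := Subgroup.eq_of_le_of_card_ge h3 h
      rw [← this] at h2
      exact h1 h2.1
    have h5 : M ≤ T₀ := by
      by_contra h
      exact h4 (hmax M hM hMle h)
    have h6 : ⁅(d : X), (v.toMul : X)⁆ ∈ A := by
      apply self_cent hA
      · apply hVP
        have h3 : (d : X) * (v.toMul : X) * (d : X)⁻¹ ∈ V :=
          ((mem_normalizer_iff.1 (hAV d.2)) _).1 (v.toMul).2
        exact mul_mem h3 (inv_mem (v.toMul).2)
      · intro b' hb'
        have := (D_eq_zero hV hAV _ _).1 (hd ⟨b', hb'⟩)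
        rw [coe_D] at this
        exact this
    have h7 : (v.toMul : X) * d * (v.toMul : X)⁻¹ ∈ A := by
      have h8 : (v.toMul : X) * d * (v.toMul : X)⁻¹ = ((d : X)⁻¹ * ⁅(d : X), (v.toMul : X)⁆)⁻¹ := by
        rw [commutatorElement_def]; group
      rw [h8]
      exact inv_mem (mul_mem (inv_mem d.2) h6)
    have h8 : (v.toMul : X) * d * (v.toMul : X)⁻¹ ∈ M := by
      apply hMi _ h7
      have : (v.toMul : X)⁻¹ * ((v.toMul : X) * d * (v.toMul : X)⁻¹) * (v.toMul : X) = d := by group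
      rw [this]; exact d.2
    have h9 := hVT _ (v.toMul).2 _ (h5 h8)
    have : (v.toMul : X)⁻¹ * ((v.toMul : X) * d * (v.toMul : X)⁻¹) * (v.toMul : X) = d := by group
    rw [this] at h9
    exact h9
  · intro v w hw
    obtain ⟨M, hM, hMle, hMY, hKM, hMi, hall⟩ := hrepl (v.toMul : X) (v.toMul).2
    have h1 : (w.toMul : X) ∈ M := by
      have : AddSubgroup.closure (Set.range fun a => D (cact hV hAV) a v) ≤
          (M.subgroupOf V).toAddSubgroup := by
        rw [AddSubgroup.closure_le]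
        rintro _ ⟨a, rfl⟩
        show (((D (cact hV hAV) a v).toMul : V) : X) ∈ M
        rw [coe_D]
        exact hKM a a.2
      exact this hw
    obtain ⟨e, he, i, hi, hei⟩ := hall _ h1
    have h2 : ⁅e, (v.toMul : X)⁆ ∈ V := by
      have h3 : (e : X) * (v.toMul : X) * (e : X)⁻¹ ∈ V :=
        ((mem_normalizer_iff.1 (hAV he)) _).1 (v.toMul).2
      exact mul_mem h3 (inv_mem (v.toMul).2)
    have h3 : i ∈ V := by
      have : i = ⁅e, (v.toMul : X)⁆⁻¹ * (w.toMul : X) := by rw [hei, commutatorElement_def]; group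
      rw [this]
      exact mul_mem (inv_mem h2) (w.toMul).2
    refine ⟨⟨e, he⟩, Additive.ofMul ⟨i, h3⟩, ?_, ?_⟩
    · intro b
      rw [D_eq_zero]
      exact comm_of hA.2.1 b.2 hi
    · apply Additive.toMul.injective
      apply Subtype.ext
      rw [toMul_add]
      show (w.toMul : X) = (((D (cact hV hAV) ⟨e, he⟩ v).toMul : V) : X) * i
      rw [coe_D, hei, commutatorElement_def]

end grp

end Cfsg.Agent.Lib.H81Cubic
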