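import Mathlib

/-!
A `p`-element acting cubically normalizes no nontrivially acted abelian `p'`-group (`p ≥ 5`) (helper81).
-/

set_option autoImplicit false

namespace Cfsg.Agent.Lib.H81Cubic2

section ring
variable {R : Type*} [Ring R]

theorem e1 {G a0 a1 a2 a3 : R} (h0 : G * G * G - 3 * (G * G) + 3 * G - 1 = 0)
    (ha0 : G * a0 = a1 * G) (ha1 : G * a1 = a2 * G) (ha2 : G * a2 = a3 * G) :
    (a3 - a0) * (G * G * G) - 3 * ((a2 - a0) * (G * G)) + 3 * ((a1 - a0) * G) = 0 := by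
  have h1 : G * G * a0 = a2 * (G * G) := by
    rw [mul_assoc, ha0, ← mul_assoc, ha1, mul_assoc]
  have h2 : G * G * G * a0 = a3 * (G * G * G) := by
    rw [mul_assoc, ha0, ← mul_assoc, mul_assoc G G a1, ha1, ← mul_assoc, ha2]
    simp only [mul_assoc]
  have h3 : (G * G * G - 3 * (G * G) + 3 * G - 1) * a0 - a0 * (G * G * G - 3 * (G * G) + 3 * G - 1) = 0 := by
    rw [h0]; simp
  have hc : a0 * 3 = 3 * a0 := by
    have := (Nat.cast_commute 3 a0).eq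
    exact_mod_cast this.symm
  rw [← h3]
  simp only [sub_mul, mul_sub, add_mul, mul_add, one_mul, mul_one]
  rw [h2, mul_assoc 3 (G * G) a0, h1, mul_assoc 3 G a0, ha0]
  simp only [← mul_assoc, hc]
  abel

theorem e2 {G b1 b2 b3 x1 x2 x3 : R}
    (h0 : x3 * (G * G * G) - 3 * (x2 * (G * G)) + 3 * (x1 * G) = 0)
    {b0 : R} (hb0 : G * b0 = b1 * G) (hb1 : G * b1 = b2 * G) (hb2 : G * b2 = b3 * G)
    (hx1 : x1 * b1 = b1 * x1) (hx2 : x2 * b1 = b1 * x2) (hx3 : x3 * b1 = b1 * x3) :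
    x3 * (b3 - b1) * (G * G * G) - 3 * (x2 * (b2 - b1) * (G * G)) = 0 := by
  have h1 : G * G * b0 = b2 * (G * G) := by
    rw [mul_assoc, hb0, ← mul_assoc, hb1, mul_assoc]
  have h2 : G * G * G * b0 = b3 * (G * G * G) := by
    rw [mul_assoc, hb0, ← mul_assoc, mul_assoc G G b1, hb1, ← mul_assoc, hb2]
    simp only [mul_assoc]
  have h3 : (x3 * (G * G * G) - 3 * (x2 * (G * G)) + 3 * (x1 * G)) * b0 -
      b1 * (x3 * (G * G * G) - 3 * (x2 * (G * G)) + 3 * (x1 * G)) = 0 := by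
    rw [h0]; simp
  have hc : b1 * 3 = 3 * b1 := by
    have := (Nat.cast_commute 3 b1).eq
    exact_mod_cast this.symm
  rw [← h3]
  simp only [sub_mul, mul_sub, add_mul, mul_add]
  rw [mul_assoc x3 (G * G * G) b0, h2, mul_assoc 3 (x2 * (G * G)) b0, mul_assoc x2 (G * G) b0, h1,
    mul_assoc 3 (x1 * G) b0, mul_assoc x1 G b0, hb0]
  simp only [← mul_assoc, hc]
  rw [mul_assoc 3 b1 x2, mul_assoc 3 b1 x1, ← hx1, ← hx2, ← hx3]
  simp only [← mul_assoc]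
  abel

theorem e3 {G c2 c3 y2 y3 : R}
    (h0 : y3 * (G * G * G) - 3 * (y2 * (G * G)) = 0)
    {c0 c1 : R} (hc0 : G * c0 = c1 * G) (hc1 : G * c1 = c2 * G) (hc2 : G * c2 = c3 * G)
    (hy2 : y2 * c2 = c2 * y2) (hy3 : y3 * c2 = c2 * y3) :
    y3 * (c3 - c2) * (G * G * G) = 0 := by
  have h1 : G * G * c0 = c2 * (G * G) := by
    rw [mul_assoc, hc0, ← mul_assoc, hc1, mul_assoc]
  have h2 : G * G * G * c0 = c3 * (G * G * G) := by
    rw [mul_assoc, hc0, ← mul_assoc, mul_assoc G G c1, hc1, ← mul_assoc, hc2]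
    simp only [mul_assoc]
  have h3 : (y3 * (G * G * G) - 3 * (y2 * (G * G))) * c0 -
      c2 * (y3 * (G * G * G) - 3 * (y2 * (G * G))) = 0 := by
    rw [h0]; simp
  have hc : c2 * 3 = 3 * c2 := by
    have := (Nat.cast_commute 3 c2).eq
    exact_mod_cast this.symm
  rw [← h3]
  simp only [sub_mul, mul_sub]
  rw [mul_assoc y3 (G * G * G) c0, h2, mul_assoc 3 (y2 * (G * G)) c0, mul_assoc y2 (G * G) c0, h1]
  simp only [← mul_assoc, hc]
  rw [mul_assoc 3 c2 y2, ← hy2, ← hy3]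
  simp only [← mul_assoc]
  abel

theorem zuv {z u v w : R} (h1 : z * u = u * z) (h2 : z * v = v * z) :
    z * u * (z * v) * (z * w) = z ^ 3 * (u * v * w) := by
  calc z * u * (z * v) * (z * w) = z * (u * z) * (v * z) * w := by simp only [mul_assoc]
    _ = z * (z * u) * (z * v) * w := by rw [h1, h2]
    _ = z * z * (u * z) * v * w := by simp only [mul_assoc]
    _ = z * z * (z * u) * v * w := by rw [h1]
    _ = _ := by rw [pow_succ, pow_two]; simp only [mul_assoc]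

end ring

section act
variable {R : Type*} [Ring R] {Y : Type*} [Group Y] (φ : Y →* R) {L : Subgroup Y} {g : Y}

theorem surj (hab : ∀ k ∈ L, ∀ k' ∈ L, φ k * φ k' = φ k' * φ k)
    (hgL : ∀ k ∈ L, g * k * g⁻¹ ∈ L) (j r : ℕ) : ∀ k ∈ L, ∃ k' ∈ L,
      φ (g ^ j * k' * (g ^ j)⁻¹ * k'⁻¹) = φ (g ^ (j * r) * k * (g ^ (j * r))⁻¹ * k⁻¹) := by
  have hgL' : ∀ i : ℕ, ∀ k ∈ L, g ^ i * k * (g ^ i)⁻¹ ∈ L := by
    intro i
    induction i with
    | zero => intro k hk; simpa using hk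
    | succ i ih =>
      intro k hk
      have := hgL _ (ih k hk)
      have e : g ^ (i + 1) * k * (g ^ (i + 1))⁻¹ = g * (g ^ i * k * (g ^ i)⁻¹) * g⁻¹ := by
        rw [pow_succ' g i]; group
      rw [e]; exact this
  induction r with
  | zero => intro k hk; exact ⟨1, L.one_mem, by simp⟩
  | succ r ih =>
    intro k hk
    obtain ⟨k', hk', e⟩ := ih k hk
    set k1 := g ^ (j * r) * k * (g ^ (j * r))⁻¹ with hk1
    have hk1L : k1 ∈ L := hgL' _ _ hk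
    refine ⟨k1 * k', mul_mem hk1L hk', ?_⟩
    have e1 : g ^ j * (k1 * k') * (g ^ j)⁻¹ * (k1 * k')⁻¹ =
        (g ^ j * k1 * (g ^ j)⁻¹) * (g ^ j * k' * (g ^ j)⁻¹ * k'⁻¹) * k1⁻¹ := by group
    have e2 : g ^ (j * (r + 1)) * k * (g ^ (j * (r + 1)))⁻¹ * k⁻¹ =
        (g ^ j * k1 * (g ^ j)⁻¹) * k1⁻¹ * (k1 * k⁻¹) := by
      rw [hk1, mul_add, mul_one, pow_add g (j * r) j, ← pow_add, add_comm (j * r) j, pow_add]; group
    have f1 : ∀ x y z : Y, φ (x * y * z) = φ x * (φ y * φ z) := by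
      intro x y z; rw [map_mul, map_mul, mul_assoc]
    have g1 := f1 (g ^ j * k1 * (g ^ j)⁻¹) (g ^ j * k' * (g ^ j)⁻¹ * k'⁻¹) k1⁻¹
    have g2 := f1 (g ^ j * k1 * (g ^ j)⁻¹) k1⁻¹ (k1 * k⁻¹)
    rw [e1, e2, g1, g2, e]
    congr 1
    apply hab _ _ _ (inv_mem hk1L)
    exact mul_mem hk1L (inv_mem hk)

theorem step5 (hab : ∀ k ∈ L, ∀ k' ∈ L, φ k * φ k' = φ k' * φ k)
    (hunip : ∀ m ∈ L, (φ m - 1) ^ 3 = 0 → φ m = 1)
    (hgL : ∀ k ∈ L, g * k * g⁻¹ ∈ L) {p n : ℕ} (hp : p.Prime) (hp5 : 5 ≤ p)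
    (hgo : g ^ (p ^ n) = 1) (hcube : (φ g - 1) ^ 3 = 0) : ∀ k ∈ L, φ (g * k * g⁻¹) = φ k := by
  have hG : ∀ k, φ g * φ k = φ (g * k * g⁻¹) * φ g := by
    intro k
    rw [← map_mul, ← map_mul]; congr 1; group
  have hgLi : ∀ i : ℕ, ∀ k ∈ L, g ^ i * k * (g ^ i)⁻¹ ∈ L := by
    intro i
    induction i with
    | zero => intro k hk; simpa using hk
    | succ i ih =>
      intro k hk
      have := hgL _ (ih k hk)
      have e : g ^ (i + 1) * k * (g ^ (i + 1))⁻¹ = g * (g ^ i * k * (g ^ i)⁻¹) * g⁻¹ := by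
        rw [pow_succ' g i]; group
      rw [e]; exact this
  have hinv : g⁻¹ = g ^ (p ^ n - 1) := by
    have h1 : 1 ≤ p ^ n := Nat.one_le_iff_ne_zero.2 (pow_ne_zero _ hp.ne_zero)
    rw [inv_eq_iff_mul_eq_one, ← pow_succ', Nat.sub_add_cancel h1, hgo]
  have hgL' : ∀ k ∈ L, g⁻¹ * k * g ∈ L := by
    intro k hk
    have := hgLi (p ^ n - 1) k hk
    rw [← hinv, inv_inv] at this
    exact this
  have h0 : φ g * φ g * φ g - 3 * (φ g * φ g) + 3 * φ g - 1 = 0 := by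
    rw [← hcube]
    have e : ∀ G : R, G * G * G - 3 * (G * G) + 3 * G - 1 = (G - 1) ^ 3 := by
      intro G; noncomm_ring
    exact e _
  -- triple identity
  have trip : ∀ a ∈ L, ∀ b ∈ L, ∀ c ∈ L,
      (φ (g ^ 3 * a * (g ^ 3)⁻¹) - φ a) * (φ (g ^ 2 * b * (g ^ 2)⁻¹) - φ b) *
        (φ (g * c * g⁻¹) - φ c) = 0 := by
    intro a ha b hb c hc
    have A1 := hgL _ ha
    have A2 := hgL _ A1
    have A3 := hgL _ A2
    have B0 := hgL' _ hb
    have B2 := hgL _ hb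
    have B3 := hgL _ B2
    have C1 := hgL' _ hc
    have C0 := hgL' _ C1
    have C3 := hgL _ hc
    have eb : g * (g⁻¹ * b * g) * g⁻¹ = b := by group
    have ec : g * (g⁻¹ * c * g) * g⁻¹ = c := by group
    have ec' : g * (g⁻¹ * (g⁻¹ * c * g) * g) * g⁻¹ = g⁻¹ * c * g := by group
    have E1 := e1 h0 (hG a) (hG _) (hG _)
    have hb0 := hG (g⁻¹ * b * g)
    rw [eb] at hb0
    have E2 := e2 E1 hb0 (hG _) (hG _)
      (by rw [sub_mul, mul_sub, hab _ A1 _ hb, hab _ ha _ hb])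
      (by rw [sub_mul, mul_sub, hab _ A2 _ hb, hab _ ha _ hb])
      (by rw [sub_mul, mul_sub, hab _ A3 _ hb, hab _ ha _ hb])
    have hc1 := hG (g⁻¹ * c * g)
    rw [ec] at hc1
    have hc0 := hG (g⁻¹ * (g⁻¹ * c * g) * g)
    rw [ec'] at hc0
    have cc : ∀ x ∈ L, ∀ y ∈ L, Commute (φ x) (φ y) := fun x hx y hy => hab x hx y hy
    have E3 := e3 E2 hc0 hc1 (hG _)
      (((cc _ A2 _ hc).sub_left (cc _ ha _ hc)).mul_left ((cc _ B2 _ hc).sub_left (cc _ hb _ hc)))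
      (((cc _ A3 _ hc).sub_left (cc _ ha _ hc)).mul_left ((cc _ B3 _ hc).sub_left (cc _ hb _ hc)))
    have E4 := congrArg (fun x => x * (φ g⁻¹ * φ g⁻¹ * φ g⁻¹)) E3
    simp only [zero_mul] at E4
    have e5 : φ g * φ g * φ g * (φ g⁻¹ * φ g⁻¹ * φ g⁻¹) = 1 := by
      rw [← map_mul, ← map_mul, ← map_mul, ← map_mul, ← map_mul, ← map_one φ]; congr 1; group
    rw [mul_assoc, e5, mul_one] at E4
    have ea : g * (g * (g * a * g⁻¹) * g⁻¹) * g⁻¹ = g ^ 3 * a * (g ^ 3)⁻¹ := by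
      rw [pow_succ, pow_two]; group
    have eb : g * (g * b * g⁻¹) * g⁻¹ = g ^ 2 * b * (g ^ 2)⁻¹ := by
      rw [pow_two]; group
    rw [ea, eb] at E4
    exact E4
  intro k hk
  -- exponents
  have hex : ∀ j : ℕ, 1 ≤ j → j < p → ∃ r, g ^ (j * r) = g := by
    intro j hj1 hj2
    have hcop : Nat.Coprime j (p ^ n) := by
      apply Nat.Coprime.pow_right
      rw [Nat.coprime_comm, hp.coprime_iff_not_dvd]
      intro h
      exact absurd (Nat.le_of_dvd (by omega) h) (by omega)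
    rcases Nat.lt_or_ge 1 (p ^ n) with h1 | h1
    · obtain ⟨r, hr⟩ := Nat.exists_mul_mod_eq_one_of_coprime hcop h1
      refine ⟨r, ?_⟩
      rw [← pow_mod_orderOf]
      have : orderOf g ∣ p ^ n := orderOf_dvd_of_pow_eq_one hgo
      have h2 : j * r % orderOf g = 1 % orderOf g := by
        rw [← Nat.mod_mod_of_dvd (j * r) this, hr.2]
      rw [h2, pow_mod_orderOf, pow_one]
    · have : p ^ n = 1 := le_antisymm h1 (Nat.one_le_iff_ne_zero.2 (pow_ne_zero _ hp.ne_zero))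
      rw [this, pow_one] at hgo
      exact ⟨0, by simp [hgo]⟩
  obtain ⟨r3, hr3⟩ := hex 3 (by norm_num) (by omega)
  obtain ⟨r2, hr2⟩ := hex 2 (by norm_num) (by omega)
  obtain ⟨k1, hk1, e1⟩ := surj φ hab hgL 3 r3 k hk
  obtain ⟨k2, hk2, e2⟩ := surj φ hab hgL 2 r2 k hk
  rw [hr3] at e1
  rw [hr2] at e2
  set m := g * k * g⁻¹ * k⁻¹ with hm
  have hmL : m ∈ L := mul_mem (hgL _ hk) (inv_mem hk)
  have T := trip k1 hk1 k2 hk2 k hk
  have f1 : φ (g ^ 3 * k1 * (g ^ 3)⁻¹) - φ k1 = (φ m - 1) * φ k1 := by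
    rw [← e1, sub_mul, one_mul, ← map_mul]; congr 2; group
  have f2 : φ (g ^ 2 * k2 * (g ^ 2)⁻¹) - φ k2 = (φ m - 1) * φ k2 := by
    rw [← e2, sub_mul, one_mul, ← map_mul]; congr 2; group
  have f3 : φ (g * k * g⁻¹) - φ k = (φ m - 1) * φ k := by
    rw [hm, sub_mul, one_mul, ← map_mul]; congr 2; group
  rw [f1, f2, f3] at T
  have cc : ∀ x ∈ L, Commute (φ m - 1) (φ x) := fun x hx =>
    Commute.sub_left (hab m hmL x hx) (Commute.one_left _)
  have T2 : (φ m - 1) ^ 3 * (φ k1 * φ k2 * φ k) = 0 := by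
    rw [← T]
    exact (zuv (cc k1 hk1).eq (cc k2 hk2).eq).symm
  have T3 : (φ m - 1) ^ 3 = 0 := by
    have := congrArg (fun x => x * (φ k⁻¹ * φ k2⁻¹ * φ k1⁻¹)) T2
    simp only [zero_mul] at this
    have e5 : φ k1 * φ k2 * φ k * (φ k⁻¹ * φ k2⁻¹ * φ k1⁻¹) = 1 := by
      rw [← map_mul, ← map_mul, ← map_mul, ← map_mul, ← map_mul, ← map_one φ]; congr 1; group
    rwa [mul_assoc, e5, mul_one] at this
  have T4 := hunip m hmL T3
  have : φ (g * k * g⁻¹) = φ m * φ k := by rw [← map_mul, hm]; congr 1; group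
  rw [this, T4, one_mul]

end act

end Cfsg.Agent.Lib.H81Cubic2
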