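import Mathlib
import Cfsg.Agent.Lib.H81Cubic
import Cfsg.Agent.Lib.H81Cubic2
import Cfsg.Agent.Lib.PNilp

/-!
The minimal configuration for abelian subgroups of maximal order (helper81).
-/

set_option autoImplicit false

namespace Cfsg.Agent.Lib.H81Cubic3

open Subgroup Cfsg.Agent.Lib.ThompsonJ Cfsg.Agent.Lib.H81Cubic
open scoped commutatorElement

universe u

variable {G : Type u} [Group G]

theorem le_norm_of {N H : Subgroup G} (h : ∀ l ∈ H, ∀ n ∈ N, l * n * l⁻¹ ∈ N) :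
    H ≤ normalizer (N : Set G) := by
  intro l hl
  rw [mem_normalizer_iff]
  intro n
  refine ⟨h l hl n, fun hn => ?_⟩
  have := h l⁻¹ (inv_mem hl) _ hn
  have e : l⁻¹ * (l * n * l⁻¹) * l⁻¹⁻¹ = n := by group
  rwa [e] at this

theorem conj_of_le_norm {N H : Subgroup G} (h : H ≤ normalizer (N : Set G)) {l n : G} (hl : l ∈ H)
    (hn : n ∈ N) : l * n * l⁻¹ ∈ N := ((mem_normalizer_iff.1 (h hl)) n).1 hn

theorem normal_of {N L A : Subgroup G} (htop : L ⊔ A = ⊤) (h1 : ∀ l ∈ L, ∀ n ∈ N, l * n * l⁻¹ ∈ N)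
    (h2 : ∀ a ∈ A, ∀ n ∈ N, a * n * a⁻¹ ∈ N) : N.Normal := by
  rw [← normalizer_eq_top_iff, eq_top_iff, ← htop]
  exact sup_le (le_norm_of h1) (le_norm_of h2)

/-- elements acting trivially on `L / T`. -/
def relC (L T : Subgroup G) [T.Normal] : Subgroup G :=
  (centralizer ((L.map (QuotientGroup.mk' T) : Subgroup (G ⧸ T)) : Set (G ⧸ T))).comap
    (QuotientGroup.mk' T)

theorem mem_relC {L T : Subgroup G} [T.Normal] {x : G} : x ∈ relC L T ↔ ∀ l ∈ L, ⁅l, x⁆ ∈ T := by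
  unfold relC
  rw [mem_comap, mem_centralizer_iff]
  constructor
  · intro h l hl
    have := h _ ⟨l, hl, rfl⟩
    rw [← commutatorElement_eq_one_iff_mul_comm] at this
    rw [← QuotientGroup.eq_one_iff]
    exact this
  · rintro h _ ⟨l, hl, rfl⟩
    rw [← commutatorElement_eq_one_iff_mul_comm]
    exact (QuotientGroup.eq_one_iff _).2 (h l hl)

instance relC_normal {L T : Subgroup G} [T.Normal] [L.Normal] : (relC L T).Normal := by
  unfold relC
  have : (L.map (QuotientGroup.mk' T)).Normal := Subgroup.Normal.map inferInstance _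
    (QuotientGroup.mk'_surjective T)
  infer_instance

/-- the subgroup generated by `p'`-elements of `L`. -/
def Op (p : ℕ) (L : Subgroup G) : Subgroup G := closure {x | x ∈ L ∧ (orderOf x).Coprime p}

theorem Op_le {p : ℕ} {L : Subgroup G} : Op p L ≤ L := by
  unfold Op; rw [closure_le]; exact fun x hx => hx.1

instance Op_normal {p : ℕ} {L : Subgroup G} [L.Normal] : (Op p L).Normal := by
  rw [← normalizer_eq_top_iff, eq_top_iff]
  apply le_norm_of
  intro g _ n hn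
  unfold Op at hn ⊢
  induction hn using closure_induction with
  | mem x hx =>
    apply Subgroup.subset_closure
    refine ⟨Subgroup.Normal.conj_mem inferInstance _ hx.1 _, ?_⟩
    have : orderOf (g * x * g⁻¹) = orderOf x := by
      have h := (MulAut.conj g).orderOf_eq x
      rwa [MulAut.conj_apply] at h
    rw [this]; exact hx.2
  | one => simp
  | mul x y _ _ hx hy =>
    have e : g * (x * y) * g⁻¹ = (g * x * g⁻¹) * (g * y * g⁻¹) := by group
    rw [e]; exact mul_mem hx hy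
  | inv x _ hx =>
    have e : g * x⁻¹ * g⁻¹ = (g * x * g⁻¹)⁻¹ := by group
    rw [e]; exact inv_mem hx

variable [Finite G] {p : ℕ} [Fact p.Prime]

theorem mem_of_pel {T L : Subgroup G} [T.Normal] (hcop : (T.relIndex L).Coprime p) {x : G} (hx : x ∈ L)
    {k : ℕ} (hk : x ^ p ^ k = 1) : x ∈ T := by
  have h1 : x ^ (T.relIndex L) ∈ T := by
    have := (T.subgroupOf L).pow_index_mem ⟨x, hx⟩
    exact this
  have hc : Nat.Coprime (T.relIndex L) (p ^ k) := Nat.Coprime.pow_right k hcop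
  have h2 := Nat.gcd_eq_gcd_ab (T.relIndex L) (p ^ k)
  rw [hc] at h2
  have h3 : x = (x ^ (T.relIndex L)) ^ (Nat.gcdA (T.relIndex L) (p ^ k)) *
      (x ^ (p ^ k)) ^ (Nat.gcdB (T.relIndex L) (p ^ k)) := by
    rw [← zpow_natCast x (T.relIndex L), ← zpow_mul, ← zpow_natCast x (p ^ k), ← zpow_mul, ← zpow_add,
      ← h2]
    simp
  rw [h3, hk, one_zpow, mul_one]
  exact zpow_mem h1 _

theorem le_sup_Op {T L : Subgroup G} [T.Normal] (hcop : (T.relIndex L).Coprime p) : L ≤ T ⊔ Op p L := by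
  intro x hx
  obtain ⟨k, hk⟩ := Cfsg.Agent.Lib.PNilp.exists_pow_coprime p x
  -- x^(p^k) has order coprime to p
  set m := orderOf (x ^ p ^ k) with hm
  have hc : Nat.Coprime m (p ^ k) := Nat.Coprime.pow_right k hk
  have h2 := Nat.gcd_eq_gcd_ab m (p ^ k)
  rw [hc] at h2
  have h3 : x = (x ^ m) ^ (Nat.gcdA m (p ^ k)) * (x ^ (p ^ k)) ^ (Nat.gcdB m (p ^ k)) := by
    rw [← zpow_natCast x m, ← zpow_mul, ← zpow_natCast x (p ^ k), ← zpow_mul, ← zpow_add, ← h2]
    simp
  rw [h3]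
  apply mul_mem
  · apply zpow_mem
    apply mem_sup_left
    apply mem_of_pel (p := p) (k := k) hcop (pow_mem hx _)
    rw [← pow_mul, mul_comm, pow_mul, hm, pow_orderOf_eq_one]
  · apply zpow_mem
    apply mem_sup_right
    exact subset_closure ⟨pow_mem hx _, hk⟩

theorem mem_sup_iff {T H : Subgroup G} [T.Normal] {x : G} : x ∈ T ⊔ H ↔ ∃ t ∈ T, ∃ h ∈ H, t * h = x :=
  Subgroup.mem_sup_of_normal_left

/-- The basic configuration. -/
structure Cfg (p : ℕ) (T L A S : Subgroup G) : Prop where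
  Tn : T.Normal
  Ln : L.Normal
  TL : T ≤ L
  hS : S = T ⊔ A
  Sp : IsPGroup p S
  cT : centralizer (T : Set G) ≤ T
  LL : ⁅L, L⁆ ≤ T
  cop : (T.relIndex L).Coprime p
  hA : A ∈ maxIn Ab S
  top : L ⊔ A = ⊤
  ndc : ¬ ⁅L, A⁆ ≤ T

theorem cop_fix {O C : Subgroup G} (hC : IsPGroup p C) {x : G} (hx : (orderOf x).Coprime p)
    (hd : ∀ c ∈ C, ⁅x, c⁆ ∈ C ∧ x * ⁅x, c⁆ = ⁅x, c⁆ * x) : ∀ c ∈ C, x * c = c * x := by
  intro c hc
  obtain ⟨h1, h2⟩ := hd c hc
  set d := ⁅x, c⁆ with hd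
  have h3 : x * c * x⁻¹ = d * c := by rw [hd, commutatorElement_def]; group
  have h4 : ∀ n : ℕ, x ^ n * c * (x ^ n)⁻¹ = d ^ n * c := by
    intro n
    induction n with
    | zero => simp
    | succ n ih =>
      have e : x ^ (n + 1) * c * (x ^ (n + 1))⁻¹ = x * (x ^ n * c * (x ^ n)⁻¹) * x⁻¹ := by
        rw [pow_succ' x n]; group
      have hc' : Commute x (d ^ n) := (show Commute x d from h2).pow_right n
      have e2 : x * (d ^ n * c) * x⁻¹ = d ^ n * (x * c * x⁻¹) := by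
        have : x * d ^ n = d ^ n * x := hc'
        calc x * (d ^ n * c) * x⁻¹ = (x * d ^ n) * c * x⁻¹ := by group
          _ = _ := by rw [this]; group
      rw [e, ih, e2, h3, ← mul_assoc, ← pow_succ]
  have h5 := h4 (orderOf x)
  rw [pow_orderOf_eq_one, one_mul, inv_one, mul_one] at h5
  have h6 : d ^ orderOf x = 1 := by
    have : d ^ orderOf x * c = 1 * c := by rw [← h5, one_mul]
    exact mul_right_cancel this
  obtain ⟨k, hk⟩ := hC ⟨d, h1⟩
  have hk' : d ^ p ^ k = 1 := by simpa using congrArg Subtype.val hk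
  have h7 : orderOf d ∣ 1 := by
    have := Nat.dvd_gcd (orderOf_dvd_of_pow_eq_one h6) (orderOf_dvd_of_pow_eq_one hk')
    rwa [Nat.Coprime.gcd_eq_one (Nat.Coprime.pow_right k hx)] at this
  rw [Nat.dvd_one, orderOf_eq_one_iff] at h7
  rw [← commutatorElement_eq_one_iff_mul_comm]
  exact h7

theorem le_cent_Op {L N : Subgroup G} : N ≤ centralizer (Op p L : Set G) ↔
    ∀ x ∈ L, (orderOf x).Coprime p → ∀ n ∈ N, x * n = n * x := by
  constructor
  · intro h x hx hxp n hn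
    exact (mem_centralizer_iff.1 (h hn)) x (Subgroup.subset_closure ⟨hx, hxp⟩)
  · intro h
    rw [Subgroup.le_centralizer_iff]
    unfold Op
    rw [closure_le]
    rintro x ⟨hx, hxp⟩
    show x ∈ centralizer _
    rw [mem_centralizer_iff]
    intro n hn
    exact (h x hx hxp n hn).symm

theorem Cfg.exists_C0 {T L A S : Subgroup G} (h : Cfg p T L A S) : ∃ C : Subgroup G, C.Normal ∧ C ≤ T ∧
    ¬ C ≤ centralizer (Op p L : Set G) ∧
      ∀ N : Subgroup G, N.Normal → N ≤ C → N ≠ C → N ≤ centralizer (Op p L : Set G) := by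
  have := h.Tn
  have := h.Ln
  have hne : ({C : Subgroup G | C.Normal ∧ C ≤ T ∧ ¬ C ≤ centralizer (Op p L : Set G)}).Nonempty := by
    refine ⟨T, h.Tn, le_rfl, fun h1 => h.ndc ?_⟩
    have h2 : Op p L ≤ T := by
      rw [le_centralizer_iff] at h1
      exact h1.trans h.cT
    have h3 : L ≤ T := (le_sup_Op h.cop).trans (sup_le le_rfl h2)
    exact (commutator_mono h3 le_rfl).trans (commutator_le_left T A)
  obtain ⟨C, hC, hmin⟩ := Set.exists_min_image _ (fun C : Subgroup G => Nat.card C) (Set.toFinite _) hne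
  refine ⟨C, hC.1, hC.2.1, hC.2.2, fun N hN hNC hne => ?_⟩
  by_contra h1
  exact hne (Subgroup.eq_of_le_of_card_ge hNC (hmin N ⟨hN, hNC.trans hC.2.1, h1⟩))

structure Cfg2 (p : ℕ) (T L A S C Z : Subgroup G) : Prop extends Cfg p T L A S where
  Cn : C.Normal
  CT : C ≤ T
  Cnc : ¬ C ≤ centralizer (Op p L : Set G)
  Cmin : ∀ N : Subgroup G, N.Normal → N ≤ C → N ≠ C → N ≤ centralizer (Op p L : Set G)
  hZ : Z = C ⊓ centralizer (Op p L : Set G)

section cfg2
variable {T L A S C Z : Subgroup G} (h : Cfg2 p T L A S C Z)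
include h

theorem Cfg2.TS : T ≤ S := by rw [h.hS]; exact le_sup_left
theorem Cfg2.AS : A ≤ S := by rw [h.hS]; exact le_sup_right

theorem Cfg2.Tp : IsPGroup p T := h.Sp.to_le h.TS
theorem Cfg2.Cp : IsPGroup p C := h.Sp.to_le (h.CT.trans h.TS)

theorem Cfg2.Zn : Z.Normal := by
  have := h.Cn
  have := h.Ln
  rw [h.hZ]
  infer_instance

theorem Cfg2.ZC : Z ≤ C := by rw [h.hZ]; exact inf_le_left
theorem Cfg2.ZO : Z ≤ centralizer (Op p L : Set G) := by rw [h.hZ]; exact inf_le_right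

theorem Cfg2.le_Z {N : Subgroup G} (hN : N.Normal) (hNC : N ≤ C) (hne : N ≠ C) : N ≤ Z := by
  rw [h.hZ]; exact le_inf hNC (h.Cmin N hN hNC hne)

theorem Cfg2.CO : ⁅Op p L, C⁆ = C := by
  have := h.Cn
  have := h.Ln
  by_contra hne
  have h1 : ⁅Op p L, C⁆ ≤ C := commutator_le_right _ _
  have h2 := h.Cmin _ inferInstance h1 hne
  apply h.Cnc
  rw [le_cent_Op] at h2 ⊢
  intro x hx hxp
  apply cop_fix (O := L) h.Cp hxp
  intro c hc
  have h3 : ⁅x, c⁆ ∈ ⁅Op p L, C⁆ := commutator_mem_commutator (Subgroup.subset_closure ⟨hx, hxp⟩) hc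
  exact ⟨h1 h3, h2 x hx hxp _ h3⟩

theorem Cfg2.C_le_O : C ≤ Op p L := by
  have := h.Cn
  have := h.Ln
  rw [← h.CO]
  exact commutator_le_left _ _

theorem Cfg2.Zcent {z c : G} (hz : z ∈ Z) (hc : c ∈ C) : z * c = c * z :=
  ((mem_centralizer_iff.1 (h.ZO hz)) c (h.C_le_O hc)).symm

theorem Cfg2.Cne : C ≠ ⊥ := by
  rintro rfl
  exact h.Cnc bot_le

theorem Cfg2.T0n [h1 : T.Normal] : (S ⊓ relC L T).Normal := by
  have := h.Ln
  apply normal_of h.top
  · intro l hl n hn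
    have hn1 : n ∈ S := hn.1
    have hn2 : n ∈ relC L T := hn.2
    have h2 : ⁅l, n⁆ ∈ T := (mem_relC.1 hn2) l hl
    have h3 : l * n * l⁻¹ = ⁅l, n⁆ * n := by rw [commutatorElement_def]; group
    refine ⟨?_, ?_⟩
    · show l * n * l⁻¹ ∈ S
      rw [h3]; exact mul_mem (h.TS h2) hn1
    · exact Subgroup.Normal.conj_mem relC_normal n hn2 l
  · intro a ha n hn
    refine ⟨(show a * n * a⁻¹ ∈ S from mul_mem (mul_mem (h.AS ha) hn.1) (inv_mem (h.AS ha))), ?_⟩
    exact Subgroup.Normal.conj_mem relC_normal n hn.2 a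

theorem Cfg2.TT0 [h1 : T.Normal] : T ≤ S ⊓ relC L T := by
  refine le_inf h.TS ?_
  intro t ht
  rw [mem_relC]
  intro l hl
  rw [commutatorElement_def]
  exact mul_mem (Subgroup.Normal.conj_mem h1 t ht l) (inv_mem ht)

theorem Cfg2.CT0 [h1 : T.Normal] : ⁅C, S ⊓ relC L T⁆ ≤ Z := by
  have := h.Cn
  have := h.T0n
  apply h.le_Z inferInstance (commutator_le_left _ _)
  intro he
  have hS : Group.IsNilpotent S := h.Sp.isNilpotent
  obtain ⟨n, hn⟩ := (isNilpotent_iff_lowerCentralSeries S).1 hS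
  apply h.Cne
  rw [eq_bot_iff, ← hn]
  clear hn
  induction n with
  | zero => exact h.CT.trans h.TS
  | succ n ih =>
    rw [Subgroup.lowerCentralSeries_succ, ← he]
    exact commutator_mono ih inf_le_left

theorem Cfg2.CT' : ⁅C, T⁆ ≤ Z := by
  have := h.Tn
  exact (commutator_mono le_rfl h.TT0).trans h.CT0

theorem Cfg2.CC : ⁅C, C⁆ ≤ Z := (commutator_mono le_rfl h.CT).trans h.CT'

theorem Cfg2.D_L {x y l : G} (hx : x ∈ C) (hy : y ∈ C) (hl : l ∈ L) : l * ⁅x, y⁆ = ⁅x, y⁆ * l := by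
  have := h.Cn
  have := h.Tn
  have h1 : ⁅⁅C, C⁆, T⁆ = ⊥ := by
    apply commutator_commutator_eq_bot_of_rotate
    · rw [eq_bot_iff]
      refine (commutator_mono h.CT' le_rfl).trans ?_
      rw [commutator_le]
      intro z hz c hc
      rw [mem_bot, commutatorElement_eq_one_iff_mul_comm]
      exact h.Zcent hz hc
    · rw [eq_bot_iff]
      refine (commutator_mono (commutator_comm_le T C |>.trans h.CT') le_rfl).trans ?_
      rw [commutator_le]
      intro z hz c hc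
      rw [mem_bot, commutatorElement_eq_one_iff_mul_comm]
      exact h.Zcent hz hc
  have h2 : T ≤ centralizer ((⁅C, C⁆ : Subgroup G) : Set G) := by
    rw [← commutator_eq_bot_iff_le_centralizer, commutator_comm]; exact h1
  have h3 : Op p L ≤ centralizer ((⁅C, C⁆ : Subgroup G) : Set G) := by
    rw [le_centralizer_iff]
    exact h.CC.trans h.ZO
  have h4 : L ≤ centralizer ((⁅C, C⁆ : Subgroup G) : Set G) := (le_sup_Op h.cop).trans (sup_le h2 h3)
  exact ((mem_centralizer_iff.1 (h4 hl)) _ (commutator_mem_commutator hx hy)).symm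

theorem Cfg2.exists_u : ∃ u ∈ C, u ∉ Z ∧ ∀ s ∈ S, ⁅u, s⁆ ∈ Z := by
  have := h.Cn
  have hS : Group.IsNilpotent S := h.Sp.isNilpotent
  obtain ⟨n, hn⟩ := (isNilpotent_iff_lowerCentralSeries S).1 hS
  have hex : ∃ n, C ⊓ S.lowerCentralSeries n ≤ Z := ⟨n, by rw [hn]; simp⟩
  classical
  set m := Nat.find hex with hm
  have h1 := Nat.find_spec hex
  have h0 : ¬ C ≤ Z := fun h2 => h.Cnc (h2.trans h.ZO)
  have hm0 : m ≠ 0 := by
    intro h2
    rw [← hm, h2] at h1
    apply h0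
    refine le_trans (le_inf le_rfl ?_) h1
    exact h.CT.trans h.TS
  have h2 := Nat.find_min hex (m := m - 1) (by omega)
  rw [SetLike.not_le_iff_exists] at h2
  obtain ⟨u, hu, huZ⟩ := h2
  have hu1 : u ∈ C := hu.1
  have hu2 : u ∈ S.lowerCentralSeries (m - 1) := hu.2
  refine ⟨u, hu1, huZ, fun s hs => ?_⟩
  apply h1
  refine ⟨?_, ?_⟩
  · exact commutator_le_left C ⊤ (commutator_mem_commutator hu1 (mem_top s))
  · show ⁅u, s⁆ ∈ S.lowerCentralSeries (Nat.find hex)
    rw [← hm, show m = m - 1 + 1 by omega, Subgroup.lowerCentralSeries_succ]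
    exact commutator_mem_commutator hu2 hs

end cfg2

end Cfsg.Agent.Lib.H81Cubic3
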