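import Mathlib
import Cfsg.Agent.Lib.H81Cubic3

/-!
The minimal configuration: splitting the critical section in two abelian pieces (helper81).
-/

set_option autoImplicit false

namespace Cfsg.Agent.Lib.H81Cubic4

open Subgroup Cfsg.Agent.Lib.ThompsonJ Cfsg.Agent.Lib.H81Cubic Cfsg.Agent.Lib.H81Cubic3
open scoped commutatorElement

universe u

variable {G : Type u} [Group G] [Finite G] {p : ℕ} [Fact p.Prime]

section cfg2
variable {T L A S C Z : Subgroup G} (h : Cfg2 p T L A S C Z)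
include h

theorem comm_Z {x y : G} (hx : x ∈ C) (hy : y ∈ C) : ⁅x, y⁆ ∈ Z := h.CC (commutator_mem_commutator hx hy)

theorem f_left {x y z : G} (hx : x ∈ C) (hy : y ∈ C) (hz : z ∈ C) :
    ⁅x * y, z⁆ = ⁅x, z⁆ * ⁅y, z⁆ := by
  have h1 : ⁅x * y, z⁆ = (x * ⁅y, z⁆) * x⁻¹ * ⁅x, z⁆ := by
    simp only [commutatorElement_def]; group
  have h2 : ⁅y, z⁆ * x = x * ⁅y, z⁆ := h.Zcent (comm_Z h hy hz) hx
  have h3 : ⁅y, z⁆ * ⁅x, z⁆ = ⁅x, z⁆ * ⁅y, z⁆ := h.Zcent (comm_Z h hy hz) (h.ZC (comm_Z h hx hz))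
  rw [h1, ← h2, ← h3]; group

theorem f_right {x y z : G} (hx : x ∈ C) (hy : y ∈ C) (hz : z ∈ C) :
    ⁅x, y * z⁆ = ⁅x, y⁆ * ⁅x, z⁆ := by
  have h1 : ⁅x, y * z⁆ = ⁅x, y⁆ * (y * ⁅x, z⁆) * y⁻¹ := by
    simp only [commutatorElement_def]; group
  have h2 : ⁅x, z⁆ * y = y * ⁅x, z⁆ := h.Zcent (comm_Z h hx hz) hy
  rw [h1, ← h2]; group

theorem f_zpow_left {x z : G} (hx : x ∈ C) (hz : z ∈ C) (n : ℤ) : ⁅x ^ n, z⁆ = ⁅x, z⁆ ^ n := by
  let f : C →* G :=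
    { toFun := fun x => ⁅(x : G), z⁆
      map_one' := by simp
      map_mul' := fun x y => f_left h x.2 y.2 hz }
  have := map_zpow f ⟨x, hx⟩ n
  exact this

theorem f_zpow_right {x z : G} (hx : x ∈ C) (hz : z ∈ C) (n : ℤ) : ⁅x, z ^ n⁆ = ⁅x, z⁆ ^ n := by
  let f : C →* G :=
    { toFun := fun z => ⁅x, (z : G)⁆
      map_one' := by simp
      map_mul' := fun y z => f_right h hx y.2 z.2 }
  have := map_zpow f ⟨z, hz⟩ n
  exact this

theorem conj_C {g x : G} (hx : x ∈ C) : g * x * g⁻¹ ∈ C := h.Cn.conj_mem x hx g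
theorem conj_Z {g x : G} (hx : x ∈ Z) : g * x * g⁻¹ ∈ Z := h.Zn.conj_mem x hx g

variable {u : G} (huC : u ∈ C) (huS : ∀ s ∈ S, ⁅u, s⁆ ∈ Z)
include huC

/-- the basic function -/
theorem h_ab {a b : G} (ha : a ∈ L) :
    ⁅a * u * a⁻¹, b * u * b⁻¹⁆ = ⁅u, (a⁻¹ * b) * u * (a⁻¹ * b)⁻¹⁆ := by
  have h1 : ⁅a * u * a⁻¹, b * u * b⁻¹⁆ = a * ⁅u, (a⁻¹ * b) * u * (a⁻¹ * b)⁻¹⁆ * a⁻¹ := by
    simp only [commutatorElement_def]; group
  rw [h1, h.D_L huC (conj_C h huC) ha]; group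

theorem h_inv {k : G} (hk : k ∈ L) :
    ⁅u, k⁻¹ * u * k⁻¹⁻¹⁆ = ⁅u, k * u * k⁻¹⁆⁻¹ := by
  have h1 := h_ab h huC hk (b := 1)
  simp only [one_mul, inv_one, mul_one] at h1
  rw [← h1, commutatorElement_inv]

include huS

theorem u_T {k s : G} (hs : s ∈ S) : ∃ z ∈ Z, (k * s) * u * (k * s)⁻¹ = z * (k * u * k⁻¹) := by
  refine ⟨k * ⁅s, u⁆ * k⁻¹, conj_Z h ?_, ?_⟩
  · rw [← commutatorElement_inv]; exact inv_mem (huS s hs)
  · rw [commutatorElement_def]; group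

theorem h_T {k t : G} (ht : t ∈ T) :
    ⁅u, (k * t) * u * (k * t)⁻¹⁆ = ⁅u, k * u * k⁻¹⁆ := by
  obtain ⟨z, hz, e⟩ := u_T h huC huS (k := k) (h.TS ht)
  rw [e, f_right h huC (h.ZC hz) (conj_C h huC)]
  have : ⁅u, z⁆ = 1 := by
    rw [commutatorElement_eq_one_iff_mul_comm]; exact (h.Zcent hz huC).symm
  rw [this, one_mul]

theorem h_comm {k j : G} (hk : k ∈ L) (hj : j ∈ L) :
    ⁅u, (k * j) * u * (k * j)⁻¹⁆ = ⁅u, (j * k) * u * (j * k)⁻¹⁆ := by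
  have h1 : k * j = (j * k) * ⁅k⁻¹, j⁻¹⁆ := by rw [commutatorElement_def]; group
  have h2 : ⁅k⁻¹, j⁻¹⁆ ∈ T := h.LL (commutator_mem_commutator (inv_mem hk) (inv_mem hj))
  rw [h1, h_T h huC huS h2]

theorem gen_comm {ε : ℤ} (hε : ε * ε = 1) {k j : G} (hk : k ∈ L) (hj : j ∈ L) :
    ⁅(k * u * k⁻¹) * (k⁻¹ * u * k⁻¹⁻¹) ^ ε, (j * u * j⁻¹) * (j⁻¹ * u * j⁻¹⁻¹) ^ ε⁆ = 1 := by
  have c1 := conj_C h huC (g := k)
  have c2 := conj_C h huC (g := k⁻¹)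
  have d1 := conj_C h huC (g := j)
  have d2 := conj_C h huC (g := j⁻¹)
  rw [f_left h c1 (zpow_mem c2 ε) (mul_mem d1 (zpow_mem d2 ε)), f_right h c1 d1 (zpow_mem d2 ε),
    f_right h (zpow_mem c2 ε) d1 (zpow_mem d2 ε), f_zpow_right h c1 d2, f_zpow_right h (zpow_mem c2 ε) d2,
    f_zpow_left h c2 d1, f_zpow_left h c2 d2, ← zpow_mul, hε, zpow_one]
  rw [h_ab h huC hk, h_ab h huC hk, h_ab h huC (inv_mem hk), h_ab h huC (inv_mem hk), inv_inv]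
  have e1 : ⁅u, (k⁻¹ * j⁻¹) * u * (k⁻¹ * j⁻¹)⁻¹⁆ = ⁅u, (k * j) * u * (k * j)⁻¹⁆⁻¹ := by
    have := h_inv h huC (mul_mem hj hk)
    rw [h_comm h huC huS hk hj, ← this, mul_inv_rev j k]
  have e2 : ⁅u, (k * j⁻¹) * u * (k * j⁻¹)⁻¹⁆ = ⁅u, (k⁻¹ * j) * u * (k⁻¹ * j)⁻¹⁆⁻¹ := by
    have := h_inv h huC (mul_mem hj (inv_mem hk))
    rw [h_comm h huC huS (inv_mem hk) hj, ← this, mul_inv_rev j k⁻¹, inv_inv k]
  rw [e1, e2]
  generalize ⁅u, (k⁻¹ * j) * u * (k⁻¹ * j)⁻¹⁆ = x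
  generalize ⁅u, (k * j) * u * (k * j)⁻¹⁆ = y
  group

end cfg2

/-- the pieces -/
def V (L Z : Subgroup G) (u : G) (ε : ℤ) : Subgroup G :=
  closure ((Z : Set G) ∪ {x | ∃ k ∈ L, x = (k * u * k⁻¹) * (k⁻¹ * u * k⁻¹⁻¹) ^ ε})

section cfg2b
variable {T L A S C Z : Subgroup G} (h : Cfg2 p T L A S C Z)
  {u : G} (huC : u ∈ C) (huS : ∀ s ∈ S, ⁅u, s⁆ ∈ Z)
include h huC huS

omit huS in
theorem V_le (ε : ℤ) : V L Z u ε ≤ C := by
  unfold V
  rw [closure_le]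
  rintro x (hx | ⟨k, -, rfl⟩)
  · exact h.ZC hx
  · exact mul_mem (conj_C h huC) (zpow_mem (conj_C h huC) _)

theorem V_comm {ε : ℤ} (hε : ε * ε = 1) : IsMulCommutative (V L Z u ε) := by
  unfold V
  apply Subgroup.isMulCommutative_closure
  rintro s (hs | ⟨k, hk, rfl⟩) t (ht | ⟨j, hj, rfl⟩)
  · exact h.Zcent hs (h.ZC ht)
  · exact h.Zcent hs (mul_mem (conj_C h huC) (zpow_mem (conj_C h huC) _))
  · exact (h.Zcent ht (mul_mem (conj_C h huC) (zpow_mem (conj_C h huC) _))).symm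
  · rw [← commutatorElement_eq_one_iff_mul_comm]
    exact gen_comm h huC huS hε hk hj

theorem conj_u {k s : G} (hs : s ∈ S) :
    ∃ z ∈ Z, s * (k * u * k⁻¹) * s⁻¹ = z * ((s * k * s⁻¹) * u * (s * k * s⁻¹)⁻¹) := by
  obtain ⟨z, hz, e⟩ := u_T h huC huS (k := s * k * s⁻¹) hs
  refine ⟨z, hz, ?_⟩
  rw [← e]; group

theorem S_norm_V (ε : ℤ) : S ≤ normalizer (V L Z u ε : Set G) := by
  have := h.Ln
  apply le_norm_of
  intro s hs n hn
  unfold V at hn ⊢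
  induction hn using closure_induction with
  | mem x hx =>
    rcases hx with hx | ⟨k, hk, rfl⟩
    · exact Subgroup.subset_closure (Or.inl (conj_Z h hx))
    · obtain ⟨z1, hz1, e1⟩ := conj_u h huC huS (k := k) hs
      obtain ⟨z2, hz2, e2⟩ := conj_u h huC huS (k := k⁻¹) hs
      have e3 : ∀ a b : G, s * (a * b ^ ε) * s⁻¹ = (s * a * s⁻¹) * (s * b * s⁻¹) ^ ε := by
        intro a b; rw [conj_zpow]; group
      have e4 : s * k⁻¹ * s⁻¹ = (s * k * s⁻¹)⁻¹ := by group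
      rw [e4] at e2
      set k' := s * k * s⁻¹ with hk'
      have hcm : Commute z2 (k'⁻¹ * u * k'⁻¹⁻¹) := h.Zcent hz2 (conj_C h huC)
      have hcm2 : (z2 ^ ε) * (k' * u * k'⁻¹) = (k' * u * k'⁻¹) * z2 ^ ε :=
        h.Zcent (zpow_mem hz2 ε) (conj_C h huC)
      rw [e3, e1, e2, hcm.mul_zpow]
      have e5 : z1 * (k' * u * k'⁻¹) * (z2 ^ ε * (k'⁻¹ * u * k'⁻¹⁻¹) ^ ε) =
          (z1 * z2 ^ ε) * ((k' * u * k'⁻¹) * (k'⁻¹ * u * k'⁻¹⁻¹) ^ ε) := by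
        calc _ = z1 * ((k' * u * k'⁻¹) * z2 ^ ε) * (k'⁻¹ * u * k'⁻¹⁻¹) ^ ε := by group
          _ = z1 * (z2 ^ ε * (k' * u * k'⁻¹)) * (k'⁻¹ * u * k'⁻¹⁻¹) ^ ε := by rw [hcm2]
          _ = _ := by simp only [mul_assoc]
      rw [e5]
      apply mul_mem
      · exact Subgroup.subset_closure (Or.inl (mul_mem hz1 (zpow_mem hz2 ε)))
      · exact Subgroup.subset_closure (Or.inr ⟨k', Subgroup.Normal.conj_mem inferInstance k hk s, rfl⟩)
  | one => simp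
  | mul x y _ _ hx hy =>
    have e : s * (x * y) * s⁻¹ = (s * x * s⁻¹) * (s * y * s⁻¹) := by group
    rw [e]; exact mul_mem hx hy
  | inv x _ hx =>
    have e : s * x⁻¹ * s⁻¹ = (s * x * s⁻¹)⁻¹ := by group
    rw [e]; exact inv_mem hx

theorem gen_C (huZ : u ∉ Z) : C = closure ((Z : Set G) ∪ {x | ∃ k ∈ L, x = k * u * k⁻¹}) := by
  have := h.Ln
  set N := closure ((Z : Set G) ∪ {x | ∃ k ∈ L, x = k * u * k⁻¹}) with hN
  have hNC : N ≤ C := by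
    rw [hN, closure_le]
    rintro x (hx | ⟨k, -, rfl⟩)
    · exact h.ZC hx
    · exact conj_C h huC
  have hNn : N.Normal := by
    apply normal_of h.top
    · intro l hl n hn
      rw [hN] at hn ⊢
      induction hn using closure_induction with
      | mem x hx =>
        rcases hx with hx | ⟨k, hk, rfl⟩
        · exact Subgroup.subset_closure (Or.inl (conj_Z h hx))
        · refine Subgroup.subset_closure (Or.inr ⟨l * k, mul_mem hl hk, by group⟩)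
      | one => simp
      | mul x y _ _ hx hy =>
        have e : l * (x * y) * l⁻¹ = (l * x * l⁻¹) * (l * y * l⁻¹) := by group
        rw [e]; exact mul_mem hx hy
      | inv x _ hx =>
        have e : l * x⁻¹ * l⁻¹ = (l * x * l⁻¹)⁻¹ := by group
        rw [e]; exact inv_mem hx
    · intro l hl n hn
      rw [hN] at hn ⊢
      induction hn using closure_induction with
      | mem x hx =>
        rcases hx with hx | ⟨k, hk, rfl⟩
        · exact Subgroup.subset_closure (Or.inl (conj_Z h hx))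
        · obtain ⟨z1, hz1, e1⟩ := conj_u h huC huS (k := k) (h.AS hl)
          rw [e1]
          exact mul_mem (Subgroup.subset_closure (Or.inl hz1)) (Subgroup.subset_closure
            (Or.inr ⟨_, Subgroup.Normal.conj_mem inferInstance k hk l, rfl⟩))
      | one => simp
      | mul x y _ _ hx hy =>
        have e : l * (x * y) * l⁻¹ = (l * x * l⁻¹) * (l * y * l⁻¹) := by group
        rw [e]; exact mul_mem hx hy
      | inv x _ hx =>
        have e : l * x⁻¹ * l⁻¹ = (l * x * l⁻¹)⁻¹ := by group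
        rw [e]; exact inv_mem hx
  by_contra hne
  have h1 := h.le_Z hNn hNC (fun h2 => hne h2.symm)
  apply huZ
  apply h1
  exact Subgroup.subset_closure (Or.inr ⟨1, L.one_mem, by simp⟩)

theorem C_le_sup (huZ : u ∉ Z) (hp2 : p ≠ 2) : C ≤ V L Z u 1 ⊔ V L Z u (-1) := by
  rw [gen_C h huC huS huZ, closure_le]
  rintro x (hx | ⟨k, hk, rfl⟩)
  · exact mem_sup_left (Subgroup.subset_closure (Or.inl hx))
  · have c1 := conj_C h huC (g := k)
    have c2 := conj_C h huC (g := k⁻¹)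
    set a := k * u * k⁻¹ with ha
    set b := k⁻¹ * u * k⁻¹⁻¹ with hb
    have h1 : a * b ∈ V L Z u 1 := Subgroup.subset_closure (Or.inr ⟨k, hk, by rw [zpow_one]⟩)
    have h2 : a * b⁻¹ ∈ V L Z u (-1) := Subgroup.subset_closure (Or.inr ⟨k, hk, by rw [zpow_neg_one]⟩)
    have h3 : ⁅b, a⁆ ∈ Z := comm_Z h c2 c1
    have h4 : (a * b) * (a * b⁻¹) = ⁅b, a⁆ * a ^ 2 := by
      have h5 : ⁅b, a⁆ * a = a * ⁅b, a⁆ := h.Zcent h3 c1
      have h6 : (a * b) * (a * b⁻¹) = a * ⁅b, a⁆ * a := by rw [commutatorElement_def]; group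
      rw [h6, ← h5, pow_two, mul_assoc]
    have h5 : a ^ 2 ∈ V L Z u 1 ⊔ V L Z u (-1) := by
      have : a ^ 2 = ⁅b, a⁆⁻¹ * ((a * b) * (a * b⁻¹)) := by rw [h4]; group
      rw [this]
      exact mul_mem (mem_sup_left (inv_mem (Subgroup.subset_closure (Or.inl h3))))
        (mul_mem (mem_sup_left h1) (mem_sup_right h2))
    obtain ⟨n, hn⟩ := h.Cp ⟨a, c1⟩
    have hn' : a ^ p ^ n = 1 := by simpa using congrArg Subtype.val hn
    have hodd : Odd (p ^ n) := ((Fact.out : p.Prime).odd_of_ne_two hp2).pow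
    obtain ⟨m, hm⟩ := hodd
    have : a = (a ^ 2) ^ (m + 1) := by
      rw [← pow_mul, show 2 * (m + 1) = (2 * m + 1) + 1 by ring, ← hm, pow_succ, hn', one_mul]
    show a ∈ _
    rw [this]
    exact pow_mem h5 _

end cfg2b

end Cfsg.Agent.Lib.H81Cubic4
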