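import Mathlib
import Cfsg.Agent.Lib.H81Cubic4

/-!
The minimal configuration: the contradiction (helper81).
-/

set_option autoImplicit false

namespace Cfsg.Agent.Lib.H81Cubic5

open Subgroup Cfsg.Agent.Lib.ThompsonJ Cfsg.Agent.Lib.H81Cubic Cfsg.Agent.Lib.H81Cubic3
  Cfsg.Agent.Lib.H81Cubic4
open scoped commutatorElement IsMulCommutative

universe u

/-- cube of `f - 1`. -/
def E3 {M : Type*} [AddCommGroup M] (f : AddMonoid.End M) : AddMonoid.End M := (f - 1) ^ 3

section phi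
variable {G : Type u} [Group G] {C Z : Subgroup G} [hZn : Z.Normal]

/-- action on `C / Z`. -/
def phi (hc : IsMulCommutative ↥(C.map (QuotientGroup.mk' Z)))
    (hn : (⊤ : Subgroup (G ⧸ Z)) ≤ normalizer ((C.map (QuotientGroup.mk' Z) : Subgroup (G ⧸ Z)) : Set (G ⧸ Z))) :
    G →* AddMonoid.End (Additive ↥(C.map (QuotientGroup.mk' Z))) :=
  (cact hc hn).comp ((Subgroup.topEquiv.symm.toMonoidHom).comp (QuotientGroup.mk' Z))

variable (hc : IsMulCommutative ↥(C.map (QuotientGroup.mk' Z)))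
    (hn : (⊤ : Subgroup (G ⧸ Z)) ≤ normalizer ((C.map (QuotientGroup.mk' Z) : Subgroup (G ⧸ Z)) : Set (G ⧸ Z)))

theorem coe_phi_sub (g : G) (m : Additive ↥(C.map (QuotientGroup.mk' Z))) :
    ((((phi hc hn g - 1) m).toMul : ↥(C.map (QuotientGroup.mk' Z))) : G ⧸ Z) =
      ⁅(QuotientGroup.mk' Z g : G ⧸ Z), ((m.toMul : ↥(C.map (QuotientGroup.mk' Z))) : G ⧸ Z)⁆ :=
  coe_D hc hn _ _

theorem phi_sub_eq_zero (g : G) (c : G) (hcC : c ∈ C) :
    (phi hc hn g - 1) (Additive.ofMul ⟨QuotientGroup.mk' Z c, ⟨c, hcC, rfl⟩⟩) = 0 ↔ ⁅g, c⁆ ∈ Z := by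
  rw [← QuotientGroup.eq_one_iff]
  constructor
  · intro h
    have h1 := coe_phi_sub hc hn g (Additive.ofMul ⟨QuotientGroup.mk' Z c, ⟨c, hcC, rfl⟩⟩)
    rw [h] at h1
    exact h1.symm
  · intro h
    apply Additive.toMul.injective
    apply Subtype.ext
    rw [coe_phi_sub]
    exact h

theorem phi_eq_one_iff (g : G) : phi hc hn g = 1 ↔ ∀ c ∈ C, ⁅g, c⁆ ∈ Z := by
  rw [← sub_eq_zero]
  constructor
  · intro h c hcC
    rw [← phi_sub_eq_zero hc hn g c hcC, h]; rfl
  · intro h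
    refine AddMonoidHom.ext fun m => ?_
    obtain ⟨c, hcC, hcm⟩ := m.toMul.2
    have e : m = Additive.ofMul ⟨QuotientGroup.mk' Z c, ⟨c, hcC, rfl⟩⟩ := by
      apply Additive.toMul.injective
      apply Subtype.ext
      exact hcm.symm
    rw [e]
    exact (phi_sub_eq_zero hc hn g c hcC).2 (h c hcC)

theorem phi_cube_eq_zero (g : G) (c : G) (hcC : c ∈ C) :
    E3 (phi hc hn g) (Additive.ofMul ⟨QuotientGroup.mk' Z c, ⟨c, hcC, rfl⟩⟩) = 0 ↔
      ⁅g, ⁅g, ⁅g, c⁆⁆⁆ ∈ Z := by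
  have e : E3 (phi hc hn g) (Additive.ofMul ⟨QuotientGroup.mk' Z c, ⟨c, hcC, rfl⟩⟩) =
      (phi hc hn g - 1) ((phi hc hn g - 1) ((phi hc hn g - 1)
        (Additive.ofMul ⟨QuotientGroup.mk' Z c, ⟨c, hcC, rfl⟩⟩))) := by
    unfold E3
    rw [pow_succ, pow_two]; rfl
  rw [e, ← QuotientGroup.eq_one_iff]
  have h1 : (((phi hc hn g - 1) ((phi hc hn g - 1) ((phi hc hn g - 1)
        (Additive.ofMul ⟨QuotientGroup.mk' Z c, ⟨c, hcC, rfl⟩⟩)))).toMul : G ⧸ Z) =
        QuotientGroup.mk' Z ⁅g, ⁅g, ⁅g, c⁆⁆⁆ := by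
    rw [coe_phi_sub, coe_phi_sub, coe_phi_sub]; rfl
  constructor
  · intro h
    rw [h] at h1
    exact h1.symm
  · intro h
    apply Additive.toMul.injective
    apply Subtype.ext
    rw [h1]
    exact h

end phi

/-- unipotent `p'`-operators are trivial. -/
theorem unip_one {M : Type*} [AddCommGroup M] {p n : ℕ} (hn : n.Coprime p)
    (htor : ∀ w : M, ∃ k : ℕ, (p ^ k) • w = 0) (x : AddMonoid.End M) (hxn : x ^ n = 1)
    (hx3 : (x - 1) ^ 3 = 0) : x = 1 := by
  obtain ⟨z, hz⟩ : ∃ z, x = 1 + z := ⟨x - 1, by abel⟩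
  have hz3 : z ^ 3 = 0 := by
    rw [← hx3, hz]; congr 1; abel
  have key : ∀ w : M, n • w = 0 → w = 0 := by
    intro w hw
    obtain ⟨k, hk⟩ := htor w
    have h1 : addOrderOf w ∣ 1 := by
      have := Nat.dvd_gcd (addOrderOf_dvd_of_nsmul_eq_zero hw) (addOrderOf_dvd_of_nsmul_eq_zero hk)
      rwa [Nat.Coprime.gcd_eq_one (Nat.Coprime.pow_right k hn)] at this
    rwa [Nat.dvd_one, AddMonoid.addOrderOf_eq_one_iff] at h1
  have h1 : ∀ m : ℕ, z * (x ^ m) = z + m • z ^ 2 := by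
    intro m
    induction m with
    | zero => simp
    | succ m ih =>
      rw [pow_succ, ← mul_assoc, ih, hz, mul_add, mul_one, add_mul, smul_mul_assoc, ← pow_succ, hz3,
        nsmul_zero, add_zero, ← pow_two, succ_nsmul, add_assoc]
  have h2 : n • z ^ 2 = 0 := by
    have := h1 n
    rw [hxn, mul_one] at this
    have h3 : z + 0 = z + n • z ^ 2 := by rw [add_zero]; exact this
    exact (add_left_cancel h3).symm
  have h3 : z ^ 2 = 0 := by
    refine AddMonoidHom.ext fun w => ?_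
    apply key
    have := congrArg (fun f : AddMonoid.End M => f w) h2
    exact this
  have h4 : ∀ m : ℕ, x ^ m = 1 + m • z := by
    intro m
    induction m with
    | zero => simp
    | succ m ih =>
      rw [pow_succ, ih, hz, mul_add, mul_one, add_mul, one_mul, smul_mul_assoc, ← pow_two, h3,
        nsmul_zero, add_zero, succ_nsmul, add_assoc]
  have h5 : n • z = 0 := by
    have := h4 n
    rw [hxn] at this
    have h3 : (1 : AddMonoid.End M) + 0 = 1 + n • z := by rw [add_zero]; exact this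
    exact (add_left_cancel h3).symm
  have h6 : z = 0 := by
    refine AddMonoidHom.ext fun w => ?_
    apply key
    have := congrArg (fun f : AddMonoid.End M => f w) h5
    exact this
  rw [hz, h6, add_zero]

variable {G : Type u} [Group G] [Finite G] {p : ℕ} [Fact p.Prime]

theorem cubicV {T L A S C Z : Subgroup G} (h : Cfg2 p T L A S C Z)
    (hmin : ∀ A' ∈ maxIn Ab S, ∀ L' : Subgroup G, T ≤ L' → L' ≤ L → A' ≤ normalizer (L' : Set G) →
      ¬ ⁅L', A'⁆ ≤ T → L' = L ∧ T ⊔ A' = S)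
    {u : G} (huC : u ∈ C) (huS : ∀ s ∈ S, ⁅u, s⁆ ∈ Z) {ε : ℤ} (hε : ε * ε = 1) :
    ∃ A' : Subgroup G, T ⊔ A' = S ∧ ∀ v ∈ V L Z u ε, ∀ a ∈ A', ⁅a, ⁅a, ⁅a, v⁆⁆⁆ ∈ Z := by
  have := h.Tn
  have := h.Ln
  have hne : ({A' | A' ∈ maxIn Ab S ∧ ¬ ⁅L, A'⁆ ≤ T} : Set (Subgroup G)).Nonempty := ⟨A, h.hA, h.ndc⟩
  obtain ⟨A', hA', hmax⟩ := Set.exists_max_image _ (fun A' : Subgroup G => Nat.card ↥(A' ⊓ V L Z u ε))
    (Set.toFinite _) hne
  have hLn : A' ≤ normalizer (L : Set G) := by rw [normalizer_eq_top]; exact le_top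
  refine ⟨A', (hmin A' hA'.1 L h.TL le_rfl hLn hA'.2).2, ?_⟩
  intro v hv a ha
  have hVS : V L Z u ε ≤ S := (V_le h huC ε).trans (h.CT.trans h.TS)
  refine cubic (T₀ := S ⊓ relC L T) h.Sp hA'.1 (V_comm h huC huS hε) hVS
    (hA'.1.1.trans (S_norm_V h huC huS ε)) ?_ ?_ ?_ ?_ v hv a ha a ha a ha
  · intro a _ z hz
    exact conj_Z h hz
  · intro t _ ht v hv
    rw [← commutatorElement_inv]
    exact inv_mem (h.CT0 (commutator_mem_commutator (V_le h huC ε hv) ht))
  · intro v _ t ht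
    have := h.T0n.conj_mem t ht v⁻¹
    rwa [inv_inv] at this
  · intro M hM _ hMT
    apply hmax M
    refine ⟨hM, fun h1 => hMT ?_⟩
    refine le_inf hM.1 ?_
    intro m hm
    rw [mem_relC]
    intro l hl
    exact h1 (commutator_mem_commutator hl hm)

theorem Cfg2.false {T L A S C Z : Subgroup G} (h : Cfg2 p T L A S C Z) (hp5 : 5 ≤ p)
    (hmin : ∀ A' ∈ maxIn Ab S, ∀ L' : Subgroup G, T ≤ L' → L' ≤ L → A' ≤ normalizer (L' : Set G) →
      ¬ ⁅L', A'⁆ ≤ T → L' = L ∧ T ⊔ A' = S) : False := by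
  have hTn := h.Tn
  have hLn := h.Ln
  have hZn := h.Zn
  have hCn := h.Cn
  obtain ⟨u, huC, huZ, huS⟩ := h.exists_u
  -- the action
  have hcb : IsMulCommutative ↥(C.map (QuotientGroup.mk' Z)) := by
    apply of_comm
    rintro _ ⟨a, ha, rfl⟩ _ ⟨b, hb, rfl⟩
    rw [← commutatorElement_eq_one_iff_mul_comm]
    exact (QuotientGroup.eq_one_iff _).2 (comm_Z h ha hb)
  have hnb : (⊤ : Subgroup (G ⧸ Z)) ≤
      normalizer ((C.map (QuotientGroup.mk' Z) : Subgroup (G ⧸ Z)) : Set (G ⧸ Z)) := by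
    have : (C.map (QuotientGroup.mk' Z)).Normal := Subgroup.Normal.map inferInstance _
      (QuotientGroup.mk'_surjective Z)
    rw [normalizer_eq_top]
  set φ := phi hcb hnb with hφ
  have hφT : ∀ t ∈ T, φ t = 1 := by
    intro t ht
    rw [hφ, phi_eq_one_iff]
    intro c hc
    rw [← commutatorElement_inv]
    exact inv_mem (h.CT' (commutator_mem_commutator hc ht))
  -- cubic action of S
  have hcube : ∀ g ∈ S, (φ g - 1) ^ 3 = 0 := by
    intro g hg
    -- the kernel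
    let K : Subgroup C :=
      { carrier := {c | E3 (φ g) (Additive.ofMul ⟨QuotientGroup.mk' Z c, ⟨c, c.2, rfl⟩⟩) = 0}
        one_mem' := by
          have : (Additive.ofMul (⟨QuotientGroup.mk' Z ((1 : C) : G), ⟨(1 : C), (1 : C).2, rfl⟩⟩ :
            ↥(C.map (QuotientGroup.mk' Z)))) = 0 := by
            apply Additive.toMul.injective
            apply Subtype.ext
            show QuotientGroup.mk' Z ((1 : C) : G) = 1
            simp
          show E3 (φ g) _ = 0
          rw [this, map_zero]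
        mul_mem' := by
          intro a b ha hb
          have : (Additive.ofMul (⟨QuotientGroup.mk' Z ((a * b : C) : G), ⟨(a * b : C), (a * b : C).2, rfl⟩⟩ :
            ↥(C.map (QuotientGroup.mk' Z)))) =
            (Additive.ofMul (⟨QuotientGroup.mk' Z a, ⟨a, a.2, rfl⟩⟩ : ↥(C.map (QuotientGroup.mk' Z)))) +
            (Additive.ofMul (⟨QuotientGroup.mk' Z b, ⟨b, b.2, rfl⟩⟩ : ↥(C.map (QuotientGroup.mk' Z)))) := by
            apply Additive.toMul.injective
            apply Subtype.ext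
            show QuotientGroup.mk' Z ((a * b : C) : G) = QuotientGroup.mk' Z a * QuotientGroup.mk' Z b
            simp
          show E3 (φ g) _ = 0
          rw [this, map_add]
          have h1 : E3 (φ g) (Additive.ofMul (⟨QuotientGroup.mk' Z a, ⟨a, a.2, rfl⟩⟩ :
            ↥(C.map (QuotientGroup.mk' Z)))) = 0 := ha
          have h2 : E3 (φ g) (Additive.ofMul (⟨QuotientGroup.mk' Z b, ⟨b, b.2, rfl⟩⟩ :
            ↥(C.map (QuotientGroup.mk' Z)))) = 0 := hb
          rw [h1, h2, add_zero]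
        inv_mem' := by
          intro a ha
          have : (Additive.ofMul (⟨QuotientGroup.mk' Z ((a⁻¹ : C) : G), ⟨(a⁻¹ : C), (a⁻¹ : C).2, rfl⟩⟩ :
            ↥(C.map (QuotientGroup.mk' Z)))) =
            - (Additive.ofMul (⟨QuotientGroup.mk' Z a, ⟨a, a.2, rfl⟩⟩ : ↥(C.map (QuotientGroup.mk' Z)))) := by
            apply Additive.toMul.injective
            apply Subtype.ext
            show QuotientGroup.mk' Z ((a⁻¹ : C) : G) = (QuotientGroup.mk' Z a)⁻¹
            simp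
          show E3 (φ g) _ = 0
          rw [this, map_neg]
          have h1 : E3 (φ g) (Additive.ofMul (⟨QuotientGroup.mk' Z a, ⟨a, a.2, rfl⟩⟩ :
            ↥(C.map (QuotientGroup.mk' Z)))) = 0 := ha
          rw [h1, neg_zero] }
    have hV : ∀ ε : ℤ, ε * ε = 1 → V L Z u ε ≤ K.map C.subtype := by
      intro ε hε v hv
      obtain ⟨A', hA', hcub⟩ := cubicV h hmin huC huS hε
      rw [← hA', mem_sup_iff] at hg
      obtain ⟨t, ht, a, ha, rfl⟩ := hg
      refine ⟨⟨v, V_le h huC ε hv⟩, ?_, rfl⟩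
      show E3 (φ (t * a)) (Additive.ofMul ⟨QuotientGroup.mk' Z v, ⟨v, V_le h huC ε hv, rfl⟩⟩) = 0
      rw [map_mul, hφT t ht, one_mul, hφ]
      exact (phi_cube_eq_zero hcb hnb a v (V_le h huC ε hv)).2 (hcub v hv a ha)
    have hCK : C ≤ K.map C.subtype :=
      (C_le_sup h huC huS huZ (by omega)).trans (sup_le (hV 1 (by norm_num)) (hV (-1) (by norm_num)))
    change E3 (φ g) = 0
    refine AddMonoidHom.ext fun m => ?_
    obtain ⟨c, hcC, hcm⟩ := m.toMul.2
    have e : m = Additive.ofMul ⟨QuotientGroup.mk' Z c, ⟨c, hcC, rfl⟩⟩ := by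
      apply Additive.toMul.injective
      apply Subtype.ext
      exact hcm.symm
    rw [e]
    obtain ⟨c', hc', hcc⟩ := hCK hcC
    have : c' = ⟨c, hcC⟩ := Subtype.ext hcc
    rw [this] at hc'
    exact hc'
  -- elements of L
  have hab : ∀ k ∈ L, ∀ k' ∈ L, φ k * φ k' = φ k' * φ k := by
    intro k hk k' hk'
    have h1 : k * k' = (k' * k) * ⁅k⁻¹, k'⁻¹⁆ := by rw [commutatorElement_def]; group
    have h2 : ⁅k⁻¹, k'⁻¹⁆ ∈ T := h.LL (commutator_mem_commutator (inv_mem hk) (inv_mem hk'))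
    rw [← map_mul, h1, map_mul, hφT _ h2, mul_one, map_mul]
  have hunip : ∀ m ∈ L, (φ m - 1) ^ 3 = 0 → φ m = 1 := by
    intro m hm h3
    have h1 : m ^ (T.relIndex L) ∈ T := by
      have := (T.subgroupOf L).pow_index_mem ⟨m, hm⟩
      exact this
    apply unip_one (p := p) (n := T.relIndex L) h.cop _ _ (by rw [← map_pow, hφT _ h1]) h3
    intro w
    obtain ⟨c, hcC, hcm⟩ := w.toMul.2
    obtain ⟨k, hk⟩ := h.Cp ⟨c, hcC⟩
    have hk' : c ^ p ^ k = 1 := by simpa using congrArg Subtype.val hk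
    refine ⟨k, ?_⟩
    apply Additive.toMul.injective
    apply Subtype.ext
    show ((w.toMul : ↥(C.map (QuotientGroup.mk' Z))) : G ⧸ Z) ^ (p ^ k) = 1
    rw [← hcm, ← map_pow, hk', map_one]
  have hstep : ∀ g ∈ A, ∀ k ∈ L, φ (g * k * g⁻¹) = φ k := by
    intro g hg
    obtain ⟨n, hn⟩ := h.Sp ⟨g, h.AS hg⟩
    have hn' : g ^ p ^ n = 1 := by simpa using congrArg Subtype.val hn
    exact Cfsg.Agent.Lib.H81Cubic2.step5 φ hab hunip
      (fun k hk => Subgroup.Normal.conj_mem inferInstance k hk g) (Fact.out : p.Prime) hp5 hn'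
      (hcube g (h.AS hg))
  -- L'
  set L' := L ⊓ φ.ker with hL'
  have hTL' : T ≤ L' := le_inf h.TL (fun t ht => hφT t ht)
  have hL'n : L'.Normal := inferInstance
  have hLA : ∀ l ∈ L, ∀ a ∈ A, ⁅a, l⁆ ∈ L' := by
    intro l hl a ha
    have h1 : ⁅a, l⁆ ∈ L := by
      rw [commutatorElement_def]
      exact mul_mem (Subgroup.Normal.conj_mem inferInstance l hl a) (inv_mem hl)
    refine ⟨h1, ?_⟩
    show φ ⁅a, l⁆ = 1
    rw [commutatorElement_def, map_mul, hstep a ha l hl, ← map_mul, mul_inv_cancel, map_one]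
  by_cases hcase : ⁅L', A⁆ ≤ T
  · apply h.ndc
    rw [commutator_le]
    intro l hl a ha
    rw [← commutatorElement_inv]
    apply inv_mem
    -- d = ⁅a, l⁆
    have hd := hLA l hl a ha
    have hdT : ⁅⁅a, l⁆, a⁆ ∈ T := hcase (commutator_mem_commutator hd ha)
    obtain ⟨n, hn⟩ := h.Sp ⟨a, h.AS ha⟩
    have hn' : a ^ p ^ n = 1 := by simpa using congrArg Subtype.val hn
    -- work in the quotient
    set a' : G ⧸ T := QuotientGroup.mk' T a with ha'
    set l' : G ⧸ T := QuotientGroup.mk' T l with hl'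
    set d : G ⧸ T := QuotientGroup.mk' T ⁅a, l⁆ with hd'
    have h2 : a' * d = d * a' := by
      have h3 : ⁅d, a'⁆ = 1 := (QuotientGroup.eq_one_iff _).2 hdT
      rw [commutatorElement_eq_one_iff_mul_comm] at h3
      exact h3.symm
    have h3 : a' * l' * a'⁻¹ = d * l' := by
      rw [ha', hl', hd', ← map_mul, ← map_inv, ← map_mul, ← map_mul, commutatorElement_def]
      congr 1; group
    have h4 : ∀ n : ℕ, a' ^ n * l' * (a' ^ n)⁻¹ = d ^ n * l' := by
      intro n
      induction n with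
      | zero => simp
      | succ n ih =>
        have e : a' ^ (n + 1) * l' * (a' ^ (n + 1))⁻¹ = a' * (a' ^ n * l' * (a' ^ n)⁻¹) * a'⁻¹ := by
          rw [pow_succ' a' n]; group
        have hc' : Commute a' (d ^ n) := (show Commute a' d from h2).pow_right n
        have e2 : a' * (d ^ n * l') * a'⁻¹ = d ^ n * (a' * l' * a'⁻¹) := by
          have : a' * d ^ n = d ^ n * a' := hc'
          calc a' * (d ^ n * l') * a'⁻¹ = (a' * d ^ n) * l' * a'⁻¹ := by group
            _ = _ := by rw [this]; group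
        rw [e, ih, e2, h3, ← mul_assoc, ← pow_succ]
    have h5 := h4 (p ^ n)
    have h6 : a' ^ p ^ n = 1 := by rw [ha', ← map_pow, hn', map_one]
    rw [h6, one_mul, inv_one, mul_one] at h5
    have h7 : d ^ p ^ n = 1 := by
      have : d ^ p ^ n * l' = 1 * l' := by rw [← h5, one_mul]
      exact mul_right_cancel this
    have h8 : d ^ (T.relIndex L) = 1 := by
      have := (T.subgroupOf L).pow_index_mem ⟨⁅a, l⁆, hd.1⟩
      rw [hd', ← map_pow]
      exact (QuotientGroup.eq_one_iff _).2 this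
    have h9 : orderOf d ∣ 1 := by
      have := Nat.dvd_gcd (orderOf_dvd_of_pow_eq_one h8) (orderOf_dvd_of_pow_eq_one h7)
      rwa [Nat.Coprime.gcd_eq_one (Nat.Coprime.pow_right n h.cop)] at this
    rw [Nat.dvd_one, orderOf_eq_one_iff] at h9
    exact (QuotientGroup.eq_one_iff _).1 h9
  · have h1 := (hmin A h.hA L' hTL' inf_le_left (by rw [normalizer_eq_top]; exact le_top) hcase).1
    apply h.Cnc
    rw [le_cent_Op]
    intro x hx hxp
    apply cop_fix (O := L) h.Cp hxp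
    intro c hc
    have h2 : φ x = 1 := by
      rw [← h1] at hx
      exact hx.2
    rw [hφ, phi_eq_one_iff] at h2
    have h3 := h2 c hc
    refine ⟨h.ZC h3, ?_⟩
    exact (mem_centralizer_iff.1 (h.ZO h3)) x (Subgroup.subset_closure ⟨hx, hxp⟩)

end Cfsg.Agent.Lib.H81Cubic5
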