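import Mathlib
import Cfsg.Agent.Lib.H81Cubic5

/-!
The induction: abelian subgroups of maximal order act trivially on an abelian normal `p'`-section (helper81).
-/

set_option autoImplicit false

namespace Cfsg.Agent.Lib.H81Cubic6

open Subgroup Cfsg.Agent.Lib.ThompsonJ Cfsg.Agent.Lib.H81Cubic Cfsg.Agent.Lib.H81Cubic3
  Cfsg.Agent.Lib.H81Cubic4 Cfsg.Agent.Lib.H81Cubic5
open scoped commutatorElement

universe u

/-- The main property, normal form. -/
def Prop1 (p : ℕ) (G : Type u) [Group G] : Prop :=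
  ∀ T L A : Subgroup G, T.Normal → L.Normal → T ≤ L → IsPGroup p ↥(T ⊔ A) →
    centralizer (T : Set G) ≤ T → ⁅L, L⁆ ≤ T → (T.relIndex L).Coprime p →
    A ∈ maxIn Ab (T ⊔ A) → L ⊔ A = ⊤ → ⁅L, A⁆ ≤ T

theorem transport {p : ℕ} {G : Type u} [Group G] [Finite G] {T L A : Subgroup G} (hT : T.Normal)
    (hP1 : Prop1 p ↥(L ⊔ A))
    (hTL : T ≤ L) (hAL : A ≤ normalizer (L : Set G)) (hTA : IsPGroup p ↥(T ⊔ A))
    (hcT : centralizer (T : Set G) ≤ T) (hLL : ⁅L, L⁆ ≤ T) (hcop : (T.relIndex L).Coprime p)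
    (hA : A ∈ maxIn Ab (T ⊔ A)) : ⁅L, A⁆ ≤ T := by
  set H := L ⊔ A with hH
  have hLH : L ≤ H := le_sup_left
  have hAH : A ≤ H := le_sup_right
  have hTH : T ≤ H := hTL.trans hLH
  have h1 : T.subgroupOf H ⊔ A.subgroupOf H = (T ⊔ A).subgroupOf H := (subgroupOf_sup hTH hAH).symm
  have h2 : L.subgroupOf H ⊔ A.subgroupOf H = ⊤ := by
    rw [← subgroupOf_sup hLH hAH, ← hH, subgroupOf_self]
  have hTAH : T ⊔ A ≤ H := sup_le hTH hAH
  have key := hP1 (T.subgroupOf H) (L.subgroupOf H) (A.subgroupOf H) inferInstance ?_ ?_ ?_ ?_ ?_ ?_ ?_ h2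
  · rw [commutator_le]
    intro l hl a ha
    have := key (commutator_mem_commutator (g₁ := (⟨l, hLH hl⟩ : H)) (g₂ := (⟨a, hAH ha⟩ : H)) hl ha)
    exact this
  · rw [normal_subgroupOf_iff_le_normalizer hLH]
    exact sup_le le_normalizer hAL
  · exact comap_mono hTL
  · rw [h1]
    exact hTA.comap_of_injective H.subtype H.subtype_injective
  · intro x hx
    rw [mem_centralizer_iff] at hx
    show (x : G) ∈ T
    apply hcT
    rw [mem_centralizer_iff]
    intro t ht
    exact congrArg Subtype.val (hx ⟨t, hTH ht⟩ ht)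
  · rw [commutator_le]
    intro x hx y hy
    exact hLL (commutator_mem_commutator hx hy)
  · rw [relIndex_subgroupOf hLH]; exact hcop
  · rw [h1]
    refine ⟨comap_mono le_sup_right, ?_, ?_⟩
    · apply of_comm
      intro a ha b hb
      exact Subtype.ext (comm_of hA.2.1 ha hb)
    · intro B hB hBc
      have h3 : Nat.card (B.map H.subtype) = Nat.card B := card_map_of_injective H.subtype_injective
      have h4 : Nat.card (A.subgroupOf H) = Nat.card A := Nat.card_congr (subgroupOfEquivOfLe hAH).toEquiv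
      rw [← h3, h4]
      apply hA.2.2
      · rw [map_le_iff_le_comap]; exact hB
      · apply of_comm
        rintro _ ⟨a, ha, rfl⟩ _ ⟨b, hb, rfl⟩
        have : a * b = b * a := comm_of hBc ha hb
        exact congrArg Subtype.val this

theorem main {p : ℕ} [Fact p.Prime] (hp5 : 5 ≤ p) : ∀ n : ℕ, ∀ (G : Type u) [Group G] [Finite G],
    Nat.card G = n → Prop1 p G := by
  intro n
  induction n using Nat.strong_induction_on with
  | _ n IH =>
    intro G _ _ hn T L A hT hL hTL hTA hcT hLL hcop hA htop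
    by_contra hndc
    have hcfg : Cfg p T L A (T ⊔ A) := ⟨hT, hL, hTL, rfl, hTA, hcT, hLL, hcop, hA, htop, hndc⟩
    obtain ⟨C, hC1, hC2, hC3, hC4⟩ := hcfg.exists_C0
    have hcfg2 : Cfg2 p T L A (T ⊔ A) C (C ⊓ centralizer (Op p L : Set G)) :=
      { hcfg with Cn := hC1, CT := hC2, Cnc := hC3, Cmin := hC4, hZ := rfl }
    apply Cfg2.false hcfg2 hp5
    intro A' hA' L' hTL' hL'L hA'L' hndc'
    set S := T ⊔ A with hS
    have hA'S : A' ≤ S := hA'.1
    have hTA'S : T ⊔ A' ≤ S := sup_le le_sup_left hA'S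
    have hA'max : A' ∈ maxIn Ab (T ⊔ A') :=
      ⟨le_sup_right, hA'.2.1, fun B hB hBc => hA'.2.2 B (hB.trans hTA'S) hBc⟩
    by_cases hH : L' ⊔ A' = ⊤
    · have hL'n : L'.Normal := by
        rw [← normalizer_eq_top_iff, eq_top_iff, ← hH]
        exact sup_le le_normalizer hA'L'
      constructor
      · apply le_antisymm hL'L
        intro x hx
        have h1 : x ∈ L' ⊔ A' := by rw [hH]; exact mem_top x
        rw [mem_sup_iff] at h1
        obtain ⟨l, hl, a, ha, rfl⟩ := h1
        have h2 : a ∈ L := by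
          have : a = l⁻¹ * (l * a) := by group
          rw [this]; exact mul_mem (inv_mem (hL'L hl)) hx
        obtain ⟨k, hk⟩ := hTA ⟨a, hA'S ha⟩
        have hk' : a ^ p ^ k = 1 := by simpa using congrArg Subtype.val hk
        exact mul_mem hl (hTL' (mem_of_pel hcop h2 hk'))
      · apply le_antisymm hTA'S
        intro x hx
        have h1 : x ∈ L' ⊔ A' := by rw [hH]; exact mem_top x
        rw [mem_sup_iff] at h1
        obtain ⟨l, hl, a, ha, rfl⟩ := h1
        have h2 : l ∈ S := by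
          have : l = (l * a) * a⁻¹ := by group
          rw [this]; exact mul_mem hx (inv_mem (hA'S ha))
        obtain ⟨k, hk⟩ := hTA ⟨l, h2⟩
        have hk' : l ^ p ^ k = 1 := by simpa using congrArg Subtype.val hk
        exact mul_mem (mem_sup_left (mem_of_pel hcop (hL'L hl) hk')) (mem_sup_right ha)
    · exfalso
      apply hndc'
      have hlt : Nat.card ↥(L' ⊔ A') < n := by
        rw [← hn]
        exact lt_of_le_of_ne (Nat.card_le_card_of_injective _ (L' ⊔ A').subtype_injective) (fun h =>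
          hH ((L' ⊔ A').eq_top_of_card_eq h))
      refine transport hT (IH _ hlt _ rfl) hTL' hA'L' (hTA.to_le hTA'S) hcT
        ((commutator_mono hL'L hL'L).trans hLL) ?_ hA'max
      apply Nat.Coprime.coprime_dvd_left _ hcop
      exact Dvd.intro _ (relIndex_mul_relIndex T L' L hTL' hL'L)

/-- Abelian subgroups of maximal order act trivially on abelian `p'`-sections above a self-centralizing
normal `p`-subgroup. -/
theorem acts_triv {p : ℕ} [Fact p.Prime] (hp5 : 5 ≤ p) {G : Type u} [Group G] [Finite G] {T L A : Subgroup G}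
    (hT : T.Normal) (hTL : T ≤ L) (hAL : A ≤ normalizer (L : Set G)) (hTA : IsPGroup p ↥(T ⊔ A))
    (hcT : centralizer (T : Set G) ≤ T) (hLL : ⁅L, L⁆ ≤ T) (hcop : (T.relIndex L).Coprime p)
    (hA : A ∈ maxIn Ab (T ⊔ A)) : ⁅L, A⁆ ≤ T :=
  transport hT (main hp5 _ _ rfl) hTL hAL hTA hcT hLL hcop hA

end Cfsg.Agent.Lib.H81Cubic6
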