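import Mathlib
import Cfsg.Agent.Lib.H81Cubic6
import Cfsg.Agent.Lib.NilFunctors
import Cfsg.Agent.Lib.FusionJ
import Cfsg.Agent.Lib.H34JCenter
import Cfsg.Agent.Lib.Transfer

/-!
`N_G(J(S))` controls normal `p`-complements for `p ≥ 5` (helper81).
-/

set_option autoImplicit false

namespace Cfsg.Agent.Lib.H81Cubic7

open Subgroup Cfsg.Agent.Lib.ThompsonJ Cfsg.Agent.Lib.H81Cubic Cfsg.Agent.Lib.H81Cubic3
  Cfsg.Agent.Lib.CFSylow Cfsg.Agent.Lib.ClsStab Cfsg.Agent.Lib.CFCore
open scoped commutatorElement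

universe u

variable {p : ℕ} [hp : Fact p.Prime]

theorem maxAb_le_pCore (hp5 : 5 ≤ p) {X : Type u} [Group X] [Finite X] (hX : Cls p X)
    (hc : centralizer (Cfsg.pCore p X : Set X) ≤ Cfsg.pCore p X) {S : Subgroup X} (hS : SylIn p S ⊤)
    {A : Subgroup X} (hA : A ∈ maxIn Ab S) : A ≤ Cfsg.pCore p X := by
  obtain ⟨Q, K, hQn, hKn, hQK, hQ, hab, hrel, k, hk⟩ := hX
  set T := Cfsg.pCore p X with hT
  have hTn : T.Normal := CFCore.pCore_normal p X
  have hQT : Q ≤ T := le_pCore hQn hQ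
  have hTS : T ≤ S := pCore_le hS
  set L := T ⊔ K with hL
  have hLn : L.Normal := inferInstance
  have hLL : ⁅L, L⁆ ≤ T := by
    rw [commutator_le]
    intro x hx y hy
    rw [hL, mem_sup_iff] at hx hy
    obtain ⟨t, ht, k1, hk1, rfl⟩ := hx
    obtain ⟨t', ht', k2, hk2, rfl⟩ := hy
    rw [← QuotientGroup.eq_one_iff]
    have h1 : ((⁅t * k1, t' * k2⁆ : X) : X ⧸ T) = ⁅(QuotientGroup.mk' T (t * k1)), (QuotientGroup.mk' T (t' * k2))⁆ :=
      map_commutatorElement (QuotientGroup.mk' T) _ _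
    have h2 : (QuotientGroup.mk' T t) = 1 := (QuotientGroup.eq_one_iff _).2 ht
    have h3 : (QuotientGroup.mk' T t') = 1 := (QuotientGroup.eq_one_iff _).2 ht'
    rw [h1, map_mul, map_mul, h2, h3, one_mul, one_mul, ← map_commutatorElement]
    exact (QuotientGroup.eq_one_iff _).2 (hQT (hab (commutator_mem_commutator hk1 hk2)))
  have hcop : (T.relIndex L).Coprime p := by
    have h1 : T.relIndex L = T.relIndex K := by
      rw [hL, sup_comm]
      exact relIndex_sup_right K T
    rw [h1]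
    exact Nat.Coprime.coprime_dvd_left (relIndex_dvd_of_le_left K hQT) hrel
  have hTA : T ⊔ A ≤ S := sup_le hTS hA.1
  have hLA : ⁅L, A⁆ ≤ T := by
    refine Cfsg.Agent.Lib.H81Cubic6.acts_triv hp5 hTn le_sup_left ?_ (hS.isPGroup.to_le hTA) hc hLL hcop
      ⟨le_sup_right, hA.2.1, fun B hB hBc => hA.2.2 B (hB.trans hTA) hBc⟩
    rw [normalizer_eq_top]; exact le_top
  -- N
  set N := S ⊓ relC L T with hN
  have htop : L ⊔ S = ⊤ := by
    rw [← index_eq_one]
    have h1 : (L ⊔ S).index ∣ p ^ k := hk ▸ index_dvd_of_le (le_sup_right.trans le_sup_left : K ≤ L ⊔ S)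
    have h2 : (L ⊔ S).index ∣ S.index := index_dvd_of_le le_sup_right
    have h3 : ¬ p ∣ S.index := by
      have := hS.not_dvd
      rwa [relIndex_top_right] at this
    obtain ⟨j, -, hj⟩ := (Nat.dvd_prime_pow hp.out).1 h1
    rcases Nat.eq_zero_or_pos j with h0 | h0
    · rw [hj, h0, pow_zero]
    · exact absurd ((dvd_pow_self p h0.ne').trans (hj ▸ h2)) h3
  have hNn : N.Normal := by
    apply normal_of htop
    · intro l hl n hn
      have hn1 : n ∈ S := hn.1
      have hn2 : n ∈ relC L T := hn.2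
      have h2 : ⁅l, n⁆ ∈ T := (mem_relC.1 hn2) l hl
      have h3 : l * n * l⁻¹ = ⁅l, n⁆ * n := by rw [commutatorElement_def]; group
      refine ⟨?_, ?_⟩
      · show l * n * l⁻¹ ∈ S
        rw [h3]; exact mul_mem (hTS h2) hn1
      · exact Subgroup.Normal.conj_mem relC_normal n hn2 l
    · intro a ha n hn
      refine ⟨(show a * n * a⁻¹ ∈ S from mul_mem (mul_mem ha hn.1) (inv_mem ha)), ?_⟩
      exact Subgroup.Normal.conj_mem relC_normal n hn.2 a
  have hNT : N ≤ T := le_pCore hNn (hS.isPGroup.to_le inf_le_left)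
  refine le_trans (le_inf hA.1 ?_) hNT
  intro a ha
  rw [mem_relC]
  intro l hl
  exact hLA (commutator_mem_commutator hl ha)

theorem J_normal (hp5 : 5 ≤ p) {X : Type u} [Group X] [Finite X] (hX : Cls p X)
    (hc : centralizer (Cfsg.pCore p X : Set X) ≤ Cfsg.pCore p X) {S : Subgroup X} (hS : SylIn p S ⊤) :
    (Cfsg.thompsonSubgroupAOf S).Normal := by
  have hTn : (Cfsg.pCore p X).Normal := CFCore.pCore_normal p X
  have h1 : Cfsg.thompsonSubgroupAOf S ≤ Cfsg.pCore p X := by
    rw [thompsonSubgroupAOf_eq]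
    exact sSup_le fun A hA => maxAb_le_pCore hp5 hX hc hS hA
  rw [← FusionJ.J_eq_of_le (pCore_le hS) h1, ← normalizer_eq_top_iff, eq_top_iff]
  refine le_trans ?_ (FusionJ.normalizer_le _)
  rw [normalizer_eq_top]

theorem J_isChar : Cfsg.IsCharPFunctor.{u} p (fun Q _ => Cfsg.thompsonSubgroupA Q) := by
  refine ⟨?_, ?_⟩
  · intro Q _ _ hQ hn h0
    change Cfsg.thompsonSubgroupA Q = ⊥ at h0
    have h1 := H34JCenter.center_le_J Q
    rw [h0] at h1
    obtain ⟨z, hz1, hzp, hz⟩ := ClosedPS.exists_central_order_p (p := p) hQ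
    apply hz1
    rw [← mem_bot]
    exact h1 hz
  · intro Q R _ _ _ _ φ
    exact FusionJ.map_equiv φ

theorem nil_J (hp5 : 5 ≤ p) {G : Type u} [Group G] [Finite G] (S : Sylow p G)
    (hN : Cfsg.HasNormalPComplement p ↥(normalizer ((Cfsg.thompsonSubgroupAOf (S : Subgroup G)) : Set G))) :
    Cfsg.HasNormalPComplement p G := by
  have hS := sylIn_sylow S
  refine NilMain.nil_all (fl := True) (W := fun Q _ => Cfsg.thompsonSubgroupA Q) J_isChar ?_
    (S : Subgroup G) (S : Subgroup G) hS (ClosedCF.ClosedIn.self _ _) (fun _ => rfl) hN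
  intro X _ _ hX _ hc S D hS hD hDS
  have hDS' := hDS trivial
  subst hDS'
  exact J_normal hp5 hX hc hS

theorem criterion (hp5 : 5 ≤ p) {G : Type u} [Group G] [Finite G] (S : Sylow p G) :
    Cfsg.HasNormalPComplement p G ↔
      ∀ g ∈ normalizer (Cfsg.thompsonSubgroupAOf (S : Subgroup G) : Set G), (orderOf g).Coprime p →
        g ∈ centralizer (Cfsg.thompsonSubgroupAOf (S : Subgroup G) : Set G) := by
  set W := Cfsg.thompsonSubgroupAOf (S : Subgroup G) with hW
  have hWS : W ≤ (S : Subgroup G) := FusionJ.J_le _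
  constructor
  · intro h g hg hgo
    exact Transfer.mem_centralizer_of_hasNormalPComplement h W (S.isPGroup'.to_le hWS) g hg hgo
  · intro h
    apply nil_J hp5 S
    set N := normalizer (W : Set G) with hN
    have hSN : (S : Subgroup G) ≤ N := le_normalizer.trans (FusionJ.normalizer_le _)
    have hS : SylIn p (S : Subgroup G) N := (sylIn_sylow S).of_le hSN le_top
    -- `p`-elements of `N ⊓ C(W)` lie in `W`
    have key : ∀ x ∈ N, x ∈ centralizer (W : Set G) → (∃ k : ℕ, x ^ p ^ k = 1) → x ∈ W := by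
      rintro x hxN hxC ⟨k, hk⟩
      have hx : IsPGroup p (zpowers x) := by
        rintro ⟨y, j, rfl⟩
        refine ⟨k, Subtype.ext ?_⟩
        show (x ^ j) ^ p ^ k = 1
        rw [← zpow_natCast, ← zpow_mul, mul_comm, zpow_mul, zpow_natCast, hk, one_zpow]
      obtain ⟨n, hn, hnx⟩ := hS.exists_conj_le hx (by rw [zpowers_le]; exact hxN)
      have h1 : n * x * n⁻¹ ∈ (S : Subgroup G) := hnx (conj_mem_cj (mem_zpowers x))
      have h2 : n * x * n⁻¹ ∈ centralizer (W : Set G) := by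
        rw [mem_centralizer_iff]
        intro w hw
        have h3 : n⁻¹ * w * n ∈ W := by
          have := ((mem_normalizer_iff.1 (inv_mem hn : n⁻¹ ∈ N)) w).1 hw
          rwa [inv_inv] at this
        have h4 := (mem_centralizer_iff.1 hxC) _ h3
        calc w * (n * x * n⁻¹) = n * ((n⁻¹ * w * n) * x) * n⁻¹ := by group
          _ = n * (x * (n⁻¹ * w * n)) * n⁻¹ := by rw [h4]
          _ = n * x * n⁻¹ * w := by group
      have h3 : n * x * n⁻¹ ∈ W := FusionJ.centralizer_le (S : Subgroup G) ⟨h1, h2⟩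
      have h4 := ((mem_normalizer_iff.1 (inv_mem hn : n⁻¹ ∈ N)) _).1 h3
      have e : n⁻¹ * (n * x * n⁻¹) * n⁻¹⁻¹ = x := by group
      rwa [e] at h4
    rw [Transfer.hasNormalPComplement_iff_forall_centralizer]
    intro Q hQ g hg hgo
    have hgo' : (orderOf (g : G)).Coprime p := by rwa [Subgroup.orderOf_coe]
    have hgC := h g g.2 hgo'
    rw [mem_centralizer_iff]
    have hfix := cop_fix (O := Q) hQ (x := g) hgo ?_
    · intro q hq
      exact (hfix q hq).symm
    · intro q hq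
      have h1 : ⁅g, q⁆ ∈ Q := by
        rw [commutatorElement_def]
        exact mul_mem ((mem_normalizer_iff.1 hg q).1 hq) (inv_mem hq)
      refine ⟨h1, ?_⟩
      have h2 : ((⁅g, q⁆ : N) : G) ∈ centralizer (W : Set G) := by
        rw [mem_centralizer_iff]
        intro w hw
        have h3 : (q : G)⁻¹ * w * q ∈ W := by
          have := ((mem_normalizer_iff.1 (inv_mem q.2 : (q : G)⁻¹ ∈ N)) w).1 hw
          rwa [inv_inv] at this
        have h4 := (mem_centralizer_iff.1 (inv_mem hgC)) _ h3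
        have h5 := (mem_centralizer_iff.1 hgC) w hw
        show w * ((g : G) * q * (g : G)⁻¹ * (q : G)⁻¹) = ((g : G) * q * (g : G)⁻¹ * (q : G)⁻¹) * w
        calc w * ((g : G) * q * (g : G)⁻¹ * (q : G)⁻¹) = (w * g) * q * (g : G)⁻¹ * (q : G)⁻¹ := by group
          _ = g * q * (((q : G)⁻¹ * w * q) * (g : G)⁻¹) * (q : G)⁻¹ := by rw [h5]; group
          _ = g * q * ((g : G)⁻¹ * ((q : G)⁻¹ * w * q)) * (q : G)⁻¹ := by rw [h4]
          _ = _ := by group
      obtain ⟨k, hk⟩ := hQ ⟨_, h1⟩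
      have h3 : ((⁅g, q⁆ : N) : G) ∈ W := by
        apply key _ (⁅g, q⁆ : N).2 h2
        refine ⟨k, ?_⟩
        have := congrArg (fun z : Q => ((z : N) : G)) hk
        simpa using this
      apply Subtype.ext
      exact ((mem_centralizer_iff.1 hgC) _ h3).symm

end Cfsg.Agent.Lib.H81Cubic7
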