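import Cfsg.Agent.Lib.H81Real1
import Cfsg.Agent.Lib.Fitting
import Cfsg.Agent.Lib.RealElems
import Cfsg.Agent.Lib.CoprimeAction2

/-!
# Finite groups whose real irreducible characters have degree prime to `p` (helper81)
-/

set_option autoImplicit false
set_option linter.unusedSectionVars false

namespace Cfsg.Agent.Lib.H81Real2

open scoped ComplexConjugate
open Cfsg Cfsg.Agent.Lib.CharBasic Cfsg.Agent.Lib.Clifford Cfsg.Agent.Lib.CliffordCorr
open Cfsg.Agent.Lib.RealOdd Cfsg.Agent.Lib.RelSylow Cfsg.Agent.Lib.H81Real1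
open Subgroup

universe u

/-- The subgroup generated by the `p`-elements. -/
abbrev PG (p : ℕ) (G : Type u) [Group G] : Subgroup G :=
  Subgroup.closure {g : G | ∃ k : ℕ, orderOf g = p ^ k}

/-- every real irreducible character has degree prime to `p`. -/
def RealDeg (p : ℕ) (G : Type u) [Group G] : Prop :=
  ∀ χ : IrrCharacter G, (∀ g : G, ((χ : G → ℂ) g).im = 0) → ¬ p ∣ charDegree (χ : G → ℂ)

variable {G : Type u} [Group G] {p : ℕ}

instance pg_normal : (PG p G).Normal := by
  apply RealElems.closure_normal_of_conj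
  rintro s ⟨k, hk⟩ g
  exact ⟨k, by rw [RealElems.orderOf_conj', hk]⟩

theorem mem_pg [hp : Fact p.Prime] {g : G} {k : ℕ} (h : g ^ p ^ k = 1) : g ∈ PG p G := by
  apply Subgroup.subset_closure
  obtain ⟨j, -, hj⟩ := (Nat.dvd_prime_pow hp.out).mp (orderOf_dvd_of_pow_eq_one h)
  exact ⟨j, hj⟩

theorem le_pg [hp : Fact p.Prime] {P : Subgroup G} (hP : IsPGroup p P) : P ≤ PG p G := by
  intro x hx
  obtain ⟨k, hk⟩ := hP ⟨x, hx⟩
  exact mem_pg (k := k) (by simpa using congrArg Subtype.val hk)

theorem not_dvd_index_of_sylow_le [Finite G] [hp : Fact p.Prime] (P : Sylow p G) {N : Subgroup G}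
    (h : (P : Subgroup G) ≤ N) : ¬ p ∣ N.index := by
  intro h1
  have h2 : ¬ p ∣ (P : Subgroup G).index := Sylow.not_dvd_index P
  exact h2 (h1.trans (Subgroup.index_dvd_of_le h))

theorem not_dvd_index_pg [Finite G] [hp : Fact p.Prime] : ¬ p ∣ (PG p G).index :=
  not_dvd_index_of_sylow_le (default : Sylow p G) (le_pg (default : Sylow p G).isPGroup')

theorem mem_of_pow [Finite G] [hp : Fact p.Prime] {N : Subgroup G} [N.Normal]
    (h : ¬ p ∣ N.index) {g : G} {k : ℕ} (hg : g ^ p ^ k = 1) : g ∈ N := by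
  have h1 : ((g : G ⧸ N)) ^ p ^ k = 1 := by
    rw [← QuotientGroup.mk_pow, hg, QuotientGroup.mk_one]
  have h2 : orderOf (g : G ⧸ N) ∣ N.index := by
    rw [Subgroup.index_eq_card]
    exact orderOf_dvd_natCard _
  have h3 : orderOf (g : G ⧸ N) ∣ p ^ k := orderOf_dvd_of_pow_eq_one h1
  have h4 : (N.index).Coprime (p ^ k) :=
    Nat.Coprime.pow_right _ (((Nat.Prime.coprime_iff_not_dvd hp.out).mpr h).symm)
  have h5 : orderOf (g : G ⧸ N) = 1 := Nat.eq_one_of_dvd_coprimes h4 h2 h3
  rw [orderOf_eq_one_iff] at h5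
  exact (QuotientGroup.eq_one_iff g).mp h5

theorem pg_le [Finite G] [hp : Fact p.Prime] {N : Subgroup G} [N.Normal]
    (h : ¬ p ∣ N.index) : PG p G ≤ N := by
  rw [Subgroup.closure_le]
  rintro g ⟨k, hk⟩
  exact mem_of_pow h (k := k) (by rw [← hk, pow_orderOf_eq_one])

theorem map_pg_le [hp : Fact p.Prime] {H : Type*} [Group H] (f : G →* H) :
    (PG p G).map f ≤ PG p H := by
  rw [Subgroup.map_le_iff_le_comap, Subgroup.closure_le]
  rintro g ⟨k, hk⟩
  refine mem_pg (k := k) ?_
  rw [← map_pow, ← hk, pow_orderOf_eq_one, map_one]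

theorem map_pg [Finite G] [hp : Fact p.Prime] {H : Type*} [Group H] (f : G →* H)
    (hf : Function.Surjective f) : (PG p G).map f = PG p H := by
  apply le_antisymm (map_pg_le f)
  have : Finite H := Finite.of_surjective f hf
  have : ((PG p G).map f).Normal := Subgroup.Normal.map inferInstance f hf
  apply pg_le
  intro h
  exact not_dvd_index_pg (p := p) (G := G)
    (h.trans (Subgroup.index_map_dvd _ hf))

theorem realDeg_quotient (h : RealDeg p G) (N : Subgroup G) [N.Normal] : RealDeg p (G ⧸ N) := by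
  intro ψ hψ
  have h1 := h ⟨_, ψ.2.inflate N⟩ (fun g => hψ g)
  exact h1

/-- the common core: `N` cannot be a non-central complemented minimal normal subgroup. -/
theorem core [Finite G] [hp : Fact p.Prime] (hreal : RealDeg p G) (N S H : Subgroup G)
    [hN : N.Normal] (hNne : N ≠ ⊥) (hab : IsMulCommutative N) {r : ℕ} (hr : r.Prime)
    (hrp : r ≠ p) (hexp : ∀ x ∈ N, x ^ r = 1) (hNK : N ≤ PG 2 G) (hS : IsPGroup p S)
    (hNS : N ⊓ centralizer (S : Set G) = ⊥) (h1 : N ⊔ H = ⊤) (h2 : N ⊓ H = ⊥) : False := by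
  classical
  have hFG := Fintype.ofFinite G
  have hFN := Fintype.ofFinite N
  have : Fact r.Prime := ⟨hr⟩
  have : Fact (Nat.Prime 2) := ⟨Nat.prime_two⟩
  have hab' : ∀ a b : N, a * b = b * a := fun a b => hab.is_comm.comm a b
  have hNr : IsPGroup r N := fun x => ⟨1, by
    rw [pow_one]; exact Subtype.ext (by simpa using hexp x x.2)⟩
  have hcop : (Nat.card N).Coprime (Nat.card S) := by
    obtain ⟨a, ha⟩ := IsPGroup.iff_card.mp hNr
    obtain ⟨b, hb⟩ := IsPGroup.iff_card.mp hS
    rw [ha, hb]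
    exact Nat.Coprime.pow _ _ ((Nat.coprime_primes hr hp.out).mpr hrp)
  suffices hχ : ∃ lam : N →* ℂˣ, lam ≠ 1 ∧ ∃ χ : IrrCharacter G,
      (∀ g : G, ((χ : G → ℂ) g).im = 0) ∧
      classInner (fun n : N => (χ : G → ℂ) n) (fn lam) ≠ 0 by
    obtain ⟨lam, hlam, χ, hχr, hχ⟩ := hχ
    obtain ⟨g, hg⟩ := exists_fixed_conj N lam χ hχ (hreal χ hχr) S hS
    have h3 := eq_one_of_fixed N hab S hcop hNS _ hg
    apply hlam
    have h4 : cjh N g⁻¹ (cjh N g lam) = lam := by
      rw [cjh_cjh, mul_inv_cancel, cjh_id]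
    rw [← h4, h3, cjh_one']
  by_cases hr2 : r = 2
  · have : ∃ x : N, x ≠ 1 := by
      by_contra hcon
      push Not at hcon
      apply hNne
      rw [eq_bot_iff]
      intro x hx
      have := congrArg Subtype.val (hcon ⟨x, hx⟩)
      exact this
    obtain ⟨x, hx⟩ := this
    obtain ⟨lam, hlam⟩ := LinChar.exists_ne_one hab' hx
    refine ⟨lam, fun h => hlam (by rw [h]; rfl), ?_⟩
    apply exists_real_over_complement N H h1 h2 lam
    ext y
    have h3 : lam y * lam y = 1 := by
      rw [← map_mul]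
      have : y * y = 1 := by
        have := hexp y y.2
        rw [hr2, pow_two] at this
        exact Subtype.ext this
      rw [this, map_one]
    show ((lam⁻¹ y : ℂˣ) : ℂ) = ((lam y : ℂˣ) : ℂ)
    rw [MonoidHom.inv_apply, inv_eq_of_mul_eq_one_left h3]
  · have hodd : Odd (Nat.card N) := by
      obtain ⟨a, ha⟩ := IsPGroup.iff_card.mp hNr
      rw [ha]
      exact (hr.odd_of_ne_two hr2).pow
    have hex : ∃ (t : G) (k : ℕ), t ^ 2 ^ k = 1 ∧ t ∉ centralizer (N : Set G) := by
      by_contra hcon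
      push Not at hcon
      have hKH : PG 2 G ≤ H := by
        rw [Subgroup.closure_le]
        rintro t ⟨k, hk⟩
        have htk : t ^ 2 ^ k = 1 := by rw [← hk, pow_orderOf_eq_one]
        obtain ⟨n, hn, h, hh, hnh⟩ := mem_sup_of_normal_left.mp
          (show t ∈ N ⊔ H by rw [h1]; trivial)
        have hcomm : Commute n h := by
          have h3 : t ∈ centralizer (N : Set G) := hcon t k htk
          have h4 : n * t = t * n := (mem_centralizer_iff.mp h3) n hn
          have h5 : h = n⁻¹ * t := by rw [← hnh]; group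
          show n * h = h * n
          rw [h5]
          have h6 : n * (n⁻¹ * t) = t := by group
          rw [h6, mul_assoc, ← h4]
          group
        have h3 : n ^ 2 ^ k * h ^ 2 ^ k = 1 := by
          rw [← hcomm.mul_pow, hnh, htk]
        have h4 : n ^ 2 ^ k = 1 := by
          have h5 : n ^ 2 ^ k ∈ N ⊓ H := by
            refine ⟨N.pow_mem hn _, ?_⟩
            rw [eq_inv_of_mul_eq_one_left h3]
            exact H.inv_mem (H.pow_mem hh _)
          rw [h2, mem_bot] at h5
          exact h5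
        have h5 : n = 1 := by
          have h6 : orderOf n ∣ 2 ^ k := orderOf_dvd_of_pow_eq_one h4
          have h7 : orderOf n ∣ r := orderOf_dvd_of_pow_eq_one (hexp n hn)
          have h8 : r.Coprime (2 ^ k) :=
            Nat.Coprime.pow_right _ ((Nat.coprime_primes hr Nat.prime_two).mpr hr2)
          exact orderOf_eq_one_iff.mp (Nat.eq_one_of_dvd_coprimes h8 h7 h6)
        rw [← hnh, h5, one_mul]
        exact hh
      apply hNne
      rw [eq_bot_iff, ← h2]
      exact le_inf le_rfl (hNK.trans hKH)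
    obtain ⟨t, k, htk, ht⟩ := hex
    obtain ⟨s, lam, hlam, hs⟩ := exists_inverted (M := N) hab' k t
      (by rw [htk]; exact one_mem _) ht
    exact ⟨lam, hlam, exists_real_over_inverted N hodd lam s hs⟩

/-- **Main theorem** for S4861 and S4863. -/
theorem main [hp : Fact p.Prime] (n : ℕ) : ∀ (G : Type u) [Group G] [Finite G] (E U : Subgroup G),
    Nat.card G ≤ n → E.Normal → Group.IsSolvable E → ¬ p ∣ E.index → RealDeg p G →
    U.Normal → PG 2 G ≤ U → (∀ u ∈ U, ∃ k : ℕ, u ^ p ^ k ∈ PG 2 G) →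
    ∃ S : Subgroup G, S.Normal ∧ S ≤ U ∧ IsPGroup p S ∧ ¬ p ∣ S.relIndex U := by
  have : Fact (Nat.Prime 2) := ⟨Nat.prime_two⟩
  induction n with
  | zero =>
    intro G _ _ E U hn
    exact absurd (Nat.card_pos (α := G)) (by omega)
  | succ n ih =>
    intro G _ _ E U hn hEn hEs hEi hreal hUn hKU hUp
    classical
    set D := PG 2 G ⊓ E with hD
    by_cases hDbot : D = ⊥
    · refine ⟨E ⊓ U, inferInstance, inf_le_right, ?_, ?_⟩
      · rintro ⟨u, huE, huU⟩
        obtain ⟨k, hk⟩ := hUp u huU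
        refine ⟨k, Subtype.ext ?_⟩
        have : u ^ p ^ k ∈ D := ⟨hk, E.pow_mem huE _⟩
        rw [hDbot, mem_bot] at this
        simpa using this
      · rw [inf_relIndex_right]
        intro h
        exact hEi (h.trans (Subgroup.relIndex_dvd_index_of_normal E U))
    -- a minimal normal subgroup
    obtain ⟨N, ⟨hNn, hNne, hND⟩, hNmin⟩ : ∃ N : Subgroup G, (N.Normal ∧ N ≠ ⊥ ∧ N ≤ D) ∧
        ∀ M : Subgroup G, (M.Normal ∧ M ≠ ⊥ ∧ M ≤ D) → M ≤ N → N ≤ M := by
      obtain ⟨N, hN⟩ := Set.Finite.exists_minimal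
        (Set.toFinite {N : Subgroup G | N.Normal ∧ N ≠ ⊥ ∧ N ≤ D}) ⟨D, inferInstance, hDbot, le_rfl⟩
      exact ⟨N, hN.1, fun M hM hMN => hN.2 hM hMN⟩
    have hmin : ∀ M : Subgroup G, M.Normal → M ≤ N → M = ⊥ ∨ M = N := by
      intro M hM hMN
      by_cases h : M = ⊥
      · exact Or.inl h
      · exact Or.inr (le_antisymm hMN (hNmin M ⟨hM, h, hMN.trans hND⟩ hMN))
    have hNs : Group.IsSolvable N := by
      have h1 : N ≤ E := hND.trans inf_le_right
      exact Group.isSolvable_of_isSolvable_injective (f := Subgroup.inclusion h1)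
        (Subgroup.inclusion_injective h1)
    obtain ⟨hNab, r, hr, hexp⟩ := Fitting.minimal_normal_solvable hNne hNs hmin
    have : Fact r.Prime := ⟨hr⟩
    have hNK : N ≤ PG 2 G := hND.trans inf_le_left
    have hNU : N ≤ U := hNK.trans hKU
    have hNr : IsPGroup r N := fun x => ⟨1, by
      rw [pow_one]; exact Subtype.ext (by simpa using hexp x x.2)⟩
    -- the quotient
    let f := QuotientGroup.mk' N
    have hf : Function.Surjective f := QuotientGroup.mk'_surjective N
    have hfk : f.ker = N := QuotientGroup.ker_mk' N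
    have hcard : Nat.card (G ⧸ N) ≤ n := by
      have h1 := Subgroup.card_eq_card_quotient_mul_card_subgroup N
      have h2 : 1 < Nat.card N := by
        rw [Subgroup.one_lt_card_iff_ne_bot]
        exact hNne
      have h3 : 0 < Nat.card (G ⧸ N) := Nat.card_pos
      nlinarith
    obtain ⟨S', hS'n, hS'U, hS'p, hS'i⟩ := ih (G ⧸ N) (E.map f) (U.map f) hcard
      (hEn.map f hf)
      (by
        have : Function.Surjective (f.subgroupMap E) := f.subgroupMap_surjective E
        exact Group.isSolvable_of_surjective this)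
      (fun h => hEi (h.trans (Subgroup.index_map_dvd _ hf)))
      (realDeg_quotient hreal N) (hUn.map f hf)
      (by rw [← map_pg f hf]; exact map_mono hKU)
      (by
        rintro _ ⟨u, hu, rfl⟩
        obtain ⟨k, hk⟩ := hUp u hu
        refine ⟨k, map_pg_le f ?_⟩
        rw [← map_pow]
        exact mem_map_of_mem f hk)
    set V := S'.comap f with hV
    have hVn : V.Normal := hS'n.comap f
    have hNV : N ≤ V := by
      have h1 : f.ker ≤ V := MonoidHom.ker_le_comap f S'
      rwa [hfk] at h1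
    have hVmap : V.map f = S' := map_comap_eq_self_of_surjective hf S'
    have hVU : V ≤ U := by
      intro x hx
      have h1 : f x ∈ U.map f := hS'U hx
      obtain ⟨u, hu, hux⟩ := h1
      have h2 : u⁻¹ * x ∈ N := by
        rw [← hfk, MonoidHom.mem_ker, map_mul, map_inv, hux, inv_mul_cancel]
      have h3 := U.mul_mem hu (hNU h2)
      simpa using h3
    have hVi : ¬ p ∣ V.relIndex U := by
      rw [hV, relIndex_comap]
      exact hS'i
    by_cases hrp : r = p
    · -- `V` is a `p`-group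
      refine ⟨V, hVn, hVU, ?_, hVi⟩
      rw [← hrp] at hS'p
      rintro ⟨v, hv⟩
      obtain ⟨k, hk⟩ := hS'p ⟨f v, hv⟩
      have h1 : v ^ r ^ k ∈ N := by
        rw [← hfk, MonoidHom.mem_ker, map_pow]
        simpa using congrArg Subtype.val hk
      refine ⟨k + 1, Subtype.ext ?_⟩
      rw [← hrp]
      show v ^ r ^ (k + 1) = 1
      rw [pow_succ, pow_mul]
      exact hexp _ h1
    · obtain ⟨S, hS⟩ := exists_syl p V
      have hNcard : ¬ p ∣ Nat.card N := by
        obtain ⟨a, ha⟩ := IsPGroup.iff_card.mp hNr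
        rw [ha]
        intro h
        exact hrp ((Nat.prime_dvd_prime_iff_eq hp.out hr).mp (hp.out.dvd_of_dvd_pow h)).symm
      have hSN : N ⊔ S = V := by
        have h1 : IsSyl p (S.map f) (V.map f) := hS.map f
        rw [hVmap] at h1
        have h2 : S.map f = S' := h1.eq_of_le hS'p le_rfl h1.1
        apply le_antisymm (sup_le hNV hS.1)
        intro x hx
        have h3 : f x ∈ S.map f := by rw [h2]; exact hx
        obtain ⟨s, hs, hsx⟩ := h3
        have h4 : x * s⁻¹ ∈ N := by
          rw [← hfk, MonoidHom.mem_ker, map_mul, map_inv, hsx, mul_inv_cancel]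
        have h5 := (N ⊔ S).mul_mem (mem_sup_left h4) (mem_sup_right hs)
        simpa using h5
      set H := normalizer (S : Set G) with hH
      have hNH : N ⊔ H = ⊤ := by
        rw [eq_top_iff]
        intro g _
        obtain ⟨v, hv, x, hx, hg⟩ := hS.frattini (H := ⊤) (by rw [normalizer_eq_top]) (mem_top g)
        rw [← hSN] at hv
        obtain ⟨m, hm, s, hs, hms⟩ := mem_sup_of_normal_left.mp hv
        rw [hg, ← hms, mul_assoc]
        exact (N ⊔ H).mul_mem (mem_sup_left hm)
          (mem_sup_right (H.mul_mem (le_normalizer hs) hx))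
      have hSi : ¬ p ∣ S.relIndex U := by
        rw [← Subgroup.relIndex_mul_relIndex S V U hS.1 hVU, hp.out.dvd_mul]
        push Not
        exact ⟨hS.2.2, hVi⟩
      have hfin : S.Normal → ∃ S : Subgroup G, S.Normal ∧ S ≤ U ∧ IsPGroup p S ∧
          ¬ p ∣ S.relIndex U := fun h => ⟨S, h, hS.1.trans hVU, hS.2.1, hSi⟩
      have hcomm : ∀ c ∈ N ⊓ H, ∀ s ∈ S, c * s * c⁻¹ = s := by
        intro c hc s hs
        have h1 : c * s * c⁻¹ * s⁻¹ ∈ S :=
          S.mul_mem ((mem_normalizer_iff.mp hc.2 s).mp hs) (S.inv_mem hs)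
        have h2 : c * s * c⁻¹ * s⁻¹ ∈ N := by
          have : c * s * c⁻¹ * s⁻¹ = c * (s * c⁻¹ * s⁻¹) := by group
          rw [this]
          exact N.mul_mem hc.1 (hNn.conj_mem _ (N.inv_mem hc.1) s)
        have h3 := RelSylow.eq_one_of_mem hNcard hS.2.1 h2 h1
        exact mul_inv_eq_one.mp h3
      have hCn : (N ⊓ H).Normal := by
        constructor
        intro c hc g
        obtain ⟨m, hm, x, hx, hg⟩ := mem_sup_of_normal_left.mp
          (show g ∈ N ⊔ H by rw [hNH]; trivial)
        have h1 : x * c * x⁻¹ ∈ N ⊓ H :=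
          ⟨hNn.conj_mem c hc.1 x, H.mul_mem (H.mul_mem hx hc.2) (H.inv_mem hx)⟩
        have h2 : g * c * g⁻¹ = m * (x * c * x⁻¹) * m⁻¹ := by rw [← hg]; group
        have h3 : m * (x * c * x⁻¹) = (x * c * x⁻¹) * m := by
          have := hNab.is_comm.comm (⟨m, hm⟩ : N) ⟨x * c * x⁻¹, h1.1⟩
          exact congrArg Subtype.val this
        rw [h2, h3, mul_assoc, mul_inv_cancel, mul_one]
        exact h1
      rcases hmin _ hCn inf_le_left with hC | hC
      · exfalso
        apply core hreal N S H hNne hNab hr hrp hexp hNK hS.2.1 _ hNH hC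
        rw [eq_bot_iff, ← hC]
        exact inf_le_inf_left _ (Subgroup.centralizer_le_normalizer (S : Set G))
      · apply hfin
        have h1 : N ≤ H := by rw [← hC]; exact inf_le_right
        have h2 : H = ⊤ := by rw [← hNH]; exact (sup_eq_right.mpr h1).symm
        exact normalizer_eq_top_iff.mp h2

theorem sylow_normal_of [Finite G] [hp : Fact p.Prime] {U S : Subgroup G} (hS : S.Normal)
    (hSU : S ≤ U) (hSp : IsPGroup p S) (hSi : ¬ p ∣ S.relIndex U) (Q : Sylow p U) :
    (Q : Subgroup U).Normal := by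
  have h1 : IsPGroup p (S.subgroupOf U) :=
    hSp.of_injective (subgroupOfEquivOfLe hSU).toMonoidHom (subgroupOfEquivOfLe hSU).injective
  let S' : Sylow p U := h1.toSylow hSi
  have h2 : (S' : Subgroup U).Normal := by
    show (S.subgroupOf U).Normal
    infer_instance
  have : Unique (Sylow p U) := Sylow.unique_of_normal S' h2
  have h3 : Q = S' := Subsingleton.elim _ _
  rw [h3]
  exact h2

theorem pow_mem_of_relIndex [Finite G] {K U : Subgroup G} [K.Normal] {a : ℕ}
    (h : K.relIndex U = p ^ a) : ∀ u ∈ U, ∃ k : ℕ, u ^ p ^ k ∈ K := by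
  intro u hu
  refine ⟨a, ?_⟩
  rw [← h]
  have := Subgroup.pow_index_mem (K.subgroupOf U) ⟨u, hu⟩
  rw [mem_subgroupOf] at this
  exact this

end Cfsg.Agent.Lib.H81Real2
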