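import Cfsg.Agent.Lib.H81Real2

/-!
# S4862: normal subgroups in the derived subgroup of a Sylow subgroup (helper81)
-/

set_option autoImplicit false
set_option linter.unusedSectionVars false

namespace Cfsg.Agent.Lib.H81Real3

open scoped ComplexConjugate commutatorElement
open Cfsg Cfsg.Agent.Lib.CharBasic Cfsg.Agent.Lib.Clifford Cfsg.Agent.Lib.CliffordCorr
open Cfsg.Agent.Lib.RealOdd Cfsg.Agent.Lib.RelSylow Cfsg.Agent.Lib.H81Real1
open Cfsg.Agent.Lib.H81Real2
open Subgroup

universe u

variable {G : Type u} [Group G] {p : ℕ}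

theorem comm_le_self (P : Subgroup G) : ⁅P, P⁆ ≤ P := by
  rw [commutator_le]
  intro a ha b hb
  exact P.mul_mem (P.mul_mem (P.mul_mem ha hb) (P.inv_mem ha)) (P.inv_mem hb)

theorem card_lt_of_lt [Finite G] {A B : Subgroup G} (h : A < B) : Nat.card A < Nat.card B := by
  refine lt_of_le_of_ne (Nat.card_mono (Set.toFinite _) h.le) (fun h2 => ?_)
  exact h.ne (Subgroup.eq_of_le_of_card_ge h.le h2.ge)

theorem comm_eq_one {x y : G} (h : ⁅x, y⁆ = 1) : x * y = y * x :=
  commutatorElement_eq_one_iff_mul_comm.mp h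

theorem exists_linear_constituent [Fintype G] [hp : Fact p.Prime] (P : Subgroup G) [Fintype P]
    (hP : IsPGroup p P) (χ : IrrCharacter G) (hχ : ¬ p ∣ charDegree (χ : G → ℂ)) :
    ∃ mu : P →* ℂˣ, classInner (fun d : P => (χ : G → ℂ) d) (fn mu) ≠ 0 := by
  classical
  obtain ⟨a, ha, haχ⟩ := (χ.2.isCharacter.restrict P).exists_coeff
  have hdeg : charDegree (χ : G → ℂ) = ∑ ψ : IrrCharacter P, a ψ * charDegree (ψ : P → ℂ) := by
    have h1 : (χ : G → ℂ) 1 = ∑ ψ : IrrCharacter P, (a ψ : ℂ) * (ψ : P → ℂ) 1 := by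
      have h2 := congrFun haχ 1
      rw [Finset.sum_apply] at h2
      exact h2
    have h3 : ((charDegree (χ : G → ℂ) : ℕ) : ℂ) =
        ((∑ ψ : IrrCharacter P, a ψ * charDegree (ψ : P → ℂ) : ℕ) : ℂ) := by
      rw [BlockDeg.charDegree_cast_irr, h1, Nat.cast_sum]
      apply Finset.sum_congr rfl
      intro ψ _
      rw [Nat.cast_mul, BlockDeg.charDegree_cast_irr]
    exact_mod_cast h3
  obtain ⟨ψ, hψa, hψ⟩ : ∃ ψ : IrrCharacter P, a ψ ≠ 0 ∧ ¬ p ∣ charDegree (ψ : P → ℂ) := by
    by_contra hcon
    push Not at hcon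
    apply hχ
    rw [hdeg]
    apply Finset.dvd_sum
    intro ψ _
    by_cases h : a ψ = 0
    · rw [h, zero_mul]; exact dvd_zero p
    · exact dvd_mul_of_dvd_right (hcon ψ h) _
  have h1 : charDegree (ψ : P → ℂ) = 1 := by
    obtain ⟨n, hn⟩ := IsPGroup.iff_card.mp hP
    have h2 := BlockDeg.charDegree_dvd_card ψ.2
    rw [hn] at h2
    obtain ⟨j, -, hj⟩ := (Nat.dvd_prime_pow hp.out).mp h2
    rcases Nat.eq_zero_or_pos j with h3 | h3
    · rw [hj, h3, pow_zero]
    · exact absurd (by rw [hj]; exact dvd_pow_self p h3.ne') hψ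
  have h2 : (ψ : P → ℂ) 1 = 1 := by
    rw [← BlockDeg.charDegree_cast_irr, h1, Nat.cast_one]
  obtain ⟨mu, hmu⟩ := ψ.2.isCharacter.exists_hom h2
  refine ⟨mu, ?_⟩
  have h3 : (fn mu : P → ℂ) = (ψ : P → ℂ) := by
    funext d
    exact (hmu d).symm
  rw [h3, ha]
  exact_mod_cast hψa

/-- a linear character of `M ≤ P'` lying under a character of degree prime to `p` is trivial -/
theorem eq_one_of_le_commutator [Fintype G] [hp : Fact p.Prime] (M P : Subgroup G) [hM : M.Normal]
    [Fintype M] (hP : IsPGroup p P) (hMP : M ≤ ⁅P, P⁆) (lam : M →* ℂˣ) (χ : IrrCharacter G)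
    (hχ : ¬ p ∣ charDegree (χ : G → ℂ))
    (h : classInner (fun n : M => (χ : G → ℂ) n) (fn lam) ≠ 0) : lam = 1 := by
  classical
  have hFP : Fintype P := Fintype.ofFinite P
  have hMP' : M ≤ P := hMP.trans (comm_le_self P)
  obtain ⟨mu, hmu⟩ := exists_linear_constituent P hP χ hχ
  have h1 : classInner (fun n : M => (χ : G → ℂ) n) (fn (1 : M →* ℂˣ)) ≠ 0 := by
    refine inner_fn_ne_zero M hMP' (mu := mu) ?_ χ.2.isCharacter hmu
    intro m
    have h2 : (⟨m, hMP' m.2⟩ : P) ∈ commutator P := by
      have h3 : (m : G) ∈ (commutator P).map P.subtype := by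
        rw [_root_.commutator_def, Subgroup.map_commutator, ← MonoidHom.range_eq_map, P.range_subtype]
        exact hMP m.2
      obtain ⟨y, hy, hym⟩ := h3
      have h4 : y = ⟨m, hMP' m.2⟩ := Subtype.ext hym
      rwa [← h4]
    have h3 : commutator P ≤ mu.ker := Abelianization.commutator_subset_ker mu
    exact h3 h2
  obtain ⟨g, hg⟩ := exists_cj_eq χ.2 (isIrr_fn (1 : M →* ℂˣ)) (isIrr_fn lam) h1 h
  rw [← fn_cjh, cjh_one'] at hg
  exact fn_inj hg

theorem main [Finite G] [hp : Fact p.Prime] (hp2 : p ≠ 2) (hreal : RealDeg p G) (P : Subgroup G)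
    (hP : IsPGroup p P) (n : ℕ) : ∀ M : Subgroup G, Nat.card M ≤ n → M.Normal → M ≤ PG 2 G →
      M ≤ ⁅P, P⁆ → PG 2 G ≤ centralizer (M : Set G) := by
  have : Fact (Nat.Prime 2) := ⟨Nat.prime_two⟩
  induction n with
  | zero =>
    intro M hM
    exact absurd (Nat.card_pos (α := M)) (by omega)
  | succ n ih =>
    intro M hcard hMn hMK hMP
    classical
    have hPP : ⁅P, P⁆ ≤ P := comm_le_self P
    have hMp : IsPGroup p M := hP.to_le (hMP.trans hPP)
    set M1 := ⁅M, PG 2 G⁆ with hM1
    have hM1M : M1 ≤ M := Subgroup.commutator_le_left M (PG 2 G)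
    have hlt : ∀ L : Subgroup G, L < M → Nat.card L ≤ n := by
      intro L hL
      have := card_lt_of_lt hL
      omega
    by_cases h1 : M1 = M
    · by_cases hbot : M = ⊥
      · rw [hbot]
        intro x _
        rw [mem_centralizer_iff]
        intro y hy
        rw [Subgroup.coe_bot, Set.mem_singleton_iff] at hy
        rw [hy, one_mul, mul_one]
      exfalso
      set L := ⁅M, M⁆ with hL
      have hLM : L < M := CoprimeAction2.commutator_lt_of_pgroup hMp hMp le_normalizer hbot
      have hLn : L.Normal := inferInstance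
      let f := QuotientGroup.mk' L
      have hf : Function.Surjective f := QuotientGroup.mk'_surjective L
      have hfk : f.ker = L := QuotientGroup.ker_mk' L
      have hFQ : Fintype (G ⧸ L) := Fintype.ofFinite _
      have hMbn : (M.map f).Normal := hMn.map f hf
      have hFM : Fintype (M.map f) := Fintype.ofFinite _
      have hMbp : IsPGroup p (M.map f) := hMp.map f
      have hodd : Odd (Nat.card (M.map f)) := by
        obtain ⟨a, ha⟩ := IsPGroup.iff_card.mp hMbp
        rw [ha]
        exact (hp.out.odd_of_ne_two hp2).pow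
      have hab : ∀ a b : M.map f, a * b = b * a := by
        rintro ⟨_, a, ha, rfl⟩ ⟨_, b, hb, rfl⟩
        apply Subtype.ext
        show f a * f b = f b * f a
        have h2 : ⁅a, b⁆ ∈ L := Subgroup.commutator_mem_commutator ha hb
        rw [← hfk, MonoidHom.mem_ker, map_commutatorElement] at h2
        exact comm_eq_one h2
      have hex : ∃ (t : G) (k : ℕ), t ^ 2 ^ k = 1 ∧ f t ∉ centralizer (M.map f : Set (G ⧸ L)) := by
        by_contra hcon
        push Not at hcon
        have h2 : PG 2 G ≤ (centralizer (M.map f : Set (G ⧸ L))).comap f := by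
          rw [Subgroup.closure_le]
          rintro t ⟨k, hk⟩
          exact hcon t k (by rw [← hk, pow_orderOf_eq_one])
        have h3 : M1 ≤ L := by
          rw [hM1, commutator_le]
          intro m hm g hg
          have h4 := (mem_centralizer_iff.mp (h2 hg)) (f m) (mem_map_of_mem f hm)
          rw [← hfk, MonoidHom.mem_ker, map_commutatorElement]
          exact commutatorElement_eq_one_iff_mul_comm.mpr h4
        rw [h1] at h3
        exact absurd h3 (not_le_of_gt hLM)
      obtain ⟨t, k, htk, ht⟩ := hex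
      obtain ⟨s, lam, hlam, hs⟩ := exists_inverted (M := M.map f) hab k (f t)
        (by rw [← map_pow, htk, map_one]; exact one_mem _) ht
      obtain ⟨χ, hχr, hχ⟩ := exists_real_over_inverted (M.map f) hodd lam s hs
      apply hlam
      apply eq_one_of_le_commutator (p := p) (M.map f) (P.map f) (hP.map f) _ lam χ
        (realDeg_quotient hreal L χ hχr) hχ
      rw [← Subgroup.map_commutator]
      exact map_mono hMP
    · have h2 : M1 < M := lt_of_le_of_ne hM1M h1
      have h3 := ih M1 (hlt _ h2) inferInstance (hM1M.trans hMK) (hM1M.trans hMP)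
      rw [Subgroup.closure_le]
      rintro t ⟨k, hk⟩
      have htK : t ∈ PG 2 G := subset_closure ⟨k, hk⟩
      have hcop : (Nat.card (zpowers t)).Coprime (Nat.card M) := by
        obtain ⟨a, ha⟩ := IsPGroup.iff_card.mp hMp
        rw [Nat.card_zpowers, hk, ha]
        exact Nat.Coprime.pow _ _ ((Nat.coprime_primes Nat.prime_two hp.out).mpr hp2.symm)
      have h4 : M ≤ centralizer (zpowers t : Set G) := by
        refine CoprimeAction2.le_centralizer_of_series (A := zpowers t) (K := M) (N := M1)
          (by rw [normalizer_eq_top]; exact le_top) hcop (Or.inl inferInstance) ?_ ?_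
        · rw [hM1]
          exact commutator_mono le_rfl (by rwa [zpowers_le])
        · rw [le_centralizer_iff]
          refine le_trans ?_ h3
          rwa [zpowers_le]
      rw [le_centralizer_iff] at h4
      exact h4 (mem_zpowers t)

end Cfsg.Agent.Lib.H81Real3
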