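import Cfsg.Agent.Lib.H81Real2
import Cfsg.Agent.Lib.GlaubCorrConj
import Cfsg.Agent.Lib.Cores

/-!
# S4864: real classes meet the Sylow normalizer (helper81)
-/

set_option autoImplicit false
set_option linter.unusedSectionVars false

namespace Cfsg.Agent.Lib.H81Real4

open scoped ComplexConjugate
open Cfsg Cfsg.Agent.Lib.CharBasic Cfsg.Agent.Lib.Clifford Cfsg.Agent.Lib.CliffordCorr
open Cfsg.Agent.Lib.RealOdd Cfsg.Agent.Lib.RelSylow Cfsg.Agent.Lib.H81Real1
open Cfsg.Agent.Lib.H81Real2 Cfsg.Agent.Lib.GlaubCorr Cfsg.Agent.Lib.PermLemma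
open Subgroup

universe u

variable {G : Type u} [Group G] {p : ℕ}

/-- If `χ` lies over `θ` and has degree prime to `p`, then every `p`-subgroup fixes a conjugate of
`θ`. -/
theorem exists_fixed_conj' [Fintype G] [Fact p.Prime] (M : Subgroup G) [hM : M.Normal]
    [Fintype M] {θ : M → ℂ} (hθ : IsIrrCharacter M θ) (χ : IrrCharacter G)
    (hχ : classInner (fun n : M => (χ : G → ℂ) n) θ ≠ 0)
    (hp : ¬ p ∣ charDegree (χ : G → ℂ)) (S : Subgroup G) (hS : IsPGroup p S) :
    ∃ g : G, ∀ x ∈ S, Clifford.cj M x (Clifford.cj M g θ) = Clifford.cj M g θ := by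
  classical
  set I := inertia M θ with hI
  obtain ⟨e, he⟩ : ∃ e : ℕ, classInner (fun n : M => (χ : G → ℂ) n) θ = e :=
    (χ.2.isCharacter.restrict M).classInner_nat hθ.isCharacter
  obtain ⟨d, -, hd⟩ := hθ.exists_degree
  have hdeg : charDegree (χ : G → ℂ) = e * (I.index * d) := by
    have h1 := degree_clifford χ.2 hθ hχ
    rw [he, hd] at h1
    have h2 : ((charDegree (χ : G → ℂ) : ℕ) : ℂ) = (χ : G → ℂ) 1 := BlockDeg.charDegree_cast_irr χ
    rw [h1] at h2
    exact_mod_cast h2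
  have hpI : ¬ p ∣ I.index := fun h => hp (by
    rw [hdeg]; exact dvd_mul_of_dvd_right (dvd_mul_of_dvd_left h _) _)
  obtain ⟨Q, hQ⟩ := exists_syl p I
  have hQtop : IsSyl p Q ⊤ := by
    refine ⟨le_top, hQ.2.1, ?_⟩
    rw [relIndex_top_right]
    have h1 : Q.relIndex I * I.index = Q.index := Subgroup.relIndex_mul_index hQ.1
    rw [← h1, (Fact.out : p.Prime).dvd_mul]
    push Not
    exact ⟨hQ.2.2, hpI⟩
  obtain ⟨h, -, hh⟩ := hQtop.exists_conj_le hS le_top
  refine ⟨h⁻¹, fun x hx => ?_⟩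
  have h1 : h⁻¹ * x * h ∈ I := hQ.1 (RelSylow.mem_conj_iff.mp (hh hx))
  rw [hI, mem_inertia] at h1
  calc Clifford.cj M x (Clifford.cj M h⁻¹ θ) = Clifford.cj M ((h⁻¹ * x * h) * h⁻¹) θ := by
        rw [cj_cj]
        congr 1
        group
    _ = Clifford.cj M h⁻¹ (Clifford.cj M (h⁻¹ * x * h) θ) := (cj_cj _ _ _).symm
    _ = Clifford.cj M h⁻¹ θ := by rw [h1]

/-- `G`-conjugacy of real irreducible characters of `K` -/
def relIrr (K : Subgroup G) (θ η : {θ : IrrCharacter K // (∀ k : K, ((θ : K → ℂ) k).im = 0)}) :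
    Prop := ∃ g : G, ∀ k k' : K, (k' : G) = g * (k : G) * g⁻¹ → (η.1 : K → ℂ) k' = (θ.1 : K → ℂ) k

/-- `G`-conjugacy of real elements of `K` -/
def relCls (K : Subgroup G) (x y : {x : K // IsConj x x⁻¹}) : Prop :=
  ∃ g : G, (y.1 : G) = g * x.1 * g⁻¹

theorem relIrr_iff (K : Subgroup G) [hK : K.Normal]
    (θ η : {θ : IrrCharacter K // (∀ k : K, ((θ : K → ℂ) k).im = 0)}) :
    relIrr K θ η ↔ ∃ g : G, (θ.1 : K → ℂ) = Clifford.cj K g (η.1 : K → ℂ) := by
  constructor
  · rintro ⟨g, hg⟩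
    refine ⟨g, ?_⟩
    funext k
    rw [cj_apply]
    exact (hg k ⟨g * k * g⁻¹, hK.conj_mem _ k.2 g⟩ rfl).symm
  · rintro ⟨g, hg⟩
    refine ⟨g, fun k k' hk => ?_⟩
    rw [hg, cj_apply]
    have : k' = ⟨g * k * g⁻¹, hK.conj_mem (k : G) k.2 g⟩ := Subtype.ext hk
    rw [this]

theorem relIrr_equiv (K : Subgroup G) [hK : K.Normal] : Equivalence (relIrr K) := by
  refine ⟨fun θ => ?_, fun {θ η} h => ?_, fun {θ η ζ} h1 h2 => ?_⟩
  · rw [relIrr_iff]
    exact ⟨1, (cj_one _).symm⟩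
  · rw [relIrr_iff] at h ⊢
    obtain ⟨g, hg⟩ := h
    exact ⟨g⁻¹, by rw [hg, cj_inv_cj]⟩
  · rw [relIrr_iff] at h1 h2 ⊢
    obtain ⟨g, hg⟩ := h1
    obtain ⟨h, hh⟩ := h2
    exact ⟨h * g, by rw [hg, hh, cj_cj]⟩

theorem relCls_equiv (K : Subgroup G) : Equivalence (relCls K) := by
  refine ⟨fun x => ⟨1, by simp⟩, fun {x y} h => ?_, fun {x y z} h1 h2 => ?_⟩
  · obtain ⟨g, hg⟩ := h
    exact ⟨g⁻¹, by rw [hg]; group⟩
  · obtain ⟨g, hg⟩ := h1
    obtain ⟨h, hh⟩ := h2
    exact ⟨h * g, by rw [hh, hg]; group⟩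

theorem quot_exact {α : Type*} {r : α → α → Prop} (hr : Equivalence r) {a b : α}
    (h : Quot.mk r a = Quot.mk r b) : r a b :=
  (Equivalence.eqvGen_iff hr).mp (Quot.eqvGen_exact h)

section Main

variable (K : Subgroup G) (P : Subgroup G)

/-- the embedding of `K ∩ N(P)` into `K` -/
def iot : ↥(K.subgroupOf (normalizer (P : Set G))) →* K where
  toFun x := ⟨((x : normalizer (P : Set G)) : G), x.2⟩
  map_one' := rfl
  map_mul' _ _ := rfl

theorem iot_coe (x : ↥(K.subgroupOf (normalizer (P : Set G)))) :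
    ((iot K P x : K) : G) = ((x : normalizer (P : Set G)) : G) := rfl

variable [hKn : K.Normal]

theorem data_iot [Finite G] [hp : Fact p.Prime] {M : Ideal AlgInt} (hM : IsPModular p M)
    (hK : ¬ p ∣ Nat.card K) (hP : IsPGroup p P) :
    Data p M (conjAct K P (fun s _ g hg => hKn.conj_mem g hg s)) (iot K P) where
  hM := hM
  hS := hP
  hpG := hK
  hι := by
    intro a b h
    have h1 : ((a : normalizer (P : Set G)) : G) = ((b : normalizer (P : Set G)) : G) :=
      congrArg (fun z : K => (z : G)) h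
    exact Subtype.ext (Subtype.ext h1)
  hfix := by
    intro g
    constructor
    · rintro ⟨c, rfl⟩ s
      apply Subtype.ext
      rw [conjAct_coe]
      have h1 : (iot K P c : G) ∈ normalizer (P : Set G) := (c : normalizer (P : Set G)).2
      set y : G := (iot K P c : G) with hy
      have h2 : y * s * y⁻¹ * (s : G)⁻¹ ∈ P :=
        P.mul_mem ((mem_normalizer_iff.mp h1 s).mp s.2) (P.inv_mem s.2)
      have h3 : y * s * y⁻¹ * (s : G)⁻¹ ∈ K := by
        have : y * s * y⁻¹ * (s : G)⁻¹ = y * (s * y⁻¹ * (s : G)⁻¹) := by group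
        rw [this]
        exact K.mul_mem (iot K P c).2 (hKn.conj_mem _ (K.inv_mem (iot K P c).2) s)
      have h4 := RelSylow.eq_one_of_mem hK hP h3 h2
      have h5 : y * s = s * y := by
        have := mul_inv_eq_one.mp h4
        exact mul_inv_eq_iff_eq_mul.mp this
      rw [← h5, mul_assoc, mul_inv_cancel, mul_one]
    · intro h
      have h1 : (g : G) ∈ centralizer (P : Set G) := by
        rw [mem_centralizer_iff]
        intro s hs
        have := congrArg Subtype.val (h ⟨s, hs⟩)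
        rw [conjAct_coe] at this
        exact mul_inv_eq_iff_eq_mul.mp this
      exact ⟨⟨⟨g, Subgroup.centralizer_le_normalizer (P : Set G) h1⟩, g.2⟩, rfl⟩

theorem conj_iot (n : normalizer (P : Set G)) (c : ↥(K.subgroupOf (normalizer (P : Set G)))) :
    iot K P (MulAut.conjNormal n c) = MulAut.conjNormal (n : G) (iot K P c) := by
  apply Subtype.ext
  rw [iot_coe, MulAut.conjNormal_apply, MulAut.conjNormal_apply]
  rfl

/-- equivariance of multiplicities under the normalizer of `P` -/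
theorem mult_cj [Finite G] [Fintype ↥(K.subgroupOf (normalizer (P : Set G)))]
    (n : normalizer (P : Set G)) (θ : IrrCharacter K)
    (β : IrrCharacter ↥(K.subgroupOf (normalizer (P : Set G)))) :
    mult (iot K P) ⟨_, isIrrCharacter_cj (N := K) θ.2 (n : G)⟩
      ⟨_, isIrrCharacter_cj (N := K.subgroupOf (normalizer (P : Set G))) β.2 n⟩ =
    mult (iot K P) θ β := by
  apply mult_eq
  rw [← mult_spec]
  have h1 := classInner_comp_equiv (MulAut.conjNormal n :
    MulAut ↥(K.subgroupOf (normalizer (P : Set G))))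
    (fun c => (θ : K → ℂ) (iot K P c)) (β : _ → ℂ)
  rw [← h1]
  congr 1

theorem mult_conj [Finite G] [Fintype ↥(K.subgroupOf (normalizer (P : Set G)))]
    (θ : IrrCharacter K) (hθ : ∀ k, ((θ : K → ℂ) k).im = 0)
    (β : IrrCharacter ↥(K.subgroupOf (normalizer (P : Set G)))) :
    mult (iot K P) θ (irrConj _ β) = mult (iot K P) θ β := by
  apply mult_eq
  have h1 : classInner (fun c => conj ((θ : K → ℂ) (iot K P c))) (fun c => conj ((β : _ → ℂ) c)) =
    classInner (β : _ → ℂ) (fun c => (θ : K → ℂ) (iot K P c)) := classInner_conj_conj _ _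
  have h2 : (fun c => conj ((θ : K → ℂ) (iot K P c))) = fun c => (θ : K → ℂ) (iot K P c) := by
    funext c
    exact Complex.conj_eq_iff_im.mpr (hθ _)
  rw [h2] at h1
  have h3 : classInner (fun c => (θ : K → ℂ) (iot K P c)) (irrConj _ β : _ → ℂ) =
      classInner (β : _ → ℂ) (fun c => (θ : K → ℂ) (iot K P c)) := h1
  rw [h3, ← CharBasic.conj_classInner, mult_spec, Complex.conj_natCast]

theorem card_le [Finite G] [hp : Fact p.Prime] (hK : ¬ p ∣ Nat.card K) (hP : IsPGroup p P)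
    (hfix : ∀ θ : IrrCharacter K, (∀ k, ((θ : K → ℂ) k).im = 0) →
      ∃ g : G, ∀ x ∈ P, Clifford.cj K x (Clifford.cj K g (θ : K → ℂ)) =
        Clifford.cj K g (θ : K → ℂ)) :
    Nat.card (Quot (relIrr K)) ≤
      Nat.card (Quot (relIrr (K.subgroupOf (normalizer (P : Set G))))) := by
  classical
  obtain ⟨M, hM⟩ := H76Char.exists_isPModular p
  have D := data_iot (p := p) K P hM hK hP
  have hF : Fintype ↥(K.subgroupOf (normalizer (P : Set G))) := Fintype.ofFinite _
  have hfin : Finite (Quot (relIrr (K.subgroupOf (normalizer (P : Set G))))) := inferInstance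
  -- choose representatives
  have hex : ∀ a : Quot (relIrr K), ∃ (θ : {θ : IrrCharacter K // (∀ k : K, ((θ : K → ℂ) k).im = 0)})
      (β : {β : IrrCharacter ↥(K.subgroupOf (normalizer (P : Set G))) //
        (∀ k, ((β : ↥(K.subgroupOf (normalizer (P : Set G))) → ℂ) k).im = 0)}),
      Quot.mk (relIrr K) θ = a ∧
        GlaubCorr.Inv (conjAct K P (fun s _ g hg => hKn.conj_mem g hg s)) (θ.1 : K → ℂ) ∧
        ¬ p ∣ mult (iot K P) θ.1 β.1 := by
    intro a
    obtain ⟨⟨θ, hθ⟩, rfl⟩ := Quot.exists_rep a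
    obtain ⟨g, hg⟩ := hfix θ hθ
    let θ' : IrrCharacter K := ⟨_, isIrrCharacter_cj (N := K) θ.2 g⟩
    have hθ' : ∀ k, ((θ' : K → ℂ) k).im = 0 := by
      intro k
      show (Clifford.cj K g (θ : K → ℂ) k).im = 0
      rw [cj_apply]
      exact hθ _
    have hinv : GlaubCorr.Inv (conjAct K P (fun s _ g hg => hKn.conj_mem g hg s)) (θ' : K → ℂ) := by
      rw [inv_conjAct_iff]
      intro s hs k k' hk
      have h1 := congrFun (hg s hs) k
      rw [cj_apply] at h1
      have h2 : k' = ⟨s * k * s⁻¹, hKn.conj_mem _ k.2 s⟩ := Subtype.ext hk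
      rw [h2]
      exact h1
    obtain ⟨β, hβ⟩ := exists_beta D θ'
    have hβr : ∀ k, ((β : ↥(K.subgroupOf (normalizer (P : Set G))) → ℂ) k).im = 0 := by
      rw [← irrConj_eq_iff]
      exact unique_beta D hinv (by rw [mult_conj K P θ' hθ']; exact hβ) hβ
    refine ⟨⟨θ', hθ'⟩, ⟨β, hβr⟩, ?_, hinv, hβ⟩
    apply Quot.sound
    rw [relIrr_iff]
    exact ⟨g, rfl⟩
  choose θ β hθ hinv hβ using hex
  apply Nat.card_le_card_of_injective (fun a => Quot.mk _ (β a))
  intro a b hab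
  have h1 := quot_exact (relIrr_equiv (K.subgroupOf (normalizer (P : Set G)))) hab
  rw [relIrr_iff] at h1
  obtain ⟨n, hn⟩ := h1
  have h2 := mult_cj K P n (θ b).1 (β b).1
  have h3 : (⟨_, isIrrCharacter_cj (N := K.subgroupOf (normalizer (P : Set G))) (β b).1.2 n⟩ :
      IrrCharacter ↥(K.subgroupOf (normalizer (P : Set G)))) = (β a).1 := Subtype.ext hn.symm
  rw [h3] at h2
  have h4 : ¬ p ∣ mult (iot K P) ⟨_, isIrrCharacter_cj (N := K) (θ b).1.2 (n : G)⟩ (β a).1 := by
    rw [h2]; exact hβ b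
  have h5 : GlaubCorr.Inv (conjAct K P (fun s _ g hg => hKn.conj_mem g hg s))
      (Clifford.cj K (n : G) ((θ b).1 : K → ℂ)) := by
    rw [inv_conjAct_iff]
    intro s hs k k' hk
    rw [cj_apply, cj_apply]
    have h6 := (inv_conjAct_iff _ _).mp (hinv b) (n * s * (n : G)⁻¹)
      ((mem_normalizer_iff.mp n.2 s).mp hs) ⟨n * k * (n : G)⁻¹, hKn.conj_mem _ k.2 n⟩
      ⟨n * k' * (n : G)⁻¹, hKn.conj_mem _ k'.2 n⟩
    apply h6
    show (n : G) * k' * (n : G)⁻¹ = _
    rw [hk]
    group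
  have h6 := unique_chi D (hinv a) h5 (hβ a) h4
  rw [← hθ a, ← hθ b]
  apply Quot.sound
  rw [relIrr_iff]
  exact ⟨(n : G), congrArg Subtype.val h6⟩

/-- two elements centralising the Sylow subgroup `P` which are conjugate in `G` are conjugate in
the normalizer of `P`. -/
theorem burnside_conj [Finite G] [hp : Fact p.Prime] {P : Subgroup G} (hP : IsSyl p P ⊤)
    {x g : G} (hx : x ∈ centralizer (P : Set G)) (hy : g * x * g⁻¹ ∈ centralizer (P : Set G)) :
    ∃ n ∈ normalizer (P : Set G), g * x * g⁻¹ = n * x * n⁻¹ := by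
  set y := g * x * g⁻¹ with hyd
  set P' := P.map (MulAut.conj g).toMonoidHom with hP'
  have hP'syl : IsSyl p P' ⊤ := by
    have := hP.conj_isSyl' (g := g) (by rw [normalizer_eq_top]; trivial)
    exact this
  have h1 : P ≤ centralizer ({y} : Set G) := by
    intro z hz
    rw [mem_centralizer_singleton_iff]
    exact ((mem_centralizer_iff.mp hy) z hz)
  have h2 : P' ≤ centralizer ({y} : Set G) := by
    rintro _ ⟨z, hz, rfl⟩
    rw [mem_centralizer_singleton_iff]
    show g * z * g⁻¹ * y = y * (g * z * g⁻¹)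
    have h3 : z * x = x * z := (mem_centralizer_iff.mp hx) z hz
    rw [hyd]
    have h4 : g * z * g⁻¹ * (g * x * g⁻¹) = g * (z * x) * g⁻¹ := by group
    rw [h4, h3]
    group
  obtain ⟨c, hc, hcc⟩ := (hP'syl.of_le h2 le_top).conj (hP.of_le h1 le_top)
  refine ⟨c * g, ?_, ?_⟩
  · rw [mem_normalizer_iff_map, ← conj_conj]
    exact hcc
  · have h3 := mem_centralizer_singleton_iff.mp hc
    have h4 : c * g * x * (c * g)⁻¹ = c * y * c⁻¹ := by rw [hyd]; group
    rw [h4, h3]
    group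

theorem key [Finite G] [hp : Fact p.Prime] (hodd : Odd K.index) (hK : ¬ p ∣ Nat.card K)
    {P : Subgroup G} (hP : IsSyl p P ⊤)
    (hfix : ∀ θ : IrrCharacter K, (∀ k, ((θ : K → ℂ) k).im = 0) →
      ∃ g : G, ∀ x ∈ P, Clifford.cj K x (Clifford.cj K g (θ : K → ℂ)) =
        Clifford.cj K g (θ : K → ℂ)) (x : K) (hx : IsConj x x⁻¹) :
    ∃ y ∈ normalizer (P : Set G), IsConj (x : G) y := by
  classical
  set N := normalizer (P : Set G) with hN
  have hodd' : Odd (K.subgroupOf N).index := by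
    have h1 : K.relIndex N ∣ K.index := Subgroup.relIndex_dvd_index_of_normal K N
    exact Odd.of_dvd_nat hodd h1
  have h1 : Nat.card (Quot (relIrr K)) = Nat.card (Quot (relCls K)) := card_quot_real_eq K hodd
  have h2 : Nat.card (Quot (relIrr (K.subgroupOf N))) = Nat.card (Quot (relCls (K.subgroupOf N))) :=
    card_quot_real_eq (K.subgroupOf N) hodd'
  have h3 := card_le (p := p) K P hK hP.2.1 hfix
  have h4 : Nat.card (Quot (relCls K)) ≤ Nat.card (Quot (relCls (K.subgroupOf N))) := by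
    rw [← h1, ← h2]; exact h3
  -- elements of `K ∩ N(P)` centralise `P`
  have hcent : ∀ c : ↥(K.subgroupOf N), ((c : N) : G) ∈ centralizer (P : Set G) := by
    intro c
    obtain ⟨M, hM⟩ := H76Char.exists_isPModular p
    have D := data_iot (p := p) K P hM hK hP.2.1
    have h5 := (D.hfix (iot K P c)).mp ⟨c, rfl⟩
    rw [mem_centralizer_iff]
    intro s hs
    have h6 := congrArg Subtype.val (h5 ⟨s, hs⟩)
    rw [conjAct_coe, iot_coe] at h6
    exact mul_inv_eq_iff_eq_mul.mp h6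
  let F : Quot (relCls (K.subgroupOf N)) → Quot (relCls K) :=
    Quot.map (fun c => ⟨iot K P c.1, RealElems.isConj_inv_map (iot K P) c.2⟩) (by
      rintro c d ⟨n, hn⟩
      refine ⟨(n : G), ?_⟩
      have := congrArg (fun z : N => (z : G)) hn
      exact this)
  have hFinj : Function.Injective F := by
    intro a b hab
    obtain ⟨c, rfl⟩ := Quot.exists_rep a
    obtain ⟨d, rfl⟩ := Quot.exists_rep b
    have h5 := quot_exact (relCls_equiv K) hab
    obtain ⟨g, hg⟩ := h5
    have hg' : ((d.1 : N) : G) = g * ((c.1 : N) : G) * g⁻¹ := hg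
    have h6 := burnside_conj hP (hcent c.1) (g := g) (by rw [← hg']; exact hcent d.1)
    obtain ⟨n, hn, hn'⟩ := h6
    apply Quot.sound
    refine ⟨⟨n, hn⟩, ?_⟩
    apply Subtype.ext
    show ((d.1 : N) : G) = n * ((c.1 : N) : G) * n⁻¹
    rw [hg', hn']
  have hFsurj : Function.Surjective F := by
    have hb := (Nat.bijective_iff_injective_and_card F).mpr ⟨hFinj, le_antisymm
      (Nat.card_le_card_of_injective F hFinj) h4⟩
    exact hb.2
  obtain ⟨b, hb⟩ := hFsurj (Quot.mk _ ⟨x, hx⟩)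
  obtain ⟨c, rfl⟩ := Quot.exists_rep b
  obtain ⟨g, hg⟩ := quot_exact (relCls_equiv K) hb
  have hg' : (x : G) = g * ((c.1 : N) : G) * g⁻¹ := hg
  refine ⟨((c.1 : N) : G), (c.1 : N).2, ?_⟩
  rw [hg']
  exact IsConj.symm (isConj_iff.mpr ⟨g, rfl⟩)

end Main

theorem exists_fixed_of_realDeg [Finite G] [hp : Fact p.Prime] (hreal : RealDeg p G)
    (K : Subgroup G) [hK : K.Normal] (hodd : Odd K.index) {P : Subgroup G} (hP : IsPGroup p P)
    (θ : IrrCharacter K) (hθ : ∀ k, ((θ : K → ℂ) k).im = 0) :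
    ∃ g : G, ∀ x ∈ P, Clifford.cj K x (Clifford.cj K g (θ : K → ℂ)) =
        Clifford.cj K g (θ : K → ℂ) := by
  have hF : Fintype G := Fintype.ofFinite G
  have hF' : Fintype K := Fintype.ofFinite K
  obtain ⟨χ, hχr, hχ⟩ := exists_real_over _ hodd θ.2 hθ
  exact exists_fixed_conj' K θ.2 χ hχ (hreal χ hχr) P hP

theorem odd_index_pg [Finite G] : Odd (PG 2 G).index := by
  have : Fact (Nat.Prime 2) := ⟨Nat.prime_two⟩
  rw [← Nat.not_even_iff_odd, even_iff_two_dvd]
  exact not_dvd_index_pg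

theorem main [Finite G] [hp : Fact p.Prime] (hsolv : Group.IsSolvable (PG p G))
    (hreal : RealDeg p G) (P : Sylow p G) (x : G) (hx : IsConj x x⁻¹) :
    ∃ y ∈ normalizer ((P : Subgroup G) : Set G), IsConj x y := by
  classical
  have h2p : Fact (Nat.Prime 2) := ⟨Nat.prime_two⟩
  obtain ⟨S, hSn, hSK, hSp, hSi⟩ := H81Real2.main (p := p) (Nat.card G) G
    (PG p G) (PG 2 G) le_rfl inferInstance hsolv
    not_dvd_index_pg hreal inferInstance le_rfl (fun u hu => ⟨0, by simpa using hu⟩)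
  have hxK : x ∈ PG 2 G := mem_of_isConj_inv _ odd_index_pg hx
  let f := QuotientGroup.mk' S
  have hf : Function.Surjective f := QuotientGroup.mk'_surjective S
  have hfk : f.ker = S := QuotientGroup.ker_mk' S
  have hmap : (PG 2 G).map f = PG 2 (G ⧸ S) := map_pg f hf
  have hcard : ¬ p ∣ Nat.card (PG 2 (G ⧸ S)) := by
    rw [← hmap]
    have h1 := Cores.card_map_mk hSK
    have h2 := Cores.card_mul_relIndex hSK
    have h3 : Nat.card ((PG 2 G).map f) = S.relIndex (PG 2 G) := by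
      have h4 : 0 < Nat.card S := Nat.card_pos
      exact Nat.eq_of_mul_eq_mul_left h4 (by rw [h2]; exact h1)
    rw [h3]
    exact hSi
  have hSP : S ≤ P := (Fitting.le_pCore p hSn hSp).trans (Fitting.pCore_le_sylow p P)
  let P' := (P : Subgroup G).map f
  have hP' : IsSyl p P' ⊤ := by
    have h1 : IsSyl p ((P : Subgroup G).map f) ((⊤ : Subgroup G).map f) :=
      ((isSyl_top_iff P)).map f
    rwa [map_top_of_surjective f hf] at h1
  have hxc : IsConj (f x) (f x)⁻¹ := RealElems.isConj_inv_map f hx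
  have hxb : f x ∈ PG 2 (G ⧸ S) := by rw [← hmap]; exact mem_map_of_mem f hxK
  have hodd : Odd (PG 2 (G ⧸ S)).index := odd_index_pg
  have hxc' : IsConj (⟨f x, hxb⟩ : PG 2 (G ⧸ S)) (⟨f x, hxb⟩ : PG 2 (G ⧸ S))⁻¹ :=
    isConj_inv_of_isConj_inv _ hodd _ hxc
  obtain ⟨y, hy, hxy⟩ := key (p := p) (PG 2 (G ⧸ S)) hodd hcard hP'
    (fun θ hθ => exists_fixed_of_realDeg (realDeg_quotient hreal S) _ hodd hP'.2.1 θ hθ) _ hxc'
  obtain ⟨g, hg⟩ := isConj_iff.mp hxy
  obtain ⟨g, rfl⟩ := hf g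
  refine ⟨g * x * g⁻¹, ?_, isConj_iff.mpr ⟨g, rfl⟩⟩
  have h1 : f (g * x * g⁻¹) ∈ normalizer (P' : Set (G ⧸ S)) := by
    rw [map_mul, map_mul, map_inv]
    have hg' : f g * f x * (f g)⁻¹ = y := hg
    rw [hg']
    exact hy
  have h2 : (normalizer (P' : Set (G ⧸ S))).comap f =
      normalizer ((P'.comap f : Subgroup G) : Set G) :=
    Subgroup.comap_normalizer_eq_of_surjective _ hf
  have h3 : P'.comap f = (P : Subgroup G) := comap_map_eq_self (by rw [hfk]; exact hSP)
  rw [h3] at h2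
  rw [← h2]
  exact h1

end Cfsg.Agent.Lib.H81Real4
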