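import Cfsg.Agent.Lib.H81Real4

/-!
# Clifford theory of real characters over normal subgroups of odd index (helper81)
-/

set_option autoImplicit false
set_option linter.unusedSectionVars false

namespace Cfsg.Agent.Lib.H81Real5

open scoped ComplexConjugate
open Cfsg Cfsg.Agent.Lib.CharBasic Cfsg.Agent.Lib.Clifford Cfsg.Agent.Lib.CliffordCorr
open Cfsg.Agent.Lib.RealOdd Cfsg.Agent.Lib.RelSylow Cfsg.Agent.Lib.H81Real1
open Cfsg.Agent.Lib.H81Real2 Cfsg.Agent.Lib.H81Real4 Cfsg.Agent.Lib.FrobSchur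
open Subgroup

universe u

variable {G : Type u} [Group G] {p : ℕ}

theorem mem_of_sq_mem [Finite G] (N : Subgroup G) [N.Normal] (hodd : Odd N.index) {h : G}
    (hh : h * h ∈ N) : h ∈ N := by
  have h1 : ((h : G ⧸ N)) ^ 2 = 1 := by
    rw [← QuotientGroup.mk_pow, pow_two]
    exact (QuotientGroup.eq_one_iff _).mpr hh
  have h2 : orderOf (h : G ⧸ N) ∣ N.index := by
    rw [Subgroup.index_eq_card]
    exact orderOf_dvd_natCard _
  have h3 : orderOf (h : G ⧸ N) ∣ 2 := orderOf_dvd_of_pow_eq_one h1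
  have h5 : orderOf (h : G ⧸ N) = 1 :=
    Nat.eq_one_of_dvd_coprimes (Nat.coprime_two_right.mpr hodd) h2 h3
  rw [orderOf_eq_one_iff] at h5
  exact (QuotientGroup.eq_one_iff h).mp h5

/-- the indicator of a character induced from a normal subgroup of odd index -/
theorem fsInd_indFun [Fintype G] (N : Subgroup G) [N.Normal] [Fintype N] (hodd : Odd N.index)
    (θ : N → ℂ) : fsInd (indFun N θ) = fsInd θ := by
  classical
  have hG : (Nat.card G : ℂ) ≠ 0 := by exact_mod_cast Nat.card_pos.ne'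
  rw [fsInd, fsInd]
  have h1 : ∑ g : G, indFun N θ (g * g) =
      (Nat.card N : ℂ)⁻¹ * ((Nat.card G : ℂ) * ∑ h : G, extendByZero N θ (h * h)) := by
    have h2 : ∀ g : G, indFun N θ (g * g) =
        (Nat.card N : ℂ)⁻¹ * ∑ y : G, extendByZero N θ ((y⁻¹ * g * y) * (y⁻¹ * g * y)) := by
      intro g
      rw [IndFun.indFun_apply]
      congr 1
      apply Finset.sum_congr rfl
      intro y _
      congr 1
      group
    simp_rw [h2]
    rw [← Finset.mul_sum, Finset.sum_comm]
    congr 1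
    have h3 : ∀ y : G, ∑ g : G, extendByZero N θ ((y⁻¹ * g * y) * (y⁻¹ * g * y)) =
        ∑ h : G, extendByZero N θ (h * h) := by
      intro y
      exact Fintype.sum_equiv (MulAut.conj y⁻¹).toEquiv _ _ (fun g => by
        simp [MulAut.conj_apply])
    simp_rw [h3]
    rw [Finset.sum_const, Finset.card_univ, nsmul_eq_mul, Nat.card_eq_fintype_card]
  have h4 : ∑ h : G, extendByZero N θ (h * h) = ∑ h : N, θ (h * h) := by
    have h5 : ∑ h : G, extendByZero N θ (h * h) =
        ∑ h : G, extendByZero N (fun n : N => θ (n * n)) h := by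
      apply Finset.sum_congr rfl
      intro h _
      by_cases hh : h ∈ N
      · rw [IndFun.extendByZero_mem N _ hh, IndFun.extendByZero_mem N _ (N.mul_mem hh hh)]
        rfl
      · rw [IndFun.extendByZero_not_mem N _ hh,
          IndFun.extendByZero_not_mem N _ (fun h' => hh (mem_of_sq_mem N hodd h'))]
    rw [h5, IndFun.sum_extendByZero]
  rw [h1, h4]
  field_simp

theorem fsInd_ne_zero [Fintype G] {χ : G → ℂ} (hχ : IsIrrCharacter G χ)
    (hr : ∀ g : G, (χ g).im = 0) : fsInd χ = 1 ∨ fsInd χ = -1 := by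
  obtain ⟨h1, h2⟩ := fsInd_trichotomy hχ
  rcases h1 with h | h | h
  · exfalso
    obtain ⟨s, hs⟩ := h2.mp h
    exact hs (hr s)
  · exact Or.inl h
  · exact Or.inr h

/-- The real character above a real character of a normal subgroup of odd index lies over it with
multiplicity one. -/
theorem inner_eq_one [Fintype G] (N : Subgroup G) [N.Normal] [Fintype N] (hodd : Odd N.index)
    {θ : N → ℂ} (hθ : IsIrrCharacter N θ) (hθr : ∀ n : N, (θ n).im = 0) (χ : IrrCharacter G)
    (hχr : ∀ g : G, ((χ : G → ℂ) g).im = 0)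
    (h : classInner (fun n : N => (χ : G → ℂ) n) θ ≠ 0) :
    classInner (fun n : N => (χ : G → ℂ) n) θ = 1 := by
  classical
  obtain ⟨c, hc1, hc2⟩ := (isCharacter_indFun N hθ.isCharacter).exists_coeff
  have hc : ∀ ψ : IrrCharacter G, classInner (fun n : N => (ψ : G → ℂ) n) θ = c ψ := by
    intro ψ
    have h9 := hc1 ψ
    rw [IndFun.frobenius_reciprocity N θ _ ψ.2.isClassFunction] at h9
    rw [← conj_classInner, h9, Complex.conj_natCast]
  have hfs : fsInd (indFun N θ) = c χ * fsInd (χ : G → ℂ) := by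
    have h1 : fsInd (indFun N θ) = ∑ ψ : IrrCharacter G, (c ψ : ℂ) * fsInd (ψ : G → ℂ) := by
      have h2 : ∀ g : G, indFun N θ (g * g) =
          ∑ ψ : IrrCharacter G, (c ψ : ℂ) * (ψ : G → ℂ) (g * g) := by
        intro g
        conv_lhs => rw [hc2]
        rw [Finset.sum_apply]
        rfl
      rw [fsInd]
      simp_rw [h2]
      rw [Finset.sum_comm, Finset.mul_sum]
      apply Finset.sum_congr rfl
      intro ψ _
      rw [fsInd, ← Finset.mul_sum]
      ring
    rw [h1]
    apply Finset.sum_eq_single χ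
    · intro ψ _ hψ
      by_cases hψr : ∀ g : G, ((ψ : G → ℂ) g).im = 0
      · have : c ψ = 0 := by
          by_contra hne
          apply hψ
          apply unique_real_over N hodd hθ ψ χ hψr hχr _ h
          rw [hc]
          exact_mod_cast hne
        rw [this]; simp
      · push Not at hψr
        rw [(fsInd_trichotomy ψ.2).2.mpr hψr, mul_zero]
    · intro h; exact absurd (Finset.mem_univ χ) h
  rw [fsInd_indFun N hodd] at hfs
  rw [hc]
  have h1 := fsInd_ne_zero hθ hθr
  have h2 := fsInd_ne_zero χ.2 hχr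
  have h3 : c χ = 1 := by
    rcases h1 with h1 | h1 <;> rcases h2 with h2 | h2
    · rw [h1, h2, mul_one] at hfs
      exact_mod_cast hfs.symm
    · exfalso
      rw [h1, h2] at hfs
      have h4 : ((c χ : ℕ) : ℂ) + 1 = 0 := by linear_combination hfs
      have h5 : ((c χ + 1 : ℕ) : ℂ) = 0 := by push_cast; exact h4
      exact absurd (Nat.cast_eq_zero.mp h5) (by omega)
    · exfalso
      rw [h1, h2, mul_one] at hfs
      have h5 : ((c χ + 1 : ℕ) : ℂ) = 0 := by push_cast; rw [← hfs]; ring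
      exact absurd (Nat.cast_eq_zero.mp h5) (by omega)
    · rw [h1, h2] at hfs
      have h4 : ((c χ : ℕ) : ℂ) = 1 := by linear_combination hfs
      exact_mod_cast h4
  rw [h3, Nat.cast_one]

/-- degree of the real character over a real character -/
theorem degree_real_over [Fintype G] (N : Subgroup G) [N.Normal] [Fintype N] (hodd : Odd N.index)
    {θ : N → ℂ} (hθ : IsIrrCharacter N θ) (hθr : ∀ n : N, (θ n).im = 0) (χ : IrrCharacter G)
    (hχr : ∀ g : G, ((χ : G → ℂ) g).im = 0)
    (h : classInner (fun n : N => (χ : G → ℂ) n) θ ≠ 0) :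
    charDegree (χ : G → ℂ) = (inertia N θ).index * charDegree θ := by
  have h1 := degree_clifford χ.2 hθ h
  rw [inner_eq_one N hodd hθ hθr χ hχr h, one_mul, ← BlockDeg.charDegree_cast_irr,
    ← BlockDeg.charDegree_cast hθ.isCharacter] at h1
  exact_mod_cast h1

/-- invariance under `P` -/
def PInv (P K : Subgroup G) (θ : K → ℂ) : Prop :=
  ∀ x ∈ P, ∀ k k' : K, (k' : G) = x * (k : G) * x⁻¹ → θ k' = θ k

theorem pinv_iff (P K : Subgroup G) [hK : K.Normal] (θ : K → ℂ) :
    PInv P K θ ↔ ∀ x ∈ P, cj K x θ = θ := by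
  constructor
  · intro h x hx
    funext k
    rw [cj_apply]
    exact h x hx k _ rfl
  · intro h x hx k k' hk
    have h1 := congrFun (h x hx) k
    rw [cj_apply] at h1
    have h2 : k' = ⟨x * k * x⁻¹, hK.conj_mem _ k.2 x⟩ := Subtype.ext hk
    rw [h2]
    exact h1

theorem le_inertia_iff (P K : Subgroup G) [hK : K.Normal] (θ : K → ℂ) :
    PInv P K θ ↔ P ≤ inertia K θ := by
  rw [pinv_iff]
  exact ⟨fun h x hx => mem_inertia.mpr (h x hx), fun h x hx => mem_inertia.mp (h hx)⟩

/-- a real character of degree prime to `p` lies over a real `P`-invariant one -/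
theorem exists_real_pinv [Fintype G] [hp : Fact p.Prime] (P K : Subgroup G) [hK : K.Normal]
    [Fintype K] (hodd : Odd K.index) (hP : IsPGroup p P) (χ : IrrCharacter G)
    (hχr : ∀ g : G, ((χ : G → ℂ) g).im = 0) (hχ : ¬ p ∣ charDegree (χ : G → ℂ)) :
    ∃ θ : IrrCharacter K, (∀ k, ((θ : K → ℂ) k).im = 0) ∧ PInv P K (θ : K → ℂ) ∧
      classInner (fun n : K => (χ : G → ℂ) n) (θ : K → ℂ) ≠ 0 := by
  obtain ⟨θ, hθ, h⟩ := (χ.2.isCharacter.restrict K).exists_constituent (by
      intro h0
      have := congrFun h0 1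
      exact χ.2.one_ne_zero this)
  have hr := real_of_constituent K hodd χ.2 hχr hθ h
  obtain ⟨g, hg⟩ := exists_fixed_conj' K hθ χ h hχ P hP
  refine ⟨⟨_, isIrrCharacter_cj (N := K) hθ g⟩, ?_, ?_, ?_⟩
  · intro k
    show (cj K g θ k).im = 0
    rw [cj_apply]
    exact hr _
  · rw [pinv_iff]
    exact hg
  · show classInner (fun n : K => (χ : G → ℂ) n) (cj K g θ) ≠ 0
    rw [classInner_cj_res χ.2.isClassFunction]
    exact h

/-- `G`-conjugate `P`-invariant characters are `N_G(P)`-conjugate -/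
theorem conj_normalizer [Finite G] [hp : Fact p.Prime] (P K : Subgroup G) [hK : K.Normal]
    (hP : IsSyl p P ⊤) {θ θ' : K → ℂ} (hθ : PInv P K θ) (hθ' : PInv P K θ') {g : G}
    (hg : θ' = cj K g θ) : ∃ n ∈ normalizer (P : Set G), θ' = cj K n θ := by
  have h1 : P ≤ inertia K θ' := (le_inertia_iff P K θ').mp hθ'
  have h2 : P.map (MulAut.conj g⁻¹).toMonoidHom ≤ inertia K θ' := by
    rintro _ ⟨x, hx, rfl⟩
    rw [mem_inertia]
    show cj K (g⁻¹ * x * g⁻¹⁻¹) θ' = θ'
    rw [inv_inv]
    have h3 := (pinv_iff P K θ).mp hθ x hx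
    calc cj K (g⁻¹ * x * g) θ' = cj K (g⁻¹ * x * g) (cj K g θ) := by rw [hg]
      _ = cj K (g * (g⁻¹ * x * g)) θ := cj_cj _ _ _
      _ = cj K (x * g) θ := by congr 1; group
      _ = cj K g (cj K x θ) := (cj_cj _ _ _).symm
      _ = θ' := by rw [h3, hg]
  have hP' : IsSyl p (P.map (MulAut.conj g⁻¹).toMonoidHom) ⊤ :=
    hP.conj_isSyl' (by rw [normalizer_eq_top]; trivial)
  obtain ⟨c, hc, hcc⟩ := (hP'.of_le h2 le_top).conj (hP.of_le h1 le_top)
  rw [conj_conj] at hcc
  have h3 : c * g⁻¹ ∈ normalizer (P : Set G) := mem_normalizer_iff_map.mpr hcc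
  refine ⟨(c * g⁻¹)⁻¹, inv_mem h3, ?_⟩
  have h4 : cj K c⁻¹ θ' = θ' := mem_inertia.mp (inv_mem hc)
  calc θ' = cj K c⁻¹ θ' := h4.symm
    _ = cj K c⁻¹ (cj K g θ) := by rw [← hg]
    _ = cj K (g * c⁻¹) θ := cj_cj _ _ _
    _ = cj K (c * g⁻¹)⁻¹ θ := by congr 1; group

/-- the index of an overgroup of a Sylow subgroup, modulo `p` -/
theorem index_modEq [Finite G] [hp : Fact p.Prime] (P I : Subgroup G) (hP : IsSyl p P ⊤)
    (hPI : P ≤ I) : (I.index : ZMod p) = (I.relIndex (normalizer (P : Set G)) : ZMod p) := by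
  obtain ⟨Q, rfl⟩ := hP.toSylow
  set N := normalizer ((Q : Subgroup G) : Set G) with hN
  have h1 : (N.index : ZMod p) = 1 := by
    have h2 := card_sylow_modEq_one p G
    rw [Sylow.card_eq_index_normalizer Q, ← ZMod.natCast_eq_natCast_iff] at h2
    have h3 : (N.index : ZMod p) = ((1 : ℕ) : ZMod p) := h2
    rw [h3, Nat.cast_one]
  have h2 : (N.relIndex I : ZMod p) = 1 := by
    have hQI : IsPGroup p ((Q : Subgroup G).subgroupOf I) :=
      Q.isPGroup'.of_injective (subgroupOfEquivOfLe hPI).toMonoidHom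
        (subgroupOfEquivOfLe hPI).injective
    have hQi : ¬ p ∣ ((Q : Subgroup G).subgroupOf I).index := (hP.of_le hPI le_top).2.2
    let Q' : Sylow p I := hQI.toSylow hQi
    have h3 := card_sylow_modEq_one p I
    rw [Sylow.card_eq_index_normalizer Q', ← ZMod.natCast_eq_natCast_iff] at h3
    have h4 : normalizer ((Q' : Subgroup I) : Set I) = N.subgroupOf I := by
      have h5 : (Q' : Subgroup I) = (Q : Subgroup G).subgroupOf I := rfl
      rw [h5]
      exact (Subgroup.subgroupOf_normalizer_eq hPI).symm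
    have h6 : (normalizer ((Q' : Subgroup I) : Set I)).index = N.relIndex I := by
      rw [h4]; rfl
    have h7 : ((normalizer ((Q' : Subgroup I) : Set I)).index : ZMod p) = ((1 : ℕ) : ZMod p) := h3
    rw [h6, Nat.cast_one] at h7
    exact h7
  have h3 : N.relIndex I * I.index = I.relIndex N * N.index := by
    rw [← inf_relIndex_right N I, Subgroup.relIndex_mul_index inf_le_right,
      ← inf_relIndex_right I N, Subgroup.relIndex_mul_index inf_le_right, inf_comm]
  have h4 : ((N.relIndex I * I.index : ℕ) : ZMod p) = ((I.relIndex N * N.index : ℕ) : ZMod p) := by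
    rw [h3]
  rw [Nat.cast_mul, Nat.cast_mul, h1, h2, one_mul, mul_one] at h4
  exact h4

end Cfsg.Agent.Lib.H81Real5
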