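import Mathlib
import Cfsg.Agent.Lib.CGData
import Cfsg.Agent.Lib.GlaubCorr

/-! Relative Glauberman correspondence over a normal Sylow subgroup: a `p`-group `S` acts on `K` with a normal
Sylow `p`-subgroup `Q`, and `C/Q` is the fixed point subgroup of `S` on `K/Q`. -/

set_option autoImplicit false
set_option maxHeartbeats 400000

namespace Cfsg.Agent.Lib.RelGlaub

open Cfsg Cfsg.Agent.Lib.CharBasic Cfsg.Agent.Lib.Clifford Cfsg.Agent.Lib.CliffordCorr
open Cfsg.Agent.Lib.CanonExt Cfsg.Agent.Lib.CGData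
open scoped ComplexConjugate

universe u v

section Actions

variable {K : Type u} [Group K] {S : Type v} [Group S]

/-- Restriction of an action to a stable subgroup. -/
def subAct (act : S →* MulAut K) (T : Subgroup K) (h : ∀ s, ∀ t ∈ T, act s t ∈ T) : S →* MulAut T where
  toFun s :=
    { toFun := fun t => ⟨act s t, h s t t.2⟩
      invFun := fun t => ⟨act s⁻¹ t, h s⁻¹ t t.2⟩
      left_inv := fun t => Subtype.ext (by
        show act s⁻¹ (act s t) = t
        rw [← MulAut.mul_apply, ← map_mul, inv_mul_cancel, map_one]; rfl)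
      right_inv := fun t => Subtype.ext (by
        show act s (act s⁻¹ t) = t
        rw [← MulAut.mul_apply, ← map_mul, mul_inv_cancel, map_one]; rfl)
      map_mul' := fun a b => Subtype.ext (map_mul (act s) _ _) }
  map_one' := by
    ext t
    show act 1 (t : K) = t
    rw [map_one]; rfl
  map_mul' s t := by
    ext x
    show act (s * t) (x : K) = act s (act t x)
    rw [map_mul]; rfl

theorem subAct_coe (act : S →* MulAut K) (T : Subgroup K) (h : ∀ s, ∀ t ∈ T, act s t ∈ T) (s : S) (t : T) :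
    ((subAct act T h s t : T) : K) = act s t := rfl

theorem map_eq_of_stable (act : S →* MulAut K) (N : Subgroup K) (h : ∀ s, ∀ n ∈ N, act s n ∈ N) (s : S) :
    N.map (act s : K →* K) = N := by
  apply le_antisymm
  · rintro _ ⟨n, hn, rfl⟩
    exact h s n hn
  · intro n hn
    refine ⟨act s⁻¹ n, h s⁻¹ n hn, ?_⟩
    show act s (act s⁻¹ n) = n
    rw [← MulAut.mul_apply, ← map_mul, mul_inv_cancel, map_one]; rfl

/-- The action on the quotient by a stable normal subgroup. -/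
def quotAct (act : S →* MulAut K) (N : Subgroup K) [N.Normal] (h : ∀ s, ∀ n ∈ N, act s n ∈ N) :
    S →* MulAut (K ⧸ N) where
  toFun s := QuotientGroup.congr N N (act s) (map_eq_of_stable act N h s)
  map_one' := by
    ext x
    obtain ⟨k, rfl⟩ := QuotientGroup.mk_surjective x
    show (QuotientGroup.mk (act 1 k) : K ⧸ N) = QuotientGroup.mk k
    rw [map_one]; rfl
  map_mul' s t := by
    ext x
    obtain ⟨k, rfl⟩ := QuotientGroup.mk_surjective x
    show (QuotientGroup.mk (act (s * t) k) : K ⧸ N) = QuotientGroup.mk (act s (act t k))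
    rw [map_mul]; rfl

theorem quotAct_mk (act : S →* MulAut K) (N : Subgroup K) [N.Normal] (h : ∀ s, ∀ n ∈ N, act s n ∈ N)
    (s : S) (k : K) : quotAct act N h s (QuotientGroup.mk k) = QuotientGroup.mk (act s k) := rfl

theorem act_inv_act (act : S →* MulAut K) (s : S) (k : K) : act s⁻¹ (act s k) = k := by
  rw [← MulAut.mul_apply, ← map_mul, inv_mul_cancel, map_one]; rfl

theorem act_act_inv (act : S →* MulAut K) (s : S) (k : K) : act s (act s⁻¹ k) = k := by
  rw [← MulAut.mul_apply, ← map_mul, mul_inv_cancel, map_one]; rfl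

end Actions

/-- The setting. -/
structure Setup {K : Type u} [Group K] {S : Type v} [Group S] (p : ℕ) (act : S →* MulAut K)
    (Q C : Subgroup K) [Q.Normal] : Prop where
  hp : p.Prime
  hS : IsPGroup p S
  hQ : IsPGroup p Q
  hidx : ¬ p ∣ Q.index
  hact : ∀ s, ∀ q ∈ Q, act s q ∈ Q
  hC : ∀ k, k ∈ C ↔ ∀ s, act s k * k⁻¹ ∈ Q

section
variable {K : Type u} [Group K] {S : Type v} [Group S] {p : ℕ} {act : S →* MulAut K} {Q C : Subgroup K}
  [Q.Normal]

/-- The normal Sylow subgroup is stable. -/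
theorem stable_of_sylow [Finite K] (hp : p.Prime) (hQ : IsPGroup p Q) (hidx : ¬ p ∣ Q.index) (σ : MulAut K)
    {q : K} (hq : q ∈ Q) : σ q ∈ Q := by
  have hfp : Fact p.Prime := ⟨hp⟩
  obtain ⟨k, hk⟩ := IsPGroup.iff_orderOf.1 hQ ⟨q, hq⟩
  rw [Subgroup.orderOf_mk] at hk
  have h1 : orderOf (QuotientGroup.mk' Q (σ q)) ∣ p ^ k := by
    rw [← hk, ← MulEquiv.orderOf_eq σ q]
    exact orderOf_map_dvd _ _
  have h2 : orderOf (QuotientGroup.mk' Q (σ q)) ∣ Q.index := by
    rw [Subgroup.index]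
    exact orderOf_dvd_natCard _
  have h3 : Nat.Coprime (p ^ k) Q.index := Nat.Coprime.pow_left k ((Nat.Prime.coprime_iff_not_dvd hp).2 hidx)
  have h4 := Nat.eq_one_of_dvd_coprimes h3 h1 h2
  rw [orderOf_eq_one_iff] at h4
  exact (QuotientGroup.eq_one_iff _).1 h4

theorem Setup.act_mem_C (D : Setup p act Q C) (s : S) {k : K} (hk : k ∈ C) : act s k ∈ C := by
  rw [D.hC] at hk ⊢
  intro t
  have h1 : act t (act s k) = act (t * s) k := by rw [map_mul]; rfl
  have h2 := hk (t * s)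
  have h3 := hk s
  rw [h1]
  have h4 : act (t * s) k * (act s k)⁻¹ = (act (t * s) k * k⁻¹) * (act s k * k⁻¹)⁻¹ := by group
  rw [h4]
  exact Q.mul_mem h2 (Q.inv_mem h3)

theorem Setup.Q_le_C (D : Setup p act Q C) : Q ≤ C := by
  intro q hq
  rw [D.hC]
  intro s
  exact Q.mul_mem (D.hact s q hq) (Q.inv_mem hq)

/-- The twist of a function on `Q` by the action. -/
def tq (D : Setup p act Q C) (s : S) (θ : Q → ℂ) : Q → ℂ := fun q => θ ⟨act s q, D.hact s q q.2⟩

theorem tq_apply (D : Setup p act Q C) (s : S) (θ : Q → ℂ) (q : Q) :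
    tq D s θ q = θ ⟨act s q, D.hact s q q.2⟩ := rfl

theorem tq_eq (D : Setup p act Q C) (s : S) (θ : Q → ℂ) :
    tq D s θ = fun q => θ (subAct act Q D.hact s q) := rfl

theorem tq_irr (D : Setup p act Q C) (s : S) {θ : Q → ℂ} (hθ : IsIrrCharacter Q θ) :
    IsIrrCharacter Q (tq D s θ) := by
  rw [tq_eq]
  exact (isIrrCharacter_comp_mulEquiv_iff (subAct act Q D.hact s)).2 hθ

theorem tq_cj (D : Setup p act Q C) (s : S) (k : K) (θ : Q → ℂ) :
    tq D s (cj Q k θ) = cj Q (act s⁻¹ k) (tq D s θ) := by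
  funext q
  rw [tq_apply, cj_apply, cj_apply, tq_apply]
  congr 1
  apply Subtype.ext
  show k * act s q * k⁻¹ = act s (act s⁻¹ k * q * (act s⁻¹ k)⁻¹)
  rw [map_mul (act s), map_mul (act s), map_inv (act s), act_act_inv]

theorem tq_mul (D : Setup p act Q C) (s t : S) (θ : Q → ℂ) : tq D (s * t) θ = tq D t (tq D s θ) := by
  funext q
  rw [tq_apply, tq_apply, tq_apply]
  congr 1
  apply Subtype.ext
  show act (s * t) (q : K) = act s (act t q)
  rw [map_mul]; rfl

theorem tq_one (D : Setup p act Q C) (θ : Q → ℂ) : tq D 1 θ = θ := by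
  funext q
  rw [tq_apply]
  congr 1
  apply Subtype.ext
  show act 1 (q : K) = q
  rw [map_one]; rfl

theorem classInner_tq (D : Setup p act Q C) [Fintype Q] (s : S) {χ : K → ℂ} (hχ : ∀ k, χ (act s k) = χ k)
    (θ : Q → ℂ) : classInner (fun n : Q => χ n) (tq D s θ) = classInner (fun n : Q => χ n) θ := by
  have h1 : (fun n : Q => χ n) = fun n : Q => (fun m : Q => χ m) (subAct act Q D.hact s n) := by
    funext n
    exact (hχ n).symm
  rw [tq_eq]
  conv_lhs => rw [h1]
  exact classInner_comp_equiv (subAct act Q D.hact s) (fun m : Q => χ m) θ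

end

section
variable {K : Type u} [Group K] [Fintype K] {S : Type v} [Group S] [Finite S] {p : ℕ} {act : S →* MulAut K}
  {Q C : Subgroup K} [Q.Normal]

/-- An invariant character of `K` lies over an invariant character of `Q`. -/
theorem exists_fixed (D : Setup p act Q C) [Fintype Q] {χ : K → ℂ} (hχ : IsIrrCharacter K χ)
    (hinv : ∀ s k, χ (act s k) = χ k) :
    ∃ θ : Q → ℂ, IsIrrCharacter Q θ ∧ (∀ s, tq D s θ = θ) ∧ classInner (fun n : Q => χ n) θ ≠ 0 := by
  classical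
  have hfp : Fact p.Prime := ⟨D.hp⟩
  have h0 : (fun n : Q => χ n) ≠ 0 := by
    intro h
    exact hχ.one_ne_zero (congrFun h 1)
  obtain ⟨θ0, hθ0⟩ := Clifford.exists_constituent (hχ.isCharacter.restrict Q) h0
  set Ω : Set (IrrCharacter Q) := {θ | classInner (fun n : Q => χ n) (θ : Q → ℂ) ≠ 0} with hΩ
  have hcard : Nat.card Ω = (inertia Q (θ0 : Q → ℂ)).index := by
    rw [Subgroup.index]
    symm
    apply Nat.card_congr
    refine Equiv.ofBijective (Quotient.lift (fun k : K => (⟨⟨cj Q k⁻¹ θ0, isIrrCharacter_cj θ0.2 _⟩, ?_⟩ : Ω)) ?_) ⟨?_, ?_⟩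
    · show classInner (fun n : Q => χ n) (cj Q k⁻¹ θ0) ≠ 0
      rw [classInner_cj_res hχ.isClassFunction]; exact hθ0
    · intro a b hab
      have h1 : a⁻¹ * b ∈ inertia Q (θ0 : Q → ℂ) := QuotientGroup.leftRel_apply.1 hab
      apply Subtype.ext
      apply Subtype.ext
      show cj Q a⁻¹ θ0 = cj Q b⁻¹ θ0
      have h2 : cj Q (a⁻¹ * b) θ0 = θ0 := h1
      have h3 : cj Q b⁻¹ (cj Q (a⁻¹ * b) (θ0 : Q → ℂ)) = cj Q b⁻¹ θ0 := by rw [h2]
      rw [cj_cj] at h3
      rw [← h3]
      congr 1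
      group
    · intro x y hxy
      obtain ⟨a, rfl⟩ := QuotientGroup.mk_surjective x
      obtain ⟨b, rfl⟩ := QuotientGroup.mk_surjective y
      have h1 : cj Q a⁻¹ (θ0 : Q → ℂ) = cj Q b⁻¹ θ0 := congrArg (fun w : Ω => ((w : IrrCharacter Q) : Q → ℂ)) hxy
      apply QuotientGroup.eq.2
      show cj Q (a⁻¹ * b) (θ0 : Q → ℂ) = θ0
      rw [← cj_cj, h1, cj_cj, inv_mul_cancel, cj_one]
    · rintro ⟨θ, hθ⟩
      obtain ⟨g, hg⟩ := exists_cj_eq hχ θ0.2 θ.2 hθ0 hθ
      refine ⟨QuotientGroup.mk g⁻¹, ?_⟩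
      apply Subtype.ext
      apply Subtype.ext
      show cj Q (g⁻¹)⁻¹ (θ0 : Q → ℂ) = θ
      rw [inv_inv, hg]
  have hnd : ¬ p ∣ Nat.card Ω := by
    rw [hcard]
    intro h
    exact D.hidx (h.trans (Subgroup.index_dvd_of_le (le_inertia θ0.2.isClassFunction)))
  let act' : MulAction S Ω :=
    { smul := fun s θ => ⟨⟨tq D s⁻¹ (θ : IrrCharacter Q), tq_irr D s⁻¹ (θ : IrrCharacter Q).2⟩, by
        show classInner (fun n : Q => χ n) (tq D s⁻¹ (θ : IrrCharacter Q)) ≠ 0
        rw [classInner_tq D s⁻¹ (hinv s⁻¹)]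
        exact θ.2⟩
      one_smul := fun θ => by
        apply Subtype.ext
        apply Subtype.ext
        show tq D 1⁻¹ ((θ : IrrCharacter Q) : Q → ℂ) = _
        rw [inv_one, tq_one]
      mul_smul := fun s t θ => by
        apply Subtype.ext
        apply Subtype.ext
        show tq D (s * t)⁻¹ ((θ : IrrCharacter Q) : Q → ℂ) = tq D s⁻¹ (tq D t⁻¹ _)
        rw [mul_inv_rev, tq_mul] }
  obtain ⟨⟨θ, hθ⟩, hfix⟩ := D.hS.nonempty_fixed_point_of_prime_not_dvd_card Ω hnd
  refine ⟨θ, θ.2, fun s => ?_, hθ⟩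
  have h1 := hfix s⁻¹
  have h2 : tq D (s⁻¹)⁻¹ (θ : Q → ℂ) = θ := congrArg (fun w : Ω => ((w : IrrCharacter Q) : Q → ℂ)) h1
  rwa [inv_inv] at h2

/-- Two invariant conjugate characters of `Q` are conjugate under `C`. -/
theorem exists_conj_C (D : Setup p act Q C) {θ φ : Q → ℂ} (hθ : IsClassFunction Q θ)
    (hθf : ∀ s, tq D s θ = θ) (hφf : ∀ s, tq D s φ = φ) {k : K} (hk : φ = cj Q k θ) :
    ∃ c ∈ C, φ = cj Q c θ := by
  classical
  have hfp : Fact p.Prime := ⟨D.hp⟩
  have hcj : ∀ (a b : K), (QuotientGroup.mk a : K ⧸ Q) = QuotientGroup.mk b → cj Q a θ = cj Q b θ := by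
    intro a b h
    have h1 : a⁻¹ * b ∈ Q := QuotientGroup.eq.1 h
    have h2 : b = (a * (a⁻¹ * b) * a⁻¹) * a := by group
    rw [h2, cj_mem_mul hθ (‹Q.Normal›.conj_mem _ h1 a)]
  set X : Set (K ⧸ Q) := {x | ∃ a : K, QuotientGroup.mk a = x ∧ cj Q a θ = φ} with hX
  have hcard : Nat.card X = Nat.card ((inertia Q θ).map (QuotientGroup.mk' Q)) := by
    apply Nat.card_congr
    refine
      { toFun := fun x => ⟨x.1 * (QuotientGroup.mk k)⁻¹, ?_⟩
        invFun := fun x => ⟨x.1 * QuotientGroup.mk k, ?_⟩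
        left_inv := fun x => Subtype.ext (by simp)
        right_inv := fun x => Subtype.ext (by simp) }
    · obtain ⟨a, ha, ha'⟩ := x.2
      refine ⟨a * k⁻¹, ?_, ?_⟩
      · show cj Q (a * k⁻¹) θ = θ
        rw [← cj_cj, ha', hk, cj_inv_cj]
      · rw [← ha]; rfl
    · obtain ⟨a, ha, ha'⟩ := x.2
      refine ⟨a * k, ?_, ?_⟩
      · rw [← ha']; rfl
      · rw [← cj_cj, show cj Q a θ = θ from ha, hk]
  have hnd : ¬ p ∣ Nat.card X := by
    rw [hcard]
    intro h
    apply D.hidx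
    rw [Subgroup.index]
    exact h.trans (Subgroup.card_subgroup_dvd_card _)
  let act' : MulAction S X :=
    { smul := fun s x => ⟨quotAct act Q D.hact s x.1, by
        obtain ⟨a, ha, ha'⟩ := x.2
        refine ⟨act s a, ?_, ?_⟩
        · rw [← ha, quotAct_mk]
        · have h1 := tq_cj D s⁻¹ a θ
          rw [ha', hφf, hθf, inv_inv] at h1
          exact h1.symm⟩
      one_smul := fun x => Subtype.ext (by
        show quotAct act Q D.hact 1 x.1 = x.1
        rw [map_one]; rfl)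
      mul_smul := fun s t x => Subtype.ext (by
        show quotAct act Q D.hact (s * t) x.1 = quotAct act Q D.hact s (quotAct act Q D.hact t x.1)
        rw [map_mul]; rfl) }
  obtain ⟨⟨x, hx⟩, hfix⟩ := D.hS.nonempty_fixed_point_of_prime_not_dvd_card X hnd
  obtain ⟨a, ha, ha'⟩ := hx
  refine ⟨a, ?_, ha'.symm⟩
  rw [D.hC]
  intro s
  have h1 : quotAct act Q D.hact s x = x := congrArg Subtype.val (hfix s)
  rw [← ha, quotAct_mk, eq_comm, QuotientGroup.eq] at h1
  have h2 := ‹Q.Normal›.conj_mem _ h1 a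
  have h3 : a * (a⁻¹ * act s a) * a⁻¹ = act s a * a⁻¹ := by group
  rwa [h3] at h2

end

end Cfsg.Agent.Lib.RelGlaub
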