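import Mathlib
import Cfsg.Agent.Lib.RelGlaub
import Cfsg.Agent.Lib.H76Ext

/-! Relative Glauberman correspondence, continued: the Clifford–Gallagher data for `K` and `C`. -/

set_option autoImplicit false
set_option maxHeartbeats 400000

namespace Cfsg.Agent.Lib.RelGlaub

open Cfsg Cfsg.Agent.Lib.CharBasic Cfsg.Agent.Lib.Clifford Cfsg.Agent.Lib.CliffordCorr
open Cfsg.Agent.Lib.CanonExt Cfsg.Agent.Lib.CGData
open scoped ComplexConjugate

universe u v

section
variable {K : Type u} [Group K] {S : Type v} [Group S] {p : ℕ} {act : S →* MulAut K} {Q C : Subgroup K}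
  [Q.Normal]

theorem inertia_stable (D : Setup p act Q C) {θ : Q → ℂ} (hfix : ∀ s, tq D s θ = θ) (s : S) :
    ∀ t ∈ inertia Q θ, act s t ∈ inertia Q θ := by
  intro t ht
  show cj Q (act s t) θ = θ
  have h1 := tq_cj D s⁻¹ t θ
  rw [show cj Q t θ = θ from ht, hfix, inv_inv] at h1
  exact h1.symm

theorem index_subgroupOf_dvd {T : Subgroup K} (h : Q ≤ T) : (Q.subgroupOf T).index ∣ Q.index := by
  have h1 := Subgroup.relIndex_mul_index h
  exact ⟨T.index, h1.symm⟩

/-- The canonical extension of an invariant character of `Q` to its inertia group is invariant. -/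
theorem exists_canon [Finite K] (D : Setup p act Q C) {θ : Q → ℂ} (hθ : IsIrrCharacter Q θ)
    (hfix : ∀ s, tq D s θ = θ) :
    ∃ η : inertia Q θ → ℂ, IsIrrCharacter (inertia Q θ) η ∧
      (∀ n : Q, η ⟨n, le_inertia hθ.isClassFunction n.2⟩ = θ n) ∧
      ∀ (s : S) (t : inertia Q θ), η ⟨act s t, inertia_stable D hfix s t t.2⟩ = η t := by
  classical
  have hfp : Fact p.Prime := ⟨D.hp⟩
  set T := inertia Q θ with hT
  have hQT : Q ≤ T := le_inertia hθ.isClassFunction
  set ϑ : Q.subgroupOf T → ℂ := fun x => θ (subEquiv Q T hQT x) with hϑdef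
  have hϑ : IsIrrCharacter (Q.subgroupOf T) ϑ :=
    (isIrrCharacter_comp_mulEquiv_iff (subEquiv Q T hQT)).mpr hθ
  have hinv : ∀ g : T, cj (Q.subgroupOf T) g ϑ = ϑ := by
    intro g
    funext n
    have h1 := (mem_inertia' (N := Q) (θ := θ) (g := (g : K))).1 g.2 (subEquiv Q T hQT n)
    rw [cj_apply]
    exact h1
  obtain ⟨d, hd0, hd⟩ := hϑ.exists_degree
  obtain ⟨a, ha⟩ := IsPGroup.iff_card.1 D.hQ
  have hcardN : Nat.card (Q.subgroupOf T) = p ^ a := by
    rw [← ha]; exact Nat.card_congr (subEquiv Q T hQT).toEquiv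
  have hcopN : Nat.Coprime (Q.subgroupOf T).index (Nat.card (Q.subgroupOf T)) := by
    rw [hcardN]
    apply Nat.Coprime.pow_right
    apply Nat.Coprime.symm
    rw [Nat.Prime.coprime_iff_not_dvd D.hp]
    exact fun h => D.hidx (h.trans (index_subgroupOf_dvd hQT))
  have hcop : Nat.Coprime (Q.subgroupOf T).index (detOrder ϑ * d) := by
    apply Nat.Coprime.mul_right
    · exact hcopN.coprime_dvd_right (H76Ext.detOrder_dvd_card hϑ.isCharacter)
    · exact hcopN.coprime_dvd_right (CharApps.irr_degree_dvd_card hϑ hd)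
  obtain ⟨η, ⟨hη, hext, hdet⟩, huniq⟩ := canonical_extension hϑ hinv hd hcop
  refine ⟨η, hη, ?_, ?_⟩
  · intro n
    have h1 := hext ⟨⟨n, hQT n.2⟩, n.2⟩
    rw [h1]
    rfl
  · intro s t
    set σ := subAct act T (fun s t ht => inertia_stable D hfix s t ht) s with hσ
    have h1 : IsIrrCharacter T (fun t => η (σ t)) := (isIrrCharacter_comp_mulEquiv_iff σ).2 hη
    have h2 : ∀ n : Q.subgroupOf T, η (σ n) = ϑ n := by
      intro n
      have h3 : σ (n : T) = ((⟨⟨act s (n : T), inertia_stable D hfix s _ (n : T).2⟩,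
        D.hact s _ n.2⟩ : Q.subgroupOf T) : T) := Subtype.ext rfl
      rw [h3, hext]
      have h4 := congrFun (hfix s) (subEquiv Q T hQT n)
      exact h4
    have h3 : Nat.Coprime (Q.subgroupOf T).index (detOrder (fun t => η (σ t))) := by
      have h4 : detOrder (fun t => η (σ t)) ∣ detOrder η := by
        obtain ⟨δ, hδ⟩ := DetChar.exists_detHom hη.isCharacter
        have h5 : detChar (fun t => η (σ t)) = fun t => (δ (σ t) : ℂ) := by
          funext t
          rw [← hδ]
          exact DetChar.detChar_comp hη.isCharacter σ.toMonoidHom t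
        unfold detOrder
        apply orderOf_dvd_of_pow_eq_one
        funext t
        have h6 := congrFun (pow_orderOf_eq_one (detChar η)) (σ t)
        rw [Pi.pow_apply, hδ] at h6
        rw [h5, Pi.pow_apply]
        exact h6
      rw [hdet] at h4
      exact (Nat.Coprime.coprime_mul_right_right hcop).coprime_dvd_right h4
    have h4 := huniq _ h1 h2 h3
    exact congrFun h4 t

end

section
variable {K : Type u} [Group K] {S : Type v} [Group S] {p : ℕ} {act : S →* MulAut K}
  {Q C : Subgroup K} [Q.Normal]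

/-- Inertia group. -/
abbrev TT (θ : Q → ℂ) : Subgroup K := inertia Q θ

/-- The quotient `T/Q`. -/
abbrev BB (θ : Q → ℂ) : Type u := TT θ ⧸ (Q.subgroupOf (TT θ))

def piK (θ : Q → ℂ) : TT θ →* BB θ := QuotientGroup.mk' _

theorem stable_subgroupOf (D : Setup p act Q C) {θ : Q → ℂ} (hfix : ∀ s, tq D s θ = θ) (s : S) :
    ∀ n ∈ Q.subgroupOf (TT θ), subAct act (TT θ) (inertia_stable D hfix) s n ∈ Q.subgroupOf (TT θ) :=
  fun n hn => D.hact s n hn

/-- The action on `T/Q`. -/
def actB (D : Setup p act Q C) {θ : Q → ℂ} (hfix : ∀ s, tq D s θ = θ) : S →* MulAut (BB θ) :=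
  quotAct (subAct act (TT θ) (inertia_stable D hfix)) (Q.subgroupOf (TT θ)) (stable_subgroupOf D hfix)

theorem actB_pi (D : Setup p act Q C) {θ : Q → ℂ} (hfix : ∀ s, tq D s θ = θ) (s : S) (t : TT θ) :
    actB D hfix s (piK θ t) = piK θ ⟨act s t, inertia_stable D hfix s t t.2⟩ := rfl

/-- The fixed points. -/
def FF (D : Setup p act Q C) {θ : Q → ℂ} (hfix : ∀ s, tq D s θ = θ) : Subgroup (BB θ) where
  carrier := {b | ∀ s, actB D hfix s b = b}
  one_mem' := fun s => map_one _
  mul_mem' := by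
    intro a b ha hb s
    rw [map_mul, ha s, hb s]
  inv_mem' := by
    intro a ha s
    rw [map_inv, ha s]

theorem CGK (D : Setup p act Q C) {θ : Q → ℂ} (hθ : IsIrrCharacter Q θ) {η : TT θ → ℂ}
    (hη : IsIrrCharacter (TT θ) η) (hext : ∀ n : Q, η ⟨n, le_inertia hθ.isClassFunction n.2⟩ = θ n) :
    CG Q (TT θ) θ η (piK θ) where
  hNT := le_inertia hθ.isClassFunction
  hθ := hθ
  hT := fun g => Iff.rfl
  hη := hη
  hext := hext
  hπ := QuotientGroup.mk'_surjective _
  hker := fun t => by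
    show (QuotientGroup.mk t : BB θ) = 1 ↔ _
    rw [QuotientGroup.eq_one_iff]
    rfl

theorem glaubData [Finite K] [Finite S] {M : Ideal AlgInt} (hM : IsPModular p M) (D : Setup p act Q C) {θ : Q → ℂ}
    (hθ : IsIrrCharacter Q θ) (hfix : ∀ s, tq D s θ = θ) :
    GlaubCorr.Data p M (actB D hfix) (FF D hfix).subtype where
  hM := hM
  hS := D.hS
  hpG := fun h => D.hidx (h.trans (index_subgroupOf_dvd (le_inertia hθ.isClassFunction)))
  hι := Subgroup.subtype_injective _
  hfix := fun g => ⟨fun ⟨c, hc⟩ s => by rw [← hc]; exact c.2 s, fun h => ⟨⟨g, h⟩, rfl⟩⟩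

/-- The isomorphism `Q ∩ C ≅ Q`. -/
noncomputable def jN (D : Setup p act Q C) : Q.subgroupOf C ≃* Q := subEquiv Q C D.Q_le_C

/-- The restriction of `θ`. -/
noncomputable def th' (D : Setup p act Q C) (θ : Q → ℂ) : Q.subgroupOf C → ℂ := fun n => θ (jN D n)

/-- `T ∩ C → T`. -/
def jT (θ : Q → ℂ) : (TT θ).subgroupOf C →* TT θ where
  toFun t := ⟨(t : C), t.2⟩
  map_one' := rfl
  map_mul' _ _ := rfl

def et' (θ : Q → ℂ) (η : TT θ → ℂ) : (TT θ).subgroupOf C → ℂ := fun t => η (jT θ t)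

theorem pi_mem (D : Setup p act Q C) {θ : Q → ℂ} (hfix : ∀ s, tq D s θ = θ) (t : (TT θ).subgroupOf C) :
    piK θ (jT θ t) ∈ FF D hfix := by
  intro s
  rw [actB_pi]
  show (QuotientGroup.mk (⟨act s ((t : C) : K), _⟩ : TT θ) : BB θ) = QuotientGroup.mk (jT θ t)
  rw [eq_comm, QuotientGroup.eq]
  show (((t : C) : K))⁻¹ * act s ((t : C) : K) ∈ Q
  have h1 := (D.hC _).1 (t : C).2 s
  have h2 := ‹Q.Normal›.conj_mem _ h1 ((t : C) : K)⁻¹
  have h3 : ((t : C) : K)⁻¹ * (act s ((t : C) : K) * ((t : C) : K)⁻¹) * (((t : C) : K)⁻¹)⁻¹ =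
    ((t : C) : K)⁻¹ * act s ((t : C) : K) := by group
  rwa [h3] at h2

def piC (D : Setup p act Q C) {θ : Q → ℂ} (hfix : ∀ s, tq D s θ = θ) : (TT θ).subgroupOf C →* FF D hfix :=
  ((piK θ).comp (jT θ)).codRestrict (FF D hfix) (pi_mem D hfix)

theorem CGC [Finite K] (D : Setup p act Q C) {θ : Q → ℂ} (hθ : IsIrrCharacter Q θ)
    (hfix : ∀ s, tq D s θ = θ) {η : TT θ → ℂ}
    (hη : IsIrrCharacter (TT θ) η) (hext : ∀ n : Q, η ⟨n, le_inertia hθ.isClassFunction n.2⟩ = θ n) :
    CG (Q.subgroupOf C) ((TT θ).subgroupOf C) (th' D θ) (et' θ η) (piC D hfix) where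
  hNT := fun x hx => le_inertia hθ.isClassFunction hx
  hθ := (isIrrCharacter_comp_mulEquiv_iff (jN D)).2 hθ
  hT := fun g => by
    rw [Subgroup.mem_subgroupOf]
    constructor
    · intro h
      funext n
      have h1 := (mem_inertia' (N := Q) (θ := θ)).1 h (jN D n)
      rw [cj_apply]
      exact h1
    · intro h
      rw [mem_inertia']
      intro n
      have h1 := congrFun h ((jN D).symm n)
      rw [cj_apply] at h1
      have h2 : th' D θ ((jN D).symm n) = θ n := by
        show θ (jN D ((jN D).symm n)) = θ n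
        rw [MulEquiv.apply_symm_apply]
      rw [h2] at h1
      rw [← h1]
      show _ = θ _
      congr 1
  hη := by
    have h1 : (Q.subgroupOf C) ≤ (TT θ).subgroupOf C := fun x hx => le_inertia hθ.isClassFunction hx
    have h2 : IsCharacter ((TT θ).subgroupOf C) (et' (C := C) θ η) := hη.isCharacter.comp (jT θ)
    apply h2.isIrr_of_comp (Subgroup.inclusion h1)
    have h3 : (fun n : Q.subgroupOf C => et' (C := C) θ η (Subgroup.inclusion h1 n)) = th' D θ := by
      funext n
      exact hext (jN D n)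
    rw [h3]
    exact (isIrrCharacter_comp_mulEquiv_iff (jN D)).2 hθ
  hext := fun n => hext (jN D n)
  hπ := by
    rintro ⟨f, hf⟩
    obtain ⟨t, rfl⟩ := QuotientGroup.mk_surjective f
    have htC : (t : K) ∈ C := by
      rw [D.hC]
      intro s
      have h1 := hf s
      have h2 : (QuotientGroup.mk (⟨act s t, inertia_stable D hfix s t t.2⟩ : TT θ) : BB θ) = QuotientGroup.mk t := h1
      rw [eq_comm, QuotientGroup.eq] at h2
      have h3 : (t : K)⁻¹ * act s t ∈ Q := h2
      have h4 := ‹Q.Normal›.conj_mem _ h3 t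
      have h5 : (t : K) * ((t : K)⁻¹ * act s t) * (t : K)⁻¹ = act s t * (t : K)⁻¹ := by group
      rwa [h5] at h4
    exact ⟨⟨⟨t, htC⟩, t.2⟩, rfl⟩
  hker := fun t => by
    have h1 : piC D hfix t = 1 ↔ (QuotientGroup.mk (jT θ t) : BB θ) = 1 := by
      rw [Subtype.ext_iff]; rfl
    rw [h1, QuotientGroup.eq_one_iff]
    rfl

end

end Cfsg.Agent.Lib.RelGlaub
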