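import Mathlib
import Cfsg.Agent.Lib.RelGlaub2
import Cfsg.Agent.Lib.H76Char
import Cfsg.Agent.Lib.BlockDeg

/-! Relative Glauberman correspondence: the main statements. -/

set_option autoImplicit false
set_option maxHeartbeats 400000

namespace Cfsg.Agent.Lib.RelGlaub

open Cfsg Cfsg.Agent.Lib.CharBasic Cfsg.Agent.Lib.Clifford Cfsg.Agent.Lib.CliffordCorr
open Cfsg.Agent.Lib.CanonExt Cfsg.Agent.Lib.CGData
open scoped ComplexConjugate

universe u v

section
variable {K : Type u} [Group K] [Fintype K] {S : Type v} [Group S] [Finite S] {p : ℕ} {act : S →* MulAut K}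
  {Q C : Subgroup K} [Q.Normal]

def InvK (act : S →* MulAut K) (χ : K → ℂ) : Prop := ∀ s k, χ (act s k) = χ k

def InvC (D : Setup p act Q C) (ξ : C → ℂ) : Prop := ∀ s (c : C), ξ ⟨act s c, D.act_mem_C s c.2⟩ = ξ c

/-- The invariant extension. -/
noncomputable def eta (D : Setup p act Q C) {θ : Q → ℂ} (hθ : IsIrrCharacter Q θ) (hfix : ∀ s, tq D s θ = θ) :
    TT θ → ℂ := (exists_canon D hθ hfix).choose

theorem eta_irr (D : Setup p act Q C) {θ : Q → ℂ} (hθ : IsIrrCharacter Q θ) (hfix : ∀ s, tq D s θ = θ) :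
    IsIrrCharacter (TT θ) (eta D hθ hfix) := (exists_canon D hθ hfix).choose_spec.1

theorem eta_ext (D : Setup p act Q C) {θ : Q → ℂ} (hθ : IsIrrCharacter Q θ) (hfix : ∀ s, tq D s θ = θ) :
    ∀ n : Q, eta D hθ hfix ⟨n, le_inertia hθ.isClassFunction n.2⟩ = θ n :=
  (exists_canon D hθ hfix).choose_spec.2.1

theorem eta_inv (D : Setup p act Q C) {θ : Q → ℂ} (hθ : IsIrrCharacter Q θ) (hfix : ∀ s, tq D s θ = θ) :
    ∀ (s : S) (t : TT θ), eta D hθ hfix ⟨act s t, inertia_stable D hfix s t t.2⟩ = eta D hθ hfix t :=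
  (exists_canon D hθ hfix).choose_spec.2.2

theorem mem_iff_stable (D : Setup p act Q C) {θ : Q → ℂ} (hfix : ∀ s, tq D s θ = θ) (s : S) (t : K) :
    t ∈ TT θ ↔ act s t ∈ TT θ := by
  refine ⟨fun h => inertia_stable D hfix s t h, fun h => ?_⟩
  have := inertia_stable D hfix s⁻¹ _ h
  rwa [act_inv_act] at this

/-- `Φ(β)` composed with the action. -/
theorem phiK_comp (D : Setup p act Q C) {θ : Q → ℂ} (hθ : IsIrrCharacter Q θ) (hfix : ∀ s, tq D s θ = θ)
    (s : S) (β : BB θ → ℂ) :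
    (fun x => phi (eta D hθ hfix) (piK θ) β (act s x)) =
      phi (eta D hθ hfix) (piK θ) (fun b => β (actB D hfix s b)) :=
  phi_comp (act s) (mem_iff_stable D hfix s) (τ := fun b => actB D hfix s b)
    (fun t => eta_inv D hθ hfix s t) (fun _ => rfl) β

theorem phiC_comp (D : Setup p act Q C) [Fintype C] {θ : Q → ℂ} (hθ : IsIrrCharacter Q θ) (hfix : ∀ s, tq D s θ = θ)
    (κ : FF D hfix → ℂ) :
    InvC D (phi (et' θ (eta D hθ hfix)) (piC D hfix) κ) := by
  intro s c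
  have h1 : ∀ t : C, t ∈ (TT θ).subgroupOf C ↔ subAct act C (fun s _ h => D.act_mem_C s h) s t ∈ (TT θ).subgroupOf C := by
    intro t
    rw [Subgroup.mem_subgroupOf, Subgroup.mem_subgroupOf]
    exact mem_iff_stable D hfix s t
  have h2 := phi_comp (T := (TT θ).subgroupOf C) (η := et' θ (eta D hθ hfix)) (π := piC D hfix)
    (subAct act C (fun s _ h => D.act_mem_C s h) s) h1
    (τ := fun b => b)
    (fun t => eta_inv D hθ hfix s (jT θ t))
    (fun t => by
      apply Subtype.ext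
      exact (piC D hfix t).2 s) κ
  exact congrFun h2 c

theorem P1 (D : Setup p act Q C) [Fintype Q] {θ : Q → ℂ} (hθ : IsIrrCharacter Q θ) (hfix : ∀ s, tq D s θ = θ)
    {χ : K → ℂ} (hχ : IsIrrCharacter K χ) (hinv : InvK act χ) (h : classInner (fun n : Q => χ n) θ ≠ 0) :
    ∃ β : IrrCharacter (BB θ), GlaubCorr.Inv (actB D hfix) (β : BB θ → ℂ) ∧
      phi (eta D hθ hfix) (piK θ) (β : BB θ → ℂ) = χ := by
  have hD := CGK D hθ (eta_irr D hθ hfix) (eta_ext D hθ hfix)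
  obtain ⟨β, hβ, hβχ⟩ := hD.surj hχ h
  refine ⟨⟨β, hβ⟩, ?_, hβχ⟩
  intro s b
  have h1 := phiK_comp D hθ hfix s β
  rw [hβχ] at h1
  have h2 : (fun x => χ (act s x)) = χ := funext fun x => hinv s x
  rw [h2, ← hβχ] at h1
  have h3 : IsIrrCharacter (BB θ) (fun b => β (actB D hfix s b)) :=
    (isIrrCharacter_comp_mulEquiv_iff (actB D hfix s)).2 hβ
  have h4 := hD.inj hβ h3 h1
  exact (congrFun h4 b).symm

theorem P2 (D : Setup p act Q C) [Fintype C] [Fintype (Q.subgroupOf C)] {θ : Q → ℂ} (hθ : IsIrrCharacter Q θ)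
    (hfix : ∀ s, tq D s θ = θ) {ξ : C → ℂ} (hξ : IsIrrCharacter C ξ)
    (h : classInner (fun n : Q.subgroupOf C => ξ n) (th' D θ) ≠ 0) :
    ∃ κ : IrrCharacter (FF D hfix), phi (et' θ (eta D hθ hfix)) (piC D hfix) (κ : FF D hfix → ℂ) = ξ := by
  have hD := CGC D hθ hfix (eta_irr D hθ hfix) (eta_ext D hθ hfix)
  obtain ⟨κ, hκ, h1⟩ := hD.surj hξ h
  exact ⟨⟨κ, hκ⟩, h1⟩

theorem P3 (D : Setup p act Q C) [Fintype Q] {θ : Q → ℂ} (hθ : IsIrrCharacter Q θ) (hfix : ∀ s, tq D s θ = θ)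
    (β : IrrCharacter (BB θ)) (hβ : GlaubCorr.Inv (actB D hfix) (β : BB θ → ℂ)) :
    IsIrrCharacter K (phi (eta D hθ hfix) (piK θ) (β : BB θ → ℂ)) ∧
      InvK act (phi (eta D hθ hfix) (piK θ) (β : BB θ → ℂ)) := by
  have hD := CGK D hθ (eta_irr D hθ hfix) (eta_ext D hθ hfix)
  refine ⟨(hD.irr β.2).1, fun s k => ?_⟩
  have h1 := phiK_comp D hθ hfix s (β : BB θ → ℂ)
  have h2 : (fun b => (β : BB θ → ℂ) (actB D hfix s b)) = β := funext fun b => hβ s b
  rw [h2] at h1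
  exact congrFun h1 k

theorem P4 (D : Setup p act Q C) [Fintype C] [Fintype (Q.subgroupOf C)] {θ : Q → ℂ} (hθ : IsIrrCharacter Q θ)
    (hfix : ∀ s, tq D s θ = θ) (κ : IrrCharacter (FF D hfix)) :
    IsIrrCharacter C (phi (et' θ (eta D hθ hfix)) (piC D hfix) (κ : FF D hfix → ℂ)) :=
  ((CGC D hθ hfix (eta_irr D hθ hfix) (eta_ext D hθ hfix)).irr κ.2).1

theorem P5 (D : Setup p act Q C) [Fintype C] [Fintype Q] {θ : Q → ℂ} (hθ : IsIrrCharacter Q θ)
    (hfix : ∀ s, tq D s θ = θ) [Fintype (FF D hfix)] (β : IrrCharacter (BB θ)) (κ : IrrCharacter (FF D hfix)) :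
    classInner (fun c : C => phi (eta D hθ hfix) (piK θ) (β : BB θ → ℂ) c)
      (phi (et' θ (eta D hθ hfix)) (piC D hfix) (κ : FF D hfix → ℂ)) =
      (GlaubCorr.mult (FF D hfix).subtype β κ : ℂ) := by
  have := Fintype.ofFinite (Q.subgroupOf C)
  rw [← GlaubCorr.mult_spec]
  exact restrict (CGK D hθ (eta_irr D hθ hfix) (eta_ext D hθ hfix))
    (CGC D hθ hfix (eta_irr D hθ hfix) (eta_ext D hθ hfix)) C.subtype (jN D) (fun _ => rfl) (fun _ => rfl)
    (jT θ) (fun _ => rfl) (fun _ => rfl) (FF D hfix).subtype (fun _ => rfl) β.2 κ.2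

/-- The setup for `C` itself. -/
theorem setupC (D : Setup p act Q C) :
    Setup p (subAct act C (fun s _ h => D.act_mem_C s h)) (Q.subgroupOf C) ⊤ where
  hp := D.hp
  hS := D.hS
  hQ := by
    have : Fact p.Prime := ⟨D.hp⟩
    obtain ⟨a, ha⟩ := IsPGroup.iff_card.1 D.hQ
    rw [IsPGroup.iff_card]
    exact ⟨a, by rw [← ha]; exact Nat.card_congr (jN D).toEquiv⟩
  hidx := fun h => D.hidx (h.trans (index_subgroupOf_dvd D.Q_le_C))
  hact := fun s q hq => D.hact s q hq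
  hC := fun k => ⟨fun _ s => (D.hC k).1 k.2 s, fun _ => trivial⟩

/-- An invariant character of `C` lies over an invariant character of `Q`. -/
theorem exists_fixed_C (D : Setup p act Q C) [Fintype C] [Fintype (Q.subgroupOf C)] {ξ : C → ℂ}
    (hξ : IsIrrCharacter C ξ) (hinv : InvC D ξ) :
    ∃ θ : Q → ℂ, IsIrrCharacter Q θ ∧ (∀ s, tq D s θ = θ) ∧
      classInner (fun n : Q.subgroupOf C => ξ n) (th' D θ) ≠ 0 := by
  obtain ⟨θ', hθ', hfix, h⟩ := exists_fixed (setupC D) hξ (fun s k => hinv s k)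
  refine ⟨fun q => θ' ((jN D).symm q), (isIrrCharacter_comp_mulEquiv_iff (jN D).symm).2 hθ', ?_, ?_⟩
  · intro s
    funext q
    have h1 := congrFun (hfix s) ((jN D).symm q)
    rw [tq_apply] at h1 ⊢
    rw [← h1]
    congr 1
  · have h1 : th' D (fun q => θ' ((jN D).symm q)) = θ' := by
      funext n
      show θ' ((jN D).symm (jN D n)) = θ' n
      rw [MulEquiv.symm_apply_apply]
    rw [h1]; exact h

theorem classInner_th' (D : Setup p act Q C) [Fintype Q] [Fintype (Q.subgroupOf C)] (χ : K → ℂ) (θ : Q → ℂ) :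
    classInner (fun n : Q.subgroupOf C => χ n) (th' D θ) = classInner (fun n : Q => χ n) θ :=
  classInner_comp_equiv (jN D) (fun n : Q => χ n) θ

/-- If `ξ` is a constituent of `χ_C` lying over `θ` then `χ` lies over `θ`. -/
theorem lies_over (D : Setup p act Q C) [Fintype C] [Fintype Q] [Fintype (Q.subgroupOf C)] {χ : K → ℂ}
    (hχ : IsIrrCharacter K χ) {ξ : C → ℂ} (hξ : IsIrrCharacter C ξ)
    (h : classInner (fun c : C => χ c) ξ ≠ 0) {θ : Q → ℂ} (hθ : IsIrrCharacter Q θ)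
    (h1 : classInner (fun n : Q.subgroupOf C => ξ n) (th' D θ) ≠ 0) :
    classInner (fun n : Q => χ n) θ ≠ 0 := by
  obtain ⟨b, hb, hb1⟩ := Clifford.degree_le_of_constituent (hχ.isCharacter.restrict C) hξ h
  have hth : IsIrrCharacter (Q.subgroupOf C) (th' D θ) := (isIrrCharacter_comp_mulEquiv_iff (jN D)).2 hθ
  rw [← classInner_th' D]
  have h2 : (fun n : Q.subgroupOf C => χ n) =
      (fun n : Q.subgroupOf C => ξ n) + fun n : Q.subgroupOf C => b n := by
    funext n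
    exact congrFun hb1 (n : C)
  rw [h2, CharBasic.classInner_add_left]
  obtain ⟨m, hm⟩ := (hξ.isCharacter.restrict (Q.subgroupOf C)).classInner_nat hth.isCharacter
  obtain ⟨n, hn⟩ := (hb.restrict (Q.subgroupOf C)).classInner_nat hth.isCharacter
  rw [hm] at h1
  rw [hm, hn]
  have hm0 : m ≠ 0 := by rintro rfl; simp at h1
  intro h3
  have : m + n = 0 := by exact_mod_cast h3
  omega

/-! ### counting -/

theorem card_FF_modEq (D : Setup p act Q C) {θ : Q → ℂ} (hfix : ∀ s, tq D s θ = θ) :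
    Nat.card (BB θ) ≡ Nat.card (FF D hfix) [MOD p] := by
  have hfp : Fact p.Prime := ⟨D.hp⟩
  let act' : MulAction S (BB θ) := MulAction.compHom (BB θ) (actB D hfix)
  have h1 := D.hS.card_modEq_card_fixedPoints (BB θ)
  exact h1

theorem index_modEq (D : Setup p act Q C) : Q.index ≡ (Q.subgroupOf C).index [MOD p] := by
  have hfp : Fact p.Prime := ⟨D.hp⟩
  let act' : MulAction S (K ⧸ Q) := MulAction.compHom (K ⧸ Q) (quotAct act Q D.hact)
  have h1 := D.hS.card_modEq_card_fixedPoints (K ⧸ Q)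
  have h2 : Nat.card (MulAction.fixedPoints S (K ⧸ Q)) = Nat.card (C.map (QuotientGroup.mk' Q)) := by
    apply Nat.card_congr
    apply Equiv.subtypeEquivRight
    intro x
    constructor
    · intro hx
      obtain ⟨k, rfl⟩ := QuotientGroup.mk_surjective x
      refine ⟨k, ?_, rfl⟩
      show k ∈ C
      rw [D.hC]
      intro s
      have h2 : (QuotientGroup.mk (act s k) : K ⧸ Q) = QuotientGroup.mk k := hx s
      rw [eq_comm, QuotientGroup.eq] at h2
      have h4 := ‹Q.Normal›.conj_mem _ h2 k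
      have h5 : k * (k⁻¹ * act s k) * k⁻¹ = act s k * k⁻¹ := by group
      rwa [h5] at h4
    · rintro ⟨k, hk, rfl⟩ s
      show (QuotientGroup.mk (act s k) : K ⧸ Q) = QuotientGroup.mk k
      rw [eq_comm, QuotientGroup.eq]
      have h4 := ‹Q.Normal›.conj_mem _ ((D.hC k).1 hk s) k⁻¹
      have h5 : k⁻¹ * (act s k * k⁻¹) * k⁻¹⁻¹ = k⁻¹ * act s k := by group
      rwa [h5] at h4
  rw [h2, ← Subgroup.relIndex_ker, QuotientGroup.ker_mk'] at h1
  exact h1

theorem index_T_modEq (D : Setup p act Q C) {θ : Q → ℂ} (hθ : IsIrrCharacter Q θ) (hfix : ∀ s, tq D s θ = θ) :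
    (TT θ).index ≡ ((TT θ).subgroupOf C).index [MOD p] := by
  have hQT : Q ≤ TT θ := le_inertia hθ.isClassFunction
  have h1 : Nat.card (BB θ) * (TT θ).index = Q.index := Subgroup.relIndex_mul_index hQT
  have hD := CGC D hθ hfix (eta_irr D hθ hfix) (eta_ext D hθ hfix)
  have h2 : Nat.card (FF D hfix) * ((TT θ).subgroupOf C).index = (Q.subgroupOf C).index := by
    have hle : Q.subgroupOf C ≤ (TT θ).subgroupOf C := fun x hx => hQT hx
    rw [← Subgroup.relIndex_mul_index hle]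
    congr 1
    have h3 : ((Q.subgroupOf C).subgroupOf ((TT θ).subgroupOf C)) = (piC D hfix).ker := by
      ext t
      rw [MonoidHom.mem_ker, hD.hker]
      rfl
    show _ = ((Q.subgroupOf C).subgroupOf ((TT θ).subgroupOf C)).index
    rw [h3, Subgroup.index_ker, MonoidHom.range_eq_top.2 hD.hπ, Subgroup.card_top]
  have h3 := index_modEq D
  rw [← h1, ← h2] at h3
  have h4 := (card_FF_modEq D hfix).symm.mul_right ((TT θ).subgroupOf C).index
  have h5 := h3.trans h4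
  have hcop : Nat.Coprime p (Nat.card (BB θ)) := by
    rw [Nat.Prime.coprime_iff_not_dvd D.hp]
    intro h
    exact D.hidx (h.trans (h1 ▸ dvd_mul_right _ _))
  exact Nat.ModEq.cancel_left_of_coprime hcop h5

/-! ### The main statements -/

variable {M : Ideal AlgInt}

theorem claimA (hM : IsPModular p M) (D : Setup p act Q C) [Fintype C] (χ : IrrCharacter K)
    (hinv : InvK act (χ : K → ℂ)) :
    ∃ ξ : IrrCharacter C, InvC D (ξ : C → ℂ) ∧ ¬ p ∣ GlaubCorr.mult C.subtype χ ξ := by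
  classical
  have := Fintype.ofFinite Q
  have := Fintype.ofFinite (Q.subgroupOf C)
  obtain ⟨θ, hθ, hfix, hov⟩ := exists_fixed D χ.2 hinv
  obtain ⟨β, hβ, hβχ⟩ := P1 D hθ hfix χ.2 hinv hov
  have := Fintype.ofFinite (FF D hfix)
  obtain ⟨κ, hκ⟩ := GlaubCorr.exists_beta (glaubData hM D hθ hfix) β
  refine ⟨⟨_, P4 D hθ hfix κ⟩, phiC_comp D hθ hfix κ, ?_⟩
  have h1 : GlaubCorr.mult C.subtype χ ⟨_, P4 D hθ hfix κ⟩ = GlaubCorr.mult (FF D hfix).subtype β κ := by
    apply GlaubCorr.mult_eq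
    rw [← P5 D hθ hfix β κ, hβχ]
    rfl
  rw [h1]; exact hκ

theorem claimC (hM : IsPModular p M) (D : Setup p act Q C) [Fintype C] (ξ : IrrCharacter C)
    (hinv : InvC D (ξ : C → ℂ)) :
    ∃ χ : IrrCharacter K, InvK act (χ : K → ℂ) ∧ ¬ p ∣ GlaubCorr.mult C.subtype χ ξ := by
  classical
  have := Fintype.ofFinite Q
  have := Fintype.ofFinite (Q.subgroupOf C)
  obtain ⟨θ, hθ, hfix, hov⟩ := exists_fixed_C D ξ.2 hinv
  obtain ⟨κ, hκξ⟩ := P2 D hθ hfix ξ.2 hov
  have := Fintype.ofFinite (FF D hfix)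
  obtain ⟨β, hβ, hm⟩ := GlaubCorr.exists_chi (glaubData hM D hθ hfix) κ
  obtain ⟨h1, h2⟩ := P3 D hθ hfix β hβ
  refine ⟨⟨_, h1⟩, h2, ?_⟩
  have h1 : GlaubCorr.mult C.subtype ⟨_, h1⟩ ξ = GlaubCorr.mult (FF D hfix).subtype β κ := by
    apply GlaubCorr.mult_eq
    rw [← P5 D hθ hfix β κ, hκξ]
    rfl
  rw [h1]; exact hm

theorem inner_ne_zero {χ : IrrCharacter K} {ξ : IrrCharacter C} [Fintype C] (h : ¬ p ∣ GlaubCorr.mult C.subtype χ ξ) :
    classInner (fun c : C => (χ : K → ℂ) c) (ξ : C → ℂ) ≠ 0 := by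
  intro h0
  have h1 := GlaubCorr.mult_spec C.subtype χ ξ
  have h2 : classInner (fun c : C => (χ : K → ℂ) (C.subtype c)) (ξ : C → ℂ) = 0 := h0
  rw [h2] at h1
  have h3 : GlaubCorr.mult C.subtype χ ξ = 0 := by exact_mod_cast h1.symm
  rw [h3] at h
  exact h (dvd_zero p)

/-- Parametrization of a pair with multiplicity prime to `p`. -/
theorem param (D : Setup p act Q C) [Fintype C] [Fintype Q] [Fintype (Q.subgroupOf C)] {χ : IrrCharacter K}
    (hinv : InvK act (χ : K → ℂ)) {ξ : IrrCharacter C} (h : ¬ p ∣ GlaubCorr.mult C.subtype χ ξ) {θ : Q → ℂ}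
    (hθ : IsIrrCharacter Q θ) (hfix : ∀ s, tq D s θ = θ) [Fintype (FF D hfix)]
    (hov : classInner (fun n : Q.subgroupOf C => (ξ : C → ℂ) n) (th' D θ) ≠ 0) :
    ∃ (β : IrrCharacter (BB θ)) (κ : IrrCharacter (FF D hfix)), GlaubCorr.Inv (actB D hfix) (β : BB θ → ℂ) ∧
      phi (eta D hθ hfix) (piK θ) (β : BB θ → ℂ) = χ ∧
      phi (et' θ (eta D hθ hfix)) (piC D hfix) (κ : FF D hfix → ℂ) = ξ ∧
      GlaubCorr.mult C.subtype χ ξ = GlaubCorr.mult (FF D hfix).subtype β κ := by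
  have h1 := lies_over D χ.2 ξ.2 (inner_ne_zero h) hθ hov
  obtain ⟨β, hβ, hβχ⟩ := P1 D hθ hfix χ.2 hinv h1
  obtain ⟨κ, hκξ⟩ := P2 D hθ hfix ξ.2 hov
  refine ⟨β, κ, hβ, hβχ, hκξ, ?_⟩
  apply GlaubCorr.mult_eq
  rw [← P5 D hθ hfix β κ, hβχ, hκξ]
  rfl

theorem claimD (hM : IsPModular p M) (D : Setup p act Q C) [Fintype C] {ξ : IrrCharacter C}
    (hinvξ : InvC D (ξ : C → ℂ)) {χ χ' : IrrCharacter K}
    (hinv : InvK act (χ : K → ℂ)) (hinv' : InvK act (χ' : K → ℂ)) (h : ¬ p ∣ GlaubCorr.mult C.subtype χ ξ)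
    (h' : ¬ p ∣ GlaubCorr.mult C.subtype χ' ξ) : χ = χ' := by
  classical
  have := Fintype.ofFinite Q
  have := Fintype.ofFinite (Q.subgroupOf C)
  obtain ⟨θ, hθ, hfix, hov⟩ := exists_fixed_C D ξ.2 hinvξ
  have := Fintype.ofFinite (FF D hfix)
  obtain ⟨β, κ, hβ, hβχ, hκξ, hm⟩ := param D hinv h hθ hfix hov
  obtain ⟨β', κ', hβ', hβχ', hκξ', hm'⟩ := param D hinv' h' hθ hfix hov
  have hκ : κ = κ' := by
    apply Subtype.ext
    exact (CGC D hθ hfix (eta_irr D hθ hfix) (eta_ext D hθ hfix)).inj κ.2 κ'.2 (hκξ.trans hκξ'.symm)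
  rw [hm] at h
  rw [hm', ← hκ] at h'
  have h1 := GlaubCorr.unique_chi (glaubData hM D hθ hfix) hβ hβ' h h'
  apply Subtype.ext
  rw [← hβχ, ← hβχ', h1]

theorem claimB (hM : IsPModular p M) (D : Setup p act Q C) [Fintype C] {χ : IrrCharacter K}
    (hinv : InvK act (χ : K → ℂ)) {ξ ξ' : IrrCharacter C}
    (hinvξ : InvC D (ξ : C → ℂ)) (hinvξ' : InvC D (ξ' : C → ℂ)) (h : ¬ p ∣ GlaubCorr.mult C.subtype χ ξ)
    (h' : ¬ p ∣ GlaubCorr.mult C.subtype χ ξ') : ξ = ξ' := by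
  classical
  have := Fintype.ofFinite Q
  have := Fintype.ofFinite (Q.subgroupOf C)
  obtain ⟨θ, hθ, hfix, hov⟩ := exists_fixed_C D ξ.2 hinvξ
  obtain ⟨φ, hφ, hfix', hov'⟩ := exists_fixed_C D ξ'.2 hinvξ'
  have h1 := lies_over D χ.2 ξ.2 (inner_ne_zero h) hθ hov
  have h2 := lies_over D χ.2 ξ'.2 (inner_ne_zero h') hφ hov'
  obtain ⟨k, hk⟩ := exists_cj_eq χ.2 hθ hφ h1 h2
  obtain ⟨c, hc, hcφ⟩ := exists_conj_C D hθ.isClassFunction hfix hfix' hk
  have hov'' : classInner (fun n : Q.subgroupOf C => (ξ' : C → ℂ) n) (th' D θ) ≠ 0 := by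
    have h3 : th' D φ = cj (Q.subgroupOf C) (⟨c, hc⟩ : C) (th' D θ) := by
      funext n
      show φ (jN D n) = _
      rw [hcφ]
      rfl
    rw [h3, classInner_cj_res ξ'.2.isClassFunction] at hov'
    exact hov'
  have := Fintype.ofFinite (FF D hfix)
  obtain ⟨β, κ, hβ, hβχ, hκξ, hm⟩ := param D hinv h hθ hfix hov
  obtain ⟨β', κ', hβ', hβχ', hκξ', hm'⟩ := param D hinv h' hθ hfix hov''
  have hβe : β = β' := by
    apply Subtype.ext
    exact (CGK D hθ (eta_irr D hθ hfix) (eta_ext D hθ hfix)).inj β.2 β'.2 (hβχ.trans hβχ'.symm)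
  rw [hm] at h
  rw [hm', ← hβe] at h'
  have h1 := GlaubCorr.unique_beta (glaubData hM D hθ hfix) hβ h h'
  apply Subtype.ext
  rw [← hκξ, ← hκξ', h1]

theorem claimE (hM : IsPModular p M) (D : Setup p act Q C) [Fintype C] {χ : IrrCharacter K}
    (hinv : InvK act (χ : K → ℂ)) {ξ : IrrCharacter C}
    (hinvξ : InvC D (ξ : C → ℂ)) (h : ¬ p ∣ GlaubCorr.mult C.subtype χ ξ) :
    ((GlaubCorr.mult C.subtype χ ξ : ZMod p) = 1 ∨ (GlaubCorr.mult C.subtype χ ξ : ZMod p) = -1) ∧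
    ((charDegree (ξ : C → ℂ) : ZMod p) = (charDegree (χ : K → ℂ) : ZMod p) ∨
      (charDegree (ξ : C → ℂ) : ZMod p) = -(charDegree (χ : K → ℂ) : ZMod p)) := by
  classical
  have hfp : Fact p.Prime := ⟨D.hp⟩
  have := Fintype.ofFinite Q
  have := Fintype.ofFinite (Q.subgroupOf C)
  obtain ⟨θ, hθ, hfix, hov⟩ := exists_fixed_C D ξ.2 hinvξ
  have := Fintype.ofFinite (FF D hfix)
  obtain ⟨β, κ, hβ, hβχ, hκξ, hm⟩ := param D hinv h hθ hfix hov
  rw [hm] at h
  have hGD := glaubData hM D hθ hfix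
  have hpm : (GlaubCorr.mult C.subtype χ ξ : ZMod p) = 1 ∨ (GlaubCorr.mult C.subtype χ ξ : ZMod p) = -1 := by
    rw [hm]
    rcases GlaubCorr.mult_sq hGD hβ h with h1 | h1
    · left
      have := (ZMod.intCast_eq_intCast_iff _ _ p).2 h1
      push_cast at this
      exact this
    · right
      have := (ZMod.intCast_eq_intCast_iff _ _ p).2 h1
      push_cast at this
      exact this
  refine ⟨hpm, ?_⟩
  -- degrees
  obtain ⟨e, he0, he⟩ := (eta_irr D hθ hfix).exists_degree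
  have hχd : charDegree (χ : K → ℂ) = (TT θ).index * (charDegree (β : BB θ → ℂ) * e) := by
    have h1 : (charDegree (χ : K → ℂ) : ℂ) = ((TT θ).index * (charDegree (β : BB θ → ℂ) * e) : ℕ) := by
      rw [BlockDeg.charDegree_cast_irr, ← hβχ, phi_one]
      push_cast
      rw [BlockDeg.charDegree_cast_irr, he]
    exact_mod_cast h1
  have hξd : charDegree (ξ : C → ℂ) = ((TT θ).subgroupOf C).index * (charDegree (κ : FF D hfix → ℂ) * e) := by
    have h1 : (charDegree (ξ : C → ℂ) : ℂ) =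
        (((TT θ).subgroupOf C).index * (charDegree (κ : FF D hfix → ℂ) * e) : ℕ) := by
      rw [BlockDeg.charDegree_cast_irr, ← hκξ, phi_one]
      push_cast
      rw [BlockDeg.charDegree_cast_irr, ← he]
      rfl
    exact_mod_cast h1
  have hsum : charDegree (β : BB θ → ℂ) = ∑ κ' : IrrCharacter (FF D hfix),
      GlaubCorr.mult (FF D hfix).subtype β κ' * charDegree (κ' : FF D hfix → ℂ) := by
    have h1 : (charDegree (β : BB θ → ℂ) : ℂ) = (∑ κ' : IrrCharacter (FF D hfix),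
      GlaubCorr.mult (FF D hfix).subtype β κ' * charDegree (κ' : FF D hfix → ℂ) : ℕ) := by
      rw [BlockDeg.charDegree_cast_irr, GlaubCorr.sum_degree (FF D hfix).subtype β]
      push_cast
      exact Finset.sum_congr rfl fun κ' _ => by rw [BlockDeg.charDegree_cast_irr]
    exact_mod_cast h1
  have hβκ : (charDegree (β : BB θ → ℂ) : ZMod p) =
      (GlaubCorr.mult C.subtype χ ξ : ZMod p) * (charDegree (κ : FF D hfix → ℂ) : ZMod p) := by
    rw [hsum, hm]
    push_cast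
    rw [Finset.sum_eq_single κ]
    · intro κ' _ hne
      have h1 : p ∣ GlaubCorr.mult (FF D hfix).subtype β κ' := by
        by_contra h'
        exact hne (GlaubCorr.unique_beta hGD hβ h' h)
      rw [(ZMod.natCast_eq_zero_iff _ _).2 h1, zero_mul]
    · intro h1; exact absurd (Finset.mem_univ _) h1
  have hidx : ((TT θ).index : ZMod p) = (((TT θ).subgroupOf C).index : ZMod p) :=
    (ZMod.natCast_eq_natCast_iff _ _ p).2 (index_T_modEq D hθ hfix)
  rw [hχd, hξd]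
  push_cast
  rw [hidx, hβκ]
  rcases hpm with h1 | h1
  · left; rw [h1]; ring
  · right; rw [h1]; ring

end

end Cfsg.Agent.Lib.RelGlaub
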