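import Cfsg.Agent.Lib.H81Real5
import Cfsg.Agent.S4914

/-!
# S4865: a bijection for real characters and the Sylow normalizer (helper81)
-/

set_option autoImplicit false
set_option linter.unusedSectionVars false

namespace Cfsg.Agent.Lib.H81Real6

open scoped ComplexConjugate
open Cfsg Cfsg.Agent.Lib.CharBasic Cfsg.Agent.Lib.Clifford Cfsg.Agent.Lib.CliffordCorr
open Cfsg.Agent.Lib.RealOdd Cfsg.Agent.Lib.RelSylow Cfsg.Agent.Lib.H81Real1
open Cfsg.Agent.Lib.H81Real2 Cfsg.Agent.Lib.H81Real4 Cfsg.Agent.Lib.H81Real5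
open Cfsg.Agent.Lib.GlaubCorr Cfsg.Agent.Lib.PermLemma
open Subgroup

universe u

variable {G : Type u} [Group G] {p : ℕ}

abbrev PIrr (P K : Subgroup G) : Type u := {χ : IrrCharacter K // PInv P K (χ : K → ℂ)}

theorem corr [Finite G] [hp : Fact p.Prime] (P K Q C : Subgroup G) (hP : IsPGroup p P)
    (hPK : P ≤ normalizer (K : Set G)) (hQK : Q ≤ K) (hQn : ∀ k ∈ K, ∀ q ∈ Q, k * q * k⁻¹ ∈ Q)
    (hQp : IsPGroup p Q) (hQsyl : ¬ p ∣ Q.relIndex K) (hCK : C ≤ K)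
    (hC : ∀ k : G, k ∈ C ↔ (k ∈ K ∧ ∀ x ∈ P, x * k * x⁻¹ * k⁻¹ ∈ Q)) [Fintype C] :
    ∃ f : PIrr P K → PIrr P C, Function.Bijective f ∧
      (∀ (χ : PIrr P K) (ξ : PIrr P C) (m : ℕ),
        classInner (fun c : C => (χ.1 : K → ℂ) (inclusion hCK c)) (ξ.1 : C → ℂ) = m →
          (ξ = f χ ↔ ¬ p ∣ m)) ∧
      ∀ χ : PIrr P K, (charDegree ((f χ).1 : C → ℂ) : ZMod p) = (charDegree (χ.1 : K → ℂ) : ZMod p) ∨
        (charDegree ((f χ).1 : C → ℂ) : ZMod p) = -(charDegree (χ.1 : K → ℂ) : ZMod p) := by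
  obtain ⟨f, hf, h⟩ := S4914.result p P K Q C hP hPK hQK hQn (IsPGroup.iff_card.mp hQp) hQsyl hCK hC
  refine ⟨f, hf, ?_, fun χ => (h χ).2⟩
  intro χ ξ m hm
  obtain ⟨m', hm', h1, h2⟩ := (h χ).1 ξ
  have h3 : m = m' := by
    have h4 : classInner (fun c : C => (χ.1 : K → ℂ) (inclusion hCK c)) (ξ.1 : C → ℂ) = m' := by
      rw [← hm', finsum_eq_sum_of_fintype]
      rfl
    rw [hm] at h4
    exact_mod_cast h4
  subst h3
  constructor
  · intro h5 h6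
    have h7 : (m : ZMod p) = 0 := (ZMod.natCast_eq_zero_iff m p).mpr h6
    rcases h1 h5 with h8 | h8
    · rw [h7] at h8
      exact one_ne_zero h8.symm
    · rw [h7] at h8
      have : (1 : ZMod p) = 0 := neg_eq_zero.mp h8.symm
      exact one_ne_zero this
  · intro h5
    by_contra h6
    exact h5 (h2 h6)

/-- The data needed for the bijection. -/
structure Dat [Fintype G] (p : ℕ) (P K C N : Subgroup G) (hCK : C ≤ K) (hCN : C ≤ N) [Fintype C]
    (f : PIrr P K → PIrr P C) : Prop where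
  hP : IsSyl p P ⊤
  hK : K.Normal
  hodd : Odd K.index
  hN : N = normalizer (P : Set G)
  hC : C = K ⊓ N
  hf : Function.Bijective f
  hiff : ∀ (χ : PIrr P K) (ξ : PIrr P C) (m : ℕ),
        classInner (fun c : C => (χ.1 : K → ℂ) (inclusion hCK c)) (ξ.1 : C → ℂ) = m →
          (ξ = f χ ↔ ¬ p ∣ m)
  hdeg : ∀ χ : PIrr P K, (charDegree ((f χ).1 : C → ℂ) : ZMod p) = (charDegree (χ.1 : K → ℂ) : ZMod p) ∨
        (charDegree ((f χ).1 : C → ℂ) : ZMod p) = -(charDegree (χ.1 : K → ℂ) : ZMod p)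

section

variable [Fintype G] {P K C N : Subgroup G} {hCK : C ≤ K} {hCN : C ≤ N} [Fintype C]
  {f : PIrr P K → PIrr P C}

theorem Dat.norm (D : Dat p P K C N hCK hCN f) : ∀ s ∈ N, ∀ g ∈ C, s * g * s⁻¹ ∈ C := by
  have := D.hK
  intro s hs g hg
  rw [D.hC] at hg ⊢
  exact ⟨D.hK.conj_mem g hg.1 s, N.mul_mem (N.mul_mem hs hg.2) (N.inv_mem hs)⟩

theorem Dat.normC (D : Dat p P K C N hCK hCN f) : (C.subgroupOf N).Normal := by
  constructor
  intro c hc n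
  exact D.norm n n.2 c hc

theorem Dat.oddC (D : Dat p P K C N hCK hCN f) : Odd (C.subgroupOf N).index := by
  have := D.hK
  have h1 : (C.subgroupOf N).index = K.relIndex N := by
    show C.relIndex N = K.relIndex N
    rw [D.hC, inf_relIndex_right]
  rw [h1]
  exact Odd.of_dvd_nat D.hodd (Subgroup.relIndex_dvd_index_of_normal K N)

/-- conjugation by `n ∈ N` on `C` -/
theorem pinv_conj (hPN : ∀ n ∈ N, ∀ x ∈ P, n * x * n⁻¹ ∈ P) (L : Subgroup G)
    {β : L → ℂ} (hβ : PInv P L β) {β' : L → ℂ} {n : G} (hn : n ∈ N)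
    (hLn : ∀ g ∈ L, n * g * n⁻¹ ∈ L) (h : ∀ c c' : L, (c' : G) = n * c * n⁻¹ → β' c = β c') :
    PInv P L β' := by
  intro x hx k k' hk
  rw [h k ⟨_, hLn k k.2⟩ rfl, h k' ⟨_, hLn k' k'.2⟩ rfl]
  apply hβ (n * x * n⁻¹) (hPN n hn x hx)
  show n * (k' : G) * n⁻¹ = _
  rw [hk]
  group

theorem Dat.hPN (D : Dat p P K C N hCK hCN f) : ∀ n ∈ N, ∀ x ∈ P, n * x * n⁻¹ ∈ P := by
  intro n hn x hx
  rw [D.hN] at hn
  exact (mem_normalizer_iff.mp hn x).mp hx

/-- the twist of a character of `C` by an element of `N` -/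
noncomputable def twC (D : Dat p P K C N hCK hCN f) (n : N) (β : PIrr P C) : PIrr P C :=
  ⟨⟨fun c => (β.1 : C → ℂ) (conjAct C N D.norm n c),
    (isIrrCharacter_comp_mulEquiv_iff (conjAct C N D.norm n)).mpr β.1.2⟩,
    pinv_conj D.hPN C β.2 n.2 (fun g hg => D.norm n n.2 g hg) (by
      intro c c' hc
      have h1 : conjAct C N D.norm n c = c' := Subtype.ext hc.symm
      show (β.1 : C → ℂ) (conjAct C N D.norm n c) = _
      rw [h1])⟩

/-- the twist of a character of `K` by an element of `N` -/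
noncomputable def twK (D : Dat p P K C N hCK hCN f) (n : N) (θ : PIrr P K) : PIrr P K :=
  have := D.hK
  ⟨⟨cj K (n : G) (θ.1 : K → ℂ), isIrrCharacter_cj θ.1.2 _⟩,
    pinv_conj D.hPN K θ.2 n.2 (fun g hg => D.hK.conj_mem g hg n) (by
      intro c c' hc
      have h1 : (⟨n * c * (n : G)⁻¹, D.hK.conj_mem (c : G) c.2 n⟩ : K) = c' := Subtype.ext hc.symm
      show cj K (n : G) (θ.1 : K → ℂ) c = _
      rw [cj_apply, h1])⟩

theorem exists_nat (θ : PIrr P K) (β : PIrr P C) :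
    ∃ m : ℕ, classInner (fun c : C => (θ.1 : K → ℂ) (inclusion hCK c)) (β.1 : C → ℂ) = m :=
  (θ.1.2.isCharacter.comp (inclusion hCK)).classInner_nat β.1.2.isCharacter

theorem Dat.f_tw (D : Dat p P K C N hCK hCN f) (n : N) (θ : PIrr P K) :
    f (twK D n θ) = twC D n (f θ) := by
  have hKn := D.hK
  obtain ⟨m, hm⟩ := exists_nat (hCK := hCK) θ (f θ)
  have h1 := (D.hiff θ (f θ) m hm).mp rfl
  have h2 : classInner (fun c : C => ((twK D n θ).1 : K → ℂ) (inclusion hCK c))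
      ((twC D n (f θ)).1 : C → ℂ) = m := by
    rw [← hm]
    have h3 := classInner_comp_equiv (conjAct C N D.norm n)
      (fun c : C => (θ.1 : K → ℂ) (inclusion hCK c)) ((f θ).1 : C → ℂ)
    rw [← h3]
    congr 1
  exact ((D.hiff (twK D n θ) (twC D n (f θ)) m h2).mpr h1).symm

/-- complex conjugation on `P`-invariant characters -/
noncomputable def cjg {L : Subgroup G} (θ : PIrr P L) : PIrr P L :=
  ⟨irrConj L θ.1, by
    intro x hx k k' hk
    show conj ((θ.1 : L → ℂ) k') = conj ((θ.1 : L → ℂ) k)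
    rw [θ.2 x hx k k' hk]⟩

theorem Dat.f_cjg (D : Dat p P K C N hCK hCN f) (θ : PIrr P K) : f (cjg θ) = cjg (f θ) := by
  obtain ⟨m, hm⟩ := exists_nat (hCK := hCK) θ (f θ)
  have h1 := (D.hiff θ (f θ) m hm).mp rfl
  have h2 : classInner (fun c : C => ((cjg θ).1 : K → ℂ) (inclusion hCK c))
      ((cjg (f θ)).1 : C → ℂ) = m := by
    have h3 : classInner (fun c : C => conj ((θ.1 : K → ℂ) (inclusion hCK c)))
      (fun c => conj (((f θ).1 : C → ℂ) c)) = classInner ((f θ).1 : C → ℂ)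
        (fun c : C => (θ.1 : K → ℂ) (inclusion hCK c)) := classInner_conj_conj _ _
    rw [← CharBasic.conj_classInner (fun c : C => (θ.1 : K → ℂ) (inclusion hCK c)), hm,
      Complex.conj_natCast] at h3
    exact h3
  exact ((D.hiff (cjg θ) (cjg (f θ)) m h2).mpr h1).symm

theorem cjg_eq_iff {L : Subgroup G} (θ : PIrr P L) :
    cjg θ = θ ↔ ∀ k, ((θ.1 : L → ℂ) k).im = 0 := by
  rw [← irrConj_eq_iff, Subtype.ext_iff]
  rfl

theorem Dat.real_iff (D : Dat p P K C N hCK hCN f) (θ : PIrr P K) :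
    (∀ k, (((f θ).1 : C → ℂ) k).im = 0) ↔ ∀ k, ((θ.1 : K → ℂ) k).im = 0 := by
  rw [← cjg_eq_iff, ← cjg_eq_iff, ← D.f_cjg]
  exact D.hf.1.eq_iff

/-- transport to `C.subgroupOf N` -/
def tr (hCN : C ≤ N) (β : C → ℂ) : C.subgroupOf N → ℂ := fun x => β (subgroupOfEquivOfLe hCN x)

theorem isIrr_tr {β : C → ℂ} : IsIrrCharacter (C.subgroupOf N) (tr hCN β) ↔ IsIrrCharacter C β :=
  isIrrCharacter_comp_mulEquiv_iff (subgroupOfEquivOfLe hCN)

theorem charDegree_tr (β : C → ℂ) : charDegree (tr hCN β) = charDegree β := by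
  show ⌊(β (subgroupOfEquivOfLe hCN 1)).re⌋₊ = ⌊(β 1).re⌋₊
  rw [map_one]

theorem cj_tr (D : Dat p P K C N hCK hCN f) (n : N) (β : PIrr P C) :
    have := D.normC
    cj (C.subgroupOf N) n (tr hCN (β.1 : C → ℂ)) = tr hCN ((twC D n β).1 : C → ℂ) := by
  intro _
  rfl

theorem pinv_tr (D : Dat p P K C N hCK hCN f) {β : C → ℂ} :
    PInv (P.subgroupOf N) (C.subgroupOf N) (tr hCN β) ↔ PInv P C β := by
  have hPN : P ≤ N := by rw [D.hN]; exact le_normalizer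
  constructor
  · intro h x hx k k' hk
    exact h ⟨x, hPN hx⟩ hx ⟨⟨k, hCN k.2⟩, k.2⟩ ⟨⟨k', hCN k'.2⟩, k'.2⟩ (Subtype.ext hk)
  · intro h x hx k k' hk
    exact h x hx _ _ (congrArg Subtype.val hk)

/-- the relation between real characters -/
def TT (hCN : C ≤ N) (f : PIrr P K → PIrr P C) [Fintype K] [Fintype (C.subgroupOf N)]
    (χ : IrrCharacter G) (ξ : IrrCharacter N) : Prop :=
  ∃ θ : PIrr P K, (∀ k, ((θ.1 : K → ℂ) k).im = 0) ∧
    classInner (fun n : K => (χ : G → ℂ) n) (θ.1 : K → ℂ) ≠ 0 ∧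
    classInner (fun n : C.subgroupOf N => (ξ : N → ℂ) n) (tr hCN ((f θ).1 : C → ℂ)) ≠ 0

variable [Fintype K] [Fintype (C.subgroupOf N)] [Fintype N]

theorem Dat.isSylN (D : Dat p P K C N hCK hCN f) : ¬ p ∣ (P.subgroupOf N).index := by
  intro h
  have h1 : (P.subgroupOf N).index = P.relIndex N := rfl
  have hPN : P ≤ N := by rw [D.hN]; exact le_normalizer
  rw [h1] at h
  apply D.hP.2.2
  rw [relIndex_top_right, ← Subgroup.relIndex_mul_index hPN]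
  exact dvd_mul_of_dvd_left h _

theorem TT.uniq_right [Fact p.Prime] (D : Dat p P K C N hCK hCN f) {χ : IrrCharacter G}
    {ξ ξ' : IrrCharacter N} (hξ : ∀ n, ((ξ : N → ℂ) n).im = 0)
    (hξ' : ∀ n, ((ξ' : N → ℂ) n).im = 0) (h : TT hCN f χ ξ) (h' : TT hCN f χ ξ') : ξ = ξ' := by
  have := D.hK
  have := D.normC
  obtain ⟨θ, hθr, h1, h2⟩ := h
  obtain ⟨θ', hθr', h1', h2'⟩ := h'
  obtain ⟨g, hg⟩ := exists_cj_eq χ.2 θ.1.2 θ'.1.2 h1 h1'
  obtain ⟨n, hn, hn'⟩ := conj_normalizer P K D.hP θ.2 θ'.2 hg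
  rw [← D.hN] at hn
  have h3 : θ' = twK D ⟨n, hn⟩ θ := Subtype.ext (Subtype.ext hn')
  apply unique_real_over (C.subgroupOf N) D.oddC (isIrr_tr.mpr (f θ').1.2) ξ ξ' hξ hξ' _ h2'
  rw [h3, D.f_tw, ← cj_tr D, classInner_cj_res ξ.2.isClassFunction]
  exact h2

theorem TT.uniq_left (D : Dat p P K C N hCK hCN f) {χ χ' : IrrCharacter G}
    {ξ : IrrCharacter N} (hχ : ∀ n, ((χ : G → ℂ) n).im = 0)
    (hχ' : ∀ n, ((χ' : G → ℂ) n).im = 0) (h : TT hCN f χ ξ) (h' : TT hCN f χ' ξ) : χ = χ' := by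
  have := D.hK
  have := D.normC
  obtain ⟨θ, hθr, h1, h2⟩ := h
  obtain ⟨θ', hθr', h1', h2'⟩ := h'
  obtain ⟨n, hn⟩ := exists_cj_eq ξ.2 (isIrr_tr.mpr (f θ).1.2) (isIrr_tr.mpr (f θ').1.2) h2 h2'
  rw [cj_tr D, ← D.f_tw] at hn
  have h3 : f θ' = f (twK D n θ) := by
    apply Subtype.ext
    apply Subtype.ext
    funext c
    exact congrFun hn ⟨⟨c, hCN c.2⟩, c.2⟩
  have h4 : θ' = twK D n θ := D.hf.1 h3
  apply unique_real_over K D.hodd θ'.1.2 χ χ' hχ hχ' _ h1'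
  have h5 : (θ'.1 : K → ℂ) = cj K (n : G) (θ.1 : K → ℂ) := by rw [h4]; rfl
  rw [h5, classInner_cj_res χ.2.isClassFunction]
  exact h1

/-- degrees -/
theorem TT.deg [hp : Fact p.Prime] (D : Dat p P K C N hCK hCN f) {χ : IrrCharacter G}
    {ξ : IrrCharacter N} (hχ : ∀ n, ((χ : G → ℂ) n).im = 0)
    (hξ : ∀ n, ((ξ : N → ℂ) n).im = 0) (h : TT hCN f χ ξ) :
    (charDegree (ξ : N → ℂ) : ZMod p) = (charDegree (χ : G → ℂ) : ZMod p) ∨
      (charDegree (ξ : N → ℂ) : ZMod p) = -(charDegree (χ : G → ℂ) : ZMod p) := by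
  have := D.hK
  have := D.normC
  obtain ⟨θ, hθr, h1, h2⟩ := h
  have hβr := (D.real_iff θ).mpr hθr
  have e1 := degree_real_over K D.hodd θ.1.2 hθr χ hχ h1
  have e2 := degree_real_over (C.subgroupOf N) D.oddC (isIrr_tr.mpr (f θ).1.2) (fun n => hβr _) ξ hξ h2
  have hI : inertia (C.subgroupOf N) (tr hCN ((f θ).1 : C → ℂ)) =
      (inertia K (θ.1 : K → ℂ)).subgroupOf N := by
    ext n
    rw [mem_inertia, mem_subgroupOf, mem_inertia, cj_tr D, ← D.f_tw]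
    constructor
    · intro h3
      have h4 : f (twK D n θ) = f θ := by
        apply Subtype.ext
        apply Subtype.ext
        funext c
        exact congrFun h3 ⟨⟨c, hCN c.2⟩, c.2⟩
      have h5 := D.hf.1 h4
      have h6 : ((twK D n θ).1 : K → ℂ) = (θ.1 : K → ℂ) := by rw [h5]
      exact h6
    · intro h3
      have h5 : twK D n θ = θ := Subtype.ext (Subtype.ext h3)
      rw [h5]
  have e3 : ((inertia K (θ.1 : K → ℂ)).index : ZMod p) =
      ((inertia (C.subgroupOf N) (tr hCN ((f θ).1 : C → ℂ))).index : ZMod p) := by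
    rw [hI]
    have h3 := index_modEq P (inertia K (θ.1 : K → ℂ)) D.hP ((le_inertia_iff P K _).mp θ.2)
    rw [← D.hN] at h3
    exact h3
  rw [e1, e2, Nat.cast_mul, Nat.cast_mul, e3, charDegree_tr]
  rcases D.hdeg θ with h3 | h3
  · left; rw [h3]
  · right; rw [h3]; ring

theorem dvd_iff_of_cong {a b : ℕ} (h : (a : ZMod p) = (b : ZMod p) ∨ (a : ZMod p) = -(b : ZMod p)) :
    p ∣ a ↔ p ∣ b := by
  rw [← ZMod.natCast_eq_zero_iff, ← ZMod.natCast_eq_zero_iff]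
  rcases h with h | h
  · rw [h]
  · rw [h, neg_eq_zero]

theorem TT.exists_right [hp : Fact p.Prime] (D : Dat p P K C N hCK hCN f) {χ : IrrCharacter G}
    (hχ : ∀ n, ((χ : G → ℂ) n).im = 0) (hd : ¬ p ∣ charDegree (χ : G → ℂ)) :
    ∃ ξ : IrrCharacter N, ((∀ n, ((ξ : N → ℂ) n).im = 0) ∧ ¬ p ∣ charDegree (ξ : N → ℂ)) ∧
      TT hCN f χ ξ := by
  have := D.hK
  have := D.normC
  obtain ⟨θ, hθr, hθP, h1⟩ := exists_real_pinv P K D.hodd D.hP.2.1 χ hχ hd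
  have hβr := (D.real_iff ⟨θ, hθP⟩).mpr hθr
  obtain ⟨ξ, hξr, hξ⟩ := exists_real_over (C.subgroupOf N) D.oddC
    (isIrr_tr.mpr (f ⟨θ, hθP⟩).1.2) (fun n => hβr _)
  have hT : TT hCN f χ ξ := ⟨⟨θ, hθP⟩, hθr, h1, hξ⟩
  refine ⟨ξ, ⟨hξr, ?_⟩, hT⟩
  rw [dvd_iff_of_cong (TT.deg D hχ hξr hT)]
  exact hd

theorem TT.exists_left [hp : Fact p.Prime] (D : Dat p P K C N hCK hCN f) {ξ : IrrCharacter N}
    (hξ : ∀ n, ((ξ : N → ℂ) n).im = 0) (hd : ¬ p ∣ charDegree (ξ : N → ℂ)) :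
    ∃ χ : IrrCharacter G, (∀ n, ((χ : G → ℂ) n).im = 0) ∧ TT hCN f χ ξ := by
  have := D.hK
  have := D.normC
  have hPN : P ≤ N := by rw [D.hN]; exact le_normalizer
  have hPp : IsPGroup p (P.subgroupOf N) :=
    D.hP.2.1.of_injective (subgroupOfEquivOfLe hPN).toMonoidHom (subgroupOfEquivOfLe hPN).injective
  obtain ⟨β', hβr', hβP', h1⟩ := exists_real_pinv (P.subgroupOf N) (C.subgroupOf N) D.oddC hPp ξ hξ hd
  -- transport to `C`
  let e := subgroupOfEquivOfLe hCN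
  have htr : tr hCN (fun c => (β' : _ → ℂ) (e.symm c)) = (β' : _ → ℂ) := by
    funext x
    show (β' : _ → ℂ) (e.symm (e x)) = _
    rw [MulEquiv.symm_apply_apply]
  have hirr : IsIrrCharacter C (fun c => (β' : _ → ℂ) (e.symm c)) :=
    (isIrrCharacter_comp_mulEquiv_iff e.symm).mpr β'.2
  let β : PIrr P C := ⟨⟨_, hirr⟩, (pinv_tr D).mp (by
    show PInv _ _ (tr hCN (fun c => (β' : _ → ℂ) (e.symm c)))
    rw [htr]; exact hβP')⟩
  obtain ⟨θ, hθ⟩ := D.hf.2 β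
  have hβr : ∀ k, (((f θ).1 : C → ℂ) k).im = 0 := by
    intro k
    rw [hθ]
    exact hβr' _
  have hθr := (D.real_iff θ).mp hβr
  obtain ⟨χ, hχr, hχ⟩ := exists_real_over K D.hodd θ.1.2 hθr
  refine ⟨χ, hχr, θ, hθr, hχ, ?_⟩
  rw [hθ]
  show classInner _ (tr hCN (fun c => (β' : _ → ℂ) (e.symm c))) ≠ 0
  rw [htr]
  exact h1

end

theorem exists_dat [Fintype G] [hp : Fact p.Prime] (hsolv : Group.IsSolvable (PG p G))
    (hreal : RealDeg p G) (P : Sylow p G) (K N : Subgroup G) (hK : K = PG 2 G)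
    (hN : N = normalizer ((P : Subgroup G) : Set G)) [Fintype ↥(K ⊓ N)] :
    ∃ f : PIrr (P : Subgroup G) K → PIrr (P : Subgroup G) (K ⊓ N),
      Dat p (P : Subgroup G) K (K ⊓ N) N inf_le_left inf_le_right f := by
  obtain ⟨S, hSn, hSK, hSp, hSi⟩ := H81Real2.main (p := p) (Nat.card G) G
    (PG p G) (PG 2 G) le_rfl inferInstance hsolv
    not_dvd_index_pg hreal inferInstance le_rfl (fun u hu => ⟨0, by simpa using hu⟩)
  have hKn : K.Normal := by rw [hK]; infer_instance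
  have hodd : Odd K.index := by rw [hK]; exact odd_index_pg
  rw [← hK] at hSK hSi
  have hSP : S ≤ P := (Fitting.le_pCore p hSn hSp).trans (Fitting.pCore_le_sylow p P)
  have hSsyl : IsSyl p S K := ⟨hSK, hSp, hSi⟩
  have hSeq : S = K ⊓ (P : Subgroup G) :=
    hSsyl.eq_of_le (P.isPGroup'.to_le inf_le_right) inf_le_left (le_inf hSK hSP)
  have hC : ∀ k : G, k ∈ K ⊓ N ↔ (k ∈ K ∧ ∀ x ∈ (P : Subgroup G), x * k * x⁻¹ * k⁻¹ ∈ S) := by
    intro k
    constructor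
    · rintro ⟨hk, hkN⟩
      have hkN' : k ∈ normalizer ((P : Subgroup G) : Set G) := by rw [← hN]; exact hkN
      refine ⟨hk, fun x hx => ?_⟩
      rw [hSeq]
      refine ⟨K.mul_mem (hKn.conj_mem k hk x) (K.inv_mem hk), ?_⟩
      have h1 : x * k * x⁻¹ * k⁻¹ = x * (k * x⁻¹ * k⁻¹) := by group
      rw [h1]
      exact (P : Subgroup G).mul_mem hx ((mem_normalizer_iff.mp hkN' x⁻¹).mp
        ((P : Subgroup G).inv_mem hx))
    · rintro ⟨hk, h⟩
      refine ⟨hk, ?_⟩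
      have hle : ∀ y ∈ (P : Subgroup G), k * y * k⁻¹ ∈ (P : Subgroup G) := by
        intro y hy
        have h1 := hSP (h y⁻¹ ((P : Subgroup G).inv_mem hy))
        have h2 : k * y * k⁻¹ = y * (y⁻¹ * k * y⁻¹⁻¹ * k⁻¹) := by group
        rw [h2]
        exact (P : Subgroup G).mul_mem hy h1
      have h3 : k ∈ normalizer ((P : Subgroup G) : Set G) := by
        rw [mem_normalizer_iff_map]
        apply Subgroup.eq_of_le_of_card_ge
        · rintro _ ⟨y, hy, rfl⟩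
          exact hle y hy
        · rw [RelSylow.card_conj]
      rw [← hN] at h3
      exact h3
  obtain ⟨f, hf, h1, h2⟩ := corr (p := p) (P : Subgroup G) K S (K ⊓ N) P.isPGroup'
    (by rw [normalizer_eq_top]; exact le_top) hSK (fun k _ q hq => hSn.conj_mem q hq k) hSp hSi
    inf_le_left hC
  exact ⟨f, (isSyl_top_iff P), hKn, hodd, hN, rfl, hf, h1, h2⟩

theorem main [Finite G] [hp : Fact p.Prime] (hsolv : Group.IsSolvable (PG p G))
    (hreal : RealDeg p G) (P : Sylow p G) :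
    ∃ f : {χ : Cfsg.IrrCharacter G // ∀ g : G, ((χ : G → ℂ) g).im = 0} → {ξ : Cfsg.IrrCharacter ↥(Subgroup.normalizer ((P : Subgroup G) : Set G)) // (∀ n, ((ξ : ↥(Subgroup.normalizer ((P : Subgroup G) : Set G)) → ℂ) n).im = 0) ∧ ¬ p ∣ Cfsg.charDegree (ξ : ↥(Subgroup.normalizer ((P : Subgroup G) : Set G)) → ℂ)}, Function.Bijective f ∧ ∀ χ, ((Cfsg.charDegree ((f χ).1 : ↥(Subgroup.normalizer ((P : Subgroup G) : Set G)) → ℂ) : ZMod p) = (Cfsg.charDegree (χ.1 : G → ℂ) : ZMod p) ∨ (Cfsg.charDegree ((f χ).1 : ↥(Subgroup.normalizer ((P : Subgroup G) : Set G)) → ℂ) : ZMod p) = -(Cfsg.charDegree (χ.1 : G → ℂ) : ZMod p)) := by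
  classical
  have hFG := Fintype.ofFinite G
  have hF1 : Fintype ↥(PG 2 G) := Fintype.ofFinite _
  have hF2 : Fintype ↥(normalizer ((P : Subgroup G) : Set G)) := Fintype.ofFinite _
  have hF3 : Fintype ↥(PG 2 G ⊓ normalizer ((P : Subgroup G) : Set G)) := Fintype.ofFinite _
  have hF4 : Fintype ↥((PG 2 G ⊓ normalizer ((P : Subgroup G) : Set G)).subgroupOf
    (normalizer ((P : Subgroup G) : Set G))) := Fintype.ofFinite _
  obtain ⟨f, D⟩ := exists_dat hsolv hreal P (PG 2 G) (normalizer ((P : Subgroup G) : Set G)) rfl rfl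
  have hex := fun χ : {χ : Cfsg.IrrCharacter G // ∀ g : G, ((χ : G → ℂ) g).im = 0} =>
    TT.exists_right D χ.2 (hreal χ.1 χ.2)
  choose F hF hT using hex
  refine ⟨fun χ => ⟨F χ, hF χ⟩, ⟨?_, ?_⟩, ?_⟩
  · intro χ χ' h
    have h1 : F χ = F χ' := congrArg Subtype.val h
    apply Subtype.ext
    exact TT.uniq_left D χ.2 χ'.2 (hT χ) (by rw [h1]; exact hT χ')
  · rintro ⟨ξ, hξ⟩
    obtain ⟨χ, hχ, h⟩ := TT.exists_left D hξ.1 hξ.2
    refine ⟨⟨χ, hχ⟩, ?_⟩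
    apply Subtype.ext
    exact TT.uniq_right D (hF ⟨χ, hχ⟩).1 hξ.1 (hT ⟨χ, hχ⟩) h
  · intro χ
    exact TT.deg D χ.2 (hF χ).1 (hT χ)

end Cfsg.Agent.Lib.H81Real6
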