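import Cfsg.Agent.Lib.H81SelfNorm
import Cfsg.Agent.Lib.InvAct
import Cfsg.Agent.Lib.SL2EvenInv

/-!
# In `SL(2,2^n)`, `2^n-1` prime, nonabelian subgroups are self-normalizing (helper81)
-/

set_option autoImplicit false
open Cfsg

namespace Cfsg.Agent.Lib.H81SelfNorm2

open Subgroup Cfsg.Agent.Lib.H81SelfNorm
open scoped commutatorElement

universe u

/-- If every Sylow normalizer is contained in the centralizer, the group is abelian. -/
theorem abelian_of_sylow {Y : Type*} [Group Y] [Finite Y]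
    (h : ∀ (p : ℕ) [Fact p.Prime] (S : Sylow p Y),
      normalizer ((S : Subgroup Y) : Set Y) ≤ centralizer ((S : Subgroup Y) : Set Y)) :
    commutator Y = ⊥ := by
  by_contra hne
  have h1 : Nat.card (commutator Y) ≠ 1 := by
    intro h1
    exact hne (Subgroup.card_eq_one.mp h1)
  obtain ⟨p, hp, hpd⟩ := Nat.exists_prime_and_dvd h1
  have := Fact.mk hp
  let S : Sylow p Y := default
  have hS : IsMulCommutative (S : Subgroup Y) :=
    ⟨⟨fun a b => Subtype.ext (h p S (le_normalizer b.2) a a.2)⟩⟩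
  have h2 : commutator Y ≤ (MonoidHom.transferSylow S (h p S)).ker := by
    rw [commutator_def, Subgroup.commutator_le]
    intro x _ y _
    rw [MonoidHom.mem_ker, map_commutatorElement, commutatorElement_eq_one_iff_mul_comm]
    exact hS.is_comm.comm _ _
  exact MonoidHom.not_dvd_card_ker_transferSylow S (h p S) (hpd.trans (Subgroup.card_dvd_of_le h2))

theorem sq_comm_of_inverts {G : Type*} [Group G] {a b : G} (h : a * b * a⁻¹ = b⁻¹) :
    Commute (a ^ 2) b := by
  have h7 : a ^ 2 * b * (a ^ 2)⁻¹ = b := by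
    calc a ^ 2 * b * (a ^ 2)⁻¹ = a * (a * b * a⁻¹) * a⁻¹ := by rw [pow_two]; group
      _ = a * b⁻¹ * a⁻¹ := by rw [h]
      _ = (a * b * a⁻¹)⁻¹ := by group
      _ = b := by rw [h, inv_inv]
  show a ^ 2 * b = b * a ^ 2
  rw [mul_inv_eq_iff_eq_mul] at h7
  exact h7

section frattini

variable {G : Type*} [Group G] [Finite G]

theorem frattini {Y : Subgroup G} {p : ℕ} [Fact p.Prime] (S : Sylow p Y) {x : G}
    (hx : x ∈ normalizer (Y : Set G)) :
    ∃ y : Y, ∀ s : Y, s ∈ (S : Subgroup Y) →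
      ∃ s' : Y, s' ∈ (S : Subgroup Y) ∧ ((y : G) * x) * (s : G) * ((y : G) * x)⁻¹ = s' := by
  -- conjugation by `x` as an automorphism of `Y`
  have hx' : ∀ s : G, s ∈ Y ↔ x * s * x⁻¹ ∈ Y := fun s => Subgroup.mem_normalizer_iff.mp hx s
  let f : Y ≃* Y :=
    { toFun := fun s => ⟨x * s * x⁻¹, (hx' s).mp s.2⟩
      invFun := fun s => ⟨x⁻¹ * s * x, (hx' _).mpr (by
        have : x * (x⁻¹ * (s : G) * x) * x⁻¹ = s := by group
        rw [this]; exact s.2)⟩
      left_inv := fun s => by
        apply Subtype.ext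
        show x⁻¹ * (x * (s : G) * x⁻¹) * x = s
        group
      right_inv := fun s => by
        apply Subtype.ext
        show x * (x⁻¹ * (s : G) * x) * x⁻¹ = s
        group
      map_mul' := fun a b => by
        apply Subtype.ext
        show x * ((a : G) * b) * x⁻¹ = (x * a * x⁻¹) * (x * b * x⁻¹)
        group }
  have hcard : Nat.card ((S : Subgroup Y).map f.toMonoidHom) = p ^ (Nat.card Y).factorization p := by
    rw [← S.card_eq_multiplicity]
    exact Nat.card_congr ((S : Subgroup Y).equivMapOfInjective f.toMonoidHom f.injective).symm.toEquiv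
  let S' : Sylow p Y := Sylow.ofCard ((S : Subgroup Y).map f.toMonoidHom) hcard
  obtain ⟨y, hy⟩ := MulAction.exists_smul_eq Y S' S
  refine ⟨y, fun s hs => ?_⟩
  have h1 : f s ∈ (S' : Subgroup Y) := ⟨s, hs, rfl⟩
  have h2 : y * f s * y⁻¹ ∈ (S : Subgroup Y) := by
    rw [← hy]
    show y * f s * y⁻¹ ∈ ((y • S' : Sylow p Y) : Subgroup Y)
    rw [Sylow.coe_subgroup_smul]
    exact ⟨f s, h1, by simp [MulAut.conj_apply]⟩
  refine ⟨_, h2, ?_⟩
  show ((y : G) * x) * (s : G) * ((y : G) * x)⁻¹ = y * (x * s * x⁻¹) * (y : G)⁻¹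
  group

end frattini

section main

variable {G : Type u} [Group G] [Finite G]

/-- centralizers of involutions have exponent two. -/
def Inv2 (G : Type u) [Group G] : Prop :=
  ∀ t : G, orderOf t = 2 → ∀ c ∈ centralizer ({t} : Set G), c ^ 2 = 1

def CC (G : Type u) [Group G] : Prop :=
  ∀ x : G, x ≠ 1 → IsMulCommutative (centralizer ({x} : Set G))

omit [Finite G] in
theorem cent_eq (hcc : CC G) {x y : G} (hx : x ≠ 1) (hy : y ≠ 1)
    (hxy : y ∈ centralizer ({x} : Set G)) : centralizer ({x} : Set G) = centralizer ({y} : Set G) := by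
  apply le_antisymm
  · intro z hz
    rw [mem_centralizer_singleton_iff]
    exact comm_elem (hcc x hx) hz hxy
  · intro z hz
    rw [mem_centralizer_singleton_iff]
    have hx' : x ∈ centralizer ({y} : Set G) := by
      rw [mem_centralizer_singleton_iff]
      exact (mem_centralizer_singleton_iff.mp hxy).symm
    exact comm_elem (hcc y hy) hz hx'

omit [Finite G] in
/-- if `g x g⁻¹` commutes with `x` then `g` normalizes `C(x)` -/
theorem mem_normalizer_cent (hcc : CC G) {x g : G} (hx : x ≠ 1)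
    (h : g * x * g⁻¹ ∈ centralizer ({x} : Set G)) :
    g ∈ normalizer ((centralizer ({x} : Set G) : Subgroup G) : Set G) := by
  have hgx : g * x * g⁻¹ ≠ 1 := by
    intro h1
    apply hx
    rw [mul_inv_eq_one] at h1
    simpa using h1
  have h2 := cent_eq hcc hx hgx h
  rw [Subgroup.mem_normalizer_iff]
  intro c
  have h3 : g * c * g⁻¹ ∈ centralizer ({x} : Set G) ↔ g * c * g⁻¹ ∈ centralizer ({g * x * g⁻¹} : Set G) := by
    rw [h2]
  rw [h3, mem_centralizer_singleton_iff, mem_centralizer_singleton_iff]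
  constructor
  · intro h4
    calc g * c * g⁻¹ * (g * x * g⁻¹) = g * (c * x) * g⁻¹ := by group
      _ = g * (x * c) * g⁻¹ := by rw [h4]
      _ = g * x * g⁻¹ * (g * c * g⁻¹) := by group
  · intro h4
    have h5 : g * (c * x) * g⁻¹ = g * (x * c) * g⁻¹ := by
      calc g * (c * x) * g⁻¹ = g * c * g⁻¹ * (g * x * g⁻¹) := by group
        _ = g * x * g⁻¹ * (g * c * g⁻¹) := h4
        _ = g * (x * c) * g⁻¹ := by group
    exact mul_left_cancel (mul_right_cancel h5)

/-- Lemma A: subgroups of odd order are abelian. -/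
theorem comm_of_odd (hcc : CC G)
    (hodd : ∀ x : G, x ≠ 1 → Odd (orderOf x) → ∀ g ∈ normalizer ((centralizer ({x} : Set G) : Subgroup G) : Set G),
      g * x * g⁻¹ = x ∨ g * x * g⁻¹ = x⁻¹)
    {Y : Subgroup G} (hY : Odd (Nat.card Y)) : IsMulCommutative Y := by
  have key : commutator Y = ⊥ := by
    apply abelian_of_sylow
    intro p hp S g hg
    rw [Subgroup.mem_centralizer_iff]
    intro s hs
    by_cases hs1 : s = 1
    · rw [hs1, one_mul, mul_one]
    have hSn : Nontrivial (S : Subgroup Y) := ⟨⟨s, hs⟩, 1, fun h => hs1 (congrArg Subtype.val h)⟩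
    have hcn : Nontrivial (center (S : Subgroup Y)) := S.isPGroup'.center_nontrivial
    obtain ⟨⟨⟨z, hz⟩, hzc⟩, hz1⟩ := exists_ne (1 : center (S : Subgroup Y))
    have hz1' : z ≠ 1 := by
      intro h
      apply hz1
      apply Subtype.ext
      apply Subtype.ext
      exact h
    have hzG : (z : G) ≠ 1 := fun h => hz1' (Subtype.ext h)
    have hScomm : ∀ a ∈ (S : Subgroup Y), (a : G) ∈ centralizer ({(z : G)} : Set G) := by
      intro a ha
      rw [mem_centralizer_singleton_iff]
      have h1 := Subgroup.mem_center_iff.mp hzc ⟨a, ha⟩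
      have h2 := congrArg (fun w : (S : Subgroup Y) => ((w : Y) : G)) h1
      exact h2
    have hsG : (s : G) ≠ 1 := fun h => hs1 (Subtype.ext h)
    have hCe := cent_eq hcc hzG hsG (hScomm s hs)
    have hgs : g * s * g⁻¹ ∈ (S : Subgroup Y) := (Subgroup.mem_normalizer_iff.mp hg s).mp hs
    have h3 : (g : G) * s * (g : G)⁻¹ ∈ centralizer ({(s : G)} : Set G) := by
      rw [← hCe]
      exact hScomm _ hgs
    have h4 := mem_normalizer_cent hcc hsG h3
    have hgodd : Odd (orderOf (g : G)) := by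
      rw [Subgroup.orderOf_coe]
      exact hY.of_dvd_nat (orderOf_dvd_natCard g)
    have hsodd : Odd (orderOf (s : G)) := by
      rw [Subgroup.orderOf_coe]
      exact hY.of_dvd_nat (orderOf_dvd_natCard s)
    rcases hodd s hsG hsodd g h4 with h5 | h5
    · apply Subtype.ext
      show (s : G) * g = g * s
      have h6 := congrArg (· * (g : G)) h5
      simp only [inv_mul_cancel_right] at h6
      exact h6.symm
    · -- g² centralizes s
      have h6 : Commute ((g : G) ^ 2) (s : G) := sq_comm_of_inverts h5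
      have h8 : Commute (g : G) (s : G) := by
        obtain ⟨k, hk⟩ := hgodd
        have h9 : ((g : G) ^ 2) ^ (k + 1) = g := by
          rw [← pow_mul]
          have : 2 * (k + 1) = orderOf (g : G) + 1 := by omega
          rw [this, pow_succ, pow_orderOf_eq_one, one_mul]
        rw [← h9]
        exact h6.pow_left _
      apply Subtype.ext
      exact h8.symm.eq
  apply comm_of_elem
  intro a ha b hb
  have h1 : ⁅(⟨a, ha⟩ : Y), (⟨b, hb⟩ : Y)⁆ ∈ commutator Y :=
    Subgroup.commutator_mem_commutator (mem_top _) (mem_top _)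
  rw [key, mem_bot, commutatorElement_eq_one_iff_mul_comm] at h1
  exact congrArg Subtype.val h1

/-- Lemma C -/
theorem no_two_inv (hI : Inv2 G) {M : Subgroup G} (hM : Odd (Nat.card M)) (hM1 : M ≠ ⊥) {s t : G}
    (hs : orderOf s = 2) (ht : orderOf t = 2) (hst : s ≠ t) (hc : s * t = t * s)
    (hsM : ∀ m ∈ M, s * m * s⁻¹ ∈ M) (htM : ∀ m ∈ M, t * m * t⁻¹ ∈ M) : False := by
  have key : ∀ u : G, orderOf u = 2 → (∀ m ∈ M, u * m * u⁻¹ ∈ M) → ∀ m ∈ M, u * m * u⁻¹ = m⁻¹ := by
    intro u hu huM m hm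
    let φ : M →* M :=
      { toFun := fun m => ⟨u * m * u⁻¹, huM m m.2⟩
        map_one' := by apply Subtype.ext; show u * 1 * u⁻¹ = 1; group
        map_mul' := fun a b => by
          apply Subtype.ext
          show u * ((a : G) * b) * u⁻¹ = (u * a * u⁻¹) * (u * b * u⁻¹)
          group }
    have hφ : MonoidHom.FixedPointFree φ := by
      intro m hm
      have h1 : u * (m : G) * u⁻¹ = m := congrArg Subtype.val hm
      have h2 : (m : G) ∈ centralizer ({u} : Set G) := by
        rw [mem_centralizer_singleton_iff]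
        rw [mul_inv_eq_iff_eq_mul] at h1
        exact h1.symm
      have h3 := hI u hu m h2
      have h4 : m ^ 2 = 1 := Subtype.ext h3
      have h5 : Odd (orderOf m) := hM.of_dvd_nat (orderOf_dvd_natCard m)
      have h6 : orderOf m ∣ 2 := orderOf_dvd_of_pow_eq_one h4
      rcases (Nat.dvd_prime Nat.prime_two).mp h6 with h7 | h7
      · exact orderOf_eq_one_iff.mp h7
      · rw [h7] at h5
        exact absurd h5 (by decide)
    have h2 : φ^[2] = _root_.id := by
      funext m
      apply Subtype.ext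
      show u * (u * (m : G) * u⁻¹) * u⁻¹ = m
      have huu : u * u = 1 := by
        have := pow_orderOf_eq_one u
        rw [hu, pow_two] at this
        exact this
      have huu' : u⁻¹ = u := inv_eq_of_mul_eq_one_left huu
      rw [huu']
      calc u * (u * (m : G) * u) * u = (u * u) * m * (u * u) := by group
        _ = m := by rw [huu]; group
    have h3 := hφ.coe_eq_inv_of_sq_eq_one h2
    have h4 := congrFun h3 ⟨m, hm⟩
    exact congrArg Subtype.val h4
  obtain ⟨m, hm, hm1⟩ : ∃ m ∈ M, m ≠ 1 := by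
    by_contra hcon
    push Not at hcon
    exact hM1 (eq_bot_iff.mpr fun m hm => hcon m hm)
  have h1 := key s hs hsM m hm
  have h2 := key t ht htM m hm
  have hst1 : s * t ≠ 1 := by
    intro h
    apply hst
    have h3 : t * t = 1 := by
      have := pow_orderOf_eq_one t
      rw [ht, pow_two] at this
      exact this
    exact mul_right_cancel (h.trans h3.symm)
  have hss : s * s = 1 := by
    have := pow_orderOf_eq_one s
    rw [hs, pow_two] at this
    exact this
  have htt : t * t = 1 := by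
    have := pow_orderOf_eq_one t
    rw [ht, pow_two] at this
    exact this
  have host : orderOf (s * t) = 2 := by
    apply orderOf_eq_prime
    · rw [pow_two]
      calc s * t * (s * t) = s * (t * s) * t := by group
        _ = s * (s * t) * t := by rw [← hc]
        _ = (s * s) * (t * t) := by group
        _ = 1 := by rw [hss, htt, one_mul]
    · exact hst1
  have h3 : m ∈ centralizer ({s * t} : Set G) := by
    rw [mem_centralizer_singleton_iff]
    have h4 : s * t * m * (s * t)⁻¹ = m := by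
      calc s * t * m * (s * t)⁻¹ = s * (t * m * t⁻¹) * s⁻¹ := by group
        _ = s * m⁻¹ * s⁻¹ := by rw [h2]
        _ = (s * m * s⁻¹)⁻¹ := by group
        _ = m := by rw [h1, inv_inv]
    rw [mul_inv_eq_iff_eq_mul] at h4
    exact h4.symm
  have h4 := hI _ host m h3
  have h5 : Odd (orderOf (⟨m, hm⟩ : M)) := hM.of_dvd_nat (orderOf_dvd_natCard _)
  rw [← Subgroup.orderOf_coe] at h5
  have h6 : orderOf m ∣ 2 := orderOf_dvd_of_pow_eq_one h4
  rcases (Nat.dvd_prime Nat.prime_two).mp h6 with h7 | h7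
  · exact hm1 (orderOf_eq_one_iff.mp h7)
  · simp only at h5
    rw [h7] at h5
    exact absurd h5 (by decide)

omit [Finite G] in
theorem isPGroup_cent (hI : Inv2 G) {t : G} (ht : orderOf t = 2) :
    IsPGroup 2 (centralizer ({t} : Set G)) := by
  intro a
  refine ⟨1, Subtype.ext ?_⟩
  rw [pow_one]
  exact hI t ht a a.2

omit [Finite G] in
theorem ord_two {x : G} (h : x ^ 2 = 1) (h1 : x ≠ 1) : orderOf x = 2 := by
  have : Fact (Nat.Prime 2) := ⟨Nat.prime_two⟩
  exact orderOf_eq_prime h h1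

/-- Step 2: if `Y` contains `t` and an element normalizing `C(t)` outside of it, `N(C(t)) ≤ Y`. -/
theorem normalizer_le (hcc : CC G) (hI : Inv2 G) {r : ℕ} (hr : r.Prime) (hr2 : r ≠ 2) {t : G}
    (ht : orderOf t = 2) (hcard : Nat.card (centralizer ({t} : Set G)) = r + 1)
    (hN : Nat.card (normalizer ((centralizer ({t} : Set G) : Subgroup G) : Set G)) = (r + 1) * r)
    {Y : Subgroup G} (htY : t ∈ Y) {g : G} (hgY : g ∈ Y)
    (hg : g ∈ normalizer ((centralizer ({t} : Set G) : Subgroup G) : Set G))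
    (hgP : g ∉ centralizer ({t} : Set G)) :
    normalizer ((centralizer ({t} : Set G) : Subgroup G) : Set G) ≤ Y := by
  have : Fact r.Prime := ⟨hr⟩
  set P := centralizer ({t} : Set G) with hP
  set N := normalizer (P : Set G) with hNdef
  have ht1 : t ≠ 1 := by
    intro h
    rw [h, orderOf_one] at ht
    omega
  have htP : t ∈ P := by rw [hP, mem_centralizer_singleton_iff]
  have hPN : P ≤ N := le_normalizer
  have hidx : (P.subgroupOf N).index = r := by
    have h1 : P.relIndex N * Nat.card P = Nat.card N := by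
      have h0 := (P.subgroupOf N).card_mul_index
      rw [Nat.card_congr (Subgroup.subgroupOfEquivOfLe hPN).toEquiv, mul_comm] at h0
      exact h0
    rw [hcard, hN] at h1
    have h2 : 0 < r + 1 := by omega
    show P.relIndex N = r
    exact Nat.eq_of_mul_eq_mul_right h2 (by rw [h1]; ring)
  have hroddN : ¬ 2 ∣ r := fun h => hr2 ((Nat.prime_dvd_prime_iff_eq Nat.prime_two hr).mp h).symm
  have hgr : g ^ r ∈ P := by
    have h1 := (P.subgroupOf N).pow_index_mem ⟨g, hg⟩
    rw [hidx] at h1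
    exact h1
  have hg2r : (g ^ 2) ^ r = 1 := by
    rw [← pow_mul, mul_comm, pow_mul]
    exact hI t ht _ hgr
  set h := g ^ 2 with hh
  have hh1 : h ≠ 1 := by
    intro h1
    apply hgP
    obtain ⟨k, hk⟩ := (Nat.even_or_odd r).resolve_left (fun he => hroddN he.two_dvd)
    rw [hk, pow_succ, pow_mul, ← hh, h1, one_pow, one_mul] at hgr
    exact hgr
  have hord : orderOf h = r := orderOf_eq_prime hg2r hh1
  have hhY : h ∈ Y := pow_mem hgY 2
  have hhN : h ∈ N := pow_mem hg 2
  -- action of `⟨h⟩` on `P ∩ Y`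
  have hstab : ∀ z ∈ zpowers h, ∀ a ∈ P ⊓ Y, z * a * z⁻¹ ∈ P ⊓ Y := by
    intro z hz a ha
    have hzN : z ∈ N := by
      have : zpowers h ≤ N := by rw [zpowers_le]; exact hhN
      exact this hz
    have hzY : z ∈ Y := by
      have : zpowers h ≤ Y := by rw [zpowers_le]; exact hhY
      exact this hz
    exact ⟨(Subgroup.mem_normalizer_iff.mp hzN a).mp ha.1, Y.mul_mem (Y.mul_mem hzY ha.2) (Y.inv_mem hzY)⟩
  let act : MulAction (zpowers h) (P ⊓ Y : Subgroup G) :=
    { smul := fun z a => ⟨(z : G) * a * (z : G)⁻¹, hstab z z.2 a a.2⟩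
      one_smul := fun a => by
        apply Subtype.ext
        show ((1 : zpowers h) : G) * a * ((1 : zpowers h) : G)⁻¹ = a
        simp
      mul_smul := fun y z a => by
        apply Subtype.ext
        show ((y * z : zpowers h) : G) * a * ((y * z : zpowers h) : G)⁻¹ = y * (z * a * (z : G)⁻¹) * (y : G)⁻¹
        rw [Subgroup.coe_mul]
        group }
  have hpg : IsPGroup r (zpowers h) := by
    rw [IsPGroup.iff_card]
    exact ⟨1, by rw [Nat.card_zpowers, hord, pow_one]⟩
  have hmod := hpg.card_modEq_card_fixedPoints (P ⊓ Y : Subgroup G)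
  have hfix : Nat.card (MulAction.fixedPoints (zpowers h) (P ⊓ Y : Subgroup G)) = 1 := by
    rw [Nat.card_eq_one_iff_unique]
    refine ⟨⟨?_⟩, ⟨⟨1, ?_⟩⟩⟩
    · have key : ∀ a : MulAction.fixedPoints (zpowers h) (P ⊓ Y : Subgroup G), (a : (P ⊓ Y : Subgroup G)) = 1 := by
        rintro ⟨⟨a, haP, haY⟩, ha⟩
        by_contra hne
        have ha1 : a ≠ 1 := fun h1 => hne (Subtype.ext h1)
        have h1 := congrArg Subtype.val (ha ⟨h, mem_zpowers h⟩)
        have h2 : h * a * h⁻¹ = a := h1
        have h3 : h ∈ centralizer ({a} : Set G) := by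
          rw [mem_centralizer_singleton_iff]
          rw [mul_inv_eq_iff_eq_mul] at h2
          exact h2
        rw [← cent_eq hcc ht1 ha1 haP] at h3
        have h4 := hI t ht h h3
        have h5 : r ∣ 2 := by rw [← hord]; exact orderOf_dvd_of_pow_eq_one h4
        exact hr2 ((Nat.prime_dvd_prime_iff_eq hr Nat.prime_two).mp h5)
      intro a b
      apply Subtype.ext
      rw [key a, key b]
    · rw [MulAction.mem_fixedPoints]
      intro z
      apply Subtype.ext
      show (z : G) * ((1 : (P ⊓ Y : Subgroup G)) : G) * (z : G)⁻¹ = 1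
      simp
  rw [hfix] at hmod
  have hPY1 : 1 < Nat.card (P ⊓ Y : Subgroup G) := by
    rw [Finite.one_lt_card_iff_nontrivial]
    exact ⟨⟨t, htP, htY⟩, 1, fun h1 => ht1 (congrArg Subtype.val h1)⟩
  have hdvd : r ∣ Nat.card (P ⊓ Y : Subgroup G) - 1 := (Nat.modEq_iff_dvd' (le_of_lt hPY1)).mp hmod.symm
  have hge : r + 1 ≤ Nat.card (P ⊓ Y : Subgroup G) := by
    have := Nat.le_of_dvd (by omega) hdvd
    omega
  have hPY : P ⊓ Y = P := by
    apply Subgroup.eq_of_le_of_card_ge inf_le_left
    rw [hcard]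
    exact hge
  have hPY' : P ≤ Y := by rw [← hPY]; exact inf_le_right
  have hd1 : (r + 1) ∣ Nat.card (N ⊓ Y : Subgroup G) := by
    rw [← hcard]
    exact Subgroup.card_dvd_of_le (le_inf hPN hPY')
  have hd2 : r ∣ Nat.card (N ⊓ Y : Subgroup G) := by
    have h1 : zpowers h ≤ N ⊓ Y := by
      rw [zpowers_le]
      exact ⟨hhN, hhY⟩
    have h2 := Subgroup.card_dvd_of_le h1
    rwa [Nat.card_zpowers, hord] at h2
  have hd3 : (r + 1) * r ∣ Nat.card (N ⊓ Y : Subgroup G) :=
    Nat.Coprime.mul_dvd_of_dvd_of_dvd (by simp) hd1 hd2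
  have hNY : N ⊓ Y = N := by
    apply Subgroup.eq_of_le_of_card_ge inf_le_left
    rw [hN]
    exact Nat.le_of_dvd Nat.card_pos hd3
  rw [← hNY]
  exact inf_le_right

theorem self_normalizing (hcc : CC G) (hI : Inv2 G)
    (hodd : ∀ x : G, x ≠ 1 → Odd (orderOf x) → ∀ g ∈ normalizer ((centralizer ({x} : Set G) : Subgroup G) : Set G),
      g * x * g⁻¹ = x ∨ g * x * g⁻¹ = x⁻¹)
    {r : ℕ} (hr : r.Prime) (hr2 : r ≠ 2)
    (hcard : ∀ t : G, orderOf t = 2 → Nat.card (centralizer ({t} : Set G)) = r + 1)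
    (hN : ∀ t : G, orderOf t = 2 →
      Nat.card (normalizer ((centralizer ({t} : Set G) : Subgroup G) : Set G)) = (r + 1) * r)
    {Y : Subgroup G} (hY : ¬ IsMulCommutative Y) : normalizer (Y : Set G) = Y := by
  have : Fact (Nat.Prime 2) := ⟨Nat.prime_two⟩
  have heven : Even (Nat.card Y) := by
    by_contra hne
    exact hY (comm_of_odd hcc hodd (Nat.not_even_iff_odd.mp hne))
  obtain ⟨t, htY, ht⟩ := StrongEmb.exists_involution_mem heven
  have ht1 : t ≠ 1 := by
    intro h
    rw [h, orderOf_one] at ht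
    omega
  set P := centralizer ({t} : Set G) with hP
  have htP : t ∈ P := by rw [hP, mem_centralizer_singleton_iff]
  -- a Sylow 2-subgroup of `Y` containing `t`
  have h2t : IsPGroup 2 (zpowers (⟨t, htY⟩ : Y)) := by
    rw [IsPGroup.iff_card]
    refine ⟨1, ?_⟩
    rw [Nat.card_zpowers, ← Subgroup.orderOf_coe, pow_one]
    exact ht
  obtain ⟨S, hS⟩ := h2t.exists_le_sylow
  have htS : (⟨t, htY⟩ : Y) ∈ (S : Subgroup Y) := hS (mem_zpowers _)
  have hSP : ∀ a ∈ (S : Subgroup Y), (a : G) ∈ P := by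
    have hSn : Nontrivial (S : Subgroup Y) := ⟨⟨_, htS⟩, 1, fun h => ht1 (congrArg (fun w : (S : Subgroup Y) => ((w : Y) : G)) h)⟩
    have hcn : Nontrivial (center (S : Subgroup Y)) := S.isPGroup'.center_nontrivial
    obtain ⟨⟨⟨z, hz⟩, hzc⟩, hz1⟩ := exists_ne (1 : center (S : Subgroup Y))
    have hz1' : z ≠ 1 := by
      intro h
      apply hz1
      apply Subtype.ext
      apply Subtype.ext
      exact h
    have hzG : (z : G) ≠ 1 := fun h => hz1' (Subtype.ext h)
    have hScomm : ∀ a ∈ (S : Subgroup Y), (a : G) ∈ centralizer ({(z : G)} : Set G) := by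
      intro a ha
      rw [mem_centralizer_singleton_iff]
      have h1 := Subgroup.mem_center_iff.mp hzc ⟨a, ha⟩
      have h2 := congrArg (fun w : (S : Subgroup Y) => ((w : Y) : G)) h1
      exact h2
    have h1 := cent_eq hcc hzG ht1 (hScomm _ htS)
    intro a ha
    rw [hP, ← h1]
    exact hScomm a ha
  have hPS : ∀ a : Y, (a : G) ∈ P → a ∈ (S : Subgroup Y) := by
    have h1 : IsPGroup 2 (P.subgroupOf Y) := by
      intro a
      refine ⟨1, Subtype.ext (Subtype.ext ?_)⟩
      rw [pow_one]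
      exact hI t ht ((a : Y) : G) a.2
    have h2 : P.subgroupOf Y = (S : Subgroup Y) := S.is_maximal' h1 (fun a ha => hSP a ha)
    intro a ha
    rw [← h2]
    exact ha
  apply le_antisymm _ le_normalizer
  intro x hx
  obtain ⟨y, hy⟩ := frattini S hx
  have hnt : ((y : G) * x) * t * ((y : G) * x)⁻¹ ∈ P := by
    obtain ⟨s', hs', h⟩ := hy ⟨t, htY⟩ htS
    have h' : ((y : G) * x) * t * ((y : G) * x)⁻¹ = s' := h
    rw [h']
    exact hSP s' hs'
  have hnN : (y : G) * x ∈ normalizer (P : Set G) := mem_normalizer_cent hcc ht1 hnt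
  by_cases hcase : ∃ g ∈ Y, g ∈ normalizer (P : Set G) ∧ g ∉ P
  · obtain ⟨g, hgY, hgN, hgP⟩ := hcase
    have h1 := normalizer_le hcc hI hr hr2 ht (hcard t ht) (hN t ht) htY hgY hgN hgP hnN
    have h2 := Y.mul_mem (Y.inv_mem y.2) h1
    rwa [inv_mul_cancel_left] at h2
  · push Not at hcase
    have hNS : normalizer ((S : Subgroup Y) : Set Y) ≤ centralizer ((S : Subgroup Y) : Set Y) := by
      intro g hg
      have h1 : (g : G) * t * (g : G)⁻¹ ∈ P :=
        hSP _ ((Subgroup.mem_normalizer_iff.mp hg ⟨t, htY⟩).mp htS)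
      have h2 : (g : G) ∈ P := hcase g g.2 (mem_normalizer_cent hcc ht1 h1)
      rw [Subgroup.mem_centralizer_iff]
      intro s hs
      apply Subtype.ext
      exact comm_elem (hcc t ht1) (hSP s hs) h2
    set f := MonoidHom.transferSylow S hNS with hf
    have hodd' := MonoidHom.not_dvd_card_ker_transferSylow S hNS
    have hMcard : Nat.card ((MonoidHom.ker f).map Y.subtype) = Nat.card (MonoidHom.ker f) :=
      (Nat.card_congr ((MonoidHom.ker f).equivMapOfInjective Y.subtype Y.subtype_injective).toEquiv).symm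
    have hModd : Odd (Nat.card ((MonoidHom.ker f).map Y.subtype)) := by
      rw [hMcard, ← Nat.not_even_iff_odd]
      intro he
      exact hodd' he.two_dvd
    have hMbot : (MonoidHom.ker f).map Y.subtype ≠ ⊥ := by
      intro h
      rw [Subgroup.map_eq_bot_iff_of_injective _ Y.subtype_injective, MonoidHom.ker_eq_bot_iff] at h
      apply hY
      apply comm_of_elem
      intro a ha b hb
      have hScomm : IsMulCommutative (S : Subgroup Y) := by
        apply comm_of_elem
        intro a ha b hb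
        apply Subtype.ext
        exact comm_elem (hcc t ht1) (hSP a ha) (hSP b hb)
      have h1 : f (⟨a, ha⟩ * ⟨b, hb⟩) = f (⟨b, hb⟩ * ⟨a, ha⟩) := by
        rw [map_mul, map_mul]
        exact hScomm.is_comm.comm _ _
      exact congrArg Subtype.val (h h1)
    -- elements of `N(Y)` normalize `M`
    have hMN : ∀ n ∈ normalizer (Y : Set G), ∀ m ∈ (MonoidHom.ker f).map Y.subtype,
        n * m * n⁻¹ ∈ (MonoidHom.ker f).map Y.subtype := by
      rintro n hn m ⟨m', hm', rfl⟩
      have hmY : n * (m' : G) * n⁻¹ ∈ Y := (Subgroup.mem_normalizer_iff.mp hn m').mp m'.2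
      refine ⟨⟨_, hmY⟩, ?_, rfl⟩
      show (⟨n * (m' : G) * n⁻¹, hmY⟩ : Y) ∈ MonoidHom.ker f
      rw [MonoidHom.mem_ker]
      have ho1 : Odd (orderOf (⟨n * (m' : G) * n⁻¹, hmY⟩ : Y)) := by
        rw [← Subgroup.orderOf_coe]
        show Odd (orderOf (n * (m' : G) * n⁻¹))
        have h1 : orderOf (n * (m' : G) * n⁻¹) = orderOf (m' : G) := by
          have h0 : SemiconjBy n (m' : G) (n * (m' : G) * n⁻¹) := by
            show n * (m' : G) = n * (m' : G) * n⁻¹ * n
            group
          exact (h0.orderOf_eq).symm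
        rw [h1, Subgroup.orderOf_coe]
        have h2 : Odd (Nat.card (MonoidHom.ker f)) := by rw [← hMcard]; exact hModd
        have h3 : orderOf (⟨m', hm'⟩ : MonoidHom.ker f) ∣ Nat.card (MonoidHom.ker f) := orderOf_dvd_natCard _
        rw [← Subgroup.orderOf_coe] at h3
        exact h2.of_dvd_nat h3
      have ho2 : Odd (orderOf (f ⟨n * (m' : G) * n⁻¹, hmY⟩)) := ho1.of_dvd_nat (orderOf_map_dvd f _)
      obtain ⟨k, hk⟩ := S.isPGroup' (f ⟨n * (m' : G) * n⁻¹, hmY⟩)
      have ho3 := orderOf_dvd_of_pow_eq_one hk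
      obtain ⟨j, hj, hj2⟩ := (Nat.dvd_prime_pow Nat.prime_two).mp ho3
      rw [hj2] at ho2
      rcases Nat.eq_zero_or_pos j with h0 | h0
      · rw [h0, pow_zero] at hj2
        exact orderOf_eq_one_iff.mp hj2
      · exfalso
        rw [← Nat.not_even_iff_odd] at ho2
        exact ho2 ((Nat.even_pow.mpr ⟨even_two, by omega⟩))
    have hYN : Y ≤ normalizer (Y : Set G) := le_normalizer
    have hSt : ∀ s ∈ normalizer (Y : Set G), s ∈ P → s = 1 ∨ s = t := by
      intro s hsN hsP
      by_contra hcon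
      push Not at hcon
      have hs2 : orderOf s = 2 := ord_two (hI t ht s hsP) hcon.1
      exact no_two_inv hI hModd hMbot hs2 ht hcon.2 (comm_elem (hcc t ht1) hsP htP)
        (hMN s hsN) (hMN t (hYN htY))
    have hyx : (y : G) * x ∈ normalizer (Y : Set G) := mul_mem (hYN y.2) hx
    have hconjN : ((y : G) * x) * t * ((y : G) * x)⁻¹ ∈ normalizer (Y : Set G) :=
      mul_mem (mul_mem hyx (hYN htY)) (inv_mem hyx)
    have h1 : ((y : G) * x) * t * ((y : G) * x)⁻¹ = t := by
      rcases hSt _ hconjN hnt with h | h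
      · exfalso
        apply ht1
        rw [mul_inv_eq_one] at h
        simpa using h
      · exact h
    have h2 : (y : G) * x ∈ P := by
      rw [hP, mem_centralizer_singleton_iff]
      rw [mul_inv_eq_iff_eq_mul] at h1
      exact h1
    have h3 : (y : G) * x ∈ Y := by
      rcases hSt _ hyx h2 with h | h
      · rw [h]; exact Y.one_mem
      · rw [h]; exact htY
    have h4 := Y.mul_mem (Y.inv_mem y.2) h3
    rwa [inv_mul_cancel_left] at h4

end main

section sl2

open Matrix Cfsg.Agent.Lib.SL2Basic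
open scoped MatrixGroups

variable {F : Type u} [Field F] [Fintype F] [CharP F 2]

omit [Fintype F] in
theorem sl2_cc : CC SL(2, F) := by
  intro x hx
  exact comm_of_elem fun a ha b hb => SL2Tori.centralizer_comm (SL2EvenInv.not_mem_center hx) ha hb

omit [Fintype F] in
theorem sl2_inv2 : Inv2 SL(2, F) := by
  have : Fact (Nat.Prime 2) := ⟨Nat.prime_two⟩
  intro t ht c hc
  by_cases hc1 : c = 1
  · rw [hc1, one_pow]
  have ht1 : t ≠ 1 := by
    intro h
    rw [h, orderOf_one] at ht
    omega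
  have htr := SL2EvenInv.tr_of_invol ht
  obtain ⟨x, y, hxy⟩ := (SL2Tori.mem_centralizer_iff' (SL2EvenInv.not_mem_center ht1)).mp hc
  have h1 := (SL2Tori.tr_of_eq hxy).1
  have h2 : (2 : F) = 0 := by exact_mod_cast CharP.cast_eq_zero F 2
  have h3 : tr t = 0 := by rw [tr_def, htr, h2]
  have h4 : (c : Matrix (Fin 2) (Fin 2) F) 0 0 + (c : Matrix (Fin 2) (Fin 2) F) 1 1 = 2 := by
    rw [← tr_def, h1, h2, h3]
    ring
  have h5 := (SL2Unip.orderOf_eq_char_iff 2 c).mpr ⟨hc1, h4⟩
  have h6 := pow_orderOf_eq_one c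
  rw [h5] at h6
  exact h6

omit [Fintype F] in
theorem sl2_odd (x : SL(2, F)) (hx : x ≠ 1) (ho : Odd (orderOf x)) (g : SL(2, F))
    (hg : g ∈ normalizer ((centralizer ({x} : Set SL(2, F)) : Subgroup SL(2, F)) : Set SL(2, F))) :
    g * x * g⁻¹ = x ∨ g * x * g⁻¹ = x⁻¹ := by
  have : Fact (Nat.Prime 2) := ⟨Nat.prime_two⟩
  have h2 : (2 : F) = 0 := by exact_mod_cast CharP.cast_eq_zero F 2
  apply (SL2Tori.mem_normalizer_centralizer_iff _ g).mp hg
  intro h4
  have h5 : tr x = 0 := by
    have h6 : (4 : F) = 0 := by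
      have : (4 : F) = 2 * 2 := by norm_num
      rw [this, h2, mul_zero]
    rw [h6] at h4
    exact pow_eq_zero_iff (two_ne_zero) |>.mp h4
  have h7 := (SL2Unip.orderOf_eq_char_iff 2 x).mpr ⟨hx, by rw [← tr_def, h5, h2]⟩
  rw [h7] at ho
  exact absurd ho (by decide)

theorem sl2_normalizer (t : SL(2, F)) (ht : orderOf t = 2) :
    Nat.card (normalizer ((centralizer ({t} : Set SL(2, F)) : Subgroup SL(2, F)) : Set SL(2, F))) =
      Fintype.card F * (Fintype.card F - 1) := by
  have ht1 : t ≠ 1 := by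
    intro h
    rw [h, orderOf_one] at ht
    omega
  set P := centralizer ({t} : Set SL(2, F)) with hP
  set N := normalizer (P : Set SL(2, F)) with hN
  have h1 := InvAct.card_conj_orbit N t
  have h2 : N ⊓ centralizer ({t} : Set SL(2, F)) = P := inf_eq_right.mpr le_normalizer
  have h3 : {v : SL(2, F) | ∃ k ∈ N, k * t * k⁻¹ = v} = (P : Set SL(2, F)) \ {1} := by
    ext v
    constructor
    · rintro ⟨k, hk, rfl⟩
      refine ⟨?_, ?_⟩
      · exact (Subgroup.mem_normalizer_iff.mp hk t).mp (by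
          show t ∈ P
          rw [hP, mem_centralizer_singleton_iff])
      · intro h
        apply ht1
        have h' : k * t * k⁻¹ = 1 := h
        rw [mul_inv_eq_one] at h'
        simpa using h'
    · rintro ⟨hv, hv1⟩
      have hv1' : v ≠ 1 := hv1
      have hv2 : orderOf v = 2 := ord_two (sl2_inv2 t ht v hv) hv1'
      obtain ⟨k, hk⟩ := isConj_iff.mp (SL2EvenInv.isConj_invol ht hv2)
      refine ⟨k, ?_, hk⟩
      apply mem_normalizer_cent sl2_cc ht1
      rw [hk]
      exact hv
  have h4 : ((P : Set SL(2, F)) \ {1}).ncard = Fintype.card F - 1 := by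
    rw [Set.ncard_sdiff_singleton_of_mem P.one_mem]
    congr 1
    exact SL2EvenInv.card_cent_invol ht
  rw [h3, h4, h2, hP, SL2EvenInv.card_cent_invol ht] at h1
  rw [h1, mul_comm]

theorem sl2_sn {n : ℕ} (hF : Fintype.card F = 2 ^ n) (hn : 2 ≤ n) (hr : (2 ^ n - 1).Prime) :
    SN SL(2, F) := by
  intro H hH
  have h1 : 4 ≤ 2 ^ n := by
    calc 4 = 2 ^ 2 := by norm_num
      _ ≤ 2 ^ n := Nat.pow_le_pow_right (by norm_num) hn
  have h2 : 2 ^ n - 1 + 1 = 2 ^ n := by omega
  have h3 : 2 ^ n - 1 ≠ 2 := by omega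
  apply self_normalizing sl2_cc sl2_inv2 sl2_odd hr h3 _ _ hH
  · intro t ht
    rw [h2, SL2EvenInv.card_cent_invol ht, hF]
  · intro t ht
    rw [h2, sl2_normalizer t ht, hF]

/-- Conversely -/
theorem prime_of_sl2_sn {n : ℕ} (hF : Fintype.card F = 2 ^ n) (hn : 2 ≤ n) (hSN : SN SL(2, F)) :
    (2 ^ n - 1).Prime := by
  have h2 : (2 : F) = 0 := by exact_mod_cast CharP.cast_eq_zero F 2
  have h1 : 4 ≤ 2 ^ n := by
    calc 4 = 2 ^ 2 := by norm_num
      _ ≤ 2 ^ n := Nat.pow_le_pow_right (by norm_num) hn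
  classical
  have hU : Nat.card Fˣ = 2 ^ n - 1 := by rw [Nat.card_eq_fintype_card, Fintype.card_units, hF]
  obtain ⟨p, hp, hpd⟩ := Nat.exists_prime_and_dvd (n := 2 ^ n - 1) (by omega)
  have := Fact.mk hp
  obtain ⟨a, ha⟩ := exists_prime_orderOf_dvd_card' (G := Fˣ) p (by rw [hU]; exact hpd)
  -- the subgroup `Y`
  let Y : Subgroup SL(2, F) :=
    { carrier := {g | (g : Matrix (Fin 2) (Fin 2) F) 1 0 = 0 ∧ ((g : Matrix (Fin 2) (Fin 2) F) 0 0) ^ p = 1}
      mul_mem' := by
        rintro g h ⟨hg1, hg2⟩ ⟨hh1, hh2⟩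
        refine ⟨?_, ?_⟩
        · show ((g * h : SL(2, F)) : Matrix (Fin 2) (Fin 2) F) 1 0 = 0
          rw [Matrix.SpecialLinearGroup.coe_mul, Matrix.mul_apply, Fin.sum_univ_two, hg1, hh1]
          ring
        · show (((g * h : SL(2, F)) : Matrix (Fin 2) (Fin 2) F) 0 0) ^ p = 1
          rw [Matrix.SpecialLinearGroup.coe_mul, Matrix.mul_apply, Fin.sum_univ_two, hh1, mul_zero, add_zero,
            mul_pow, hg2, hh2, one_mul]
      one_mem' := by
        refine ⟨?_, ?_⟩
        · show ((1 : SL(2, F)) : Matrix (Fin 2) (Fin 2) F) 1 0 = 0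
          simp
        · show (((1 : SL(2, F)) : Matrix (Fin 2) (Fin 2) F) 0 0) ^ p = 1
          simp
      inv_mem' := by
        rintro g ⟨hg1, hg2⟩
        have hdet : (g : Matrix (Fin 2) (Fin 2) F) 0 0 * (g : Matrix (Fin 2) (Fin 2) F) 1 1 = 1 := by
          have h := g.det_coe
          rw [Matrix.det_fin_two, hg1, mul_zero, sub_zero] at h
          exact h
        have hinv : ((g⁻¹ : SL(2, F)) : Matrix (Fin 2) (Fin 2) F) = !![(g : Matrix (Fin 2) (Fin 2) F) 1 1, -(g : Matrix (Fin 2) (Fin 2) F) 0 1; -(g : Matrix (Fin 2) (Fin 2) F) 1 0, (g : Matrix (Fin 2) (Fin 2) F) 0 0] := by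
          rw [Matrix.SpecialLinearGroup.coe_inv, Matrix.adjugate_fin_two]
        refine ⟨?_, ?_⟩
        · show ((g⁻¹ : SL(2, F)) : Matrix (Fin 2) (Fin 2) F) 1 0 = 0
          rw [hinv]
          simp [hg1]
        · show (((g⁻¹ : SL(2, F)) : Matrix (Fin 2) (Fin 2) F) 0 0) ^ p = 1
          rw [hinv]
          simp only [Matrix.of_apply, Matrix.cons_val', Matrix.cons_val_zero]
          have h3 : ((g : Matrix (Fin 2) (Fin 2) F) 0 0) ^ p * ((g : Matrix (Fin 2) (Fin 2) F) 1 1) ^ p = 1 := by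
            rw [← mul_pow, hdet, one_pow]
          rw [hg2, one_mul] at h3
          exact h3 }
  have hYmem : ∀ g : SL(2, F), g ∈ Y ↔ (g : Matrix (Fin 2) (Fin 2) F) 1 0 = 0 ∧ ((g : Matrix (Fin 2) (Fin 2) F) 0 0) ^ p = 1 :=
    fun g => Iff.rfl
  have hdg : ∀ c : Fˣ, ((SL2Tori.dg c : SL(2, F)) : Matrix (Fin 2) (Fin 2) F) = !![(c : F), 0; 0, ((c⁻¹ : Fˣ) : F)] := fun c => rfl
  have hup : ∀ b : F, ((SL2Unip.up b : SL(2, F)) : Matrix (Fin 2) (Fin 2) F) = !![1, b; 0, 1] := SL2Unip.coe_up
  have ha1 : (a : F) ≠ 1 := by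
    intro h
    have : a = 1 := Units.ext h
    rw [this, orderOf_one] at ha
    exact hp.ne_one ha.symm
  have hap : (a : F) ^ p = 1 := by
    have h3 := pow_orderOf_eq_one a
    rw [ha] at h3
    have h4 := congrArg (fun u : Fˣ => (u : F)) h3
    simpa using h4
  have hY1 : SL2Tori.dg a ∈ Y := by
    rw [hYmem, hdg]
    refine ⟨by simp, ?_⟩
    simpa using hap
  have hY2 : SL2Unip.up 1 ∈ Y := by
    rw [hYmem, hup]
    refine ⟨by simp, by simp⟩
  have hYna : ¬ IsMulCommutative Y := by
    intro h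
    have h3 := comm_elem h hY1 hY2
    have h4 := congrArg (fun g : SL(2, F) => (g : Matrix (Fin 2) (Fin 2) F) 0 1) h3
    simp only [Matrix.SpecialLinearGroup.coe_mul] at h4
    rw [hdg, hup] at h4
    simp [Matrix.mul_apply, Fin.sum_univ_two] at h4
    -- a = a⁻¹
    have h5 : (a : F) * a = 1 := by
      nth_rewrite 2 [h4]
      simp
    have h6 : ((a : F) - 1) * ((a : F) - 1) = 0 := by
      have : ((a : F) - 1) * ((a : F) - 1) = (a : F) * a - 2 * a + 1 := by ring
      rw [this, h5, h2]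
      have h7 : (1 : F) + 1 = 0 := by rw [one_add_one_eq_two, h2]
      rw [zero_mul, sub_zero, h7]
    have h7 : (a : F) - 1 = 0 := by
      rcases mul_eq_zero.mp h6 with h | h <;> exact h
    exact ha1 (sub_eq_zero.mp h7)
  have hN := hSN Y hYna
  have hall : ∀ c : Fˣ, c ^ p = 1 := by
    intro c
    have h3 : SL2Tori.dg c ∈ normalizer (Y : Set SL(2, F)) := by
      rw [Subgroup.mem_normalizer_iff]
      intro g
      have hinv : ((SL2Tori.dg c)⁻¹ : SL(2, F)) = SL2Tori.dg c⁻¹ := by
        rw [inv_eq_iff_mul_eq_one, ← SL2Tori.dg_mul, mul_inv_cancel, SL2Tori.dg_one]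
      have e10 : ((SL2Tori.dg c * g * (SL2Tori.dg c)⁻¹ : SL(2, F)) : Matrix (Fin 2) (Fin 2) F) 1 0 =
          ((c⁻¹ : Fˣ) : F) * (g : Matrix (Fin 2) (Fin 2) F) 1 0 * ((c⁻¹ : Fˣ) : F) := by
        rw [hinv, Matrix.SpecialLinearGroup.coe_mul, Matrix.SpecialLinearGroup.coe_mul, hdg, hdg]
        generalize (g : Matrix (Fin 2) (Fin 2) F) = M
        simp only [Matrix.mul_apply, Fin.sum_univ_two, Matrix.of_apply, Matrix.cons_val', Matrix.cons_val_zero,
          Matrix.cons_val_one, Matrix.cons_val_fin_one]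
        ring
      have e00 : ((SL2Tori.dg c * g * (SL2Tori.dg c)⁻¹ : SL(2, F)) : Matrix (Fin 2) (Fin 2) F) 0 0 =
          (g : Matrix (Fin 2) (Fin 2) F) 0 0 := by
        rw [hinv, Matrix.SpecialLinearGroup.coe_mul, Matrix.SpecialLinearGroup.coe_mul, hdg, hdg]
        generalize (g : Matrix (Fin 2) (Fin 2) F) = M
        have hcc : (c : F) * ((c⁻¹ : Fˣ) : F) = 1 := by simp
        simp only [Matrix.mul_apply, Fin.sum_univ_two, Matrix.of_apply, Matrix.cons_val', Matrix.cons_val_zero,
          Matrix.cons_val_one, Matrix.cons_val_fin_one]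
        linear_combination (M 0 0) * hcc
      show g ∈ Y ↔ SL2Tori.dg c * g * (SL2Tori.dg c)⁻¹ ∈ Y
      rw [hYmem, hYmem, e10, e00]
      constructor
      · rintro ⟨h4, h5⟩
        exact ⟨by rw [h4]; ring, h5⟩
      · rintro ⟨h4, h5⟩
        refine ⟨?_, h5⟩
        have h6 : ((c⁻¹ : Fˣ) : F) ≠ 0 := Units.ne_zero _
        simpa [h6] using h4
    rw [hN, hYmem, hdg] at h3
    have h4 := h3.2
    simp only [Matrix.of_apply, Matrix.cons_val', Matrix.cons_val_zero] at h4
    apply Units.ext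
    simpa using h4
  have hexp : orderOf a = Nat.card Fˣ := by
    apply Nat.dvd_antisymm (orderOf_dvd_natCard a)
    rw [ha]
    obtain ⟨g, hg⟩ := IsCyclic.exists_ofOrder_eq_natCard (α := Fˣ)
    rw [← hg]
    exact orderOf_dvd_of_pow_eq_one (hall g)
  rw [ha, hU] at hexp
  rw [← hexp]
  exact hp

end sl2

end Cfsg.Agent.Lib.H81SelfNorm2
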