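import Cfsg.Agent.Lib.FrobSchur2
import Cfsg.Agent.Lib.AltForm
import Cfsg.Agent.Lib.CharBasic2

/-!
# Real irreducible characters containing the trivial character of a subgroup with odd multiplicity (helper81)
-/

set_option autoImplicit false
open Cfsg

namespace Cfsg.Agent.Lib.RealMult

open CharBasic FrobSchur FrobSchur2 Representation
open scoped Matrix

universe u

variable {G : Type u} [Group G]

/-- If a real irreducible character `χ` of `G` contains the trivial character of the subgroup `S` with
odd multiplicity, then its Frobenius-Schur indicator is `1`. -/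
theorem fsInd_eq_one_of_odd_mult [Fintype G] {χ : G → ℂ} (hχ : IsIrrCharacter G χ)
    (hreal : ∀ g : G, (χ g).im = 0) (S : Subgroup G) [Fintype S] {a : ℕ}
    (ha : classInner (fun s : S => χ s) 1 = a) (hodd : Odd a) : fsInd χ = 1 := by
  classical
  obtain ⟨n, ρ, hρ, rfl⟩ := hχ
  obtain ⟨ε, hε, h0, M, hM0, hM, hMT, _⟩ := exists_form ρ hρ hreal
  rcases hε with h | h
  · rw [h0, h]
  exfalso
  subst h
  have hdet := det_ne_zero_of_invariant ρ hρ hM0 hM
  let σ : Representation ℂ S (Fin n → ℂ) := ρ.comp S.subtype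
  have h1 := classInner_one_eq_finrank_invariants σ
  have h2 : σ.character = fun s : S => ρ.character s := rfl
  rw [h2, ha] at h1
  have h3 : a = Module.finrank ℂ (invariants σ) := by exact_mod_cast h1
  -- the invariant form
  let B : (Fin n → ℂ) →ₗ[ℂ] (Fin n → ℂ) →ₗ[ℂ] ℂ := Matrix.toLinearMap₂' ℂ M
  have hB : ∀ u v, B u v = u ⬝ᵥ M *ᵥ v := fun u v => Matrix.toLinearMap₂'_apply' M u v
  have hρm : ∀ g v, ρ g v = (matRep ρ g).mulVec v := by
    intro g v
    rw [matRep_apply, LinearMap.toMatrix'_mulVec]
  have hBinv : ∀ g u v, B (ρ g u) (ρ g v) = B u v := by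
    intro g u v
    rw [hB, hB, hρm, hρm, Matrix.mulVec_mulVec]
    conv_rhs => rw [← hM g]
    rw [mul_assoc, ← Matrix.mulVec_mulVec v (matRep ρ g).transpose, Matrix.dotProduct_mulVec u,
      Matrix.vecMul_transpose]
  have hBalt : ∀ v, B v v = 0 := by
    intro v
    have h4 : v ⬝ᵥ M *ᵥ v = - (v ⬝ᵥ M *ᵥ v) := by
      conv_lhs => rw [Matrix.dotProduct_mulVec, ← Matrix.mulVec_transpose, hMT, Matrix.smul_mulVec,
        smul_dotProduct, dotProduct_comm]
      simp
    rw [hB]
    linear_combination h4 / 2
  have hev : Even (Module.finrank ℂ (invariants σ)) := by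
    apply AltForm.even_finrank (B.domRestrict₁₂ (invariants σ) (invariants σ)) (fun v => hBalt v)
    intro v hv
    have hcard : (Fintype.card S : ℂ) ≠ 0 := by exact_mod_cast Fintype.card_ne_zero
    let P : (Fin n → ℂ) → (Fin n → ℂ) := fun w => (Fintype.card S : ℂ)⁻¹ • ∑ s : S, ρ s w
    have hP : ∀ w, P w ∈ invariants σ := by
      intro w t
      change ρ t (P w) = P w
      simp only [P, map_smul, map_sum]
      congr 1
      refine Fintype.sum_equiv (Equiv.mulLeft t) _ _ ?_
      intro s
      simp
    have h5 : ∀ w, B v w = B v (P w) := by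
      intro w
      simp only [P, map_smul, map_sum]
      have h7 : ∀ s : S, B v (ρ s w) = B v w := by
        intro s
        have h8 : ρ s (v : Fin n → ℂ) = v := v.2 s
        conv_lhs => rw [← h8]
        rw [hBinv]
      simp only [h7]
      rw [Finset.sum_const, Finset.card_univ, nsmul_eq_mul, smul_eq_mul, ← mul_assoc,
        inv_mul_cancel₀ hcard, one_mul]
    have h6 : ∀ w, B v w = 0 := by
      intro w
      rw [h5]
      exact hv ⟨P w, hP w⟩
    have h9 : (v : Fin n → ℂ) ᵥ* M = 0 := by
      ext i
      have h10 := h6 (Pi.single i 1)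
      rw [hB, Matrix.dotProduct_mulVec] at h10
      simpa using h10
    apply Subtype.ext
    have h11 := Matrix.eq_zero_of_vecMul_eq_zero hdet h9
    exact h11
  rw [← h3] at hev
  exact (Nat.not_even_iff_odd.mpr hodd) hev

end Cfsg.Agent.Lib.RealMult
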