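import Cfsg.Agent.Lib.H81Real1
import Cfsg.Agent.Lib.RealMult
import Cfsg.Agent.Lib.SubgroupTools
import Cfsg.Prelude.Def_Transfer

/-!
# S4871: average degree of strongly real characters (helper81)
-/

set_option autoImplicit false
set_option linter.unusedSectionVars false

namespace Cfsg.Agent.Lib.H81Str

open scoped ComplexConjugate
open Cfsg Cfsg.Agent.Lib.CharBasic Cfsg.Agent.Lib.Clifford Cfsg.Agent.Lib.CliffordCorr
open Cfsg.Agent.Lib.RealOdd Cfsg.Agent.Lib.H81Real1 Cfsg.Agent.Lib.FrobSchur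
open Subgroup

universe u

variable {G : Type u} [Group G]

theorem inner_one_of_mul [Fintype G] (T P : Subgroup G) [Fintype P] {θ : T → ℂ}
    (hθ : IsClassFunction T θ) (hTP : ∀ g : G, ∃ y ∈ P, ∃ t ∈ T, g = y * t)
    (h1 : ∀ x : T, (x : G) ∈ P → θ x = 1)
    (hcard : Nat.card G * Nat.card (P ⊓ T : Subgroup G) = Nat.card P * Nat.card T) :
    classInner (fun s : P => indFun T θ s) 1 = 1 := by
  classical
  set A : ℂ := ∑ x : P, extendByZero T θ (x : G) with hA
  have key : ∀ g : G, ∑ x : P, extendByZero T θ (g⁻¹ * (x : G) * g) = A := by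
    intro g
    obtain ⟨y, hy, t, ht, rfl⟩ := hTP g
    have h2 : ∀ x : P, extendByZero T θ ((y * t)⁻¹ * (x : G) * (y * t)) =
        extendByZero T θ (y⁻¹ * (x : G) * y) := by
      intro x
      have h3 := IndFun.extendByZero_conj_inv T θ hθ t⁻¹ (T.inv_mem ht) (y⁻¹ * (x : G) * y)
      rw [← h3]
      congr 1
      group
    simp_rw [h2]
    rw [hA]
    refine Fintype.sum_equiv (MulAut.conj (⟨y, hy⟩⁻¹ : P)).toEquiv _ _ (fun x => ?_)
    congr 1
    show y⁻¹ * (x : G) * y = ((MulAut.conj (⟨y, hy⟩⁻¹ : P) x : P) : G)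
    rw [MulAut.conj_apply]
    simp
  have hA2 : A = (Nat.card (P ⊓ T : Subgroup G) : ℂ) := by
    have h2 : ∀ x : P, extendByZero T θ (x : G) = if (x : G) ∈ T then 1 else 0 := by
      intro x
      split_ifs with hx
      · rw [IndFun.extendByZero_mem T θ hx]
        exact h1 _ x.2
      · exact IndFun.extendByZero_not_mem T θ hx
    rw [hA]
    simp_rw [h2]
    rw [Finset.sum_boole]
    congr 1
    rw [← Fintype.card_subtype, ← Nat.card_eq_fintype_card]
    apply Nat.card_congr
    exact { toFun := fun x => ⟨x.1, x.1.2, x.2⟩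
            invFun := fun x => ⟨⟨x.1, x.2.1⟩, x.2.2⟩
            left_inv := fun _ => rfl
            right_inv := fun _ => rfl }
  have hG : (Nat.card G : ℂ) ≠ 0 := by exact_mod_cast Nat.card_pos.ne'
  have hPc : (Nat.card P : ℂ) ≠ 0 := by exact_mod_cast Nat.card_pos.ne'
  have hTc : (Nat.card T : ℂ) ≠ 0 := by exact_mod_cast Nat.card_pos.ne'
  rw [classInner]
  have h2 : ∑ s : P, indFun T θ (s : G) * conj ((1 : P → ℂ) s) =
      (Nat.card T : ℂ)⁻¹ * ((Nat.card G : ℂ) * A) := by
    have h3 : ∀ s : P, indFun T θ (s : G) * conj ((1 : P → ℂ) s) =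
        (Nat.card T : ℂ)⁻¹ * ∑ g : G, extendByZero T θ (g⁻¹ * (s : G) * g) := by
      intro s
      rw [Pi.one_apply, map_one, mul_one, IndFun.indFun_apply]
    simp_rw [h3]
    rw [← Finset.mul_sum, Finset.sum_comm]
    simp_rw [key]
    rw [Finset.sum_const, Finset.card_univ, nsmul_eq_mul, ← Nat.card_eq_fintype_card (α := G)]
  rw [h2, hA2]
  have h4 : (Nat.card G : ℂ) * (Nat.card (P ⊓ T : Subgroup G) : ℂ) =
      (Nat.card P : ℂ) * (Nat.card T : ℂ) := by exact_mod_cast hcard
  rw [h4]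
  field_simp

theorem exists_chi [Fintype G] (N P : Subgroup G) [Fintype P] [hN : N.Normal]
    (hodd : Odd (Nat.card N))
    (hab : ∀ a ∈ N, ∀ b ∈ N, a * b = b * a) (hP : IsPGroup 2 P) (hP1 : P ≠ ⊥)
    (hdisj : N ⊓ P = ⊥) (hprod : N ⊔ P = ⊤)
    (hNne : N ≠ ⊥) (hmin : ∀ M : Subgroup G, M.Normal → M ≠ ⊥ → N ≤ M) :
    ∃ χ : IrrCharacter G, 2 ∣ charDegree (χ : G → ℂ) ∧ fsInd (χ : G → ℂ) = 1 ∧
      classInner (fun s : P => (χ : G → ℂ) s) 1 = 1 := by
  classical
  have h2p : Fact (Nat.Prime 2) := ⟨Nat.prime_two⟩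
  have hdec : ∀ g : G, ∃ n ∈ N, ∃ y ∈ P, n * y = g := fun g =>
    mem_sup_of_normal_left.mp (show g ∈ N ⊔ P by rw [hprod]; trivial)
  have hNP : ¬ N ≤ P := by
    intro h
    apply hNne
    rw [← hdisj]
    exact (inf_eq_left.mpr h).symm
  -- faithful action
  have hfaith : P ⊓ centralizer (N : Set G) = ⊥ := by
    by_contra hne
    have hnorm : (P ⊓ centralizer (N : Set G)).Normal := by
      constructor
      intro x hx g
      obtain ⟨n, hn, y, hy, rfl⟩ := hdec g
      have h1 : y * x * y⁻¹ ∈ P ⊓ centralizer (N : Set G) := by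
        refine ⟨P.mul_mem (P.mul_mem hy hx.1) (P.inv_mem hy), ?_⟩
        have : (centralizer (N : Set G)).Normal := inferInstance
        exact this.conj_mem x hx.2 y
      have h2 : n * y * x * (n * y)⁻¹ = n * (y * x * y⁻¹) * n⁻¹ := by group
      rw [h2, (mem_centralizer_iff.mp h1.2) n hn, mul_assoc, mul_inv_cancel, mul_one]
      exact h1
    exact hNP ((hmin _ hnorm hne).trans inf_le_left)
  -- central involution
  obtain ⟨z, hzP, hz2, hz1, hzc⟩ : ∃ z ∈ P, z * z = 1 ∧ z ≠ 1 ∧ ∀ y ∈ P, z * y = y * z := by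
    have hnt : Nontrivial P := (Subgroup.nontrivial_iff_ne_bot P).mpr hP1
    have hc : Nontrivial (Subgroup.center P) := hP.center_nontrivial
    have h2 : 2 ∣ Nat.card (Subgroup.center P) := by
      have h3 : IsPGroup 2 (Subgroup.center P) := hP.to_subgroup _
      obtain ⟨k, hk⟩ := IsPGroup.iff_card.mp h3
      rw [hk]
      apply dvd_pow_self
      rintro rfl
      rw [pow_zero, Nat.card_eq_one_iff_unique] at hk
      exact (not_subsingleton _) hk.1
    obtain ⟨z, hz⟩ := exists_prime_orderOf_dvd_card' 2 h2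
    refine ⟨((z : P) : G), (z : P).2, ?_, ?_, ?_⟩
    · have h3 : z ^ 2 = 1 := by rw [← hz, pow_orderOf_eq_one]
      have h4 := congrArg (fun w : Subgroup.center P => ((w : P) : G)) h3
      rw [pow_two] at h4
      exact h4
    · intro h3
      have h4 : z = 1 := Subtype.ext (Subtype.ext h3)
      rw [h4, orderOf_one] at hz
      omega
    · intro y hy
      have h3 := (Subgroup.mem_center_iff.mp z.2) ⟨y, hy⟩
      exact (congrArg Subtype.val h3).symm
  have hzz : z⁻¹ = z := inv_eq_of_mul_eq_one_left hz2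
  have hfix : N ⊓ centralizer ({z} : Set G) = ⊥ := by
    by_contra hne
    have hnorm : (N ⊓ centralizer ({z} : Set G)).Normal := by
      constructor
      intro x hx g
      obtain ⟨n, hn, y, hy, rfl⟩ := hdec g
      have h1 : y * x * y⁻¹ ∈ N ⊓ centralizer ({z} : Set G) := by
        refine ⟨hN.conj_mem x hx.1 y, ?_⟩
        show y * x * y⁻¹ ∈ centralizer ({z} : Set G)
        rw [mem_centralizer_singleton_iff]
        have h2 : x * z = z * x := mem_centralizer_singleton_iff.mp hx.2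
        have h3 := hzc y hy
        calc y * x * y⁻¹ * z = y * x * (z⁻¹ * y)⁻¹ := by group
          _ = y * x * (z * y)⁻¹ := by rw [hzz]
          _ = y * x * (y * z)⁻¹ := by rw [h3]
          _ = y * (x * z⁻¹) * y⁻¹ := by group
          _ = y * (x * z) * y⁻¹ := by rw [hzz]
          _ = (y * z) * x * y⁻¹ := by rw [h2]; group
          _ = z * (y * x * y⁻¹) := by rw [← h3]; group
      have h2 : n * y * x * (n * y)⁻¹ = n * (y * x * y⁻¹) * n⁻¹ := by group
      rw [h2, hab n hn _ h1.1, mul_assoc, mul_inv_cancel, mul_one]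
      exact h1
    have h1 : N ≤ centralizer ({z} : Set G) := (hmin _ hnorm hne).trans inf_le_right
    have h2 : z ∈ P ⊓ centralizer (N : Set G) := by
      refine ⟨hzP, ?_⟩
      show z ∈ centralizer (N : Set G)
      rw [mem_centralizer_iff]
      intro n hn
      exact mem_centralizer_singleton_iff.mp (h1 hn)
    rw [hfaith, mem_bot] at h2
    exact hz1 h2
  have hinv : ∀ n ∈ N, z * n * z⁻¹ = n⁻¹ := by
    intro n hn
    have h1 : z * n * z⁻¹ ∈ N := hN.conj_mem n hn z
    have h2 : n * (z * n * z⁻¹) ∈ N ⊓ centralizer ({z} : Set G) := by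
      refine ⟨N.mul_mem hn h1, ?_⟩
      show n * (z * n * z⁻¹) ∈ centralizer ({z} : Set G)
      rw [mem_centralizer_singleton_iff]
      have h3 := hab n hn _ h1
      have h4 : z * (z * n * z⁻¹) * z⁻¹ = n := by
        calc z * (z * n * z⁻¹) * z⁻¹ = (z * z) * n * (z * z)⁻¹ := by group
          _ = n := by rw [hz2]; group
      calc n * (z * n * z⁻¹) * z = (z * n * z⁻¹) * n * z := by rw [h3]
        _ = (z * n * z⁻¹) * (z * (z * n * z⁻¹) * z⁻¹) * z := by rw [h4]
        _ = z * (n * (z * n * z⁻¹)) := by group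
    rw [hfix, mem_bot] at h2
    exact (inv_eq_of_mul_eq_one_right h2).symm
  -- a non-trivial character of `N`
  have hFN : Fintype N := Fintype.ofFinite N
  have hab' : ∀ a b : N, a * b = b * a := fun a b => Subtype.ext (hab a a.2 b b.2)
  obtain ⟨x, hx⟩ : ∃ x : N, x ≠ 1 := by
    by_contra hcon
    push Not at hcon
    apply hNne
    rw [eq_bot_iff]
    intro x hx
    exact congrArg Subtype.val (hcon ⟨x, hx⟩)
  obtain ⟨lam, hlam⟩ := LinChar.exists_ne_one hab' hx
  have hz : cjh N z lam = lam⁻¹ := by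
    ext n
    rw [cjh_apply]
    have h1 : (⟨z * n * z⁻¹, hN.conj_mem (n : G) n.2 z⟩ : N) = n⁻¹ :=
      Subtype.ext (hinv n n.2)
    rw [h1, map_inv]
    rfl
  have hlamne : lam ≠ lam⁻¹ := by
    intro h
    have h1 : lam x * lam x = 1 := by
      have := DFunLike.congr_fun h x
      rw [MonoidHom.inv_apply] at this
      nth_rewrite 1 [this]
      rw [inv_mul_cancel]
    have h2 : (lam x) ^ 2 = 1 := by rw [pow_two, h1]
    have h3 : orderOf (lam x) ∣ 2 := orderOf_dvd_of_pow_eq_one h2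
    have h4 : orderOf (lam x) ∣ Nat.card N := by
      apply orderOf_dvd_of_pow_eq_one
      rw [← map_pow, pow_card_eq_one', map_one]
    have h5 : orderOf (lam x) = 1 :=
      Nat.eq_one_of_dvd_coprimes (Nat.coprime_two_right.mpr hodd) h4 h3
    exact hlam (orderOf_eq_one_iff.mp h5)
  set I := inertia N (fn lam) with hI
  have hMI : N ≤ I := le_inertia (isIrr_fn lam).isClassFunction
  have hzI : z ∉ I := by
    intro h
    rw [hI, mem_inertia_fn, hz] at h
    exact hlamne h.symm
  have hMR : N ⊓ (I ⊓ P) = ⊥ := by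
    rw [eq_bot_iff, ← hdisj]
    exact inf_le_inf_left _ inf_le_right
  obtain ⟨D, hD⟩ : ∃ D : Subgroup G, D = N ⊔ (I ⊓ P) := ⟨_, rfl⟩
  obtain ⟨mu, hmu⟩ : ∃ mu : D →* ℂˣ, ∀ (x : D) (m : N) (r : G), r ∈ I ⊓ P → (x : G) = m * r →
      mu x = lam m := by
    rw [hD]
    exact exists_ext (I ⊓ P) hMR inf_le_left
  have hMD : N ≤ D := by rw [hD]; exact le_sup_left
  have hmem : ∀ d ∈ D, ∃ m ∈ N, ∃ r ∈ I ⊓ P, m * r = d := by
    intro d hd
    rw [hD] at hd
    exact mem_sup_of_normal_left.mp hd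
  have hDI : D = I := by
    apply le_antisymm
    · rw [hD]; exact sup_le hMI inf_le_left
    · intro x hx
      obtain ⟨m, hm, r, hr, rfl⟩ := hdec x
      have hr' : r ∈ I := by
        have := I.mul_mem (I.inv_mem (hMI hm)) hx
        simpa using this
      exact D.mul_mem (hMD hm) (by rw [hD]; exact mem_sup_right ⟨hr', hr⟩)
  have hT : ∀ g : G, g ∈ D ↔ cj N g (fn lam) = fn lam := by
    intro g
    rw [hDI]
    exact mem_inertia
  have hres : resTo N D hMD (fn mu) = fn lam := by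
    funext m
    show ((mu _ : ℂˣ) : ℂ) = ((lam m : ℂˣ) : ℂ)
    rw [hmu _ m 1 (one_mem _) (by simp)]
  have hne : classInner (resTo N D hMD (fn mu)) (fn lam) ≠ 0 := by
    rw [hres, (isIrr_fn lam).classInner_self]
    exact one_ne_zero
  obtain ⟨hirr, -⟩ := corr_irr hMD (isIrr_fn lam) hT (isIrrCharacter_of_unitsHom mu) hne
  have hirr' : IsIrrCharacter G (indFun D (fn mu)) := hirr
  -- real
  have hzN : z ∈ normalizer (D : Set G) := by
    rw [hDI]
    exact mem_normalizer_inertia hz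
  have hreal : ∀ g : G, (indFun D (fn mu) g).im = 0 := by
    rw [← conj_eq_iff_real]
    rw [← IndFun.indFun_conj]
    apply indFun_conj_normalizer D _ z _ _ hzN
    intro d d' hd
    obtain ⟨m, hm, r, hr, hmr⟩ := hmem d d.2
    have h1 : mu d = lam ⟨m, hm⟩ := hmu d ⟨m, hm⟩ r hr hmr.symm
    have h2 : mu d' = lam ⟨z * m * z⁻¹, hN.conj_mem m hm z⟩ := by
      apply hmu d' ⟨z * m * z⁻¹, hN.conj_mem m hm z⟩ r hr
      rw [hd, ← hmr]
      have h3 : z * r * z⁻¹ = r := by
        rw [hzc r hr.2, mul_assoc, mul_inv_cancel, mul_one]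
      calc z * (m * r) * z⁻¹ = (z * m * z⁻¹) * (z * r * z⁻¹) := by group
        _ = (z * m * z⁻¹) * r := by rw [h3]
    have h3 := DFunLike.congr_fun hz ⟨m, hm⟩
    rw [cjh_apply] at h3
    show conj ((mu d : ℂˣ) : ℂ) = ((mu d' : ℂˣ) : ℂ)
    rw [LinChar.conj_coe, h1, h2, h3]
    rfl
  -- multiplicity one
  have hDcard : Nat.card D = Nat.card N * Nat.card (I ⊓ P : Subgroup G) := by
    rw [hD]
    exact SubgroupTools.card_sup_of_disjoint (by rw [normalizer_eq_top]; exact le_top)
      (disjoint_iff.mpr hMR)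
  have hGcard : Nat.card G = Nat.card N * Nat.card P := by
    have h1 := SubgroupTools.card_sup_of_disjoint (N := N) (H := P)
      (by rw [normalizer_eq_top]; exact le_top) (disjoint_iff.mpr hdisj)
    rw [hprod, Subgroup.card_top] at h1
    exact h1
  have hinner : classInner (fun s : P => indFun D (fn mu) s) 1 = 1 := by
    apply inner_one_of_mul D P (isIrrCharacter_of_unitsHom mu).isClassFunction
    · intro g
      obtain ⟨n, hn, y, hy, hg⟩ := hdec g
      refine ⟨y, hy, y⁻¹ * n * y, hMD ?_, by rw [← hg]; group⟩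
      have := hN.conj_mem n hn y⁻¹
      simpa using this
    · intro x hx
      show ((mu x : ℂˣ) : ℂ) = 1
      have hxI : (x : G) ∈ I := by rw [← hDI]; exact x.2
      rw [hmu x 1 x ⟨hxI, hx⟩ (by simp), map_one, Units.val_one]
    · have h1 : P ⊓ D = I ⊓ P := by rw [hDI, inf_comm]
      rw [h1, hDcard, hGcard]
      ring
  refine ⟨⟨indFun D (fn mu), hirr'⟩, ?_, ?_, hinner⟩
  · -- even degree
    have hdeg : charDegree (indFun D (fn mu)) = D.index := by
      have h1 := BlockDeg.charDegree_cast hirr'.isCharacter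
      rw [IndFun.indFun_one] at h1
      have h2 : fn mu 1 = 1 := by
        show ((mu 1 : ℂˣ) : ℂ) = 1
        rw [map_one, Units.val_one]
      rw [h2, mul_one] at h1
      exact_mod_cast h1
    show 2 ∣ charDegree (indFun D (fn mu))
    rw [hdeg]
    have h1 : D.index ∣ N.index := Subgroup.index_dvd_of_le hMD
    have h2 : N.index = Nat.card P := by
      have h3 := Subgroup.card_mul_index N
      rw [hGcard] at h3
      exact Nat.eq_of_mul_eq_mul_left Nat.card_pos h3
    obtain ⟨k, hk⟩ := IsPGroup.iff_card.mp hP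
    rw [h2, hk] at h1
    obtain ⟨j, -, hj⟩ := (Nat.dvd_prime_pow Nat.prime_two).mp h1
    rw [hj]
    apply dvd_pow_self
    rintro rfl
    rw [pow_zero, Subgroup.index_eq_one] at hj
    apply hzI
    rw [← hDI, hj]
    trivial
  · exact RealMult.fsInd_eq_one_of_odd_mult hirr' hreal P (a := 1) (by
      rw [Nat.cast_one]; exact hinner) odd_one

theorem finite_hom' [Finite G] : Finite (G →* ℂˣ) := by
  apply Finite.of_injective (fun mu : G →* ℂˣ =>
    (⟨_, isIrrCharacter_of_unitsHom mu⟩ : IrrCharacter G))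
  intro a b h
  ext g
  exact congrFun (congrArg Subtype.val h) g

/-- the strongly real characters of degree `1` or even -/
abbrev AA (G : Type u) [Group G] : Type u := {χ : IrrCharacter G //
  (charDegree (χ : G → ℂ) = 1 ∨ 2 ∣ charDegree (χ : G → ℂ)) ∧
    (Nat.card G : ℂ)⁻¹ * ∑ᶠ g : G, (χ : G → ℂ) (g * g) = 1}

theorem ind_eq [Fintype G] (χ : G → ℂ) :
    (Nat.card G : ℂ)⁻¹ * ∑ᶠ g : G, χ (g * g) = fsInd χ := by
  rw [finsum_eq_sum_of_fintype]
  rfl

abbrev LL (G : Type u) [Group G] : Type u := {mu : G →* ℂˣ // mu * mu = 1}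

theorem card_lin_le [Finite G] : Nat.card {a : AA G // charDegree (a.1 : G → ℂ) = 1} ≤
    Nat.card (LL G) := by
  classical
  have hF := Fintype.ofFinite G
  have : Finite (G →* ℂˣ) := finite_hom'
  have hex : ∀ a : {a : AA G // charDegree (a.1 : G → ℂ) = 1}, ∃ mu : LL G,
      ∀ g, (a.1.1 : G → ℂ) g = (mu.1 g : ℂ) := by
    rintro ⟨⟨χ, hχ1, hχ2⟩, ha⟩
    have h1 : (χ : G → ℂ) 1 = 1 := by
      rw [← BlockDeg.charDegree_cast_irr, ha, Nat.cast_one]
    obtain ⟨mu, hmu⟩ := χ.2.isCharacter.exists_hom h1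
    rw [ind_eq] at hχ2
    have hreal : ∀ g, ((χ : G → ℂ) g).im = 0 := by
      by_contra hcon
      push Not at hcon
      have := (fsInd_trichotomy χ.2).2.mpr hcon
      rw [this] at hχ2
      exact zero_ne_one hχ2
    refine ⟨⟨mu, ?_⟩, hmu⟩
    ext g
    show ((mu g * mu g : ℂˣ) : ℂ) = 1
    rw [Units.val_mul]
    have h2 : conj ((mu g : ℂˣ) : ℂ) = (mu g : ℂ) := by
      rw [← hmu g]
      exact Complex.conj_eq_iff_im.mpr (hreal g)
    nth_rewrite 1 [← h2]
    rw [LinChar.conj_coe, ← Units.val_mul, inv_mul_cancel, Units.val_one]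
  choose F hF' using hex
  apply Nat.card_le_card_of_injective F
  intro a b hab
  apply Subtype.ext
  apply Subtype.ext
  apply Subtype.ext
  funext g
  rw [hF' a, hF' b, hab]

theorem count [Fintype G] (N P : Subgroup G) [Fintype P] [hN : N.Normal]
    (hodd : Odd (Nat.card N)) (hprod : N ⊔ P = ⊤) (χ : IrrCharacter G)
    (h2 : 2 ∣ charDegree (χ : G → ℂ)) (hfs : fsInd (χ : G → ℂ) = 1)
    (hin : classInner (fun s : P => (χ : G → ℂ) s) 1 = 1) :
    4 * Nat.card (AA G) ≤ 3 * ∑ᶠ a : AA G, charDegree (a.1 : G → ℂ) := by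
  classical
  have hfin : Finite (G →* ℂˣ) := finite_hom'
  have hFL : Fintype (LL G) := Fintype.ofFinite _
  have hFA : Fintype (AA G) := Fintype.ofFinite _
  rw [finsum_eq_sum_of_fintype, Nat.card_eq_fintype_card]
  have hmu1 : ∀ (mu : LL G) (g : G), ((mu.1 g : ℂˣ) : ℂ) * ((mu.1 g : ℂˣ) : ℂ) = 1 := by
    intro mu g
    have := DFunLike.congr_fun mu.2 g
    rw [← Units.val_mul, ← MonoidHom.mul_apply, this]
    rfl
  have hmul : ∀ mu : LL G, IsIrrCharacter G ((χ : G → ℂ) * fun g => (mu.1 g : ℂ)) := by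
    intro mu
    exact χ.2.mul_linear (isCharacter_of_unitsHom mu.1) (by
      show ((mu.1 1 : ℂˣ) : ℂ) = 1
      rw [map_one, Units.val_one])
  have hdeg : ∀ mu : LL G, charDegree ((χ : G → ℂ) * fun g => (mu.1 g : ℂ)) =
      charDegree (χ : G → ℂ) := by
    intro mu
    show ⌊((χ : G → ℂ) 1 * ((mu.1 1 : ℂˣ) : ℂ)).re⌋₊ = ⌊((χ : G → ℂ) 1).re⌋₊
    rw [map_one, Units.val_one, mul_one]
  let Φ : LL G → AA G := fun mu => ⟨⟨_, hmul mu⟩, Or.inr (by
    show 2 ∣ charDegree ((χ : G → ℂ) * fun g => (mu.1 g : ℂ))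
    rw [hdeg]; exact h2), by
    rw [ind_eq]
    show fsInd ((χ : G → ℂ) * fun g => (mu.1 g : ℂ)) = 1
    rw [← hfs, fsInd, fsInd]
    congr 1
    apply Finset.sum_congr rfl
    intro g _
    show (χ : G → ℂ) (g * g) * ((mu.1 (g * g) : ℂˣ) : ℂ) = _
    rw [map_mul, Units.val_mul, hmu1 mu g, mul_one]⟩
  have hinj : ∀ mu nu : LL G, (∀ x : P, mu.1 x = nu.1 x) → mu = nu := by
    intro mu nu h
    have hN1 : ∀ (mu : LL G) (n : G), n ∈ N → mu.1 n = 1 := by
      intro mu n hn
      have h1 : (mu.1 n) ^ 2 = 1 := by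
        rw [pow_two]
        exact DFunLike.congr_fun mu.2 n
      have h3 : orderOf (mu.1 n) ∣ 2 := orderOf_dvd_of_pow_eq_one h1
      have h4 : orderOf (mu.1 n) ∣ Nat.card N := by
        apply orderOf_dvd_of_pow_eq_one
        have h5 : n ^ Nat.card N = 1 := by
          have := congrArg Subtype.val (pow_card_eq_one' (x := (⟨n, hn⟩ : N)))
          rw [Subgroup.coe_pow] at this
          exact this
        rw [← map_pow, h5, map_one]
      exact orderOf_eq_one_iff.mp (Nat.eq_one_of_dvd_coprimes (Nat.coprime_two_right.mpr hodd) h4 h3)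
    apply Subtype.ext
    ext g
    obtain ⟨n, hn, y, hy, rfl⟩ := mem_sup_of_normal_left.mp
      (show g ∈ N ⊔ P by rw [hprod]; trivial)
    rw [map_mul, map_mul, hN1 mu n hn, hN1 nu n hn, h ⟨y, hy⟩]
  have hfib : ∀ b : AA G, (Finset.univ.filter (fun mu : LL G => Φ mu = b)).card ≤
      charDegree (b.1 : G → ℂ) := by
    intro b
    obtain ⟨a, ha, hba⟩ := (b.1.2.isCharacter.restrict P).exists_coeff
    have hdb : charDegree (b.1 : G → ℂ) = ∑ ψ : IrrCharacter P, a ψ * charDegree (ψ : P → ℂ) := by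
      have h1 : (b.1 : G → ℂ) 1 = ∑ ψ : IrrCharacter P, (a ψ : ℂ) * (ψ : P → ℂ) 1 := by
        have h2 := congrFun hba 1
        rw [Finset.sum_apply] at h2
        exact h2
      have h3 : ((charDegree (b.1 : G → ℂ) : ℕ) : ℂ) =
          ((∑ ψ : IrrCharacter P, a ψ * charDegree (ψ : P → ℂ) : ℕ) : ℂ) := by
        rw [BlockDeg.charDegree_cast_irr, h1, Nat.cast_sum]
        apply Finset.sum_congr rfl
        intro ψ _
        rw [Nat.cast_mul, BlockDeg.charDegree_cast_irr]
      exact_mod_cast h3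
    let ι : LL G → IrrCharacter P := fun mu =>
      ⟨fun x => ((mu.1 x : ℂˣ) : ℂ), isIrrCharacter_of_unitsHom (mu.1.comp P.subtype)⟩
    have hι : Function.Injective ι := by
      intro mu nu h
      apply hinj
      intro x
      have := congrFun (congrArg Subtype.val h) x
      exact Units.ext this
    have haι : ∀ mu : LL G, Φ mu = b → a (ι mu) = 1 := by
      intro mu hmu
      have h1 := ha (ι mu)
      have h2 : classInner (fun x : P => (b.1 : G → ℂ) x) (ι mu : P → ℂ) =
          classInner (fun s : P => (χ : G → ℂ) s) 1 := by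
        rw [← hmu, classInner, classInner]
        congr 1
        apply Finset.sum_congr rfl
        intro x _
        show (χ : G → ℂ) x * ((mu.1 x : ℂˣ) : ℂ) * conj ((mu.1 x : ℂˣ) : ℂ) = (χ : G → ℂ) x * conj 1
        rw [LinChar.conj_coe, mul_assoc, ← Units.val_mul, mul_inv_cancel, Units.val_one, map_one]
      rw [h1, hin] at h2
      exact_mod_cast h2
    rw [hdb]
    calc (Finset.univ.filter (fun mu : LL G => Φ mu = b)).card
        = ((Finset.univ.filter (fun mu : LL G => Φ mu = b)).image ι).card :=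
          (Finset.card_image_of_injective _ hι).symm
      _ = ∑ ψ ∈ (Finset.univ.filter (fun mu : LL G => Φ mu = b)).image ι, 1 := by
          rw [Finset.sum_const, smul_eq_mul, mul_one]
      _ ≤ ∑ ψ ∈ (Finset.univ.filter (fun mu : LL G => Φ mu = b)).image ι,
            a ψ * charDegree (ψ : P → ℂ) := by
          apply Finset.sum_le_sum
          intro ψ hψ
          obtain ⟨mu, hmu, rfl⟩ := Finset.mem_image.mp hψ
          rw [haι mu (Finset.mem_filter.mp hmu).2, one_mul]
          exact BlockDeg.charDegree_pos (ι mu).2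
      _ ≤ ∑ ψ : IrrCharacter P, a ψ * charDegree (ψ : P → ℂ) :=
          Finset.sum_le_sum_of_subset (Finset.subset_univ _)
  -- counting
  set B := Finset.univ.filter (fun a : AA G => ¬ charDegree (a.1 : G → ℂ) = 1) with hB
  have hΦB : ∀ mu : LL G, Φ mu ∈ B := by
    intro mu
    rw [hB, Finset.mem_filter]
    refine ⟨Finset.mem_univ _, ?_⟩
    show ¬ charDegree ((χ : G → ℂ) * fun g => (mu.1 g : ℂ)) = 1
    rw [hdeg]
    intro h
    rw [h] at h2
    omega
  have hL : Fintype.card (LL G) ≤ ∑ b ∈ B, charDegree (b.1 : G → ℂ) := by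
    have h1 : Fintype.card (LL G) = ∑ b ∈ B, (Finset.univ.filter (fun mu : LL G => Φ mu = b)).card :=
      Finset.card_eq_sum_card_fiberwise (fun mu _ => hΦB mu)
    rw [h1]
    exact Finset.sum_le_sum (fun b _ => hfib b)
  have hn1 : (Finset.univ.filter (fun a : AA G => charDegree (a.1 : G → ℂ) = 1)).card ≤
      Fintype.card (LL G) := by
    have h1 := card_lin_le (G := G)
    have h3 : Nat.card {a : AA G // charDegree (a.1 : G → ℂ) = 1} =
        (Finset.univ.filter (fun a : AA G => charDegree (a.1 : G → ℂ) = 1)).card := by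
      rw [← Fintype.card_subtype]
      exact Nat.card_eq_fintype_card
    have h4 : Nat.card (LL G) = Fintype.card (LL G) := Nat.card_eq_fintype_card
    rw [h3, h4] at h1
    exact h1
  have hBdeg : ∀ b ∈ B, 4 + charDegree (b.1 : G → ℂ) ≤ 3 * charDegree (b.1 : G → ℂ) := by
    intro b hb
    have h1 : ¬ charDegree (b.1 : G → ℂ) = 1 := (Finset.mem_filter.mp hb).2
    have h3 := BlockDeg.charDegree_pos b.1.2
    rcases b.2.1 with h | h
    · exact absurd h h1
    · obtain ⟨k, hk⟩ := h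
      omega
  have hsplit : ∑ a : AA G, charDegree (a.1 : G → ℂ) =
      (Finset.univ.filter (fun a : AA G => charDegree (a.1 : G → ℂ) = 1)).card +
        ∑ b ∈ B, charDegree (b.1 : G → ℂ) := by
    rw [← Finset.sum_filter_add_sum_filter_not Finset.univ
      (fun a : AA G => charDegree (a.1 : G → ℂ) = 1)]
    congr 1
    rw [Finset.card_eq_sum_ones]
    apply Finset.sum_congr rfl
    intro a ha
    exact (Finset.mem_filter.mp ha).2
  have hcard : Fintype.card (AA G) =
      (Finset.univ.filter (fun a : AA G => charDegree (a.1 : G → ℂ) = 1)).card + B.card := by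
    rw [hB, Finset.card_filter_add_card_filter_not, Finset.card_univ]
  have hsum : 4 * B.card + ∑ b ∈ B, charDegree (b.1 : G → ℂ) ≤
      3 * ∑ b ∈ B, charDegree (b.1 : G → ℂ) := by
    rw [Finset.mul_sum]
    have h1 : 4 * B.card + ∑ b ∈ B, charDegree (b.1 : G → ℂ) =
        ∑ b ∈ B, (4 + charDegree (b.1 : G → ℂ)) := by
      rw [Finset.sum_add_distrib, Finset.sum_const, smul_eq_mul, mul_comm]
    rw [h1]
    exact Finset.sum_le_sum hBdeg
  rw [hsplit, hcard]
  omega

theorem main [Finite G] (N P : Subgroup G) (hN : N.Normal) {q : ℕ} (hq : q.Prime)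
    (hq2 : q ≠ 2) (hNel : IsElementaryAbelian q N) (hP : IsPGroup 2 P) (hP1 : P ≠ ⊥)
    (hdisj : N ⊓ P = ⊥) (hprod : N ⊔ P = ⊤)
    (hmin : N ≠ ⊥ ∧ ∀ M : Subgroup G, M.Normal → M ≠ ⊥ → N ≤ M) :
    4 * Nat.card (AA G) ≤ 3 * ∑ᶠ a : AA G, charDegree (a.1 : G → ℂ) := by
  have hF := Fintype.ofFinite G
  have hFP : Fintype P := Fintype.ofFinite P
  have : Fact q.Prime := ⟨hq⟩
  have hNq : IsPGroup q N := fun x => ⟨1, by
    rw [pow_one]; exact Subtype.ext (by simpa using hNel.2 x x.2)⟩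
  have hodd : Odd (Nat.card N) := by
    obtain ⟨a, ha⟩ := IsPGroup.iff_card.mp hNq
    rw [ha]
    exact (hq.odd_of_ne_two hq2).pow
  obtain ⟨χ, h1, h2, h3⟩ := exists_chi N P hodd
    (fun a ha b hb => congrArg Subtype.val (hNel.1.is_comm.comm (⟨a, ha⟩ : N) ⟨b, hb⟩))
    hP hP1 hdisj hprod hmin.1 hmin.2
  exact count N P hodd hprod χ h1 h2 h3

end Cfsg.Agent.Lib.H81Str
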