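import Cfsg.Agent.Lib.H81Suz0
import Cfsg.Agent.S3360
import Cfsg.Agent.Lib.FFAut

/-!
# S3776, piece D: coordinates
-/

set_option autoImplicit false
set_option linter.all false

namespace Cfsg.Agent.Lib.H81Suz

open scoped IsMulCommutative

/-- counting for a semilinear transitive action -/
theorem Dcount {F : Type} [Field F] [Fintype F] {Y : Type*} [Group Y] [Finite Y] (f : Y → (F ≃+ F))
    (hone : ∀ v : F, f 1 v = v) (hmul : ∀ (a b : Y) (v : F), f (a * b) v = f a (f b v))
    (hf : ∀ a : Y, ∃ (b : F) (φ : F ≃+* F), ∀ v, f a v = b * φ v) (htr : ∀ w : F, w ≠ 0 → ∃ a : Y, f a 1 = w) :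
    ∃ (K : Subgroup Fˣ) (d : ℕ), d * Nat.card K = Nat.card F - 1 ∧ d ∣ Nat.card (F ≃+* F) ∧
      ∀ u ∈ K, ∃ a : Y, ∀ v, f a v = (u : F) * v := by
  have hne : ∀ a : Y, f a 1 ≠ 0 := by
    intro a h
    have h1 : f a 1 = f a 0 := by rw [h, map_zero]
    exact one_ne_zero ((f a).injective h1)
  have hf2 : ∀ a : Y, ∃ φ : F ≃+* F, ∀ v, f a v = f a 1 * φ v := by
    intro a
    obtain ⟨b, φ, h⟩ := hf a
    refine ⟨φ, fun v => ?_⟩
    rw [h v, h 1, map_one, mul_one]
  choose φ hφ using hf2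
  have huniq : ∀ (a : Y) (ψ : F ≃+* F), (∀ v, f a v = f a 1 * ψ v) → φ a = ψ := by
    intro a ψ h
    ext v
    have := (hφ a v).symm.trans (h v)
    exact mul_left_cancel₀ (hne a) this
  have hm1 : ∀ a b : Y, f (a * b) 1 = f a 1 * φ a (f b 1) := by
    intro a b
    rw [hmul, hφ a (f b 1)]
  let Φ : Y →* (F ≃+* F) :=
    { toFun := φ
      map_one' := huniq 1 1 (fun v => by rw [hone, hone]; exact (one_mul v).symm)
      map_mul' := fun a b => huniq _ _ (fun v => by
        rw [hm1, hmul, hφ b v, hφ a, map_mul, ← mul_assoc]; rfl) }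
  have hker : ∀ a : Φ.ker, ∀ v, φ (a : Y) v = v := by
    intro a v
    have h1 : Φ a = 1 := a.2
    have h2 : φ (a : Y) = 1 := h1
    rw [h2]; rfl
  let ψ : Φ.ker →* Fˣ :=
    { toFun := fun a => Units.mk0 (f (a : Y) 1) (hne _)
      map_one' := by
        ext
        show f ((1 : Φ.ker) : Y) 1 = 1
        exact hone 1
      map_mul' := fun a b => by
        ext
        show f ((a : Y) * (b : Y)) 1 = f (a : Y) 1 * f (b : Y) 1
        rw [hm1, hker a] }
  have hKc : ψ.ker.index = Nat.card ψ.range := Subgroup.index_ker ψ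
  have hΦ : Φ.ker.index = Nat.card Φ.range := Subgroup.index_ker Φ
  -- the stabilizer of `1`
  letI : MulAction Y F :=
    { smul := fun a v => f a v
      one_smul := hone
      mul_smul := hmul }
  have hsm : ∀ (a : Y) (v : F), a • v = f a v := fun a v => rfl
  have hS : (MulAction.stabilizer Y (1 : F)).index = Nat.card F - 1 := by
    rw [MulAction.index_stabilizer]
    have h1 : MulAction.orbit Y (1 : F) = {0}ᶜ := by
      ext w
      rw [Set.mem_compl_iff, Set.mem_singleton_iff, MulAction.mem_orbit_iff]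
      constructor
      · rintro ⟨a, rfl⟩; exact hne a
      · intro hw; exact htr w hw
    rw [h1, Set.ncard_compl, Set.ncard_singleton]
  have hle : ψ.ker.map Φ.ker.subtype ≤ MulAction.stabilizer Y (1 : F) := by
    rintro _ ⟨a, ha, rfl⟩
    rw [MulAction.mem_stabilizer_iff, hsm]
    exact congrArg Units.val (MonoidHom.mem_ker.1 ha)
  have h1 := Subgroup.index_dvd_of_le hle
  rw [Subgroup.index_map_subtype, hS, hKc, hΦ] at h1
  have h2 : Nat.card ψ.range ∣ Nat.card F - 1 := by
    have := Subgroup.card_subgroup_dvd_card ψ.range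
    rwa [Nat.card_units] at this
  obtain ⟨d, hd⟩ := h2
  refine ⟨ψ.range, d, by rw [hd, mul_comm], ?_, ?_⟩
  · have h3 : Nat.card Φ.range ∣ Nat.card (F ≃+* F) := Subgroup.card_subgroup_dvd_card Φ.range
    refine dvd_trans ?_ h3
    rw [hd] at h1
    exact Nat.dvd_of_mul_dvd_mul_left Nat.card_pos h1
  · rintro _ ⟨a, rfl⟩
    refine ⟨(a : Y), fun v => ?_⟩
    rw [hφ, hker a]; rfl

universe u

variable {G : Type u} [Group G] [Finite G] {Y : Subgroup (MulAut G)}

/-- the subgroup of the elements of order at most two -/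
def DV (h : Setup Y) : Subgroup G where
  carrier := {x | x ^ 2 = 1}
  one_mem' := one_pow 2
  mul_mem' := by
    intro a b ha hb
    have ha' : a ^ 2 = 1 := ha
    have hb' : b ^ 2 = 1 := hb
    have hc : Commute a b := h.cen a ha b
    show (a * b) ^ 2 = 1
    rw [hc.mul_pow, ha', hb', one_mul]
  inv_mem' := by
    intro a ha
    have ha' : a ^ 2 = 1 := ha
    show (a⁻¹) ^ 2 = 1
    rw [inv_pow, ha', inv_one]

theorem mem_DV (h : Setup Y) {x : G} : x ∈ DV h ↔ x ^ 2 = 1 := Iff.rfl

instance DV_comm (h : Setup Y) : IsMulCommutative ↥(DV h) := ⟨⟨fun a b => Subtype.ext (h.cen a a.2 b)⟩⟩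

/-- additive form -/
abbrev DA (h : Setup Y) : Type u := Additive ↥(DV h)

noncomputable instance DA_mod (h : Setup Y) : Module (ZMod 2) (DA h) :=
  AddCommGroup.zmodModule (n := 2) (fun x => by
    have h1 : (Additive.toMul x : ↥(DV h)) ^ 2 = 1 := Subtype.ext (Additive.toMul x).2
    exact h1)

/-- restriction of an automorphism -/
def Dres (h : Setup Y) (a : MulAut G) : ↥(DV h) ≃* ↥(DV h) where
  toFun x := ⟨a x, by
    have h1 : (x : G) ^ 2 = 1 := x.2
    rw [mem_DV, ← map_pow, h1, map_one]⟩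
  invFun x := ⟨a.symm x, by
    have h1 : (x : G) ^ 2 = 1 := x.2
    rw [mem_DV, ← map_pow, h1, map_one]⟩
  left_inv x := Subtype.ext (a.symm_apply_apply x)
  right_inv x := Subtype.ext (a.apply_symm_apply x)
  map_mul' x y := Subtype.ext (map_mul a (x : G) y)

/-- linear form -/
noncomputable def Dlin (h : Setup Y) (a : MulAut G) : DA h ≃ₗ[ZMod 2] DA h :=
  { (MulEquiv.toAdditive (Dres h a) : DA h ≃+ DA h) with
    map_smul' := fun c x => ZMod.map_smul (MulEquiv.toAdditive (Dres h a) : DA h ≃+ DA h) c x }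

theorem Dlin_apply (h : Setup Y) (a : MulAut G) (x : G) (hx : x ^ 2 = 1) :
    Dlin h a (Additive.ofMul ⟨x, hx⟩) = Additive.ofMul ⟨a x, by rw [mem_DV, ← map_pow, hx, map_one]⟩ := rfl

noncomputable def Drho (h : Setup Y) : Y →* (DA h ≃ₗ[ZMod 2] DA h) where
  toFun a := Dlin h a
  map_one' := LinearEquiv.ext fun x => rfl
  map_mul' a b := LinearEquiv.ext fun x => rfl

theorem exists_coord (h : Setup Y) (hsol : Group.IsSolvable Y)
    (htwo : ∃ x y : G, x ≠ y ∧ x ≠ 1 ∧ x ^ 2 = 1 ∧ y ≠ 1 ∧ y ^ 2 = 1) :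
    ∃ (F : Type) (_ : Field F) (_ : Fintype F) (_ : CharP F 2) (e : G → F) (K : Subgroup Fˣ) (n d : ℕ),
      Coord Y e ∧ Fintype.card F = 2 ^ n ∧ 2 ≤ n ∧ d * Nat.card K = 2 ^ n - 1 ∧ d ∣ n ∧
      ∀ u ∈ K, ∃ a ∈ Y, ∀ x : G, x ^ 2 = 1 → e (a x) = (u : F) * e x := by
  classical
  haveI : Fact (Nat.Prime 2) := ⟨Nat.prime_two⟩
  obtain ⟨x0, y0, hxy0, hx01, hx02, hy01, hy02⟩ := htwo
  haveI : Finite (DA h) := inferInstanceAs (Finite ↥(DV h))
  haveI : Nontrivial (DA h) := ⟨⟨Additive.ofMul ⟨x0, hx02⟩, 0, fun h1 => hx01 (congrArg (fun z : DA h => ((Additive.toMul z : ↥(DV h)) : G)) h1)⟩⟩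
  have htr : ∀ v w : DA h, v ≠ 0 → w ≠ 0 → ∃ a : Y, Drho h a v = w := by
    intro v w hv hw
    obtain ⟨a, ha, hav⟩ := h.trans (Additive.toMul v : ↥(DV h)) (Additive.toMul w : ↥(DV h)) (fun h1 => hv (Additive.toMul.injective (Subtype.ext h1)))
      (Additive.toMul v).2 (fun h1 => hw (Additive.toMul.injective (Subtype.ext h1))) (Additive.toMul w).2
    exact ⟨⟨a, ha⟩, Additive.toMul.injective (Subtype.ext hav)⟩
  have hsolr : Group.IsSolvable (Drho h).range :=
    Group.isSolvable_of_surjective (f := (Drho h).rangeRestrict) (Drho h).rangeRestrict_surjective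
  -- the number of elements
  have hpV : IsPGroup 2 (DV h) := h.two.to_subgroup _
  obtain ⟨n, hn⟩ := IsPGroup.iff_card.1 hpV
  have hcV : 2 < Nat.card (DV h) := by
    have h3 : ({1, x0, y0} : Set G).ncard = 3 := by
      rw [Set.ncard_eq_three]
      exact ⟨1, x0, y0, fun h1 => hx01 h1.symm, fun h1 => hy01 h1.symm, hxy0, rfl⟩
    have h4 : ({1, x0, y0} : Set G) ⊆ (DV h : Set G) := by
      rintro z (rfl | rfl | rfl)
      · exact (DV h).one_mem
      · exact hx02
      · exact hy02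
    have h5 := Set.ncard_le_ncard h4 (Set.toFinite _)
    rw [h3] at h5
    exact lt_of_lt_of_le (by norm_num) h5
  have hn2 : 2 ≤ n := by
    by_contra hcon
    have : n < 2 := by omega
    interval_cases n <;> omega
  haveI : Finite (Drho h).range := Finite.of_surjective _ (Drho h).rangeRestrict_surjective
  rcases S3360.result 2 (V := DA h) (G := (Drho h).range) hsolr (Drho h).range.subtype Subtype.coe_injective (by
    intro v w hv hw
    obtain ⟨a, ha⟩ := htr v w hv hw
    exact ⟨⟨Drho h a, a, rfl⟩, ha⟩) with ⟨F, _, _, e', he'⟩ | hcard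
  · have hsemi : ∀ a : Y, ∃ (b : F) (φ : F ≃+* F), ∀ v : DA h, e' (Drho h a v) = b * φ (e' v) := by
      intro a
      exact he' ⟨Drho h a, a, rfl⟩
    have hadd2 : ∀ v : DA h, v + v = 0 := by
      intro v
      have h1 : (Additive.toMul v : ↥(DV h)) ^ 2 = 1 := Subtype.ext (Additive.toMul v).2
      rw [pow_two] at h1
      exact h1
    have h20 : (2 : F) = 0 := by
      have h1 := hadd2 (e'.symm 1)
      have h2 := congrArg e' h1
      rw [map_add, e'.apply_symm_apply, map_zero] at h2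
      rw [← h2]; norm_num
    haveI : CharP F 2 := CharTwo.of_one_ne_zero_of_two_eq_zero one_ne_zero h20
    let f : Y → (F ≃+ F) := fun a => e'.symm.trans ((Drho h a).toAddEquiv.trans e')
    have hfa : ∀ (a : Y) (v : F), f a v = e' (Drho h a (e'.symm v)) := fun a v => rfl
    obtain ⟨K, d, hd1, hd2, hK⟩ := Dcount f (fun v => by rw [hfa, map_one]; exact e'.apply_symm_apply v)
      (fun a b v => by rw [hfa, hfa, hfa, e'.symm_apply_apply, map_mul]; rfl) (by
        intro a
        obtain ⟨b, φ, h1⟩ := hsemi a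
        refine ⟨b, φ, fun v => ?_⟩
        rw [hfa, h1, e'.apply_symm_apply]) (by
        intro w hw
        obtain ⟨a, ha⟩ := htr (e'.symm 1) (e'.symm w) (by simp) (by simpa using hw)
        exact ⟨a, by rw [hfa, ha, e'.apply_symm_apply]⟩)
    let e : G → F := fun x => if hx : x ^ 2 = 1 then e' (Additive.ofMul ⟨x, hx⟩) else 0
    have hex : ∀ (x : G) (hx : x ^ 2 = 1), e x = e' (Additive.ofMul ⟨x, hx⟩) := fun x hx => dif_pos hx
    have hea : ∀ (a : Y) (x : G) (hx : x ^ 2 = 1), e ((a : MulAut G) x) = e' (Drho h a (Additive.ofMul ⟨x, hx⟩)) := by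
      intro a x hx
      rw [hex _ (by rw [← map_pow, hx, map_one])]
      rfl
    have hcF : Nat.card F = 2 ^ n := by
      rw [← hn]
      exact (Nat.card_congr e'.toEquiv).symm
    have hsurj : ∀ v : F, ∃ x : G, x ^ 2 = 1 ∧ e x = v := by
      intro v
      refine ⟨((Additive.toMul (e'.symm v) : ↥(DV h)) : G), (Additive.toMul (e'.symm v)).2, ?_⟩
      rw [hex _ (Additive.toMul (e'.symm v)).2]
      exact e'.apply_symm_apply v
    have hsem : ∀ a ∈ Y, ∃ (b : F) (φ : F ≃+* F), b ≠ 0 ∧ ∀ x : G, x ^ 2 = 1 → e (a x) = b * φ (e x) := by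
      intro a ha
      obtain ⟨b, φ, h1⟩ := hsemi ⟨a, ha⟩
      refine ⟨b, φ, ?_, ?_⟩
      · rintro rfl
        have h2 := h1 (Additive.ofMul ⟨x0, hx02⟩)
        rw [zero_mul] at h2
        have h3 : Drho h ⟨a, ha⟩ (Additive.ofMul ⟨x0, hx02⟩) = 0 := by
          apply e'.injective; rw [h2, map_zero]
        have h4 : (Additive.ofMul ⟨x0, hx02⟩ : DA h) = 0 := by
          apply (Drho h ⟨a, ha⟩).injective; rw [h3, map_zero]
        exact hx01 (congrArg (fun z : DA h => ((Additive.toMul z : ↥(DV h)) : G)) h4)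
      · intro x hx
        rw [hea ⟨a, ha⟩ x hx, h1, hex x hx]
    refine ⟨F, inferInstance, inferInstance, inferInstance, e, K, n, d, ?_, ?_, hn2, ?_, ?_, ?_⟩
    · refine ⟨?_, ?_, hsurj, hsem, ?_, ?_⟩
      · intro x y hx hy
        have hxy : (x * y) ^ 2 = 1 := (DV h).mul_mem (x := x) (y := y) hx hy
        rw [hex x hx, hex y hy, hex _ hxy, ← map_add]
        rfl
      · intro x hx hx0
        rw [hex x hx] at hx0
        have h1 : (Additive.ofMul ⟨x, hx⟩ : DA h) = 0 := by apply e'.injective; rw [hx0, map_zero]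
        exact congrArg (fun z : DA h => ((Additive.toMul z : ↥(DV h)) : G)) h1
      · intro b hb
        obtain ⟨x1, hx1, hx1e⟩ := hsurj 1
        obtain ⟨xb, hxb, hxbe⟩ := hsurj b
        obtain ⟨a, ha, hax⟩ := h.trans x1 xb (by
            rintro rfl
            have h0 : e (1 : G) = 0 := by rw [hex 1 (one_pow 2)]; exact map_zero e'
            rw [h0] at hx1e
            exact zero_ne_one hx1e) hx1 (by
            rintro rfl
            have h0 : e (1 : G) = 0 := by rw [hex 1 (one_pow 2)]; exact map_zero e'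
            rw [h0] at hxbe
            exact hb hxbe.symm) hxb
        obtain ⟨b', φ, hb', h1⟩ := hsem a ha
        have h2 := h1 x1 hx1
        rw [hax, hxbe, hx1e, map_one, mul_one] at h2
        exact ⟨a, ha, φ, by rw [h2]; exact h1⟩
      · rw [← Nat.card_eq_fintype_card, hcF]
        calc 4 = 2 ^ 2 := by norm_num
          _ ≤ 2 ^ n := Nat.pow_le_pow_right (by norm_num) hn2
    · rw [← Nat.card_eq_fintype_card, hcF]
    · rw [hd1, hcF]
    · rw [FFAut.card_aut (p := 2) (f := n) (by rw [← Nat.card_eq_fintype_card, hcF])] at hd2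
      exact hd2
    · intro u hu
      obtain ⟨a, ha⟩ := hK u hu
      refine ⟨a, a.2, fun x hx => ?_⟩
      have h1 := ha (e x)
      rw [hfa, hex x hx, e'.symm_apply_apply] at h1
      rw [hea a x hx, h1, hex x hx]
  · exfalso
    have h1 : Nat.card (DA h) = 2 ^ n := hn
    rw [h1] at hcard
    obtain ⟨m, rfl⟩ := Nat.exists_eq_add_of_le' hn2
    rw [pow_add] at hcard
    simp only [Set.mem_insert_iff, Set.mem_singleton_iff] at hcard
    omega

end Cfsg.Agent.Lib.H81Suz
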