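import Cfsg.Agent.Lib.CN5
import Cfsg.Agent.Lib.CN11
import Cfsg.Agent.Lib.FrobAction2

/-!
# Groups in which element centralizers are TI (helper81)
-/

set_option autoImplicit false
open Cfsg

namespace Cfsg.Agent.Lib.H81TI1

open Subgroup Cfsg.Agent.Lib Cfsg.Agent.Lib.CN

universe u

/-- centralizers of all elements are TI. -/
def CT (G : Type u) [Group G] : Prop :=
  ∀ x : G, Cfsg.IsTISubset (centralizer ({x} : Set G) : Set G)

variable {G : Type u} [Group G]

theorem mem_cent_self (x : G) : x ∈ centralizer ({x} : Set G) := by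
  rw [mem_centralizer_singleton_iff]

theorem CT.mem_norm (h : CT G) {x y g : G} (hy : y ∈ centralizer ({x} : Set G)) (hy1 : y ≠ 1)
    (hg : g * y * g⁻¹ ∈ centralizer ({x} : Set G)) :
    g ∈ normalizer ((centralizer ({x} : Set G) : Subgroup G) : Set G) := by
  by_contra hcon
  exact hy1 (h x g hcon y hy hg)

/-- If all centralizers of elements are normal, the group is nilpotent. -/
theorem nilp_of_normal {X : Type*} [Group X] [Finite X]
    (h : ∀ x : X, (centralizer ({x} : Set X)).Normal) : Group.IsNilpotent X := by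
  rw [(Group.isNilpotent_of_finite_tfae (G := X)).out 0 3 rfl rfl]
  intro p hp P
  have hle : (P : Subgroup X) ≤ pCore p X := by
    intro x hx
    have hxn := h x
    let A : Subgroup X := centralizer ((centralizer ({x} : Set X) : Subgroup X) : Set X)
    have hAn : A.Normal := by
      constructor
      intro a ha g
      rw [Subgroup.mem_centralizer_iff] at ha ⊢
      intro c hc
      have h1 : g⁻¹ * c * g ∈ centralizer ({x} : Set X) := by
        have := hxn.conj_mem c hc g⁻¹
        rwa [inv_inv] at this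
      have h2 := ha _ h1
      calc c * (g * a * g⁻¹) = g * ((g⁻¹ * c * g) * a) * g⁻¹ := by group
        _ = g * (a * (g⁻¹ * c * g)) * g⁻¹ := by rw [h2]
        _ = g * a * g⁻¹ * c := by group
    have hAc : A ≤ centralizer ({x} : Set X) := by
      intro a ha
      rw [mem_centralizer_singleton_iff]
      exact ((Subgroup.mem_centralizer_iff.mp ha) x (mem_cent_self x)).symm
    have hxA : x ∈ A := by
      show x ∈ centralizer _
      rw [Subgroup.mem_centralizer_iff]
      intro c hc
      exact mem_centralizer_singleton_iff.mp hc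
    have hAnil : Group.IsNilpotent A := by
      apply isNilpotent_of_comm
      intro a ha b hb
      exact (Subgroup.mem_centralizer_iff.mp hb a (hAc ha))
    obtain ⟨Q, hQn, hQA, hQp, hQ⟩ := exists_normal_syl hAnil p
    have hxQ : x ∈ Q := by
      apply hQ x hxA
      obtain ⟨k, hk⟩ := IsPGroup.iff_orderOf.mp P.2 ⟨x, hx⟩
      rw [orderOf_mk] at hk
      exact ⟨k, hk⟩
    exact Cores.le_pCore hQn hQp hxQ
  have h1 : (P : Subgroup X) = pCore p X := le_antisymm hle (Cores.pCore_le_sylow P)
  rw [h1]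
  infer_instance

/-- proper centralizers have normal element centralizers. -/
theorem CT.cent_nilp [Finite G] (h : CT G) {x : G} (hx : x ≠ 1) :
    Group.IsNilpotent (centralizer ({x} : Set G)) := by
  apply nilp_of_normal
  intro y
  constructor
  intro c hc g
  have hg : (g : G) ∈ normalizer ((centralizer ({(y : G)} : Set G) : Subgroup G) : Set G) := by
    apply h.mem_norm (y := x) (x := (y : G))
    · rw [mem_centralizer_singleton_iff]
      exact (mem_centralizer_singleton_iff.mp y.2).symm
    · exact hx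
    · have h1 : (g : G) * x * (g : G)⁻¹ = x := by
        rw [mem_centralizer_singleton_iff.mp g.2]; group
      rw [h1, mem_centralizer_singleton_iff]
      exact (mem_centralizer_singleton_iff.mp y.2).symm
  rw [mem_centralizer_singleton_iff] at hc ⊢
  have hc' : (c : G) ∈ centralizer ({(y : G)} : Set G) := by
    rw [mem_centralizer_singleton_iff]
    exact congrArg Subtype.val hc
  have h2 := (Subgroup.mem_normalizer_iff.mp hg (c : G)).mp hc'
  apply Subtype.ext
  exact mem_centralizer_singleton_iff.mp h2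

theorem CT.isCN [Finite G] (h : CT G) : IsCNGroup G := fun _ hx => h.cent_nilp hx

/-- a nontrivial centre forces nilpotency. -/
theorem CT.nilp_of_center [Finite G] (h : CT G) (hc : center G ≠ ⊥) : Group.IsNilpotent G := by
  obtain ⟨z, hz, hz1⟩ : ∃ z ∈ center G, z ≠ 1 := by
    by_contra hcon
    push Not at hcon
    exact hc (eq_bot_iff.mpr fun z hz => hcon z hz)
  apply nilp_of_normal
  intro x
  rw [← Subgroup.normalizer_eq_top_iff, Subgroup.eq_top_iff']
  intro g
  have hz' : z ∈ centralizer ({x} : Set G) := by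
    rw [mem_centralizer_singleton_iff]
    exact (Subgroup.mem_center_iff.mp hz x).symm
  apply h.mem_norm hz' hz1
  have h1 : g * z * g⁻¹ = z := by rw [Subgroup.mem_center_iff.mp hz g]; group
  rw [h1]; exact hz'

section maxnilp

variable [Finite G]

theorem CT.ti (h : CT G) {H : Subgroup G} (hH : IsMaxNilp H) {g y : G} (hy : y ∈ H) (hy1 : y ≠ 1)
    (hg : g * y * g⁻¹ ∈ H) : g ∈ normalizer (H : Set G) := by
  have hHb : H ≠ ⊥ := by
    rintro rfl
    exact hy1 ((Subgroup.mem_bot).mp hy)
  obtain ⟨z, hz, hz1, hzc⟩ := exists_central hH.1 hHb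
  have h1 := hH.centralizer_eq h.isCN hz1 hzc
  have h2 := h.mem_norm (x := z) (y := y) (g := g) (h1 ▸ hy) hy1 (h1 ▸ hg)
  rwa [h1] at h2

theorem CT.cent_le (h : CT G) {H : Subgroup G} (hH : IsMaxNilp H) {x : G} (hx : x ∈ H) (hx1 : x ≠ 1) :
    centralizer ({x} : Set G) ≤ H := by
  apply hH.centralizer_le_of_ti h.isCN _ hx hx1
  intro g hg
  by_contra hne
  apply hg
  obtain ⟨y, hy, hy1⟩ : ∃ y ∈ H ⊓ H.map (MulAut.conj g).toMonoidHom, y ≠ 1 := by
    by_contra hcon
    push Not at hcon
    exact hne (eq_bot_iff.mpr fun z hz => hcon z hz)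
  obtain ⟨w, hw, hwy⟩ := hy.2
  have hwy' : g * w * g⁻¹ = y := hwy
  have hw1 : w ≠ 1 := by
    rintro rfl
    apply hy1
    rw [← hwy']; group
  have hg' := h.ti hH hw hw1 (hwy' ▸ hy.1)
  ext v
  constructor
  · rintro ⟨w', hw', rfl⟩
    exact (Subgroup.mem_normalizer_iff.mp hg' w').mp hw'
  · intro hv
    refine ⟨g⁻¹ * v * g, ?_, by show g * (g⁻¹ * v * g) * g⁻¹ = v; group⟩
    have h3 := (Subgroup.mem_normalizer_iff.mp hg' (g⁻¹ * v * g)).mpr
    apply h3
    have : g * (g⁻¹ * v * g) * g⁻¹ = v := by group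
    rw [this]; exact hv

/-- `N(H)` normalizes all `C(x)`, `x ∈ H`. -/
theorem CT.norm_cent (h : CT G) {H : Subgroup G} (hH : IsMaxNilp H) {x : G} (hx : x ∈ H) {m : G}
    (hm : m ∈ normalizer (H : Set G)) :
    m ∈ normalizer ((centralizer ({x} : Set G) : Subgroup G) : Set G) := by
  by_cases hHb : H = ⊥
  · have hx1 : x = 1 := by rw [hHb] at hx; exact (Subgroup.mem_bot).mp hx
    have h1 : (centralizer ({x} : Set G) : Subgroup G) = ⊤ := by
      rw [Subgroup.eq_top_iff']
      intro g
      rw [mem_centralizer_singleton_iff, hx1]; group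
    rw [h1]
    exact Subgroup.mem_normalizer_iff.mpr fun _ => by simp
  obtain ⟨z, hz, hz1, hzc⟩ := exists_central hH.1 hHb
  have hz' : m⁻¹ * z * m ∈ H := by
    have h3 := (Subgroup.mem_normalizer_iff.mp hm (m⁻¹ * z * m)).mpr
    apply h3
    have : m * (m⁻¹ * z * m) * m⁻¹ = z := by group
    rw [this]; exact hz
  -- `m⁻¹ z m` is central in `H`
  apply h.mem_norm (y := m⁻¹ * z * m) (x := x)
  · rw [mem_centralizer_singleton_iff]
    have h4 : m * x * m⁻¹ ∈ H := (Subgroup.mem_normalizer_iff.mp hm x).mp hx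
    have h5 := hzc _ h4
    calc m⁻¹ * z * m * x = m⁻¹ * (z * (m * x * m⁻¹)) * m := by group
      _ = m⁻¹ * (m * x * m⁻¹ * z) * m := by rw [h5]
      _ = x * (m⁻¹ * z * m) := by group
  · intro h1
    apply hz1
    have : z = m * (m⁻¹ * z * m) * m⁻¹ := by group
    rw [this, h1]; group
  · have h6 : m * (m⁻¹ * z * m) * m⁻¹ = z := by group
    rw [h6, mem_centralizer_singleton_iff]
    exact (hzc x hx).symm

/-- the maximal nilpotent subgroup containing a Sylow subgroup -/
theorem exists_maxNilp_sylow (p : ℕ) [Fact p.Prime] (P : Sylow p G) :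
    ∃ H : Subgroup G, IsMaxNilp H ∧ (P : Subgroup G) ≤ H :=
  exists_isMaxNilp_ge P.2.isNilpotent

/-- a nontrivial normal `p`-subgroup gives a nontrivial normal nilpotent Hall subgroup. -/
theorem CT.fittingHall_ne_bot (h : CT G) {p : ℕ} [hp : Fact p.Prime] (hne : pCore p G ≠ ⊥) :
    fittingHall G ≠ ⊥ := by
  obtain ⟨P⟩ : Nonempty (Sylow p G) := inferInstance
  obtain ⟨H, hH, hPH⟩ := exists_maxNilp_sylow p P
  obtain ⟨y, hy, hy1⟩ : ∃ y ∈ pCore p G, y ≠ 1 := by
    by_contra hcon
    push Not at hcon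
    exact hne (eq_bot_iff.mpr fun z hz => hcon z hz)
  have hle : pCore p G ≤ H := (Cores.pCore_le_sylow P).trans hPH
  have hn : H.Normal := by
    rw [← Subgroup.normalizer_eq_top_iff, Subgroup.eq_top_iff']
    intro g
    exact h.ti hH (hle hy) hy1 (hle ((inferInstance : (pCore p G).Normal).conj_mem y hy g))
  have h1 : H ≤ fittingHall G := by
    apply le_sSup
    exact ⟨hn, hH.1, hH.coprime_index h.isCN⟩
  intro hbot
  rw [hbot] at h1
  exact hy1 ((Subgroup.mem_bot).mp (h1 (hle hy)))

end maxnilp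

end Cfsg.Agent.Lib.H81TI1
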