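import Cfsg.Agent.Lib.H81TI1

/-!
# The structure of the complements (helper81)
-/

set_option autoImplicit false
open Cfsg

namespace Cfsg.Agent.Lib.H81TI2

open Subgroup Cfsg.Agent.Lib Cfsg.Agent.Lib.CN

theorem quat_small {n : ℕ} (h : ∀ g : QuaternionGroup (2 ^ n),
    (centralizer ({g} : Set (QuaternionGroup (2 ^ n)))).Normal) : n = 0 ∨ n = 1 := by
  by_contra hcon
  have hn : 2 ≤ n := by omega
  have h1 := (h (QuaternionGroup.xa 0)).conj_mem (QuaternionGroup.xa 0)
    (by rw [mem_centralizer_singleton_iff]) (QuaternionGroup.a 1)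
  rw [mem_centralizer_singleton_iff] at h1
  have h2 : (QuaternionGroup.a 1 : QuaternionGroup (2 ^ n)) * QuaternionGroup.xa 0 *
      (QuaternionGroup.a 1)⁻¹ = QuaternionGroup.xa (-2) := by
    rw [mul_inv_eq_iff_eq_mul]
    rw [QuaternionGroup.a_mul_xa, QuaternionGroup.xa_mul_a]
    congr 1
    ring
  rw [h2, QuaternionGroup.xa_mul_xa, QuaternionGroup.xa_mul_xa] at h1
  have h3 := QuaternionGroup.a.inj h1
  have h4 : ((4 : ℕ) : ZMod (2 * 2 ^ n)) = 0 := by
    push_cast
    linear_combination h3
  rw [ZMod.natCast_eq_zero_iff] at h4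
  have h5 := Nat.le_of_dvd (by norm_num) h4
  have h6 : 2 ^ 2 ≤ 2 ^ n := Nat.pow_le_pow_right (by norm_num) hn
  omega

theorem structure_of_cent {E V : Type*} [Group E] [CommGroup V] [Finite E] [Finite V] [Nontrivial V]
    {act : E →* MulAut V} (hf : FrobAction.IsFPF act) (hnil : Group.IsNilpotent E)
    (hn : ∀ e : E, (centralizer ({e} : Set E)).Normal) :
    IsCyclic E ∨ ∃ m : ℕ, Odd m ∧ Nonempty (E ≃* Multiplicative (ZMod m) × QuaternionGroup 2) := by
  classical
  rcases nilpotent_fpf_structure hf hnil with h | ⟨C, Q, hCQ, hcomm, hCc, hCo, n, ⟨e⟩⟩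
  · exact Or.inl h
  have hnQ : ∀ q : Q, (centralizer ({q} : Set Q)).Normal := by
    intro q
    constructor
    intro c hc g
    rw [mem_centralizer_singleton_iff] at hc ⊢
    have hc' : (c : E) ∈ centralizer ({(q : E)} : Set E) := by
      rw [mem_centralizer_singleton_iff]
      exact congrArg Subtype.val hc
    have h1 := (hn (q : E)).conj_mem _ hc' (g : E)
    rw [mem_centralizer_singleton_iff] at h1
    exact Subtype.ext h1
  have hnq : ∀ g : QuaternionGroup (2 ^ n),
      (centralizer ({g} : Set (QuaternionGroup (2 ^ n)))).Normal := by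
    intro g
    constructor
    intro c hc x
    rw [mem_centralizer_singleton_iff] at hc ⊢
    have hc' : e.symm c ∈ centralizer ({e.symm g} : Set Q) := by
      rw [mem_centralizer_singleton_iff, ← map_mul, ← map_mul, hc]
    have h1 := (hnQ (e.symm g)).conj_mem _ hc' (e.symm x)
    rw [mem_centralizer_singleton_iff] at h1
    rw [← map_inv, ← map_mul, ← map_mul, ← map_mul, ← map_mul] at h1
    exact e.symm.injective h1
  rcases quat_small hnq with rfl | rfl
  · left
    apply FrobAction.isCyclic_of_comm hf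
    have hQc : IsCyclic Q := by
      have := QuaternionGroup.quaternionGroup_one_isCyclic
      exact isCyclic_of_surjective e.symm e.symm.surjective
    have hcC : ∀ a ∈ C, ∀ b ∈ C, a * b = b * a := by
      intro a ha b hb
      obtain ⟨g, hg⟩ := hCc.exists_generator
      obtain ⟨i, hi⟩ := hg ⟨a, ha⟩
      obtain ⟨j, hj⟩ := hg ⟨b, hb⟩
      have hi' : ((g : E)) ^ i = a := congrArg Subtype.val hi
      have hj' : ((g : E)) ^ j = b := congrArg Subtype.val hj
      rw [← hi', ← hj', ← zpow_add, ← zpow_add, add_comm]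
    have hcQ : ∀ a ∈ Q, ∀ b ∈ Q, a * b = b * a := by
      intro a ha b hb
      obtain ⟨g, hg⟩ := hQc.exists_generator
      obtain ⟨i, hi⟩ := hg ⟨a, ha⟩
      obtain ⟨j, hj⟩ := hg ⟨b, hb⟩
      have hi' : ((g : E)) ^ i = a := congrArg Subtype.val hi
      have hj' : ((g : E)) ^ j = b := congrArg Subtype.val hj
      rw [← hi', ← hj', ← zpow_add, ← zpow_add, add_comm]
    have hC : C ≤ Subgroup.center E := by
      intro c hc
      have h1 : (⊤ : Subgroup E) ≤ centralizer ({c} : Set E) := by
        rw [← hCQ, sup_le_iff]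
        constructor
        · intro a ha
          rw [mem_centralizer_singleton_iff]; exact hcC a ha c hc
        · intro a ha
          rw [mem_centralizer_singleton_iff]; exact (hcomm c hc a ha).symm
      rw [Subgroup.mem_center_iff]
      intro g
      exact mem_centralizer_singleton_iff.mp (h1 (mem_top g))
    have hQ : Q ≤ Subgroup.center E := by
      intro c hc
      have h1 : (⊤ : Subgroup E) ≤ centralizer ({c} : Set E) := by
        rw [← hCQ, sup_le_iff]
        constructor
        · intro a ha
          rw [mem_centralizer_singleton_iff]; exact hcomm a ha c hc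
        · intro a ha
          rw [mem_centralizer_singleton_iff]; exact hcQ a ha c hc
      rw [Subgroup.mem_center_iff]
      intro g
      exact mem_centralizer_singleton_iff.mp (h1 (mem_top g))
    have htop : (⊤ : Subgroup E) ≤ Subgroup.center E := by
      rw [← hCQ, sup_le_iff]; exact ⟨hC, hQ⟩
    intro a b
    exact (Subgroup.mem_center_iff.mp (htop (mem_top b)) a)
  · right
    refine ⟨Nat.card C, hCo, ?_⟩
    have hco : (Nat.card C).Coprime (Nat.card Q) := by
      have h8 : Nat.card Q = 2 ^ 3 := by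
        rw [Nat.card_congr e.toEquiv, Nat.card_eq_fintype_card, QuaternionGroup.card]; norm_num
      rw [h8]
      exact Nat.Coprime.pow_right 3 (Nat.coprime_two_right.mpr hCo)
    have hdis : Disjoint C Q := by
      exact Subgroup.disjoint_of_coprime_natCard hco
    let φ : C × Q →* E := MonoidHom.noncommCoprod C.subtype Q.subtype
      (fun a b => hcomm a a.2 b b.2)
    have hφi : Function.Injective φ := by
      refine (MonoidHom.noncommCoprod_injective _ _ _).mpr ⟨C.subtype_injective, Q.subtype_injective, ?_⟩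
      rwa [Subgroup.range_subtype, Subgroup.range_subtype]
    have hφs : Function.Surjective φ := by
      rw [← MonoidHom.range_eq_top]
      refine (MonoidHom.noncommCoprod_range _ _ _).trans ?_
      rw [Subgroup.range_subtype, Subgroup.range_subtype]
      exact hCQ
    let ψ : C × Q ≃* E := MulEquiv.ofBijective φ ⟨hφi, hφs⟩
    exact ⟨ψ.symm.trans (MulEquiv.prodCongr (zmodCyclicMulEquiv hCc).symm e)⟩

theorem cent_normal_of_nilp {G : Type*} [Group G] [Finite G] (h : H81TI1.CT G) {E : Subgroup G}
    (hE : Group.IsNilpotent E) (e : E) : (centralizer ({e} : Set E)).Normal := by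
  by_cases hEb : E = ⊥
  · have he : ∀ a : E, a = 1 := by
      intro a
      apply Subtype.ext
      have h1 : (a : G) ∈ (⊥ : Subgroup G) := hEb.le a.2
      exact (Subgroup.mem_bot).mp h1
    constructor
    intro c _ g
    rw [he (g * c * g⁻¹), mem_centralizer_singleton_iff, he e]
  obtain ⟨z, hz, hz1, hzc⟩ := exists_central hE hEb
  constructor
  intro c hc g
  have hz' : z ∈ centralizer ({(e : G)} : Set G) := by
    rw [mem_centralizer_singleton_iff]
    exact (hzc e e.2).symm
  have hg : (g : G) ∈ normalizer ((centralizer ({(e : G)} : Set G) : Subgroup G) : Set G) := by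
    apply h.mem_norm hz' hz1
    have h1 : (g : G) * z * (g : G)⁻¹ = z := by rw [hzc g g.2]; group
    rw [h1]; exact hz'
  rw [mem_centralizer_singleton_iff] at hc ⊢
  have hc' : (c : G) ∈ centralizer ({(e : G)} : Set G) := by
    rw [mem_centralizer_singleton_iff]
    exact congrArg Subtype.val hc
  have h2 := (Subgroup.mem_normalizer_iff.mp hg (c : G)).mp hc'
  apply Subtype.ext
  exact mem_centralizer_singleton_iff.mp h2

theorem of_frob {G : Type*} [Group G] [Finite G] (h : H81TI1.CT G) {K E : Subgroup G} [K.Normal]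
    (hc : IsComplement' K E) (hK : K ≠ ⊥)
    (hfpf : ∀ e ∈ E, e ≠ 1 → K ⊓ centralizer ({e} : Set G) = ⊥) (hE : Group.IsNilpotent E) :
    IsCyclic E ∨ ∃ m : ℕ, Odd m ∧ Nonempty (E ≃* Multiplicative (ZMod m) × QuaternionGroup 2) := by
  obtain ⟨V, act, -, hV1, hVab, hact⟩ := FrobAction2.exists_fpf_action hc hK hfpf
  let _ : CommGroup V := { (inferInstance : Group V) with
    mul_comm := fun a b => Subtype.ext (hVab a a.2 b b.2) }
  have : Nontrivial V := (Subgroup.nontrivial_iff_ne_bot V).2 hV1
  exact structure_of_cent (act := act) hact hE (cent_normal_of_nilp h hE)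

/-- the case of a non-trivial nilpotent normal Hall subgroup -/
theorem of_fitting {G : Type*} [Group G] [Finite G] (h : H81TI1.CT G)
    (hnil : ¬ Group.IsNilpotent G) (h0 : fittingHall G ≠ ⊥) :
    ∃ E : Subgroup G, Cfsg.IsFrobeniusComplement E ∧
      (IsCyclic E ∨ ∃ m : ℕ, Odd m ∧ Nonempty (E ≃* Multiplicative (ZMod m) × QuaternionGroup 2)) := by
  obtain ⟨-, ⟨E, hE, hF, hfpf, hEnil⟩, -⟩ := frobenius_of_normal_sylow h.isCN hnil h0
  exact ⟨E, hF, of_frob h hE h0 hfpf hEnil⟩

end Cfsg.Agent.Lib.H81TI2
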