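import Cfsg.Agent.Lib.LinChar

/-!
# A norm inequality for induced linear characters (helper81)
-/

set_option autoImplicit false

namespace Cfsg.Agent.Lib.H81TI5

open Classical ComplexConjugate

universe u

variable {G : Type u} [Group G]

theorem sum_sub [Fintype G] (D : Subgroup G) [Fintype D] (f : G → ℂ) (hf : ∀ g, g ∉ D → f g = 0) :
    ∑ g : G, f g = ∑ d : D, f d := by
  have h1 : ∑ g ∈ Finset.univ.filter (fun g => g ∈ D), f g = ∑ d : D, f d :=
    Finset.sum_subtype _ (by intro x; simp) f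
  rw [← h1]
  symm
  apply Finset.sum_subset (Finset.filter_subset _ _)
  intro g _ hg
  apply hf
  intro h
  exact hg (Finset.mem_filter.mpr ⟨Finset.mem_univ _, h⟩)

/-- the extension by zero of a linear character -/
noncomputable def ext (M : Subgroup G) (lam : M →* ℂˣ) (g : G) : ℂ :=
  if h : g ∈ M then ((lam ⟨g, h⟩ : ℂˣ) : ℂ) else 0

variable {M : Subgroup G} {lam : M →* ℂˣ}

theorem ext_of_mem {g : G} (h : g ∈ M) : ext M lam g = ((lam ⟨g, h⟩ : ℂˣ) : ℂ) := dif_pos h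

theorem ext_of_notMem {g : G} (h : g ∉ M) : ext M lam g = 0 := dif_neg h

/-- `L - conj L` -/
noncomputable def tht (M : Subgroup G) (lam : M →* ℂˣ) (g : G) : ℂ := ext M lam g - conj (ext M lam g)

theorem conj_tht (g : G) : conj (tht M lam g) = - tht M lam g := by
  unfold tht
  rw [map_sub, Complex.conj_conj]; ring

theorem tht_of_notMem {g : G} (h : g ∉ M) : tht M lam g = 0 := by
  unfold tht; rw [ext_of_notMem h]; simp

theorem tht_conj_mem {g x : G} (hx : x ∈ M) : tht M lam (x⁻¹ * g * x) = tht M lam g := by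
  have : ext M lam (x⁻¹ * g * x) = ext M lam g := by
    by_cases hg : g ∈ M
    · have h1 : x⁻¹ * g * x ∈ M := M.mul_mem (M.mul_mem (M.inv_mem hx) hg) hx
      rw [ext_of_mem h1, ext_of_mem hg]
      have : (⟨x⁻¹ * g * x, h1⟩ : M) = (⟨x, hx⟩ : M)⁻¹ * ⟨g, hg⟩ * ⟨x, hx⟩ := rfl
      rw [this, map_mul, map_mul, map_inv]
      congr 1
      rw [mul_comm, mul_inv_cancel_left]
    · have h1 : x⁻¹ * g * x ∉ M := by
        intro h
        apply hg
        have := M.mul_mem (M.mul_mem hx h) (M.inv_mem hx)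
        have h2 : x * (x⁻¹ * g * x) * x⁻¹ = g := by group
        rwa [h2] at this
      rw [ext_of_notMem h1, ext_of_notMem hg]
  unfold tht
  rw [this]

theorem sum_tht_sq [Fintype G] (D : Subgroup G) [Fintype D] (hD : D ≤ M)
    (hne : ∃ d : G, ∃ h : d ∈ D, lam ⟨d, hD h⟩ * lam ⟨d, hD h⟩ ≠ 1) :
    ∑ d : D, tht M lam d * tht M lam d = - 2 * (Nat.card D : ℂ) := by
  let mu : D →* ℂˣ := lam.comp (Subgroup.inclusion hD)
  have hmu : ∀ d : D, ext M lam d = (mu d : ℂ) := fun d => ext_of_mem (hD d.2)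
  have h1 : ∑ d : D, ((mu * mu : D →* ℂˣ) d : ℂ) = 0 := by
    rw [LinChar.sum_hom, if_neg]
    intro h
    obtain ⟨d, hd, hne⟩ := hne
    apply hne
    exact DFunLike.congr_fun h ⟨d, hd⟩
  have h2 : ∑ d : D, conj ((mu * mu : D →* ℂˣ) d : ℂ) = 0 := by
    rw [← map_sum, h1, map_zero]
  have h3 : ∀ d : D, tht M lam d * tht M lam d =
      ((mu * mu : D →* ℂˣ) d : ℂ) + conj ((mu * mu : D →* ℂˣ) d : ℂ) - 2 := by
    intro d
    unfold tht
    rw [hmu d]
    have h4 : (mu d : ℂ) * conj (mu d : ℂ) = 1 := by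
      rw [LinChar.conj_coe, ← Units.val_mul, mul_inv_cancel, Units.val_one]
    rw [MonoidHom.mul_apply, Units.val_mul, map_mul]
    linear_combination (-2 : ℂ) * h4
  rw [Finset.sum_congr rfl (fun d _ => h3 d), Finset.sum_sub_distrib, Finset.sum_add_distrib, h1, h2]
  rw [Finset.sum_const, Finset.card_univ, ← Nat.card_eq_fintype_card]
  simp
  ring

theorem ineq [Finite G] (M : Subgroup G) (lam : M →* ℂˣ) (n : ℕ)
    (hne : ∃ m : M, lam m * lam m ≠ 1)
    (hx : ∀ x : G, x ∉ M → ∃ (D : Subgroup G) (hD : D ≤ M), (∀ m ∈ M, x⁻¹ * m * x ∈ M → m ∈ D) ∧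
      (∀ d ∈ D, x⁻¹ * d * x ∈ M) ∧
      (∀ (d : G) (hd : d ∈ D) (h : x⁻¹ * d * x ∈ M), lam ⟨x⁻¹ * d * x, h⟩ = (lam ⟨d, hD hd⟩)⁻¹) ∧
      (∃ d : G, ∃ h : d ∈ D, lam ⟨d, hD h⟩ * lam ⟨d, hD h⟩ ≠ 1) ∧ Nat.card D = n) :
    (Nat.card G - Nat.card M) * n ≤ Nat.card M * Nat.card M := by
  have : Fintype G := Fintype.ofFinite G
  let θ := tht M lam
  let φ : G → ℂ := fun g => ∑ x : G, θ (x⁻¹ * g * x)
  have hφ : ∀ g y, φ (y * g * y⁻¹) = φ g := by
    intro g y
    show ∑ x : G, θ (x⁻¹ * (y * g * y⁻¹) * x) = ∑ x : G, θ (x⁻¹ * g * x)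
    apply Fintype.sum_equiv (Equiv.mulLeft y⁻¹)
    intro x
    show θ (x⁻¹ * (y * g * y⁻¹) * x) = θ ((y⁻¹ * x)⁻¹ * g * (y⁻¹ * x))
    congr 1
    group
  -- the sum
  have hsum : ∑ g : G, φ g * conj (φ g) =
      (Nat.card G : ℂ) * ∑ x : G, ∑ g : G, θ g * conj (θ (x⁻¹ * g * x)) := by
    have h1 : ∑ g : G, φ g * conj (φ g) = ∑ x : G, ∑ g : G, θ (x⁻¹ * g * x) * conj (φ g) := by
      rw [Finset.sum_comm]
      apply Finset.sum_congr rfl
      intro g _
      rw [← Finset.sum_mul]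
    have h2 : ∀ x : G, ∑ g : G, θ (x⁻¹ * g * x) * conj (φ g) = ∑ g : G, θ g * conj (φ g) := by
      intro x
      apply Fintype.sum_equiv (MulAut.conj x⁻¹).toEquiv
      intro g
      have h3 : (MulAut.conj x⁻¹).toEquiv g = x⁻¹ * g * x := by
        show x⁻¹ * g * (x⁻¹)⁻¹ = _
        rw [inv_inv]
      rw [h3]
      have h4 := hφ g x⁻¹
      rw [inv_inv] at h4
      rw [h4]
    rw [h1, Finset.sum_congr rfl (fun x _ => h2 x), Finset.sum_const, Finset.card_univ,
      ← Nat.card_eq_fintype_card, nsmul_eq_mul]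
    congr 1
    rw [Finset.sum_comm]
    apply Finset.sum_congr rfl
    intro g _
    show θ g * conj (∑ x : G, θ (x⁻¹ * g * x)) = _
    rw [map_sum, Finset.mul_sum]
  have hA1 : ∀ x ∈ M, ∑ g : G, θ g * conj (θ (x⁻¹ * g * x)) = 2 * (Nat.card M : ℂ) := by
    intro x hxM
    have h1 : ∀ g : G, θ g * conj (θ (x⁻¹ * g * x)) = - (θ g * θ g) := by
      intro g
      show tht M lam g * conj (tht M lam (x⁻¹ * g * x)) = - (tht M lam g * tht M lam g)
      rw [tht_conj_mem hxM, conj_tht]; ring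
    rw [Finset.sum_congr rfl (fun g _ => h1 g), Finset.sum_neg_distrib]
    rw [sum_sub M (fun g => θ g * θ g) (fun g hg => by
      show tht M lam g * tht M lam g = 0
      rw [tht_of_notMem hg]; ring)]
    obtain ⟨m, hm⟩ := hne
    have h2 := sum_tht_sq (lam := lam) M le_rfl ⟨m, m.2, hm⟩
    show - ∑ d : M, tht M lam d * tht M lam d = _
    rw [h2]; ring
  have hA2 : ∀ x : G, x ∉ M → ∑ g : G, θ g * conj (θ (x⁻¹ * g * x)) = - 2 * (n : ℂ) := by
    intro x hxM
    obtain ⟨D, hD, h1, h1', h2, h3, h4⟩ := hx x hxM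
    have h5 : ∀ g : G, θ g * conj (θ (x⁻¹ * g * x)) = if g ∈ D then θ g * θ g else 0 := by
      intro g
      by_cases hg : g ∈ D
      · rw [if_pos hg]
        show tht M lam g * conj (tht M lam (x⁻¹ * g * x)) = tht M lam g * tht M lam g
        congr 1
        rw [conj_tht]
        unfold tht
        rw [ext_of_mem (h1' g hg), ext_of_mem (hD hg), h2 g hg (h1' g hg)]
        rw [LinChar.conj_coe lam ⟨g, hD hg⟩]
        have h6 : conj (((lam ⟨g, hD hg⟩)⁻¹ : ℂˣ) : ℂ) = ((lam ⟨g, hD hg⟩ : ℂˣ) : ℂ) := by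
          rw [← LinChar.conj_coe lam ⟨g, hD hg⟩, Complex.conj_conj]
        rw [h6]; ring
      · rw [if_neg hg]
        by_cases hgM : g ∈ M
        · have h6 : x⁻¹ * g * x ∉ M := fun h => hg (h1 g hgM h)
          show tht M lam g * conj (tht M lam (x⁻¹ * g * x)) = 0
          rw [tht_of_notMem h6]; simp
        · show tht M lam g * conj (tht M lam (x⁻¹ * g * x)) = 0
          rw [tht_of_notMem hgM]; simp
    rw [Finset.sum_congr rfl (fun g _ => h5 g)]
    rw [sum_sub D _ (fun g hg => if_neg hg)]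
    have h7 := sum_tht_sq (lam := lam) D hD h3
    rw [h4] at h7
    rw [← h7]
    apply Finset.sum_congr rfl
    intro d _
    rw [if_pos d.2]
  have hcardM : ∑ x : G, (if x ∈ M then (1 : ℂ) else 0) = (Nat.card M : ℂ) := by
    rw [sum_sub M _ (fun g hg => if_neg hg)]
    rw [Finset.sum_congr rfl (fun d _ => if_pos d.2)]
    simp [Nat.card_eq_fintype_card]
  have hA : ∑ x : G, ∑ g : G, θ g * conj (θ (x⁻¹ * g * x)) =
      2 * (Nat.card M : ℂ) * (Nat.card M : ℂ) - 2 * (n : ℂ) * ((Nat.card G : ℂ) - (Nat.card M : ℂ)) := by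
    have h8 : ∀ x : G, ∑ g : G, θ g * conj (θ (x⁻¹ * g * x)) =
        - 2 * (n : ℂ) + (2 * (Nat.card M : ℂ) + 2 * (n : ℂ)) * (if x ∈ M then (1 : ℂ) else 0) := by
      intro x
      by_cases hxM : x ∈ M
      · rw [hA1 x hxM, if_pos hxM]; ring
      · rw [hA2 x hxM, if_neg hxM]; ring
    rw [Finset.sum_congr rfl (fun x _ => h8 x), Finset.sum_add_distrib, Finset.sum_const,
      ← Finset.mul_sum, hcardM, Finset.card_univ, ← Nat.card_eq_fintype_card, nsmul_eq_mul]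
    ring
  rw [hA] at hsum
  have hre : ∑ g : G, φ g * conj (φ g) = ((∑ g : G, Complex.normSq (φ g) : ℝ) : ℂ) := by
    rw [Complex.ofReal_sum]
    apply Finset.sum_congr rfl
    intro g _
    rw [Complex.mul_conj]
  rw [hre] at hsum
  have hreal : (∑ g : G, Complex.normSq (φ g) : ℝ) = (Nat.card G : ℝ) *
      (2 * (Nat.card M : ℝ) * (Nat.card M : ℝ) - 2 * (n : ℝ) * ((Nat.card G : ℝ) - (Nat.card M : ℝ))) := by
    exact_mod_cast hsum
  have hnn : 0 ≤ (∑ g : G, Complex.normSq (φ g) : ℝ) :=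
    Finset.sum_nonneg (fun g _ => Complex.normSq_nonneg _)
  rw [hreal] at hnn
  have hG : (0 : ℝ) < (Nat.card G : ℝ) := by exact_mod_cast (Nat.card_pos (α := G))
  have h9 : 0 ≤ 2 * (Nat.card M : ℝ) * (Nat.card M : ℝ) - 2 * (n : ℝ) * ((Nat.card G : ℝ) - (Nat.card M : ℝ)) :=
    nonneg_of_mul_nonneg_right hnn hG
  have hle : Nat.card M ≤ Nat.card G := Nat.card_le_card_of_injective (fun m : M => (m : G)) Subtype.val_injective
  have h10 : (((Nat.card G - Nat.card M : ℕ) : ℝ) * n) ≤ (Nat.card M : ℝ) * (Nat.card M : ℝ) := by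
    rw [Nat.cast_sub hle]
    linarith
  exact_mod_cast h10

end Cfsg.Agent.Lib.H81TI5
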