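import Cfsg.Agent.Lib.H16Pal0
import Cfsg.Agent.Lib.LinChar
import Cfsg.Agent.Lib.H16PalP5

/-! # S4847, piece P8 (helper83): case A of the three primes theorem -/

set_option autoImplicit false
set_option linter.all false

namespace Cfsg.Agent.Lib.H83Pal8

open Subgroup Cfsg Cfsg.Agent.Lib Cfsg.Agent.Lib.CharBasic Cfsg.Agent.Lib.Clifford Cfsg.Agent.Lib.H16Pal0

universe u v

variable {G : Type u} [Group G] [Finite G]

/-- a `T`-invariant irreducible character of the abelian group `V`, `C_V(T) = 1`, coprime orders, is trivial -/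
theorem eq_one_of_inv {T V : Subgroup G} [V.Normal] (Vab : ∀ a ∈ V, ∀ b ∈ V, a * b = b * a)
    (hcop : (Nat.card T).Coprime (Nat.card V)) (CT : ∀ v ∈ V, (∀ a ∈ T, a * v = v * a) → v = 1)
    {lam : V → ℂ} (hl : IsIrrCharacter V lam) (hT : T ≤ inertia V lam) : lam = 1 := by
  classical
  letI := Fintype.ofFinite T
  have h1 : lam 1 = 1 := hl.one_eq_one_of_comm (fun a b => Subtype.ext (Vab a a.2 b b.2))
  obtain ⟨f, hf⟩ := hl.isCharacter.exists_hom h1
  letI : CommGroup V := { (inferInstance : Group V) with mul_comm := fun a b => Subtype.ext (Vab a a.2 b b.2) }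
  funext v
  rw [hf v, Pi.one_apply]
  let N : V := ∏ a : T, (MulAut.conjNormal (a : G) v : V)
  have hN : N = 1 := by
    apply Subtype.ext
    refine CT N N.2 (fun b hb => ?_)
    have h2 : (MulAut.conjNormal b : MulAut V) N = N := by
      rw [map_prod]
      refine Fintype.prod_equiv (Equiv.mulLeft (⟨b, hb⟩ : T)) _ _ (fun a => ?_)
      change _ = (MulAut.conjNormal (b * (a : G)) : MulAut V) v
      rw [map_mul]
      rfl
    have h3 := congrArg Subtype.val h2
    rw [MulAut.conjNormal_apply] at h3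
    have h4 : b * (N : G) * b⁻¹ = N := h3
    calc b * (N : G) = (b * (N : G) * b⁻¹) * b := by group
      _ = (N : G) * b := by rw [h4]
  have h5 : f N = f v ^ Nat.card T := by
    change f (∏ a : T, (MulAut.conjNormal (a : G) v : V)) = _
    rw [map_prod]
    have h6 : ∀ a : T, f (MulAut.conjNormal (a : G) v : V) = f v := by
      intro a
      have h7 := congrFun (mem_inertia.1 (hT a.2)) v
      rw [cj_apply, hf, hf] at h7
      apply Units.ext
      convert h7 using 3
      exact Subtype.ext (MulAut.conjNormal_apply _ _)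
    rw [Finset.prod_congr rfl (fun a _ => h6 a), Finset.prod_const, Finset.card_univ, Nat.card_eq_fintype_card]
  rw [hN, map_one] at h5
  have h8 : f v ^ Nat.card V = 1 := by rw [← map_pow, pow_card_eq_one', map_one]
  have h9 : f v = 1 := by
    have ha := orderOf_dvd_of_pow_eq_one h5.symm
    have hb := orderOf_dvd_of_pow_eq_one h8
    have hc := Nat.eq_one_of_dvd_coprimes hcop ha hb
    exact orderOf_eq_one_iff.1 hc
  rw [h9]; rfl

/-- `A ≥ V` of index prime to `t` contains `T` -/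
theorem le_of_index {T V L A : Subgroup G} [V.Normal] {t : ℕ} (ht : t.Prime) (hVL : V ⊔ L = ⊤)
    (hLT : L ≤ normalizer (T : Set G)) (hT : IsPGroup t T) (hTi : ¬ t ∣ T.index) (hVA : V ≤ A)
    (hA : ¬ t ∣ A.index) : T ≤ A := by
  haveI : Fact t.Prime := ⟨ht⟩
  obtain ⟨P⟩ : Nonempty (Sylow t A) := inferInstance
  have hP1 : IsPGroup t ((P : Subgroup A).map A.subtype) := P.2.map _
  have hP2 : ¬ t ∣ ((P : Subgroup A).map A.subtype).index := by
    rw [Subgroup.index_map_subtype]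
    intro h
    rcases (Nat.Prime.dvd_mul ht).1 h with h | h
    · exact P.not_dvd_index h
    · exact hA h
  obtain ⟨g, hg⟩ := MulAction.exists_smul_eq G (hT.toSylow hTi) (hP1.toSylow hP2)
  have hg' : ∀ x ∈ T, g * x * g⁻¹ ∈ A := by
    intro x hx
    have h2 : g * x * g⁻¹ ∈ ((g • (hT.toSylow hTi) : Sylow t G) : Subgroup G) := by
      rw [Sylow.coe_subgroup_smul]
      exact Subgroup.smul_mem_pointwise_smul x (MulAut.conj g) _ hx
    rw [hg] at h2
    have h3 : g * x * g⁻¹ ∈ (P : Subgroup A).map A.subtype := h2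
    exact Subgroup.map_subtype_le _ h3
  obtain ⟨v, hv, l, hl, hvl⟩ := Subgroup.mem_sup_of_normal_left.1 (show g ∈ V ⊔ L by rw [hVL]; trivial)
  intro x hx
  have hl' : l⁻¹ * x * l ∈ T := by
    have h4 := (Subgroup.mem_normalizer_iff.1 (Subgroup.inv_mem _ (hLT hl)) x).1 hx
    simpa using h4
  have h5 := hg' _ hl'
  rw [← hvl] at h5
  have h6 : v * l * (l⁻¹ * x * l) * (v * l)⁻¹ = v * x * v⁻¹ := by group
  rw [h6] at h5
  have h7 := A.mul_mem (A.mul_mem (A.inv_mem (hVA hv)) h5) (hVA hv)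
  have h8 : v⁻¹ * (v * x * v⁻¹) * v = x := by group
  rwa [h8] at h7

/-- maximality of Sylow subgroups -/
theorem sylmax {p : ℕ} (hp : p.Prime) {U W L : Subgroup G} (h1 : U ≤ W) (h2 : W ≤ L) (hW : IsPGroup p W)
    (hi : ¬ p ∣ U.relIndex L) : W = U := by
  haveI : Fact p.Prime := ⟨hp⟩
  refine le_antisymm ?_ h1
  rw [← Subgroup.relIndex_eq_one]
  have h3 : U.relIndex W ∣ Nat.card W := Subgroup.relIndex_dvd_card _ _
  obtain ⟨n, hn⟩ := IsPGroup.iff_card.1 hW
  rw [hn] at h3
  obtain ⟨k, -, hk⟩ := (Nat.dvd_prime_pow hp).1 h3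
  rcases Nat.eq_zero_or_pos k with h | h
  · rw [hk, h, pow_zero]
  · exfalso
    apply hi
    rw [← Subgroup.relIndex_mul_relIndex U W L h1 h2, hk]
    exact (dvd_pow_self p h.ne').mul_right _


/-- a Sylow `p`-subgroup of `L` centralising `V` is normal in `G` -/
theorem nsyl_of_CS {V L : Subgroup G} [V.Normal] {s p : ℕ} (hp : p.Prime) (hs : s.Prime) (hVL : V ⊔ L = ⊤)
    (Vab : ∀ a ∈ V, ∀ b ∈ V, a * b = b * a) (Vs : IsPGroup s V) {A : Subgroup G} (hCA : centralizer (V : Set G) ⊓ L ≤ A)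
    (hAL : A ≤ L) (hA : NAS p L A) (hC : CS p L V) : NSyl G p := by
  haveI : Fact p.Prime := ⟨hp⟩
  haveI : Fact s.Prime := ⟨hs⟩
  obtain ⟨U, hUL, hUp, hUi, hUV⟩ := hC
  obtain ⟨U', hU'A, hAU', hU'p, hU'i, hU'c⟩ := hA
  have hUC : U ≤ centralizer (V : Set G) ⊓ L := by
    refine le_inf (fun u hu => ?_) hUL
    rw [Subgroup.mem_centralizer_iff]
    intro v hv
    exact (hUV u hu v hv).symm
  have hUA : U ≤ A := hUC.trans hCA
  have e1 : U ⊔ U' = U' :=
    sylmax hp le_sup_right (sup_le hUL (hU'A.trans hAL)) (hUp.to_sup_of_normal_right' hU'p (hUA.trans hAU')) hU'i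
  have e2 : U' = U := sylmax hp (by rw [← e1]; exact le_sup_left) (hU'A.trans hAL) hU'p hUi
  subst e2
  -- `L` normalises `U`
  have hLU : ∀ l ∈ L, ∀ u ∈ U', l * u * l⁻¹ ∈ U' := by
    intro l hl
    have h1 : U'.map (MulAut.conj l).toMonoidHom ≤ centralizer (V : Set G) ⊓ L := by
      rintro _ ⟨u, hu, rfl⟩
      have h2 := hUC hu
      refine ⟨?_, ?_⟩
      · exact (inferInstance : (centralizer (V : Set G)).Normal).conj_mem u h2.1 l
      · exact L.mul_mem (L.mul_mem hl h2.2) (L.inv_mem hl)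
    have h3 : IsPGroup p (U'.map (MulAut.conj l).toMonoidHom) := hUp.map _
    have h4 : U'.map (MulAut.conj l).toMonoidHom ⊔ U' = U' :=
      sylmax hp le_sup_right (sup_le (h1.trans inf_le_right) hUL)
        (h3.to_sup_of_normal_right' hUp ((h1.trans hCA).trans hAU')) hUi
    intro u hu
    rw [← h4]
    exact Subgroup.mem_sup_left ⟨u, hu, rfl⟩
  have hUn : U'.Normal := by
    constructor
    intro u hu g
    obtain ⟨v, hv, l, hl, rfl⟩ := Subgroup.mem_sup_of_normal_left.1 (show g ∈ V ⊔ L by rw [hVL]; trivial)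
    have h1 := hLU l hl u hu
    have h2 := hUV _ h1 v hv
    have h3 : v * l * u * (v * l)⁻¹ = v * (l * u * l⁻¹) * v⁻¹ := by group
    rw [h3, ← h2]
    have h4 : l * u * l⁻¹ * v * v⁻¹ = l * u * l⁻¹ := by group
    rwa [h4]
  have hi : (V ⊔ U').index ∣ U'.relIndex L := by
    have h1 := Subgroup.relIndex_sup_right L (V ⊔ U')
    have h2 : L ⊔ (V ⊔ U') = ⊤ := by
      rw [eq_top_iff, ← hVL]
      exact sup_le (le_sup_left.trans le_sup_right) le_sup_left
    rw [h2, Subgroup.relIndex_top_right] at h1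
    rw [h1]
    exact Subgroup.relIndex_dvd_of_le_left L le_sup_right
  by_cases hps : p = s
  · subst hps
    refine ⟨V ⊔ U', inferInstance, ?_, Vs.to_sup_of_normal_right hUp, fun h => hUi (h.trans hi)⟩
    intro x hx y hy
    obtain ⟨v, hv, u, hu, rfl⟩ := Subgroup.mem_sup_of_normal_left.1 hx
    obtain ⟨w, hw, z, hz, rfl⟩ := Subgroup.mem_sup_of_normal_left.1 hy
    calc v * u * (w * z) = v * (u * w) * z := by group
      _ = v * (w * u) * z := by rw [hUV u hu w hw]
      _ = (v * w) * (u * z) := by group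
      _ = (w * v) * (z * u) := by rw [Vab v hv w hw, hU'c u hu z hz]
      _ = w * (v * z) * u := by group
      _ = w * (z * v) * u := by rw [hUV z hz v hv]
      _ = w * z * (v * u) := by group
  · refine ⟨U', hUn, hU'c, hUp, ?_⟩
    rw [← Subgroup.relIndex_mul_index (H := U') (K := V ⊔ U') le_sup_right, Subgroup.relIndex_sup_right]
    intro h
    rcases (Nat.Prime.dvd_mul hp).1 h with h | h
    · have h1 : U'.relIndex V ∣ Nat.card V := Subgroup.relIndex_dvd_card _ _
      obtain ⟨n, hn⟩ := IsPGroup.iff_card.1 Vs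
      rw [hn] at h1
      exact hps ((Nat.prime_dvd_prime_iff_eq hp hs).1 (hp.dvd_of_dvd_pow (h.trans h1)))
    · exact hUi (h.trans hi)

/-- P8 (case A): stabilisers of characters of V, and no Sylow centralises V. -/
theorem p8 {T V L : Subgroup G} {t s p q : ℕ} [V.Normal] (h : SA T V L t s p q) (hV1 : V ≠ ⊥) :
    (∀ lam : V → ℂ, IsIrrCharacter V lam → lam ≠ 1 → NAS p L (inertia V lam ⊓ L) ∧ NAS q L (inertia V lam ⊓ L)) ∧
    ¬ CS p L V ∧ ¬ CS q L V := by
  classical
  haveI := h.sol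
  have hcop : (Nat.card T).Coprime (Nat.card V) := by
    haveI : Fact t.Prime := ⟨h.pt⟩
    haveI : Fact s.Prime := ⟨h.ps⟩
    obtain ⟨n, hn⟩ := IsPGroup.iff_card.1 h.Tt
    obtain ⟨m, hm⟩ := IsPGroup.iff_card.1 h.Vs
    rw [hn, hm]
    exact Nat.Coprime.pow _ _ ((Nat.coprime_primes h.pt h.ps).2 h.ts)
  have hcomm : ∀ a b : V, a * b = b * a := fun a b => Subtype.ext (h.Vab a a.2 b b.2)
  have key : ∀ lam : V → ℂ, IsIrrCharacter V lam → lam ≠ 1 → ∀ χ : IrrCharacter G, Over V (χ : G → ℂ) lam →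
      t ∣ charDegree (χ : G → ℂ) := by
    intro lam hl hl1 χ hχ
    by_contra hd
    letI := Fintype.ofFinite V
    have h1 : (inertia V lam).index ∣ charDegree (χ : G → ℂ) := CrossDeg.inertia_index_dvd V χ.2 hl hχ
    have h2 : T ≤ inertia V lam :=
      le_of_index h.pt h.VL' h.LT h.Tt h.Ti (le_inertia hl.isClassFunction) (fun h3 => hd (h3.trans h1))
    exact hl1 (eq_one_of_inv h.Vab hcop h.CT hl h2)
  have part1 : ∀ lam : V → ℂ, IsIrrCharacter V lam → lam ≠ 1 →
      NAS p L (inertia V lam ⊓ L) ∧ NAS q L (inertia V lam ⊓ L) := by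
    intro lam hl hl1
    have h1 : lam 1 = 1 := hl.one_eq_one_of_comm hcomm
    exact ⟨H16PalP5.p5lin h.VL h.VL' hl h1 h.pp (fun χ hχ => h.degp χ (key lam hl hl1 χ hχ)),
      H16PalP5.p5lin h.VL h.VL' hl h1 h.pq (fun χ hχ => h.degq χ (key lam hl hl1 χ hχ))⟩
  obtain ⟨v, hvV, hv1⟩ := (Subgroup.bot_or_exists_ne_one V).resolve_left hV1
  obtain ⟨f, hf⟩ := LinChar.exists_ne_one hcomm (a := (⟨v, hvV⟩ : V)) (fun h => hv1 (congrArg Subtype.val h))
  have hl : IsIrrCharacter V (fun g => (f g : ℂ)) := isIrrCharacter_of_unitsHom f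
  have hl1 : (fun g : V => (f g : ℂ)) ≠ 1 := by
    intro h1
    apply hf
    have h2 := congrFun h1 ⟨v, hvV⟩
    exact Units.ext h2
  have hCA : centralizer (V : Set G) ⊓ L ≤ inertia V (fun g : V => (f g : ℂ)) ⊓ L := by
    refine inf_le_inf_right _ (fun g hg => ?_)
    rw [mem_inertia]
    funext n
    rw [cj_apply]
    have h1 : g * (n : G) * g⁻¹ = n := by
      rw [← Subgroup.mem_centralizer_iff.1 hg n n.2]; group
    congr 2
    exact Subtype.ext h1
  refine ⟨part1, fun hC => h.np ?_, fun hC => h.nq ?_⟩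
  · exact nsyl_of_CS h.pp h.ps h.VL' h.Vab h.Vs hCA inf_le_right (part1 _ hl hl1).1 hC
  · exact nsyl_of_CS h.pq h.ps h.VL' h.Vab h.Vs hCA inf_le_right (part1 _ hl hl1).2 hC

end Cfsg.Agent.Lib.H83Pal8
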