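import Cfsg.Agent.Lib.H88FS21
import Cfsg.Agent.Lib.FusionInnerN
import Cfsg.Agent.Lib.FusionInner
import Cfsg.Agent.Lib.FusionTate
import Cfsg.Agent.Lib.FusionFocal
import Cfsg.Agent.Lib.FusionPIdx
import Cfsg.Agent.S5120

/-! Simple fusion systems on dihedral, semidihedral and wreathed groups: all classes are active. -/

set_option autoImplicit false
set_option maxHeartbeats 400000

namespace Cfsg.Agent.Lib.H88FS

open Cfsg Cfsg.FusionSystem Cfsg.Agent.Lib.FusionBasic Cfsg.Agent.Lib.FusionSat Cfsg.Agent.Lib.FusionRealized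

section coset
variable {Ω : Type*} [Group Ω] {S : Subgroup Ω}

/-- the maps of `F` that preserve the cosets of `T` -/
def cosetSub (F : FusionSystem S) (T : Subgroup Ω) (hT : ∀ g ∈ S, ∀ x ∈ S, x⁻¹ * (g * x * g⁻¹) ∈ T) :
    FusionSystem S where
  Hom P := {φ | φ ∈ F.Hom P ∧ ∀ x : P, (x : Ω)⁻¹ * φ x ∈ T}
  le_of_mem h := F.le_of_mem h.1
  injective_of_mem h := F.injective_of_mem h.1
  conj_mem := by
    intro P g hP hg
    exact ⟨F.conj_mem hP hg, fun x => hT g hg x (hP x.2)⟩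
  comp_mem := by
    rintro P Q φ ψ ⟨h1, h2⟩ ⟨h3, h4⟩ h
    refine ⟨F.comp_mem h1 h3 h, fun x => ?_⟩
    have h5 := T.mul_mem (h2 x) (h4 (φ.codRestrict Q h x))
    have h6 : (x : Ω)⁻¹ * φ x * (((φ.codRestrict Q h x : Q) : Ω)⁻¹ * ψ (φ.codRestrict Q h x)) =
        (x : Ω)⁻¹ * ψ (φ.codRestrict Q h x) := by
      show (x : Ω)⁻¹ * φ x * ((φ x)⁻¹ * ψ (φ.codRestrict Q h x)) = _
      group
    rw [h6] at h5
    exact h5
  inv_mem := by
    rintro P φ ⟨h1, h2⟩
    obtain ⟨ψ, hψ, h3⟩ := F.inv_mem h1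
    refine ⟨ψ, ⟨hψ, ?_⟩, h3⟩
    rintro ⟨_, x, rfl⟩
    rw [h3 x]
    have h4 := T.inv_mem (h2 x)
    rw [mul_inv_rev, inv_inv] at h4
    exact h4

theorem focal_le_of_active [Finite S] {F : FusionSystem S} (hS : IsPGroup 2 S) (hF : F.IsSaturated 2)
    (T : Subgroup Ω) (hT : ∀ g ∈ S, ∀ x ∈ S, x⁻¹ * (g * x * g⁻¹) ∈ T)
    (h : ∀ P : Subgroup Ω, F.IsFullyNormalized P → F.IsCentric P → Act F P → P ≤ T) : F.focalSubgroup ≤ T := by
  have h1 : F ≤ cosetSub F T hT := by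
    refine le_of_act hS hF _ fun P hP hc ha => ?_
    intro α hα
    rw [Cfsg.Agent.Lib.FusionSimple.mem_autGroup _ hc.1] at hα ⊢
    exact ⟨hα, fun x => T.mul_mem (T.inv_mem (h P hP hc ha x.2)) (h P hP hc ha (α x).2)⟩
  unfold FusionSystem.focalSubgroup
  rw [Subgroup.closure_le]
  rintro y ⟨P, φ, x, hφ, rfl⟩
  exact (h1 P hφ).2 x

theorem comm_of_index {T : Subgroup Ω} (hTS : T.relIndex S = 2) :
    ∀ g ∈ S, ∀ x ∈ S, x⁻¹ * (g * x * g⁻¹) ∈ T := by
  intro g hg x hx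
  have h1 : (T.subgroupOf S).index = 2 := hTS
  have h2 : (⟨x, hx⟩ : S)⁻¹ * (⟨g, hg⟩ * ⟨x, hx⟩ * (⟨g, hg⟩ : S)⁻¹) ∈ T.subgroupOf S := by
    simp only [Subgroup.mul_mem_iff_of_index_two h1, inv_mem_iff]
    tauto
  exact h2

end coset

section simple
variable {Ω : Type*} [Group Ω] {S : Subgroup Ω} [Finite S] {F : FusionSystem S}

theorem simple_hyp (hS : IsPGroup 2 S) (hsimple : F.IsSimple 2) (h4 : 4 ≤ Nat.card S) :
    F.hyperfocalSubgroup 2 = S := by
  haveI : Fact (Nat.Prime 2) := ⟨Nat.prime_two⟩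
  have hF := hsimple.1
  obtain ⟨E, hE, hEi⟩ := Cfsg.Agent.Lib.FusionPIdx.exists_index (p := 2) _ hS F hF
    Cfsg.Agent.Lib.FusionHyper.hyp_le le_rfl rfl
  have h1 := Cfsg.Agent.S5120.result 2 hS F hF (F.hyperfocalSubgroup 2) Cfsg.Agent.Lib.FusionHyper.hyp_le
    Cfsg.Agent.Lib.FusionTate.normal_hyp_subgroupOf le_rfl E hE hEi
  rcases hsimple.2.2 _ E h1 with h2 | ⟨h2, -⟩
  · exfalso
    have h3 := Cfsg.Agent.Lib.FusionInner.isInner_of_hyp_eq_bot hS hF h2
    -- a central involution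
    obtain ⟨z, hz, hz1⟩ : ∃ z : S, z ∈ Subgroup.center S ∧ orderOf z = 2 := by
      have hnt : Nontrivial S := by
        rw [← Finite.one_lt_card_iff_nontrivial]; omega
      have h5 := hS.center_nontrivial
      have h6 : 2 ∣ Nat.card (Subgroup.center S) := by
        have h7 := (hS.to_subgroup (Subgroup.center S))
        obtain ⟨k, hk⟩ := IsPGroup.iff_card.mp h7
        rw [hk]
        refine dvd_pow_self 2 ?_
        rintro rfl
        have := Finite.one_lt_card (α := Subgroup.center S)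
        omega
      obtain ⟨z, hz⟩ := exists_prime_orderOf_dvd_card' 2 h6
      exact ⟨z, z.2, by rw [Subgroup.orderOf_coe]; exact hz⟩
    have hzS : Subgroup.zpowers (z : Ω) ≤ S := by
      rw [Subgroup.zpowers_le]; exact z.2
    have hcen : ∀ s ∈ S, ∀ a ∈ Subgroup.zpowers (z : Ω), s * a * s⁻¹ = a := by
      rintro s hs _ ⟨i, rfl⟩
      have h5 : (⟨s, hs⟩ : S) * z = z * ⟨s, hs⟩ := Subgroup.mem_center_iff.1 hz _
      have h6 : s * (z : Ω) = z * s := congrArg Subtype.val h5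
      have h7 : s * (z : Ω) ^ i = (z : Ω) ^ i * s := (show Commute s (z : Ω) from h6).zpow_right i
      show s * (z : Ω) ^ i * s⁻¹ = (z : Ω) ^ i
      rw [h7]; group
    have hn : F.IsNormal (Subgroup.zpowers (z : Ω)) := by
      refine Cfsg.Agent.Lib.FusionNormal.isNormal_of_abelian_stronglyClosed hS hF ⟨hzS, ?_⟩ ?_
      · intro R hR φ hφ x
        rw [h3 R] at hφ
        obtain ⟨-, g, hg, hgx⟩ := hφ
        rw [hgx, hcen g hg x (hR x.2)]
        exact hR x.2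
      · rintro _ ⟨i, rfl⟩ _ ⟨j, rfl⟩
        exact ((Commute.refl (z : Ω)).zpow_zpow i j).eq
    have h8 := Cfsg.Agent.Lib.FusionInnerN.inner_isNormalIn hS hF hn
    have hcard : Nat.card (Subgroup.zpowers (z : Ω)) = 2 := by
      rw [Nat.card_zpowers, Subgroup.orderOf_coe, hz1]
    rcases hsimple.2.2 _ _ h8 with h9 | ⟨h9, -⟩
    · rw [h9, Subgroup.card_bot] at hcard
      omega
    · rw [h9] at hcard
      omega
  · exact h2

theorem simple_core (hS : IsPGroup 2 S) (hsimple : F.IsSimple 2) (h4 : 4 ≤ Nat.card S) {Q : Subgroup Ω}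
    (hQ : F.IsNormal Q) : Q = ⊥ := by
  haveI : Fact (Nat.Prime 2) := ⟨Nat.prime_two⟩
  refine Cfsg.Agent.Lib.FusionInnerN.core_eq_bot_of_simple hS hsimple ?_ hQ
  rw [simple_hyp hS hsimple h4]
  exact hsimple.2.1

theorem simple_focal (hS : IsPGroup 2 S) (hsimple : F.IsSimple 2) (h4 : 4 ≤ Nat.card S) {T : Subgroup Ω}
    (hTS : T.relIndex S = 2)
    (h : ∀ P : Subgroup Ω, F.IsFullyNormalized P → F.IsCentric P → Act F P → P ≤ T) : False := by
  have h1 := focal_le_of_active hS hsimple.1 T (comm_of_index hTS) h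
  have h2 : S ≤ T := by
    rw [← simple_hyp hS hsimple h4]
    exact Cfsg.Agent.Lib.FusionHyper.hyp_le_focal.trans h1
  have h3 : T.relIndex S = 1 := Subgroup.relIndex_eq_one.2 h2
  omega

end simple

end Cfsg.Agent.Lib.H88FS
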