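import Cfsg.Agent.Lib.H88FS22

/-! Simple fusion systems on dihedral, semidihedral and wreathed groups: all classes are active (part 2). -/

set_option autoImplicit false
set_option maxHeartbeats 400000

namespace Cfsg.Agent.Lib.H88FS

open Cfsg Cfsg.FusionSystem Cfsg.Agent.Lib.FusionBasic Cfsg.Agent.Lib.FusionSat Cfsg.Agent.Lib.FusionRealized

theorem le_of_conj_le {Ω : Type*} [Group Ω] {S T P : Subgroup Ω} (hT : T.relIndex S = 2) (hP : P ≤ S) {s : Ω}
    (hs : s ∈ S) (h : P.map (MulAut.conj s).toMonoidHom ≤ T) : P ≤ T := by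
  intro a ha
  have h1 := comm_of_index hT s hs a (hP ha)
  have h2 : s * a * s⁻¹ ∈ T := h ⟨a, ha, rfl⟩
  have h3 := T.mul_mem h2 (T.inv_mem h1)
  have h4 : s * a * s⁻¹ * (a⁻¹ * (s * a * s⁻¹))⁻¹ = a := by group
  rwa [h4] at h3

namespace MC
variable {Ω : Type*} [Group Ω] {S : Subgroup Ω} {x y : Ω} {c d : ℤ} {n : ℕ} (h : MC S x y c d n)
include h

theorem exists_T {g : Ω} (hg : g ∈ S) (hx : g ∉ Subgroup.zpowers x) :
    ∃ T : Subgroup Ω, T.relIndex S = 2 ∧ x ^ 2 ∈ T ∧ g ∈ T := by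
  haveI := h.finite
  refine ⟨Subgroup.closure {x ^ 2, g}, ?_, Subgroup.subset_closure (by simp), Subgroup.subset_closure (by simp)⟩
  have h1 : g * x ^ 2 * g⁻¹ = (x ^ 2) ^ c := by
    rw [← conj_pow, h.out_conj hg hx, ← zpow_natCast, ← zpow_natCast, ← zpow_mul, ← zpow_mul, mul_comm]
  obtain ⟨e, he⟩ : ∃ e : ℤ, g * g = (x ^ 2) ^ e := by
    rcases h.out_sq hg hx with h2 | h2
    · exact ⟨0, by rw [h2, zpow_zero]⟩
    · refine ⟨2 ^ (n - 1), ?_⟩
      obtain ⟨k, hk⟩ := Nat.exists_eq_add_of_le' h.hn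
      rw [h2, ← zpow_natCast, ← zpow_mul, hk, Nat.add_sub_cancel]
      congr 1
      push_cast; ring
  have h3 : g ∉ Subgroup.zpowers (x ^ 2) := fun h4 => hx ((Subgroup.zpowers_le.2 (Subgroup.npow_mem_zpowers x 2)) h4)
  have h5 := card_pair h1 he h3
  have h6 : orderOf (x ^ 2) = 2 ^ n := by
    rw [orderOf_pow' x (by norm_num), h.ord]
    have : Nat.gcd (2 ^ (n + 1)) 2 = 2 := Nat.gcd_eq_right (dvd_pow_self 2 (by omega))
    rw [this, pow_succ, Nat.mul_div_cancel _ (by norm_num)]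
  have hle : Subgroup.closure {x ^ 2, g} ≤ S := by
    rw [Subgroup.closure_le]
    rintro a (rfl | rfl)
    · exact S.pow_mem h.hx 2
    · exact hg
  have h7 := Cfsg.Agent.Lib.Wreathed.card_mul_relIndex hle
  rw [h5, h6, h.card] at h7
  have h8 : 2 * 2 ^ n * (Subgroup.closure {x ^ 2, g}).relIndex S = 2 * 2 ^ n * 2 := by
    rw [h7]; ring
  exact Nat.eq_of_mul_eq_mul_left (by positivity) h8

theorem tt_in (hd : d = 0) {g : Ω} (hg : g ∈ S) (hx : g ∉ Subgroup.zpowers x) {T : Subgroup Ω} (hT : x ^ 2 ∈ T) :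
    tt x n g ∈ T := by
  obtain ⟨k, hk⟩ := Nat.exists_eq_add_of_le' h.hn
  have hz : x ^ (2 ^ n : ℤ) ∈ T := by
    have : x ^ (2 ^ n : ℤ) = (x ^ 2) ^ (2 ^ k : ℤ) := by
      rw [← zpow_natCast, ← zpow_mul, hk]
      congr 1
      push_cast; ring
    rw [this]; exact T.zpow_mem hT _
  by_cases hgg : g * g = 1
  · rw [tt_one hgg]; exact hz
  · rw [tt_z hgg]
    rcases h.cases with ⟨h1, h2⟩ | ⟨h1, h2⟩ | ⟨h1, h2, h3⟩
    · exfalso
      apply hgg
      obtain ⟨i, rfl⟩ := h.out hg hx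
      rw [h.sq_out, h1, h2]; simp
    · exfalso
      rw [hd] at h2
      have : (0 : ℤ) < 2 ^ n := by positivity
      omega
    · obtain ⟨l, hl⟩ := Nat.exists_eq_add_of_le' h3
      have : x ^ (2 ^ (n - 1) : ℤ) = (x ^ 2) ^ (2 ^ l : ℤ) := by
        rw [← zpow_natCast, ← zpow_mul, hl]
        congr 1
        rw [show l + 2 - 1 = l + 1 by omega]
        push_cast; ring
      rw [this]; exact T.zpow_mem hT _

theorem EE_in (hd : d = 0) {g : Ω} (hg : g ∈ S) (hx : g ∉ Subgroup.zpowers x) {T : Subgroup Ω} (hT : x ^ 2 ∈ T)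
    (hgT : g ∈ T) : EE x n g ≤ T := by
  rw [EE, Subgroup.closure_le]
  rintro a (rfl | rfl)
  · exact h.tt_in hd hg hx hT
  · exact hgT

theorem simple_act (hd : d = 0) {F : FusionSystem S} (hs : F.IsSimple 2) :
    Act F (EE x n y) ∧ Act F (EE x n (x * y)) := by
  haveI := h.finite
  have h4 : 4 ≤ Nat.card S := by
    rw [h.card]
    have : 2 ^ 2 ≤ 2 ^ (n + 2) := Nat.pow_le_pow_right (by norm_num) (by omega)
    omega
  constructor
  · by_contra hna
    obtain ⟨T, hT1, hT2, hT3⟩ := h.exists_T h.xy_mem' h.xy_ny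
    refine simple_focal h.isPGroup hs h4 hT1 fun P hP hc ha => ?_
    have hc' : centralizerIn S P ≤ P :=
      (isCentric_iff_of_fullyCentralized (isFullyCentralized_of_centric hc)).1 hc
    obtain ⟨i, -, ⟨s, hsS, h5⟩ | ⟨s, hsS, h5⟩⟩ := h.of_act hc.1 hc' ha
    · exfalso
      rw [act_map_iff hc.1 hsS, h5] at ha
      exact hna ha
    · refine le_of_conj_le hT1 hc.1 hsS ?_
      rw [h5]
      exact h.EE_in hd h.xy_mem' h.xy_ny hT2 hT3
  · by_contra hna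
    obtain ⟨T, hT1, hT2, hT3⟩ := h.exists_T h.hy h.ny
    refine simple_focal h.isPGroup hs h4 hT1 fun P hP hc ha => ?_
    have hc' : centralizerIn S P ≤ P :=
      (isCentric_iff_of_fullyCentralized (isFullyCentralized_of_centric hc)).1 hc
    obtain ⟨i, -, ⟨s, hsS, h5⟩ | ⟨s, hsS, h5⟩⟩ := h.of_act hc.1 hc' ha
    · refine le_of_conj_le hT1 hc.1 hsS ?_
      rw [h5]
      exact h.EE_in hd h.hy h.ny hT2 hT3
    · exfalso
      rw [act_map_iff hc.1 hsS, h5] at ha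
      exact hna ha

end MC

section wr
open Cfsg.Agent.Lib.Wreathed Cfsg.Agent.Lib.WreathedD
variable {Ω : Type*} [Group Ω] {S : Subgroup Ω} {x y z : S} {q n : ℕ} (h : WR S x y z q n)

/-- the maximal subgroup of even elements -/
def TT : Subgroup S where
  carrier := {s | ∃ i j : ℤ, 2 ∣ i + j ∧ (s = x ^ i * y ^ j ∨ s = x ^ i * y ^ j * z)}
  one_mem' := ⟨0, 0, by simp, Or.inl (by simp)⟩
  mul_mem' := by
    rintro a b ⟨i, j, h1, rfl | rfl⟩ ⟨k, l, h2, rfl | rfl⟩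
    · exact ⟨i + k, j + l, by omega, Or.inl (h.mul_P _ _ _ _)⟩
    · exact ⟨i + k, j + l, by omega, Or.inr (P_mul_Pz h _ _ _ _)⟩
    · exact ⟨i + l, j + k, by omega, Or.inr (Pz_mul_P h _ _ _ _)⟩
    · exact ⟨i + l, j + k, by omega, Or.inl (Pz_mul_Pz h _ _ _ _)⟩
  inv_mem' := by
    rintro a ⟨i, j, h1, rfl | rfl⟩
    · exact ⟨-i, -j, by omega, Or.inl (h.inv_P _ _)⟩
    · exact ⟨-j, -i, by omega, Or.inr (inv_Pz h _ _)⟩

theorem mem_TT_P (i j : ℤ) : x ^ i * y ^ j ∈ TT h ↔ 2 ∣ i + j := by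
  constructor
  · rintro ⟨k, l, h1, h2 | h2⟩
    · obtain ⟨⟨a, ha⟩, ⟨b, hb⟩⟩ := (h.P_eq_iff _ _ _ _).1 h2
      have h3 : (4 : ℤ) * q * a = 2 * (2 * q * a) := by ring
      have h4 : (4 : ℤ) * q * b = 2 * (2 * q * b) := by ring
      omega
    · exact absurd h2 (h.P_ne_Pz _ _ _ _)
  · intro h1
    exact ⟨i, j, h1, Or.inl rfl⟩

theorem mem_TT_Pz (i j : ℤ) : x ^ i * y ^ j * z ∈ TT h ↔ 2 ∣ i + j := by
  constructor
  · rintro ⟨k, l, h1, h2 | h2⟩
    · exact absurd h2.symm (h.P_ne_Pz _ _ _ _)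
    · obtain ⟨⟨a, ha⟩, ⟨b, hb⟩⟩ := (Pz_eq_iff h _ _ _ _).1 h2
      have h3 : (4 : ℤ) * q * a = 2 * (2 * q * a) := by ring
      have h4 : (4 : ℤ) * q * b = 2 * (2 * q * b) := by ring
      omega
  · intro h1
    exact ⟨i, j, h1, Or.inr rfl⟩

theorem TT_index : (TT h).index = 2 := by
  rw [Subgroup.index_eq_two_iff]
  refine ⟨x, fun b => ?_⟩
  obtain ⟨i, j, rfl | rfl⟩ := h.exists_rep b
  · have h1 : x ^ i * y ^ j * x = x ^ (i + 1) * y ^ j := by
      have := h.mul_P i j 1 0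
      simpa using this
    rw [h1, mem_TT_P, mem_TT_P, xor_iff_iff_not]
    omega
  · have h1 : x ^ i * y ^ j * z * x = x ^ i * y ^ (j + 1) * z := by
      have := Pz_mul_P h i j 1 0
      simpa using this
    rw [h1, mem_TT_Pz, mem_TT_Pz, xor_iff_iff_not]
    omega

theorem VV_le_TT {e : ℤ} (he : (2 : ℤ) ∣ e) : VV h e ≤ (TT h).map S.subtype := by
  rintro a ha
  have haS := VV_le h e ha
  have h1 : (⟨a, haS⟩ : S) ∈ V h e := (mem_VV h).1 ha
  refine ⟨⟨a, haS⟩, ?_, rfl⟩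
  obtain ⟨i, j, h2 | h2⟩ := h.exists_rep ⟨a, haS⟩
  · rw [h2] at h1 ⊢
    rw [P_mem_V] at h1
    show _ ∈ TT h
    rw [mem_TT_P]
    obtain ⟨k, hk⟩ := h1
    have h3 : (2 : ℤ) * q * k = 2 * (q * k) := by ring
    omega
  · rw [h2] at h1 ⊢
    rw [Pz_mem_V] at h1
    show _ ∈ TT h
    rw [mem_TT_Pz]
    obtain ⟨k, hk⟩ := h1
    have h3 : (2 : ℤ) * q * k = 2 * (q * k) := by ring
    omega

theorem wr_simple_act (hwr : Cfsg.IsWreathed S) {F : FusionSystem S} (hs : F.IsSimple 2) :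
    Act F (VV h 0) ∧ Act F (UU h) := by
  haveI := h.finite
  have h4 : 4 ≤ Nat.card S := by
    rw [h.card]
    have := h.q_pos
    nlinarith
  have hU1 : UU h ≠ ⊥ := by
    intro h1
    have h2 : ((x ^ (1 : ℤ) * y ^ (0 : ℤ) : S) : Ω) ∈ UU h := (mem_UU h).2 (h.P_mem_U _ _)
    rw [h1, Subgroup.mem_bot] at h2
    have h3 : x ^ (1 : ℤ) * y ^ (0 : ℤ) = 1 := Subtype.ext h2
    rw [h.P_eq_one] at h3
    have h5 := h.q_pos'
    have h6 := Int.le_of_dvd (by norm_num) h3.1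
    omega
  constructor
  · by_contra hV
    exact hU1 (simple_core (wr_isPGroup h) hs h4 (UU_isNormal h hwr hs.1 hV))
  · by_contra hU
    have hT : ((TT h).map S.subtype).relIndex S = 2 := by
      rw [Subgroup.relIndex, Subgroup.subgroupOf, Subgroup.comap_map_eq_self_of_injective Subtype.val_injective,
        TT_index]
    refine simple_focal (wr_isPGroup h) hs h4 hT fun P hP hc ha => ?_
    have hc' : centralizerIn S P ≤ P :=
      (isCentric_iff_of_fullyCentralized (isFullyCentralized_of_centric hc)).1 hc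
    obtain ⟨α, hα, h1, h2⟩ := id ha
    rcases wr_classify h hc.1 hc' h1 h2 with rfl | ⟨e, he, rfl⟩
    · exact absurd ha hU
    · exact VV_le_TT h he

end wr

end Cfsg.Agent.Lib.H88FS
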