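import Mathlib

/-! Groups acting on trees of paths: the subgroup of `FreeGroup X ⋊ Γ` of all pairs `(a, γ)` such that the reduced
word `a` is a path from `v₀` to `γ • v₀` in a `Γ`-graph with edge set `X`. -/

set_option autoImplicit false
set_option maxHeartbeats 400000

namespace Cfsg.Agent.Lib.FreeReal

open FreeGroup

section Path

variable {X V : Type*} (s t : X → V)

/-- starting vertex of a signed edge -/
def stt (y : X × Bool) : V := if y.2 then s y.1 else t y.1

/-- end vertex of a signed edge -/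
def enn (y : X × Bool) : V := if y.2 then t y.1 else s y.1

/-- paths -/
def Pth : V → List (X × Bool) → V → Prop
  | v, [], w => v = w
  | v, y :: L, w => stt s t y = v ∧ Pth (enn s t y) L w

variable {s t}

theorem pth_append {v w : V} {L₁ L₂ : List (X × Bool)} :
    Pth s t v (L₁ ++ L₂) w ↔ ∃ u, Pth s t v L₁ u ∧ Pth s t u L₂ w := by
  induction L₁ generalizing v with
  | nil => simp [Pth]
  | cons y L ih =>
    simp only [List.cons_append, Pth, ih]
    constructor
    · rintro ⟨h, u, h1, h2⟩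
      exact ⟨u, ⟨h, h1⟩, h2⟩
    · rintro ⟨u, ⟨h, h1⟩, h2⟩
      exact ⟨h, u, h1, h2⟩

theorem pth_unique {v w w' : V} {L : List (X × Bool)} (h : Pth s t v L w) (h' : Pth s t v L w') : w = w' := by
  induction L generalizing v with
  | nil => exact h.symm.trans h'
  | cons y L ih => exact ih h.2 h'.2

theorem enn_not (x : X) (b : Bool) : enn s t (x, !b) = stt s t (x, b) := by
  cases b <;> rfl

theorem stt_not (x : X) (b : Bool) : stt s t (x, !b) = enn s t (x, b) := by
  cases b <;> rfl

theorem pth_step {v w : V} {L L' : List (X × Bool)} (h : Red.Step L L') (hp : Pth s t v L w) : Pth s t v L' w := by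
  cases h with
  | @not L₁ L₂ x b =>
    obtain ⟨u, h1, h2⟩ := pth_append.1 hp
    obtain ⟨h3, h4, h5⟩ := h2
    rw [enn_not, h3] at h5
    exact pth_append.2 ⟨u, h1, h5⟩

theorem pth_red {v w : V} {L L' : List (X × Bool)} (h : Red L L') (hp : Pth s t v L w) : Pth s t v L' w := by
  induction h with
  | refl => exact hp
  | tail _ h ih => exact pth_step h ih

variable [DecidableEq X]

/-- group elements which are paths -/
def GP (s t : X → V) (v : V) (a : FreeGroup X) (w : V) : Prop := Pth s t v a.toWord w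

theorem gp_mk {v w : V} {L : List (X × Bool)} (h : Pth s t v L w) : GP s t v (FreeGroup.mk L) w := by
  unfold GP
  rw [toWord_mk]
  exact pth_red reduce.red h

theorem gp_unique {v w w' : V} {a : FreeGroup X} (h : GP s t v a w) (h' : GP s t v a w') : w = w' :=
  pth_unique h h'

theorem gp_one (v : V) : GP s t v 1 v := by
  unfold GP
  rw [toWord_one]
  rfl

theorem gp_one_iff {v w : V} : GP s t v 1 w ↔ v = w := by
  unfold GP
  rw [toWord_one]
  rfl

theorem gp_mul {v w u : V} {a b : FreeGroup X} (h : GP s t v a w) (h' : GP s t w b u) : GP s t v (a * b) u := by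
  have h1 : Pth s t v (a.toWord ++ b.toWord) u := pth_append.2 ⟨w, h, h'⟩
  have h2 := gp_mk h1
  rwa [← mul_mk, mk_toWord, mk_toWord] at h2

theorem pth_invRev {v w : V} {L : List (X × Bool)} (h : Pth s t v L w) : Pth s t w (invRev L) v := by
  induction L generalizing v with
  | nil => exact (show v = w from h).symm
  | cons y L ih =>
    rw [invRev_cons]
    refine pth_append.2 ⟨_, ih h.2, ?_⟩
    show stt s t (y.1, !y.2) = enn s t y ∧ enn s t (y.1, !y.2) = v
    rw [stt_not, enn_not]
    exact ⟨rfl, h.1⟩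

theorem gp_inv {v w : V} {a : FreeGroup X} (h : GP s t v a w) : GP s t w a⁻¹ v := by
  unfold GP
  rw [toWord_inv]
  exact pth_invRev h

variable {Γ : Type*} [Group Γ] [MulAction Γ X] [MulAction Γ V]

theorem pth_smul (hs : ∀ (γ : Γ) x, s (γ • x) = γ • s x) (ht : ∀ (γ : Γ) x, t (γ • x) = γ • t x)
    (γ : Γ) {v w : V} {L : List (X × Bool)} (h : Pth s t v L w) :
    Pth s t (γ • v) (L.map (fun y => (γ • y.1, y.2))) (γ • w) := by
  induction L generalizing v with
  | nil => exact congrArg (γ • ·) (show v = w from h)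
  | cons y L ih =>
    obtain ⟨x, b⟩ := y
    obtain ⟨h1, h2⟩ := h
    refine ⟨?_, ?_⟩
    · show stt s t (γ • x, b) = γ • v
      rw [← h1]
      cases b
      · exact ht γ x
      · exact hs γ x
    · have h3 : enn s t (γ • x, b) = γ • enn s t (x, b) := by
        cases b
        · exact hs γ x
        · exact ht γ x
      show Pth s t (enn s t (γ • x, b)) (L.map (fun y => (γ • y.1, y.2))) (γ • w)
      rw [h3]
      exact ih h2

omit [DecidableEq X] in
variable (X) in
/-- `Γ` acts on the free group -/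
def rho (Γ : Type*) [Group Γ] [MulAction Γ X] : Γ →* MulAut (FreeGroup X) where
  toFun γ := freeGroupCongr (MulAction.toPerm γ)
  map_one' := by
    ext a
    show FreeGroup.map (fun x => (1 : Γ) • x) a = a
    simp
  map_mul' γ δ := by
    ext a
    show FreeGroup.map (fun x => (γ * δ) • x) a = FreeGroup.map (fun x => γ • x) (FreeGroup.map (fun x => δ • x) a)
    rw [FreeGroup.map.comp]
    congr 2
    ext x
    exact mul_smul γ δ x

omit [DecidableEq X] in
theorem rho_mk (γ : Γ) (L : List (X × Bool)) :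
    rho X Γ γ (FreeGroup.mk L) = FreeGroup.mk (L.map (fun y => (γ • y.1, y.2))) := rfl

theorem toWord_rho (γ : Γ) (a : FreeGroup X) : (rho X Γ γ a).toWord = a.toWord.map (fun y => (γ • y.1, y.2)) := by
  conv_lhs => rw [← mk_toWord (x := a), rho_mk, toWord_mk]
  apply IsReduced.reduce_eq
  have h := isReduced_toWord (x := a)
  unfold FreeGroup.IsReduced at h ⊢
  rw [List.isChain_map]
  refine h.imp ?_
  intro y z hyz h1
  exact hyz (MulAction.injective γ h1)

theorem norm_rho (γ : Γ) (a : FreeGroup X) : (rho X Γ γ a).norm = a.norm := by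
  unfold FreeGroup.norm
  rw [toWord_rho, List.length_map]

theorem gp_rho (hs : ∀ (γ : Γ) x, s (γ • x) = γ • s x) (ht : ∀ (γ : Γ) x, t (γ • x) = γ • t x)
    (γ : Γ) {v w : V} {a : FreeGroup X} (h : GP s t v a w) : GP s t (γ • v) (rho X Γ γ a) (γ • w) := by
  unfold GP
  rw [toWord_rho]
  exact pth_smul hs ht γ h

theorem smul_eq_of_rho_eq (γ : Γ) {a : FreeGroup X} (h : rho X Γ γ a = a) : ∀ y ∈ a.toWord, γ • y.1 = y.1 := by
  have h1 := toWord_rho γ a
  rw [h] at h1
  have h2 : ∀ L : List (X × Bool), L = L.map (fun y => (γ • y.1, y.2)) → ∀ y ∈ L, γ • y.1 = y.1 := by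
    intro L
    induction L with
    | nil => intro _ y hy; cases hy
    | cons z L ih =>
      intro hL y hy
      rw [List.map_cons] at hL
      obtain ⟨h3, h4⟩ := List.cons.inj hL
      rcases List.mem_cons.1 hy with rfl | hy
      · exact (congrArg Prod.fst h3).symm
      · exact ih h4 y hy
  exact h2 _ h1

end Path

section Norm

variable {X : Type*} [DecidableEq X]

theorem norm_letter (y : X × Bool) (r : FreeGroup X) :
    (FreeGroup.mk [y] * r).norm = r.norm + 1 ∨
      ((FreeGroup.mk [y] * r).norm + 1 = r.norm ∧ ∃ L, r.toWord = (y.1, !y.2) :: L) := by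
  have h : (FreeGroup.mk [y] * r).toWord = reduce (y :: r.toWord) := by
    conv_lhs => rw [← mk_toWord (x := r), mul_mk, toWord_mk]
    rfl
  unfold FreeGroup.norm
  rw [h, reduce.cons, reduce_toWord]
  rcases r.toWord with _ | ⟨z, L⟩
  · left; rfl
  · by_cases hz : y.1 = z.1 ∧ y.2 = !z.2
    · right
      simp only [hz, and_self, if_true]
      refine ⟨rfl, L, ?_⟩
      congr 1
      apply Prod.ext
      · rfl
      · simp
    · left
      simp only [hz, if_false]
      rfl

theorem norm_convex {y z : X × Bool} (h : y ≠ z) (r : FreeGroup X) :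
    2 * r.norm ^ 2 < (FreeGroup.mk [y] * r).norm ^ 2 + (FreeGroup.mk [z] * r).norm ^ 2 := by
  rcases norm_letter y r with h1 | ⟨h1, L, hL⟩
  · rcases norm_letter z r with h2 | ⟨h2, L', hL'⟩
    · rw [h1, h2]; nlinarith
    · rw [h1, ← h2]; nlinarith
  · rcases norm_letter z r with h2 | ⟨h2, L', hL'⟩
    · rw [h2, ← h1]; nlinarith
    · exfalso
      rw [hL] at hL'
      obtain ⟨h3, -⟩ := List.cons.inj hL'
      apply h
      apply Prod.ext
      · exact (Prod.ext_iff.1 h3).1
      · have := (Prod.ext_iff.1 h3).2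
        simpa using this

theorem convex_growth (f : FreeGroup X → ℕ)
    (hf : ∀ v (y z : X × Bool), y ≠ z → 2 * f v < f (v * (FreeGroup.mk [y])⁻¹) + f (v * (FreeGroup.mk [z])⁻¹))
    (L : List (X × Bool)) : ∀ (v : FreeGroup X) (y : X × Bool), IsReduced (y :: L) → L ≠ [] →
      f v ≤ f (v * FreeGroup.mk [y]) → f (v * FreeGroup.mk [y]) < f (v * FreeGroup.mk (y :: L)) := by
  induction L with
  | nil => intro v y _ h; exact absurd rfl h
  | cons z L ih =>
    intro v y hred _ hle
    rw [isReduced_cons_cons] at hred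
    have hyz : y ≠ (z.1, !z.2) := by
      rintro rfl
      have := hred.1 rfl
      simp at this
    have h1 := hf (v * FreeGroup.mk [y]) _ _ hyz
    have e1 : v * FreeGroup.mk [y] * (FreeGroup.mk [y])⁻¹ = v := by group
    have e2 : (FreeGroup.mk [(z.1, !z.2)])⁻¹ = FreeGroup.mk [z] := by
      rw [inv_mk]
      congr 1
      simp [invRev]
    rw [e1, e2] at h1
    have h2 : f (v * FreeGroup.mk [y]) < f (v * FreeGroup.mk [y] * FreeGroup.mk [z]) := by omega
    have e3 : v * FreeGroup.mk [y] * FreeGroup.mk (z :: L) = v * FreeGroup.mk (y :: z :: L) := by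
      rw [mul_assoc, mul_mk]; rfl
    by_cases hL : L = []
    · subst hL
      rw [← e3]
      exact h2
    · have h3 := ih (v * FreeGroup.mk [y]) z hred.2 hL h2.le
      rw [e3] at h3
      exact h2.trans h3

end Norm

section Group

universe u

variable {Γ X V : Type u} [Group Γ] [DecidableEq X] [MulAction Γ X] [MulAction Γ V] (s t : X → V)
  (hs : ∀ (γ : Γ) x, s (γ • x) = γ • s x) (ht : ∀ (γ : Γ) x, t (γ • x) = γ • t x) (v₀ : V)

/-- The group of the graph. -/
def grp : Subgroup (FreeGroup X ⋊[rho X Γ] Γ) where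
  carrier := {g | GP s t v₀ g.left (g.right • v₀)}
  one_mem' := by
    show GP s t v₀ 1 ((1 : Γ) • v₀)
    rw [one_smul]
    exact gp_one v₀
  mul_mem' := by
    intro g h hg hh
    show GP s t v₀ (g.left * rho X Γ g.right h.left) ((g.right * h.right) • v₀)
    rw [mul_smul]
    exact gp_mul hg (gp_rho hs ht g.right hh)
  inv_mem' := by
    intro g hg
    show GP s t v₀ (rho X Γ g.right⁻¹ g.left⁻¹) (g.right⁻¹ • v₀)
    have h1 := gp_rho hs ht g.right⁻¹ (gp_inv hg)
    rwa [inv_smul_smul] at h1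

theorem mem_grp {g : FreeGroup X ⋊[rho X Γ] Γ} : g ∈ grp s t hs ht v₀ ↔ GP s t v₀ g.left (g.right • v₀) := Iff.rfl

/-- finite subgroups fix a vertex -/
theorem exists_conj [MulAction.IsPretransitive Γ V] (H : Subgroup (grp s t hs ht v₀)) (hH : Finite H) :
    ∃ g : grp s t hs ht v₀, ∀ h ∈ H, ((g * h * g⁻¹ : grp s t hs ht v₀) : FreeGroup X ⋊[rho X Γ] Γ).left = 1 := by
  classical
  haveI := Fintype.ofFinite H
  let act : (FreeGroup X ⋊[rho X Γ] Γ) → FreeGroup X → FreeGroup X := fun k v => k.left * rho X Γ k.right v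
  let f : FreeGroup X → ℕ := fun v => ∑ h : H, (v⁻¹ * ((h : grp s t hs ht v₀) : FreeGroup X ⋊[rho X Γ] Γ).left).norm ^ 2
  have hinv : ∀ (k : H) v, f (act ((k : grp s t hs ht v₀) : FreeGroup X ⋊[rho X Γ] Γ) v) = f v := by
    intro k v
    refine (Fintype.sum_equiv (Equiv.mulLeft k) _ _ ?_).symm
    intro h
    have h1 : (act ((k : grp s t hs ht v₀) : FreeGroup X ⋊[rho X Γ] Γ) v)⁻¹ *
        (((k * h : H) : grp s t hs ht v₀) : FreeGroup X ⋊[rho X Γ] Γ).left =
        rho X Γ ((k : grp s t hs ht v₀) : FreeGroup X ⋊[rho X Γ] Γ).right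
          (v⁻¹ * ((h : grp s t hs ht v₀) : FreeGroup X ⋊[rho X Γ] Γ).left) := by
      show (_ * _)⁻¹ * (_ * _) = _
      rw [_root_.map_mul, _root_.map_inv]
      group
    show _ = ((act ((k : grp s t hs ht v₀) : FreeGroup X ⋊[rho X Γ] Γ) v)⁻¹ *
        (((k * h : H) : grp s t hs ht v₀) : FreeGroup X ⋊[rho X Γ] Γ).left).norm ^ 2
    rw [h1, norm_rho]
  have hconv : ∀ v (y z : X × Bool), y ≠ z →
      2 * f v < f (v * (FreeGroup.mk [y])⁻¹) + f (v * (FreeGroup.mk [z])⁻¹) := by
    intro v y z hyz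
    show 2 * ∑ h : H, _ < ∑ h : H, _ + ∑ h : H, _
    rw [← Finset.sum_add_distrib, Finset.mul_sum]
    refine Finset.sum_lt_sum_of_nonempty ⟨1, Finset.mem_univ _⟩ ?_
    intro h _
    have := norm_convex hyz (v⁻¹ * ((h : grp s t hs ht v₀) : FreeGroup X ⋊[rho X Γ] Γ).left)
    simpa only [mul_inv_rev, inv_inv, mul_assoc] using this
  -- vertices
  let T : Set (FreeGroup X) := {v | ∃ w, GP s t v₀ v w}
  have hT : T.Nonempty := ⟨1, v₀, gp_one v₀⟩
  have hlift : ∀ v ∈ T, ∃ g : grp s t hs ht v₀, (g : FreeGroup X ⋊[rho X Γ] Γ).left = v := by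
    rintro v ⟨w, hw⟩
    obtain ⟨γ, rfl⟩ := MulAction.exists_smul_eq Γ v₀ w
    exact ⟨⟨⟨v, γ⟩, hw⟩, rfl⟩
  have hact : ∀ (k : grp s t hs ht v₀) v, v ∈ T → act (k : FreeGroup X ⋊[rho X Γ] Γ) v ∈ T := by
    intro k v hv
    obtain ⟨g, rfl⟩ := hlift v hv
    exact ⟨_, (k * g).2⟩
  obtain ⟨v, hvT, hvmin⟩ : ∃ v ∈ T, ∀ v' ∈ T, f v ≤ f v' := by
    obtain ⟨v, hv, hmin⟩ := WellFounded.has_min (measure f).wf T hT
    exact ⟨v, hv, fun v' hv' => not_lt.1 (hmin v' hv')⟩
  have key : ∀ v' ∈ T, f v' = f v → ∀ y L, (v⁻¹ * v').toWord = y :: L → L = [] := by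
    intro v' hv' hfv y L hL
    by_contra hne
    obtain ⟨w, hw⟩ := hvT
    obtain ⟨w', hw'⟩ := hv'
    have h1 : GP s t w (v⁻¹ * v') w' := gp_mul (gp_inv hw) hw'
    have h2 : v * FreeGroup.mk [y] ∈ T := by
      unfold GP at h1
      rw [hL] at h1
      have h3 : Pth s t w ([y] ++ L) w' := h1
      obtain ⟨u, hu, -⟩ := pth_append.1 h3
      exact ⟨u, gp_mul hw (gp_mk hu)⟩
    have hred : IsReduced (y :: L) := by rw [← hL]; exact isReduced_toWord
    have h3 := convex_growth f hconv L v y hred hne (hvmin _ h2)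
    have h4 : v * FreeGroup.mk (y :: L) = v' := by
      rw [← hL, mk_toWord]; group
    rw [h4, hfv] at h3
    exact absurd (hvmin _ h2) (not_le.2 h3)
  have hfix : ∀ k : H, act ((k : grp s t hs ht v₀) : FreeGroup X ⋊[rho X Γ] Γ) v = v := by
    intro k
    by_contra hne
    set v' := act ((k : grp s t hs ht v₀) : FreeGroup X ⋊[rho X Γ] Γ) v with hv'
    have hv'T : v' ∈ T := hact _ _ hvT
    have hf' : f v' = f v := hinv k v
    have hne' : (v⁻¹ * v').toWord ≠ [] := by
      rw [Ne, toWord_eq_nil_iff, inv_mul_eq_one]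
      exact fun h => hne h.symm
    obtain ⟨y, L, hL⟩ := List.exists_cons_of_ne_nil hne'
    have hL0 := key v' hv'T hf' y L hL
    subst hL0
    have h1 : v' = v * FreeGroup.mk [y] := by
      rw [← hL, mk_toWord]; group
    set v'' := act ((k : grp s t hs ht v₀) : FreeGroup X ⋊[rho X Γ] Γ) v' with hv''
    have h2 : v⁻¹ * v'' = FreeGroup.mk [y, (((k : grp s t hs ht v₀) : FreeGroup X ⋊[rho X Γ] Γ).right • y.1, y.2)] := by
      rw [hv'']
      show v⁻¹ * (_ * rho X Γ _ v') = _
      rw [h1, _root_.map_mul, ← mul_assoc, ← mul_assoc]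
      have h3 : v⁻¹ * ((k : grp s t hs ht v₀) : FreeGroup X ⋊[rho X Γ] Γ).left *
          rho X Γ ((k : grp s t hs ht v₀) : FreeGroup X ⋊[rho X Γ] Γ).right v = FreeGroup.mk [y] := by
        rw [mul_assoc]
        show v⁻¹ * v' = _
        rw [h1]; group
      rw [h3, rho_mk, mul_mk]
      rfl
    have h3 : (v⁻¹ * v'').toWord =
        [y, (((k : grp s t hs ht v₀) : FreeGroup X ⋊[rho X Γ] Γ).right • y.1, y.2)] := by
      rw [h2, toWord_mk]
      apply IsReduced.reduce_eq
      rw [isReduced_cons_cons]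
      exact ⟨fun _ => rfl, IsReduced.singleton⟩
    have h4 := key v'' (hact _ _ hv'T) ((hinv k v').trans hf') _ _ h3
    exact absurd h4 (by simp)
  obtain ⟨g, hg⟩ := hlift v hvT
  refine ⟨g⁻¹, fun h hh => ?_⟩
  have h1 := hfix ⟨h, hh⟩
  rw [inv_inv]
  have h2 : ((g⁻¹ * h * g : grp s t hs ht v₀) : FreeGroup X ⋊[rho X Γ] Γ) =
      (g : FreeGroup X ⋊[rho X Γ] Γ)⁻¹ * ((h : FreeGroup X ⋊[rho X Γ] Γ) * g) := by
    show (g : FreeGroup X ⋊[rho X Γ] Γ)⁻¹ * h * g = _
    rw [mul_assoc]
  rw [h2, SemidirectProduct.mul_left, SemidirectProduct.inv_left]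
  have h3 : ((h : FreeGroup X ⋊[rho X Γ] Γ) * g).left = v := by
    rw [SemidirectProduct.mul_left, hg]
    exact h1
  rw [h3, hg, SemidirectProduct.inv_right, ← _root_.map_mul, inv_mul_cancel, _root_.map_one]

theorem exists_free_normal [Finite Γ] :
    ∃ N : Subgroup (grp s t hs ht v₀), N.Normal ∧ IsFreeGroup ↥N ∧ N.index ∣ Nat.card Γ := by
  let π : grp s t hs ht v₀ →* Γ := SemidirectProduct.rightHom.comp (grp s t hs ht v₀).subtype
  refine ⟨π.ker, inferInstance, ?_, ?_⟩
  · let M : Subgroup (FreeGroup X) := (grp s t hs ht v₀).comap SemidirectProduct.inl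
    have e : M ≃* π.ker :=
      { toFun := fun a => ⟨⟨SemidirectProduct.inl a.1, a.2⟩, rfl⟩
        invFun := fun g => ⟨g.1.1.left, by
          show SemidirectProduct.inl g.1.1.left ∈ grp s t hs ht v₀
          have h1 : g.1.1 = SemidirectProduct.inl g.1.1.left := by
            apply SemidirectProduct.ext
            · rfl
            · exact g.2
          rw [← h1]
          exact g.1.2⟩
        left_inv := fun a => rfl
        right_inv := fun g => by
          apply Subtype.ext
          apply Subtype.ext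
          apply SemidirectProduct.ext
          · rfl
          · exact (show g.1.1.right = 1 from g.2).symm
        map_mul' := fun a b => by
          apply Subtype.ext
          apply Subtype.ext
          exact map_mul SemidirectProduct.inl a.1 b.1 }
    exact IsFreeGroup.ofMulEquiv e
  · rw [Subgroup.index_ker]
    exact Subgroup.card_subgroup_dvd_card _

end Group

end Cfsg.Agent.Lib.FreeReal
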