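import Cfsg.Agent.Lib.FusionPark
import Cfsg.Agent.Lib.H88FreeReal

/-! Every fusion system over a finite group is realized by a group with a free normal subgroup of finite index, all of
whose finite subgroups are conjugate into `S` (Leary–Stancheva, Robinson). -/

set_option autoImplicit false
set_option maxHeartbeats 400000

namespace Cfsg.Agent.Lib.FreeReal2

open Cfsg Cfsg.FusionSystem
open Cfsg.Agent.Lib.FusionBasic Cfsg.Agent.Lib.FusionSat Cfsg.Agent.Lib.FreeReal

universe u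

/-- Two free actions of a group on a finite set are isomorphic. -/
theorem exists_perm_conj {P X : Type*} [Group P] [Finite P] [Finite X] (a b : P →* Equiv.Perm X)
    (ha : ∀ g x, a g x = x → g = 1) (hb : ∀ g x, b g x = x → g = 1) :
    ∃ e : Equiv.Perm X, ∀ g, e * a g = b g * e := by
  obtain ⟨e, he⟩ := Marks.exists_equiv_of_mk_eq _ X X a b rfl (by
    intro H
    by_cases hH : H = ⊥
    · subst hH
      unfold Marks.mk
      have h1 : ∀ (c : P →* Equiv.Perm X) (x : X), (⊥ : Subgroup P) ≤ Marks.stab c x := fun c x => bot_le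
      rw [Nat.card_congr (Equiv.subtypeUnivEquiv (h1 a)), Nat.card_congr (Equiv.subtypeUnivEquiv (h1 b))]
    · obtain ⟨⟨g, hg⟩, hg1'⟩ := Subgroup.ne_bot_iff_exists_ne_one.1 hH
      have hg1 : g ≠ 1 := fun h => hg1' (Subtype.ext h)
      have e1 : Marks.mk a H = 0 := by
        rw [Marks.mk_eq_zero_iff]
        intro x hx
        exact hg1 (ha g x (hx hg))
      have e2 : Marks.mk b H = 0 := by
        rw [Marks.mk_eq_zero_iff]
        intro x hx
        exact hg1 (hb g x (hx hg))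
      rw [e1, e2])
  refine ⟨e, fun g => ?_⟩
  ext1 x
  exact he g x

variable {Ω : Type u} [Group Ω] {S : Subgroup Ω}

/-- the regular representation -/
def lam (S : Subgroup Ω) : S →* Equiv.Perm S := MulAction.toPermHom S S

theorem lam_apply (u v : S) : lam S u v = u * v := rfl

theorem lam_injective : Function.Injective (lam S) := by
  intro u v h
  have := congrArg (fun e : Equiv.Perm S => e 1) h
  simpa [lam_apply] using this

/-- maps of the system -/
abbrev EE (F : FusionSystem S) : Type u := Σ P : Subgroup Ω, {φ : P →* Ω // φ ∈ F.Hom P}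

theorem ee_le {F : FusionSystem S} (e : EE F) : e.1 ≤ S := (fmap_toFun.2 e.2.2).le

theorem ee_mem {F : FusionSystem S} (e : EE F) (x : e.1) : e.2.1 x ∈ S := by
  have := (fmap_toFun.2 e.2.2).map_mem x.2
  rwa [toFun_coe] at this

theorem exists_ge [Finite S] {F : FusionSystem S} (e : EE F) : ∃ g : Equiv.Perm S, ∀ x : e.1,
    g * lam S ⟨x, ee_le e x.2⟩ = lam S ⟨e.2.1 x, ee_mem e x⟩ * g := by
  haveI : Finite e.1 := Finite.of_injective (Subgroup.inclusion (ee_le e)) (Subgroup.inclusion_injective _)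
  let b' : e.1 →* S := e.2.1.codRestrict S (ee_mem e)
  refine exists_perm_conj ((lam S).comp (Subgroup.inclusion (ee_le e))) ((lam S).comp b') ?_ ?_
  · intro g x h
    have h1 : (Subgroup.inclusion (ee_le e) g) * x = x := h
    have h2 : Subgroup.inclusion (ee_le e) g = 1 := by simpa using h1
    exact Subgroup.inclusion_injective _ (h2.trans (map_one _).symm)
  · intro g x h
    have h1 : b' g * x = x := h
    have h2 : b' g = 1 := by simpa using h1
    have h3 : e.2.1 g = 1 := congrArg Subtype.val h2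
    have h4 := (fmap_toFun.2 e.2.2).eq_one g.2 (by rw [toFun_coe]; exact h3)
    exact Subtype.ext h4

/-- the chosen permutations -/
noncomputable def ge [Finite S] {F : FusionSystem S} (e : EE F) : Equiv.Perm S := (exists_ge e).choose

theorem ge_spec [Finite S] {F : FusionSystem S} (e : EE F) (x : e.1) :
    ge e * lam S ⟨x, ee_le e x.2⟩ = lam S ⟨e.2.1 x, ee_mem e x⟩ * ge e := (exists_ge e).choose_spec x

/-- edge stabilizers -/
def ae {F : FusionSystem S} (e : EE F) : Subgroup (Equiv.Perm S) := (e.1.subgroupOf S).map (lam S)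

theorem mem_ae {F : FusionSystem S} (e : EE F) {γ : Equiv.Perm S} :
    γ ∈ ae e ↔ ∃ x : e.1, lam S ⟨x, ee_le e x.2⟩ = γ := by
  constructor
  · rintro ⟨y, hy, rfl⟩
    exact ⟨⟨y, hy⟩, rfl⟩
  · rintro ⟨x, rfl⟩
    exact ⟨⟨x, ee_le e x.2⟩, x.2, rfl⟩

theorem ae_le {F : FusionSystem S} (e : EE F) : ae e ≤ (lam S).range := by
  rintro _ ⟨y, -, rfl⟩
  exact ⟨y, rfl⟩

theorem ge_conj_mem [Finite S] {F : FusionSystem S} (e : EE F) {γ : Equiv.Perm S} (h : γ ∈ ae e) :
    ge e * γ * (ge e)⁻¹ ∈ (lam S).range := by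
  obtain ⟨x, rfl⟩ := (mem_ae e).1 h
  rw [ge_spec, mul_inv_cancel_right]
  exact ⟨_, rfl⟩

/-- vertices -/
abbrev VV (S : Subgroup Ω) : Type u := Equiv.Perm S ⧸ (lam S).range

/-- edges -/
abbrev XX' (F : FusionSystem S) : Type u := Σ e : EE F, Equiv.Perm S ⧸ ae e

/-- source -/
noncomputable def src [Finite S] (F : FusionSystem S) (x : XX' F) : VV S :=
  Quotient.map' (s₁ := QuotientGroup.leftRel (ae x.1)) (s₂ := QuotientGroup.leftRel (lam S).range)
    (fun γ => γ * (ge x.1)⁻¹) (by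
      intro γ δ h
      rw [QuotientGroup.leftRel_apply] at h ⊢
      have := ge_conj_mem x.1 h
      have e : (γ * (ge x.1)⁻¹)⁻¹ * (δ * (ge x.1)⁻¹) = ge x.1 * (γ⁻¹ * δ) * (ge x.1)⁻¹ := by group
      rw [e]
      exact this) x.2

/-- target -/
def tgt (F : FusionSystem S) (x : XX' F) : VV S :=
  Quotient.map' (s₁ := QuotientGroup.leftRel (ae x.1)) (s₂ := QuotientGroup.leftRel (lam S).range)
    (fun γ => γ) (by
      intro γ δ h
      rw [QuotientGroup.leftRel_apply] at h ⊢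
      exact ae_le _ h) x.2

theorem src_mk [Finite S] (F : FusionSystem S) (e : EE F) (γ : Equiv.Perm S) :
    src F ⟨e, (γ : Equiv.Perm S ⧸ ae e)⟩ = ((γ * (ge e)⁻¹ : Equiv.Perm S) : VV S) := rfl

theorem tgt_mk (F : FusionSystem S) (e : EE F) (γ : Equiv.Perm S) :
    tgt F ⟨e, (γ : Equiv.Perm S ⧸ ae e)⟩ = (γ : VV S) := rfl

theorem src_smul [Finite S] (F : FusionSystem S) (γ : Equiv.Perm S) (x : XX' F) : src F (γ • x) = γ • src F x := by
  obtain ⟨e, q⟩ := x
  obtain ⟨δ, rfl⟩ := QuotientGroup.mk_surjective q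
  show src F ⟨e, ((γ * δ : Equiv.Perm S) : Equiv.Perm S ⧸ ae e)⟩ = γ • src F ⟨e, (δ : Equiv.Perm S ⧸ ae e)⟩
  rw [src_mk, src_mk, mul_assoc]
  rfl

theorem tgt_smul (F : FusionSystem S) (γ : Equiv.Perm S) (x : XX' F) : tgt F (γ • x) = γ • tgt F x := by
  obtain ⟨e, q⟩ := x
  obtain ⟨δ, rfl⟩ := QuotientGroup.mk_surjective q
  rfl

/-- The maps seen from a vertex. -/
def Good (F : FusionSystem S) (Q : Subgroup Ω) (c : Equiv.Perm S) : Prop :=
  ∃ f : Ω → Ω, FMap F Q f ∧ ∀ z : S, (z : Ω) ∈ Q → ∃ w : S, (w : Ω) = f z ∧ c⁻¹ * lam S z * c = lam S w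

theorem good_rep {F : FusionSystem S} {Q : Subgroup Ω} {c d : Equiv.Perm S} (h : Good F Q c)
    (hcd : (c : VV S) = (d : VV S)) : Good F Q d := by
  obtain ⟨f, hf, hf'⟩ := h
  have h1 : c⁻¹ * d ∈ (lam S).range := QuotientGroup.eq.1 hcd
  obtain ⟨u, hu⟩ := h1
  have hd : d = c * lam S u := by rw [hu]; group
  refine ⟨fun z => (u : Ω)⁻¹ * f z * u, ?_, ?_⟩
  · have h2 := hf.comp (fmap_conj F le_rfl (S.inv_mem u.2)) (fun x hx => hf.map_mem hx)
    refine h2.congr (fun x _ => ?_)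
    show (u : Ω)⁻¹ * f x * ((u : Ω)⁻¹)⁻¹ = _
    rw [inv_inv]
  · intro z hz
    obtain ⟨w, hw, hw'⟩ := hf' z hz
    refine ⟨u⁻¹ * w * u, ?_, ?_⟩
    · show (u : Ω)⁻¹ * w * u = _
      rw [hw]
    · rw [hd, map_mul, map_mul, ← hw', map_inv]
      group

theorem good_pth [Finite S] {F : FusionSystem S} {Q : Subgroup Ω} (L : List (XX' F × Bool)) :
    ∀ (c d : Equiv.Perm S), Good F Q c → (∀ y ∈ L, ∀ z : S, (z : Ω) ∈ Q → lam S z • y.1 = y.1) →
      Pth (src F) (tgt F) (c : VV S) L (d : VV S) → Good F Q d := by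
  induction L with
  | nil =>
    intro c d hc _ h
    exact good_rep hc h
  | cons y L ih =>
    intro c d hc hL hp
    obtain ⟨⟨e, q⟩, b⟩ := y
    obtain ⟨γ, rfl⟩ := QuotientGroup.mk_surjective q
    have hfix : ∀ z : S, (z : Ω) ∈ Q → ∃ a : e.1, γ⁻¹ * lam S z * γ = lam S ⟨a, ee_le e a.2⟩ := by
      intro z hz
      have h1 := hL _ List.mem_cons_self z hz
      have h2 : (⟨e, ((lam S z * γ : Equiv.Perm S) : Equiv.Perm S ⧸ ae e)⟩ : XX' F) = ⟨e, (γ : Equiv.Perm S ⧸ ae e)⟩ := h1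
      have h3 : ((lam S z * γ : Equiv.Perm S) : Equiv.Perm S ⧸ ae e) = (γ : Equiv.Perm S ⧸ ae e) := by
        simpa using h2
      have h4 := QuotientGroup.eq.1 h3.symm
      obtain ⟨a, ha⟩ := (mem_ae e).1 h4
      exact ⟨a, by rw [ha]; group⟩
    have hL' : ∀ y ∈ L, ∀ z : S, (z : Ω) ∈ Q → lam S z • y.1 = y.1 := fun y hy => hL y (List.mem_cons_of_mem _ hy)
    obtain ⟨h1, h2⟩ := hp
    have hφ : FMap F e.1 (toFun e.2.1) := fmap_toFun.2 e.2.2
    cases b with
    | false =>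
      have h3 : (c : VV S) = (γ : VV S) := h1.symm
      obtain ⟨f, hf, hf'⟩ := good_rep hc h3
      have hfa : ∀ z : S, (z : Ω) ∈ Q → ∃ a : e.1, f z = a ∧ γ⁻¹ * lam S z * γ = lam S ⟨a, ee_le e a.2⟩ := by
        intro z hz
        obtain ⟨a, ha⟩ := hfix z hz
        obtain ⟨w, hw, hw'⟩ := hf' z hz
        have h4 : w = ⟨a, ee_le e a.2⟩ := lam_injective (hw'.symm.trans ha)
        refine ⟨a, ?_, ha⟩
        rw [← hw, h4]
      refine ih (γ * (ge e)⁻¹) d ?_ hL' h2
      refine ⟨fun z => toFun e.2.1 (f z), ?_, ?_⟩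
      · refine hf.comp hφ fun x hx => ?_
        obtain ⟨a, ha, -⟩ := hfa ⟨x, hf.le hx⟩ hx
        have ha' : f x = a := ha
        rw [ha']
        exact a.2
      · intro z hz
        obtain ⟨a, ha, ha'⟩ := hfa z hz
        refine ⟨⟨e.2.1 a, ee_mem e a⟩, ?_, ?_⟩
        · show e.2.1 a = toFun e.2.1 (f z)
          rw [ha, toFun_coe]
        · have h5 := ge_spec e a
          have e1 : (γ * (ge e)⁻¹)⁻¹ * lam S z * (γ * (ge e)⁻¹) = ge e * (γ⁻¹ * lam S z * γ) * (ge e)⁻¹ := by group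
          rw [e1, ha', h5, mul_inv_cancel_right]
    | true =>
      have h3 : (c : VV S) = ((γ * (ge e)⁻¹ : Equiv.Perm S) : VV S) := h1.symm
      obtain ⟨f, hf, hf'⟩ := good_rep hc h3
      obtain ⟨B, hB⟩ := hφ.exists_iso
      obtain ⟨k, hk, hk1, hk2⟩ := hB.symm
      have hfa : ∀ z : S, (z : Ω) ∈ Q → ∃ a : e.1, f z = toFun e.2.1 a ∧
          γ⁻¹ * lam S z * γ = lam S ⟨a, ee_le e a.2⟩ := by
        intro z hz
        obtain ⟨a, ha⟩ := hfix z hz
        obtain ⟨w, hw, hw'⟩ := hf' z hz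
        have e1 : (γ * (ge e)⁻¹)⁻¹ * lam S z * (γ * (ge e)⁻¹) = ge e * (γ⁻¹ * lam S z * γ) * (ge e)⁻¹ := by group
        rw [e1, ha, ge_spec, mul_inv_cancel_right] at hw'
        have h4 := lam_injective hw'
        refine ⟨a, ?_, ha⟩
        rw [← hw, ← h4, toFun_coe]
      refine ih γ d ?_ hL' h2
      refine ⟨fun z => k (f z), ?_, ?_⟩
      · refine hf.comp hk.1 fun x hx => ?_
        obtain ⟨a, ha, -⟩ := hfa ⟨x, hf.le hx⟩ hx
        have ha' : f x = toFun e.2.1 a := ha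
        rw [ha']
        exact hB.mem a.2
      · intro z hz
        obtain ⟨a, ha, ha'⟩ := hfa z hz
        refine ⟨⟨a, ee_le e a.2⟩, ?_, ha'⟩
        show (a : Ω) = k (f z)
        rw [ha, hk1 _ a.2]

/-- **Robinson, Leary–Stancheva** -/
theorem exists_infinite [Finite S] (F : FusionSystem S) : ∃ (G : Type u) (_ : Group G) (ι : ↥S →* G),
    F.IsRealizedBy ι ∧ (∀ H : Subgroup G, Finite ↥H → ∃ g : G, ∀ h ∈ H, g * h * g⁻¹ ∈ ι.range) ∧
      ∃ N : Subgroup G, N.Normal ∧ IsFreeGroup ↥N ∧ N.index ∣ (Nat.card ↥S).factorial := by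
  classical
  let Γ := Equiv.Perm S
  let v₀ : VV S := ((1 : Equiv.Perm S) : VV S)
  let G := grp (src F) (tgt F) (src_smul F) (tgt_smul F) v₀
  have hv : ∀ γ : Equiv.Perm S, γ • v₀ = (γ : VV S) := by
    intro γ
    show ((γ * 1 : Equiv.Perm S) : VV S) = γ
    rw [mul_one]
  have hι : ∀ u : S, SemidirectProduct.inr (φ := rho (XX' F) (Equiv.Perm S)) (lam S u) ∈ G := by
    intro u
    show GP (src F) (tgt F) v₀ 1 (lam S u • v₀)
    rw [hv, gp_one_iff]
    refine (QuotientGroup.eq.2 ?_)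
    exact ⟨u, by simp⟩
  let ι : ↥S →* G := ((SemidirectProduct.inr (φ := rho (XX' F) (Equiv.Perm S))).comp (lam S)).codRestrict G hι
  have hιinj : Function.Injective ι := by
    intro u v h
    have h1 := congrArg (fun g : G => (g : FreeGroup (XX' F) ⋊[rho (XX' F) (Equiv.Perm S)] Equiv.Perm S).right) h
    exact lam_injective h1
  have hιr : ∀ g : G, (g : FreeGroup (XX' F) ⋊[rho (XX' F) (Equiv.Perm S)] Equiv.Perm S).left = 1 → g ∈ ι.range := by
    intro g hg
    have h1 := g.2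
    rw [mem_grp, hg, gp_one_iff, hv] at h1
    obtain ⟨u, hu⟩ := QuotientGroup.eq.1 h1
    rw [inv_one, one_mul] at hu
    refine ⟨u, Subtype.ext (SemidirectProduct.ext hg.symm hu)⟩
  refine ⟨G, inferInstance, ι, ⟨hιinj, ?_⟩, ?_, ?_⟩
  · intro P hP φ hφ
    constructor
    · intro hφF
      let e : EE F := ⟨P, φ, hφF⟩
      let x : XX' F := ⟨e, ((ge e : Equiv.Perm S) : Equiv.Perm S ⧸ ae e)⟩
      have hg : (⟨FreeGroup.of x, ge e⟩ : FreeGroup (XX' F) ⋊[rho (XX' F) (Equiv.Perm S)] Equiv.Perm S) ∈ G := by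
        show GP (src F) (tgt F) v₀ (FreeGroup.of x) (ge e • v₀)
        rw [hv]
        unfold GP
        rw [FreeGroup.toWord_of]
        refine ⟨?_, rfl⟩
        show src F x = v₀
        rw [src_mk, mul_inv_cancel]
      refine ⟨⟨_, hg⟩, fun y => ?_⟩
      rw [eq_mul_inv_iff_mul_eq]
      apply Subtype.ext
      have h1 := ge_spec e y
      apply SemidirectProduct.ext
      · show 1 * rho (XX' F) (Equiv.Perm S) (lam S ⟨φ y, hφ y⟩) (FreeGroup.of x) =
          FreeGroup.of x * rho (XX' F) (Equiv.Perm S) (ge e) 1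
        rw [map_one, mul_one, one_mul]
        show FreeGroup.of (lam S ⟨φ y, hφ y⟩ • x) = FreeGroup.of x
        congr 1
        show (⟨e, ((lam S ⟨φ y, hφ y⟩ * ge e : Equiv.Perm S) : Equiv.Perm S ⧸ ae e)⟩ : XX' F) = ⟨e, _⟩
        congr 1
        refine (QuotientGroup.eq.2 ?_).symm
        rw [mem_ae]
        refine ⟨y, ?_⟩
        have h2 : (ge e)⁻¹ * (lam S ⟨φ y, hφ y⟩ * ge e) = (ge e)⁻¹ * (ge e * lam S ⟨y, ee_le e y.2⟩) := by
          rw [h1]
        rw [h2]; group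
      · exact h1.symm
    · rintro ⟨g, hg⟩
      have hg' : ∀ x : P, (lam S ⟨φ x, hφ x⟩ * (g : FreeGroup (XX' F) ⋊[rho (XX' F) (Equiv.Perm S)] Equiv.Perm S).right =
          (g : FreeGroup (XX' F) ⋊[rho (XX' F) (Equiv.Perm S)] Equiv.Perm S).right * lam S ⟨x, hP x.2⟩) ∧
          rho (XX' F) (Equiv.Perm S) (lam S ⟨φ x, hφ x⟩)
            (g : FreeGroup (XX' F) ⋊[rho (XX' F) (Equiv.Perm S)] Equiv.Perm S).left =
            (g : FreeGroup (XX' F) ⋊[rho (XX' F) (Equiv.Perm S)] Equiv.Perm S).left := by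
        intro x
        have h1 := hg x
        rw [eq_mul_inv_iff_mul_eq] at h1
        have h2 := congrArg Subtype.val h1
        refine ⟨congrArg SemidirectProduct.right h2, ?_⟩
        have h3 : 1 * rho (XX' F) (Equiv.Perm S) (lam S ⟨φ x, hφ x⟩)
            (g : FreeGroup (XX' F) ⋊[rho (XX' F) (Equiv.Perm S)] Equiv.Perm S).left =
            (g : FreeGroup (XX' F) ⋊[rho (XX' F) (Equiv.Perm S)] Equiv.Perm S).left *
              rho (XX' F) (Equiv.Perm S) (g : FreeGroup (XX' F) ⋊[rho (XX' F) (Equiv.Perm S)] Equiv.Perm S).right 1 :=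
          congrArg SemidirectProduct.left h2
        rwa [map_one, mul_one, one_mul] at h3
      have hQS : φ.range ≤ S := by
        rintro _ ⟨x, rfl⟩
        exact hφ x
      have hgood : Good F φ.range (1 : Equiv.Perm S) :=
        ⟨fun x => x, fmap_id F hQS, fun z _ => ⟨z, rfl, by simp⟩⟩
      have hgood' := good_pth _ 1 (g : FreeGroup (XX' F) ⋊[rho (XX' F) (Equiv.Perm S)] Equiv.Perm S).right hgood (by
        intro y hy z hz
        obtain ⟨x, hx⟩ := hz
        have h1 := (hg' x).2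
        have h2 := smul_eq_of_rho_eq _ h1 y hy
        have h3 : z = ⟨φ x, hφ x⟩ := Subtype.ext hx.symm
        rw [h3]
        exact h2) (by
          have := g.2
          rw [mem_grp, hv] at this
          exact this)
      obtain ⟨f, hf, hf'⟩ := hgood'
      have hfφ : ∀ x : P, f (φ x) = x := by
        intro x
        obtain ⟨w, hw, hw'⟩ := hf' ⟨φ x, hφ x⟩ ⟨x, rfl⟩
        rw [mul_assoc, (hg' x).1, inv_mul_cancel_left] at hw'
        have h4 := lam_injective hw'
        have h5 : (w : Ω) = f (φ x) := hw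
        rw [← h5, ← h4]
      obtain ⟨B, hB⟩ := hf.exists_iso
      obtain ⟨k, hk, hk1, hk2⟩ := hB.symm
      have hPB : P ≤ B := by
        intro x hx
        have h6 := hB.mem (⟨⟨x, hx⟩, rfl⟩ : φ ⟨x, hx⟩ ∈ φ.range)
        rwa [hfφ] at h6
      have hkP : FMap F P k := hk.1.restrict hPB
      refine hkP.mem (fun x => ?_)
      have h6 := hk1 (φ x) ⟨x, rfl⟩
      rw [hfφ] at h6
      exact h6.symm
  · intro H hH
    obtain ⟨g, hg⟩ := exists_conj (src F) (tgt F) (src_smul F) (tgt_smul F) v₀ H hH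
    exact ⟨g, fun h hh => hιr _ (hg h hh)⟩
  · obtain ⟨N, hN, hfree, hidx⟩ := exists_free_normal (src F) (tgt F) (src_smul F) (tgt_smul F) v₀
    refine ⟨N, hN, hfree, ?_⟩
    rwa [Nat.card_perm] at hidx

end Cfsg.Agent.Lib.FreeReal2
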