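import Cfsg.Agent.Lib.FusionStable
import Cfsg.Agent.Lib.FusionSys
import Cfsg.Agent.Lib.FusionNormal

/-! Every subgroup has a conjugate `Q'` inside a fully normalized, centric, radical `R` such that all automorphisms of
`Q'` extend to `R`. -/

set_option autoImplicit false
set_option maxHeartbeats 400000

namespace Cfsg.Agent.Lib.RadExt

open Cfsg Cfsg.FusionSystem
open Cfsg.Agent.Lib.FusionBasic Cfsg.Agent.Lib.FusionSat Cfsg.Agent.Lib.FusionNormal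

variable {Ω : Type*} [Group Ω] {S : Subgroup Ω} {F : FusionSystem S} {P Q R : Subgroup Ω} {f g : Ω → Ω} {p : ℕ}

/-- `{s ∈ S : c_s|_R ∈ K}` -/
def pre (S : Subgroup Ω) (K : Subgroup (MulAut R)) : Subgroup Ω where
  carrier := {s | s ∈ S ∧ ∃ α ∈ K, ∀ x : R, ((α x : R) : Ω) = s * x * s⁻¹}
  one_mem' := ⟨S.one_mem, 1, K.one_mem, fun x => by simp⟩
  mul_mem' := by
    rintro s t ⟨hs, α, hα, h1⟩ ⟨ht, β, hβ, h2⟩
    refine ⟨S.mul_mem hs ht, α * β, K.mul_mem hα hβ, fun x => ?_⟩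
    show ((α (β x) : R) : Ω) = _
    rw [h1, h2]; group
  inv_mem' := by
    rintro s ⟨hs, α, hα, h1⟩
    refine ⟨S.inv_mem hs, α⁻¹, K.inv_mem hα, fun x => ?_⟩
    have h2 := h1 (α⁻¹ x)
    have h3 : α (α⁻¹ x) = x := MulAut.apply_inv_self _ α x
    rw [h3] at h2
    rw [h2]; group

theorem mem_pre {K : Subgroup (MulAut R)} {s : Ω} :
    s ∈ pre S K ↔ s ∈ S ∧ ∃ α ∈ K, ∀ x : R, ((α x : R) : Ω) = s * x * s⁻¹ := Iff.rfl

/-- automorphisms of a fully normalized subgroup extend to the preimage of any normal `p`-subgroup -/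
theorem extend_pre [Finite S] [Fact p.Prime] (hS : IsPGroup p S) (hF : F.IsSaturated p)
    (hR : F.IsFullyNormalized R) {K : Subgroup (MulAut R)} (hKle : K ≤ autInducedBy S R)
    (hRK : Inn R ≤ K)
    (hKn : ∀ α ∈ F.autGroup R, ∀ κ ∈ K, α * κ * α⁻¹ ∈ K) {b : Ω → Ω} (hb : FIso F R R b) :
    R ≤ pre S K ∧ ∃ g, FIso F (pre S K) (pre S K) g ∧ ∀ x ∈ R, g x = b x := by
  have hrec := receptive_of_fullyNormalized hS hF hR
  have hRpre : R ≤ pre S K := by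
    intro s hs
    have h1 : MulAut.conj (⟨s, hs⟩ : R) ∈ Inn R := by
      rw [inn_eq_autInducedBy, mem_autInducedBy_iff]
      exact ⟨s, hs, fun x => rfl⟩
    exact ⟨hR.1 hs, _, hRK h1, fun x => rfl⟩
  have hpreS : pre S K ≤ S := fun s hs => hs.1
  refine ⟨hRpre, ?_⟩
  set β : MulAut R := hb.equiv with hβ
  have hβc : ∀ x : R, ((β x : R) : Ω) = b x := hb.equiv_apply
  have hβF : β ∈ F.autGroup R := hb.equiv_mem_autGroup
  have htr : ∀ s ∈ pre S K, ∃ α ∈ K, (∀ x : R, ((α x : R) : Ω) = s * x * s⁻¹) ∧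
      ∀ x : R, b (s * x * s⁻¹) = (((β * α * β⁻¹) (β x) : R) : Ω) := by
    rintro s ⟨hs, α, hα, h1⟩
    refine ⟨α, hα, h1, fun x => ?_⟩
    have h2 : (β * α * β⁻¹) (β x) = β (α x) := by
      show β (α (β⁻¹ (β x))) = _
      rw [MulAut.inv_apply_self]
    rw [h2, hβc, h1]
  obtain ⟨g, hg, hgb⟩ := (isReceptive_iff.1 hrec).2 R b hb (pre S K) hRpre hpreS (by
    intro s hs
    obtain ⟨α, hα, h1, h2⟩ := htr s hs
    refine ⟨mem_normalizer_of_aut h1, ?_⟩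
    obtain ⟨h, hh, h3⟩ := mem_autInducedBy_iff.1 (hKle (hKn β hβF α hα))
    refine ⟨h, hh, fun x hx => ?_⟩
    have h4 := h2 ⟨x, hx⟩
    rw [h3, hβc] at h4
    exact h4)
  refine ⟨g, hg.fiso_of_card hpreS ?_ le_rfl, hgb⟩
  intro s hs
  obtain ⟨α, hα, h1, h2⟩ := htr s hs
  refine ⟨hg.map_mem hs, β * α * β⁻¹, hKn β hβF α hα, fun x => ?_⟩
  obtain ⟨y, rfl⟩ : ∃ y, β y = x := ⟨β⁻¹ x, MulAut.apply_inv_self _ β x⟩
  have hn := mem_normalizer_of_aut h1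
  have h5 : s * (y : Ω) * s⁻¹ ∈ R := by
    rw [← h1]
    exact (α y).2
  rw [← h2, ← hgb _ h5, hg.map_conj hs (hRpre y.2), hgb _ y.2, hβc]

/-- A pair. -/
def Pair (F : FusionSystem S) (Q Q' R : Subgroup Ω) : Prop :=
  F.IsConj Q Q' ∧ Q' ≤ R ∧ F.IsFullyNormalized R ∧
    ∀ a, FIso F Q' Q' a → ∃ b, FIso F R R b ∧ ∀ x ∈ Q', b x = a x

theorem exists_radical_pair [Finite S] [Fact p.Prime] (hS : IsPGroup p S) (hF : F.IsSaturated p) (hQ : Q ≤ S) :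
    ∃ Q' R, Pair F Q Q' R ∧ F.IsCentric R ∧ F.IsRadical p R := by
  obtain ⟨Q₀, hQ₀, hQ₀n⟩ := exists_fullyNormalized_conj F hQ
  have h0 : Pair F Q Q₀ Q₀ := ⟨hQ₀, le_rfl, hQ₀n, fun a ha => ⟨a, ha, fun _ _ => rfl⟩⟩
  obtain ⟨⟨Q', R⟩, hp, hmax⟩ : ∃ q : Subgroup Ω × Subgroup Ω, Pair F Q q.1 q.2 ∧
      ∀ q' : Subgroup Ω × Subgroup Ω, Pair F Q q'.1 q'.2 → Nat.card q'.2 ≤ Nat.card q.2 := by
    classical
    have hbd : ∀ q : Subgroup Ω × Subgroup Ω, Pair F Q q.1 q.2 → Nat.card q.2 ≤ Nat.card S := fun q hq =>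
      Subgroup.card_le_of_le hq.2.2.1.1
    have hex : ∃ n, ∃ q : Subgroup Ω × Subgroup Ω, Pair F Q q.1 q.2 ∧ Nat.card S - Nat.card q.2 = n :=
      ⟨_, (Q₀, Q₀), h0, rfl⟩
    obtain ⟨q, hq, hqn⟩ := Nat.find_spec hex
    refine ⟨q, hq, fun q' hq' => ?_⟩
    have h1 := Nat.find_min' hex ⟨q', hq', rfl⟩
    have h2 := hbd q hq
    have h3 := hbd q' hq'
    omega
  refine ⟨Q', R, hp, ?_⟩
  obtain ⟨hc, hle, hRn, hext⟩ := hp
  set K : Subgroup (MulAut R) := (pCore p (F.autGroup R)).map (F.autGroup R).subtype with hK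
  haveI : Finite R := finite_of_le hRn.1
  have hauto := fullyAutomized_of_fullyNormalized hS hF hRn
  have hKle : K ≤ autInducedBy S R := by
    obtain ⟨T, hT⟩ := hauto.2
    rintro _ ⟨α, hα, rfl⟩
    have h1 := pCore_le_sylow T hα
    have h2 : α ∈ (T : Subgroup (F.autGroup R)) := h1
    rw [hT] at h2
    exact Subgroup.mem_subgroupOf.1 h2
  have hinn : Inn R ≤ K := inn_le_pCore hS hRn.1
  have hKn : ∀ α ∈ F.autGroup R, ∀ κ ∈ K, α * κ * α⁻¹ ∈ K := by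
    rintro α hα _ ⟨κ, hκ, rfl⟩
    haveI : (pCore p (F.autGroup R)).Normal := pCore_normal _ _
    exact ⟨⟨α, hα⟩ * κ * ⟨α, hα⟩⁻¹, Subgroup.Normal.conj_mem inferInstance _ hκ _, rfl⟩
  have hidR : FIso F R R (fun x => x) := FIso.refl F hRn.1
  have hRpre := (extend_pre hS hF hRn hKle hinn hKn hidR).1
  have hpreS : pre S K ≤ S := fun s hs => hs.1
  -- maximality gives pre = R
  obtain ⟨R', φ, hR'n, hφ, -, -⟩ := exists_fullyNormalized_map hS hF hpreS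
  obtain ⟨ψ, hψ, hψ1, hψ2⟩ := hφ.symm
  have hQpre : Q' ≤ pre S K := hle.trans hRpre
  obtain ⟨Q₁, hQ₁⟩ := (hφ.1.restrict hQpre).exists_iso
  have hQ₁R' : Q₁ ≤ R' := by
    intro y hy
    obtain ⟨x, hx, rfl⟩ := hQ₁.mem_iff.1 hy
    exact hφ.mem (hQpre hx)
  have hpair : Pair F Q Q₁ R' := by
    refine ⟨isConj_trans hc hQ₁.isConj, hQ₁R', hR'n, fun a ha => ?_⟩
    have hψQ : FIso F Q₁ Q' ψ := by
      refine FMap.fiso_of_eq (hψ.1.restrict hQ₁R') fun y => ?_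
      constructor
      · intro hy
        exact ⟨φ y, hQ₁.mem hy, hψ1 _ (hQpre hy)⟩
      · rintro ⟨z, hz, rfl⟩
        obtain ⟨x, hx, rfl⟩ := hQ₁.mem_iff.1 hz
        rw [hψ1 _ (hQpre hx)]
        exact hx
    have h1 := (hQ₁.trans ha).trans hψQ
    obtain ⟨b, hb, hb'⟩ := hext _ h1
    obtain ⟨-, c, hc', hcb⟩ := extend_pre hS hF hRn hKle hinn hKn hb
    refine ⟨_, (hψ.trans hc').trans hφ, fun y hy => ?_⟩
    obtain ⟨x, hx, rfl⟩ := hQ₁.mem_iff.1 hy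
    show φ (c (ψ (φ x))) = a (φ x)
    rw [hψ1 _ (hQpre hx), hcb _ (hle hx), hb' _ hx]
    show φ (ψ (a (φ x))) = _
    rw [hψ2 _ (hQ₁R' (ha.mem hy))]
  have hcard := hmax (Q₁, R') hpair
  haveI : Finite (pre S K) := finite_of_le hpreS
  have heq : R = pre S K := by
    refine Subgroup.eq_of_le_of_card_ge hRpre ?_
    rw [hφ.card_eq]
    exact hcard
  constructor
  · rw [isCentric_iff_of_fullyCentralized (fullyCentralized_of_fullyNormalized hS hF hRn)]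
    intro s hs
    rw [heq]
    refine ⟨hs.1, 1, K.one_mem, fun x => ?_⟩
    have := Subgroup.mem_centralizer_iff.1 hs.2 x x.2
    show (x : Ω) = s * x * s⁻¹
    rw [← this]; group
  · rw [isRadical_iff hS hRn.1, ← hK]
    intro α hα
    obtain ⟨s, hs, h1⟩ := mem_autInducedBy_iff.1 (hKle hα)
    rw [inn_eq_autInducedBy, mem_autInducedBy_iff]
    refine ⟨s, ?_, h1⟩
    rw [heq]
    exact ⟨hs, α, hα, h1⟩

end Cfsg.Agent.Lib.RadExt
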