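import Cfsg.Agent.Lib.H8Srg77b
import Cfsg.Agent.S0410

/-!
# The strongly regular graph with parameters (77,16,0,4) is the block graph of an S(3,6,22) (helper8)
-/

set_option autoImplicit false
set_option linter.unusedSectionVars false

namespace Cfsg.Agent.Lib.H8Srg77

open Finset

section Coc

variable {V : Type*} [Fintype V] [DecidableEq V] {G : SimpleGraph V} [DecidableRel G.Adj]

/-- cocliques of size 21 -/
def coc (G : SimpleGraph V) [DecidableRel G.Adj] : Finset (Finset V) :=
  univ.filter fun T => T.card = 21 ∧ ∀ v ∈ T, ∀ w ∈ T, ¬ G.Adj v w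

theorem mem_coc {T : Finset V} : T ∈ coc G ↔ T.card = 21 ∧ ∀ v ∈ T, ∀ w ∈ T, ¬ G.Adj v w := by
  simp [coc]

/-- number of neighbours in `T` -/
def dT (G : SimpleGraph V) [DecidableRel G.Adj] (T : Finset V) (v : V) : ℤ := ∑ w ∈ T, A G v w

theorem dT_mem {T : Finset V} (hT : T ∈ coc G) {v : V} (hv : v ∈ T) : dT G T v = 0 := by
  unfold dT
  refine Finset.sum_eq_zero fun w hw => ?_
  simp [A, (mem_coc.1 hT).2 v hv w hw]

theorem dT_six (h : G.IsSRGWith 77 16 0 4) {T : Finset V} (hT : T ∈ coc G) {v : V} (hv : v ∉ T) : dT G T v = 6 := by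
  have hc := (mem_coc.1 hT).1
  have e1 : ∑ v, dT G T v = 336 := by
    unfold dT
    rw [Finset.sum_comm]
    have : ∀ w, ∑ v, A G v w = 16 := by
      intro w
      rw [← A_sum h w]
      exact Finset.sum_congr rfl fun v _ => A_symm v w
    rw [Finset.sum_congr rfl fun w _ => this w, sum_const, hc]
    norm_num
  have e2 : ∑ v, dT G T v * dT G T v = 2016 := by
    unfold dT
    have h1 : ∀ v, (∑ w ∈ T, A G v w) * (∑ w ∈ T, A G v w) = ∑ a ∈ T, ∑ b ∈ T, A G a v * A G v b := by
      intro v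
      rw [Finset.sum_mul_sum]
      refine Finset.sum_congr rfl fun a _ => Finset.sum_congr rfl fun b _ => ?_
      rw [A_symm v a]
    rw [Finset.sum_congr rfl fun v _ => h1 v, Finset.sum_comm]
    have h2 : ∀ a ∈ T, ∑ v, ∑ b ∈ T, A G a v * A G v b = 96 := by
      intro a ha
      rw [Finset.sum_comm]
      have h3 : ∀ b ∈ T, ∑ v, A G a v * A G v b = (if a = b then 12 else 0) + 4 := by
        intro b hb
        rw [A_sq h]
        simp [A, (mem_coc.1 hT).2 a ha b hb]
      rw [Finset.sum_congr rfl h3, sum_add_distrib, Finset.sum_ite_eq, if_pos ha, sum_const, hc]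
      norm_num
    rw [Finset.sum_congr rfl h2, sum_const, hc]
    norm_num
  have e3 : ∑ v : V, (if v ∈ T then (1 : ℤ) else 0) = 21 := by
    rw [Finset.sum_boole]
    simp [hc]
  have e4 : ∑ v, (if v ∈ T then 0 else (dT G T v - 6) * (dT G T v - 6)) = 0 := by
    have h1 : ∀ v, (if v ∈ T then 0 else (dT G T v - 6) * (dT G T v - 6)) =
        dT G T v * dT G T v - 12 * dT G T v + 36 - 36 * (if v ∈ T then (1 : ℤ) else 0) := by
      intro v
      by_cases hv : v ∈ T
      · rw [if_pos hv, if_pos hv, dT_mem hT hv]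
        norm_num
      · rw [if_neg hv, if_neg hv]
        ring
    rw [Finset.sum_congr rfl fun v _ => h1 v, sum_sub_distrib, sum_add_distrib, sum_sub_distrib, ← mul_sum, ← mul_sum,
      e1, e2, e3, sum_const, card_univ, h.card]
    norm_num
  have e5 := (Finset.sum_eq_zero_iff_of_nonneg (s := univ)
    (f := fun v => if v ∈ T then (0 : ℤ) else (dT G T v - 6) * (dT G T v - 6)) (fun i _ => by
      by_cases hi : i ∈ T
      · simp [hi]
      · simp only [if_neg hi]
        exact mul_self_nonneg _)).1 e4 v (mem_univ v)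
  simp only [if_neg hv] at e5
  have := mul_self_eq_zero.1 e5
  linarith

variable {o : V}

/-- indicator of `T` -/
def tI (T : Finset V) (v : V) : ℤ := if v ∈ T then 1 else 0

theorem sumT {T : Finset V} (hT : T ∈ coc G) (ho : o ∈ T) (g : V → ℤ) :
    ∑ C : S2 G o, tI T C.1 * g C.1 = ∑ C ∈ T, g C - g o := by
  rw [sumS o (fun C => tI T C * g C)]
  have h1 : ∑ D, A G o D * (tI T D * g D) = 0 := by
    refine Finset.sum_eq_zero fun D _ => ?_
    unfold tI
    by_cases hD : D ∈ T
    · simp [A, (mem_coc.1 hT).2 o ho D hD]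
    · simp [hD]
  rw [h1]
  unfold tI
  rw [if_pos ho]
  simp

theorem sumTK (h : G.IsSRGWith 77 16 0 4) {T : Finset V} (hT : T ∈ coc G) (ho : o ∈ T) (B : S2 G o) :
    ∑ C : S2 G o, tI T C.1 * Kf G o B C = if B.1 ∈ T then 32 else -16 := by
  have e0 : ∑ C : S2 G o, tI T C.1 = 20 := by
    have := sumT hT ho (fun _ => 1)
    simp only [mul_one] at this
    rw [this, sum_const, (mem_coc.1 hT).1]
    norm_num
  have e1 : ∑ C : S2 G o, tI T C.1 * A G B.1 C.1 = dT G T B.1 := by
    rw [sumT hT ho (fun C => A G B.1 C), A_symm B.1 o, A_o]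
    unfold dT
    ring
  have e2 : ∑ C : S2 G o, tI T C.1 * M G o B.1 C.1 = 20 := by
    rw [sumT hT ho (fun C => M G o B.1 C)]
    have h1 : ∑ C ∈ T, M G o B.1 C = 24 := by
      unfold M
      rw [Finset.sum_comm]
      have h2 : ∀ n, ∑ C ∈ T, A G o n * (A G n B.1 * A G n C) = 6 * (A G o n * A G n B.1) := by
        intro n
        by_cases hn : G.Adj o n
        · have hnT : n ∉ T := fun hnT => (mem_coc.1 hT).2 o ho n hnT hn
          rw [← mul_sum, ← mul_sum]
          have := dT_six h hT hnT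
          unfold dT at this
          rw [this]
          ring
        · have h3 : A G o n = 0 := by simp [A, hn]
          simp [h3]
      rw [Finset.sum_congr rfl fun n _ => h2 n, ← mul_sum, sN h]
      norm_num
    have h3 : M G o B.1 o = 4 := by
      rw [← sN h B]
      unfold M
      refine Finset.sum_congr rfl fun n _ => ?_
      rw [A_symm n o]
      have := A_mul_self (G := G) o n
      linear_combination A G n B.1 * this
    rw [h1, h3]
    norm_num
  have e3 : ∀ C : S2 G o, tI T C.1 * Kf G o B C = (if B = C then 12 * tI T C.1 else 0) - 6 * (tI T C.1 * A G B.1 C.1)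
      - 3 * (tI T C.1 * M G o B.1 C.1) + 4 * tI T C.1 := by
    intro C
    unfold Kf
    by_cases hBC : B = C
    · rw [if_pos hBC, if_pos hBC]; ring
    · rw [if_neg hBC, if_neg hBC]; ring
  rw [Finset.sum_congr rfl fun C _ => e3 C, sum_add_distrib, sum_sub_distrib, sum_sub_distrib, ← mul_sum, ← mul_sum,
    ← mul_sum, e0, e1, e2, Finset.sum_ite_eq, if_pos (mem_univ B)]
  by_cases hB : B.1 ∈ T
  · rw [dT_mem hT hB, if_pos hB]
    simp [tI, hB]
  · rw [dT_six h hT hB, if_neg hB]
    simp [tI, hB]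

/-- the properties of the labelling by pairs -/
structure PrHyp (G : SimpleGraph V) [DecidableRel G.Adj] (o : V) (pr : S2 G o → Finset (Fin 6)) : Prop where
  two : ∀ B, (pr B).card = 2
  ker : ∀ B C, Kf G o B C = 3 * ((pr B ∩ pr C).card : ℤ) - 2
  four : ∀ x y : Fin 6, x ≠ y → (univ.filter fun B => pr B = {x, y}).card = 4

theorem exists_pr (h : G.IsSRGWith 77 16 0 4) (o : V) : ∃ pr, PrHyp G o pr := by
  obtain ⟨pr, h1, h2, h3⟩ := exists_pairs (gram h (o := o))
  exact ⟨pr, h1, h2, h3⟩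

/-- the six cocliques containing `o` -/
def Kx (pr : S2 G o → Finset (Fin 6)) (x : Fin 6) : Finset V :=
  insert o ((univ.filter fun B : S2 G o => x ∈ pr B).map (Function.Embedding.subtype _))

theorem mem_Kx {pr : S2 G o → Finset (Fin 6)} {x : Fin 6} {v : V} :
    v ∈ Kx pr x ↔ v = o ∨ ∃ B : S2 G o, x ∈ pr B ∧ B.1 = v := by
  simp [Kx]

theorem mem_Kx_S2 {pr : S2 G o → Finset (Fin 6)} {x : Fin 6} {B : S2 G o} :
    B.1 ∈ Kx pr x ↔ x ∈ pr B := by
  rw [mem_Kx]
  constructor
  · rintro (h1 | ⟨C, hC, hCB⟩)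
    · exact absurd h1 B.2.1
    · rwa [← Subtype.ext hCB]
  · intro hx
    exact Or.inr ⟨B, hx, rfl⟩

theorem pair_eq {s : Finset (Fin 6)} (hs : s.card = 2) {x : Fin 6} (hx : x ∈ s) : ∃ y, x ≠ y ∧ s = {x, y} := by
  obtain ⟨a, b, hab, rfl⟩ := Finset.card_eq_two.1 hs
  rw [mem_insert, mem_singleton] at hx
  rcases hx with rfl | rfl
  · exact ⟨b, hab, rfl⟩
  · exact ⟨a, hab.symm, pair_comm _ _⟩

theorem five_ne : ∀ x : Fin 6, (univ.filter fun y : Fin 6 => x ≠ y).card = 5 := by decide

theorem exists_ne2 : ∀ x x' : Fin 6, ∃ y, x ≠ y ∧ x' ≠ y := by decide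

theorem card_mem {pr : S2 G o → Finset (Fin 6)} (hp : PrHyp G o pr) (x : Fin 6) :
    (univ.filter fun B : S2 G o => x ∈ pr B).card = 20 := by
  have h1 : (univ.filter fun B : S2 G o => x ∈ pr B) =
      (univ.filter fun y : Fin 6 => x ≠ y).biUnion fun y => univ.filter fun B => pr B = {x, y} := by
    ext B
    rw [mem_filter, mem_biUnion]
    simp only [mem_univ, true_and, mem_filter]
    constructor
    · intro hx
      exact pair_eq (hp.two B) hx
    · rintro ⟨y, -, hy⟩
      rw [hy]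
      exact mem_insert_self _ _
  rw [h1, card_biUnion]
  · have h2 : ∀ y ∈ (univ.filter fun y : Fin 6 => x ≠ y), (univ.filter fun B => pr B = {x, y}).card = 4 :=
      fun y hy => hp.four x y (mem_filter.1 hy).2
    rw [Finset.sum_congr rfl h2, sum_const]
    have h3 := five_ne x
    rw [h3]
    norm_num
  · intro y hy y' hy' hne
    rw [Function.onFun, disjoint_left]
    intro B hB hB'
    rw [mem_filter] at hB hB'
    have h3 : ({x, y} : Finset (Fin 6)) = {x, y'} := hB.2.symm.trans hB'.2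
    have h4 : y ∈ ({x, y'} : Finset (Fin 6)) := by rw [← h3]; simp
    rw [mem_insert, mem_singleton] at h4
    rcases h4 with h4 | h4
    · exact (mem_filter.1 hy).2 h4.symm
    · exact hne h4

theorem card_Kx {pr : S2 G o → Finset (Fin 6)} (hp : PrHyp G o pr) (x : Fin 6) : (Kx pr x).card = 21 := by
  unfold Kx
  rw [card_insert_of_notMem, card_map, card_mem hp]
  intro hmem
  rw [mem_map] at hmem
  obtain ⟨B, -, hB⟩ := hmem
  exact B.2.1 hB

theorem Kx_coc (h : G.IsSRGWith 77 16 0 4) {pr : S2 G o → Finset (Fin 6)} (hp : PrHyp G o pr) (x : Fin 6) :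
    Kx pr x ∈ coc G := by
  rw [mem_coc]
  refine ⟨card_Kx hp x, fun v hv w hw hvw => ?_⟩
  rw [mem_Kx] at hv hw
  rcases hv with rfl | ⟨B, hB, rfl⟩
  · rcases hw with rfl | ⟨C, hC, rfl⟩
    · exact G.loopless.irrefl _ hvw
    · exact C.2.2 hvw
  · rcases hw with rfl | ⟨C, hC, rfl⟩
    · exact B.2.2 hvw.symm
    · have h1 := hp.ker B C
      rw [Kf_adj h hvw] at h1
      have h2 : 0 < (pr B ∩ pr C).card := card_pos.2 ⟨x, mem_inter.2 ⟨hB, hC⟩⟩
      omega

theorem Kx_inj {pr : S2 G o → Finset (Fin 6)} (hp : PrHyp G o pr) : Function.Injective (Kx pr) := by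
  intro x x' hxx
  by_contra hne
  obtain ⟨y, hy1, hy2⟩ := exists_ne2 x x'
  have h1 : 0 < (univ.filter fun B => pr B = {x, y}).card := by rw [hp.four x y hy1]; norm_num
  obtain ⟨B, hB⟩ := card_pos.1 h1
  have hB' := (mem_filter.1 hB).2
  have h2 : B.1 ∈ Kx pr x := mem_Kx_S2.2 (by rw [hB']; simp)
  rw [hxx, mem_Kx_S2, hB', mem_insert, mem_singleton] at h2
  rcases h2 with h2 | h2
  · exact hne h2.symm
  · exact hy2 h2

theorem six_sums (f : Fin 6 → ℤ) (h0 : ∀ x, 0 ≤ f x) (hs : ∑ x, f x = 40)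
    (hp : ∀ x y, x ≠ y → f x + f y = 24 ∨ f x + f y = 8) : ∃ x, f x = 20 := by
  rw [Fin.sum_univ_six] at hs
  have p01 := hp 0 1 (by decide)
  have p02 := hp 0 2 (by decide)
  have p12 := hp 1 2 (by decide)
  have p03 := hp 0 3 (by decide)
  have p13 := hp 1 3 (by decide)
  have p04 := hp 0 4 (by decide)
  have p14 := hp 1 4 (by decide)
  have p34 := hp 3 4 (by decide)
  have p05 := hp 0 5 (by decide)
  have p15 := hp 1 5 (by decide)
  have n0 := h0 0
  have n1 := h0 1
  have n2 := h0 2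
  have n3 := h0 3
  have n4 := h0 4
  have n5 := h0 5
  by_contra hcon
  push Not at hcon
  have c0 := hcon 0
  have c1 := hcon 1
  have c2 := hcon 2
  have c3 := hcon 3
  have c4 := hcon 4
  have c5 := hcon 5
  clear hcon hp h0
  have k0 : f 0 = 4 ∨ f 0 = 12 := by omega
  have k1 : f 1 = 4 ∨ f 1 = 12 := by omega
  have k01 : f 0 = f 1 := by omega
  rcases k0 with k0 | k0
  · have k2 : f 2 = 4 := by omega
    have k3 : f 3 = 4 := by omega
    have k4 : f 4 = 4 := by omega
    have k5 : f 5 = 4 := by omega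
    omega
  · have k2 : f 2 = 12 := by omega
    have k3 : f 3 = 12 := by omega
    have k4 : f 4 = 12 := by omega
    have k5 : f 5 = 12 := by omega
    omega

theorem eq_Kx (h : G.IsSRGWith 77 16 0 4) {pr : S2 G o → Finset (Fin 6)} (hp : PrHyp G o pr) {T : Finset V}
    (hT : T ∈ coc G) (ho : o ∈ T) : ∃ x, Kx pr x = T := by
  have e0 : ∑ C : S2 G o, tI T C.1 = 20 := by
    have := sumT hT ho (fun _ => 1)
    simp only [mul_one] at this
    rw [this, sum_const, (mem_coc.1 hT).1]
    norm_num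
  have t0 : ∀ v, 0 ≤ tI T v := fun v => by unfold tI; split_ifs <;> norm_num
  -- `f x`
  let f : Fin 6 → ℤ := fun x => ∑ C : S2 G o, tI T C.1 * (if x ∈ pr C then 1 else 0)
  have hf0 : ∀ x, 0 ≤ f x := fun x => Finset.sum_nonneg fun C _ => mul_nonneg (t0 _) (by split_ifs <;> norm_num)
  have hfs : ∑ x, f x = 40 := by
    show ∑ x, ∑ C : S2 G o, tI T C.1 * (if x ∈ pr C then 1 else 0) = 40
    rw [Finset.sum_comm]
    have h1 : ∀ C : S2 G o, ∑ x, tI T C.1 * (if x ∈ pr C then (1 : ℤ) else 0) = 2 * tI T C.1 := by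
      intro C
      rw [← mul_sum, Finset.sum_boole]
      have h2 : (univ.filter fun x => x ∈ pr C) = pr C := by ext x; simp
      rw [h2, hp.two]
      push_cast
      ring
    rw [Finset.sum_congr rfl fun C _ => h1 C, ← mul_sum, e0]
    norm_num
  have hfp : ∀ x y, x ≠ y → f x + f y = 24 ∨ f x + f y = 8 := by
    intro x y hxy
    have h1 : 0 < (univ.filter fun B => pr B = {x, y}).card := by rw [hp.four x y hxy]; norm_num
    obtain ⟨B, hB⟩ := card_pos.1 h1
    have hB' := (mem_filter.1 hB).2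
    have h2 := sumTK h hT ho B
    have h3 : ∀ C : S2 G o, tI T C.1 * Kf G o B C = 3 * (tI T C.1 * (if x ∈ pr C then 1 else 0) +
        tI T C.1 * (if y ∈ pr C then 1 else 0)) - 2 * tI T C.1 := by
      intro C
      rw [hp.ker, hB']
      have h4 : ((({x, y} : Finset (Fin 6)) ∩ pr C).card : ℤ) = (if x ∈ pr C then 1 else 0) + (if y ∈ pr C then 1 else 0) := by
        have h5 : (({x, y} : Finset (Fin 6)) ∩ pr C) = ({x, y} : Finset (Fin 6)).filter (· ∈ pr C) := by
          ext z; simp [mem_inter, mem_filter]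
        rw [h5, Finset.card_filter, Finset.sum_pair hxy]
        push_cast
        rfl
      rw [h4]
      ring
    rw [Finset.sum_congr rfl fun C _ => h3 C, sum_sub_distrib, ← mul_sum, ← mul_sum, sum_add_distrib, e0] at h2
    change 3 * (f x + f y) - 2 * 20 = _ at h2
    split_ifs at h2
    · left; linarith
    · right; linarith
  obtain ⟨x, hx⟩ := six_sums f hf0 hfs hfp
  refine ⟨x, ?_⟩
  have h1 : ∑ C : S2 G o, tI T C.1 * (1 - (if x ∈ pr C then 1 else 0)) = 0 := by
    have h2 : ∀ C : S2 G o, tI T C.1 * (1 - (if x ∈ pr C then 1 else 0)) = tI T C.1 - tI T C.1 * (if x ∈ pr C then 1 else 0) := by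
      intro C; ring
    rw [Finset.sum_congr rfl fun C _ => h2 C, sum_sub_distrib, e0]
    change 20 - f x = 0
    rw [hx]
    norm_num
  have h2 := (Finset.sum_eq_zero_iff_of_nonneg (s := univ)
    (f := fun C : S2 G o => tI T C.1 * (1 - (if x ∈ pr C then 1 else 0))) (fun C _ => mul_nonneg (t0 _) (by
      split_ifs <;> norm_num))).1 h1
  have hsub : T ⊆ Kx pr x := by
    intro v hv
    rw [mem_Kx]
    by_cases hvo : v = o
    · exact Or.inl hvo
    · refine Or.inr ⟨⟨v, hvo, (mem_coc.1 hT).2 o ho v hv⟩, ?_, rfl⟩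
      by_contra hnx
      have h3 := h2 ⟨v, hvo, (mem_coc.1 hT).2 o ho v hv⟩ (mem_univ _)
      simp only [if_neg hnx] at h3
      simp [tI, hv] at h3
  exact (eq_of_subset_of_card_le hsub (by rw [card_Kx hp, (mem_coc.1 hT).1])).symm

theorem card_at (h : G.IsSRGWith 77 16 0 4) (o : V) : ((coc G).filter (o ∈ ·)).card = 6 := by
  obtain ⟨pr, hp⟩ := exists_pr h o
  have h1 : (coc G).filter (o ∈ ·) = univ.image (Kx pr) := by
    ext T
    rw [mem_filter, mem_image]
    constructor
    · rintro ⟨hT, ho⟩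
      obtain ⟨x, hx⟩ := eq_Kx h hp hT ho
      exact ⟨x, mem_univ x, hx⟩
    · rintro ⟨x, -, rfl⟩
      exact ⟨Kx_coc h hp x, mem_Kx.2 (Or.inl rfl)⟩
  rw [h1, card_image_of_injective _ (Kx_inj hp)]
  rfl

theorem card_two (h : G.IsSRGWith 77 16 0 4) {o w : V} (hw : w ≠ o) (hn : ¬ G.Adj o w) :
    ((coc G).filter (fun T => o ∈ T ∧ w ∈ T)).card = 2 := by
  obtain ⟨pr, hp⟩ := exists_pr h o
  have h1 : (coc G).filter (fun T => o ∈ T ∧ w ∈ T) = (pr ⟨w, hw, hn⟩).image (Kx pr) := by
    ext T
    rw [mem_filter, mem_image]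
    constructor
    · rintro ⟨hT, ho, hwT⟩
      obtain ⟨x, hx⟩ := eq_Kx h hp hT ho
      refine ⟨x, ?_, hx⟩
      rw [← hx] at hwT
      exact (mem_Kx_S2 (B := ⟨w, hw, hn⟩)).1 hwT
    · rintro ⟨x, hx, rfl⟩
      exact ⟨Kx_coc h hp x, mem_Kx.2 (Or.inl rfl), (mem_Kx_S2 (B := ⟨w, hw, hn⟩)).2 hx⟩
  rw [h1, card_image_of_injective _ (Kx_inj hp), hp.two]

theorem card_coc (h : G.IsSRGWith 77 16 0 4) : (coc G).card = 22 := by
  have h1 : ∑ T ∈ coc G, T.card = ∑ v : V, ((coc G).filter (v ∈ ·)).card := by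
    simp only [Finset.card_filter]
    rw [Finset.sum_comm]
    refine Finset.sum_congr rfl fun T _ => ?_
    rw [← Finset.card_filter]
    congr 1
    ext v
    simp
  rw [Finset.sum_congr rfl fun T hT => (mem_coc.1 hT).1, Finset.sum_congr rfl fun v _ => card_at h v, sum_const, sum_const,
    card_univ, h.card] at h1
  norm_num at h1
  omega

/-- the block of a vertex -/
def blk (G : SimpleGraph V) [DecidableRel G.Adj] (v : V) : Finset {T // T ∈ coc G} := univ.filter fun T => v ∈ T.1

theorem card_sub_filter (P : Finset V → Prop) [DecidablePred P] :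
    (univ.filter fun T : {T // T ∈ coc G} => P T.1).card = ((coc G).filter P).card := by
  apply Finset.card_bij (fun (d : {T // T ∈ coc G}) _ => d.1)
  · intro d hd
    rw [mem_filter] at hd ⊢
    exact ⟨d.2, hd.2⟩
  · intro a _ b _ h
    exact Subtype.ext h
  · intro b hb
    rw [mem_filter] at hb
    exact ⟨⟨b, hb.1⟩, by simp [hb.2], rfl⟩

theorem card_blk (h : G.IsSRGWith 77 16 0 4) (v : V) : (blk G v).card = 6 := by
  unfold blk
  rw [card_sub_filter (fun T => v ∈ T), card_at h]

theorem card_blk_inter (h : G.IsSRGWith 77 16 0 4) {v w : V} (hvw : v ≠ w) :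
    (blk G v ∩ blk G w).card = if G.Adj v w then 0 else 2 := by
  have h1 : blk G v ∩ blk G w = univ.filter fun T : {T // T ∈ coc G} => v ∈ T.1 ∧ w ∈ T.1 := by
    ext T
    simp [blk]
  rw [h1, card_sub_filter (fun T => v ∈ T ∧ w ∈ T)]
  split_ifs with ha
  · rw [card_eq_zero, filter_eq_empty_iff]
    rintro T hT ⟨h2, h3⟩
    exact (mem_coc.1 hT).2 v h2 w h3 ha
  · exact card_two h hvw.symm ha

theorem blk_inj (h : G.IsSRGWith 77 16 0 4) : Function.Injective (blk G) := by
  intro v w hvw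
  by_contra hne
  have h1 := card_blk_inter h hne
  rw [hvw, inter_self, card_blk h] at h1
  split_ifs at h1 <;> omega

theorem steiner (h : G.IsSRGWith 77 16 0 4) : Cfsg.IsSteinerSystem 3 6 (Set.range (blk G)) := by
  constructor
  · rintro _ ⟨v, rfl⟩
    exact card_blk h v
  · have huniq : ∀ s : Finset {T // T ∈ coc G}, s.card = 3 → ∀ v w, s ⊆ blk G v → s ⊆ blk G w → v = w := by
      intro s hs v w h1 h2
      by_contra hne
      have h3 := card_blk_inter h hne
      have h4 := card_le_card (subset_inter h1 h2)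
      rw [h3, hs] at h4
      split_ifs at h4 <;> omega
    have hle : ∀ s ∈ powersetCard 3 (univ : Finset {T // T ∈ coc G}), (univ.filter fun v => s ⊆ blk G v).card ≤ 1 := by
      intro s hs
      rw [card_le_one]
      intro v hv w hw
      exact huniq s (mem_powersetCard.1 hs).2 v w (mem_filter.1 hv).2 (mem_filter.1 hw).2
    have hsum : ∑ s ∈ powersetCard 3 (univ : Finset {T // T ∈ coc G}), (univ.filter fun v => s ⊆ blk G v).card = 1540 := by
      have h1 : ∑ s ∈ powersetCard 3 (univ : Finset {T // T ∈ coc G}), (univ.filter fun v => s ⊆ blk G v).card =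
          ∑ v : V, ((powersetCard 3 (univ : Finset {T // T ∈ coc G})).filter fun s => s ⊆ blk G v).card := by
        simp only [Finset.card_filter]
        rw [Finset.sum_comm]
      have h2 : ∀ v : V, ((powersetCard 3 (univ : Finset {T // T ∈ coc G})).filter fun s => s ⊆ blk G v).card = 20 := by
        intro v
        have h3 : (powersetCard 3 (univ : Finset {T // T ∈ coc G})).filter (fun s => s ⊆ blk G v) = powersetCard 3 (blk G v) := by
          ext s
          rw [mem_filter, mem_powersetCard, mem_powersetCard]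
          constructor
          · rintro ⟨⟨-, h4⟩, h5⟩
            exact ⟨h5, h4⟩
          · rintro ⟨h4, h5⟩
            exact ⟨⟨subset_univ _, h5⟩, h4⟩
        rw [h3, card_powersetCard, card_blk h]
        decide
      rw [h1, Finset.sum_congr rfl fun v _ => h2 v, sum_const, card_univ, h.card]
      norm_num
    have hcard : (powersetCard 3 (univ : Finset {T // T ∈ coc G})).card = 1540 := by
      rw [card_powersetCard, card_univ, Fintype.card_coe, card_coc h]
      decide
    intro s hs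
    have hex : ∃ v, s ⊆ blk G v := by
      by_contra hcon
      push Not at hcon
      have hsm : s ∈ powersetCard 3 (univ : Finset {T // T ∈ coc G}) := mem_powersetCard.2 ⟨subset_univ _, hs⟩
      have h1 : (univ.filter fun v => s ⊆ blk G v).card = 0 := by
        rw [card_eq_zero, filter_eq_empty_iff]
        intro v _
        exact hcon v
      have h2 : ∑ s ∈ powersetCard 3 (univ : Finset {T // T ∈ coc G}), (univ.filter fun v => s ⊆ blk G v).card <
          ∑ s ∈ powersetCard 3 (univ : Finset {T // T ∈ coc G}), 1 :=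
        Finset.sum_lt_sum hle ⟨s, hsm, by rw [h1]; norm_num⟩
      rw [hsum, sum_const, hcard] at h2
      norm_num at h2
    obtain ⟨v, hv⟩ := hex
    refine ⟨blk G v, ⟨⟨v, rfl⟩, hv⟩, ?_⟩
    rintro _ ⟨⟨w, rfl⟩, hw⟩
    rw [huniq s hs v w hv hw]

theorem disj_iff (h : G.IsSRGWith 77 16 0 4) {v w : V} (hvw : v ≠ w) : Disjoint (blk G v) (blk G w) ↔ G.Adj v w := by
  rw [disjoint_iff_inter_eq_empty, ← card_eq_zero, card_blk_inter h hvw]
  split_ifs with ha <;> simp [ha]

/-- the graph is the block graph -/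
noncomputable def isoBlock (h : G.IsSRGWith 77 16 0 4) : G ≃g Cfsg.blockGraph (Set.range (blk G)) where
  toEquiv := Equiv.ofInjective (blk G) (blk_inj h)
  map_rel_iff' := by
    intro v w
    rw [Cfsg.blockGraph, SimpleGraph.fromRel_adj]
    show (Equiv.ofInjective (blk G) (blk_inj h)) v ≠ (Equiv.ofInjective (blk G) (blk_inj h)) w ∧
      (Disjoint (blk G v) (blk G w) ∨ Disjoint (blk G w) (blk G v)) ↔ G.Adj v w
    constructor
    · rintro ⟨h1, h2⟩
      have hvw : v ≠ w := fun he => h1 (by rw [he])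
      rcases h2 with h2 | h2
      · exact (disj_iff h hvw).1 h2
      · exact (disj_iff h hvw).1 h2.symm
    · intro ha
      have hvw : v ≠ w := G.ne_of_adj ha
      exact ⟨fun he => hvw ((Equiv.ofInjective (blk G) (blk_inj h)).injective he), Or.inl ((disj_iff h hvw).2 ha)⟩

end Coc

theorem blockGraph_iso {α β : Type*} [DecidableEq β] {B : Set (Finset α)} {B' : Set (Finset β)}
    (h : Cfsg.SetSystemIso B B') : Nonempty (Cfsg.blockGraph B ≃g Cfsg.blockGraph B') := by
  obtain ⟨e, he⟩ := h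
  have hinj : Function.Injective (fun b : Finset α => b.image e) := Finset.image_injective e.injective
  let φ : B → B' := fun b => ⟨b.1.image e, by rw [← he]; exact ⟨b.1, b.2, rfl⟩⟩
  have hφ : Function.Bijective φ := by
    constructor
    · intro a b hab
      exact Subtype.ext (hinj (congrArg Subtype.val hab))
    · rintro ⟨b, hb⟩
      have hb' := hb
      rw [← he] at hb'
      obtain ⟨a, ha, rfl⟩ := hb'
      exact ⟨⟨a, ha⟩, rfl⟩
  refine ⟨⟨Equiv.ofBijective φ hφ, ?_⟩⟩
  intro a b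
  rw [Cfsg.blockGraph, Cfsg.blockGraph, SimpleGraph.fromRel_adj, SimpleGraph.fromRel_adj]
  have h1 : ∀ a b : B, Disjoint (φ a).1 (φ b).1 ↔ Disjoint a.1 b.1 := by
    intro a b
    exact Finset.disjoint_image e.injective
  show (φ a ≠ φ b ∧ (Disjoint (φ a).1 (φ b).1 ∨ Disjoint (φ b).1 (φ a).1)) ↔ _
  rw [h1, h1, hφ.1.ne_iff]

theorem unique {V W : Type*} [Fintype V] [Fintype W] {G : SimpleGraph V} {H : SimpleGraph W} [DecidableRel G.Adj]
    [DecidableRel H.Adj] (hG : G.IsSRGWith 77 16 0 4) (hH : H.IsSRGWith 77 16 0 4) : Nonempty (G ≃g H) := by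
  classical
  have h1 : Cfsg.SetSystemIso (Set.range (blk G)) (Set.range (blk H)) :=
    S0410.result (by rw [Fintype.card_coe, card_coc hG]) (by rw [Fintype.card_coe, card_coc hH]) (steiner hG) (steiner hH)
  obtain ⟨f⟩ := blockGraph_iso h1
  exact ⟨((isoBlock hG).trans f).trans (isoBlock hH).symm⟩

end Cfsg.Agent.Lib.H8Srg77
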