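import Mathlib
import Cfsg.Agent.Lib.CSPa
import Cfsg.Agent.Lib.Burnside

/-!
# Simple groups with three nontrivial class sizes, I: the poset of centralizers (helper9)
-/

set_option autoImplicit false
set_option linter.unusedSectionVars false

namespace Cfsg.Agent.Lib.H9CT3

open Subgroup Cfsg.Agent.Lib.CSP
open scoped Pointwise

variable {G : Type*} [Group G] [Finite G]

theorem center_bot [IsSimpleGroup G] (hna : ¬ IsMulCommutative G) : center G = ⊥ := by
  rcases (inferInstance : (center G).Normal).eq_bot_or_eq_top with h | h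
  · exact h
  · exfalso
    apply hna
    refine ⟨⟨fun a b => ?_⟩⟩
    have : a ∈ center G := h ▸ mem_top a
    exact (mem_center_iff.1 this b).symm

theorem not_mem_center [IsSimpleGroup G] (hna : ¬ IsMulCommutative G) {g : G} (hg : g ≠ 1) : g ∉ center G := by
  rw [center_bot hna, mem_bot]; exact hg

/-- central element of a Sylow subgroup -/
theorem exists_sylow_central {s : ℕ} (hs : s.Prime) (h : s ∣ Nat.card G) :
    ∃ z : G, z ≠ 1 ∧ (∃ k, orderOf z = s ^ k) ∧ ¬ s ∣ n z := by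
  have hsf : Fact s.Prime := ⟨hs⟩
  obtain ⟨P⟩ : Nonempty (Sylow s G) := inferInstance
  have h1 : Nontrivial P := by
    rw [← Finite.one_lt_card_iff_nontrivial]
    by_contra hc
    have h2 : Nat.card P = 1 := by
      have := Nat.card_pos (α := P)
      omega
    have h3 := P.card_mul_index
    rw [h2, one_mul] at h3
    exact P.not_dvd_index (h3 ▸ h)
  have h2 := P.2.center_nontrivial
  obtain ⟨⟨z, hz⟩, hz1⟩ := exists_ne (1 : center P)
  refine ⟨z, ?_, ?_, ?_⟩
  · intro h; exact hz1 (Subtype.ext (Subtype.ext h))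
  · obtain ⟨k, hk⟩ := P.2 z
    have h3 : (z : G) ^ s ^ k = 1 := by
      have := congrArg Subtype.val hk
      simpa using this
    obtain ⟨b, -, hb⟩ := (Nat.dvd_prime_pow hs).1 (orderOf_dvd_of_pow_eq_one h3)
    exact ⟨b, hb⟩
  · intro h3
    have h4 : (P : Subgroup G) ≤ C (z : G) := by
      intro w hw
      rw [mem_C]
      have := mem_center_iff.1 hz ⟨w, hw⟩
      exact congrArg Subtype.val this
    exact P.not_dvd_index (h3.trans (index_dvd_of_le h4))

theorem exists_mul_eq {A B : Subgroup G} (hcop : A.index.Coprime B.index) (h : G) :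
    ∃ b ∈ B, ∃ a ∈ A, b * a = h := by
  have h1 : (A ⊓ B).index = A.relIndex B * B.index := by
    rw [← Subgroup.inf_relIndex_right]
    exact (Subgroup.relIndex_mul_index inf_le_right).symm
  have h2 : A.index ∣ A.relIndex B * B.index := by
    rw [← h1]; exact Subgroup.index_dvd_of_le inf_le_left
  have h3 : A.index ∣ A.relIndex B := hcop.dvd_of_dvd_mul_right h2
  let f : B ⧸ A.subgroupOf B → G ⧸ A := fun q => Quotient.liftOn' q (fun b => (QuotientGroup.mk (b : G) : G ⧸ A)) (by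
      intro b c hbc
      rw [QuotientGroup.leftRel_apply] at hbc
      exact QuotientGroup.eq.2 hbc)
  have hf : Function.Injective f := by
    intro q₁ q₂
    refine Quotient.inductionOn₂' q₁ q₂ ?_
    intro b c hbc
    apply Quotient.sound'
    rw [QuotientGroup.leftRel_apply]
    have hbc' : (QuotientGroup.mk (b : G) : G ⧸ A) = QuotientGroup.mk (c : G) := hbc
    show (b : G)⁻¹ * (c : G) ∈ A
    exact QuotientGroup.eq.1 hbc'
  have hcard : Nat.card (G ⧸ A) ≤ Nat.card (B ⧸ A.subgroupOf B) :=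
    Nat.le_of_dvd (Nat.pos_of_ne_zero (Subgroup.index_ne_zero_of_finite (H := A.subgroupOf B))) h3
  have hsurj : Function.Surjective f :=
    (Function.Injective.bijective_of_nat_card_le hf hcard).2
  obtain ⟨q, hq⟩ := hsurj (QuotientGroup.mk h)
  revert hq
  refine Quotient.inductionOn' q ?_
  intro b hb
  have hb' : (QuotientGroup.mk (b : G) : G ⧸ A) = QuotientGroup.mk h := hb
  rw [QuotientGroup.eq] at hb'
  exact ⟨b, b.2, (b : G)⁻¹ * h, hb', by group⟩

/-- product of two classes of coprime size -/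
theorem prod_conj {a b : G} (hcop : (n a).Coprime (n b)) (x y : G) :
    ∃ z, x * a * x⁻¹ * (y * b * y⁻¹) = z * (a * b) * z⁻¹ := by
  obtain ⟨c, hc, d, hd, h⟩ := exists_mul_eq (A := C b) (B := C a) hcop.symm (x⁻¹ * y)
  rw [mem_C] at hc hd
  refine ⟨x * c, ?_⟩
  have h1 : y = x * (c * d) := by rw [h]; group
  have h2 : d * b * d⁻¹ = b := by rw [hd]; group
  have h3 : c * a * c⁻¹ = a := by rw [hc]; group
  calc x * a * x⁻¹ * (y * b * y⁻¹) = x * a * c * (d * b * d⁻¹) * c⁻¹ * x⁻¹ := by rw [h1]; group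
    _ = x * (c * a * c⁻¹) * c * b * c⁻¹ * x⁻¹ := by rw [h2, h3]
    _ = x * c * (a * b) * (x * c)⁻¹ := by group

/-- conjugacy class as a set -/
def cl (b : G) : Set G := {g | ∃ x, g = x * b * x⁻¹}

theorem ncard_cl (b : G) : (cl b).ncard = n b := by
  rw [← Nat.card_coe_set_eq]
  have h1 : cl b = (MulAction.orbit (ConjAct G) b) := by
    ext g
    rw [MulAction.mem_orbit_iff]
    constructor
    · rintro ⟨x, rfl⟩
      exact ⟨ConjAct.toConjAct x, by rw [ConjAct.toConjAct_smul]⟩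
    · rintro ⟨x, rfl⟩
      exact ⟨ConjAct.ofConjAct x, by rw [ConjAct.smul_def]⟩
  rw [h1, Nat.card_congr (MulAction.orbitEquivQuotientStabilizer (ConjAct G) b)]
  show _ = (centralizer ({b} : Set G)).index
  rw [← Subgroup.index, ConjAct.stabilizer_eq_centralizer]
  rfl

theorem self_mem_cl (b : G) : b ∈ cl b := ⟨1, by simp⟩

theorem prod_ne [IsSimpleGroup G] (hna : ¬ IsMulCommutative G) {a b : G} (ha : a ≠ 1) (hb : b ≠ 1)
    (hprod : ∀ x y : G, ∃ z, x * a * x⁻¹ * (y * b * y⁻¹) = z * (a * b) * z⁻¹) : n (a * b) ≠ n b := by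
  intro hn
  -- stabilizer of the class of b under left multiplication
  let M : Subgroup G := MulAction.stabilizer G (cl b)
  have hM : M.Normal := by
    refine ⟨fun m hm g => ?_⟩
    rw [MulAction.mem_stabilizer_iff] at hm ⊢
    have hcl : ∀ g : G, ∀ u : G, u ∈ cl b → g * u * g⁻¹ ∈ cl b := by
      rintro g _ ⟨x, rfl⟩
      exact ⟨g * x, by group⟩
    ext u
    rw [Set.mem_smul_set_iff_inv_smul_mem, smul_eq_mul]
    have h1 : ∀ v, m⁻¹ * v ∈ cl b ↔ v ∈ cl b := by
      intro v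
      conv_rhs => rw [← hm]
      rw [Set.mem_smul_set_iff_inv_smul_mem, smul_eq_mul]
    have h2 : ∀ g v : G, g * v * g⁻¹ ∈ cl b ↔ v ∈ cl b := by
      intro g v
      refine ⟨fun h => ?_, hcl g v⟩
      have := hcl g⁻¹ _ h
      rwa [show g⁻¹ * (g * v * g⁻¹) * g⁻¹⁻¹ = v by group] at this
    rw [← h2 g⁻¹, show g⁻¹ * ((g * m * g⁻¹)⁻¹ * u) * g⁻¹⁻¹ = m⁻¹ * (g⁻¹ * u * g) by group, h1]
    have := h2 g⁻¹ u
    rwa [inv_inv] at this
  have key : ∀ x : G, (x * a * x⁻¹) • cl b = cl (a * b) := by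
    intro x
    apply Set.eq_of_subset_of_ncard_le _ _ (Set.toFinite _)
    · rintro _ ⟨_, ⟨y, rfl⟩, rfl⟩
      exact hprod x y
    · rw [ncard_cl, hn, Set.ncard_smul_set, ncard_cl]
  have h1 : ∀ x : G, a⁻¹ * (x * a * x⁻¹) ∈ M := by
    intro x
    rw [MulAction.mem_stabilizer_iff, mul_smul, key x, ← key 1, ← mul_smul]
    simp
  rcases hM.eq_bot_or_eq_top with h | h
  · apply not_mem_center hna ha
    rw [mem_center_iff]
    intro x
    have h2 := h1 x
    rw [h, mem_bot] at h2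
    have h3 : x * a * x⁻¹ = a := by
      rw [inv_mul_eq_one] at h2; exact h2.symm
    calc x * a = x * a * x⁻¹ * x := by group
      _ = a * x := by rw [h3]
  · have h2 : b⁻¹ ∈ M := h ▸ mem_top _
    rw [MulAction.mem_stabilizer_iff] at h2
    have h3 : (1 : G) ∈ b⁻¹ • cl b := ⟨b, self_mem_cl b, by simp⟩
    rw [h2] at h3
    obtain ⟨x, hx⟩ := h3
    apply hb
    calc b = x⁻¹ * (x * b * x⁻¹) * x := by group
      _ = 1 := by rw [← hx]; group

/-- Nested case data -/
structure Nest (G : Type*) [Group G] [Finite G] (i j k : ℕ) : Prop where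
  simp : IsSimpleGroup G
  nab : ¬ IsMulCommutative G
  sizes : ∀ g : G, g ≠ 1 → n g = i ∨ n g = j ∨ n g = k
  hi : ∃ g : G, g ≠ 1 ∧ n g = i
  hj : ∃ g : G, g ≠ 1 ∧ n g = j
  hk : ∃ g : G, g ≠ 1 ∧ n g = k
  dvd : j ∣ i
  lt : j < i
  hik : i ≠ k
  hjk : j ≠ k

variable {i j k : ℕ}

theorem n_ne_one' [IsSimpleGroup G] (hna : ¬ IsMulCommutative G) {g : G} (hg : g ≠ 1) : n g ≠ 1 := by
  intro h
  exact not_mem_center hna hg (mem_center_of_C_top (index_eq_one.1 h))

theorem n_ne_zero (g : G) : n g ≠ 0 := index_ne_zero_of_finite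

theorem n_dvd_card (g : G) : n g ∣ Nat.card G := index_dvd_card _

theorem Nest.cop (h : Nest G i j k) : j.Coprime k := by
  have hs := h.simp
  by_contra hc
  obtain ⟨s, hs, h1, h2⟩ := Nat.Prime.not_coprime_iff_dvd.1 hc
  obtain ⟨g, hg, hgj⟩ := h.hj
  obtain ⟨z, hz, -, h3⟩ := exists_sylow_central hs (h1.trans (hgj ▸ n_dvd_card g))
  rcases h.sizes z hz with h4 | h4 | h4
  · exact h3 (h4 ▸ h1.trans h.dvd)
  · exact h3 (h4 ▸ h1)
  · exact h3 (h4 ▸ h2)

theorem Nest.one_lt_j (h : Nest G i j k) : 1 < j := by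
  have hs := h.simp
  obtain ⟨g, hg, rfl⟩ := h.hj
  have := n_ne_one' h.nab hg
  have := n_ne_zero g
  omega

theorem Nest.one_lt_k (h : Nest G i j k) : 1 < k := by
  have hs := h.simp
  obtain ⟨g, hg, rfl⟩ := h.hk
  have := n_ne_one' h.nab hg
  have := n_ne_zero g
  omega

theorem Nest.prod (h : Nest G i j k) {a b : G} (ha : a ≠ 1) (hb : b ≠ 1) (haj : n a = j) (hbk : n b = k) :
    n (a * b) = i := by
  have hs := h.simp
  have hcop : (n a).Coprime (n b) := by rw [haj, hbk]; exact h.cop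
  have h1 := prod_ne h.nab ha hb (prod_conj hcop)
  have h2 := prod_ne h.nab hb ha (prod_conj hcop.symm)
  have h3 : n (b * a) = n (a * b) := by
    rw [← n_conj a (b * a), show a * (b * a) * a⁻¹ = a * b by group]
  rw [h3] at h2
  have h4 : a * b ≠ 1 := by
    intro h5
    have h6 : b = a⁻¹ := (inv_eq_of_mul_eq_one_right h5).symm
    have h7 : n b = n a := by
      rw [h6]
      show (C a⁻¹).index = (C a).index
      congr 1
      ext w
      rw [mem_C, mem_C]
      constructor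
      · intro h
        have : Commute w a⁻¹ := h
        exact (Commute.inv_right_iff.1 this).eq
      · intro h
        have : Commute w a := h
        exact this.inv_right.eq
    exact h.hjk (by rw [← haj, ← hbk, h7])
  rcases h.sizes _ h4 with h5 | h5 | h5
  · exact h5
  · exact absurd (h5.trans haj.symm) h2
  · exact absurd (h5.trans hbk.symm) h1

theorem index_inf {A B : Subgroup G} (hcop : A.index.Coprime B.index) : (A ⊓ B).index = A.index * B.index := by
  apply le_antisymm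
  · exact Subgroup.index_inf_le
  · exact Nat.le_of_dvd (Nat.pos_of_ne_zero index_ne_zero_of_finite)
      (hcop.mul_dvd_of_dvd_of_dvd (index_dvd_of_le inf_le_left) (index_dvd_of_le inf_le_right))

theorem C_inf_le (a b : G) : C a ⊓ C b ≤ C (a * b) :=
  le_C_mul inf_le_left inf_le_right

theorem Nest.k_lt (h : Nest G i j k) : k < i := by
  obtain ⟨a, ha, haj⟩ := h.hj
  obtain ⟨b, hb, hbk⟩ := h.hk
  have hcop : (n a).Coprime (n b) := by rw [haj, hbk]; exact h.cop
  have h1 := prod_conj hcop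
  have h2 : n b ≤ n (a * b) := by
    rw [← ncard_cl, ← ncard_cl, ← Set.ncard_smul_set a (cl b)]
    apply Set.ncard_le_ncard _ (Set.toFinite _)
    rintro _ ⟨_, ⟨y, rfl⟩, rfl⟩
    obtain ⟨z, hz⟩ := h1 1 y
    exact ⟨z, by rw [← hz]; simp⟩
  rw [h.prod ha hb haj hbk, hbk] at h2
  exact lt_of_le_of_ne h2 h.hik.symm

theorem Nest.i_dvd (h : Nest G i j k) : i ∣ j * k := by
  obtain ⟨a, ha, haj⟩ := h.hj
  obtain ⟨b, hb, hbk⟩ := h.hk
  have hcop : (n a).Coprime (n b) := by rw [haj, hbk]; exact h.cop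
  have h2 := index_dvd_of_le (C_inf_le a b)
  rw [index_inf hcop] at h2
  have h3 : n (a * b) ∣ n a * n b := h2
  rwa [h.prod ha hb haj hbk, haj, hbk] at h3

theorem Nest.i_ne (h : Nest G i j k) : i ≠ j * k := by
  intro hi
  have hs := h.simp
  obtain ⟨a, ha, haj⟩ := h.hj
  obtain ⟨b, hb, hbk⟩ := h.hk
  have key : ∀ x : G, x * b * x⁻¹ ∈ C a := by
    intro x
    have hbx : x * b * x⁻¹ ≠ 1 := by
      intro h0
      apply hb
      calc b = x⁻¹ * (x * b * x⁻¹) * x := by group
        _ = 1 := by rw [h0]; group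
    have hbxk : n (x * b * x⁻¹) = k := by rw [n_conj, hbk]
    have hcop : (n a).Coprime (n (x * b * x⁻¹)) := by rw [haj, hbxk]; exact h.cop
    have h1 := h.prod ha hbx haj hbxk
    have h2 : (C a ⊓ C (x * b * x⁻¹)).index = j * k := by
      rw [index_inf hcop]
      show n a * n (x * b * x⁻¹) = _
      rw [haj, hbxk]
    have h3 : C a ⊓ C (x * b * x⁻¹) = C (a * (x * b * x⁻¹)) := by
      apply Subgroup.eq_of_le_of_card_ge (C_inf_le _ _)
      have h4 := card_mul_index (C a ⊓ C (x * b * x⁻¹))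
      have h5 := card_mul_index (C (a * (x * b * x⁻¹)))
      have h6 : (C (a * (x * b * x⁻¹))).index = i := h1
      rw [h2] at h4
      rw [h6, hi] at h5
      have h7 : 0 < j * k := Nat.mul_pos (by have := h.one_lt_j; omega) (by have := h.one_lt_k; omega)
      exact (Nat.eq_of_mul_eq_mul_right h7 (h5.trans h4.symm)).le
    have h4 : a * (x * b * x⁻¹) ∈ C a := by
      have := self_mem (a * (x * b * x⁻¹))
      rw [← h3] at this
      exact this.1
    have h5 : a⁻¹ * (a * (x * b * x⁻¹)) ∈ C a := mul_mem (inv_mem (self_mem a)) h4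
    rwa [inv_mul_cancel_left] at h5
  have h1 : normalClosure ({b} : Set G) ≤ C a := by
    rw [normalClosure, closure_le]
    intro u hu
    rw [Group.mem_conjugatesOfSet_iff] at hu
    obtain ⟨v, hv, hvu⟩ := hu
    rw [Set.mem_singleton_iff] at hv
    obtain ⟨c, hc⟩ := isConj_iff.1 hvu
    rw [← hc, hv]
    exact key c
  rcases (normalClosure_normal (s := ({b} : Set G))).eq_bot_or_eq_top with h2 | h2
  · apply hb
    have : b ∈ normalClosure ({b} : Set G) := subset_normalClosure rfl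
    rwa [h2, mem_bot] at this
  · rw [h2] at h1
    exact not_mem_center h.nab ha (mem_center_of_C_top (top_le_iff.1 h1))

theorem ne_one_of_not_center {g : G} (hg : g ∉ center G) : g ≠ 1 := by
  rintro rfl; exact hg (one_mem _)

theorem Nest.not_i_dvd_k (h : Nest G i j k) : ¬ i ∣ k := by
  intro h1
  have := Nat.le_of_dvd (by have := h.one_lt_k; omega) h1
  have := h.k_lt
  omega

theorem Nest.not_j_dvd_k (h : Nest G i j k) : ¬ j ∣ k := by
  intro h1
  have := Nat.eq_one_of_dvd_coprimes h.cop dvd_rfl h1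
  have := h.one_lt_j
  omega

theorem Nest.not_k_dvd_j (h : Nest G i j k) : ¬ k ∣ j := by
  intro h1
  have := Nat.eq_one_of_dvd_coprimes h.cop h1 dvd_rfl
  have := h.one_lt_k
  omega

theorem Nest.not_k_dvd_i (h : Nest G i j k) : ¬ k ∣ i := by
  intro h1
  exact h.i_ne (Nat.dvd_antisymm h.i_dvd (h.cop.mul_dvd_of_dvd_of_dvd h.dvd h1))

theorem Nest.iso (h : Nest G i j k) {y : G} (hy : n y = k) : Iso y := by
  apply Iso.of_dvd
  · intro w hw h1
    rw [hy] at h1 ⊢
    rcases h.sizes w (ne_one_of_not_center hw) with h2 | h2 | h2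
    · exact absurd (h2 ▸ h1) h.not_i_dvd_k
    · exact absurd (h2 ▸ h1) h.not_j_dvd_k
    · exact h2
  · intro w hw h1
    rw [hy] at h1 ⊢
    rcases h.sizes w (ne_one_of_not_center hw) with h2 | h2 | h2
    · exact absurd (h2 ▸ h1) h.not_k_dvd_i
    · exact absurd (h2 ▸ h1) h.not_k_dvd_j
    · exact h2

theorem Nest.exists_K (h : Nest G i j k) : ∃ z : G, z ≠ 1 ∧ n z = k ∧ ∀ w ∈ C z, w ≠ 1 → C w = C z := by
  have hs := h.simp
  obtain ⟨a, ha, haj⟩ := h.hj
  have hj1 := h.one_lt_j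
  obtain ⟨s, hs1, hsj⟩ := Nat.exists_prime_and_dvd (show j ≠ 1 by omega)
  -- second prime
  have h2 : ∃ t, t.Prime ∧ t ∣ j ∧ t ≠ s := by
    by_contra hcon
    push Not at hcon
    have h3 : j = s ^ j.primeFactorsList.length :=
      Nat.eq_prime_pow_of_unique_prime_dvd (by omega) (fun hd hdj => hcon _ hd hdj)
    have h4 := Burnside.prime_card_of_class_prime_pow s _ hs1 a ha (haj.trans h3)
    apply h.nab
    have h5 : Fact (Nat.card G).Prime := ⟨h4⟩
    have h6 : IsCyclic G := isCyclic_of_prime_card (p := Nat.card G) rfl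
    exact ⟨⟨fun x y => (IsCyclic.commGroup (α := G)).mul_comm x y⟩⟩
  obtain ⟨t, ht1, htj, hts⟩ := h2
  obtain ⟨z, hz, hzs, hzn⟩ := exists_sylow_central hs1 (hsj.trans (haj ▸ n_dvd_card a))
  have hzk : n z = k := by
    rcases h.sizes z hz with h3 | h3 | h3
    · exact absurd (h3 ▸ hsj.trans h.dvd) hzn
    · exact absurd (h3 ▸ hsj) hzn
    · exact h3
  have hiso := h.iso hzk
  have hzc := not_mem_center h.nab hz
  rcases comm_or hs1 hiso hzc hzs with h3 | h3
  · refine ⟨z, hz, hzk, fun w hw hw1 => ?_⟩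
    exact le_antisymm ((hiso w (not_mem_center h.nab hw1)).2 (h3 w hw)) (h3 w hw)
  · exfalso
    have h4 : t ∣ Nat.card (C z) := by
      have h5 := card_mul_index (C z)
      have h6 : t ∣ Nat.card (C z) * k := by
        rw [← hzk]
        show t ∣ Nat.card (C z) * (C z).index
        rw [h5]
        exact htj.trans (haj ▸ n_dvd_card a)
      rcases (Nat.Prime.dvd_mul ht1).1 h6 with h7 | h7
      · exact h7
      · exact absurd (Nat.dvd_gcd htj h7) (by rw [show j.gcd k = 1 from h.cop]; exact ht1.one_lt.ne' ∘ Nat.dvd_one.1)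
    have htf : Fact t.Prime := ⟨ht1⟩
    obtain ⟨w, hw⟩ := exists_prime_orderOf_dvd_card' t h4
    have h5 : orderOf (w : G) = t := by rw [← hw]; exact Subgroup.orderOf_coe w
    have h6 := h3 w w.2 (by rw [h5]; exact (Nat.coprime_primes ht1 hs1).2 hts)
    rw [center_bot h.nab, mem_bot] at h6
    rw [h6, orderOf_one] at h5
    exact ht1.one_lt.ne h5

/-- Result of the first analysis. -/
structure Out (G : Type*) [Group G] [Finite G] (i j k : ℕ) (z : G) : Prop where
  nest : Nest G i j k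
  hz : z ≠ 1
  hzk : n z = k
  hC : ∀ w ∈ C z, w ≠ 1 → C w = C z

variable {z : G}

theorem Out.hall (o : Out G i j k z) : (Nat.card (C z)).Coprime k := by
  have h := o.nest
  have hs := h.simp
  by_contra hc
  obtain ⟨t, ht, h1, h2⟩ := Nat.Prime.not_coprime_iff_dvd.1 hc
  have htf : Fact t.Prime := ⟨ht⟩
  obtain ⟨u, hu⟩ := exists_prime_orderOf_dvd_card' t h1
  have hu1 : orderOf (u : G) = t := by rw [← hu]; exact Subgroup.orderOf_coe u
  have hu2 : (u : G) ≠ 1 := by
    intro h0; rw [h0, orderOf_one] at hu1; exact ht.one_lt.ne hu1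
  have hCu := o.hC u u.2 hu2
  have hnu : n (u : G) = k := by
    show (C (u : G)).index = k
    rw [hCu]; exact o.hzk
  obtain ⟨v, hv, -, hvn⟩ := exists_sylow_central ht (h1.trans (card_subgroup_dvd_card _))
  have hab : ∀ w ∈ C (u : G), C (u : G) ≤ C w := by
    intro w hw
    by_cases hw1 : w = 1
    · rw [hw1, C_eq_top (one_mem _)]; exact le_top
    · rw [hCu] at hw ⊢
      rw [o.hC w hw hw1]
  exact no_k ht ⟨1, by rw [hu1, pow_one]⟩ hab (h.iso hnu) (not_mem_center h.nab hv) hvn (hnu ▸ h2)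

theorem Out.conj_not_mem (o : Out G i j k z) {y : G} (hy : y ≠ 1) (hyk : n y ≠ k) (g : G) : g * y * g⁻¹ ∉ C z := by
  intro h1
  have hy1 : g * y * g⁻¹ ≠ 1 := by
    intro h0
    apply hy
    calc y = g⁻¹ * (g * y * g⁻¹) * g := by group
      _ = 1 := by rw [h0]; group
  have h2 := o.hC _ h1 hy1
  apply hyk
  rw [← n_conj g y]
  show (C (g * y * g⁻¹)).index = k
  rw [h2]; exact o.hzk

theorem Out.cop_card (o : Out G i j k z) {y : G} (hy : y ≠ 1) (hyj : n y = j) :
    (Nat.card (C y)).Coprime (Nat.card (C z)) := by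
  have h := o.nest
  have hs := h.simp
  by_contra hc
  obtain ⟨t, ht, h1, h2⟩ := Nat.Prime.not_coprime_iff_dvd.1 hc
  have htf : Fact t.Prime := ⟨ht⟩
  obtain ⟨u, hu⟩ := exists_prime_orderOf_dvd_card' t h1
  have hu1 : orderOf (u : G) = t := by rw [← hu]; exact Subgroup.orderOf_coe u
  have hu2 : (u : G) ≠ 1 := by
    intro h0; rw [h0, orderOf_one] at hu1; exact ht.one_lt.ne hu1
  have h3 : ¬ t ∣ (C z).index := by
    intro h4
    have h5 : t ∣ k := o.hzk ▸ h4
    have := Nat.dvd_gcd h2 h5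
    rw [show (Nat.card (C z)).gcd k = 1 from o.hall] at this
    exact ht.one_lt.ne' (Nat.dvd_one.1 this)
  obtain ⟨g, hg⟩ := exists_conj_mem ht ⟨1, by rw [hu1, pow_one]⟩ h3
  have hug : g⁻¹ * u * g ≠ 1 := by
    intro h0
    apply hu2
    calc (u : G) = g * (g⁻¹ * u * g) * g⁻¹ := by group
      _ = 1 := by rw [h0]; group
  have h4 := o.hC _ hg hug
  -- y^g commutes with u^g
  have h5 : g⁻¹ * y * g ∈ C (g⁻¹ * u * g) := by
    have h6 : (u : G) * y = y * u := mem_C.1 u.2
    rw [mem_C]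
    calc g⁻¹ * y * g * (g⁻¹ * u * g) = g⁻¹ * (y * u) * g := by group
      _ = g⁻¹ * u * g * (g⁻¹ * y * g) := by rw [← h6]; group
  rw [h4] at h5
  have h6 := o.conj_not_mem hy (by rw [hyj]; exact h.hjk) g⁻¹
  rw [inv_inv] at h6
  exact h6 h5

theorem Out.card_eq (o : Out G i j k z) : Nat.card (C z) = j ∧ Nat.card G = j * k ∧
    ∀ y : G, y ≠ 1 → n y = j → Nat.card (C y) = k := by
  have h := o.nest
  obtain ⟨a, ha, haj⟩ := h.hj
  have key : ∀ y : G, y ≠ 1 → n y = j → Nat.card (C z) = j ∧ Nat.card (C y) = k := by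
    intro y hy hyj
    have h1 : Nat.card (C z) * k = Nat.card G := by rw [← o.hzk]; exact card_mul_index _
    have h2 : Nat.card (C y) * j = Nat.card G := by rw [← hyj]; exact card_mul_index _
    have h3 := o.cop_card hy hyj
    have h4 : Nat.card (C z) ∣ j := h3.symm.dvd_of_dvd_mul_left (by rw [h2, ← h1]; exact dvd_mul_right _ _)
    have h5 : j ∣ Nat.card (C z) := h.cop.dvd_of_dvd_mul_right (by rw [h1, ← h2]; exact dvd_mul_left _ _)
    have h6 := Nat.dvd_antisymm h4 h5
    refine ⟨h6, ?_⟩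
    rw [h6] at h1
    have h7 : Nat.card (C y) * j = k * j := by rw [h2, ← h1, mul_comm]
    exact Nat.eq_of_mul_eq_mul_right (by have := h.one_lt_j; omega) h7
  refine ⟨(key a ha haj).1, ?_, fun y hy hyj => (key y hy hyj).2⟩
  rw [← (key a ha haj).1, ← o.hzk]; exact (card_mul_index _).symm

/-- a primary element of type `j` -/
theorem Nest.exists_prim (h : Nest G i j k) : ∃ y : G, y ≠ 1 ∧ n y = j ∧ ∃ r : ℕ, r.Prime ∧ ∃ a, orderOf y = r ^ a := by
  have hs := h.simp
  obtain ⟨y, hy, hyj⟩ := h.hj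
  obtain ⟨p, hp, u, hu, huc, a, ha⟩ := CSP.exists_prim _ y rfl (not_mem_center h.nab hy)
  refine ⟨u, ne_one_of_not_center huc, ?_, p, hp, a, ha⟩
  have h1 : n u ∣ n y := index_dvd_of_le (C_le_of_mem_zpowers hu)
  rw [hyj] at h1
  rcases h.sizes u (ne_one_of_not_center huc) with h2 | h2 | h2
  · rw [h2] at h1
    have := Nat.le_of_dvd (by have := h.one_lt_j; omega) h1
    have := h.lt
    omega
  · exact h2
  · exact absurd (h2 ▸ h1) h.not_k_dvd_j

theorem Nest.six_le (h : Nest G i j k) (o : Out G i j k z) : 3 ≤ j := by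
  have h1 := h.one_lt_j
  by_contra hc
  have h2 : j = 2 := by omega
  have hs := h.simp
  obtain ⟨a, ha, haj⟩ := h.hj
  have h4 := Burnside.prime_card_of_class_prime_pow 2 1 Nat.prime_two a ha (by
    rw [pow_one, ← h2]; exact haj)
  apply h.nab
  have h5 : Fact (Nat.card G).Prime := ⟨h4⟩
  have h6 : IsCyclic G := isCyclic_of_prime_card (p := Nat.card G) rfl
  exact ⟨⟨fun x y => (IsCyclic.commGroup (α := G)).mul_comm x y⟩⟩

end Cfsg.Agent.Lib.H9CT3
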