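import Mathlib
import Cfsg.Prelude.Def_Characters
import Cfsg.Prelude.Def_Transfer
import Cfsg.Agent.Lib.CharBasic
import Cfsg.Agent.Lib.CharBasic2
import Cfsg.Agent.Lib.IndFun
import Cfsg.Agent.Lib.TIFN
import Cfsg.Agent.Lib.TIFN3
import Cfsg.Agent.Lib.StructConst

/-!
# Simple groups with three nontrivial class sizes, II: characters and an abelian TI subgroup (helper9)
-/

set_option autoImplicit false
set_option linter.unusedSectionVars false

namespace Cfsg.Agent.Lib.H9CT3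

open CharBasic TIFN

universe u

theorem const_of_mult {K : Type u} [Group K] [Fintype K] (hab : ∀ a b : K, a * b = b * a) {f : K → ℂ}
    (hf : IsClassFunction K f)
    (h : ∀ a b : IrrCharacter K, (a : K → ℂ) ≠ 1 → (b : K → ℂ) ≠ 1 → classInner f a = classInner f b) :
    ∃ c, ∀ k : K, k ≠ 1 → f k = c := by
  classical
  obtain ⟨c, hc⟩ : ∃ c : ℂ, ∀ a : IrrCharacter K, (a : K → ℂ) ≠ 1 → classInner f a = c := by
    by_cases he : ∃ a : IrrCharacter K, (a : K → ℂ) ≠ 1
    · obtain ⟨a, ha⟩ := he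
      exact ⟨classInner f a, fun b hb => h b a hb ha⟩
    · exact ⟨0, fun a ha => absurd ⟨a, ha⟩ he⟩
  refine ⟨classInner f 1 - c, fun k hk => ?_⟩
  rw [hf.expansion_apply k]
  have h1 : ∀ a : IrrCharacter K, classInner f (a : K → ℂ) * (a : K → ℂ) k =
      c * ((a : K → ℂ) 1 * (a : K → ℂ) k) +
        (if a = ⟨1, isIrrCharacter_one⟩ then (classInner f 1 - c) else 0) := by
    intro a
    rw [a.2.one_eq_one_of_comm hab, one_mul]
    split_ifs with h2
    · subst h2; simp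
    · rw [hc a (fun h => h2 (Subtype.ext h)), add_zero]
  rw [Finset.sum_congr rfl (fun a _ => h1 a), Finset.sum_add_distrib, ← Finset.mul_sum, sum_degree_mul k hk]
  simp

variable {G : Type u} [Group G] [Fintype G]

theorem const_or (K : Subgroup G)
    (hTI : ∀ g : G, g ∉ Subgroup.normalizer (K : Set G) → ∀ k ∈ K, g * k * g⁻¹ ∈ K → k = 1)
    (hC : ∀ k ∈ K, k ≠ 1 → Subgroup.centralizer ({k} : Set G) ≤ K)
    (hab : ∀ a ∈ K, ∀ b ∈ K, a * b = b * a) {χ : G → ℂ} (hχ : IsIrrCharacter G χ) :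
    (∃ c : ℂ, ∀ k ∈ K, k ≠ 1 → χ k = c) ∨
    ∃ χ' : G → ℂ, IsIrrCharacter G χ' ∧ (∃ k ∈ K, χ' k ≠ χ k) ∧ χ' 1 = χ 1 ∧
       ∀ g, (∀ x, x * g * x⁻¹ ∉ K) → χ' g = χ g := by
  classical
  have : Fintype K := Fintype.ofFinite K
  have habK : ∀ a b : K, a * b = b * a := fun a b => Subtype.ext (hab a a.2 b b.2)
  by_cases h : ∀ a b : IrrCharacter K, (a : K → ℂ) ≠ 1 → (b : K → ℂ) ≠ 1 →
      classInner (fun x : K => χ x) a = classInner (fun x : K => χ x) b
  · left
    obtain ⟨c, hc⟩ := const_of_mult habK (hχ.isCharacter.restrict K).isClassFunction h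
    exact ⟨c, fun k hk hk1 => hc ⟨k, hk⟩ (fun h0 => hk1 (congrArg Subtype.val h0))⟩
  right
  push Not at h
  obtain ⟨a, b, ha, hb, hne⟩ := h
  let N : Subgroup G := Subgroup.normalizer (K : Set G)
  have hKN : K ≤ N := Subgroup.le_normalizer
  let K' : Subgroup N := K.subgroupOf N
  have hn : K'.Normal := by
    change (K.subgroupOf N).Normal
    rw [Subgroup.normal_subgroupOf_iff_le_normalizer hKN]
  have hC' : ∀ k ∈ K', k ≠ 1 → Subgroup.centralizer ({k} : Set N) ≤ K' := by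
    intro k hk hk1 c hc
    rw [Subgroup.mem_subgroupOf]
    apply hC k hk (fun h => hk1 (Subtype.ext h))
    rw [Subgroup.mem_centralizer_iff] at hc ⊢
    intro y hy
    rw [Set.mem_singleton_iff] at hy
    rw [hy]
    exact congrArg Subtype.val (hc k (Set.mem_singleton k))
  have hab' : ∀ a ∈ K', ∀ b ∈ K', a * b = b * a := fun a ha b hb => Subtype.ext (hab a ha b hb)
  have : Fintype K' := Fintype.ofFinite K'
  have : Fintype N := Fintype.ofFinite N
  let e : K' ≃* K := Subgroup.subgroupOfEquivOfLe hKN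
  have key : ∀ a : IrrCharacter K, (a : K → ℂ) ≠ 1 → ∃ α : N → ℂ, IsIrrCharacter N α ∧ indFun N α = indFun K (a : K → ℂ) ∧
      (∀ x : N, (x : G) ∉ K → α x = 0) ∧ α 1 = K'.index := by
    intro a ha
    have h1 : IsIrrCharacter K' (fun x => (a : K → ℂ) (e x)) := (isIrrCharacter_comp_mulEquiv_iff e).2 a.2
    have h2 : (fun x => (a : K → ℂ) (e x)) ≠ (1 : K' → ℂ) := by
      intro h0
      apply ha
      funext x
      have := congrFun h0 (e.symm x)
      simpa using this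
    refine ⟨indFun K' (fun x => (a : K → ℂ) (e x)), isIrr_indFun K' hC' hab' h1 h2, ?_, ?_, ?_⟩
    · exact IndFun.indFun_trans K N hKN (a : K → ℂ)
    · intro x hx
      apply IndFun.indFun_eq_zero
      intro y hy
      apply hx
      have := hn.conj_mem _ hy y
      rw [show y * (y⁻¹ * x * y) * y⁻¹ = x by group] at this
      exact this
    · rw [IndFun.indFun_one]
      have h3 : (a : K → ℂ) (e 1) = 1 := by rw [map_one]; exact a.2.one_eq_one_of_comm habK
      rw [h3, mul_one]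
  obtain ⟨α, hα, hα1, hα2, hα3⟩ := key a ha
  obtain ⟨β, hβ, hβ1, hβ2, hβ3⟩ := key b hb
  let v : G → ℂ := indFun K ((a : K → ℂ) - (b : K → ℂ))
  have hv : v = indFun N (α - β) := by
    show indFun K ((a : K → ℂ) - (b : K → ℂ)) = _
    rw [IndFun.indFun_sub, IndFun.indFun_sub, hα1, hβ1]
  have hvχ : classInner v χ ≠ 0 := by
    show classInner (indFun K ((a : K → ℂ) - (b : K → ℂ))) χ ≠ 0
    rw [IndFun.frobenius_reciprocity K _ χ hχ.isClassFunction, classInner_sub_left, sub_ne_zero]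
    intro h0
    apply hne
    rw [← conj_classInner, h0, conj_classInner]
  have hαβ : α ≠ β := by
    intro h0
    apply hvχ
    rw [hv, h0, sub_self, IndFun.indFun_zero, classInner_zero_left]
  have hnorm : classInner v v = 2 := by
    rw [hv, IndFun.classInner_indFun_ti (K : Set G) N hTI, classInner_sub_sub hα hβ hα hβ, if_pos rfl, if_pos rfl,
      if_neg hαβ, if_neg (Ne.symm hαβ)]
    · norm_num
    · intro x hx
      simp only [Pi.sub_apply, hα2 x hx, hβ2 x hx, sub_zero]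
    · exact hα.isClassFunction.sub hβ.isClassFunction
    · intro x hx
      simp only [Pi.sub_apply, hα2 x hx, hβ2 x hx, sub_zero]
    · simp only [Pi.sub_apply, hα3, hβ3, sub_self]
  have hv1 : v 1 = 0 := by
    rw [hv, IndFun.indFun_one]
    simp only [Pi.sub_apply, hα3, hβ3, sub_self, mul_zero]
  have hgen : IsGeneralizedCharacter G v := (a.2.isGeneralized.sub b.2.isGeneralized).indFun K
  have hvz : ∀ g, (∀ x, x * g * x⁻¹ ∉ K) → v g = 0 := by
    intro g hg
    apply IndFun.indFun_eq_zero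
    intro x
    have := hg x⁻¹
    rwa [inv_inv] at this
  obtain ⟨χ₁, χ₂, h1, h2, h12, hv2⟩ := norm_two_degree_zero hgen hnorm hv1
  have hneK : ∃ k ∈ K, v k ≠ 0 := by
    by_contra hcon
    push Not at hcon
    have h0 : v = 0 := by
      funext g
      by_cases hg : ∀ x, x * g * x⁻¹ ∉ K
      · exact hvz g hg
      · push Not at hg
        obtain ⟨x, hx⟩ := hg
        exact (IndFun.indFun_isClassFunction K ((a : K → ℂ) - (b : K → ℂ)) g x).symm.trans (hcon _ hx)
    rw [h0, classInner_zero_left] at hnorm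
    norm_num at hnorm
  have h3 : χ = χ₁ ∨ χ = χ₂ := by
    by_contra hcon
    push Not at hcon
    apply hvχ
    rw [hv2, classInner_sub_left, h1.classInner_eq_zero hχ (Ne.symm hcon.1),
      h2.classInner_eq_zero hχ (Ne.symm hcon.2), sub_zero]
  have hval : ∀ g, v g = χ₁ g - χ₂ g := fun g => by rw [hv2]; rfl
  obtain ⟨k, hk, hvk⟩ := hneK
  rw [hval, sub_ne_zero] at hvk
  rw [hval, sub_eq_zero] at hv1
  rcases h3 with h3 | h3
  · refine ⟨χ₂, h2, ⟨k, hk, by rw [h3]; exact Ne.symm hvk⟩, by rw [h3, hv1], fun g hg => ?_⟩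
    have := hvz g hg
    rw [hval, sub_eq_zero] at this
    rw [h3, this]
  · refine ⟨χ₁, h1, ⟨k, hk, by rw [h3]; exact hvk⟩, by rw [h3, hv1], fun g hg => ?_⟩
    have := hvz g hg
    rw [hval, sub_eq_zero] at this
    rw [h3, this]

theorem mul_val {χ : G → ℂ} (hχ : IsIrrCharacter G χ) {h k : G}
    (hprod : ∀ b : G, ∃ z, h * (b * k * b⁻¹) = z * (h * k) * z⁻¹) : χ h * χ k = χ 1 * χ (h * k) := by
  have h1 := StructConst.sum_conj_mul hχ h k
  have h2 : ∀ b : G, χ (h * (b * k * b⁻¹)) = χ (h * k) := by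
    intro b
    obtain ⟨z, hz⟩ := hprod b
    rw [hz]; exact hχ.isClassFunction _ _
  simp only [h2, Finset.sum_const, Finset.card_univ, nsmul_eq_mul, ← Nat.card_eq_fintype_card] at h1
  have h3 := hχ.one_ne_zero
  have h4 : (Nat.card G : ℂ) ≠ 0 := by exact_mod_cast Nat.card_pos.ne'
  rw [eq_div_iff h3] at h1
  apply mul_left_cancel₀ h4
  linear_combination -h1

theorem const_prod (K : Subgroup G)
    (hTI : ∀ g : G, g ∉ Subgroup.normalizer (K : Set G) → ∀ k ∈ K, g * k * g⁻¹ ∈ K → k = 1)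
    (hC : ∀ k ∈ K, k ≠ 1 → Subgroup.centralizer ({k} : Set G) ≤ K)
    (hab : ∀ a ∈ K, ∀ b ∈ K, a * b = b * a) {h : G}
    (hhk : ∀ k ∈ K, ∀ x, x * (h * k) * x⁻¹ ∉ K)
    (hprod : ∀ k ∈ K, k ≠ 1 → ∀ b : G, ∃ z, h * (b * k * b⁻¹) = z * (h * k) * z⁻¹)
    {χ : G → ℂ} (hχ : IsIrrCharacter G χ) : ∃ c : ℂ, ∀ k ∈ K, k ≠ 1 → χ (h * k) = c := by
  have h1 := hχ.one_ne_zero
  rcases const_or K hTI hC hab hχ with ⟨c, hc⟩ | ⟨χ', hχ', ⟨k0, hk0, hk0'⟩, h2, h3⟩
  · refine ⟨χ h * c / χ 1, fun k hk hk1 => ?_⟩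
    have h4 := mul_val hχ (hprod k hk hk1)
    rw [hc k hk hk1] at h4
    rw [h4]; field_simp
  · have hk01 : k0 ≠ 1 := by
      rintro rfl; exact hk0' h2
    have hh : ∀ x, x * h * x⁻¹ ∉ K := by
      intro x
      have := hhk 1 (one_mem _) x
      rwa [mul_one] at this
    have e1 := mul_val hχ (hprod k0 hk0 hk01)
    have e2 := mul_val hχ' (hprod k0 hk0 hk01)
    rw [h2, h3 h hh, h3 _ (hhk k0 hk0)] at e2
    have e3 : χ h * (χ' k0 - χ k0) = 0 := by linear_combination e2 - e1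
    have e4 : χ h = 0 := (mul_eq_zero.1 e3).resolve_right (sub_ne_zero.2 hk0')
    refine ⟨0, fun k hk hk1 => ?_⟩
    have e5 := mul_val hχ (hprod k hk hk1)
    rw [e4, zero_mul, eq_comm, mul_eq_zero] at e5
    exact e5.resolve_left h1

theorem const_class (K : Subgroup G)
    (hTI : ∀ g : G, g ∉ Subgroup.normalizer (K : Set G) → ∀ k ∈ K, g * k * g⁻¹ ∈ K → k = 1)
    (hC : ∀ k ∈ K, k ≠ 1 → Subgroup.centralizer ({k} : Set G) ≤ K)
    (hab : ∀ a ∈ K, ∀ b ∈ K, a * b = b * a) {h : G}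
    (hhk : ∀ k ∈ K, ∀ x, x * (h * k) * x⁻¹ ∉ K)
    (hprod : ∀ k ∈ K, k ≠ 1 → ∀ b : G, ∃ z, h * (b * k * b⁻¹) = z * (h * k) * z⁻¹)
    {f : G → ℂ} (hf : IsClassFunction G f) : ∃ c : ℂ, ∀ k ∈ K, k ≠ 1 → f (h * k) = c := by
  choose c hc using fun χ : IrrCharacter G => const_prod K hTI hC hab hhk hprod χ.2
  refine ⟨∑ χ : IrrCharacter G, classInner f (χ : G → ℂ) * c χ, fun k hk hk1 => ?_⟩
  rw [hf.expansion_apply]
  exact Finset.sum_congr rfl (fun χ _ => by rw [hc χ k hk hk1])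

/-- The counting argument. -/
theorem one_fixed_coset (K H : Subgroup G)
    (hTI : ∀ g : G, g ∉ Subgroup.normalizer (K : Set G) → ∀ k ∈ K, g * k * g⁻¹ ∈ K → k = 1)
    (hC : ∀ k ∈ K, k ≠ 1 → Subgroup.centralizer ({k} : Set G) ≤ K)
    (hab : ∀ a ∈ K, ∀ b ∈ K, a * b = b * a) {h : G}
    (hhk : ∀ k ∈ K, ∀ x, x * (h * k) * x⁻¹ ∉ K)
    (hprod : ∀ k ∈ K, k ≠ 1 → ∀ b : G, ∃ z, h * (b * k * b⁻¹) = z * (h * k) * z⁻¹)
    (hcop : (Nat.card H).Coprime (Nat.card K)) (hcard : Nat.card H * Nat.card K = Nat.card G)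
    (h3 : 3 ≤ Nat.card K) :
    Nat.card (MulAction.fixedBy (G ⧸ H) h) = 1 ∨ Nat.card (MulAction.fixedBy (G ⧸ H) h) = Nat.card (G ⧸ H) := by
  classical
  have : Fintype K := Fintype.ofFinite K
  have : Fintype (G ⧸ H) := Fintype.ofFinite _
  have hHK : Nat.card (G ⧸ H) = Nat.card K := by
    have h1 := H.card_mul_index
    rw [← hcard] at h1
    exact Nat.eq_of_mul_eq_mul_left Nat.card_pos h1
  -- K acts freely
  have hfree : ∀ (x : G ⧸ H) (k : K), (k : G) • x = x → k = 1 := by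
    intro x k hk
    obtain ⟨g, rfl⟩ := QuotientGroup.mk_surjective x
    have h1 : (QuotientGroup.mk ((k : G) * g) : G ⧸ H) = QuotientGroup.mk g := hk
    rw [eq_comm, QuotientGroup.eq] at h1
    have h2 : orderOf (g⁻¹ * (k * g)) ∣ Nat.card H := H.orderOf_dvd_natCard h1
    have h4 : orderOf (g⁻¹ * ((k : G) * g)) = orderOf (k : G) := by
      have := orderOf_injective (MulAut.conj g⁻¹).toMonoidHom (MulAut.conj g⁻¹).injective (k : G)
      rw [← this]; simp [mul_assoc]
    rw [h4] at h2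
    have h5 : orderOf (k : G) ∣ Nat.card K := K.orderOf_dvd_natCard k.2
    have h6 := Nat.eq_one_of_dvd_coprimes hcop h2 h5
    exact Subtype.ext (orderOf_eq_one_iff.1 h6)
  have hbij : ∀ x : G ⧸ H, Function.Bijective (fun k : K => (k : G) • x) := by
    intro x
    rw [Nat.bijective_iff_injective_and_card]
    refine ⟨fun k l hkl => ?_, hHK.symm⟩
    have h1 : (k : G) • x = (l : G) • x := hkl
    have h2 := hfree x (l⁻¹ * k) (by
      rw [Subgroup.coe_mul, Subgroup.coe_inv, mul_smul, h1, inv_smul_smul])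
    exact (inv_mul_eq_one.1 h2).symm
  -- double count
  let f : K → ℕ := fun k => Nat.card (MulAction.fixedBy (G ⧸ H) (h * (k : G)))
  have hsum : ∑ k : K, f k = Nat.card K := by
    have h1 : ∀ k : K, f k = ∑ x : G ⧸ H, if (h * (k : G)) • x = x then 1 else 0 := by
      intro k
      show Nat.card (MulAction.fixedBy (G ⧸ H) (h * (k : G))) = _
      rw [Finset.sum_boole, Nat.card_eq_fintype_card, Fintype.card_subtype]
      rfl
    simp only [h1]
    rw [Finset.sum_comm]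
    have h2 : ∀ x : G ⧸ H, (∑ k : K, if (h * (k : G)) • x = x then 1 else 0) = 1 := by
      intro x
      obtain ⟨k0, hk0⟩ := (hbij x).2 (h⁻¹ • x)
      rw [Finset.sum_eq_single k0]
      · rw [if_pos]
        have h4 : (k0 : G) • x = h⁻¹ • x := hk0
        rw [mul_smul, h4, smul_inv_smul]
      · intro k _ hk
        rw [if_neg]
        intro h4
        apply hk
        apply (hbij x).1
        show (k : G) • x = (k0 : G) • x
        have h5 : (k0 : G) • x = h⁻¹ • x := hk0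
        rw [h5, eq_inv_smul_iff, ← mul_smul]
        exact h4
      · intro h; exact absurd (Finset.mem_univ _) h
    simp only [h2, Finset.sum_const, Finset.card_univ, smul_eq_mul, mul_one, ← Nat.card_eq_fintype_card, hHK]
  obtain ⟨c, hc⟩ := const_class K hTI hC hab hhk hprod
    (CharBasic.isCharacter_perm (G := G) (X := G ⧸ H)).isClassFunction
  have hf1 : f 1 = Nat.card (MulAction.fixedBy (G ⧸ H) h) := by
    show Nat.card (MulAction.fixedBy (G ⧸ H) (h * ((1 : K) : G))) = _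
    rw [Subgroup.coe_one, mul_one]
  rw [← hf1, hHK]
  have hnt : 1 < Fintype.card K := by rw [← Nat.card_eq_fintype_card]; omega
  obtain ⟨k0, hk0⟩ := Fintype.exists_ne_of_one_lt_card hnt 1
  have hconst : ∀ k : K, k ≠ 1 → f k = f k0 := by
    intro k hk
    have e1 := hc k k.2 (fun h0 => hk (Subtype.ext h0))
    have e2 := hc k0 k0.2 (fun h0 => hk0 (Subtype.ext h0))
    have e3 : ((f k : ℕ) : ℂ) = ((f k0 : ℕ) : ℂ) := by
      show ((Nat.card (MulAction.fixedBy (G ⧸ H) (h * (k : G))) : ℕ) : ℂ) =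
        ((Nat.card (MulAction.fixedBy (G ⧸ H) (h * (k0 : G))) : ℕ) : ℂ)
      rw [e1, e2]
    exact_mod_cast e3
  rw [← Finset.add_sum_erase _ _ (Finset.mem_univ (1 : K)),
    Finset.sum_congr rfl (g := fun _ => f k0) (fun k hk => hconst k (Finset.ne_of_mem_erase hk)),
    Finset.sum_const, Finset.card_erase_of_mem (Finset.mem_univ _), Finset.card_univ,
    ← Nat.card_eq_fintype_card, smul_eq_mul] at hsum
  rcases Nat.lt_or_ge (f k0) 2 with h4 | h4
  · interval_cases h5 : f k0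
    · right; omega
    · left; omega
  · exfalso
    have h5 : (Nat.card K - 1) * 2 ≤ (Nat.card K - 1) * f k0 := Nat.mul_le_mul_left _ h4
    omega

end Cfsg.Agent.Lib.H9CT3
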