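import Mathlib
import Cfsg.Prelude.Def_Solvable
import Cfsg.Agent.Lib.H9CT3a
import Cfsg.Agent.Lib.H9CT3b
import Cfsg.Agent.Lib.FrobThm

/-!
# Simple groups with three nontrivial class sizes, III: the nested case is impossible (helper9)
-/

set_option autoImplicit false
set_option linter.unusedSectionVars false

namespace Cfsg.Agent.Lib.H9CT3

open Subgroup Cfsg.Agent.Lib.CSP
open scoped Pointwise

universe u

variable {G : Type u} [Group G] [Finite G] {i j k : ℕ} {z : G}

theorem Out.uniq (o : Out G i j k z) {y h : G} (hy : y ≠ 1) (hyj : n y = j) (hh : h ≠ 1) (hhj : n h = j)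
    {x x' : G ⧸ C y} (hx : h • x = x) (hx' : h • x' = x') : x = x' := by
  have := Fintype.ofFinite G
  have hs := o.nest.simp
  have hCk : ∀ k' ∈ C z, k' ≠ 1 → C k' = C z := o.hC
  have hnk : ∀ k' ∈ C z, k' ≠ 1 → n k' = k := by
    intro k' hk' hk1
    show (C k').index = k
    rw [hCk k' hk' hk1]; exact o.hzk
  have hTI : ∀ g : G, g ∉ Subgroup.normalizer (C z : Set G) → ∀ k' ∈ C z, g * k' * g⁻¹ ∈ C z → k' = 1 := by
    intro g hg k' hk' hgk
    by_contra hk1
    apply hg
    have hgk1 : g * k' * g⁻¹ ≠ 1 := by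
      intro h0
      apply hk1
      calc k' = g⁻¹ * (g * k' * g⁻¹) * g := by group
        _ = 1 := by rw [h0]; group
    have h1 := hCk _ hgk hgk1
    have h2 := hCk _ hk' hk1
    rw [mem_normalizer_iff]
    intro w
    conv_rhs => rw [← h1, C_conj, show g⁻¹ * (g * w * g⁻¹) * g = w by group, h2]
  have hab : ∀ a ∈ C z, ∀ b ∈ C z, a * b = b * a := by
    intro a ha b hb
    by_cases hb1 : b = 1
    · rw [hb1]; simp
    · have h1 : a ∈ C b := by rw [hCk b hb hb1]; exact ha
      exact mem_C.1 h1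
  have hhk : ∀ k' ∈ C z, ∀ x, x * (h * k') * x⁻¹ ∉ C z := by
    intro k' hk' x
    by_cases hk1 : k' = 1
    · rw [hk1, mul_one]
      exact o.conj_not_mem hh (by rw [hhj]; exact o.nest.hjk) x
    · have h0 : h * k' ≠ 1 := by
        intro h1
        have h2 : h = k'⁻¹ := eq_inv_of_mul_eq_one_left h1
        have h3 := o.conj_not_mem hh (by rw [hhj]; exact o.nest.hjk) 1
        apply h3
        rw [one_mul, inv_one, mul_one, h2]
        exact inv_mem hk'
      apply o.conj_not_mem h0
      rw [o.nest.prod hh hk1 hhj (hnk k' hk' hk1)]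
      exact o.nest.hik
  have hprod : ∀ k' ∈ C z, k' ≠ 1 → ∀ b : G, ∃ w, h * (b * k' * b⁻¹) = w * (h * k') * w⁻¹ := by
    intro k' hk' hk1 b
    have hcop : (n h).Coprime (n k') := by rw [hhj, hnk k' hk' hk1]; exact o.nest.cop
    obtain ⟨w, hw⟩ := prod_conj hcop 1 b
    exact ⟨w, by rw [← hw]; simp⟩
  have hc := o.card_eq
  have hcard : Nat.card (C y) * Nat.card (C z) = Nat.card G := by
    rw [hc.1, hc.2.1, hc.2.2 y hy hyj, mul_comm]
  rcases one_fixed_coset (C z) (C y) hTI (fun k' hk' hk1 => (hCk k' hk' hk1).le) hab hhk hprod (o.cop_card hy hyj) hcard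
    (by rw [hc.1]; exact o.nest.six_le o) with h1 | h1
  · rw [Nat.card_eq_one_iff_unique] at h1
    obtain ⟨h2, -⟩ := h1
    have := h2.elim ⟨x, hx⟩ ⟨x', hx'⟩
    exact congrArg Subtype.val this
  · exfalso
    have h2 : MulAction.fixedBy (G ⧸ C y) h = Set.univ := by
      apply Set.eq_of_subset_of_ncard_le (Set.subset_univ _) _ (Set.toFinite _)
      rw [Set.ncard_univ, ← h1]
      exact le_rfl
    have h3 : ∀ g : G, g⁻¹ * h * g ∈ C y := by
      intro g
      have h4 : (QuotientGroup.mk g : G ⧸ C y) ∈ MulAction.fixedBy (G ⧸ C y) h := h2 ▸ Set.mem_univ _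
      have h5 : (QuotientGroup.mk (h * g) : G ⧸ C y) = QuotientGroup.mk g := h4
      rw [eq_comm, QuotientGroup.eq] at h5
      rw [mul_assoc]; exact h5
    have h4 : normalClosure ({h} : Set G) ≤ C y := by
      rw [normalClosure, closure_le]
      intro u hu
      rw [Group.mem_conjugatesOfSet_iff] at hu
      obtain ⟨v, hv, hvu⟩ := hu
      rw [Set.mem_singleton_iff] at hv
      obtain ⟨c, hc⟩ := isConj_iff.1 hvu
      rw [← hc, hv]
      have := h3 c⁻¹
      rw [inv_inv] at this
      exact this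
    rcases (normalClosure_normal (s := ({h} : Set G))).eq_bot_or_eq_top with h5 | h5
    · apply hh
      have : h ∈ normalClosure ({h} : Set G) := subset_normalClosure rfl
      rwa [h5, mem_bot] at this
    · rw [h5] at h4
      exact not_mem_center o.nest.nab hy (mem_center_of_C_top (top_le_iff.1 h4))

theorem smul_mk_one {y h : G} (h1 : h ∈ C y) : h • (QuotientGroup.mk 1 : G ⧸ C y) = QuotientGroup.mk 1 := by
  show (QuotientGroup.mk (h * 1) : G ⧸ C y) = QuotientGroup.mk 1
  rw [eq_comm, QuotientGroup.eq]; simpa using h1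

theorem smul_mk {y h g : G} (h1 : g⁻¹ * h * g ∈ C y) : h • (QuotientGroup.mk g : G ⧸ C y) = QuotientGroup.mk g := by
  show (QuotientGroup.mk (h * g) : G ⧸ C y) = QuotientGroup.mk g
  rw [eq_comm, QuotientGroup.eq, ← mul_assoc]; exact h1

/-- two commuting elements of coprime order, the product is of type `i` -/
theorem Nest.C_le_of_coprime (o : Nest G i j k) {u v : G} (hu : u ≠ 1) (hui : n u = i) (hc : u * v = v * u)
    (hco : (orderOf u).Coprime (orderOf v)) : C u ≤ C v := by
  have h1 := mem_zpowers_mul hc hco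
  have h2 : v ∈ zpowers (u * v) := by rw [hc]; exact mem_zpowers_mul hc.symm hco.symm
  have h3 : u * v ≠ 1 := by
    intro h0
    rw [h0, zpowers_one_eq_bot, mem_bot] at h1
    exact hu h1
  have h4 : n u ∣ n (u * v) := index_dvd_of_le (C_le_of_mem_zpowers h1)
  have h5 : n (u * v) = n u := by
    rw [hui] at h4 ⊢
    have h6 := Nat.le_of_dvd (Nat.pos_of_ne_zero (n_ne_zero _)) h4
    have h7 := o.lt
    have h8 := o.k_lt
    rcases o.sizes _ h3 with h9 | h9 | h9 <;> omega
  exact (le_of_n_eq (C_le_of_mem_zpowers h1) h5).trans (C_le_of_mem_zpowers h2)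

/-- `r`-elements in the centralizer of an `r`-element of type `i` lie in one `r`-subgroup -/
theorem Nest.exists_pgroup (o : Nest G i j k) {r : ℕ} (hr : r.Prime) {u y y' : G} (hu : u ≠ 1) (hui : n u = i)
    (hur : ∃ a, orderOf u = r ^ a) (hy : y ∈ C u) (hy' : y' ∈ C u) (hyr : ∃ a, orderOf y = r ^ a)
    (hyr' : ∃ a, orderOf y' = r ^ a) : ∃ Q : Subgroup G, IsPGroup r Q ∧ y ∈ Q ∧ y' ∈ Q := by
  have hrf : Fact r.Prime := ⟨hr⟩
  obtain ⟨b, hb⟩ := hur
  have hcent : ∀ v : C u, (orderOf (v : G)).Coprime r → v ∈ center (C u) := by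
    intro v hv
    have h1 := o.C_le_of_coprime hu hui (v := v) (mem_C.1 v.2).symm (by rw [hb]; exact (hv.symm.pow_left b))
    rw [mem_center_iff]
    intro w
    exact Subtype.ext (mem_C.1 (h1 w.2))
  have hp : IsPGroup r (C u ⧸ center (C u)) := by
    intro q
    obtain ⟨w, rfl⟩ := QuotientGroup.mk_surjective q
    obtain ⟨s, t, hst, hts, -, ht, ⟨a, ha⟩, hco⟩ := parts hr w
    refine ⟨a, ?_⟩
    rw [← QuotientGroup.mk_pow, QuotientGroup.eq_one_iff, ← hst,
      (show Commute s t from hst.trans hts.symm).mul_pow, ← ha, pow_orderOf_eq_one, one_mul]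
    apply pow_mem
    apply hcent
    rw [Subgroup.orderOf_coe]
    exact hco
  have hnil : Group.IsNilpotent (C u) := Group.of_quotient_center_nilpotent hp.isNilpotent
  obtain ⟨Q⟩ : Nonempty (Sylow r (C u)) := inferInstance
  have hQn : (Q : Subgroup (C u)).Normal := inferInstance
  have hmem : ∀ w : C u, (∃ a, orderOf (w : G) = r ^ a) → w ∈ Q := by
    rintro w ⟨a, ha⟩
    have h1 : IsPGroup r (zpowers w) := IsPGroup.of_card (n := a) (by
      rw [Nat.card_zpowers, ← ha, Subgroup.orderOf_coe])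
    obtain ⟨Q', hQ'⟩ := h1.exists_le_sylow
    have h2 : Subsingleton (Sylow r (C u)) := by
      have := Sylow.unique_of_normal Q hQn
      exact this.instSubsingleton
    have h3 : Q' = Q := h2.elim _ _
    rw [← h3]
    exact hQ' (mem_zpowers w)
  refine ⟨(Q : Subgroup (C u)).map (C u).subtype, Q.2.map _, ?_, ?_⟩
  · exact ⟨⟨y, hy⟩, hmem _ hyr, rfl⟩
  · exact ⟨⟨y', hy'⟩, hmem _ hyr', rfl⟩

theorem Out.frob (o : Out G i j k z) : False := by
  have hs := o.nest.simp
  obtain ⟨y, hy, hyj, r, hr, a, ha⟩ := o.nest.exists_prim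
  have hrf : Fact r.Prime := ⟨hr⟩
  have hcards := o.card_eq
  have hHk : Nat.card (C y) = k := hcards.2.2 y hy hyj
  have hidx : Nat.card (G ⧸ C y) = j := hyj
  -- prime order elements
  have key : ∀ g : G, g ∉ C y → ∀ h : G, h ≠ 1 → ∀ t : ℕ, t.Prime → orderOf h = t → h ∈ C y → g⁻¹ * h * g ∈ C y → False := by
    intro g hg h hh t ht hth h1 h2
    have f1 : h • (QuotientGroup.mk 1 : G ⧸ C y) = QuotientGroup.mk 1 := smul_mk_one h1
    have f2 : h • (QuotientGroup.mk g : G ⧸ C y) = QuotientGroup.mk g := smul_mk h2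
    have hne : (QuotientGroup.mk 1 : G ⧸ C y) ≠ QuotientGroup.mk g := by
      intro h0
      rw [QuotientGroup.eq] at h0
      apply hg; simpa using h0
    -- the conjugate y'
    have hy'1 : g * y * g⁻¹ ≠ 1 := by
      intro h0
      apply hy
      calc y = g⁻¹ * (g * y * g⁻¹) * g := by group
        _ = 1 := by rw [h0]; group
    have hy'j : n (g * y * g⁻¹) = j := by rw [n_conj, hyj]
    have hy'r : orderOf (g * y * g⁻¹) = r ^ a := by
      rw [← ha]
      have := orderOf_injective (MulAut.conj g).toMonoidHom (MulAut.conj g).injective y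
      rw [← this]; simp
    have fy1 : y • (QuotientGroup.mk 1 : G ⧸ C y) = QuotientGroup.mk 1 := smul_mk_one (self_mem y)
    have fy' : (g * y * g⁻¹) • (QuotientGroup.mk g : G ⧸ C y) = QuotientGroup.mk g := by
      apply smul_mk
      rw [show g⁻¹ * (g * y * g⁻¹) * g = y by group]
      exact self_mem y
    have hyh : y ∈ C h := mem_C_comm.1 h1
    have hy'h : g * y * g⁻¹ ∈ C h := by
      rw [mem_C_comm, C_conj]; exact h2
    rcases o.nest.sizes h hh with hn | hn | hn
    · -- type i
      by_cases htr : t = r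
      · subst htr
        obtain ⟨Q, hQ, hyQ, hy'Q⟩ := o.nest.exists_pgroup hr hh hn ⟨1, by rw [hth, pow_one]⟩ hyh hy'h ⟨a, ha⟩ ⟨a, hy'r⟩
        have hrj : ¬ t ∣ Nat.card (G ⧸ C y) := by
          rw [hidx]
          intro h3
          have h4 : t ∣ k := by
            rw [← hHk, ← hth]
            exact Subgroup.orderOf_dvd_natCard _ h1
          have h5 := Nat.dvd_gcd h3 h4
          rw [show j.gcd k = 1 from o.nest.cop] at h5
          exact ht.one_lt.ne' (Nat.dvd_one.1 h5)
        obtain ⟨x, hx⟩ := hQ.nonempty_fixed_point_of_prime_not_dvd_card (G ⧸ C y) hrj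
        have e1 : y • x = x := hx ⟨y, hyQ⟩
        have e2 : (g * y * g⁻¹) • x = x := hx ⟨_, hy'Q⟩
        have e3 := o.uniq hy hyj hy hyj e1 fy1
        have e4 := o.uniq hy hyj hy'1 hy'j e2 fy'
        exact hne (e3.symm.trans e4)
      · have h3 : C h ≤ C y := o.nest.C_le_of_coprime hh hn (mem_C.1 h1) (by
          rw [hth, ha]; exact ((Nat.coprime_primes ht hr).2 htr).pow_right a)
        have h4 : (g * y * g⁻¹) • (QuotientGroup.mk 1 : G ⧸ C y) = QuotientGroup.mk 1 := smul_mk_one (h3 hy'h)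
        exact hne (o.uniq hy hyj hy'1 hy'j h4 fy')
    · exact hne (o.uniq hy hyj hh hn f1 f2)
    · -- type k
      have h3 : t ∣ k := by
        rw [← hHk, ← hth]
        exact Subgroup.orderOf_dvd_natCard _ h1
      have h4 : t ∣ j := by
        have h5 : Nat.card (C h) * k = j * k := by
          rw [← hcards.2.1, ← card_mul_index (C h)]
          congr 1
          exact hn.symm
        have h6 : Nat.card (C h) = j :=
          Nat.eq_of_mul_eq_mul_right (by have := o.nest.one_lt_k; omega) h5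
        rw [← h6, ← hth]
        exact Subgroup.orderOf_dvd_natCard _ (self_mem h)
      have h5 := Nat.dvd_gcd h4 h3
      rw [show j.gcd k = 1 from o.nest.cop] at h5
      exact ht.one_lt.ne' (Nat.dvd_one.1 h5)
  have hbot : C y ≠ ⊥ := by
    intro h0
    have := self_mem y
    rw [h0, mem_bot] at this
    exact hy this
  have htop : C y ≠ ⊤ := fun h0 => not_mem_center o.nest.nab hy (mem_center_of_C_top h0)
  have hF : IsFrobeniusComplement (C y) := by
    refine ⟨hbot, htop, fun g hg => ?_⟩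
    rw [eq_bot_iff]
    intro h hh
    rw [mem_bot]
    by_contra h1
    obtain ⟨h2, h3⟩ := mem_inf.1 hh
    rw [Subgroup.mem_pointwise_smul_iff_inv_smul_mem, ← map_inv, MulAut.smul_def, MulAut.conj_apply, inv_inv] at h3
    have h4 : orderOf h ≠ 1 := fun h0 => h1 (orderOf_eq_one_iff.1 h0)
    obtain ⟨t, ht, htd⟩ := Nat.exists_prime_and_dvd h4
    have h5 : orderOf (h ^ (orderOf h / t)) = t := orderOf_pow_orderOf_div (orderOf_pos h).ne' htd
    refine key g hg (h ^ (orderOf h / t)) ?_ t ht h5 (pow_mem h2 _) ?_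
    · intro h0
      rw [h0, orderOf_one] at h5
      exact ht.one_lt.ne h5
    · have : g⁻¹ * h ^ (orderOf h / t) * g = (g⁻¹ * h * g) ^ (orderOf h / t) := by
        have := conj_pow (a := g⁻¹) (b := h) (i := orderOf h / t)
        rw [inv_inv] at this
        exact this.symm
      rw [this]
      exact pow_mem h3 _
  obtain ⟨N, -, hN, hc⟩ := FrobThm.exists_kernel hF
  rcases hN.eq_bot_or_eq_top with h | h
  · apply htop
    rw [h] at hc
    have := hc.sup_eq_top
    rwa [bot_sup_eq] at this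
  · apply hbot
    rw [h] at hc
    have := hc.disjoint
    rwa [top_disjoint] at this

/-- The nested case does not occur. -/
theorem Nest.false (h : Nest G i j k) : False := by
  obtain ⟨z, hz, hzk, hC⟩ := h.exists_K
  exact Out.frob ⟨h, hz, hzk, hC⟩

end Cfsg.Agent.Lib.H9CT3
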