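import Mathlib
import Cfsg.Agent.Lib.H9ItoC

/-!
(helper9) Three class sizes, nested case: at most one prime does not divide `c2 / c1`.
-/

set_option autoImplicit false
set_option linter.unusedSectionVars false
set_option linter.unusedVariables false

namespace Cfsg.Agent.Lib.H9Ito

open Subgroup Cfsg.Agent.Lib.CSP Cfsg.Agent.Lib.CFSylow

variable {G : Type*} [Group G] [Finite G] {c1 c2 : ℕ}

/-- the subgroup generated by the `q`-elements commuting with `w` -/
def Kq (q : ℕ) (w : G) : Subgroup G := closure {v | v ∈ C w ∧ PEl q v}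

theorem Kq_le (q : ℕ) (w : G) : Kq q w ≤ C w := (closure_le _).2 (fun v hv => hv.1)

theorem mem_C_conj {w g x : G} : g * x * g⁻¹ ∈ C (g * w * g⁻¹) ↔ x ∈ C w := by
  rw [C_conj]
  have : g⁻¹ * (g * x * g⁻¹) * g = x := by group
  rw [this]

theorem PEl.conj_iff {p : ℕ} {x g : G} : PEl p (g * x * g⁻¹) ↔ PEl p x := by
  constructor
  · intro h
    have := h.conj g⁻¹
    have h2 : g⁻¹ * (g * x * g⁻¹) * g⁻¹⁻¹ = x := by group
    rwa [h2] at this
  · exact fun h => h.conj g

theorem Kq_conj_le (q : ℕ) (g w : G) : cj g (Kq q w) ≤ Kq q (g * w * g⁻¹) := by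
  rw [Kq, cj, MonoidHom.map_closure, closure_le]
  rintro _ ⟨v, ⟨hv, hvq⟩, rfl⟩
  exact subset_closure ⟨mem_C_conj.2 hv, hvq.conj g⟩

theorem Kq_conj (q : ℕ) (g w : G) : Kq q (g * w * g⁻¹) = cj g (Kq q w) := by
  apply le_antisymm _ (Kq_conj_le q g w)
  rw [le_cj_iff]
  have := Kq_conj_le q g⁻¹ (g * w * g⁻¹)
  have h2 : g⁻¹ * (g * w * g⁻¹) * g⁻¹⁻¹ = w := by group
  rwa [h2] at this

theorem C_le_norm_Kq (q : ℕ) (w : G) : C w ≤ normalizer (Kq q w : Set G) := by
  intro g hg
  rw [CFSylow.mem_normalizer, ← Kq_conj]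
  have h1 := mem_C.1 hg
  have : g * w * g⁻¹ = w := by rw [h1]; group
  rw [this]

theorem center_le_norm (K : Subgroup G) : center G ≤ normalizer (K : Set G) := by
  intro z hz
  apply mem_normalizer_of
  intro x hx
  rw [← mem_center_iff.1 hz x, mul_assoc, mul_inv_cancel, mul_one]; exact hx

theorem cen_top : Cen (⊤ : Subgroup G) (center G) := cen_center _ le_top

theorem Ctx.same (h : Ctx G c1 c2) {s : ℕ} (hs : lp s c1 = lp s c2) (x : G) (hx : x ∉ center G) :
    lp s (Nat.card (C x)) = lp s c1 := by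
  rcases h.h x hx with h1 | h1 <;> rw [h1]
  exact hs.symm

theorem Ctx.n2_lt (h : Ctx G c1 c2) {s q : ℕ} [hsp : Fact s.Prime] [hqp : Fact q.Prime] (hsq : s ≠ q)
    (hsd : s ∣ (center G).index) (hqd : q ∣ (center G).index) (hs : lp s c1 = lp s c2) (hq : lp q c1 = lp q c2) :
    (¬ lp s (Nat.card G) * lp s (Nat.card (center G)) < lp s c1 * lp s c1) ∧
    lp s (Nat.card G) * lp q (Nat.card (center G)) < lp s c1 * lp q c1 := by
  obtain ⟨S, hS⟩ := exists_sylIn s (⊤ : Subgroup G)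
  obtain ⟨u0, -, hu0c, hu0⟩ := exists_rel (H := (⊤ : Subgroup G)) hsp.out (by rw [relIndex_top_right]; exact hsd)
  obtain ⟨u, huS, huZ, hug⟩ := exists_good (Z := center G) (fun z hz g _ => (mem_center_iff.1 hz g).symm) hS.isPGroup
    (not_le_center cen_top hS (mem_top u0) hu0 hu0c)
  have hgood : Good S (center G) u := ⟨huS, huZ, hug⟩
  have hus : PEl s u := PEl.of_mem hS.isPGroup huS
  have hsame := h.same hs
  have hTu := hgood.syl cen_top hS
  rw [top_inf_eq] at hTu
  have hdp := fun (w : G) (hw : w ∉ center G) (hws : PEl s w) => dp hsame hw hws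
  have hcomm : ∀ w, w ∉ center G → PEl s w → ∀ a ∈ C w, PEl s a → ∀ v ∈ C w, PEl q v → a * v = v * a := by
    intro w hw hws a ha has v hv hvq
    obtain ⟨T, hT, -, h3⟩ := hdp w hw hws
    exact h3 a ha has v hv (hvq.coprime' hsp.out hqp.out hsq)
  obtain ⟨v, hv, hvq, hvc⟩ := h.N1 hqd huZ
  have hXG : Nat.card (⊤ : Subgroup G) = Nat.card G := card_top
  constructor
  · intro hlarge
    have hrel : ∀ w c : G, w ∉ center G → PEl s w → c ∉ center G → PEl s c → c ∈ C w → Kq q w = Kq q c := by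
      intro w c hw hws hc hcs hcw
      rw [Kq, Kq]
      congr 1
      ext x
      constructor
      · rintro ⟨h1, h2⟩
        exact ⟨mem_C.2 (hcomm w hw hws c hcw hcs x h1 h2).symm, h2⟩
      · rintro ⟨h1, h2⟩
        exact ⟨mem_C.2 (hcomm c hc hcs w (mem_C_comm.1 hcw) hws x h1 h2).symm, h2⟩
    have hconj : ∀ w : G, w ∉ center G → PEl s w → ∃ g : G, Kq q (g * w * g⁻¹) = Kq q u := by
      intro w hw hws
      obtain ⟨g, -, c, hcs, hcZ, hcu, hcw⟩ := hgood.meet cen_top hS (w := w) (by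
        rw [top_inf_eq, top_inf_eq, hXG, hsame u huZ, hsame w hw]; exact hlarge)
      rw [top_inf_eq] at hcu
      refine ⟨g, ?_⟩
      rw [hrel u c huZ hus hcZ hcs hcu, hrel _ c (cen_top.conj_notMem (mem_top g) hw) (hws.conj g) hcZ hcs hcw]
    have hN : normalizer (Kq q u : Set G) = ⊤ := by
      apply eq_of_cover le_top
      intro x _
      by_cases hx : x ∈ center G
      · exact ⟨1, mem_top _, by simpa using center_le_norm _ hx⟩
      obtain ⟨w, hw, hws, hwc⟩ := h.N1 hsd hx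
      obtain ⟨g, hg⟩ := hconj w hwc hws
      refine ⟨g⁻¹, mem_top _, ?_⟩
      rw [inv_inv, ← hg]
      exact C_le_norm_Kq _ _ (mem_C_conj.2 (mem_C_comm.1 hw))
    have hall : ∀ w : G, w ∉ center G → PEl s w → Kq q w = Kq q u := by
      intro w hw hws
      obtain ⟨g, hg⟩ := hconj w hw hws
      rw [Kq_conj, cj_eq_iff] at hg
      rw [hg]
      exact CFSylow.mem_normalizer.1 (hN ▸ mem_top _)
    have hvK : v ∈ Kq q u := subset_closure ⟨hv, hvq⟩
    have hSv : S ≤ C v := by
      intro a ha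
      by_cases hac : a ∈ center G
      · exact CSP.center_le v hac
      · rw [← hall a hac (PEl.of_mem hS.isPGroup ha)] at hvK
        exact mem_C_comm.1 (Kq_le _ _ hvK)
    obtain ⟨R, hR⟩ := exists_sylIn s (C v)
    have h1 := hR.card_le hS.isPGroup hSv
    rw [SylIn.card' hS, SylIn.card' hR, hXG, hsame v hvc] at h1
    obtain ⟨x, hx⟩ := exists_dvd_n hsp.out hsd
    have hxc : x ∉ center G := by
      intro hxc
      have : (C x).index = 1 := by rw [C_eq_top hxc, index_top]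
      have h2 : s ∣ (C x).index := hx
      rw [this] at h2
      exact hsp.out.one_lt.ne' (Nat.dvd_one.1 h2)
    have h2 : Nat.card (C x) * (C x).index = Nat.card G := card_mul_index _
    have h3 := congrArg (lp s) h2
    rw [lp_mul Nat.card_pos.ne' index_ne_zero_of_finite, hsame x hxc] at h3
    have h4 : 1 < lp s (C x).index := one_lt_lp hsp.out index_ne_zero_of_finite hx
    have h5 : 0 < lp s c1 := lp_pos hsp.out _
    nlinarith
  · obtain ⟨Q, hQ, hSQ⟩ := inv_syl (q := q) (hgood.norm cen_top hS.le) hS.isPGroup (hgood.syl cen_top hS) (by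
      intro Q hQ t ht
      apply mem_normalizer_of
      intro y hy
      have hy' := hQ.le hy
      rw [top_inf_eq] at hy'
      have := hcomm u huZ hus t ht.2 (PEl.of_mem hS.isPGroup ht.1) y hy' (PEl.of_mem hQ.isPGroup hy)
      rw [this, mul_assoc, mul_inv_cancel, mul_one]; exact hy)
    have h1 := hgood.lt hsq cen_top hS hQ hSQ (by
      intro g hg w hw hwq hwc he
      rw [top_inf_eq] at hw
      have h2 : S ⊓ C u ≤ S ⊓ C w := by
        intro a ha
        exact ⟨ha.1, mem_C.2 (hcomm u huZ hus a ha.2 (PEl.of_mem hS.isPGroup ha.1) w hw hwq)⟩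
      obtain ⟨R, hR⟩ := exists_sylIn s (C w)
      have h3 := hR.card_le (hS.isPGroup.to_le (inf_le_left : S ⊓ C w ≤ S)) inf_le_right
      have h4 : S ⊓ C u = S ⊓ C w := eq_of_le_of_card_le h2 (by
        rw [SylIn.card' hTu, hsame u huZ, ← hsame w hwc, ← SylIn.card' hR]; exact h3)
      have h5 : g ∈ S ⊓ C w := ⟨hg, mem_C.2 he⟩
      rw [← h4] at h5
      exact h5.2) (v := v) (by rw [top_inf_eq]; exact hv) hvq hvc
    rw [top_inf_eq, hXG, hsame u huZ, h.same hq u huZ] at h1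
    exact h1

/-- numeric conclusion -/
theorem numeric {Xs Xq zs zq cs cq : ℕ} (hzs : 0 < zs) (hzq : 0 < zq) (hcs : 0 < cs) (hcq : 0 < cq)
    (h1 : cs * cs ≤ Xs * zs) (h2 : cq * cq ≤ Xq * zq) (h3 : Xs * zq < cs * cq) (h4 : Xq * zs < cq * cs) : False := by
  have h5 : cs * zq < cq * zs := by
    have h6 : cs * cs * zq ≤ Xs * zs * zq := Nat.mul_le_mul_right _ h1
    have h7 : Xs * zq * zs < cs * cq * zs := Nat.mul_lt_mul_of_pos_right h3 hzs
    have h8 : cs * (cs * zq) < cs * (cq * zs) := by nlinarith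
    exact Nat.lt_of_mul_lt_mul_left h8
  have h5' : cq * zs < cs * zq := by
    have h6 : cq * cq * zs ≤ Xq * zq * zs := Nat.mul_le_mul_right _ h2
    have h7 : Xq * zs * zq < cq * cs * zq := Nat.mul_lt_mul_of_pos_right h4 hzq
    have h8 : cq * (cq * zs) < cq * (cs * zq) := by nlinarith
    exact Nat.lt_of_mul_lt_mul_left h8
  omega

/-- N2 -/
theorem Ctx.N2 (h : Ctx G c1 c2) {s q : ℕ} (hsp : s.Prime) (hqp : q.Prime) (hsq : s ≠ q)
    (hsd : s ∣ (center G).index) (hqd : q ∣ (center G).index) (hs : lp s c1 = lp s c2) (hq : lp q c1 = lp q c2) : False := by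
  have : Fact s.Prime := ⟨hsp⟩
  have : Fact q.Prime := ⟨hqp⟩
  obtain ⟨h1, h2⟩ := h.n2_lt hsq hsd hqd hs hq
  obtain ⟨h3, h4⟩ := h.n2_lt hsq.symm hqd hsd hq hs
  push Not at h1 h3
  exact numeric (lp_pos hsp _) (lp_pos hqp _) (lp_pos hsp _) (lp_pos hqp _) h1 h3 h2 h4

end Cfsg.Agent.Lib.H9Ito
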