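import Mathlib
import Cfsg.Agent.Lib.H9ItoD

/-!
(helper9) Three class sizes, nested case: type 1 centralizers are abelian.
-/

set_option autoImplicit false
set_option linter.unusedSectionVars false
set_option linter.unusedVariables false

namespace Cfsg.Agent.Lib.H9Ito

open Subgroup Cfsg.Agent.Lib.CSP Cfsg.Agent.Lib.CFSylow

variable {G : Type*} [Group G] [Finite G] {c1 c2 : ℕ}

theorem coprime_mul {x y : G} {k : ℕ} (hc : x * y = y * x) (hx : (orderOf x).Coprime k) (hy : (orderOf y).Coprime k) :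
    (orderOf (x * y)).Coprime k :=
  Nat.Coprime.coprime_dvd_left (Commute.orderOf_mul_dvd_mul_orderOf (show Commute x y from hc))
    (Nat.Coprime.mul_left hx hy)

theorem Ctx.star (h : Ctx G c1 c2) {g v : G} (hg : g ∉ center G) (hgc : Nat.card (C g) = c1) (hv : v ∈ C g)
    (hco : (orderOf g).Coprime (orderOf v)) : C g ≤ C v := by
  have hcomm : g * v = v * g := (mem_C.1 hv).symm
  have h1 := h.min (mul_notMem_center hcomm hco hg) hgc (by rw [C_mul hcomm hco]; exact inf_le_left)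
  rw [C_mul hcomm hco, inf_eq_left] at h1
  exact h1

/-- property D at the prime `k` -/
def Dk (A : Subgroup G) (k : ℕ) : Prop := ∃ g, g ∉ center G ∧ C g = A ∧ (orderOf g).Coprime k

theorem Ctx.Dk_star (h : Ctx G c1 c2) {A : Subgroup G} (hA : Nat.card A = c1) {k : ℕ} (hk : k.Prime) (hD : Dk A k)
    {v : G} (hv : v ∈ A) (hvk : PEl k v) : A ≤ C v := by
  obtain ⟨g, hg, rfl, hco⟩ := hD
  exact h.star hg hA hv (hvk.coprime hk hco).symm

theorem Ctx.abel_of_D (h : Ctx G c1 c2) {A : Subgroup G} (hA : Nat.card A = c1) (hD : ∀ k, k.Prime → Dk A k) :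
    ∀ a ∈ A, A ≤ C a := by
  intro a ha
  by_contra hcon
  have h1 : a ∉ centralizer (A : Set G) := by
    intro h2
    apply hcon
    intro x hx
    rw [mem_C]
    exact Subgroup.mem_centralizer_iff.1 h2 x hx
  obtain ⟨k, hk, u, hu, huK, huk⟩ := exists_prim' _ _ a rfl h1
  apply huK
  rw [Subgroup.mem_centralizer_iff]
  intro x hx
  exact mem_C.1 (h.Dk_star hA hk (hD k hk) ((zpowers_le.2 ha) hu) huk hx)

/-- context for `single` -/
structure SCtx (G : Type*) [Group G] [Finite G] (c1 c2 : ℕ) (H : Subgroup G) (y1 y2 : G) (r1 r2 : ℕ) : Prop where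
  h : Ctx G c1 c2
  hr1 : r1.Prime
  hr2 : r2.Prime
  hr : r1 ≠ r2
  hy1 : y1 ∉ center G
  hy2 : y2 ∉ center G
  hp1 : PEl r1 y1
  hp2 : PEl r2 y2
  hC1 : C y1 = H
  hC2 : C y2 = H
  hH : Nat.card H = c2

variable {H : Subgroup G} {y1 y2 : G} {r1 r2 : ℕ}

theorem SCtx.symm (S : SCtx G c1 c2 H y1 y2 r1 r2) : SCtx G c1 c2 H y2 y1 r2 r1 :=
  ⟨S.h, S.hr2, S.hr1, S.hr.symm, S.hy2, S.hy1, S.hp2, S.hp1, S.hC2, S.hC1, S.hH⟩

theorem SCtx.mul (S : SCtx G c1 c2 H y1 y2 r1 r2) {g : G} (hg : g ∈ H) (hco : (orderOf g).Coprime r1) :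
    C (g * y1) = H ⊓ C g ∧ g * y1 ∉ center G := by
  have hcomm : g * y1 = y1 * g := mem_C.1 (S.hC1.symm ▸ hg)
  have hco' := (S.hp1.coprime S.hr1 hco).symm
  refine ⟨by rw [C_mul hcomm hco', S.hC1, inf_comm], ?_⟩
  rw [hcomm]
  exact mul_notMem_center hcomm.symm hco'.symm S.hy1

theorem SCtx.one (S : SCtx G c1 c2 H y1 y2 r1 r2) {k : ℕ} (hk : k.Prime) {g : G} (hg : g ∈ H) (hgk : PEl k g)
    (hne : ¬ H ≤ C g) : Nat.card (H ⊓ C g : Subgroup G) = c1 := by
  have key : ∀ {y1 y2 : G} {r1 r2 : ℕ}, SCtx G c1 c2 H y1 y2 r1 r2 → k ≠ r1 → Nat.card (H ⊓ C g : Subgroup G) = c1 := by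
    intro y1 y2 r1 r2 S hkr
    obtain ⟨h1, h2⟩ := S.mul hg (hgk.coprime' S.hr1 hk hkr.symm)
    rcases S.h.h _ h2 with h3 | h3
    · rw [← h1]; exact h3
    · exfalso
      rw [h1] at h3
      exact hne (inf_eq_left.1 (eq_of_le_of_card_le inf_le_left (by rw [S.hH, h3])))
  by_cases hk1 : k = r1
  · exact key S.symm (hk1 ▸ S.hr)
  · exact key S hk1

theorem SCtx.two (S : SCtx G c1 c2 H y1 y2 r1 r2) {v : G} (hv : v ∉ center G) (hle : H ≤ C v) : C v = H :=
  (S.h.max hv S.hH hle).symm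

theorem SCtx.D (S : SCtx G c1 c2 H y1 y2 r1 r2) {p : ℕ} (hp : p.Prime) {u : G} (hu : u ∈ H) (hup : PEl p u)
    (hne : ¬ H ≤ C u) {k : ℕ} (hk : k.Prime) (hkp : k ≠ p) : Dk (H ⊓ C u) k := by
  have hcard := S.one hp hu hup hne
  have key : ∀ {y1 y2 : G} {r1 r2 : ℕ}, SCtx G c1 c2 H y1 y2 r1 r2 → p ≠ r1 → Dk (H ⊓ C u) k := by
    intro y1 y2 r1 r2 S hpr
    obtain ⟨h1, h2⟩ := S.mul hu (hup.coprime' S.hr1 hp hpr.symm)
    have huy : u * y1 = y1 * u := mem_C.1 (S.hC1.symm ▸ hu)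
    have hup' : (orderOf u).Coprime k := hup.coprime' hk hp hkp
    by_cases hkr : k = r1
    · by_cases hpr2 : p = r2
      · obtain ⟨l, hl, hld, hlp, hlk⟩ := S.h.third p k
        have : Fact l.Prime := ⟨hl⟩
        obtain ⟨v, hv, hvl, hvc⟩ := S.h.N1 hld h2
        have hvA := hv
        rw [h1] at hvA
        have hco2 : (orderOf (u * y1)).Coprime l := coprime_mul huy (hup.coprime' hl hp hlp)
          (S.hp1.coprime' hl S.hr1 (hkr ▸ hlk))
        have hle := S.h.star h2 (by rw [h1]; exact hcard) hv (hvl.coprime hl hco2).symm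
        rw [h1] at hle
        have huv : u * v = v * u := (mem_C.1 hvA.2).symm
        by_cases hHv : H ≤ C v
        · have hCv := S.two hvc hHv
          have hco3 := PEl.coprime2 hp hl hlp.symm hup hvl
          refine ⟨u * v, ?_, ?_, coprime_mul huv hup' (hvl.coprime' hk hl hlk.symm)⟩
          · rw [huv]; exact mul_notMem_center huv.symm hco3.symm hvc
          · rw [C_mul huv hco3, hCv, inf_comm]
        · have hcv := S.one hl hvA.1 hvl hHv
          have heq : H ⊓ C u = H ⊓ C v := eq_of_le_of_card_le (le_inf inf_le_left hle) (by rw [hcard, hcv])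
          obtain ⟨h3, h4⟩ := S.symm.mul hvA.1 (hvl.coprime' S.hr2 hl (hpr2 ▸ hlp.symm))
          have hvy : v * y2 = y2 * v := mem_C.1 (S.hC2.symm ▸ hvA.1)
          refine ⟨v * y2, h4, by rw [h3, heq], coprime_mul hvy (hvl.coprime' hk hl hlk.symm) (S.hp2.coprime' hk S.hr2 ?_)⟩
          rw [hkr]; exact S.hr
      · obtain ⟨h3, h4⟩ := S.symm.mul hu (hup.coprime' S.hr2 hp (Ne.symm hpr2))
        have huy2 : u * y2 = y2 * u := mem_C.1 (S.hC2.symm ▸ hu)
        exact ⟨u * y2, h4, h3, coprime_mul huy2 hup' (S.hp2.coprime' hk S.hr2 (hkr ▸ S.hr))⟩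
    · exact ⟨u * y1, h2, h1, coprime_mul huy hup' (S.hp1.coprime' hk S.hr1 hkr)⟩
  by_cases hp1 : p = r1
  · exact key S.symm (hp1 ▸ S.hr)
  · exact key S hp1

theorem mem_centralizer_iff_le {A : Subgroup G} {x : G} : x ∈ centralizer (A : Set G) ↔ A ≤ C x := by
  rw [Subgroup.mem_centralizer_iff]
  exact ⟨fun h a ha => mem_C.2 (h a ha), fun h a ha => mem_C.1 (h ha)⟩

theorem ne_of_coprime {p k : ℕ} (hk : k.Prime) {w : G} (hw : w ≠ 1) (hwk : PEl k w) (hco : (orderOf w).Coprime p) :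
    k ≠ p := by
  rintro rfl
  obtain ⟨a, ha⟩ := hwk
  have h1 : a ≠ 0 := by
    rintro rfl
    rw [pow_zero, orderOf_eq_one_iff] at ha
    exact hw ha
  rw [ha, Nat.coprime_pow_left_iff (Nat.pos_of_ne_zero h1)] at hco
  exact hk.one_lt.ne' ((Nat.coprime_self k).1 hco)

theorem SCtx.three (S : SCtx G c1 c2 H y1 y2 r1 r2) {x : G} (hx : x ∈ H) (hne : ¬ H ≤ C x) :
    Nat.card (H ⊓ C x : Subgroup G) = c1 := by
  have h1 : x ∉ centralizer (H : Set G) := fun h => hne (mem_centralizer_iff_le.1 h)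
  obtain ⟨p, hp, u, hu, huK, hup⟩ := exists_prim' _ _ x rfl h1
  obtain ⟨u', v', huv, -, hu', hv', hup', hvp'⟩ := parts hp x
  have hcomm : u' * v' = v' * u' := by
    obtain ⟨i, hi⟩ := mem_zpowers_iff.1 hu'
    obtain ⟨j, hj⟩ := mem_zpowers_iff.1 hv'
    rw [← hi, ← hj, ← zpow_add, ← zpow_add, add_comm]
  have hu'K : ¬ H ≤ C u' := by
    intro hle
    apply huK
    rw [← mem_centralizer_iff_le] at hle
    obtain ⟨i, hi⟩ := mem_zpowers_iff.1 hu
    rw [← huv, (show Commute u' v' from hcomm).mul_zpow] at hi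
    have h2 : v' ^ i = 1 := by
      have h3 : v' ^ i = u'^ (-i) * u := by rw [← hi, ← mul_assoc, ← zpow_add, neg_add_cancel, zpow_zero, one_mul]
      have h4 : u ∈ zpowers x := hu
      have h5 : PEl p (u' ^ (-i)) := by
        obtain ⟨a, ha⟩ := hup'
        have : orderOf (u' ^ (-i)) ∣ p ^ a := ha ▸ orderOf_dvd_of_mem_zpowers (zpow_mem (mem_zpowers u') _)
        obtain ⟨b, -, hb⟩ := (Nat.dvd_prime_pow hp).1 this
        exact ⟨b, hb⟩
      have h6 : PEl p (v' ^ i) := by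
        rw [h3]
        obtain ⟨a, ha⟩ := h5
        obtain ⟨b, hb⟩ := hup
        have h7 : Commute (u' ^ (-i)) u := by
          obtain ⟨j, hj⟩ := mem_zpowers_iff.1 hu
          obtain ⟨j', hj'⟩ := mem_zpowers_iff.1 hu'
          rw [← hj, ← hj']
          exact ((Commute.refl x).zpow_zpow j' j).zpow_left _
        have h8 := h7.orderOf_mul_dvd_mul_orderOf
        rw [ha, hb, ← pow_add] at h8
        obtain ⟨d, -, hd⟩ := (Nat.dvd_prime_pow hp).1 h8
        exact ⟨d, hd⟩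
      by_contra hne1
      have h9 : (orderOf (v' ^ i)).Coprime p :=
        Nat.Coprime.coprime_dvd_left (orderOf_dvd_of_mem_zpowers (zpow_mem (mem_zpowers v') _)) hvp'
      exact ne_of_coprime hp hne1 h6 h9 rfl
    rw [h2, mul_one] at hi
    rw [← hi]
    exact zpow_mem hle i
  have hu'H : u' ∈ H := (zpowers_le.2 hx) hu'
  have hv'H : v' ∈ H := (zpowers_le.2 hx) hv'
  have hcard := S.one hp hu'H hup' hu'K
  have hAv : H ⊓ C u' ≤ C v' := by
    rw [← mem_centralizer_iff_le]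
    by_contra hcon
    obtain ⟨k, hk, w, hw, hwK, hwk⟩ := exists_prim' _ _ v' rfl hcon
    have hw1 : w ≠ 1 := fun h => hwK (h ▸ one_mem _)
    have hkp : k ≠ p := ne_of_coprime hk hw1 hwk
      (Nat.Coprime.coprime_dvd_left (orderOf_dvd_of_mem_zpowers hw) hvp')
    apply hwK
    rw [mem_centralizer_iff_le]
    have hv'C : v' ∈ C u' := mem_C.2 hcomm.symm
    exact S.h.Dk_star hcard hk (S.D hp hu'H hup' hu'K hk hkp)
      ((zpowers_le.2 (show v' ∈ H ⊓ C u' from ⟨hv'H, hv'C⟩)) hw) hwk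
  have heq : H ⊓ C x = H ⊓ C u' := by
    apply le_antisymm
    · exact le_inf inf_le_left (inf_le_right.trans (C_le_of_mem_zpowers hu'))
    · refine le_inf inf_le_left ?_
      rw [← huv]
      exact le_C_mul inf_le_right hAv
  rw [heq]; exact hcard

/-- the centre of `H` -/
def ZH (H : Subgroup G) : Subgroup G := H ⊓ centralizer (H : Set G)

theorem cen_ZH (H : Subgroup G) : Cen H (ZH H) :=
  ⟨inf_le_left, fun z hz x hx => (Subgroup.mem_centralizer_iff.1 hz.2 x hx).symm⟩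

theorem notMem_ZH {H : Subgroup G} {x : G} (hx : x ∈ H) : x ∉ ZH H ↔ ¬ H ≤ C x := by
  rw [ZH, mem_inf, mem_centralizer_iff_le]
  tauto

theorem cen_inf_ZH {x : G} (hx : x ∈ H) : Cen (H ⊓ C x) (ZH H) :=
  (cen_ZH H).mono inf_le_left (le_inf inf_le_left (fun z hz => mem_C.2 ((cen_ZH H).comm z hz x hx)))

theorem SCtx.el (S : SCtx G c1 c2 H y1 y2 r1 r2) {x : G} (hx : x ∈ H) (hxZ : x ∉ ZH H) {k : ℕ} [Fact k.Prime] :
    (∃ v ∈ H ⊓ C x, PEl k v ∧ v ∉ ZH H) ↔ lp k (Nat.card (ZH H)) < lp k c1 := by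
  rw [exists_el_iff (cen_inf_ZH hx), S.three hx ((notMem_ZH hx).1 hxZ)]

theorem SCtx.AB' (S : SCtx G c1 c2 H y1 y2 r1 r2) {p l : ℕ} [hp : Fact p.Prime] [hl : Fact l.Prime] (hpl : p ≠ l)
    (h1 : lp l (Nat.card (ZH H)) < lp l c1) : AB H (ZH H) p c1 := by
  intro x hx hxp hxZ
  have hne := (notMem_ZH hx).1 hxZ
  have hcard := S.three hx hne
  refine ⟨?_, hcard⟩
  obtain ⟨w, hw, hwl, hwZ⟩ := (S.el hx hxZ).2 h1
  have hAw := S.h.Dk_star hcard hl.out (S.D hp.out hx hxp hne hl.out hpl.symm) hw hwl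
  have hwne := (notMem_ZH hw.1).1 hwZ
  have heq : H ⊓ C x = H ⊓ C w := eq_of_le_of_card_le (le_inf inf_le_left hAw) (by rw [hcard, S.three hw.1 hwne])
  have hab := S.h.abel_of_D hcard (by
    intro k hk
    by_cases hkp : k = p
    · rw [heq]
      exact S.D hl.out hw.1 hwl hwne hk (hkp ▸ hpl)
    · exact S.D hp.out hx hxp hne hk hkp)
  intro a ha b hb
  exact mem_C.1 (hab b hb ha)

theorem SCtx.false (S : SCtx G c1 c2 H y1 y2 r1 r2) {x : G} (hx : x ∈ H) (hne : ¬ H ≤ C x) : False := by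
  have h1 : x ∉ centralizer (H : Set G) := fun h => hne (mem_centralizer_iff_le.1 h)
  obtain ⟨p, hp, u, hu, huK, hup⟩ := exists_prim' _ _ x rfl h1
  have hpf : Fact p.Prime := ⟨hp⟩
  have huH : u ∈ H := (zpowers_le.2 hx) hu
  have hune : ¬ H ≤ C u := fun h => huK (mem_centralizer_iff_le.2 h)
  have huZ : u ∉ ZH H := (notMem_ZH huH).2 hune
  have hpp : lp p (Nat.card (ZH H)) < lp p c1 := (S.el huH huZ).1 ⟨u, ⟨huH, self_mem u⟩, hup, huZ⟩
  by_cases hcase : ∃ l, l.Prime ∧ l ≠ p ∧ lp l (Nat.card (ZH H)) < lp l c1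
  · obtain ⟨l, hl, hlp, hlt⟩ := hcase
    have hlf : Fact l.Prime := ⟨hl⟩
    have hs := S.AB' (p := p) (l := l) hlp.symm hlt
    have hq := S.AB' (p := l) (l := p) hlp hpp
    have hEu : El H (ZH H) p l u := ⟨huH, huZ, Or.inl hup⟩
    have hcov : H ⊓ C u = H := by
      apply eq_of_cover inf_le_left
      intro y hy
      by_cases hyZ : y ∈ ZH H
      · exact ⟨1, one_mem _, by simpa using (cen_inf_ZH huH).le hyZ⟩
      obtain ⟨v, hv, hvp, hvZ⟩ := (S.el hy hyZ).2 hpp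
      obtain ⟨g, hg, hgv⟩ := ab_conj hlp.symm (cen_ZH H) hs hq
        (fun a ha => (S.el ha.1 ha.2.1).2 hpp) (fun a ha => (S.el ha.1 ha.2.1).2 hlt) hEu
        (w := v) ⟨hv.1, hvZ, Or.inl hvp⟩
      refine ⟨g⁻¹, inv_mem hg, ?_⟩
      rw [inv_inv, ← hgv, inf_C_conj hg]
      exact conj_mem_cj ⟨hy, mem_C_comm.1 hv.2⟩
    exact hune (inf_eq_left.1 hcov)
  · push Not at hcase
    have hall : ∀ l, l.Prime → l ≠ p → lp l c1 = lp l c2 := by
      intro l hl hlp
      have hlf : Fact l.Prime := ⟨hl⟩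
      have h2 := hcase l hl hlp
      have h3 : ¬ ∃ v ∈ H, PEl l v ∧ v ∉ ZH H := by
        rintro ⟨v, hv, hvl, hvZ⟩
        have := (S.el hv hvZ).1 ⟨v, ⟨hv, self_mem v⟩, hvl, hvZ⟩
        omega
      rw [exists_el_iff (cen_ZH H), S.hH, not_lt] at h3
      have h4 : lp l (Nat.card (ZH H)) ≤ lp l c1 := by
        rw [← S.three huH hune]
        exact lp_le_of_dvd hl Nat.card_pos.ne' (card_dvd_of_le (cen_inf_ZH huH).le)
      have h5 := lp_le_of_dvd hl S.h.pos2.ne' S.h.dvd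
      omega
    obtain ⟨s, hs, hsd, hsp, -⟩ := S.h.third p p
    obtain ⟨q, hq, hqd, hqp, hqs⟩ := S.h.third p s
    exact S.h.N2 hs hq hqs.symm hsd hqd (hall s hs hsp) (hall q hq hqp)

/-- N3, first part -/
theorem Ctx.single (h : Ctx G c1 c2) {x y1 y2 : G} {r1 r2 : ℕ} (hr1 : r1.Prime) (hr2 : r2.Prime) (hx : x ∉ center G)
    (hy1 : y1 ∉ center G) (hy2 : y2 ∉ center G) (hp1 : PEl r1 y1) (hp2 : PEl r2 y2) (hlt : C x < C y1)
    (he : C y1 = C y2) : r1 = r2 := by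
  by_contra hne
  have S : SCtx G c1 c2 (C y1) y1 y2 r1 r2 :=
    ⟨h, hr1, hr2, hne, hy1, hy2, hp1, hp2, rfl, he.symm, (h.card_of_lt hx hy1 hlt).2⟩
  exact S.false (hlt.le (self_mem x)) (fun hle => hlt.not_ge hle)

/-- two primary elements -/
theorem Ctx.pair (h : Ctx G c1 c2) {x a b : G} (hx : x ∉ center G) (hc : Nat.card (C x) = c1) {p q : ℕ} (hp : p.Prime)
    (hq : q.Prime) (hpq : p ≠ q) (ha : a ∉ center G) (hb : b ∉ center G) (hap : PEl p a) (hbq : PEl q b)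
    (hxa : C x ≤ C a) (hxb : C x ≤ C b) (hab : a * b = b * a) : C (a * b) = C x ∧ a * b ∉ center G := by
  have hco := PEl.coprime2 hp hq hpq hap hbq
  have h1 := mul_notMem_center hab hco ha
  have h2 : C x ≤ C (a * b) := by rw [C_mul hab hco]; exact le_inf hxa hxb
  refine ⟨?_, h1⟩
  rcases h.h _ h1 with h3 | h3
  · exact (h.min hx h3 h2).symm
  · exfalso
    have h4 : C (a * b) = C a := h.max ha h3 (by rw [C_mul hab hco]; exact inf_le_left)
    have h5 : C (a * b) = C b := h.max hb h3 (by rw [C_mul hab hco]; exact inf_le_right)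
    have h6 : C x < C a := by
      refine lt_of_le_of_ne hxa (fun h7 => ?_)
      have := h.lt
      rw [h7, ← h4, h3] at hc
      omega
    exact hpq (h.single hp hq hx ha hb hap hbq h6 (h4 ▸ h5))

/-- N3, second part -/
theorem Ctx.abel (h : Ctx G c1 c2) {x : G} (hx : x ∉ center G) (hc : Nat.card (C x) = c1) : ∀ a ∈ C x, C x ≤ C a := by
  have step : ∃ p q : ℕ, p.Prime ∧ q.Prime ∧ p ≠ q ∧ ∃ a b : G, a ∉ center G ∧ b ∉ center G ∧ PEl p a ∧ PEl q b ∧
      C x ≤ C a ∧ C x ≤ C b ∧ a ∈ C x ∧ b ∈ C x := by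
    obtain ⟨p, hp, u, hu, huc, hup⟩ := exists_prim _ x rfl hx
    obtain ⟨u', v', huv, hvu, hu', hv', hup', hvp'⟩ := parts hp x
    by_cases hv'c : v' ∈ center G
    · have hu'c : u' ∉ center G := fun h1 => hx (huv ▸ mul_mem h1 hv'c)
      have hC : C x = C u' := by
        apply le_antisymm (C_le_of_mem_zpowers hu')
        rw [← huv]
        exact le_C_mul le_rfl (by rw [C_eq_top hv'c]; exact le_top)
      obtain ⟨l, hl, hld, hlp, -⟩ := h.third p p
      have : Fact l.Prime := ⟨hl⟩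
      obtain ⟨v, hv, hvl, hvc⟩ := h.N1 hld hx
      have h3 := h.star hu'c (hC ▸ hc) (hC ▸ hv) (PEl.coprime2 hp hl hlp.symm hup' hvl)
      exact ⟨p, l, hp, hl, hlp.symm, u', v, hu'c, hvc, hup', hvl, hC.le, hC ▸ h3, (zpowers_le.2 (self_mem x)) hu', hv⟩
    · obtain ⟨q, hq, w, hw, hwc, hwq⟩ := exists_prim _ v' rfl hv'c
      have hw1 : w ≠ 1 := fun h => hwc (h ▸ one_mem _)
      have hqp : q ≠ p := ne_of_coprime hq hw1 hwq
        (Nat.Coprime.coprime_dvd_left (orderOf_dvd_of_mem_zpowers hw) hvp')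
      have hwx : w ∈ zpowers x := (zpowers_le.2 hv') hw
      exact ⟨p, q, hp, hq, hqp.symm, u, w, huc, hwc, hup, hwq, C_le_of_mem_zpowers hu, C_le_of_mem_zpowers hwx,
        (zpowers_le.2 (self_mem x)) hu, (zpowers_le.2 (self_mem x)) hwx⟩
  obtain ⟨p, q, hp, hq, hpq, a, b, ha, hb, hap, hbq, hxa, hxb, hax, hbx⟩ := step
  have hab : a * b = b * a := mem_C.1 (hxb hax)
  obtain ⟨h1, h2⟩ := h.pair hx hc hp hq hpq ha hb hap hbq hxa hxb hab
  obtain ⟨l, hl, hld, hlp, hlq⟩ := h.third p q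
  have : Fact l.Prime := ⟨hl⟩
  obtain ⟨v, hv, hvl, hvc⟩ := h.N1 hld hx
  have hxv : C x ≤ C v := by
    rw [← h1]
    refine h.star h2 (by rw [h1]; exact hc) (by rw [h1]; exact hv) ?_
    exact (hvl.coprime hl (coprime_mul hab (hap.coprime' hl hp hlp) (hbq.coprime' hl hq hlq))).symm
  have hav : a * v = v * a := mem_C.1 (hxv hax)
  have hbv : b * v = v * b := mem_C.1 (hxv hbx)
  obtain ⟨h3, h4⟩ := h.pair hx hc hp hl hlp.symm ha hvc hap hvl hxa hxv hav
  obtain ⟨h5, h6⟩ := h.pair hx hc hq hl hlq.symm hb hvc hbq hvl hxb hxv hbv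
  apply h.abel_of_D hc
  intro k hk
  by_cases hkp : k = p
  · subst hkp
    exact ⟨b * v, h6, h5, coprime_mul hbv (hbq.coprime' hk hq hpq) (hvl.coprime' hk hl hlp.symm)⟩
  by_cases hkq : k = q
  · subst hkq
    exact ⟨a * v, h4, h3, coprime_mul hav (hap.coprime' hk hp hkp) (hvl.coprime' hk hl hlq.symm)⟩
  · exact ⟨a * b, h2, h1, coprime_mul hab (hap.coprime' hk hp hkp) (hbq.coprime' hk hq hkq)⟩

end Cfsg.Agent.Lib.H9Ito
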