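import Mathlib
import Cfsg.Agent.Lib.H9ItoE

/-!
(helper9) Three class sizes, nested case: two primes not belonging to nested centralizers.
-/

set_option autoImplicit false
set_option linter.unusedSectionVars false
set_option linter.unusedVariables false

namespace Cfsg.Agent.Lib.H9Ito

open Subgroup Cfsg.Agent.Lib.CSP Cfsg.Agent.Lib.CFSylow

variable {G : Type*} [Group G] [Finite G] {c1 c2 : ℕ}

/-- no nested centralizer of an `s`-element -/
def NN (G : Type*) [Group G] (s : ℕ) : Prop := ∀ x y : G, x ∉ center G → y ∉ center G → PEl s y → ¬ C x < C y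

structure Six (G : Type*) [Group G] [Finite G] (c1 c2 s q : ℕ) : Prop where
  h : Ctx G c1 c2
  hs : s.Prime
  hq : q.Prime
  hsq : s ≠ q
  hsd : s ∣ (center G).index
  hqd : q ∣ (center G).index
  hNs : NN G s
  hNq : NN G q

variable {s q : ℕ}

theorem Six.symm (S : Six G c1 c2 s q) : Six G c1 c2 q s :=
  ⟨S.h, S.hq, S.hs, S.hsq.symm, S.hqd, S.hsd, S.hNq, S.hNs⟩

theorem NN.eq {s : ℕ} (hN : NN G s) {w g : G} (hw : w ∉ center G) (hws : PEl s w) (hg : g ∈ C w)
    (hco : (orderOf w).Coprime (orderOf g)) : C w ≤ C g := by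
  have hcomm : w * g = g * w := (mem_C.1 hg).symm
  have h1 := mul_notMem_center hcomm hco hw
  have h2 : C (w * g) ≤ C w := by rw [C_mul hcomm hco]; exact inf_le_left
  have h3 : C (w * g) = C w := by
    by_contra hne
    exact hN _ _ h1 hw hws (lt_of_le_of_ne h2 hne)
  rw [C_mul hcomm hco, inf_eq_left] at h3
  exact h3

theorem Six.comm (S : Six G c1 c2 s q) {w v : G} (hw : w ∉ center G) (hws : PEl s w) (hv : v ∉ center G) (hvq : PEl q v)
    (hvw : v ∈ C w) : C w = C v := by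
  have hco := PEl.coprime2 S.hs S.hq S.hsq hws hvq
  exact le_antisymm (S.hNs.eq hw hws hvw hco) (S.hNq.eq hv hvq (mem_C_comm.1 hvw) hco.symm)

theorem Six.ab_s (S : Six G c1 c2 s q) {w : G} (hw : w ∉ center G) (hws : PEl s w) : ∀ g ∈ C w, C w ≤ C g := by
  have : Fact q.Prime := ⟨S.hq⟩
  obtain ⟨v, hv, hvq, hvc⟩ := S.h.N1 S.hqd hw
  have he := S.comm hw hws hvc hvq hv
  intro g hg
  rw [← mem_centralizer_iff_le]
  by_contra hcon
  obtain ⟨k, hk, g', hg', hgK, hgk⟩ := exists_prim' _ _ g rfl hcon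
  apply hgK
  rw [mem_centralizer_iff_le]
  have hg'w : g' ∈ C w := (zpowers_le.2 hg) hg'
  by_cases hks : k = s
  · rw [he] at hg'w ⊢
    exact S.hNq.eq hvc hvq hg'w (PEl.coprime2 S.hq hk (hks ▸ S.hsq.symm) hvq hgk)
  · exact S.hNs.eq hw hws hg'w (PEl.coprime2 S.hs hk (Ne.symm hks) hws hgk)

/-- relevant elements -/
def E (s q : ℕ) (w : G) : Prop := w ∉ center G ∧ (PEl s w ∨ PEl q w)

theorem E.symm {s q : ℕ} {w : G} (h : E s q w) : E q s w := ⟨h.1, h.2.symm⟩

theorem Six.ab (S : Six G c1 c2 s q) {w : G} (hw : E s q w) : ∀ g ∈ C w, C w ≤ C g := by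
  rcases hw.2 with h | h
  · exact S.ab_s hw.1 h
  · exact S.symm.ab_s hw.1 h

theorem Six.eq (S : Six G c1 c2 s q) {w a : G} (hw : E s q w) (ha : E s q a) (haw : a ∈ C w) : C a = C w :=
  le_antisymm (S.ab ha w (mem_C_comm.1 haw)) (S.ab hw a haw)

theorem E.conj {s q : ℕ} {w : G} (h : E s q w) (g : G) : E s q (g * w * g⁻¹) :=
  ⟨cen_top.conj_notMem (mem_top g) h.1, h.2.imp (fun h => h.conj g) (fun h => h.conj g)⟩

theorem Six.exists_s (S : Six G c1 c2 s q) {x : G} (hx : x ∉ center G) : ∃ v ∈ C x, PEl s v ∧ v ∉ center G := by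
  have : Fact s.Prime := ⟨S.hs⟩
  exact S.h.N1 S.hsd hx

/-- `w` and `u` have conjugate centralizers -/
def Cj (w u : G) : Prop := ∃ g : G, C (g * w * g⁻¹) = C u

theorem C_conj_eq (g w : G) : C (g * w * g⁻¹) = cj g (C w) := by
  have := inf_C_conj (X := (⊤ : Subgroup G)) (mem_top g) w
  rwa [top_inf_eq, top_inf_eq] at this

theorem Cj.symm {w u : G} (h : Cj w u) : Cj u w := by
  obtain ⟨g, hg⟩ := h
  refine ⟨g⁻¹, ?_⟩
  rw [C_conj_eq, ← hg, C_conj_eq, cj_inv_cj]

theorem Cj.trans {w u v : G} (h : Cj w u) (h' : Cj u v) : Cj w v := by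
  obtain ⟨g, hg⟩ := h
  obtain ⟨g', hg'⟩ := h'
  refine ⟨g' * g, ?_⟩
  rw [C_conj_eq, ← cj_cj, ← C_conj_eq, hg, ← C_conj_eq, hg']

theorem Cj.card {w u : G} (h : Cj w u) : Nat.card (C w) = Nat.card (C u) := by
  obtain ⟨g, hg⟩ := h
  rw [← hg, C_conj_eq, card_cj]

/-- the two inequalities for a good element -/
theorem Six.good (S : Six G c1 c2 s q) [Fact s.Prime] [Fact q.Prime] {P : Subgroup G} (hP : SylIn s P ⊤) {u : G}
    (hu : Good P (center G) u) :
    E s q u ∧ lp s (Nat.card G) * lp q (Nat.card (center G)) < lp s (Nat.card (C u)) * lp q (Nat.card (C u)) ∧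
    ∀ w, E s q w → ¬ Cj w u → lp s (Nat.card (C u)) * lp s (Nat.card (C w)) ≤ lp s (Nat.card G) * lp s (Nat.card (center G)) := by
  have hus : PEl s u := PEl.of_mem hP.isPGroup hu.1
  have hE : E s q u := ⟨hu.2.1, Or.inl hus⟩
  have hXG : Nat.card (⊤ : Subgroup G) = Nat.card G := card_top
  refine ⟨hE, ?_, ?_⟩
  · obtain ⟨Q, hQ⟩ := exists_sylIn q ((⊤ : Subgroup G) ⊓ C u)
    obtain ⟨v, hv, hvq, hvc⟩ := S.symm.exists_s hu.2.1
    have h1 := hu.lt S.hsq cen_top hP hQ ((hu.norm cen_top hP.le).trans (ab_inv (by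
      rw [top_inf_eq]
      intro a ha b hb
      exact mem_C.1 (S.ab hE b hb ha)) hQ)) (by
      intro g hg w hw hwq hwc he
      rw [top_inf_eq] at hw
      rw [← S.eq hE ⟨hwc, Or.inr hwq⟩ hw]
      exact mem_C.2 he) (v := v) (by rw [top_inf_eq]; exact hv) hvq hvc
    rw [top_inf_eq, hXG] at h1
    exact h1
  · intro w hw hcj
    by_contra hcon
    obtain ⟨w0, hw0, hw0s, hw0c⟩ := S.exists_s hw.1
    have hEw0 : E s q w0 := ⟨hw0c, Or.inl hw0s⟩
    have he := S.eq hw hEw0 hw0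
    obtain ⟨g, -, c, hcs, hcZ, hcu, hcw⟩ := hu.meet cen_top hP (w := w) (by
      rw [top_inf_eq, top_inf_eq, hXG]; omega)
    rw [top_inf_eq] at hcu
    have hEc : E s q c := ⟨hcZ, Or.inl hcs⟩
    apply hcj
    exact ⟨g, by rw [← S.eq (hw.conj g) hEc hcw, S.eq hE hEc hcu]⟩

theorem num2 {Gs Gq zs zq a a' b b' : ℕ} (hzs : 0 < zs) (hzq : 0 < zq) (ha : 0 < a) (hb' : 0 < b')
    (h1 : a * b ≤ Gs * zs) (h2 : b' * a' ≤ Gq * zq) (h3 : Gs * zq < a * a') (h4 : Gq * zs < b' * b) : False := by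
  have h5 : b * zq < a' * zs := by
    have h6 : a * b * zq ≤ Gs * zs * zq := Nat.mul_le_mul_right _ h1
    have h7 : Gs * zq * zs < a * a' * zs := Nat.mul_lt_mul_of_pos_right h3 hzs
    have h8 : a * (b * zq) < a * (a' * zs) := by nlinarith
    exact Nat.lt_of_mul_lt_mul_left h8
  have h5' : a' * zs < b * zq := by
    have h6 : b' * a' * zs ≤ Gq * zq * zs := Nat.mul_le_mul_right _ h2
    have h7 : Gq * zs * zq < b' * b * zq := Nat.mul_lt_mul_of_pos_right h4 hzq
    have h8 : b' * (a' * zs) < b' * (b * zq) := by nlinarith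
    exact Nat.lt_of_mul_lt_mul_left h8
  omega

theorem exists_good' [hs : Fact s.Prime] (hsd : s ∣ (center G).index) {P : Subgroup G}
    (hP : SylIn s P ⊤) : ∃ u, Good P (center G) u := by
  obtain ⟨u0, -, hu0c, hu0⟩ := exists_rel (H := (⊤ : Subgroup G)) hs.out (by rw [relIndex_top_right]; exact hsd)
  obtain ⟨u, huS, huZ, hug⟩ := exists_good (Z := center G) (S := P) (fun z hz g _ => (mem_center_iff.1 hz g).symm) hP.isPGroup
    (not_le_center (Z := center G) cen_top hP (mem_top u0) hu0 hu0c)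
  exact ⟨u, huS, huZ, hug⟩

/-- N6b -/
theorem Six.types (S : Six G c1 c2 s q) [Fact s.Prime] [Fact q.Prime] {P : Subgroup G} (hP : SylIn s P ⊤) {u : G}
    (hu : Good P (center G) u) : Nat.card (C u) = c2 ∧ ∃ w : G, E s q w ∧ Nat.card (C w) = c1 := by
  obtain ⟨Q, hQ⟩ := exists_sylIn q (⊤ : Subgroup G)
  obtain ⟨u', hu'⟩ := exists_good' S.hqd hQ
  obtain ⟨hE, h1, h2⟩ := S.good hP hu
  obtain ⟨hE', h1', h2'⟩ := S.symm.good hQ hu'
  have hzs := lp_pos S.hs (Nat.card (center G))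
  have hzq := lp_pos S.hq (Nat.card (center G))
  have hcj : Cj u' u := by
    by_contra hcon
    have h3 := h2 u' hE'.symm hcon
    have h4 := h2' u hE.symm (fun h => hcon h.symm)
    exact num2 hzs hzq (lp_pos S.hs _) (lp_pos S.hq _) h3 h4 h1 h1'
  have hcard := hcj.card
  rw [hcard] at h1' h2'
  have hex : ∃ w, E s q w ∧ ¬ Cj w u := by
    by_contra hcon
    push Not at hcon
    apply hu.2.1
    apply mem_center_of_C_top
    apply eq_of_cover le_top
    intro x _
    by_cases hx : x ∈ center G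
    · exact ⟨1, mem_top _, by simpa using CSP.center_le u hx⟩
    obtain ⟨v, hv, hvs, hvc⟩ := S.exists_s hx
    obtain ⟨g, hg⟩ := hcon v ⟨hvc, Or.inl hvs⟩
    refine ⟨g⁻¹, mem_top _, ?_⟩
    rw [inv_inv, ← hg]
    exact mem_C_conj.2 (mem_C_comm.1 hv)
  obtain ⟨w, hw, hwcj⟩ := hex
  have h3 := h2 w hw hwcj
  have h4 := h2' w hw.symm (fun h => hwcj (h.trans hcj))
  -- numbers
  have h5 : lp s (Nat.card (C w)) * lp q (Nat.card (center G)) < lp q (Nat.card (C u)) * lp s (Nat.card (center G)) := by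
    have h6 := Nat.mul_le_mul_right (lp q (Nat.card (center G))) h3
    have h7 := Nat.mul_lt_mul_of_pos_right h1 hzs
    have h8 : lp s (Nat.card (C u)) * (lp s (Nat.card (C w)) * lp q (Nat.card (center G))) <
      lp s (Nat.card (C u)) * (lp q (Nat.card (C u)) * lp s (Nat.card (center G))) := by nlinarith
    exact Nat.lt_of_mul_lt_mul_left h8
  have h5' : lp q (Nat.card (C w)) * lp s (Nat.card (center G)) < lp s (Nat.card (C u)) * lp q (Nat.card (center G)) := by
    have h6 := Nat.mul_le_mul_right (lp s (Nat.card (center G))) h4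
    have h7 := Nat.mul_lt_mul_of_pos_right h1' hzq
    have h8 : lp q (Nat.card (C u)) * (lp q (Nat.card (C w)) * lp s (Nat.card (center G))) <
      lp q (Nat.card (C u)) * (lp s (Nat.card (C u)) * lp q (Nat.card (center G))) := by nlinarith
    exact Nat.lt_of_mul_lt_mul_left h8
  have hls := lp_le_of_dvd S.hs S.h.pos2.ne' S.h.dvd
  have hlq := lp_le_of_dvd S.hq S.h.pos2.ne' S.h.dvd
  rcases S.h.h u hu.2.1 with hcu | hcu <;> rcases S.h.h w hw.1 with hcw | hcw
  · exfalso; rw [hcu, hcw] at h5 h5'; omega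
  · exfalso
    rw [hcu, hcw] at h5 h5'
    have h9 := Nat.mul_le_mul_right (lp q (Nat.card (center G))) hls
    have h10 := Nat.mul_le_mul_right (lp s (Nat.card (center G))) hlq
    omega
  · exact ⟨hcu, w, hw, hcw⟩
  · exfalso; rw [hcu, hcw] at h5 h5'; omega

end Cfsg.Agent.Lib.H9Ito
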