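import Cfsg.Agent.Lib.H9ItoC
import Cfsg.Agent.Lib.FrobDvd

/-!
# Three class sizes, nested case: counting with Frobenius' theorem (helper48, piece P1 of S3922)
-/

set_option autoImplicit false
set_option linter.unusedSectionVars false

namespace Cfsg.Agent.Lib.ItoCount48

open Subgroup Cfsg.Agent.Lib.CSP Cfsg.Agent.Lib.CFSylow Cfsg.Agent.Lib.H9Ito

variable {G : Type*} [Group G] [Finite G]

theorem cj_self {X : Subgroup G} {g : G} (hg : g ∈ X) : cj g X = X :=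
  CFSylow.mem_normalizer.1 (le_normalizer hg)

/-- all centralizers of primary `r'`-elements are conjugate -/
theorem conj_all {X Z : Subgroup G} (hc : Cen X Z) {r c : ℕ}
    (hab : ∀ l, l.Prime → l ≠ r → AB X Z l c)
    (hel : ∀ l, l.Prime → l ≠ r → l ∣ Z.relIndex X → ∀ l', l'.Prime → l' ≠ r → ∀ h ∈ X, PEl l' h → h ∉ Z →
      ∃ v ∈ X ⊓ C h, PEl l v ∧ v ∉ Z)
    {l1 l2 : ℕ} (h1 : l1.Prime) (h2 : l2.Prime) (h12 : l1 ≠ l2) (h1r : l1 ≠ r) (h2r : l2 ≠ r)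
    (h1d : l1 ∣ Z.relIndex X) (h2d : l2 ∣ Z.relIndex X)
    {l : ℕ} (hl : l.Prime) (hlr : l ≠ r) {u : G} (hu : u ∈ X) (hul : PEl l u) (huZ : u ∉ Z)
    {l' : ℕ} (hl' : l'.Prime) (hlr' : l' ≠ r) {w : G} (hw : w ∈ X) (hwl : PEl l' w) (hwZ : w ∉ Z) :
    ∃ g ∈ X, X ⊓ C (g * w * g⁻¹) = X ⊓ C u := by
  have : Fact l1.Prime := ⟨h1⟩
  have : Fact l2.Prime := ⟨h2⟩
  obtain ⟨v, hv, hv1, hvZ⟩ := hel l1 h1 h1r h1d l hl hlr u hu hul huZ
  obtain ⟨v', hv', hv1', hvZ'⟩ := hel l1 h1 h1r h1d l' hl' hlr' w hw hwl hwZ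
  have e1 : X ⊓ C v = X ⊓ C u :=
    AB.eq (hab l hl hlr) (hab l1 h1 h1r) ⟨hu, huZ, Or.inl hul⟩ ⟨hv.1, hvZ, Or.inr hv1⟩ hv.2
  have e2 : X ⊓ C v' = X ⊓ C w :=
    AB.eq (hab l' hl' hlr') (hab l1 h1 h1r) ⟨hw, hwZ, Or.inl hwl⟩ ⟨hv'.1, hvZ', Or.inr hv1'⟩ hv'.2
  have hes : ∀ h, El X Z l1 l2 h → ∃ v ∈ X ⊓ C h, PEl l1 v ∧ v ∉ Z := by
    rintro h ⟨a, b, c | c⟩
    · exact hel l1 h1 h1r h1d l1 h1 h1r h a c b
    · exact hel l1 h1 h1r h1d l2 h2 h2r h a c b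
  have heq : ∀ h, El X Z l1 l2 h → ∃ v ∈ X ⊓ C h, PEl l2 v ∧ v ∉ Z := by
    rintro h ⟨a, b, c | c⟩
    · exact hel l2 h2 h2r h2d l1 h1 h1r h a c b
    · exact hel l2 h2 h2r h2d l2 h2 h2r h a c b
  obtain ⟨g, hg, e3⟩ := ab_conj h12 hc (hab l1 h1 h1r) (hab l2 h2 h2r) hes heq
    (u := v) (w := v') ⟨hv.1, hvZ, Or.inl hv1⟩ ⟨hv'.1, hvZ', Or.inl hv1'⟩
  refine ⟨g, hg, ?_⟩
  rw [inf_C_conj hg, ← e2, ← inf_C_conj hg, e3, e1]

/-- the index of the normalizer is a power of `r` -/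
theorem norm_index {X Z : Subgroup G} (hc : Cen X Z) {r c : ℕ} (_hr : r.Prime)
    (hab : ∀ l, l.Prime → l ≠ r → AB X Z l c)
    (hel : ∀ l, l.Prime → l ≠ r → l ∣ Z.relIndex X → ∀ l', l'.Prime → l' ≠ r → ∀ h ∈ X, PEl l' h → h ∉ Z →
      ∃ v ∈ X ⊓ C h, PEl l v ∧ v ∉ Z)
    {l1 l2 : ℕ} (h1 : l1.Prime) (h2 : l2.Prime) (h12 : l1 ≠ l2) (h1r : l1 ≠ r) (h2r : l2 ≠ r)
    (h1d : l1 ∣ Z.relIndex X) (h2d : l2 ∣ Z.relIndex X)
    {l : ℕ} (hl : l.Prime) (hlr : l ≠ r) {u : G} (hu : u ∈ X) (hul : PEl l u) (huZ : u ∉ Z)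
    {k : ℕ} (hk : k.Prime) (hkr : k ≠ r) :
    ¬ k ∣ (X ⊓ normalizer ((X ⊓ C u : Subgroup G) : Set G)).relIndex X := by
  set N := X ⊓ normalizer ((X ⊓ C u : Subgroup G) : Set G) with hN
  have hZN : Z ≤ N := by
    refine le_inf hc.le (le_trans ?_ le_normalizer)
    exact le_inf hc.le (fun z hz => mem_C.2 (hc.comm z hz u hu))
  have hNX : N ≤ X := inf_le_left
  by_cases hkd : k ∣ Z.relIndex X
  · have : Fact k.Prime := ⟨hk⟩
    obtain ⟨K, hK⟩ := exists_sylIn k X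
    obtain ⟨v, hv, hvk, hvZ⟩ := hel k hk hkr hkd l hl hlr u hu hul huZ
    have hcomm : ∀ z ∈ Z, ∀ g ∈ K, z * g = g * z := fun z hz g hg => hc.comm z hz g (hK.le hg)
    obtain ⟨a, haK, haZ, hag⟩ := exists_good hcomm hK.isPGroup (not_le_center hc hK hv.1 hvk hvZ)
    have hgood : Good K Z a := ⟨haK, haZ, hag⟩
    obtain ⟨g, hg, hga⟩ := conj_all hc hab hel h1 h2 h12 h1r h2r h1d h2d hl hlr hu hul huZ hk hkr
      (hK.le haK) (PEl.of_mem hK.isPGroup haK) haZ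
    have h3 : cj g K ≤ N := by
      refine le_inf ?_ ?_
      · have := cj_mono (g := g) hK.le
        rwa [cj_self hg] at this
      · rw [← hga, inf_C_conj hg, ← cj_normalizer]
        exact cj_mono (hgood.norm hc hK.le)
    have h4 : SylIn k (cj g K) X := by
      have := hK.conj g
      rwa [cj_self hg] at this
    intro hdvd
    apply h4.not_dvd
    rw [← relIndex_mul_relIndex _ _ _ h3 hNX]
    exact Dvd.dvd.mul_left hdvd _
  · intro hdvd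
    apply hkd
    rw [← relIndex_mul_relIndex _ _ _ hZN hNX]
    exact Dvd.dvd.mul_left hdvd _

/-- the `k`-elements of an abelian subgroup -/
theorem card_PEl_ab {k : ℕ} [hk : Fact k.Prime] {B : Subgroup G} (hB : ∀ a ∈ B, ∀ b ∈ B, a * b = b * a) :
    Nat.card {x : G // x ∈ B ∧ PEl k x} = lp k (Nat.card B) := by
  obtain ⟨Q, hQ⟩ := exists_sylIn k B
  rw [← SylIn.card' hQ]
  apply Nat.card_congr
  refine Equiv.subtypeEquivRight fun x => ?_
  constructor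
  · rintro ⟨hx, hxk⟩
    obtain ⟨g, hg, hgQ⟩ := hQ.exists_conj_le hxk.isPGroup (zpowers_le.2 hx)
    have h1 : g * x * g⁻¹ ∈ Q := hgQ (conj_mem_cj (mem_zpowers x))
    rwa [hB g hg x hx, mul_assoc, mul_inv_cancel, mul_one] at h1
  · intro hx
    exact ⟨hQ.le hx, PEl.of_mem hQ.isPGroup hx⟩

/-- the number of `k`-elements of a subgroup is divisible by the `k`-part of its order -/
theorem lp_dvd_card {k : ℕ} (hk : k.Prime) (X : Subgroup G) :
    lp k (Nat.card X) ∣ Nat.card {x : G // x ∈ X ∧ PEl k x} := by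
  have h1 := FrobDvd.frobenius_dvd (G := X) (lp k (Nat.card X)) (lp_dvd _ _)
  convert h1 using 1
  apply Nat.card_congr
  refine ⟨fun x => ⟨⟨x.1, x.2.1⟩, ?_⟩, fun x => ⟨x.1, x.1.2, ?_⟩, fun x => rfl, fun x => rfl⟩
  · obtain ⟨j, hj⟩ := x.2.2
    apply orderOf_dvd_iff_pow_eq_one.1
    have h2 : orderOf (⟨x.1, x.2.1⟩ : X) = k ^ j := by rw [← hj]; exact (Subgroup.orderOf_coe _).symm
    rw [h2, H9Ito.lp]
    apply Nat.pow_dvd_pow
    have h3 : k ^ j ∣ Nat.card X := by rw [← h2]; exact orderOf_dvd_natCard _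
    exact (hk.pow_dvd_iff_le_factorization Nat.card_pos.ne').1 h3
  · refine PEl.of_pow hk (k := (Nat.card X).factorization k) ?_
    have := congrArg Subtype.val x.2
    simpa [H9Ito.lp] using this

theorem card_split {k : ℕ} {X Z : Subgroup G} (hZ : Z ≤ X) :
    Nat.card {x : G // x ∈ X ∧ PEl k x} = Nat.card {x : G // x ∈ X ∧ PEl k x ∧ x ∉ Z} +
      Nat.card {x : G // x ∈ Z ∧ PEl k x} := by
  classical
  rw [← Nat.card_sum]
  apply Nat.card_congr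
  refine ⟨fun x => if h : x.1 ∈ Z then Sum.inr ⟨x.1, h, x.2.2⟩ else Sum.inl ⟨x.1, x.2.1, x.2.2, h⟩,
    fun y => y.elim (fun a => ⟨a.1, a.2.1, a.2.2.1⟩) (fun a => ⟨a.1, hZ a.2.1, a.2.2⟩), ?_, ?_⟩
  · rintro ⟨x, hx⟩
    by_cases h : x ∈ Z
    · simp [h]
    · simp [h]
  · rintro (⟨x, hx⟩ | ⟨x, hx⟩)
    · have := hx.2.2
      simp [this]
    · have := hx.1
      simp [this]

theorem card_orbit {X Z : Subgroup G} (hc : Cen X Z) {r c : ℕ}
    (hab : ∀ l, l.Prime → l ≠ r → AB X Z l c)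
    (hel : ∀ l, l.Prime → l ≠ r → l ∣ Z.relIndex X → ∀ l', l'.Prime → l' ≠ r → ∀ h ∈ X, PEl l' h → h ∉ Z →
      ∃ v ∈ X ⊓ C h, PEl l v ∧ v ∉ Z)
    {l1 l2 : ℕ} (h1 : l1.Prime) (h2 : l2.Prime) (h12 : l1 ≠ l2) (h1r : l1 ≠ r) (h2r : l2 ≠ r)
    (h1d : l1 ∣ Z.relIndex X) (h2d : l2 ∣ Z.relIndex X)
    {l : ℕ} (hl : l.Prime) (hlr : l ≠ r) {u : G} (hu : u ∈ X) (hul : PEl l u) (huZ : u ∉ Z)
    {k : ℕ} (hk : k.Prime) (hkr : k ≠ r) :
    Nat.card {x : G // x ∈ X ∧ PEl k x ∧ x ∉ Z} =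
      (X ⊓ normalizer ((X ⊓ C u : Subgroup G) : Set G)).relIndex X *
        Nat.card {x : G // x ∈ X ⊓ C u ∧ PEl k x ∧ x ∉ Z} := by
  set A := X ⊓ C u with hA
  set N := X ⊓ normalizer (A : Set G) with hN
  let f : (X ⧸ N.subgroupOf X) × {x : G // x ∈ A ∧ PEl k x ∧ x ∉ Z} → {x : G // x ∈ X ∧ PEl k x ∧ x ∉ Z} :=
    fun c => ⟨(c.1.out : G) * c.2.1 * (c.1.out : G)⁻¹, mul_mem (mul_mem c.1.out.2 c.2.2.1.1) (inv_mem c.1.out.2),
      c.2.2.2.1.conj _, hc.conj_notMem c.1.out.2 c.2.2.2.2⟩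
  have hcjA : ∀ g ∈ X, cj g A = X ⊓ C (g * u * g⁻¹) := fun g hg => (inf_C_conj hg u).symm
  have huniq : ∀ g ∈ X, ∀ x, x ∈ cj g A → PEl k x → x ∉ Z → X ⊓ C x = cj g A := by
    intro g hg x hx hxk hxZ
    rw [hcjA g hg] at hx ⊢
    exact AB.eq (hab l hl hlr) (hab k hk hkr) ⟨mul_mem (mul_mem hg hu) (inv_mem hg), hc.conj_notMem hg huZ,
      Or.inl (hul.conj g)⟩ ⟨hx.1, hxZ, Or.inr hxk⟩ hx.2
  have hf : Function.Bijective f := by
    constructor
    · rintro ⟨q, a⟩ ⟨q', a'⟩ he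
      have he1 : (q.out : G) * a * (q.out : G)⁻¹ = (q'.out : G) * a' * (q'.out : G)⁻¹ :=
        congrArg (fun x : {x : G // x ∈ X ∧ PEl k x ∧ x ∉ Z} => (x : G)) he
      have e1 := huniq _ q.out.2 ((q.out : G) * a * (q.out : G)⁻¹) (conj_mem_cj a.2.1) (a.2.2.1.conj _)
        (hc.conj_notMem q.out.2 a.2.2.2)
      have e2 := huniq _ q'.out.2 ((q'.out : G) * a' * (q'.out : G)⁻¹) (conj_mem_cj a'.2.1) (a'.2.2.1.conj _)
        (hc.conj_notMem q'.out.2 a'.2.2.2)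
      rw [he1, e2] at e1
      have h3 : (q'.out : G)⁻¹ * q.out ∈ N := by
        refine mem_inf.2 ⟨mul_mem (inv_mem q'.out.2) q.out.2, ?_⟩
        rw [CFSylow.mem_normalizer, ← cj_cj, ← e1, cj_inv_cj]
      have h4 : q' = q := by
        rw [← QuotientGroup.out_eq' q', ← QuotientGroup.out_eq' q, QuotientGroup.eq, mem_subgroupOf]
        exact h3
      subst h4
      have h5 : (a : G) = a' := mul_left_cancel (mul_right_cancel he1)
      exact Prod.ext rfl (Subtype.ext h5)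
    · rintro ⟨x, hxX, hxk, hxZ⟩
      obtain ⟨g, hg, hgx⟩ := conj_all hc hab hel h1 h2 h12 h1r h2r h1d h2d hk hkr hxX hxk hxZ hl hlr hu hul huZ
      rw [inf_C_conj hg, ← hA] at hgx
      have hx1 : x ∈ cj g A := by rw [hgx]; exact ⟨hxX, self_mem x⟩
      let q : X ⧸ N.subgroupOf X := QuotientGroup.mk ⟨g, hg⟩
      have h3 : (⟨g, hg⟩ : X)⁻¹ * q.out ∈ N.subgroupOf X := by
        rw [← QuotientGroup.eq, QuotientGroup.out_eq']
      rw [mem_subgroupOf] at h3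
      have h4 : cj (q.out : G) A = cj g A := by
        have h5 : (q.out : G) = g * (g⁻¹ * q.out) := by group
        rw [h5, ← cj_cj, CFSylow.mem_normalizer.1 (show g⁻¹ * (q.out : G) ∈ normalizer (A : Set G) from h3.2)]
      have hx2 : (q.out : G)⁻¹ * x * q.out ∈ A := by rw [← mem_cj, h4]; exact hx1
      have hx3 : PEl k ((q.out : G)⁻¹ * x * q.out) := by
        have := hxk.conj (q.out : G)⁻¹
        rwa [inv_inv] at this
      have hx4 : (q.out : G)⁻¹ * x * q.out ∉ Z := by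
        have := hc.conj_notMem (inv_mem q.out.2) hxZ
        rwa [inv_inv] at this
      refine ⟨(q, ⟨(q.out : G)⁻¹ * x * q.out, hx2, hx3, hx4⟩), Subtype.ext ?_⟩
      change (q.out : G) * ((q.out : G)⁻¹ * x * q.out) * (q.out : G)⁻¹ = x
      group
  have h3 := Nat.card_congr (Equiv.ofBijective f hf)
  rw [← h3, Nat.card_prod]
  rfl

/-- the counting inequality -/
theorem count {X Z : Subgroup G} (hc : Cen X Z) {r c : ℕ} (hr : r.Prime)
    (hab : ∀ l, l.Prime → l ≠ r → AB X Z l c)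
    (hel : ∀ l, l.Prime → l ≠ r → l ∣ Z.relIndex X → ∀ l', l'.Prime → l' ≠ r → ∀ h ∈ X, PEl l' h → h ∉ Z →
      ∃ v ∈ X ⊓ C h, PEl l v ∧ v ∉ Z)
    {l1 l2 : ℕ} (h1 : l1.Prime) (h2 : l2.Prime) (h12 : l1 ≠ l2) (h1r : l1 ≠ r) (h2r : l2 ≠ r)
    (h1d : l1 ∣ Z.relIndex X) (h2d : l2 ∣ Z.relIndex X)
    (hne : ∃ l, l.Prime ∧ l ≠ r ∧ lp l c < lp l (Nat.card X))
    {k : ℕ} (hk : k.Prime) (hkr : k ≠ r) (_hkd : k ∣ Z.relIndex X) :
    lp k c * lp r c < lp k (Nat.card Z) * lp r (Nat.card X) := by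
  have hfk : Fact k.Prime := ⟨hk⟩
  have hf1 : Fact l1.Prime := ⟨h1⟩
  -- an element
  have hZX := relIndex_mul_card' hc.le
  obtain ⟨u, hu, hul, huZ⟩ : ∃ u ∈ X, PEl l1 u ∧ u ∉ Z := by
    rw [exists_el_iff hc, ← hZX, lp_mul (relIndex_ne0 _ _) Nat.card_pos.ne']
    have h3 := one_lt_lp h1 (relIndex_ne0 Z X) h1d
    have h4 := lp_pos h1 (Nat.card Z)
    nlinarith
  have hA1 := (hab l1 h1 h1r) u hu hul huZ
  set A := X ⊓ C u with hA
  set N := X ⊓ normalizer (A : Set G) with hN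
  have hAN : A ≤ N := le_inf inf_le_left le_normalizer
  have hNX : N ≤ X := inf_le_left
  have hZA : Z ≤ A := le_inf hc.le (fun z hz => mem_C.2 (hc.comm z hz u hu))
  set R := N.relIndex X with hR
  have hR0 : R ≠ 0 := relIndex_ne0 _ _
  have hNcard : R * Nat.card N = Nat.card X := relIndex_mul_card' hNX
  have hAcard : A.relIndex N * Nat.card A = Nat.card N := relIndex_mul_card' hAN
  have hprime : ∀ k', k'.Prime → k' ≠ r → ¬ k' ∣ R := fun k' hk' hkr' =>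
    norm_index hc hr hab hel h1 h2 h12 h1r h2r h1d h2d h1 h1r hu hul huZ hk' hkr'
  -- `R` is a power of `r`
  have hRr : R = lp r R := by
    obtain ⟨b, hb⟩ := lp_dvd r R
    have hb1 : b = 1 := by
      by_contra hb1
      obtain ⟨k', hk', hkb⟩ := Nat.exists_prime_and_dvd hb1
      by_cases hkr' : k' = r
      · subst hkr'
        have h5 : lp k' R * k' ∣ R := by
          rw [hb]
          conv_lhs => rw [← hb]
          exact mul_dvd_mul_left _ hkb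
        rw [H9Ito.lp, ← pow_succ] at h5
        exact Nat.pow_succ_factorization_not_dvd hR0 hk' h5
      · exact hprime k' hk' hkr' (hb ▸ Dvd.dvd.mul_left hkb _)
    rw [hb1, mul_one] at hb
    exact hb
  -- `R > 1`
  have hR1 : 1 < R := by
    by_contra hcon
    have hR1 : R = 1 := by omega
    obtain ⟨l, hl, hlr, hlt⟩ := hne
    have : Fact l.Prime := ⟨hl⟩
    have hNX' : N = X := le_antisymm hNX (relIndex_eq_one.1 hR1)
    obtain ⟨L, hL⟩ := exists_sylIn l X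
    have hLA : L ≤ A := by
      intro x hx
      by_cases hxZ : x ∈ Z
      · exact hZA hxZ
      · have hxl := PEl.of_mem hL.isPGroup hx
        obtain ⟨g, hg, hgx⟩ := conj_all hc hab hel h1 h2 h12 h1r h2r h1d h2d hl hlr (hL.le hx) hxl hxZ h1 h1r hu hul huZ
        rw [inf_C_conj hg, ← hA] at hgx
        have hgN : g ∈ N := by rw [hNX']; exact hg
        rw [CFSylow.mem_normalizer.1 hgN.2] at hgx
        rw [hgx]
        exact ⟨hL.le hx, self_mem x⟩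
    have h5 := SylIn.card' hL
    have h6 : SylIn l L A := hL.of_le hLA inf_le_left
    have h7 := SylIn.card' h6
    rw [hA1.2] at h7
    omega
  -- counting
  have hcnt := card_orbit hc hab hel h1 h2 h12 h1r h2r h1d h2d h1 h1r hu hul huZ hk hkr
  rw [← hA, ← hN, ← hR] at hcnt
  have hzab : ∀ a ∈ Z, ∀ b ∈ Z, a * b = b * a := fun a ha b hb => hc.comm a ha b (hc.le hb)
  have e1 := card_split (k := k) hc.le
  have e2 := card_split (k := k) hZA
  rw [card_PEl_ab hzab] at e1 e2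
  rw [card_PEl_ab hA1.1, hA1.2] at e2
  have e3 := lp_dvd_card hk X
  rw [e1, hcnt] at e3
  have hcX : c ∣ Nat.card X := by rw [← hA1.2]; exact Subgroup.card_dvd_of_le inf_le_left
  have e4 : lp k c ∣ lp k (Nat.card X) := by
    rw [H9Ito.lp, H9Ito.lp]
    apply Nat.pow_dvd_pow
    exact (Nat.factorization_le_iff_dvd (by rw [← hA1.2]; exact Nat.card_pos.ne') Nat.card_pos.ne').2 hcX k
  have e5 := e4.trans e3
  generalize Nat.card {x : G // x ∈ A ∧ PEl k x ∧ x ∉ Z} = m at *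
  -- `lp k c ∣ R * m + z`, `lp k c = m + z`
  have e6 : lp k c ∣ (R - 1) * lp k (Nat.card Z) := by
    have h5 : lp k c ∣ R * lp k c := Dvd.intro_left _ rfl
    have h6 : R * lp k c = (R * m + lp k (Nat.card Z)) + (R - 1) * lp k (Nat.card Z) := by
      rw [e2]
      obtain ⟨R', hR'⟩ := Nat.exists_eq_add_of_lt hR1
      have : R - 1 = R' + 1 := by omega
      rw [this, hR']
      ring
    rw [h6] at h5
    exact (Nat.dvd_add_right e5).1 h5
  have hzpos := lp_pos hk (Nat.card Z)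
  have e7 : lp k c ≤ (R - 1) * lp k (Nat.card Z) := Nat.le_of_dvd (Nat.mul_pos (by omega) hzpos) e6
  have e8 : lp k c < R * lp k (Nat.card Z) := by
    refine lt_of_le_of_lt e7 ?_
    exact Nat.mul_lt_mul_of_pos_right (by omega) hzpos
  -- `R * lp r c ≤ lp r |X|`
  have e9 : R * lp r c ≤ lp r (Nat.card X) := by
    rw [← hNcard, lp_mul hR0 Nat.card_pos.ne', ← hRr]
    apply Nat.mul_le_mul_left
    apply lp_le_of_dvd hr Nat.card_pos.ne'
    rw [← hAcard, hA1.2]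
    exact Dvd.intro_left _ rfl
  calc lp k c * lp r c < (R * lp k (Nat.card Z)) * lp r c := Nat.mul_lt_mul_of_pos_right e8 (lp_pos hr c)
    _ = lp k (Nat.card Z) * (R * lp r c) := by ring
    _ ≤ lp k (Nat.card Z) * lp r (Nat.card X) := Nat.mul_le_mul_left _ e9

end Cfsg.Agent.Lib.ItoCount48
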