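import Mathlib
import Cfsg.Agent.Lib.H9ItoF
import Cfsg.Agent.Lib.ItoCount48
import Cfsg.Agent.Lib.H16ItoQ

/-!
(helper9) Three class sizes, nested case: the contradiction.
-/

set_option autoImplicit false
set_option linter.unusedSectionVars false
set_option linter.unusedVariables false

namespace Cfsg.Agent.Lib.H9Ito

open Subgroup Cfsg.Agent.Lib.CSP Cfsg.Agent.Lib.CFSylow

variable {G : Type*} [Group G] [Finite G] {c1 c2 : ℕ}

theorem dvd_rel_of_el {l : ℕ} [hl : Fact l.Prime] {X Z : Subgroup G} (hc : Cen X Z) (h : ∃ v ∈ X, PEl l v ∧ v ∉ Z) :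
    l ∣ Z.relIndex X := by
  have h1 := (exists_el_iff hc).1 h
  by_contra hcon
  have h2 := relIndex_mul_card' hc.le
  have h3 := congrArg (lp l) h2
  rw [lp_mul (relIndex_ne0 _ _) Nat.card_pos.ne', lp_eq_one hcon, one_mul] at h3
  omega

/-- a nested pair with an `r`-element on top -/
structure Nst (G : Type*) [Group G] [Finite G] (c1 c2 r : ℕ) (x y : G) : Prop where
  h : Ctx G c1 c2
  hr : r.Prime
  hx : x ∉ center G
  hy : y ∉ center G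
  hyr : PEl r y
  hlt : C x < C y

variable {r : ℕ} {x y : G}

theorem Nst.card (N : Nst G c1 c2 r x y) : Nat.card (C y) = c2 := (N.h.card_of_lt N.hx N.hy N.hlt).2

theorem Nst.C_mul (N : Nst G c1 c2 r x y) {l : ℕ} (hl : l.Prime) (hlr : l ≠ r) {g : G} (hg : g ∈ C y) (hgl : PEl l g)
    (hgc : g ∉ center G) : C (g * y) = C y ⊓ C g ∧ g * y ∉ center G ∧ Nat.card (C (g * y)) = c1 := by
  have hcomm : g * y = y * g := mem_C.1 hg
  have hco := PEl.coprime2 hl N.hr hlr hgl N.hyr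
  have h1 := mul_notMem_center hcomm hco hgc
  refine ⟨by rw [H9Ito.C_mul hcomm hco, inf_comm], h1, ?_⟩
  rcases N.h.h _ h1 with h2 | h2
  · exact h2
  · exfalso
    have h3 : C (g * y) = C g := N.h.max hgc h2 (by rw [H9Ito.C_mul hcomm hco]; exact inf_le_left)
    have h4 : C (g * y) = C y := N.h.max N.hy h2 (by rw [H9Ito.C_mul hcomm hco]; exact inf_le_right)
    exact hlr (N.h.single N.hr hl N.hx N.hy hgc N.hyr hgl N.hlt (h4 ▸ h3)).symm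

theorem Nst.AB (N : Nst G c1 c2 r x y) {l : ℕ} (hl : l.Prime) (hlr : l ≠ r) : AB (C y) (center G) l c1 := by
  intro g hg hgl hgc
  obtain ⟨h1, h2, h3⟩ := N.C_mul hl hlr hg hgl hgc
  rw [← h1]
  exact ⟨fun a ha b hb => mem_C.1 (N.h.abel h2 h3 b hb ha), h3⟩

theorem Nst.el (N : Nst G c1 c2 r x y) : ∀ l, l.Prime → l ≠ r → l ∣ (center G).relIndex (C y) →
    ∀ l', l'.Prime → l' ≠ r → ∀ h ∈ C y, PEl l' h → h ∉ center G → ∃ v ∈ C y ⊓ C h, PEl l v ∧ v ∉ center G := by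
  intro l hl hlr hld l' hl' hlr' g hg hgl hgc
  obtain ⟨h1, h2, h3⟩ := N.C_mul hl' hlr' hg hgl hgc
  have : Fact l.Prime := ⟨hl⟩
  rw [← h1]
  exact N.h.N1 (hld.trans (relIndex_dvd_index_of_normal _ _)) h2

theorem Nst.dvd (N : Nst G c1 c2 r x y) {l : ℕ} (hl : l.Prime) (hld : l ∣ (center G).index) : l ∣ (center G).relIndex (C y) := by
  have : Fact l.Prime := ⟨hl⟩
  exact dvd_rel_of_el (cen_C y) (N.h.N1 hld N.hy)

theorem Nst.dvd_index (N : Nst G c1 c2 r x y) : r ∣ (center G).index := by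
  have : Fact r.Prime := ⟨N.hr⟩
  have h1 := dvd_rel_of_el (l := r) (cen_top (G := G)) ⟨y, mem_top _, N.hyr, N.hy⟩
  rwa [relIndex_top_right] at h1

theorem Ctx.exists_ne (h : Ctx G c1 c2) (r : ℕ) : ∃ l, l.Prime ∧ l ≠ r ∧ lp l c1 < lp l c2 := by
  obtain ⟨s, hs, hsd, hsr, -⟩ := h.third r r
  obtain ⟨q, hq, hqd, hqr, hqs⟩ := h.third r s
  by_cases h1 : lp s c1 = lp s c2
  · by_cases h2 : lp q c1 = lp q c2
    · exact (h.N2 hs hq hqs.symm hsd hqd h1 h2).elim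
    · exact ⟨q, hq, hqr, lt_of_le_of_ne (lp_le_of_dvd hq h.pos2.ne' h.dvd) h2⟩
  · exact ⟨s, hs, hsr, lt_of_le_of_ne (lp_le_of_dvd hs h.pos2.ne' h.dvd) h1⟩

/-- N4, lower bound -/
theorem Nst.count (N : Nst G c1 c2 r x y) {k : ℕ} (hk : k.Prime) (hkr : k ≠ r) (hkd : k ∣ (center G).index) :
    lp k c1 * lp r c1 < lp k (Nat.card (center G)) * lp r c2 := by
  obtain ⟨s, hs, hsd, hsr, -⟩ := N.h.third r r
  obtain ⟨q, hq, hqd, hqr, hqs⟩ := N.h.third r s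
  have h1 := ItoCount48.count (cen_C y) N.hr (fun l hl hlr => N.AB hl hlr) N.el hs hq hqs.symm hsr hqr (N.dvd hs hsd)
    (N.dvd hq hqd) (by rw [N.card]; exact N.h.exists_ne r) hk hkr (N.dvd hk hkd)
  rwa [N.card] at h1

/-- N4, upper bound -/
theorem Nst.upper (N : Nst G c1 c2 r x y) {l k : ℕ} (hl : l.Prime) (hk : k.Prime) (hlk : l ≠ k) (hlr : l ≠ r) (hkr : k ≠ r)
    (hld : l ∣ (center G).index) (hkd : k ∣ (center G).index) :
    lp l c2 * lp k (Nat.card (center G)) < lp l c1 * lp k c1 := by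
  have hlf : Fact l.Prime := ⟨hl⟩
  have hkf : Fact k.Prime := ⟨hk⟩
  obtain ⟨S, hS⟩ := exists_sylIn l (C y)
  obtain ⟨v, hv, hvl, hvc⟩ := N.h.N1 hld N.hy
  obtain ⟨u, huS, huZ, hug⟩ := exists_good (Z := center G) (S := S) (fun z hz g _ => (mem_center_iff.1 hz g).symm)
    hS.isPGroup (not_le_center (cen_C y) hS hv hvl hvc)
  obtain ⟨w, hw, hwk, hwc⟩ := N.el k hk hkr (N.dvd hk hkd) l hl hlr u (hS.le huS) (PEl.of_mem hS.isPGroup huS) huZ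
  have h1 := ab_lt hlk (cen_C y) (N.AB hl hlr) (N.AB hk hkr) hS ⟨huS, huZ, hug⟩ hw hwk hwc
  rwa [N.card] at h1

/-- N5 -/
theorem Nst.uniq {r' : ℕ} {x' y' : G} (N : Nst G c1 c2 r x y) (N' : Nst G c1 c2 r' x' y') : r = r' := by
  by_contra hne
  obtain ⟨k, hk, hkd, hkr, hkr'⟩ := N.h.third r r'
  have h1 := N.upper N'.hr hk (Ne.symm hkr') (Ne.symm hne) hkr N'.dvd_index hkd
  have h2 := N'.count hk hkr' hkd
  nlinarith

variable {s q : ℕ}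

/-- N6d -/
theorem Six.false_of_eq (S : Six G c1 c2 s q) (heq : lp q c1 = lp q c2) : False := by
  have hsf : Fact s.Prime := ⟨S.hs⟩
  have hqf : Fact q.Prime := ⟨S.hq⟩
  obtain ⟨Q0, hQ0⟩ := exists_sylIn q (⊤ : Subgroup G)
  obtain ⟨u0, hu0⟩ := exists_good' S.hqd hQ0
  obtain ⟨-, w, hw, hwc⟩ := S.symm.types hQ0 hu0
  obtain ⟨b, hb, hbq, hbc⟩ := S.symm.exists_s hw.1
  have hEb : E q s b := ⟨hbc, Or.inl hbq⟩
  have hCb : C b = C w := S.symm.eq hw hEb hb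
  obtain ⟨T, hT, hbT⟩ := exists_sylIn_ge (hbq.isPGroup) (zpowers_le.2 (self_mem b))
  obtain ⟨Q, hQ, hTQ⟩ := exists_sylIn_ge (H := (⊤ : Subgroup G)) hT.isPGroup le_top
  obtain ⟨u, hu⟩ : ∃ u, Good Q (center G) u := exists_good' S.hqd hQ
  obtain ⟨hcu, -⟩ := S.symm.types hQ hu
  have hbQ : b ∈ Q := hTQ (hbT (mem_zpowers b))
  have hEu : E q s u := ⟨hu.2.1, Or.inl (PEl.of_mem hQ.isPGroup hu.1)⟩
  have hTe : T = Q ⊓ C b := hT.eq_of_le (le_inf hTQ hT.le) (hQ.isPGroup.to_le inf_le_left) inf_le_right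
  have hc1 : Nat.card (Q ⊓ C b : Subgroup G) = lp q c1 := by rw [← hTe, SylIn.card' hT, hCb, hwc]
  have hc2 : Nat.card (Q ⊓ C u : Subgroup G) = lp q c2 := by
    have := hu.syl cen_top hQ
    rw [top_inf_eq] at this
    rw [SylIn.card' this, hcu]
  have hlt := S.h.lt
  have hg := H16ItoQ.qpiece S.hsq hQ hu hbQ hbc
    (fun a ha b hb => mem_C.1 (S.symm.ab hEu b hb ha)) (fun a ha c hc => mem_C.1 (S.symm.ab hEb c hc ha))
    (fun a ha hap hac => S.symm.eq hEu ⟨hac, hap.symm⟩ ha) (fun a ha hap hac => S.symm.eq hEb ⟨hac, hap.symm⟩ ha)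
    (S.exists_s hu.2.1) (by rw [hc1, hc2, heq]) (by
      intro h1
      rw [h1, hCb, hwc] at hcu
      omega)
  obtain ⟨hcb, -⟩ := S.symm.types hQ ⟨hbQ, hbc, hg⟩
  rw [hCb, hwc] at hcb
  omega

/-- elements of `N` centralizing the `s`-elements of `A` modulo the centre -/
def DD (A N : Subgroup G) (s : ℕ) : Subgroup G :=
  N ⊓ (centralizer ((QuotientGroup.mk' (center G)) '' {c | c ∈ A ∧ PEl s c})).comap (QuotientGroup.mk' (center G))

theorem mem_DD {A N : Subgroup G} {s : ℕ} {f : G} :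
    f ∈ DD A N s ↔ f ∈ N ∧ ∀ c ∈ A, PEl s c → c⁻¹ * (f * c * f⁻¹) ∈ center G := by
  rw [DD, mem_inf, mem_comap, Subgroup.mem_centralizer_iff]
  refine and_congr_right (fun _ => ?_)
  have key : ∀ c : G, c⁻¹ * (f * c * f⁻¹) ∈ center G ↔
      (QuotientGroup.mk' (center G)) c * (QuotientGroup.mk' (center G)) f =
        (QuotientGroup.mk' (center G)) f * (QuotientGroup.mk' (center G)) c := by
    intro c
    rw [← QuotientGroup.eq_one_iff]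
    have : (QuotientGroup.mk (c⁻¹ * (f * c * f⁻¹)) : G ⧸ center G) =
      (QuotientGroup.mk' (center G) c)⁻¹ * (QuotientGroup.mk' (center G) f * QuotientGroup.mk' (center G) c *
        (QuotientGroup.mk' (center G) f)⁻¹) := rfl
    rw [this, inv_mul_eq_one, eq_mul_inv_iff_mul_eq]
  constructor
  · intro h c hc hcs
    rw [key]
    exact h _ ⟨c, ⟨hc, hcs⟩, rfl⟩
  · rintro h _ ⟨c, ⟨hc, hcs⟩, rfl⟩
    exact (key c).1 (h c hc hcs)

theorem center_conj {z g : G} (hz : z ∈ center G) : g * z * g⁻¹ = z := by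
  rw [mem_center_iff.1 hz g, mul_assoc, mul_inv_cancel, mul_one]

theorem DD_conj {A N : Subgroup G} {s : ℕ} (hN : N ≤ normalizer (A : Set G)) {f n : G} (hf : f ∈ DD A N s) (hn : n ∈ N) :
    n * f * n⁻¹ ∈ DD A N s := by
  rw [mem_DD] at hf ⊢
  refine ⟨mul_mem (mul_mem hn hf.1) (inv_mem hn), ?_⟩
  intro c hc hcs
  have h1 : n⁻¹ * c * n ∈ A := by
    have := (Subgroup.mem_normalizer_iff.1 (inv_mem (hN hn)) c).1 hc
    rwa [inv_inv] at this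
  have h2 : PEl s (n⁻¹ * c * n) := by
    have := hcs.conj n⁻¹
    rwa [inv_inv] at this
  have h3 := hf.2 _ h1 h2
  have h4 : c⁻¹ * (n * f * n⁻¹ * c * (n * f * n⁻¹)⁻¹) = n * ((n⁻¹ * c * n)⁻¹ * (f * (n⁻¹ * c * n) * f⁻¹)) * n⁻¹ := by group
  rw [h4, center_conj h3]
  exact h3

theorem PEl.inv {s : ℕ} {c : G} (h : PEl s c) : PEl s c⁻¹ := by
  obtain ⟨a, ha⟩ := h
  exact ⟨a, by rw [orderOf_inv, ha]⟩

theorem PEl.mul {s : ℕ} (hs : s.Prime) {c d : G} (hc : PEl s c) (hd : PEl s d) (hcd : c * d = d * c) : PEl s (c * d) := by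
  obtain ⟨a, ha⟩ := hc
  obtain ⟨b, hb⟩ := hd
  have h8 := (show Commute c d from hcd).orderOf_mul_dvd_mul_orderOf
  rw [ha, hb, ← pow_add] at h8
  obtain ⟨d, -, hd⟩ := (Nat.dvd_prime_pow hs).1 h8
  exact ⟨d, hd⟩

theorem DD_mem {A N : Subgroup G} {s : ℕ} (hs : s.Prime) (hA : ∀ a ∈ A, ∀ b ∈ A, a * b = b * a)
    (hN : N ≤ normalizer (A : Set G)) {c f : G} (hc : c ∈ A) (hcs : PEl s c) (hCc : C c = A)
    (hf : f ∈ DD A N s) (hco : (orderOf f).Coprime s) : f ∈ A := by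
  rw [mem_DD] at hf
  have hz := hf.2 c hc hcs
  set z := c⁻¹ * (f * c * f⁻¹) with hzdef
  have h0 : f * c * f⁻¹ ∈ A := (Subgroup.mem_normalizer_iff.1 (hN hf.1) c).1 hc
  have hzs : PEl s z := (hcs.inv).mul hs (hcs.conj f) (hA _ (inv_mem hc) _ h0)
  have he : f * c * f⁻¹ = c * z := by rw [hzdef]; group
  have h1 : ∀ n : ℕ, f ^ n * c * (f ^ n)⁻¹ = c * z ^ n := by
    intro n
    induction n with
    | zero => simp
    | succ n ih =>
      have h2 : f ^ (n + 1) * c * (f ^ (n + 1))⁻¹ = f * (f ^ n * c * (f ^ n)⁻¹) * f⁻¹ := by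
        rw [pow_succ']; group
      rw [h2, ih]
      calc f * (c * z ^ n) * f⁻¹ = (f * c * f⁻¹) * (f * z ^ n * f⁻¹) := by group
        _ = c * z ^ (n + 1) := by rw [he, center_conj (pow_mem hz n), mul_assoc, ← pow_succ']
  have h2 := h1 (orderOf f)
  rw [pow_orderOf_eq_one, one_mul, inv_one, mul_one, left_eq_mul] at h2
  have h3 : orderOf z ∣ orderOf f := orderOf_dvd_of_pow_eq_one h2
  have h4 : orderOf z = 1 := by
    obtain ⟨a, ha⟩ := hzs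
    exact Nat.eq_one_of_dvd_coprimes (hco.pow_right a) h3 (ha ▸ dvd_rfl)
  rw [orderOf_eq_one_iff] at h4
  rw [h4, mul_one] at he
  have h5 : f * c = c * f := mul_inv_eq_iff_eq_mul.1 he
  rw [← hCc]
  exact mem_C.2 h5

theorem Six.alpha (S : Six G c1 c2 s q) {A N0 S1 : Subgroup G} (hA : ∀ a ∈ A, ∀ b ∈ A, a * b = b * a)
    (hAc : Nat.card A = c1) (hCw : ∀ w ∈ A, E s q w → C w = A) (hN : N0 ≤ normalizer (A : Set G)) (hAN : A ≤ N0)
    (hS1 : SylIn s S1 N0) : S1 ≤ DD A N0 s := by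
  have hsf : Fact s.Prime := ⟨S.hs⟩
  have hqf : Fact q.Prime := ⟨S.hq⟩
  have hS1A := hS1.inf_normal hAN hN
  have hmem : ∀ c ∈ A, PEl s c → c ∈ S1 := by
    intro c hc hcs
    obtain ⟨x, hx, hxc⟩ := hS1A.exists_conj_le hcs.isPGroup (zpowers_le.2 hc)
    have h1 := hxc (conj_mem_cj (mem_zpowers c))
    have h2 : x * c * x⁻¹ = c := by rw [hA x hx c hc]; group
    rw [h2] at h1
    exact h1.1
  obtain ⟨P, hP, hSP⟩ := exists_sylIn_ge (H := (⊤ : Subgroup G)) hS1.isPGroup le_top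
  obtain ⟨u, hu⟩ := exists_good' S.hsd hP
  obtain ⟨hcu, -⟩ := S.types hP hu
  have hEu : E s q u := ⟨hu.2.1, Or.inl (PEl.of_mem hP.isPGroup hu.1)⟩
  intro σ hσ
  rw [mem_DD]
  refine ⟨hS1.le hσ, ?_⟩
  intro c hc hcs
  have hcS := hmem c hc hcs
  have h1 := H16ItoQ.comm_mem P u hu.2.2 (inv_mem (hSP hcS)) (hSP hσ)
  have h2 : c⁻¹ * σ * c⁻¹⁻¹ * σ⁻¹ = c⁻¹ * (σ * c * σ⁻¹) := by group
  rw [h2] at h1
  by_contra hk
  have hkA : c⁻¹ * (σ * c * σ⁻¹) ∈ A :=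
    mul_mem (inv_mem hc) ((Subgroup.mem_normalizer_iff.1 (hN (hS1.le hσ)) c).1 hc)
  have hkS : c⁻¹ * (σ * c * σ⁻¹) ∈ S1 := mul_mem (inv_mem hcS) (mul_mem (mul_mem hσ hcS) (inv_mem hσ))
  have hEk : E s q (c⁻¹ * (σ * c * σ⁻¹)) := ⟨hk, Or.inl (PEl.of_mem hS1.isPGroup hkS)⟩
  have h3 := hCw _ hkA hEk
  have h4 := S.eq hEu hEk h1
  have h5 := S.h.lt
  rw [← h4, h3, hAc] at hcu
  omega

theorem Six.false_of_ne (S : Six G c1 c2 s q) (h1 : lp s c1 < lp s c2) (h2 : lp q c1 < lp q c2) {r : ℕ} {x y : G}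
    (N : Nst G c1 c2 r x y) : False := by
  have hsf : Fact s.Prime := ⟨S.hs⟩
  have hqf : Fact q.Prime := ⟨S.hq⟩
  have hsr : s ≠ r := by
    intro he
    exact S.hNs x y N.hx N.hy (he ▸ N.hyr) N.hlt
  have hqr : q ≠ r := by
    intro he
    exact S.hNq x y N.hx N.hy (he ▸ N.hyr) N.hlt
  obtain ⟨h0, hh0, hh0s, hh0c⟩ := S.h.N1 S.hsd N.hy
  obtain ⟨e1, e2, e3⟩ := N.C_mul S.hs hsr hh0 hh0s hh0c
  set A := C y ⊓ C h0 with hAdef
  have hAc : Nat.card A = c1 := by rw [← e1]; exact e3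
  have hAab : ∀ a ∈ A, ∀ b ∈ A, a * b = b * a := by
    intro a ha b hb
    rw [← e1] at ha hb
    exact mem_C.1 (S.h.abel e2 e3 b hb ha)
  have hCw : ∀ w ∈ A, E s q w → C w = A := by
    intro w hw hE
    have hle : A ≤ C w := fun a ha => mem_C.2 (hAab a ha w hw)
    rcases S.h.h w hE.1 with h3 | h3
    · exact (eq_of_le_of_card_le hle (by rw [h3, hAc])).symm
    · exfalso
      have hlt : C (h0 * y) < C w := by
        rw [e1]
        refine lt_of_le_of_ne hle (fun h4 => ?_)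
        have := S.h.lt
        rw [h4, h3] at hAc
        omega
      rcases hE.2 with h4 | h4
      · exact S.hNs _ _ e2 hE.1 h4 hlt
      · exact S.hNq _ _ e2 hE.1 h4 hlt
  set N0 := C y ⊓ normalizer (A : Set G) with hN0
  have hN : N0 ≤ normalizer (A : Set G) := inf_le_right
  have hAN : A ≤ N0 := le_inf inf_le_left le_normalizer
  have hidx : ∀ k, k.Prime → k ≠ r → ¬ k ∣ N0.relIndex (C y) := by
    intro k hk hkr
    exact ItoCount48.norm_index (cen_C y) N.hr (fun l hl hlr => N.AB hl hlr) N.el S.hs S.hq S.hsq hsr hqr (N.dvd S.hs S.hsd)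
      (N.dvd S.hq S.hqd) S.hs hsr hh0 hh0s hh0c hk hkr
  have hbig : ∀ (k : ℕ) [Fact k.Prime], k ≠ r → lp k c1 < lp k c2 → ∀ T, SylIn k T N0 → ∃ σ ∈ T, σ ∉ A := by
    intro k hkf hkr hlt T hT
    have hk := hkf.out
    have h3 : SylIn k T (C y) := by
      refine ⟨hT.le.trans inf_le_left, hT.isPGroup, fun hd => ?_⟩
      rw [← relIndex_mul_relIndex T N0 (C y) hT.le inf_le_left] at hd
      rcases (hk.dvd_mul).1 hd with h4 | h4
      · exact hT.not_dvd h4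
      · exact hidx k hk hkr h4
    by_contra hcon
    push Not at hcon
    obtain ⟨R, hR⟩ := exists_sylIn k A
    have h4 := hR.card_le hT.isPGroup (fun σ hσ => hcon σ hσ)
    rw [SylIn.card' h3, SylIn.card' hR, N.card, hAc] at h4
    omega
  obtain ⟨S1, hS1⟩ := exists_sylIn s N0
  obtain ⟨Q1, hQ1⟩ := exists_sylIn q N0
  obtain ⟨σ, hσ, hσA⟩ := hbig s hsr h1 S1 hS1
  obtain ⟨f, hf, hfA⟩ := hbig q hqr h2 Q1 hQ1
  have hσD : σ ∈ DD A N0 s := S.alpha hAab hAc hCw hN hAN hS1 hσ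
  have hfD : f ∈ DD A N0 q := S.symm.alpha hAab hAc (fun w hw hE => hCw w hw hE.symm) hN hAN hQ1 hf
  have hσN := hS1.le hσ
  have hfN := hQ1.le hf
  -- noncentral elements of `A`
  have hh0A : h0 ∈ A := ⟨hh0, self_mem h0⟩
  have hCh0 : C h0 = A := hCw h0 hh0A ⟨hh0c, Or.inl hh0s⟩
  obtain ⟨v, hv, hvq, hvc⟩ := S.h.N1 S.hqd hh0c
  rw [hCh0] at hv
  have hCv : C v = A := hCw v hv ⟨hvc, Or.inr hvq⟩
  -- the commutator
  have hkDs : σ⁻¹ * (f * σ * f⁻¹) ∈ DD A N0 s := mul_mem (inv_mem hσD) (DD_conj hN hσD hfN)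
  have hkDq : σ⁻¹ * (f * σ * f⁻¹) ∈ DD A N0 q := by
    have h3 : σ⁻¹ * (f * σ * f⁻¹) = (σ⁻¹ * f * σ⁻¹⁻¹) * f⁻¹ := by group
    rw [h3]
    exact mul_mem (DD_conj hN hfD (inv_mem hσN)) (inv_mem hfD)
  have hkA : σ⁻¹ * (f * σ * f⁻¹) ∈ A := by
    obtain ⟨a, b, hab, -, ha, hb, has, hbs⟩ := parts S.hs (σ⁻¹ * (f * σ * f⁻¹))
    rw [← hab]
    refine mul_mem ?_ ?_
    · exact DD_mem S.hq hAab hN hv hvq hCv ((zpowers_le.2 hkDq) ha) (PEl.coprime' S.hq S.hs S.hsq.symm has)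
    · exact DD_mem S.hs hAab hN hh0A hh0s hCh0 ((zpowers_le.2 hkDs) hb) hbs
  apply hfA
  apply DD_mem S.hs hAab hN hh0A hh0s hCh0 _ (PEl.coprime' S.hs S.hq S.hsq (PEl.of_mem hQ1.isPGroup hf))
  rw [mem_DD]
  refine ⟨hfN, ?_⟩
  intro c hc hcs
  have hc1 : f * c * f⁻¹ ∈ A := (Subgroup.mem_normalizer_iff.1 (hN hfN) c).1 hc
  have hwA : c⁻¹ * (f * c * f⁻¹) ∈ A := mul_mem (inv_mem hc) hc1
  have hws : PEl s (c⁻¹ * (f * c * f⁻¹)) := (hcs.inv).mul S.hs (hcs.conj f) (hAab _ (inv_mem hc) _ hc1)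
  by_contra hwZ
  apply hσA
  rw [← hCw _ hwA ⟨hwZ, Or.inl hws⟩]
  -- z = [σ, c]
  have hz := (mem_DD.1 hσD).2 c hc hcs
  set k := σ⁻¹ * (f * σ * f⁻¹) with hk
  set c' := f * c * f⁻¹ with hc'
  have hfσ : f * σ * f⁻¹ = σ * k := by rw [hk]; group
  have e4 : σ * c * σ⁻¹ = c * (c⁻¹ * (σ * c * σ⁻¹)) := by group
  have e5 : σ * c' * σ⁻¹ = c' * (c⁻¹ * (σ * c * σ⁻¹)) := by
    have h5 : (f * σ * f⁻¹) * c' * (f * σ * f⁻¹)⁻¹ = c' * (c⁻¹ * (σ * c * σ⁻¹)) := by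
      calc (f * σ * f⁻¹) * c' * (f * σ * f⁻¹)⁻¹ = f * (σ * c * σ⁻¹) * f⁻¹ := by rw [hc']; group
        _ = f * (c * (c⁻¹ * (σ * c * σ⁻¹))) * f⁻¹ := by rw [← e4]
        _ = c' * (f * (c⁻¹ * (σ * c * σ⁻¹)) * f⁻¹) := by rw [hc']; group
        _ = c' * (c⁻¹ * (σ * c * σ⁻¹)) := by rw [center_conj hz]
    rw [hfσ] at h5
    have h6 : σ * k * c' * (σ * k)⁻¹ = σ * c' * σ⁻¹ := by
      have h7 := hAab k hkA c' hc1
      calc σ * k * c' * (σ * k)⁻¹ = σ * (k * c') * k⁻¹ * σ⁻¹ := by group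
        _ = σ * c' * σ⁻¹ := by rw [h7]; group
    rw [h6] at h5
    exact h5
  rw [mem_C]
  have h8 : σ * (c⁻¹ * c') * σ⁻¹ = c⁻¹ * c' := by
    calc σ * (c⁻¹ * c') * σ⁻¹ = (σ * c * σ⁻¹)⁻¹ * (σ * c' * σ⁻¹) := by group
      _ = (c * (c⁻¹ * (σ * c * σ⁻¹)))⁻¹ * (c' * (c⁻¹ * (σ * c * σ⁻¹))) := by rw [e5, ← e4]
      _ = (c⁻¹ * (σ * c * σ⁻¹))⁻¹ * ((c⁻¹ * c') * (c⁻¹ * (σ * c * σ⁻¹))) := by group
      _ = c⁻¹ * c' := by rw [mem_center_iff.1 hz (c⁻¹ * c'), ← mul_assoc, inv_mul_cancel, one_mul]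
  exact mul_inv_eq_iff_eq_mul.1 h8

/-- the nested case is impossible -/
theorem Ctx.false (h : Ctx G c1 c2) : False := by
  obtain ⟨x, y, hx, hy, hxy⟩ := h.nest
  obtain ⟨r, hr, y1, hy1, hy1c, hy1r⟩ := exists_prim _ y rfl hy
  have h1 : C y = C y1 := h.max hy1c (h.card_of_lt hx hy hxy).2 (C_le_of_mem_zpowers hy1)
  have N : Nst G c1 c2 r x y1 := ⟨h, hr, hx, hy1c, hy1r, h1 ▸ hxy⟩
  obtain ⟨s, hs, hsd, hsr, -⟩ := h.third r r
  obtain ⟨q, hq, hqd, hqr, hqs⟩ := h.third r s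
  have hNN : ∀ k, k.Prime → k ≠ r → NN G k := by
    intro k hk hkr a b ha hb hbk hlt
    exact hkr (N.uniq (⟨h, hk, ha, hb, hbk, hlt⟩ : Nst G c1 c2 k a b)).symm
  have S : Six G c1 c2 s q := ⟨h, hs, hq, hqs.symm, hsd, hqd, hNN s hs hsr, hNN q hq hqr⟩
  by_cases h2 : lp q c1 = lp q c2
  · exact S.false_of_eq h2
  by_cases h3 : lp s c1 = lp s c2
  · exact S.symm.false_of_eq h3
  exact S.false_of_ne (lt_of_le_of_ne (lp_le_of_dvd hs h.pos2.ne' h.dvd) h3)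
    (lt_of_le_of_ne (lp_le_of_dvd hq h.pos2.ne' h.dvd) h2) N

end Cfsg.Agent.Lib.H9Ito
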