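import Cfsg.Agent.Lib.HallComplement
import Cfsg.Agent.Lib.NilPieces
import Cfsg.Agent.Lib.RelSylow

/-!
# Counting classes of `π`-elements, I: the recursion over one prime (helper71)
-/

set_option autoImplicit false
set_option linter.all false

namespace Cfsg.Agent.Lib.HPc

open Subgroup Pointwise

universe u

/-- the `π`-part of a number -/
def pp (π : Finset ℕ) (n : ℕ) : ℕ := ∏ q ∈ π, q ^ n.factorization q

theorem pp_empty (n : ℕ) : pp ∅ n = 1 := Finset.prod_empty

theorem pp_insert {π : Finset ℕ} {p : ℕ} (h : p ∉ π) (n : ℕ) : pp (insert p π) n = p ^ n.factorization p * pp π n :=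
  Finset.prod_insert h

theorem pp_pos {π : Finset ℕ} (hπ : ∀ q ∈ π, q.Prime) (n : ℕ) : 0 < pp π n :=
  Finset.prod_pos fun q hq => pow_pos (hπ q hq).pos _

theorem pp_mono {π : Finset ℕ} {m n : ℕ} (hn : n ≠ 0) (h : m ∣ n) : pp π m ∣ pp π n := by
  apply Finset.prod_dvd_prod_of_dvd
  intro q _
  have hm : m ≠ 0 := fun h0 => hn (by rw [h0] at h; exact zero_dvd_iff.1 h)
  exact pow_dvd_pow q ((Nat.factorization_le_iff_dvd hm hn).2 h q)

theorem pp_dvd {π : Finset ℕ} (hπ : ∀ q ∈ π, q.Prime) {n : ℕ} (hn : n ≠ 0) : pp π n ∣ n := by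
  apply Finset.prod_dvd_of_isRelPrime
  · intro a ha b hb hab
    exact Nat.coprime_iff_isRelPrime.1 (Nat.Coprime.pow _ _ ((Nat.coprime_primes (hπ a ha) (hπ b hb)).2 hab))
  · intro q _
    exact Nat.ordProj_dvd n q

theorem mem_of_dvd_pp {π : Finset ℕ} (hπ : ∀ q ∈ π, q.Prime) {n r : ℕ} (hr : r.Prime) (h : r ∣ pp π n) : r ∈ π := by
  unfold pp at h
  rw [hr.prime.dvd_finset_prod_iff] at h
  obtain ⟨q, hq, h⟩ := h
  rwa [(Nat.prime_dvd_prime_iff_eq hr (hπ q hq)).1 (hr.dvd_of_dvd_pow h)]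

theorem pp_fact {π : Finset ℕ} (hπ : ∀ q ∈ π, q.Prime) {n r : ℕ} (hr : r ∈ π) :
    (pp π n).factorization r = n.factorization r := by
  unfold pp
  rw [Nat.factorization_prod (fun q hq => pow_ne_zero _ (hπ q hq).ne_zero), Finsupp.finset_sum_apply,
    Finset.sum_eq_single r]
  · rw [(hπ r hr).factorization_pow, Finsupp.single_eq_same]
  · intro q hq hqr
    rw [(hπ q hq).factorization_pow, Finsupp.single_eq_of_ne hqr.symm]
  · intro h; exact absurd hr h

theorem pp_idem {π : Finset ℕ} (hπ : ∀ q ∈ π, q.Prime) (n : ℕ) : pp π (pp π n) = pp π n := by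
  conv_lhs => rw [pp.eq_def π (pp π n)]
  conv_rhs => rw [pp.eq_def]
  exact Finset.prod_congr rfl fun q hq => by rw [pp_fact hπ hq]

theorem not_dvd_div {π : Finset ℕ} (hπ : ∀ q ∈ π, q.Prime) {n r : ℕ} (hn : n ≠ 0) (hr : r ∈ π) : ¬ r ∣ n / pp π n := by
  intro h
  have h1 := pp_dvd hπ hn
  have h2 : pp π n * r ∣ n := by
    obtain ⟨k, hk⟩ := h
    refine ⟨k, ?_⟩
    have h5 := Nat.mul_div_cancel' h1
    rw [hk] at h5
    calc n = pp π n * (r * k) := h5.symm
      _ = pp π n * r * k := by rw [mul_assoc]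
  have h3 := (Nat.factorization_le_iff_dvd (mul_ne_zero (pp_pos hπ n).ne' (hπ r hr).ne_zero) hn).2 h2 r
  rw [Nat.factorization_mul (pp_pos hπ n).ne' (hπ r hr).ne_zero, Finsupp.add_apply, pp_fact hπ hr,
    (hπ r hr).factorization_self] at h3
  omega

theorem coprime_div {π : Finset ℕ} (hπ : ∀ q ∈ π, q.Prime) {n : ℕ} (hn : n ≠ 0) : Nat.Coprime (pp π n) (n / pp π n) := by
  apply Nat.coprime_of_dvd
  intro k hk h1 h2
  exact not_dvd_div hπ hn (mem_of_dvd_pp hπ hk h1) h2

section grp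
variable {G : Type u} [Group G]

/-- `π`-elements -/
def IsPi (π : Finset ℕ) (g : G) : Prop := ∀ q : ℕ, q.Prime → q ∣ orderOf g → q ∈ π

theorem IsPi.conj {π : Finset ℕ} {g : G} (h : IsPi π g) (x : G) : IsPi π (x * g * x⁻¹) := by
  intro q hq hd
  apply h q hq
  have : orderOf (x * g * x⁻¹) = orderOf g := by
    have := MulEquiv.orderOf_eq (MulAut.conj x) g
    rwa [MulAut.conj_apply] at this
  rwa [this] at hd

theorem isPi_of_mem {π : Finset ℕ} [Finite G] {L : Subgroup G} (hL : ∀ q : ℕ, q.Prime → q ∣ Nat.card L → q ∈ π) {g : G}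
    (hg : g ∈ L) : IsPi π g := by
  intro q hq hd
  apply hL q hq
  have := orderOf_dvd_natCard (⟨g, hg⟩ : L)
  rw [Subgroup.orderOf_mk] at this
  exact hd.trans this

variable (π : Finset ℕ)
/-- number of classes of `π`-elements -/
noncomputable def kk (G : Type u) [Group G] : ℕ := Set.ncard {C : ConjClasses G | ∃ g, ConjClasses.mk g = C ∧ IsPi π g}

variable {π}

/-- decomposition of elements -/
theorem decomp [Finite G] {p : ℕ} [hp : Fact p.Prime] {π : Finset ℕ} (hpπ : p ∉ π) {z : G} (hz : IsPi (insert p π) z) :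
    ∃ a b : G, z = a * b ∧ a * b = b * a ∧ (∃ k, orderOf a = p ^ k) ∧ IsPi π b := by
  have hn : orderOf z ≠ 0 := (orderOf_pos z).ne'
  obtain ⟨k, m, hm, hkm⟩ := Nat.exists_eq_pow_mul_and_not_dvd hn p hp.out.ne_one
  have hcop : Nat.Coprime (p ^ k) m := Nat.Coprime.pow_left k ((Nat.Prime.coprime_iff_not_dvd hp.out).2 hm)
  have hbez := Nat.gcd_eq_gcd_ab (p ^ k) m
  rw [hcop.gcd_eq_one] at hbez
  set s := Nat.gcdA (p ^ k) m
  set t := Nat.gcdB (p ^ k) m
  refine ⟨z ^ ((m : ℤ) * t), z ^ (((p ^ k : ℕ) : ℤ) * s), ?_, ?_, ?_, ?_⟩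
  · rw [← zpow_add, add_comm, ← hbez]; simp
  · rw [← zpow_add, ← zpow_add, add_comm]
  · have h1 : (z ^ ((m : ℤ) * t)) ^ (p ^ k) = 1 := by
      rw [← zpow_natCast, ← zpow_mul]
      have : (m : ℤ) * t * ((p ^ k : ℕ) : ℤ) = ((orderOf z : ℕ) : ℤ) * t := by rw [hkm]; push_cast; ring
      rw [this, zpow_mul, zpow_natCast, pow_orderOf_eq_one, one_zpow]
    obtain ⟨j, _, hj⟩ := (Nat.dvd_prime_pow hp.out).1 (orderOf_dvd_of_pow_eq_one h1)
    exact ⟨j, hj⟩
  · have h1 : (z ^ (((p ^ k : ℕ) : ℤ) * s)) ^ m = 1 := by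
      rw [← zpow_natCast, ← zpow_mul]
      have : ((p ^ k : ℕ) : ℤ) * s * (m : ℤ) = ((orderOf z : ℕ) : ℤ) * s := by rw [hkm]; push_cast; ring
      rw [this, zpow_mul, zpow_natCast, pow_orderOf_eq_one, one_zpow]
    intro q hq hd
    have h2 := hd.trans (orderOf_dvd_of_pow_eq_one h1)
    have h3 : q ∣ orderOf z := by rw [hkm]; exact h2.mul_left _
    rcases Finset.mem_insert.1 (hz q hq h3) with h | h
    · rw [h] at h2; exact absurd h2 hm
    · exact h

/-- the recursion -/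
theorem rec_le [Fintype G] {p : ℕ} [hp : Fact p.Prime] {π : Finset ℕ} (hpπ : p ∉ π) (P : Sylow p G) (r : ℕ) (F : G → ℕ)
    [DecidablePred (· ∈ (P : Subgroup G))] [DecidableEq (ConjClasses G)]
    (h : ∀ x ∈ (P : Subgroup G), ∃ x' ∈ (P : Subgroup G), IsConj x x' ∧
      r * kk π (centralizer ({x'} : Set G)) ≤
        ∑ y ∈ (Finset.univ.filter (· ∈ (P : Subgroup G))) with ConjClasses.mk y = ConjClasses.mk x, F y) :
    r * kk (insert p π) G ≤ ∑ y ∈ Finset.univ.filter (· ∈ (P : Subgroup G)), F y := by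
  classical
  set PF : Finset G := Finset.univ.filter (· ∈ (P : Subgroup G)) with hPF
  set T : Finset (ConjClasses G) := PF.image ConjClasses.mk with hT
  have h0 : ∀ C : ConjClasses G, ∃ x' : G, C ∈ T → (ConjClasses.mk x' = C ∧
      r * kk π (centralizer ({x'} : Set G)) ≤ ∑ y ∈ PF with ConjClasses.mk y = C, F y) := by
    intro C
    by_cases hC : C ∈ T
    · obtain ⟨x, hx, rfl⟩ := Finset.mem_image.1 hC
      obtain ⟨x', hx', hc, hr⟩ := h x (Finset.mem_filter.1 hx).2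
      exact ⟨x', fun _ => ⟨(ConjClasses.mk_eq_mk_iff_isConj.2 hc).symm, hr⟩⟩
    · exact ⟨1, fun h => absurd h hC⟩
  choose xx hxx using h0
  let A : ConjClasses G → Set (ConjClasses G) := fun C =>
    {D | ∃ y ∈ centralizer ({xx C} : Set G), IsPi π y ∧ D = ConjClasses.mk (xx C * y)}
  have hA : ∀ C, (A C).ncard ≤ kk π (centralizer ({xx C} : Set G)) := by
    intro C
    let φ : ConjClasses (centralizer ({xx C} : Set G)) → ConjClasses G := fun E => ConjClasses.mk (xx C * (Quotient.out E : _))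
    have h1 : A C ⊆ φ '' {E | ∃ g, ConjClasses.mk g = E ∧ IsPi π g} := by
      rintro D ⟨y, hy, hyπ, rfl⟩
      refine ⟨ConjClasses.mk ⟨y, hy⟩, ⟨⟨y, hy⟩, rfl, ?_⟩, ?_⟩
      · intro q hq hd
        rw [Subgroup.orderOf_mk] at hd
        exact hyπ q hq hd
      · show ConjClasses.mk (xx C * _) = _
        have h2 : IsConj (Quotient.out (ConjClasses.mk (⟨y, hy⟩ : centralizer ({xx C} : Set G)))) ⟨y, hy⟩ := by
          rw [← ConjClasses.mk_eq_mk_iff_isConj]
          exact Quotient.out_eq _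
        obtain ⟨c, hc⟩ := isConj_iff.1 h2
        rw [ConjClasses.mk_eq_mk_iff_isConj, isConj_iff]
        refine ⟨c, ?_⟩
        have h3 := congrArg Subtype.val hc
        have h4 : (c : G) * xx C = xx C * c := by
          have := c.2
          rw [mem_centralizer_singleton_iff] at this
          exact this
        have h5 : (c : G) * (Quotient.out (ConjClasses.mk (⟨y, hy⟩ : centralizer ({xx C} : Set G))) : _) * (c : G)⁻¹ = y := h3
        calc (c : G) * (xx C * (Quotient.out (ConjClasses.mk (⟨y, hy⟩ : centralizer ({xx C} : Set G))) : _)) * (c : G)⁻¹ =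
            ((c : G) * xx C) * (c : G)⁻¹ * ((c : G) * (Quotient.out (ConjClasses.mk (⟨y, hy⟩ : centralizer ({xx C} : Set G))) : _) * (c : G)⁻¹) := by group
          _ = _ := by rw [h5, h4]; group
    calc (A C).ncard ≤ (φ '' {E | ∃ g, ConjClasses.mk g = E ∧ IsPi π g}).ncard := Set.ncard_le_ncard h1
      _ ≤ _ := Set.ncard_image_le
  have hcov : {C : ConjClasses G | ∃ g, ConjClasses.mk g = C ∧ IsPi (insert p π) g} ⊆ ⋃ C ∈ T, A C := by
    rintro _ ⟨z, rfl, hz⟩
    obtain ⟨a, b, hab, hcomm, ⟨k, hk⟩, hb⟩ := decomp hpπ hz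
    have hap : IsPGroup p (zpowers a) := IsPGroup.of_card (n := k) (by rw [Nat.card_zpowers, hk])
    obtain ⟨Q, hQ⟩ := hap.exists_le_sylow
    obtain ⟨g, hg⟩ := MulAction.exists_smul_eq G Q P
    have ha : g * a * g⁻¹ ∈ (P : Subgroup G) := by
      rw [← hg]
      exact ⟨a, hQ (mem_zpowers a), rfl⟩
    have hT' : ConjClasses.mk (g * a * g⁻¹) ∈ T := Finset.mem_image.2 ⟨_, Finset.mem_filter.2 ⟨Finset.mem_univ _, ha⟩, rfl⟩
    obtain ⟨h1, -⟩ := hxx _ hT'
    have h2 : IsConj a (xx (ConjClasses.mk (g * a * g⁻¹))) := by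
      have h3 : IsConj (g * a * g⁻¹) a := by
        rw [isConj_comm, isConj_iff]; exact ⟨g, rfl⟩
      exact h3.symm.trans (ConjClasses.mk_eq_mk_iff_isConj.1 h1).symm
    obtain ⟨c, hc⟩ := isConj_iff.1 h2
    rw [Set.mem_iUnion₂]
    refine ⟨_, hT', c * b * c⁻¹, ?_, hb.conj c, ?_⟩
    · rw [mem_centralizer_singleton_iff, ← hc]
      calc c * b * c⁻¹ * (c * a * c⁻¹) = c * (b * a) * c⁻¹ := by group
        _ = c * (a * b) * c⁻¹ := by rw [hcomm]
        _ = _ := by group
    · rw [ConjClasses.mk_eq_mk_iff_isConj, isConj_iff, ← hc, hab]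
      exact ⟨c, by group⟩
  calc r * kk (insert p π) G ≤ r * (⋃ C ∈ T, A C).ncard := Nat.mul_le_mul_left _ (Set.ncard_le_ncard hcov)
    _ ≤ r * ∑ C ∈ T, (A C).ncard := Nat.mul_le_mul_left _ (Finset.set_ncard_biUnion_le _ _)
    _ = ∑ C ∈ T, r * (A C).ncard := Finset.mul_sum _ _ _
    _ ≤ ∑ C ∈ T, ∑ y ∈ PF with ConjClasses.mk y = C, F y := by
      apply Finset.sum_le_sum
      intro C hC
      exact (Nat.mul_le_mul_left _ (hA C)).trans (hxx C hC).2
    _ = _ := Finset.sum_fiberwise_of_maps_to (fun y hy => Finset.mem_image_of_mem _ hy) _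

theorem kk_empty : kk ∅ G ≤ 1 := by
  unfold kk
  have : {C : ConjClasses G | ∃ g, ConjClasses.mk g = C ∧ IsPi ∅ g} ⊆ {ConjClasses.mk 1} := by
    rintro _ ⟨g, rfl, hg⟩
    have h1 : orderOf g = 1 := by
      by_contra h
      obtain ⟨q, hq, hd⟩ := Nat.exists_prime_and_dvd h
      exact absurd (hg q hq hd) (Finset.notMem_empty q)
    rw [orderOf_eq_one_iff.1 h1]; rfl
  calc _ ≤ ({ConjClasses.mk 1} : Set (ConjClasses G)).ncard := Set.ncard_le_ncard this (Set.finite_singleton _)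
    _ = 1 := Set.ncard_singleton _

end grp

theorem kk_le (π : Finset ℕ) (hπ : ∀ q ∈ π, q.Prime) : ∀ (G : Type u) [Group G] [Finite G], kk π G ≤ pp π (Nat.card G) := by
  classical
  induction π using Finset.induction_on with
  | empty => intro G _ _; rw [pp_empty]; exact kk_empty
  | insert p π hp ih =>
    intro G _ _
    have := Fintype.ofFinite G
    have hpp : Fact p.Prime := ⟨hπ p (Finset.mem_insert_self _ _)⟩
    have hπ' : ∀ q ∈ π, q.Prime := fun q hq => hπ q (Finset.mem_insert_of_mem hq)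
    obtain ⟨P⟩ : Nonempty (Sylow p G) := inferInstance
    have h := rec_le hp P 1 (fun _ => pp π (Nat.card G)) (by
      intro x hx
      refine ⟨x, hx, IsConj.refl x, ?_⟩
      rw [one_mul]
      calc kk π (centralizer ({x} : Set G)) ≤ pp π (Nat.card (centralizer ({x} : Set G))) := ih hπ' _
        _ ≤ pp π (Nat.card G) := Nat.le_of_dvd (pp_pos hπ' _) (pp_mono Nat.card_pos.ne' (card_subgroup_dvd_card _))
        _ ≤ _ := by
          have hm : x ∈ (Finset.univ.filter (· ∈ (P : Subgroup G))).filter (fun y => ConjClasses.mk y = ConjClasses.mk x) :=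
            Finset.mem_filter.2 ⟨Finset.mem_filter.2 ⟨Finset.mem_univ x, hx⟩, rfl⟩
          exact Finset.single_le_sum (f := fun _ => pp π (Nat.card G)) (fun _ _ => Nat.zero_le _) hm)
    rw [one_mul, Finset.sum_const, smul_eq_mul] at h
    have h2 : (Finset.univ.filter (· ∈ (P : Subgroup G))).card = p ^ (Nat.card G).factorization p := by
      rw [← P.card_eq_multiplicity, Nat.card_eq_fintype_card, Fintype.card_subtype]
    rw [h2] at h
    rw [pp_insert hp]
    exact h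

end Cfsg.Agent.Lib.HPc
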