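import Cfsg.Agent.Lib.HPcA

/-!
# Counting classes of `π`-elements, II: nilpotent Hall subgroups (helper71)
-/

set_option autoImplicit false
set_option linter.all false

namespace Cfsg.Agent.Lib.HPc

open Subgroup Pointwise
open Cfsg.Agent.Lib.NilPieces

universe u

theorem pow_mul_unique {r k v a b : ℕ} (hr : r.Prime) (ha : ¬ r ∣ a) (hb : ¬ r ∣ b) (h : r ^ k * a = r ^ v * b) :
    r ^ k = r ^ v ∧ a = b := by
  have h1 : r ^ k ∣ r ^ v := by
    apply Nat.Coprime.dvd_of_dvd_mul_right (n := b) (Nat.Coprime.pow_left k ((Nat.Prime.coprime_iff_not_dvd hr).2 hb))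
    rw [← h]; exact dvd_mul_right _ _
  have h2 : r ^ v ∣ r ^ k := by
    apply Nat.Coprime.dvd_of_dvd_mul_right (n := a) (Nat.Coprime.pow_left v ((Nat.Prime.coprime_iff_not_dvd hr).2 ha))
    rw [h]; exact dvd_mul_right _ _
  have h3 := Nat.dvd_antisymm h1 h2
  refine ⟨h3, ?_⟩
  rw [h3] at h
  exact Nat.eq_of_mul_eq_mul_left (pow_pos hr.pos v) h

theorem isNilpotent_mono {G : Type*} [Group G] {A B : Subgroup G} (h : A ≤ B) (hB : Group.IsNilpotent B) : Group.IsNilpotent A := by
  have := hB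
  exact Group.nilpotent_of_mulEquiv (Subgroup.subgroupOfEquivOfLe h)

theorem isNilpotent_subgroupOf {G : Type*} [Group G] {A B : Subgroup G} (h : A ≤ B) (hA : Group.IsNilpotent A) :
    Group.IsNilpotent (A.subgroupOf B) := by
  have := hA
  exact Group.nilpotent_of_mulEquiv (Subgroup.subgroupOfEquivOfLe h).symm

/-- the part of a subgroup -/
theorem pp_sub {G : Type*} [Group G] [Finite G] {π : Finset ℕ} (hπ : ∀ q ∈ π, q.Prime) {H M : Subgroup G} (hHM : H ≤ M)
    (hH : Nat.card H = pp π (Nat.card G)) : pp π (Nat.card M) = Nat.card H := by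
  apply Nat.dvd_antisymm
  · rw [hH]; exact pp_mono Nat.card_pos.ne' (card_subgroup_dvd_card M)
  · have h1 : pp π (Nat.card H) = Nat.card H := by rw [hH, pp_idem hπ]
    rw [← h1]
    exact pp_mono Nat.card_pos.ne' (card_dvd_of_le hHM)

/-- the pieces -/
theorem pieces {G : Type*} [Group G] [Finite G] {r : ℕ} [hr : Fact r.Prime] {π : Finset ℕ} (hπ : ∀ q ∈ π, q.Prime) (hrπ : r ∉ π)
    {L : Subgroup G} (hL : Group.IsNilpotent L) (hcard : Nat.card L = pp (insert r π) (Nat.card G)) :
    Nat.card (sy r L) = r ^ (Nat.card G).factorization r ∧ Nat.card (NilPieces.hc r L) = pp π (Nat.card G) := by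
  have h1 := Lib.SubgroupTools.card_sup_mul_card_inf (N := sy r L) (H := NilPieces.hc r L) ((hc_le r L).trans (sy_norm r L))
  obtain ⟨k, hk⟩ := IsPGroup.iff_card.mp (sy_pgroup r L)
  have hcop := hc_coprime r L
  have h2 : sy r L ⊓ NilPieces.hc r L = ⊥ := by
    apply Lib.SubgroupTools.inf_eq_bot_of_coprime'
    rw [hk]
    exact hcop.symm.pow_left k
  rw [sy_sup_hc hL, h2, card_bot, mul_one, hk, hcard, pp_insert hrπ] at h1
  have h3 : ¬ r ∣ pp π (Nat.card G) := fun h => hrπ (mem_of_dvd_pp hπ hr.out h)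
  have h4 : ¬ r ∣ Nat.card (NilPieces.hc r L) := fun h => by
    have := Nat.Coprime.eq_one_of_dvd hcop.symm h
    exact hr.out.one_lt.ne' this
  obtain ⟨h5, h6⟩ := pow_mul_unique hr.out h4 h3 h1.symm
  exact ⟨hk.trans h5, h6⟩

/-- Wielandt, for elements -/
theorem wiel (π : Finset ℕ) (hπ : ∀ q ∈ π, q.Prime) : ∀ (G : Type u) [Group G] [Finite G] (L : Subgroup G),
    Group.IsNilpotent L → Nat.card L = pp π (Nat.card G) → ∀ y : G, IsPi π y → ∃ g : G, g * y * g⁻¹ ∈ L := by
  classical
  induction π using Finset.induction_on with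
  | empty =>
    intro G _ _ L _ _ y hy
    refine ⟨1, ?_⟩
    have h1 : orderOf y = 1 := by
      by_contra h
      obtain ⟨q, hq, hd⟩ := Nat.exists_prime_and_dvd h
      exact absurd (hy q hq hd) (Finset.notMem_empty q)
    rw [orderOf_eq_one_iff.1 h1]
    simp
  | insert r π hr ih =>
    intro G _ _ L hL hcard y hy
    have hrp : Fact r.Prime := ⟨hπ r (Finset.mem_insert_self _ _)⟩
    have hπ' : ∀ q ∈ π, q.Prime := fun q hq => hπ q (Finset.mem_insert_of_mem hq)
    obtain ⟨h1, h2⟩ := pieces hπ' hr hL hcard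
    obtain ⟨a, b, hab, hcomm, ⟨k, hk⟩, hb⟩ := decomp hr hy
    let S : Sylow r G := Sylow.ofCard (sy r L) h1
    have hap : IsPGroup r (zpowers a) := IsPGroup.of_card (n := k) (by rw [Nat.card_zpowers, hk])
    obtain ⟨Q, hQ⟩ := hap.exists_le_sylow
    obtain ⟨g, hg⟩ := MulAction.exists_smul_eq G Q S
    have ha : g * a * g⁻¹ ∈ sy r L := by
      have : g * a * g⁻¹ ∈ (g • Q : Sylow r G) := ⟨a, hQ (mem_zpowers a), rfl⟩
      rw [hg] at this
      exact this
    set a' := g * a * g⁻¹ with ha'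
    set M : Subgroup G := centralizer ({a'} : Set G) with hM
    have hle : NilPieces.hc r L ≤ M := by
      have h3 := hc_cent hL (sy_le r L) (sy_pgroup r L)
      refine h3.trans (centralizer_le ?_)
      rintro _ rfl
      exact ha
    have hcM : Nat.card ((NilPieces.hc r L).subgroupOf M) = pp π (Nat.card M) := by
      rw [Lib.SubgroupTools.card_subgroupOf_of_le hle, pp_sub hπ' hle h2]
    have hbM : g * b * g⁻¹ ∈ M := by
      rw [hM, mem_centralizer_singleton_iff, ha']
      calc g * b * g⁻¹ * (g * a * g⁻¹) = g * (b * a) * g⁻¹ := by group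
        _ = g * (a * b) * g⁻¹ := by rw [hcomm]
        _ = _ := by group
    have hbπ : IsPi π (⟨g * b * g⁻¹, hbM⟩ : M) := by
      intro q hq hd
      rw [Subgroup.orderOf_mk] at hd
      exact (hb.conj g) q hq hd
    obtain ⟨c, hc⟩ := ih hπ' M ((NilPieces.hc r L).subgroupOf M)
      (isNilpotent_subgroupOf hle (isNilpotent_mono (hc_le r L) hL)) hcM ⟨g * b * g⁻¹, hbM⟩ hbπ
    have hc' : (c : G) * (g * b * g⁻¹) * (c : G)⁻¹ ∈ NilPieces.hc r L := hc
    have hca : (c : G) * a' = a' * c := by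
      have := c.2
      exact mem_centralizer_singleton_iff.1 this
    refine ⟨c * g, ?_⟩
    have e : (c : G) * g * y * (c * g)⁻¹ = a' * ((c : G) * (g * b * g⁻¹) * (c : G)⁻¹) := by
      calc (c : G) * g * y * (c * g)⁻¹ = ((c : G) * a') * (c : G)⁻¹ * ((c : G) * (g * b * g⁻¹) * (c : G)⁻¹) := by
            rw [hab, ha']; group
        _ = _ := by rw [hca]; group
    rw [e]
    exact L.mul_mem (sy_le r L ha) (hc_le r L hc')

/-- counting orbits -/
theorem orb_le {M : Type u} [Group M] [Finite M] {π : Finset ℕ} {L : Subgroup M} (hL : ∀ y : M, IsPi π y → ∃ g : M, g * y * g⁻¹ ∈ L)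
    (u : M) (hu : u ∈ normalizer (L : Set M)) (r : ℕ) (hr : 1 ≤ r)
    (hor : ∀ y ∈ L, u * y ≠ y * u → ∀ i : ℕ, 0 < i → i < r → u ^ i * y ≠ y * u ^ i) (p : ℕ)
    (hfix : (p + 1) * Nat.card (L ⊓ centralizer ({u} : Set M) : Subgroup M) ≤ Nat.card L) :
    (p + 1) * (r * kk π M) ≤ (p + r) * Nat.card L := by
  classical
  have := Fintype.ofFinite M
  set LF : Finset M := Finset.univ.filter (· ∈ L) with hLF
  set T : Finset (ConjClasses M) := LF.image ConjClasses.mk with hT
  let f : M → ℕ := fun y => if u * y = y * u then r else 1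
  have hf1 : ∀ y, 1 ≤ f y := by
    intro y
    show 1 ≤ if u * y = y * u then r else 1
    split_ifs
    · exact hr
    · exact le_refl 1
  have hkk : kk π M ≤ T.card := by
    unfold kk
    rw [← Set.ncard_coe_finset]
    refine Set.ncard_le_ncard ?_ (Set.toFinite _)
    rintro _ ⟨y, rfl, hy⟩
    obtain ⟨g, hg⟩ := hL y hy
    rw [Finset.mem_coe, hT, Finset.mem_image]
    refine ⟨g * y * g⁻¹, Finset.mem_filter.2 ⟨Finset.mem_univ _, hg⟩, ?_⟩
    rw [ConjClasses.mk_eq_mk_iff_isConj, isConj_comm, isConj_iff]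
    exact ⟨g, rfl⟩
  have hT2 : r * T.card ≤ ∑ y ∈ LF, f y := by
    rw [mul_comm, ← smul_eq_mul, ← Finset.sum_const, ← Finset.sum_fiberwise_of_maps_to (s := LF) (t := T) (g := ConjClasses.mk)
      (fun y hy => Finset.mem_image_of_mem _ hy) f]
    apply Finset.sum_le_sum
    intro C hC
    obtain ⟨x, hx, rfl⟩ := Finset.mem_image.1 hC
    have hxL : x ∈ L := (Finset.mem_filter.1 hx).2
    by_cases hc : u * x = x * u
    · have hxm : x ∈ LF.filter (fun y => ConjClasses.mk y = ConjClasses.mk x) := Finset.mem_filter.2 ⟨hx, rfl⟩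
      have h1 : f x = r := if_pos hc
      calc r = f x := h1.symm
        _ ≤ _ := Finset.single_le_sum (f := f) (fun _ _ => Nat.zero_le _) hxm
    · have h1 := hor x hxL hc
      have hmem : ∀ i : ℕ, u ^ i * x * (u ^ i)⁻¹ ∈ L := by
        intro i
        have := (mem_normalizer_iff.1 ((normalizer (L : Set M)).pow_mem hu i) x).1 hxL
        exact this
      have h2 : (Finset.range r).image (fun i => u ^ i * x * (u ^ i)⁻¹) ⊆ LF.filter (fun y => ConjClasses.mk y = ConjClasses.mk x) := by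
        intro y hy
        obtain ⟨i, _, rfl⟩ := Finset.mem_image.1 hy
        refine Finset.mem_filter.2 ⟨Finset.mem_filter.2 ⟨Finset.mem_univ _, hmem i⟩, ?_⟩
        rw [ConjClasses.mk_eq_mk_iff_isConj, isConj_comm, isConj_iff]
        exact ⟨u ^ i, rfl⟩
      have h4 : ∀ i j : ℕ, i < j → j < r → u ^ i * x * (u ^ i)⁻¹ = u ^ j * x * (u ^ j)⁻¹ → False := by
        intro i j hij hj he
        apply h1 (j - i) (by omega) (by omega)
        have e : u ^ j = u ^ i * u ^ (j - i) := by rw [← pow_add]; congr 1; omega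
        rw [e] at he
        have h6 : x = u ^ (j - i) * x * (u ^ (j - i))⁻¹ := by
          calc x = (u ^ i)⁻¹ * (u ^ i * x * (u ^ i)⁻¹) * u ^ i := by group
            _ = (u ^ i)⁻¹ * (u ^ i * u ^ (j - i) * x * (u ^ i * u ^ (j - i))⁻¹) * u ^ i := by rw [he]
            _ = _ := by group
        calc u ^ (j - i) * x = (u ^ (j - i) * x * (u ^ (j - i))⁻¹) * u ^ (j - i) := by group
          _ = x * u ^ (j - i) := by rw [← h6]
      have h3 : Set.InjOn (fun i => u ^ i * x * (u ^ i)⁻¹) (Finset.range r : Set ℕ) := by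
        intro i hi j hj hij
        rw [Finset.mem_coe, Finset.mem_range] at hi hj
        rcases lt_trichotomy i j with h | h | h
        · exact (h4 i j h hj hij).elim
        · exact h
        · exact (h4 j i h hi hij.symm).elim
      calc r = (Finset.range r).card := (Finset.card_range r).symm
        _ = ((Finset.range r).image (fun i => u ^ i * x * (u ^ i)⁻¹)).card := (Finset.card_image_of_injOn h3).symm
        _ ≤ (LF.filter (fun y => ConjClasses.mk y = ConjClasses.mk x)).card := Finset.card_le_card h2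
        _ = ∑ y ∈ LF.filter (fun y => ConjClasses.mk y = ConjClasses.mk x), 1 := by rw [Finset.sum_const, smul_eq_mul, mul_one]
        _ ≤ _ := Finset.sum_le_sum fun y _ => hf1 y
  have hcL : LF.card = Nat.card L := by
    rw [Nat.card_eq_fintype_card, Fintype.card_subtype]
  have hcC : (LF.filter (fun y => u * y = y * u)).card = Nat.card (L ⊓ centralizer ({u} : Set M) : Subgroup M) := by
    rw [Nat.card_eq_fintype_card, Fintype.card_subtype]
    congr 1
    ext y
    rw [Finset.mem_filter, Finset.mem_filter, Finset.mem_filter, Subgroup.mem_inf, mem_centralizer_singleton_iff]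
    constructor
    · rintro ⟨⟨h1, h2⟩, h3⟩; exact ⟨h1, h2, h3.symm⟩
    · rintro ⟨h1, h2, h3⟩; exact ⟨⟨h1, h2⟩, h3.symm⟩
  have hsum : ∑ y ∈ LF, f y = Nat.card L + (r - 1) * Nat.card (L ⊓ centralizer ({u} : Set M) : Subgroup M) := by
    have h1 : ∀ y ∈ LF, f y = 1 + if u * y = y * u then (r - 1) else 0 := by
      intro y _
      show (if u * y = y * u then r else 1) = _
      split_ifs <;> omega
    rw [Finset.sum_congr rfl h1, Finset.sum_add_distrib, Finset.sum_const, smul_eq_mul, mul_one, hcL, ← Finset.sum_filter,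
      Finset.sum_const, smul_eq_mul, hcC, mul_comm]
  obtain ⟨s, rfl⟩ : ∃ s, r = s + 1 := ⟨r - 1, by omega⟩
  rw [hsum] at hT2
  simp only [Nat.add_sub_cancel] at hT2
  have h5 : (s + 1) * kk π M ≤ Nat.card L + s * Nat.card (L ⊓ centralizer ({u} : Set M) : Subgroup M) :=
    (Nat.mul_le_mul_left _ hkk).trans hT2
  have h6 := Nat.mul_le_mul_left (p + 1) h5
  have h7 := Nat.mul_le_mul_left s hfix
  nlinarith

end Cfsg.Agent.Lib.HPc
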