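import Cfsg.Agent.Lib.HPcB

/-!
# Counting classes of `π`-elements, III: the weights (helper71)
-/

set_option autoImplicit false
set_option linter.all false

namespace Cfsg.Agent.Lib.HPc

open Subgroup Pointwise
open Cfsg.Agent.Lib.RelSylow

universe u

/-- the other recursion -/
theorem swap_le {G : Type u} [Group G] [Finite G] {p : ℕ} [hp : Fact p.Prime] {π : Finset ℕ} (hpπ : p ∉ π) :
    kk (insert p π) G ≤ p ^ (Nat.card G).factorization p * kk π G := by
  classical
  have := Fintype.ofFinite G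
  set TS : Set (ConjClasses G) := {C : ConjClasses G | ∃ g, ConjClasses.mk g = C ∧ IsPi π g} with hTS
  set T : Finset (ConjClasses G) := (Set.toFinite TS).toFinset with hT
  let xx : ConjClasses G → G := fun C => Quotient.out C
  have hxx : ∀ C, ConjClasses.mk (xx C) = C := fun C => Quotient.out_eq _
  let A : ConjClasses G → Set (ConjClasses G) := fun C =>
    {D | ∃ y ∈ centralizer ({xx C} : Set G), IsPi {p} y ∧ D = ConjClasses.mk (xx C * y)}
  have hA : ∀ C, (A C).ncard ≤ kk {p} (centralizer ({xx C} : Set G)) := by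
    intro C
    let φ : ConjClasses (centralizer ({xx C} : Set G)) → ConjClasses G := fun E => ConjClasses.mk (xx C * (Quotient.out E : _))
    have h1 : A C ⊆ φ '' {E | ∃ g, ConjClasses.mk g = E ∧ IsPi {p} g} := by
      rintro D ⟨y, hy, hyπ, rfl⟩
      refine ⟨ConjClasses.mk ⟨y, hy⟩, ⟨⟨y, hy⟩, rfl, ?_⟩, ?_⟩
      · intro q hq hd
        rw [Subgroup.orderOf_mk] at hd
        exact hyπ q hq hd
      · show ConjClasses.mk (xx C * _) = _
        have h2 : IsConj (Quotient.out (ConjClasses.mk (⟨y, hy⟩ : centralizer ({xx C} : Set G)))) ⟨y, hy⟩ := by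
          rw [← ConjClasses.mk_eq_mk_iff_isConj]
          exact Quotient.out_eq _
        obtain ⟨c, hc⟩ := isConj_iff.1 h2
        rw [ConjClasses.mk_eq_mk_iff_isConj, isConj_iff]
        refine ⟨c, ?_⟩
        have h3 := congrArg Subtype.val hc
        have h4 : (c : G) * xx C = xx C * c := by
          have := c.2
          exact mem_centralizer_singleton_iff.1 this
        have h5 : (c : G) * (Quotient.out (ConjClasses.mk (⟨y, hy⟩ : centralizer ({xx C} : Set G))) : _) * (c : G)⁻¹ = y := h3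
        calc (c : G) * (xx C * (Quotient.out (ConjClasses.mk (⟨y, hy⟩ : centralizer ({xx C} : Set G))) : _)) * (c : G)⁻¹ =
            ((c : G) * xx C) * (c : G)⁻¹ * ((c : G) * (Quotient.out (ConjClasses.mk (⟨y, hy⟩ : centralizer ({xx C} : Set G))) : _) * (c : G)⁻¹) := by group
          _ = _ := by rw [h5, h4]; group
    calc (A C).ncard ≤ (φ '' {E | ∃ g, ConjClasses.mk g = E ∧ IsPi {p} g}).ncard := Set.ncard_le_ncard h1
      _ ≤ _ := Set.ncard_image_le
  have hcov : {C : ConjClasses G | ∃ g, ConjClasses.mk g = C ∧ IsPi (insert p π) g} ⊆ ⋃ C ∈ T, A C := by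
    rintro _ ⟨z, rfl, hz⟩
    obtain ⟨a, b, hab, hcomm, ⟨k, hk⟩, hb⟩ := decomp hpπ hz
    have hT' : ConjClasses.mk b ∈ T := by
      rw [hT, Set.Finite.mem_toFinset]
      exact ⟨b, rfl, hb⟩
    have h2 : IsConj b (xx (ConjClasses.mk b)) := (ConjClasses.mk_eq_mk_iff_isConj.1 (hxx _)).symm
    obtain ⟨c, hc⟩ := isConj_iff.1 h2
    have ha : IsPi {p} a := by
      intro q hq hd
      rw [hk] at hd
      exact Finset.mem_singleton.2 ((Nat.prime_dvd_prime_iff_eq hq hp.out).1 (hq.dvd_of_dvd_pow hd))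
    rw [Set.mem_iUnion₂]
    refine ⟨_, hT', c * a * c⁻¹, ?_, ha.conj c, ?_⟩
    · rw [mem_centralizer_singleton_iff, ← hc]
      calc c * a * c⁻¹ * (c * b * c⁻¹) = c * (a * b) * c⁻¹ := by group
        _ = c * (b * a) * c⁻¹ := by rw [hcomm]
        _ = _ := by group
    · rw [ConjClasses.mk_eq_mk_iff_isConj, isConj_iff, ← hc, hab, hcomm]
      exact ⟨c, by group⟩
  have hp1 : ∀ q ∈ ({p} : Finset ℕ), q.Prime := fun q hq => by rw [Finset.mem_singleton.1 hq]; exact hp.out
  have hbound : ∀ C, (A C).ncard ≤ p ^ (Nat.card G).factorization p := by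
    intro C
    refine (hA C).trans ((kk_le {p} hp1 _).trans ?_)
    have h1 : pp {p} (Nat.card (centralizer ({xx C} : Set G))) ≤ pp {p} (Nat.card G) :=
      Nat.le_of_dvd (pp_pos hp1 _) (pp_mono Nat.card_pos.ne' (card_subgroup_dvd_card _))
    refine h1.trans ?_
    unfold pp
    rw [Finset.prod_singleton]
  calc kk (insert p π) G ≤ (⋃ C ∈ T, A C).ncard := Set.ncard_le_ncard hcov
    _ ≤ ∑ C ∈ T, (A C).ncard := Finset.set_ncard_biUnion_le _ _
    _ ≤ ∑ C ∈ T, p ^ (Nat.card G).factorization p := Finset.sum_le_sum fun C _ => hbound C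
    _ = T.card * p ^ (Nat.card G).factorization p := by rw [Finset.sum_const, smul_eq_mul]
    _ = _ := by
      rw [mul_comm, hT]
      congr 1
      exact (Set.ncard_eq_toFinset_card TS).symm

section
variable {G : Type u} [Group G] [Finite G] {p : ℕ} [hp : Fact p.Prime] {π : Finset ℕ} (hπ : ∀ q ∈ π, q.Prime)
  (hpπ : ∀ q ∈ π, p + 1 ≤ q)
  (IH : ∀ (M : Type u) [Group M] [Finite M], pp π (Nat.card M) < (p + 1) * kk π M →
    ∃ H : Subgroup M, Nat.card H = pp π (Nat.card M) ∧ Group.IsNilpotent H)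
  {L : Subgroup G} (hL : Group.IsNilpotent L) (hLc : Nat.card L = pp π (Nat.card G))

include hπ hpπ in
/-- proper divisors -/
theorem ge_of_dvd {a b : ℕ} (hb : b ≠ 0) (hab : a ∣ b) (hne : a ≠ b) (hbπ : ∀ q : ℕ, q.Prime → q ∣ b → q ∈ π) : (p + 1) * a ≤ b := by
  obtain ⟨k, rfl⟩ := hab
  have hk : k ≠ 1 := fun h => hne (by rw [h, mul_one])
  have hk0 : k ≠ 0 := fun h => hb (by rw [h, mul_zero])
  obtain ⟨r, hr, hrk⟩ := Nat.exists_prime_and_dvd hk
  have h1 := hpπ r (hbπ r hr (hrk.mul_left a))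
  have h2 : r ≤ k := Nat.le_of_dvd (Nat.pos_of_ne_zero hk0) hrk
  rw [mul_comm]
  exact Nat.mul_le_mul_left a (h1.trans h2)

include hπ hLc in
theorem L_primes {q : ℕ} (hq : q.Prime) (hd : q ∣ Nat.card L) : q ∈ π := by
  rw [hLc] at hd
  exact mem_of_dvd_pp hπ hq hd

include hπ hLc in
theorem L_coprime : Nat.Coprime (Nat.card L) L.index := by
  have h1 := coprime_div hπ (Nat.card_pos (α := G)).ne'
  have h2 : L.index = Nat.card G / pp π (Nat.card G) := by
    rw [← hLc, ← Subgroup.card_mul_index L, Nat.mul_div_cancel_left _ Nat.card_pos]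
  rw [h2, hLc]
  exact h1

include hπ hpπ IH hL hLc in
/-- weight outside -/
theorem w1 (x : G) (hx : ∀ y, IsConj x y → y ∉ centralizer (L : Set G)) :
    (p + 1) * kk π (centralizer ({x} : Set G)) ≤ Nat.card L := by
  by_contra hcon
  push Not at hcon
  set M := centralizer ({x} : Set G) with hM
  have h1 : pp π (Nat.card M) ∣ Nat.card L := by
    rw [hLc]; exact pp_mono Nat.card_pos.ne' (card_subgroup_dvd_card M)
  by_cases he : pp π (Nat.card M) = Nat.card L
  · obtain ⟨H, hH, hnil⟩ := IH M (by rw [he]; exact hcon)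
    have h2 : Nat.card (H.map M.subtype) = Nat.card L := by
      rw [Subgroup.card_map_of_injective M.subtype_injective, hH, he]
    have h3 : Group.IsNilpotent (H.map M.subtype) :=
      Group.nilpotent_of_mulEquiv (H.equivMapOfInjective M.subtype M.subtype_injective)
    obtain ⟨g, hg⟩ := Lib.HallComplement.nilpotent_hall_conj L (H.map M.subtype) h2 (L_coprime hπ hLc) hL h3
    apply hx (g⁻¹ * x * g) (isConj_iff.2 ⟨g⁻¹, by group⟩)
    rw [mem_centralizer_iff]
    intro y hy
    have h4 : g * y * g⁻¹ ∈ H.map M.subtype := by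
      rw [← hg]
      exact ⟨y, hy, rfl⟩
    obtain ⟨w, _, hw⟩ := h4
    have h5 : (w : G) * x = x * w := mem_centralizer_singleton_iff.1 w.2
    have h6 : (w : G) = g * y * g⁻¹ := hw
    rw [h6] at h5
    calc y * (g⁻¹ * x * g) = g⁻¹ * ((g * y * g⁻¹) * x) * g := by group
      _ = g⁻¹ * (x * (g * y * g⁻¹)) * g := by rw [h5]
      _ = g⁻¹ * x * g * y := by group
  · have h2 := ge_of_dvd hπ hpπ Nat.card_pos.ne' h1 he (fun q hq hd => L_primes hπ hLc hq hd)
    have h3 := kk_le π hπ M
    have h4 := Nat.mul_le_mul_left (p + 1) h3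
    omega

include hπ hL hLc in
theorem wiel_in {x : G} (hx : L ≤ centralizer ({x} : Set G)) (y : centralizer ({x} : Set G)) (hy : IsPi π y) :
    ∃ g : centralizer ({x} : Set G), g * y * g⁻¹ ∈ L.subgroupOf (centralizer ({x} : Set G)) := by
  refine wiel π hπ _ _ (isNilpotent_subgroupOf hx hL) ?_ y hy
  rw [Lib.SubgroupTools.card_subgroupOf_of_le hx, pp_sub hπ hx hLc]

include hπ hpπ hL hLc in
/-- weights inside -/
theorem w_gen {x u : G} (hx : L ≤ centralizer ({x} : Set G)) (hux : u * x = x * u) (hu : u ∈ normalizer (L : Set G))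
    (hu' : u ∉ centralizer (L : Set G)) (r : ℕ) (hr : 1 ≤ r)
    (hor : ∀ y ∈ L, u * y ≠ y * u → ∀ i : ℕ, 0 < i → i < r → u ^ i * y ≠ y * u ^ i) :
    (p + 1) * (r * kk π (centralizer ({x} : Set G))) ≤ (p + r) * Nat.card L := by
  have huM : u ∈ centralizer ({x} : Set G) := mem_centralizer_singleton_iff.2 hux
  have h := orb_le (M := centralizer ({x} : Set G)) (L := L.subgroupOf (centralizer ({x} : Set G)))
    (fun y hy => wiel_in hπ hL hLc hx y hy) ⟨u, huM⟩ (by
      rw [mem_normalizer_iff]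
      intro z
      exact (mem_normalizer_iff.1 hu (z : G))) r hr (by
      intro y hy hne i hi hir h
      exact hor y hy (fun h1 => hne (Subtype.ext h1)) i hi hir (by simpa using congrArg Subtype.val h)) p (by
      rw [Lib.SubgroupTools.card_subgroupOf_of_le hx]
      have e : Nat.card ((L.subgroupOf (centralizer ({x} : Set G))) ⊓ centralizer ({(⟨u, huM⟩ : centralizer ({x} : Set G))} : Set _) : Subgroup _) =
          Nat.card (L ⊓ centralizer ({u} : Set G) : Subgroup G) := by
        have h1 : ((L.subgroupOf (centralizer ({x} : Set G))) ⊓ centralizer ({(⟨u, huM⟩ : centralizer ({x} : Set G))} : Set _) : Subgroup _) =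
            (L ⊓ centralizer ({u} : Set G)).subgroupOf (centralizer ({x} : Set G)) := by
          ext z
          rw [mem_inf, mem_subgroupOf, mem_subgroupOf, mem_inf, mem_centralizer_singleton_iff, mem_centralizer_singleton_iff,
            ← Subtype.coe_inj]
          rfl
        rw [h1, Lib.SubgroupTools.card_subgroupOf_of_le (inf_le_left.trans hx)]
      rw [e]
      apply ge_of_dvd hπ hpπ Nat.card_pos.ne' (card_dvd_of_le inf_le_left)
      · intro h1
        apply hu'
        have h2 : L ⊓ centralizer ({u} : Set G) = L := eq_of_le_of_card_ge inf_le_left h1.ge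
        rw [mem_centralizer_iff]
        intro y hy
        have : y ∈ L ⊓ centralizer ({u} : Set G) := by rw [h2]; exact hy
        exact mem_centralizer_singleton_iff.1 this.2
      · exact fun q hq hd => L_primes hπ hLc hq hd)
  rwa [Lib.SubgroupTools.card_subgroupOf_of_le hx] at h

omit [Finite G] hp in
theorem mem_of_pows {A : Subgroup G} {t : G} {i j : ℕ} (hi : t ^ i ∈ A) (hj : t ^ j ∈ A) (h : Nat.Coprime i j) : t ∈ A := by
  have h1 := Nat.gcd_eq_gcd_ab i j
  rw [h.gcd_eq_one] at h1
  have : t = (t ^ i) ^ (Nat.gcdA i j) * (t ^ j) ^ (Nat.gcdB i j) := by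
    rw [← zpow_natCast, ← zpow_natCast, ← zpow_mul, ← zpow_mul, ← zpow_add, ← h1]; simp
  rw [this]
  exact A.mul_mem (A.zpow_mem hi _) (A.zpow_mem hj _)

include hπ hpπ hL hLc in
theorem w2 {x u : G} (hx : L ≤ centralizer ({x} : Set G)) (hux : u * x = x * u) (hu : u ∈ normalizer (L : Set G))
    (hu' : u ∉ centralizer (L : Set G)) (hup : u ^ p ∈ centralizer (L : Set G)) :
    (p + 1) * kk π (centralizer ({x} : Set G)) ≤ 2 * Nat.card L := by
  have h := w_gen hπ hpπ hL hLc hx hux hu hu' p hp.out.one_lt.le (by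
    intro y hy hne i hi hip h
    apply hne
    have h1 : u ^ i ∈ centralizer ({y} : Set G) := mem_centralizer_singleton_iff.2 h
    have h2 : u ^ p ∈ centralizer ({y} : Set G) := by
      rw [mem_centralizer_singleton_iff]
      exact (mem_centralizer_iff.1 hup y hy).symm
    have h3 : Nat.Coprime i p := ((Nat.Prime.coprime_iff_not_dvd hp.out).2 (Nat.not_dvd_of_pos_of_lt hi hip)).symm
    exact mem_centralizer_singleton_iff.1 (mem_of_pows h1 h2 h3))
  have hp0 := hp.out.pos
  have h2 : p * ((p + 1) * kk π (centralizer ({x} : Set G))) ≤ p * (2 * Nat.card L) := by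
    calc p * ((p + 1) * kk π (centralizer ({x} : Set G))) = (p + 1) * (p * kk π (centralizer ({x} : Set G))) := by ring
      _ ≤ (p + p) * Nat.card L := h
      _ = _ := by ring
  exact Nat.le_of_mul_le_mul_left h2 hp0

include hπ hpπ hL hLc in
theorem w3 {x u : G} (hx : L ≤ centralizer ({x} : Set G)) (hux : u * x = x * u) (hu : u ∈ normalizer (L : Set G))
    (hu' : u ∉ centralizer (L : Set G)) :
    (p + 1) * (2 * kk π (centralizer ({x} : Set G))) ≤ (p + 2) * Nat.card L := by
  apply w_gen hπ hpπ hL hLc hx hux hu hu' 2 (by norm_num)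
  intro y hy hne i hi hi2
  have : i = 1 := by omega
  rw [this, pow_one]
  exact hne

include hπ hLc in
theorem w0 (x : G) : kk π (centralizer ({x} : Set G)) ≤ Nat.card L := by
  rw [hLc]
  exact (kk_le π hπ _).trans (Nat.le_of_dvd (pp_pos hπ _) (pp_mono Nat.card_pos.ne' (card_subgroup_dvd_card _)))

end

end Cfsg.Agent.Lib.HPc
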