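import Cfsg.Agent.Lib.HPcC

/-!
# Counting classes of `π`-elements, IV: the case analysis (helper71)
-/

set_option autoImplicit false
set_option linter.all false

namespace Cfsg.Agent.Lib.HPc

open Subgroup Pointwise
open Cfsg.Agent.Lib.RelSylow

universe u

section
variable {G : Type u} [Group G] [Finite G] {p : ℕ} [hp : Fact p.Prime] {π : Finset ℕ} (hπ : ∀ q ∈ π, q.Prime)
  (hpπ : ∀ q ∈ π, p + 1 ≤ q)
  (IH : ∀ (M : Type u) [Group M] [Finite M], pp π (Nat.card M) < (p + 1) * kk π M →
    ∃ H : Subgroup M, Nat.card H = pp π (Nat.card M) ∧ Group.IsNilpotent H)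
  {L : Subgroup G} (hL : Group.IsNilpotent L) (hLc : Nat.card L = pp π (Nat.card G))

include hpπ in
theorem p_notMem : p ∉ π := fun h => by have := hpπ p h; omega

include hpπ hLc in
theorem pp_eq (P : Sylow p G) : pp (insert p π) (Nat.card G) = Nat.card P * Nat.card L := by
  rw [pp_insert (p_notMem hpπ), hLc, P.card_eq_multiplicity]

omit [Finite G] in
theorem sum_two (A B : Subgroup G) [Fintype G] [DecidablePred (· ∈ A)] [DecidablePred (· ∈ B)] (a c : ℕ) :
    ∑ y ∈ Finset.univ.filter (· ∈ A), (if y ∈ B then a + c else c) = c * Nat.card A + a * Nat.card (A ⊓ B : Subgroup G) := by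
  classical
  have h1 : ∀ y ∈ Finset.univ.filter (· ∈ A), (if y ∈ B then a + c else c) = c + if y ∈ B then a else 0 := by
    intro y _
    split_ifs <;> omega
  rw [Finset.sum_congr rfl h1, Finset.sum_add_distrib, Finset.sum_const, smul_eq_mul, ← Finset.sum_filter, Finset.sum_const,
    smul_eq_mul]
  have h2 : (Finset.univ.filter (· ∈ A)).card = Nat.card A := by
    rw [Nat.card_eq_fintype_card, Fintype.card_subtype]
  have h3 : ((Finset.univ.filter (· ∈ A)).filter (· ∈ B)).card = Nat.card (A ⊓ B : Subgroup G) := by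
    rw [Nat.card_eq_fintype_card, Fintype.card_subtype, Finset.filter_filter]
    congr 1
    ext y
    simp only [Finset.mem_filter, Finset.mem_univ, true_and, Subgroup.mem_inf]
  rw [h2, h3]
  ring

/-- elements conjugate into the centralizer are conjugate into a Sylow subgroup of it -/
theorem exists_conj_in {S : Subgroup G} (hS : IsSyl p S (centralizer (L : Set G))) {x : G} {k : ℕ} (hx : orderOf x = p ^ k)
    (h : ∃ y, IsConj x y ∧ y ∈ centralizer (L : Set G)) : ∃ y, IsConj x y ∧ y ∈ S := by
  obtain ⟨y, hxy, hy⟩ := h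
  have hoy : orderOf y = p ^ k := by
    obtain ⟨c, hc⟩ := isConj_iff.1 hxy
    rw [← hc, ← hx]
    have := MulEquiv.orderOf_eq (MulAut.conj c) x
    rwa [MulAut.conj_apply] at this
  have hyp : IsPGroup p (zpowers y) := IsPGroup.of_card (n := k) (by rw [Nat.card_zpowers, hoy])
  obtain ⟨c, hc, hle⟩ := hS.exists_conj_le hyp (zpowers_le.2 hy)
  have h1 := hle (mem_zpowers y)
  rw [mem_conj_iff] at h1
  refine ⟨_, hxy.trans (isConj_iff.2 ⟨c⁻¹, ?_⟩), h1⟩
  group

theorem order_of_mem (P : Sylow p G) {x : G} (hx : x ∈ (P : Subgroup G)) : ∃ k, orderOf x = p ^ k := by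
  obtain ⟨k, hk⟩ := P.2 ⟨x, hx⟩
  have : x ^ p ^ k = 1 := by simpa using congrArg Subtype.val hk
  obtain ⟨j, _, hj⟩ := (Nat.dvd_prime_pow hp.out).1 (orderOf_dvd_of_pow_eq_one this)
  exact ⟨j, hj⟩

theorem L_le {y : G} (hy : y ∈ centralizer (L : Set G)) : L ≤ centralizer ({y} : Set G) := by
  intro z hz
  rw [mem_centralizer_singleton_iff]
  exact mem_centralizer_iff.1 hy z hz

include hπ hpπ IH hL hLc in
/-- the general bound -/
theorem bound (P : Sylow p G) {S : Subgroup G} (hS : IsSyl p S (centralizer (L : Set G))) (hSP : S ≤ P)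
    (hPS : (P : Subgroup G) ⊓ centralizer (L : Set G) = S) (r a c : ℕ)
    (h1 : ∀ y ∈ S, ∀ (s : Finset G), (∀ z, z ∈ s ↔ z ∈ (P : Subgroup G) ∧ IsConj y z) →
      r * kk π (centralizer ({y} : Set G)) ≤ ∑ z ∈ s, (by classical exact if z ∈ centralizer (L : Set G) then a + c else c))
    (h2 : ∀ y ∈ (P : Subgroup G), (∀ z, IsConj y z → z ∉ centralizer (L : Set G)) → ∀ (s : Finset G),
      (∀ z, z ∈ s ↔ z ∈ (P : Subgroup G) ∧ IsConj y z) → r * kk π (centralizer ({y} : Set G)) ≤ c * s.card) :
    r * kk (insert p π) G ≤ c * Nat.card P + a * Nat.card S := by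
  classical
  have := Fintype.ofFinite G
  have h := rec_le (p_notMem hpπ) P r (fun z => if z ∈ centralizer (L : Set G) then a + c else c) (by
    intro x hx
    obtain ⟨k, hk⟩ := order_of_mem P hx
    by_cases hc : ∃ y, IsConj x y ∧ y ∈ centralizer (L : Set G)
    · obtain ⟨y, hxy, hy⟩ := exists_conj_in hS hk hc
      refine ⟨y, hSP hy, hxy, ?_⟩
      have := h1 y hy ((Finset.univ.filter (· ∈ (P : Subgroup G))).filter (fun z => ConjClasses.mk z = ConjClasses.mk x)) (by
        intro z
        rw [Finset.mem_filter, Finset.mem_filter, ConjClasses.mk_eq_mk_iff_isConj]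
        constructor
        · rintro ⟨⟨_, h1⟩, h2⟩; exact ⟨h1, hxy.symm.trans h2.symm⟩
        · rintro ⟨h1, h2⟩; exact ⟨⟨Finset.mem_univ _, h1⟩, (hxy.trans h2).symm⟩)
      convert this
    · refine ⟨x, hx, IsConj.refl x, ?_⟩
      push Not at hc
      have := h2 x hx hc ((Finset.univ.filter (· ∈ (P : Subgroup G))).filter (fun z => ConjClasses.mk z = ConjClasses.mk x)) (by
        intro z
        rw [Finset.mem_filter, Finset.mem_filter, ConjClasses.mk_eq_mk_iff_isConj]
        constructor
        · rintro ⟨⟨_, h1⟩, h2⟩; exact ⟨h1, h2.symm⟩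
        · rintro ⟨h1, h2⟩; exact ⟨⟨Finset.mem_univ _, h1⟩, h2.symm⟩)
      refine this.trans ?_
      rw [mul_comm, ← smul_eq_mul, ← Finset.sum_const]
      apply Finset.sum_le_sum
      intro z _
      show c ≤ if z ∈ centralizer (L : Set G) then a + c else c
      split_ifs <;> omega)
  rw [sum_two, hPS] at h
  exact h

include hπ hpπ IH hL hLc in
/-- large index -/
theorem case_two (P : Sylow p G) {S : Subgroup G} (hS : IsSyl p S (centralizer (L : Set G))) (hSP : S ≤ P)
    (hPS : (P : Subgroup G) ⊓ centralizer (L : Set G) = S) (hidx : p * p * Nat.card S ≤ Nat.card P) :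
    p * kk (insert p π) G ≤ pp (insert p π) (Nat.card G) := by
  classical
  have h := bound hπ hpπ IH hL hLc P hS hSP hPS (p + 1) (p * Nat.card L) (Nat.card L) (by
    intro y hy s hs
    have hym : y ∈ s := (hs y).2 ⟨hSP hy, IsConj.refl y⟩
    have hyc : y ∈ centralizer (L : Set G) := hS.1 hy
    have h1 := w0 hπ hLc y
    have h2 : (p + 1) * kk π (centralizer ({y} : Set G)) ≤ p * Nat.card L + Nat.card L := by
      have := Nat.mul_le_mul_left (p + 1) h1
      linarith
    refine h2.trans ?_
    have h3 : p * Nat.card L + Nat.card L = (if y ∈ centralizer (L : Set G) then p * Nat.card L + Nat.card L else Nat.card L) :=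
      (if_pos hyc).symm
    refine h3.le.trans ?_
    convert Finset.single_le_sum (f := fun z => if z ∈ centralizer (L : Set G) then p * Nat.card L + Nat.card L else Nat.card L)
      (fun _ _ => Nat.zero_le _) hym) (by
    intro y hy hyc s hs
    have h1 := w1 hπ hpπ IH hL hLc y hyc
    have h2 : 1 ≤ s.card := Finset.card_pos.2 ⟨y, (hs y).2 ⟨hy, IsConj.refl y⟩⟩
    calc _ ≤ Nat.card L * 1 := by rw [mul_one]; exact h1
      _ ≤ _ := Nat.mul_le_mul_left _ h2)
  rw [pp_eq hpπ hLc P]
  have h5 : p * ((p + 1) * kk (insert p π) G) ≤ p * (Nat.card L * Nat.card P + p * Nat.card L * Nat.card S) := Nat.mul_le_mul_left p h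
  have h6 : Nat.card L * (p * p * Nat.card S) ≤ Nat.card L * Nat.card P := Nat.mul_le_mul_left _ hidx
  have h7 : (p + 1) * (p * kk (insert p π) G) ≤ (p + 1) * (Nat.card P * Nat.card L) := by nlinarith
  exact Nat.le_of_mul_le_mul_left h7 (by omega)

omit hp in
theorem pow_mem_of_index [hp : Fact p.Prime] {P : Subgroup G} {C : Subgroup G} (hPC : P ≤ normalizer (C : Set G))
    (hidx : p * Nat.card (P ⊓ C : Subgroup G) = Nat.card P) {u : G} (hu : u ∈ P) : u ^ p ∈ C := by
  have h1 : ((P ⊓ C).subgroupOf P).Normal := by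
    constructor
    intro n hn g
    rw [mem_subgroupOf] at hn ⊢
    exact ⟨(g * n * g⁻¹ : P).2, (mem_normalizer_iff.1 (hPC g.2) _).1 hn.2⟩
  have h2 : ((P ⊓ C).subgroupOf P).index = p := by
    have h3 := ((P ⊓ C).subgroupOf P).card_mul_index
    rw [Lib.SubgroupTools.card_subgroupOf_of_le inf_le_left, ← hidx, mul_comm] at h3
    exact Nat.eq_of_mul_eq_mul_right Nat.card_pos h3
  have h3 := ((P ⊓ C).subgroupOf P).pow_index_mem (⟨u, hu⟩ : P)
  rw [h2, mem_subgroupOf] at h3
  exact h3.2

include hπ hpπ IH hL hLc in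
/-- a Sylow subgroup normalizing `L` -/
theorem lemX (P : Sylow p G) (hPN : (P : Subgroup G) ≤ normalizer (L : Set G))
    (hidx : p * Nat.card ((P : Subgroup G) ⊓ centralizer (L : Set G) : Subgroup G) = Nat.card P) :
    p * kk (insert p π) G ≤ pp (insert p π) (Nat.card G) := by
  classical
  set S : Subgroup G := (P : Subgroup G) ⊓ centralizer (L : Set G) with hSdef
  have hCN : centralizer (L : Set G) ≤ normalizer (L : Set G) := by
    intro c hc
    rw [mem_normalizer_iff]
    intro x
    constructor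
    · intro hx
      have h1 := mem_centralizer_iff.1 hc x hx
      rw [← h1]; simpa using hx
    · intro hx
      have h1 := mem_centralizer_iff.1 hc _ hx
      have : x = c * x * c⁻¹ := by
        calc x = c⁻¹ * (c * x * c⁻¹ * c) := by group
          _ = c⁻¹ * (c * (c * x * c⁻¹)) := by rw [h1]
          _ = _ := by group
      rw [this]; exact hx
  have hNC : normalizer (L : Set G) ≤ normalizer (centralizer (L : Set G) : Set G) := by
    intro n hn
    have hn' := (normalizer (L : Set G)).inv_mem hn
    have key : ∀ m ∈ normalizer (L : Set G), ∀ x ∈ centralizer (L : Set G), m * x * m⁻¹ ∈ centralizer (L : Set G) := by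
      intro m hm x hx
      rw [mem_centralizer_iff]
      intro y hy
      have h1 : m⁻¹ * y * m ∈ L := by
        have := (mem_normalizer_iff.1 ((normalizer (L : Set G)).inv_mem hm) y).1 hy
        simpa using this
      have h2 := mem_centralizer_iff.1 hx _ h1
      calc y * (m * x * m⁻¹) = m * ((m⁻¹ * y * m) * x) * m⁻¹ := by group
        _ = m * (x * (m⁻¹ * y * m)) * m⁻¹ := by rw [h2]
        _ = m * x * m⁻¹ * y := by group
    rw [mem_normalizer_iff]
    intro x
    constructor
    · intro hx; exact key n hn x hx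
    · intro hx
      have := key n⁻¹ hn' _ hx
      have e : n⁻¹ * (n * x * n⁻¹) * n⁻¹⁻¹ = x := by group
      rwa [e] at this
  have hPsyl : IsSyl p (P : Subgroup G) (normalizer (L : Set G)) := (isSyl_top_iff P).of_le hPN le_top
  have hS : IsSyl p S (centralizer (L : Set G)) := hPsyl.inf hCN hNC
  have hPC : (P : Subgroup G) ≤ normalizer (centralizer (L : Set G) : Set G) := hPN.trans hNC
  have hSP : S ≤ P := inf_le_left
  have hne : ∃ t ∈ (P : Subgroup G), t ∉ centralizer (L : Set G) := by
    by_contra hcon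
    push Not at hcon
    have h1 : S = P := le_antisymm hSP (le_inf le_rfl hcon)
    rw [h1] at hidx
    have h2 : 0 < Nat.card P := Nat.card_pos
    have h3 := hp.out.one_lt
    nlinarith
  obtain ⟨t, htP, htC⟩ := hne
  have htp := pow_mem_of_index hPC hidx htP
  have h := bound hπ hpπ IH hL hLc P hS hSP rfl (p + 1) (Nat.card L) (Nat.card L) (by
    intro y hy s hs
    have hyc : y ∈ centralizer (L : Set G) := hS.1 hy
    have hym : y ∈ s := (hs y).2 ⟨hSP hy, IsConj.refl y⟩
    by_cases hu : ∃ u ∈ (P : Subgroup G), u * y = y * u ∧ u ∉ centralizer (L : Set G)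
    · obtain ⟨u, huP, huy, huC⟩ := hu
      have h1 := w2 hπ hpπ hL hLc (L_le hyc) huy (hPN huP) huC (pow_mem_of_index hPC hidx huP)
      have h3 : 2 * Nat.card L = (if y ∈ centralizer (L : Set G) then Nat.card L + Nat.card L else Nat.card L) := by
        rw [if_pos hyc]; ring
      refine h1.trans ?_
      rw [h3]
      convert Finset.single_le_sum (f := fun z => if z ∈ centralizer (L : Set G) then Nat.card L + Nat.card L else Nat.card L)
        (fun _ _ => Nat.zero_le _) hym
    · push Not at hu
      have hmem : ∀ i : ℕ, t ^ i * y * (t ^ i)⁻¹ ∈ (P : Subgroup G) ∧ t ^ i * y * (t ^ i)⁻¹ ∈ centralizer (L : Set G) := by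
        intro i
        have h1 := (P : Subgroup G).pow_mem htP i
        exact ⟨(P : Subgroup G).mul_mem ((P : Subgroup G).mul_mem h1 (hSP hy)) ((P : Subgroup G).inv_mem h1),
          (mem_normalizer_iff.1 (hPC h1) y).1 hyc⟩
      have h4 : ∀ i j : ℕ, i < j → j < p → t ^ i * y * (t ^ i)⁻¹ = t ^ j * y * (t ^ j)⁻¹ → False := by
        intro i j hij hj he
        have e : t ^ j = t ^ i * t ^ (j - i) := by rw [← pow_add]; congr 1; omega
        rw [e] at he
        have h6 : y = t ^ (j - i) * y * (t ^ (j - i))⁻¹ := by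
          calc y = (t ^ i)⁻¹ * (t ^ i * y * (t ^ i)⁻¹) * t ^ i := by group
            _ = (t ^ i)⁻¹ * (t ^ i * t ^ (j - i) * y * (t ^ i * t ^ (j - i))⁻¹) * t ^ i := by rw [he]
            _ = _ := by group
        have h7 : t ^ (j - i) * y = y * t ^ (j - i) := by
          calc t ^ (j - i) * y = (t ^ (j - i) * y * (t ^ (j - i))⁻¹) * t ^ (j - i) := by group
            _ = y * t ^ (j - i) := by rw [← h6]
        have h8 := hu _ ((P : Subgroup G).pow_mem htP (j - i)) h7
        have h9 : Nat.Coprime (j - i) p :=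
          ((Nat.Prime.coprime_iff_not_dvd hp.out).2 (Nat.not_dvd_of_pos_of_lt (by omega) (by omega))).symm
        exact htC (mem_of_pows h8 htp h9)
      have h3 : Set.InjOn (fun i => t ^ i * y * (t ^ i)⁻¹) (Finset.range p : Set ℕ) := by
        intro i hi j hj hij
        rw [Finset.mem_coe, Finset.mem_range] at hi hj
        rcases lt_trichotomy i j with h | h | h
        · exact (h4 i j h hj hij).elim
        · exact h
        · exact (h4 j i h hi hij.symm).elim
      have h2 : (Finset.range p).image (fun i => t ^ i * y * (t ^ i)⁻¹) ⊆ s := by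
        intro z hz
        obtain ⟨i, _, rfl⟩ := Finset.mem_image.1 hz
        exact (hs _).2 ⟨(hmem i).1, isConj_iff.2 ⟨t ^ i, rfl⟩⟩
      have hsum : p * (Nat.card L + Nat.card L) ≤ ∑ z ∈ s, (if z ∈ centralizer (L : Set G) then Nat.card L + Nat.card L else Nat.card L) := by
        calc p * (Nat.card L + Nat.card L) = ∑ z ∈ (Finset.range p).image (fun i => t ^ i * y * (t ^ i)⁻¹), (Nat.card L + Nat.card L) := by
              rw [Finset.sum_const, Finset.card_image_of_injOn h3, Finset.card_range, smul_eq_mul]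
          _ = ∑ z ∈ (Finset.range p).image (fun i => t ^ i * y * (t ^ i)⁻¹),
                (if z ∈ centralizer (L : Set G) then Nat.card L + Nat.card L else Nat.card L) := by
              apply Finset.sum_congr rfl
              intro z hz
              obtain ⟨i, _, rfl⟩ := Finset.mem_image.1 hz
              rw [if_pos (hmem i).2]
          _ ≤ _ := Finset.sum_le_sum_of_subset h2
      have h10 := w0 hπ hLc y
      have h11 : (p + 1) * kk π (centralizer ({y} : Set G)) ≤ p * (Nat.card L + Nat.card L) := by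
        have h12 := Nat.mul_le_mul_left (p + 1) h10
        have h13 := hp.out.one_lt
        nlinarith
      refine h11.trans ?_
      convert hsum) (by
    intro y hy hyc s hs
    have h1 := w1 hπ hpπ IH hL hLc y hyc
    have h2 : 1 ≤ s.card := Finset.card_pos.2 ⟨y, (hs y).2 ⟨hy, IsConj.refl y⟩⟩
    calc _ ≤ Nat.card L * 1 := by rw [mul_one]; exact h1
      _ ≤ _ := Nat.mul_le_mul_left _ h2)
  rw [pp_eq hpπ hLc P]
  rw [← hidx] at h ⊢
  have h7 : (p + 1) * kk (insert p π) G ≤ (p + 1) * (Nat.card S * Nat.card L) := by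
    calc _ ≤ _ := h
      _ = _ := by ring
  have h8 := Nat.le_of_mul_le_mul_left h7 (by omega)
  calc p * kk (insert p π) G ≤ p * (Nat.card S * Nat.card L) := Nat.mul_le_mul_left p h8
    _ = _ := by ring

end

end Cfsg.Agent.Lib.HPc
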