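import Cfsg.Agent.Lib.HPcD

/-!
# Counting classes of `π`-elements, V: index `p` and the theorem (helper71)
-/

set_option autoImplicit false
set_option linter.all false

namespace Cfsg.Agent.Lib.HPc

open Subgroup Pointwise
open Cfsg.Agent.Lib.RelSylow

universe u

section
variable {G : Type u} [Group G] [Finite G] {p : ℕ} [hp : Fact p.Prime] {π : Finset ℕ} (hπ : ∀ q ∈ π, q.Prime)
  (hpπ : ∀ q ∈ π, p + 1 ≤ q)
  (IH : ∀ (M : Type u) [Group M] [Finite M], pp π (Nat.card M) < (p + 1) * kk π M →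
    ∃ H : Subgroup M, Nat.card H = pp π (Nat.card M) ∧ Group.IsNilpotent H)
  {L : Subgroup G} (hL : Group.IsNilpotent L) (hLc : Nat.card L = pp π (Nat.card G))

/-- lifting Sylow subgroups -/
theorem lift_syl {K N C Z₀ : Subgroup G} (hN : N ≤ normalizer (K : Set G)) (hsup : K ⊔ N = C) (hZ₀ : IsSyl p Z₀ K)
    (hZN : Z₀ ≤ N) : ∃ Z', IsSyl p Z' C ∧ Z' ≤ N := by
  have hKC : K ≤ C := hsup ▸ le_sup_left
  have hNC : N ≤ C := hsup ▸ le_sup_right
  obtain ⟨Z', hZ'⟩ := exists_syl p N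
  refine ⟨Z', ⟨hZ'.1.trans hNC, hZ'.2.1, ?_⟩, hZ'.1⟩
  have h1 := relIndex_mul_relIndex Z' N C hZ'.1 hNC
  rw [← h1]
  intro hd
  rcases (Nat.Prime.dvd_mul hp.out).1 hd with h | h
  · exact hZ'.2.2 h
  · have h2 := Lib.SubgroupTools.card_sup_mul_card_inf hN
    rw [hsup] at h2
    have h3 := Lib.SubgroupTools.card_mul_relIndex_of_le hNC
    have h4 := Lib.SubgroupTools.card_mul_relIndex_of_le (inf_le_left : K ⊓ N ≤ K)
    have h5 : N.relIndex C = (K ⊓ N).relIndex K := by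
      rw [← h3, ← h4] at h2
      have h6 : (Nat.card N * Nat.card (K ⊓ N : Subgroup G)) * N.relIndex C =
          (Nat.card N * Nat.card (K ⊓ N : Subgroup G)) * (K ⊓ N).relIndex K := by
        calc _ = Nat.card N * N.relIndex C * Nat.card (K ⊓ N : Subgroup G) := by ring
          _ = _ := h2
          _ = _ := by ring
      exact Nat.eq_of_mul_eq_mul_left (Nat.mul_pos Nat.card_pos Nat.card_pos) h6
    rw [h5] at h
    apply hZ₀.2.2
    rw [← relIndex_mul_relIndex Z₀ (K ⊓ N) K (le_inf hZ₀.1 hZN) inf_le_left]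
    exact h.mul_left _

include hπ hLc in
theorem rel_coprime {C : Subgroup G} (hLC : L ≤ C) : Nat.Coprime (Nat.card L) (L.relIndex C) := by
  apply Nat.Coprime.coprime_dvd_right _ (L_coprime hπ hLc)
  exact relIndex_dvd_index_of_le hLC

include hπ hL hLc in
/-- Frattini -/
theorem frat {C D : Subgroup G} (hCD : C ≤ D) (hDC : D ≤ normalizer (C : Set G)) (hLC : L ≤ C) :
    C ⊔ (D ⊓ normalizer (L : Set G)) = D := by
  apply le_antisymm (sup_le hCD inf_le_left)
  intro d hd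
  have h1 : (MulAut.conj d • L : Subgroup G) ≤ C := by
    intro y hy
    rw [Lib.SubgroupTools.mem_conj_smul] at hy
    have h2 := (mem_normalizer_iff.1 (hDC hd) _).1 (hLC hy)
    have e : d * (d⁻¹ * y * d) * d⁻¹ = y := by group
    rwa [e] at h2
  have h2 : Group.IsNilpotent (MulAut.conj d • L : Subgroup G) :=
    Group.nilpotent_of_mulEquiv (L.equivMapOfInjective (MulAut.conj d).toMonoidHom (MulAut.conj d).injective)
  obtain ⟨c, hc, hcd⟩ := Lib.HallComplement.nilpotent_hall_conj_rel (Nat.card L) C L (MulAut.conj d • L : Subgroup G) hLC h1 rfl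
    (Lib.SubgroupTools.card_conj_smul d L) (rel_coprime hπ hLc hLC) hL h2
  have h3 : c⁻¹ * d ∈ normalizer (L : Set G) := by
    rw [Lib.SubgroupTools.mem_normalizer_iff_conj_smul, Lib.SubgroupTools.conj_smul_mul, ← hcd, ← Lib.SubgroupTools.conj_smul_mul,
      inv_mul_cancel, Lib.SubgroupTools.conj_smul_one]
  have h4 : d = c * (c⁻¹ * d) := by group
  rw [h4]
  exact mul_mem_sup hc ⟨D.mul_mem (D.inv_mem (hCD hc)) hd, h3⟩

include hπ hL hLc in
/-- a Sylow subgroup of a big subgroup normalizing `L` -/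
theorem lemY (P : Sylow p G) (hX : ∀ P' : Sylow p G, (P' : Subgroup G) ≤ normalizer (L : Set G) → False) {C Z₀ : Subgroup G}
    (hPC : (P : Subgroup G) ≤ normalizer (C : Set G)) (hLC : L ≤ C) (hZ₀ : IsSyl p Z₀ C) (hZN : Z₀ ≤ normalizer (L : Set G)) : False := by
  have h1 : C ⊔ (P : Subgroup G) ≤ normalizer (C : Set G) := sup_le le_normalizer hPC
  have h2 := frat hπ hL hLc (le_sup_left : C ≤ C ⊔ (P : Subgroup G)) h1 hLC
  obtain ⟨Z', hZ', hle⟩ := lift_syl (p := p) (inf_le_left.trans h1) h2 hZ₀ (le_inf (hZ₀.1.trans le_sup_left) hZN)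
  have h3 : Nat.card (P : Subgroup G) ≤ Nat.card Z' := hZ'.card_le P.2 le_sup_right
  have h4 := isSyl_of_card_ge (isSyl_top_iff P) hZ'.2.1 le_top h3
  obtain ⟨Q, hQ⟩ := h4.toSylow
  exact hX Q (by rw [hQ]; exact hle.trans inf_le_right)

theorem syl_inf (P : Sylow p G) (hPN : (P : Subgroup G) ≤ normalizer (L : Set G)) :
    IsSyl p ((P : Subgroup G) ⊓ centralizer (L : Set G)) (centralizer (L : Set G)) :=
  ((isSyl_top_iff P).of_le hPN le_top).inf (centralizer_le_normalizer (L : Set G)) (Lib.LocBase.le_normalizer_centralizer le_rfl)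

omit [Finite G] in
theorem index_p_sup {A B T : Subgroup G} (hidx : A.relIndex B = p) (hAT : A ≤ T) (hTB : T ≤ B) (hne : ¬ T ≤ A) : T = B := by
  have h1 := relIndex_mul_relIndex A T B hAT hTB
  rw [hidx] at h1
  rcases (Nat.Prime.eq_one_or_self_of_dvd hp.out _ (Dvd.intro _ h1)) with h | h
  · exact absurd (relIndex_eq_one.1 h) hne
  · rw [h] at h1
    have h2 : T.relIndex B = 1 := Nat.eq_of_mul_eq_mul_left hp.out.pos (by rw [h1, mul_one])
    exact le_antisymm hTB (relIndex_eq_one.1 h2)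

/-- a generator -/
theorem gen_p {S P : Subgroup G} (hSP : S ≤ P) (hPS : P ≤ normalizer (S : Set G)) (hidx : S.relIndex P = p) {t : G} (ht : t ∈ P)
    (htS : t ∉ S) {y : G} (hy : y ∈ P) : ∃ s ∈ S, ∃ i : ℤ, y = s * t ^ i := by
  have h1 : S ⊔ zpowers t = P := index_p_sup hidx le_sup_left (sup_le hSP (zpowers_le.2 ht))
    (fun h => htS (h (mem_sup_right (mem_zpowers t))))
  rw [← h1, Lib.SubgroupTools.mem_sup_of_le_normalizer ((zpowers_le.2 ht).trans hPS)] at hy
  obtain ⟨s, hs, _, ⟨i, rfl⟩, rfl⟩ := hy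
  exact ⟨s, hs, i, rfl⟩

theorem normal_index_p {S P : Subgroup G} (hSP : S ≤ P) (hP : IsPGroup p P) (hidx : S.relIndex P = p) : P ≤ normalizer (S : Set G) := by
  obtain ⟨k, hk⟩ := IsPGroup.iff_card.1 hP
  have hk0 : k ≠ 0 := by
    rintro rfl
    rw [pow_zero] at hk
    have h1 := Lib.SubgroupTools.card_mul_relIndex_of_le hSP
    rw [hk, hidx] at h1
    exact hp.out.one_lt.ne' (Nat.eq_one_of_mul_eq_one_left h1)
  have h1 : (S.subgroupOf P).Normal := by
    apply normal_of_index_eq_minFac_card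
    rw [hk, Nat.Prime.pow_minFac hp.out hk0]
    exact hidx
  exact (normal_subgroupOf_iff_le_normalizer hSP).1 h1

omit [Finite G] hp in
/-- from a subgroup to the whole group -/
theorem norm_sub {Z C : Subgroup G} (hZC : Z ≤ C) {n : C} (hn : n ∈ normalizer (Z.subgroupOf C : Set C)) : (n : G) ∈ normalizer (Z : Set G) := by
  rw [mem_normalizer_iff] at hn ⊢
  intro h
  constructor
  · intro hh
    exact (hn ⟨h, hZC hh⟩).1 hh
  · intro hh
    have h1 : h ∈ C := by
      have h2 := C.mul_mem (C.mul_mem (C.inv_mem n.2) (hZC hh)) n.2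
      have e : (n : G)⁻¹ * (n * h * (n : G)⁻¹) * n = h := by group
      rwa [e] at h2
    exact (hn ⟨h, h1⟩).2 hh

/-- normal complements -/
theorem exists_compl {Z C : Subgroup G} (hZC : Z ≤ C) (hcop : Nat.Coprime (Nat.card Z) (Z.relIndex C))
    (h : C ⊓ normalizer (Z : Set G) ≤ centralizer (Z : Set G)) :
    ∃ K : Subgroup G, K ≤ C ∧ C ≤ normalizer (K : Set G) ∧ Nat.card K = Z.relIndex C ∧
      (∀ a ∈ C, ∀ b ∈ C, (∀ x ∈ Z, ∀ y ∈ Z, x * y = y * x) → a * b * a⁻¹ * b⁻¹ ∈ K) ∧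
      ∀ y ∈ C, ∀ m : ℕ, y ^ m = 1 → Nat.Coprime m (Nat.card Z) → y ∈ K := by
  obtain ⟨K', hK', hcom⟩ := Lib.HallComplement.hall_central_in_normalizer (Z.subgroupOf C) (by
    rw [Lib.SubgroupTools.card_subgroupOf_of_le hZC]; exact hcop) (by
    intro n hn
    have h1 := h ⟨n.2, norm_sub hZC hn⟩
    rw [mem_centralizer_iff]
    intro y hy
    exact Subtype.ext (mem_centralizer_iff.1 h1 y hy))
  have hcardK : Nat.card K' * Nat.card Z = Nat.card C := by
    have := hcom.card_mul_card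
    rwa [Lib.SubgroupTools.card_subgroupOf_of_le hZC] at this
  have hidx : K'.index = Nat.card Z := by
    have h1 := K'.card_mul_index
    rw [← hcardK] at h1
    exact Nat.eq_of_mul_eq_mul_left Nat.card_pos h1
  refine ⟨K'.map C.subtype, map_subtype_le _, ?_, ?_, ?_, ?_⟩
  · intro c hc
    rw [mem_normalizer_iff]
    intro y
    constructor
    · rintro ⟨k, hk, rfl⟩
      exact ⟨_, hK'.conj_mem k hk ⟨c, hc⟩, rfl⟩
    · rintro ⟨k, hk, hky⟩
      refine ⟨_, hK'.conj_mem k hk ⟨c, hc⟩⁻¹, ?_⟩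
      show c⁻¹ * (k : G) * c⁻¹⁻¹ = y
      have : (k : G) = c * y * c⁻¹ := hky
      rw [this]; group
  · rw [card_map_of_injective C.subtype_injective]
    have h1 := Lib.SubgroupTools.card_mul_relIndex_of_le hZC
    rw [← hcardK, mul_comm] at h1
    exact (Nat.eq_of_mul_eq_mul_right Nat.card_pos h1).symm
  · intro a ha b hb hcomm
    have e := hcom.symm.QuotientMulEquiv
    refine ⟨⟨a, ha⟩ * ⟨b, hb⟩ * ⟨a, ha⟩⁻¹ * ⟨b, hb⟩⁻¹, ?_, rfl⟩
    rw [SetLike.mem_coe, ← QuotientGroup.eq_one_iff]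
    have h1 : ∀ u v : C ⧸ K', u * v = v * u := by
      intro u v
      apply e.injective
      rw [map_mul, map_mul]
      exact Subtype.ext (Subtype.ext (hcomm _ (e u).2 _ (e v).2))
    have h2 := h1 (QuotientGroup.mk (⟨a, ha⟩ : C)) (QuotientGroup.mk (⟨b, hb⟩ : C))
    rw [QuotientGroup.mk_mul, QuotientGroup.mk_mul, QuotientGroup.mk_mul, QuotientGroup.mk_inv, QuotientGroup.mk_inv, h2]
    group
  · intro y hy m hm hmc
    have h1 := K'.pow_index_mem (⟨y, hy⟩ : C)
    have h2 : (⟨y, hy⟩ : C) ^ m ∈ K' := by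
      have : (⟨y, hy⟩ : C) ^ m = 1 := Subtype.ext hm
      rw [this]; exact K'.one_mem
    rw [hidx] at h1
    exact ⟨_, mem_of_pows h2 h1 hmc, rfl⟩

end

end Cfsg.Agent.Lib.HPc
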