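import Cfsg.Agent.Lib.HPcE

/-!
# Counting classes of `π`-elements, VI: index `p` and the theorem (helper71)
-/

set_option autoImplicit false
set_option linter.all false

namespace Cfsg.Agent.Lib.HPc

open Subgroup Pointwise
open Cfsg.Agent.Lib.RelSylow

universe u

section
variable {G : Type u} [Group G] [Finite G] {p : ℕ} [hp : Fact p.Prime] {π : Finset ℕ} (hπ : ∀ q ∈ π, q.Prime)
  (hpπ : ∀ q ∈ π, p + 1 ≤ q)
  (IH : ∀ (M : Type u) [Group M] [Finite M], pp π (Nat.card M) < (p + 1) * kk π M →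
    ∃ H : Subgroup M, Nat.card H = pp π (Nat.card M) ∧ Group.IsNilpotent H)
  {L : Subgroup G} (hL : Group.IsNilpotent L) (hLc : Nat.card L = pp π (Nat.card G))

omit [Finite G] hp in
theorem pow_card_mem {A : Subgroup G} {y : G} (h : y ∈ A) : y ^ Nat.card A = 1 := by
  have h1 : (⟨y, h⟩ : A) ^ Nat.card A = 1 := pow_card_eq_one'
  have h2 := congrArg (fun z : A => (z : G)) h1
  simp only [Subgroup.coe_pow, Subgroup.coe_one] at h2
  exact h2

/-- an automorphism of order prime to `p (p - 1)` fixing a subgroup of index `p` -/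
theorem fix_of_index {S P Z : Subgroup G} (hP : IsPGroup p P) (hSP : S ≤ P) (hidx : S.relIndex P = p) {x h : G} (hx : x ∈ P)
    (hxS : x ∉ S) (hxc : ∀ s ∈ S, x * s = s * x) (hhS : ∀ s ∈ S, h * s = s * h) (hhx : h * x * h⁻¹ ∈ P) {n : ℕ} (hn : h ^ n = 1)
    (hn0 : n ≠ 0) (hcop : ∀ q : ℕ, q.Prime → q ∣ n → p + 1 ≤ q) : h * x = x * h := by
  have hPS := normal_index_p hSP hP hidx
  have hcopp : Nat.Coprime n p := by
    apply Nat.Coprime.symm
    rw [Nat.Prime.coprime_iff_not_dvd hp.out]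
    intro h1
    have := hcop p hp.out h1
    omega
  have hcop1 : Nat.Coprime n (p - 1) := by
    apply Nat.coprime_of_dvd
    intro q hq h1 h2
    have h3 := hcop q hq h1
    have h4 := Nat.le_of_dvd (by have := hp.out.one_lt; omega) h2
    omega
  have hxp : x ^ p ∈ S := by
    have h1 : ((S.subgroupOf P)).Normal := (normal_subgroupOf_iff_le_normalizer hSP).2 hPS
    have h2 : (S.subgroupOf P).index = p := hidx
    have h3 := (S.subgroupOf P).pow_index_mem (⟨x, hx⟩ : P)
    rw [h2] at h3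
    exact h3
  have hzS : ∀ i : ℤ, x ^ i ∈ S → (p : ℤ) ∣ i := by
    intro i hi
    by_contra hcon
    have h1 : IsCoprime (p : ℤ) i := (Nat.prime_iff_prime_int.1 hp.out).coprime_iff_not_dvd.2 hcon
    obtain ⟨a, b, hab⟩ := h1
    apply hxS
    have : x = (x ^ p) ^ a * (x ^ i) ^ b := by
      rw [← zpow_natCast, ← zpow_mul, ← zpow_mul, ← zpow_add, mul_comm (p : ℤ), mul_comm i, hab, zpow_one]
    rw [this]
    exact S.mul_mem (S.zpow_mem hxp _) (S.zpow_mem hi _)
  have hzS' : ∀ i : ℤ, (p : ℤ) ∣ i → x ^ i ∈ S := by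
    rintro i ⟨c, rfl⟩
    rw [zpow_mul, zpow_natCast]
    exact S.zpow_mem hxp c
  obtain ⟨s, hs, k, hk⟩ := gen_p hSP hPS hidx hx hxS hhx
  have hsx : ∀ s ∈ S, ∀ m : ℕ, (s * x ^ k) ^ m = s ^ m * x ^ (k * m) := by
    intro s hs m
    have h1 : Commute s (x ^ k) := (show Commute s x from (hxc s hs).symm).zpow_right k
    rw [h1.mul_pow, zpow_mul, zpow_natCast]
  -- iterates
  have hit : ∀ j : ℕ, ∃ t ∈ S, h ^ j * x * (h ^ j)⁻¹ = t * x ^ (k ^ j : ℤ) := by
    intro j
    induction j with
    | zero => exact ⟨1, S.one_mem, by simp⟩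
    | succ j ih =>
      obtain ⟨t, ht, hjt⟩ := ih
      have h2 : ∀ i : ℤ, h * x ^ i * h⁻¹ = (s * x ^ k) ^ i := by
        intro i
        rw [← hk, ← MulAut.conj_apply, ← MulAut.conj_apply, map_zpow]
      have h3 : (s * x ^ k) ^ (k ^ j : ℤ) = s ^ (k ^ j : ℤ) * x ^ (k ^ (j + 1) : ℤ) := by
        have h1 : Commute s (x ^ k) := (show Commute s x from (hxc s hs).symm).zpow_right k
        rw [h1.mul_zpow, ← zpow_mul, pow_succ, mul_comm k]
      refine ⟨t * s ^ (k ^ j : ℤ), S.mul_mem ht (S.zpow_mem hs _), ?_⟩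
      calc h ^ (j + 1) * x * (h ^ (j + 1))⁻¹ = h * (h ^ j * x * (h ^ j)⁻¹) * h⁻¹ := by rw [pow_succ']; group
        _ = h * (t * x ^ (k ^ j : ℤ)) * h⁻¹ := by rw [hjt]
        _ = (h * t) * h⁻¹ * (h * x ^ (k ^ j : ℤ) * h⁻¹) := by group
        _ = t * (h * x ^ (k ^ j : ℤ) * h⁻¹) := by rw [hhS t ht]; group
        _ = _ := by rw [h2, h3]; group
  obtain ⟨t, ht, hnt⟩ := hit n
  rw [hn, one_mul, inv_one, mul_one] at hnt
  have h4 : x ^ ((k ^ n : ℤ) - 1) ∈ S := by
    have : x ^ ((k ^ n : ℤ) - 1) = t⁻¹ := by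
      rw [zpow_sub, zpow_one]
      calc x ^ (k ^ n : ℤ) * x⁻¹ = t⁻¹ * (t * x ^ (k ^ n : ℤ)) * x⁻¹ := by group
        _ = t⁻¹ * x * x⁻¹ := by rw [← hnt]
        _ = t⁻¹ := by group
    rw [this]; exact S.inv_mem ht
  have h5 := hzS _ h4
  have hk1 : (p : ℤ) ∣ k - 1 := by
    have h6 : ((k : ZMod p)) ^ n = 1 := by
      have := (ZMod.intCast_zmod_eq_zero_iff_dvd ((k ^ n : ℤ) - 1) p).2 h5
      push_cast at this
      exact sub_eq_zero.1 this
    have h7 : (k : ZMod p) ≠ 0 := by
      intro h0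
      rw [h0, zero_pow hn0] at h6
      exact zero_ne_one h6
    have h8 := ZMod.pow_card_sub_one_eq_one h7
    have h9 : (k : ZMod p) = 1 := by
      have h10 := orderOf_dvd_of_pow_eq_one h6
      have h11 := orderOf_dvd_of_pow_eq_one h8
      have h12 := Nat.eq_one_of_dvd_coprimes hcop1 h10 h11
      exact orderOf_eq_one_iff.1 h12
    rw [← ZMod.intCast_zmod_eq_zero_iff_dvd]
    push_cast
    rw [h9, sub_self]
  have h6 : x ^ (k - 1) ∈ S := hzS' _ hk1
  set s' := s * x ^ (k - 1) with hs'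
  have hs'S : s' ∈ S := S.mul_mem hs h6
  have hkx : h * x * h⁻¹ = s' * x := by
    rw [hk, hs', mul_assoc, ← zpow_add_one]
    congr 2
    ring
  have hit2 : ∀ j : ℕ, h ^ j * x * (h ^ j)⁻¹ = s' ^ j * x := by
    intro j
    induction j with
    | zero => simp
    | succ j ih =>
      have hc : h * s' ^ j = s' ^ j * h := ((show Commute h s' from hhS s' hs'S).pow_right j).eq
      calc h ^ (j + 1) * x * (h ^ (j + 1))⁻¹ = h * (h ^ j * x * (h ^ j)⁻¹) * h⁻¹ := by rw [pow_succ']; group
        _ = (h * s' ^ j) * x * h⁻¹ := by rw [ih]; group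
        _ = s' ^ j * (h * x * h⁻¹) := by rw [hc]; group
        _ = _ := by rw [hkx, pow_succ]; group
  have h7 := hit2 n
  rw [hn, one_mul, inv_one, mul_one] at h7
  have h8 : s' ^ n = 1 := by
    have : s' ^ n * x = 1 * x := by rw [one_mul]; exact h7.symm
    exact mul_right_cancel this
  have h9 : s' = 1 := by
    obtain ⟨i, hi⟩ := hP ⟨s', hSP hs'S⟩
    have h10 : s' ^ p ^ i = 1 := by simpa using congrArg Subtype.val hi
    have h11 := orderOf_dvd_of_pow_eq_one h8
    have h12 := orderOf_dvd_of_pow_eq_one h10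
    exact orderOf_eq_one_iff.1 (Nat.eq_one_of_dvd_coprimes (Nat.Coprime.pow_right i hcopp) h11 h12)
  rw [h9, one_mul] at hkx
  calc h * x = h * x * h⁻¹ * h := by group
    _ = x * h := by rw [hkx]

include hπ hpπ IH hL hLc in
theorem index_one (P : Sylow p G) {S : Subgroup G} (hS : IsSyl p S (centralizer (L : Set G))) (hSP : S ≤ P)
    (hPS : (P : Subgroup G) ⊓ centralizer (L : Set G) = S) (hidx : p * Nat.card S = Nat.card P) :
    p * kk (insert p π) G ≤ pp (insert p π) (Nat.card G) := by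
  classical
  by_contra hcon
  have hX : ∀ P' : Sylow p G, (P' : Subgroup G) ≤ normalizer (L : Set G) → False := by
    intro P' hP'
    apply hcon
    apply lemX hπ hpπ IH hL hLc P' hP'
    have h1 := syl_inf P' hP'
    obtain ⟨c, _, hc⟩ := h1.conj hS
    have h2 : Nat.card ((P' : Subgroup G) ⊓ centralizer (L : Set G) : Subgroup G) = Nat.card S := by
      rw [← hc, card_conj]
    rw [h2, hidx, P.card_eq_multiplicity, P'.card_eq_multiplicity]
  have hrel : S.relIndex (P : Subgroup G) = p := by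
    have h1 := Lib.SubgroupTools.card_mul_relIndex_of_le hSP
    rw [← hidx, mul_comm p] at h1
    exact Nat.eq_of_mul_eq_mul_left Nat.card_pos h1
  have hPN : (P : Subgroup G) ≤ normalizer (S : Set G) := normal_index_p hSP P.2 hrel
  set C : Subgroup G := centralizer (S : Set G) with hC
  have hPC : (P : Subgroup G) ≤ normalizer (C : Set G) := Lib.LocBase.le_normalizer_centralizer hPN
  have hLC : L ≤ C := by
    intro y hy
    rw [hC, mem_centralizer_iff]
    intro s hs
    exact (mem_centralizer_iff.1 (hS.1 hs) y hy).symm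
  set Z : Subgroup G := (P : Subgroup G) ⊓ C with hZ
  have hZsyl : IsSyl p Z C := ((isSyl_top_iff P).of_le hPC le_top).inf le_normalizer le_rfl
  have hZC : Z ≤ C := inf_le_right
  have hZP : Z ≤ P := inf_le_left
  have hCLN : centralizer (L : Set G) ≤ normalizer (L : Set G) := centralizer_le_normalizer (L : Set G)
  by_cases hZS : Z ≤ S
  · exact lemY hπ hL hLc P hX hPC hLC hZsyl ((hZS.trans hS.1).trans hCLN)
  obtain ⟨x, hxZ, hxS⟩ := SetLike.not_le_iff_exists.1 hZS
  have hLprime : ∀ q : ℕ, q.Prime → q ∣ Nat.card L → p + 1 ≤ q := fun q hq hd => hpπ q (L_primes hπ hLc hq hd)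
  have hcopLp : ∀ k : ℕ, Nat.Coprime (Nat.card L) (p ^ k) := by
    intro k
    apply Nat.Coprime.pow_right
    apply Nat.Coprime.symm
    rw [Nat.Prime.coprime_iff_not_dvd hp.out]
    intro h1
    have := hLprime p hp.out h1
    omega
  obtain ⟨kZ, hkZ⟩ := IsPGroup.iff_card.1 hZsyl.2.1
  have hcopZ : Nat.Coprime (Nat.card Z) (Z.relIndex C) := by
    rw [hkZ]
    exact Nat.Coprime.pow_left _ ((Nat.Prime.coprime_iff_not_dvd hp.out).2 hZsyl.2.2)
  -- case 2a
  by_cases hB : C ⊓ normalizer (Z : Set G) ≤ centralizer (Z : Set G)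
  · obtain ⟨K, hKC, hCK, hKcard, _, hKmem⟩ := exists_compl hZC hcopZ hB
    have hLK : L ≤ K := by
      intro y hy
      apply hKmem y (hLC hy) (Nat.card L)
      · exact pow_card_mem hy
      · rw [hkZ]; exact hcopLp kZ
    have h1 := frat hπ hL hLc hKC hCK hLK
    have h2 : IsSyl p (⊥ : Subgroup G) K := by
      refine ⟨bot_le, IsPGroup.of_bot, ?_⟩
      rw [relIndex_bot_left, hKcard]
      exact hZsyl.2.2
    obtain ⟨Z', hZ', hle⟩ := lift_syl (p := p) (inf_le_left.trans hCK) h1 h2 bot_le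
    exact lemY hπ hL hLc P hX hPC hLC hZ' (hle.trans inf_le_right)
  obtain ⟨g, hg, hgZ⟩ := SetLike.not_le_iff_exists.1 hB
  -- case 2b
  by_cases hA : C ⊓ normalizer (L : Set G) ≤ centralizer (L : Set G)
  · -- 2b-i
    have hcopL := rel_coprime hπ hLc hLC
    obtain ⟨K, hKC, hCK, hKcard, hKcomm, hKmem⟩ := exists_compl hLC hcopL hA
    have hLab : ∀ x ∈ L, ∀ y ∈ L, x * y = y * x := by
      intro x hx y hy
      exact (mem_centralizer_iff.1 (hA ⟨hLC hx, le_normalizer hx⟩) y hy).symm
    have hZK : Z ≤ K := by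
      intro z hz
      apply hKmem z (hZC hz) (Nat.card Z)
      · exact pow_card_mem hz
      · rw [hkZ]; exact (hcopLp kZ).symm
    have hZK' : IsSyl p Z K := hZsyl.of_le hZK hKC
    have h1 := hZK'.frattini_sup hKC hCK
    set N : Subgroup G := C ⊓ normalizer (Z : Set G) with hN
    have hNK : N ≤ normalizer (K : Set G) := inf_le_left.trans hCK
    have h2 := Lib.SubgroupTools.card_sup_mul_card_inf hNK
    rw [h1] at h2
    have hcC : Nat.card C = Nat.card K * Nat.card L := by
      rw [hKcard, mul_comm]; exact (Lib.SubgroupTools.card_mul_relIndex_of_le hLC).symm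
    have h3 : Nat.card L * Nat.card (K ⊓ N : Subgroup G) = Nat.card N := by
      rw [hcC, mul_assoc] at h2
      exact Nat.eq_of_mul_eq_mul_left Nat.card_pos h2
    have hKN : ((K ⊓ N).subgroupOf N).Normal := by
      constructor
      intro n hn m
      rw [mem_subgroupOf] at hn ⊢
      exact ⟨(mem_normalizer_iff.1 (hNK m.2) _).1 hn.1, (m * n * m⁻¹ : N).2⟩
    have hcKN : Nat.card ((K ⊓ N).subgroupOf N) = Nat.card (K ⊓ N : Subgroup G) := Lib.SubgroupTools.card_subgroupOf_of_le inf_le_right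
    have hiKN : ((K ⊓ N).subgroupOf N).index = Nat.card L := by
      have h4 := ((K ⊓ N).subgroupOf N).card_mul_index
      rw [hcKN, ← h3, mul_comm (Nat.card L)] at h4
      exact Nat.eq_of_mul_eq_mul_left Nat.card_pos h4
    have hcopK : Nat.Coprime (Nat.card K) (Nat.card L) := by rw [hKcard]; exact hcopL.symm
    obtain ⟨H, hH⟩ := exists_right_complement'_of_coprime (N := (K ⊓ N).subgroupOf N) (by
      rw [hcKN, hiKN]
      exact Nat.Coprime.coprime_dvd_left (card_dvd_of_le inf_le_left) hcopK)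
    have hHc : Nat.card H = Nat.card L := by
      have h4 := hH.card_mul_card
      rw [hcKN, ← h3, mul_comm (Nat.card L)] at h4
      exact Nat.eq_of_mul_eq_mul_left Nat.card_pos h4
    set L' : Subgroup G := H.map N.subtype with hL'
    have hL'N : L' ≤ N := map_subtype_le _
    have hL'c : Nat.card L' = Nat.card L := by rw [hL', card_map_of_injective N.subtype_injective, hHc]
    have hL'ab : ∀ a ∈ L', ∀ b ∈ L', a * b = b * a := by
      intro a ha b hb
      have h4 := hKcomm a (hL'N ha).1 b (hL'N hb).1 hLab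
      have h5 : a * b * a⁻¹ * b⁻¹ ∈ L' := L'.mul_mem (L'.mul_mem (L'.mul_mem ha hb) (L'.inv_mem ha)) (L'.inv_mem hb)
      have h6 : K ⊓ L' = ⊥ := by
        apply Lib.SubgroupTools.inf_eq_bot_of_coprime'
        rw [hL'c]; exact hcopK
      have h7 : a * b * a⁻¹ * b⁻¹ ∈ K ⊓ L' := ⟨h4, h5⟩
      rw [h6, mem_bot] at h7
      calc a * b = (a * b * a⁻¹ * b⁻¹) * (b * a) := by group
        _ = b * a := by rw [h7, one_mul]
    have hL'nil : Group.IsNilpotent L' := by
      letI : CommGroup L' := { (inferInstance : Group L') with mul_comm := fun a b => Subtype.ext (hL'ab _ a.2 _ b.2) }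
      exact CommGroup.isNilpotent
    obtain ⟨c, hc⟩ := Lib.HallComplement.nilpotent_hall_conj L L' hL'c (L_coprime hπ hLc) hL hL'nil
    have hcent : ∀ h ∈ L', ∀ y ∈ (P : Subgroup G), h * y = y * h := by
      intro h hh y hy
      have hhC : ∀ s ∈ S, h * s = s * h := fun s hs => (mem_centralizer_iff.1 (hL'N hh).1 s hs).symm
      have hxh : h * x = x * h := by
        apply fix_of_index (n := Nat.card L) (Z := Z) P.2 hSP hrel (hZP hxZ) hxS (fun s hs => (mem_centralizer_iff.1 (hZC hxZ) s hs).symm)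
          hhC
        · exact hZP ((mem_normalizer_iff.1 (hL'N hh).2 x).1 hxZ)
        · rw [← hL'c]
          exact pow_card_mem hh
        · exact Nat.card_pos.ne'
        · exact hLprime
      obtain ⟨s, hs, i, rfl⟩ := gen_p hSP hPN hrel (hZP hxZ) hxS hy
      exact ((show Commute h s from hhC s hs).mul_right ((show Commute h x from hxh).zpow_right i)).eq
    -- conjugate
    apply hX (c⁻¹ • P)
    intro y hy
    apply hCLN
    rw [mem_centralizer_iff]
    intro l hl
    obtain ⟨w, hw, rfl⟩ := hy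
    have h4 : c * l * c⁻¹ ∈ L' := by rw [← hc]; exact ⟨l, hl, rfl⟩
    have h5 := hcent _ h4 w hw
    have e : (MulDistribMulAction.toMonoidEnd (MulAut G) G (MulAut.conj c⁻¹)) w = c⁻¹ * w * c := by
      show c⁻¹ * w * c⁻¹⁻¹ = _
      rw [inv_inv]
    show l * (c⁻¹ * w * c⁻¹⁻¹) = (c⁻¹ * w * c⁻¹⁻¹) * l
    calc l * (c⁻¹ * w * c⁻¹⁻¹) = c⁻¹ * ((c * l * c⁻¹) * w) * c := by group
      _ = c⁻¹ * (w * (c * l * c⁻¹)) * c := by rw [h5]
      _ = _ := by group
  · -- 2b-ii
    obtain ⟨u, hu, huL⟩ := SetLike.not_le_iff_exists.1 hA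
    apply hcon
    have h := bound hπ hpπ IH hL hLc P hS hSP hPS (2 * (p + 1)) ((p + 1) * Nat.card L) (Nat.card L) (by
      intro y hy s hs
      have hyc : y ∈ centralizer (L : Set G) := hS.1 hy
      have hym : y ∈ s := (hs y).2 ⟨hSP hy, IsConj.refl y⟩
      have huy : u * y = y * u := (mem_centralizer_iff.1 hu.1 y hy).symm
      have h1 := w3 hπ hpπ hL hLc (L_le hyc) huy hu.2 huL
      have h3 : (p + 1) * Nat.card L + Nat.card L =
          (if y ∈ centralizer (L : Set G) then (p + 1) * Nat.card L + Nat.card L else Nat.card L) := (if_pos hyc).symm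
      have h4 : 2 * (p + 1) * kk π (centralizer ({y} : Set G)) ≤ (p + 1) * Nat.card L + Nat.card L := by
        calc _ = (p + 1) * (2 * kk π (centralizer ({y} : Set G))) := by ring
          _ ≤ _ := h1
          _ = _ := by ring
      refine h4.trans (h3.le.trans ?_)
      convert Finset.single_le_sum (f := fun z => if z ∈ centralizer (L : Set G) then (p + 1) * Nat.card L + Nat.card L else Nat.card L)
        (fun _ _ => Nat.zero_le _) hym) (by
      intro y hy hyc s hs
      have h1 := w1 hπ hpπ IH hL hLc y hyc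
      have h2 : 2 ≤ s.card := by
        have hyS : y ∉ S := fun h => hyc y (IsConj.refl y) (hS.1 h)
        -- y = s₀ x^i
        obtain ⟨s₀, hs₀, i, hyi⟩ := gen_p hSP hPN hrel (hZP hxZ) hxS hy
        have hgC : ∀ s ∈ S, g * s = s * g := fun s hs => (mem_centralizer_iff.1 hg.1 s hs).symm
        have hgy : g * y * g⁻¹ ∈ (P : Subgroup G) := by
          have e : g * y * g⁻¹ = s₀ * (g * x ^ i * g⁻¹) := by
            rw [hyi]
            calc g * (s₀ * x ^ i) * g⁻¹ = (g * s₀) * g⁻¹ * (g * x ^ i * g⁻¹) := by group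
              _ = _ := by rw [hgC s₀ hs₀]; group
          rw [e]
          exact (P : Subgroup G).mul_mem (hSP hs₀) (hZP ((mem_normalizer_iff.1 hg.2 _).1 (Z.zpow_mem hxZ i)))
        have hne : g * y * g⁻¹ ≠ y := by
          intro he
          apply hgZ
          have hgy' : g * y = y * g := by
            calc g * y = (g * y * g⁻¹) * g := by group
              _ = _ := by rw [he]
          rw [mem_centralizer_iff]
          intro z hz
          obtain ⟨s₁, hs₁, k, hk⟩ := gen_p hSP hPN hrel hy hyS (hZP hz)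
          rw [hk]
          exact ((show Commute g s₁ from hgC s₁ hs₁).mul_right ((show Commute g y from hgy').zpow_right k)).eq.symm
        have h3 : ({y, g * y * g⁻¹} : Finset G) ⊆ s := by
          intro z hz
          rcases Finset.mem_insert.1 hz with rfl | hz
          · exact (hs _).2 ⟨hy, IsConj.refl _⟩
          · rw [Finset.mem_singleton.1 hz]
            exact (hs _).2 ⟨hgy, isConj_iff.2 ⟨g, rfl⟩⟩
        calc 2 = ({y, g * y * g⁻¹} : Finset G).card := (Finset.card_pair (Ne.symm hne)).symm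
          _ ≤ _ := Finset.card_le_card h3
      calc 2 * (p + 1) * kk π (centralizer ({y} : Set G)) = 2 * ((p + 1) * kk π (centralizer ({y} : Set G))) := by ring
        _ ≤ 2 * Nat.card L := Nat.mul_le_mul_left 2 h1
        _ = Nat.card L * 2 := by ring
        _ ≤ _ := Nat.mul_le_mul_left _ h2)
    rw [pp_eq hpπ hLc P]
    rw [← hidx] at h ⊢
    have h7 : (2 * (p + 1)) * kk (insert p π) G ≤ (2 * (p + 1)) * (Nat.card S * Nat.card L) := by
      calc _ ≤ _ := h
        _ = (2 * p + 1) * (Nat.card S * Nat.card L) := by ring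
        _ ≤ _ := Nat.mul_le_mul_right _ (by omega)
    have h8 := Nat.le_of_mul_le_mul_left h7 (by omega)
    calc p * kk (insert p π) G ≤ p * (Nat.card S * Nat.card L) := Nat.mul_le_mul_left p h8
      _ = _ := by ring

end

end Cfsg.Agent.Lib.HPc
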