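import Cfsg.Agent.Lib.HPcF
import Cfsg.Agent.Lib.CharApps
import Cfsg.Agent.Lib.Codegree
import Cfsg.Prelude.Def_OddOrderLocal

/-!
# Counting classes of `π`-elements, VII: nilpotent Hall subgroups (helper71)
-/

set_option autoImplicit false
set_option linter.all false

namespace Cfsg.Agent.Lib.HPc

open Subgroup Pointwise
open Cfsg.Agent.Lib.RelSylow

universe u

/-- many classes force a nilpotent Hall subgroup -/
theorem main : ∀ (n : ℕ) (π : Finset ℕ), π.card = n → (∀ q ∈ π, q.Prime) → ∀ (p : ℕ), (∀ q ∈ π, p ≤ q) →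
    ∀ (G : Type u) [Group G] [Finite G], pp π (Nat.card G) < p * kk π G →
    ∃ H : Subgroup G, Nat.card H = pp π (Nat.card G) ∧ Group.IsNilpotent H := by
  classical
  intro n
  induction n with
  | zero =>
    intro π hn hπ p hp G _ _ h
    rw [Finset.card_eq_zero] at hn
    subst hn
    refine ⟨⊥, ?_, ?_⟩
    · rw [pp_empty, card_bot]
    · exact Group.isNilpotent_of_subsingleton
  | succ n ih =>
    intro π hn hπ p hp G _ _ h
    have hne : π.Nonempty := by
      rw [← Finset.card_pos]; omega
    set r := π.min' hne with hr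
    have hrπ : r ∈ π := Finset.min'_mem π hne
    have hrp : Fact r.Prime := ⟨hπ r hrπ⟩
    set π' := π.erase r with hπ'
    have hins : insert r π' = π := Finset.insert_erase hrπ
    have hprime' : ∀ q ∈ π', q.Prime := fun q hq => hπ q (Finset.mem_of_mem_erase hq)
    have hge : ∀ q ∈ π', r + 1 ≤ q := by
      intro q hq
      have h1 : r ≤ q := Finset.min'_le π q (Finset.mem_of_mem_erase hq)
      have h2 : q ≠ r := Finset.ne_of_mem_erase hq
      omega
    have hrn : r ∉ π' := Finset.notMem_erase r π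
    have hcard : π'.card = n := by rw [hπ', Finset.card_erase_of_mem hrπ]; omega
    have IH : ∀ (M : Type u) [Group M] [Finite M], pp π' (Nat.card M) < (r + 1) * kk π' M →
        ∃ H : Subgroup M, Nat.card H = pp π' (Nat.card M) ∧ Group.IsNilpotent H :=
      fun M _ _ hM => ih π' hcard hprime' (r + 1) hge M hM
    have hr1 : pp (insert r π') (Nat.card G) < r * kk (insert r π') G := by
      rw [hins]
      exact h.trans_le (Nat.mul_le_mul_right _ (hp r hrπ))
    -- the subgroup L
    have hsw := swap_le (G := G) hrn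
    obtain ⟨L, hLc, hL⟩ := IH G (by
      rw [pp_insert hrn] at hr1
      have h0 : 0 < r ^ (Nat.card G).factorization r := pow_pos hrp.out.pos _
      have h1 : r ^ (Nat.card G).factorization r * pp π' (Nat.card G) <
          r ^ (Nat.card G).factorization r * (r * kk π' G) := by
        calc _ < r * kk (insert r π') G := hr1
          _ ≤ r * (r ^ (Nat.card G).factorization r * kk π' G) := Nat.mul_le_mul_left _ hsw
          _ = _ := by ring
      have h2 := Nat.lt_of_mul_lt_mul_left h1
      refine h2.trans_le (Nat.mul_le_mul_right _ (Nat.le_succ r)))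
    obtain ⟨S, hS⟩ := exists_syl r (centralizer (L : Set G))
    obtain ⟨P, hSP⟩ := hS.2.1.exists_le_sylow
    have hPS : (P : Subgroup G) ⊓ centralizer (L : Set G) = S :=
      (hS.eq_of_le (P.2.to_le inf_le_left) inf_le_right (le_inf hSP hS.1)).symm
    have hrel := Lib.SubgroupTools.card_mul_relIndex_of_le hSP
    obtain ⟨a, ha⟩ := IsPGroup.iff_card.1 P.2
    have hdiv : S.relIndex (P : Subgroup G) ∣ r ^ a := by
      rw [← ha, ← hrel]; exact dvd_mul_left _ _
    obtain ⟨b, _, hb⟩ := (Nat.dvd_prime_pow hrp.out).1 hdiv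
    rw [← hins]
    rcases Nat.lt_or_ge b 2 with hb2 | hb2
    · rcases Nat.lt_or_ge b 1 with hb1 | hb1
      · -- commuting
        have hb0 : b = 0 := by omega
        rw [hb0, pow_zero] at hb
        have hPL : (P : Subgroup G) ≤ centralizer (L : Set G) := (relIndex_eq_one.1 hb).trans hS.1
        have hcop : Nat.Coprime (Nat.card L) (Nat.card (P : Subgroup G)) := by
          rw [ha]
          apply Nat.Coprime.pow_right
          apply Nat.Coprime.symm
          rw [Nat.Prime.coprime_iff_not_dvd hrp.out]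
          intro hd
          exact hrn (L_primes hprime' hLc hrp.out hd)
        refine ⟨L ⊔ (P : Subgroup G), ?_, ?_⟩
        · rw [Lib.SubgroupTools.card_sup_of_coprime (hPL.trans (centralizer_le_normalizer (L : Set G))) hcop, pp_eq hge hLc P, mul_comm]
        · have hcomm : ∀ (x : L) (y : (P : Subgroup G)), Commute (L.subtype x) ((P : Subgroup G).subtype y) := by
            intro x y
            exact mem_centralizer_iff.1 (hPL y.2) x x.2
          have hPn : Group.IsNilpotent (P : Subgroup G) := P.2.isNilpotent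
          have e : (MonoidHom.noncommCoprod L.subtype (P : Subgroup G).subtype hcomm).range = L ⊔ (P : Subgroup G) := by
            rw [MonoidHom.noncommCoprod_range, range_subtype, range_subtype]
          rw [← e]
          exact Group.nilpotent_of_surjective (MonoidHom.rangeRestrict _) (MonoidHom.rangeRestrict_surjective _)
      · have hb1 : b = 1 := by omega
        rw [hb1, pow_one] at hb
        rw [hb, mul_comm] at hrel
        exact absurd hr1 (not_lt.2 (index_one hprime' hge IH hL hLc P hS hSP hPS hrel))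
    · have h1 : r * r * Nat.card S ≤ Nat.card (P : Subgroup G) := by
        rw [← hrel, hb, mul_comm, ← pow_two]
        exact Nat.mul_le_mul_left _ (Nat.pow_le_pow_right hrp.out.pos hb2)
      exact absurd hr1 (not_lt.2 (case_two hprime' hge IH hL hLc P hS hSP hPS h1))

/-- the number of classes and the derived subgroup -/
theorem char_bound {H : Type u} [Group H] [Finite H] {p : ℕ} (hp : 1 ≤ p) (hprime : ∀ q : ℕ, q.Prime → q ∣ Nat.card H → p ≤ q) :
    Nat.card (commutator H) * (p ^ 2 * Nat.card (ConjClasses H)) ≤ (Nat.card (commutator H) + (p ^ 2 - 1)) * Nat.card H := by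
  classical
  have h1 := Lib.Codegree.sum_charDegree_sq (G := H)
  have h2 := Lib.CharBasic.card_linear (G := H)
  have h3 := Lib.CharBasic.card_irr (G := H)
  set lin : Finset (Cfsg.IrrCharacter H) := Finset.univ.filter (fun χ => (χ : H → ℂ) 1 = 1) with hlin
  have hlc : lin.card = (commutator H).index := by
    rw [← h2, Nat.card_eq_fintype_card, Fintype.card_subtype]
  have hdeg : ∀ χ : Cfsg.IrrCharacter H, p ^ 2 ≤ Cfsg.charDegree (χ : H → ℂ) ^ 2 + if (χ : H → ℂ) 1 = 1 then p ^ 2 - 1 else 0 := by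
    intro χ
    obtain ⟨d, hd0, hd⟩ := Lib.CharApps.exists_irr_degree χ
    have hdvd := Lib.CharApps.irr_degree_dvd_card χ.2 hd
    have he : Cfsg.charDegree (χ : H → ℂ) = d := by
      have h5 := Lib.DefectZero.charDegree_eq χ.2.isCharacter
      rw [hd] at h5
      exact_mod_cast h5
    rw [he]
    by_cases h6 : (χ : H → ℂ) 1 = 1
    · rw [if_pos h6]
      have : 1 ≤ d ^ 2 := Nat.one_le_pow _ _ hd0
      omega
    · rw [if_neg h6, add_zero]
      have hd1 : d ≠ 1 := by
        rintro rfl
        apply h6; rw [hd]; simp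
      obtain ⟨q, hq, hqd⟩ := Nat.exists_prime_and_dvd hd1
      have h7 := hprime q hq (hqd.trans hdvd)
      have h8 := Nat.le_of_dvd hd0 hqd
      exact Nat.pow_le_pow_left (h7.trans h8) 2
  have h4 : p ^ 2 * Nat.card (ConjClasses H) ≤ Nat.card H + (p ^ 2 - 1) * (commutator H).index := by
    rw [← h3, Nat.card_eq_fintype_card]
    calc p ^ 2 * Fintype.card (Cfsg.IrrCharacter H) = ∑ χ : Cfsg.IrrCharacter H, p ^ 2 := by
          rw [Finset.sum_const, Finset.card_univ, smul_eq_mul, mul_comm]
      _ ≤ ∑ χ : Cfsg.IrrCharacter H, (Cfsg.charDegree (χ : H → ℂ) ^ 2 + if (χ : H → ℂ) 1 = 1 then p ^ 2 - 1 else 0) :=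
          Finset.sum_le_sum fun χ _ => hdeg χ
      _ = Nat.card H + (p ^ 2 - 1) * (commutator H).index := by
          rw [Finset.sum_add_distrib, h1, ← Finset.sum_filter, Finset.sum_const, smul_eq_mul, hlc, mul_comm (p ^ 2 - 1)]
  have h5 := (commutator H).card_mul_index
  calc Nat.card (commutator H) * (p ^ 2 * Nat.card (ConjClasses H)) ≤
      Nat.card (commutator H) * (Nat.card H + (p ^ 2 - 1) * (commutator H).index) := Nat.mul_le_mul_left _ h4
    _ = Nat.card (commutator H) * Nat.card H + (p ^ 2 - 1) * (Nat.card (commutator H) * (commutator H).index) := by ring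
    _ = _ := by rw [h5]; ring

/-- classes of a nilpotent Hall subgroup -/
theorem kk_le_classes {G : Type u} [Group G] [Finite G] {π : Finset ℕ} (hπ : ∀ q ∈ π, q.Prime) {H : Subgroup G}
    (hH : Group.IsNilpotent H) (hc : Nat.card H = pp π (Nat.card G)) : kk π G ≤ Nat.card (ConjClasses H) := by
  classical
  let φ : ConjClasses H → ConjClasses G := ConjClasses.map H.subtype
  have h1 : {C : ConjClasses G | ∃ g, ConjClasses.mk g = C ∧ IsPi π g} ⊆ Set.range φ := by
    rintro _ ⟨g, rfl, hg⟩
    obtain ⟨x, hx⟩ := wiel π hπ G H hH hc g hg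
    refine ⟨ConjClasses.mk ⟨_, hx⟩, ?_⟩
    show ConjClasses.mk (x * g * x⁻¹) = ConjClasses.mk g
    rw [ConjClasses.mk_eq_mk_iff_isConj, isConj_comm, isConj_iff]
    exact ⟨x, rfl⟩
  unfold kk
  calc _ ≤ (Set.range φ).ncard := Set.ncard_le_ncard h1
    _ = (φ '' Set.univ).ncard := by rw [Set.image_univ]
    _ ≤ (Set.univ : Set (ConjClasses H)).ncard := Set.ncard_image_le
    _ = _ := Set.ncard_univ _

/-- the statements' data -/
theorem data {G : Type u} [Group G] [Finite G] (π : Set ℕ) (hπ : ∀ q ∈ π, q.Prime)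
    (m : ℕ) (hm : m ∣ Nat.card G) (hmπ : ∀ q : ℕ, q.Prime → q ∣ m → q ∈ π)
    (hm' : ∀ q ∈ π, ¬ q ∣ Nat.card G / m)
    (k : ℕ) (hk : k = Nat.card {C : ConjClasses G // ∀ q : ℕ, q.Prime → (∃ g : G, ConjClasses.mk g = C ∧ q ∣ orderOf g) → q ∈ π}) :
    ∃ σ : Finset ℕ, (∀ q ∈ σ, q ∈ π) ∧ m = pp σ (Nat.card G) ∧ k = kk σ G := by
  classical
  have hG : Nat.card G ≠ 0 := Nat.card_pos.ne'
  set σ : Finset ℕ := (Nat.card G).primeFactors.filter (· ∈ π) with hσ
  have hσπ : ∀ q ∈ σ, q ∈ π := fun q hq => (Finset.mem_filter.1 hq).2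
  have hσp : ∀ q ∈ σ, q.Prime := fun q hq => hπ q (hσπ q hq)
  have hmem : ∀ q : ℕ, q.Prime → q ∣ Nat.card G → q ∈ π → q ∈ σ := by
    intro q hq hd hqπ
    exact Finset.mem_filter.2 ⟨Nat.mem_primeFactors.2 ⟨hq, hd, hG⟩, hqπ⟩
  refine ⟨σ, hσπ, ?_, ?_⟩
  · apply Nat.dvd_antisymm
    · have h1 : Nat.Coprime m (Nat.card G / pp σ (Nat.card G)) := by
        apply Nat.coprime_of_dvd
        intro q hq h1 h2
        exact not_dvd_div hσp hG (hmem q hq (h1.trans hm) (hmπ q hq h1)) h2
      apply h1.dvd_of_dvd_mul_right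
      rw [Nat.mul_div_cancel' (pp_dvd hσp hG)]
      exact hm
    · have h1 : Nat.Coprime (pp σ (Nat.card G)) (Nat.card G / m) := by
        apply Nat.coprime_of_dvd
        intro q hq h1 h2
        exact hm' q (hσπ q (mem_of_dvd_pp hσp hq h1)) h2
      apply h1.dvd_of_dvd_mul_right
      rw [Nat.mul_div_cancel' hm]
      exact pp_dvd hσp hG
  · rw [hk]
    unfold kk
    rw [← Nat.card_coe_set_eq]
    apply Nat.card_congr
    apply Equiv.subtypeEquivRight
    intro C
    constructor
    · intro h
      obtain ⟨g, rfl⟩ := ConjClasses.exists_rep C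
      refine ⟨g, rfl, ?_⟩
      intro q hq hd
      exact hmem q hq (hd.trans (orderOf_dvd_natCard g)) (h q hq ⟨g, rfl, hd⟩)
    · rintro ⟨g, rfl, hg⟩ q hq ⟨g', hg', hd⟩
      apply hσπ
      apply hg q hq
      obtain ⟨c, hc⟩ := isConj_iff.1 (ConjClasses.mk_eq_mk_iff_isConj.1 hg')
      rw [← hc]
      have := MulEquiv.orderOf_eq (MulAut.conj c) g'
      rw [MulAut.conj_apply] at this
      rwa [this]

end Cfsg.Agent.Lib.HPc
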