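import Mathlib
import Cfsg.Agent.Lib.Aut22
import Cfsg.Agent.S0428

/-!
helper8: strongly regular graphs with parameters (100, 22, 0, 6): every vertex gives an S(3,6,22).
-/
set_option autoImplicit false

namespace Cfsg.Agent.Lib.SRG100

open Cfsg Finset Cfsg.Agent.Lib.Steiner Cfsg.Agent.Lib.SteinerTransport

section graph
variable {V : Type*} [Fintype V] [DecidableEq V] {G : SimpleGraph V} [DecidableRel G.Adj]
  (hG : G.IsSRGWith 100 22 0 6)

include hG

theorem tri {x y z : V} (h1 : G.Adj x y) (h2 : G.Adj y z) (h3 : G.Adj x z) : False := by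
  have h := hG.of_adj x z h3
  rw [Fintype.card_eq_zero_iff] at h
  exact h.elim ⟨y, by rw [SimpleGraph.mem_commonNeighbors]; exact ⟨h1, h2.symm⟩⟩

theorem common_six {x y : V} (hne : x ≠ y) (h : ¬ G.Adj x y) :
    (univ.filter fun u => G.Adj x u ∧ G.Adj y u).card = 6 := by
  rw [← S0427.card_common]
  exact hG.of_not_adj hne h

theorem deg (x : V) : (univ.filter fun u => G.Adj x u).card = 22 := by
  have := hG.regular x
  rw [← SimpleGraph.card_neighborFinset_eq_degree, SimpleGraph.neighborFinset_eq_filter] at this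
  exact this

variable (v0 : V)

/-- the block of a vertex -/
def bk (G : SimpleGraph V) [DecidableRel G.Adj] (v0 : V) (m : V) : Finset {x // G.Adj v0 x} :=
  univ.filter fun p => G.Adj m p.1

omit hG in
theorem mem_bk {m : V} {p : {x // G.Adj v0 x}} : p ∈ bk G v0 m ↔ G.Adj m p.1 := by simp [bk]

/-- the vertices at distance two -/
def far (G : SimpleGraph V) [DecidableRel G.Adj] (v0 : V) : Finset V :=
  univ.filter fun m => m ≠ v0 ∧ ¬ G.Adj v0 m

omit hG in
theorem mem_far {m : V} : m ∈ far G v0 ↔ m ≠ v0 ∧ ¬ G.Adj v0 m := by simp [far]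

theorem card_pts : Fintype.card {x // G.Adj v0 x} = 22 := by
  rw [Fintype.card_subtype]
  exact deg hG v0

theorem card_far : (far G v0).card = 77 := by
  have h1 : (univ : Finset V).card = 100 := by rw [card_univ]; exact hG.card
  have h2 : (far G v0) = (univ.erase v0) \ (univ.filter fun u => G.Adj v0 u) := by
    ext m
    simp [mem_far]
  rw [h2, card_sdiff_of_subset, card_erase_of_mem (mem_univ _), h1, deg hG]
  intro x hx
  rw [mem_filter] at hx
  rw [mem_erase]
  refine ⟨?_, mem_univ _⟩
  rintro rfl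
  exact G.loopless.irrefl _ hx.2

theorem card_bk {m : V} (hm : m ∈ far G v0) : (bk G v0 m).card = 6 := by
  rw [mem_far] at hm
  rw [← common_six hG hm.1.symm hm.2]
  apply card_bij (fun p _ => p.1)
  · intro p hp
    rw [mem_bk] at hp
    rw [mem_filter]
    exact ⟨mem_univ _, p.2, hp⟩
  · intro p _ q _ h
    exact Subtype.ext h
  · intro x hx
    rw [mem_filter] at hx
    exact ⟨⟨x, hx.2.1⟩, by rw [mem_bk]; exact hx.2.2, rfl⟩

/-- number of blocks through a point -/
theorem card_through (p : {x // G.Adj v0 x}) : ((far G v0).filter fun m => p ∈ bk G v0 m).card = 21 := by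
  have h1 : (univ.filter fun u => G.Adj p.1 u) = insert v0 ((far G v0).filter fun m => p ∈ bk G v0 m) := by
    ext u
    simp only [mem_filter, mem_univ, true_and, mem_insert, mem_far, mem_bk]
    constructor
    · intro h
      by_cases hu : u = v0
      · left; exact hu
      · right
        refine ⟨⟨hu, fun h2 => ?_⟩, h.symm⟩
        exact tri hG p.2 h h2
    · rintro (rfl | ⟨-, h⟩)
      · exact p.2.symm
      · exact h.symm
  have h2 := deg hG p.1
  rw [h1, card_insert_of_notMem] at h2
  · omega
  · rw [mem_filter, mem_far]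
    rintro ⟨⟨h, -⟩, -⟩
    exact h rfl

/-- number of blocks through two points -/
theorem card_through_two {p q : {x // G.Adj v0 x}} (hpq : p ≠ q) :
    ((far G v0).filter fun m => p ∈ bk G v0 m ∧ q ∈ bk G v0 m).card = 5 := by
  have hne : p.1 ≠ q.1 := fun h => hpq (Subtype.ext h)
  have hna : ¬ G.Adj p.1 q.1 := fun h => tri hG p.2 h q.2
  have h1 : (univ.filter fun u => G.Adj p.1 u ∧ G.Adj q.1 u) =
      insert v0 ((far G v0).filter fun m => p ∈ bk G v0 m ∧ q ∈ bk G v0 m) := by
    ext u
    simp only [mem_filter, mem_univ, true_and, mem_insert, mem_far, mem_bk]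
    constructor
    · rintro ⟨h, h'⟩
      by_cases hu : u = v0
      · left; exact hu
      · right
        refine ⟨⟨hu, fun h2 => ?_⟩, h.symm, h'.symm⟩
        exact tri hG p.2 h h2
    · rintro (rfl | ⟨-, h, h'⟩)
      · exact ⟨p.2.symm, q.2.symm⟩
      · exact ⟨h.symm, h'.symm⟩
  have h2 := common_six hG hne hna
  rw [h1, card_insert_of_notMem] at h2
  · omega
  · rw [mem_filter, mem_far]
    rintro ⟨⟨h, -⟩, -⟩
    exact h rfl

theorem disj_of_adj {m m' : V} (h : G.Adj m m') : bk G v0 m ∩ bk G v0 m' = ∅ := by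
  rw [eq_empty_iff_forall_notMem]
  intro p hp
  rw [mem_inter, mem_bk, mem_bk] at hp
  exact tri hG hp.1.symm h hp.2.symm

theorem card_adj_far {m : V} (hm : m ∈ far G v0) : ((far G v0).filter fun m' => G.Adj m m').card = 16 := by
  have h1 : (univ.filter fun u => G.Adj m u) =
      ((far G v0).filter fun m' => G.Adj m m') ∪ (univ.filter fun u => G.Adj v0 u ∧ G.Adj m u) := by
    rw [mem_far] at hm
    ext u
    simp only [mem_filter, mem_univ, true_and, mem_union, mem_far]
    constructor
    · intro h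
      by_cases hu : G.Adj v0 u
      · right; exact ⟨hu, h⟩
      · left
        refine ⟨⟨?_, hu⟩, h⟩
        rintro rfl
        exact hm.2 h.symm
    · rintro (⟨-, h⟩ | ⟨-, h⟩) <;> exact h
  have h2 := deg hG m
  rw [mem_far] at hm
  rw [h1, card_union_of_disjoint, common_six hG hm.1.symm hm.2] at h2
  · omega
  · rw [disjoint_left]
    intro u hu hu'
    rw [mem_filter, mem_far] at hu
    rw [mem_filter] at hu'
    exact hu.1.2 hu'.2.1

/-- the key count -/
theorem inter_two {m m' : V} (hm : m ∈ far G v0) (hm' : m' ∈ far G v0) (hne : m ≠ m') (hna : ¬ G.Adj m m') :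
    (bk G v0 m ∩ bk G v0 m').card = 2 := by
  set b := bk G v0 m with hb
  have hb6 : b.card = 6 := card_bk hG v0 hm
  have s1 : ∑ x ∈ far G v0, (b ∩ bk G v0 x).card = 126 := by
    have e : ∀ x ∈ far G v0, (b ∩ bk G v0 x).card = ∑ p ∈ b, if p ∈ bk G v0 x then 1 else 0 := by
      intro x _
      rw [← Finset.filter_mem_eq_inter, card_filter]
    rw [sum_congr rfl e, sum_comm]
    have e2 : ∀ p ∈ b, (∑ x ∈ far G v0, if p ∈ bk G v0 x then 1 else 0) = 21 := by
      intro p _
      rw [← card_filter]
      exact card_through hG v0 p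
    rw [sum_congr rfl e2, sum_const, hb6]; rfl
  have s2 : ∑ x ∈ far G v0, (b ∩ bk G v0 x).card * (b ∩ bk G v0 x).card = 276 := by
    have e : ∀ x ∈ far G v0, (b ∩ bk G v0 x).card * (b ∩ bk G v0 x).card =
        ∑ p ∈ b, ∑ q ∈ b, if (p ∈ bk G v0 x ∧ q ∈ bk G v0 x) then 1 else 0 := by
      intro x _
      have e0 : (b ∩ bk G v0 x).card = ∑ p ∈ b, if p ∈ bk G v0 x then 1 else 0 := by
        rw [← Finset.filter_mem_eq_inter, card_filter]
      rw [e0, sum_mul_sum]
      apply sum_congr rfl
      intro p _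
      apply sum_congr rfl
      intro q _
      by_cases h1 : p ∈ bk G v0 x <;> by_cases h2 : q ∈ bk G v0 x <;> simp [h1, h2]
    rw [sum_congr rfl e, sum_comm]
    have e2 : ∀ p ∈ b, (∑ x ∈ far G v0, ∑ q ∈ b, if (p ∈ bk G v0 x ∧ q ∈ bk G v0 x) then 1 else 0) = 46 := by
      intro p hp
      rw [sum_comm, ← add_sum_erase b _ hp]
      have e3 : (∑ x ∈ far G v0, if (p ∈ bk G v0 x ∧ p ∈ bk G v0 x) then 1 else 0) = 21 := by
        simp only [and_self]
        rw [← card_filter]
        exact card_through hG v0 p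
      have e4 : ∀ q ∈ b.erase p, (∑ x ∈ far G v0, if (p ∈ bk G v0 x ∧ q ∈ bk G v0 x) then 1 else 0) = 5 := by
        intro q hq
        rw [← card_filter]
        exact card_through_two hG v0 (Ne.symm (ne_of_mem_erase hq))
      rw [e3, sum_congr rfl e4, sum_const, card_erase_of_mem hp, hb6]; rfl
    rw [sum_congr rfl e2, sum_const, hb6]; rfl
  -- split
  set T := (far G v0).filter fun x => x ≠ m ∧ ¬ G.Adj m x with hT
  have hsplit : ∀ f : V → ℕ, (∀ x, G.Adj m x → f x = 0) → ∑ x ∈ far G v0, f x = f m + ∑ x ∈ T, f x := by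
    intro f hf
    rw [← add_sum_erase (far G v0) f hm]
    congr 1
    rw [hT]
    symm
    apply sum_subset_zero_on_sdiff
    · intro x hx
      rw [mem_filter] at hx
      rw [mem_erase]
      exact ⟨hx.2.1, hx.1⟩
    · intro x hx
      rw [mem_sdiff, mem_erase, mem_filter] at hx
      apply hf
      by_contra h
      exact hx.2 ⟨hx.1.2, hx.1.1, h⟩
    · intro x _; rfl
  have hTc : T.card = 60 := by
    have h1 := hsplit (fun x => if G.Adj m x then 0 else 1) (fun x hx => by simp [hx])
    have h2 : ∑ x ∈ far G v0, (if G.Adj m x then 0 else 1) = 77 - 16 := by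
      have h3 := card_filter_add_card_filter_not (s := far G v0) (fun x => G.Adj m x)
      rw [card_adj_far hG v0 hm, card_far hG v0] at h3
      have h4 : ∑ x ∈ far G v0, (if G.Adj m x then 0 else 1) = ((far G v0).filter fun x => ¬ G.Adj m x).card := by
        rw [card_filter]
        apply sum_congr rfl
        intro x _
        by_cases hx : G.Adj m x <;> simp [hx]
      rw [h4]
      omega
    have h3 : ∑ x ∈ T, (if G.Adj m x then 0 else 1) = T.card := by
      rw [card_eq_sum_ones]
      apply sum_congr rfl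
      intro x hx
      rw [hT, mem_filter] at hx
      simp [hx.2.2]
    rw [h2, h3] at h1
    have h5 : (if G.Adj m m then 0 else 1) = 1 := by simp
    rw [h5] at h1
    omega
  have hz : ∀ x, G.Adj m x → (b ∩ bk G v0 x).card = 0 := by
    intro x hx
    rw [hb, disj_of_adj hG v0 hx, card_empty]
  have t1 := hsplit (fun x => (b ∩ bk G v0 x).card) hz
  have t2 := hsplit (fun x => (b ∩ bk G v0 x).card * (b ∩ bk G v0 x).card) (fun x hx => by simp [hz x hx])
  rw [s1, ← hb, inter_self, hb6] at t1
  rw [s2, ← hb, inter_self, hb6] at t2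
  have hsq : ∑ x ∈ T, (((b ∩ bk G v0 x).card : ℤ) - 2) ^ 2 = 0 := by
    have e : ∀ x ∈ T, (((b ∩ bk G v0 x).card : ℤ) - 2) ^ 2 =
        (((b ∩ bk G v0 x).card * (b ∩ bk G v0 x).card : ℕ) : ℤ) - 4 * ((b ∩ bk G v0 x).card : ℤ) + 4 := by
      intro x _
      push_cast
      ring
    rw [sum_congr rfl e, sum_add_distrib, sum_sub_distrib, ← mul_sum, ← Nat.cast_sum, ← Nat.cast_sum, sum_const, hTc]
    have t1' : ∑ x ∈ T, (b ∩ bk G v0 x).card = 120 := by omega
    have t2' : ∑ x ∈ T, (b ∩ bk G v0 x).card * (b ∩ bk G v0 x).card = 240 := by omega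
    rw [t1', t2']
    norm_num
  rw [sum_eq_zero_iff_of_nonneg (fun x _ => sq_nonneg _)] at hsq
  have := hsq m' (by rw [hT, mem_filter]; exact ⟨hm', hne.symm, hna⟩)
  have h2 := pow_eq_zero_iff (two_ne_zero) |>.mp this
  omega

theorem bk_inj {m m' : V} (hm : m ∈ far G v0) (hm' : m' ∈ far G v0) (h : bk G v0 m = bk G v0 m') : m = m' := by
  by_contra hne
  have h6 := card_bk hG v0 hm
  by_cases ha : G.Adj m m'
  · have := disj_of_adj hG v0 ha
    rw [← h, inter_self] at this
    rw [this] at h6
    simp at h6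
  · have := inter_two hG v0 hm hm' hne ha
    rw [← h, inter_self] at this
    omega

theorem adj_iff_disj {m m' : V} (hm : m ∈ far G v0) (hm' : m' ∈ far G v0) :
    G.Adj m m' ↔ Disjoint (bk G v0 m) (bk G v0 m') := by
  rw [disjoint_iff_inter_eq_empty]
  constructor
  · exact disj_of_adj hG v0
  · intro h
    by_contra ha
    by_cases hne : m = m'
    · subst hne
      rw [inter_self] at h
      have := card_bk hG v0 hm
      rw [h] at this
      simp at this
    · have := inter_two hG v0 hm hm' hne ha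
      rw [h] at this
      simp at this

/-- the blocks -/
def blks (G : SimpleGraph V) [DecidableRel G.Adj] (v0 : V) : Set (Finset {x // G.Adj v0 x}) :=
  {b | ∃ m ∈ far G v0, bk G v0 m = b}

theorem steiner_blks : IsSteinerSystem 3 6 (blks G v0) := by
  constructor
  · rintro b ⟨m, hm, rfl⟩
    exact card_bk hG v0 hm
  · intro s hs
    have hdisj : ∀ m ∈ far G v0, ∀ m' ∈ far G v0, m ≠ m' →
        Disjoint (powersetCard 3 (bk G v0 m)) (powersetCard 3 (bk G v0 m')) := by
      intro m hm m' hm' hne
      rw [disjoint_left]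
      intro t ht ht'
      rw [mem_powersetCard] at ht ht'
      have h1 := card_le_card (subset_inter ht.1 ht'.1)
      rw [ht.2] at h1
      by_cases ha : G.Adj m m'
      · rw [disj_of_adj hG v0 ha] at h1
        simp at h1
      · rw [inter_two hG v0 hm hm' hne ha] at h1
        omega
    have hall : (far G v0).biUnion (fun m => powersetCard 3 (bk G v0 m)) = powersetCard 3 univ := by
      apply eq_of_subset_of_card_le
      · intro t ht
        rw [mem_biUnion] at ht
        obtain ⟨m, -, ht⟩ := ht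
        rw [mem_powersetCard] at ht ⊢
        exact ⟨subset_univ _, ht.2⟩
      · rw [card_biUnion hdisj, card_powersetCard, card_univ, card_pts hG v0]
        have : ∀ m ∈ far G v0, (powersetCard 3 (bk G v0 m)).card = 20 := by
          intro m hm
          rw [card_powersetCard, card_bk hG v0 hm]
          decide
        rw [sum_congr rfl this, sum_const, card_far hG v0]
        decide
    have hsm : s ∈ powersetCard 3 (univ : Finset {x // G.Adj v0 x}) := by
      rw [mem_powersetCard]; exact ⟨subset_univ _, hs⟩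
    rw [← hall, mem_biUnion] at hsm
    obtain ⟨m, hm, hsm⟩ := hsm
    rw [mem_powersetCard] at hsm
    refine ⟨bk G v0 m, ⟨⟨m, hm, rfl⟩, hsm.1⟩, ?_⟩
    rintro _ ⟨⟨m', hm', rfl⟩, hsm'⟩
    by_contra hne
    have hmm : m ≠ m' := fun e => hne (by rw [e])
    have := disjoint_left.mp (hdisj m hm m' hm' hmm) (mem_powersetCard.mpr hsm)
    exact this (mem_powersetCard.mpr ⟨hsm', hs⟩)

theorem exists_iso_self : ∃ f : pointBlockGraph (blks G v0) ≃g G, f none = v0 := by
  have hbm : ∀ b : blks G v0, ∃ m, m ∈ far G v0 ∧ bk G v0 m = b.1 := fun b => by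
    obtain ⟨m, h1, h2⟩ := b.2
    exact ⟨m, h1, h2⟩
  choose mm hmm1 hmm2 using hbm
  let f : Option ({x // G.Adj v0 x} ⊕ blks G v0) → V := fun z =>
    match z with
    | none => v0
    | some (Sum.inl p) => p.1
    | some (Sum.inr b) => mm b
  have hinj : Function.Injective f := by
    intro x y hxy
    rcases x with _ | p | b <;> rcases y with _ | q | c
    · rfl
    · exfalso
      have : v0 = q.1 := hxy
      have h2 := q.2
      rw [← this] at h2
      exact G.loopless.irrefl _ h2
    · exfalso
      have : v0 = mm c := hxy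
      have h2 := (mem_far v0).mp (hmm1 c)
      exact h2.1 this.symm
    · exfalso
      have : p.1 = v0 := hxy
      have h2 := p.2
      rw [this] at h2
      exact G.loopless.irrefl _ h2
    · have : p.1 = q.1 := hxy
      rw [Subtype.ext this]
    · exfalso
      have : p.1 = mm c := hxy
      have h2 := (mem_far v0).mp (hmm1 c)
      rw [← this] at h2
      exact h2.2 p.2
    · exfalso
      have : mm b = v0 := hxy
      exact ((mem_far v0).mp (hmm1 b)).1 this
    · exfalso
      have : mm b = q.1 := hxy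
      have h2 := (mem_far v0).mp (hmm1 b)
      rw [this] at h2
      exact h2.2 q.2
    · have : mm b = mm c := hxy
      have h2 : b = c := Subtype.ext (by rw [← hmm2 b, ← hmm2 c, this])
      rw [h2]
  have hsurj : Function.Surjective f := by
    intro v
    by_cases h1 : v = v0
    · exact ⟨none, h1.symm⟩
    by_cases h2 : G.Adj v0 v
    · exact ⟨some (Sum.inl ⟨v, h2⟩), rfl⟩
    · have hv : v ∈ far G v0 := (mem_far v0).mpr ⟨h1, h2⟩
      refine ⟨some (Sum.inr ⟨bk G v0 v, v, hv, rfl⟩), ?_⟩
      apply bk_inj hG v0 (hmm1 _) hv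
      exact hmm2 _
  refine ⟨⟨Equiv.ofBijective f ⟨hinj, hsurj⟩, ?_⟩, rfl⟩
  have hα := card_pts hG v0
  have hB := steiner_blks hG v0
  intro x y
  show G.Adj (f x) (f y) ↔ (pointBlockGraph (blks G v0)).Adj x y
  rcases x with _ | p | b <;> rcases y with _ | q | c
  · exact iff_of_false (G.loopless.irrefl _) S0428.adj_nn
  · exact iff_of_true q.2 (S0428.adj_np q)
  · exact iff_of_false ((mem_far v0).mp (hmm1 c)).2 (S0428.adj_nb c)
  · exact iff_of_true p.2.symm (S0428.adj_pn p)
  · exact iff_of_false (fun h => tri hG p.2 h q.2) (S0428.adj_pp p q)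
  · rw [S0428.adj_pb, ← hmm2 c, mem_bk]
    exact G.adj_comm _ _
  · exact iff_of_false (fun h => ((mem_far v0).mp (hmm1 b)).2 h.symm) (S0428.adj_bn b)
  · rw [S0428.adj_bp, ← hmm2 b, mem_bk]
  · rw [S0428.adj_bb hα hB, ← hmm2 b, ← hmm2 c, card_eq_zero, ← disjoint_iff_inter_eq_empty]
    rw [disjoint_comm]
    exact adj_iff_disj hG v0 (hmm1 b) (hmm1 c)

end graph

/-! ### isomorphisms of point-block graphs -/

variable {α β : Type*} [Fintype α] [Fintype β] [DecidableEq α] [DecidableEq β]

/-- an isomorphism of set systems induces one of point-block graphs -/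
def pbIso {B : Set (Finset α)} {B' : Set (Finset β)} (e : α ≃ β)
    (he : ∀ s : Finset α, s.map e.toEmbedding ∈ B' ↔ s ∈ B) : pointBlockGraph B ≃g pointBlockGraph B' where
  toEquiv := Equiv.optionCongr (Equiv.sumCongr e
    { toFun := fun b => ⟨b.1.map e.toEmbedding, (he b.1).mpr b.2⟩
      invFun := fun b => ⟨b.1.map e.symm.toEmbedding, by rw [← he, map_map_symm]; exact b.2⟩
      left_inv := fun b => Subtype.ext (map_symm_map e b.1)
      right_inv := fun b => Subtype.ext (map_map_symm e b.1) })
  map_rel_iff' := by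
    intro x y
    rcases x with _ | p | b <;> rcases y with _ | q | c
    · exact iff_of_false S0428.adj_nn S0428.adj_nn
    · exact iff_of_true (S0428.adj_np _) (S0428.adj_np _)
    · exact iff_of_false (S0428.adj_nb _) (S0428.adj_nb _)
    · exact iff_of_true (S0428.adj_pn _) (S0428.adj_pn _)
    · exact iff_of_false (S0428.adj_pp _ _) (S0428.adj_pp _ _)
    · rw [S0428.adj_pb]
      show (pointBlockGraph B').Adj (some (Sum.inl (e p))) (some (Sum.inr ⟨c.1.map e.toEmbedding, _⟩)) ↔ _
      rw [S0428.adj_pb]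
      simp
    · exact iff_of_false (S0428.adj_bn _) (S0428.adj_bn _)
    · rw [S0428.adj_bp]
      show (pointBlockGraph B').Adj (some (Sum.inr ⟨b.1.map e.toEmbedding, _⟩)) (some (Sum.inl (e q))) ↔ _
      rw [S0428.adj_bp]
      simp
    · rw [pointBlockGraph, pointBlockGraph, SimpleGraph.fromRel_adj, SimpleGraph.fromRel_adj]
      show (some (Sum.inr (⟨b.1.map e.toEmbedding, _⟩ : B')) ≠ some (Sum.inr ⟨c.1.map e.toEmbedding, _⟩) ∧
        (Disjoint (b.1.map e.toEmbedding) (c.1.map e.toEmbedding) ∨ Disjoint (c.1.map e.toEmbedding) (b.1.map e.toEmbedding))) ↔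
        (some (Sum.inr b) ≠ some (Sum.inr c) ∧ (Disjoint b.1 c.1 ∨ Disjoint c.1 b.1))
      rw [Finset.disjoint_map, Finset.disjoint_map]
      constructor
      · rintro ⟨h1, h2⟩
        refine ⟨fun h => h1 ?_, h2⟩
        have : b = c := by simpa using h
        subst this; rfl
      · rintro ⟨h1, h2⟩
        refine ⟨fun h => h1 ?_, h2⟩
        have h3 : b.1.map e.toEmbedding = c.1.map e.toEmbedding := by simpa using h
        rw [Subtype.ext (Finset.map_injective _ h3)]

theorem pbIso_none {B : Set (Finset α)} {B' : Set (Finset β)} (e : α ≃ β)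
    (he : ∀ s : Finset α, s.map e.toEmbedding ∈ B' ↔ s ∈ B) : pbIso e he none = none := rfl

/-- **uniqueness**, with a marked vertex -/
theorem exists_iso {V : Type*} [Fintype V] [DecidableEq V] {G : SimpleGraph V} [DecidableRel G.Adj]
    (hG : G.IsSRGWith 100 22 0 6) (v0 : V) {α : Type*} [Fintype α] [DecidableEq α] (hα : Fintype.card α = 22)
    {B : Set (Finset α)} (hB : IsSteinerSystem 3 6 B) : ∃ f : pointBlockGraph B ≃g G, f none = v0 := by
  obtain ⟨f, hf⟩ := exists_iso_self hG v0
  have h22 := card_pts hG v0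
  obtain ⟨x⟩ : Nonempty (Fin 3 ↪ α) := Function.Embedding.nonempty_of_card_le (by simp [hα])
  obtain ⟨x'⟩ : Nonempty (Fin 3 ↪ {x // G.Adj v0 x}) := Function.Embedding.nonempty_of_card_le (by simp [h22])
  obtain ⟨e, -, he⟩ := S3622.iso hα h22 hB (steiner_blks hG v0) x x'
  exact ⟨(pbIso e he).trans f, by rw [RelIso.trans_apply, pbIso_none, hf]⟩

end Cfsg.Agent.Lib.SRG100
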