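import Mathlib
import Cfsg.Agent.Lib.SRG100

/-!
helper8: an odd automorphism of the point-block graph of an S(3,6,22).
-/
set_option autoImplicit false

namespace Cfsg.Agent.Lib.HSOdd

open Cfsg Finset Cfsg.Agent.Lib.MaskSet Cfsg.Agent.Lib.S3622 Cfsg.Agent.Lib.SteinerTransport

/-- an involution with a given number of fixed points -/
theorem sign_involution {V : Type*} [Fintype V] [DecidableEq V] (σ : Equiv.Perm V) (h : σ * σ = 1) {k : ℕ}
    (hk : (univ.filter fun x => σ x = x).card + 2 * k = Fintype.card V) : Equiv.Perm.sign σ = (-1) ^ k := by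
  have h2 : ∀ c ∈ σ.cycleType, c = 2 := by
    rw [← Equiv.Perm.pow_prime_eq_one_iff, pow_two]
    exact h
  have h3 : σ.cycleType = Multiset.replicate (Multiset.card σ.cycleType) 2 := Multiset.eq_replicate_card.mpr h2
  have h4 := σ.sum_cycleType
  rw [h3, Multiset.sum_replicate, smul_eq_mul] at h4
  have h5 : σ.support.card + (univ.filter fun x => σ x = x).card = Fintype.card V := by
    have e1 : σ.support = univ.filter (fun x => σ x ≠ x) := by ext; simp
    have e2 : (univ.filter fun x => σ x = x) = univ.filter (fun x => ¬ σ x ≠ x) := by ext; simp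
    rw [e1, e2, card_filter_add_card_filter_not, card_univ]
  have h6 : Multiset.card σ.cycleType = k := by omega
  rw [Equiv.Perm.sign_of_cycleType, σ.sum_cycleType, ← h4, h6, show k * 2 + k = 2 * k + k by ring, pow_add, pow_mul]
  simp

def tt : Fin 22 → Fin 22 := ![1, 0, 2, 3, 4, 5, 6, 7, 8, 9, 13, 16, 19, 10, 17, 20, 11, 14, 21, 12, 15, 18]

def tN (i : ℕ) : ℕ := [1, 0, 2, 3, 4, 5, 6, 7, 8, 9, 13, 16, 19, 10, 17, 20, 11, 14, 21, 12, 15, 18].getD i 0

theorem tt_tt (i : Fin 22) : tt (tt i) = i := by revert i; decide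

/-- an involution of the standard S(3,6,22) -/
def tp : Equiv.Perm (Fin 22) := ⟨tt, tt, tt_tt, tt_tt⟩

theorem tN_eq : ∀ i : Fin 22, tN i = tt i := by decide

theorem map_tp (m : ℕ) : (mset 22 m).map tp.toEmbedding = mset 22 (imgN tN 22 m) := by
  rw [mset_imgN tt tN tN_eq, Finset.map_eq_image]
  rfl

theorem img_mem : ∀ m ∈ stdL, imgN tN 22 m ∈ stdL := by decide +kernel

theorem img_fix : (stdL.filter fun m => imgN tN 22 m == m).length = 21 := by decide +kernel

theorem map_stdF_of {s : Finset (Fin 22)} (hs : s ∈ stdF) : s.map tp.toEmbedding ∈ stdF := by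
  rw [mem_stdF] at hs
  obtain ⟨m, hm, rfl⟩ := hs
  rw [map_tp, mem_stdF]
  exact ⟨_, img_mem m hm, rfl⟩

theorem tp_tp (s : Finset (Fin 22)) : (s.map tp.toEmbedding).map tp.toEmbedding = s := by
  rw [Finset.map_map]
  have : tp.toEmbedding.trans tp.toEmbedding = Function.Embedding.refl _ := by
    ext i
    exact congrArg Fin.val (tt_tt i)
  rw [this, Finset.map_refl]

theorem map_stdF (s : Finset (Fin 22)) : s.map tp.toEmbedding ∈ (stdF : Set (Finset (Fin 22))) ↔
    s ∈ (stdF : Set (Finset (Fin 22))) := by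
  rw [mem_coe, mem_coe]
  constructor
  · intro h
    have := map_stdF_of h
    rwa [tp_tp] at this
  · exact map_stdF_of

theorem card_fix : (stdF.filter fun s => s.map tp.toEmbedding = s).card = 21 := by
  have h1 : (stdF.filter fun s => s.map tp.toEmbedding = s) =
      ((stdL.filter fun m => imgN tN 22 m == m).map (mset 22)).toFinset := by
    ext s
    rw [mem_filter, mem_stdF, List.mem_toFinset, List.mem_map]
    constructor
    · rintro ⟨⟨m, hm, rfl⟩, h2⟩
      refine ⟨m, ?_, rfl⟩
      rw [List.mem_filter]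
      refine ⟨hm, ?_⟩
      rw [map_tp] at h2
      rw [beq_iff_eq]
      exact mset_inj (stdL_lt _ (img_mem m hm)) (stdL_lt m hm) h2
    · rintro ⟨m, hm, rfl⟩
      rw [List.mem_filter, beq_iff_eq] at hm
      refine ⟨⟨m, hm.1, rfl⟩, ?_⟩
      rw [map_tp, hm.2]
  rw [h1, List.toFinset_card_of_nodup, List.length_map, img_fix]
  apply List.Nodup.map_on
  · intro x hx y hy hxy
    rw [List.mem_filter] at hx hy
    exact mset_inj (stdL_lt x hx.1) (stdL_lt y hy.1) hxy
  · apply List.Nodup.filter
    decide +kernel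

/-- the odd automorphism of the standard graph -/
def tau : pointBlockGraph (stdF : Set (Finset (Fin 22))) ≃g pointBlockGraph (stdF : Set (Finset (Fin 22))) :=
  SRG100.pbIso tp map_stdF

theorem card_fix_tau : (univ.filter fun x => tau.toEquiv x = x).card = 30 := by
  classical
  rw [S0428.count_split]
  have h1 : tau.toEquiv none = none := rfl
  rw [if_pos h1]
  have h2 : (univ.filter fun a : Fin 22 => tau.toEquiv (some (Sum.inl a)) = some (Sum.inl a)).card = 8 := by
    have : (univ.filter fun a : Fin 22 => tau.toEquiv (some (Sum.inl a)) = some (Sum.inl a)) =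
        univ.filter fun a : Fin 22 => tt a = a := by
      apply filter_congr
      intro a _
      have e : tau.toEquiv (some (Sum.inl a)) = some (Sum.inl (tt a)) := rfl
      rw [e]
      simp
    rw [this]
    decide
  have h3 : (univ.filter fun b : (stdF : Set (Finset (Fin 22))) => tau.toEquiv (some (Sum.inr b)) = some (Sum.inr b)).card = 21 := by
    rw [← card_fix]
    have e : ∀ b : (stdF : Set (Finset (Fin 22))), tau.toEquiv (some (Sum.inr b)) = some (Sum.inr b) ↔ b.1.map tp.toEmbedding = b.1 := by
      intro b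
      have e1 : tau.toEquiv (some (Sum.inr b)) = some (Sum.inr ⟨b.1.map tp.toEmbedding, (map_stdF b.1).mpr b.2⟩) := rfl
      rw [e1]
      simp only [Option.some.injEq, Sum.inr.injEq]
      constructor
      · intro h; exact congrArg Subtype.val h
      · intro h; exact Subtype.ext h
    apply Finset.card_bij (fun (b : (stdF : Set (Finset (Fin 22)))) _ => b.1)
    · intro b hb
      rw [mem_filter] at hb ⊢
      exact ⟨b.2, (e b).mp hb.2⟩
    · intro b _ c _ h
      exact Subtype.ext h
    · intro s hs
      rw [mem_filter] at hs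
      exact ⟨⟨s, hs.1⟩, by rw [mem_filter]; exact ⟨mem_univ _, (e _).mpr hs.2⟩, rfl⟩
  rw [h2, h3]

theorem tau_sq : tau.toEquiv * tau.toEquiv = 1 := by
  apply Equiv.ext
  intro x
  show tau.toEquiv (tau.toEquiv x) = x
  rcases x with _ | a | b
  · rfl
  · show some (Sum.inl (tt (tt a))) = some (Sum.inl a)
    rw [tt_tt]
  · show some (Sum.inr _) = some (Sum.inr b)
    congr 2
    exact Subtype.ext (tp_tp b.1)

end Cfsg.Agent.Lib.HSOdd
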