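import Mathlib
import Cfsg.Agent.Lib.HSOdd
import Cfsg.Agent.Lib.Prim100

/-!
helper8: the even automorphisms of the point-block graph of an S(3,6,22): the Higman-Sims group.
-/
set_option autoImplicit false

namespace Cfsg.Agent.Lib.HSGroup

open scoped Pointwise

open Cfsg Finset Cfsg.Agent.Lib.SteinerTransport Cfsg.Agent.Lib.Steiner Cfsg.Agent.Lib.MaskSet

variable {α : Type*} [Fintype α] [DecidableEq α] {B : Set (Finset α)}

theorem pbIso_inl {β : Type*} [Fintype β] [DecidableEq β] {B' : Set (Finset β)} (e : α ≃ β)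
    (he : ∀ s : Finset α, s.map e.toEmbedding ∈ B' ↔ s ∈ B) (a : α) :
    SRG100.pbIso e he (some (Sum.inl a)) = some (Sum.inl (e a)) := rfl

theorem pbIso_inr {β : Type*} [Fintype β] [DecidableEq β] {B' : Set (Finset β)} (e : α ≃ β)
    (he : ∀ s : Finset α, s.map e.toEmbedding ∈ B' ↔ s ∈ B) (b : B) :
    SRG100.pbIso e he (some (Sum.inr b)) = some (Sum.inr ⟨b.1.map e.toEmbedding, (he b.1).mpr b.2⟩) := rfl

/-- automorphisms of the system act on the graph -/
def emb (B : Set (Finset α)) : setSystemAut B →* (pointBlockGraph B ≃g pointBlockGraph B) where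
  toFun g := SRG100.pbIso g.1 (mem_aut_iff.mp g.2)
  map_one' := by
    apply RelIso.ext
    rintro (_ | a | b)
    · rfl
    · rfl
    · rw [pbIso_inr]
      show _ = some (Sum.inr b)
      congr 2
      apply Subtype.ext
      show b.1.map (Function.Embedding.refl _) = b.1
      exact Finset.map_refl
  map_mul' g h := by
    apply RelIso.ext
    rintro (_ | a | b)
    · rfl
    · rfl
    · rw [RelIso.mul_apply, pbIso_inr, pbIso_inr, pbIso_inr]
      congr 2
      apply Subtype.ext
      show b.1.map (g.1 * h.1).toEmbedding = (b.1.map h.1.toEmbedding).map g.1.toEmbedding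
      rw [Finset.map_map]
      rfl

theorem emb_inl (g : setSystemAut B) (a : α) : emb B g (some (Sum.inl a)) = some (Sum.inl (g.1 a)) := rfl

theorem emb_none (g : setSystemAut B) : emb B g none = none := rfl

theorem emb_inr (g : setSystemAut B) (b : B) :
    emb B g (some (Sum.inr b)) = some (Sum.inr ⟨b.1.map g.1.toEmbedding, (mem_aut_iff.mp g.2 b.1).mpr b.2⟩) := rfl

theorem emb_injective : Function.Injective (emb B) := by
  intro g h hgh
  apply Subtype.ext
  apply Equiv.ext
  intro a
  have := DFunLike.congr_fun hgh (some (Sum.inl a))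
  rw [emb_inl, emb_inl] at this
  simpa using this

theorem emb_surj {f : pointBlockGraph B ≃g pointBlockGraph B} (hf : f none = none) : ∃ g, emb B g = f := by
  classical
  have h1 : ∀ a : α, ∃ c : α, f (some (Sum.inl a)) = some (Sum.inl c) := by
    intro a
    have h : (pointBlockGraph B).Adj (f none) (f (some (Sum.inl a))) := f.map_rel_iff.mpr (S0428.adj_np a)
    rw [hf] at h
    rcases hh : f (some (Sum.inl a)) with _ | c | b
    · rw [hh] at h; exact absurd h S0428.adj_nn
    · exact ⟨c, rfl⟩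
    · rw [hh] at h; exact absurd h (S0428.adj_nb b)
  choose e he using h1
  have hinj : Function.Injective e := by
    intro a b hab
    have : f (some (Sum.inl a)) = f (some (Sum.inl b)) := by rw [he, he, hab]
    simpa using f.injective this
  let E : Equiv.Perm α := Equiv.ofBijective e (Finite.injective_iff_bijective.mp hinj)
  have hE : ∀ a, E a = e a := fun a => rfl
  have h2 : ∀ b : B, ∃ c : B, f (some (Sum.inr b)) = some (Sum.inr c) := by
    intro b
    have h : ¬ (pointBlockGraph B).Adj (f none) (f (some (Sum.inr b))) := fun h =>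
      S0428.adj_nb b (f.map_rel_iff.mp h)
    rw [hf] at h
    rcases hh : f (some (Sum.inr b)) with _ | c | c
    · rw [← hf] at hh
      have := f.injective hh
      simp at this
    · rw [hh] at h; exact absurd (S0428.adj_np c) h
    · exact ⟨c, rfl⟩
  have h3 : ∀ b c : B, f (some (Sum.inr b)) = some (Sum.inr c) → c.1 = b.1.map E.toEmbedding := by
    intro b c hbc
    ext q
    have h4 : ∀ p : α, E p ∈ c.1 ↔ p ∈ b.1 := by
      intro p
      rw [← S0428.adj_bp, ← S0428.adj_bp, hE, ← he, ← hbc]
      exact f.map_rel_iff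
    rw [Finset.mem_map_equiv, ← h4, Equiv.apply_symm_apply]
  have h5 : ∀ s ∈ B, s.map E.toEmbedding ∈ B := by
    intro s hs
    obtain ⟨c, hc⟩ := h2 ⟨s, hs⟩
    have := h3 _ _ hc
    rw [← this]
    exact c.2
  have hmem : E ∈ setSystemAut B := by
    rw [mem_aut_iff]
    intro s
    refine ⟨fun hs => ?_, h5 s⟩
    let φ : B → B := fun b => ⟨b.1.map E.toEmbedding, h5 b.1 b.2⟩
    have hφ : Function.Injective φ := by
      intro b c hbc
      exact Subtype.ext (Finset.map_injective _ (congrArg Subtype.val hbc))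
    obtain ⟨b, hb⟩ := (Finite.injective_iff_surjective.mp hφ) ⟨_, hs⟩
    have := Finset.map_injective _ (congrArg Subtype.val hb)
    rw [← this]
    exact b.2
  refine ⟨⟨E, hmem⟩, ?_⟩
  apply RelIso.ext
  rintro (_ | a | b)
  · rw [emb_none, hf]
  · rw [emb_inl, he]
    rfl
  · obtain ⟨c, hc⟩ := h2 b
    rw [emb_inr, hc]
    congr 2
    exact Subtype.ext (h3 b c hc).symm

/-- the sign of an automorphism -/
noncomputable def sgn (B : Set (Finset α)) : (pointBlockGraph B ≃g pointBlockGraph B) →* ℤˣ := by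
  classical
  exact Equiv.Perm.sign.comp (MulAction.toPermHom (pointBlockGraph B ≃g pointBlockGraph B) (Option (α ⊕ B)))

theorem sgn_apply [DecidableEq (Option (α ⊕ B))] [Fintype (Option (α ⊕ B))] (f : pointBlockGraph B ≃g pointBlockGraph B) :
    sgn B f = Equiv.Perm.sign f.toEquiv := by
  unfold sgn
  rw [MonoidHom.comp_apply]
  have : (MulAction.toPermHom (pointBlockGraph B ≃g pointBlockGraph B) (Option (α ⊕ B))) f = f.toEquiv := by
    apply Equiv.ext
    intro x
    rfl
  rw [this]
  congr!

/-- the group -/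
noncomputable def HS (B : Set (Finset α)) : Subgroup (pointBlockGraph B ≃g pointBlockGraph B) := (sgn B).ker

theorem tau_odd : sgn _ HSOdd.tau = -1 := by
  classical
  rw [sgn_apply, HSOdd.sign_involution _ HSOdd.tau_sq (k := 35)]
  · decide
  · have h1 := HSOdd.card_fix_tau
    have h2 : Fintype.card (Option (Fin 22 ⊕ (S3622.stdF : Set (Finset (Fin 22))))) = 100 := by
      rw [Fintype.card_option, Fintype.card_sum, Fintype.card_fin]
      have : Fintype.card (S3622.stdF : Set (Finset (Fin 22))) = 77 := by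
        rw [← S3622.card_stdF]
        simp
      omega
    rw [h2]
    convert Nat.add_right_cancel_iff.mpr h1

section
variable (hα : Fintype.card α = 22) (hB : IsSteinerSystem 3 6 B)
include hα hB

theorem exists_odd : ∃ τ : setSystemAut B, sgn B (emb B τ) = -1 ∧ (∃ p : α, τ.1 p = p) ∧
    ∃ b : Finset α, b ∈ B ∧ b.map τ.1.toEmbedding = b := by
  classical
  obtain ⟨x⟩ : Nonempty (Fin 3 ↪ α) := Function.Embedding.nonempty_of_card_le (by simp [hα])
  obtain ⟨h, y, hinj, hH, hy, -⟩ := S3622.exists_frame hα hB x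
  obtain ⟨e, he, -, hs⟩ := S3622.exists_std hα hB h hinj hH y hy
  have hs' : ∀ s : Finset (Fin 22), s.map e.toEmbedding ∈ B ↔ s ∈ (S3622.stdF : Set (Finset (Fin 22))) := fun s => by
    rw [mem_coe]; exact hs s
  let φ := SRG100.pbIso e hs'
  let f : pointBlockGraph B ≃g pointBlockGraph B := (φ.symm.trans HSOdd.tau).trans φ
  have hfn : f none = none := by
    show φ (HSOdd.tau (φ.symm none)) = none
    have : φ.symm none = none := by rw [RelIso.symm_apply_eq]; rfl
    rw [this]
    rfl
  obtain ⟨τ, hτ⟩ := emb_surj hfn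
  have hτe : ∀ i, τ.1 (e i) = e (HSOdd.tt i) := by
    intro i
    have h1 : emb B τ (some (Sum.inl (e i))) = f (some (Sum.inl (e i))) := by rw [hτ]
    rw [emb_inl] at h1
    have h2 : f (some (Sum.inl (e i))) = φ (HSOdd.tau (φ.symm (some (Sum.inl (e i))))) := rfl
    have h3 : φ.symm (some (Sum.inl (e i))) = some (Sum.inl i) := by rw [RelIso.symm_apply_eq]; rfl
    rw [h2, h3] at h1
    have h4 : φ (HSOdd.tau (some (Sum.inl i))) = some (Sum.inl (e (HSOdd.tt i))) := rfl
    rw [h4] at h1
    simpa using h1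
  refine ⟨τ, ?_, ⟨e 2, ?_⟩, ⟨(mset 22 63).map e.toEmbedding, ?_, ?_⟩⟩
  · rw [hτ, sgn_apply, ← tau_odd, sgn_apply]
    exact Equiv.Perm.sign_symm_trans_trans HSOdd.tau.toEquiv φ.toEquiv
  · rw [hτe]; rfl
  · rw [hs, S3622.mem_stdF]
    exact ⟨63, by decide, rfl⟩
  · rw [Finset.map_map]
    have : e.toEmbedding.trans τ.1.toEmbedding = HSOdd.tp.toEmbedding.trans e.toEmbedding := by
      apply DFunLike.ext
      intro i
      exact hτe i
    rw [this, ← Finset.map_map, HSOdd.map_tp]
    congr 1

/-- the full automorphism group is transitive -/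
theorem aut_trans (v : Option (α ⊕ B)) : ∃ f : pointBlockGraph B ≃g pointBlockGraph B, f none = v := by
  classical
  exact SRG100.exists_iso (S0428.result hα hB) v hα hB

theorem exists_even {g : pointBlockGraph B ≃g pointBlockGraph B} (v : Option (α ⊕ B))
    (hv : ∃ τ : setSystemAut B, sgn B (emb B τ) = -1 ∧ emb B τ v = v) :
    ∃ h ∈ HS B, h none = g none ∧ h v = g v := by
  obtain ⟨τ, h1, h2⟩ := hv
  rcases Int.units_eq_one_or (sgn B g) with h | h
  · exact ⟨g, h, rfl, rfl⟩
  · refine ⟨g * emb B τ, ?_, ?_, ?_⟩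
    · show sgn B (g * emb B τ) = 1
      rw [map_mul, h, h1]
      decide
    · rw [RelIso.mul_apply, emb_none]
    · rw [RelIso.mul_apply, h2]

theorem exists_even_none (g : pointBlockGraph B ≃g pointBlockGraph B) : ∃ h ∈ HS B, h none = g none := by
  obtain ⟨τ, h1, -⟩ := exists_odd hα hB
  obtain ⟨h, hh, h2, -⟩ := exists_even hα hB (g := g) none ⟨τ, h1, emb_none τ⟩
  exact ⟨h, hh, h2⟩

/-- the stabiliser is transitive on points -/
theorem stab_points (p q : α) : ∃ h ∈ HS B, h none = none ∧ h (some (Sum.inl p)) = some (Sum.inl q) := by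
  obtain ⟨τ, h1, ⟨p0, hp0⟩, -⟩ := exists_odd hα hB
  have key : ∀ r : α, ∃ h ∈ HS B, h none = none ∧ h (some (Sum.inl p0)) = some (Sum.inl r) := by
    intro r
    have ht := Aut22.aut_pretransitive hα hB
    have ht1 : MulAction.IsPretransitive (setSystemAut B) α := by
      rw [← MulAction.is_one_pretransitive_iff]
      exact MulAction.isMultiplyPretransitive_of_le (m := 1) (n := 3) (by norm_num) (by simp [hα])
    obtain ⟨g, hg⟩ := MulAction.exists_smul_eq (setSystemAut B) p0 r
    obtain ⟨h, hh, h2, h3⟩ := exists_even hα hB (g := emb B g) (some (Sum.inl p0)) ⟨τ, h1, by rw [emb_inl, hp0]⟩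
    refine ⟨h, hh, h2, ?_⟩
    rw [h3, emb_inl]
    congr 2
  obtain ⟨h, hh, h2, h3⟩ := key p
  obtain ⟨k, hk, k2, k3⟩ := key q
  refine ⟨k * h⁻¹, mul_mem hk (inv_mem hh), ?_, ?_⟩
  · rw [RelIso.mul_apply]
    have : h⁻¹ none = none := by rw [← h2, RelIso.inv_apply_self, h2]
    rw [this, k2]
  · rw [RelIso.mul_apply, ← h3, RelIso.inv_apply_self, k3]

theorem stab_blocks (b c : B) : ∃ h ∈ HS B, h none = none ∧ h (some (Sum.inr b)) = some (Sum.inr c) := by
  obtain ⟨τ, h1, -, b0, hb0, hbt⟩ := exists_odd hα hB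
  have key : ∀ r : B, ∃ h ∈ HS B, h none = none ∧ h (some (Sum.inr ⟨b0, hb0⟩)) = some (Sum.inr r) := by
    intro r
    have hfr : ∀ b ∈ B, ∃ x : Fin 6 ↪ α, ∃ y : α, univ.map x = b ∧ y ∉ b := by
      intro b hb
      have h6 := hB.1 b hb
      have : (univ.filter fun h : Fin 6 ↪ α => univ.map h = b).Nonempty := by
        rw [← card_pos, Aut22.card_maps h6]
        decide
      obtain ⟨x, hx⟩ := this
      rw [mem_filter] at hx
      have : b ≠ univ := by
        intro h
        rw [h, card_univ, hα] at h6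
        omega
      obtain ⟨y, hy⟩ : ∃ y, y ∉ b := by
        by_contra hcon
        push Not at hcon
        exact this (eq_univ_iff_forall.mpr hcon)
      exact ⟨x, y, hx.2, hy⟩
    obtain ⟨x, y, hx, hy⟩ := hfr b0 hb0
    obtain ⟨x', y', hx', hy'⟩ := hfr r.1 r.2
    obtain ⟨e, e1, -, e3⟩ := S3622.exists_iso hα hα hB hB x x.injective (by rw [Aut22.image_eq_map, hx]; exact hb0)
      y (by rw [Aut22.image_eq_map, hx]; exact hy) x' x'.injective (by rw [Aut22.image_eq_map, hx']; exact r.2) y'
      (by rw [Aut22.image_eq_map, hx']; exact hy')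
    let g : setSystemAut B := ⟨e, mem_aut_iff.mpr e3⟩
    have hg : b0.map g.1.toEmbedding = r.1 := by
      rw [← hx, ← hx', Finset.map_map]
      congr 1
      apply DFunLike.ext
      intro i
      exact e1 i
    obtain ⟨h, hh, h2, h3⟩ := exists_even hα hB (g := emb B g) (some (Sum.inr ⟨b0, hb0⟩)) ⟨τ, h1, by
      rw [emb_inr]
      congr 2
      exact Subtype.ext hbt⟩
    refine ⟨h, hh, h2, ?_⟩
    rw [h3, emb_inr]
    congr 2
    exact Subtype.ext hg
  obtain ⟨h, hh, h2, h3⟩ := key b
  obtain ⟨k, hk, k2, k3⟩ := key c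
  refine ⟨k * h⁻¹, mul_mem hk (inv_mem hh), ?_, ?_⟩
  · rw [RelIso.mul_apply]
    have : h⁻¹ none = none := by rw [← h2, RelIso.inv_apply_self, h2]
    rw [this, k2]
  · rw [RelIso.mul_apply, ← h3, RelIso.inv_apply_self, k3]

theorem hs_trans : MulAction.IsPretransitive (HS B) (Option (α ⊕ B)) := by
  have key : ∀ v : Option (α ⊕ B), ∃ h : HS B, h • (none : Option (α ⊕ B)) = v := by
    intro v
    obtain ⟨g, hg⟩ := aut_trans hα hB v
    obtain ⟨h, hh, h2⟩ := exists_even_none hα hB g
    exact ⟨⟨h, hh⟩, h2.trans hg⟩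
  refine ⟨fun x y => ?_⟩
  obtain ⟨h, rfl⟩ := key x
  obtain ⟨k, rfl⟩ := key y
  exact ⟨k * h⁻¹, by rw [mul_smul, inv_smul_smul]⟩

omit [DecidableEq α] in
theorem card_vert : Nat.card (Option (α ⊕ B)) = 100 := by
  classical
  have := (S0428.result hα hB).card
  rw [Nat.card_eq_fintype_card, ← this]

theorem card_aut : Nat.card (pointBlockGraph B ≃g pointBlockGraph B) = 88704000 := by
  have ht : MulAction.IsPretransitive (pointBlockGraph B ≃g pointBlockGraph B) (Option (α ⊕ B)) := by
    refine ⟨fun x y => ?_⟩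
    obtain ⟨h, rfl⟩ := aut_trans hα hB x
    obtain ⟨k, rfl⟩ := aut_trans hα hB y
    exact ⟨k * h⁻¹, by rw [RelIso.smul_def, RelIso.mul_apply, RelIso.inv_apply_self]⟩
  have h1 := MulAction.index_stabilizer_of_transitive (pointBlockGraph B ≃g pointBlockGraph B) (none : Option (α ⊕ B))
  rw [card_vert hα hB] at h1
  have h2 := (MulAction.stabilizer (pointBlockGraph B ≃g pointBlockGraph B) (none : Option (α ⊕ B))).card_mul_index
  rw [h1] at h2
  have h3 : Nat.card (MulAction.stabilizer (pointBlockGraph B ≃g pointBlockGraph B) (none : Option (α ⊕ B))) = 887040 := by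
    rw [← Aut22.card_aut hα hB]
    symm
    apply Nat.card_congr
    apply Equiv.ofBijective (fun g => (⟨emb B g, emb_none g⟩ :
      MulAction.stabilizer (pointBlockGraph B ≃g pointBlockGraph B) (none : Option (α ⊕ B))))
    constructor
    · intro g h hgh
      exact emb_injective (congrArg Subtype.val hgh)
    · rintro ⟨f, hf⟩
      obtain ⟨g, hg⟩ := emb_surj hf
      exact ⟨g, Subtype.ext hg⟩
  rw [← h2, h3]

theorem card_HS : Nat.card (HS B) = 44352000 := by
  have h1 := (HS B).card_mul_index
  have h2 : (HS B).index = 2 := by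
    show (sgn B).ker.index = 2
    rw [Subgroup.index_ker]
    have : (sgn B).range = ⊤ := by
      rw [MonoidHom.range_eq_top]
      intro u
      obtain ⟨τ, h1, -⟩ := exists_odd hα hB
      rcases Int.units_eq_one_or u with rfl | rfl
      · exact ⟨1, map_one _⟩
      · exact ⟨_, h1⟩
    rw [this, Subgroup.card_top, Nat.card_eq_fintype_card, Fintype.card_units_int]
  rw [h2, card_aut hα hB] at h1
  omega

theorem stab_simple : IsSimpleGroup (MulAction.stabilizer (HS B) (none : Option (α ⊕ B))) := by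
  obtain ⟨φ, hφ⟩ := Aut22.exists_m22 hα hB
  have hne : S5824.u0 ≠ S5824.v0 := S5824.u0_ne_v0
  have hM := Golay.M22_simple hne
  have hMc := Golay.card_stab_two hne
  set M := ↥(MulAction.stabilizer M24 S5824.u0 ⊓ MulAction.stabilizer M24 S5824.v0) with hMdef
  let ψ : M →* (pointBlockGraph B ≃g pointBlockGraph B) := (emb B).comp φ
  have hψ : Function.Injective ψ := emb_injective.comp hφ
  have hker : ((sgn B).comp ψ).ker = ⊤ := by
    rcases hM.eq_bot_or_eq_top_of_normal ((sgn B).comp ψ).ker inferInstance with h | h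
    · exfalso
      have hinj := (MonoidHom.ker_eq_bot_iff _).mp h
      have := Nat.card_le_card_of_injective _ hinj
      rw [hMc, Nat.card_eq_fintype_card, Fintype.card_units_int] at this
      omega
    · exact h
  have hmem : ∀ m, ψ m ∈ HS B := by
    intro m
    have : m ∈ ((sgn B).comp ψ).ker := by rw [hker]; trivial
    exact this
  let χ : M →* MulAction.stabilizer (HS B) (none : Option (α ⊕ B)) :=
    (ψ.codRestrict (HS B) hmem).codRestrict _ (fun m => emb_none (φ m))
  have hχ : Function.Injective χ := by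
    intro m n h
    exact hψ (congrArg (fun z => z.1.1) h)
  have hc : Nat.card (MulAction.stabilizer (HS B) (none : Option (α ⊕ B))) = 443520 := by
    have ht := hs_trans hα hB
    have h1 := MulAction.index_stabilizer_of_transitive (HS B) (none : Option (α ⊕ B))
    rw [card_vert hα hB] at h1
    have h2 := (MulAction.stabilizer (HS B) (none : Option (α ⊕ B))).card_mul_index
    rw [h1, card_HS hα hB] at h2
    omega
  have hfin : Finite (MulAction.stabilizer (HS B) (none : Option (α ⊕ B))) :=
    Nat.finite_of_card_ne_zero (by rw [hc]; norm_num)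
  have hbij : Function.Bijective χ := by
    rw [Nat.bijective_iff_injective_and_card]
    exact ⟨hχ, by rw [hMc, hc]⟩
  exact Golay.isSimpleGroup_of_mulEquiv (MulEquiv.ofBijective χ hbij) hM

omit hα hB in
theorem faithful : FaithfulSMul (HS B) (Option (α ⊕ B)) := by
  refine ⟨fun {g h} hgh => ?_⟩
  apply Subtype.ext
  apply RelIso.ext
  intro x
  exact hgh x

theorem hs_prim : MulAction.IsPreprimitive (HS B) (Option (α ⊕ B)) := by
  classical
  have ht := hs_trans hα hB
  have hB77 : Nat.card B = 77 := by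
    have := card_vert hα hB
    rw [Finite.card_option, Nat.card_sum, Nat.card_eq_fintype_card (α := α), hα] at this
    omega
  apply MulAction.IsPreprimitive.of_isTrivialBlock_base (none : Option (α ⊕ B))
  intro S hS0 hS
  have hdvd := hS.ncard_dvd_card ⟨none, hS0⟩
  rw [card_vert hα hB] at hdvd
  have hstab : ∀ h : HS B, h • (none : Option (α ⊕ B)) = none → h • S = S := by
    intro h hh
    exact hS.smul_eq_of_mem hS0 (by rw [hh]; exact hS0)
  have hpts : (∃ p : α, some (Sum.inl p) ∈ S) → ∀ q : α, some (Sum.inl q) ∈ S := by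
    rintro ⟨p, hp⟩ q
    obtain ⟨h, hh, h1, h2⟩ := stab_points hα hB p q
    have h3 := hstab ⟨h, hh⟩ h1
    rw [← h3]
    exact ⟨_, hp, h2⟩
  have hbls : (∃ p : B, some (Sum.inr p) ∈ S) → ∀ q : B, some (Sum.inr q) ∈ S := by
    rintro ⟨p, hp⟩ q
    obtain ⟨h, hh, h1, h2⟩ := stab_blocks hα hB p q
    have h3 := hstab ⟨h, hh⟩ h1
    rw [← h3]
    exact ⟨_, hp, h2⟩
  have hcard : S.ncard = (if none ∈ S then 1 else 0) + (({p : α | some (Sum.inl p) ∈ S}.ncard) +
      ({b : B | some (Sum.inr b) ∈ S}.ncard)) := by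
    have h0 := S0428.count_split (fun z : Option (α ⊕ B) => z ∈ S)
    rw [Set.ncard_eq_toFinset_card', Set.ncard_eq_toFinset_card', Set.ncard_eq_toFinset_card']
    rw [Set.toFinset_setOf, Set.toFinset_setOf, ← h0]
    congr 1
    ext z
    simp
  rw [if_pos hS0] at hcard
  by_cases hp : ∃ p : α, some (Sum.inl p) ∈ S <;> by_cases hb : ∃ p : B, some (Sum.inr p) ∈ S
  · right
    rw [Set.eq_univ_iff_forall]
    rintro (_ | a | b)
    · exact hS0
    · exact hpts hp a
    · exact hbls hb b
  · exfalso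
    have e1 : {p : α | some (Sum.inl p) ∈ S} = Set.univ := Set.eq_univ_iff_forall.mpr (hpts hp)
    have e2 : {b : B | some (Sum.inr b) ∈ S} = ∅ := by
      rw [Set.eq_empty_iff_forall_notMem]
      exact fun b h => hb ⟨b, h⟩
    rw [e1, e2, Set.ncard_univ, Set.ncard_empty, Nat.card_eq_fintype_card, hα] at hcard
    rw [hcard] at hdvd
    norm_num at hdvd
  · exfalso
    have e1 : {p : α | some (Sum.inl p) ∈ S} = ∅ := by
      rw [Set.eq_empty_iff_forall_notMem]
      exact fun b h => hp ⟨b, h⟩
    have e2 : {b : B | some (Sum.inr b) ∈ S} = Set.univ := Set.eq_univ_iff_forall.mpr (hbls hb)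
    rw [e1, e2, Set.ncard_univ, Set.ncard_empty, hB77] at hcard
    rw [hcard] at hdvd
    norm_num at hdvd
  · left
    intro x hx y hy
    have : ∀ z ∈ S, z = none := by
      rintro (_ | a | b) hz
      · rfl
      · exact absurd ⟨a, hz⟩ hp
      · exact absurd ⟨b, hz⟩ hb
    rw [this x hx, this y hy]

theorem isHS : IsHS (HS B) := by
  refine ⟨?_, card_HS hα hB⟩
  have := faithful (B := B)
  have hfin : Finite (HS B) := Nat.finite_of_card_ne_zero (by rw [card_HS hα hB]; norm_num)
  exact Prim100.simple_of (hs_prim hα hB) none (stab_simple hα hB) (card_vert hα hB)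

end

end Cfsg.Agent.Lib.HSGroup
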