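import Cfsg.Agent.Lib.H92MathieuAutC
import Cfsg.Agent.Lib.HSGroup

/-!
Recognition of the Higman-Sims group as a permutation group of rank three: subgroups of index 22 in `M22`.
(The first proof follows helper92's proof for automorphisms.)
-/

set_option autoImplicit false
set_option maxHeartbeats 400000

namespace Cfsg.Agent.Lib.HSRec

open Cfsg Cfsg.Agent.Lib.Golay Cfsg.Agent.Lib.MathieuFix Cfsg.Agent.Lib.H92MathieuAut
open Cfsg.Agent.Lib.GolayFix (Fix mem_Fix Fix_mem_Sup Sup)
open scoped Pointwise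

/-- a subgroup of order 20160 fixes a point -/
theorem fix_of_card {X : Subgroup (Equiv.Perm GolayPt)} (hXM' : ∀ x ∈ X, x ∈ Spor.M22) (hXc : Nat.card X = 20160) :
    ∃ q : GolayPt, q ≠ none ∧ q ≠ some 0 ∧ ∀ x ∈ X, x q = q := by
  classical
  have hXM : ∀ x ∈ X, x ∈ M24 := fun x hx => (mem_M22.1 (hXM' x hx)).1
  have hXn : ∀ x ∈ X, x none = none := fun x hx => (mem_M22.1 (hXM' x hx)).2.1
  have hX0 : ∀ x ∈ X, x (some 0) = some 0 := fun x hx => (mem_M22.1 (hXM' x hx)).2.2
  have f5 : Fact (Nat.Prime 5) := ⟨by norm_num⟩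
  have f7 : Fact (Nat.Prime 7) := ⟨by norm_num⟩
  obtain ⟨c, hcX, hc7, hc1⟩ := exists_of_prime (X := X) (p := 7) (by rw [hXc]; norm_num)
  obtain ⟨a1, a2⟩ := card_Fix_of (hXM c hcX) hc7 hc1
  have a3 : (Fix c).card = 3 := by
    unfold Nat.ModEq at a1; omega
  have a4 : none ∈ Fix c := mem_Fix.2 (hXn c hcX)
  have a4' : some 0 ∈ (Fix c).erase none := Finset.mem_erase.2 ⟨by simp, mem_Fix.2 (hX0 c hcX)⟩
  have a5 : (((Fix c).erase none).erase (some 0)).card = 1 := by
    rw [Finset.card_erase_of_mem a4', Finset.card_erase_of_mem a4, a3]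
  obtain ⟨q, hq⟩ := Finset.card_eq_one.1 a5
  have hq' : q ∈ ((Fix c).erase none).erase (some 0) := by rw [hq]; exact Finset.mem_singleton_self q
  rw [Finset.mem_erase, Finset.mem_erase] at hq'
  refine ⟨q, hq'.2.1, hq'.1, ?_⟩
  have hnO : none ∉ orbF X q := by
    intro h
    obtain ⟨x, hx, h⟩ := mem_orbF.1 h
    apply hq'.2.1
    apply x.injective
    rw [h, hXn x hx]
  have h0O : some 0 ∉ orbF X q := by
    intro h
    obtain ⟨x, hx, h⟩ := mem_orbF.1 h
    apply hq'.1
    apply x.injective
    rw [h, hX0 x hx]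
  have b1 := GolayFix.card_modEq hc7 (orbF X q) (fun y hy => orbF_inv hcX hy)
  have b2 : orbF X q ∩ Fix c = {q} := by
    ext y
    rw [Finset.mem_inter, Finset.mem_singleton]
    constructor
    · rintro ⟨h1, h2⟩
      have : y ∈ ((Fix c).erase none).erase (some 0) :=
        Finset.mem_erase.2 ⟨fun h => h0O (h ▸ h1), Finset.mem_erase.2 ⟨fun h => hnO (h ▸ h1), h2⟩⟩
      rwa [hq, Finset.mem_singleton] at this
    · rintro rfl
      exact ⟨self_mem_orbF X y, hq'.2.2⟩
  rw [b2, Finset.card_singleton] at b1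
  have b3 : (orbF X q).card ≤ 22 := by
    have : orbF X q ⊆ (Finset.univ.erase none).erase (some 0) := fun y hy =>
      Finset.mem_erase.2 ⟨fun h => h0O (h ▸ hy), Finset.mem_erase.2 ⟨fun h => hnO (h ▸ hy), Finset.mem_univ _⟩⟩
    have h := Finset.card_le_card this
    rw [Finset.card_erase_of_mem (by simp), Finset.card_erase_of_mem (Finset.mem_univ _), Finset.card_univ, card_pt] at h
    exact h
  have b4 := card_orbF_dvd X q
  rw [hXc] at b4
  obtain ⟨w, hwX, hw5, hw1⟩ := exists_of_prime (X := X) (p := 5) (by rw [hXc]; norm_num)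
  obtain ⟨e1, e2⟩ := card_Fix_of (hXM w hwX) hw5 hw1
  have e3 : (Fix w).card = 4 := by
    unfold Nat.ModEq at e1; omega
  have e4 : (orbF X q ∩ Fix w).card ≤ 2 := by
    have h1 : orbF X q ∩ Fix w ⊆ ((Fix w).erase none).erase (some 0) := by
      intro y hy
      rw [Finset.mem_inter] at hy
      exact Finset.mem_erase.2 ⟨fun h => h0O (h ▸ hy.1), Finset.mem_erase.2 ⟨fun h => hnO (h ▸ hy.1), hy.2⟩⟩
    have h2 := Finset.card_le_card h1
    rw [Finset.card_erase_of_mem (Finset.mem_erase.2 ⟨by simp, mem_Fix.2 (hX0 w hwX)⟩),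
      Finset.card_erase_of_mem (mem_Fix.2 (hXn w hwX)), e3] at h2
    exact h2
  have e5 := GolayFix.card_modEq hw5 (orbF X q) (fun y hy => orbF_inv hwX hy)
  have b5 : (orbF X q).card = 1 := by
    have h1 : (orbF X q).card = 1 ∨ (orbF X q).card = 8 ∨ (orbF X q).card = 15 ∨ (orbF X q).card = 22 := by
      unfold Nat.ModEq at b1
      omega
    rcases h1 with h1 | h1 | h1 | h1
    · exact h1
    · exfalso
      rw [h1] at e5
      unfold Nat.ModEq at e5
      omega
    · exfalso
      -- the complement has seven points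
      set C : Finset GolayPt := (insert none (insert (some 0) (orbF X q)))ᶜ with hC
      have hCc : C.card = 7 := by
        rw [hC, Finset.card_compl, card_pt, Finset.card_insert_of_notMem (by
          rw [Finset.mem_insert, not_or]; exact ⟨by simp, hnO⟩), Finset.card_insert_of_notMem h0O, h1]
      have hCm : ∀ y, y ∈ C ↔ y ≠ none ∧ y ≠ some 0 ∧ y ∉ orbF X q := by
        intro y
        rw [hC, Finset.mem_compl, Finset.mem_insert, Finset.mem_insert, not_or, not_or]
      have hCi : ∀ x ∈ X, ∀ y, y ∈ C → x y ∈ C := by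
        intro x hx y hy
        rw [hCm] at hy ⊢
        refine ⟨?_, ?_, orbF_inv' hx hy.2.2⟩
        · intro h
          apply hy.1
          apply x.injective
          rw [h, hXn x hx]
        · intro h
          apply hy.2.1
          apply x.injective
          rw [h, hX0 x hx]
      let _ : MulAction X C :=
        { smul := fun x y => ⟨(x : Equiv.Perm GolayPt) y, hCi x x.2 y y.2⟩
          one_smul := fun y => rfl
          mul_smul := fun a b y => rfl }
      have hinj : Function.Injective (MulAction.toPermHom X C) := by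
        rw [injective_iff_map_eq_one]
        intro x hx
        have h2 : ∀ y ∈ C, (x : Equiv.Perm GolayPt) y = y := by
          intro y hy
          exact congrArg Subtype.val (congrArg (fun f : Equiv.Perm C => f ⟨y, hy⟩) hx)
        have h3 : insert none (insert (some 0) C) ⊆ Fix (x : Equiv.Perm GolayPt) := by
          intro y hy
          rw [Finset.mem_insert, Finset.mem_insert] at hy
          rw [mem_Fix]
          rcases hy with rfl | rfl | hy
          · exact hXn x x.2
          · exact hX0 x x.2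
          · exact h2 y hy
        have h4 := Finset.card_le_card h3
        have h5 : (insert none (insert (some 0) C)).card = 9 := by
          rw [Finset.card_insert_of_notMem, Finset.card_insert_of_notMem, hCc]
          · rw [hCm]; simp
          · rw [Finset.mem_insert, hCm]; simp
        rw [h5] at h4
        exact Subtype.ext (eq_one_of_nine (hXM x x.2) h4)
      have h6 := Nat.card_le_card_of_injective _ hinj
      rw [hXc, Nat.card_perm, Nat.card_eq_fintype_card, Fintype.card_coe, hCc] at h6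
      exact absurd h6 (by decide)
    · exfalso
      rw [h1] at b4
      norm_num at b4
  exact fix_of_card_one b5

theorem card_stab_q {q : GolayPt} (h1 : q ≠ none) (h2 : q ≠ some 0) :
    Nat.card (MulAction.stabilizer Spor.M22 q) = 20160 := by
  have h3 := Subgroup.card_mul_index (MulAction.stabilizer Spor.M22 q)
  have h4 : MulAction.orbit Spor.M22 q = ({none, some 0}ᶜ : Set GolayPt) := by
    ext x
    constructor
    · rintro ⟨g, rfl⟩
      have hg := mem_M22.1 g.2
      intro h
      rcases h with h | h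
      · exact h1 ((g : Equiv.Perm GolayPt).injective ((show (g : Equiv.Perm GolayPt) q = none from h).trans hg.2.1.symm))
      · exact h2 ((g : Equiv.Perm GolayPt).injective ((show (g : Equiv.Perm GolayPt) q = some 0 from h).trans hg.2.2.symm))
    · intro hx
      simp only [Set.mem_compl_iff, Set.mem_insert_iff, Set.mem_singleton_iff, not_or] at hx
      obtain ⟨g, hg, e1, e2, e3⟩ := exists_three (by decide : (none : GolayPt) ≠ some 0) (Ne.symm h1) (Ne.symm h2)
        (by decide : (none : GolayPt) ≠ some 0) (Ne.symm hx.1) (Ne.symm hx.2)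
      exact ⟨⟨g, mem_M22.2 ⟨hg, e1, e2⟩⟩, e3⟩
  have h5 : Nat.card GolayPt = 24 := by rw [Nat.card_eq_fintype_card, card_pt]
  rw [MulAction.index_stabilizer, h4, Set.ncard_compl, Set.ncard_pair (by decide), h5, H92MathieuAut.card_M22] at h3
  omega

section
variable {Ω H : Type*} [Group H] [MulAction H Ω] (e : H ≃* Spor.M22)
include e

/-- the point attached to a stabilizer of index 22 -/
theorem exists_point {b : Ω} (hb : (MulAction.orbit H b).ncard = 22) :
    ∃ q : GolayPt, q ≠ none ∧ q ≠ some 0 ∧ ∀ h : H, h • b = b ↔ (e h : Equiv.Perm GolayPt) q = q := by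
  have hcH : Nat.card H = 443520 := by rw [Nat.card_congr e.toEquiv, H92MathieuAut.card_M22]
  have h3 := Subgroup.card_mul_index (MulAction.stabilizer H b)
  rw [MulAction.index_stabilizer, hb, hcH] at h3
  set A : H →* Equiv.Perm GolayPt := Spor.M22.subtype.comp e.toMonoidHom with hA
  have hAi : Function.Injective A := Subtype.val_injective.comp e.injective
  have hc : Nat.card ((MulAction.stabilizer H b).map A) = 20160 := by
    rw [Subgroup.card_map_of_injective hAi]; omega
  obtain ⟨q, h1, h2, h4⟩ := fix_of_card (X := (MulAction.stabilizer H b).map A) (by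
    rintro _ ⟨h, -, rfl⟩
    exact (e h).2) hc
  refine ⟨q, h1, h2, ?_⟩
  have hle : (MulAction.stabilizer H b).map e.toMonoidHom ≤ MulAction.stabilizer Spor.M22 q := by
    rintro _ ⟨h, hh, rfl⟩
    exact h4 _ ⟨h, hh, rfl⟩
  have hfin : Finite Spor.M22 := Nat.finite_of_card_ne_zero (by rw [H92MathieuAut.card_M22]; norm_num)
  have heq : (MulAction.stabilizer H b).map e.toMonoidHom = MulAction.stabilizer Spor.M22 q := by
    apply Subgroup.eq_of_le_of_card_ge hle
    rw [card_stab_q h1 h2, Subgroup.card_map_of_injective e.injective]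
    omega
  intro h
  constructor
  · intro hh
    exact h4 _ ⟨h, hh, rfl⟩
  · intro hh
    have h5 : e h ∈ (MulAction.stabilizer H b).map e.toMonoidHom := by
      rw [heq]; exact hh
    obtain ⟨k, hk, hk'⟩ := h5
    have : k = h := e.injective hk'
    rw [← this]
    exact hk

/-- two-transitivity -/
theorem two_trans {b x y : Ω} (hb : (MulAction.orbit H b).ncard = 22) (hx : x ∈ MulAction.orbit H b)
    (hy : y ∈ MulAction.orbit H b) (hxb : x ≠ b) (hyb : y ≠ b) : ∃ h : H, h • b = b ∧ h • x = y := by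
  obtain ⟨q, hq1, hq2, hq⟩ := exists_point e hb
  obtain ⟨h1, rfl⟩ := hx
  obtain ⟨h2, rfl⟩ := hy
  have m1 := mem_M22.1 (e h1).2
  have m2 := mem_M22.1 (e h2).2
  set g1 := (e h1 : Equiv.Perm GolayPt) with hg1
  set g2 := (e h2 : Equiv.Perm GolayPt) with hg2
  have k1 : g1 q ≠ q := fun hh => hxb ((hq h1).2 hh)
  have k2 : g2 q ≠ q := fun hh => hyb ((hq h2).2 hh)
  have n1 : none ≠ g1 q := fun hh => hq1 (g1.injective (hh.symm.trans m1.2.1.symm))
  have n2 : none ≠ g2 q := fun hh => hq1 (g2.injective (hh.symm.trans m2.2.1.symm))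
  have z1 : some 0 ≠ g1 q := fun hh => hq2 (g1.injective (hh.symm.trans m1.2.2.symm))
  have z2 : some 0 ≠ g2 q := fun hh => hq2 (g2.injective (hh.symm.trans m2.2.2.symm))
  obtain ⟨m, hm, e1, e2, e3, e4⟩ := exists_four (by decide : (none : GolayPt) ≠ some 0) (Ne.symm hq1) (Ne.symm hq2)
    n1 z1 (Ne.symm k1) (by decide : (none : GolayPt) ≠ some 0) (Ne.symm hq1) (Ne.symm hq2) n2 z2 (Ne.symm k2)
  have hmM : m ∈ Spor.M22 := mem_M22.2 ⟨hm, e1, e2⟩
  refine ⟨e.symm ⟨m, hmM⟩, ?_, ?_⟩
  · rw [hq, MulEquiv.apply_symm_apply]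
    exact e3
  · show e.symm ⟨m, hmM⟩ • h1 • b = h2 • b
    have h5 : (h2⁻¹ * (e.symm ⟨m, hmM⟩ * h1)) • b = b := by
      rw [hq, map_mul, map_mul, MulEquiv.apply_symm_apply, map_inv]
      show (g2⁻¹ * (m * g1)) q = q
      rw [Equiv.Perm.mul_apply, Equiv.Perm.mul_apply, e4]
      exact pia _ _
    rw [mul_smul, inv_smul_eq_iff, mul_smul] at h5
    exact h5

end

end Cfsg.Agent.Lib.HSRec
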