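import Cfsg.Agent.Lib.HSRec1

/-!
Recognition of the Higman-Sims group as a permutation group of rank three: the graph.
-/

set_option autoImplicit false
set_option maxHeartbeats 400000

namespace Cfsg.Agent.Lib.HSRec

open Cfsg
open scoped Pointwise

section
variable {Ω G : Type*} [Group G] [MulAction G Ω]

/-- the orbital graph relation -/
def Rel (G : Type*) [Group G] [MulAction G Ω] (a b x y : Ω) : Prop := ∃ g : G, g • a = x ∧ g • b = y

theorem Rel.smul {a b x y : Ω} (h : Rel G a b x y) (g : G) : Rel G a b (g • x) (g • y) := by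
  obtain ⟨k, rfl, rfl⟩ := h
  exact ⟨g * k, mul_smul _ _ _, mul_smul _ _ _⟩

theorem Rel.smul_iff {a b x y : Ω} (g : G) : Rel G a b (g • x) (g • y) ↔ Rel G a b x y := by
  constructor
  · intro h
    have := h.smul g⁻¹
    rwa [inv_smul_smul, inv_smul_smul] at this
  · intro h
    exact h.smul g

/-- the data -/
structure Data (G : Type*) {Ω : Type*} [Group G] [MulAction G Ω] (a b c : Ω) : Prop where
  trans : MulAction.IsPretransitive G Ω
  finG : Finite G
  card : Nat.card Ω = 100
  hb : (MulAction.orbit (MulAction.stabilizer G a) b).ncard = 22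
  hc : (MulAction.orbit (MulAction.stabilizer G a) c).ncard = 77

variable {a b c : Ω} (D : Data G a b c)
include D

theorem Data.fin : Finite Ω := Nat.finite_of_card_ne_zero (by rw [D.card]; norm_num)

theorem Data.ba : b ≠ a := by
  rintro rfl
  have h1 : MulAction.orbit (MulAction.stabilizer G b) b = {b} := by
    ext x
    constructor
    · rintro ⟨g, rfl⟩
      exact g.2
    · rintro rfl
      exact ⟨1, one_smul _ _⟩
  have := D.hb
  rw [h1, Set.ncard_singleton] at this
  omega

theorem Data.ca : c ≠ a := by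
  rintro rfl
  have h1 : MulAction.orbit (MulAction.stabilizer G c) c = {c} := by
    ext x
    constructor
    · rintro ⟨g, rfl⟩
      exact g.2
    · rintro rfl
      exact ⟨1, one_smul _ _⟩
  have := D.hc
  rw [h1, Set.ncard_singleton] at this
  omega

omit D in
theorem not_mem_orbit {x : Ω} (h : x ≠ a) : a ∉ MulAction.orbit (MulAction.stabilizer G a) x := by
  rintro ⟨g, hg⟩
  apply h
  have h1 : (g : G) • a = a := g.2
  have h2 : (g : G) • x = a := hg
  exact MulAction.injective (g : G) (h2.trans h1.symm)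

theorem Data.cover (x : Ω) : x = a ∨ x ∈ MulAction.orbit (MulAction.stabilizer G a) b ∨
    x ∈ MulAction.orbit (MulAction.stabilizer G a) c := by
  have hf := D.fin
  set O1 := MulAction.orbit (MulAction.stabilizer G a) b with hO1
  set O2 := MulAction.orbit (MulAction.stabilizer G a) c with hO2
  have hd : Disjoint O1 O2 := by
    rw [Set.disjoint_left]
    intro y h1 h2
    have e1 : MulAction.orbit (MulAction.stabilizer G a) y = O1 := MulAction.orbit_eq_iff.2 h1
    have e2 : MulAction.orbit (MulAction.stabilizer G a) y = O2 := MulAction.orbit_eq_iff.2 h2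
    have h3 := D.hb
    have h4 := D.hc
    rw [← hO1, ← e1, e2] at h3
    rw [← hO2] at h4
    omega
  have hn : a ∉ O1 ∪ O2 := by
    rintro (h | h)
    · exact not_mem_orbit D.ba h
    · exact not_mem_orbit D.ca h
  have h5 : (insert a (O1 ∪ O2)).ncard = 100 := by
    rw [Set.ncard_insert_of_notMem hn, Set.ncard_union_eq hd, D.hb, D.hc]
  have h6 : insert a (O1 ∪ O2) = Set.univ := by
    apply Set.eq_of_subset_of_ncard_le (Set.subset_univ _)
    rw [h5, Set.ncard_univ, D.card]
  have h7 : x ∈ insert a (O1 ∪ O2) := by rw [h6]; trivial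
  exact h7

theorem Data.disj {y : Ω} (h1 : y ∈ MulAction.orbit (MulAction.stabilizer G a) b)
    (h2 : y ∈ MulAction.orbit (MulAction.stabilizer G a) c) : False := by
  have e1 := MulAction.orbit_eq_iff.2 h1
  have e2 := MulAction.orbit_eq_iff.2 h2
  have h3 := D.hb
  have h4 := D.hc
  rw [← e1, e2] at h3
  omega

/-- the orbital is self-paired -/
theorem Data.swap : ∃ g : G, g • a = b ∧ g • b = a := by
  have hf := D.fin
  have ht := D.trans
  obtain ⟨h, hh⟩ := MulAction.exists_smul_eq G b a
  have hya : h • a ≠ a := by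
    intro h1
    exact D.ba (MulAction.injective h (hh.trans h1.symm))
  have hsz : (MulAction.orbit (MulAction.stabilizer G a) (h • a)).ncard = 22 := by
    rw [← D.hb, ← MulAction.index_stabilizer, ← MulAction.index_stabilizer]
    -- the two stabilisers
    have h1 : ((MulAction.stabilizer (MulAction.stabilizer G a) (h • a)).map (MulAction.stabilizer G a).subtype) =
        ((MulAction.stabilizer (MulAction.stabilizer G a) b).map (MulAction.stabilizer G a).subtype).map
          (MulAut.conj h).toMonoidHom := by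
      ext g
      constructor
      · rintro ⟨k, hk, rfl⟩
        have k1 : (k : G) • a = a := k.2
        have k2 : (k : G) • h • a = h • a := hk
        refine ⟨h⁻¹ * k * h, ⟨⟨h⁻¹ * k * h, ?_⟩, ?_, rfl⟩, ?_⟩
        · show (h⁻¹ * (k : G) * h) • a = a
          rw [mul_smul, mul_smul, k2, inv_smul_smul]
        · show (h⁻¹ * (k : G) * h) • b = b
          rw [mul_smul, mul_smul, hh, k1, inv_smul_eq_iff, hh]
        · show h * (h⁻¹ * (k : G) * h) * h⁻¹ = k
          group
      · rintro ⟨_, ⟨k, hk, rfl⟩, rfl⟩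
        have k1 : (k : G) • a = a := k.2
        have k2 : (k : G) • b = b := hk
        refine ⟨⟨h * k * h⁻¹, ?_⟩, ?_, rfl⟩
        · show (h * (k : G) * h⁻¹) • a = a
          have hi : h⁻¹ • a = b := by rw [inv_smul_eq_iff, hh]
          rw [mul_smul, mul_smul, hi, k2, hh]
        · show (h * (k : G) * h⁻¹) • h • a = h • a
          rw [mul_smul, mul_smul, inv_smul_smul, k1]
    have h2 : Nat.card (MulAction.stabilizer (MulAction.stabilizer G a) (h • a)) =
        Nat.card (MulAction.stabilizer (MulAction.stabilizer G a) b) := by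
      rw [← Subgroup.card_map_of_injective (K := MulAction.stabilizer (MulAction.stabilizer G a) (h • a))
          (MulAction.stabilizer G a).subtype_injective, h1,
        Subgroup.card_map_of_injective (MulAut.conj h).injective,
        Subgroup.card_map_of_injective (MulAction.stabilizer G a).subtype_injective]
    have hfG := D.finG
    have h3 := Subgroup.card_mul_index (MulAction.stabilizer (MulAction.stabilizer G a) (h • a))
    have h4 := Subgroup.card_mul_index (MulAction.stabilizer (MulAction.stabilizer G a) b)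
    rw [h2, ← h4] at h3
    exact Nat.eq_of_mul_eq_mul_left Nat.card_pos h3
  rcases D.cover (h • a) with h1 | h1 | h1
  · exact absurd h1 hya
  · obtain ⟨k, hk⟩ := h1
    have k1 : (k : G) • a = a := k.2
    have k2 : (k : G) • b = h • a := hk
    refine ⟨(k : G)⁻¹ * h, ?_, ?_⟩
    · rw [mul_smul, ← k2, inv_smul_smul]
    · rw [mul_smul, hh, inv_smul_eq_iff, k1]
  · exfalso
    rw [MulAction.orbit_eq_iff.2 h1, D.hc] at hsz
    omega

theorem Data.rel_symm {x y : Ω} (h : Rel G a b x y) : Rel G a b y x := by
  obtain ⟨s, s1, s2⟩ := D.swap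
  obtain ⟨g, rfl, rfl⟩ := h
  exact ⟨g * s, by rw [mul_smul, s1], by rw [mul_smul, s2]⟩

/-- the graph -/
def Data.graph (D : Data G a b c) : SimpleGraph Ω where
  Adj := Rel G a b
  symm := ⟨fun _ _ h => D.rel_symm h⟩
  loopless := ⟨by
    rintro x ⟨g, h1, h2⟩
    exact D.ba (MulAction.injective g (h2.trans h1.symm))⟩

theorem Data.adj_a {y : Ω} : Rel G a b a y ↔ y ∈ MulAction.orbit (MulAction.stabilizer G a) b := by
  constructor
  · rintro ⟨g, h1, rfl⟩
    exact ⟨⟨g, h1⟩, rfl⟩
  · rintro ⟨g, rfl⟩
    exact ⟨g, g.2, rfl⟩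

/-- neighbours -/
def Nb (G : Type*) [Group G] [MulAction G Ω] (a b x : Ω) : Set Ω := {y | Rel G a b x y}

theorem Data.smul_Nb (g : G) (x : Ω) : g • Nb G a b x = Nb G a b (g • x) := by
  ext y
  rw [Set.mem_smul_set_iff_inv_smul_mem]
  show Rel G a b x (g⁻¹ • y) ↔ Rel G a b (g • x) y
  rw [← Rel.smul_iff g, smul_inv_smul]

theorem Data.card_Nb (x : Ω) : (Nb G a b x).ncard = 22 := by
  have ht := D.trans
  obtain ⟨g, rfl⟩ := MulAction.exists_smul_eq G a x
  rw [← D.smul_Nb, Set.ncard_smul_set, ← D.hb]
  congr 1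
  ext y
  exact D.adj_a

/-- no triangles -/
theorem Data.no_tri (e : MulAction.stabilizer G a ≃* Spor.M22) {x y z : Ω} (h1 : Rel G a b x y) (h2 : Rel G a b x z)
    (h3 : Rel G a b y z) : False := by
  have ht := D.trans
  have hf := D.fin
  -- reduce to `x = a`, `y = b`
  obtain ⟨g, rfl, rfl⟩ := h1
  obtain ⟨w, rfl⟩ : ∃ w, g • w = z := ⟨g⁻¹ • z, smul_inv_smul _ _⟩
  rw [Rel.smul_iff] at h2 h3
  have hloop : ∀ u : Ω, ¬ Rel G a b u u := by
    rintro u ⟨g, h1, h2⟩
    exact D.ba (MulAction.injective g (h2.trans h1.symm))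
  have hab : Rel G a b a b := ⟨1, one_smul _ _, one_smul _ _⟩
  -- all pairs in the neighbourhood of `a` are adjacent to `b`
  have key : ∀ u, Rel G a b a u → u ≠ b → Rel G a b b u := by
    intro u hu hne
    have hwb : w ≠ b := by
      rintro rfl
      exact hloop _ h3
    obtain ⟨h, hh1, hh2⟩ := two_trans e D.hb (D.adj_a.1 h2) (D.adj_a.1 hu) hwb hne
    have := h3.smul (h : G)
    rw [show (h : G) • b = b from hh1, show (h : G) • w = u from hh2] at this
    exact this
  -- closed neighbourhoods
  set C : Ω → Set Ω := fun u => insert u (Nb G a b u) with hC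
  have hCs : ∀ (g : G) u, g • C u = C (g • u) := by
    intro g u
    show g • insert u (Nb G a b u) = insert (g • u) (Nb G a b (g • u))
    rw [← D.smul_Nb, Set.smul_set_insert]
  have hCc : ∀ u, (C u).ncard = 23 := by
    intro u
    show (insert u (Nb G a b u)).ncard = 23
    rw [Set.ncard_insert_of_notMem (show u ∉ Nb G a b u from hloop u), D.card_Nb]
  have hCb : C b = C a := by
    symm
    apply Set.eq_of_subset_of_ncard_le _ (by rw [hCc, hCc])
    intro u hu
    rcases hu with rfl | hu
    · right; exact D.rel_symm hab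
    · by_cases hne : u = b
      · left; exact hne
      · right; exact key u hu hne
  have hCn : ∀ u ∈ C a, C u = C a := by
    intro u hu
    rcases hu with rfl | hu
    · rfl
    · obtain ⟨h, rfl⟩ := D.adj_a.1 hu
      have h5 : (h : G) • a = a := h.2
      show C ((h : G) • b) = C a
      rw [← hCs, hCb, hCs, h5]
  have hblock : MulAction.IsBlock G (C a) := by
    rw [MulAction.isBlock_iff_smul_eq_of_nonempty]
    intro g hg
    obtain ⟨u, hu1, hu2⟩ := hg
    obtain ⟨v, hv, rfl⟩ := hu1
    have h5 : C (g • v) = C a := hCn _ hu2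
    calc g • C a = g • C v := by rw [hCn v hv]
      _ = C (g • v) := hCs g v
      _ = C a := h5
  have hdvd := hblock.ncard_dvd_card ⟨a, Set.mem_insert _ _⟩
  rw [hCc, D.card] at hdvd
  omega

theorem Data.srg (e : MulAction.stabilizer G a ≃* Spor.M22) [Fintype Ω] [DecidableEq Ω] [DecidableRel D.graph.Adj] :
    D.graph.IsSRGWith 100 22 0 6 := by
  have ht := D.trans
  have hcn : ∀ v w : Ω, Fintype.card (D.graph.commonNeighbors v w) = (Nb G a b v ∩ Nb G a b w).ncard := by
    intro v w
    rw [← Nat.card_eq_fintype_card, Nat.card_coe_set_eq]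
    rfl
  have h0 : D.graph.IsSRGWith 100 22 0 (Nb G a b a ∩ Nb G a b c).ncard := by
    refine ⟨?_, ?_, ?_, ?_⟩
    · rw [← Nat.card_eq_fintype_card, D.card]
    · intro v
      rw [← SimpleGraph.card_neighborSet_eq_degree, ← Nat.card_eq_fintype_card, Nat.card_coe_set_eq]
      exact D.card_Nb v
    · intro v w hvw
      rw [hcn, Set.ncard_eq_zero (Set.toFinite _), Set.eq_empty_iff_forall_notMem]
      rintro z ⟨h1, h2⟩
      exact D.no_tri e hvw h1 h2
    · intro v w hne hna
      rw [hcn]
      obtain ⟨g, rfl⟩ := MulAction.exists_smul_eq G a v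
      obtain ⟨u, rfl⟩ : ∃ u, g • u = w := ⟨g⁻¹ • w, smul_inv_smul _ _⟩
      have hna' : ¬ Rel G a b a u := fun h => hna (h.smul g)
      have hu : u ∈ MulAction.orbit (MulAction.stabilizer G a) c := by
        rcases D.cover u with h | h | h
        · exact absurd (by rw [h]) hne
        · exact absurd (D.adj_a.2 h) hna'
        · exact h
      obtain ⟨h, rfl⟩ := hu
      have h5 : (h : G) • a = a := h.2
      show (Nb G a b (g • a) ∩ Nb G a b (g • (h : G) • c)).ncard = _
      rw [← D.smul_Nb, ← D.smul_Nb, ← Set.smul_set_inter, Set.ncard_smul_set]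
      have h6 : Nb G a b a ∩ Nb G a b ((h : G) • c) = (h : G) • (Nb G a b a ∩ Nb G a b c) := by
        rw [Set.smul_set_inter, D.smul_Nb, D.smul_Nb, h5]
      rw [h6, Set.ncard_smul_set]
  have h1 := SimpleGraph.IsSRGWith.param_eq D.graph h0 (by norm_num)
  have h2 : (Nb G a b a ∩ Nb G a b c).ncard = 6 := by omega
  rw [h2] at h0
  exact h0

end

end Cfsg.Agent.Lib.HSRec
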