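import Cfsg.Agent.Lib.HSRec2

/-!
Recognition of the Higman-Sims group as a permutation group of rank three: the group.
-/

set_option autoImplicit false
set_option maxHeartbeats 400000

namespace Cfsg.Agent.Lib.HSRec

open Cfsg Cfsg.Agent.Lib.HSGroup
open scoped Pointwise

theorem eq_of_simple {A : Type*} [Group A] [Finite A] {N L : Subgroup A} (hN : IsSimpleGroup N) (h2 : 2 < Nat.card N)
    (hi : L.index = 2) (hc : Nat.card L = Nat.card N) : L = N := by
  have hLn : L.Normal := Subgroup.normal_of_index_eq_two hi
  have hdvd : (L.subgroupOf N).index ∣ 2 := by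
    rw [← hi]
    exact Subgroup.relIndex_dvd_index_of_normal L N
  have hKn : (L.subgroupOf N).Normal := Subgroup.normal_subgroupOf
  rcases hN.eq_bot_or_eq_top_of_normal _ hKn with h | h
  · exfalso
    rw [h, Subgroup.index_bot] at hdvd
    have := Nat.le_of_dvd (by norm_num) hdvd
    omega
  · have hle : N ≤ L := by
      rwa [Subgroup.subgroupOf_eq_top] at h
    exact (Subgroup.eq_of_le_of_card_ge hle (le_of_eq hc)).symm

section
variable {Ω G : Type*} [Group G] [MulAction G Ω] {a b c : Ω} (D : Data G a b c)

/-- the action on the graph -/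
def Data.toAut : G →* (D.graph ≃g D.graph) where
  toFun g := ⟨MulAction.toPerm g, by
    intro x y
    exact Rel.smul_iff g⟩
  map_one' := by
    apply RelIso.ext
    intro x
    exact one_smul _ x
  map_mul' g h := by
    apply RelIso.ext
    intro x
    exact mul_smul g h x

theorem Data.toAut_apply (g : G) (x : Ω) : D.toAut g x = g • x := rfl

/-- transport of automorphisms -/
def conjAut {V W : Type*} {Γ : SimpleGraph V} {Δ : SimpleGraph W} (f : Γ ≃g Δ) : (Δ ≃g Δ) →* (Γ ≃g Γ) where
  toFun t := (f.trans t).trans f.symm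
  map_one' := by
    apply RelIso.ext
    intro x
    exact f.symm_apply_apply x
  map_mul' s t := by
    apply RelIso.ext
    intro x
    show f.symm (s (t (f x))) = f.symm (s (f (f.symm (t (f x)))))
    rw [f.apply_symm_apply]

theorem conjAut_apply {V W : Type*} {Γ : SimpleGraph V} {Δ : SimpleGraph W} (f : Γ ≃g Δ) (t : Δ ≃g Δ) (x : V) :
    conjAut f t x = f.symm (t (f x)) := rfl

include D

theorem Data.card_G (e : MulAction.stabilizer G a ≃* Spor.M22) : Nat.card G = 44352000 := by
  have ht := D.trans
  have h1 := Subgroup.card_mul_index (MulAction.stabilizer G a)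
  rw [MulAction.index_stabilizer_of_transitive, D.card, Nat.card_congr e.toEquiv, H92MathieuAut.card_M22] at h1
  omega

theorem Data.iso_HS (e : MulAction.stabilizer G a ≃* Spor.M22) [FaithfulSMul G Ω] {α : Type*} [Fintype α] [DecidableEq α]
    (hα : Fintype.card α = 22) {B : Set (Finset α)} (hB : IsSteinerSystem 3 6 B) : Nonempty (G ≃* HSGroup.HS B) := by
  classical
  have hf := D.fin
  have hfG := D.finG
  have := Fintype.ofFinite Ω
  obtain ⟨f, -⟩ := SRG100.exists_iso (D.srg e) a hα hB
  set Φ : G →* (pointBlockGraph B ≃g pointBlockGraph B) := (conjAut f).comp D.toAut with hΦ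
  have hinj : Function.Injective Φ := by
    intro g h hgh
    apply FaithfulSMul.eq_of_smul_eq_smul (α := Ω)
    intro x
    have h1 := congrArg (fun t : pointBlockGraph B ≃g pointBlockGraph B => t (f.symm x)) hgh
    have h2 : f.symm (g • f (f.symm x)) = f.symm (h • f (f.symm x)) := h1
    rw [f.apply_symm_apply] at h2
    exact f.symm.injective h2
  have hcA := HSGroup.card_aut hα hB
  have hfin : Finite (pointBlockGraph B ≃g pointBlockGraph B) := Nat.finite_of_card_ne_zero (by rw [hcA]; norm_num)
  have hcL : Nat.card Φ.range = 44352000 := by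
    rw [← D.card_G e]
    exact (Nat.card_congr (MonoidHom.ofInjective hinj).toEquiv).symm
  have hi : Φ.range.index = 2 := by
    have h1 := Subgroup.card_mul_index Φ.range
    rw [hcL, hcA] at h1
    omega
  have hS := HSGroup.isHS hα hB
  have heq : Φ.range = HSGroup.HS B := eq_of_simple hS.1 (by rw [hS.2]; norm_num) hi (by rw [hcL, hS.2])
  exact ⟨(MonoidHom.ofInjective hinj).trans (MulEquiv.subgroupCongr heq)⟩

end

/-- two groups of this kind are isomorphic -/
theorem iso_of_two {Ω G : Type*} [Group G] [MulAction G Ω] {a b c : Ω} (D : Data G a b c)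
    (e : MulAction.stabilizer G a ≃* Spor.M22) [FaithfulSMul G Ω]
    {Ω' G' : Type*} [Group G'] [MulAction G' Ω'] {a' b' c' : Ω'} (D' : Data G' a' b' c')
    (e' : MulAction.stabilizer G' a' ≃* Spor.M22) [FaithfulSMul G' Ω'] : Nonempty (G ≃* G') := by
  classical
  have hf := D.fin
  have := Fintype.ofFinite Ω
  have hα := SRG100.card_pts (D.srg e) a
  have hB := SRG100.steiner_blks (D.srg e) a
  obtain ⟨f⟩ := D.iso_HS e hα hB
  obtain ⟨f'⟩ := D'.iso_HS e' hα hB
  exact ⟨f.trans f'.symm⟩

end Cfsg.Agent.Lib.HSRec
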