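import Cfsg.Agent.Lib.HSRec3
import Cfsg.Agent.Lib.LeechOutH2
import Cfsg.Agent.Lib.LeechRank2

/-!
Recognition of the Higman-Sims group as a permutation group of rank three: the action on 100 vectors.
-/

set_option autoImplicit false
set_option maxHeartbeats 400000

namespace Cfsg.Agent.Lib.HSRec

open Cfsg Cfsg.Agent.Lib.Golay Cfsg.Agent.Lib.LeechMin Cfsg.Agent.Lib.GolayCoset Cfsg.Agent.Lib.LeechXi
  Cfsg.Agent.Lib.LeechTrans Cfsg.Agent.Lib.LeechCo2 Cfsg.Agent.Lib.LeechFrame Cfsg.Agent.Lib.LeechCount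
  Cfsg.Agent.Lib.LeechOrder Cfsg.Agent.Lib.LeechMod Cfsg.Agent.Lib.LeechQuot Cfsg.Agent.Lib.LeechChain
  Cfsg.Agent.Lib.LeechSyl
open scoped Pointwise

/-- the hundred vectors -/
abbrev V100 : Type := {v : leechLattice // v ∈ cls [(U none, 24), (S hab, 0)] 32}

instance : MulAction GHS V100 where
  smul g v := ⟨(g : Co0) • v.1, smul_mem_cls g.2 v.2⟩
  one_smul v := Subtype.ext (one_smul _ _)
  mul_smul g h v := Subtype.ext (mul_smul (g : Co0) (h : Co0) v.1)

theorem coe_smul (g : GHS) (v : V100) : ((g • v : V100) : leechLattice) = (g : Co0) • v.1 := rfl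

noncomputable def vX : V100 := ⟨X hab, memHS⟩

theorem W_mem : Vc c0 ∈ cls [(U none, 24), (S hab, 0)] 32 := by
  refine ⟨?_, ?_⟩
  · rw [coe_Vc]; decide +kernel
  · simp only [List.forall_mem_cons, List.not_mem_nil, false_imp_iff, implies_true, and_true, coe_Vc, coe_U, coe_S]
    decide +kernel

theorem O_mem : O2 (mset m0) oct_mem ∈ cls [(U none, 24), (S hab, 0)] 32 := by
  refine ⟨?_, ?_⟩
  · rw [coe_O]; decide +kernel
  · simp only [List.forall_mem_cons, List.not_mem_nil, false_imp_iff, implies_true, and_true, coe_O, coe_U, coe_S]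
    decide +kernel

noncomputable def vW : V100 := ⟨Vc c0, W_mem⟩
noncomputable def vO : V100 := ⟨O2 (mset m0) oct_mem, O_mem⟩

instance : MulAction.IsPretransitive GHS V100 := by
  have key : ∀ v : V100, ∃ g : GHS, g • vX = v := by
    intro v
    obtain ⟨g, hg, h⟩ := chain100.1 _ v.2
    exact ⟨⟨g, hg⟩, Subtype.ext h⟩
  refine ⟨fun x y => ?_⟩
  obtain ⟨g, rfl⟩ := key x
  obtain ⟨h, rfl⟩ := key y
  exact ⟨h * g⁻¹, by rw [mul_smul, inv_smul_smul]⟩

theorem card_V100 : Nat.card V100 = 100 := by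
  rw [← cls100]
  exact Nat.card_coe_set_eq _

theorem finite_GHS : Finite GHS := Nat.finite_of_card_ne_zero (by rw [card_GHS]; norm_num)

instance : FaithfulSMul GHS V100 := by
  refine ⟨fun {g h} hgh => ?_⟩
  suffices hs : ∀ k : GHS, (∀ v : V100, k • v = v) → k = 1 by
    have := hs (h⁻¹ * g) (fun v => by rw [mul_smul, hgh v, inv_smul_smul])
    exact (inv_mul_eq_one.1 this).symm
  intro k hk
  have hX : (k : Co0) • X hab = X hab := congrArg Subtype.val (hk vX)
  have hU : (k : Co0) • U none = U none ∧ (k : Co0) • S hab = S hab := mem_fix2.1 k.2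
  obtain ⟨σ, hσ, hσk⟩ := mem_M22 hX hU.2 hU.1
  have hW : ∀ c : GolayPt, c ≠ none → c ≠ b0 → Vc c ∈ cls [(U none, 24), (S hab, 0)] 32 := by
    intro c hc1 hc2
    have h1 : ∀ c : GolayPt, c ≠ none → c ≠ b0 → sqNorm (cv {c} ∅) = 32 ∧ dotInt (cv ∅ {none}) (cv {c} ∅) = 24 ∧
        dotInt ((Pi.single none 4 - Pi.single b0 4 : GolayPt → ℤ)) (cv {c} ∅) = 0 := by decide +kernel
    rw [mem_cls2, coe_Vc, coe_U, coe_S]
    exact h1 c hc1 hc2
  have hc : ∀ c : GolayPt, (σ : Equiv.Perm GolayPt) c = c := by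
    intro c
    by_cases hc1 : c = none
    · rw [hc1]; exact hσ.1
    by_cases hc2 : c = b0
    · rw [hc2]; exact hσ.2
    have h2 : (k : Co0) • Vc c = Vc c := congrArg Subtype.val (hk ⟨Vc c, hW c hc1 hc2⟩)
    rw [← hσk] at h2
    have h3 : ((pe σ.1 σ.2 • Vc c : leechLattice) : GolayPt → ℤ) = (Vc c : GolayPt → ℤ) := congrArg Subtype.val h2
    rw [pe_smul] at h3
    have h4 := congrFun h3 ((σ : Equiv.Perm GolayPt) c)
    simp only [Equiv.symm_apply_apply] at h4
    rw [Vc_apply, Vc_apply, if_pos rfl] at h4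
    by_contra hne
    rw [if_neg hne] at h4
    norm_num at h4
  have hσ1 : σ = 1 := Subtype.ext (Equiv.ext hc)
  apply Subtype.ext
  rw [← hσk, hσ1, map_one]
  rfl

/-- the stabilizer -/
theorem mem_stab_iff {g : GHS} : g ∈ MulAction.stabilizer GHS vX ↔ g ∈ fH.range := by
  rw [mem_range_fH]
  constructor
  · intro h
    have h1 : (g : Co0) • X hab = X hab := congrArg Subtype.val h
    have h2 := mem_fix2.1 g.2
    exact mem_M22 h1 h2.2 h2.1
  · intro h
    apply Subtype.ext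
    exact (mem_fix2.1 (mclH_M22 h)).1

theorem stab_eq : MulAction.stabilizer GHS vX = fH.range := by
  ext g
  exact mem_stab_iff

/-- `T22` is `M22` -/
noncomputable def t22 : T22 ≃* Spor.M22 where
  toFun y := ⟨((y : M24) : Equiv.Perm GolayPt), H92MathieuAut.mem_M22.2 ⟨(y : M24).2, y.2.1, y.2.2⟩⟩
  invFun g := ⟨⟨g.1, (H92MathieuAut.mem_M22.1 g.2).1⟩, (H92MathieuAut.mem_M22.1 g.2).2⟩
  left_inv _ := rfl
  right_inv _ := rfl
  map_mul' _ _ := rfl

noncomputable def stabEquiv : MulAction.stabilizer GHS vX ≃* Spor.M22 :=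
  (MulEquiv.subgroupCongr stab_eq).trans ((MonoidHom.ofInjective fH_inj).symm.trans t22)

theorem orbit_ncard {z : V100} {d : ℤ} {n : ℕ} (hz : z.1 ∈ cls [(X hab, d), (U none, 24), (S hab, 0)] 32)
    (ht : ∀ y ∈ cls [(X hab, d), (U none, 24), (S hab, 0)] 32, ∃ g ∈ fixL [X hab, U none, S hab], g • z.1 = y)
    (hn : (cls [(X hab, d), (U none, 24), (S hab, 0)] 32).ncard = n) :
    (MulAction.orbit (MulAction.stabilizer GHS vX) z).ncard = n := by
  rw [← hn]
  refine Set.ncard_congr (fun v _ => v.1) ?_ (fun v w _ _ h => Subtype.ext h) ?_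
  · rintro _ ⟨g, rfl⟩
    have h1 : ((g : GHS) : Co0) • X hab = X hab := congrArg Subtype.val g.2
    have h2 := mem_fix2.1 (g : GHS).2
    exact smul_mem_cls (g := ((g : GHS) : Co0)) (C := [(X hab, d), (U none, 24), (S hab, 0)])
      (mem_fix3.2 ⟨h1, h2.1, h2.2⟩) hz
  · intro y hy
    obtain ⟨g, hg, h⟩ := ht y hy
    rw [mem_fix3] at hg
    have hy' := mem_cls3.1 hy
    refine ⟨⟨y, mem_cls2.2 ⟨hy'.1, hy'.2.2⟩⟩, ⟨⟨⟨g, mem_fix2.2 hg.2⟩, Subtype.ext hg.1⟩, Subtype.ext h⟩, rfl⟩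

theorem dataHS : Data GHS vX vW vO := by
  refine ⟨inferInstance, finite_GHS, card_V100, ?_, ?_⟩
  · refine orbit_ncard (d := 8) ?_ chain22 cls22
    show Vc c0 ∈ _
    refine ⟨?_, ?_⟩
    · rw [coe_Vc]; decide +kernel
    · simp only [List.forall_mem_cons, List.not_mem_nil, false_imp_iff, implies_true, and_true, coe_Vc, coe_U, coe_S, coe_X]
      decide +kernel
  · refine orbit_ncard (d := 16) ?_ chain77 cls77
    show O2 (mset m0) oct_mem ∈ _
    refine ⟨?_, ?_⟩
    · rw [coe_O]; decide +kernel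
    · simp only [List.forall_mem_cons, List.not_mem_nil, false_imp_iff, implies_true, and_true, coe_O, coe_U, coe_S, coe_X]
      decide +kernel

/-- the Higman-Sims group of the Leech lattice -/
theorem sporHS_iso : Nonempty (Spor.HS ≃* GHS) := by
  have h1 : sqNorm (Spor.leechU' : GolayPt → ℤ) = 32 := by
    show sqNorm Spor.vecU' = 32
    decide +kernel
  have h2 : -Spor.leechV ∈ cls [(Spor.leechU', 16)] 48 := by
    rw [mem_cls1]
    constructor
    · show sqNorm (-Spor.vecV) = 48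
      decide +kernel
    · show dotInt Spor.vecU' (-Spor.vecV) = 16
      decide +kernel
  obtain ⟨k, hk1, hk2⟩ := stdHS h1 h2
  have e : ↥(MulAction.stabilizer Co0 Spor.leechV ⊓ MulAction.stabilizer Co0 Spor.leechU') ≃* GHS :=
    conjEquiv k _ _ (by
      intro g
      rw [mem_fix2, conj_fix hk1, conj_fix hk2, Subgroup.mem_inf, MulAction.mem_stabilizer_iff, MulAction.mem_stabilizer_iff,
        smul_neg']
      constructor
      · rintro ⟨h3, h4⟩
        exact ⟨by rw [h3], h4⟩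
      · rintro ⟨h3, h4⟩
        exact ⟨neg_injective h3, h4⟩)
  exact ⟨(stab2Equiv Spor.leechV Spor.leechU').trans e⟩

/-- recognition -/
theorem recognise {Ω G : Type*} [Group G] [MulAction G Ω] {a b c : Ω} (D : Data G a b c)
    (e : MulAction.stabilizer G a ≃* Spor.M22) [FaithfulSMul G Ω] : Spor.IsoHS G := by
  obtain ⟨f⟩ := iso_of_two D e dataHS stabEquiv
  obtain ⟨f'⟩ := sporHS_iso
  exact ⟨f.trans f'.symm⟩

end Cfsg.Agent.Lib.HSRec
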