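import Cfsg.Agent.Lib.MinAct
import Cfsg.Agent.Lib.Alperin
import Cfsg.Agent.Lib.PNilp
import Cfsg.Agent.Lib.TateApps
import Cfsg.Agent.Lib.FusionControl
import Cfsg.Agent.Lib.ConjSylow

/-! `p`-groups all of whose subgroups of a fixed order are invariant under a `p'`-element (helper9);
strongly closed subgroups of fixed order. -/

set_option autoImplicit false
open scoped commutatorElement

namespace Cfsg.Agent.Lib.HSub

open Subgroup Cfsg Cfsg.Agent.Lib.HBBasic Cfsg.Agent.Lib.CoprimeAction2 Cfsg.Agent.Lib.ConjSylow Cfsg.Agent.Lib.PNilp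

theorem exists_small {X : Type*} [Group X] [Finite X] {p : ℕ} [hp : Fact p.Prime] (P A : Subgroup X)
    (hP : IsPGroup p P) (hA : (Nat.card A).Coprime p) (hAP : A ≤ normalizer (P : Set X))
    (hcon : ¬ A ≤ centralizer (P : Set X)) (n : ℕ) (hn1 : p ∣ n) (hn2 : p ∣ n * (n - 1) / 2) :
    ∃ U : Subgroup X, U ≤ P ∧ A ≤ normalizer (U : Set X) ∧ ¬ A ≤ centralizer (U : Set X) ∧
      (∀ V : Subgroup X, V ≤ U → V ≠ U → A ≤ normalizer (V : Set X) → A ≤ centralizer (V : Set X)) ∧
      ∀ u ∈ U, u ^ n = 1 := by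
  obtain ⟨U, hUP, hAU, hAUc, hUA, hmin, hFc, hFcen, hpF, hcommF⟩ := MinAct.exists_minimal P A hP hA hAP hcon
  refine ⟨U, hUP, hAU, hAUc, hmin, ?_⟩
  set F : Subgroup X := (frattini U).map U.subtype with hF
  have hcp : ∀ x ∈ U, ∀ y ∈ U, (y * x * y⁻¹ * x⁻¹) ^ p = 1 := by
    intro x hx y hy
    have hc := hFcen _ (hcommF y hy x hx) x hx
    have h1 : y * x ^ p * y⁻¹ = x ^ p := by
      rw [hFcen _ (hpF x hx) y hy]; group
    have h2 : y * x ^ p * y⁻¹ = (y * x * y⁻¹ * x⁻¹) ^ p * x ^ p := by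
      have h3 : Commute (y * x * y⁻¹ * x⁻¹) x := hc.symm
      rw [← h3.mul_pow, ← conj_pow]
      congr 1
      group
    rw [h1] at h2
    exact (mul_eq_right.mp h2.symm)
  have hpmul : ∀ x ∈ U, ∀ y ∈ U, (x * y) ^ n = x ^ n * y ^ n := by
    intro x hx y hy
    have hcF := hcommF y hy x hx
    rw [MinAct.mul_pow_of_comm x y (hFcen _ hcF x hx).symm (hFcen _ hcF y hy).symm n]
    obtain ⟨k, hk⟩ := hn2
    rw [hk, pow_mul, hcp x hx y hy, one_pow, one_mul]
  obtain ⟨m, hm⟩ := hn1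
  have hnF : ∀ u ∈ U, u ^ n ∈ F := by
    intro u hu
    rw [hm, pow_mul]
    exact pow_mem (hpF u hu) _
  let K : Subgroup X :=
    { carrier := {u | u ∈ U ∧ u ^ n = 1}
      one_mem' := ⟨one_mem _, one_pow _⟩
      mul_mem' := by
        rintro a b ⟨ha, ha4⟩ ⟨hb, hb4⟩
        exact ⟨mul_mem ha hb, by rw [hpmul a ha b hb, ha4, hb4, one_mul]⟩
      inv_mem' := by
        rintro a ⟨ha, ha4⟩
        exact ⟨inv_mem ha, by rw [inv_pow, ha4, inv_one]⟩ }
  have hUK : U ≤ K := by
    rw [← hUA, commutator_le]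
    intro u hu a ha
    have h1 : a * u⁻¹ * a⁻¹ ∈ U := (mem_normalizer_iff.mp (hAU ha) _).mp (inv_mem hu)
    have h2 : ⁅u, a⁆ = u * (a * u⁻¹ * a⁻¹) := by rw [commutatorElement_def]; group
    rw [h2]
    refine ⟨mul_mem hu h1, ?_⟩
    rw [hpmul u hu _ h1, conj_pow]
    have h3 : (u⁻¹) ^ n ∈ F := hnF _ (inv_mem hu)
    have h4 : a * (u⁻¹) ^ n = (u⁻¹) ^ n * a := (mem_centralizer_iff.mp (hFc ha) _ h3).symm
    rw [h4, inv_pow]; group
  intro u hu
  exact (hUK hu).2

/-- `g` acts trivially on `T / M` as soon as it acts trivially modulo all maximal subgroups. -/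
theorem centralizes_of_maximal {G : Type*} [Group G] [Finite G] {p : ℕ} [hp : Fact p.Prime] {T : Subgroup G}
    (hT : IsPGroup p T) {g : G} (hg : (orderOf g).Coprime p) (hgT : g ∈ normalizer (T : Set G))
    (h : ∀ M : Subgroup T, IsCoatom M → ∀ t ∈ T, g * t * g⁻¹ * t⁻¹ ∈ M.map T.subtype) :
    g ∈ centralizer (T : Set G) := by
  have hz : zpowers g ≤ normalizer (T : Set G) := by
    rw [zpowers_le]; exact hgT
  -- the set of x in N(T) acting trivially on T/Φ(T)
  have hF : ∀ t ∈ T, g * t * g⁻¹ * t⁻¹ ∈ (frattini T).map T.subtype := by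
    intro t ht
    have hmem : g * t * g⁻¹ * t⁻¹ ∈ T :=
      mul_mem ((mem_normalizer_iff.mp hgT t).mp ht) (inv_mem ht)
    refine ⟨⟨_, hmem⟩, ?_, rfl⟩
    change (⟨_, hmem⟩ : T) ∈ frattini T
    rw [frattini, Order.radical]
    simp only [Subgroup.mem_iInf, Set.mem_ofPred_eq]
    intro M hM
    obtain ⟨y, hy, hy2⟩ := h M hM t ht
    have : y = ⟨_, hmem⟩ := Subtype.ext hy2
    rwa [← this]
  have hcop : (Nat.card (zpowers g)).Coprime (Nat.card (frattini T)) := by
    rw [Nat.card_zpowers]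
    obtain ⟨k, hk⟩ := IsPGroup.iff_card.mp (hT.to_subgroup (frattini T))
    rw [hk]
    exact hg.pow_right k
  have hgF : g ∈ normalizer (((frattini T).map T.subtype : Subgroup G) : Set G) :=
    PCoreTools.normalizer_le_of_characteristic frattini_characteristic hgT
  have hall : ∀ n : ℕ, ∀ t ∈ T, g ^ n * t * (g ^ n)⁻¹ * t⁻¹ ∈ (frattini T).map T.subtype := by
    intro n
    induction n with
    | zero => intro t ht; simp
    | succ n ih =>
      intro t ht
      have h1 := ih t ht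
      have h2 : g ^ n * t * (g ^ n)⁻¹ ∈ T :=
        (mem_normalizer_iff.mp (pow_mem hgT n) t).mp ht
      have h3 := hF _ h2
      have h4 : g ^ (n + 1) * t * (g ^ (n + 1))⁻¹ * t⁻¹ =
          (g * (g ^ n * t * (g ^ n)⁻¹) * g⁻¹ * (g ^ n * t * (g ^ n)⁻¹)⁻¹) * (g ^ n * t * (g ^ n)⁻¹ * t⁻¹) := by
        rw [pow_succ']; group
      rw [h4]
      exact mul_mem h3 h1
  have hc := le_centralizer_of_frattini hz hcop (by
    intro a ha k hk
    obtain ⟨n, rfl⟩ := (mem_powers_iff_mem_zpowers.mpr ha)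
    exact hall n k hk)
  exact hc (mem_zpowers g)

theorem characteristic_of_cyclic {T : Type*} [Group T] (hT : IsCyclic T) (M : Subgroup T) : M.Characteristic := by
  rw [Subgroup.characteristic_iff_map_le]
  intro φ
  obtain ⟨m, hm⟩ := MonoidHom.map_cyclic φ.toMonoidHom
  rintro _ ⟨x, hx, rfl⟩
  rw [hm]
  exact zpow_mem hx m

/-- `g` fixes a cyclic `p`-group. -/
theorem centralizes_of_cyclic {G : Type*} [Group G] [Finite G] {p : ℕ} [hp : Fact p.Prime] {T : Subgroup G}
    (hT : IsPGroup p T) (hcyc : IsCyclic T) {g : G} (hg : (orderOf g).Coprime p) (hgT : g ∈ normalizer (T : Set G))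
    (h : ∀ M : Subgroup G, M ≤ T → M.relIndex T = p → g ∈ normalizer (M : Set G) →
      ∀ t ∈ T, g * t * g⁻¹ * t⁻¹ ∈ M) :
    g ∈ centralizer (T : Set G) := by
  apply centralizes_of_maximal hT hg hgT
  intro M hM t ht
  have hM1 : (M.map T.subtype) ≤ T := map_subtype_le _
  have hM2 : (M.map T.subtype).relIndex T = p := by
    have h1 := index_of_isCoatom hT hM
    rw [Subgroup.relIndex, Subgroup.subgroupOf, Subgroup.comap_map_eq_self_of_injective T.subtype_injective]
    exact h1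
  have hMc : M.Characteristic := characteristic_of_cyclic hcyc M
  refine h _ hM1 hM2 (PCoreTools.normalizer_le_of_characteristic hMc hgT) t ht


/-- A noncyclic finite `p`-group whose maximal subgroups are `g`-invariant. -/
theorem centralizes_of_noncyclic {G : Type*} [Group G] [Finite G] {p : ℕ} [hp : Fact p.Prime] {T : Subgroup G}
    (hT : IsPGroup p T) (hcyc : ¬ IsCyclic T) {g : G} (hg : (orderOf g).Coprime p)
    (hinv : ∀ M : Subgroup G, M ≤ T → M.relIndex T = p → g ∈ normalizer (M : Set G))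
    (h : ∀ M : Subgroup G, M ≤ T → M.relIndex T = p → g ∈ normalizer (T : Set G) → g ∈ normalizer (M : Set G) →
      ∀ t ∈ T, g * t * g⁻¹ * t⁻¹ ∈ M) :
    g ∈ centralizer (T : Set G) := by
  have hM0 : ∀ M : Subgroup T, IsCoatom M → (M.map T.subtype) ≤ T ∧ (M.map T.subtype).relIndex T = p := by
    intro M hM
    refine ⟨map_subtype_le _, ?_⟩
    have h1 := index_of_isCoatom hT hM
    rw [Subgroup.relIndex, Subgroup.subgroupOf, Subgroup.comap_map_eq_self_of_injective T.subtype_injective]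
    exact h1
  have hgT : g ∈ normalizer (T : Set G) := by
    apply mem_normalizer_of_forall
    intro t ht
    have h1 : zpowers (⟨t, ht⟩ : T) ≠ ⊤ := by
      intro h1
      exact hcyc ⟨⟨⟨t, ht⟩, fun x => by
        have : x ∈ (⊤ : Subgroup T) := mem_top x
        rwa [← h1] at this⟩⟩
    obtain ⟨M, hM, hzM⟩ := (eq_top_or_exists_le_coatom (zpowers (⟨t, ht⟩ : T))).resolve_left h1
    have h2 := hM0 M hM
    have h3 := hinv _ h2.1 h2.2
    have h4 : t ∈ M.map T.subtype := ⟨⟨t, ht⟩, hzM (mem_zpowers _), rfl⟩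
    exact h2.1 ((mem_normalizer_iff.mp h3 t).mp h4)
  apply centralizes_of_maximal hT hg hgT
  intro M hM t ht
  have h2 := hM0 M hM
  exact h _ h2.1 h2.2 hgT (hinv _ h2.1 h2.2) t ht

/-- subgroups of a `p`-group of given order above a given subgroup -/
theorem exists_between {G : Type*} [Group G] [Finite G] {p : ℕ} [hp : Fact p.Prime] {Q H : Subgroup G}
    (hQ : IsPGroup p Q) (hHQ : H ≤ Q) {m : ℕ} (hm : p ^ m ≤ Nat.card Q) (hm2 : Nat.card H ≤ p ^ m) :
    ∃ T : Subgroup G, H ≤ T ∧ T ≤ Q ∧ Nat.card T = p ^ m := by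
  obtain ⟨a, ha⟩ := IsPGroup.iff_card.mp hQ
  obtain ⟨b, hb⟩ := IsPGroup.iff_card.mp (hQ.to_le hHQ)
  have hp1 := hp.out.one_lt
  rw [ha] at hm
  rw [hb] at hm2
  have h1 : m ≤ a := (Nat.pow_le_pow_iff_right hp1).mp hm
  have h2 : b ≤ m := (Nat.pow_le_pow_iff_right hp1).mp hm2
  have h3 : Nat.card (H.subgroupOf Q) = p ^ b := by
    rw [Nat.card_congr (subgroupOfEquivOfLe hHQ).toEquiv, hb]
  have h4 : p ^ m ∣ Nat.card Q := by rw [ha]; exact pow_dvd_pow p h1
  obtain ⟨K, hK1, hK2⟩ := Sylow.exists_subgroup_card_pow_prime_le p h4 (H.subgroupOf Q) h3 h2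
  refine ⟨K.map Q.subtype, ?_, map_subtype_le _, ?_⟩
  · intro x hx
    exact ⟨⟨x, hHQ hx⟩, hK2 (mem_subgroupOf.mpr hx), rfl⟩
  · rw [card_map_of_injective Q.subtype_injective, hK1]

/-- Lemma A. -/
theorem centralizes_of_invariant {G : Type*} [Group G] [Finite G] {p : ℕ} [hp : Fact p.Prime] {Q : Subgroup G}
    (hQ : IsPGroup p Q) {g : G} (hg : (orderOf g).Coprime p) (hgQ : g ∈ normalizer (Q : Set G))
    {d : ℕ} (hd1 : 1 ≤ d) (hdQ : p ^ d < Nat.card Q)
    (htriv : ∀ M T : Subgroup G, M ≤ T → T ≤ Q → M.relIndex T = p → g ∈ normalizer (T : Set G) →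
      g ∈ normalizer (M : Set G) → ∀ t ∈ T, g * t * g⁻¹ * t⁻¹ ∈ M)
    (hinv : ∀ E : Subgroup G, E ≤ Q → (Nat.card E = p ^ d ∨ (p ^ d = 2 ∧ Nat.card E = 4)) →
      g ∈ normalizer (E : Set G)) :
    g ∈ centralizer (Q : Set G) := by
  have hp1 := hp.out.one_lt
  have hp0 := hp.out.pos
  have hQd : p ^ (d + 1) ≤ Nat.card Q := by
    obtain ⟨a, ha⟩ := IsPGroup.iff_card.mp hQ
    rw [ha] at hdQ ⊢
    exact Nat.pow_le_pow_right hp0 ((Nat.pow_lt_pow_iff_right hp1).mp hdQ)
  -- the two kinds of `T`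
  have hnc : ∀ T : Subgroup G, T ≤ Q → Nat.card T = p ^ (d + 1) → ¬ IsCyclic T → g ∈ centralizer (T : Set G) := by
    intro T hTQ hTc hcyc
    apply centralizes_of_noncyclic (hQ.to_le hTQ) hcyc hg
    · intro M hM1 hM2
      apply hinv M (hM1.trans hTQ)
      left
      have h1 : M.relIndex T * Nat.card M = Nat.card T := by
        rw [mul_comm, ← Nat.card_congr (subgroupOfEquivOfLe hM1).toEquiv]
        exact card_mul_index _
      rw [hM2, hTc, pow_succ', ] at h1
      exact Nat.eq_of_mul_eq_mul_left hp0 h1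
    · intro M hM1 hM2 h3 h4
      exact htriv M T hM1 hTQ hM2 h3 h4
  have hcy : ∀ T : Subgroup G, T ≤ Q → IsCyclic T → g ∈ normalizer (T : Set G) → g ∈ centralizer (T : Set G) := by
    intro T hTQ hcyc hgT
    apply centralizes_of_cyclic (hQ.to_le hTQ) hcyc hg hgT
    intro M hM1 hM2 h4
    exact htriv M T hM1 hTQ hM2 hgT h4
  by_contra hcon
  set n := if p = 2 then 4 else p with hn
  have hn1 : p ∣ n := by
    rw [hn]; split_ifs with h
    · rw [h]; norm_num
    · exact dvd_rfl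
  have hn2 : p ∣ n * (n - 1) / 2 := by
    rw [hn]; split_ifs with h
    · rw [h]; norm_num
    · have hodd : Odd p := hp.out.odd_of_ne_two h
      obtain ⟨k, hk⟩ := hodd
      have h5 : p * (p - 1) / 2 = p * k := by
        have : p * (p - 1) = (p * k) * 2 := by
          have h6 : p - 1 = 2 * k := by omega
          rw [h6]; ring
        rw [this, Nat.mul_div_cancel _ (by norm_num)]
      rw [h5]; exact dvd_mul_right _ _
  have hA : (Nat.card (zpowers g)).Coprime p := by rwa [Nat.card_zpowers]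
  obtain ⟨U, hUQ, hAU, hAUc, hmin, hUn⟩ := exists_small Q (zpowers g) hQ hA (by rw [zpowers_le]; exact hgQ)
    (by rw [zpowers_le]; exact hcon) n hn1 hn2
  rw [zpowers_le] at hAU hAUc
  rcases le_or_gt (Nat.card U) (p ^ (d + 1)) with hcase | hcase
  · obtain ⟨T, hUT, hTQ, hTc⟩ := exists_between hQ hUQ hQd hcase
    by_cases hcyc : IsCyclic T
    · apply hAUc
      have : IsCyclic U := isCyclic_of_le hUT
      exact hcy U hUQ this hAU
    · exact hAUc (centralizer_le hUT (hnc T hTQ hTc hcyc))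
  · have hx : ∃ x ∈ U, x * g ≠ g * x := by
      by_contra hno
      push Not at hno
      exact hAUc (mem_centralizer_iff.mpr hno)
    obtain ⟨x, hxU, hxg⟩ := hx
    have hox : orderOf x ∣ n := orderOf_dvd_of_pow_eq_one (hUn x hxU)
    have hn3 : n ≤ p ^ (d + 1) := by
      have h1 : p ^ 2 ≤ p ^ (d + 1) := Nat.pow_le_pow_right hp0 (by omega)
      rw [hn]; split_ifs with h
      · rw [h] at h1 ⊢; exact h1
      · exact le_trans (by nlinarith) h1
    have hn0 : 0 < n := by
      rw [hn]; split_ifs <;> omega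
    have hxc : Nat.card (zpowers x) ≤ p ^ (d + 1) := by
      rw [Nat.card_zpowers]
      exact (Nat.le_of_dvd hn0 hox).trans hn3
    obtain ⟨T, hxT, hTU, hTc⟩ := exists_between (hQ.to_le hUQ) (by rw [zpowers_le]; exact hxU) hcase.le hxc
    rw [zpowers_le] at hxT
    by_cases hcyc : IsCyclic T
    · -- the exceptional case
      obtain ⟨⟨t, ht⟩⟩ := hcyc
      have hcyc : IsCyclic T := ⟨⟨t, ht⟩⟩
      have hto : orderOf t = p ^ (d + 1) := by
        rw [← hTc]; exact orderOf_eq_card_of_forall_mem_zpowers ht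
      have htn : orderOf t ∣ n := by
        apply orderOf_dvd_of_pow_eq_one
        apply Subtype.ext
        rw [Subgroup.coe_pow, Subgroup.coe_one]
        exact hUn _ (hTU t.2)
      have h1 : p ^ (d + 1) ∣ n := hto ▸ htn
      have hp2 : p = 2 := by
        by_contra hne
        have h2 : n = p := by rw [hn, if_neg hne]
        rw [h2] at h1
        have h3 := Nat.le_of_dvd hp0 h1
        have h4 : p ^ 2 ≤ p ^ (d + 1) := Nat.pow_le_pow_right hp0 (by omega)
        nlinarith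
      have hn4 : n = 4 := by rw [hn, if_pos hp2]
      have h2 : p ^ (d + 1) ≤ 4 := by rw [← hn4]; exact Nat.le_of_dvd hn0 h1
      have hd : d = 1 := by
        by_contra hne
        have h4 : p ^ 3 ≤ p ^ (d + 1) := Nat.pow_le_pow_right hp0 (by omega)
        rw [hp2] at h4 h2
        omega
      have hgT : g ∈ normalizer (T : Set G) := by
        apply hinv T (hTU.trans hUQ)
        right
        rw [hTc, hp2, hd]
        norm_num
      have h5 := mem_centralizer_iff.mp (hcy T (hTU.trans hUQ) hcyc hgT) x hxT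
      exact hxg h5
    · have h5 := mem_centralizer_iff.mp (hnc T (hTU.trans hUQ) hTc hcyc) x hxT
      exact hxg h5

/-- Lemma B: an element of order prime to `p - 1` acts trivially on a section of order `p`. -/
theorem trivial_on_section {G : Type*} [Group G] [Finite G] {p : ℕ} [hp : Fact p.Prime] {T M : Subgroup G}
    (hMT : M ≤ T) (hn : T ≤ normalizer (M : Set G)) (hidx : M.relIndex T = p) {g : G}
    (hg : (orderOf g).Coprime (p - 1))
    (hgT : g ∈ normalizer (T : Set G)) (hgM : g ∈ normalizer (M : Set G)) {t : G} (ht : t ∈ T) :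
    g * t * g⁻¹ * t⁻¹ ∈ M := by
  set M' : Subgroup T := M.subgroupOf T with hM'
  have hnorm : M'.Normal := by
    rw [hM']
    exact normal_subgroupOf_iff_le_normalizer hMT |>.mpr hn
  set φ : T ≃* T := PCoreTools.conjAut g hgT with hφ
  have hφc : ∀ x : T, ((φ x : T) : G) = g * x * g⁻¹ := fun x => PCoreTools.conjAut_coe g hgT x
  have hmap : M'.map φ.toMonoidHom = M' := by
    apply le_antisymm
    · rintro _ ⟨x, hx, rfl⟩
      rw [hM', mem_subgroupOf]
      change ((φ x : T) : G) ∈ M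
      rw [hφc]
      exact (mem_normalizer_iff.mp hgM _).mp (mem_subgroupOf.mp hx)
    · intro x hx
      have hx' : (x : G) ∈ M := mem_subgroupOf.mp hx
      have h1 : g⁻¹ * x * g ∈ M := (mem_normalizer_iff''.mp hgM x).mp hx'
      refine ⟨⟨g⁻¹ * x * g, hMT h1⟩, mem_subgroupOf.mpr h1, ?_⟩
      apply Subtype.ext
      change ((φ _ : T) : G) = x
      rw [hφc]
      group
  set σ : MulAut (T ⧸ M') := QuotientGroup.congr M' M' φ hmap with hσ
  have hσmk : ∀ x : T, σ (QuotientGroup.mk x) = QuotientGroup.mk (φ x) := fun x => rfl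
  have hcard : Nat.card (T ⧸ M') = p := hidx
  have hcyc : IsCyclic (T ⧸ M') := isCyclic_of_prime_card hcard
  have hfin : Finite (T ⧸ M') := inferInstance
  have hσc : orderOf σ ∣ p - 1 := by
    have h1 := orderOf_dvd_natCard σ
    rw [IsCyclic.card_mulAut, hcard, Nat.totient_prime hp.out] at h1
    exact h1
  have hφn : ∀ n : ℕ, ∀ x : T, ((((φ : MulAut T) ^ n) x : T) : G) = g ^ n * x * (g ^ n)⁻¹ := by
    intro n
    induction n with
    | zero => intro x; simp
    | succ n ih =>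
      intro x
      rw [pow_succ', MulAut.mul_apply, hφc, ih, pow_succ']
      group
  have hσn : ∀ n : ℕ, ∀ x : T, (σ ^ n) (QuotientGroup.mk x) = QuotientGroup.mk (((φ : MulAut T) ^ n) x) := by
    intro n
    induction n with
    | zero => intro x; simp
    | succ n ih =>
      intro x
      rw [pow_succ', MulAut.mul_apply, ih, hσmk, pow_succ', MulAut.mul_apply]
  have hσo : orderOf σ ∣ orderOf g := by
    apply orderOf_dvd_of_pow_eq_one
    ext x
    obtain ⟨x, rfl⟩ := QuotientGroup.mk_surjective x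
    rw [hσn]
    congr 1
    apply Subtype.ext
    rw [hφn, pow_orderOf_eq_one]
    simp
  have hσ1 : σ = 1 := by
    rw [← orderOf_eq_one_iff]
    exact Nat.eq_one_of_dvd_coprimes hg hσo hσc
  have h2 : σ (QuotientGroup.mk ⟨t, ht⟩) = QuotientGroup.mk ⟨t, ht⟩ := by rw [hσ1]; rfl
  rw [hσmk] at h2
  have h3 := QuotientGroup.eq.mp h2.symm
  rw [hM', mem_subgroupOf] at h3
  have h4 : ((((⟨t, ht⟩ : T))⁻¹ * φ ⟨t, ht⟩ : T) : G) = t⁻¹ * (g * t * g⁻¹) := by
    rw [Subgroup.coe_mul, hφc]; rfl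
  rw [h4] at h3
  have h5 := (mem_normalizer_iff.mp (hn ht) _).mp h3
  have h6 : t * (t⁻¹ * (g * t * g⁻¹)) * t⁻¹ = g * t * g⁻¹ * t⁻¹ := by group
  rwa [h6] at h5

/-- `x` is fixed by conjugation into `P`: strongly closed subgroups. -/
theorem le_normalizer_of_hsub {G : Type*} [Group G] [Finite G] {p : ℕ} [hp : Fact p.Prime] {P E : Subgroup G}
    (hP : IsPGroup p P) (hEP : E ≤ P)
    (hE : ∀ g : G, E.map (MulAut.conj g).toMonoidHom ⊓ Subgroup.normalizer (E : Set G) ≤ E) :
    P ≤ normalizer (E : Set G) := by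
  by_contra hcon
  have h1 : P ⊓ normalizer (E : Set G) < P := by
    refine lt_of_le_of_ne inf_le_left ?_
    intro h
    exact hcon (inf_eq_left.mp h)
  have h2 := Alperin.lt_inf_normalizer P _ hP h1
  obtain ⟨y, hy, hyn⟩ := SetLike.exists_of_lt h2
  obtain ⟨hyP, hyN⟩ := Subgroup.mem_inf.mp hy
  apply hyn
  refine ⟨hyP, ?_⟩
  apply mem_normalizer_of_conj_le
  intro x hx
  refine hE y ⟨hx, ?_⟩
  obtain ⟨e, he, rfl⟩ := hx
  have h3 : e ∈ P ⊓ normalizer (E : Set G) := ⟨hEP he, le_normalizer he⟩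
  exact ((mem_normalizer_iff.mp hyN e).mp h3).2

theorem strongly_closed_of_hsub {G : Type*} [Group G] [Finite G] {p : ℕ} [hp : Fact p.Prime] {P E : Subgroup G}
    (hP : IsPGroup p P) (hEP : E ≤ P)
    (hE : ∀ g : G, E.map (MulAut.conj g).toMonoidHom ⊓ Subgroup.normalizer (E : Set G) ≤ E)
    {x g : G} (hx : x ∈ E) (hg : g * x * g⁻¹ ∈ P) : g * x * g⁻¹ ∈ E :=
  hE g ⟨⟨x, hx, rfl⟩, le_normalizer_of_hsub hP hEP hE hg⟩

theorem relIndex_sup_of_le_normalizer' {G : Type*} [Group G] [Finite G] {H K : Subgroup G}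
    (h : H ≤ Subgroup.normalizer (K : Set G)) :
    K.relIndex (H ⊔ K) = K.relIndex H := by
  have h1 := card_sup_mul_card_inf h
  have h2 : K.relIndex (H ⊔ K) * Nat.card K = Nat.card ↥(H ⊔ K) := by
    have := Subgroup.relIndex_mul_relIndex ⊥ K (H ⊔ K) bot_le le_sup_right
    rw [Subgroup.relIndex_bot_left, Subgroup.relIndex_bot_left] at this
    rw [mul_comm]; exact this
  have h3 : K.relIndex H * Nat.card ↥(H ⊓ K) = Nat.card H := by
    have := Subgroup.relIndex_mul_relIndex ⊥ (H ⊓ K) H bot_le inf_le_left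
    rw [Subgroup.relIndex_bot_left, Subgroup.relIndex_bot_left, inf_relIndex_left] at this
    rw [mul_comm]; exact this
  have hpos : 0 < Nat.card K := Nat.card_pos
  have hpos2 : 0 < Nat.card ↥(H ⊓ K) := Nat.card_pos
  rw [← h2, ← h3] at h1
  have : K.relIndex (H ⊔ K) * (Nat.card K * Nat.card ↥(H ⊓ K)) =
      K.relIndex H * (Nat.card K * Nat.card ↥(H ⊓ K)) := by
    calc _ = K.relIndex (H ⊔ K) * Nat.card K * Nat.card ↥(H ⊓ K) := by ring
      _ = _ := h1
      _ = _ := by ring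
  exact Nat.eq_of_mul_eq_mul_right (Nat.mul_pos hpos hpos2) this

/-- the action of the normalizer of a subgroup `D` of `P` on `D` modulo a maximal subgroup `M` of `P`, under the
hypothesis that the subgroups of order `p ^ d` are strongly closed. -/
theorem coprime_step {G : Type*} [Group G] [Finite G] {p : ℕ} [hp : Fact p.Prime]
    (hmin : ∀ q : ℕ, q.Prime → q ∣ Nat.card G → p ≤ q) {P : Subgroup G} (hP : IsPGroup p P) {d : ℕ} (hd1 : 1 ≤ d)
    (hsc : ∀ E : Subgroup G, E ≤ P → (Nat.card E = p ^ d ∨ (p ^ d = 2 ∧ Nat.card E = 4)) →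
      ∀ x ∈ E, ∀ g : G, g * x * g⁻¹ ∈ P → g * x * g⁻¹ ∈ E)
    {M : Subgroup G} (hMP : M ≤ P) (hMn : P ≤ normalizer (M : Set G)) (hMi : M.relIndex P = p)
    (hMc : p ^ d ≤ Nat.card M)
    {D : Subgroup G} (hDP : D ≤ P) {g : G} (hg : (orderOf g).Coprime p) (hgD : g ∈ normalizer (D : Set G))
    {y : G} (hy : y ∈ D) : y⁻¹ * (g * y * g⁻¹) ∈ M := by
  have hp1 := hp.out.one_lt
  have hg' : (orderOf g).Coprime (p - 1) := by
    rw [Nat.coprime_iff_gcd_eq_one]
    by_contra hne
    obtain ⟨q, hq, hqd⟩ := Nat.exists_prime_and_dvd hne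
    have h1 : q ∣ orderOf g := hqd.trans (Nat.gcd_dvd_left _ _)
    have h2 : q ∣ p - 1 := hqd.trans (Nat.gcd_dvd_right _ _)
    have h3 := hmin q hq (h1.trans (orderOf_dvd_natCard g))
    have h4 := Nat.le_of_dvd (by omega) h2
    omega
  rcases lt_or_ge (p ^ d) (Nat.card D) with hcase | hcase
  · have hc : g ∈ centralizer (D : Set G) := by
      apply centralizes_of_invariant (hP.to_le hDP) hg hgD hd1 hcase
      · intro M T hMT hTD hi hgT hgM t ht
        have hTp : IsPGroup p T := hP.to_le (hTD.trans hDP)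
        have hn : T ≤ normalizer (M : Set G) := by
          rw [← normal_subgroupOf_iff_le_normalizer hMT]
          apply normal_of_isCoatom hTp
          exact HBBasic.isCoatom_of_index_prime (by rw [← relIndex, hi]; exact hp.out)
        exact trivial_on_section hMT hn hi hg' hgT hgM ht
      · intro E hED hE
        apply mem_normalizer_of_forall
        intro x hx
        exact hsc E (hED.trans hDP) hE x hx g (hDP ((mem_normalizer_iff.mp hgD x).mp (hED hx)))
    have h1 : g * y * g⁻¹ = y := by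
      rw [← mem_centralizer_iff.mp hc y hy]; group
    rw [h1, inv_mul_cancel]
    exact one_mem _
  · have key : ∀ z ∈ D, z ∈ M → g * z * g⁻¹ ∈ M := by
      intro z hz hzM
      have h1 : Nat.card (zpowers z) ≤ p ^ d := by
        refine le_trans (Nat.le_of_dvd Nat.card_pos (card_dvd_of_le ?_)) hcase
        rw [zpowers_le]; exact hz
      obtain ⟨E, hzE, hEM, hEc⟩ := exists_between (hP.to_le hMP) (by rw [zpowers_le]; exact hzM) hMc h1
      rw [zpowers_le] at hzE
      exact hEM (hsc E (hEM.trans hMP) (Or.inl hEc) z hzE g (hDP ((mem_normalizer_iff.mp hgD z).mp hz)))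
    by_cases hyM : y ∈ M
    · exact mul_mem (inv_mem hyM) (key y hy hyM)
    · have hgDM : g ∈ normalizer ((D ⊓ M : Subgroup G) : Set G) := by
        apply mem_normalizer_of_forall
        rintro x ⟨hx1, hx2⟩
        exact ⟨(mem_normalizer_iff.mp hgD x).mp hx1, key x hx1 hx2⟩
      have hDn : D ≤ normalizer ((D ⊓ M : Subgroup G) : Set G) := by
        intro x hx
        apply mem_normalizer_of_forall
        rintro z ⟨hz1, hz2⟩
        exact ⟨D.mul_mem (D.mul_mem hx hz1) (D.inv_mem hx), (mem_normalizer_iff.mp (hMn (hDP hx)) z).mp hz2⟩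
      have hrel : (D ⊓ M).relIndex D = p := by
        have h1 : (D ⊓ M).relIndex D ∣ M.relIndex P := by
          rw [inf_comm, inf_relIndex_right]
          rw [← relIndex_sup_of_le_normalizer' (hDP.trans hMn), ← relIndex_mul_relIndex M (D ⊔ M) P le_sup_right
            (sup_le hDP hMP)]
          exact dvd_mul_right _ _
        rw [hMi] at h1
        rcases (Nat.dvd_prime hp.out).mp h1 with h2 | h2
        · rw [relIndex_eq_one] at h2
          exact absurd (h2 hy).2 hyM
        · exact h2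
      have h3 := trivial_on_section inf_le_left hDn hrel hg' hgD hgDM hy
      have h4 := (mem_normalizer_iff''.mp (hMn (hDP hy)) _).mp h3.2
      have h5 : y⁻¹ * (g * y * g⁻¹ * y⁻¹) * y = y⁻¹ * (g * y * g⁻¹) := by group
      rwa [h5] at h4

/-- the same for all the elements of `N_G(D)`, when `P ∩ N_G(D)` is Sylow in `N_G(D)`. -/
theorem normalizer_step {G : Type*} [Group G] [Finite G] {p : ℕ} [hp : Fact p.Prime]
    {P M D : Subgroup G} (hDP : D ≤ P)
    (hM : ∀ x ∈ P, ∀ y ∈ P, y⁻¹ * (x * y * x⁻¹) ∈ M)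
    (hsyl : IsSylowIn p (P ⊓ normalizer (D : Set G)) (normalizer (D : Set G)))
    (hcop : ∀ g ∈ normalizer (D : Set G), (orderOf g).Coprime p → ∀ y ∈ D, y⁻¹ * (g * y * g⁻¹) ∈ M)
    {g : G} (hg : g ∈ normalizer (D : Set G)) {y : G} (hy : y ∈ D) : y⁻¹ * (g * y * g⁻¹) ∈ M := by
  let K : Subgroup G :=
    { carrier := {x | x ∈ normalizer (D : Set G) ∧ ∀ y ∈ D, y⁻¹ * (x * y * x⁻¹) ∈ M}
      one_mem' := ⟨one_mem _, fun y _ => by simp⟩
      mul_mem' := by
        rintro a b ⟨ha, ha2⟩ ⟨hb, hb2⟩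
        refine ⟨mul_mem ha hb, fun y hy => ?_⟩
        have h1 : b * y * b⁻¹ ∈ D := (mem_normalizer_iff.mp hb y).mp hy
        have h2 := mul_mem (hb2 y hy) (ha2 _ h1)
        have h3 : y⁻¹ * (b * y * b⁻¹) * ((b * y * b⁻¹)⁻¹ * (a * (b * y * b⁻¹) * a⁻¹)) =
            y⁻¹ * (a * b * y * (a * b)⁻¹) := by group
        rwa [h3] at h2
      inv_mem' := by
        rintro a ⟨ha, ha2⟩
        refine ⟨inv_mem ha, fun y hy => ?_⟩
        have h1 : a⁻¹ * y * a ∈ D := (mem_normalizer_iff''.mp ha y).mp hy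
        have h2 := inv_mem (ha2 _ h1)
        have h3 : ((a⁻¹ * y * a)⁻¹ * (a * (a⁻¹ * y * a) * a⁻¹))⁻¹ = y⁻¹ * (a⁻¹ * y * a⁻¹⁻¹) := by group
        rwa [h3] at h2 }
  have hS := sylow_sup_pResidual hsyl.toSylow
  have hle : (hsyl.toSylow : Subgroup (normalizer (D : Set G))) ⊔ pResidual p (normalizer (D : Set G)) ≤
      K.subgroupOf (normalizer (D : Set G)) := by
    apply sup_le
    · rw [hsyl.coe_toSylow]
      intro x hx
      rw [mem_subgroupOf] at hx ⊢
      exact ⟨hx.2, fun y hy => hM _ hx.1 y (hDP hy)⟩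
    · rw [pResidual, closure_le]
      intro x hx
      rw [SetLike.mem_coe, mem_subgroupOf]
      refine ⟨x.2, fun y hy => hcop x x.2 ?_ y hy⟩
      rw [Subgroup.orderOf_coe]
      exact hx
  rw [hS] at hle
  have h1 : (⟨g, hg⟩ : normalizer (D : Set G)) ∈ K.subgroupOf (normalizer (D : Set G)) := hle (mem_top _)
  rw [mem_subgroupOf] at h1
  exact h1.2 y hy

theorem chain_step {G : Type*} [Group G] [Finite G] {p : ℕ} [hp : Fact p.Prime] (P : Sylow p G) (M : Subgroup G)
    (hN : ∀ D : Subgroup G, D ≤ P → IsSylowIn p ((P : Subgroup G) ⊓ normalizer (D : Set G)) (normalizer (D : Set G)) →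
      ∀ g ∈ normalizer (D : Set G), ∀ y ∈ D, y⁻¹ * (g * y * g⁻¹) ∈ M)
    (l : List (Sylow p G × G)) : ∀ y : G, y ∈ (P : Subgroup G) → Alperin.Chain P {y} l →
      y⁻¹ * ((Alperin.pr l)⁻¹ * y * Alperin.pr l) ∈ M := by
  induction l with
  | nil => intro y hy _; simp [Alperin.pr_nil]
  | cons q l ih =>
    obtain ⟨Q, x⟩ := q
    rintro y hy ⟨⟨h1, h2⟩, h3, h4⟩
    have hyD : y ∈ (P : Subgroup G) ⊓ (Q : Subgroup G) := h3 rfl
    have hS : IsSylowIn p ((P : Subgroup G) ⊓ normalizer (((P : Subgroup G) ⊓ (Q : Subgroup G) : Subgroup G) : Set G))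
        (normalizer (((P : Subgroup G) ⊓ (Q : Subgroup G) : Subgroup G) : Set G)) :=
      ⟨inf_le_right, P.2.to_le inf_le_left, h2.1⟩
    have h5 := hN _ inf_le_left hS x⁻¹ (inv_mem h1) y hyD
    have hy1 : x⁻¹ * y * x ∈ (P : Subgroup G) := ((mem_normalizer_iff''.mp h1 y).mp hyD).1
    have hset : Alperin.cset x {y} = {x⁻¹ * y * x} := by simp [Alperin.cset]
    rw [hset] at h4
    have h6 := ih _ hy1 h4
    have h7 := mul_mem h5 h6
    rw [Alperin.pr_cons]
    have h8 : y⁻¹ * (x⁻¹ * y * x⁻¹⁻¹) * ((x⁻¹ * y * x)⁻¹ * ((Alperin.pr l)⁻¹ * (x⁻¹ * y * x) * Alperin.pr l)) =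
        y⁻¹ * ((x * Alperin.pr l)⁻¹ * y * (x * Alperin.pr l)) := by group
    rwa [h8] at h7

theorem focal_le {G : Type*} [Group G] [Finite G] {p : ℕ} [hp : Fact p.Prime] (P : Sylow p G) (M : Subgroup G)
    (hN : ∀ D : Subgroup G, D ≤ P → IsSylowIn p ((P : Subgroup G) ⊓ normalizer (D : Set G)) (normalizer (D : Set G)) →
      ∀ g ∈ normalizer (D : Set G), ∀ y ∈ D, y⁻¹ * (g * y * g⁻¹) ∈ M) :
    (P : Subgroup G).focalSubgroup ≤ M := by
  rw [Subgroup.focalSubgroup_def, closure_le]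
  rintro _ ⟨h1, x, hx, u, rfl⟩
  have hx' : x⁻¹ ∈ (P : Subgroup G) := inv_mem hx
  have h2 : u * x⁻¹ * u⁻¹ ∈ (P : Subgroup G) := by
    have := mul_mem hx' h1
    rw [commutatorElement_def] at this
    have h3 : x⁻¹ * (x * u * x⁻¹ * u⁻¹) = u * x⁻¹ * u⁻¹ := by group
    rwa [h3] at this
  obtain ⟨l, hl, hpr⟩ := Alperin.alperin P {x⁻¹} u⁻¹ (Set.singleton_subset_iff.mpr hx') (by
    rintro _ ⟨y, hy, rfl⟩
    rw [Set.mem_singleton_iff] at hy
    rw [hy, inv_inv]
    exact h2)
  have h3 := chain_step P M hN l x⁻¹ hx' hl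
  rw [hpr] at h3
  have h4 : x⁻¹⁻¹ * (u⁻¹⁻¹ * x⁻¹ * u⁻¹) = ⁅x, u⁆ := by rw [commutatorElement_def]; group
  rw [h4] at h3
  exact h3

theorem hasNormalPComplement_of_focal_le_frattini {G : Type*} [Group G] [Finite G] {p : ℕ} [hp : Fact p.Prime]
    (P : Sylow p G) (h : (P : Subgroup G).focalSubgroup ≤ (frattini P).map (P : Subgroup G).subtype) :
    Cfsg.HasNormalPComplement p G := by
  have h1 : pResidual p G ⊓ (P : Subgroup G) ≤ (frattini P).map (P : Subgroup G).subtype := by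
    rw [inf_comm]
    exact (FusionControl.inf_pResidual_le_focalSubgroup P).trans h
  have h2 := TateApps.tate_frattini_sup P (pResidual p G) h1
  rw [sylow_sup_pResidual P] at h2
  exact HasNormalPComplement.of_mulEquiv h2 Subgroup.topEquiv

/-- The strongly closed criterion. -/
theorem hasNormalPComplement_of_hsub {G : Type*} [Group G] [Finite G] {p : ℕ} [hp : Fact p.Prime]
    (hmin : ∀ q : ℕ, q.Prime → q ∣ Nat.card G → p ≤ q) (P : Sylow p G) {d : ℕ} (hd1 : 1 ≤ d)
    (hdP : p ^ d < Nat.card (P : Subgroup G))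
    (hH : ∀ E : Subgroup G, E ≤ P → (Nat.card E = p ^ d ∨ (p ^ d = 2 ∧ Nat.card E = 4)) →
      ∀ g : G, E.map (MulAut.conj g).toMonoidHom ⊓ Subgroup.normalizer (E : Set G) ≤ E) :
    Cfsg.HasNormalPComplement p G := by
  have hPp := P.2
  have hsc : ∀ E : Subgroup G, E ≤ (P : Subgroup G) → (Nat.card E = p ^ d ∨ (p ^ d = 2 ∧ Nat.card E = 4)) →
      ∀ x ∈ E, ∀ g : G, g * x * g⁻¹ ∈ (P : Subgroup G) → g * x * g⁻¹ ∈ E := by
    intro E hEP hE x hx g hg
    exact strongly_closed_of_hsub hPp hEP (hH E hEP hE) hx hg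
  apply hasNormalPComplement_of_focal_le_frattini P
  have hmax : ∀ M' : Subgroup P, IsCoatom M' → (P : Subgroup G).focalSubgroup ≤ M'.map (P : Subgroup G).subtype := by
    intro M' hM'
    have hMP : M'.map (P : Subgroup G).subtype ≤ P := map_subtype_le _
    have hsub : (M'.map (P : Subgroup G).subtype).subgroupOf (P : Subgroup G) = M' := by
      rw [Subgroup.subgroupOf, Subgroup.comap_map_eq_self_of_injective (P : Subgroup G).subtype_injective]
    have hi' : M'.index = p := index_of_isCoatom hPp hM'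
    have hi : (M'.map (P : Subgroup G).subtype).relIndex P = p := by
      rw [Subgroup.relIndex, hsub]; exact hi'
    have hn' : M'.Normal := normal_of_isCoatom hPp hM'
    have hn : (P : Subgroup G) ≤ normalizer ((M'.map (P : Subgroup G).subtype : Subgroup G) : Set G) := by
      rw [← normal_subgroupOf_iff_le_normalizer hMP, hsub]
      exact hn'
    have hc : p ^ d ≤ Nat.card (M'.map (P : Subgroup G).subtype : Subgroup G) := by
      rw [card_map_of_injective (P : Subgroup G).subtype_injective]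
      have h1 := M'.card_mul_index
      rw [hi'] at h1
      obtain ⟨a, ha⟩ := IsPGroup.iff_card.mp hPp
      rw [ha] at hdP
      have h2 := (Nat.pow_lt_pow_iff_right hp.out.one_lt).mp hdP
      obtain ⟨b, rfl⟩ : ∃ b, a = b + 1 := ⟨a - 1, by omega⟩
      have h3 : Nat.card M' = p ^ b := by
        have h4 : Nat.card M' * p = p ^ b * p := by rw [h1, ← pow_succ]; exact ha
        exact Nat.eq_of_mul_eq_mul_right hp.out.pos h4
      rw [h3]
      exact Nat.pow_le_pow_right hp.out.pos (by omega)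
    apply focal_le P
    intro D hDP hS g hg y hy
    apply normalizer_step hDP _ hS _ hg hy
    · intro x hx z hz
      have h1 : (⟨z, hz⟩ : P)⁻¹ * (⟨x, hx⟩ * ⟨z, hz⟩ * (⟨x, hx⟩ : P)⁻¹) ∈ M' := by
        have h2 : ⁅(⟨z, hz⟩ : P)⁻¹, (⟨x, hx⟩ : P)⁆ ∈ M' := by
          have h3 := commutator_le_frattini hPp (commutator_mem_commutator (mem_top (⟨z, hz⟩ : P)⁻¹) (mem_top (⟨x, hx⟩ : P)))
          exact (frattini_le_coatom hM') h3
        rw [commutatorElement_def, inv_inv] at h2
        convert h2 using 1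
        group
      exact ⟨_, h1, rfl⟩
    · intro g hg hgp z hz
      exact coprime_step hmin hPp hd1 hsc hMP hn hi hc hDP hgp hg hz
  intro x hx
  have hxP : x ∈ (P : Subgroup G) := (P : Subgroup G).focalSubgroup_le hx
  refine ⟨⟨x, hxP⟩, ?_, rfl⟩
  change (⟨x, hxP⟩ : P) ∈ frattini P
  rw [frattini, Order.radical]
  simp only [Subgroup.mem_iInf, Set.mem_ofPred_eq]
  intro M' hM'
  obtain ⟨y, hy, hy2⟩ := hmax M' hM' hx
  have : y = ⟨x, hxP⟩ := Subtype.ext hy2
  rwa [← this]

end Cfsg.Agent.Lib.HSub
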