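import Cfsg.Agent.Lib.HSub
import Cfsg.Agent.Lib.MaxPrimeIndex
import Cfsg.Agent.Lib.Supersolvable2
import Cfsg.Agent.Lib.Fitting

/-! `p`-groups all of whose subgroups of a fixed order are normal in `G` (helper9), and supersolvability. -/

set_option autoImplicit false
open scoped commutatorElement

namespace Cfsg.Agent.Lib.HSub

open Subgroup Cfsg Cfsg.Agent.Lib.HBBasic Cfsg.Agent.Lib.CoprimeAction2 Cfsg.Agent.Lib.ConjSylow Cfsg.Agent.Lib.PNilp
  Cfsg.Agent.Lib.Supersolvable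

theorem coatom_map {G : Type*} [Group G] [Finite G] {p : ℕ} [hp : Fact p.Prime] {T : Subgroup G}
    (hT : IsPGroup p T) {M : Subgroup T} (hM : IsCoatom M) :
    (M.map T.subtype) ≤ T ∧ (M.map T.subtype).relIndex T = p := by
  refine ⟨map_subtype_le _, ?_⟩
  have h1 := index_of_isCoatom hT hM
  rw [Subgroup.relIndex, Subgroup.subgroupOf, Subgroup.comap_map_eq_self_of_injective T.subtype_injective]
  exact h1

/-- a noncyclic finite `p`-group is the union of its maximal subgroups -/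
theorem le_normalizer_of_noncyclic {G : Type*} [Group G] [Finite G] {p : ℕ} [hp : Fact p.Prime] {T 𝒢 : Subgroup G}
    (hT : IsPGroup p T) (hcyc : ¬ IsCyclic T)
    (hinv : ∀ M : Subgroup G, M ≤ T → M.relIndex T = p → 𝒢 ≤ normalizer (M : Set G)) :
    𝒢 ≤ normalizer (T : Set G) := by
  intro g hg
  apply mem_normalizer_of_forall
  intro t ht
  have h1 : zpowers (⟨t, ht⟩ : T) ≠ ⊤ := by
    intro h1
    exact hcyc ⟨⟨⟨t, ht⟩, fun x => by
      have : x ∈ (⊤ : Subgroup T) := mem_top x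
      rwa [← h1] at this⟩⟩
  obtain ⟨M, hM, hzM⟩ := (eq_top_or_exists_le_coatom (zpowers (⟨t, ht⟩ : T))).resolve_left h1
  have h2 := coatom_map hT hM
  have h3 := hinv _ h2.1 h2.2 hg
  have h4 : t ∈ M.map T.subtype := ⟨⟨t, ht⟩, hzM (mem_zpowers _), rfl⟩
  exact h2.1 ((mem_normalizer_iff.mp h3 t).mp h4)

/-- Lemma A'. -/
theorem centralizes_of_invariant' {G : Type*} [Group G] [Finite G] {p : ℕ} [hp : Fact p.Prime] {Q 𝒢 : Subgroup G}
    (hQ : IsPGroup p Q) {g : G} (hg : (orderOf g).Coprime p) (hgG : g ∈ 𝒢) (hGQ : 𝒢 ≤ normalizer (Q : Set G))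
    {d : ℕ} (hd1 : 1 ≤ d) (hdQ : p ^ d < Nat.card Q)
    (htriv : ∀ M T : Subgroup G, M ≤ T → T ≤ Q → M.relIndex T = p → 𝒢 ≤ normalizer (T : Set G) →
      𝒢 ≤ normalizer (M : Set G) → ∀ t ∈ T, g * t * g⁻¹ * t⁻¹ ∈ M)
    (hinv : ∀ E : Subgroup G, E ≤ Q → (Nat.card E = p ^ d ∨ (p ^ d = 2 ∧ Nat.card E = 4)) →
      𝒢 ≤ normalizer (E : Set G)) :
    g ∈ centralizer (Q : Set G) := by
  have hp1 := hp.out.one_lt
  have hp0 := hp.out.pos
  have hQd : p ^ (d + 1) ≤ Nat.card Q := by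
    obtain ⟨a, ha⟩ := IsPGroup.iff_card.mp hQ
    rw [ha] at hdQ ⊢
    exact Nat.pow_le_pow_right hp0 ((Nat.pow_lt_pow_iff_right hp1).mp hdQ)
  -- the two kinds of `T`
  have hnc : ∀ T : Subgroup G, T ≤ Q → Nat.card T = p ^ (d + 1) → ¬ IsCyclic T → g ∈ centralizer (T : Set G) := by
    intro T hTQ hTc hcyc
    have hM1 : ∀ M : Subgroup G, M ≤ T → M.relIndex T = p → 𝒢 ≤ normalizer (M : Set G) := by
      intro M hM1 hM2
      apply hinv M (hM1.trans hTQ)
      left
      have h1 : M.relIndex T * Nat.card M = Nat.card T := by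
        rw [mul_comm, ← Nat.card_congr (subgroupOfEquivOfLe hM1).toEquiv]
        exact card_mul_index _
      rw [hM2, hTc, pow_succ', ] at h1
      exact Nat.eq_of_mul_eq_mul_left hp0 h1
    have hGT := le_normalizer_of_noncyclic (hQ.to_le hTQ) hcyc hM1
    apply centralizes_of_noncyclic (hQ.to_le hTQ) hcyc hg
    · intro M hM1' hM2
      exact hM1 M hM1' hM2 hgG
    · intro M hM1' hM2 h3 h4
      exact htriv M T hM1' hTQ hM2 hGT (hM1 M hM1' hM2)
  have hcy : ∀ T : Subgroup G, T ≤ Q → IsCyclic T → 𝒢 ≤ normalizer (T : Set G) → g ∈ centralizer (T : Set G) := by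
    intro T hTQ hcyc hgT
    apply centralizes_of_maximal (hQ.to_le hTQ) hg (hgT hgG)
    intro M hM t ht
    have h2 := coatom_map (hQ.to_le hTQ) hM
    have hMc : M.Characteristic := characteristic_of_cyclic hcyc M
    exact htriv _ T h2.1 hTQ h2.2 hgT (hgT.trans (PCoreTools.normalizer_le_of_characteristic hMc)) t ht
  -- subgroups of cyclic invariant groups
  have hcy2 : ∀ U T : Subgroup G, U ≤ T → T ≤ Q → IsCyclic T → 𝒢 ≤ normalizer (T : Set G) →
      g ∈ centralizer (U : Set G) := by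
    intro U T hUT hTQ hcyc hgT
    exact centralizer_le hUT (hcy T hTQ hcyc hgT)
  by_contra hcon
  set n := if p = 2 then 4 else p with hn
  have hn1 : p ∣ n := by
    rw [hn]; split_ifs with h
    · rw [h]; norm_num
    · exact dvd_rfl
  have hn2 : p ∣ n * (n - 1) / 2 := by
    rw [hn]; split_ifs with h
    · rw [h]; norm_num
    · have hodd : Odd p := hp.out.odd_of_ne_two h
      obtain ⟨k, hk⟩ := hodd
      have h5 : p * (p - 1) / 2 = p * k := by
        have : p * (p - 1) = (p * k) * 2 := by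
          have h6 : p - 1 = 2 * k := by omega
          rw [h6]; ring
        rw [this, Nat.mul_div_cancel _ (by norm_num)]
      rw [h5]; exact dvd_mul_right _ _
  have hA : (Nat.card (zpowers g)).Coprime p := by rwa [Nat.card_zpowers]
  obtain ⟨U, hUQ, hAU, hAUc, hmin, hUn⟩ := exists_small Q (zpowers g) hQ hA (by rw [zpowers_le]; exact hGQ hgG)
    (by rw [zpowers_le]; exact hcon) n hn1 hn2
  rw [zpowers_le] at hAU hAUc
  have hn3 : n ≤ p ^ (d + 1) := by
    have h1 : p ^ 2 ≤ p ^ (d + 1) := Nat.pow_le_pow_right hp0 (by omega)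
    rw [hn]; split_ifs with h
    · rw [h] at h1 ⊢; exact h1
    · exact le_trans (by nlinarith) h1
  have hn0 : 0 < n := by
    rw [hn]; split_ifs <;> omega
  -- a cyclic subgroup of order `p^(d+1)` of `U`
  have hexc : ∀ T : Subgroup G, T ≤ U → IsCyclic T → Nat.card T = p ^ (d + 1) → g ∈ centralizer (T : Set G) := by
    intro T hTU hcyc hTc
    obtain ⟨⟨t, ht⟩⟩ := hcyc
    have hcyc : IsCyclic T := ⟨⟨t, ht⟩⟩
    have hto : orderOf t = p ^ (d + 1) := by
      rw [← hTc]; exact orderOf_eq_card_of_forall_mem_zpowers ht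
    have htn : orderOf t ∣ n := by
      apply orderOf_dvd_of_pow_eq_one
      apply Subtype.ext
      rw [Subgroup.coe_pow, Subgroup.coe_one]
      exact hUn _ (hTU t.2)
    have h1 : p ^ (d + 1) ∣ n := hto ▸ htn
    have hp2 : p = 2 := by
      by_contra hne
      have h2 : n = p := by rw [hn, if_neg hne]
      rw [h2] at h1
      have h3 := Nat.le_of_dvd hp0 h1
      have h4 : p ^ 2 ≤ p ^ (d + 1) := Nat.pow_le_pow_right hp0 (by omega)
      nlinarith
    have hn4 : n = 4 := by rw [hn, if_pos hp2]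
    have h2 : p ^ (d + 1) ≤ 4 := by rw [← hn4]; exact Nat.le_of_dvd hn0 h1
    have hd : d = 1 := by
      by_contra hne
      have h4 : p ^ 3 ≤ p ^ (d + 1) := Nat.pow_le_pow_right hp0 (by omega)
      rw [hp2] at h4 h2
      omega
    apply hcy T (hTU.trans hUQ) hcyc
    apply hinv T (hTU.trans hUQ)
    right
    rw [hTc, hp2, hd]
    norm_num
  rcases le_or_gt (Nat.card U) (p ^ (d + 1)) with hcase | hcase
  · obtain ⟨T, hUT, hTQ, hTc⟩ := exists_between hQ hUQ hQd hcase
    by_cases hcyc : IsCyclic T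
    · rcases le_or_gt (Nat.card U) (p ^ d) with hcase2 | hcase2
      · obtain ⟨E, hUE, hET, hEc⟩ := exists_between (hQ.to_le hTQ) hUT
          (by rw [hTc]; exact Nat.pow_le_pow_right hp0 (by omega)) hcase2
        have hEcyc : IsCyclic E := isCyclic_of_le hET
        exact hAUc (hcy2 U E hUE (hET.trans hTQ) hEcyc (hinv E (hET.trans hTQ) (Or.inl hEc)))
      · have hUT' : U = T := by
          apply eq_of_le_of_card_ge hUT
          obtain ⟨b, hb⟩ := IsPGroup.iff_card.mp (hQ.to_le hUQ)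
          rw [hb] at hcase2 ⊢
          rw [hTc]
          exact Nat.pow_le_pow_right hp0 ((Nat.pow_lt_pow_iff_right hp1).mp hcase2)
        have hUcyc : IsCyclic U := isCyclic_of_le hUT
        exact hAUc (hexc U le_rfl hUcyc (by rw [hUT']; exact hTc))
    · exact hAUc (centralizer_le hUT (hnc T hTQ hTc hcyc))
  · have hx : ∃ x ∈ U, x * g ≠ g * x := by
      by_contra hno
      push Not at hno
      exact hAUc (mem_centralizer_iff.mpr hno)
    obtain ⟨x, hxU, hxg⟩ := hx
    have hox : orderOf x ∣ n := orderOf_dvd_of_pow_eq_one (hUn x hxU)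
    have hxc : Nat.card (zpowers x) ≤ p ^ (d + 1) := by
      rw [Nat.card_zpowers]
      exact (Nat.le_of_dvd hn0 hox).trans hn3
    obtain ⟨T, hxT, hTU, hTc⟩ := exists_between (hQ.to_le hUQ) (by rw [zpowers_le]; exact hxU) hcase.le hxc
    rw [zpowers_le] at hxT
    by_cases hcyc : IsCyclic T
    · exact hxg (mem_centralizer_iff.mp (hexc T hTU hcyc hTc) x hxT)
    · exact hxg (mem_centralizer_iff.mp (hnc T (hTU.trans hUQ) hTc hcyc) x hxT)

/-- a group acting as a `p`-group on a nontrivial `p`-group has nontrivial fixed points. -/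
theorem inf_centralizer_ne_bot' {G : Type*} [Group G] [Finite G] {p : ℕ} [hp : Fact p.Prime] {N R : Subgroup G}
    (hN : IsPGroup p N) (hNne : N ≠ ⊥) (hRN : R ≤ normalizer (N : Set G))
    (hR : ∀ r ∈ R, ∃ k : ℕ, r ^ p ^ k ∈ centralizer (N : Set G)) : N ⊓ centralizer (R : Set G) ≠ ⊥ := by
  have : Nontrivial N := (Subgroup.nontrivial_iff_ne_bot N).mpr hNne
  have hdvd : p ∣ Nat.card N := by
    obtain ⟨n, hn0, hn⟩ := hN.nontrivial_iff_card.mp inferInstance
    exact hn.symm ▸ dvd_pow_self _ (ne_of_gt hn0)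
  let φ : R →* MulAut N := (N.normalizerMonoidHom).comp (inclusion hRN)
  have hφ : ∀ (r : R) (x : N), ((φ r x : N) : G) = r * x * (r : G)⁻¹ := fun r x => rfl
  have hpg : IsPGroup p φ.range := by
    rintro ⟨_, r, rfl⟩
    obtain ⟨k, hk⟩ := hR r r.2
    refine ⟨k, Subtype.ext ?_⟩
    change (φ r) ^ p ^ k = 1
    rw [← map_pow]
    ext x
    rw [hφ, Subgroup.coe_pow, ← mem_centralizer_iff.mp hk x x.2]
    simp
  have hfix1 : (1 : N) ∈ MulAction.fixedPoints φ.range N := by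
    rintro ⟨f, hf⟩
    exact map_one f
  obtain ⟨b, hb, hb1⟩ := hpg.exists_fixed_point_of_prime_dvd_card_of_fixed_point N hdvd hfix1
  intro hbot
  have hbmem : (b : G) ∈ N ⊓ centralizer (R : Set G) := by
    refine Subgroup.mem_inf.mpr ⟨b.2, Subgroup.mem_centralizer_iff.mpr ?_⟩
    intro x hx
    have h1 : φ ⟨x, hx⟩ b = b := hb ⟨φ ⟨x, hx⟩, ⟨x, hx⟩, rfl⟩
    have h2 : x * (b : G) * x⁻¹ = b := by
      rw [← hφ ⟨x, hx⟩ b, h1]
    calc x * (b : G) = (x * b * x⁻¹) * x := by group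
      _ = b * x := by rw [h2]
  rw [hbot, Subgroup.mem_bot] at hbmem
  exact hb1 (Subtype.ext hbmem.symm)


universe u

/-- A minimal normal `p`-subgroup on which `R` acts as a `p`-group, with `G/R` abelian of exponent dividing `p - 1`. -/
theorem isCyclic_of_minimal {G : Type*} [Group G] [Finite G] {p : ℕ} [hp : Fact p.Prime] {N R : Subgroup G}
    [hNn : N.Normal] (hN : IsPGroup p N) (hNne : N ≠ ⊥)
    (hNmin : ∀ K : Subgroup G, K.Normal → K ≤ N → K = ⊥ ∨ K = N)
    [hRn : R.Normal] (hcomm : ∀ g h : G, g * h * g⁻¹ * h⁻¹ ∈ R) (hpow : ∀ g : G, g ^ (p - 1) ∈ R)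
    (hR : ∀ r ∈ R, ∃ k : ℕ, r ^ p ^ k ∈ centralizer (N : Set G)) : IsCyclic N := by
  -- `R` centralizes `N`
  have hRC : R ≤ centralizer (N : Set G) := by
    have h1 := inf_centralizer_ne_bot' hN hNne le_normalizer_of_normal hR
    have h2 : (N ⊓ centralizer (R : Set G)).Normal := inferInstance
    rcases hNmin _ h2 inf_le_left with h3 | h3
    · exact absurd h3 h1
    · rw [inf_eq_left] at h3
      rw [le_centralizer_iff]
      exact h3
  have hsolv : Group.IsSolvable N := by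
    have := hN.isNilpotent
    infer_instance
  obtain ⟨hab, q, hq, hexp⟩ := Fitting.minimal_normal_solvable hNne hsolv hNmin
  -- q = p
  have hexp' : ∀ x ∈ N, x ^ p = 1 := by
    obtain ⟨⟨x, hx⟩, hx1'⟩ := (Subgroup.ne_bot_iff_exists_ne_one).mp hNne
    have hx1 : x ≠ 1 := fun h => hx1' (Subtype.ext h)
    have h1 : orderOf (x : G) = q := (hq.eq_one_or_self_of_dvd _ (orderOf_dvd_of_pow_eq_one (hexp _ hx))).resolve_left
      (fun h => hx1 (orderOf_eq_one_iff.mp h))
    obtain ⟨k, hk⟩ := hN ⟨x, hx⟩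
    have h2 : orderOf (x : G) ∣ p ^ k := orderOf_dvd_of_pow_eq_one (congrArg Subtype.val hk)
    have h3 : q = p := (Nat.prime_dvd_prime_iff_eq hq hp.out).mp (hq.dvd_of_dvd_pow (h1 ▸ h2))
    rw [← h3]; exact hexp
  have hcN : ∀ a ∈ N, ∀ b ∈ N, a * b = b * a := fun a ha b hb =>
    congrArg Subtype.val (hab.is_comm.comm ⟨a, ha⟩ ⟨b, hb⟩)
  -- every element of `G` acts as a power map
  have key : ∀ g : G, ∃ c : ℕ, ∀ x ∈ N, g * x * g⁻¹ = x ^ c := by
    intro g
    obtain ⟨c, x, hx, hx1, hgx⟩ := MaxPrimeIndex.exists_eigen hNne hab hexp'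
      (show g ∈ normalizer (N : Set G) from (le_normalizer_of_normal (H := N) (K := ⊤)) (mem_top g)) (hRC (hpow g))
    refine ⟨c, ?_⟩
    let V : Subgroup G :=
      { carrier := {x | x ∈ N ∧ g * x * g⁻¹ = x ^ c}
        one_mem' := ⟨one_mem _, by simp⟩
        mul_mem' := by
          rintro a b ⟨ha, ha2⟩ ⟨hb, hb2⟩
          refine ⟨mul_mem ha hb, ?_⟩
          have h1 : Commute a b := hcN a ha b hb
          rw [h1.mul_pow, ← ha2, ← hb2]; group
        inv_mem' := by
          rintro a ⟨ha, ha2⟩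
          refine ⟨inv_mem ha, ?_⟩
          rw [inv_pow, ← ha2]; group }
    have hV : V.Normal := by
      refine ⟨?_⟩
      rintro a ⟨ha, ha2⟩ h
      refine ⟨hNn.conj_mem a ha h, ?_⟩
      have h1 : (h⁻¹ * g * h * g⁻¹) ∈ R := by
        have := hcomm h⁻¹ g
        rwa [inv_inv] at this
      have h2 : g * a * g⁻¹ ∈ N := hNn.conj_mem a ha g
      have h3 := mem_centralizer_iff.mp (hRC h1) _ h2
      have h4 : h⁻¹ * g * h * g⁻¹ * (g * a * g⁻¹) * (h⁻¹ * g * h * g⁻¹)⁻¹ = g * a * g⁻¹ := by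
        rw [← h3]; group
      calc g * (h * a * h⁻¹) * g⁻¹ = h * (h⁻¹ * g * h * g⁻¹ * (g * a * g⁻¹) * (h⁻¹ * g * h * g⁻¹)⁻¹) * h⁻¹ := by group
        _ = h * (a ^ c) * h⁻¹ := by rw [h4, ha2]
        _ = (h * a * h⁻¹) ^ c := by rw [conj_pow]
    have hVN : V ≤ N := fun x hx => hx.1
    rcases hNmin V hV hVN with h1 | h1
    · exfalso
      have : x ∈ V := ⟨hx, hgx⟩
      rw [h1, mem_bot] at this
      exact hx1 this
    · intro y hy
      rw [← h1] at hy
      exact hy.2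
  obtain ⟨x, hx⟩ := (Subgroup.ne_bot_iff_exists_ne_one).mp hNne
  have hz : (zpowers (x : G)).Normal := by
    refine ⟨?_⟩
    intro y hy g
    obtain ⟨c, hc⟩ := key g
    obtain ⟨k, rfl⟩ := mem_zpowers_iff.mp hy
    have h1 : (x : G) ^ k ∈ N := zpow_mem x.2 k
    rw [hc _ h1]
    exact pow_mem hy c
  rcases hNmin _ hz (by rw [zpowers_le]; exact x.2) with h1 | h1
  · exfalso
    rw [zpowers_eq_bot] at h1
    exact hx (Subtype.ext h1)
  · rw [← h1]
    infer_instance

theorem supersolvable_of_residual_aux (n : ℕ) : ∀ (G : Type u) [Group G] [Finite G], Nat.card G = n →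
    ∀ (p : ℕ) [Fact p.Prime] (Q R : Subgroup G) [Q.Normal] [R.Normal], IsPGroup p Q → IsSupersolvable (G ⧸ Q) →
      (∀ g h : G, g * h * g⁻¹ * h⁻¹ ∈ R) → (∀ g : G, g ^ (p - 1) ∈ R) →
      (∀ r ∈ R, ∃ k : ℕ, r ^ p ^ k ∈ centralizer (Q : Set G)) → IsSupersolvable G := by
  induction n using Nat.strong_induction_on with
  | _ n ih =>
    intro G _ _ hn p hp Q R hQn hRn hQ hGQ hcomm hpow hR
    by_cases hQne : Q = ⊥
    · subst hQne
      exact isSupersolvable_of_mulEquiv QuotientGroup.quotientBot hGQ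
    have hne : ({N : Subgroup G | N.Normal ∧ N ≠ ⊥ ∧ N ≤ Q}).Nonempty := ⟨Q, hQn, hQne, le_rfl⟩
    obtain ⟨N, hN⟩ := (Set.toFinite {N : Subgroup G | N.Normal ∧ N ≠ ⊥ ∧ N ≤ Q}).exists_minimal hne
    obtain ⟨hNn, hNne, hNQ⟩ := hN.prop
    have hNmin : ∀ K : Subgroup G, K.Normal → K ≤ N → K = ⊥ ∨ K = N := by
      intro K hK hKN
      by_cases hb : K = ⊥
      · exact Or.inl hb
      · exact Or.inr (le_antisymm hKN (hN.le_of_le ⟨hK, hb, hKN.trans hNQ⟩ hKN))
    have hcyc : IsCyclic N := by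
      apply isCyclic_of_minimal (hQ.to_le hNQ) hNne hNmin hcomm hpow
      intro r hr
      obtain ⟨k, hk⟩ := hR r hr
      exact ⟨k, centralizer_le hNQ hk⟩
    have hlt : Nat.card (G ⧸ N) < n := by
      have h1 := Subgroup.card_mul_index N
      have h2 : 1 < Nat.card N := (Subgroup.one_lt_card_iff_ne_bot N).mpr hNne
      have h3 : Nat.card (G ⧸ N) = N.index := rfl
      have h4 : 0 < N.index := Nat.pos_of_ne_zero Subgroup.index_ne_zero_of_finite
      rw [h3, ← hn]
      nlinarith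
    have hsurj := QuotientGroup.mk'_surjective N
    have hQ' : (Q.map (QuotientGroup.mk' N)).Normal := hQn.map _ hsurj
    have hR' : (R.map (QuotientGroup.mk' N)).Normal := hRn.map _ hsurj
    have hss : IsSupersolvable (G ⧸ N) := by
      apply ih _ hlt (G ⧸ N) rfl p (Q.map (QuotientGroup.mk' N)) (R.map (QuotientGroup.mk' N)) (hQ.map _)
      · exact isSupersolvable_of_mulEquiv (QuotientGroup.quotientQuotientEquivQuotient N Q hNQ).symm hGQ
      · intro g h
        obtain ⟨g, rfl⟩ := hsurj g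
        obtain ⟨h, rfl⟩ := hsurj h
        exact ⟨_, hcomm g h, by simp⟩
      · intro g
        obtain ⟨g, rfl⟩ := hsurj g
        exact ⟨_, hpow g, by simp⟩
      · rintro _ ⟨r, hr, rfl⟩
        obtain ⟨k, hk⟩ := hR r hr
        refine ⟨k, ?_⟩
        rw [mem_centralizer_iff]
        rintro _ ⟨x, hx, rfl⟩
        rw [← map_pow, ← map_mul, ← map_mul, mem_centralizer_iff.mp hk x hx]
    exact isSupersolvable_of_cyclic_normal N hss

theorem exists_pow_coprime' (p : ℕ) [Fact p.Prime] {G : Type*} [Group G] [Finite G] (g : G) :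
    ∃ k : ℕ, Nat.Coprime (orderOf (g ^ p ^ k)) p := PNilp.exists_pow_coprime p g

/-- Theorem B. -/
theorem supersolvable_of_normal_subgroups {G : Type u} [Group G] [Finite G] {p : ℕ} [hp : Fact p.Prime]
    (Q : Subgroup G) [hQn : Q.Normal] (hQ : IsPGroup p Q) (hGQ : IsSupersolvable (G ⧸ Q))
    {d : ℕ} (hd1 : 1 ≤ d) (hdQ : p ^ d < Nat.card Q)
    (hinv : ∀ E : Subgroup G, E ≤ Q → (Nat.card E = p ^ d ∨ (p ^ d = 2 ∧ Nat.card E = 4)) → E.Normal) :
    IsSupersolvable G := by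
  have hRn := MaxPrimeIndex.unitsKer_normal p G
  apply supersolvable_of_residual_aux _ G rfl p Q (MaxPrimeIndex.unitsKer p G) hQ hGQ
    (fun g h => MaxPrimeIndex.commutator_mem_unitsKer g h) (fun g => MaxPrimeIndex.pow_mem_unitsKer g)
  intro r hr
  obtain ⟨k, hk⟩ := exists_pow_coprime' p r
  refine ⟨k, ?_⟩
  apply centralizes_of_invariant' (𝒢 := ⊤) hQ hk (mem_top _) le_normalizer_of_normal hd1 hdQ
  · intro M T hMT hTQ hi hT hM
    have hTn : T.Normal := normalizer_eq_top_iff.mp (top_le_iff.mp hT)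
    have hMn : M.Normal := normalizer_eq_top_iff.mp (top_le_iff.mp hM)
    exact MaxPrimeIndex.unitsKer_act (pow_mem hr _) hi
  · intro E hEQ hE
    have := hinv E hEQ hE
    exact le_normalizer_of_normal

end Cfsg.Agent.Lib.HSub
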