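import Cfsg.Agent.Lib.HSub2
import Cfsg.Agent.Lib.PConstraint

/-! Supersolvability from strongly closed subgroups of fixed order in the Sylow subgroups of a normal subgroup
(helper9). -/

set_option autoImplicit false
open scoped commutatorElement

namespace Cfsg.Agent.Lib.HSub

open Subgroup Cfsg Cfsg.Agent.Lib.ConjSylow Cfsg.Agent.Lib.PNilp Cfsg.Agent.Lib.Supersolvable

universe u

theorem relIndex_map_mk'_dvd {G : Type*} [Group G] (Q : Subgroup G) [Q.Normal] {N E : Subgroup G} (hQE : Q ≤ E) :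
    (N.map (QuotientGroup.mk' Q)).relIndex (E.map (QuotientGroup.mk' Q)) ∣ N.relIndex E := by
  rw [relIndex_map_map, QuotientGroup.ker_mk', sup_eq_left.mpr hQE]
  exact relIndex_dvd_of_le_left _ le_sup_left

theorem isSylowIn_map_mk' {G : Type*} [Group G] {p : ℕ} (Q : Subgroup G) [Q.Normal] {P E : Subgroup G} (hQE : Q ≤ E)
    (h : IsSylowIn p P E) : IsSylowIn p (P.map (QuotientGroup.mk' Q)) (E.map (QuotientGroup.mk' Q)) :=
  ⟨map_mono h.1, h.2.1.map _, fun hd => h.2.2 (hd.trans (relIndex_map_mk'_dvd Q hQE))⟩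

/-- the Sylow tower condition -/
def Tow {G : Type*} [Group G] (E : Subgroup G) : Prop :=
  ∀ r : ℕ, ∃ N : Subgroup G, N.Normal ∧ N ≤ E ∧ (∀ p : ℕ, p.Prime → p ∣ Nat.card N → r ≤ p) ∧
    (∀ p : ℕ, p.Prime → p ∣ N.relIndex E → p < r)

/-- the condition on the Sylow subgroups -/
def SylNorm {G : Type*} [Group G] (E : Subgroup G) : Prop :=
  ∀ p : ℕ, p.Prime → ∀ P : Subgroup G, IsSylowIn p P E → ¬ IsCyclic P → ∃ d : ℕ, 1 ≤ d ∧ p ^ d < Nat.card P ∧
    ∀ F : Subgroup G, F ≤ P → (Nat.card F = p ^ d ∨ (p ^ d = 2 ∧ Nat.card F = 4)) →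
      normalizer (P : Set G) ≤ normalizer (F : Set G)

theorem Tow.map {G : Type*} [Group G] [Finite G] (Q : Subgroup G) [Q.Normal] {E : Subgroup G} (hQE : Q ≤ E) (h : Tow E) :
    Tow (E.map (QuotientGroup.mk' Q)) := by
  intro r
  obtain ⟨N, hN1, hN2, hN3, hN4⟩ := h r
  refine ⟨N.map (QuotientGroup.mk' Q), hN1.map _ (QuotientGroup.mk'_surjective Q), map_mono hN2, ?_, ?_⟩
  · intro p hp hd
    exact hN3 p hp (hd.trans (card_map_dvd N _))
  · intro p hp hd
    exact hN4 p hp (hd.trans (relIndex_map_mk'_dvd Q hQE))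

theorem SylNorm.map {G : Type*} [Group G] [Finite G] (Q : Subgroup G) [hQn : Q.Normal] {E : Subgroup G} (hQE : Q ≤ E)
    (h : SylNorm E) {q : ℕ} (hq : q.Prime) (hQ : IsSylowIn q Q E) :
    SylNorm (E.map (QuotientGroup.mk' Q)) := by
  intro p hp P' hP' hcyc'
  have : Fact p.Prime := ⟨hp⟩
  have : Fact q.Prime := ⟨hq⟩
  by_cases hpq : p = q
  · exfalso
    subst hpq
    apply hcyc'
    have h1 : Nat.card P' = 1 := by
      have h2 := isSylowIn_map_mk' Q hQE hQ
      rw [hP'.card_eq h2]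
      have h3 : Q.map (QuotientGroup.mk' Q) = ⊥ := by
        rw [eq_bot_iff]
        rintro _ ⟨x, hx, rfl⟩
        rw [mem_bot]
        exact (QuotientGroup.eq_one_iff x).mpr hx
      rw [h3, card_bot]
    have : Subsingleton P' := (Nat.card_eq_one_iff_unique.mp h1).1
    infer_instance
  have hcop : ¬ p ∣ Nat.card Q := by
    obtain ⟨k, hk⟩ := IsPGroup.iff_card.mp hQ.isPGroup
    rw [hk]
    intro hd
    exact hpq ((Nat.prime_dvd_prime_iff_eq hp hq).mp (hp.dvd_of_dvd_pow hd))
  obtain ⟨P0, hP0⟩ := exists_isSylowIn p E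
  obtain ⟨e', he', hconj⟩ := (isSylowIn_map_mk' Q hQE hP0).exists_conj_eq hP'
  obtain ⟨e, he, rfl⟩ := he'
  -- `P` the conjugate of `P0`
  obtain ⟨P, hP, hPP'⟩ : ∃ P : Subgroup G, IsSylowIn p P E ∧ P.map (QuotientGroup.mk' Q) = P' := by
    have hEe : ∀ g ∈ E, E.map (MulAut.conj g).toMonoidHom = E := by
      intro g hg
      exact mem_normalizer_iff_conj.mp (le_normalizer hg)
    have hcm : ∀ (A : Subgroup G) (g : G), (A.map (MulAut.conj g).toMonoidHom).map (QuotientGroup.mk' Q) =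
        (A.map (QuotientGroup.mk' Q)).map (MulAut.conj (QuotientGroup.mk' Q g)).toMonoidHom := by
      intro A g
      rw [map_map, map_map]
      congr 1
    refine ⟨P0.map (MulAut.conj e⁻¹).toMonoidHom, ?_, ?_⟩
    · have := hP0.conj e⁻¹
      rwa [hEe e⁻¹ (inv_mem he)] at this
    · rw [hcm, ← hconj, map_inv, conj_inv_conj]
  have hinj : ∀ x ∈ P, ∀ y ∈ P, QuotientGroup.mk' Q x = QuotientGroup.mk' Q y → x = y := by
    intro x hx y hy hxy
    have h1 : x⁻¹ * y ∈ Q := QuotientGroup.eq.mp hxy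
    have h2 : x⁻¹ * y ∈ P := mul_mem (inv_mem hx) hy
    have h3 : P ⊓ Q = ⊥ := by
      apply inf_eq_bot_of_coprime
      obtain ⟨k, hk⟩ := IsPGroup.iff_card.mp hP.isPGroup
      rw [hk]
      exact Nat.Coprime.pow_left _ ((Nat.Prime.coprime_iff_not_dvd hp).mpr hcop)
    have h4 : x⁻¹ * y ∈ P ⊓ Q := ⟨h2, h1⟩
    rw [h3, mem_bot] at h4
    exact inv_mul_eq_one.mp h4
  have hcardF : ∀ F : Subgroup G, F ≤ P → Nat.card (F.map (QuotientGroup.mk' Q)) = Nat.card F := by
    intro F hF
    let φ : F →* F.map (QuotientGroup.mk' Q) := (QuotientGroup.mk' Q).subgroupMap F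
    symm
    apply Nat.card_congr
    apply Equiv.ofBijective φ
    refine ⟨?_, (QuotientGroup.mk' Q).subgroupMap_surjective F⟩
    intro x y hxy
    exact Subtype.ext (hinj x (hF x.2) y (hF y.2) (congrArg Subtype.val hxy))
  have hcyc : ¬ IsCyclic P := by
    intro hc
    apply hcyc'
    rw [← hPP']
    exact isCyclic_of_surjective ((QuotientGroup.mk' Q).subgroupMap P) ((QuotientGroup.mk' Q).subgroupMap_surjective P)
  obtain ⟨d, hd1, hd2, hd3⟩ := h p hp P hP hcyc
  refine ⟨d, hd1, ?_, ?_⟩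
  · rw [← hPP', hcardF P le_rfl]; exact hd2
  · intro F' hF' hFc
    set F : Subgroup G := F'.comap (QuotientGroup.mk' Q) ⊓ P with hF
    have hFP : F ≤ P := inf_le_right
    have hFF' : F.map (QuotientGroup.mk' Q) = F' := by
      apply le_antisymm
      · rintro _ ⟨x, hx, rfl⟩
        exact hx.1
      · intro x' hx'
        have h1 := hF' hx'
        rw [← hPP'] at h1
        obtain ⟨x, hx, rfl⟩ := h1
        exact ⟨x, ⟨hx', hx⟩, rfl⟩
    rw [← hFF', hcardF F hFP] at hFc
    have h1 := hd3 F hFP hFc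
    rw [← hPP', ← hFF', ← PConstraint.map_normalizer_eq hcop hP.isPGroup]
    exact (map_mono h1).trans (le_normalizer_map _)

theorem main_aux (n : ℕ) : ∀ (G : Type u) [Group G] [Finite G] (E : Subgroup G) [E.Normal], Nat.card E = n →
    IsSupersolvable (G ⧸ E) → Tow E → SylNorm E → IsSupersolvable G := by
  induction n using Nat.strong_induction_on with
  | _ n ih =>
    intro G _ _ E hEn hn hGE hT hS
    by_cases hE : E = ⊥
    · subst hE
      exact isSupersolvable_of_mulEquiv QuotientGroup.quotientBot hGE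
    have hE1 : 1 < Nat.card E := (Subgroup.one_lt_card_iff_ne_bot E).mpr hE
    -- the largest prime divisor
    have hne : (Nat.card E).primeFactors.Nonempty := Nat.nonempty_primeFactors.mpr hE1
    set q := (Nat.card E).primeFactors.max' hne with hqdef
    have hqmem := Finset.max'_mem _ hne
    rw [← hqdef, Nat.mem_primeFactors] at hqmem
    obtain ⟨hq, hqE, _⟩ := hqmem
    have hqmax : ∀ p : ℕ, p.Prime → p ∣ Nat.card E → p ≤ q := by
      intro p hp hpE
      exact Finset.le_max' _ _ (Nat.mem_primeFactors.mpr ⟨hp, hpE, Nat.card_pos.ne'⟩)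
    have : Fact q.Prime := ⟨hq⟩
    obtain ⟨Q, hQn, hQE, hQ3, hQ4⟩ := hT q
    have hQp : IsPGroup q Q := by
      rw [IsPGroup.iff_card]
      refine ⟨(Nat.card Q).primeFactorsList.length, Nat.eq_prime_pow_of_unique_prime_dvd Nat.card_pos.ne' ?_⟩
      intro p hp hpQ
      exact le_antisymm (hqmax p hp (hpQ.trans (card_dvd_of_le hQE))) (hQ3 p hp hpQ)
    have hQs : IsSylowIn q Q E := ⟨hQE, hQp, fun hd => lt_irrefl _ (hQ4 q hq hd)⟩
    have hQne : Q ≠ ⊥ := by
      intro h
      have := hQs.2.2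
      rw [h, relIndex_bot_left] at this
      exact this hqE
    -- the quotient
    have hlt : Nat.card (E.map (QuotientGroup.mk' Q)) < n := by
      have h1 : Nat.card (E.map (QuotientGroup.mk' Q)) = Q.relIndex E := by
        rw [← relIndex_ker, QuotientGroup.ker_mk']
      have h2 := Subgroup.relIndex_mul_relIndex ⊥ Q E bot_le hQE
      rw [relIndex_bot_left, relIndex_bot_left, hn] at h2
      have h3 : 1 < Nat.card Q := (Subgroup.one_lt_card_iff_ne_bot Q).mpr hQne
      have h4 : 0 < Q.relIndex E := by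
        rw [← h1]; exact Nat.card_pos
      rw [h1, ← h2]
      nlinarith
    have hE' : (E.map (QuotientGroup.mk' Q)).Normal := hEn.map _ (QuotientGroup.mk'_surjective Q)
    have hGQ : IsSupersolvable (G ⧸ Q) := by
      apply ih _ hlt (G ⧸ Q) (E.map (QuotientGroup.mk' Q)) rfl
      · exact isSupersolvable_of_mulEquiv (QuotientGroup.quotientQuotientEquivQuotient Q E hQE).symm hGE
      · exact hT.map Q hQE
      · exact hS.map Q hQE hq hQs
    by_cases hcyc : IsCyclic Q
    · exact isSupersolvable_of_cyclic_normal Q hGQ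
    obtain ⟨d, hd1, hd2, hd3⟩ := hS q hq Q hQs hcyc
    apply supersolvable_of_normal_subgroups Q hQp hGQ hd1 hd2
    intro F hFQ hFc
    have h1 := hd3 F hFQ hFc
    rw [normalizer_eq_top_iff.mpr hQn, top_le_iff] at h1
    exact normalizer_eq_top_iff.mp h1

/-- the hypothesis on the Sylow subgroups of `E` -/
def HProp {G : Type*} [Group G] (E : Subgroup G) : Prop :=
  ∀ (p : ℕ), p.Prime → ∀ P : Subgroup G, P ≤ E → IsPGroup p P → ¬ p ∣ P.relIndex E → ¬ IsCyclic ↥P →
      ∃ D : Subgroup G, D ≤ P ∧ 1 < Nat.card D ∧ Nat.card D < Nat.card P ∧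
        ∀ F : Subgroup G, F ≤ P → (Nat.card F = Nat.card D ∨ (Nat.card D = 2 ∧ Nat.card F = 4)) →
          ∀ g : G, F.map (MulAut.conj g).toMonoidHom ⊓ Subgroup.normalizer (F : Set G) ≤ F

theorem HProp.exists_d {G : Type*} [Group G] [Finite G] {E : Subgroup G} (h : HProp E) {p : ℕ} (hp : p.Prime)
    {P : Subgroup G} (hP : IsSylowIn p P E) (hcyc : ¬ IsCyclic P) :
    ∃ d : ℕ, 1 ≤ d ∧ p ^ d < Nat.card P ∧
      ∀ F : Subgroup G, F ≤ P → (Nat.card F = p ^ d ∨ (p ^ d = 2 ∧ Nat.card F = 4)) →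
        ∀ g : G, F.map (MulAut.conj g).toMonoidHom ⊓ Subgroup.normalizer (F : Set G) ≤ F := by
  have : Fact p.Prime := ⟨hp⟩
  obtain ⟨D, hDP, hD1, hD2, hD3⟩ := h p hp P hP.1 hP.2.1 hP.2.2 hcyc
  obtain ⟨d, hd⟩ := IsPGroup.iff_card.mp (hP.2.1.to_le hDP)
  rw [hd] at hD1 hD2 hD3
  refine ⟨d, ?_, hD2, hD3⟩
  rcases Nat.eq_zero_or_pos d with h | h
  · rw [h, pow_zero] at hD1
    exact absurd hD1 (lt_irrefl _)
  · exact h

theorem HProp.sylNorm {G : Type*} [Group G] [Finite G] {E : Subgroup G} (h : HProp E) : SylNorm E := by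
  intro p hp P hP hcyc
  have : Fact p.Prime := ⟨hp⟩
  obtain ⟨d, hd1, hd2, hd3⟩ := h.exists_d hp hP hcyc
  refine ⟨d, hd1, hd2, ?_⟩
  intro F hFP hFc g hg
  apply mem_normalizer_of_forall
  intro x hx
  exact strongly_closed_of_hsub hP.2.1 hFP (hd3 F hFP hFc) hx ((mem_normalizer_iff.mp hg x).mp (hFP hx))

theorem HProp.step {G : Type u} [Group G] [Finite G] {E : Subgroup G} (h : HProp E) {r : ℕ} (hr : r.Prime)
    {N : Subgroup G} (hNE : N ≤ E) (hN3 : ∀ p : ℕ, p.Prime → p ∣ Nat.card N → r ≤ p)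
    (hN4 : ∀ p : ℕ, p.Prime → p ∣ N.relIndex E → p < r) (hrN : r ∣ Nat.card N) : HasNormalPComplement r N := by
  have : Fact r.Prime := ⟨hr⟩
  obtain ⟨P⟩ : Nonempty (Sylow r N) := inferInstance
  set P0 : Subgroup G := (P : Subgroup N).map N.subtype with hP0
  have hP0N : IsSylowIn r P0 N := isSylowIn_of_sylow P
  have hP0E : IsSylowIn r P0 E := by
    refine ⟨hP0N.1.trans hNE, hP0N.2.1, ?_⟩
    rw [← relIndex_mul_relIndex P0 N E hP0N.1 hNE]
    intro hd
    rcases (Nat.Prime.dvd_mul hr).mp hd with h1 | h1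
    · exact hP0N.2.2 h1
    · exact lt_irrefl _ (hN4 r hr h1)
  let e : (P : Subgroup N) ≃* P0 := (P : Subgroup N).equivMapOfInjective N.subtype N.subtype_injective
  by_cases hcyc : IsCyclic P0
  · have h1 : (Nat.card N).minFac = r := by
      apply le_antisymm (Nat.minFac_le_of_dvd hr.two_le hrN)
      exact hN3 _ (Nat.minFac_prime (fun h => hr.one_lt.ne' (Nat.dvd_one.mp (h ▸ hrN)))) (Nat.minFac_dvd _)
    have h2 : IsCyclic (P : Subgroup N) := isCyclic_of_surjective e.symm e.symm.surjective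
    exact ⟨P, _, inferInstance, IsCyclic.isComplement' h1 h2⟩
  · obtain ⟨d, hd1, hd2, hd3⟩ := h.exists_d hr hP0E hcyc
    rw [← Nat.card_congr e.toEquiv] at hd2
    apply hasNormalPComplement_of_hsub hN3 P hd1 hd2
    intro F hFP hFc g
    have hc : Nat.card (F.map N.subtype) = Nat.card F := card_map_of_injective N.subtype_injective
    have h1 := hd3 (F.map N.subtype) (map_mono hFP) (by rw [hc]; exact hFc) g
    rintro x ⟨⟨y, hy, hyx⟩, hx2⟩
    have h2 : (x : G) ∈ F.map N.subtype := by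
      apply h1
      refine ⟨⟨(y : G), ⟨y, hy, rfl⟩, congrArg Subtype.val hyx⟩, ?_⟩
      apply mem_normalizer_of_forall
      rintro _ ⟨z, hz, rfl⟩
      exact ⟨x * z * x⁻¹, (mem_normalizer_iff.mp hx2 z).mp hz, rfl⟩
    obtain ⟨z, hz, hzx⟩ := h2
    have : z = x := Subtype.ext hzx
    rwa [← this]

theorem HProp.tow {G : Type u} [Group G] [Finite G] {E : Subgroup G} [hE : E.Normal] (h : HProp E) : Tow E := by
  intro r
  induction r with
  | zero =>
    refine ⟨E, hE, le_rfl, fun p _ _ => Nat.zero_le _, ?_⟩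
    intro p hp hd
    rw [relIndex_self] at hd
    exact absurd (Nat.dvd_one.mp hd) hp.one_lt.ne'
  | succ r ih =>
    obtain ⟨N, hNn, hNE, hN3, hN4⟩ := ih
    by_cases hr : r.Prime ∧ r ∣ Nat.card N
    · obtain ⟨hr, hrN⟩ := hr
      have : Fact r.Prime := ⟨hr⟩
      have hnpc := h.step hr hNE hN3 hN4 hrN
      rw [hasNormalPComplement_iff_pResidual] at hnpc
      have hch := pResidual_characteristic (G := N) r
      obtain ⟨k, hk⟩ := pResidual_index (G := N) r
      have hle : (pResidual r N).map N.subtype ≤ N := map_subtype_le _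
      have hc : Nat.card ((pResidual r N).map N.subtype) = Nat.card (pResidual r N) :=
        card_map_of_injective N.subtype_injective
      have hrel : ((pResidual r N).map N.subtype).relIndex N = r ^ k := by
        rw [Subgroup.relIndex, Subgroup.subgroupOf, Subgroup.comap_map_eq_self_of_injective N.subtype_injective]
        exact hk
      refine ⟨(pResidual r N).map N.subtype, inferInstance, hle.trans hNE, ?_, ?_⟩
      · intro p hp hd
        rw [hc] at hd
        have h1 := hN3 p hp (hd.trans (card_subgroup_dvd_card _))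
        rcases h1.lt_or_eq with h2 | h2
        · exact h2
        · exact absurd (h2 ▸ hd) hnpc
      · intro p hp hd
        rw [← relIndex_mul_relIndex _ N E hle hNE, hrel] at hd
        rcases (Nat.Prime.dvd_mul hp).mp hd with h1 | h1
        · have := (Nat.prime_dvd_prime_iff_eq hp hr).mp (hp.dvd_of_dvd_pow h1)
          omega
        · have := hN4 p hp h1
          omega
    · refine ⟨N, hNn, hNE, ?_, ?_⟩
      · intro p hp hd
        have h1 := hN3 p hp hd
        rcases h1.lt_or_eq with h2 | h2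
        · exact h2
        · exact absurd ⟨h2 ▸ hp, h2 ▸ hd⟩ hr
      · intro p hp hd
        have := hN4 p hp hd
        omega

theorem supersolvable_of_hprop {G : Type u} [Group G] [Finite G] (E : Subgroup G) [E.Normal]
    (hGE : IsSupersolvable (G ⧸ E)) (h : HProp E) : IsSupersolvable G :=
  main_aux _ G E rfl hGE h.tow h.sylNorm

end Cfsg.Agent.Lib.HSub
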