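import Mathlib
import Cfsg.Prelude.Def_LocalEven
import Cfsg.Agent.Lib.LocBase
import Cfsg.Agent.Lib.CoprimeAction
import Cfsg.Agent.Lib.Layer

/-!
# Primitive subgroups and primitive pairs (helper62)
-/

set_option autoImplicit false

namespace Cfsg.Agent.Lib.PrimSub

open Subgroup Cfsg
open Cfsg.Agent.Lib.LocBase

/-- A `p`-group normalizing a subgroup `N` of order divisible by `p` centralizes a nontrivial element of `N`. -/
theorem inf_centralizer_ne_bot {G : Type*} [Group G] [Finite G] {p : ℕ} [hp : Fact p.Prime] {S A : Subgroup G}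
    (hS : IsPGroup p S) (hdvd : p ∣ Nat.card A) (hSA : S ≤ Subgroup.normalizer (A : Set G)) :
    A ⊓ Subgroup.centralizer (S : Set G) ≠ ⊥ := by
  letI act : MulAction S A :=
    { smul := fun s a => ⟨(s : G) * a * (s : G)⁻¹, (Subgroup.mem_normalizer_iff.1 (hSA s.2) a).1 a.2⟩
      one_smul := fun a => Subtype.ext (by change (1 : G) * a * (1 : G)⁻¹ = a; simp)
      mul_smul := fun s t a => Subtype.ext (by
        change ((s : G) * t) * a * ((s : G) * t)⁻¹ = s * (t * a * (t : G)⁻¹) * (s : G)⁻¹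
        group) }
  have hsmul : ∀ (s : S) (a : A), ((s • a : A) : G) = (s : G) * a * (s : G)⁻¹ := fun _ _ => rfl
  have h1 : (1 : A) ∈ MulAction.fixedPoints S A := by
    intro s
    apply Subtype.ext
    rw [hsmul]; simp
  obtain ⟨b, hb, hb1⟩ := hS.exists_fixed_point_of_prime_dvd_card_of_fixed_point A hdvd h1
  intro h
  have h2 : (b : G) ∈ A ⊓ Subgroup.centralizer (S : Set G) := by
    refine ⟨b.2, Subgroup.mem_centralizer_iff.2 fun s hs => ?_⟩
    have := congrArg Subtype.val (hb ⟨s, hs⟩)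
    rw [hsmul] at this
    rwa [mul_inv_eq_iff_eq_mul] at this
  rw [h, Subgroup.mem_bot] at h2
  exact hb1 (Subtype.ext h2.symm)

end Cfsg.Agent.Lib.PrimSub
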