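import Mathlib
import Cfsg.Prelude.Def_Solvable
import Cfsg.Prelude.Def_Transfer
import Cfsg.Prelude.Def_CaseTheorems
import Cfsg.Agent.Lib.Cores2
import Cfsg.Agent.Lib.Transfer
import Cfsg.Agent.Lib.FrobAction2
import Cfsg.Agent.Lib.FrobAction3
import Cfsg.Agent.S0028
import Cfsg.Agent.Lib.PrimSub

/-!
Solvable groups without odd core whose involution centralizers are 2-nilpotent (helper17).
-/

set_option autoImplicit false
open Cfsg Subgroup
open scoped commutatorElement

namespace Cfsg.Agent.Lib.HallTwoNil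

universe u
variable {H : Type u} [Group H] [Finite H]

/-- In a group with `2`-nilpotent involution centralizers an odd-order element commuting with an
involution `t` centralizes `C_Y(t)` for each normal `2`-subgroup `Y`. -/
theorem cent_of_inv (hI : ∀ t : H, orderOf t = 2 → HasNormalPComplement 2 ↥(centralizer ({t} : Set H)))
    {Y : Subgroup H} (hY : Y.Normal) (hY2 : IsPGroup 2 Y) {t x : H} (ht : orderOf t = 2)
    (hx : Odd (orderOf x)) (htx : x * t = t * x) {y : H} (hy : y ∈ Y) (hyt : y * t = t * y) :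
    x * y = y * x := by
  have : Fact (Nat.Prime 2) := ⟨Nat.prime_two⟩
  set C := centralizer ({t} : Set H) with hC
  have hxC : x ∈ C := mem_centralizer_singleton_iff.2 htx
  have hyC : y ∈ C := mem_centralizer_singleton_iff.2 hyt
  have h1 := Lib.Transfer.mem_centralizer_of_hasNormalPComplement (hI t ht) (Y.subgroupOf C)
    (hY2.comap_of_injective C.subtype C.subtype_injective) ⟨x, hxC⟩ ?_ ?_
  · have h2 := mem_centralizer_iff.1 h1 ⟨y, hyC⟩ (mem_subgroupOf.2 hy)
    exact (congrArg Subtype.val h2).symm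
  · rw [normalizer_eq_top (Y.subgroupOf C)]; exact mem_top _
  · rw [Subgroup.orderOf_mk]
    exact Nat.Coprime.symm (Nat.coprime_two_left.2 hx)

theorem fpf [Group.IsSolvable H] (hO : oddCore H = ⊥)
    (hI : ∀ t : H, orderOf t = 2 → HasNormalPComplement 2 ↥(centralizer ({t} : Set H)))
    {x : H} (hx : Odd (orderOf x)) (hx1 : x ≠ 1) {y : H} (hy : y ∈ pCore 2 H) (hy1 : y ≠ 1) :
    x * y ≠ y * x := by
  have : Fact (Nat.Prime 2) := ⟨Nat.prime_two⟩
  intro hxy
  have hY2 : IsPGroup 2 (pCore 2 H) := Lib.Cores.isPGroup_pCore 2 H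
  -- an involution of `⟨y⟩`
  obtain ⟨t, ht, htz⟩ : ∃ t : H, orderOf t = 2 ∧ t ∈ zpowers y := by
    have h1 : IsPGroup 2 (zpowers y) := hY2.to_le (zpowers_le.2 hy)
    have h2 : 2 ∣ Nat.card (zpowers y) := by
      obtain ⟨n, hn⟩ := IsPGroup.iff_card.1 h1
      rw [hn]
      refine dvd_pow_self 2 ?_
      rintro rfl
      rw [pow_zero, Nat.card_zpowers] at hn
      exact hy1 (orderOf_eq_one_iff.1 hn)
    obtain ⟨t, ht⟩ := exists_prime_orderOf_dvd_card' 2 h2
    exact ⟨t, by rw [Subgroup.orderOf_coe]; exact ht, t.2⟩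
  have hxt : x * t = t * x := by
    obtain ⟨k, rfl⟩ := mem_zpowers_iff.1 htz
    exact (Commute.zpow_right (show Commute x y from hxy) k)
  have htY : t ∈ pCore 2 H := zpowers_le.2 hy htz
  have hcop : (Nat.card (zpowers x)).Coprime 2 := by
    rw [Nat.card_zpowers]; exact (Nat.coprime_two_left.2 hx).symm
  have h3 := Cfsg.Agent.S0028.result 2 (zpowers t) (zpowers x) (pCore 2 H)
    (hY2.to_le (zpowers_le.2 htY)) hcop hY2 ?_ ?_ ?_ ?_
  · have h4 := (h3.trans (Lib.Cores.centralizer_pCore_le hO)) (mem_zpowers x)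
    -- `x` has odd order and lies in a 2-group
    obtain ⟨k, hk⟩ := (IsPGroup.iff_orderOf.1 hY2) ⟨x, h4⟩
    rw [Subgroup.orderOf_mk] at hk
    rw [hk] at hx
    rcases Nat.eq_zero_or_pos k with rfl | hk0
    · rw [pow_zero] at hk; exact hx1 (orderOf_eq_one_iff.1 hk)
    · exact (Nat.not_odd_iff_even.2 ((Nat.even_pow.2 ⟨even_two, hk0.ne'⟩))) hx
  · rw [zpowers_le, mem_centralizer_iff]
    intro h hh
    obtain ⟨k, rfl⟩ := mem_zpowers_iff.1 hh
    exact ((Commute.zpow_left (show Commute x t from hxt) k))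
  · rw [normalizer_eq_top (pCore 2 H)]; exact le_top
  · rw [normalizer_eq_top (pCore 2 H)]; exact le_top
  · rintro v ⟨hv, hvc⟩
    have hvt : v * t = t * v := ((mem_centralizer_iff.1 hvc) t (mem_zpowers t)).symm
    rw [mem_centralizer_iff]
    intro h hh
    obtain ⟨k, rfl⟩ := mem_zpowers_iff.1 hh
    exact (Commute.zpow_left (show Commute x v from cent_of_inv hI inferInstance hY2 ht hx hxt hv hvt) k)

theorem isZGroup [Group.IsSolvable H] (hO : oddCore H = ⊥)
    (hI : ∀ t : H, orderOf t = 2 → HasNormalPComplement 2 ↥(centralizer ({t} : Set H)))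
    {X : Subgroup H} (hX : Odd (Nat.card X)) : IsZGroup X := by
  have : Fact (Nat.Prime 2) := ⟨Nat.prime_two⟩
  rcases eq_or_ne X ⊥ with rfl | hX1
  · infer_instance
  have hY2 : IsPGroup 2 (pCore 2 H) := Lib.Cores.isPGroup_pCore 2 H
  have hY1 : pCore 2 H ≠ ⊥ := by
    intro h
    have h1 := Lib.Cores.centralizer_pCore_le (G := H) (p := 2) hO
    rw [h] at h1
    have h2 : centralizer ((⊥ : Subgroup H) : Set H) = ⊤ := by
      rw [eq_top_iff]
      intro g _
      rw [mem_centralizer_iff]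
      intro k hk
      rw [SetLike.mem_coe, mem_bot] at hk
      rw [hk, one_mul, mul_one]
    rw [h2] at h1
    exact hX1 (eq_bot_iff.2 (le_top.trans h1))
  have hnt : Nontrivial (pCore 2 H) := (Subgroup.nontrivial_iff_ne_bot _).2 hY1
  have hZ : Nontrivial (center (pCore 2 H)) := hY2.center_nontrivial
  set V : Subgroup H := (center (pCore 2 H)).map (pCore 2 H).subtype with hV
  have hVn : V.Normal := Lib.Cores.normal_map_subtype_of_characteristic (center (pCore 2 H))
  have hVY : V ≤ pCore 2 H := map_subtype_le _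
  have hV1 : Nontrivial V := by
    rw [Subgroup.nontrivial_iff_ne_bot]
    intro h
    rw [hV, Subgroup.map_eq_bot_iff_of_injective _ (pCore 2 H).subtype_injective] at h
    exact (Subgroup.nontrivial_iff_ne_bot _).1 hZ h
  let _ : CommGroup V := { (inferInstance : Group V) with
    mul_comm := by
      rintro ⟨a, ha⟩ ⟨b, hb⟩
      obtain ⟨a', ha', rfl⟩ := ha
      obtain ⟨b', hb', rfl⟩ := hb
      apply Subtype.ext
      change (a' : H) * b' = b' * a'
      exact congrArg Subtype.val ((mem_center_iff.1 ha' b').symm) }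
  have hXV : X ≤ normalizer (V : Set H) := by rw [normalizer_eq_top V]; exact le_top
  refine Lib.FrobAction3.isZGroup_of_odd (act := Lib.FrobAction2.conjAct hXV) ?_ ?_
  · apply Lib.FrobAction2.isFPF_conjAct
    intro a ha ha1
    rw [eq_bot_iff]
    rintro v ⟨hv, hvc⟩
    rw [mem_bot]
    by_contra hv1
    refine fpf hO hI ?_ ha1 (hVY hv) hv1 (mem_centralizer_singleton_iff.1 hvc).symm
    exact Odd.of_dvd_nat hX (by rw [← Subgroup.orderOf_mk a ha]; exact orderOf_dvd_natCard _)
  · exact fun h => (Nat.not_even_iff_odd.2 hX) (even_iff_two_dvd.2 h)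

/-- `C_Y(u)` is nontrivial. -/
theorem exists_fixed {Y : Subgroup H} (hY : Y.Normal) (hY2 : IsPGroup 2 Y) (hY1 : Y ≠ ⊥) {u : H}
    (hu : orderOf u = 2) : ∃ y ∈ Y, y ≠ 1 ∧ y * u = u * y := by
  have : Fact (Nat.Prime 2) := ⟨Nat.prime_two⟩
  have h2 : IsPGroup 2 (zpowers u) := by
    apply IsPGroup.of_card (n := 1)
    rw [Nat.card_zpowers, hu, pow_one]
  have hdvd : 2 ∣ Nat.card Y := by
    obtain ⟨n, hn⟩ := IsPGroup.iff_card.1 hY2
    rw [hn]
    refine dvd_pow_self 2 ?_
    rintro rfl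
    rw [pow_zero] at hn
    exact hY1 (Subgroup.card_eq_one.1 hn)
  have h := Lib.PrimSub.inf_centralizer_ne_bot (S := zpowers u) (A := Y) h2 hdvd
    (by rw [normalizer_eq_top Y]; exact le_top)
  obtain ⟨y, hy1⟩ := Subgroup.ne_bot_iff_exists_ne_one.1 h
  refine ⟨y, y.2.1, fun h => hy1 (Subtype.ext h), ?_⟩
  exact (mem_centralizer_iff.1 y.2.2 u (mem_zpowers u)).symm

/-- In `Q = H/O_2(H)`: the commutator subgroup lies in the image of `X`. -/
theorem commutator_le [Group.IsSolvable H] (hO : oddCore H = ⊥)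
    (hI : ∀ t : H, orderOf t = 2 → HasNormalPComplement 2 ↥(centralizer ({t} : Set H)))
    {X : Subgroup H} (hX : Odd (Nat.card X)) (hXidx : ∃ k : ℕ, X.index = 2 ^ k) :
    commutator (H ⧸ pCore 2 H) ≤ X.map (QuotientGroup.mk' (pCore 2 H)) := by
  have : Fact (Nat.Prime 2) := ⟨Nat.prime_two⟩
  set Q := H ⧸ pCore 2 H with hQ
  set F := fittingSubgroup Q with hF
  have hFn : F.Normal := by rw [hF]; infer_instance
  have hFnil : Group.IsNilpotent F := Lib.Cores.isNilpotent_fittingSubgroup Q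
  have hFodd : Odd (Nat.card F) := by
    have h1 := Lib.Cores.coprime_index_pCore_fitProd (G := Q) ⟨2, Nat.prime_two⟩
    rw [← Lib.Cores.fittingSubgroup_eq_fitProd] at h1
    have h2 : pCore 2 Q = ⊥ := Lib.Cores.pCore_quotient_pCore 2 H
    simp only [h2, Subgroup.relIndex_bot_left] at h1
    exact (Nat.coprime_two_left.1 h1.symm)
  set X' := X.map (QuotientGroup.mk' (pCore 2 H)) with hX'
  have hX'odd : Odd (Nat.card X') := Odd.of_dvd_nat hX (Lib.Cores.card_map_dvd' X _)
  have hX'idx : ∃ k : ℕ, X'.index = 2 ^ k := by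
    obtain ⟨k, hk⟩ := hXidx
    have h1 : X'.index ∣ 2 ^ k := by
      rw [← hk]
      exact Subgroup.index_map_dvd X (QuotientGroup.mk'_surjective _)
    obtain ⟨j, _, hj⟩ := (Nat.dvd_prime_pow Nat.prime_two).1 h1
    exact ⟨j, hj⟩
  have hFX : F ≤ X' := by
    have h1 : X'.relIndex (X' ⊔ F) ∣ X'.index := relIndex_dvd_index_of_le le_sup_left
    have h2 : X'.relIndex (X' ⊔ F) ∣ Nat.card ↥(X' ⊔ F) := by
      rw [← Lib.Cores.card_mul_relIndex (le_sup_left : X' ≤ X' ⊔ F)]; exact dvd_mul_left _ _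
    have h3 : Odd (Nat.card ↥(X' ⊔ F)) :=
      Odd.of_dvd_nat (hX'odd.mul hFodd) (Lib.Cores.card_sup_dvd X' F)
    have h4 : X'.relIndex (X' ⊔ F) = 1 := by
      obtain ⟨k, hk⟩ := hX'idx
      rw [hk] at h1
      obtain ⟨j, _, hj⟩ := (Nat.dvd_prime_pow Nat.prime_two).1 h1
      have h5 : Odd (2 ^ j) := by rw [← hj]; exact Odd.of_dvd_nat h3 h2
      rcases Nat.eq_zero_or_pos j with rfl | hj0
      · rw [hj, pow_zero]
      · exact absurd (Nat.even_pow.2 ⟨even_two, hj0.ne'⟩) (Nat.not_even_iff_odd.2 h5)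
    rw [Subgroup.relIndex_eq_one] at h4
    exact le_sup_right.trans h4
  have hZX : IsZGroup X := isZGroup hO hI hX
  have hZX' : IsZGroup X' := by
    refine IsZGroup.of_surjective (f := (QuotientGroup.mk' (pCore 2 H)).subgroupMap X) ?_
    exact MonoidHom.subgroupMap_surjective _ _
  have hZF : IsZGroup F := IsZGroup.of_injective (f := Subgroup.inclusion hFX) (inclusion_injective hFX)
  have hcF : IsCyclic F := inferInstance
  refine le_trans ?_ hFX
  refine le_trans ?_ (Lib.Cores.centralizer_fittingSubgroup_le (G := Q))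
  rw [_root_.commutator, Subgroup.commutator_le]
  intro g _ h _
  have hcomm : ∀ a b : MulAut F, a * b = b * a := by
    intro a b
    apply (IsCyclic.mulAutMulEquiv F).injective
    rw [map_mul, map_mul, mul_comm]
  have h1 : MulAut.conjNormal (H := F) ⁅g, h⁆ = 1 := by
    rw [map_commutatorElement, commutatorElement_eq_one_iff_mul_comm]
    exact hcomm _ _
  rw [mem_centralizer_iff]
  intro f hf
  have h2 := congrArg (fun e : MulAut F => ((e ⟨f, hf⟩ : F) : Q)) h1
  simp only [MulAut.conjNormal_apply, MulAut.one_apply] at h2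
  rw [mul_inv_eq_iff_eq_mul] at h2
  exact h2.symm

theorem sup_normal [Group.IsSolvable H] (hO : oddCore H = ⊥)
    (hI : ∀ t : H, orderOf t = 2 → HasNormalPComplement 2 ↥(centralizer ({t} : Set H)))
    {X : Subgroup H} (hX : Odd (Nat.card X)) (hXidx : ∃ k : ℕ, X.index = 2 ^ k) :
    (X ⊔ pCore 2 H).Normal := by
  have h1 := Subgroup.Normal.of_commutator_le _ (commutator_le hO hI hX hXidx)
  have h2 : X ⊔ pCore 2 H = (X.map (QuotientGroup.mk' (pCore 2 H))).comap (QuotientGroup.mk' (pCore 2 H)) := by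
    rw [Subgroup.comap_map_eq, QuotientGroup.ker_mk']
  rw [h2]
  exact h1.comap _

/-- The cyclicity of the quotient. -/
theorem cyclic_quot [Group.IsSolvable H] (hO : oddCore H = ⊥)
    (hI : ∀ t : H, orderOf t = 2 → HasNormalPComplement 2 ↥(centralizer ({t} : Set H)))
    {X : Subgroup H} (hX : Odd (Nat.card X)) (hXidx : ∃ k : ℕ, X.index = 2 ^ k)
    (hN : (X ⊔ pCore 2 H).Normal) :
    IsCyclic (H ⧸ (X ⊔ pCore 2 H)) ∧ IsPGroup 2 (H ⧸ (X ⊔ pCore 2 H)) := by
  have : Fact (Nat.Prime 2) := ⟨Nat.prime_two⟩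
  set N := X ⊔ pCore 2 H with hNdef
  obtain ⟨k, hk⟩ := hXidx
  have hNidx : ∃ j, N.index = 2 ^ j := by
    have h1 : N.index ∣ 2 ^ k := by rw [← hk]; exact Subgroup.index_dvd_of_le le_sup_left
    obtain ⟨j, _, hj⟩ := (Nat.dvd_prime_pow Nat.prime_two).1 h1
    exact ⟨j, hj⟩
  have h2 : IsPGroup 2 (H ⧸ N) := by
    obtain ⟨j, hj⟩ := hNidx
    exact IsPGroup.of_card (n := j) hj
  refine ⟨?_, h2⟩
  have hY2 : IsPGroup 2 (pCore 2 H) := Lib.Cores.isPGroup_pCore 2 H
  rcases eq_or_ne X ⊥ with hX1 | hX1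
  · -- `H` is a 2-group
    have hH : IsPGroup 2 H := by
      apply IsPGroup.of_card (n := k)
      rw [← hk, hX1, Subgroup.index_bot]
    have hY : pCore 2 H = ⊤ := Lib.Cores.pCore_eq_top_iff.2 hH
    have hNt : N = ⊤ := by rw [hNdef, hY, sup_top_eq]
    have : Subsingleton (H ⧸ N) := by rw [hNt]; exact QuotientGroup.subsingleton_quotient_top
    infer_instance
  -- a prime `p` dividing `|X|`
  have hX1' : Nat.card X ≠ 1 := fun h => hX1 (Subgroup.card_eq_one.1 h)
  obtain ⟨p, hp, hpX⟩ := Nat.exists_prime_and_dvd hX1'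
  have : Fact p.Prime := ⟨hp⟩
  have hp2 : p ≠ 2 := by rintro rfl; exact (Nat.not_even_iff_odd.2 hX) (even_iff_two_dvd.2 hpX)
  obtain ⟨P⟩ : Nonempty (Sylow p H) := inferInstance
  have hcop2p : ∀ j, Nat.Coprime p (2 ^ j) := fun j =>
    Nat.Coprime.pow_right j ((Nat.coprime_primes hp Nat.prime_two).2 hp2)
  have hPN : (P : Subgroup H) ≤ N := by
    -- the image of `P` in the 2-group `H/N` is trivial
    intro g hg
    obtain ⟨a, ha⟩ := (IsPGroup.iff_orderOf.1 P.2) ⟨g, hg⟩
    rw [Subgroup.orderOf_mk] at ha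
    obtain ⟨j, hj⟩ := hNidx
    have h3 : orderOf (QuotientGroup.mk' N g) ∣ p ^ a := by rw [← ha]; exact orderOf_map_dvd _ _
    have h4 : orderOf (QuotientGroup.mk' N g) ∣ 2 ^ j := by
      rw [← hj]; exact orderOf_dvd_natCard _
    have h5 : orderOf (QuotientGroup.mk' N g) = 1 :=
      Nat.eq_one_of_dvd_coprimes (Nat.Coprime.pow_left a (hcop2p j)) h3 h4
    rw [orderOf_eq_one_iff] at h5
    exact (QuotientGroup.eq_one_iff g).1 h5
  have hP1 : (P : Subgroup H) ≠ ⊥ := by
    apply P.ne_bot_of_dvd_card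
    exact hpX.trans (Subgroup.card_subgroup_dvd_card X)
  -- `P` is cyclic
  have hPc : IsCyclic P := by
    have hZX : IsZGroup X := isZGroup hO hI hX
    have hZX' : IsZGroup (X.map (QuotientGroup.mk' (pCore 2 H))) := by
      refine IsZGroup.of_surjective (f := (QuotientGroup.mk' (pCore 2 H)).subgroupMap X) ?_
      exact MonoidHom.subgroupMap_surjective _ _
    have hmem : ∀ g : P, QuotientGroup.mk' (pCore 2 H) (g : H) ∈ X.map (QuotientGroup.mk' (pCore 2 H)) := by
      intro g
      have h3 := hPN g.2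
      have h4 : N = (X.map (QuotientGroup.mk' (pCore 2 H))).comap (QuotientGroup.mk' (pCore 2 H)) := by
        rw [Subgroup.comap_map_eq, QuotientGroup.ker_mk']
      rw [h4] at h3
      exact h3
    let f : P →* X.map (QuotientGroup.mk' (pCore 2 H)) :=
      ((QuotientGroup.mk' (pCore 2 H)).comp (P : Subgroup H).subtype).codRestrict _ hmem
    have hf : Function.Injective f := by
      rw [injective_iff_map_eq_one]
      intro g hg
      have h5 : QuotientGroup.mk' (pCore 2 H) (g : H) = 1 := congrArg Subtype.val hg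
      have h6 : (g : H) ∈ pCore 2 H := (QuotientGroup.eq_one_iff (g : H)).1 h5
      obtain ⟨a, ha⟩ := (IsPGroup.iff_orderOf.1 P.2) g
      obtain ⟨b, hb⟩ := (IsPGroup.iff_orderOf.1 hY2) ⟨(g : H), h6⟩
      rw [Subgroup.orderOf_mk] at hb
      have h7 : orderOf (g : H) = orderOf g := Subgroup.orderOf_coe g
      have h8 : orderOf g = 1 := by
        refine Nat.eq_one_of_dvd_coprimes (Nat.Coprime.pow_left a (hcop2p b)) (dvd_of_eq ha) (dvd_of_eq ?_)
        rw [← h7, hb]
      exact orderOf_eq_one_iff.1 h8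
    have hZP : IsZGroup P := IsZGroup.of_injective hf
    have hnil : Group.IsNilpotent P := P.2.isNilpotent
    infer_instance
  -- an element `x` of order `p`
  have hpP : p ∣ Nat.card P := by
    obtain ⟨n, hn⟩ := IsPGroup.iff_card.1 P.2
    rw [hn]
    refine dvd_pow_self p ?_
    rintro rfl
    rw [pow_zero] at hn
    exact hP1 (Subgroup.card_eq_one.1 hn)
  obtain ⟨x, hx⟩ := exists_prime_orderOf_dvd_card' p hpP
  have hxH : orderOf (x : H) = p := by rw [Subgroup.orderOf_coe]; exact hx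
  have hxodd : Odd (orderOf (x : H)) := by rw [hxH]; exact hp.odd_of_ne_two hp2
  have hx1 : (x : H) ≠ 1 := by
    intro h; rw [h, orderOf_one] at hxH; exact hp.one_lt.ne hxH
  have hY1 : pCore 2 H ≠ ⊥ := by
    intro h
    have h1 := Lib.Cores.centralizer_pCore_le (G := H) (p := 2) hO
    rw [h] at h1
    have h2 : centralizer ((⊥ : Subgroup H) : Set H) = ⊤ := by
      rw [eq_top_iff]
      intro g _
      rw [mem_centralizer_iff]
      intro k hk
      rw [SetLike.mem_coe, mem_bot] at hk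
      rw [hk, one_mul, mul_one]
    rw [h2] at h1
    exact hX1 (eq_bot_iff.2 (le_top.trans h1))
  set M := normalizer ((P : Subgroup H) : Set H) with hM
  have hfr : M ⊔ N = ⊤ := Sylow.normalizer_sup_eq_top' P hPN
  obtain ⟨T⟩ : Nonempty (Sylow 2 M) := inferInstance
  let T' : Subgroup H := (T : Subgroup M).map M.subtype
  have hTM : T' ≤ M := map_subtype_le _
  have hT2 : IsPGroup 2 T' := T.2.map _
  have hTx : T' ≤ normalizer ((zpowers (x : H) : Subgroup H) : Set H) := by
    intro t ht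
    have htM := hTM ht
    apply Lib.GroupUtil.mem_normalizer_of_conj_le
    have h3 : t * (x : H) * t⁻¹ ∈ (P : Subgroup H) := (mem_normalizer_iff.1 htM (x : H)).1 x.2
    have h4 : (⟨t * (x : H) * t⁻¹, h3⟩ : P) ∈ zpowers x := by
      apply Lib.FrobAction3.mem_zpowers_of_isCyclic
      rw [hx, Subgroup.orderOf_mk, ← MulAut.conj_apply, MulEquiv.orderOf_eq, hxH]
    obtain ⟨m, hm⟩ := mem_zpowers_iff.1 h4
    have h5 : (x : H) ^ m = t * (x : H) * t⁻¹ := congrArg Subtype.val hm
    intro z hz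
    obtain ⟨l, rfl⟩ := mem_zpowers_iff.1 hz
    refine mem_zpowers_iff.2 ⟨m * l, ?_⟩
    rw [zpow_mul, h5, conj_zpow]
  let φ := Lib.FrobAction2.conjAct hTx
  have hφ : Function.Injective φ := by
    rw [injective_iff_map_eq_one]
    intro τ hτ
    by_contra hτ1
    -- an involution in `⟨τ⟩`
    obtain ⟨u, hu, huz⟩ : ∃ u : T', orderOf u = 2 ∧ u ∈ zpowers τ := by
      have h1 : IsPGroup 2 (zpowers τ) := hT2.to_subgroup _
      have h2 : 2 ∣ Nat.card (zpowers τ) := by
        obtain ⟨n, hn⟩ := IsPGroup.iff_card.1 h1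
        rw [hn]
        refine dvd_pow_self 2 ?_
        rintro rfl
        rw [pow_zero, Nat.card_zpowers] at hn
        exact hτ1 (orderOf_eq_one_iff.1 hn)
      obtain ⟨t, ht⟩ := exists_prime_orderOf_dvd_card' 2 h2
      exact ⟨t, by rw [Subgroup.orderOf_coe]; exact ht, t.2⟩
    have hu1 : φ u = 1 := by
      obtain ⟨m, rfl⟩ := mem_zpowers_iff.1 huz
      rw [map_zpow, hτ, one_zpow]
    have hux : (u : H) * x = x * u := by
      have h3 : φ u ⟨(x : H), mem_zpowers _⟩ = ⟨(x : H), mem_zpowers _⟩ := by rw [hu1]; rfl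
      exact (Lib.FrobAction2.conjAct_fixed hTx u _).1 h3
    have huH : orderOf (u : H) = 2 := by rw [Subgroup.orderOf_coe]; exact hu
    obtain ⟨y, hy, hy1, hyu⟩ := exists_fixed (Y := pCore 2 H) inferInstance hY2 hY1 huH
    exact fpf hO hI hxodd hx1 hy hy1 (cent_of_inv hI inferInstance hY2 huH hxodd hux.symm hy hyu)
  have hAc : IsCyclic (MulAut (zpowers (x : H))) := by
    have hcard : Nat.card (zpowers (x : H)) = p := by rw [Nat.card_zpowers, hxH]
    have e := IsCyclic.mulAutMulEquiv (zpowers (x : H))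
    rw [hcard] at e
    exact isCyclic_of_surjective e.symm e.symm.surjective
  have hTc : IsCyclic T' := isCyclic_of_injective φ hφ
  -- `T'` maps onto `H/N`
  have hsurj : T' ⊔ N = ⊤ := by
    have h3 : (T' ⊔ N).index ∣ 2 ^ (hNidx.choose) := by
      rw [← hNidx.choose_spec]; exact Subgroup.index_dvd_of_le le_sup_right
    have h4 : Odd (T' ⊔ N).index := by
      have h5 : (T' ⊔ N).index ∣ T'.relIndex M := by
        -- `T' ⊔ N` has index dividing `[M : T']`
        have h6 : ((T : Subgroup M).map ((QuotientGroup.mk' N).comp M.subtype)).index ∣ (T : Subgroup M).index := by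
          apply Subgroup.index_map_dvd
          intro w
          obtain ⟨h, rfl⟩ := QuotientGroup.mk'_surjective N w
          have h7 : h ∈ M ⊔ N := by rw [hfr]; exact mem_top _
          obtain ⟨m, hm, n, hn, rfl⟩ := Subgroup.mem_sup_of_normal_right.1 h7
          refine ⟨⟨m, hm⟩, ?_⟩
          change QuotientGroup.mk' N m = _
          rw [map_mul, show QuotientGroup.mk' N n = 1 from (QuotientGroup.eq_one_iff n).2 hn, mul_one]
        have h7 : (T' ⊔ N).index = ((T : Subgroup M).map ((QuotientGroup.mk' N).comp M.subtype)).index := by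
          rw [← Subgroup.map_map]
          have h8 : T' ⊔ N = (T'.map (QuotientGroup.mk' N)).comap (QuotientGroup.mk' N) := by
            rw [Subgroup.comap_map_eq, QuotientGroup.ker_mk']
          rw [h8, Subgroup.index_comap_of_surjective _ (QuotientGroup.mk'_surjective N)]
        rw [h7]
        refine h6.trans (dvd_of_eq ?_)
        rw [Subgroup.relIndex]
        congr 1
        change (T : Subgroup M) = ((T : Subgroup M).map M.subtype).subgroupOf M
        rw [Subgroup.subgroupOf, Subgroup.comap_map_eq_self_of_injective M.subtype_injective]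
      have h6 : T'.relIndex M = (T : Subgroup M).index := by
        rw [Subgroup.relIndex]
        congr 1
        change ((T : Subgroup M).map M.subtype).subgroupOf M = (T : Subgroup M)
        rw [Subgroup.subgroupOf, Subgroup.comap_map_eq_self_of_injective M.subtype_injective]
      rw [h6] at h5
      refine Odd.of_dvd_nat ?_ h5
      exact Nat.not_even_iff_odd.1 (fun h => T.not_dvd_index (even_iff_two_dvd.1 h))
    obtain ⟨j, _, hj⟩ := (Nat.dvd_prime_pow Nat.prime_two).1 h3
    rw [hj] at h4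
    rcases Nat.eq_zero_or_pos j with rfl | hj0
    · rw [pow_zero] at hj; exact Subgroup.index_eq_one.1 hj
    · exact absurd (Nat.even_pow.2 ⟨even_two, hj0.ne'⟩) (Nat.not_even_iff_odd.2 h4)
  refine isCyclic_of_surjective ((QuotientGroup.mk' N).comp T'.subtype) ?_
  intro w
  obtain ⟨h, rfl⟩ := QuotientGroup.mk'_surjective N w
  have h7 : h ∈ T' ⊔ N := by rw [hsurj]; exact mem_top _
  obtain ⟨m, hm, n, hn, rfl⟩ := Subgroup.mem_sup_of_normal_right.1 h7
  refine ⟨⟨m, hm⟩, ?_⟩
  change QuotientGroup.mk' N m = _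
  rw [map_mul, show QuotientGroup.mk' N n = 1 from (QuotientGroup.eq_one_iff n).2 hn, mul_one]

end Cfsg.Agent.Lib.HallTwoNil
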