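import Cfsg.Agent.Lib.HeCentData
import Cfsg.Agent.Lib.CosetGe
import Cfsg.Agent.Lib.FixLane
import Cfsg.Agent.Lib.PrimLane
import Cfsg.Agent.Lib.HeOrd
import Cfsg.Agent.Lib.GoursatHom
import Cfsg.Agent.Lib.SliceK4

/-!
# The centralizer of a `2B` involution of the presented Held group
-/

set_option autoImplicit false
set_option linter.all false
set_option maxRecDepth 100000

namespace Cfsg.Agent.Lib.HeCent

open Cfsg.Spor Cfsg.Agent.Lib.BenesPerm Cfsg.Agent.Lib.BenesAct Cfsg.Agent.Lib.BenesWord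
open Cfsg.Agent.Lib.CosetClosure Cfsg.Agent.Lib.CosetFacts
open Cfsg.Agent.Lib.CosetMain Cfsg.Agent.Lib.CoxBridge Cfsg.Agent.Lib.CosetGroup Cfsg.Agent.Lib.CosetInst Cfsg.Agent.Lib.CosetInj
open Cfsg.Agent.Lib.BenesPack Cfsg.Agent.Lib.CosetPack Cfsg.Agent.Lib.CosetOrder Cfsg.Agent.Lib.CosetChain
open Cfsg.Agent.Lib.HeRel Cfsg.Agent.Lib.HeNetsA Cfsg.Agent.Lib.HeCertA Cfsg.Agent.Lib.HeA
open Cfsg.Agent.Lib.HeCentData Cfsg.Agent.Lib.PrimLane Cfsg.Agent.Lib.CosetGe Cfsg.Agent.Lib.FixLane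
open Cfsg.Agent.Lib.SliceK4 (allK allK_spec)

abbrev HeG := CoxPresented He.Gen He.edges He.extra

theorem hok : ∀ c, (netOf nets c).OK := fun c => Net.ok_of_check (check_netOf c_nets c)

/-! ### the checks -/

theorem k_fix : fixK nets [4] 12 (2 ^ 2058 - 1) FM = true := by decide +kernel
theorem fm_pop : popK 12 FM = 42 := by decide +kernel
theorem fm_lt : FM < 2 ^ 2 ^ 12 := by decide +kernel
theorem fm1_pop : popK 12 (FM &&& HeAIdx.M0) = 16 := by decide +kernel
theorem fm1_lt : FM &&& HeAIdx.M0 < 2 ^ 2 ^ 12 := by decide +kernel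
theorem z01 : invK nets [[4]] (2 ^ 0) = true := by decide +kernel
theorem z11 : invK nets [[4]] (2 ^ 1) = true := by decide +kernel
theorem cw0 : invK nets CW (2 ^ 0) = true := by decide +kernel
theorem cw1 : invK nets CW (2 ^ 1) = true := by decide +kernel
theorem cw_lt : ∀ w ∈ CW, ∀ c ∈ w, c < 7 := by decide +kernel
theorem cw_len : CW.length = 45 := by decide +kernel
theorem cv_nd : CV.Nodup := by decide +kernel

/-- the action of a conjugate on the parity of the lanes below 64 -/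
noncomputable def valK (w : List ℕ) (v : ℕ) : Bool :=
  walkK nets (w ++ (4 :: w.reverse)) (plane 12 0) (fun V => Nat.beq (Nat.mod V (2 ^ 64)) v)

theorem cw_val : allK 45 (fun i => valK (nthK [] CW i) (nthK 0 CV i)) = true := by decide +kernel
theorem cv_len : CV.length = 45 := by decide +kernel

/-- generators commute with the involution -/
def cmW (W : Wd) : Wd := Wd.mul (Wd.mul W (Wd.g 4)) (Wd.mul (Wd.inv W) (Wd.g 4))
theorem gw_rels : relsD nets 12 4 iv (GW.map cmW) = true := by decide +kernel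

/-- the permutation of the masks -/
noncomputable def tau (k i : ℕ) : ℕ := Nat.add (Nat.mul 7 (sgT k (Nat.div i 7))) (btT k (Nat.mod i 7))

noncomputable def famK (k : ℕ) (w : List ℕ) : Bool :=
  allK 112 (fun i => walkK nets w (Dm (tau k i)) (fun V => Nat.beq V (Dm i)))

theorem fam_ok : ∀ k : Fin 8, famK k.val ((GW.getD k.val Wd.one).flat iv) = true := by decide +kernel

theorem dm_nd : ((List.range 112).map Dm).Nodup := by decide +kernel

theorem sg_inj : ∀ k : Fin 8, ∀ p q : Fin 16, sgT k p < 16 ∧ (sgT k p = sgT k q → p = q) := by decide +kernel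
theorem bt_inj : ∀ k : Fin 8, ∀ p q : Fin 7, btT k p < 7 ∧ (btT k p = btT k q → p = q) := by decide +kernel

/-! ### upper bound -/

section
variable {φ : HeG →* Equiv.Perm ℕ} (hφ : ∀ c, φ (C.x L0 c) = sperm nets c)
include hφ

theorem phi_eval (W : Wd) (i : ℕ) : φ (W.eval (C.x L0)) i = wfn nets (W.flat iv) i := by
  rw [← prod_sperm_apply hok, ← Wd.eval_flat (C.x L0) iv x_iv0 W, map_list_prod, List.map_map]
  congr 2
  apply List.map_congr_left
  intro c _
  exact hφ c

theorem phi_word (w : List ℕ) (i : ℕ) : φ ((w.map (C.x L0)).prod) i = wfn nets w i := by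
  rw [← prod_sperm_apply hok, map_list_prod, List.map_map]
  congr 2
  apply List.map_congr_left
  intro c _
  exact hφ c

theorem word_inv (w : List ℕ) (hw : ∀ c ∈ w, c < 7) : ((w.map (C.x L0)).prod)⁻¹ = (w.reverse.map (C.x L0)).prod := by
  rw [List.prod_inv_reverse, List.map_reverse, List.map_map]
  congr 2
  apply List.map_congr_left
  intro c hc
  exact inv_eq_of_mul_eq_one_left (HeOrd.invol c (hw c hc))

/-- the value of a conjugate by a word -/
theorem conj_val {w : List ℕ} (hw : ∀ c ∈ w, c < 7) {v : ℕ} (h : valK w v = true) (j : ℕ) :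
    (decide (j < 64) && (plane 12 0).testBit (φ (((w.map (C.x L0)).prod) * C.x L0 4 * ((w.map (C.x L0)).prod)⁻¹) j)) =
      v.testBit j := by
  unfold valK at h
  rw [walkK_eq] at h
  have h1 : appW nets (w ++ 4 :: w.reverse) (plane 12 0) % 2 ^ 64 = v := Nat.eq_of_beq_eq_true h
  rw [← h1, Nat.testBit_mod_two_pow, testBit_appW hok, ← phi_word hφ]
  congr 3
  rw [word_inv hφ w hw, List.map_append, List.map_cons, List.prod_append, List.prod_cons, mul_assoc]

end

theorem upper {φ : HeG →* Equiv.Perm ℕ} (hφ : ∀ c, φ (C.x L0 c) = sperm nets c) (hinj : Function.Injective φ)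
    (hcard : Nat.card HeG = 4030387200) :
    Nat.card (Subgroup.centralizer ({C.x L0 4} : Set HeG)) ≤ 21504 := by
  set z := C.x L0 4 with hz
  set CG := Subgroup.centralizer ({z} : Set HeG) with hCG
  have hfin : Finite HeG := Nat.finite_of_card_ne_zero (by rw [hcard]; norm_num)
  have hcomm : ∀ g ∈ CG, g * z = z * g := by
    intro g hg
    exact (Subgroup.mem_centralizer_iff.mp hg z rfl).symm
  obtain ⟨φ', f, hφ', hf0, hgf, hlt, hfinj, horb0, hH0, hfs, hidx, _, _, _, _⟩ := HeAIdx.main (Subgroup.closure (wset (C.x L0) WS)) rfl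
  have hφφ : φ' = φ := by
    have hgen := C.closure_letters L0
    apply MonoidHom.eq_of_eqOn_dense hgen
    rintro _ ⟨W, hW, rfl⟩
    obtain ⟨c, _, rfl⟩ := List.mem_map.mp hW
    change φ' (C.x L0 c) = φ (C.x L0 c)
    rw [hφ', hφ]
  subst hφφ
  have hHs : ∀ g, φ' g 0 = 0 → g ∈ Subgroup.closure (wset (C.x L0) WS) := by
    intro g hg
    have h1 := hgf g 0 (by norm_num)
    rw [hg, hf0] at h1
    have h2 : ((g * 1 : HeG) : HeG ⧸ Subgroup.closure (wset (C.x L0) WS)) = ((1 : HeG) : HeG ⧸ _) := h1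
    rw [mul_one] at h2
    have h3 := QuotientGroup.eq.mp h2.symm
    simpa using h3
  have horb1 : ∀ j, (∃ h ∈ Subgroup.closure (wset (C.x L0) WS), φ' h 1 = j) ↔ HeAIdx.M0.testBit j = true :=
    orbit_lanes c_nets hφ x_iv0 WS HeAIdx.l0 HeAIdx.o0_inv HeAIdx.o0_reach
  have hfixz : ∀ g ∈ CG, ∀ j, φ' z j = j → φ' z (φ' g j) = φ' g j := by
    intro g hg j hj
    have h1 : φ' (g * z) j = φ' (z * g) j := by rw [hcomm g hg]
    rw [map_mul, map_mul, Equiv.Perm.mul_apply, Equiv.Perm.mul_apply, hj] at h1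
    exact h1.symm
  have hzl : ∀ j, wfn nets [4] j = φ' z j := by
    intro j
    rw [← phi_word hφ]
    simp [hz]
  have hFM : ∀ j, j < 2058 → φ' z j = j → FM.testBit j = true := by
    intro j hj hjz
    refine fixK_spec hok k_fix (w := [4]) (by rw [hzl]; exact hjz) ?_
    rw [Nat.testBit_two_pow_sub_one]; exact decide_eq_true hj
  have hz0 : φ' z 0 = 0 := by
    have h1 := invK_spec z01 [4] (by simp)
    have h2 : (appW nets [4] (2 ^ 0)).testBit 0 = (2 ^ 0).testBit 0 := by rw [h1]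
    rw [testBit_appW hok, hzl, Nat.testBit_two_pow_self, Nat.testBit_two_pow, decide_eq_true_eq] at h2
    exact h2.symm
  have hz1 : φ' z 1 = 1 := by
    have h1 := invK_spec z11 [4] (by simp)
    have h2 : (appW nets [4] (2 ^ 1)).testBit 1 = (2 ^ 1).testBit 1 := by rw [h1]
    rw [testBit_appW hok, hzl, Nat.testBit_two_pow_self, Nat.testBit_two_pow, decide_eq_true_eq] at h2
    exact h2.symm
  -- first level
  set S0 := stab φ' CG 0 with hS0
  have e1 : S0.relIndex CG ≤ 42 := by
    rw [hS0, relIndex_stab, ← fm_pop, ← ncard_bits fm_lt]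
    apply Set.ncard_le_ncard
    · rintro j ⟨g, hg, rfl⟩
      exact hFM _ ((horb0 _).mp ⟨g, rfl⟩) (hfixz g hg 0 hz0)
    · exact Set.finite_of_ncard_ne_zero (by rw [ncard_bits fm_lt, fm_pop]; norm_num)
  set S1 := stab φ' S0 1 with hS1
  have e2 : S1.relIndex S0 ≤ 16 := by
    rw [hS1, relIndex_stab, ← fm1_pop, ← ncard_bits fm1_lt]
    apply Set.ncard_le_ncard
    · rintro j ⟨g, ⟨hg, hg0⟩, rfl⟩
      change (FM &&& HeAIdx.M0).testBit _ = true
      rw [Nat.testBit_and, hFM _ (hlt g 1 (by norm_num)) (hfixz g hg 1 hz1), Bool.true_and]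
      exact (horb1 _).mp ⟨g, hHs g hg0, rfl⟩
    · exact Set.finite_of_ncard_ne_zero (by rw [ncard_bits fm1_lt, fm1_pop]; norm_num)
  -- the stabilizer of two lanes
  set Q := stab φ' (stab φ' ⊤ 0) 1 with hQ
  have e3 : (stab φ' ⊤ 0).relIndex (⊤ : Subgroup HeG) = 2058 := by
    rw [relIndex_stab]
    have h1 : orb φ' ⊤ 0 = {j | (2 ^ 2058 - 1 : ℕ).testBit j = true} := by
      ext j
      rw [Set.mem_setOf_eq, Nat.testBit_two_pow_sub_one, decide_eq_true_eq, ← horb0]
      exact ⟨fun ⟨g, _, h⟩ => ⟨g, h⟩, fun ⟨g, h⟩ => ⟨g, trivial, h⟩⟩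
    rw [h1, ncard_bits HeOrd.full_lt, HeOrd.full_pop]
  have e4 : Q.relIndex (stab φ' ⊤ 0) = 1360 := by
    rw [hQ, relIndex_stab]
    have h1 : orb φ' (stab φ' ⊤ 0) 1 = {j | HeAIdx.M0.testBit j = true} := by
      ext j
      rw [Set.mem_setOf_eq, ← horb1]
      constructor
      · rintro ⟨g, ⟨_, hg⟩, h⟩; exact ⟨g, hHs g hg, h⟩
      · rintro ⟨g, hg, h⟩; exact ⟨g, ⟨trivial, hH0 g hg⟩, h⟩
    rw [h1, ncard_bits HeAIdx.o0_lt, HeAIdx.o0_pop]
  have e5 : Nat.card Q = 1440 := by
    have h1 := card_rel (stab_le φ' (stab φ' ⊤ 0) 1)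
    have h2 := card_rel (stab_le φ' ⊤ 0)
    rw [e3] at h2
    rw [← hQ, e4] at h1
    have h3 : Nat.card (⊤ : Subgroup HeG) = 4030387200 := by rw [Subgroup.card_top, hcard]
    rw [h3] at h2
    omega
  have hTQ : S1 ≤ Q := fun g hg => ⟨⟨trivial, hg.1.2⟩, hg.2⟩
  have hcwx : ∀ w ∈ CW, (w.map (C.x L0)).prod ∈ Q := by
    have key : ∀ p, invK nets CW (2 ^ p) = true → ∀ w ∈ CW, φ' ((w.map (C.x L0)).prod) p = p := by
      intro p hp w hw
      have h1 := invK_spec hp w hw
      have h2 : (appW nets w (2 ^ p)).testBit p = (2 ^ p).testBit p := by rw [h1]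
      rw [testBit_appW hok, ← phi_word hφ, Nat.testBit_two_pow_self, Nat.testBit_two_pow, decide_eq_true_eq] at h2
      exact h2.symm
    intro w hw
    exact ⟨⟨trivial, key 0 cw0 w hw⟩, key 1 cw1 w hw⟩
  have e6 : (CW.map (fun w => (w.map (C.x L0)).prod)).length * Nat.card S1 ≤ Nat.card Q := by
    refine coset_ge hTQ (fun g : HeG => fun j : ℕ => (decide (j < 64) && (plane 12 0).testBit (φ' (g * z * g⁻¹) j))) ?_ _ ?_ ?_
    · intro g _ t ht
      have h1 : g * t * z * (g * t)⁻¹ = g * z * g⁻¹ := by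
        have h2 := hcomm t ht.1.1
        rw [mul_inv_rev, mul_assoc g t z, h2]
        group
      simp only [h1]
    · intro g hg
      obtain ⟨w, hw, rfl⟩ := List.mem_map.mp hg
      exact hcwx w hw
    · have h1 : (CW.map (fun w => (w.map (C.x L0)).prod)).map (fun g : HeG => fun j : ℕ =>
          (decide (j < 64) && (plane 12 0).testBit (φ' (g * z * g⁻¹) j))) = CV.map (fun v => v.testBit) := by
        apply List.ext_getElem
        · rw [List.length_map, List.length_map, List.length_map, cw_len, cv_len]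
        · intro i h1 h2
          have hi : i < 45 := by rw [List.length_map, cv_len] at h2; exact h2
          have hiw : i < CW.length := by rw [cw_len]; exact hi
          have hiv : i < CV.length := by rw [cv_len]; exact hi
          rw [List.getElem_map, List.getElem_map, List.getElem_map]
          funext j
          have h3 := allK_spec cw_val i hi
          rw [nthK_eq, nthK_eq, List.getElem?_eq_getElem hiw, List.getElem?_eq_getElem hiv] at h3
          exact conj_val hφ (cw_lt _ (List.getElem_mem hiw)) h3 j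
      rw [h1]
      refine List.Nodup.map ?_ cv_nd
      intro a b hab
      exact Nat.eq_of_testBit_eq (fun i => congrFun hab i)
  rw [List.length_map, cw_len, e5] at e6
  have e7 : Nat.card S1 ≤ 32 := by omega
  have h8 := card_rel (stab_le φ' S0 1)
  have h9 := card_rel (stab_le φ' CG 0)
  rw [← hS1] at h8
  rw [← hS0] at h9
  rw [← h9, ← h8]
  calc Nat.card S1 * S1.relIndex S0 * S0.relIndex CG ≤ 32 * 16 * 42 :=
        Nat.mul_le_mul (Nat.mul_le_mul e7 e2) e1
    _ = 21504 := by norm_num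

end Cfsg.Agent.Lib.HeCent
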