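import Cfsg.Agent.Lib.HeCent

/-!
# The centralizer of a `2B` involution of the presented Held group: matching with `SL(5,2)`
-/

set_option autoImplicit false
set_option linter.all false
set_option maxRecDepth 100000

namespace Cfsg.Agent.Lib.HeCent

open Cfsg.Spor Cfsg.Agent.Lib.BenesPerm Cfsg.Agent.Lib.BenesAct Cfsg.Agent.Lib.BenesWord
open Cfsg.Agent.Lib.CosetClosure Cfsg.Agent.Lib.CosetFacts
open Cfsg.Agent.Lib.CosetMain Cfsg.Agent.Lib.CoxBridge Cfsg.Agent.Lib.CosetGroup Cfsg.Agent.Lib.CosetInst Cfsg.Agent.Lib.CosetInj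
open Cfsg.Agent.Lib.BenesPack Cfsg.Agent.Lib.CosetPack Cfsg.Agent.Lib.CosetOrder Cfsg.Agent.Lib.CosetChain
open Cfsg.Agent.Lib.HeRel Cfsg.Agent.Lib.HeNetsA Cfsg.Agent.Lib.HeCertA Cfsg.Agent.Lib.HeA
open Cfsg.Agent.Lib.HeCentData Cfsg.Agent.Lib.PrimLane Cfsg.Agent.Lib.CosetGe Cfsg.Agent.Lib.FixLane
open Cfsg.Agent.Lib.SliceK4 (allK allK_spec)

/-- vectors outside the axis -/
def vc (p : Fin 16) : Fin 5 → ZMod 2 :=
  ![if p.val.testBit 0 then 1 else 0, 1, if p.val.testBit 1 then 1 else 0, if p.val.testBit 2 then 1 else 0,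
    if p.val.testBit 3 then 1 else 0]

def mt (k : Fin 8) : Matrix (Fin 5) (Fin 5) (ZMod 2) :=
  Matrix.of fun i j => ((((matL.getD k.val []).getD i.val []).getD j.val 0 : ℕ) : ZMod 2)

/-- the permutation of the vectors -/
noncomputable def sg (k : Fin 8) (p : Fin 16) : Fin 16 := ⟨sgT k p, (sg_inj k p 0).1⟩
noncomputable def bt (k : Fin 8) (p : Fin 7) : Fin 7 := ⟨btT k p, (bt_inj k p 0).1⟩

noncomputable def sgP (k : Fin 8) : Equiv.Perm (Fin 16) :=
  Equiv.ofBijective (sg k) (Finite.injective_iff_bijective.mp (fun p q h => (sg_inj k p q).2 (congrArg Fin.val h)))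
noncomputable def btP (k : Fin 8) : Equiv.Perm (Fin 7) :=
  Equiv.ofBijective (bt k) (Finite.injective_iff_bijective.mp (fun p q h => (bt_inj k p q).2 (congrArg Fin.val h)))

theorem mt_vc0 : ∀ (k : Fin 8) (p : Fin 16) (i : Fin 5), (∑ j, mt k i j * vc p j) = vc (sg k p) i := by
  decide +kernel

theorem mt_vc (k : Fin 8) (p : Fin 16) : (mt k).mulVec (vc p) = vc (sg k p) := by
  funext i
  exact mt_vc0 k p i

theorem mt_sq : ∀ (k : Fin 8), mt k * mt k = 1 := by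
  decide +kernel

theorem mt_comm : ∀ (k : Fin 8), mt k * Matrix.transvection 0 1 1 = Matrix.transvection 0 1 1 * mt k := by
  decide +kernel

theorem vc_inj : ∀ p q : Fin 16, vc p = vc q → p = q := by decide +kernel

abbrev SL5 := Matrix.SpecialLinearGroup (Fin 5) (ZMod 2)

theorem mt_det (k : Fin 8) : (mt k).det = 1 := by
  have h1 : (mt k).det * (mt k).det = 1 := by rw [← Matrix.det_mul, mt_sq, Matrix.det_one]
  have h2 : ∀ a : ZMod 2, a * a = 1 → a = 1 := by decide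
  exact h2 _ h1

def mS (k : Fin 8) : SL5 := ⟨mt k, mt_det k⟩

/-- a matrix fixing all the vectors outside the axis is trivial -/
theorem eq_one_of_fix (m : SL5) (h : ∀ p : Fin 16, (m : Matrix (Fin 5) (Fin 5) (ZMod 2)).mulVec (vc p) = vc p) : m = 1 := by
  set M := (m : Matrix (Fin 5) (Fin 5) (ZMod 2)) with hM
  have key : ∀ v : Fin 5 → ZMod 2, M.mulVec v = v := by
    intro v
    have hv : v = v 0 • (vc 1 - vc 0) + (v 1 • vc 0 + (v 2 • (vc 2 - vc 0) + (v 3 • (vc 4 - vc 0) + v 4 • (vc 8 - vc 0)))) := by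
      funext i
      fin_cases i <;> simp [vc] <;> (try rfl) <;> decide +revert
    rw [hv]
    simp only [Matrix.mulVec_add, Matrix.mulVec_smul, Matrix.mulVec_sub, h]
  apply Subtype.ext
  apply Matrix.ext_of_mulVec_single
  intro i
  change M.mulVec _ = (1 : Matrix (Fin 5) (Fin 5) (ZMod 2)).mulVec _
  rw [key, Matrix.one_mulVec]

/-- the masks are moved by `h` as prescribed -/
def Rel (σ : Equiv.Perm (Fin 16)) (β : Equiv.Perm (Fin 7)) (h : Equiv.Perm ℕ) : Prop :=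
  ∀ (p : Fin 16) (B : Fin 7) (i : ℕ), (Dm (7 * (σ p).val + (β B).val)).testBit (h i) = (Dm (7 * p.val + B.val)).testBit i

theorem Rel.one : Rel 1 1 1 := fun _ _ _ => rfl

theorem Rel.mul {σ τ : Equiv.Perm (Fin 16)} {β γ : Equiv.Perm (Fin 7)} {g h : Equiv.Perm ℕ}
    (h1 : Rel σ β g) (h2 : Rel τ γ h) : Rel (σ * τ) (β * γ) (g * h) := by
  intro p B i
  have h3 := h1 (τ p) (γ B) (h i)
  rw [h2 p B i] at h3
  exact h3

theorem Rel.inv {σ : Equiv.Perm (Fin 16)} {β : Equiv.Perm (Fin 7)} {g : Equiv.Perm ℕ}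
    (h1 : Rel σ β g) : Rel σ⁻¹ β⁻¹ g⁻¹ := by
  intro p B i
  have h3 := h1 (σ⁻¹ p) (β⁻¹ B) (g⁻¹ i)
  have e1 : σ (σ⁻¹ p) = p := σ.apply_symm_apply p
  have e2 : β (β⁻¹ B) = B := β.apply_symm_apply B
  have e3 : g (g⁻¹ i) = i := g.apply_symm_apply i
  rw [e1, e2, e3] at h3
  exact h3.symm

theorem Rel.eq_one {σ : Equiv.Perm (Fin 16)} {β : Equiv.Perm (Fin 7)} (h : Rel σ β 1) : σ = 1 := by
  ext p
  have h1 : Dm (7 * (σ p).val + (β 0).val) = Dm (7 * p.val + (0 : Fin 7).val) := by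
    apply Nat.eq_of_testBit_eq
    intro i
    exact h p 0 i
  have h2 : ∀ i j, i < 112 → j < 112 → Dm i = Dm j → i = j := by
    intro i j hi hj hij
    have h3 := List.inj_on_of_nodup_map dm_nd (List.mem_range.mpr hi) (List.mem_range.mpr hj) hij
    exact h3
  have h3 := h2 _ _ (by have := (σ p).2; have := (β 0).2; omega) (by have := p.2; have := (0 : Fin 7).2; omega) h1
  have h4 := (β 0).2
  have h5 : ((0 : Fin 7) : ℕ) = 0 := rfl
  rw [h5] at h3
  change (σ p).val = p.val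
  omega

section
variable {φ : HeG →* Equiv.Perm ℕ} (hφ : ∀ c, φ (C.x L0 c) = sperm nets c)
include hφ

theorem rel_gen (k : Fin 8) : Rel (sgP k) (btP k) (φ ((GW.getD k.val Wd.one).eval (C.x L0))) := by
  intro p B i
  have h1 := fam_ok k
  unfold famK at h1
  have hi : 7 * p.val + B.val < 112 := by have := p.2; have := B.2; omega
  have h2 := allK_spec h1 _ hi
  rw [walkK_eq] at h2
  have h3 : appW nets ((GW.getD k.val Wd.one).flat iv) (Dm (tau k.val (7 * p.val + B.val))) = Dm (7 * p.val + B.val) :=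
    Nat.eq_of_beq_eq_true h2
  have h4 : tau k.val (7 * p.val + B.val) = 7 * (sgP k p).val + (btP k B).val := by
    have e1 : Nat.div (7 * p.val + B.val) 7 = p.val := by
      change (7 * p.val + B.val) / 7 = p.val
      have := B.2; omega
    have e2 : Nat.mod (7 * p.val + B.val) 7 = B.val := by
      change (7 * p.val + B.val) % 7 = B.val
      have := B.2; omega
    unfold tau
    rw [e1, e2]; rfl
  rw [h4] at h3
  rw [← h3, testBit_appW hok, phi_eval hφ]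

end

/-! ### orbits of words on the 16 vectors -/

/-- action of a word in the generators -/
noncomputable def act (w : List (Fin 8)) (p : Fin 16) : Fin 16 := w.foldr (fun k q => sg k q) p

theorem word_vc (w : List (Fin 8)) (p : Fin 16) :
    (((w.map mS).prod : SL5) : Matrix (Fin 5) (Fin 5) (ZMod 2)).mulVec (vc p) = vc (act w p) := by
  induction w with
  | nil => exact Matrix.one_mulVec _
  | cons a w ih =>
    rw [List.map_cons, List.prod_cons, Matrix.SpecialLinearGroup.coe_mul, ← Matrix.mulVec_mulVec, ih]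
    exact mt_vc a _

theorem lev0_nd : (lev0.map (fun w => act w 0)).Nodup := by decide +kernel
theorem lev1_nd : (lev1.map (fun w => act w 2)).Nodup := by decide +kernel
theorem lev2_nd : (lev2.map (fun w => act w 4)).Nodup := by decide +kernel
theorem lev3_nd : (lev3.map (fun w => act w 8)).Nodup := by decide +kernel
theorem lev1_fx : ∀ w ∈ lev1, act w 0 = 0 := by decide +kernel
theorem lev2_fx : ∀ w ∈ lev2, act w 0 = 0 ∧ act w 2 = 2 := by decide +kernel
theorem lev3_fx : ∀ w ∈ lev3, act w 0 = 0 ∧ act w 2 = 2 ∧ act w 4 = 4 := by decide +kernel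
theorem lev_len : lev0.length = 16 ∧ lev1.length = 14 ∧ lev2.length = 12 ∧ lev3.length = 8 := by decide +kernel

/-- matrices in `J` fixing a vector -/
def fx (J : Subgroup SL5) (p : Fin 16) : Subgroup SL5 where
  carrier := {g | g ∈ J ∧ (g : Matrix (Fin 5) (Fin 5) (ZMod 2)).mulVec (vc p) = vc p}
  one_mem' := ⟨J.one_mem, Matrix.one_mulVec _⟩
  mul_mem' := by
    rintro a b ⟨ha, ha'⟩ ⟨hb, hb'⟩
    refine ⟨J.mul_mem ha hb, ?_⟩
    rw [Matrix.SpecialLinearGroup.coe_mul, ← Matrix.mulVec_mulVec, hb', ha']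
  inv_mem' := by
    rintro a ⟨ha, ha'⟩
    refine ⟨J.inv_mem ha, ?_⟩
    have h1 : ((a⁻¹ * a : SL5) : Matrix (Fin 5) (Fin 5) (ZMod 2)).mulVec (vc p) = vc p := by
      rw [inv_mul_cancel]; exact Matrix.one_mulVec _
    rw [Matrix.SpecialLinearGroup.coe_mul, ← Matrix.mulVec_mulVec, ha'] at h1
    exact h1

theorem fx_le (J : Subgroup SL5) (p : Fin 16) : fx J p ≤ J := fun _ h => h.1

theorem fx_ge (J : Subgroup SL5) (p : Fin 16) (l : List (List (Fin 8))) (hl : ∀ w ∈ l, (w.map mS).prod ∈ J)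
    (hnd : (l.map (fun w => act w p)).Nodup) : l.length * Nat.card (fx J p) ≤ Nat.card J := by
  have h := coset_ge (fx_le J p) (fun g : SL5 => (g : Matrix (Fin 5) (Fin 5) (ZMod 2)).mulVec (vc p)) ?_
    (l.map (fun w => (w.map mS).prod)) ?_ ?_
  · rwa [List.length_map] at h
  · intro g _ t ht
    change ((g * t : SL5) : Matrix (Fin 5) (Fin 5) (ZMod 2)).mulVec (vc p) = _
    rw [Matrix.SpecialLinearGroup.coe_mul, ← Matrix.mulVec_mulVec, ht.2]
  · intro g hg
    obtain ⟨w, hw, rfl⟩ := List.mem_map.mp hg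
    exact hl w hw
  · rw [List.map_map]
    have e : (fun g : SL5 => (g : Matrix (Fin 5) (Fin 5) (ZMod 2)).mulVec (vc p)) ∘ (fun w : List (Fin 8) => (w.map mS).prod) =
        vc ∘ (fun w => act w p) := by
      funext w
      exact word_vc w p
    rw [e, ← List.map_map]
    exact List.Nodup.map (fun a b h => vc_inj a b h) hnd

theorem lower (J : Subgroup SL5) (hJ : ∀ k, mS k ∈ J) : 21504 ≤ Nat.card J := by
  have hw : ∀ w : List (Fin 8), (w.map mS).prod ∈ J := by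
    intro w
    apply Subgroup.list_prod_mem
    intro g hg
    obtain ⟨k, _, rfl⟩ := List.mem_map.mp hg
    exact hJ k
  have fxw : ∀ (w : List (Fin 8)) (p : Fin 16), act w p = p → (((w.map mS).prod : SL5) : Matrix (Fin 5) (Fin 5) (ZMod 2)).mulVec (vc p) = vc p := by
    intro w p h
    rw [word_vc, h]
  have h0 := fx_ge J 0 lev0 (fun w _ => hw w) lev0_nd
  have h1 := fx_ge (fx J 0) 2 lev1 (fun w h => ⟨hw w, fxw w 0 (lev1_fx w h)⟩) lev1_nd
  have h2 := fx_ge (fx (fx J 0) 2) 4 lev2 (fun w h => ⟨⟨hw w, fxw w 0 (lev2_fx w h).1⟩, fxw w 2 (lev2_fx w h).2⟩) lev2_nd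
  have h3 := fx_ge (fx (fx (fx J 0) 2) 4) 8 lev3
    (fun w h => ⟨⟨⟨hw w, fxw w 0 (lev3_fx w h).1⟩, fxw w 2 (lev3_fx w h).2.1⟩, fxw w 4 (lev3_fx w h).2.2⟩) lev3_nd
  rw [lev_len.1] at h0
  rw [lev_len.2.1] at h1
  rw [lev_len.2.2.1] at h2
  rw [lev_len.2.2.2] at h3
  have h4 : 0 < Nat.card (fx (fx (fx (fx J 0) 2) 4) 8) := Nat.card_pos
  omega

/-- the subgroup generated by the words -/
def C0 : Subgroup HeG := Subgroup.closure (wset (C.x L0) GW)

theorem hgk (k : Fin 8) : (GW.getD k.val Wd.one).eval (C.x L0) ∈ C0 := by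
  apply Subgroup.subset_closure
  refine ⟨_, ?_, rfl⟩
  rw [List.getD_eq_getElem _ _ (show k.val < GW.length from k.2)]
  exact List.getElem_mem _

theorem wset_cases {t : HeG} (ht : t ∈ wset (C.x L0) GW) : ∃ k : Fin 8, t = (GW.getD k.val Wd.one).eval (C.x L0) := by
  obtain ⟨W, hW, rfl⟩ := ht
  obtain ⟨i, hi, rfl⟩ := List.getElem_of_mem hW
  exact ⟨⟨i, hi⟩, by rw [List.getD_eq_getElem _ _ hi]⟩

theorem C0_le {φ : HeG →* Equiv.Perm ℕ} (hφ : ∀ c, φ (C.x L0 c) = sperm nets c) (hinj : Function.Injective φ) :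
    C0 ≤ Subgroup.centralizer ({C.x L0 4} : Set HeG) := by
  have hzz : C.x L0 4 * C.x L0 4 = 1 := HeOrd.invol 4 (by norm_num)
  unfold C0
  rw [Subgroup.closure_le]
  rintro _ ⟨W, hW, rfl⟩
  have h1 : (cmW W).eval (C.x L0) = 1 :=
    eval_eq_one hinj c_nets x_iv0 hφ (relK_of_relsD c_nets gw_rels _ (List.mem_map.mpr ⟨W, hW, rfl⟩))
  rw [SetLike.mem_coe, Subgroup.mem_centralizer_iff]
  rintro _ rfl
  have h2 : W.eval (C.x L0) * C.x L0 4 * ((W.eval (C.x L0))⁻¹ * C.x L0 4) = 1 := h1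
  have h3 := mul_eq_one_iff_eq_inv.mp h2
  rw [mul_inv_rev, inv_inv, inv_eq_of_mul_eq_one_left hzz] at h3
  exact h3.symm

/-- pairs of matching elements -/
def Gam (φ : HeG →* Equiv.Perm ℕ) : Subgroup (C0 × SL5) where
  carrier := {q | ∃ (σ : Equiv.Perm (Fin 16)) (β : Equiv.Perm (Fin 7)),
      (∀ p, (q.2 : Matrix (Fin 5) (Fin 5) (ZMod 2)).mulVec (vc p) = vc (σ p)) ∧ Rel σ β (φ (q.1 : HeG))}
  one_mem' := by
    refine ⟨1, 1, fun p => Matrix.one_mulVec _, ?_⟩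
    change Rel 1 1 (φ (1 : HeG))
    rw [map_one]; exact Rel.one
  mul_mem' := by
    rintro ⟨a, m⟩ ⟨b, n⟩ ⟨σ, β, h1, h2⟩ ⟨τ, γ, h3, h4⟩
    refine ⟨σ * τ, β * γ, ?_, ?_⟩
    · intro p
      change ((m * n : SL5) : Matrix (Fin 5) (Fin 5) (ZMod 2)).mulVec (vc p) = _
      have h3' : (n : Matrix (Fin 5) (Fin 5) (ZMod 2)).mulVec (vc p) = vc (τ p) := h3 p
      have h1' : (m : Matrix (Fin 5) (Fin 5) (ZMod 2)).mulVec (vc (τ p)) = vc (σ (τ p)) := h1 (τ p)
      rw [Matrix.SpecialLinearGroup.coe_mul, ← Matrix.mulVec_mulVec, h3', h1']; rfl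
    · change Rel _ _ (φ ((a : HeG) * b))
      rw [map_mul]; exact h2.mul h4
  inv_mem' := by
    rintro ⟨a, m⟩ ⟨σ, β, h1, h2⟩
    refine ⟨σ⁻¹, β⁻¹, ?_, ?_⟩
    · intro p
      have h1' : (m : Matrix (Fin 5) (Fin 5) (ZMod 2)).mulVec (vc (σ⁻¹ p)) = vc p := by
        have := h1 (σ⁻¹ p)
        have e1 : σ (σ⁻¹ p) = p := σ.apply_symm_apply p
        rwa [e1] at this
      change ((m⁻¹ : SL5) : Matrix (Fin 5) (Fin 5) (ZMod 2)).mulVec (vc p) = _
      rw [← h1', Matrix.mulVec_mulVec, ← Matrix.SpecialLinearGroup.coe_mul, inv_mul_cancel]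
      exact Matrix.one_mulVec _
    · change Rel _ _ (φ ((a : HeG)⁻¹))
      rw [map_inv]; exact h2.inv

theorem exists_psi {φ : HeG →* Equiv.Perm ℕ} (hφ : ∀ c, φ (C.x L0 c) = sperm nets c) :
    ∃ ψ : C0 →* SL5, ∀ k : Fin 8, ψ ⟨_, hgk k⟩ = mS k := by
  have hΓk : ∀ k : Fin 8, ((⟨_, hgk k⟩ : C0), mS k) ∈ Gam φ := fun k =>
    ⟨sgP k, btP k, fun p => mt_vc k p, rel_gen hφ k⟩
  have hΓall : ∀ h : C0, ∃ m : SL5, (h, m) ∈ Gam φ :=
    gen_all C0 (Gam φ) (wset (C.x L0) GW) rfl (by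
      intro t ht
      obtain ⟨k, rfl⟩ := wset_cases ht
      exact ⟨hgk k, mS k, hΓk k⟩)
  obtain ⟨π, hπ⟩ := GoursatHom.exists_hom (⊥ : Subgroup SL5) (Gam φ) hΓall (by
    rintro m ⟨σ, β, h1, h2⟩
    have h3 : Rel σ β (φ (1 : HeG)) := h2
    rw [map_one] at h3
    have h4 := h3.eq_one
    rw [Subgroup.mem_bot]
    apply eq_one_of_fix
    intro p
    rw [h1 p, h4]; rfl)
  refine ⟨(QuotientGroup.quotientBot (G := SL5)).toMonoidHom.comp π, ?_⟩
  intro k
  change QuotientGroup.quotientBot (π ⟨_, hgk k⟩) = mS k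
  rw [hπ _ _ (hΓk k)]; rfl

theorem range_le (ψ : C0 →* SL5) (hψk : ∀ k : Fin 8, ψ ⟨_, hgk k⟩ = mS k) (s : SL5)
    (hs : (s : Matrix (Fin 5) (Fin 5) (ZMod 2)) = Matrix.transvection 0 1 1) :
    ψ.range ≤ Subgroup.centralizer ({s} : Set SL5) := by
  refine range_le_of_gens C0 ψ _ (wset (C.x L0) GW) rfl ?_
  intro t ht
  obtain ⟨k, rfl⟩ := wset_cases ht
  refine ⟨hgk k, ?_⟩
  rw [hψk k, Subgroup.mem_centralizer_iff]
  intro y hy
  rw [Set.mem_singleton_iff] at hy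
  subst hy
  apply Subtype.ext
  change (y : Matrix (Fin 5) (Fin 5) (ZMod 2)) * mt k = mt k * (y : Matrix (Fin 5) (Fin 5) (ZMod 2))
  rw [hs]; exact (mt_comm k).symm

/-- the main result -/
theorem main (s : SL5) (hs : (s : Matrix (Fin 5) (Fin 5) (ZMod 2)) = Matrix.transvection 0 1 1)
    (hcs : Nat.card (Subgroup.centralizer ({s} : Set SL5)) = 21504) :
    orderOf (C.x L0 4) = 2 ∧ Nonempty (↥(Subgroup.centralizer ({C.x L0 4} : Set HeG)) ≃* ↥(Subgroup.centralizer ({s} : Set SL5))) := by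
  obtain ⟨hsimp, hcard, φ, hφ, hinj, hbase⟩ := HeOrd.main
  have hfin : Finite HeG := Nat.finite_of_card_ne_zero (by rw [hcard]; norm_num)
  have hup := upper hφ hinj hcard
  have hzz : C.x L0 4 * C.x L0 4 = 1 := HeOrd.invol 4 (by norm_num)
  have hC0G := C0_le hφ hinj
  obtain ⟨ψ, hψk⟩ := exists_psi hφ
  have hlow : 21504 ≤ Nat.card ψ.range := lower ψ.range (fun k => ⟨_, hψk k⟩)
  have hc1 : Nat.card ψ.range ≤ Nat.card C0 := Nat.card_le_card_of_surjective _ ψ.rangeRestrict_surjective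
  have hc2 : Nat.card C0 ≤ Nat.card (Subgroup.centralizer ({C.x L0 4} : Set HeG)) :=
    Nat.card_le_card_of_injective _ (Subgroup.inclusion_injective hC0G)
  have hcC : Nat.card C0 = 21504 := by omega
  have hcR : Nat.card ψ.range = 21504 := by omega
  have hCeq : C0 = Subgroup.centralizer ({C.x L0 4} : Set HeG) := by
    apply Subgroup.eq_of_le_of_card_ge hC0G
    rw [hcC]; exact hup
  have hreq : ψ.range = Subgroup.centralizer ({s} : Set SL5) := by
    apply Subgroup.eq_of_le_of_card_ge (range_le ψ hψk s hs)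
    rw [hcR, hcs]
  have hbij : Function.Bijective ψ.rangeRestrict :=
    (Nat.bijective_iff_surjective_and_card _).mpr ⟨ψ.rangeRestrict_surjective, by rw [hcC, hcR]⟩
  refine ⟨?_, ⟨(MulEquiv.subgroupCongr hCeq.symm).trans
    ((MulEquiv.ofBijective _ hbij).trans (MulEquiv.subgroupCongr hreq))⟩⟩
  apply orderOf_eq_prime
  · rw [pow_two]; exact hzz
  · intro h1
    have h2 : ψ (⟨_, hgk 3⟩ : C0) = mS 3 := hψk 3
    have h3 : (⟨_, hgk 3⟩ : C0) = 1 := Subtype.ext h1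
    rw [h3, map_one] at h2
    have h4 : (1 : Matrix (Fin 5) (Fin 5) (ZMod 2)) = mt 3 := congrArg Subtype.val h2
    have h5 : (1 : Matrix (Fin 5) (Fin 5) (ZMod 2)) 0 1 = mt 3 0 1 := by rw [h4]
    revert h5
    decide

end Cfsg.Agent.Lib.HeCent
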