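import Cfsg.Agent.Lib.Ward2
import Cfsg.Agent.Lib.BG02e
import Cfsg.Agent.Lib.ExtraOrd

/-!
A cyclic group without fixed points on a module for a class-two `q`-group: the exceptional
configuration `|U| = q^s + 1` (helper59).
-/

set_option autoImplicit false

namespace Cfsg.Agent.Lib.HeisExt

open Module Subgroup Cfsg Cfsg.Agent.Lib.ActSemi Cfsg.Agent.Lib.SubgroupTools
open scoped commutatorElement

universe u v w

theorem card_eq_of_heis {Q : Type u} {U : Type v} [Group Q] [Finite Q] [Group U] [Fintype U]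
    (φ : U →* MulAut Q) {k : Type w} [Field k] [IsAlgClosed k]
    {V : Type*} [AddCommGroup V] [Module k V] [FiniteDimensional k V] [Nontrivial V]
    (h : Q →* Module.End k V) (s : U →* Module.End k V) (hsh : ∀ u x, s u * h x = h (φ u x) * s u)
    (hsum : ∑ u, s u = 0) (R : Subgroup Q) (ν : Q → k) (hν : ∀ x ∈ R, ∀ v, h x v = ν x • v)
    {q : ℕ} (hq : q.Prime) (hQ : IsPGroup q Q) (hpow : ∀ x : Q, x ^ q ∈ R)
    (hRφ : ∀ u, ∀ x ∈ R, φ u x ∈ R) (hcR : ∀ x y : Q, ⁅x, y⁆ ∈ R)
    (hc : ∀ x ∈ R, ∀ y, ν ⁅x, y⁆ = 1) (hνφ : ∀ u, ∀ x ∈ R, ν (φ u x) = ν x)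
    (hmax : ∀ x, (∀ y, ν ⁅x, y⁆ = 1) → x ∈ R)
    (hreg : ∀ u : U, u ≠ 1 → ∀ x, x⁻¹ * φ u x ∈ R → x ∈ R)
    (hνq : ∀ x ∈ R, ν x ^ q = 1) (hne : ∃ x ∈ R, ν x ≠ 1) (hRtop : R ≠ ⊤)
    (hU : IsCyclic U) (hUc : ∀ a b : U, a * b = b * a) (hqU : q.Coprime (Nat.card U))
    (hkq : (q : k) ≠ 0) (hkU : (Nat.card U : k) ≠ 0) :
    ∃ m, 0 < m ∧ Nat.card U = q ^ m + 1 ∧ R.index = q ^ (2 * m) := by
  classical
  have hqf := Fact.mk hq
  obtain ⟨v₀, hv₀⟩ := exists_ne (0 : V)
  have hcancel : ∀ a b : k, a • v₀ = b • v₀ → a = b := by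
    intro a b hab
    have h2 : (a - b) • v₀ = 0 := by rw [sub_smul, hab, sub_self]
    rcases smul_eq_zero.1 h2 with h3 | h3
    · exact sub_eq_zero.1 h3
    · exact absurd h3 hv₀
  have hνm : ∀ x ∈ R, ∀ y ∈ R, ν (x * y) = ν x * ν y := by
    intro x hx y hy
    apply hcancel
    rw [← hν _ (mul_mem hx hy), map_mul, Module.End.mul_apply, hν y hy, map_smul, hν x hx,
      smul_smul, mul_comm]
  have hν1 : ν 1 = 1 := by
    apply hcancel
    rw [← hν 1 (one_mem _), map_one, one_smul]; rfl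
  have hνi : ∀ x ∈ R, ν x * ν x⁻¹ = 1 := by
    intro x hx
    rw [← hνm x hx _ (inv_mem hx), mul_inv_cancel, hν1]
  let N : Subgroup Q :=
    { carrier := {x | x ∈ R ∧ ν x = 1}
      one_mem' := ⟨one_mem _, hν1⟩
      mul_mem' := by
        rintro x y ⟨hx, hx'⟩ ⟨hy, hy'⟩
        exact ⟨mul_mem hx hy, by rw [hνm x hx y hy, hx', hy', one_mul]⟩
      inv_mem' := by
        rintro x ⟨hx, hx'⟩
        refine ⟨inv_mem hx, ?_⟩
        have := hνi x hx
        rwa [hx', one_mul] at this }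
  have hNR : N ≤ R := fun x hx => hx.1
  have hcN : ∀ x ∈ R, ∀ y, ⁅x, y⁆ ∈ N := fun x hx y => ⟨hcR x y, hc x hx y⟩
  have hNn : N.Normal := by
    refine ⟨fun x hx g => ?_⟩
    have h1 : g * x * g⁻¹ = ⁅x, g⁆⁻¹ * x := by rw [commutatorElement_def]; group
    rw [h1]
    exact mul_mem (inv_mem (hcN x hx.1 g)) hx
  have hRn : R.Normal := by
    refine ⟨fun x hx g => ?_⟩
    have h1 : g * x * g⁻¹ = ⁅x, g⁆⁻¹ * x := by rw [commutatorElement_def]; group
    rw [h1]
    exact mul_mem (inv_mem (hcR x g)) hx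
  have hNφ : ∀ u, ∀ x ∈ N, φ u x ∈ N := fun u x hx =>
    ⟨hRφ u x hx.1, by rw [hνφ u x hx.1, hx.2]⟩
  obtain ⟨ψ, hψ⟩ := ActRep.exists_quot φ N hNφ
  have hker : N ≤ h.ker := by
    intro x hx
    rw [MonoidHom.mem_ker]
    ext v
    rw [hν x hx.1, hx.2, one_smul]; rfl
  let hb : (Q ⧸ N) →* Module.End k V := QuotientGroup.lift N h hker
  have hb1 : ∀ g : Q, hb (g : Q ⧸ N) = h g := fun g => rfl
  obtain ⟨H, hH1, hH2⟩ := Ward2.exists_lift ψ hb s (by
    intro a x
    induction x using QuotientGroup.induction_on with | H g => ?_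
    rw [hψ, hb1, hb1]
    exact hsh a g)
  let π : Q →* Q ⧸ N := QuotientGroup.mk' N
  have hπ : Function.Surjective π := QuotientGroup.mk'_surjective N
  have hπ1 : ∀ x : Q, π x = 1 ↔ x ∈ N := fun x => QuotientGroup.eq_one_iff x
  have hψπ : ∀ u x, ψ u (π x) = π (φ u x) := hψ
  set Z' : Subgroup (Q ⧸ N) := R.map π with hZ'
  have hmemZ' : ∀ x : Q, π x ∈ Z' ↔ x ∈ R := by
    intro x
    constructor
    · rintro ⟨y, hy, hyx⟩
      have h1 : y⁻¹ * x ∈ N := QuotientGroup.eq.1 hyx
      have h2 := mul_mem hy (hNR h1)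
      rwa [mul_inv_cancel_left] at h2
    · intro hx
      exact ⟨x, hx, rfl⟩
  have hcomm : ∀ x y : Q, ⁅x, y⁆ ∈ N → π x * π y = π y * π x := by
    intro x y hxy
    rw [← commutatorElement_eq_one_iff_mul_comm, ← map_commutatorElement, hπ1]
    exact hxy
  have hZcenter : Z' = center (Q ⧸ N) := by
    ext y
    obtain ⟨x, rfl⟩ := hπ y
    rw [hmemZ', mem_center_iff]
    constructor
    · intro hx g
      obtain ⟨g, rfl⟩ := hπ g
      exact (hcomm x g (hcN x hx g)).symm
    · intro hx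
      apply hmax
      intro y
      have h1 := hx (π y)
      have h2 : ⁅x, y⁆ ∈ N := by
        rw [← hπ1, map_commutatorElement, commutatorElement_eq_one_iff_mul_comm]
        exact h1.symm
      exact h2.2
  have hcardZ' : Nat.card Z' = q := by
    -- `Z'` embeds in the `q`-th roots of unity
    let f : Z' → rootsOfUnity q k := fun y => by
      have hy := y.2
      exact ⟨Units.mk0 (ν (Classical.choose hy)) (by
        intro h0
        have h1 := hνq _ (Classical.choose_spec hy).1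
        rw [h0, zero_pow hq.ne_zero] at h1
        exact zero_ne_one h1), by
        rw [mem_rootsOfUnity]
        ext
        push_cast
        exact hνq _ (Classical.choose_spec hy).1⟩
    have hf : Function.Injective f := by
      intro y z hyz
      have h1 := congrArg (fun t : rootsOfUnity q k => ((t : kˣ) : k)) hyz
      have h2 : ν (Classical.choose y.2) = ν (Classical.choose z.2) := h1
      have hy := Classical.choose_spec y.2
      have hz := Classical.choose_spec z.2
      apply Subtype.ext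
      rw [← hy.2, ← hz.2]
      change ((Classical.choose y.2 : Q) : Q ⧸ N) = ((Classical.choose z.2 : Q) : Q ⧸ N)
      rw [QuotientGroup.eq]
      refine ⟨mul_mem (inv_mem hy.1) hz.1, ?_⟩
      rw [hνm _ (inv_mem hy.1) _ hz.1, ← h2, mul_comm]
      exact hνi _ hy.1
    have h1 : Nat.card Z' ≤ q := by
      have hnz : NeZero q := ⟨hq.ne_zero⟩
      have h2 : Nat.card Z' ≤ Nat.card (rootsOfUnity q k) := Nat.card_le_card_of_injective f hf
      exact h2.trans (card_rootsOfUnity k q)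
    have h2 : IsPGroup q Z' := (hQ.of_surjective π hπ).to_subgroup Z'
    obtain ⟨x, hx, hx1⟩ := hne
    have h3 : Nontrivial Z' := by
      refine ⟨⟨⟨π x, (hmemZ' x).2 hx⟩, 1, ?_⟩⟩
      intro h4
      have h5 : π x = 1 := congrArg Subtype.val h4
      rw [hπ1] at h5
      exact hx1 h5.2
    obtain ⟨m, hm⟩ := IsPGroup.iff_card.1 h2
    have h4 : m ≠ 0 := by
      rintro rfl
      rw [pow_zero] at hm
      exact absurd hm (Finite.one_lt_card).ne'
    have h5 : m ≤ 1 := by
      by_contra h6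
      have h7 : q ^ 2 ≤ q ^ m := Nat.pow_le_pow_right hq.pos (by omega)
      have := hq.one_lt
      rw [hm] at h1
      nlinarith
    have h6 : m = 1 := by omega
    rw [hm, h6, pow_one]
  -- extraspecial
  have hQb : IsPGroup q (Q ⧸ N) := hQ.of_surjective π hπ
  have hcommle : _root_.commutator (Q ⧸ N) ≤ Z' := by
    rw [_root_.commutator_def, commutator_le]
    intro a _ b _
    obtain ⟨x, rfl⟩ := hπ a
    obtain ⟨y, rfl⟩ := hπ b
    rw [← map_commutatorElement, hmemZ']
    exact hcR x y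
  have hcomeq : _root_.commutator (Q ⧸ N) = Z' := by
    have h1 : Nat.card (_root_.commutator (Q ⧸ N)) ∣ q := by
      rw [← hcardZ']; exact card_dvd_of_le hcommle
    rcases (Nat.dvd_prime hq).1 h1 with h2 | h2
    · exfalso
      apply hRtop
      rw [eq_top_iff]
      intro x _
      apply hmax
      intro y
      have h3 := Subgroup.card_eq_one.1 h2
      have h4 : ⁅π x, π y⁆ ∈ _root_.commutator (Q ⧸ N) :=
        commutator_mem_commutator trivial trivial
      rw [h3, mem_bot, ← map_commutatorElement, hπ1] at h4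
      exact h4.2
    · exact eq_of_le_of_card_ge hcommle (by rw [h2, hcardZ'])
  have hZ'n : Z'.Normal := by rw [hZcenter]; infer_instance
  have hext : IsExtraspecial q (Q ⧸ N) := by
    refine ⟨⟨hQb, ?_, ?_⟩, ?_⟩
    · rw [← hZcenter]
      apply le_antisymm
      · refine HBBasic.frattini_le_of_pow_mem (p := q) Z' ?_ hcommle
        intro y
        obtain ⟨x, rfl⟩ := hπ y
        rw [← map_pow, hmemZ']
        exact hpow x
      · rw [← hcomeq]
        exact HBBasic.commutator_le_frattini hQb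
    · rw [hcomeq, hZcenter]
    · rw [← hZcenter, hcardZ']
  obtain ⟨m, hm1, hm⟩ := ExtraOrd.exists_card hext
  have hindex : R.index = q ^ (2 * m) := by
    have h1 : Z'.index = R.index := by
      rw [hZ', Subgroup.index_map, QuotientGroup.ker_mk', sup_eq_left.2 hNR,
        MonoidHom.range_eq_top.2 hπ, index_top, mul_one]
    have h2 := Subgroup.card_mul_index Z'
    rw [hcardZ', hm, h1, pow_add, pow_one] at h2
    exact Nat.eq_of_mul_eq_mul_left hq.pos h2
  refine ⟨m, hm1, ?_, hindex⟩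
  -- the Heisenberg configuration
  have hKGn := KG_normal ψ
  have hheis : BG02.Heis (G := (Q ⧸ N) ⋊[ψ] U) (KG ψ) (KA ψ) (up ψ Z') q := by
    refine ⟨hKGn, ?_, up_le ψ _, ?_, ?_, ?_, ?_, ?_, ?_, by rw [card_KA]; exact hqU⟩
    · rw [eq_top_iff]
      intro g _
      rw [← SemidirectProduct.inl_left_mul_inr_right g]
      exact mul_mem (mem_sup_left ⟨_, rfl⟩) (mem_sup_right ⟨_, rfl⟩)
    · rintro _ ⟨z, hz, rfl⟩ g
      rw [← SemidirectProduct.inl_left_mul_inr_right g]
      obtain ⟨x, hx, rfl⟩ := hz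
      have e1 : SemidirectProduct.inl (π x) * SemidirectProduct.inl g.left =
          SemidirectProduct.inl g.left * (SemidirectProduct.inl (π x) : (Q ⧸ N) ⋊[ψ] U) := by
        rw [← map_mul, ← map_mul]
        congr 1
        have h1 : π x ∈ center (Q ⧸ N) := by rw [← hZcenter]; exact (hmemZ' x).2 hx
        exact (mem_center_iff.1 h1 g.left).symm
      have e2 : SemidirectProduct.inl (π x) * SemidirectProduct.inr g.right =
          SemidirectProduct.inr g.right * (SemidirectProduct.inl (π x) : (Q ⧸ N) ⋊[ψ] U) := by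
        have h1 := conj_inl ψ g.right (π x)
        have h2 : ψ g.right (π x) = π x := by
          rw [hψπ]
          change ((φ g.right x : Q) : Q ⧸ N) = (x : Q ⧸ N)
          rw [eq_comm, QuotientGroup.eq]
          refine ⟨mul_mem (inv_mem hx) (hRφ _ x hx), ?_⟩
          rw [hνm _ (inv_mem hx) _ (hRφ _ x hx), hνφ _ x hx, mul_comm]
          exact hνi x hx
        rw [h2, mul_inv_eq_iff_eq_mul] at h1
        exact h1.symm
      rw [← mul_assoc, e1, mul_assoc, e2, ← mul_assoc]
    · rintro _ ⟨a, rfl⟩ _ ⟨b, rfl⟩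
      obtain ⟨x, rfl⟩ := hπ a
      obtain ⟨y, rfl⟩ := hπ b
      have h1 : (SemidirectProduct.inl (π x) : (Q ⧸ N) ⋊[ψ] U) * SemidirectProduct.inl (π y) *
          (SemidirectProduct.inl (π x))⁻¹ * (SemidirectProduct.inl (π y))⁻¹ =
          SemidirectProduct.inl (π ⁅x, y⁆) := by
        rw [commutatorElement_def]
        simp only [map_mul, map_inv]
      rw [h1, inl_mem_up, hmemZ']
      exact hcR x y
    · rintro _ ⟨a, rfl⟩ hall
      rw [inl_mem_up, hZcenter, mem_center_iff]
      intro b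
      have h1 := hall (SemidirectProduct.inl b) ⟨b, rfl⟩
      rw [← map_mul, ← map_mul] at h1
      exact SemidirectProduct.inl_injective h1
    · rintro _ ⟨u, rfl⟩ hu _ ⟨a, rfl⟩ hau
      obtain ⟨x, rfl⟩ := hπ a
      rw [inl_mem_up, hmemZ']
      apply hreg u (fun h0 => hu (by rw [h0, map_one]))
      have h1 := conj_inl ψ u (π x)
      rw [← hau, mul_inv_cancel_right] at h1
      have h2 := SemidirectProduct.inl_injective h1
      rw [hψπ] at h2
      exact hNR (QuotientGroup.eq.1 h2)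
    · rw [card_up, hcardZ']
    · rintro _ ⟨a, rfl⟩ _ ⟨b, rfl⟩
      rw [← map_mul, ← map_mul, hUc]
  have hfin : Fintype (KA ψ) := Fintype.ofFinite _
  have hcardKA : Nat.card (KA ψ) = Nat.card U := card_KA ψ
  rw [← hcardKA]
  refine BG02.Heis.closed_case (K := k) (V := V) hheis H ?_ m hm1 hq ?_ ?_ ?_ ?_
  · have h1 : Nat.card ((Q ⧸ N) ⋊[ψ] U) = Nat.card (Q ⧸ N) * Nat.card U := by
      rw [SemidirectProduct.card]
    rw [h1, Nat.cast_mul]
    refine mul_ne_zero ?_ hkU
    rw [hm, Nat.cast_pow]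
    exact pow_ne_zero _ hkq
  · have h1 : ((up ψ Z').subgroupOf (KG ψ)).index = Z'.index := by
      have h2 : (up ψ Z').relIndex (up ψ ⊤) = Z'.relIndex ⊤ :=
        Subgroup.relIndex_map_map_of_injective _ _ SemidirectProduct.inl_injective
      rw [up_top, Subgroup.relIndex_top_right] at h2
      exact h2
    have h2 := Subgroup.card_mul_index Z'
    rw [hcardZ', hm, pow_add, pow_one] at h2
    rw [h1]
    exact Nat.eq_of_mul_eq_mul_left hq.pos h2
  · exact isCyclic_of_surjective (SemidirectProduct.inr : U →* (Q ⧸ N) ⋊[ψ] U).rangeRestrict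
      (MonoidHom.rangeRestrict_surjective _)
  · have h1 : ∑ a : KA ψ, H (a : (Q ⧸ N) ⋊[ψ] U) = ∑ a : U, s a := by
      let e : U ≃ KA ψ := (MonoidHom.ofInjective
        (SemidirectProduct.inr_injective (φ := ψ))).toEquiv
      have he : ∀ a : U, ((e a : KA ψ) : (Q ⧸ N) ⋊[ψ] U) = SemidirectProduct.inr a := fun a => rfl
      symm
      exact Fintype.sum_equiv e (fun a : U => s a) (fun a : KA ψ => H (a : (Q ⧸ N) ⋊[ψ] U))
        (fun a => by rw [he, hH2])
    exact h1.trans hsum
  · obtain ⟨x, hx, hx1⟩ := hne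
    refine ⟨SemidirectProduct.inl (π x), (inl_mem_up ψ).2 ((hmemZ' x).2 hx), ?_⟩
    intro h1
    apply hx1
    apply hcancel
    have h2 : H (SemidirectProduct.inl (π x)) = h x := hH1 _
    rw [← hν x hx, one_smul, ← h2, h1]; rfl

end Cfsg.Agent.Lib.HeisExt
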