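import Mathlib

/-!
# 2-transitive groups with an involution whose centralizer acts with constant fixity (helper48)

Part A: counting.
-/

set_option autoImplicit false
set_option linter.all false

namespace Cfsg.Agent.Lib.HeringTwo

open MulAction Subgroup

theorem const_fib {A B : Type*} [Finite A] [Finite B] (φ : A → B) (b0 : B)
    (h : ∀ b, ∃ e : A ≃ A, ∀ x, φ x = b ↔ φ (e x) = b0) :
    Nat.card A = Nat.card B * Nat.card {a // φ a = b0} := by
  classical
  haveI := Fintype.ofFinite A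
  haveI := Fintype.ofFinite B
  have h1 : ∀ b, Nat.card {a // φ a = b} = Nat.card {a // φ a = b0} := by
    intro b
    obtain ⟨e, he⟩ := h b
    exact Nat.card_congr (e.subtypeEquiv he)
  rw [← Nat.card_congr (Equiv.sigmaFiberEquiv φ), Nat.card_sigma]
  simp only [h1, Finset.sum_const, Finset.card_univ, smul_eq_mul, Nat.card_eq_fintype_card]

theorem double_count {A B : Type*} [Fintype A] [Fintype B] (P : A → B → Prop) :
    ∑ a, Nat.card {b // P a b} = ∑ b, Nat.card {a // P a b} := by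
  classical
  have h1 : ∀ a, Nat.card {b // P a b} = ∑ b, if P a b then 1 else 0 := by
    intro a
    rw [Nat.card_eq_fintype_card, Fintype.card_subtype, Finset.card_filter]
  have h2 : ∀ b, Nat.card {a // P a b} = ∑ a, if P a b then 1 else 0 := by
    intro b
    rw [Nat.card_eq_fintype_card, Fintype.card_subtype, Finset.card_filter]
  simp only [h1, h2]
  exact Finset.sum_comm

variable {G Ω : Type*} [Group G] [MulAction G Ω]

structure Hyp (G Ω : Type*) [Group G] [MulAction G Ω] (i : ℕ) (t : G) : Prop where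
  two : ∀ a b c d : Ω, a ≠ b → c ≠ d → ∃ g : G, g • a = c ∧ g • b = d
  ht : orderOf t = 2
  fix : ∀ g : G, Commute g t → g ≠ 1 → Nat.card {x : Ω // g • x = x} = i

/-- two-point stabilizer -/
def St (G : Type*) {Ω : Type*} [Group G] [MulAction G Ω] (a b : Ω) : Subgroup G :=
  stabilizer G a ⊓ stabilizer G b

theorem mem_St {a b : Ω} {g : G} : g ∈ St G a b ↔ g • a = a ∧ g • b = b := Iff.rfl

theorem card_fix_conj (g x : G) :
    Nat.card {y : Ω // (g * x * g⁻¹) • y = y} = Nat.card {y : Ω // x • y = y} := by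
  refine Nat.card_congr ((MulAction.toPerm g⁻¹).subtypeEquiv ?_)
  intro y
  rw [MulAction.toPerm_apply, mul_smul, mul_smul, smul_eq_iff_eq_inv_smul g]

section

variable {i : ℕ} {t : G}

theorem Hyp.tt (h : Hyp G Ω i t) : t * t = 1 := by
  rw [← pow_two, ← h.ht, pow_orderOf_eq_one]

theorem Hyp.ne_one (h : Hyp G Ω i t) : t ≠ 1 := by
  intro h1
  have := h.ht
  rw [h1, orderOf_one] at this
  omega

theorem Hyp.inv (h : Hyp G Ω i t) : t⁻¹ = t := inv_eq_of_mul_eq_one_left h.tt

theorem Hyp.conj (h : Hyp G Ω i t) (g : G) : Hyp G Ω i (g * t * g⁻¹) := by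
  refine ⟨h.two, ?_, ?_⟩
  · rw [← h.ht]
    have := orderOf_injective (MulAut.conj g).toMonoidHom (MulAut.conj g).injective t
    rw [← this]; simp
  · intro x hx hx1
    have h1 : Commute (g⁻¹ * x * g) t := by
      have h2 : x * (g * t * g⁻¹) = (g * t * g⁻¹) * x := hx
      have h3 : g⁻¹ * (x * (g * t * g⁻¹)) * g = g⁻¹ * ((g * t * g⁻¹) * x) * g := by rw [h2]
      show g⁻¹ * x * g * t = t * (g⁻¹ * x * g)
      calc g⁻¹ * x * g * t = g⁻¹ * (x * (g * t * g⁻¹)) * g := by group
        _ = g⁻¹ * ((g * t * g⁻¹) * x) * g := h3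
        _ = t * (g⁻¹ * x * g) := by group
    have h2 : g⁻¹ * x * g ≠ 1 := by
      intro h3
      apply hx1
      have : x = g * (g⁻¹ * x * g) * g⁻¹ := by group
      rw [this, h3]; group
    rw [← h.fix _ h1 h2]
    have := card_fix_conj (Ω := Ω) g⁻¹ x
    rw [inv_inv] at this
    exact this.symm

theorem Hyp.of_isConj (h : Hyp G Ω i t) {s : G} (hs : IsConj t s) : Hyp G Ω i s := by
  obtain ⟨g, rfl⟩ := isConj_iff.1 hs
  exact h.conj g

variable [Finite G] [Finite Ω]

theorem card_group (h2 : ∀ a b c d : Ω, a ≠ b → c ≠ d → ∃ g : G, g • a = c ∧ g • b = d)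
    {a b : Ω} (hab : a ≠ b) : Nat.card G = Nat.card {p : Ω × Ω // p.1 ≠ p.2} * Nat.card (St G a b) := by
  have := const_fib (A := G) (B := {p : Ω × Ω // p.1 ≠ p.2})
    (fun g => ⟨(g • a, g • b), fun h => hab (smul_left_cancel g h)⟩) ⟨(a, b), hab⟩ (by
      rintro ⟨⟨c, d⟩, hcd⟩
      obtain ⟨g0, h3, h4⟩ := h2 c d a b hcd hab
      refine ⟨Equiv.mulLeft g0, ?_⟩
      intro x
      simp only [Equiv.coe_mulLeft, Subtype.mk.injEq, Prod.mk.injEq, mul_smul]
      constructor
      · rintro ⟨rfl, rfl⟩; exact ⟨h3, h4⟩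
      · rintro ⟨h5, h6⟩
        exact ⟨smul_left_cancel g0 (h5.trans h3.symm), smul_left_cancel g0 (h6.trans h4.symm)⟩)
  rw [this]
  congr 1
  refine Nat.card_congr (Equiv.subtypeEquivRight ?_)
  intro g
  rw [Subtype.mk.injEq, Prod.mk.injEq]
  exact mem_St.symm

theorem card_W : Nat.card {p : Ω × Ω // p.1 ≠ p.2} + Nat.card Ω = Nat.card Ω * Nat.card Ω := by
  classical
  have h1 : Nat.card {p : Ω × Ω // p.1 = p.2} = Nat.card Ω :=
    Nat.card_congr ⟨fun p => p.1.1, fun x => ⟨(x, x), rfl⟩, fun p => by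
      obtain ⟨⟨x, y⟩, h⟩ := p
      simp only at h
      subst h; rfl, fun x => rfl⟩
  have h2 : Nat.card (Ω × Ω) = Nat.card {p : Ω × Ω // p.1 = p.2} + Nat.card {p : Ω × Ω // ¬ p.1 = p.2} := by
    rw [← Nat.card_sum]
    exact Nat.card_congr (Equiv.sumCompl _).symm
  rw [Nat.card_prod, h1] at h2
  have h3 : Nat.card {p : Ω × Ω // p.1 ≠ p.2} = Nat.card {p : Ω × Ω // ¬ p.1 = p.2} := rfl
  omega

theorem card_Y (h : Hyp G Ω i t) : Nat.card {y : Ω // t • y ≠ y} + i = Nat.card Ω := by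
  classical
  have h1 := h.fix t (Commute.refl t) h.ne_one
  have h2 : Nat.card Ω = Nat.card {y : Ω // t • y = y} + Nat.card {y : Ω // ¬ t • y = y} := by
    rw [← Nat.card_sum]
    exact Nat.card_congr (Equiv.sumCompl _).symm
  have h3 : Nat.card {y : Ω // t • y ≠ y} = Nat.card {y : Ω // ¬ t • y = y} := rfl
  omega

/-- Burnside sum over the centralizer -/
theorem sum_fix (h : Hyp G Ω i t) [Fintype (centralizer ({t} : Set G))] :
    ∑ g : centralizer ({t} : Set G), Nat.card {y : Ω // (g : G) • y = y} =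
      Nat.card (centralizer ({t} : Set G)) * i + Nat.card {y : Ω // t • y ≠ y} := by
  classical
  have h1 : ∀ g : centralizer ({t} : Set G), Nat.card {y : Ω // (g : G) • y = y} =
      i + if g = 1 then Nat.card {y : Ω // t • y ≠ y} else 0 := by
    intro g
    split_ifs with hg
    · subst hg
      have h2 := card_Y h
      have h3 : Nat.card {y : Ω // ((1 : centralizer ({t} : Set G)) : G) • y = y} = Nat.card Ω :=
        Nat.card_congr (Equiv.subtypeUnivEquiv (fun y => by simp))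
      rw [h3]; omega
    · rw [add_zero]
      apply h.fix
      · have := mem_centralizer_singleton_iff.1 g.2
        exact this
      · intro h2; exact hg (Subtype.ext h2)
  simp only [h1, Finset.sum_add_distrib, Finset.sum_const, Finset.card_univ, smul_eq_mul,
    Finset.sum_ite_eq', Finset.mem_univ, if_true, ← Nat.card_eq_fintype_card (α := centralizer ({t} : Set G))]

theorem card_C_dvd (h : Hyp G Ω i t) :
    Nat.card (centralizer ({t} : Set G)) ∣ Nat.card {y : Ω // t • y ≠ y} := by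
  classical
  haveI := Fintype.ofFinite (centralizer ({t} : Set G))
  haveI := Fintype.ofFinite Ω
  have h1 := MulAction.sum_card_fixedBy_eq_card_orbits_mul_card_group (centralizer ({t} : Set G)) Ω
  have h2 := sum_fix h
  have h3 : ∀ g : centralizer ({t} : Set G), Fintype.card (fixedBy Ω g) = Nat.card {y : Ω // (g : G) • y = y} := by
    intro g
    rw [← Nat.card_eq_fintype_card]; rfl
  simp only [h3] at h1
  rw [h2, ← Nat.card_eq_fintype_card (α := centralizer ({t} : Set G))] at h1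
  have h4 : Nat.card (centralizer ({t} : Set G)) ∣ Nat.card (centralizer ({t} : Set G)) * i + Nat.card {y : Ω // t • y ≠ y} := by
    rw [h1]; exact Dvd.intro_left _ rfl
  exact (Nat.dvd_add_right (Dvd.intro _ rfl)).1 h4

end

section

variable {i : ℕ} {t : G} [Finite G] [Finite Ω] [FaithfulSMul G Ω]

theorem exists_moved {g : G} (hg : g ≠ 1) : ∃ y : Ω, g • y ≠ y := by
  by_contra hcon
  push Not at hcon
  apply hg
  apply FaithfulSMul.eq_of_smul_eq_smul (α := Ω)
  intro y
  rw [hcon y, one_smul]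

theorem main_count (h : Hyp G Ω i t) {a b : Ω} (hab : a ≠ b) :
    (∀ x : G, x • a = b → x • b = a → IsConj t x) ∧
      Nat.card (centralizer ({t} : Set G)) = Nat.card {y : Ω // t • y ≠ y} := by
  classical
  obtain ⟨y0, hy0⟩ := exists_moved (Ω := Ω) h.ne_one
  have hYpos : 0 < Nat.card {y : Ω // t • y ≠ y} := Nat.card_pos_iff.2 ⟨⟨⟨y0, hy0⟩⟩, inferInstance⟩
  have hWpos : 0 < Nat.card {p : Ω × Ω // p.1 ≠ p.2} := Nat.card_pos_iff.2 ⟨⟨⟨(a, b), hab⟩⟩, inferInstance⟩
  have hCpos : 0 < Nat.card (centralizer ({t} : Set G)) := Nat.card_pos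
  have hGW := card_group h.two hab
  let φ : G × {y : Ω // t • y ≠ y} → {p : Ω × Ω // p.1 ≠ p.2} :=
    fun p => ⟨(p.1 • (p.2 : Ω), p.1 • (t • (p.2 : Ω))), fun h1 => p.2.2 (smul_left_cancel p.1 h1).symm⟩
  have hfib := const_fib φ ⟨(a, b), hab⟩ (by
    rintro ⟨⟨c, d⟩, hcd⟩
    obtain ⟨g0, h3, h4⟩ := h.two c d a b hcd hab
    refine ⟨Equiv.prodCongr (Equiv.mulLeft g0) (Equiv.refl _), ?_⟩
    rintro ⟨g, y⟩
    simp only [φ, Equiv.prodCongr_apply, Prod.map_apply, Equiv.coe_mulLeft, Equiv.refl_apply,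
      Subtype.mk.injEq, Prod.mk.injEq, mul_smul]
    constructor
    · rintro ⟨rfl, rfl⟩; exact ⟨h3, h4⟩
    · rintro ⟨h5, h6⟩
      exact ⟨smul_left_cancel g0 (h5.trans h3.symm), smul_left_cancel g0 (h6.trans h4.symm)⟩)
  rw [Nat.card_prod] at hfib
  -- fibre bound
  have hchoose : ∀ x : G, IsConj t x → ∃ k : G, k * t * k⁻¹ = x := fun x hx => isConj_iff.1 hx
  choose k hk using hchoose
  have hbound : Nat.card {p // φ p = ⟨(a, b), hab⟩} ≤
      Nat.card ({x : G // (x • a = b ∧ x • b = a) ∧ IsConj t x} × (centralizer ({t} : Set G))) := by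
    have key : ∀ p : {p // φ p = ⟨(a, b), hab⟩}, p.1.1 • (p.1.2 : Ω) = a ∧ p.1.1 • (t • (p.1.2 : Ω)) = b := by
      intro p
      have h1 := p.2
      simp only [φ, Subtype.mk.injEq, Prod.mk.injEq] at h1
      exact h1
    have hconj : ∀ p : {p // φ p = ⟨(a, b), hab⟩}, IsConj t (p.1.1 * t * p.1.1⁻¹) := fun p =>
      isConj_iff.2 ⟨p.1.1, rfl⟩
    let f : {p // φ p = ⟨(a, b), hab⟩} →
        ({x : G // (x • a = b ∧ x • b = a) ∧ IsConj t x} × (centralizer ({t} : Set G))) := fun p =>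
      (⟨p.1.1 * t * p.1.1⁻¹, by
        obtain ⟨h1, h2⟩ := key p
        refine ⟨⟨?_, ?_⟩, hconj p⟩
        · calc (p.1.1 * t * p.1.1⁻¹) • a = (p.1.1 * t * p.1.1⁻¹) • (p.1.1 • (p.1.2 : Ω)) := by rw [h1]
            _ = p.1.1 • (t • (p.1.2 : Ω)) := by rw [mul_smul, mul_smul, inv_smul_smul]
            _ = b := h2
        · calc (p.1.1 * t * p.1.1⁻¹) • b = (p.1.1 * t * p.1.1⁻¹) • (p.1.1 • (t • (p.1.2 : Ω))) := by rw [h2]
            _ = p.1.1 • (p.1.2 : Ω) := by rw [mul_smul, mul_smul, inv_smul_smul, ← mul_smul t t, h.tt, one_smul]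
            _ = a := h1⟩,
       ⟨(k _ (hconj p))⁻¹ * p.1.1, by
        rw [mem_centralizer_singleton_iff]
        have h1 := hk _ (hconj p)
        generalize k _ (hconj p) = kk at h1
        have h2 : t * kk⁻¹ = kk⁻¹ * (p.1.1 * t * p.1.1⁻¹) := by rw [← h1]; group
        rw [← mul_assoc, h2]; group⟩)
    apply Nat.card_le_card_of_injective f
    intro p q hpq
    simp only [f, Prod.mk.injEq, Subtype.mk.injEq] at hpq
    obtain ⟨h1, h2⟩ := hpq
    have h3 : p.1.1 = q.1.1 := by
      have h4 : k _ (hconj p) = k _ (hconj q) := by congr 1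
      rw [h4] at h2
      exact mul_left_cancel h2
    have h5 : p.1.2 = q.1.2 := by
      apply Subtype.ext
      have h6 := (key p).1
      have h7 := (key q).1
      rw [h3] at h6
      exact smul_left_cancel _ (h6.trans h7.symm)
    exact Subtype.ext (Prod.ext h3 h5)
  rw [Nat.card_prod] at hbound
  have hS1 : Nat.card {x : G // (x • a = b ∧ x • b = a) ∧ IsConj t x} ≤ Nat.card {x : G // x • a = b ∧ x • b = a} :=
    Nat.card_le_card_of_injective (fun x => ⟨x.1, x.2.1⟩) (fun x y hxy => Subtype.ext (Subtype.mk.inj hxy))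
  have hS2 : Nat.card {x : G // x • a = b ∧ x • b = a} ≤ Nat.card (St G a b) := by
    by_cases hne : Nonempty {x : G // x • a = b ∧ x • b = a}
    · obtain ⟨⟨s, hs1, hs2⟩⟩ := hne
      refine Nat.card_le_card_of_injective (fun x => ⟨s⁻¹ * x.1, mem_St.2 ⟨?_, ?_⟩⟩) ?_
      · rw [mul_smul, x.2.1, ← hs1, inv_smul_smul]
      · rw [mul_smul, x.2.2, ← hs2, inv_smul_smul]
      · intro x y hxy
        have := congrArg Subtype.val hxy
        exact Subtype.ext (mul_left_cancel this)
    · have : Nat.card {x : G // x • a = b ∧ x • b = a} = 0 := by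
        rw [Nat.card_eq_zero]
        left
        exact not_nonempty_iff.1 hne
      omega
  set D := Nat.card (St G a b) with hD
  set C := Nat.card (centralizer ({t} : Set G)) with hC
  set Y := Nat.card {y : Ω // t • y ≠ y} with hY
  set W := Nat.card {p : Ω × Ω // p.1 ≠ p.2} with hW
  set N1 := Nat.card {x : G // (x • a = b ∧ x • b = a) ∧ IsConj t x} with hN1
  set N2 := Nat.card {x : G // x • a = b ∧ x • b = a} with hN2
  set Fb := Nat.card {p // φ p = ⟨(a, b), hab⟩} with hFb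
  have hDY : D * Y = Fb := by
    apply Nat.eq_of_mul_eq_mul_left hWpos
    rw [← hfib, hGW]; ring
  have hCY : C ≤ Y := Nat.le_of_dvd hYpos (card_C_dvd h)
  have hDpos : 0 < D := Nat.card_pos
  have e1 : D * C ≤ N1 * C := by
    calc D * C ≤ D * Y := Nat.mul_le_mul_left _ hCY
      _ = Fb := hDY
      _ ≤ N1 * C := hbound
  have e2 : D ≤ N1 := Nat.le_of_mul_le_mul_right e1 hCpos
  have e3 : N1 = N2 := by omega
  have e4 : D * Y ≤ D * C := by
    calc D * Y = Fb := hDY
      _ ≤ N1 * C := hbound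
      _ ≤ D * C := Nat.mul_le_mul_right _ (by omega)
  have e5 : Y ≤ C := Nat.le_of_mul_le_mul_left e4 hDpos
  refine ⟨?_, by omega⟩
  intro x hx1 hx2
  have hsurj : Function.Surjective (fun x : {x : G // (x • a = b ∧ x • b = a) ∧ IsConj t x} =>
      (⟨x.1, x.2.1⟩ : {x : G // x • a = b ∧ x • b = a})) := by
    haveI := Fintype.ofFinite {x : G // (x • a = b ∧ x • b = a) ∧ IsConj t x}
    haveI := Fintype.ofFinite {x : G // x • a = b ∧ x • b = a}
    have hinj : Function.Injective (fun x : {x : G // (x • a = b ∧ x • b = a) ∧ IsConj t x} =>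
      (⟨x.1, x.2.1⟩ : {x : G // x • a = b ∧ x • b = a})) :=
      (fun x y hxy => Subtype.ext (Subtype.mk.inj hxy))
    refine ((Fintype.bijective_iff_injective_and_card _).2 ⟨hinj, ?_⟩).2
    rw [← Nat.card_eq_fintype_card, ← Nat.card_eq_fintype_card]
    exact e3
  obtain ⟨z, hz⟩ := hsurj ⟨x, hx1, hx2⟩
  have : z.1 = x := congrArg Subtype.val hz
  rw [← this]; exact z.2.2

/-- elements swapping two points are conjugate to `t` -/
theorem Hyp.swap (h : Hyp G Ω i t) {a b : Ω} (hab : a ≠ b) {x : G} (h1 : x • a = b) (h2 : x • b = a) :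
    Hyp G Ω i x := h.of_isConj ((main_count h hab).1 x h1 h2)

theorem Hyp.card_C (h : Hyp G Ω i t) :
    Nat.card (centralizer ({t} : Set G)) + i = Nat.card Ω := by
  obtain ⟨y0, hy0⟩ := exists_moved (Ω := Ω) h.ne_one
  rw [(main_count h hy0).2]
  exact card_Y h

/-- every involution satisfies the hypothesis -/
theorem Hyp.invol (h : Hyp G Ω i t) {s : G} (hs : orderOf s = 2) : Hyp G Ω i s := by
  have hs1 : s ≠ 1 := by rintro rfl; rw [orderOf_one] at hs; omega
  obtain ⟨y, hy⟩ := exists_moved (Ω := Ω) hs1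
  refine h.swap hy (x := s) ?_ rfl
  rw [← mul_smul, ← pow_two, ← hs, pow_orderOf_eq_one, one_smul]

theorem Hyp.isConj (h : Hyp G Ω i t) {s : G} (hs : orderOf s = 2) : IsConj t s := by
  have hs1 : s ≠ 1 := by rintro rfl; rw [orderOf_one] at hs; omega
  obtain ⟨y, hy⟩ := exists_moved (Ω := Ω) hs1
  refine (main_count h hy).1 s ?_ rfl
  rw [← mul_smul, ← pow_two, ← hs, pow_orderOf_eq_one, one_smul]

theorem Hyp.exists_swap (h : Hyp G Ω i t) {a b : Ω} (hab : a ≠ b) : ∃ u : G, u • a = b ∧ u • b = a :=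
  h.two a b b a hab hab.symm

/-- swapping elements invert the two-point stabilizer -/
theorem Hyp.inverts (h : Hyp G Ω i t) {a b : Ω} (hab : a ≠ b) {u d : G} (h1 : u • a = b) (h2 : u • b = a)
    (hd : d ∈ St G a b) : u * d * u⁻¹ = d⁻¹ := by
  obtain ⟨hd1, hd2⟩ := mem_St.1 hd
  have hu := (h.swap hab h1 h2)
  have hud := (h.swap hab (x := u * d) (by rw [mul_smul, hd1, h1]) (by rw [mul_smul, hd2, h2])).tt
  rw [hu.inv]
  have : u * d * u * d = 1 := by rw [← hud]; group
  exact eq_inv_of_mul_eq_one_left this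

theorem Hyp.comm (h : Hyp G Ω i t) {a b : Ω} (hab : a ≠ b) {d e : G} (hd : d ∈ St G a b) (he : e ∈ St G a b) :
    d * e = e * d := by
  obtain ⟨u, h1, h2⟩ := h.exists_swap hab
  have h3 := h.inverts hab h1 h2 (mul_mem hd he)
  have h4 : u * (d * e) * u⁻¹ = (u * d * u⁻¹) * (u * e * u⁻¹) := by group
  rw [h4, h.inverts hab h1 h2 hd, h.inverts hab h1 h2 he, ← mul_inv_rev] at h3
  exact (inv_injective h3).symm

/-- an element commuting with `t` and fixing a point moved by `t` is an involution -/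
theorem Hyp.sq_of_fix (h : Hyp G Ω i t) {y : Ω} (hy : t • y ≠ y) {g : G} (hg : Commute g t) (hgy : g • y = y) :
    g * g = 1 := by
  have h1 : g ∈ St G y (t • y) := mem_St.2 ⟨hgy, by rw [← mul_smul, hg.eq, mul_smul, hgy]⟩
  have h2 := h.inverts (Ne.symm hy) (u := t) rfl (by rw [← mul_smul, h.tt, one_smul]) h1
  have h3 : t * g * t⁻¹ = g := by rw [← hg.eq]; group
  rw [h3] at h2
  nth_rw 1 [h2]
  group

end

end Cfsg.Agent.Lib.HeringTwo
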