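import Cfsg.Agent.Lib.HeringTwoA

/-!
# Part B (helper48): some involution fixes two points
-/

set_option autoImplicit false
set_option linter.all false

namespace Cfsg.Agent.Lib.HeringTwo

open MulAction Subgroup

variable {G Ω : Type*} [Group G] [MulAction G Ω] {i : ℕ} {t : G} [Finite G] [Finite Ω] [FaithfulSMul G Ω]

theorem St_conj {a b c d : Ω} {g : G} (h1 : g • a = c) (h2 : g • b = d) {x : G} :
    x ∈ St G a b ↔ g * x * g⁻¹ ∈ St G c d := by
  rw [mem_St, mem_St, ← h1, ← h2]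
  simp only [mul_smul, inv_smul_smul]
  constructor
  · rintro ⟨h3, h4⟩; rw [h3, h4]; exact ⟨rfl, rfl⟩
  · rintro ⟨h3, h4⟩; exact ⟨smul_left_cancel g h3, smul_left_cancel g h4⟩

theorem Hyp.card_St (h : Hyp G Ω i t) {a b c d : Ω} (hab : a ≠ b) (hcd : c ≠ d) :
    Nat.card (St G a b) = Nat.card (St G c d) := by
  obtain ⟨g, h1, h2⟩ := h.two a b c d hab hcd
  refine Nat.card_congr ((MulAut.conj g).toEquiv.subtypeEquiv ?_)
  intro x
  exact St_conj h1 h2

theorem Hyp.card_St2 (h : Hyp G Ω i t) {a b c d : Ω} (hab : a ≠ b) (hcd : c ≠ d) :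
    Nat.card {g : G // g ∈ St G a b ∧ g * g = 1} = Nat.card {g : G // g ∈ St G c d ∧ g * g = 1} := by
  obtain ⟨g, h1, h2⟩ := h.two a b c d hab hcd
  refine Nat.card_congr ((MulAut.conj g).toEquiv.subtypeEquiv ?_)
  intro x
  refine and_congr (St_conj h1 h2) ?_
  show x * x = 1 ↔ (g * x * g⁻¹) * (g * x * g⁻¹) = 1
  have : (g * x * g⁻¹) * (g * x * g⁻¹) = g * (x * x) * g⁻¹ := by group
  rw [this]
  constructor
  · intro h3; rw [h3]; group
  · intro h3
    have : x * x = g⁻¹ * (g * (x * x) * g⁻¹) * g := by group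
    rw [this, h3]; group

/-- `G_{ab} ≤ C(t)` if `t` fixes `a ≠ b` -/
theorem Hyp.St_le (h : Hyp G Ω i t) {a b : Ω} (hab : a ≠ b) (ha : t • a = a) (hb : t • b = b) {d : G}
    (hd : d ∈ St G a b) : d ∈ centralizer ({t} : Set G) :=
  mem_centralizer_singleton_iff.2 (h.comm hab hd (mem_St.2 ⟨ha, hb⟩))

theorem Hyp.swap_mem (h : Hyp G Ω i t) {a b : Ω} (hab : a ≠ b) (ha : t • a = a) (hb : t • b = b) {u : G}
    (h1 : u • a = b) (h2 : u • b = a) : u ∈ centralizer ({t} : Set G) := by
  rw [mem_centralizer_singleton_iff]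
  have h3 := h.inverts hab h1 h2 (mem_St.2 ⟨ha, hb⟩ : t ∈ St G a b)
  rw [h.inv, mul_inv_eq_iff_eq_mul] at h3
  exact h3

theorem Hyp.trans_fix (h : Hyp G Ω i t) {a b : Ω} (ha : t • a = a) (hb : t • b = b) :
    ∃ u ∈ centralizer ({t} : Set G), u • a = b := by
  by_cases hab : a = b
  · exact ⟨1, one_mem _, by rw [one_smul, hab]⟩
  · obtain ⟨u, h1, h2⟩ := h.exists_swap hab
    exact ⟨u, h.swap_mem hab ha hb h1 h2, h1⟩

theorem Hyp.fix_of_mem (h : Hyp G Ω i t) {g : G} (hg : g ∈ centralizer ({t} : Set G)) {a : Ω} (ha : t • a = a) :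
    t • (g • a) = g • a := by
  rw [← mul_smul, ← mem_centralizer_singleton_iff.1 hg, mul_smul, ha]

/-- orbit-stabilizer for `C(t)` on `Fix(t)` -/
theorem Hyp.card_stab_fix (h : Hyp G Ω i t) {a : Ω} (ha : t • a = a) :
    Nat.card (centralizer ({t} : Set G)) = i * Nat.card {g : centralizer ({t} : Set G) // (g : G) • a = a} := by
  have h1 := const_fib (A := centralizer ({t} : Set G)) (B := {x : Ω // t • x = x})
    (fun g => ⟨(g : G) • a, h.fix_of_mem g.2 ha⟩) ⟨a, ha⟩ (by
      rintro ⟨b, hb⟩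
      obtain ⟨u, hu, hub⟩ := h.trans_fix hb ha
      refine ⟨Equiv.mulLeft (⟨u, hu⟩ : centralizer ({t} : Set G)), ?_⟩
      intro x
      simp only [Equiv.coe_mulLeft, Subtype.mk.injEq, Subgroup.coe_mul, mul_smul]
      constructor
      · rintro rfl; exact hub
      · intro h2
        exact smul_left_cancel u (h2.trans hub.symm))
  rw [h1, h.fix t (Commute.refl t) h.ne_one]
  congr 1
  refine Nat.card_congr (Equiv.subtypeEquivRight ?_)
  intro g
  rw [Subtype.mk.injEq]

theorem Hyp.card_stab_moved (h : Hyp G Ω i t) {y : Ω} (hy : t • y ≠ y) :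
    Nat.card {g : centralizer ({t} : Set G) // (g : G) • y = y} =
      Nat.card {g : G // g ∈ St G y (t • y) ∧ g * g = 1} := by
  have key : ∀ g : G, (g ∈ centralizer ({t} : Set G) ∧ g • y = y) ↔ (g ∈ St G y (t • y) ∧ g * g = 1) := by
    intro g
    constructor
    · rintro ⟨h1, h2⟩
      have h3 : Commute g t := mem_centralizer_singleton_iff.1 h1
      exact ⟨mem_St.2 ⟨h2, by rw [← mul_smul, h3.eq, mul_smul, h2]⟩, h.sq_of_fix hy h3 h2⟩
    · rintro ⟨h1, h2⟩
      refine ⟨?_, (mem_St.1 h1).1⟩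
      have h3 := h.inverts (Ne.symm hy) (u := t) rfl (by rw [← mul_smul, h.tt, one_smul]) h1
      have h4 : g⁻¹ = g := inv_eq_of_mul_eq_one_left h2
      rw [h4, mul_inv_eq_iff_eq_mul] at h3
      exact mem_centralizer_singleton_iff.2 h3.symm
  refine Nat.card_congr ⟨fun g => ⟨g.1, (key g.1).1 ⟨g.1.2, g.2⟩⟩,
    fun g => ⟨⟨g.1, ((key g.1).2 g.2).1⟩, ((key g.1).2 g.2).2⟩, fun g => rfl, fun g => rfl⟩

/-- if `t` fixes `c ≠ d` then `i` is the number of `g ∈ G_{cd}` with `g² = 1` -/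
theorem Hyp.i_eq (h : Hyp G Ω i t) {c d : Ω} (hcd : c ≠ d) (hc : t • c = c) (hd : t • d = d) :
    i = Nat.card {g : G // g ∈ St G c d ∧ g * g = 1} := by
  classical
  haveI := Fintype.ofFinite (centralizer ({t} : Set G))
  haveI := Fintype.ofFinite Ω
  set a := Nat.card {g : G // g ∈ St G c d ∧ g * g = 1} with ha
  set X := Nat.card (centralizer ({t} : Set G)) with hX
  have hXpos : 0 < X := Nat.card_pos
  obtain ⟨y0, hy0⟩ := exists_moved (Ω := Ω) h.ne_one
  have hXY : X = Nat.card {y : Ω // t • y ≠ y} := (main_count h hy0).2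
  have h1 := sum_fix h
  rw [double_count (fun (g : centralizer ({t} : Set G)) (y : Ω) => (g : G) • y = y)] at h1
  have h2 : ∑ y : Ω, Nat.card {g : centralizer ({t} : Set G) // (g : G) • y = y} =
      (∑ y ∈ Finset.univ.filter (fun y : Ω => t • y = y), Nat.card {g : centralizer ({t} : Set G) // (g : G) • y = y}) +
      ∑ y ∈ Finset.univ.filter (fun y : Ω => ¬ t • y = y), Nat.card {g : centralizer ({t} : Set G) // (g : G) • y = y} :=
    (Finset.sum_filter_add_sum_filter_not _ _ _).symm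
  have hi : Nat.card {y : Ω // t • y = y} = i := h.fix t (Commute.refl t) h.ne_one
  have hi0 : 0 < i := by
    rw [← hi]; exact Nat.card_pos_iff.2 ⟨⟨⟨c, hc⟩⟩, inferInstance⟩
  have h3 : i * (∑ y ∈ Finset.univ.filter (fun y : Ω => t • y = y), Nat.card {g : centralizer ({t} : Set G) // (g : G) • y = y}) = i * X := by
    rw [Finset.mul_sum]
    have h4 : ∀ y ∈ Finset.univ.filter (fun y : Ω => t • y = y), i * Nat.card {g : centralizer ({t} : Set G) // (g : G) • y = y} = X := by
      intro y hy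
      exact (h.card_stab_fix (Finset.mem_filter.1 hy).2).symm
    rw [Finset.sum_congr rfl h4, Finset.sum_const, smul_eq_mul]
    congr 1
    rw [← hi, Nat.card_eq_fintype_card, Fintype.card_subtype]
  have h3' := Nat.eq_of_mul_eq_mul_left hi0 h3
  have h5 : (∑ y ∈ Finset.univ.filter (fun y : Ω => ¬ t • y = y), Nat.card {g : centralizer ({t} : Set G) // (g : G) • y = y}) = X * a := by
    have h4 : ∀ y ∈ Finset.univ.filter (fun y : Ω => ¬ t • y = y), Nat.card {g : centralizer ({t} : Set G) // (g : G) • y = y} = a := by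
      intro y hy
      have hy' := (Finset.mem_filter.1 hy).2
      rw [h.card_stab_moved hy', ha]
      exact h.card_St2 (Ne.symm hy') hcd
    rw [Finset.sum_congr rfl h4, Finset.sum_const, smul_eq_mul]
    congr 1
    rw [hXY, Nat.card_eq_fintype_card, Fintype.card_subtype]
  rw [h2, h3', h5, ← hXY] at h1
  have h6 : X * a = X * i := by
    have : X + X * a = X * i + X := h1
    omega
  exact (Nat.eq_of_mul_eq_mul_left hXpos h6).symm

/-- `|C(t)| = i |G_{cd}|` -/
theorem Hyp.card_C_eq (h : Hyp G Ω i t) {c d : Ω} (hcd : c ≠ d) (hc : t • c = c) (hd : t • d = d) :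
    Nat.card (centralizer ({t} : Set G)) = i * Nat.card (St G c d) := by
  classical
  set X := Nat.card (centralizer ({t} : Set G)) with hX
  have hi : Nat.card {y : Ω // t • y = y} = i := h.fix t (Commute.refl t) h.ne_one
  -- lower bound
  have h1 := h.card_stab_fix hc
  have h2 : Nat.card (St G c d) ≤ Nat.card {g : centralizer ({t} : Set G) // (g : G) • c = c} := by
    refine Nat.card_le_card_of_injective (fun x => ⟨⟨x.1, h.St_le hcd hc hd x.2⟩, (mem_St.1 x.2).1⟩) ?_
    intro x y hxy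
    have := congrArg (fun z : {g : centralizer ({t} : Set G) // (g : G) • c = c} => ((z.1 : centralizer ({t} : Set G)) : G)) hxy
    exact Subtype.ext this
  have h3 : i * Nat.card (St G c d) ≤ X := by
    rw [hX, h1]; exact Nat.mul_le_mul_left _ h2
  -- upper bound
  have hi2 : 2 ≤ i := by
    rw [← hi]
    haveI := Fintype.ofFinite {y : Ω // t • y = y}
    rw [Nat.card_eq_fintype_card]
    exact Fintype.one_lt_card_iff.2 ⟨⟨c, hc⟩, ⟨d, hd⟩, fun h4 => hcd (congrArg Subtype.val h4)⟩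
  let P := {p : {y : Ω // t • y = y} × {y : Ω // t • y = y} // p.1 ≠ p.2}
  have hP : Nat.card P + i = i * i := by
    have := card_W (Ω := {y : Ω // t • y = y})
    rw [hi] at this
    exact this
  let φ : G × P → {p : Ω × Ω // p.1 ≠ p.2} :=
    fun p => ⟨(p.1 • (p.2.1.1 : Ω), p.1 • (p.2.1.2 : Ω)), fun h1 => p.2.2 (Subtype.ext (smul_left_cancel p.1 h1))⟩
  have hfib := const_fib φ ⟨(c, d), hcd⟩ (by
    rintro ⟨⟨x, y⟩, hxy⟩
    obtain ⟨g0, h5, h6⟩ := h.two x y c d hxy hcd
    refine ⟨Equiv.prodCongr (Equiv.mulLeft g0) (Equiv.refl _), ?_⟩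
    rintro ⟨g, z⟩
    simp only [φ, Equiv.prodCongr_apply, Prod.map_apply, Equiv.coe_mulLeft, Equiv.refl_apply,
      Subtype.mk.injEq, Prod.mk.injEq, mul_smul]
    constructor
    · rintro ⟨rfl, rfl⟩; exact ⟨h5, h6⟩
    · rintro ⟨h7, h8⟩
      exact ⟨smul_left_cancel g0 (h7.trans h5.symm), smul_left_cancel g0 (h8.trans h6.symm)⟩)
  rw [Nat.card_prod] at hfib
  have hchoose : ∀ x : G, orderOf x = 2 → ∃ k : G, k * t * k⁻¹ = x := fun x hx => isConj_iff.1 (h.isConj hx)
  choose k hk using hchoose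
  -- involutions in St
  have hInv : Nat.card {g : G // g ∈ St G c d ∧ orderOf g = 2} + 1 = i := by
    rw [h.i_eq hcd hc hd]
    have h4 : Nat.card {g : G // g ∈ St G c d ∧ g * g = 1} =
        Nat.card ({g : G // g ∈ St G c d ∧ orderOf g = 2} ⊕ Unit) := by
      refine (Nat.card_congr ⟨fun z => match z with
        | Sum.inl z => ⟨z.1, z.2.1, by
            have h9 := pow_orderOf_eq_one z.1
            rw [z.2.2] at h9
            rw [← pow_two]; exact h9⟩
        | Sum.inr _ => ⟨1, one_mem _, one_mul 1⟩, fun g => if hg : g.1 = 1 then Sum.inr () else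
          Sum.inl ⟨g.1, g.2.1, by
            haveI : Fact (Nat.Prime 2) := ⟨Nat.prime_two⟩
            exact orderOf_eq_prime (by rw [pow_two]; exact g.2.2) hg⟩, ?_, ?_⟩).symm
      · rintro (⟨g, hg1, hg2⟩ | u)
        · have : g ≠ 1 := by rintro rfl; rw [orderOf_one] at hg2; omega
          simp [this]
        · simp
      · rintro ⟨g, hg1, hg2⟩
        by_cases h5 : g = 1
        · subst h5; simp
        · simp [h5]
    rw [h4, Nat.card_sum]
    simp
  have hbound : Nat.card ({g : G // g ∈ St G c d ∧ orderOf g = 2} × (centralizer ({t} : Set G))) ≤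
      Nat.card {p // φ p = ⟨(c, d), hcd⟩} := by
    have hfix : ∀ (s : {g : G // g ∈ St G c d ∧ orderOf g = 2}) (x : centralizer ({t} : Set G)) (e : Ω),
        s.1 • e = e → t • ((k s.1 s.2.2 * x.1)⁻¹ • e) = (k s.1 s.2.2 * x.1)⁻¹ • e := by
      intro s x e he
      have h5 := hk s.1 s.2.2
      have h6 := mem_centralizer_singleton_iff.1 x.2
      generalize k s.1 s.2.2 = kk at h5
      have h7 : t * (kk * x.1)⁻¹ = (kk * x.1)⁻¹ * s.1 := by
        rw [← h5, mul_inv_rev]
        have h8 : t * x.1⁻¹ = x.1⁻¹ * t := by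
          rw [eq_inv_mul_iff_mul_eq, ← mul_assoc, h6]; group
        calc t * (x.1⁻¹ * kk⁻¹) = (t * x.1⁻¹) * kk⁻¹ := by group
          _ = x.1⁻¹ * kk⁻¹ * (kk * t * kk⁻¹) := by rw [h8]; group
      rw [← mul_smul, h7, mul_smul, he]
    let f : ({g : G // g ∈ St G c d ∧ orderOf g = 2} × (centralizer ({t} : Set G))) →
        {p // φ p = ⟨(c, d), hcd⟩} := fun p =>
      ⟨(k p.1.1 p.1.2.2 * p.2.1, ⟨(⟨(k p.1.1 p.1.2.2 * p.2.1)⁻¹ • c, hfix p.1 p.2 c (mem_St.1 p.1.2.1).1⟩,
        ⟨(k p.1.1 p.1.2.2 * p.2.1)⁻¹ • d, hfix p.1 p.2 d (mem_St.1 p.1.2.1).2⟩), by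
          intro h5
          exact hcd (smul_left_cancel _ (congrArg Subtype.val h5))⟩), by
        simp only [φ, Subtype.mk.injEq, Prod.mk.injEq, smul_inv_smul, and_self]⟩
    apply Nat.card_le_card_of_injective f
    rintro ⟨⟨s, hs1, hs2⟩, x⟩ ⟨⟨s', hs1', hs2'⟩, x'⟩ hpq
    have h5 : k s hs2 * x.1 = k s' hs2' * x'.1 := congrArg (fun z => z.1.1) hpq
    have h6 : s = s' := by
      rw [← hk s hs2, ← hk s' hs2']
      have e1 : k s hs2 * t * (k s hs2)⁻¹ = (k s hs2 * x.1) * t * (k s hs2 * x.1)⁻¹ := by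
        have := mem_centralizer_singleton_iff.1 x.2
        calc k s hs2 * t * (k s hs2)⁻¹ = k s hs2 * (t * x.1) * x.1⁻¹ * (k s hs2)⁻¹ := by group
          _ = k s hs2 * (x.1 * t) * x.1⁻¹ * (k s hs2)⁻¹ := by rw [this]
          _ = _ := by group
      have e2 : k s' hs2' * t * (k s' hs2')⁻¹ = (k s' hs2' * x'.1) * t * (k s' hs2' * x'.1)⁻¹ := by
        have := mem_centralizer_singleton_iff.1 x'.2
        calc k s' hs2' * t * (k s' hs2')⁻¹ = k s' hs2' * (t * x'.1) * x'.1⁻¹ * (k s' hs2')⁻¹ := by group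
          _ = k s' hs2' * (x'.1 * t) * x'.1⁻¹ * (k s' hs2')⁻¹ := by rw [this]
          _ = _ := by group
      rw [e1, e2, h5]
    subst h6
    have h7 : x = x' := Subtype.ext (mul_left_cancel h5)
    rw [h7]
  rw [Nat.card_prod] at hbound
  have hGW := card_group h.two hcd
  have hWpos : 0 < Nat.card {p : Ω × Ω // p.1 ≠ p.2} := Nat.card_pos_iff.2 ⟨⟨⟨(c, d), hcd⟩⟩, inferInstance⟩
  set W := Nat.card {p : Ω × Ω // p.1 ≠ p.2} with hW
  set D := Nat.card (St G c d) with hD
  set Fb := Nat.card {p // φ p = ⟨(c, d), hcd⟩} with hFb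
  set J := Nat.card {g : G // g ∈ St G c d ∧ orderOf g = 2} with hJ
  set PP := Nat.card P with hPP
  have e1 : D * PP = Fb := by
    apply Nat.eq_of_mul_eq_mul_left hWpos
    rw [← hfib, hGW]; ring
  obtain ⟨j, hj⟩ : ∃ j, i = j + 2 := ⟨i - 2, by omega⟩
  have e2 : J = j + 1 := by omega
  have e3 : PP = (j + 2) * (j + 1) := by
    rw [hj] at hP
    have : (j + 2) * (j + 2) = (j + 2) * (j + 1) + (j + 2) := by ring
    omega
  rw [e2] at hbound
  have e4 : (j + 1) * X ≤ (j + 1) * (D * (j + 2)) := by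
    calc (j + 1) * X ≤ Fb := hbound
      _ = D * PP := e1.symm
      _ = (j + 1) * (D * (j + 2)) := by rw [e3]; ring
  have e5 := Nat.le_of_mul_le_mul_left e4 (by omega)
  rw [hj] at h3 ⊢
  apply le_antisymm
  · calc X ≤ D * (j + 2) := e5
      _ = (j + 2) * D := by ring
  · exact h3

/-- the stabilizer of `c` in `C(t)` fixes `Fix(t)` pointwise -/
theorem Hyp.stab_eq (h : Hyp G Ω i t) {c e : Ω} (hce : c ≠ e) (hc : t • c = c) (he : t • e = e) {x : G}
    (hx : x ∈ centralizer ({t} : Set G)) (hxc : x • c = c) : x • e = e := by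
  classical
  have h1 := h.card_stab_fix hc
  rw [h.card_C_eq hce hc he] at h1
  have hi : Nat.card {y : Ω // t • y = y} = i := h.fix t (Commute.refl t) h.ne_one
  have hi0 : 0 < i := by
    rw [← hi]; exact Nat.card_pos_iff.2 ⟨⟨⟨c, hc⟩⟩, inferInstance⟩
  have h2 := Nat.eq_of_mul_eq_mul_left hi0 h1
  let f : St G c e → {g : centralizer ({t} : Set G) // (g : G) • c = c} :=
    fun x => ⟨⟨x.1, h.St_le hce hc he x.2⟩, (mem_St.1 x.2).1⟩
  have hinj : Function.Injective f := by
    intro x y hxy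
    have := congrArg (fun z : {g : centralizer ({t} : Set G) // (g : G) • c = c} => ((z.1 : centralizer ({t} : Set G)) : G)) hxy
    exact Subtype.ext this
  haveI := Fintype.ofFinite (St G c e)
  haveI := Fintype.ofFinite {g : centralizer ({t} : Set G) // (g : G) • c = c}
  have hsurj : Function.Surjective f := by
    refine ((Fintype.bijective_iff_injective_and_card _).2 ⟨hinj, ?_⟩).2
    rw [← Nat.card_eq_fintype_card, ← Nat.card_eq_fintype_card]
    exact h2
  obtain ⟨z, hz⟩ := hsurj ⟨⟨x, hx⟩, hxc⟩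
  have h3 : z.1 = x := congrArg (fun z : {g : centralizer ({t} : Set G) // (g : G) • c = c} => ((z.1 : centralizer ({t} : Set G)) : G)) hz
  rw [← h3]
  exact (mem_St.1 z.2).2

theorem arith_two {i : ℕ} (hi : 3 ≤ i)
    (h : (i * i) * (i * i - 1) ∣ ((i * i + i) * (i * i + i) - (i * i + i)) * i) : False := by
  obtain ⟨j, rfl⟩ : ∃ j, i = j + 2 := ⟨i - 2, by omega⟩
  have e1 : (j + 2) * (j + 2) - 1 = (j + 1) * (j + 3) := by
    have : (j + 2) * (j + 2) = (j + 1) * (j + 3) + 1 := by ring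
    omega
  have e2 : ((j + 2) * (j + 2) + (j + 2)) * ((j + 2) * (j + 2) + (j + 2)) - ((j + 2) * (j + 2) + (j + 2)) =
      ((j + 2) * (j + 3)) * ((j + 1) * (j + 4) + 1) := by
    have : ((j + 2) * (j + 2) + (j + 2)) * ((j + 2) * (j + 2) + (j + 2)) =
      ((j + 2) * (j + 3)) * ((j + 1) * (j + 4) + 1) + ((j + 2) * (j + 2) + (j + 2)) := by ring
    omega
  rw [e1, e2] at h
  have h2 : ((j + 2) * (j + 2) * (j + 3)) * (j + 1) ∣ ((j + 2) * (j + 2) * (j + 3)) * ((j + 1) * (j + 4) + 1) := by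
    have e3 : (j + 2) * (j + 2) * ((j + 1) * (j + 3)) = ((j + 2) * (j + 2) * (j + 3)) * (j + 1) := by ring
    have e4 : (j + 2) * (j + 3) * ((j + 1) * (j + 4) + 1) * (j + 2) = ((j + 2) * (j + 2) * (j + 3)) * ((j + 1) * (j + 4) + 1) := by ring
    rw [← e3, ← e4]; exact h
  have h3 : j + 1 ∣ (j + 1) * (j + 4) + 1 := Nat.dvd_of_mul_dvd_mul_left (by positivity) h2
  have h4 : j + 1 ∣ 1 := (Nat.dvd_add_right (Dvd.intro _ rfl)).1 h3
  have h5 := Nat.dvd_one.1 h4
  omega

/-- no third fixed point -/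
theorem Hyp.no_third (h : Hyp G Ω i t) {c d e : Ω} (hcd : c ≠ d) (hde : d ≠ e) (hce : c ≠ e) (hc : t • c = c)
    (hd : t • d = d) (he : t • e = e) : False := by
  classical
  -- elements of `C(t)` moving `c` are involutions inverting `D`
  have key : ∀ x ∈ centralizer ({t} : Set G), x • c ≠ c → x * x = 1 ∧ ∀ y ∈ St G c d, x * y * x⁻¹ = y⁻¹ := by
    intro x hx hxc
    have hc' := h.fix_of_mem hx hc
    obtain ⟨u, hu1, hu2⟩ := h.exists_swap (Ne.symm hxc)
    have hu := h.swap_mem (Ne.symm hxc) hc hc' hu1 hu2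
    have h1 : u⁻¹ * x ∈ centralizer ({t} : Set G) := mul_mem (inv_mem hu) hx
    have h2 : (u⁻¹ * x) • c = c := by rw [mul_smul, inv_smul_eq_iff, hu1]
    have h3 := h.stab_eq (Ne.symm hxc) hc hc' h1 h2
    have h4 : x • (x • c) = c := by
      have : x • (x • c) = u • ((u⁻¹ * x) • (x • c)) := by rw [mul_smul, smul_inv_smul]
      rw [this, h3, hu2]
    refine ⟨(h.swap (Ne.symm hxc) rfl h4).tt, ?_⟩
    intro y hy
    have hy' := h.St_le hcd hc hd hy
    have h5 : y ∈ St G c (x • c) := mem_St.2 ⟨(mem_St.1 hy).1, h.stab_eq (Ne.symm hxc) hc hc' hy' (mem_St.1 hy).1⟩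
    exact h.inverts (Ne.symm hxc) rfl h4 h5
  obtain ⟨u, hu1, hu2⟩ := h.exists_swap hcd
  obtain ⟨v, hv1, hv2⟩ := h.exists_swap hde
  have hu := h.swap_mem hcd hc hd hu1 hu2
  have hv := h.swap_mem hde hd he hv1 hv2
  have hDsq : ∀ y ∈ St G c d, y * y = 1 := by
    intro y hy
    have hy' := h.St_le hcd hc hd hy
    have hye : y ∈ St G d e := mem_St.2 ⟨(mem_St.1 hy).2, h.stab_eq hce hc he hy' (mem_St.1 hy).1⟩
    have h1 := (key (v * u) (mul_mem hv hu) (by rw [mul_smul, hu1, hv1]; exact Ne.symm hce)).2 y hy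
    have h2 : (v * u) * y * (v * u)⁻¹ = y := by
      calc (v * u) * y * (v * u)⁻¹ = v * (u * y * u⁻¹) * v⁻¹ := by group
        _ = v * y⁻¹ * v⁻¹ := by rw [h.inverts hcd hu1 hu2 hy]
        _ = (y⁻¹)⁻¹ := h.inverts hde hv1 hv2 (inv_mem hye)
        _ = y := inv_inv y
    rw [h2] at h1
    nth_rw 1 [h1]; group
  have hCsq : ∀ x ∈ centralizer ({t} : Set G), x * x = 1 := by
    intro x hx
    by_cases hxc : x • c = c
    · exact hDsq x (mem_St.2 ⟨hxc, h.stab_eq hcd hc hd hx hxc⟩)
    · exact (key x hx hxc).1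
  have hCcomm : ∀ x ∈ centralizer ({t} : Set G), ∀ y ∈ centralizer ({t} : Set G), x * y = y * x := by
    intro x hx y hy
    have h1 := hCsq _ (mul_mem hx hy)
    have h2 : x⁻¹ = x := inv_eq_of_mul_eq_one_left (hCsq x hx)
    have h3 : y⁻¹ = y := inv_eq_of_mul_eq_one_left (hCsq y hy)
    have h4 : (x * y)⁻¹ = x * y := inv_eq_of_mul_eq_one_left h1
    rw [mul_inv_rev, h2, h3] at h4
    exact h4.symm
  have hi : i = Nat.card (St G c d) := by
    rw [h.i_eq hcd hc hd]
    refine Nat.card_congr ⟨fun g => ⟨g.1, g.2.1⟩, fun g => ⟨g.1, g.2, hDsq g.1 g.2⟩, fun g => rfl, fun g => rfl⟩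
  have hX : Nat.card (centralizer ({t} : Set G)) = i * i := by
    rw [h.card_C_eq hcd hc hd, ← hi]
  have hi3 : 3 ≤ i := by
    have hi' : Nat.card {y : Ω // t • y = y} = i := h.fix t (Commute.refl t) h.ne_one
    rw [← hi']
    haveI := Fintype.ofFinite {y : Ω // t • y = y}
    rw [Nat.card_eq_fintype_card]
    exact Fintype.two_lt_card_iff.2 ⟨⟨c, hc⟩, ⟨d, hd⟩, ⟨e, he⟩, fun h4 => hcd (congrArg Subtype.val h4),
      fun h4 => hce (congrArg Subtype.val h4), fun h4 => hde (congrArg Subtype.val h4)⟩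
  -- centralizers of the elements of `C(t)`
  have hCC : ∀ x ∈ centralizer ({t} : Set G), x ≠ 1 → centralizer ({x} : Set G) = centralizer ({t} : Set G) := by
    intro x hx hx1
    haveI : Fact (Nat.Prime 2) := ⟨Nat.prime_two⟩
    have hxo : orderOf x = 2 := orderOf_eq_prime (by rw [pow_two]; exact hCsq x hx) hx1
    have h1 := (h.invol hxo).card_C
    have h2 := h.card_C
    symm
    apply Subgroup.eq_of_le_of_card_ge
    · intro y hy
      exact mem_centralizer_singleton_iff.2 (hCcomm y hy x hx)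
    · omega
  have hN : Nat.card (normalizer ((centralizer ({t} : Set G) : Subgroup G) : Set G)) = (i * i) * (i * i - 1) := by
    have htC : t ∈ centralizer ({t} : Set G) := mem_centralizer_singleton_iff.2 rfl
    have h1 := const_fib (A := normalizer ((centralizer ({t} : Set G) : Subgroup G) : Set G))
      (B := {x : centralizer ({t} : Set G) // x ≠ 1})
      (fun g => ⟨⟨(g : G) * t * (g : G)⁻¹, (mem_normalizer_iff.1 g.2 t).1 htC⟩, by
        intro h2
        apply h.ne_one
        have h3 : (g : G) * t * (g : G)⁻¹ = 1 := congrArg Subtype.val h2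
        have : t = (g : G)⁻¹ * ((g : G) * t * (g : G)⁻¹) * g := by group
        rw [this, h3]; group⟩) ⟨⟨t, htC⟩, fun h2 => h.ne_one (congrArg Subtype.val h2)⟩ (by
        rintro ⟨⟨x, hx⟩, hx1⟩
        have hx1' : x ≠ 1 := fun h2 => hx1 (Subtype.ext h2)
        haveI : Fact (Nat.Prime 2) := ⟨Nat.prime_two⟩
        have hxo : orderOf x = 2 := orderOf_eq_prime (by rw [pow_two]; exact hCsq x hx) hx1'
        obtain ⟨g, hg⟩ := isConj_iff.1 (h.isConj hxo).symm
        have hgN : g ∈ normalizer ((centralizer ({t} : Set G) : Subgroup G) : Set G) := by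
          rw [mem_normalizer_iff]
          intro y
          have h3 : y ∈ centralizer ({t} : Set G) ↔ y ∈ centralizer ({x} : Set G) := by rw [hCC x hx hx1']
          rw [h3, mem_centralizer_singleton_iff, mem_centralizer_singleton_iff, ← hg]
          constructor
          · intro h4
            calc (g * y * g⁻¹) * (g * x * g⁻¹) = g * (y * x) * g⁻¹ := by group
              _ = g * (x * y) * g⁻¹ := by rw [h4]
              _ = _ := by group
          · intro h4
            have h5 : g * (y * x) * g⁻¹ = g * (x * y) * g⁻¹ := by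
              calc g * (y * x) * g⁻¹ = (g * y * g⁻¹) * (g * x * g⁻¹) := by group
                _ = (g * x * g⁻¹) * (g * y * g⁻¹) := h4
                _ = _ := by group
            exact mul_left_cancel (mul_right_cancel h5)
        refine ⟨Equiv.mulLeft (⟨g, hgN⟩ : normalizer ((centralizer ({t} : Set G) : Subgroup G) : Set G)), ?_⟩
        rintro ⟨y, hy⟩
        simp only [Equiv.coe_mulLeft, Subtype.mk.injEq, Subgroup.coe_mul, MulMemClass.mk_mul_mk]
        constructor
        · intro h3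
          calc g * y * t * (g * y)⁻¹ = g * (y * t * y⁻¹) * g⁻¹ := by group
            _ = t := by rw [h3, hg]
        · intro h3
          have h4 : y * t * y⁻¹ = g⁻¹ * (g * y * t * (g * y)⁻¹) * g := by group
          rw [h4, h3, ← hg]; group)
    have h2 : Nat.card {a : normalizer ((centralizer ({t} : Set G) : Subgroup G) : Set G) //
        (⟨⟨(a : G) * t * (a : G)⁻¹, (mem_normalizer_iff.1 a.2 t).1 htC⟩, by
        intro h2
        apply h.ne_one
        have h3 : (a : G) * t * (a : G)⁻¹ = 1 := congrArg Subtype.val h2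
        have : t = (a : G)⁻¹ * ((a : G) * t * (a : G)⁻¹) * a := by group
        rw [this, h3]; group⟩ : {x : centralizer ({t} : Set G) // x ≠ 1}) = ⟨⟨t, htC⟩, fun h2 => h.ne_one (congrArg Subtype.val h2)⟩} =
        Nat.card (centralizer ({t} : Set G)) := by
      refine Nat.card_congr ⟨fun a => ⟨a.1.1, ?_⟩, fun x => ⟨⟨x.1, le_normalizer x.2⟩, ?_⟩, fun a => rfl, fun a => rfl⟩
      · have h3 := a.2
        simp only [Subtype.mk.injEq] at h3
        rw [mul_inv_eq_iff_eq_mul] at h3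
        exact mem_centralizer_singleton_iff.2 h3
      · simp only [Subtype.mk.injEq]
        rw [mul_inv_eq_iff_eq_mul]
        exact mem_centralizer_singleton_iff.1 x.2
    rw [h2] at h1
    have h3 : Nat.card {x : centralizer ({t} : Set G) // x ≠ 1} = i * i - 1 := by
      rw [← hX]
      haveI := Fintype.ofFinite (centralizer ({t} : Set G))
      rw [Nat.card_eq_fintype_card, Nat.card_eq_fintype_card, Fintype.card_subtype_compl]
      simp
    rw [h1, h3, hX, mul_comm]
  have hdvd : Nat.card (normalizer ((centralizer ({t} : Set G) : Subgroup G) : Set G)) ∣ Nat.card G :=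
    Subgroup.card_subgroup_dvd_card _
  rw [hN, card_group h.two hcd, ← hi] at hdvd
  have hn := h.card_C
  have hW := card_W (Ω := Ω)
  rw [← hn, hX] at hW
  have hW' : Nat.card {p : Ω × Ω // p.1 ≠ p.2} = (i * i + i) * (i * i + i) - (i * i + i) := by omega
  rw [hW'] at hdvd
  exact arith_two hi3 hdvd

/-- **Part B.** if some involution fixes two points then nontrivial elements fix at most two points -/
theorem Hyp.partB (h : Hyp G Ω i t) {s : G} (hs : orderOf s = 2) {c d : Ω} (hcd : c ≠ d) (hc : s • c = c)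
    (hd : s • d = d) {x : G} (hx : x ≠ 1) {a b e : Ω} (hab : a ≠ b) (hbe : b ≠ e) (hae : a ≠ e)
    (h1 : x • a = a) (h2 : x • b = b) (h3 : x • e = e) : False := by
  obtain ⟨g, hg1, hg2⟩ := h.two c d a b hcd hab
  have hs' := (h.invol hs).conj g
  have ha : (g * s * g⁻¹) • a = a := by
    rw [← hg1, mul_smul, mul_smul, inv_smul_smul, hc]
  have hb : (g * s * g⁻¹) • b = b := by
    rw [← hg2, mul_smul, mul_smul, inv_smul_smul, hd]
  generalize g * s * g⁻¹ = s' at hs' ha hb
  have hxC := hs'.St_le hab ha hb (mem_St.2 ⟨h1, h2⟩ : x ∈ St G a b)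
  have he := hs'.stab_eq hab ha hb hxC h1
  -- `Fix(s')` and `Fix(x)` have the same size and `Fix(s') ⊆ Fix(x)`
  have hcx := hs'.fix x (mem_centralizer_singleton_iff.1 hxC) hx
  have hcs := hs'.fix s' (Commute.refl s') hs'.ne_one
  have hsub : ∀ y : Ω, s' • y = y → x • y = y := by
    intro y hy
    by_cases hay : a = y
    · rw [← hay]; exact h1
    · exact hs'.stab_eq hay ha hy hxC h1
  have hsurj : Function.Surjective (fun y : {y : Ω // s' • y = y} => (⟨y.1, hsub y.1 y.2⟩ : {y : Ω // x • y = y})) := by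
    classical
    haveI := Fintype.ofFinite {y : Ω // s' • y = y}
    haveI := Fintype.ofFinite {y : Ω // x • y = y}
    refine ((Fintype.bijective_iff_injective_and_card _).2 ⟨?_, ?_⟩).2
    · intro y z hyz
      exact Subtype.ext (Subtype.mk.inj hyz)
    · rw [← Nat.card_eq_fintype_card, ← Nat.card_eq_fintype_card, hcx, hcs]
  obtain ⟨⟨z, hz⟩, hz'⟩ := hsurj ⟨e, h3⟩
  have hze : z = e := congrArg Subtype.val hz'
  subst hze
  exact hs'.no_third hab hbe hae ha hb hz

end Cfsg.Agent.Lib.HeringTwo
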