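import Cfsg.Agent.Lib.HeringTwoB

/-!
# Part C (helper48): involutions fix at most one point
-/

set_option autoImplicit false
set_option linter.all false

namespace Cfsg.Agent.Lib.HeringTwo

open MulAction Subgroup

variable {G Ω : Type*} [Group G] [MulAction G Ω] {i : ℕ} {t : G}

/-- no involution fixes two points -/
def NoTwo (G Ω : Type*) [Group G] [MulAction G Ω] : Prop :=
  ∀ s : G, orderOf s = 2 → ∀ a b : Ω, s • a = a → s • b = b → a = b

theorem mem_of_odd {H : Subgroup G} {x : G} (hx : Odd (orderOf x)) (h : x * x ∈ H) : x ∈ H := by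
  obtain ⟨k, hk⟩ := hx
  have h1 : x = (x * x) ^ (k + 1) := by
    rw [← pow_two, ← pow_mul]
    have : 2 * (k + 1) = orderOf x + 1 := by omega
    rw [this, pow_succ, pow_orderOf_eq_one, one_mul]
  rw [h1]; exact pow_mem h _

theorem two_elem {x : G} [Finite G] (hx : x ≠ 1) {k : ℕ} (hk : x ^ 2 ^ k = 1) :
    ∃ j, orderOf x = 2 ^ (j + 1) ∧ orderOf (x ^ 2 ^ j) = 2 := by
  obtain ⟨j, -, hj⟩ := (Nat.dvd_prime_pow Nat.prime_two).1 (orderOf_dvd_of_pow_eq_one hk)
  have h2 : j ≠ 0 := by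
    rintro rfl
    rw [pow_zero, orderOf_eq_one_iff] at hj
    exact hx hj
  obtain ⟨l, rfl⟩ : ∃ l, j = l + 1 := ⟨j - 1, by omega⟩
  refine ⟨l, hj, ?_⟩
  rw [orderOf_pow_of_dvd (by positivity) (by rw [hj]; exact pow_dvd_pow 2 (by omega)), hj, pow_succ]
  exact Nat.mul_div_cancel_left 2 (by positivity)

theorem exists_invol_pow [Finite G] {x : G} (hx : ¬ Odd (orderOf x)) : ∃ k : ℕ, orderOf (x ^ k) = 2 := by
  rw [Nat.not_odd_iff_even] at hx
  have h2 : 2 ∣ orderOf x := even_iff_two_dvd.1 hx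
  refine ⟨orderOf x / 2, ?_⟩
  have hpos := orderOf_pos x
  rw [orderOf_pow_of_dvd (by omega) (Nat.div_dvd_of_dvd h2)]
  exact Nat.div_div_self h2 hpos.ne'

variable [Finite G] [Finite Ω] [FaithfulSMul G Ω]

theorem odd_of_fix (hno : NoTwo G Ω) {x : G} {a b : Ω} (hab : a ≠ b) (ha : x • a = a) (hb : x • b = b) :
    Odd (orderOf x) := by
  by_contra hcon
  obtain ⟨k, hk⟩ := exists_invol_pow hcon
  have h1 : ∀ (c : Ω), x • c = c → x ^ k • c = c := by
    intro c hc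
    have : x ∈ stabilizer G c := hc
    exact pow_mem this k
  exact hab (hno _ hk a b (h1 a ha) (h1 b hb))

theorem Hyp.i_le (h : Hyp G Ω i t) (hno : NoTwo G Ω) : i ≤ 1 := by
  have hi : Nat.card {y : Ω // t • y = y} = i := h.fix t (Commute.refl t) h.ne_one
  rw [← hi]
  haveI : Subsingleton {y : Ω // t • y = y} := ⟨fun a b => Subtype.ext (hno t h.ht a.1 b.1 a.2 b.2)⟩
  exact Finite.card_le_one_iff_subsingleton.2 inferInstance

theorem Hyp.eq_one_of_comm (h : Hyp G Ω i t) (hno : NoTwo G Ω) {z x : G} (hz : orderOf z = 2)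
    (hx : Commute x z) {a b : Ω} (hab : a ≠ b) (ha : x • a = a) (hb : x • b = b) : x = 1 := by
  by_contra hx1
  have h1 := (h.invol hz).fix x hx hx1
  have h2 := h.i_le hno
  have h3 : Nat.card {y : Ω // x • y = y} ≤ 1 := by rw [h1]; exact h2
  have h4 := Finite.card_le_one_iff_subsingleton.1 h3
  exact hab (congrArg Subtype.val (h4.elim (⟨a, ha⟩ : {y : Ω // x • y = y}) ⟨b, hb⟩))

/-- F4 -/
theorem Hyp.exists_inv (h : Hyp G Ω i t) (hno : NoTwo G Ω) {x : G} (hx : x ≠ 1) {a b e : Ω} (hab : a ≠ b)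
    (hbe : b ≠ e) (hae : a ≠ e) (h1 : x • a = a) (h2 : x • b = b) (h3 : x • e = e) :
    ∃ s : G, orderOf s = 2 ∧ s • a = a ∧ s * x * s⁻¹ = x⁻¹ := by
  obtain ⟨u, hu1, hu2⟩ := h.exists_swap hab
  obtain ⟨v, hv1, hv2⟩ := h.exists_swap hbe
  obtain ⟨w, hw1, hw2⟩ := h.exists_swap hae
  have hodd := odd_of_fix hno hab h1 h2
  set y := w * (v * u) with hy
  have hya : y • a = a := by rw [hy, mul_smul, mul_smul, hu1, hv1, hw2]
  have hyx : y * x * y⁻¹ = x⁻¹ := by
    have e1 := h.inverts hab hu1 hu2 (mem_St.2 ⟨h1, h2⟩ : x ∈ St G a b)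
    have e2 := h.inverts hbe hv1 hv2 (mem_St.2 ⟨by rw [inv_smul_eq_iff, h2], by rw [inv_smul_eq_iff, h3]⟩ : x⁻¹ ∈ St G b e)
    have e3 := h.inverts hae hw1 hw2 (mem_St.2 ⟨h1, h3⟩ : x ∈ St G a e)
    calc y * x * y⁻¹ = w * (v * (u * x * u⁻¹) * v⁻¹) * w⁻¹ := by rw [hy]; group
      _ = w * x * w⁻¹ := by rw [e1, e2, inv_inv]
      _ = x⁻¹ := e3
  obtain ⟨k, m, hm, hord⟩ := Nat.exists_eq_two_pow_mul_odd (n := orderOf y) (orderOf_pos y).ne'
  have hs2 : (y ^ m) ^ 2 ^ k = 1 := by rw [← pow_mul, mul_comm, ← hord, pow_orderOf_eq_one]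
  have hyD : ∀ j : ℕ, Odd j → y ^ j * x * (y ^ j)⁻¹ = x⁻¹ := by
    intro j hj
    obtain ⟨l, rfl⟩ := hj
    induction l with
    | zero => simpa using hyx
    | succ l ih =>
      have hyx' : y * x⁻¹ * y⁻¹ = x := by
        have : y * x⁻¹ * y⁻¹ = (y * x * y⁻¹)⁻¹ := by group
        rw [this, hyx, inv_inv]
      have : y ^ (2 * (l + 1) + 1) * x * (y ^ (2 * (l + 1) + 1))⁻¹ =
          y * (y * (y ^ (2 * l + 1) * x * (y ^ (2 * l + 1))⁻¹) * y⁻¹) * y⁻¹ := by
        rw [show 2 * (l + 1) + 1 = 1 + (1 + (2 * l + 1)) by ring, pow_add, pow_add, pow_one]; group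
      rw [this, ih, hyx', hyx]
  have hsinv := hyD m hm
  have hsa : y ^ m • a = a := pow_mem (show y ∈ stabilizer G a from hya) m
  set s := y ^ m with hs
  have hs1 : s ≠ 1 := by
    intro h4
    rw [h4] at hsinv
    apply hx
    have h5 : x * x ∈ (⊥ : Subgroup G) := by
      rw [mem_bot]
      have : x = x⁻¹ := by simpa using hsinv
      nth_rw 1 [this]; group
    exact mem_bot.1 (mem_of_odd hodd h5)
  obtain ⟨j, hj1, hj2⟩ := two_elem hs1 hs2
  rcases Nat.eq_zero_or_pos j with rfl | hj0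
  · exact ⟨s, by simpa using hj1, hsa, hsinv⟩
  · exfalso
    apply hx
    refine h.eq_one_of_comm hno hj2 ?_ hab h1 h2
    obtain ⟨l, rfl⟩ : ∃ l, j = l + 1 := ⟨j - 1, by omega⟩
    have hc : Commute x (s * s) := by
      have h5 : s * s * x * (s * s)⁻¹ = x := by
        have h6 : s * x⁻¹ * s⁻¹ = x := by
          have : s * x⁻¹ * s⁻¹ = (s * x * s⁻¹)⁻¹ := by group
          rw [this, hsinv, inv_inv]
        calc s * s * x * (s * s)⁻¹ = s * (s * x * s⁻¹) * s⁻¹ := by group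
          _ = x := by rw [hsinv, h6]
      rw [mul_inv_eq_iff_eq_mul] at h5
      exact h5.symm
    have h7 : s ^ 2 ^ (l + 1) = (s * s) ^ 2 ^ l := by
      rw [pow_succ' 2 l, pow_mul s 2 (2 ^ l), pow_two]
    rw [h7]
    exact hc.pow_right _

/-- each involution has a fixed point when `i = 1` -/
theorem Hyp.exists_fix (h : Hyp G Ω 1 t) {s : G} (hs : orderOf s = 2) : ∃ f : Ω, s • f = f := by
  have h1 := (h.invol hs).fix s (Commute.refl s) (h.invol hs).ne_one
  obtain ⟨⟨f, hf⟩, -⟩ := Nat.card_eq_one_iff_exists.1 h1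
  exact ⟨f, hf⟩

/-- elements commuting with an involution fix its fixed point -/
theorem comm_fix (hno : NoTwo G Ω) {s x : G} (hs : orderOf s = 2) (hx : Commute x s) {f : Ω} (hf : s • f = f) :
    x • f = f :=
  hno s hs (x • f) f (by rw [← mul_smul, ← hx.eq, mul_smul, hf]) hf

theorem Hyp.exists_inv_fix (h : Hyp G Ω 1 t) (f : Ω) (h2 : ∃ g : Ω, g ≠ f) : ∃ s : G, orderOf s = 2 ∧ s • f = f := by
  obtain ⟨x0, hx0⟩ := h.exists_fix h.ht
  by_cases hx : x0 = f
  · exact ⟨t, h.ht, hx ▸ hx0⟩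
  · obtain ⟨g, hg1, hg2⟩ := h.exists_swap hx
    exact ⟨g * t * g⁻¹, (h.conj g).ht, by rw [← hg1, mul_smul, mul_smul, inv_smul_smul, hx0]⟩

/-- the number of involutions in `G_f` is at most `|G_{fδ}|` -/
theorem Hyp.card_inv_le (h : Hyp G Ω 1 t) (hno : NoTwo G Ω) {f δ : Ω} (hfδ : f ≠ δ) :
    Nat.card {s : G // orderOf s = 2 ∧ s • f = f} ≤ Nat.card (St G f δ) := by
  classical
  obtain ⟨x0, hx0⟩ := h.exists_fix h.ht
  have hfib := const_fib (A := G) (B := Ω) (fun g => g • x0) f (by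
    intro b
    by_cases hb : b = f
    · exact ⟨Equiv.refl _, fun x => by rw [hb]; rfl⟩
    · obtain ⟨g0, hg1, hg2⟩ := h.exists_swap hb
      refine ⟨Equiv.mulLeft g0, ?_⟩
      intro x
      simp only [Equiv.coe_mulLeft, mul_smul]
      constructor
      · rintro rfl; exact hg1
      · intro h3; exact smul_left_cancel g0 (h3.trans hg1.symm))
  have hchoose : ∀ x : G, orderOf x = 2 → ∃ k : G, k * t * k⁻¹ = x := fun x hx => isConj_iff.1 (h.isConj hx)
  choose k hk using hchoose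
  have hbound : Nat.card ({s : G // orderOf s = 2 ∧ s • f = f} × (centralizer ({t} : Set G))) ≤
      Nat.card {g : G // g • x0 = f} := by
    let F : ({s : G // orderOf s = 2 ∧ s • f = f} × (centralizer ({t} : Set G))) → {g : G // g • x0 = f} := fun p =>
      ⟨k p.1.1 p.1.2.1 * p.2.1, by
        have h3 : p.2.1 • x0 = x0 := comm_fix hno h.ht (mem_centralizer_singleton_iff.1 p.2.2) hx0
        rw [mul_smul, h3]
        refine hno p.1.1 p.1.2.1 _ _ ?_ p.1.2.2
        have h4 := hk p.1.1 p.1.2.1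
        generalize k p.1.1 p.1.2.1 = kk at h4
        rw [← h4, mul_smul, mul_smul, inv_smul_smul, hx0]⟩
    apply Nat.card_le_card_of_injective F
    rintro ⟨⟨s, hs1, hs2⟩, x⟩ ⟨⟨s', hs1', hs2'⟩, x'⟩ hpq
    have h5 : k s hs1 * x.1 = k s' hs1' * x'.1 := congrArg Subtype.val hpq
    have h6 : s = s' := by
      rw [← hk s hs1, ← hk s' hs1']
      have e1 : k s hs1 * t * (k s hs1)⁻¹ = (k s hs1 * x.1) * t * (k s hs1 * x.1)⁻¹ := by
        have := mem_centralizer_singleton_iff.1 x.2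
        calc k s hs1 * t * (k s hs1)⁻¹ = k s hs1 * (t * x.1) * x.1⁻¹ * (k s hs1)⁻¹ := by group
          _ = k s hs1 * (x.1 * t) * x.1⁻¹ * (k s hs1)⁻¹ := by rw [this]
          _ = _ := by group
      have e2 : k s' hs1' * t * (k s' hs1')⁻¹ = (k s' hs1' * x'.1) * t * (k s' hs1' * x'.1)⁻¹ := by
        have := mem_centralizer_singleton_iff.1 x'.2
        calc k s' hs1' * t * (k s' hs1')⁻¹ = k s' hs1' * (t * x'.1) * x'.1⁻¹ * (k s' hs1')⁻¹ := by group
          _ = k s' hs1' * (x'.1 * t) * x'.1⁻¹ * (k s' hs1')⁻¹ := by rw [this]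
          _ = _ := by group
      rw [e1, e2, h5]
    subst h6
    have h7 : x = x' := Subtype.ext (mul_left_cancel h5)
    rw [h7]
  rw [Nat.card_prod] at hbound
  have hGW := card_group h.two hfδ
  have hC := h.card_C
  have hW := card_W (Ω := Ω)
  set J := Nat.card {s : G // orderOf s = 2 ∧ s • f = f} with hJ
  set D := Nat.card (St G f δ) with hD
  set C := Nat.card (centralizer ({t} : Set G)) with hC'
  set W := Nat.card {p : Ω × Ω // p.1 ≠ p.2} with hW'
  set n := Nat.card Ω with hn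
  set Fb := Nat.card {g : G // g • x0 = f} with hFb
  have hCpos : 0 < C := Nat.card_pos
  have e1 : W = n * C := by
    rw [← hC] at hW ⊢
    have : (C + 1) * (C + 1) = (C + 1) * C + (C + 1) := by ring
    omega
  have hnpos : 0 < n := by omega
  have e2 : C * D = Fb := by
    apply Nat.eq_of_mul_eq_mul_left hnpos
    have h3 : n * Fb = W * D := by rw [← hGW]; exact hfib.symm
    rw [h3, e1]; ring
  have e3 : C * J ≤ C * D := by
    calc C * J = J * C := by ring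
      _ ≤ Fb := hbound
      _ = C * D := e2.symm
  exact Nat.le_of_mul_le_mul_left e3 hCpos

/-- `G_{fδ}` is transitive on the involutions of `G_f` -/
theorem Hyp.inv_conj (h : Hyp G Ω 1 t) (hno : NoTwo G Ω) {f δ : Ω} (hfδ : f ≠ δ) {s s' : G}
    (hs : orderOf s = 2) (hsf : s • f = f) (hs' : orderOf s' = 2) (hsf' : s' • f = f) :
    ∃ x ∈ St G f δ, x * s * x⁻¹ = s' := by
  classical
  let F : St G f δ → {s : G // orderOf s = 2 ∧ s • f = f} := fun x => ⟨x.1 * s * x.1⁻¹, by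
    refine ⟨?_, ?_⟩
    · rw [← hs]
      have := orderOf_injective (MulAut.conj x.1).toMonoidHom (MulAut.conj x.1).injective s
      rw [← this]; simp
    · have h1 : x.1 • f = f := (mem_St.1 x.2).1
      have h2 : x.1⁻¹ • f = f := by rw [inv_smul_eq_iff, h1]
      rw [mul_smul, mul_smul, h2, hsf, h1]⟩
  have hinj : Function.Injective F := by
    intro x y hxy
    have h1 : x.1 * s * x.1⁻¹ = y.1 * s * y.1⁻¹ := congrArg Subtype.val hxy
    have h2 : Commute (y.1⁻¹ * x.1) s := by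
      show y.1⁻¹ * x.1 * s = s * (y.1⁻¹ * x.1)
      calc y.1⁻¹ * x.1 * s = y.1⁻¹ * (x.1 * s * x.1⁻¹) * x.1 := by group
        _ = y.1⁻¹ * (y.1 * s * y.1⁻¹) * x.1 := by rw [h1]
        _ = _ := by group
    have h3 : y.1⁻¹ * x.1 ∈ St G f δ := mul_mem (inv_mem y.2) x.2
    have h4 := h.eq_one_of_comm hno hs h2 hfδ (mem_St.1 h3).1 (mem_St.1 h3).2
    exact Subtype.ext (inv_mul_eq_one.1 h4).symm
  haveI := Fintype.ofFinite (St G f δ)
  haveI := Fintype.ofFinite {s : G // orderOf s = 2 ∧ s • f = f}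
  have hsurj : Function.Surjective F := by
    refine ((Fintype.bijective_iff_injective_and_card _).2 ⟨hinj, ?_⟩).2
    apply le_antisymm (Fintype.card_le_of_injective F hinj)
    rw [← Nat.card_eq_fintype_card, ← Nat.card_eq_fintype_card]
    exact h.card_inv_le hno hfδ
  obtain ⟨x, hx⟩ := hsurj ⟨s', hs', hsf'⟩
  exact ⟨x.1, x.2, congrArg Subtype.val hx⟩

/-- F6 -/
theorem Hyp.all_invert (h : Hyp G Ω 1 t) (hno : NoTwo G Ω) {f δ : Ω} (hfδ : f ≠ δ) {s s' x : G}
    (hs : orderOf s = 2) (hsf : s • f = f) (hs' : orderOf s' = 2) (hsf' : s' • f = f)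
    (hx : x ∈ St G f δ) (hsx : s * x * s⁻¹ = x⁻¹) : s' * x * s'⁻¹ = x⁻¹ := by
  obtain ⟨y, hy, rfl⟩ := h.inv_conj hno hfδ hs hsf hs' hsf'
  have h1 : y⁻¹ * x * y = x := by
    have := h.comm hfδ hx hy
    rw [mul_assoc, this]; group
  have h2 : y * x⁻¹ * y⁻¹ = x⁻¹ := by
    have := h.comm hfδ (inv_mem hx) hy
    rw [← this]; group
  calc (y * s * y⁻¹) * x * (y * s * y⁻¹)⁻¹ = y * (s * (y⁻¹ * x * y) * s⁻¹) * y⁻¹ := by group
    _ = x⁻¹ := by rw [h1, hsx, h2]

end Cfsg.Agent.Lib.HeringTwo
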