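import Cfsg.Agent.Lib.SymCount
import Cfsg.Agent.Lib.ClEmbedU

/-!
# Counting hermitian matrices congruent to a given one (helper39)
-/

set_option autoImplicit false
set_option linter.unusedSectionVars false

namespace Cfsg.Agent.Lib.HermCount

open Matrix Cfsg.Agent.Lib.SymCount

/-- `F` has `q²` elements and `star` is `x ↦ x^q`. -/
structure SF (F : Type*) [Field F] [Fintype F] [StarRing F] (q : ℕ) : Prop where
  card : Fintype.card F = q ^ 2
  star_eq : ∀ x : F, star x = x ^ q

section field

variable {F : Type*} [Field F] [Fintype F] [StarRing F] {q : ℕ} (hF : SF F q)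

include hF

theorem one_lt : 1 < q := ClEmbed.one_lt_q hF.card

theorem exists_prim : ∃ ζ : F, IsPrimitiveRoot ζ (q ^ 2 - 1) := by
  classical
  obtain ⟨g, hg⟩ := IsCyclic.exists_generator (α := Fˣ)
  have h1 : orderOf g = q ^ 2 - 1 := by
    rw [orderOf_eq_card_of_forall_mem_zpowers hg, Nat.card_eq_fintype_card, Fintype.card_units, hF.card]
  refine ⟨g, ?_⟩
  rw [IsPrimitiveRoot.coe_units_iff, ← h1]
  exact IsPrimitiveRoot.orderOf g

theorem q_sq_pos : 0 < q ^ 2 - 1 := by
  have := one_lt hF
  have : 1 < q ^ 2 := Nat.one_lt_pow two_ne_zero this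
  omega

theorem card_norm_one : (Polynomial.nthRootsFinset (q + 1) (1 : F)).card = q + 1 := by
  obtain ⟨ζ, hζ⟩ := exists_prim hF
  exact (hζ.pow (q_sq_pos hF) (a := q - 1) (by rw [mul_comm]; exact (ClEmbed.sq_sub_one q).symm)).card_nthRootsFinset

theorem card_fixed : (Polynomial.nthRootsFinset (q - 1) (1 : F)).card = q - 1 := by
  obtain ⟨ζ, hζ⟩ := exists_prim hF
  exact (hζ.pow (q_sq_pos hF) (a := q + 1) (ClEmbed.sq_sub_one q).symm).card_nthRootsFinset

theorem mem_norm_one {u : F} : u ∈ Polynomial.nthRootsFinset (q + 1) (1 : F) ↔ u * star u = 1 := by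
  rw [Polynomial.mem_nthRootsFinset (by omega), hF.star_eq, pow_succ']

theorem mem_fixed {u : F} : u ∈ Polynomial.nthRootsFinset (q - 1) (1 : F) ↔ u ≠ 0 ∧ star u = u := by
  have hq := one_lt hF
  rw [Polynomial.mem_nthRootsFinset (by omega), hF.star_eq]
  constructor
  · intro h
    have h0 : u ≠ 0 := by
      rintro rfl
      rw [zero_pow (by omega)] at h
      exact zero_ne_one h
    refine ⟨h0, ?_⟩
    have : u ^ q = u ^ (q - 1) * u := by rw [← pow_succ]; congr 1; omega
    rw [this, h, one_mul]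
  · rintro ⟨h0, h⟩
    have : u ^ q = u ^ (q - 1) * u := by rw [← pow_succ]; congr 1; omega
    rw [this] at h
    exact mul_right_cancel₀ h0 (by rw [h, one_mul])

theorem exists_norm {w : F} (hw : star w = w) : ∃ t : F, t * star t = w := by
  by_cases h0 : w = 0
  · exact ⟨0, by rw [h0, zero_mul]⟩
  · have hq := one_lt hF
    have h1 := (mem_fixed hF).2 ⟨h0, hw⟩
    rw [Polynomial.mem_nthRootsFinset (by omega)] at h1
    obtain ⟨t, -, ht⟩ := ClEmbed.exists_root (m := q + 1) (k := q - 1) hF.card (by omega) (ClEmbed.sq_sub_one q) h1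
    exact ⟨t, by rw [hF.star_eq, ← pow_succ', ht]⟩

theorem exists_trace : ∃ s : F, s + star s ≠ 0 := by
  by_contra hcon
  push Not at hcon
  obtain ⟨ζ, hζ⟩ := exists_prim hF
  have hq := one_lt hF
  have h1 : ζ ^ (2 * (q - 1)) = 1 := by
    have h2 := hcon ζ
    rw [hF.star_eq] at h2
    have h3 : ζ ^ q = -ζ := by linear_combination h2
    have h4 : ζ ≠ 0 := hζ.ne_zero (q_sq_pos hF).ne'
    have h5 : ζ ^ (q - 1) = -1 := by
      have : ζ ^ q = ζ ^ (q - 1) * ζ := by rw [← pow_succ]; congr 1; omega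
      rw [this] at h3
      exact mul_right_cancel₀ h4 (by rw [h3]; ring)
    rw [mul_comm, pow_mul, h5]; ring
  have h2 := hζ.dvd_of_pow_eq_one _ h1
  rw [← ClEmbed.sq_sub_one] at h2
  have h3 := Nat.dvd_of_mul_dvd_mul_right (by omega) h2
  have := Nat.le_of_dvd (by omega) h3
  omega

end field

section form

variable {F : Type*} [Field F] [StarRing F] {n : Type*} [Fintype n] [DecidableEq n] (B : Matrix n n F)

/-- The sesquilinear form of a matrix. -/
def h (x y : n → F) : F := star x ⬝ᵥ (B *ᵥ y)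

theorem h_add_right (x y z : n → F) : h B x (y + z) = h B x y + h B x z := by
  rw [h, Matrix.mulVec_add, dotProduct_add]; rfl

theorem h_add_left (x y z : n → F) : h B (x + y) z = h B x z + h B y z := by
  rw [h, star_add, add_dotProduct]; rfl

theorem h_smul_right (c : F) (x y : n → F) : h B x (c • y) = c * h B x y := by
  rw [h, Matrix.mulVec_smul, dotProduct_smul, smul_eq_mul]; rfl

theorem h_smul_left (c : F) (x y : n → F) : h B (c • x) y = star c * h B x y := by
  rw [h, star_smul, smul_dotProduct, smul_eq_mul]; rfl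

theorem h_zero_left (y : n → F) : h B 0 y = 0 := by rw [h, star_zero, zero_dotProduct]

theorem h_single (i j : n) : h B (Pi.single i 1) (Pi.single j 1) = B i j := by
  rw [h]
  have : star (Pi.single i (1 : F) : n → F) = Pi.single i 1 := by
    funext k
    rw [Pi.star_apply, Pi.single_apply]
    split_ifs <;> simp
  rw [this]
  simp

variable {B} (hB : Bᴴ = B)

include hB

theorem h_swap (x y : n → F) : star (h B x y) = h B y x := by
  rw [h, h, Matrix.star_dotProduct, Matrix.star_mulVec, star_star, ← Matrix.dotProduct_mulVec, hB]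

end form

section dich

variable {F : Type*} [Field F] [Fintype F] [StarRing F] {q : ℕ} (hF : SF F q)
  {n : Type*} [Fintype n] [DecidableEq n] {B : Matrix n n F} (hB : Bᴴ = B)

include hF hB

theorem h_zero_of_iso {U : Set (n → F)} (hU : ∀ x ∈ U, ∀ y ∈ U, ∀ c : F, x + c • y ∈ U)
    (h1 : ∀ x ∈ U, h B x x = 0) : ∀ x ∈ U, ∀ y ∈ U, h B x y = 0 := by
  intro x hx y hy
  by_contra hne
  obtain ⟨s, hs⟩ := exists_trace hF
  apply hs
  have h2 := h1 _ (hU x hx y hy (s / h B x y))
  rw [h_add_right, h_add_left, h_add_left, h_smul_right, h_smul_right, h_smul_left, h_smul_left, h1 x hx, h1 y hy,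
    ← h_swap hB x y, ← star_mul', div_mul_cancel₀ _ hne] at h2
  linear_combination h2

theorem exists_unit_vector (h0 : B ≠ 0) : ∃ e : n → F, h B e e = 1 := by
  obtain ⟨e, he⟩ : ∃ e : n → F, h B e e ≠ 0 := by
    by_contra hcon
    push Not at hcon
    apply h0
    ext i j
    rw [← h_single B i j]
    exact h_zero_of_iso hF hB (U := Set.univ) (fun _ _ _ _ _ => trivial) (fun x _ => hcon x) _ trivial _ trivial
  have hfix : star (h B e e)⁻¹ = (h B e e)⁻¹ := by rw [star_inv₀, h_swap hB]
  obtain ⟨t, ht⟩ := exists_norm hF hfix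
  refine ⟨t • e, ?_⟩
  rw [h_smul_right, h_smul_left, ← mul_assoc, ht, inv_mul_cancel₀ he]

/-- Either rank one, or there is a hyperbolic pair. -/
theorem dichotomy (h0 : B ≠ 0) : (∃ y : n → F, y ≠ 0 ∧ B = Matrix.vecMulVec y (star y)) ∨
    (∃ x y : n → F, h B x x = 0 ∧ h B x y = 1 ∧ h B y y = 1) := by
  obtain ⟨e, he⟩ := exists_unit_vector hF hB h0
  by_cases hall : ∀ x : n → F, h B e x = 0 → h B x x = 0
  · left
    have h1 := h_zero_of_iso hF hB (U := {x | h B e x = 0}) (fun x hx y hy c => by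
      change h B e (x + c • y) = 0
      rw [h_add_right, h_smul_right, show h B e x = 0 from hx, show h B e y = 0 from hy]; ring) hall
    have h2 : ∀ x y, h B x y = h B x e * h B e y := by
      intro x y
      have hp : ∀ x, h B e (x + (-(h B e x)) • e) = 0 := by
        intro x; rw [h_add_right, h_smul_right, he]; ring
      have h3 := h1 _ (hp x) _ (hp y)
      rw [h_add_right, h_add_left, h_add_left, h_smul_right, h_smul_right, h_smul_left, h_smul_left, he, star_neg,
        h_swap hB] at h3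
      linear_combination h3
    refine ⟨B *ᵥ e, ?_, ?_⟩
    · intro h
      rw [HermCount.h, h, dotProduct_zero] at he
      exact zero_ne_one he
    · ext i j
      rw [← h_single B i j, h2, Matrix.vecMulVec_apply, Pi.star_apply]
      have h3 : ∀ k, h B (Pi.single k 1) e = (B *ᵥ e) k := by
        intro k
        rw [HermCount.h]
        have : star (Pi.single k (1 : F) : n → F) = Pi.single k 1 := by
          funext j
          rw [Pi.star_apply, Pi.single_apply]
          split_ifs <;> simp
        rw [this]; simp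
      rw [← h3, ← h3, h_swap hB]
  · right
    push Not at hall
    obtain ⟨f, hf, hff⟩ := hall
    have hfix : star (-(h B f f)⁻¹) = -(h B f f)⁻¹ := by rw [star_neg, star_inv₀, h_swap hB]
    obtain ⟨t, ht⟩ := exists_norm hF hfix
    have h1 : h B (t • f) (t • f) = -1 := by
      rw [h_smul_right, h_smul_left, ← mul_assoc, ht, neg_mul, inv_mul_cancel₀ hff]
    have h2 : h B e (t • f) = 0 := by rw [h_smul_right, hf, mul_zero]
    have h3 : h B (t • f) e = 0 := by rw [← h_swap hB, h2, star_zero]
    refine ⟨e + t • f, e, ?_, ?_, he⟩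
    · rw [h_add_right, h_add_left, h_add_left, he, h1, h2, h3]; ring
    · rw [h_add_left, he, h3, add_zero]

end dich

section count

variable {F : Type*} [Field F] [StarRing F] {n : Type*} [Fintype n] [DecidableEq n]

/-- congruence -/
def cg (B : Matrix n n F) (g : GL n F) : Matrix n n F := (g : Matrix n n F)ᴴ * B * (g : Matrix n n F)

theorem cg_apply (B : Matrix n n F) (g : GL n F) (i j : n) : cg B g i j =
      h B ((g : Matrix n n F) *ᵥ Pi.single i 1) ((g : Matrix n n F) *ᵥ Pi.single j 1) := by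
  refine (h_single _ i j).symm.trans ?_
  rw [cg, h, ← Matrix.mulVec_mulVec, ← Matrix.mulVec_mulVec, h, Matrix.star_mulVec,
    Matrix.dotProduct_mulVec _ (_ᴴ)]

/-- `SL` is transitive on non-zero vectors if `2 ≤ #n`. -/
theorem exists_col_sl (x : n → F) (hx : x ≠ 0) {i j : n} (hij : i ≠ j) :
    ∃ g : GL n F, (g : Matrix n n F).det = 1 ∧ (g : Matrix n n F) *ᵥ Pi.single i 1 = x := by
  obtain ⟨g, hg⟩ := exists_col x hx i
  have hd : (g : Matrix n n F).det ≠ 0 := ((Matrix.isUnit_iff_isUnit_det _).1 g.isUnit).ne_zero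
  let D : Matrix n n F := Matrix.diagonal (Function.update 1 j ((g : Matrix n n F).det)⁻¹)
  have hD : D.det = ((g : Matrix n n F).det)⁻¹ := by
    simp only [D]
    rw [Matrix.det_diagonal, Finset.prod_update_of_mem (Finset.mem_univ _)]
    simp
  refine ⟨g * Matrix.GeneralLinearGroup.mk'' D (by rw [hD]; exact (inv_ne_zero hd).isUnit), ?_, ?_⟩
  · change ((g : Matrix n n F) * D).det = 1
    rw [Matrix.det_mul, hD, mul_inv_cancel₀ hd]
  · change ((g : Matrix n n F) * D) *ᵥ _ = x
    rw [← Matrix.mulVec_mulVec]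
    have : D *ᵥ Pi.single i 1 = Pi.single i 1 := by
      funext k
      simp only [D]
      rw [Matrix.mulVec_diagonal]
      by_cases hk : k = i
      · subst hk
        rw [Function.update_of_ne hij]; simp
      · simp [hk]
    rw [this, hg]

theorem exists_map_sl (x y : n → F) (hx : x ≠ 0) (hy : y ≠ 0) {i j : n} (hij : i ≠ j) :
    ∃ g : GL n F, (g : Matrix n n F).det = 1 ∧ (g : Matrix n n F) *ᵥ x = y := by
  obtain ⟨g, hgd, hg⟩ := exists_col_sl x hx hij
  obtain ⟨k, hkd, hk⟩ := exists_col_sl y hy hij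
  refine ⟨k * g⁻¹, ?_, ?_⟩
  · have h1 : ((g⁻¹ : GL n F) : Matrix n n F).det = 1 := by
      have h2 : ((g * g⁻¹ : GL n F) : Matrix n n F).det = 1 := by rw [mul_inv_cancel, Units.val_one, Matrix.det_one]
      rwa [Units.val_mul, Matrix.det_mul, hgd, one_mul] at h2
    rw [Units.val_mul, Matrix.det_mul, hkd, h1, one_mul]
  · rw [← hg, Matrix.mulVec_mulVec, ← Units.val_mul, inv_mul_cancel_right, hk]

/-- Row with non-zero diagonal entry. -/
theorem exists_row_A {B : Matrix n n F} {i j : n} (hij : i ≠ j) (w : n → F) (hw : w i ≠ 0) (x : n → F)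
    (hx : h B x x = w i) : ∃ g : GL n F, (g : Matrix n n F).det = 1 ∧ cg B g i = w := by
  have hx0 : x ≠ 0 := by
    rintro rfl
    apply hw
    rw [← hx, h_zero_left]
  obtain ⟨g, hgd, hg⟩ := exists_col_sl x hx0 hij
  obtain ⟨s, hs⟩ : ∃ s : n → F, ∀ j, s j = (w j - h B x ((g : Matrix n n F) *ᵥ Pi.single j 1)) / w i := ⟨_, fun _ => rfl⟩
  have hs0 : s i = 0 := by
    rw [hs, hg, hx, sub_self, zero_div]
  obtain ⟨N, hN⟩ : ∃ N : Matrix n n F, N = 1 + Matrix.vecMulVec (Pi.single i 1) s := ⟨_, rfl⟩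
  have hdet : N.det = 1 := by
    rw [hN, Matrix.vecMulVec_eq Unit, Matrix.det_one_add_replicateCol_mul_replicateRow]
    simp [hs0]
  have hNj : ∀ j, N *ᵥ Pi.single j 1 = Pi.single j 1 + s j • Pi.single i 1 := by
    intro j
    rw [hN, Matrix.add_mulVec, Matrix.one_mulVec, Matrix.vecMulVec_mulVec]
    simp
  refine ⟨g * Matrix.GeneralLinearGroup.mk'' N (by rw [hdet]; exact isUnit_one), ?_, ?_⟩
  · change ((g : Matrix n n F) * N).det = 1
    rw [Matrix.det_mul, hgd, hdet, one_mul]
  have hgN : ∀ j, ((g * Matrix.GeneralLinearGroup.mk'' N (by rw [hdet]; exact isUnit_one) : GL n F) : Matrix n n F) *ᵥ Pi.single j 1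
      = (g : Matrix n n F) *ᵥ Pi.single j 1 + s j • x := by
    intro j
    change ((g : Matrix n n F) * N) *ᵥ _ = _
    rw [← Matrix.mulVec_mulVec, hNj, Matrix.mulVec_add, Matrix.mulVec_smul, hg]
  funext j
  rw [cg_apply, hgN, hgN, hs0, zero_smul, add_zero, hg, h_add_right, h_smul_right, hx, hs]
  field_simp
  ring

/-- Adjust the second entry of an isotropic row to be non-zero. -/
theorem exists_pre_B {B : Matrix n n F} {i j : n} (hij : i ≠ j) {x y : n → F} (hx : h B x x = 0) (hxy : h B x y = 1) :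
    ∃ g : GL n F, (g : Matrix n n F).det = 1 ∧ (g : Matrix n n F) *ᵥ Pi.single i 1 = x ∧
      h B x ((g : Matrix n n F) *ᵥ Pi.single j 1) ≠ 0 := by
  have hx0 : x ≠ 0 := by
    rintro rfl
    rw [h_zero_left] at hxy
    exact zero_ne_one hxy
  obtain ⟨g, hgd, hg⟩ := exists_col_sl x hx0 hij
  by_cases hj : h B x ((g : Matrix n n F) *ᵥ Pi.single j 1) = 0
  · obtain ⟨k, hk⟩ : ∃ k, h B x ((g : Matrix n n F) *ᵥ Pi.single k 1) ≠ 0 := by
      by_contra hcon
      push Not at hcon
      -- y is a combination of the columns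
      let L : (n → F) →ₗ[F] F :=
        { toFun := fun v => h B x ((g : Matrix n n F) *ᵥ v)
          map_add' := fun u v => by rw [Matrix.mulVec_add, h_add_right]
          map_smul' := fun c v => by rw [Matrix.mulVec_smul, h_smul_right]; rfl }
      have hL : L = 0 := by
        refine LinearMap.pi_ext' fun k => LinearMap.ext_ring ?_
        exact hcon k
      have h1 := congrArg (fun L : (n → F) →ₗ[F] F => L (((g⁻¹ : GL n F) : Matrix n n F) *ᵥ y)) hL
      change h B x ((g : Matrix n n F) *ᵥ (((g⁻¹ : GL n F) : Matrix n n F) *ᵥ y)) = 0 at h1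
      rw [Matrix.mulVec_mulVec, ← Units.val_mul, mul_inv_cancel, Units.val_one, Matrix.one_mulVec, hxy] at h1
      exact one_ne_zero h1
    have hkj : k ≠ j := by rintro rfl; exact hk hj
    have hki : k ≠ i := by
      rintro rfl
      rw [hg, hx] at hk
      exact hk rfl
    have hdet : (Matrix.transvection k j (1 : F)).det = 1 := Matrix.det_transvection_of_ne k j hkj 1
    refine ⟨g * Matrix.GeneralLinearGroup.mk'' (Matrix.transvection k j (1 : F)) (by rw [hdet]; exact isUnit_one), ?_, ?_, ?_⟩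
    · change ((g : Matrix n n F) * Matrix.transvection k j (1 : F)).det = 1
      rw [Matrix.det_mul, hgd, hdet, one_mul]
    · change ((g : Matrix n n F) * Matrix.transvection k j (1 : F)) *ᵥ _ = x
      rw [← Matrix.mulVec_mulVec]
      have : Matrix.transvection k j (1 : F) *ᵥ Pi.single i 1 = Pi.single i 1 := by
        rw [Matrix.transvection, Matrix.add_mulVec, Matrix.one_mulVec, Matrix.single_mulVec]
        simp [hij.symm]
      rw [this, hg]
    · change h B x (((g : Matrix n n F) * Matrix.transvection k j (1 : F)) *ᵥ _) ≠ 0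
      rw [← Matrix.mulVec_mulVec]
      have : Matrix.transvection k j (1 : F) *ᵥ Pi.single j 1 = Pi.single j 1 + Pi.single k 1 := by
        rw [Matrix.transvection, Matrix.add_mulVec, Matrix.one_mulVec, Matrix.single_mulVec]
        simp
        rfl
      rw [this, Matrix.mulVec_add, h_add_right, hj, zero_add]
      exact hk
  · exact ⟨g, hgd, hg, hj⟩

theorem exists_row_B {B : Matrix n n F} {i j : n} (hij : i ≠ j) {g : GL n F} (hgd : (g : Matrix n n F).det = 1)
    {x : n → F} (hx : h B x x = 0) (hg : (g : Matrix n n F) *ᵥ Pi.single i 1 = x)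
    (hl : h B x ((g : Matrix n n F) *ᵥ Pi.single j 1) ≠ 0) (w : n → F) (hwi : w i = 0) (t : F) (ht : t ≠ 0)
    (hwj : w j = star t / t * h B x ((g : Matrix n n F) *ᵥ Pi.single j 1)) :
    ∃ g : GL n F, (g : Matrix n n F).det = 1 ∧ cg B g i = w := by
  have hst : star t ≠ 0 := by rwa [Ne, star_eq_zero]
  obtain ⟨s, hs⟩ : ∃ s : n → F, ∀ k, s k = if k = i ∨ k = j then 0 else
    (w k / star t - h B x ((g : Matrix n n F) *ᵥ Pi.single k 1)) * t / h B x ((g : Matrix n n F) *ᵥ Pi.single j 1) :=
    ⟨_, fun _ => rfl⟩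
  have hsi : s i = 0 := by rw [hs, if_pos (Or.inl rfl)]
  have hsj : s j = 0 := by rw [hs, if_pos (Or.inr rfl)]
  obtain ⟨N, hN⟩ : ∃ N : Matrix n n F, N = 1 + Matrix.vecMulVec (Pi.single j 1) s := ⟨_, rfl⟩
  have hdet : N.det = 1 := by
    rw [hN, Matrix.vecMulVec_eq Unit, Matrix.det_one_add_replicateCol_mul_replicateRow]
    simp [hsj]
  have hNk : ∀ k, N *ᵥ Pi.single k 1 = Pi.single k 1 + s k • Pi.single j 1 := by
    intro k
    rw [hN, Matrix.add_mulVec, Matrix.one_mulVec, Matrix.vecMulVec_mulVec]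
    simp
  let d : n → F := fun k => if k = i then t else if k = j then t⁻¹ else 1
  have hDdet : (Matrix.diagonal d).det = 1 := by
    rw [Matrix.det_diagonal, ← Finset.mul_prod_erase _ _ (Finset.mem_univ i),
      ← Finset.mul_prod_erase _ _ (Finset.mem_erase.2 ⟨hij.symm, Finset.mem_univ j⟩), Finset.prod_eq_one]
    · simp [d, hij.symm, ht]
    · intro k hk
      have h1 := Finset.mem_erase.1 hk
      have h2 := Finset.mem_erase.1 h1.2
      simp [d, h1.1, h2.1]
  have hDk : ∀ k, Matrix.diagonal d *ᵥ Pi.single k 1 = d k • Pi.single k 1 := by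
    intro k
    rw [Matrix.mulVec_single_one]
    funext l
    simp only [Matrix.col, Matrix.transpose_apply, Matrix.diagonal_apply, Pi.smul_apply, Pi.single_apply, smul_eq_mul]
    by_cases hl : l = k
    · subst hl; simp
    · simp [hl]
  have hdetM : (Matrix.diagonal d * N).det = 1 := by rw [Matrix.det_mul, hDdet, hdet, one_mul]
  refine ⟨g * Matrix.GeneralLinearGroup.mk'' (Matrix.diagonal d * N) (by rw [hdetM]; exact isUnit_one), ?_, ?_⟩
  · change ((g : Matrix n n F) * (Matrix.diagonal d * N)).det = 1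
    rw [Matrix.det_mul, hgd, hdetM, one_mul]
  have hgN : ∀ k, ((g * Matrix.GeneralLinearGroup.mk'' (Matrix.diagonal d * N) (by rw [hdetM]; exact isUnit_one) : GL n F) : Matrix n n F) *ᵥ Pi.single k 1
      = d k • ((g : Matrix n n F) *ᵥ Pi.single k 1) + (s k * t⁻¹) • ((g : Matrix n n F) *ᵥ Pi.single j 1) := by
    intro k
    change ((g : Matrix n n F) * (Matrix.diagonal d * N)) *ᵥ _ = _
    rw [← Matrix.mulVec_mulVec, ← Matrix.mulVec_mulVec, hNk, Matrix.mulVec_add, Matrix.mulVec_smul, hDk, hDk, Matrix.mulVec_add,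
      Matrix.mulVec_smul, Matrix.mulVec_smul, Matrix.mulVec_smul, smul_smul]
    congr 2
    simp [d, hij.symm]
  have hdi : d i = t := by simp [d]
  have hdj : d j = t⁻¹ := by simp [d, hij.symm]
  funext k
  rw [cg_apply, hgN, hgN, hsi, zero_mul, zero_smul, add_zero, hdi, hg, h_add_right, h_smul_left, h_smul_right, h_smul_left,
    h_smul_right]
  by_cases hki : k = i
  · subst hki
    rw [hg, hx, hsi, hwi]; ring
  · by_cases hkj : k = j
    · subst hkj
      rw [hsj, hdj, hwj]; ring
    · rw [hs, if_neg (by tauto)]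
      have : d k = 1 := by simp [d, hki, hkj]
      rw [this]
      field_simp
      ring

end count

section final

variable {F : Type*} [Field F] [Fintype F] [DecidableEq F] [StarRing F] {q : ℕ} (hF : SF F q)
  {n : Type*} [Fintype n] [DecidableEq n]

include hF

theorem exists_hilbert {u : F} (hu : u * star u = 1) : ∃ t : F, t ≠ 0 ∧ star t / t = u := by
  have hq := one_lt hF
  obtain ⟨t, ht, ht2⟩ := ClEmbed.exists_root (m := q - 1) (k := q + 1) hF.card (by omega)
    (by rw [mul_comm]; exact ClEmbed.sq_sub_one q) (y := u) (by rw [pow_succ', ← hF.star_eq, hu])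
  refine ⟨t, ht, ?_⟩
  rw [hF.star_eq, ← ht2]
  have : t ^ q = t ^ (q - 1) * t := by rw [← pow_succ]; congr 1; omega
  rw [this, mul_div_cancel_right₀ _ ht]

omit hF in
variable (F n) in
/-- The matrices of determinant one. -/
def SLset : Finset (GL n F) := Finset.univ.filter (fun g : GL n F => (g : Matrix n n F).det = 1)

omit hF in
theorem mem_SLset {g : GL n F} : g ∈ SLset F n ↔ (g : Matrix n n F).det = 1 := by
  rw [SLset, Finset.mem_filter]
  exact ⟨fun h => h.2, fun h => ⟨Finset.mem_univ _, h⟩⟩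

/-- Lower bound for the rank at least two case. -/
theorem card_cg_hyp {B : Matrix n n F} {x y : n → F} {i j : n} (hij : i ≠ j) (hx : h B x x = 0) (hxy : h B x y = 1)
    (hy : h B y y = 1) :
    (q ^ (2 * Fintype.card n) - 1) / (q + 1) ≤
      ((SLset F n).image (cg B)).card := by
  classical
  have hq := one_lt hF
  obtain ⟨g, hgd, hg, hl⟩ := exists_pre_B hij hx hxy
  set l := h B x ((g : Matrix n n F) *ᵥ Pi.single j 1) with hldef
  let A := Polynomial.nthRootsFinset (q - 1) (1 : F)
  let U := Polynomial.nthRootsFinset (q + 1) (1 : F)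
  let R1 : Finset (n → F) := Fintype.piFinset (fun k => if k = i then A else Finset.univ)
  let R2 : Finset (n → F) := Fintype.piFinset (fun k => if k = i then {0} else if k = j then U.image (fun u => u * l) else Finset.univ)
  have hdisj : Disjoint R1 R2 := by
    rw [Finset.disjoint_left]
    intro w h1 h2
    have h3 := Fintype.mem_piFinset.1 h1 i
    have h4 := Fintype.mem_piFinset.1 h2 i
    simp only [if_true] at h3 h4
    rw [Finset.mem_singleton] at h4
    exact ((mem_fixed hF).1 h3).1 h4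
  have hcard : (R1 ∪ R2).card ≤
      ((SLset F n).image (cg B)).card := by
    refine Finset.card_le_card_of_surjOn (fun M => M i) ?_
    intro w hw
    have key : ∃ g : GL n F, (g : Matrix n n F).det = 1 ∧ cg B g i = w := by
      rcases Finset.mem_union.1 (Finset.mem_coe.1 hw) with h1 | h1
      · have h3 := Fintype.mem_piFinset.1 h1 i
        simp only [if_true] at h3
        obtain ⟨h4, h5⟩ := (mem_fixed hF).1 h3
        obtain ⟨t, ht⟩ := exists_norm hF h5
        exact exists_row_A hij w h4 (t • y) (by rw [h_smul_right, h_smul_left, hy, mul_one, ht])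
      · have h3 := Fintype.mem_piFinset.1 h1 i
        have h4 := Fintype.mem_piFinset.1 h1 j
        simp only [if_true, if_neg hij.symm] at h3 h4
        rw [Finset.mem_singleton] at h3
        obtain ⟨u, hu, huw⟩ := Finset.mem_image.1 h4
        obtain ⟨t, ht, htu⟩ := exists_hilbert hF ((mem_norm_one hF).1 hu)
        exact exists_row_B hij hgd hx hg hl w h3 t ht (by rw [← huw, htu])
    obtain ⟨g, hgd, hg⟩ := key
    exact ⟨cg B g, Finset.mem_coe.2 (Finset.mem_image_of_mem _ (mem_SLset.2 hgd)), hg⟩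
  have hR1 : R1.card = (q - 1) * (q ^ 2) ^ (Fintype.card n - 1) := by
    rw [Fintype.card_piFinset, ← Finset.mul_prod_erase _ _ (Finset.mem_univ i), if_pos rfl, card_fixed hF,
      Finset.prod_congr rfl (g := fun _ => q ^ 2), Finset.prod_const, Finset.card_erase_of_mem (Finset.mem_univ _), Finset.card_univ]
    intro k hk
    rw [if_neg (Finset.mem_erase.1 hk).1, Finset.card_univ, hF.card]
  have hR2 : R2.card = (q + 1) * (q ^ 2) ^ (Fintype.card n - 2) := by
    rw [Fintype.card_piFinset, ← Finset.mul_prod_erase _ _ (Finset.mem_univ i), if_pos rfl, Finset.card_singleton, one_mul,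
      ← Finset.mul_prod_erase _ _ (Finset.mem_erase.2 ⟨hij.symm, Finset.mem_univ j⟩), if_neg hij.symm, if_pos rfl,
      Finset.card_image_of_injective _ (fun a b hab => mul_right_cancel₀ hl hab), card_norm_one hF,
      Finset.prod_congr rfl (g := fun _ => q ^ 2), Finset.prod_const, Finset.card_erase_of_mem, Finset.card_erase_of_mem (Finset.mem_univ _), Finset.card_univ,
      Nat.sub_sub]
    · exact Finset.mem_erase.2 ⟨hij.symm, Finset.mem_univ j⟩
    · intro k hk
      have h1 := Finset.mem_erase.1 hk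
      have h2 := Finset.mem_erase.1 h1.2
      rw [if_neg h2.1, if_neg h1.1, Finset.card_univ, hF.card]
  rw [Finset.card_union_of_disjoint hdisj, hR1, hR2] at hcard
  refine le_trans ?_ hcard
  have hn : 2 ≤ Fintype.card n := by
    have := Fintype.one_lt_card_iff.2 ⟨i, j, hij⟩
    exact this
  obtain ⟨m, hm⟩ := Nat.exists_eq_add_of_le hn
  rw [hm, show 2 + m - 1 = m + 1 by omega, show 2 + m - 2 = m by omega]
  obtain ⟨k, rfl⟩ : ∃ k, q = k + 2 := ⟨q - 2, by omega⟩
  refine Nat.div_le_of_le_mul ?_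
  have e1 : (k + 2) ^ (2 * (2 + m)) = ((k + 2) ^ 2) ^ m * (k + 2) ^ 4 := by
    rw [← pow_mul, ← pow_add]; congr 1; ring
  rw [e1, pow_succ ((k + 2) ^ 2) m]
  set Q := ((k + 2) ^ 2) ^ m
  have e2 : k + 2 - 1 = k + 1 := by omega
  rw [e2]
  have e3 : (k + 2 + 1) * ((k + 1) * (Q * (k + 2) ^ 2) + (k + 2 + 1) * Q) = Q * ((k + 2) ^ 4 + 2 * (k + 2) + 1) := by ring
  rw [e3]
  have : Q * (k + 2) ^ 4 ≤ Q * ((k + 2) ^ 4 + 2 * (k + 2) + 1) := Nat.mul_le_mul_left _ (by omega)
  omega

/-- Lower bound for the rank one case. -/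
theorem card_cg_one {B : Matrix n n F} {y : n → F} (hy : y ≠ 0) (hB : B = Matrix.vecMulVec y (star y)) (S : Finset (GL n F))
    (hS : ∀ z : n → F, z ≠ 0 → ∃ g ∈ S, (g : Matrix n n F)ᴴ *ᵥ y = z) :
    (q ^ (2 * Fintype.card n) - 1) / (q + 1) ≤ (S.image (cg B)).card := by
  classical
  have hq := one_lt hF
  have h1 : ((Finset.univ : Finset (n → F)).erase 0).card ≤
      (q + 1) * (((Finset.univ : Finset (n → F)).erase 0).image (fun y => Matrix.vecMulVec y (star y))).card := by
    refine Finset.card_le_mul_card_image _ _ fun M hM => ?_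
    obtain ⟨y, hy, rfl⟩ := Finset.mem_image.1 hM
    have hy0 : y ≠ 0 := (Finset.mem_erase.1 hy).1
    rw [← card_norm_one hF]
    refine (Finset.card_le_card (t := (Polynomial.nthRootsFinset (q + 1) (1 : F)).image (fun u => u • y)) fun z hz => ?_).trans
      Finset.card_image_le
    obtain ⟨-, hz2⟩ := Finset.mem_filter.1 hz
    obtain ⟨i, hi⟩ : ∃ i, y i ≠ 0 := by
      by_contra h
      push Not at h
      exact hy0 (funext h)
    have h4 : ∀ j k, z j * star (z k) = y j * star (y k) := fun j k => congrFun (congrFun hz2 j) k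
    have hzi : z i ≠ 0 := by
      intro h0
      have := h4 i i
      rw [h0, zero_mul] at this
      exact mul_ne_zero hi (by rwa [Ne, star_eq_zero]) this.symm
    have hszi : star (z i) ≠ 0 := by rwa [Ne, star_eq_zero]
    refine Finset.mem_image.2 ⟨star (y i) / star (z i), ?_, ?_⟩
    · rw [mem_norm_one hF, star_div₀, star_star, star_star, div_mul_div_comm, mul_comm (star (y i)), mul_comm (star (z i)),
        h4 i i, div_self (mul_ne_zero hi (by rwa [Ne, star_eq_zero]))]
    · funext k
      rw [Pi.smul_apply, smul_eq_mul, div_mul_eq_mul_div, div_eq_iff hszi, mul_comm, ← h4 k i]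
  have h2 : (((Finset.univ : Finset (n → F)).erase 0).image (fun y => Matrix.vecMulVec y (star y))) ⊆ (S.image (cg B)) := by
    intro M hM
    obtain ⟨z, hz, rfl⟩ := Finset.mem_image.1 hM
    obtain ⟨g, hgS, hg⟩ := hS z (Finset.mem_erase.1 hz).1
    refine Finset.mem_image.2 ⟨g, hgS, ?_⟩
    rw [cg, hB, Matrix.mul_vecMulVec, hg, Matrix.vecMulVec_mul]
    congr 1
    rw [← hg, Matrix.star_mulVec, Matrix.conjTranspose_conjTranspose]
  have h3 := Finset.card_le_card h2
  rw [Finset.card_erase_of_mem (Finset.mem_univ _), Finset.card_univ, Fintype.card_fun, hF.card, ← pow_mul] at h1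
  exact Nat.div_le_of_le_mul (h1.trans (Nat.mul_le_mul_left _ h3))

/-- The number of matrices congruent under `SL` to a given non-zero hermitian matrix. -/
theorem card_cg {B : Matrix n n F} (hB : Bᴴ = B) (h0 : B ≠ 0) {i j : n} (hij : i ≠ j) :
    (q ^ (2 * Fintype.card n) - 1) / (q + 1) ≤
      ((SLset F n).image (cg B)).card := by
  rcases dichotomy hF hB h0 with ⟨y, hy, hBy⟩ | ⟨x, y, hx, hxy, hy⟩
  · refine card_cg_one hF hy hBy _ fun z hz => ?_
    obtain ⟨g, hgd, hg⟩ := exists_map_sl y z hy hz hij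
    have hdet : ((g : Matrix n n F)ᴴ).det = 1 := by rw [Matrix.det_conjTranspose, hgd, star_one]
    refine ⟨Matrix.GeneralLinearGroup.mk'' ((g : Matrix n n F)ᴴ) (by rw [hdet]; exact isUnit_one),
      mem_SLset.2 hdet, ?_⟩
    change ((g : Matrix n n F)ᴴ)ᴴ *ᵥ y = z
    rw [Matrix.conjTranspose_conjTranspose, hg]
  · exact card_cg_hyp hF hij hx hxy hy

end final

end Cfsg.Agent.Lib.HermCount
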