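import Cfsg.Agent.Lib.PolyStar
import Cfsg.Agent.Lib.HermAlg

set_option autoImplicit false
set_option linter.unusedSectionVars false

/-! Types of isometries of hermitian forms (helper43). -/

namespace Cfsg.Agent.Lib.HermType

open Module Polynomial Cfsg.Agent.Lib.FXMod Cfsg.Agent.Lib.FXType Cfsg.Agent.Lib.GLClass Cfsg.Agent.Lib.PolyStar Cfsg.Agent.Lib.HermAlg

universe u

variable {K : Type u} [Field K] {σ : K →+* K}

section Nullity

variable {n : ℕ}

/-- nullity -/
noncomputable def nul (N : Matrix (Fin n) (Fin n) K) : ℕ := finrank K (LinearMap.ker (Matrix.mulVecLin N))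

theorem nul_add_rank (N : Matrix (Fin n) (Fin n) K) : N.rank + nul N = n := by
  have := LinearMap.finrank_range_add_finrank_ker (Matrix.mulVecLin N)
  rw [Module.finrank_fintype_fun_eq_card, Fintype.card_fin] at this
  exact this

theorem nul_transpose (N : Matrix (Fin n) (Fin n) K) : nul N.transpose = nul N := by
  have h1 := nul_add_rank N
  have h2 := nul_add_rank N.transpose
  rw [Matrix.rank_transpose] at h2
  omega

theorem nul_mul_unit (N U V : Matrix (Fin n) (Fin n) K) (hU : U * V = 1) : nul (N * U) = nul N := by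
  have hV : V * U = 1 := mul_eq_one_comm.mp hU
  let E : LinearMap.ker (Matrix.mulVecLin (N * U)) ≃ₗ[K] LinearMap.ker (Matrix.mulVecLin N) :=
    { toFun := fun x => ⟨U.mulVec x.1, by
        have := x.2
        rw [LinearMap.mem_ker, Matrix.mulVecLin_apply] at this ⊢
        rw [Matrix.mulVec_mulVec, this]⟩
      invFun := fun x => ⟨V.mulVec x.1, by
        have := x.2
        rw [LinearMap.mem_ker, Matrix.mulVecLin_apply] at this ⊢
        rw [Matrix.mulVec_mulVec, Matrix.mul_assoc, hU, Matrix.mul_one, this]⟩
      map_add' := fun x y => by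
        apply Subtype.ext
        show U.mulVec (x.1 + y.1) = U.mulVec x.1 + U.mulVec y.1
        exact Matrix.mulVec_add _ _ _
      map_smul' := fun c x => by
        apply Subtype.ext
        show U.mulVec (c • x.1) = c • U.mulVec x.1
        exact Matrix.mulVec_smul _ _ _
      left_inv := fun x => by
        apply Subtype.ext
        show V.mulVec (U.mulVec x.1) = x.1
        rw [Matrix.mulVec_mulVec, hV, Matrix.one_mulVec]
      right_inv := fun x => by
        apply Subtype.ext
        show U.mulVec (V.mulVec x.1) = x.1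
        rw [Matrix.mulVec_mulVec, hU, Matrix.one_mulVec] }
  exact E.finrank_eq

theorem nul_map [Finite K] (hσ : ∀ x, σ (σ x) = x) (N : Matrix (Fin n) (Fin n) K) : nul (N.map σ) = nul N := by
  have hcard : ∀ M : Matrix (Fin n) (Fin n) K, Nat.card (LinearMap.ker (Matrix.mulVecLin M)) = Nat.card K ^ nul M := fun M =>
    Module.natCard_eq_pow_finrank (K := K) (V := LinearMap.ker (Matrix.mulVecLin M))
  have hmv : ∀ (M : Matrix (Fin n) (Fin n) K) (x : Fin n → K), (M.map σ).mulVec (fun i => σ (x i)) = fun i => σ (M.mulVec x i) := by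
    intro M x
    funext i
    rw [Matrix.mulVec, Matrix.mulVec, dotProduct, dotProduct, map_sum]
    apply Finset.sum_congr rfl
    intro j _
    rw [Matrix.map_apply, map_mul]
  have hmm : (N.map σ).map σ = N := by
    ext i j
    rw [Matrix.map_apply, Matrix.map_apply, hσ]
  have hkey : Nat.card (LinearMap.ker (Matrix.mulVecLin (N.map σ))) = Nat.card (LinearMap.ker (Matrix.mulVecLin N)) := by
    apply Nat.card_congr
    exact
      { toFun := fun x => ⟨fun i => σ (x.1 i), by
          have h1 : (N.map σ).mulVec x.1 = 0 := x.2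
          rw [LinearMap.mem_ker, Matrix.mulVecLin_apply]
          have h2 := hmv (N.map σ) x.1
          rw [hmm, h1] at h2
          rw [h2]
          funext i
          exact map_zero σ⟩
        invFun := fun x => ⟨fun i => σ (x.1 i), by
          have h1 : N.mulVec x.1 = 0 := x.2
          rw [LinearMap.mem_ker, Matrix.mulVecLin_apply, hmv, h1]
          funext i
          exact map_zero σ⟩
        left_inv := fun x => by
          apply Subtype.ext
          funext i
          exact hσ _
        right_inv := fun x => by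
          apply Subtype.ext
          funext i
          exact hσ _ }
  rw [hcard, hcard] at hkey
  have : 1 < Nat.card K := Finite.one_lt_card
  exact Nat.pow_right_injective this hkey

theorem aeval_transpose (N : Matrix (Fin n) (Fin n) K) (g : K[X]) : aeval N.transpose g = (aeval N g).transpose := by
  induction g using Polynomial.induction_on' with
  | add p q hp hq => rw [map_add, map_add, hp, hq, Matrix.transpose_add]
  | monomial k a =>
    rw [aeval_monomial, aeval_monomial, Matrix.transpose_mul, ← Matrix.transpose_pow, Matrix.algebraMap_eq_diagonal]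
    rw [Matrix.diagonal_transpose]
    rw [← Matrix.algebraMap_eq_diagonal]
    exact Algebra.commutes _ _

theorem aeval_map (N : Matrix (Fin n) (Fin n) K) (g : K[X]) : aeval (N.map σ) (g.map σ) = (aeval N g).map σ := by
  induction g using Polynomial.induction_on' with
  | add p q hp hq => 
    rw [map_add, Polynomial.map_add, map_add, hp, hq]
    ext i j
    simp
  | monomial k a =>
    rw [Polynomial.map_monomial, aeval_monomial, aeval_monomial, Matrix.map_mul, Algebra.algebraMap_eq_smul_one, Algebra.algebraMap_eq_smul_one]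
    have h1 : ∀ k : ℕ, (N ^ k).map σ = (N.map σ) ^ k := by
      intro k
      have := map_pow (σ.mapMatrix (m := Fin n)) N k
      exact this
    rw [h1]
    congr 1
    ext i j
    simp [Matrix.one_apply, apply_ite σ]

/-- The key symmetry of kernels. -/
theorem nul_symm [Finite K] (hσ : ∀ x, σ (σ x) = x) {s : Multiset (K[X] × ℕ)} (A : GL (Fin n) K) (hs : MType (A : Matrix (Fin n) (Fin n) K) s)
    (hA : IsConj (A : Matrix (Fin n) (Fin n) K) (((A : Matrix (Fin n) (Fin n) K).map σ).transpose)⁻¹) (p : K[X]) (hp : p ≠ 0) (h0 : p.coeff 0 ≠ 0) (k : ℕ) :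
    finrank K (LinearMap.ker (aeval (Matrix.mulVecLin (A : Matrix (Fin n) (Fin n) K)) (p ^ k))) =
      finrank K (LinearMap.ker (aeval (Matrix.mulVecLin (A : Matrix (Fin n) (Fin n) K)) ((ps σ p) ^ k))) := by
  set M : Matrix (Fin n) (Fin n) K := (A : Matrix (Fin n) (Fin n) K) with hM
  set Mi : Matrix (Fin n) (Fin n) K := ((A⁻¹ : GL (Fin n) K) : Matrix (Fin n) (Fin n) K) with hMi
  have h1 : M * Mi = 1 := Units.mul_inv A
  have h2 : Mi * M = 1 := Units.inv_mul A
  have hinv : ((M.map σ).transpose)⁻¹ = (Mi.map σ).transpose := by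
    apply Matrix.inv_eq_right_inv
    rw [← Matrix.transpose_mul, ← Matrix.map_mul, h2]
    ext i j
    simp [Matrix.one_apply, eq_comm]
  rw [hinv] at hA
  have hs' : MType ((Mi.map σ).transpose) s := hs.of_isConj hA
  have e1 := HasType.finrank_ker hs (p ^ k)
  have e2 := HasType.finrank_ker hs' (p ^ k)
  rw [e1, ← e2, aeval_mulVecLin, aeval_mulVecLin]
  show nul (aeval ((Mi.map σ).transpose) (p ^ k)) = nul (aeval M (ps σ p ^ k))
  have hpk : p ^ k = ((p ^ k).map σ).map σ := by
    rw [Polynomial.map_map]
    have : σ.comp σ = RingHom.id K := RingHom.ext hσ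
    rw [this, Polynomial.map_id]
  rw [aeval_transpose, nul_transpose]
  rw [hpk, aeval_map, nul_map hσ]
  have h0k : (p ^ k).coeff 0 ≠ 0 := by
    rw [coeff_zero_eq_eval_zero, eval_pow]
    exact pow_ne_zero _ (by rwa [← coeff_zero_eq_eval_zero])
  have hUV : M ^ (p ^ k).natDegree * Mi ^ (p ^ k).natDegree = 1 := by
    have hc : Commute M Mi := by rw [commute_iff_eq, h1, h2]
    rw [← hc.mul_pow, h1, one_pow]
  rw [← nul_mul_unit _ _ _ hUV, aeval_inv h2 ((p ^ k).map σ) (p ^ k).natDegree (by rw [natDegree_map]), ← rv_eq_reflect h0k, rv_pow]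
  have hass : Associated (rv σ p ^ k) (ps σ p ^ k) := (ps_assoc hp).symm.pow_pow
  obtain ⟨u, hu⟩ := hass
  rw [← hu, map_mul]
  have huu : aeval M (u : K[X]) * aeval M ((u⁻¹ : (K[X])ˣ) : K[X]) = 1 := by
    rw [← map_mul, Units.mul_inv, map_one]
  exact (nul_mul_unit _ _ _ huu).symm

theorem count_symm [Finite K] [DecidableEq (K[X] × ℕ)] (hσ : ∀ x, σ (σ x) = x) {s : Multiset (K[X] × ℕ)} (A : GL (Fin n) K) (hs : MType (A : Matrix (Fin n) (Fin n) K) s)
    (hA : IsConj (A : Matrix (Fin n) (Fin n) K) (((A : Matrix (Fin n) (Fin n) K).map σ).transpose)⁻¹) (p : K[X]) (hp : p.Monic) (hpi : Irreducible p) (h0 : p.coeff 0 ≠ 0) (k : ℕ) :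
    s.count (p, k + 1) = s.count (ps σ p, k + 1) := by
  have h1 := count_formula s hs.good p hp hpi k
  have h2 := count_formula s hs.good (ps σ p) (ps_monic hp.ne_zero) (ps_irreducible hσ hpi) k
  have h3 : ∀ k, (s.map fun d => gdeg (p ^ k) (d.1 ^ d.2)).sum = (s.map fun d => gdeg ((ps σ p) ^ k) (d.1 ^ d.2)).sum := by
    intro k
    rw [← HasType.finrank_ker hs, ← HasType.finrank_ker hs]
    exact nul_symm hσ A hs hA p hp.ne_zero h0 k
  rw [h3, h3, h3] at h1
  rw [ps_natDegree hp.ne_zero] at h2
  have h4 : p.natDegree * s.count (p, k + 1) = p.natDegree * s.count (ps σ p, k + 1) := by omega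
  exact Nat.eq_of_mul_eq_mul_left hpi.natDegree_pos h4

end Nullity

end Cfsg.Agent.Lib.HermType
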