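import Cfsg.Agent.Lib.HupM
import Cfsg.Agent.Lib.BrauerFowler
import Cfsg.Agent.Lib.QuatSylow
import Cfsg.Agent.Lib.SLTwoThree

/-!
# Solvable groups regular on the nonzero vectors (helper61)
-/

set_option autoImplicit false

open scoped commutatorElement

namespace Cfsg.Agent.Lib.HupNear

open HupA HupB HupC HupD HupE HupF HupG HupH HupI HupJ HupK HupL HupM

variable {q : ℕ} [hq : Fact q.Prime] {V : Type*} [AddCommGroup V] [Module (ZMod q) V] [Finite V]
  {G : Type*} [Group G] {ρ : G →* (V ≃ₗ[ZMod q] V)}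

/-- A semilinear group of even order has a subgroup of index two. -/
theorem semi_index_two [Finite G] [Nontrivial V] (hinj : Function.Injective ρ) (h : Semi ρ)
    (heven : Even (Nat.card G)) : ∃ H : Subgroup G, H.index = 2 := by
  obtain ⟨f, e, -, h⟩ := h
  have hfin : Finite (GaloisField q f) := Finite.of_equiv V e.toEquiv
  set F := GaloisField q f with hFdef
  choose a σ haσ using h
  have ha : ∀ g, a g = e (ρ g (e.symm 1)) := by
    intro g
    rw [haσ, AddEquiv.apply_symm_apply, map_one, mul_one]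
  have ha0 : ∀ g, a g ≠ 0 := by
    intro g hg
    have h1 := ha g
    rw [hg] at h1
    have h2 : ρ g (e.symm 1) = 0 := by
      apply e.injective
      rw [← h1, map_zero]
    have h3 : e.symm 1 = 0 := (map_eq_zero_iff _ (ρ g).injective).mp h2
    have h4 : (1 : F) = 0 := by
      rw [← e.apply_symm_apply 1, h3, map_zero]
    exact one_ne_zero h4
  have hamul : ∀ g h, a (g * h) = a g * σ g (a h) := by
    intro g h
    rw [ha (g * h), HupA.mul_apply, haσ g, ← ha h]
  have hσmul : ∀ g h x, σ (g * h) x = σ g (σ h x) := by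
    intro g h x
    have h1 := haσ (g * h) (e.symm x)
    rw [HupA.mul_apply, haσ g, haσ h, AddEquiv.apply_symm_apply, map_mul, hamul, ← mul_assoc] at h1
    exact (mul_left_cancel₀ (mul_ne_zero (ha0 g) ((map_ne_zero_iff _ (σ g).injective).mpr (ha0 h))) h1).symm
  have hσone : ∀ x, σ 1 x = x := by
    intro x
    have h1 := hσmul 1 1 x
    rw [one_mul] at h1
    exact (σ 1).injective h1.symm
  let S : G →* (F ≃ₐ[ZMod q] F) :=
    { toFun := fun g => AlgEquiv.ofRingEquiv (f := σ g) (by
        intro r
        have h1 : ((σ g : F ≃+* F) : F →+* F).comp (algebraMap (ZMod q) F) = algebraMap (ZMod q) F := Subsingleton.elim _ _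
        exact congrArg (fun φ : ZMod q →+* F => φ r) h1)
      map_one' := by
        ext x : 1
        exact hσone x
      map_mul' := fun g h => by
        ext x : 1
        exact hσmul g h x }
  have hS : ∀ g x, S g x = σ g x := fun g x => rfl
  -- the kernel is cyclic
  have hker : ∀ g ∈ S.ker, ∀ x, σ g x = x := by
    intro g hg x
    rw [← hS, MonoidHom.mem_ker.mp hg]; rfl
  let φ : S.ker →* F :=
    { toFun := fun g => a g
      map_one' := by
        rw [Subgroup.coe_one, ha, map_one]
        exact e.apply_symm_apply 1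
      map_mul' := fun g h => by
        rw [Subgroup.coe_mul, hamul, hker g g.2] }
  have hφ : Function.Injective φ := by
    intro g h hgh
    apply Subtype.ext
    apply hinj
    ext v
    apply e.injective
    rw [haσ, haσ, hker g g.2, hker h h.2]
    have : a g = a h := hgh
    rw [this]
  have hcycK : IsCyclic S.ker := isCyclic_of_injective_ringHom φ hφ
  have hcycR : IsCyclic S.range := by
    have : IsCyclic (F ≃ₐ[ZMod q] F) := inferInstance
    infer_instance
  by_cases hr : Even (Nat.card S.range)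
  · obtain ⟨T⟩ : Nonempty (Sylow 2 S.range) := inferInstance
    have hT : IsCyclic (T : Subgroup S.range) := inferInstance
    obtain ⟨H, hH⟩ := BrauerFowler.exists_index_two_of_cyclic hr T hT
    refine ⟨H.comap S.rangeRestrict, ?_⟩
    rw [Subgroup.index_comap_of_surjective _ S.rangeRestrict_surjective, hH]
  · obtain ⟨T⟩ : Nonempty (Sylow 2 G) := inferInstance
    have hTle : (T : Subgroup G) ≤ S.ker := by
      intro t ht
      rw [MonoidHom.mem_ker, ← orderOf_eq_one_iff]
      obtain ⟨k, hk⟩ := T.isPGroup' ⟨t, ht⟩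
      have h1 : t ^ 2 ^ k = 1 := congrArg Subtype.val hk
      have h2 : orderOf (S t) ∣ 2 ^ k := orderOf_dvd_of_pow_eq_one (by rw [← map_pow, h1, map_one])
      have h3 : orderOf (S t) ∣ Nat.card S.range := by
        have := orderOf_dvd_natCard (⟨S t, ⟨t, rfl⟩⟩ : S.range)
        rwa [← Subgroup.orderOf_coe] at this
      rw [Nat.not_even_iff_odd] at hr
      have h4 : Nat.Coprime (2 ^ k) (Nat.card S.range) := Nat.Coprime.pow_left k (Nat.coprime_two_left.mpr hr)
      exact Nat.eq_one_of_dvd_coprimes h4 h2 h3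
    have hT : IsCyclic (T : Subgroup G) := by
      have h1 : Function.Injective (Subgroup.inclusion hTle) := Subgroup.inclusion_injective hTle
      exact isCyclic_of_injective (Subgroup.inclusion hTle) h1
    exact BrauerFowler.exists_index_two_of_cyclic heven T hT

/-- Regular action on nonzero vectors. -/
def Reg (ρ : G →* (V ≃ₗ[ZMod q] V)) : Prop := ∀ v : V, v ≠ 0 → ∀ g : G, ρ g v = v → g = 1

theorem neg_of_involution (hr : Reg ρ) {g : G} (hg : g ^ 2 = 1) (hg1 : g ≠ 1) (v : V) : ρ g v = -v := by
  have h1 : ρ g (v + ρ g v) = v + ρ g v := by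
    rw [map_add, ← HupA.mul_apply, ← pow_two, hg, map_one, add_comm]
    rfl
  by_contra hne
  apply hg1
  refine hr (v + ρ g v) ?_ g h1
  intro h2
  exact hne (eq_neg_of_add_eq_zero_right h2)

theorem involution_unique (hinj : Function.Injective ρ) (hr : Reg ρ) {g h : G} (hg : g ^ 2 = 1) (hg1 : g ≠ 1)
    (hh : h ^ 2 = 1) (hh1 : h ≠ 1) : g = h := by
  apply hinj
  ext v
  rw [neg_of_involution hr hg hg1, neg_of_involution hr hh hh1]

theorem involution_central (hinj : Function.Injective ρ) (hr : Reg ρ) {g : G} (hg : g ^ 2 = 1) (h : G) : g * h = h * g := by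
  by_cases hg1 : g = 1
  · rw [hg1]; simp
  apply hinj
  ext v
  rw [HupA.mul_apply, HupA.mul_apply, neg_of_involution hr hg hg1, neg_of_involution hr hg hg1, map_neg]

theorem card_G [Finite G] [Nontrivial V] (ht : Tr ρ) (hr : Reg ρ) : Nat.card G = Nat.card V - 1 := by
  obtain ⟨v, hv⟩ := exists_ne (0 : V)
  rw [← card_compl_zero]
  refine Nat.card_congr (Equiv.ofBijective (fun g : G => (⟨ρ g v, ?_⟩ : {w : V // w ≠ 0})) ⟨?_, ?_⟩)
  · intro h
    exact hv ((map_eq_zero_iff (ρ g) (ρ g).injective).mp h)
  · intro g h hgh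
    have h1 : ρ g v = ρ h v := congrArg Subtype.val hgh
    have h2 : ρ (h⁻¹ * g) v = v := by rw [HupA.mul_apply, h1, inv_apply_apply]
    have h3 := hr v hv _ h2
    exact (inv_mul_eq_one.mp h3).symm
  · rintro ⟨w, hw⟩
    obtain ⟨g, hg⟩ := ht v w hv hw
    exact ⟨g, Subtype.ext hg⟩

theorem nine [Finite G] [Nontrivial V] (hinj : Function.Injective ρ) (ht : Tr ρ) (hr : Reg ρ) (h9 : Nat.card V = 9) :
    Semi ρ := by
  have hG : Nat.card G = 8 := by rw [card_G ht hr, h9]
  have hq3 : q = 3 ∧ Module.finrank (ZMod q) V = 2 := by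
    have h1 := card_V_eq (q := q) (V := V)
    rw [h9] at h1
    set f := Module.finrank (ZMod q) V with hf
    have hf0 : f ≠ 0 := by rintro h; rw [h] at h1; norm_num at h1
    have h2 : q ∣ 3 ^ 2 := by rw [show (3 : ℕ) ^ 2 = 9 from rfl, h1]; exact dvd_pow_self q hf0
    have h3 : q = 3 := (Nat.prime_dvd_prime_iff_eq hq.out Nat.prime_three).mp (hq.out.dvd_of_dvd_pow h2)
    refine ⟨h3, ?_⟩
    rw [h3] at h1
    exact (Nat.pow_right_injective (le_refl 2 |>.trans (by norm_num : 2 ≤ 3)) (by norm_num; exact h1 : 3 ^ 2 = 3 ^ f)).symm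
  obtain ⟨h3, hf⟩ := hq3
  -- an element whose square is not trivial
  obtain ⟨g, hg⟩ : ∃ g : G, g ^ 2 ≠ 1 := by
    by_contra hcon
    push Not at hcon
    have h1 : Nat.card G ≤ Nat.card Bool := by
      classical
      refine Nat.card_le_card_of_injective (fun g : G => decide (g = 1)) ?_
      intro a b hab
      simp only [decide_eq_decide] at hab
      by_cases ha : a = 1
      · rw [ha, hab.mp ha]
      · exact involution_unique hinj hr (hcon a) ha (hcon b) (fun h => ha (hab.mpr h))
    rw [hG] at h1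
    norm_num at h1
  have hord : orderOf g ∣ 8 := by rw [← hG]; exact orderOf_dvd_natCard g
  have hord1 : orderOf g ≠ 1 := by
    intro h; rw [orderOf_eq_one_iff] at h; rw [h] at hg; simp at hg
  have hord2 : orderOf g ≠ 2 := by
    intro h; apply hg; rw [← h, pow_orderOf_eq_one]
  have hmem : orderOf g ∈ Nat.divisors 8 := Nat.mem_divisors.mpr ⟨hord, by norm_num⟩
  have hdiv : Nat.divisors 8 = {1, 2, 4, 8} := by decide +kernel
  rw [hdiv] at hmem
  simp only [Finset.mem_insert, Finset.mem_singleton] at hmem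
  have h48 : orderOf g = 4 ∨ orderOf g = 8 := by tauto
  have h4 : 4 ∣ Nat.card (Subgroup.zpowers g) := by
    rw [Nat.card_zpowers]
    rcases h48 with h | h <;> rw [h] <;> norm_num
  have hidx : (Subgroup.zpowers g).index ∣ 2 := by
    have h1 := Subgroup.index_mul_card (Subgroup.zpowers g)
    rw [hG, Nat.card_zpowers] at h1
    rcases h48 with h | h
    · rw [h] at h1
      have : (Subgroup.zpowers g).index = 2 := by omega
      rw [this]
    · rw [h] at h1
      have : (Subgroup.zpowers g).index = 1 := by omega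
      rw [this]; norm_num
  have hn : (Subgroup.zpowers g).Normal := by
    rcases (Nat.dvd_prime Nat.prime_two).mp hidx with h | h
    · rw [Subgroup.index_eq_one] at h
      rw [h]; infer_instance
    · exact Subgroup.normal_of_index_eq_two h
  have hna : NA ρ (Subgroup.zpowers g) := by
    refine ⟨hinj, ht, hn, ?_⟩
    rintro _ ⟨i, rfl⟩ _ ⟨j, rfl⟩
    exact ((Commute.refl g).zpow_zpow i j).eq
  rcases semi_or_scalar hf hna with h | h
  · exact h
  · exfalso
    have h1 := card_A_dvd hna
    rw [card_alg_eq, h, pow_one, h3] at h1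
    have := h4.trans h1
    norm_num at this

theorem eighty_one [Finite G] [Nontrivial V] (hinj : Function.Injective ρ) (ht : Tr ρ) (hr : Reg ρ)
    (h81 : Nat.card V = 81) : Semi ρ := by
  have hG : Nat.card G = 80 := by rw [card_G ht hr, h81]
  have hq3 : q = 3 ∧ Module.finrank (ZMod q) V = 4 := by
    have h1 := card_V_eq (q := q) (V := V)
    rw [h81] at h1
    set f := Module.finrank (ZMod q) V with hf
    have hf0 : f ≠ 0 := by rintro h; rw [h] at h1; norm_num at h1
    have h2 : q ∣ 3 ^ 4 := by rw [show (3 : ℕ) ^ 4 = 81 from rfl, h1]; exact dvd_pow_self q hf0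
    have h3 : q = 3 := (Nat.prime_dvd_prime_iff_eq hq.out Nat.prime_three).mp (hq.out.dvd_of_dvd_pow h2)
    refine ⟨h3, ?_⟩
    rw [h3] at h1
    exact (Nat.pow_right_injective (by norm_num : 2 ≤ 3) (by norm_num; exact h1 : 3 ^ 4 = 3 ^ f)).symm
  obtain ⟨h3, hf⟩ := hq3
  have h5p : Fact (Nat.Prime 5) := ⟨by norm_num⟩
  have h2p : Fact (Nat.Prime 2) := ⟨Nat.prime_two⟩
  obtain ⟨P⟩ : Nonempty (Sylow 5 G) := inferInstance
  have hP : Nat.card P = 5 := by
    rw [Sylow.card_eq_multiplicity, hG]
    have : (80 : ℕ).factorization 5 = 1 := by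
      have h1 : (80 : ℕ) = 5 ^ 1 * 16 := by norm_num
      rw [h1, Nat.factorization_mul (by norm_num) (by norm_num), Nat.Prime.factorization_pow h5p.out]
      simp only [Finsupp.coe_add, Pi.add_apply, Finsupp.single_eq_same]
      rw [Nat.factorization_eq_zero_of_not_dvd (by norm_num : ¬ 5 ∣ 16)]
    rw [this, pow_one]
  -- the involution
  obtain ⟨t, ht2⟩ := exists_prime_orderOf_dvd_card' (G := G) 2 (by rw [hG]; norm_num)
  have ht1 : t ^ 2 = 1 := by rw [← ht2, pow_orderOf_eq_one]
  have htn : t ∈ Subgroup.normalizer ((P : Subgroup G) : Set G) := by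
    rw [Subgroup.mem_normalizer_iff]
    intro x
    rw [involution_central hinj hr ht1 x, mul_inv_cancel_right]
  have hN2 : 2 ∣ Nat.card (Subgroup.normalizer ((P : Subgroup G) : Set G)) := by
    rw [← ht2]; exact Subgroup.orderOf_dvd_natCard _ htn
  have hN5 : 5 ∣ Nat.card (Subgroup.normalizer ((P : Subgroup G) : Set G)) := by
    have h := Subgroup.card_dvd_of_le (Subgroup.le_normalizer (H := (P : Subgroup G)))
    have hP' : Nat.card (P : Subgroup G) = 5 := hP
    rwa [hP'] at h
  have hN10 : 10 ∣ Nat.card (Subgroup.normalizer ((P : Subgroup G) : Set G)) :=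
    Nat.Coprime.mul_dvd_of_dvd_of_dvd (by norm_num : Nat.Coprime 2 5) hN2 hN5
  have hidx : (Subgroup.normalizer ((P : Subgroup G) : Set G)).index ∣ 8 := by
    have h1 := Subgroup.index_mul_card (Subgroup.normalizer ((P : Subgroup G) : Set G))
    obtain ⟨k, hk⟩ := hN10
    rw [hk, hG] at h1
    refine ⟨k, ?_⟩
    nlinarith
  have hmod := card_sylow_modEq_one 5 G
  have hcs : Nat.card (Sylow 5 G) = (Subgroup.normalizer ((P : Subgroup G) : Set G)).index :=
    Sylow.card_eq_index_normalizer P
  rw [hcs] at hmod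
  have hmem : (Subgroup.normalizer ((P : Subgroup G) : Set G)).index ∈ Nat.divisors 8 :=
    Nat.mem_divisors.mpr ⟨hidx, by norm_num⟩
  have hdiv : Nat.divisors 8 = {1, 2, 4, 8} := by decide +kernel
  rw [hdiv] at hmem
  simp only [Finset.mem_insert, Finset.mem_singleton] at hmem
  have h1 : (Subgroup.normalizer ((P : Subgroup G) : Set G)).index = 1 := by
    unfold Nat.ModEq at hmod
    omega
  rw [Subgroup.index_eq_one] at h1
  have hPn : (P : Subgroup G).Normal := Subgroup.normalizer_eq_top_iff.mp h1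
  have hPc : IsCyclic (P : Subgroup G) := isCyclic_of_prime_card hP
  have hna : NA ρ (P : Subgroup G) := by
    refine ⟨hinj, ht, hPn, ?_⟩
    intro a ha b hb
    have := hPc.commGroup.mul_comm (⟨a, ha⟩ : (P : Subgroup G)) ⟨b, hb⟩
    exact congrArg Subtype.val this
  refine semi_of_mem hna (s := 5) (by rw [hP]) ?_
  intro i hi1 hi2
  rw [hf] at hi2
  rw [h3]
  interval_cases i <;> norm_num

end Cfsg.Agent.Lib.HupNear
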