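import Cfsg.Agent.Lib.HupNear

/-!
# Solvable groups regular on the nonzero vectors: the exceptional dimension two groups (helper61)
-/

set_option autoImplicit false

open scoped commutatorElement

namespace Cfsg.Agent.Lib.HupNear2

open HupA HupB HupC HupD HupE HupF HupG HupH HupI HupJ HupK HupL HupM HupNear

theorem card_even_stab {α : Type*} [Fintype α] [DecidableEq α] (h4 : Nat.card α = 4) (a : α) (R : Subgroup (Equiv.Perm α))
    (hR1 : R ≤ MulAction.stabilizer (Equiv.Perm α) a) (hR2 : ∀ r ∈ R, Equiv.Perm.sign r = 1) : Nat.card R ∣ 3 := by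
  set St := MulAction.stabilizer (Equiv.Perm α) a with hSt
  let sgn : St →* ℤˣ := Equiv.Perm.sign.comp St.subtype
  have h6 := card_stab h4 a
  -- two further points
  obtain ⟨b, c, hab, hac, hbc⟩ : ∃ b c : α, a ≠ b ∧ a ≠ c ∧ b ≠ c := by
    have h1 : (Finset.univ.erase a : Finset α).card = 3 := by
      rw [Finset.card_erase_of_mem (Finset.mem_univ a), Finset.card_univ, ← Nat.card_eq_fintype_card, h4]
    obtain ⟨b, hb, c, hc, hbc⟩ := Finset.one_lt_card.mp (by rw [h1]; norm_num : 1 < (Finset.univ.erase a : Finset α).card)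
    exact ⟨b, c, (Finset.ne_of_mem_erase hb).symm, (Finset.ne_of_mem_erase hc).symm, hbc⟩
  have hsw : Equiv.swap b c ∈ St := by
    rw [hSt, MulAction.mem_stabilizer_iff]
    exact Equiv.swap_apply_of_ne_of_ne hab hac
  have hneg : sgn ⟨Equiv.swap b c, hsw⟩ = -1 := Equiv.Perm.sign_swap hbc
  have hrange : Nat.card sgn.range = 2 := by
    have h1 : sgn.range = ⊤ := by
      rw [eq_top_iff]
      intro u _
      rcases Int.units_eq_one_or u with rfl | rfl
      · exact one_mem _
      · exact ⟨_, hneg⟩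
    rw [h1, Subgroup.card_top, Nat.card_eq_fintype_card]
    rfl
  have hker : Nat.card sgn.ker = 3 := by
    have h1 := Subgroup.index_mul_card sgn.ker
    rw [Subgroup.index_ker, hrange, h6] at h1
    omega
  have h2 : R ≤ sgn.ker.map St.subtype := by
    intro r hr
    exact ⟨⟨r, hR1 hr⟩, MonoidHom.mem_ker.mpr (hR2 r hr), rfl⟩
  have h3 : Nat.card (sgn.ker.map St.subtype) = 3 := by
    rw [← hker]
    exact (Nat.card_congr (sgn.ker.equivMapOfInjective _ (Subgroup.subtype_injective _)).toEquiv).symm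
  rw [← h3]
  exact Subgroup.card_dvd_of_le h2

variable {q : ℕ} [hq : Fact q.Prime] {V : Type*} [AddCommGroup V] [Module (ZMod q) V] [Finite V]
  {G : Type*} [Group G] {ρ : G →* (V ≃ₗ[ZMod q] V)} {D A : Subgroup G}

theorem index_two_or [Finite G] [Nontrivial V] (h : Two ρ D A) (hr : Reg ρ) (hq3 : q ≠ 3) :
    (∃ H : Subgroup G, H.index = 2) ∨
    ((q = 5 ∨ q = 11) ∧ Nat.card G ∣ 12 * Nat.card (Subgroup.centralizer (D : Set G)) ∧
      ∃ g : G, orderOf g = 3 ∧ g ∉ Subgroup.centralizer (D : Set G)) := by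
  classical
  have hn : D.Normal := h.dd.Dn
  have hq2 : q ≠ 2 := (dd_ne h.dd).symm
  have h4 : Nat.card (D ⧸ Subgroup.center D) = 4 := h.idx
  have : Finite (D ⧸ Subgroup.center D) := inferInstance
  let _ := Fintype.ofFinite (D ⧸ Subgroup.center D)
  let ε : G →* ℤˣ := Equiv.Perm.sign.comp (permQ D)
  by_cases hε : ∃ g, ε g ≠ 1
  · left
    refine ⟨ε.ker, ?_⟩
    rw [Subgroup.index_ker]
    obtain ⟨g, hg⟩ := hε
    have h1 : ε.range = ⊤ := by
      rw [eq_top_iff]
      intro u _
      rcases Int.units_eq_one_or u with rfl | rfl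
      · exact one_mem _
      · exact ⟨g, (Int.units_eq_one_or (ε g)).resolve_left hg⟩
    rw [h1, Subgroup.card_top, Nat.card_eq_fintype_card]
    rfl
  · right
    push Not at hε
    have hcardG := card_G h.dd.na.tr hr
    rw [card_V h] at hcardG
    have hfac : q ^ 2 - 1 = (q + 1) * (q - 1) := by
      have := Nat.sq_sub_sq q 1
      rwa [one_pow] at this
    rw [hfac] at hcardG
    have hq1 : 0 < q - 1 := by have := hq.out.two_le; omega
    have hidx : (permQ D).ker.index ∣ 3 := by
      rw [Subgroup.index_ker]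
      refine card_even_stab h4 1 _ ?_ ?_
      · rintro _ ⟨g, rfl⟩
        exact permQ_one D g
      · rintro _ ⟨g, rfl⟩
        exact hε g
    have hkd := card_ker_dvd h
    have hC := card_C_dvd h
    have hmul := Subgroup.index_mul_card (permQ D).ker
    have hidx3 : (permQ D).ker.index = 3 := by
      rcases (Nat.dvd_prime Nat.prime_three).mp hidx with h5 | h5
      · exfalso
        rw [h5, one_mul] at hmul
        rw [hmul, hcardG] at hkd
        have h6 := hkd.trans (mul_dvd_mul_left 4 hC)
        have h7 := Nat.dvd_of_mul_dvd_mul_right hq1 h6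
        have h8 := Nat.le_of_dvd (by norm_num) h7
        have := hq.out.two_le
        omega
      · exact h5
    have hG12 : Nat.card G ∣ 12 * Nat.card (Subgroup.centralizer (D : Set G)) := by
      rw [← hmul, hidx3]
      exact (mul_dvd_mul_left 3 hkd).trans (dvd_of_eq (by ring))
    have hq12 : q + 1 ∣ 12 := by
      have h6 := hG12.trans (mul_dvd_mul_left 12 hC)
      rw [hcardG] at h6
      exact Nat.dvd_of_mul_dvd_mul_right hq1 h6
    have hq511 : q = 5 ∨ q = 11 := by
      rcases q_mem h with h5 | h5 | h5 | h5 | h5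
      · exact absurd h5 hq3
      · exact Or.inl h5
      · rw [h5] at hq12; norm_num at hq12
      · exact Or.inr h5
      · rw [h5] at hq12; norm_num at hq12
    -- element of order three
    have h3G : 3 ∣ Nat.card G := by
      rw [← hmul, hidx3]; exact Dvd.intro _ rfl
    have : Fact (Nat.Prime 3) := ⟨Nat.prime_three⟩
    obtain ⟨g, hg⟩ := exists_prime_orderOf_dvd_card' 3 h3G
    have hgk : g ∉ (permQ D).ker := by
      intro hgk
      have h5 : 3 ∣ Nat.card (permQ D).ker := by rw [← hg]; exact Subgroup.orderOf_dvd_natCard _ hgk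
      rw [hidx3] at hmul
      obtain ⟨k, hk⟩ := h5
      rw [hk, hcardG] at hmul
      rcases hq511 with h6 | h6
      · rw [h6] at hmul; omega
      · rw [h6] at hmul; omega
    have hgC : g ∉ Subgroup.centralizer (D : Set G) := by
      intro hgc
      apply hgk
      rw [mem_ker_permQ]
      intro d
      have : ⁅g, (d : G)⁆ = 1 := by
        rw [commutatorElement_eq_one_iff_mul_comm]
        exact (Subgroup.mem_centralizer_iff.mp hgc d d.2).symm
      rw [this]
      exact one_mem _
    exact ⟨hq511, hG12, g, hg, hgC⟩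

/-- A subgroup `SL(2,3)`. -/
theorem exists_SL [Finite G] [Nontrivial V] (h : Two ρ D A) (hr : Reg ρ) {g : G} (hg : orderOf g = 3)
    (hgC : g ∉ Subgroup.centralizer (D : Set G)) :
    ∃ M : Subgroup G, Nat.card M = 24 ∧ Nonempty (M ≃* Matrix.SpecialLinearGroup (Fin 2) (ZMod 3)) := by
  have hDn := h.dd.Dn
  have hinv : ∀ u ∈ D, ∀ v ∈ D, orderOf u = 2 → orderOf v = 2 → u = v := by
    intro u _ v _ hu hv
    refine involution_unique h.dd.na.inj hr (by rw [← hu, pow_orderOf_eq_one]) ?_ (by rw [← hv, pow_orderOf_eq_one]) ?_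
    · rintro rfl; simp at hu
    · rintro rfl; simp at hv
  have hgN : g ∈ Subgroup.normalizer (D : Set G) := by
    rw [Subgroup.normalizer_eq_top_iff.mpr hDn]; exact Subgroup.mem_top g
  obtain ⟨x, hx, y, hy, hx4, hsq, hconj, hgx, hgy, hD8⟩ :=
    QuatSylow.quaternion_action h.dd.rD hinv (by rw [hg]; norm_num) hgN hgC
  have hrel : SLTwoThree.Rel x y g :=
    ⟨by rw [← hx4, pow_orderOf_eq_one], hsq, hconj, hgx, hgy, by rw [← hg, pow_orderOf_eq_one]⟩
  set M := Subgroup.closure {x, y, g} with hM
  have hxM : x ∈ M := Subgroup.subset_closure (by simp)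
  have hyM : y ∈ M := Subgroup.subset_closure (by simp)
  have hgM : g ∈ M := Subgroup.subset_closure (by simp)
  have h3 : 3 ∣ Nat.card M := by rw [← hg]; exact Subgroup.orderOf_dvd_natCard _ hgM
  have hxy : ¬ (y * x = x * y) := by
    intro hcomm
    have h1 : y * x * y⁻¹ = x := by rw [hcomm, mul_inv_cancel_right]
    rw [hconj] at h1
    have h2 : x ^ 2 = 1 := by
      rw [pow_two]
      nth_rewrite 1 [← h1]
      exact inv_mul_cancel x
    have h3 : orderOf x ∣ 2 := orderOf_dvd_of_pow_eq_one h2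
    rw [hx4] at h3
    norm_num at h3
  have h8 : 8 ∣ Nat.card M := by
    have hle : D ⊓ M ≤ D := inf_le_left
    have h1 : 4 ∣ Nat.card (D ⊓ M : Subgroup G) := by
      rw [← hx4]; exact Subgroup.orderOf_dvd_natCard _ ⟨hx, hxM⟩
    have h2 : Nat.card (D ⊓ M : Subgroup G) ∣ 8 := by rw [← hD8]; exact Subgroup.card_dvd_of_le hle
    have h3 : Nat.card (D ⊓ M : Subgroup G) ≠ 4 := by
      intro h4
      have h5 : Subgroup.zpowers x ≤ D ⊓ M := by rw [Subgroup.zpowers_le]; exact ⟨hx, hxM⟩
      have h6 : Subgroup.zpowers x = D ⊓ M :=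
        Subgroup.eq_of_le_of_card_ge h5 (by rw [h4, Nat.card_zpowers, hx4])
      have h7 : y ∈ Subgroup.zpowers x := by rw [h6]; exact ⟨hy, hyM⟩
      obtain ⟨k, rfl⟩ := h7
      exact hxy ((Commute.refl x).zpow_left k).eq
    obtain ⟨k, hk⟩ := h1
    have h4 : Nat.card (D ⊓ M : Subgroup G) = 8 := by
      rw [hk] at h2 h3 ⊢
      have : k ∣ 2 := Nat.dvd_of_mul_dvd_mul_left (by norm_num : 0 < 4) (by simpa using h2)
      rcases (Nat.dvd_prime Nat.prime_two).mp this with h5 | h5
      · rw [h5] at h3; norm_num at h3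
      · rw [h5]
    rw [← h4]
    exact Subgroup.card_dvd_of_le inf_le_right
  have h24 : 24 ∣ Nat.card M := Nat.Coprime.mul_dvd_of_dvd_of_dvd (by norm_num : Nat.Coprime 8 3) h8 h3
  have hle : Nat.card M ≤ 24 := SLTwoThree.card_closure_le hrel
  have hMc : Nat.card M = 24 := le_antisymm hle (Nat.le_of_dvd Nat.card_pos h24)
  refine ⟨M, hMc, ?_⟩
  have hrel' : SLTwoThree.Rel (⟨x, hxM⟩ : M) ⟨y, hyM⟩ ⟨g, hgM⟩ :=
    ⟨Subtype.ext hrel.x4, Subtype.ext hrel.sq, Subtype.ext hrel.conj, Subtype.ext hrel.gx, Subtype.ext hrel.gy,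
      Subtype.ext hrel.g3⟩
  refine SLTwoThree.equiv_SL hrel' hMc ?_
  have h1 := Subgroup.closure_closure_coe_preimage (k := ({x, y, g} : Set G))
  rw [← h1]
  congr 1
  ext t
  simp only [Set.mem_insert_iff, Set.mem_singleton_iff, Set.mem_preimage, Subtype.ext_iff]

theorem two_regular [Finite G] [Nontrivial V] (h : Two ρ D A) (hr : Reg ρ) (hq3 : q ≠ 3) :
    (∃ H : Subgroup G, H.index = 2) ∨
    (q = 5 ∧ Nonempty (G ≃* Matrix.SpecialLinearGroup (Fin 2) (ZMod 3))) ∨
    (q = 11 ∧ Nonempty (G ≃* Matrix.SpecialLinearGroup (Fin 2) (ZMod 3) × Multiplicative (ZMod 5))) := by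
  rcases index_two_or h hr hq3 with h1 | ⟨hq511, hG12, g, hg, hgC⟩
  · exact Or.inl h1
  obtain ⟨M, hM, ⟨e⟩⟩ := exists_SL h hr hg hgC
  have hcardG := card_G h.dd.na.tr hr
  rw [card_V h] at hcardG
  rcases hq511 with h5 | h11
  · right; left
    rw [h5] at hcardG
    norm_num at hcardG
    have hMt : M = ⊤ := Subgroup.eq_top_of_card_eq M (by rw [hM, hcardG])
    exact ⟨h5, ⟨(Subgroup.topEquiv.symm.trans (MulEquiv.subgroupCongr hMt.symm)).trans e⟩⟩
  · right; right
    refine ⟨h11, ?_⟩
    rw [h11] at hcardG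
    norm_num at hcardG
    have h5C : 5 ∣ Nat.card (Subgroup.centralizer (D : Set G)) := by
      rw [hcardG] at hG12
      have : 12 * 10 ∣ 12 * Nat.card (Subgroup.centralizer (D : Set G)) := hG12
      exact (by norm_num : 5 ∣ 10).trans (Nat.dvd_of_mul_dvd_mul_left (by norm_num) this)
    have : Fact (Nat.Prime 5) := ⟨by norm_num⟩
    obtain ⟨⟨c, hcC⟩, hc⟩ := exists_prime_orderOf_dvd_card' 5 h5C
    rw [Subgroup.orderOf_mk] at hc
    have hccen := central_of_scalar h.naC h.hC c hcC
    have hcomm : ∀ (m : M) (t : Subgroup.zpowers c), Commute (M.subtype m) ((Subgroup.zpowers c).subtype t) := by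
      rintro m ⟨_, k, rfl⟩
      show Commute (m : G) (c ^ k)
      have : Commute c (m : G) := hccen m
      exact (this.zpow_left k).symm
    let θ : M × Subgroup.zpowers c →* G := M.subtype.noncommCoprod (Subgroup.zpowers c).subtype hcomm
    have hθ : ∀ (m : M) (t : Subgroup.zpowers c), θ (m, t) = (m : G) * t := fun m t => rfl
    have hinj : Function.Injective θ := by
      rw [injective_iff_map_eq_one]
      rintro ⟨m, t⟩ hmt
      rw [hθ] at hmt
      have h1 : (m : G) = (t : G)⁻¹ := eq_inv_of_mul_eq_one_left hmt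
      have h2 : orderOf (m : G) ∣ 24 := by rw [← hM, Subgroup.orderOf_coe]; exact orderOf_dvd_natCard m
      have h3 : orderOf (m : G) ∣ 5 := by
        rw [h1, orderOf_inv, Subgroup.orderOf_coe]
        have := orderOf_dvd_natCard t
        rwa [Nat.card_zpowers, hc] at this
      have h4 : orderOf (m : G) = 1 := Nat.eq_one_of_dvd_coprimes (by norm_num : Nat.Coprime 24 5) h2 h3
      rw [orderOf_eq_one_iff] at h4
      rw [h4] at h1
      apply Prod.ext
      · exact Subtype.ext h4
      · exact Subtype.ext (inv_eq_one.mp h1.symm)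
    have hbij : Function.Bijective θ := by
      have hf : Finite (M × Subgroup.zpowers c) := inferInstance
      refine ⟨hinj, ?_⟩
      have h1 : Nat.card (M × Subgroup.zpowers c) = Nat.card G := by
        rw [Nat.card_prod, hM, Nat.card_zpowers, hc, hcardG]
      exact ((Nat.bijective_iff_injective_and_card θ).mpr ⟨hinj, h1⟩).2
    let E := MulEquiv.ofBijective θ hbij
    have hcyc : IsCyclic (Subgroup.zpowers c) := inferInstance
    have e5 : Subgroup.zpowers c ≃* Multiplicative (ZMod 5) := by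
      refine mulEquivOfCyclicCardEq ?_
      rw [Nat.card_zpowers, hc]
      simp
    exact ⟨E.symm.trans (MulEquiv.prodCongr e e5)⟩

theorem main [Finite G] [Nontrivial V] [hsol : Group.IsSolvable G] (hinj : Function.Injective ρ) (ht : Tr ρ) (hr : Reg ρ) :
    (Semi ρ ∨ Nat.card V ∈ ({25, 49, 121, 529} : Set ℕ)) ∧
    (q ≠ 2 → (∃ N : Subgroup G, N.Normal ∧ N.index = 2) ∨
      (Nat.card V = 25 ∧ Nonempty (G ≃* Matrix.SpecialLinearGroup (Fin 2) (ZMod 3))) ∨
      (Nat.card V = 121 ∧ Nonempty (G ≃* Matrix.SpecialLinearGroup (Fin 2) (ZMod 3) × Multiplicative (ZMod 5)))) := by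
  have h1 : Semi ρ ∨ Nat.card V ∈ ({25, 49, 121, 529} : Set ℕ) := by
    rcases huppert hsol hinj ht with h | h
    · exact Or.inl h
    · simp only [Set.mem_insert_iff, Set.mem_singleton_iff] at h ⊢
      rcases h with h | h | h | h | h | h
      · exact Or.inl (nine hinj ht hr h)
      · exact Or.inr (Or.inl h)
      · exact Or.inr (Or.inr (Or.inl h))
      · exact Or.inr (Or.inr (Or.inr (Or.inl h)))
      · exact Or.inr (Or.inr (Or.inr (Or.inr h)))
      · exact Or.inl (eighty_one hinj ht hr h)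
  refine ⟨h1, ?_⟩
  intro hq2
  by_cases hs : Semi ρ
  · left
    have heven : Even (Nat.card G) := by
      have h2 := card_dvd ht
      have h3 : Even (Nat.card V - 1) := by
        rw [card_V_eq (q := q) (V := V)]
        have h4 : Odd (q ^ Module.finrank (ZMod q) V) := (hq.out.odd_of_ne_two hq2).pow
        obtain ⟨k, hk⟩ := h4
        exact ⟨k, by omega⟩
      rw [even_iff_two_dvd] at h3 ⊢
      exact h3.trans h2
    obtain ⟨H, hH⟩ := semi_index_two hinj hs heven
    exact ⟨H, Subgroup.normal_of_index_eq_two hH, hH⟩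
  · have h2 := h1.resolve_left hs
    have hf2 : Module.finrank (ZMod q) V = 2 := by
      have h3 := card_V_eq (q := q) (V := V)
      simp only [Set.mem_insert_iff, Set.mem_singleton_iff] at h2
      set f := Module.finrank (ZMod q) V with hf
      have key : ∀ p : ℕ, p.Prime → Nat.card V = p ^ 2 → f = 2 := by
        intro p hp hcard
        rw [hcard] at h3
        have hf0 : f ≠ 0 := by
          rintro h4
          rw [h4, pow_zero] at h3
          have := hp.two_le
          nlinarith
        have h4 : q ∣ p ^ 2 := by rw [h3]; exact dvd_pow_self q hf0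
        have h5 : q = p := (Nat.prime_dvd_prime_iff_eq hq.out hp).mp (hq.out.dvd_of_dvd_pow h4)
        rw [h5] at h3
        exact (Nat.pow_right_injective hp.two_le h3).symm
      rcases h2 with h | h | h | h
      · exact key 5 (by norm_num) (by rw [h]; norm_num)
      · exact key 7 (by norm_num) (by rw [h]; norm_num)
      · exact key 11 (by norm_num) (by rw [h]; norm_num)
      · exact key 23 (by norm_num) (by rw [h]; norm_num)
    rcases two_case hinj ht hf2 with h | ⟨D, A, h⟩
    · exact absurd h hs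
    have hcV := card_V h
    have hq3 : q ≠ 3 := by
      intro h3
      rw [hcV, h3] at h2
      simp at h2
    rcases two_regular h hr hq3 with ⟨H, hH⟩ | ⟨h5, h6⟩ | ⟨h5, h6⟩
    · exact Or.inl ⟨H, Subgroup.normal_of_index_eq_two hH, hH⟩
    · right; left
      exact ⟨by rw [hcV, h5]; norm_num, h6⟩
    · right; right
      exact ⟨by rw [hcV, h5]; norm_num, h6⟩

end Cfsg.Agent.Lib.HupNear2
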