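import Mathlib

/-!
Invariant kernels (matrices) of a permutation group, invariant equivalence relations of a primitive
group, and Schur's `p`-power argument for an abelian regular subgroup.
-/

namespace Cfsg.Agent.Lib.InvKernel

open scoped Pointwise

section Block

variable {G Ω : Type*} [Group G] [MulAction G Ω]

/-- An invariant equivalence relation of a primitive group is trivial or universal. -/
theorem eq_or_all [MulAction.IsPreprimitive G Ω] (R : Ω → Ω → Prop) (hR : Equivalence R)
    (hinv : ∀ (g : G) (x y : Ω), R x y → R (g • x) (g • y)) :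
    (∀ x y, R x y → x = y) ∨ (∀ x y, R x y) := by
  rcases isEmpty_or_nonempty Ω with hE | ⟨⟨a⟩⟩
  · exact Or.inl fun x => hE.elim x
  have hB : MulAction.IsBlock G {b | R a b} := by
    rw [MulAction.isBlock_iff_smul_eq_of_nonempty]
    rintro g ⟨c, ⟨b, hb, rfl⟩, hc⟩
    have h1 : R a (g • a) := hR.trans hc (hR.symm (hinv g a b hb))
    ext d
    constructor
    · rintro ⟨e, he, rfl⟩
      exact hR.trans h1 (hinv g a e he)
    · intro hd
      have h2 : R (g • a) d := hR.trans (hR.symm h1) hd
      refine ⟨g⁻¹ • d, ?_, smul_inv_smul g d⟩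
      have h3 := hinv g⁻¹ _ _ h2
      rw [inv_smul_smul] at h3
      exact h3
  rcases MulAction.IsPreprimitive.isTrivialBlock_of_isBlock hB with h | h
  · left
    intro x y hxy
    obtain ⟨g, rfl⟩ := MulAction.exists_smul_eq G a x
    have h1 := hinv g⁻¹ _ _ hxy
    rw [inv_smul_smul] at h1
    have h2 : a = g⁻¹ • y := h (hR.refl a) h1
    rw [h2, smul_inv_smul]
  · right
    intro x y
    have hx : x ∈ {b | R a b} := by rw [h]; trivial
    have hy : y ∈ {b | R a b} := by rw [h]; trivial
    exact hR.trans (hR.symm hx) hy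

/-- An invariant relation contained in a non-universal equivalence relation is contained in the diagonal. -/
theorem eq_of_le [MulAction.IsPreprimitive G Ω] (R S : Ω → Ω → Prop)
    (hinv : ∀ (g : G) (x y : Ω), R x y → R (g • x) (g • y)) (hS : Equivalence S)
    (hRS : ∀ x y, R x y → S x y) (hnot : ¬ ∀ x y, S x y) : ∀ x y, R x y → x = y := by
  have hE : Equivalence (Relation.EqvGen R) := Relation.EqvGen.is_equivalence R
  rcases eq_or_all (G := G) (Relation.EqvGen R) hE (by
    intro g x y h
    induction h with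
    | rel x y h => exact Relation.EqvGen.rel _ _ (hinv g x y h)
    | refl x => exact Relation.EqvGen.refl _
    | symm x y _ ih => exact Relation.EqvGen.symm _ _ ih
    | trans x y z _ _ h1 h2 => exact Relation.EqvGen.trans _ _ _ h1 h2) with h | h
  · intro x y hxy
    exact h x y (Relation.EqvGen.rel _ _ hxy)
  · exfalso
    apply hnot
    intro x y
    have := h x y
    clear h
    induction this with
    | rel x y h => exact hRS x y h
    | refl x => exact hS.refl x
    | symm x y _ ih => exact hS.symm ih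
    | trans x y z _ _ h1 h2 => exact hS.trans h1 h2

/-- If the neighbourhoods of two distinct points under an invariant relation coincide, the relation is
empty or everything. -/
theorem nbhd [MulAction.IsPreprimitive G Ω] (R : Ω → Ω → Prop)
    (hinv : ∀ (g : G) (x y : Ω), R x y → R (g • x) (g • y)) (a b : Ω) (hab : a ≠ b)
    (h : ∀ z, R a z ↔ R b z) : ∀ x y z, R x z ↔ R y z := by
  have hinv' : ∀ (g : G) (x y : Ω), R (g • x) (g • y) ↔ R x y := by
    intro g x y
    refine ⟨fun h => ?_, hinv g x y⟩
    have := hinv g⁻¹ _ _ h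
    rwa [inv_smul_smul, inv_smul_smul] at this
  rcases eq_or_all (G := G) (fun x y => ∀ z, R x z ↔ R y z)
    ⟨fun x z => Iff.rfl, fun h z => (h z).symm, fun h1 h2 z => (h1 z).trans (h2 z)⟩ (by
      intro g x y hxy z
      rw [← smul_inv_smul g z, hinv', hinv']
      exact hxy _) with h1 | h1
  · exact absurd (h1 a b h) hab
  · exact h1

end Block

section Matrix

variable {G Ω K : Type*} [Group G] [MulAction G Ω] [Fintype Ω] [DecidableEq Ω]

/-- `G`-invariant matrices. -/
def IsInv (G : Type*) [Group G] [MulAction G Ω] {K : Type*} (A : Matrix Ω Ω K) : Prop :=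
  ∀ (g : G) (x y : Ω), A (g • x) (g • y) = A x y

omit [DecidableEq Ω] in
theorem IsInv.mul [CommSemiring K] {A B : Matrix Ω Ω K} (hA : IsInv G A) (hB : IsInv G B) : IsInv G (A * B) := by
  intro g x y
  rw [Matrix.mul_apply, Matrix.mul_apply, ← Equiv.sum_comp (MulAction.toPerm g)]
  refine Finset.sum_congr rfl fun z _ => ?_
  rw [MulAction.toPerm_apply, hA, hB]

omit [Fintype Ω] in
theorem IsInv.one [CommSemiring K] : IsInv G (1 : Matrix Ω Ω K) := by
  intro g x y
  rw [Matrix.one_apply, Matrix.one_apply]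
  simp only [smul_left_cancel_iff]

theorem IsInv.pow [CommSemiring K] {A : Matrix Ω Ω K} (hA : IsInv G A) (n : ℕ) : IsInv G (A ^ n) := by
  induction n with
  | zero => rw [pow_zero]; exact IsInv.one
  | succ n ih => rw [pow_succ]; exact ih.mul hA

/-- the matrix of a group element -/
def mat (K : Type*) [CommSemiring K] {C : Type*} [Group C] [MulAction C Ω] (c : C) : Matrix Ω Ω K :=
  Matrix.of fun x y => if c • x = y then 1 else 0

omit [Fintype Ω] in
theorem mat_apply [CommSemiring K] {C : Type*} [Group C] [MulAction C Ω] (c : C) (x y : Ω) :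
    mat K c x y = if c • x = y then 1 else 0 := rfl

theorem mat_mul [CommSemiring K] {C : Type*} [Group C] [MulAction C Ω] (c d : C) :
    (mat K c * mat K d : Matrix Ω Ω K) = mat K (d * c) := by
  ext x y
  rw [Matrix.mul_apply, Finset.sum_eq_single (c • x)]
  · rw [mat_apply, mat_apply, mat_apply, if_pos rfl, one_mul, mul_smul]
  · intro z _ hz
    rw [mat_apply, if_neg (fun h => hz h.symm), zero_mul]
  · intro h; exact absurd (Finset.mem_univ _) h

omit [Fintype Ω] in
theorem mat_one [CommSemiring K] {C : Type*} [Group C] [MulAction C Ω] : (mat K (1 : C) : Matrix Ω Ω K) = 1 := by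
  ext x y
  rw [mat_apply, one_smul, Matrix.one_apply]

theorem mat_pow [CommSemiring K] {C : Type*} [Group C] [MulAction C Ω] (c : C) (n : ℕ) :
    (mat K c : Matrix Ω Ω K) ^ n = mat K (c ^ n) := by
  induction n with
  | zero => rw [pow_zero, pow_zero, mat_one]
  | succ n ih => rw [pow_succ, ih, mat_mul, pow_succ']

/-- Frobenius for commuting families. -/
theorem sum_pow_char {R ι : Type*} [Ring R] (p : ℕ) [Fact p.Prime] [CharP R p] (s : Finset ι) (f : ι → R)
    (hf : ∀ i j, Commute (f i) (f j)) : (∑ i ∈ s, f i) ^ p = ∑ i ∈ s, f i ^ p := by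
  classical
  induction s using Finset.induction_on with
  | empty =>
    rw [Finset.sum_empty, Finset.sum_empty, zero_pow (Fact.out : p.Prime).ne_zero]
  | insert i s hi ih =>
    rw [Finset.sum_insert hi, Finset.sum_insert hi, add_pow_char_of_commute, ih]
    exact Commute.sum_right _ _ _ fun j _ => hf i j

end Matrix

/-- Schur's argument.  `C` commutative, regular, `R` an invariant relation, `p` a prime such that
the `p`-power map of `C` is not surjective and has fibres of size at most `p`. -/
theorem schur_p {G Ω : Type*} [Group G] [MulAction G Ω] [Fintype Ω] [MulAction.IsPreprimitive G Ω]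
    (C : Subgroup G) [Finite C] (hcomm : ∀ a b : C, a * b = b * a) (hC : MulAction.IsPretransitive C Ω)
    (hreg : ∀ a : Ω, MulAction.stabilizer C a = ⊥) (p : ℕ) [Fact p.Prime]
    (hns : ∃ d : C, ∀ c : C, c ^ p ≠ d) (hfib : ∀ d : C, Nat.card {c : C // c ^ p = d} ≤ p)
    (R : Ω → Ω → Prop) (hinv : ∀ (g : G) (x y : Ω), R x y → R (g • x) (g • y)) (x : Ω) (c : C)
    (hc : R x (c • x)) (hcp : c ^ p ≠ 1) (e : C) (he : e ^ p = 1) : R x ((e * c) • x) := by
  classical
  have := Fintype.ofFinite C
  have hinv' : ∀ (g : G) (x y : Ω), R (g • x) (g • y) ↔ R x y := by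
    intro g x y
    refine ⟨fun h => ?_, hinv g x y⟩
    have := hinv g⁻¹ _ _ h
    rwa [inv_smul_smul, inv_smul_smul] at this
  have hfree : ∀ (c d : C) (y : Ω), c • y = d • y → c = d := by
    intro c d y h
    have h1 : d⁻¹ * c ∈ MulAction.stabilizer C y := by
      rw [MulAction.mem_stabilizer_iff, mul_smul, h, inv_smul_smul]
    rw [hreg, Subgroup.mem_bot] at h1
    exact (inv_mul_eq_one.mp h1).symm
  -- base point change
  have hbase : ∀ (y z : Ω) (d : C), R y (d • y) ↔ R z (d • z) := by
    intro y z d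
    obtain ⟨t, rfl⟩ := MulAction.exists_smul_eq C y z
    have h1 : d • t • y = t • d • y := by rw [← mul_smul, ← mul_smul, hcomm]
    rw [h1]
    exact (hinv' t y (d • y)).symm
  let T : Finset C := Finset.univ.filter fun d => R x (d • x)
  have hne : Nonempty Ω := ⟨x⟩
  let A : Matrix Ω Ω (ZMod p) := ∑ d ∈ T, mat (ZMod p) d
  have hA : ∀ y z, A y z = if R y z then 1 else 0 := by
    intro y z
    obtain ⟨t, rfl⟩ := MulAction.exists_smul_eq C y z
    have h1 : A y (t • y) = ∑ d ∈ T, if d • y = t • y then (1 : ZMod p) else 0 := by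
      rw [show A = ∑ d ∈ T, mat (ZMod p) d from rfl, Matrix.sum_apply]
      rfl
    rw [h1]
    have h2 : ∀ d : C, (d • y = t • y) ↔ d = t := fun d => ⟨fun h => hfree d t y h, fun h => by rw [h]⟩
    simp only [h2]
    rw [Finset.sum_ite_eq' T t]
    have h3 : t ∈ T ↔ R y (t • y) := by
      rw [Finset.mem_filter]
      simp only [Finset.mem_univ, true_and]
      exact hbase x y t
    simp only [h3]
  have hAinv : IsInv G A := by
    intro g y z
    rw [hA, hA]
    simp only [hinv']
  have hAp : A ^ p = ∑ d ∈ T, mat (ZMod p) (d ^ p) := by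
    rw [show A = ∑ d ∈ T, mat (ZMod p) d from rfl, sum_pow_char p T _ (by
      intro i j
      show _ * _ = _ * _
      rw [mat_mul, mat_mul, hcomm])]
    exact Finset.sum_congr rfl fun d _ => mat_pow d p
  have hApx : ∀ y (t : C), (A ^ p) y (t • y) = ((T.filter fun d => d ^ p = t).card : ZMod p) := by
    intro y t
    rw [hAp, Matrix.sum_apply]
    have h2 : ∀ d : C, (d • y = t • y) ↔ d = t := fun d => ⟨fun h => hfree d t y h, fun h => by rw [h]⟩
    simp only [mat_apply, h2]
    rw [Finset.sum_boole]
  have hQ : ∀ y z, (A ^ p) y z ≠ 0 → y = z := by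
    have h1 := hAinv.pow p
    refine eq_of_le (G := G) (fun y z => (A ^ p) y z ≠ 0) (fun y z => ∃ d : C, z = d ^ p • y) ?_ ?_ ?_ ?_
    · intro g y z h
      show (A ^ p) (g • y) (g • z) ≠ 0
      rw [h1]; exact h
    · refine ⟨fun y => ⟨1, by rw [one_pow, one_smul]⟩, ?_, ?_⟩
      · rintro y z ⟨d, rfl⟩
        exact ⟨d⁻¹, by rw [inv_pow, inv_smul_smul]⟩
      · rintro y z w ⟨d, rfl⟩ ⟨f, rfl⟩
        refine ⟨f * d, ?_⟩
        rw [(show Commute f d from hcomm f d).mul_pow, mul_smul]
    · intro y z h
      obtain ⟨t, rfl⟩ := MulAction.exists_smul_eq C y z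
      rw [hApx] at h
      have h2 : (T.filter fun d => d ^ p = t).card ≠ 0 := by
        intro h0
        rw [h0] at h
        exact h (by simp)
      obtain ⟨d, hd⟩ := Finset.card_ne_zero.mp h2
      exact ⟨d, by rw [(Finset.mem_filter.mp hd).2]⟩
    · intro hall
      obtain ⟨d, hd⟩ := hns
      obtain ⟨f, hf⟩ := hall x (d • x)
      exact hd f (hfree _ _ x hf.symm)
  -- apply at `c ^ p`
  have h0 : (A ^ p) x (c ^ p • x) = 0 := by
    by_contra hcon
    have := hQ _ _ hcon
    exact hcp (hfree _ _ x (by rw [one_smul]; exact this.symm))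
  rw [hApx, ZMod.natCast_eq_zero_iff] at h0
  have hcT : c ∈ T.filter fun d => d ^ p = c ^ p := by
    rw [Finset.mem_filter, Finset.mem_filter]
    exact ⟨⟨Finset.mem_univ _, hc⟩, rfl⟩
  have hpos : 0 < (T.filter fun d => d ^ p = c ^ p).card := Finset.card_pos.mpr ⟨c, hcT⟩
  have hge := Nat.le_of_dvd hpos h0
  have hle : (Finset.univ.filter fun d : C => d ^ p = c ^ p).card ≤ p := by
    have := hfib (c ^ p)
    rw [Nat.card_eq_fintype_card, Fintype.card_subtype] at this
    exact this
  have heq : (T.filter fun d => d ^ p = c ^ p) = (Finset.univ.filter fun d : C => d ^ p = c ^ p) := by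
    apply Finset.eq_of_subset_of_card_le
    · exact Finset.filter_subset_filter _ (Finset.subset_univ _)
    · omega
  have hec : e * c ∈ (Finset.univ.filter fun d : C => d ^ p = c ^ p) := by
    rw [Finset.mem_filter]
    refine ⟨Finset.mem_univ _, ?_⟩
    rw [(show Commute e c from hcomm e c).mul_pow, he, one_mul]
  rw [← heq, Finset.mem_filter, Finset.mem_filter] at hec
  exact hec.1.2

theorem isCyclic_fib {C : Type*} [Group C] [Finite C] [hC : IsCyclic C] (p : ℕ) (hp : 0 < p) (d : C) :
    Nat.card {c : C // c ^ p = d} ≤ p := by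
  classical
  have := Fintype.ofFinite C
  have hcomm : ∀ a b : C, a * b = b * a := fun a b => (IsCyclic.commGroup (α := C)).mul_comm a b
  by_cases h : ∃ c0 : C, c0 ^ p = d
  · obtain ⟨c0, rfl⟩ := h
    have h1 := IsCyclic.card_pow_eq_one_le (α := C) hp
    rw [← Fintype.card_subtype, ← Nat.card_eq_fintype_card] at h1
    refine le_trans ?_ h1
    refine Nat.card_le_card_of_injective (fun c : {c : C // c ^ p = c0 ^ p} => (⟨c.1 * c0⁻¹, ?_⟩ : {c : C // c ^ p = 1})) ?_
    · rw [(show Commute c.1 c0⁻¹ from hcomm _ _).mul_pow, c.2, inv_pow, mul_inv_cancel]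
    · rintro ⟨a, ha⟩ ⟨b, hb⟩ hab
      have h2 := congrArg Subtype.val hab
      exact Subtype.ext (mul_right_cancel h2)
  · have : IsEmpty {c : C // c ^ p = d} := ⟨fun c => h ⟨c.1, c.2⟩⟩
    rw [Nat.card_of_isEmpty]
    exact Nat.zero_le _

theorem exists_not_pow {C : Type*} [Group C] [Finite C] (p : ℕ) [Fact p.Prime] (hp : p ∣ Nat.card C) :
    ∃ d : C, ∀ c : C, c ^ p ≠ d := by
  by_contra hcon
  push Not at hcon
  have hs : Function.Surjective (fun c : C => c ^ p) := hcon
  have hi := Finite.injective_iff_surjective.mpr hs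
  obtain ⟨e, he⟩ := exists_prime_orderOf_dvd_card' p hp
  have h1 : e = 1 := hi (by
    show e ^ p = 1 ^ p
    rw [one_pow, ← he, pow_orderOf_eq_one])
  rw [h1, orderOf_one] at he
  exact (Fact.out : p.Prime).one_lt.ne he

end Cfsg.Agent.Lib.InvKernel
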