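import Mathlib
import Cfsg.Prelude.Def_ClassicalGeometry
import Cfsg.Agent.Lib.InvolSymp

/-!
Translation between `Matrix.symplecticGroup`, `Cfsg.sympForm` and the linear statements of `Lib.InvolSymp`.
-/
set_option autoImplicit false

namespace Cfsg.Agent.Lib.InvolSympMat

open Module Matrix

variable {F : Type*} [Field F] {m : ℕ}

/-- The symplectic form as a bilinear map. -/
noncomputable def sympB (m : ℕ) (F : Type*) [Field F] : (Fin m ⊕ Fin m → F) →ₗ[F] (Fin m ⊕ Fin m → F) →ₗ[F] F :=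
  LinearMap.mk₂ F (fun u v => Cfsg.sympForm m F u v)
    (fun u u' v => by simp [Cfsg.sympForm, add_dotProduct])
    (fun c u v => by simp [Cfsg.sympForm, smul_dotProduct])
    (fun u v v' => by simp [Cfsg.sympForm, Matrix.mulVec_add, dotProduct_add])
    (fun c u v => by simp [Cfsg.sympForm, Matrix.mulVec_smul, dotProduct_smul])

theorem sympB_apply (u v : Fin m ⊕ Fin m → F) : sympB m F u v = Cfsg.sympForm m F u v := rfl

theorem sympForm_eq (u v : Fin m ⊕ Fin m → F) :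
    Cfsg.sympForm m F u v = (∑ i, u (.inr i) * v (.inl i)) - ∑ i, u (.inl i) * v (.inr i) := by
  unfold Cfsg.sympForm
  rw [Matrix.J, dotProduct, Fintype.sum_sum_type]
  have h1 : ∀ i : Fin m, (fromBlocks (0 : Matrix (Fin m) (Fin m) F) (-1) (1 : Matrix (Fin m) (Fin m) F) 0 *ᵥ v) (Sum.inl i) = - v (Sum.inr i) := by
    intro i
    rw [Matrix.mulVec, dotProduct, Fintype.sum_sum_type]
    simp [Matrix.one_apply]
  have h2 : ∀ i : Fin m, (fromBlocks (0 : Matrix (Fin m) (Fin m) F) (-1) (1 : Matrix (Fin m) (Fin m) F) 0 *ᵥ v) (Sum.inr i) = v (Sum.inl i) := by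
    intro i
    rw [Matrix.mulVec, dotProduct, Fintype.sum_sum_type]
    simp [Matrix.one_apply]
  simp only [h1, h2, mul_neg, Finset.sum_neg_distrib]
  ring

theorem sympForm_self (v : Fin m ⊕ Fin m → F) : Cfsg.sympForm m F v v = 0 := by
  rw [sympForm_eq, ← Finset.sum_sub_distrib]
  apply Finset.sum_eq_zero
  intro i _
  ring

theorem sympForm_nondeg (v : Fin m ⊕ Fin m → F) (h : ∀ w, Cfsg.sympForm m F v w = 0) : v = 0 := by
  classical
  ext i
  rcases i with i | i
  · have := h (Pi.single (Sum.inr i) 1)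
    rw [sympForm_eq] at this
    simpa [Pi.single_apply] using this
  · have := h (Pi.single (Sum.inl i) 1)
    rw [sympForm_eq] at this
    simpa [Pi.single_apply] using this

theorem form_mulVec' (G : Matrix (Fin m ⊕ Fin m) (Fin m ⊕ Fin m) F) (u v : Fin m ⊕ Fin m → F) :
    Cfsg.sympForm m F (G *ᵥ u) (G *ᵥ v) = u ⬝ᵥ ((Gᵀ * Matrix.J (Fin m) F * G) *ᵥ v) := by
  unfold Cfsg.sympForm
  rw [dotProduct_comm, ← Matrix.dotProduct_transpose_mulVec, dotProduct_comm, Matrix.mulVec_mulVec, Matrix.mulVec_mulVec,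
    dotProduct_comm]

theorem form_mulVec (a : Matrix.symplecticGroup (Fin m) F) (u v : Fin m ⊕ Fin m → F) :
    Cfsg.sympForm m F ((a : Matrix (Fin m ⊕ Fin m) (Fin m ⊕ Fin m) F) *ᵥ u) ((a : Matrix (Fin m ⊕ Fin m) (Fin m ⊕ Fin m) F) *ᵥ v) =
      Cfsg.sympForm m F u v := by
  rw [form_mulVec', SymplecticGroup.mem_iff'.mp a.2]
  rfl

theorem mem_of_preserves (G : Matrix (Fin m ⊕ Fin m) (Fin m ⊕ Fin m) F)
    (h : ∀ u v, Cfsg.sympForm m F (G *ᵥ u) (G *ᵥ v) = Cfsg.sympForm m F u v) : G ∈ Matrix.symplecticGroup (Fin m) F := by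
  rw [SymplecticGroup.mem_iff', Matrix.ext_iff_mulVec]
  intro v
  apply dotProduct_eq
  intro u
  have := h u v
  rw [form_mulVec'] at this
  rw [dotProduct_comm, this, dotProduct_comm]
  rfl

/-- `a - 1` as a linear map. -/
noncomputable def nil (a : Matrix (Fin m ⊕ Fin m) (Fin m ⊕ Fin m) F) : (Fin m ⊕ Fin m → F) →ₗ[F] (Fin m ⊕ Fin m → F) :=
  Matrix.toLin' (a - 1)

theorem nil_apply (a : Matrix (Fin m ⊕ Fin m) (Fin m ⊕ Fin m) F) (v : Fin m ⊕ Fin m → F) :
    nil a v = a *ᵥ v - v := by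
  rw [nil, Matrix.toLin'_apply, Matrix.sub_mulVec, Matrix.one_mulVec]

theorem sq_one (a : Matrix.symplecticGroup (Fin m) F) (ha : orderOf a = 2) :
    (a : Matrix (Fin m ⊕ Fin m) (Fin m ⊕ Fin m) F) * (a : Matrix (Fin m ⊕ Fin m) (Fin m ⊕ Fin m) F) = 1 := by
  have h : a * a = 1 := by
    rw [← pow_two, ← ha]; exact pow_orderOf_eq_one a
  exact congrArg Subtype.val h

theorem mulVec_mulVec_self (a : Matrix.symplecticGroup (Fin m) F) (ha : orderOf a = 2) (v : Fin m ⊕ Fin m → F) :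
    (a : Matrix (Fin m ⊕ Fin m) (Fin m ⊕ Fin m) F) *ᵥ ((a : Matrix (Fin m ⊕ Fin m) (Fin m ⊕ Fin m) F) *ᵥ v) = v := by
  rw [Matrix.mulVec_mulVec, sq_one a ha, Matrix.one_mulVec]

theorem nil_nil [CharP F 2] (a : Matrix.symplecticGroup (Fin m) F) (ha : orderOf a = 2) (v : Fin m ⊕ Fin m → F) :
    nil (a : Matrix (Fin m ⊕ Fin m) (Fin m ⊕ Fin m) F) (nil (a : Matrix (Fin m ⊕ Fin m) (Fin m ⊕ Fin m) F) v) = 0 := by
  rw [nil_apply, nil_apply, Matrix.mulVec_sub, mulVec_mulVec_self a ha]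
  ext i
  simp only [Pi.sub_apply, Pi.zero_apply]
  rw [CharTwo.sub_eq_add, CharTwo.sub_eq_add, CharTwo.sub_eq_add, add_comm (v i), CharTwo.add_self_eq_zero]

theorem nil_adj [CharP F 2] (a : Matrix.symplecticGroup (Fin m) F) (ha : orderOf a = 2) (u v : Fin m ⊕ Fin m → F) :
    sympB m F (nil (a : Matrix (Fin m ⊕ Fin m) (Fin m ⊕ Fin m) F) u) v =
      sympB m F u (nil (a : Matrix (Fin m ⊕ Fin m) (Fin m ⊕ Fin m) F) v) := by
  rw [nil_apply, nil_apply, map_sub, map_sub, LinearMap.sub_apply]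
  congr 1
  rw [sympB_apply, sympB_apply, ← form_mulVec a, mulVec_mulVec_self a ha]

theorem form_nil (a : Matrix (Fin m ⊕ Fin m) (Fin m ⊕ Fin m) F) (v : Fin m ⊕ Fin m → F) :
    sympB m F v (nil a v) = Cfsg.sympForm m F v (a *ᵥ v) := by
  rw [nil_apply, map_sub, sympB_apply, sympB_apply, sympForm_self, sub_zero]

theorem rank_eq (a : Matrix (Fin m ⊕ Fin m) (Fin m ⊕ Fin m) F) :
    (a - 1).rank = finrank F (LinearMap.range (nil a)) := by
  rfl

section count

variable [CharP F 2]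

/-- The map `v ↦ f(v, N v)` as an additive homomorphism. -/
noncomputable def phi (a : Matrix.symplecticGroup (Fin m) F) (ha : orderOf a = 2) : (Fin m ⊕ Fin m → F) →+ F where
  toFun v := sympB m F v (nil (a : Matrix (Fin m ⊕ Fin m) (Fin m ⊕ Fin m) F) v)
  map_zero' := by simp
  map_add' u v := by
    have h1 : sympB m F v (nil (a : Matrix (Fin m ⊕ Fin m) (Fin m ⊕ Fin m) F) u) =
        sympB m F u (nil (a : Matrix (Fin m ⊕ Fin m) (Fin m ⊕ Fin m) F) v) := by
      rw [← nil_adj a ha]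
      have hsym : ∀ x y, sympB m F x y = sympB m F y x := by
        intro x y
        have h := sympForm_self (F := F) (x + y)
        rw [← sympB_apply] at h
        simp only [map_add, LinearMap.add_apply, sympB_apply, sympForm_self, zero_add, add_zero] at h
        exact (CharTwo.add_eq_zero.mp h).symm
      rw [hsym]
    simp only [map_add, LinearMap.add_apply]
    rw [h1]
    have : ∀ x y z : F, x + y + (y + z) = x + z + (y + y) := by intro x y z; ring
    rw [this, CharTwo.add_self_eq_zero, add_zero]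

theorem phi_apply (a : Matrix.symplecticGroup (Fin m) F) (ha : orderOf a = 2) (v : Fin m ⊕ Fin m → F) :
    phi a ha v = Cfsg.sympForm m F v ((a : Matrix (Fin m ⊕ Fin m) (Fin m ⊕ Fin m) F) *ᵥ v) :=
  form_nil _ _

theorem phi_smul (a : Matrix.symplecticGroup (Fin m) F) (ha : orderOf a = 2) (c : F) (v : Fin m ⊕ Fin m → F) :
    phi a ha (c • v) = c * c * phi a ha v := by
  show sympB m F (c • v) (nil _ (c • v)) = _
  rw [map_smul, LinearMap.smul_apply, map_smul, map_smul, smul_eq_mul, smul_eq_mul, ← mul_assoc]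
  rfl

theorem card_V [Fintype F] (a : Matrix.symplecticGroup (Fin m) F) (ha : orderOf a = 2) :
    ((∀ v, Cfsg.sympForm m F v ((a : Matrix (Fin m ⊕ Fin m) (Fin m ⊕ Fin m) F) *ᵥ v) = 0) ∧
      Nat.card {v : Fin m ⊕ Fin m → F // Cfsg.sympForm m F v ((a : Matrix (Fin m ⊕ Fin m) (Fin m ⊕ Fin m) F) *ᵥ v) = 0} =
        Fintype.card F ^ (2 * m)) ∨
    ((¬ ∀ v, Cfsg.sympForm m F v ((a : Matrix (Fin m ⊕ Fin m) (Fin m ⊕ Fin m) F) *ᵥ v) = 0) ∧
      Nat.card {v : Fin m ⊕ Fin m → F // Cfsg.sympForm m F v ((a : Matrix (Fin m ⊕ Fin m) (Fin m ⊕ Fin m) F) *ᵥ v) = 0} *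
        Fintype.card F = Fintype.card F ^ (2 * m)) := by
  have hV : Nat.card (Fin m ⊕ Fin m → F) = Fintype.card F ^ (2 * m) := by
    rw [Nat.card_fun, Nat.card_eq_fintype_card, Nat.card_eq_fintype_card, Fintype.card_sum, Fintype.card_fin, two_mul]
  by_cases hall : ∀ v, Cfsg.sympForm m F v ((a : Matrix (Fin m ⊕ Fin m) (Fin m ⊕ Fin m) F) *ᵥ v) = 0
  · left
    refine ⟨hall, ?_⟩
    rw [← hV]
    exact Nat.card_congr (Equiv.subtypeUnivEquiv hall)
  · right
    refine ⟨hall, ?_⟩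
    push Not at hall
    obtain ⟨v0, hv0⟩ := hall
    rw [← phi_apply a ha] at hv0
    have hsurj : Function.Surjective (phi a ha) := by
      intro x
      obtain ⟨y, hy⟩ := FiniteField.isSquare_of_char_two (ringChar.eq_iff.mpr inferInstance) (x / phi a ha v0)
      refine ⟨y • v0, ?_⟩
      rw [phi_smul, ← hy]
      field_simp
    have h1 := AddSubgroup.card_eq_card_quotient_mul_card_addSubgroup (phi a ha).ker
    have h2 : Nat.card ((Fin m ⊕ Fin m → F) ⧸ (phi a ha).ker) = Nat.card F :=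
      Nat.card_congr (QuotientAddGroup.quotientKerEquivOfSurjective _ hsurj).toEquiv
    have h3 : Nat.card {v : Fin m ⊕ Fin m → F // Cfsg.sympForm m F v ((a : Matrix (Fin m ⊕ Fin m) (Fin m ⊕ Fin m) F) *ᵥ v) = 0}
        = Nat.card (phi a ha).ker := by
      apply Nat.card_congr
      apply Equiv.subtypeEquivRight
      intro v
      rw [AddMonoidHom.mem_ker, phi_apply]
    rw [h2, hV, Nat.card_eq_fintype_card] at h1
    rw [h3, h1, mul_comm]

end count

end Cfsg.Agent.Lib.InvolSympMat
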