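import Mathlib
import Cfsg.Prelude.Def_Classical
import Cfsg.Agent.Lib.InvolUnit

/-!
Finite fields of square order: norm and trace; the form `Cfsg.hermForm` as a sesquilinear map.
-/
set_option autoImplicit false

namespace Cfsg.Agent.Lib.InvolUnitMat

open Module Matrix

section field

variable {F : Type*} [Field F] [Fintype F] {q : ℕ}

theorem one_lt_q (hF : Fintype.card F = q ^ 2) : 1 < q := by
  have h : 1 < Fintype.card F := Fintype.one_lt_card
  rw [hF] at h
  by_contra hq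
  have : q = 0 ∨ q = 1 := by omega
  rcases this with rfl | rfl <;> simp at h

theorem exists_gen : ∃ g : Fˣ, ∀ x : Fˣ, ∃ k : ℕ, g ^ k = x := by
  obtain ⟨g, hg⟩ := IsCyclic.exists_generator (α := Fˣ)
  refine ⟨g, fun x => ?_⟩
  have := hg x
  rw [← mem_powers_iff_mem_zpowers] at this
  exact this

theorem exists_norm (hF : Fintype.card F = q ^ 2) (x : F) (hx : x ^ q = x) : ∃ y : F, y * y ^ q = x := by
  have hq := one_lt_q hF
  by_cases hx0 : x = 0
  · exact ⟨0, by rw [hx0]; simp⟩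
  obtain ⟨g, hg⟩ := exists_gen (F := F)
  obtain ⟨k, hk⟩ := hg (Units.mk0 x hx0)
  have hord : orderOf g = (q - 1) * (q + 1) := by
    have h1 : orderOf g = Nat.card Fˣ := by
      apply orderOf_eq_card_of_forall_mem_zpowers
      intro y
      obtain ⟨k, hk⟩ := hg y
      exact ⟨k, by simpa using hk⟩
    rw [h1, Nat.card_units, Nat.card_eq_fintype_card, hF]
    obtain ⟨t, rfl⟩ : ∃ t, q = t + 1 := ⟨q - 1, by omega⟩
    simp only [Nat.add_sub_cancel]
    have : (t + 1) ^ 2 = t * (t + 1 + 1) + 1 := by ring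
    omega
  have hx1 : (Units.mk0 x hx0) ^ (q - 1) = 1 := by
    apply Units.ext
    simp only [Units.val_pow_eq_pow_val, Units.val_mk0, Units.val_one]
    have h2 : x * x ^ (q - 1) = x * 1 := by
      rw [← pow_succ', Nat.sub_add_cancel hq.le, hx, mul_one]
    exact mul_left_cancel₀ hx0 h2
  rw [← hk, ← pow_mul] at hx1
  have h3 := orderOf_dvd_of_pow_eq_one hx1
  rw [hord, mul_comm k] at h3
  obtain ⟨j, hj⟩ := Nat.dvd_of_mul_dvd_mul_left (by omega) h3
  refine ⟨((g ^ j : Fˣ) : F), ?_⟩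
  rw [← pow_succ', ← Units.val_pow_eq_pow_val, ← pow_mul, mul_comm j, ← hj, hk]
  rfl

theorem exists_ne_pow (hF : Fintype.card F = q ^ 2) : ∃ c : F, c ^ q ≠ c := by
  have hq := one_lt_q hF
  obtain ⟨g, hg⟩ := exists_gen (F := F)
  refine ⟨g, ?_⟩
  intro h
  have hord : orderOf g = (q - 1) * (q + 1) := by
    have h1 : orderOf g = Nat.card Fˣ := by
      apply orderOf_eq_card_of_forall_mem_zpowers
      intro y
      obtain ⟨k, hk⟩ := hg y
      exact ⟨k, by simpa using hk⟩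
    rw [h1, Nat.card_units, Nat.card_eq_fintype_card, hF]
    obtain ⟨t, rfl⟩ : ∃ t, q = t + 1 := ⟨q - 1, by omega⟩
    simp only [Nat.add_sub_cancel]
    have : (t + 1) ^ 2 = t * (t + 1 + 1) + 1 := by ring
    omega
  have hx1 : g ^ (q - 1) = 1 := by
    apply Units.ext
    simp only [Units.val_pow_eq_pow_val, Units.val_one]
    have h2 : (g : F) * (g : F) ^ (q - 1) = (g : F) * 1 := by
      rw [← pow_succ', Nat.sub_add_cancel hq.le, h, mul_one]
    exact mul_left_cancel₀ g.ne_zero h2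
  have h3 := orderOf_dvd_of_pow_eq_one hx1
  rw [hord] at h3
  have h4 := Nat.le_of_dvd (by omega) h3
  obtain ⟨t, rfl⟩ : ∃ t, q = t + 2 := ⟨q - 2, by omega⟩
  have : t + 2 - 1 = t + 1 := by omega
  rw [this] at h4
  nlinarith

theorem q_pow_two [CharP F 2] (hF : Fintype.card F = q ^ 2) : ∃ k, q = 2 ^ k := by
  obtain ⟨n, _, hn⟩ := FiniteField.card F 2
  rw [hF] at hn
  have : q ∣ 2 ^ (n : ℕ) := by rw [← hn]; exact Dvd.intro_left (q ^ 1) (by ring)
  obtain ⟨k, _, hk⟩ := (Nat.dvd_prime_pow Nat.prime_two).mp this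
  exact ⟨k, hk⟩

theorem exists_sigma [CharP F 2] (hF : Fintype.card F = q ^ 2) : ∃ σ : F →+* F, (∀ x, σ x = x ^ q) ∧ (∀ x, σ (σ x) = x) ∧
    (∀ x, σ x = x → ∃ y, y * σ y = x) ∧ (∀ x, σ x = x → ∃ y, y + σ y = x) := by
  obtain ⟨k, hk⟩ := q_pow_two hF
  have h1 : ∀ x : F, iterateFrobenius F 2 k x = x ^ q := by
    intro x; rw [iterateFrobenius_def, hk]
  have h2 : ∀ x : F, (x ^ q) ^ q = x := by
    intro x
    rw [← pow_mul, ← pow_two, ← hF, FiniteField.pow_card]
  refine ⟨iterateFrobenius F 2 k, h1, ?_, ?_, ?_⟩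
  · intro x; rw [h1, h1, h2]
  · intro x hx
    rw [h1] at hx
    obtain ⟨y, hy⟩ := exists_norm hF x hx
    exact ⟨y, by rw [h1]; exact hy⟩
  · intro x hx
    obtain ⟨c, hc⟩ := exists_ne_pow hF
    rw [← h1] at hc
    set σ := iterateFrobenius F 2 k with hσ
    have hσσ : ∀ x, σ (σ x) = x := fun x => by rw [h1, h1, h2]
    have ht : c + σ c ≠ 0 := by
      intro h
      exact hc (CharTwo.add_eq_zero.mp h).symm
    refine ⟨x * c / (c + σ c), ?_⟩
    rw [map_div₀, map_mul, map_add, hσσ, hx, add_comm (σ c) c, ← add_div, ← mul_add, mul_div_assoc, div_self ht, mul_one]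

end field

/-- `hermForm` as a sesquilinear map. -/
noncomputable def hermB {F : Type*} [Field F] {q : ℕ} (n : ℕ) (σ : F →+* F) (hσ : ∀ x, σ x = x ^ q) :
    (Fin n → F) →ₗ[F] (Fin n → F) →ₛₗ[σ] F :=
  LinearMap.mk₂'ₛₗ (RingHom.id F) σ (fun u v => Cfsg.hermForm n F q u v)
    (fun u u' v => by simp [Cfsg.hermForm, add_mul, Finset.sum_add_distrib])
    (fun c u v => by simp [Cfsg.hermForm, Finset.mul_sum, mul_assoc])
    (fun u v v' => by simp [Cfsg.hermForm, ← hσ, mul_add, Finset.sum_add_distrib])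
    (fun c u v => by
      simp only [Cfsg.hermForm, Pi.smul_apply, smul_eq_mul, Finset.mul_sum, ← hσ, map_mul]
      exact Finset.sum_congr rfl (fun i _ => by ring))

theorem hermB_apply {F : Type*} [Field F] {q : ℕ} (n : ℕ) (σ : F →+* F) (hσ : ∀ x, σ x = x ^ q) (u v : Fin n → F) :
    hermB n σ hσ u v = Cfsg.hermForm n F q u v := rfl

theorem hermB_eq {F : Type*} [Field F] {q : ℕ} (n : ℕ) (σ : F →+* F) (hσ : ∀ x, σ x = x ^ q) (u v : Fin n → F) :
    hermB n σ hσ u v = ∑ i, u i * σ (v i) := by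
  rw [hermB_apply, Cfsg.hermForm]
  simp only [hσ]

theorem hermB_herm {F : Type*} [Field F] {q : ℕ} (n : ℕ) (σ : F →+* F) (hσ : ∀ x, σ x = x ^ q)
    (hσσ : ∀ x, σ (σ x) = x) (u v : Fin n → F) :
    hermB n σ hσ u v = σ (hermB n σ hσ v u) := by
  rw [hermB_eq, hermB_eq, map_sum]
  refine Finset.sum_congr rfl (fun i _ => ?_)
  rw [map_mul, hσσ, mul_comm]

theorem hermB_nondeg {F : Type*} [Field F] {q : ℕ} (n : ℕ) (σ : F →+* F) (hσ : ∀ x, σ x = x ^ q)
    (u : Fin n → F) (h : ∀ w, hermB n σ hσ u w = 0) : u = 0 := by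
  classical
  ext i
  have := h (Pi.single i 1)
  rw [hermB_eq] at this
  simpa [Pi.single_apply] using this

/-- The determinant of an isometry has norm one. -/
theorem det_isometry {F : Type*} [Field F] {q : ℕ} (n : ℕ) (σ : F →+* F) (hσ : ∀ x, σ x = x ^ q)
    (g : (Fin n → F) →ₗ[F] (Fin n → F)) (hg : ∀ u v, hermB n σ hσ (g u) (g v) = hermB n σ hσ u v) :
    LinearMap.det g * σ (LinearMap.det g) = 1 := by
  set G := LinearMap.toMatrix' g with hG
  have hGv : ∀ v, G *ᵥ v = g v := fun v => LinearMap.toMatrix'_mulVec _ v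
  have hGij : ∀ i j, G i j = g (Pi.single j 1) i := by
    intro i j
    rw [← hGv]; simp
  have h1 : Gᵀ * G.map σ = 1 := by
    ext i j
    have h2 := hg (Pi.single i 1) (Pi.single j 1)
    rw [hermB_eq, hermB_eq] at h2
    rw [Matrix.mul_apply]
    simp only [Matrix.transpose_apply, Matrix.map_apply, hGij]
    rw [h2]
    simp only [Pi.single_apply, Matrix.one_apply]
    by_cases hij : i = j
    · subst hij; simp
    · have hji : ¬ j = i := fun h => hij h.symm
      simp [hij, hji]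
  have h3 := congrArg Matrix.det h1
  rw [Matrix.det_mul, Matrix.det_transpose, Matrix.det_one] at h3
  have h4 : (G.map σ).det = σ G.det := by
    rw [RingHom.map_det]; rfl
  rw [h4] at h3
  have h5 : LinearMap.det g = G.det := by
    rw [hG, LinearMap.det_toMatrix']
  rw [h5]; exact h3

end Cfsg.Agent.Lib.InvolUnitMat
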