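import Cfsg.Prelude.Def_Blocks
import Cfsg.Prelude.Def_Solvable
import Cfsg.Agent.Lib.CharBasic
import Cfsg.Agent.Lib.CharBasic2
import Cfsg.Agent.Lib.CharCentral
import Cfsg.Agent.Lib.CharGalois
import Cfsg.Agent.Lib.CharValues
import Cfsg.Agent.Lib.Cores
import Cfsg.Agent.Lib.Cores2

/-!
# Irreducible products of characters

If a product `χ ψ` of characters is irreducible then
`∑ g, χ (g a g⁻¹ c) ψ (g b g⁻¹ d) = |G| χ(a) ψ(b) χ(c) ψ(d) / (χ(1) ψ(1))`.
-/

set_option autoImplicit false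
set_option linter.all false

namespace Cfsg.Agent.Lib.IrrProd

open Cfsg Cfsg.Agent.Lib Module
open scoped ComplexConjugate TensorProduct

universe u v w

variable {G : Type u} [Group G] {V : Type v} [AddCommGroup V] [Module ℂ V] [FiniteDimensional ℂ V]
  {W : Type w} [AddCommGroup W] [Module ℂ W] [FiniteDimensional ℂ W]

theorem rep_key [Fintype G] (ρ : Representation ℂ G V) (σ : Representation ℂ G W)
    (h : IsIrrCharacter G (ρ.character * σ.character)) (a b c d : G) :
    (finrank ℂ V : ℂ) * finrank ℂ W *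
      ∑ g : G, ρ.character (g * a * g⁻¹ * c) * σ.character (g * b * g⁻¹ * d) =
    Nat.card G * (ρ.character a * σ.character b * (ρ.character c * σ.character d)) := by
  classical
  have h1 : IsIrrCharacter G (ρ.tprod σ).character := by
    rw [Representation.char_tensor]; exact h
  haveI hirr : (ρ.tprod σ).IsIrreducible := CharBasic.isIrreducible_of_isIrrCharacter _ h1
  set T : (V ⊗[ℂ] W) →ₗ[ℂ] (V ⊗[ℂ] W) :=
    ∑ g : G, TensorProduct.map (ρ (g * a * g⁻¹)) (σ (g * b * g⁻¹)) with hT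
  have hcomm : ∀ (x : G) (v : V ⊗[ℂ] W), T ((ρ.tprod σ) x v) = (ρ.tprod σ) x (T v) := by
    intro x v
    have h2 : T * ((ρ.tprod σ) x) = ((ρ.tprod σ) x) * T := by
      rw [hT, Finset.sum_mul, Finset.mul_sum]
      apply Finset.sum_bij' (fun g _ => x⁻¹ * g) (fun g _ => x * g)
      · intro g _; exact Finset.mem_univ _
      · intro g _; exact Finset.mem_univ _
      · intro g _; group
      · intro g _; group
      · intro g _
        rw [Representation.tprod_apply]
        show TensorProduct.map _ _ ∘ₗ TensorProduct.map _ _ = TensorProduct.map _ _ ∘ₗ TensorProduct.map _ _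
        rw [← TensorProduct.map_comp, ← TensorProduct.map_comp]
        congr 1
        · show ρ _ * ρ _ = ρ _ * ρ _
          rw [← map_mul, ← map_mul]
          congr 1
          group
        · show σ _ * σ _ = σ _ * σ _
          rw [← map_mul, ← map_mul]
          congr 1
          group
    exact LinearMap.congr_fun h2 v
  obtain ⟨t, ht⟩ := CharCentral.exists_scalar_of_commute (ρ.tprod σ) T hcomm
  have htr : LinearMap.trace ℂ _ T = Nat.card G * (ρ.character a * σ.character b) := by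
    rw [hT, map_sum]
    have h3 : ∀ g : G, LinearMap.trace ℂ _ (TensorProduct.map (ρ (g * a * g⁻¹)) (σ (g * b * g⁻¹))) =
        ρ.character a * σ.character b := by
      intro g
      rw [LinearMap.trace_tensorProduct']
      have e1 : LinearMap.trace ℂ V (ρ (g * a * g⁻¹)) = ρ.character a := by
        rw [← Representation.char_conj ρ a g]; rfl
      have e2 : LinearMap.trace ℂ W (σ (g * b * g⁻¹)) = σ.character b := by
        rw [← Representation.char_conj σ b g]; rfl
      rw [e1, e2]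
    rw [Finset.sum_congr rfl (fun g _ => h3 g), Finset.sum_const, Finset.card_univ, nsmul_eq_mul,
      Nat.card_eq_fintype_card]
  have htr2 : LinearMap.trace ℂ _ T = t * (finrank ℂ V * finrank ℂ W) := by
    rw [ht, map_smul, LinearMap.trace_id, finrank_tensorProduct, smul_eq_mul]
    push_cast; ring
  have h4 : LinearMap.trace ℂ _ (T * TensorProduct.map (ρ c) (σ d)) =
      ∑ g : G, ρ.character (g * a * g⁻¹ * c) * σ.character (g * b * g⁻¹ * d) := by
    rw [hT, Finset.sum_mul, map_sum]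
    refine Finset.sum_congr rfl fun g _ => ?_
    have e3 : TensorProduct.map (ρ (g * a * g⁻¹)) (σ (g * b * g⁻¹)) * TensorProduct.map (ρ c) (σ d) =
        TensorProduct.map (ρ (g * a * g⁻¹ * c)) (σ (g * b * g⁻¹ * d)) := by
      show TensorProduct.map _ _ ∘ₗ TensorProduct.map _ _ = _
      rw [← TensorProduct.map_comp, map_mul ρ (g * a * g⁻¹) c, map_mul σ (g * b * g⁻¹) d]
      rfl
    rw [e3, LinearMap.trace_tensorProduct']
    rfl
  have h5 : LinearMap.trace ℂ _ (T * TensorProduct.map (ρ c) (σ d)) = t * (ρ.character c * σ.character d) := by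
    rw [ht]
    show LinearMap.trace ℂ _ ((t • LinearMap.id) ∘ₗ _) = _
    rw [LinearMap.smul_comp, LinearMap.id_comp, map_smul, LinearMap.trace_tensorProduct', smul_eq_mul]
    rfl
  rw [← h4, h5]
  calc (finrank ℂ V : ℂ) * finrank ℂ W * (t * (ρ.character c * σ.character d))
      = t * (finrank ℂ V * finrank ℂ W) * (ρ.character c * σ.character d) := by ring
    _ = _ := by rw [← htr2, htr]; ring

theorem key [Fintype G] {χ ψ : G → ℂ} (hχ : IsCharacter G χ) (hψ : IsCharacter G ψ)
    (h : IsIrrCharacter G (χ * ψ)) (a b c d : G) :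
    χ 1 * ψ 1 * ∑ g : G, χ (g * a * g⁻¹ * c) * ψ (g * b * g⁻¹ * d) =
      Nat.card G * (χ a * ψ b * (χ c * ψ d)) := by
  obtain ⟨n, ρ, rfl⟩ := hχ
  obtain ⟨m, σ, rfl⟩ := hψ
  have h1 := rep_key ρ σ h a b c d
  rw [← Representation.char_one ρ, ← Representation.char_one σ] at h1
  exact h1


section main

variable [Finite G]

theorem commutator_eq_one {ρ : Representation ℂ G V} (hf : ∀ g, ρ.character g = ρ.character 1 → g = 1)
    {a : G} (h : ‖ρ.character a‖ = (finrank ℂ V : ℝ)) : a ∈ Subgroup.center G := by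
  obtain ⟨ω, hω⟩ := (CharValues.norm_character_eq_iff ρ a).1 h
  rw [Subgroup.mem_center_iff]
  intro g
  have h1 : ρ (g * a) = ρ (a * g) := by
    rw [map_mul, map_mul, hω]
    ext v
    simp
  have h2 : ρ (g * a * (a * g)⁻¹) = 1 := by
    rw [map_mul, h1, ← map_mul, mul_inv_cancel, map_one]
  have h3 : g * a * (a * g)⁻¹ = 1 := by
    apply hf
    show LinearMap.trace ℂ V _ = LinearMap.trace ℂ V _
    rw [h2, map_one ρ]
  exact mul_inv_eq_one.1 h3

theorem vanish {ρ : Representation ℂ G V} (hρ : ρ.IsIrreducible)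
    (hf : ∀ g, ρ.character g = ρ.character 1 → g = 1)
    {m y : G} (hz : y * m * y⁻¹ * m⁻¹ ∈ Subgroup.center G) (hne : y * m * y⁻¹ * m⁻¹ ≠ 1) :
    ρ.character m = 0 := by
  set z := y * m * y⁻¹ * m⁻¹ with hzdef
  obtain ⟨ω, hω⟩ := CharCentral.exists_scalar_of_commute ρ (ρ z) (by
    intro g v
    rw [← Module.End.mul_apply, ← Module.End.mul_apply, ← map_mul, ← map_mul,
      (Subgroup.mem_center_iff.1 hz) g])
  have hω1 : ω ≠ 1 := by
    rintro rfl
    apply hne
    apply hf
    show LinearMap.trace ℂ V _ = LinearMap.trace ℂ V _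
    rw [hω, map_one, one_smul]
    rfl
  have h1 : ρ.character (y * m * y⁻¹) = ρ.character m := Representation.char_conj ρ m y
  have h2 : y * m * y⁻¹ = z * m := by rw [hzdef]; group
  have h3 : ρ.character (z * m) = ω * ρ.character m := by
    show LinearMap.trace ℂ V _ = _
    rw [map_mul, hω, Module.End.mul_eq_comp, LinearMap.smul_comp, LinearMap.id_comp, map_smul, smul_eq_mul]
    rfl
  rw [h2, h3] at h1
  have h4 : (ω - 1) * ρ.character m = 0 := by rw [sub_mul, h1, one_mul, sub_self]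
  exact (mul_eq_zero.1 h4).resolve_left (sub_ne_zero.2 hω1)

theorem exists_inv_exponent {k : ℕ} (hk : Nat.Coprime k (Nat.card G)) :
    ∃ i : ℕ, ∀ u : G, (u ^ i) ^ k = u⁻¹ := by
  obtain ⟨i, -, hi⟩ := Nat.exists_mul_mod_eq_of_coprime (Nat.card G - 1) hk Nat.card_pos.ne'
  refine ⟨i, fun u => ?_⟩
  rw [← pow_mul, mul_comm]
  have h1 : u ^ (k * i) = u ^ (Nat.card G - 1) := by
    rw [pow_eq_pow_iff_modEq]
    exact Nat.ModEq.of_dvd (orderOf_dvd_natCard u) hi
  rw [h1]
  have h2 : u ^ (Nat.card G - 1) * u = 1 := by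
    rw [← pow_succ, Nat.sub_add_cancel Nat.card_pos, pow_card_eq_one']
  exact eq_inv_of_mul_eq_one_left h2

variable {χ : G → ℂ} {k : ℕ}

theorem center_of_comm (hχ : IsIrrCharacter G χ) (hf : ∀ g, χ g = χ 1 → g = 1)
    (hk : Nat.Coprime k (Nat.card G)) (hirr : IsIrrCharacter G (fun g => χ g * χ (g ^ k)))
    {A : Subgroup G} (hA : A.Normal) (hc : ∀ a ∈ A, ∀ b ∈ A, a * b = b * a) :
    A ≤ Subgroup.center G := by
  classical
  letI := Fintype.ofFinite G
  letI : Fintype A := Fintype.ofFinite A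
  obtain ⟨i, hi⟩ := exists_inv_exponent hk
  set ψ : G → ℂ := fun g => χ (g ^ k) with hψ
  have hψc : IsCharacter G ψ := CharGalois.isCharacter_pow hχ.isCharacter hk
  have hψi : ∀ u, ψ (u ^ i) = conj (χ u) := by
    intro u
    rw [hψ]
    show χ ((u ^ i) ^ k) = _
    rw [hi, hχ.isCharacter.inv]
  have hψ1 : ψ 1 = χ 1 := by rw [hψ]; simp
  obtain ⟨d, hd0, hd⟩ := hχ.exists_degree
  intro a ha
  have h1 : ∀ c : A, χ 1 * χ 1 * ∑ g : G, ((Complex.normSq (χ (g * a * g⁻¹ * c)) : ℝ) : ℂ) =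
      Nat.card G * ((Complex.normSq (χ a) : ℝ) * (Complex.normSq (χ c) : ℝ)) := by
    intro c
    have h2 := key hχ.isCharacter hψc hirr a (a ^ i) (c : G) ((c : G) ^ i)
    rw [hψ1, hψi, hψi] at h2
    rw [← Complex.mul_conj, ← Complex.mul_conj]
    rw [show χ a * conj (χ a) * (χ (c : G) * conj (χ (c : G))) = χ a * conj (χ a) * (χ c * conj (χ c)) from rfl] at *
    rw [← h2]
    congr 1
    refine Finset.sum_congr rfl fun g _ => ?_
    have h3 : g * a ^ i * g⁻¹ * (c : G) ^ i = (g * a * g⁻¹ * c) ^ i := by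
      have h4 : Commute (g * a * g⁻¹) (c : G) := hc _ (hA.conj_mem a ha g) _ c.2
      rw [h4.mul_pow, conj_pow]
    rw [h3, hψi, Complex.mul_conj]
  have h5 : χ 1 * χ 1 * ∑ c : A, ∑ g : G, ((Complex.normSq (χ (g * a * g⁻¹ * c)) : ℝ) : ℂ) =
      Nat.card G * ((Complex.normSq (χ a) : ℝ) * ∑ c : A, ((Complex.normSq (χ c) : ℝ) : ℂ)) := by
    rw [Finset.mul_sum, Finset.sum_congr rfl (fun c _ => h1 c), ← Finset.mul_sum, Finset.mul_sum,
      Finset.mul_sum]
    simp only [Finset.mul_sum]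
  have h6 : ∑ c : A, ∑ g : G, ((Complex.normSq (χ (g * a * g⁻¹ * c)) : ℝ) : ℂ) =
      Nat.card G * ∑ c : A, ((Complex.normSq (χ c) : ℝ) : ℂ) := by
    rw [Finset.sum_comm]
    have h7 : ∀ g : G, ∑ c : A, ((Complex.normSq (χ (g * a * g⁻¹ * c)) : ℝ) : ℂ) =
        ∑ c : A, ((Complex.normSq (χ c) : ℝ) : ℂ) := by
      intro g
      exact Fintype.sum_equiv (Equiv.mulLeft (⟨g * a * g⁻¹, hA.conj_mem a ha g⟩ : A)) _ _ (fun c => rfl)
    rw [Finset.sum_congr rfl (fun g _ => h7 g), Finset.sum_const, Finset.card_univ, nsmul_eq_mul,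
      Nat.card_eq_fintype_card]
  rw [h6] at h5
  have h8 : (∑ c : A, ((Complex.normSq (χ c) : ℝ) : ℂ)) ≠ 0 := by
    rw [← Complex.ofReal_sum]
    intro h9
    have h10 : ∑ c : A, Complex.normSq (χ c) = 0 := by exact_mod_cast h9
    rw [Finset.sum_eq_zero_iff_of_nonneg (fun c _ => Complex.normSq_nonneg _)] at h10
    have h11 := h10 1 (Finset.mem_univ _)
    rw [Complex.normSq_eq_zero] at h11
    exact hχ.one_ne_zero h11
  have h12 : χ 1 * χ 1 = ((Complex.normSq (χ a) : ℝ) : ℂ) := by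
    have hG : (Nat.card G : ℂ) ≠ 0 := by exact_mod_cast Nat.card_pos.ne'
    apply mul_right_cancel₀ (mul_ne_zero hG h8)
    linear_combination h5
  obtain ⟨n, ρ, hρ, rfl⟩ := hχ
  apply commutator_eq_one hf
  rw [Complex.normSq_eq_norm_sq, Representation.char_one] at h12
  have h13 : ((finrank ℂ (Fin n → ℂ) : ℝ)) * (finrank ℂ (Fin n → ℂ) : ℝ) = ‖ρ.character a‖ ^ 2 := by
    exact_mod_cast h12
  have h14 : (‖ρ.character a‖) ^ 2 = (finrank ℂ (Fin n → ℂ) : ℝ) ^ 2 := by rw [← h13]; ring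
  exact (pow_left_inj₀ (norm_nonneg _) (Nat.cast_nonneg _) two_ne_zero).1 h14

theorem center_of_class_two (hχ : IsIrrCharacter G χ) (hf : ∀ g, χ g = χ 1 → g = 1)
    (hk : Nat.Coprime k (Nat.card G)) (hirr : IsIrrCharacter G (fun g => χ g * χ (g ^ k)))
    {M : Subgroup G} (hM : M.Normal) (hc : ⁅M, M⁆ ≤ Subgroup.center G) :
    M ≤ Subgroup.center G := by
  classical
  letI := Fintype.ofFinite G
  by_cases hcomm : ∀ a ∈ M, ∀ b ∈ M, a * b = b * a
  · exact center_of_comm hχ hf hk hirr hM hcomm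
  exfalso
  push Not at hcomm
  obtain ⟨m, hm, y, hy, hmy⟩ := hcomm
  -- `Z(M)` is central
  have hZ : M ⊓ Subgroup.centralizer (M : Set G) ≤ Subgroup.center G := by
    apply center_of_comm hχ hf hk hirr
    · haveI := hM
      infer_instance
    · intro a ha b hb
      exact (Subgroup.mem_centralizer_iff.1 hb.2 a ha.1)
  obtain ⟨i, hi⟩ := exists_inv_exponent hk
  set ψ : G → ℂ := fun g => χ (g ^ k) with hψ
  have hψc : IsCharacter G ψ := CharGalois.isCharacter_pow hχ.isCharacter hk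
  have hψi : ∀ u, ψ (u ^ i) = conj (χ u) := by
    intro u
    rw [hψ]
    show χ ((u ^ i) ^ k) = _
    rw [hi, hχ.isCharacter.inv]
  have hψ1 : ψ 1 = χ 1 := by rw [hψ]; simp
  -- `χ` vanishes on `M \ Z(G)`
  have hvan : ∀ u ∈ M, u ∉ Subgroup.center G → χ u = 0 := by
    intro u hu huc
    have h1 : u ∉ Subgroup.centralizer (M : Set G) := fun h => huc (hZ ⟨hu, h⟩)
    rw [Subgroup.mem_centralizer_iff] at h1
    push Not at h1
    obtain ⟨w, hw, hwu⟩ := h1
    obtain ⟨n, ρ, hρ, rfl⟩ := hχ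
    apply vanish hρ hf (y := w)
    · apply hc
      exact Subgroup.commutator_mem_commutator hw hu
    · intro h2
      apply hwu
      rw [mul_inv_eq_one] at h2
      exact mul_inv_eq_iff_eq_mul.1 h2
  have hmc : m ∉ Subgroup.center G := fun h => hmy ((Subgroup.mem_center_iff.1 h y).symm)
  have h2 := key hχ.isCharacter hψc hirr m (m ^ i) m⁻¹ ((m⁻¹) ^ i)
  rw [hψ1, hvan m hm hmc, zero_mul, zero_mul, mul_zero] at h2
  have h3 : ∑ g : G, χ (g * m * g⁻¹ * m⁻¹) * ψ (g * m ^ i * g⁻¹ * m⁻¹ ^ i) = 0 :=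
    (mul_eq_zero.1 h2).resolve_left (mul_ne_zero hχ.one_ne_zero hχ.one_ne_zero)
  have h4 : ∀ g : G, χ (g * m * g⁻¹ * m⁻¹) * ψ (g * m ^ i * g⁻¹ * m⁻¹ ^ i) =
      ((Complex.normSq (χ (g * m * g⁻¹ * m⁻¹)) : ℝ) : ℂ) := by
    intro g
    set z := g * m * g⁻¹ * m⁻¹ with hz
    by_cases hzc : z ∈ Subgroup.center G
    · have h5 : g * m ^ i * g⁻¹ * m⁻¹ ^ i = z ^ i := by
        have h6 : g * m * g⁻¹ = z * m := by rw [hz]; group
        have h7 : Commute z m := (Subgroup.mem_center_iff.1 hzc m).symm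
        rw [← conj_pow, h6, h7.mul_pow, mul_assoc, inv_pow, mul_inv_cancel, mul_one]
      rw [h5, hψi, Complex.mul_conj]
    · have hzM : z ∈ M := M.mul_mem (hM.conj_mem m hm g) (M.inv_mem hm)
      rw [hvan z hzM hzc]
      simp
  rw [Finset.sum_congr rfl (fun g _ => h4 g), ← Complex.ofReal_sum] at h3
  have h5 : ∑ g : G, Complex.normSq (χ (g * m * g⁻¹ * m⁻¹)) = 0 := by exact_mod_cast h3
  rw [Finset.sum_eq_zero_iff_of_nonneg (fun c _ => Complex.normSq_nonneg _)] at h5
  have h6 := h5 1 (Finset.mem_univ _)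
  rw [Complex.normSq_eq_zero] at h6
  apply hχ.one_ne_zero
  rw [← h6]
  congr 1
  group

theorem fitting_eq_center (hχ : IsIrrCharacter G χ) (hf : ∀ g, χ g = χ 1 → g = 1)
    (hk : Nat.Coprime k (Nat.card G)) (hirr : IsIrrCharacter G (fun g => χ g * χ (g ^ k))) :
    fittingSubgroup G = Subgroup.center G := by
  classical
  apply le_antisymm
  · by_contra hle
    set F := fittingSubgroup G with hF
    have hFn : Group.IsNilpotent F := Cores.isNilpotent_fittingSubgroup G
    haveI hFN : F.Normal := by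
      rw [hF]; infer_instance
    obtain ⟨n, hn⟩ := (Subgroup.isNilpotent_iff_lowerCentralSeries F).1 hFn
    have hex : ∃ n, F.lowerCentralSeries n ≤ Subgroup.center G := ⟨n, by rw [hn]; exact bot_le⟩
    have hnorm : ∀ n, (F.lowerCentralSeries n).Normal := by
      intro n
      induction n with
      | zero => rw [Subgroup.lowerCentralSeries_zero]; exact hFN
      | succ n ih =>
        rw [Subgroup.lowerCentralSeries_succ]
        infer_instance
    have h1 := Nat.find_spec hex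
    have h2 : Nat.find hex ≠ 0 := by
      intro h0
      rw [h0, Subgroup.lowerCentralSeries_zero] at h1
      exact hle h1
    obtain ⟨m, hm⟩ := Nat.exists_eq_succ_of_ne_zero h2
    have h3 : ¬ F.lowerCentralSeries m ≤ Subgroup.center G := Nat.find_min hex (by omega)
    apply h3
    apply center_of_class_two hχ hf hk hirr (hnorm m)
    rw [hm, Nat.succ_eq_add_one, Subgroup.lowerCentralSeries_succ] at h1
    refine le_trans (Subgroup.commutator_mono le_rfl ?_) h1
    exact Subgroup.lowerCentralSeries_le_self F m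
  · apply Cores.le_fittingSubgroup
    · infer_instance
    · apply Cores.isNilpotent_of_commutator_le_center
      intro x _
      rw [Subgroup.mem_center_iff]
      intro y
      exact Subtype.ext (Subgroup.mem_center_iff.1 x.2 y)

end main

end Cfsg.Agent.Lib.IrrProd
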