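import Mathlib
import Cfsg.Agent.Lib.BlockIdem
import Cfsg.Agent.Lib.MFree
import Cfsg.Agent.Lib.H25BpT
import Cfsg.Agent.Lib.AbPim5

/-!
# Parity correspondence for a twisted subgroup (helper78)

Let `H` be a subgroup of the finite group `G` and `B` a subset of `G` containing `1`, closed under inverses and
under `(b, c) ↦ b c b`, normalized by `H`, such that `(b, h) ↦ b h b` is a bijection `B × H → G`.
For an irreducible character `χ` with `τ = ∑ b, χ (b · ) ≠ 0` exactly one irreducible character of `H` has odd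
multiplicity in `χ_H`, and this gives a bijection onto the irreducible characters of `H`.
-/

set_option autoImplicit false
set_option linter.all false

namespace Cfsg.Agent.Lib.IsaOdd

open Cfsg Cfsg.Agent.Lib.BlockGA Cfsg.Agent.Lib.CharBasic
open MonoidAlgebra (single)
open scoped ComplexConjugate

universe u

variable {G : Type u} [Group G]

/-- the hypothesis on `B` -/
structure TB (H : Subgroup G) (B : Finset G) : Prop where
  one : 1 ∈ B
  inv : ∀ b ∈ B, b⁻¹ ∈ B
  tw : ∀ b ∈ B, ∀ c ∈ B, b * c * b ∈ B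
  cj : ∀ h ∈ H, ∀ b ∈ B, h * b * h⁻¹ ∈ B
  surj : ∀ g : G, ∃ b ∈ B, ∃ h ∈ H, g = b * h * b
  card : Nat.card G = B.card * Nat.card H

/-- the trace function -/
noncomputable def tau (B : Finset G) (χ : G → ℂ) (g : G) : ℂ := ∑ b ∈ B, χ (b * g)

section

variable {H : Subgroup G} {B : Finset G}

theorem sum_tw (hB : TB H B) {b : G} (hb : b ∈ B) (f : G → ℂ) : ∑ c ∈ B, f (b * c * b) = ∑ c ∈ B, f c := by
  refine Finset.sum_bij' (fun c _ => b * c * b) (fun c _ => b⁻¹ * c * b⁻¹) ?_ ?_ ?_ ?_ ?_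
  · intro c hc; exact hB.tw b hb c hc
  · intro c hc; exact hB.tw _ (hB.inv b hb) c hc
  · intro c _; group
  · intro c _; group
  · intro c _; rfl

theorem sum_inv (hB : TB H B) (f : G → ℂ) : ∑ c ∈ B, f c⁻¹ = ∑ c ∈ B, f c := by
  refine Finset.sum_bij' (fun c _ => c⁻¹) (fun c _ => c⁻¹) ?_ ?_ ?_ ?_ ?_
  · intro c hc; exact hB.inv c hc
  · intro c hc; exact hB.inv c hc
  · intro c _; simp
  · intro c _; simp
  · intro c _; rfl

theorem sum_cj (hB : TB H B) {h : G} (hh : h ∈ H) (f : G → ℂ) : ∑ c ∈ B, f (h * c * h⁻¹) = ∑ c ∈ B, f c := by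
  refine Finset.sum_bij' (fun c _ => h * c * h⁻¹) (fun c _ => h⁻¹ * c * h) ?_ ?_ ?_ ?_ ?_
  · intro c hc; exact hB.cj h hh c hc
  · intro c hc
    have := hB.cj h⁻¹ (H.inv_mem hh) c hc
    rwa [inv_inv] at this
  · intro c _; group
  · intro c _; group
  · intro c _; rfl

theorem comm_of_class {χ : G → ℂ} (hχ : IsClassFunction G χ) (x y : G) : χ (x * y) = χ (y * x) := by
  have := hχ (x * y) y
  rw [← this]
  congr 1
  group

theorem tau_tw (hB : TB H B) {χ : G → ℂ} (hχ : IsClassFunction G χ) {b : G} (hb : b ∈ B) (h : G) :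
    tau B χ (b * h * b) = tau B χ h := by
  unfold tau
  rw [← sum_tw hB hb (fun c => χ (c * h))]
  refine Finset.sum_congr rfl fun c _ => ?_
  rw [show c * (b * h * b) = (c * b * h) * b by group, comm_of_class hχ]
  congr 1
  group

theorem conj_tau [Finite G] (hB : TB H B) {χ : G → ℂ} (hχ : IsIrrCharacter G χ) (g : G) :
    conj (tau B χ g) = tau B χ g⁻¹ := by
  unfold tau
  rw [map_sum, ← sum_inv hB]
  refine Finset.sum_congr rfl fun c _ => ?_
  rw [← hχ.inv, comm_of_class hχ.isClassFunction]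
  congr 1
  group

theorem injB [Finite G] (hB : TB H B) : Function.Injective (fun x : B × H => (x.1 : G) * (x.2 : G) * (x.1 : G)) := by
  have hs : Function.Surjective (fun x : B × H => (x.1 : G) * (x.2 : G) * (x.1 : G)) := by
    intro g
    obtain ⟨b, hb, h, hh, rfl⟩ := hB.surj g
    exact ⟨(⟨b, hb⟩, ⟨h, hh⟩), rfl⟩
  have hc : Nat.card (B × H) = Nat.card G := by
    rw [Nat.card_prod, hB.card, Nat.card_eq_fintype_card, Fintype.card_coe]
  have := Fintype.ofFinite G
  have := Fintype.ofFinite H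
  rw [Nat.card_eq_fintype_card, Nat.card_eq_fintype_card] at hc
  exact ((Fintype.bijective_iff_surjective_and_card _).2 ⟨hs, hc⟩).1

theorem sum_BH [Fintype G] [Fintype H] (hB : TB H B) (f : G → ℂ) :
    ∑ g : G, f g = ∑ b ∈ B, ∑ h : H, f (b * h * b) := by
  have hs : Function.Surjective (fun x : B × H => (x.1 : G) * (x.2 : G) * (x.1 : G)) := by
    intro g
    obtain ⟨b, hb, h, hh, rfl⟩ := hB.surj g
    exact ⟨(⟨b, hb⟩, ⟨h, hh⟩), rfl⟩
  rw [← Finset.sum_coe_sort B, ← Fintype.sum_prod_type']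
  exact (Fintype.sum_bijective _ ⟨injB hB, hs⟩ _ _ fun x => rfl).symm

theorem eq_one_of_mem [Finite G] (hB : TB H B) {b : G} (hb : b ∈ B) (hbH : b ∈ H) : b = 1 := by
  have h1 := injB hB (a₁ := (⟨b, hb⟩, 1)) (a₂ := (⟨1, hB.one⟩, ⟨b * b, H.mul_mem hbH hbH⟩)) (by simp)
  exact congrArg (fun x : B × H => (x.1 : G)) h1

/-! ### orthogonality -/

theorem orth0 [Fintype G] {χ ψ : G → ℂ} (hχ : IsIrrCharacter G χ) (hψ : IsIrrCharacter G ψ) (b c : G) :
    ∑ g : G, χ (b * g) * conj (ψ (c * g)) = (Nat.card G : ℂ) / ψ 1 * classInner χ ψ * ψ (b * c⁻¹) := by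
  rw [← MFree.conv_irr hχ hψ]
  refine Fintype.sum_equiv (Equiv.mulLeft c) _ _ fun g => ?_
  rw [Equiv.coe_mulLeft, mul_comm]
  congr 1
  rw [comm_of_class hχ.isClassFunction (c * g)]
  congr 1
  group

theorem orth1 [Fintype G] (hB : TB H B) {χ ψ : G → ℂ} (hχ : IsIrrCharacter G χ) (hψ : IsIrrCharacter G ψ) :
    ∑ g : G, tau B χ g * conj (tau B ψ g) =
      (Nat.card G : ℂ) / ψ 1 * classInner χ ψ * ∑ b ∈ B, ∑ c ∈ B, ψ (b * c) := by
  have h1 : ∀ g : G, tau B χ g * conj (tau B ψ g) = ∑ b ∈ B, ∑ c ∈ B, χ (b * g) * conj (ψ (c * g)) := by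
    intro g
    unfold tau
    rw [map_sum, Finset.sum_mul_sum]
  rw [Finset.sum_congr rfl fun g _ => h1 g, Finset.sum_comm, Finset.mul_sum]
  refine Finset.sum_congr rfl fun b _ => ?_
  rw [Finset.sum_comm, Finset.mul_sum]
  rw [← sum_inv hB (fun c => (Nat.card G : ℂ) / ψ 1 * classInner χ ψ * ψ (b * c))]
  exact Finset.sum_congr rfl fun c _ => orth0 hχ hψ b c

theorem orth2 [Fintype G] [Fintype H] (hB : TB H B) {χ ψ : G → ℂ} (hχ : IsIrrCharacter G χ)
    (hψ : IsIrrCharacter G ψ) :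
    ∑ g : G, tau B χ g * conj (tau B ψ g) = (B.card : ℂ) * ∑ h : H, tau B χ h * conj (tau B ψ h) := by
  rw [sum_BH hB, ← nsmul_eq_mul, ← Finset.sum_const]
  refine Finset.sum_congr rfl fun b hb => Finset.sum_congr rfl fun h _ => ?_
  rw [tau_tw hB hχ.isClassFunction hb, tau_tw hB hψ.isClassFunction hb]

/-- the scalar of `T²` -/
noncomputable def cc (B : Finset G) (χ : G → ℂ) : ℂ := (∑ b ∈ B, ∑ c ∈ B, χ (b * c)) / χ 1

theorem orth3 [Fintype G] [Fintype H] (hB : TB H B) {χ ψ : G → ℂ} (hχ : IsIrrCharacter G χ)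
    (hψ : IsIrrCharacter G ψ) :
    ∑ h : H, tau B χ h * conj (tau B ψ h) = (Nat.card H : ℂ) * classInner χ ψ * cc B ψ := by
  have h1 := orth1 hB hχ hψ
  rw [orth2 hB hχ hψ, hB.card] at h1
  have hb : (B.card : ℂ) ≠ 0 := Nat.cast_ne_zero.2 (Finset.card_pos.2 ⟨1, hB.one⟩).ne'
  apply mul_left_cancel₀ hb
  rw [h1, cc]
  push_cast
  have := hψ.one_ne_zero
  field_simp

theorem cc_real [Finite G] (hB : TB H B) {χ : G → ℂ} (hχ : IsIrrCharacter G χ) :
    ∃ r : ℝ, 0 ≤ r ∧ cc B χ = r ∧ (r = 0 → ∀ g, tau B χ g = 0) := by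
  have := Fintype.ofFinite G
  have := Fintype.ofFinite H
  have h1 := orth3 hB hχ hχ
  rw [hχ.classInner_self, mul_one] at h1
  have hH : (0 : ℝ) < Nat.card H := Nat.cast_pos.2 Nat.card_pos
  have h2 : ∑ h : H, tau B χ h * conj (tau B χ h) = ((∑ h : H, Complex.normSq (tau B χ h) : ℝ) : ℂ) := by
    push_cast
    exact Finset.sum_congr rfl fun h _ => Complex.mul_conj _
  refine ⟨(∑ h : H, Complex.normSq (tau B χ h)) / Nat.card H, ?_, ?_, ?_⟩
  · exact div_nonneg (Finset.sum_nonneg fun h _ => Complex.normSq_nonneg _) hH.le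
  · rw [h2] at h1
    push_cast
    rw [eq_div_iff (by exact_mod_cast hH.ne'), mul_comm, ← h1]
    push_cast
    rfl
  · intro h3 g
    rw [div_eq_zero_iff] at h3
    have h4 := h3.resolve_right hH.ne'
    rw [Finset.sum_eq_zero_iff_of_nonneg (fun h _ => Complex.normSq_nonneg _)] at h4
    obtain ⟨b, hb, h, hh, rfl⟩ := hB.surj g
    rw [tau_tw hB hχ.isClassFunction hb]
    exact Complex.normSq_eq_zero.1 (h4 ⟨h, hh⟩ (Finset.mem_univ _))

/-! ### the operator -/

/-- the operator -/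
noncomputable def TT (B : Finset G) : GA G := ∑ b ∈ B, single b 1

theorem TT_b (hB : TB H B) {b : G} (hb : b ∈ B) : TT B * single b 1 = single b⁻¹ 1 * TT B := by
  unfold TT
  rw [Finset.sum_mul, Finset.mul_sum]
  symm
  refine Finset.sum_bij' (fun c _ => b⁻¹ * c * b⁻¹) (fun c _ => b * c * b) ?_ ?_ ?_ ?_ ?_
  · intro c hc; exact hB.tw _ (hB.inv b hb) c hc
  · intro c hc; exact hB.tw b hb c hc
  · intro c _; group
  · intro c _; group
  · intro c _
    rw [MonoidAlgebra.single_mul_single, MonoidAlgebra.single_mul_single, one_mul]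
    congr 1
    group

theorem TT_h (hB : TB H B) {h : G} (hh : h ∈ H) : TT B * single h 1 = single h 1 * TT B := by
  unfold TT
  rw [Finset.sum_mul, Finset.mul_sum]
  symm
  refine Finset.sum_bij' (fun c _ => h * c * h⁻¹) (fun c _ => h⁻¹ * c * h) ?_ ?_ ?_ ?_ ?_
  · intro c hc; exact hB.cj h hh c hc
  · intro c hc
    have := hB.cj h⁻¹ (H.inv_mem hh) c hc
    rwa [inv_inv] at this
  · intro c _; group
  · intro c _; group
  · intro c _
    rw [MonoidAlgebra.single_mul_single, MonoidAlgebra.single_mul_single, one_mul]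
    congr 1
    group

theorem TT2_center (hB : TB H B) : TT B * TT B ∈ Subalgebra.center ℂ (GA G) := by
  have hb : ∀ b ∈ B, single b (1 : ℂ) * (TT B * TT B) = TT B * TT B * single b 1 := by
    intro b hb
    rw [mul_assoc (TT B), TT_b hB hb, ← mul_assoc (TT B), TT_b hB (hB.inv b hb), inv_inv, mul_assoc]
  have hh : ∀ h ∈ H, single h (1 : ℂ) * (TT B * TT B) = TT B * TT B * single h 1 := by
    intro h hh
    rw [mul_assoc (TT B), TT_h hB hh, ← mul_assoc (TT B), TT_h hB hh, mul_assoc]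
  rw [Subalgebra.mem_center_iff]
  intro w
  induction w using MonoidAlgebra.induction_linear with
  | zero => simp
  | add a b ha hb => rw [add_mul, mul_add, ha, hb]
  | single g a =>
    obtain ⟨b, hb1, h, hh1, rfl⟩ := hB.surj g
    have e1 : single (b * h * b) a = a • (single b (1 : ℂ) * single h (1 : ℂ) * single b (1 : ℂ)) := by
      rw [MonoidAlgebra.single_mul_single, MonoidAlgebra.single_mul_single, MonoidAlgebra.smul_single]
      simp
    rw [e1, smul_mul_assoc, mul_smul_comm]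
    congr 1
    calc single b (1 : ℂ) * single h 1 * single b 1 * (TT B * TT B)
        = single b (1 : ℂ) * single h 1 * (single b 1 * (TT B * TT B)) := by rw [mul_assoc]
      _ = single b (1 : ℂ) * (single h 1 * (TT B * TT B)) * single b 1 := by rw [hb b hb1]; simp only [mul_assoc]
      _ = (single b (1 : ℂ) * (TT B * TT B)) * single h 1 * single b 1 := by rw [hh h hh1]; simp only [mul_assoc]
      _ = _ := by rw [hb b hb1]; simp only [mul_assoc]

theorem lin_TT (χ : G → ℂ) : lin χ (TT B * TT B) = ∑ b ∈ B, ∑ c ∈ B, χ (b * c) := by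
  unfold TT
  rw [Finset.sum_mul, lin_sum]
  refine Finset.sum_congr rfl fun b _ => ?_
  rw [Finset.mul_sum, lin_sum]
  refine Finset.sum_congr rfl fun c _ => ?_
  rw [MonoidAlgebra.single_mul_single, lin_single, one_mul, one_mul]

theorem lin_h_TT {χ : G → ℂ} (hχ : IsClassFunction G χ) (h : G) : lin χ (single h 1 * TT B) = tau B χ h := by
  unfold TT tau
  rw [Finset.mul_sum, lin_sum]
  refine Finset.sum_congr rfl fun b _ => ?_
  rw [MonoidAlgebra.single_mul_single, lin_single, one_mul, one_mul, comm_of_class hχ]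

/-! ### the splitting -/

theorem split [Finite G] (hB : TB H B) {χ : G → ℂ} (hχ : IsIrrCharacter G χ) {d : ℂ} (hd : d ≠ 0)
    (hdd : d * d = cc B χ) :
    ∃ x y : H → ℂ, IsCharacter H x ∧ IsCharacter H y ∧ (∀ h : H, χ h = x h + y h) ∧
      (∀ h : H, tau B χ h = d * (x h - y h)) := by
  classical
  set e : GA G := eB ({⟨χ, hχ⟩} : Set (IrrCharacter G)) with he
  have hec : e ∈ Subalgebra.center ℂ (GA G) := eB_mem_center _
  have hee : e * e = e := eB_mul_self _
  have hom : omega χ e = 1 := omega_eB_mem (ψ := ⟨χ, hχ⟩) (Set.mem_singleton _)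
  set E : GA G := e * TT B with hE
  have h1 : e * E = E := by rw [hE, ← mul_assoc, hee]
  have h2 : E * e = E := by rw [← center_comm hec, h1]
  have h3 : E * E = (d * d) • e := by
    have h4 : E * E = e * (TT B * TT B) := by
      rw [hE, mul_assoc, ← mul_assoc (TT B) e, ← center_comm hec (TT B), mul_assoc e (TT B) (TT B), ← mul_assoc e e, hee]
    rw [h4]
    apply center_ext (Subalgebra.mul_mem _ hec (TT2_center hB)) (Subalgebra.smul_mem _ hec _)
    intro ψ
    rw [omega_mul ψ.2 hec, omega_smul]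
    by_cases hψ : ψ = ⟨χ, hχ⟩
    · subst hψ
      rw [hdd]
      change omega χ e * omega χ (TT B * TT B) = cc B χ * omega χ e
      rw [hom, one_mul, mul_one, omega, lin_TT, cc]
    · rw [he, omega_eB_not_mem (by simpa using hψ), zero_mul, mul_zero]
  have hTc : ∀ h ∈ H, Commute E (single h (1 : ℂ)) := by
    intro h hh
    change E * single h 1 = single h 1 * E
    rw [hE, mul_assoc, TT_h hB hh, ← mul_assoc, center_comm hec, mul_assoc]
  have hecm : ∀ h : G, Commute e (single h (1 : ℂ)) := fun h => center_comm hec _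
  have hl1 : ∀ h : G, lin χ (single h 1 * e) = χ h := by
    intro h
    rw [← center_comm hec, lin_mul_single hχ hec, hom, one_mul]
  have hl2 : ∀ h : G, lin χ (single h 1 * E) = tau B χ h := by
    intro h
    rw [hE, ← mul_assoc, ← center_comm hec, mul_assoc, lin_mul hχ hec, hom, one_mul, lin_h_TT hχ.isClassFunction]
  have key : ∀ s : ℂ, s * s * (d * d) = 1 →
      IsCharacter H (fun h : H => lin χ (single (h : G) 1 * ((2 : ℂ)⁻¹ • (e + s • E)))) := by
    intro s hs
    apply H25BpLift.isCharacter_idem hχ.isCharacter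
    · rw [smul_mul_smul_comm, add_mul, mul_add, mul_add, hee, smul_mul_smul_comm, h3, smul_smul, hs, one_smul,
        mul_smul_comm, smul_mul_assoc, h1, h2]
      rw [show e + s • E + (s • E + e) = (2 : ℂ) • (e + s • E) by rw [two_smul]; abel, smul_smul]
      norm_num
    · intro u hu
      exact ((hecm u).add_left ((hTc u hu).smul_left s)).smul_left _
  have hval : ∀ s : ℂ, ∀ h : G, lin χ (single (h : G) 1 * ((2 : ℂ)⁻¹ • (e + s • E))) =
      (2 : ℂ)⁻¹ * (χ h + s * tau B χ h) := by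
    intro s h
    rw [mul_smul_comm, lin_smul, mul_add, lin_add, mul_smul_comm, lin_smul, hl1, hl2]
  refine ⟨_, _, key d⁻¹ (by field_simp), key (-d⁻¹) (by field_simp), ?_, ?_⟩
  · intro h
    rw [hval, hval]
    ring
  · intro h
    rw [hval, hval]
    field_simp
    ring

/-- linked characters -/
def Lnk (H : Subgroup G) (B : Finset G) (χ : G → ℂ) (ψ : H → ℂ) : Prop :=
  ∃ d : ℂ, d ≠ 0 ∧ ∀ h : H, tau B χ h = d * ψ h

theorem exists_lnk [Fintype G] [Fintype H] (hB : TB H B) {χ : G → ℂ} (hχ : IsIrrCharacter G χ)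
    (h0 : ∃ g, tau B χ g ≠ 0) :
    ∃ ψ : IrrCharacter H, Lnk H B χ (ψ : H → ℂ) ∧
      (∃ m : ℕ, Odd m ∧ classInner (fun h : H => χ h) (ψ : H → ℂ) = m) ∧
      ∀ ψ' : IrrCharacter H, ψ' ≠ ψ → ∃ m : ℕ, Even m ∧ classInner (fun h : H => χ h) (ψ' : H → ℂ) = m := by
  obtain ⟨r, hr0, hr, hr1⟩ := cc_real hB hχ
  have hr2 : r ≠ 0 := by
    intro h
    obtain ⟨g, hg⟩ := h0
    exact hg (hr1 h g)
  set t : ℝ := Real.sqrt r with ht
  have htt : t * t = r := Real.mul_self_sqrt hr0
  have ht0 : t ≠ 0 := by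
    intro h
    rw [h, mul_zero] at htt
    exact hr2 htt.symm
  have hd0 : (t : ℂ) ≠ 0 := Complex.ofReal_ne_zero.2 ht0
  have hdd : (t : ℂ) * (t : ℂ) = cc B χ := by rw [hr, ← htt]; push_cast; rfl
  obtain ⟨x, y, hx, hy, hxy, hT⟩ := split hB hχ hd0 hdd
  set θ : H → ℂ := x - y with hθ
  have hθg : IsGeneralizedCharacter H θ := hx.isGeneralized.sub hy.isGeneralized
  have hH : (Nat.card H : ℂ) ≠ 0 := by exact_mod_cast Nat.card_pos.ne'
  have hnorm : classInner θ θ = 1 := by
    have h1 := orth3 hB hχ hχ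
    rw [hχ.classInner_self, mul_one, ← hdd] at h1
    have h2 : ∑ h : H, tau B χ h * conj (tau B χ h) = (t : ℂ) * t * ∑ h : H, θ h * conj (θ h) := by
      rw [Finset.mul_sum]
      refine Finset.sum_congr rfl fun h _ => ?_
      rw [hT h, map_mul, Complex.conj_ofReal, hθ, Pi.sub_apply]
      ring
    rw [h2] at h1
    have h3 : ∑ h : H, θ h * conj (θ h) = (Nat.card H : ℂ) := by
      apply mul_left_cancel₀ (mul_ne_zero hd0 hd0)
      rw [h1]; ring
    rw [classInner, h3, inv_mul_cancel₀ hH]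
  have hres : (fun h : H => χ h) = x + y := funext hxy
  have main : ∀ ε : ℂ, ε * ε = 1 → ∀ hψ : IsIrrCharacter H (fun h => ε * θ h),
      ∃ ψ : IrrCharacter H, Lnk H B χ (ψ : H → ℂ) ∧
      (∃ m : ℕ, Odd m ∧ classInner (fun h : H => χ h) (ψ : H → ℂ) = m) ∧
      ∀ ψ' : IrrCharacter H, ψ' ≠ ψ → ∃ m : ℕ, Even m ∧ classInner (fun h : H => χ h) (ψ' : H → ℂ) = m := by
    intro ε hε hψ
    have hθψ : θ = ε • (fun h => ε * θ h) := by
      funext h
      rw [Pi.smul_apply, smul_eq_mul, ← mul_assoc, hε, one_mul]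
    have hθc : ∀ ζ : H → ℂ, classInner θ ζ = ε * classInner (fun h => ε * θ h) ζ := by
      intro ζ
      rw [← classInner_smul_left, ← hθψ]
    have hε1 : ε = 1 ∨ ε = -1 := mul_self_eq_one_iff.1 hε
    have hε0 : ε ≠ 0 := by rcases hε1 with h | h <;> rw [h] <;> norm_num
    refine ⟨⟨_, hψ⟩, ⟨t * ε, mul_ne_zero hd0 hε0, ?_⟩, ?_, ?_⟩
    · intro h
      rw [hT h]
      change (t : ℂ) * (x h - y h) = t * ε * (ε * (x h - y h))
      rw [← mul_assoc (↑t * ε), mul_assoc (t : ℂ) ε ε, hε, mul_one]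
    · obtain ⟨a, ha⟩ := hx.classInner_nat hψ.isCharacter
      obtain ⟨b, hb⟩ := hy.classInner_nat hψ.isCharacter
      refine ⟨a + b, ?_, ?_⟩
      · have h1 : (a : ℂ) - b = ε := by
          rw [← ha, ← hb, ← classInner_sub_left, ← hθ, hθc, hψ.classInner_self, mul_one]
        rcases hε1 with h | h
        · rw [h] at h1
          have h2 : (a : ℤ) - b = 1 := by exact_mod_cast h1
          rw [Nat.odd_iff]; omega
        · rw [h] at h1
          have h2 : (a : ℤ) - b = -1 := by exact_mod_cast h1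
          rw [Nat.odd_iff]; omega
      · rw [hres, classInner_add_left]
        push_cast
        rw [← ha, ← hb]
    · intro ψ' hne
      obtain ⟨a, ha⟩ := hx.classInner_nat ψ'.2.isCharacter
      obtain ⟨b, hb⟩ := hy.classInner_nat ψ'.2.isCharacter
      refine ⟨a + b, ?_, ?_⟩
      · have h1 : (a : ℂ) - b = 0 := by
          rw [← ha, ← hb, ← classInner_sub_left, ← hθ, hθc]
          have : classInner (fun h => ε * θ h) (ψ' : H → ℂ) = 0 := by
            have h2 := irr_orthonormal (⟨_, hψ⟩ : IrrCharacter H) ψ'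
            rw [if_neg (Ne.symm hne)] at h2
            exact h2
          rw [this, mul_zero]
        have h2 : (a : ℤ) - b = 0 := by exact_mod_cast h1
        rw [Nat.even_iff]; omega
      · rw [hres, classInner_add_left]
        push_cast
        rw [← ha, ← hb]
  rcases hθg.irr_or_neg_irr hnorm with h | h
  · exact main 1 (by norm_num) (by simpa using h)
  · refine main (-1) (by norm_num) ?_
    have : (fun h => (-1 : ℂ) * θ h) = -θ := by funext h; simp
    rw [this]; exact h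

theorem lnk_inj [Fintype G] [Fintype H] (hB : TB H B) {χ χ' : IrrCharacter G} {ψ : IrrCharacter H}
    (h : Lnk H B (χ : G → ℂ) (ψ : H → ℂ)) (h' : Lnk H B (χ' : G → ℂ) (ψ : H → ℂ)) : χ = χ' := by
  by_contra hne
  obtain ⟨d, hd, hT⟩ := h
  obtain ⟨d', hd', hT'⟩ := h'
  have h1 := orth3 hB χ.2 χ'.2
  rw [irr_orthonormal, if_neg hne, mul_zero, zero_mul] at h1
  have h2 : ∑ h : H, tau B (χ : G → ℂ) h * conj (tau B (χ' : G → ℂ) h) =
      d * conj d' * ((Nat.card H : ℂ) * classInner (ψ : H → ℂ) (ψ : H → ℂ)) := by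
    rw [classInner, mul_inv_cancel_left₀ (by exact_mod_cast Nat.card_pos.ne'), Finset.mul_sum]
    refine Finset.sum_congr rfl fun h _ => ?_
    rw [hT h, hT' h, map_mul]
    ring
  rw [h2, ψ.2.classInner_self, mul_one] at h1
  have h3 : conj d' ≠ 0 := by simpa using hd'
  have hH : (Nat.card H : ℂ) ≠ 0 := by exact_mod_cast Nat.card_pos.ne'
  exact mul_ne_zero (mul_ne_zero hd h3) hH h1

theorem exists_lnk' [Fintype G] [Fintype H] (hB : TB H B) (ψ : IrrCharacter H) :
    ∃ χ : IrrCharacter G, Lnk H B (χ : G → ℂ) (ψ : H → ℂ) := by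
  classical
  by_contra hcon
  push Not at hcon
  have h1 : ∀ χ : IrrCharacter G, ∑ h : H, tau B (χ : G → ℂ) h * conj ((ψ : H → ℂ) h) = 0 := by
    intro χ
    by_cases h0 : ∃ g, tau B (χ : G → ℂ) g ≠ 0
    · obtain ⟨ψ', hl, -, -⟩ := exists_lnk hB χ.2 h0
      have hne : ψ' ≠ ψ := by rintro rfl; exact hcon χ hl
      obtain ⟨d, hd, hT⟩ := hl
      have h2 : ∑ h : H, tau B (χ : G → ℂ) h * conj ((ψ : H → ℂ) h) =
          d * ((Nat.card H : ℂ) * classInner (ψ' : H → ℂ) (ψ : H → ℂ)) := by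
        rw [classInner, mul_inv_cancel_left₀ (by exact_mod_cast Nat.card_pos.ne'), Finset.mul_sum]
        refine Finset.sum_congr rfl fun h _ => ?_
        rw [hT h]
        ring
      rw [h2, irr_orthonormal, if_neg hne]
      simp
    · push Not at h0
      exact Finset.sum_eq_zero fun h _ => by rw [h0, zero_mul]
  have h2 : ∀ h : H, ∑ χ : IrrCharacter G, (χ : G → ℂ) 1 * tau B (χ : G → ℂ) h =
      if h = 1 then (Nat.card G : ℂ) else 0 := by
    intro h
    have h3 : ∀ χ : IrrCharacter G, (χ : G → ℂ) 1 * tau B (χ : G → ℂ) h =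
        (χ : G → ℂ) 1 * lin (χ : G → ℂ) (single (h : G) 1 * TT B) := fun χ => by
      rw [lin_h_TT χ.2.isClassFunction]
    rw [Finset.sum_congr rfl fun χ _ => h3 χ, AbPim.sum_lin]
    have h4 : (single (h : G) (1 : ℂ) * TT B).coeff 1 = if h = 1 then 1 else 0 := by
      rw [TT, Finset.mul_sum, coeff_finset_sum]
      have h5 : ∀ b ∈ B, (single (h : G) (1 : ℂ) * single b 1).coeff 1 = if b = 1 ∧ h = 1 then 1 else 0 := by
        intro b hb
        rw [MonoidAlgebra.single_mul_single, one_mul, MonoidAlgebra.coeff_single, Finsupp.single_apply]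
        by_cases h6 : (h : G) * b = 1
        · have hbH : b ∈ H := by
            rw [eq_inv_of_mul_eq_one_right h6]
            exact H.inv_mem h.2
          have hb1 := eq_one_of_mem hB hb hbH
          subst hb1
          rw [mul_one] at h6
          have h7 : h = 1 := Subtype.ext h6
          rw [if_pos (by simpa using h6), if_pos ⟨rfl, h7⟩]
        · rw [if_neg h6, if_neg]
          rintro ⟨rfl, rfl⟩
          exact h6 (by simp)
      rw [Finset.sum_congr rfl h5]
      by_cases h8 : h = 1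
      · simp only [h8, and_true, if_true]
        rw [Finset.sum_ite_eq' B 1 (fun _ => (1 : ℂ)), if_pos hB.one]
      · simp [h8]
    rw [h4]
    split_ifs <;> simp
  have h9 : ∑ h : H, (∑ χ : IrrCharacter G, (χ : G → ℂ) 1 * tau B (χ : G → ℂ) h) * conj ((ψ : H → ℂ) h) = 0 := by
    have : ∀ h : H, (∑ χ : IrrCharacter G, (χ : G → ℂ) 1 * tau B (χ : G → ℂ) h) * conj ((ψ : H → ℂ) h) =
        ∑ χ : IrrCharacter G, (χ : G → ℂ) 1 * (tau B (χ : G → ℂ) h * conj ((ψ : H → ℂ) h)) := by
      intro h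
      rw [Finset.sum_mul]
      exact Finset.sum_congr rfl fun χ _ => by ring
    rw [Finset.sum_congr rfl fun h _ => this h, Finset.sum_comm]
    refine Finset.sum_eq_zero fun χ _ => ?_
    rw [← Finset.mul_sum, h1 χ, mul_zero]
  have h10 : ∑ h : H, (∑ χ : IrrCharacter G, (χ : G → ℂ) 1 * tau B (χ : G → ℂ) h) * conj ((ψ : H → ℂ) h) =
      (Nat.card G : ℂ) * conj ((ψ : H → ℂ) 1) := by
    rw [Finset.sum_congr rfl fun h _ => by rw [h2 h]]
    simp
  rw [h10] at h9
  have hG : (Nat.card G : ℂ) ≠ 0 := by exact_mod_cast Nat.card_pos.ne'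
  have h11 : conj ((ψ : H → ℂ) 1) ≠ 0 := by simpa using ψ.2.one_ne_zero
  exact mul_ne_zero hG h11 h9

end

end Cfsg.Agent.Lib.IsaOdd
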