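import Mathlib
import Cfsg.Agent.Lib.BaerTrick
import Cfsg.Agent.Lib.IsaOdd1

/-!
# The twisted subgroup of a group of class two (helper78)

The Baer trick: for `K` of class two modulo/central `Z`, `K / Z` of odd exponent, with a coprime group of automorphisms
fixing `Z` pointwise and acting without fixed points on `K / Z`, there is a canonical transversal `B` of `Z` in `K`
closed under `(b, c) ↦ b c b` and inverses.
-/

set_option autoImplicit false
set_option linter.all false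

namespace Cfsg.Agent.Lib.IsaOdd

open Subgroup BaerTrick
open scoped commutatorElement

universe u

theorem mem_of_pow {A : Type u} [Group A] (H : Subgroup A) {x : A} {a b : ℕ} (h : a.Coprime b) (ha : x ^ a ∈ H)
    (hb : x ^ b ∈ H) : x ∈ H := by
  have h1 : x = (x ^ a) ^ (Nat.gcdA a b) * (x ^ b) ^ (Nat.gcdB a b) := by
    rw [← zpow_natCast, ← zpow_natCast, ← zpow_mul, ← zpow_mul, ← zpow_add]
    have := Nat.gcd_eq_gcd_ab a b
    rw [h.gcd_eq_one] at this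
    rw [← this]
    simp
  rw [h1]
  exact H.mul_mem (H.zpow_mem ha _) (H.zpow_mem hb _)

theorem exists_B {K : Type u} [Group K] [Finite K] (Z : Subgroup K) (hZ : Z ≤ center K)
    (hc : ∀ x y : K, ⁅x, y⁆ ∈ Z) (n0 : ℕ) (hodd : Odd n0) (hn0 : ∀ x : K, x ^ n0 ∈ Z) (A : Subgroup (MulAut K))
    (hcop : (Nat.card A).Coprime n0) (hAZ : ∀ a ∈ A, ∀ z ∈ Z, a z = z)
    (hfree : ∀ x : K, (∀ a ∈ A, a x * x⁻¹ ∈ Z) → x ∈ Z) :
    ∃ B : Set K, 1 ∈ B ∧ (∀ b ∈ B, b⁻¹ ∈ B) ∧ (∀ b ∈ B, ∀ c ∈ B, b * c * b ∈ B) ∧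
      (∀ x, ∃ b ∈ B, ∃ z ∈ Z, x = b * z) ∧ (∀ b ∈ B, ∀ c ∈ B, b⁻¹ * c ∈ Z → b = c) ∧
      (∀ g : MulAut K, g ∈ normalizer (A : Set (MulAut K)) → ∀ b ∈ B, g b ∈ B) := by
  classical
  have _ := Fintype.ofFinite A
  have hcc : ∀ x y : K, ⁅x, y⁆ ∈ center K := fun x y => hZ (hc x y)
  obtain ⟨n, hn⟩ := hodd
  -- `⁅x, y⁆ ^ n0 = 1`
  have hcp : ∀ (x y : K) (k : ℕ), ⁅x ^ k, y⁆ = ⁅x, y⁆ ^ k := by
    intro x y k
    induction k with
    | zero => simp
    | succ k ih => rw [pow_succ, comm_mul_left hcc, ih, pow_succ]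
  have hcn : ∀ x y : K, ⁅x, y⁆ ^ n0 = 1 := by
    intro x y
    rw [← hcp, commutatorElement_eq_one_iff_mul_comm]
    exact (mem_center_iff.mp (hZ (hn0 x)) y).symm
  have hnn : ∀ x y : K, ⁅x, y⁆ ^ (2 * (n + 1)) = ⁅x, y⁆ := by
    intro x y
    have : 2 * (n + 1) = n0 + 1 := by omega
    rw [this, pow_succ, hcn, one_mul]
  letI inst : CommGroup (BK K) := baer hcc (n + 1) hnn
  obtain ⟨v, hv⟩ : ∃ v : BK K ≃ K, v = Equiv.refl K := ⟨_, rfl⟩
  have hmul : ∀ x y : BK K, v (x * y) = bmul (K := K) (n + 1) (v x) (v y) := fun x y => by subst hv; rfl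
  have hone : v (1 : BK K) = 1 := by subst hv; rfl
  have hinv : ∀ x : BK K, v x⁻¹ = (v x)⁻¹ := fun x => by subst hv; rfl
  have hpow : ∀ (x : BK K) (k : ℕ), v (x ^ k) = (v x) ^ k := by
    intro x k
    induction k with
    | zero => rw [pow_zero, pow_zero, hone]
    | succ k ih =>
      rw [pow_succ, hmul, ih]
      unfold bmul
      have : ⁅v x, v x ^ k⁆ = 1 := by
        rw [commutatorElement_eq_one_iff_mul_comm, ← pow_succ, ← pow_succ']
      rw [this, one_pow, mul_one, pow_succ]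
  -- multiplication with central elements
  have hmulz : ∀ (x z : BK K), v z ∈ Z → v (x * z) = v x * v z := by
    intro x z hz
    rw [hmul]
    unfold bmul
    have : ⁅v z, v x⁆ = 1 := by
      rw [commutatorElement_eq_one_iff_mul_comm]
      exact (mem_center_iff.mp (hZ hz) _).symm
    rw [this, one_pow, mul_one]
  -- automorphisms
  obtain ⟨τ, hτ⟩ : ∃ τ : MulAut K → (BK K →* BK K), ∀ a x, v (τ a x) = a (v x) := by
    subst hv
    exact ⟨fun a =>
    { toFun := fun x => (a : K → K) x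
      map_one' := map_one a
      map_mul' := fun x y => map_bmul a.toMonoidHom (n + 1) x y }, fun _ _ => rfl⟩
  have hτmul : ∀ (a b : MulAut K) (x : BK K), τ (a * b) x = τ a (τ b x) := fun a b x => by
    apply v.injective
    rw [hτ, hτ, hτ]
    rfl
  let N : BK K →* BK K := ∏ a : A, τ (a : MulAut K)
  have hN : ∀ x : BK K, N x = ∏ a : A, τ (a : MulAut K) x := fun x => by
    simp only [N, MonoidHom.finsetProd_apply]
  have hfix : ∀ b ∈ A, ∀ x : BK K, τ b (N x) = N x := by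
    intro b hb x
    rw [hN, map_prod]
    refine Fintype.prod_equiv (Equiv.mulLeft (⟨b, hb⟩ : A)) _ _ (fun a => ?_)
    rw [Equiv.coe_mulLeft, Subgroup.coe_mul, hτmul]
  have hnorm : ∀ g ∈ normalizer (A : Set (MulAut K)), ∀ x : BK K, τ g (N x) = N (τ g x) := by
    intro g hgn x
    rw [hN, hN, map_prod]
    let e : A ≃ A :=
      { toFun := fun a => ⟨g * a * g⁻¹, (mem_normalizer_iff.mp hgn _).mp a.2⟩
        invFun := fun a => ⟨g⁻¹ * a * g, (mem_normalizer_iff''.mp hgn _).mp a.2⟩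
        left_inv := fun a => Subtype.ext (by simp [mul_assoc])
        right_inv := fun a => Subtype.ext (by simp [mul_assoc]) }
    refine Fintype.prod_equiv e _ _ (fun a => ?_)
    change τ g (τ a x) = τ (g * a * g⁻¹) (τ g x)
    rw [← hτmul, ← hτmul]
    congr 2
    group
  -- the norm of a fixed element
  have hNfix : ∀ x : BK K, (∀ a ∈ A, τ a x = x) → N x = x ^ Nat.card A := by
    intro x hx
    rw [hN, Nat.card_eq_fintype_card, ← Finset.card_univ, ← Finset.prod_const]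
    exact Finset.prod_congr rfl fun a _ => hx a a.2
  have hNZ : ∀ x : BK K, v (N x) ∈ Z := by
    intro x
    apply hfree
    intro a ha
    rw [← hτ, hfix a ha x, mul_inv_cancel]
    exact Z.one_mem
  let D : BK K →* BK K := (powMonoidHom (Nat.card A)) * N⁻¹
  have hD : ∀ x : BK K, D x = x ^ Nat.card A * (N x)⁻¹ := fun x => rfl
  have hDZ : ∀ z : BK K, v z ∈ Z → D z = 1 := by
    intro z hz
    rw [hD, hNfix z (fun a ha => v.injective (by rw [hτ]; exact hAZ a ha _ hz)), mul_inv_cancel]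
  have hND : ∀ x : BK K, N (D x) = 1 := by
    intro x
    rw [hD, map_mul, map_pow, map_inv, hNfix (N x) (fun a ha => hfix a ha x), mul_inv_cancel]
  have hDD : ∀ x : BK K, D (D x) = (D x) ^ Nat.card A := by
    intro x
    rw [hD (D x), hND, inv_one, mul_one]
  have hDn : ∀ x : BK K, (D x) ^ n0 = 1 := by
    intro x
    rw [← map_pow]
    apply hDZ
    rw [hpow x n0]
    exact hn0 _
  have hmeet : ∀ x : BK K, v (D x) ∈ Z → D x = 1 := by
    intro x hx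
    have h1 := hDZ _ hx
    rw [hDD] at h1
    have h2 := mem_of_pow (⊥ : Subgroup (BK K)) hcop (x := D x) (by rw [h1]; exact one_mem _) (by rw [hDn]; exact one_mem _)
    exact (Subgroup.mem_bot).1 h2
  -- the subgroup `Z` in the Baer group
  let ZB : Subgroup (BK K) :=
    { carrier := {z | v z ∈ Z}
      one_mem' := by
        change v 1 ∈ Z
        rw [hone]; exact Z.one_mem
      mul_mem' := fun {a b} ha hb => by
        change v (a * b) ∈ Z
        rw [hmulz a b hb]; exact Z.mul_mem ha hb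
      inv_mem' := fun {a} ha => by
        change v a⁻¹ ∈ Z
        rw [hinv]; exact Z.inv_mem ha }
  have hZB : ∀ z : BK K, z ∈ ZB ↔ v z ∈ Z := fun z => Iff.rfl
  have hsup : ∀ x : BK K, x ∈ D.range ⊔ ZB := by
    intro x
    apply mem_of_pow _ hcop
    · have h1 : x ^ Nat.card A = D x * N x := by rw [hD, inv_mul_cancel_right]
      rw [h1]
      exact mul_mem (mem_sup_left ⟨x, rfl⟩) (mem_sup_right (hNZ x))
    · apply mem_sup_right
      rw [hZB, hpow x n0]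
      exact hn0 _
  have hvB : ∀ x : K, v (v.symm x) = x := v.apply_symm_apply
  refine ⟨{x | v.symm x ∈ D.range}, ?_, ?_, ?_, ?_, ?_, ?_⟩
  · change v.symm 1 ∈ D.range
    rw [← hone, v.symm_apply_apply]
    exact D.range.one_mem
  · intro b hb
    change v.symm b⁻¹ ∈ D.range
    have h1 : v.symm b⁻¹ = (v.symm b)⁻¹ := v.injective (by rw [hinv, hvB, hvB])
    rw [h1]
    exact D.range.inv_mem hb
  · intro b hb c hc'
    change v.symm (b * c * b) ∈ D.range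
    have h2 : v.symm (b * c * b) = v.symm b * v.symm c * v.symm b := by
      apply v.injective
      rw [hvB, hmul, hmul, hvB, hvB]
      unfold bmul
      rw [comm_central_right hcc _ _ _ (pow_mem (hcc c b) _), comm_mul_right hcc]
      have h3 : ⁅b, b⁆ = 1 := commutatorElement_self b
      rw [h3, one_mul]
      have h4 : ⁅c, b⁆ = ⁅b, c⁆⁻¹ := (commutatorElement_inv b c).symm
      have h5 : b * c * ⁅c, b⁆ ^ (n + 1) * b = b * c * b * ⁅c, b⁆ ^ (n + 1) := by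
        rw [mul_assoc (b * c), ← mem_center_iff.mp (pow_mem (hcc c b) (n + 1)) b, ← mul_assoc]
      rw [h5, mul_assoc (b * c * b), h4, inv_pow, inv_mul_cancel, mul_one]
    rw [h2]
    exact D.range.mul_mem (D.range.mul_mem hb hc') hb
  · intro x
    obtain ⟨b, hb, z, hz, hx⟩ := Subgroup.mem_sup.1 (hsup (v.symm x))
    refine ⟨v b, ?_, v z, hz, ?_⟩
    · change v.symm (v b) ∈ D.range
      rw [v.symm_apply_apply]; exact hb
    · rw [← hmulz b z hz, hx, hvB]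
  · intro b hb c hc' hbc
    have h2 : v.symm b * v.symm (b⁻¹ * c) = v.symm c := by
      apply v.injective
      rw [hmulz _ _ (by rw [hvB]; exact hbc), hvB, hvB, hvB, mul_inv_cancel_left]
    have h1 : v.symm (b⁻¹ * c) ∈ D.range := by
      have : v.symm (b⁻¹ * c) = (v.symm b)⁻¹ * v.symm c := by rw [← h2, inv_mul_cancel_left]
      rw [this]
      exact D.range.mul_mem (D.range.inv_mem hb) hc'
    obtain ⟨x, hx⟩ := h1
    have h4 := hmeet x (by rw [hx, hvB]; exact hbc)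
    rw [hx] at h4
    have h5 := congrArg v h4
    rw [hvB, hone] at h5
    exact inv_mul_eq_one.1 h5
  · rintro g hg b ⟨x, hx⟩
    refine ⟨τ g x, ?_⟩
    apply v.injective
    rw [hvB]
    have hb : b = v (D x) := by rw [hx, hvB]
    rw [hb, ← hτ]
    congr 1
    rw [hD, hD, map_mul, map_inv, map_pow, hnorm g hg]


/-! ### inside a group -/

theorem nor_of {Y : Type u} [Group Y] [Finite Y] (H : Subgroup Y) (g : Y) (hg : ∀ k ∈ H, g * k * g⁻¹ ∈ H) :
    g ∈ normalizer (H : Set Y) := by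
  have h1 : ∀ (n : ℕ), ∀ k ∈ H, g ^ n * k * (g ^ n)⁻¹ ∈ H := by
    intro n
    induction n with
    | zero => intro k hk; simpa using hk
    | succ n ih =>
      intro k hk
      have := hg _ (ih k hk)
      rw [pow_succ']
      have e : g * g ^ n * k * (g * g ^ n)⁻¹ = g * (g ^ n * k * (g ^ n)⁻¹) * g⁻¹ := by group
      rw [e]; exact this
  rw [mem_normalizer_iff]
  intro k
  refine ⟨hg k, fun h => ?_⟩
  have h2 := h1 (orderOf g - 1) _ h
  have h3 : g ^ (orderOf g - 1) = g⁻¹ := by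
    rw [eq_inv_iff_mul_eq_one, ← pow_succ, Nat.sub_add_cancel (orderOf_pos g), pow_orderOf_eq_one]
  rw [h3] at h2
  have e : g⁻¹ * (g * k * g⁻¹) * g⁻¹⁻¹ = k := by group
  rwa [e] at h2

section inner

variable {Y : Type u} [Group Y] [Finite Y]

/-- a twisted transversal of `Z` in `K` -/
structure TWB (Z K : Subgroup Y) (B : Set Y) : Prop where
  sub : ∀ b ∈ B, b ∈ K
  one : 1 ∈ B
  inv : ∀ b ∈ B, b⁻¹ ∈ B
  tw : ∀ b ∈ B, ∀ c ∈ B, b * c * b ∈ B
  ex : ∀ x ∈ K, ∃ b ∈ B, ∃ z ∈ Z, x = b * z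
  un : ∀ b ∈ B, ∀ c ∈ B, b⁻¹ * c ∈ Z → b = c

theorem exists_BB (Z K S : Subgroup Y) (hZc : ∀ z ∈ Z, ∀ y, z * y = y * z) (hZK : Z ≤ K)
    (hKS : ∀ s ∈ S, ∀ k ∈ K, s * k * s⁻¹ ∈ K) (hc : ∀ x ∈ K, ∀ y ∈ K, x * y * x⁻¹ * y⁻¹ ∈ Z) {n0 m0 : ℕ}
    (hodd : Odd n0) (hcop : m0.Coprime n0) (hn0 : ∀ k ∈ K, k ^ n0 ∈ Z) (hm0 : ∀ s ∈ S, s ^ m0 ∈ Z)
    (hfree : ∀ x ∈ K, (∀ s ∈ S, s * x * s⁻¹ * x⁻¹ ∈ Z) → x ∈ Z) :
    ∃ B : Set Y, TWB Z K B ∧ ∀ g : Y, (∀ k ∈ K, g * k * g⁻¹ ∈ K) → (∀ s ∈ S, g * s * g⁻¹ ∈ S) →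
      ∀ b ∈ B, g * b * g⁻¹ ∈ B := by
  have hSN : S ≤ normalizer (K : Set Y) := fun s hs => nor_of K s (hKS s hs)
  let f := K.normalizerMonoidHom
  have hf : ∀ (x : normalizer (K : Set Y)) (k : K), ((f x k : K) : Y) = x * k * (x : Y)⁻¹ := fun x k => rfl
  let A : Subgroup (MulAut K) := (S.subgroupOf (normalizer (K : Set Y))).map f
  have hAcop : (Nat.card A).Coprime n0 := by
    apply Nat.coprime_of_dvd
    intro p hp h1 h2
    haveI : Fact p.Prime := ⟨hp⟩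
    obtain ⟨⟨_, ⟨⟨s, hsN⟩, hs, rfl⟩⟩, ha⟩ := exists_prime_orderOf_dvd_card' p h1
    have h3 : (f ⟨s, hsN⟩) ^ m0 = 1 := by
      rw [← map_pow]
      apply MulEquiv.ext
      intro k
      apply Subtype.ext
      rw [hf]
      change s ^ m0 * k * (s ^ m0)⁻¹ = k
      rw [hZc _ (hm0 s hs), mul_inv_cancel_right]
    have h4 : orderOf (f ⟨s, hsN⟩) ∣ m0 := orderOf_dvd_of_pow_eq_one h3
    have h5 : orderOf (f ⟨s, hsN⟩) = p := by
      rw [← ha]
      exact (Subgroup.orderOf_coe (⟨f ⟨s, hsN⟩, _⟩ : A))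
    rw [h5] at h4
    exact hp.one_lt.ne' (Nat.eq_one_of_dvd_coprimes hcop h4 h2)
  obtain ⟨B, hB1, hB2, hB3, hB4, hB5, hB6⟩ := exists_B (K := K) (Z.subgroupOf K) (by
      intro z hz
      rw [mem_center_iff]
      intro y
      exact Subtype.ext (hZc _ hz _).symm) (fun x y => hc x x.2 y y.2) n0 hodd (fun x => hn0 x x.2) A hAcop (by
      rintro _ ⟨⟨s, hsN⟩, hs, rfl⟩ z hz
      apply Subtype.ext
      rw [hf]
      change s * z * s⁻¹ = z
      rw [← hZc z hz s, mul_inv_cancel_right]) (by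
      intro x hx
      apply hfree x x.2
      intro s hs
      exact hx (f ⟨s, hSN hs⟩) ⟨⟨s, hSN hs⟩, hs, rfl⟩)
  refine ⟨Subtype.val '' B, ⟨?_, ?_, ?_, ?_, ?_, ?_⟩, ?_⟩
  · rintro _ ⟨b, -, rfl⟩; exact b.2
  · exact ⟨1, hB1, rfl⟩
  · rintro _ ⟨b, hb, rfl⟩; exact ⟨b⁻¹, hB2 b hb, rfl⟩
  · rintro _ ⟨b, hb, rfl⟩ _ ⟨c, hc', rfl⟩; exact ⟨b * c * b, hB3 b hb c hc', rfl⟩
  · intro x hx
    obtain ⟨b, hb, z, hz, h⟩ := hB4 ⟨x, hx⟩
    exact ⟨b, ⟨b, hb, rfl⟩, z, hz, congrArg Subtype.val h⟩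
  · rintro _ ⟨b, hb, rfl⟩ _ ⟨c, hc', rfl⟩ h
    exact congrArg Subtype.val (hB5 b hb c hc' h)
  · rintro g hgK hgS _ ⟨b, hb, rfl⟩
    have hgN := nor_of K g hgK
    refine ⟨f ⟨g, hgN⟩ b, hB6 _ ?_ b hb, rfl⟩
    apply nor_of A
    rintro _ ⟨⟨s, hsN⟩, hs, rfl⟩
    refine ⟨⟨g, hgN⟩ * ⟨s, hsN⟩ * ⟨g, hgN⟩⁻¹, hgS s hs, ?_⟩
    rw [map_mul, map_mul, map_inv]

theorem TB_of {Z K B} (hB : TWB Z K B) (G H : Subgroup Y) (hZc : ∀ z ∈ Z, ∀ y, z * y = y * z)
    (hc : ∀ x ∈ K, ∀ y ∈ K, x * y * x⁻¹ * y⁻¹ ∈ Z) {n0 : ℕ}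
    (hodd : Odd n0) (hn0 : ∀ k ∈ K, k ^ n0 ∈ Z) (hKG : K ≤ G) (hHG : H ≤ G) (hZH : Z ≤ H) (hGKH : ∀ g ∈ G, ∃ k ∈ K, ∃ h ∈ H, g = k * h)
    (hKH : ∀ x ∈ K, x ∈ H → x ∈ Z) (hnH : ∀ h ∈ H, h ^ n0 ∈ Z) (hKH' : ∀ h ∈ H, ∀ k ∈ K, h * k * h⁻¹ ∈ K)
    (hcj : ∀ h ∈ H, ∀ b ∈ B, h * b * h⁻¹ ∈ B)
    (B' : Finset G) (hB' : ∀ g : G, g ∈ B' ↔ (g : Y) ∈ B) : TB (H.subgroupOf G) B' := by
  classical
  have _ := Fintype.ofFinite G
  have _ := Fintype.ofFinite (H.subgroupOf G)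
  -- the bijection `(b, h) ↦ b h`
  have hcard : Nat.card G = B'.card * Nat.card (H.subgroupOf G) := by
    have hbij : Function.Bijective (fun x : B' × H.subgroupOf G => (x.1 : G) * (x.2 : G)) := by
      constructor
      · rintro ⟨⟨b, hb⟩, ⟨h, hh⟩⟩ ⟨⟨c, hc'⟩, ⟨k, hk⟩⟩ hbh
        have h1 : (b : Y) * h = c * k := congrArg Subtype.val hbh
        rw [hB'] at hb hc'
        have h2 : (c : Y)⁻¹ * b = k * (h : Y)⁻¹ := by
          rw [inv_mul_eq_iff_eq_mul, ← mul_assoc, ← h1, mul_inv_cancel_right]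
        have h3 : (c : Y)⁻¹ * b ∈ Z := by
          apply hKH
          · exact K.mul_mem (K.inv_mem (hB.sub _ hc')) (hB.sub _ hb)
          · rw [h2]; exact H.mul_mem hk (H.inv_mem hh)
        have h4 : c = b := Subtype.ext (hB.un _ hc' _ hb h3)
        subst h4
        have h5 : h = k := Subtype.ext (mul_left_cancel h1)
        subst h5
        rfl
      · intro g
        obtain ⟨k, hk, h, hh, hg⟩ := hGKH g g.2
        obtain ⟨b, hb, z, hz, hbz⟩ := hB.ex k hk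
        refine ⟨⟨⟨⟨b, hKG (hB.sub b hb)⟩, (hB' _).2 hb⟩, ⟨⟨z * h, hHG (H.mul_mem (hZH hz) hh)⟩, H.mul_mem (hZH hz) hh⟩⟩, ?_⟩
        apply Subtype.ext
        change b * (z * h) = g
        rw [hg, hbz, mul_assoc]
    have := Nat.card_eq_of_bijective _ hbij
    rw [Nat.card_prod, Nat.card_eq_fintype_card, Fintype.card_coe] at this
    exact this.symm
  -- `u (h u h⁻¹) ∈ Z` implies `u ∈ Z`
  have hinvert : ∀ h ∈ H, ∀ u ∈ K, u * (h * u * h⁻¹) ∈ Z → u ∈ Z := by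
    intro h hh u hu h1
    have h2 : ∀ i : ℕ, ∃ z ∈ Z, h ^ i * u * (h ^ i)⁻¹ = (if Even i then u else u⁻¹) * z := by
      intro i
      induction i with
      | zero => exact ⟨1, Z.one_mem, by simp⟩
      | succ i ih =>
        obtain ⟨z, hz, hi⟩ := ih
        have e : h ^ (i + 1) * u * (h ^ (i + 1))⁻¹ = h * (h ^ i * u * (h ^ i)⁻¹) * h⁻¹ := by
          rw [pow_succ']; group
        rw [e, hi]
        obtain ⟨w, hw, hw'⟩ : ∃ w ∈ Z, h * u * h⁻¹ = u⁻¹ * w := ⟨_, h1, by group⟩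
        by_cases hev : Even i
        · rw [if_pos hev, if_neg (by rw [Nat.even_add_one]; simpa using hev)]
          refine ⟨w * z, Z.mul_mem hw hz, ?_⟩
          calc h * (u * z) * h⁻¹ = (h * u * h⁻¹) * (h * z * h⁻¹) := by group
            _ = u⁻¹ * w * z := by rw [hw', ← hZc z hz h, mul_inv_cancel_right]
            _ = _ := by rw [mul_assoc]
        · rw [if_neg hev, if_pos (by rw [Nat.even_add_one]; exact hev)]
          refine ⟨w⁻¹ * z, Z.mul_mem (Z.inv_mem hw) hz, ?_⟩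
          calc h * (u⁻¹ * z) * h⁻¹ = (h * u * h⁻¹)⁻¹ * (h * z * h⁻¹) := by group
            _ = (u⁻¹ * w)⁻¹ * z := by rw [hw', ← hZc z hz h, mul_inv_cancel_right]
            _ = w⁻¹ * u * z := by rw [mul_inv_rev, inv_inv]
            _ = u * w⁻¹ * z := by rw [hZc _ (Z.inv_mem hw)]
            _ = _ := by rw [mul_assoc]
    obtain ⟨z, hz, h3⟩ := h2 n0
    rw [if_neg (Nat.not_even_iff_odd.2 hodd), hZc _ (hnH h hh) u, mul_inv_cancel_right] at h3
    have h4 : u ^ 2 ∈ Z := by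
      rw [pow_two]
      nth_rewrite 2 [h3]
      rw [mul_inv_cancel_left]
      exact hz
    have h5 : Nat.Coprime 2 n0 := (Nat.coprime_two_left).2 hodd
    exact mem_of_pow Z h5 h4 (hn0 u hu)
  have hinj : Function.Injective (fun x : B' × H.subgroupOf G => (x.1 : G) * (x.2 : G) * (x.1 : G)) := by
    rintro ⟨⟨b, hb⟩, ⟨h, hh⟩⟩ ⟨⟨c, hc'⟩, ⟨k, hk⟩⟩ hbh
    have h1 : (b : Y) * h * b = c * k * c := congrArg Subtype.val hbh
    rw [hB'] at hb hc'
    have hh' : (h : Y) ∈ H := hh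
    have hk' : (k : Y) ∈ H := hk
    have hbK := hB.sub _ hb
    have hcK := hB.sub _ hc'
    -- `k = h z`
    have h2 : (h : Y)⁻¹ * k ∈ Z := by
      apply hKH _ _ (H.mul_mem (H.inv_mem hh') hk')
      have h3 : (h : Y)⁻¹ * k = ((h : Y)⁻¹ * ((c : Y)⁻¹ * b) * (h : Y)⁻¹⁻¹) * b * (c : Y)⁻¹ := by
        have : (k : Y) = (c : Y)⁻¹ * (b * h * b) * (c : Y)⁻¹ := by rw [h1]; group
        rw [this]; group
      rw [h3]
      exact K.mul_mem (K.mul_mem (hKH' _ (H.inv_mem hh') _ (K.mul_mem (K.inv_mem hcK) hbK)) hbK) (K.inv_mem hcK)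
    obtain ⟨z, hz, hkz⟩ : ∃ z ∈ Z, (k : Y) = h * z := ⟨_, h2, by group⟩
    have h4 : (c : Y)⁻¹ * b ∈ Z := by
      apply hinvert _ hh' _ (K.mul_mem (K.inv_mem hcK) hbK)
      obtain ⟨u, hu⟩ : ∃ u : Y, u = (c : Y)⁻¹ * b := ⟨_, rfl⟩
      rw [← hu]
      have huK : u ∈ K := by rw [hu]; exact K.mul_mem (K.inv_mem hcK) hbK
      have hbu : (b : Y) = c * u := by rw [hu]; group
      -- `b h b h⁻¹ = c h c h⁻¹ z`
      have h5 : c * u * ((h : Y) * c * (h : Y)⁻¹) * ((h : Y) * u * (h : Y)⁻¹) = c * ((h : Y) * c * (h : Y)⁻¹) * z := by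
        have e1 : c * u * ((h : Y) * c * (h : Y)⁻¹) * ((h : Y) * u * (h : Y)⁻¹) = (b * h * b) * (h : Y)⁻¹ := by
          rw [hbu]; group
        rw [e1, h1, hkz]
        have e2 : c * ((h : Y) * z) * c * (h : Y)⁻¹ = c * h * (z * (c * (h : Y)⁻¹)) := by group
        rw [e2, hZc z hz]
        group
      have hcc : (h : Y) * c * (h : Y)⁻¹ ∈ K := hKH' _ hh' _ hcK
      obtain ⟨w, hw⟩ : ∃ w : Y, w = (h : Y) * c * (h : Y)⁻¹ := ⟨_, rfl⟩
      rw [← hw] at h5 hcc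
      have h6 := hc u huK w hcc
      obtain ⟨t, ht⟩ : ∃ t : Y, t = u * w * u⁻¹ * w⁻¹ := ⟨_, rfl⟩
      rw [← ht] at h6
      have h7 : u * w = t * (w * u) := by rw [ht]; group
      have h8 : u * ((h : Y) * u * (h : Y)⁻¹) = t⁻¹ * z := by
        have h9 : c * (u * w) * ((h : Y) * u * (h : Y)⁻¹) = c * w * z := by rw [← h5]; group
        rw [h7] at h9
        have h10 : t * (w * (u * ((h : Y) * u * (h : Y)⁻¹))) = w * z := by
          apply mul_left_cancel (a := (c : Y))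
          calc _ = c * (t * (w * u)) * ((h : Y) * u * (h : Y)⁻¹) := by group
            _ = _ := by rw [h9]; group
        rw [← mul_assoc t w, hZc t h6 w, mul_assoc w t] at h10
        have h11 := mul_left_cancel h10
        rw [← h11, inv_mul_cancel_left]
      rw [h8]
      exact Z.mul_mem (Z.inv_mem h6) hz
    have h5 : c = b := Subtype.ext (hB.un _ hc' _ hb h4)
    subst h5
    have h6 : h = k := Subtype.ext (mul_left_cancel (mul_right_cancel h1))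
    subst h6
    rfl
  have hsurj : Function.Surjective (fun x : B' × H.subgroupOf G => (x.1 : G) * (x.2 : G) * (x.1 : G)) := by
    have hc2 : Fintype.card (B' × H.subgroupOf G) = Fintype.card G := by
      rw [← Nat.card_eq_fintype_card, ← Nat.card_eq_fintype_card, hcard, Nat.card_prod, Nat.card_eq_fintype_card (α := B'),
        Fintype.card_coe]
    exact ((Fintype.bijective_iff_injective_and_card _).2 ⟨hinj, hc2⟩).2
  refine ⟨(hB' _).2 hB.one, ?_, ?_, ?_, ?_, hcard⟩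
  · intro b hb; rw [hB'] at hb ⊢; exact hB.inv _ hb
  · intro b hb c hc'; rw [hB'] at hb hc' ⊢; exact hB.tw _ hb _ hc'
  · intro h hh b hb; rw [hB'] at hb ⊢; exact hcj _ hh _ hb
  · intro g
    obtain ⟨⟨⟨b, hb⟩, ⟨h, hh⟩⟩, hbh⟩ := hsurj g
    exact ⟨b, hb, h, hh, hbh.symm⟩

end inner

end Cfsg.Agent.Lib.IsaOdd
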