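import Mathlib
import Cfsg.Agent.Lib.IsaOdd2
import Cfsg.Agent.Lib.IsaOdd3

/-!
# The parity correspondence over an invariant character (helper78)
-/

set_option autoImplicit false
set_option linter.all false

namespace Cfsg.Agent.Lib.IsaOdd

open Cfsg Cfsg.Agent.Lib.CharBasic Cfsg.Agent.Lib.Clifford
open scoped ComplexConjugate

universe u

/-! ### wrappers -/

section wrap

variable {Y : Type u} [Group Y] [Finite Y] {G H : Subgroup Y}

/-- linked characters of subgroups -/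
def LnkY (hHG : H ≤ G) (B : Finset G) (χ : G → ℂ) (ψ : H → ℂ) : Prop :=
  ∃ d : ℂ, d ≠ 0 ∧ ∀ h : H, tau B χ ⟨h, hHG h.2⟩ = d * ψ h

theorem irr_subOf (hHG : H ≤ G) (ψ : IrrCharacter H) :
    IsIrrCharacter (H.subgroupOf G) (fun n => (ψ : H → ℂ) (Subgroup.subgroupOfEquivOfLe hHG n)) :=
  GlaubPerm.irr_subgroupOf hHG ψ.2

theorem irr_subOf' (hHG : H ≤ G) (ψ : IrrCharacter (H.subgroupOf G)) :
    IsIrrCharacter H (fun n => (ψ : H.subgroupOf G → ℂ) ((Subgroup.subgroupOfEquivOfLe hHG).symm n)) :=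
  ψ.2.comp_surjective (Subgroup.subgroupOfEquivOfLe hHG).symm.toMonoidHom (Subgroup.subgroupOfEquivOfLe hHG).symm.surjective

theorem lnkY_iff (hHG : H ≤ G) {B : Finset G} {χ : G → ℂ} {ψ : H → ℂ} :
    LnkY hHG B χ ψ ↔ Lnk (H.subgroupOf G) B χ (fun n => ψ (Subgroup.subgroupOfEquivOfLe hHG n)) := by
  constructor
  · rintro ⟨d, hd, h⟩
    exact ⟨d, hd, fun n => h (Subgroup.subgroupOfEquivOfLe hHG n)⟩
  · rintro ⟨d, hd, h⟩
    exact ⟨d, hd, fun n => h ((Subgroup.subgroupOfEquivOfLe hHG).symm n)⟩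

theorem W1 (hHG : H ≤ G) {B : Finset G} (hB : TB (H.subgroupOf G) B) [Fintype H] {χ : G → ℂ} (hχ : IsIrrCharacter G χ)
    (h0 : ∃ g, tau B χ g ≠ 0) :
    ∃ ψ : IrrCharacter H, LnkY hHG B χ (ψ : H → ℂ) ∧
      (∃ m : ℕ, Odd m ∧ classInner (fun h : H => χ ⟨h, hHG h.2⟩) (ψ : H → ℂ) = m) ∧
      ∀ ψ' : IrrCharacter H, ψ' ≠ ψ →
        ∃ m : ℕ, Even m ∧ classInner (fun h : H => χ ⟨h, hHG h.2⟩) (ψ' : H → ℂ) = m := by
  classical
  have := Fintype.ofFinite G
  have := Fintype.ofFinite (H.subgroupOf G)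
  obtain ⟨ψ, h1, ⟨m, hm, h2⟩, h3⟩ := exists_lnk hB hχ h0
  refine ⟨⟨_, irr_subOf' hHG ψ⟩, ?_, ⟨m, hm, ?_⟩, ?_⟩
  · rw [lnkY_iff]
    exact h1
  · rw [← h2, ← GlaubPerm.inner_subgroupOf hHG]
    rfl
  · intro ψ' hne
    obtain ⟨k, hk, h4⟩ := h3 ⟨_, irr_subOf hHG ψ'⟩ (by
      rintro rfl
      exact hne (Subtype.ext rfl))
    refine ⟨k, hk, ?_⟩
    rw [← h4, ← GlaubPerm.inner_subgroupOf hHG]

theorem W2 (hHG : H ≤ G) {B : Finset G} (hB : TB (H.subgroupOf G) B) {χ χ' : IrrCharacter G} {ψ : IrrCharacter H}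
    (h : LnkY hHG B (χ : G → ℂ) (ψ : H → ℂ)) (h' : LnkY hHG B (χ' : G → ℂ) (ψ : H → ℂ)) : χ = χ' := by
  classical
  have := Fintype.ofFinite G
  have := Fintype.ofFinite (H.subgroupOf G)
  exact lnk_inj hB (ψ := ⟨_, irr_subOf hHG ψ⟩) ((lnkY_iff hHG).1 h) ((lnkY_iff hHG).1 h')

theorem W3 (hHG : H ≤ G) {B : Finset G} (hB : TB (H.subgroupOf G) B) (ψ : IrrCharacter H) :
    ∃ χ : IrrCharacter G, LnkY hHG B (χ : G → ℂ) (ψ : H → ℂ) := by
  classical
  have := Fintype.ofFinite G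
  have := Fintype.ofFinite (H.subgroupOf G)
  obtain ⟨χ, h⟩ := exists_lnk' hB ⟨_, irr_subOf hHG ψ⟩
  exact ⟨χ, (lnkY_iff hHG).2 h⟩

/-- linked characters are unique on the side of `H` -/
theorem W4 (hHG : H ≤ G) {B : Finset G} {χ : G → ℂ} {ψ ψ' : IrrCharacter H}
    (h : LnkY hHG B χ (ψ : H → ℂ)) (h' : LnkY hHG B χ (ψ' : H → ℂ)) : ψ = ψ' := by
  classical
  have := Fintype.ofFinite H
  by_contra hne
  obtain ⟨d, hd, h1⟩ := h
  obtain ⟨d', hd', h2⟩ := h'
  have h3 : (ψ : H → ℂ) = (d⁻¹ * d') • (ψ' : H → ℂ) := by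
    funext x
    rw [Pi.smul_apply, smul_eq_mul, mul_assoc, ← h2, h1, inv_mul_cancel_left₀ hd]
  have h4 : classInner (ψ : H → ℂ) (ψ' : H → ℂ) = d⁻¹ * d' := by
    rw [h3, classInner_smul_left, ψ'.2.classInner_self, mul_one]
  rw [irr_orthonormal, if_neg hne] at h4
  exact mul_ne_zero (inv_ne_zero hd) hd' h4.symm

/-- the scalar of a central element -/
theorem exists_scalar {X : Type u} [Group X] [Finite X] {χ : X → ℂ} (hχ : IsIrrCharacter X χ) {z : X}
    (hz : ∀ x, z * x = x * z) : ∃ w : ℂ, ∀ x, χ (z * x) = w * χ x := by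
  have hzc : (MonoidAlgebra.single z (1 : ℂ)) ∈ Subalgebra.center ℂ (BlockGA.GA X) := by
    rw [Subalgebra.mem_center_iff]
    intro w
    induction w using MonoidAlgebra.induction_linear with
    | zero => simp
    | add a b ha hb => rw [add_mul, mul_add, ha, hb]
    | single g a =>
      rw [MonoidAlgebra.single_mul_single, MonoidAlgebra.single_mul_single, mul_comm a, hz]
  refine ⟨BlockGA.omega χ (MonoidAlgebra.single z (1 : ℂ)), fun g => ?_⟩
  rw [← BlockGA.lin_mul_single hχ hzc, MonoidAlgebra.single_mul_single, BlockGA.lin_single, one_mul, one_mul]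

/-- conjugation by a normalizing element -/
noncomputable def cjE (X : Subgroup Y) (s : Y) (hs : ∀ x ∈ X, s * x * s⁻¹ ∈ X) : X →* X where
  toFun x := ⟨s * x * s⁻¹, hs x x.2⟩
  map_one' := Subtype.ext (by simp)
  map_mul' a b := Subtype.ext (by simp [mul_assoc])

theorem cjE_surj (X : Subgroup Y) (s : Y) (hs : ∀ x ∈ X, s * x * s⁻¹ ∈ X) : Function.Surjective (cjE X s hs) := by
  apply Finite.surjective_of_injective
  intro a b hab
  have h1 : s * (a : Y) * s⁻¹ = s * b * s⁻¹ := congrArg Subtype.val hab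
  exact Subtype.ext (mul_left_cancel (mul_right_cancel h1))

/-- conjugate character -/
noncomputable def cjI (X : Subgroup Y) (s : Y) (hs : ∀ x ∈ X, s * x * s⁻¹ ∈ X) (χ : IrrCharacter X) : IrrCharacter X :=
  ⟨fun x => (χ : X → ℂ) (cjE X s hs x), χ.2.comp_surjective _ (cjE_surj X s hs)⟩

theorem tau_cj {B : Finset G} (s : Y) (hs : ∀ x ∈ G, s * x * s⁻¹ ∈ G) (hBs : ∀ b ∈ B, ∀ b' : G, (b' : Y) = s * b * s⁻¹ → b' ∈ B)
    (χ : IrrCharacter G) (g : G) : tau B (cjI G s hs χ : G → ℂ) g = tau B (χ : G → ℂ) (cjE G s hs g) := by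
  classical
  unfold tau
  have hinj : Function.Injective (cjE G s hs) := by
    intro a b hab
    have h1 : s * (a : Y) * s⁻¹ = s * b * s⁻¹ := congrArg Subtype.val hab
    exact Subtype.ext (mul_left_cancel (mul_right_cancel h1))
  have himg : B.image (cjE G s hs) = B := by
    apply Finset.eq_of_subset_of_card_le
    · intro x hx
      obtain ⟨b, hb, rfl⟩ := Finset.mem_image.1 hx
      exact hBs b hb _ rfl
    · rw [Finset.card_image_of_injective _ hinj]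
  conv_rhs => rw [← himg]
  rw [Finset.sum_image (fun a _ b _ h => hinj h)]
  refine Finset.sum_congr rfl fun b _ => ?_
  change (χ : G → ℂ) (cjE G s hs (b * g)) = _
  rw [map_mul]

end wrap

end Cfsg.Agent.Lib.IsaOdd
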