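import Mathlib
import Cfsg.Agent.Lib.IsaOdd4
import Cfsg.Agent.Lib.CliffordCorr

/-!
# The parity correspondence over an invariant character, II (helper78)
-/

set_option autoImplicit false
set_option linter.all false

namespace Cfsg.Agent.Lib.IsaOdd

open Cfsg Cfsg.Agent.Lib.CharBasic Cfsg.Agent.Lib.Clifford
open scoped ComplexConjugate

universe u

section

variable {Γ : Type u} [Group Γ] [Finite Γ] {R L : Subgroup Γ} {φ : L → ℂ} (t : TD R L φ)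

namespace TD

theorem rel_inj_right (hφ : IsIrrCharacter L φ) {X : Subgroup Γ} (hLX : L ≤ X) (hXR : X ≤ R) {χ : X → ℂ}
    (hχ : IsIrrCharacter X χ) {β β' : IrrCharacter (t.bar X)} (h : t.Rel X χ (β : t.bar X → ℂ))
    (h' : t.Rel X χ (β' : t.bar X → ℂ)) : β = β' := by
  classical
  have := Fintype.ofFinite X
  have := Fintype.ofFinite (t.bar X)
  have h1 := t.isom hφ hLX le_rfl hXR h h'
  have h2 : classInner (β : t.bar X → ℂ) (β' : t.bar X → ℂ) = 1 := by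
    rw [← hχ.classInner_self]
    exact h1.symm
  by_contra hne
  rw [irr_orthonormal, if_neg hne] at h2
  exact zero_ne_one h2

theorem rel_inj_left {X : Subgroup Γ} (hXR : X ≤ R) {χ χ' : X → ℂ} {β : t.bar X → ℂ} (h : t.Rel X χ β)
    (h' : t.Rel X χ' β) : χ = χ' := by
  funext x
  obtain ⟨⟨y, hy⟩, rfl⟩ := t.f_surj hXR x
  exact (h y hy).trans (h' y hy).symm

theorem bar_cj {X : Subgroup Γ} {y0 : t.Y} (hy0 : ∀ x ∈ X, t.p y0 * x * (t.p y0)⁻¹ ∈ X) :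
    ∀ x ∈ t.bar X, t.q y0 * x * (t.q y0)⁻¹ ∈ t.bar X := by
  rintro _ ⟨y, hy, rfl⟩
  rw [← map_mul, ← map_inv, ← map_mul]
  apply t.mem_bar
  rw [map_mul, map_mul, map_inv]
  exact hy0 _ hy

theorem cj_right (hφ : IsIrrCharacter L φ) {X : Subgroup Γ} (hLX : L ≤ X) (hXR : X ≤ R) {χ : X → ℂ}
    (hχ : IsIrrCharacter X χ) {β : IrrCharacter (t.bar X)} (h : t.Rel X χ (β : t.bar X → ℂ)) {y0 : t.Y}
    (hy0 : ∀ x ∈ X, t.p y0 * x * (t.p y0)⁻¹ ∈ X)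
    (hinv : ∀ x x' : X, (x' : Γ) = t.p y0 * x * (t.p y0)⁻¹ → χ x' = χ x) :
    ∀ u u' : t.bar X, (u' : t.Yb) = t.q y0 * u * (t.q y0)⁻¹ → (β : t.bar X → ℂ) u' = (β : t.bar X → ℂ) u := by
  have h1 : cjI (t.bar X) (t.q y0) (t.bar_cj hy0) β = β := by
    refine t.rel_inj_right hφ hLX hXR hχ (χ := χ) ?_ h
    intro y hy
    have hy' : t.p (y0 * y * y0⁻¹) ∈ X := by
      rw [map_mul, map_mul, map_inv]; exact hy0 _ hy
    have h2 := h _ hy'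
    have h3 := hinv ⟨t.p y, hy⟩ ⟨t.p (y0 * y * y0⁻¹), hy'⟩ (by simp only [map_mul, map_inv])
    rw [← h3, h2, t.ρ_char.isClassFunction y y0]
    refine congrArg (fun z => (β : t.bar X → ℂ) z * t.ρ y) (Subtype.ext ?_)
    change t.q (y0 * y * y0⁻¹) = t.q y0 * t.q y * (t.q y0)⁻¹
    rw [map_mul, map_mul, map_inv]
  intro u u' hu
  have h4 : u' = cjE (t.bar X) (t.q y0) (t.bar_cj hy0) u := Subtype.ext hu
  conv_rhs => rw [← h1]
  rw [h4]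
  rfl

theorem cj_left {X : Subgroup Γ} (hXR : X ≤ R) {χ : X → ℂ}
    {β : t.bar X → ℂ} (h : t.Rel X χ β) {y0 : t.Y}
    (hinv : ∀ u u' : t.bar X, (u' : t.Yb) = t.q y0 * u * (t.q y0)⁻¹ → β u' = β u) :
    ∀ x x' : X, (x' : Γ) = t.p y0 * x * (t.p y0)⁻¹ → χ x' = χ x := by
  intro x x' hx
  obtain ⟨⟨y, hy⟩, rfl⟩ := t.f_surj hXR x
  have hy' : t.p (y0 * y * y0⁻¹) ∈ X := by
    rw [map_mul, map_mul, map_inv]
    have : (t.f X ⟨y, hy⟩ : Γ) = t.p y := rfl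
    rw [this] at hx
    rw [← hx]; exact x'.2
  have h1 : x' = ⟨t.p (y0 * y * y0⁻¹), hy'⟩ := by
    apply Subtype.ext
    rw [hx]
    change t.p y0 * t.p y * (t.p y0)⁻¹ = t.p (y0 * y * y0⁻¹)
    rw [map_mul, map_mul, map_inv]
  rw [h1, h _ hy']
  change _ = χ ⟨t.p y, hy⟩
  rw [h y hy]
  congr 1
  · apply hinv
    change t.q (y0 * y * y0⁻¹) = t.q y0 * t.q y * (t.q y0)⁻¹
    rw [map_mul, map_mul, map_inv]
  · exact t.ρ_char.isClassFunction _ _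

end TD

end

/-- the standing hypothesis -/
structure Hyp {Γ : Type u} [Group Γ] (S G K L H : Subgroup Γ) : Prop where
  LK : L ≤ K
  KG : K ≤ G
  LH : L ≤ H
  HG : H ≤ G
  GKH : ∀ g ∈ G, ∃ k ∈ K, ∃ h ∈ H, g = k * h
  KH : ∀ x ∈ K, x ∈ H → x ∈ L
  ab : ∀ a ∈ K, ∀ b ∈ K, a * b * a⁻¹ * b⁻¹ ∈ L
  nGK : ∀ g ∈ G, ∀ k ∈ K, g * k * g⁻¹ ∈ K
  nGL : ∀ g ∈ G, ∀ k ∈ L, g * k * g⁻¹ ∈ L
  nSG : ∀ s ∈ S, ∀ k ∈ G, s * k * s⁻¹ ∈ G
  nSK : ∀ s ∈ S, ∀ k ∈ K, s * k * s⁻¹ ∈ K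
  nSL : ∀ s ∈ S, ∀ k ∈ L, s * k * s⁻¹ ∈ L
  nSH : ∀ s ∈ S, ∀ k ∈ H, s * k * s⁻¹ ∈ H
  cHS : ∀ h ∈ H, ∀ s ∈ S, h * s * h⁻¹ * s⁻¹ ∈ L
  free : ∀ x ∈ K, (∀ s ∈ S, s * x * s⁻¹ * x⁻¹ ∈ L) → x ∈ L
  odd : Odd (Nat.card G)
  cop : (Nat.card G).Coprime (Nat.card S)
  sol : Group.IsSolvable G

/-- invariance under `S` -/
def Inv {Γ : Type u} [Group Γ] (S X : Subgroup Γ) (χ : X → ℂ) : Prop :=
  ∀ s ∈ S, ∀ g g' : X, (g' : Γ) = s * g * s⁻¹ → χ g' = χ g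

section main

variable {Γ : Type u} [Group Γ] [Finite Γ] {S G K L H : Subgroup Γ} {φ : L → ℂ}

theorem Hyp.norR (h : Hyp S G K L H) : ∀ g ∈ G ⊔ S, ∀ k ∈ K, g * k * g⁻¹ ∈ K := by
  have h1 : G ⊔ S ≤ Subgroup.normalizer (K : Set Γ) :=
    sup_le (fun g hg => nor_of K g (h.nGK g hg)) (fun s hs => nor_of K s (h.nSK s hs))
  intro g hg k hk
  exact (Subgroup.mem_normalizer_iff.1 (h1 hg) k).1 hk

theorem Hyp.bar_TB (h : Hyp S G K L H) (t : TD (G ⊔ S) L φ) :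
    ∃ B : Set t.Yb, (∀ B' : Finset (t.bar G), (∀ g : t.bar G, g ∈ B' ↔ (g : t.Yb) ∈ B) →
        TB ((t.bar H).subgroupOf (t.bar G)) B') ∧
      (∀ B' : Finset (t.bar K), (∀ g : t.bar K, g ∈ B' ↔ (g : t.Yb) ∈ B) →
        TB ((t.bar L).subgroupOf (t.bar K)) B') ∧ (∀ b ∈ B, b ∈ t.bar K) ∧
      (∀ y : t.Y, (t.p y ∈ H ∨ t.p y ∈ S) → ∀ b ∈ B, t.q y * b * (t.q y)⁻¹ ∈ B) := by
  have hGR : G ≤ G ⊔ S := le_sup_left
  have hSR : S ≤ G ⊔ S := le_sup_right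
  have hRange : ∀ g ∈ G ⊔ S, ∃ y, t.p y = g := by
    intro g hg
    rw [← t.p_range] at hg
    exact hg
  have hZc : ∀ z ∈ t.bar L, ∀ y : t.Yb, z * y = y * z := by
    rintro _ ⟨z, hz, rfl⟩ y
    obtain ⟨y, rfl⟩ := t.q_surj y
    obtain ⟨l, hl⟩ : ∃ l : L, (l : Γ) = t.p z := ⟨⟨t.p z, hz⟩, rfl⟩
    have h1 : z * (t.j l)⁻¹ ∈ t.p.ker := by
      rw [MonoidHom.mem_ker, map_mul, map_inv, t.p_j, hl, mul_inv_cancel]
    have h2 : t.q z = t.q (z * (t.j l)⁻¹) := by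
      rw [map_mul, map_inv, t.q_j, inv_one, mul_one]
    rw [h2, ← map_mul, ← map_mul, t.central _ h1]
  have hpow : ∀ X : Subgroup Γ, X ≤ G → ∀ k ∈ t.bar X, k ^ Nat.card G ∈ t.bar L := by
    rintro X hX _ ⟨y, hy, rfl⟩
    rw [← map_pow]
    apply t.mem_bar
    rw [map_pow]
    have h1 : (⟨t.p y, hX hy⟩ : G) ^ Nat.card G = 1 := pow_card_eq_one'
    have h2 : t.p y ^ Nat.card G = 1 := congrArg Subtype.val h1
    rw [h2]; exact L.one_mem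
  have hpowS : ∀ k ∈ t.bar S, k ^ Nat.card S ∈ t.bar L := by
    rintro _ ⟨y, hy, rfl⟩
    rw [← map_pow]
    apply t.mem_bar
    rw [map_pow]
    have h1 : (⟨t.p y, hy⟩ : S) ^ Nat.card S = 1 := pow_card_eq_one'
    have h2 : t.p y ^ Nat.card S = 1 := congrArg Subtype.val h1
    rw [h2]; exact L.one_mem
  have hc : ∀ x ∈ t.bar K, ∀ y ∈ t.bar K, x * y * x⁻¹ * y⁻¹ ∈ t.bar L := by
    rintro _ ⟨x, hx, rfl⟩ _ ⟨y, hy, rfl⟩
    rw [← map_mul, ← map_inv, ← map_inv, ← map_mul, ← map_mul]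
    apply t.mem_bar
    simp only [map_mul, map_inv]
    exact h.ab _ hx _ hy
  obtain ⟨B, hB, hBg⟩ := exists_BB (t.bar L) (t.bar K) (t.bar S) hZc (t.bar_mono h.LK) (by
      rintro _ ⟨s, hs, rfl⟩ k hk
      exact t.bar_cj (fun x hx => h.nSK _ hs x hx) k hk) hc h.odd h.cop.symm (hpow K h.KG) hpowS (by
      rintro _ ⟨x, hx, rfl⟩ hx2
      apply t.mem_bar
      apply h.free _ hx
      intro s hs
      obtain ⟨y, rfl⟩ := hRange s (hSR hs)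
      have h1 := hx2 _ (t.mem_bar hs)
      rw [← map_mul, ← map_inv, ← map_inv, ← map_mul, ← map_mul, t.mem_bar_iff le_rfl] at h1
      simpa only [map_mul, map_inv] using h1)
  have hBcj : ∀ y : t.Y, (t.p y ∈ H ∨ t.p y ∈ S) → ∀ b ∈ B, t.q y * b * (t.q y)⁻¹ ∈ B := by
    intro y hy
    apply hBg
    · apply t.bar_cj
      rcases hy with hy | hy
      · exact fun x hx => h.nGK _ (h.HG hy) x hx
      · exact fun x hx => h.nSK _ hy x hx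
    · rintro _ ⟨s, hs, rfl⟩
      rcases hy with hy | hy
      · have h1 := h.cHS _ hy _ hs
        obtain ⟨l, hl⟩ : ∃ l : L, (l : Γ) = t.p y * t.p s * (t.p y)⁻¹ * (t.p s)⁻¹ := ⟨⟨_, h1⟩, rfl⟩
        have h2 : t.q y * t.q s * (t.q y)⁻¹ = t.q ((t.j l)⁻¹ * (y * s * y⁻¹)) := by
          rw [map_mul, map_inv, t.q_j, inv_one, one_mul, map_mul, map_mul, map_inv]
        rw [h2]
        apply t.mem_bar
        simp only [map_mul, map_inv]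
        rw [t.p_j, hl]
        have h3 : (t.p y * t.p s * (t.p y)⁻¹ * (t.p s)⁻¹)⁻¹ * (t.p y * t.p s * (t.p y)⁻¹) = t.p s := by group
        rw [h3]; exact hs
      · rw [← map_mul, ← map_inv, ← map_mul]
        apply t.mem_bar
        simp only [map_mul, map_inv]
        exact S.mul_mem (S.mul_mem hy hs) (S.inv_mem hy)
  refine ⟨B, ?_, ?_, hB.sub, hBcj⟩
  · intro B' hB'
    refine TB_of hB (t.bar G) (t.bar H) hZc hc h.odd (hpow K h.KG) (t.bar_mono h.KG) (t.bar_mono h.HG)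
      (t.bar_mono h.LH) ?_ ?_ (hpow H h.HG) ?_ ?_ B' hB'
    · rintro _ ⟨y, hy, rfl⟩
      obtain ⟨k, hk, x, hx, hg⟩ := h.GKH _ hy
      obtain ⟨y1, rfl⟩ := hRange k (hGR (h.KG hk))
      refine ⟨t.q y1, t.mem_bar hk, t.q (y1⁻¹ * y), t.mem_bar ?_, ?_⟩
      · rw [map_mul, map_inv, hg, inv_mul_cancel_left]; exact hx
      · rw [← map_mul, mul_inv_cancel_left]
    · rintro _ ⟨y, hy, rfl⟩ hyH
      rw [t.mem_bar_iff h.LH] at hyH
      exact t.mem_bar (h.KH _ hy hyH)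
    · rintro _ ⟨y, hy, rfl⟩ k hk
      exact t.bar_cj (fun x hx => h.nGK _ (h.HG hy) x hx) k hk
    · rintro _ ⟨y, hy, rfl⟩ b hb
      exact hBcj y (Or.inl hy) b hb
  · intro B' hB'
    refine TB_of hB (t.bar K) (t.bar L) hZc hc h.odd (hpow K h.KG) le_rfl (t.bar_mono h.LK)
      le_rfl ?_ (fun x _ hx => hx) (hpow L (h.LK.trans h.KG)) ?_ ?_ B' hB'
    · intro g hg
      exact ⟨g, hg, 1, one_mem _, (mul_one g).symm⟩
    · intro z hz k hk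
      rw [hZc z hz k, mul_inv_cancel_right]
      exact hk
    · intro z hz b hb
      rw [hZc z hz b, mul_inv_cancel_right]
      exact hb

/-- the canonical character of `bar K` -/
theorem Hyp.theta (h : Hyp S G K L H) (hφ : IsIrrCharacter L φ) (t : TD (G ⊔ S) L φ) {B : Set t.Yb}
    (hB : ∀ B' : Finset (t.bar K), (∀ g : t.bar K, g ∈ B' ↔ (g : t.Yb) ∈ B) →
        TB ((t.bar L).subgroupOf (t.bar K)) B') (hBcj : ∀ y : t.Y, (t.p y ∈ H ∨ t.p y ∈ S) → ∀ b ∈ B, t.q y * b * (t.q y)⁻¹ ∈ B)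
    (B' : Finset (t.bar K)) (hB' : ∀ g : t.bar K, g ∈ B' ↔ (g : t.Yb) ∈ B) :
    ∃ θ : IrrCharacter (t.bar K), t.Ov K (θ : t.bar K → ℂ) ∧ tau B' (θ : t.bar K → ℂ) 1 ≠ 0 ∧
      ∀ y : t.Y, (t.p y ∈ H ∨ t.p y ∈ S) → ∀ u u' : t.bar K, (u' : t.Yb) = t.q y * u * (t.q y)⁻¹ →
        (θ : t.bar K → ℂ) u' = (θ : t.bar K → ℂ) u := by
  classical
  have := Fintype.ofFinite L
  have hLR : L ≤ G ⊔ S := (h.LK.trans h.KG).trans le_sup_left
  obtain ⟨ζ, hζ, hζR, hζO⟩ := t.corr2 hφ le_rfl hLR hφ (by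
    change classInner φ φ ≠ 0
    rw [hφ.classInner_self]; exact one_ne_zero)
  have hLK' : t.bar L ≤ t.bar K := t.bar_mono h.LK
  have hTB := hB B' hB'
  obtain ⟨θ, d, hd, hθ⟩ := W3 hLK' hTB ⟨ζ, hζ⟩
  have hζz : ∀ z : t.p.ker, ∀ hz : t.q z ∈ t.bar L, ζ ⟨t.q z, hz⟩ = ((t.lam z : ℂˣ) : ℂ)⁻¹ * ζ 1 := by
    intro z hz
    exact hζO z 1 ⟨t.q z, hz⟩ (by simp)
  have hker : ∀ z : t.p.ker, t.q z ∈ t.bar L := fun z => t.mem_bar (by
    have : t.p z = 1 := z.2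
    rw [this]; exact L.one_mem)
  have hθ1 : tau B' (θ : t.bar K → ℂ) 1 = d * ζ 1 := hθ 1
  have hθ0 : tau B' (θ : t.bar K → ℂ) 1 ≠ 0 := by
    rw [hθ1]
    exact mul_ne_zero hd hζ.one_ne_zero
  refine ⟨θ, ?_, hθ0, ?_⟩
  · intro z x x' hx
    have hzK : t.q z ∈ t.bar K := hLK' (hker z)
    have hzc : ∀ x : t.bar K, (⟨t.q z, hzK⟩ : t.bar K) * x = x * ⟨t.q z, hzK⟩ := by
      rintro ⟨_, ⟨y, hy, rfl⟩⟩
      apply Subtype.ext
      change t.q z * t.q y = t.q y * t.q z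
      rw [← map_mul, ← map_mul, t.central z z.2]
    obtain ⟨w, hw⟩ := exists_scalar θ.2 hzc
    have h1 : x' = ⟨t.q z, hzK⟩ * x := Subtype.ext hx
    rw [h1, hw]
    congr 1
    have h2 : tau B' (θ : t.bar K → ℂ) ⟨t.q z, hzK⟩ = w * tau B' (θ : t.bar K → ℂ) 1 := by
      unfold tau
      rw [Finset.mul_sum]
      refine Finset.sum_congr rfl fun b _ => ?_
      rw [← hzc, hw, mul_one]
    have h3 : tau B' (θ : t.bar K → ℂ) ⟨t.q z, hzK⟩ = d * ζ ⟨t.q z, hker z⟩ := hθ ⟨t.q z, hker z⟩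
    rw [h3, hζz, hθ1] at h2
    have h4 : d * ζ 1 ≠ 0 := mul_ne_zero hd hζ.one_ne_zero
    apply mul_right_cancel₀ h4
    rw [← h2]
    ring
  · intro y hy
    have hyK : ∀ x ∈ K, t.p y * x * (t.p y)⁻¹ ∈ K := by
      rcases hy with hy | hy
      · exact fun x hx => h.nGK _ (h.HG hy) x hx
      · exact fun x hx => h.nSK _ hy x hx
    have hyb := t.bar_cj hyK
    have h1 : cjI (t.bar K) (t.q y) hyb θ = θ := by
      refine W2 hLK' hTB (ψ := ⟨ζ, hζ⟩) ⟨d, hd, ?_⟩ ⟨d, hd, hθ⟩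
      intro z
      rw [tau_cj _ _ (by
        intro b hb b' hb'
        rw [hB'] at hb ⊢
        rw [hb']
        exact hBcj y hy _ hb)]
      rw [← hθ]
      congr 1
      apply Subtype.ext
      obtain ⟨z, ⟨z', hz', rfl⟩⟩ := z
      change t.q y * t.q z' * (t.q y)⁻¹ = t.q z'
      obtain ⟨l, hl⟩ : ∃ l : L, (l : Γ) = t.p z' := ⟨⟨t.p z', hz'⟩, rfl⟩
      have h1 : z' * (t.j l)⁻¹ ∈ t.p.ker := by
        rw [MonoidHom.mem_ker, map_mul, map_inv, t.p_j, hl, mul_inv_cancel]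
      have h2 : t.q z' = t.q (z' * (t.j l)⁻¹) := by
        rw [map_mul, map_inv, t.q_j, inv_one, mul_one]
      rw [h2, ← map_mul, ← t.central _ h1, map_mul, mul_inv_cancel_right]
    intro u u' hu
    have h4 : u' = cjE (t.bar K) (t.q y) hyb u := Subtype.ext hu
    conv_rhs => rw [← h1]
    rw [h4]
    rfl

end main

end Cfsg.Agent.Lib.IsaOdd
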