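import Mathlib
import Cfsg.Agent.Lib.IsaOdd5

/-!
# The parity correspondence over an invariant character, III (helper78)
-/

set_option autoImplicit false
set_option linter.all false

namespace Cfsg.Agent.Lib.IsaOdd

open Cfsg Cfsg.Agent.Lib.CharBasic Cfsg.Agent.Lib.Clifford
open scoped ComplexConjugate

universe u

section main

variable {Γ : Type u} [Group Γ] [Finite Γ] {S G K L H : Subgroup Γ}

theorem Hyp.uniq (h : Hyp S G K L H) [Fintype L] {φ : L → ℂ} (hφ : IsIrrCharacter L φ) (θ θ' : IrrCharacter K)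
    (hθ : Inv S K (θ : K → ℂ)) (hθ' : Inv S K (θ' : K → ℂ))
    (h1 : classInner (fun n : L => (θ : K → ℂ) ⟨n, h.LK n.2⟩) φ ≠ 0)
    (h2 : classInner (fun n : L => (θ' : K → ℂ) ⟨n, h.LK n.2⟩) φ ≠ 0) : θ = θ' := by
  classical
  have := Fintype.ofFinite K
  have := Fintype.ofFinite S
  have := Fintype.ofFinite (L.subgroupOf K)
  set N : Subgroup K := L.subgroupOf K with hN
  have hNn : N.Normal := ⟨fun n hn g => h.nGL g (h.KG g.2) n hn⟩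
  have hab : ∀ a b : K ⧸ N, a * b = b * a := by
    intro a b
    obtain ⟨a, rfl⟩ := QuotientGroup.mk_surjective a
    obtain ⟨b, rfl⟩ := QuotientGroup.mk_surjective b
    rw [← QuotientGroup.mk_mul, ← QuotientGroup.mk_mul, eq_comm, QuotientGroup.eq]
    change ((b : Γ) * a)⁻¹ * (a * b) ∈ L
    have h3 := h.ab (a : Γ)⁻¹ (K.inv_mem a.2) (b : Γ)⁻¹ (K.inv_mem b.2)
    have e : ((b : Γ) * a)⁻¹ * (a * b) = (a : Γ)⁻¹ * (b : Γ)⁻¹ * (a : Γ)⁻¹⁻¹ * (b : Γ)⁻¹⁻¹ := by group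
    rw [e]; exact h3
  rw [← GlaubPerm.inner_subgroupOf h.LK] at h1 h2
  obtain ⟨l, hl, hll⟩ := GlaubPerm.exists_twist hab θ.2 θ'.2 (GlaubPerm.irr_subgroupOf h.LK hφ) h1 h2
  apply Subtype.ext
  rw [hll]
  funext x
  by_cases hx0 : (θ : K → ℂ) x = 0
  · rw [hx0, mul_zero]
  -- the conjugates
  have hcj : ∀ s : S, ∃ c : K →* K, ∀ x : K, ((c x : K) : Γ) = s * x * (s : Γ)⁻¹ := fun s =>
    ⟨{ toFun := fun x => ⟨s * x * (s : Γ)⁻¹, h.nSK s s.2 x x.2⟩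
       map_one' := Subtype.ext (by simp)
       map_mul' := fun a b => Subtype.ext (by simp [mul_assoc]) }, fun _ => rfl⟩
  choose σ hσ using hcj
  have hlx : ∀ s : S, l (σ s x) = l x := by
    intro s
    have h3 := hθ s s.2 x (σ s x) (hσ s x)
    have h4 := hθ' s s.2 x (σ s x) (hσ s x)
    rw [hll] at h4
    simp only at h4
    rw [h3] at h4
    exact Units.ext (mul_right_cancel₀ hx0 h4)
  letI : CommGroup (K ⧸ N) := { (inferInstance : Group (K ⧸ N)) with mul_comm := hab }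
  let mk : K →* K ⧸ N := QuotientGroup.mk' N
  have hσN : ∀ s, N ≤ N.comap (σ s) := by
    intro s n hn
    change ((σ s n : K) : Γ) ∈ L
    rw [hσ]
    exact h.nSL s s.2 _ hn
  set Nx : K ⧸ N := ∏ s : S, mk (σ s x) with hNx
  obtain ⟨y, hy⟩ := QuotientGroup.mk'_surjective N Nx
  have hyL : (y : Γ) ∈ L := by
    apply h.free _ y.2
    intro s hs
    have h3 : QuotientGroup.map N N (σ ⟨s, hs⟩) (hσN ⟨s, hs⟩) Nx = Nx := by
      rw [hNx, map_prod]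
      refine Fintype.prod_equiv (Equiv.mulLeft (⟨s, hs⟩ : S)) _ _ fun s' => ?_
      change QuotientGroup.map N N (σ ⟨s, hs⟩) (hσN ⟨s, hs⟩) ((σ s' x : K) : K ⧸ N) = ((σ (⟨s, hs⟩ * s') x : K) : K ⧸ N)
      rw [QuotientGroup.map_mk]
      congr 1
      apply Subtype.ext
      rw [hσ, hσ, hσ, Subgroup.coe_mul]
      group
    rw [← hy] at h3
    have h4 : ((σ ⟨s, hs⟩ y : K) : K ⧸ N) = (y : K ⧸ N) := h3
    rw [eq_comm, QuotientGroup.eq] at h4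
    have h5 : (y : Γ)⁻¹ * (s * y * s⁻¹) ∈ L := by
      have h6 : (((y⁻¹ * σ ⟨s, hs⟩ y : K) : K) : Γ) ∈ L := h4
      rw [Subgroup.coe_mul, hσ] at h6
      exact h6
    have h6 := h.nGL y (h.KG y.2) _ h5
    have e : (y : Γ) * ((y : Γ)⁻¹ * (s * y * s⁻¹)) * (y : Γ)⁻¹ = s * y * s⁻¹ * (y : Γ)⁻¹ := by group
    rwa [e] at h6
  have hNx1 : Nx = 1 := by
    rw [← hy]
    exact (QuotientGroup.eq_one_iff y).2 hyL
  let lb : K ⧸ N →* ℂˣ := QuotientGroup.lift N l (fun n hn => hl ⟨n, hn⟩)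
  have h7 : lb Nx = (l x) ^ Nat.card S := by
    rw [hNx, map_prod, Nat.card_eq_fintype_card, ← Finset.card_univ, ← Finset.prod_const]
    refine Finset.prod_congr rfl fun s _ => ?_
    rw [← hlx s]
    rfl
  rw [hNx1, map_one] at h7
  have h8 : (l x) ^ Nat.card G = 1 := by
    obtain ⟨c, hc⟩ := Subgroup.card_dvd_of_le h.KG
    have : x ^ Nat.card K = 1 := pow_card_eq_one'
    rw [← map_pow, hc, pow_mul, this, one_pow, map_one]
  have h9 : l x = 1 := by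
    have := mem_of_pow (⊥ : Subgroup ℂˣ) h.cop.symm (x := l x) (by rw [← h7]; exact one_mem _) (by rw [h8]; exact one_mem _)
    exact Subgroup.mem_bot.1 this
  rw [h9, Units.val_one, one_mul]

theorem over_mid {G M N : Subgroup Γ} (hMG : M ≤ G) (hNM : N ≤ M) [(N.subgroupOf G).Normal] [Fintype M] [Fintype N]
    {χ : G → ℂ} (hχ : IsIrrCharacter G χ) {φ : IrrCharacter N}
    (hinv : ∀ g ∈ G, ∀ n n' : N, (n' : Γ) = g * n * g⁻¹ → (φ : N → ℂ) n' = (φ : N → ℂ) n)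
    (h1 : classInner (fun n : N => χ ⟨n, hMG (hNM n.2)⟩) (φ : N → ℂ) ≠ 0) {θ : IrrCharacter M}
    (h2 : classInner (fun n : M => χ ⟨n, hMG n.2⟩) (θ : M → ℂ) ≠ 0) :
    classInner (fun n : N => (θ : M → ℂ) ⟨n, hNM n.2⟩) (φ : N → ℂ) ≠ 0 := by
  have hc : IsCharacter N (fun n : N => (θ : M → ℂ) ⟨n, hNM n.2⟩) := θ.2.isCharacter.comp (Subgroup.inclusion hNM)
  have h0 : (fun n : N => (θ : M → ℂ) ⟨n, hNM n.2⟩) ≠ 0 := by
    intro h
    exact θ.2.one_ne_zero (congrFun h 1)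
  obtain ⟨η, hη⟩ := Clifford.exists_constituent hc h0
  have h3 := GlaubPerm.over_trans hMG hNM hχ θ.2 η.2 h2 hη
  obtain ⟨g, hg, h4⟩ := GlaubPerm.conj_below (hNM.trans hMG) hχ h1 h3
  have hηφ : η = φ := by
    apply Subtype.ext
    funext n
    have hn' : g * n * g⁻¹ ∈ N := by
      have : (N.subgroupOf G).Normal := inferInstance
      exact this.conj_mem ⟨n, hMG (hNM n.2)⟩ n.2 ⟨g, hg⟩
    rw [h4 n ⟨g * n * g⁻¹, hn'⟩ rfl]
    exact hinv g hg n _ rfl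
  rw [← hηφ]
  exact hη

theorem Hyp.tau_ne (h : Hyp S G K L H) [Fintype L] (φ : IrrCharacter L)
    (hφG : ∀ g ∈ G, ∀ n n' : L, (n' : Γ) = g * n * g⁻¹ → (φ : L → ℂ) n' = (φ : L → ℂ) n)
    (t : TD (G ⊔ S) L (φ : L → ℂ)) {B : Set t.Yb}
    (hB : ∀ B' : Finset (t.bar K), (∀ g : t.bar K, g ∈ B' ↔ (g : t.Yb) ∈ B) →
        TB ((t.bar L).subgroupOf (t.bar K)) B') (hBK : ∀ b ∈ B, b ∈ t.bar K)
    (hBcj : ∀ y : t.Y, (t.p y ∈ H ∨ t.p y ∈ S) → ∀ b ∈ B, t.q y * b * (t.q y)⁻¹ ∈ B)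
    (B' : Finset (t.bar G)) (hB' : ∀ g : t.bar G, g ∈ B' ↔ (g : t.Yb) ∈ B) (χ : IrrCharacter G)
    (hχ : Inv S G (χ : G → ℂ)) (hov : classInner (fun n : L => (χ : G → ℂ) ⟨n, h.KG (h.LK n.2)⟩) (φ : L → ℂ) ≠ 0)
    (β : IrrCharacter (t.bar G)) (hβ : t.Rel G (χ : G → ℂ) (β : t.bar G → ℂ)) :
    ∃ g, tau B' (β : t.bar G → ℂ) g ≠ 0 := by
  classical
  have := Fintype.ofFinite K
  have := Fintype.ofFinite (t.bar K)
  have hGR : G ≤ G ⊔ S := le_sup_left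
  have hSR : S ≤ G ⊔ S := le_sup_right
  have hRange : ∀ g ∈ G ⊔ S, ∃ y, t.p y = g := by
    intro g hg
    rw [← t.p_range] at hg
    exact hg
  obtain ⟨B'', hB''⟩ : ∃ B'' : Finset (t.bar K), ∀ g : t.bar K, g ∈ B'' ↔ (g : t.Yb) ∈ B :=
    ⟨Finset.univ.filter fun g => (g : t.Yb) ∈ B, fun g => by simp⟩
  obtain ⟨θ₀, hO, hθ1, hθinv⟩ := h.theta φ.2 t hB hBcj B'' hB''
  obtain ⟨θ', hθ', hRel, hθov⟩ := t.corr1 φ.2 h.LK (h.KG.trans hGR) θ₀.2 hO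
  have hθ'inv : Inv S K θ' := by
    intro s hs g g' hg
    obtain ⟨y, rfl⟩ := hRange s (hSR hs)
    exact t.cj_left (h.KG.trans hGR) hRel (y0 := y) (hθinv y (Or.inr hs)) g g' hg
  -- an invariant constituent
  have hKn : (K.subgroupOf G).Normal := ⟨fun n hn g => h.nGK g g.2 n hn⟩
  have hLn : (L.subgroupOf G).Normal := ⟨fun n hn g => h.nGL g g.2 n hn⟩
  have hsolG := h.sol
  obtain ⟨θ, hθ2, hθinv2⟩ := GlaubPerm.below (S := S) h.KG h.nSG h.nSK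
    (Nat.Coprime.coprime_dvd_left (Subgroup.relIndex_dvd_card K G)
      (Nat.Coprime.coprime_dvd_right (Subgroup.relIndex_dvd_card K S) h.cop))
    (Or.inr inferInstance) χ hχ
  have hθ3 := over_mid h.KG h.LK χ.2 hφG hov hθ2
  have heq : θ = ⟨θ', hθ'⟩ := h.uniq φ.2 θ ⟨θ', hθ'⟩ hθinv2 hθ'inv hθ3 hθov
  rw [heq] at hθ2
  have h1 := t.isom φ.2 h.LK h.KG hGR hβ hRel
  rw [h1] at hθ2
  have hKnY : (t.bar K).Normal := by
    refine ⟨?_⟩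
    rintro _ ⟨k, hk, rfl⟩ g
    obtain ⟨y, rfl⟩ := t.q_surj g
    refine t.bar_cj ?_ _ (t.mem_bar hk)
    exact h.norR _ (t.p_range.le ⟨y, rfl⟩)
  have hinvG : ∀ g ∈ t.bar G, cj (t.bar K) g (θ₀ : t.bar K → ℂ) = (θ₀ : t.bar K → ℂ) := by
    rintro _ ⟨y, hy, rfl⟩
    funext n
    rw [cj_apply]
    obtain ⟨k, hk, x, hx, hg⟩ := h.GKH _ hy
    obtain ⟨y1, rfl⟩ := hRange k (hGR (h.KG hk))
    have hx2 : t.p (y1⁻¹ * y) ∈ H := by
      rw [map_mul, map_inv, hg, inv_mul_cancel_left]; exact hx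
    have h2 : t.q y = t.q y1 * t.q (y1⁻¹ * y) := by rw [← map_mul, mul_inv_cancel_left]
    have h3 := hθinv (y1⁻¹ * y) (Or.inl hx2) n (MulAut.conjNormal (t.q (y1⁻¹ * y)) n) (by
      rw [MulAut.conjNormal_apply])
    rw [← h3]
    have h4 := θ₀.2.isClassFunction (MulAut.conjNormal (t.q (y1⁻¹ * y)) n) (⟨t.q y1, t.mem_bar hk⟩ : t.bar K)
    rw [← h4]
    refine congrArg (θ₀ : t.bar K → ℂ) (Subtype.ext ?_)
    simp only [Subgroup.coe_mul, Subgroup.coe_inv, MulAut.conjNormal_apply]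
    rw [h2]
    group
  have h5 := CliffordCorr.resTo_eq_smul (G := t.Yb) (N := t.bar K) (T := t.bar G) (t.bar_mono h.KG) β.2 θ₀.2 hinvG hθ2
  refine ⟨1, ?_⟩
  have h6 : tau B' (β : t.bar G → ℂ) 1 =
      classInner (CliffordCorr.resTo (t.bar K) (t.bar G) (t.bar_mono h.KG) (β : t.bar G → ℂ)) (θ₀ : t.bar K → ℂ) *
        tau B'' (θ₀ : t.bar K → ℂ) 1 := by
    unfold tau
    rw [Finset.mul_sum]
    refine Finset.sum_bij' (fun b hb => (⟨(b : t.Yb), hBK _ ((hB' b).1 hb)⟩ : t.bar K))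
      (fun b hb => (⟨(b : t.Yb), t.bar_mono h.KG b.2⟩ : t.bar G)) ?_ ?_ ?_ ?_ ?_
    · intro b hb; rw [hB'']; exact (hB' b).1 hb
    · intro b hb; rw [hB']; exact (hB'' b).1 hb
    · intro b hb; rfl
    · intro b hb; rfl
    · intro b hb
      have h7 := congrFun h5 ⟨(b : t.Yb), hBK _ ((hB' b).1 hb)⟩
      rw [mul_one, mul_one]
      exact h7
  rw [h6]
  exact mul_ne_zero hθ2 hθ1


/-- if `β` is linked with `γ` then `γ` lies over `λ⁻¹` as soon as `β` does -/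
theorem lnk_ov {R L : Subgroup Γ} {φ : L → ℂ} (t : TD R L φ) {G H : Subgroup Γ} (hHG : H ≤ G) {B : Finset (t.bar G)}
    {β : t.bar G → ℂ} {γ : t.bar H → ℂ} (hβ : t.Ov G β) (hl : LnkY (t.bar_mono hHG) B β γ) : t.Ov H γ := by
  intro z x x' hx
  obtain ⟨d, hd, hT⟩ := hl
  apply mul_left_cancel₀ hd
  rw [← hT x', mul_left_comm, ← hT x]
  unfold tau
  rw [Finset.mul_sum]
  refine Finset.sum_congr rfl fun b _ => ?_
  apply hβ z
  simp only [Subgroup.coe_mul]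
  rw [hx, ← mul_assoc, ← mul_assoc]
  congr 1
  obtain ⟨y, hy⟩ := t.q_surj (b : t.Yb)
  rw [← hy, ← map_mul, ← map_mul, t.central z z.2]

theorem lnk_ov' {R L : Subgroup Γ} {φ : L → ℂ} (t : TD R L φ) {G H : Subgroup Γ} (hHG : H ≤ G) {B : Finset (t.bar G)}
    {β : t.bar G → ℂ} {γ : t.bar H → ℂ} (hβi : IsIrrCharacter (t.bar G) β) (hγ1 : γ 1 ≠ 0) (hγ : t.Ov H γ)
    (hl : LnkY (t.bar_mono hHG) B β γ) : t.Ov G β := by
  intro z x x' hx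
  obtain ⟨d, hd, hT⟩ := hl
  have hzp : t.p z = 1 := z.2
  have hzG : t.q z ∈ t.bar G := t.mem_bar (by rw [hzp]; exact G.one_mem)
  have hzH : t.q z ∈ t.bar H := t.mem_bar (by rw [hzp]; exact H.one_mem)
  have hzc : ∀ x : t.bar G, (⟨t.q z, hzG⟩ : t.bar G) * x = x * ⟨t.q z, hzG⟩ := by
    rintro ⟨_, ⟨y, hy, rfl⟩⟩
    apply Subtype.ext
    change t.q z * t.q y = t.q y * t.q z
    rw [← map_mul, ← map_mul, t.central z z.2]
  obtain ⟨w, hw⟩ := exists_scalar hβi hzc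
  have h1 : x' = ⟨t.q z, hzG⟩ * x := Subtype.ext hx
  rw [h1, hw]
  congr 1
  have h2 : tau B β ⟨t.q z, hzG⟩ = w * tau B β 1 := by
    unfold tau
    rw [Finset.mul_sum]
    refine Finset.sum_congr rfl fun b _ => ?_
    rw [← hzc, hw, mul_one]
  have h3 : tau B β ⟨t.q z, hzG⟩ = d * γ ⟨t.q z, hzH⟩ := hT ⟨t.q z, hzH⟩
  have h4 : tau B β 1 = d * γ 1 := hT 1
  have h5 : γ ⟨t.q z, hzH⟩ = ((t.lam z : ℂˣ) : ℂ)⁻¹ * γ 1 := hγ z 1 ⟨t.q z, hzH⟩ (by simp)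
  rw [h3, h4, h5] at h2
  have h6 : d * γ 1 ≠ 0 := mul_ne_zero hd hγ1
  apply mul_right_cancel₀ h6
  rw [← h2]
  ring

/-- the correspondence over an invariant character -/
theorem Hyp.main (h : Hyp S G K L H) [Fintype L] [Fintype H] (φ : IrrCharacter L)
    (hφG : ∀ g ∈ G, ∀ n n' : L, (n' : Γ) = g * n * g⁻¹ → (φ : L → ℂ) n' = (φ : L → ℂ) n) (hφS : Inv S L (φ : L → ℂ)) :
    ∃ Rl : IrrCharacter G → IrrCharacter H → Prop,
      (∀ χ : IrrCharacter G, Inv S G (χ : G → ℂ) →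
        classInner (fun n : L => (χ : G → ℂ) ⟨n, h.KG (h.LK n.2)⟩) (φ : L → ℂ) ≠ 0 →
        ∃ ψ : IrrCharacter H, classInner (fun n : L => (ψ : H → ℂ) ⟨n, h.LH n.2⟩) (φ : L → ℂ) ≠ 0 ∧
          Inv S H (ψ : H → ℂ) ∧ Rl χ ψ ∧
          (∃ m : ℕ, Odd m ∧ classInner (fun x : H => (χ : G → ℂ) ⟨x, h.HG x.2⟩) (ψ : H → ℂ) = m) ∧
          ∀ ψ' : IrrCharacter H, classInner (fun n : L => (ψ' : H → ℂ) ⟨n, h.LH n.2⟩) (φ : L → ℂ) ≠ 0 → ψ' ≠ ψ →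
            ∃ m : ℕ, Even m ∧ classInner (fun x : H => (χ : G → ℂ) ⟨x, h.HG x.2⟩) (ψ' : H → ℂ) = m) ∧
      (∀ χ χ' : IrrCharacter G, ∀ ψ : IrrCharacter H, Rl χ ψ → Rl χ' ψ → χ = χ') ∧
      (∀ ψ : IrrCharacter H, Inv S H (ψ : H → ℂ) →
        classInner (fun n : L => (ψ : H → ℂ) ⟨n, h.LH n.2⟩) (φ : L → ℂ) ≠ 0 →
        ∃ χ : IrrCharacter G, Inv S G (χ : G → ℂ) ∧
          classInner (fun n : L => (χ : G → ℂ) ⟨n, h.KG (h.LK n.2)⟩) (φ : L → ℂ) ≠ 0 ∧ Rl χ ψ) ∧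
      (∀ χ : IrrCharacter G, ∀ ψ ψ' : IrrCharacter H, Rl χ ψ → Rl χ ψ' → ψ = ψ') := by
  classical
  have hGR : G ≤ G ⊔ S := le_sup_left
  have hSR : S ≤ G ⊔ S := le_sup_right
  have hLG : L ≤ G := h.LK.trans h.KG
  have hLR : L ≤ G ⊔ S := hLG.trans hGR
  have hHR : H ≤ G ⊔ S := h.HG.trans hGR
  have hnorL : G ⊔ S ≤ Subgroup.normalizer (L : Set Γ) :=
    sup_le (fun g hg => nor_of L g (h.nGL g hg)) (fun s hs => nor_of L s (h.nSL s hs))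
  have hLn : ∀ g ∈ G ⊔ S, ∀ l ∈ L, g * l * g⁻¹ ∈ L := fun g hg l hl =>
    (Subgroup.mem_normalizer_iff.1 (hnorL hg) l).1 hl
  -- `φ` is invariant under `G ⊔ S`
  have hinv : ∀ g ∈ G ⊔ S, ∀ n n' : L, (n' : Γ) = g * n * g⁻¹ → (φ : L → ℂ) n' = (φ : L → ℂ) n := by
    let W : Subgroup Γ :=
      { carrier := {g | (∀ l ∈ L, g * l * g⁻¹ ∈ L) ∧ (∀ l ∈ L, g⁻¹ * l * g ∈ L) ∧
          ∀ n n' : L, (n' : Γ) = g * n * g⁻¹ → (φ : L → ℂ) n' = (φ : L → ℂ) n}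
        one_mem' := ⟨fun l hl => by simpa using hl, fun l hl => by simpa using hl, fun n n' hn => by
          have : n' = n := Subtype.ext (by rw [hn]; group)
          rw [this]⟩
        mul_mem' := by
          rintro a b ⟨ha1, ha2, ha3⟩ ⟨hb1, hb2, hb3⟩
          refine ⟨fun l hl => ?_, fun l hl => ?_, fun n n' hn => ?_⟩
          · have := ha1 _ (hb1 l hl)
            have e : a * b * l * (a * b)⁻¹ = a * (b * l * b⁻¹) * a⁻¹ := by group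
            rw [e]; exact this
          · have := hb2 _ (ha2 l hl)
            have e : (a * b)⁻¹ * l * (a * b) = b⁻¹ * (a⁻¹ * l * a) * b := by group
            rw [e]; exact this
          · rw [ha3 ⟨b * n * b⁻¹, hb1 n n.2⟩ n' (by rw [hn]; group), hb3 n ⟨b * n * b⁻¹, hb1 n n.2⟩ rfl]
        inv_mem' := by
          rintro a ⟨ha1, ha2, ha3⟩
          refine ⟨fun l hl => by rw [inv_inv]; exact ha2 l hl, fun l hl => by rw [inv_inv]; exact ha1 l hl,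
            fun n n' hn => (ha3 n' n (by rw [hn]; group)).symm⟩ }
    have hle : G ⊔ S ≤ W := by
      refine sup_le (fun g hg => ⟨h.nGL g hg, fun l hl => ?_, hφG g hg⟩) (fun s hs => ⟨h.nSL s hs, fun l hl => ?_, hφS s hs⟩)
      · have := h.nGL g⁻¹ (G.inv_mem hg) l hl
        rwa [inv_inv] at this
      · have := h.nSL s⁻¹ (S.inv_mem hs) l hl
        rwa [inv_inv] at this
    exact fun g hg => (hle hg).2.2
  obtain ⟨t⟩ := exists_TD hLR hLn φ.2 hinv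
  obtain ⟨B, hBG, hBK, hBsub, hBcj⟩ := h.bar_TB t
  have := Fintype.ofFinite (t.bar G)
  have := Fintype.ofFinite (t.bar H)
  obtain ⟨B', hB'⟩ : ∃ B' : Finset (t.bar G), ∀ g : t.bar G, g ∈ B' ↔ (g : t.Yb) ∈ B :=
    ⟨Finset.univ.filter fun g => (g : t.Yb) ∈ B, fun g => by simp⟩
  have hTB := hBG B' hB'
  have hHG' : t.bar H ≤ t.bar G := t.bar_mono h.HG
  have hRange : ∀ g ∈ G ⊔ S, ∃ y, t.p y = g := by
    intro g hg
    rw [← t.p_range] at hg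
    exact hg
  have hτs : ∀ (y : t.Y) (hy : t.p y ∈ S) (β : IrrCharacter (t.bar G)) (g : t.bar G),
      tau B' (cjI (t.bar G) (t.q y) (t.bar_cj (h.nSG _ hy)) β : t.bar G → ℂ) g =
        tau B' (β : t.bar G → ℂ) (cjE (t.bar G) (t.q y) (t.bar_cj (h.nSG _ hy)) g) := by
    intro y hy β g
    apply tau_cj
    intro b hb b' hb'
    rw [hB'] at hb ⊢
    rw [hb']
    exact hBcj y (Or.inr hy) _ hb
  refine ⟨fun χ ψ => ∃ (β : IrrCharacter (t.bar G)) (γ : IrrCharacter (t.bar H)),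
    t.Rel G (χ : G → ℂ) (β : t.bar G → ℂ) ∧ t.Rel H (ψ : H → ℂ) (γ : t.bar H → ℂ) ∧
      LnkY hHG' B' (β : t.bar G → ℂ) (γ : t.bar H → ℂ), ?_, ?_, ?_, ?_⟩
  · intro χ hχ hov
    obtain ⟨β, hβ, hRel, hOv⟩ := t.corr2 φ.2 hLG hGR χ.2 hov
    have hne := h.tau_ne φ hφG t hBK hBsub hBcj B' hB' χ hχ hov ⟨β, hβ⟩ hRel
    obtain ⟨γ, hl, ⟨m, hm, hm1⟩, hev⟩ := W1 hHG' hTB hβ hne
    have hγO := lnk_ov t h.HG hOv hl
    obtain ⟨ψ, hψ, hψR, hψo⟩ := t.corr1 φ.2 h.LH hHR γ.2 hγO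
    refine ⟨⟨ψ, hψ⟩, hψo, ?_, ⟨⟨β, hβ⟩, γ, hRel, hψR, hl⟩, ⟨m, hm, ?_⟩, ?_⟩
    · -- invariance
      intro s hs g g' hg
      obtain ⟨y, rfl⟩ := hRange s (hSR hs)
      refine t.cj_left hHR hψR (y0 := y) ?_ g g' hg
      intro u u' hu
      have hβs := t.cj_right φ.2 hLG hGR χ.2 (β := ⟨β, hβ⟩) hRel (y0 := y) (h.nSG _ hs) (fun x x' hx => hχ _ hs x x' hx)
      obtain ⟨d, hd, hT⟩ := hl
      apply mul_left_cancel₀ hd
      rw [← hT u', ← hT u]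
      have h1 := hτs y hs ⟨β, hβ⟩ ⟨u, hHG' u.2⟩
      have h2 : cjI (t.bar G) (t.q y) (t.bar_cj (h.nSG _ hs)) ⟨β, hβ⟩ = ⟨β, hβ⟩ := by
        apply Subtype.ext
        funext x
        exact hβs x _ rfl
      rw [h2] at h1
      rw [h1]
      congr 1
      exact Subtype.ext hu
    · rw [← hm1]
      exact t.isom φ.2 h.LH h.HG hGR hRel hψR
    · intro ψ' hψ'o hne'
      obtain ⟨γ', hγ', hγ'R, hγ'O⟩ := t.corr2 φ.2 h.LH hHR ψ'.2 hψ'o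
      have hneγ : (⟨γ', hγ'⟩ : IrrCharacter (t.bar H)) ≠ γ := by
        rintro rfl
        exact hne' (Subtype.ext (t.rel_inj_left hHR hγ'R hψR))
      obtain ⟨m, hm, hm1⟩ := hev _ hneγ
      refine ⟨m, hm, ?_⟩
      rw [← hm1]
      exact t.isom φ.2 h.LH h.HG hGR hRel hγ'R
  · rintro χ χ' ψ ⟨β, γ, h1, h2, h3⟩ ⟨β', γ', h1', h2', h3'⟩
    have h4 : γ = γ' := t.rel_inj_right φ.2 h.LH hHR ψ.2 h2 h2'
    subst h4
    have h5 : β = β' := W2 hHG' hTB h3 h3'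
    subst h5
    exact Subtype.ext (t.rel_inj_left hGR h1 h1')
  · intro ψ hψ hψo
    obtain ⟨γ, hγ, hγR, hγO⟩ := t.corr2 φ.2 h.LH hHR ψ.2 hψo
    obtain ⟨β, hl⟩ := W3 hHG' hTB ⟨γ, hγ⟩
    have hβO := lnk_ov' t h.HG β.2 hγ.one_ne_zero hγO hl
    obtain ⟨χ, hχ, hχR, hχo⟩ := t.corr1 φ.2 hLG hGR β.2 hβO
    refine ⟨⟨χ, hχ⟩, ?_, hχo, ⟨β, ⟨γ, hγ⟩, hχR, hγR, hl⟩⟩
    intro s hs g g' hg
    obtain ⟨y, rfl⟩ := hRange s (hSR hs)
    refine t.cj_left hGR hχR (y0 := y) ?_ g g' hg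
    have hγs := t.cj_right φ.2 h.LH hHR ψ.2 (β := ⟨γ, hγ⟩) hγR (y0 := y) (h.nSH _ hs) (fun x x' hx => hψ _ hs x x' hx)
    have h1 : cjI (t.bar G) (t.q y) (t.bar_cj (h.nSG _ hs)) β = β := by
      refine W2 hHG' hTB (ψ := ⟨γ, hγ⟩) ?_ hl
      obtain ⟨d, hd, hT⟩ := hl
      refine ⟨d, hd, fun u => ?_⟩
      rw [hτs y hs β]
      have h2 := t.bar_cj (X := H) (h.nSH _ hs) u u.2
      have h3 := hT ⟨_, h2⟩
      have h4 := hγs u ⟨_, h2⟩ rfl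
      rw [h4] at h3
      exact h3
    intro u u' hu
    have h4 : u' = cjE (t.bar G) (t.q y) (t.bar_cj (h.nSG _ hs)) u := Subtype.ext hu
    conv_rhs => rw [← h1]
    rw [h4]
    rfl
  · rintro χ ψ ψ' ⟨β, γ, h1, h2, h3⟩ ⟨β', γ', h1', h2', h3'⟩
    have h4 : β = β' := t.rel_inj_right φ.2 hLG hGR χ.2 h1 h1'
    subst h4
    have h5 : γ = γ' := W4 hHG' h3 h3'
    subst h5
    exact Subtype.ext (t.rel_inj_left hHR h2 h2')

end main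

end Cfsg.Agent.Lib.IsaOdd
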