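import Mathlib
import Cfsg.Agent.Lib.IsaOdd6

/-!
# Clifford correspondence for subgroups (helper78)
-/

set_option autoImplicit false
set_option linter.all false

namespace Cfsg.Agent.Lib.IsaOdd

open Cfsg Cfsg.Agent.Lib.CharBasic Cfsg.Agent.Lib.Clifford
open scoped ComplexConjugate

universe u

section inertia

variable {Γ : Type u} [Group Γ]

/-- the inertia group of `φ` in `X` -/
def inert (X L : Subgroup Γ) (φ : L → ℂ) : Subgroup Γ where
  carrier := {g | g ∈ X ∧ (∀ l ∈ L, g * l * g⁻¹ ∈ L) ∧ (∀ l ∈ L, g⁻¹ * l * g ∈ L) ∧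
    ∀ n n' : L, (n' : Γ) = g * n * g⁻¹ → φ n' = φ n}
  one_mem' := ⟨X.one_mem, fun l hl => by simpa using hl, fun l hl => by simpa using hl, fun n n' hn => by
    have : n' = n := Subtype.ext (by rw [hn]; group)
    rw [this]⟩
  mul_mem' := by
    rintro a b ⟨ha0, ha1, ha2, ha3⟩ ⟨hb0, hb1, hb2, hb3⟩
    refine ⟨X.mul_mem ha0 hb0, fun l hl => ?_, fun l hl => ?_, fun n n' hn => ?_⟩
    · have := ha1 _ (hb1 l hl)
      have e : a * b * l * (a * b)⁻¹ = a * (b * l * b⁻¹) * a⁻¹ := by group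
      rw [e]; exact this
    · have := hb2 _ (ha2 l hl)
      have e : (a * b)⁻¹ * l * (a * b) = b⁻¹ * (a⁻¹ * l * a) * b := by group
      rw [e]; exact this
    · rw [ha3 ⟨b * n * b⁻¹, hb1 n n.2⟩ n' (by rw [hn]; group), hb3 n ⟨b * n * b⁻¹, hb1 n n.2⟩ rfl]
  inv_mem' := by
    rintro a ⟨ha0, ha1, ha2, ha3⟩
    refine ⟨X.inv_mem ha0, fun l hl => by rw [inv_inv]; exact ha2 l hl, fun l hl => by rw [inv_inv]; exact ha1 l hl,
      fun n n' hn => (ha3 n' n (by rw [hn]; group)).symm⟩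

theorem inert_le (X L : Subgroup Γ) (φ : L → ℂ) : inert X L φ ≤ X := fun g hg => hg.1

theorem mem_inert {X L : Subgroup Γ} (hn : ∀ g ∈ X, ∀ l ∈ L, g * l * g⁻¹ ∈ L) {φ : L → ℂ} {g : Γ} :
    g ∈ inert X L φ ↔ g ∈ X ∧ ∀ n n' : L, (n' : Γ) = g * n * g⁻¹ → φ n' = φ n := by
  constructor
  · rintro ⟨h1, -, -, h2⟩; exact ⟨h1, h2⟩
  · rintro ⟨h1, h2⟩
    refine ⟨h1, hn g h1, fun l hl => ?_, h2⟩
    have := hn g⁻¹ (X.inv_mem h1) l hl
    rwa [inv_inv] at this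

theorem le_inert [Finite Γ] {X L : Subgroup Γ} (hLX : L ≤ X) (hn : ∀ g ∈ X, ∀ l ∈ L, g * l * g⁻¹ ∈ L) {φ : L → ℂ}
    (hφ : IsClassFunction L φ) : L ≤ inert X L φ := by
  intro l hl
  rw [mem_inert hn]
  refine ⟨hLX hl, fun n n' hn' => ?_⟩
  rw [← hφ n ⟨l, hl⟩]
  exact congrArg φ (Subtype.ext hn')

theorem inert_mono {X X' L : Subgroup Γ} (h : X ≤ X') (φ : L → ℂ) : inert X L φ ≤ inert X' L φ :=
  fun g hg => ⟨h hg.1, hg.2⟩

end inertia

section cliff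

variable {Γ : Type u} [Group Γ] [Finite Γ] {X L : Subgroup Γ}

/-- the correspondence -/
def CC (hLX : L ≤ X) (hn : ∀ g ∈ X, ∀ l ∈ L, g * l * g⁻¹ ∈ L) (φ : IrrCharacter L) [Fintype L]
    [Fintype (inert X L (φ : L → ℂ))] (χ : IrrCharacter X)
    (χ₀ : IrrCharacter (inert X L (φ : L → ℂ))) : Prop :=
  classInner (fun n : L => (χ₀ : inert X L (φ : L → ℂ) → ℂ) ⟨n, le_inert hLX hn φ.2.isClassFunction n.2⟩) (φ : L → ℂ) ≠ 0 ∧
    classInner (fun x : inert X L (φ : L → ℂ) => (χ : X → ℂ) ⟨x, inert_le X L _ x.2⟩) (χ₀ : inert X L (φ : L → ℂ) → ℂ) ≠ 0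

variable (hLX : L ≤ X) (hn : ∀ g ∈ X, ∀ l ∈ L, g * l * g⁻¹ ∈ L) (φ : IrrCharacter L) [Fintype L]
    [Fintype (inert X L (φ : L → ℂ))]

/-- the transport of a function to the subgroup type -/
noncomputable def ee : (inert X L (φ : L → ℂ)).subgroupOf X ≃* inert X L (φ : L → ℂ) :=
  Subgroup.subgroupOfEquivOfLe (inert_le X L _)

include hn in
theorem inert_iff (hN : (L.subgroupOf X).Normal) (g : X) : g ∈ (inert X L (φ : L → ℂ)).subgroupOf X ↔
    cj (L.subgroupOf X) g (fun n => (φ : L → ℂ) (Subgroup.subgroupOfEquivOfLe hLX n)) =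
      fun n => (φ : L → ℂ) (Subgroup.subgroupOfEquivOfLe hLX n) := by
  rw [Subgroup.mem_subgroupOf, mem_inert hn]
  constructor
  · rintro ⟨-, h⟩
    funext n
    rw [cj_apply]
    exact h _ _ rfl
  · intro h
    refine ⟨g.2, fun n n' hn' => ?_⟩
    have h1 := congrFun h ((Subgroup.subgroupOfEquivOfLe hLX).symm n)
    rw [cj_apply, MulEquiv.apply_symm_apply] at h1
    rw [← h1]
    exact congrArg (φ : L → ℂ) (Subtype.ext hn')

/-- translation to `CliffordCorr` -/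
theorem over_iff [Fintype (L.subgroupOf X)] (hN : (L.subgroupOf X).Normal)
    (hNT : L.subgroupOf X ≤ (inert X L (φ : L → ℂ)).subgroupOf X)
    (χ₀ : inert X L (φ : L → ℂ) → ℂ) :
    classInner (CliffordCorr.resTo (L.subgroupOf X) ((inert X L (φ : L → ℂ)).subgroupOf X) hNT (fun x => χ₀ (ee φ x)))
      (fun n => (φ : L → ℂ) (Subgroup.subgroupOfEquivOfLe hLX n)) =
    classInner (fun n : L => χ₀ ⟨n, le_inert hLX hn φ.2.isClassFunction n.2⟩) (φ : L → ℂ) := by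
  rw [← classInner_comp_equiv (Subgroup.subgroupOfEquivOfLe hLX)
    (fun n : L => χ₀ ⟨n, le_inert hLX hn φ.2.isClassFunction n.2⟩) (φ : L → ℂ)]
  rfl

theorem res_iff [Fintype ((inert X L (φ : L → ℂ)).subgroupOf X)] (χ : X → ℂ) (χ₀ : inert X L (φ : L → ℂ) → ℂ) :
    classInner (fun x : (inert X L (φ : L → ℂ)).subgroupOf X => χ x) (fun x => χ₀ (ee φ x)) =
    classInner (fun x : inert X L (φ : L → ℂ) => χ ⟨x, inert_le X L _ x.2⟩) χ₀ := by
  rw [← classInner_comp_equiv (ee φ) (fun x : inert X L (φ : L → ℂ) => χ ⟨x, inert_le X L _ x.2⟩) χ₀]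
  rfl

theorem CC.ind [Fintype X] {χ : IrrCharacter X} {χ₀ : IrrCharacter (inert X L (φ : L → ℂ))} (h : CC hLX hn φ χ χ₀) :
    indFun ((inert X L (φ : L → ℂ)).subgroupOf X) (fun x => (χ₀ : inert X L (φ : L → ℂ) → ℂ) (ee φ x)) = (χ : X → ℂ) := by
  classical
  have := Fintype.ofFinite (L.subgroupOf X)
  have := Fintype.ofFinite ((inert X L (φ : L → ℂ)).subgroupOf X)
  have hN : (L.subgroupOf X).Normal := ⟨fun n hn' g => hn g g.2 n hn'⟩
  have hNT : L.subgroupOf X ≤ (inert X L (φ : L → ℂ)).subgroupOf X := fun x hx =>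
    le_inert hLX hn φ.2.isClassFunction hx
  have hφ' := GlaubPerm.irr_subgroupOf hLX φ.2
  have hχ₀ : IsIrrCharacter ((inert X L (φ : L → ℂ)).subgroupOf X) (fun x => (χ₀ : inert X L (φ : L → ℂ) → ℂ) (ee φ x)) :=
    χ₀.2.comp_surjective (ee (X := X) φ).toMonoidHom (ee (X := X) φ).surjective
  refine (CliffordCorr.corr_key hNT hφ' (inert_iff hLX hn φ hN) hχ₀ ?_ χ.2 ?_).1
  · rw [over_iff hLX hn φ hN hNT]; exact h.1
  · rw [IndFun.frobenius_reciprocity _ _ _ χ.2.isClassFunction, ← conj_classInner]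
    refine (map_ne_zero _).mpr ?_
    rw [res_iff]
    exact h.2

/-- Frobenius reciprocity -/
theorem CC.frob [Fintype X] {χ : IrrCharacter X} {χ₀ : IrrCharacter (inert X L (φ : L → ℂ))} (h : CC hLX hn φ χ χ₀)
    {f : X → ℂ} (hf : IsClassFunction X f) :
    classInner f (χ : X → ℂ) = classInner (fun x : inert X L (φ : L → ℂ) => f ⟨x, inert_le X L _ x.2⟩)
      (χ₀ : inert X L (φ : L → ℂ) → ℂ) := by
  classical
  have := Fintype.ofFinite ((inert X L (φ : L → ℂ)).subgroupOf X)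
  rw [← res_iff φ f, ← h.ind hLX hn φ, IndFun.frobenius_reciprocity' _ _ _ hf]

theorem CC.c3 {χ χ' : IrrCharacter X} {χ₀ : IrrCharacter (inert X L (φ : L → ℂ))} (h : CC hLX hn φ χ χ₀)
    (h' : CC hLX hn φ χ' χ₀) : χ = χ' := by
  have := Fintype.ofFinite X
  apply Subtype.ext
  rw [← h.ind hLX hn φ, ← h'.ind hLX hn φ]

theorem CC.c4 {χ : IrrCharacter X} {χ₀ χ₀' : IrrCharacter (inert X L (φ : L → ℂ))} (h : CC hLX hn φ χ χ₀)
    (h' : CC hLX hn φ χ χ₀') : χ₀ = χ₀' := by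
  classical
  have := Fintype.ofFinite X
  have := Fintype.ofFinite (L.subgroupOf X)
  have := Fintype.ofFinite ((inert X L (φ : L → ℂ)).subgroupOf X)
  have hN : (L.subgroupOf X).Normal := ⟨fun n hn' g => hn g g.2 n hn'⟩
  have hNT : L.subgroupOf X ≤ (inert X L (φ : L → ℂ)).subgroupOf X := fun x hx =>
    le_inert hLX hn φ.2.isClassFunction hx
  have hφ' := GlaubPerm.irr_subgroupOf hLX φ.2
  have hχ₀ : ∀ χ₀ : IrrCharacter (inert X L (φ : L → ℂ)), IsIrrCharacter ((inert X L (φ : L → ℂ)).subgroupOf X)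
      (fun x => (χ₀ : inert X L (φ : L → ℂ) → ℂ) (ee φ x)) := fun χ₀ =>
    χ₀.2.comp_surjective (ee (X := X) φ).toMonoidHom (ee (X := X) φ).surjective
  have h1 := CliffordCorr.corr_inj hNT hφ' (inert_iff hLX hn φ hN) (hχ₀ χ₀) (hχ₀ χ₀')
    (by rw [over_iff hLX hn φ hN hNT]; exact h.1) (by rw [over_iff hLX hn φ hN hNT]; exact h'.1)
    (by rw [h.ind hLX hn φ, h'.ind hLX hn φ])
  apply Subtype.ext
  funext x
  have h2 := congrFun h1 ((ee φ).symm x)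
  simpa using h2

theorem CC.c1 (χ : IrrCharacter X) (h : classInner (fun n : L => (χ : X → ℂ) ⟨n, hLX n.2⟩) (φ : L → ℂ) ≠ 0) :
    ∃ χ₀ : IrrCharacter (inert X L (φ : L → ℂ)), CC hLX hn φ χ χ₀ := by
  classical
  have := Fintype.ofFinite X
  have := Fintype.ofFinite (L.subgroupOf X)
  have := Fintype.ofFinite ((inert X L (φ : L → ℂ)).subgroupOf X)
  have hN : (L.subgroupOf X).Normal := ⟨fun n hn' g => hn g g.2 n hn'⟩
  have hNT : L.subgroupOf X ≤ (inert X L (φ : L → ℂ)).subgroupOf X := fun x hx =>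
    le_inert hLX hn φ.2.isClassFunction hx
  have hφ' := GlaubPerm.irr_subgroupOf hLX φ.2
  rw [← GlaubPerm.inner_subgroupOf hLX] at h
  obtain ⟨ψ, hψ, hi, hm⟩ := CliffordCorr.corr_surj hNT hφ' (inert_iff hLX hn φ hN) χ.2 h
  have hψe : ψ = fun x => ψ ((ee φ).symm (ee φ x)) := by funext x; rw [MulEquiv.symm_apply_apply]
  refine ⟨⟨fun x => ψ ((ee φ).symm x), hψ.comp_surjective (ee (X := X) φ).symm.toMonoidHom (ee (X := X) φ).symm.surjective⟩, ?_, ?_⟩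
  · have h1 := over_iff hLX hn φ hN hNT (fun x => ψ ((ee φ).symm x))
    rw [← hψe] at h1
    change classInner (fun n : L => ψ ((ee φ).symm _)) (φ : L → ℂ) ≠ 0
    rw [← h1, hm]
    exact h
  · have h1 := res_iff φ (χ : X → ℂ) (fun x => ψ ((ee φ).symm x))
    rw [← hψe] at h1
    change classInner _ (fun x => ψ ((ee φ).symm x)) ≠ 0
    rw [← h1, ← IndFun.frobenius_reciprocity' _ _ _ χ.2.isClassFunction, hi, χ.2.classInner_self]
    exact one_ne_zero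

theorem CC.c2 (χ₀ : IrrCharacter (inert X L (φ : L → ℂ)))
    (h : classInner (fun n : L => (χ₀ : inert X L (φ : L → ℂ) → ℂ) ⟨n, le_inert hLX hn φ.2.isClassFunction n.2⟩)
      (φ : L → ℂ) ≠ 0) :
    ∃ χ : IrrCharacter X, classInner (fun n : L => (χ : X → ℂ) ⟨n, hLX n.2⟩) (φ : L → ℂ) ≠ 0 ∧ CC hLX hn φ χ χ₀ := by
  classical
  have := Fintype.ofFinite X
  have := Fintype.ofFinite (L.subgroupOf X)
  have := Fintype.ofFinite ((inert X L (φ : L → ℂ)).subgroupOf X)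
  have hN : (L.subgroupOf X).Normal := ⟨fun n hn' g => hn g g.2 n hn'⟩
  have hNT : L.subgroupOf X ≤ (inert X L (φ : L → ℂ)).subgroupOf X := fun x hx =>
    le_inert hLX hn φ.2.isClassFunction hx
  have hφ' := GlaubPerm.irr_subgroupOf hLX φ.2
  have hχ₀ : IsIrrCharacter ((inert X L (φ : L → ℂ)).subgroupOf X) (fun x => (χ₀ : inert X L (φ : L → ℂ) → ℂ) (ee φ x)) :=
    χ₀.2.comp_surjective (ee (X := X) φ).toMonoidHom (ee (X := X) φ).surjective
  have h0 : classInner (CliffordCorr.resTo (L.subgroupOf X) ((inert X L (φ : L → ℂ)).subgroupOf X) hNT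
      (fun x => (χ₀ : inert X L (φ : L → ℂ) → ℂ) (ee φ x)))
      (fun n => (φ : L → ℂ) (Subgroup.subgroupOfEquivOfLe hLX n)) ≠ 0 := by
    rw [over_iff hLX hn φ hN hNT]; exact h
  obtain ⟨h1, h2⟩ := CliffordCorr.corr_irr hNT hφ' (inert_iff hLX hn φ hN) hχ₀ h0
  refine ⟨⟨_, h1⟩, ?_, h, ?_⟩
  · rw [← GlaubPerm.inner_subgroupOf hLX]
    exact ne_of_eq_of_ne h2 h0
  · rw [← res_iff]
    rw [← IndFun.frobenius_reciprocity' _ _ _ h1.isClassFunction]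
    change classInner (indFun _ _) (indFun _ _) ≠ 0
    rw [h1.classInner_self]
    exact one_ne_zero

theorem CC.self {χ : IrrCharacter X} {χ₀ : IrrCharacter (inert X L (φ : L → ℂ))} (h : CC hLX hn φ χ χ₀) :
    classInner (fun x : inert X L (φ : L → ℂ) => (χ : X → ℂ) ⟨x, inert_le X L _ x.2⟩)
      (χ₀ : inert X L (φ : L → ℂ) → ℂ) = 1 := by
  have := Fintype.ofFinite X
  rw [← h.frob hLX hn φ χ.2.isClassFunction, χ.2.classInner_self]

theorem CC.over {χ : IrrCharacter X} {χ₀ : IrrCharacter (inert X L (φ : L → ℂ))} (h : CC hLX hn φ χ χ₀) :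
    classInner (fun n : L => (χ : X → ℂ) ⟨n, hLX n.2⟩) (φ : L → ℂ) ≠ 0 :=
  GlaubPerm.over_trans (inert_le X L (φ : L → ℂ)) (le_inert hLX hn φ.2.isClassFunction) χ.2 χ₀.2 φ.2 h.2 h.1

/-! ### invariance -/

variable {S : Subgroup Γ} (hSX : ∀ s ∈ S, ∀ x ∈ X, s * x * s⁻¹ ∈ X) (hSL : ∀ s ∈ S, ∀ x ∈ L, s * x * s⁻¹ ∈ L)
  (hφS : Inv S L (φ : L → ℂ))

include hn hSX hSL hφS in
theorem inert_S : ∀ s ∈ S, ∀ x ∈ inert X L (φ : L → ℂ), s * x * s⁻¹ ∈ inert X L (φ : L → ℂ) := by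
  intro s hs x hx
  rw [mem_inert hn] at hx ⊢
  refine ⟨hSX s hs x hx.1, fun n n' hn' => ?_⟩
  have hs' := S.inv_mem hs
  have h1 : s⁻¹ * n * s ∈ L := by
    have := hSL s⁻¹ hs' n n.2
    rwa [inv_inv] at this
  have h2 : x * (s⁻¹ * n * s) * x⁻¹ ∈ L := hn x hx.1 _ h1
  have h3 := hφS s hs ⟨_, h2⟩ n' (by rw [hn']; simp only; group)
  have h4 := hx.2 ⟨_, h1⟩ ⟨_, h2⟩ rfl
  have h5 := hφS s hs ⟨_, h1⟩ n (by simp only; group)
  rw [h3, h4, ← h5]

theorem inv_iff {M : Subgroup Γ} (hM : ∀ s ∈ S, ∀ x ∈ M, s * x * s⁻¹ ∈ M) (χ : IrrCharacter M) :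
    Inv S M (χ : M → ℂ) ↔ ∀ s (hs : s ∈ S), cjI M s (hM s hs) χ = χ := by
  constructor
  · intro h s hs
    apply Subtype.ext
    funext x
    exact h s hs x _ rfl
  · intro h s hs g g' hg
    have h1 : g' = cjE M s (hM s hs) g := Subtype.ext hg
    conv_rhs => rw [← h s hs]
    rw [h1]
    rfl

theorem inner_cjI {M N : Subgroup Γ} [Fintype N] (hNM : N ≤ M) (s : Γ) (hM : ∀ x ∈ M, s * x * s⁻¹ ∈ M)
    (hN : ∀ x ∈ N, s * x * s⁻¹ ∈ N) (χ : IrrCharacter M) (ψ : IrrCharacter N) :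
    classInner (fun n : N => (cjI M s hM χ : M → ℂ) ⟨n, hNM n.2⟩) (cjI N s hN ψ : N → ℂ) =
      classInner (fun n : N => (χ : M → ℂ) ⟨n, hNM n.2⟩) (ψ : N → ℂ) :=
  H76RO.classInner_comp_hom (cjE_surj N s hN) (fun n : N => (χ : M → ℂ) ⟨n, hNM n.2⟩) (ψ : N → ℂ)

include hSX hSL hφS in
theorem CC.c5 {χ : IrrCharacter X} {χ₀ : IrrCharacter (inert X L (φ : L → ℂ))} (h : CC hLX hn φ χ χ₀)
    (hχ : Inv S X (χ : X → ℂ)) : Inv S (inert X L (φ : L → ℂ)) (χ₀ : inert X L (φ : L → ℂ) → ℂ) := by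
  rw [inv_iff (inert_S hn φ hSX hSL hφS)]
  rw [inv_iff hSX] at hχ
  rw [inv_iff hSL] at hφS
  intro s hs
  refine CC.c4 hLX hn φ (χ := χ) ⟨?_, ?_⟩ h
  · have h1 := inner_cjI (le_inert hLX hn φ.2.isClassFunction) s (inert_S hn φ hSX hSL ((inv_iff hSL φ).2 hφS) s hs)
      (hSL s hs) χ₀ φ
    rw [hφS s hs] at h1
    rw [h1]
    exact h.1
  · have h1 := inner_cjI (inert_le X L (φ : L → ℂ)) s (hSX s hs) (inert_S hn φ hSX hSL ((inv_iff hSL φ).2 hφS) s hs) χ χ₀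
    rw [hχ s hs] at h1
    rw [h1]
    exact h.2

include hSX hSL hφS in
theorem CC.c6 {χ : IrrCharacter X} {χ₀ : IrrCharacter (inert X L (φ : L → ℂ))} (h : CC hLX hn φ χ χ₀)
    (hχ₀ : Inv S (inert X L (φ : L → ℂ)) (χ₀ : inert X L (φ : L → ℂ) → ℂ)) : Inv S X (χ : X → ℂ) := by
  rw [inv_iff (inert_S hn φ hSX hSL hφS)] at hχ₀
  rw [inv_iff hSX]
  rw [inv_iff hSL] at hφS
  intro s hs
  refine CC.c3 hLX hn φ (χ₀ := χ₀) ⟨h.1, ?_⟩ h
  have h1 := inner_cjI (inert_le X L (φ : L → ℂ)) s (hSX s hs) (inert_S hn φ hSX hSL ((inv_iff hSL φ).2 hφS) s hs) χ χ₀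
  rw [hχ₀ s hs] at h1
  rw [h1]
  exact h.2

end cliff

section key

variable {Γ : Type u} [Group Γ] [Finite Γ] {G H L : Subgroup Γ}

theorem CC.key (hLG : L ≤ G) (hnG : ∀ g ∈ G, ∀ l ∈ L, g * l * g⁻¹ ∈ L) (hLH : L ≤ H)
    (hnH : ∀ g ∈ H, ∀ l ∈ L, g * l * g⁻¹ ∈ L) (hHG : H ≤ G) (φ : IrrCharacter L) [Fintype L] [Fintype H]
    [Fintype (inert G L (φ : L → ℂ))] [Fintype (inert H L (φ : L → ℂ))] {χ : IrrCharacter G} {ψ : IrrCharacter H}
    {χ₀ : IrrCharacter (inert G L (φ : L → ℂ))} {ψ₀ : IrrCharacter (inert H L (φ : L → ℂ))}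
    (h1 : CC hLG hnG φ χ χ₀) (h2 : CC hLH hnH φ ψ ψ₀) :
    classInner (fun x : H => (χ : G → ℂ) ⟨x, hHG x.2⟩) (ψ : H → ℂ) =
      classInner (fun x : inert H L (φ : L → ℂ) => (χ₀ : inert G L (φ : L → ℂ) → ℂ) ⟨x, inert_mono hHG _ x.2⟩)
        (ψ₀ : inert H L (φ : L → ℂ) → ℂ) := by
  classical
  have hcl : IsClassFunction H (fun x : H => (χ : G → ℂ) ⟨x, hHG x.2⟩) :=
    (χ.2.isCharacter.comp (Subgroup.inclusion hHG)).isClassFunction
  rw [h2.frob hLH hnH φ hcl]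
  have hres : IsCharacter (inert G L (φ : L → ℂ)) (fun x => (χ : G → ℂ) ⟨x, inert_le G L _ x.2⟩) :=
    χ.2.isCharacter.comp (Subgroup.inclusion (inert_le G L _))
  have h3 : (fun x : inert H L (φ : L → ℂ) => (χ : G → ℂ) ⟨x, hHG (inert_le H L _ x.2)⟩) =
      ∑ ζ : IrrCharacter (inert G L (φ : L → ℂ)),
        classInner (fun x : inert G L (φ : L → ℂ) => (χ : G → ℂ) ⟨x, inert_le G L _ x.2⟩) (ζ : inert G L (φ : L → ℂ) → ℂ) •
          fun x : inert H L (φ : L → ℂ) => (ζ : inert G L (φ : L → ℂ) → ℂ) ⟨x, inert_mono hHG _ x.2⟩ := by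
    funext x
    have h4 := congrFun hres.isClassFunction.expansion ⟨(x : Γ), inert_mono hHG _ x.2⟩
    simp only [Finset.sum_apply, Pi.smul_apply] at h4 ⊢
    exact h4
  rw [h3, classInner_sum_left, Finset.sum_eq_single χ₀]
  · rw [classInner_smul_left, h1.self hLG hnG φ, one_mul]
  · intro ζ _ hne
    rw [classInner_smul_left]
    by_cases h5 : classInner (fun x : inert G L (φ : L → ℂ) => (χ : G → ℂ) ⟨x, inert_le G L _ x.2⟩)
        (ζ : inert G L (φ : L → ℂ) → ℂ) = 0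
    · rw [h5, zero_mul]
    by_cases h6 : classInner (fun x : inert H L (φ : L → ℂ) => (ζ : inert G L (φ : L → ℂ) → ℂ) ⟨x, inert_mono hHG _ x.2⟩)
        (ψ₀ : inert H L (φ : L → ℂ) → ℂ) = 0
    · rw [h6, mul_zero]
    exfalso
    apply hne
    refine CC.c4 hLG hnG φ (χ := χ) ⟨?_, h5⟩ h1
    exact GlaubPerm.over_trans (inert_mono hHG _) (le_inert hLH hnH φ.2.isClassFunction) ζ.2 ψ₀.2 φ.2 h6 h2.1
  · intro h; exact absurd (Finset.mem_univ _) h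

/-- Glauberman's lemma for invariant characters of `L` -/
theorem glaub_conj {X S : Subgroup Γ} (hnX : ∀ g ∈ X, ∀ l ∈ L, g * l * g⁻¹ ∈ L)
    (hSL : ∀ s ∈ S, ∀ l ∈ L, s * l * s⁻¹ ∈ L) (hSX : ∀ s ∈ S, ∀ l ∈ X, s * l * s⁻¹ ∈ X)
    (hcop : (Nat.card X).Coprime (Nat.card S)) (hsol : Group.IsSolvable X) (φ φ' : IrrCharacter L)
    (hφ : Inv S L (φ : L → ℂ)) (hφ' : Inv S L (φ' : L → ℂ)) {g : Γ} (hg : g ∈ X)
    (hgφ : ∀ n n' : L, (n' : Γ) = g * n * g⁻¹ → (φ : L → ℂ) n = (φ' : L → ℂ) n') :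
    ∃ c ∈ X, (∀ s ∈ S, s * c = c * s) ∧ ∀ n n' : L, (n' : Γ) = c * n * c⁻¹ → (φ : L → ℂ) n = (φ' : L → ℂ) n' := by
  classical
  set N := Subgroup.normalizer (L : Set Γ) with hN
  have hXN : X ≤ N := fun x hx => nor_of L x (hnX x hx)
  have hSN : S ≤ N := fun x hx => nor_of L x (hSL x hx)
  letI : MulAction N (IrrCharacter L) := MulAction.compHom (IrrCharacter L) (GlaubPerm.T L)
  have hsm : ∀ (x : N) (θ : IrrCharacter L), x • θ = GlaubPerm.T L x θ := fun _ _ => rfl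
  have hsolX : Group.IsSolvable (X.subgroupOf N) :=
    Group.isSolvable_of_surjective (f := (Subgroup.subgroupOfEquivOfLe hXN).symm.toMonoidHom)
      (Subgroup.subgroupOfEquivOfLe hXN).symm.surjective
  have hc1 : Nat.card (X.subgroupOf N) = Nat.card X := Nat.card_congr (Subgroup.subgroupOfEquivOfLe hXN).toEquiv
  have hc2 : Nat.card (S.subgroupOf N) = Nat.card S := Nat.card_congr (Subgroup.subgroupOfEquivOfLe hSN).toEquiv
  obtain ⟨c, hc, hcφ⟩ := CoprimeAction.exists_smul_eq_of_fixed (G := N) (X := IrrCharacter L) (A := S.subgroupOf N)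
    (K := X.subgroupOf N) (fun s hs => nor_of _ s fun x hx => hSX _ hs _ hx) (by rw [hc1, hc2]; exact hcop.symm)
    (Or.inr hsolX) (x := φ) (y := φ') (fun s hs => (GlaubPerm.T_eq_iff L s φ).2 (hφ _ hs))
    (fun s hs => (GlaubPerm.T_eq_iff L s φ').2 (hφ' _ hs)) ⟨⟨g, hXN hg⟩, hg, by
      rw [hsm]
      apply Subtype.ext
      funext n
      have h1 : g⁻¹ * n * g ∈ L := by
        have := hnX g⁻¹ (X.inv_mem hg) n n.2
        rwa [inv_inv] at this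
      rw [GlaubPerm.T_apply L ⟨g, hXN hg⟩ φ n ⟨_, h1⟩ rfl]
      exact hgφ _ _ (by simp only; group)⟩
  obtain ⟨hcX, hcS⟩ := Subgroup.mem_inf.1 hc
  refine ⟨c, hcX, ?_, ?_⟩
  · intro s hs
    have := Subgroup.mem_centralizer_iff.1 hcS ⟨s, hSN hs⟩ hs
    exact congrArg Subtype.val this
  · intro n n' hn'
    rw [← hcφ, hsm, GlaubPerm.T_apply L c φ n' n (by rw [hn']; group)]

end key

end Cfsg.Agent.Lib.IsaOdd
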