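import Mathlib
import Cfsg.Agent.Lib.IsaOdd7
import Cfsg.Agent.Lib.CoprimeAction2

/-!
# The parity correspondence (helper78)
-/

set_option autoImplicit false
set_option linter.all false

namespace Cfsg.Agent.Lib.IsaOdd

open Cfsg Cfsg.Agent.Lib.CharBasic Cfsg.Agent.Lib.Clifford
open scoped ComplexConjugate

universe u

section

variable {Γ : Type u} [Group Γ] [Finite Γ] {S G K L H : Subgroup Γ}

theorem sol_of_le {X Y : Subgroup Γ} (h : X ≤ Y) (hY : Group.IsSolvable Y) : Group.IsSolvable X :=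
  Group.isSolvable_of_isSolvable_injective (f := Subgroup.inclusion h) (Subgroup.inclusion_injective h)

theorem Hyp.inertHyp (h : Hyp S G K L H) [Fintype L] (φ : IrrCharacter L) (hφS : Inv S L (φ : L → ℂ)) :
    Hyp S (inert G L (φ : L → ℂ)) (inert K L (φ : L → ℂ)) L (inert H L (φ : L → ℂ)) := by
  have hLG := h.LK.trans h.KG
  have hnK : ∀ g ∈ K, ∀ l ∈ L, g * l * g⁻¹ ∈ L := fun g hg => h.nGL g (h.KG hg)
  have hnH : ∀ g ∈ H, ∀ l ∈ L, g * l * g⁻¹ ∈ L := fun g hg => h.nGL g (h.HG hg)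
  have hdvd := Subgroup.card_dvd_of_le (inert_le G L (φ : L → ℂ))
  have := Fintype.ofFinite (inert G L (φ : L → ℂ))
  have := Fintype.ofFinite (inert K L (φ : L → ℂ))
  have := Fintype.ofFinite (inert H L (φ : L → ℂ))
  refine
  { LK := le_inert h.LK hnK φ.2.isClassFunction
    KG := inert_mono h.KG _
    LH := le_inert h.LH hnH φ.2.isClassFunction
    HG := inert_mono h.HG _
    GKH := ?_
    KH := fun x hx hx' => h.KH x (inert_le _ _ _ hx) (inert_le _ _ _ hx')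
    ab := fun a ha b hb => h.ab a (inert_le _ _ _ ha) b (inert_le _ _ _ hb)
    nGK := ?_
    nGL := fun g hg => h.nGL g (inert_le _ _ _ hg)
    nSG := inert_S h.nGL φ h.nSG h.nSL hφS
    nSK := inert_S hnK φ h.nSK h.nSL hφS
    nSL := h.nSL
    nSH := inert_S hnH φ h.nSH h.nSL hφS
    cHS := fun x hx => h.cHS x (inert_le _ _ _ hx)
    free := fun x hx => h.free x (inert_le _ _ _ hx)
    odd := ?_
    cop := Nat.Coprime.coprime_dvd_left hdvd h.cop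
    sol := sol_of_le (inert_le _ _ _) h.sol }
  · intro g hg
    obtain ⟨k, hk, x, hx, hgkx⟩ := h.GKH g (inert_le _ _ _ hg)
    have hg2 := ((mem_inert h.nGL).1 hg).2
    -- the conjugate character
    have hkey : ∀ m : L, ∀ hm1 : k * m * k⁻¹ ∈ L, ∀ hm2 : x⁻¹ * m * x ∈ L,
        (φ : L → ℂ) ⟨k * m * k⁻¹, hm1⟩ = (φ : L → ℂ) ⟨x⁻¹ * m * x, hm2⟩ := by
      intro m hm1 hm2
      apply hg2
      rw [hgkx]
      simp only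
      group
    have hx' : ∀ m ∈ L, x⁻¹ * m * x ∈ L := by
      intro m hm
      have := hnH x⁻¹ (H.inv_mem hx) m hm
      rwa [inv_inv] at this
    have hφ' : Inv S L (cjI L k (hnK k hk) φ : L → ℂ) := by
      intro s hs m m' hm
      change (φ : L → ℂ) ⟨k * m' * k⁻¹, _⟩ = (φ : L → ℂ) ⟨k * m * k⁻¹, _⟩
      rw [hkey m' (hnK k hk _ m'.2) (hx' _ m'.2), hkey m (hnK k hk _ m.2) (hx' _ m.2)]
      obtain ⟨l, hl⟩ : ∃ l : L, (l : Γ) = x⁻¹ * s * x⁻¹⁻¹ * s⁻¹ := ⟨⟨_, h.cHS x⁻¹ (H.inv_mem hx) s hs⟩, rfl⟩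
      have h1 : s * (x⁻¹ * m * x) * s⁻¹ ∈ L := h.nSL s hs _ (hx' _ m.2)
      rw [← hφS s hs ⟨_, hx' _ m.2⟩ ⟨_, h1⟩ rfl, ← φ.2.isClassFunction ⟨_, h1⟩ l]
      refine congrArg (φ : L → ℂ) (Subtype.ext ?_)
      simp only [Subgroup.coe_mul, Subgroup.coe_inv]
      rw [hl, hm]
      group
    obtain ⟨c, hcK, hcS, hc⟩ := glaub_conj (X := K) (S := S) hnK h.nSL h.nSK
      (Nat.Coprime.coprime_dvd_left (Subgroup.card_dvd_of_le h.KG) h.cop) (sol_of_le h.KG h.sol)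
      (cjI L k (hnK k hk) φ) φ hφ' hφS hk (by
        intro n n' hn'
        change (φ : L → ℂ) _ = _
        exact congrArg (φ : L → ℂ) (Subtype.ext hn'.symm))
    have hcL : c ∈ L := by
      apply h.free c hcK
      intro s hs
      rw [hcS s hs, mul_inv_cancel_right, mul_inv_cancel]
      exact L.one_mem
    have hki : k ∈ inert K L (φ : L → ℂ) := by
      rw [mem_inert hnK]
      refine ⟨hk, fun n n' hn' => ?_⟩
      have h1 : (φ : L → ℂ) n' = (cjI L k (hnK k hk) φ : L → ℂ) n := by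
        change _ = (φ : L → ℂ) _
        exact congrArg (φ : L → ℂ) (Subtype.ext hn')
      have h2 : c * n * c⁻¹ ∈ L := hnK c hcK _ n.2
      rw [h1, hc n ⟨_, h2⟩ rfl, ← φ.2.isClassFunction n ⟨c, hcL⟩]
      rfl
    refine ⟨k, hki, x, ?_, hgkx⟩
    have h3 : x = k⁻¹ * g := by rw [hgkx]; group
    have h4 : x ∈ inert G L (φ : L → ℂ) := by
      rw [h3]
      exact (inert G L (φ : L → ℂ)).mul_mem ((inert G L (φ : L → ℂ)).inv_mem (inert_mono h.KG _ hki)) hg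
    exact ⟨hx, h4.2⟩
  · intro g hg k hk
    have h1 : g * k * g⁻¹ ∈ inert G L (φ : L → ℂ) :=
      (inert G L (φ : L → ℂ)).mul_mem ((inert G L (φ : L → ℂ)).mul_mem hg (inert_mono h.KG _ hk))
        ((inert G L (φ : L → ℂ)).inv_mem hg)
    exact ⟨h.nGK g (inert_le _ _ _ hg) k (inert_le _ _ _ hk), h1.2⟩
  · obtain ⟨c, hc⟩ := hdvd
    have := h.odd
    rw [hc, Nat.odd_mul] at this
    exact this.1

/-- an invariant constituent on `L` -/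
theorem Hyp.belowL (h : Hyp S G K L H) [Fintype L] {X : Subgroup Γ} (hLX : L ≤ X) (hXG : X ≤ G)
    (hSX : ∀ s ∈ S, ∀ x ∈ X, s * x * s⁻¹ ∈ X) (χ : IrrCharacter X) (hχ : Inv S X (χ : X → ℂ)) :
    ∃ φ : IrrCharacter L, classInner (fun n : L => (χ : X → ℂ) ⟨n, hLX n.2⟩) (φ : L → ℂ) ≠ 0 ∧ Inv S L (φ : L → ℂ) := by
  have hn : (L.subgroupOf X).Normal := ⟨fun n hn g => h.nGL g (hXG g.2) n hn⟩
  have hsolX := sol_of_le hXG h.sol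
  exact GlaubPerm.below (S := S) hLX hSX h.nSL
    (Nat.Coprime.coprime_dvd_left ((Subgroup.relIndex_dvd_card L X).trans (Subgroup.card_dvd_of_le hXG))
      (Nat.Coprime.coprime_dvd_right (Subgroup.relIndex_dvd_card L S) h.cop))
    (Or.inr inferInstance) χ hχ

theorem Hyp.final (h : Hyp S G K L H) (hCH : ∀ c ∈ G, (∀ s ∈ S, s * c = c * s) → c ∈ H) [Fintype H] :
    (∀ χ : IrrCharacter G, Inv S G (χ : G → ℂ) → ∃! ψ : IrrCharacter H, Inv S H (ψ : H → ℂ) ∧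
      ∃ m : ℕ, classInner (fun x : H => (χ : G → ℂ) ⟨x, h.HG x.2⟩) (ψ : H → ℂ) = (m : ℂ) ∧ Odd m) ∧
    (∀ χ χ' : IrrCharacter G, Inv S G (χ : G → ℂ) → Inv S G (χ' : G → ℂ) → ∀ ψ : IrrCharacter H, Inv S H (ψ : H → ℂ) →
      ∀ m m' : ℕ, classInner (fun x : H => (χ : G → ℂ) ⟨x, h.HG x.2⟩) (ψ : H → ℂ) = (m : ℂ) → Odd m →
        classInner (fun x : H => (χ' : G → ℂ) ⟨x, h.HG x.2⟩) (ψ : H → ℂ) = (m' : ℂ) → Odd m' → χ = χ') ∧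
    (∀ ψ : IrrCharacter H, Inv S H (ψ : H → ℂ) → ∃ χ : IrrCharacter G, Inv S G (χ : G → ℂ) ∧
      ∃ m : ℕ, classInner (fun x : H => (χ : G → ℂ) ⟨x, h.HG x.2⟩) (ψ : H → ℂ) = (m : ℂ) ∧ Odd m) := by
  classical
  have := Fintype.ofFinite L
  have hLG := h.LK.trans h.KG
  have hnH : ∀ g ∈ H, ∀ l ∈ L, g * l * g⁻¹ ∈ L := fun g hg => h.nGL g (h.HG hg)
  have hodd0 : ∀ {z : ℂ} {m : ℕ}, z = (m : ℂ) → Odd m → z ≠ 0 := by
    intro z m h1 h2 h3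
    rw [h1] at h3
    have : m = 0 := by exact_mod_cast h3
    rw [this] at h2
    exact absurd h2 (by decide)
  have hoe : ∀ {z : ℂ} {m m' : ℕ}, z = (m : ℂ) → z = (m' : ℂ) → Odd m → Even m' → False := by
    intro z m m' h1 h2 h3 h4
    have : m = m' := by exact_mod_cast h1.symm.trans h2
    rw [this] at h3
    exact Nat.not_even_iff_odd.2 h3 h4
  -- the statement over a fixed invariant `φ`
  have fin : ∀ φ : IrrCharacter L, Inv S L (φ : L → ℂ) → ∃ Rl : IrrCharacter G → IrrCharacter H → Prop,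
      (∀ χ : IrrCharacter G, Inv S G (χ : G → ℂ) →
        classInner (fun n : L => (χ : G → ℂ) ⟨n, hLG n.2⟩) (φ : L → ℂ) ≠ 0 →
        ∃ ψ : IrrCharacter H, classInner (fun n : L => (ψ : H → ℂ) ⟨n, h.LH n.2⟩) (φ : L → ℂ) ≠ 0 ∧
          Inv S H (ψ : H → ℂ) ∧ Rl χ ψ ∧
          (∃ m : ℕ, Odd m ∧ classInner (fun x : H => (χ : G → ℂ) ⟨x, h.HG x.2⟩) (ψ : H → ℂ) = m) ∧
          ∀ ψ' : IrrCharacter H, classInner (fun n : L => (ψ' : H → ℂ) ⟨n, h.LH n.2⟩) (φ : L → ℂ) ≠ 0 → ψ' ≠ ψ →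
            ∃ m : ℕ, Even m ∧ classInner (fun x : H => (χ : G → ℂ) ⟨x, h.HG x.2⟩) (ψ' : H → ℂ) = m) ∧
      (∀ χ χ' : IrrCharacter G, ∀ ψ : IrrCharacter H, Rl χ ψ → Rl χ' ψ → χ = χ') ∧
      (∀ ψ : IrrCharacter H, Inv S H (ψ : H → ℂ) →
        classInner (fun n : L => (ψ : H → ℂ) ⟨n, h.LH n.2⟩) (φ : L → ℂ) ≠ 0 →
        ∃ χ : IrrCharacter G, Inv S G (χ : G → ℂ) ∧
          classInner (fun n : L => (χ : G → ℂ) ⟨n, hLG n.2⟩) (φ : L → ℂ) ≠ 0 ∧ Rl χ ψ) ∧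
      (∀ χ : IrrCharacter G, ∀ ψ ψ' : IrrCharacter H, Rl χ ψ → Rl χ ψ' → ψ = ψ') := by
    intro φ hφS
    have := Fintype.ofFinite (inert G L (φ : L → ℂ))
    have := Fintype.ofFinite (inert H L (φ : L → ℂ))
    obtain ⟨Rl, hR1, hR2, hR3, hR4⟩ := (h.inertHyp φ hφS).main φ
      (fun g hg => ((mem_inert h.nGL).1 hg).2) hφS
    have hkey : ∀ {χ : IrrCharacter G} {ψ : IrrCharacter H} {χ₀ ψ₀}, CC hLG h.nGL φ χ χ₀ → CC h.LH hnH φ ψ ψ₀ → _ :=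
      fun {χ ψ χ₀ ψ₀} h1 h2 => CC.key hLG h.nGL h.LH hnH h.HG φ h1 h2
    refine ⟨fun χ ψ => ∃ χ₀ ψ₀, CC hLG h.nGL φ χ χ₀ ∧ CC h.LH hnH φ ψ ψ₀ ∧ Rl χ₀ ψ₀, ?_, ?_, ?_, ?_⟩
    · intro χ hχ hov
      obtain ⟨χ₀, hχ₀⟩ := CC.c1 hLG h.nGL φ χ hov
      obtain ⟨ψ₀, hψo, hψi, hRl, ⟨m, hm, hm1⟩, hev⟩ := hR1 χ₀ (hχ₀.c5 hLG h.nGL φ h.nSG h.nSL hφS hχ) hχ₀.1
      obtain ⟨ψ, hψ1, hψ2⟩ := CC.c2 h.LH hnH φ ψ₀ hψo
      refine ⟨ψ, hψ1, hψ2.c6 h.LH hnH φ h.nSH h.nSL hφS hψi, ⟨χ₀, ψ₀, hχ₀, hψ2, hRl⟩, ⟨m, hm, ?_⟩, ?_⟩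
      · rw [hkey hχ₀ hψ2]; exact hm1
      · intro ψ' hψ'o hne
        obtain ⟨ψ₀', hψ₀'⟩ := CC.c1 h.LH hnH φ ψ' hψ'o
        obtain ⟨m', hm', hm1'⟩ := hev ψ₀' hψ₀'.1 (by
          rintro rfl
          exact hne (hψ₀'.c3 h.LH hnH φ hψ2))
        refine ⟨m', hm', ?_⟩
        rw [hkey hχ₀ hψ₀']; exact hm1'
    · rintro χ χ' ψ ⟨χ₀, ψ₀, h1, h2, h3⟩ ⟨χ₀', ψ₀', h1', h2', h3'⟩
      have h4 := h2.c4 h.LH hnH φ h2'
      subst h4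
      have h5 := hR2 _ _ _ h3 h3'
      subst h5
      exact h1.c3 hLG h.nGL φ h1'
    · intro ψ hψ hov
      obtain ⟨ψ₀, hψ₀⟩ := CC.c1 h.LH hnH φ ψ hov
      obtain ⟨χ₀, hχi, hχo, hRl⟩ := hR3 ψ₀ (hψ₀.c5 h.LH hnH φ h.nSH h.nSL hφS hψ) hψ₀.1
      obtain ⟨χ, hχ1, hχ2⟩ := CC.c2 hLG h.nGL φ χ₀ hχo
      exact ⟨χ, hχ2.c6 hLG h.nGL φ h.nSG h.nSL hφS hχi, hχ1, χ₀, ψ₀, hχ2, hψ₀, hRl⟩
    · rintro χ ψ ψ' ⟨χ₀, ψ₀, h1, h2, h3⟩ ⟨χ₀', ψ₀', h1', h2', h3'⟩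
      have h4 := h1.c4 hLG h.nGL φ h1'
      subst h4
      have h5 := hR4 _ _ _ h3 h3'
      subst h5
      exact h2.c3 h.LH hnH φ h2'
  -- an invariant `φ` below `ψ` is below `χ`
  have htr : ∀ {χ : IrrCharacter G} {ψ : IrrCharacter H} {φ : IrrCharacter L},
      classInner (fun x : H => (χ : G → ℂ) ⟨x, h.HG x.2⟩) (ψ : H → ℂ) ≠ 0 →
      classInner (fun n : L => (ψ : H → ℂ) ⟨n, h.LH n.2⟩) (φ : L → ℂ) ≠ 0 →
      classInner (fun n : L => (χ : G → ℂ) ⟨n, hLG n.2⟩) (φ : L → ℂ) ≠ 0 := by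
    intro χ ψ φ h1 h2
    exact GlaubPerm.over_trans h.HG h.LH χ.2 ψ.2 φ.2 h1 h2
  have hLGn : (L.subgroupOf G).Normal := ⟨fun n hn g => h.nGL g g.2 n hn⟩
  refine ⟨?_, ?_, ?_⟩
  · intro χ hχ
    obtain ⟨φ, hφo, hφS⟩ := h.belowL hLG le_rfl h.nSG χ hχ
    obtain ⟨Rl, hR1, hR2, hR3, hR4⟩ := fin φ hφS
    obtain ⟨ψ, hψo, hψi, hRl, ⟨m, hm, hm1⟩, hev⟩ := hR1 χ hχ hφo
    refine ⟨ψ, ⟨hψi, m, hm1, hm⟩, ?_⟩
    rintro ψ' ⟨hψ'i, m', hm1', hm'⟩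
    by_contra hne
    -- `ψ'` lies over `φ`
    obtain ⟨φ', hφ'o, hφ'S⟩ := h.belowL h.LH h.HG h.nSH ψ' hψ'i
    have h1 := htr (hodd0 hm1' hm') hφ'o
    obtain ⟨g, hg, hgφ⟩ := GlaubPerm.conj_below hLG χ.2 hφo h1
    obtain ⟨c, hcG, hcS, hc⟩ := glaub_conj (X := G) (S := S) h.nGL h.nSL h.nSG h.cop h.sol φ' φ hφ'S hφS hg hgφ
    have hcH := hCH c hcG hcS
    have h2 : classInner (fun n : L => (ψ' : H → ℂ) ⟨n, h.LH n.2⟩) (φ : L → ℂ) ≠ 0 := by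
      have h3 := H76RO.classInner_comp_hom (cjE_surj L c (h.nGL c hcG)) (fun n : L => (ψ' : H → ℂ) ⟨n, h.LH n.2⟩) (φ : L → ℂ)
      have h4 : (fun n : L => (fun n : L => (ψ' : H → ℂ) ⟨n, h.LH n.2⟩) (cjE L c (h.nGL c hcG) n)) =
          fun n : L => (ψ' : H → ℂ) ⟨n, h.LH n.2⟩ := by
        funext n
        exact ψ'.2.isClassFunction ⟨n, h.LH n.2⟩ ⟨c, hcH⟩
      have h5 : (fun n : L => (φ : L → ℂ) (cjE L c (h.nGL c hcG) n)) = (φ' : L → ℂ) := by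
        funext n
        exact (hc n _ rfl).symm
      rw [h4, h5] at h3
      rw [← h3]
      exact hφ'o
    obtain ⟨m'', hm'', hm1''⟩ := hev ψ' h2 hne
    exact hoe hm1' hm1'' hm' hm''
  · intro χ χ' hχ hχ' ψ hψ m m' hm1 hm hm1' hm'
    obtain ⟨φ, hφo, hφS⟩ := h.belowL h.LH h.HG h.nSH ψ hψ
    obtain ⟨Rl, hR1, hR2, hR3, hR4⟩ := fin φ hφS
    have key : ∀ (χ : IrrCharacter G) (m : ℕ), Inv S G (χ : G → ℂ) →
        classInner (fun x : H => (χ : G → ℂ) ⟨x, h.HG x.2⟩) (ψ : H → ℂ) = (m : ℂ) → Odd m → Rl χ ψ := by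
      intro χ m hχ hm1 hm
      have ho := htr (hodd0 hm1 hm) hφo
      obtain ⟨ψ₁, -, -, hRl, -, hev⟩ := hR1 χ hχ ho
      by_cases hne : ψ = ψ₁
      · rw [hne]; exact hRl
      · obtain ⟨k, hk, hk1⟩ := hev ψ hφo hne
        exact (hoe hm1 hk1 hm hk).elim
    exact hR2 _ _ _ (key χ m hχ hm1 hm) (key χ' m' hχ' hm1' hm')
  · intro ψ hψ
    obtain ⟨φ, hφo, hφS⟩ := h.belowL h.LH h.HG h.nSH ψ hψ
    obtain ⟨Rl, hR1, hR2, hR3, hR4⟩ := fin φ hφS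
    obtain ⟨χ, hχi, hχo, hRl⟩ := hR3 ψ hψ hφo
    obtain ⟨ψ₁, -, -, hRl₁, ⟨m, hm, hm1⟩, -⟩ := hR1 χ hχi hχo
    have heq := hR4 _ _ _ hRl hRl₁
    subst heq
    exact ⟨χ, hχi, m, hm1, hm⟩

end

end Cfsg.Agent.Lib.IsaOdd
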