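import Mathlib
import Cfsg.Agent.Lib.IsaOdd8

/-!
# The parity correspondence, reduction (helper78)
-/

set_option autoImplicit false
set_option linter.all false

namespace Cfsg.Agent.Lib.IsaOdd

open Cfsg Cfsg.Agent.Lib.CharBasic Cfsg.Agent.Lib.Clifford
open scoped ComplexConjugate commutatorElement

universe u

section

variable {Γ : Type u} [Group Γ] [Finite Γ]

theorem mem_sup_nor {H K : Subgroup Γ} (h : K ≤ Subgroup.normalizer (H : Set Γ)) {x : Γ} (hx : x ∈ H ⊔ K) :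
    ∃ a ∈ H, ∃ b ∈ K, x = a * b := by
  rw [← SetLike.mem_coe, Subgroup.coe_mul_of_right_le_normalizer_left H K h, Set.mem_mul] at hx
  obtain ⟨a, ha, b, hb, hab⟩ := hx
  exact ⟨a, ha, b, hb, hab.symm⟩

/-- `⁅K, S⁆ L / L` has no fixed points -/
theorem free_of (G S K L : Subgroup Γ) (hLK : L ≤ K) (hKG : K ≤ G)
    (hcop : (Nat.card G).Coprime (Nat.card S)) (hLn : ∀ g ∈ K, ∀ l ∈ L, g * l * g⁻¹ ∈ L)
    (hKS : ∀ s ∈ S, ∀ k ∈ K, s * k * s⁻¹ ∈ K) (hLS : ∀ s ∈ S, ∀ l ∈ L, s * l * s⁻¹ ∈ L)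
    (hab : ∀ a ∈ K, ∀ b ∈ K, a * b * a⁻¹ * b⁻¹ ∈ L) (x : Γ) (hx : x ∈ ⁅K, S⁆ ⊔ L)
    (hxS : ∀ s ∈ S, s * x * s⁻¹ * x⁻¹ ∈ L) : x ∈ L := by
  classical
  have := Fintype.ofFinite S
  have hcomm : ⁅K, S⁆ ≤ K := by
    rw [Subgroup.commutator_le]
    intro k hk s hs
    rw [commutatorElement_def]
    have : k * s * k⁻¹ * s⁻¹ = k * (s * k⁻¹ * s⁻¹) := by group
    rw [this]
    exact K.mul_mem hk (hKS s hs _ (K.inv_mem hk))
  have hxK : x ∈ K := (sup_le hcomm hLK) hx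
  set N : Subgroup K := L.subgroupOf K with hN
  have hNn : N.Normal := ⟨fun n hn g => hLn g g.2 n hn⟩
  have habq : ∀ a b : K ⧸ N, a * b = b * a := by
    intro a b
    obtain ⟨a, rfl⟩ := QuotientGroup.mk_surjective a
    obtain ⟨b, rfl⟩ := QuotientGroup.mk_surjective b
    rw [← QuotientGroup.mk_mul, ← QuotientGroup.mk_mul, eq_comm, QuotientGroup.eq]
    change ((b : Γ) * a)⁻¹ * (a * b) ∈ L
    have h3 := hab (a : Γ)⁻¹ (K.inv_mem a.2) (b : Γ)⁻¹ (K.inv_mem b.2)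
    have e : ((b : Γ) * a)⁻¹ * (a * b) = (a : Γ)⁻¹ * (b : Γ)⁻¹ * (a : Γ)⁻¹⁻¹ * (b : Γ)⁻¹⁻¹ := by group
    rw [e]; exact h3
  letI : CommGroup (K ⧸ N) := { (inferInstance : Group (K ⧸ N)) with mul_comm := habq }
  let mk : K →* K ⧸ N := QuotientGroup.mk' N
  have hmk : ∀ y : K, mk y = 1 ↔ (y : Γ) ∈ L := fun y => QuotientGroup.eq_one_iff y
  let σ : S → (K →* K) := fun s =>
    { toFun := fun x => ⟨s * x * (s : Γ)⁻¹, hKS s s.2 x x.2⟩
      map_one' := Subtype.ext (by simp)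
      map_mul' := fun a b => Subtype.ext (by simp [mul_assoc]) }
  have hσ : ∀ s x, ((σ s x : K) : Γ) = s * x * (s : Γ)⁻¹ := fun _ _ => rfl
  let E : K →* K ⧸ N := ∏ s : S, mk.comp (σ s)
  have hE : ∀ y, E y = ∏ s : S, mk (σ s y) := fun y => by
    simp only [E, MonoidHom.finsetProd_apply]
    rfl
  have hEσ : ∀ s y, E (σ s y) = E y := by
    intro s y
    rw [hE, hE]
    refine Fintype.prod_equiv (Equiv.mulRight s) _ _ fun s' => ?_
    congr 1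
    apply Subtype.ext
    rw [Equiv.coe_mulRight, hσ, hσ, hσ, Subgroup.coe_mul]
    group
  -- `E` kills `⁅K, S⁆` and `L`
  have hker : ⁅K, S⁆ ⊔ L ≤ E.ker.map K.subtype := by
    apply sup_le
    · rw [Subgroup.commutator_le]
      intro k hk s hs
      refine ⟨⟨k, hk⟩ * σ ⟨s, hs⟩ ⟨k, hk⟩⁻¹, ?_, ?_⟩
      · change _ ∈ E.ker
        rw [MonoidHom.mem_ker, map_mul, hEσ, map_inv, mul_inv_cancel]
      · change k * (s * k⁻¹ * s⁻¹) = _
        rw [commutatorElement_def]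
        group
    · intro l hl
      refine ⟨⟨l, hLK hl⟩, ?_, rfl⟩
      change _ ∈ E.ker
      rw [MonoidHom.mem_ker, hE]
      refine Finset.prod_eq_one fun s _ => ?_
      rw [hmk, hσ]
      exact hLS s s.2 l hl
  obtain ⟨y, hy, hyx⟩ := hker hx
  have hyx' : (y : Γ) = x := hyx
  have h1 : E y = 1 := hy
  have h2 : E y = (mk y) ^ Nat.card S := by
    rw [hE, Nat.card_eq_fintype_card, ← Finset.card_univ, ← Finset.prod_const]
    refine Finset.prod_congr rfl fun s _ => ?_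
    rw [← mul_inv_eq_one, ← map_inv, ← map_mul, hmk, Subgroup.coe_mul, hσ, Subgroup.coe_inv, hyx']
    exact hxS s s.2
  rw [h1] at h2
  have h3 : (mk y) ^ Nat.card G = 1 := by
    obtain ⟨c, hc⟩ := Subgroup.card_dvd_of_le hKG
    have : y ^ Nat.card K = 1 := pow_card_eq_one'
    rw [← map_pow, hc, pow_mul, this, one_pow, map_one]
  have h4 := mem_of_pow (⊥ : Subgroup (K ⧸ N)) hcop.symm (x := mk y) (by rw [← h2]; exact one_mem _) (by rw [h3]; exact one_mem _)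
  rw [Subgroup.mem_bot, hmk, hyx'] at h4
  exact h4

theorem hyp_of (G S : Subgroup Γ) (hnorm : ∀ s ∈ S, ∀ g ∈ G, s * g * s⁻¹ ∈ G)
    (hcop : (Nat.card G).Coprime (Nat.card S)) (hGsolv : Group.IsSolvable G) (hodd : Odd (Nat.card G)) (C : Subgroup Γ)
    (hC : C = G ⊓ Subgroup.centralizer (S : Set Γ)) (K L H : Subgroup Γ)
    (hLK : L ≤ K) (hKG : K ≤ G) (hKn : ∀ g ∈ G, ∀ k ∈ K, g * k * g⁻¹ ∈ K) (hLn : ∀ g ∈ G, ∀ l ∈ L, g * l * g⁻¹ ∈ L)
    (hKS : ∀ s ∈ S, ∀ k ∈ K, s * k * s⁻¹ ∈ K) (hLS : ∀ s ∈ S, ∀ l ∈ L, s * l * s⁻¹ ∈ L)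
    (hab : ∀ a ∈ K, ∀ b ∈ K, a * b * a⁻¹ * b⁻¹ ∈ L) (hGKC : K ⊔ C = G) (hH : H = L ⊔ C) (hHG : H ≤ G) :
    Hyp S G (⁅K, S⁆ ⊔ L) L H := by
  have hCG : C ≤ G := by rw [hC]; exact inf_le_left
  have hCS : ∀ c ∈ C, ∀ s ∈ S, s * c = c * s := by
    intro c hc s hs
    rw [hC] at hc
    exact Subgroup.mem_centralizer_iff.1 hc.2 s hs
  have hcomm : ⁅K, S⁆ ≤ K := by
    rw [Subgroup.commutator_le]
    intro k hk s hs
    rw [commutatorElement_def]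
    have : k * s * k⁻¹ * s⁻¹ = k * (s * k⁻¹ * s⁻¹) := by group
    rw [this]
    exact K.mul_mem hk (hKS s hs _ (K.inv_mem hk))
  have hK1K : ⁅K, S⁆ ⊔ L ≤ K := sup_le hcomm hLK
  have hLK1 : L ≤ ⁅K, S⁆ ⊔ L := le_sup_right
  have hcjc : ∀ x : Γ, (∀ k ∈ K, x * k * x⁻¹ ∈ K) → (∀ s ∈ S, x * s * x⁻¹ ∈ S) → ∀ y ∈ ⁅K, S⁆, x * y * x⁻¹ ∈ ⁅K, S⁆ := by
    intro x h1 h2 y hy
    have h3 : ⁅K, S⁆.map (MulAut.conj x).toMonoidHom ≤ ⁅K, S⁆ := by
      rw [Subgroup.map_commutator]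
      apply Subgroup.commutator_mono
      · rintro _ ⟨k, hk, rfl⟩; exact h1 k hk
      · rintro _ ⟨k, hk, rfl⟩; exact h2 k hk
    exact h3 ⟨y, hy, rfl⟩
  have hCK1 : ∀ c ∈ C, ∀ k ∈ ⁅K, S⁆ ⊔ L, c * k * c⁻¹ ∈ ⁅K, S⁆ ⊔ L := by
    intro c hc
    apply GlaubPerm.conj_sup
    · apply hcjc c (hKn c (hCG hc))
      intro s hs
      rw [← hCS c hc s hs, mul_inv_cancel_right]
      exact hs
    · exact hLn c (hCG hc)
  have hKK1 : ∀ c ∈ K, ∀ k ∈ ⁅K, S⁆ ⊔ L, c * k * c⁻¹ ∈ ⁅K, S⁆ ⊔ L := by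
    intro c hc k hk
    have h1 := hLK1 (hab c hc k (hK1K hk))
    have e : c * k * c⁻¹ = (c * k * c⁻¹ * k⁻¹) * k := by group
    rw [e]
    exact Subgroup.mul_mem _ h1 hk
  have hGnor : G ≤ Subgroup.normalizer ((⁅K, S⁆ ⊔ L : Subgroup Γ) : Set Γ) := by
    rw [← hGKC]
    exact sup_le (fun k hk => nor_of _ k (hKK1 k hk)) (fun c hc => nor_of _ c (hCK1 c hc))
  have hnGK : ∀ g ∈ G, ∀ k ∈ ⁅K, S⁆ ⊔ L, g * k * g⁻¹ ∈ ⁅K, S⁆ ⊔ L := fun g hg k hk =>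
    (Subgroup.mem_normalizer_iff.1 (hGnor hg) k).1 hk
  have hfree : ∀ x ∈ ⁅K, S⁆ ⊔ L, (∀ s ∈ S, s * x * s⁻¹ * x⁻¹ ∈ L) → x ∈ L := fun x hx hxS =>
    free_of G S K L hLK hKG hcop (fun g hg => hLn g (hKG hg)) hKS hLS hab x hx hxS
  have hHdec : ∀ x ∈ H, ∃ l ∈ L, ∃ c ∈ C, x = l * c := by
    intro x hx
    rw [hH] at hx
    exact mem_sup_nor (fun c hc => nor_of _ c (hLn c (hCG hc))) hx
  have hSK : S ≤ Subgroup.normalizer (K : Set Γ) := fun s hs => nor_of _ s (hKS s hs)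
  refine
  { LK := hLK1
    KG := hK1K.trans hKG
    LH := by rw [hH]; exact le_sup_left
    HG := hHG
    GKH := ?_
    KH := ?_
    ab := fun a ha b hb => hab a (hK1K ha) b (hK1K hb)
    nGK := hnGK
    nGL := hLn
    nSG := hnorm
    nSK := ?_
    nSL := hLS
    nSH := ?_
    cHS := ?_
    free := hfree
    odd := hodd
    cop := hcop
    sol := hGsolv }
  · intro g hg
    have h1 : G ≤ (⁅K, S⁆ ⊔ L) ⊔ H := by
      rw [← hGKC]
      apply sup_le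
      · have h2 := CoprimeAction2.commutator_sup_centralizer (A := S) (K := K) hSK
          (Nat.Coprime.coprime_dvd_right (Subgroup.card_dvd_of_le hKG) hcop.symm) (Or.inr (sol_of_le hKG hGsolv))
        conv_lhs => rw [← h2]
        apply sup_le
        · exact le_sup_left.trans le_sup_left
        · refine le_trans ?_ le_sup_right
          rw [hH]
          refine le_trans ?_ le_sup_right
          rw [hC]
          exact inf_le_inf_right _ hKG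
      · refine le_trans ?_ le_sup_right
        rw [hH]
        exact le_sup_right
    exact mem_sup_nor (hHG.trans hGnor) (h1 hg)
  · intro x hx hxH
    obtain ⟨l, hl, c, hc, rfl⟩ := hHdec x hxH
    have hcK1 : c ∈ ⁅K, S⁆ ⊔ L := by
      have := Subgroup.mul_mem _ (Subgroup.inv_mem _ (hLK1 hl)) hx
      rwa [inv_mul_cancel_left] at this
    have hcL : c ∈ L := by
      apply hfree c hcK1
      intro s hs
      rw [hCS c hc s hs, mul_inv_cancel_right, mul_inv_cancel]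
      exact L.one_mem
    exact L.mul_mem hl hcL
  · intro s hs
    apply GlaubPerm.conj_sup
    · apply hcjc s (hKS s hs)
      intro t ht
      exact S.mul_mem (S.mul_mem hs ht) (S.inv_mem hs)
    · exact hLS s hs
  · intro s hs
    rw [hH]
    apply GlaubPerm.conj_sup
    · exact hLS s hs
    · intro c hc
      rw [hCS c hc s hs, mul_inv_cancel_right]
      exact hc
  · intro x hx s hs
    obtain ⟨l, hl, c, hc, rfl⟩ := hHdec x hx
    have e : l * c * s * (l * c)⁻¹ * s⁻¹ = l * (c * s * c⁻¹ * l⁻¹ * s⁻¹) := by group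
    rw [e, ← hCS c hc s hs, mul_inv_cancel_right]
    exact L.mul_mem hl (hLS s hs _ (L.inv_mem hl))

end

end Cfsg.Agent.Lib.IsaOdd
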