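import Cfsg.Agent.Lib.FormConj
import Cfsg.Agent.Lib.FXType
set_option autoImplicit false

/-!
# Spaces with a nondegenerate (skew-)symmetric form and an isometry (helper45)

`ISp F ε` : bundled triples; `Iso`, orthogonal sums `sum`, subspaces `sub`, splitting `iso_split`.
-/

namespace Cfsg.Agent.Lib.IsoSp
open Module

universe u

/-- a space with a nondegenerate `ε`-symmetric form and an isometry -/
structure ISp (F : Type u) [Field F] (ε : F) where
  V : Type u
  [ag : AddCommGroup V]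
  [mod : Module F V]
  [fd : FiniteDimensional F V]
  B : V →ₗ[F] V →ₗ[F] F
  T : Module.End F V
  sym : ∀ x y, B y x = ε * B x y
  nd : ∀ x, (∀ y, B x y = 0) → x = 0
  inv : ∀ x y, B (T x) (T y) = B x y

attribute [instance] ISp.ag ISp.mod ISp.fd

variable {F : Type u} [Field F] {ε : F}

/-- isometry of spaces, compatible with the given isometries -/
def Iso (X Y : ISp F ε) : Prop :=
  ∃ e : X.V ≃ₗ[F] Y.V, (∀ x y, Y.B (e x) (e y) = X.B x y) ∧ ∀ x, e (X.T x) = Y.T (e x)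

theorem Iso.refl (X : ISp F ε) : Iso X X := ⟨LinearEquiv.refl _ _, fun _ _ => rfl, fun _ => rfl⟩

theorem Iso.symm {X Y : ISp F ε} (h : Iso X Y) : Iso Y X := by
  obtain ⟨e, h1, h2⟩ := h
  refine ⟨e.symm, ?_, ?_⟩
  · intro x y
    rw [← h1, e.apply_symm_apply, e.apply_symm_apply]
  · intro x
    rw [LinearEquiv.symm_apply_eq, h2, e.apply_symm_apply]

theorem Iso.trans {X Y Z : ISp F ε} (h : Iso X Y) (h' : Iso Y Z) : Iso X Z := by
  obtain ⟨e, h1, h2⟩ := h
  obtain ⟨e', h1', h2'⟩ := h'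
  refine ⟨e.trans e', ?_, ?_⟩
  · intro x y
    rw [LinearEquiv.trans_apply, LinearEquiv.trans_apply, h1', h1]
  · intro x
    rw [LinearEquiv.trans_apply, LinearEquiv.trans_apply, h2, h2']

/-- dimension -/
noncomputable def dim (X : ISp F ε) : ℕ := finrank F X.V

theorem Iso.dim {X Y : ISp F ε} (h : Iso X Y) : dim X = dim Y := by
  obtain ⟨e, -, -⟩ := h
  exact e.finrank_eq

/-- orthogonal sum -/
abbrev sum (X Y : ISp F ε) : ISp F ε where
  V := X.V × Y.V
  B := (X.B.compl₁₂ (LinearMap.fst F X.V Y.V) (LinearMap.fst F X.V Y.V)) +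
    (Y.B.compl₁₂ (LinearMap.snd F X.V Y.V) (LinearMap.snd F X.V Y.V))
  T := X.T.prodMap Y.T
  sym x y := by
    simp only [LinearMap.add_apply, LinearMap.compl₁₂_apply, LinearMap.fst_apply, LinearMap.snd_apply]
    rw [X.sym x.1 y.1, Y.sym x.2 y.2]
    ring
  nd x hx := by
    simp only [LinearMap.add_apply, LinearMap.compl₁₂_apply, LinearMap.fst_apply, LinearMap.snd_apply] at hx
    refine Prod.ext (X.nd _ fun y => ?_) (Y.nd _ fun y => ?_)
    · simpa using hx (y, 0)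
    · simpa using hx (0, y)
  inv x y := by
    simp only [LinearMap.add_apply, LinearMap.compl₁₂_apply, LinearMap.fst_apply, LinearMap.snd_apply,
      LinearMap.prodMap_apply]
    rw [X.inv, Y.inv]

theorem sum_B (X Y : ISp F ε) (x y : X.V × Y.V) : (sum X Y).B x y = X.B x.1 y.1 + Y.B x.2 y.2 := rfl

theorem sum_T (X Y : ISp F ε) (x : X.V × Y.V) : (sum X Y).T x = (X.T x.1, Y.T x.2) := rfl

theorem dim_sum (X Y : ISp F ε) : dim (sum X Y) = dim X + dim Y := Module.finrank_prod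

theorem Iso.sum {X X' Y Y' : ISp F ε} (h : Iso X X') (h' : Iso Y Y') : Iso (sum X Y) (sum X' Y') := by
  obtain ⟨e, h1, h2⟩ := h
  obtain ⟨e', h1', h2'⟩ := h'
  refine ⟨e.prodCongr e', ?_, ?_⟩
  · intro x y
    rw [sum_B, sum_B]
    show X'.B (e x.1) (e y.1) + Y'.B (e' x.2) (e' y.2) = _
    rw [h1, h1']
  · intro x
    rw [sum_T]
    show (e (X.T x.1), e' (Y.T x.2)) = (X'.T (e x.1), Y'.T (e' x.2))
    rw [h2, h2']

theorem T_inj (X : ISp F ε) : Function.Injective X.T := by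
  rw [injective_iff_map_eq_zero]
  intro x hx
  apply X.nd
  intro y
  rw [← X.inv, hx, map_zero, LinearMap.zero_apply]

theorem T_surj (X : ISp F ε) : Function.Surjective X.T := LinearMap.injective_iff_surjective.mp (T_inj X)

theorem B_comm_zero (X : ISp F ε) {x y : X.V} (h : X.B x y = 0) : X.B y x = 0 := by
  rw [X.sym x y, h, mul_zero]

/-- an invariant nondegenerate subspace -/
abbrev sub (X : ISp F ε) (W : Submodule F X.V) (hT : ∀ x ∈ W, X.T x ∈ W)
    (hnd : ∀ x ∈ W, (∀ y ∈ W, X.B x y = 0) → x = 0) : ISp F ε where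
  V := W
  B := X.B.domRestrict₁₂ W W
  T := X.T.restrict hT
  sym x y := X.sym x y
  nd x hx := Subtype.ext (hnd x x.2 fun y hy => hx ⟨y, hy⟩)
  inv x y := X.inv x y

theorem sub_B (X : ISp F ε) (W : Submodule F X.V) (hT : ∀ x ∈ W, X.T x ∈ W)
    (hnd : ∀ x ∈ W, (∀ y ∈ W, X.B x y = 0) → x = 0) (x y : W) : (sub X W hT hnd).B x y = X.B x y := rfl

theorem sub_T (X : ISp F ε) (W : Submodule F X.V) (hT : ∀ x ∈ W, X.T x ∈ W)
    (hnd : ∀ x ∈ W, (∀ y ∈ W, X.B x y = 0) → x = 0) (x : W) :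
    (Submodule.subtype W ((sub X W hT hnd).T x)) = X.T x := rfl

theorem nd_of_orth (X : ISp F ε) {W W' : Submodule F X.V} (hc : W ⊔ W' = ⊤)
    (ho : ∀ x ∈ W, ∀ y ∈ W', X.B x y = 0) : ∀ x ∈ W, (∀ y ∈ W, X.B x y = 0) → x = 0 := by
  intro x hx h
  apply X.nd
  intro y
  have hy : y ∈ W ⊔ W' := by rw [hc]; trivial
  obtain ⟨a, ha, b, hb, rfl⟩ := Submodule.mem_sup.1 hy
  rw [map_add, h a ha, ho x hx b hb, add_zero]

/-- splitting along an orthogonal decomposition into invariant subspaces -/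
theorem iso_split (X : ISp F ε) {W W' : Submodule F X.V} (hc : IsCompl W W')
    (ho : ∀ x ∈ W, ∀ y ∈ W', X.B x y = 0) (hT : ∀ x ∈ W, X.T x ∈ W) (hT' : ∀ x ∈ W', X.T x ∈ W')
    (h : ∀ x ∈ W, (∀ y ∈ W, X.B x y = 0) → x = 0) (h' : ∀ x ∈ W', (∀ y ∈ W', X.B x y = 0) → x = 0) :
    Iso X (sum (sub X W hT h) (sub X W' hT' h')) := by
  apply Iso.symm
  refine ⟨Submodule.prodEquivOfIsCompl W W' hc, ?_, ?_⟩
  · rintro ⟨x, x'⟩ ⟨y, y'⟩
    rw [Submodule.coe_prodEquivOfIsCompl', Submodule.coe_prodEquivOfIsCompl', sum_B, sub_B, sub_B]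
    simp only [map_add, LinearMap.add_apply]
    rw [ho x x.2 y' y'.2, B_comm_zero X (ho y y.2 x' x'.2)]
    ring
  · rintro ⟨x, x'⟩
    rw [Submodule.coe_prodEquivOfIsCompl', sum_T, Submodule.coe_prodEquivOfIsCompl', map_add]
    rfl

theorem exists_split (X : ISp F ε) {W W' : Submodule F X.V} (hc : IsCompl W W')
    (ho : ∀ x ∈ W, ∀ y ∈ W', X.B x y = 0) (hT : ∀ x ∈ W, X.T x ∈ W) (hT' : ∀ x ∈ W', X.T x ∈ W') :
    ∃ (h : ∀ x ∈ W, (∀ y ∈ W, X.B x y = 0) → x = 0) (h' : ∀ x ∈ W', (∀ y ∈ W', X.B x y = 0) → x = 0),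
    Iso X (sum (sub X W hT h) (sub X W' hT' h')) := by
  have h := nd_of_orth X hc.sup_eq_top ho
  have h' := nd_of_orth X hc.symm.sup_eq_top (fun x hx y hy => B_comm_zero X (ho y hy x hx))
  exact ⟨h, h', iso_split X hc ho hT hT' h h'⟩

/-- the space with the isometry `-T` -/
abbrev neg (X : ISp F ε) : ISp F ε where
  V := X.V
  B := X.B
  T := -X.T
  sym := X.sym
  nd := X.nd
  inv x y := by
    simp only [LinearMap.neg_apply, map_neg, neg_neg]
    exact X.inv x y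

theorem neg_neg_iso (X : ISp F ε) : Iso (neg (neg X)) X := by
  refine ⟨LinearEquiv.refl _ _, fun _ _ => rfl, fun x => ?_⟩
  show - - X.T x = X.T x
  rw [neg_neg]

theorem Iso.neg {X Y : ISp F ε} (h : Iso X Y) : Iso (neg X) (neg Y) := by
  obtain ⟨e, h1, h2⟩ := h
  refine ⟨e, h1, fun x => ?_⟩
  show e (- X.T x) = - Y.T (e x)
  rw [map_neg, h2]

theorem neg_sum (X Y : ISp F ε) : Iso (IsoSp.neg (IsoSp.sum X Y)) (IsoSp.sum (IsoSp.neg X) (IsoSp.neg Y)) :=
  ⟨LinearEquiv.refl _ _, fun _ _ => rfl, fun _ => rfl⟩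

theorem dim_neg (X : ISp F ε) : dim (neg X) = dim X := rfl

/-- isometries without eigenvalue `±1` are classified by their type -/
theorem iso_of_type [Finite F] (hε : ε * ε = 1) {X Y : ISp F ε} {s : Multiset (Polynomial F × ℕ)}
    (hX : FXType.HasType X.T s) (hY : FXType.HasType Y.T s) (h : ∀ x, X.T (X.T x) = x → x = 0) : Iso X Y := by
  obtain ⟨e, he⟩ := hX.equiv hY
  let B' : X.V →ₗ[F] X.V →ₗ[F] F := Y.B.compl₁₂ e.toLinearMap e.toLinearMap
  have hB' : ∀ x y, B' x y = Y.B (e x) (e y) := fun _ _ => rfl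
  obtain ⟨c, hc1, hc2⟩ := FormConj.exists_of_no_eigenvalue X.B B' X.nd (by
    intro x hx
    apply e.injective
    rw [map_zero]
    apply Y.nd
    intro y
    have := hx (e.symm y)
    rwa [hB', e.apply_symm_apply] at this) ε hε X.sym (fun x y => Y.sym _ _) X.T X.inv (by
    intro x y
    rw [hB', he, he, Y.inv, hB']) h
  have hci : Function.Injective c := by
    rw [injective_iff_map_eq_zero]
    intro x hx
    apply e.injective
    rw [map_zero]
    apply Y.nd
    intro y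
    have := hc1 x (e.symm y)
    rw [hx, map_zero, LinearMap.zero_apply, hB', e.apply_symm_apply] at this
    exact this.symm
  let c' : X.V ≃ₗ[F] X.V := LinearEquiv.ofBijective c ⟨hci, LinearMap.injective_iff_surjective.mp hci⟩
  apply Iso.symm
  refine ⟨e.symm.trans c', ?_, ?_⟩
  · intro x y
    show X.B (c (e.symm x)) (c (e.symm y)) = _
    rw [hc1, hB', e.apply_symm_apply, e.apply_symm_apply]
  · intro x
    show c (e.symm (Y.T x)) = X.T (c (e.symm x))
    rw [← hc2]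
    congr 1
    rw [LinearEquiv.symm_apply_eq, he, e.apply_symm_apply]

end Cfsg.Agent.Lib.IsoSp
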