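import Cfsg.Agent.Lib.IsoSp1
set_option autoImplicit false

/-!
# Unipotent parts of isometries: Fitting decomposition and homogeneous summands (helper45)
-/

namespace Cfsg.Agent.Lib.IsoSp
open Module

universe u

variable {F : Type u} [Field F] {ε : F}

/-- `N = T - 1` -/
def nl (X : ISp F ε) : Module.End F X.V := X.T - 1

theorem nl_apply (X : ISp F ε) (x : X.V) : nl X x = X.T x - x := rfl

theorem T_eq (X : ISp F ε) (x : X.V) : X.T x = x + nl X x := by rw [nl_apply]; abel

theorem nl_comm (X : ISp F ε) : Commute (nl X) X.T := by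
  unfold nl
  exact (Commute.refl X.T).sub_left (Commute.one_left _)

theorem nl_pow_comm (X : ISp F ε) (j i : ℕ) (x : X.V) :
    ((nl X) ^ j) ((X.T ^ i) x) = (X.T ^ i) (((nl X) ^ j) x) := by
  have := ((nl_comm X).pow_pow j i).eq
  exact LinearMap.congr_fun this x

theorem nl_pow_T (X : ISp F ε) (j : ℕ) (x : X.V) : ((nl X) ^ j) (X.T x) = X.T (((nl X) ^ j) x) := by
  have := nl_pow_comm X j 1 x
  simpa using this

theorem B_nl (X : ISp F ε) (x z : X.V) : X.B x (nl X z) = - X.B (nl X x) (X.T z) := by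
  rw [nl_apply, nl_apply, map_sub, map_sub, LinearMap.sub_apply, X.inv]
  ring

theorem B_nl_pow (X : ISp F ε) (j : ℕ) (x z : X.V) :
    X.B x (((nl X) ^ j) z) = (-1) ^ j * X.B (((nl X) ^ j) x) ((X.T ^ j) z) := by
  induction j generalizing x z with
  | zero => simp
  | succ j ih =>
    have h1 : (X.T ^ j) (nl X z) = nl X ((X.T ^ j) z) := by
      have := nl_pow_comm X 1 j z
      simpa using this.symm
    have h2 : X.T ((X.T ^ j) z) = (X.T ^ (j + 1)) z := by rw [pow_succ', Module.End.mul_apply]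
    have h3 : nl X (((nl X) ^ j) x) = ((nl X) ^ (j + 1)) x := by rw [pow_succ', Module.End.mul_apply]
    rw [pow_succ (nl X) j, Module.End.mul_apply, ih, h1, B_nl, h2, h3, pow_succ (-1 : F), ← pow_succ (nl X)]
    ring

theorem T_pow_surj (X : ISp F ε) (j : ℕ) : Function.Surjective (X.T ^ j) := by
  rw [Module.End.coe_pow]
  exact (T_surj X).iterate j

/-- `B(x, N^j y)` vanishes identically in `y` iff `N^j x = 0` -/
theorem ker_iff (X : ISp F ε) (j : ℕ) (x : X.V) : (∀ y, X.B x (((nl X) ^ j) y) = 0) ↔ ((nl X) ^ j) x = 0 := by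
  constructor
  · intro h
    apply X.nd
    intro y
    obtain ⟨z, rfl⟩ := T_pow_surj X j y
    have h1 := h z
    rw [B_nl_pow] at h1
    rcases mul_eq_zero.1 h1 with h2 | h2
    · exact absurd h2 (pow_ne_zero _ (by norm_num))
    · exact h2
  · intro h y
    rw [B_nl_pow, h, map_zero, LinearMap.zero_apply, mul_zero]

theorem B_pow_zero (X : ISp F ε) {j : ℕ} {x : X.V} (h : ((nl X) ^ j) x = 0) (y : X.V) : X.B x (((nl X) ^ j) y) = 0 :=
  (ker_iff X j x).2 h y

theorem inter_pow {A A' : Type*} [AddCommGroup A] [Module F A] [AddCommGroup A'] [Module F A'] (e : A →ₗ[F] A')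
    {f : Module.End F A} {g : Module.End F A'} (h : ∀ x, e (f x) = g (e x)) (j : ℕ) (x : A) :
    e ((f ^ j) x) = (g ^ j) (e x) := by
  induction j generalizing x with
  | zero => rfl
  | succ j ih => rw [pow_succ, Module.End.mul_apply, ih, h, pow_succ, Module.End.mul_apply]

theorem sub_nl_pow (X : ISp F ε) (W : Submodule F X.V) (hT : ∀ x ∈ W, X.T x ∈ W)
    (hnd : ∀ x ∈ W, (∀ y ∈ W, X.B x y = 0) → x = 0) (j : ℕ) (x : W) :
    W.subtype (((nl (sub X W hT hnd)) ^ j) x) = ((nl X) ^ j) (W.subtype x) :=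
  inter_pow W.subtype (fun _ => rfl) j x

/-- no eigenvalue `c` -/
def NoEig (c : F) (X : ISp F ε) : Prop := ∀ x, X.T x = c • x → x = 0

theorem NoEig.of_iso {c : F} {X Y : ISp F ε} (h : NoEig c X) (e : Iso X Y) : NoEig c Y := by
  obtain ⟨e, -, h2⟩ := e.symm
  intro y hy
  have h3 := h2 y
  rw [hy, map_smul] at h3
  exact (LinearEquiv.map_eq_zero_iff e).1 (h _ h3.symm)

theorem NoEig.right {c : F} {X Y : ISp F ε} (h : NoEig c (sum X Y)) : NoEig c Y := by
  intro y hy
  have := h ((0, y) : X.V × Y.V) (by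
    show (X.T 0, Y.T y) = (c • (0 : X.V), c • y)
    rw [map_zero, hy, smul_zero])
  exact congrArg Prod.snd this

theorem NoEig.neg {c : F} {X : ISp F ε} (h : NoEig c X) : NoEig (-c) (neg X) := by
  intro x hx
  apply h
  have h1 : - X.T x = (-c) • x := hx
  rw [neg_smul] at h1
  exact neg_injective h1

/-- unipotent spaces -/
def Uni (X : ISp F ε) : Prop := ∃ n, (nl X) ^ n = 0

theorem fitting (X : ISp F ε) : ∃ U Y : ISp F ε, Iso X (sum U Y) ∧ Uni U ∧ NoEig 1 Y := by
  obtain ⟨m, hm⟩ := Filter.eventually_atTop.1 (LinearMap.eventually_isCompl_ker_pow_range_pow (nl X))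
  have hc := hm (m + 1) (by omega)
  set W := LinearMap.ker ((nl X) ^ (m + 1)) with hW
  set W' := LinearMap.range ((nl X) ^ (m + 1)) with hW'
  have ho : ∀ x ∈ W, ∀ y ∈ W', X.B x y = 0 := by
    rintro x hx _ ⟨z, rfl⟩
    exact B_pow_zero X hx z
  have hT : ∀ x ∈ W, X.T x ∈ W := by
    intro x hx
    rw [hW, LinearMap.mem_ker] at hx ⊢
    rw [nl_pow_T, hx, map_zero]
  have hT' : ∀ x ∈ W', X.T x ∈ W' := by
    rintro _ ⟨z, rfl⟩
    exact ⟨X.T z, by rw [nl_pow_T]⟩
  obtain ⟨h, h', e⟩ := exists_split X hc ho hT hT'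
  refine ⟨_, _, e, ⟨m + 1, ?_⟩, ?_⟩
  · apply LinearMap.ext
    intro x
    have h1 := sub_nl_pow X W hT h (m + 1) x
    apply Subtype.ext
    refine h1.trans ?_
    exact x.2
  · intro x hx
    have hx' : X.T (x : X.V) = (x : X.V) := by
      have := congrArg Subtype.val hx
      rw [one_smul] at this
      exact this
    have h1 : (x : X.V) ∈ W := by
      rw [hW, LinearMap.mem_ker, pow_succ, Module.End.mul_apply, nl_apply, hx', sub_self, map_zero]
    have h2 : (x : X.V) ∈ W ⊓ W' := ⟨h1, x.2⟩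
    rw [hc.inf_eq_bot, Submodule.mem_bot] at h2
    exact Subtype.ext h2

/-- full decomposition -/
theorem full (X : ISp F ε) : ∃ P M Y : ISp F ε, Iso X (sum P (sum (neg M) Y)) ∧ Uni P ∧ Uni M ∧
    ∀ x, Y.T (Y.T x) = x → x = 0 := by
  obtain ⟨P, Y, e1, hP, hY⟩ := fitting X
  obtain ⟨M, Z, e2, hM, hZ⟩ := fitting (neg Y)
  have hZ1 : NoEig (-1) Z := (hY.neg.of_iso e2).right
  refine ⟨P, M, neg Z, ?_, hP, hM, ?_⟩
  · refine e1.trans ((Iso.refl P).sum ?_)
    exact (neg_neg_iso Y).symm.trans (e2.neg.trans (neg_sum M Z))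
  · intro x hx
    have h1 : Z.T (Z.T x) = x := by
      have : - Z.T (- Z.T x) = x := hx
      rw [map_neg, _root_.neg_neg] at this
      exact this
    have h2 : Z.T x - x = 0 := by
      apply hZ1
      rw [map_sub, h1, neg_smul, one_smul]
      abel
    exact hZ x (by rw [one_smul]; exact sub_eq_zero.1 h2)

/-! ### homogeneous spaces -/

/-- `F[N]`-free of exponent `k + 1` -/
def Hom (k : ℕ) (X : ISp F ε) : Prop := (nl X) ^ (k + 1) = 0 ∧ LinearMap.ker ((nl X) ^ k) ≤ LinearMap.range (nl X)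

section phi

variable (X : ISp F ε)

/-- `f ↦ Σ N^j f_j` -/
def Phi (k : ℕ) (U : Submodule F X.V) : (Fin (k + 1) → U) →ₗ[F] X.V where
  toFun f := ∑ j : Fin (k + 1), ((nl X) ^ (j : ℕ)) (f j : X.V)
  map_add' f g := by
    rw [← Finset.sum_add_distrib]
    apply Finset.sum_congr rfl
    intro j _
    rw [Pi.add_apply, Submodule.coe_add, map_add]
  map_smul' c f := by
    rw [RingHom.id_apply, Finset.smul_sum]
    apply Finset.sum_congr rfl
    intro j _
    rw [Pi.smul_apply, Submodule.coe_smul, map_smul]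

/-- shift -/
def shift {A : Type*} [Zero A] {k : ℕ} (f : Fin (k + 1) → A) : Fin (k + 1) → A :=
  fun j => if h : (j : ℕ) = 0 then 0 else f ⟨j - 1, by omega⟩

variable {k : ℕ} (hk : (nl X) ^ (k + 1) = 0) (U : Submodule F X.V)

theorem Phi_apply (f : Fin (k + 1) → U) : Phi X k U f = ∑ j : Fin (k + 1), ((nl X) ^ (j : ℕ)) (f j : X.V) := rfl

include hk in
theorem nl_pow_zero {j : ℕ} (hj : k + 1 ≤ j) : (nl X) ^ j = 0 := by
  obtain ⟨i, rfl⟩ := Nat.exists_eq_add_of_le hj
  rw [pow_add, hk, zero_mul]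

include hk in
theorem nl_Phi (f : Fin (k + 1) → U) : nl X (Phi X k U f) = Phi X k U (shift f) := by
  rw [Phi_apply, Phi_apply, map_sum, Fin.sum_univ_castSucc, Fin.sum_univ_succ]
  have h1 : (nl X) (((nl X) ^ ((Fin.last k : Fin (k + 1)) : ℕ)) (f (Fin.last k) : X.V)) = 0 := by
    rw [← Module.End.mul_apply, ← pow_succ', Fin.val_last, hk, LinearMap.zero_apply]
  have h2 : ((nl X) ^ ((0 : Fin (k + 1)) : ℕ)) ((shift f 0 : U) : X.V) = 0 := by
    simp [shift]
  rw [h1, h2, add_zero, zero_add]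
  apply Finset.sum_congr rfl
  intro j _
  rw [← Module.End.mul_apply, ← pow_succ']
  have h3 : shift f j.succ = f j.castSucc := by
    rw [shift, dif_neg (by simp)]
    congr 1
  rw [h3]
  rfl

include hk in
theorem Phi_inj (hU : ∀ x ∈ U, ((nl X) ^ k) x = 0 → x = 0) : Function.Injective (Phi X k U) := by
  rw [injective_iff_map_eq_zero]
  intro f hf
  have key : ∀ j : ℕ, ∀ hj : j < k + 1, f ⟨j, hj⟩ = 0 := by
    intro j
    induction j using Nat.strong_induction_on with
    | _ j ih =>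
      intro hj
      have h1 : ((nl X) ^ (k - j)) (Phi X k U f) = 0 := by rw [hf, map_zero]
      rw [Phi_apply, map_sum, Finset.sum_eq_single (⟨j, hj⟩ : Fin (k + 1))] at h1
      · rw [← Module.End.mul_apply, ← pow_add, Nat.sub_add_cancel (by omega)] at h1
        exact Subtype.ext (hU _ (f ⟨j, hj⟩).2 h1)
      · intro i _ hi
        rcases lt_or_gt_of_ne (fun h => hi (Fin.ext h) : (i : ℕ) ≠ j) with h | h
        · have := ih i h i.2
          rw [show f i = 0 from this]
          simp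
        · rw [← Module.End.mul_apply, ← pow_add, nl_pow_zero X hk (by omega), LinearMap.zero_apply]
      · intro h
        exact absurd (Finset.mem_univ _) h
  funext j
  exact key j j.2

theorem Phi_single (u : U) : Phi X k U (Pi.single 0 u) = u := by
  rw [Phi_apply, Finset.sum_eq_single (0 : Fin (k + 1))]
  · simp
  · intro i _ hi
    rw [Pi.single_eq_of_ne hi]
    simp
  · intro h
    exact absurd (Finset.mem_univ _) h

end phi

end Cfsg.Agent.Lib.IsoSp
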