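import Cfsg.Agent.Lib.IsoSp2
set_option autoImplicit false

/-!
# Splitting off a homogeneous summand (helper45)
-/

namespace Cfsg.Agent.Lib.IsoSp
open Module

universe u

variable {F : Type u} [Field F] {ε : F}

theorem T_stable_of_nl (X : ISp F ε) {W : Submodule F X.V} (h : ∀ x ∈ W, nl X x ∈ W) : ∀ x ∈ W, X.T x ∈ W := by
  intro x hx
  rw [T_eq]
  exact W.add_mem hx (h x hx)

theorem nl_stable_of_T (X : ISp F ε) {W : Submodule F X.V} (h : ∀ x ∈ W, X.T x ∈ W) : ∀ x ∈ W, nl X x ∈ W := by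
  intro x hx
  rw [nl_apply]
  exact W.sub_mem (h x hx) hx

theorem T_onto (X : ISp F ε) {W : Submodule F X.V} (h : ∀ x ∈ W, X.T x ∈ W) : ∀ x ∈ W, ∃ y ∈ W, X.T y = x := by
  intro x hx
  have hi : Function.Injective (X.T.restrict h) := by
    intro a b hab
    apply Subtype.ext
    exact T_inj X (congrArg Subtype.val hab)
  obtain ⟨y, hy⟩ := (LinearMap.injective_iff_surjective.mp hi) ⟨x, hx⟩
  exact ⟨y, y.2, congrArg Subtype.val hy⟩

/-- orthogonal complement -/
def perp (X : ISp F ε) (W : Submodule F X.V) : Submodule F X.V where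
  carrier := {x | ∀ w ∈ W, X.B w x = 0}
  add_mem' ha hb w hw := by rw [map_add, ha w hw, hb w hw, add_zero]
  zero_mem' w _ := map_zero _
  smul_mem' c x hx w hw := by rw [map_smul, hx w hw, smul_zero]

theorem mem_perp {X : ISp F ε} {W : Submodule F X.V} {x : X.V} : x ∈ perp X W ↔ ∀ w ∈ W, X.B w x = 0 := Iff.rfl

theorem perp_T (X : ISp F ε) {W : Submodule F X.V} (h : ∀ x ∈ W, X.T x ∈ W) : ∀ x ∈ perp X W, X.T x ∈ perp X W := by
  intro x hx w hw
  obtain ⟨y, hy, rfl⟩ := T_onto X h w hw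
  rw [X.inv]
  exact hx y hy

theorem isCompl_perp (X : ISp F ε) {W : Submodule F X.V} (h : ∀ x ∈ W, (∀ y ∈ W, X.B x y = 0) → x = 0) :
    IsCompl W (perp X W) := by
  have hd : Disjoint W (perp X W) := by
    rw [Submodule.disjoint_def]
    intro x hx hx'
    apply h x hx
    intro y hy
    exact B_comm_zero X (hx' y hy)
  refine ⟨hd, ?_⟩
  rw [codisjoint_iff]
  -- the map V → W* is onto
  let f : W →ₗ[F] Module.Dual F W := (X.B.domRestrict₁₂ W W).flip
  have hf : Function.Injective f := by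
    rw [injective_iff_map_eq_zero]
    intro x hx
    apply Subtype.ext
    apply h x x.2
    intro y hy
    exact B_comm_zero X (LinearMap.congr_fun hx ⟨y, hy⟩)
  have hs : Function.Surjective f := by
    have h1 : finrank F W = finrank F (Module.Dual F W) := (Subspace.dual_finrank_eq).symm
    exact (LinearMap.injective_iff_surjective_of_finrank_eq_finrank h1).1 hf
  rw [eq_top_iff]
  rintro v -
  obtain ⟨w, hw⟩ := hs ((X.B.flip v).comp W.subtype)
  have h1 : v - w ∈ perp X W := by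
    intro y hy
    have := LinearMap.congr_fun hw ⟨y, hy⟩
    have h2 : X.B y w = X.B y v := this
    rw [map_sub, h2, sub_self]
  have : v = w + (v - w) := by abel
  rw [this]
  exact Submodule.add_mem_sup w.2 h1

theorem peel (X : ISp F ε) {k : ℕ} (hk : (nl X) ^ (k + 1) = 0) :
    ∃ H Y : ISp F ε, Iso X (sum H Y) ∧ Hom k H ∧ (nl Y) ^ k = 0 := by
  obtain ⟨U, hU⟩ := Submodule.exists_isCompl (LinearMap.ker ((nl X) ^ k))
  have hUk : ∀ x ∈ U, ((nl X) ^ k) x = 0 → x = 0 := by
    intro x hx hx'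
    have : x ∈ LinearMap.ker ((nl X) ^ k) ⊓ U := ⟨hx', hx⟩
    rwa [hU.inf_eq_bot, Submodule.mem_bot] at this
  have hinj := Phi_inj X hk U hUk
  set W := LinearMap.range (Phi X k U) with hW
  have hWN : ∀ x ∈ W, nl X x ∈ W := by
    rintro _ ⟨f, rfl⟩
    exact ⟨shift f, (nl_Phi X hk U f).symm⟩
  have hWT := T_stable_of_nl X hWN
  have hUW : U ≤ W := by
    intro u hu
    exact ⟨Pi.single 0 ⟨u, hu⟩, Phi_single X U ⟨u, hu⟩⟩
  -- last coordinate
  have hlast : ∀ f : Fin (k + 1) → U, (∀ j : Fin k, f j.castSucc = 0) → Phi X k U f = ((nl X) ^ k) (f (Fin.last k) : X.V) := by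
    intro f hf
    rw [Phi_apply, Fin.sum_univ_castSucc]
    rw [Finset.sum_eq_zero, zero_add]
    · rfl
    · intro j _
      rw [hf j]
      simp
  have hker : ∀ x ∈ W, nl X x = 0 → ∃ u ∈ U, x = ((nl X) ^ k) u := by
    rintro _ ⟨f, rfl⟩ hx
    rw [nl_Phi X hk U f] at hx
    have h1 : shift f = 0 := hinj (by rw [hx, map_zero])
    refine ⟨f (Fin.last k), (f (Fin.last k)).2, hlast f ?_⟩
    intro j
    have h2 := congrFun h1 j.succ
    rw [shift, dif_neg (by simp)] at h2
    exact h2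
  have hWnd : ∀ x ∈ W, (∀ y ∈ W, X.B x y = 0) → x = 0 := by
    by_contra hcon
    push Not at hcon
    obtain ⟨x, hx, hxy, hx0⟩ := hcon
    -- choose j maximal with N^j x ≠ 0
    have hex : ∃ j, ((nl X) ^ j) x = 0 := ⟨k + 1, by rw [hk, LinearMap.zero_apply]⟩
    classical
    have hj := Nat.find_spec hex
    have hj0 : Nat.find hex ≠ 0 := by
      intro h0
      rw [h0] at hj
      exact hx0 hj
    obtain ⟨j, hjj⟩ := Nat.exists_eq_succ_of_ne_zero hj0
    have hmin : ((nl X) ^ j) x ≠ 0 := Nat.find_min hex (by omega)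
    rw [hjj] at hj
    -- z = N^j x is in the radical of W
    have hradT : ∀ z ∈ W ⊓ perp X W, nl X z ∈ W ⊓ perp X W := by
      intro z hz
      exact ⟨hWN z hz.1, nl_stable_of_T X (perp_T X hWT) z hz.2⟩
    have hrad : ∀ i, ((nl X) ^ i) x ∈ W ⊓ perp X W := by
      intro i
      induction i with
      | zero => exact ⟨hx, fun w hw => B_comm_zero X (hxy w hw)⟩
      | succ i ih =>
        rw [pow_succ', Module.End.mul_apply]
        exact hradT _ ih
    obtain ⟨hz1, hz2⟩ := hrad j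
    have hz3 : nl X (((nl X) ^ j) x) = 0 := by
      rw [← Module.End.mul_apply, ← pow_succ']
      exact hj
    obtain ⟨u, hu, hzu⟩ := hker _ hz1 hz3
    apply hmin
    apply X.nd
    intro v
    apply B_comm_zero X
    have hv : v ∈ LinearMap.ker ((nl X) ^ k) ⊔ U := by rw [hU.sup_eq_top]; trivial
    obtain ⟨a, ha, b, hb, rfl⟩ := Submodule.mem_sup.1 hv
    rw [map_add, LinearMap.add_apply, hz2 b (hUW hb), add_zero, hzu]
    exact B_pow_zero X ha u
  have hc := isCompl_perp X hWnd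
  have ho : ∀ x ∈ W, ∀ y ∈ perp X W, X.B x y = 0 := fun x hx y hy => hy x hx
  obtain ⟨h, h', e⟩ := exists_split X hc ho hWT (perp_T X hWT)
  refine ⟨_, _, e, ⟨?_, ?_⟩, ?_⟩
  · apply LinearMap.ext
    intro x
    apply Subtype.ext
    refine (sub_nl_pow X W hWT h (k + 1) x).trans ?_
    rw [hk]
    rfl
  · intro x hx
    have hx' : ((nl X) ^ k) (x : X.V) = 0 := by
      have h1 := sub_nl_pow X W hWT h k x
      have h2 : ((nl (sub X W hWT h)) ^ k) x = 0 := hx
      rw [h2, map_zero] at h1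
      exact h1.symm
    obtain ⟨f, hf⟩ := x.2
    have hf0 : f 0 = 0 := by
      rw [← hf, Phi_apply, map_sum, Finset.sum_eq_single (0 : Fin (k + 1))] at hx'
      · exact Subtype.ext (hUk _ (f 0).2 (by simpa using hx'))
      · intro i _ hi
        have : 1 ≤ (i : ℕ) := Nat.one_le_iff_ne_zero.2 fun h => hi (Fin.ext h)
        rw [← Module.End.mul_apply, ← pow_add, nl_pow_zero X hk (by omega), LinearMap.zero_apply]
      · intro h
        exact absurd (Finset.mem_univ _) h
    let g : Fin (k + 1) → U := fun j => if hj : (j : ℕ) + 1 < k + 1 then f ⟨j + 1, hj⟩ else 0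
    have hg : shift g = f := by
      funext j
      rw [shift]
      split_ifs with h0
      · have : j = 0 := Fin.ext h0
        rw [this, hf0]
      · have h1 : (j : ℕ) - 1 + 1 = j := by omega
        show (if hj : ((j : ℕ) - 1) + 1 < k + 1 then f ⟨(j : ℕ) - 1 + 1, hj⟩ else 0) = f j
        rw [dif_pos (by omega)]
        congr 1
        exact Fin.ext h1
    refine ⟨⟨Phi X k U g, ⟨g, rfl⟩⟩, ?_⟩
    apply Subtype.ext
    show nl X (Phi X k U g) = (x : X.V)
    rw [nl_Phi X hk, hg, hf]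
  · apply LinearMap.ext
    intro x
    apply Subtype.ext
    refine (sub_nl_pow X (perp X W) (perp_T X hWT) h' k x).trans ?_
    show ((nl X) ^ k) (x : X.V) = 0
    rw [← ker_iff]
    intro y
    have hy : y ∈ LinearMap.ker ((nl X) ^ k) ⊔ U := by rw [hU.sup_eq_top]; trivial
    obtain ⟨a, ha, b, hb, rfl⟩ := Submodule.mem_sup.1 hy
    have ha' : ((nl X) ^ k) a = 0 := ha
    rw [map_add, ha', zero_add]
    apply B_comm_zero X
    refine x.2 _ ?_
    have hst : ∀ i, ((nl X) ^ i) b ∈ W := by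
      intro i
      induction i with
      | zero => exact hUW hb
      | succ i ih =>
        rw [pow_succ', Module.End.mul_apply]
        exact hWN _ ih
    exact hst k

/-! ### isometry criterion for homogeneous spaces -/

theorem Phi_surj (X : ISp F ε) {k : ℕ} (hk : (nl X) ^ (k + 1) = 0) {U : Submodule F X.V}
    (hU : U ⊔ LinearMap.range (nl X) = ⊤) : Function.Surjective (Phi X k U) := by
  have key : ∀ j ≤ k + 1, LinearMap.range ((nl X) ^ (k + 1 - j)) ≤ LinearMap.range (Phi X k U) := by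
    intro j
    induction j with
    | zero =>
      intro _
      rw [Nat.sub_zero, hk]
      rintro _ ⟨x, rfl⟩
      exact ⟨0, by rw [map_zero]; rfl⟩
    | succ j ih =>
      intro hj
      rintro _ ⟨x, rfl⟩
      have hx : x ∈ U ⊔ LinearMap.range (nl X) := by rw [hU]; trivial
      obtain ⟨a, ha, _, ⟨b, rfl⟩, rfl⟩ := Submodule.mem_sup.1 hx
      rw [map_add]
      apply Submodule.add_mem
      · refine ⟨Pi.single ⟨k + 1 - (j + 1), by omega⟩ ⟨a, ha⟩, ?_⟩
        rw [Phi_apply, Finset.sum_eq_single (⟨k + 1 - (j + 1), by omega⟩ : Fin (k + 1))]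
        · simp
        · intro i _ hi
          rw [Pi.single_eq_of_ne hi]
          simp
        · intro h
          exact absurd (Finset.mem_univ _) h
      · apply ih (by omega)
        refine ⟨b, ?_⟩
        rw [show k + 1 - j = (k + 1 - (j + 1)) + 1 by omega, pow_succ, Module.End.mul_apply]
  intro x
  have := key (k + 1) le_rfl
  rw [Nat.sub_self, pow_zero] at this
  exact this ⟨x, rfl⟩

/-- `v ↦ (h ↦ ...)` square root of a unipotent selfadjoint map -/
theorem exists_sqrt {p : ℕ} [Fact p.Prime] [CharP F p] (hp : p ≠ 2) {V : Type*} [AddCommGroup V] [Module F V]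
    {h : Module.End F V} {m : ℕ} (hm : (h - 1) ^ m = 0) : ∃ j : ℕ, h ^ j * h ^ j = h := by
  rcases subsingleton_or_nontrivial (Module.End F V) with hss | hnt
  · exact ⟨0, Subsingleton.elim _ _⟩
  · haveI : CharP (Module.End F V) p := by
      have := charP_of_injective_algebraMap (algebraMap F (Module.End F V)).injective p
      exact this
    have h1 : h ^ p ^ m = 1 := by
      have h2 : m ≤ p ^ m := (Nat.lt_pow_self (Fact.out : p.Prime).one_lt).le
      have h3 : (h - 1 + 1) ^ p ^ m = (h - 1) ^ p ^ m + 1 ^ p ^ m :=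
        add_pow_char_pow_of_commute (p := p) m (Commute.one_right (h - 1))
      rw [sub_add_cancel, one_pow, show p ^ m = m + (p ^ m - m) by omega, pow_add (h - 1), hm, zero_mul, zero_add] at h3
      rwa [show p ^ m = m + (p ^ m - m) by omega]
    have hodd : Odd (p ^ m) := ((Fact.out : p.Prime).odd_of_ne_two hp).pow
    obtain ⟨a, ha⟩ := hodd
    refine ⟨a + 1, ?_⟩
    rw [← pow_add, show a + 1 + (a + 1) = p ^ m + 1 by omega, pow_succ, h1, one_mul]

theorem hom_iso [Finite F] (h2 : (2 : F) ≠ 0) (hε : ε * ε = 1) {X Y : ISp F ε} {k : ℕ} (hX : Hom k X) (hY : Hom k Y)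
    {U : Submodule F X.V} {U' : Submodule F Y.V} (hU : IsCompl U (LinearMap.range (nl X)))
    (hU' : IsCompl U' (LinearMap.range (nl Y))) (c : U ≃ₗ[F] U')
    (hc : ∀ u u' : U, Y.B (c u) (((nl Y) ^ k) (c u')) = X.B u (((nl X) ^ k) u')) : Iso X Y := by
  obtain ⟨hk, hkr⟩ := hX
  obtain ⟨hk', hkr'⟩ := hY
  have hUk : ∀ x ∈ U, ((nl X) ^ k) x = 0 → x = 0 := by
    intro x hx hx'
    have : x ∈ U ⊓ LinearMap.range (nl X) := ⟨hx, hkr hx'⟩
    rwa [hU.inf_eq_bot, Submodule.mem_bot] at this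
  have hUk' : ∀ x ∈ U', ((nl Y) ^ k) x = 0 → x = 0 := by
    intro x hx hx'
    have : x ∈ U' ⊓ LinearMap.range (nl Y) := ⟨hx, hkr' hx'⟩
    rwa [hU'.inf_eq_bot, Submodule.mem_bot] at this
  let φ : (Fin (k + 1) → U) ≃ₗ[F] X.V := LinearEquiv.ofBijective (Phi X k U) ⟨Phi_inj X hk U hUk, Phi_surj X hk hU.sup_eq_top⟩
  let φ' : (Fin (k + 1) → U') ≃ₗ[F] Y.V :=
    LinearEquiv.ofBijective (Phi Y k U') ⟨Phi_inj Y hk' U' hUk', Phi_surj Y hk' hU'.sup_eq_top⟩
  let C : (Fin (k + 1) → U) ≃ₗ[F] (Fin (k + 1) → U') := LinearEquiv.piCongrRight fun _ => c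
  let e : X.V ≃ₗ[F] Y.V := φ.symm.trans (C.trans φ')
  have heφ : ∀ f, e (Phi X k U f) = Phi Y k U' (fun j => c (f j)) := by
    intro f
    show φ' (C (φ.symm (φ f))) = _
    rw [φ.symm_apply_apply]
    rfl
  have heN : ∀ x, e (nl X x) = nl Y (e x) := by
    intro x
    obtain ⟨f, rfl⟩ := φ.surjective x
    show e (nl X (Phi X k U f)) = nl Y (e (Phi X k U f))
    rw [nl_Phi X hk, heφ, heφ, nl_Phi Y hk']
    congr 1
    funext j
    rw [shift, shift]
    split_ifs
    · exact map_zero c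
    · rfl
  have heT : ∀ x, e (X.T x) = Y.T (e x) := by
    intro x
    rw [T_eq, map_add, heN, ← T_eq]
  have heNk : ∀ x, e (((nl X) ^ k) x) = ((nl Y) ^ k) (e x) := fun x => inter_pow e.toLinearMap heN k x
  have heu : ∀ u : U, e (u : X.V) = c u := by
    intro u
    have h1 := heφ (Pi.single 0 u)
    rw [Phi_single] at h1
    rw [h1]
    have h3 : (fun j => c ((Pi.single 0 u : Fin (k + 1) → U) j)) = Pi.single 0 (c u) := by
      funext j
      by_cases hj : j = 0
      · subst hj; simp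
      · rw [Pi.single_eq_of_ne hj, Pi.single_eq_of_ne hj, map_zero]
    rw [h3, Phi_single]
  let B' : X.V →ₗ[F] X.V →ₗ[F] F := Y.B.compl₁₂ e.toLinearMap e.toLinearMap
  have hB' : ∀ x y, B' x y = Y.B (e x) (e y) := fun _ _ => rfl
  have hzero : ∀ (Z : ISp F ε) (_ : (nl Z) ^ (k + 1) = 0) (a b : Z.V), Z.B (nl Z a) (((nl Z) ^ k) b) = 0 := by
    intro Z hZ a b
    rw [B_nl_pow, ← Module.End.mul_apply, ← pow_succ, hZ, LinearMap.zero_apply, map_zero, LinearMap.zero_apply, mul_zero]
  -- agreement of top forms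
  have htop : ∀ x y, B' x (((nl X) ^ k) y) = X.B x (((nl X) ^ k) y) := by
    intro x y
    have hx : x ∈ U ⊔ LinearMap.range (nl X) := by rw [hU.sup_eq_top]; trivial
    have hy : y ∈ U ⊔ LinearMap.range (nl X) := by rw [hU.sup_eq_top]; trivial
    obtain ⟨u, hu, _, ⟨a, rfl⟩, rfl⟩ := Submodule.mem_sup.1 hx
    obtain ⟨u', hu', _, ⟨a', rfl⟩, rfl⟩ := Submodule.mem_sup.1 hy
    have h3 : ((nl X) ^ k) (nl X a') = 0 := by
      rw [← Module.End.mul_apply, ← pow_succ, hk, LinearMap.zero_apply]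
    rw [map_add ((nl X) ^ k), h3, add_zero, hB', heNk, map_add e, map_add Y.B, LinearMap.add_apply, heN,
      hzero Y hk', add_zero, map_add X.B, LinearMap.add_apply, hzero X hk, add_zero]
    have := hc ⟨u, hu⟩ ⟨u', hu'⟩
    rw [← heu, ← heu] at this
    exact this
  have hnd' : ∀ x, (∀ y, B' x y = 0) → x = 0 := by
    intro x hx
    apply e.injective
    rw [map_zero]
    apply Y.nd
    intro y
    have := hx (e.symm y)
    rwa [hB', e.apply_symm_apply] at this
  let h := FormConj.rep X.B X.nd B'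
  have hh : ∀ x y, X.B (h x) y = B' x y := FormConj.rep_apply X.B X.nd B'
  have hsymB' : ∀ x y, B' y x = ε * B' x y := fun x y => Y.sym _ _
  have hsa : ∀ x y, X.B (h x) y = X.B x (h y) := by
    intro x y
    rw [X.sym (h y) x, hh, hh]
    exact hsymB' y x
  have hcT : ∀ x, h (X.T x) = X.T (h x) := by
    intro x
    apply FormConj.ext_of X.B X.nd
    intro y
    obtain ⟨y, rfl⟩ := T_surj X y
    rw [hh, hB', heT, heT, Y.inv, X.inv, hh, hB']
  have hcN : ∀ x, h (nl X x) = nl X (h x) := by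
    intro x
    rw [nl_apply, nl_apply, map_sub, hcT]
  -- h - 1 is nilpotent
  have hn1 : ∀ x, (h - 1) x ∈ LinearMap.range (nl X) := by
    intro x
    apply hkr
    rw [LinearMap.mem_ker, ← ker_iff]
    intro y
    rw [LinearMap.sub_apply, map_sub, LinearMap.sub_apply, hh, htop, Module.End.one_apply, sub_self]
  have hnc : ∀ (j : ℕ) x, (h - 1) (((nl X) ^ j) x) = ((nl X) ^ j) ((h - 1) x) := by
    intro j x
    have : ∀ x, (h - 1) (nl X x) = nl X ((h - 1) x) := by
      intro x
      rw [LinearMap.sub_apply, LinearMap.sub_apply, map_sub, hcN]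
      rfl
    exact inter_pow (h - 1) this j x
  have hnj : ∀ (j : ℕ) x, ∃ z, ((h - 1) ^ j) x = ((nl X) ^ j) z := by
    intro j
    induction j with
    | zero => intro x; exact ⟨x, rfl⟩
    | succ j ih =>
      intro x
      obtain ⟨z, hz⟩ := ih x
      obtain ⟨z', hz'⟩ := hn1 z
      refine ⟨z', ?_⟩
      rw [pow_succ', Module.End.mul_apply, hz, hnc, ← hz', ← Module.End.mul_apply, ← pow_succ]
  have hnil : (h - 1) ^ (k + 1) = 0 := by
    apply LinearMap.ext
    intro x
    obtain ⟨z, hz⟩ := hnj (k + 1) x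
    rw [hz, hk]
    rfl
  obtain ⟨p, hp⟩ := CharP.exists F
  haveI : Fact p.Prime := ⟨(CharP.char_is_prime_or_zero F p).resolve_right (by
    intro h0
    subst h0
    haveI := CharP.charP_to_charZero F
    exact not_finite_iff_infinite.mpr inferInstance ‹Finite F›)⟩
  have hp2 : p ≠ 2 := by
    rintro rfl
    exact h2 (by exact_mod_cast CharP.cast_eq_zero F 2)
  obtain ⟨j, hj⟩ := exists_sqrt (F := F) hp2 hnil
  have hvs : ∀ (j : ℕ) x y, X.B ((h ^ j) x) y = X.B x ((h ^ j) y) := by
    intro j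
    induction j with
    | zero => intro x y; rfl
    | succ j ih =>
      intro x y
      rw [pow_succ, Module.End.mul_apply, ih, hsa, ← Module.End.mul_apply, ← pow_succ', ← pow_succ]
  have hvB : ∀ x y, X.B ((h ^ j) x) ((h ^ j) y) = B' x y := by
    intro x y
    rw [hvs, ← Module.End.mul_apply, hj, ← hsa, hh]
  have hvi : Function.Injective (h ^ j) := by
    rw [injective_iff_map_eq_zero]
    intro x hx
    apply hnd'
    intro y
    rw [← hvB, hx, map_zero, LinearMap.zero_apply]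
  let v : X.V ≃ₗ[F] X.V := LinearEquiv.ofBijective (h ^ j) ⟨hvi, LinearMap.injective_iff_surjective.mp hvi⟩
  have hvT : ∀ x, (h ^ j) (X.T x) = X.T ((h ^ j) x) := by
    intro x
    exact (inter_pow X.T (f := h) (g := h) (fun x => (hcT x).symm) j x).symm
  apply Iso.symm
  refine ⟨e.symm.trans v, ?_, ?_⟩
  · intro x y
    show X.B ((h ^ j) (e.symm x)) ((h ^ j) (e.symm y)) = _
    rw [hvB, hB', e.apply_symm_apply, e.apply_symm_apply]
  · intro x
    show (h ^ j) (e.symm (Y.T x)) = X.T ((h ^ j) (e.symm x))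
    rw [← hvT]
    congr 1
    rw [LinearEquiv.symm_apply_eq, heT, e.apply_symm_apply]

end Cfsg.Agent.Lib.IsoSp
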