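import Cfsg.Agent.Lib.IsoSp3
import Cfsg.Agent.Lib.SimForm2
import Cfsg.Agent.Lib.AltForm
set_option autoImplicit false

/-!
# Data of isometries (helper45)
-/

namespace Cfsg.Agent.Lib.IsoSp
open Module QuadraticMap

universe u

section forms

variable {F : Type u} [Field F]

/-- Gram matrix -/
def gram {V : Type*} [AddCommGroup V] [Module F V] (β : V →ₗ[F] V →ₗ[F] F) {ι : Type*} (b : ι → V) : Matrix ι ι F :=
  Matrix.of fun i j => β (b i) (b j)

theorem gram_apply {V : Type*} [AddCommGroup V] [Module F V] (β : V →ₗ[F] V →ₗ[F] F) {ι : Type*} (b : ι → V) (i j : ι) :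
    gram β b i j = β (b i) (b j) := rfl

theorem toMatrix_qf {V : Type*} [AddCommGroup V] [Module F V] [FiniteDimensional F V] {β : V →ₗ[F] V →ₗ[F] F} (hs : ∀ x y, β x y = β y x)
    {ι : Type*} [Fintype ι] [DecidableEq ι] (b : Basis ι F V) :
    LinearMap.BilinForm.toMatrix b (polarBilin (SimForm.qf β)) = (2 : F) • gram β b := by
  ext i j
  rw [LinearMap.BilinForm.toMatrix_apply, Matrix.smul_apply, gram_apply, polarBilin_apply_apply, SimForm.polar_qf hs,
    smul_eq_mul]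

theorem exists_sym_isometry [Finite F] (h2 : (2 : F) ≠ 0) {V W : Type*} [AddCommGroup V] [Module F V]
    [FiniteDimensional F V] [AddCommGroup W] [Module F W] [FiniteDimensional F W]
    {β : V →ₗ[F] V →ₗ[F] F} {γ : W →ₗ[F] W →ₗ[F] F} (hs : ∀ x y, β x y = β y x) (hs' : ∀ x y, γ x y = γ y x)
    (hn : ∀ x, (∀ y, β x y = 0) → x = 0) (hn' : ∀ x, (∀ y, γ x y = 0) → x = 0) {m : ℕ}
    (b : Basis (Fin m) F V) (c : Basis (Fin m) F W)
    (hd : IsSquare (gram β b).det ↔ IsSquare (gram γ c).det) : ∃ g : V ≃ₗ[F] W, ∀ x y, γ (g x) (g y) = β x y := by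
  have hq := SimForm.nd_qf h2 hs hn
  have hq' := SimForm.nd_qf h2 hs' hn'
  have hdim : finrank F V = finrank F W := by
    rw [Module.finrank_eq_card_basis b, Module.finrank_eq_card_basis c]
  obtain ⟨g, hg⟩ := Quad.exists_isometry_of_disc h2 hq hq' hdim b c (by
    have h1 := hq.gram_ne_zero b
    have h3 := hq'.gram_ne_zero c
    rw [toMatrix_qf hs, Matrix.det_smul] at h1 ⊢
    rw [toMatrix_qf hs', Matrix.det_smul] at h3 ⊢
    have e : (2 : F) ^ Fintype.card (Fin m) * (gram β b).det * ((2 : F) ^ Fintype.card (Fin m) * (gram γ c).det) =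
      ((2 : F) ^ Fintype.card (Fin m)) ^ 2 * ((gram β b).det * (gram γ c).det) := by ring
    rw [e]
    refine IsSquare.mul (IsSquare.sq _) ?_
    rw [Quad.isSquare_mul_iff (right_ne_zero_of_mul h1) (right_ne_zero_of_mul h3)]
    exact hd)
  refine ⟨g, fun x y => ?_⟩
  have h3 : 2 * γ (g x) (g y) = 2 * β x y := by
    rw [← SimForm.polar_qf hs', ← SimForm.polar_qf hs, polar, polar, ← map_add, hg, hg, hg]
  exact mul_left_cancel₀ h2 h3

theorem isSquare_gram_of {V : Type*} [AddCommGroup V] [Module F V] (β : V →ₗ[F] V →ₗ[F] F)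
    {ι κ : Type*} [Fintype ι] [DecidableEq ι] [Fintype κ] [DecidableEq κ] (b : Basis ι F V) (c : Basis κ F V)
    (h : IsSquare (gram β b).det) : IsSquare (gram β c).det := by
  have e : ∀ {ι : Type _} [Fintype ι] [DecidableEq ι] (b : Basis ι F V), gram β b = LinearMap.BilinForm.toMatrix b β := by
    intro ι _ _ b
    ext i j
    rw [LinearMap.BilinForm.toMatrix_apply]
    rfl
  obtain ⟨d, _, hd⟩ := Quad.det_toMatrix_basis_change b c β
  have e2 : gram β c = LinearMap.BilinForm.toMatrix c β := by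
    ext i j
    rw [LinearMap.BilinForm.toMatrix_apply]
    rfl
  rw [e] at h
  rw [e2, hd]
  exact IsSquare.mul (IsSquare.sq d) h

theorem isSquare_gram_iff {V : Type*} [AddCommGroup V] [Module F V] (β : V →ₗ[F] V →ₗ[F] F)
    {ι κ : Type*} [Fintype ι] [DecidableEq ι] [Fintype κ] [DecidableEq κ] (b : Basis ι F V) (c : Basis κ F V) :
    IsSquare (gram β b).det ↔ IsSquare (gram β c).det :=
  ⟨isSquare_gram_of β b c, isSquare_gram_of β c b⟩

end forms

variable {F : Type u} [Field F] {ε : F}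

theorem top_T (X : ISp F ε) {k : ℕ} (hk : (nl X) ^ (k + 1) = 0) (x y : X.V) (j : ℕ) :
    X.B (((nl X) ^ k) x) ((X.T ^ j) y) = X.B (((nl X) ^ k) x) y := by
  induction j with
  | zero => rfl
  | succ j ih =>
    rw [pow_succ', Module.End.mul_apply, T_eq, map_add, ih, B_nl, ← Module.End.mul_apply, ← pow_succ', hk]
    simp

theorem top_swap (X : ISp F ε) {k : ℕ} (hk : (nl X) ^ (k + 1) = 0) (x y : X.V) :
    X.B y (((nl X) ^ k) x) = ((-1) ^ k * ε) * X.B x (((nl X) ^ k) y) := by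
  rw [X.sym (((nl X) ^ k) x) y, B_nl_pow X k x y, top_T X hk]
  have h1 : ((-1 : F) ^ k) * (-1) ^ k = 1 := by rw [← mul_pow]; simp
  linear_combination (-ε * (X.B (((nl X) ^ k) x) y)) * h1

/-- the top form on a subspace -/
def top (X : ISp F ε) (k : ℕ) (U : Submodule F X.V) : U →ₗ[F] U →ₗ[F] F :=
  (X.B.compl₂ ((nl X) ^ k)).domRestrict₁₂ U U

theorem top_apply (X : ISp F ε) (k : ℕ) (U : Submodule F X.V) (x y : U) :
    top X k U x y = X.B x (((nl X) ^ k) (y : X.V)) := rfl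

theorem top_nd {X : ISp F ε} {k : ℕ} (hX : Hom k X) {U : Submodule F X.V} (hU : IsCompl U (LinearMap.range (nl X))) :
    ∀ x, (∀ y, top X k U x y = 0) → x = 0 := by
  intro x hx
  have h1 : ((nl X) ^ k) (x : X.V) = 0 := by
    rw [← ker_iff]
    intro y
    have hy : y ∈ U ⊔ LinearMap.range (nl X) := by rw [hU.sup_eq_top]; trivial
    obtain ⟨u, hu, _, ⟨z, rfl⟩, rfl⟩ := Submodule.mem_sup.1 hy
    have h3 : ((nl X) ^ k) (nl X z) = 0 := by
      rw [← Module.End.mul_apply, ← pow_succ, hX.1, LinearMap.zero_apply]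
    rw [map_add ((nl X) ^ k), h3, add_zero]
    exact hx ⟨u, hu⟩
  have h2 : (x : X.V) ∈ U ⊓ LinearMap.range (nl X) := ⟨x.2, hX.2 h1⟩
  rw [hU.inf_eq_bot, Submodule.mem_bot] at h2
  exact Subtype.ext h2

/-- homogeneous of exponent `k+1`, rank `m`, discriminant class `δ` -/
def HD (k m : ℕ) (δ : Bool) (X : ISp F ε) : Prop :=
  Hom k X ∧ ∃ (U : Submodule F X.V) (b : Basis (Fin m) F U), IsCompl U (LinearMap.range (nl X)) ∧
    (δ = true ↔ ((-1) ^ k * ε = -1 ∨ IsSquare (gram (top X k U) b).det))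

theorem Hom.hd {k : ℕ} {X : ISp F ε} (h : Hom k X) : ∃ m δ, HD k m δ X := by
  classical
  obtain ⟨U, hU⟩ := Submodule.exists_isCompl (LinearMap.range (nl X))
  exact ⟨finrank F U, decide ((-1) ^ k * ε = -1 ∨ IsSquare (gram (top X k U) (Module.finBasis F U)).det), h, U,
    Module.finBasis F U, hU.symm, by rw [decide_eq_true_iff]⟩

theorem HD.dim {k m : ℕ} {δ : Bool} {X : ISp F ε} (h : HD k m δ X) : dim X = (k + 1) * m := by
  obtain ⟨hX, U, b, hU, -⟩ := h
  have hUk : ∀ x ∈ U, ((nl X) ^ k) x = 0 → x = 0 := by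
    intro x hx hx'
    have : x ∈ U ⊓ LinearMap.range (nl X) := ⟨hx, hX.2 hx'⟩
    rwa [hU.inf_eq_bot, Submodule.mem_bot] at this
  let φ : (Fin (k + 1) → U) ≃ₗ[F] X.V :=
    LinearEquiv.ofBijective (Phi X k U) ⟨Phi_inj X hX.1 U hUk, Phi_surj X hX.1 hU.sup_eq_top⟩
  show finrank F X.V = _
  rw [← φ.finrank_eq, Module.finrank_pi_fintype]
  simp [Module.finrank_eq_card_basis b]

theorem sign_cases (h2 : (2 : F) ≠ 0) (hε : ε * ε = 1) (k : ℕ) : (-1 : F) ^ k * ε = 1 ∨ (-1 : F) ^ k * ε = -1 := by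
  have h1 : ((-1 : F) ^ k * ε) * ((-1 : F) ^ k * ε) = 1 := by
    have : ((-1 : F) ^ k) * (-1) ^ k = 1 := by rw [← mul_pow]; simp
    linear_combination (ε * ε) * this + hε
  exact mul_self_eq_one_iff.1 h1

theorem one_ne_neg_one (h2 : (2 : F) ≠ 0) : (1 : F) ≠ -1 := by
  intro h
  apply h2
  linear_combination h

theorem top_alt (h2 : (2 : F) ≠ 0) {X : ISp F ε} {k : ℕ} (hk : (nl X) ^ (k + 1) = 0) (h : (-1 : F) ^ k * ε = -1)
    (U : Submodule F X.V) (x : U) : top X k U x x = 0 := by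
  have h1 := top_swap X hk (x : X.V) x
  rw [h] at h1
  rw [top_apply]
  have h3 : 2 * X.B (x : X.V) (((nl X) ^ k) (x : X.V)) = 0 := by linear_combination h1
  exact (mul_eq_zero.1 h3).resolve_left h2

theorem HD.iso [Finite F] (h2 : (2 : F) ≠ 0) (hε : ε * ε = 1) {k m : ℕ} {δ : Bool} {X Y : ISp F ε}
    (hX : HD k m δ X) (hY : HD k m δ Y) : Iso X Y := by
  obtain ⟨hX1, U, b, hU, hδ⟩ := hX
  obtain ⟨hY1, U', b', hU', hδ'⟩ := hY
  have hc : ∃ c : U ≃ₗ[F] U', ∀ u u', top Y k U' (c u) (c u') = top X k U u u' := by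
    rcases sign_cases h2 hε k with h | h
    · apply exists_sym_isometry h2 _ _ (top_nd hX1 hU) (top_nd hY1 hU') b b'
      · have h3 : ¬ ((-1 : F) ^ k * ε = -1) := by
          rw [h]; exact one_ne_neg_one h2
        simp only [h3, false_or] at hδ hδ'
        rw [← hδ, ← hδ']
      · intro x y
        rw [top_apply, top_apply, top_swap X hX1.1, h, one_mul]
      · intro x y
        rw [top_apply, top_apply, top_swap Y hY1.1, h, one_mul]
    · exact AltForm.exists_isometry _ (fun v => top_alt h2 hX1.1 h U v) (top_nd hX1 hU) _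
        (fun v => top_alt h2 hY1.1 h U' v) (top_nd hY1 hU')
        (by rw [Module.finrank_eq_card_basis b, Module.finrank_eq_card_basis b'])
  obtain ⟨c, hc⟩ := hc
  exact hom_iso h2 hε hX1 hY1 hU hU' c hc

theorem HD.even (h2 : (2 : F) ≠ 0) {k m : ℕ} {δ : Bool} {X : ISp F ε} (hX : HD k m δ X)
    (h : (-1 : F) ^ k * ε = -1) : Even m := by
  obtain ⟨hX1, U, b, hU, hδ⟩ := hX
  have h1 := AltForm.even_finrank (top X k U) (fun v => top_alt h2 hX1.1 h U v) (top_nd hX1 hU)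
  rwa [Module.finrank_eq_card_basis b, Fintype.card_fin] at h1

theorem HD.alt {k m : ℕ} {δ : Bool} {X : ISp F ε} (hX : HD k m δ X) (h : (-1 : F) ^ k * ε = -1) : δ = true := by
  obtain ⟨_, U, b, _, hδ⟩ := hX
  exact hδ.2 (Or.inl h)

theorem HD.zero {k : ℕ} {δ : Bool} {X : ISp F ε} (hX : HD k 0 δ X) : δ = true := by
  obtain ⟨_, U, b, _, hδ⟩ := hX
  exact hδ.2 (Or.inr (by rw [Matrix.det_isEmpty]; exact ⟨1, by ring⟩))

/-! ### unipotent data -/

theorem iso_of_dim_zero {X Y : ISp F ε} (hX : dim X = 0) (hY : dim Y = 0) : Iso X Y := by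
  haveI : Subsingleton X.V := Module.finrank_zero_iff.1 hX
  haveI : Subsingleton Y.V := Module.finrank_zero_iff.1 hY
  refine ⟨LinearEquiv.ofFinrankEq _ _ (hX.trans hY.symm), ?_, ?_⟩
  · intro x y
    rw [Subsingleton.elim x 0, map_zero, map_zero, map_zero, LinearMap.zero_apply, LinearMap.zero_apply]
  · intro x
    exact Subsingleton.elim _ _

/-- unipotent data: `d j` is the rank and discriminant of exponent `j + 1` -/
def UD : ℕ → (ℕ → ℕ × Bool) → ISp F ε → Prop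
  | 0, _, X => dim X = 0
  | K + 1, d, X => ∃ H Y : ISp F ε, Iso X (sum H Y) ∧ HD K (d K).1 (d K).2 H ∧ UD K d Y

theorem UD.congr : ∀ {K : ℕ} {d d' : ℕ → ℕ × Bool} {X : ISp F ε}, (∀ j < K, d j = d' j) → UD K d X → UD K d' X
  | 0, _, _, _, _, h => h
  | K + 1, d, d', X, hd, ⟨H, Y, e, h1, h2⟩ => ⟨H, Y, e, by rw [← hd K (by omega)]; exact h1,
      UD.congr (fun j hj => hd j (by omega)) h2⟩

theorem UD.iso [Finite F] (h2 : (2 : F) ≠ 0) (hε : ε * ε = 1) : ∀ {K : ℕ} {d : ℕ → ℕ × Bool} {X Y : ISp F ε},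
    UD K d X → UD K d Y → Iso X Y
  | 0, _, _, _, hX, hY => iso_of_dim_zero hX hY
  | K + 1, d, X, Y, ⟨H, X', e, h1, h3⟩, ⟨H', Y', e', h1', h3'⟩ =>
    e.trans (((h1.iso h2 hε h1').sum (UD.iso h2 hε h3 h3')).trans e'.symm)

theorem UD.dim : ∀ {K : ℕ} {d : ℕ → ℕ × Bool} {X : ISp F ε}, UD K d X →
    IsoSp.dim X = ∑ j ∈ Finset.range K, (j + 1) * (d j).1
  | 0, _, _, h => by rw [Finset.range_zero, Finset.sum_empty]; exact h
  | K + 1, d, X, ⟨H, Y, e, h1, h2⟩ => by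
    rw [Finset.sum_range_succ, e.dim, dim_sum, h1.dim, UD.dim h2, add_comm]

theorem UD.even (h2 : (2 : F) ≠ 0) : ∀ {K : ℕ} {d : ℕ → ℕ × Bool} {X : ISp F ε}, UD K d X →
    ∀ j < K, (-1 : F) ^ j * ε = -1 → Even (d j).1
  | 0, _, _, _ => fun j hj => absurd hj (Nat.not_lt_zero _)
  | K + 1, d, X, ⟨H, Y, e, h1, h3⟩ => fun j hj h => by
    rcases Nat.lt_succ_iff_lt_or_eq.1 hj with h4 | h4
    · exact UD.even h2 h3 j h4 h
    · subst h4
      exact h1.even h2 h

theorem UD.alt : ∀ {K : ℕ} {d : ℕ → ℕ × Bool} {X : ISp F ε}, UD K d X →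
    ∀ j < K, ((-1 : F) ^ j * ε = -1 ∨ (d j).1 = 0) → (d j).2 = true
  | 0, _, _, _ => fun j hj => absurd hj (Nat.not_lt_zero _)
  | K + 1, d, X, ⟨H, Y, e, h1, h3⟩ => fun j hj h => by
    rcases Nat.lt_succ_iff_lt_or_eq.1 hj with h4 | h4
    · exact UD.alt h3 j h4 h
    · subst h4
      rcases h with h | h
      · exact h1.alt h
      · rw [h] at h1
        exact h1.zero

theorem UD.exists : ∀ {K : ℕ} {X : ISp F ε}, (nl X) ^ K = 0 → ∃ d, UD K d X ∧ ∀ j, K ≤ j → d j = (0, true)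
  | 0, X, h => by
    refine ⟨fun _ => (0, true), ?_, fun _ _ => rfl⟩
    have : Subsingleton X.V := by
      refine ⟨fun a b => ?_⟩
      have ha := LinearMap.congr_fun h a
      have hb := LinearMap.congr_fun h b
      rw [pow_zero, Module.End.one_apply, LinearMap.zero_apply] at ha hb
      rw [ha, hb]
    exact Module.finrank_zero_iff.2 this
  | K + 1, X, h => by
    classical
    obtain ⟨H, Y, e, hH, hY⟩ := peel X h
    obtain ⟨m, δ, hm⟩ := hH.hd
    obtain ⟨d, hd, hd0⟩ := UD.exists hY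
    refine ⟨Function.update d K (m, δ), ⟨H, Y, e, ?_, ?_⟩, ?_⟩
    · rw [Function.update_self]; exact hm
    · refine UD.congr (fun j hj => ?_) hd
      rw [Function.update_of_ne (by omega)]
    · intro j hj
      rw [Function.update_of_ne (by omega)]
      exact hd0 j (by omega)

/-! ### total data -/

/-- `X = P ⊥ -M ⊥ Y` -/
def TD (K : ℕ) (dP dM : ℕ → ℕ × Bool) (s : Multiset (Polynomial F × ℕ)) (X : ISp F ε) : Prop :=
  ∃ P M Y : ISp F ε, Iso X (sum P (sum (neg M) Y)) ∧ UD K dP P ∧ UD K dM M ∧ FXType.HasType Y.T s ∧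
    ∀ x, Y.T (Y.T x) = x → x = 0

theorem TD.iso [Finite F] (h2 : (2 : F) ≠ 0) (hε : ε * ε = 1) {K : ℕ} {dP dM : ℕ → ℕ × Bool}
    {s : Multiset (Polynomial F × ℕ)} {X Y : ISp F ε} (hX : TD K dP dM s X) (hY : TD K dP dM s Y) : Iso X Y := by
  obtain ⟨P, M, Z, e, hP, hM, hZ, hZ'⟩ := hX
  obtain ⟨P', M', W, e', hP', hM', hW, hW'⟩ := hY
  exact e.trans (((hP.iso h2 hε hP').sum ((hM.iso h2 hε hM').neg.sum (iso_of_type hε hZ hW hZ'))).trans e'.symm)

theorem nilp_dim {X : ISp F ε} (h : Uni X) {K : ℕ} (hK : dim X ≤ K) : (nl X) ^ K = 0 := by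
  obtain ⟨n, hn⟩ := h
  have h1 := Module.End.ker_pow_le_ker_pow_finrank (nl X) n
  have h2 : (nl X) ^ (finrank F X.V) = 0 := by
    rw [← LinearMap.ker_eq_top, eq_top_iff]
    refine le_trans ?_ h1
    rw [hn, LinearMap.ker_zero]
  obtain ⟨i, hi⟩ := Nat.exists_eq_add_of_le hK
  rw [hi, pow_add]
  show (nl X) ^ (finrank F X.V) * _ = 0
  rw [h2, zero_mul]

theorem TD.exists (X : ISp F ε) {K : ℕ} (hK : IsoSp.dim X ≤ K) : ∃ dP dM s, TD K dP dM s X ∧
    (∀ j, K ≤ j → dP j = (0, true)) ∧ ∀ j, K ≤ j → dM j = (0, true) := by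
  obtain ⟨P, M, Y, e, hP, hM, hY⟩ := full X
  have h1 := e.dim
  rw [dim_sum, dim_sum, dim_neg] at h1
  obtain ⟨dP, h2, h3⟩ := UD.exists (nilp_dim hP (K := K) (by omega))
  obtain ⟨dM, h4, h5⟩ := UD.exists (nilp_dim hM (K := K) (by omega))
  obtain ⟨s, hs⟩ := FXType.exists_hasType Y.T
  exact ⟨dP, dM, s, ⟨P, M, Y, e, h2, h4, hs, hY⟩, h3, h5⟩

end Cfsg.Agent.Lib.IsoSp
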