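import Cfsg.Agent.Lib.IsoSp4
import Cfsg.Agent.Lib.HermType
import Cfsg.Agent.Lib.GLCount
import Cfsg.Agent.Lib.SpCount
set_option autoImplicit false

/-!
# Types of isometries without eigenvalues `±1` (helper45)
-/

namespace Cfsg.Agent.Lib.IsoSp
open Module Polynomial FXType GLClass PolyStar GLCount

universe u

variable {F : Type u} [Field F] {ε : F}

theorem gdeg_self_pos {c : F} {k : ℕ} (hk : 0 < k) : 0 < gdeg (X - C c) ((X - C c) ^ k) := by
  classical
  have h1 := natDegree_gcd_pow (X - C c) (X - C c) (monic_X_sub_C c) (irreducible_X_sub_C c) (monic_X_sub_C c)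
    (irreducible_X_sub_C c) 1 k
  rw [pow_one, if_pos rfl, natDegree_X_sub_C] at h1
  rw [h1]
  omega

/-- a linear factor in the type gives an eigenvector -/
theorem exists_eigen {V : Type*} [AddCommGroup V] [Module F V] {f : Module.End F V} {s : Multiset (F[X] × ℕ)}
    (h : HasType f s) {c : F} {k : ℕ} (hc : (X - C c, k) ∈ s) : ∃ x, x ≠ 0 ∧ f x = c • x := by
  have h1 := h.finrank_ker (X - C c)
  have hk := (h.good _ hc).2.2
  have h2 : 0 < finrank F (LinearMap.ker (aeval f (X - C c))) := by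
    rw [h1]
    have h3 := gdeg_self_pos (c := c) hk
    have h4 : gdeg (X - C c) ((X - C c) ^ k) ≤ (s.map fun d => gdeg (X - C c) (d.1 ^ d.2)).sum :=
      Multiset.single_le_sum (fun _ _ => Nat.zero_le _) _ (Multiset.mem_map.2 ⟨_, hc, rfl⟩)
    exact lt_of_lt_of_le h3 h4
  have h5 : LinearMap.ker (aeval f (X - C c)) ≠ ⊥ := by
    intro h0
    rw [h0, finrank_bot] at h2
    exact lt_irrefl _ h2
  obtain ⟨x, hx, hx0⟩ := Submodule.exists_mem_ne_zero_of_ne_bot h5
  refine ⟨x, hx0, ?_⟩
  rw [LinearMap.mem_ker] at hx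
  simp only [map_sub, aeval_X, aeval_C, LinearMap.sub_apply, Module.algebraMap_end_apply] at hx
  exact sub_eq_zero.1 hx

theorem gram_eq {V : Type*} [AddCommGroup V] [Module F V] (β : V →ₗ[F] V →ₗ[F] F) {ι : Type*} [Fintype ι] [DecidableEq ι]
    (b : Basis ι F V) : gram β b = LinearMap.BilinForm.toMatrix b β := by
  ext i j
  rw [LinearMap.BilinForm.toMatrix_apply]
  rfl

theorem count_symm [Finite F] [DecidableEq (F[X] × ℕ)] {X : ISp F ε} {s : Multiset (F[X] × ℕ)} (hs : HasType X.T s) (p : F[X])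
    (hp : p.Monic) (hpi : Irreducible p) (h0 : p.coeff 0 ≠ 0) (k : ℕ) :
    s.count (p, k + 1) = s.count (ps (RingHom.id F) p, k + 1) := by
  classical
  let b := Module.finBasis F X.V
  let M : Matrix _ _ F := LinearMap.toMatrix b b X.T
  have hMb : ∀ x, M.mulVec (b.equivFun x) = b.equivFun (X.T x) := fun x => LinearMap.toMatrix_mulVec_repr b b X.T x
  have hdet : IsUnit M.det := by
    rw [LinearMap.det_toMatrix]
    exact (LinearEquiv.ofBijective X.T ⟨T_inj X, T_surj X⟩).isUnit_det'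
  let A : GL (Fin (finrank F X.V)) F := Matrix.GeneralLinearGroup.mk'' M hdet
  have hA : (A : Matrix _ _ F) = M := rfl
  have hG : M.transpose * gram X.B b * M = gram X.B b := by
    rw [gram_eq, ← LinearMap.BilinForm.toMatrix_comp b b]
    congr 1
    apply LinearMap.ext₂
    intro x y
    exact X.inv x y
  have hGu : IsUnit (gram X.B b).det := by
    rw [gram_eq, isUnit_iff_ne_zero]
    have h1 : (X.B : LinearMap.BilinForm F X.V).Nondegenerate := FormConj.nd X.B X.nd
    exact (LinearMap.BilinForm.nondegenerate_iff_det_ne_zero b).1 h1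
  refine HermType.count_symm (σ := RingHom.id F) (fun _ => rfl) A (s := s) ?_ ?_ p hp hpi h0 k
  · rw [hA]
    refine HasType.ofEquiv hs b.equivFun.symm ?_
    intro x
    rw [LinearEquiv.symm_apply_eq, ← hMb, LinearEquiv.apply_symm_apply]
    rfl
  · rw [hA]
    have h3 : (M.map (RingHom.id F)) = M := by ext i j; rfl
    rw [h3]
    let G : (Matrix (Fin (finrank F X.V)) (Fin (finrank F X.V)) F)ˣ := Matrix.GeneralLinearGroup.mk'' (gram X.B b) hGu
    refine ⟨G, ?_⟩
    show gram X.B b * M = (M.transpose)⁻¹ * gram X.B b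
    have hMt : IsUnit M.transpose.det := by rwa [Matrix.det_transpose]
    conv_rhs => rw [← hG]
    rw [Matrix.mul_assoc, ← Matrix.mul_assoc (M.transpose)⁻¹, Matrix.nonsing_inv_mul _ hMt, Matrix.one_mul]

/-- the polynomials occurring with exponent `i` -/
theorem pr_symm [Finite F] {X : ISp F ε} {s : Multiset (F[X] × ℕ)} (hs : HasType X.T s) {i : ℕ} (hi : 1 ≤ i) :
    (((fi i s).map Prod.fst).map (ps (RingHom.id F))) = (fi i s).map Prod.fst := by
  classical
  have hX0 : ∀ d ∈ s, d.1.coeff 0 ≠ 0 := by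
    intro d hd h0
    have hg := hs.good d hd
    have h1 : d.1 = Polynomial.X := by
      by_contra hne
      exact coeff_zero_ne hg.1 hg.2.1 hne h0
    obtain ⟨x, hx, hx'⟩ := exists_eigen hs (c := 0) (k := d.2) (by
      rw [C_0, sub_zero, ← h1]; exact hd)
    rw [zero_smul] at hx'
    exact hx (T_inj X (by rw [hx', map_zero]))
  set m := (fi i s).map Prod.fst with hm
  have hmem : ∀ φ ∈ m, φ.Monic ∧ Irreducible φ ∧ φ.coeff 0 ≠ 0 := by
    intro φ hφ
    obtain ⟨d, hd, rfl⟩ := Multiset.mem_map.1 hφ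
    have h1 := (mem_fi.1 hd).1
    exact ⟨(hs.good d h1).1, (hs.good d h1).2.1, hX0 d h1⟩
  have hcount : ∀ φ : F[X], m.count φ = s.count (φ, i) := by
    intro φ
    have h1 : (fi i s).count (φ, i) = m.count φ := by
      rw [fi_eq_map, ← hm]
      exact Multiset.count_map_eq_count' (fun φ : F[X] => (φ, i)) m (fun a b h => congrArg Prod.fst h) φ
    rw [← h1, fi]
    exact Multiset.count_filter_of_pos (p := fun d : F[X] × ℕ => d.2 = i) (a := (φ, i)) rfl
  obtain ⟨k, rfl⟩ : ∃ k, i = k + 1 := ⟨i - 1, by omega⟩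
  have hsym : ∀ φ : F[X], φ.Monic → Irreducible φ → φ.coeff 0 ≠ 0 → m.count (ps (RingHom.id F) φ) = m.count φ := by
    intro φ h1 h2 h3
    rw [hcount, hcount]
    exact (count_symm hs φ h1 h2 h3 k).symm
  have hps : ∀ φ : F[X], φ.Monic → φ.coeff 0 ≠ 0 → ps (RingHom.id F) (ps (RingHom.id F) φ) = φ := fun φ h1 h2 =>
    ps_ps (fun _ => rfl) h1 h2
  apply Multiset.ext.2
  intro a
  by_cases ha : a.Monic ∧ Irreducible a ∧ a.coeff 0 ≠ 0
  · rw [Multiset.count_map, ← hsym a ha.1 ha.2.1 ha.2.2, ← Multiset.countP_eq_card_filter, Multiset.count]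
    apply Multiset.countP_congr rfl
    intro b hb
    obtain ⟨h1, h2, h3⟩ := hmem b hb
    apply propext
    constructor
    · intro h
      rw [h, hps b h1 h3]
    · intro h
      rw [← h, hps a ha.1 ha.2.2]
  · rw [Multiset.count_eq_zero_of_notMem, Multiset.count_eq_zero_of_notMem]
    · intro h
      exact ha (hmem a h)
    · intro h
      obtain ⟨b, hb, rfl⟩ := Multiset.mem_map.1 h
      obtain ⟨h1, h2, h3⟩ := hmem b hb
      exact ha ⟨ps_monic h1.ne_zero, ps_irreducible (fun _ => rfl) h2, ps_coeff_zero h1.ne_zero h3⟩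

theorem rv_prod (m : Multiset F[X]) : rv (RingHom.id F) m.prod = (m.map (rv (RingHom.id F))).prod := by
  induction m using Multiset.induction_on with
  | empty =>
    rw [Multiset.map_zero, Multiset.prod_zero, rv, Polynomial.map_one, ← C_1, mirror_C]
  | cons a m ih => rw [Multiset.prod_cons, rv_mul, ih, Multiset.map_cons, Multiset.prod_cons]

theorem prod_assoc' {m : Multiset F[X]} (hm : ∀ φ ∈ m, φ ≠ 0) :
    Associated (m.map (ps (RingHom.id F))).prod (m.map (rv (RingHom.id F))).prod := by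
  induction m using Multiset.induction_on with
  | empty => exact Associated.refl _
  | cons a m ih =>
    rw [Multiset.map_cons, Multiset.map_cons, Multiset.prod_cons, Multiset.prod_cons]
    exact (ps_assoc (hm a (Multiset.mem_cons_self a m))).mul_mul (ih fun φ hφ => hm φ (Multiset.mem_cons_of_mem hφ))

theorem reverse_of_assoc {g : F[X]} (hg : g.Monic) (h0 : g.coeff 0 ≠ 0) (h : Associated g (rv (RingHom.id F) g))
    (h1 : g.eval 1 ≠ 0) : g.reverse = g := by
  have e1 : rv (RingHom.id F) g = g.reverse := by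
    rw [rv_eq_reflect h0, Polynomial.map_id]
    rfl
  rw [e1] at h
  obtain ⟨u, hu⟩ := h
  obtain ⟨c, hc, hcu⟩ := Polynomial.isUnit_iff.mp u.isUnit
  have h2 : g.reverse = C c * g := by rw [← hu, ← hcu, mul_comm]
  have h3 : g.reverse.eval 1 = g.eval 1 := by
    letI := invertibleOne (α := F)
    have := Polynomial.eval₂_reverse_mul_pow (RingHom.id F) (1 : F) g
    simp only [invOf_one, one_pow, mul_one] at this
    exact this
  rw [h2, eval_mul, eval_C] at h3
  have h4 : c = 1 := mul_right_cancel₀ h1 (by rw [h3, one_mul])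
  rw [h2, h4, C_1, one_mul]

theorem even_of_reverse (h2 : (2 : F) ≠ 0) {g : F[X]} (h : g.reverse = g) (h1 : g.eval (-1) ≠ 0) : Even g.natDegree := by
  letI : Invertible (-1 : F) := ⟨-1, by norm_num, by norm_num⟩
  have h3 := Polynomial.eval₂_reverse_mul_pow (RingHom.id F) (-1 : F) g
  rw [h] at h3
  have h4 : g.eval (-1) * (-1) ^ g.natDegree = g.eval (-1) := h3
  have h5 : (-1 : F) ^ g.natDegree = 1 := mul_left_cancel₀ h1 (by rw [h4, mul_one])
  by_contra hodd
  rw [Nat.not_even_iff_odd] at hodd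
  rw [hodd.neg_one_pow] at h5
  exact one_ne_neg_one h2 h5.symm

theorem PAL_of_reverse {g : F[X]} {m : ℕ} (hg : g.Monic) (h : g.reverse = g) (hd : g.natDegree = 2 * m) :
    SpCount.PAL m g := by
  refine ⟨hg, hd, fun i hi => ?_⟩
  conv_rhs => rw [← h]
  rw [coeff_reverse, hd, revAt_le hi]

theorem reverse_of_PAL {g : F[X]} {m : ℕ} (h : SpCount.PAL m g) : g.reverse = g := by
  ext i
  rw [coeff_reverse, h.2.1]
  by_cases hi : i ≤ 2 * m
  · rw [revAt_le hi]; exact h.2.2 i hi
  · rw [revAt_eq_self_of_lt (by omega)]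

theorem PAL.mul {m m' : ℕ} {f g : F[X]} (hf : SpCount.PAL m f) (hg : SpCount.PAL m' g) :
    SpCount.PAL (m + m') (f * g) := by
  refine PAL_of_reverse (hf.1.mul hg.1) ?_ ?_
  · rw [reverse_mul_of_domain, reverse_of_PAL hf, reverse_of_PAL hg]
  · rw [hf.1.natDegree_mul hg.1, hf.2.1, hg.2.1]; ring

theorem PAL.one : SpCount.PAL 0 (1 : F[X]) := by
  refine PAL_of_reverse monic_one ?_ (by simp)
  rw [← C_1, reverse_C]

theorem PAL.pow {m : ℕ} {f : F[X]} (hf : SpCount.PAL m f) (a : ℕ) : SpCount.PAL (a * m) (f ^ a) := by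
  induction a with
  | zero => rw [pow_zero, zero_mul]; exact PAL.one
  | succ a ih =>
    rw [pow_succ, Nat.succ_mul]
    exact PAL.mul ih hf

theorem PAL_sq (c : F) (hc : c * c = 1) : SpCount.PAL 1 ((X - C c) ^ 2) := by
  have e : (X - C c) ^ 2 = X ^ 2 + C (-2 * c) * X + C 1 := by
    rw [← hc]
    simp only [C_mul, C_neg]
    have : (C (2 : F)) = (2 : F[X]) := rfl
    rw [this]
    ring
  refine ⟨(monic_X_sub_C c).pow 2, by rw [natDegree_pow, natDegree_X_sub_C], ?_⟩
  intro i hi
  rw [e]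
  interval_cases i <;> simp [coeff_X, coeff_C, coeff_X_pow, coeff_one]

end Cfsg.Agent.Lib.IsoSp
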