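import Cfsg.Agent.Lib.IsoSp5
set_option autoImplicit false

/-!
# Encoding the data of isometries by palindromic polynomials (helper45)
-/

namespace Cfsg.Agent.Lib.IsoSp
open Module Polynomial FXType GLClass PolyStar GLCount

universe u

variable {F : Type u} [Field F] {ε : F}

theorem exponent_le {s : Multiset (F[X] × ℕ)} {d : F[X] × ℕ} (hg : Good d) (hd : d ∈ s) : d.2 ≤ Tot s := by
  have h1 : d.1.natDegree * d.2 ≤ Tot s := by
    unfold Tot
    exact Multiset.single_le_sum (fun _ _ => Nat.zero_le _) _ (Multiset.mem_map.2 ⟨d, hd, rfl⟩)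
  have h2 := hg.2.1.natDegree_pos
  calc d.2 = 1 * d.2 := (one_mul _).symm
    _ ≤ d.1.natDegree * d.2 := Nat.mul_le_mul_right _ h2
    _ ≤ _ := h1

theorem eq_sum_fi {s : Multiset (F[X] × ℕ)} {K : ℕ} (hs : ∀ d ∈ s, 1 ≤ d.2 ∧ d.2 ≤ K) :
    s = ∑ j ∈ Finset.range K, fi (j + 1) s := by
  classical
  apply Multiset.ext.2
  intro d
  rw [Multiset.count_sum']
  by_cases hd : d ∈ s
  · obtain ⟨h1, h2⟩ := hs d hd
    rw [Finset.sum_eq_single (d.2 - 1)]
    · rw [fi, Multiset.count_filter_of_pos (p := fun e : F[X] × ℕ => e.2 = d.2 - 1 + 1) (by show d.2 = _; omega)]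
    · intro j _ hj
      rw [fi, Multiset.count_filter_of_neg (p := fun e : F[X] × ℕ => e.2 = j + 1) (by show ¬ (d.2 = _); omega)]
    · intro h
      exact absurd (Finset.mem_range.2 (by omega)) h
  · rw [Multiset.count_eq_zero_of_notMem hd, Finset.sum_eq_zero]
    intro j _
    rw [Multiset.count_eq_zero_of_notMem]
    intro h
    exact hd (mem_fi.1 h).1

/-- facts on the polynomials of a type without eigenvalues `±1` -/
theorem pr_pal [Finite F] (h2 : (2 : F) ≠ 0) {Y : ISp F ε} {s : Multiset (F[X] × ℕ)} (hs : HasType Y.T s)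
    (hY : ∀ x, Y.T (Y.T x) = x → x = 0) {i : ℕ} (hi : 1 ≤ i) :
    (pr i s).Monic ∧ (pr i s).eval 1 ≠ 0 ∧ (pr i s).eval (-1) ≠ 0 ∧ i * (pr i s).natDegree = Tot (fi i s) ∧
      bk i (pr i s) = fi i s ∧ Even (pr i s).natDegree ∧ SpCount.PAL ((pr i s).natDegree / 2) (pr i s) := by
  have heig : ∀ (c : F) (k : ℕ), c * c = 1 → (X - C c, k) ∉ s := by
    intro c k hc hmem
    obtain ⟨x, hx, hx'⟩ := exists_eigen hs hmem
    apply hx
    apply hY
    rw [hx', map_smul, hx', smul_smul, hc, one_smul]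
  have hX0 : ∀ d ∈ s, Good d ∧ d.1 ≠ X := by
    intro d hd
    refine ⟨hs.good d hd, ?_⟩
    intro h0
    obtain ⟨x, hx, hx'⟩ := exists_eigen hs (c := 0) (k := d.2) (by
      rw [C_0, sub_zero, ← h0]; exact hd)
    rw [zero_smul] at hx'
    exact hx (T_inj Y (by rw [hx', map_zero]))
  obtain ⟨hm, h0, hTot, hbk⟩ := pr_facts (i := i) hX0
  have hev : ∀ c : F, c * c = 1 → (pr i s).eval c ≠ 0 := by
    intro c hc h
    have h3 : (X - C c) ∣ pr i s := dvd_iff_isRoot.2 h
    have hp : Prime (X - C c) := prime_X_sub_C c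
    unfold pr at h3
    obtain ⟨φ, hφ, hd⟩ := hp.exists_mem_multiset_dvd h3
    obtain ⟨d, hd1, rfl⟩ := Multiset.mem_map.1 hφ
    have hds := (mem_fi.1 hd1).1
    have h4 : Associated (X - C c) d.1 := (irreducible_X_sub_C c).associated_of_dvd (hX0 d hds).1.2.1 hd
    have h5 := eq_of_monic_of_associated (monic_X_sub_C c) (hX0 d hds).1.1 h4
    apply heig c d.2 hc
    rw [h5]
    exact hds
  have h1 := hev 1 (one_mul 1)
  have h1' := hev (-1) (by norm_num)
  have hrev : (pr i s).reverse = pr i s := by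
    apply reverse_of_assoc hm h0 _ h1
    have h3 := prod_assoc' (m := (fi i s).map Prod.fst) (by
      intro φ hφ
      obtain ⟨d, hd1, rfl⟩ := Multiset.mem_map.1 hφ
      exact (hX0 d (mem_fi.1 hd1).1).1.1.ne_zero)
    rw [pr_symm hs hi, ← rv_prod] at h3
    exact h3
  have heven := even_of_reverse h2 hrev h1'
  refine ⟨hm, h1, h1', hTot, hbk, heven, PAL_of_reverse hm hrev ?_⟩
  obtain ⟨a, ha⟩ := heven
  omega

/-! ### encoding ranks and discriminants -/

/-- half of the rank -/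
def encA (p : ℕ × Bool) : ℕ := if Even p.1 then (if p.2 then p.1 / 2 else p.1 / 2 - 1) else p.1 / 2

/-- the rest -/
def encR (p : ℕ × Bool) : Fin 4 := if Even p.1 then (if p.2 then 0 else 2) else (if p.2 then 1 else 3)

/-- the weight of the rest -/
def wt : Fin 4 → ℕ := ![0, 1, 2, 1]

theorem enc_eq {p : ℕ × Bool} (h : p.1 = 0 → p.2 = true) : p.1 = 2 * encA p + wt (encR p) := by
  obtain ⟨m, δ⟩ := p
  simp only at h
  unfold encA encR
  simp only
  by_cases hm : Even m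
  · obtain ⟨a, ha⟩ := hm
    have hm : Even m := ⟨a, ha⟩
    cases δ with
    | true =>
      simp only [hm, if_true]
      show m = 2 * (m / 2) + 0
      omega
    | false =>
      have : m ≠ 0 := fun h0 => by simpa using h h0
      simp only [hm, if_true]
      show m = 2 * (m / 2 - 1) + 2
      omega
  · have hm' : ∃ a, m = 2 * a + 1 := Nat.not_even_iff_odd.1 hm
    obtain ⟨a, ha⟩ := hm'
    cases δ with
    | true =>
      simp only [hm, if_false, if_true]
      show m = 2 * (m / 2) + 1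
      omega
    | false =>
      simp only [hm, if_false]
      show m = 2 * (m / 2) + 1
      omega

theorem enc_inj {p p' : ℕ × Bool} (h : p.1 = 0 → p.2 = true) (h' : p'.1 = 0 → p'.2 = true) (hA : encA p = encA p')
    (hR : encR p = encR p') : p = p' := by
  have h1 : p.1 = p'.1 := by rw [enc_eq h, enc_eq h', hA, hR]
  have h2 : p.2 = p'.2 := by
    unfold encR at hR
    rw [h1] at hR
    by_cases hm : Even p'.1
    · simp only [hm, if_true] at hR
      cases hb : p.2 <;> cases hb' : p'.2 <;> simp [hb, hb'] at hR ⊢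
    · simp only [hm, if_false] at hR
      cases hb : p.2 <;> cases hb' : p'.2 <;> simp [hb, hb'] at hR ⊢
  exact Prod.ext h1 h2

/-- the polynomial attached to the exponent `j + 1` -/
noncomputable def fpol (dP dM : ℕ → ℕ × Bool) (s : Multiset (F[X] × ℕ)) (j : ℕ) : F[X] :=
  pr (j + 1) s * (((X - C 1) ^ 2) ^ (encA (dP j)) * ((X - C (-1)) ^ 2) ^ (encA (dM j)))

/-- its half degree -/
noncomputable def edeg (dP dM : ℕ → ℕ × Bool) (s : Multiset (F[X] × ℕ)) (j : ℕ) : ℕ :=
  (pr (j + 1) s).natDegree / 2 + (encA (dP j) + encA (dM j))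

theorem fpol_pal [Finite F] (h2 : (2 : F) ≠ 0) {Y : ISp F ε} {s : Multiset (F[X] × ℕ)} (hs : HasType Y.T s)
    (hY : ∀ x, Y.T (Y.T x) = x → x = 0) (dP dM : ℕ → ℕ × Bool) (j : ℕ) :
    SpCount.PAL (edeg dP dM s j) (fpol dP dM s j) := by
  obtain ⟨-, -, -, -, -, -, hp⟩ := pr_pal h2 hs hY (i := j + 1) (by omega)
  have h3 := PAL.pow (PAL_sq (1 : F) (one_mul 1)) (encA (dP j))
  have h4 := PAL.pow (PAL_sq (-1 : F) (by norm_num)) (encA (dM j))
  rw [mul_one] at h3 h4
  exact PAL.mul hp (PAL.mul h3 h4)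

theorem mult_eq {g : F[X]} (hg : g.Monic) {c c' : F} (hc : c ≠ c') (h : g.eval c ≠ 0) (a a' : ℕ) :
    rootMultiplicity c (g * (((X - C c) ^ 2) ^ a * ((X - C c') ^ 2) ^ a')) = 2 * a := by
  have m1 : (((X - C c) ^ 2) ^ a : F[X]).Monic := ((monic_X_sub_C c).pow 2).pow a
  have m2 : (((X - C c') ^ 2) ^ a' : F[X]).Monic := ((monic_X_sub_C c').pow 2).pow a'
  rw [rootMultiplicity_mul (hg.mul (m1.mul m2)).ne_zero, rootMultiplicity_mul (m1.mul m2).ne_zero,
    rootMultiplicity_eq_zero (p := g) h, rootMultiplicity_eq_zero (p := ((X - C c') ^ 2) ^ a')]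
  · rw [← pow_mul, rootMultiplicity_X_sub_C_pow]; ring
  · intro h3
    have h4 : eval c (((X - C c') ^ 2) ^ a' : F[X]) = 0 := h3
    rw [eval_pow, eval_pow, eval_sub, eval_X, eval_C] at h4
    exact pow_ne_zero _ (pow_ne_zero _ (sub_ne_zero.2 hc)) h4

/-- the code determines the data -/
theorem code_inj [Finite F] (h2 : (2 : F) ≠ 0) {K : ℕ} {dP dM dP' dM' : ℕ → ℕ × Bool} {s s' : Multiset (F[X] × ℕ)}
    {X X' : ISp F ε} (hX : TD K dP dM s X) (hX' : TD K dP' dM' s' X') (hd : dim X ≤ K) (hd' : dim X' ≤ K)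
    (hf : ∀ j < K, fpol dP dM s j = fpol dP' dM' s' j) (hP : ∀ j < K, encR (dP j) = encR (dP' j))
    (hM : ∀ j < K, encR (dM j) = encR (dM' j)) :
    (∀ j < K, dP j = dP' j) ∧ (∀ j < K, dM j = dM' j) ∧ s = s' := by
  obtain ⟨P, M, Y, e, hUP, hUM, hs, hY⟩ := hX
  obtain ⟨P', M', Y', e', hUP', hUM', hs', hY'⟩ := hX'
  have hne : (1 : F) ≠ -1 := one_ne_neg_one h2
  have key : ∀ j < K, encA (dP j) = encA (dP' j) ∧ encA (dM j) = encA (dM' j) ∧ pr (j + 1) s = pr (j + 1) s' := by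
    intro j hj
    obtain ⟨hm, h1, h1', -⟩ := pr_pal h2 hs hY (i := j + 1) (by omega)
    obtain ⟨hm', h3, h3', -⟩ := pr_pal h2 hs' hY' (i := j + 1) (by omega)
    have e1 := mult_eq hm hne h1 (encA (dP j)) (encA (dM j))
    have e1' := mult_eq hm' hne h3 (encA (dP' j)) (encA (dM' j))
    have e2 := mult_eq hm hne.symm h1' (encA (dM j)) (encA (dP j))
    have e2' := mult_eq hm' hne.symm h3' (encA (dM' j)) (encA (dP' j))
    have hfj := hf j hj
    unfold fpol at hfj
    rw [hfj, e1'] at e1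
    rw [mul_comm (((Polynomial.X - C (-1 : F)) ^ 2) ^ encA (dM j)), hfj,
      ← mul_comm (((Polynomial.X - C (-1 : F)) ^ 2) ^ encA (dM' j)), e2'] at e2
    have ea : encA (dP j) = encA (dP' j) := by omega
    have eb : encA (dM j) = encA (dM' j) := by omega
    refine ⟨ea, eb, ?_⟩
    rw [ea, eb] at hfj
    exact mul_right_cancel₀ (((((monic_X_sub_C (1 : F)).pow 2).pow _).mul (((monic_X_sub_C (-1 : F)).pow 2).pow _)).ne_zero) hfj
  refine ⟨?_, ?_, ?_⟩
  · intro j hj
    exact enc_inj (fun h => hUP.alt j hj (Or.inr h)) (fun h => hUP'.alt j hj (Or.inr h)) (key j hj).1 (hP j hj)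
  · intro j hj
    exact enc_inj (fun h => hUM.alt j hj (Or.inr h)) (fun h => hUM'.alt j hj (Or.inr h)) (key j hj).2.1 (hM j hj)
  · have hb : ∀ {s : Multiset (F[X] × ℕ)} {P M Y X : ISp F ε}, Iso X (sum P (sum (neg M) Y)) → HasType Y.T s →
        IsoSp.dim X ≤ K → ∀ d ∈ s, 1 ≤ d.2 ∧ d.2 ≤ K := by
      intro s P M Y X e hs hd d hds
      have h3 := e.dim
      rw [dim_sum, dim_sum] at h3
      have h4 : Tot s = IsoSp.dim Y := hs.finrank.symm
      have h5 := exponent_le (hs.good d hds) hds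
      exact ⟨(hs.good d hds).2.2, by omega⟩
    rw [eq_sum_fi (hb e hs hd), eq_sum_fi (hb e' hs' hd')]
    apply Finset.sum_congr rfl
    intro j hj
    rw [Finset.mem_range] at hj
    obtain ⟨-, -, -, -, hbk, -⟩ := pr_pal h2 hs hY (i := j + 1) (by omega)
    obtain ⟨-, -, -, -, hbk', -⟩ := pr_pal h2 hs' hY' (i := j + 1) (by omega)
    rw [← hbk, ← hbk', (key j hj).2.2]

/-- dimension formula -/
theorem TD.dim_eq [Finite F] (h2 : (2 : F) ≠ 0) {K : ℕ} {dP dM : ℕ → ℕ × Bool} {s : Multiset (F[X] × ℕ)}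
    {X : ISp F ε} (hX : TD K dP dM s X) (hd : dim X ≤ K) :
    dim X = ∑ j ∈ Finset.range K, (j + 1) * (2 * edeg dP dM s j + (wt (encR (dP j)) + wt (encR (dM j)))) := by
  obtain ⟨P, M, Y, e, hUP, hUM, hs, hY⟩ := hX
  have h3 := e.dim
  rw [dim_sum, dim_sum, dim_neg, hUP.dim, hUM.dim] at h3
  have h4 : Tot s = IsoSp.dim Y := hs.finrank.symm
  have hb : ∀ d ∈ s, 1 ≤ d.2 ∧ d.2 ≤ K := by
    intro d hds
    have h5 := exponent_le (hs.good d hds) hds
    exact ⟨(hs.good d hds).2.2, by omega⟩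
  have h6 : Tot s = ∑ j ∈ Finset.range K, (j + 1) * (pr (j + 1) s).natDegree := by
    have h7 : ∀ L, Tot (∑ j ∈ Finset.range L, fi (j + 1) s) = ∑ j ∈ Finset.range L, Tot (fi (j + 1) s) := by
      intro L
      induction L with
      | zero => rfl
      | succ L ih => rw [Finset.sum_range_succ, Tot_add, ih, Finset.sum_range_succ]
    conv_lhs => rw [eq_sum_fi hb]
    rw [h7]
    apply Finset.sum_congr rfl
    intro j _
    exact (pr_pal h2 hs hY (i := j + 1) (by omega)).2.2.2.1.symm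
  rw [← h4, h6, ← Finset.sum_add_distrib, ← Finset.sum_add_distrib] at h3
  rw [h3]
  apply Finset.sum_congr rfl
  intro j hj
  rw [Finset.mem_range] at hj
  obtain ⟨a, ha⟩ := (pr_pal h2 hs hY (i := j + 1) (by omega)).2.2.2.2.2.1
  have e1 := enc_eq (p := dP j) (fun h => hUP.alt j hj (Or.inr h))
  have e2 := enc_eq (p := dM j) (fun h => hUM.alt j hj (Or.inr h))
  have e3 : (pr (j + 1) s).natDegree / 2 = a := by omega
  have e4 : (dP j).1 + ((dM j).1 + (pr (j + 1) s).natDegree) =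
      2 * edeg dP dM s j + (wt (encR (dP j)) + wt (encR (dM j))) := by
    unfold edeg
    rw [e3]
    omega
  rw [← e4]
  ring

theorem encR_alt {K : ℕ} {d : ℕ → ℕ × Bool} {X : ISp F ε} (h2 : (2 : F) ≠ 0) (h : UD K d X) {j : ℕ} (hj : j < K)
    (ha : (-1 : F) ^ j * ε = -1) : encR (d j) = 0 := by
  have h1 := h.alt j hj (Or.inl ha)
  have h3 := h.even h2 j hj ha
  unfold encR
  rw [if_pos h3, if_pos h1]

end Cfsg.Agent.Lib.IsoSp
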