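import Cfsg.Agent.Lib.IsoSp6
set_option autoImplicit false

/-!
# Counting the data of isometries (helper45)
-/

namespace Cfsg.Agent.Lib.IsoSp
open Module Polynomial FXType GLClass PolyStar GLCount

universe u

variable {F : Type u} [Field F] {ε : F}

/-- indices of codes -/
abbrev Idx (K D : ℕ) : Type := Fin K → Fin (D + 1) × Fin 4 × Fin 4

/-- weight of the rests -/
def WR {K : ℕ} (ρ : Fin K → Fin 4 × Fin 4) : ℕ := ∑ j : Fin K, ((j : ℕ) + 1) * (wt (ρ j).1 + wt (ρ j).2)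

/-- admissible rests -/
def AllR (A : ℕ → Prop) {K : ℕ} (ρ : Fin K → Fin 4 × Fin 4) : Prop := ∀ j : Fin K, ¬ A j → (ρ j).1 = 0 ∧ (ρ j).2 = 0

/-- valid indices -/
def Valid (A : ℕ → Prop) (K D : ℕ) (x : Idx K D) : Prop :=
  (∑ j : Fin K, ((j : ℕ) + 1) * (2 * ((x j).1 : ℕ))) + WR (fun j => (x j).2) = D ∧ AllR A (fun j => (x j).2)

/-- realised data of dimension `D` -/
def DS (F : Type u) [Field F] (ε : F) (K D : ℕ) : Set ((ℕ → ℕ × Bool) × (ℕ → ℕ × Bool) × Multiset (F[X] × ℕ)) :=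
  {d | (∃ X : ISp F ε, TD K d.1 d.2.1 d.2.2 X ∧ dim X = D) ∧ (∀ j, K ≤ j → d.1 j = (0, true)) ∧
    ∀ j, K ≤ j → d.2.1 j = (0, true)}

/-- the set of all codes -/
abbrev Codes (F : Type u) [Field F] (A : ℕ → Prop) (K D : ℕ) : Type u :=
  Σ x : {x : Idx K D // Valid A K D x}, ∀ j : Fin K, {f : F[X] | SpCount.PAL ((x.1 j).1 : ℕ) f}

theorem card_codes [Finite F] (A : ℕ → Prop) (K D : ℕ) [DecidablePred (Valid A K D)] :
    Nat.card (Codes F A K D) ≤ ∑ x : Idx K D with Valid A K D x, ∏ j : Fin K, Nat.card F ^ ((x j).1 : ℕ) := by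
  have hfin : ∀ m, Finite {f : F[X] | SpCount.PAL m f} := fun m => SpCount.PAL_finite
  rw [Nat.card_sigma]
  rw [← Finset.sum_subtype_eq_sum_filter, Finset.subtype_univ]
  apply Finset.sum_le_sum
  intro x _
  rw [Nat.card_pi]
  apply Finset.prod_le_prod' 
  intro j _
  exact SpCount.card_PAL_le

theorem finite_codes [Finite F] (A : ℕ → Prop) (K D : ℕ) : Finite (Codes F A K D) := by
  have hfin : ∀ m, Finite {f : F[X] | SpCount.PAL m f} := fun m => SpCount.PAL_finite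
  infer_instance

theorem edeg_le [Finite F] (h2 : (2 : F) ≠ 0) {K D : ℕ} (hKD : D ≤ K)
    {d : (ℕ → ℕ × Bool) × (ℕ → ℕ × Bool) × Multiset (F[X] × ℕ)} (hd : d ∈ DS F ε K D) {j : ℕ} (hj : j < K) :
    edeg d.1 d.2.1 d.2.2 j < D + 1 := by
  obtain ⟨⟨X, hX, hdim⟩, -, -⟩ := hd
  have h1 := hX.dim_eq h2 (by omega)
  have h3 : (j + 1) * (2 * edeg d.1 d.2.1 d.2.2 j + (wt (encR (d.1 j)) + wt (encR (d.2.1 j)))) ≤ dim X := by
    rw [h1]
    exact Finset.single_le_sum (f := fun j => (j + 1) * (2 * edeg d.1 d.2.1 d.2.2 j + (wt (encR (d.1 j)) + wt (encR (d.2.1 j)))))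
      (fun _ _ => Nat.zero_le _) (Finset.mem_range.2 hj)
  have h4 : edeg d.1 d.2.1 d.2.2 j ≤ (j + 1) * (2 * edeg d.1 d.2.1 d.2.2 j + (wt (encR (d.1 j)) + wt (encR (d.2.1 j)))) := by
    nlinarith [Nat.zero_le (edeg d.1 d.2.1 d.2.2 j), Nat.zero_le j, Nat.zero_le (wt (encR (d.1 j))),
      Nat.zero_le (wt (encR (d.2.1 j))), Nat.zero_le (j * edeg d.1 d.2.1 d.2.2 j), Nat.zero_le (j * wt (encR (d.1 j))),
      Nat.zero_le (j * wt (encR (d.2.1 j)))]
  omega

theorem exists_embedding [Finite F] (h2 : (2 : F) ≠ 0) {K D : ℕ} (hKD : D ≤ K) (A : ℕ → Prop)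
    (S : Set ((ℕ → ℕ × Bool) × (ℕ → ℕ × Bool) × Multiset (F[X] × ℕ))) (hS : S ⊆ DS F ε K D)
    (hA : ∀ d ∈ S, ∀ j < K, ¬ A j → encR (d.1 j) = 0 ∧ encR (d.2.1 j) = 0) :
    ∃ φ : S → Codes F A K D, Function.Injective φ := by
  let x : S → Idx K D := fun d j => (⟨edeg d.1.1 d.1.2.1 d.1.2.2 j, edeg_le h2 hKD (hS d.2) j.2⟩, encR (d.1.1 j), encR (d.1.2.1 j))
  have hv : ∀ d : S, Valid A K D (x d) := by
    intro d
    obtain ⟨⟨X, hX, hdim⟩, -, -⟩ := hS d.2
    have h1 := hX.dim_eq h2 (by omega)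
    rw [hdim] at h1
    refine ⟨?_, fun j hj => hA d.1 d.2 j j.2 hj⟩
    unfold WR
    rw [← Finset.sum_add_distrib]
    refine Eq.trans ?_ h1.symm
    rw [Finset.sum_range]
    apply Finset.sum_congr rfl
    intro j _
    show ((j : ℕ) + 1) * (2 * edeg d.1.1 d.1.2.1 d.1.2.2 j) + ((j : ℕ) + 1) * (wt (encR (d.1.1 j)) + wt (encR (d.1.2.1 j))) = _
    ring
  have hp : ∀ (d : S) (j : Fin K), SpCount.PAL (((x d j).1 : Fin (D + 1)) : ℕ) (fpol d.1.1 d.1.2.1 d.1.2.2 j) := by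
    intro d j
    obtain ⟨⟨X, ⟨P, M, Y, e, hUP, hUM, hs, hY⟩, hdim⟩, -, -⟩ := hS d.2
    exact fpol_pal h2 hs hY _ _ j
  refine ⟨fun d => ⟨⟨x d, hv d⟩, fun j => ⟨fpol d.1.1 d.1.2.1 d.1.2.2 j, hp d j⟩⟩, ?_⟩
  intro d d' h
  obtain ⟨⟨X, hX, hdim⟩, h0, h0'⟩ := hS d.2
  obtain ⟨⟨X', hX', hdim'⟩, h1, h1'⟩ := hS d'.2
  rw [Sigma.mk.injEq] at h
  obtain ⟨ha, hb⟩ := h
  have hx : x d = x d' := congrArg Subtype.val ha
  have hfj : ∀ j : Fin K, fpol d.1.1 d.1.2.1 d.1.2.2 j = fpol d'.1.1 d'.1.2.1 d'.1.2.2 j := by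
    have gen : ∀ (y y' : {x : Idx K D // Valid A K D x}) (g : ∀ j : Fin K, {f : F[X] | SpCount.PAL ((y.1 j).1 : ℕ) f})
        (g' : ∀ j : Fin K, {f : F[X] | SpCount.PAL ((y'.1 j).1 : ℕ) f}), y = y' → HEq g g' → ∀ j, (g j : F[X]) = g' j := by
      rintro y y' g g' rfl hg j
      rw [eq_of_heq hg]
    exact gen _ _ _ _ ha hb
  obtain ⟨c1, c2, c3⟩ := code_inj h2 hX hX' (by omega) (by omega) (fun j hj => hfj ⟨j, hj⟩)
    (fun j hj => by
      have := congrFun hx ⟨j, hj⟩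
      exact congrArg (fun z => z.2.1) this)
    (fun j hj => by
      have := congrFun hx ⟨j, hj⟩
      exact congrArg (fun z => z.2.2) this)
  apply Subtype.ext
  refine Prod.ext ?_ (Prod.ext ?_ c3)
  · funext j
    rcases Nat.lt_or_ge j K with hj | hj
    · exact c1 j hj
    · rw [h0 j hj, h1 j hj]
  · funext j
    rcases Nat.lt_or_ge j K with hj | hj
    · exact c2 j hj
    · rw [h0' j hj, h1' j hj]

theorem card_data_le [Finite F] (h2 : (2 : F) ≠ 0) {K D : ℕ} (hKD : D ≤ K) (A : ℕ → Prop) [DecidablePred (Valid A K D)]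
    (S : Set ((ℕ → ℕ × Bool) × (ℕ → ℕ × Bool) × Multiset (F[X] × ℕ))) (hS : S ⊆ DS F ε K D)
    (hA : ∀ d ∈ S, ∀ j < K, ¬ A j → encR (d.1 j) = 0 ∧ encR (d.2.1 j) = 0) :
    S.Finite ∧ Nat.card S ≤ ∑ x : Idx K D with Valid A K D x, ∏ j : Fin K, Nat.card F ^ ((x j).1 : ℕ) := by
  obtain ⟨φ, hφ⟩ := exists_embedding h2 hKD A S hS hA
  have hfc := finite_codes (F := F) A K D
  have hf : Finite S := Finite.of_injective φ hφ
  refine ⟨hf, ?_⟩
  exact (Nat.card_le_card_of_injective φ hφ).trans (card_codes A K D)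

/-! ### real estimates -/

open Classical in
/-- generating function of the rests -/
noncomputable def RS (A : ℕ → Prop) (K D : ℕ) (v : ℝ) : ℝ :=
  ∑ ρ : Fin K → Fin 4 × Fin 4 with AllR A ρ ∧ WR ρ % 2 = D % 2, v ^ (WR ρ)

open Classical in
theorem codes_bound (A : ℕ → Prop) (K D q : ℕ) {v : ℝ} (hv0 : 0 < v) (hv1 : v < 1) (hvq : v ^ 2 * q = 1) :
    v ^ D * ∑ x : Idx (K + 1) D with Valid A (K + 1) D x, ∏ j : Fin (K + 1), (q : ℝ) ^ ((x j).1 : ℕ) ≤
      (∏ j : Fin K, (1 - v ^ (2 * ((j : ℕ) + 1)))⁻¹) * RS A (K + 1) D v := by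
  rw [Finset.mul_sum]
  -- rewrite each term
  have hterm : ∀ x : Idx (K + 1) D, Valid A (K + 1) D x → v ^ D * ∏ j : Fin (K + 1), (q : ℝ) ^ ((x j).1 : ℕ) =
      (∏ j : Fin K, (v ^ (2 * ((j : ℕ) + 1))) ^ ((x j.succ).1 : ℕ)) * v ^ (WR fun j => (x j).2) := by
    intro x hx
    have h1 : v ^ D = (∏ j : Fin (K + 1), v ^ (((j : ℕ) + 1) * (2 * ((x j).1 : ℕ)))) * v ^ (WR fun j => (x j).2) := by
      rw [Finset.prod_pow_eq_pow_sum, ← pow_add, hx.1]
    rw [h1, mul_right_comm, ← Finset.prod_mul_distrib, Fin.prod_univ_succ]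
    congr 1
    have e0 : v ^ (((0 : Fin (K + 1)) : ℕ) + 1) = v := by simp
    have h3 : v ^ ((((0 : Fin (K + 1)) : ℕ) + 1) * (2 * ((x 0).1 : ℕ))) * (q : ℝ) ^ ((x 0).1 : ℕ) = 1 := by
      rw [pow_mul, e0, pow_mul, ← mul_pow, hvq, one_pow]
    rw [h3, one_mul]
    apply Finset.prod_congr rfl
    intro j _
    rw [Fin.val_succ]
    have h4 : v ^ (((j : ℕ) + 1 + 1) * (2 * ((x j.succ).1 : ℕ))) =
        (v ^ (2 * ((j : ℕ) + 1))) ^ ((x j.succ).1 : ℕ) * (v ^ 2) ^ ((x j.succ).1 : ℕ) := by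
      rw [← pow_mul, ← pow_mul, ← pow_add]
      congr 1
      ring
    rw [h4, mul_assoc, ← mul_pow, hvq, one_pow, mul_one]
  rw [Finset.sum_congr rfl (fun x hx => hterm x (Finset.mem_filter.1 hx).2)]
  -- inject
  let Φ : Idx (K + 1) D → (Fin K → Fin (D + 1)) × (Fin (K + 1) → Fin 4 × Fin 4) := fun x =>
    (fun j => (x j.succ).1, fun j => (x j).2)
  have hΦ : ∀ x y : Idx (K + 1) D, Valid A (K + 1) D x → Valid A (K + 1) D y → Φ x = Φ y → x = y := by
    intro x y hx hy h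
    have h1 : ∀ j : Fin K, (x j.succ).1 = (y j.succ).1 := fun j => congrFun (congrArg Prod.fst h) j
    have h2 : (fun j => (x j).2) = (fun j => (y j).2) := congrArg Prod.snd h
    have h3 := hx.1
    have h4 := hy.1
    rw [h2, Fin.sum_univ_succ] at h3
    rw [Fin.sum_univ_succ] at h4
    have h5 : ∑ i : Fin K, (((i.succ : Fin (K + 1)) : ℕ) + 1) * (2 * ((x i.succ).1 : ℕ)) =
        ∑ i : Fin K, (((i.succ : Fin (K + 1)) : ℕ) + 1) * (2 * ((y i.succ).1 : ℕ)) := by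
      apply Finset.sum_congr rfl
      intro i _
      rw [h1 i]
    rw [h5] at h3
    have h6 : (x 0).1 = (y 0).1 := by
      apply Fin.ext
      simp only [Fin.val_zero, zero_add, one_mul] at h3 h4
      omega
    funext j
    refine Prod.ext ?_ (congrFun h2 j)
    induction j using Fin.cases with
    | zero => exact h6
    | succ j => exact h1 j
  have hpar : ∀ x : Idx (K + 1) D, Valid A (K + 1) D x → WR (fun j => (x j).2) % 2 = D % 2 := by
    intro x hx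
    have h1 := hx.1
    have h2 : ∑ j : Fin (K + 1), ((j : ℕ) + 1) * (2 * ((x j).1 : ℕ)) = 2 * ∑ j : Fin (K + 1), ((j : ℕ) + 1) * ((x j).1 : ℕ) := by
      rw [Finset.mul_sum]
      apply Finset.sum_congr rfl
      intro j _
      ring
    omega
  calc ∑ x : Idx (K + 1) D with Valid A (K + 1) D x,
        (∏ j : Fin K, (v ^ (2 * ((j : ℕ) + 1))) ^ ((x j.succ).1 : ℕ)) * v ^ (WR fun j => (x j).2)
      = ∑ y ∈ (Finset.univ.filter fun x : Idx (K + 1) D => Valid A (K + 1) D x).image Φ,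
        (∏ j : Fin K, (v ^ (2 * ((j : ℕ) + 1))) ^ (y.1 j : ℕ)) * v ^ (WR y.2) := by
        rw [Finset.sum_image]
        intro x hx y hy h
        exact hΦ x y (Finset.mem_filter.1 hx).2 (Finset.mem_filter.1 hy).2 h
    _ ≤ ∑ y ∈ (Finset.univ : Finset (Fin K → Fin (D + 1))) ×ˢ
          (Finset.univ.filter fun ρ : Fin (K + 1) → Fin 4 × Fin 4 => AllR A ρ ∧ WR ρ % 2 = D % 2),
        (∏ j : Fin K, (v ^ (2 * ((j : ℕ) + 1))) ^ (y.1 j : ℕ)) * v ^ (WR y.2) := by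
        apply Finset.sum_le_sum_of_subset_of_nonneg
        · intro y hy
          obtain ⟨x, hx, rfl⟩ := Finset.mem_image.1 hy
          rw [Finset.mem_product]
          exact ⟨Finset.mem_univ _, Finset.mem_filter.2 ⟨Finset.mem_univ _, (Finset.mem_filter.1 hx).2.2,
            hpar x (Finset.mem_filter.1 hx).2⟩⟩
        · intro y _ _
          positivity
    _ = (∑ e : Fin K → Fin (D + 1), ∏ j : Fin K, (v ^ (2 * ((j : ℕ) + 1))) ^ (e j : ℕ)) * RS A (K + 1) D v := by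
        rw [Finset.sum_product, RS, Finset.sum_mul_sum]
    _ ≤ _ := by
        apply mul_le_mul_of_nonneg_right _ (Finset.sum_nonneg fun _ _ => by positivity)
        have h1 := Finset.prod_univ_sum (fun _ : Fin K => (Finset.univ : Finset (Fin (D + 1))))
          (fun j e => (v ^ (2 * ((j : ℕ) + 1))) ^ (e : ℕ))
        rw [Fintype.piFinset_univ] at h1
        rw [← h1]
        apply Finset.prod_le_prod
        · intro j _
          exact Finset.sum_nonneg fun _ _ => by positivity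
        · intro j _
          have ha0 : 0 ≤ v ^ (2 * ((j : ℕ) + 1)) := by positivity
          have ha1 : v ^ (2 * ((j : ℕ) + 1)) < 1 := pow_lt_one₀ hv0.le hv1 (by omega)
          rw [Fin.sum_univ_eq_sum_range (fun e => (v ^ (2 * ((j : ℕ) + 1))) ^ e)]
          rw [geom_sum_eq ha1.ne, ← neg_div_neg_eq, neg_sub, neg_sub, inv_eq_one_div]
          apply div_le_div_of_nonneg_right _ (by linarith)
          have : 0 ≤ (v ^ (2 * ((j : ℕ) + 1))) ^ (D + 1) := by positivity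
          linarith

/-- the local factor -/
noncomputable def fac (A : ℕ → Prop) [DecidablePred A] (z : ℝ) (j : ℕ) : ℝ := if A j then (1 + z ^ (j + 1)) ^ 4 else 1

open Classical in
theorem sum_rests (A : ℕ → Prop) (K : ℕ) (z : ℝ) :
    ∑ ρ : Fin K → Fin 4 × Fin 4 with AllR A ρ, z ^ (WR ρ) = ∏ j : Fin K, fac A z j := by
  let t : Fin K → Finset (Fin 4 × Fin 4) := fun j => if A j then Finset.univ else {(0, 0)}
  have h1 : (Finset.univ.filter fun ρ : Fin K → Fin 4 × Fin 4 => AllR A ρ) = Fintype.piFinset t := by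
    ext ρ
    rw [Finset.mem_filter, Fintype.mem_piFinset]
    constructor
    · rintro ⟨-, h⟩ j
      show ρ j ∈ (if A j then Finset.univ else {(0, 0)})
      by_cases hj : A j
      · rw [if_pos hj]; exact Finset.mem_univ _
      · rw [if_neg hj, Finset.mem_singleton]
        exact Prod.ext (h j hj).1 (h j hj).2
    · intro h
      refine ⟨Finset.mem_univ _, fun j hj => ?_⟩
      have h3 : ρ j ∈ (if A j then Finset.univ else {((0 : Fin 4), (0 : Fin 4))} : Finset (Fin 4 × Fin 4)) := h j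
      rw [if_neg hj, Finset.mem_singleton] at h3
      rw [h3]
      exact ⟨rfl, rfl⟩
  rw [h1]
  have h2 := Finset.prod_univ_sum t (fun j (r : Fin 4 × Fin 4) => z ^ (((j : ℕ) + 1) * (wt r.1 + wt r.2)))
  have h3 : ∀ ρ : Fin K → Fin 4 × Fin 4, z ^ (WR ρ) = ∏ j : Fin K, z ^ (((j : ℕ) + 1) * (wt (ρ j).1 + wt (ρ j).2)) := by
    intro ρ
    rw [Finset.prod_pow_eq_pow_sum]
    rfl
  rw [Finset.sum_congr rfl (fun ρ _ => h3 ρ), ← h2]
  apply Finset.prod_congr rfl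
  intro j _
  unfold fac
  show ∑ r ∈ (if A j then Finset.univ else {((0 : Fin 4), (0 : Fin 4))} : Finset (Fin 4 × Fin 4)), _ = _
  by_cases hj : A j
  · rw [if_pos hj, if_pos hj, Fintype.sum_prod_type]
    simp only [Fin.sum_univ_four]
    simp only [wt, Matrix.cons_val_zero, Matrix.cons_val_one, Matrix.cons_val]
    ring
  · rw [if_neg hj, if_neg hj, Finset.sum_singleton]
    simp [wt]

theorem RS_eq (A : ℕ → Prop) [DecidablePred A] (K D : ℕ) (v : ℝ) :
    RS A K D v = ((∏ j : Fin K, fac A v j) + (-1) ^ D * ∏ j : Fin K, fac A (-v) j) / 2 := by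
  classical
  have e : ∀ z : ℝ, ∏ j : Fin K, fac A z j = ∑ ρ : Fin K → Fin 4 × Fin 4 with AllR A ρ, z ^ (WR ρ) := by
    intro z
    rw [sum_rests]
    apply Finset.prod_congr rfl
    intro j _
    unfold fac
    split_ifs <;> rfl
  rw [e, e, RS, Finset.mul_sum, ← Finset.sum_add_distrib, Finset.sum_div, ← Finset.filter_filter, Finset.sum_filter]
  apply Finset.sum_congr rfl
  intro ρ _
  rw [neg_pow v, ← mul_assoc, ← pow_add]
  split_ifs with h
  · have : Even (D + WR ρ) := by rw [Nat.even_iff]; omega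
    rw [this.neg_one_pow]
    ring
  · have : Odd (D + WR ρ) := by rw [Nat.odd_iff]; omega
    rw [this.neg_one_pow]
    ring

theorem RS_le (A : ℕ → Prop) [DecidablePred A] (K D : ℕ) {v : ℝ} (hv : 0 ≤ v) :
    RS A K D v ≤ ∏ j : Fin K, fac A v j := by
  classical
  have e : ∏ j : Fin K, fac A v j = ∑ ρ : Fin K → Fin 4 × Fin 4 with AllR A ρ, v ^ (WR ρ) := by
    rw [sum_rests]
    apply Finset.prod_congr rfl
    intro j _
    unfold fac
    split_ifs <;> rfl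
  rw [e, RS]
  apply Finset.sum_le_sum_of_subset_of_nonneg
  · intro ρ hρ
    rw [Finset.mem_filter] at hρ ⊢
    exact ⟨hρ.1, hρ.2.1⟩
  · intro ρ _ _
    positivity

end Cfsg.Agent.Lib.IsoSp
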