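import Cfsg.Agent.Lib.IsoSp7
set_option autoImplicit false

/-!
# Discriminants of isometries; changing the discriminant (helper45)
-/

namespace Cfsg.Agent.Lib.IsoSp
open Module

universe u

variable {F : Type u} [Field F] {ε : F}

/-! ### more isomorphisms -/

theorem sum_comm (X Y : ISp F ε) : Iso (sum X Y) (sum Y X) :=
  ⟨LinearEquiv.prodComm F X.V Y.V, fun x y => by
    show Y.B x.2 y.2 + X.B x.1 y.1 = X.B x.1 y.1 + Y.B x.2 y.2
    ring, fun _ => rfl⟩

theorem sum_assoc (X Y Z : ISp F ε) : Iso (sum (sum X Y) Z) (sum X (sum Y Z)) :=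
  ⟨LinearEquiv.prodAssoc F X.V Y.V Z.V, fun x y => by
    show X.B x.1.1 y.1.1 + (Y.B x.1.2 y.1.2 + Z.B x.2 y.2) = X.B x.1.1 y.1.1 + Y.B x.1.2 y.1.2 + Z.B x.2 y.2
    ring, fun _ => rfl⟩

/-- scaling the form -/
abbrev scale (c : F) (hc : c ≠ 0) (X : ISp F ε) : ISp F ε where
  V := X.V
  B := c • X.B
  T := X.T
  sym x y := by
    show c * X.B y x = ε * (c * X.B x y)
    rw [X.sym x y]
    ring
  nd x hx := X.nd x fun y => by
    have h1 : c * X.B x y = 0 := hx y
    exact (mul_eq_zero.1 h1).resolve_left hc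
  inv x y := by
    show c * X.B (X.T x) (X.T y) = c * X.B x y
    rw [X.inv]

theorem scale_B (c : F) (hc : c ≠ 0) (X : ISp F ε) (x y : X.V) : (scale c hc X).B x y = c * X.B x y := rfl

theorem scale_nl (c : F) (hc : c ≠ 0) (X : ISp F ε) : nl (scale c hc X) = nl X := rfl

theorem dim_scale (c : F) (hc : c ≠ 0) (X : ISp F ε) : dim (scale c hc X) = dim X := rfl

/-! ### the discriminant class -/

/-- the discriminant is a square -/
def Dq (X : ISp F ε) : Prop := IsSquare (gram X.B (Module.finBasis F X.V)).det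

theorem Dq_iff (X : ISp F ε) {ι : Type*} [Fintype ι] [DecidableEq ι] (b : Basis ι F X.V) :
    Dq X ↔ IsSquare (gram X.B b).det := isSquare_gram_iff X.B _ b

theorem gram_ne_zero (X : ISp F ε) {ι : Type*} [Fintype ι] [DecidableEq ι] (b : Basis ι F X.V) :
    (gram X.B b).det ≠ 0 := by
  rw [gram_eq]
  exact (LinearMap.BilinForm.nondegenerate_iff_det_ne_zero b).1 (FormConj.nd X.B X.nd)

theorem Iso.dq {X Y : ISp F ε} (h : Iso X Y) : Dq X ↔ Dq Y := by
  obtain ⟨e, h1, -⟩ := h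
  rw [Dq, Dq_iff Y ((Module.finBasis F X.V).map e)]
  have : gram Y.B ((Module.finBasis F X.V).map e) = gram X.B (Module.finBasis F X.V) := by
    ext i j
    rw [gram_apply, gram_apply, Basis.map_apply, Basis.map_apply, h1]
  rw [this]

theorem gram_sum (X Y : ISp F ε) {ι κ : Type*} [Fintype ι] [DecidableEq ι] [Fintype κ] [DecidableEq κ]
    (b : Basis ι F X.V) (c : Basis κ F Y.V) :
    gram (sum X Y).B (b.prod c) = Matrix.fromBlocks (gram X.B b) 0 0 (gram Y.B c) := by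
  ext i j
  rw [gram_apply, sum_B]
  rcases i with i | i <;> rcases j with j | j <;> simp [gram_apply]

theorem Dq_sum [Finite F] (X Y : ISp F ε) : Dq (sum X Y) ↔ (Dq X ↔ Dq Y) := by
  rw [Dq_iff (sum X Y) ((Module.finBasis F X.V).prod (Module.finBasis F Y.V)), gram_sum, Matrix.det_fromBlocks_zero₂₁,
    Quad.isSquare_mul_iff (gram_ne_zero X _) (gram_ne_zero Y _)]
  rfl

theorem Dq_scale [Finite F] {c : F} (hc : c ≠ 0) (hc' : ¬ IsSquare c) (X : ISp F ε) (hX : Odd (dim X)) :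
    Dq (scale c hc X) ↔ ¬ Dq X := by
  rw [Dq_iff (scale c hc X) (Module.finBasis F X.V)]
  have : gram (scale c hc X).B (Module.finBasis F X.V) = c • gram X.B (Module.finBasis F X.V) := by
    ext i j
    rfl
  rw [this, Matrix.det_smul, Quad.isSquare_mul_iff (pow_ne_zero _ hc) (gram_ne_zero X _), Fintype.card_fin]
  obtain ⟨a, ha⟩ := hX
  have h1 : ¬ IsSquare (c ^ finrank F X.V) := by
    intro h
    apply hc'
    have ha' : finrank F X.V = 2 * a + 1 := ha
    rw [ha', pow_succ, pow_mul'] at h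
    exact Quad.isSquare_of_mul_left (pow_ne_zero _ (pow_ne_zero _ hc)) (IsSquare.sq _) h
  unfold Dq
  tauto

/-! ### splitting off a line from a homogeneous space -/

theorem Hom.left {k : ℕ} {X Y : ISp F ε} (h : Hom k (sum X Y)) : Hom k X := by
  have hp : ∀ (j : ℕ) (x : X.V), LinearMap.inl F X.V Y.V (((nl X) ^ j) x) = ((nl (sum X Y)) ^ j) (LinearMap.inl F X.V Y.V x) := by
    intro j x
    refine inter_pow (LinearMap.inl F X.V Y.V) ?_ j x
    intro x
    show (nl X x, (0 : Y.V)) = (X.T x - x, Y.T 0 - 0)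
    rw [map_zero, sub_zero]
    rfl
  constructor
  · apply LinearMap.ext
    intro x
    have h1 := hp (k + 1) x
    rw [h.1] at h1
    exact congrArg Prod.fst h1
  · intro x hx
    have h1 : LinearMap.inl F X.V Y.V x ∈ LinearMap.ker ((nl (sum X Y)) ^ k) := by
      rw [LinearMap.mem_ker, ← hp, LinearMap.mem_ker.1 hx, map_zero]
    obtain ⟨y, hy⟩ := h.2 h1
    exact ⟨y.1, congrArg Prod.fst hy⟩

theorem Hom.of_iso {k : ℕ} {X Y : ISp F ε} (h : Hom k X) (e : Iso X Y) : Hom k Y := by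
  obtain ⟨e, -, h2⟩ := e
  have hN : ∀ x, e (nl X x) = nl Y (e x) := by
    intro x
    rw [nl_apply, nl_apply, map_sub, h2]
  have hp : ∀ (j : ℕ) (x : X.V), e (((nl X) ^ j) x) = ((nl Y) ^ j) (e x) := fun j x => inter_pow e.toLinearMap hN j x
  constructor
  · apply LinearMap.ext
    intro y
    obtain ⟨x, rfl⟩ := e.surjective y
    rw [← hp, h.1, LinearMap.zero_apply, map_zero, LinearMap.zero_apply]
  · intro y hy
    obtain ⟨x, rfl⟩ := e.surjective y
    have h3 : ((nl X) ^ k) x = 0 := by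
      apply e.injective
      rw [hp, map_zero]
      exact hy
    obtain ⟨z, hz⟩ := h.2 h3
    exact ⟨e z, by rw [← hN, hz]⟩

theorem Hom.right {k : ℕ} {X Y : ISp F ε} (h : Hom k (sum X Y)) : Hom k Y := (h.of_iso (sum_comm X Y)).left

theorem Hom.sum {k : ℕ} {X Y : ISp F ε} (h : Hom k X) (h' : Hom k Y) : Hom k (IsoSp.sum X Y) := by
  have hp : ∀ (j : ℕ) (x : X.V × Y.V), ((nl (IsoSp.sum X Y)) ^ j) x = (((nl X) ^ j) x.1, ((nl Y) ^ j) x.2) := by
    intro j
    induction j with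
    | zero => intro x; rfl
    | succ j ih =>
      intro x
      rw [pow_succ, Module.End.mul_apply, ih, pow_succ, Module.End.mul_apply, pow_succ, Module.End.mul_apply]
      rfl
  constructor
  · apply LinearMap.ext
    intro x
    rw [hp, h.1, h'.1]
    rfl
  · intro x hx
    have h1 : (((nl X) ^ k) x.1, ((nl Y) ^ k) x.2) = ((0 : X.V), (0 : Y.V)) := by
      rw [← hp]; exact hx
    obtain ⟨a, ha⟩ := h.2 (show ((nl X) ^ k) x.1 = 0 from congrArg Prod.fst h1)
    obtain ⟨b, hb⟩ := h'.2 (show ((nl Y) ^ k) x.2 = 0 from congrArg Prod.snd h1)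
    exact ⟨(a, b), Prod.ext ha hb⟩

/-- a subspace with nondegenerate top form generates a nondegenerate subspace -/
theorem nd_range {X : ISp F ε} {k : ℕ} (hk : (nl X) ^ (k + 1) = 0) {U : Submodule F X.V}
    (hU : ∀ x ∈ U, (∀ y ∈ U, X.B x (((nl X) ^ k) y) = 0) → x = 0) :
    (∀ x ∈ U, ((nl X) ^ k) x = 0 → x = 0) ∧
    (∀ x ∈ LinearMap.range (Phi X k U), nl X x ∈ LinearMap.range (Phi X k U)) ∧
    ∀ x ∈ LinearMap.range (Phi X k U), (∀ y ∈ LinearMap.range (Phi X k U), X.B x y = 0) → x = 0 := by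
  have hUk : ∀ x ∈ U, ((nl X) ^ k) x = 0 → x = 0 := fun x hx h => hU x hx fun y _ => B_pow_zero X h y
  have hinj := Phi_inj X hk U hUk
  set W := LinearMap.range (Phi X k U) with hW
  have hWN : ∀ x ∈ W, nl X x ∈ W := by
    rintro _ ⟨f, rfl⟩
    exact ⟨shift f, (nl_Phi X hk U f).symm⟩
  have hWT := T_stable_of_nl X hWN
  have hUW : U ≤ W := by
    intro u hu
    exact ⟨Pi.single 0 ⟨u, hu⟩, Phi_single X U ⟨u, hu⟩⟩
  have hlast : ∀ f : Fin (k + 1) → U, (∀ j : Fin k, f j.castSucc = 0) → Phi X k U f = ((nl X) ^ k) (f (Fin.last k) : X.V) := by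
    intro f hf
    rw [Phi_apply, Fin.sum_univ_castSucc]
    rw [Finset.sum_eq_zero, zero_add]
    · rfl
    · intro j _
      rw [hf j]
      simp
  have hker : ∀ x ∈ W, nl X x = 0 → ∃ u ∈ U, x = ((nl X) ^ k) u := by
    rintro _ ⟨f, rfl⟩ hx
    rw [nl_Phi X hk U f] at hx
    have h1 : shift f = 0 := hinj (by rw [hx, map_zero])
    refine ⟨f (Fin.last k), (f (Fin.last k)).2, hlast f ?_⟩
    intro j
    have h2 := congrFun h1 j.succ
    rw [shift, dif_neg (by simp)] at h2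
    exact h2
  refine ⟨hUk, hWN, ?_⟩
  by_contra hcon
  push Not at hcon
  obtain ⟨x, hx, hxy, hx0⟩ := hcon
  have hex : ∃ j, ((nl X) ^ j) x = 0 := ⟨k + 1, by rw [hk, LinearMap.zero_apply]⟩
  classical
  have hj := Nat.find_spec hex
  have hj0 : Nat.find hex ≠ 0 := by
    intro h0
    rw [h0] at hj
    exact hx0 hj
  obtain ⟨j, hjj⟩ := Nat.exists_eq_succ_of_ne_zero hj0
  have hmin : ((nl X) ^ j) x ≠ 0 := Nat.find_min hex (by omega)
  rw [hjj] at hj
  have hradT : ∀ z ∈ W ⊓ perp X W, nl X z ∈ W ⊓ perp X W := by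
    intro z hz
    exact ⟨hWN z hz.1, nl_stable_of_T X (perp_T X hWT) z hz.2⟩
  have hrad : ∀ i, ((nl X) ^ i) x ∈ W ⊓ perp X W := by
    intro i
    induction i with
    | zero => exact ⟨hx, fun w hw => B_comm_zero X (hxy w hw)⟩
    | succ i ih =>
      rw [pow_succ', Module.End.mul_apply]
      exact hradT _ ih
  obtain ⟨hz1, hz2⟩ := hrad j
  have hz3 : nl X (((nl X) ^ j) x) = 0 := by
    rw [← Module.End.mul_apply, ← pow_succ']
    exact hj
  obtain ⟨u, hu, hzu⟩ := hker _ hz1 hz3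
  apply hmin
  rw [hzu]
  have hu0 : u = 0 := by
    apply hU u hu
    intro y hy
    rw [top_swap X hk y u]
    have := hz2 y (hUW hy)
    rw [hzu] at this
    rw [this, mul_zero]
  rw [hu0, map_zero]

theorem finrank_range_Phi {X : ISp F ε} {k : ℕ} (hk : (nl X) ^ (k + 1) = 0) {U : Submodule F X.V}
    (hU : ∀ x ∈ U, ((nl X) ^ k) x = 0 → x = 0) : finrank F (LinearMap.range (Phi X k U)) = (k + 1) * finrank F U := by
  rw [LinearMap.finrank_range_of_inj (Phi_inj X hk U hU), Module.finrank_pi_fintype]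
  simp

/-- a homogeneous space of symmetric type splits off a space of rank one -/
theorem exists_line (h2 : (2 : F) ≠ 0) {X : ISp F ε} {k : ℕ} (hX : Hom k X) (hs : (-1 : F) ^ k * ε = 1)
    (hpos : 0 < dim X) : ∃ L R : ISp F ε, Iso X (sum L R) ∧ Hom k L ∧ dim L = k + 1 ∧ Hom k R := by
  have hnt : Nontrivial X.V := Module.finrank_pos_iff.1 hpos
  have hk := hX.1
  have h1 : ∃ x y, X.B x (((nl X) ^ k) y) ≠ 0 := by
    by_contra hcon
    push Not at hcon
    have h3 : ∀ y, ((nl X) ^ k) y = 0 := fun y => (ker_iff X k y).1 fun z => hcon y z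
    have hsurj : Function.Surjective (nl X) := fun y => hX.2 (h3 y)
    have hs' : Function.Surjective ((nl X) ^ (k + 1)) := by
      rw [Module.End.coe_pow]
      exact hsurj.iterate _
    obtain ⟨x, hx⟩ := exists_ne (0 : X.V)
    obtain ⟨y, hy⟩ := hs' x
    rw [hk, LinearMap.zero_apply] at hy
    exact hx hy.symm
  have hu : ∃ u, X.B u (((nl X) ^ k) u) ≠ 0 := by
    by_contra hcon
    push Not at hcon
    obtain ⟨x, y, hxy⟩ := h1
    apply hxy
    have h3 := hcon (x + y)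
    simp only [map_add, LinearMap.add_apply, hcon x, hcon y, zero_add, add_zero] at h3
    have h4 := top_swap X hk x y
    rw [hs, one_mul] at h4
    rw [h4, ← two_mul] at h3
    exact (mul_eq_zero.1 h3).resolve_left h2
  obtain ⟨u, hu⟩ := hu
  have hu0 : u ≠ 0 := by
    rintro rfl
    rw [map_zero, map_zero] at hu
    exact hu rfl
  obtain ⟨hUk, hWN, hWnd⟩ := nd_range hk (U := Submodule.span F {u}) (by
    intro x hx h
    obtain ⟨a, rfl⟩ := Submodule.mem_span_singleton.1 hx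
    have h3 := h u (Submodule.mem_span_singleton_self u)
    rw [map_smul, LinearMap.smul_apply, smul_eq_mul] at h3
    rw [(mul_eq_zero.1 h3).resolve_right hu, zero_smul])
  have hWT := T_stable_of_nl X hWN
  obtain ⟨h, h', e⟩ := exists_split X (isCompl_perp X hWnd) (fun x hx y hy => hy x hx) hWT (perp_T X hWT)
  have hH := hX.of_iso e
  refine ⟨_, _, e, hH.left, ?_, hH.right⟩
  show finrank F (LinearMap.range (Phi X k (Submodule.span F {u}))) = k + 1
  rw [finrank_range_Phi hk hUk, finrank_span_singleton hu0, mul_one]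

/-! ### `HD` under isomorphisms, sums and scaling -/

theorem nl_iso {X Y : ISp F ε} {e : X.V ≃ₗ[F] Y.V} (h : ∀ x, e (X.T x) = Y.T (e x)) (j : ℕ) (x : X.V) :
    e (((nl X) ^ j) x) = ((nl Y) ^ j) (e x) := by
  refine inter_pow e.toLinearMap ?_ j x
  intro x
  show e (nl X x) = nl Y (e x)
  rw [nl_apply, nl_apply, map_sub, h]

theorem HD.of_iso {k m : ℕ} {δ : Bool} {X Y : ISp F ε} (hX : HD k m δ X) (e : Iso X Y) : HD k m δ Y := by
  refine ⟨hX.1.of_iso e, ?_⟩
  obtain ⟨hX1, U, b, hU, hδ⟩ := hX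
  obtain ⟨e, h1, h2⟩ := e
  let b' : Basis (Fin m) F (U.map e.toLinearMap) := b.map (e.submoduleMap U)
  refine ⟨U.map e.toLinearMap, b', ?_, ?_⟩
  · have h3 : LinearMap.range (nl Y) = (LinearMap.range (nl X)).map e.toLinearMap := by
      ext y
      constructor
      · rintro ⟨z, rfl⟩
        obtain ⟨z, rfl⟩ := e.surjective z
        refine ⟨nl X z, ⟨z, rfl⟩, ?_⟩
        have := nl_iso h2 1 z
        simpa using this
      · rintro ⟨_, ⟨z, rfl⟩, rfl⟩
        refine ⟨e z, ?_⟩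
        have := nl_iso h2 1 z
        simpa using this.symm
    rw [h3]
    exact hU.map (Submodule.orderIsoMapComap e)
  · rw [hδ]
    have h4 : gram (top Y k (U.map e.toLinearMap)) b' = gram (top X k U) b := by
      ext i j
      rw [gram_apply, gram_apply, top_apply, top_apply]
      show Y.B (e (b i : X.V)) (((nl Y) ^ k) (e (b j : X.V))) = _
      rw [← nl_iso h2, h1]
    rw [h4]

theorem HD.unique {k m m' : ℕ} {δ δ' : Bool} {X : ISp F ε} (h : HD k m δ X) (h' : HD k m' δ' X) : m = m' ∧ δ = δ' := by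
  have hm : m = m' := by
    have h1 := h.dim
    rw [h'.dim] at h1
    exact (Nat.eq_of_mul_eq_mul_left (by omega) h1).symm
  subst hm
  refine ⟨rfl, ?_⟩
  obtain ⟨hX, U, b, hU, hδ⟩ := h
  obtain ⟨-, U', b', hU', hδ'⟩ := h'
  let c : U ≃ₗ[F] U' := (Submodule.quotientEquivOfIsCompl _ _ hU.symm).symm.trans (Submodule.quotientEquivOfIsCompl _ _ hU'.symm)
  have hc : ∀ u : U, (c u : X.V) - u ∈ LinearMap.range (nl X) := by
    intro u
    have h1 : (Submodule.quotientEquivOfIsCompl _ _ hU'.symm).symm (c u) = (Submodule.quotientEquivOfIsCompl _ _ hU.symm).symm u := by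
      show (Submodule.quotientEquivOfIsCompl _ _ hU'.symm).symm ((Submodule.quotientEquivOfIsCompl _ _ hU'.symm)
        ((Submodule.quotientEquivOfIsCompl _ _ hU.symm).symm u)) = _
      rw [LinearEquiv.symm_apply_apply]
    rw [Submodule.quotientEquivOfIsCompl_symm_apply, Submodule.quotientEquivOfIsCompl_symm_apply, Submodule.Quotient.eq] at h1
    exact h1
  have hzero : ∀ a b : X.V, X.B (nl X a) (((nl X) ^ k) b) = 0 := by
    intro a b
    rw [B_nl_pow, ← Module.End.mul_apply, ← pow_succ, hX.1, LinearMap.zero_apply, map_zero, LinearMap.zero_apply, mul_zero]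
  have htop : ∀ u u' : U, top X k U' (c u) (c u') = top X k U u u' := by
    intro u u'
    obtain ⟨z, hz⟩ := hc u
    obtain ⟨z', hz'⟩ := hc u'
    rw [top_apply, top_apply]
    have e1 : (c u : X.V) = u + nl X z := by rw [hz]; abel
    have e2 : (c u' : X.V) = u' + nl X z' := by rw [hz']; abel
    have h3 : ((nl X) ^ k) (nl X z') = 0 := by
      rw [← Module.End.mul_apply, ← pow_succ, hX.1, LinearMap.zero_apply]
    rw [e1, e2, map_add ((nl X) ^ k), h3, add_zero, map_add X.B, LinearMap.add_apply, hzero, add_zero]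
  have hg : gram (top X k U') (b.map c) = gram (top X k U) b := by
    ext i j
    rw [gram_apply, gram_apply, Basis.map_apply, Basis.map_apply, htop]
  have h5 : δ = true ↔ δ' = true := by
    rw [hδ, hδ', ← hg, isSquare_gram_iff (top X k U') (b.map c) b']
  exact Bool.eq_iff_iff.2 h5

/-! ### flipping the discriminant -/

theorem exists_nonsquare [Finite F] (h2 : (2 : F) ≠ 0) : ∃ c : F, c ≠ 0 ∧ ¬ IsSquare c := by
  classical
  haveI := Fintype.ofFinite F
  obtain ⟨c, hc⟩ := FiniteField.exists_nonsquare (F := F) (by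
    intro h
    haveI := ringChar.of_eq h
    exact h2 (CharTwo.two_eq_zero))
  exact ⟨c, fun h => hc (by rw [h]; exact ⟨0, by ring⟩), hc⟩

theorem Hom.scale {k : ℕ} {X : ISp F ε} (h : Hom k X) (c : F) (hc : c ≠ 0) : Hom k (IsoSp.scale c hc X) := h

theorem HD.flip [Finite F] (h2 : (2 : F) ≠ 0) (hε : ε * ε = 1) {k m : ℕ} {δ : Bool} {X : ISp F ε} (hX : HD k m δ X)
    (hs : (-1 : F) ^ k * ε = 1) (hk : Even k) (hm : 0 < m) : ∃ X' : ISp F ε, HD k m (!δ) X' ∧ (Dq X' ↔ ¬ Dq X) := by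
  obtain ⟨L, R, e, hL, hLd, hR⟩ := exists_line h2 hX.1 hs (by rw [hX.dim]; positivity)
  obtain ⟨c, hc, hc'⟩ := exists_nonsquare (F := F) h2
  obtain ⟨m', δ', h'⟩ := ((hL.scale c hc).sum hR).hd
  have hD : Dq (IsoSp.sum (IsoSp.scale c hc L) R) ↔ ¬ Dq X := by
    rw [e.dq, Dq_sum, Dq_sum, Dq_scale hc hc' L (by rw [hLd]; exact hk.add_one)]
    tauto
  have hdim : IsoSp.dim (IsoSp.sum (IsoSp.scale c hc L) R) = IsoSp.dim X := by
    rw [e.dim, dim_sum, dim_sum, dim_scale]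
  have hm' : m' = m := by
    rw [h'.dim, hX.dim] at hdim
    exact Nat.eq_of_mul_eq_mul_left (by omega) hdim
  subst hm'
  refine ⟨_, ?_, hD⟩
  have hδ : δ' = !δ := by
    by_contra hne
    have hδ : δ' = δ := by
      cases δ <;> cases δ' <;> simp_all
    subst hδ
    have := (h'.iso h2 hε hX).dq
    tauto
  rw [← hδ]
  exact h'

/-- flip the discriminant at `j` -/
def flipAt (d : ℕ → ℕ × Bool) (j : ℕ) : ℕ → ℕ × Bool := Function.update d j ((d j).1, !(d j).2)

theorem flipAt_self (d : ℕ → ℕ × Bool) (j : ℕ) : flipAt d j j = ((d j).1, !(d j).2) := Function.update_self _ _ _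

theorem flipAt_ne (d : ℕ → ℕ × Bool) {i j : ℕ} (h : i ≠ j) : flipAt d j i = d i := Function.update_of_ne h _ _

theorem flipAt_fst (d : ℕ → ℕ × Bool) (i j : ℕ) : (flipAt d j i).1 = (d i).1 := by
  by_cases h : i = j
  · subst h; rw [flipAt_self]
  · rw [flipAt_ne d h]

theorem flipAt_flipAt (d : ℕ → ℕ × Bool) (j : ℕ) : flipAt (flipAt d j) j = d := by
  funext i
  by_cases h : i = j
  · subst h
    rw [flipAt_self, flipAt_self, Bool.not_not]
  · rw [flipAt_ne _ h, flipAt_ne _ h]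

theorem UD.flip [Finite F] (h2 : (2 : F) ≠ 0) (hε : ε * ε = 1) : ∀ {K : ℕ} {d : ℕ → ℕ × Bool} {X : ISp F ε}, UD K d X →
    ∀ j < K, (-1 : F) ^ j * ε = 1 → Even j → 0 < (d j).1 → ∃ X' : ISp F ε, UD K (flipAt d j) X' ∧ (Dq X' ↔ ¬ Dq X)
  | 0, _, _, _ => fun j hj => absurd hj (Nat.not_lt_zero _)
  | K + 1, d, X, ⟨H, Y, e, h1, h3⟩ => fun j hj hs hev hpos => by
    by_cases h4 : j = K
    · subst h4
      obtain ⟨H', h5, h6⟩ := h1.flip h2 hε hs hev hpos
      refine ⟨IsoSp.sum H' Y, ⟨H', Y, Iso.refl _, ?_, ?_⟩, ?_⟩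
      · rw [flipAt_self]; exact h5
      · exact UD.congr (fun i hi => (flipAt_ne d (by omega)).symm) h3
      · rw [e.dq, Dq_sum, Dq_sum]
        tauto
    · obtain ⟨Y', h5, h6⟩ := UD.flip h2 hε h3 j (by omega) hs hev hpos
      refine ⟨IsoSp.sum H Y', ⟨H, Y', Iso.refl _, ?_, h5⟩, ?_⟩
      · rw [flipAt_ne d (fun h => h4 h.symm)]; exact h1
      · rw [e.dq, Dq_sum, Dq_sum]
        tauto

theorem Dq_neg (X : ISp F ε) : Dq (neg X) ↔ Dq X := Iff.rfl

theorem UD.dim_flipAt {K j : ℕ} {d : ℕ → ℕ × Bool} {X X' : ISp F ε} (h : UD K d X) (h' : UD K (flipAt d j) X') :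
    IsoSp.dim X' = IsoSp.dim X := by
  rw [h.dim, h'.dim]
  apply Finset.sum_congr rfl
  intro i _
  rw [flipAt_fst]

theorem prop_aux1 {a a' b : Prop} (h : a' ↔ ¬ a) : (a' ↔ b) ↔ ¬ (a ↔ b) := by tauto

theorem prop_aux2 {a a' b c : Prop} (h : a' ↔ ¬ a) : (b ↔ (a' ↔ c)) ↔ ¬ (b ↔ (a ↔ c)) := by tauto

theorem TD.flipP [Finite F] (h2 : (2 : F) ≠ 0) (hε : ε * ε = 1) {K : ℕ} {dP dM : ℕ → ℕ × Bool}
    {s : Multiset (Polynomial F × ℕ)} {X : ISp F ε} (hX : TD K dP dM s X) {j : ℕ} (hj : j < K)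
    (hs : (-1 : F) ^ j * ε = 1) (hev : Even j) (hpos : 0 < (dP j).1) :
    ∃ X' : ISp F ε, TD K (flipAt dP j) dM s X' ∧ dim X' = dim X ∧ (Dq X' ↔ ¬ Dq X) := by
  obtain ⟨P, M, Y, e, hP, hM, hY, hY'⟩ := hX
  obtain ⟨P', h5, h6⟩ := hP.flip h2 hε j hj hs hev hpos
  refine ⟨sum P' (sum (neg M) Y), ⟨P', M, Y, Iso.refl _, h5, hM, hY, hY'⟩, ?_, ?_⟩
  · rw [e.dim, dim_sum, dim_sum P, hP.dim_flipAt h5]
  · rw [e.dq, Dq_sum P', Dq_sum P]
    exact prop_aux1 h6

theorem TD.flipM [Finite F] (h2 : (2 : F) ≠ 0) (hε : ε * ε = 1) {K : ℕ} {dP dM : ℕ → ℕ × Bool}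
    {s : Multiset (Polynomial F × ℕ)} {X : ISp F ε} (hX : TD K dP dM s X) {j : ℕ} (hj : j < K)
    (hs : (-1 : F) ^ j * ε = 1) (hev : Even j) (hpos : 0 < (dM j).1) :
    ∃ X' : ISp F ε, TD K dP (flipAt dM j) s X' ∧ dim X' = dim X ∧ (Dq X' ↔ ¬ Dq X) := by
  obtain ⟨P, M, Y, e, hP, hM, hY, hY'⟩ := hX
  obtain ⟨M', h5, h6⟩ := hM.flip h2 hε j hj hs hev hpos
  refine ⟨sum P (sum (neg M') Y), ⟨P, M', Y, Iso.refl _, hP, h5, hY, hY'⟩, ?_, ?_⟩
  · rw [e.dim, dim_sum P, dim_sum P, dim_sum (neg M'), dim_sum (neg M), dim_neg, dim_neg, hM.dim_flipAt h5]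
  · rw [e.dq, Dq_sum P, Dq_sum P, Dq_sum (neg M'), Dq_sum (neg M), Dq_neg, Dq_neg]
    exact prop_aux2 h6

end Cfsg.Agent.Lib.IsoSp
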