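import Cfsg.Agent.Lib.IsoSpNum
set_option autoImplicit false

/-!
# The class number of `Sp_{2n}(q)`, `q` odd (helper45)
-/

namespace Cfsg.Agent.Lib.IsoSp
open Module

universe u

section general

variable {F : Type u} [Field F] {ε : F}

/-- a family of spaces separated by isometry embeds in the data -/
theorem exists_data_embedding [Finite F] (h2 : (2 : F) ≠ 0) (hε : ε * ε = 1) {K D : ℕ} (hKD : D ≤ K) {ι : Type*}
    (X : ι → ISp F ε) (hX : ∀ a, dim (X a) = D) (hι : ∀ a b, Iso (X a) (X b) → a = b) :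
    ∃ φ : ι → DS F ε K D, Function.Injective φ ∧ ∀ a, TD K (φ a).1.1 (φ a).1.2.1 (φ a).1.2.2 (X a) := by
  choose dP dM s h1 h3 h4 using fun a => TD.exists (X a) (K := K) ((hX a).trans_le hKD)
  refine ⟨fun a => ⟨(dP a, dM a, s a), ⟨X a, h1 a, hX a⟩, h3 a, h4 a⟩, ?_, h1⟩
  intro a b hab
  have hab' := congrArg Subtype.val hab
  simp only [Prod.mk.injEq] at hab'
  obtain ⟨e1, e2, e3⟩ := hab'
  apply hι
  have h5 := h1 b
  rw [← e1, ← e2, ← e3] at h5
  exact (h1 a).iso h2 hε h5

end general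

section sp

variable {F : Type u} [Field F] {n : ℕ}

theorem dot_conj {ι : Type*} [Fintype ι] [DecidableEq ι] (A J : Matrix ι ι F) (x y : ι → F) :
    (A.mulVec x) ⬝ᵥ (J.mulVec (A.mulVec y)) = x ⬝ᵥ ((A.transpose * J * A).mulVec y) := by
  rw [← Matrix.mulVec_mulVec, ← Matrix.mulVec_mulVec, Matrix.dotProduct_mulVec x, Matrix.vecMul_transpose]

theorem eq_of_dot {ι : Type*} [Fintype ι] [DecidableEq ι] {A J : Matrix ι ι F}
    (h : ∀ x y : ι → F, x ⬝ᵥ (A.mulVec y) = x ⬝ᵥ (J.mulVec y)) : A = J := by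
  ext i j
  have := h (Pi.single i 1) (Pi.single j 1)
  simpa using this

/-- the symplectic space of a symplectic matrix -/
noncomputable def spX (g : Matrix.symplecticGroup (Fin n) F) : ISp F (-1 : F) where
  V := Fin n ⊕ Fin n → F
  B := Matrix.toBilin' (Matrix.J (Fin n) F)
  T := Matrix.toLin' (g : Matrix (Fin n ⊕ Fin n) (Fin n ⊕ Fin n) F)
  sym x y := by
    rw [Matrix.toBilin'_apply', Matrix.toBilin'_apply']
    have h1 : (Matrix.J (Fin n) F).transpose = - Matrix.J (Fin n) F := Matrix.J_transpose _ _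
    rw [Matrix.dotProduct_mulVec, ← Matrix.mulVec_transpose, h1, Matrix.neg_mulVec, neg_dotProduct, dotProduct_comm]
    ring
  nd x hx := by
    have h1 : Matrix.vecMul x (Matrix.J (Fin n) F) = 0 := by
      apply dotProduct_eq_zero
      intro y
      have := hx y
      rwa [Matrix.toBilin'_apply', Matrix.dotProduct_mulVec] at this
    have hJ : IsUnit (Matrix.J (Fin n) F) := (Matrix.isUnit_iff_isUnit_det _).2 (Matrix.isUnit_det_J _ _)
    have h3 := Matrix.vecMul_injective_of_isUnit hJ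
    exact h3 (by simpa using h1)
  inv x y := by
    rw [Matrix.toBilin'_apply', Matrix.toBilin'_apply', Matrix.toLin'_apply, Matrix.toLin'_apply]
    have h1 := SymplecticGroup.mem_iff'.1 g.2
    rw [dot_conj, h1]

theorem spX_B (g : Matrix.symplecticGroup (Fin n) F) (x y : Fin n ⊕ Fin n → F) :
    (spX g).B x y = x ⬝ᵥ (Matrix.J (Fin n) F).mulVec y := Matrix.toBilin'_apply' _ _ _

theorem spX_dim (g : Matrix.symplecticGroup (Fin n) F) : dim (spX g) = 2 * n := by
  show finrank F (Fin n ⊕ Fin n → F) = 2 * n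
  rw [Module.finrank_pi]
  simp
  omega

theorem spX_conj {g h : Matrix.symplecticGroup (Fin n) F} (e : Iso (spX g) (spX h)) : IsConj g h := by
  obtain ⟨e, h1, h2⟩ := e
  let E : Matrix (Fin n ⊕ Fin n) (Fin n ⊕ Fin n) F := LinearMap.toMatrix' (e.toLinearMap : (Fin n ⊕ Fin n → F) →ₗ[F] (Fin n ⊕ Fin n → F))
  have hE : ∀ x : Fin n ⊕ Fin n → F, E.mulVec x = e x := fun x => LinearMap.toMatrix'_mulVec _ x
  have hsp : E ∈ Matrix.symplecticGroup (Fin n) F := by
    rw [SymplecticGroup.mem_iff']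
    apply eq_of_dot
    intro x y
    rw [← dot_conj, hE, hE]
    exact (spX_B h (e x) (e y)).symm.trans ((h1 x y).trans (spX_B g x y))
  rw [isConj_iff]
  refine ⟨⟨E, hsp⟩, ?_⟩
  rw [mul_inv_eq_iff_eq_mul]
  apply Subtype.ext
  show E * (g : Matrix (Fin n ⊕ Fin n) (Fin n ⊕ Fin n) F) = (h : Matrix (Fin n ⊕ Fin n) (Fin n ⊕ Fin n) F) * E
  apply eq_of_dot
  intro x y
  congr 1
  rw [← Matrix.mulVec_mulVec, ← Matrix.mulVec_mulVec, hE, hE]
  exact h2 y

theorem fac_nonneg (A : ℕ → Prop) [DecidablePred A] {z : ℝ} (hz : 0 ≤ z) (j : ℕ) : 0 ≤ fac A z j := by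
  unfold fac
  split_ifs
  · positivity
  · exact zero_le_one

theorem one_le_fac (A : ℕ → Prop) [DecidablePred A] {z : ℝ} (hz : 0 ≤ z) (j : ℕ) : 1 ≤ fac A z j := by
  unfold fac
  split_ifs
  · have : 0 ≤ z ^ (j + 1) := by positivity
    exact one_le_pow₀ (by linarith)
  · exact le_rfl

theorem prod_fac_odd (z : ℝ) (n : ℕ) :
    ∏ j ∈ Finset.range (2 * n), fac Odd z j = ∏ i ∈ Finset.range n, (1 + (z ^ 2) ^ (i + 1)) ^ 4 := by
  induction n with
  | zero => rfl
  | succ n ih =>
    rw [show 2 * (n + 1) = 2 * n + 1 + 1 by ring, Finset.prod_range_succ, Finset.prod_range_succ, ih,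
      Finset.prod_range_succ]
    have h1 : fac Odd z (2 * n) = 1 := by
      unfold fac
      rw [if_neg (by rw [Nat.not_odd_iff_even]; exact even_two_mul n)]
    have h3 : fac Odd z (2 * n + 1) = (1 + (z ^ 2) ^ (n + 1)) ^ 4 := by
      unfold fac
      rw [if_pos ⟨n, rfl⟩, ← pow_mul]
      congr 3
    rw [h1, h3, mul_one]

/-- the upper bound -/
theorem sp_upper [Finite F] (h2 : (2 : F) ≠ 0) (hq : 3 ≤ Nat.card F) (hn : 1 ≤ n) :
    5 * Nat.card (ConjClasses (Matrix.symplecticGroup (Fin n) F)) ≤ 54 * Nat.card F ^ n := by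
  classical
  set q := Nat.card F with hqdef
  have hε : (-1 : F) * (-1) = 1 := by norm_num
  obtain ⟨φ, hφ, -⟩ := exists_data_embedding (ε := (-1 : F)) h2 hε (K := 2 * n) (D := 2 * n) le_rfl
    (fun c : ConjClasses (Matrix.symplecticGroup (Fin n) F) => spX (Quotient.out c)) (fun c => spX_dim _) (by
      intro a b h
      have h1 := spX_conj h
      have h3 : ConjClasses.mk (Quotient.out a) = ConjClasses.mk (Quotient.out b) := ConjClasses.mk_eq_mk_iff_isConj.2 h1
      have h4 : ∀ c : ConjClasses (Matrix.symplecticGroup (Fin n) F), ConjClasses.mk (Quotient.out c) = c := fun c => Quotient.out_eq c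
      rwa [h4, h4] at h3)
  have hsign : ∀ j : ℕ, ¬ Odd j → (-1 : F) ^ j * (-1) = -1 := by
    intro j hj
    rw [Nat.not_odd_iff_even] at hj
    rw [hj.neg_one_pow, one_mul]
  obtain ⟨hfin, hcard⟩ := card_data_le h2 (K := 2 * n) (D := 2 * n) le_rfl Odd (DS F (-1 : F) (2 * n) (2 * n)) subset_rfl (by
    rintro d ⟨⟨X, ⟨P, M, Y, e, hUP, hUM, hs, hY⟩, hdim⟩, -, -⟩ j hj hA
    exact ⟨encR_alt h2 hUP hj (hsign j hA), encR_alt h2 hUM hj (hsign j hA)⟩)
  have hfin' : Finite (DS F (-1 : F) (2 * n) (2 * n)) := hfin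
  have h1 : Nat.card (ConjClasses (Matrix.symplecticGroup (Fin n) F)) ≤
      ∑ x : Idx (2 * n) (2 * n) with Valid Odd (2 * n) (2 * n) x, ∏ j : Fin (2 * n), q ^ ((x j).1 : ℕ) :=
    (Nat.card_le_card_of_injective φ hφ).trans hcard
  obtain ⟨K, hK⟩ : ∃ K, 2 * n = K + 1 := ⟨2 * n - 1, by omega⟩
  -- real estimate
  have hq0 : (0 : ℝ) < q := by exact_mod_cast (by omega : 0 < q)
  set v : ℝ := Real.sqrt (1 / q) with hv
  have hv2 : v ^ 2 = 1 / q := Real.sq_sqrt (by positivity)
  have hvpos : 0 < v := Real.sqrt_pos.2 (by positivity)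
  have hx3 : (1 / q : ℝ) ≤ 1 / 3 := by
    apply one_div_le_one_div_of_le (by norm_num)
    exact_mod_cast hq
  have hv1 : v < 1 := by
    nlinarith [hv2, hvpos]
  have hb := codes_bound Odd K (2 * n) q hvpos hv1 (by rw [hv2]; field_simp)
  have hRS := RS_le Odd (K + 1) (2 * n) hvpos.le
  have h3 : (v ^ (2 * n)) * (Nat.card (ConjClasses (Matrix.symplecticGroup (Fin n) F)) : ℝ) ≤ 54 / 5 := by
    calc (v ^ (2 * n)) * (Nat.card (ConjClasses (Matrix.symplecticGroup (Fin n) F)) : ℝ)
        ≤ v ^ (2 * n) * ∑ x : Idx (K + 1) (2 * n) with Valid Odd (K + 1) (2 * n) x, ∏ j : Fin (K + 1), (q : ℝ) ^ ((x j).1 : ℕ) := by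
          apply mul_le_mul_of_nonneg_left _ (by positivity)
          have h5 : ∀ L, 2 * n = L → Nat.card (ConjClasses (Matrix.symplecticGroup (Fin n) F)) ≤
            ∑ x : Idx L (2 * n) with Valid Odd L (2 * n) x, ∏ j : Fin L, q ^ ((x j).1 : ℕ) := by
            intro L hL
            subst hL
            convert h1
          have h6 := h5 (K + 1) hK
          exact_mod_cast h6
      _ ≤ (∏ j : Fin K, (1 - v ^ (2 * ((j : ℕ) + 1)))⁻¹) * RS Odd (K + 1) (2 * n) v := by convert hb
      _ ≤ (∏ j : Fin K, (1 - v ^ (2 * ((j : ℕ) + 1)))⁻¹) * ∏ j : Fin (K + 1), fac Odd v j := by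
          apply mul_le_mul_of_nonneg_left hRS
          apply Finset.prod_nonneg
          intro j _
          have : v ^ (2 * ((j : ℕ) + 1)) < 1 := pow_lt_one₀ hvpos.le hv1 (by omega)
          exact inv_nonneg.2 (by linarith)
      _ ≤ PN (1 / q) (2 * n) := by
          rw [Fin.prod_univ_eq_prod_range (fun j => fac Odd v j), ← hK, prod_fac_odd, hv2,
            Fin.prod_univ_eq_prod_range (fun j => (1 - v ^ (2 * (j + 1)))⁻¹)]
          unfold PN
          rw [Finset.prod_mul_distrib, mul_comm]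
          have hx0 : (0 : ℝ) ≤ 1 / q := by positivity
          have hx1 : (1 / q : ℝ) < 1 := by linarith
          have hpi : ∀ i : ℕ, (0 : ℝ) < 1 - (1 / q : ℝ) ^ (i + 1) := fun i => by
            have : (1 / q : ℝ) ^ (i + 1) < 1 := pow_lt_one₀ hx0 hx1 (by omega)
            linarith
          have hpi1 : ∀ i : ℕ, (1 : ℝ) ≤ (1 - (1 / q : ℝ) ^ (i + 1))⁻¹ := fun i => by
            refine (one_le_inv₀ (hpi i)).2 ?_
            have : (0 : ℝ) ≤ (1 / q : ℝ) ^ (i + 1) := by positivity
            linarith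
          apply mul_le_mul
          · apply Finset.prod_le_prod_of_subset_of_one_le
            · exact Finset.range_mono (by omega)
            · intro i _
              positivity
            · intro i _ _
              exact one_le_pow₀ (by have : (0 : ℝ) ≤ (1 / q : ℝ) ^ (i + 1) := by positivity
                                    linarith)
          · have e1 : ∀ j : ℕ, (1 - v ^ (2 * (j + 1)))⁻¹ = (1 - (1 / q : ℝ) ^ (j + 1))⁻¹ := fun j => by
              rw [pow_mul, hv2]
            rw [Finset.prod_congr rfl fun j _ => e1 j]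
            apply Finset.prod_le_prod_of_subset_of_one_le
            · exact Finset.range_mono (by omega)
            · intro i _
              exact (inv_pos.2 (hpi i)).le
            · intro i _ _
              exact hpi1 i
          · apply Finset.prod_nonneg
            intro i _
            rw [pow_mul, hv2]
            exact (inv_pos.2 (hpi i)).le
          · exact Finset.prod_nonneg fun i _ => by positivity
      _ ≤ PN (1 / 3) (2 * n) := PN_mono (by positivity) hx3 (by norm_num) _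
      _ ≤ 54 / 5 := PN_third _
  have h7 : v ^ (2 * n) = 1 / (q : ℝ) ^ n := by rw [pow_mul, hv2, one_div, inv_pow, one_div]
  rw [h7, one_div, ← div_eq_inv_mul, div_le_iff₀ (by positivity)] at h3
  have h8 : (5 : ℝ) * (Nat.card (ConjClasses (Matrix.symplecticGroup (Fin n) F)) : ℝ) ≤ 54 * (q : ℝ) ^ n := by linarith
  exact_mod_cast h8

/-- the lower bound -/
theorem sp_lower {F : Type u} [Field F] [Finite F] (n : ℕ) :
    Nat.card F ^ n ≤ Nat.card (ConjClasses (Matrix.symplecticGroup (Fin n) F)) := by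
  classical
  haveI := Fintype.ofFinite F
  have h1 : Nat.card {f : Polynomial F // f.Monic ∧ f.natDegree = n} = Nat.card F ^ n := by
    rw [Nat.card_congr (SSCount.monicEquiv n), Nat.card_eq_fintype_card, Fintype.card_fun, Fintype.card_fin,
      Nat.card_eq_fintype_card]
  rw [← h1]
  have hfinG : Finite (Matrix.symplecticGroup (Fin n) F) :=
    Finite.of_injective (fun g : ↥(Matrix.symplecticGroup (Fin n) F) => (g : Matrix (Fin n ⊕ Fin n) (Fin n ⊕ Fin n) F)) Subtype.val_injective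
  have hfin : Finite (ConjClasses (Matrix.symplecticGroup (Fin n) F)) := Quotient.finite _
  choose A hA hc using fun f : {f : Polynomial F // f.Monic ∧ f.natDegree = n} => SpCount.exists_symp (F := F) f.2.1 f.2.2
  apply Nat.card_le_card_of_injective (fun f => ConjClasses.mk (⟨A f, hA f⟩ : Matrix.symplecticGroup (Fin n) F))
  intro f g h
  have h2 : IsConj (⟨A f, hA f⟩ : Matrix.symplecticGroup (Fin n) F) ⟨A g, hA g⟩ := ConjClasses.mk_eq_mk_iff_isConj.1 h
  obtain ⟨c, hc'⟩ := isConj_iff.1 h2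
  have h3 : (A g).charpoly = (A f).charpoly := by
    have h4 := congrArg Subtype.val (mul_inv_eq_iff_eq_mul.1 hc')
    have h5 : (c : Matrix (Fin n ⊕ Fin n) (Fin n ⊕ Fin n) F) * A f = A g * (c : Matrix (Fin n ⊕ Fin n) (Fin n ⊕ Fin n) F) := h4
    have hdet : (c : Matrix (Fin n ⊕ Fin n) (Fin n ⊕ Fin n) F).det = 1 := SymplecticGroup.det_eq_one c.2
    have hu : IsUnit (c : Matrix (Fin n ⊕ Fin n) (Fin n ⊕ Fin n) F) := (Matrix.isUnit_iff_isUnit_det _).2 (by rw [hdet]; exact isUnit_one)
    obtain ⟨C, hC⟩ := hu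
    have h6 : A g = C.val * A f * (C⁻¹).val := by
      rw [← hC] at h5
      rw [h5, mul_assoc, Units.mul_inv, mul_one]
    rw [h6, Matrix.coe_units_inv]
    exact Matrix.charpoly_units_conj C (A f)
  rw [hc, hc] at h3
  exact Subtype.ext (SpCount.P_inj f.2.2.le g.2.2.le h3.symm)

end sp

end Cfsg.Agent.Lib.IsoSp
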