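import Cfsg.Agent.Lib.IsoSpD
import Cfsg.Agent.Lib.IsoSpSp
set_option autoImplicit false

/-!
# Data with given discriminant (helper45)
-/

namespace Cfsg.Agent.Lib.IsoSp
open Module Polynomial

universe u

variable {F : Type u} [Field F]

/-- data: ranks and discriminants of the unipotent and the minus-unipotent part, and a type -/
abbrev Dt (F : Type u) [Field F] : Type u := (ℕ → ℕ × Bool) × (ℕ → ℕ × Bool) × Multiset (F[X] × ℕ)

/-- there is a symmetric index with positive rank -/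
def HS (K : ℕ) (d : ℕ → ℕ × Bool) : Prop := ∃ j, j < K ∧ Even j ∧ 0 < (d j).1

theorem HS_flipAt {K : ℕ} {d : ℕ → ℕ × Bool} {j : ℕ} : HS K (flipAt d j) ↔ HS K d := by
  unfold HS
  simp only [flipAt_fst]

open Classical in
/-- flip at the first symmetric index -/
noncomputable def fl1 (K : ℕ) (d : ℕ → ℕ × Bool) : ℕ → ℕ × Bool :=
  if h : HS K d then flipAt d (Nat.find h) else d

theorem fl1_eq {K : ℕ} {d : ℕ → ℕ × Bool} (h : HS K d) :
    ∃ j, fl1 K d = flipAt d j ∧ j < K ∧ Even j ∧ 0 < (d j).1 := by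
  classical
  refine ⟨Nat.find h, ?_, Nat.find_spec h⟩
  unfold fl1
  rw [dif_pos h]

theorem HS_fl1 {K : ℕ} {d : ℕ → ℕ × Bool} : HS K (fl1 K d) ↔ HS K d := by
  classical
  unfold fl1
  split_ifs with h
  · exact HS_flipAt
  · exact Iff.rfl

theorem fl1_fl1 (K : ℕ) (d : ℕ → ℕ × Bool) : fl1 K (fl1 K d) = d := by
  classical
  by_cases h : HS K d
  · have h1 : fl1 K d = flipAt d (Nat.find h) := by
      unfold fl1
      rw [dif_pos h]
    have h3 : HS K (flipAt d (Nat.find h)) := HS_flipAt.2 h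
    rw [h1]
    have h4 : fl1 K (flipAt d (Nat.find h)) = flipAt (flipAt d (Nat.find h)) (Nat.find h3) := by
      unfold fl1
      rw [dif_pos h3]
    have h5 : Nat.find h3 = Nat.find h := by
      apply Nat.find_congr'
      intro n
      rw [flipAt_fst]
    rw [h4, h5, flipAt_flipAt]
  · have h1 : fl1 K d = d := by
      unfold fl1
      rw [dif_neg h]
    rw [h1, h1]

open Classical in
/-- flip at the first symmetric index of the data -/
noncomputable def fl (K : ℕ) (d : Dt F) : Dt F :=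
  if HS K d.1 then (fl1 K d.1, d.2) else (d.1, fl1 K d.2.1, d.2.2)

theorem fl_fl (K : ℕ) (d : Dt F) : fl K (fl K d) = d := by
  classical
  by_cases h : HS K d.1
  · have h1 : fl K d = (fl1 K d.1, d.2) := by unfold fl; rw [if_pos h]
    rw [h1]
    unfold fl
    rw [if_pos (HS_fl1.2 h), fl1_fl1]
  · have h1 : fl K d = (d.1, fl1 K d.2.1, d.2.2) := by unfold fl; rw [if_neg h]
    rw [h1]
    unfold fl
    rw [if_neg h, fl1_fl1]

/-- data with a symmetric index of positive rank -/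
def WS (K : ℕ) : Set (Dt F) := {d | HS K d.1 ∨ HS K d.2.1}

theorem fl_mem_WS {K : ℕ} {d : Dt F} (h : d ∈ WS K) : fl K d ∈ WS K := by
  classical
  unfold fl
  split_ifs with h1
  · exact Or.inl (HS_fl1.2 h1)
  · exact Or.inr (HS_fl1.2 (h.resolve_left h1))

/-- realised data of given discriminant -/
def DSq (F : Type u) [Field F] (K D : ℕ) (c : Prop) : Set (Dt F) :=
  {d | (∃ X : ISp F (1 : F), TD K d.1 d.2.1 d.2.2 X ∧ dim X = D ∧ (Dq X ↔ c)) ∧ (∀ j, K ≤ j → d.1 j = (0, true)) ∧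
    ∀ j, K ≤ j → d.2.1 j = (0, true)}

theorem DSq_sub (K D : ℕ) (c : Prop) : DSq F K D c ⊆ DS F (1 : F) K D := by
  rintro d ⟨⟨X, h1, h2, -⟩, h3, h4⟩
  exact ⟨⟨X, h1, h2⟩, h3, h4⟩

theorem even_sign {j : ℕ} (hj : Even j) : (-1 : F) ^ j * (1 : F) = 1 := by
  rw [hj.neg_one_pow, one_mul]

theorem flipAt_zero {K j : ℕ} {d : ℕ → ℕ × Bool} (hj : j < K) (h : ∀ i, K ≤ i → d i = (0, true)) :
    ∀ i, K ≤ i → flipAt d j i = (0, true) := by
  intro i hi
  rw [flipAt_ne d (by omega)]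
  exact h i hi

theorem fl_mem [Finite F] (h2 : (2 : F) ≠ 0) {K D : ℕ} {c : Prop} {d : Dt F} (hd : d ∈ DSq F K D c) (hw : d ∈ WS K) :
    fl K d ∈ DSq F K D (¬ c) := by
  classical
  obtain ⟨⟨X, h1, h3, h4⟩, h5, h6⟩ := hd
  unfold fl
  split_ifs with h
  · obtain ⟨j, hj, hjK, hev, hpos⟩ := fl1_eq h
    obtain ⟨X', h7, h8, h9⟩ := h1.flipP h2 (one_mul 1) hjK (even_sign hev) hev hpos
    refine ⟨⟨X', ?_, h8.trans h3, by rw [h9, h4]⟩, ?_, h6⟩
    · rw [hj]; exact h7
    · rw [hj]; exact flipAt_zero hjK h5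
  · obtain ⟨j, hj, hjK, hev, hpos⟩ := fl1_eq (hw.resolve_left h)
    obtain ⟨X', h7, h8, h9⟩ := h1.flipM h2 (one_mul 1) hjK (even_sign hev) hev hpos
    refine ⟨⟨X', ?_, h8.trans h3, by rw [h9, h4]⟩, h5, ?_⟩
    · rw [hj]; exact h7
    · rw [hj]; exact flipAt_zero hjK h6

theorem DSq_disjoint [Finite F] (h2 : (2 : F) ≠ 0) (K D : ℕ) (c : Prop) : Disjoint (DSq F K D c) (DSq F K D (¬ c)) := by
  rw [Set.disjoint_left]
  rintro d ⟨⟨X, h1, -, h3⟩, -⟩ ⟨⟨Y, h1', -, h3'⟩, -⟩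
  have h4 := (h1.iso h2 (one_mul 1) h1').dq
  rw [h3, h3'] at h4
  exact iff_not_self h4

theorem DSq_card [Finite F] (h2 : (2 : F) ≠ 0) (K D : ℕ) (c : Prop) (hfin : (DS F (1 : F) K D).Finite) :
    2 * (DSq F K D c).ncard ≤ (DS F (1 : F) K D).ncard + (DS F (1 : F) K D \ WS K).ncard := by
  have hf1 : (DSq F K D c).Finite := hfin.subset (DSq_sub K D c)
  have hf2 : (DSq F K D (¬ c)).Finite := hfin.subset (DSq_sub K D _)
  have h1 : (DSq F K D c ∩ WS K).ncard ≤ (DSq F K D (¬ c) ∩ WS K).ncard := by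
    refine Set.ncard_le_ncard_of_injOn (fl K) ?_ ?_ (hf2.subset Set.inter_subset_left)
    · intro d hd
      exact ⟨fl_mem h2 hd.1 hd.2, fl_mem_WS hd.2⟩
    · intro a _ b _ hab
      rw [← fl_fl K a, hab, fl_fl]
  have h3 : (DSq F K D c ∩ WS K).ncard + (DSq F K D (¬ c) ∩ WS K).ncard ≤ (DS F (1 : F) K D ∩ WS K).ncard := by
    rw [← Set.ncard_union_eq ((DSq_disjoint h2 K D c).mono Set.inter_subset_left Set.inter_subset_left)
      (hf1.subset Set.inter_subset_left) (hf2.subset Set.inter_subset_left)]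
    apply Set.ncard_le_ncard _ (hfin.subset Set.inter_subset_left)
    rintro d (hd | hd)
    · exact ⟨DSq_sub K D _ hd.1, hd.2⟩
    · exact ⟨DSq_sub K D _ hd.1, hd.2⟩
  have h4 : (DSq F K D c \ WS K).ncard ≤ (DS F (1 : F) K D \ WS K).ncard :=
    Set.ncard_le_ncard (Set.diff_subset_diff_left (DSq_sub K D c)) (hfin.subset Set.diff_subset)
  have h5 := Set.ncard_inter_add_ncard_diff_eq_ncard (DSq F K D c) (WS K) hf1
  have h6 := Set.ncard_inter_add_ncard_diff_eq_ncard (DS F (1 : F) K D) (WS K) hfin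
  omega

/-- a family of isometries of symmetric spaces of given discriminant -/
theorem fam_card [Finite F] (h2 : (2 : F) ≠ 0) {K D : ℕ} (hKD : D ≤ K) (c : Prop) {ι : Type*}
    (X : ι → ISp F (1 : F)) (hX : ∀ a, dim (X a) = D) (hc : ∀ a, Dq (X a) ↔ c) (hι : ∀ a b, Iso (X a) (X b) → a = b) :
    2 * Nat.card ι ≤ (DS F (1 : F) K D).ncard + (DS F (1 : F) K D \ WS K).ncard := by
  classical
  obtain ⟨φ, hφ, hφ'⟩ := exists_data_embedding h2 (one_mul 1) hKD X hX hι
  have hfin : (DS F (1 : F) K D).Finite := (card_data_le h2 hKD (fun _ => True) _ subset_rfl (by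
    intro d _ j _ h
    exact absurd trivial h)).1
  have h1 : ∀ a, (φ a).1 ∈ DSq F K D c := fun a => ⟨⟨X a, hφ' a, hX a, hc a⟩, (φ a).2.2⟩
  have hf1 : (DSq F K D c).Finite := hfin.subset (DSq_sub K D c)
  have : Finite (DSq F K D c) := hf1
  have h3 : Nat.card ι ≤ (DSq F K D c).ncard := by
    rw [← Nat.card_coe_set_eq]
    apply Nat.card_le_card_of_injective (fun a => (⟨(φ a).1, h1 a⟩ : DSq F K D c))
    intro a b hab
    have h5 := Subtype.ext_iff.1 hab
    exact hφ (Subtype.ext h5)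
  have h4 := DSq_card h2 K D c hfin
  omega

end Cfsg.Agent.Lib.IsoSp
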