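import Cfsg.Agent.Lib.IsoSpSp
set_option autoImplicit false

/-!
# Numerical bounds for orthogonal class numbers (helper45)
-/

namespace Cfsg.Agent.Lib.IsoSp

theorem prod_fac_even (z : ℝ) (n : ℕ) :
    ∏ j ∈ Finset.range (2 * n), fac Even z j = ∏ i ∈ Finset.range n, (1 + z * (z ^ 2) ^ i) ^ 4 := by
  induction n with
  | zero => rfl
  | succ n ih =>
    rw [show 2 * (n + 1) = 2 * n + 1 + 1 by ring, Finset.prod_range_succ, Finset.prod_range_succ, ih,
      Finset.prod_range_succ]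
    have h1 : fac Even z (2 * n + 1) = 1 := by
      unfold fac
      rw [if_neg (by rw [Nat.not_even_iff_odd]; exact ⟨n, rfl⟩)]
    have h3 : fac Even z (2 * n) = (1 + z * (z ^ 2) ^ n) ^ 4 := by
      unfold fac
      rw [if_pos (even_two_mul n), ← pow_mul, pow_succ' z]
    rw [h1, h3, mul_one]

theorem prod_fac_false (z : ℝ) (L : ℕ) : ∏ j : Fin L, fac (fun _ => False) z j = 1 := by
  apply Finset.prod_eq_one
  intro j _
  unfold fac
  rw [if_neg (by simp)]

/-- `∏ (1 + w 3^{-i})` -/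
theorem prodE_large (L : ℕ) : ∏ i ∈ Finset.range (L + 3), (1 + 2887 / 5000 * (1 / 3 : ℝ) ^ i) ≤
    52 / 25 * (1 - (1 / 3) ^ (L + 3)) := by
  induction L with
  | zero =>
    simp only [Finset.prod_range_succ, Finset.prod_range_zero]
    norm_num
  | succ L ih =>
    rw [show L + 1 + 3 = (L + 3) + 1 by ring, Finset.prod_range_succ]
    set y : ℝ := (1 / 3) ^ (L + 3) with hy
    have hy0 : 0 < y := by positivity
    rw [show (1 / 3 : ℝ) ^ (L + 3 + 1) = y * (1 / 3) by rw [pow_succ, hy]]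
    calc _ ≤ 52 / 25 * (1 - y) * (1 + 2887 / 5000 * y) := mul_le_mul_of_nonneg_right ih (by positivity)
      _ ≤ _ := by nlinarith [mul_pos hy0 hy0]

theorem prodE_mono (L m : ℕ) : ∏ i ∈ Finset.range L, (1 + 2887 / 5000 * (1 / 3 : ℝ) ^ i) ≤
    ∏ i ∈ Finset.range (L + m), (1 + 2887 / 5000 * (1 / 3 : ℝ) ^ i) := by
  apply Finset.prod_le_prod_of_subset_of_one_le
  · exact Finset.range_mono (by omega)
  · intro i _
    positivity
  · intro i _ _
    have : (0 : ℝ) < (1 / 3) ^ i := by positivity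
    linarith

theorem prodE (L : ℕ) : ∏ i ∈ Finset.range L, (1 + 2887 / 5000 * (1 / 3 : ℝ) ^ i) ≤ 52 / 25 := by
  refine (prodE_mono L 3).trans ((prodE_large L).trans ?_)
  have : (0 : ℝ) < (1 / 3) ^ (L + 3) := by positivity
  linarith

/-- `∏ (1 - 3^{-i})⁻¹` -/
theorem prodH_large (L : ℕ) : ∏ i ∈ Finset.range (L + 2), (1 - (1 / 3 : ℝ) ^ (i + 1))⁻¹ ≤
    179 / 100 * (1 - (1 / 3) ^ (L + 2) / 2) := by
  induction L with
  | zero =>
    simp only [Finset.prod_range_succ, Finset.prod_range_zero]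
    norm_num
  | succ L ih =>
    rw [show L + 1 + 2 = (L + 2) + 1 by ring, Finset.prod_range_succ]
    set y : ℝ := (1 / 3) ^ (L + 2) with hy
    have hy0 : 0 < y := by positivity
    have hy1 : y ≤ 1 / 9 := by
      have : (1 / 3 : ℝ) ^ (L + 2) ≤ (1 / 3) ^ 2 := pow_le_pow_of_le_one (by norm_num) (by norm_num) (by omega)
      rw [hy]
      refine this.trans ?_
      norm_num
    rw [show (1 / 3 : ℝ) ^ (L + 2 + 1) = y * (1 / 3) by rw [pow_succ, hy]]
    have h3 : 0 < 1 - y * (1 / 3) := by linarith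
    calc _ ≤ 179 / 100 * (1 - y / 2) * (1 - y * (1 / 3))⁻¹ := mul_le_mul_of_nonneg_right ih (inv_nonneg.2 h3.le)
      _ ≤ 179 / 100 * (1 - y * (1 / 3) / 2) := by
        rw [← div_eq_mul_inv, div_le_iff₀ h3]
        nlinarith [mul_pos hy0 hy0]

theorem prodH (L : ℕ) : ∏ i ∈ Finset.range L, (1 - (1 / 3 : ℝ) ^ (i + 1))⁻¹ ≤ 179 / 100 := by
  have h1 : ∏ i ∈ Finset.range L, (1 - (1 / 3 : ℝ) ^ (i + 1))⁻¹ ≤ ∏ i ∈ Finset.range (L + 2), (1 - (1 / 3 : ℝ) ^ (i + 1))⁻¹ := by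
    have hb : ∀ i : ℕ, (0 : ℝ) < 1 - (1 / 3 : ℝ) ^ (i + 1) := fun i => by
      have : (1 / 3 : ℝ) ^ (i + 1) < 1 := pow_lt_one₀ (by norm_num) (by norm_num) (by omega)
      linarith
    apply Finset.prod_le_prod_of_subset_of_one_le
    · exact Finset.range_mono (by omega)
    · intro i _
      exact (inv_pos.2 (hb i)).le
    · intro i _ _
      refine (one_le_inv₀ (hb i)).2 ?_
      have : (0 : ℝ) < (1 / 3) ^ (i + 1) := by positivity
      linarith
  refine h1.trans ((prodH_large L).trans ?_)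
  have : (0 : ℝ) < (1 / 3) ^ (L + 2) := by positivity
  linarith

theorem RS_mono (A : ℕ → Prop) (K D : ℕ) {v w : ℝ} (hv : 0 ≤ v) (hvw : v ≤ w) : RS A K D v ≤ RS A K D w := by
  classical
  unfold RS
  apply Finset.sum_le_sum
  intro ρ _
  exact pow_le_pow_left₀ hv hvw _

theorem sqrt_third : (577 / 1000 : ℝ) ≤ Real.sqrt (1 / 3) ∧ Real.sqrt (1 / 3) ≤ 2887 / 5000 := by
  constructor
  · apply Real.le_sqrt_of_sq_le
    norm_num
  · apply Real.sqrt_le_iff.2
    norm_num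

/-- the numerical value for `A = Even` -/
theorem RS_even_le (n D : ℕ) (hn : 1 ≤ n) {v : ℝ} (hv : 0 ≤ v) (hv3 : v ≤ Real.sqrt (1 / 3)) :
    RS Even (2 * n) D v ≤ ((52 / 25) ^ 4 + 1 / 25) / 2 := by
  refine (RS_mono Even (2 * n) D hv hv3).trans ?_
  obtain ⟨h1, h2⟩ := sqrt_third
  set w := Real.sqrt (1 / 3) with hw
  have hw2 : w ^ 2 = 1 / 3 := Real.sq_sqrt (by norm_num)
  have hw0 : 0 ≤ w := Real.sqrt_nonneg _
  rw [RS_eq, Fin.prod_univ_eq_prod_range (fun j => fac Even w j), Fin.prod_univ_eq_prod_range (fun j => fac Even (-w) j),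
    prod_fac_even, prod_fac_even]
  have e1 : ∏ i ∈ Finset.range n, (1 + w * (w ^ 2) ^ i) ^ 4 ≤ (52 / 25) ^ 4 := by
    rw [Finset.prod_pow]
    apply pow_le_pow_left₀ (Finset.prod_nonneg fun i _ => by positivity)
    refine le_trans ?_ (prodE n)
    apply Finset.prod_le_prod (fun i _ => by positivity)
    intro i _
    rw [hw2]
    have : (0 : ℝ) < (1 / 3) ^ i := by positivity
    nlinarith
  have e2 : 0 ≤ ∏ i ∈ Finset.range n, (1 + -w * ((-w) ^ 2) ^ i) ^ 4 := Finset.prod_nonneg fun i _ => by positivity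
  have e3 : ∏ i ∈ Finset.range n, (1 + -w * ((-w) ^ 2) ^ i) ^ 4 ≤ 1 / 25 := by
    obtain ⟨m, rfl⟩ : ∃ m, n = m + 1 := ⟨n - 1, by omega⟩
    rw [Finset.prod_range_succ', pow_zero, mul_one]
    have h3 : ∏ i ∈ Finset.range m, (1 + -w * ((-w) ^ 2) ^ (i + 1)) ^ 4 ≤ 1 := by
      apply Finset.prod_le_one
      · intro i _; positivity
      · intro i _
        have h4 : (0 : ℝ) < (1 / 3) ^ (i + 1) := by positivity
        have h5 : (1 / 3 : ℝ) ^ (i + 1) ≤ 1 := pow_le_one₀ (by norm_num) (by norm_num)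
        rw [neg_sq, hw2]
        apply pow_le_one₀
        · nlinarith
        · nlinarith
    have h6 : (1 + -w) ^ 4 ≤ 1 / 25 := by
      have h7 : (1 + -w) ^ 4 ≤ (423 / 1000) ^ 4 := pow_le_pow_left₀ (by linarith) (by linarith) 4
      refine h7.trans ?_
      norm_num
    calc _ ≤ 1 * (1 / 25 : ℝ) := mul_le_mul h3 h6 (by positivity) (by norm_num)
      _ = _ := one_mul _
  have e4 : (-1 : ℝ) ^ D * ∏ i ∈ Finset.range n, (1 + -w * ((-w) ^ 2) ^ i) ^ 4 ≤ 1 / 25 := by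
    rcases neg_one_pow_eq_or ℝ D with h | h
    · rw [h, one_mul]; exact e3
    · rw [h]; linarith
  linarith

theorem RS_false_le (L D : ℕ) (v : ℝ) : RS (fun _ => False) L D v ≤ 1 := by
  rw [RS_eq, prod_fac_false, prod_fac_false]
  rcases neg_one_pow_eq_or ℝ D with h | h
  · rw [h]; norm_num
  · rw [h]; norm_num

theorem RS_false_odd (L : ℕ) {D : ℕ} (hD : Odd D) (v : ℝ) : RS (fun _ => False) L D v = 0 := by
  rw [RS_eq, prod_fac_false, prod_fac_false, hD.neg_one_pow]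
  norm_num

end Cfsg.Agent.Lib.IsoSp
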