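import Cfsg.Agent.Lib.IsoSpD2
import Cfsg.Agent.Lib.IsoSpNum2
set_option autoImplicit false

/-!
# Number of data of symmetric isometries (helper45)
-/

namespace Cfsg.Agent.Lib.IsoSp
open Module Polynomial

universe u

variable {F : Type u} [Field F]

open Classical in
theorem count_real [Finite F] (hq : 3 ≤ Nat.card F) (A : ℕ → Prop) (K D N : ℕ)
    (hN : N ≤ ∑ x : Idx (K + 1) D with Valid A (K + 1) D x, ∏ j : Fin (K + 1), Nat.card F ^ ((x j).1 : ℕ)) :
    (Real.sqrt (1 / (Nat.card F : ℝ))) ^ D * (N : ℝ) ≤ 179 / 100 * RS A (K + 1) D (Real.sqrt (1 / (Nat.card F : ℝ))) := by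
  set q := Nat.card F with hqdef
  have hq0 : (0 : ℝ) < q := by exact_mod_cast (by omega : 0 < q)
  set v : ℝ := Real.sqrt (1 / q) with hv
  have hv2 : v ^ 2 = 1 / q := Real.sq_sqrt (by positivity)
  have hvpos : 0 < v := Real.sqrt_pos.2 (by positivity)
  have hx3 : (1 / q : ℝ) ≤ 1 / 3 := by
    apply one_div_le_one_div_of_le (by norm_num)
    exact_mod_cast hq
  have hv1 : v < 1 := by
    nlinarith [hv2, hvpos]
  have hb := codes_bound A K D q hvpos hv1 (by rw [hv2]; field_simp)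
  have hRS : 0 ≤ RS A (K + 1) D v := Finset.sum_nonneg fun _ _ => by positivity
  calc v ^ D * (N : ℝ) ≤ v ^ D * ∑ x : Idx (K + 1) D with Valid A (K + 1) D x, ∏ j : Fin (K + 1), (q : ℝ) ^ ((x j).1 : ℕ) := by
        apply mul_le_mul_of_nonneg_left _ (by positivity)
        exact_mod_cast hN
    _ ≤ (∏ j : Fin K, (1 - v ^ (2 * ((j : ℕ) + 1)))⁻¹) * RS A (K + 1) D v := by convert hb
    _ ≤ 179 / 100 * RS A (K + 1) D v := by
        apply mul_le_mul_of_nonneg_right _ hRS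
        rw [Fin.prod_univ_eq_prod_range (fun j => (1 - v ^ (2 * (j + 1)))⁻¹)]
        refine le_trans ?_ (prodH K)
        apply Finset.prod_le_prod
        · intro i _
          have : v ^ (2 * (i + 1)) < 1 := pow_lt_one₀ hvpos.le hv1 (by omega)
          exact inv_nonneg.2 (by linarith)
        · intro i _
          have h1 : (1 / 3 : ℝ) ^ (i + 1) < 1 := pow_lt_one₀ (by norm_num) (by norm_num) (by omega)
          have h2 : v ^ (2 * (i + 1)) ≤ (1 / 3 : ℝ) ^ (i + 1) := by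
            rw [pow_mul, hv2]
            exact pow_le_pow_left₀ (by positivity) hx3 _
          exact inv_anti₀ (by linarith) (by linarith)

theorem odd_sign (j : ℕ) (hj : ¬ Even j) : (-1 : F) ^ j * (1 : F) = -1 := by
  rw [Nat.not_even_iff_odd] at hj
  rw [hj.neg_one_pow, mul_one]

open Classical in
theorem DS_le [Finite F] (h2 : (2 : F) ≠ 0) {K D : ℕ} (hKD : D ≤ K) :
    (DS F (1 : F) K D).ncard ≤ ∑ x : Idx K D with Valid Even K D x, ∏ j : Fin K, Nat.card F ^ ((x j).1 : ℕ) := by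
  rw [← Nat.card_coe_set_eq]
  refine (card_data_le h2 hKD Even (DS F (1 : F) K D) subset_rfl ?_).2
  rintro d ⟨⟨X, ⟨P, M, Y, e, hUP, hUM, hs, hY⟩, hdim⟩, -, -⟩ j hj hA
  exact ⟨encR_alt h2 hUP hj (odd_sign j hA), encR_alt h2 hUM hj (odd_sign j hA)⟩

open Classical in
theorem DS_WS_le [Finite F] (h2 : (2 : F) ≠ 0) {K D : ℕ} (hKD : D ≤ K) :
    (DS F (1 : F) K D \ WS K).ncard ≤ ∑ x : Idx K D with Valid (fun _ => False) K D x, ∏ j : Fin K, Nat.card F ^ ((x j).1 : ℕ) := by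
  rw [← Nat.card_coe_set_eq]
  refine (card_data_le h2 hKD (fun _ => False) (DS F (1 : F) K D \ WS K) Set.diff_subset ?_).2
  rintro d ⟨⟨⟨X, ⟨P, M, Y, e, hUP, hUM, hs, hY⟩, hdim⟩, -, -⟩, hW⟩ j hj _
  have key : ∀ {d : ℕ → ℕ × Bool} {Z : ISp F (1 : F)}, UD K d Z → ¬ HS K d → encR (d j) = 0 := by
    intro d Z hU hH
    by_cases hA : Even j
    · have h0 : (d j).1 = 0 := by
        by_contra hne
        exact hH ⟨j, hj, hA, Nat.pos_of_ne_zero hne⟩
      have h1 := hU.alt j hj (Or.inr h0)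
      unfold encR
      rw [h0, h1]
      rfl
    · exact encR_alt h2 hU hj (odd_sign j hA)
  exact ⟨key hUP fun h => hW (Or.inl h), key hUM fun h => hW (Or.inr h)⟩

/-- number of data in even dimension -/
theorem DS_total [Finite F] (h2 : (2 : F) ≠ 0) (hq : 3 ≤ Nat.card F) {n : ℕ} (hn : 1 ≤ n) :
    (DS F (1 : F) (2 * n) (2 * n)).ncard + (DS F (1 : F) (2 * n) (2 * n) \ WS (2 * n)).ncard ≤ 19 * Nat.card F ^ n := by
  classical
  obtain ⟨K, hK⟩ : ∃ K, 2 * n = K + 1 := ⟨2 * n - 1, by omega⟩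
  have h1 := DS_le (F := F) h2 (le_refl (2 * n))
  have h3 := DS_WS_le (F := F) h2 (le_refl (2 * n))
  have hq0 : (0 : ℝ) < Nat.card F := by exact_mod_cast (by omega : 0 < Nat.card F)
  have gen : ∀ L, 2 * n = L → ∀ (A : ℕ → Prop) (N : ℕ),
      N ≤ (∑ x : Idx (2 * n) (2 * n) with Valid A (2 * n) (2 * n) x, ∏ j : Fin (2 * n), Nat.card F ^ ((x j).1 : ℕ)) →
      N ≤ (∑ x : Idx L (2 * n) with Valid A L (2 * n) x, ∏ j : Fin L, Nat.card F ^ ((x j).1 : ℕ)) := by
    rintro L rfl A N h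
    exact h
  have h4 := count_real hq Even K (2 * n) _ (gen _ hK _ _ h1)
  have h5 := count_real hq (fun _ => False) K (2 * n) _ (gen _ hK _ _ h3)
  rw [← hK] at h4 h5
  have hv3 : Real.sqrt (1 / (Nat.card F : ℝ)) ≤ Real.sqrt (1 / 3) := by
    apply Real.sqrt_le_sqrt
    apply one_div_le_one_div_of_le (by norm_num)
    exact_mod_cast hq
  have h6 := RS_even_le n (2 * n) hn (Real.sqrt_nonneg _) hv3
  have h7 := RS_false_le (2 * n) (2 * n) (Real.sqrt (1 / (Nat.card F : ℝ)))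
  have hv2 : Real.sqrt (1 / (Nat.card F : ℝ)) ^ (2 * n) = 1 / (Nat.card F : ℝ) ^ n := by
    rw [pow_mul, Real.sq_sqrt (by positivity), one_div, inv_pow, one_div]
  rw [hv2] at h4 h5
  have hqn : (0 : ℝ) < (Nat.card F : ℝ) ^ n := by positivity
  rw [one_div, ← div_eq_inv_mul, div_le_iff₀ hqn] at h4 h5
  have h8 : ((DS F (1 : F) (2 * n) (2 * n)).ncard : ℝ) + ((DS F (1 : F) (2 * n) (2 * n) \ WS (2 * n)).ncard : ℝ) ≤
      19 * (Nat.card F : ℝ) ^ n := by
    have h9 : 179 / 100 * RS Even (2 * n) (2 * n) (Real.sqrt (1 / (Nat.card F : ℝ))) +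
        179 / 100 * RS (fun _ => False) (2 * n) (2 * n) (Real.sqrt (1 / (Nat.card F : ℝ))) ≤ 19 := by
      have : (179 / 100 : ℝ) * (((52 / 25) ^ 4 + 1 / 25) / 2) + 179 / 100 * 1 ≤ 19 := by norm_num
      linarith
    nlinarith
  exact_mod_cast h8

end Cfsg.Agent.Lib.IsoSp
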