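import Cfsg.Agent.Lib.IsoSpO
set_option autoImplicit false

/-!
# Existence of symmetric spaces with an isometry of given characteristic polynomial (helper45)
-/

namespace Cfsg.Agent.Lib.IsoSp
open Module Polynomial

universe u

variable {F : Type u} [Field F]

theorem eval_P_one (n : ℕ) (g : F[X]) (hg : g.natDegree ≤ n) : (SpCount.P n g).eval 1 = g.eval 2 := by
  unfold SpCount.P
  rw [eval_finsetSum, eval_eq_sum_range' (Nat.lt_succ_of_le hg)]
  apply Finset.sum_congr rfl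
  intro k _
  simp only [eval_mul, eval_C, eval_pow, eval_add, eval_X, eval_one, one_pow, mul_one]
  norm_num

theorem eval_P_neg_one (n : ℕ) (g : F[X]) (hg : g.natDegree ≤ n) :
    (SpCount.P n g).eval (-1) = (-1) ^ n * g.eval (-2) := by
  unfold SpCount.P
  rw [eval_finsetSum, eval_eq_sum_range' (Nat.lt_succ_of_le hg), Finset.mul_sum]
  apply Finset.sum_congr rfl
  intro k hk
  rw [Finset.mem_range] at hk
  simp only [eval_mul, eval_C, eval_pow, eval_add, eval_X, eval_one]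
  obtain ⟨m, rfl⟩ : ∃ m, n = k + m := ⟨n - k, by omega⟩
  rw [Nat.add_sub_cancel_left, pow_add, show (-2 : F) = (-1) * 2 by ring, mul_pow]
  have h1 : ((-1 : F) ^ k) * (-1) ^ k = 1 := by rw [← mul_pow]; simp
  have h3 : ((-1 : F) ^ 2 + 1) = 2 := by norm_num
  rw [h3]
  linear_combination (- g.coeff k * 2 ^ k * (-1) ^ m) * h1

/-- `P` of a product with a linear polynomial -/
theorem P_linear {n : ℕ} (g : F[X]) (hg : g.natDegree ≤ n) (c : F) :
    SpCount.P (n + 1) ((X - C c) * g) = (X ^ 2 + 1 - C c * X) * SpCount.P n g := by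
  unfold SpCount.P
  have h1 : ∀ k, ((X - C c) * g).coeff (k + 1) = g.coeff k - c * g.coeff (k + 1) := by
    intro k
    rw [sub_mul, coeff_sub, coeff_X_mul, coeff_C_mul]
  have h0 : ((X - C c) * g).coeff 0 = - c * g.coeff 0 := by
    rw [sub_mul, coeff_sub, coeff_X_mul_zero, coeff_C_mul]
    ring
  have hz : g.coeff (n + 1) = 0 := coeff_eq_zero_of_natDegree_lt (by omega)
  rw [Finset.sum_range_succ' _ (n + 1), h0]
  have e1 : ∀ k ∈ Finset.range (n + 1), C (((X - C c) * g).coeff (k + 1)) * ((X ^ 2 + 1) ^ (k + 1) * X ^ (n + 1 - (k + 1))) =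
      (X ^ 2 + 1) * (C (g.coeff k) * ((X ^ 2 + 1) ^ k * X ^ (n - k))) -
      C c * (C (g.coeff (k + 1)) * ((X ^ 2 + 1) ^ (k + 1) * X ^ (n + 1 - (k + 1)))) := by
    intro k _
    rw [h1, C_sub, C_mul, Nat.add_sub_add_right]
    ring
  rw [Finset.sum_congr rfl e1, Finset.sum_sub_distrib, ← Finset.mul_sum, ← Finset.mul_sum]
  have e2 : (∑ k ∈ Finset.range (n + 1), C (g.coeff (k + 1)) * ((X ^ 2 + 1 : F[X]) ^ (k + 1) * X ^ (n + 1 - (k + 1)))) +
      C (g.coeff 0) * ((X ^ 2 + 1) ^ 0 * X ^ (n + 1 - 0)) =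
      X * ∑ k ∈ Finset.range (n + 1), C (g.coeff k) * ((X ^ 2 + 1) ^ k * X ^ (n - k)) := by
    rw [← Finset.sum_range_succ' (fun k => C (g.coeff k) * ((X ^ 2 + 1 : F[X]) ^ k * X ^ (n + 1 - k))) (n + 1),
      Finset.sum_range_succ, hz, C_0, zero_mul, add_zero, Finset.mul_sum]
    apply Finset.sum_congr rfl
    intro k hk
    rw [Finset.mem_range] at hk
    rw [show n + 1 - k = (n - k) + 1 by omega, pow_succ]
    ring
  rw [C_mul, C_neg]
  linear_combination (- C c) * e2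

theorem charpoly_sum {ε : F} (X Y : ISp F ε) : (sum X Y).T.charpoly = X.T.charpoly * Y.T.charpoly :=
  LinearMap.charpoly_prodMap _ _

theorem Iso.charpoly {ε : F} {X Y : ISp F ε} (h : Iso X Y) : X.T.charpoly = Y.T.charpoly := by
  obtain ⟨e, -, h2⟩ := h
  have h3 : Y.T = e.conj X.T := by
    apply LinearMap.ext
    intro y
    rw [LinearEquiv.conj_apply_apply, h2, e.apply_symm_apply]
  rw [h3, LinearEquiv.charpoly_conj]

/-- from alternating to symmetric -/
noncomputable abbrev sw (X : ISp F (-1 : F)) (h : ∀ x, X.T (X.T x) = x → x = 0) : ISp F (1 : F) where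
  V := X.V
  B := X.B.compl₁₂ X.T (LinearMap.id : X.V →ₗ[F] X.V) - X.B.compl₁₂ (LinearMap.id : X.V →ₗ[F] X.V) X.T
  T := X.T
  sym x y := by
    show X.B (X.T y) x - X.B y (X.T x) = 1 * (X.B (X.T x) y - X.B x (X.T y))
    rw [X.sym x (X.T y), X.sym (X.T x) y]
    ring
  nd x hx := by
    have hsurj : Function.Surjective ((LinearMap.id : X.V →ₗ[F] X.V) - X.T * X.T) := by
      apply LinearMap.injective_iff_surjective.1
      rw [injective_iff_map_eq_zero]
      intro z hz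
      apply h
      have h1 : z - X.T (X.T z) = 0 := hz
      exact (sub_eq_zero.1 h1).symm
    apply X.nd
    intro y
    obtain ⟨z, rfl⟩ := hsurj y
    have h1 : X.B (X.T x) (X.T z) - X.B x (X.T (X.T z)) = 0 := hx (X.T z)
    show X.B x (z - X.T (X.T z)) = 0
    rw [map_sub, ← X.inv x z]
    exact h1
  inv x y := by
    show X.B (X.T (X.T x)) (X.T y) - X.B (X.T x) (X.T (X.T y)) = X.B (X.T x) y - X.B x (X.T y)
    rw [X.inv, X.inv]

theorem sw_B (X : ISp F (-1 : F)) (h : ∀ x, X.T (X.T x) = x → x = 0) (x y : X.V) :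
    (sw X h).B x y = X.B (X.T x) y - X.B x (X.T y) := rfl

theorem eigen_of_charpoly {ε : F} (X : ISp F ε) (h1 : X.T.charpoly.eval 1 ≠ 0) (h2 : X.T.charpoly.eval (-1) ≠ 0) :
    ∀ x, X.T (X.T x) = x → x = 0 := by
  have key : ∀ c : F, X.T.charpoly.eval c ≠ 0 → ∀ y, X.T y = c • y → y = 0 := by
    intro c hc y hy
    by_contra hne
    apply hc
    have h3 : Module.End.HasEigenvalue X.T c := Module.End.hasEigenvalue_of_hasEigenvector ⟨Module.End.mem_eigenspace_iff.2 hy, hne⟩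
    rw [Module.End.hasEigenvalue_iff_isRoot_charpoly] at h3
    exact h3
  intro x hx
  have h3 : X.T x + x = 0 := by
    apply key 1 h1
    rw [map_add, hx, one_smul, add_comm]
  apply key (-1) h2
  rw [neg_one_smul]
  exact eq_neg_of_add_eq_zero_left h3

theorem exists_regular {n : ℕ} {g : F[X]} (hm : g.Monic) (hd : g.natDegree = n) (he : g.eval 2 ≠ 0) (he' : g.eval (-2) ≠ 0) :
    ∃ X : ISp F (1 : F), dim X = 2 * n ∧ X.T.charpoly = SpCount.P n g ∧
      (Dq X ↔ IsSquare ((-1) ^ n * (g.eval 2 * g.eval (-2)))) := by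
  obtain ⟨A, hA, hAc⟩ := SpCount.exists_symp hm hd
  let Y := spX (F := F) ⟨A, hA⟩
  have hYc : Y.T.charpoly = SpCount.P n g := (Matrix.charpoly_toLin' A).trans hAc
  have hY := eigen_of_charpoly Y (by rw [hYc, eval_P_one n g hd.le]; exact he)
    (by rw [hYc, eval_P_neg_one n g hd.le]; exact mul_ne_zero (pow_ne_zero _ (neg_ne_zero.2 one_ne_zero)) he')
  refine ⟨sw Y hY, spX_dim (⟨A, hA⟩ : Matrix.symplecticGroup (Fin n) F), hYc, ?_⟩
  let b : Basis (Fin n ⊕ Fin n) F (sw Y hY).V := Pi.basisFun F (Fin n ⊕ Fin n)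
  rw [Dq_iff (sw Y hY) b]
  have hGA : gram (sw Y hY).B b = A.transpose * Matrix.J (Fin n) F - Matrix.J (Fin n) F * A := by
    ext i j
    have hB : ∀ x y : Fin n ⊕ Fin n → F, (spX (⟨A, hA⟩ : Matrix.symplecticGroup (Fin n) F)).B x y = x ⬝ᵥ (Matrix.J (Fin n) F).mulVec y :=
      fun x y => spX_B _ x y
    rw [gram_apply, sw_B]
    refine (congrArg₂ (fun a b : F => a - b) (hB _ _) (hB _ _)).trans ?_
    show (A.mulVec (Pi.basisFun F (Fin n ⊕ Fin n) i)) ⬝ᵥ (Matrix.J (Fin n) F).mulVec (Pi.basisFun F (Fin n ⊕ Fin n) j) -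
      (Pi.basisFun F (Fin n ⊕ Fin n) i) ⬝ᵥ (Matrix.J (Fin n) F).mulVec (A.mulVec (Pi.basisFun F (Fin n ⊕ Fin n) j)) = _
    rw [Pi.basisFun_apply, Pi.basisFun_apply, Matrix.mulVec_mulVec]
    simp only [Matrix.mulVec_single_one, single_one_dotProduct, Matrix.sub_apply, Matrix.mul_apply, Matrix.transpose_apply]
    rfl
  have hG : gram (sw Y hY).B b * A = Matrix.J (Fin n) F * (1 - A * A) := by
    rw [hGA, Matrix.sub_mul, SymplecticGroup.mem_iff'.1 hA, Matrix.mul_sub, Matrix.mul_one, Matrix.mul_assoc]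
  have hdet := congrArg Matrix.det hG
  rw [Matrix.det_mul, Matrix.det_mul, SymplecticGroup.det_eq_one hA, SymplecticGroup.det_eq_one (SymplecticGroup.J_mem (Fin n) F), mul_one,
    one_mul] at hdet
  have h1 : (1 - A * A).det = (1 - A).det * (1 + A).det := by
    rw [← Matrix.det_mul]
    congr 1
    noncomm_ring
  have h3 : (1 - A).det = g.eval 2 := by
    rw [← eval_P_one n g hd.le, ← hAc, Matrix.eval_charpoly, map_one]
  have h4 : (1 + A).det = (-1) ^ n * g.eval (-2) := by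
    rw [← eval_P_neg_one n g hd.le, ← hAc, Matrix.eval_charpoly]
    have h5 : Matrix.scalar (Fin n ⊕ Fin n) (-1 : F) - A = -(1 + A) := by
      rw [map_neg, map_one]
      abel
    rw [h5, Matrix.det_neg]
    simp [← two_mul]
  rw [hdet, h1, h3, h4]
  have e1 : g.eval 2 * ((-1) ^ n * g.eval (-2)) = (-1) ^ n * (g.eval 2 * g.eval (-2)) := by ring
  rw [e1]

end Cfsg.Agent.Lib.IsoSp
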