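import Cfsg.Agent.Lib.IsoSpE
set_option autoImplicit false

/-!
# Existence of symmetric spaces with an isometry of given characteristic polynomial, II (helper45)
-/

namespace Cfsg.Agent.Lib.IsoSp
open Module Polynomial

universe u

variable {F : Type u} [Field F]

/-- a line -/
noncomputable def line (c : F) (hc : c ≠ 0) (s : F) (hs : s * s = 1) : ISp F (1 : F) where
  V := F
  B := c • LinearMap.mul F F
  T := s • LinearMap.id
  sym x y := by
    show c * (y * x) = 1 * (c * (x * y))
    ring
  nd x hx := by
    have h1 : c * (x * 1) = 0 := hx 1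
    rw [mul_one] at h1
    exact (mul_eq_zero.1 h1).resolve_left hc
  inv x y := by
    show c * ((s * x) * (s * y)) = c * (x * y)
    linear_combination (c * x * y) * hs

theorem line_dim (c : F) (hc : c ≠ 0) (s : F) (hs : s * s = 1) : dim (line c hc s hs) = 1 := Module.finrank_self F

theorem line_dq (c : F) (hc : c ≠ 0) (s : F) (hs : s * s = 1) : Dq (line c hc s hs) ↔ IsSquare c := by
  let b : Basis Unit F (line c hc s hs).V := Basis.singleton Unit F
  rw [Dq_iff _ b]
  have : (gram (line c hc s hs).B b).det = c := by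
    rw [Matrix.det_unique, gram_apply]
    show c * ((Basis.singleton Unit F) _ * (Basis.singleton Unit F) _) = c
    rw [Basis.singleton_apply]
    ring
  rw [this]

theorem line_charpoly (c : F) (hc : c ≠ 0) (s : F) (hs : s * s = 1) : (line c hc s hs).T.charpoly = X - C s := by
  let b : Basis Unit F (line c hc s hs).V := Basis.singleton Unit F
  rw [← LinearMap.charpoly_toMatrix _ b, Matrix.charpoly, Matrix.det_unique, Matrix.charmatrix_apply_eq, LinearMap.toMatrix_apply]
  show X - C ((Basis.singleton Unit F).repr (s * (Basis.singleton Unit F) default) default) = _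
  rw [Basis.singleton_repr, Basis.singleton_apply, mul_one]

theorem exists_space [Finite F] (h2 : (2 : F) ≠ 0) : ∀ (n : ℕ) (g : F[X]), g.Monic → g.natDegree = n →
    (∃ Z : ISp F (1 : F), dim Z = 2 * n ∧ Z.T.charpoly = SpCount.P n g) ∧
    (g.eval 2 = 0 ∨ g.eval (-2) = 0 → ∀ c : Prop, ∃ Z : ISp F (1 : F), dim Z = 2 * n ∧ Z.T.charpoly = SpCount.P n g ∧ (Dq Z ↔ c)) := by
  classical
  intro n
  induction n with
  | zero =>
    intro g hm hd
    have hg : g = 1 := eq_one_of_monic_natDegree_zero hm hd
    subst hg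
    obtain ⟨X, h1, h3, -⟩ := exists_regular (F := F) monic_one hd (by simp) (by simp)
    refine ⟨⟨X, h1, h3⟩, fun h => ?_⟩
    simp at h
  | succ n ih =>
    intro g hm hd
    by_cases hr : g.eval 2 = 0 ∨ g.eval (-2) = 0
    · have key : ∀ c : Prop, ∃ Z : ISp F (1 : F), dim Z = 2 * (n + 1) ∧ Z.T.charpoly = SpCount.P (n + 1) g ∧ (Dq Z ↔ c) := by
        intro c
        obtain ⟨s, hs, hroot⟩ : ∃ s : F, s * s = 1 ∧ g.eval (2 * s) = 0 := by
          rcases hr with h | h
          · exact ⟨1, one_mul 1, by rw [mul_one]; exact h⟩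
          · exact ⟨-1, by norm_num, by rw [mul_neg, mul_one]; exact h⟩
        obtain ⟨g', hg'⟩ := dvd_iff_isRoot.2 (show IsRoot g (2 * s) from hroot)
        have hg0 : g' ≠ 0 := by
          rintro rfl
          rw [mul_zero] at hg'
          exact hm.ne_zero hg'
        have hm' : g'.Monic := (monic_X_sub_C (2 * s)).of_mul_monic_left (by rw [← hg']; exact hm)
        have hd' : g'.natDegree = n := by
          have h1 := (monic_X_sub_C (2 * s)).natDegree_mul hm'
          rw [← hg', hd, natDegree_X_sub_C] at h1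
          omega
        obtain ⟨⟨Z, h1, h3⟩, -⟩ := ih g' hm' hd'
        obtain ⟨u0, hu0, hu0'⟩ := exists_nonsquare (F := F) h2
        obtain ⟨u, hu, hu'⟩ : ∃ u : F, u ≠ 0 ∧ (IsSquare u ↔ (Dq Z ↔ c)) := by
          by_cases h : (Dq Z ↔ c)
          · exact ⟨1, one_ne_zero, by simp [h]⟩
          · exact ⟨u0, hu0, by simp [h, hu0']⟩
        refine ⟨sum Z (sum (line 1 one_ne_zero s hs) (line u hu s hs)), ?_, ?_, ?_⟩
        · rw [dim_sum, dim_sum, line_dim, line_dim, h1]; ring
        · rw [charpoly_sum, charpoly_sum, line_charpoly, line_charpoly, h3, hg', P_linear g' hd'.le]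
          have e : (X - C s) * (X - C s) = (X ^ 2 + 1 - C (2 * s) * X : F[X]) := by
            have e1 : C s * C s = (1 : F[X]) := by rw [← C_mul, hs, C_1]
            have e2 : C (2 * s) = 2 * C s := by rw [C_mul]; rfl
            rw [e2]
            linear_combination e1
          rw [e, mul_comm]
        · rw [Dq_sum, Dq_sum, line_dq, line_dq, hu']
          have : IsSquare (1 : F) := ⟨1, by ring⟩
          generalize Dq Z = a at *
          tauto
      refine ⟨?_, fun _ => key⟩
      obtain ⟨X, h1, h3, -⟩ := key True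
      exact ⟨X, h1, h3⟩
    · push Not at hr
      obtain ⟨X, h1, h3, -⟩ := exists_regular hm hd hr.1 hr.2
      exact ⟨⟨X, h1, h3⟩, fun h => absurd h (by push Not; exact hr)⟩

end Cfsg.Agent.Lib.IsoSp
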