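import Cfsg.Agent.Lib.IsoSpE2
set_option autoImplicit false

/-!
# Lower bounds for the class numbers of orthogonal groups (helper45)
-/

namespace Cfsg.Agent.Lib.IsoSp
open Module Polynomial QuadraticMap Quad

universe u

variable {F : Type u} [Field F]

/-- monic polynomials of degree `n` -/
abbrev Mon (F : Type u) [Field F] (n : ℕ) : Type u := {f : F[X] // f.Monic ∧ f.natDegree = n}

theorem card_Mon [Finite F] (n : ℕ) : Nat.card (Mon F n) = Nat.card F ^ n := by
  haveI := Fintype.ofFinite F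
  rw [Nat.card_congr (SSCount.monicEquiv n), Nat.card_eq_fintype_card, Fintype.card_fun, Fintype.card_fin,
      Nat.card_eq_fintype_card]

theorem finite_Mon [Finite F] (n : ℕ) : Finite (Mon F n) := by
  apply Nat.finite_of_card_ne_zero
  rw [card_Mon]
  exact pow_ne_zero _ Nat.card_pos.ne'

/-- polynomials realised with a given discriminant -/
def GoodP (n : ℕ) (c : Prop) (g : F[X]) : Prop :=
  (g.eval 2 = 0 ∨ g.eval (-2) = 0) ∨ (IsSquare ((-1) ^ n * (g.eval 2 * g.eval (-2))) ↔ c)

theorem exists_of_good [Finite F] (h2 : (2 : F) ≠ 0) {n : ℕ} {c : Prop} {g : F[X]} (hm : g.Monic) (hd : g.natDegree = n)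
    (h : GoodP n c g) : ∃ Z : ISp F (1 : F), dim Z = 2 * n ∧ Z.T.charpoly = SpCount.P n g ∧ (Dq Z ↔ c) := by
  by_cases h0 : g.eval 2 = 0 ∨ g.eval (-2) = 0
  · exact (exists_space h2 n g hm hd).2 h0 c
  · have h1 := h.resolve_left h0
    push Not at h0
    obtain ⟨Z, h3, h4, h5⟩ := exists_regular hm hd h0.1 h0.2
    exact ⟨Z, h3, h4, h5.trans h1⟩

theorem card_good [Finite F] (h2 : (2 : F) ≠ 0) {n : ℕ} (hn : 2 ≤ n) (c : Prop) :
    Nat.card F ^ n ≤ 2 * Nat.card {g : Mon F n // GoodP n c g.1} := by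
  classical
  haveI := finite_Mon (F := F) n
  obtain ⟨u, hu, hu'⟩ := exists_nonsquare (F := F) h2
  have h4 : (4 : F) ≠ 0 := by
    have : (4 : F) = 2 * 2 := by norm_num
    rw [this]; exact mul_ne_zero h2 h2
  let r : Mon F n → F[X] := fun g => C ((u - 1) * g.1.eval 2 / 4) * (X + C 2)
  have hr : ∀ g, (r g).degree < (n : WithBot ℕ) := by
    intro g
    have h3 : (r g).degree ≤ 1 := by
      refine (degree_mul_le _ _).trans ?_
      rw [degree_X_add_C]
      exact (add_le_add_left degree_C_le 1).trans (by norm_num)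
    refine lt_of_le_of_lt h3 ?_
    exact_mod_cast (by omega : 1 < n)
  have hdeg : ∀ g : Mon F n, g.1.degree = (n : WithBot ℕ) := fun g => by
    rw [degree_eq_natDegree g.2.1.ne_zero, g.2.2]
  let f : Mon F n → Mon F n := fun g => ⟨g.1 + r g, g.2.1.add_of_left (by rw [hdeg]; exact hr g), by
    rw [natDegree_add_eq_left_of_degree_lt (by rw [hdeg]; exact hr g), g.2.2]⟩
  have hf2 : ∀ g, (f g).1.eval 2 = u * g.1.eval 2 := by
    intro g
    show (g.1 + r g).eval 2 = _
    simp only [r, eval_add, eval_mul, eval_C, eval_X]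
    field_simp
    ring
  have hfm : ∀ g, (f g).1.eval (-2) = g.1.eval (-2) := by
    intro g
    show (g.1 + r g).eval (-2) = _
    simp only [r, eval_add, eval_mul, eval_C, eval_X]
    ring
  have hinj : Function.Injective f := by
    intro g g' h
    have h3 : g.1.eval 2 = g'.1.eval 2 := by
      have := hf2 g
      rw [h, hf2] at this
      exact (mul_left_cancel₀ hu this).symm
    have h5 : g.1 + r g = g'.1 + r g' := congrArg Subtype.val h
    apply Subtype.ext
    have h6 : r g = r g' := by simp only [r, h3]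
    rw [h6] at h5
    exact add_right_cancel h5
  have hmap : ∀ g : Mon F n, ¬ GoodP n c g.1 → GoodP n c (f g).1 := by
    intro g hg
    unfold GoodP at hg ⊢
    rw [hf2, hfm]
    push Not at hg
    obtain ⟨⟨h0, h0'⟩, h1⟩ := hg
    right
    have e : (-1 : F) ^ n * (u * g.1.eval 2 * g.1.eval (-2)) = u * ((-1) ^ n * (g.1.eval 2 * g.1.eval (-2))) := by ring
    rw [e, Quad.isSquare_mul_iff hu (mul_ne_zero (pow_ne_zero _ (neg_ne_zero.2 one_ne_zero)) (mul_ne_zero h0 h0'))]
    tauto
  have h5 : Nat.card {g : Mon F n // ¬ GoodP n c g.1} ≤ Nat.card {g : Mon F n // GoodP n c g.1} := by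
    exact Nat.card_le_card_of_injective (Subtype.map f hmap) (Subtype.map_injective _ hinj)
  have h6 : Nat.card (Mon F n) = Nat.card {g : Mon F n // GoodP n c g.1} + Nat.card {g : Mon F n // ¬ GoodP n c g.1} := by
    rw [← Nat.card_sum]
    exact Nat.card_congr (Equiv.sumCompl (fun g : Mon F n => GoodP n c g.1)).symm
  rw [card_Mon] at h6
  omega

variable {ι : Type} [Fintype ι] [DecidableEq ι] {Q : QuadraticForm F (ι → F)}

theorem charpoly_of_conj {g h : ↥(Cfsg.isometryGroup F ⇑Q)} (hc : IsConj g h) :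
    ((g : Matrix.GeneralLinearGroup ι F) : Matrix ι ι F).charpoly = ((h : Matrix.GeneralLinearGroup ι F) : Matrix ι ι F).charpoly := by
  obtain ⟨c, hc⟩ := isConj_iff.1 hc
  rw [← hc]
  have h1 := (Matrix.charpoly_units_conj (c : Matrix.GeneralLinearGroup ι F) ((g : Matrix.GeneralLinearGroup ι F) : Matrix ι ι F)).symm
  rw [← Matrix.coe_units_inv] at h1
  exact h1

theorem two_mul_lower [Finite F] (h2 : (2 : F) ≠ 0) (hQ : Nd Q) {n : ℕ} (hn : 2 ≤ n)
    (hι : Fintype.card ι = 2 * n) :
    Nat.card F ^ n ≤ 2 * Nat.card (ConjClasses ↥(Cfsg.isometryGroup F ⇑Q)) := by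
  refine (card_good h2 hn (IsSquare (gram (polarBilin Q) (Pi.basisFun F ι)).det)).trans ?_
  apply Nat.mul_le_mul_left
  have hfinG : Finite ↥(Cfsg.isometryGroup F ⇑Q) := by
    haveI : Finite (Matrix.GeneralLinearGroup ι F) := by
      haveI : Finite (Matrix ι ι F) := inferInstanceAs (Finite (ι → ι → F))
      infer_instance
    infer_instance
  have hfin : Finite (ConjClasses ↥(Cfsg.isometryGroup F ⇑Q)) := Quotient.finite _
  have key : ∀ g : {g : Mon F n // GoodP n (IsSquare (gram (polarBilin Q) (Pi.basisFun F ι)).det) g.1},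
      ∃ x : ↥(Cfsg.isometryGroup F ⇑Q), ((x : Matrix.GeneralLinearGroup ι F) : Matrix ι ι F).charpoly = SpCount.P n g.1.1 := by
    rintro ⟨⟨g, hm, hd⟩, hg⟩
    obtain ⟨Z, h1, h3, h4⟩ := exists_of_good h2 hm hd hg
    obtain ⟨x, hx⟩ := exists_oX h2 hQ (by rw [h1, hι]) h4
    refine ⟨x, ?_⟩
    have h5 := hx.charpoly
    rw [h3] at h5
    rw [h5]
    exact (Matrix.charpoly_toLin' _).symm
  choose x hx using key
  apply Nat.card_le_card_of_injective (fun g => ConjClasses.mk (x g))
  intro g g' h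
  have h3 := charpoly_of_conj (ConjClasses.mk_eq_mk_iff_isConj.1 h)
  rw [hx, hx] at h3
  exact Subtype.ext (Subtype.ext (SpCount.P_inj g.1.2.2.le g'.1.2.2.le h3))

end Cfsg.Agent.Lib.IsoSp
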