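import Mathlib
set_option autoImplicit false

/-!
# Class numbers of subgroups of index two (helper45)
-/

namespace Cfsg.Agent.Lib.IsoSp

section index2

variable {G : Type*} [Group G] [Finite G]

theorem card_fiber (g : G) : Nat.card {x : G // ConjClasses.mk x = ConjClasses.mk g} * Nat.card (Subgroup.centralizer {g}) = Nat.card G := by
  rw [Subgroup.nat_card_centralizer_nat_card_stabilizer]
  have h1 := (MulAction.stabilizer (ConjAct G) g).index_mul_card
  rw [MulAction.index_stabilizer] at h1
  have h2 : Nat.card {x : G // ConjClasses.mk x = ConjClasses.mk g} = (MulAction.orbit (ConjAct G) g).ncard := by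
    rw [← Nat.card_coe_set_eq]
    apply Nat.card_congr
    apply Equiv.subtypeEquivRight
    intro x
    rw [ConjClasses.mk_eq_mk_iff_isConj, ← ConjAct.mem_orbit_conjAct]
  rw [h2]
  exact h1

theorem card_centralizer_conj {g h : G} (hc : IsConj g h) :
    Nat.card (Subgroup.centralizer {g}) = Nat.card (Subgroup.centralizer {h}) := by
  have h1 := card_fiber g
  have h2 := card_fiber h
  rw [ConjClasses.mk_eq_mk_iff_isConj.2 hc] at h1
  have h3 : 0 < Nat.card {x : G // ConjClasses.mk x = ConjClasses.mk h} := by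
    haveI : Nonempty {x : G // ConjClasses.mk x = ConjClasses.mk h} := ⟨⟨h, rfl⟩⟩
    exact Nat.card_pos
  exact Nat.eq_of_mul_eq_mul_left h3 (h1.trans h2.symm)

open Classical in
/-- the class equation for a union of classes -/
theorem sum_centralizer [Fintype G] (p : G → Prop) (hp : ∀ g h, IsConj g h → p g → p h) :
    ∑ g : G with p g, Nat.card (Subgroup.centralizer {g}) =
      Nat.card G * Nat.card {C : ConjClasses G // ∃ g, ConjClasses.mk g = C ∧ p g} := by
  have hfin : Finite (ConjClasses G) := Quotient.finite _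
  haveI := Fintype.ofFinite (ConjClasses G)
  rw [← Finset.sum_fiberwise_of_maps_to (s := Finset.univ.filter fun g : G => p g)
    (t := Finset.univ.filter fun C : ConjClasses G => ∃ g, ConjClasses.mk g = C ∧ p g) (g := ConjClasses.mk)]
  · have h1 : ∀ C ∈ Finset.univ.filter (fun C : ConjClasses G => ∃ g, ConjClasses.mk g = C ∧ p g),
        ∑ g ∈ (Finset.univ.filter fun g : G => p g) with ConjClasses.mk g = C, Nat.card (Subgroup.centralizer {g}) = Nat.card G := by
      intro C hC
      obtain ⟨-, g0, rfl, hg0⟩ := Finset.mem_filter.1 hC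
      rw [Finset.sum_congr rfl (g := fun _ => Nat.card (Subgroup.centralizer {g0}))]
      · rw [Finset.sum_const, smul_eq_mul, ← card_fiber g0]
        congr 1
        rw [Nat.card_eq_fintype_card, Fintype.card_subtype, Finset.filter_filter]
        congr 1
        apply Finset.filter_congr
        intro x _
        constructor
        · rintro ⟨-, h⟩; exact h
        · intro h
          exact ⟨hp g0 x (ConjClasses.mk_eq_mk_iff_isConj.1 h.symm) hg0, h⟩
      · intro x hx
        exact card_centralizer_conj (ConjClasses.mk_eq_mk_iff_isConj.1 (Finset.mem_filter.1 hx).2)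
    rw [Finset.sum_congr rfl h1, Finset.sum_const, smul_eq_mul, mul_comm]
    congr 1
    rw [Nat.card_eq_fintype_card, Fintype.card_subtype]
  · intro g hg
    exact Finset.mem_filter.2 ⟨Finset.mem_univ _, g, rfl, (Finset.mem_filter.1 hg).2⟩

/-- the character sum over a centralizer -/
theorem char_sum [Fintype G] (θ : G →* ℤˣ) (x : G) [DecidablePred fun y => Commute x y]
    [Decidable (Subgroup.centralizer {x} ≤ θ.ker)] :
    ∑ y : G with Commute x y, ((θ y : ℤˣ) : ℤ) =
      if Subgroup.centralizer {x} ≤ θ.ker then (Nat.card (Subgroup.centralizer {x}) : ℤ) else 0 := by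
  classical
  have hmem : ∀ y, y ∈ Subgroup.centralizer {x} ↔ Commute x y := by
    intro y
    rw [Subgroup.mem_centralizer_singleton_iff]
    exact ⟨fun h => h.symm, fun h => h.symm⟩
  split_ifs with h
  · have h1 : ∀ y ∈ Finset.univ.filter (fun y : G => Commute x y), ((θ y : ℤˣ) : ℤ) = 1 := by
      intro y hy
      have h2 : θ y = 1 := h ((hmem y).2 (Finset.mem_filter.1 hy).2)
      rw [h2]; rfl
    rw [Finset.sum_congr rfl h1, Finset.sum_const, nsmul_eq_mul, mul_one]
    congr 1
    rw [Nat.card_eq_fintype_card, ← Fintype.card_subtype]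
    apply Fintype.card_congr
    apply Equiv.subtypeEquivRight
    intro y
    exact (hmem y).symm
  · obtain ⟨y0, hy0, hy0'⟩ := SetLike.not_le_iff_exists.1 h
    have hc0 := (hmem y0).1 hy0
    have hθ0 : θ y0 = -1 := by
      rcases Int.units_eq_one_or (θ y0) with h1 | h1
      · exact absurd h1 hy0'
      · exact h1
    have h1 : ∑ y : G with Commute x y, ((θ y : ℤˣ) : ℤ) = ∑ y : G with Commute x y, ((θ (y0 * y) : ℤˣ) : ℤ) := by
      symm
      apply Finset.sum_bij (fun y _ => y0 * y)
      · intro y hy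
        exact Finset.mem_filter.2 ⟨Finset.mem_univ _, hc0.mul_right (Finset.mem_filter.1 hy).2⟩
      · intro a _ b _ hab
        exact mul_left_cancel hab
      · intro y hy
        refine ⟨y0⁻¹ * y, Finset.mem_filter.2 ⟨Finset.mem_univ _, (hc0.inv_right).mul_right (Finset.mem_filter.1 hy).2⟩, ?_⟩
        rw [mul_inv_cancel_left]
      · intro y _
        rfl
    have h2 : ∀ y ∈ Finset.univ.filter (fun y : G => Commute x y), ((θ (y0 * y) : ℤˣ) : ℤ) = - ((θ y : ℤˣ) : ℤ) := by
      intro y _
      rw [map_mul, hθ0]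
      simp
    rw [Finset.sum_congr rfl h2, Finset.sum_neg_distrib] at h1
    omega

theorem card_pairs (H : Type*) [Group H] [Finite H] : Nat.card {p : H × H // Commute p.1 p.2} = Nat.card (ConjClasses H) * Nat.card H :=
  card_comm_eq_card_conjClasses_mul_card H

/-- class number of a subgroup of index two -/
theorem two_mul_card_classes (θ : G →* ℤˣ) (hθ : Function.Surjective θ) :
    2 * Nat.card (ConjClasses θ.ker) = Nat.card (ConjClasses G) +
      3 * Nat.card {C : ConjClasses G // ∃ g, ConjClasses.mk g = C ∧ Subgroup.centralizer {g} ≤ θ.ker} := by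
  classical
  haveI := Fintype.ofFinite G
  set s := Nat.card {C : ConjClasses G // ∃ g, ConjClasses.mk g = C ∧ Subgroup.centralizer {g} ≤ θ.ker} with hs
  have hmem : ∀ x y : G, y ∈ Subgroup.centralizer {x} ↔ Commute x y := by
    intro x y
    rw [Subgroup.mem_centralizer_singleton_iff]
    exact ⟨fun h => h.symm, fun h => h.symm⟩
  have hcard : ∀ x : G, ∑ y : G with Commute x y, (1 : ℤ) = (Nat.card (Subgroup.centralizer {x}) : ℤ) := by
    intro x
    rw [Finset.sum_const, nsmul_eq_mul, mul_one]
    congr 1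
    rw [Nat.card_eq_fintype_card, ← Fintype.card_subtype]
    apply Fintype.card_congr
    apply Equiv.subtypeEquivRight
    intro y
    exact (hmem x y).symm
  -- sum over the classes with centralizer in the kernel
  have hinv : ∀ g h : G, IsConj g h → Subgroup.centralizer {g} ≤ θ.ker → Subgroup.centralizer {h} ≤ θ.ker := by
    intro g h hc hg y hy
    obtain ⟨c, rfl⟩ := isConj_iff.1 hc
    have h1 : c⁻¹ * y * c ∈ Subgroup.centralizer {g} := by
      rw [hmem] at hy ⊢
      have h2 := hy.map (MulAut.conj c⁻¹).toMonoidHom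
      simpa [mul_assoc] using h2
    have h2 : θ (c⁻¹ * y * c) = 1 := hg h1
    rw [map_mul, map_mul, map_inv, mul_comm (θ c)⁻¹, inv_mul_cancel_right] at h2
    exact h2
  have hS : ∑ x : G, (if Subgroup.centralizer {x} ≤ θ.ker then (Nat.card (Subgroup.centralizer {x}) : ℤ) else 0) =
      (Nat.card G : ℤ) * s := by
    rw [← Finset.sum_filter, hs]
    exact_mod_cast sum_centralizer (fun g : G => Subgroup.centralizer {g} ≤ θ.ker) hinv
  have hA : ∑ x : G, (Nat.card (Subgroup.centralizer {x}) : ℤ) = (Nat.card G : ℤ) * Nat.card (ConjClasses G) := by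
    have h1 := sum_centralizer (fun _ : G => True) (fun _ _ _ h => h)
    rw [Finset.filter_true] at h1
    have h2 : Nat.card {C : ConjClasses G // ∃ g, ConjClasses.mk g = C ∧ True} = Nat.card (ConjClasses G) := by
      apply Nat.card_congr
      apply Equiv.subtypeUnivEquiv
      intro C
      obtain ⟨g, hg⟩ := ConjClasses.exists_rep C
      exact ⟨g, hg, trivial⟩
    rw [h2] at h1
    exact_mod_cast h1
  have h1 : ∀ x : G, ∑ y : G with Commute x y, ((θ y : ℤˣ) : ℤ) =
      if Subgroup.centralizer {x} ≤ θ.ker then (Nat.card (Subgroup.centralizer {x}) : ℤ) else 0 := fun x => char_sum θ x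
  have hB : ∑ x : G, ∑ y : G with Commute x y, ((θ y : ℤˣ) : ℤ) = (Nat.card G : ℤ) * s := by
    rw [Finset.sum_congr rfl fun x _ => h1 x, hS]
  have hC : ∑ x : G, ∑ y : G with Commute x y, ((θ x : ℤˣ) : ℤ) = (Nat.card G : ℤ) * s := by
    rw [← hB]
    simp only [Finset.sum_filter]
    rw [Finset.sum_comm]
    apply Finset.sum_congr rfl
    intro x _
    apply Finset.sum_congr rfl
    intro y _
    by_cases h : Commute x y
    · rw [if_pos h, if_pos h.symm]
    · rw [if_neg h, if_neg fun h' => h h'.symm]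
  have hD : ∑ x : G, ∑ y : G with Commute x y, (((θ x : ℤˣ) : ℤ) * ((θ y : ℤˣ) : ℤ)) = (Nat.card G : ℤ) * s := by
    rw [← hS]
    apply Finset.sum_congr rfl
    intro x _
    rw [← Finset.mul_sum, h1]
    split_ifs with h
    · have h2 : θ x = 1 := h ((hmem x x).2 (Commute.refl x))
      rw [h2]; simp
    · rw [mul_zero]
  have hE : (4 : ℤ) * Nat.card {p : θ.ker × θ.ker // Commute p.1 p.2} =
      ∑ x : G, ∑ y : G with Commute x y, ((1 + ((θ x : ℤˣ) : ℤ)) * (1 + ((θ y : ℤˣ) : ℤ))) := by
    have h2 : Nat.card {p : θ.ker × θ.ker // Commute p.1 p.2} =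
        Nat.card {p : G × G // Commute p.1 p.2 ∧ θ p.1 = 1 ∧ θ p.2 = 1} := by
      apply Nat.card_congr
      exact {
        toFun := fun p => ⟨(p.1.1.1, p.1.2.1), congrArg Subtype.val p.2, p.1.1.2, p.1.2.2⟩
        invFun := fun p => ⟨(⟨p.1.1, p.2.2.1⟩, ⟨p.1.2, p.2.2.2⟩), Subtype.ext p.2.1⟩
        left_inv := fun p => rfl
        right_inv := fun p => rfl }
    rw [h2, Nat.card_eq_fintype_card, Fintype.card_subtype, Finset.card_filter, Fintype.sum_prod_type]
    push_cast
    rw [Finset.mul_sum]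
    apply Finset.sum_congr rfl
    intro x _
    rw [Finset.mul_sum, Finset.sum_filter]
    apply Finset.sum_congr rfl
    intro y _
    by_cases h : Commute x y
    · rw [if_pos h]
      rcases Int.units_eq_one_or (θ x) with h3 | h3 <;> rcases Int.units_eq_one_or (θ y) with h4 | h4
      · rw [if_pos ⟨h, h3, h4⟩, h3, h4]; norm_num
      · rw [if_neg (by rintro ⟨_, _, h5⟩; rw [h4] at h5; exact absurd h5 (by decide)), h3, h4]; norm_num
      · rw [if_neg (by rintro ⟨_, h5, _⟩; rw [h3] at h5; exact absurd h5 (by decide)), h3, h4]; norm_num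
      · rw [if_neg (by rintro ⟨_, h5, _⟩; rw [h3] at h5; exact absurd h5 (by decide)), h3, h4]; norm_num
    · rw [if_neg h, if_neg (fun h' => h h'.1), mul_zero]
  have hF : ∑ x : G, ∑ y : G with Commute x y, ((1 + ((θ x : ℤˣ) : ℤ)) * (1 + ((θ y : ℤˣ) : ℤ))) =
      (Nat.card G : ℤ) * Nat.card (ConjClasses G) + 3 * ((Nat.card G : ℤ) * s) := by
    have e : ∀ x y : G, ((1 + ((θ x : ℤˣ) : ℤ)) * (1 + ((θ y : ℤˣ) : ℤ))) =
        (1 + ((θ y : ℤˣ) : ℤ)) + (((θ x : ℤˣ) : ℤ) + ((θ x : ℤˣ) : ℤ) * ((θ y : ℤˣ) : ℤ)) := fun x y => by ring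
    simp only [e, Finset.sum_add_distrib]
    rw [hB, hC, hD, Finset.sum_congr rfl fun x _ => hcard x, hA]
    ring
  have hker : Nat.card θ.ker * 2 = Nat.card G := by
    have h2 := θ.ker.card_mul_index
    rw [Subgroup.index_ker, Nat.card_congr (Equiv.subtypeUnivEquiv (fun x => (MonoidHom.mem_range.2 (hθ x))))] at h2
    have h3 : Nat.card ℤˣ = 2 := by rw [Nat.card_eq_fintype_card]; rfl
    rw [h3] at h2
    exact h2
  have hpos : (0 : ℤ) < Nat.card θ.ker := by exact_mod_cast Nat.card_pos
  rw [card_pairs, hF, ← hker] at hE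
  have h5 : (Nat.card θ.ker : ℤ) * (2 * (2 * Nat.card (ConjClasses θ.ker))) =
      (Nat.card θ.ker : ℤ) * (2 * (Nat.card (ConjClasses G) + 3 * s)) := by
    push_cast at hE ⊢
    linarith
  have h6 := mul_left_cancel₀ hpos.ne' h5
  have h7 : (2 * Nat.card (ConjClasses θ.ker) : ℤ) = Nat.card (ConjClasses G) + 3 * s := by linarith
  exact_mod_cast h7

theorem card_conjClasses_congr {H K : Type*} [Group H] [Group K] [Finite H] (e : H ≃* K) :
    Nat.card (ConjClasses H) = Nat.card (ConjClasses K) := by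
  haveI : Finite K := Finite.of_equiv H e.toEquiv
  haveI : Finite (ConjClasses H) := Quotient.finite _
  haveI : Finite (ConjClasses K) := Quotient.finite _
  apply le_antisymm
  · exact Nat.card_le_card_of_surjective _ (ConjClasses.map_surjective (f := e.symm.toMonoidHom) e.symm.surjective)
  · exact Nat.card_le_card_of_surjective _ (ConjClasses.map_surjective (f := e.toMonoidHom) e.surjective)

theorem card_conjClasses_prod (H K : Type*) [Group H] [Group K] [Finite H] [Finite K] :
    Nat.card (ConjClasses (H × K)) = Nat.card (ConjClasses H) * Nat.card (ConjClasses K) := by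
  have h1 := commProb_prod H K
  rw [commProb_def', commProb_def', commProb_def', Nat.card_prod] at h1
  have hH : (0 : ℚ) < Nat.card H := by exact_mod_cast Nat.card_pos
  have hK : (0 : ℚ) < Nat.card K := by exact_mod_cast Nat.card_pos
  push_cast at h1
  rw [div_mul_div_comm, div_left_inj' (mul_pos hH hK).ne'] at h1
  exact_mod_cast h1

/-- class number of `N × ⟨z⟩` -/
theorem card_classes_double (N H : Subgroup G) {z : G} (hz : z ∈ Subgroup.center G) (hz2 : z * z = 1) (hzH : z ∈ H)
    (χ : G →* ℤˣ) (hχ : χ z = -1) (hN : ∀ g, g ∈ N ↔ g ∈ H ∧ χ g = 1) :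
    Nat.card (ConjClasses H) = 2 * Nat.card (ConjClasses N) := by
  classical
  let ψ : ℤˣ →* G := {
    toFun := fun ε => if ε = 1 then 1 else z
    map_one' := if_pos rfl
    map_mul' := by
      intro a b
      rcases Int.units_eq_one_or a with ha | ha <;> rcases Int.units_eq_one_or b with hb | hb
      · rw [ha, hb]; simp
      · rw [ha, hb]; simp
      · rw [ha, hb]; simp
      · rw [ha, hb]
        have h1 : (-1 : ℤˣ) * (-1) = 1 := by decide
        have h2 : ¬ ((-1 : ℤˣ) = 1) := by decide
        rw [h1, if_pos rfl, if_neg h2, hz2] }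
  have hψc : ∀ ε g, Commute (ψ ε) g := by
    intro ε g
    show Commute (if ε = 1 then 1 else z) g
    split_ifs
    · exact Commute.one_left g
    · exact (Subgroup.mem_center_iff.1 hz g).symm
  have hψH : ∀ ε, ψ ε ∈ H := by
    intro ε
    show (if ε = 1 then 1 else z) ∈ H
    split_ifs
    · exact H.one_mem
    · exact hzH
  have hψχ : ∀ ε, χ (ψ ε) = ε := by
    intro ε
    show χ (if ε = 1 then 1 else z) = ε
    rcases Int.units_eq_one_or ε with h | h
    · rw [h, if_pos rfl, map_one]
    · have h2 : ¬ ((-1 : ℤˣ) = 1) := by decide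
      rw [h, if_neg h2, hχ]
  have hψψ : ∀ ε, ψ ε * ψ ε = 1 := by
    intro ε
    rw [← map_mul, Int.units_mul_self, map_one]
  let e : N × ℤˣ ≃* H := {
    toFun := fun p => ⟨p.1.1 * ψ p.2, H.mul_mem ((hN _).1 p.1.2).1 (hψH _)⟩
    invFun := fun h => (⟨h.1 * ψ (χ h.1), (hN _).2 ⟨H.mul_mem h.2 (hψH _), by rw [map_mul, hψχ, Int.units_mul_self]⟩⟩, χ h.1)
    left_inv := by
      rintro ⟨⟨n, hn⟩, ε⟩
      have h1 : χ (n * ψ ε) = ε := by rw [map_mul, ((hN n).1 hn).2, hψχ, one_mul]
      refine Prod.ext (Subtype.ext ?_) h1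
      show n * ψ ε * ψ (χ (n * ψ ε)) = n
      rw [h1, mul_assoc, hψψ, mul_one]
    right_inv := by
      rintro ⟨h, hh⟩
      apply Subtype.ext
      show h * ψ (χ h) * ψ (χ h) = h
      rw [mul_assoc, hψψ, mul_one]
    map_mul' := by
      rintro ⟨⟨n, hn⟩, ε⟩ ⟨⟨m, hm⟩, δ⟩
      apply Subtype.ext
      show n * m * ψ (ε * δ) = n * ψ ε * (m * ψ δ)
      rw [map_mul, mul_assoc n (ψ ε), ← mul_assoc (ψ ε) m, (hψc ε m).eq]
      simp only [mul_assoc] }
  rw [← card_conjClasses_congr e, card_conjClasses_prod, mul_comm]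
  congr 1
  haveI : Finite (ConjClasses ℤˣ) := Quotient.finite _
  have h1 : Nat.card (ConjClasses ℤˣ) = Nat.card ℤˣ := by
    symm
    exact Nat.card_congr ConjClasses.mkEquiv
  rw [h1, Nat.card_eq_fintype_card]
  rfl

end index2

end Cfsg.Agent.Lib.IsoSp
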