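import Cfsg.Agent.Lib.QuadSpinor
import Cfsg.Agent.Lib.AltBasis

set_option autoImplicit false

/-!
# Wall discriminants of quotients `η' η⁻¹` (helper43)
-/

namespace Cfsg.Agent.Lib.POmWall

open Matrix QuadraticMap Module
open Cfsg.Agent.Lib.Quad

section Alt

variable {F V : Type*} [Field F] [AddCommGroup V] [Module F V] [FiniteDimensional F V]

theorem exists_J (B : LinearMap.BilinForm F V) (hA : B.IsAlt) (hnd : ∀ x, (∀ y, B x y = 0) → x = 0) :
    ∃ (m : ℕ) (b : Basis (Fin m ⊕ Fin m) F V), LinearMap.BilinForm.toMatrix b B = -Matrix.J (Fin m) F := by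
  obtain ⟨m, k, b, h1, h2, h3, h4⟩ := AltBasis.exists_basis B hA
  have hk : k = 0 := by
    by_contra hk
    exact b.ne_zero (Sum.inr ⟨0, Nat.pos_of_ne_zero hk⟩) (hnd _ (h4 _))
  subst hk
  refine ⟨m, b.reindex (Equiv.sumEmpty _ _), ?_⟩
  have hneg : ∀ x y, B x y = - B y x := fun x y => (LinearMap.IsAlt.neg hA y x).symm
  ext i j
  rw [LinearMap.BilinForm.toMatrix_apply, Basis.reindex_apply, Basis.reindex_apply]
  rcases i with i | i <;> rcases j with j | j
  · simp [Matrix.J, h2]
  · simp [Matrix.J, h1, Matrix.one_apply]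
  · simp only [Equiv.sumEmpty_symm_apply]
    rw [hneg, h1]
    simp [Matrix.J, Matrix.one_apply, eq_comm]
  · simp [Matrix.J, h3]

theorem det_J_eq (m : ℕ) : (Matrix.J (Fin m) F).det = 1 :=
  SymplecticGroup.det_eq_one (SymplecticGroup.J_mem (Fin m) F)

theorem det_neg_J (m : ℕ) : (-Matrix.J (Fin m) F).det = 1 := by
  rw [Matrix.det_neg, det_J_eq]
  simp only [Fintype.card_sum, Fintype.card_fin, mul_one]
  exact Even.neg_one_pow ⟨m, rfl⟩

/-- the Gram determinant of a nondegenerate alternating form is a square -/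
theorem isSquare_det_alt (B : LinearMap.BilinForm F V) (hA : B.IsAlt) (hnd : ∀ x, (∀ y, B x y = 0) → x = 0)
    {κ : Type*} [Fintype κ] [DecidableEq κ] (b : Basis κ F V) : IsSquare (LinearMap.BilinForm.toMatrix b B).det := by
  obtain ⟨m, c, hc⟩ := exists_J B hA hnd
  have h1 := isSquare_det_mul_det b c B
  rw [hc, det_neg_J, one_mul] at h1
  exact h1

/-- a similarity of a nondegenerate alternating form of rank `2k` has determinant `μ ^ k` -/
theorem det_similar (B : LinearMap.BilinForm F V) (hA : B.IsAlt) (hnd : ∀ x, (∀ y, B x y = 0) → x = 0)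
    (c : V →ₗ[F] V) {μ : F} (hμ : μ ≠ 0) (hc : ∀ x y, B (c x) (c y) = μ * B x y) {k : ℕ} (hk : finrank F V = 2 * k) :
    LinearMap.det c = μ ^ k := by
  obtain ⟨m, b, hb⟩ := exists_J B hA hnd
  have hm : m = k := by
    have := Module.finrank_eq_card_basis b
    rw [hk] at this
    simp only [Fintype.card_sum, Fintype.card_fin] at this
    omega
  subst hm
  set M := LinearMap.toMatrix b b c with hM
  have h1 : Mᵀ * (-Matrix.J (Fin m) F) * M = μ • (-Matrix.J (Fin m) F) := by
    rw [← hb, hM, ← LinearMap.BilinForm.toMatrix_comp b b B c c]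
    have : B.comp c c = μ • B := by
      apply LinearMap.ext; intro x
      apply LinearMap.ext; intro y
      exact hc x y
    rw [this, map_smul]
  set D : Matrix (Fin m ⊕ Fin m) (Fin m ⊕ Fin m) F := Matrix.fromBlocks (μ⁻¹ • 1) 0 0 1 with hD
  have h2 : (M * D)ᵀ * Matrix.J (Fin m) F * (M * D) = Matrix.J (Fin m) F := by
    have h3 : Mᵀ * (Matrix.J (Fin m) F) * M = μ • (Matrix.J (Fin m) F) := by
      have := congrArg Neg.neg h1
      simpa using this
    rw [Matrix.transpose_mul]
    have h4 : Dᵀ * Mᵀ * Matrix.J (Fin m) F * (M * D) = Dᵀ * (Mᵀ * Matrix.J (Fin m) F * M) * D := by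
      simp only [Matrix.mul_assoc]
    rw [h4, h3, Matrix.mul_smul, Matrix.smul_mul, hD, Matrix.J, Matrix.fromBlocks_transpose, Matrix.fromBlocks_multiply,
      Matrix.fromBlocks_multiply, Matrix.fromBlocks_smul]
    simp [smul_smul, hμ]
  have h3 : (M * D)ᵀ ∈ Matrix.symplecticGroup (Fin m) F := by
    rw [SymplecticGroup.mem_iff, Matrix.transpose_transpose]
    exact h2
  have h4 := SymplecticGroup.det_eq_one h3
  rw [Matrix.det_transpose, Matrix.det_mul, hD, Matrix.det_fromBlocks_zero₂₁, Matrix.det_one, mul_one,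
    Matrix.det_smul, Matrix.det_one, mul_one, Fintype.card_fin, hM, LinearMap.det_toMatrix] at h4
  rw [inv_pow] at h4
  exact (mul_inv_eq_one₀ (pow_ne_zero _ hμ)).1 h4

/-- an operator self-adjoint for a nondegenerate alternating form has square determinant -/
theorem isSquare_det_selfadjoint (h2 : (2 : F) ≠ 0) (B : LinearMap.BilinForm F V) (hA : B.IsAlt)
    (hnd : ∀ x, (∀ y, B x y = 0) → x = 0) (a : V →ₗ[F] V) (ha : ∀ x y, B (a x) y = B x (a y))
    (hinj : Function.Injective a) : IsSquare (LinearMap.det a) := by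
  set b := finBasis F V
  have hsurj : Function.Surjective a := LinearMap.injective_iff_surjective.1 hinj
  have h1 : (LinearMap.BilinForm.compLeft B a).IsAlt := by
    intro x
    show B (a x) x = 0
    have e1 : B (a x) x = - B (a x) x := by
      conv_lhs => rw [ha, ← LinearMap.IsAlt.neg hA]
    have e2 : (2 : F) * B (a x) x = 0 := by linear_combination e1
    exact (mul_eq_zero.1 e2).resolve_left h2
  have h3 := isSquare_det_alt _ h1 (by
    intro x hx
    have : a x = 0 := hnd _ fun y => hx y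
    exact hinj (by rw [this, map_zero])) b
  rw [LinearMap.BilinForm.toMatrix_compLeft, Matrix.det_mul, Matrix.det_transpose, LinearMap.det_toMatrix] at h3
  have h4 := isSquare_det_alt B hA hnd b
  have h5 : (LinearMap.BilinForm.toMatrix b B).det ≠ 0 := by
    rw [← LinearMap.BilinForm.nondegenerate_iff_det_ne_zero]
    exact LinearMap.BilinForm.Nondegenerate.ofSeparatingLeft hnd
  exact isSquare_of_mul_right h5 h4 h3

end Alt

section Wall

variable {F V : Type*} [Field F] [AddCommGroup V] [Module F V] [FiniteDimensional F V] {Q : QuadraticForm F V}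

/-- the Wall discriminant when there are no fixed vectors -/
theorem wd_isSquare_iff {g : V ≃ₗ[F] V} (hQ : Nd Q) (hg : g ∈ O Q) (hfix : fixS g = ⊥) {κ : Type*} [Fintype κ]
    [DecidableEq κ] (b : Basis κ F V) :
    IsSquare (wd Q g) ↔ IsSquare (LinearMap.BilinForm.toMatrix b (wallB Q g)).det := by
  let e : (V ⧸ fixS g) ≃ₗ[F] V := Submodule.quotEquivOfEqBot _ hfix
  let c : Basis κ F (V ⧸ fixS g) := b.map e.symm
  have hc : ∀ i, c i = Submodule.Quotient.mk (b i) := fun i => by
    rw [Basis.map_apply]; rfl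
  have h1 := isSquare_det_mul_det (finBasis F (V ⧸ fixS g)) c (wallQ hg)
  have h2 : (LinearMap.BilinForm.toMatrix (finBasis F (V ⧸ fixS g)) (wallQ hg)).det = wd Q g := by
    rw [wd, dif_pos hg]
  have h3 : LinearMap.BilinForm.toMatrix c (wallQ hg) = LinearMap.BilinForm.toMatrix b (wallB Q g) := by
    ext i j
    rw [LinearMap.BilinForm.toMatrix_apply, LinearMap.BilinForm.toMatrix_apply, hc, hc]
    rfl
  rw [h2, h3] at h1
  have h4 : wd Q g ≠ 0 := wd_ne_zero hQ g
  have h5 : (LinearMap.BilinForm.toMatrix b (wallB Q g)).det ≠ 0 := by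
    rw [← h3]
    exact (LinearMap.BilinForm.nondegenerate_iff_det_ne_zero _).1 (wallQ_nondegenerate hQ hg)
  constructor
  · intro h; exact isSquare_of_mul_right h4 h h1
  · intro h; exact isSquare_of_mul_left h5 h h1

/-- the isometry `η' η⁻¹` has spinor norm `det η` -/
theorem wd_quot (h2 : (2 : F) ≠ 0) (hQ : Nd Q) (η η' : V →ₗ[F] V)
    (hadj : ∀ x y, polar Q (η x) y = polar Q x (η' y)) (hcomm : ∀ x, η (η' x) = η' (η x))
    (hinj : ∀ x, η x = η' x → x = 0) (hη : ∀ x, η x = 0 → x = 0) (g : V ≃ₗ[F] V) (hg : ∀ x, g (η x) = η' x) :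
    g ∈ O Q ∧ fixS g = ⊥ ∧ (IsSquare (wd Q g) ↔ IsSquare (LinearMap.det η)) := by
  have hadj' : ∀ x y, polar Q x (η y) = polar Q (η' x) y := by
    intro x y
    rw [polar_comm, hadj, polar_comm]
  have hinjη : Function.Injective η := by
    rw [injective_iff_map_eq_zero]; exact hη
  have hsurj : Function.Surjective η := LinearMap.injective_iff_surjective.1 hinjη
  have hgO : g ∈ O Q := by
    intro v
    obtain ⟨x, rfl⟩ := hsurj v
    rw [hg]
    have h1 : polar Q (η' x) (η' x) = polar Q (η x) (η x) := by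
      rw [← hadj', hcomm, ← hadj]
    rw [polar_self', polar_self'] at h1
    exact mul_left_cancel₀ h2 h1
  have hfix : fixS g = ⊥ := by
    rw [eq_bot_iff]
    intro v hv
    obtain ⟨x, rfl⟩ := hsurj v
    rw [mem_fixS, hg] at hv
    rw [hinj x hv.symm, map_zero]
    exact Submodule.zero_mem _
  refine ⟨hgO, hfix, ?_⟩
  set b := finBasis F V
  rw [wd_isSquare_iff hQ hgO hfix b]
  let A : LinearMap.BilinForm F V := LinearMap.BilinForm.compLeft (polarBilin Q) (η - η')
  have hA : A.IsAlt := by
    intro x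
    show polar Q (η x - η' x) x = 0
    rw [polar_sub_left, hadj, polar_comm, sub_self]
  have hAnd : ∀ x, (∀ y, A x y = 0) → x = 0 := by
    intro x hx
    have h3 : η x - η' x = 0 := hQ.eq_zero hx
    exact hinj x (sub_eq_zero.1 h3)
  have hAsq := isSquare_det_alt A hA hAnd b
  have hA0 : (LinearMap.BilinForm.toMatrix b A).det ≠ 0 := by
    rw [← LinearMap.BilinForm.nondegenerate_iff_det_ne_zero]
    exact LinearMap.BilinForm.Nondegenerate.ofSeparatingLeft hAnd
  have h3 : LinearMap.BilinForm.comp (wallB Q g) η η = LinearMap.BilinForm.compRight A η := by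
    apply LinearMap.ext; intro x
    apply LinearMap.ext; intro y
    show polar Q (η x - g (η x)) (η y) = polar Q (η x - η' x) (η y)
    rw [hg]
  have h4 := congrArg (fun B => (LinearMap.BilinForm.toMatrix b B).det) h3
  simp only [LinearMap.BilinForm.toMatrix_comp b b, LinearMap.BilinForm.toMatrix_compRight, Matrix.det_mul,
    Matrix.det_transpose, LinearMap.det_toMatrix] at h4
  set d := LinearMap.det η with hd
  have hd0 : d ≠ 0 := by
    have e := (LinearEquiv.ofBijective η ⟨hinjη, hsurj⟩).isUnit_det'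
    exact e.ne_zero
  set w := (LinearMap.BilinForm.toMatrix b (wallB Q g)).det with hw
  have h5 : w * (d * d) = (LinearMap.BilinForm.toMatrix b A).det * d := by
    rw [← h4]; ring
  rw [← isSquare_mul_sq_iff (x := w) hd0, h5]
  constructor
  · intro h; exact isSquare_of_mul_left hA0 hAsq h
  · intro h; exact hAsq.mul h

end Wall

end Cfsg.Agent.Lib.POmWall
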