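import Cfsg.Agent.Lib.IsoSpO
import Cfsg.Agent.Lib.QuadIndex
import Cfsg.Agent.Lib.POmWall
set_option autoImplicit false

/-!
# Spinor norms of isometries acting on a summand (helper45)
-/

namespace Cfsg.Agent.Lib.IsoSp
open Module QuadraticMap Quad

universe u

section wall

variable {F V A B : Type*} [Field F] [AddCommGroup V] [Module F V] [FiniteDimensional F V]
  [AddCommGroup A] [Module F A] [FiniteDimensional F A] [AddCommGroup B] [Module F B] [FiniteDimensional F B]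

/-- the quotient by the fixed space of an isometry acting on a summand -/
theorem exists_quot_equiv {h : V ≃ₗ[F] V} (φ : (A × B) ≃ₗ[F] V) (hA : A → A)
    (h1 : ∀ a b, h (φ (a, b)) = φ (hA a, b)) (h2 : ∀ a, hA a = a → a = 0) :
    ∃ e : A ≃ₗ[F] (V ⧸ fixS h), ∀ a, e a = Submodule.Quotient.mk (φ (a, 0)) := by
  let ℓ : A →ₗ[F] (V ⧸ fixS h) := (fixS h).mkQ ∘ₗ φ.toLinearMap ∘ₗ LinearMap.inl F A B
  have hℓ : ∀ a, ℓ a = Submodule.Quotient.mk (φ (a, 0)) := fun _ => rfl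
  have hinj : Function.Injective ℓ := by
    rw [injective_iff_map_eq_zero]
    intro a ha
    rw [hℓ, Submodule.Quotient.mk_eq_zero, mem_fixS, h1] at ha
    exact h2 a (congrArg Prod.fst (φ.injective ha))
  have hsurj : Function.Surjective ℓ := by
    intro x
    obtain ⟨x, rfl⟩ := Submodule.Quotient.mk_surjective _ x
    obtain ⟨⟨a, b⟩, rfl⟩ := φ.surjective x
    refine ⟨a, ?_⟩
    rw [hℓ, Submodule.Quotient.eq, mem_fixS]
    have h0 : hA 0 = 0 := by
      have := h1 0 0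
      rw [show ((0 : A), (0 : B)) = 0 from rfl, map_zero, map_zero] at this
      have h3 : ((hA 0, (0 : B))) = 0 := φ.injective (by rw [← this, map_zero])
      exact congrArg Prod.fst h3
    have e : φ (a, 0) - φ (a, b) = φ (0, -b) := by
      rw [← map_sub]
      congr 1
      simp
    rw [e, h1, h0]
  exact ⟨LinearEquiv.ofBijective ℓ ⟨hinj, hsurj⟩, hℓ⟩

theorem finrank_mov_sum {h : V ≃ₗ[F] V} (φ : (A × B) ≃ₗ[F] V) (hA : A → A)
    (h1 : ∀ a b, h (φ (a, b)) = φ (hA a, b)) (h2 : ∀ a, hA a = a → a = 0) : finrank F (mov h) = finrank F A := by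
  obtain ⟨e, -⟩ := exists_quot_equiv φ hA h1 h2
  have h3 := finrank_mov_add_fixS h
  have h4 := Submodule.finrank_quotient_add_finrank (fixS h)
  rw [← e.finrank_eq] at h4
  omega

/-- the Wall discriminant of an isometry acting on a summand -/
theorem wd_sum_iff {Q : QuadraticForm F V} (hQ : Nd Q) {h : V ≃ₗ[F] V} (hh : h ∈ O Q) (φ : (A × B) ≃ₗ[F] V) (hA : A → A)
    (h1 : ∀ a b, h (φ (a, b)) = φ (hA a, b)) (h2 : ∀ a, hA a = a → a = 0) {κ : Type*} [Fintype κ] [DecidableEq κ]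
    (b : Basis κ F A) {M : Matrix κ κ F} (hM : ∀ i j, M i j = polar Q (φ (b i, 0) - φ (hA (b i), 0)) (φ (b j, 0))) :
    IsSquare (wd Q h) ↔ IsSquare M.det := by
  obtain ⟨e, he⟩ := exists_quot_equiv φ hA h1 h2
  let c : Basis κ F (V ⧸ fixS h) := b.map e
  have hc : ∀ i, c i = Submodule.Quotient.mk (φ (b i, 0)) := fun i => by
    rw [Basis.map_apply, he]
  have h3 := isSquare_det_mul_det (finBasis F (V ⧸ fixS h)) c (wallQ hh)
  have h4 : (LinearMap.BilinForm.toMatrix (finBasis F (V ⧸ fixS h)) (wallQ hh)).det = wd Q h := by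
    rw [wd, dif_pos hh]
  have h5 : LinearMap.BilinForm.toMatrix c (wallQ hh) = M := by
    ext i j
    rw [LinearMap.BilinForm.toMatrix_apply, hc, hc, wallQ_mk, h1, hM]
  rw [h4, h5] at h3
  have h6 : wd Q h ≠ 0 := wd_ne_zero hQ h
  have h7 : M.det ≠ 0 := by
    rw [← h5]
    exact (LinearMap.BilinForm.nondegenerate_iff_det_ne_zero _).1 (wallQ_nondegenerate hQ hh)
  constructor
  · intro h; exact isSquare_of_mul_right h6 h h3
  · intro h; exact isSquare_of_mul_left h7 h h3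

end wall

section theta

variable {F V : Type*} [Field F] [Finite F] [AddCommGroup V] [Module F V] [FiniteDimensional F V] {Q : QuadraticForm F V}

/-- the negative -/
noncomputable def ngO (Q : QuadraticForm F V) : ↥(O Q) := ⟨LinearEquiv.neg F, fun v => by
  show Q (-v) = Q v
  exact QuadraticMap.map_neg Q v⟩

theorem ngO_apply (v : V) : ((ngO Q : ↥(O Q)) : V ≃ₗ[F] V) v = -v := rfl

open Classical in
/-- the twist of the parity -/
noncomputable def twist (c : Prop) : ℤˣ →* ℤˣ := if c then 1 else MonoidHom.id ℤˣ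

/-- the homomorphism with kernel `Ω × ⟨-1⟩` in odd dimension -/
noncomputable def θO (hQ : Nd Q) (hR : R Q = O Q) : ↥(O Q) →* ℤˣ :=
  spinHom hQ hR * (twist (spinHom hQ hR (ngO Q) = 1)).comp (parHom hQ hR)

theorem θO_apply (hQ : Nd Q) (hR : R Q = O Q) (g : ↥(O Q)) :
    θO hQ hR g = spinHom hQ hR g * twist (spinHom hQ hR (ngO Q) = 1) (parHom hQ hR g) := rfl

theorem θO_of_par (hQ : Nd Q) (hR : R Q = O Q) {g : ↥(O Q)} (hg : parHom hQ hR g = 1) :
    θO hQ hR g = spinHom hQ hR g := by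
  rw [θO_apply, hg, map_one, mul_one]

theorem par_neg (hQ : Nd Q) (hR : R Q = O Q) (h2 : (2 : F) ≠ 0) (hodd : Odd (finrank F V)) : parHom hQ hR (ngO Q) = -1 := by
  apply sgn_false
  have h1 : finrank F (mov ((ngO Q : ↥(O Q)) : V ≃ₗ[F] V)) = finrank F V := by
    have h3 := finrank_mov_add_fixS ((ngO Q : ↥(O Q)) : V ≃ₗ[F] V)
    have h4 : fixS ((ngO Q : ↥(O Q)) : V ≃ₗ[F] V) = ⊥ := by
      rw [eq_bot_iff]
      intro v hv
      rw [mem_fixS, ngO_apply] at hv
      rw [Submodule.mem_bot]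
      have h5 : (2 : F) • v = 0 := by
        rw [two_smul]
        nth_rewrite 1 [← hv]
        exact neg_add_cancel v
      exact (smul_eq_zero.1 h5).resolve_left h2
    rw [h4, finrank_bot] at h3
    omega
  rw [h1]
  exact Nat.not_even_iff_odd.2 hodd

theorem θO_neg (hQ : Nd Q) (hR : R Q = O Q) (h2 : (2 : F) ≠ 0) (hodd : Odd (finrank F V)) : θO hQ hR (ngO Q) = 1 := by
  rw [θO_apply, par_neg hQ hR h2 hodd, twist]
  split_ifs with h
  · rw [h]; rfl
  · rcases Int.units_eq_one_or (spinHom hQ hR (ngO Q)) with h1 | h1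
    · exact absurd h1 h
    · rw [h1]; rfl

theorem mem_Om_iff_θO (hQ : Nd Q) (hgen : GenHyp Q) (g : ↥(O Q)) :
    (g : V ≃ₗ[F] V) ∈ Om Q ↔ θO hQ (hQ.R_eq_O hgen) g = 1 ∧ parHom hQ (hQ.R_eq_O hgen) g = 1 := by
  rw [mem_Om_iff_homs hQ hgen]
  constructor
  · rintro ⟨h1, h3⟩
    exact ⟨by rw [θO_of_par hQ _ h1, h3], h1⟩
  · rintro ⟨h1, h3⟩
    exact ⟨h3, by rw [← θO_of_par hQ _ h3, h1]⟩

theorem θO_surj (hQ : Nd Q) (hR : R Q = O Q) (h2 : (2 : F) ≠ 0) (hn : 2 ≤ finrank F V) : Function.Surjective (θO hQ hR) := by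
  classical
  haveI := Fintype.ofFinite F
  obtain ⟨c, hc, hc'⟩ := exists_nonsquare (F := F) h2
  obtain ⟨v, hv0, hv⟩ := hQ.exists_Q_eq h2 hn 1
  obtain ⟨w, hw0, hw⟩ := hQ.exists_Q_eq h2 hn c
  have hv := hv one_ne_zero
  have hw := hw hc
  have hvn : Q v ≠ 0 := by rw [hv]; exact one_ne_zero
  have hwn : Q w ≠ 0 := by rw [hw]; exact hc
  have e1 : θO hQ hR ⟨refl Q v, refl_mem v⟩ = 1 * twist (spinHom hQ hR (ngO Q) = 1) (-1) := by
    rw [θO_apply, parHom_refl hQ hR hvn, spinHom_refl hQ hR hvn, hv, sgn_true ⟨1, by ring⟩]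
  have e2 : θO hQ hR ⟨refl Q w, refl_mem w⟩ = -1 * twist (spinHom hQ hR (ngO Q) = 1) (-1) := by
    rw [θO_apply, parHom_refl hQ hR hwn, spinHom_refl hQ hR hwn, hw, sgn_false hc']
  intro ε
  rcases Int.units_eq_one_or (twist (spinHom hQ hR (ngO Q) = 1) (-1)) with h | h
  · rw [h] at e1 e2
    rcases Int.units_eq_one_or ε with h3 | h3
    · exact ⟨_, by rw [e1, h3]; rfl⟩
    · exact ⟨_, by rw [e2, h3]; rfl⟩
  · rw [h] at e1 e2
    rcases Int.units_eq_one_or ε with h3 | h3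
    · exact ⟨_, by rw [e2, h3]; rfl⟩
    · exact ⟨_, by rw [e1, h3]; rfl⟩

end theta

end Cfsg.Agent.Lib.IsoSp
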