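import Cfsg.Agent.Lib.IsoSpG2
import Cfsg.Agent.Lib.IsoSpE
set_option autoImplicit false

/-!
# Isometries with centralizer in `Ω × ⟨-1⟩` (helper45)
-/

namespace Cfsg.Agent.Lib.IsoSp
open Module QuadraticMap Quad

universe u

variable {F : Type u} [Field F] [Finite F] {V : Type*} [AddCommGroup V] [Module F V] [FiniteDimensional F V]
  {Q : QuadraticForm F V}

/-- the centralizer is contained in the kernel of `θO` -/
def CHQ (hQ : Nd Q) (hR : R Q = O Q) (X : ISp F (1 : F)) : Prop :=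
  ∀ e : X.V ≃ₗ[F] V, (∀ x y, polar Q (e x) (e y) = X.B x y) → ∀ g : ↥(O Q),
    (∀ x, (g : V ≃ₗ[F] V) (e (X.T x)) = e (X.T (e.symm ((g : V ≃ₗ[F] V) (e x))))) → θO hQ hR g = 1

theorem CHQ.iso {hQ : Nd Q} {hR : R Q = O Q} {X Y : ISp F (1 : F)} (h : CHQ hQ hR X) (f : Iso X Y) : CHQ hQ hR Y := by
  obtain ⟨f, h1, h2⟩ := f
  intro e he g hg
  refine h (f.trans e) (fun x y => ?_) g (fun x => ?_)
  · show polar Q (e (f x)) (e (f y)) = _
    rw [he, h1]
  · show (g : V ≃ₗ[F] V) (e (f (X.T x))) = e (f (X.T (f.symm (e.symm ((g : V ≃ₗ[F] V) (e (f x)))))))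
    rw [h2, h2, hg, f.apply_symm_apply]

/-- an isometry onto the fixed space -/
def Emb (Q : QuadraticForm F V) (X : ISp F (1 : F)) : Prop := ∃ e : X.V ≃ₗ[F] V, ∀ x y, polar Q (e x) (e y) = X.B x y

theorem Emb.iso {X Y : ISp F (1 : F)} (h : Emb Q X) (f : Iso X Y) : Emb Q Y := by
  obtain ⟨f, h1, h2⟩ := f.symm
  obtain ⟨e, he⟩ := h
  exact ⟨f.trans e, fun x y => by
    show polar Q (e (f x)) (e (f y)) = _
    rw [he, h1]⟩

/-- an isometry of the first summand induces an element of the orthogonal group -/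
theorem exists_ind (h2 : (2 : F) ≠ 0) {X Y : ISp F (1 : F)} (e : (sum X Y).V ≃ₗ[F] V) (he : ∀ x y, polar Q (e x) (e y) = (sum X Y).B x y)
    (a : X.V ≃ₗ[F] X.V) (ha : ∀ x y, X.B (a x) (a y) = X.B x y) (haT : ∀ x, a (X.T x) = X.T (a x)) :
    ∃ g : ↥(O Q), (∀ x y, (g : V ≃ₗ[F] V) (e (x, y)) = e (a x, y)) ∧
      ∀ x, (g : V ≃ₗ[F] V) (e ((sum X Y).T x)) = e ((sum X Y).T (e.symm ((g : V ≃ₗ[F] V) (e x)))) := by
  let a' : (sum X Y).V ≃ₗ[F] (sum X Y).V := LinearEquiv.prodCongr a (LinearEquiv.refl F Y.V)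
  let g : V ≃ₗ[F] V := e.symm.trans (a'.trans e)
  have hg : ∀ z, g (e z) = e (a' z) := by
    intro z
    show e (a' (e.symm (e z))) = _
    rw [e.symm_apply_apply]
  have hgO : g ∈ O Q := by
    intro v
    obtain ⟨z, rfl⟩ := e.surjective v
    rw [hg]
    have h4 : polar Q (e (a' z)) (e (a' z)) = polar Q (e z) (e z) := by
      rw [he, he, sum_B, sum_B]
      show X.B (a z.1) (a z.1) + Y.B z.2 z.2 = _
      rw [ha]
    rw [polar_self', polar_self'] at h4
    exact mul_left_cancel₀ h2 h4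
  refine ⟨⟨g, hgO⟩, fun x y => hg (x, y), fun x => ?_⟩
  show g (e _) = e ((sum X Y).T (e.symm (g (e x))))
  rw [hg, hg, e.symm_apply_apply]
  congr 1
  show (a (X.T x.1), Y.T x.2) = (X.T (a x.1), Y.T x.2)
  rw [haT]

/-- the first condition -/
theorem CHQ.first {hQ : Nd Q} {hR : R Q = O Q} (h2 : (2 : F) ≠ 0) (hodd : Odd (finrank F V)) {L R' : ISp F (1 : F)}
    (h : CHQ hQ hR (sum L R')) (hE : Emb Q (sum L R')) (hL : Odd (dim L)) : Dq R' := by
  classical
  obtain ⟨e, he⟩ := hE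
  obtain ⟨g, hg, hgT⟩ := exists_ind h2 e he (LinearEquiv.neg F) (fun x y => by
    show L.B (-x) (-y) = _
    rw [map_neg, map_neg, LinearMap.neg_apply, neg_neg]) (fun x => by
    show -(L.T x) = L.T (-x)
    rw [map_neg])
  have h1 := h e he g hgT
  have h3 : θO hQ hR (ngO Q * g) = 1 := by rw [map_mul, θO_neg hQ hR h2 hodd, h1, one_mul]
  let φ : (R'.V × L.V) ≃ₗ[F] V := (LinearEquiv.prodComm F R'.V L.V).trans e
  have hφ : ∀ b a, φ (b, a) = e (a, b) := fun _ _ => rfl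
  have h4 : ∀ b a, ((ngO Q * g : ↥(O Q)) : V ≃ₗ[F] V) (φ (b, a)) = φ (-b, a) := by
    intro b a
    show -((g : V ≃ₗ[F] V) (φ (b, a))) = _
    rw [hφ, hg, hφ, ← map_neg]
    congr 1
    show (- -a, -b) = (a, -b)
    rw [neg_neg]
  have h5 : ∀ b : R'.V, -b = b → b = 0 := by
    intro b hb
    have h6 : (2 : F) • b = 0 := by
      rw [two_smul]
      nth_rewrite 1 [← hb]
      exact neg_add_cancel b
    exact (smul_eq_zero.1 h6).resolve_left h2
  have hdim : finrank F V = dim L + dim R' := by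
    rw [← dim_sum]
    exact e.finrank_eq.symm
  have hev : Even (finrank F R'.V) := by
    have h6 : Odd (dim L + dim R') := hdim ▸ hodd
    have h7 : Even (dim R') := by
      rw [Nat.odd_add] at h6
      exact h6.1 hL
    exact h7
  have h6 := finrank_mov_sum φ (fun b => -b) h4 h5
  have h7 : parHom hQ hR (ngO Q * g) = 1 := sgn_true (by
    show Even (finrank F (mov ((ngO Q * g : ↥(O Q)) : V ≃ₗ[F] V)))
    rw [h6]; exact hev)
  rw [θO_of_par hQ hR h7] at h3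
  have h8 : IsSquare (wd Q ((ngO Q * g : ↥(O Q)) : V ≃ₗ[F] V)) := sgn_eq_one_iff.1 h3
  let b := Module.finBasis F R'.V
  have hM : ∀ i j, ((2 : F) • gram R'.B b) i j = polar Q (φ (b i, 0) - φ (-(b i), 0)) (φ (b j, 0)) := by
    intro i j
    rw [Matrix.smul_apply, gram_apply, smul_eq_mul, hφ, hφ, hφ, ← map_sub, he, sum_B]
    show 2 * R'.B (b i) (b j) = L.B ((0 : L.V) - 0) 0 + R'.B (b i - -(b i)) (b j)
    rw [map_zero, zero_add, sub_neg_eq_add, map_add, LinearMap.add_apply]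
    ring
  rw [wd_sum_iff hQ (ngO Q * g).2 φ (fun b => -b) h4 h5 b hM, Matrix.det_smul, Fintype.card_fin] at h8
  obtain ⟨m, hm⟩ := hev
  have h9 : (2 : F) ^ (finrank F R'.V) = 2 ^ m * 2 ^ m := by rw [hm, pow_add]
  rw [h9] at h8
  exact isSquare_of_mul_left (mul_ne_zero (pow_ne_zero _ h2) (pow_ne_zero _ h2)) ⟨2 ^ m, rfl⟩ h8

theorem even_dim_of_eigen (h2 : (2 : F) ≠ 0) {Y : ISp F (1 : F)} (hY : ∀ x, Y.T (Y.T x) = x → x = 0) :
    ∃ A : Y.V →ₗ[F] Y.V →ₗ[F] F, (∀ x y, A x y = Y.B (Y.T x) y - Y.B x (Y.T y)) ∧ (∀ x, A x x = 0) ∧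
      (∀ x, (∀ y, A x y = 0) → x = 0) := by
  refine ⟨Y.B.compl₁₂ Y.T (LinearMap.id : Y.V →ₗ[F] Y.V) - Y.B.compl₁₂ (LinearMap.id : Y.V →ₗ[F] Y.V) Y.T, fun _ _ => rfl, ?_, ?_⟩
  · intro x
    show Y.B (Y.T x) x - Y.B x (Y.T x) = 0
    rw [Y.sym x (Y.T x), one_mul, sub_self]
  · intro x hx
    have hsurj : Function.Surjective ((LinearMap.id : Y.V →ₗ[F] Y.V) - Y.T * Y.T) := by
      apply LinearMap.injective_iff_surjective.1
      rw [injective_iff_map_eq_zero]
      intro z hz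
      apply hY
      have h1 : z - Y.T (Y.T z) = 0 := hz
      exact (sub_eq_zero.1 h1).symm
    apply Y.nd
    intro y
    obtain ⟨z, rfl⟩ := hsurj y
    have h1 : Y.B (Y.T x) (Y.T z) - Y.B x (Y.T (Y.T z)) = 0 := hx (Y.T z)
    show Y.B x (z - Y.T (Y.T z)) = 0
    rw [map_sub, ← Y.inv x z]
    exact h1

/-- the second condition -/
theorem CHQ.second {hQ : Nd Q} {hR : R Q = O Q} (h2 : (2 : F) ≠ 0) {Y R' : ISp F (1 : F)}
    (h : CHQ hQ hR (sum Y R')) (hE : Emb Q (sum Y R')) (hY : ∀ x, Y.T (Y.T x) = x → x = 0) :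
    IsSquare (Y.T.charpoly.eval 1) := by
  classical
  obtain ⟨e, he⟩ := hE
  obtain ⟨A, hA, hA1, hA2⟩ := even_dim_of_eigen h2 hY
  let TE : Y.V ≃ₗ[F] Y.V := LinearEquiv.ofBijective Y.T ⟨T_inj Y, T_surj Y⟩
  have hTE : ∀ x, Y.T (TE.symm x) = x := fun x => TE.apply_symm_apply x
  have hTE' : ∀ x, TE.symm (Y.T x) = x := fun x => TE.symm_apply_apply x
  obtain ⟨g, hg, hgT⟩ := exists_ind h2 e he (TE.symm.trans (LinearEquiv.neg F)) (fun x y => by
    show Y.B (-(TE.symm x)) (-(TE.symm y)) = _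
    rw [map_neg, map_neg, LinearMap.neg_apply, neg_neg, ← Y.inv, hTE, hTE]) (fun x => by
    show -(TE.symm (Y.T x)) = Y.T (-(TE.symm x))
    rw [map_neg, hTE, hTE'])
  have h3 := h e he g hgT
  have h4 : ∀ a b, (g : V ≃ₗ[F] V) (e (a, b)) = e (-(TE.symm a), b) := hg
  have h5 : ∀ a : Y.V, -(TE.symm a) = a → a = 0 := by
    intro a ha
    have h6 : Y.T a = -a := by
      have := congrArg Y.T ha
      rw [map_neg, hTE] at this
      exact this.symm
    apply hY
    rw [h6, map_neg, h6, neg_neg]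
  have hev : Even (finrank F Y.V) := AltForm.even_finrank A hA1 hA2
  have h6 := finrank_mov_sum (h := (g : V ≃ₗ[F] V)) (A := Y.V) (B := R'.V) e (fun a => -(TE.symm a)) h4 h5
  have h7 : parHom hQ hR g = 1 := sgn_true (by
    show Even (finrank F (mov (g : V ≃ₗ[F] V)))
    rw [h6]; exact hev)
  rw [θO_of_par hQ hR h7] at h3
  have h8 : IsSquare (wd Q (g : V ≃ₗ[F] V)) := sgn_eq_one_iff.1 h3
  let b := Module.finBasis F Y.V
  let W : LinearMap.BilinForm F Y.V := LinearMap.BilinForm.compLeft Y.B (LinearMap.id + TE.symm.toLinearMap)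
  have hW : ∀ x y, W x y = Y.B (x + TE.symm x) y := fun _ _ => rfl
  rw [wd_sum_iff (A := Y.V) (B := R'.V) hQ g.2 e (fun a => -(TE.symm a)) h4 h5 b (M := LinearMap.BilinForm.toMatrix b W) (by
    intro i j
    rw [LinearMap.BilinForm.toMatrix_apply, hW]
    have e1 : e (b i, (0 : R'.V)) - e (-(TE.symm (b i)), 0) = e (b i + TE.symm (b i), 0) := by
      rw [← map_sub]
      congr 1
      show (b i - -(TE.symm (b i)), (0 : R'.V) - 0) = _
      rw [sub_neg_eq_add, sub_zero]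
    rw [e1, he, sum_B]
    show _ = Y.B (b i + TE.symm (b i)) (b j) + R'.B 0 0
    rw [map_zero, add_zero])] at h8
  have h9 : LinearMap.BilinForm.compLeft W (Y.T - 1) = A := by
    apply LinearMap.ext₂
    intro x y
    show Y.B ((Y.T x - x) + TE.symm (Y.T x - x)) y = A x y
    rw [hA, map_sub TE.symm, hTE', show Y.T x - x + (x - TE.symm x) = Y.T x - TE.symm x by abel, map_sub, LinearMap.sub_apply]
    congr 1
    rw [← Y.inv (TE.symm x), hTE]
  have h10 := POmWall.isSquare_det_alt (A : LinearMap.BilinForm F Y.V) hA1 hA2 b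
  rw [← h9, LinearMap.BilinForm.toMatrix_compLeft, Matrix.det_mul, Matrix.det_transpose, LinearMap.det_toMatrix] at h10
  have hW0 : (LinearMap.BilinForm.toMatrix b W).det ≠ 0 := by
    intro h0
    have h11 : (LinearMap.BilinForm.toMatrix b (A : LinearMap.BilinForm F Y.V)).det ≠ 0 := by
      rw [← LinearMap.BilinForm.nondegenerate_iff_det_ne_zero]
      exact LinearMap.BilinForm.Nondegenerate.ofSeparatingLeft hA2
    apply h11
    rw [← h9, LinearMap.BilinForm.toMatrix_compLeft, Matrix.det_mul, h0, mul_zero]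
  have h12 := isSquare_of_mul_right hW0 h8 h10
  have h13 : Y.T.charpoly.eval 1 = LinearMap.det (Y.T - 1) := by
    rw [← LinearMap.charpoly_toMatrix Y.T b, Matrix.eval_charpoly, map_one, ← LinearMap.det_toMatrix b (Y.T - 1), map_sub,
      LinearMap.toMatrix_one, ← neg_sub, Matrix.det_neg, Fintype.card_fin, hev.neg_one_pow, one_mul]
  rw [h13]
  exact h12

end Cfsg.Agent.Lib.IsoSp
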