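import Cfsg.Agent.Lib.IsoSpG3
import Cfsg.Agent.Lib.IsoSpD2
set_option autoImplicit false

/-!
# Structure of the data of isometries with centralizer in `Ω × ⟨-1⟩` (helper45)
-/

namespace Cfsg.Agent.Lib.IsoSp
open Module QuadraticMap Quad

universe u

section hd

variable {F : Type u} [Field F] [Finite F] {ε : F}

theorem HD.of_dq (h2 : (2 : F) ≠ 0) (hε : ε * ε = 1) {k m : ℕ} {δ δ' : Bool} {X X' : ISp F ε} (hX : HD k m δ X)
    (hX' : HD k m δ' X') (hs : (-1 : F) ^ k * ε = 1) (hk : Even k) (hm : 0 < m) (hd : Dq X ↔ Dq X') : δ = δ' := by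
  by_contra hne
  have h1 : δ' = !δ := by
    cases δ <;> cases δ' <;> simp_all
  subst h1
  obtain ⟨X'', h3, h4⟩ := hX.flip h2 hε hs hk hm
  have h5 := (h3.iso h2 hε hX').dq
  rw [h4, hd] at h5
  exact iff_not_self h5.symm

theorem Hom.iso_of_dq (h2 : (2 : F) ≠ 0) (hε : ε * ε = 1) {k : ℕ} {X X' : ISp F ε} (hX : Hom k X)
    (hX' : Hom k X') (hs : (-1 : F) ^ k * ε = 1) (hk : Even k) (hdim : dim X = dim X') (hd : Dq X ↔ Dq X') : Iso X X' := by
  obtain ⟨m, δ, h⟩ := hX.hd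
  obtain ⟨m', δ', h'⟩ := hX'.hd
  have hm : m = m' := by
    rw [h.dim, h'.dim] at hdim
    exact Nat.eq_of_mul_eq_mul_left (by omega) hdim
  subst hm
  rcases Nat.eq_zero_or_pos m with h0 | h0
  · subst h0
    exact iso_of_dim_zero (by rw [h.dim]; simp) (by rw [h'.dim]; simp)
  · have := h.of_dq h2 hε h' hs hk h0 hd
    subst this
    exact h.iso h2 hε h'

theorem UD.piece : ∀ {K : ℕ} {d : ℕ → ℕ × Bool} {P : ISp F ε}, UD K d P → ∀ j < K,
    ∃ H R' : ISp F ε, Iso P (sum H R') ∧ HD j (d j).1 (d j).2 H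
  | 0, _, _, _ => fun j hj => absurd hj (Nat.not_lt_zero _)
  | K + 1, d, P, ⟨H, Y, e, h1, h3⟩ => fun j hj => by
    by_cases h : j = K
    · subst h
      exact ⟨H, Y, e, h1⟩
    · obtain ⟨H', R', e', h4⟩ := UD.piece h3 j (by omega)
      refine ⟨H', sum H R', ?_, h4⟩
      refine e.trans (((Iso.refl H).sum e').trans ?_)
      refine (sum_assoc H H' R').symm.trans (((sum_comm H H').sum (Iso.refl R')).trans (sum_assoc H' H R'))

theorem TD.pieceP {K : ℕ} {dP dM : ℕ → ℕ × Bool} {s : Multiset (Polynomial F × ℕ)} {X : ISp F ε} (hX : TD K dP dM s X)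
    {j : ℕ} (hj : j < K) : ∃ H Z : ISp F ε, Iso X (sum H Z) ∧ HD j (dP j).1 (dP j).2 H := by
  obtain ⟨P, M, Y, e, hP, hM, hY, hY'⟩ := hX
  obtain ⟨H, R', e', h⟩ := hP.piece j hj
  exact ⟨H, _, e.trans ((e'.sum (Iso.refl _)).trans (sum_assoc _ _ _)), h⟩

theorem TD.pieceM {K : ℕ} {dP dM : ℕ → ℕ × Bool} {s : Multiset (Polynomial F × ℕ)} {X : ISp F ε} (hX : TD K dP dM s X)
    {j : ℕ} (hj : j < K) : ∃ H Z : ISp F ε, Iso (neg X) (sum H Z) ∧ HD j (dM j).1 (dM j).2 H := by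
  obtain ⟨P, M, Y, e, hP, hM, hY, hY'⟩ := hX
  obtain ⟨H, R', e', h⟩ := hM.piece j hj
  refine ⟨H, sum R' (sum (neg P) (neg Y)), ?_, h⟩
  refine e.neg.trans ((neg_sum P (sum (neg M) Y)).trans ?_)
  refine ((Iso.refl (neg P)).sum ((neg_sum (neg M) Y).trans ((neg_neg_iso M).sum (Iso.refl _)))).trans ?_
  refine (sum_assoc (neg P) M (neg Y)).symm.trans (((sum_comm (neg P) M).sum (Iso.refl _)).trans ?_)
  refine (sum_assoc M (neg P) (neg Y)).trans ((e'.sum (Iso.refl _)).trans (sum_assoc _ _ _))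

theorem TD.pieceY {K : ℕ} {dP dM : ℕ → ℕ × Bool} {s : Multiset (Polynomial F × ℕ)} {X : ISp F ε} (hX : TD K dP dM s X) :
    ∃ Y Z : ISp F ε, Iso X (sum Y Z) ∧ FXType.HasType Y.T s ∧ ∀ x, Y.T (Y.T x) = x → x = 0 := by
  obtain ⟨P, M, Y, e, hP, hM, hY, hY'⟩ := hX
  refine ⟨Y, sum P (neg M), ?_, hY, hY'⟩
  exact e.trans ((sum_assoc _ _ _).symm.trans (sum_comm _ _))

end hd

section chq

variable {F : Type u} [Field F] [Finite F] {V : Type*} [AddCommGroup V] [Module F V] [FiniteDimensional F V]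
  {Q : QuadraticForm F V}

theorem CHQ.neg {hQ : Nd Q} {hR : R Q = O Q} {X : ISp F (1 : F)} (h : CHQ hQ hR X) : CHQ hQ hR (IsoSp.neg X) := by
  intro e he g hg
  refine h e he g (fun x => ?_)
  have h1 := hg x
  have h3 : (g : V ≃ₗ[F] V) (e (-(X.T x))) = e (-(X.T (e.symm ((g : V ≃ₗ[F] V) (e x))))) := h1
  rw [map_neg, map_neg, map_neg] at h3
  exact neg_injective h3

theorem Emb.neg {X : ISp F (1 : F)} (h : Emb Q X) : Emb Q (IsoSp.neg X) := h

theorem CHQ.piece {hQ : Nd Q} {hR : R Q = O Q} (h2 : (2 : F) ≠ 0) (hodd : Odd (finrank F V)) {X H Z : ISp F (1 : F)}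
    (h : CHQ hQ hR X) (hE : Emb Q X) (e : Iso X (sum H Z)) {j m : ℕ} {δ : Bool} (hH : HD j m δ H) (hj : Even j) :
    m ≤ 1 ∧ (m = 1 → (Dq H ↔ Dq X)) := by
  have hs : (-1 : F) ^ j * (1 : F) = 1 := even_sign hj
  have key : ∀ L R', Hom j L → dim L = j + 1 → Iso H (sum L R') → (Dq L ↔ Dq X) := by
    intro L R' hL hd e'
    have e1 : Iso X (sum L (sum R' Z)) := e.trans ((e'.sum (Iso.refl Z)).trans (sum_assoc _ _ _))
    have h1 := (h.iso e1).first h2 hodd (hE.iso e1) (by rw [hd]; exact hj.add_one)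
    rw [e1.dq, Dq_sum]
    tauto
  have hm1 : m ≤ 1 := by
    by_contra hm
    obtain ⟨L, R1, e1, hL, hLd, hR1⟩ := exists_line h2 hH.1 hs (by rw [hH.dim]; exact Nat.mul_pos (by omega) (by omega))
    have hdR : dim R1 = (j + 1) * m - (j + 1) := by
      have := e1.dim
      rw [hH.dim, dim_sum, hLd] at this
      omega
    have hposR : 0 < dim R1 := by
      rw [hdR]
      have : (j + 1) * 2 ≤ (j + 1) * m := Nat.mul_le_mul_left _ (by omega)
      omega
    obtain ⟨L2, R2, e2, hL2, hLd2, hR2⟩ := exists_line h2 hR1 hs hposR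
    obtain ⟨c, hc, hc'⟩ := exists_nonsquare (F := F) h2
    have hodd1 : Odd (dim L) := by rw [hLd]; exact hj.add_one
    have hodd2 : Odd (dim L2) := by rw [hLd2]; exact hj.add_one
    have e3 : Iso (sum L L2) (sum (scale c hc L) (scale c hc L2)) := by
      apply Hom.iso_of_dq h2 (one_mul 1) (hL.sum hL2) ((hL.scale c hc).sum (hL2.scale c hc)) hs hj
      · rw [dim_sum, dim_sum, dim_scale, dim_scale]
      · rw [Dq_sum, Dq_sum, Dq_scale hc hc' L hodd1, Dq_scale hc hc' L2 hodd2]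
        exact not_iff_not.symm
    have e4 : Iso H (sum (scale c hc L) (sum (scale c hc L2) R2)) := by
      refine e1.trans (((Iso.refl L).sum e2).trans ((sum_assoc _ _ _).symm.trans ?_))
      exact (e3.sum (Iso.refl R2)).trans (sum_assoc _ _ _)
    have h3 := key _ _ hL hLd e1
    have h4 := key _ _ (hL.scale c hc) (by rw [dim_scale]; exact hLd) e4
    rw [Dq_scale hc hc' L hodd1, h3] at h4
    exact iff_not_self h4.symm
  refine ⟨hm1, ?_⟩
  rintro rfl
  obtain ⟨L, R1, e1, hL, hLd, hR1⟩ := exists_line h2 hH.1 hs (by rw [hH.dim]; omega)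
  have h3 := key _ _ hL hLd e1
  have h4 : Iso L H := by
    apply Hom.iso_of_dq h2 (one_mul 1) hL hH.1 hs hj
    · rw [hLd, hH.dim, mul_one]
    · have h5 : dim R1 = 0 := by
        have := e1.dim
        rw [hH.dim, dim_sum, hLd] at this
        omega
      have h6 : Dq R1 := by
        have h7 : finrank F R1.V = 0 := h5
        have : IsEmpty (Fin (finrank F R1.V)) := by rw [h7]; infer_instance
        unfold Dq
        rw [Matrix.det_isEmpty]
        exact ⟨1, by ring⟩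
      rw [e1.dq, Dq_sum]
      tauto
  rw [← h4.dq, h3]

/-- the data of isometries with small centralizer -/
def SD (hQ : Nd Q) (hR : R Q = O Q) (K D : ℕ) (c : Prop) : Set (Dt F) :=
  {d | (∃ X : ISp F (1 : F), TD K d.1 d.2.1 d.2.2 X ∧ dim X = D ∧ (Dq X ↔ c) ∧ CHQ hQ hR X ∧ Emb Q X) ∧
    (∀ j, K ≤ j → d.1 j = (0, true)) ∧ ∀ j, K ≤ j → d.2.1 j = (0, true)}

theorem SD_sub (hQ : Nd Q) (hR : R Q = O Q) (K D : ℕ) (c : Prop) : SD hQ hR K D c ⊆ DS F (1 : F) K D := by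
  rintro d ⟨⟨X, h1, h2, -, -, -⟩, h3, h4⟩
  exact ⟨⟨X, h1, h2⟩, h3, h4⟩

open Classical in
/-- the discriminant label of lines of discriminant class `c` -/
noncomputable def dl (F : Type u) [Field F] (c : Prop) (j : ℕ) : Bool :=
  decide (∃ H : ISp F (1 : F), HD j 1 true H ∧ (Dq H ↔ c))

theorem dl_eq (h2 : (2 : F) ≠ 0) {c : Prop} {j : ℕ} (hj : Even j) {δ : Bool} {H : ISp F (1 : F)} (hH : HD j 1 δ H) (hc : Dq H ↔ c) :
    δ = dl F c j := by
  classical
  unfold dl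
  cases δ with
  | true => exact (decide_eq_true ⟨H, hH, hc⟩).symm
  | false =>
    refine (decide_eq_false ?_).symm
    rintro ⟨H', h1, h3⟩
    have := h1.of_dq h2 (one_mul 1) hH (even_sign hj) hj (by omega) (h3.trans hc.symm)
    exact absurd this (by decide)

theorem SD_rank (h2 : (2 : F) ≠ 0) (hodd : Odd (finrank F V)) {hQ : Nd Q} {hR : R Q = O Q} {K D : ℕ} {c : Prop} {d : Dt F}
    (hd : d ∈ SD hQ hR K D c) {j : ℕ} (hjK : j < K) (hj : Even j) :
    (d.1 j = (0, true) ∨ d.1 j = (1, dl F c j)) ∧ (d.2.1 j = (0, true) ∨ d.2.1 j = (1, dl F c j)) := by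
  obtain ⟨⟨X, hX, hdim, hc, hCH, hE⟩, -, -⟩ := hd
  have key : ∀ (X : ISp F (1 : F)), CHQ hQ hR X → Emb Q X → (Dq X ↔ c) → ∀ (p : ℕ × Bool) (H Z : ISp F (1 : F)), Iso X (sum H Z) →
      HD j p.1 p.2 H → (p = (0, true) ∨ p = (1, dl F c j)) := by
    intro X hCH hE hc p H Z e hH
    obtain ⟨h1, h3⟩ := hCH.piece h2 hodd hE e hH hj
    obtain ⟨m, δ⟩ := p
    rcases Nat.lt_or_ge m 1 with h4 | h4
    · left
      have h5 : m = 0 := by omega
      subst h5
      have hδ : δ = true := hH.zero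
      rw [hδ]
    · right
      have h5 : m = 1 := le_antisymm h1 h4
      subst h5
      have hδ : δ = dl F c j := dl_eq h2 hj hH ((h3 rfl).trans hc)
      rw [hδ]
  constructor
  · obtain ⟨H, Z, e, hH⟩ := hX.pieceP hjK
    exact key X hCH hE hc _ H Z e hH
  · obtain ⟨H, Z, e, hH⟩ := hX.pieceM hjK
    exact key (IsoSp.neg X) hCH.neg hE.neg hc _ H Z e hH

end chq

end Cfsg.Agent.Lib.IsoSp
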