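import Cfsg.Agent.Lib.IsoSpG4
set_option autoImplicit false

/-!
# Characteristic polynomial of a type; the square condition (helper45)
-/

namespace Cfsg.Agent.Lib.IsoSp
open Module Polynomial FXType GLCount

universe u

section cp

variable {F : Type u} [Field F]

theorem charpoly_mulLeft {g : F[X]} (hm : g.Monic) :
    haveI := (AdjoinRoot.powerBasis hm.ne_zero).finite
    (LinearMap.mulLeft F (AdjoinRoot.root g)).charpoly = g := by
  have hfin := (AdjoinRoot.powerBasis hm.ne_zero).finite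
  have h := charpoly_leftMulMatrix (AdjoinRoot.powerBasis hm.ne_zero)
  rw [AdjoinRoot.minpoly_powerBasis_gen_of_monic hm] at h
  rw [← LinearMap.charpoly_toMatrix _ (AdjoinRoot.powerBasis hm.ne_zero).basis]
  exact h

/-- multiplication by the roots -/
noncomputable def rootMap {n : ℕ} (d : Fin n → F[X] × ℕ) : Module.End F (∀ i, Cyc (d i)) :=
  LinearMap.pi fun i => (LinearMap.mulLeft F (AdjoinRoot.root (((d i).1) ^ ((d i).2)))) ∘ₗ LinearMap.proj i

theorem rootMap_apply {n : ℕ} (d : Fin n → F[X] × ℕ) (x : ∀ i, Cyc (d i)) (i : Fin n) :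
    rootMap d x i = AdjoinRoot.root _ * x i := rfl

theorem charpoly_rootMap : ∀ (n : ℕ) (d : Fin n → F[X] × ℕ) (hd : ∀ i, Good (d i)),
    haveI := fun i => (hd i).finite
    (rootMap d).charpoly = ∏ i, (d i).1 ^ (d i).2
  | 0, d, hd => by
    have := fun i => (hd i).finite
    rw [Fin.prod_univ_zero]
    have h1 : (rootMap d).charpoly.natDegree = 0 := by
      rw [LinearMap.charpoly_natDegree]
      haveI : Subsingleton (∀ i, Cyc (d i)) := ⟨fun a b => funext fun i => i.elim0⟩
      exact Module.finrank_zero_of_subsingleton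
    exact eq_one_of_monic_natDegree_zero (LinearMap.charpoly_monic _) h1
  | n + 1, d, hd => by
    have := fun i => (hd i).finite
    have ih := charpoly_rootMap n (fun i => d i.succ) (fun i => hd _)
    have hm : ((d 0).1 ^ (d 0).2).Monic := (hd 0).1.pow _
    let e : (∀ i, Cyc (d i)) ≃ₗ[F] Cyc (d 0) × (∀ i : Fin n, Cyc (d i.succ)) := 
      { toFun := fun x => (x 0, fun i => x i.succ)
        invFun := fun y => Fin.cons y.1 y.2
        map_add' := fun _ _ => rfl
        map_smul' := fun _ _ => rfl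
        left_inv := fun x => by
          funext i
          induction i using Fin.cases with
          | zero => rfl
          | succ i => rfl
        right_inv := fun y => rfl }
    have he : e.conj (rootMap d) = LinearMap.prodMap (LinearMap.mulLeft F (AdjoinRoot.root ((d 0).1 ^ (d 0).2))) (rootMap fun i => d i.succ) := by
      apply LinearMap.ext
      intro y
      rw [LinearEquiv.conj_apply_apply]
      rfl
    rw [← LinearEquiv.charpoly_conj e, he, LinearMap.charpoly_prodMap, ih, Fin.prod_univ_succ]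
    congr 1
    exact charpoly_mulLeft hm

/-- the characteristic polynomial of an endomorphism of given type -/
theorem charpoly_of_type {V : Type*} [AddCommGroup V] [Module F V] [FiniteDimensional F V] {f : Module.End F V}
    {s : Multiset (F[X] × ℕ)} (h : HasType f s) : f.charpoly = (s.map fun d : F[X] × ℕ => d.1 ^ d.2).prod := by
  obtain ⟨n, d, hd, rfl, e, he⟩ := h
  have := fun i => (hd i).finite
  have h1 : e.conj f = rootMap d := by
    apply LinearMap.ext
    intro y
    funext i
    rw [LinearEquiv.conj_apply_apply, he, e.apply_symm_apply]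
    rfl
  rw [← LinearEquiv.charpoly_conj e, h1, charpoly_rootMap n d hd, Multiset.map_map]
  rfl

theorem eval_prod_type {s : Multiset (F[X] × ℕ)} {K : ℕ} (hs : ∀ d ∈ s, 1 ≤ d.2 ∧ d.2 ≤ K) (c : F) :
    ((s.map fun d : F[X] × ℕ => d.1 ^ d.2).prod).eval c = ∏ j ∈ Finset.range K, ((pr (j + 1) s).eval c) ^ (j + 1) := by
  have h1 : ∀ (t : Multiset (F[X] × ℕ)), ((t.map fun d : F[X] × ℕ => d.1 ^ d.2).prod).eval c = (t.map fun d : F[X] × ℕ => (d.1.eval c) ^ d.2).prod := by
    intro t
    rw [eval_multiset_prod, Multiset.map_map]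
    congr 1
    apply Multiset.map_congr rfl
    intro d _
    exact eval_pow _
  have h2 : ∀ L, ((∑ j ∈ Finset.range L, fi (j + 1) s).map fun d => (d.1.eval c) ^ d.2).prod =
      ∏ j ∈ Finset.range L, ((fi (j + 1) s).map fun d => (d.1.eval c) ^ d.2).prod := by
    intro L
    induction L with
    | zero => rfl
    | succ L ih => rw [Finset.sum_range_succ, Multiset.map_add, Multiset.prod_add, ih, Finset.prod_range_succ]
  rw [h1]
  conv_lhs => rw [eq_sum_fi hs]
  rw [h2]
  apply Finset.prod_congr rfl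
  intro j _
  rw [pr, eval_multiset_prod, Multiset.map_map, ← Multiset.prod_map_pow]
  congr 1
  apply Multiset.map_congr rfl
  intro d hd
  rw [(mem_fi.1 hd).2]
  rfl

theorem isSquare_prod_pow (a : ℕ → F) (K : ℕ) (ha : ∀ j < K, a j ≠ 0) :
    ∃ z : F, z ≠ 0 ∧ ∏ j ∈ Finset.range K, a j ^ (j + 1) = z * z * ∏ j ∈ (Finset.range K).filter Even, a j := by
  induction K with
  | zero => exact ⟨1, one_ne_zero, by simp⟩
  | succ K ih =>
    obtain ⟨z, hz, h⟩ := ih (fun j hj => ha j (by omega))
    have haK := ha K (by omega)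
    rw [Finset.prod_range_succ, h, Finset.range_add_one, Finset.filter_insert]
    split_ifs with hK
    · obtain ⟨m, hm⟩ := hK
      refine ⟨z * a K ^ m, mul_ne_zero hz (pow_ne_zero _ haK), ?_⟩
      rw [Finset.prod_insert (by simp), pow_succ, hm, pow_add]
      ring
    · rw [Nat.not_even_iff_odd] at hK
      obtain ⟨m, hm⟩ := hK
      refine ⟨z * a K ^ (m + 1), mul_ne_zero hz (pow_ne_zero _ haK), ?_⟩
      have e : a K ^ (K + 1) = a K ^ (m + 1) * a K ^ (m + 1) := by
        rw [← pow_add]; congr 1; omega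
      rw [e]
      ring

end cp

section sd

open Quad

variable {F : Type u} [Field F] [Finite F] {V : Type*} [AddCommGroup V] [Module F V] [FiniteDimensional F V]
  {Q : QuadraticForm F V}

theorem encA_SD (h2 : (2 : F) ≠ 0) (hodd : Odd (finrank F V)) {hQ : Nd Q} {hR : R Q = O Q} {K D : ℕ} {c : Prop} {d : Dt F}
    (hd : d ∈ SD hQ hR K D c) {j : ℕ} (hjK : j < K) (hj : Even j) : encA (d.1 j) = 0 ∧ encA (d.2.1 j) = 0 := by
  have key : ∀ p : ℕ × Bool, (p = (0, true) ∨ p = (1, dl F c j)) → encA p = 0 := by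
    rintro p (rfl | rfl)
    · rfl
    · unfold encA
      simp
  obtain ⟨h1, h3⟩ := SD_rank h2 hodd hd hjK hj
  exact ⟨key _ h1, key _ h3⟩

/-- the square condition -/
theorem SD_square (h2 : (2 : F) ≠ 0) (hodd : Odd (finrank F V)) {hQ : Nd Q} {hR : R Q = O Q} {K D : ℕ} (hKD : D ≤ K) {c : Prop} {d : Dt F}
    (hd : d ∈ SD hQ hR K D c) : (∀ j < K, Even j → (fpol d.1 d.2.1 d.2.2 j).eval 1 ≠ 0) ∧
      IsSquare (∏ j ∈ (Finset.range K).filter Even, (fpol d.1 d.2.1 d.2.2 j).eval 1) := by
  have hfp : ∀ j < K, Even j → fpol d.1 d.2.1 d.2.2 j = pr (j + 1) d.2.2 := by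
    intro j hj hev
    obtain ⟨h1, h3⟩ := encA_SD h2 hodd hd hj hev
    unfold fpol
    rw [h1, h3, pow_zero, pow_zero, mul_one, mul_one]
  obtain ⟨⟨X, hX, hdim, hc, hCH, hE⟩, -, -⟩ := hd
  obtain ⟨Y, Z, e, hs, hY⟩ := hX.pieceY
  have hev1 : ∀ j, (pr (j + 1) d.2.2).eval 1 ≠ 0 := fun j => (pr_pal h2 hs hY (i := j + 1) (by omega)).2.1
  have hb : ∀ d' ∈ d.2.2, 1 ≤ d'.2 ∧ d'.2 ≤ K := by
    intro d' hds
    have h3 := e.dim
    rw [dim_sum] at h3
    have h4 : Tot d.2.2 = IsoSp.dim Y := hs.finrank.symm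
    have h5 := exponent_le (hs.good d' hds) hds
    exact ⟨(hs.good d' hds).2.2, by omega⟩
  have h6 := (hCH.iso e).second h2 (hE.iso e) hY
  rw [charpoly_of_type hs, eval_prod_type hb] at h6
  obtain ⟨z, hz, h7⟩ := isSquare_prod_pow (fun j => (pr (j + 1) d.2.2).eval 1) K (fun j _ => hev1 j)
  rw [h7] at h6
  constructor
  · intro j hj hev
    rw [hfp j hj hev]
    exact hev1 j
  · have h8 := isSquare_of_mul_left (mul_ne_zero hz hz) ⟨z, rfl⟩ h6
    rw [Finset.prod_congr rfl fun j hj => by
      rw [hfp j (Finset.mem_range.1 (Finset.mem_filter.1 hj).1) (Finset.mem_filter.1 hj).2]]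
    exact h8

end sd

end Cfsg.Agent.Lib.IsoSp
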