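import Cfsg.Agent.Lib.IsoSpG5
set_option autoImplicit false

/-!
# Counting the data of isometries with centralizer in `Ω × ⟨-1⟩` (helper45)
-/

namespace Cfsg.Agent.Lib.IsoSp
open Module Polynomial FXType GLCount Quad

universe u

section codes

variable {F : Type u} [Field F]

/-- indices of codes -/
abbrev Idx2 (K D : ℕ) : Type := Fin K → Fin (D + 1) × (Bool × Bool)

/-- weight of a bit -/
def wb (b : Bool) : ℕ := if b then 1 else 0

/-- weight of the rests -/
def WR2 {K : ℕ} (ρ : Fin K → Bool × Bool) : ℕ := ∑ j : Fin K, ((j : ℕ) + 1) * (wb (ρ j).1 + wb (ρ j).2)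

/-- admissible rests -/
def AllE {K : ℕ} (ρ : Fin K → Bool × Bool) : Prop := ∀ j : Fin K, ¬ Even (j : ℕ) → ρ j = (false, false)

/-- valid indices -/
def Valid2 (K D : ℕ) (x : Idx2 K D) : Prop :=
  (∑ j : Fin K, ((j : ℕ) + 1) * (2 * ((x j).1 : ℕ))) + WR2 (fun j => (x j).2) = D ∧ AllE (fun j => (x j).2)

/-- families of palindromic polynomials -/
def PA (F : Type u) [Field F] {K : ℕ} (e : Fin K → ℕ) : Set (Fin K → F[X]) := {f | ∀ j, SpCount.PAL (e j) (f j)}

open Classical in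
/-- families with the square condition -/
def Fx (F : Type u) [Field F] {K : ℕ} (e : Fin K → ℕ) : Set (Fin K → F[X]) :=
  {f | (∀ j, SpCount.PAL (e j) (f j)) ∧ (∀ j : Fin K, Even (j : ℕ) → (f j).eval 1 ≠ 0) ∧
    IsSquare (∏ j ∈ Finset.univ.filter (fun j : Fin K => Even (j : ℕ)), (f j).eval 1)}

theorem Fx_sub {K : ℕ} (e : Fin K → ℕ) : Fx F e ⊆ PA F e := fun _ h => h.1

theorem PA_finite [Finite F] {K : ℕ} (e : Fin K → ℕ) : (PA F e).Finite := by
  have h1 : PA F e = Set.pi Set.univ fun j => {f : F[X] | SpCount.PAL (e j) f} := by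
    ext f
    simp [PA, Set.mem_pi]
  rw [h1]
  exact Set.Finite.pi fun j => SpCount.PAL_finite

theorem PA_card [Finite F] {K : ℕ} (e : Fin K → ℕ) : (PA F e).ncard ≤ ∏ j, Nat.card F ^ (e j) := by
  have hfin : ∀ m, Finite {f : F[X] | SpCount.PAL m f} := fun m => SpCount.PAL_finite
  rw [← Nat.card_coe_set_eq]
  have h1 : Nat.card (PA F e) ≤ Nat.card (∀ j, {f : F[X] | SpCount.PAL (e j) f}) := by
    apply Nat.card_le_card_of_injective (fun f j => (⟨f.1 j, f.2 j⟩ : {f : F[X] | SpCount.PAL (e j) f}))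
    intro f g h
    apply Subtype.ext
    funext j
    exact congrArg Subtype.val (congrFun h j)
  refine h1.trans ?_
  rw [Nat.card_pi]
  exact Finset.prod_le_prod' fun j _ => SpCount.card_PAL_le

/-- adding a multiple of the middle monomial -/
theorem PAL_add_mid {e : ℕ} (he : 1 ≤ e) {f : F[X]} (hf : SpCount.PAL e f) (c : F) : SpCount.PAL e (f + C c * X ^ e) := by
  obtain ⟨h1, h2, h3⟩ := hf
  have hdeg : (C c * X ^ e : F[X]).degree < f.degree := by
    rw [degree_eq_natDegree h1.ne_zero, h2]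
    refine lt_of_le_of_lt (degree_C_mul_X_pow_le e c) ?_
    exact_mod_cast (by omega : e < 2 * e)
  refine ⟨h1.add_of_left hdeg, ?_, ?_⟩
  · rw [natDegree_add_eq_left_of_degree_lt hdeg, h2]
  · intro i hi
    rw [coeff_add, coeff_add, h3 i hi, coeff_C_mul_X_pow, coeff_C_mul_X_pow]
    congr 1
    by_cases h : i = e
    · rw [if_pos (by omega), if_pos h]
    · rw [if_neg (by omega), if_neg h]

theorem Fx_card [Finite F] (h2 : (2 : F) ≠ 0) {K : ℕ} (e : Fin (K + 1) → ℕ) (he : 1 ≤ e 0) :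
    2 * (Fx F e).ncard ≤ ∏ j, Nat.card F ^ (e j) := by
  classical
  obtain ⟨u, hu, hu'⟩ := exists_nonsquare (F := F) h2
  let φ : (Fin (K + 1) → F[X]) → (Fin (K + 1) → F[X]) := fun f => Function.update f 0 (f 0 + C ((u - 1) * (f 0).eval 1) * X ^ (e 0))
  have hφ0 : ∀ f, (φ f 0).eval 1 = u * (f 0).eval 1 := by
    intro f
    simp only [φ, Function.update_self, eval_add, eval_mul, eval_C, eval_pow, eval_X, one_pow]
    ring
  have hφj : ∀ f j, j ≠ 0 → φ f j = f j := fun f j hj => Function.update_of_ne hj _ _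
  have hinj : Function.Injective φ := by
    intro f g h
    have h1 : (f 0).eval 1 = (g 0).eval 1 := by
      have := hφ0 f
      rw [h, hφ0] at this
      exact (mul_left_cancel₀ hu this).symm
    funext j
    by_cases hj : j = 0
    · subst hj
      have h3 := congrFun h 0
      simp only [φ, Function.update_self, h1] at h3
      exact add_right_cancel h3
    · rw [← hφj f j hj, h, hφj g j hj]
  have hPA : ∀ f ∈ Fx F e, φ f ∈ PA F e := by
    intro f hf j
    by_cases hj : j = 0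
    · subst hj
      simp only [φ, Function.update_self]
      exact PAL_add_mid he (hf.1 0) _
    · rw [hφj f j hj]
      exact hf.1 j
  have hprod : ∀ f : Fin (K + 1) → F[X], ∏ j ∈ Finset.univ.filter (fun j : Fin (K + 1) => Even (j : ℕ)), (φ f j).eval 1 =
      u * ∏ j ∈ Finset.univ.filter (fun j : Fin (K + 1) => Even (j : ℕ)), (f j).eval 1 := by
    intro f
    have h0 : (0 : Fin (K + 1)) ∈ Finset.univ.filter (fun j : Fin (K + 1) => Even (j : ℕ)) := by
      rw [Finset.mem_filter]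
      exact ⟨Finset.mem_univ _, by simp⟩
    rw [← Finset.mul_prod_erase _ _ h0, ← Finset.mul_prod_erase _ (fun j => (f j).eval 1) h0, hφ0, mul_assoc]
    congr 2
    apply Finset.prod_congr rfl
    intro j hj
    rw [hφj f j (Finset.ne_of_mem_erase hj)]
  have hdisj : Disjoint (Fx F e) (φ '' Fx F e) := by
    rw [Set.disjoint_left]
    rintro g hg ⟨f, hf, rfl⟩
    have h1 := hg.2.2
    have h3 := hf.2.2
    have h4 : ∏ j ∈ Finset.univ.filter (fun j : Fin (K + 1) => Even (j : ℕ)), (f j).eval 1 ≠ 0 :=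
      Finset.prod_ne_zero_iff.2 fun j hj => hf.2.1 j (Finset.mem_filter.1 hj).2
    have h5 := hprod f
    rw [h5] at h1
    exact hu' (isSquare_of_mul_right h4 h3 h1)
  have hfin := PA_finite (F := F) e
  have hf1 : (Fx F e).Finite := hfin.subset (Fx_sub e)
  have h7 : (Fx F e).ncard + (φ '' Fx F e).ncard ≤ (PA F e).ncard := by
    rw [← Set.ncard_union_eq hdisj hf1 (hf1.image _)]
    apply Set.ncard_le_ncard _ hfin
    rintro f (hf | ⟨g, hg, rfl⟩)
    · exact Fx_sub e hf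
    · exact hPA g hg
  rw [Set.ncard_image_of_injective _ hinj] at h7
  have := PA_card (F := F) e
  omega

end codes

section emb

variable {F : Type u} [Field F] [Finite F] {V : Type*} [AddCommGroup V] [Module F V] [FiniteDimensional F V]
  {Q : QuadraticForm F V}

theorem SD_embedding (h2 : (2 : F) ≠ 0) (hodd : Odd (finrank F V)) {hQ : Nd Q} {hR : R Q = O Q} {K D : ℕ} (hKD : D ≤ K) {c : Prop} :
    ∃ φ : SD hQ hR K D c → Σ x : {x : Idx2 K D // Valid2 K D x}, Fx F (fun j => ((x.1 j).1 : ℕ)), Function.Injective φ := by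
  classical
  have hS := SD_sub hQ hR K D c
  let x : SD hQ hR K D c → Idx2 K D := fun d j => (⟨edeg d.1.1 d.1.2.1 d.1.2.2 j, edeg_le h2 hKD (hS d.2) j.2⟩,
    (decide (Even (j : ℕ) ∧ (d.1.1 j).1 = 1), decide (Even (j : ℕ) ∧ (d.1.2.1 j).1 = 1)))
  have hbit : ∀ (p : ℕ × Bool) (j : ℕ), Even j → (p = (0, true) ∨ p = (1, dl F c j)) → wt (encR p) = wb (decide (Even j ∧ p.1 = 1)) := by
    rintro p j hj (rfl | rfl)
    · simp [encR, wt, wb]
    · unfold encR wb
      cases dl F c j <;> simp [wt, hj]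
  have hbit' : ∀ (p p' : ℕ × Bool) (j : ℕ), Even j → (p = (0, true) ∨ p = (1, dl F c j)) → (p' = (0, true) ∨ p' = (1, dl F c j)) →
      decide (Even j ∧ p.1 = 1) = decide (Even j ∧ p'.1 = 1) → p = p' := by
    rintro p p' j hj (rfl | rfl) (rfl | rfl) h
    · rfl
    · simp [hj] at h
    · simp [hj] at h
    · rfl
  have hv : ∀ d : SD hQ hR K D c, Valid2 K D (x d) := by
    intro d
    have hrk := fun j (hj : j < K) (hev : Even j) => SD_rank h2 hodd d.2 hj hev
    obtain ⟨⟨X, hX, hdim, -, -, -⟩, -, -⟩ := d.2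
    have h1 := hX.dim_eq h2 (by omega)
    rw [hdim] at h1
    obtain ⟨P, M, Y, e, hP, hM, hY, hY'⟩ := hX
    refine ⟨?_, ?_⟩
    · unfold WR2
      rw [← Finset.sum_add_distrib]
      refine Eq.trans ?_ h1.symm
      rw [Finset.sum_range]
      apply Finset.sum_congr rfl
      intro j _
      show ((j : ℕ) + 1) * (2 * edeg d.1.1 d.1.2.1 d.1.2.2 j) + ((j : ℕ) + 1) * (wb (decide (Even (j : ℕ) ∧ (d.1.1 j).1 = 1)) +
        wb (decide (Even (j : ℕ) ∧ (d.1.2.1 j).1 = 1))) = _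
      by_cases hev : Even (j : ℕ)
      · obtain ⟨h3, h4⟩ := hrk j j.2 hev
        rw [← hbit _ j hev h3, ← hbit _ j hev h4]
        ring
      · rw [encR_alt h2 hP j.2 (odd_sign _ hev), encR_alt h2 hM j.2 (odd_sign _ hev)]
        simp only [hev, false_and, decide_false]
        simp [wt, wb]
    · intro j hj
      show (decide (Even (j : ℕ) ∧ (d.1.1 j).1 = 1), decide (Even (j : ℕ) ∧ (d.1.2.1 j).1 = 1)) = _
      simp [hj]
  have hp : ∀ (d : SD hQ hR K D c), (fun j : Fin K => fpol d.1.1 d.1.2.1 d.1.2.2 j) ∈ Fx F (fun j => (((x d) j).1 : ℕ)) := by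
    intro d
    obtain ⟨h3, h4⟩ := SD_square h2 hodd hKD d.2
    obtain ⟨⟨X, ⟨P, M, Y, e, hUP, hUM, hs, hY⟩, hdim, -, -, -⟩, -, -⟩ := d.2
    refine ⟨fun j => fpol_pal h2 hs hY _ _ j, fun j hj => h3 j j.2 hj, ?_⟩
    rw [Finset.prod_filter] at h4 ⊢
    rw [Finset.prod_range] at h4
    exact h4
  refine ⟨fun d => ⟨⟨x d, hv d⟩, ⟨fun j => fpol d.1.1 d.1.2.1 d.1.2.2 j, hp d⟩⟩, ?_⟩
  intro d d' h
  have hrk := fun j (hj : j < K) (hev : Even j) => SD_rank h2 hodd d.2 hj hev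
  have hrk' := fun j (hj : j < K) (hev : Even j) => SD_rank h2 hodd d'.2 hj hev
  obtain ⟨⟨X, hX, hdim, -, -, -⟩, h0, h0'⟩ := d.2
  obtain ⟨⟨X', hX', hdim', -, -, -⟩, h1, h1'⟩ := d'.2
  rw [Sigma.mk.injEq] at h
  obtain ⟨ha, hb⟩ := h
  have hx : x d = x d' := congrArg Subtype.val ha
  have hfj : ∀ j : Fin K, fpol d.1.1 d.1.2.1 d.1.2.2 j = fpol d'.1.1 d'.1.2.1 d'.1.2.2 j := by
    have gen : ∀ (y y' : {x : Idx2 K D // Valid2 K D x}) (g : Fx F (fun j => ((y.1 j).1 : ℕ)))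
        (g' : Fx F (fun j => ((y'.1 j).1 : ℕ))), y = y' → HEq g g' → (g : Fin K → F[X]) = g' := by
      rintro y y' g g' rfl hg
      rw [eq_of_heq hg]
    intro j
    exact congrFun (gen _ _ _ _ ha hb) j
  have hR1 : ∀ j < K, encR (d.1.1 j) = encR (d'.1.1 j) ∧ encR (d.1.2.1 j) = encR (d'.1.2.1 j) := by
    intro j hj
    by_cases hev : Even j
    · have hxj := congrFun hx ⟨j, hj⟩
      have e1 : decide (Even j ∧ (d.1.1 j).1 = 1) = decide (Even j ∧ (d'.1.1 j).1 = 1) := congrArg (fun z => z.2.1) hxj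
      have e2 : decide (Even j ∧ (d.1.2.1 j).1 = 1) = decide (Even j ∧ (d'.1.2.1 j).1 = 1) := congrArg (fun z => z.2.2) hxj
      rw [hbit' _ _ j hev (hrk j hj hev).1 (hrk' j hj hev).1 e1, hbit' _ _ j hev (hrk j hj hev).2 (hrk' j hj hev).2 e2]
      exact ⟨rfl, rfl⟩
    · obtain ⟨P, M, Y, e, hP, hM, hY, hY'⟩ := hX
      obtain ⟨P', M', Y', e', hP', hM', hY2, hY2'⟩ := hX'
      rw [encR_alt h2 hP hj (odd_sign _ hev), encR_alt h2 hM hj (odd_sign _ hev), encR_alt h2 hP' hj (odd_sign _ hev),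
        encR_alt h2 hM' hj (odd_sign _ hev)]
      exact ⟨rfl, rfl⟩
  obtain ⟨c1, c2, c3⟩ := code_inj h2 hX hX' (by omega) (by omega) (fun j hj => hfj ⟨j, hj⟩)
    (fun j hj => (hR1 j hj).1) (fun j hj => (hR1 j hj).2)
  apply Subtype.ext
  refine Prod.ext ?_ (Prod.ext ?_ c3)
  · funext j
    rcases Nat.lt_or_ge j K with hj | hj
    · exact c1 j hj
    · rw [h0 j hj, h1 j hj]
  · funext j
    rcases Nat.lt_or_ge j K with hj | hj
    · exact c2 j hj
    · rw [h0' j hj, h1' j hj]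

open Classical in
theorem SD_card (h2 : (2 : F) ≠ 0) (hodd : Odd (finrank F V)) {hQ : Nd Q} {hR : R Q = O Q} {K D : ℕ} (hKD : D ≤ K) {c : Prop} :
    (SD hQ hR K D c).ncard ≤ ∑ x : Idx2 K D with Valid2 K D x, (Fx F (fun j => ((x j).1 : ℕ))).ncard := by
  obtain ⟨φ, hφ⟩ := SD_embedding (Q := Q) h2 hodd (hQ := hQ) (hR := hR) hKD (c := c)
  have hfin : ∀ e : Fin K → ℕ, Finite (Fx F e) := fun e => (PA_finite e).subset (Fx_sub e)
  rw [← Nat.card_coe_set_eq]
  refine (Nat.card_le_card_of_injective φ hφ).trans ?_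
  rw [Nat.card_sigma, ← Finset.sum_subtype_eq_sum_filter, Finset.subtype_univ]
  apply Finset.sum_le_sum
  intro x _
  rw [Nat.card_coe_set_eq]

end emb

end Cfsg.Agent.Lib.IsoSp
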