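import Cfsg.Agent.Lib.IsoSpG6
import Cfsg.Agent.Lib.IsoSpD3
set_option autoImplicit false

/-!
# Estimates for the number of data with small centralizer (helper45)
-/

namespace Cfsg.Agent.Lib.IsoSp

/-- weight of the first exponent -/
noncomputable def We (e : ℕ) : ℝ := if e = 0 then 1 else 1 / 2

theorem We_nonneg (e : ℕ) : 0 ≤ We e := by
  unfold We; split_ifs <;> norm_num

open Classical in
/-- generating function of the rests -/
noncomputable def RS2 (K D : ℕ) (v : ℝ) : ℝ :=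
  ∑ ρ : Fin K → Bool × Bool with AllE ρ ∧ WR2 ρ % 2 = D % 2, v ^ (WR2 ρ)

theorem geo_bound {x : ℝ} (hx : 0 ≤ x) (hx2 : x ≤ 1 / 2) (M : ℕ) :
    ∑ k ∈ Finset.range (M + 1), (if k = M then 1 else 1 / 2) * x ^ k ≤ 1 := by
  have h1 : ∀ M, ∑ k ∈ Finset.range (M + 1), (if k = M then (1 : ℝ) else 1 / 2) * x ^ k = (∑ k ∈ Finset.range M, x ^ k / 2) + x ^ M := by
    intro M
    rw [Finset.sum_range_succ, if_pos rfl, one_mul]
    congr 1
    apply Finset.sum_congr rfl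
    intro k hk
    rw [Finset.mem_range] at hk
    rw [if_neg (by omega)]
    ring
  rw [h1]
  induction M with
  | zero => simp
  | succ M ih =>
    rw [Finset.sum_range_succ, pow_succ]
    have : 0 ≤ x ^ M := by positivity
    nlinarith

open Classical in
theorem fiber_bound {K D : ℕ} {x : ℝ} (hx : 0 ≤ x) (hx2 : x ≤ 1 / 2) (S : Finset (Idx2 (K + 2) D))
    (hS : ∀ a ∈ S, Valid2 (K + 2) D a) (y : (Fin K → Fin (D + 1)) × (Fin (K + 2) → Bool × Bool)) :
    ∑ a ∈ S with ((fun j : Fin K => (a j.succ.succ).1, fun j => (a j).2) : (Fin K → Fin (D + 1)) × (Fin (K + 2) → Bool × Bool)) = y,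
      We ((a 0).1 : ℕ) * x ^ ((a 1).1 : ℕ) ≤ 1 := by
  -- total of the rest
  let R : ℕ := (∑ j : Fin K, ((j : ℕ) + 3) * (2 * (y.1 j : ℕ))) + WR2 y.2
  have hdim : ∀ a ∈ S.filter (fun a => ((fun j : Fin K => (a j.succ.succ).1, fun j => (a j).2) :
      (Fin K → Fin (D + 1)) × (Fin (K + 2) → Bool × Bool)) = y), 2 * ((a 0).1 : ℕ) + 4 * ((a 1).1 : ℕ) + R = D := by
    intro a ha
    obtain ⟨ha1, ha2⟩ := Finset.mem_filter.1 ha
    have h1 := (hS a ha1).1
    rw [Fin.sum_univ_succ, Fin.sum_univ_succ] at h1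
    have h2 : ∀ j : Fin K, (a j.succ.succ).1 = y.1 j := fun j => congrFun (congrArg Prod.fst ha2) j
    have h3 : (fun j => (a j).2) = y.2 := congrArg Prod.snd ha2
    rw [h3] at h1
    have h4 : ∑ i : Fin K, (((i.succ.succ : Fin (K + 2)) : ℕ) + 1) * (2 * ((a i.succ.succ).1 : ℕ)) =
        ∑ j : Fin K, ((j : ℕ) + 3) * (2 * (y.1 j : ℕ)) := by
      apply Finset.sum_congr rfl
      intro i _
      rw [h2 i, Fin.val_succ, Fin.val_succ]
    rw [h4] at h1
    have e1 : (Fin.succ (0 : Fin (K + 1)) : Fin (K + 2)) = 1 := rfl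
    rw [e1] at h1
    simp only [Fin.val_zero, Fin.val_one, zero_add, one_mul] at h1
    show 2 * ((a 0).1 : ℕ) + 4 * ((a 1).1 : ℕ) + ((∑ j : Fin K, ((j : ℕ) + 3) * (2 * (y.1 j : ℕ))) + WR2 y.2) = D
    omega
  set T := S.filter (fun a => ((fun j : Fin K => (a j.succ.succ).1, fun j => (a j).2) :
      (Fin K → Fin (D + 1)) × (Fin (K + 2) → Bool × Bool)) = y) with hT
  have hinj : Set.InjOn (fun a : Idx2 (K + 2) D => ((a 1).1 : ℕ)) T := by
    intro a ha b hb hab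
    have ha' := hdim a ha
    have hb' := hdim b hb
    have hab' : ((a 1).1 : ℕ) = ((b 1).1 : ℕ) := hab
    obtain ⟨-, ha2⟩ := Finset.mem_filter.1 ha
    obtain ⟨-, hb2⟩ := Finset.mem_filter.1 hb
    have h3 : (fun j => (a j).2) = (fun j => (b j).2) := (congrArg Prod.snd ha2).trans (congrArg Prod.snd hb2).symm
    have h2 : ∀ j : Fin K, (a j.succ.succ).1 = (b j.succ.succ).1 := fun j =>
      (congrFun (congrArg Prod.fst ha2) j).trans (congrFun (congrArg Prod.fst hb2) j).symm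
    funext j
    refine Prod.ext ?_ (congrFun h3 j)
    induction j using Fin.cases with
    | zero => apply Fin.ext; omega
    | succ j =>
      induction j using Fin.cases with
      | zero => exact Fin.ext hab'
      | succ j => exact h2 j
  rcases Nat.lt_or_ge D R with hDR | hDR
  · have : T = ∅ := by
      rw [Finset.eq_empty_iff_forall_notMem]
      intro a ha
      have := hdim a ha
      omega
    rw [this, Finset.sum_empty]
    norm_num
  have hterm : ∀ a ∈ T, We ((a 0).1 : ℕ) * x ^ ((a 1).1 : ℕ) ≤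
      (fun k : ℕ => (if k = (D - R) / 4 then (1 : ℝ) else 1 / 2) * x ^ k) ((a 1).1 : ℕ) := by
    intro a ha
    have h1 := hdim a ha
    show _ ≤ (if ((a 1).1 : ℕ) = (D - R) / 4 then (1 : ℝ) else 1 / 2) * x ^ ((a 1).1 : ℕ)
    apply mul_le_mul_of_nonneg_right _ (by positivity)
    unfold We
    by_cases h0 : ((a 0).1 : ℕ) = 0
    · rw [if_pos h0, if_pos (by omega)]
    · rw [if_neg h0]
      split_ifs <;> norm_num
  refine (Finset.sum_le_sum hterm).trans ?_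
  rw [← Finset.sum_image (f := fun k : ℕ => (if k = (D - R) / 4 then (1 : ℝ) else 1 / 2) * x ^ k) hinj]
  refine le_trans ?_ (geo_bound hx hx2 ((D - R) / 4))
  apply Finset.sum_le_sum_of_subset_of_nonneg
  · intro k hk
    obtain ⟨a, ha, rfl⟩ := Finset.mem_image.1 hk
    have h1 := hdim a ha
    rw [Finset.mem_range]
    omega
  · intro k _ _
    have h1 : (0 : ℝ) ≤ if k = (D - R) / 4 then (1 : ℝ) else 1 / 2 := by split_ifs <;> norm_num
    positivity

open Classical in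
theorem codes_bound2 (K D q : ℕ) {v : ℝ} (hv0 : 0 < v) (hv1 : v < 1) (hvq : v ^ 2 * q = 1) (hv2 : v ^ 2 ≤ 1 / 2) :
    v ^ D * ∑ x : Idx2 (K + 2) D with Valid2 (K + 2) D x, (We ((x 0).1 : ℕ) * ∏ j : Fin (K + 2), (q : ℝ) ^ ((x j).1 : ℕ)) ≤
      (∏ j : Fin K, (1 - (v ^ 2) ^ ((j : ℕ) + 2))⁻¹) * RS2 (K + 2) D v := by
  rw [Finset.mul_sum]
  have hterm : ∀ x : Idx2 (K + 2) D, Valid2 (K + 2) D x → v ^ D * (We ((x 0).1 : ℕ) * ∏ j : Fin (K + 2), (q : ℝ) ^ ((x j).1 : ℕ)) =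
      ((∏ j : Fin K, ((v ^ 2) ^ ((j : ℕ) + 2)) ^ ((x j.succ.succ).1 : ℕ)) * v ^ (WR2 fun j => (x j).2)) *
        (We ((x 0).1 : ℕ) * (v ^ 2) ^ ((x 1).1 : ℕ)) := by
    intro x hx
    have h1 : v ^ D = (∏ j : Fin (K + 2), v ^ (((j : ℕ) + 1) * (2 * ((x j).1 : ℕ)))) * v ^ (WR2 fun j => (x j).2) := by
      rw [Finset.prod_pow_eq_pow_sum, ← pow_add, hx.1]
    have h2 : ∀ j : Fin (K + 2), v ^ (((j : ℕ) + 1) * (2 * ((x j).1 : ℕ))) * (q : ℝ) ^ ((x j).1 : ℕ) =
        ((v ^ 2) ^ (j : ℕ)) ^ ((x j).1 : ℕ) := by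
      intro j
      have e1 : v ^ (((j : ℕ) + 1) * (2 * ((x j).1 : ℕ))) = ((v ^ 2) ^ (j : ℕ)) ^ ((x j).1 : ℕ) * (v ^ 2) ^ ((x j).1 : ℕ) := by
        rw [← pow_mul, ← pow_mul, ← pow_mul, ← pow_add]
        congr 1
        ring
      rw [e1, mul_assoc, ← mul_pow, hvq, one_pow, mul_one]
    have h3 : (∏ j : Fin (K + 2), v ^ (((j : ℕ) + 1) * (2 * ((x j).1 : ℕ)))) * ∏ j : Fin (K + 2), (q : ℝ) ^ ((x j).1 : ℕ) =
        (v ^ 2) ^ ((x 1).1 : ℕ) * ∏ j : Fin K, ((v ^ 2) ^ ((j : ℕ) + 2)) ^ ((x j.succ.succ).1 : ℕ) := by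
      rw [← Finset.prod_mul_distrib, Finset.prod_congr rfl fun j _ => h2 j, Fin.prod_univ_succ, Fin.prod_univ_succ]
      have e1 : (Fin.succ (0 : Fin (K + 1)) : Fin (K + 2)) = 1 := rfl
      rw [e1]
      simp only [Fin.val_zero, Fin.val_one, pow_zero, one_pow, one_mul, pow_one]
      congr 1
    rw [h1]
    calc _ = ((∏ j : Fin (K + 2), v ^ (((j : ℕ) + 1) * (2 * ((x j).1 : ℕ)))) * ∏ j : Fin (K + 2), (q : ℝ) ^ ((x j).1 : ℕ)) *
          (v ^ (WR2 fun j => (x j).2) * We ((x 0).1 : ℕ)) := by ring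
      _ = _ := by rw [h3]; ring
  rw [Finset.sum_congr rfl (fun x hx => hterm x (Finset.mem_filter.1 hx).2)]
  let Φ : Idx2 (K + 2) D → (Fin K → Fin (D + 1)) × (Fin (K + 2) → Bool × Bool) := fun x =>
    (fun j => (x j.succ.succ).1, fun j => (x j).2)
  set T : Finset ((Fin K → Fin (D + 1)) × (Fin (K + 2) → Bool × Bool)) := (Finset.univ : Finset (Fin K → Fin (D + 1))) ×ˢ
          (Finset.univ.filter fun ρ : Fin (K + 2) → Bool × Bool => AllE ρ ∧ WR2 ρ % 2 = D % 2) with hT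
  have hmaps : ∀ x ∈ Finset.univ.filter (fun x : Idx2 (K + 2) D => Valid2 (K + 2) D x), Φ x ∈ T := by
    intro x hx
    obtain ⟨-, hx⟩ := Finset.mem_filter.1 hx
    rw [hT, Finset.mem_product]
    refine ⟨Finset.mem_univ _, Finset.mem_filter.2 ⟨Finset.mem_univ _, hx.2, ?_⟩⟩
    show WR2 (fun j => (x j).2) % 2 = D % 2
    have h1 := hx.1
    have h2 : ∑ j : Fin (K + 2), ((j : ℕ) + 1) * (2 * ((x j).1 : ℕ)) = 2 * ∑ j : Fin (K + 2), ((j : ℕ) + 1) * ((x j).1 : ℕ) := by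
      rw [Finset.mul_sum]
      apply Finset.sum_congr rfl
      intro j _
      ring
    omega
  rw [← Finset.sum_fiberwise_of_maps_to hmaps]
  have hfib : ∀ y ∈ T, ∑ x ∈ (Finset.univ.filter (fun x : Idx2 (K + 2) D => Valid2 (K + 2) D x)) with Φ x = y,
      ((∏ j : Fin K, ((v ^ 2) ^ ((j : ℕ) + 2)) ^ ((x j.succ.succ).1 : ℕ)) * v ^ (WR2 fun j => (x j).2)) *
        (We ((x 0).1 : ℕ) * (v ^ 2) ^ ((x 1).1 : ℕ)) ≤ (∏ j : Fin K, ((v ^ 2) ^ ((j : ℕ) + 2)) ^ (y.1 j : ℕ)) * v ^ (WR2 y.2) := by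
    intro y _
    have h1 : ∀ x ∈ ((Finset.univ.filter (fun x : Idx2 (K + 2) D => Valid2 (K + 2) D x)).filter fun x => Φ x = y),
        ((∏ j : Fin K, ((v ^ 2) ^ ((j : ℕ) + 2)) ^ ((x j.succ.succ).1 : ℕ)) * v ^ (WR2 fun j => (x j).2)) *
        (We ((x 0).1 : ℕ) * (v ^ 2) ^ ((x 1).1 : ℕ)) = ((∏ j : Fin K, ((v ^ 2) ^ ((j : ℕ) + 2)) ^ (y.1 j : ℕ)) * v ^ (WR2 y.2)) *
        (We ((x 0).1 : ℕ) * (v ^ 2) ^ ((x 1).1 : ℕ)) := by
      intro x hx
      obtain ⟨-, hx⟩ := Finset.mem_filter.1 hx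
      have e1 : ∀ j : Fin K, (x j.succ.succ).1 = y.1 j := fun j => congrFun (congrArg Prod.fst hx) j
      have e2 : (fun j => (x j).2) = y.2 := congrArg Prod.snd hx
      rw [e2, Finset.prod_congr rfl fun j _ => by rw [e1 j]]
    rw [Finset.sum_congr rfl h1, ← Finset.mul_sum]
    have h2 := fiber_bound (K := K) (D := D) (x := v ^ 2) (by positivity) hv2
      (Finset.univ.filter (fun x : Idx2 (K + 2) D => Valid2 (K + 2) D x)) (fun a ha => (Finset.mem_filter.1 ha).2) y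
    have h3 : 0 ≤ (∏ j : Fin K, ((v ^ 2) ^ ((j : ℕ) + 2)) ^ (y.1 j : ℕ)) * v ^ (WR2 y.2) := by positivity
    calc _ ≤ ((∏ j : Fin K, ((v ^ 2) ^ ((j : ℕ) + 2)) ^ (y.1 j : ℕ)) * v ^ (WR2 y.2)) * 1 := mul_le_mul_of_nonneg_left h2 h3
      _ = _ := mul_one _
  refine (Finset.sum_le_sum hfib).trans ?_
  rw [hT, Finset.sum_product]
  simp only
  rw [← Finset.sum_mul_sum]
  apply mul_le_mul_of_nonneg_right _ (Finset.sum_nonneg fun _ _ => by positivity)
  have h1 := Finset.prod_univ_sum (fun _ : Fin K => (Finset.univ : Finset (Fin (D + 1))))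
    (fun j e => ((v ^ 2) ^ ((j : ℕ) + 2)) ^ (e : ℕ))
  rw [Fintype.piFinset_univ] at h1
  rw [← h1]
  apply Finset.prod_le_prod
  · intro j _
    exact Finset.sum_nonneg fun _ _ => by positivity
  · intro j _
    have ha0 : 0 ≤ (v ^ 2) ^ ((j : ℕ) + 2) := by positivity
    have ha1 : (v ^ 2) ^ ((j : ℕ) + 2) < 1 := pow_lt_one₀ (by positivity) (by linarith) (by omega)
    rw [Fin.sum_univ_eq_sum_range (fun e => ((v ^ 2) ^ ((j : ℕ) + 2)) ^ e)]
    rw [geom_sum_eq ha1.ne, ← neg_div_neg_eq, neg_sub, neg_sub, inv_eq_one_div]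
    apply div_le_div_of_nonneg_right _ (by linarith)
    have : 0 ≤ ((v ^ 2) ^ ((j : ℕ) + 2)) ^ (D + 1) := by positivity
    linarith

/-- the local factor -/
noncomputable def fac2 (z : ℝ) (j : ℕ) : ℝ := if Even j then (1 + z ^ (j + 1)) ^ 2 else 1

theorem fac2_nonneg (z : ℝ) (j : ℕ) : 0 ≤ fac2 z j := by
  unfold fac2
  split_ifs
  · positivity
  · exact zero_le_one

open Classical in
theorem sum_rests2 (K : ℕ) (z : ℝ) :
    ∑ ρ : Fin K → Bool × Bool with AllE ρ, z ^ (WR2 ρ) = ∏ j : Fin K, fac2 z j := by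
  let t : Fin K → Finset (Bool × Bool) := fun j => if Even (j : ℕ) then Finset.univ else {(false, false)}
  have h1 : (Finset.univ.filter fun ρ : Fin K → Bool × Bool => AllE ρ) = Fintype.piFinset t := by
    ext ρ
    rw [Finset.mem_filter, Fintype.mem_piFinset]
    constructor
    · rintro ⟨-, h⟩ j
      show ρ j ∈ (if Even (j : ℕ) then Finset.univ else {(false, false)})
      by_cases hj : Even (j : ℕ)
      · rw [if_pos hj]; exact Finset.mem_univ _
      · rw [if_neg hj, Finset.mem_singleton]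
        exact h j hj
    · intro h
      refine ⟨Finset.mem_univ _, fun j hj => ?_⟩
      have h3 : ρ j ∈ (if Even (j : ℕ) then Finset.univ else {(false, false)} : Finset (Bool × Bool)) := h j
      rw [if_neg hj, Finset.mem_singleton] at h3
      exact h3
  rw [h1]
  have h2 := Finset.prod_univ_sum t (fun j (r : Bool × Bool) => z ^ (((j : ℕ) + 1) * (wb r.1 + wb r.2)))
  have h3 : ∀ ρ : Fin K → Bool × Bool, z ^ (WR2 ρ) = ∏ j : Fin K, z ^ (((j : ℕ) + 1) * (wb (ρ j).1 + wb (ρ j).2)) := by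
    intro ρ
    rw [Finset.prod_pow_eq_pow_sum]
    rfl
  rw [Finset.sum_congr rfl (fun ρ _ => h3 ρ), ← h2]
  apply Finset.prod_congr rfl
  intro j _
  unfold fac2
  show ∑ r ∈ (if Even (j : ℕ) then Finset.univ else {(false, false)} : Finset (Bool × Bool)), _ = _
  by_cases hj : Even (j : ℕ)
  · rw [if_pos hj, if_pos hj, Fintype.sum_prod_type]
    simp only [Fintype.sum_bool]
    simp only [wb, if_true, Bool.false_eq_true, if_false]
    ring
  · rw [if_neg hj, if_neg hj, Finset.sum_singleton]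
    simp [wb]

theorem RS2_le {K D : ℕ} (hD : Odd D) {v : ℝ} : RS2 K D v ≤ (∏ j : Fin K, fac2 v j) / 2 := by
  classical
  have h1 : RS2 K D v = ((∏ j : Fin K, fac2 v j) + (-1) ^ D * ∏ j : Fin K, fac2 (-v) j) / 2 := by
    rw [← sum_rests2, ← sum_rests2, RS2, Finset.mul_sum, ← Finset.sum_add_distrib, Finset.sum_div, ← Finset.filter_filter, Finset.sum_filter]
    apply Finset.sum_congr rfl
    intro ρ _
    rw [neg_pow v, ← mul_assoc, ← pow_add]
    split_ifs with h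
    · have : Even (D + WR2 ρ) := by rw [Nat.even_iff]; omega
      rw [this.neg_one_pow]
      ring
    · have : Odd (D + WR2 ρ) := by rw [Nat.odd_iff]; omega
      rw [this.neg_one_pow]
      ring
  rw [h1, hD.neg_one_pow]
  have h2 : 0 ≤ ∏ j : Fin K, fac2 (-v) j := Finset.prod_nonneg fun j _ => fac2_nonneg _ _
  linarith

/-- scaling for odd dimension -/
theorem RS2_scale {K D : ℕ} (hD : Odd D) {v w : ℝ} (hv : 0 < v) (hvw : v ≤ w) : RS2 K D v ≤ v / w * RS2 K D w := by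
  classical
  have hw : 0 < w := by linarith
  unfold RS2
  rw [Finset.mul_sum]
  apply Finset.sum_le_sum
  intro ρ hρ
  obtain ⟨-, -, h1⟩ := Finset.mem_filter.1 hρ
  obtain ⟨m, hm⟩ : ∃ m, WR2 ρ = m + 1 := ⟨WR2 ρ - 1, by rw [Nat.odd_iff] at hD; omega⟩
  rw [hm, pow_succ, pow_succ]
  have h2 : v ^ m ≤ w ^ m := pow_le_pow_left₀ hv.le hvw m
  calc v ^ m * v ≤ w ^ m * v := mul_le_mul_of_nonneg_right h2 hv.le
    _ = v / w * (w ^ m * w) := by field_simp

theorem RS_scale (A : ℕ → Prop) {K D : ℕ} (hD : Odd D) {v w : ℝ} (hv : 0 < v) (hvw : v ≤ w) : RS A K D v ≤ v / w * RS A K D w := by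
  classical
  have hw : 0 < w := by linarith
  unfold RS
  rw [Finset.mul_sum]
  apply Finset.sum_le_sum
  intro ρ hρ
  obtain ⟨-, -, h1⟩ := Finset.mem_filter.1 hρ
  obtain ⟨m, hm⟩ : ∃ m, WR ρ = m + 1 := ⟨WR ρ - 1, by rw [Nat.odd_iff] at hD; omega⟩
  rw [hm, pow_succ, pow_succ]
  have h2 : v ^ m ≤ w ^ m := pow_le_pow_left₀ hv.le hvw m
  calc v ^ m * v ≤ w ^ m * v := mul_le_mul_of_nonneg_right h2 hv.le
    _ = v / w * (w ^ m * w) := by field_simp

theorem prod_fac2 (z : ℝ) (n : ℕ) :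
    ∏ j ∈ Finset.range (2 * n), fac2 z j = ∏ i ∈ Finset.range n, (1 + z * (z ^ 2) ^ i) ^ 2 := by
  induction n with
  | zero => rfl
  | succ n ih =>
    rw [show 2 * (n + 1) = 2 * n + 1 + 1 by ring, Finset.prod_range_succ, Finset.prod_range_succ, ih,
      Finset.prod_range_succ]
    have h1 : fac2 z (2 * n + 1) = 1 := by
      unfold fac2
      rw [if_neg (by rw [Nat.not_even_iff_odd]; exact ⟨n, rfl⟩)]
    have h3 : fac2 z (2 * n) = (1 + z * (z ^ 2) ^ n) ^ 2 := by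
      unfold fac2
      rw [if_pos (even_two_mul n), ← pow_mul, pow_succ' z]
    rw [h1, h3, mul_one]

theorem RS2_num (n : ℕ) {D : ℕ} (hD : Odd D) : RS2 (2 * n) D (Real.sqrt (1 / 3)) ≤ (52 / 25) ^ 2 / 2 := by
  refine (RS2_le hD).trans ?_
  obtain ⟨h1, h2⟩ := sqrt_third
  set w := Real.sqrt (1 / 3) with hw
  have hw2 : w ^ 2 = 1 / 3 := Real.sq_sqrt (by norm_num)
  have hw0 : 0 ≤ w := Real.sqrt_nonneg _
  rw [Fin.prod_univ_eq_prod_range (fun j => fac2 w j), prod_fac2]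
  have e1 : ∏ i ∈ Finset.range n, (1 + w * (w ^ 2) ^ i) ^ 2 ≤ (52 / 25) ^ 2 := by
    rw [Finset.prod_pow]
    apply pow_le_pow_left₀ (Finset.prod_nonneg fun i _ => by positivity)
    refine le_trans ?_ (prodE n)
    apply Finset.prod_le_prod (fun i _ => by positivity)
    intro i _
    rw [hw2]
    have : (0 : ℝ) < (1 / 3) ^ i := by positivity
    nlinarith
  linarith

theorem RS_num (n : ℕ) {D : ℕ} (hD : Odd D) : RS Even (2 * n) D (Real.sqrt (1 / 3)) ≤ (52 / 25) ^ 4 / 2 := by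
  obtain ⟨h1, h2⟩ := sqrt_third
  set w := Real.sqrt (1 / 3) with hw
  have hw2 : w ^ 2 = 1 / 3 := Real.sq_sqrt (by norm_num)
  have hw0 : 0 ≤ w := Real.sqrt_nonneg _
  rw [RS_eq, Fin.prod_univ_eq_prod_range (fun j => fac Even w j), Fin.prod_univ_eq_prod_range (fun j => fac Even (-w) j),
    prod_fac_even, prod_fac_even, hD.neg_one_pow]
  have e1 : ∏ i ∈ Finset.range n, (1 + w * (w ^ 2) ^ i) ^ 4 ≤ (52 / 25) ^ 4 := by
    rw [Finset.prod_pow]
    apply pow_le_pow_left₀ (Finset.prod_nonneg fun i _ => by positivity)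
    refine le_trans ?_ (prodE n)
    apply Finset.prod_le_prod (fun i _ => by positivity)
    intro i _
    rw [hw2]
    have : (0 : ℝ) < (1 / 3) ^ i := by positivity
    nlinarith
  have e2 : 0 ≤ ∏ i ∈ Finset.range n, (1 + -w * ((-w) ^ 2) ^ i) ^ 4 := Finset.prod_nonneg fun i _ => by positivity
  linarith

theorem prodH2 (L : ℕ) : ∏ i ∈ Finset.range L, (1 - (1 / 3 : ℝ) ^ (i + 2))⁻¹ ≤ 179 / 150 := by
  have h1 := prodH (L + 1)
  rw [Finset.prod_range_succ'] at h1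
  have h2 : (1 - (1 / 3 : ℝ) ^ (0 + 1))⁻¹ = 3 / 2 := by norm_num
  rw [h2] at h1
  linarith

end Cfsg.Agent.Lib.IsoSp
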