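import Cfsg.Agent.Lib.IsoSpG7
import Cfsg.Agent.Lib.IsoSpG1
import Cfsg.Agent.Lib.IsoSpE3
set_option autoImplicit false

/-!
# The class number of `Ω_{2n+1}(q)`, `q` odd (helper45)
-/

namespace Cfsg.Agent.Lib.IsoSp
open Module Polynomial QuadraticMap Quad

universe u

section real

variable {F : Type u} [Field F] [Finite F]

theorem v_facts (hq : 3 ≤ Nat.card F) : 0 < Real.sqrt (1 / (Nat.card F : ℝ)) ∧ Real.sqrt (1 / (Nat.card F : ℝ)) < 1 ∧
    Real.sqrt (1 / (Nat.card F : ℝ)) ^ 2 = 1 / (Nat.card F : ℝ) ∧ Real.sqrt (1 / (Nat.card F : ℝ)) ≤ Real.sqrt (1 / 3) ∧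
    (1 / (Nat.card F : ℝ)) ≤ 1 / 3 := by
  have hq0 : (0 : ℝ) < Nat.card F := by exact_mod_cast (by omega : 0 < Nat.card F)
  have hx3 : (1 / (Nat.card F : ℝ)) ≤ 1 / 3 := by
    apply one_div_le_one_div_of_le (by norm_num)
    exact_mod_cast hq
  have hv2 : Real.sqrt (1 / (Nat.card F : ℝ)) ^ 2 = 1 / (Nat.card F : ℝ) := Real.sq_sqrt (by positivity)
  have hvpos : 0 < Real.sqrt (1 / (Nat.card F : ℝ)) := Real.sqrt_pos.2 (by positivity)
  refine ⟨hvpos, ?_, hv2, Real.sqrt_le_sqrt hx3, hx3⟩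
  nlinarith

theorem DS_odd_bound (h2 : (2 : F) ≠ 0) (hq : 3 ≤ Nat.card F) (n : ℕ) :
    1000 * (DS F (1 : F) (2 * n + 2) (2 * n + 1)).ncard ≤ 29034 * Nat.card F ^ n ∧
    (DS F (1 : F) (2 * n + 2) (2 * n + 1) \ WS (2 * n + 2)).ncard = 0 := by
  classical
  obtain ⟨hvpos, hv1, hv2, hv3, hx3⟩ := v_facts (F := F) hq
  have h1 := DS_le (F := F) h2 (show 2 * n + 1 ≤ 2 * n + 2 by omega)
  have h3 := DS_WS_le (F := F) h2 (show 2 * n + 1 ≤ 2 * n + 2 by omega)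
  have h4 := count_real hq Even (2 * n + 1) (2 * n + 1) _ h1
  have h5 := count_real hq (fun _ => False) (2 * n + 1) (2 * n + 1) _ h3
  have hodd : Odd (2 * n + 1) := ⟨n, rfl⟩
  have hq0 : (0 : ℝ) < Nat.card F := by exact_mod_cast (by omega : 0 < Nat.card F)
  set v := Real.sqrt (1 / (Nat.card F : ℝ)) with hv
  have hvD : v ^ (2 * n + 1) = v / (Nat.card F : ℝ) ^ n := by
    rw [pow_succ, pow_mul, hv2, one_div, inv_pow]
    field_simp
  have hqn : (0 : ℝ) < (Nat.card F : ℝ) ^ n := by positivity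
  constructor
  · obtain ⟨hw1, hw2⟩ := sqrt_third
    have h6 := RS_scale Even (K := 2 * n + 1 + 1) hodd hvpos hv3
    have h7 := RS_num (n + 1) hodd
    rw [show 2 * (n + 1) = 2 * n + 1 + 1 by ring] at h7
    set w := Real.sqrt (1 / 3) with hw
    have hwpos : 0 < w := by linarith
    rw [hvD] at h4
    have h8 : v / (Nat.card F : ℝ) ^ n * ((DS F (1 : F) (2 * n + 2) (2 * n + 1)).ncard : ℝ) ≤ 179 / 100 * (v / w * ((52 / 25) ^ 4 / 2)) := by
      refine h4.trans ?_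
      have h9 : v / w * RS Even (2 * n + 1 + 1) (2 * n + 1) w ≤ v / w * ((52 / 25) ^ 4 / 2) :=
        mul_le_mul_of_nonneg_left h7 (by positivity)
      linarith
    have h9 : ((DS F (1 : F) (2 * n + 2) (2 * n + 1)).ncard : ℝ) ≤ 179 / 100 * ((52 / 25) ^ 4 / 2) / w * (Nat.card F : ℝ) ^ n := by
      have e1 : v / (Nat.card F : ℝ) ^ n * ((DS F (1 : F) (2 * n + 2) (2 * n + 1)).ncard : ℝ) =
          (v / (Nat.card F : ℝ) ^ n) * ((DS F (1 : F) (2 * n + 2) (2 * n + 1)).ncard : ℝ) := rfl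
      have e2 : 179 / 100 * (v / w * ((52 / 25) ^ 4 / 2)) =
          (v / (Nat.card F : ℝ) ^ n) * (179 / 100 * ((52 / 25) ^ 4 / 2) / w * (Nat.card F : ℝ) ^ n) := by
        field_simp
      rw [e2] at h8
      exact le_of_mul_le_mul_left h8 (by positivity)
    have h10 : 179 / 100 * ((52 / 25 : ℝ) ^ 4 / 2) / w ≤ 29034 / 1000 := by
      rw [div_le_iff₀ hwpos]
      norm_num at hw1 ⊢
      linarith
    have h11 : ((DS F (1 : F) (2 * n + 2) (2 * n + 1)).ncard : ℝ) ≤ 29034 / 1000 * (Nat.card F : ℝ) ^ n :=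
      h9.trans (mul_le_mul_of_nonneg_right h10 hqn.le)
    have h12 : (1000 : ℝ) * ((DS F (1 : F) (2 * n + 2) (2 * n + 1)).ncard : ℝ) ≤ 29034 * (Nat.card F : ℝ) ^ n := by linarith
    exact_mod_cast h12
  · rw [RS_false_odd _ hodd, mul_zero] at h5
    have h6 : 0 < v ^ (2 * n + 1) := by positivity
    have h7 : ((DS F (1 : F) (2 * n + 2) (2 * n + 1) \ WS (2 * n + 2)).ncard : ℝ) ≤ 0 := by
      by_contra hcon
      push Not at hcon
      have := mul_pos h6 hcon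
      linarith
    have h8 : (0 : ℝ) ≤ ((DS F (1 : F) (2 * n + 2) (2 * n + 1) \ WS (2 * n + 2)).ncard : ℝ) := Nat.cast_nonneg _
    exact_mod_cast le_antisymm h7 h8

theorem SD_bound {V : Type*} [AddCommGroup V] [Module F V] [FiniteDimensional F V] {Q : QuadraticForm F V}
    (h2 : (2 : F) ≠ 0) (hq : 3 ≤ Nat.card F) (n : ℕ) (hfr : finrank F V = 2 * n + 1) (hQ : Nd Q) (hR : R Q = O Q) (c : Prop) :
    1000 * (SD hQ hR (2 * n + 2) (2 * n + 1) c).ncard ≤ 4474 * Nat.card F ^ n := by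
  classical
  obtain ⟨hvpos, hv1, hv2, hv3, hx3⟩ := v_facts (F := F) hq
  have hodd : Odd (2 * n + 1) := ⟨n, rfl⟩
  have h1 := SD_card (Q := Q) h2 (hfr ▸ hodd) (hQ := hQ) (hR := hR) (show 2 * n + 1 ≤ 2 * n + 2 by omega) (c := c)
  have hq0 : (0 : ℝ) < Nat.card F := by exact_mod_cast (by omega : 0 < Nat.card F)
  have hW : ∀ x : Idx2 (2 * n + 2) (2 * n + 1), ((Fx F (fun j => ((x j).1 : ℕ))).ncard : ℝ) ≤
      We ((x 0).1 : ℕ) * ∏ j : Fin (2 * n + 2), (Nat.card F : ℝ) ^ ((x j).1 : ℕ) := by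
    intro x
    unfold We
    split_ifs with h0
    · rw [one_mul]
      have h3 : (Fx F (fun j => ((x j).1 : ℕ))).ncard ≤ ∏ j : Fin (2 * n + 2), Nat.card F ^ ((x j).1 : ℕ) :=
        (Set.ncard_le_ncard (Fx_sub _) (PA_finite _)).trans (PA_card _)
      exact_mod_cast h3
    · have h3 := Fx_card (F := F) h2 (K := 2 * n + 1) (fun j => ((x j).1 : ℕ)) (Nat.pos_of_ne_zero h0)
      have h4 : (2 : ℝ) * ((Fx F (fun j : Fin (2 * n + 2) => ((x j).1 : ℕ))).ncard : ℝ) ≤ ∏ j : Fin (2 * n + 2), (Nat.card F : ℝ) ^ ((x j).1 : ℕ) := by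
        exact_mod_cast h3
      linarith
  set v := Real.sqrt (1 / (Nat.card F : ℝ)) with hv
  have h3 := codes_bound2 (2 * n) (2 * n + 1) (Nat.card F) hvpos hv1 (by rw [hv2]; field_simp) (by rw [hv2]; linarith)
  have h4 : v ^ (2 * n + 1) * ((SD hQ hR (2 * n + 2) (2 * n + 1) c).ncard : ℝ) ≤
      (∏ j : Fin (2 * n), (1 - (v ^ 2) ^ ((j : ℕ) + 2))⁻¹) * RS2 (2 * n + 2) (2 * n + 1) v := by
    refine le_trans ?_ h3
    apply mul_le_mul_of_nonneg_left _ (by positivity)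
    have h5 : ((SD hQ hR (2 * n + 2) (2 * n + 1) c).ncard : ℝ) ≤
        ∑ x : Idx2 (2 * n + 2) (2 * n + 1) with Valid2 (2 * n + 2) (2 * n + 1) x, ((Fx F (fun j => ((x j).1 : ℕ))).ncard : ℝ) := by
      exact_mod_cast h1
    exact h5.trans (Finset.sum_le_sum fun x _ => hW x)
  obtain ⟨hw1, hw2⟩ := sqrt_third
  have h6 := RS2_scale (K := 2 * n + 2) hodd hvpos hv3
  have h7 := RS2_num (n + 1) hodd
  rw [show 2 * (n + 1) = 2 * n + 2 by ring] at h7
  set w := Real.sqrt (1 / 3) with hw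
  have hwpos : 0 < w := by linarith
  have hprod : (∏ j : Fin (2 * n), (1 - (v ^ 2) ^ ((j : ℕ) + 2))⁻¹) ≤ 179 / 150 := by
    rw [Fin.prod_univ_eq_prod_range (fun j => (1 - (v ^ 2) ^ (j + 2))⁻¹)]
    refine le_trans ?_ (prodH2 (2 * n))
    apply Finset.prod_le_prod
    · intro i _
      have : (v ^ 2) ^ (i + 2) < 1 := pow_lt_one₀ (by positivity) (by rw [hv2]; linarith) (by omega)
      exact inv_nonneg.2 (by linarith)
    · intro i _
      have h1 : (1 / 3 : ℝ) ^ (i + 2) < 1 := pow_lt_one₀ (by norm_num) (by norm_num) (by omega)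
      have h2 : (v ^ 2) ^ (i + 2) ≤ (1 / 3 : ℝ) ^ (i + 2) := by
        rw [hv2]
        exact pow_le_pow_left₀ (by positivity) hx3 _
      exact inv_anti₀ (by linarith) (by linarith)
  have hRSn : 0 ≤ RS2 (2 * n + 2) (2 * n + 1) v := Finset.sum_nonneg fun _ _ => by positivity
  have hvD : v ^ (2 * n + 1) = v / (Nat.card F : ℝ) ^ n := by
    rw [pow_succ, pow_mul, hv2, one_div, inv_pow]
    field_simp
  have hqn : (0 : ℝ) < (Nat.card F : ℝ) ^ n := by positivity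
  rw [hvD] at h4
  have h8 : v / (Nat.card F : ℝ) ^ n * ((SD hQ hR (2 * n + 2) (2 * n + 1) c).ncard : ℝ) ≤ 179 / 150 * (v / w * ((52 / 25) ^ 2 / 2)) := by
    refine h4.trans ((mul_le_mul_of_nonneg_right hprod hRSn).trans ?_)
    apply mul_le_mul_of_nonneg_left _ (by norm_num)
    exact h6.trans (mul_le_mul_of_nonneg_left h7 (by positivity))
  have e2 : 179 / 150 * (v / w * ((52 / 25) ^ 2 / 2)) =
      (v / (Nat.card F : ℝ) ^ n) * (179 / 150 * ((52 / 25) ^ 2 / 2) / w * (Nat.card F : ℝ) ^ n) := by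
    field_simp
  rw [e2] at h8
  have h9 := le_of_mul_le_mul_left h8 (by positivity)
  have h10 : 179 / 150 * ((52 / 25 : ℝ) ^ 2 / 2) / w ≤ 4474 / 1000 := by
    rw [div_le_iff₀ hwpos]
    norm_num at hw1 ⊢
    linarith
  have h11 : ((SD hQ hR (2 * n + 2) (2 * n + 1) c).ncard : ℝ) ≤ 4474 / 1000 * (Nat.card F : ℝ) ^ n :=
    h9.trans (mul_le_mul_of_nonneg_right h10 hqn.le)
  have h12 : (1000 : ℝ) * ((SD hQ hR (2 * n + 2) (2 * n + 1) c).ncard : ℝ) ≤ 4474 * (Nat.card F : ℝ) ^ n := by linarith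
  exact_mod_cast h12

end real

end Cfsg.Agent.Lib.IsoSp
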