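import Cfsg.Agent.Lib.IsoSpG8
set_option autoImplicit false

/-!
# The class number of `Ω_{2n+1}(q)`, `q` odd: conclusion (helper45)
-/

namespace Cfsg.Agent.Lib.IsoSp
open Module Polynomial QuadraticMap Quad

universe u

variable {ι : Type} [Fintype ι] [DecidableEq ι] {F : Type u} [Field F] [Finite F] {Q : QuadraticForm F (ι → F)}

theorem finite_iso (Q : QuadraticForm F (ι → F)) : Finite ↥(Cfsg.isometryGroup F ⇑Q) := by
  haveI : Finite (Matrix.GeneralLinearGroup ι F) := by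
    haveI : Finite (Matrix ι ι F) := inferInstanceAs (Finite (ι → ι → F))
    infer_instance
  infer_instance

/-- the isometry group as a subgroup of linear automorphisms -/
noncomputable def toO (Q : QuadraticForm F (ι → F)) : ↥(Cfsg.isometryGroup F ⇑Q) →* ↥(O Q) where
  toFun g := ⟨toLE (g : Matrix.GeneralLinearGroup ι F), mem_isometryGroup_iff_toLE.1 g.2⟩
  map_one' := Subtype.ext (map_one _)
  map_mul' _ _ := Subtype.ext (map_mul _ _ _)

theorem toO_coe (g : ↥(Cfsg.isometryGroup F ⇑Q)) : ((toO Q g : ↥(O Q)) : (ι → F) ≃ₗ[F] (ι → F)) = toLE (g : Matrix.GeneralLinearGroup ι F) := rfl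

theorem toO_inj : Function.Injective (toO Q) := by
  intro g h hgh
  apply Subtype.ext
  exact toLE.injective (congrArg Subtype.val hgh)

theorem toO_surj : Function.Surjective (toO Q) := by
  intro g
  refine ⟨ofO g.2, ?_⟩
  apply Subtype.ext
  exact toLE_ofO g.2

/-- fewer classes than data -/
theorem classes_le (h2 : (2 : F) ≠ 0) (hq : 3 ≤ Nat.card F) (hQ : Nd Q) {n : ℕ} (hι : Fintype.card ι = 2 * n + 1) :
    2000 * Nat.card (ConjClasses ↥(Cfsg.isometryGroup F ⇑Q)) ≤ 29034 * Nat.card F ^ n := by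
  have h1 : 2 * Nat.card (ConjClasses ↥(Cfsg.isometryGroup F ⇑Q)) ≤
      (DS F (1 : F) (2 * n + 2) (2 * n + 1)).ncard + (DS F (1 : F) (2 * n + 2) (2 * n + 1) \ WS (2 * n + 2)).ncard := by
    apply fam_card h2 (show 2 * n + 1 ≤ 2 * n + 2 by omega) (IsSquare (gram (polarBilin Q) (Pi.basisFun F ι)).det)
      (fun c : ConjClasses ↥(Cfsg.isometryGroup F ⇑Q) => oX hQ (Quotient.out c))
    · intro c
      rw [oX_dim, hι]
    · intro c
      exact oX_dq hQ _
    · intro a b h
      have h1 := oX_conj h2 hQ h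
      have h3 : ConjClasses.mk (Quotient.out a) = ConjClasses.mk (Quotient.out b) := ConjClasses.mk_eq_mk_iff_isConj.2 h1
      have h4 : ∀ c : ConjClasses ↥(Cfsg.isometryGroup F ⇑Q), ConjClasses.mk (Quotient.out c) = c := fun c => Quotient.out_eq c
      rwa [h4, h4] at h3
  obtain ⟨h3, h4⟩ := DS_odd_bound (F := F) h2 hq n
  omega

/-- the homomorphism with kernel `Ω × ⟨-1⟩` -/
noncomputable def θG (hQ : Nd Q) (hR : R Q = O Q) : ↥(Cfsg.isometryGroup F ⇑Q) →* ℤˣ := (θO hQ hR).comp (toO Q)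

theorem CHQ_of_centralizer (h2 : (2 : F) ≠ 0) (hQ : Nd Q) (hR : R Q = O Q) {g : ↥(Cfsg.isometryGroup F ⇑Q)}
    (hg : Subgroup.centralizer {g} ≤ (θG hQ hR).ker) : CHQ hQ hR (oX hQ g) := by
  intro e he h hh
  have heO : e ∈ O Q := by
    intro v
    have h4 : polar Q (e v) (e v) = polar Q v v := he v v
    rw [polar_self', polar_self'] at h4
    exact mul_left_cancel₀ h2 h4
  let eO : ↥(O Q) := ⟨e, heO⟩
  obtain ⟨k, hk⟩ := toO_surj (Q := Q) (eO⁻¹ * h * eO)
  have h1 : k ∈ Subgroup.centralizer {g} := by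
    rw [Subgroup.mem_centralizer_singleton_iff]
    apply toO_inj (Q := Q)
    rw [map_mul, map_mul, hk]
    apply Subtype.ext
    apply LinearEquiv.ext
    intro x
    show e.symm ((h : (ι → F) ≃ₗ[F] (ι → F)) (e ((toLE (g : Matrix.GeneralLinearGroup ι F)) x))) =
      (toLE (g : Matrix.GeneralLinearGroup ι F)) (e.symm ((h : (ι → F) ≃ₗ[F] (ι → F)) (e x)))
    have h3 := hh x
    have h4 := congrArg e.symm h3
    rw [LinearEquiv.symm_apply_apply] at h4
    exact h4
  have h3 : θG hQ hR k = 1 := hg h1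
  have h4 : θO hQ hR (eO⁻¹ * h * eO) = 1 := by rw [← hk]; exact h3
  rw [map_mul, map_mul, map_inv, mul_comm (θO hQ hR eO)⁻¹, inv_mul_cancel_right] at h4
  exact h4

theorem small_le (h2 : (2 : F) ≠ 0) (hq : 3 ≤ Nat.card F) (hQ : Nd Q) (hR : R Q = O Q) {n : ℕ} (hι : Fintype.card ι = 2 * n + 1) :
    1000 * Nat.card {C : ConjClasses ↥(Cfsg.isometryGroup F ⇑Q) // ∃ g, ConjClasses.mk g = C ∧ Subgroup.centralizer {g} ≤ (θG hQ hR).ker} ≤
      4474 * Nat.card F ^ n := by
  have hfr : finrank F (ι → F) = 2 * n + 1 := by rw [Module.finrank_pi, hι]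
  refine le_trans (Nat.mul_le_mul_left _ ?_) (SD_bound h2 hq n hfr hQ hR (IsSquare (gram (polarBilin Q) (Pi.basisFun F ι)).det))
  have hfin : (SD hQ hR (2 * n + 2) (2 * n + 1) (IsSquare (gram (polarBilin Q) (Pi.basisFun F ι)).det)).Finite := by
    classical
    refine Set.Finite.subset ?_ (SD_sub hQ hR (2 * n + 2) (2 * n + 1) _)
    exact (card_data_le h2 (show 2 * n + 1 ≤ 2 * n + 2 by omega) (fun _ => True) _ subset_rfl (by
      intro d _ j _ h
      exact absurd trivial h)).1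
  choose g hg hgc using fun C : {C : ConjClasses ↥(Cfsg.isometryGroup F ⇑Q) // ∃ g, ConjClasses.mk g = C ∧ Subgroup.centralizer {g} ≤ (θG hQ hR).ker} => C.2
  obtain ⟨φ, hφ, hφ'⟩ := exists_data_embedding h2 (one_mul 1) (show 2 * n + 1 ≤ 2 * n + 2 by omega) (fun C => oX hQ (g C))
    (fun C => by rw [oX_dim, hι]) (by
      intro a b h
      have h1 := oX_conj h2 hQ h
      have h3 := ConjClasses.mk_eq_mk_iff_isConj.2 h1
      rw [hg, hg] at h3
      exact Subtype.ext h3)
  have h1 : ∀ C, (φ C).1 ∈ SD hQ hR (2 * n + 2) (2 * n + 1) (IsSquare (gram (polarBilin Q) (Pi.basisFun F ι)).det) := by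
    intro C
    refine ⟨⟨oX hQ (g C), hφ' C, by rw [oX_dim, hι], oX_dq hQ _, CHQ_of_centralizer h2 hQ hR (hgc C), ?_⟩, (φ C).2.2⟩
    exact ⟨LinearEquiv.refl F (ι → F), fun x y => rfl⟩
  have : Finite (SD hQ hR (2 * n + 2) (2 * n + 1) (IsSquare (gram (polarBilin Q) (Pi.basisFun F ι)).det)) := hfin
  rw [← Nat.card_coe_set_eq]
  apply Nat.card_le_card_of_injective (fun C => (⟨(φ C).1, h1 C⟩ : SD hQ hR (2 * n + 2) (2 * n + 1) (IsSquare (gram (polarBilin Q) (Pi.basisFun F ι)).det)))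
  intro a b hab
  have h5 := Subtype.ext_iff.1 hab
  exact hφ (Subtype.ext h5)

/-- the class number of `Ω` in odd dimension -/
theorem omega_formula (h2 : (2 : F) ≠ 0) (hQ : Nd Q) {n : ℕ} (hn : 1 ≤ n) (hι : Fintype.card ι = 2 * n + 1)
    (hgen : GenHyp Q) :
    4 * Nat.card (ConjClasses ↥(Cfsg.Omega F ⇑Q)) = Nat.card (ConjClasses ↥(Cfsg.isometryGroup F ⇑Q)) +
      3 * Nat.card {C : ConjClasses ↥(Cfsg.isometryGroup F ⇑Q) // ∃ g, ConjClasses.mk g = C ∧
        Subgroup.centralizer {g} ≤ (θG hQ (hQ.R_eq_O hgen)).ker} := by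
  haveI := finite_iso Q
  have hfr : finrank F (ι → F) = 2 * n + 1 := by rw [Module.finrank_pi, hι]
  have hodd : Odd (finrank F (ι → F)) := by rw [hfr]; exact ⟨n, rfl⟩
  have hR := hQ.R_eq_O hgen
  have hsurj : Function.Surjective (θG hQ hR) := (θO_surj hQ hR h2 (by omega)).comp toO_surj
  rw [← two_mul_card_classes (θG hQ hR) hsurj]
  obtain ⟨z, hz⟩ := toO_surj (Q := Q) (ngO Q)
  have hzc : z ∈ Subgroup.center ↥(Cfsg.isometryGroup F ⇑Q) := by
    rw [Subgroup.mem_center_iff]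
    intro g
    apply toO_inj (Q := Q)
    rw [map_mul, map_mul, hz]
    apply Subtype.ext
    apply LinearEquiv.ext
    intro x
    show ((toO Q g : ↥(O Q)) : (ι → F) ≃ₗ[F] (ι → F)) (-x) = -(((toO Q g : ↥(O Q)) : (ι → F) ≃ₗ[F] (ι → F)) x)
    rw [map_neg]
  have hz2 : z * z = 1 := by
    apply toO_inj (Q := Q)
    rw [map_mul, hz, map_one]
    apply Subtype.ext
    apply LinearEquiv.ext
    intro x
    show - -x = x
    rw [neg_neg]
  have hzH : z ∈ (θG hQ hR).ker := by
    rw [MonoidHom.mem_ker]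
    show θO hQ hR (toO Q z) = 1
    rw [hz, θO_neg hQ hR h2 hodd]
  have hχ : ((parHom hQ hR).comp (toO Q)) z = -1 := by
    show parHom hQ hR (toO Q z) = -1
    rw [hz, par_neg hQ hR h2 hodd]
  rw [card_classes_double (Cfsg.Omega F ⇑Q) (θG hQ hR).ker hzc hz2 hzH ((parHom hQ hR).comp (toO Q)) hχ (by
    intro g
    rw [mem_Omega_iff, ← toO_coe, mem_Om_iff_θO hQ hgen]
    rfl)]
  ring

/-- there are at least `2 q^n` classes -/
theorem classes_ge (h2 : (2 : F) ≠ 0) (hQ : Nd Q) {n : ℕ} (hι : Fintype.card ι = 2 * n + 1) :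
    2 * Nat.card F ^ n ≤ Nat.card (ConjClasses ↥(Cfsg.isometryGroup F ⇑Q)) := by
  classical
  haveI := finite_iso Q
  have hfin : Finite (ConjClasses ↥(Cfsg.isometryGroup F ⇑Q)) := Quotient.finite _
  have key : ∀ g : Mon F n, ∃ x : ↥(Cfsg.isometryGroup F ⇑Q),
      ((x : Matrix.GeneralLinearGroup ι F) : Matrix ι ι F).charpoly = SpCount.P n g.1 * (X - C 1) := by
    rintro ⟨g, hm, hd⟩
    obtain ⟨⟨Z, h1, h3⟩, -⟩ := exists_space h2 n g hm hd
    obtain ⟨u0, hu0, hu0'⟩ := exists_nonsquare (F := F) h2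
    obtain ⟨u, hu, hu'⟩ : ∃ u : F, u ≠ 0 ∧ (IsSquare u ↔ (Dq Z ↔ IsSquare (gram (polarBilin Q) (Pi.basisFun F ι)).det)) := by
      by_cases h : (Dq Z ↔ IsSquare (gram (polarBilin Q) (Pi.basisFun F ι)).det)
      · exact ⟨1, one_ne_zero, by simp [h]⟩
      · exact ⟨u0, hu0, by simp [h, hu0']⟩
    obtain ⟨x, hx⟩ := exists_oX (X := sum Z (line u hu 1 (one_mul 1))) h2 hQ (by rw [dim_sum, line_dim, h1, hι]) (by
      rw [Dq_sum, line_dq, hu']
      generalize Dq Z = a
      tauto)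
    refine ⟨x, ?_⟩
    have h5 := hx.charpoly
    rw [charpoly_sum, line_charpoly, h3] at h5
    rw [h5]
    exact (Matrix.charpoly_toLin' _).symm
  choose x hx using key
  obtain ⟨z, hz⟩ := toO_surj (Q := Q) (ngO Q)
  have hzM : ((z : Matrix.GeneralLinearGroup ι F) : Matrix ι ι F) = -1 := by
    apply matrix_ext_of_mulVec
    intro v
    have h1 : ((toO Q z : ↥(O Q)) : (ι → F) ≃ₗ[F] (ι → F)) v = -v := by rw [hz]; rfl
    rw [Matrix.neg_mulVec, Matrix.one_mulVec]
    exact h1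
  have hmulM : ∀ g : ↥(Cfsg.isometryGroup F ⇑Q), (((z * g : ↥(Cfsg.isometryGroup F ⇑Q)) : Matrix.GeneralLinearGroup ι F) : Matrix ι ι F) =
      -((g : Matrix.GeneralLinearGroup ι F) : Matrix ι ι F) := by
    intro g
    have : (((z * g : ↥(Cfsg.isometryGroup F ⇑Q)) : Matrix.GeneralLinearGroup ι F) : Matrix ι ι F) =
      ((z : Matrix.GeneralLinearGroup ι F) : Matrix ι ι F) * ((g : Matrix.GeneralLinearGroup ι F) : Matrix ι ι F) := rfl
    rw [this, hzM, neg_mul, one_mul]
  have hodd : Odd (Fintype.card ι) := by rw [hι]; exact ⟨n, rfl⟩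
  have hP0 : ∀ g : Mon F n, (SpCount.P n g.1).eval 0 = 1 := by
    intro g
    unfold SpCount.P
    rw [eval_finsetSum, Finset.sum_eq_single n]
    · simp only [eval_mul, eval_C, eval_pow, eval_add, eval_X, eval_one, Nat.sub_self, pow_zero, mul_one]
      have : g.1.coeff n = 1 := by
        have h3 := g.2.1
        rw [Monic, leadingCoeff, g.2.2] at h3
        exact h3
      rw [this]
      norm_num
    · intro k hk hkn
      rw [Finset.mem_range] at hk
      simp only [eval_mul, eval_C, eval_pow, eval_add, eval_X, eval_one]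
      rw [zero_pow (by omega : n - k ≠ 0)]
      ring
    · intro h
      exact absurd (Finset.mem_range.2 (by omega)) h
  have hdet : ∀ g : Mon F n, (((x g : ↥(Cfsg.isometryGroup F ⇑Q)) : Matrix.GeneralLinearGroup ι F) : Matrix ι ι F).det = 1 := by
    intro g
    have h1 := Matrix.det_eq_sign_charpoly_coeff (((x g : ↥(Cfsg.isometryGroup F ⇑Q)) : Matrix.GeneralLinearGroup ι F) : Matrix ι ι F)
    rw [hodd.neg_one_pow, hx, coeff_zero_eq_eval_zero, eval_mul, hP0, eval_sub, eval_X, eval_C] at h1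
    rw [h1]
    ring
  have hdetc : ∀ {a b : ↥(Cfsg.isometryGroup F ⇑Q)}, IsConj a b →
      ((a : Matrix.GeneralLinearGroup ι F) : Matrix ι ι F).det = ((b : Matrix.GeneralLinearGroup ι F) : Matrix ι ι F).det := by
    intro a b hab
    have h1 := charpoly_of_conj hab
    rw [Matrix.det_eq_sign_charpoly_coeff, h1, ← Matrix.det_eq_sign_charpoly_coeff]
  have h1 : Nat.card (Mon F n × Bool) ≤ Nat.card (ConjClasses ↥(Cfsg.isometryGroup F ⇑Q)) := by
    apply Nat.card_le_card_of_injective (fun p : Mon F n × Bool => ConjClasses.mk (if p.2 then x p.1 else z * x p.1))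
    have hsame : ∀ g g' : Mon F n, IsConj (x g) (x g') → g = g' := by
      intro g g' h
      have h3 := charpoly_of_conj h
      rw [hx, hx] at h3
      have h4 := mul_right_cancel₀ (monic_X_sub_C (1 : F)).ne_zero h3
      exact Subtype.ext (SpCount.P_inj g.2.2.le g'.2.2.le h4)
    have hdiff : ∀ g g' : Mon F n, ¬ IsConj (x g) (z * x g') := by
      intro g g' h
      have h3 := hdetc h
      rw [hmulM, Matrix.det_neg, hodd.neg_one_pow, hdet, hdet] at h3
      exact one_ne_neg_one h2 (by linear_combination h3)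
    rintro ⟨g, b⟩ ⟨g', b'⟩ h
    have h3 := ConjClasses.mk_eq_mk_iff_isConj.1 h
    cases b <;> cases b'
    · have h4 : IsConj (z * x g) (z * x g') := h3
      obtain ⟨c, hc⟩ := isConj_iff.1 h4
      have hzc : ∀ a : ↥(Cfsg.isometryGroup F ⇑Q), a * z = z * a := by
        intro a
        apply toO_inj (Q := Q)
        rw [map_mul, map_mul, hz]
        apply Subtype.ext
        apply LinearEquiv.ext
        intro x
        show ((toO Q a : ↥(O Q)) : (ι → F) ≃ₗ[F] (ι → F)) (-x) = -(((toO Q a : ↥(O Q)) : (ι → F) ≃ₗ[F] (ι → F)) x)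
        rw [map_neg]
      have h5 : IsConj (x g) (x g') := by
        rw [isConj_iff]
        refine ⟨c, ?_⟩
        rw [← mul_assoc, hzc, mul_assoc, mul_assoc] at hc
        rw [mul_assoc]
        exact mul_left_cancel hc
      rw [hsame g g' h5]
    · exact absurd (h3 : IsConj (z * x g) (x g')).symm (hdiff g' g)
    · exact absurd (h3 : IsConj (x g) (z * x g')) (hdiff g g')
    · rw [hsame g g' h3]
  rw [Nat.card_prod, card_Mon] at h1
  have h3 : Nat.card Bool = 2 := by rw [Nat.card_eq_fintype_card]; rfl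
  rw [h3] at h1
  linarith

/-- final bounds -/
theorem omega_odd_bounds (h2 : (2 : F) ≠ 0) (hq : 3 ≤ Nat.card F) (hQ : Nd Q) {n : ℕ} (hn : 1 ≤ n) (hι : Fintype.card ι = 2 * n + 1) :
    Nat.card F ^ n ≤ 2 * Nat.card (ConjClasses ↥(Cfsg.Omega F ⇑Q)) ∧
      10 * Nat.card (ConjClasses ↥(Cfsg.Omega F ⇑Q)) ≤ 73 * Nat.card F ^ n := by
  have hgen : GenHyp Q := genHyp_of_two_ne_zero h2
  have h1 := omega_formula h2 hQ hn hι hgen
  have h3 := classes_ge h2 hQ hι
  have h4 := classes_le h2 hq hQ hι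
  have h5 := small_le h2 hq hQ (hQ.R_eq_O hgen) hι
  constructor
  · omega
  · omega

end Cfsg.Agent.Lib.IsoSp
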