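import Cfsg.Agent.Lib.IsoSp7
set_option autoImplicit false

/-!
# Numerical bounds for class numbers (helper45)
-/

namespace Cfsg.Agent.Lib.IsoSp

/-- `∏ (1 + x^i)^4 / (1 - x^i)` -/
noncomputable def PN (x : ℝ) (L : ℕ) : ℝ := ∏ i ∈ Finset.range L, (1 + x ^ (i + 1)) ^ 4 * (1 - x ^ (i + 1))⁻¹

theorem PN_mono {x y : ℝ} (hx : 0 ≤ x) (hxy : x ≤ y) (hy : y < 1) (L : ℕ) : PN x L ≤ PN y L := by
  unfold PN
  apply Finset.prod_le_prod
  · intro i _
    have : x ^ (i + 1) ≤ 1 := pow_le_one₀ hx (by linarith)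
    have h1 : 0 ≤ x ^ (i + 1) := by positivity
    exact mul_nonneg (by positivity) (inv_nonneg.2 (by linarith))
  · intro i _
    have h0 : 0 ≤ x ^ (i + 1) := by positivity
    have h1 : x ^ (i + 1) ≤ y ^ (i + 1) := pow_le_pow_left₀ hx hxy _
    have h2 : y ^ (i + 1) < 1 := pow_lt_one₀ (by linarith) hy (by omega)
    apply mul_le_mul
    · exact pow_le_pow_left₀ (by linarith) (by linarith) 4
    · exact inv_anti₀ (by linarith) (by linarith)
    · exact inv_nonneg.2 (by linarith)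
    · positivity

theorem PN_succ (x : ℝ) (L : ℕ) : PN x (L + 1) = PN x L * ((1 + x ^ (L + 1)) ^ 4 * (1 - x ^ (L + 1))⁻¹) := by
  unfold PN
  rw [Finset.prod_range_succ]

theorem PN_third_large (L : ℕ) : PN (1 / 3) (L + 5) ≤ 54 / 5 * (1 - 3 * (1 / 3) ^ (L + 5)) := by
  induction L with
  | zero =>
    unfold PN
    simp only [Finset.prod_range_succ, Finset.prod_range_zero]
    norm_num
  | succ L ih =>
    rw [show L + 1 + 5 = (L + 5) + 1 by ring, PN_succ]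
    set y : ℝ := (1 / 3) ^ (L + 5) with hy
    have hy0 : 0 < y := by positivity
    have hy1 : y ≤ 1 / 243 := by
      have : (1 / 3 : ℝ) ^ (L + 5) ≤ (1 / 3) ^ 5 := pow_le_pow_of_le_one (by norm_num) (by norm_num) (by omega)
      rw [hy]
      refine this.trans ?_
      norm_num
    rw [show (1 / 3 : ℝ) ^ (L + 5 + 1) = y * (1 / 3) by rw [pow_succ, hy]]
    have h3 : 0 < 1 - y * (1 / 3) := by linarith
    have h4 : (1 - 3 * y) * (1 + y * (1 / 3)) ^ 4 ≤ (1 - y) * (1 - y * (1 / 3)) := by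
      have e : (1 + y * (1 / 3)) ^ 4 ≤ 1 + 4 / 3 * y + y ^ 2 := by
        have : (1 + y * (1 / 3)) ^ 4 = 1 + 4 / 3 * y + 2 / 3 * y ^ 2 + y ^ 2 * (4 / 27 * y + y ^ 2 / 81) := by ring
        rw [this]
        have h5 : 4 / 27 * y + y ^ 2 / 81 ≤ 1 / 3 := by nlinarith
        nlinarith [sq_nonneg y]
      have h6 : 0 ≤ 1 - 3 * y := by linarith
      calc (1 - 3 * y) * (1 + y * (1 / 3)) ^ 4 ≤ (1 - 3 * y) * (1 + 4 / 3 * y + y ^ 2) := mul_le_mul_of_nonneg_left e h6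
        _ ≤ _ := by nlinarith [sq_nonneg y, mul_pos hy0 hy0, mul_pos (mul_pos hy0 hy0) hy0]
    calc PN (1 / 3) (L + 5) * ((1 + y * (1 / 3)) ^ 4 * (1 - y * (1 / 3))⁻¹)
        ≤ (54 / 5 * (1 - 3 * y)) * ((1 + y * (1 / 3)) ^ 4 * (1 - y * (1 / 3))⁻¹) := by
          apply mul_le_mul_of_nonneg_right ih
          exact mul_nonneg (by positivity) (inv_nonneg.2 h3.le)
      _ = 54 / 5 * ((1 - 3 * y) * (1 + y * (1 / 3)) ^ 4) * (1 - y * (1 / 3))⁻¹ := by ring
      _ ≤ 54 / 5 * ((1 - y) * (1 - y * (1 / 3))) * (1 - y * (1 / 3))⁻¹ := by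
          apply mul_le_mul_of_nonneg_right _ (inv_nonneg.2 h3.le)
          linarith
      _ = 54 / 5 * (1 - 3 * (y * (1 / 3))) := by
          have : (1 - y * (1 / 3)) * (1 - y * (1 / 3))⁻¹ = 1 := mul_inv_cancel₀ h3.ne'
          calc _ = 54 / 5 * (1 - y) * ((1 - y * (1 / 3)) * (1 - y * (1 / 3))⁻¹) := by ring
            _ = _ := by rw [this]; ring

theorem PN_le_succ {x : ℝ} (hx : 0 ≤ x) (hx1 : x < 1) (L : ℕ) : PN x L ≤ PN x (L + 1) := by
  rw [PN_succ]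
  have h0 : 0 ≤ x ^ (L + 1) := by positivity
  have h1 : x ^ (L + 1) < 1 := pow_lt_one₀ hx hx1 (by omega)
  have h3 : 0 ≤ PN x L := by
    unfold PN
    apply Finset.prod_nonneg
    intro i _
    have : x ^ (i + 1) < 1 := pow_lt_one₀ hx hx1 (by omega)
    have h1 : 0 ≤ x ^ (i + 1) := by positivity
    exact mul_nonneg (by positivity) (inv_nonneg.2 (by linarith))
  have h4 : 1 ≤ (1 + x ^ (L + 1)) ^ 4 * (1 - x ^ (L + 1))⁻¹ := by
    have h5 : 1 ≤ (1 + x ^ (L + 1)) ^ 4 := one_le_pow₀ (by linarith)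
    have h6 : 1 ≤ (1 - x ^ (L + 1))⁻¹ := (one_le_inv₀ (by linarith)).2 (by linarith)
    nlinarith
  nlinarith

theorem PN_third (L : ℕ) : PN (1 / 3) L ≤ 54 / 5 := by
  have h1 : PN (1 / 3) L ≤ PN (1 / 3) (L + 5) := by
    have : ∀ m, PN (1 / 3) L ≤ PN (1 / 3) (L + m) := by
      intro m
      induction m with
      | zero => exact le_rfl
      | succ m ih => exact ih.trans (PN_le_succ (by norm_num) (by norm_num) _)
    exact this 5
  refine h1.trans ((PN_third_large L).trans ?_)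
  have : (0 : ℝ) ≤ (1 / 3) ^ (L + 5) := by positivity
  linarith

end Cfsg.Agent.Lib.IsoSp
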