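import Cfsg.Agent.Lib.IsoSpD3
import Cfsg.Agent.Lib.QuadBridge
set_option autoImplicit false

/-!
# Orthogonal matrix groups and symmetric spaces with an isometry (helper45)
-/

namespace Cfsg.Agent.Lib.IsoSp
open Module QuadraticMap Quad

universe u

variable {ι : Type} [Fintype ι] [DecidableEq ι] {F : Type u} [Field F] {Q : QuadraticForm F (ι → F)}

/-- the space of an orthogonal matrix -/
noncomputable def oX (hQ : Nd Q) (g : ↥(Cfsg.isometryGroup F ⇑Q)) : ISp F (1 : F) where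
  V := ι → F
  B := polarBilin Q
  T := Matrix.toLin' ((g : Matrix.GeneralLinearGroup ι F) : Matrix ι ι F)
  sym x y := by
    rw [one_mul]
    exact polar_comm _ _ _
  nd x hx := hQ.eq_zero fun y => hx y
  inv x y := by
    have h := mem_isometryGroup.1 g.2
    show polar Q (((g : Matrix.GeneralLinearGroup ι F) : Matrix ι ι F).mulVec x) (((g : Matrix.GeneralLinearGroup ι F) : Matrix ι ι F).mulVec y) =
      polar Q x y
    rw [polar, polar, ← Matrix.mulVec_add, h, h, h]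

theorem oX_dim (hQ : Nd Q) (g : ↥(Cfsg.isometryGroup F ⇑Q)) : dim (oX hQ g) = Fintype.card ι := by
  show finrank F (ι → F) = _
  rw [Module.finrank_pi]

theorem oX_dq (hQ : Nd Q) (g : ↥(Cfsg.isometryGroup F ⇑Q)) :
    Dq (oX hQ g) ↔ IsSquare (gram (polarBilin Q) (Pi.basisFun F ι)).det := Dq_iff (oX hQ g) (Pi.basisFun F ι)

theorem conj_of_map (h2 : (2 : F) ≠ 0) {g h : ↥(Cfsg.isometryGroup F ⇑Q)} (e : (ι → F) ≃ₗ[F] (ι → F))
    (h1 : ∀ x y, polar Q (e x) (e y) = polar Q x y)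
    (h3 : ∀ x, e (((g : Matrix.GeneralLinearGroup ι F) : Matrix ι ι F).mulVec x) =
      ((h : Matrix.GeneralLinearGroup ι F) : Matrix ι ι F).mulVec (e x)) : IsConj g h := by
  have hO : e ∈ O Q := by
    intro v
    have h4 := h1 v v
    rw [polar_self', polar_self'] at h4
    exact mul_left_cancel₀ h2 h4
  rw [isConj_iff]
  refine ⟨ofO hO, ?_⟩
  rw [mul_inv_eq_iff_eq_mul]
  apply Subtype.ext
  apply Units.ext
  apply matrix_ext_of_mulVec
  intro v
  have e1 : ∀ a b : ↥(Cfsg.isometryGroup F ⇑Q), ∀ v, (((a * b : ↥(Cfsg.isometryGroup F ⇑Q)) : Matrix.GeneralLinearGroup ι F) : Matrix ι ι F).mulVec v =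
      ((a : Matrix.GeneralLinearGroup ι F) : Matrix ι ι F).mulVec (((b : Matrix.GeneralLinearGroup ι F) : Matrix ι ι F).mulVec v) := by
    intro a b v
    rw [Matrix.mulVec_mulVec]
    rfl
  rw [e1, e1, ofO_mulVec, ofO_mulVec, h3]

theorem oX_conj (h2 : (2 : F) ≠ 0) (hQ : Nd Q) {g h : ↥(Cfsg.isometryGroup F ⇑Q)} (e : Iso (oX hQ g) (oX hQ h)) :
    IsConj g h := by
  obtain ⟨e, h1, h3⟩ := e
  exact conj_of_map h2 e h1 h3

theorem exists_oX [Finite F] (h2 : (2 : F) ≠ 0) (hQ : Nd Q) {X : ISp F (1 : F)} (hd : dim X = Fintype.card ι)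
    (hc : Dq X ↔ IsSquare (gram (polarBilin Q) (Pi.basisFun F ι)).det) : ∃ g, Iso X (oX hQ g) := by
  classical
  let b : Basis (Fin (Fintype.card ι)) F X.V := (Module.finBasis F X.V).reindex (finCongr hd)
  let c : Basis (Fin (Fintype.card ι)) F (ι → F) := (Pi.basisFun F ι).reindex (Fintype.equivFin ι)
  obtain ⟨e, he⟩ := exists_sym_isometry (β := X.B) (γ := polarBilin Q) h2 (fun x y => by rw [X.sym y x, one_mul])
    (fun x y => polar_comm _ _ _) X.nd (fun x hx => hQ.eq_zero fun y => hx y) b c (by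
      rw [← Dq_iff X b, hc]
      exact isSquare_gram_iff _ _ _)
  let T' : (ι → F) ≃ₗ[F] (ι → F) := e.symm.trans ((LinearEquiv.ofBijective X.T ⟨T_inj X, T_surj X⟩).trans e)
  have hT' : ∀ x, T' (e x) = e (X.T x) := by
    intro x
    show e (X.T (e.symm (e x))) = _
    rw [e.symm_apply_apply]
  have hO : T' ∈ O Q := by
    intro v
    obtain ⟨x, rfl⟩ := e.surjective v
    rw [hT']
    have h4 : polar Q (e (X.T x)) (e (X.T x)) = polar Q (e x) (e x) := by
      have h5 := he (X.T x) (X.T x)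
      have h6 := he x x
      rw [polarBilin_apply_apply] at h5 h6
      rw [h5, h6, X.inv]
    rw [polar_self', polar_self'] at h4
    exact mul_left_cancel₀ h2 h4
  refine ⟨ofO hO, e, he, ?_⟩
  intro x
  exact (hT' x).symm.trans (ofO_mulVec hO (e x)).symm

theorem two_mul_upper [Finite F] (h2 : (2 : F) ≠ 0) (hq : 3 ≤ Nat.card F) (hQ : Nd Q) {n : ℕ} (hn : 1 ≤ n)
    (hι : Fintype.card ι = 2 * n) :
    2 * Nat.card (ConjClasses ↥(Cfsg.isometryGroup F ⇑Q)) ≤ 19 * Nat.card F ^ n := by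
  refine le_trans ?_ (DS_total h2 hq hn)
  apply fam_card h2 (le_refl (2 * n)) (IsSquare (gram (polarBilin Q) (Pi.basisFun F ι)).det)
    (fun c : ConjClasses ↥(Cfsg.isometryGroup F ⇑Q) => oX hQ (Quotient.out c))
  · intro c
    rw [oX_dim, hι]
  · intro c
    exact oX_dq hQ _
  · intro a b h
    have h1 := oX_conj h2 hQ h
    have h3 : ConjClasses.mk (Quotient.out a) = ConjClasses.mk (Quotient.out b) := ConjClasses.mk_eq_mk_iff_isConj.2 h1
    have h4 : ∀ c : ConjClasses ↥(Cfsg.isometryGroup F ⇑Q), ConjClasses.mk (Quotient.out c) = c := fun c => Quotient.out_eq c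
    rwa [h4, h4] at h3

end Cfsg.Agent.Lib.IsoSp
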