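import Cfsg.Agent.Lib.H58J2CentZ
import Cfsg.Agent.Lib.J2Pres

set_option autoImplicit false
set_option linter.all false
set_option maxRecDepth 100000

/-! Generators of the explicit Hall-Janko group satisfying the presentation. -/

namespace Cfsg.Agent.Lib.J2Expl

open Cfsg Cfsg.Agent.Lib.H58J2 Cfsg.Agent.Lib.J2Pres

def ax : List (Fin 5) := [1, 4, 0, 1, 0, 2, 1, 4]
def ak : List (Fin 5) := [3]
def aw : List (Fin 5) := [1, 0, 4, 1, 4, 2, 0, 4, 1, 4]
def as_ : List (Fin 5) := [0, 1, 0, 2, 0, 2, 4, 1, 4, 3]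
def at_ : List (Fin 5) := [1, 2, 3, 1, 4, 0, 3, 4]

theorem h_x5 : wEq (ax ++ ax ++ ax ++ ax ++ ax) ([]) = true := by decide +kernel
theorem h_k2 : wEq (ak ++ ak) ([]) = true := by decide +kernel
theorem h_xk : wEq (ax ++ ak ++ ax ++ ak ++ ax ++ ak) ([]) = true := by decide +kernel
theorem h_y2 : wEq (ax ++ ax ++ ak ++ ax.reverse ++ ax.reverse ++ ak ++ ax ++ ax ++ ak ++ ax ++ ax ++ ak ++ ax.reverse ++ ax.reverse ++ ak ++ ax ++ ax ++ ak) ([]) = true := by decide +kernel
theorem h_yx : wEq (ax ++ ax ++ ak ++ ax.reverse ++ ax.reverse ++ ak ++ ax ++ ax ++ ak ++ ax ++ ax ++ ax ++ ak ++ ax.reverse ++ ax.reverse ++ ak ++ ax ++ ax ++ ak ++ ax) ([]) = true := by decide +kernel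
theorem h_w3 : wEq (aw ++ aw ++ aw) ([]) = true := by decide +kernel
theorem h_wx : wEq (aw ++ ax) (ax ++ aw) = true := by decide +kernel
theorem h_wk : wEq (aw ++ ak) (ak ++ aw) = true := by decide +kernel
theorem h_s2 : wEq (as_ ++ as_) ([]) = true := by decide +kernel
theorem h_sx : wEq (as_ ++ ax) (ax ++ as_) = true := by decide +kernel
theorem h_sy : wEq (as_ ++ ax ++ ax ++ ak ++ ax.reverse ++ ax.reverse ++ ak ++ ax ++ ax ++ ak) (ax ++ ax ++ ak ++ ax.reverse ++ ax.reverse ++ ak ++ ax ++ ax ++ ak ++ as_) = true := by decide +kernel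
theorem h_ws : wEq (aw ++ as_ ++ aw ++ as_) ([]) = true := by decide +kernel
theorem h_kq : wEq (ak ++ as_ ++ ak ++ as_ ++ ak ++ as_ ++ ak ++ as_ ++ ak ++ as_ ++ ak ++ as_ ++ ak ++ as_ ++ ak ++ as_) ([]) = true := by decide +kernel
theorem h_e : wEq (ak ++ ax ++ as_ ++ ak ++ as_ ++ ax.reverse ++ ax.reverse ++ ak ++ ax ++ as_ ++ ak ++ as_ ++ ax.reverse ++ ax.reverse) (aw) = true := by decide +kernel
theorem h_t2 : wEq (at_ ++ at_) ([]) = true := by decide +kernel
theorem h_wt : wEq (aw ++ at_ ++ aw ++ at_ ++ aw ++ at_) ([]) = true := by decide +kernel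
theorem h_ts : wEq (at_ ++ as_ ++ at_ ++ as_ ++ at_ ++ as_) ([]) = true := by decide +kernel
theorem h_tx : wEq (at_ ++ ax) (ax ++ at_) = true := by decide +kernel
theorem h_tk : wEq (at_ ++ ak) (ak ++ at_) = true := by decide +kernel

theorem rels : Rels (We ax) (We ak) (We aw) (We as_) (We at_) := by
  refine ⟨⟨⟨?_, ?_, ?_, ?_, ?_⟩, ?_, ?_, ?_, ?_, ?_, ?_, ?_, ?_, ?_⟩, ?_, ?_, ?_, ?_, ?_⟩
  · simpa [We_append, We_nil, We_rev, Yv, mul_assoc] using wEq_spec h_x5
  · simpa [We_append, We_nil, We_rev, Yv, mul_assoc] using wEq_spec h_k2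
  · simpa [We_append, We_nil, We_rev, Yv, mul_assoc] using wEq_spec h_xk
  · simpa [We_append, We_nil, We_rev, Yv, mul_assoc] using wEq_spec h_y2
  · simpa [We_append, We_nil, We_rev, Yv, mul_assoc] using wEq_spec h_yx
  · simpa [We_append, We_nil, We_rev, Yv, mul_assoc] using wEq_spec h_w3
  · simpa [We_append, We_nil, We_rev, Yv, mul_assoc] using wEq_spec h_wx
  · simpa [We_append, We_nil, We_rev, Yv, mul_assoc] using wEq_spec h_wk
  · simpa [We_append, We_nil, We_rev, Yv, mul_assoc] using wEq_spec h_s2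
  · simpa [We_append, We_nil, We_rev, Yv, mul_assoc] using wEq_spec h_sx
  · simpa [We_append, We_nil, We_rev, Yv, mul_assoc] using wEq_spec h_sy
  · simpa [We_append, We_nil, We_rev, Yv, mul_assoc] using wEq_spec h_ws
  · simpa [We_append, We_nil, We_rev, Yv, mul_assoc] using wEq_spec h_kq
  · simpa [We_append, We_nil, We_rev, Yv, mul_assoc] using wEq_spec h_e
  · simpa [We_append, We_nil, We_rev, Yv, mul_assoc] using wEq_spec h_t2
  · simpa [We_append, We_nil, We_rev, Yv, mul_assoc] using wEq_spec h_wt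
  · simpa [We_append, We_nil, We_rev, Yv, mul_assoc] using wEq_spec h_ts
  · simpa [We_append, We_nil, We_rev, Yv, mul_assoc] using wEq_spec h_tx
  · simpa [We_append, We_nil, We_rev, Yv, mul_assoc] using wEq_spec h_tk

theorem g_0 : wEq (ax ++ ax ++ aw.reverse ++ at_ ++ aw.reverse ++ as_ ++ ak ++ ax.reverse ++ as_ ++ ak ++ at_ ++ aw) [0] = true := by decide +kernel

theorem g_1 : wEq (ax.reverse ++ aw ++ at_ ++ as_ ++ ak ++ ax ++ as_ ++ at_ ++ aw.reverse) [1] = true := by decide +kernel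

theorem g_2 : wEq (at_ ++ aw.reverse ++ as_ ++ ak ++ ax ++ at_ ++ as_ ++ ak ++ ax.reverse ++ as_ ++ ak ++ at_ ++ aw.reverse ++ as_ ++ at_) [2] = true := by decide +kernel

theorem g_3 : wEq (ak) [3] = true := by decide +kernel

theorem g_4 : wEq (ax ++ as_ ++ at_ ++ aw ++ as_ ++ ak ++ ax ++ as_ ++ at_ ++ aw.reverse ++ as_ ++ ak ++ ax ++ ax ++ as_ ++ at_ ++ aw.reverse) [4] = true := by decide +kernel

theorem mem_word (N : Subgroup (AG 5)) {w : List (Fin 5)} (h : We w ∈ N) : We w.reverse ∈ N := by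
  rw [We_rev]; exact N.inv_mem h

theorem mem_app (N : Subgroup (AG 5)) {v w : List (Fin 5)} (h : We v ∈ N) (h' : We w ∈ N) : We (v ++ w) ∈ N := by
  rw [We_append]; exact N.mul_mem h h'

theorem We_single (k : Fin 5) : We [k] = sg k := by rw [We_cons, We_nil, mul_one]

theorem gen : Subgroup.closure ({We ax, We ak, We aw, We as_, We at_} : Set (AG 5)) = ⊤ := by
  set N := Subgroup.closure ({We ax, We ak, We aw, We as_, We at_} : Set (AG 5))
  have hx : We ax ∈ N := Subgroup.subset_closure (by simp)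
  have hk : We ak ∈ N := Subgroup.subset_closure (by simp)
  have hw : We aw ∈ N := Subgroup.subset_closure (by simp)
  have hs : We as_ ∈ N := Subgroup.subset_closure (by simp)
  have ht : We at_ ∈ N := Subgroup.subset_closure (by simp)
  have hX := mem_word N hx
  have hW := mem_word N hw
  apply mem_of_gen
  intro k
  fin_cases k
  · show sg 0 ∈ N
    rw [← We_single, ← wEq_spec g_0]
    repeat first | assumption | apply mem_app
  · show sg 1 ∈ N
    rw [← We_single, ← wEq_spec g_1]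
    repeat first | assumption | apply mem_app
  · show sg 2 ∈ N
    rw [← We_single, ← wEq_spec g_2]
    repeat first | assumption | apply mem_app
  · show sg 3 ∈ N
    rw [← We_single, ← wEq_spec g_3]
    repeat first | assumption | apply mem_app
  · show sg 4 ∈ N
    rw [← We_single, ← wEq_spec g_4]
    repeat first | assumption | apply mem_app

end Cfsg.Agent.Lib.J2Expl
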