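import Cfsg.Agent.Lib.J2Expl

set_option autoImplicit false
set_option linter.all false

/-! Recognition of the Hall-Janko group by its presentation. -/

namespace Cfsg.Agent.Lib.J2Iso

open Cfsg Cfsg.Agent.Lib.H58J2 Cfsg.Agent.Lib.J2Pres Cfsg.Agent.Lib.J2Expl

theorem rels_prod {G H : Type*} [Group G] [Group H] {x k w s t : G} {x' k' w' s' t' : H} (h : Rels x k w s t)
    (h' : Rels x' k' w' s' t') : Rels (x, x') (k, k') (w, w') (s, s') (t, t') := by
  refine ⟨⟨⟨?_, ?_, ?_, ?_, ?_⟩, ?_, ?_, ?_, ?_, ?_, ?_, ?_, ?_, ?_⟩, ?_, ?_, ?_, ?_, ?_⟩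
  · exact Prod.ext h.x5 h'.x5
  · exact Prod.ext h.k2 h'.k2
  · exact Prod.ext h.xk h'.xk
  · exact Prod.ext h.y2 h'.y2
  · exact Prod.ext h.yx h'.yx
  · exact Prod.ext h.w3 h'.w3
  · exact Prod.ext h.wx h'.wx
  · exact Prod.ext h.wk h'.wk
  · exact Prod.ext h.s2 h'.s2
  · exact Prod.ext h.sx h'.sx
  · exact Prod.ext h.sy h'.sy
  · exact Prod.ext h.ws h'.ws
  · exact Prod.ext h.kq h'.kq
  · exact Prod.ext h.e h'.e
  · exact Prod.ext h.t2 h'.t2
  · exact Prod.ext h.wt h'.wt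
  · exact Prod.ext h.ts h'.ts
  · exact Prod.ext h.tx h'.tx
  · exact Prod.ext h.tk h'.tk

theorem rels_sub {G : Type*} [Group G] {x k w s t : G} (h : Rels x k w s t) {B : Subgroup G} (hx : x ∈ B) (hk : k ∈ B)
    (hw : w ∈ B) (hs : s ∈ B) (ht : t ∈ B) : Rels (⟨x, hx⟩ : B) ⟨k, hk⟩ ⟨w, hw⟩ ⟨s, hs⟩ ⟨t, ht⟩ :=
  ⟨⟨⟨Subtype.ext h.x5, Subtype.ext h.k2, Subtype.ext h.xk, Subtype.ext h.y2, Subtype.ext h.yx⟩,
      Subtype.ext h.w3, Subtype.ext h.wx, Subtype.ext h.wk, Subtype.ext h.s2, Subtype.ext h.sx, Subtype.ext h.sy,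
      Subtype.ext h.ws, Subtype.ext h.kq, Subtype.ext h.e⟩,
    Subtype.ext h.t2, Subtype.ext h.wt, Subtype.ext h.ts, Subtype.ext h.tx, Subtype.ext h.tk⟩

/-- a group of order 604800 with such elements is the Hall-Janko group -/
theorem iso_of_rels {G : Type*} [Group G] [Finite G] (hG : Nat.card G = 604800) {x k w s t : G} (h : Rels x k w s t)
    (hx1 : x ≠ 1) : Cfsg.Spor.IsoJ2 G := by
  haveI : Finite (AG 5) := Nat.finite_of_card_ne_zero (by rw [card5]; norm_num)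
  have hP := rels_prod h rels
  let A : Set (G × AG 5) := {(x, We ax), (k, We ak), (w, We aw), (s, We as_), (t, We at_)}
  let D := Subgroup.closure A
  have hx : (x, We ax) ∈ D := Subgroup.subset_closure (by simp [A])
  have hk : (k, We ak) ∈ D := Subgroup.subset_closure (by simp [A])
  have hw : (w, We aw) ∈ D := Subgroup.subset_closure (by simp [A])
  have hs : (s, We as_) ∈ D := Subgroup.subset_closure (by simp [A])
  have ht : (t, We at_) ∈ D := Subgroup.subset_closure (by simp [A])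
  have hD := rels_sub hP hx hk hw hs ht
  have hDgen : Subgroup.closure ({⟨_, hx⟩, ⟨_, hk⟩, ⟨_, hw⟩, ⟨_, hs⟩, ⟨_, ht⟩} : Set D) = ⊤ := by
    rw [← closure_sub A]
    congr 1
    ext ⟨a, ha⟩
    simp only [A, Subtype.ext_iff, Set.mem_insert_iff, Set.mem_singleton_iff, Set.mem_setOf_eq]
    exact Iff.rfl
  obtain ⟨hf, hc⟩ := hD.bound hDgen
  let p2 : D →* AG 5 := (MonoidHom.snd G (AG 5)).comp D.subtype
  let p1 : D →* G := (MonoidHom.fst G (AG 5)).comp D.subtype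
  have hs2 : Function.Surjective p2 := by
    rw [← MonoidHom.range_eq_top, eq_top_iff, ← gen, Subgroup.closure_le]
    rintro a (rfl | rfl | rfl | rfl | rfl)
    · exact ⟨⟨_, hx⟩, rfl⟩
    · exact ⟨⟨_, hk⟩, rfl⟩
    · exact ⟨⟨_, hw⟩, rfl⟩
    · exact ⟨⟨_, hs⟩, rfl⟩
    · exact ⟨⟨_, ht⟩, rfl⟩
  have hcard : Nat.card D = 604800 := by
    apply le_antisymm hc
    rw [← card5]
    exact Nat.card_le_card_of_surjective _ hs2
  have hb2 : Function.Bijective p2 := by
    rw [Nat.bijective_iff_surjective_and_card]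
    exact ⟨hs2, by rw [hcard, card5]⟩
  let e2 : D ≃* AG 5 := MulEquiv.ofBijective p2 hb2
  haveI hsimp : IsSimpleGroup D := by
    haveI := simple5
    exact e2.isSimpleGroup
  have hker : p1.ker = ⊥ := by
    rcases hsimp.eq_bot_or_eq_top_of_normal p1.ker inferInstance with h0 | h0
    · exact h0
    · exfalso
      have : (⟨(x, We ax), hx⟩ : D) ∈ p1.ker := by rw [h0]; trivial
      exact hx1 this
  have hb1 : Function.Bijective p1 := by
    rw [Nat.bijective_iff_injective_and_card]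
    exact ⟨(MonoidHom.ker_eq_bot_iff _).1 hker, by rw [hcard, hG]⟩
  let e1 : D ≃* G := MulEquiv.ofBijective p1 hb1
  exact ⟨(e1.symm.trans e2).trans ((MulEquiv.subgroupCongr AG_five).trans equivP.symm)⟩

end Cfsg.Agent.Lib.J2Iso
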