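import Cfsg.Agent.Lib.J2Pres

set_option autoImplicit false
set_option linter.all false

/-! A presentation of `A6` over `A5` by coset enumeration. -/

namespace Cfsg.Agent.Lib.J2Pres

open Cfsg.Agent.Lib.H10Enum

section defs
variable {G : Type*} [Group G]

/-- relations of `A6` -/
structure RelA (x k q : G) : Prop extends RelK x k where
  q2 : q * q = 1
  kq4 : k * q * k * q * k * q * k * q = 1
  e1 : k * x * q * x⁻¹ * x⁻¹ * k * x * q * x⁻¹ * x⁻¹ = 1
  xq : x * q * x * q * x * q = 1
  yq : Yv x q = Yv x k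

/-- the letters -/
def ga (x k q : G) : ℕ → G
  | 1 => x
  | 2 => k
  | 6 => q
  | 7 => Yv x k
  | _ => 1

namespace RelA
variable {x k q : G}

theorem hR (h : RelA x k q) : ∀ v ∈ J2Enum1.R, wval (ga x k q) v = 1 := by
  unfold J2Enum1.R
  simp only [List.forall_mem_cons, List.not_mem_nil, false_implies, implies_true, and_true]
  refine ⟨?_, ?_, ?_, ?_, ?_, ?_, ?_, ?_⟩
  · simpa [wval, val, ga, mul_assoc] using h.x5
  · simpa [wval, val, ga, mul_assoc] using h.xk
  · have := h.y2
    nth_rewrite 1 [Yv] at this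
    simpa [wval, val, ga, mul_assoc] using this
  · simpa [wval, val, ga, mul_assoc] using h.yx
  · simpa [wval, val, ga, mul_assoc] using h.kq4
  · simpa [wval, val, ga, mul_assoc] using h.e1
  · simpa [wval, val, ga, mul_assoc] using h.xq
  · have := h.y2
    nth_rewrite 1 [← h.yq, Yv] at this
    simpa [wval, val, ga, mul_assoc] using this

theorem hiv (h : RelA x k q) : ∀ c, (196 : ℕ).testBit c = true → (ga x k q c)⁻¹ = ga x k q c := by
  intro c hc
  have hlt := tb_lt (n := 196) (by norm_num) hc
  interval_cases c <;> first | (exfalso; revert hc; decide) | skip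
  · exact inv_of_sq h.k2
  · exact inv_of_sq h.q2
  · exact inv_of_sq h.y2

end RelA

end defs

theorem RelA.bound {Γ : Type*} [Group Γ] {x k q : Γ} (h : RelA x k q)
    (hgen : Subgroup.closure ({x, k, q} : Set Γ) = ⊤) : Finite Γ ∧ Nat.card Γ ≤ 360 := by
  let A : Set Γ := {x, k}
  let K := Subgroup.closure A
  have hx : x ∈ K := Subgroup.subset_closure (by simp [A])
  have hk : k ∈ K := Subgroup.subset_closure (by simp [A])
  have hK : RelK (⟨x, hx⟩ : K) ⟨k, hk⟩ :=
    ⟨Subtype.ext h.x5, Subtype.ext h.k2, Subtype.ext h.xk, Subtype.ext h.y2, Subtype.ext h.yx⟩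
  have hKgen : Subgroup.closure ({⟨x, hx⟩, ⟨k, hk⟩} : Set K) = ⊤ := by
    rw [← closure_sub A]
    congr 1
    ext ⟨a, ha⟩
    simp only [A, Subtype.ext_iff, Set.mem_insert_iff, Set.mem_singleton_iff, Set.mem_setOf_eq]
    exact Iff.rfl
  obtain ⟨hf, hc⟩ := hK.bound hKgen
  have h1 := enum_index (g := ga x k q) [1, 2, 6] (fun c => if c = 1 then J2Enum1.E1 else if c = 2 then J2Enum1.E2
      else J2Enum1.E6) rfl
    h.hiv h.hR K (by
      intro c hc
      simp only [List.mem_cons, List.not_mem_nil, or_false] at hc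
      rcases hc with rfl | rfl
      · exact hx
      · exact hk) J2Enum1.ok (n := 6) (by norm_num)
    (by
      rw [eq_top_iff, ← hgen, Subgroup.closure_le]
      rintro a (rfl | rfl | rfl)
      · exact Subgroup.subset_closure ⟨1, by simp, rfl⟩
      · exact Subgroup.subset_closure ⟨2, by simp, rfl⟩
      · exact Subgroup.subset_closure ⟨6, by simp, rfl⟩) (by
      intro c hc
      simp only [List.mem_cons, List.not_mem_nil, or_false] at hc
      rcases hc with rfl | rfl | rfl
      · exact J2Enum1.cl1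
      · exact J2Enum1.cl2
      · exact J2Enum1.cl6)
  exact card_le_mul K h1 hc

end Cfsg.Agent.Lib.J2Pres
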