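import Cfsg.Agent.Lib.ExtraCount
import Cfsg.Agent.Lib.JTw1

/-!
# Extraspecial groups of order 32 acted on by an element of order 5 are of minus type
-/

set_option autoImplicit false
open Cfsg Cfsg.Agent.Lib.ExtraCount Cfsg.Agent.Lib.JTw

namespace Cfsg.Agent.Lib.J3P

open scoped Pointwise

theorem entry_minus {C : Type*} [Group C] [Finite C] (E : Subgroup C) [hn : E.Normal] (hE : Nat.card E = 32)
    (hX : Cfsg.IsExtraspecial 2 E) (h5 : 5 ∣ Nat.card C) (hc : Subgroup.centralizer (E : Set C) ≤ E) :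
    ∀ A : Subgroup E, Cfsg.IsElementaryAbelian 2 A → Nat.card A ≤ 2 ^ 2 := by
  classical
  intro A hA
  by_contra hcon
  push Not at hcon
  have H : Hyp E := Hyp.of_isExtraspecial hX
  have : Fact (Nat.Prime 5) := ⟨by norm_num⟩
  -- the element of order 5
  obtain ⟨x, hx⟩ := exists_prime_orderOf_dvd_card' 5 h5
  have hx5 : x ^ 5 = 1 := by rw [← hx, pow_orderOf_eq_one]
  -- fixed points
  let F : Subgroup C := E ⊓ Subgroup.centralizer ({x} : Set C)
  have hF : (F : Set C) = {a : C | a ∈ (E : Set C) ∧ x * a = a * x} := by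
    ext a
    simp only [F, Subgroup.coe_inf, Set.mem_inter_iff, SetLike.mem_coe, Set.mem_setOf_eq]
    rw [mem_centralizer_one]
    exact and_congr_right fun _ => eq_comm
  have hmod := fix_mod hx5 (E : Set C) (fun a ha => hn.conj_mem a ha x)
  rw [← hF, ← card_eq_ncard, ← card_eq_ncard, hE] at hmod
  have hFd : Nat.card F ∣ 32 := by
    rw [← hE]; exact Subgroup.card_dvd_of_le inf_le_left
  have hF2 : Nat.card F = 2 := by
    have h1 : Nat.card F ≤ 32 := Nat.le_of_dvd (by norm_num) hFd
    have h2 : Nat.card F = 2 ∨ Nat.card F = 32 := by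
      generalize Nat.card F = k at *
      unfold Nat.ModEq at hmod
      interval_cases k <;> omega
    rcases h2 with h2 | h2
    · exact h2
    · exfalso
      have h3 : F = E := Subgroup.eq_of_le_of_card_ge inf_le_left (by rw [h2, hE])
      have h4 : x ∈ Subgroup.centralizer (E : Set C) := by
        rw [Subgroup.mem_centralizer_iff]
        intro e he
        have : e ∈ F := by rw [h3]; exact he
        exact mem_centralizer_one.1 this.2
      have h6 := hc h4
      have h7 : orderOf (⟨x, h6⟩ : E) ∣ Nat.card E := orderOf_dvd_natCard _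
      rw [Subgroup.orderOf_mk, hx, hE] at h7
      norm_num at h7
  -- elements of order 4
  let W : Set C := {a : C | a ∈ E ∧ orderOf a = 4}
  have hW := fix_mod hx5 W (fun a ha => ⟨hn.conj_mem a ha.1 x, by
    have : orderOf (x * a * x⁻¹) = orderOf a := by
      have := MulEquiv.orderOf_eq (MulAut.conj x) a
      simpa using this
    rw [this]; exact ha.2⟩)
  have hempty : {a : C | a ∈ W ∧ x * a = a * x} = ∅ := by
    apply Set.eq_empty_of_forall_notMem
    rintro a ⟨⟨h1, h2⟩, h3⟩
    have h4 : a ∈ F := ⟨h1, mem_centralizer_one.2 h3.symm⟩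
    have h7 : orderOf (⟨a, h4⟩ : F) ∣ Nat.card F := orderOf_dvd_natCard _
    rw [Subgroup.orderOf_mk, h2, hF2] at h7
    norm_num at h7
  rw [hempty, Set.ncard_empty] at hW
  have hWc : W.ncard = Nat.card {a : E // orderOf a = 4} := by
    rw [← Nat.card_coe_set_eq]
    apply Nat.card_congr
    exact ⟨fun a => ⟨⟨a.1, a.2.1⟩, by rw [Subgroup.orderOf_mk]; exact a.2.2⟩,
      fun a => ⟨a.1.1, a.1.2, by rw [Subgroup.orderOf_coe]; exact a.2⟩, fun _ => rfl, fun _ => rfl⟩
  -- the subgroup B
  let B : Subgroup E := A ⊔ Subgroup.center E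
  have hA1 : IsMulCommutative A := hA.1
  have hAsq : ∀ a ∈ A, a ^ 2 = 1 := hA.2
  have hAc : ∀ a ∈ A, ∀ b ∈ A, a * b = b * a := fun a ha b hb =>
    congrArg Subtype.val (hA1.is_comm.comm (⟨a, ha⟩ : A) ⟨b, hb⟩)
  have hBm : ∀ b ∈ B, ∃ a ∈ A, ∃ z ∈ Subgroup.center E, a * z = b := fun b hb => by
    have hb' : b ∈ ((A ⊔ Subgroup.center E : Subgroup E) : Set E) := hb
    rw [Subgroup.mul_normal A (Subgroup.center E)] at hb'
    obtain ⟨a, ha, z, hz, h⟩ := Set.mem_mul.1 hb'
    exact ⟨a, ha, z, hz, h⟩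
  have hBsq : ∀ b ∈ B, b ^ 2 = 1 := by
    intro b hb
    obtain ⟨a, ha, z, hz, rfl⟩ := hBm b hb
    have h1 : z * a = a * z := (Subgroup.mem_center_iff.1 hz a).symm
    calc (a * z) ^ 2 = a * (z * a) * z := by rw [pow_two]; group
      _ = a * (a * z) * z := by rw [h1]
      _ = a ^ 2 * (z * z) := by rw [pow_two]; group
      _ = 1 := by rw [hAsq a ha, H.mul_self hz, one_mul]
  have hBc : ∀ b ∈ B, ∀ c ∈ B, b * c = c * b := by
    intro b hb c hc'
    have h1 : ∀ u v : E, u ^ 2 = 1 → v ^ 2 = 1 → (u * v) ^ 2 = 1 → u * v = v * u := by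
      intro u v hu hv huv
      have e1 : u⁻¹ = u := by rw [inv_eq_iff_mul_eq_one, ← pow_two, hu]
      have e2 : v⁻¹ = v := by rw [inv_eq_iff_mul_eq_one, ← pow_two, hv]
      have e3 : (u * v)⁻¹ = u * v := by rw [inv_eq_iff_mul_eq_one, ← pow_two, huv]
      rw [← e3, mul_inv_rev, e1, e2]
    exact h1 b c (hBsq b hb) (hBsq c hc') (hBsq _ (mul_mem hb hc'))
  have hle : B ≤ Subgroup.centralizer (B : Set E) := by
    intro b hb
    rw [Subgroup.mem_centralizer_iff]
    intro c hc'
    exact hBc c hc' b hb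
  have hinf : B ⊓ Subgroup.center E = Subgroup.center E := inf_eq_right.2 le_sup_right
  have hcm := H.card_centralizer_mul B
  rw [hinf, H.card_center, hE] at hcm
  have hB8 : 8 ≤ Nat.card B := by
    have h1 : Nat.card A ≤ Nat.card B := Subgroup.card_le_of_le le_sup_left
    have h2 : Nat.card B ∣ 32 := by rw [← hE]; exact Subgroup.card_subgroup_dvd_card B
    have h3 : Nat.card B ≤ 32 := Nat.le_of_dvd (by norm_num) h2
    have h4 : 4 < Nat.card B := by omega
    generalize Nat.card B = k at *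
    interval_cases k <;> omega
  have hCB : Nat.card B ≤ Nat.card (Subgroup.centralizer (B : Set E)) := Subgroup.card_le_of_le hle
  have hCBe : Nat.card (Subgroup.centralizer (B : Set E)) ≤ Nat.card B := by nlinarith
  have hBe : Nat.card B = 8 := by
    have h1 : Nat.card (Subgroup.centralizer (B : Set E)) = Nat.card B := le_antisymm hCBe hCB
    rw [h1] at hcm
    nlinarith
  have hfin := H.card_order_four B hBsq (Subgroup.eq_of_le_of_card_ge hle hCBe).symm
  rw [hBe, hE, ← hWc] at hfin
  unfold Nat.ModEq at hW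
  omega

end Cfsg.Agent.Lib.J3P
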