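import Cfsg.Agent.Lib.JTw8
import Mathlib

set_option autoImplicit false
open Cfsg Cfsg.Agent.Lib.LargeExtra Cfsg.Agent.Lib.JTw Cfsg.Agent.Lib.JTw.Setup

/-! S0456, piece C5 (helper17) -/

namespace Cfsg.Agent.Lib.J3P

variable {G : Type*} [Group G] [Finite G]

/-- [C5] -/
theorem cent_five (S : Setup G) {s x : G} (hs : S.Z s) (hx : orderOf x = 5) (hsx : s * x = x * s) :
    Nat.card ↥(Subgroup.centralizer ({s} : Set G) ⊓ Subgroup.centralizer ({x} : Set G)) = 10 := by
  rw [inf_comm]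
  exact Base.five_cent (Setup.Z.base hs) hsx.symm hx

end Cfsg.Agent.Lib.J3P
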