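import Mathlib

set_option autoImplicit false

namespace Cfsg.Agent.Lib.J3P.E0

open Equiv Equiv.Perm

/-- the standard 5-cycle -/
def c : Perm (Fin 6) := ⟨![1,2,3,4,0,5], ![4,0,1,2,3,5], by decide, by decide⟩
def b1 : Perm (Fin 6) := ⟨![0,4,3,2,1,5], ![0,4,3,2,1,5], by decide, by decide⟩
def b2 : Perm (Fin 6) := ⟨![0,2,4,1,3,5], ![0,3,1,4,2,5], by decide, by decide⟩
def b3 : Perm (Fin 6) := ⟨![0,3,1,4,2,5], ![0,2,4,1,3,5], by decide, by decide⟩

theorem c_five : c ^ 5 = 1 := by decide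
theorem c_ne : c ≠ 1 := by decide
theorem b1_inv : b1 * c * b1⁻¹ = c⁻¹ := by decide
theorem b1_sq : b1 * b1 = 1 := by decide
theorem b1_ne : b1 ≠ 1 := by decide
theorem b1_sign : sign b1 = 1 := by decide
theorem b2_conj : b2 * c * b2⁻¹ = c ^ 2 := by decide
theorem b3_conj : b3 * c * b3⁻¹ = c ^ 3 := by decide
theorem b2_sign : sign b2 = -1 := by decide
theorem b3_sign : sign b3 = -1 := by decide

instance : Fact (Nat.Prime 5) := ⟨by norm_num⟩
instance : Fact (Nat.Prime 3) := ⟨by norm_num⟩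

theorem type_five {a : Perm (Fin 6)} (ha : orderOf a = 5) : a.cycleType = {5} := by
  obtain ⟨n, hn⟩ := cycleType_prime_order (σ := a) (by rw [ha]; norm_num)
  rw [ha] at hn
  have h1 : a.cycleType.sum ≤ 6 := by
    rw [sum_cycleType]
    exact (Finset.card_le_univ _).trans (by simp)
  rw [hn, Multiset.sum_replicate, smul_eq_mul] at h1
  have : n = 0 := by omega
  subst this
  simpa using hn

theorem ord_c : orderOf c = 5 := orderOf_eq_prime c_five c_ne

theorem exists_conj {a : Perm (Fin 6)} (ha : orderOf a = 5) : ∃ g : Perm (Fin 6), g * c * g⁻¹ = a := by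
  have h : IsConj c a := by
    rw [isConj_iff_cycleType_eq, type_five ha, type_five ord_c]
  exact isConj_iff.1 h

theorem cent_card {a : Perm (Fin 6)} (ha : orderOf a = 5) :
    Nat.card (Subgroup.centralizer ({a} : Set (Perm (Fin 6)))) = 5 := by
  rw [Equiv.Perm.nat_card_centralizer, type_five ha]
  simp

theorem cent_eq {a : Perm (Fin 6)} (ha : orderOf a = 5) {b : Perm (Fin 6)} (hb : b * a = a * b) :
    b ∈ Subgroup.zpowers a := by
  have hle : Subgroup.zpowers a ≤ Subgroup.centralizer ({a} : Set (Perm (Fin 6))) := by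
    rw [Subgroup.zpowers_le]
    exact Subgroup.mem_centralizer_singleton_iff.2 rfl
  have := Subgroup.eq_of_le_of_card_ge hle (by rw [cent_card ha, Nat.card_zpowers, ha])
  rw [this]
  exact Subgroup.mem_centralizer_singleton_iff.2 hb

theorem sign_five {a : Perm (Fin 6)} (ha : orderOf a = 5) : sign a = 1 := by
  have h : a ^ 5 = 1 := by rw [← ha]; exact pow_orderOf_eq_one a
  have h2 : sign a ^ 5 = 1 := by rw [← map_pow, h, map_one]
  rcases Int.units_eq_one_or (sign a) with h3 | h3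
  · exact h3
  · rw [h3] at h2
    exact absurd h2 (by decide)

theorem sign_cent {a : Perm (Fin 6)} (ha : orderOf a = 5) {b : Perm (Fin 6)} (hb : b * a = a * b) :
    sign b = 1 := by
  obtain ⟨m, rfl⟩ := Subgroup.mem_zpowers_iff.1 (cent_eq ha hb)
  rw [map_zpow, sign_five ha, one_zpow]

theorem even_norm {a : Perm (Fin 6)} (ha : orderOf a = 5) {b : Perm (Fin 6)} (hb : sign b = 1)
    (h : b * a * b⁻¹ ∈ Subgroup.zpowers a) : b * a * b⁻¹ = a ∨ b * a * b⁻¹ = a⁻¹ := by
  obtain ⟨g, hg⟩ := exists_conj ha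
  have ha5 : a ^ 5 = 1 := by rw [← ha]; exact pow_orderOf_eq_one a
  have hcomm : ∀ (b' : Perm (Fin 6)) (m : ℕ), b' * c * b'⁻¹ = c ^ m → sign b' = -1 → b * a * b⁻¹ ≠ a ^ m := by
    intro b' m hm hs hba
    have h1 : (g * b' * g⁻¹) * a * (g * b' * g⁻¹)⁻¹ = a ^ m := by
      rw [← hg, conj_pow, ← hm]; group
    have h2 : ((g * b' * g⁻¹)⁻¹ * b) * a = a * ((g * b' * g⁻¹)⁻¹ * b) := by
      have h3 : b * a = a ^ m * b := by rw [← hba]; group
      have h4 : (g * b' * g⁻¹)⁻¹ * a ^ m = a * (g * b' * g⁻¹)⁻¹ := by rw [← h1]; group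
      rw [mul_assoc, h3, ← mul_assoc, h4, mul_assoc]
    have h5 := sign_cent ha h2
    rw [map_mul, map_inv, map_mul, map_mul, map_inv, hb, hs] at h5
    have h6 : sign g * -1 * (sign g)⁻¹ = -1 := by
      rcases Int.units_eq_one_or (sign g) with h | h <;> rw [h] <;> decide
    rw [h6] at h5
    exact absurd h5 (by decide)
  have hfin : ∃ m < 5, b * a * b⁻¹ = a ^ m := by
    rw [← mem_powers_iff_mem_zpowers] at h
    obtain ⟨m, hm⟩ := h
    refine ⟨m % 5, Nat.mod_lt _ (by norm_num), ?_⟩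
    rw [← ha, pow_mod_orderOf]; exact hm.symm
  obtain ⟨m, hm, hba⟩ := hfin
  interval_cases m
  · exfalso
    rw [pow_zero] at hba
    have : a = 1 := by simpa using hba
    rw [this, orderOf_one] at ha
    exact absurd ha (by norm_num)
  · left; simpa using hba
  · exact absurd hba (hcomm b2 2 b2_conj b2_sign)
  · exact absurd hba (hcomm b3 3 b3_conj b3_sign)
  · right
    rw [hba]
    exact eq_inv_of_mul_eq_one_left (by rw [← pow_succ]; exact ha5)

theorem exists_inv {a : Perm (Fin 6)} (ha : orderOf a = 5) :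
    ∃ b : Perm (Fin 6), sign b = 1 ∧ b * b = 1 ∧ b ≠ 1 ∧ b * a * b⁻¹ = a⁻¹ := by
  obtain ⟨g, hg⟩ := exists_conj ha
  refine ⟨g * b1 * g⁻¹, ?_, ?_, ?_, ?_⟩
  · rw [map_mul, map_mul, map_inv, b1_sign]; simp
  · have : g * b1 * g⁻¹ * (g * b1 * g⁻¹) = g * (b1 * b1) * g⁻¹ := by group
    rw [this, b1_sq]; group
  · intro h
    exact b1_ne (by simpa using h)
  · rw [← hg]
    have : g * b1 * g⁻¹ * (g * c * g⁻¹) * (g * b1 * g⁻¹)⁻¹ = g * (b1 * c * b1⁻¹) * g⁻¹ := by group
    rw [this, b1_inv]; group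

section
variable {G : Type*} [Group G]

theorem eq_of_coprime {y u v : G} (hy : orderOf y = 3) (hu : u ^ 5 = 1) (hv : v ^ 5 = 1)
    (huv : u * v⁻¹ ∈ Subgroup.zpowers y) (hvy : v * y = y * v) : u = v := by
  obtain ⟨m, hm⟩ := Subgroup.mem_zpowers_iff.1 huv
  have hc : Commute (y ^ m) v := by
    have : Commute y v := hvy.symm
    exact this.zpow_left m
  have hu' : u = y ^ m * v := by rw [hm]; group
  have h5 : (y ^ m) ^ 5 = 1 := by
    have := hc.mul_pow 5
    rw [← hu', hu, hv, mul_one] at this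
    exact this.symm
  have hy3 : y ^ 3 = 1 := by rw [← hy]; exact pow_orderOf_eq_one y
  have h3 : (y ^ m) ^ 3 = 1 := by
    rw [← zpow_natCast, ← zpow_mul, mul_comm, zpow_mul, zpow_natCast, hy3, one_zpow]
  have h1 : y ^ m = 1 := by
    have h6 : (y ^ m) ^ 6 = 1 := by
      rw [show 6 = 3 * 2 from rfl, pow_mul, h3, one_pow]
    rw [show 6 = 5 + 1 from rfl, pow_succ, h5, one_mul] at h6
    exact h6
  rw [hu', h1, one_mul]

theorem mem_norm {x b : G} (h : b * x * b⁻¹ = x⁻¹) :
    b ∈ Subgroup.normalizer (Subgroup.zpowers x : Set G) := by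
  have h2 : b⁻¹ * x * b = x⁻¹ := by
    have : x = b⁻¹ * x⁻¹ * b := by rw [← h]; group
    calc b⁻¹ * x * b = (b⁻¹ * x⁻¹ * b)⁻¹ := by group
      _ = x⁻¹ := by rw [← this]
  rw [Subgroup.mem_normalizer_iff]
  intro g
  constructor
  · intro hg
    obtain ⟨m, rfl⟩ := Subgroup.mem_zpowers_iff.1 hg
    rw [← conj_zpow, h]
    exact Subgroup.zpow_mem _ (Subgroup.inv_mem _ (Subgroup.mem_zpowers x)) m
  · intro hg
    obtain ⟨m, hm⟩ := Subgroup.mem_zpowers_iff.1 hg
    have : g = b⁻¹ * x ^ m * b := by rw [hm]; group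
    rw [this]
    have h3 : b⁻¹ * x ^ m * b = (b⁻¹ * x * b) ^ m := by
      have := conj_zpow (i := m) (a := b⁻¹) (b := x)
      simpa using this.symm
    rw [h3, h2]
    exact Subgroup.zpow_mem _ (Subgroup.inv_mem _ (Subgroup.mem_zpowers x)) m

theorem mem_norm' {x b : G} (h : b * x = x * b) :
    b ∈ Subgroup.normalizer (Subgroup.zpowers x : Set G) := by
  have hc : ∀ m : ℤ, b * x ^ m = x ^ m * b := fun m => by
    have h' : Commute b x := h
    exact (h'.zpow_right m)
  rw [Subgroup.mem_normalizer_iff]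
  intro g
  constructor
  · intro hg
    obtain ⟨m, rfl⟩ := Subgroup.mem_zpowers_iff.1 hg
    rw [hc, mul_inv_cancel_right]
    exact hg
  · intro hg
    obtain ⟨m, hm⟩ := Subgroup.mem_zpowers_iff.1 hg
    have h1 : b * g = x ^ m * b := by rw [hm]; group
    rw [← hc] at h1
    rw [mul_left_cancel h1]
    exact Subgroup.zpow_mem _ (Subgroup.mem_zpowers x) m

theorem card_sub (A B : Subgroup G) (h : A ≤ B) : Nat.card (A.subgroupOf B) = Nat.card A :=
  Nat.card_congr (Subgroup.subgroupOfEquivOfLe h).toEquiv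

end

end Cfsg.Agent.Lib.J3P.E0

namespace Cfsg.Agent.Lib.J3P
open E0

variable {G : Type*} [Group G] [Finite G]

theorem six_facts {y : G} (hy : orderOf y = 3)
    [hn : (Subgroup.zpowers y |>.subgroupOf (Subgroup.centralizer ({y} : Set G))).Normal]
    (e : (Subgroup.centralizer ({y} : Set G) ⧸ (Subgroup.zpowers y).subgroupOf (Subgroup.centralizer ({y} : Set G))) ≃*
      alternatingGroup (Fin 6)) {x : G} (hx : orderOf x = 5) (hxy : x * y = y * x) :
    Nat.card (Subgroup.centralizer ({y} : Set G)) = 1080 ∧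
    Nat.card ↥(Subgroup.centralizer ({x} : Set G) ⊓ Subgroup.centralizer ({y} : Set G)) = 15 ∧
    Nat.card ↥(Subgroup.normalizer (Subgroup.zpowers x : Set G) ⊓ Subgroup.centralizer ({y} : Set G)) = 30 ∧
    ∃ i : G, orderOf i = 2 ∧ i * y = y * i ∧ i * x * i⁻¹ = x⁻¹ := by
  classical
  set K := Subgroup.centralizer ({y} : Set G) with hK
  set N := (Subgroup.zpowers y).subgroupOf K with hN
  let ψ : K →* alternatingGroup (Fin 6) := e.toMonoidHom.comp (QuotientGroup.mk' N)
  have hψs : Function.Surjective ψ := e.surjective.comp (QuotientGroup.mk'_surjective N)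
  have hψk : ∀ k : K, ψ k = 1 ↔ (k : G) ∈ Subgroup.zpowers y := by
    intro k
    change e (QuotientGroup.mk' N k) = 1 ↔ _
    rw [map_eq_one_iff e e.injective, QuotientGroup.mk'_apply, QuotientGroup.eq_one_iff, hN,
      Subgroup.mem_subgroupOf]
  have hzK : Subgroup.zpowers y ≤ K := by
    rw [Subgroup.zpowers_le]
    exact Subgroup.mem_centralizer_singleton_iff.2 rfl
  have hxK : x ∈ K := Subgroup.mem_centralizer_singleton_iff.2 hxy
  have hA6 : Nat.card (alternatingGroup (Fin 6)) = 360 := by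
    have := nat_card_alternatingGroup (α := Fin 6)
    rw [this]; simp [Nat.factorial]
  have hKc : Nat.card K = 1080 := by
    rw [Subgroup.card_eq_card_quotient_mul_card_subgroup N, Nat.card_congr e.toEquiv, hA6, hN,
      card_sub _ _ hzK, Nat.card_zpowers, hy]
  have hx5 : x ^ 5 = 1 := by rw [← hx]; exact pow_orderOf_eq_one x
  have hy3 : y ^ 3 = 1 := by rw [← hy]; exact pow_orderOf_eq_one y
  have hx1 : x ≠ 1 := by
    rintro rfl
    rw [orderOf_one] at hx
    exact absurd hx (by norm_num)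
  let X : K := ⟨x, hxK⟩
  let a : Equiv.Perm (Fin 6) := (ψ X : Equiv.Perm (Fin 6))
  have ha : orderOf a = 5 := by
    refine orderOf_eq_prime ?_ ?_
    · have : X ^ 5 = 1 := Subtype.ext hx5
      change ((ψ X : Equiv.Perm (Fin 6))) ^ 5 = 1
      rw [← Subgroup.coe_pow, ← map_pow, this, map_one, Subgroup.coe_one]
    · intro h
      have h1 : ψ X = 1 := Subtype.ext h
      have h2 := (hψk X).1 h1
      have h3 : x = 1 := eq_of_coprime (y := y) hy hx5 (one_pow 5) (by simpa using h2) (by simp)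
      exact hx1 h3
  -- conjugates of `x` lift uniquely
  have hlift : ∀ (k : K) (v : K), (v : G) ^ 5 = 1 → ψ k * ψ X * (ψ k)⁻¹ = ψ v →
      (k : G) * x * (k : G)⁻¹ = v := by
    intro k v hv h
    refine eq_of_coprime hy ?_ hv ?_ (Subgroup.mem_centralizer_singleton_iff.1 v.2)
    · rw [conj_pow, hx5]; group
    · have h1 : ψ (k * X * k⁻¹ * v⁻¹) = 1 := by
        rw [map_mul, map_mul, map_mul, map_inv, map_inv, h, mul_inv_cancel]
      exact (hψk _).1 h1
  have hsgn : ∀ k : K, Equiv.Perm.sign (ψ k : Equiv.Perm (Fin 6)) = 1 := fun k =>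
    Equiv.Perm.mem_alternatingGroup.1 (ψ k).2
  -- the centralizer
  have hC : Nat.card ↥(Subgroup.centralizer ({x} : Set G) ⊓ K) = 15 := by
    have h1 : (Subgroup.centralizer ({x} : Set G)).subgroupOf K = (Subgroup.zpowers (ψ X)).comap ψ := by
      ext k
      rw [Subgroup.mem_subgroupOf, Subgroup.mem_comap, Subgroup.mem_centralizer_singleton_iff]
      constructor
      · intro h
        have h2 : k * X = X * k := Subtype.ext h
        have h3 : (ψ k : Equiv.Perm (Fin 6)) * a = a * (ψ k : Equiv.Perm (Fin 6)) := by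
          change (ψ k : Equiv.Perm (Fin 6)) * (ψ X : Equiv.Perm (Fin 6)) = (ψ X : Equiv.Perm (Fin 6)) * (ψ k : Equiv.Perm (Fin 6))
          rw [← Subgroup.coe_mul, ← Subgroup.coe_mul, ← map_mul, ← map_mul, h2]
        obtain ⟨m, hm⟩ := Subgroup.mem_zpowers_iff.1 (cent_eq ha h3)
        exact Subgroup.mem_zpowers_iff.2 ⟨m, Subtype.ext (by rw [Subgroup.coe_zpow]; exact hm)⟩
      · intro h
        obtain ⟨m, hm⟩ := Subgroup.mem_zpowers_iff.1 h
        have h2 : ψ k * ψ X * (ψ k)⁻¹ = ψ X := by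
          rw [← hm]; group
        have h3 := hlift k X hx5 h2
        calc (k : G) * x = (k : G) * x * (k : G)⁻¹ * k := by group
          _ = x * k := by rw [h3]
    have h2 : Nat.card ((Subgroup.centralizer ({x} : Set G)).subgroupOf K) * 72 = 1080 := by
      have h3 := Subgroup.card_mul_index ((Subgroup.centralizer ({x} : Set G)).subgroupOf K)
      have h4 : ((Subgroup.centralizer ({x} : Set G)).subgroupOf K).index = 72 := by
        rw [h1, Subgroup.index_comap_of_surjective _ hψs]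
        have h5 := Subgroup.card_mul_index (Subgroup.zpowers (ψ X))
        rw [hA6, Nat.card_zpowers] at h5
        have h6 : orderOf (ψ X) = 5 := by
          rw [← ha]; exact (Subgroup.orderOf_coe (ψ X)).symm
        rw [h6] at h5
        omega
      rw [h4, hKc] at h3
      exact h3
    rw [← Subgroup.inf_subgroupOf_right, card_sub _ _ inf_le_right] at h2
    omega
  -- an inverting involution
  obtain ⟨b, hb1, hb2, hb3, hb4⟩ := E0.exists_inv ha
  obtain ⟨k, hk⟩ := hψs ⟨b, Equiv.Perm.mem_alternatingGroup.2 hb1⟩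
  have hinv : ∀ k : K, (ψ k : Equiv.Perm (Fin 6)) * a * (ψ k : Equiv.Perm (Fin 6))⁻¹ = a⁻¹ →
      (k : G) * x * (k : G)⁻¹ = x⁻¹ := by
    intro k h
    refine hlift k X⁻¹ ?_ ?_
    · change (x⁻¹) ^ 5 = 1
      rw [inv_pow, hx5, inv_one]
    · apply Subtype.ext
      rw [map_inv, Subgroup.coe_mul, Subgroup.coe_mul, Subgroup.coe_inv, Subgroup.coe_inv]
      exact h
  have hk2 : ψ (k * k) = 1 := by
    apply Subtype.ext
    rw [map_mul, Subgroup.coe_mul, hk]
    exact hb2
  have hk6 : ((k : G) * k) ^ 3 = 1 := by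
    obtain ⟨m, hm⟩ := Subgroup.mem_zpowers_iff.1 ((hψk _).1 hk2)
    have hm' : y ^ m = (k : G) * k := hm
    rw [← hm', ← zpow_natCast, ← zpow_mul, mul_comm, zpow_mul, zpow_natCast, hy3, one_zpow]
  have hψk3 : (ψ (k ^ 3) : Equiv.Perm (Fin 6)) = b := by
    rw [map_pow, Subgroup.coe_pow, hk]
    change b ^ 3 = b
    rw [pow_succ, pow_two, hb2, one_mul]
  have hi2 : orderOf ((k : G) ^ 3) = 2 := by
    refine orderOf_eq_prime ?_ ?_
    · rw [← pow_mul, show 3 * 2 = 2 * 3 from rfl, pow_mul, pow_two]; exact hk6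
    · intro h
      have h1 : k ^ 3 = 1 := Subtype.ext h
      rw [h1, map_one, Subgroup.coe_one] at hψk3
      exact hb3 hψk3.symm
  have hix : (k : G) ^ 3 * x * ((k : G) ^ 3)⁻¹ = x⁻¹ := by
    have := hinv (k ^ 3) (by rw [hψk3]; exact hb4)
    simpa using this
  have hiK : (k : G) ^ 3 ∈ K := (k ^ 3 : K).2
  set i : G := (k : G) ^ 3 with hi
  -- the normalizer
  have hNc : Nat.card ↥(Subgroup.normalizer (Subgroup.zpowers x : Set G) ⊓ K) = 30 := by
    set C := Subgroup.centralizer ({x} : Set G) ⊓ K with hCdef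
    set M := Subgroup.normalizer (Subgroup.zpowers x : Set G) ⊓ K with hM
    have hdich : ∀ b ∈ M, b * x * b⁻¹ = x ∨ b * x * b⁻¹ = x⁻¹ := by
      rintro b ⟨hb, hbK⟩
      have h1 : b * x * b⁻¹ ∈ Subgroup.zpowers x :=
        (Subgroup.mem_normalizer_iff.1 hb x).1 (Subgroup.mem_zpowers x)
      obtain ⟨m, hm⟩ := Subgroup.mem_zpowers_iff.1 h1
      let B : K := ⟨b, hbK⟩
      have h2 : B * X * B⁻¹ = X ^ m := Subtype.ext hm.symm
      have h3 : ψ B * ψ X * (ψ B)⁻¹ = ψ X ^ m := by
        rw [← map_inv, ← map_mul, ← map_mul, h2, map_zpow]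
      have h4 : (ψ B : Equiv.Perm (Fin 6)) * a * (ψ B : Equiv.Perm (Fin 6))⁻¹ = a ^ m := by
        have := congrArg (Subtype.val) h3
        simpa using this
      rcases even_norm ha (hsgn B) (by rw [h4]; exact Subgroup.zpow_mem _ (Subgroup.mem_zpowers a) m)
        with h | h
      · left
        exact hlift B X hx5 (Subtype.ext (by simpa using h))
      · right
        exact hinv B h
    have hCM : C ≤ M := by
      rintro b ⟨hb, hbK⟩
      refine ⟨?_, hbK⟩
      exact mem_norm' (Subgroup.mem_centralizer_singleton_iff.1 hb)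
    have hiM : i ∈ M := ⟨mem_norm hix, hiK⟩
    have hrel : C.relIndex M = 2 := by
      rw [Subgroup.relIndex_eq_two_iff]
      refine ⟨i, hiM, ?_⟩
      intro b hb
      have hx2 : x ≠ x⁻¹ := by
        intro h
        have h2 : x ^ 2 = 1 := by rw [pow_two]; nth_rewrite 1 [h]; group
        have h3 : x ^ 5 = x := by
          rw [show 5 = 2 * 2 + 1 from rfl, pow_succ, pow_mul, h2, one_pow, one_mul]
        exact hx1 (by rw [← h3, hx5])
      have hmem : ∀ g ∈ M, g ∈ C ↔ g * x * g⁻¹ = x := by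
        intro g hg
        rw [hCdef, Subgroup.mem_inf, Subgroup.mem_centralizer_singleton_iff]
        constructor
        · rintro ⟨h, -⟩
          rw [h]; group
        · intro h
          refine ⟨?_, hg.2⟩
          calc g * x = g * x * g⁻¹ * g := by group
            _ = x * g := by rw [h]
      rw [hmem b hb, hmem _ (M.mul_mem hb hiM)]
      have hbi : b * i * x * (b * i)⁻¹ = b * x⁻¹ * b⁻¹ := by
        rw [← hix]; group
      have hbi' : b * x⁻¹ * b⁻¹ = (b * x * b⁻¹)⁻¹ := by group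
      rw [hbi, hbi']
      rcases hdich b hb with h | h
      · rw [h]
        right
        exact ⟨rfl, fun h' => hx2 h'.symm⟩
      · rw [h, inv_inv]
        left
        exact ⟨rfl, fun h' => hx2 h'.symm⟩
    have h1 := Subgroup.card_mul_index (C.subgroupOf M)
    rw [card_sub _ _ hCM, hC] at h1
    rw [← h1]
    change 15 * (C.relIndex M) = 30
    rw [hrel]
  refine ⟨hKc, hC, hNc, i, hi2, ?_, hix⟩
  exact Subgroup.mem_centralizer_singleton_iff.1 hiK

end Cfsg.Agent.Lib.J3P
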