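import Mathlib

/-! The piece E2 of S0456: a group with a central element of order 5 (helper57). -/

set_option autoImplicit false
set_option linter.all false

namespace Cfsg.Agent.Lib.J3P

theorem E2_fib {α β : Type*} [Finite α] (f : α → β) (n : ℕ) (S : Set β) (hSf : S.Finite) (hS : ∀ a, f a ∈ S)
    (h : ∀ b ∈ S, Nat.card {a // f a = b} ≤ n) : Nat.card α ≤ n * S.ncard := by
  classical
  haveI : Fintype α := Fintype.ofFinite α
  haveI : Fintype S := hSf.fintype
  rw [Nat.card_eq_fintype_card, Set.ncard_eq_toFinset_card']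
  have := Finset.card_le_mul_card_image_of_maps_to (f := f) (s := Finset.univ) (t := S.toFinset) (fun a _ => Set.mem_toFinset.2 (hS a)) n
    (fun b hb => by
      have h1 := h b (Set.mem_toFinset.1 hb)
      rw [Nat.card_eq_fintype_card, Fintype.card_subtype] at h1
      exact h1)
  exact this

theorem E2_mem {H : Type*} [Group H] {a b : H} : a ∈ Subgroup.centralizer ({b} : Set H) ↔ a * b = b * a := by
  rw [Subgroup.mem_centralizer_singleton_iff]

/-- an involution with centralizer of order 2 -/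
theorem E2_inv {Q : Type*} [Group Q] [Finite Q] {t u : Q} (ht : t * t = 1) (ht1 : t ≠ 1)
    (hc : Nat.card (Subgroup.centralizer ({t} : Set Q)) = 2) (hu : ¬ ∃ q : Q, u = q * t * q⁻¹) :
    Nat.card Q ≤ 2 * Nat.card (Subgroup.centralizer ({u} : Set Q)) := by
  classical
  set D : Set Q := {d | ∃ q : Q, d = q * t * q⁻¹} with hD
  have hcent : ∀ q : Q, q * t = t * q → q = 1 ∨ q = t := by
    intro q hq
    have h1 : Nat.card (Subgroup.zpowers t) = 2 := by
      rw [Nat.card_zpowers]
      exact orderOf_eq_prime (by rw [pow_two]; exact ht) ht1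
    have h2 : Subgroup.zpowers t ≤ Subgroup.centralizer ({t} : Set Q) := by
      rw [Subgroup.zpowers_le]
      exact E2_mem.2 rfl
    have h3 : Subgroup.zpowers t = Subgroup.centralizer ({t} : Set Q) := Subgroup.eq_of_le_of_card_ge h2 (by rw [h1, hc])
    have h4 : q ∈ Subgroup.zpowers t := by rw [h3]; exact E2_mem.2 hq
    obtain ⟨k, hk⟩ := Subgroup.mem_zpowers_iff.1 h4
    rcases Int.even_or_odd' k with ⟨m, hm | hm⟩
    · left
      rw [← hk, hm, zpow_mul, zpow_two, ht, one_zpow]
    · right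
      rw [← hk, hm, zpow_add, zpow_mul, zpow_two, ht, one_zpow, one_mul, zpow_one]
  have h1 : Nat.card Q ≤ 2 * D.ncard := by
    apply E2_fib (fun q : Q => q * t * q⁻¹) 2 D (Set.toFinite _) (fun q => ⟨q, rfl⟩)
    rintro b ⟨q0, rfl⟩
    rw [← hc]
    let F : {a : Q // a * t * a⁻¹ = q0 * t * q0⁻¹} → Subgroup.centralizer ({t} : Set Q) := fun a =>
      ⟨q0⁻¹ * a.1, E2_mem.2 (by
        have h2 : a.1 * t * a.1⁻¹ = q0 * t * q0⁻¹ := a.2
        calc q0⁻¹ * a.1 * t = q0⁻¹ * (a.1 * t * a.1⁻¹) * a.1 := by group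
          _ = q0⁻¹ * (q0 * t * q0⁻¹) * a.1 := by rw [h2]
          _ = t * (q0⁻¹ * a.1) := by group)⟩
    apply Nat.card_le_card_of_injective F
    intro a b h
    have h2 : q0⁻¹ * a.1 = q0⁻¹ * b.1 := congrArg Subtype.val h
    exact Subtype.ext (mul_left_cancel h2)
  -- disjointness
  have hsq : ∀ d ∈ D, d * d = 1 ∧ d ≠ 1 := by
    rintro d ⟨q, rfl⟩
    constructor
    · calc q * t * q⁻¹ * (q * t * q⁻¹) = q * (t * t) * q⁻¹ := by group
        _ = 1 := by rw [ht]; group
    · intro h
      apply ht1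
      calc t = q⁻¹ * (q * t * q⁻¹) * q := by group
        _ = 1 := by rw [h]; group
  have hdis : ∀ d ∈ D, t * d ∉ D := by
    intro d hd h
    obtain ⟨h2, h3⟩ := hsq d hd
    obtain ⟨h4, h5⟩ := hsq _ h
    have h6 : d * t = t * d := by
      have h7 : (t * d)⁻¹ = t * d := inv_eq_of_mul_eq_one_left h4
      rw [mul_inv_rev, inv_eq_of_mul_eq_one_left h2, inv_eq_of_mul_eq_one_left ht] at h7
      exact h7
    rcases hcent d h6 with h7 | h7
    · exact h3 h7
    · rw [h7, ht] at h5
      exact h5 rfl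
  have hconj : ∀ d ∈ D, ∀ q : Q, q * d * q⁻¹ ∈ D := by
    rintro _ ⟨r, rfl⟩ q
    exact ⟨q * r, by group⟩
  have htD : t ∈ D := ⟨1, by group⟩
  -- the complement
  have hcov : ∀ g : Q, g ∉ D → ∃ d ∈ D, g = t * d := by
    have h2 : ((fun d => t * d) '' D).ncard = D.ncard := Set.ncard_image_of_injective _ (mul_right_injective t)
    have h3 : Disjoint D ((fun d => t * d) '' D) := by
      rw [Set.disjoint_right]
      rintro _ ⟨d, hd, rfl⟩
      exact hdis d hd
    have h4 : (D ∪ (fun d => t * d) '' D).ncard = D.ncard + D.ncard := by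
      rw [Set.ncard_union_eq h3 (Set.toFinite _) (Set.toFinite _), h2]
    have h5 : D ∪ (fun d => t * d) '' D = Set.univ := by
      apply Set.eq_of_subset_of_ncard_le (Set.subset_univ _) _ (Set.toFinite _)
      rw [Set.ncard_univ, h4]
      omega
    intro g hg
    have h6 : g ∈ D ∪ (fun d => t * d) '' D := by rw [h5]; exact Set.mem_univ g
    rcases h6 with h6 | ⟨d, hd, h7⟩
    · exact absurd h6 hg
    · exact ⟨d, hd, h7.symm⟩
  have hinv : ∀ g : Q, g ∉ D → t * g * t = g⁻¹ := by
    intro g hg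
    obtain ⟨d, hd, rfl⟩ := hcov g hg
    have h2 := (hsq d hd).1
    rw [mul_inv_rev, inv_eq_of_mul_eq_one_left h2, inv_eq_of_mul_eq_one_left ht]
    calc t * (t * d) * t = (t * t) * d * t := by group
      _ = d * t := by rw [ht, one_mul]
  have hmul : ∀ g : Q, g ∉ D → ∀ k : Q, k ∉ D → g * k ∉ D := by
    intro g hg k hk hgk
    obtain ⟨d, hd, rfl⟩ := hcov g hg
    obtain ⟨e, he, rfl⟩ := hcov k hk
    -- t d t e
    have h2 : t * d * t ∈ D := by
      have := hconj d hd t
      rwa [inv_eq_of_mul_eq_one_left ht] at this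
    obtain ⟨q, hq⟩ := h2
    have h3 : t * d * (t * e) = q * (t * (q⁻¹ * e * q)) * q⁻¹ := by
      calc t * d * (t * e) = (t * d * t) * e := by group
        _ = (q * t * q⁻¹) * e := by rw [hq]
        _ = _ := by group
    have h4 : q⁻¹ * e * q ∈ D := by
      have := hconj e he q⁻¹
      rwa [inv_inv] at this
    apply hdis _ h4
    have h5 := hconj _ hgk q⁻¹
    rw [h3, inv_inv] at h5
    have h6 : q⁻¹ * (q * (t * (q⁻¹ * e * q)) * q⁻¹) * q = t * (q⁻¹ * e * q) := by group
    rwa [h6] at h5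
  have hcomm : ∀ g : Q, g ∉ D → g * u = u * g := by
    intro g hg
    have h2 := hinv _ (hmul g hg u hu)
    have h3 := hinv g hg
    have h4 := hinv u hu
    have h5 : t * (g * u) * t = (t * g * t) * (t * u * t) := by
      calc t * (g * u) * t = t * g * 1 * u * t := by group
        _ = t * g * (t * t) * u * t := by rw [ht]
        _ = _ := by group
    rw [h5, h3, h4, ← mul_inv_rev] at h2
    exact (inv_injective h2).symm
  -- the bound
  have h6 : (Dᶜ : Set Q) ⊆ (Subgroup.centralizer ({u} : Set Q) : Set Q) := fun g hg => E2_mem.2 (hcomm g hg)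
  have h7 := Set.ncard_le_ncard h6 (Set.toFinite _)
  have h8 : (fun d => t * d) '' D ⊆ Dᶜ := by
    rintro _ ⟨d, hd, rfl⟩
    exact hdis d hd
  have h9 := Set.ncard_le_ncard h8 (Set.toFinite _)
  rw [Set.ncard_image_of_injective _ (mul_right_injective t)] at h9
  have h10 : ((Subgroup.centralizer ({u} : Set Q) : Subgroup Q) : Set Q).ncard = Nat.card (Subgroup.centralizer ({u} : Set Q)) := rfl
  omega

theorem cent_thirty {H : Type*} [Group H] [Finite H] {x y j : H} (hxc : ∀ g : H, g * x = x * g) (hx : orderOf x = 5)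
    (hy : orderOf y = 3) (hj : orderOf j = 2) (hjy : j * y * j⁻¹ = y⁻¹)
    (hcj : Nat.card (Subgroup.centralizer ({j} : Set H)) = 10) (hcy : Nat.card (Subgroup.centralizer ({y} : Set H)) = 15) :
    Nat.card H = 30 := by
  classical
  set N := Subgroup.zpowers x with hN
  haveI : N.Normal := by
    constructor
    intro n hn g
    obtain ⟨k, rfl⟩ := Subgroup.mem_zpowers_iff.1 hn
    have h1 : Commute g (x ^ k) := (show Commute g x from hxc g).zpow_right k
    rw [h1.eq, mul_inv_cancel_right]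
    exact Subgroup.zpow_mem _ (Subgroup.mem_zpowers x) k
  have hNc : Nat.card N = 5 := by rw [hN, Nat.card_zpowers, hx]
  have hx5 : x ^ 5 = 1 := by rw [← hx]; exact pow_orderOf_eq_one x
  -- centralizers in the quotient
  have key : ∀ (g : H) (m : ℕ), g ^ m = 1 → Nat.Coprime m 5 → Nat.card (Subgroup.centralizer ({(g : H ⧸ N)} : Set (H ⧸ N))) * 5 =
      Nat.card (Subgroup.centralizer ({g} : Set H)) := by
    intro g m hg hm
    have h1 : (Subgroup.centralizer ({(g : H ⧸ N)} : Set (H ⧸ N))).comap (QuotientGroup.mk' N) = Subgroup.centralizer ({g} : Set H) := by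
      ext a
      rw [Subgroup.mem_comap, E2_mem, E2_mem]
      constructor
      · intro h
        have h2 : ((a * g : H) : H ⧸ N) = ((g * a : H) : H ⧸ N) := h
        have h3 := QuotientGroup.eq.1 h2.symm
        obtain ⟨k, hk⟩ := Subgroup.mem_zpowers_iff.1 h3
        -- a g = g a x^k
        have h4 : a * g = g * a * x ^ k := by rw [hk]; group
        have h5 : a * g * a⁻¹ = g * x ^ k := by
          have h6 : Commute a (x ^ k) := (show Commute a x from hxc a).zpow_right k
          rw [h4, mul_assoc, mul_assoc, ← h6.inv_left.eq]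
          group
        have h7 : (g * x ^ k) ^ m = 1 := by
          rw [← h5, conj_pow, hg]; group
        have h8 : Commute g (x ^ k) := (show Commute g x from hxc g).zpow_right k
        rw [h8.mul_pow, hg, one_mul] at h7
        have h9 : (x ^ k) ^ 5 = 1 := by
          rw [← zpow_natCast, ← zpow_mul, mul_comm, zpow_mul]
          have : x ^ ((5 : ℕ) : ℤ) = 1 := by rw [zpow_natCast]; exact hx5
          rw [this, one_zpow]
        have h10 : x ^ k = 1 := by
          have h11 : orderOf (x ^ k) ∣ Nat.gcd m 5 := Nat.dvd_gcd (orderOf_dvd_of_pow_eq_one h7) (orderOf_dvd_of_pow_eq_one h9)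
          rw [hm] at h11
          exact orderOf_eq_one_iff.1 (Nat.dvd_one.1 h11)
        rw [h4, h10, mul_one]
      · intro h
        show ((a * g : H) : H ⧸ N) = ((g * a : H) : H ⧸ N)
        rw [h]
    rw [← h1]
    set L := Subgroup.centralizer ({(g : H ⧸ N)} : Set (H ⧸ N)) with hL
    have h2 : (L.comap (QuotientGroup.mk' N)).index = L.index := Subgroup.index_comap_of_surjective L (QuotientGroup.mk'_surjective N)
    have h3 := Subgroup.card_mul_index (L.comap (QuotientGroup.mk' N))
    have h4 := Subgroup.card_mul_index L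
    have h5 := Subgroup.card_eq_card_quotient_mul_card_subgroup N
    rw [h2] at h3
    rw [hNc, ← h4] at h5
    have h6 : L.index ≠ 0 := Subgroup.index_ne_zero_of_finite
    rw [h5] at h3
    have h7 : Nat.card L * 5 * L.index = Nat.card (L.comap (QuotientGroup.mk' N)) * L.index := by
      rw [h3]; ring
    exact Nat.eq_of_mul_eq_mul_right (Nat.pos_of_ne_zero h6) h7
  have hj2 : j ^ 2 = 1 := by rw [← hj]; exact pow_orderOf_eq_one j
  have hy3 : y ^ 3 = 1 := by rw [← hy]; exact pow_orderOf_eq_one y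
  have k1 := key j 2 hj2 (by norm_num)
  have k2 := key y 3 hy3 (by norm_num)
  rw [hcj] at k1
  rw [hcy] at k2
  have c1 : Nat.card (Subgroup.centralizer ({(j : H ⧸ N)} : Set (H ⧸ N))) = 2 := by omega
  have c2 : Nat.card (Subgroup.centralizer ({(y : H ⧸ N)} : Set (H ⧸ N))) = 3 := by omega
  have hH := Subgroup.card_eq_card_quotient_mul_card_subgroup N
  rw [hNc] at hH
  have d2 : 2 ∣ Nat.card H := by rw [← hj]; exact orderOf_dvd_natCard j
  have d3 : 3 ∣ Nat.card H := by rw [← hy]; exact orderOf_dvd_natCard y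
  have htop : ∀ q : H ⧸ N, q = 1 → Nat.card (Subgroup.centralizer ({q} : Set (H ⧸ N))) = Nat.card (H ⧸ N) := by
    rintro q rfl
    have : Subgroup.centralizer ({1} : Set (H ⧸ N)) = ⊤ := by
      rw [eq_top_iff]
      intro a _
      exact E2_mem.2 (by rw [mul_one, one_mul])
    rw [this, Subgroup.card_top]
  have ht : (j : H ⧸ N) * (j : H ⧸ N) = 1 := by
    have : ((j * j : H) : H ⧸ N) = 1 := by rw [← pow_two, hj2]; rfl
    exact this
  have hu3 : (y : H ⧸ N) ^ 3 = 1 := by
    have : ((y ^ 3 : H) : H ⧸ N) = 1 := by rw [hy3]; rfl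
    exact this
  have ht1 : (j : H ⧸ N) ≠ 1 := by
    intro h
    have := htop _ h
    rw [c1] at this
    omega
  have hu : ¬ ∃ q : H ⧸ N, (y : H ⧸ N) = q * (j : H ⧸ N) * q⁻¹ := by
    rintro ⟨q, hq⟩
    have h1 : (y : H ⧸ N) * (y : H ⧸ N) = 1 := by
      rw [hq]
      calc q * (j : H ⧸ N) * q⁻¹ * (q * (j : H ⧸ N) * q⁻¹) = q * ((j : H ⧸ N) * (j : H ⧸ N)) * q⁻¹ := by group
        _ = 1 := by rw [ht]; group
    have h2 : (y : H ⧸ N) = 1 := by
      calc (y : H ⧸ N) = (y : H ⧸ N) ^ 3 * ((y : H ⧸ N) * (y : H ⧸ N))⁻¹ := by group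
        _ = 1 := by rw [hu3, h1]; group
    have := htop _ h2
    rw [c2] at this
    omega
  have h1 := E2_inv ht ht1 c1 hu
  rw [c2] at h1
  have h2 : 0 < Nat.card H := Nat.card_pos
  omega

end Cfsg.Agent.Lib.J3P
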