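import Mathlib
import Cfsg.Agent.Lib.Extraspecial
import Cfsg.Agent.Lib.ExtraCount
import Cfsg.Agent.Lib.J3PA2

/-!
# Entry to the order of `J₃`: the extraspecial subgroup contains its centralizer (helper54)
-/

set_option autoImplicit false
set_option linter.all false

namespace Cfsg.Agent.Lib.J3P

open Cfsg Subgroup Cfsg.Agent.Lib.Extraspecial
open scoped commutatorElement

/-- 2-subgroups of a group of order 60 are commutative -/
theorem two_comm {Q : Type*} [Group Q] [Finite Q] (hQ : Nat.card Q = 60) {X : Subgroup Q} (hX : IsPGroup 2 X) {a b : Q}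
    (ha : a ∈ X) (hb : b ∈ X) : a * b = b * a := by
  haveI : Fact (Nat.Prime 2) := ⟨Nat.prime_two⟩
  obtain ⟨n, hn⟩ := IsPGroup.iff_card.1 hX
  have h1 : (2 : ℕ) ^ n ∣ 60 := by rw [← hn, ← hQ]; exact Subgroup.card_subgroup_dvd_card X
  have hn2 : n ≤ 2 := by
    by_contra hcon
    have h3 : (2 : ℕ) ^ 3 ∣ 60 := (pow_dvd_pow 2 (by omega)).trans h1
    norm_num at h3
  have hc : ∀ u v : X, u * v = v * u := by
    interval_cases n
    · intro u v
      haveI : Subsingleton X := (Nat.card_eq_one_iff_unique.1 (by rw [hn, pow_zero])).1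
      exact Subsingleton.elim _ _
    · haveI : IsCyclic X := isCyclic_of_prime_card (p := 2) (by rw [hn, pow_one])
      letI : CommGroup X := IsCyclic.commGroup
      exact mul_comm
    · letI : CommGroup X := IsPGroup.commGroupOfCardEqPrimeSq hn
      exact mul_comm
  exact congrArg Subtype.val (hc ⟨a, ha⟩ ⟨b, hb⟩)

theorem entry_cent_aux {G : Type*} [Group G] [Finite G]
    (hone : ∀ x y : G, orderOf x = 2 → orderOf y = 2 → IsConj x y) (t : G) (ht : orderOf t = 2)
    (H : Subgroup G) (hH : H = centralizer ({t} : Set G))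
    (E : Subgroup H) [E.Normal] (hE : Nat.card E = 32) (hX : Cfsg.IsExtraspecial 2 E)
    (e : H ⧸ E ≃* alternatingGroup (Fin 5)) : Subgroup.centralizer (E : Set H) ≤ E := by
  classical
  haveI : Fact (Nat.Prime 2) := ⟨Nat.prime_two⟩
  have hHiff : ∀ u : G, u ∈ H ↔ u * t = t * u := by
    intro u
    rw [hH]; exact mem_centralizer_singleton_iff
  by_contra hcon
  set D : Subgroup H := centralizer (E : Set H) with hD
  have hyp := ExtraCount.Hyp.of_isExtraspecial hX
  obtain ⟨z, hz⟩ := XS.of_extraspecial hX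
  -- the quotient
  have hQ60 : Nat.card (H ⧸ E) = 60 := by
    rw [Nat.card_congr e.toEquiv, Nat.card_eq_fintype_card]; rfl
  haveI hsA : IsSimpleGroup (alternatingGroup (Fin 5)) := alternatingGroup.isSimpleGroup_five
  haveI hsQ : IsSimpleGroup (H ⧸ E) := by
    haveI : Nontrivial (H ⧸ E) := Finite.one_lt_card_iff_nontrivial.1 (by rw [hQ60]; norm_num)
    exact IsSimpleGroup.isSimpleGroup_of_surjective e.symm.toMonoidHom e.symm.surjective
  have hQc : center (H ⧸ E) = ⊥ := by
    rcases IsSimpleGroup.eq_bot_or_eq_top_of_normal (center (H ⧸ E)) inferInstance with h | h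
    · exact h
    · exfalso
      have hcc : ∀ a b : H ⧸ E, a * b = b * a := by
        intro a b
        have h1 : a ∈ center (H ⧸ E) := by rw [h]; exact mem_top a
        exact (mem_center_iff.1 h1 b).symm
      letI : CommGroup (H ⧸ E) := { (inferInstance : Group (H ⧸ E)) with mul_comm := hcc }
      have hp := IsSimpleGroup.prime_card (α := H ⧸ E)
      rw [hQ60] at hp
      norm_num at hp
  -- `t` in `E`
  have htt : t * t = 1 := by rw [← pow_two, ← ht]; exact pow_orderOf_eq_one t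
  have ht1 : t ≠ 1 := by rintro rfl; rw [orderOf_one] at ht; norm_num at ht
  have htH : t ∈ H := (hHiff t).2 rfl
  set tH : H := ⟨t, htH⟩ with htHd
  have hcen : ∀ h : H, h * tH = tH * h := by
    intro h
    apply Subtype.ext
    exact (hHiff _).1 h.2
  have htE : tH ∈ E := by
    rw [← QuotientGroup.eq_one_iff, ← mem_bot, ← hQc, mem_center_iff]
    intro g
    obtain ⟨h, rfl⟩ := QuotientGroup.mk_surjective g
    rw [← QuotientGroup.mk_mul, hcen, QuotientGroup.mk_mul]
  have htHtH : tH * tH = 1 := Subtype.ext htt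
  have htH1 : tH ≠ 1 := fun h => ht1 (congrArg Subtype.val h)
  -- central elements of `E`
  have hcE : ∀ c : E, c ∈ center E → (c : H) = 1 ∨ (c : H) = tH := by
    intro c hc
    by_cases h1 : c = 1
    · left; rw [h1]; rfl
    · right
      have h2 : (⟨tH, htE⟩ : E) ∈ center E := by
        rw [mem_center_iff]
        intro g
        exact Subtype.ext (hcen g)
      have h3 := hyp.eq_of_ne_one hc h2 h1 (fun h => htH1 (congrArg Subtype.val h))
      exact congrArg Subtype.val h3
  -- every element is a product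
  have hprod : ∀ h : H, ∃ d ∈ D, ∃ c ∈ E, h = d * c := by
    have hn : (D.map (QuotientGroup.mk' E)).Normal := by
      have : D.Normal := by rw [hD]; infer_instance
      exact Subgroup.Normal.map this _ (QuotientGroup.mk'_surjective E)
    rcases IsSimpleGroup.eq_bot_or_eq_top_of_normal _ hn with h | h
    · exfalso
      apply hcon
      rw [Subgroup.map_eq_bot_iff, QuotientGroup.ker_mk'] at h
      exact h
    · intro g
      have h1 : (QuotientGroup.mk' E g) ∈ D.map (QuotientGroup.mk' E) := by rw [h]; exact mem_top _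
      obtain ⟨d, hd, hdg⟩ := h1
      refine ⟨d, hd, d⁻¹ * g, ?_, by group⟩
      exact QuotientGroup.eq.1 hdg
  -- commutators of elements of a 2-subgroup
  have hcomm : ∀ (X : Subgroup H), IsPGroup 2 X → ∀ x ∈ X, ∀ y ∈ X, ⁅x, y⁆ = 1 ∨ ⁅x, y⁆ = tH := by
    intro X hXp x hx y hy
    obtain ⟨d1, hd1, e1, he1, rfl⟩ := hprod x
    obtain ⟨d2, hd2, e2, he2, rfl⟩ := hprod y
    have hde : ∀ d ∈ D, ∀ c ∈ E, d * c = c * d := fun d hd c hc => (mem_centralizer_iff.1 hd c hc).symm
    have h1 : ⁅d1 * e1, d2 * e2⁆ = ⁅d1, d2⁆ * ⁅e1, e2⁆ := by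
      have ha : Commute d1 e2 := hde d1 hd1 e2 he2
      have hb : Commute d2 e1 := hde d2 hd2 e1 he1
      have hc : Commute d1 e1 := hde d1 hd1 e1 he1
      have hd : Commute d2 e2 := hde d2 hd2 e2 he2
      have h2 : Commute e1 (d2 * d1⁻¹ * d2⁻¹) := ((hb.symm).mul_right (hc.symm.inv_right)).mul_right (hb.symm.inv_right)
      have h3 : Commute e2 (d1⁻¹ * d2⁻¹) := (ha.symm.inv_right).mul_right (hd.symm.inv_right)
      rw [commutatorElement_def, commutatorElement_def, commutatorElement_def]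
      calc d1 * e1 * (d2 * e2) * (d1 * e1)⁻¹ * (d2 * e2)⁻¹
          = d1 * (e1 * d2) * e2 * (e1⁻¹ * d1⁻¹) * (e2⁻¹ * d2⁻¹) := by group
        _ = d1 * (d2 * e1) * e2 * (d1⁻¹ * e1⁻¹) * (d2⁻¹ * e2⁻¹) := by
            rw [hb.symm.eq, (hc.symm.inv_inv).eq, (hd.symm.inv_inv).eq]
        _ = d1 * d2 * (e1 * (e2 * d1⁻¹) * (e1⁻¹ * d2⁻¹) * e2⁻¹) := by group
        _ = d1 * d2 * (e1 * (d1⁻¹ * e2) * (d2⁻¹ * e1⁻¹) * e2⁻¹) := by
            rw [(ha.symm.inv_right).eq, (hb.symm.inv_inv).eq]
        _ = d1 * d2 * ((e1 * d1⁻¹) * (e2 * d2⁻¹) * e1⁻¹ * e2⁻¹) := by group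
        _ = d1 * d2 * ((d1⁻¹ * e1) * (d2⁻¹ * e2) * e1⁻¹ * e2⁻¹) := by
            rw [(hc.symm.inv_right).eq, (hd.symm.inv_right).eq]
        _ = d1 * d2 * (d1⁻¹ * (e1 * d2⁻¹) * e2 * e1⁻¹ * e2⁻¹) := by group
        _ = d1 * d2 * (d1⁻¹ * (d2⁻¹ * e1) * e2 * e1⁻¹ * e2⁻¹) := by rw [(hb.symm.inv_right).eq]
        _ = d1 * d2 * d1⁻¹ * d2⁻¹ * (e1 * e2 * e1⁻¹ * e2⁻¹) := by group
    have h2 : ⁅d1, d2⁆ = 1 ∨ ⁅d1, d2⁆ = tH := by
      have h3 : ⁅d1, d2⁆ ∈ E := by
        rw [← QuotientGroup.eq_one_iff]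
        have h4 : IsPGroup 2 (X.map (QuotientGroup.mk' E)) := hXp.map _
        have hm1 : (QuotientGroup.mk' E) d1 ∈ X.map (QuotientGroup.mk' E) := by
          refine ⟨d1 * e1, hx, ?_⟩
          rw [map_mul]
          have : QuotientGroup.mk' E e1 = 1 := (QuotientGroup.eq_one_iff e1).2 he1
          rw [this, mul_one]
        have hm2 : (QuotientGroup.mk' E) d2 ∈ X.map (QuotientGroup.mk' E) := by
          refine ⟨d2 * e2, hy, ?_⟩
          rw [map_mul]
          have : QuotientGroup.mk' E e2 = 1 := (QuotientGroup.eq_one_iff e2).2 he2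
          rw [this, mul_one]
        have h5 := two_comm hQ60 h4 hm1 hm2
        have h6 : (QuotientGroup.mk' E) ⁅d1, d2⁆ = 1 := by
          rw [map_commutatorElement, commutatorElement_eq_one_iff_mul_comm]
          exact h5
        exact h6
      have h4 : ⁅d1, d2⁆ ∈ D := D.mul_mem (D.mul_mem (D.mul_mem hd1 hd2) (D.inv_mem hd1)) (D.inv_mem hd2)
      apply hcE ⟨⁅d1, d2⁆, h3⟩
      rw [mem_center_iff]
      intro g
      exact Subtype.ext (hde _ h4 _ g.2).symm
    have h3 : ⁅e1, e2⁆ = 1 ∨ ⁅e1, e2⁆ = tH := by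
      have h4 := hcE _ (hyp.comm_mem ⟨e1, he1⟩ ⟨e2, he2⟩)
      exact h4
    rw [h1]
    rcases h2 with h2 | h2 <;> rcases h3 with h3 | h3 <;> rw [h2, h3]
    · left; rw [mul_one]
    · right; rw [one_mul]
    · right; rw [mul_one]
    · left; exact htHtH
  -- a noncentral involution of `E`
  obtain ⟨q, hqz, hq2⟩ : ∃ x : E, x ∉ zpowers z ∧ x ^ 2 = 1 := by
    by_contra h
    have h1 := hz.card_eight_of_not h (XS.not_comm_of_extraspecial hX)
    rw [hE] at h1
    norm_num at h1
  have hqc : q ∉ center E := fun h => hqz (hz.center_le h)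
  have hq1 : q ≠ 1 := by rintro rfl; exact hqc (one_mem _)
  set qG : G := ((q : H) : G) with hqG
  have hqord : orderOf qG = 2 := by
    rw [hqG, Subgroup.orderOf_coe, Subgroup.orderOf_coe]
    exact orderOf_eq_prime hq2 hq1
  obtain ⟨g, hg⟩ := isConj_iff.1 (hone t qG ht hqord)
  -- the centralizer of `q` in `E` is commutative
  set A : Subgroup E := centralizer ({q} : Set E) with hA
  have hEp : IsPGroup 2 E := IsPGroup.of_card (n := 5) (by rw [hE]; norm_num)
  have hAc : ∀ a ∈ A, ∀ b ∈ A, a * b = b * a := by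
    intro a ha b hb
    let A1 : Subgroup G := (A.map E.subtype).map H.subtype
    let A2 : Subgroup G := A1.map (MulAut.conj g⁻¹).toMonoidHom
    have hA2 : IsPGroup 2 A2 := (((hEp.to_subgroup A).map _).map _).map _
    have hX2 : IsPGroup 2 (A2.subgroupOf H) := hA2.comap_of_injective H.subtype H.subtype_injective
    have hmem : ∀ c ∈ A, ∃ hc : g⁻¹ * ((c : H) : G) * g ∈ H, (⟨g⁻¹ * ((c : H) : G) * g, hc⟩ : H) ∈ A2.subgroupOf H := by
      intro c hc
      have h1 : (c : E) * q = q * c := mem_centralizer_singleton_iff.1 hc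
      have h2 : ((c : H) : G) * qG = qG * ((c : H) : G) := congrArg (fun u : E => ((u : H) : G)) h1
      refine ⟨?_, ?_⟩
      · rw [hHiff]
        have h3 : t = g⁻¹ * qG * g := by rw [← hg]; group
        rw [h3]
        calc g⁻¹ * ((c : H) : G) * g * (g⁻¹ * qG * g) = g⁻¹ * (((c : H) : G) * qG) * g := by group
          _ = g⁻¹ * (qG * ((c : H) : G)) * g := by rw [h2]
          _ = g⁻¹ * qG * g * (g⁻¹ * ((c : H) : G) * g) := by group
      · rw [mem_subgroupOf]
        refine ⟨((c : H) : G), ⟨(c : H), ⟨c, hc, rfl⟩, rfl⟩, ?_⟩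
        change g⁻¹ * ((c : H) : G) * g⁻¹⁻¹ = _
        rw [inv_inv]
    obtain ⟨hc1, hc2⟩ := hmem a ha
    obtain ⟨hc3, hc4⟩ := hmem b hb
    have h1 := hcomm _ hX2 _ hc2 _ hc4
    have h2 := hcE _ (hyp.comm_mem a b)
    have h3 : (((⁅a, b⁆ : E) : H) : G) = ⁅((a : H) : G), ((b : H) : G)⁆ := rfl
    have h4 : ⁅((a : H) : G), ((b : H) : G)⁆ = 1 ∨ ⁅((a : H) : G), ((b : H) : G)⁆ = t := by
      rcases h2 with h2 | h2
      · left; rw [← h3, h2]; rfl
      · right; rw [← h3, h2]
    have h5 : ⁅((a : H) : G), ((b : H) : G)⁆ = 1 ∨ ⁅((a : H) : G), ((b : H) : G)⁆ = qG := by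
      have h6 : g * ⁅g⁻¹ * ((a : H) : G) * g, g⁻¹ * ((b : H) : G) * g⁆ * g⁻¹ = ⁅((a : H) : G), ((b : H) : G)⁆ := by
        rw [commutatorElement_def, commutatorElement_def]; group
      rcases h1 with h1 | h1
      · left
        have h7 := congrArg Subtype.val h1
        change ⁅g⁻¹ * ((a : H) : G) * g, g⁻¹ * ((b : H) : G) * g⁆ = 1 at h7
        rw [← h6, h7]; group
      · right
        have h7 := congrArg Subtype.val h1
        change ⁅g⁻¹ * ((a : H) : G) * g, g⁻¹ * ((b : H) : G) * g⁆ = t at h7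
        rw [← h6, h7, hg]
    have h6 : ⁅((a : H) : G), ((b : H) : G)⁆ = 1 := by
      rcases h4 with h4 | h4
      · exact h4
      rcases h5 with h5 | h5
      · exact h5
      · exfalso
        apply hqc
        have h7 : (q : H) = tH := Subtype.ext (by rw [htHd]; exact h5.symm.trans h4)
        have h8 : q = ⟨tH, htE⟩ := Subtype.ext h7
        rw [h8, mem_center_iff]
        intro u
        exact Subtype.ext (hcen u)
    have h7 : ((a : H) : G) * ((b : H) : G) = ((b : H) : G) * ((a : H) : G) := commutatorElement_eq_one_iff_mul_comm.1 h6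
    exact Subtype.ext (Subtype.ext h7)
  -- counting
  have h1 := hyp.card_centralizer_mul (zpowers q)
  have h2 : Nat.card (zpowers q) = 2 := by rw [Nat.card_zpowers, orderOf_eq_prime hq2 hq1]
  have h3 : (zpowers q ⊓ center E : Subgroup E) = ⊥ := by
    rw [eq_bot_iff]
    rintro u ⟨hu1, hu2⟩
    obtain ⟨k, rfl⟩ := mem_zpowers_iff.1 hu1
    rcases Int.even_or_odd' k with ⟨m, rfl | rfl⟩
    · rw [mem_bot, zpow_mul, zpow_ofNat, hq2, one_zpow]
    · exfalso
      apply hqc
      have h4 : q ^ (2 * m + 1) = q := by rw [zpow_add, zpow_mul, zpow_ofNat, hq2, one_zpow, one_mul, zpow_one]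
      rw [← h4]; exact hu2
  rw [h2, h3, Subgroup.card_bot, mul_one, hE] at h1
  have h4 : centralizer (zpowers q : Set E) = A := by rw [hA, zpowers_eq_closure, centralizer_closure]
  rw [h4] at h1
  have h5 := hyp.card_centralizer_mul A
  have h6 : Nat.card (A ⊓ center E : Subgroup E) ≤ 2 := by
    have h7 : Nat.card (A ⊓ center E : Subgroup E) ∣ Nat.card (center E) := card_dvd_of_le inf_le_right
    rw [hX.2] at h7
    exact Nat.le_of_dvd (by norm_num) h7
  have h7 : Nat.card A ≤ Nat.card (centralizer (A : Set E)) := by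
    apply Nat.card_le_card_of_injective (Subgroup.inclusion (show A ≤ centralizer (A : Set E) from ?_)) (Subgroup.inclusion_injective _)
    intro a ha
    rw [mem_centralizer_iff]
    intro b hb
    exact hAc b hb a ha
  have h8 : Nat.card A = 16 := by omega
  rw [h8, hE] at h5
  omega

theorem entry_cent {G : Type*} [Group G] [Finite G]
    (hone : ∀ x y : G, orderOf x = 2 → orderOf y = 2 → IsConj x y) (t : G) (ht : orderOf t = 2)
    (E : Subgroup (Subgroup.centralizer ({t} : Set G))) [E.Normal] (hE : Nat.card E = 32) (hX : Cfsg.IsExtraspecial 2 E)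
    (e : (Subgroup.centralizer ({t} : Set G)) ⧸ E ≃* alternatingGroup (Fin 5)) :
    Subgroup.centralizer (E : Set (Subgroup.centralizer ({t} : Set G))) ≤ E :=
  entry_cent_aux hone t ht _ rfl E hE hX e

/-- [A] entry -/
theorem entry {G : Type*} [Group G] [Finite G] [IsSimpleGroup G]
    (hone : ∀ x y : G, orderOf x = 2 → orderOf y = 2 → IsConj x y) (t : G) (ht : orderOf t = 2)
    (E : Subgroup (Subgroup.centralizer ({t} : Set G))) [E.Normal] (hE : Nat.card E = 32) (hX : Cfsg.IsExtraspecial 2 E)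
    (e : (Subgroup.centralizer ({t} : Set G)) ⧸ E ≃* alternatingGroup (Fin 5)) :
    (∀ A : Subgroup E, Cfsg.IsElementaryAbelian 2 A → Nat.card A ≤ 2 ^ 2) ∧
      Subgroup.centralizer (E : Set (Subgroup.centralizer ({t} : Set G))) ≤ E := by
  have hc := entry_cent hone t ht E hE hX e
  refine ⟨entry_minus E hE hX ?_ hc, hc⟩
  have h60 : Nat.card ((Subgroup.centralizer ({t} : Set G)) ⧸ E) = 60 := by
    rw [Nat.card_congr e.toEquiv, Nat.card_eq_fintype_card]; rfl
  have h1 := E.card_mul_index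
  rw [hE, Subgroup.index_eq_card, h60] at h1
  rw [← h1]; norm_num

end Cfsg.Agent.Lib.J3P
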