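import Cfsg.Agent.Lib.DihedralHom
import Mathlib

set_option autoImplicit false

namespace Cfsg.Agent.Lib.J3P

open DihedralHom

section Dih

variable {G : Type*} [Group G] {n : ℕ} {ρ s : G}

theorem lift_r [NeZero n] (hρ : ρ ^ n = 1) (hs : s * s = 1) (hsr : s * ρ * s = ρ⁻¹) (a : ZMod n) :
    DihedralHom.lift ρ s hρ hs hsr (DihedralGroup.r a) = ρ ^ a.val := by
  show Additive.toMul (zpw ρ hρ a) = ρ ^ a.val
  have := zpw_natCast ρ hρ a.val
  rwa [ZMod.natCast_zmod_val] at this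

theorem lift_sr [NeZero n] (hρ : ρ ^ n = 1) (hs : s * s = 1) (hsr : s * ρ * s = ρ⁻¹) (a : ZMod n) :
    DihedralHom.lift ρ s hρ hs hsr (DihedralGroup.sr a) = s * ρ ^ a.val := by
  show s * Additive.toMul (zpw ρ hρ a) = s * ρ ^ a.val
  have := zpw_natCast ρ hρ a.val
  rw [ZMod.natCast_zmod_val] at this
  rw [this]

theorem lift_injective [NeZero n] (hρ : ρ ^ n = 1) (hs : s * s = 1) (hsr : s * ρ * s = ρ⁻¹)
    (ho : orderOf ρ = n) (hmem : s ∉ Subgroup.zpowers ρ) :
    Function.Injective (DihedralHom.lift ρ s hρ hs hsr) := by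
  rw [injective_iff_map_eq_one]
  rintro (i | i) hi
  · rw [lift_r] at hi
    have h3 := orderOf_dvd_of_pow_eq_one hi
    rw [ho] at h3
    have h4 := Nat.eq_zero_of_dvd_of_lt h3 (ZMod.val_lt i)
    rw [ZMod.val_eq_zero] at h4
    rw [h4]; rfl
  · exfalso
    rw [lift_sr] at hi
    apply hmem
    have : s = (ρ ^ i.val)⁻¹ := eq_inv_of_mul_eq_one_left hi
    rw [this]
    exact Subgroup.inv_mem _ (Subgroup.pow_mem _ (Subgroup.mem_zpowers ρ) _)

theorem lift_commute [NeZero n] (hρ : ρ ^ n = 1) (hs : s * s = 1) (hsr : s * ρ * s = ρ⁻¹) {c : G}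
    (h1 : Commute ρ c) (h2 : Commute s c) (g : DihedralGroup n) :
    Commute (DihedralHom.lift ρ s hρ hs hsr g) c := by
  rcases g with (a | a)
  · rw [lift_r]; exact h1.pow_left _
  · rw [lift_sr]; exact h2.mul_left (h1.pow_left _)

end Dih

/-- number of representations as a product of two involutions -/
def cnt : DihedralGroup 3 → ℕ
  | .r a => if a = 0 then 20 else 15
  | .sr _ => 10

theorem cnt_sum : ∑ s, cnt s = 80 := by decide

theorem count_dih : ∀ (a : ZMod 5) (s : DihedralGroup 3), a ≠ 0 →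
    (Finset.univ.filter (fun t : DihedralGroup 5 × DihedralGroup 3 => t ≠ 1 ∧ t * t = 1 ∧
      t * (DihedralGroup.r a, s) * t = (DihedralGroup.r a, s)⁻¹)).card = cnt s := by
  decide +kernel

theorem dih5_center : ∀ u : DihedralGroup 5, u * DihedralGroup.r 1 = DihedralGroup.r 1 * u →
    u * DihedralGroup.sr 0 = DihedralGroup.sr 0 * u → u = 1 := by decide

theorem conj_x : ∀ g : DihedralGroup 5 × DihedralGroup 3,
    g * (DihedralGroup.r 1, 1) * g⁻¹ = (DihedralGroup.r 1, 1) ∨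
    g * (DihedralGroup.r 1, 1) * g⁻¹ = (DihedralGroup.r 1, 1)⁻¹ := by decide +kernel

end Cfsg.Agent.Lib.J3P
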