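import Mathlib

set_option autoImplicit false

namespace Cfsg.Agent.Lib.J3P

namespace G1

def P (A k : ℤ) : Bool :=
  let R : ℤ := A * (A + 1) + 320 * k * (2 * A + 1) + 102400 * k * k
  let m : ℤ := 4 * k * k
  let n : ℤ := R / m
  k == 0 || R % m != 0 || n % 2 != 1 || n % 9 != 0 || n % 5 != 3 || n == 26163 || n == 25443

theorem allP : ∀ a < 62, ∀ b < 465, P ((a : ℕ) - 31) ((b : ℕ) - 232) = true := by
  decide +kernel

theorem two_step {c D : ℤ} (h : 4 * c ∣ D ^ 2) : ∃ D', D = 2 * D' ∧ c ∣ D' ^ 2 := by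
  have h2 : (2 : ℤ) ∣ D ^ 2 := (Dvd.intro (2 * c) (by ring)).trans h
  have h3 : (2 : ℤ) ∣ D := Int.prime_two.dvd_of_dvd_pow h2
  obtain ⟨D', rfl⟩ := h3
  refine ⟨D', rfl, ?_⟩
  obtain ⟨e, he⟩ := h
  exact ⟨e, by linarith [show (2 * D') ^ 2 = 4 * D' ^ 2 by ring, show 4 * c * e = 4 * (c * e) by ring]⟩

theorem dvd64 {D : ℤ} (h : 2048 ∣ D ^ 2) : 64 ∣ D := by
  obtain ⟨D1, rfl, h1⟩ := two_step (c := 512) (by simpa using h)
  obtain ⟨D2, rfl, h2⟩ := two_step (c := 128) (by simpa using h1)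
  obtain ⟨D3, rfl, h3⟩ := two_step (c := 32) (by simpa using h2)
  obtain ⟨D4, rfl, h4⟩ := two_step (c := 8) (by simpa using h3)
  obtain ⟨D5, rfl, h5⟩ := two_step (c := 2) (by simpa using h4)
  obtain ⟨D6, rfl⟩ := Int.prime_two.dvd_of_dvd_pow h5
  exact ⟨D6, by ring⟩

end G1

namespace G1

theorem boundA {A : ℤ} (hA : 1 + A ^ 2 + (A + 1) ^ 2 ≤ 1920) : -31 ≤ A ∧ A ≤ 30 := by
  constructor
  · by_contra h
    nlinarith
  · by_contra h
    nlinarith

theorem boundB {A : ℤ} (h1 : -31 ≤ A) (h2 : A ≤ 30) : 0 ≤ A * (A + 1) ∧ A * (A + 1) ≤ 930 := by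
  constructor
  · rcases le_or_gt 0 A with h | h
    · positivity
    · nlinarith
  · nlinarith

theorem dvd320 {n : ℕ} {F A : ℤ} (hn2 : n % 2 = 1) (hn5 : n % 5 = 3)
    (hEq' : (n : ℤ) * (F - A) ^ 2 = 25600 * (F * (F + 1))) : (320 : ℤ) ∣ F - A := by
  have hE : (2 : ℤ) ∣ F * (F + 1) := (Int.even_mul_succ_self F).two_dvd
  obtain ⟨m, hm⟩ := hE
  have hc2 : IsCoprime (2048 : ℤ) (n : ℤ) := by
    have h2 : Nat.Coprime 2048 n := by
      have : Nat.Coprime 2 n := by
        rw [Nat.coprime_two_left]; exact Nat.odd_iff.2 hn2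
      exact (Nat.Coprime.pow_left 11 this)
    rw [Int.isCoprime_iff_gcd_eq_one]
    exact_mod_cast h2
  have h64 : (64 : ℤ) ∣ F - A := by
    apply dvd64
    apply hc2.dvd_of_dvd_mul_left
    rw [hEq', hm]
    exact ⟨25 * m, by ring⟩
  have hc5 : IsCoprime (5 : ℤ) (n : ℤ) := by
    rw [Int.isCoprime_iff_gcd_eq_one]
    have : Nat.Coprime 5 n := by
      rw [Nat.Prime.coprime_iff_not_dvd (by norm_num)]
      omega
    exact_mod_cast this
  have h5' : (5 : ℤ) ∣ F - A := by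
    have : (5 : ℤ) ∣ (F - A) ^ 2 := by
      apply hc5.dvd_of_dvd_mul_left
      rw [hEq']
      exact ⟨5120 * (F * (F + 1)), by ring⟩
    exact (Int.prime_iff_natAbs_prime.2 (by norm_num)).dvd_of_dvd_pow this
  omega

theorem keyEq {N A k F : ℤ} (hF : F = A + 320 * k) (hEq' : N * (F - A) ^ 2 = 25600 * (F * (F + 1))) :
    N * (4 * k * k) = A * (A + 1) + 320 * k * (2 * A + 1) + 102400 * k * k := by
  subst hF
  have e2 : 25600 * (N * (4 * k * k)) = 25600 * ((A + 320 * k) * (A + 320 * k + 1)) := by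
    rw [← hEq']; ring
  have e3 := mul_left_cancel₀ (by norm_num : (25600 : ℤ) ≠ 0) e2
  rw [e3]; ring

theorem boundk {N A k : ℤ} (hk0 : k ≠ 0) (hB0 : 0 ≤ A * (A + 1)) (hB : A * (A + 1) ≤ 930)
    (key : N * (4 * k * k) = A * (A + 1) + 320 * k * (2 * A + 1) + 102400 * k * k) : -232 ≤ k ∧ k ≤ 232 := by
  obtain ⟨d, hd⟩ : ∃ d, d = N * k - 80 * (2 * A + 1) - 25600 * k := ⟨_, rfl⟩
  have e3 : A * (A + 1) = 4 * (k * d) := by
    rw [hd]
    have : A * (A + 1) = N * (4 * k * k) - 320 * k * (2 * A + 1) - 102400 * k * k := by rw [key]; ring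
    rw [this]; ring
  by_cases hd0 : d = 0
  · have h0 : A * (A + 1) = 0 := by rw [e3, hd0]; ring
    have h1 : k * (N - 25600) = 80 * (2 * A + 1) := by
      have h2 : N * k - 80 * (2 * A + 1) - 25600 * k = 0 := by rw [← hd, hd0]
      have h3 : k * (N - 25600) - 80 * (2 * A + 1) = N * k - 80 * (2 * A + 1) - 25600 * k := by ring
      rw [h2] at h3
      exact sub_eq_zero.1 h3
    have h3 : k ∣ 80 := by
      rcases mul_eq_zero.1 h0 with h | h
      · rw [h] at h1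
        exact ⟨_, by rw [h1]; norm_num⟩
      · have hA' : A = -1 := by omega
        rw [hA'] at h1
        have : k ∣ -80 := ⟨_, by rw [h1]; norm_num⟩
        exact Int.dvd_neg.1 this
    have h4 := Int.le_of_dvd (by norm_num) h3
    have h5 := Int.le_of_dvd (by norm_num) ((Int.neg_dvd).2 h3)
    constructor <;> omega
  · have h1 : 0 < k * d := by
      rcases lt_or_eq_of_le (show 0 ≤ k * d by omega) with h | h
      · exact h
      · rcases mul_eq_zero.1 h.symm with h | h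
        · exact absurd h hk0
        · exact absurd h hd0
    have h3 : k ∣ k * d := ⟨d, rfl⟩
    have h4 := Int.le_of_dvd h1 h3
    have h5 := Int.le_of_dvd h1 ((Int.neg_dvd).2 h3)
    constructor <;> omega

theorem P_use {A k N : ℤ} (hP : P A k = true) (hk0 : k ≠ 0)
    (key : N * (4 * k * k) = A * (A + 1) + 320 * k * (2 * A + 1) + 102400 * k * k)
    (h2 : N % 2 = 1) (h9 : N % 9 = 0) (h5 : N % 5 = 3) : N = 26163 ∨ N = 25443 := by
  have hm0 : (4 * k * k) ≠ 0 := mul_ne_zero (mul_ne_zero (by norm_num) hk0) hk0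
  unfold P at hP
  rw [← key] at hP
  have e1 : N * (4 * k * k) / (4 * k * k) = N := Int.mul_ediv_cancel _ hm0
  have e2 : N * (4 * k * k) % (4 * k * k) = 0 := Int.mul_emod_left _ _
  simp only [e1, e2, h2, h9, h5, Bool.or_eq_true, beq_iff_eq, bne_iff_ne, ne_eq, not_true_eq_false, or_false] at hP
  rcases hP with (h | h) | h
  · exact absurd h hk0
  · exact Or.inl h
  · exact Or.inr h

end G1

open G1 in
/-- Piece G1. -/
theorem arith {n : ℕ} {F A : ℤ} (hodd : Odd n) (h5 : 32 * n % 5 = 1) (h27 : 27 ∣ 1920 * n) (hF0 : F ≠ 0) (hF1 : F ≠ -1)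
    (hEq : ((1920 * n : ℕ) : ℤ) * (F - A) ^ 2 = 49152000 * (F * (F + 1))) (hA : 1 + A ^ 2 + (A + 1) ^ 2 ≤ 1920) :
    1920 * n = 50232960 ∨ 1920 * n = 48850560 := by
  have hEq' : (n : ℤ) * (F - A) ^ 2 = 25600 * (F * (F + 1)) := by
    have e1 : (1920 : ℤ) * ((n : ℤ) * (F - A) ^ 2) = 1920 * (25600 * (F * (F + 1))) := by
      push_cast at hEq
      rw [← mul_assoc, hEq]; ring
    exact mul_left_cancel₀ (by norm_num) e1
  have hn5 : n % 5 = 3 := by omega
  have hn9 : n % 9 = 0 := by omega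
  have hn2 : n % 2 = 1 := Nat.odd_iff.1 hodd
  obtain ⟨k, hk⟩ := dvd320 hn2 hn5 hEq'
  have hF : F = A + 320 * k := by omega
  have hk0 : k ≠ 0 := by
    rintro rfl
    have h1 : F - A = 0 := by omega
    rw [h1] at hEq'
    have h2 : F * (F + 1) = 0 := by
      have : 25600 * (F * (F + 1)) = 25600 * 0 := by rw [← hEq']; ring
      exact mul_left_cancel₀ (by norm_num) this
    rcases mul_eq_zero.1 h2 with h | h
    · exact hF0 h
    · exact hF1 (by omega)
  have key := keyEq hF hEq'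
  obtain ⟨hA1, hA2⟩ := boundA hA
  obtain ⟨hB0, hB⟩ := boundB hA1 hA2
  obtain ⟨hk1, hk2⟩ := boundk hk0 hB0 hB key
  have hall := allP (A + 31).toNat (by omega) (k + 232).toNat (by omega)
  rw [Int.toNat_of_nonneg (by omega), Int.toNat_of_nonneg (by omega)] at hall
  have ea : A + 31 - 31 = A := by ring
  have ek : k + 232 - 232 = k := by ring
  rw [ea, ek] at hall
  have n2 : (n : ℤ) % 2 = 1 := by exact_mod_cast hn2
  have n9 : (n : ℤ) % 9 = 0 := by exact_mod_cast hn9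
  have n5 : (n : ℤ) % 5 = 3 := by exact_mod_cast hn5
  rcases P_use hall hk0 key n2 n9 n5 with h | h
  · left
    have h' : n = 26163 := by exact_mod_cast h
    rw [h']
  · right
    have h' : n = 25443 := by exact_mod_cast h
    rw [h']

end Cfsg.Agent.Lib.J3P
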