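import Mathlib

/-!
# Piece G2 of S0456-PLAN (helper1): no simple group of order 48850560 (Sylow 257)
-/

set_option autoImplicit false

namespace Cfsg.Agent.Lib.J3P

theorem g2_arith : ∀ m < 740, m ≠ 0 → ¬ (257 * m + 1 ∣ 190080) := by
  decide +kernel

theorem not_simple {G : Type*} [Group G] [Finite G] [IsSimpleGroup G] (h : Nat.card G = 48850560) : False := by
  haveI : Fact (Nat.Prime 257) := ⟨by norm_num⟩
  obtain ⟨P⟩ : Nonempty (Sylow 257 G) := inferInstance
  obtain ⟨k, hk⟩ := IsPGroup.iff_card.1 P.isPGroup'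
  have h1 : Nat.card (P : Subgroup G) * (P : Subgroup G).index = 48850560 := by
    rw [Subgroup.card_mul_index, h]
  have hnd := P.not_dvd_index
  rw [hk] at h1
  have hk1 : k = 1 := by
    rcases Nat.lt_trichotomy k 1 with hk0 | hk0 | hk0
    · exfalso
      have : k = 0 := by omega
      rw [this, pow_zero, one_mul] at h1
      apply hnd
      rw [h1]
      decide
    · exact hk0
    · exfalso
      have h2 : 257 ^ 2 ∣ 48850560 := (pow_dvd_pow 257 (by omega : 2 ≤ k)).trans ⟨_, h1.symm⟩
      revert h2
      decide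
  subst hk1
  have hidx : (P : Subgroup G).index = 190080 := by omega
  have hdvd : Nat.card (Sylow 257 G) ∣ 190080 := by
    rw [← hidx]; exact P.card_dvd_index
  have hmod := card_sylow_modEq_one 257 G
  have hle := Nat.le_of_dvd (by norm_num) hdvd
  have hn1 : Nat.card (Sylow 257 G) = 1 := by
    have hm : Nat.card (Sylow 257 G) = 257 * (Nat.card (Sylow 257 G) / 257) + 1 := by
      have h3 := Nat.div_add_mod (Nat.card (Sylow 257 G)) 257
      have h4 : Nat.card (Sylow 257 G) % 257 = 1 := hmod
      omega
    by_cases h0 : Nat.card (Sylow 257 G) / 257 = 0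
    · rw [hm, h0]
    · exfalso
      refine g2_arith _ ?_ h0 ?_
      · omega
      · rw [← hm]; exact hdvd
  haveI : Subsingleton (Sylow 257 G) := (Nat.card_eq_one_iff_unique.1 hn1).1
  have hnorm : (P : Subgroup G).Normal := P.normal_of_subsingleton
  rcases hnorm.eq_bot_or_eq_top with hb | ht
  · rw [hb, Subgroup.card_bot] at hk
    norm_num at hk
  · rw [ht, Subgroup.card_top, h] at hk
    norm_num at hk

end Cfsg.Agent.Lib.J3P
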