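import Mathlib
import Cfsg.Agent.Lib.Aut22

/-!
# The group generated by four permutations of the 77 hexads is the automorphism group of `S(3,6,22)` (helper5)
-/
set_option autoImplicit false
set_option linter.all false

namespace Cfsg.Agent.Lib.J4M22P

open Cfsg Cfsg.Agent.Lib.Golay Cfsg.Agent.Lib.Steiner Cfsg.Agent.Lib.SteinerTransport
open Cfsg.Agent.Lib.S5824

def T77 : List (List ℕ) := [[0, 2, 4, 7, 1, 11, 13, 16, 6, 20, 19, 23, 26, 8, 30, 29, 3, 14, 10, 18, 34, 37, 39, 5, 41, 24, 27, 12, 36, 46, 17, 48, 31, 22, 9, 40, 50, 52, 53, 33, 54, 25, 56, 44, 58, 45, 15, 55, 32, 38, 28, 64, 21, 49, 35, 62, 65, 70, 43, 72, 59, 67, 47, 63, 68, 42, 61, 66, 51, 75, 76, 71, 60, 69, 74, 73, 57],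
  [0, 1, 5, 8, 9, 2, 14, 12, 3, 4, 21, 24, 7, 28, 6, 16, 15, 27, 31, 19, 20, 10, 38, 23, 11, 34, 44, 17, 13, 36, 47, 18, 32, 49, 25, 35, 29, 37, 22, 39, 40, 41, 48, 46, 26, 59, 43, 30, 42, 33, 62, 51, 65, 53, 54, 58, 56, 61, 55, 45, 73, 57, 50, 75, 64, 52, 76, 67, 68, 72, 70, 71, 69, 60, 74, 63, 66],
  [1, 0, 4, 3, 2, 9, 15, 17, 8, 5, 22, 25, 27, 29, 16, 6, 14, 7, 33, 19, 35, 38, 10, 40, 34, 11, 45, 12, 36, 13, 30, 49, 37, 18, 24, 20, 28, 32, 21, 39, 23, 54, 57, 43, 59, 26, 46, 47, 61, 31, 63, 64, 66, 67, 41, 69, 56, 42, 72, 44, 60, 48, 75, 50, 51, 76, 52, 53, 71, 55, 70, 68, 58, 73, 74, 62, 65],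
  [0, 3, 6, 1, 10, 12, 2, 18, 19, 9, 4, 11, 5, 16, 31, 15, 13, 32, 7, 8, 36, 21, 22, 27, 42, 43, 26, 23, 28, 37, 30, 14, 17, 49, 50, 51, 20, 29, 38, 53, 40, 55, 24, 25, 47, 60, 52, 44, 48, 33, 34, 35, 46, 39, 68, 41, 58, 71, 56, 72, 45, 74, 65, 69, 64, 62, 67, 66, 54, 63, 76, 57, 59, 75, 61, 73, 70]]

def T22 : List (List (Fin 22)) := [[2, 0, 1, 4, 5, 3, 6, 10, 11, 12, 16, 13, 17, 8, 19, 15, 7, 9, 18, 20, 14, 21],
  [0, 1, 3, 2, 4, 5, 7, 6, 8, 9, 16, 11, 13, 12, 20, 18, 10, 17, 15, 21, 14, 19],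
  [1, 0, 6, 7, 9, 8, 2, 3, 5, 4, 13, 17, 16, 10, 14, 15, 12, 11, 18, 19, 20, 21],
  [0, 1, 2, 3, 4, 5, 14, 10, 13, 15, 7, 18, 17, 8, 6, 9, 21, 12, 11, 20, 19, 16]]

def T22i : List (List (Fin 22)) := [[1, 2, 0, 5, 3, 4, 6, 16, 13, 17, 7, 8, 9, 11, 20, 15, 10, 12, 18, 14, 19, 21],
  [0, 1, 3, 2, 4, 5, 7, 6, 8, 9, 16, 11, 13, 12, 20, 18, 10, 17, 15, 21, 14, 19],
  [1, 0, 6, 7, 9, 8, 2, 3, 5, 4, 13, 17, 16, 10, 14, 15, 12, 11, 18, 19, 20, 21],
  [0, 1, 2, 3, 4, 5, 14, 10, 13, 15, 7, 18, 17, 8, 6, 9, 21, 12, 11, 20, 19, 16]]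

def hm : List ℕ := [63, 963, 7237, 58371, 204870, 75913, 409733, 622853, 1380355, 136330, 2117894, 9620, 2360585, 787974, 1212489, 280650, 1083526, 561250, 3154437, 2754563, 198161, 1581322, 2179169, 68898, 69976, 9832, 2426900, 2367650, 2195978, 794705, 49748, 545289, 1196578, 3146834, 70308, 14866, 2134161, 1067281, 1574049, 2621644, 143649, 133360, 2252824, 49576, 560152, 2495040, 1311076, 1311384, 1708052, 606354, 2262052, 426258, 550948, 1131532, 133900, 283696, 2622256, 2117248, 1155120, 696960, 251904, 1641024, 983080, 2140480, 297505, 3151912, 673088, 1077440, 307212, 353024, 2700288, 361664, 1087232, 1453056, 3981312, 792960, 3342720]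

def W0 : List (List (Fin 4)) := [[], [0], [2], [1, 0], [2, 0], [0, 1, 0], [2, 1, 0], [3, 2, 0], [0, 0, 1, 0], [2, 0, 1, 0], [0, 2, 1, 0], [0, 3, 2, 0], [1, 3, 2, 0], [2, 0, 0, 1, 0], [0, 2, 0, 1, 0], [3, 2, 0, 1, 0], [0, 0, 2, 1, 0], [2, 0, 2, 1, 0], [1, 0, 3, 2, 0], [0, 2, 0, 0, 1, 0], [0, 0, 2, 0, 1, 0], [1, 3, 2, 0, 1, 0]]

def W1 : List (List (Fin 4)) := [[], [0, 2], [2, 0, 0], [1, 0, 2], [0, 1, 0, 0], [2, 1, 0, 0], [3, 2, 0, 0], [3, 2, 1, 0, 0], [1, 3, 2, 0, 0], [0, 3, 2, 0, 2], [0, 2, 0, 1, 0, 0], [1, 3, 2, 1, 0, 0], [2, 0, 0, 1, 0, 2], [2, 3, 2, 1, 0, 2], [1, 0, 3, 2, 0, 2], [3, 0, 2, 0, 1, 0, 0], [0, 3, 2, 0, 1, 0, 0], [1, 0, 3, 2, 0, 1, 0, 0], [3, 0, 3, 2, 0, 1, 0, 0], [0, 3, 2, 3, 2, 1, 0, 0], [2, 3, 2, 3, 2, 1, 0, 0]]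

def W2 : List (List (Fin 4)) := [[], [1], [2, 3, 2], [2, 3, 2, 1], [2, 1, 3, 2], [3, 2, 3, 2], [2, 1, 3, 2, 1], [3, 2, 3, 2, 1], [3, 2, 1, 3, 2], [1, 3, 2, 3, 2], [3, 2, 1, 3, 2, 1], [2, 3, 1, 3, 2, 1], [3, 1, 3, 2, 3, 2], [3, 2, 3, 1, 3, 2, 1], [0, 3, 0, 0, 2, 3, 2, 1], [0, 0, 3, 0, 2, 3, 2, 1], [0, 3, 2, 0, 2, 3, 0, 2, 1], [0, 0, 3, 0, 2, 1, 3, 2, 1], [2, 3, 2, 3, 1, 3, 2, 3, 2], [2, 0, 2, 3, 0, 1, 3, 2, 0, 1]]

def W3 : List (List (Fin 4)) := [[], [3], [1, 3, 1], [0, 3, 0, 0], [0, 0, 3, 0], [3, 1, 3, 1], [0, 1, 3, 1, 0, 0], [0, 0, 1, 3, 1, 0], [2, 3, 1, 0, 0, 3, 0, 2, 3], [2, 0, 2, 3, 0, 1, 3, 2, 3, 0], [2, 0, 1, 3, 1, 0, 0, 2, 3, 1], [2, 3, 2, 1, 3, 2, 3, 1, 3, 2], [3, 2, 3, 1, 0, 0, 3, 0, 2, 3], [2, 1, 0, 1, 3, 2, 1, 0, 2, 3, 0], [2, 0, 1, 3, 2, 1, 0, 2, 3, 0, 1], [1, 3, 2, 0, 1, 3, 1, 0, 0, 2, 3]]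

def W4 : List (List (Fin 4)) := [[], [3, 2, 0, 2, 3, 0, 1, 3, 2, 0, 3], [2, 3, 0, 1, 3, 2, 0, 1, 3, 2, 1, 0]]

def W5 : List (List (Fin 4)) := [[], [0, 1, 3, 2, 1, 0, 2, 3, 0, 1, 3, 2]]

def f22 (k : Fin 4) (i : Fin 22) : Fin 22 := (T22.getD k []).getD i 0
def f22i (k : Fin 4) (i : Fin 22) : Fin 22 := (T22i.getD k []).getD i 0

theorem f22_inv : ∀ k i, f22i k (f22 k i) = i := by decide +kernel
theorem f22_inv' : ∀ k i, f22 k (f22i k i) = i := by decide +kernel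

/-- the four permutations of 22 points -/
def g (k : Fin 4) : Equiv.Perm (Fin 22) := ⟨f22 k, f22i k, f22_inv k, f22_inv' k⟩

theorem g_apply (k : Fin 4) (i : Fin 22) : g k i = f22 k i := rfl

def ev (w : List (Fin 4)) : Equiv.Perm (Fin 22) := (w.map g).prod
def act (w : List (Fin 4)) (c : Fin 22) : Fin 22 := w.foldr (fun k x => f22 k x) c

theorem ev_act (w : List (Fin 4)) (c : Fin 22) : ev w c = act w c := by
  induction w with
  | nil => rfl
  | cons k w ih =>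
    show (g k * ev w) c = f22 k (act w c)
    rw [Equiv.Perm.mul_apply, ih, g_apply]

def X : Subgroup (Equiv.Perm (Fin 22)) := Subgroup.closure (Set.range g)

theorem ev_mem (w : List (Fin 4)) : ev w ∈ X := by
  apply Subgroup.list_prod_mem
  intro x hx
  obtain ⟨k, -, rfl⟩ := List.mem_map.1 hx
  exact Subgroup.subset_closure ⟨k, rfl⟩

theorem step (K : Subgroup (Equiv.Perm (Fin 22))) (b : Fin 22) (S : Finset (Fin 22))
    (h : ∀ q ∈ S, ∃ x ∈ K, x b = q) :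
    S.card * Nat.card ↥(K ⊓ MulAction.stabilizer (Equiv.Perm (Fin 22)) b) ≤ Nat.card K := by
  choose! x hx1 hx2 using h
  have h1 : Function.Injective (fun p : S × ↥(K ⊓ MulAction.stabilizer (Equiv.Perm (Fin 22)) b) =>
      (⟨x p.1.1 * p.2.1, K.mul_mem (hx1 _ p.1.2) p.2.2.1⟩ : K)) := by
    rintro ⟨⟨q, hq⟩, ⟨k, hk⟩⟩ ⟨⟨q', hq'⟩, ⟨k', hk'⟩⟩ h
    have h2 : x q * k = x q' * k' := congrArg Subtype.val h
    have hkb : k b = b := hk.2
    have hkb' : k' b = b := hk'.2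
    have h3 : (x q * k) b = (x q' * k') b := by rw [h2]
    rw [Equiv.Perm.mul_apply, Equiv.Perm.mul_apply, hkb, hkb', hx2 q hq, hx2 q' hq'] at h3
    subst h3
    have h4 := mul_left_cancel h2
    subst h4
    rfl
  have h2 := Nat.card_le_card_of_injective _ h1
  rw [Nat.card_prod, Nat.card_eq_fintype_card (α := S), Fintype.card_coe] at h2
  exact h2

/-- pointwise stabilizers in a chain -/
def Kp : List (Fin 22) → Subgroup (Equiv.Perm (Fin 22))
  | [] => X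
  | b :: l => Kp l ⊓ MulAction.stabilizer (Equiv.Perm (Fin 22)) b

theorem mem_Kp {l : List (Fin 22)} {x : Equiv.Perm (Fin 22)} (hx : x ∈ X) (h : ∀ b ∈ l, x b = b) : x ∈ Kp l := by
  induction l with
  | nil => exact hx
  | cons b l ih =>
    exact ⟨ih fun c hc => h c (List.mem_cons_of_mem _ hc), h b List.mem_cons_self⟩

theorem stage (prev : List (Fin 22)) (b : Fin 22) (ws : List (List (Fin 4))) (n : ℕ)
    (h1 : ∀ w ∈ ws, ∀ c ∈ prev, act w c = c) (h2 : (ws.map (fun w => act w b)).toFinset.card = n) :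
    n * Nat.card ↥(Kp (b :: prev)) ≤ Nat.card ↥(Kp prev) := by
  rw [← h2]
  apply step
  intro q hq
  rw [List.mem_toFinset, List.mem_map] at hq
  obtain ⟨w, hw, rfl⟩ := hq
  exact ⟨ev w, mem_Kp (ev_mem w) (fun c hc => by rw [ev_act]; exact h1 w hw c hc), ev_act w b⟩

theorem card_X_ge : 887040 ≤ Nat.card X := by
  have s0 := stage [] 0 W0 22 (by decide +kernel) (by decide +kernel)
  have s1 := stage [0] 1 W1 21 (by decide +kernel) (by decide +kernel)
  have s2 := stage [1, 0] 2 W2 20 (by decide +kernel) (by decide +kernel)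
  have s3 := stage [2, 1, 0] 6 W3 16 (by decide +kernel) (by decide +kernel)
  have s4 := stage [6, 2, 1, 0] 3 W4 3 (by decide +kernel) (by decide +kernel)
  have s5 := stage [3, 6, 2, 1, 0] 4 W5 2 (by decide +kernel) (by decide +kernel)
  have s6 : 0 < Nat.card ↥(Kp [4, 3, 6, 2, 1, 0]) := Nat.card_pos
  have e : Kp [] = X := rfl
  rw [e] at s0
  omega

/-- the hexads -/
def hx (i : Fin 77) : Finset (Fin 22) := Finset.univ.filter (fun a => (hm.getD i 0).testBit a = true)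

theorem mem_hx {i : Fin 77} {a : Fin 22} : a ∈ hx i ↔ (hm.getD i 0).testBit a = true := by
  simp [hx]

theorem hx_card : ∀ i : Fin 77, (hx i).card = 6 := by decide +kernel

theorem chkU : ∀ i j : Fin 77, i < j → (Finset.univ.filter (fun a : Fin 22 => ((hm.getD i 0).land (hm.getD j 0)).testBit a = true)).card ≤ 2 := by
  decide +kernel

theorem chkE : ((List.range 22).all fun a => (List.range a).all fun b => (List.range b).all fun c =>
    (List.range 77).any fun i => (hm.getD i 0).testBit a && (hm.getD i 0).testBit b && (hm.getD i 0).testBit c) = true := by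
  decide +kernel

theorem hx_inter {i j : Fin 77} (h : i ≠ j) : (hx i ∩ hx j).card ≤ 2 := by
  have key : ∀ i j : Fin 77, i < j → (hx i ∩ hx j).card ≤ 2 := by
    intro i j hij
    refine le_trans (Finset.card_le_card ?_) (chkU i j hij)
    intro a ha
    rw [Finset.mem_inter, mem_hx, mem_hx] at ha
    rw [Finset.mem_filter]
    refine ⟨Finset.mem_univ _, ?_⟩
    show Nat.testBit ((hm.getD i 0) &&& (hm.getD j 0)) a = true
    rw [Nat.testBit_and, ha.1, ha.2]; rfl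
  rcases lt_or_gt_of_ne h with h | h
  · exact key i j h
  · rw [Finset.inter_comm]; exact key j i h

theorem hx_inj : Function.Injective hx := by
  intro i j h
  by_contra hne
  have h1 := hx_inter hne
  rw [← h, Finset.inter_self, hx_card] at h1
  omega

theorem three (a b c : Fin 22) (hab : b < a) (hbc : c < b) : ∃ i, a ∈ hx i ∧ b ∈ hx i ∧ c ∈ hx i := by
  have h := chkE
  rw [List.all_eq_true] at h
  have h1 := h a.1 (List.mem_range.2 a.2)
  rw [List.all_eq_true] at h1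
  have h2 := h1 b.1 (List.mem_range.2 hab)
  rw [List.all_eq_true] at h2
  have h3 := h2 c.1 (List.mem_range.2 hbc)
  rw [List.any_eq_true] at h3
  obtain ⟨i, hi, h4⟩ := h3
  rw [Bool.and_eq_true, Bool.and_eq_true] at h4
  exact ⟨⟨i, List.mem_range.1 hi⟩, mem_hx.2 h4.1.1, mem_hx.2 h4.1.2, mem_hx.2 h4.2⟩

theorem three' (a b c : Fin 22) (hab : a ≠ b) (hac : a ≠ c) (hbc : b ≠ c) : ∃ i, a ∈ hx i ∧ b ∈ hx i ∧ c ∈ hx i := by
  rcases lt_or_gt_of_ne hab with h1 | h1 <;> rcases lt_or_gt_of_ne hac with h2 | h2 <;>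
    rcases lt_or_gt_of_ne hbc with h3 | h3
  · obtain ⟨i, x, y, z⟩ := three c b a h3 h1; exact ⟨i, z, y, x⟩
  · obtain ⟨i, x, y, z⟩ := three b c a h3 h2; exact ⟨i, z, x, y⟩
  · exact absurd (lt_trans h1 h3) (not_lt_of_gt h2)
  · obtain ⟨i, x, y, z⟩ := three b a c h1 h2; exact ⟨i, y, x, z⟩
  · obtain ⟨i, x, y, z⟩ := three c a b h2 h1; exact ⟨i, y, z, x⟩
  · exact absurd (lt_trans h3 h1) (not_lt_of_gt h2)
  · obtain ⟨i, x, y, z⟩ := three a c b h2 h3; exact ⟨i, x, z, y⟩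
  · obtain ⟨i, x, y, z⟩ := three a b c h1 h3; exact ⟨i, x, y, z⟩

/-- the set of hexads -/
def B22 : Set (Finset (Fin 22)) := Set.range hx

theorem steiner : IsSteinerSystem 3 6 B22 := by
  constructor
  · rintro _ ⟨i, rfl⟩; exact hx_card i
  · intro s hs
    obtain ⟨a, b, c, hab, hac, hbc, rfl⟩ := Finset.card_eq_three.1 hs
    obtain ⟨i, h1, h2, h3⟩ := three' a b c hab hac hbc
    refine ⟨hx i, ⟨⟨i, rfl⟩, ?_⟩, ?_⟩
    · intro x hx'
      simp only [Finset.mem_insert, Finset.mem_singleton] at hx'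
      rcases hx' with rfl | rfl | rfl <;> assumption
    · rintro _ ⟨⟨j, rfl⟩, hj⟩
      by_contra hne
      have hij : j ≠ i := fun e => hne (by rw [e])
      have h4 := hx_inter hij
      have h5 : ({a, b, c} : Finset (Fin 22)) ⊆ hx j ∩ hx i := by
        intro x hx'
        refine Finset.mem_inter.2 ⟨hj hx', ?_⟩
        simp only [Finset.mem_insert, Finset.mem_singleton] at hx'
        rcases hx' with rfl | rfl | rfl <;> assumption
      have h6 := Finset.card_le_card h5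
      rw [hs] at h6
      omega

/-- compatible pairs -/
def Rel (x : Equiv.Perm (Fin 22)) (p : Equiv.Perm (Fin 77)) : Prop := ∀ i a, a ∈ hx i ↔ x a ∈ hx (p i)

theorem Rel.mul {x y : Equiv.Perm (Fin 22)} {p q : Equiv.Perm (Fin 77)} (h1 : Rel x p) (h2 : Rel y q) : Rel (x * y) (p * q) := by
  intro i a
  rw [h2 i a, h1]
  rfl

theorem Rel.one : Rel 1 1 := fun i a => Iff.rfl

theorem Rel.inv {x : Equiv.Perm (Fin 22)} {p : Equiv.Perm (Fin 77)} (h1 : Rel x p) : Rel x⁻¹ p⁻¹ := by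
  intro i a
  rw [h1 (p⁻¹ i) (x⁻¹ a)]
  simp

theorem Rel.aut {x : Equiv.Perm (Fin 22)} {p : Equiv.Perm (Fin 77)} (h : Rel x p) (i : Fin 77) :
    (hx i).map x.toEmbedding = hx (p i) := by
  ext a
  rw [Finset.mem_map]
  constructor
  · rintro ⟨b, hb, rfl⟩
    exact (h i b).1 hb
  · intro ha
    refine ⟨x.symm a, ?_, by simp⟩
    rw [h i, Equiv.apply_symm_apply]; exact ha

theorem sep : ∀ a b : Fin 22, a ≠ b → ∃ i : Fin 77, (hm.getD i 0).testBit a = true ∧ (hm.getD i 0).testBit b = false := by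
  decide +kernel

theorem idx_chk : ∀ k : Fin 4, ∀ i : Fin 77, ∀ a : Fin 22,
    (hm.getD i 0).testBit a = (hm.getD ((T77.getD k []).getD i 0) 0).testBit (f22 k a) := by
  decide +kernel

theorem main (P : Fin 4 → Equiv.Perm (Fin 77)) (hP : ∀ k i, ((P k i : Fin 77) : ℕ) = ((T77.getD k []).getD i 0))
    (A : Subgroup (Equiv.Perm (Fin 77))) (hA : A = Subgroup.closure (Set.range P)) :
    Nat.card A = 887040 ∧ ∃ B : Subgroup A, B.index = 2 ∧ IsSimpleGroup B ∧ Nat.card B = 443520 := by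
  have hrel : ∀ k, Rel (g k) (P k) := by
    intro k i a
    rw [mem_hx, mem_hx, hP k i, g_apply, idx_chk k i a]
  let Γ : Subgroup (Equiv.Perm (Fin 22) × Equiv.Perm (Fin 77)) := Subgroup.closure (Set.range fun k => (g k, P k))
  have hΓ : ∀ z ∈ Γ, Rel z.1 z.2 := by
    intro z hz
    induction hz using Subgroup.closure_induction with
    | mem x hx => obtain ⟨k, rfl⟩ := hx; exact hrel k
    | one => exact Rel.one
    | mul x y _ _ hx hy => exact hx.mul hy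
    | inv x _ hx => exact hx.inv
  have i1 : Function.Injective ((MonoidHom.fst (Equiv.Perm (Fin 22)) (Equiv.Perm (Fin 77))).comp Γ.subtype) := by
    rw [injective_iff_map_eq_one]
    rintro ⟨⟨x, p⟩, hz⟩ h
    have hx1 : x = 1 := h
    subst hx1
    have h1 := hΓ _ hz
    have h2 : p = 1 := by
      refine Equiv.ext fun i => ?_
      apply hx_inj
      ext a
      exact (h1 i a).symm
    subst h2
    rfl
  have i2 : Function.Injective ((MonoidHom.snd (Equiv.Perm (Fin 22)) (Equiv.Perm (Fin 77))).comp Γ.subtype) := by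
    rw [injective_iff_map_eq_one]
    rintro ⟨⟨x, p⟩, hz⟩ h
    have hx1 : p = 1 := h
    subst hx1
    have h1 := hΓ _ hz
    have h2 : x = 1 := by
      refine Equiv.ext fun a => ?_
      by_contra hne
      obtain ⟨i, hi1, hi2⟩ := sep _ _ (Ne.symm hne)
      have h3 := (h1 i a).1 (mem_hx.2 hi1)
      have h4 : (hm.getD i 0).testBit (x a) = true := mem_hx.1 h3
      rw [hi2] at h4
      exact Bool.false_ne_true h4
    subst h2
    rfl
  have r1 : ((MonoidHom.fst (Equiv.Perm (Fin 22)) (Equiv.Perm (Fin 77))).comp Γ.subtype).range = X := by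
    rw [MonoidHom.range_comp, Subgroup.range_subtype, MonoidHom.map_closure, ← Set.range_comp]
    rfl
  have r2 : ((MonoidHom.snd (Equiv.Perm (Fin 22)) (Equiv.Perm (Fin 77))).comp Γ.subtype).range = A := by
    rw [MonoidHom.range_comp, Subgroup.range_subtype, MonoidHom.map_closure, ← Set.range_comp, hA]
    rfl
  have E1 : Γ ≃* X := (MonoidHom.ofInjective i1).trans (MulEquiv.subgroupCongr r1)
  have E2 : Γ ≃* A := (MonoidHom.ofInjective i2).trans (MulEquiv.subgroupCongr r2)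
  -- `X` is the whole automorphism group
  have hXle : X ≤ setSystemAut B22 := by
    rw [X, Subgroup.closure_le]
    rintro _ ⟨k, rfl⟩
    rw [SetLike.mem_coe, mem_aut_iff]
    intro s
    constructor
    · rintro ⟨j, hj⟩
      have h1 := (hrel k).aut ((P k)⁻¹ j)
      have e : (P k) ((P k)⁻¹ j) = j := (P k).apply_symm_apply j
      rw [e, hj] at h1
      exact ⟨_, Finset.map_injective _ h1⟩
    · rintro ⟨j, rfl⟩
      exact ⟨P k j, ((hrel k).aut j).symm⟩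
  have hα : Fintype.card (Fin 22) = 22 := by simp
  have hcard := Aut22.card_aut hα steiner
  have hXeq : X = setSystemAut B22 := by
    apply Subgroup.eq_of_le_of_card_ge hXle
    rw [hcard]; exact card_X_ge
  obtain ⟨φ, hφ⟩ := Aut22.exists_m22 hα steiner
  have E : setSystemAut B22 ≃* A := (MulEquiv.subgroupCongr hXeq.symm).trans (E1.symm.trans E2)
  have hcA : Nat.card A = 887040 := by rw [← hcard]; exact (Nat.card_congr E.toEquiv).symm
  let ψ := E.toMonoidHom.comp φ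
  have hψ : Function.Injective ψ := E.injective.comp hφ
  have e3 := MonoidHom.ofInjective hψ
  have hs : IsSimpleGroup ψ.range := isSimpleGroup_of_mulEquiv e3 (M22_simple u0_ne_v0)
  have hc : Nat.card ψ.range = 443520 := by
    rw [← Nat.card_congr e3.toEquiv]; exact card_stab_two u0_ne_v0
  refine ⟨hcA, ψ.range, ?_, hs, hc⟩
  have h1 := Subgroup.index_mul_card ψ.range
  rw [hc, hcA] at h1
  omega

end Cfsg.Agent.Lib.J4M22P
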