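import Cfsg.Agent.Lib.J4CC
import Cfsg.Agent.Lib.J4CI
import Cfsg.Agent.Lib.J4M22P

/-!
The image of the centralizer of `hh` on the 77 points (helper57).
-/

set_option autoImplicit false
set_option linter.all false
set_option maxRecDepth 100000

namespace Cfsg.Agent.Lib.J4CJ

theorem T_eq : J4M22P.T77 = J4CA.T77 := by decide +kernel

theorem img : J4CC.ImgStmt := by
  intro A hA
  refine J4M22P.main J4CB.Pp ?_ A hA
  intro k i
  rw [T_eq]
  exact J4CB.Pp_eq k i

end Cfsg.Agent.Lib.J4CJ
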