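import Cfsg.Agent.Lib.JThreeCentMain
import Cfsg.Agent.Lib.FusionSimpleGroup
import Cfsg.Agent.Lib.FlagSylow

/-!
The 2-fusion system of `J₃` is simple.
-/

set_option autoImplicit false
set_option exponentiation.threshold 2000

namespace Cfsg.Agent.Lib.JThree

open Cfsg Cfsg.Agent.Lib.K4 Cfsg.Agent.Lib.F4Pack Cfsg.Agent.Lib.NatTree Cfsg.Agent.Lib.LargeExtra
open Cfsg.Agent.Lib.Golay (allLt allLt_iff)

/-! ### involutions generate -/

theorem fac_ok : cond (Nat.beq (mu (qt 26) (qt 30)) Q1c) (cond (Nat.beq (mu (qt 22) (qt 31)) Q2c)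
    (cond (Nat.beq (mu (qt 11) (qt 26)) Q3c) (Nat.beq (mu (qt 10) (qt 27)) Q4c) false) false) false = true := by
  decide +kernel

theorem invq_ok : cond (allLt 32 (fun n => cond (Nat.beq n 10) (Nat.beq (mu (qt n) (qt n)) Ic) true)) (cond
    (allLt 32 (fun n => cond (Nat.beq n 11) (Nat.beq (mu (qt n) (qt n)) Ic) true)) (cond
    (allLt 32 (fun n => cond (Nat.beq n 22) (Nat.beq (mu (qt n) (qt n)) Ic) true)) (allLt 6 (fun n =>
      Nat.beq (mu (qt (Nat.add 26 n)) (qt (Nat.add 26 n))) Ic)) false) false) false = true := by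
  decide +kernel

theorem b5_ne : Nat.beq (mu Bc5 Q1c) (mu Q1c Bc5) = false := by decide +kernel

/-- elements of `Q0` by index -/
theorem exists_q {n : ℕ} (hn : n < 32) : ∃ q ∈ Q0, cd q.1 = qt n := by
  obtain ⟨x, hx, hx2⟩ := q_in n hn
  exact ⟨⟨x, Q0G_le hx⟩, hx, hx2⟩

theorem inv_of {n : ℕ} (h : Nat.beq (mu (qt n) (qt n)) Ic = true) {q : W} (hq : cd q.1 = qt n) : q * q = 1 := by
  apply W_ext
  rw [cdW_mul, hq, cdW_one]
  exact Nat.eq_of_beq_eq_true h

theorem sq_qt : ∀ n ∈ ({10, 11, 22, 26, 27, 30, 31} : Finset ℕ), Nat.beq (mu (qt n) (qt n)) Ic = true := by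
  have h := invq_ok
  rw [cond_and, cond_and, cond_and] at h
  obtain ⟨h1, h2, h3, h4⟩ := h
  intro n hn
  simp only [Finset.mem_insert, Finset.mem_singleton] at hn
  rcases hn with rfl | rfl | rfl | rfl | rfl | rfl | rfl
  · have := (allLt_iff.1 h1) 10 (by norm_num); rwa [Nat.beq_refl, cond_true] at this
  · have := (allLt_iff.1 h2) 11 (by norm_num); rwa [Nat.beq_refl, cond_true] at this
  · have := (allLt_iff.1 h3) 22 (by norm_num); rwa [Nat.beq_refl, cond_true] at this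
  · exact (allLt_iff.1 h4) 0 (by norm_num)
  · exact (allLt_iff.1 h4) 1 (by norm_num)
  · exact (allLt_iff.1 h4) 4 (by norm_num)
  · exact (allLt_iff.1 h4) 5 (by norm_num)

/-- a subgroup containing all involutions of `Q0` contains `Q0` -/
theorem Q0_le_of {N : Subgroup W} (h : ∀ q ∈ Q0, q * q = 1 → q ∈ N) : Q0 ≤ N := by
  have key : ∀ a ∈ ({10, 11, 22, 26, 27, 30, 31} : Finset ℕ), ∀ b ∈ ({10, 11, 22, 26, 27, 30, 31} : Finset ℕ),
      ∀ c : W, Nat.beq (mu (qt a) (qt b)) (cd c.1) = true → c ∈ N := by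
    intro a ha b hb c hc
    have la : a < 32 := by
      simp only [Finset.mem_insert, Finset.mem_singleton] at ha; omega
    have lb : b < 32 := by
      simp only [Finset.mem_insert, Finset.mem_singleton] at hb; omega
    obtain ⟨x, hx, hx2⟩ := exists_q la
    obtain ⟨y, hy, hy2⟩ := exists_q lb
    have h1 : c = x * y := by
      apply W_ext
      rw [cdW_mul, hx2, hy2]
      exact (Nat.eq_of_beq_eq_true hc).symm
    rw [h1]
    exact mul_mem (h x hx (inv_of (sq_qt a ha) hx2)) (h y hy (inv_of (sq_qt b hb) hy2))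
  have hf := fac_ok
  rw [cond_and, cond_and, cond_and] at hf
  obtain ⟨f1, f2, f3, f4⟩ := hf
  have m1 : q1 ∈ N := key 26 (by decide) 30 (by decide) q1 (by rw [cd_q1]; exact f1)
  have m2 : q2' ∈ N := key 22 (by decide) 31 (by decide) q2' (by rw [cd_q2]; exact f2)
  have m3 : q3' ∈ N := key 11 (by decide) 26 (by decide) q3' (by rw [cd_q3]; exact f3)
  have m4 : q4 ∈ N := key 10 (by decide) 27 (by decide) q4 (by rw [cd_q4]; exact f4)
  have hle : Q0G ≤ N.map H.subtype := by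
    refine (Subgroup.closure_le (K := N.map H.subtype)).2 ?_
    rintro g (hg | hg | hg | hg)
    · exact ⟨q1, m1, hg.symm⟩
    · exact ⟨q2', m2, hg.symm⟩
    · exact ⟨q3', m3, hg.symm⟩
    · exact ⟨q4, m4, hg.symm⟩
  intro q hq
  obtain ⟨n, hn, hn2⟩ := hle hq
  have : n = q := Subtype.ext hn2
  exact this ▸ hn

open Cfsg.Agent.Lib.Pres235 in
/-- the complement, with the element of order five -/
theorem exists_f2 : ∃ f : alternatingGroup (Fin 5) →* W, Function.Injective f ∧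
    (∀ g, f g ∈ Subgroup.normalizer (Q0 : Set W) ∧ f g ∈ CW) ∧ ∃ y, f y = bW5 := by
  obtain ⟨a1, a2, a3, a4, a5, a6⟩ := ab_facts
  obtain ⟨e, he0, he1⟩ := Cfsg.Agent.Lib.Pres235.equiv
  let g : PresentedGroup rels →* W := PresentedGroup.toGroup (f := ![aW5, bW5]) (by
    rintro r (rfl | rfl | rfl)
    · simpa using a4
    · simpa using a5
    · simpa using a6)
  have g0 : g (PresentedGroup.of 0) = aW5 := by simp [g]
  have g1 : g (PresentedGroup.of 1) = bW5 := by simp [g]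
  let f : alternatingGroup (Fin 5) →* W := g.comp e.symm.toMonoidHom
  refine ⟨f, ?_, ?_, ?_⟩
  · have hs := alternatingGroup.isSimpleGroup (α := Fin 5) (by simp)
    rw [← MonoidHom.ker_eq_bot_iff]
    rcases IsSimpleGroup.eq_bot_or_eq_top_of_normal f.ker inferInstance with h | h
    · exact h
    · exfalso
      have h1 : f (e (PresentedGroup.of 0)) = 1 := by
        have : e (PresentedGroup.of 0) ∈ f.ker := by rw [h]; exact Subgroup.mem_top _
        exact this
      have h2 : f (e (PresentedGroup.of 0)) = g (e.symm (e (PresentedGroup.of 0))) := rfl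
      rw [e.symm_apply_apply, g0] at h2
      exact a3 (h2.symm.trans h1)
  · intro x
    have h1 : (⊤ : Subgroup (PresentedGroup rels)) ≤ (Subgroup.normalizer (Q0 : Set W) ⊓ CW).comap g := by
      rw [← closure_of, Subgroup.closure_le]
      rintro y (hy | hy)
      · refine Subgroup.mem_comap.2 ?_
        rw [hy, g0]; exact Subgroup.mem_inf.2 ⟨aN, mem_CW.2 a1⟩
      · rw [Set.mem_singleton_iff] at hy
        refine Subgroup.mem_comap.2 ?_
        rw [hy, g1]; exact Subgroup.mem_inf.2 ⟨bN, mem_CW.2 a2⟩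
    exact Subgroup.mem_inf.1 (h1 (Subgroup.mem_top (e.symm x)))
  · refine ⟨e (PresentedGroup.of 1), ?_⟩
    have h2 : f (e (PresentedGroup.of 1)) = g (e.symm (e (PresentedGroup.of 1))) := rfl
    rw [h2, e.symm_apply_apply, g1]

section
variable {G : Type*} [Group G] (ψ : W →* G) (hk : ψ.ker = Subgroup.center W) (hs : Function.Surjective ψ)
variable {f : alternatingGroup (Fin 5) →* W} (hf : Function.Injective f)
  (hf2 : ∀ g, f g ∈ Subgroup.normalizer (Q0 : Set W) ∧ f g ∈ CW)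

theorem card_A5 : Nat.card (alternatingGroup (Fin 5)) = 60 := by
  rw [Nat.card_eq_fintype_card]; rfl

include hk hf in
theorem F_inj : Function.Injective (ψ.comp f) := by
  have hs5 := alternatingGroup.isSimpleGroup (α := Fin 5) (by simp)
  rw [← MonoidHom.ker_eq_bot_iff]
  rcases IsSimpleGroup.eq_bot_or_eq_top_of_normal (ψ.comp f).ker inferInstance with h | h
  · exact h
  · exfalso
    have h1 : ∀ x, f x ∈ ψ.ker := by
      intro x
      have : x ∈ (ψ.comp f).ker := by rw [h]; exact Subgroup.mem_top _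
      exact MonoidHom.mem_ker.1 this
    have h2 : Function.Injective (fun x => (⟨f x, h1 x⟩ : ψ.ker)) := by
      intro a b hab
      exact hf (congrArg Subtype.val hab)
    have h3 := Nat.card_le_card_of_injective _ h2
    rw [hk, card_center, card_A5] at h3
    omega

/-- the image of the normal subgroup -/
noncomputable def QG : Subgroup G := Q0.map ψ

theorem mem_QG {g : G} : g ∈ QG ψ ↔ ∃ q ∈ Q0, ψ q = g := Iff.rfl

include hk in
theorem card_QG : Nat.card (QG ψ) = 32 := by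
  let j : Q0 → QG ψ := fun q => ⟨ψ q.1, q.1, q.2, rfl⟩
  have hj : Function.Bijective j := by
    constructor
    · intro a b hab
      exact Subtype.ext (psi_inj ψ hk a.2 b.2 (congrArg Subtype.val hab))
    · rintro ⟨g, q, hq, rfl⟩
      exact ⟨⟨q, hq⟩, rfl⟩
  rw [← Nat.card_congr (Equiv.ofBijective j hj), card_Q0]

include hf2 in
theorem F_norm (x : alternatingGroup (Fin 5)) {q : G} (hq : q ∈ QG ψ) : ψ (f x) * q * (ψ (f x))⁻¹ ∈ QG ψ := by
  obtain ⟨r, hr, rfl⟩ := hq
  have h1 : f x * r * (f x)⁻¹ ∈ Q0 := (Subgroup.mem_normalizer_iff.1 (hf2 x).1 r).1 hr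
  exact ⟨_, h1, by rw [map_mul, map_mul, map_inv]⟩

include hk hf hf2 in
theorem F_disj {x : alternatingGroup (Fin 5)} (h : ψ (f x) ∈ QG ψ) : x = 1 := by
  have hs5 := alternatingGroup.isSimpleGroup (α := Fin 5) (by simp)
  let N : Subgroup (alternatingGroup (Fin 5)) := (QG ψ).comap (ψ.comp f)
  have hN : N.Normal := by
    constructor
    intro n hn g
    have hn' : ψ (f n) ∈ QG ψ := hn
    show ψ (f (g * n * g⁻¹)) ∈ QG ψ
    rw [map_mul, map_mul, map_inv, map_mul, map_mul, map_inv]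
    exact F_norm ψ hf2 g hn'
  rcases IsSimpleGroup.eq_bot_or_eq_top_of_normal N hN with h1 | h1
  · have h2 : x ∈ N := h
    rw [h1, Subgroup.mem_bot] at h2
    exact h2
  · exfalso
    have h2 : ∀ x, ψ (f x) ∈ QG ψ := by
      intro x
      have : x ∈ N := by rw [h1]; exact Subgroup.mem_top _
      exact this
    have h3 : Function.Injective (fun x => (⟨ψ (f x), h2 x⟩ : QG ψ)) := by
      intro a b hab
      exact F_inj ψ hk hf (congrArg Subtype.val hab)
    have hfin : Finite (QG ψ) := Nat.finite_of_card_ne_zero (by rw [card_QG ψ hk]; norm_num)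
    have h4 := Nat.card_le_card_of_injective _ h3
    rw [card_QG ψ hk, card_A5] at h4
    omega

/-- the centralizer of the involution -/
noncomputable abbrev CG : Subgroup G := Subgroup.centralizer ({ψ tW} : Set G)

theorem mem_CG_of {w : W} (hw : w * tW = tW * w) : ψ w ∈ CG ψ := by
  rw [Subgroup.mem_centralizer_singleton_iff, ← map_mul, ← map_mul, hw]

include hk hs hf hf2 in
theorem CG_decomp {c : G} (hc : c ∈ CG ψ) : ∃ q ∈ QG ψ, ∃ x, c = q * ψ (f x) := by
  have hfin : Finite G := Finite.of_surjective ψ hs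
  have hQ : QG ψ ≤ CG ψ := by
    rintro _ ⟨q, hq, rfl⟩
    exact mem_CG_of ψ (Q0_comm_t hq)
  let k : QG ψ × alternatingGroup (Fin 5) → CG ψ := fun p =>
    ⟨p.1.1 * ψ (f p.2), mul_mem (hQ p.1.2) (mem_CG_of ψ (mem_CW.1 (hf2 p.2).2))⟩
  have hki : Function.Injective k := by
    rintro ⟨q, x⟩ ⟨r, y⟩ h
    have h1 : q.1 * ψ (f x) = r.1 * ψ (f y) := congrArg Subtype.val h
    have h2 : ψ (f (x * y⁻¹)) ∈ QG ψ := by
      have : ψ (f (x * y⁻¹)) = q.1⁻¹ * r.1 := by
        rw [map_mul, map_mul, map_inv, map_inv, mul_inv_eq_iff_eq_mul, mul_assoc, ← h1, inv_mul_cancel_left]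
      rw [this]
      exact mul_mem (inv_mem q.2) r.2
    have h3 := F_disj ψ hk hf hf2 h2
    have h4 : x = y := mul_inv_eq_one.1 h3
    subst h4
    exact Prod.ext (Subtype.ext (mul_right_cancel h1)) rfl
  have hb : Function.Bijective k := by
    have h1 := Nat.card_le_card_of_injective k hki
    have h2 := card_psi_cent ψ hk hs
    rw [Nat.card_prod, card_QG ψ hk, card_A5] at h1
    refine (Nat.bijective_iff_injective_and_card k).2 ⟨hki, ?_⟩
    rw [Nat.card_prod, card_QG ψ hk, card_A5]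
    exact le_antisymm h1 h2
  obtain ⟨⟨q, x⟩, hqx⟩ := hb.2 ⟨c, hc⟩
  exact ⟨q.1, q.2, x, (congrArg Subtype.val hqx).symm⟩

include hk hs hf hf2 in
theorem CG_norm : CG ψ ≤ Subgroup.normalizer (QG ψ : Set G) := by
  have hfin : Finite G := Finite.of_surjective ψ hs
  intro c hc
  obtain ⟨q, hq, x, rfl⟩ := CG_decomp ψ hk hs hf hf2 hc
  refine mul_mem (Subgroup.le_normalizer hq) ?_
  exact mem_normalizer_of (fun r hr => F_norm ψ hf2 x hr)

include hk in
theorem QG_center {q : G} (hq : q ∈ QG ψ) (h : ∀ r ∈ QG ψ, q * r = r * q) : q = 1 ∨ q = ψ tW := by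
  obtain ⟨w, hw, rfl⟩ := hq
  by_contra hcon
  push Not at hcon
  have h1 : w ≠ 1 := fun h => hcon.1 (by rw [h, map_one])
  have h2 : w ≠ tW := fun h => hcon.2 (by rw [h])
  obtain ⟨b, hb, hab⟩ := Q0_cen hw h1 h2
  apply hab
  apply psi_inj ψ hk (mul_mem hw hb) (mul_mem hb hw)
  rw [map_mul, map_mul]
  exact h _ ⟨b, hb, rfl⟩

include hk hs hf hf2 in
theorem cent_QG (hb5 : ∃ y, f y = bW5) {c : G} (h : ∀ r ∈ QG ψ, c * r = r * c) : c = 1 ∨ c = ψ tW := by
  have hs5 := alternatingGroup.isSimpleGroup (α := Fin 5) (by simp)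
  have hcC : c ∈ CG ψ := Subgroup.mem_centralizer_singleton_iff.2 (h _ ⟨tW, t_mem_Q0, rfl⟩)
  obtain ⟨q, hq, x, rfl⟩ := CG_decomp ψ hk hs hf hf2 hcC
  -- elements of the complement acting as inner automorphisms
  let N : Subgroup (alternatingGroup (Fin 5)) :=
    { carrier := {x | ∃ q ∈ QG ψ, ∀ r ∈ QG ψ, (q * ψ (f x)) * r = r * (q * ψ (f x))}
      one_mem' := ⟨1, one_mem _, fun r _ => by rw [map_one, map_one, one_mul, one_mul, mul_one]⟩
      mul_mem' := by
        rintro a b ⟨q, hq, h1⟩ ⟨s, hs', h2⟩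
        refine ⟨q * (ψ (f a) * s * (ψ (f a))⁻¹), mul_mem hq (F_norm ψ hf2 a hs'), fun r hr => ?_⟩
        have e : q * (ψ (f a) * s * (ψ (f a))⁻¹) * ψ (f (a * b)) = (q * ψ (f a)) * (s * ψ (f b)) := by
          rw [map_mul, map_mul]; group
        rw [e, mul_assoc, h2 r hr, ← mul_assoc, h1 r hr, mul_assoc]
      inv_mem' := by
        rintro a ⟨q, hq, h1⟩
        refine ⟨ψ (f a⁻¹) * q⁻¹ * (ψ (f a⁻¹))⁻¹, F_norm ψ hf2 a⁻¹ (inv_mem hq), fun r hr => ?_⟩
        have e : ψ (f a⁻¹) * q⁻¹ * (ψ (f a⁻¹))⁻¹ * ψ (f a⁻¹) = (q * ψ (f a))⁻¹ := by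
          rw [map_inv, map_inv]; group
        rw [e]
        have h2 := h1 r hr
        rw [inv_mul_eq_iff_eq_mul, ← mul_assoc, h2, mul_inv_cancel_right] }
  have hN : N.Normal := by
    constructor
    rintro a ⟨q, hq, h1⟩ g
    refine ⟨ψ (f g) * q * (ψ (f g))⁻¹, F_norm ψ hf2 g hq, fun r hr => ?_⟩
    have e : ψ (f g) * q * (ψ (f g))⁻¹ * ψ (f (g * a * g⁻¹)) = ψ (f g) * (q * ψ (f a)) * (ψ (f g))⁻¹ := by
      rw [map_mul, map_mul, map_mul, map_mul, map_inv, map_inv]; group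
    rw [e]
    have h3 : (ψ (f g))⁻¹ * r * ψ (f g) ∈ QG ψ := by
      have := F_norm ψ hf2 g⁻¹ hr
      rw [map_inv, map_inv, inv_inv] at this
      exact this
    have h4 := h1 _ h3
    calc ψ (f g) * (q * ψ (f a)) * (ψ (f g))⁻¹ * r
        = ψ (f g) * ((q * ψ (f a)) * ((ψ (f g))⁻¹ * r * ψ (f g))) * (ψ (f g))⁻¹ := by group
      _ = ψ (f g) * (((ψ (f g))⁻¹ * r * ψ (f g)) * (q * ψ (f a))) * (ψ (f g))⁻¹ := by rw [h4]
      _ = _ := by group
  rcases IsSimpleGroup.eq_bot_or_eq_top_of_normal N hN with h1 | h1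
  · have h2 : x ∈ N := ⟨q, hq, h⟩
    rw [h1, Subgroup.mem_bot] at h2
    rw [h2, map_one, map_one, mul_one]
    rw [h2, map_one, map_one, mul_one] at h
    exact QG_center ψ hk hq h
  · exfalso
    obtain ⟨y, hy⟩ := hb5
    have h2 : y ∈ N := by rw [h1]; exact Subgroup.mem_top _
    obtain ⟨s, hs', h3⟩ := h2
    rw [hy] at h3
    -- conjugation by `b` equals conjugation by `s⁻¹`
    have hss : ∀ r ∈ QG ψ, (s * s) * r = r * (s * s) := by
      intro r hr
      obtain ⟨u, hu, rfl⟩ := hs'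
      obtain ⟨v, hv, rfl⟩ := hr
      rw [← map_mul, ← map_mul, ← map_mul]
      refine congrArg ψ ?_
      rcases Q0_comm hu hv with h4 | h4
      · rw [mul_assoc, h4, ← mul_assoc, h4, mul_assoc]
      · have ht := Q0_comm_t hu
        calc u * u * v = u * (u * v) := by group
          _ = u * tW * (v * u) := by rw [h4]; group
          _ = tW * (u * v) * u := by rw [ht]; group
          _ = tW * (tW * (v * u)) * u := by rw [h4]
          _ = (tW * tW) * v * (u * u) := by group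
          _ = _ := by rw [tW_sq, one_mul]
    have hbr : ∀ r ∈ QG ψ, ψ bW5 * r * (ψ bW5)⁻¹ = s⁻¹ * r * s := by
      intro r hr
      have := h3 r hr
      calc ψ bW5 * r * (ψ bW5)⁻¹ = s⁻¹ * (s * ψ bW5 * r) * (ψ bW5)⁻¹ := by group
        _ = s⁻¹ * (r * (s * ψ bW5)) * (ψ bW5)⁻¹ := by rw [this]
        _ = s⁻¹ * r * s := by group
    have hb2 : ∀ r ∈ QG ψ, ψ bW5 * (ψ bW5 * r * (ψ bW5)⁻¹) * (ψ bW5)⁻¹ = r := by
      intro r hr
      have h5 : ψ bW5 * r * (ψ bW5)⁻¹ ∈ QG ψ := by rw [hbr r hr]; exact mul_mem (mul_mem (inv_mem hs') hr) hs'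
      rw [hbr _ h5, hbr r hr]
      have h6 := hss r hr
      calc s⁻¹ * (s⁻¹ * r * s) * s = (s * s)⁻¹ * (r * (s * s)) := by group
        _ = r := by rw [← h6, inv_mul_cancel_left]
    have hb4 : ∀ r ∈ QG ψ, ψ bW5 ^ 4 * r = r * ψ bW5 ^ 4 := by
      intro r hr
      have h7 := hb2 r hr
      have h8 : ψ bW5 ^ 2 * r * (ψ bW5 ^ 2)⁻¹ = r := by
        rw [← h7]
        have : ψ bW5 ^ 2 = ψ bW5 * ψ bW5 := pow_two _
        rw [h7, this]
        calc ψ bW5 * ψ bW5 * r * (ψ bW5 * ψ bW5)⁻¹ = ψ bW5 * (ψ bW5 * r * (ψ bW5)⁻¹) * (ψ bW5)⁻¹ := by group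
          _ = r := h7
      rw [mul_inv_eq_iff_eq_mul] at h8
      have h9 : Commute (ψ bW5 ^ 2) r := h8
      have h10 := h9.pow_left 2
      rw [← pow_mul] at h10
      exact h10
    have hb5' : ψ bW5 ^ 5 = 1 := by rw [← map_pow, ab_facts.2.2.2.2.1, map_one]
    have hcomm : ψ bW5 * ψ q1 = ψ q1 * ψ bW5 := by
      have hq1 : q1 ∈ Q0 := by
        show q1.1 ∈ Q0G
        exact Subgroup.subset_closure (by simp)
      have h11 : Commute (ψ bW5 ^ 4) (ψ q1) := hb4 _ ⟨q1, hq1, rfl⟩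
      have h12 : ψ bW5 = (ψ bW5 ^ 4)⁻¹ := by
        rw [eq_inv_iff_mul_eq_one, ← pow_succ', hb5']
      rw [h12]
      exact h11.inv_left
    have hq1 : q1 ∈ Q0 := by
      show q1.1 ∈ Q0G
      exact Subgroup.subset_closure (by simp)
    have h13 : bW5 * q1 * bW5⁻¹ ∈ Q0 := (Subgroup.mem_normalizer_iff.1 bN q1).1 hq1
    have h14 : bW5 * q1 * bW5⁻¹ = q1 := by
      apply psi_inj ψ hk h13 hq1
      rw [map_mul, map_mul, map_inv, hcomm, mul_inv_cancel_right]
    rw [mul_inv_eq_iff_eq_mul] at h14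
    have h15 := congrArg (fun w : W => cd w.1) h14
    have h16 : mu Bc5 Q1c = mu Q1c Bc5 := by
      rw [← cd_b5, ← cd_q1, ← cdW_mul, ← cdW_mul]
      exact h15
    have h17 := b5_ne
    rw [h16, Nat.beq_refl] at h17
    exact absurd h17 (by decide)

end

end Cfsg.Agent.Lib.JThree
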