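import Cfsg.Agent.Lib.JThreeFus

/-!
The 2-fusion system of `J₃` is simple, second part.
-/

set_option autoImplicit false
set_option exponentiation.threshold 2000

namespace Cfsg.Agent.Lib.JThree

open Cfsg

/-- the alternating group -/
abbrev AFive := alternatingGroup (Fin 5)

def uA : AFive := ⟨Equiv.swap 0 1 * Equiv.swap 2 3, by rw [Equiv.Perm.mem_alternatingGroup]; decide +kernel⟩
def vA : AFive := ⟨Equiv.swap 0 2 * Equiv.swap 1 3, by rw [Equiv.Perm.mem_alternatingGroup]; decide +kernel⟩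

theorem uA_sq : uA * uA = 1 := by decide +kernel
theorem vA_sq : vA * vA = 1 := by decide +kernel
theorem uA_ne : uA ≠ 1 := by decide +kernel
theorem vA_ne : vA ≠ 1 := by decide +kernel

/-- a four-group -/
def VA : Subgroup AFive where
  carrier := {s | s = 1 ∨ s = uA ∨ s = vA ∨ s = uA * vA}
  mul_mem' := by
    rintro a b (rfl | rfl | rfl | rfl) (rfl | rfl | rfl | rfl) <;> decide +kernel
  one_mem' := Or.inl rfl
  inv_mem' := by
    rintro a (rfl | rfl | rfl | rfl) <;> decide +kernel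

theorem card_VA : Nat.card VA = 4 := by
  have h : (VA : Set AFive) = (({1, uA, vA, uA * vA} : Finset AFive) : Set _) := by
    ext s
    simp only [Finset.coe_insert, Finset.coe_singleton, Set.mem_insert_iff, Set.mem_singleton_iff]
    rfl
  have h1 : Nat.card VA = (VA : Set AFive).ncard := rfl
  rw [h1, h, Set.ncard_coe_finset]
  decide +kernel

section
variable {G : Type*} [Group G] (ψ : W →* G) (hk : ψ.ker = Subgroup.center W) (hs : Function.Surjective ψ)
variable {f : AFive →* W} (hf : Function.Injective f)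
  (hf2 : ∀ g, f g ∈ Subgroup.normalizer (Q0 : Set W) ∧ f g ∈ CW)

/-- the Sylow 2-subgroup -/
noncomputable def SG : Subgroup G where
  carrier := {g | ∃ q ∈ QG ψ, ∃ v ∈ VA, g = q * ψ (f v)}
  one_mem' := ⟨1, one_mem _, 1, one_mem _, by rw [map_one, map_one, one_mul]⟩
  mul_mem' := by
    rintro _ _ ⟨q, hq, v, hv, rfl⟩ ⟨r, hr, w, hw, rfl⟩
    refine ⟨q * (ψ (f v) * r * (ψ (f v))⁻¹), mul_mem hq (F_norm ψ hf2 v hr), v * w, mul_mem hv hw, ?_⟩
    rw [map_mul, map_mul]; group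
  inv_mem' := by
    rintro _ ⟨q, hq, v, hv, rfl⟩
    refine ⟨ψ (f v⁻¹) * q⁻¹ * (ψ (f v⁻¹))⁻¹, F_norm ψ hf2 v⁻¹ (inv_mem hq), v⁻¹, inv_mem hv, ?_⟩
    rw [map_inv, map_inv]; group

theorem mem_SG {g : G} : g ∈ SG ψ hf2 ↔ ∃ q ∈ QG ψ, ∃ v ∈ VA, g = q * ψ (f v) := Iff.rfl

theorem QG_SG : QG ψ ≤ SG ψ hf2 := fun q hq => ⟨q, hq, 1, one_mem _, by rw [map_one, map_one, mul_one]⟩

theorem QG_CG : QG ψ ≤ CG ψ := by
  rintro _ ⟨q, hq, rfl⟩
  exact mem_CG_of ψ (Q0_comm_t hq)

theorem SG_CG : SG ψ hf2 ≤ CG ψ := by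
  rintro _ ⟨q, hq, v, -, rfl⟩
  exact mul_mem (QG_CG ψ hq) (mem_CG_of ψ (mem_CW.1 (hf2 v).2))

include hk hf in
theorem card_SG : Nat.card (SG ψ hf2) = 128 := by
  let k : QG ψ × VA → SG ψ hf2 := fun p => ⟨p.1.1 * ψ (f p.2.1), p.1.1, p.1.2, p.2.1, p.2.2, rfl⟩
  have hb : Function.Bijective k := by
    constructor
    · rintro ⟨q, x⟩ ⟨r, y⟩ h
      have h1 : q.1 * ψ (f x.1) = r.1 * ψ (f y.1) := congrArg Subtype.val h
      have h2 : ψ (f (x.1 * y.1⁻¹)) ∈ QG ψ := by
        have : ψ (f (x.1 * y.1⁻¹)) = q.1⁻¹ * r.1 := by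
          rw [map_mul, map_mul, map_inv, map_inv, mul_inv_eq_iff_eq_mul, mul_assoc, ← h1, inv_mul_cancel_left]
        rw [this]
        exact mul_mem (inv_mem q.2) r.2
      have h3 := F_disj ψ hk hf hf2 h2
      have h4 : x = y := Subtype.ext (mul_inv_eq_one.1 h3)
      subst h4
      exact Prod.ext (Subtype.ext (mul_right_cancel h1)) rfl
    · rintro ⟨_, q, hq, v, hv, rfl⟩
      exact ⟨(⟨q, hq⟩, ⟨v, hv⟩), rfl⟩
  rw [← Nat.card_congr (Equiv.ofBijective k hb), Nat.card_prod, card_QG ψ hk, card_VA]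

instance factTwo : Fact (Nat.Prime 2) := ⟨Nat.prime_two⟩

include hk hf in
theorem SG_p : IsPGroup 2 (SG ψ hf2) := IsPGroup.of_card (n := 7) (by rw [card_SG ψ hk hf hf2]; norm_num)

include hk hs in
theorem card_G : Nat.card G = 50232960 := by
  have e : W ⧸ Subgroup.center W ≃* G :=
    (QuotientGroup.quotientMulEquivOfEq hk.symm).trans (QuotientGroup.quotientKerEquivOfSurjective ψ hs)
  rw [← Nat.card_congr e.toEquiv, card_quot]

include hk hs hf in
theorem exists_sylow_SG : ∃ P : Sylow 2 G, (P : Subgroup G) = SG ψ hf2 := by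
  have hfin : Finite G := Finite.of_surjective ψ hs
  obtain ⟨P, hP⟩ := (SG_p ψ hk hf hf2).exists_le_sylow
  refine ⟨P, (Subgroup.eq_of_le_of_card_ge hP ?_).symm⟩
  rw [Sylow.card_eq_multiplicity, card_G ψ hk hs, card_SG ψ hk hf hf2]
  have : (50232960 : ℕ).factorization 2 = 7 := by
    have h : (50232960 : ℕ) = 2 ^ 7 * 392445 := by norm_num
    rw [h, Nat.factorization_mul (by norm_num) (by norm_num), Nat.factorization_pow]
    simp [Nat.Prime.factorization_self Nat.prime_two, Nat.factorization_eq_zero_of_not_dvd (show ¬ 2 ∣ 392445 by norm_num)]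
  rw [this]
  norm_num

include hk hs in
theorem inv_mem_T {T S : Subgroup G} (hc : ∀ x ∈ T, ∀ g : G, g * x * g⁻¹ ∈ S → g * x * g⁻¹ ∈ T)
    (ht : ψ tW ∈ T) {x : G} (hx : x * x = 1) (hxS : x ∈ S) : x ∈ T := by
  by_cases h1 : x = 1
  · rw [h1]; exact one_mem _
  · have h2 : orderOf x = 2 := orderOf_eq_prime (by rw [pow_two, hx]) h1
    obtain ⟨g, hg⟩ := isConj_iff.1 (psi_conj ψ hk hs h2).symm
    rw [← hg] at hxS ⊢
    exact hc _ ht g hxS

include hk hs hf in
theorem strongly_closed (hb5 : ∃ y, f y = bW5) {T : Subgroup G} (hT : T ≤ SG ψ hf2)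
    (hc : ∀ x ∈ T, ∀ g : G, g * x * g⁻¹ ∈ SG ψ hf2 → g * x * g⁻¹ ∈ T) : T = ⊥ ∨ T = SG ψ hf2 := by
  have hfin : Finite G := Finite.of_surjective ψ hs
  rw [or_iff_not_imp_left]
  intro hne
  refine le_antisymm hT ?_
  obtain ⟨t, htT, ht1, htc⟩ := FlagSylow.exists_central (SG_p ψ hk hf hf2) hT hne (fun u hu t ht =>
    hc t ht u (mul_mem (mul_mem hu (hT ht)) (inv_mem hu)))
  have ht : ψ tW ∈ T := by
    rcases cent_QG ψ hk hs hf hf2 hb5 (c := t) (fun r hr => (htc r (QG_SG ψ hf2 hr)).symm) with h | h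
    · exact absurd h ht1
    · rw [← h]; exact htT
  have hQ : QG ψ ≤ T := by
    unfold QG
    rw [Subgroup.map_le_iff_le_comap]
    apply Q0_le_of
    intro q hq hq2
    exact inv_mem_T ψ hk hs hc ht (x := ψ q) (by rw [← map_mul, hq2, map_one]) (QG_SG ψ hf2 ⟨q, hq, rfl⟩)
  have hV : ∀ v ∈ VA, v * v = 1 → ψ (f v) ∈ T := by
    intro v hv hv2
    exact inv_mem_T ψ hk hs hc ht (x := ψ (f v)) (by rw [← map_mul, ← map_mul, hv2, map_one, map_one])
      ⟨1, one_mem _, v, hv, by rw [one_mul]⟩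
  have hV2 : ∀ v ∈ VA, v * v = 1 := by
    rintro v (rfl | rfl | rfl | rfl) <;> decide +kernel
  rintro _ ⟨q, hq, v, hv, rfl⟩
  exact mul_mem (hQ hq) (hV v hv (hV2 v hv))

include hk hs hf in
theorem norm_le (hb5 : ∃ y, f y = bW5) {g : G} (hg : g ∈ Subgroup.normalizer (SG ψ hf2 : Set G)) : g ∈ CG ψ := by
  have h1 : g * ψ tW * g⁻¹ = 1 ∨ g * ψ tW * g⁻¹ = ψ tW := by
    apply cent_QG ψ hk hs hf hf2 hb5
    intro r hr
    have h2 : g⁻¹ * r * g ∈ SG ψ hf2 := by
      have := (Subgroup.mem_normalizer_iff.mp (inv_mem hg) r).mp (QG_SG ψ hf2 hr)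
      rwa [inv_inv] at this
    have h3 : (g⁻¹ * r * g) * ψ tW = ψ tW * (g⁻¹ * r * g) :=
      Subgroup.mem_centralizer_singleton_iff.1 (SG_CG ψ hf2 h2)
    calc g * ψ tW * g⁻¹ * r = g * (ψ tW * (g⁻¹ * r * g)) * g⁻¹ := by group
      _ = g * ((g⁻¹ * r * g) * ψ tW) * g⁻¹ := by rw [h3]
      _ = _ := by group
  rcases h1 with h | h
  · exfalso
    have : ψ tW = 1 := by
      have : ψ tW = g⁻¹ * (g * ψ tW * g⁻¹) * g := by group
      rw [this, h]; group
    exact psi_t_ne ψ hk this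
  · rw [Subgroup.mem_centralizer_singleton_iff]
    exact mul_inv_eq_iff_eq_mul.mp h

include hk hs hf hf2 in
/-- the centralizer is generated by its 2-elements -/
theorem CG_gen : CG ψ ≤ Subgroup.closure {x : G | x ∈ Subgroup.normalizer (QG ψ : Set G) ∧ ∃ k : ℕ, orderOf x = 2 ^ k} := by
  have hfin : Finite G := Finite.of_surjective ψ hs
  set K := Subgroup.closure {x : G | x ∈ Subgroup.normalizer (QG ψ : Set G) ∧ ∃ k : ℕ, orderOf x = 2 ^ k} with hK
  have hQ : QG ψ ≤ K := by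
    intro q hq
    obtain ⟨k, hk'⟩ := (IsPGroup.iff_orderOf.mp (IsPGroup.of_card (n := 5) (p := 2) (G := QG ψ)
      (by rw [card_QG ψ hk]; norm_num))) ⟨q, hq⟩
    exact Subgroup.subset_closure ⟨Subgroup.le_normalizer hq, k, (Subgroup.orderOf_mk q hq).symm.trans hk'⟩
  have hI : ∀ x : AFive, x * x = 1 → ψ (f x) ∈ K := by
    intro x hx
    refine Subgroup.subset_closure ⟨mem_normalizer_of (fun r hr => F_norm ψ hf2 x hr), ?_⟩
    by_cases h1 : ψ (f x) = 1
    · exact ⟨0, by rw [h1, orderOf_one, pow_zero]⟩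
    · exact ⟨1, by rw [pow_one]; exact orderOf_eq_prime (by rw [pow_two, ← map_mul, ← map_mul, hx, map_one, map_one]) h1⟩
  have hA : ∀ x : AFive, ψ (f x) ∈ K := by
    let N : Subgroup AFive := Subgroup.closure {x | x * x = 1}
    have hN : N.Normal := by
      constructor
      intro n hn g
      have h1 : N ≤ N.comap (MulAut.conj g).toMonoidHom := by
        refine (Subgroup.closure_le _).2 ?_
        intro y hy
        refine Subgroup.subset_closure ?_
        show (g * y * g⁻¹) * (g * y * g⁻¹) = 1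
        have hy' : y * y = 1 := hy
        calc (g * y * g⁻¹) * (g * y * g⁻¹) = g * (y * y) * g⁻¹ := by group
          _ = 1 := by rw [hy', mul_one, mul_inv_cancel]
      exact h1 hn
    have hs5 := alternatingGroup.isSimpleGroup (α := Fin 5) (by simp)
    have hu : uA ∈ N := Subgroup.subset_closure uA_sq
    have htop : N = ⊤ := by
      rcases IsSimpleGroup.eq_bot_or_eq_top_of_normal N hN with h | h
      · rw [h, Subgroup.mem_bot] at hu
        exact absurd hu uA_ne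
      · exact h
    have hle : N ≤ K.comap (ψ.comp f) := (Subgroup.closure_le _).2 fun x hx => hI x hx
    intro x
    have : x ∈ N := by rw [htop]; exact Subgroup.mem_top _
    exact hle this
  intro c hc
  obtain ⟨q, hq, x, rfl⟩ := CG_decomp ψ hk hs hf hf2 hc
  exact mul_mem (hQ hq) (hA x)

include hk hs hf in
theorem crit (hb5 : ∃ y, f y = bW5) : FusionSimpleGroup.Crit 2 (⊥ : Subgroup G) (SG ψ hf2) := by
  refine ⟨fun T hT hc => strongly_closed ψ hk hs hf hf2 hb5 hT hc, fun g hg => ?_⟩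
  refine Subgroup.subset_closure ⟨hg, QG ψ, QG_SG ψ hf2, ?_, ?_, CG_gen ψ hk hs hf hf2 (norm_le ψ hk hs hf hf2 hb5 hg)⟩
  · exact (SG_CG ψ hf2).trans (CG_norm ψ hk hs hf hf2)
  · intro c hc
    rw [sup_bot_eq]
    rcases cent_QG ψ hk hs hf hf2 hb5 hc with h | h
    · rw [h]; exact one_mem _
    · rw [h]; exact ⟨tW, t_mem_Q0, rfl⟩

end

theorem fusion_simple {G : Type*} [Group G] (ψ : W →* G) (hk : ψ.ker = Subgroup.center W) (hs : Function.Surjective ψ)
    (S : Sylow 2 G) : (Cfsg.groupFusionSystem (S : Subgroup G)).IsSimple 2 := by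
  have hfin : Finite G := Finite.of_surjective ψ hs
  obtain ⟨f, hf, hf2, hb5⟩ := exists_f2
  obtain ⟨P, hP⟩ := exists_sylow_SG ψ hk hs hf hf2
  have hker : (MonoidHom.id G).ker = ⊥ := (MonoidHom.ker_eq_bot_iff _).mpr Function.injective_id
  refine FusionSimpleGroup.simple_of_cover (MonoidHom.id G) Function.surjective_id ?_ ?_ P ?_ ?_ S
  · intro z hz g
    rw [hker, Subgroup.mem_bot] at hz
    rw [hz, mul_one, one_mul]
  · rw [hker, Subgroup.card_bot]
    exact Nat.coprime_one_left 2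
  · rw [hP]
    intro h
    have := card_SG ψ hk hf hf2
    rw [h, Subgroup.card_bot] at this
    norm_num at this
  · rw [hP, hker]; exact crit ψ hk hs hf hf2 hb5

end Cfsg.Agent.Lib.JThree
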