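import Cfsg.Agent.Lib.J2Pres
import Cfsg.Agent.Lib.JTw15
import Cfsg.Agent.Lib.JTwA5
import Cfsg.Agent.Lib.AutAlt
import Cfsg.Agent.Lib.H10Order360
import Mathlib

set_option autoImplicit false
set_option linter.all false
set_option maxRecDepth 100000
set_option synthInstance.maxHeartbeats 400000
set_option synthInstance.maxSize 2000

/-! Facts on `A5` and `A6` for the recognition of the Hall-Janko group. -/

namespace Cfsg.Agent.Lib.JTwB5

open Equiv Equiv.Perm Cfsg.Agent.Lib.J2Pres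

def a0 : alternatingGroup (Fin 5) := ⟨c[0, 1, 2], mem_alternatingGroup.2 (by decide)⟩

theorem a5_s0 : ∀ b : alternatingGroup (Fin 5), b ≠ 1 → b * b = 1 →
    a0 * b * a0 * b * a0 * b = 1 → ∃ s : alternatingGroup (Fin 5), s * s = 1 ∧ a0 * s * a0 * s = 1 ∧ b * s * b * s * b * s = 1 ∧
      a0 * b * s ≠ 1 ∧ (a0 * b * s) * (a0 * b * s) * (a0 * b * s) * (a0 * b * s) * (a0 * b * s) = 1 := by
  decide +kernel

theorem a5_fix0 : ∀ b : alternatingGroup (Fin 5), b ≠ 1 → b * b = 1 →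
    a0 * b * a0 * b * a0 * b = 1 → ∀ σ : Perm (Fin 5), σ * (a0 : Perm (Fin 5)) = a0 * σ → σ * (b : Perm (Fin 5)) = b * σ → σ = 1 := by
  decide +kernel

theorem a4_ab : ∀ a b : alternatingGroup (Fin 4), a ≠ 1 → a * a * a = 1 → b ≠ 1 → b * b = 1 →
    a * b * a * b * a * b = 1 := by
  decide +kernel

theorem a0_ne : a0 ≠ 1 := by decide +kernel
theorem a0_3 : a0 ^ 3 = 1 := by decide +kernel

theorem a5_s (a b : alternatingGroup (Fin 5)) (ha : a ≠ 1) (ha3 : a ^ 3 = 1) (hb : b ≠ 1) (hb2 : b * b = 1)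
    (hab : a * b * a * b * a * b = 1) : ∃ s : alternatingGroup (Fin 5), s * s = 1 ∧ a * s * a * s = 1 ∧ b * s * b * s * b * s = 1 ∧
      a * b * s ≠ 1 ∧ (a * b * s) * (a * b * s) * (a * b * s) * (a * b * s) * (a * b * s) = 1 := by
  obtain ⟨c, rfl⟩ := JTw.a5_conj3 a0 a a0_ne a0_3 ha ha3
  have h1 : ∀ g : alternatingGroup (Fin 5), c⁻¹ * g * c = 1 → g = 1 := by
    intro g hg
    have : c * (c⁻¹ * g * c) * c⁻¹ = c * 1 * c⁻¹ := by rw [hg]
    simpa [mul_assoc] using this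
  obtain ⟨s, h2, h3, h4, h5, h6⟩ := a5_s0 (c⁻¹ * b * c) (fun h => hb (h1 b h)) (by
    have : c⁻¹ * b * c * (c⁻¹ * b * c) = c⁻¹ * (b * b) * c := by group
    rw [this, hb2]; group) (by
    have : a0 * (c⁻¹ * b * c) * a0 * (c⁻¹ * b * c) * a0 * (c⁻¹ * b * c) =
      c⁻¹ * (c * a0 * c⁻¹ * b * (c * a0 * c⁻¹) * b * (c * a0 * c⁻¹) * b) * c := by group
    rw [this, hab]; group)
  refine ⟨c * s * c⁻¹, ?_, ?_, ?_, ?_, ?_⟩
  · have : c * s * c⁻¹ * (c * s * c⁻¹) = c * (s * s) * c⁻¹ := by group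
    rw [this, h2]; group
  · have : c * a0 * c⁻¹ * (c * s * c⁻¹) * (c * a0 * c⁻¹) * (c * s * c⁻¹) = c * (a0 * s * a0 * s) * c⁻¹ := by group
    rw [this, h3]; group
  · have : b * (c * s * c⁻¹) * b * (c * s * c⁻¹) * b * (c * s * c⁻¹) =
      c * ((c⁻¹ * b * c) * s * (c⁻¹ * b * c) * s * (c⁻¹ * b * c) * s) * c⁻¹ := by group
    rw [this, h4]; group
  · intro h
    apply h5
    have : a0 * (c⁻¹ * b * c) * s = c⁻¹ * (c * a0 * c⁻¹ * b * (c * s * c⁻¹)) * c := by group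
    rw [this, h]; group
  · have : ∀ g : alternatingGroup (Fin 5), (c * g * c⁻¹) * (c * g * c⁻¹) * (c * g * c⁻¹) * (c * g * c⁻¹) * (c * g * c⁻¹) =
      c * (g * g * g * g * g) * c⁻¹ := by intro g; group
    have h7 : c * a0 * c⁻¹ * b * (c * s * c⁻¹) = c * (a0 * (c⁻¹ * b * c) * s) * c⁻¹ := by group
    rw [h7, this, h6]; group

theorem a5_fix (a b : alternatingGroup (Fin 5)) (ha : a ≠ 1) (ha3 : a ^ 3 = 1) (hb : b ≠ 1) (hb2 : b * b = 1)
    (hab : a * b * a * b * a * b = 1) (σ : Perm (Fin 5)) (h1 : σ * (a : Perm (Fin 5)) = a * σ)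
    (h2 : σ * (b : Perm (Fin 5)) = b * σ) : σ = 1 := by
  obtain ⟨c, rfl⟩ := JTw.a5_conj3 a0 a a0_ne a0_3 ha ha3
  have h3 : ∀ g : alternatingGroup (Fin 5), c⁻¹ * g * c = 1 → g = 1 := by
    intro g hg
    have : c * (c⁻¹ * g * c) * c⁻¹ = c * 1 * c⁻¹ := by rw [hg]
    simpa [mul_assoc] using this
  have h4 := a5_fix0 (c⁻¹ * b * c) (fun h => hb (h3 b h)) (by
    have : c⁻¹ * b * c * (c⁻¹ * b * c) = c⁻¹ * (b * b) * c := by group
    rw [this, hb2]; group) (by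
    have : a0 * (c⁻¹ * b * c) * a0 * (c⁻¹ * b * c) * a0 * (c⁻¹ * b * c) =
      c⁻¹ * (c * a0 * c⁻¹ * b * (c * a0 * c⁻¹) * b * (c * a0 * c⁻¹) * b) * c := by group
    rw [this, hab]; group) ((c : Perm (Fin 5))⁻¹ * σ * c) (by
    have h5 : (c : Perm (Fin 5))⁻¹ * σ * c * a0 = (c : Perm (Fin 5))⁻¹ * (σ * (c * a0 * (c : Perm (Fin 5))⁻¹)) * c := by group
    have h6 : (a0 : Perm (Fin 5)) * ((c : Perm (Fin 5))⁻¹ * σ * c) = (c : Perm (Fin 5))⁻¹ * ((c * a0 * (c : Perm (Fin 5))⁻¹) * σ) * c := by group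
    rw [h5, h6]
    exact congrArg (fun g => (c : Perm (Fin 5))⁻¹ * g * c) h1) (by
    have h5 : (c : Perm (Fin 5))⁻¹ * σ * c * ((c : Perm (Fin 5))⁻¹ * b * c) = (c : Perm (Fin 5))⁻¹ * (σ * b) * c := by group
    have h6 : ((c : Perm (Fin 5))⁻¹ * b * c) * ((c : Perm (Fin 5))⁻¹ * σ * c) = (c : Perm (Fin 5))⁻¹ * (b * σ) * c := by group
    show (c : Perm (Fin 5))⁻¹ * σ * c * ((c : Perm (Fin 5))⁻¹ * b * c) = ((c : Perm (Fin 5))⁻¹ * b * c) * ((c : Perm (Fin 5))⁻¹ * σ * c)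
    rw [h5, h6, h2])
  have h7 : σ = (c : Perm (Fin 5)) * ((c : Perm (Fin 5))⁻¹ * σ * c) * (c : Perm (Fin 5))⁻¹ := by group
  rw [h7, h4]; group

def x0 : alternatingGroup (Fin 5) := ⟨c[0, 1, 2, 3, 4], mem_alternatingGroup.2 (by decide)⟩
def k0 : alternatingGroup (Fin 5) := ⟨c[1, 2] * c[3, 4], mem_alternatingGroup.2 (by decide)⟩

theorem rel0 : RelK x0 k0 := ⟨by decide +kernel, by decide +kernel, by decide +kernel, by decide +kernel, by decide +kernel⟩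
theorem x0_ne : x0 ≠ 1 := by decide +kernel
theorem k0_ne : k0 ≠ 1 := by decide +kernel
theorem y0_ne : Yv x0 k0 ≠ 1 := by decide +kernel
theorem xk0_ne : x0 * k0 ≠ 1 := by decide +kernel

theorem card_a5 : Nat.card (alternatingGroup (Fin 5)) = 60 := JTw.Base.card_alt5

theorem a5_gen (H : Subgroup (alternatingGroup (Fin 5))) (hx : x0 ∈ H) (hk : k0 ∈ H) : H = ⊤ := by
  have h5 : orderOf x0 = 5 := orderOf_eq_prime (by decide +kernel) x0_ne
  have h2 : orderOf k0 = 2 := orderOf_eq_prime (by decide +kernel) k0_ne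
  have h3 : orderOf (x0 * k0) = 3 := orderOf_eq_prime (by decide +kernel) xk0_ne
  have d5 : 5 ∣ Nat.card H := by
    have := orderOf_dvd_natCard (⟨x0, hx⟩ : H); rwa [Subgroup.orderOf_mk, h5] at this
  have d2 : 2 ∣ Nat.card H := by
    have := orderOf_dvd_natCard (⟨k0, hk⟩ : H); rwa [Subgroup.orderOf_mk, h2] at this
  have d3 : 3 ∣ Nat.card H := by
    have := orderOf_dvd_natCard (⟨x0 * k0, H.mul_mem hx hk⟩ : H); rwa [Subgroup.orderOf_mk, h3] at this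
  have hm := H.card_mul_index
  rw [card_a5] at hm
  have h30 : 30 ∣ Nat.card H := by
    have := Nat.Coprime.mul_dvd_of_dvd_of_dvd (by norm_num) d5 (Nat.Coprime.mul_dvd_of_dvd_of_dvd (by norm_num) d2 d3)
    exact this
  obtain ⟨j, hj⟩ := h30
  rw [hj] at hm
  have hi : H.index = 1 ∨ H.index = 2 := by
    have : j * H.index = 2 := by nlinarith
    have h1 : H.index ∣ 2 := ⟨j, by linarith⟩
    exact (Nat.dvd_prime Nat.prime_two).1 h1
  rcases hi with hi | hi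
  · exact Subgroup.index_eq_one.1 hi
  · exfalso
    haveI : H.Normal := Subgroup.normal_of_index_eq_two hi
    haveI : IsSimpleGroup (alternatingGroup (Fin 5)) := alternatingGroup.isSimpleGroup_five
    rcases (inferInstance : H.Normal).eq_bot_or_eq_top with h | h
    · rw [h, Subgroup.index_bot, card_a5] at hi; omega
    · rw [h, Subgroup.index_top] at hi; omega

def X6 : Perm (Fin 6) := c[0, 1, 2, 3, 4]

theorem a6_fix : ∀ k1 : Perm (Fin 6), k1 * k1 = 1 → X6 * k1 * X6 * k1 * X6 * k1 = 1 →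
    ∀ k2 : Perm (Fin 6), k2 * k2 = 1 → X6 * k2 * X6 * k2 * X6 * k2 = 1 → Yv X6 k1 = Yv X6 k2 →
    k1 = k2 ∨ (k1 * k2 * k1 * k2 * k1 * k2 * k1 * k2 = 1 ∧ k1 * k2 * k1 * k2 ≠ 1 ∧
      k1 * X6 * k2 * X6⁻¹ * X6⁻¹ * k1 * X6 * k2 * X6⁻¹ * X6⁻¹ = 1) := by
  unfold Yv
  decide +kernel

theorem conj_X6 {X : Perm (Fin 6)} (h1 : X ≠ 1) (h5 : X ^ 5 = 1) : ∃ c : Perm (Fin 6), c * X6 * c⁻¹ = X := by
  have key : ∀ Z : Perm (Fin 6), Z ≠ 1 → Z ^ 5 = 1 → Z.cycleType = {5} := by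
    intro Z h1 h5
    haveI : Fact (Nat.Prime 5) := ⟨by norm_num⟩
    have ho : orderOf Z = 5 := orderOf_eq_prime h5 h1
    obtain ⟨n, hn⟩ := cycleType_prime_order (σ := Z) (by rw [ho]; norm_num)
    rw [ho] at hn
    have hs := Z.sum_cycleType
    rw [hn, Multiset.sum_replicate] at hs
    have hle := Finset.card_le_univ Z.support
    rw [← hs] at hle
    simp at hle
    have : n = 0 := by omega
    rw [hn, this]; rfl
  have h : IsConj X6 X := by
    rw [isConj_iff_cycleType_eq, key X h1 h5, key X6 (by decide) (by decide)]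
  exact isConj_iff.1 h

theorem a6_cases (X k1 k2 : alternatingGroup (Fin 6)) (hX : X ≠ 1) (r1 : RelK X k1) (r2 : RelK X k2)
    (hy : Yv X k1 = Yv X k2) : k1 = k2 ∨ (k1 * k2 * k1 * k2 * k1 * k2 * k1 * k2 = 1 ∧ k1 * k2 * k1 * k2 ≠ 1 ∧
      k1 * X * k2 * X⁻¹ * X⁻¹ * k1 * X * k2 * X⁻¹ * X⁻¹ = 1) := by
  obtain ⟨c, hc⟩ := conj_X6 (X := (X : Perm (Fin 6))) (fun h => hX (Subtype.ext h)) (by
    have := congrArg Subtype.val r1.x5
    simpa [pow_succ] using this)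
  let f : alternatingGroup (Fin 6) →* Perm (Fin 6) := (MulAut.conj c⁻¹).toMonoidHom.comp (alternatingGroup (Fin 6)).subtype
  have hf : Function.Injective f := by
    intro a b hab
    exact Subtype.ext ((MulAut.conj c⁻¹).injective hab)
  have hfX : f X = X6 := by
    show c⁻¹ * (X : Perm (Fin 6)) * c⁻¹⁻¹ = X6
    rw [← hc]; group
  have e1 := r1.map f
  have e2 := r2.map f
  rw [hfX] at e1 e2
  have e3 : Yv (f X) (f k1) = Yv (f X) (f k2) := by
    have := congrArg f hy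
    simpa [Yv] using this
  rw [hfX] at e3
  rcases a6_fix (f k1) e1.k2 e1.xk (f k2) e2.k2 e2.xk e3 with h | ⟨h, h', h''⟩
  · exact Or.inl (hf h)
  · right
    refine ⟨hf ?_, ?_, hf ?_⟩
    · simpa using h
    · intro h0
      apply h'
      have := congrArg f h0
      simpa using this
    · rw [← hfX] at h''
      simpa using h''

end Cfsg.Agent.Lib.JTwB5
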