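import Mathlib.Algebra.Field.Defs
import Mathlib.Data.Fintype.Basic
import Mathlib.Data.Fin.Basic
import Mathlib.Tactic
import Mathlib.FieldTheory.Finite.GaloisField

/-! A computable model of the field with 9 elements: `Fin 9`, the element `a + 3 b` standing for `a + b i`, `i² = -1`
(helper14). -/

set_option autoImplicit false

namespace Cfsg.Agent.Lib.K9

/-- the field with 9 elements -/
def K9 : Type := Fin 9

instance instDecEqK9 : DecidableEq K9 := inferInstanceAs (DecidableEq (Fin 9))
instance instFintypeK9 : Fintype K9 := inferInstanceAs (Fintype (Fin 9))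

def ncode (x : ℕ) : K9 := (⟨x % 9, Nat.mod_lt _ (by decide)⟩ : Fin 9)
def nval (a : K9) : ℕ := (a : Fin 9).val

def kadd (a b : K9) : K9 := ncode ((nval a % 3 + nval b % 3) % 3 + 3 * ((nval a / 3 + nval b / 3) % 3))
def kmul (a b : K9) : K9 :=
  ncode (((nval a % 3) * (nval b % 3) + 2 * (nval a / 3) * (nval b / 3)) % 3
    + 3 * (((nval a % 3) * (nval b / 3) + (nval a / 3) * (nval b % 3)) % 3))
def kneg (a : K9) : K9 := ncode ((2 * (nval a % 3)) % 3 + 3 * ((2 * (nval a / 3)) % 3))
def kzero : K9 := (0 : Fin 9)
def kone : K9 := (1 : Fin 9)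
/-- the inverse is the seventh power -/
def kinv (a : K9) : K9 :=
  let b := kmul a a
  let c := kmul b b
  kmul (kmul a b) c

theorem kadd_assoc : ∀ a b c : K9, kadd (kadd a b) c = kadd a (kadd b c) := by decide +kernel
theorem kmul_assoc : ∀ a b c : K9, kmul (kmul a b) c = kmul a (kmul b c) := by decide +kernel
theorem kmul_add : ∀ a b c : K9, kmul a (kadd b c) = kadd (kmul a b) (kmul a c) := by decide +kernel
theorem kadd_comm : ∀ a b : K9, kadd a b = kadd b a := by decide +kernel
theorem kmul_comm : ∀ a b : K9, kmul a b = kmul b a := by decide +kernel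
theorem kzero_add : ∀ a : K9, kadd kzero a = a := by decide +kernel
theorem kone_mul : ∀ a : K9, kmul kone a = a := by decide +kernel
theorem kzero_mul : ∀ a : K9, kmul kzero a = kzero := by decide +kernel
theorem kneg_add : ∀ a : K9, kadd (kneg a) a = kzero := by decide +kernel
theorem kmul_inv : ∀ a : K9, a ≠ kzero → kmul a (kinv a) = kone := by decide +kernel
theorem kinv_zero : kinv kzero = kzero := by decide +kernel

instance instAddK9 : Add K9 := ⟨kadd⟩
instance instMulK9 : Mul K9 := ⟨kmul⟩
instance instZeroK9 : Zero K9 := ⟨kzero⟩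
instance instOneK9 : One K9 := ⟨kone⟩
instance instNegK9 : Neg K9 := ⟨kneg⟩
instance instInvK9 : Inv K9 := ⟨kinv⟩

instance instFieldK9 : Field K9 where
  add := kadd
  add_assoc := kadd_assoc
  zero := kzero
  zero_add := kzero_add
  add_zero a := (kadd_comm a kzero).trans (kzero_add a)
  nsmul := nsmulRec
  neg := kneg
  zsmul := zsmulRec
  neg_add_cancel := kneg_add
  add_comm := kadd_comm
  mul := kmul
  mul_assoc := kmul_assoc
  one := kone
  one_mul := kone_mul
  mul_one a := (kmul_comm a kone).trans (kone_mul a)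
  left_distrib := kmul_add
  right_distrib a b c := by
    show kmul (kadd a b) c = kadd (kmul a c) (kmul b c)
    rw [kmul_comm, kmul_add, kmul_comm c a, kmul_comm c b]
  zero_mul := kzero_mul
  mul_zero a := (kmul_comm a kzero).trans (kzero_mul a)
  mul_comm := kmul_comm
  inv := kinv
  exists_pair_ne := ⟨kzero, kone, by decide⟩
  mul_inv_cancel := kmul_inv
  inv_zero := kinv_zero
  nnqsmul := _
  nnqsmul_def := fun _ _ => rfl
  qsmul := _
  qsmul_def := fun _ _ => rfl

theorem card_K9 : Fintype.card K9 = 9 := by decide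

/-- every field with nine elements is isomorphic to `K9` -/
theorem exists_equiv {F : Type*} [Field F] [Fintype F] (h : Fintype.card F = 9) : Nonempty (F ≃+* K9) :=
  ⟨FiniteField.ringEquivOfCardEq (by rw [h, card_K9])⟩

end Cfsg.Agent.Lib.K9
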