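import Mathlib
import Cfsg.Prelude.Def_Local
import Cfsg.Prelude.Def_Perm
import Cfsg.Prelude.Def_Solvable
import Cfsg.Prelude.Def_Blocks
import Cfsg.Prelude.Def_Characters

/-! Definitions for S4878 (helper61). -/

set_option autoImplicit false

namespace Cfsg.Agent.Lib.KPR

universe u

/-- transitive on nonzero vectors -/
def Trans {H : Type*} [Group H] {p n : ℕ}
    (ρ : H →* Matrix.GeneralLinearGroup (Fin n) (ZMod p)) : Prop :=
  ∀ v w : Fin n → ZMod p, v ≠ 0 → w ≠ 0 →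
    ∃ h : H, (ρ h : Matrix (Fin n) (Fin n) (ZMod p)).mulVec v = w

/-- number of p-regular classes -/
noncomputable def kreg (p : ℕ) (G : Type*) [Group G] : ℕ :=
  Nat.card {c : ConjClasses G // ∃ g : G, ConjClasses.mk g = c ∧ ¬ p ∣ orderOf g}

/-- `Q = P ⋊ H`, `P ≅ F_p^n`, `H` acting through `ρ`, faithfully and transitively on `P \ 1`. -/
structure Red {Q : Type*} [Group Q] (p n : ℕ) (P H : Subgroup Q)
    (e : ↥P ≃ (Fin n → ZMod p))
    (ρ : ↥H →* Matrix.GeneralLinearGroup (Fin n) (ZMod p)) : Prop where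
  norm : P.Normal
  inf : P ⊓ H = ⊥
  sup : P ⊔ H = ⊤
  pos : 1 ≤ n
  hp : ¬ p ∣ Nat.card H
  inj : Function.Injective ρ
  emul : ∀ x y : P, e (x * y) = e x + e y
  eact : ∀ (h : H) (x y : P), (y : Q) = (h : Q) * x * (h : Q)⁻¹ →
    e y = (ρ h : Matrix (Fin n) (Fin n) (ZMod p)).mulVec (e x)
  trans : Trans ρ

end Cfsg.Agent.Lib.KPR
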