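import Mathlib
import Cfsg.Agent.Lib.KPR0

set_option autoImplicit false
set_option linter.all false

open Cfsg.Agent.Lib.KPR

namespace Cfsg.Agent.Lib.KPRA

theorem center_le {H : Type*} [Group H] [Finite H] :
    Nat.card (Subgroup.center H) ≤ Nat.card (ConjClasses H) := by
  haveI : Finite (ConjClasses H) := Quotient.finite _
  refine Nat.card_le_card_of_injective (fun z : Subgroup.center H => ConjClasses.mk (z : H)) ?_
  intro a b hab
  have h1 : IsConj (a : H) (b : H) := ConjClasses.mk_eq_mk_iff_isConj.1 hab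
  obtain ⟨c, hc⟩ := isConj_iff.1 h1
  apply Subtype.ext
  have h2 := Subgroup.mem_center_iff.1 a.2 c
  rw [h2, mul_inv_cancel_right] at hc
  exact hc

theorem abel {H : Type*} [Group H] [Finite H] (A : Subgroup H)
    (hA : ∀ a ∈ A, ∀ b ∈ A, a * b = b * a) (hn : A.Normal) :
    Nat.card A ≤ A.index * Nat.card (ConjClasses H) := by
  classical
  haveI : Finite (ConjClasses H) := Quotient.finite _
  haveI : Finite (H ⧸ A) := inferInstance
  letI := Fintype.ofFinite (ConjClasses H)
  letI := Fintype.ofFinite A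
  have h1 : Nat.card A = Nat.card (Σ c : ConjClasses H, {a : A // ConjClasses.mk (a : H) = c}) :=
    Nat.card_congr (Equiv.sigmaFiberEquiv (fun a : A => ConjClasses.mk (a : H))).symm
  rw [h1, Nat.card_sigma]
  have h2 : ∀ c : ConjClasses H, Nat.card {a : A // ConjClasses.mk (a : H) = c} ≤ A.index := by
    intro c
    rcases isEmpty_or_nonempty {a : A // ConjClasses.mk (a : H) = c} with hE | ⟨⟨a0, ha0⟩⟩
    · rw [Nat.card_of_isEmpty]; exact Nat.zero_le _
    · have h3 : ∀ b : {a : A // ConjClasses.mk (a : H) = c}, ∃ g : H, g * (a0 : H) * g⁻¹ = ((b : A) : H) := by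
        intro b
        have : IsConj (a0 : H) ((b : A) : H) := ConjClasses.mk_eq_mk_iff_isConj.1 (by rw [ha0, b.2])
        exact isConj_iff.1 this
      choose g hg using h3
      refine Nat.card_le_card_of_injective (β := H ⧸ A) (fun b => (QuotientGroup.mk (g b) : H ⧸ A)) ?_
      intro b b' hbb
      have h4 : (g b)⁻¹ * g b' ∈ A := QuotientGroup.eq.1 hbb
      apply Subtype.ext
      apply Subtype.ext
      rw [← hg b, ← hg b']
      have h5 := hA _ h4 _ a0.2
      have h6 : g b' = g b * ((g b)⁻¹ * g b') := by group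
      generalize (g b)⁻¹ * g b' = t at h5 h6
      rw [h6]
      have h7 : g b * t * (a0 : H) * (g b * t)⁻¹ = g b * (t * (a0 : H)) * t⁻¹ * (g b)⁻¹ := by group
      rw [h7, h5]
      group
  calc ∑ c : ConjClasses H, Nat.card {a : A // ConjClasses.mk (a : H) = c} ≤ ∑ c : ConjClasses H, A.index :=
        Finset.sum_le_sum fun c _ => h2 c
    _ = A.index * Nat.card (ConjClasses H) := by
        rw [Finset.sum_const, smul_eq_mul, mul_comm, Finset.card_univ, Nat.card_eq_fintype_card]

theorem orders {H : Type*} [Group H] [Finite H] (s : Finset ℕ)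
    (hs : ∀ r ∈ s, r.Prime ∧ r ∣ Nat.card H) : s.card + 1 ≤ Nat.card (ConjClasses H) := by
  classical
  haveI : Finite (ConjClasses H) := Quotient.finite _
  have h1 : ∀ r : s, ∃ x : H, orderOf x = (r : ℕ) := by
    intro r
    haveI : Fact (r : ℕ).Prime := ⟨(hs r r.2).1⟩
    exact exists_prime_orderOf_dvd_card' (r : ℕ) (hs r r.2).2
  choose x hx using h1
  have h2 : Nat.card (Option s) = s.card + 1 := by
    rw [Nat.card_eq_fintype_card, Fintype.card_option, Fintype.card_coe]
  rw [← h2]
  let f : Option s → H := fun o => o.elim 1 x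
  refine Nat.card_le_card_of_injective (fun o : Option s => ConjClasses.mk (f o)) ?_
  have h3 : ∀ o o' : Option s, ConjClasses.mk (f o) = ConjClasses.mk (f o') → orderOf (f o) = orderOf (f o') := by
    intro o o' h
    obtain ⟨c, hc⟩ := isConj_iff.1 (ConjClasses.mk_eq_mk_iff_isConj.1 h)
    rw [← hc]
    exact (MulAut.conj c).orderOf_eq (f o) |>.symm
  intro o o' h
  have h4 := h3 o o' h
  rcases o with _ | r <;> rcases o' with _ | r'
  · rfl
  · exfalso
    have h5 : orderOf (f (some r')) = (r' : ℕ) := hx r'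
    have h6 : orderOf (f none) = 1 := orderOf_one
    rw [h6, h5] at h4
    exact (hs r' r'.2).1.one_lt.ne h4
  · exfalso
    have h5 : orderOf (f (some r)) = (r : ℕ) := hx r
    have h6 : orderOf (f none) = 1 := orderOf_one
    rw [h6, h5] at h4
    exact (hs r r.2).1.one_lt.ne h4.symm
  · have h5 : orderOf (f (some r')) = (r' : ℕ) := hx r'
    have h6 : orderOf (f (some r)) = (r : ℕ) := hx r
    rw [h6, h5] at h4
    exact congrArg some (Subtype.ext h4)

end Cfsg.Agent.Lib.KPRA
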