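import Mathlib
import Cfsg.Agent.Lib.KPR0
import Cfsg.Agent.Lib.CharValues

set_option autoImplicit false
set_option linter.all false

open Cfsg.Agent.Lib.KPR

namespace Cfsg.Agent.Lib.KPRB

theorem one_add_pow {R : Type*} [Ring R] (a : R) (m : ℕ) :
    ∃ W : R, (1 + a) ^ m = 1 + (m : R) * a + a * a * W := by
  induction m with
  | zero => exact ⟨0, by simp⟩
  | succ m ih =>
    obtain ⟨W, hW⟩ := ih
    refine ⟨(m : R) + W * (1 + a), ?_⟩
    rw [pow_succ, hW]
    have hc : a * a * (m : R) = (m : R) * (a * a) := (Nat.cast_commute m (a * a)).symm.eq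
    rw [mul_add (a * a), hc]
    push_cast
    noncomm_ring

theorem pow_aux {R : Type*} [Ring R] (p : ℕ) (g : R) (X : R) (hg : g = 1 + (p : R) * X) (j : ℕ) :
    ∃ Y : R, g ^ (p ^ j) = 1 + (p : R) ^ (j + 1) * Y := by
  induction j with
  | zero => exact ⟨X, by simp [hg]⟩
  | succ j ih =>
    obtain ⟨Y, hY⟩ := ih
    obtain ⟨W, hW⟩ := one_add_pow ((p : R) ^ (j + 1) * Y) p
    have hc : Commute Y ((p : R) ^ (j + 1)) := ((Nat.cast_commute p Y).pow_left _).symm
    refine ⟨Y + (p : R) ^ j * Y * Y * W, ?_⟩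
    rw [pow_succ p j, pow_mul, hY, hW]
    have h1 : (p : R) ^ (j + 1) * Y * ((p : R) ^ (j + 1) * Y) = (p : R) ^ (j + 1 + 1) * ((p : R) ^ j * Y * Y) := by
      rw [mul_assoc, ← mul_assoc Y, hc.eq]
      rw [← mul_assoc, ← mul_assoc, ← pow_add, ← mul_assoc, ← mul_assoc, ← pow_add]
      congr 3
      omega
    rw [h1, ← mul_assoc, ← pow_succ', mul_add, ← add_assoc, mul_assoc ((p : R) ^ (j + 1 + 1))]

theorem split {E H : Type*} [Group E] [Group H] [Finite E] (π : E →* H)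
    (hs : Function.Surjective π) (hc : Nat.Coprime (Nat.card π.ker) (Nat.card H)) :
    ∃ s : H →* E, ∀ h, π (s h) = h := by
  have hi : π.ker.index = Nat.card H := by
    rw [Subgroup.index_ker, MonoidHom.range_eq_top.2 hs, Subgroup.card_top]
  obtain ⟨K, hK⟩ := Subgroup.exists_right_complement'_of_coprime (N := π.ker) (by rw [hi]; exact hc)
  let f : K →* H := π.comp K.subtype
  have hf : Function.Bijective f := by
    constructor
    · rw [injective_iff_map_eq_one]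
      intro a ha
      have h1 : (a : E) ∈ π.ker := ha
      have h2 := hK.disjoint
      have h3 : (a : E) = 1 := by
        have := Subgroup.disjoint_def.1 h2 h1 a.2
        exact this
      exact Subtype.ext h3
    · intro h
      obtain ⟨x, hx⟩ := hs h
      obtain ⟨⟨a, b⟩, hab⟩ := hK.2 x
      refine ⟨b, ?_⟩
      have : π (a : E) = 1 := a.2
      show π (b : E) = h
      rw [← hx, ← hab]
      simp [this]
  let e : K ≃* H := MulEquiv.ofBijective f hf
  refine ⟨K.subtype.comp e.symm.toMonoidHom, fun h => ?_⟩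
  show f (e.symm h) = h
  exact e.apply_symm_apply h

variable {H : Type*} [Group H] [Finite H] (p n : ℕ) [hpf : Fact p.Prime]

theorem cast_zero (k : ℕ) (hk : k ≠ 0) (x : ZMod (p ^ k))
    (hx : ZMod.castHom (dvd_pow_self p hk) (ZMod p) x = 0) : ∃ y : ZMod (p ^ k), x = (p : ZMod (p ^ k)) * y := by
  haveI : NeZero (p ^ k) := ⟨pow_ne_zero _ hpf.out.ne_zero⟩
  have h1 : x = ((x.val : ℕ) : ZMod (p ^ k)) := (ZMod.natCast_zmod_val x).symm
  rw [h1, map_natCast, ZMod.natCast_eq_zero_iff] at hx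
  obtain ⟨c, hc⟩ := hx
  refine ⟨(c : ZMod (p ^ k)), ?_⟩
  rw [h1, hc]; push_cast; rfl

theorem cast_unit (k : ℕ) (hk : k ≠ 0) (x : ZMod (p ^ k))
    (hx : ZMod.castHom (dvd_pow_self p hk) (ZMod p) x ≠ 0) : IsUnit x := by
  haveI : NeZero (p ^ k) := ⟨pow_ne_zero _ hpf.out.ne_zero⟩
  have h1 : x = ((x.val : ℕ) : ZMod (p ^ k)) := (ZMod.natCast_zmod_val x).symm
  rw [h1, map_natCast, Ne, ZMod.natCast_eq_zero_iff] at hx
  rw [h1, ZMod.isUnit_iff_coprime]
  exact Nat.Coprime.pow_right k ((hpf.out.coprime_iff_not_dvd.2 hx).symm)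

theorem gl_surj (k : ℕ) (hk : k ≠ 0) :
    Function.Surjective (Matrix.GeneralLinearGroup.map (n := Fin n)
      (ZMod.castHom (dvd_pow_self p hk) (ZMod p))) := by
  intro g
  have hsurj : Function.Surjective (ZMod.castHom (dvd_pow_self p hk) (ZMod p)) :=
    ZMod.castHom_surjective _
  choose f hf using hsurj
  let M : Matrix (Fin n) (Fin n) (ZMod (p ^ k)) := Matrix.of fun i j => f ((g : Matrix _ _ _) i j)
  have hM : (ZMod.castHom (dvd_pow_self p hk) (ZMod p)).mapMatrix M = (g : Matrix _ _ _) := by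
    ext i j
    simp only [RingHom.mapMatrix_apply, Matrix.map_apply, M, Matrix.of_apply]
    exact hf _
  have hdet : IsUnit M.det := by
    apply cast_unit p k hk
    rw [RingHom.map_det, hM]
    exact (Matrix.isUnit_iff_isUnit_det _).1 g.isUnit |>.ne_zero
  refine ⟨Matrix.GeneralLinearGroup.mk'' M hdet, ?_⟩
  apply Units.ext
  exact hM

theorem ker_pgroup (k : ℕ) (hk : k ≠ 0) (g : Matrix.GeneralLinearGroup (Fin n) (ZMod (p ^ k)))
    (hg : Matrix.GeneralLinearGroup.map (ZMod.castHom (dvd_pow_self p hk) (ZMod p)) g = 1) :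
    g ^ (p ^ (k - 1)) = 1 := by
  have h1 : ∀ i j, ∃ y, ((g : Matrix (Fin n) (Fin n) (ZMod (p ^ k))) - 1) i j = (p : ZMod (p ^ k)) * y := by
    intro i j
    apply cast_zero p k hk
    have h2 := congrArg (fun u : Matrix.GeneralLinearGroup (Fin n) (ZMod p) =>
      (u : Matrix (Fin n) (Fin n) (ZMod p)) i j) hg
    simp only [Matrix.GeneralLinearGroup.map_apply, Units.val_one] at h2
    rw [Matrix.sub_apply, map_sub, h2, Matrix.one_apply, Matrix.one_apply]
    split
    · rw [map_one, sub_self]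
    · rw [map_zero, sub_self]
  choose Y hY using h1
  have h3 : (g : Matrix (Fin n) (Fin n) (ZMod (p ^ k))) = 1 + ((p : ℕ) : Matrix (Fin n) (Fin n) (ZMod (p ^ k))) * Matrix.of Y := by
    have : (g : Matrix (Fin n) (Fin n) (ZMod (p ^ k))) - 1 = ((p : ℕ) : Matrix (Fin n) (Fin n) (ZMod (p ^ k))) * Matrix.of Y := by
      rw [← nsmul_eq_mul]
      ext i j
      rw [hY, Matrix.smul_apply, Matrix.of_apply, nsmul_eq_mul]
    rw [← this]; abel
  obtain ⟨Z, hZ⟩ := pow_aux p _ _ h3 (k - 1)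
  apply Units.ext
  rw [Units.val_pow_eq_pow_val, hZ, Units.val_one]
  have h4 : k - 1 + 1 = k := by omega
  rw [h4]
  have h5 : ((p : ℕ) : Matrix (Fin n) (Fin n) (ZMod (p ^ k))) ^ k = 0 := by
    rw [← Nat.cast_pow]
    ext i j
    rw [← mul_one ((↑(p ^ k) : Matrix (Fin n) (Fin n) (ZMod (p ^ k)))), ← nsmul_eq_mul, Matrix.smul_apply, nsmul_eq_mul,
      ZMod.natCast_self, zero_mul]
    rfl
  rw [h5, zero_mul, add_zero]

theorem lift_k (hp : ¬ p ∣ Nat.card H) (ρ : H →* Matrix.GeneralLinearGroup (Fin n) (ZMod p))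
    (k : ℕ) (hk : k ≠ 0) :
    ∃ σ : H →* Matrix.GeneralLinearGroup (Fin n) (ZMod (p ^ k)),
      ∀ h, Matrix.GeneralLinearGroup.map (ZMod.castHom (dvd_pow_self p hk) (ZMod p)) (σ h) = ρ h := by
  haveI : NeZero (p ^ k) := ⟨pow_ne_zero _ hpf.out.ne_zero⟩
  let μ : Matrix.GeneralLinearGroup (Fin n) (ZMod (p ^ k)) →* Matrix.GeneralLinearGroup (Fin n) (ZMod p) :=
    Matrix.GeneralLinearGroup.map (ZMod.castHom (dvd_pow_self p hk) (ZMod p))
  let E : Subgroup (Matrix.GeneralLinearGroup (Fin n) (ZMod (p ^ k)) × H) :=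
    MonoidHom.eqLocus (μ.comp (MonoidHom.fst _ _)) (ρ.comp (MonoidHom.snd _ _))
  let π : E →* H := (MonoidHom.snd _ _).comp E.subtype
  haveI : Finite (Matrix.GeneralLinearGroup (Fin n) (ZMod (p ^ k))) := by
    unfold Matrix.GeneralLinearGroup
    infer_instance
  have hs : Function.Surjective π := by
    intro h
    obtain ⟨g, hg⟩ := gl_surj p n k hk (ρ h)
    exact ⟨⟨(g, h), hg⟩, rfl⟩
  have hpg : IsPGroup p π.ker := by
    intro x
    refine ⟨k - 1, ?_⟩
    have hx : ((x : E) : Matrix.GeneralLinearGroup (Fin n) (ZMod (p ^ k)) × H).2 = 1 := x.2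
    have hx2 : μ ((x : E) : Matrix.GeneralLinearGroup (Fin n) (ZMod (p ^ k)) × H).1 = ρ ((x : E) : Matrix.GeneralLinearGroup (Fin n) (ZMod (p ^ k)) × H).2 := (x : E).2
    rw [hx, map_one] at hx2
    apply Subtype.ext
    apply Subtype.ext
    apply Prod.ext
    · simpa using ker_pgroup p n k hk _ hx2
    · simp [hx]
  have hc : Nat.Coprime (Nat.card π.ker) (Nat.card H) := by
    obtain ⟨m, hm⟩ := IsPGroup.iff_card.1 hpg
    rw [hm]
    exact Nat.Coprime.pow_left m (hpf.out.coprime_iff_not_dvd.2 hp)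
  obtain ⟨s, hs'⟩ := split π hs hc
  refine ⟨((MonoidHom.fst _ _).comp E.subtype).comp s, fun h => ?_⟩
  have h1 : μ ((s h : E) : Matrix.GeneralLinearGroup (Fin n) (ZMod (p ^ k)) × H).1 = ρ ((s h : E) : Matrix.GeneralLinearGroup (Fin n) (ZMod (p ^ k)) × H).2 := (s h : E).2
  have h2 : ((s h : E) : Matrix.GeneralLinearGroup (Fin n) (ZMod (p ^ k)) × H).2 = h := hs' h
  rw [h2] at h1
  exact h1

/-- Step 2: a big commutative ring. -/
theorem big (hp : ¬ p ∣ Nat.card H) (ρ : H →* Matrix.GeneralLinearGroup (Fin n) (ZMod p))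
    (hρ : Function.Injective ρ) :
    ∃ (R : Type) (_ : CommRing R) (σ : H →* Matrix (Fin n) (Fin n) R),
      (∀ m : ℤ, m ≠ 0 → ((m : ℤ) : R) ≠ 0) ∧ ∀ h, h ≠ 1 → ∃ i j, IsUnit ((σ h - 1) i j) := by
  choose σ hσ using fun k : ℕ => lift_k (H := H) p n hp ρ (k + 1) (Nat.succ_ne_zero k)
  let σR : H →* Matrix (Fin n) (Fin n) (∀ k : ℕ, ZMod (p ^ (k + 1))) :=
    { toFun := fun h => Matrix.of fun i j k => (σ k h : Matrix (Fin n) (Fin n) (ZMod (p ^ (k + 1)))) i j
      map_one' := by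
        ext i j k
        simp only [map_one, Units.val_one, Matrix.of_apply, Matrix.one_apply]
        split <;> rfl
      map_mul' := by
        intro a b
        ext i j k
        simp only [map_mul, Units.val_mul, Matrix.of_apply, Matrix.mul_apply, Finset.sum_apply, Pi.mul_apply] }
  refine ⟨∀ k : ℕ, ZMod (p ^ (k + 1)), inferInstance, σR, ?_, ?_⟩
  · intro m hm h0
    have h1 : ∀ k : ℕ, ((m : ℤ) : ZMod (p ^ (k + 1))) = 0 := by
      intro k
      have := congrFun h0 k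
      simpa using this
    have h2 : ((m : ℤ) : ZMod (p ^ (m.natAbs + 1))) = 0 := h1 _
    rw [ZMod.intCast_zmod_eq_zero_iff_dvd] at h2
    have h3 : p ^ (m.natAbs + 1) ∣ m.natAbs := by
      have := Int.natAbs_dvd_natAbs.2 h2
      simpa using this
    have h4 := Nat.le_of_dvd (Int.natAbs_pos.2 hm) h3
    have h5 : m.natAbs + 1 < p ^ (m.natAbs + 1) := Nat.lt_pow_self hpf.out.one_lt
    omega
  · intro h hh
    have h1 : ρ h ≠ 1 := fun h2 => hh (hρ (by rw [h2, map_one]))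
    have h2 : ∃ i j, ((ρ h : Matrix (Fin n) (Fin n) (ZMod p)) - 1) i j ≠ 0 := by
      by_contra hcon
      push_neg at hcon
      apply h1
      apply Units.ext
      rw [Units.val_one, ← sub_eq_zero]
      ext i j
      exact hcon i j
    obtain ⟨i, j, hij⟩ := h2
    refine ⟨i, j, ?_⟩
    rw [Pi.isUnit_iff]
    intro k
    apply cast_unit p (k + 1) (Nat.succ_ne_zero k)
    intro h3
    apply hij
    have h4 := hσ k h
    rw [← h4]
    rw [Matrix.sub_apply, Matrix.GeneralLinearGroup.map_apply]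
    have h5 : (σR h - 1) i j k = (σ k h : Matrix (Fin n) (Fin n) (ZMod (p ^ (k + 1)))) i j - (1 : Matrix (Fin n) (Fin n) (ZMod (p ^ (k + 1)))) i j := by
      rw [Matrix.sub_apply, Pi.sub_apply]
      congr 1
      rw [Matrix.one_apply, Matrix.one_apply]
      split <;> rfl
    rw [h5, map_sub] at h3
    rw [← h3]
    congr 1
    rw [Matrix.one_apply, Matrix.one_apply]
    split <;> simp

/-- Step 3: a field of characteristic 0. -/
theorem toField {H : Type*} [Group H] (n : ℕ) (R : Type) [CommRing R] (σ : H →* Matrix (Fin n) (Fin n) R)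
    (hR : ∀ m : ℤ, m ≠ 0 → ((m : ℤ) : R) ≠ 0) (hσ : ∀ h, h ≠ 1 → ∃ i j, IsUnit ((σ h - 1) i j)) :
    ∃ (K : Type) (_ : Field K) (_ : CharZero K) (τ : H →* Matrix (Fin n) (Fin n) K),
      ∀ h, h ≠ 1 → ∃ i j, (τ h - 1) i j ≠ 0 := by
  let S : Submonoid R := (nonZeroDivisors ℤ).map (Int.castRingHom R)
  have hS : Disjoint ((⊥ : Ideal R) : Set R) (S : Set R) := by
    rw [Set.disjoint_left]
    rintro x hx ⟨m, hm, rfl⟩
    exact hR m (nonZeroDivisors.ne_zero hm) (by simpa using hx)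
  obtain ⟨P, hP, -, hPS⟩ := Ideal.exists_le_prime_disjoint (⊥ : Ideal R) S hS
  haveI := hP
  let K := FractionRing (R ⧸ P)
  have h1 : ∀ m : ℤ, m ≠ 0 → ((m : ℤ) : R ⧸ P) ≠ 0 := by
    intro m hm h0
    have h2 : ((m : ℤ) : R) ∈ P := by
      rw [← Ideal.Quotient.eq_zero_iff_mem, map_intCast]; exact h0
    exact Set.disjoint_left.1 hPS h2 ⟨m, mem_nonZeroDivisors_of_ne_zero hm, by simp⟩
  have h2 : CharZero K := by
    haveI : CharZero (R ⧸ P) := by
      refine charZero_of_inj_zero fun m hm => ?_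
      by_contra hne
      exact h1 (m : ℤ) (by exact_mod_cast hne) (by push_cast; exact hm)
    exact charZero_of_injective_algebraMap (IsFractionRing.injective (R ⧸ P) K)
  let f : R →+* K := (algebraMap (R ⧸ P) K).comp (Ideal.Quotient.mk P)
  refine ⟨K, inferInstance, h2, (f.mapMatrix : Matrix (Fin n) (Fin n) R →+* Matrix (Fin n) (Fin n) K).toMonoidHom.comp σ, ?_⟩
  intro h hh
  obtain ⟨i, j, hij⟩ := hσ h hh
  refine ⟨i, j, ?_⟩
  have h3 : ((f.mapMatrix : Matrix (Fin n) (Fin n) R →+* Matrix (Fin n) (Fin n) K).toMonoidHom.comp σ) h - 1 = f.mapMatrix (σ h - 1) := by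
    rw [map_sub, map_one]; rfl
  rw [h3, RingHom.mapMatrix_apply, Matrix.map_apply]
  exact (hij.map f).ne_zero

theorem fieldHom (L : Type) [Field L] [Algebra ℚ L] [Algebra.FiniteType ℚ L] :
    Nonempty (L →+* ℂ) := by
  haveI : Module.Finite ℚ L := finite_of_finite_type_of_isJacobsonRing ℚ L
  haveI : Algebra.IsAlgebraic ℚ L := Algebra.IsAlgebraic.of_finite ℚ L
  let φ : L →ₐ[ℚ] ℂ := IsAlgClosed.lift
  exact ⟨φ.toRingHom⟩

theorem ringHomC (B : Type) [CommRing B] [Nontrivial B] [Algebra ℚ B] [hft : Algebra.FiniteType ℚ B] :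
    Nonempty (B →+* ℂ) := by
  obtain ⟨m, hm⟩ := Ideal.exists_maximal B
  have h1 : Algebra.FiniteType ℚ (B ⧸ m) :=
    hft.of_surjective (Ideal.Quotient.mkₐ ℚ m) (Ideal.Quotient.mkₐ_surjective ℚ m)
  obtain ⟨φ⟩ := @fieldHom (B ⧸ m) (Ideal.Quotient.field m) (Ideal.Quotient.algebra ℚ) h1
  exact ⟨φ.comp (Ideal.Quotient.mk m)⟩

/-- Step 4: descend to ℂ. -/
theorem toC {H : Type*} [Group H] [Finite H] (n : ℕ) (K : Type) [Field K] [CharZero K]
    (σ : H →* Matrix (Fin n) (Fin n) K) (hσ : ∀ h, h ≠ 1 → ∃ i j, (σ h - 1) i j ≠ 0) :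
    ∃ τ : H →* Matrix (Fin n) (Fin n) ℂ, ∀ h, h ≠ 1 → τ h ≠ 1 := by
  let S : Set K := Set.range (fun t : H × Fin n × Fin n => σ t.1 t.2.1 t.2.2) ∪
    Set.range (fun t : H × Fin n × Fin n => ((σ t.1 - 1) t.2.1 t.2.2)⁻¹)
  have hSf : S.Finite := (Set.finite_range _).union (Set.finite_range _)
  let A : Subalgebra ℚ K := Algebra.adjoin ℚ S
  have hA : A.FG := Subalgebra.fg_def.2 ⟨S, hSf, rfl⟩
  haveI hft : Algebra.FiniteType ℚ A := A.fg_iff_finiteType.1 hA
  obtain ⟨f⟩ := ringHomC A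
  let σA : H →* Matrix (Fin n) (Fin n) A :=
    { toFun := fun h => Matrix.of fun i j => ⟨σ h i j, Algebra.subset_adjoin (Or.inl ⟨(h, i, j), rfl⟩)⟩
      map_one' := by
        ext i j
        simp only [map_one, Matrix.of_apply, Matrix.one_apply]
        split <;> rfl
      map_mul' := by
        intro a b
        ext i j
        simp only [map_mul, Matrix.of_apply, Matrix.mul_apply]
        push_cast
        rfl }
  refine ⟨(f.mapMatrix : Matrix (Fin n) (Fin n) A →+* Matrix (Fin n) (Fin n) ℂ).toMonoidHom.comp σA, ?_⟩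
  intro h hh h1
  obtain ⟨i, j, hij⟩ := hσ h hh
  let y : A := ⟨((σ h - 1) i j)⁻¹, Algebra.subset_adjoin (Or.inr ⟨(h, i, j), rfl⟩)⟩
  have h2 : (σA h - 1) i j * y = 1 := by
    apply Subtype.ext
    have h3 : (((σA h - 1) i j : A) : K) = (σ h - 1) i j := by
      rw [Matrix.sub_apply, Matrix.sub_apply, Matrix.one_apply, Matrix.one_apply]
      push_cast
      congr 1
      split <;> rfl
    show (((σA h - 1) i j : A) : K) * ((σ h - 1) i j)⁻¹ = 1
    rw [h3]
    exact mul_inv_cancel₀ hij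
  have h4 : f ((σA h - 1) i j) = 0 := by
    have h5 : f.mapMatrix (σA h) - 1 = 0 := sub_eq_zero.2 h1
    have h6 : f.mapMatrix (σA h - 1) = 0 := by rw [map_sub, map_one]; exact h5
    have h7 := congrFun (congrFun h6 i) j
    exact h7
  have h8 := congrArg f h2
  rw [map_mul, h4, zero_mul, map_one] at h8
  exact zero_ne_one h8

theorem lift (hp : ¬ p ∣ Nat.card H)
    (ρ : H →* Matrix.GeneralLinearGroup (Fin n) (ZMod p)) (hρ : Function.Injective ρ) :
    ∃ χ : H → ℂ, Cfsg.IsCharacter H χ ∧ (∀ h, χ h = χ 1 → h = 1) ∧ Cfsg.charDegree χ = n := by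
  obtain ⟨R, _, σ, hR, hσ⟩ := big p n hp ρ hρ
  obtain ⟨K, _, _, τ, hτ⟩ := toField n R σ hR hσ
  obtain ⟨τ', hτ'⟩ := toC n K τ hτ
  let r : Representation ℂ H (Fin n → ℂ) :=
    (Matrix.toLinAlgEquiv' (R := ℂ) (n := Fin n)).toAlgHom.toRingHom.toMonoidHom.comp τ'
  have h1 : r.character 1 = (n : ℂ) := by
    rw [Representation.char_one]
    simp
  refine ⟨r.character, ⟨n, r, rfl⟩, ?_, ?_⟩
  · intro h hh
    rw [h1] at hh
    have h2 := (CharValues.character_eq_finrank_iff r h).1 (by rw [hh]; simp)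
    by_contra hne
    apply hτ' h hne
    apply (Matrix.toLinAlgEquiv' (R := ℂ) (n := Fin n)).injective
    rw [map_one]
    exact h2
  · unfold Cfsg.charDegree
    rw [h1]
    simp

end Cfsg.Agent.Lib.KPRB
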