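import Mathlib
import Cfsg.Agent.Lib.KPR0

/-! S4878, piece C (helper70): elements of Zsigmondy order in `GL_n(p)`. -/

set_option autoImplicit false
set_option linter.all false
set_option maxHeartbeats 400000

namespace Cfsg.Agent.Lib.KPRC

open Cfsg.Agent.Lib.KPR Polynomial

/-- a matrix of Zsigmondy order has an irreducible minimal polynomial of degree `n` -/
theorem min_irr {p n : ℕ} [Fact p.Prime] (hn : 2 ≤ n) (r : ℕ) (hr : r.Prime) (hr1 : r ∣ p ^ n - 1)
    (hr2 : ∀ i, 1 ≤ i → i < n → ¬ r ∣ p ^ i - 1) (M : Matrix (Fin n) (Fin n) (ZMod p))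
    (hM : M ^ r = 1) (hM1 : M ≠ 1) :
    Irreducible (minpoly (ZMod p) M) ∧ (minpoly (ZMod p) M).natDegree = n := by
  classical
  have hp : p.Prime := Fact.out
  haveI : Fact r.Prime := ⟨hr⟩
  haveI : Nonempty (Fin n) := ⟨⟨0, by omega⟩⟩
  haveI : Nontrivial (Matrix (Fin n) (Fin n) (ZMod p)) := ⟨⟨M, 1, hM1⟩⟩
  set μ := minpoly (ZMod p) M with hμ
  have hint : IsIntegral (ZMod p) M := Matrix.isIntegral M
  have hmon : μ.Monic := minpoly.monic hint
  have hdeg : μ.natDegree ≤ n := by
    have h1 := Matrix.minpoly_dvd_charpoly M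
    have h2 := Polynomial.natDegree_le_of_dvd h1 (Matrix.charpoly_monic M).ne_zero
    rw [Matrix.charpoly_natDegree_eq_dim, Fintype.card_fin] at h2
    exact h2
  have hrp : ¬ p ∣ r := by
    intro h
    have h1 : p = r := (Nat.prime_dvd_prime_iff_eq hp hr).1 h
    rw [← h1] at hr1
    have h2 : p ∣ p ^ n := dvd_pow_self p (by omega)
    have h3 : 1 ≤ p ^ n := Nat.one_le_pow _ _ hp.pos
    have h4 : p ∣ 1 := by
      have := (Nat.dvd_sub_iff_right h3 h2).1 hr1
      exact this
    exact hp.one_lt.ne' (Nat.dvd_one.1 h4)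
  have hr0 : (r : ZMod p) ≠ 0 := by
    intro h
    exact hrp ((ZMod.natCast_eq_zero_iff r p).1 h)
  have hsep : (X ^ r - 1 : (ZMod p)[X]).Separable := by
    have := Polynomial.separable_X_pow_sub_C (F := ZMod p) (1 : ZMod p) hr0 one_ne_zero
    simpa using this
  have hsq : Squarefree (X ^ r - 1 : (ZMod p)[X]) := hsep.squarefree
  have hdvd : μ ∣ X ^ r - 1 := by
    apply minpoly.dvd
    simp [hM]
  have hμne : μ ≠ X - 1 := by
    intro h
    apply hM1
    have := minpoly.aeval (ZMod p) M
    rw [← hμ, h] at this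
    simp only [map_sub, aeval_X, map_one] at this
    exact sub_eq_zero.1 this
  -- a monic irreducible factor different from X - 1
  obtain ⟨g, hgm, hgi, hgd, hgne⟩ : ∃ g : (ZMod p)[X], g.Monic ∧ Irreducible g ∧ g ∣ μ ∧ g ≠ X - 1 := by
    have hexists : ∀ q : (ZMod p)[X], q.Monic → q ≠ 1 → ∃ g : (ZMod p)[X], g.Monic ∧ Irreducible g ∧ g ∣ q := by
      intro q hq hq1
      have hu : ¬ IsUnit q := fun h => hq1 (hq.isUnit_iff.1 h)
      obtain ⟨g, hg1, hg2⟩ := WfDvdMonoid.exists_irreducible_factor hu hq.ne_zero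
      refine ⟨normalize g, monic_normalize hg1.ne_zero, ?_, ?_⟩
      · exact (associated_normalize g).irreducible hg1
      · exact (normalize_dvd_iff).2 hg2
    have hX1 : (X - 1 : (ZMod p)[X]).Monic := by
      have := monic_X_sub_C (1 : ZMod p)
      simpa using this
    have hX1i : Irreducible (X - 1 : (ZMod p)[X]) := by
      have := irreducible_X_sub_C (1 : ZMod p)
      simpa using this
    have hμ1 : μ ≠ 1 := by
      intro h
      exact minpoly.ne_one (ZMod p) M h
    by_cases hX : (X - 1 : (ZMod p)[X]) ∣ μ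
    · obtain ⟨q, hq⟩ := hX
      have hqm : q.Monic := by
        rw [hq] at hmon
        exact hX1.of_mul_monic_left hmon
      have hq1 : q ≠ 1 := by
        intro h
        rw [h, mul_one] at hq
        exact hμne hq
      obtain ⟨g, h1, h2, h3⟩ := hexists q hqm hq1
      refine ⟨g, h1, h2, h3.trans ⟨X - 1, by rw [hq, mul_comm]⟩, ?_⟩
      intro hg
      rw [hg] at h3
      have h4 : (X - 1) * (X - 1) ∣ (X ^ r - 1 : (ZMod p)[X]) := by
        refine dvd_trans ?_ hdvd
        rw [hq]
        exact mul_dvd_mul_left _ h3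
      exact hX1i.not_isUnit (hsq _ h4)
    · obtain ⟨g, h1, h2, h3⟩ := hexists μ hmon hμ1
      refine ⟨g, h1, h2, h3, ?_⟩
      intro hg
      rw [hg] at h3
      exact hX h3
  haveI : Fact (Irreducible g) := ⟨hgi⟩
  have hg0 : g ≠ 0 := hgi.ne_zero
  -- degree of g
  have hgdeg : g.natDegree = n := by
    have hle : g.natDegree ≤ n := (Polynomial.natDegree_le_of_dvd hgd hmon.ne_zero).trans hdeg
    have hpos : 1 ≤ g.natDegree := hgi.natDegree_pos
    by_contra hne
    apply hr2 g.natDegree hpos (lt_of_le_of_ne hle hne)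
    let α : AdjoinRoot g := AdjoinRoot.root g
    have hα : α ^ r = 1 := by
      have h1 : g ∣ X ^ r - 1 := hgd.trans hdvd
      have h2 : AdjoinRoot.mk g (X ^ r - 1) = 0 := AdjoinRoot.mk_eq_zero.2 h1
      rw [map_sub, map_pow, AdjoinRoot.mk_X, map_one] at h2
      exact sub_eq_zero.1 h2
    have hα1 : α ≠ 1 := by
      intro h
      have h2 : AdjoinRoot.mk g (X - 1) = 0 := by
        rw [map_sub, AdjoinRoot.mk_X, map_one]
        exact sub_eq_zero.2 h
      have h3 : g ∣ X - 1 := AdjoinRoot.mk_eq_zero.1 h2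
      apply hgne
      have hX1i : Irreducible (X - 1 : (ZMod p)[X]) := by
        have := irreducible_X_sub_C (1 : ZMod p)
        simpa using this
      have hX1 : (X - 1 : (ZMod p)[X]).Monic := by
        have := monic_X_sub_C (1 : ZMod p)
        simpa using this
      exact eq_of_monic_of_associated hgm hX1 (hgi.associated_of_dvd hX1i h3)
    have hord : orderOf α = r := orderOf_eq_prime hα hα1
    let pb := AdjoinRoot.powerBasis hg0
    haveI : Module.Finite (ZMod p) (AdjoinRoot g) := pb.finite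
    haveI : Finite (AdjoinRoot g) := Module.finite_of_finite (ZMod p)
    haveI : Fintype (AdjoinRoot g) := Fintype.ofFinite _
    have hcard : Fintype.card (AdjoinRoot g) = p ^ g.natDegree := by
      rw [Module.card_eq_pow_finrank (K := ZMod p), ZMod.card, pb.finrank, AdjoinRoot.powerBasis_dim]
    have h5 : α ^ (Fintype.card (AdjoinRoot g) - 1) = 1 := by
      apply FiniteField.pow_card_sub_one_eq_one
      intro h0
      rw [h0, zero_pow hr.pos.ne'] at hα
      exact zero_ne_one hα
    rw [← hcard, ← hord]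
    exact orderOf_dvd_of_pow_eq_one h5
  have hμg : μ = g := by
    obtain ⟨q, hq⟩ := hgd
    have hqm : q.Monic := by
      rw [hq] at hmon
      exact hgm.of_mul_monic_left hmon
    have h1 : μ.natDegree = g.natDegree + q.natDegree := by
      rw [hq]
      exact hgm.natDegree_mul hqm
    have h2 : q.natDegree = 0 := by omega
    have h3 : q = 1 := Polynomial.eq_one_of_monic_natDegree_zero hqm h2
    rw [hq, h3, mul_one]
  rw [hμg]
  exact ⟨hgi, hgdeg⟩

/-- a matrix commuting with `M` is a polynomial in `M` -/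
theorem cent_poly {p n : ℕ} [Fact p.Prime] (hn : 1 ≤ n) (M : Matrix (Fin n) (Fin n) (ZMod p))
    (hirr : Irreducible (minpoly (ZMod p) M)) (hdeg : (minpoly (ZMod p) M).natDegree = n)
    (B : Matrix (Fin n) (Fin n) (ZMod p)) (hB : B * M = M * B) : ∃ f : (ZMod p)[X], B = aeval M f := by
  classical
  have hcomm : ∀ f : (ZMod p)[X], B * aeval M f = aeval M f * B := by
    intro f
    have h1 : Commute B (aeval M f) := by
      induction f using Polynomial.induction_on with
      | C a =>
        rw [aeval_C]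
        exact (Algebra.commutes a B).symm
      | add p q hp hq =>
        rw [map_add]
        exact hp.add_right hq
      | monomial k a ih =>
        rw [pow_succ, ← mul_assoc, map_mul, aeval_X]
        exact ih.mul_right hB
    exact h1
  let v : Fin n → ZMod p := Pi.single ⟨0, hn⟩ 1
  have hv : v ≠ 0 := by
    intro h
    have := congrFun h ⟨0, hn⟩
    simp [v] at this
  let φ : Polynomial.degreeLT (ZMod p) n →ₗ[ZMod p] (Fin n → ZMod p) :=
    { toFun := fun f => (aeval M (f : (ZMod p)[X])).mulVec v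
      map_add' := by
        intro f g
        simp only [Submodule.coe_add, map_add, Matrix.add_mulVec]
      map_smul' := by
        intro c f
        simp only [Submodule.coe_smul, map_smul, RingHom.id_apply, Matrix.smul_mulVec] }
  have hφ : Function.Injective φ := by
    rw [← LinearMap.ker_eq_bot, LinearMap.ker_eq_bot']
    rintro ⟨f, hf⟩ h0
    have h0' : (aeval M f).mulVec v = 0 := h0
    apply Subtype.ext
    change f = 0
    by_contra hne
    have hfd : f.natDegree < n := by
      rw [Polynomial.mem_degreeLT] at hf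
      exact (Polynomial.natDegree_lt_iff_degree_lt hne).2 hf
    have hcop : IsCoprime (minpoly (ZMod p) M) f := by
      rw [hirr.coprime_iff_not_dvd]
      intro hd
      have := Polynomial.natDegree_le_of_dvd hd hne
      omega
    obtain ⟨a, b, hab⟩ := hcop
    apply hv
    have h1 : aeval M (a * minpoly (ZMod p) M + b * f) = 1 := by rw [hab, map_one]
    rw [map_add, map_mul, map_mul, minpoly.aeval, mul_zero, zero_add] at h1
    calc v = (1 : Matrix (Fin n) (Fin n) (ZMod p)).mulVec v := by rw [Matrix.one_mulVec]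
      _ = (aeval M b * aeval M f).mulVec v := by rw [h1]
      _ = 0 := by rw [← Matrix.mulVec_mulVec, h0', Matrix.mulVec_zero]
  have hfr : Module.finrank (ZMod p) (Polynomial.degreeLT (ZMod p) n) =
      Module.finrank (ZMod p) (Fin n → ZMod p) := by
    rw [(Polynomial.degreeLTEquiv (ZMod p) n).finrank_eq]
  haveI : Module.Finite (ZMod p) (Polynomial.degreeLT (ZMod p) n) :=
    Module.Finite.equiv (Polynomial.degreeLTEquiv (ZMod p) n).symm
  have hsurj : Function.Surjective φ :=
    (LinearMap.injective_iff_surjective_of_finrank_eq_finrank hfr).1 hφ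
  obtain ⟨⟨f, hf⟩, hfv⟩ := hsurj (B.mulVec v)
  have hfv' : (aeval M f).mulVec v = B.mulVec v := hfv
  refine ⟨f, ?_⟩
  apply Matrix.toLin'.injective
  apply LinearMap.ext
  intro w
  obtain ⟨⟨g, hg⟩, hgw⟩ := hsurj w
  have hgw' : (aeval M g).mulVec v = w := hgw
  rw [Matrix.toLin'_apply, Matrix.toLin'_apply, ← hgw', Matrix.mulVec_mulVec, hcomm,
    ← Matrix.mulVec_mulVec, ← hfv', Matrix.mulVec_mulVec, Matrix.mulVec_mulVec, ← map_mul, ← map_mul, mul_comm]

theorem pow_of_ord {H : Type*} [Group H] {p n : ℕ} [Fact p.Prime] {r : ℕ}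
    (ρ : H →* Matrix.GeneralLinearGroup (Fin n) (ZMod p)) (x : H) (hx : orderOf x = r) :
    (ρ x : Matrix (Fin n) (Fin n) (ZMod p)) ^ r = 1 := by
  have h1 : ρ x ^ r = 1 := by rw [← map_pow, ← hx, pow_orderOf_eq_one, map_one]
  have := congrArg (fun g : Matrix.GeneralLinearGroup (Fin n) (ZMod p) => (g : Matrix (Fin n) (Fin n) (ZMod p))) h1
  simpa using this

theorem ne_one_of_ord {H : Type*} [Group H] {p n : ℕ} [Fact p.Prime] {r : ℕ} (hr : r.Prime)
    (ρ : H →* Matrix.GeneralLinearGroup (Fin n) (ZMod p)) (hρ : Function.Injective ρ) (x : H) (hx : orderOf x = r) :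
    (ρ x : Matrix (Fin n) (Fin n) (ZMod p)) ≠ 1 := by
  intro h
  have h1 : ρ x = 1 := Units.ext h
  rw [← map_one ρ] at h1
  rw [hρ h1, orderOf_one] at hx
  exact hr.one_lt.ne hx

theorem cent_comm {H : Type*} [Group H] [Finite H] {p n : ℕ} [Fact p.Prime] (hn : 2 ≤ n) (r : ℕ) (hr : r.Prime)
    (hr1 : r ∣ p ^ n - 1) (hr2 : ∀ i, 1 ≤ i → i < n → ¬ r ∣ p ^ i - 1)
    (ρ : H →* Matrix.GeneralLinearGroup (Fin n) (ZMod p)) (hρ : Function.Injective ρ) (x : H) (hx : orderOf x = r)
    (a b : H) (ha : a * x = x * a) (hb : b * x = x * b) : a * b = b * a := by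
  obtain ⟨h1, h2⟩ := min_irr hn r hr hr1 hr2 _ (pow_of_ord ρ x hx) (ne_one_of_ord hr ρ hρ x hx)
  have hc : ∀ c : H, c * x = x * c → (ρ c : Matrix (Fin n) (Fin n) (ZMod p)) * ρ x = ρ x * ρ c := by
    intro c hc
    have := congrArg (fun g => ((ρ g : Matrix.GeneralLinearGroup (Fin n) (ZMod p)) : Matrix (Fin n) (Fin n) (ZMod p))) hc
    simpa using this
  obtain ⟨f, hf⟩ := cent_poly (by omega) _ h1 h2 _ (hc a ha)
  obtain ⟨g, hg⟩ := cent_poly (by omega) _ h1 h2 _ (hc b hb)
  apply hρ
  rw [map_mul, map_mul]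
  apply Units.ext
  rw [Units.val_mul, Units.val_mul, hf, hg, ← map_mul, ← map_mul, mul_comm]

theorem cent_cyclic {H : Type*} [Group H] [Finite H] {p n : ℕ} [Fact p.Prime] (hn : 2 ≤ n) (r : ℕ) (hr : r.Prime)
    (hr1 : r ∣ p ^ n - 1) (hr2 : ∀ i, 1 ≤ i → i < n → ¬ r ∣ p ^ i - 1)
    (ρ : H →* Matrix.GeneralLinearGroup (Fin n) (ZMod p)) (hρ : Function.Injective ρ) (x : H) (hx : orderOf x = r) :
    IsCyclic ↥(Subgroup.centralizer ({x} : Set H)) := by
  classical
  obtain ⟨h1, h2⟩ := min_irr hn r hr hr1 hr2 _ (pow_of_ord ρ x hx) (ne_one_of_ord hr ρ hρ x hx)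
  set M : Matrix (Fin n) (Fin n) (ZMod p) := (ρ x).val with hM
  set μ := minpoly (ZMod p) M with hμ
  haveI : Fact (Irreducible μ) := ⟨h1⟩
  have hc : ∀ c : ↥(Subgroup.centralizer ({x} : Set H)), ∃ f : (ZMod p)[X], (ρ (c : H)).val = aeval M f := by
    rintro ⟨c, hc⟩
    rw [Subgroup.mem_centralizer_singleton_iff] at hc
    apply cent_poly (by omega) _ h1 h2
    have := congrArg (fun g => (ρ g).val) hc
    simp only [map_mul, Units.val_mul] at this
    first
      | exact this
      | exact this.symm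
  choose f hf using hc
  have key : ∀ a b : (ZMod p)[X], aeval M a = aeval M b → AdjoinRoot.mk μ a = AdjoinRoot.mk μ b := by
    intro a b hab
    rw [AdjoinRoot.mk_eq_mk]
    apply minpoly.dvd
    rw [map_sub, hab, sub_self]
  let θ : ↥(Subgroup.centralizer ({x} : Set H)) →* AdjoinRoot μ :=
    { toFun := fun c => AdjoinRoot.mk μ (f c)
      map_one' := by
        rw [← map_one (AdjoinRoot.mk μ)]
        apply key
        rw [← hf, map_one]
        simp
      map_mul' := by
        intro a b
        rw [← map_mul]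
        apply key
        rw [← hf, map_mul, ← hf, ← hf]
        simp }
  refine isCyclic_of_subgroup_isDomain θ ?_
  intro a b hab
  have h3 : AdjoinRoot.mk μ (f a) = AdjoinRoot.mk μ (f b) := hab
  rw [AdjoinRoot.mk_eq_mk] at h3
  have h4 : aeval M (f a) = aeval M (f b) := by
    obtain ⟨q, hq⟩ := h3
    have := congrArg (aeval M) hq
    rw [map_sub, map_mul, minpoly.aeval, zero_mul] at this
    exact sub_eq_zero.1 this
  rw [← hf, ← hf] at h4
  exact Subtype.ext (hρ (Units.ext h4))

theorem index_le {H : Type*} [Group H] [Finite H] {p n : ℕ} [Fact p.Prime] (hn : 2 ≤ n) (r : ℕ) (hr : r.Prime)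
    (hr1 : r ∣ p ^ n - 1) (hr2 : ∀ i, 1 ≤ i → i < n → ¬ r ∣ p ^ i - 1)
    (ρ : H →* Matrix.GeneralLinearGroup (Fin n) (ZMod p)) (hρ : Function.Injective ρ) (x : H) (hx : orderOf x = r)
    (hN : (Subgroup.zpowers x).Normal) : (Subgroup.centralizer ({x} : Set H)).index ≤ n := by
  classical
  haveI : Fact r.Prime := ⟨hr⟩
  obtain ⟨h1, h2⟩ := min_irr hn r hr hr1 hr2 _ (pow_of_ord ρ x hx) (ne_one_of_ord hr ρ hρ x hx)
  set M : Matrix (Fin n) (Fin n) (ZMod p) := (ρ x).val with hM
  set μ := minpoly (ZMod p) M with hμ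
  haveI : Fact (Irreducible μ) := ⟨h1⟩
  let K := AdjoinRoot μ
  let α : K := AdjoinRoot.root μ
  have hMr : M ^ r = 1 := pow_of_ord ρ x hx
  have hα : α ^ r = 1 := by
    have h3 : μ ∣ X ^ r - 1 := by
      apply minpoly.dvd
      simp [hMr]
    have h2 : AdjoinRoot.mk μ (X ^ r - 1) = 0 := AdjoinRoot.mk_eq_zero.2 h3
    rw [map_sub, map_pow, AdjoinRoot.mk_X, map_one] at h2
    exact sub_eq_zero.1 h2
  have hα1 : α ≠ 1 := by
    intro h
    have h3 : AdjoinRoot.mk μ (X - 1) = 0 := by
      rw [map_sub, AdjoinRoot.mk_X, map_one]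
      exact sub_eq_zero.2 h
    have h4 : μ ∣ X - 1 := AdjoinRoot.mk_eq_zero.1 h3
    have h5 := Polynomial.natDegree_le_of_dvd h4 (by
      have := (monic_X_sub_C (1 : ZMod p)).ne_zero
      simpa using this)
    have h6 : (X - 1 : (ZMod p)[X]).natDegree = 1 := by
      have := natDegree_X_sub_C (1 : ZMod p)
      simpa using this
    omega
  have hord : orderOf α = r := orderOf_eq_prime hα hα1
  -- each conjugate is a power
  have hconj : ∀ h : H, ∃ j : ℕ, h * x * h⁻¹ = x ^ j := by
    intro h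
    have h3 := hN.conj_mem x (Subgroup.mem_zpowers x) h
    have h4 := mem_powers_iff_mem_zpowers.2 h3
    obtain ⟨j, hj⟩ := Submonoid.mem_powers_iff _ _ |>.1 h4
    exact ⟨j, hj.symm⟩
  choose j hj using hconj
  let f : H ⧸ Subgroup.centralizer ({x} : Set H) → K := fun q => α ^ j q.out
  have hf : Function.Injective f := by
    intro q q' hq
    have h3 : α ^ j q.out = α ^ j q'.out := hq
    have hα0 : α ≠ 0 := by
      intro h0
      rw [h0, zero_pow hr.pos.ne'] at hα
      exact zero_ne_one hα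
    have h4 : j q.out ≡ j q'.out [MOD r] := by
      have h7 : (Units.mk0 α hα0) ^ j q.out = (Units.mk0 α hα0) ^ j q'.out := by
        apply Units.ext
        rw [Units.val_pow_eq_pow_val, Units.val_pow_eq_pow_val]
        exact h3
      have h8 := pow_eq_pow_iff_modEq.1 h7
      rw [← orderOf_units, Units.val_mk0, hord] at h8
      exact h8
    have h5 : x ^ j q.out = x ^ j q'.out := by
      rw [pow_eq_pow_iff_modEq, hx]
      exact h4
    rw [← hj, ← hj] at h5
    rw [← q.out_eq', ← q'.out_eq']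
    apply QuotientGroup.eq.2
    rw [Subgroup.mem_centralizer_singleton_iff]
    have h6 : x * (q.out)⁻¹ * q'.out = (q.out)⁻¹ * q'.out * x := by
      have : (q.out)⁻¹ * (q.out * x * (q.out)⁻¹) * q'.out = (q.out)⁻¹ * (q'.out * x * (q'.out)⁻¹) * q'.out := by rw [h5]
      calc x * (q.out)⁻¹ * q'.out = (q.out)⁻¹ * (q.out * x * (q.out)⁻¹) * q'.out := by group
        _ = (q.out)⁻¹ * (q'.out * x * (q'.out)⁻¹) * q'.out := this
        _ = (q.out)⁻¹ * q'.out * x := by group
    first
      | exact h6.symm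
      | exact h6
      | (rw [← mul_assoc]; exact h6)
      | (rw [← mul_assoc]; exact h6.symm)
  have hroot : ∀ q, f q ∈ (μ.aroots K).toFinset := by
    intro q
    rw [Multiset.mem_toFinset, mem_aroots]
    refine ⟨h1.ne_zero, ?_⟩
    have h3 : μ ∣ μ.comp (X ^ j q.out) := by
      apply minpoly.dvd
      rw [aeval_comp, map_pow, aeval_X]
      have h4 : M ^ j q.out = (ρ q.out : Matrix (Fin n) (Fin n) (ZMod p)) * M * ((ρ q.out)⁻¹ : Matrix.GeneralLinearGroup (Fin n) (ZMod p)) := by
        have h5 := congrArg (fun g => ((ρ g : Matrix.GeneralLinearGroup (Fin n) (ZMod p)) : Matrix (Fin n) (Fin n) (ZMod p))) (hj q.out)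
        simp only [map_mul, map_inv, map_pow, Units.val_mul, Units.val_pow_eq_pow_val] at h5
        exact h5.symm
      rw [h4]
      have h6 : ∀ g : (ZMod p)[X], aeval ((ρ q.out : Matrix (Fin n) (Fin n) (ZMod p)) * M * ((ρ q.out)⁻¹ : Matrix.GeneralLinearGroup (Fin n) (ZMod p))) g =
          (ρ q.out : Matrix (Fin n) (Fin n) (ZMod p)) * aeval M g * ((ρ q.out)⁻¹ : Matrix.GeneralLinearGroup (Fin n) (ZMod p)) := by
        intro g
        have hinv : (((ρ q.out)⁻¹ : Matrix.GeneralLinearGroup (Fin n) (ZMod p)) : Matrix (Fin n) (Fin n) (ZMod p)) * (ρ q.out : Matrix (Fin n) (Fin n) (ZMod p)) = 1 := by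
          rw [← Units.val_mul, inv_mul_cancel, Units.val_one]
        have hinv' : (ρ q.out : Matrix (Fin n) (Fin n) (ZMod p)) * (((ρ q.out)⁻¹ : Matrix.GeneralLinearGroup (Fin n) (ZMod p)) : Matrix (Fin n) (Fin n) (ZMod p)) = 1 := by
          rw [← Units.val_mul, mul_inv_cancel, Units.val_one]
        induction g using Polynomial.induction_on with
        | C a =>
          rw [aeval_C, aeval_C, ← Algebra.commutes, mul_assoc, hinv', mul_one]
        | add p q hp hq =>
          rw [map_add, map_add, hp, hq, mul_add, add_mul]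
        | monomial k a ih =>
          have e1 : ∀ N : Matrix (Fin n) (Fin n) (ZMod p), aeval N (C a * X ^ (k + 1)) = aeval N (C a * X ^ k) * N := by
            intro N
            rw [pow_succ, ← mul_assoc, map_mul, aeval_X]
          rw [e1, e1, ih]
          simp only [mul_assoc]
          rw [← mul_assoc _ (ρ q.out : Matrix (Fin n) (Fin n) (ZMod p)) (M * _), hinv, one_mul]
      rw [h6, minpoly.aeval, mul_zero, zero_mul]
    have h4 : aeval α (μ.comp (X ^ j q.out)) = 0 := by
      obtain ⟨q', hq'⟩ := h3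
      rw [hq', map_mul]
      have : aeval α μ = 0 := by
        rw [AdjoinRoot.aeval_eq]
        exact AdjoinRoot.mk_self
      rw [this, zero_mul]
    rw [aeval_comp, map_pow, aeval_X] at h4
    exact h4
  have hcard : Nat.card (H ⧸ Subgroup.centralizer ({x} : Set H)) ≤ (μ.aroots K).toFinset.card := by
    have := Nat.card_le_card_of_injective (fun q => (⟨f q, hroot q⟩ : {y // y ∈ (μ.aroots K).toFinset}))
      (fun a b hab => hf (congrArg Subtype.val hab))
    rw [Nat.card_eq_fintype_card (α := {y // y ∈ (μ.aroots K).toFinset}), Fintype.card_coe] at this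
    exact this
  change Nat.card (H ⧸ Subgroup.centralizer ({x} : Set H)) ≤ n
  refine hcard.trans ((Multiset.toFinset_card_le _).trans ?_)
  refine (Polynomial.card_roots' _).trans ?_
  rw [natDegree_map, h2]

/-- class counting for a normal abelian subgroup -/
theorem abelC {H : Type*} [Group H] [Finite H] (A : Subgroup H) (hA : ∀ a ∈ A, ∀ b ∈ A, a * b = b * a) :
    Nat.card A ≤ A.index * Nat.card (ConjClasses H) := by
  classical
  haveI : Fintype H := Fintype.ofFinite H
  haveI : Fintype (ConjClasses H) := Fintype.ofFinite _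
  haveI : Fintype (H ⧸ A) := Fintype.ofFinite _
  have h1 := Finset.card_le_mul_card_image (f := fun a : A => ConjClasses.mk (a : H)) Finset.univ A.index (by
    intro c hc
    obtain ⟨a, -, ha⟩ := Finset.mem_image.1 hc
    have hex : ∀ b : A, ConjClasses.mk (b : H) = c → ∃ h : H, h * (a : H) * h⁻¹ = b := by
      intro b hb
      rw [← ha, ConjClasses.mk_eq_mk_iff_isConj] at hb
      exact isConj_iff.1 hb.symm
    choose! g hg using hex
    have h2 : (Finset.univ.filter (fun b : A => ConjClasses.mk (b : H) = c)).card ≤ (Finset.univ : Finset (H ⧸ A)).card := by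
      apply Finset.card_le_card_of_injOn (fun b : A => ((g b : H) : H ⧸ A))
      · intro b _
        exact Finset.mem_coe.2 (Finset.mem_univ _)
      · intro b hb b' hb' hbb
        have hb1 := (Finset.mem_filter.1 (Finset.mem_coe.1 hb)).2
        have hb1' := (Finset.mem_filter.1 (Finset.mem_coe.1 hb')).2
        have h3 : (g b)⁻¹ * g b' ∈ A := QuotientGroup.eq.1 hbb
        have h4 := hA _ h3 _ a.2
        apply Subtype.ext
        rw [← hg b hb1, ← hg b' hb1']
        calc g b * (a : H) * (g b)⁻¹ = g b * ((a : H) * ((g b)⁻¹ * g b')) * (g b')⁻¹ := by group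
          _ = g b * (((g b)⁻¹ * g b') * (a : H)) * (g b')⁻¹ := by rw [h4]
          _ = g b' * (a : H) * (g b')⁻¹ := by group
    rw [Finset.card_univ, ← Nat.card_eq_fintype_card] at h2
    exact h2)
  rw [Finset.card_univ, ← Nat.card_eq_fintype_card] at h1
  refine h1.trans (Nat.mul_le_mul_left _ ?_)
  rw [Nat.card_eq_fintype_card, ← Finset.card_univ]
  exact Finset.card_le_card (Finset.subset_univ _)

theorem num_semi {p : ℕ} (hp5 : 5 ≤ p) : ∀ n : ℕ, 2 ≤ n → n ^ 2 + 1 ≤ p ^ (n - 1) := by
  intro n hn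
  induction n, hn using Nat.le_induction with
  | base => simpa using hp5
  | succ n hn ih =>
    have h1 : p ^ (n + 1 - 1) = p ^ (n - 1) * p := by
      rw [← pow_succ]
      congr 1
      omega
    rw [h1]
    nlinarith

theorem semi {H : Type*} [Group H] [Finite H] {p n : ℕ} [Fact p.Prime] (hp5 : 5 ≤ p) (hn : 2 ≤ n) (r : ℕ) (hr : r.Prime)
    (hr1 : r ∣ p ^ n - 1) (hr2 : ∀ i, 1 ≤ i → i < n → ¬ r ∣ p ^ i - 1)
    (ρ : H →* Matrix.GeneralLinearGroup (Fin n) (ZMod p)) (hρ : Function.Injective ρ) (x : H) (hx : orderOf x = r)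
    (hcard : p ^ n - 1 ≤ Nat.card H) (hN : (Subgroup.zpowers x).Normal) : p ≤ Nat.card (ConjClasses H) := by
  set A := Subgroup.centralizer ({x} : Set H) with hA
  have hi : A.index ≤ n := index_le hn r hr hr1 hr2 ρ hρ x hx hN
  have h1 := abelC A (fun a ha b hb => by
    apply cent_comm hn r hr hr1 hr2 ρ hρ x hx
    · have := Subgroup.mem_centralizer_singleton_iff.1 ha
      first
        | exact this
        | exact this.symm
    · have := Subgroup.mem_centralizer_singleton_iff.1 hb
      first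
        | exact this
        | exact this.symm)
  have h2 : Nat.card H = Nat.card A * A.index := (Subgroup.card_mul_index A).symm
  have h3 : Nat.card H ≤ n ^ 2 * Nat.card (ConjClasses H) := by
    rw [h2]
    calc Nat.card A * A.index ≤ (A.index * Nat.card (ConjClasses H)) * A.index := Nat.mul_le_mul_right _ h1
      _ = A.index * A.index * Nat.card (ConjClasses H) := by ring
      _ ≤ n * n * Nat.card (ConjClasses H) := Nat.mul_le_mul_right _ (Nat.mul_le_mul hi hi)
      _ = n ^ 2 * Nat.card (ConjClasses H) := by ring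
  have h4 := num_semi hp5 n hn
  have h5 : p ^ n = p ^ (n - 1) * p := by
    rw [← pow_succ]
    congr 1
    omega
  have h6 : p * n ^ 2 + 1 ≤ p ^ n := by
    rw [h5]
    nlinarith
  by_contra hlt
  push Not at hlt
  have h7 : n ^ 2 * Nat.card (ConjClasses H) ≤ n ^ 2 * (p - 1) := Nat.mul_le_mul_left _ (by omega)
  have h8 : n ^ 2 * (p - 1) < p * n ^ 2 := by
    rw [mul_comm p]
    exact Nat.mul_lt_mul_of_pos_left (by omega) (by positivity)
  omega

end Cfsg.Agent.Lib.KPRC
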