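import Mathlib
import Cfsg.Agent.Lib.KPR0
import Cfsg.Agent.Lib.ClSL2Syl

/-! Piece D of S4878 (helper2): numerical exclusion of `PSL(2, 2n+1)`. -/

set_option autoImplicit false
set_option linter.all false
set_option maxHeartbeats 400000

namespace Cfsg.Agent.Lib.KPRD

open Cfsg.Agent.Lib.KPR

theorem center_le' {H : Type*} [Group H] [Finite H] : Nat.card (Subgroup.center H) ≤ Nat.card (ConjClasses H) := by
  apply Nat.card_le_card_of_injective (fun z : Subgroup.center H => ConjClasses.mk (z : H))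
  intro a b h
  obtain ⟨c, hc⟩ := isConj_iff.1 (ConjClasses.mk_eq_mk_iff_isConj.1 h)
  apply Subtype.ext
  rw [← hc, Subgroup.mem_center_iff.1 a.2 c]
  group

theorem growth (n : ℕ) (hn : 6 ≤ n) : 2 * n * (n + 1) * (2 * n + 1) < 5 ^ (n - 1) := by
  induction n, hn using Nat.le_induction with
  | base => norm_num
  | succ k hk ih =>
    have h1 : k + 1 - 1 = (k - 1) + 1 := by omega
    rw [h1, pow_succ]
    have h2 : 2 * (k + 1) * (k + 1 + 1) * (2 * (k + 1) + 1) ≤ 5 * (2 * k * (k + 1) * (2 * k + 1)) := by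
      nlinarith [Nat.zero_le k, mul_self_nonneg (k : ℤ), Nat.mul_le_mul hk hk]
    omega

theorem psl {H : Type*} [Group H] [Finite H] (p n : ℕ) [Fact p.Prime] (hp5 : 5 ≤ p) (hn : 3 ≤ n) (hpH : ¬ p ∣ Nat.card H)
    (hd : p ^ n - 1 ∣ Nat.card H) (r : ℕ) [Fact r.Prime] (hrn : r = 2 * n + 1)
    (e : (H ⧸ Subgroup.center H) ≃* Matrix.ProjectiveSpecialLinearGroup (Fin 2) (ZMod r)) :
    p ≤ Nat.card (ConjClasses H) := by
  by_contra hlt
  push Not at hlt
  have hz : Nat.card (Subgroup.center H) ≤ p - 1 := by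
    have := center_le' (H := H); omega
  have hz0 : 0 < Nat.card (Subgroup.center H) := Nat.card_pos
  have hcard : Nat.card H = Nat.card (Matrix.ProjectiveSpecialLinearGroup (Fin 2) (ZMod r)) * Nat.card (Subgroup.center H) := by
    rw [Subgroup.card_eq_card_quotient_mul_card_subgroup (Subgroup.center H), Nat.card_congr e.toEquiv]
  have hs : Nat.card (Matrix.ProjectiveSpecialLinearGroup (Fin 2) (ZMod r)) = 2 * n * (n + 1) * (2 * n + 1) := by
    have h := ClSL2Syl.card_PSL2 (F := ZMod r) (by rw [ZMod.card, hrn]; exact ⟨n, rfl⟩)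
    rw [ZMod.card] at h
    have h2 : r ^ 2 - 1 = 4 * n * (n + 1) := by
      rw [hrn]
      have : (2 * n + 1) ^ 2 = 4 * n * (n + 1) + 1 := by ring
      rw [this]; rfl
    rw [h2] at h
    have h3 : r * (4 * n * (n + 1)) = 2 * (2 * n * (n + 1) * (2 * n + 1)) := by
      rw [hrn]; ring
    rw [h3] at h
    have h4 : 0 < 2 := by norm_num
    exact Nat.eq_of_mul_eq_mul_left h4 h
  rw [hs] at hcard
  set z := Nat.card (Subgroup.center H) with hzdef
  have hpos : 0 < Nat.card H := Nat.card_pos
  -- the geometric sum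
  obtain ⟨q, rfl⟩ : ∃ q, p = q + 1 := ⟨p - 1, by omega⟩
  have hgeom := geom_sum_mul_add q n
  have hG : (∑ i ∈ Finset.range n, (q + 1) ^ i) * q = (q + 1) ^ n - 1 := by omega
  have hle : (∑ i ∈ Finset.range n, (q + 1) ^ i) ≤ 2 * n * (n + 1) * (2 * n + 1) := by
    have h1 : (q + 1) ^ n - 1 ≤ Nat.card H := Nat.le_of_dvd hpos hd
    rw [← hG, hcard] at h1
    have h2 : 2 * n * (n + 1) * (2 * n + 1) * z ≤ 2 * n * (n + 1) * (2 * n + 1) * q := Nat.mul_le_mul_left _ (by omega)
    have hq : 0 < q := by omega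
    exact Nat.le_of_mul_le_mul_right (h1.trans h2) hq
  have hlow : ∀ k, k < n → (q + 1) ^ k ≤ (∑ i ∈ Finset.range n, (q + 1) ^ i) := fun k hk =>
    Finset.single_le_sum (f := fun i => (q + 1) ^ i) (fun _ _ => Nat.zero_le _) (Finset.mem_range.2 hk)
  rcases Nat.lt_or_ge n 6 with h6 | h6
  · interval_cases n
    · -- n = 3
      simp only [Finset.sum_range_succ, Finset.sum_range_zero] at hle
      have hq : q ≤ 11 := by nlinarith
      have hprime : (q + 1).Prime := Fact.out
      have hq4 : 4 ≤ q := by omega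
      interval_cases q
      · have hz4 : z ≤ 4 := by omega
        rw [hcard] at hd
        clear_value z
        interval_cases z <;> revert hd <;> norm_num
      · norm_num at hprime
      · rw [hcard] at hpH
        exact hpH (Dvd.dvd.mul_right (by norm_num) _)
      · norm_num at hprime
      · norm_num at hprime
      · norm_num at hprime
      · have hz4 : z ≤ 10 := by omega
        rw [hcard] at hd
        clear_value z
        interval_cases z <;> revert hd <;> norm_num
      · norm_num at hprime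
    · -- n = 4
      have : Nat.Prime r := Fact.out
      rw [hrn] at this
      norm_num at this
    · -- n = 5
      simp only [Finset.sum_range_succ, Finset.sum_range_zero] at hle
      have h4 : 5 ≤ q + 1 := hp5
      have h1 : 5 ^ 4 ≤ (q + 1) ^ 4 := Nat.pow_le_pow_left h4 4
      have h2 : 5 ^ 3 ≤ (q + 1) ^ 3 := Nat.pow_le_pow_left h4 3
      omega
  · have h1 := hlow (n - 1) (by omega)
    have h2 := growth n h6
    have h3 : 5 ^ (n - 1) ≤ (q + 1) ^ (n - 1) := Nat.pow_le_pow_left hp5 _
    omega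

end Cfsg.Agent.Lib.KPRD
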