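import Cfsg.Agent.Lib.UnifCent7
import Cfsg.Prelude.Def_Blocks

/-!
# Small degrees and uniform centralizers: the final statements (helper74)
-/

set_option autoImplicit false
set_option linter.all false

namespace Cfsg.Agent.Lib.UnifCent

open Cfsg Cfsg.Agent.Lib Cfsg.Agent.Lib.CharBasic
open scoped ComplexConjugate commutatorElement

universe u

variable {G : Type u} [Group G] [Finite G] {p : ℕ} [hp : Fact p.Prime]

theorem charDegree_eq_dg (χ : IrrCharacter G) : charDegree (χ : G → ℂ) = dg χ := by
  rw [charDegree, dg_spec, Complex.natCast_re, Nat.floor_natCast]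

theorem alternative (P : Sylow p G)
    (hstar : ∀ x ∈ (P : Subgroup G), x ≠ 1 →
      Subgroup.centralizer ({x} : Set G) = Subgroup.centralizer ((P : Subgroup G) : Set G))
    (hgen : ∀ K : Subgroup G, K.Normal → (P : Subgroup G) ≤ K → K = ⊤)
    (χ : IrrCharacter G) (h1 : (χ : G → ℂ) ≠ 1) (hs : dg χ ^ 2 + 1 < Nat.card P) :
    (∃ K : Subgroup G, K.Normal ∧ K.index = Nat.card P) ∧ dg χ = 1 := by
  classical
  haveI := Fintype.ofFinite G
  obtain ⟨D⟩ := exists_loc P hstar
  set C := Subgroup.centralizer ((P : Subgroup G) : Set G) with hC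
  set N := Subgroup.normalizer ((P : Subgroup G) : Set G) with hN
  haveI := Fintype.ofFinite C
  haveI := Fintype.ofFinite N
  haveI : Fintype (P : Subgroup G) := Fintype.ofFinite _
  haveI := LinChar.finite_hom (Loc.comm D)
  haveI : Fintype ((P : Subgroup G) →* ℂˣ) := Fintype.ofFinite _
  have hb := bb_lt D hgen h1
  have hk : ∃ (ξ : I0 D) (lam : (P : Subgroup G) →* ℂˣ), lam ≠ 1 ∧ m χ (twI D ξ.1 lam) ≠ 0 := by
    by_contra hcon
    push Not at hcon
    have h2 := dg_eq' D χ
    have h3 : ∑ ξ : I0 D, kap D χ ξ.1 * dg ξ.1 = 0 := by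
      refine Finset.sum_eq_zero fun ξ _ => ?_
      have h4 : kap D χ ξ.1 = 0 := by
        unfold kap
        refine Finset.sum_eq_zero fun μ hμ => hcon ξ μ (Finset.mem_erase.1 hμ).1
      rw [h4, zero_mul]
    omega
  obtain ⟨ξ, lam, hlam, hm⟩ := hk
  obtain ⟨e1, -, e3⟩ := main D hgen hs ξ hlam hm
  have hNC : N ≤ C := by
    have h2 : C = N := Subgroup.eq_of_le_of_card_ge D.CN e1.le
    exact h2.ge
  obtain ⟨L, hL, -⟩ := exists_retract P hNC
  have hd := degree_one D (fun n hn => hNC hn) hs L hL hlam hm e3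
  refine ⟨⟨L.ker, inferInstance, ?_⟩, hd⟩
  rw [Subgroup.index_ker]
  have h2 : L.range = ⊤ := by
    rw [eq_top_iff]
    intro x _
    exact ⟨x, hL x⟩
  rw [h2]
  exact Subgroup.card_top

theorem normal_of_small : ∀ (n : ℕ) (G : Type u) [Group G] [Finite G] (hn : Nat.card G = n) (P : Sylow p G)
    (hstar : ∀ x ∈ (P : Subgroup G), x ≠ 1 →
      Subgroup.centralizer ({x} : Set G) = Subgroup.centralizer ((P : Subgroup G) : Set G))
    (χ : G → ℂ) (hχ : IsCharacter G χ) (hfaith : ∀ g, χ g = χ 1 → g = 1) (d : ℕ) (hd : χ 1 = d)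
    (hs : d ^ 2 + 1 < Nat.card P), (P : Subgroup G).Normal := by
  intro n
  induction n using Nat.strong_induction_on with
  | _ n ih =>
  intro G _ _ hn P hstar χ hχ hfaith d hd hs
  classical
  by_cases hK : ∃ K : Subgroup G, K.Normal ∧ K ≠ ⊤ ∧ (P : Subgroup G) ≤ K
  · obtain ⟨K, hKn, hKt, hPK⟩ := hK
    have hlt : Nat.card K < n := by
      rw [← hn]
      exact lt_of_le_of_ne (Subgroup.card_le_card_group K) fun h => hKt (Subgroup.card_eq_iff_eq_top K |>.1 h)
    set P' : Sylow p K := P.subtype hPK with hP'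
    have hmem : ∀ c : K, c ∈ (P' : Subgroup K) ↔ (c : G) ∈ (P : Subgroup G) := fun c => Iff.rfl
    have hcard : Nat.card P' = Nat.card P := by
      have h1 : (P' : Subgroup K) = (P : Subgroup G).subgroupOf K := rfl
      exact Nat.card_congr (Subgroup.subgroupOfEquivOfLe hPK).toEquiv
    have hstar' : ∀ x ∈ (P' : Subgroup K), x ≠ 1 →
        Subgroup.centralizer ({x} : Set K) = Subgroup.centralizer ((P' : Subgroup K) : Set K) := by
      intro x hx hx1
      have h1 := hstar (x : G) hx (fun h => hx1 (Subtype.ext h))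
      ext y
      rw [Subgroup.mem_centralizer_singleton_iff, Subgroup.mem_centralizer_iff]
      constructor
      · intro h z hz
        have h2 : (y : G) ∈ Subgroup.centralizer ({(x : G)} : Set G) :=
          Subgroup.mem_centralizer_singleton_iff.2 (congrArg Subtype.val h)
        rw [h1, Subgroup.mem_centralizer_iff] at h2
        exact Subtype.ext (h2 z hz)
      · intro h
        exact (h x hx).symm
    have h1 := ih (Nat.card K) hlt K rfl P' hstar' (fun k : K => χ k) (hχ.restrict K)
      (fun k hk => Subtype.ext (hfaith k hk)) d hd (by rw [hcard]; exact hs)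
    have h2 : (P' : Subgroup K).Characteristic := Sylow.characteristic_of_normal P' h1
    have h3 : ((P' : Subgroup K).map K.subtype).Normal := inferInstance
    have h4 : (P' : Subgroup K).map K.subtype = (P : Subgroup G) := by
      change ((P : Subgroup G).subgroupOf K).map K.subtype = _
      exact Subgroup.map_subgroupOf_eq_of_le hPK
    rwa [h4] at h3
  · push Not at hK
    have hgen : ∀ K : Subgroup G, K.Normal → (P : Subgroup G) ≤ K → K = ⊤ := by
      intro K hK1 hK2
      by_contra h
      exact hK K hK1 h hK2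
    haveI := Fintype.ofFinite G
    have hlin : ∀ ζ : IrrCharacter G, classInner χ (ζ : G → ℂ) ≠ 0 → dg ζ = 1 := by
      intro ζ hζ
      by_cases h1 : (ζ : G → ℂ) = 1
      · have h2 := dg_spec ζ
        rw [h1, Pi.one_apply] at h2
        exact_mod_cast h2.symm
      · have h2 := (Clifford.degree_le_of_constituent' hχ ζ.2 hζ hd (dg_spec ζ)).1
        exact (alternative P hstar hgen ζ h1 (by nlinarith)).2
    have hab : ∀ a b : G, a * b = b * a := by
      intro a b
      have h1 : ⁅a, b⁆ = 1 := by
        apply hfaith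
        rw [hχ.isClassFunction.expansion_apply, hχ.isClassFunction.expansion_apply 1]
        refine Finset.sum_congr rfl fun ζ _ => ?_
        by_cases hζ : classInner χ (ζ : G → ℂ) = 0
        · rw [hζ, zero_mul, zero_mul]
        · have h2 : (ζ : G → ℂ) 1 = 1 := by rw [dg_spec, hlin ζ hζ]; simp
          rw [h2, ζ.2.isCharacter.eq_one_on_commutator h2
            (Subgroup.commutator_mem_commutator (Subgroup.mem_top a) (Subgroup.mem_top b))]
      exact commutatorElement_eq_one_iff_mul_comm.1 h1
    refine ⟨fun x hx g => ?_⟩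
    rw [hab g x, mul_inv_cancel_right]
    exact hx

end Cfsg.Agent.Lib.UnifCent
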