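import Cfsg.Agent.Lib.KPRA
import Cfsg.Agent.Lib.KPRB
import Cfsg.Agent.Lib.KPRC
import Cfsg.Agent.Lib.KPRD
import Cfsg.Agent.S3430
import Cfsg.Agent.S4485
import Cfsg.Agent.S4503
import Cfsg.Agent.S4504

/-! Piece E of S4878 (helper61): dimension at least three. -/

set_option autoImplicit false

open Cfsg.Agent.Lib.KPR

namespace Cfsg.Agent.Lib.KPRE

theorem dvd_sub_one {p n r : ℕ} (hp : p.Prime) (hn : 1 ≤ n) (hr : r.Prime) (hr1 : r ∣ p ^ n - 1)
    (hr2 : ∀ i, 1 ≤ i → i < n → ¬ r ∣ p ^ i - 1) : n ∣ r - 1 := by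
  have hpr : ¬ r ∣ p := by
    intro h
    have h1 : r ∣ p ^ n := dvd_pow h (by omega)
    have h2 : 1 ≤ p ^ n := Nat.one_le_pow _ _ hp.pos
    have h3 : r ∣ p ^ n - (p ^ n - 1) := Nat.dvd_sub h1 hr1
    rw [Nat.sub_sub_self h2] at h3
    exact hr.one_lt.ne' (Nat.dvd_one.mp h3)
  have hcop : Nat.Coprime p r := ((Nat.Prime.coprime_iff_not_dvd hr).mpr hpr).symm
  have h4 : r ∣ p ^ (r - 1) - 1 := by
    have := Nat.ModEq.pow_totient hcop
    rw [Nat.totient_prime hr] at this
    exact (Nat.modEq_iff_dvd' (Nat.one_le_pow _ _ hp.pos)).mp this.symm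
  have h5 : r ∣ p ^ (Nat.gcd n (r - 1)) - 1 := by
    rw [← Nat.pow_sub_one_gcd_pow_sub_one]
    exact Nat.dvd_gcd hr1 h4
  have hg : 1 ≤ Nat.gcd n (r - 1) := Nat.gcd_pos_of_pos_left _ (by omega)
  have hg2 : Nat.gcd n (r - 1) ≤ n := Nat.gcd_le_left _ (by omega)
  by_contra hcon
  have hne : Nat.gcd n (r - 1) ≠ n := fun h => hcon (Nat.gcd_eq_left_iff_dvd.mp h)
  exact hr2 _ hg (lt_of_le_of_ne hg2 hne) h5

theorem mem_zpowers_of_cyclic {C : Type*} [Group C] [Finite C] [IsCyclic C] (x y : C) {r : ℕ}
    (hr : 0 < r) (hx : orderOf x = r) (hy : y ^ r = 1) : y ∈ Subgroup.zpowers x := by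
  classical
  have : Fintype C := Fintype.ofFinite C
  have h1 := IsCyclic.card_pow_eq_one_le (α := C) (n := r) hr
  have hsub : (Finset.range r).image (fun i => x ^ i) ⊆
      Finset.univ.filter (fun a : C => a ^ r = 1) := by
    intro a ha
    obtain ⟨i, -, rfl⟩ := Finset.mem_image.mp ha
    simp only [Finset.mem_filter, Finset.mem_univ, true_and]
    rw [← pow_mul, mul_comm, pow_mul, ← hx, pow_orderOf_eq_one, one_pow]
  have hcard : ((Finset.range r).image (fun i => x ^ i)).card = r := by
    rw [Finset.card_image_of_injOn, Finset.card_range]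
    intro a ha b hb hab
    simp only [Finset.coe_range, Set.mem_Iio] at ha hb
    exact pow_injOn_Iio_orderOf (by simpa [hx] using ha) (by simpa [hx] using hb) hab
  have heq := Finset.eq_of_subset_of_card_le hsub (by rw [hcard]; exact h1)
  have hy' : y ∈ Finset.univ.filter (fun a : C => a ^ r = 1) := by simpa using hy
  rw [← heq] at hy'
  obtain ⟨i, -, rfl⟩ := Finset.mem_image.mp hy'
  exact Subgroup.npow_mem_zpowers x i

theorem main3 {H : Type*} [Group H] [Finite H] (p n : ℕ) [Fact p.Prime] (hp5 : 5 ≤ p) (hn : 3 ≤ n)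
    (ρ : H →* Matrix.GeneralLinearGroup (Fin n) (ZMod p)) (hρ : Function.Injective ρ)
    (hpH : ¬ p ∣ Nat.card H) (hd : p ^ n - 1 ∣ Nat.card H) : p ≤ Nat.card (ConjClasses H) := by
  classical
  have hpp : p.Prime := Fact.out
  have hHpos : 0 < Nat.card H := Nat.card_pos
  have hle : p ^ n - 1 ≤ Nat.card H := Nat.le_of_dvd hHpos hd
  by_cases h56 : p = 5 ∧ n = 6
  · obtain ⟨rfl, rfl⟩ := h56
    have := KPRA.orders (H := H) {2, 3, 7, 31} (by
      intro r hr
      simp only [Finset.mem_insert, Finset.mem_singleton] at hr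
      rcases hr with rfl | rfl | rfl | rfl
      · exact ⟨by norm_num, dvd_trans (by norm_num) hd⟩
      · exact ⟨by norm_num, dvd_trans (by norm_num) hd⟩
      · exact ⟨by norm_num, dvd_trans (by norm_num) hd⟩
      · exact ⟨by norm_num, dvd_trans (by norm_num) hd⟩)
    simpa using this
  obtain ⟨r, hr, hr1, hr2, hr3⟩ := Cfsg.Agent.S3430.result p n (by omega) (by omega)
    (by rintro ⟨h, -⟩; omega) (by rintro ⟨h, -⟩; omega) (by rintro ⟨h, -⟩; omega) h56
  have hrF : Fact r.Prime := ⟨hr⟩
  have hrH : r ∣ Nat.card H := hr1.trans hd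
  have key : (∃ x : H, orderOf x = r ∧ (Subgroup.zpowers x).Normal) →
      p ≤ Nat.card (ConjClasses H) := by
    rintro ⟨x, hx, hN⟩
    exact KPRC.semi hp5 (by omega) r hr hr1 hr2 ρ hρ x hx hle hN
  obtain ⟨χ, hχ, hχf, hχd⟩ := KPRB.lift p n hpH ρ hρ
  by_cases hsq : r ^ 2 ∣ Nat.card H
  · -- the Sylow `r`-subgroup is normal
    obtain ⟨R⟩ : Nonempty (Sylow r H) := inferInstance
    have hRcard : Nat.card R = r ^ (Nat.card H).factorization r := Sylow.card_eq_multiplicity R
    set k := (Nat.card H).factorization r with hk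
    have hk2 : 2 ≤ k := (hr.pow_dvd_iff_le_factorization hHpos.ne').mp hsq
    have hRr : IsPGroup r R := R.2
    have hRnt : Nontrivial R := by
      rw [← Finite.one_lt_card_iff_nontrivial, hRcard]
      exact Nat.one_lt_pow (by omega) hr.one_lt
    -- a central element of order `r`
    obtain ⟨z, hz⟩ : ∃ z : Subgroup.center R, orderOf z = r := by
      have hc : Nontrivial (Subgroup.center R) := hRr.center_nontrivial
      have hcp : IsPGroup r (Subgroup.center R) := hRr.to_subgroup _
      obtain ⟨m, hm⟩ := IsPGroup.iff_card.mp hcp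
      have hm0 : m ≠ 0 := by
        rintro rfl
        rw [pow_zero] at hm
        have := Finite.one_lt_card_iff_nontrivial.mpr hc
        omega
      exact exists_prime_orderOf_dvd_card' r (hm ▸ dvd_pow_self r hm0)
    set x0 : H := ((z : R) : H) with hx0
    have hx0o : orderOf x0 = r := by
      rw [hx0, Subgroup.orderOf_coe, Subgroup.orderOf_coe, hz]
    have hx0R : x0 ∈ (R : Subgroup H) := (z : R).2
    have hRcent : (R : Subgroup H) ≤ Subgroup.centralizer ({x0} : Set H) := by
      intro y hy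
      rw [Subgroup.mem_centralizer_singleton_iff]
      have := Subgroup.mem_center_iff.mp z.2 ⟨y, hy⟩
      exact (congrArg (Subtype.val) this)
    have hcyc : IsCyclic ↥(Subgroup.centralizer ({x0} : Set H)) :=
      KPRC.cent_cyclic (by omega) r hr hr1 hr2 ρ hρ x0 hx0o
    have hRcyc : IsCyclic (R : Subgroup H) :=
      isCyclic_of_injective (Subgroup.inclusion hRcent) (Subgroup.inclusion_injective hRcent)
    have hRab : ∀ a ∈ (R : Subgroup H), ∀ b ∈ (R : Subgroup H), a * b = b * a := by
      intro a ha b hb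
      have := (IsCyclic.commGroup (α := (R : Subgroup H))).mul_comm ⟨a, ha⟩ ⟨b, hb⟩
      exact congrArg Subtype.val this
    have hstar : ∀ x ∈ (R : Subgroup H), x ≠ 1 →
        Subgroup.centralizer ({x} : Set H) = Subgroup.centralizer ((R : Subgroup H) : Set H) := by
      intro x hx hx1
      -- a power of `x` of order `r`
      have hxo : ∃ m : ℕ, orderOf (x ^ m) = r := by
        obtain ⟨j, hj⟩ := (IsPGroup.iff_orderOf.mp hRr) ⟨x, hx⟩
        rw [Subgroup.orderOf_mk] at hj
        have hj0 : j ≠ 0 := by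
          rintro rfl
          rw [pow_zero, orderOf_eq_one_iff] at hj
          exact hx1 hj
        exact ⟨orderOf x / r, orderOf_pow_orderOf_div (orderOf_pos x).ne'
          (hj ▸ dvd_pow_self r hj0)⟩
      obtain ⟨m, hm⟩ := hxo
      apply le_antisymm
      · intro c hc
        rw [Subgroup.mem_centralizer_singleton_iff] at hc
        rw [Subgroup.mem_centralizer_iff]
        intro y hy
        have h1 : c * x ^ m = x ^ m * c := (Commute.pow_right (show Commute c x from hc) m).eq
        have h2 : y * x ^ m = x ^ m * y := (Commute.pow_right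
          (show Commute y x from hRab y hy x hx) m).eq
        exact KPRC.cent_comm (by omega) r hr hr1 hr2 ρ hρ (x ^ m) hm y c h2 h1
      · exact Subgroup.centralizer_le (Set.singleton_subset_iff.mpr hx)
    have hnorm : (R : Subgroup H).Normal := by
      refine Cfsg.Agent.S4485.result r hr hrH R hstar k hRcard χ hχ hχf ?_
      rw [hχd]
      have h1 : r ^ 2 ≤ r ^ k := Nat.pow_le_pow_right hr.pos hk2
      have h2 : n + 1 ≤ r := by
        have := Nat.le_of_dvd (by have := hr.two_le; omega)
          (dvd_sub_one hpp (by omega) hr hr1 hr2)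
        omega
      nlinarith
    apply key
    refine ⟨x0, hx0o, ⟨?_⟩⟩
    intro y hy h
    have hyR : y ∈ (R : Subgroup H) := (Subgroup.zpowers_le.mpr hx0R) hy
    have h1 : h * y * h⁻¹ ∈ (R : Subgroup H) := hnorm.conj_mem y hyR h
    have h2 : y ^ r = 1 := by
      obtain ⟨i, rfl⟩ := hy
      show (x0 ^ i) ^ r = 1
      rw [← zpow_natCast, ← zpow_mul, mul_comm, zpow_mul, zpow_natCast, ← hx0o,
        pow_orderOf_eq_one, one_zpow]
    have h3 := mem_zpowers_of_cyclic (C := (R : Subgroup H)) ⟨x0, hx0R⟩ ⟨h * y * h⁻¹, h1⟩ hr.pos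
      (by rw [Subgroup.orderOf_mk, hx0o]) (by
        apply Subtype.ext
        show (h * y * h⁻¹) ^ r = 1
        rw [conj_pow, h2, mul_one, mul_inv_cancel])
    obtain ⟨i, hi⟩ := h3
    refine ⟨i, ?_⟩
    have := congrArg Subtype.val hi
    simpa using this
  · by_cases hN : ∃ K : Subgroup H, K.Normal ∧ Nat.card K = r
    · obtain ⟨K, hK, hKr⟩ := hN
      apply key
      have hKc : IsCyclic K := isCyclic_of_prime_card hKr
      obtain ⟨g, hg⟩ := hKc.exists_generator
      refine ⟨(g : H), ?_, ?_⟩
      · rw [Subgroup.orderOf_coe, orderOf_eq_card_of_forall_mem_zpowers hg, hKr]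
      · have : Subgroup.zpowers (g : H) = K := by
          apply le_antisymm
          · rw [Subgroup.zpowers_le]; exact g.2
          · intro y hy
            obtain ⟨j, hj⟩ := hg ⟨y, hy⟩
            exact ⟨j, by simpa using congrArg Subtype.val hj⟩
        rw [this]; exact hK
    · push Not at hN
      have h1 := Cfsg.Agent.S4503.result r hr hrH hsq hN χ hχ hχf
      rw [hχd] at h1
      have h2 : n + 1 < r := by
        rcases hr3 with h | h
        · exact h
        · exact absurd (h.trans hd) hsq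
      obtain ⟨j, hj⟩ := dvd_sub_one hpp (by omega) hr hr1 hr2
      have h3 : r = 2 * n + 1 := by
        have hr2' := hr.two_le
        have : j = 2 := by
          rcases Nat.lt_or_ge j 2 with h | h
          · interval_cases j <;> omega
          · by_contra hj2
            have : 3 ≤ j := by omega
            have : n * 3 ≤ n * j := Nat.mul_le_mul_left _ this
            omega
        subst this
        omega
      obtain ⟨e⟩ := Cfsg.Agent.S4504.result r hr hrH hsq hN χ hχ hχf (by rw [hχd]; omega)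
      exact KPRD.psl p n hp5 hn hpH hd r h3 e

end Cfsg.Agent.Lib.KPRE
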