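import Mathlib
import Cfsg.Agent.Lib.MobDickson
import Cfsg.Agent.Lib.MobCard

/-!
# S4878, piece F2: subgroups of `GL_2(p)` of order prime to `p` modulo scalars
-/

set_option autoImplicit false
set_option linter.all false

namespace Cfsg.Agent.Lib.KPRF2

open Cfsg.Agent.Lib.MobCount
open scoped LinearAlgebra.Projectivization MatrixGroups

variable {H : Type*} [Group H] [Finite H] (p : ℕ) [Fact p.Prime]

/-- the homomorphism to `PGL_2(p)` -/
noncomputable def f0 (ρ : H →* Matrix.GeneralLinearGroup (Fin 2) (ZMod p)) : H →* PGL(Fin 2, ZMod p) :=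
  Matrix.ProjGenLinGroup.mk.comp ρ

omit [Finite H] in
theorem mem_ker (ρ : H →* Matrix.GeneralLinearGroup (Fin 2) (ZMod p)) (h : H) :
    h ∈ (f0 p ρ).ker ↔ ∃ c : ZMod p, (ρ h : Matrix (Fin 2) (Fin 2) (ZMod p)) = c • 1 := by
  rw [MonoidHom.mem_ker]
  show Matrix.ProjGenLinGroup.mk (ρ h) = 1 ↔ _
  rw [Matrix.ProjGenLinGroup.mk_eq_one, Matrix.GeneralLinearGroup.mem_center_iff_val_mem_range_scalar]
  constructor
  · rintro ⟨c, hc⟩
    exact ⟨c, by rw [← hc, Matrix.smul_one_eq_diagonal]; rfl⟩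
  · rintro ⟨c, hc⟩
    exact ⟨c, by rw [hc, Matrix.smul_one_eq_diagonal]; rfl⟩

theorem dvd_P2 (hp5 : 5 ≤ p) (k : Subfield (ZMod p)) : p ∣ Nat.card (P2 k) := by
  have hpp : p.Prime := Fact.out
  haveI : Fintype k := Fintype.ofFinite _
  haveI : CharP k p := inferInstance
  have hpk : p ∣ Fintype.card k := by
    obtain ⟨n, hn⟩ := FiniteField.card k p
    rw [hn.2]
    exact dvd_pow_self p n.ne_zero
  have h1 := card_P2 (F := k) rfl
  have h2 : p ∣ Nat.gcd 2 (Fintype.card k - 1) * Nat.card (P2 k) := by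
    rw [h1]
    exact hpk.mul_right _
  rcases hpp.dvd_mul.mp h2 with h | h
  · exfalso
    have h3 : p ∣ 2 := h.trans (Nat.gcd_dvd_left _ _)
    have := Nat.le_of_dvd (by norm_num) h3
    omega
  · exact h

theorem shape (hp5 : 5 ≤ p) (ρ : H →* Matrix.GeneralLinearGroup (Fin 2) (ZMod p)) (hpH : ¬ p ∣ Nat.card H)
    (Z : Subgroup H) [Z.Normal] (hZ : ∀ h, h ∈ Z ↔ ∃ c : ZMod p, (ρ h : Matrix (Fin 2) (Fin 2) (ZMod p)) = c • 1) :
    (IsCyclic (H ⧸ Z)) ∨ (∃ k, Nonempty ((H ⧸ Z) ≃* DihedralGroup k)) ∨ Nonempty ((H ⧸ Z) ≃* alternatingGroup (Fin 4)) ∨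
      Nonempty ((H ⧸ Z) ≃* Equiv.Perm (Fin 4)) ∨ Nonempty ((H ⧸ Z) ≃* alternatingGroup (Fin 5)) := by
  classical
  have hpp : p.Prime := Fact.out
  have hker : Z = (f0 p ρ).ker := by
    ext h
    rw [hZ, mem_ker]
  have hpQ : ¬ p ∣ Nat.card (H ⧸ Z) := fun h => hpH (h.trans (Subgroup.card_quotient_dvd_card Z))
  let f : (H ⧸ Z) →* PGL(Fin 2, ZMod p) := QuotientGroup.lift Z (f0 p ρ) (fun h hh => by
    rw [hker] at hh; exact hh)
  have hf : Function.Injective f := by
    rw [injective_iff_map_eq_one]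
    intro x
    induction x using QuotientGroup.induction_on with
    | H h =>
      intro hx
      rw [QuotientGroup.eq_one_iff, hker]
      exact hx
  rcases dickson p f hf with ⟨h1, h2⟩ | ⟨C, hC, hpC, hcard, _, hD⟩ | ⟨_, _, h⟩ | ⟨_, _, h⟩ | ⟨_, h60, hs⟩ | ⟨hp, x, hx⟩ | ⟨g, k, h⟩
  · exact Or.inl h2
  · exact Or.inr (Or.inl ⟨_, hD⟩)
  · exact Or.inr (Or.inr (Or.inl h))
  · exact Or.inr (Or.inr (Or.inr (Or.inl h)))
  · haveI := hs
    exact Or.inr (Or.inr (Or.inr (Or.inr (Cfsg.Agent.Lib.ClSmall.equiv_alternating_five h60))))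
  · exact absurd hp hpQ
  · exfalso
    apply hpQ
    have hc1 : Nat.card (f.range.map (MulAut.conj g).toMonoidHom) = Nat.card (H ⧸ Z) := by
      rw [Subgroup.card_map_of_injective (MulAut.conj g).injective]
      exact (Nat.card_congr (MonoidHom.ofInjective hf).toEquiv).symm
    rw [← hc1]
    rcases h with h | h
    · rw [h]
      have hc2 : Nat.card (pslMap k.subtype).range = Nat.card (P2 k) :=
        Nat.card_congr (MonoidHom.ofInjective (pslMap_injective _)).symm.toEquiv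
      rw [hc2]
      exact dvd_P2 p hp5 k
    · rw [h]
      have hc2 : Nat.card (Matrix.ProjGenLinGroup.map (n := Fin 2) k.subtype).range = Nat.card (PGL(Fin 2, k)) :=
        Nat.card_congr (MonoidHom.ofInjective (map_PGL_injective _)).symm.toEquiv
      rw [hc2]
      exact (dvd_P2 p hp5 k).trans (Subgroup.card_dvd_of_injective (Matrix.ProjectiveSpecialLinearGroup.toPGL)
        Matrix.ProjectiveSpecialLinearGroup.toPGL_injective)

end Cfsg.Agent.Lib.KPRF2
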