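import Mathlib

/-!
# S4878, piece F3: many classes when the projective image is cyclic or dihedral
-/

set_option autoImplicit false
set_option linter.all false

namespace Cfsg.Agent.Lib.KPRF3

variable {H : Type*} [Group H] [Finite H]

theorem abel (A : Subgroup H) (hA : ∀ a ∈ A, ∀ b ∈ A, a * b = b * a) :
    Nat.card A ≤ A.index * Nat.card (ConjClasses H) := by
  classical
  haveI : Fintype H := Fintype.ofFinite H
  haveI : Fintype (ConjClasses H) := Fintype.ofFinite _
  haveI : Fintype (H ⧸ A) := Fintype.ofFinite _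
  haveI : Fintype A := Fintype.ofFinite _
  let f : A → ConjClasses H := fun a => ConjClasses.mk a.1
  have h1 : (Finset.univ : Finset A).card ≤ A.index * ((Finset.univ : Finset A).image f).card := by
    apply Finset.card_le_mul_card_image
    intro x hx
    obtain ⟨a0, -, rfl⟩ := Finset.mem_image.mp hx
    have h2 : ((Finset.univ : Finset A).filter (fun a => f a = f a0)).card ≤
        ((Finset.univ : Finset (H ⧸ A)).image (fun q => q.out * a0.1 * q.out⁻¹)).card := by
      apply Finset.card_le_card_of_injOn (fun a => a.1)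
      · intro b hb
        have hb' : f b = f a0 := (Finset.mem_filter.mp (Finset.mem_coe.mp hb)).2
        have hc : IsConj a0.1 b.1 := (ConjClasses.mk_eq_mk_iff_isConj.mp hb').symm
        obtain ⟨h, hh⟩ := isConj_iff.mp hc
        refine Finset.mem_coe.mpr (Finset.mem_image.mpr ⟨(h : H ⧸ A), Finset.mem_univ _, ?_⟩)
        obtain ⟨a, ha⟩ := QuotientGroup.mk_out_eq_mul A h
        rw [ha]
        have hcm := hA a.1 a.2 a0.1 a0.2
        calc h * ↑a * ↑a0 * (h * ↑a)⁻¹ = h * (↑a * ↑a0) * (h * ↑a)⁻¹ := by group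
          _ = h * (↑a0 * ↑a) * (h * ↑a)⁻¹ := by rw [hcm]
          _ = h * ↑a0 * h⁻¹ := by group
          _ = b.1 := hh
      · intro a _ b _ hab
        exact Subtype.ext hab
    refine h2.trans (Finset.card_image_le.trans ?_)
    rw [Finset.card_univ, ← Nat.card_eq_fintype_card]
    exact le_of_eq rfl
  have h3 : ((Finset.univ : Finset A).image f).card ≤ Nat.card (ConjClasses H) := by
    rw [Nat.card_eq_fintype_card]
    exact Finset.card_le_univ _
  rw [Nat.card_eq_fintype_card]
  exact h1.trans (Nat.mul_le_mul_left _ h3)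

theorem four (A : Subgroup H) (hA : ∀ a ∈ A, ∀ b ∈ A, a * b = b * a) (h2 : A.index ≤ 2) :
    Nat.card H ≤ 4 * Nat.card (ConjClasses H) := by
  have h1 := abel A hA
  have h3 := A.index_mul_card
  calc Nat.card H = A.index * Nat.card A := h3.symm
    _ ≤ 2 * (2 * Nat.card (ConjClasses H)) := Nat.mul_le_mul h2 (h1.trans (Nat.mul_le_mul_right _ h2))
    _ = _ := by ring

theorem few (p : ℕ) [Fact p.Prime] (hp5 : 5 ≤ p) (ρ : H →* Matrix.GeneralLinearGroup (Fin 2) (ZMod p))
    (hρ : Function.Injective ρ) (hpH : ¬ p ∣ Nat.card H) (hcard : p ^ 2 - 1 ∣ Nat.card H)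
    (Z : Subgroup H) [Z.Normal] (hZ : ∀ h, h ∈ Z ↔ ∃ c : ZMod p, (ρ h : Matrix (Fin 2) (Fin 2) (ZMod p)) = c • 1)
    (hab : IsCyclic (H ⧸ Z) ∨ ∃ k, Nonempty ((H ⧸ Z) ≃* DihedralGroup k)) : p ≤ Nat.card (ConjClasses H) := by
  have hcen : ∀ z ∈ Z, ∀ h : H, z * h = h * z := by
    intro z hz h
    obtain ⟨c, hc⟩ := (hZ z).mp hz
    apply hρ
    rw [map_mul, map_mul]
    apply Units.ext
    rw [Units.val_mul, Units.val_mul, hc, smul_mul_assoc, one_mul, mul_smul_comm, mul_one]
  have key : ∀ (A : Subgroup H) (g : H), (∀ a ∈ A, ∃ i : ℤ, ((a : H) : H ⧸ Z) = (g : H ⧸ Z) ^ i) →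
      ∀ a ∈ A, ∀ b ∈ A, a * b = b * a := by
    intro A g hg a ha b hb
    have dec : ∀ x ∈ A, ∃ i : ℤ, ∃ z ∈ Z, x = g ^ i * z := by
      intro x hx
      obtain ⟨i, hi⟩ := hg x hx
      refine ⟨i, (g ^ i)⁻¹ * x, ?_, by group⟩
      rw [← QuotientGroup.eq]
      rw [hi]
      rfl
    obtain ⟨i, z, hz, rfl⟩ := dec a ha
    obtain ⟨j, w, hw, rfl⟩ := dec b hb
    have e1 := hcen z hz (g ^ j * w)
    have e2 := hcen w hw (g ^ i)
    calc g ^ i * z * (g ^ j * w) = g ^ i * (z * (g ^ j * w)) := by group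
      _ = g ^ i * (g ^ j * w * z) := by rw [e1]
      _ = g ^ j * (g ^ i * w) * z := by
        rw [show g ^ i * (g ^ j * w * z) = (g ^ i * g ^ j) * w * z by group, ← zpow_add, add_comm i j, zpow_add]
        group
      _ = g ^ j * (w * g ^ i) * z := by rw [e2]
      _ = g ^ j * w * (g ^ i * z) := by group
  have hle : Nat.card H ≤ 4 * Nat.card (ConjClasses H) := by
    rcases hab with h | ⟨k, ⟨e⟩⟩
    · obtain ⟨x, hx⟩ := h.exists_generator
      obtain ⟨g, rfl⟩ := QuotientGroup.mk_surjective x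
      apply four (⊤ : Subgroup H)
      · exact key ⊤ g (fun a _ => by
          obtain ⟨i, hi⟩ := Subgroup.mem_zpowers_iff.mp (hx (a : H ⧸ Z))
          exact ⟨i, hi.symm⟩)
      · rw [Subgroup.index_top]; norm_num
    · have hk : k ≠ 0 := by
        intro hk
        have h1 : Nat.card (H ⧸ Z) = 2 * k := by rw [Nat.card_congr e.toEquiv, DihedralGroup.nat_card]
        have h2 : 0 < Nat.card (H ⧸ Z) := Nat.card_pos
        rw [h1, hk] at h2
        exact absurd h2 (by norm_num)
      obtain ⟨g, hg⟩ := QuotientGroup.mk_surjective (e.symm (DihedralGroup.r 1))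
      let F : H →* DihedralGroup k := e.toMonoidHom.comp (QuotientGroup.mk' Z)
      have hFs : Function.Surjective F := e.surjective.comp (QuotientGroup.mk'_surjective Z)
      apply four ((Subgroup.zpowers (DihedralGroup.r 1 : DihedralGroup k)).comap F)
      · apply key _ g
        intro a ha
        obtain ⟨i, hi⟩ := Subgroup.mem_zpowers_iff.mp (Subgroup.mem_comap.mp ha)
        refine ⟨i, ?_⟩
        apply e.injective
        rw [map_zpow, hg, MulEquiv.apply_symm_apply, hi]
        rfl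
      · rw [Subgroup.index_comap_of_surjective _ hFs]
        have h1 := (Subgroup.zpowers (DihedralGroup.r 1 : DihedralGroup k)).index_mul_card
        rw [Nat.card_zpowers, DihedralGroup.orderOf_r_one, DihedralGroup.nat_card] at h1
        exact le_of_eq (Nat.eq_of_mul_eq_mul_right (Nat.pos_of_ne_zero hk) h1)
  have h1 : p ^ 2 - 1 ≤ Nat.card H := Nat.le_of_dvd Nat.card_pos hcard
  have h2 : 4 * p ≤ p ^ 2 - 1 := by
    have : 4 * p + 1 ≤ p ^ 2 := by nlinarith
    omega
  omega

end Cfsg.Agent.Lib.KPRF3
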