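import Cfsg.Agent.Lib.KPR0
import Cfsg.Agent.Lib.SL25
import Cfsg.Agent.Lib.S3T64
import Mathlib

/-!
# Pieces F4+ / F5 of S4878 (helper79)
-/

set_option autoImplicit false
set_option linter.all false

open Cfsg.Agent.Lib Subgroup Matrix

namespace Cfsg.Agent.Lib.KPRF5

variable {H : Type*} [Group H] [Finite H] {p : ℕ} [Fact p.Prime]

section basic

variable {ρ : H →* Matrix.GeneralLinearGroup (Fin 2) (ZMod p)} {Z : Subgroup H}

omit [Finite H] in
theorem Z_central (hρ : Function.Injective ρ)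
    (hZ : ∀ h, h ∈ Z ↔ ∃ c : ZMod p, (ρ h : Matrix (Fin 2) (Fin 2) (ZMod p)) = c • 1) {z : H} (hz : z ∈ Z)
    (h : H) : z * h = h * z := by
  obtain ⟨c, hc⟩ := (hZ z).1 hz
  apply hρ
  apply Units.ext
  rw [map_mul, map_mul, Units.val_mul, Units.val_mul, hc]
  simp

omit [Finite H] in
/-- comparison of elements in one coset of the scalars -/
theorem eq_of_conj (hp2 : p ≠ 2) (hρ : Function.Injective ρ)
    (hZ : ∀ h, h ∈ Z ↔ ∃ c : ZMod p, (ρ h : Matrix (Fin 2) (Fin 2) (ZMod p)) = c • 1)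
    {h z z' k : H} (hz : z ∈ Z) (hz' : z' ∈ Z) (hk : k * (h * z) * k⁻¹ = h * z') (hh : h * h ∉ Z ∨ h ∈ Z) :
    z = z' := by
  rcases hh with hh | hh
  · obtain ⟨c, hc⟩ := (hZ z).1 hz
    obtain ⟨c', hc'⟩ := (hZ z').1 hz'
    set M : Matrix (Fin 2) (Fin 2) (ZMod p) := (ρ h : Matrix (Fin 2) (Fin 2) (ZMod p)) with hM
    set K : Matrix (Fin 2) (Fin 2) (ZMod p) := (ρ k : Matrix (Fin 2) (Fin 2) (ZMod p)) with hK
    set K' : Matrix (Fin 2) (Fin 2) (ZMod p) := (ρ k⁻¹ : Matrix (Fin 2) (Fin 2) (ZMod p)) with hK'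
    have hKK : K' * K = 1 := by
      rw [hK', hK, ← Units.val_mul, ← map_mul, inv_mul_cancel, map_one, Units.val_one]
    have e1 : K * (M * (c • 1)) * K' = M * (c' • 1) := by
      rw [← hc, ← hc', hM, hK, hK', ← Units.val_mul, ← Units.val_mul, ← Units.val_mul, ← Units.val_mul, ← map_mul,
        ← map_mul, ← map_mul, ← map_mul, hk]
    have e2 : c • (K * M * K') = c' • M := by
      simpa [Matrix.mul_assoc] using e1
    have htr : c * M.trace = c' * M.trace := by
      have h1 := congrArg Matrix.trace e2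
      rw [Matrix.trace_smul, Matrix.trace_smul, Matrix.trace_mul_comm, ← Matrix.mul_assoc, hKK, Matrix.one_mul,
        smul_eq_mul, smul_eq_mul] at h1
      exact h1
    have hdM : M.det ≠ 0 := by
      have h1 : IsUnit (ρ h : Matrix (Fin 2) (Fin 2) (ZMod p)) := (ρ h).isUnit
      rw [Matrix.isUnit_iff_isUnit_det] at h1
      exact h1.ne_zero
    have hdet : c ^ 2 = c' ^ 2 := by
      have h1 := congrArg Matrix.det e2
      rw [Matrix.det_smul, Matrix.det_smul, Matrix.det_mul, Matrix.det_mul, Fintype.card_fin] at h1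
      have h2 : K'.det * K.det = 1 := by rw [← Matrix.det_mul, hKK, Matrix.det_one]
      have h3 : K.det * M.det * K'.det = M.det := by
        calc K.det * M.det * K'.det = (K'.det * K.det) * M.det := by ring
          _ = M.det := by rw [h2, one_mul]
      rw [h3] at h1
      exact mul_right_cancel₀ hdM h1
    have hc0 : c ≠ 0 := by
      rintro rfl
      have h1 : IsUnit (ρ z : Matrix (Fin 2) (Fin 2) (ZMod p)) := (ρ z).isUnit
      rw [hc, zero_smul] at h1
      exact not_isUnit_zero h1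
    have hcc : c = c' := by
      by_contra hne
      have h1 : (c - c') * (c + c') = 0 := by
        have : (c - c') * (c + c') = c ^ 2 - c' ^ 2 := by ring
        rw [this, hdet, sub_self]
      have h2 : c' = -c := by
        rcases mul_eq_zero.mp h1 with h2 | h2
        · exact absurd (sub_eq_zero.mp h2) hne
        · exact (neg_eq_of_add_eq_zero_right h2).symm
      have h3 : M.trace = 0 := by
        rw [h2] at htr
        have h4 : (2 * c) * M.trace = 0 := by linear_combination htr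
        rcases mul_eq_zero.mp h4 with h5 | h5
        · exfalso
          rcases mul_eq_zero.mp h5 with h6 | h6
          · have h7 : ((2 : ℕ) : ZMod p) = 0 := by exact_mod_cast h6
            rw [ZMod.natCast_eq_zero_iff] at h7
            exact hp2 ((Nat.prime_dvd_prime_iff_eq (Fact.out : p.Prime) Nat.prime_two).mp h7)
          · exact hc0 h6
        · exact h5
      apply hh
      rw [hZ]
      refine ⟨-M.det, ?_⟩
      rw [map_mul, Units.val_mul, ← hM]
      have h5 : M 1 1 = - M 0 0 := by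
        rw [Matrix.trace_fin_two] at h3
        linear_combination h3
      ext i j
      fin_cases i <;> fin_cases j <;>
        simp [Matrix.mul_apply, Fin.sum_univ_two, Matrix.det_fin_two, h5] <;> ring
    apply hρ
    apply Units.ext
    rw [hc, hc', hcc]
  · have h1 : k * (h * z) * k⁻¹ = h * z := by
      rw [← Z_central hρ hZ (mul_mem hh hz) k]; group
    rw [h1] at hk
    exact mul_left_cancel hk

/-- `|Z|` divides `p - 1`. -/
theorem card_Z_dvd (hρ : Function.Injective ρ)
    (hZ : ∀ h, h ∈ Z ↔ ∃ c : ZMod p, (ρ h : Matrix (Fin 2) (Fin 2) (ZMod p)) = c • 1) :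
    Nat.card Z ∣ p - 1 := by
  let f0 : Z →* ZMod p :=
    { toFun := fun z => (ρ z : Matrix (Fin 2) (Fin 2) (ZMod p)) 0 0
      map_one' := by simp
      map_mul' := by
        intro a b
        obtain ⟨c, hc⟩ := (hZ a).1 a.2
        obtain ⟨c', hc'⟩ := (hZ b).1 b.2
        simp [hc, hc', mul_comm] }
  have hf : Function.Injective (MonoidHom.toHomUnits f0) := by
    intro a b hab
    have h1 : f0 a = f0 b := by
      have := congrArg Units.val hab
      simpa using this
    obtain ⟨c, hc⟩ := (hZ a).1 a.2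
    obtain ⟨c', hc'⟩ := (hZ b).1 b.2
    have h2 : c = c' := by
      have h3 : (ρ a : Matrix (Fin 2) (Fin 2) (ZMod p)) 0 0 = (ρ b : Matrix (Fin 2) (Fin 2) (ZMod p)) 0 0 := h1
      rw [hc, hc'] at h3
      simpa using h3
    apply Subtype.ext
    apply hρ
    apply Units.ext
    rw [hc, hc', h2]
  have h1 := Subgroup.card_dvd_of_injective _ hf
  rwa [Nat.card_eq_fintype_card (α := (ZMod p)ˣ), ZMod.card_units] at h1

end basic

/-- counting classes of `H` over classes of `H/Z` -/
theorem cls_plus (hp2 : p ≠ 2) (ρ : H →* Matrix.GeneralLinearGroup (Fin 2) (ZMod p)) (hρ : Function.Injective ρ)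
    (Z : Subgroup H) [Z.Normal]
    (hZ : ∀ h, h ∈ Z ↔ ∃ c : ZMod p, (ρ h : Matrix (Fin 2) (Fin 2) (ZMod p)) = c • 1)
    (S T : Finset (H ⧸ Z)) (hS : ∀ s ∈ S, ∀ t ∈ S, IsConj s t → s = t) (hS2 : ∀ s ∈ S, s = 1 ∨ s * s ≠ 1)
    (hT : ∀ s ∈ T, ∀ t ∈ T, IsConj s t → s = t) (hST : ∀ s ∈ S, ∀ t ∈ T, ¬ IsConj s t) :
    S.card * Nat.card Z + T.card ≤ Nat.card (ConjClasses H) := by
  classical
  let f : (S × Z) ⊕ T → ConjClasses H :=
    Sum.elim (fun x => ConjClasses.mk (x.1.1.out * (x.2 : H))) (fun t => ConjClasses.mk t.1.out)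
  have hπ1 : ∀ (s : H ⧸ Z) (z : Z), (QuotientGroup.mk' Z) (s.out * (z : H)) = s := by
    intro s z
    rw [map_mul]
    have h1 : QuotientGroup.mk' Z (z : H) = 1 := (QuotientGroup.eq_one_iff _).2 z.2
    rw [h1, mul_one]
    exact QuotientGroup.out_eq' s
  have hπ2 : ∀ (s : H ⧸ Z), (QuotientGroup.mk' Z) s.out = s := fun s => QuotientGroup.out_eq' s
  have hf : Function.Injective f := by
    rintro (⟨s, z⟩ | t) (⟨s', z'⟩ | t') h
    · have h1 : IsConj (s.1.out * (z : H)) (s'.1.out * (z' : H)) := ConjClasses.mk_eq_mk_iff_isConj.mp h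
      have h2 := (QuotientGroup.mk' Z).map_isConj h1
      rw [hπ1, hπ1] at h2
      have h3 : s = s' := Subtype.ext (hS _ s.2 _ s'.2 h2)
      subst h3
      obtain ⟨k, hk⟩ := isConj_iff.mp h1
      have h4 : (z : H) = z' := by
        apply eq_of_conj hp2 hρ hZ z.2 z'.2 hk
        rcases hS2 _ s.2 with h5 | h5
        · right
          have h6 := hπ2 s.1
          rw [h5] at h6
          have h7 := (QuotientGroup.eq_one_iff _).1 h6
          rw [h5]
          exact h7
        · left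
          intro h6
          apply h5
          have h7 : QuotientGroup.mk' Z (s.1.out * s.1.out) = 1 := (QuotientGroup.eq_one_iff _).2 h6
          rw [map_mul, hπ2] at h7
          exact h7
      rw [Subtype.ext h4]
    · exfalso
      have h1 : IsConj (s.1.out * (z : H)) (t'.1.out) := ConjClasses.mk_eq_mk_iff_isConj.mp h
      have h2 := (QuotientGroup.mk' Z).map_isConj h1
      rw [hπ1, hπ2] at h2
      exact hST _ s.2 _ t'.2 h2
    · exfalso
      have h1 : IsConj (t.1.out) (s'.1.out * (z' : H)) := ConjClasses.mk_eq_mk_iff_isConj.mp h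
      have h2 := (QuotientGroup.mk' Z).map_isConj h1
      rw [hπ1, hπ2] at h2
      exact hST _ s'.2 _ t.2 h2.symm
    · have h1 : IsConj (t.1.out) (t'.1.out) := ConjClasses.mk_eq_mk_iff_isConj.mp h
      have h2 := (QuotientGroup.mk' Z).map_isConj h1
      rw [hπ2, hπ2] at h2
      rw [Subtype.ext (hT _ t.2 _ t'.2 h2)]
  have h1 := Nat.card_le_card_of_injective f hf
  rw [Nat.card_sum, Nat.card_prod, Nat.card_eq_fintype_card (α := S), Nat.card_eq_fintype_card (α := T),
    Fintype.card_coe, Fintype.card_coe] at h1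
  exact h1

/-- transport to a model of `H/Z` -/
theorem cls_model (hp2 : p ≠ 2) (ρ : H →* Matrix.GeneralLinearGroup (Fin 2) (ZMod p)) (hρ : Function.Injective ρ)
    (Z : Subgroup H) [Z.Normal]
    (hZ : ∀ h, h ∈ Z ↔ ∃ c : ZMod p, (ρ h : Matrix (Fin 2) (Fin 2) (ZMod p)) = c • 1)
    {X : Type*} [Group X] (e : (H ⧸ Z) ≃* X) (S T : Finset X)
    (hS : ∀ s ∈ S, ∀ t ∈ S, (∃ g, g * s * g⁻¹ = t) → s = t) (hS2 : ∀ s ∈ S, s = 1 ∨ s * s ≠ 1)
    (hT : ∀ s ∈ T, ∀ t ∈ T, (∃ g, g * s * g⁻¹ = t) → s = t)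
    (hST : ∀ s ∈ S, ∀ t ∈ T, ¬ ∃ g, g * s * g⁻¹ = t) :
    S.card * Nat.card Z + T.card ≤ Nat.card (ConjClasses H) := by
  have key : ∀ s t : X, IsConj (e.symm s) (e.symm t) → ∃ g, g * s * g⁻¹ = t := by
    intro s t h
    have h1 := e.toMonoidHom.map_isConj h
    simp only [MulEquiv.coe_toMonoidHom, MulEquiv.apply_symm_apply] at h1
    exact isConj_iff.mp h1
  have h := cls_plus hp2 ρ hρ Z hZ (S.map e.symm.toEquiv.toEmbedding) (T.map e.symm.toEquiv.toEmbedding)
    (by
      intro s hs t ht hc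
      rw [Finset.mem_map] at hs ht
      obtain ⟨s, hs, rfl⟩ := hs
      obtain ⟨t, ht, rfl⟩ := ht
      rw [hS s hs t ht (key s t hc)])
    (by
      intro s hs
      rw [Finset.mem_map] at hs
      obtain ⟨s, hs, rfl⟩ := hs
      rcases hS2 s hs with h1 | h1
      · left
        subst h1
        exact map_one e.symm
      · right
        intro h2
        apply h1
        apply e.symm.injective
        rw [map_mul, map_one]
        exact h2)
    (by
      intro s hs t ht hc
      rw [Finset.mem_map] at hs ht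
      obtain ⟨s, hs, rfl⟩ := hs
      obtain ⟨t, ht, rfl⟩ := ht
      rw [hT s hs t ht (key s t hc)])
    (by
      intro s hs t ht hc
      rw [Finset.mem_map] at hs ht
      obtain ⟨s, hs, rfl⟩ := hs
      obtain ⟨t, ht, rfl⟩ := ht
      exact hST s hs t ht (key s t hc))
  rw [Finset.card_map, Finset.card_map] at h
  exact h


/-! ### explicit representatives -/

def q3 : alternatingGroup (Fin 4) := ⟨Equiv.swap 0 1 * Equiv.swap 1 2, by rw [Equiv.Perm.mem_alternatingGroup]; decide⟩

theorem a4_S : ∀ s ∈ ({1, q3, q3⁻¹} : Finset (alternatingGroup (Fin 4))), ∀ t ∈ ({1, q3, q3⁻¹} : Finset (alternatingGroup (Fin 4))),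
    (∃ g, g * s * g⁻¹ = t) → s = t := by decide +kernel
theorem a4_S2 : ∀ s ∈ ({1, q3, q3⁻¹} : Finset (alternatingGroup (Fin 4))), s = 1 ∨ s * s ≠ 1 := by decide +kernel
theorem a4_c : ({1, q3, q3⁻¹} : Finset (alternatingGroup (Fin 4))).card = 3 := by decide +kernel

def s2 : Equiv.Perm (Fin 4) := Equiv.swap 0 1
def s22 : Equiv.Perm (Fin 4) := Equiv.swap 0 1 * Equiv.swap 2 3
def s3 : Equiv.Perm (Fin 4) := Equiv.swap 0 1 * Equiv.swap 1 2
def s4 : Equiv.Perm (Fin 4) := Equiv.swap 0 1 * Equiv.swap 1 2 * Equiv.swap 2 3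

theorem s4_T : ∀ s ∈ ({1, s2, s22, s3, s4} : Finset (Equiv.Perm (Fin 4))), ∀ t ∈ ({1, s2, s22, s3, s4} : Finset (Equiv.Perm (Fin 4))),
    (∃ g, g * s * g⁻¹ = t) → s = t := by decide +kernel
theorem s4_c5 : ({1, s2, s22, s3, s4} : Finset (Equiv.Perm (Fin 4))).card = 5 := by decide +kernel
theorem s4_S : ∀ s ∈ ({1, s3, s4} : Finset (Equiv.Perm (Fin 4))), ∀ t ∈ ({1, s3, s4} : Finset (Equiv.Perm (Fin 4))),
    (∃ g, g * s * g⁻¹ = t) → s = t := by decide +kernel
theorem s4_S2 : ∀ s ∈ ({1, s3, s4} : Finset (Equiv.Perm (Fin 4))), s = 1 ∨ s * s ≠ 1 := by decide +kernel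
theorem s4_c : ({1, s3, s4} : Finset (Equiv.Perm (Fin 4))).card = 3 := by decide +kernel
theorem s4_ST : ∀ s ∈ ({1, s3, s4} : Finset (Equiv.Perm (Fin 4))), ∀ t ∈ ({s2} : Finset (Equiv.Perm (Fin 4))),
    ¬ ∃ g, g * s * g⁻¹ = t := by decide +kernel
theorem s4_T1 : ∀ s ∈ ({s2} : Finset (Equiv.Perm (Fin 4))), ∀ t ∈ ({s2} : Finset (Equiv.Perm (Fin 4))),
    (∃ g, g * s * g⁻¹ = t) → s = t := by decide +kernel

def r3 : alternatingGroup (Fin 5) := ⟨Equiv.swap 0 1 * Equiv.swap 1 2, by rw [Equiv.Perm.mem_alternatingGroup]; decide⟩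
def r5 : alternatingGroup (Fin 5) := ⟨Equiv.swap 0 1 * Equiv.swap 1 2 * Equiv.swap 2 3 * Equiv.swap 3 4, by rw [Equiv.Perm.mem_alternatingGroup]; decide⟩

theorem a5_S : ∀ s ∈ ({1, r3, r5, r5 * r5} : Finset (alternatingGroup (Fin 5))), ∀ t ∈ ({1, r3, r5, r5 * r5} : Finset (alternatingGroup (Fin 5))),
    (∃ g, g * s * g⁻¹ = t) → s = t := by decide +kernel
theorem a5_S2 : ∀ s ∈ ({1, r3, r5, r5 * r5} : Finset (alternatingGroup (Fin 5))), s = 1 ∨ s * s ≠ 1 := by decide +kernel
theorem a5_c : ({1, r3, r5, r5 * r5} : Finset (alternatingGroup (Fin 5))).card = 4 := by decide +kernel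

/-- the case `c = 1` -/
theorem full (hp2 : p ≠ 2) (ρ : H →* Matrix.GeneralLinearGroup (Fin 2) (ZMod p)) (hρ : Function.Injective ρ)
    (Z : Subgroup H) [Z.Normal]
    (hZ : ∀ h, h ∈ Z ↔ ∃ c : ZMod p, (ρ h : Matrix (Fin 2) (Fin 2) (ZMod p)) = c • 1)
    (hcz : Nat.card Z = p - 1) (x : H ⧸ Z) (hx : x ≠ 1) : p ≤ Nat.card (ConjClasses H) := by
  classical
  have h := cls_plus hp2 ρ hρ Z hZ {1} {x} (by simp) (by simp) (by simp) (by
    intro s hs t ht hc
    rw [Finset.mem_singleton] at hs ht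
    subst hs ht
    exact hx (isConj_one_right.mp hc))
  rw [Finset.card_singleton, Finset.card_singleton, one_mul, hcz] at h
  have := (Fact.out : p.Prime).two_le
  omega

/-! ### the case `SL(2,5)` -/

omit [Finite H] in
theorem scal_of_inv (hp2 : p ≠ 2) (M : Matrix (Fin 2) (Fin 2) (ZMod p)) (hM : M * M = 1) (hdet : M.det = 1) :
    M = (M 0 0) • (1 : Matrix (Fin 2) (Fin 2) (ZMod p)) := by
  have h1 : M.adjugate * M = 1 := by rw [Matrix.adjugate_mul, hdet, one_smul]
  have h2 : M = M.adjugate := by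
    calc M = (M.adjugate * M) * M := by rw [h1, one_mul]
      _ = M.adjugate := by rw [Matrix.mul_assoc, hM, Matrix.mul_one]
  have h2' : (2 : ZMod p) ≠ 0 := by
    intro h6
    have h7 : ((2 : ℕ) : ZMod p) = 0 := by exact_mod_cast h6
    rw [ZMod.natCast_eq_zero_iff] at h7
    exact hp2 ((Nat.prime_dvd_prime_iff_eq (Fact.out : p.Prime) Nat.prime_two).mp h7)
  have h3 : ∀ i j, M i j = M.adjugate i j := fun i j => by rw [← h2]
  have e11 : M 1 1 = M 0 0 := by
    have := h3 1 1
    rw [Matrix.adjugate_fin_two] at this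
    simpa using this
  have e01 : M 0 1 = 0 := by
    have := h3 0 1
    rw [Matrix.adjugate_fin_two] at this
    have h4 : M 0 1 = - M 0 1 := by simpa using this
    have h5 : 2 * M 0 1 = 0 := by linear_combination h4
    exact (mul_eq_zero.mp h5).resolve_left h2'
  have e10 : M 1 0 = 0 := by
    have := h3 1 0
    rw [Matrix.adjugate_fin_two] at this
    have h4 : M 1 0 = - M 1 0 := by simpa using this
    have h5 : 2 * M 1 0 = 0 := by linear_combination h4
    exact (mul_eq_zero.mp h5).resolve_left h2'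
  ext i j
  fin_cases i <;> fin_cases j <;> simp [e11, e01, e10]

theorem a5_nc : ∃ a b : alternatingGroup (Fin 5), a * b ≠ b * a := ⟨r3, r5, by decide +kernel⟩

theorem a5_pow8 : ∀ g : alternatingGroup (Fin 5), g ^ 8 = 1 → g * g = 1 := by decide +kernel

omit [Finite H] in
theorem det_one (ρ : H →* Matrix.GeneralLinearGroup (Fin 2) (ZMod p))
    (Z : Subgroup H) [Z.Normal]
    (hZ : ∀ h, h ∈ Z ↔ ∃ c : ZMod p, (ρ h : Matrix (Fin 2) (Fin 2) (ZMod p)) = c • 1)
    (hz1 : ∀ z ∈ Z, z * z = 1) (e : (H ⧸ Z) ≃* alternatingGroup (Fin 5)) (h : H) :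
    (ρ h : Matrix (Fin 2) (Fin 2) (ZMod p)).det = 1 := by
  let D : H →* (ZMod p)ˣ := Matrix.GeneralLinearGroup.det.comp ρ
  have hD : ∀ z ∈ Z, D z = 1 := by
    intro z hz
    obtain ⟨c, hc⟩ := (hZ z).1 hz
    have h1 := congrArg (fun g => (ρ g : Matrix (Fin 2) (Fin 2) (ZMod p))) (hz1 z hz)
    simp only [map_mul, Units.val_mul, map_one, Units.val_one, hc] at h1
    have h2 := congrFun (congrFun h1 0) 0
    have h3 : c * c = 1 := by simpa [Matrix.mul_apply, Fin.sum_univ_two] using h2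
    apply Units.ext
    show (ρ z : Matrix (Fin 2) (Fin 2) (ZMod p)).det = 1
    rw [hc, Matrix.det_smul, Fintype.card_fin, Matrix.det_one, mul_one, pow_two, h3]
  let D' : H ⧸ Z →* (ZMod p)ˣ := QuotientGroup.lift Z D hD
  let E : alternatingGroup (Fin 5) →* (ZMod p)ˣ := D'.comp e.symm.toMonoidHom
  haveI : IsSimpleGroup (alternatingGroup (Fin 5)) := alternatingGroup.isSimpleGroup_five
  have hE : E.ker = ⊤ := by
    rcases (inferInstance : E.ker.Normal).eq_bot_or_eq_top with h1 | h1
    · exfalso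
      obtain ⟨a, b, hab⟩ := a5_nc
      apply hab
      apply (MonoidHom.ker_eq_bot_iff E).mp h1
      rw [map_mul, map_mul, mul_comm]
    · exact h1
  have h1 : E (e (QuotientGroup.mk h)) = 1 := by
    have : e (QuotientGroup.mk h) ∈ E.ker := by rw [hE]; trivial
    exact this
  have h2 : D h = 1 := by
    have h3 : E (e (QuotientGroup.mk h)) = D h := by
      show D' (e.symm (e (QuotientGroup.mk h))) = D h
      rw [MulEquiv.symm_apply_apply]
      rfl
    rw [← h3, h1]
  have h3 := congrArg Units.val h2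
  exact h3

theorem sl25 (hp2 : p ≠ 2) (ρ : H →* Matrix.GeneralLinearGroup (Fin 2) (ZMod p)) (hρ : Function.Injective ρ)
    (Z : Subgroup H) [Z.Normal]
    (hZ : ∀ h, h ∈ Z ↔ ∃ c : ZMod p, (ρ h : Matrix (Fin 2) (Fin 2) (ZMod p)) = c • 1)
    (hc2 : Nat.card Z = 2) (hc : Nat.card H = 120) (e : (H ⧸ Z) ≃* alternatingGroup (Fin 5)) :
    Nonempty (H ≃* Matrix.SpecialLinearGroup (Fin 2) (ZMod 5)) := by
  classical
  have hz1 : ∀ z ∈ Z, z * z = 1 := by
    intro z hz
    have h1 : (⟨z, hz⟩ : Z) ^ 2 = 1 := by rw [← hc2]; exact pow_card_eq_one'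
    have h2 := congrArg Subtype.val h1
    simpa [pow_two] using h2
  have hdet := det_one ρ Z hZ hz1 e
  have hinv : ∀ h : H, h * h = 1 → h ∈ Z := by
    intro h hh
    rw [hZ]
    have h1 := congrArg (fun g => (ρ g : Matrix (Fin 2) (Fin 2) (ZMod p))) hh
    simp only [map_mul, Units.val_mul, map_one, Units.val_one] at h1
    exact ⟨_, scal_of_inv hp2 _ h1 (hdet h)⟩
  -- two nontrivial elements of `Z` are equal
  have hz2 : ∀ a ∈ Z, ∀ b ∈ Z, a ≠ 1 → b ≠ 1 → a = b := by
    intro a ha b hb ha1 hb1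
    have h1 : ∃ x y : Z, x ≠ y ∧ (Set.univ : Set Z) = {x, y} := by
      rw [Nat.card_eq_two_iff] at hc2
      obtain ⟨x, y, h1, h2⟩ := hc2
      exact ⟨x, y, h1, h2.symm⟩
    obtain ⟨x, y, hxy, hu⟩ := h1
    have m : ∀ w : Z, w = x ∨ w = y := by
      intro w
      have : w ∈ (Set.univ : Set Z) := trivial
      rw [hu] at this
      simpa using this
    have k1 : (⟨a, ha⟩ : Z) ≠ 1 := fun h => ha1 (congrArg Subtype.val h)
    have k2 : (⟨b, hb⟩ : Z) ≠ 1 := fun h => hb1 (congrArg Subtype.val h)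
    have k3 : (⟨a, ha⟩ : Z) = ⟨b, hb⟩ := by
      rcases m 1 with h0 | h0 <;> rcases m ⟨a, ha⟩ with h1 | h1 <;> rcases m ⟨b, hb⟩ with h2 | h2
      all_goals first
        | exact absurd (h1.trans h0.symm) k1
        | exact absurd (h2.trans h0.symm) k2
        | exact h1.trans h2.symm
    exact congrArg Subtype.val k3
  have hns : ¬ Group.IsSolvable H := by
    intro hs
    haveI : IsSimpleGroup (alternatingGroup (Fin 5)) := alternatingGroup.isSimpleGroup_five
    have hs2 : Group.IsSolvable (alternatingGroup (Fin 5)) := by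
      have hsurj : Function.Surjective (e.toMonoidHom.comp (QuotientGroup.mk' Z)) := by
        exact e.surjective.comp (QuotientGroup.mk'_surjective Z)
      exact solvable_of_surjective hsurj
    have := IsSimpleGroup.comm_iff_isSolvable.mpr hs2
    obtain ⟨a, b, hab⟩ := a5_nc
    exact hab (this a b)
  have hQ : ∀ P : Sylow 2 H, Nonempty ((P : Subgroup H) ≃* QuaternionGroup 2) := by
    intro P
    have hPc : Nat.card (P : Subgroup H) = 8 := by
      have h1 := P.card_eq_multiplicity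
      rw [h1, hc]
      have : (120 : ℕ).factorization 2 = 3 := by
        rw [show (120 : ℕ) = 2 ^ 3 * 15 by norm_num, Nat.factorization_mul (by norm_num) (by norm_num),
          Finsupp.add_apply, Nat.factorization_eq_zero_of_not_dvd (show ¬ 2 ∣ 15 by norm_num),
          Nat.Prime.factorization_pow (show Nat.Prime 2 by norm_num), Finsupp.single_eq_same]
      rw [this]; norm_num
    -- squares of elements of `P` lie in `Z`
    have hsq : ∀ a : (P : Subgroup H), (a : H) * a ∈ Z := by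
      intro a
      have h1 : a ^ 8 = 1 := by rw [← hPc]; exact pow_card_eq_one'
      have h2 : (a : H) ^ 8 = 1 := by simpa using congrArg Subtype.val h1
      have h3 : (e (QuotientGroup.mk (a : H))) ^ 8 = 1 := by
        rw [← map_pow, ← QuotientGroup.mk_pow, h2]
        simp
      have h4 := a5_pow8 _ h3
      rw [← map_mul, ← QuotientGroup.mk_mul] at h4
      have h5 : (QuotientGroup.mk ((a : H) * a) : H ⧸ Z) = 1 := by
        apply e.injective
        rw [h4, map_one]
      exact (QuotientGroup.eq_one_iff _).1 h5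
    have hna : ∃ a b : (P : Subgroup H), a * b ≠ b * a := by
      by_contra hcon
      push Not at hcon
      -- `a ∈ P \ Z`
      have hZP : ∃ a : (P : Subgroup H), (a : H) ∉ Z := by
        by_contra h
        push Not at h
        have h1 : (P : Subgroup H) ≤ Z := fun x hx => h ⟨x, hx⟩
        have h2 := Subgroup.card_le_of_le h1
        rw [hPc, hc2] at h2
        omega
      obtain ⟨a, ha⟩ := hZP
      have haa : (a : H) * a ≠ 1 := fun h => ha (hinv _ h)
      have ho : Nat.card (Subgroup.zpowers a) ≤ 4 := by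
        rw [Nat.card_zpowers]
        apply orderOf_le_of_pow_eq_one (by norm_num)
        apply Subtype.ext
        have h1 := hz1 _ (hsq a)
        have h2 : (a : H) ^ 4 = ((a : H) * a) * ((a : H) * a) := by
          rw [show (4 : ℕ) = 2 + 2 by norm_num, pow_add, pow_two]
        show ((a ^ 4 : (P : Subgroup H)) : H) = 1
        rw [Subgroup.coe_pow, h2, h1]
      have hb : ∃ b : (P : Subgroup H), b ∉ Subgroup.zpowers a := by
        by_contra h
        push Not at h
        have h1 : Subgroup.zpowers a = ⊤ := by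
          rw [eq_top_iff]; intro x _; exact h x
        have h2 : Nat.card (Subgroup.zpowers a) = 8 := by
          rw [h1, Subgroup.card_top, hPc]
        omega
      obtain ⟨b, hb⟩ := hb
      -- `Z ∩ P ≤ ⟨a⟩`
      have hZa : ∀ x : (P : Subgroup H), (x : H) ∈ Z → x ∈ Subgroup.zpowers a := by
        intro x hx
        by_cases hx1 : x = 1
        · rw [hx1]; exact one_mem _
        · have h1 : (x : H) = (a : H) * a := hz2 _ hx _ (hsq a) (fun h => hx1 (Subtype.ext h)) haa
          have h2 : x = a * a := Subtype.ext h1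
          rw [h2]
          exact mul_mem (Subgroup.mem_zpowers a) (Subgroup.mem_zpowers a)
      have hbZ : (b : H) ∉ Z := fun h => hb (hZa b h)
      have hbb : (b : H) * b ≠ 1 := fun h => hbZ (hinv _ h)
      have heq : (a : H) * a = b * b := hz2 _ (hsq a) _ (hsq b) haa hbb
      have hcomm : (a : H) * b = b * a := congrArg Subtype.val (hcon a b)
      have h1 : ((a : H) * b) * (a * b) = 1 := by
        calc ((a : H) * b) * (a * b) = a * (b * a) * b := by group
          _ = a * (a * b) * b := by rw [← hcomm]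
          _ = (a * a) * (b * b) := by group
          _ = (a * a) * (a * a) := by rw [← heq]
          _ = 1 := hz1 _ (hsq a)
      have h2 := hZa (a * b) (hinv _ h1)
      have h3 : a⁻¹ * (a * b) ∈ Subgroup.zpowers a := mul_mem (inv_mem (Subgroup.mem_zpowers a)) h2
      rw [inv_mul_cancel_left] at h3
      exact hb h3
    rcases S3T64.order_eight hPc hna with ⟨⟨f⟩⟩ | hq
    · exfalso
      have k : ∀ i : ZMod 4, ((f.symm (DihedralGroup.sr i) : (P : Subgroup H)) : H) ∈ Z ∧
          ((f.symm (DihedralGroup.sr i) : (P : Subgroup H)) : H) ≠ 1 := by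
        intro i
        constructor
        · apply hinv
          have h1 : f.symm (DihedralGroup.sr i) * f.symm (DihedralGroup.sr i) = 1 := by
            rw [← map_mul, DihedralGroup.sr_mul_sr, sub_self]
            exact map_one f.symm
          exact congrArg Subtype.val h1
        · intro h1
          have h2 : f.symm (DihedralGroup.sr i) = 1 := Subtype.ext h1
          have h3 : DihedralGroup.sr i = (1 : DihedralGroup 4) := by
            rw [← f.apply_symm_apply (DihedralGroup.sr i), h2, map_one]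
          exact absurd h3 (by
            rw [DihedralGroup.one_def]
            exact fun h => by cases h)
      have h1 := hz2 _ (k 0).1 _ (k 1).1 (k 0).2 (k 1).2
      have h2 := f.symm.injective (Subtype.ext h1)
      have h3 : (0 : ZMod 4) = 1 := by
        injection h2
      exact absurd h3 (by decide)
    · exact hq
  obtain ⟨f⟩ := SL25.recognize hc hns hQ
  obtain ⟨g⟩ := SL25.presEquiv
  exact ⟨f.symm.trans g⟩

/-! ### numerics -/

theorem num_exc {p q z N : ℕ} (hp : p.Prime) (hp5 : 5 ≤ p) (hz : z ∣ p - 1) (hz0 : 0 < z) (hN : N = z * q)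
    (hpN : ¬ p ∣ N) (hd : p ^ 2 - 1 ∣ N) :
    (q = 12 → z = p - 1 ∨ (p = 5 ∧ z = 2)) ∧
    (q = 24 → z = p - 1 ∨ p = 5 ∨ (p = 7 ∧ z = 2) ∨ (p = 11 ∧ z = 5)) ∧
    (q = 60 → z = p - 1 ∨ (p = 19 ∧ z = 6) ∨ (p = 29 ∧ z = 14) ∨ (p = 11 ∧ z = 2)) := by
  obtain ⟨c, hc⟩ := hz
  have hc0 : 0 < c := by
    rcases Nat.eq_zero_or_pos c with h | h
    · subst h; omega
    · exact h
  have hdiv : c * (p + 1) ∣ q := by
    have h1 : p ^ 2 - 1 = z * (c * (p + 1)) := by
      have h2 : p ^ 2 - 1 = (p + 1) * (p - 1) := by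
        have := Nat.sq_sub_sq p 1
        simpa using this
      rw [h2, hc]; ring
    rw [h1, hN] at hd
    exact (Nat.mul_dvd_mul_iff_left hz0).mp hd
  have hc1 : c = 1 → z = p - 1 := by
    rintro rfl; omega
  refine ⟨?_, ?_, ?_⟩
  · rintro rfl
    have hle := Nat.le_of_dvd (by norm_num) hdiv
    have hp12 : p ≤ 11 := by nlinarith
    have hc12 : c ≤ 2 := by nlinarith
    interval_cases c
    · exact Or.inl (hc1 rfl)
    · right
      interval_cases p <;> revert hdiv hc hp <;> norm_num <;> omega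
  · rintro rfl
    have hle := Nat.le_of_dvd (by norm_num) hdiv
    have hp12 : p ≤ 23 := by nlinarith
    have hc12 : c ≤ 4 := by nlinarith
    interval_cases c
    · exact Or.inl (hc1 rfl)
    all_goals
      have hp' : p ≤ 11 := by omega
      right
      interval_cases p <;> revert hdiv hc hp <;> norm_num <;> omega
  · rintro rfl
    have hp5' : p ≠ 5 := by
      rintro rfl
      apply hpN
      rw [hN]
      exact Dvd.intro_left (z * 12) (by ring)
    have hle := Nat.le_of_dvd (by norm_num) hdiv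
    have hp12 : p ≤ 59 := by nlinarith
    have hc12 : c ≤ 10 := by nlinarith
    interval_cases c
    · exact Or.inl (hc1 rfl)
    all_goals
      have hp' : p ≤ 29 := by omega
      right
      interval_cases p <;> revert hdiv hc hp hp5' <;> norm_num <;> omega

/-- **F5** -/
theorem exc (hp5 : 5 ≤ p) (ρ : H →* Matrix.GeneralLinearGroup (Fin 2) (ZMod p)) (hρ : Function.Injective ρ)
    (hpH : ¬ p ∣ Nat.card H) (hd : p ^ 2 - 1 ∣ Nat.card H)
    (Z : Subgroup H) [Z.Normal]
    (hZ : ∀ h, h ∈ Z ↔ ∃ c : ZMod p, (ρ h : Matrix (Fin 2) (Fin 2) (ZMod p)) = c • 1)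
    (hsh : Nonempty ((H ⧸ Z) ≃* alternatingGroup (Fin 4)) ∨ Nonempty ((H ⧸ Z) ≃* Equiv.Perm (Fin 4)) ∨
      Nonempty ((H ⧸ Z) ≃* alternatingGroup (Fin 5))) :
    p ≤ Nat.card (ConjClasses H) ∨
      (p = 11 ∧ Nat.card H = 120 ∧ Nonempty (H ≃* Matrix.SpecialLinearGroup (Fin 2) (ZMod 5))) := by
  classical
  have hp2 : p ≠ 2 := by omega
  have hz := card_Z_dvd hρ hZ
  have hz0 : 0 < Nat.card Z := Nat.card_pos
  have hN : Nat.card H = Nat.card Z * Nat.card (H ⧸ Z) := by
    rw [Subgroup.card_eq_card_quotient_mul_card_subgroup Z, mul_comm]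
  have hnum := num_exc (q := Nat.card (H ⧸ Z)) (Fact.out : p.Prime) hp5 hz hz0 hN hpH hd
  have hfull : Nat.card Z = p - 1 → Nat.card (H ⧸ Z) ≠ 1 → p ≤ Nat.card (ConjClasses H) := by
    intro h1 h2
    obtain ⟨x, hx⟩ : ∃ x : H ⧸ Z, x ≠ 1 := by
      by_contra h3
      push Not at h3
      apply h2
      haveI : Subsingleton (H ⧸ Z) := ⟨fun a b => (h3 a).trans (h3 b).symm⟩
      exact Nat.card_unique
    exact full hp2 ρ hρ Z hZ h1 x hx
  rcases hsh with ⟨⟨e⟩⟩ | ⟨⟨e⟩⟩ | ⟨⟨e⟩⟩
  · have hq : Nat.card (H ⧸ Z) = 12 := by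
      rw [Nat.card_congr e.toEquiv, Nat.card_eq_fintype_card]
      decide +kernel
    left
    rcases hnum.1 hq with h1 | ⟨h1, h2⟩
    · exact hfull h1 (by omega)
    · have h3 := cls_model hp2 ρ hρ Z hZ e {1, q3, q3⁻¹} ∅ a4_S a4_S2 (by simp) (by simp)
      rw [a4_c, h2, Finset.card_empty] at h3
      omega
  · have hq : Nat.card (H ⧸ Z) = 24 := by
      rw [Nat.card_congr e.toEquiv, Nat.card_eq_fintype_card]
      decide +kernel
    left
    rcases hnum.2.1 hq with h1 | h1 | ⟨h1, h2⟩ | ⟨h1, h2⟩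
    · exact hfull h1 (by omega)
    · have h3 := cls_model hp2 ρ hρ Z hZ e ∅ {1, s2, s22, s3, s4} (by simp) (by simp) s4_T (by simp)
      rw [s4_c5, Finset.card_empty] at h3
      omega
    · have h3 := cls_model hp2 ρ hρ Z hZ e {1, s3, s4} {s2} s4_S s4_S2 s4_T1 s4_ST
      rw [s4_c, h2, Finset.card_singleton] at h3
      omega
    · have h3 := cls_model hp2 ρ hρ Z hZ e {1, s3, s4} ∅ s4_S s4_S2 (by simp) (by simp)
      rw [s4_c, h2, Finset.card_empty] at h3
      omega
  · have hq : Nat.card (H ⧸ Z) = 60 := by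
      rw [Nat.card_congr e.toEquiv, Nat.card_eq_fintype_card]
      decide +kernel
    have h3 := cls_model hp2 ρ hρ Z hZ e {1, r3, r5, r5 * r5} ∅ a5_S a5_S2 (by simp) (by simp)
    rw [a5_c, Finset.card_empty] at h3
    rcases hnum.2.2 hq with h1 | ⟨h1, h2⟩ | ⟨h1, h2⟩ | ⟨h1, h2⟩
    · exact Or.inl (hfull h1 (by omega))
    · left
      rw [h2] at h3
      omega
    · left
      rw [h2] at h3
      omega
    · right
      have hc : Nat.card H = 120 := by rw [hN, h2, hq]
      exact ⟨h1, hc, sl25 hp2 ρ hρ Z hZ h2 hc e⟩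

end Cfsg.Agent.Lib.KPRF5
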