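import Mathlib
import Cfsg.Agent.Lib.KPR0
import Cfsg.Agent.Lib.PConstraint
import Cfsg.Agent.Lib.PSolvTools

/-!
# S4878, piece G: reduction
-/

set_option autoImplicit false
set_option linter.all false

namespace Cfsg.Agent.Lib.KPRG

open Cfsg.Agent.Lib.KPR Cfsg.Agent.Lib.Cores Cfsg.Agent.Lib.PConstraint Cfsg.Agent.Lib.RelSylow

universe u

theorem coordsMod {V : Type u} [AddCommGroup V] [Finite V] (p : ℕ) [Fact p.Prime] [Module (ZMod p) V] :
    ∃ (n : ℕ) (e : V ≃ (Fin n → ZMod p)), ∀ x y : V, e (x + y) = e x + e y := by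
  have : Module.Finite (ZMod p) V := Module.Finite.of_finite
  let b := Module.finBasis (ZMod p) V
  let f : V ≃ₗ[ZMod p] (Fin (Module.finrank (ZMod p) V) → ZMod p) := b.equivFun
  refine ⟨Module.finrank (ZMod p) V, f.toEquiv, fun x y => ?_⟩
  exact f.map_add x y

theorem coordsAdd {V : Type u} [AddCommGroup V] [Finite V] (p : ℕ) [Fact p.Prime] (he : ∀ a : V, p • a = 0) :
    ∃ (n : ℕ) (e : V ≃ (Fin n → ZMod p)), ∀ x y : V, e (x + y) = e x + e y := by
  letI : Module (ZMod p) V := AddCommGroup.zmodModule he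
  exact coordsMod p

/-- coordinates of an elementary abelian group -/
theorem coords {P : Type u} [Group P] [Finite P] (p : ℕ) [Fact p.Prime] (hc : ∀ a b : P, a * b = b * a)
    (he : ∀ a : P, a ^ p = 1) : ∃ (n : ℕ) (e : P ≃ (Fin n → ZMod p)), ∀ x y : P, e (x * y) = e x + e y := by
  letI : CommGroup P := { (inferInstance : Group P) with mul_comm := hc }
  obtain ⟨n, e, h⟩ := coordsAdd (V := Additive P) p (fun x => he (Additive.toMul x))
  exact ⟨n, Additive.ofMul.trans e, fun x y => h (Additive.ofMul x) (Additive.ofMul y)⟩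

section rep
variable {Q : Type u} [Group Q] {p n : ℕ} [Fact p.Prime] {P H : Subgroup Q} (hP : P.Normal) (e : ↥P ≃ (Fin n → ZMod p))
  (hemul : ∀ x y : P, e (x * y) = e x + e y)

include hemul in
theorem e_one : e 1 = 0 := by
  have := hemul 1 1
  rw [mul_one] at this
  simpa using this

include hemul in
theorem symm_add (v w : Fin n → ZMod p) : e.symm (v + w) = e.symm v * e.symm w := by
  apply e.injective
  rw [hemul, Equiv.apply_symm_apply, Equiv.apply_symm_apply, Equiv.apply_symm_apply]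

/-- conjugation in coordinates -/
def cj (h : Q) : (Fin n → ZMod p) →+ (Fin n → ZMod p) where
  toFun v := e ⟨h * (e.symm v : P) * h⁻¹, hP.conj_mem _ (e.symm v).2 _⟩
  map_zero' := by
    have h0 : e.symm 0 = 1 := by rw [Equiv.symm_apply_eq, e_one e hemul]
    have h1 : (⟨h * (e.symm 0 : P) * h⁻¹, hP.conj_mem _ (e.symm 0).2 _⟩ : P) = 1 := by
      apply Subtype.ext
      show h * (e.symm 0 : P) * h⁻¹ = 1
      rw [h0]; simp
    rw [h1, e_one e hemul]
  map_add' v w := by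
    rw [← hemul]
    congr 1
    apply Subtype.ext
    show h * (e.symm (v + w) : P) * h⁻¹ = (h * (e.symm v : P) * h⁻¹) * (h * (e.symm w : P) * h⁻¹)
    rw [symm_add e hemul, Subgroup.coe_mul]
    group

/-- the matrices -/
noncomputable def mt (H : Subgroup Q) : H →* Matrix (Fin n) (Fin n) (ZMod p) where
  toFun h := LinearMap.toMatrix' ((cj hP e hemul (h : Q)).toZModLinearMap p)
  map_one' := by
    rw [← LinearMap.toMatrix'_one]
    congr 1
    apply LinearMap.ext
    intro v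
    have : ∀ v, cj hP e hemul ((1 : H) : Q) v = v := by
      intro v
      show e ⟨((1 : H) : Q) * (e.symm v : P) * ((1 : H) : Q)⁻¹, _⟩ = v
      have h1 : (⟨((1 : H) : Q) * (e.symm v : P) * ((1 : H) : Q)⁻¹, hP.conj_mem _ (e.symm v).2 _⟩ : P) = e.symm v := by
        apply Subtype.ext; simp
      rw [h1, Equiv.apply_symm_apply]
    exact this v
  map_mul' a b := by
    rw [← LinearMap.toMatrix'_mul]
    congr 1
    apply LinearMap.ext
    intro v
    show cj hP e hemul ((a * b : H) : Q) v = cj hP e hemul (a : Q) (cj hP e hemul (b : Q) v)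
    show e ⟨((a * b : H) : Q) * (e.symm v : P) * ((a * b : H) : Q)⁻¹, _⟩ =
      e ⟨(a : Q) * (e.symm (e ⟨(b : Q) * (e.symm v : P) * (b : Q)⁻¹, _⟩) : P) * (a : Q)⁻¹, _⟩
    congr 1
    apply Subtype.ext
    show ((a * b : H) : Q) * (e.symm v : P) * ((a * b : H) : Q)⁻¹ =
      (a : Q) * (e.symm (e ⟨(b : Q) * (e.symm v : P) * (b : Q)⁻¹, _⟩) : P) * (a : Q)⁻¹
    rw [Equiv.symm_apply_apply, Subgroup.coe_mul]
    group

/-- the representation -/
noncomputable def rep (H : Subgroup Q) : H →* Matrix.GeneralLinearGroup (Fin n) (ZMod p) :=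
  (mt hP e hemul H).toHomUnits

theorem rep_act (H : Subgroup Q) (h : H) (x y : P) (hy : (y : Q) = (h : Q) * x * (h : Q)⁻¹) :
    e y = (rep hP e hemul H h : Matrix (Fin n) (Fin n) (ZMod p)).mulVec (e x) := by
  show e y = (LinearMap.toMatrix' ((cj hP e hemul (h : Q)).toZModLinearMap p)).mulVec (e x)
  rw [LinearMap.toMatrix'_mulVec]
  show e y = e ⟨(h : Q) * (e.symm (e x) : P) * (h : Q)⁻¹, _⟩
  congr 1
  apply Subtype.ext
  show (y : Q) = (h : Q) * (e.symm (e x) : P) * (h : Q)⁻¹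
  rw [Equiv.symm_apply_apply, hy]

end rep

/-- the reduced case -/
theorem core {Q : Type u} [Group Q] [Finite Q] (p : ℕ) [hp : Fact p.Prime] (hs : Cfsg.IsPSolvable p Q)
    (h1 : Cfsg.pPrimeCore p Q = ⊥) (hdiv : p ∣ Nat.card Q)
    (hconj : ∀ x y : Q, x ≠ 1 → y ≠ 1 → (∃ k : ℕ, orderOf x = p ^ k) → (∃ k : ℕ, orderOf y = p ^ k) → IsConj x y) :
    ∃ (n : ℕ) (P H : Subgroup Q) (e : ↥P ≃ (Fin n → ZMod p)) (ρ : ↥H →* Matrix.GeneralLinearGroup (Fin n) (ZMod p)),
      Red p n P H e ρ := by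
  classical
  set P := Cfsg.pCore p Q with hPdef
  have hPn : P.Normal := inferInstance
  have hPp : IsPGroup p P := isPGroup_pCore p Q
  -- the centralizer
  have hcen : Subgroup.centralizer (P : Set Q) ≤ P := by
    obtain ⟨S, -, hS⟩ := exists_isSyl_ge (p := p) (Q := (⊥ : Subgroup Q)) (H := Cfsg.pPrimePCore p Q)
      (IsPGroup.of_bot) bot_le
    have h2 := isPConstrained_of_centralizer_isPSolvable hS (Cfsg.Agent.Lib.PSolvTools.isPSolvable_subgroup hp.out hs _)
    exact (isPConstrained_iff_of_pPrimeCore_eq_bot h1).mp h2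
  have hPne : P ≠ ⊥ := by
    intro h0
    rw [h0] at hcen
    have h2 : (⊤ : Subgroup Q) ≤ ⊥ := by
      refine le_trans ?_ hcen
      intro x _
      rw [Subgroup.mem_centralizer_iff]
      intro y hy
      have : y = 1 := hy
      rw [this]; simp
    have h3 : Nat.card Q = 1 := by
      have : (⊤ : Subgroup Q) = ⊥ := le_antisymm h2 bot_le
      rw [← Subgroup.card_top, this, Subgroup.card_bot]
    rw [h3] at hdiv
    exact hp.out.one_lt.ne' (Nat.dvd_one.mp hdiv)
  -- a central element of order p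
  haveI : Nontrivial P := (Subgroup.nontrivial_iff_ne_bot P).mpr hPne
  haveI : Nontrivial (Subgroup.center P) := hPp.center_nontrivial
  have hZp : IsPGroup p (Subgroup.center P) := hPp.to_subgroup _
  obtain ⟨z, hz⟩ : ∃ z : Subgroup.center P, orderOf z = p := by
    apply exists_prime_orderOf_dvd_card' p
    obtain ⟨k, hk⟩ := hZp.exists_card_eq
    rw [hk]
    apply dvd_pow_self
    rintro rfl
    rw [pow_zero] at hk
    exact (Finite.one_lt_card (α := Subgroup.center P)).ne' hk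
  set z' : Q := ((z : P) : Q) with hz'
  have hzo : orderOf z' = p := by rw [hz', Subgroup.orderOf_coe, Subgroup.orderOf_coe, hz]
  have hz1 : z' ≠ 1 := by
    intro h0
    rw [h0, orderOf_one] at hzo
    exact hp.out.one_lt.ne hzo
  have hzc : ∀ x ∈ P, x * z' = z' * x := by
    intro x hx
    have := Subgroup.mem_center_iff.mp z.2 ⟨x, hx⟩
    exact congrArg Subtype.val this
  -- all p-elements
  have hall : ∀ x : Q, x ≠ 1 → (∃ k : ℕ, orderOf x = p ^ k) → x ∈ P ∧ orderOf x = p ∧ ∀ y ∈ P, y * x = x * y := by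
    intro x hx hk
    obtain ⟨g, hg⟩ := isConj_iff.mp (hconj z' x hz1 hx ⟨1, by rw [hzo, pow_one]⟩ hk)
    refine ⟨?_, ?_, ?_⟩
    · rw [← hg]; exact hPn.conj_mem _ (z : P).2 _
    · rw [← hg, ← hzo]
      exact (MulAut.conj g).orderOf_eq z' 
    · intro y hy
      have h2 := hzc (g⁻¹ * y * g) (by simpa using hPn.conj_mem _ hy g⁻¹)
      rw [← hg]
      calc y * (g * z' * g⁻¹) = g * ((g⁻¹ * y * g) * z') * g⁻¹ := by group
        _ = g * (z' * (g⁻¹ * y * g)) * g⁻¹ := by rw [h2]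
        _ = g * z' * g⁻¹ * y := by group
  have hpel : ∀ x : Q, x ∈ P → ∃ k : ℕ, orderOf x = p ^ k := by
    intro x hx
    obtain ⟨k, hk⟩ := (IsPGroup.iff_orderOf.mp hPp) ⟨x, hx⟩
    exact ⟨k, by rw [← hk, Subgroup.orderOf_mk]⟩
  have hcomm : ∀ a b : P, a * b = b * a := by
    intro a b
    by_cases hb : (b : Q) = 1
    · have : b = 1 := Subtype.ext hb
      rw [this]; simp
    · exact Subtype.ext ((hall b hb (hpel b b.2)).2.2 a a.2)
  have hexp : ∀ a : P, a ^ p = 1 := by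
    intro a
    by_cases ha : (a : Q) = 1
    · have : a = 1 := Subtype.ext ha
      rw [this]; simp
    · have h2 := (hall a ha (hpel a a.2)).2.1
      apply Subtype.ext
      show (a : Q) ^ p = 1
      rw [← h2]; exact pow_orderOf_eq_one _
  -- P is Sylow
  obtain ⟨S, hS⟩ := hPp.exists_le_sylow
  have hSP : (S : Subgroup Q) = P := by
    apply le_antisymm _ hS
    intro x hx
    by_cases hx1 : x = 1
    · rw [hx1]; exact P.one_mem
    · obtain ⟨k, hk⟩ := (IsPGroup.iff_orderOf.mp S.2) ⟨x, hx⟩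
      exact (hall x hx1 ⟨k, by rw [← hk, Subgroup.orderOf_mk]⟩).1
  have hind : ¬ p ∣ P.index := by rw [← hSP]; exact S.not_dvd_index
  have hcop : (Nat.card P).Coprime P.index := by
    obtain ⟨k, hk⟩ := hPp.exists_card_eq
    rw [hk]
    exact Nat.Coprime.pow_left k ((Nat.Prime.coprime_iff_not_dvd hp.out).mpr hind)
  obtain ⟨H, hH⟩ := Subgroup.exists_right_complement'_of_coprime hcop
  obtain ⟨n, e, he⟩ := coords p hcomm hexp
  have hPH : P ⊓ H = ⊥ := hH.disjoint.eq_bot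
  refine ⟨n, P, H, e, rep hPn e he H, ?_⟩
  refine ⟨hPn, hPH, hH.sup_eq_top, ?_, ?_, ?_, he, fun h x y hy => rep_act hPn e he H h x y hy, ?_⟩
  · by_contra h0
    have hn : n = 0 := by omega
    subst hn
    have h2 : Nat.card P = 1 := by
      rw [Nat.card_congr e, Nat.card_fun, Nat.card_fin, pow_zero]
    exact hPne (Subgroup.card_eq_one.mp h2)
  · rw [← hH.symm.index_eq_card] 
    exact hind
  · rw [injective_iff_map_eq_one]
    intro h hh
    have h2 : (h : Q) ∈ P := by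
      apply hcen
      rw [Subgroup.mem_centralizer_iff]
      intro x hx
      have h3 := rep_act hPn e he H h ⟨x, hx⟩ ⟨_, hPn.conj_mem x hx (h : Q)⟩ rfl
      rw [hh, Units.val_one, Matrix.one_mulVec] at h3
      have h4 := congrArg Subtype.val (e.injective h3)
      have h5 : (h : Q) * x * (h : Q)⁻¹ = x := h4
      calc x * (h : Q) = (h : Q) * x * (h : Q)⁻¹ * (h : Q) := by rw [h5]
        _ = (h : Q) * x := by group
    have h3 : (h : Q) ∈ P ⊓ H := Subgroup.mem_inf.mpr ⟨h2, h.2⟩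
    rw [hPH, Subgroup.mem_bot] at h3
    exact Subtype.ext h3
  · intro v w hv hw
    have hx : e.symm v ≠ 1 := by
      intro h0
      apply hv
      rw [Equiv.symm_apply_eq] at h0
      rw [h0, e_one e he]
    have hy : e.symm w ≠ 1 := by
      intro h0
      apply hw
      rw [Equiv.symm_apply_eq] at h0
      rw [h0, e_one e he]
    have hx' : ((e.symm v : P) : Q) ≠ 1 := fun h0 => hx (Subtype.ext h0)
    have hy' : ((e.symm w : P) : Q) ≠ 1 := fun h0 => hy (Subtype.ext h0)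
    obtain ⟨q, hq⟩ := isConj_iff.mp (hconj _ _ hx' hy' (hpel _ (e.symm v).2) (hpel _ (e.symm w).2))
    have h1 : q ∈ ((P ⊔ H : Subgroup Q) : Set Q) := by rw [hH.sup_eq_top]; trivial
    rw [Subgroup.normal_mul] at h1
    obtain ⟨a, ha, h, hh, rfl⟩ := Set.mem_mul.mp h1
    have h2 : ((e.symm w : P) : Q) = h * ((e.symm v : P) : Q) * h⁻¹ := by
      have hm : h * ((e.symm v : P) : Q) * h⁻¹ ∈ P := hPn.conj_mem _ (e.symm v).2 _
      have h3 := congrArg Subtype.val (hcomm ⟨a, ha⟩ ⟨_, hm⟩)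
      have h4 : a * (h * ((e.symm v : P) : Q) * h⁻¹) = (h * ((e.symm v : P) : Q) * h⁻¹) * a := h3
      calc ((e.symm w : P) : Q) = a * h * ((e.symm v : P) : Q) * (a * h)⁻¹ := hq.symm
        _ = a * (h * ((e.symm v : P) : Q) * h⁻¹) * a⁻¹ := by group
        _ = (h * ((e.symm v : P) : Q) * h⁻¹) * a * a⁻¹ := by rw [h4]
        _ = _ := by group
    refine ⟨⟨h, hh⟩, ?_⟩
    have h3 := rep_act hPn e he H ⟨h, hh⟩ (e.symm v) (e.symm w) h2
    rw [Equiv.apply_symm_apply, Equiv.apply_symm_apply] at h3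
    exact h3.symm

/-- lifting of `p`-elements -/
theorem lift_elt {G : Type u} [Group G] [Finite G] (p : ℕ) [hp : Fact p.Prime] (N : Subgroup G) [N.Normal]
    (x : G ⧸ N) (hx : ∃ k : ℕ, orderOf x = p ^ k) : ∃ g : G, (g : G ⧸ N) = x ∧ ∃ k : ℕ, orderOf g = p ^ k := by
  obtain ⟨k, hk⟩ := hx
  obtain ⟨g, rfl⟩ := QuotientGroup.mk_surjective x
  have hg0 : orderOf g ≠ 0 := (orderOf_pos g).ne'
  obtain ⟨a, m, hm, ham⟩ := Nat.exists_eq_pow_mul_and_not_dvd hg0 p hp.out.ne_one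
  have hcop : (p ^ k).Coprime m := Nat.Coprime.pow_left k ((Nat.Prime.coprime_iff_not_dvd hp.out).mpr hm)
  obtain ⟨c, hc1, hc2⟩ := Nat.chineseRemainder hcop 1 0
  refine ⟨g ^ c, ?_, ?_⟩
  · show ((g : G ⧸ N)) ^ c = g
    have h1 : (g : G ⧸ N) ^ c = (g : G ⧸ N) ^ 1 := by
      rw [pow_eq_pow_iff_modEq, hk]; exact hc1
    rw [h1, pow_one]
  · have h2 : (g ^ c) ^ (p ^ a) = 1 := by
      obtain ⟨d, hd⟩ := (Nat.modEq_zero_iff_dvd.mp hc2)
      rw [← pow_mul, ← orderOf_dvd_iff_pow_eq_one, ham, hd]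
      exact ⟨d, by ring⟩
    obtain ⟨j, -, hj⟩ := (Nat.dvd_prime_pow hp.out).mp (orderOf_dvd_of_pow_eq_one h2)
    exact ⟨j, hj⟩

theorem red {G : Type u} [Group G] [Finite G] (p : ℕ) [hp : Fact p.Prime] (hsolv : Cfsg.IsPSolvable p G) (hdiv : p ∣ Nat.card G)
    (hconj : ∀ x y : G, x ≠ 1 → y ≠ 1 → (∃ k : ℕ, orderOf x = p ^ k) → (∃ k : ℕ, orderOf y = p ^ k) → IsConj x y) :
    ∃ (N : Subgroup G) (_ : N.Normal) (n : ℕ) (P H : Subgroup (G ⧸ N)) (e : ↥P ≃ (Fin n → ZMod p))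
      (ρ : ↥H →* Matrix.GeneralLinearGroup (Fin n) (ZMod p)), ¬ p ∣ Nat.card N ∧ Red p n P H e ρ := by
  have hN : ¬ p ∣ Nat.card (Cfsg.pPrimeCore p G) := not_dvd_card_pPrimeCore
  have hdiv' : p ∣ Nat.card (G ⧸ Cfsg.pPrimeCore p G) := by
    rw [Subgroup.card_eq_card_quotient_mul_card_subgroup (Cfsg.pPrimeCore p G)] at hdiv
    exact (hp.out.dvd_mul.mp hdiv).resolve_right hN
  obtain ⟨n, P, H, e, ρ, h⟩ := core p (isPSolvable_of_surjective hp.out (QuotientGroup.mk'_surjective (Cfsg.pPrimeCore p G)) hsolv)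
    (pPrimeCore_quotient_pPrimeCore p G) hdiv' (by
      intro x y hx hy hxk hyk
      obtain ⟨g, rfl, hg⟩ := lift_elt p (Cfsg.pPrimeCore p G) x hxk
      obtain ⟨g', rfl, hg'⟩ := lift_elt p (Cfsg.pPrimeCore p G) y hyk
      have h1 : g ≠ 1 := by rintro rfl; exact hx rfl
      have h2 : g' ≠ 1 := by rintro rfl; exact hy rfl
      obtain ⟨c, hc⟩ := isConj_iff.mp (hconj g g' h1 h2 hg hg')
      exact isConj_iff.mpr ⟨(c : G ⧸ Cfsg.pPrimeCore p G), by rw [← hc]; rfl⟩)
  exact ⟨Cfsg.pPrimeCore p G, inferInstance, n, P, H, e, ρ, hN, h⟩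

end Cfsg.Agent.Lib.KPRG
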