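import Mathlib
import Cfsg.Agent.Lib.KPR0

/-! Pieces J1, J2 of S4878 (plan by helper61). -/

set_option autoImplicit false

open Cfsg.Agent.Lib.KPR

namespace Cfsg.Agent.Lib.KPRJ

theorem lift_regular {G : Type*} [Group G] [Finite G] (p : ℕ) [Fact p.Prime] (N : Subgroup G)
    [N.Normal] (y : G ⧸ N) (hy : ¬ p ∣ orderOf y) :
    ∃ g : G, (QuotientGroup.mk g : G ⧸ N) = y ∧ ¬ p ∣ orderOf g := by
  have hp : p.Prime := Fact.out
  obtain ⟨g, rfl⟩ := QuotientGroup.mk_surjective y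
  have hg0 : orderOf g ≠ 0 := (orderOf_pos g).ne'
  obtain ⟨a, b, hb, hab⟩ := Nat.exists_eq_pow_mul_and_not_dvd hg0 p hp.ne_one
  have hcop : Nat.Coprime (p ^ a) (orderOf (QuotientGroup.mk g : G ⧸ N)) :=
    Nat.Coprime.pow_left a ((Nat.Prime.coprime_iff_not_dvd hp).2 hy)
  obtain ⟨k, hk1, hk2⟩ := Nat.chineseRemainder hcop 0 1
  refine ⟨g ^ k, ?_, ?_⟩
  · have : (QuotientGroup.mk (g ^ k) : G ⧸ N) = (QuotientGroup.mk g : G ⧸ N) ^ k := rfl
    rw [this]
    conv_rhs => rw [← pow_one (QuotientGroup.mk g : G ⧸ N)]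
    exact pow_eq_pow_iff_modEq.2 hk2
  · intro hdvd
    apply hb
    refine hdvd.trans ?_
    apply orderOf_dvd_of_pow_eq_one
    rw [← pow_mul]
    apply orderOf_dvd_iff_pow_eq_one.1
    rw [hab]
    exact Nat.mul_dvd_mul_right ((Nat.modEq_zero_iff_dvd).1 hk1) b

/-- the map on regular classes -/
noncomputable def qmap {G : Type*} [Group G] (p : ℕ) (N : Subgroup G) [N.Normal] :
    {c : ConjClasses G // ∃ g : G, ConjClasses.mk g = c ∧ ¬ p ∣ orderOf g} →
    {c : ConjClasses (G ⧸ N) // ∃ g : G ⧸ N, ConjClasses.mk g = c ∧ ¬ p ∣ orderOf g} :=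
  fun c => ⟨ConjClasses.map (QuotientGroup.mk' N) c.1, by
    obtain ⟨c, g, rfl, hg⟩ := c
    exact ⟨QuotientGroup.mk' N g, rfl, fun h => hg (h.trans (orderOf_map_dvd _ g))⟩⟩

theorem qmap_surjective {G : Type*} [Group G] [Finite G] (p : ℕ) [Fact p.Prime] (N : Subgroup G)
    [N.Normal] : Function.Surjective (qmap p N) := by
  rintro ⟨c, y, rfl, hy⟩
  obtain ⟨g, hg, hg2⟩ := lift_regular p N y hy
  refine ⟨⟨ConjClasses.mk g, g, rfl, hg2⟩, ?_⟩
  apply Subtype.ext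
  change ConjClasses.mk (QuotientGroup.mk' N g) = ConjClasses.mk y
  rw [← hg]
  rfl

theorem kreg_quot {G : Type*} [Group G] [Finite G] (p : ℕ) [Fact p.Prime] (N : Subgroup G)
    [N.Normal] : kreg p (G ⧸ N) ≤ kreg p G := by
  have : Finite (ConjClasses G) := Quotient.finite _
  exact Nat.card_le_card_of_surjective (qmap p N) (qmap_surjective p N)

theorem kreg_quot' {G : Type*} [Group G] [Finite G] (p : ℕ) [Fact p.Prime] (N : Subgroup G)
    [N.Normal] (hN : N ≠ ⊥) (hpN : ¬ p ∣ Nat.card N) : kreg p (G ⧸ N) + 1 ≤ kreg p G := by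
  have : Finite (ConjClasses G) := Quotient.finite _
  have hp : p.Prime := Fact.out
  by_contra hlt
  have heq : kreg p G = kreg p (G ⧸ N) := le_antisymm (by omega) (kreg_quot p N)
  have : Finite (ConjClasses (G ⧸ N)) := Quotient.finite _
  have hinj : Function.Injective (qmap p N) := by
    classical
    have := Fintype.ofFinite
      {c : ConjClasses G // ∃ g : G, ConjClasses.mk g = c ∧ ¬ p ∣ orderOf g}
    have := Fintype.ofFinite
      {c : ConjClasses (G ⧸ N) // ∃ g : G ⧸ N, ConjClasses.mk g = c ∧ ¬ p ∣ orderOf g}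
    refine ((Fintype.bijective_iff_surjective_and_card (qmap p N)).2
      ⟨qmap_surjective p N, ?_⟩).1
    rw [← Nat.card_eq_fintype_card, ← Nat.card_eq_fintype_card]
    exact heq
  obtain ⟨⟨x, hxN⟩, hx⟩ := (Subgroup.ne_bot_iff_exists_ne_one).1 hN
  have hx1 : x ≠ 1 := fun h => hx (Subtype.ext h)
  have hxo : ¬ p ∣ orderOf x := by
    intro h
    apply hpN
    refine h.trans ?_
    have := orderOf_dvd_natCard (⟨x, hxN⟩ : N)
    rwa [Subgroup.orderOf_mk] at this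
  have h1o : ¬ p ∣ orderOf (1 : G) := by
    rw [orderOf_one]
    exact hp.one_lt.not_ge ∘ Nat.le_of_dvd one_pos
  have := @hinj ⟨ConjClasses.mk x, x, rfl, hxo⟩ ⟨ConjClasses.mk 1, 1, rfl, h1o⟩ (by
    apply Subtype.ext
    change ConjClasses.mk (QuotientGroup.mk' N x) = ConjClasses.mk (QuotientGroup.mk' N 1)
    congr 1
    rw [map_one]
    exact (QuotientGroup.eq_one_iff x).2 hxN)
  have h2 := ConjClasses.mk_eq_mk_iff_isConj.1 (congrArg Subtype.val this)
  exact hx1 (isConj_one_right.1 h2.symm)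

/-- a `p`-regular element of `P ⋊ H` is conjugate into `H` -/
theorem conj_into {Q : Type*} [Group Q] [Finite Q] (p n : ℕ) [Fact p.Prime] (P H : Subgroup Q)
    (e : ↥P ≃ (Fin n → ZMod p)) (ρ : ↥H →* Matrix.GeneralLinearGroup (Fin n) (ZMod p))
    (hR : Red p n P H e ρ) (y : Q) (hy : ¬ p ∣ orderOf y) : ∃ h : H, IsConj (h : Q) y := by
  have := hR.norm
  have hmem : y ∈ P ⊔ H := by rw [hR.sup]; trivial
  obtain ⟨x, hx, h, hh, rfl⟩ := (Subgroup.mem_sup_of_normal_left).1 hmem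
  set y := x * h with hydef
  set m := orderOf y with hm
  have hmp : (m : ZMod p) ≠ 0 := by
    intro h0
    exact hy ((ZMod.natCast_eq_zero_iff m p).1 h0)
  -- the cocycle
  have hX : ∀ j : ℕ, y ^ j * (h ^ j)⁻¹ ∈ P := by
    intro j
    induction j with
    | zero => simp
    | succ j ih =>
      have : y ^ (j + 1) * (h ^ (j + 1))⁻¹ = x * (h * (y ^ j * (h ^ j)⁻¹) * h⁻¹) := by
        rw [pow_succ' y, pow_succ' h, hydef]; group
      rw [this]
      exact P.mul_mem hx (hR.norm.conj_mem _ ih h)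
  let X : ℕ → P := fun j => ⟨y ^ j * (h ^ j)⁻¹, hX j⟩
  let hH : H := ⟨h, hh⟩
  have hstep : ∀ j, e (X (j + 1)) = e (X 1) +
      (ρ hH : Matrix (Fin n) (Fin n) (ZMod p)).mulVec (e (X j)) := by
    intro j
    have h1 := hR.eact hH (X j) ⟨h * (X j : Q) * h⁻¹, hR.norm.conj_mem _ (X j).2 h⟩ rfl
    rw [← h1, ← hR.emul]
    congr 1
    apply Subtype.ext
    change y ^ (j + 1) * (h ^ (j + 1))⁻¹ = (y ^ 1 * (h ^ 1)⁻¹) * (h * (y ^ j * (h ^ j)⁻¹) * h⁻¹)
    rw [pow_succ' y, pow_succ' h, pow_one, pow_one]; group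
  have he1 : e 1 = 0 := by
    have := hR.emul 1 1
    rw [mul_one] at this
    exact left_eq_add.1 this
  have hX0 : X 0 = 1 := by
    apply Subtype.ext
    change y ^ 0 * (h ^ 0)⁻¹ = 1
    simp
  have hXm : X m = 1 := by
    apply Subtype.ext
    have h1 : (X m : Q) ∈ P ⊓ H := by
      refine Subgroup.mem_inf.2 ⟨(X m).2, ?_⟩
      change y ^ m * (h ^ m)⁻¹ ∈ H
      rw [hm, pow_orderOf_eq_one, one_mul]
      exact H.inv_mem (H.pow_mem hh _)
    rw [hR.inf] at h1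
    exact Subgroup.mem_bot.1 h1
  set A := (ρ hH : Matrix (Fin n) (Fin n) (ZMod p)) with hA
  have hsum : ∀ k : ℕ, (∑ j ∈ Finset.range k, e (X j)) - A.mulVec (∑ j ∈ Finset.range k, e (X j)) =
      (k : ZMod p) • e (X 1) + e (X 0) - e (X k) := by
    intro k
    induction k with
    | zero => simp
    | succ k ih =>
      rw [Finset.sum_range_succ, Matrix.mulVec_add, add_sub_add_comm, ih, hstep k, Nat.cast_succ,
        add_smul, one_smul]
      abel
  set v : Fin n → ZMod p := ((m : ZMod p)⁻¹) • ∑ j ∈ Finset.range m, e (X j) with hv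
  have hvA : v - A.mulVec v = e (X 1) := by
    rw [hv, Matrix.mulVec_smul, ← smul_sub, hsum m, hX0, hXm, he1, add_zero, sub_zero, smul_smul,
      inv_mul_cancel₀ hmp, one_smul]
  let w : P := e.symm v
  have hw : e w = v := e.apply_symm_apply v
  have hwinv : e w⁻¹ = -v := by
    have := hR.emul w w⁻¹
    rw [mul_inv_cancel, he1, hw] at this
    exact (neg_eq_of_add_eq_zero_right this.symm).symm
  have hfin : (w * ⟨h * (w⁻¹ : P) * h⁻¹, hR.norm.conj_mem _ (w⁻¹).2 h⟩ : P) = X 1 := by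
    apply e.injective
    rw [hR.emul, hR.eact hH w⁻¹ ⟨h * (w⁻¹ : P) * h⁻¹, hR.norm.conj_mem _ (w⁻¹).2 h⟩ rfl, hw, hwinv,
      Matrix.mulVec_neg, ← sub_eq_add_neg]
    exact hvA
  have hfin2 := congrArg (Subtype.val) hfin
  refine ⟨hH, isConj_iff.2 ⟨(w : Q), ?_⟩⟩
  change (w : Q) * (h * ((w⁻¹ : P) : Q) * h⁻¹) = y ^ 1 * (h ^ 1)⁻¹ at hfin2
  rw [pow_one, pow_one] at hfin2
  have h3 : (w : Q) * (h * ((w⁻¹ : P) : Q) * h⁻¹) * h = y := by
    rw [hfin2]; group
  rw [← h3]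
  change (w : Q) * h * (w : Q)⁻¹ = (w : Q) * (h * (w : Q)⁻¹ * h⁻¹) * h
  group

theorem no_fusion {Q : Type*} [Group Q] (P H : Subgroup Q) (hn : P.Normal) (hinf : P ⊓ H = ⊥)
    (hsup : P ⊔ H = ⊤) (a b : H) (hab : IsConj (a : Q) (b : Q)) : IsConj a b := by
  obtain ⟨g, hg⟩ := isConj_iff.1 hab
  have hmem : g ∈ P ⊔ H := by rw [hsup]; trivial
  obtain ⟨x, hx, h, hh, rfl⟩ := (Subgroup.mem_sup_of_normal_left).1 hmem
  refine isConj_iff.2 ⟨⟨h, hh⟩, ?_⟩
  apply Subtype.ext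
  change h * (a : Q) * h⁻¹ = (b : Q)
  have h1 : (b : Q)⁻¹ * (h * a * h⁻¹) ∈ P ⊓ H := by
    refine Subgroup.mem_inf.2 ⟨?_, ?_⟩
    · have : (b : Q)⁻¹ * (h * a * h⁻¹) = ((b : Q)⁻¹ * x⁻¹ * (b : Q)) * x := by
        rw [← hg]; group
      rw [this]
      refine P.mul_mem ?_ hx
      have := hn.conj_mem x⁻¹ (P.inv_mem hx) (b : Q)⁻¹
      rwa [inv_inv] at this
    · exact H.mul_mem (H.inv_mem b.2) (H.mul_mem (H.mul_mem hh a.2) (H.inv_mem hh))
  rw [hinf] at h1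
  have := Subgroup.mem_bot.1 h1
  exact (inv_mul_eq_one.1 this).symm

theorem kreg_red {Q : Type*} [Group Q] [Finite Q] (p n : ℕ) [Fact p.Prime] (P H : Subgroup Q)
    (e : ↥P ≃ (Fin n → ZMod p)) (ρ : ↥H →* Matrix.GeneralLinearGroup (Fin n) (ZMod p))
    (h : Red p n P H e ρ) : kreg p Q = Nat.card (ConjClasses H) := by
  symm
  have hreg : ∀ a : H, ¬ p ∣ orderOf (a : Q) := by
    intro a ha
    apply h.hp
    rw [Subgroup.orderOf_coe] at ha
    exact ha.trans (orderOf_dvd_natCard a)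
  let f : ConjClasses H →
      {c : ConjClasses Q // ∃ g : Q, ConjClasses.mk g = c ∧ ¬ p ∣ orderOf g} :=
    fun c => ⟨ConjClasses.map H.subtype c, by
      obtain ⟨a, rfl⟩ := ConjClasses.mk_surjective c
      exact ⟨(a : Q), rfl, hreg a⟩⟩
  refine Nat.card_congr (Equiv.ofBijective f ⟨?_, ?_⟩)
  · intro c d hcd
    obtain ⟨a, rfl⟩ := ConjClasses.mk_surjective c
    obtain ⟨b, rfl⟩ := ConjClasses.mk_surjective d
    have h1 := congrArg Subtype.val hcd
    change ConjClasses.mk (a : Q) = ConjClasses.mk (b : Q) at h1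
    exact ConjClasses.mk_eq_mk_iff_isConj.2
      (no_fusion P H h.norm h.inf h.sup a b (ConjClasses.mk_eq_mk_iff_isConj.1 h1))
  · rintro ⟨c, y, rfl, hy⟩
    obtain ⟨a, ha⟩ := conj_into p n P H e ρ h y hy
    refine ⟨ConjClasses.mk a, ?_⟩
    apply Subtype.ext
    change ConjClasses.mk (a : Q) = ConjClasses.mk y
    exact ConjClasses.mk_eq_mk_iff_isConj.2 ha

end Cfsg.Agent.Lib.KPRJ
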