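import Mathlib
import Cfsg.Agent.Lib.KPR0

/-!
# S4878, pieces K1 and K2
-/

set_option autoImplicit false
set_option linter.all false

namespace Cfsg.Agent.Lib.KPRK

open Cfsg.Agent.Lib.KPR

section
variable {Q : Type*} [Group Q] [Finite Q] {p n : ℕ} [Fact p.Prime] {P H : Subgroup Q} {e : ↥P ≃ (Fin n → ZMod p)}
  {ρ : ↥H →* Matrix.GeneralLinearGroup (Fin n) (ZMod p)}

theorem dec (h : Red p n P H e ρ) (q : Q) : ∃ x : P, ∃ y : H, q = (x : Q) * (y : Q) := by
  haveI := h.norm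
  have h1 : q ∈ ((P ⊔ H : Subgroup Q) : Set Q) := by rw [h.sup]; trivial
  rw [Subgroup.normal_mul] at h1
  obtain ⟨x, hx, y, hy, rfl⟩ := Set.mem_mul.mp h1
  exact ⟨⟨x, hx⟩, ⟨y, hy⟩, rfl⟩

theorem e_one (h : Red p n P H e ρ) : e 1 = 0 := by
  have := h.emul 1 1
  rw [mul_one] at this
  simpa using this

theorem e_ne (h : Red p n P H e ρ) {x : P} (hx : x ≠ 1) : e x ≠ 0 := by
  intro h0
  apply hx
  apply e.injective
  rw [h0, e_one h]

theorem e_conj (h : Red p n P H e ρ) (y : H) (x : P) (hm : (y : Q) * x * (y : Q)⁻¹ ∈ P) :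
    e ⟨(y : Q) * x * (y : Q)⁻¹, hm⟩ = (ρ y : Matrix (Fin n) (Fin n) (ZMod p)).mulVec (e x) :=
  h.eact y x ⟨_, hm⟩ rfl

theorem cardP (h : Red p n P H e ρ) : Nat.card P = p ^ n := by
  rw [Nat.card_congr e, Nat.card_fun, Nat.card_fin, Nat.card_zmod]

theorem cardQ (h : Red p n P H e ρ) : Nat.card Q = p ^ n * Nat.card H := by
  haveI := h.norm
  have hc : P.IsComplement' H := by
    apply Subgroup.isComplement'_of_disjoint_and_mul_eq_univ
    · rw [disjoint_iff]; exact h.inf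
    · rw [← Subgroup.normal_mul, h.sup]; rfl
  rw [← hc.card_mul, cardP h]

/-- nonzero vectors -/
theorem card_nz : Nat.card {v : Fin n → ZMod p // v ≠ 0} = p ^ n - 1 := by
  classical
  rw [Nat.card_eq_fintype_card, Fintype.card_subtype_compl, Fintype.card_fun, Fintype.card_fin, ZMod.card,
    Fintype.card_subtype_eq]

/-- the orbit map -/
def orb (ρ : ↥H →* Matrix.GeneralLinearGroup (Fin n) (ZMod p)) (v : {v : Fin n → ZMod p // v ≠ 0}) (y : H) :
    {v : Fin n → ZMod p // v ≠ 0} :=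
  ⟨(ρ y : Matrix (Fin n) (Fin n) (ZMod p)).mulVec v.1, by
    intro h0
    apply v.2
    have h1 : ((ρ y)⁻¹ : Matrix.GeneralLinearGroup (Fin n) (ZMod p)).1.mulVec
        ((ρ y : Matrix (Fin n) (Fin n) (ZMod p)).mulVec v.1) = v.1 := by
      rw [Matrix.mulVec_mulVec, ← Units.val_mul, inv_mul_cancel, Units.val_one, Matrix.one_mulVec]
    rw [h0, Matrix.mulVec_zero] at h1
    exact h1.symm⟩

theorem orb_surj (h : Red p n P H e ρ) (v : {v : Fin n → ZMod p // v ≠ 0}) : Function.Surjective (orb ρ v) := by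
  intro w
  obtain ⟨y, hy⟩ := h.trans v.1 w.1 v.2 w.2
  exact ⟨y, Subtype.ext hy⟩

theorem orb_inj (h : Red p n P H e ρ) (hH : Nat.card H = p ^ n - 1) (v : {v : Fin n → ZMod p // v ≠ 0}) :
    Function.Injective (orb ρ v) := by
  have h1 : Function.Bijective (orb ρ v) := by
    rw [Nat.bijective_iff_surjective_and_card]
    exact ⟨orb_surj h v, by rw [hH, card_nz]⟩
  exact h1.1

theorem free (h : Red p n P H e ρ) (hH : Nat.card H = p ^ n - 1) (x : P) (hx : x ≠ 1) (y : H)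
    (hy : (y : Q) * x = x * y) : y = 1 := by
  have h1 : (y : Q) * x * (y : Q)⁻¹ = x := by rw [hy, mul_inv_cancel_right]
  have h2 := h.eact y x x h1.symm
  apply orb_inj h hH ⟨e x, e_ne h hx⟩
  apply Subtype.ext
  show (ρ y : Matrix (Fin n) (Fin n) (ZMod p)).mulVec (e x) = (ρ 1 : Matrix (Fin n) (Fin n) (ZMod p)).mulVec (e x)
  rw [← h2, map_one, Units.val_one, Matrix.one_mulVec]

theorem frobC (h : Red p n P H e ρ) (hH : Nat.card H = p ^ n - 1) (h1 : 1 < Nat.card H) : Cfsg.IsFrobeniusComplement H := by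
  haveI := h.norm
  refine ⟨?_, ?_, ?_⟩
  · rintro rfl
    rw [Subgroup.card_bot] at h1
    exact lt_irrefl _ h1
  · rintro rfl
    have h2 := cardQ h
    have h3 : Nat.card (⊤ : Subgroup Q) = Nat.card Q := Nat.card_congr Subgroup.topEquiv.toEquiv
    rw [← h3] at h2
    have h4 : 0 < Nat.card (⊤ : Subgroup Q) := Nat.card_pos
    have h5 : 2 ≤ p ^ n := by
      calc 2 ≤ p := (Fact.out : p.Prime).two_le
        _ = p ^ 1 := (pow_one p).symm
        _ ≤ p ^ n := Nat.pow_le_pow_right (Fact.out : p.Prime).pos h.pos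
    nlinarith
  · intro g hg
    rw [Subgroup.eq_bot_iff_forall]
    intro y hy
    obtain ⟨hy1, hy2⟩ := Subgroup.mem_inf.mp hy
    obtain ⟨x, k, rfl⟩ := dec h g
    rw [Subgroup.mem_pointwise_smul_iff_inv_smul_mem] at hy2
    have hy3 : (x * k : Q)⁻¹ * y * (x * k : Q) ∈ H := by
      have e1 : (MulAut.conj (x * k : Q))⁻¹ • y = (x * k : Q)⁻¹ * y * (x * k : Q) := by
        rw [← map_inv]
        show (x * k : Q)⁻¹ * y * ((x * k : Q)⁻¹)⁻¹ = _
        rw [inv_inv]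
      rw [← e1]; exact hy2
    have hx1 : x ≠ 1 := by
      rintro rfl
      apply hg
      rw [Subgroup.coe_one, one_mul]
      exact k.2
    -- y' = x⁻¹ y x ∈ H
    have hy4 : (x : Q)⁻¹ * y * x ∈ H := by
      have := H.mul_mem (H.mul_mem k.2 hy3) (H.inv_mem k.2)
      have e2 : (k : Q) * ((x * k : Q)⁻¹ * y * (x * k : Q)) * (k : Q)⁻¹ = (x : Q)⁻¹ * y * x := by group
      rwa [e2] at this
    have h5 : (x : Q)⁻¹ * y * x * y⁻¹ ∈ P ⊓ H := by
      refine Subgroup.mem_inf.mpr ⟨?_, H.mul_mem hy4 (H.inv_mem hy1)⟩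
      have : (x : Q)⁻¹ * (y * x * y⁻¹) ∈ P := P.mul_mem (P.inv_mem x.2) (h.norm.conj_mem _ x.2 _)
      simpa only [mul_assoc] using this
    rw [h.inf, Subgroup.mem_bot] at h5
    have h6 : y * (x : Q) = x * y := by
      have h7 : (x : Q)⁻¹ * y * x = y := by rw [← mul_inv_eq_one]; exact h5
      calc y * (x : Q) = x * ((x : Q)⁻¹ * y * x) := by group
        _ = x * y := by rw [h7]
    exact congrArg Subtype.val (free h hH x hx1 ⟨y, hy1⟩ h6)

end

/-- K2 -/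
theorem frob {Q : Type*} [Group Q] [Finite Q] [Fact (Nat.Prime 11)] {P H : Subgroup Q} {e : ↥P ≃ (Fin 2 → ZMod 11)}
    {ρ : ↥H →* Matrix.GeneralLinearGroup (Fin 2) (ZMod 11)} (h : Red 11 2 P H e ρ) (hH : Nat.card H = 120) :
    Nat.card Q = 121 * 120 ∧ Cfsg.IsFrobeniusComplement H ∧
      (∀ x : P, x ≠ 1 → ∀ y : H, (y : Q) * x = x * y → y = 1) := by
  have hH' : Nat.card H = 11 ^ 2 - 1 := by rw [hH]; norm_num
  refine ⟨?_, frobC h hH' (by rw [hH]; norm_num), free h hH'⟩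
  rw [cardQ h, hH]; norm_num

section one
variable {Q : Type*} [Group Q] [Finite Q] {p : ℕ} [Fact p.Prime] {P H : Subgroup Q} {e : ↥P ≃ (Fin 1 → ZMod p)}
  {ρ : ↥H →* Matrix.GeneralLinearGroup (Fin 1) (ZMod p)}

theorem mv (A : Matrix (Fin 1) (Fin 1) (ZMod p)) (v : Fin 1 → ZMod p) : A.mulVec v 0 = A 0 0 * v 0 := by
  simp [Matrix.mulVec, dotProduct]

theorem comm1 (h : Red p 1 P H e ρ) (a b : H) : a * b = b * a := by
  apply h.inj
  rw [map_mul, map_mul]
  apply Units.ext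
  rw [Units.val_mul, Units.val_mul]
  ext i j
  fin_cases i; fin_cases j
  simp [Matrix.mul_apply, mul_comm]

theorem ext1 (h : Red p 1 P H e ρ) {a b : H} (hab : (ρ a : Matrix (Fin 1) (Fin 1) (ZMod p)) 0 0 = (ρ b : Matrix (Fin 1) (Fin 1) (ZMod p)) 0 0) :
    a = b := by
  apply h.inj
  apply Units.ext
  ext i j
  fin_cases i; fin_cases j
  exact hab

theorem card1 (h : Red p 1 P H e ρ) : Nat.card H = p - 1 := by
  have hv : (fun _ => 1 : Fin 1 → ZMod p) ≠ 0 := by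
    intro h0
    exact one_ne_zero (congrFun h0 0)
  have h1 : Function.Bijective (orb ρ ⟨_, hv⟩) := by
    refine ⟨?_, orb_surj h _⟩
    intro a b hab
    apply ext1 h
    have h2 := congrFun (congrArg Subtype.val hab) 0
    have h3 : (ρ a : Matrix (Fin 1) (Fin 1) (ZMod p)).mulVec (fun _ => 1) 0 =
      (ρ b : Matrix (Fin 1) (Fin 1) (ZMod p)).mulVec (fun _ => 1) 0 := h2
    rw [mv, mv, mul_one, mul_one] at h3
    exact h3
  rw [Nat.card_congr (Equiv.ofBijective _ h1), card_nz, pow_one]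

theorem classes1 (h : Red p 1 P H e ρ) : Nat.card (ConjClasses H) = p - 1 := by
  rw [← card1 h]
  symm
  apply Nat.card_congr
  apply Equiv.ofBijective (ConjClasses.mk : H → ConjClasses H)
  refine ⟨?_, ConjClasses.mk_surjective⟩
  intro a b hab
  obtain ⟨c, hc⟩ := isConj_iff.mp (ConjClasses.mk_eq_mk_iff_isConj.mp hab)
  rw [← hc, comm1 h c a, mul_inv_cancel_right]

/-- `P ≃ Q ⧸ H` -/
noncomputable def beta (h : Red p 1 P H e ρ) : P ≃ Q ⧸ H :=
  Equiv.ofBijective (fun x : P => ((x : Q) : Q ⧸ H)) (by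
    constructor
    · intro x x' hx
      have h1 := QuotientGroup.eq.mp hx
      have h2 : (x : Q)⁻¹ * x' ∈ P ⊓ H := Subgroup.mem_inf.mpr ⟨P.mul_mem (P.inv_mem x.2) x'.2, h1⟩
      rw [h.inf, Subgroup.mem_bot] at h2
      exact Subtype.ext (inv_mul_eq_one.mp h2)
    · intro c
      obtain ⟨q, rfl⟩ := QuotientGroup.mk_surjective c
      obtain ⟨x, y, rfl⟩ := dec h q
      exact ⟨x, QuotientGroup.eq.mpr (by simpa using y.2)⟩)

/-- `Q ⧸ H ≃ F_p` -/
noncomputable def pi1 (h : Red p 1 P H e ρ) : (Q ⧸ H) ≃ ZMod p :=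
  (beta h).symm.trans (e.trans (Equiv.funUnique (Fin 1) (ZMod p)))

theorem pi1_mk (h : Red p 1 P H e ρ) (x : P) : pi1 h ((x : Q) : Q ⧸ H) = e x 0 := by
  have h1 : (beta h).symm ((x : Q) : Q ⧸ H) = x := by
    rw [Equiv.symm_apply_eq]; rfl
  show (e.trans (Equiv.funUnique (Fin 1) (ZMod p))) ((beta h).symm ((x : Q) : Q ⧸ H)) = _
  rw [h1]
  rfl

/-- the action -/
noncomputable def Phi (h : Red p 1 P H e ρ) : Q →* Equiv.Perm (ZMod p) :=
  (pi1 h).permCongrHom.toMonoidHom.comp (MulAction.toPermHom Q (Q ⧸ H))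

theorem Phi_apply (h : Red p 1 P H e ρ) (x : P) (y : H) (v : ZMod p) :
    Phi h ((x : Q) * y) v = (ρ y : Matrix (Fin 1) (Fin 1) (ZMod p)) 0 0 * v + e x 0 := by
  obtain ⟨x', hx'⟩ : ∃ x' : P, e x' 0 = v := ⟨e.symm (fun _ => v), by rw [Equiv.apply_symm_apply]⟩
  have h1 : (pi1 h).symm v = ((x' : Q) : Q ⧸ H) := by
    rw [Equiv.symm_apply_eq, pi1_mk, hx']
  have hm : (y : Q) * x' * (y : Q)⁻¹ ∈ P := h.norm.conj_mem _ x'.2 _
  have h2 : ((x : Q) * y) • ((x' : Q) : Q ⧸ H) = (((x * ⟨_, hm⟩ : P) : Q) : Q ⧸ H) := by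
    rw [MulAction.Quotient.smul_coe]
    apply QuotientGroup.eq.mpr
    have e1 : ((x : Q) * y * x')⁻¹ * ((x : Q) * ((y : Q) * x' * (y : Q)⁻¹)) = (y : Q)⁻¹ := by group
    show ((x : Q) * y * x')⁻¹ * ((x : Q) * ((y : Q) * x' * (y : Q)⁻¹)) ∈ H
    rw [e1]
    exact H.inv_mem y.2
  have h3 : Phi h ((x : Q) * y) v = pi1 h (((x : Q) * y) • (pi1 h).symm v) := rfl
  rw [h3, h1, h2, pi1_mk, h.emul, e_conj h y x' hm, Pi.add_apply, mv, hx']
  ring

theorem Phi_mem (h : Red p 1 P H e ρ) (q : Q) : Phi h q ∈ Cfsg.affineGroup (ZMod p) := by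
  obtain ⟨x, y, rfl⟩ := dec h q
  refine ⟨Matrix.GeneralLinearGroup.det (ρ y), e x 0, fun v => ?_⟩
  rw [Phi_apply]
  congr 2
  show _ = Matrix.det (ρ y : Matrix (Fin 1) (Fin 1) (ZMod p))
  rw [Matrix.det_fin_one]

/-- K1 -/
theorem agl (h : Red p 1 P H e ρ) : Nat.card (ConjClasses H) = p - 1 ∧ Nonempty (Q ≃* ↥(Cfsg.affineGroup (ZMod p))) := by
  refine ⟨classes1 h, ⟨MulEquiv.ofBijective ((Phi h).codRestrict (Cfsg.affineGroup (ZMod p)) (Phi_mem h)) ⟨?_, ?_⟩⟩⟩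
  · rw [injective_iff_map_eq_one]
    intro q hq
    obtain ⟨x, y, rfl⟩ := dec h q
    have hq' : Phi h ((x : Q) * y) = 1 := congrArg Subtype.val hq
    have h0 := Phi_apply h x y 0
    have h1 := Phi_apply h x y 1
    rw [hq', Equiv.Perm.one_apply, mul_zero, zero_add] at h0
    rw [hq', Equiv.Perm.one_apply, mul_one, ← h0, add_zero] at h1
    have hx : x = 1 := by
      by_contra hne
      apply e_ne h hne
      ext i
      fin_cases i
      exact h0.symm
    have hy : y = 1 := by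
      apply ext1 h
      rw [← h1, map_one]
      simp
    rw [hx, hy]; simp
  · rintro ⟨σ, a, b, hσ⟩
    have hv : (fun _ => 1 : Fin 1 → ZMod p) ≠ 0 := by
      intro h0
      exact one_ne_zero (congrFun h0 0)
    have hw : (fun _ => (a : ZMod p) : Fin 1 → ZMod p) ≠ 0 := by
      intro h0
      exact a.ne_zero (congrFun h0 0)
    obtain ⟨y, hy⟩ := h.trans _ _ hv hw
    have hy0 : (ρ y : Matrix (Fin 1) (Fin 1) (ZMod p)) 0 0 = a := by
      have := congrFun hy 0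
      rw [mv, mul_one] at this
      exact this
    refine ⟨((e.symm (fun _ => b) : P) : Q) * y, ?_⟩
    apply Subtype.ext
    apply Equiv.ext
    intro v
    show Phi h (((e.symm (fun _ => b) : P) : Q) * y) v = σ v
    rw [Phi_apply, hσ, hy0, Equiv.apply_symm_apply]

end one

end Cfsg.Agent.Lib.KPRK
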