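import Cfsg.Agent.Lib.SL2Count
import Mathlib

/-!
# Piece K3 of S4878 (helper79): `SL(2,5)` has nine classes
-/

set_option autoImplicit false
set_option linter.all false

open Cfsg

namespace Cfsg.Agent.Lib.KPRK3

open Cfsg.Agent.Lib.SL2Basic Cfsg.Agent.Lib.SL2Tori Cfsg.Agent.Lib.SL2Int Cfsg.Agent.Lib.SL2Ind Cfsg.Agent.Lib.SL2Ortho Cfsg.Agent.Lib.SL2Class Cfsg.Agent.Lib.SL2Vals Cfsg.Agent.Lib.SL2Deg Cfsg.Agent.Lib.LinChar Cfsg.Agent.Lib.CharBasic Cfsg.Agent.Lib.SL2Count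

theorem cls25 : Nat.card (ConjClasses (Matrix.SpecialLinearGroup (Fin 2) (ZMod 5))) = 9 := by
  classical
  haveI : Fact (Nat.Prime 5) := ⟨by norm_num⟩
  have hodd : Odd (Fintype.card (ZMod 5)) := by rw [ZMod.card]; decide
  rw [card_conjClasses, card_Zs_odd (two_ne_zero_of_odd hodd), Nat.card_eq_fintype_card, ZMod.card]
  norm_num

end Cfsg.Agent.Lib.KPRK3
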