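import Mathlib
import Cfsg.Agent.Lib.KPR0
import Cfsg.Agent.Lib.SL25

set_option autoImplicit false

open Cfsg.Agent.Lib.KPR

namespace Cfsg.Agent.Lib.KPRL

/-- counting lemma -/
theorem fiber_count {X Y : Type*} [Finite X] [Finite Y] (f : X → Y) (hf : Function.Surjective f)
    (hc : Nat.card X ≤ Nat.card Y + 1) (x0 x1 : X) (h01 : x0 ≠ x1) (hfe : f x0 = f x1) :
    (∀ x, f x = f x0 → x = x0 ∨ x = x1) ∧ (∀ x x', f x = f x' → f x ≠ f x0 → x = x') := by
  classical
  let g : {x : X // x ≠ x1} → Y := fun x => f x.1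
  have hg : Function.Surjective g := by
    intro y
    obtain ⟨x, rfl⟩ := hf y
    by_cases hx : x = x1
    · exact ⟨⟨x0, h01⟩, by subst hx; exact hfe⟩
    · exact ⟨⟨x, hx⟩, rfl⟩
  have hcard : Nat.card {x : X // x ≠ x1} < Nat.card X :=
    Finite.card_subtype_lt (p := fun x => x ≠ x1) (x := x1) (by simp)
  have hinj : Function.Injective g :=
    (hg.bijective_of_nat_card_le (by omega)).1
  constructor
  · intro x hx
    by_cases hx1 : x = x1
    · exact Or.inr hx1
    · left
      have := @hinj ⟨x, hx1⟩ ⟨x0, h01⟩ hx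
      exact congrArg Subtype.val this
  · intro x x' hxx hne
    have hx1 : x ≠ x1 := by rintro rfl; exact hne hfe.symm
    have hx2 : x' ≠ x1 := by rintro rfl; exact hne (hxx.trans hfe.symm)
    exact congrArg Subtype.val (@hinj ⟨x, hx1⟩ ⟨x', hx2⟩ hxx)

theorem order_lift {G Q : Type*} [Group G] [Finite G] [Group Q] (π : G →* Q) (p : ℕ) (hp : p.Prime)
    (hN : ¬ p ∣ Nat.card π.ker) (g : G) (h : ¬ p ∣ orderOf (π g)) : ¬ p ∣ orderOf g := by
  intro hd
  have h1 : g ^ (orderOf (π g)) ∈ π.ker := by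
    rw [MonoidHom.mem_ker, map_pow, pow_orderOf_eq_one]
  have h2 : (g ^ (orderOf (π g))) ^ (Nat.card π.ker) = 1 := by
    have := pow_card_eq_one' (x := (⟨_, h1⟩ : π.ker))
    simpa using congrArg Subtype.val this
  rw [← pow_mul] at h2
  have h3 := hd.trans (orderOf_dvd_of_pow_eq_one h2)
  rcases (hp.dvd_mul).1 h3 with h4 | h4
  · exact h h4
  · exact hN h4

theorem classes {G Q : Type*} [Group G] [Finite G] [Group Q] [Finite Q] (π : G →* Q)
    (hπ : Function.Surjective π) (p : ℕ) (hp : p.Prime) (hN : ¬ p ∣ Nat.card π.ker)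
    (hk : kreg p G ≤ kreg p Q + 1)
    (n0 : G) (hn0 : π n0 = 1) (hn1 : n0 ≠ 1) :
    (∀ n, π n = 1 → n ≠ 1 → IsConj n n0) ∧
      (∀ g g', π g' = π g → π g ≠ 1 → ¬ p ∣ orderOf (π g) → IsConj g g') := by
  classical
  let X := {c : ConjClasses G // ∃ g : G, ConjClasses.mk g = c ∧ ¬ p ∣ orderOf g}
  let Y := {c : ConjClasses Q // ∃ g : Q, ConjClasses.mk g = c ∧ ¬ p ∣ orderOf g}
  have hmap : ∀ g : G, ConjClasses.map π (ConjClasses.mk g) = ConjClasses.mk (π g) := fun g => rfl
  let f : X → Y := fun c => ⟨ConjClasses.map π c.1, by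
    obtain ⟨g, hg, ho⟩ := c.2
    refine ⟨π g, by rw [← hg, hmap], fun h => ho (h.trans (orderOf_map_dvd π g))⟩⟩
  let ι : ∀ g : G, ¬ p ∣ orderOf (π g) → X := fun g h =>
    ⟨ConjClasses.mk g, g, rfl, order_lift π p hp hN g h⟩
  have hfι : ∀ g (h : ¬ p ∣ orderOf (π g)), (f (ι g h)).1 = ConjClasses.mk (π g) := fun g h => rfl
  have hf : Function.Surjective f := by
    rintro ⟨c, y, rfl, hy⟩
    obtain ⟨g, rfl⟩ := hπ y
    exact ⟨ι g hy, rfl⟩
  have hp1 : ¬ p ∣ orderOf (1 : Q) := by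
    rw [orderOf_one]; exact hp.one_lt.ne' ∘ Nat.dvd_one.1
  have e1 : ¬ p ∣ orderOf (π 1) := by rw [map_one]; exact hp1
  have e2 : ¬ p ∣ orderOf (π n0) := by rw [hn0]; exact hp1
  have hker : ∀ n, π n = 1 → ¬ p ∣ orderOf (π n) := fun n hn => by rw [hn]; exact hp1
  have hconj1 : ∀ n : G, IsConj n 1 → n = 1 := fun n h => by
    rwa [isConj_one_left] at h
  have h01 : ι 1 e1 ≠ ι n0 e2 := by
    intro h
    have h' : ConjClasses.mk (1 : G) = ConjClasses.mk n0 := congrArg Subtype.val h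
    rw [ConjClasses.mk_eq_mk_iff_isConj] at h'
    exact hn1 (hconj1 _ h'.symm)
  have hfeq : ∀ g g' (h : ¬ p ∣ orderOf (π g)) (h' : ¬ p ∣ orderOf (π g')), π g = π g' →
      f (ι g h) = f (ι g' h') := by
    intro g g' h h' hgg
    apply Subtype.ext
    exact congrArg ConjClasses.mk hgg
  have hfe : f (ι 1 e1) = f (ι n0 e2) := hfeq 1 n0 e1 e2 ((map_one π).trans hn0.symm)
  obtain ⟨h1, h2⟩ := fiber_count f hf hk _ _ h01 hfe
  constructor
  · intro n hn hn'
    have := h1 (ι n (hker n hn)) (hfeq n 1 (hker n hn) e1 (hn.trans (map_one π).symm))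
    rcases this with h | h
    · have h' : ConjClasses.mk n = ConjClasses.mk (1 : G) := congrArg Subtype.val h
      rw [ConjClasses.mk_eq_mk_iff_isConj] at h'
      exact absurd (hconj1 _ h') hn'
    · have h' : ConjClasses.mk n = ConjClasses.mk n0 := congrArg Subtype.val h
      rwa [ConjClasses.mk_eq_mk_iff_isConj] at h'
  · intro g g' hgg hg1 ho
    have ho' : ¬ p ∣ orderOf (π g') := by rw [hgg]; exact ho
    have := h2 (ι g ho) (ι g' ho') (hfeq g g' ho ho' hgg.symm) (by
      intro h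
      have h' : ConjClasses.mk (π g) = ConjClasses.mk (π 1) := congrArg Subtype.val h
      rw [ConjClasses.mk_eq_mk_iff_isConj, map_one, isConj_one_left] at h'
      exact hg1 h')
    have h' : ConjClasses.mk g = ConjClasses.mk g' := congrArg Subtype.val this
    rwa [ConjClasses.mk_eq_mk_iff_isConj] at h'

theorem elem {G Q : Type*} [Group G] [Finite G] [Group Q] (π : G →* Q)
    (n0 : G) (hn0 : π n0 = 1) (hn1 : n0 ≠ 1) (hi : ∀ n, π n = 1 → n ≠ 1 → IsConj n n0) :
    ∃ r : ℕ, r.Prime ∧ (∀ n, π n = 1 → n ^ r = 1) ∧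
      (∀ a b, π a = 1 → π b = 1 → a * b = b * a) ∧ ∃ m, m ≠ 0 ∧ Nat.card π.ker = r ^ m := by
  classical
  have hnt : Nontrivial π.ker := ⟨⟨⟨n0, hn0⟩, 1, fun h => hn1 (congrArg Subtype.val h)⟩⟩
  have hc1 : Nat.card π.ker ≠ 1 := by
    intro h
    rw [Nat.card_eq_one_iff_unique] at h
    exact not_subsingleton π.ker h.1
  obtain ⟨r, hr, hrd⟩ := Nat.exists_prime_and_dvd hc1
  have : Fact r.Prime := ⟨hr⟩
  obtain ⟨a, ha⟩ := exists_prime_orderOf_dvd_card' r hrd
  have ha1 : (a : G) ≠ 1 := by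
    intro h
    have : a = 1 := Subtype.ext h
    rw [this, orderOf_one] at ha
    exact hr.one_lt.ne ha
  have har : (a : G) ^ r = 1 := by
    have := pow_orderOf_eq_one a
    rw [ha] at this
    simpa using congrArg Subtype.val this
  have key : ∀ n : G, π n = 1 → n ^ r = 1 := by
    intro n hn
    by_cases h1 : n = 1
    · rw [h1, one_pow]
    · have h2 := (hi n hn h1).trans (hi a a.2 ha1).symm
      obtain ⟨c, hc⟩ := isConj_iff.1 h2.symm
      rw [← hc, conj_pow, har, mul_one, mul_inv_cancel]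
  have hpg : IsPGroup r π.ker := by
    intro x
    refine ⟨1, ?_⟩
    apply Subtype.ext
    simpa using key x x.2
  have hz := hpg.center_nontrivial
  obtain ⟨⟨z, hzc⟩, hz1⟩ := exists_ne (1 : Subgroup.center π.ker)
  have hz1' : (z : G) ≠ 1 := by
    intro h
    apply hz1
    apply Subtype.ext
    apply Subtype.ext
    exact h
  have hzc' : ∀ b, π b = 1 → (z : G) * b = b * z := by
    intro b hb
    have := Subgroup.mem_center_iff.1 hzc ⟨b, hb⟩
    have := congrArg Subtype.val this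
    simpa using this.symm
  refine ⟨r, hr, key, ?_, ?_⟩
  · intro a b ha hb
    by_cases h1 : a = 1
    · rw [h1, one_mul, mul_one]
    · have h2 := (hi z z.2 hz1').trans (hi a ha h1).symm
      obtain ⟨c, hc⟩ := isConj_iff.1 h2
      have h3 := hzc' (c⁻¹ * b * c) (by rw [map_mul, map_mul, hb, mul_one, ← map_mul, inv_mul_cancel, map_one])
      rw [← hc]
      calc c * ↑z * c⁻¹ * b = c * (↑z * (c⁻¹ * b * c)) * c⁻¹ := by group
        _ = c * ((c⁻¹ * b * c) * ↑z) * c⁻¹ := by rw [h3]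
        _ = b * (c * ↑z * c⁻¹) := by group
  · obtain ⟨m, hm⟩ := (IsPGroup.iff_card).1 hpg
    refine ⟨m, ?_, hm⟩
    rintro rfl
    rw [pow_zero] at hm
    exact hc1 hm

theorem card_hom {G Q : Type*} [Group G] [Finite G] [Group Q] (π : G →* Q) :
    Nat.card G = Nat.card π.ker * Nat.card π.range := by
  rw [Subgroup.card_eq_card_quotient_mul_card_subgroup π.ker, mul_comm,
    Nat.card_congr (QuotientGroup.quotientKerEquivRange π).toEquiv]

theorem cent_card {G Q : Type*} [Group G] [Finite G] [Group Q] (π : G →* Q)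
    (hπ : Function.Surjective π) (g : G) (hg : ∀ g', π g' = π g → IsConj g g') :
    Nat.card (Subgroup.centralizer {g}) = Nat.card (Subgroup.centralizer {π g}) := by
  classical
  have : Finite Q := Finite.of_surjective π hπ
  set C : Subgroup G := (Subgroup.centralizer {π g}).comap π with hC
  have hle : Subgroup.centralizer {g} ≤ C := by
    intro t ht
    rw [hC, Subgroup.mem_comap, Subgroup.mem_centralizer_singleton_iff]
    rw [Subgroup.mem_centralizer_singleton_iff] at ht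
    rw [← map_mul, ← map_mul, ht]
  have h0 : Nat.card G = Nat.card π.ker * Nat.card Q := by
    rw [card_hom π, MonoidHom.range_eq_top.2 hπ, Nat.card_congr Subgroup.topEquiv.toEquiv]
  have h1 : Nat.card C = Nat.card π.ker * Nat.card (Subgroup.centralizer {π g}) := by
    have e1 : C.index = (Subgroup.centralizer {π g}).index :=
      Subgroup.index_comap_of_surjective _ hπ
    have e2 := C.card_mul_index
    have e3 := (Subgroup.centralizer {π g}).card_mul_index
    rw [e1, h0, ← e3, ← mul_assoc] at e2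
    exact Nat.eq_of_mul_eq_mul_right (Nat.pos_of_ne_zero Subgroup.index_ne_zero_of_finite) e2
  have hC' : ∀ t : C, π t * π g = π g * π t := by
    intro t
    have h : π t ∈ Subgroup.centralizer {π g} := t.2
    exact Subgroup.mem_centralizer_singleton_iff.1 h
  let F : C → π.ker := fun t => ⟨t * g * (t : G)⁻¹ * g⁻¹, by
    rw [MonoidHom.mem_ker, map_mul, map_mul, map_mul, map_inv, map_inv, hC' t]; group⟩
  let S : Subgroup C := (Subgroup.centralizer {g}).subgroupOf C
  have hF : ∀ t t' : C, F t = F t' ↔ t⁻¹ * t' ∈ S := by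
    intro t t'
    rw [Subgroup.mem_subgroupOf, Subgroup.mem_centralizer_singleton_iff, Subtype.ext_iff]
    show (t : G) * g * (t : G)⁻¹ * g⁻¹ = (t' : G) * g * (t' : G)⁻¹ * g⁻¹ ↔
      ((t : G)⁻¹ * t') * g = g * ((t : G)⁻¹ * t')
    constructor
    · intro h
      have h2 : (t : G) * g * (t : G)⁻¹ = (t' : G) * g * (t' : G)⁻¹ := mul_right_cancel h
      calc ((t : G)⁻¹ * t') * g = (t : G)⁻¹ * ((t' : G) * g * (t' : G)⁻¹) * t' := by group
        _ = (t : G)⁻¹ * ((t : G) * g * (t : G)⁻¹) * t' := by rw [h2]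
        _ = g * ((t : G)⁻¹ * t') := by group
    · intro h
      have h2 : (t' : G) * g = t * (g * ((t : G)⁻¹ * t')) := by
        rw [← h]; group
      rw [h2]; group
  have h2 : Nat.card (C ⧸ S) = Nat.card π.ker := by
    apply Nat.card_eq_of_bijective (fun q : C ⧸ S => F q.out)
    constructor
    · intro q q' h
      have := (hF _ _).1 h
      have h3 := QuotientGroup.eq.2 this
      rwa [QuotientGroup.out_eq', QuotientGroup.out_eq'] at h3
    · rintro ⟨n, hn⟩
      have hn' : π n = 1 := hn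
      obtain ⟨t, ht⟩ := isConj_iff.1 (hg (n * g) (by rw [map_mul, hn', one_mul]))
      have htC : t ∈ C := by
        rw [hC, Subgroup.mem_comap, Subgroup.mem_centralizer_singleton_iff]
        have := congrArg π ht
        rw [map_mul, map_mul, map_inv, map_mul, hn', one_mul] at this
        exact mul_inv_eq_iff_eq_mul.1 this
      refine ⟨((⟨t, htC⟩ : C) : C ⧸ S), ?_⟩
      obtain ⟨s, hs⟩ := QuotientGroup.mk_out_eq_mul S (⟨t, htC⟩ : C)
      have h4 : F (⟨t, htC⟩ : C) = ⟨n, hn⟩ := by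
        apply Subtype.ext
        show t * g * t⁻¹ * g⁻¹ = n
        rw [ht]; group
      rw [← h4]
      show F _ = F _
      rw [eq_comm, hF, hs]
      rw [inv_mul_cancel_left]
      exact s.2
  have h3 : Nat.card S = Nat.card (Subgroup.centralizer {g}) :=
    Nat.card_congr (Subgroup.subgroupOfEquivOfLe hle).toEquiv
  have h4 := Subgroup.card_eq_card_quotient_mul_card_subgroup S
  rw [h2, h3, h1] at h4
  exact (Nat.eq_of_mul_eq_mul_left Nat.card_pos h4).symm

theorem fixed_mod {N : Type*} [Group N] [Finite N] (s : ℕ) [Fact s.Prime] (a : MulAut N) (k : ℕ)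
    (ha : a ^ (s ^ k) = 1) : Nat.card N ≡ Nat.card {n : N // a n = n} [MOD s] := by
  have hpg : IsPGroup s (Subgroup.zpowers a) := by
    intro x
    obtain ⟨j, hj⟩ := Subgroup.mem_zpowers_iff.1 x.2
    refine ⟨k, Subtype.ext ?_⟩
    rw [Subgroup.coe_pow, ← hj, ← zpow_natCast, ← zpow_mul, mul_comm, zpow_mul, zpow_natCast, ha,
      one_zpow, Subgroup.coe_one]
  have := hpg.card_modEq_card_fixedPoints N
  have h2 : Nat.card (MulAction.fixedPoints (Subgroup.zpowers a) N) = Nat.card {n : N // a n = n} := by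
    apply Nat.card_congr
    apply Equiv.subtypeEquivRight
    intro n
    constructor
    · intro h
      exact h ⟨a, Subgroup.mem_zpowers a⟩
    · rintro h ⟨x, hx⟩
      have h3 : Subgroup.zpowers a ≤ MulAction.stabilizer (MulAut N) n := by
        rw [Subgroup.zpowers_le]; exact h
      exact h3 hx
  rwa [h2] at this

/-- a lift of order prime to the exponent -/
theorem good_lift {G Q : Type*} [Group G] [Group Q] (π : G →* Q) (r : ℕ)
    (hexp : ∀ n, π n = 1 → n ^ r = 1) (g0 : G) (hco : Nat.Coprime r (orderOf (π g0))) :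
    ∃ g, π g = π g0 ∧ g ^ orderOf (π g0) = 1 := by
  obtain ⟨k, hk1, hk2⟩ := Nat.chineseRemainder hco 0 1
  refine ⟨g0 ^ k, ?_, ?_⟩
  · rw [map_pow]
    conv_rhs => rw [← pow_one (π g0)]
    exact pow_eq_pow_iff_modEq.2 hk2
  · obtain ⟨j, rfl⟩ := (Nat.modEq_zero_iff_dvd).1 hk1
    rw [← pow_mul, mul_assoc, mul_comm, mul_comm j, pow_mul, pow_mul]
    rw [hexp]
    rw [map_pow, map_pow, pow_orderOf_eq_one, one_pow]

theorem free_of {G Q : Type*} [Group G] [Group Q] (π : G →* Q) (r : ℕ)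
    (hexp : ∀ n, π n = 1 → n ^ r = 1) (g : G) (hg : ∀ g', π g' = π g → IsConj g g')
    (hco : Nat.Coprime r (orderOf (π g))) (n : G) (hn : π n = 1) (hc : g * n = n * g) : n = 1 := by
  obtain ⟨g1, h1, h2⟩ := good_lift π r hexp g hco
  have hall : ∀ g', π g' = π g → g' ^ orderOf (π g) = 1 := by
    intro g' hg'
    have h3 : IsConj g1 g' := (hg g1 h1).symm.trans (hg g' hg')
    obtain ⟨c, hc⟩ := isConj_iff.1 h3
    rw [← hc, conj_pow, h2, mul_one, mul_inv_cancel]
  have h4 := hall g rfl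
  have h5 := hall (g * n) (by rw [map_mul, hn, mul_one])
  have hcomm : Commute g n := hc
  rw [hcomm.mul_pow, h4, one_mul] at h5
  have h6 := hexp n hn
  have h7 : orderOf n ∣ Nat.gcd r (orderOf (π g)) :=
    Nat.dvd_gcd (orderOf_dvd_of_pow_eq_one h6) (orderOf_dvd_of_pow_eq_one h5)
  rw [Nat.Coprime.gcd_eq_one hco, Nat.dvd_one, orderOf_eq_one_iff] at h7
  exact h7

theorem cent_split {G Q : Type*} [Group G] [Finite G] [Group Q] (π : G →* Q) (g : G) :
    ∃ k, Nat.card (Subgroup.centralizer {g}) =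
      Nat.card {n : π.ker // (MulAut.conjNormal g : MulAut π.ker) n = n} * k ∧
      orderOf (π g) ∣ k := by
  classical
  let f : Subgroup.centralizer {g} →* Q := π.comp (Subgroup.centralizer {g}).subtype
  refine ⟨Nat.card f.range, ?_, ?_⟩
  · rw [card_hom f]
    congr 1
    have hiff : ∀ n : π.ker, (MulAut.conjNormal g : MulAut π.ker) n = n ↔ (n : G) * g = g * n := by
      intro n
      rw [Subtype.ext_iff, MulAut.conjNormal_apply, mul_inv_eq_iff_eq_mul, eq_comm]
    refine Nat.card_congr ⟨fun x => ⟨⟨x.1.1, x.2⟩, ?_⟩, fun n => ⟨⟨n.1.1, ?_⟩, ?_⟩, ?_, ?_⟩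
    · rw [hiff]
      exact Subgroup.mem_centralizer_singleton_iff.1 x.1.2
    · rw [Subgroup.mem_centralizer_singleton_iff]
      exact (hiff _).1 n.2
    · exact n.1.2
    · intro x; rfl
    · intro n; rfl
  · have hg : g ∈ Subgroup.centralizer {g} := by
      rw [Subgroup.mem_centralizer_singleton_iff]
    have h1 : π g ∈ f.range := ⟨⟨g, hg⟩, rfl⟩
    have h2 := orderOf_dvd_natCard (⟨π g, h1⟩ : f.range)
    rwa [Subgroup.orderOf_mk] at h2

theorem conj_pow_one {G Q : Type*} [Group G] [Group Q] (π : G →* Q)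
    (hab : ∀ a b, π a = 1 → π b = 1 → a * b = b * a) (g : G) (k : ℕ) (hk : π g ^ k = 1) :
    (MulAut.conjNormal g : MulAut π.ker) ^ k = 1 := by
  rw [← map_pow]
  ext n
  rw [MulAut.conjNormal_apply, MulAut.one_apply]
  rw [hab (g ^ k) n (by rw [map_pow, hk]) n.2, mul_inv_cancel_right]

theorem case_odd {G Q : Type*} [Group G] [Finite G] [Group Q] (π : G →* Q)
    (hπ : Function.Surjective π) (r m : ℕ) [Fact r.Prime] (hm : m ≠ 0)
    (hcard : Nat.card π.ker = r ^ m)
    (hab : ∀ a b, π a = 1 → π b = 1 → a * b = b * a) (g : G)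
    (hg : ∀ g', π g' = π g → IsConj g g') (ho : orderOf (π g) = r)
    (hc : Nat.card (Subgroup.centralizer {π g}) ∣ 120) : r * r ∣ 120 := by
  obtain ⟨k, hk1, hk2⟩ := cent_split π g
  rw [cent_card π hπ g hg] at hk1
  refine dvd_trans ?_ hc
  rw [hk1]
  apply mul_dvd_mul
  · have h1 := fixed_mod r (MulAut.conjNormal g : MulAut π.ker) 1 (by
      rw [pow_one]
      exact conj_pow_one π hab g r (by rw [← ho, pow_orderOf_eq_one]))
    have h2 : r ∣ Nat.card π.ker := by rw [hcard]; exact dvd_pow_self r hm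
    exact (Nat.modEq_zero_iff_dvd).1 (h1.symm.trans ((Nat.modEq_zero_iff_dvd).2 h2))
  · rwa [ho] at hk2

/-- involution case: `|N| ≤ 16` -/
theorem case_two_a {G Q : Type*} [Group G] [Finite G] [Group Q] (π : G →* Q)
    (hπ : Function.Surjective π) (m : ℕ)
    (hcard : Nat.card π.ker = 2 ^ m)
    (hexp : ∀ n, π n = 1 → n ^ 2 = 1)
    (hab : ∀ a b, π a = 1 → π b = 1 → a * b = b * a) (g : G)
    (hg : ∀ g', π g' = π g → IsConj g g') (ho : orderOf (π g) = 2)
    (hc : Nat.card (Subgroup.centralizer {π g}) ∣ 120) :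
    Nat.card {n : π.ker // (MulAut.conjNormal g : MulAut π.ker) n = n} ≤ 4 ∧ m ≤ 4 := by
  classical
  obtain ⟨k, hk1, hk2⟩ := cent_split π g
  rw [cent_card π hπ g hg] at hk1
  set a : MulAut π.ker := MulAut.conjNormal g with ha
  let _ : CommGroup π.ker := { (inferInstance : Group π.ker) with
    mul_comm := fun x y => Subtype.ext (hab x y x.2 y.2) }
  -- the homomorphism n ↦ n * a n⁻¹
  let δ : π.ker →* π.ker :=
    { toFun := fun n => n * a n⁻¹
      map_one' := by rw [inv_one, map_one, mul_one]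
      map_mul' := fun x y => by
        rw [mul_inv, map_mul, mul_mul_mul_comm] }
  have hδ : ∀ n, δ n = n * a n⁻¹ := fun n => rfl
  have ha2 : ∀ n, a (a n) = n := by
    intro n
    have h := conj_pow_one π hab g 2 (by rw [← ho, pow_orderOf_eq_one])
    have h2 := congrArg (fun b : MulAut π.ker => b n) h
    simpa [pow_two] using h2
  have hinv : ∀ n : π.ker, n⁻¹ = n := by
    intro n
    rw [inv_eq_iff_mul_eq_one]
    apply Subtype.ext
    have := hexp n n.2
    rw [pow_two] at this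
    exact this
  have hkerδ : ∀ n, n ∈ δ.ker ↔ a n = n := by
    intro n
    rw [MonoidHom.mem_ker, hδ, hinv]
    constructor
    · intro h
      have : a n = n⁻¹ := (inv_eq_of_mul_eq_one_right h).symm
      rw [this, hinv]
    · intro h
      rw [h]
      have := hinv n
      rwa [inv_eq_iff_mul_eq_one] at this
  have hrange : δ.range ≤ δ.ker := by
    rintro _ ⟨n, rfl⟩
    rw [hkerδ, hδ, hinv, map_mul, ha2, mul_comm]
  have h1 : Nat.card δ.ker = Nat.card {n : π.ker // a n = n} :=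
    Nat.card_congr (Equiv.subtypeEquivRight hkerδ)
  have h2 : Nat.card π.ker = Nat.card δ.ker * Nat.card δ.range := card_hom δ
  have h3 : Nat.card δ.range ≤ Nat.card δ.ker := Subgroup.card_le_of_le hrange
  have h4 : Nat.card δ.ker * 2 ∣ 120 := by
    refine dvd_trans ?_ hc
    rw [hk1, h1]
    apply mul_dvd_mul_left
    rwa [ho] at hk2
  have h5 : Nat.card δ.ker ∣ 2 ^ m := by
    rw [← hcard]; exact Subgroup.card_subgroup_dvd_card _
  obtain ⟨j, hj, hj2⟩ := (Nat.dvd_prime_pow Nat.prime_two).1 h5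
  have h6 : Nat.card δ.ker ≤ 4 := by
    rw [hj2]
    have hj3 : j ≤ 2 := by
      by_contra hcon
      have : 2 ^ 4 ∣ 120 := by
        refine dvd_trans ?_ h4
        rw [hj2, ← pow_succ]
        exact pow_dvd_pow 2 (by omega)
      norm_num at this
    calc 2 ^ j ≤ 2 ^ 2 := Nat.pow_le_pow_right (by norm_num) hj3
      _ = 4 := by norm_num
  refine ⟨by rw [← h1]; exact h6, ?_⟩
  have h7 : 2 ^ m ≤ 2 ^ 4 := by
    rw [← hcard, h2]
    calc _ ≤ 4 * 4 := Nat.mul_le_mul h6 (h3.trans h6)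
      _ = 2 ^ 4 := by norm_num
  exact (Nat.pow_le_pow_iff_right (by norm_num)).1 h7

/-- elements of prime order `s ≠ r` act freely, so `s ∣ |N| - 1` -/
theorem free_mod {G Q : Type*} [Group G] [Finite G] [Group Q] (π : G →* Q) (r : ℕ)
    (hexp : ∀ n, π n = 1 → n ^ r = 1)
    (hab : ∀ a b, π a = 1 → π b = 1 → a * b = b * a) (g : G)
    (hg : ∀ g', π g' = π g → IsConj g g') (s : ℕ) [Fact s.Prime] (ho : orderOf (π g) = s)
    (hco : Nat.Coprime r s) : Nat.card π.ker ≡ 1 [MOD s] := by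
  have h1 := fixed_mod s (MulAut.conjNormal g : MulAut π.ker) 1 (by
      rw [pow_one]
      exact conj_pow_one π hab g s (by rw [← ho, pow_orderOf_eq_one]))
  have h2 : Nat.card {n : π.ker // (MulAut.conjNormal g : MulAut π.ker) n = n} = 1 := by
    rw [Nat.card_eq_one_iff_unique]
    refine ⟨⟨?_⟩, ⟨⟨1, map_one _⟩⟩⟩
    have key : ∀ n : π.ker, (MulAut.conjNormal g : MulAut π.ker) n = n → n = 1 := by
      intro n hn
      rw [Subtype.ext_iff, MulAut.conjNormal_apply, mul_inv_eq_iff_eq_mul] at hn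
      exact Subtype.ext (free_of π r hexp g hg (by rwa [ho]) n n.2 hn)
    rintro ⟨x, hx⟩ ⟨y, hy⟩
    apply Subtype.ext
    show x = y
    rw [key x hx, key y hy]
  rwa [h2] at h1

section red

variable {Q : Type*} [Group Q] [Finite Q] {P H : Subgroup Q} {e : ↥P ≃ (Fin 2 → ZMod 11)}
  {ρ : ↥H →* Matrix.GeneralLinearGroup (Fin 2) (ZMod 11)}

theorem card_P (e : ↥P ≃ (Fin 2 → ZMod 11)) : Nat.card P = 121 := by
  rw [Nat.card_congr e]
  simp [Nat.card_eq_fintype_card]

theorem e_one (hR : Red 11 2 P H e ρ) : e 1 = 0 := by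
  have h := hR.emul 1 1
  rw [mul_one] at h
  simpa using h

theorem e_ne (hR : Red 11 2 P H e ρ) (x : P) (hx : x ≠ 1) : e x ≠ 0 := by
  intro h
  apply hx
  apply e.injective
  rw [h, e_one hR]

theorem e_pow (hR : Red 11 2 P H e ρ) (x : P) (k : ℕ) : e (x ^ k) = (k : ℕ) • e x := by
  induction k with
  | zero => rw [pow_zero, e_one hR, zero_smul]
  | succ k ih => rw [pow_succ, hR.emul, ih, succ_nsmul]

theorem P_pow (hR : Red 11 2 P H e ρ) (x : P) : x ^ 11 = 1 := by
  apply e.injective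
  rw [e_pow hR, e_one hR]
  ext i
  have : (11 : ZMod 11) = 0 := by decide
  simp [this]

theorem free (hR : Red 11 2 P H e ρ) (hc : Nat.card H = 120) (h : H) (hh : h ≠ 1) (x : P)
    (hx : (h : Q) * x * (h : Q)⁻¹ = x) : x = 1 := by
  classical
  by_contra hx1
  have hv : e x ≠ 0 := e_ne hR x hx1
  have hne : ∀ k : H, (ρ k : Matrix (Fin 2) (Fin 2) (ZMod 11)).mulVec (e x) ≠ 0 := by
    intro k h0
    apply hv
    have h1 : ((ρ k⁻¹ : Matrix.GeneralLinearGroup (Fin 2) (ZMod 11)) :
        Matrix (Fin 2) (Fin 2) (ZMod 11)).mulVec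
        ((ρ k : Matrix (Fin 2) (Fin 2) (ZMod 11)).mulVec (e x)) = 0 := by
      rw [h0, Matrix.mulVec_zero]
    rw [Matrix.mulVec_mulVec, ← Units.val_mul, ← map_mul, inv_mul_cancel, map_one] at h1
    simpa using h1
  let F : H → {v : Fin 2 → ZMod 11 // v ≠ 0} := fun k =>
    ⟨(ρ k : Matrix (Fin 2) (Fin 2) (ZMod 11)).mulVec (e x), hne k⟩
  have hF : Function.Surjective F := by
    rintro ⟨v, hv'⟩
    obtain ⟨k, hk⟩ := hR.trans (e x) v hv hv'
    exact ⟨k, Subtype.ext hk⟩
  have hcv : Nat.card {v : Fin 2 → ZMod 11 // v ≠ 0} = 120 := by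
    rw [Nat.card_eq_fintype_card]
    have h1 := Fintype.card_subtype_compl (fun v : Fin 2 → ZMod 11 => v = 0)
    have h2 : Fintype.card {v : Fin 2 → ZMod 11 // v = 0} = 1 := Fintype.card_subtype_eq 0
    have h3 : Fintype.card (Fin 2 → ZMod 11) = 121 := by simp
    rw [h2, h3] at h1
    rw [← show (121 - 1 : ℕ) = 120 from rfl, ← h1]
  have hinj := (hF.bijective_of_nat_card_le (by rw [hc, hcv])).1
  apply hh
  apply hinj
  apply Subtype.ext
  show (ρ h : Matrix (Fin 2) (Fin 2) (ZMod 11)).mulVec (e x) =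
    (ρ 1 : Matrix (Fin 2) (Fin 2) (ZMod 11)).mulVec (e x)
  rw [← hR.eact h x x hx.symm, map_one]
  simp

theorem decomp (hR : Red 11 2 P H e ρ) (q : Q) : ∃ x ∈ P, ∃ h ∈ H, x * h = q := by
  have : q ∈ P ⊔ H := by rw [hR.sup]; trivial
  have := hR.norm
  rw [Subgroup.mem_sup_of_normal_left] at *
  assumption

theorem cent_le (hR : Red 11 2 P H e ρ) (hc : Nat.card H = 120) (y : H) (hy : y ≠ 1) :
    Subgroup.centralizer {(y : Q)} ≤ H := by
  intro q hq
  rw [Subgroup.mem_centralizer_singleton_iff] at hq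
  obtain ⟨x, hx, h, hh, rfl⟩ := decomp hR q
  have hxn : (y : Q) * x * (y : Q)⁻¹ ∈ P := hR.norm.conj_mem x hx y
  have h1 : x⁻¹ * ((y : Q) * x * (y : Q)⁻¹) = h * y * h⁻¹ * (y : Q)⁻¹ := by
    have h2 : (y : Q) * x = x * h * y * h⁻¹ := by rw [hq]; group
    rw [h2]; group
  have h3 : x⁻¹ * ((y : Q) * x * (y : Q)⁻¹) ∈ P ⊓ H := by
    constructor
    · exact P.mul_mem (P.inv_mem hx) hxn
    · rw [h1]
      exact H.mul_mem (H.mul_mem (H.mul_mem hh y.2) (H.inv_mem hh)) (H.inv_mem y.2)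
  rw [hR.inf, Subgroup.mem_bot, inv_mul_eq_one] at h3
  have h4 := free hR hc y hy ⟨x, hx⟩ h3.symm
  have h5 : x = 1 := congrArg Subtype.val h4
  rw [h5, one_mul]
  exact hh

theorem cent_dvd (hR : Red 11 2 P H e ρ) (hc : Nat.card H = 120) (y : H) (hy : y ≠ 1) :
    Nat.card (Subgroup.centralizer {(y : Q)}) ∣ 120 := by
  rw [← hc]
  exact Subgroup.card_dvd_of_le (cent_le hR hc y hy)

theorem card_Q (hR : Red 11 2 P H e ρ) (hc : Nat.card H = 120) : Nat.card Q = 121 * 120 := by
  have := hR.norm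
  have h1 : Subgroup.IsComplement' P H := by
    apply Subgroup.isComplement'_of_disjoint_and_mul_eq_univ
    · rw [disjoint_iff, hR.inf]
    · rw [← Subgroup.normal_mul, hR.sup]; rfl
  rw [← h1.card_mul_card, card_P e, hc]

/-- an element of prime order `s ∈ {2,3,5}` is conjugate into `H` -/
theorem conj_into (hR : Red 11 2 P H e ρ) (hc : Nat.card H = 120) (s : ℕ) [Fact s.Prime]
    (hs : s ∣ 120) (z : Q) (hz : orderOf z = s) : ∃ (q : Q) (y : H), q * y * q⁻¹ = z := by
  classical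
  have hs11 : Nat.Coprime s 121 := by
    have h1 : Nat.Coprime 120 121 := by norm_num
    exact h1.coprime_dvd_left hs
  obtain ⟨T⟩ : Nonempty (Sylow s H) := inferInstance
  -- the image of T in Q is a Sylow subgroup
  have hTc : Nat.card (T.map H.subtype : Subgroup Q) = Nat.card T :=
    Nat.card_congr (T.equivMapOfInjective H.subtype H.subtype_injective).toEquiv.symm
  have hTp : Nat.card T = s ^ (Nat.card H).factorization s := T.card_eq_multiplicity
  have hfac : (Nat.card H).factorization s = (Nat.card Q).factorization s := by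
    have h0 : (Nat.factorization 121) s = 0 := by
      apply Nat.factorization_eq_zero_of_not_dvd
      intro h
      have := Nat.dvd_gcd dvd_rfl h
      rw [hs11.gcd_eq_one, Nat.dvd_one] at this
      exact (Fact.out : s.Prime).one_lt.ne' this
    rw [card_Q hR hc, hc, Nat.factorization_mul (by norm_num) (by norm_num), Finsupp.add_apply,
      h0, zero_add]
  let T' : Sylow s Q := Sylow.ofCard (T.map H.subtype : Subgroup Q) (by
    rw [hTc, hTp, hfac])
  have hzp : IsPGroup s (Subgroup.zpowers z) := by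
    rw [IsPGroup.iff_card]
    exact ⟨1, by rw [Nat.card_zpowers, hz, pow_one]⟩
  obtain ⟨S, hS⟩ := hzp.exists_le_sylow
  obtain ⟨q, hq⟩ := MulAction.exists_smul_eq Q T' S
  have hzS : z ∈ S := hS (Subgroup.mem_zpowers z)
  rw [← hq] at hzS
  have h1 : q⁻¹ * z * q ∈ (T' : Subgroup Q) := by
    have := (Subgroup.mem_pointwise_smul_iff_inv_smul_mem (a := MulAut.conj q)).1 hzS
    simpa [MulAut.smul_def] using this
  obtain ⟨t, ht, ht2⟩ := h1
  refine ⟨q, t, ?_⟩
  have ht2' : (t : Q) = q⁻¹ * z * q := ht2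
  rw [ht2']; group

end red

section final

variable {G Q : Type*} [Group G] [Finite G] [Group Q] [Finite Q] {P H : Subgroup Q}
  {e : ↥P ≃ (Fin 2 → ZMod 11)} {ρ : ↥H →* Matrix.GeneralLinearGroup (Fin 2) (ZMod 11)}

theorem not_dvd_order (hc : Nat.card H = 120) (y : H) : ¬ 11 ∣ orderOf (y : Q) := by
  intro h
  rw [Subgroup.orderOf_coe] at h
  have := h.trans (orderOf_dvd_natCard y)
  rw [hc] at this
  norm_num at this

/-- `r = 2` -/
theorem case_two (π : G →* Q) (hπ : Function.Surjective π) (hR : Red 11 2 P H e ρ)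
    (hc : Nat.card H = 120) (m : ℕ) (hm : m ≠ 0) (hcard : Nat.card π.ker = 2 ^ m)
    (hexp : ∀ n, π n = 1 → n ^ 2 = 1)
    (hab : ∀ a b, π a = 1 → π b = 1 → a * b = b * a)
    (hi : ∀ n n', π n = 1 → n ≠ 1 → π n' = 1 → n' ≠ 1 → IsConj n n')
    (hii : ∀ g g', π g' = π g → π g ≠ 1 → ¬ 11 ∣ orderOf (π g) → IsConj g g')
    (z : H) (hz : orderOf z = 2) (hzc : ∀ h : H, h * z = z * h) : False := by
  classical
  have hz1 : z ≠ 1 := by
    rintro rfl
    rw [orderOf_one] at hz
    norm_num at hz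
  have hyQ : ∀ y : H, y ≠ 1 → (y : Q) ≠ 1 := fun y hy h => hy (Subtype.ext h)
  obtain ⟨g, hg⟩ := hπ z
  have hgc : ∀ g', π g' = π g → IsConj g g' := fun g' h' => hii g g' h'
    (by rw [hg]; exact hyQ z hz1) (by rw [hg]; exact not_dvd_order hc z)
  have hog : orderOf (π g) = 2 := by rw [hg, Subgroup.orderOf_coe, hz]
  obtain ⟨h1, h2⟩ := case_two_a π hπ m hcard hexp hab g hgc hog
    (by rw [hg]; exact cent_dvd hR hc z hz1)
  -- 3 and 5 divide |N| - 1
  have hs : ∀ s : ℕ, s.Prime → s ∣ 120 → s ≠ 2 → 2 ^ m ≡ 1 [MOD s] := by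
    intro s hs hs1 hs2
    have : Fact s.Prime := ⟨hs⟩
    obtain ⟨y, hy⟩ := exists_prime_orderOf_dvd_card' (G := H) s (by rw [hc]; exact hs1)
    have hy1 : y ≠ 1 := by
      rintro rfl
      rw [orderOf_one] at hy
      exact hs.one_lt.ne hy
    obtain ⟨g1, hg1⟩ := hπ y
    rw [← hcard]
    exact free_mod π 2 hexp hab g1 (fun g' h' => hii g1 g' h'
      (by rw [hg1]; exact hyQ y hy1) (by rw [hg1]; exact not_dvd_order hc y)) s
      (by rw [hg1, Subgroup.orderOf_coe, hy]) ((Nat.coprime_primes Nat.prime_two hs).2 hs2.symm)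
  have h3 := hs 3 (by norm_num) (by norm_num) (by norm_num)
  have h5 := hs 5 (by norm_num) (by norm_num) (by norm_num)
  have hm4 : m = 4 := by
    interval_cases m
    · exact absurd rfl hm
    · exact absurd h3 (by decide)
    · exact absurd h5 (by decide)
    · exact absurd h3 (by decide)
    · rfl
  subst hm4
  -- the preimage of P centralizes N
  have hP : ∀ t : G, π t ∈ P → ∀ n : G, π n = 1 → t * n = n * t := by
    intro t ht n hn
    have : Fact (Nat.Prime 11) := ⟨by norm_num⟩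
    have h11 : π t ^ 11 = 1 := by
      have := P_pow hR ⟨π t, ht⟩
      simpa using congrArg Subtype.val this
    have h6 := fixed_mod 11 (MulAut.conjNormal t : MulAut π.ker) 1 (by
      rw [pow_one]; exact conj_pow_one π hab t 11 h11)
    rw [hcard] at h6
    -- fixed points form a subgroup
    let F : Subgroup π.ker := (Subgroup.centralizer {t}).subgroupOf π.ker
    have hF : ∀ x : π.ker, x ∈ F ↔ (MulAut.conjNormal t : MulAut π.ker) x = x := by
      intro x
      rw [Subgroup.mem_subgroupOf, Subgroup.mem_centralizer_singleton_iff, Subtype.ext_iff,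
        MulAut.conjNormal_apply, mul_inv_eq_iff_eq_mul, eq_comm]
    have hFc : Nat.card F = Nat.card {x : π.ker // (MulAut.conjNormal t : MulAut π.ker) x = x} :=
      Nat.card_congr (Equiv.subtypeEquivRight hF)
    rw [← hFc] at h6
    have hFd : Nat.card F ∣ 2 ^ 4 := by rw [← hcard]; exact Subgroup.card_subgroup_dvd_card _
    obtain ⟨j, hj, hj2⟩ := (Nat.dvd_prime_pow Nat.prime_two).1 hFd
    rw [hj2] at h6
    have hj4 : j = 4 := by
      interval_cases j
      · exact absurd h6 (by decide)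
      · exact absurd h6 (by decide)
      · exact absurd h6 (by decide)
      · exact absurd h6 (by decide)
      · rfl
    have hFt : F = ⊤ := Subgroup.eq_top_of_card_eq _ (by rw [hj2, hj4, hcard])
    have : (⟨n, hn⟩ : π.ker) ∈ F := by rw [hFt]; trivial
    rw [Subgroup.mem_subgroupOf, Subgroup.mem_centralizer_singleton_iff] at this
    exact this.symm
  -- a nontrivial fixed point of g
  have hfix := fixed_mod 2 (MulAut.conjNormal g : MulAut π.ker) 1 (by
    rw [pow_one]; exact conj_pow_one π hab g 2 (by rw [← hog, pow_orderOf_eq_one]))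
  rw [hcard] at hfix
  have hne1 : Nat.card {n : π.ker // (MulAut.conjNormal g : MulAut π.ker) n = n} ≠ 1 := by
    intro h
    rw [h] at hfix
    exact absurd hfix (by decide)
  obtain ⟨x, hx⟩ : ∃ x : {n : π.ker // (MulAut.conjNormal g : MulAut π.ker) n = n}, x.1 ≠ 1 := by
    by_contra hcon
    push Not at hcon
    apply hne1
    rw [Nat.card_eq_one_iff_unique]
    refine ⟨⟨fun a b => Subtype.ext ((hcon a).trans (hcon b).symm)⟩, ⟨⟨1, map_one _⟩⟩⟩
  obtain ⟨x, hxg⟩ := x
  have hx1 : (x : G) ≠ 1 := fun h => hx (Subtype.ext h)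
  rw [Subtype.ext_iff, MulAut.conjNormal_apply, mul_inv_eq_iff_eq_mul] at hxg
  -- everything in N commutes with g
  have hall : ∀ n : π.ker, (MulAut.conjNormal g : MulAut π.ker) n = n := by
    intro n
    by_cases hn1 : n = 1
    · rw [hn1, map_one]
    have hn1' : (n : G) ≠ 1 := fun h => hn1 (Subtype.ext h)
    obtain ⟨t, ht⟩ := isConj_iff.1 (hi x n x.2 hx1 n.2 hn1')
    rw [Subtype.ext_iff, MulAut.conjNormal_apply, mul_inv_eq_iff_eq_mul, ← ht]
    -- k = g⁻¹ t⁻¹ g t
    have hk : π (g⁻¹ * t⁻¹ * g * t) ∈ P := by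
      rw [map_mul, map_mul, map_mul, map_inv, map_inv, hg]
      obtain ⟨p1, hp1, h, hh, hph⟩ := decomp hR (π t)
      rw [← hph]
      have e1 : (z : Q)⁻¹ * (p1 * h)⁻¹ * z * (p1 * h) =
          (h⁻¹ * ((z : Q)⁻¹ * p1⁻¹ * z * p1) * h) := by
        have e2 : h * (z : Q) = z * h := congrArg Subtype.val (hzc ⟨h, hh⟩)
        have e3 : (z : Q)⁻¹ * h⁻¹ = h⁻¹ * (z : Q)⁻¹ := by
          rw [← mul_inv_rev, ← mul_inv_rev, e2]
        calc (z : Q)⁻¹ * (p1 * h)⁻¹ * z * (p1 * h) = ((z : Q)⁻¹ * h⁻¹) * p1⁻¹ * z * p1 * h := by group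
          _ = (h⁻¹ * (z : Q)⁻¹) * p1⁻¹ * z * p1 * h := by rw [e3]
          _ = _ := by group
      rw [e1]
      have e4 : (z : Q)⁻¹ * p1⁻¹ * z * p1 ∈ P := by
        apply P.mul_mem _ hp1
        have := hR.norm.conj_mem p1⁻¹ (P.inv_mem hp1) (z : Q)⁻¹
        simpa using this
      have := hR.norm.conj_mem _ e4 h⁻¹
      simpa using this
    have hk2 := hP _ hk x x.2
    calc g * (t * ↑x * t⁻¹) = t * (g * (g⁻¹ * t⁻¹ * g * t) * x) * t⁻¹ := by group
      _ = t * (g * ((g⁻¹ * t⁻¹ * g * t) * x)) * t⁻¹ := by group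
      _ = t * (g * (x * (g⁻¹ * t⁻¹ * g * t))) * t⁻¹ := by rw [hk2]
      _ = t * ((g * x) * (g⁻¹ * t⁻¹ * g * t)) * t⁻¹ := by group
      _ = t * ((x * g) * (g⁻¹ * t⁻¹ * g * t)) * t⁻¹ := by rw [hxg]
      _ = t * x * t⁻¹ * g := by group
  have hc16 : Nat.card {n : π.ker // (MulAut.conjNormal g : MulAut π.ker) n = n} = 2 ^ 4 := by
    rw [← hcard]
    exact Nat.card_congr (Equiv.subtypeUnivEquiv hall)
  rw [hc16] at h1
  norm_num at h1

/-- `r ∤ 120` -/
theorem case_free (π : G →* Q) (hπ : Function.Surjective π) (hR : Red 11 2 P H e ρ)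
    (hc : Nat.card H = 120) (r m : ℕ) (hr : r.Prime) (hr11 : r ≠ 11) (hr120 : ¬ r ∣ 120)
    (hcard : Nat.card π.ker = r ^ m)
    (hexp : ∀ n, π n = 1 → n ^ r = 1)
    (hab : ∀ a b, π a = 1 → π b = 1 → a * b = b * a)
    (n0 : G) (hn0 : π n0 = 1) (hn1 : n0 ≠ 1)
    (hi : ∀ n, π n = 1 → n ≠ 1 → IsConj n n0)
    (hii : ∀ g g', π g' = π g → π g ≠ 1 → ¬ 11 ∣ orderOf (π g) → IsConj g g')
    (a b : H) (hnc : a * b ≠ b * a) : False := by
  classical
  have hyQ : ∀ y : H, y ≠ 1 → (y : Q) ≠ 1 := fun y hy h => hy (Subtype.ext h)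
  have hfree : ∀ (y : H), y ≠ 1 → ∀ g, π g = y → ∀ n, π n = 1 → g * n = n * g → n = 1 := by
    intro y hy g hg n hn hcm
    refine free_of π r hexp g (fun g' h' => hii g g' h' (by rw [hg]; exact hyQ y hy)
      (by rw [hg]; exact not_dvd_order hc y)) ?_ n hn hcm
    rw [hr.coprime_iff_not_dvd, hg, Subgroup.orderOf_coe]
    intro hd
    exact hr120 ((hd.trans (orderOf_dvd_natCard y)).trans (by rw [hc]))
  -- the stabilizer
  let A := Subgroup.centralizer {n0}
  let f : A →* Q := π.comp A.subtype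
  have hker : π.ker ≤ A := by
    intro n hn
    rw [Subgroup.mem_centralizer_singleton_iff]
    exact hab n n0 hn hn0
  have hfk : Nat.card f.ker = Nat.card π.ker := by
    have : f.ker = π.ker.subgroupOf A := by
      ext x; rfl
    rw [this]
    exact Nat.card_congr (Subgroup.subgroupOfEquivOfLe hker).toEquiv
  have hA : Nat.card A = Nat.card π.ker * Nat.card f.range := by rw [card_hom f, hfk]
  have hG : Nat.card G = Nat.card π.ker * (121 * 120) := by
    rw [card_hom π, MonoidHom.range_eq_top.2 hπ, Nat.card_congr Subgroup.topEquiv.toEquiv,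
      card_Q hR hc]
  have hmemA : ∀ t : G, t ∈ A ↔ t * n0 = n0 * t := fun t => Subgroup.mem_centralizer_singleton_iff
  have hidx : A.index = Nat.card π.ker - 1 := by
    -- conjugates of n0 = N \ 1
    have h1 : Nat.card (G ⧸ A) = Nat.card {n : π.ker // n ≠ 1} := by
      apply Nat.card_eq_of_bijective (fun q : G ⧸ A =>
        (⟨⟨q.out * n0 * q.out⁻¹, by
          rw [MonoidHom.mem_ker, map_mul, map_mul, hn0, map_inv, mul_one, mul_inv_cancel]⟩, by
          intro h
          have h2 : q.out * n0 * q.out⁻¹ = 1 := congrArg Subtype.val h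
          rw [mul_inv_eq_one] at h2
          exact hn1 (mul_eq_left.1 h2)⟩ : {n : π.ker // n ≠ 1}))
      constructor
      · intro q q' h
        have h2 : q.out * n0 * q.out⁻¹ = q'.out * n0 * q'.out⁻¹ :=
          congrArg (fun x : {n : π.ker // n ≠ 1} => ((x : π.ker) : G)) h
        have h3 : q.out⁻¹ * q'.out ∈ A := by
          rw [hmemA]
          have h4 : q'.out * n0 = q.out * n0 * q.out⁻¹ * q'.out := by rw [h2]; group
          rw [mul_assoc, h4]; group
        have h5 := QuotientGroup.eq.2 h3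
        rwa [QuotientGroup.out_eq', QuotientGroup.out_eq'] at h5
      · rintro ⟨⟨n, hn⟩, hn'⟩
        have hn1' : n ≠ 1 := fun h => hn' (Subtype.ext h)
        obtain ⟨t, ht⟩ := isConj_iff.1 (hi n hn hn1').symm
        refine ⟨(t : G ⧸ A), ?_⟩
        apply Subtype.ext
        apply Subtype.ext
        obtain ⟨s, hs⟩ := QuotientGroup.mk_out_eq_mul A t
        have hs2 := (hmemA s).1 s.2
        show (t : G ⧸ A).out * n0 * (t : G ⧸ A).out⁻¹ = n
        rw [hs, ← ht, mul_assoc t, hs2]; group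
    have h2 : Nat.card {n : π.ker // n ≠ 1} = Nat.card π.ker - 1 := by
      let _ := Fintype.ofFinite π.ker
      rw [Nat.card_eq_fintype_card, Nat.card_eq_fintype_card]
      have h3 := Fintype.card_subtype_compl (fun v : π.ker => v = 1)
      have h4 : Fintype.card {v : π.ker // v = 1} = 1 := Fintype.card_subtype_eq 1
      rw [h4] at h3
      rw [← h3]
    show Nat.card (G ⧸ A) = _
    rw [h1, h2]
  have hprod : Nat.card f.range * (Nat.card π.ker - 1) = 121 * 120 := by
    have h1 := A.card_mul_index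
    rw [hidx, hA, hG, mul_assoc] at h1
    exact Nat.eq_of_mul_eq_mul_left Nat.card_pos h1
  have hnd : ∀ s : ℕ, s.Prime → s ∣ 120 → ¬ s ∣ Nat.card f.range := by
    intro s hs hs120 hsd
    have : Fact s.Prime := ⟨hs⟩
    obtain ⟨z, hz⟩ := exists_prime_orderOf_dvd_card' (G := f.range) s hsd
    obtain ⟨q, y, hqy⟩ := conj_into hR hc s hs120 (z : Q) (by rw [Subgroup.orderOf_coe, hz])
    have hy1 : y ≠ 1 := by
      rintro rfl
      have h1 : (z : Q) = 1 := by rw [← hqy]; simp
      have h2 : z = 1 := Subtype.ext h1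
      rw [h2, orderOf_one] at hz
      exact hs.one_lt.ne hz
    obtain ⟨t, rfl⟩ := hπ q
    obtain ⟨⟨a', ha'⟩, haz⟩ := z.2
    have haz' : π a' = z := haz
    have h1 : t⁻¹ * n0 * t = 1 := by
      apply hfree y hy1 (t⁻¹ * a' * t)
      · rw [map_mul, map_mul, map_inv, haz', ← hqy]; group
      · rw [map_mul, map_mul, map_inv, hn0]; group
      · have h2 := (hmemA a').1 ha'
        calc t⁻¹ * a' * t * (t⁻¹ * n0 * t) = t⁻¹ * (a' * n0) * t := by group
          _ = t⁻¹ * (n0 * a') * t := by rw [h2]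
          _ = _ := by group
    apply hn1
    calc n0 = t * (t⁻¹ * n0 * t) * t⁻¹ := by group
      _ = 1 := by rw [h1]; group
  have hcop : Nat.Coprime (Nat.card f.range) 120 := by
    have e1 : (120 : ℕ) = 2 ^ 3 * (3 * 5) := by norm_num
    rw [e1]
    apply Nat.Coprime.mul_right
    · apply Nat.Coprime.pow_right
      exact ((Nat.Prime.coprime_iff_not_dvd Nat.prime_two).2 (hnd 2 (by norm_num) (by norm_num))).symm
    · apply Nat.Coprime.mul_right
      · exact ((Nat.Prime.coprime_iff_not_dvd (by norm_num)).2 (hnd 3 (by norm_num) (by norm_num))).symm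
      · exact ((Nat.Prime.coprime_iff_not_dvd (by norm_num)).2 (hnd 5 (by norm_num) (by norm_num))).symm
  have hd121 : Nat.card f.range ∣ 11 ^ 2 := by
    apply hcop.dvd_of_dvd_mul_right
    show Nat.card f.range ∣ 121 * 120
    rw [← hprod]
    exact dvd_mul_right _ _
  obtain ⟨j, hj, hj2⟩ := (Nat.dvd_prime_pow (by norm_num)).1 hd121
  rw [hj2, hcard] at hprod
  interval_cases j
  · -- r ^ m = 14521
    have h1 : r ^ m = 14521 := by omega
    have h13 : r = 13 := by
      have h2 : 13 ∣ r ^ m := by rw [h1]; norm_num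
      exact ((Nat.prime_dvd_prime_iff_eq (by norm_num) hr).1 (Nat.Prime.dvd_of_dvd_pow (by norm_num) h2)).symm
    have h17 : r = 1117 := by
      have h2 : 1117 ∣ r ^ m := by rw [h1]; norm_num
      exact ((Nat.prime_dvd_prime_iff_eq (by norm_num) hr).1 (Nat.Prime.dvd_of_dvd_pow (by norm_num) h2)).symm
    omega
  · -- r ^ m = 1321
    have h1 : r ^ m = 1321 := by omega
    have : Fact (Nat.Prime 1321) := ⟨by norm_num⟩
    have hcyc : IsCyclic π.ker := isCyclic_of_prime_card (p := 1321) (by rw [hcard, h1])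
    obtain ⟨g1, hg1⟩ := hπ a
    obtain ⟨g2, hg2⟩ := hπ b
    have hcomm : (MulAut.conjNormal (g1 * g2 * g1⁻¹ * g2⁻¹) : MulAut π.ker) = 1 := by
      apply (IsCyclic.mulAutMulEquiv π.ker).injective
      rw [map_mul, map_mul, map_mul, map_inv, map_inv, map_mul, map_mul, map_mul, map_inv, map_inv,
        map_one, mul_comm ((IsCyclic.mulAutMulEquiv π.ker) (MulAut.conjNormal g1))]
      group
    have h3 := congrArg (fun (c : MulAut π.ker) => c ⟨n0, hn0⟩) hcomm
    have h4 : (MulAut.conjNormal (g1 * g2 * g1⁻¹ * g2⁻¹) : MulAut π.ker) ⟨n0, hn0⟩ = ⟨n0, hn0⟩ := h3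
    rw [Subtype.ext_iff, MulAut.conjNormal_apply, mul_inv_eq_iff_eq_mul] at h4
    have hy1 : a * b * a⁻¹ * b⁻¹ ≠ 1 := by
      intro h5
      apply hnc
      rw [mul_inv_eq_one, mul_inv_eq_iff_eq_mul] at h5
      exact h5
    exact hn1 (hfree _ hy1 (g1 * g2 * g1⁻¹ * g2⁻¹) (by simp [hg1, hg2]) n0 hn0 h4)
  · -- r ^ m = 121
    have h1 : r ^ m = 121 := by omega
    apply hr11
    have h2 : 11 ∣ r ^ m := by rw [h1]; norm_num
    exact ((Nat.prime_dvd_prime_iff_eq (by norm_num) hr).1 (Nat.Prime.dvd_of_dvd_pow (by norm_num) h2)).symm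

end final

theorem sl_central : ∀ h : Matrix.SpecialLinearGroup (Fin 2) (ZMod 5), h * (-1) = (-1) * h := by
  intro h; simp

/-- PIECE L of S4878 -/
theorem extra {G : Type*} [Group G] [Finite G] (N : Subgroup G) [N.Normal] (hN : N ≠ ⊥)
    (hN11 : ¬ 11 ∣ Nat.card N) (P H : Subgroup (G ⧸ N)) (e : ↥P ≃ (Fin 2 → ZMod 11))
    (ρ : ↥H →* Matrix.GeneralLinearGroup (Fin 2) (ZMod 11)) (hR : Red 11 2 P H e ρ)
    (hH : Nonempty (H ≃* Matrix.SpecialLinearGroup (Fin 2) (ZMod 5)))
    (h9 : 9 ≤ kreg 11 (G ⧸ N)) : 11 ≤ kreg 11 G := by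
  classical
  by_contra hcon
  push Not at hcon
  obtain ⟨φ⟩ := hH
  have hc : Nat.card H = 120 := by
    rw [Nat.card_congr φ.toEquiv, SL25.card_mat]
  let π : G →* G ⧸ N := QuotientGroup.mk' N
  have hπ : Function.Surjective π := QuotientGroup.mk'_surjective N
  have hker : π.ker = N := QuotientGroup.ker_mk' N
  obtain ⟨⟨n0, hn0⟩, hn1x⟩ := Subgroup.ne_bot_iff_exists_ne_one.1 hN
  have hn1 : n0 ≠ 1 := fun h => hn1x (Subtype.ext h)
  have hn0' : π n0 = 1 := by rw [← MonoidHom.mem_ker, hker]; exact hn0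
  obtain ⟨hi, hii⟩ := classes π hπ 11 (by norm_num) (by rw [hker]; exact hN11) (by omega) n0 hn0' hn1
  obtain ⟨r, hr, hexp, hab, m, hm, hcard⟩ := elem π n0 hn0' hn1 hi
  have hr11 : r ≠ 11 := by
    rintro rfl
    apply hN11
    rw [← hker, hcard]
    exact dvd_pow_self _ hm
  have hz2 : ∃ z : H, orderOf z = 2 ∧ ∀ h : H, h * z = z * h := by
    refine ⟨φ.symm (-1), ?_, ?_⟩
    · rw [MulEquiv.orderOf_eq, orderOf_eq_prime_iff]
      refine ⟨by simp, by decide⟩
    · intro h
      apply φ.injective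
      rw [map_mul, map_mul, MulEquiv.apply_symm_apply]
      exact sl_central _
  have hnc : ∃ a b : H, a * b ≠ b * a := by
    have h1 : ∃ a b : Matrix.SpecialLinearGroup (Fin 2) (ZMod 5), a * b ≠ b * a :=
      ⟨⟨!![1, 1; 0, 1], by decide⟩, ⟨!![1, 0; 1, 1], by decide⟩, by decide⟩
    obtain ⟨a, b, hab⟩ := h1
    refine ⟨φ.symm a, φ.symm b, fun h => hab ?_⟩
    apply φ.symm.injective
    rw [map_mul, map_mul, h]
  by_cases hr120 : r ∣ 120
  · by_cases hr2 : r = 2
    · subst hr2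
      obtain ⟨z, hz, hzc⟩ := hz2
      exact case_two π hπ hR hc m hm hcard hexp hab
        (fun n n' hn hn1 hn' hn1' => (hi n hn hn1).trans (hi n' hn' hn1').symm) hii z hz hzc
    · have : Fact r.Prime := ⟨hr⟩
      obtain ⟨y, hy⟩ := exists_prime_orderOf_dvd_card' (G := H) r (by rw [hc]; exact hr120)
      have hy1 : y ≠ 1 := by
        rintro rfl
        rw [orderOf_one] at hy
        exact hr.one_lt.ne hy
      obtain ⟨g, hg⟩ := hπ y
      have h1 := case_odd π hπ r m hm hcard hab g (fun g' h' => hii g g' h'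
        (by rw [hg]; exact fun h => hy1 (Subtype.ext h)) (by rw [hg]; exact not_dvd_order hc y))
        (by rw [hg, Subgroup.orderOf_coe, hy]) (by rw [hg]; exact cent_dvd hR hc y hy1)
      have h2 : r ≤ 120 := Nat.le_of_dvd (by norm_num) hr120
      have h3 : r * r ≤ 120 := Nat.le_of_dvd (by norm_num) h1
      have h4 : r ≤ 10 := by nlinarith
      interval_cases r <;> first | omega | (revert hr; norm_num; done) | (revert h1; norm_num; done)
  · obtain ⟨a, b, hab'⟩ := hnc
    exact case_free π hπ hR hc r m hr hr11 hr120 hcard hexp hab n0 hn0' hn1 hi hii a b hab'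

end Cfsg.Agent.Lib.KPRL
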