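import Cfsg.Agent.Lib.KPRMain
import Cfsg.Agent.Lib.KPRG
import Cfsg.Agent.Lib.KPRJ
import Cfsg.Agent.Lib.KPRK
import Cfsg.Agent.Lib.KPRL
import Cfsg.Agent.Lib.KPRK3

/-! Final assembly of S4878 (helper61). -/

set_option autoImplicit false

open Cfsg.Agent.Lib.KPR
open scoped Pointwise

namespace Cfsg.Agent.Lib.KPRFin

theorem card_conj_le {G G' : Type*} [Group G] [Finite G] [Group G'] [Finite G'] (f : G ≃* G') :
    Nat.card (ConjClasses G) ≤ Nat.card (ConjClasses G') := by
  refine Nat.card_le_card_of_injective (ConjClasses.map (f : G →* G')) ?_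
  intro a b
  induction a using Quotient.inductionOn with | _ a => ?_
  induction b using Quotient.inductionOn with | _ b => ?_
  intro h
  have h' : IsConj (f a) (f b) := ConjClasses.mk_eq_mk_iff_isConj.mp h
  apply ConjClasses.mk_eq_mk_iff_isConj.mpr
  have := (f.symm : G' →* G).map_isConj h'
  simpa using this

theorem card_conj_eq {G G' : Type*} [Group G] [Finite G] [Group G'] [Finite G'] (f : G ≃* G') :
    Nat.card (ConjClasses G) = Nat.card (ConjClasses G') :=
  le_antisymm (card_conj_le f) (card_conj_le f.symm)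

theorem kreg_le {G G' : Type*} [Group G] [Finite G] [Group G'] [Finite G'] (p : ℕ) (f : G ≃* G') :
    kreg p G ≤ kreg p G' := by
  unfold kreg
  refine Nat.card_le_card_of_injective
    (fun c => ⟨ConjClasses.map (f : G →* G') c.1, ?_⟩) ?_
  · obtain ⟨c, g, hg, hp⟩ := c
    refine ⟨f g, ?_, ?_⟩
    · subst hg; rfl
    · rwa [MulEquiv.orderOf_eq f g]
  · rintro ⟨a, ha⟩ ⟨b, hb⟩ h
    simp only [Subtype.mk.injEq] at h
    apply Subtype.ext
    show a = b
    clear ha hb
    revert h
    induction a using Quotient.inductionOn with | _ a => ?_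
    induction b using Quotient.inductionOn with | _ b => ?_
    intro h
    have h' : IsConj (f a) (f b) := ConjClasses.mk_eq_mk_iff_isConj.mp h
    apply ConjClasses.mk_eq_mk_iff_isConj.mpr
    have := (f.symm : G' →* G).map_isConj h'
    simpa using this

theorem kreg_eq {G G' : Type*} [Group G] [Finite G] [Group G'] [Finite G'] (p : ℕ) (f : G ≃* G') :
    kreg p G = kreg p G' :=
  le_antisymm (kreg_le p f) (kreg_le p f.symm)

theorem frob_comap {G Q : Type*} [Group G] [Group Q] (f : G ≃* Q) (H : Subgroup Q)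
    (hH : Cfsg.IsFrobeniusComplement H) :
    Cfsg.IsFrobeniusComplement (H.comap (f : G →* Q)) := by
  obtain ⟨h1, h2, h3⟩ := hH
  refine ⟨?_, ?_, ?_⟩
  · intro h
    apply h1
    rw [eq_bot_iff]
    intro x hx
    have : f.symm x ∈ H.comap (f : G →* Q) := by
      rw [Subgroup.mem_comap]; simpa using hx
    rw [h, Subgroup.mem_bot] at this
    rw [Subgroup.mem_bot]
    simpa using congrArg f this
  · intro h
    apply h2
    rw [eq_top_iff]
    intro x _
    have : f.symm x ∈ H.comap (f : G →* Q) := by rw [h]; trivial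
    rw [Subgroup.mem_comap] at this
    simpa using this
  · intro g hg
    have hg' : f g ∉ H := fun h => hg (by rw [Subgroup.mem_comap]; simpa using h)
    rw [eq_bot_iff]
    rintro x ⟨hx1, hx2⟩
    have hx2' := Subgroup.mem_pointwise_smul_iff_inv_smul_mem.mp hx2
    have h5 : f x ∈ MulAut.conj (f g) • H := by
      rw [Subgroup.mem_pointwise_smul_iff_inv_smul_mem]
      rw [Subgroup.mem_comap] at hx2'
      simpa [MulAut.smul_def, MulAut.inv_apply, MulAut.conj_symm_apply] using hx2'
    have h4 : f x ∈ H ⊓ (MulAut.conj (f g) • H) := ⟨by simpa using hx1, h5⟩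
    rw [h3 (f g) hg', Subgroup.mem_bot] at h4
    rw [Subgroup.mem_bot]
    simpa using h4

theorem fin {G : Type*} [Group G] [Finite G] (p : ℕ) [Fact p.Prime] (hsolv : Cfsg.IsPSolvable p G)
    (hdiv : p ∣ Nat.card G)
    (hconj : ∀ x y : G, x ≠ 1 → y ≠ 1 → (∃ k : ℕ, orderOf x = p ^ k) →
      (∃ k : ℕ, orderOf y = p ^ k) → IsConj x y) :
    p ≤ kreg p G ∨ (kreg p G = p - 1 ∧ Nonempty (G ≃* ↥(Cfsg.affineGroup (ZMod p)))) ∨
    (p = 11 ∧ kreg p G = 9 ∧ (Nat.card G = 121 * 120 ∧ ∃ H : Subgroup G,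
      Cfsg.IsFrobeniusComplement H ∧
      Nonempty (↥H ≃* Matrix.SpecialLinearGroup (Fin 2) (ZMod 5)))) := by
  have hpp : p.Prime := Fact.out
  obtain ⟨N, hN, n, P, H, e, ρ, hpN, hR⟩ := KPRG.red p hsolv hdiv hconj
  have hq := KPRJ.kreg_quot p N
  have hJ := KPRJ.kreg_red p n P H e ρ hR
  rcases KPRMain.main_lin p n hR.pos ρ hR.inj hR.hp hR.trans with h | h | h
  · left; omega
  · subst h
    obtain ⟨hk, ⟨f⟩⟩ := KPRK.agl hR
    by_cases hNb : N = ⊥
    · right; left
      subst hNb
      let g : (G ⧸ (⊥ : Subgroup G)) ≃* G := QuotientGroup.quotientBot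
      refine ⟨?_, ⟨g.symm.trans f⟩⟩
      rw [← kreg_eq p g, hJ, hk]
    · left
      have := KPRJ.kreg_quot' p N hNb hpN
      have := hpp.one_le
      omega
  · obtain ⟨rfl, rfl, hH, ⟨f⟩⟩ := h
    have hk : Nat.card (ConjClasses H) = 9 := by
      rw [card_conj_eq f, KPRK3.cls25]
    by_cases hNb : N = ⊥
    · right; right
      subst hNb
      let g : (G ⧸ (⊥ : Subgroup G)) ≃* G := QuotientGroup.quotientBot
      obtain ⟨h1, h2, -⟩ := KPRK.frob hR hH
      refine ⟨rfl, ?_, ?_, H.comap (g.symm : G →* G ⧸ (⊥ : Subgroup G)), frob_comap _ _ h2, ?_⟩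
      · rw [← kreg_eq 11 g, hJ, hk]
      · rw [← h1]
        exact Nat.card_congr g.symm.toEquiv
      · have hmap : (H.comap (g.symm : G →* G ⧸ (⊥ : Subgroup G))) =
            H.map (g : (G ⧸ (⊥ : Subgroup G)) →* G) := by
          ext x
          rw [Subgroup.mem_comap, Subgroup.mem_map]
          constructor
          · intro hx
            exact ⟨g.symm x, hx, by simp⟩
          · rintro ⟨y, hy, rfl⟩
            simpa using hy
        rw [hmap]
        exact ⟨(g.subgroupMap H).symm.trans f⟩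
    · left
      exact KPRL.extra N hNb hpN P H e ρ hR ⟨f⟩ (by omega)

end Cfsg.Agent.Lib.KPRFin
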