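import Cfsg.Agent.Lib.KPRE
import Cfsg.Agent.Lib.KPRF2
import Cfsg.Agent.Lib.KPRF3
import Cfsg.Agent.Lib.KPRF5

/-! Linear part of S4878 (helper61). -/

set_option autoImplicit false

open Cfsg.Agent.Lib.KPR

namespace Cfsg.Agent.Lib.KPRMain

/-- transitivity gives divisibility -/
theorem dvd_card {H : Type*} [Group H] [Finite H] (p n : ℕ) [Fact p.Prime] (hn : 1 ≤ n)
    (ρ : H →* Matrix.GeneralLinearGroup (Fin n) (ZMod p)) (ht : Trans ρ) :
    p ^ n - 1 ∣ Nat.card H := by
  classical
  have hpp : p.Prime := Fact.out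
  let act : MulAction H {v : Fin n → ZMod p // v ≠ 0} :=
    { smul := fun h v => ⟨(ρ h : Matrix (Fin n) (Fin n) (ZMod p)).mulVec v.1, by
        intro h0
        apply v.2
        have := congrArg (fun w => ((ρ h)⁻¹ : Matrix.GeneralLinearGroup (Fin n) (ZMod p)).1.mulVec w) h0
        simpa [Matrix.mulVec_mulVec, ← Matrix.GeneralLinearGroup.coe_mul] using this⟩
      one_smul := by
        intro v
        apply Subtype.ext
        show (ρ 1 : Matrix (Fin n) (Fin n) (ZMod p)).mulVec v.1 = v.1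
        simp
      mul_smul := by
        intro a b v
        apply Subtype.ext
        show (ρ (a * b) : Matrix (Fin n) (Fin n) (ZMod p)).mulVec v.1 =
          (ρ a : Matrix (Fin n) (Fin n) (ZMod p)).mulVec
            ((ρ b : Matrix (Fin n) (Fin n) (ZMod p)).mulVec v.1)
        rw [map_mul, Matrix.GeneralLinearGroup.coe_mul, Matrix.mulVec_mulVec] }
  have hpre : MulAction.IsPretransitive H {v : Fin n → ZMod p // v ≠ 0} := by
    constructor
    intro v w
    obtain ⟨h, hh⟩ := ht v.1 w.1 v.2 w.2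
    exact ⟨h, Subtype.ext hh⟩
  have hcardV : Nat.card {v : Fin n → ZMod p // v ≠ 0} = p ^ n - 1 := by
    rw [Nat.card_eq_fintype_card]
    rw [Fintype.card_subtype_compl, Fintype.card_subtype_eq, Fintype.card_fun, ZMod.card,
      Fintype.card_fin]
  have hne : Nonempty {v : Fin n → ZMod p // v ≠ 0} :=
    ⟨⟨fun _ => 1, by
      intro h
      have := congrFun h ⟨0, hn⟩
      simp at this⟩⟩
  obtain ⟨v⟩ := hne
  have h1 : Nat.card (MulAction.orbit H v) = (MulAction.stabilizer H v).index :=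
    MulAction.index_stabilizer H v ▸ rfl
  rw [← hcardV]
  have h2 : MulAction.orbit H v = Set.univ := MulAction.orbit_eq_univ H v
  rw [h2, Nat.card_univ] at h1
  rw [h1]
  exact Subgroup.index_dvd_card _

theorem two {H : Type*} [Group H] [Finite H] (p : ℕ) [Fact p.Prime] (hp5 : 5 ≤ p)
    (ρ : H →* Matrix.GeneralLinearGroup (Fin 2) (ZMod p)) (hρ : Function.Injective ρ)
    (hpH : ¬ p ∣ Nat.card H) (hcard : p ^ 2 - 1 ∣ Nat.card H) :
    p ≤ Nat.card (ConjClasses H) ∨ (p = 11 ∧ Nat.card H = 120 ∧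
      Nonempty (H ≃* Matrix.SpecialLinearGroup (Fin 2) (ZMod 5))) := by
  let Z : Subgroup H :=
    { carrier := {h | ∃ c : ZMod p, (ρ h : Matrix (Fin 2) (Fin 2) (ZMod p)) = c • 1}
      one_mem' := ⟨1, by simp⟩
      mul_mem' := by
        rintro a b ⟨c, hc⟩ ⟨d, hd⟩
        exact ⟨c * d, by
          rw [map_mul, Matrix.GeneralLinearGroup.coe_mul, hc, hd, smul_mul_assoc, one_mul,
            smul_smul]⟩
      inv_mem' := by
        rintro a ⟨c, hc⟩
        refine ⟨c⁻¹, ?_⟩
        have hc0 : c ≠ 0 := by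
          rintro rfl
          have h1 : (ρ a : Matrix (Fin 2) (Fin 2) (ZMod p)).det ≠ 0 := by
            have := (ρ a).det.isUnit.ne_zero
            simpa using this
          rw [hc] at h1
          simp at h1
        have h2 : (ρ a : Matrix (Fin 2) (Fin 2) (ZMod p)) *
            (ρ a⁻¹ : Matrix (Fin 2) (Fin 2) (ZMod p)) = 1 := by
          rw [← Matrix.GeneralLinearGroup.coe_mul, ← map_mul]
          simp
        rw [hc, smul_mul_assoc, one_mul] at h2
        rw [← h2, smul_smul, inv_mul_cancel₀ hc0, one_smul] }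
  have hZ : ∀ h, h ∈ Z ↔ ∃ c : ZMod p, (ρ h : Matrix (Fin 2) (Fin 2) (ZMod p)) = c • 1 :=
    fun h => Iff.rfl
  have hZn : Z.Normal := by
    constructor
    rintro a ⟨c, hc⟩ g
    refine ⟨c, ?_⟩
    rw [map_mul, map_mul, Matrix.GeneralLinearGroup.coe_mul, Matrix.GeneralLinearGroup.coe_mul, hc,
      mul_smul_comm, mul_one, smul_mul_assoc, ← Matrix.GeneralLinearGroup.coe_mul, ← map_mul]
    simp
  rcases KPRF2.shape p hp5 ρ hpH Z hZ with h | h | h | h | h
  · exact Or.inl (KPRF3.few p hp5 ρ hρ hpH hcard Z hZ (Or.inl h))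
  · exact Or.inl (KPRF3.few p hp5 ρ hρ hpH hcard Z hZ (Or.inr h))
  · exact KPRF5.exc hp5 ρ hρ hpH hcard Z hZ (Or.inl h)
  · exact KPRF5.exc hp5 ρ hρ hpH hcard Z hZ (Or.inr (Or.inl h))
  · exact KPRF5.exc hp5 ρ hρ hpH hcard Z hZ (Or.inr (Or.inr h))

/-- number of classes at least `min p 3` if the group is large -/
theorem small {H : Type*} [Group H] [Finite H] (h : 3 ≤ Nat.card H) :
    3 ≤ Nat.card (ConjClasses H) := by
  classical
  by_contra hcon
  have : Fintype H := Fintype.ofFinite H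
  have : Fintype (ConjClasses H) := Fintype.ofFinite _
  have hk : Fintype.card (ConjClasses H) ≤ 2 := by
    rw [Nat.card_eq_fintype_card] at hcon; omega
  have hconj : ∀ x y : H, x ≠ 1 → y ≠ 1 → IsConj x y := by
    intro x y hx hy
    by_contra hxy
    have h1 : ({ConjClasses.mk (1 : H), ConjClasses.mk x, ConjClasses.mk y} :
        Finset (ConjClasses H)).card = 3 := by
      rw [Finset.card_eq_three]
      refine ⟨_, _, _, ?_, ?_, ?_, rfl⟩
      · intro h0
        exact hx (isConj_one_right.mp (ConjClasses.mk_eq_mk_iff_isConj.mp h0))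
      · intro h0
        exact hy (isConj_one_right.mp (ConjClasses.mk_eq_mk_iff_isConj.mp h0))
      · intro h0
        exact hxy (ConjClasses.mk_eq_mk_iff_isConj.mp h0)
    have h2 := Finset.card_le_univ ({ConjClasses.mk (1 : H), ConjClasses.mk x, ConjClasses.mk y} :
        Finset (ConjClasses H))
    omega
  have hnt : Nontrivial H := Finite.one_lt_card_iff_nontrivial.mp (by omega)
  obtain ⟨x, hx⟩ := exists_ne (1 : H)
  have horb : MulAction.orbit (ConjAct H) x = {y : H | y ≠ 1} := by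
    rw [ConjAct.orbit_eq_carrier_conjClasses]
    ext y
    rw [ConjClasses.mem_carrier_iff_mk_eq, ConjClasses.mk_eq_mk_iff_isConj]
    constructor
    · rintro h1 rfl
      exact hx (isConj_one_right.mp h1)
    · intro h1
      exact hconj _ _ h1 hx
  have hidx := MulAction.index_stabilizer (ConjAct H) x
  rw [horb] at hidx
  have hcard : Set.ncard {y : H | y ≠ 1} = Nat.card H - 1 := by
    have h5 : {y : H | y ≠ 1} = ({1} : Set H)ᶜ := by ext y; simp
    rw [h5, Set.ncard_compl, Set.ncard_singleton]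
  have hdv : Nat.card H - 1 ∣ Nat.card H := by
    rw [← hcard, ← hidx]
    have := Subgroup.index_dvd_card (MulAction.stabilizer (ConjAct H) x)
    simpa using this
  have h6 : Nat.card H - 1 ∣ Nat.card H - (Nat.card H - 1) := Nat.dvd_sub hdv dvd_rfl
  rw [Nat.sub_sub_self (by omega)] at h6
  have := Nat.le_of_dvd one_pos h6
  omega

theorem main_lin {H : Type*} [Group H] [Finite H] (p n : ℕ) [Fact p.Prime] (hn : 1 ≤ n)
    (ρ : H →* Matrix.GeneralLinearGroup (Fin n) (ZMod p)) (hρ : Function.Injective ρ)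
    (hpH : ¬ p ∣ Nat.card H) (ht : Trans ρ) :
    p ≤ Nat.card (ConjClasses H) ∨ n = 1 ∨ (p = 11 ∧ n = 2 ∧ Nat.card H = 120 ∧
      Nonempty (H ≃* Matrix.SpecialLinearGroup (Fin 2) (ZMod 5))) := by
  have hpp : p.Prime := Fact.out
  have hd := dvd_card p n hn ρ ht
  have hle : p ^ n - 1 ≤ Nat.card H := Nat.le_of_dvd Nat.card_pos hd
  by_cases hn1 : n = 1
  · exact Or.inr (Or.inl hn1)
  have h4 : 2 ^ 2 ≤ p ^ n :=
    (Nat.pow_le_pow_left hpp.two_le 2).trans (Nat.pow_le_pow_right hpp.pos (by omega))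
  by_cases hp5 : 5 ≤ p
  · rcases Nat.lt_or_ge n 3 with h | h
    · obtain rfl : n = 2 := by omega
      rcases two p hp5 ρ hρ hpH hd with h | ⟨h1, h2, h3⟩
      · exact Or.inl h
      · exact Or.inr (Or.inr ⟨h1, rfl, h2, h3⟩)
    · exact Or.inl (KPRE.main3 p n hp5 h ρ hρ hpH hd)
  · left
    have h3 : 3 ≤ Nat.card H := by omega
    have := small h3
    have hp4 : p ≠ 4 := by rintro rfl; norm_num at hpp
    omega

end Cfsg.Agent.Lib.KPRMain
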