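import Mathlib.GroupTheory.GroupAction.Jordan
import Mathlib.GroupTheory.Index
import Mathlib.Tactic

/-! # S4264, piece KB: small base (helper70, from the proof of S3681) -/

set_option autoImplicit false
set_option linter.all false

namespace Cfsg.Agent.Lib.KR66B70

open Equiv.Perm

lemma pai {Ω : Type*} (x : Equiv.Perm Ω) (z : Ω) : x (x⁻¹ z) = z := Equiv.apply_symm_apply x z
lemma pia {Ω : Type*} (x : Equiv.Perm Ω) (z : Ω) : x⁻¹ (x z) = z := Equiv.symm_apply_apply x z

lemma comm_threeCycle {Ω : Type*} [Fintype Ω] [DecidableEq Ω] (x y : Equiv.Perm Ω) (a : Ω)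
    (hxa : x a ≠ a) (hya : y a ≠ a) (h : ∀ z, x z ≠ z → y z ≠ z → z = a) :
    (x * y * x⁻¹ * y⁻¹).IsThreeCycle := by
  have h1 : ∀ z, z ≠ a → y z ≠ z → x z = z := by
    intro z hz hyz
    by_contra hxz
    exact hz (h z hxz hyz)
  have h2 : ∀ z, z ≠ a → x z ≠ z → y z = z := by
    intro z hz hxz
    by_contra hyz
    exact hz (h z hxz hyz)
  -- moved points are preserved
  have hx' : ∀ z, x z ≠ z → x (x z) ≠ x z := fun z hz hc => hz (x.injective hc)
  have hy' : ∀ z, y z ≠ z → y (y z) ≠ y z := fun z hz hc => hz (y.injective hc)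
  have hxi : ∀ z, x z ≠ z → x (x⁻¹ z) ≠ x⁻¹ z := by
    intro z hz hc
    apply hz
    rw [pai] at hc
    have h3 := congrArg x hc
    rw [pai] at h3
    exact h3
  have hyi : ∀ z, y z ≠ z → y (y⁻¹ z) ≠ y⁻¹ z := by
    intro z hz hc
    apply hz
    rw [pai] at hc
    have h3 := congrArg y hc
    rw [pai] at h3
    exact h3
  have e1 : y (x a) = x a := h2 (x a) hxa (hx' a hxa)
  have e2 : x (y a) = y a := h1 (y a) hya (hy' a hya)
  have e1' : y⁻¹ (x a) = x a := by rw [Equiv.Perm.inv_eq_iff_eq]; exact e1.symm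
  have e2' : x⁻¹ (y a) = y a := by rw [Equiv.Perm.inv_eq_iff_eq]; exact e2.symm
  have hxa' : x⁻¹ a ≠ a := by
    intro hc; rw [Equiv.Perm.inv_eq_iff_eq] at hc; exact hxa hc.symm
  have hya' : y⁻¹ a ≠ a := by
    intro hc; rw [Equiv.Perm.inv_eq_iff_eq] at hc; exact hya hc.symm
  have e3 : y (x⁻¹ a) = x⁻¹ a := h2 _ hxa' (hxi a hxa)
  have e4 : x (y⁻¹ a) = y⁻¹ a := h1 _ hya' (hyi a hya)
  have e4' : x⁻¹ (y⁻¹ a) = y⁻¹ a := by rw [Equiv.Perm.inv_eq_iff_eq]; exact e4.symm
  have c1 : (x * y * x⁻¹ * y⁻¹) a = x a := by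
    simp only [Equiv.Perm.mul_apply]
    rw [e4', pai]
  have c2 : (x * y * x⁻¹ * y⁻¹) (x a) = y a := by
    simp only [Equiv.Perm.mul_apply]
    rw [e1', pia, e2]
  have c3 : (x * y * x⁻¹ * y⁻¹) (y a) = a := by
    simp only [Equiv.Perm.mul_apply]
    rw [pia, e3, pai]
  have hxy : x a ≠ y a := by
    intro hc
    rw [← hc] at e2
    exact hx' a hxa e2
  have hsupp : (x * y * x⁻¹ * y⁻¹).support = {a, x a, y a} := by
    ext z
    simp only [Equiv.Perm.mem_support, Finset.mem_insert, Finset.mem_singleton]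
    constructor
    · intro hz
      by_contra hcon
      push Not at hcon
      obtain ⟨hz1, hz2, hz3⟩ := hcon
      apply hz
      simp only [Equiv.Perm.mul_apply]
      have hw : y⁻¹ z ≠ a := by
        intro hc
        rw [Equiv.Perm.inv_eq_iff_eq] at hc
        exact hz3 hc
      have hu : x⁻¹ z ≠ a := by
        intro hc
        rw [Equiv.Perm.inv_eq_iff_eq] at hc
        exact hz2 hc
      by_cases hyz : y z = z
      · have : y⁻¹ z = z := by rw [Equiv.Perm.inv_eq_iff_eq]; exact hyz.symm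
        rw [this]
        by_cases hxz : x z = z
        · have : x⁻¹ z = z := by rw [Equiv.Perm.inv_eq_iff_eq]; exact hxz.symm
          rw [this, hyz, hxz]
        · rw [h2 _ hu (hxi z hxz), pai]
      · have h5 : x (y⁻¹ z) = y⁻¹ z := h1 _ hw (hyi z hyz)
        have h6 : x⁻¹ (y⁻¹ z) = y⁻¹ z := by rw [Equiv.Perm.inv_eq_iff_eq]; exact h5.symm
        rw [h6, pai]
        exact h1 z hz1 hyz
    · rintro (rfl | rfl | rfl)
      · rw [c1]; exact hxa
      · rw [c2]; exact hxy.symm
      · rw [c3]; exact hya.symm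
  rw [← card_support_eq_three_iff, hsupp]
  rw [Finset.card_eq_three]
  exact ⟨a, x a, y a, hxa.symm, hya.symm, hxy, rfl⟩


theorem base0 {Ω : Type*} [Fintype Ω] [DecidableEq Ω] (H : Subgroup (Equiv.Perm Ω))
    (hprim : MulAction.IsPreprimitive H Ω) (hA : ¬ alternatingGroup Ω ≤ H) :
    ∃ D : Finset Ω, 2 * D.card ≤ Fintype.card Ω ∧ ∀ g ∈ H, (∀ z ∈ D, g z = z) → g = 1 := by
  classical
  -- base of minimal size
  let P : Finset Ω → Prop := fun D => ∀ g ∈ H, (∀ z ∈ D, g z = z) → g = 1
  have hex : ∃ n, ∃ D : Finset Ω, P D ∧ D.card = n := by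
    refine ⟨_, Finset.univ, ?_, rfl⟩
    intro g _ hg
    ext z
    simpa using hg z (Finset.mem_univ z)
  obtain ⟨D, hD, hDcard⟩ := Nat.find_spec hex
  have hmin : ∀ D' : Finset Ω, D'.card < D.card → ¬ P D' := by
    intro D' hlt hP
    have := Nat.find_min' hex ⟨D', hP, rfl⟩
    omega
  have hkey : 2 * D.card ≤ Fintype.card Ω := by
    by_contra hcon
    push Not at hcon
    have hc1 : (Dᶜ).card < D.card := by
      rw [Finset.card_compl]; omega
    have hn1 := hmin _ hc1
    simp only [P, not_forall] at hn1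
    obtain ⟨x, hxH, hxfix, hx1⟩ := hn1
    have : ∃ a, x a ≠ a := by
      by_contra hcon2
      push Not at hcon2
      exact hx1 (by ext z; simpa using hcon2 z)
    obtain ⟨a, ha⟩ := this
    have haD : a ∈ D := by
      by_contra haD
      exact ha (hxfix a (by simpa using haD))
    have hc2 : (D.erase a).card < D.card := Finset.card_erase_lt_of_mem haD
    have hn2 := hmin _ hc2
    simp only [P, not_forall] at hn2
    obtain ⟨y, hyH, hyfix, hy1⟩ := hn2
    have hya : y a ≠ a := by
      intro hc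
      apply hy1
      apply hD y hyH
      intro z hz
      by_cases hza : z = a
      · rw [hza, hc]
      · exact hyfix z (Finset.mem_erase.mpr ⟨hza, hz⟩)
    have h3 : (x * y * x⁻¹ * y⁻¹).IsThreeCycle := by
      apply comm_threeCycle x y a ha hya
      intro z hxz hyz
      by_contra hza
      by_cases hzD : z ∈ D
      · exact hyz (hyfix z (Finset.mem_erase.mpr ⟨hza, hzD⟩))
      · exact hxz (hxfix z (by simpa using hzD))
    apply hA
    apply alternatingGroup_le_of_isPreprimitive_of_isThreeCycle_mem hprim h3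
    exact H.mul_mem (H.mul_mem (H.mul_mem hxH hyH) (H.inv_mem hxH)) (H.inv_mem hyH)
  exact ⟨D, hkey, hD⟩

theorem base {G W : Type} [Group G] [Finite G] [Fintype W] [DecidableEq W] [MulAction G W] [FaithfulSMul G W]
    (hp : MulAction.IsPreprimitive G W) : (alternatingGroup W ≤ (MulAction.toPermHom G W).range) ∨
      ∃ D : Set W, 2 * Nat.card D ≤ Nat.card W ∧ ∀ g : G, (∀ x ∈ D, g • x = x) → g = 1 := by
  classical
  by_cases hA : alternatingGroup W ≤ (MulAction.toPermHom G W).range
  · exact Or.inl hA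
  · right
    have hinj : Function.Injective (MulAction.toPermHom G W) := MulAction.toPerm_injective
    let φ : G → (MulAction.toPermHom G W).range := fun g => ⟨MulAction.toPermHom G W g, ⟨g, rfl⟩⟩
    let ψ : W →ₑ[φ] W := { toFun := id, map_smul' := fun g x => rfl }
    obtain ⟨D, h1, h2⟩ := base0 (MulAction.toPermHom G W).range (MulAction.IsPreprimitive.of_surjective (f := ψ) Function.surjective_id) hA
    refine ⟨(D : Set W), ?_, fun g hg => ?_⟩
    · rw [Nat.card_eq_fintype_card (α := W)]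
      have : Nat.card (D : Set W) = D.card := by
        rw [Nat.card_coe_set_eq, Set.ncard_coe_finset]
      rw [this]; exact h1
    · apply hinj
      rw [map_one]
      exact h2 _ ⟨g, rfl⟩ (fun z hz => hg z hz)

end Cfsg.Agent.Lib.KR66B70
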