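import Mathlib

namespace Cfsg.Agent.Lib.KR66

theorem ksn {W : Type} [Fintype W] [DecidableEq W] [Nonempty W] :
    2 * Nat.card (ConjClasses (Equiv.Perm W)) ≤ 2 ^ Nat.card W := by
  classical
  have hinj : ∃ f : ConjClasses (Equiv.Perm W) → Nat.Partition (Fintype.card W), Function.Injective f := by
    refine ⟨Quotient.lift (fun σ => σ.partition) ?_, ?_⟩
    · intro a b hab
      exact (Equiv.Perm.partition_eq_of_isConj).1 hab
    · intro x y
      induction x using Quotient.inductionOn with | _ a => ?_
      induction y using Quotient.inductionOn with | _ b => ?_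
      intro h
      exact Quotient.sound ((Equiv.Perm.partition_eq_of_isConj).2 h)
  obtain ⟨f, hf⟩ := hinj
  have h1 : Nat.card (ConjClasses (Equiv.Perm W)) ≤ Nat.card (Nat.Partition (Fintype.card W)) :=
    Nat.card_le_card_of_injective f hf
  have h2 : Nat.card (Nat.Partition (Fintype.card W)) ≤ Nat.card (Composition (Fintype.card W)) :=
    Nat.card_le_card_of_surjective _ Nat.Partition.ofComposition_surj
  have h3 : Nat.card (Composition (Fintype.card W)) = 2 ^ (Fintype.card W - 1) := by
    rw [Nat.card_eq_fintype_card, composition_card]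
  have h4 : 0 < Fintype.card W := Fintype.card_pos
  have h5 : 2 * 2 ^ (Fintype.card W - 1) = 2 ^ (Fintype.card W) := by
    rw [← pow_succ']
    congr 1
    omega
  rw [Nat.card_eq_fintype_card (α := W)]
  calc 2 * Nat.card (ConjClasses (Equiv.Perm W)) ≤ 2 * 2 ^ (Fintype.card W - 1) := by
        rw [← h3]
        exact Nat.mul_le_mul_left 2 (h1.trans h2)
    _ = _ := h5

end Cfsg.Agent.Lib.KR66
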