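import Mathlib
import Cfsg.Agent.Lib.H55K1
import Cfsg.Agent.Lib.KR66C
import Cfsg.Agent.Lib.KR66B70
import Cfsg.Agent.S4200

/-! S4264: `k(G) ≤ 5 ^ (n - 1)` for permutation groups of degree `n`: the induction (helper66) -/

set_option autoImplicit false
set_option linter.all false

namespace Cfsg.Agent.Lib.KR66

open MulAction
open scoped Pointwise

theorem cc_equiv {A B : Type} [Group A] [Group B] (e : A ≃* B) : Nat.card (ConjClasses A) = Nat.card (ConjClasses B) := by
  apply Nat.card_congr
  refine Quotient.congr e.toEquiv ?_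
  intro a b
  show IsConj a b ↔ IsConj (e a) (e b)
  constructor
  · intro h
    exact e.toMonoidHom.map_isConj h
  · intro h
    have h2 := e.symm.toMonoidHom.map_isConj h
    have e1 : e.symm.toMonoidHom (e a) = a := e.symm_apply_apply a
    have e2 : e.symm.toMonoidHom (e b) = b := e.symm_apply_apply b
    rwa [e1, e2] at h2

theorem quot {A B : Type} [Group A] [Finite A] [Group B] (f : A →* B) :
    Nat.card (ConjClasses A) ≤ Nat.card (ConjClasses f.ker) * Nat.card (ConjClasses f.range) := by
  have h1 := Cfsg.Agent.Lib.H55K1.k1 A f.ker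
  rwa [cc_equiv (QuotientGroup.quotientKerEquivRange f)] at h1

theorem triv {G : Type} [Group G] (h : ∀ g : G, g = 1) : Nat.card (ConjClasses G) = 1 := by
  haveI : Subsingleton G := ⟨fun a b => (h a).trans (h b).symm⟩
  haveI : Subsingleton (ConjClasses G) := by
    constructor
    intro a b
    obtain ⟨a, rfl⟩ := ConjClasses.mk_surjective a
    obtain ⟨b, rfl⟩ := ConjClasses.mk_surjective b
    rw [Subsingleton.elim a b]
  haveI : Nonempty (ConjClasses G) := ⟨ConjClasses.mk 1⟩
  exact Nat.card_unique

def T (n : ℕ) : Prop := ∀ (W : Type) [Finite W] (I : Type) [Finite I] (π : W → I) (G : Type) [Group G] [Finite G]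
  [MulAction G W] [FaithfulSMul G W], Nat.card W = n → Function.Surjective π → (∀ (g : G) (x : W), π (g • x) = π x) →
  Nat.card (ConjClasses G) * 5 ^ Nat.card I ≤ 5 ^ n

/-- transitive form -/
theorem T.one {n : ℕ} (h : T n) (W : Type) [Finite W] [Nonempty W] (G : Type) [Group G] [Finite G]
    [MulAction G W] [FaithfulSMul G W] (hW : Nat.card W = n) : Nat.card (ConjClasses G) * 5 ≤ 5 ^ n := by
  have := h W Unit (fun _ => ()) G hW (fun _ => ⟨Classical.arbitrary W, rfl⟩) (fun _ _ => rfl)
  rwa [show Nat.card Unit = 1 from Nat.card_unique, pow_one] at this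

theorem stepA {n : ℕ} (ih : ∀ m < n, T m) (W : Type) [Finite W] (I : Type) [Finite I] (π : W → I) (G : Type) [Group G]
    [Finite G] [MulAction G W] [FaithfulSMul G W] (hW : Nat.card W = n) (hs : Function.Surjective π)
    (hinv : ∀ (g : G) (x : W), π (g • x) = π x) (h2 : 2 ≤ Nat.card I) :
    Nat.card (ConjClasses G) * 5 ^ Nat.card I ≤ 5 ^ n := by
  classical
  haveI : Nonempty I := (Nat.card_pos_iff.1 (by omega)).1
  obtain ⟨i0⟩ : Nonempty I := inferInstance
  haveI : Nontrivial I := Finite.one_lt_card_iff_nontrivial.1 (by omega)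
  obtain ⟨i1, hi1⟩ := exists_ne i0
  obtain ⟨x0, hx0⟩ := hs i0
  obtain ⟨x1, hx1⟩ := hs i1
  letI a1 : MulAction G {x : W // π x = i0} :=
    { smul := fun g x => ⟨g • x.1, by rw [hinv]; exact x.2⟩
      one_smul := fun x => Subtype.ext (one_smul G x.1)
      mul_smul := fun g h x => Subtype.ext (mul_smul g h x.1) }
  set f := MulAction.toPermHom G {x : W // π x = i0} with hf
  letI a2 : MulAction f.ker {x : W // π x ≠ i0} :=
    { smul := fun g x => ⟨(g : G) • x.1, by rw [hinv]; exact x.2⟩
      one_smul := fun x => Subtype.ext (one_smul G x.1)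
      mul_smul := fun g h x => Subtype.ext (mul_smul (g : G) (h : G) x.1) }
  haveI : FaithfulSMul f.ker {x : W // π x ≠ i0} := by
    constructor
    intro g h hgh
    apply Subtype.ext
    apply FaithfulSMul.eq_of_smul_eq_smul (α := W)
    intro x
    by_cases hx : π x = i0
    · have hg := g.2
      have hh := h.2
      rw [MonoidHom.mem_ker] at hg hh
      have e1 := congrArg (fun s : Equiv.Perm {x : W // π x = i0} => (s ⟨x, hx⟩ : W)) hg
      have e2 := congrArg (fun s : Equiv.Perm {x : W // π x = i0} => (s ⟨x, hx⟩ : W)) hh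
      exact e1.trans e2.symm
    · exact congrArg Subtype.val (hgh ⟨x, hx⟩)
  haveI n1 : Nonempty {x : W // π x = i0} := ⟨⟨x0, hx0⟩⟩
  have hcard : Nat.card {x : W // π x = i0} + Nat.card {x : W // π x ≠ i0} = n := by
    rw [← hW, ← Nat.card_sum]
    exact Nat.card_congr (Equiv.sumCompl (fun x => π x = i0))
  have hp1 : 0 < Nat.card {x : W // π x = i0} := Nat.card_pos
  have hp2 : 0 < Nat.card {x : W // π x ≠ i0} := by
    haveI : Nonempty {x : W // π x ≠ i0} := ⟨⟨x1, by rw [hx1]; exact hi1⟩⟩
    exact Nat.card_pos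
  have k1 := (ih _ (by omega)).one {x : W // π x = i0} f.range rfl
  have k2 := ih _ (by omega) {x : W // π x ≠ i0} {i : I // i ≠ i0} (fun x => ⟨π x.1, x.2⟩) f.ker rfl
    (by
      rintro ⟨i, hi⟩
      obtain ⟨x, hx⟩ := hs i
      exact ⟨⟨x, by rw [hx]; exact hi⟩, Subtype.ext hx⟩)
    (fun g x => Subtype.ext (hinv g x.1))
  have hI : Nat.card I = Nat.card {i : I // i ≠ i0} + 1 := by
    have h3 : Nat.card {i : I // i = i0} + Nat.card {i : I // i ≠ i0} = Nat.card I := by
      rw [← Nat.card_sum]
      exact Nat.card_congr (Equiv.sumCompl (fun i => i = i0))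
    have h4 : Nat.card {i : I // i = i0} = 1 := Nat.card_unique
    omega
  calc Nat.card (ConjClasses G) * 5 ^ Nat.card I
      ≤ (Nat.card (ConjClasses f.ker) * Nat.card (ConjClasses f.range)) * 5 ^ Nat.card I := Nat.mul_le_mul_right _ (quot f)
    _ = (Nat.card (ConjClasses f.range) * 5) * (Nat.card (ConjClasses f.ker) * 5 ^ Nat.card {i : I // i ≠ i0}) := by
        rw [hI, pow_succ]; ring
    _ ≤ 5 ^ Nat.card {x : W // π x = i0} * 5 ^ Nat.card {x : W // π x ≠ i0} := Nat.mul_le_mul k1 k2
    _ = 5 ^ n := by rw [← pow_add, hcard]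

theorem stepB {n : ℕ} (ih : ∀ m < n, T m) (W : Type) [Finite W] [Nonempty W] (G : Type) [Group G] [Finite G] [MulAction G W]
    [FaithfulSMul G W] (hW : Nat.card W = n) (hn : 2 ≤ n) (ht : IsPretransitive G W) (hp : ¬ IsPreprimitive G W) :
    Nat.card (ConjClasses G) * 5 ≤ 5 ^ n := by
  classical
  obtain ⟨x0⟩ : Nonempty W := inferInstance
  have hidx : (stabilizer G x0).index = n := by
    rw [index_stabilizer, orbit_eq_univ, Set.ncard_univ, hW]
  haveI : Nontrivial W := Finite.one_lt_card_iff_nontrivial.1 (by omega)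
  obtain ⟨L, hL1, hL2⟩ : ∃ L : Subgroup G, stabilizer G x0 < L ∧ L < ⊤ := by
    by_contra hcon
    push Not at hcon
    apply hp
    rw [← isCoatom_stabilizer_iff_preprimitive G x0]
    refine ⟨?_, fun L hL => ?_⟩
    · intro h
      rw [h, Subgroup.index_top] at hidx
      omega
    · by_contra hL'
      exact hcon L hL (lt_top_iff_ne_top.2 hL')
  choose s hs using fun x : W => exists_smul_eq G x0 x
  let π : W → G ⧸ L := fun x => (s x : G ⧸ L)
  have hπ : ∀ g : G, π (g • x0) = (g : G ⧸ L) := by
    intro g
    show ((s (g • x0) : G) : G ⧸ L) = (g : G ⧸ L)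
    rw [QuotientGroup.eq]
    apply hL1.le
    rw [mem_stabilizer_iff, mul_smul, inv_smul_eq_iff]
    exact (hs _).symm
  have hπ2 : ∀ (g : G) (x : W), π (g • x) = g • π x := by
    intro g x
    have : x = s x • x0 := (hs x).symm
    conv_lhs => rw [this, ← mul_smul]
    rw [hπ]
    rfl
  set f := MulAction.toPermHom G (G ⧸ L) with hf
  haveI : FaithfulSMul f.ker W := by
    constructor
    intro g h hgh
    apply Subtype.ext
    exact FaithfulSMul.eq_of_smul_eq_smul (α := W) (fun x => hgh x)
  have hLi : Nat.card (G ⧸ L) = L.index := rfl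
  have hL3 : 2 ≤ L.index := by
    have h1 : L.index ≠ 1 := fun h => hL2.ne (Subgroup.index_eq_one.1 h)
    have h2 : L.index ≠ 0 := Subgroup.index_ne_zero_of_finite
    omega
  have hL4 : L.index < n := by
    rw [← hidx, ← Subgroup.relIndex_mul_index hL1.le]
    have h1 : (stabilizer G x0).relIndex L ≠ 1 := fun h => hL1.not_ge (Subgroup.relIndex_eq_one.1 h)
    have h2 : (stabilizer G x0).relIndex L ≠ 0 := Subgroup.index_ne_zero_of_finite
    have h3 : 2 ≤ (stabilizer G x0).relIndex L := by omega
    nlinarith
  have k1 := stepA ih W (G ⧸ L) π f.ker hW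
    (by
      intro i
      obtain ⟨g, rfl⟩ := QuotientGroup.mk_surjective i
      exact ⟨g • x0, hπ g⟩)
    (by
      intro g x
      have h1 : π ((g : G) • x) = (g : G) • π x := hπ2 g x
      have h2 := g.2
      rw [MonoidHom.mem_ker] at h2
      have h3 := congrArg (fun e : Equiv.Perm (G ⧸ L) => e (π x)) h2
      exact h1.trans h3) (by rw [hLi]; exact hL3)
  have k2 := (ih _ hL4).one (G ⧸ L) f.range hLi
  rw [hLi] at k1
  calc Nat.card (ConjClasses G) * 5
      ≤ (Nat.card (ConjClasses f.ker) * Nat.card (ConjClasses f.range)) * 5 := Nat.mul_le_mul_right _ (quot f)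
    _ = Nat.card (ConjClasses f.ker) * (Nat.card (ConjClasses f.range) * 5) := by ring
    _ ≤ Nat.card (ConjClasses f.ker) * 5 ^ L.index := Nat.mul_le_mul_left _ k2
    _ ≤ 5 ^ n := k1

theorem num1 {n : ℕ} (hn : 2 ≤ n) : 2 ^ n * 5 ≤ 5 ^ n := by
  induction n, hn using Nat.le_induction with
  | base => norm_num
  | succ m hm ih => rw [pow_succ, pow_succ]; omega

theorem num2 {n d : ℕ} (h : 2 * d ≤ n) : 2 ^ n * 5 ^ d ≤ 5 ^ n := by
  have h1 : (2 ^ n * 5 ^ d) ^ 2 ≤ (5 ^ n) ^ 2 := by
    calc (2 ^ n * 5 ^ d) ^ 2 = 4 ^ n * 5 ^ (2 * d) := by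
          rw [mul_pow, ← pow_mul, ← pow_mul, mul_comm n 2, pow_mul, mul_comm d 2]; norm_num
      _ ≤ 5 ^ n * 5 ^ n := Nat.mul_le_mul (Nat.pow_le_pow_left (by norm_num) n) (Nat.pow_le_pow_right (by norm_num) h)
      _ = (5 ^ n) ^ 2 := by ring
  exact (Nat.pow_le_pow_iff_left (by norm_num)).1 h1

theorem stepC {n : ℕ} (ih : ∀ m < n, T m) (W : Type) [Finite W] [Nonempty W] (G : Type) [Group G] [Finite G] [MulAction G W]
    [FaithfulSMul G W] (hW : Nat.card W = n) (hn : 2 ≤ n) (hp : IsPreprimitive G W) :
    Nat.card (ConjClasses G) * 5 ≤ 5 ^ n := by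
  classical
  haveI : Fintype W := Fintype.ofFinite W
  rcases Cfsg.Agent.Lib.KR66B70.base (G := G) (W := W) hp with hA | ⟨D, hD, hD1⟩
  · have hinj : Function.Injective (MulAction.toPermHom G W) := MulAction.toPerm_injective
    have e := MonoidHom.ofInjective hinj
    rw [cc_equiv e]
    have h1 := (Cfsg.Agent.S4200.result (MulAction.toPermHom G W).range).1
    have h2 := ksn (W := W)
    haveI : Nontrivial W := Finite.one_lt_card_iff_nontrivial.1 (by omega)
    have h3 : (MulAction.toPermHom G W).range.index ≤ 2 := by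
      have h4 := Subgroup.index_dvd_of_le hA
      rw [alternatingGroup.index_eq_two] at h4
      exact Nat.le_of_dvd (by norm_num) h4
    rw [hW] at h2
    have h5 := num1 hn
    calc Nat.card (ConjClasses (MulAction.toPermHom G W).range) * 5
        ≤ ((MulAction.toPermHom G W).range.index * Nat.card (ConjClasses (Equiv.Perm W))) * 5 := Nat.mul_le_mul_right _ h1
      _ ≤ (2 * Nat.card (ConjClasses (Equiv.Perm W))) * 5 := Nat.mul_le_mul_right _ (Nat.mul_le_mul_right _ h3)
      _ ≤ 2 ^ n * 5 := Nat.mul_le_mul_right _ h2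
      _ ≤ 5 ^ n := h5
  · rcases D.eq_empty_or_nonempty with rfl | hne
    · rw [triv (G := G) (fun g => hD1 g (by simp))]
      calc 1 * 5 = 5 ^ 1 := by norm_num
        _ ≤ 5 ^ n := Nat.pow_le_pow_right (by norm_num) (by omega)
    · set H := stabilizer G D with hH
      have hinv : ∀ h : H, ∀ x ∈ D, (h : G) • x ∈ D := by
        intro h x hx
        have h1 : (h : G) • D = D := h.2
        rw [← h1]
        exact Set.smul_mem_smul_set hx
      letI a1 : MulAction H D :=
        { smul := fun g x => ⟨(g : G) • x.1, hinv g x.1 x.2⟩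
          one_smul := fun x => Subtype.ext (one_smul G x.1)
          mul_smul := fun g h x => Subtype.ext (mul_smul (g : G) (h : G) x.1) }
      haveI : FaithfulSMul H D := by
        constructor
        intro g h hgh
        apply Subtype.ext
        have h1 : (h : G)⁻¹ * g = 1 := by
          apply hD1
          intro x hx
          rw [mul_smul, inv_smul_eq_iff]
          exact congrArg Subtype.val (hgh ⟨x, hx⟩)
        exact (inv_mul_eq_one.1 h1).symm
      haveI : Nonempty D := hne.to_subtype
      have hpos : 0 < Nat.card D := Nat.card_pos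
      rw [hW] at hD
      have k1 := (ih (Nat.card D) (by omega)).one D H rfl
      have k2 := (Cfsg.Agent.S4200.result H).2.1
      have k3 : H.index ≤ 2 ^ n := by
        rw [hH, index_stabilizer]
        calc (orbit G D).ncard ≤ Nat.card (Set W) := by
              rw [← Set.ncard_univ]
              exact Set.ncard_le_ncard (Set.subset_univ _) (Set.toFinite _)
          _ = 2 ^ n := by
              rw [Nat.card_eq_fintype_card, Fintype.card_set, ← Nat.card_eq_fintype_card, hW]
      calc Nat.card (ConjClasses G) * 5 ≤ (H.index * Nat.card (ConjClasses H)) * 5 := Nat.mul_le_mul_right _ k2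
        _ = H.index * (Nat.card (ConjClasses H) * 5) := by ring
        _ ≤ 2 ^ n * 5 ^ Nat.card D := Nat.mul_le_mul k3 k1
        _ ≤ 5 ^ n := num2 hD

theorem main : ∀ n, T n := by
  intro n
  induction n using Nat.strong_induction_on with
  | _ n ih =>
    intro W _ I _ π G _ _ _ _ hW hs hinv
    classical
    rcases Nat.lt_or_ge (Nat.card I) 2 with hI | hI
    · rcases Nat.eq_zero_or_pos (Nat.card I) with h0 | hpos
      · haveI : IsEmpty I := (Nat.card_eq_zero.1 h0).resolve_right (fun h => (not_finite_iff_infinite.2 h) inferInstance)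
        haveI : IsEmpty W := ⟨fun x => IsEmpty.false (π x)⟩
        have hG : ∀ g : G, g = 1 := fun g => FaithfulSMul.eq_of_smul_eq_smul (α := W) (fun x => (IsEmpty.false x).elim)
        rw [triv hG, h0, ← hW, Nat.card_of_isEmpty]
        norm_num
      · have h1 : Nat.card I = 1 := by omega
        haveI : Nonempty I := (Nat.card_pos_iff.1 hpos).1
        obtain ⟨i0⟩ : Nonempty I := inferInstance
        obtain ⟨x0, -⟩ := hs i0
        haveI : Nonempty W := ⟨x0⟩
        rw [h1, pow_one]
        by_cases ht : IsPretransitive G W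
        · rcases Nat.lt_or_ge n 2 with hn | hn
          · have hn1 : n = 1 := by
              have : 0 < Nat.card W := Nat.card_pos
              omega
            haveI : Subsingleton W := (Nat.card_eq_one_iff_unique.1 (hW.trans hn1)).1
            have hG : ∀ g : G, g = 1 := fun g => FaithfulSMul.eq_of_smul_eq_smul (α := W) (fun x => Subsingleton.elim _ _)
            rw [triv hG, hn1]
            norm_num
          · by_cases hp : IsPreprimitive G W
            · exact stepC ih W G hW hn hp
            · exact stepB ih W G hW hn ht hp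
        · -- intransitive
          obtain ⟨y, hy⟩ : ∃ y, y ∉ orbit G x0 := by
            by_contra hcon
            push Not at hcon
            apply ht
            constructor
            intro a b
            obtain ⟨g, hg⟩ := hcon a
            obtain ⟨g', hg'⟩ := hcon b
            refine ⟨g' * g⁻¹, ?_⟩
            have hg1 : g • x0 = a := hg
            have hg2 : g' • x0 = b := hg'
            rw [← hg1, mul_smul, inv_smul_smul, hg2]
          have k1 := stepA ih W Bool (fun x => decide (x ∈ orbit G x0)) G hW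
            (by
              intro b
              cases b
              · exact ⟨y, by simp [hy]⟩
              · exact ⟨x0, by simp⟩)
            (by
              intro g x
              simp only [decide_eq_decide]
              constructor
              · rintro ⟨h, hh⟩
                exact ⟨g⁻¹ * h, by
                  show (g⁻¹ * h) • x0 = x
                  rw [mul_smul, show h • x0 = g • x from hh, inv_smul_smul]⟩
              · rintro ⟨h, hh⟩
                exact ⟨g * h, by
                  show (g * h) • x0 = g • x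
                  rw [mul_smul, show h • x0 = x from hh]⟩)
            (by simp)
          have h2 : Nat.card Bool = 2 := by simp
          rw [h2] at k1
          calc Nat.card (ConjClasses G) * 5 ≤ Nat.card (ConjClasses G) * 5 ^ 2 := Nat.mul_le_mul_left _ (by norm_num)
            _ ≤ 5 ^ n := k1
    · exact stepA ih W I π G hW hs hinv hI

end Cfsg.Agent.Lib.KR66
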