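import Cfsg.Agent.Lib.QuadSection

/-!
# Pairs of transvections and `SL(2,p)` (helper30)
-/

set_option autoImplicit false
set_option linter.unusedSectionVars false

namespace Cfsg.Agent.Lib.KS9Lin

open Matrix Cfsg.Agent.Lib.SL2Trans Cfsg.Agent.Lib.PSLTwoRec Cfsg.Agent.Lib.QuadSection
open scoped MatrixGroups

section general

variable {F W : Type*} [Field F] [AddCommGroup W] [Module F W]

/-- the action of `SL(2,F)` on `W = ⟨a₁, a₂⟩ ⊕ (ker ψ₁ ⊓ ker ψ₂)` -/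
noncomputable def Phi {a1 a2 : W} {ψ1 ψ2 : W →ₗ[F] F} (h11 : ψ1 a1 = 1) (h12 : ψ1 a2 = 0) (h21 : ψ2 a1 = 0)
    (h22 : ψ2 a2 = 1) : SL(2, F) →* Module.End F W where
  toFun M := 1 + ψ1.smulRight ((M 0 0 - 1) • a1 + M 1 0 • a2) + ψ2.smulRight (M 0 1 • a1 + (M 1 1 - 1) • a2)
  map_one' := by
    ext v
    simp
  map_mul' M N := by
    classical
    ext v
    simp only [LinearMap.add_apply, Module.End.one_apply, LinearMap.smulRight_apply, Module.End.mul_apply,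
      map_add, map_smul, h11, h12, h21, h22, mul_00, mul_01, mul_10, mul_11, smul_eq_mul]
    module

theorem Phi_apply {a1 a2 : W} {ψ1 ψ2 : W →ₗ[F] F} (h11 : ψ1 a1 = 1) (h12 : ψ1 a2 = 0) (h21 : ψ2 a1 = 0)
    (h22 : ψ2 a2 = 1) (M : SL(2, F)) (v : W) : Phi h11 h12 h21 h22 M v =
      v + ψ1 v • ((M 0 0 - 1) • a1 + M 1 0 • a2) + ψ2 v • (M 0 1 • a1 + (M 1 1 - 1) • a2) := rfl

theorem Phi_injective {a1 a2 : W} {ψ1 ψ2 : W →ₗ[F] F} (h11 : ψ1 a1 = 1) (h12 : ψ1 a2 = 0) (h21 : ψ2 a1 = 0)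
    (h22 : ψ2 a2 = 1) : Function.Injective (Phi h11 h12 h21 h22) := by
  classical
  intro M N h
  have e1 := congrArg (fun f : Module.End F W => ψ1 (f a1)) h
  have e2 := congrArg (fun f : Module.End F W => ψ2 (f a1)) h
  have e3 := congrArg (fun f : Module.End F W => ψ1 (f a2)) h
  have e4 := congrArg (fun f : Module.End F W => ψ2 (f a2)) h
  simp only [Phi_apply, map_add, map_smul, h11, h12, h21, h22, smul_eq_mul, mul_one, mul_zero, add_zero, zero_add,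
    one_mul, zero_mul] at e1 e2 e3 e4
  apply ext2
  · linear_combination e1
  · exact e3
  · exact e2
  · linear_combination e4

end general

section pair

variable {p : ℕ} [hp : Fact p.Prime] {W : Type*} [AddCommGroup W] [Module (ZMod p) W] {H : Type*} [Group H]

/-- two elements acting as transvections -/
structure Pair (ρ : H →* Module.End (ZMod p) W) (t1 t2 : H) (a1 a2 : W) (φ1 φ2 : W →ₗ[ZMod p] ZMod p) :
    Prop where
  e1 : ρ t1 = 1 + φ1.smulRight a1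
  e2 : ρ t2 = 1 + φ2.smulRight a2
  h11 : φ1 a1 = 0
  h22 : φ2 a2 = 0

variable {ρ : H →* Module.End (ZMod p) W} {t1 t2 : H} {a1 a2 : W} {φ1 φ2 : W →ₗ[ZMod p] ZMod p}

theorem Pair.symm (P : Pair ρ t1 t2 a1 a2 φ1 φ2) : Pair ρ t2 t1 a2 a1 φ2 φ1 := ⟨P.e2, P.e1, P.h22, P.h11⟩

theorem apply_of_eq {t : H} {a : W} {φ : W →ₗ[ZMod p] ZMod p} (e : ρ t = 1 + φ.smulRight a) (v : W) :
    ρ t v = v + φ v • a := by
  rw [e]; rfl

theorem apply_inv_of_eq {t : H} {a : W} {φ : W →ₗ[ZMod p] ZMod p} (e : ρ t = 1 + φ.smulRight a) (h : φ a = 0)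
    (v : W) : ρ t⁻¹ v = v - φ v • a := by
  have h1 : ρ t⁻¹ (ρ t (v - φ v • a)) = v - φ v • a := by
    rw [← Module.End.mul_apply, ← map_mul, inv_mul_cancel, map_one]; rfl
  rw [apply_of_eq e] at h1
  rw [← h1]
  congr 1
  rw [map_sub, map_smul, h, smul_zero, sub_zero, sub_add_cancel]

/-- the ratio of two commuting or "half-commuting" transvections is unipotent -/
theorem Pair.pow_eq_one (P : Pair ρ t1 t2 a1 a2 φ1 φ2) (h : φ1 a2 = 0 ∨ φ2 a1 = 0) :
    ρ (t1⁻¹ * t2) ^ (p ^ 2) = 1 := by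
  rcases subsingleton_or_nontrivial W with hW | hW
  · exact Subsingleton.elim _ _
  have hch : CharP (Module.End (ZMod p) W) p :=
    charP_of_injective_algebraMap (FaithfulSMul.algebraMap_injective (ZMod p) (Module.End (ZMod p) W)) p
  set X : Module.End (ZMod p) W := ρ (t1⁻¹ * t2) - 1 with hX
  have hXv : ∀ v, X v = φ2 v • a2 - (φ1 v + φ2 v * φ1 a2) • a1 := by
    intro v
    rw [hX, LinearMap.sub_apply, map_mul, Module.End.mul_apply, apply_of_eq P.e2, apply_inv_of_eq P.e1 P.h11,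
      map_add, map_smul, smul_eq_mul, Module.End.one_apply]
    abel
  have hX3 : X ^ 3 = 0 := by
    ext v
    rw [pow_succ, pow_two, Module.End.mul_apply, Module.End.mul_apply, LinearMap.zero_apply, hXv (X _), hXv (X _),
      hXv v]
    simp only [map_sub, map_smul, P.h11, P.h22, smul_eq_mul, mul_zero, sub_zero, zero_sub]
    rcases h with h | h
    · rw [h]; simp [P.h11, P.h22]
    · rw [h]; simp [P.h11, P.h22]
  have h1 : ρ (t1⁻¹ * t2) = 1 + X := by rw [hX]; abel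
  rw [h1, add_pow_char_pow_of_commute p 2 (Commute.one_left X), one_pow]
  have h2 : 3 ≤ p ^ 2 := by
    have := hp.out.two_le
    nlinarith
  obtain ⟨k, hk⟩ := Nat.exists_eq_add_of_le h2
  rw [hk, pow_add, hX3, zero_mul, add_zero]

section full

variable (P : Pair ρ t1 t2 a1 a2 φ1 φ2) (h12 : φ1 a2 ≠ 0) (h21 : φ2 a1 ≠ 0)

/-- the first coordinate -/
noncomputable def psi1 (φ2 : W →ₗ[ZMod p] ZMod p) (a1 : W) : W →ₗ[ZMod p] ZMod p := (φ2 a1)⁻¹ • φ2

theorem psi1_apply (φ2 : W →ₗ[ZMod p] ZMod p) (a1 v : W) : psi1 φ2 a1 v = (φ2 a1)⁻¹ * φ2 v := rfl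

/-- the homomorphism `SL(2,p) → GL(W)` of a pair -/
noncomputable def Pair.Phi : SL(2, ZMod p) →* Module.End (ZMod p) W :=
  KS9Lin.Phi (a1 := a1) (a2 := a2) (ψ1 := psi1 φ2 a1) (ψ2 := psi1 φ1 a2)
    (by rw [psi1_apply]; exact inv_mul_cancel₀ h21)
    (by rw [psi1_apply, P.h22, mul_zero])
    (by rw [psi1_apply, P.h11, mul_zero])
    (by rw [psi1_apply]; exact inv_mul_cancel₀ h12)

theorem Pair.Phi_apply (M : SL(2, ZMod p)) (v : W) : P.Phi h12 h21 M v =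
      v + ((φ2 a1)⁻¹ * φ2 v) • ((M 0 0 - 1) • a1 + M 1 0 • a2) +
        ((φ1 a2)⁻¹ * φ1 v) • (M 0 1 • a1 + (M 1 1 - 1) • a2) := rfl

theorem Pair.Phi_injective : Function.Injective (P.Phi h12 h21) := KS9Lin.Phi_injective _ _ _ _

theorem Pair.Phi_tr : P.Phi h12 h21 (tr (φ1 a2)) = ρ t1 := by
  ext v
  rw [P.Phi_apply, apply_of_eq P.e1, tr_00, tr_01, tr_10, tr_11, sub_self, zero_smul, zero_smul, add_zero,
    smul_zero, add_zero, add_zero, smul_smul]
  congr 2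
  field_simp

theorem Pair.Phi_lo : P.Phi h12 h21 (lo (φ2 a1)) = ρ t2 := by
  ext v
  rw [P.Phi_apply, apply_of_eq P.e2, lo_00, lo_01, lo_10, lo_11, sub_self, zero_smul, zero_smul, add_zero,
    smul_zero, add_zero, zero_add, smul_smul]
  congr 2
  field_simp

theorem closure_tr_lo {c d : ZMod p} (hc : c ≠ 0) (hd : d ≠ 0) : Subgroup.closure {tr c, lo d} = ⊤ := by
  apply closure_eq_top
  · have : (tr (1 : ZMod p)) = tr c ^ (c⁻¹).val := by
      rw [tr_pow, ZMod.natCast_val, ZMod.cast_id', id, inv_mul_cancel₀ hc]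
    rw [this]
    exact pow_mem (Subgroup.subset_closure (by simp)) _
  · have : (lo (1 : ZMod p)) = lo d ^ (d⁻¹).val := by
      rw [lo_pow, ZMod.natCast_val, ZMod.cast_id', id, inv_mul_cancel₀ hd]
    rw [this]
    exact pow_mem (Subgroup.subset_closure (by simp)) _

theorem Pair.map_closure : (Subgroup.closure {t1, t2}).map ρ.toHomUnits = (P.Phi h12 h21).toHomUnits.range := by
  rw [MonoidHom.range_eq_map, ← closure_tr_lo h12 h21, MonoidHom.map_closure, MonoidHom.map_closure]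
  congr 1
  rw [Set.image_pair, Set.image_pair]
  congr 1
  · apply Units.ext
    exact (P.Phi_tr h12 h21).symm
  · congr 1
    apply Units.ext
    exact (P.Phi_lo h12 h21).symm

theorem toHomUnits_injective {M : Type*} [Monoid M] {K : Type*} [Group K] {f : K →* M} (hf : Function.Injective f) :
    Function.Injective f.toHomUnits := by
  intro x y h
  exact hf (congrArg Units.val h)

/-- every matrix is induced by an element of `⟨t₁, t₂⟩` -/
theorem Pair.exists_mem (M : SL(2, ZMod p)) : ∃ g ∈ Subgroup.closure {t1, t2}, ρ g = P.Phi h12 h21 M := by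
  have h1 : (P.Phi h12 h21).toHomUnits M ∈ (Subgroup.closure {t1, t2}).map ρ.toHomUnits := by
    rw [P.map_closure h12 h21]; exact ⟨M, rfl⟩
  obtain ⟨g, hg, h⟩ := h1
  exact ⟨g, hg, congrArg Units.val h⟩

theorem Pair.exists_matrix {g : H} (hg : g ∈ Subgroup.closure {t1, t2}) :
    ∃ M : SL(2, ZMod p), ρ g = P.Phi h12 h21 M := by
  have h1 : ρ.toHomUnits g ∈ (P.Phi h12 h21).toHomUnits.range := by
    rw [← P.map_closure h12 h21]; exact ⟨g, hg, rfl⟩
  obtain ⟨M, h⟩ := h1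
  exact ⟨M, (congrArg Units.val h).symm⟩

/-- **two non-commuting transvections generate `SL(2,p)`** -/
theorem Pair.exists_equiv (hρ : Function.Injective ρ) :
    ∃ e : Subgroup.closure {t1, t2} ≃* SL(2, ZMod p), ∀ g : Subgroup.closure {t1, t2},
      ρ (g : H) = P.Phi h12 h21 (e g) := by
  let e1 := Subgroup.equivMapOfInjective (Subgroup.closure {t1, t2}) ρ.toHomUnits (toHomUnits_injective hρ)
  let e2 := MulEquiv.subgroupCongr (P.map_closure h12 h21)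
  let e3 := MonoidHom.ofInjective (toHomUnits_injective (P.Phi_injective h12 h21))
  refine ⟨(e1.trans e2).trans e3.symm, fun g => ?_⟩
  have h1 : e3 (((e1.trans e2).trans e3.symm) g) = e2 (e1 g) := by
    simp
  have h2 := congrArg (fun x => ((x : (P.Phi h12 h21).toHomUnits.range) : (Module.End (ZMod p) W)ˣ)) h1
  have h3 := congrArg Units.val h2
  exact h3.symm

include P h12 h21 in
/-- transvections with centre in `⟨a₁, a₂⟩` and axis containing `ker φ₁ ⊓ ker φ₂` lie in `⟨t₁, t₂⟩` -/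
theorem Pair.mem_of_transvection (hρ : Function.Injective ρ) {t : H} {a : W} {φ : W →ₗ[ZMod p] ZMod p}
    (e : ρ t = 1 + φ.smulRight a) (h : φ a = 0) (ha : ∃ x y : ZMod p, a = x • a1 + y • a2)
    (hφ : ∀ v, φ1 v = 0 → φ2 v = 0 → φ v = 0) : t ∈ Subgroup.closure {t1, t2} := by
  obtain ⟨x, y, rfl⟩ := ha
  have hφ' : ∀ v, φ v = ((φ2 a1)⁻¹ * φ2 v) * φ a1 + ((φ1 a2)⁻¹ * φ1 v) * φ a2 := by
    intro v
    have h1 := hφ (v - ((φ2 a1)⁻¹ * φ2 v) • a1 - ((φ1 a2)⁻¹ * φ1 v) • a2)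
      (by
        simp only [map_sub, map_smul, smul_eq_mul, P.h11, mul_zero, sub_zero]
        field_simp
        ring)
      (by
        simp only [map_sub, map_smul, smul_eq_mul, P.h22, mul_zero, sub_zero]
        field_simp
        ring)
    simp only [map_sub, map_smul, smul_eq_mul] at h1
    linear_combination h1
  have hdet : x * φ a1 + y * φ a2 = 0 := by
    rw [map_add, map_smul, map_smul] at h
    exact h
  let M : SL(2, ZMod p) := ⟨!![1 + x * φ a1, x * φ a2; y * φ a1, 1 + y * φ a2], by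
    rw [Matrix.det_fin_two]
    simp only [of_apply, cons_val', cons_val_zero, cons_val_one, cons_val_fin_one]
    linear_combination hdet⟩
  obtain ⟨g, hg, hgM⟩ := P.exists_mem h12 h21 M
  have h1 : ρ t = ρ g := by
    rw [hgM]
    ext v
    rw [P.Phi_apply, apply_of_eq e]
    have e00 : M 0 0 = 1 + x * φ a1 := rfl
    have e01 : M 0 1 = x * φ a2 := rfl
    have e10 : M 1 0 = y * φ a1 := rfl
    have e11 : M 1 1 = 1 + y * φ a2 := rfl
    rw [e00, e01, e10, e11, hφ' v]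
    module
  rw [hρ h1]
  exact hg

end full

section small

/-- the ratio cannot be a `3'`-element if `c₁₂ c₂₁ = 1`, `p = 3` -/
theorem sl23 : ∀ c d : ZMod 3, c * d = 1 → ((tr c)⁻¹ * lo d : SL(2, ZMod 3)) ^ 6 = 1 ∧
    ((tr c)⁻¹ * lo d : SL(2, ZMod 3)) ^ 2 ≠ 1 := by
  decide +kernel

theorem Pair.ratio (P : Pair ρ t1 t2 a1 a2 φ1 φ2) (h12 : φ1 a2 ≠ 0) (h21 : φ2 a1 ≠ 0) :
    ρ (t1⁻¹ * t2) = P.Phi h12 h21 ((tr (φ1 a2))⁻¹ * lo (φ2 a1)) := by
  rw [map_mul, map_mul, P.Phi_lo]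
  congr 1
  have h1 : ρ t1⁻¹ * ρ t1 = 1 := by rw [← map_mul, inv_mul_cancel, map_one]
  have h2 : P.Phi h12 h21 (tr (φ1 a2))⁻¹ * ρ t1 = 1 := by
    rw [← P.Phi_tr h12 h21, ← map_mul, inv_mul_cancel, map_one]
  have h3 : ρ t1 * ρ t1⁻¹ = 1 := by rw [← map_mul, mul_inv_cancel, map_one]
  calc ρ t1⁻¹ = (P.Phi h12 h21 (tr (φ1 a2))⁻¹ * ρ t1) * ρ t1⁻¹ := by rw [h2, one_mul]
    _ = _ := by rw [mul_assoc, h3, mul_one]

/-- no `⟨t₁⁻¹t₂⟩`-invariant lines -/
theorem anis2 : ∀ c d x y : ZMod 2, c * d = -1 → (x ≠ 0 ∨ y ≠ 0) → d * x ^ 2 - x * y + c * y ^ 2 ≠ 0 := by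
  decide

theorem anis3 : ∀ c d x y : ZMod 3, c * d = -1 → (x ≠ 0 ∨ y ≠ 0) → d * x ^ 2 - x * y + c * y ^ 2 ≠ 0 := by
  decide +kernel

theorem anis (hp3 : p = 2 ∨ p = 3) (c d x y : ZMod p) (hcd : c * d = -1) (hxy : x ≠ 0 ∨ y ≠ 0) :
    d * x ^ 2 - x * y + c * y ^ 2 ≠ 0 := by
  rcases hp3 with rfl | rfl
  · exact anis2 c d x y hcd hxy
  · exact anis3 c d x y hcd hxy

theorem Pair.ratio_apply (P : Pair ρ t1 t2 a1 a2 φ1 φ2) (hcd : φ1 a2 * φ2 a1 = -1) (x y : ZMod p) :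
    ρ (t1⁻¹ * t2) (x • a1 + y • a2) = (2 * x - φ1 a2 * y) • a1 + (φ2 a1 * x + y) • a2 := by
  rw [map_mul, Module.End.mul_apply, apply_of_eq P.e2, apply_inv_of_eq P.e1 P.h11]
  simp only [map_add, map_smul, P.h11, P.h22, smul_eq_mul, mul_zero, add_zero, zero_add]
  have h1 : y * φ1 a2 + x * φ2 a1 * φ1 a2 = φ1 a2 * y - x := by linear_combination x * hcd
  rw [h1]
  module

/-- the irreducibility of `⟨t₁⁻¹t₂⟩` on `⟨a₁, a₂⟩` -/
theorem Pair.irred (hp3 : p = 2 ∨ p = 3) (P : Pair ρ t1 t2 a1 a2 φ1 φ2) (hcd : φ1 a2 * φ2 a1 = -1) {x y : ZMod p}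
    (hxy : x ≠ 0 ∨ y ≠ 0) (z w : ZMod p) : ∃ m n : ZMod p,
      z • a1 + w • a2 = m • (x • a1 + y • a2) + n • ρ (t1⁻¹ * t2) (x • a1 + y • a2) := by
  rw [P.ratio_apply hcd]
  have hD := anis hp3 _ _ x y hcd hxy
  set D := φ2 a1 * x ^ 2 - x * y + φ1 a2 * y ^ 2 with hDdef
  refine ⟨D⁻¹ * (z * (φ2 a1 * x + y) - w * (2 * x - φ1 a2 * y)), D⁻¹ * (x * w - y * z), ?_⟩
  have e1 : D⁻¹ * (z * (φ2 a1 * x + y) - w * (2 * x - φ1 a2 * y)) * x +
      D⁻¹ * (x * w - y * z) * (2 * x - φ1 a2 * y) = z := by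
    field_simp
    rw [hDdef]; ring
  have e2 : D⁻¹ * (z * (φ2 a1 * x + y) - w * (2 * x - φ1 a2 * y)) * y +
      D⁻¹ * (x * w - y * z) * (φ2 a1 * x + y) = w := by
    field_simp
    rw [hDdef]; ring
  rw [smul_add, smul_add, smul_smul, smul_smul, smul_smul, smul_smul]
  conv_lhs => rw [← e1, ← e2]
  module

theorem three2 : ∀ c12 c21 c13 c31 c23 c32 : ZMod 2, c12 * c21 = -1 → c13 * c31 = -1 → c23 * c32 = -1 →
    (c31 + c21 * c32) * (c13 - c12 * c23) = -1 → (c31 - c21 * c32) * (c13 + c12 * c23) = -1 → False := by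
  decide

theorem three3 : ∀ c12 c21 c13 c31 c23 c32 : ZMod 3, c12 * c21 = -1 → c13 * c31 = -1 → c23 * c32 = -1 →
    (c31 + c21 * c32) * (c13 - c12 * c23) = -1 → (c31 - c21 * c32) * (c13 + c12 * c23) = -1 → False := by
  decide +kernel

theorem three (hp3 : p = 2 ∨ p = 3) (c12 c21 c13 c31 c23 c32 : ZMod p) (h1 : c12 * c21 = -1)
    (h2 : c13 * c31 = -1) (h3 : c23 * c32 = -1) (h4 : (c31 + c21 * c32) * (c13 - c12 * c23) = -1)
    (h5 : (c31 - c21 * c32) * (c13 + c12 * c23) = -1) : False := by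
  rcases hp3 with rfl | rfl
  · exact three2 _ _ _ _ _ _ h1 h2 h3 h4 h5
  · exact three3 _ _ _ _ _ _ h1 h2 h3 h4 h5

end small

end pair

end Cfsg.Agent.Lib.KS9Lin
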