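import Cfsg.Agent.Lib.OffenderBasic
import Cfsg.Agent.Lib.CoprimeHyper
import Cfsg.Agent.Lib.CoprimeAction2
import Cfsg.Agent.Lib.Cores
import Cfsg.Prelude.Def_PLocal
import Cfsg.Prelude.Def_Solvable

/-!
# Best offenders in groups with a self-centralizing `p'`-core (Kurzweil-Stellmacher 9.3.1) (helper30)
-/

set_option autoImplicit false
set_option linter.unusedSectionVars false

namespace Cfsg.Agent.Lib.KS9

open Subgroup Cfsg.Agent.Lib.SubgroupTools Cfsg.Agent.Lib.OffenderBasic
open scoped commutatorElement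

universe u

variable {G : Type u} [Group G] [Finite G] {p : ℕ} [hp : Fact p.Prime]

/-- the setting of K-S 9.3: `H` acts faithfully on the elementary abelian `p`-group `V`, `Q` is a normal
`p'`-subgroup of `H` containing its centralizer. -/
structure Setting (p : ℕ) (V H Q : Subgroup G) : Prop where
  hV : Cfsg.IsElementaryAbelian p V
  hHV : H ≤ normalizer (V : Set G)
  hf : H ⊓ centralizer (V : Set G) = ⊥
  hQH : Q ≤ H
  hHQ : H ≤ normalizer (Q : Set G)
  hQp : ¬ p ∣ Nat.card Q
  hCQ : H ⊓ centralizer (Q : Set G) ≤ Q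

/-- the minimal nontrivially acting best offenders -/
def IsMinOff (p : ℕ) (V A : Subgroup G) : Prop :=
  Cfsg.IsBestOffenderOn p V A ∧ ⁅V, A⁆ ≠ ⊥ ∧
    ∀ B : Subgroup G, B ≤ A → Cfsg.IsBestOffenderOn p V B → ⁅V, B⁆ ≠ ⊥ → B = A

theorem setting_of {V H : Subgroup G} (hV : Cfsg.IsElementaryAbelian p V)
    (hHV : H ≤ Subgroup.normalizer (V : Set G)) (hf : H ⊓ Subgroup.centralizer (V : Set G) = ⊥)
    (hS1 : Subgroup.centralizer (Cfsg.pPrimeCore p ↥H : Set ↥H) ≤ Cfsg.pPrimeCore p ↥H) :
    Setting p V H ((Cfsg.pPrimeCore p ↥H).map H.subtype) := by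
  refine ⟨hV, hHV, hf, map_subtype_le _, ?_, ?_, ?_⟩
  · exact Cores.le_normalizer_map_subtype _
  · rw [card_map_of_injective H.subtype_injective]
    exact (hp.out.coprime_iff_not_dvd).mp (Cores.coprime_card_pPrimeCore p H).symm
  · rintro x ⟨hxH, hxC⟩
    refine ⟨⟨x, hxH⟩, hS1 ?_, rfl⟩
    rw [mem_centralizer_iff]
    intro y hy
    apply Subtype.ext
    exact mem_centralizer_iff.mp hxC y ⟨y, hy, rfl⟩

theorem exists_ne_one {A : Subgroup G} (hA : A ≠ ⊥) : ∃ a ∈ A, a ≠ 1 := by
  obtain ⟨a, ha⟩ := ne_bot_iff_exists_ne_one.mp hA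
  exact ⟨a, a.2, fun h => ha (Subtype.ext h)⟩

theorem mem_centralizer_zpowers {t x : G} : x ∈ centralizer (zpowers t : Set G) ↔ x * t = t * x := by
  constructor
  · intro h
    exact (mem_centralizer_iff.mp h t (mem_zpowers t)).symm
  · intro h
    rw [mem_centralizer_iff]
    intro y hy
    obtain ⟨k, rfl⟩ := mem_zpowers_iff.mp hy
    exact ((show Commute x t from h).zpow_right k).eq.symm

theorem indep_snoc {k : ℕ} {f : Fin k → Subgroup G} {C : Subgroup G} (hf : iSupIndep f)
    (hd : Disjoint (⨆ i, f i) C) (hc : C ≤ centralizer ((⨆ i, f i : Subgroup G) : Set G)) :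
    iSupIndep (Fin.snoc (α := fun _ => Subgroup G) f C) := by
  intro i
  refine Fin.lastCases ?_ (fun i => ?_) i
  · rw [Fin.snoc_last]
    refine hd.symm.mono_right ?_
    apply iSup₂_le
    intro j
    refine Fin.lastCases ?_ (fun j => ?_) j
    · intro h; exact absurd rfl h
    · intro _
      rw [Fin.snoc_castSucc]
      exact le_iSup f j
  · rw [Fin.snoc_castSucc]
    have h1 : (⨆ j, ⨆ (_ : j ≠ Fin.castSucc i), (Fin.snoc (α := fun _ => Subgroup G) f C j : Subgroup G)) ≤
        (⨆ j, ⨆ (_ : j ≠ i), f j) ⊔ C := by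
      apply iSup₂_le
      intro j
      refine Fin.lastCases ?_ (fun j => ?_) j
      · intro _
        rw [Fin.snoc_last]
        exact le_sup_right
      · intro h
        rw [Fin.snoc_castSucc]
        refine le_trans ?_ le_sup_left
        exact le_iSup₂_of_le j (fun h' => h (by rw [h'])) le_rfl
    refine Disjoint.mono_right h1 ?_
    rw [disjoint_def]
    intro x hx1 hx2
    have hle : (⨆ j, ⨆ (_ : j ≠ i), f j) ≤ ⨆ j, f j := iSup₂_le fun j _ => le_iSup f j
    rw [mem_sup_of_le_normalizer ((hc.trans (centralizer_le hle)).trans (centralizer_le_normalizer _))] at hx2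
    obtain ⟨y, hy, z, hz, rfl⟩ := hx2
    have h2 : z ∈ ⨆ j, f j := by
      have h3 : z = y⁻¹ * (y * z) := by group
      rw [h3]
      exact mul_mem (inv_mem (hle hy)) (le_iSup f i hx1)
    have h3 : z = 1 := disjoint_def.mp hd h2 hz
    rw [h3, mul_one] at hx1 ⊢
    exact disjoint_def.mp (hf i) hx1 hy

namespace Setting

variable {V H Q A B : Subgroup G}

theorem eq_one_of_centralizes (S : Setting p V H Q) {x : G} (hx : x ∈ H) (hc : x ∈ centralizer (V : Set G)) : x = 1 := by
  have : x ∈ H ⊓ centralizer (V : Set G) := ⟨hx, hc⟩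
  rwa [S.hf, mem_bot] at this

theorem eq_bot_of_centralizes (S : Setting p V H Q) {X : Subgroup G} (hX : X ≤ H) (hc : X ≤ centralizer (V : Set G)) :
    X = ⊥ := by
  rw [eq_bot_iff_forall]
  exact fun x hx => S.eq_one_of_centralizes (hX hx) (hc hx)

theorem elemAb (S : Setting p V H Q) (hAH : A ≤ H) (hA : Cfsg.IsBestOffenderOn p V A) :
    Cfsg.IsElementaryAbelian p A := by
  refine ⟨?_, fun a ha => ?_⟩
  · rw [isMulCommutative_iff_of_setLike]
    intro a ha b hb
    have h1 : ⁅a, b⁆ = 1 := by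
      apply S.eq_one_of_centralizes
      · exact mul_mem (mul_mem (mul_mem (hAH ha) (hAH hb)) (inv_mem (hAH ha))) (inv_mem (hAH hb))
      · exact hA.2.1 (commutator_mem_commutator ha hb)
    exact commutatorElement_eq_one_iff_mul_comm.mp h1
  · exact S.eq_one_of_centralizes (pow_mem (hAH ha) p) (hA.2.2 a ha)

theorem inf_eq_bot (S : Setting p V H Q) {X : Subgroup G} (hX : IsPGroup p X) : X ⊓ Q = ⊥ := by
  apply inf_eq_bot_of_coprime'
  obtain ⟨k, hk⟩ := IsPGroup.iff_card.mp hX
  rw [hk]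
  exact Nat.Coprime.pow_left _ ((hp.out.coprime_iff_not_dvd).mpr S.hQp)

theorem comm_ne_bot_iff (S : Setting p V H Q) (hAH : A ≤ H) : ⁅V, A⁆ ≠ ⊥ ↔ A ≠ ⊥ := by
  rw [not_iff_not]
  constructor
  · intro h
    rw [commutator_comm, commutator_eq_bot_iff_le_centralizer] at h
    exact S.eq_bot_of_centralizes hAH h
  · rintro rfl
    exact commutator_bot_right V

/-- hyperplanes of an elementary abelian subgroup with new fixed points on `Q` -/
theorem exists_good (S : Setting p V H Q) (hAH : A ≤ H) (hA : Cfsg.IsElementaryAbelian p A) {a : G} (ha : a ∈ A)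
    (ha1 : a ≠ 1) : ∃ B : Subgroup G, B ≤ A ∧ B.relIndex A = p ∧ a ∉ B ∧
      ¬ Q ⊓ centralizer (B : Set G) ≤ centralizer (A : Set G) := by
  by_contra hcon
  push Not at hcon
  have hA1 : A ≠ ⊥ := by
    rintro rfl
    exact ha1 (mem_bot.mp ha)
  have h1 : Q ≤ centralizer ({a} : Set G) := by
    apply CoprimeHyper.le_of_hyper_eq hA hA1 S.hQp (hAH.trans S.hHQ)
    intro B hB hi
    by_cases haB : a ∈ B
    · rintro x ⟨-, hx⟩
      rw [mem_centralizer_singleton_iff]
      exact (mem_centralizer_iff.mp hx a haB).symm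
    · intro x hx
      have := hcon B hB hi haB hx
      rw [mem_centralizer_singleton_iff]
      exact (mem_centralizer_iff.mp this a ha).symm
  have h2 : a ∈ H ⊓ centralizer (Q : Set G) := by
    refine mem_inf.mpr ⟨hAH ha, ?_⟩
    rw [mem_centralizer_iff]
    intro x hx
    exact mem_centralizer_singleton_iff.mp (h1 hx)
  have h3 : a ∈ A ⊓ Q := ⟨ha, S.hCQ h2⟩
  rw [S.inf_eq_bot (CoprimeHyper.elemAb_isPGroup hA), mem_bot] at h3
  exact ha1 h3

/-- such hyperplanes of best offenders are best offenders -/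
theorem good_card (S : Setting p V H Q) (hAH : A ≤ H) (hA : Cfsg.IsBestOffenderOn p V A) (hB : B ≤ A)
    (hi : B.relIndex A = p) (hQB : ¬ Q ⊓ centralizer (B : Set G) ≤ centralizer (A : Set G)) :
    Nat.card A * Nat.card ↥(V ⊓ centralizer (A : Set G)) = Nat.card B * Nat.card ↥(V ⊓ centralizer (B : Set G)) ∧
      Cfsg.IsBestOffenderOn p V B := by
  have hAe := S.elemAb hAH hA
  have hAc : A ≤ centralizer (A : Set G) := CoprimeHyper.elemAb_le_centralizer hAe
  have hAB : A ≤ centralizer (B : Set G) := hAc.trans (centralizer_le hB)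
  set X := Q ⊓ centralizer (B : Set G) with hX
  have hAX : A ≤ normalizer (X : Set G) :=
    CoprimeHyper.le_normalizer_inf_centralizer hAe hB (hAH.trans S.hHQ)
  have hXAX : ⁅X, A⁆ ≤ X := le_normalizer_iff_commutator_le_left.mp hAX
  have hXH : X ≤ H := inf_le_left.trans S.hQH
  have hVp : IsPGroup p V := CoprimeHyper.elemAb_isPGroup S.hV
  -- `A` acts nontrivially on `C_V(B)`
  have hlt : V ⊓ centralizer (A : Set G) < V ⊓ centralizer (B : Set G) := by
    refine lt_of_le_of_ne (inf_le_inf_left _ (centralizer_le hB)) ?_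
    intro heq
    apply hQB
    have h1 : ⁅X, A⁆ ≤ centralizer (V : Set G) := by
      refine CoprimeAction2.thompson_PxQ (P := B) (CoprimeHyper.elemAb_isPGroup (CoprimeHyper.elemAb_mono hAe hB))
        ?_ ?_ _ V rfl hVp ((hB.trans hAH).trans S.hHV) ((hXAX.trans hXH).trans S.hHV) ?_
      · exact ((hp.out.coprime_iff_not_dvd).mpr fun h => S.hQp (h.trans (card_dvd_of_le (hXAX.trans inf_le_left)))).symm
      · rw [le_centralizer_iff]
        exact hXAX.trans inf_le_right
      · rw [le_centralizer_iff, commutator_le]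
        intro x hx a ha
        rw [mem_centralizer_iff]
        intro v hv
        -- `v ∈ C_V(B) = C_V(A)`
        have hvB : v ∈ V ⊓ centralizer (B : Set G) := hv
        have hxv : ∀ y ∈ X, ∀ w ∈ V ⊓ centralizer (B : Set G), y * w * y⁻¹ ∈ V ⊓ centralizer (B : Set G) := by
          rintro y hy w ⟨hwV, hwB⟩
          refine mem_inf.mpr ⟨(mem_normalizer_iff.mp (S.hHV (hXH hy)) w).mp hwV, ?_⟩
          have hyB : y ∈ centralizer (B : Set G) := hy.2
          exact mul_mem (mul_mem hyB hwB) (inv_mem hyB)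
        have hfix : ∀ b ∈ A, ∀ w ∈ V ⊓ centralizer (B : Set G), b * w * b⁻¹ = w := by
          intro b hb w hw
          rw [← heq] at hw
          have := mem_centralizer_iff.mp hw.2 b hb
          rw [this, mul_inv_cancel_right]
        have h2 : x⁻¹ * v * x ∈ V ⊓ centralizer (B : Set G) := by
          have := hxv x⁻¹ (inv_mem hx) v hvB
          rwa [inv_inv] at this
        have h3 : ⁅x, a⁆ * v * ⁅x, a⁆⁻¹ = v := by
          have e1 : ⁅x, a⁆ * v * ⁅x, a⁆⁻¹ = x * (a * (x⁻¹ * (a⁻¹ * v * a⁻¹⁻¹) * x) * a⁻¹) * x⁻¹ := by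
            rw [commutatorElement_def]; group
          rw [e1, hfix a⁻¹ (inv_mem ha) v hvB, hfix a ha _ h2]; group
        calc v * ⁅x, a⁆ = (⁅x, a⁆ * v * ⁅x, a⁆⁻¹) * ⁅x, a⁆ := by rw [h3]
          _ = ⁅x, a⁆ * v := by group
    have h2 : ⁅X, A⁆ = ⊥ := S.eq_bot_of_centralizes (hXAX.trans hXH) h1
    exact commutator_eq_bot_iff_le_centralizer.mp h2
  have h1 := card_mul_relIndex_of_le hB
  rw [hi] at h1
  have h2 := hA.1 B hB
  have h3 := card_mul_relIndex_of_le hlt.le
  -- the index is a nontrivial power of `p`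
  have h4 : p ≤ (V ⊓ centralizer (A : Set G)).relIndex (V ⊓ centralizer (B : Set G)) := by
    have h5 : IsPGroup p ↥(V ⊓ centralizer (B : Set G)) := hVp.to_le inf_le_left
    obtain ⟨k, hk⟩ := IsPGroup.iff_card.mp h5
    have h6 : (V ⊓ centralizer (A : Set G)).relIndex (V ⊓ centralizer (B : Set G)) ∣ p ^ k := by
      rw [← hk, ← h3]; exact dvd_mul_left _ _
    obtain ⟨j, -, hj⟩ := (Nat.dvd_prime_pow hp.out).mp h6
    rw [hj]
    have hj0 : j ≠ 0 := by
      rintro rfl
      rw [pow_zero] at hj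
      exact hlt.not_ge (relIndex_eq_one.mp hj)
    exact Nat.le_self_pow hj0 p
  have hpos : 0 < Nat.card B := Nat.card_pos
  have h5 : Nat.card A * Nat.card ↥(V ⊓ centralizer (A : Set G)) =
      Nat.card B * Nat.card ↥(V ⊓ centralizer (B : Set G)) := by
    apply le_antisymm _ h2
    rw [← h1, ← h3]
    calc Nat.card B * p * Nat.card ↥(V ⊓ centralizer (A : Set G)) =
        Nat.card B * (Nat.card ↥(V ⊓ centralizer (A : Set G)) * p) := by ring
      _ ≤ _ := by gcongr
  refine ⟨h5, ?_, (commutator_mono hB hB).trans hA.2.1, fun b hb => hA.2.2 b (hB hb)⟩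
  intro C hC
  rw [← h5]
  exact hA.1 C (hC.trans hB)

theorem card_eq_aux (S : Setting p V H Q) (n : ℕ) : ∀ A : Subgroup G, Nat.card A = n → A ≤ H →
    Cfsg.IsBestOffenderOn p V A → Nat.card A * Nat.card ↥(V ⊓ centralizer (A : Set G)) = Nat.card V := by
  induction n using Nat.strong_induction_on with
  | _ n ih =>
  intro A hn hAH hA
  by_cases hA1 : A = ⊥
  · subst hA1
    rw [card_bot, one_mul]
    congr 2
    have : centralizer ((⊥ : Subgroup G) : Set G) = ⊤ := by
      rw [eq_top_iff]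
      intro x _
      rw [mem_centralizer_iff]
      intro y hy
      rw [SetLike.mem_coe, mem_bot] at hy
      rw [hy, one_mul, mul_one]
    rw [this, inf_top_eq]
  · obtain ⟨a, ha, ha1⟩ := exists_ne_one hA1
    obtain ⟨B, hB, hi, -, hQB⟩ := S.exists_good hAH (S.elemAb hAH hA) ha ha1
    obtain ⟨h1, h2⟩ := S.good_card hAH hA hB hi hQB
    rw [h1]
    apply ih _ _ B rfl (hB.trans hAH) h2
    rw [← hn, ← card_mul_relIndex_of_le hB, hi]
    exact lt_mul_of_one_lt_right Nat.card_pos hp.out.one_lt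

/-- K-S 9.3.1 (a) -/
theorem card_eq (S : Setting p V H Q) (hAH : A ≤ H) (hA : Cfsg.IsBestOffenderOn p V A) :
    Nat.card A * Nat.card ↥(V ⊓ centralizer (A : Set G)) = Nat.card V :=
  S.card_eq_aux _ A rfl hAH hA

theorem card_minOff (S : Setting p V H Q) (hAH : A ≤ H) (hA : IsMinOff p V A) : Nat.card A = p := by
  have hA1 : A ≠ ⊥ := (S.comm_ne_bot_iff hAH).mp hA.2.1
  obtain ⟨a, ha, ha1⟩ := exists_ne_one hA1
  obtain ⟨B, hB, hi, haB, hQB⟩ := S.exists_good hAH (S.elemAb hAH hA.1) ha ha1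
  obtain ⟨h1, h2⟩ := S.good_card hAH hA.1 hB hi hQB
  have h3 : B = ⊥ := by
    by_contra hB1
    have := hA.2.2 B hB h2 ((S.comm_ne_bot_iff (hB.trans hAH)).mpr hB1)
    rw [this] at haB
    exact haB ha
  rw [← card_mul_relIndex_of_le hB, hi, h3, card_bot, one_mul]

/-- best offenders of order `p` are minimal -/
theorem minOff_of_card (S : Setting p V H Q) (hAH : A ≤ H) (hA : Cfsg.IsBestOffenderOn p V A)
    (hc : Nat.card A = p) : IsMinOff p V A := by
  have hA1 : A ≠ ⊥ := by
    rintro rfl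
    rw [card_bot] at hc
    exact hp.out.one_lt.ne hc
  refine ⟨hA, (S.comm_ne_bot_iff hAH).mpr hA1, ?_⟩
  intro B hB _ hB1
  rw [S.comm_ne_bot_iff (hB.trans hAH)] at hB1
  apply Subgroup.eq_of_le_of_card_ge hB
  have h1 := card_dvd_of_le hB
  rw [hc] at h1 ⊢
  rcases (Nat.dvd_prime hp.out).mp h1 with h | h
  · exact absurd (card_eq_one.mp h) hB1
  · rw [h]

theorem relIndex_minOff (S : Setting p V H Q) (hAH : A ≤ H) (hA : IsMinOff p V A) :
    (V ⊓ centralizer (A : Set G)).relIndex V = p := by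
  have h1 := S.card_eq hAH hA.1
  have h2 := card_mul_relIndex_of_le (inf_le_left : V ⊓ centralizer (A : Set G) ≤ V)
  rw [S.card_minOff hAH hA, ← h2, mul_comm] at h1
  exact (Nat.eq_of_mul_eq_mul_left Nat.card_pos h1).symm

end Setting

/-- the commutators `[v, t]`, `v ∈ V`, form a subgroup -/
def commSub (V : Subgroup G) (hV : V ≤ centralizer (V : Set G)) (t : G) (ht : t ∈ normalizer (V : Set G)) :
    V →* G where
  toFun v := ⁅(v : G), t⁆
  map_one' := by simp
  map_mul' := by
    intro v w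
    exact comm_mul_left (A := zpowers t) hV (by rwa [zpowers_le]) (mem_zpowers t) v.2 w.2

theorem commutator_zpowers {V : Subgroup G} (hV : V ≤ centralizer (V : Set G)) {t : G}
    (ht : t ∈ normalizer (V : Set G)) : ⁅V, zpowers t⁆ = (commSub V hV t ht).range := by
  apply le_antisymm
  · rw [commutator_le]
    intro v hv a ha
    rw [← mem_powers_iff_mem_zpowers] at ha
    obtain ⟨k, rfl⟩ := ha
    have key : ∀ k : ℕ, ∀ v ∈ V, ⁅v, t ^ k⁆ ∈ (commSub V hV t ht).range := by
      intro k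
      induction k with
      | zero => intro v _; simp
      | succ k ih =>
        intro v hv
        rw [pow_succ', comm_mul_right]
        refine mul_mem ⟨⟨v, hv⟩, rfl⟩ ?_
        obtain ⟨w, hw⟩ := ih v hv
        refine ⟨⟨t * w * t⁻¹, (mem_normalizer_iff.mp ht w).mp w.2⟩, ?_⟩
        rw [← hw]
        change ⁅t * (w : G) * t⁻¹, t⁆ = t * ⁅(w : G), t⁆ * t⁻¹
        simp only [commutatorElement_def]; group
    exact key k v hv
  · rintro _ ⟨v, rfl⟩
    exact commutator_mem_commutator v.2 (mem_zpowers t)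

theorem card_commutator_zpowers {V : Subgroup G} (hV : V ≤ centralizer (V : Set G)) {t : G}
    (ht : t ∈ normalizer (V : Set G)) :
    Nat.card ↥(⁅V, zpowers t⁆) * Nat.card ↥(V ⊓ centralizer (zpowers t : Set G)) = Nat.card V := by
  rw [commutator_zpowers hV ht]
  have h1 := card_mul_index (commSub V hV t ht).ker
  rw [index_ker] at h1
  have h2 : Nat.card (commSub V hV t ht).ker = Nat.card ↥(V ⊓ centralizer (zpowers t : Set G)) := by
    rw [← card_map_of_injective V.subtype_injective]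
    congr 2
    ext x
    constructor
    · rintro ⟨v, hv, rfl⟩
      refine mem_inf.mpr ⟨v.2, ?_⟩
      have h3 : ⁅(v : G), t⁆ = 1 := hv
      rw [mem_centralizer_zpowers]
      exact commutatorElement_eq_one_iff_mul_comm.mp h3
    · rintro ⟨hxV, hx⟩
      refine ⟨⟨x, hxV⟩, ?_, rfl⟩
      exact commutatorElement_eq_one_iff_mul_comm.mpr (mem_centralizer_zpowers.mp hx)
  rw [← h2, ← h1, mul_comm]

namespace Setting

variable {V H Q A B : Subgroup G}

theorem card_comm_minOff (S : Setting p V H Q) (hAH : A ≤ H) (hA : IsMinOff p V A) :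
    Nat.card ↥(⁅V, A⁆) = p := by
  have hc := S.card_minOff hAH hA
  obtain ⟨t, ht⟩ : ∃ t : G, zpowers t = A := by
    have : IsCyclic A := isCyclic_of_prime_card hc
    obtain ⟨g, hg⟩ := IsCyclic.exists_generator (α := A)
    refine ⟨g, le_antisymm (by rw [zpowers_le]; exact g.2) ?_⟩
    intro a ha
    obtain ⟨k, hk⟩ := mem_zpowers_iff.mp (hg ⟨a, ha⟩)
    exact mem_zpowers_iff.mpr ⟨k, by simpa using congrArg Subtype.val hk⟩
  have htA : t ∈ A := by rw [← ht]; exact mem_zpowers t
  have h1 := card_commutator_zpowers (CoprimeHyper.elemAb_le_centralizer S.hV) (S.hHV (hAH htA))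
  have h2 := S.card_eq hAH hA.1
  rw [ht] at h1
  rw [← h1, hc] at h2
  exact (Nat.eq_of_mul_eq_mul_right Nat.card_pos h2).symm

/-- K-S 9.3.1 (c) -/
theorem decomp_aux (S : Setting p V H Q) (n : ℕ) : ∀ A : Subgroup G, Nat.card A = n → A ≤ H →
    Cfsg.IsBestOffenderOn p V A → ∃ (k : ℕ) (B : Fin k → Subgroup G), (∀ i, B i ≤ A ∧ IsMinOff p V (B i)) ∧
      iSupIndep B ∧ ⨆ i, B i = A := by
  induction n using Nat.strong_induction_on with
  | _ n ih =>
  intro A hn hAH hA
  by_cases hA1 : A = ⊥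
  · subst hA1
    refine ⟨0, Fin.elim0, fun i => i.elim0, fun i => i.elim0, ?_⟩
    rw [iSup_of_empty]
  by_cases hAp : Nat.card A = p
  · refine ⟨1, fun _ => A, fun _ => ⟨le_rfl, S.minOff_of_card hAH hA hAp⟩, ?_, ?_⟩
    · intro i
      rw [iSup₂_eq_bot.mpr]
      · exact disjoint_bot_right
      · intro j hj
        exact absurd (Subsingleton.elim j i) hj
    · exact iSup_const
  have hAe := S.elemAb hAH hA
  obtain ⟨a, ha, ha1⟩ := exists_ne_one hA1
  obtain ⟨B, hB, hi, haB, hQB⟩ := S.exists_good hAH hAe ha ha1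
  obtain ⟨h1, h2⟩ := S.good_card hAH hA hB hi hQB
  have hBcard := card_mul_relIndex_of_le hB
  rw [hi] at hBcard
  have hlt : Nat.card B < n := by
    rw [← hn, ← hBcard]
    exact lt_mul_of_one_lt_right Nat.card_pos hp.out.one_lt
  have hB1 : B ≠ ⊥ := by
    rintro rfl
    rw [card_bot, one_mul] at hBcard
    exact hAp hBcard.symm
  -- a second hyperplane
  obtain ⟨b, hb, hb1⟩ := exists_ne_one hB1
  obtain ⟨C, hC, hiC, hbC, hQC⟩ := S.exists_good hAH hAe (hB hb) hb1
  obtain ⟨h3, h4⟩ := S.good_card hAH hA hC hiC hQC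
  have hCcard := card_mul_relIndex_of_le hC
  rw [hiC] at hCcard
  have hltC : Nat.card C < n := by
    rw [← hn, ← hCcard]
    exact lt_mul_of_one_lt_right Nat.card_pos hp.out.one_lt
  obtain ⟨k, f, hf1, hf2, hf3⟩ := ih _ hlt B rfl (hB.trans hAH) h2
  obtain ⟨l, g, hg1, hg2, hg3⟩ := ih _ hltC C rfl (hC.trans hAH) h4
  have hCB : ¬ C ≤ B := by
    intro h
    have : C = B := by
      apply Subgroup.eq_of_le_of_card_ge h
      have := hBcard.trans hCcard.symm
      exact (Nat.eq_of_mul_eq_mul_right hp.out.pos this).le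
    rw [this] at hbC
    exact hbC hb
  obtain ⟨j, hj⟩ : ∃ j, ¬ g j ≤ B := by
    by_contra hcon
    push Not at hcon
    apply hCB
    rw [← hg3]
    exact iSup_le hcon
  have hjA : g j ≤ A := (hg1 j).1.trans hC
  have hjc : Nat.card (g j) = p := S.card_minOff (hjA.trans hAH) (hg1 j).2
  have hdis : Disjoint B (g j) := by
    rw [disjoint_iff]
    by_contra hne
    apply hj
    have h5 : B ⊓ g j = g j := by
      apply Subgroup.eq_of_le_of_card_ge inf_le_right
      have h6 := card_dvd_of_le (inf_le_right : B ⊓ g j ≤ g j)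
      rw [hjc] at h6 ⊢
      rcases (Nat.dvd_prime hp.out).mp h6 with h | h
      · exact absurd (card_eq_one.mp h) hne
      · rw [h]
    rw [← h5]
    exact inf_le_left
  have hsup : B ⊔ g j = A := by
    apply Subgroup.eq_of_le_of_card_ge (sup_le hB hjA)
    have h5 := card_sup_mul_card_inf (N := B) (H := g j)
      (hjA.trans (((CoprimeHyper.elemAb_le_centralizer hAe).trans (centralizer_le hB)).trans
        (centralizer_le_normalizer _)))
    rw [disjoint_iff.mp hdis, card_bot, mul_one, hjc, hBcard] at h5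
    exact h5.ge
  refine ⟨k + 1, Fin.snoc (α := fun _ => Subgroup G) f (g j), ?_, ?_, ?_⟩
  · intro i
    refine Fin.lastCases ?_ (fun i => ?_) i
    · rw [Fin.snoc_last]
      exact ⟨hjA, (hg1 j).2⟩
    · rw [Fin.snoc_castSucc]
      exact ⟨(hf1 i).1.trans hB, (hf1 i).2⟩
  · apply indep_snoc hf2
    · rw [hf3]; exact hdis
    · rw [hf3]
      exact hjA.trans ((CoprimeHyper.elemAb_le_centralizer hAe).trans (centralizer_le hB))
  · apply le_antisymm
    · apply iSup_le
      intro i
      refine Fin.lastCases ?_ (fun i => ?_) i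
      · rw [Fin.snoc_last]; exact hjA
      · rw [Fin.snoc_castSucc]; exact (hf1 i).1.trans hB
    · rw [← hsup, ← hf3]
      apply sup_le
      · apply iSup_le
        intro i
        refine le_trans ?_ (le_iSup _ (Fin.castSucc i))
        rw [Fin.snoc_castSucc]
      · refine le_trans ?_ (le_iSup _ (Fin.last k))
        rw [Fin.snoc_last]

end Setting

end Cfsg.Agent.Lib.KS9
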