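import Cfsg.Agent.Lib.KS9Off
import Cfsg.Agent.Lib.KS9Lin
import Cfsg.Agent.Lib.ElabRep
import Cfsg.Agent.Lib.ClSLn

/-!
# The plane of a minimal offender (Kurzweil-Stellmacher 9.3) (helper30)
-/

set_option autoImplicit false
set_option linter.unusedSectionVars false

namespace Cfsg.Agent.Lib.KS9

open Subgroup Cfsg.Agent.Lib.SubgroupTools Cfsg.Agent.Lib.OffenderBasic Cfsg.Agent.Lib.KS9Lin
open scoped commutatorElement MatrixGroups

universe u

variable {G : Type u} [Group G] [Finite G] {p : ℕ} [hp : Fact p.Prime]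

/-- `V` as a vector space over `ZMod p` on which `H` acts -/
structure LinRep (p : ℕ) (V H : Subgroup G) (W : Type u) [AddCommGroup W] [Module (ZMod p) W] where
  ι : W → G
  ρ : H →* Module.End (ZMod p) W
  add : ∀ x y, ι (x + y) = ι x * ι y
  inj : Function.Injective ι
  mem : ∀ w, ι w ∈ V
  surj : ∀ v ∈ V, ∃ w, ι w = v
  conj : ∀ (h : H) (w : W), ι (ρ h w) = h * ι w * (h : G)⁻¹

theorem exists_linRep {V H : Subgroup G} (hV : Cfsg.IsElementaryAbelian p V) (hHV : H ≤ normalizer (V : Set G)) :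
    ∃ (W : Type u) (_ : AddCommGroup W) (_ : Module (ZMod p) W), Nonempty (LinRep p V H W) := by
  letI : CommGroup V := { (inferInstance : Group V) with
    mul_comm := fun a b => Subtype.ext (CoprimeHyper.elemAb_comm hV a.2 b.2) }
  have hE : ∀ x : V, x ^ p = 1 := fun x => Subtype.ext (by simpa using hV.2 x x.2)
  letI := ElabRep.elabModule V p hE
  refine ⟨Additive V, inferInstance, inferInstance, ⟨?_⟩⟩
  exact
    { ι := fun w => ((Additive.toMul w : V) : G)
      ρ := ElabRep.elabRep p hE (ElabRep.conjHom H V hHV)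
      add := fun x y => rfl
      inj := fun x y h => Additive.toMul.injective (Subtype.ext h)
      mem := fun w => (Additive.toMul w : V).2
      surj := fun v hv => ⟨Additive.ofMul ⟨v, hv⟩, rfl⟩
      conj := fun h w => rfl }

namespace LinRep

variable {V H Q A : Subgroup G} {W : Type u} [AddCommGroup W] [Module (ZMod p) W] (L : LinRep p V H W)

theorem finite (L : LinRep p V H W) : Finite W := Finite.of_injective L.ι L.inj

theorem zero : L.ι 0 = 1 := by
  have := L.add 0 0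
  rw [add_zero] at this
  exact (left_eq_mul.mp this)

theorem neg (x : W) : L.ι (-x) = (L.ι x)⁻¹ := by
  rw [eq_inv_iff_mul_eq_one, ← L.add, neg_add_cancel, L.zero]

theorem sub (x y : W) : L.ι (x - y) = L.ι x * (L.ι y)⁻¹ := by rw [sub_eq_add_neg, L.add, L.neg]

theorem nsmul (n : ℕ) (x : W) : L.ι (n • x) = L.ι x ^ n := by
  induction n with
  | zero => rw [zero_smul, pow_zero, L.zero]
  | succ n ih => rw [succ_nsmul, L.add, ih, pow_succ]

theorem smul (c : ZMod p) (x : W) : L.ι (c • x) = L.ι x ^ c.val := by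
  rw [← L.nsmul]
  congr 1
  rw [← Nat.cast_smul_eq_nsmul (ZMod p), ZMod.natCast_val, ZMod.cast_id', id]

theorem eq_one_iff {x : W} : L.ι x = 1 ↔ x = 0 := by
  rw [← L.zero]; exact ⟨fun h => L.inj h, fun h => by rw [h]⟩

theorem comm_iff {h : H} {w : W} : (h : G) * L.ι w = L.ι w * h ↔ L.ρ h w = w := by
  rw [← L.inj.eq_iff, L.conj]
  exact ⟨fun h' => by rw [h', mul_inv_cancel_right], fun h' => by nth_rw 2 [← h']; group⟩

theorem commutator (h : H) (w : W) : ⁅L.ι w, (h : G)⁆ = L.ι (w - L.ρ h w) := by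
  rw [L.sub, L.conj, commutatorElement_def]; group

theorem rho_injective (hf : H ⊓ centralizer (V : Set G) = ⊥) : Function.Injective L.ρ := by
  rw [injective_iff_map_eq_one]
  intro h hh
  have h1 : (h : G) ∈ H ⊓ centralizer (V : Set G) := by
    refine mem_inf.mpr ⟨h.2, ?_⟩
    rw [mem_centralizer_iff]
    intro v hv
    obtain ⟨w, rfl⟩ := L.surj v hv
    have : L.ρ h w = w := by rw [hh]; rfl
    exact (L.comm_iff.mpr this).symm
  rw [hf, mem_bot] at h1
  exact Subtype.ext h1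

/-- the subgroup corresponding to a submodule -/
def toSub (M : Submodule (ZMod p) W) : Subgroup G where
  carrier := {g | ∃ w ∈ M, L.ι w = g}
  mul_mem' := by
    rintro _ _ ⟨x, hx, rfl⟩ ⟨y, hy, rfl⟩
    exact ⟨x + y, add_mem hx hy, L.add x y⟩
  one_mem' := ⟨0, zero_mem _, L.zero⟩
  inv_mem' := by
    rintro _ ⟨x, hx, rfl⟩
    exact ⟨-x, neg_mem hx, L.neg x⟩

theorem mem_toSub {M : Submodule (ZMod p) W} {w : W} : L.ι w ∈ L.toSub M ↔ w ∈ M :=
  ⟨fun ⟨x, hx, h⟩ => by rwa [← L.inj h], fun h => ⟨w, h, rfl⟩⟩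

theorem toSub_le (M : Submodule (ZMod p) W) : L.toSub M ≤ V := by
  rintro _ ⟨x, _, rfl⟩
  exact L.mem x

theorem card_toSub (M : Submodule (ZMod p) W) : Nat.card (L.toSub M) = Nat.card M := by
  symm
  apply Nat.card_congr
  exact Equiv.ofBijective (fun w : M => (⟨L.ι w, ⟨w, w.2, rfl⟩⟩ : L.toSub M))
    ⟨fun x y h => Subtype.ext (L.inj (congrArg Subtype.val h)), fun ⟨g, w, hw, h⟩ => ⟨⟨w, hw⟩, Subtype.ext h⟩⟩

end LinRep

/-- transvections -/
structure Tv {V H : Subgroup G} {W : Type u} [AddCommGroup W] [Module (ZMod p) W] (L : LinRep p V H W) (t : H)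
    (a : W) (φ : W →ₗ[ZMod p] ZMod p) : Prop where
  e : L.ρ t = 1 + φ.smulRight a
  h : φ a = 0
  ne : a ≠ 0

section tv

variable {V H Q A : Subgroup G} {W : Type u} [AddCommGroup W] [Module (ZMod p) W] {L : LinRep p V H W}
  {t : H} {a : W} {φ : W →ₗ[ZMod p] ZMod p}

theorem Tv.apply (T : Tv L t a φ) (v : W) : L.ρ t v = v + φ v • a := apply_of_eq T.e v

theorem Tv.apply_inv (T : Tv L t a φ) (v : W) : L.ρ t⁻¹ v = v - φ v • a := apply_inv_of_eq T.e T.h v

theorem rho_mul_inv (x : H) (v : W) : L.ρ x (L.ρ x⁻¹ v) = v := by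
  rw [← Module.End.mul_apply, ← map_mul, mul_inv_cancel, map_one]; rfl

theorem rho_inv_mul (x : H) (v : W) : L.ρ x⁻¹ (L.ρ x v) = v := by
  rw [← Module.End.mul_apply, ← map_mul, inv_mul_cancel, map_one]; rfl

theorem Tv.conj (T : Tv L t a φ) (x : H) : Tv L (x * t * x⁻¹) (L.ρ x a) (φ ∘ₗ L.ρ x⁻¹) := by
  refine ⟨?_, ?_, ?_⟩
  · ext v
    rw [map_mul, map_mul, Module.End.mul_apply, Module.End.mul_apply, T.apply, map_add, map_smul, rho_mul_inv]
    rfl
  · rw [LinearMap.comp_apply, rho_inv_mul, T.h]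
  · intro h
    apply T.ne
    rw [← rho_inv_mul (L := L) x a, h, map_zero]

theorem Tv.pair {t' : H} {a' : W} {φ' : W →ₗ[ZMod p] ZMod p} (T : Tv L t a φ) (T' : Tv L t' a' φ') :
    Pair L.ρ t t' a a' φ φ' := ⟨T.e, T'.e, T.h, T'.h⟩

/-- fixed points -/
theorem Tv.fix_iff (T : Tv L t a φ) (v : W) : L.ρ t v = v ↔ φ v = 0 := by
  rw [T.apply, add_eq_left, smul_eq_zero]
  exact ⟨fun h => h.resolve_right T.ne, fun h => Or.inl h⟩

theorem exists_tv (S : Setting p V H Q) (L : LinRep p V H W) {t : H} (ho : (t : G) ^ p = 1) (ht1 : (t : G) ≠ 1)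
    (hc : Nat.card ↥(⁅V, zpowers (t : G)⁆) = p) : ∃ (a : W) (φ : W →ₗ[ZMod p] ZMod p), Tv L t a φ := by
  have hfin := L.finite
  have hinj := L.rho_injective S.hf
  set N : Module.End (ZMod p) W := L.ρ t - 1 with hN
  have hNv : ∀ w, N w = L.ρ t w - w := fun w => rfl
  have hle : L.toSub (LinearMap.range N) ≤ ⁅V, zpowers (t : G)⁆ := by
    rintro _ ⟨_, ⟨w, rfl⟩, rfl⟩
    have h1 := commutator_mem_commutator (L.mem (-w)) (mem_zpowers (t : G))
    rw [L.commutator] at h1
    have h2 : -w - L.ρ t (-w) = N w := by rw [hNv, map_neg]; abel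
    rwa [h2] at h1
  have hcard : Nat.card (LinearMap.range N) ≤ p := by
    rw [← L.card_toSub]
    exact (card_le_of_le hle).trans hc.le
  obtain ⟨w0, hw0⟩ : ∃ w, N w ≠ 0 := by
    by_contra hcon
    push Not at hcon
    apply ht1
    have : L.ρ t = L.ρ 1 := by
      rw [map_one]
      ext w
      have := hcon w
      rw [hNv, sub_eq_zero] at this
      exact this
    exact congrArg Subtype.val (hinj this)
  set a := N w0 with ha
  have hspan : (Submodule.span (ZMod p) {a}) = LinearMap.range N := by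
    have h1 : Submodule.span (ZMod p) {a} ≤ LinearMap.range N := by
      rw [Submodule.span_singleton_le_iff_mem]; exact ⟨w0, rfl⟩
    have h2 : Nat.card (Submodule.span (ZMod p) {a}) = p := by
      rw [← Nat.card_congr (LinearEquiv.toSpanNonzeroSingleton (ZMod p) W a hw0).toEquiv, Nat.card_zmod]
    apply SetLike.coe_injective
    apply Set.eq_of_subset_of_ncard_le (s := (Submodule.span (ZMod p) {a} : Set W)) h1 ?_ (Set.toFinite _)
    change Nat.card (LinearMap.range N) ≤ Nat.card (Submodule.span (ZMod p) {a})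
    rw [h2]; exact hcard
  let f : W →ₗ[ZMod p] Submodule.span (ZMod p) {a} := N.codRestrict _ (fun w => by rw [hspan]; exact ⟨w, rfl⟩)
  let φ : W →ₗ[ZMod p] ZMod p := (LinearEquiv.toSpanNonzeroSingleton (ZMod p) W a hw0).symm.toLinearMap ∘ₗ f
  have hφ : ∀ w, φ w • a = N w := by
    intro w
    have h1 := (LinearEquiv.toSpanNonzeroSingleton (ZMod p) W a hw0).apply_symm_apply (f w)
    have h2 := congrArg Subtype.val h1
    rw [LinearEquiv.toSpanNonzeroSingleton_apply] at h2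
    exact h2
  have e : L.ρ t = 1 + φ.smulRight a := by
    ext w
    rw [LinearMap.add_apply, LinearMap.smulRight_apply, hφ, hNv]
    simp
  refine ⟨a, φ, e, ?_, hw0⟩
  have h1 : ∀ n : ℕ, L.ρ (t ^ n) a = (1 + φ a) ^ n • a := by
    intro n
    induction n with
    | zero => simp
    | succ n ih =>
      rw [pow_succ', map_mul, Module.End.mul_apply, ih, map_smul, apply_of_eq e, pow_succ]
      module
  have h2 : t ^ p = 1 := Subtype.ext (by simpa using ho)
  have h3 := h1 p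
  rw [h2, map_one, Module.End.one_apply, ZMod.pow_card] at h3
  have h4 : φ a • a = 0 := by
    have : (1 + φ a) • a = a + φ a • a := by module
    rw [this] at h3
    exact (left_eq_add.mp h3)
  exact (smul_eq_zero.mp h4).resolve_right hw0

theorem Setting.eq_one_of_pow (S : Setting p V H Q) {q : G} (hq : q ∈ Q) {k : ℕ} (h : q ^ p ^ k = 1) : q = 1 := by
  have h1 : orderOf q ∣ p ^ k := orderOf_dvd_of_pow_eq_one h
  have h2 : orderOf q ∣ Nat.card Q := by
    have := orderOf_dvd_natCard (⟨q, hq⟩ : Q)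
    rwa [← orderOf_injective Q.subtype Q.subtype_injective ⟨q, hq⟩] at this
  have h3 : (p ^ k).Coprime (Nat.card Q) := Nat.Coprime.pow_left _ ((hp.out.coprime_iff_not_dvd).mpr S.hQp)
  have h4 := Nat.eq_one_of_dvd_coprimes h3 h1 h2
  exact orderOf_eq_one_iff.mp h4

/-- the ratio of `t` and its conjugate under an element of `Q` lies in `Q` -/
theorem ratio_mem (S : Setting p V H Q) {q : H} (hq : (q : G) ∈ Q) (t : H) :
    ((t⁻¹ * (q * t * q⁻¹) : H) : G) ∈ Q := by
  have h1 : ((t⁻¹ * (q * t * q⁻¹) : H) : G) = ((t : G)⁻¹ * q * (t : G)⁻¹⁻¹) * (q : G)⁻¹ := by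
    simp only [coe_mul, coe_inv]; group
  rw [h1]
  exact mul_mem ((mem_normalizer_iff.mp (S.hHQ (inv_mem t.2)) q).mp hq) (inv_mem hq)

/-- (F1) -/
theorem Tv.ne_zero (S : Setting p V H Q) (T : Tv L t a φ) {q : H} (hq : (q : G) ∈ Q) (hne : q * t ≠ t * q) :
    φ (L.ρ q a) ≠ 0 ∧ φ (L.ρ q⁻¹ a) ≠ 0 := by
  by_contra hcon
  apply hne
  have P := T.pair (T.conj q)
  have h1 : φ (L.ρ q a) = 0 ∨ (φ ∘ₗ L.ρ q⁻¹) a = 0 := by
    rw [LinearMap.comp_apply]
    by_contra h
    push Not at h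
    exact hcon h
  have h2 := P.pow_eq_one h1
  rw [← map_pow, ← map_one L.ρ] at h2
  have h3 := L.rho_injective S.hf h2
  have h4 : ((t⁻¹ * (q * t * q⁻¹) : H) : G) = 1 := by
    apply S.eq_one_of_pow (ratio_mem S hq t) (k := 2)
    exact congrArg Subtype.val h3
  have h5 : t⁻¹ * (q * t * q⁻¹) = 1 := Subtype.ext h4
  have h6 : q * t = t * (t⁻¹ * (q * t * q⁻¹)) * q := by group
  rw [h6, h5, mul_one]

/-- (F3) -/
theorem Tv.prime (S : Setting p V H Q) (T : Tv L t a φ) (ho : (t : G) ^ p = 1) {q : H} (hq : (q : G) ∈ Q)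
    (hne : q * t ≠ t * q) : p = 2 ∨ p = 3 := by
  by_contra hp3
  push Not at hp3
  have hp5 : 3 < p := by
    have := hp.out.two_le
    omega
  obtain ⟨h12, h21⟩ := T.ne_zero S hq hne
  obtain ⟨e, -⟩ := (T.pair (T.conj q)).exists_equiv h12 h21 (L.rho_injective S.hf)
  have hperf : commutator (Matrix.SpecialLinearGroup (Fin 2) (ZMod p)) = ⊤ := by
    apply Cfsg.Agent.Lib.ClSLn.commutator_SL_eq_top'
    intro _
    have h2 : (2 : ZMod p) ≠ 0 := by
      intro h
      have : p ∣ 2 := (ZMod.natCast_eq_zero_iff 2 p).mp (by exact_mod_cast h)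
      have := Nat.le_of_dvd (by norm_num) this
      omega
    refine ⟨2, h2, ?_⟩
    intro h
    have : ((3 : ℕ) : ZMod p) = 0 := by push_cast; linear_combination h
    have := (ZMod.natCast_eq_zero_iff 3 p).mp this
    have := Nat.le_of_dvd (by norm_num) this
    omega
  set E := closure {t, q * t * q⁻¹} with hE
  have h1 : commutator E = ⊤ := by
    have h0 := map_commutator (⊤ : Subgroup SL(2, ZMod p)) ⊤ e.symm.toMonoidHom
    have h00 : (⊤ : Subgroup SL(2, ZMod p)).map e.symm.toMonoidHom = ⊤ := by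
      rw [← MonoidHom.range_eq_map]; exact MonoidHom.range_eq_top.mpr e.symm.surjective
    rw [← _root_.commutator_def, hperf, h00] at h0
    exact h0.symm
  -- modulo `Q` the group is cyclic
  have hQn : (Q.subgroupOf H).Normal := normal_subgroupOf_of_le_normalizer S.hHQ
  have h2 : ∀ x ∈ E, ∃ k : ℤ, (QuotientGroup.mk x : H ⧸ Q.subgroupOf H) = (QuotientGroup.mk t) ^ k := by
    intro x hx
    have h3 : E ≤ (zpowers (QuotientGroup.mk t : H ⧸ Q.subgroupOf H)).comap (QuotientGroup.mk' _) := by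
      rw [hE, closure_le]
      rintro y (rfl | rfl)
      · exact mem_zpowers _
      · rw [SetLike.mem_coe, mem_comap]
        have : (QuotientGroup.mk' (Q.subgroupOf H)) (q * t * q⁻¹) = QuotientGroup.mk' (Q.subgroupOf H) t := by
          rw [QuotientGroup.mk'_apply, QuotientGroup.mk'_apply, eq_comm, QuotientGroup.eq, mem_subgroupOf]
          exact ratio_mem S hq t
        rw [this]
        exact mem_zpowers _
    obtain ⟨k, hk⟩ := mem_zpowers_iff.mp (h3 hx)
    exact ⟨k, hk.symm⟩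
  have h3 : commutator E ≤ (Q.subgroupOf H).subgroupOf E := by
    rw [_root_.commutator_def, commutator_le]
    intro x _ y _
    rw [mem_subgroupOf, ← QuotientGroup.eq_one_iff]
    obtain ⟨i, hi⟩ := h2 x x.2
    obtain ⟨j, hj⟩ := h2 y y.2
    have : ((⁅x, y⁆ : E) : H) = ⁅(x : H), (y : H)⁆ := rfl
    rw [this, ← QuotientGroup.mk'_apply, map_commutatorElement, QuotientGroup.mk'_apply, QuotientGroup.mk'_apply,
      hi, hj, commutatorElement_eq_one_iff_commute]
    exact (Commute.refl _).zpow_zpow i j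
  have h4 : (⟨t, subset_closure (by simp)⟩ : E) ∈ commutator E := by rw [h1]; trivial
  have h5 : (t : G) ∈ Q := h3 h4
  have h6 : (t : G) = 1 := S.eq_one_of_pow h5 (k := 1) (by rwa [pow_one])
  apply hne
  have : t = 1 := Subtype.ext h6
  rw [this, one_mul, mul_one]

theorem dec2 : ∀ c d : ZMod 2, c ≠ 0 → d ≠ 0 → c * d = -1 := by decide

theorem dec3 : ∀ c d : ZMod 3, c ≠ 0 → d ≠ 0 → ¬ c * d = -1 → c * d = 1 := by decide

/-- (F4) -/
theorem Tv.mul_eq (S : Setting p V H Q) (T : Tv L t a φ) (ho : (t : G) ^ p = 1) {q : H} (hq : (q : G) ∈ Q)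
    (hne : q * t ≠ t * q) : φ (L.ρ q a) * φ (L.ρ q⁻¹ a) = -1 := by
  obtain ⟨h12, h21⟩ := T.ne_zero S hq hne
  have hinj := L.rho_injective S.hf
  rcases T.prime S ho hq hne with h | h
  · subst h
    exact dec2 _ _ h12 h21
  · subst h
    by_contra hcon
    have h1 : φ (L.ρ q a) * φ (L.ρ q⁻¹ a) = 1 := by
      exact dec3 _ _ h12 h21 hcon
    have P := T.pair (T.conj q)
    obtain ⟨h6, h2⟩ := sl23 _ _ h1
    have hr := P.ratio h12 h21
    have h7 : (t⁻¹ * (q * t * q⁻¹)) ^ 6 = 1 := by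
      apply hinj
      rw [map_pow, hr, ← map_pow, map_one]
      refine (congrArg _ h6).trans (map_one _)
    -- the ratio is a `3'`-element
    have h8 : (t⁻¹ * (q * t * q⁻¹)) ^ 2 = 1 := by
      apply Subtype.ext
      apply S.eq_one_of_pow (q := ((t⁻¹ * (q * t * q⁻¹)) ^ 2 : H)) (pow_mem (ratio_mem S hq t) 2) (k := 1)
      have := congrArg Subtype.val h7
      rw [pow_one]
      rw [← coe_pow, ← pow_mul]
      exact this
    apply h2
    apply P.Phi_injective h12 h21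
    rw [map_pow, map_one]
    refine Eq.trans ?_ (map_one L.ρ)
    rw [← h8, map_pow, hr]
    rfl

/-- (F4) for two conjugates -/
theorem Tv.mul_eq' (S : Setting p V H Q) (T : Tv L t a φ) (ho : (t : G) ^ p = 1) {x y : H} (hx : (x : G) ∈ Q)
    (hy : (y : G) ∈ Q) (hne : x * t * x⁻¹ ≠ y * t * y⁻¹) :
    φ (L.ρ x⁻¹ (L.ρ y a)) * φ (L.ρ y⁻¹ (L.ρ x a)) = -1 := by
  have h1 := T.mul_eq S ho (q := x⁻¹ * y) (mul_mem (inv_mem hx) hy) (by
    intro h
    apply hne
    have : x * t * x⁻¹ = x * (t * (x⁻¹ * y)) * y⁻¹ := by group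
    rw [this, ← h]; group)
  have h2 : (x⁻¹ * y)⁻¹ = y⁻¹ * x := by group
  rw [h2] at h1
  rw [map_mul, map_mul] at h1
  exact h1

/-- (F5) -/
theorem Tv.mem_closure (S : Setting p V H Q) (T : Tv L t a φ) (ho : (t : G) ^ p = 1) {x y : H}
    (hx : (x : G) ∈ Q) (hne : x * t ≠ t * x) (hy : (y : G) ∈ Q) :
    y * t * y⁻¹ ∈ closure {t, x * t * x⁻¹} := by
  have hp3 := T.prime S ho hx hne
  set t2 := x * t * x⁻¹ with ht2
  have hm1 : t ∈ closure {t, t2} := subset_closure (by simp)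
  have hm2 : t2 ∈ closure {t, t2} := subset_closure (by simp)
  by_cases e1 : 1 * t * 1⁻¹ = y * t * y⁻¹
  · rw [← e1]
    simpa using hm1
  by_cases e2 : x * t * x⁻¹ = y * t * y⁻¹
  · rw [← e2]
    exact hm2
  -- conjugates of `t` by `t2` and its inverse
  set u := t2 * t⁻¹ with hu
  have huQ : (u : G) ∈ Q := by
    have h1 := ratio_mem S hx t
    have h2 : (u : G) = t * ((t⁻¹ * (x * t * x⁻¹) : H) : G) * (t : G)⁻¹ := by
      rw [hu, ht2]; simp only [coe_mul, coe_inv]; group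
    rw [h2]
    exact (mem_normalizer_iff.mp (S.hHQ t.2) _).mp h1
  set w := t2⁻¹ * t with hw
  have hwQ : (w : G) ∈ Q := by
    have h1 := ratio_mem S hx t
    have h2 : (w : G) = ((t⁻¹ * (x * t * x⁻¹) : H) : G)⁻¹ := by
      rw [hw, ht2]; simp only [coe_mul, coe_inv]; group
    rw [h2]
    exact inv_mem h1
  by_cases e3 : u * t * u⁻¹ = y * t * y⁻¹
  · rw [← e3]
    have : u * t * u⁻¹ = t2 * t * t2⁻¹ := by rw [hu]; group
    rw [this]
    exact mul_mem (mul_mem hm2 hm1) (inv_mem hm2)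
  by_cases e4 : w * t * w⁻¹ = y * t * y⁻¹
  · rw [← e4]
    have : w * t * w⁻¹ = t2⁻¹ * t * t2 := by rw [hw]; group
    rw [this]
    exact mul_mem (mul_mem (inv_mem hm2) hm1) hm2
  exfalso
  have T2 : Tv L t2 (L.ρ x a) (φ ∘ₗ L.ρ x⁻¹) := T.conj x
  have m1 := T.mul_eq' S ho (x := 1) (y := x) (one_mem Q) hx (by
    intro h
    apply hne
    have h' : t = x * t * x⁻¹ := by simpa using h
    nth_rw 2 [h']; group)
  have m2 := T.mul_eq' S ho (one_mem Q) hy e1
  have m3 := T.mul_eq' S ho hx hy e2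
  have m4 := T.mul_eq' S ho huQ hy e3
  have m5 := T.mul_eq' S ho hwQ hy e4
  simp only [inv_one, map_one, Module.End.one_apply] at m1 m2
  have hta : L.ρ t a = a := (T.fix_iff a).mpr T.h
  have htai : L.ρ t⁻¹ a = a := by rw [T.apply_inv, T.h, zero_smul, sub_zero]
  have hφt : ∀ v, φ (L.ρ t v) = φ v := by intro v; rw [T.apply, map_add, map_smul, T.h, smul_zero, add_zero]
  have hφti : ∀ v, φ (L.ρ t⁻¹ v) = φ v := by
    intro v; rw [T.apply_inv, map_sub, map_smul, T.h, smul_zero, sub_zero]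
  have hu1 : L.ρ u a = a + φ (L.ρ x⁻¹ a) • L.ρ x a := by
    rw [hu, map_mul, Module.End.mul_apply, htai, T2.apply]; rfl
  have hw1 : L.ρ w a = a - φ (L.ρ x⁻¹ a) • L.ρ x a := by
    rw [hw, map_mul, Module.End.mul_apply, hta, T2.apply_inv]; rfl
  have hu2 : ∀ v, φ (L.ρ u⁻¹ v) = φ v - φ (L.ρ x⁻¹ v) * φ (L.ρ x a) := by
    intro v
    have : u⁻¹ = t * t2⁻¹ := by rw [hu]; group
    rw [this, map_mul, Module.End.mul_apply, hφt, T2.apply_inv, map_sub, map_smul]; rfl
  have hw2 : ∀ v, φ (L.ρ w⁻¹ v) = φ v + φ (L.ρ x⁻¹ v) * φ (L.ρ x a) := by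
    intro v
    have : w⁻¹ = t⁻¹ * t2 := by rw [hw]; group
    rw [this, map_mul, Module.End.mul_apply, hφti, T2.apply, map_add, map_smul]; rfl
  rw [hu1, hu2] at m4
  rw [hw1, hw2] at m5
  simp only [map_add, map_sub, map_smul, smul_eq_mul] at m4 m5
  apply three hp3 (φ (L.ρ x a)) (φ (L.ρ x⁻¹ a)) (φ (L.ρ y a)) (φ (L.ρ y⁻¹ a)) (φ (L.ρ x⁻¹ (L.ρ y a)))
    (φ (L.ρ y⁻¹ (L.ρ x a))) m1 m2 m3
  · linear_combination m4
  · linear_combination m5

end tv

end Cfsg.Agent.Lib.KS9
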