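import Cfsg.Agent.Lib.KS9Plane

/-!
# The plane of a minimal offender, group form (Kurzweil-Stellmacher 9.3) (helper30)
-/

set_option autoImplicit false
set_option linter.unusedSectionVars false

namespace Cfsg.Agent.Lib.KS9

open Subgroup Cfsg.Agent.Lib.SubgroupTools Cfsg.Agent.Lib.OffenderBasic Cfsg.Agent.Lib.KS9Lin
open scoped commutatorElement MatrixGroups

universe u

variable {G : Type u} [Group G] [Finite G] {p : ℕ} [hp : Fact p.Prime]

/-- `E(A) = [Q, A] A` -/
def EA (Q A : Subgroup G) : Subgroup G := ⁅Q, A⁆ ⊔ A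

section pairs

variable {V H Q A : Subgroup G} {W : Type u} [AddCommGroup W] [Module (ZMod p) W] {L : LinRep p V H W}
  {t1 t2 : H} {a1 a2 : W} {φ1 φ2 : W →ₗ[ZMod p] ZMod p}

theorem mem_span_iff {w : W} : w ∈ Submodule.span (ZMod p) {a1, a2} ↔ ∃ x y : ZMod p, w = x • a1 + y • a2 := by
  rw [Submodule.mem_span_pair]
  exact ⟨fun ⟨x, y, h⟩ => ⟨x, y, h.symm⟩, fun ⟨x, y, h⟩ => ⟨x, y, h.symm⟩⟩

/-- the fixed points of `⟨t₁, t₂⟩` -/
theorem inf_centralizer_closure (T1 : Tv L t1 a1 φ1) (T2 : Tv L t2 a2 φ2) :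
    V ⊓ centralizer (((closure {t1, t2}).map H.subtype : Subgroup G) : Set G) =
      L.toSub (LinearMap.ker φ1 ⊓ LinearMap.ker φ2) := by
  ext v
  constructor
  · rintro ⟨hv, hc⟩
    obtain ⟨w, rfl⟩ := L.surj v hv
    rw [L.mem_toSub, Submodule.mem_inf, LinearMap.mem_ker, LinearMap.mem_ker, ← T1.fix_iff, ← T2.fix_iff,
      ← L.comm_iff, ← L.comm_iff]
    exact ⟨mem_centralizer_iff.mp hc _ ⟨t1, subset_closure (by simp), rfl⟩,
      mem_centralizer_iff.mp hc _ ⟨t2, subset_closure (by simp), rfl⟩⟩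
  · rintro ⟨w, hw, rfl⟩
    refine mem_inf.mpr ⟨L.mem w, ?_⟩
    rw [Submodule.mem_inf, LinearMap.mem_ker, LinearMap.mem_ker, ← T1.fix_iff, ← T2.fix_iff] at hw
    rw [mem_centralizer_iff]
    rintro _ ⟨g, hg, rfl⟩
    have h1 : closure {t1, t2} ≤ ({ carrier := {g | L.ρ g w = w}
                                    mul_mem' := by
                                      intro x y hx hy
                                      change L.ρ (x * y) w = w
                                      rw [map_mul, Module.End.mul_apply]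
                                      exact (congrArg _ hy).trans hx
                                    one_mem' := by change L.ρ 1 w = w; rw [map_one]; rfl
                                    inv_mem' := by
                                      intro x hx
                                      change L.ρ x⁻¹ w = w
                                      conv_lhs => rw [← (show L.ρ x w = w from hx)]
                                      exact rho_inv_mul x w } : Subgroup H) := by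
      rw [closure_le]
      rintro y (rfl | rfl)
      · exact hw.1
      · exact hw.2
    exact L.comm_iff.mpr (h1 hg)

theorem commutator_closure (T1 : Tv L t1 a1 φ1) (T2 : Tv L t2 a2 φ2) (h12 : φ1 a2 ≠ 0) (h21 : φ2 a1 ≠ 0) :
    ⁅V, (closure {t1, t2}).map H.subtype⁆ = L.toSub (Submodule.span (ZMod p) {a1, a2}) := by
  have P := T1.pair T2
  apply le_antisymm
  · rw [commutator_le]
    rintro v hv _ ⟨g, hg, rfl⟩
    obtain ⟨w, rfl⟩ := L.surj v hv
    rw [coe_subtype, L.commutator]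
    rw [L.mem_toSub]
    obtain ⟨M, hM⟩ := P.exists_matrix h12 h21 hg
    rw [hM, P.Phi_apply, mem_span_iff]
    refine ⟨-(((φ2 a1)⁻¹ * φ2 w) * (M 0 0 - 1) + ((φ1 a2)⁻¹ * φ1 w) * M 0 1),
      -(((φ2 a1)⁻¹ * φ2 w) * M 1 0 + ((φ1 a2)⁻¹ * φ1 w) * (M 1 1 - 1)), ?_⟩
    module
  · rintro _ ⟨w, hw, rfl⟩
    obtain ⟨x, y, rfl⟩ := mem_span_iff.mp hw
    rw [L.add]
    refine mul_mem ?_ ?_
    · have h1 : ⁅L.ι ((-x * (φ1 a2)⁻¹) • a2), (t1 : G)⁆ ∈ ⁅V, (closure {t1, t2}).map H.subtype⁆ :=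
        commutator_mem_commutator (L.mem _) ⟨t1, subset_closure (by simp), rfl⟩
      rw [L.commutator, T1.apply, map_smul, smul_eq_mul] at h1
      have h2 : (-x * (φ1 a2)⁻¹) • a2 - ((-x * (φ1 a2)⁻¹) • a2 + (-x * (φ1 a2)⁻¹ * φ1 a2) • a1) = x • a1 := by
        rw [mul_assoc, inv_mul_cancel₀ h12]; module
      rwa [h2] at h1
    · have h1 : ⁅L.ι ((-y * (φ2 a1)⁻¹) • a1), (t2 : G)⁆ ∈ ⁅V, (closure {t1, t2}).map H.subtype⁆ :=
        commutator_mem_commutator (L.mem _) ⟨t2, subset_closure (by simp), rfl⟩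
      rw [L.commutator, T2.apply, map_smul, smul_eq_mul] at h1
      have h2 : (-y * (φ2 a1)⁻¹) • a1 - ((-y * (φ2 a1)⁻¹) • a1 + (-y * (φ2 a1)⁻¹ * φ2 a1) • a2) = y • a2 := by
        rw [mul_assoc, inv_mul_cancel₀ h21]; module
      rwa [h2] at h1

theorem coord (P : Pair L.ρ t1 t2 a1 a2 φ1 φ2) (x y : ZMod p) :
    φ1 (x • a1 + y • a2) = y * φ1 a2 ∧ φ2 (x • a1 + y • a2) = x * φ2 a1 := by
  simp [P.h11, P.h22]

theorem card_span (P : Pair L.ρ t1 t2 a1 a2 φ1 φ2) (h12 : φ1 a2 ≠ 0) (h21 : φ2 a1 ≠ 0) :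
    Nat.card (Submodule.span (ZMod p) {a1, a2}) = p ^ 2 := by
  have h1 : Nat.card (ZMod p × ZMod p) = p ^ 2 := by
    rw [Nat.card_prod, Nat.card_zmod, pow_two]
  rw [← h1]
  symm
  apply Nat.card_congr
  refine Equiv.ofBijective (fun q : ZMod p × ZMod p =>
    (⟨q.1 • a1 + q.2 • a2, mem_span_iff.mpr ⟨q.1, q.2, rfl⟩⟩ : Submodule.span (ZMod p) {a1, a2})) ⟨?_, ?_⟩
  · rintro ⟨x, y⟩ ⟨x', y'⟩ h
    have h2 : x • a1 + y • a2 = x' • a1 + y' • a2 := congrArg Subtype.val h
    have h3 := congrArg φ1 h2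
    have h4 := congrArg φ2 h2
    rw [(coord P x y).1, (coord P x' y').1] at h3
    rw [(coord P x y).2, (coord P x' y').2] at h4
    rw [mul_right_cancel₀ h12 h3, mul_right_cancel₀ h21 h4]
  · rintro ⟨w, hw⟩
    obtain ⟨x, y, h⟩ := mem_span_iff.mp hw
    exact ⟨(x, y), Subtype.ext h.symm⟩

end pairs

/-- the facts about the plane `[V, E(A)]` of a minimal offender -/
structure IsPlane (p : ℕ) [Fact p.Prime] (V H Q A : Subgroup G) : Prop where
  p23 : p = 2 ∨ p = 3
  iso : Nonempty (↥(EA Q A) ≃* SL(2, ZMod p))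
  card : Nat.card ↥⁅V, EA Q A⁆ = p ^ 2
  inf : ⁅V, EA Q A⁆ ⊓ centralizer (EA Q A : Set G) = ⊥
  sup : ⁅V, EA Q A⁆ ⊔ (V ⊓ centralizer (EA Q A : Set G)) = V
  fixR : V ⊓ centralizer ((⁅Q, A⁆ : Subgroup G) : Set G) = V ⊓ centralizer (EA Q A : Set G)
  irr : ∀ M : Subgroup G, M ≤ ⁅V, EA Q A⁆ → ⁅Q, A⁆ ≤ normalizer (M : Set G) → M = ⊥ ∨ M = ⁅V, EA Q A⁆
  contains : ∀ B : Subgroup G, B ≤ H → IsMinOff p V B → ⁅V, B⁆ ≤ ⁅V, EA Q A⁆ →
    V ⊓ centralizer (EA Q A : Set G) ≤ centralizer (B : Set G) → B ≤ EA Q A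

section main

variable {V H Q A B : Subgroup G}

theorem exists_data (S : Setting p V H Q) {W : Type u} [AddCommGroup W] [Module (ZMod p) W] (L : LinRep p V H W)
    (hAH : A ≤ H) (hA : IsMinOff p V A) :
    ∃ (t : H) (a : W) (φ : W →ₗ[ZMod p] ZMod p), A = zpowers (t : G) ∧ (t : G) ^ p = 1 ∧ (t : G) ≠ 1 ∧
      Tv L t a φ := by
  have hc := S.card_minOff hAH hA
  obtain ⟨s, hs⟩ : ∃ t : G, zpowers t = A := by
    have : IsCyclic A := isCyclic_of_prime_card hc
    obtain ⟨g, hg⟩ := IsCyclic.exists_generator (α := A)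
    refine ⟨g, le_antisymm (by rw [zpowers_le]; exact g.2) ?_⟩
    intro a ha
    obtain ⟨k, hk⟩ := mem_zpowers_iff.mp (hg ⟨a, ha⟩)
    exact mem_zpowers_iff.mpr ⟨k, by simpa using congrArg Subtype.val hk⟩
  have hsH : s ∈ H := hAH (by rw [← hs]; exact mem_zpowers s)
  have ho : orderOf s = p := by rw [← Nat.card_zpowers, hs, hc]
  have hs1 : s ≠ 1 := by
    rintro rfl
    rw [orderOf_one] at ho
    exact hp.out.one_lt.ne ho
  have hsp : s ^ p = 1 := by rw [← ho]; exact pow_orderOf_eq_one s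
  obtain ⟨a, φ, T⟩ := exists_tv S L (t := ⟨s, hsH⟩) hsp hs1 (by
    change Nat.card ↥(⁅V, zpowers s⁆) = p
    rw [hs]; exact S.card_comm_minOff hAH hA)
  exact ⟨⟨s, hsH⟩, a, φ, hs.symm, hsp, hs1, T⟩

theorem exists_noncomm (S : Setting p V H Q) (hAH : A ≤ H) (hA : IsMinOff p V A) :
    ∃ x ∈ Q, x ∉ centralizer (A : Set G) := by
  by_contra hcon
  push Not at hcon
  have h1 : A ≤ Q := by
    refine le_trans (le_inf hAH ?_) S.hCQ
    rw [le_centralizer_iff]
    exact hcon
  have h2 : A = ⊥ := by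
    rw [← S.inf_eq_bot (CoprimeHyper.elemAb_isPGroup (S.elemAb hAH hA.1)), inf_eq_left.mpr h1]
  exact (S.comm_ne_bot_iff hAH).mp hA.2.1 h2

theorem closure_map_eq {t x : H} :
    (closure {t, x * t * x⁻¹}).map H.subtype =
      zpowers (t : G) ⊔ (zpowers (t : G)).map (MulAut.conj (x : G)).toMonoidHom := by
  rw [MonoidHom.map_closure, Set.image_pair, ← Set.singleton_union, Subgroup.closure_union, ← zpowers_eq_closure,
    ← zpowers_eq_closure, MonoidHom.map_zpowers]
  rfl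

theorem closure_map_eq_EA (S : Setting p V H Q) {W : Type u} [AddCommGroup W] [Module (ZMod p) W]
    {L : LinRep p V H W} {t : H} {a : W} {φ : W →ₗ[ZMod p] ZMod p} (T : Tv L t a φ) (ho : (t : G) ^ p = 1)
    {x : H} (hx : (x : G) ∈ Q) (hne : x * t ≠ t * x) :
    (closure {t, x * t * x⁻¹}).map H.subtype = EA Q (zpowers (t : G)) := by
  apply le_antisymm
  · rw [closure_map_eq]
    apply sup_le (le_sup_right)
    rw [MonoidHom.map_zpowers, zpowers_le]
    have : (MulAut.conj (x : G)).toMonoidHom (t : G) = ⁅(x : G), (t : G)⁆ * t := by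
      change (x : G) * t * (x : G)⁻¹ = _
      rw [commutatorElement_def]; group
    rw [this]
    exact mul_mem (mem_sup_left (commutator_mem_commutator hx (mem_zpowers _))) (mem_sup_right (mem_zpowers _))
  · have ht : t ∈ closure {t, x * t * x⁻¹} := subset_closure (by simp)
    apply sup_le
    · rw [commutator_le]
      intro y hy s hs
      obtain ⟨k, rfl⟩ := mem_zpowers_iff.mp hs
      have h1 := T.mem_closure S ho (y := ⟨y, S.hQH hy⟩) hx hne hy
      have h2 : ⁅y, (t : G) ^ k⁆ = H.subtype (((⟨y, S.hQH hy⟩ : H) * t * (⟨y, S.hQH hy⟩ : H)⁻¹) ^ k * (t ^ k)⁻¹) := by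
        rw [commutatorElement_def, ← conj_zpow]
        rfl
      rw [h2]
      exact ⟨_, mul_mem (zpow_mem h1 k) (inv_mem (zpow_mem ht k)), rfl⟩
    · rw [zpowers_le]
      exact ⟨t, ht, rfl⟩

/-- `A` and a conjugate under a non-centralizing element of `Q` generate `E(A)` -/
theorem sup_conj_eq (S : Setting p V H Q) (hAH : A ≤ H) (hA : IsMinOff p V A) {x : G} (hx : x ∈ Q)
    (hxA : x ∉ centralizer (A : Set G)) : A ⊔ A.map (MulAut.conj x).toMonoidHom = EA Q A := by
  obtain ⟨W, _, _, ⟨L⟩⟩ := exists_linRep (p := p) S.hV S.hHV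
  obtain ⟨t, a, φ, rfl, ho, ht1, T⟩ := exists_data S L hAH hA
  rw [← closure_map_eq_EA S T ho (x := ⟨x, S.hQH hx⟩) hx, closure_map_eq]
  intro h
  apply hxA
  rw [mem_centralizer_zpowers]
  exact congrArg Subtype.val h

theorem isPlane (S : Setting p V H Q) (hAH : A ≤ H) (hA : IsMinOff p V A) : IsPlane p V H Q A := by
  obtain ⟨W, _, _, ⟨L⟩⟩ := exists_linRep (p := p) S.hV S.hHV
  obtain ⟨t, a, φ, rfl, ho, ht1, T⟩ := exists_data S L hAH hA
  obtain ⟨x, hx, hxA⟩ := exists_noncomm S hAH hA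
  have hinj := L.rho_injective S.hf
  set x' : H := ⟨x, S.hQH hx⟩ with hx'
  have hne : x' * t ≠ t * x' := by
    intro h
    apply hxA
    rw [mem_centralizer_zpowers]
    exact congrArg Subtype.val h
  have hE := closure_map_eq_EA S T ho (x := x') hx hne
  obtain ⟨h12, h21⟩ := T.ne_zero S (q := x') hx hne
  have hp3 := T.prime S ho (q := x') hx hne
  have hcd := T.mul_eq S ho (q := x') hx hne
  have T2 := T.conj x'
  set t2 := x' * t * x'⁻¹ with ht2
  set a2 := L.ρ x' a with ha2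
  set φ2 := φ ∘ₗ L.ρ x'⁻¹ with hφ2
  have h21' : φ2 a ≠ 0 := h21
  have hcd' : φ a2 * φ2 a = -1 := hcd
  have P : Pair L.ρ t t2 a a2 φ φ2 := T.pair T2
  have hU := commutator_closure T T2 h12 h21'
  have hC := inf_centralizer_closure T T2
  rw [hE] at hU hC
  have hr : ((t⁻¹ * t2 : H) : G) ∈ ⁅Q, zpowers (t : G)⁆ := by
    have h1 : ((t⁻¹ * t2 : H) : G) = ⁅(t : G)⁻¹, x⁆ := by
      rw [ht2, commutatorElement_def]
      simp only [coe_mul, coe_inv, hx']
      group
    rw [h1, commutator_comm]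
    exact commutator_mem_commutator (inv_mem (mem_zpowers _)) hx
  -- decomposition of a vector
  have hdec : ∀ w : W, ∃ (y z : ZMod p) (c : W), c ∈ LinearMap.ker φ ⊓ LinearMap.ker φ2 ∧ w = (y • a + z • a2) + c := by
    intro w
    refine ⟨(φ2 a)⁻¹ * φ2 w, (φ a2)⁻¹ * φ w, w - (((φ2 a)⁻¹ * φ2 w) • a + ((φ a2)⁻¹ * φ w) • a2), ?_, by abel⟩
    rw [Submodule.mem_inf, LinearMap.mem_ker, LinearMap.mem_ker, map_sub, map_sub, (coord P _ _).1, (coord P _ _).2]
    constructor
    · field_simp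
      ring
    · field_simp
      ring
  have hind : ∀ y z : ZMod p, y • a + z • a2 = 0 → y = 0 ∧ z = 0 := by
    intro y z h
    have h1 := congrArg φ h
    have h2 := congrArg φ2 h
    rw [(coord P _ _).1, map_zero] at h1
    rw [(coord P _ _).2, map_zero] at h2
    exact ⟨(mul_eq_zero.mp h2).resolve_right h21', (mul_eq_zero.mp h1).resolve_right h12⟩
  have hsup : ⁅V, EA Q (zpowers (t : G))⁆ ⊔ (V ⊓ centralizer (EA Q (zpowers (t : G)) : Set G)) = V := by
    rw [hU, hC]
    apply le_antisymm (sup_le (L.toSub_le _) (L.toSub_le _))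
    intro v hv
    obtain ⟨w, rfl⟩ := L.surj v hv
    obtain ⟨y, z, c, hc, rfl⟩ := hdec w
    rw [L.add]
    exact mul_mem (mem_sup_left (L.mem_toSub.mpr (mem_span_iff.mpr ⟨y, z, rfl⟩)))
      (mem_sup_right (L.mem_toSub.mpr hc))
  refine ⟨hp3, ?_, ?_, ?_, hsup, ?_, ?_, ?_⟩
  · obtain ⟨e, -⟩ := P.exists_equiv h12 h21' hinj
    rw [← hE]
    exact ⟨(equivMapOfInjective _ H.subtype H.subtype_injective).symm.trans e⟩
  · rw [hU, L.card_toSub, card_span P h12 h21']
  · rw [eq_bot_iff_forall]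
    rintro v ⟨hv1, hv2⟩
    have hvV : v ∈ V := by
      have := hv1
      rw [SetLike.mem_coe, hU] at this
      exact L.toSub_le _ this
    have hv3 : v ∈ V ⊓ centralizer (EA Q (zpowers (t : G)) : Set G) := mem_inf.mpr ⟨hvV, hv2⟩
    rw [hC] at hv3
    rw [SetLike.mem_coe, hU] at hv1
    obtain ⟨w, hw, rfl⟩ := hv1
    rw [L.mem_toSub] at hv3
    obtain ⟨y, z, rfl⟩ := mem_span_iff.mp hw
    rw [Submodule.mem_inf, LinearMap.mem_ker, LinearMap.mem_ker, (coord P _ _).1, (coord P _ _).2] at hv3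
    rw [(mul_eq_zero.mp hv3.1).resolve_right h12, (mul_eq_zero.mp hv3.2).resolve_right h21', zero_smul, zero_smul,
      add_zero, L.zero]
  · apply le_antisymm
    · rintro v ⟨hvV, hvc⟩
      rw [hC]
      obtain ⟨w, rfl⟩ := L.surj v hvV
      rw [L.mem_toSub]
      obtain ⟨y, z, c, hc, rfl⟩ := hdec w
      have h1 : L.ρ (t⁻¹ * t2) ((y • a + z • a2) + c) = (y • a + z • a2) + c := by
        rw [← L.comm_iff]
        exact mem_centralizer_iff.mp hvc _ hr
      have h2 : L.ρ (t⁻¹ * t2) c = c := by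
        have h3 : L.ι c ∈ V ⊓ centralizer (EA Q (zpowers (t : G)) : Set G) := by
          rw [hC]; exact L.mem_toSub.mpr hc
        rw [← L.comm_iff]
        exact mem_centralizer_iff.mp (mem_inf.mp h3).2 _ (mem_sup_left hr)
      rw [map_add, h2, add_left_inj, P.ratio_apply hcd'] at h1
      have h3 : (y - φ a2 * z) • a + (φ2 a * y) • a2 = 0 := by
        have : (y - φ a2 * z) • a + (φ2 a * y) • a2 =
          ((2 * y - φ a2 * z) • a + (φ2 a * y + z) • a2) - (y • a + z • a2) := by module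
        rw [this, h1, sub_self]
      obtain ⟨h4, h5⟩ := hind _ _ h3
      have hy : y = 0 := (mul_eq_zero.mp h5).resolve_left h21'
      have hz : z = 0 := by
        rw [hy, zero_sub, neg_eq_zero] at h4
        exact (mul_eq_zero.mp h4).resolve_left h12
      rw [hy, hz, zero_smul, zero_smul, add_zero, zero_add]
      exact hc
    · refine inf_le_inf_left _ (centralizer_le ?_)
      exact (le_sup_left : ⁅Q, zpowers (t : G)⁆ ≤ EA Q (zpowers (t : G)))
  · intro M hM hMR
    by_cases hM1 : M = ⊥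
    · exact Or.inl hM1
    right
    apply le_antisymm hM
    obtain ⟨m, hm, hm1⟩ := exists_ne_one hM1
    rw [hU] at hM ⊢
    obtain ⟨w, hw, rfl⟩ := hM hm
    obtain ⟨y, z, rfl⟩ := mem_span_iff.mp hw
    have hyz : y ≠ 0 ∨ z ≠ 0 := by
      by_contra hcon
      push Not at hcon
      apply hm1
      rw [hcon.1, hcon.2, zero_smul, zero_smul, add_zero, L.zero]
    rintro _ ⟨w, hw, rfl⟩
    obtain ⟨y', z', rfl⟩ := mem_span_iff.mp hw
    obtain ⟨i, j, hij⟩ := P.irred hp3 hcd' hyz y' z'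
    rw [hij, L.add, L.smul, L.smul, L.conj]
    exact mul_mem (pow_mem hm _) (pow_mem ((mem_normalizer_iff.mp (hMR hr) _).mp hm) _)
  · intro B hBH hB hBU hBC
    obtain ⟨b, a', φ', rfl, hob, hb1, TB⟩ := exists_data S L hBH hB
    rw [zpowers_le, ← hE]
    refine ⟨b, ?_, rfl⟩
    apply P.mem_of_transvection h12 h21' hinj TB.e TB.h
    · -- the centre
      obtain ⟨w, hw⟩ : ∃ w, φ' w ≠ 0 := by
        by_contra hcon
        push Not at hcon
        apply hb1
        have : b = 1 := by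
          apply hinj
          rw [map_one]
          ext w
          rw [TB.apply, hcon w, zero_smul, add_zero]
          rfl
        rw [this]; rfl
      rw [← mem_span_iff, ← L.mem_toSub, ← hU]
      apply hBU
      have h1 := commutator_mem_commutator (L.mem (-(φ' w)⁻¹ • w)) (mem_zpowers (b : G))
      rw [L.commutator, TB.apply, map_smul, smul_eq_mul] at h1
      have h2 : -(φ' w)⁻¹ • w - (-(φ' w)⁻¹ • w + (-(φ' w)⁻¹ * φ' w) • a') = a' := by
        rw [neg_mul, inv_mul_cancel₀ hw]; module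
      rwa [h2] at h1
    · intro v hv1 hv2
      have h3 : L.ι v ∈ V ⊓ centralizer (EA Q (zpowers (t : G)) : Set G) := by
        rw [hC]; exact L.mem_toSub.mpr ⟨hv1, hv2⟩
      rw [← TB.fix_iff, ← L.comm_iff]
      exact (mem_centralizer_zpowers.mp (hBC h3)).symm

end main

end Cfsg.Agent.Lib.KS9
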