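import Cfsg.Agent.Lib.KS9Struct2
import Cfsg.Agent.Lib.OffenderGen
import Cfsg.Agent.Lib.H32PSolv
import Cfsg.Agent.Lib.PSolvDual
import Cfsg.Agent.Lib.Factorize
import Cfsg.Agent.S0606

/-!
# The setting of K-S 9.3 for the action of a `p`-separable group on a normal elementary abelian subgroup (helper30)
-/

set_option autoImplicit false
set_option linter.unusedSectionVars false

namespace Cfsg.Agent.Lib.KS9Rep

open Subgroup Cfsg.Agent.Lib.SubgroupTools Cfsg.Agent.Lib.KS9
open scoped commutatorElement MatrixGroups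

universe u v

variable {K : Type u} [Group K] [Finite K] {Γ : Type v} [Group Γ] [Finite Γ] {p : ℕ} [hp : Fact p.Prime]

theorem normalizer_le_of_characteristic {G : Type*} [Group G] {H : Subgroup G} (N : Subgroup H)
    [hN : N.Characteristic] : normalizer (H : Set G) ≤ normalizer ((N.map H.subtype : Subgroup G) : Set G) := by
  have key : ∀ g ∈ normalizer (H : Set G), ∀ x ∈ N.map H.subtype, g * x * g⁻¹ ∈ N.map H.subtype := by
    rintro g hg _ ⟨x, hx, rfl⟩
    have h1 := characteristic_iff_map_le.mp hN (normalizerMonoidHom H ⟨g, hg⟩)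
    exact ⟨_, h1 ⟨x, hx, rfl⟩, rfl⟩
  intro g hg
  rw [mem_normalizer_iff]
  intro x
  refine ⟨key g hg x, fun h => ?_⟩
  have := key g⁻¹ (inv_mem hg) _ h
  have h2 : g⁻¹ * (g * x * g⁻¹) * g⁻¹⁻¹ = x := by group
  rwa [h2] at this

/-- `θ, ψ` represent the conjugation action of `K` on its normal subgroup `V` by the conjugation action of `θ(K)`
on `V'`. -/
structure IsRep (V : Subgroup K) [V.Normal] (V' : Subgroup Γ) (θ : K →* Γ) (ψ : V ≃* V') : Prop where
  conj : ∀ (k : K) (v : V), ((ψ ⟨k * v * k⁻¹, Normal.conj_mem inferInstance _ v.2 k⟩ : V') : Γ) =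
    θ k * ψ v * (θ k)⁻¹
  ker : θ.ker = centralizer (V : Set K)

namespace IsRep

variable {V : Subgroup K} [V.Normal] {V' : Subgroup Γ} {θ : K →* Γ} {ψ : V ≃* V'} (R : IsRep V V' θ ψ)

include R

theorem comm_iff (k : K) (v : V) : θ k * ψ v = ψ v * θ k ↔ k * v = v * k := by
  have h1 := R.conj k v
  constructor
  · intro h
    rw [h, mul_inv_cancel_right] at h1
    have h2 := ψ.injective (Subtype.ext h1)
    have h3 : k * v * k⁻¹ = v := congrArg Subtype.val h2
    nth_rw 2 [← h3]; group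
  · intro h
    have h2 : (⟨k * v * k⁻¹, Normal.conj_mem inferInstance _ v.2 k⟩ : V) = v := by
      apply Subtype.ext
      change k * v * k⁻¹ = v
      rw [h, mul_inv_cancel_right]
    rw [h2] at h1
    nth_rw 2 [h1]; group

theorem le_normalizer (A : Subgroup K) : A.map θ ≤ normalizer (V' : Set Γ) := by
  have key : ∀ k : K, ∀ w ∈ V', θ k * w * (θ k)⁻¹ ∈ V' := by
    intro k w hw
    obtain ⟨v, hv⟩ := ψ.surjective ⟨w, hw⟩
    have h1 := R.conj k v
    rw [hv] at h1
    change _ = θ k * w * (θ k)⁻¹ at h1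
    rw [← h1]
    exact Subtype.prop _
  rintro _ ⟨k, -, rfl⟩
  rw [mem_normalizer_iff]
  intro w
  refine ⟨key k w, fun h => ?_⟩
  have := key k⁻¹ _ h
  rw [map_inv] at this
  have h2 : (θ k)⁻¹ * (θ k * w * (θ k)⁻¹) * (θ k)⁻¹⁻¹ = w := by group
  rwa [h2] at this

theorem mem_centralizer_iff' (k : K) : θ k ∈ centralizer (V' : Set Γ) ↔ k ∈ centralizer (V : Set K) := by
  rw [mem_centralizer_iff, mem_centralizer_iff]
  constructor
  · intro h v hv
    exact ((R.comm_iff k ⟨v, hv⟩).mp (h _ (ψ ⟨v, hv⟩).2).symm).symm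
  · intro h w hw
    obtain ⟨v, hv⟩ := ψ.surjective ⟨w, hw⟩
    have h1 := (R.comm_iff k v).mpr (h v v.2).symm
    rw [hv] at h1
    exact h1.symm

theorem inf_centralizer (A : Subgroup K) : A.map θ ⊓ centralizer (V' : Set Γ) = ⊥ := by
  rw [eq_bot_iff_forall]
  rintro _ ⟨⟨k, -, rfl⟩, hk⟩
  have h1 := (R.mem_centralizer_iff' k).mp hk
  rw [← R.ker] at h1
  exact h1

/-- the fixed points correspond -/
theorem fix_eq (A : Subgroup K) : V' ⊓ centralizer (A.map θ : Set Γ) =
    ((V ⊓ centralizer (A : Set K)).subgroupOf V).map (V'.subtype.comp ψ.toMonoidHom) := by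
  ext w
  constructor
  · rintro ⟨hw, hc⟩
    obtain ⟨v, hv⟩ := ψ.surjective ⟨w, hw⟩
    refine ⟨v, ?_, congrArg Subtype.val hv⟩
    rw [SetLike.mem_coe, mem_subgroupOf]
    refine mem_inf.mpr ⟨v.2, ?_⟩
    rw [mem_centralizer_iff]
    intro a ha
    apply (R.comm_iff a v).mp
    rw [hv]
    exact mem_centralizer_iff.mp hc _ ⟨a, ha, rfl⟩
  · rintro ⟨v, hv, rfl⟩
    rw [SetLike.mem_coe, mem_subgroupOf] at hv
    refine mem_inf.mpr ⟨(ψ v).2, ?_⟩
    rw [mem_centralizer_iff]
    rintro _ ⟨a, ha, rfl⟩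
    exact (R.comm_iff a v).mpr (mem_centralizer_iff.mp hv.2 a ha)

theorem card_fix (A : Subgroup K) : Nat.card ↥(V' ⊓ centralizer (A.map θ : Set Γ)) =
    Nat.card ↥(V ⊓ centralizer (A : Set K)) := by
  rw [R.fix_eq, card_map_of_injective (f := V'.subtype.comp ψ.toMonoidHom)
    (V'.subtype_injective.comp ψ.injective), card_subgroupOf_of_le inf_le_left]

theorem card_map (A : Subgroup K) : Nat.card (A.map θ) * Nat.card ↥(A ⊓ centralizer (V : Set K)) = Nat.card A := by
  rw [← R.ker]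
  exact card_map_mul_card_inf_ker θ A

/-- best offenders are mapped to best offenders -/
theorem bestOff {A : Subgroup K} (hA : Cfsg.IsBestOffenderOn p V A) : Cfsg.IsBestOffenderOn p V' (A.map θ) := by
  refine ⟨?_, ?_, ?_⟩
  · intro B hB
    set B₀ := B.comap θ ⊓ A with hB₀
    have hB₀' : B₀.map θ = B := by
      apply le_antisymm
      · rintro _ ⟨x, hx, rfl⟩
        exact hx.1
      · intro b hb
        obtain ⟨a, ha, rfl⟩ := hB hb
        exact ⟨a, ⟨hb, ha⟩, rfl⟩
    have h1 := hA.1 B₀ inf_le_right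
    have h2 := R.card_map B₀
    have h3 := R.card_map A
    rw [hB₀'] at h2
    have h4 : B₀ ⊓ centralizer (V : Set K) = A ⊓ centralizer (V : Set K) := by
      apply le_antisymm (inf_le_inf_right _ inf_le_right)
      rintro x ⟨hxA, hxC⟩
      refine ⟨⟨?_, hxA⟩, hxC⟩
      have : θ x = 1 := by
        have h5 : x ∈ θ.ker := by rw [R.ker]; exact hxC
        exact h5
      change θ x ∈ B
      rw [this]
      exact one_mem B
    rw [h4] at h2
    rw [← h2, ← h3, ← R.card_fix A, ← R.card_fix B₀, hB₀'] at h1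
    have hpos : 0 < Nat.card ↥(A ⊓ centralizer (V : Set K)) := Nat.card_pos
    refine Nat.le_of_mul_le_mul_right ?_ hpos
    calc Nat.card ↥B * Nat.card ↥(V' ⊓ centralizer (B : Set Γ)) * Nat.card ↥(A ⊓ centralizer (V : Set K)) =
          Nat.card ↥B * Nat.card ↥(A ⊓ centralizer (V : Set K)) *
          Nat.card ↥(V' ⊓ centralizer (B : Set Γ)) := by ring
      _ ≤ _ := h1
      _ = _ := by ring
  · rw [← map_commutator]
    rintro _ ⟨x, hx, rfl⟩
    exact (R.mem_centralizer_iff' x).mpr (hA.2.1 hx)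
  · rintro _ ⟨a, ha, rfl⟩
    rw [← map_pow]
    exact (R.mem_centralizer_iff' _).mpr (hA.2.2 a ha)

omit [Finite K] [Finite Γ] in
theorem elemAb (hV : Cfsg.IsElementaryAbelian p V) : Cfsg.IsElementaryAbelian p V' := by
  refine ⟨?_, fun w hw => ?_⟩
  · rw [isMulCommutative_iff_of_setLike]
    intro a ha b hb
    obtain ⟨v, hv⟩ := ψ.surjective ⟨a, ha⟩
    obtain ⟨w, hw⟩ := ψ.surjective ⟨b, hb⟩
    have h1 : v * w = w * v := Subtype.ext ((isMulCommutative_iff_of_setLike.mp hV.1) v v.2 w w.2)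
    have h2 := congrArg ψ h1
    rw [map_mul, map_mul, hv, hw] at h2
    exact congrArg Subtype.val h2
  · obtain ⟨v, hv⟩ := ψ.surjective ⟨w, hw⟩
    have h1 : v ^ p = 1 := Subtype.ext (hV.2 v v.2)
    have h2 := congrArg ψ h1
    rw [map_pow, map_one, hv] at h2
    exact congrArg Subtype.val h2

theorem map_mem_normalizer (k : K) {J : Subgroup K} (hJ : k ∈ normalizer (J : Set K)) :
    θ k ∈ normalizer ((J.map θ : Subgroup Γ) : Set Γ) := by
  rw [mem_normalizer_iff]
  intro y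
  constructor
  · rintro ⟨j, hj, rfl⟩
    exact ⟨k * j * k⁻¹, (mem_normalizer_iff.mp hJ j).mp hj, by simp⟩
  · rintro ⟨j, hj, h⟩
    refine ⟨k⁻¹ * j * k, ?_, ?_⟩
    · have := (mem_normalizer_iff.mp (inv_mem hJ) j).mp hj
      rwa [inv_inv] at this
    · rw [map_mul, map_mul, h, map_inv]; group

theorem pCore_eq_bot (hO : Cfsg.pCore p (K ⧸ centralizer (V : Set K)) = ⊥) (J : Subgroup K) [J.Normal] :
    Cfsg.pCore p ↥(J.map θ) = ⊥ := by
  set P := (Cfsg.pCore p ↥(J.map θ)).map (J.map θ).subtype with hP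
  have hPp : IsPGroup p P := (Cores.isPGroup_pCore p _).map _
  have hPn : ∀ k : K, ∀ x ∈ P, θ k * x * (θ k)⁻¹ ∈ P := by
    intro k x hx
    have h2 : θ k ∈ normalizer ((J.map θ : Subgroup Γ) : Set Γ) :=
      R.map_mem_normalizer k (by rw [Subgroup.normalizer_eq_top]; trivial)
    have hch : (Cfsg.pCore p ↥(J.map θ)).Characteristic := Cores.pCore_characteristic p _
    exact (mem_normalizer_iff.mp (normalizer_le_of_characteristic (Cfsg.pCore p ↥(J.map θ)) h2) x).mp hx
  have hDn : (P.comap θ).Normal := by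
    refine ⟨fun x hx k => ?_⟩
    rw [mem_comap, map_mul, map_mul, map_inv]
    exact hPn k _ hx
  set C := centralizer (V : Set K) with hC
  have h1 : ((P.comap θ).map (QuotientGroup.mk' C)) ≤ Cfsg.pCore p (K ⧸ C) := by
    apply Cores.le_pCore (hDn.map _ (QuotientGroup.mk'_surjective C))
    rintro ⟨_, ⟨x, hx, rfl⟩⟩
    obtain ⟨k, hk⟩ := hPp ⟨θ x, hx⟩
    refine ⟨k, ?_⟩
    apply Subtype.ext
    have h2 : θ x ^ p ^ k = 1 := congrArg Subtype.val hk
    have h3 : x ^ p ^ k ∈ C := by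
      rw [hC, ← R.ker, MonoidHom.mem_ker, map_pow, h2]
    change (QuotientGroup.mk' C x) ^ p ^ k = 1
    rw [← map_pow]
    exact (QuotientGroup.eq_one_iff _).mpr h3
  rw [hO] at h1
  have h2 : P = ⊥ := by
    rw [eq_bot_iff_forall]
    intro x hx
    obtain ⟨y, hy, hyx⟩ := (map_subtype_le _ hx : x ∈ J.map θ)
    have h3 : (QuotientGroup.mk' C y) = 1 := mem_bot.mp (h1 ⟨y, by change θ y ∈ P; rw [hyx]; exact hx, rfl⟩)
    have h4 : y ∈ C := (QuotientGroup.eq_one_iff _).mp h3
    rw [hC, ← R.ker] at h4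
    rw [← hyx]; exact h4
  exact (map_eq_bot_iff_of_injective _ (J.map θ).subtype_injective).mp h2

theorem setting (hV : Cfsg.IsElementaryAbelian p V) (hsep : Cfsg.IsPSolvable p K)
    (hO : Cfsg.pCore p (K ⧸ centralizer (V : Set K)) = ⊥) (J : Subgroup K) [J.Normal] :
    Setting p V' (J.map θ) ((Cfsg.pPrimeCore p ↥(J.map θ)).map (J.map θ).subtype) := by
  apply setting_of (R.elemAb hV) (R.le_normalizer J) (R.inf_centralizer J)
  apply PSolvDual.centralizer_pPrimeCore_le _ (R.pCore_eq_bot hO J)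
  have h1 : Cfsg.IsPSolvable p J := H32PSolv.isPSolvable_subgroup hsep J
  exact H32PSolv.isPSolvable_map h1 (θ.subgroupMap J) (θ.subgroupMap_surjective J)

theorem genOff (hV : Cfsg.IsElementaryAbelian p V) :
    GenOff p V' ((Cfsg.thompsonSubgroup p K ⊔ centralizer (V : Set K)).map θ) := by
  apply le_antisymm
  · have key : ∀ A ∈ Cfsg.maxElementaryAbelianSubgroups p K, A.map θ ≤
        ⨆ A : {A : Subgroup Γ // A ≤ (Cfsg.thompsonSubgroup p K ⊔ centralizer (V : Set K)).map θ ∧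
          Cfsg.IsBestOffenderOn p V' A}, (A : Subgroup Γ) := by
      intro A hA
      have h1 : A.map θ ≤ (Cfsg.thompsonSubgroup p K ⊔ centralizer (V : Set K)).map θ :=
        map_mono ((le_sSup hA : A ≤ Cfsg.thompsonSubgroup p K).trans le_sup_left)
      exact le_iSup (fun A : {A : Subgroup Γ // A ≤ (Cfsg.thompsonSubgroup p K ⊔ centralizer (V : Set K)).map θ ∧
        Cfsg.IsBestOffenderOn p V' A} => (A : Subgroup Γ)) ⟨A.map θ, h1, R.bestOff (S0606.result V hV A hA)⟩
    rw [map_le_iff_le_comap]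
    apply sup_le
    · exact sSup_le fun A hA => map_le_iff_le_comap.mp (key A hA)
    · intro x hx
      have h1 : x ∈ θ.ker := by rw [R.ker]; exact hx
      have h2 : θ x = 1 := h1
      rw [mem_comap, h2]
      exact one_mem _
  · exact iSup_le fun A => A.2.1

end IsRep

end Cfsg.Agent.Lib.KS9Rep
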