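import Cfsg.Agent.Lib.KS9Plane2
import Cfsg.Agent.Lib.PAct

/-!
# The structure theorem for groups generated by best offenders (Kurzweil-Stellmacher 9.3.7) (helper30)
-/

set_option autoImplicit false
set_option linter.unusedSectionVars false

namespace Cfsg.Agent.Lib.KS9

open Subgroup Cfsg.Agent.Lib.SubgroupTools Cfsg.Agent.Lib.OffenderBasic Cfsg.Agent.Lib.KS9Lin
open scoped commutatorElement MatrixGroups

universe u

variable {G : Type u} [Group G] [Finite G] {p : ℕ} [hp : Fact p.Prime]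

section general

theorem commutator_iSup_le {ι : Sort*} {V W : Subgroup G} (F : ι → Subgroup G)
    (hW : ∀ i, F i ≤ normalizer (W : Set G)) (h : ∀ i, ⁅V, F i⁆ ≤ W) : ⁅V, ⨆ i, F i⁆ ≤ W := by
  let S : Subgroup G :=
    { carrier := {x | x ∈ normalizer (W : Set G) ∧ ∀ v ∈ V, ⁅v, x⁆ ∈ W}
      mul_mem' := by
        rintro x y ⟨hx, hx'⟩ ⟨hy, hy'⟩
        refine ⟨mul_mem hx hy, fun v hv => ?_⟩
        rw [comm_mul_right]
        exact mul_mem (hx' v hv) ((mem_normalizer_iff.mp hx _).mp (hy' v hv))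
      one_mem' := ⟨one_mem _, fun v _ => by rw [commutatorElement_one_right]; exact one_mem W⟩
      inv_mem' := by
        rintro x ⟨hx, hx'⟩
        refine ⟨inv_mem hx, fun v hv => ?_⟩
        have h1 : ⁅v, x⁻¹⁆ = x⁻¹ * ⁅v, x⁆⁻¹ * x⁻¹⁻¹ := by
          simp only [commutatorElement_def]; group
        rw [h1]
        exact (mem_normalizer_iff.mp (inv_mem hx) _).mp (inv_mem (hx' v hv)) }
  have h1 : (⨆ i, F i) ≤ S := by
    apply iSup_le
    intro i x hx
    exact ⟨hW i hx, fun v hv => h i (commutator_mem_commutator hv hx)⟩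
  rw [commutator_le]
  intro v hv x hx
  exact (h1 hx).2 v hv

/-- `N(X) ∩ N(Y) ≤ N([X, Y])` -/
theorem normalizer_inf_le_normalizer_commutator (X Y : Subgroup G) :
    normalizer (X : Set G) ⊓ normalizer (Y : Set G) ≤ normalizer ((⁅X, Y⁆ : Subgroup G) : Set G) := by
  rintro g ⟨hX, hY⟩
  have hX' : g ∈ normalizer (X : Set G) := hX
  have hY' : g ∈ normalizer (Y : Set G) := hY
  rw [mem_normalizer_iff_conj_smul] at hX' hY' ⊢
  change X.map (MulAut.conj g).toMonoidHom = X at hX'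
  change Y.map (MulAut.conj g).toMonoidHom = Y at hY'
  change (⁅X, Y⁆ : Subgroup G).map (MulAut.conj g).toMonoidHom = ⁅X, Y⁆
  rw [map_commutator, hX', hY']

end general

variable {V H Q A B : Subgroup G}

theorem Q_le_normalizer_R (Q A : Subgroup G) : Q ≤ normalizer ((⁅Q, A⁆ : Subgroup G) : Set G) :=
  normalizer_commutator_ge_left Q A

theorem A_le_normalizer_R (Q A : Subgroup G) : A ≤ normalizer ((⁅Q, A⁆ : Subgroup G) : Set G) :=
  normalizer_commutator_ge_right Q A

theorem R_le_Q (S : Setting p V H Q) (hAH : A ≤ H) : ⁅Q, A⁆ ≤ Q :=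
  le_normalizer_iff_commutator_le_left.mp (hAH.trans S.hHQ)

theorem EA_le (S : Setting p V H Q) (hAH : A ≤ H) : EA Q A ≤ H :=
  sup_le ((R_le_Q S hAH).trans S.hQH) hAH

theorem Q_le_normalizer_EA (Q A : Subgroup G) : Q ≤ normalizer (EA Q A : Set G) := by
  have key : ∀ q ∈ Q, ∀ x ∈ EA Q A, q * x * q⁻¹ ∈ EA Q A := by
    intro q hq
    have : EA Q A ≤ (EA Q A).comap (MulAut.conj q).toMonoidHom := by
      apply sup_le
      · intro x hx
        exact mem_sup_left ((mem_normalizer_iff.mp (Q_le_normalizer_R Q A hq) x).mp hx)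
      · intro x hx
        change q * x * q⁻¹ ∈ EA Q A
        have h1 : q * x * q⁻¹ = ⁅q, x⁆ * x := by rw [commutatorElement_def]; group
        rw [h1]
        exact mul_mem (mem_sup_left (commutator_mem_commutator hq hx)) (mem_sup_right hx)
    exact this
  intro q hq
  rw [mem_normalizer_iff]
  intro x
  refine ⟨key q hq x, fun h => ?_⟩
  have := key q⁻¹ (inv_mem hq) _ h
  have h2 : q⁻¹ * (q * x * q⁻¹) * q⁻¹⁻¹ = x := by group
  rwa [h2] at this

namespace IsPlane

theorem U_le (S : Setting p V H Q) (hAH : A ≤ H) : ⁅V, EA Q A⁆ ≤ V :=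
  le_normalizer_iff_commutator_le_left.mp ((EA_le S hAH).trans S.hHV)

theorem U_ne_bot (P : IsPlane p V H Q A) : ⁅V, EA Q A⁆ ≠ ⊥ := by
  intro h
  have := P.card
  rw [h, card_bot] at this
  exact (Nat.one_lt_pow two_ne_zero hp.out.one_lt).ne this

theorem commutator_R (S : Setting p V H Q) (hAH : A ≤ H) (P : IsPlane p V H Q A) : ⁅V, ⁅Q, A⁆⁆ = ⁅V, EA Q A⁆ := by
  have hle : ⁅V, ⁅Q, A⁆⁆ ≤ ⁅V, EA Q A⁆ := commutator_mono le_rfl le_sup_left
  rcases P.irr _ hle (normalizer_commutator_ge_right V ⁅Q, A⁆) with h | h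
  · exfalso
    apply P.U_ne_bot
    have h1 : V ≤ centralizer ((⁅Q, A⁆ : Subgroup G) : Set G) := commutator_eq_bot_iff_le_centralizer.mp h
    have h2 : V ⊓ centralizer ((⁅Q, A⁆ : Subgroup G) : Set G) = V := inf_eq_left.mpr h1
    rw [P.fixR] at h2
    rw [← P.inf, eq_comm, inf_eq_left]
    exact (U_le S hAH).trans (inf_eq_left.mp h2)
  · exact h

theorem Q_le_normalizer_U (S : Setting p V H Q) : Q ≤ normalizer ((⁅V, EA Q A⁆ : Subgroup G) : Set G) :=
  (le_inf (S.hQH.trans S.hHV) (Q_le_normalizer_EA Q A)).trans (normalizer_inf_le_normalizer_commutator _ _)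

/-- the action of `E(A)` on `[V, E(A)]` is faithful -/
theorem eq_one (S : Setting p V H Q) (hAH : A ≤ H) (P : IsPlane p V H Q A) {x : G} (hx : x ∈ EA Q A)
    (hc : x ∈ centralizer ((⁅V, EA Q A⁆ : Subgroup G) : Set G)) : x = 1 := by
  apply S.eq_one_of_centralizes (EA_le S hAH hx)
  have h1 : V ≤ centralizer ({x} : Set G) := by
    rw [← P.sup]
    apply sup_le
    · intro u hu
      rw [mem_centralizer_singleton_iff]
      exact mem_centralizer_iff.mp hc u hu
    · rintro u ⟨-, hu⟩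
      rw [mem_centralizer_singleton_iff]
      exact (mem_centralizer_iff.mp hu x hx).symm
  rw [mem_centralizer_iff]
  intro v hv
  exact mem_centralizer_singleton_iff.mp (h1 hv)

theorem inf_eq_or (S : Setting p V H Q) (hAH : A ≤ H) (hBH : B ≤ H) (PA : IsPlane p V H Q A)
    (PB : IsPlane p V H Q B) : ⁅V, EA Q A⁆ ⊓ ⁅V, EA Q B⁆ = ⊥ ∨ ⁅V, EA Q A⁆ = ⁅V, EA Q B⁆ := by
  have hQ : Q ≤ normalizer ((⁅V, EA Q A⁆ ⊓ ⁅V, EA Q B⁆ : Subgroup G) : Set G) :=
    (le_inf (Q_le_normalizer_U S) (Q_le_normalizer_U S)).trans inf_normalizer_le_normalizer_inf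
  rcases PA.irr _ inf_le_left ((R_le_Q S hAH).trans hQ) with h | h
  · exact Or.inl h
  rcases PB.irr _ inf_le_right ((R_le_Q S hBH).trans hQ) with h' | h'
  · exact Or.inl h'
  · exact Or.inr (h.symm.trans h')

theorem R_le_centralizer_U (S : Setting p V H Q) (hAH : A ≤ H) (hBH : B ≤ H)
    (PB : IsPlane p V H Q B) (h : ⁅V, EA Q A⁆ ⊓ ⁅V, EA Q B⁆ = ⊥) :
    ⁅Q, B⁆ ≤ centralizer ((⁅V, EA Q A⁆ : Subgroup G) : Set G) := by
  rw [← commutator_eq_bot_iff_le_centralizer, commutator_comm, eq_bot_iff, ← h]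
  apply le_inf
  · exact le_normalizer_iff_commutator_le_left.mp ((R_le_Q S hBH).trans (Q_le_normalizer_U S))
  · rw [← PB.commutator_R S hBH]
    exact commutator_mono (U_le S hAH) le_rfl

theorem R_le_centralizer_E (S : Setting p V H Q) (hAH : A ≤ H) (hBH : B ≤ H)
    (PA : IsPlane p V H Q A) (PB : IsPlane p V H Q B) (h : ⁅V, EA Q A⁆ ⊓ ⁅V, EA Q B⁆ = ⊥) :
    ⁅Q, B⁆ ≤ centralizer (EA Q A : Set G) := by
  rw [← commutator_eq_bot_iff_le_centralizer, eq_bot_iff, commutator_le]
  intro x hx y hy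
  rw [mem_bot]
  have hxQ : x ∈ Q := R_le_Q S hBH hx
  have hxU := R_le_centralizer_U S hAH hBH PB h hx
  apply PA.eq_one S hAH
  · have h1 : ⁅x, y⁆ = (x * y * x⁻¹) * y⁻¹ := by rw [commutatorElement_def]
    rw [h1]
    exact mul_mem ((mem_normalizer_iff.mp (Q_le_normalizer_EA Q A hxQ) y).mp hy) (inv_mem hy)
  · have h1 : ⁅x, y⁆ = x * (y * x⁻¹ * y⁻¹) := by rw [commutatorElement_def]; group
    rw [h1]
    apply mul_mem hxU
    have h2 : y ∈ normalizer ((⁅V, EA Q A⁆ : Subgroup G) : Set G) := normalizer_commutator_ge_right V _ hy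
    exact (mem_normalizer_iff.mp (normalizer_le_normalizer_centralizer _ h2) _).mp (inv_mem hxU)

theorem E_le_centralizer_U (S : Setting p V H Q) (hAH : A ≤ H) (hBH : B ≤ H) (hB : IsMinOff p V B)
    (PA : IsPlane p V H Q A) (PB : IsPlane p V H Q B) (h : ⁅V, EA Q A⁆ ⊓ ⁅V, EA Q B⁆ = ⊥) :
    EA Q B ≤ centralizer ((⁅V, EA Q A⁆ : Subgroup G) : Set G) := by
  apply sup_le (R_le_centralizer_U S hAH hBH PB h)
  have h' : ⁅V, EA Q B⁆ ⊓ ⁅V, EA Q A⁆ = ⊥ := by rw [inf_comm]; exact h
  have hRB : ⁅Q, A⁆ ≤ centralizer (B : Set G) :=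
    (R_le_centralizer_E S hBH hAH PB PA h').trans (centralizer_le (le_sup_right : B ≤ EA Q B))
  have hBU : B ≤ normalizer ((⁅V, EA Q A⁆ : Subgroup G) : Set G) := by
    rw [← PA.commutator_R S hAH]
    refine (le_inf (hBH.trans S.hHV) ?_).trans (normalizer_inf_le_normalizer_commutator _ _)
    rw [le_centralizer_iff] at hRB
    exact hRB.trans (centralizer_le_normalizer _)
  have hBp : IsPGroup p B := CoprimeHyper.elemAb_isPGroup (S.elemAb hBH hB.1)
  have hVp : IsPGroup p V := CoprimeHyper.elemAb_isPGroup S.hV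
  set U := ⁅V, EA Q A⁆ with hU
  have hUp : IsPGroup p U := hVp.to_le (U_le S hAH)
  have hMR : ⁅Q, A⁆ ≤ normalizer ((U ⊓ centralizer (B : Set G) : Subgroup G) : Set G) := by
    refine (le_inf ?_ ?_).trans inf_normalizer_le_normalizer_inf
    · exact (R_le_Q S hAH).trans (Q_le_normalizer_U S)
    · exact hRB.trans le_normalizer
  rcases PA.irr (U ⊓ centralizer (B : Set G)) inf_le_left hMR with h1 | h1
  · exfalso
    -- a `p`-group acting on a nontrivial `p`-group has nontrivial fixed points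
    have h2 := PAct.inf_centralizer_ne_bot hBp hUp PA.U_ne_bot hBU
    exact h2 h1
  · rw [inf_eq_left, le_centralizer_iff] at h1
    exact h1

/-- **Dichotomy** -/
theorem eq_or_comm (S : Setting p V H Q) (hAH : A ≤ H) (hBH : B ≤ H) (hA : IsMinOff p V A) (hB : IsMinOff p V B)
    (PA : IsPlane p V H Q A) (PB : IsPlane p V H Q B) : EA Q A = EA Q B ∨ (⁅EA Q A, EA Q B⁆ = ⊥ ∧
      EA Q B ≤ centralizer ((⁅V, EA Q A⁆ : Subgroup G) : Set G) ∧
      EA Q A ≤ centralizer ((⁅V, EA Q B⁆ : Subgroup G) : Set G)) := by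
  rcases PA.inf_eq_or S hAH hBH PB with h | h
  · right
    have h' : ⁅V, EA Q B⁆ ⊓ ⁅V, EA Q A⁆ = ⊥ := by rw [inf_comm]; exact h
    have h1 := E_le_centralizer_U S hAH hBH hB PA PB h
    have h2 := E_le_centralizer_U S hBH hAH hA PB PA h'
    refine ⟨?_, h1, h2⟩
    have h3 : ⁅⁅EA Q A, EA Q B⁆, V⁆ = ⊥ := by
      apply CoprimeAction2.commutator_commutator_eq_bot
      · rw [commutator_comm (EA Q B) V, commutator_comm, commutator_eq_bot_iff_le_centralizer]
        exact h2
      · rw [commutator_comm, commutator_eq_bot_iff_le_centralizer]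
        exact h1
    apply S.eq_bot_of_centralizes
    · rw [commutator_le]
      intro x hx y hy
      have hx' := EA_le S hAH hx
      have hy' := EA_le S hBH hy
      exact mul_mem (mul_mem (mul_mem hx' hy') (inv_mem hx')) (inv_mem hy')
    · exact commutator_eq_bot_iff_le_centralizer.mp h3
  · left
    -- the fixed points agree
    have key : ∀ A B : Subgroup G, A ≤ H → B ≤ H → IsPlane p V H Q A → IsPlane p V H Q B →
        ⁅V, EA Q A⁆ = ⁅V, EA Q B⁆ → V ⊓ centralizer (EA Q A : Set G) ≤ V ⊓ centralizer (EA Q B : Set G) := by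
      intro A B hAH hBH PA PB h
      rw [← PB.fixR]
      apply le_inf inf_le_left
      rw [← commutator_eq_bot_iff_le_centralizer, eq_bot_iff, ← PA.inf]
      apply le_inf
      · rw [h, ← PB.commutator_R S hBH]
        exact commutator_mono inf_le_left le_rfl
      · refine le_trans ?_ (inf_le_right : V ⊓ centralizer (EA Q A : Set G) ≤ _)
        apply le_normalizer_iff_commutator_le_left.mp
        refine (R_le_Q S hBH).trans ((le_inf (S.hQH.trans S.hHV) ?_).trans inf_normalizer_le_normalizer_inf)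
        exact (Q_le_normalizer_EA Q A).trans (normalizer_le_normalizer_centralizer _)
    have key2 : ∀ A B : Subgroup G, A ≤ H → B ≤ H → IsMinOff p V B → IsPlane p V H Q A → IsPlane p V H Q B →
        ⁅V, EA Q A⁆ = ⁅V, EA Q B⁆ → EA Q B ≤ EA Q A := by
      intro A B hAH hBH hB PA PB h
      have hBA : B ≤ EA Q A := by
        apply PA.contains B hBH hB
        · rw [h]; exact commutator_mono le_rfl le_sup_right
        · exact (key A B hAH hBH PA PB h).trans (inf_le_right.trans (centralizer_le (le_sup_right : B ≤ EA Q B)))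
      apply sup_le _ hBA
      refine (commutator_mono le_rfl hBA).trans ?_
      exact le_normalizer_iff_commutator_le_right.mp (Q_le_normalizer_EA Q A)
    exact le_antisymm (key2 B A hBH hAH hA PB PA h.symm) (key2 A B hAH hBH hB PA PB h)

end IsPlane

section structure_theorem

/-- `H` is generated by best offenders -/
def GenOff (p : ℕ) (V H : Subgroup G) : Prop :=
  H = ⨆ A : {A : Subgroup G // A ≤ H ∧ Cfsg.IsBestOffenderOn p V A}, (A : Subgroup G)

/-- every best offender is generated by minimal ones -/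
theorem le_iSup_minOff (S : Setting p V H Q) (hAH : A ≤ H) (hA : Cfsg.IsBestOffenderOn p V A) {K : Subgroup G}
    (hK : ∀ B : Subgroup G, B ≤ A → IsMinOff p V B → B ≤ K) : A ≤ K := by
  obtain ⟨k, B, hB, -, hsup⟩ := S.decomp_aux _ A rfl hAH hA
  rw [← hsup]
  exact iSup_le fun i => hK _ (hB i).1 (hB i).2

theorem le_of_minOff (S : Setting p V H Q) (hgen : GenOff p V H) {K : Subgroup G}
    (hK : ∀ B : Subgroup G, B ≤ H → IsMinOff p V B → B ≤ K) : H ≤ K := by
  rw [hgen]
  apply iSup_le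
  rintro ⟨A, hAH, hA⟩
  exact le_iSup_minOff S hAH hA fun B hB hB' => hK B (hB.trans hAH) hB'

theorem H_le_normalizer_E (S : Setting p V H Q) (hgen : GenOff p V H) (hAH : A ≤ H) (hA : IsMinOff p V A) :
    H ≤ normalizer (EA Q A : Set G) := by
  apply le_of_minOff S hgen
  intro B hBH hB
  have PA := isPlane S hAH hA
  have PB := isPlane S hBH hB
  rcases PA.eq_or_comm S hAH hBH hA hB PB with h | ⟨h, -, -⟩
  · rw [h]
    exact (le_sup_right : B ≤ EA Q B).trans le_normalizer
  · rw [commutator_comm, commutator_eq_bot_iff_le_centralizer] at h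
    exact ((le_sup_right : B ≤ EA Q B).trans h).trans (centralizer_le_normalizer _)

/-- `C_H([V, E(A)])` -/
def CU (V H Q A : Subgroup G) : Subgroup G := H ⊓ centralizer ((⁅V, EA Q A⁆ : Subgroup G) : Set G)

theorem H_le_normalizer_U (S : Setting p V H Q) (hgen : GenOff p V H) (hAH : A ≤ H) (hA : IsMinOff p V A) :
    H ≤ normalizer ((⁅V, EA Q A⁆ : Subgroup G) : Set G) :=
  (le_inf S.hHV (H_le_normalizer_E S hgen hAH hA)).trans (normalizer_inf_le_normalizer_commutator _ _)

theorem H_le_normalizer_CU (S : Setting p V H Q) (hgen : GenOff p V H) (hAH : A ≤ H) (hA : IsMinOff p V A) :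
    H ≤ normalizer (CU V H Q A : Set G) :=
  (le_inf le_normalizer ((H_le_normalizer_U S hgen hAH hA).trans (normalizer_le_normalizer_centralizer _))).trans
    inf_normalizer_le_normalizer_inf

theorem E_inf_CU (S : Setting p V H Q) (hAH : A ≤ H) (hA : IsMinOff p V A) : EA Q A ⊓ CU V H Q A = ⊥ := by
  rw [eq_bot_iff_forall]
  rintro x ⟨hx, -, hx'⟩
  exact (isPlane S hAH hA).eq_one S hAH hx hx'

theorem E_comm_CU (S : Setting p V H Q) (hgen : GenOff p V H) (hAH : A ≤ H) (hA : IsMinOff p V A) :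
    ⁅EA Q A, CU V H Q A⁆ = ⊥ := by
  rw [eq_bot_iff, ← E_inf_CU S hAH hA]
  apply le_inf
  · exact le_normalizer_iff_commutator_le_left.mp ((inf_le_left : CU V H Q A ≤ H).trans (H_le_normalizer_E S hgen hAH hA))
  · exact le_normalizer_iff_commutator_le_right.mp ((EA_le S hAH).trans (H_le_normalizer_CU S hgen hAH hA))

theorem E_sup_CU (S : Setting p V H Q) (hgen : GenOff p V H) (hAH : A ≤ H) (hA : IsMinOff p V A) :
    EA Q A ⊔ CU V H Q A = H := by
  apply le_antisymm (sup_le (EA_le S hAH) inf_le_left)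
  apply le_of_minOff S hgen
  intro B hBH hB
  rcases (isPlane S hAH hA).eq_or_comm S hAH hBH hA hB (isPlane S hBH hB) with h | ⟨-, h, -⟩
  · refine le_trans ?_ le_sup_left
    rw [h]; exact le_sup_right
  · refine le_trans ?_ le_sup_right
    exact le_inf hBH ((le_sup_right : B ≤ EA Q B).trans h)

theorem comm_CU (S : Setting p V H Q) (hgen : GenOff p V H) (hAH : A ≤ H) (hA : IsMinOff p V A) :
    ⁅V, CU V H Q A⁆ ≤ V ⊓ centralizer (EA Q A : Set G) := by
  have P := isPlane S hAH hA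
  have hcomm := E_comm_CU S hgen hAH hA
  rw [commutator_comm, commutator_eq_bot_iff_le_centralizer] at hcomm
  rw [commutator_le]
  intro v hv x hx
  have hxH : x ∈ H := hx.1
  have hVab : V ≤ centralizer (V : Set G) := CoprimeHyper.elemAb_le_centralizer S.hV
  rw [← P.sup, mem_sup_of_le_normalizer] at hv
  · obtain ⟨u, hu, c, hc, rfl⟩ := hv
    have hxu : ⁅u, x⁆ = 1 := commutatorElement_eq_one_iff_mul_comm.mpr (mem_centralizer_iff.mp hx.2 u hu)
    rw [comm_mul_left hVab S.hHV hxH (IsPlane.U_le S hAH hu) hc.1, hxu, one_mul]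
    have h1 : ⁅c, x⁆ = c * (x * c⁻¹ * x⁻¹) := by rw [commutatorElement_def]; group
    rw [h1]
    apply mul_mem hc
    have h2 : x ∈ normalizer ((V ⊓ centralizer (EA Q A : Set G) : Subgroup G) : Set G) := by
      refine inf_normalizer_le_normalizer_inf (mem_inf.mpr ⟨S.hHV hxH, ?_⟩)
      exact le_normalizer (hcomm hx)
    exact (mem_normalizer_iff.mp h2 _).mp (inv_mem hc)
  · refine le_trans ?_ (centralizer_le_normalizer _)
    exact (inf_le_left.trans hVab).trans (centralizer_le (IsPlane.U_le S hAH))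

end structure_theorem

section sl2

theorem card_sl22 : Nat.card SL(2, ZMod 2) = 6 := by
  rw [Nat.card_eq_fintype_card]; decide +kernel

theorem card_sl23 : Nat.card SL(2, ZMod 3) = 24 := by
  rw [Nat.card_eq_fintype_card]; decide +kernel

theorem noncomm23 : ∃ x y : SL(2, ZMod 3), x ^ 4 = 1 ∧ y ^ 4 = 1 ∧ x * y ≠ y * x :=
  ⟨⟨!![0, 1; 2, 0], by decide⟩, ⟨!![2, 1; 1, 1], by decide⟩, by decide +kernel, by decide +kernel, by decide +kernel⟩

/-- K-S 9.3.3 -/
theorem R_type (S : Setting p V H Q) (hAH : A ≤ H) (hA : IsMinOff p V A) :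
    (p = 2 ∧ IsPGroup 3 ↥(⁅Q, A⁆)) ∨ (p = 3 ∧ IsPGroup 2 ↥(⁅Q, A⁆) ∧ ¬ IsMulCommutative ↥(⁅Q, A⁆)) := by
  have P := isPlane S hAH hA
  obtain ⟨e⟩ := P.iso
  have hRE : ⁅Q, A⁆ ≤ EA Q A := le_sup_left
  have hdvd := card_dvd_of_le hRE
  have hcop : ¬ p ∣ Nat.card ↥(⁅Q, A⁆) := fun h => S.hQp (h.trans (card_dvd_of_le (R_le_Q S hAH)))
  have hinf : ⁅Q, A⁆ ⊓ A = ⊥ := by
    rw [inf_comm]
    have := S.inf_eq_bot (CoprimeHyper.elemAb_isPGroup (S.elemAb hAH hA.1))
    rw [eq_bot_iff, ← this]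
    exact inf_le_inf_left _ (R_le_Q S hAH)
  have hcard := card_sup_mul_card_inf (N := ⁅Q, A⁆) (H := A) (A_le_normalizer_R Q A)
  rw [hinf, card_bot, mul_one, S.card_minOff hAH hA] at hcard
  change Nat.card ↥(EA Q A) = _ at hcard
  rw [Nat.card_congr e.toEquiv] at hcard
  rcases P.p23 with h | h
  · left
    refine ⟨h, ?_⟩
    subst h
    rw [card_sl22] at hcard
    have h3 : Nat.card ↥(⁅Q, A⁆) = 3 ^ 1 := by omega
    exact IsPGroup.of_card h3
  · right
    subst h
    rw [card_sl23] at hcard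
    have h8 : Nat.card ↥(⁅Q, A⁆) = 2 ^ 3 := by omega
    refine ⟨rfl, IsPGroup.of_card h8, ?_⟩
    intro hcomm
    rw [isMulCommutative_iff_of_setLike] at hcomm
    obtain ⟨x, y, hx, hy, hxy⟩ := noncomm23
    -- elements of `E(A)` of order dividing `4` lie in `R`
    have hn : (⁅Q, A⁆.subgroupOf (EA Q A)).Normal :=
      normal_subgroupOf_of_le_normalizer (sup_le le_normalizer (A_le_normalizer_R Q A))
    have hidx : (⁅Q, A⁆.subgroupOf (EA Q A)).index = 3 := by
      have h1 := (⁅Q, A⁆.subgroupOf (EA Q A)).card_mul_index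
      rw [card_subgroupOf, inf_eq_left.mpr hRE, h8, Nat.card_congr e.toEquiv, card_sl23] at h1
      omega
    have key : ∀ z : EA Q A, z ^ 4 = 1 → (z : G) ∈ ⁅Q, A⁆ := by
      intro z hz
      have h1 : z ^ 3 ∈ ⁅Q, A⁆.subgroupOf (EA Q A) := by
        rw [← hidx]; exact pow_index_mem _ z
      have h2 : z = (z ^ 3)⁻¹ := by
        rw [eq_inv_iff_mul_eq_one, ← pow_succ', hz]
      rw [h2]
      exact inv_mem (mem_subgroupOf.mp h1)
    apply hxy
    have h1 := key (e.symm x) (by rw [← map_pow, hx, map_one])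
    have h2 := key (e.symm y) (by rw [← map_pow, hy, map_one])
    have h3 := hcomm _ h1 _ h2
    have h4 : e.symm x * e.symm y = e.symm y * e.symm x := Subtype.ext h3
    rw [← map_mul, ← map_mul] at h4
    exact e.symm.injective h4

end sl2

end Cfsg.Agent.Lib.KS9
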