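import Cfsg.Agent.Lib.KS9Struct

/-!
# The direct decompositions (Kurzweil-Stellmacher 9.3.7) (helper30)
-/

set_option autoImplicit false
set_option linter.unusedSectionVars false

namespace Cfsg.Agent.Lib.KS9

open Subgroup Cfsg.Agent.Lib.SubgroupTools Cfsg.Agent.Lib.OffenderBasic Cfsg.Agent.Lib.KS9Lin
open scoped commutatorElement MatrixGroups

universe u

variable {G : Type u} [Group G] [Finite G] {p : ℕ} [hp : Fact p.Prime] {V H Q A B : Subgroup G}

/-- the set of the subgroups `E(A)` -/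
abbrev EE (p : ℕ) (V H Q : Subgroup G) : Type u :=
  {E : Subgroup G // ∃ A : Subgroup G, A ≤ H ∧ Cfsg.IsBestOffenderOn p V A ∧ ⁅V, A⁆ ≠ ⊥ ∧
    (∀ B : Subgroup G, B ≤ A → Cfsg.IsBestOffenderOn p V B → ⁅V, B⁆ ≠ ⊥ → B = A) ∧ E = ⁅Q, A⁆ ⊔ A}

theorem EE_spec (E : EE p V H Q) : ∃ A : Subgroup G, A ≤ H ∧ IsMinOff p V A ∧ (E : Subgroup G) = EA Q A := by
  obtain ⟨A, h1, h2, h3, h4, h5⟩ := E.2
  exact ⟨A, h1, ⟨h2, h3, h4⟩, h5⟩

/-- the element of `EE` of a minimal offender -/
def toEE (Q : Subgroup G) (hAH : A ≤ H) (hA : IsMinOff p V A) : EE p V H Q :=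
  ⟨EA Q A, A, hAH, hA.1, hA.2.1, hA.2.2, rfl⟩

theorem comm_of_ne (S : Setting p V H Q) {E F : EE p V H Q} (h : E ≠ F) :
    ⁅(E : Subgroup G), (F : Subgroup G)⁆ = ⊥ ∧
      (F : Subgroup G) ≤ centralizer ((⁅V, (E : Subgroup G)⁆ : Subgroup G) : Set G) := by
  obtain ⟨A, hAH, hA, hE⟩ := EE_spec E
  obtain ⟨B, hBH, hB, hF⟩ := EE_spec F
  rcases (isPlane S hAH hA).eq_or_comm S hAH hBH hA hB (isPlane S hBH hB) with h' | ⟨h1, h2, -⟩
  · exact absurd (Subtype.ext (by rw [hE, hF, h'])) h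
  · rw [hE, hF]; exact ⟨h1, h2⟩

theorem EE_le (S : Setting p V H Q) (E : EE p V H Q) : (E : Subgroup G) ≤ H := by
  obtain ⟨A, hAH, hA, hE⟩ := EE_spec E
  rw [hE]; exact EA_le S hAH

theorem iSup_EE (S : Setting p V H Q) (hgen : GenOff p V H) : (⨆ E : EE p V H Q, (E : Subgroup G)) = H := by
  apply le_antisymm (iSup_le fun E => EE_le S E)
  apply le_of_minOff S hgen
  intro B hBH hB
  exact (le_sup_right : B ≤ EA Q B).trans (le_iSup (fun E : EE p V H Q => (E : Subgroup G)) (toEE Q hBH hB))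

theorem indep_EE (S : Setting p V H Q) : iSupIndep (fun E : EE p V H Q => (E : Subgroup G)) := by
  intro E
  rw [disjoint_iff, eq_bot_iff_forall]
  rintro x ⟨hx1, hx2⟩
  obtain ⟨A, hAH, hA, hE⟩ := EE_spec E
  have h1 : (⨆ (F : EE p V H Q) (_ : F ≠ E), (F : Subgroup G)) ≤
      centralizer ((⁅V, (E : Subgroup G)⁆ : Subgroup G) : Set G) :=
    iSup₂_le fun F hF => (comm_of_ne S (Ne.symm hF)).2
  have hx3 := h1 hx2
  rw [hE] at hx3
  apply (isPlane S hAH hA).eq_one S hAH _ hx3
  rw [← hE]; exact hx1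

theorem U_le_sup (S : Setting p V H Q) (E : EE p V H Q) : ⁅V, (E : Subgroup G)⁆ ≤ V := by
  obtain ⟨A, hAH, hA, hE⟩ := EE_spec E
  rw [hE]; exact IsPlane.U_le S hAH

theorem indep_U (S : Setting p V H Q) (hgen : GenOff p V H) :
    iSupIndep (fun o : Option (EE p V H Q) =>
      o.elim (V ⊓ centralizer (H : Set G)) (fun E => ⁅V, (E : Subgroup G)⁆)) := by
  have hVab : IsMulCommutative V := S.hV.1
  have hU : ∀ E : EE p V H Q, ⁅V, (E : Subgroup G)⁆ ≤ ⁅V, Q⁆ := by
    intro E
    obtain ⟨A, hAH, hA, hE⟩ := EE_spec E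
    rw [hE, ← (isPlane S hAH hA).commutator_R S hAH]
    exact commutator_mono le_rfl (R_le_Q S hAH)
  have hcop : (Nat.card Q).Coprime (Nat.card V) :=
    (CoprimeHyper.elemAb_coprime S.hV S.hQp).symm
  have hQ := CoprimeAction2.inf_commutator_eq_bot_of_abelian (A := Q) (V := V) (S.hQH.trans S.hHV) hcop
  intro o
  rcases o with _ | E
  · rw [disjoint_iff, eq_bot_iff]
    refine le_trans ?_ hQ.le
    apply le_inf
    · exact inf_le_left.trans (inf_le_inf_left _ (centralizer_le S.hQH))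
    · refine inf_le_right.trans (iSup₂_le ?_)
      rintro (_ | F) hF
      · exact absurd rfl hF
      · exact hU F
  · obtain ⟨A, hAH, hA, hE⟩ := EE_spec E
    have P := isPlane S hAH hA
    rw [disjoint_iff, eq_bot_iff]
    refine le_trans ?_ P.inf.le
    apply le_inf
    · refine inf_le_left.trans ?_
      change ⁅V, (E : Subgroup G)⁆ ≤ _
      rw [hE]
    · refine inf_le_right.trans (iSup₂_le ?_)
      rintro (_ | F) hF
      · exact inf_le_right.trans (centralizer_le (EA_le S hAH))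
      · have hFE : F ≠ E := fun h => hF (by rw [h])
        have h1 := (comm_of_ne S hFE).2
        rw [← hE]
        change ⁅V, (F : Subgroup G)⁆ ≤ _
        rw [le_centralizer_iff]
        exact h1

theorem sup_U (S : Setting p V H Q) (hgen : GenOff p V H) :
    (V ⊓ centralizer (H : Set G)) ⊔ (⨆ E : EE p V H Q, ⁅V, (E : Subgroup G)⁆) = V := by
  have hVab : IsMulCommutative V := S.hV.1
  apply le_antisymm (sup_le inf_le_left (iSup_le fun E => U_le_sup S E))
  have hcop : (Nat.card Q).Coprime (Nat.card V) :=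
    (CoprimeHyper.elemAb_coprime S.hV S.hQp).symm
  have hQ := CoprimeAction2.sup_commutator_eq_of_abelian (A := Q) (V := V) (S.hQH.trans S.hHV) hcop
  conv_lhs => rw [← hQ]
  apply sup_le_sup
  · apply le_inf inf_le_left
    rw [le_centralizer_iff]
    conv_lhs => rw [← iSup_EE S hgen]
    apply iSup_le
    intro E
    obtain ⟨A, hAH, hA, hE⟩ := EE_spec E
    rw [le_centralizer_iff, hE]
    have h1 := (isPlane S hAH hA).fixR
    refine le_trans ?_ (inf_le_right : V ⊓ centralizer (EA Q A : Set G) ≤ _)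
    rw [← h1]
    exact inf_le_inf_left _ (centralizer_le (R_le_Q S hAH))
  · refine (commutator_mono le_rfl S.hQH).trans ?_
    have h1 := iSup_EE S hgen
    calc ⁅V, H⁆ = ⁅V, ⨆ E : EE p V H Q, (E : Subgroup G)⁆ := by rw [h1]
      _ ≤ _ := by
        apply commutator_iSup_le
        · intro E
          have hn : ∀ F : EE p V H Q, H ≤ normalizer ((⁅V, (F : Subgroup G)⁆ : Subgroup G) : Set G) := by
            intro F
            obtain ⟨A, hAH, hA, hE⟩ := EE_spec F
            rw [hE]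
            exact H_le_normalizer_U S hgen hAH hA
          refine (EE_le S E).trans ?_
          intro x hx
          rw [mem_normalizer_iff_conj_smul]
          change (⨆ F : EE p V H Q, ⁅V, (F : Subgroup G)⁆).map (MulAut.conj x).toMonoidHom = _
          rw [Subgroup.map_iSup]
          congr 1
          funext F
          exact mem_normalizer_iff_conj_smul.mp (hn F hx)
        · intro E
          exact le_iSup (fun F : EE p V H Q => ⁅V, (F : Subgroup G)⁆) E

/-- nonempty: `p ∈ {2, 3}` -/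
theorem exists_minOff (S : Setting p V H Q) (hgen : GenOff p V H) (hH1 : H ≠ ⊥) : ∃ A ≤ H, IsMinOff p V A := by
  by_contra hcon
  push Not at hcon
  apply hH1
  rw [eq_bot_iff]
  exact le_of_minOff S hgen fun B hB hB' => absurd hB' (hcon B hB)

end Cfsg.Agent.Lib.KS9
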