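import Mathlib
import Cfsg.Agent.Lib.NormalRankTwo
import Cfsg.Agent.Lib.SubgroupTools
import Cfsg.Agent.S4058

/-!
# Numbers of elements of prime power order (helper67)
-/

set_option autoImplicit false

namespace Cfsg.Agent.Lib.Kulakoff

open Subgroup
open scoped Pointwise

universe u

section Fiber

theorem card_eq_of_fiber {X Y : Type*} [Finite X] [Finite Y] (f : X → Y) (k : ℕ)
    (h : ∀ y, Nat.card {x // f x = y} = k) : Nat.card X = Nat.card Y * k := by
  classical
  have := Fintype.ofFinite Y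
  rw [Nat.card_congr (Equiv.sigmaFiberEquiv f).symm, Nat.card_sigma, Finset.sum_congr rfl (fun y _ => h y),
    Finset.sum_const, Finset.card_univ, smul_eq_mul, Nat.card_eq_fintype_card]

theorem dvd_card_of_fiber {X Y : Type*} [Finite X] [Finite Y] (f : X → Y) (d : ℕ)
    (h : ∀ x, d ∣ Nat.card {x' // f x' = f x}) : d ∣ Nat.card X := by
  classical
  have := Fintype.ofFinite Y
  rw [Nat.card_congr (Equiv.sigmaFiberEquiv f).symm, Nat.card_sigma]
  apply Finset.dvd_sum
  intro y _
  by_cases hy : ∃ x, f x = y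
  · obtain ⟨x, rfl⟩ := hy
    exact h x
  · have : IsEmpty {x // f x = y} := ⟨fun x => hy ⟨x.1, x.2⟩⟩
    rw [Nat.card_of_isEmpty]
    exact dvd_zero d

end Fiber

/-- Number of generators. -/
theorem card_gen {H : Type*} [Group H] [Finite H] (g : H) :
    Nat.card {u : H // zpowers u = zpowers g} = Nat.totient (orderOf g) := by
  classical
  have := Fintype.ofFinite (zpowers g)
  have h1 := IsCyclic.card_orderOf_eq_totient (α := zpowers g) (d := orderOf g)
    (by rw [← Nat.card_eq_fintype_card, Nat.card_zpowers])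
  rw [← h1, ← Fintype.card_subtype, ← Nat.card_eq_fintype_card]
  apply Nat.card_congr
  exact {
    toFun := fun u => ⟨⟨u, u.2.le (mem_zpowers _)⟩, by
      rw [Subgroup.orderOf_mk, ← Nat.card_zpowers, u.2, Nat.card_zpowers]⟩
    invFun := fun x => ⟨x, by
      apply eq_of_le_of_card_ge
      · rw [zpowers_le]; exact x.1.2
      · rw [Nat.card_zpowers, Nat.card_zpowers, Subgroup.orderOf_coe, x.2]⟩
    left_inv := fun u => rfl
    right_inv := fun x => rfl }

/-- Kulakoff: the number of elements of order `p ^ s`, `s ≥ 2`, of a noncyclic `p`-group, `p` odd. -/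
theorem dvd_card_pGroup {p : ℕ} [hp : Fact p.Prime] (hp2 : p ≠ 2) (P : Type u) [Group P] [Finite P]
    (hP : IsPGroup p P) (hcyc : ¬ IsCyclic P) (s : ℕ) (hs : 1 < s) :
    p ^ s ∣ Nat.card {u : P // orderOf u = p ^ s} := by
  classical
  obtain ⟨z, hz, hzp, R, hRn, hzR, hRcard, hRp, hRz⟩ :=
    NormalRankTwo.exists_normal_rank_two hp2 (Nat.card P) P rfl hP hcyc
  have hzc : ∀ c ∈ zpowers z, ∀ g : P, c * g = g * c := by
    intro c hc g
    have : zpowers z ≤ center P := by rw [zpowers_le]; exact hz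
    exact (mem_center_iff.1 (this hc) g).symm
  have hpow : ∀ u : P, ∀ r ∈ R, (u * r) ^ p = u ^ p := by
    intro u r hr
    have h1 : u⁻¹ * r * u * r⁻¹ ∈ zpowers z := by
      have := hRz r hr u⁻¹
      rwa [inv_inv] at this
    set c := u⁻¹ * r * u * r⁻¹ with hc
    have hcp : c ^ p = 1 := by
      have h2 := orderOf_dvd_of_mem_zpowers h1
      rw [hzp] at h2
      exact orderOf_dvd_iff_pow_eq_one.1 h2
    have h3 : r * u = u * r * c := by
      rw [← hzc c h1 (u * r), hc]
      have h4 := hzc c h1 u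
      rw [hc] at h4
      calc r * u = u * (u⁻¹ * r * u * r⁻¹) * r := by group
        _ = (u⁻¹ * r * u * r⁻¹) * u * r := by rw [h4]
        _ = u⁻¹ * r * u * r⁻¹ * (u * r) := by group
    rw [NormalRankTwo.mul_pow_prime hp.out hp2 (hzc c h1) hcp h3, hRp r hr, mul_one]
  have hq0 : ∀ n, 0 < p ^ n := fun n => pow_pos hp.out.pos n
  -- order from the order of the p-th power
  have hord : ∀ v w : P, orderOf w = p ^ s → v ^ p = w ^ p → orderOf v = p ^ s := by
    intro v w hw hvw
    obtain ⟨k, hk⟩ := (IsPGroup.iff_orderOf.1 hP) v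
    have h1 : orderOf (w ^ p) = p ^ (s - 1) := by
      rw [orderOf_pow_of_dvd hp.out.ne_zero (by rw [hw]; exact dvd_pow_self p (by omega)), hw]
      nth_rewrite 2 [← pow_one p]
      rw [Nat.pow_div (by omega) hp.out.pos]
    have hk1 : k ≠ 0 := by
      rintro rfl
      rw [pow_zero, orderOf_eq_one_iff] at hk
      rw [← hvw, hk, one_pow, orderOf_one] at h1
      have : 1 < p ^ (s - 1) := Nat.one_lt_pow (by omega) hp.out.one_lt
      omega
    have h2 : orderOf (v ^ p) = p ^ (k - 1) := by
      rw [orderOf_pow_of_dvd hp.out.ne_zero (by rw [hk]; exact dvd_pow_self p hk1), hk]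
      nth_rewrite 2 [← pow_one p]
      rw [Nat.pow_div (by omega) hp.out.pos]
    rw [hvw, h1] at h2
    have h3 : s - 1 = k - 1 := Nat.pow_right_injective hp.out.two_le h2
    rw [hk]
    congr 1
    omega
  apply dvd_card_of_fiber (fun u : {u : P // orderOf u = p ^ s} => zpowers ((u : P) : P ⧸ R))
  rintro ⟨u0, hu0⟩
  have hequiv : Nat.card {x' : {u : P // orderOf u = p ^ s} // zpowers ((x' : P) : P ⧸ R) = zpowers (u0 : P ⧸ R)} =
      Nat.card ((QuotientGroup.mk : P → P ⧸ R) ⁻¹' {w | zpowers w = zpowers (u0 : P ⧸ R)}) := by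
    apply Nat.card_congr
    exact {
      toFun := fun x => ⟨x.1.1, x.2⟩
      invFun := fun v => ⟨⟨v.1, by
        have h1 : zpowers ((v.1 : P) : P ⧸ R) = zpowers (u0 : P ⧸ R) := v.2
        have h2 : ((v.1 : P) : P ⧸ R) ∈ zpowers (u0 : P ⧸ R) := h1.le (mem_zpowers _)
        obtain ⟨k, hk⟩ := mem_powers_iff_mem_zpowers.2 h2
        have hk' : ((u0 ^ k : P) : P ⧸ R) = ((v.1 : P) : P ⧸ R) := hk
        -- k is prime to p
        have hkp : ¬ p ∣ k := by
          rintro ⟨j, rfl⟩
          have h3 : (u0 : P ⧸ R) ∈ zpowers ((u0 : P ⧸ R) ^ (p * j)) := by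
            have h4 : ((v.1 : P) : P ⧸ R) = (u0 : P ⧸ R) ^ (p * j) := hk.symm
            rw [← h4, h1]; exact mem_zpowers _
          have h4 := orderOf_dvd_of_mem_zpowers h3
          have h5 : orderOf ((u0 : P ⧸ R) ^ (p * j)) ∣ orderOf ((u0 : P ⧸ R) ^ p) := by
            rw [pow_mul]; exact orderOf_pow_dvd j
          obtain ⟨i, hi⟩ := (IsPGroup.iff_orderOf.1 (hP.to_quotient R)) (u0 : P ⧸ R)
          have hi0 : i ≠ 0 := by
            rintro rfl
            rw [pow_zero, orderOf_eq_one_iff, QuotientGroup.eq_one_iff] at hi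
            have h6 := hRp u0 hi
            have h7 := orderOf_dvd_of_pow_eq_one h6
            rw [hu0] at h7
            have h8 := Nat.le_of_dvd hp.out.pos h7
            have h9 : p ^ 1 < p ^ s := Nat.pow_lt_pow_right hp.out.one_lt hs
            rw [pow_one] at h9
            omega
          rw [orderOf_pow_of_dvd hp.out.ne_zero (by rw [hi]; exact dvd_pow_self p hi0), hi] at h5
          rw [hi] at h4
          have h6 := h4.trans h5
          nth_rewrite 3 [← pow_one p] at h6
          rw [Nat.pow_div (by omega) hp.out.pos] at h6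
          have h7 := Nat.pow_dvd_pow_iff_le_right hp.out.one_lt |>.1 h6
          omega
        have h3 : (u0 ^ k)⁻¹ * v.1 ∈ R := QuotientGroup.eq.1 hk'
        have h4 : v.1 = u0 ^ k * ((u0 ^ k)⁻¹ * v.1) := by group
        apply hord v.1 (u0 ^ k)
        · rw [orderOf_pow, hu0]
          have : Nat.gcd (p ^ s) k = 1 := Nat.Coprime.pow_left s ((Nat.Prime.coprime_iff_not_dvd hp.out).2 hkp)
          rw [this, Nat.div_one]
        · rw [h4, hpow _ _ h3]⟩, v.2⟩
      left_inv := fun x => rfl
      right_inv := fun v => rfl }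
  show p ^ s ∣ Nat.card {x' : {u : P // orderOf u = p ^ s} // zpowers ((x' : P) : P ⧸ R) = zpowers (u0 : P ⧸ R)}
  rw [hequiv, Nat.card_congr (QuotientGroup.preimageMkEquivSubgroupProdSet R _), Nat.card_prod, hRcard]
  have h1 : Nat.card ({w | zpowers w = zpowers (u0 : P ⧸ R)} : Set (P ⧸ R)) = Nat.totient (orderOf (u0 : P ⧸ R)) :=
    card_gen (u0 : P ⧸ R)
  rw [h1]
  obtain ⟨i, hi⟩ := (IsPGroup.iff_orderOf.1 (hP.to_quotient R)) (u0 : P ⧸ R)
  have hi1 : s ≤ i + 1 := by
    have h2 : u0 ^ p ^ i ∈ R := by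
      rw [← QuotientGroup.eq_one_iff, QuotientGroup.mk_pow, ← hi]
      exact pow_orderOf_eq_one _
    have h3 := hRp _ h2
    rw [← pow_mul, ← pow_succ] at h3
    have h4 := orderOf_dvd_of_pow_eq_one h3
    rw [hu0] at h4
    exact (Nat.pow_dvd_pow_iff_le_right hp.out.one_lt).1 h4
  rw [hi, Nat.totient_prime_pow hp.out (by omega)]
  have h5 : p ^ 2 * (p ^ (i - 1) * (p - 1)) = p ^ (i + 1) * (p - 1) := by
    rw [← mul_assoc, ← pow_add]
    congr 2
    omega
  rw [h5]
  exact Dvd.dvd.mul_right (pow_dvd_pow p hi1) _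

/-- In every finite group the number of elements of order `p ^ s` is a multiple of `p ^ (s - 1)`. -/
theorem dvd_card_weak {p : ℕ} [hp : Fact p.Prime] (H : Type u) [Group H] [Finite H] (s : ℕ) (hs : 1 ≤ s) :
    p ^ (s - 1) ∣ Nat.card {u : H // orderOf u = p ^ s} := by
  classical
  apply dvd_card_of_fiber (fun u : {u : H // orderOf u = p ^ s} => zpowers (u : H))
  rintro ⟨u0, hu0⟩
  have h1 : Nat.card {x' : {u : H // orderOf u = p ^ s} // zpowers (x' : H) = zpowers u0} =
      Nat.card {u : H // zpowers u = zpowers u0} := by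
    apply Nat.card_congr
    exact {
      toFun := fun x => ⟨x.1.1, x.2⟩
      invFun := fun v => ⟨⟨v.1, by rw [← Nat.card_zpowers, v.2, Nat.card_zpowers, hu0]⟩, v.2⟩
      left_inv := fun x => rfl
      right_inv := fun v => rfl }
  show p ^ (s - 1) ∣ Nat.card {x' : {u : H // orderOf u = p ^ s} // zpowers (x' : H) = zpowers u0}
  rw [h1, card_gen, hu0, Nat.totient_prime_pow hp.out (by omega)]
  exact Dvd.intro _ rfl

/-- Elements of order `p ^ s` outside a Sylow subgroup. -/
theorem dvd_card_outside {p : ℕ} [hp : Fact p.Prime] (H : Type u) [Group H] [Finite H] (P : Sylow p H)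
    (s : ℕ) (hs : 1 ≤ s) : p ^ s ∣ Nat.card {u : H // orderOf u = p ^ s ∧ u ∉ (P : Subgroup H)} := by
  classical
  let Ω : Type u := {U : Subgroup H // ∃ u : H, orderOf u = p ^ s ∧ u ∉ (P : Subgroup H) ∧ U = zpowers u}
  have hconj : ∀ (x u : H), MulAut.conj x • zpowers u = zpowers (x * u * x⁻¹) := by
    intro x u
    rw [SubgroupTools.conj_smul_eq_map, MonoidHom.map_zpowers]
    rfl
  let act : MulAction P Ω :=
    { smul := fun x U => ⟨MulAut.conj (x : H) • U.1, by
        obtain ⟨u, hu, huP, hU⟩ := U.2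
        refine ⟨x * u * (x : H)⁻¹, ?_, ?_, ?_⟩
        · rw [← hu]
          exact orderOf_injective (MulAut.conj (x : H)).toMonoidHom (MulAut.conj (x : H)).injective u
        · intro h
          apply huP
          have : u = (x : H)⁻¹ * (x * u * (x : H)⁻¹) * x := by group
          rw [this]
          exact mul_mem (mul_mem (inv_mem x.2) h) x.2
        · rw [hU, hconj]⟩
      one_smul := fun U => Subtype.ext (by
        show MulAut.conj ((1 : P) : H) • U.1 = U.1
        simp)
      mul_smul := fun x y U => Subtype.ext (by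
        show MulAut.conj ((x * y : P) : H) • U.1 = MulAut.conj (x : H) • MulAut.conj (y : H) • U.1
        rw [Subgroup.coe_mul, SubgroupTools.conj_smul_mul]) }
  have hΩ : Nat.card Ω ≡ Nat.card (MulAction.fixedPoints P Ω) [MOD p] :=
    P.isPGroup'.card_modEq_card_fixedPoints Ω
  have hfix : IsEmpty (MulAction.fixedPoints P Ω) := by
    constructor
    rintro ⟨U, hU⟩
    obtain ⟨u, hu, huP, hUu⟩ := U.2
    apply huP
    have h1 : ∀ x : P, MulAut.conj (x : H) • U.1 = U.1 := fun x => congrArg Subtype.val (hU x)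
    have h2 : (P : Subgroup H) ≤ normalizer (U.1 : Set H) := by
      intro x hx
      rw [SubgroupTools.mem_normalizer_iff_conj_smul]
      exact h1 ⟨x, hx⟩
    have hUp : IsPGroup p U.1 := by
      rw [hUu]
      apply IsPGroup.of_card (n := s)
      rw [Nat.card_zpowers, hu]
    have h3 : IsPGroup p ↥((P : Subgroup H) ⊔ U.1) := P.isPGroup'.to_sup_of_normal_right' hUp h2
    have h4 := P.is_maximal' h3 le_sup_left
    have h5 : u ∈ (P : Subgroup H) ⊔ U.1 := by
      apply mem_sup_right
      rw [hUu]; exact mem_zpowers u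
    exact h4 ▸ h5
  have hpΩ : p ∣ Nat.card Ω := by
    have h0 : Nat.card (MulAction.fixedPoints P Ω) = 0 := Nat.card_of_isEmpty
    rw [h0] at hΩ
    exact (Nat.modEq_zero_iff_dvd).1 hΩ
  let f : {u : H // orderOf u = p ^ s ∧ u ∉ (P : Subgroup H)} → Ω :=
    fun u => ⟨zpowers (u : H), ⟨u.1, u.2.1, u.2.2, rfl⟩⟩
  have hfib : ∀ U : Ω, Nat.card {x // f x = U} = p ^ (s - 1) * (p - 1) := by
    intro U
    obtain ⟨u, hu, huP, hUu⟩ := U.2
    have hc := card_gen u
    rw [hu, Nat.totient_prime_pow hp.out (by omega)] at hc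
    rw [← hc]
    apply Nat.card_congr
    exact {
      toFun := fun x => ⟨x.1.1, by
        have := congrArg Subtype.val x.2
        rw [hUu] at this
        exact this⟩
      invFun := fun v => ⟨⟨v.1, by rw [← Nat.card_zpowers, v.2, Nat.card_zpowers, hu], fun h => huP (by
        have h1 : zpowers (v.1 : H) ≤ (P : Subgroup H) := by rw [zpowers_le]; exact h
        exact h1 (v.2.symm.le (mem_zpowers u)))⟩, Subtype.ext (by
          rw [hUu]; exact v.2)⟩
      left_inv := fun x => rfl
      right_inv := fun v => rfl }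
  rw [card_eq_of_fiber f _ hfib]
  obtain ⟨c, hc⟩ := hpΩ
  rw [hc]
  refine ⟨c * (p - 1), ?_⟩
  have : p ^ s = p * p ^ (s - 1) := by
    rw [← pow_succ']; congr 1; omega
  rw [this]; ring

/-- Number of elements of order `p ^ s` in a group with noncyclic Sylow subgroups. -/
theorem dvd_card {p : ℕ} [hp : Fact p.Prime] (hp2 : p ≠ 2) (H : Type u) [Group H] [Finite H] (P : Sylow p H)
    (hcyc : ¬ IsCyclic P) (s : ℕ) (hs : 1 < s) : p ^ s ∣ Nat.card {u : H // orderOf u = p ^ s} := by
  classical
  have h1 := dvd_card_outside H P s (by omega)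
  have h2 := dvd_card_pGroup hp2 P P.isPGroup' hcyc s hs
  have h3 : Nat.card {u : H // orderOf u = p ^ s} =
      Nat.card {u : P // orderOf u = p ^ s} + Nat.card {u : H // orderOf u = p ^ s ∧ u ∉ (P : Subgroup H)} := by
    have e : {u : P // orderOf u = p ^ s} ≃ {u : H // orderOf u = p ^ s ∧ u ∈ (P : Subgroup H)} :=
      { toFun := fun u => ⟨u.1.1, by rw [Subgroup.orderOf_coe]; exact u.2, u.1.2⟩
        invFun := fun u => ⟨⟨u.1, u.2.2⟩, by rw [Subgroup.orderOf_mk]; exact u.2.1⟩
        left_inv := fun u => rfl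
        right_inv := fun u => rfl }
    rw [Nat.card_congr e, ← Nat.card_sum]
    apply Nat.card_congr
    exact {
      toFun := fun u => if h : u.1 ∈ (P : Subgroup H) then Sum.inl ⟨u.1, u.2, h⟩ else Sum.inr ⟨u.1, u.2, h⟩
      invFun := Sum.elim (fun u => ⟨u.1, u.2.1⟩) (fun u => ⟨u.1, u.2.1⟩)
      left_inv := fun u => by
        by_cases h : u.1 ∈ (P : Subgroup H)
        · simp [h]
        · simp [h]
      right_inv := fun u => by
        rcases u with ⟨u, hu1, hu2⟩ | ⟨u, hu1, hu2⟩
        · simp [hu2]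
        · simp [hu2] }
  rw [h3]
  exact dvd_add h2 h1

end Cfsg.Agent.Lib.Kulakoff
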