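import Cfsg.Agent.Lib.ClSeven

/-! `G` finite, `N` normal elementary abelian of order `8`, `C_G(N) ≤ N`, `|G| = 1344`: then `G/N ≅ PSL(3,2)`. -/

set_option autoImplicit false
set_option linter.all false

open Subgroup

namespace Cfsg.Agent.Lib.L32H51

/-- elementary abelian group of order 8: `Aut` embeds in `GL(3,2)`. -/
theorem exists_aut_hom {N : Type*} [Group N] [Finite N] (hcomm : ∀ a b : N, a * b = b * a) (hexp : ∀ n : N, n ^ 2 = 1)
    (hcard : Nat.card N = 8) : ∃ f : MulAut N →* Matrix.GeneralLinearGroup (Fin 3) (ZMod 2), Function.Injective f := by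
  letI : CommGroup N := { (inferInstance : Group N) with mul_comm := hcomm }
  haveI : Fact (Nat.Prime 2) := ⟨Nat.prime_two⟩
  letI : Module (ZMod 2) (Additive N) := AddCommGroup.zmodModule (n := 2) (fun x => by
    have := hexp (Additive.toMul x)
    rw [← ofMul_toMul x, ← ofMul_pow, this]; rfl)
  haveI : Module.Finite (ZMod 2) (Additive N) := Module.Finite.of_finite
  have hr : Module.finrank (ZMod 2) (Additive N) = 3 := by
    have h := Module.natCard_eq_pow_finrank (K := ZMod 2) (V := Additive N)
    have h8 : Nat.card (Additive N) = 8 := hcard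
    rw [h8, Nat.card_zmod] at h
    have : (2:ℕ) ^ 3 = 2 ^ Module.finrank (ZMod 2) (Additive N) := by rw [← h]; norm_num
    exact (Nat.pow_right_injective le_rfl this).symm
  let e : Additive N ≃ₗ[ZMod 2] (Fin 3 → ZMod 2) := (Module.finBasisOfFinrankEq (ZMod 2) (Additive N) hr).equivFun
  let L : MulAut N → Module.End (ZMod 2) (Fin 3 → ZMod 2) := fun f =>
    e.toLinearMap ∘ₗ (AddMonoidHom.toZModLinearMap 2 (MonoidHom.toAdditive f.toMonoidHom)) ∘ₗ e.symm.toLinearMap
  have hL : ∀ f x, L f x = e (Additive.ofMul (f (Additive.toMul (e.symm x)))) := fun f x => rfl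
  let H : MulAut N →* Module.End (ZMod 2) (Fin 3 → ZMod 2) :=
    { toFun := L
      map_one' := by
        apply LinearMap.ext
        intro x
        rw [hL]
        simp
      map_mul' := by
        intro f g
        apply LinearMap.ext
        intro x
        show L (f * g) x = L f (L g x)
        rw [hL, hL, hL]
        simp }
  have hH : Function.Injective H := by
    intro f g h
    apply MulEquiv.ext
    intro n
    have h1 := congrArg (fun T : Module.End (ZMod 2) (Fin 3 → ZMod 2) => T (e (Additive.ofMul n))) h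
    have h2 : L f (e (Additive.ofMul n)) = L g (e (Additive.ofMul n)) := h1
    rw [hL, hL] at h2
    simpa using h2
  let K : MulAut N →* Matrix (Fin 3) (Fin 3) (ZMod 2) :=
    (LinearMap.toMatrixAlgEquiv' (R := ZMod 2) (n := Fin 3)).toAlgHom.toRingHom.toMonoidHom.comp H
  refine ⟨K.toHomUnits, ?_⟩
  intro f g h
  apply hH
  have h1 : (K.toHomUnits f : Matrix (Fin 3) (Fin 3) (ZMod 2)) = (K.toHomUnits g : Matrix _ _ _) := by rw [h]
  rw [MonoidHom.coe_toHomUnits, MonoidHom.coe_toHomUnits] at h1
  exact (LinearMap.toMatrixAlgEquiv' (R := ZMod 2) (n := Fin 3)).injective h1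

theorem gl_psl : Nonempty (Matrix.GeneralLinearGroup (Fin 3) (ZMod 2) ≃*
    Matrix.ProjectiveSpecialLinearGroup (Fin 3) (ZMod 2)) := by
  have h2 : Function.Bijective (Matrix.SpecialLinearGroup.toGL :
      Matrix.SpecialLinearGroup (Fin 3) (ZMod 2) →* Matrix.GeneralLinearGroup (Fin 3) (ZMod 2)) := by
    rw [Nat.bijective_iff_injective_and_card]
    exact ⟨Matrix.SpecialLinearGroup.toGL_injective, ClSeven.card_sl32.trans ClSeven.card_gl32.symm⟩
  have h3 : Function.Bijective (QuotientGroup.mk' (Subgroup.center (Matrix.SpecialLinearGroup (Fin 3) (ZMod 2)))) := by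
    rw [Nat.bijective_iff_surjective_and_card]
    exact ⟨QuotientGroup.mk'_surjective _, ClSeven.card_sl32.trans ClSeven.card_psl32.symm⟩
  exact ⟨(MulEquiv.ofBijective _ h2).symm.trans (MulEquiv.ofBijective _ h3)⟩

/-- the quotient statement. -/
theorem quot_iso {G : Type*} [Group G] [Finite G] (N : Subgroup G) [hN : N.Normal] (hcomm : IsMulCommutative N)
    (hexp : ∀ n ∈ N, n ^ 2 = 1) (hcard : Nat.card N = 8) (hC : centralizer (N : Set G) ≤ N)
    (hG : Nat.card G = 1344) : Nonempty (G ⧸ N ≃* Matrix.ProjectiveSpecialLinearGroup (Fin 3) (ZMod 2)) := by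
  have hc : ∀ a b : N, a * b = b * a := fun a b => hcomm.is_comm.comm a b
  obtain ⟨f, hf⟩ := exists_aut_hom hc (fun n => by apply Subtype.ext; exact hexp n n.2) hcard
  let φ : G →* Matrix.GeneralLinearGroup (Fin 3) (ZMod 2) := f.comp (MulAut.conjNormal (H := N))
  have hker : φ.ker = N := by
    ext g
    constructor
    · intro hg
      apply hC
      have h1 : f (MulAut.conjNormal (H := N) g) = f 1 := by
        rw [map_one]; exact hg
      have h2 := hf h1
      rw [mem_centralizer_iff]
      intro n hn
      have h3 : ((MulAut.conjNormal (H := N) g) ⟨n, hn⟩ : G) = n := by rw [h2]; rfl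
      rw [MulAut.conjNormal_apply] at h3
      have : g * n * g⁻¹ = n := h3
      calc n * g = (g * n * g⁻¹) * g := by rw [this]
        _ = g * n := by group
    · intro hg
      show f (MulAut.conjNormal (H := N) g) = 1
      have : MulAut.conjNormal (H := N) g = 1 := by
        apply MulEquiv.ext
        intro n
        apply Subtype.ext
        rw [MulAut.conjNormal_apply]
        have := hc ⟨g, hg⟩ n
        have h4 : g * (n : G) = n * g := congrArg Subtype.val this
        rw [h4]
        show (n : G) * g * g⁻¹ = n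
        group
      rw [this, map_one]
  have hq : Nat.card (G ⧸ N) = 168 := by
    have h := Subgroup.card_eq_card_quotient_mul_card_subgroup N
    rw [hG, hcard] at h
    omega
  let e0 : G ⧸ N ≃* G ⧸ φ.ker := QuotientGroup.quotientMulEquivOfEq hker.symm
  have hb : Function.Bijective (QuotientGroup.kerLift φ) := by
    rw [Nat.bijective_iff_injective_and_card]
    refine ⟨QuotientGroup.kerLift_injective φ, ?_⟩
    rw [← Nat.card_congr e0.toEquiv, hq, ClSeven.card_gl32]
  obtain ⟨e2⟩ := gl_psl
  exact ⟨(e0.trans (MulEquiv.ofBijective _ hb)).trans e2⟩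

end Cfsg.Agent.Lib.L32H51
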