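import Mathlib
import Cfsg.Agent.Lib.PSLSylow

set_option autoImplicit false

/-!
# The two parabolics of `PSL_3(4)` (helper87)

`PD S A`: the data about a subgroup `A` needed for central extensions; `PD (SL_2(F)) (EL v)` and
`PD (SL_2(F)) (ER v)` for `|F| = 4`, and the elementary abelian subgroups of order 16 of `UTb 3 F`.
-/

namespace Cfsg.Agent.Lib.L34H87

open Matrix MatrixGroups
open Cfsg.Agent.Lib.PSLAut

/-- the data needed about `A ≤ L`. -/
structure PD {L : Type*} [Group L] (S : Type*) [Group S] (A : Subgroup L) : Prop where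
  tr : ∀ x ∈ A, ∀ y ∈ A, x ≠ 1 → y ≠ 1 → ∃ g : L, g * x * g⁻¹ = y
  ce : ∀ g : L, (∀ a ∈ A, a * g = g * a) → g ∈ A
  em : ∃ f : S →* L, (∀ s, f s ∈ Subgroup.normalizer (A : Set L)) ∧ (∀ s, f s ∈ A → s = 1) ∧
      ∀ g ∈ Subgroup.normalizer (A : Set L), ∃ s, g * (f s)⁻¹ ∈ A

theorem PD.map {L L' : Type*} [Group L] [Group L'] {S : Type*} [Group S] {A : Subgroup L} (h : PD S A)
    (e : L ≃* L') : PD S (A.map e.toMonoidHom) := by
  have hm : ∀ x : L', x ∈ A.map e.toMonoidHom ↔ e.symm x ∈ A := by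
    intro x
    rw [Subgroup.mem_map]
    constructor
    · rintro ⟨y, hy, rfl⟩
      show e.symm (e y) ∈ A
      rw [e.symm_apply_apply]; exact hy
    · intro hx
      exact ⟨e.symm x, hx, e.apply_symm_apply x⟩
  have hn : ∀ x : L', x ∈ Subgroup.normalizer ((A.map e.toMonoidHom : Subgroup L') : Set L') ↔
      e.symm x ∈ Subgroup.normalizer (A : Set L) := by
    intro x
    simp only [Subgroup.mem_normalizer_iff, SetLike.mem_coe, hm, map_mul, map_inv]
    constructor
    · intro h y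
      have := h (e y)
      rwa [e.symm_apply_apply] at this
    · intro h y
      exact h (e.symm y)
  refine ⟨?_, ?_, ?_⟩
  · intro x hx y hy hx1 hy1
    obtain ⟨g, hg⟩ := h.tr (e.symm x) ((hm x).1 hx) (e.symm y) ((hm y).1 hy)
      (fun h => hx1 (by rw [← e.apply_symm_apply x, h, map_one]))
      (fun h => hy1 (by rw [← e.apply_symm_apply y, h, map_one]))
    refine ⟨e g, ?_⟩
    apply e.symm.injective
    rw [map_mul, map_mul, map_inv, e.symm_apply_apply, hg]
  · intro g hg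
    rw [hm]
    apply h.ce
    intro a ha
    apply e.injective
    rw [map_mul, map_mul, e.apply_symm_apply]
    exact hg (e a) ((hm _).2 (by rw [e.symm_apply_apply]; exact ha))
  · obtain ⟨f, h1, h2, h3⟩ := h.em
    refine ⟨e.toMonoidHom.comp f, ?_, ?_, ?_⟩
    · intro s
      rw [hn]
      show e.symm (e (f s)) ∈ _
      rw [e.symm_apply_apply]; exact h1 s
    · intro s hs
      rw [hm] at hs
      apply h2
      have : e.symm (e (f s)) ∈ A := hs
      rwa [e.symm_apply_apply] at this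
    · intro g hg
      rw [hn] at hg
      obtain ⟨s, hs⟩ := h3 _ hg
      refine ⟨s, ?_⟩
      rw [hm, map_mul, map_inv]
      show e.symm g * (e.symm (e (f s)))⁻¹ ∈ A
      rw [e.symm_apply_apply]; exact hs

variable {F : Type*} [Field F]

/-- upper unitriangular matrices -/
def um (a b c : F) : SpecialLinearGroup (Fin 3) F :=
  ⟨!![1, a, b; 0, 1, c; 0, 0, 1], by rw [Matrix.det_fin_three]; simp⟩

theorem um_coe (a b c : F) : (um a b c).1 = !![1, a, b; 0, 1, c; 0, 0, 1] := rfl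

/-- `diag(1, m)` -/
def bd : SpecialLinearGroup (Fin 2) F →* SpecialLinearGroup (Fin 3) F where
  toFun m := ⟨!![1, 0, 0; 0, m.1 0 0, m.1 0 1; 0, m.1 1 0, m.1 1 1], by
    rw [Matrix.det_fin_three]
    have := m.2
    rw [Matrix.det_fin_two] at this
    simpa using this⟩
  map_one' := by
    apply Subtype.ext
    ext i j
    fin_cases i <;> fin_cases j <;> simp
  map_mul' m n := by
    apply Subtype.ext
    show !![1, 0, 0; 0, (m.1 * n.1) 0 0, (m.1 * n.1) 0 1; 0, (m.1 * n.1) 1 0, (m.1 * n.1) 1 1] =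
      !![1, 0, 0; 0, m.1 0 0, m.1 0 1; 0, m.1 1 0, m.1 1 1] * !![1, 0, 0; 0, n.1 0 0, n.1 0 1; 0, n.1 1 0, n.1 1 1]
    ext i j
    fin_cases i <;> fin_cases j <;> simp [Matrix.mul_apply, Fin.sum_univ_three, Fin.sum_univ_two]

theorem bd_coe (m : SpecialLinearGroup (Fin 2) F) :
    (bd m).1 = !![1, 0, 0; 0, m.1 0 0, m.1 0 1; 0, m.1 1 0, m.1 1 1] := rfl

theorem um_mul (a b c a' b' c' : F) : um a b c * um a' b' c' = um (a + a') (b + b' + a * c') (c + c') := by
  apply Subtype.ext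
  rw [val_mul, um_coe, um_coe, um_coe]
  ext i j
  fin_cases i <;> fin_cases j <;> simp [Matrix.mul_apply, Fin.sum_univ_three] <;> ring

theorem um_zero : um (0 : F) 0 0 = 1 := by
  apply Subtype.ext
  rw [um_coe]
  ext i j
  fin_cases i <;> fin_cases j <;> simp

theorem um_mul_bd (a b : F) (m : SpecialLinearGroup (Fin 2) F) :
    (um a b 0 * bd m).1 = !![1, a * m.1 0 0 + b * m.1 1 0, a * m.1 0 1 + b * m.1 1 1;
      0, m.1 0 0, m.1 0 1; 0, m.1 1 0, m.1 1 1] := by
  rw [val_mul, um_coe, bd_coe]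
  ext i j
  fin_cases i <;> fin_cases j <;> simp [Matrix.mul_apply, Fin.sum_univ_three]

theorem bd_mul_um (a b : F) (m : SpecialLinearGroup (Fin 2) F) :
    (bd m * um a b 0).1 = !![1, a, b; 0, m.1 0 0, m.1 0 1; 0, m.1 1 0, m.1 1 1] := by
  rw [val_mul, um_coe, bd_coe]
  ext i j
  fin_cases i <;> fin_cases j <;> simp [Matrix.mul_apply, Fin.sum_univ_three]

theorem bd_conj (a b : F) (m : SpecialLinearGroup (Fin 2) F) :
    bd m * um (a * m.1 0 0 + b * m.1 1 0) (a * m.1 0 1 + b * m.1 1 1) 0 = um a b 0 * bd m := by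
  apply Subtype.ext
  rw [um_mul_bd, bd_mul_um]

/-- the vector `e0` -/
abbrev e0 : Fin 3 → F := Pi.single 0 1

/-- the vector `e2` -/
abbrev e2 : Fin 3 → F := Pi.single 2 1

theorem mem_EL0 {x : ProjectiveSpecialLinearGroup (Fin 3) F} :
    x ∈ EL (e0 : Fin 3 → F) ↔ ∃ a b : F, x = QuotientGroup.mk (um a b 0) := by
  rw [mem_EL]
  constructor
  · rintro ⟨φ, h, rfl⟩
    have h0 : φ 0 = 0 := by simpa [e0] using h
    refine ⟨φ 1, φ 2, ?_⟩
    congr 1
    apply Subtype.ext
    rw [tv_coe, um_coe]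
    ext i j
    rw [Matrix.add_apply, Matrix.vecMulVec_apply]
    fin_cases i <;> fin_cases j <;> simp [e0, h0]
  · rintro ⟨a, b, rfl⟩
    refine ⟨![0, a, b], by simp [e0], ?_⟩
    congr 1
    apply Subtype.ext
    rw [tv_coe, um_coe]
    ext i j
    rw [Matrix.add_apply, Matrix.vecMulVec_apply]
    fin_cases i <;> fin_cases j <;> simp [e0]

theorem mem_ER2 {x : ProjectiveSpecialLinearGroup (Fin 3) F} :
    x ∈ ER (e2 : Fin 3 → F) ↔ ∃ b c : F, x = QuotientGroup.mk (um 0 b c) := by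
  rw [mem_ER]
  constructor
  · rintro ⟨v, h, rfl⟩
    have h0 : v 2 = 0 := by simpa [e2] using h
    refine ⟨v 0, v 1, ?_⟩
    congr 1
    apply Subtype.ext
    rw [tv_coe, um_coe]
    ext i j
    rw [Matrix.add_apply, Matrix.vecMulVec_apply]
    fin_cases i <;> fin_cases j <;> simp [e2, h0]
  · rintro ⟨b, c, rfl⟩
    refine ⟨![b, c, 0], by simp [e2], ?_⟩
    congr 1
    apply Subtype.ext
    rw [tv_coe, um_coe]
    ext i j
    rw [Matrix.add_apply, Matrix.vecMulVec_apply]
    fin_cases i <;> fin_cases j <;> simp [e2]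

theorem isUT_um (a b c : F) : IsUT (um a b c).1 := by
  rw [um_coe]
  constructor
  · intro i; fin_cases i <;> simp
  · intro i j hij
    fin_cases i <;> fin_cases j <;> simp at hij ⊢

theorem um_of_isUT {s : SpecialLinearGroup (Fin 3) F} (h : IsUT s.1) : s = um (s.1 0 1) (s.1 0 2) (s.1 1 2) := by
  apply Subtype.ext
  rw [um_coe]
  ext i j
  fin_cases i <;> fin_cases j
  · simpa using h.1 0
  · rfl
  · rfl
  · simpa using h.2 1 0 (by decide)
  · simpa using h.1 1
  · rfl
  · simpa using h.2 2 0 (by decide)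
  · simpa using h.2 2 1 (by decide)
  · simpa using h.1 2

theorem mem_UTb3 [Finite F] {x : ProjectiveSpecialLinearGroup (Fin 3) F} :
    x ∈ UTb 3 F ↔ ∃ a b c : F, x = QuotientGroup.mk (um a b c) := by
  rw [mem_UTb]
  constructor
  · rintro ⟨s, hs, rfl⟩
    exact ⟨_, _, _, by rw [← um_of_isUT hs]⟩
  · rintro ⟨a, b, c, rfl⟩
    exact ⟨_, isUT_um a b c, rfl⟩

theorem um_inj {a b c a' b' c' : F}
    (h : (QuotientGroup.mk (um a b c) : ProjectiveSpecialLinearGroup (Fin 3) F) = QuotientGroup.mk (um a' b' c')) :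
    a = a' ∧ b = b' ∧ c = c' := by
  have h1 := eq_of_isUT_of_mk_eq (by norm_num) (isUT_um a b c) (isUT_um a' b' c') h
  have h2 := congrArg Subtype.val h1
  rw [um_coe, um_coe] at h2
  refine ⟨?_, ?_, ?_⟩
  · simpa using congrFun (congrFun h2 0) 1
  · simpa using congrFun (congrFun h2 0) 2
  · simpa using congrFun (congrFun h2 1) 2

end Cfsg.Agent.Lib.L34H87
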