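import Mathlib
import Cfsg.Agent.Lib.L34aH87

set_option autoImplicit false

/-!
# The two parabolics of `PSL_3(4)`, part 2 (helper87)
-/

namespace Cfsg.Agent.Lib.L34H87

open Matrix MatrixGroups
open Cfsg.Agent.Lib.PSLAut

variable {F : Type*} [Field F]

local notation "PL" => ProjectiveSpecialLinearGroup (Fin 3) F

theorem trace_um (a b c : F) : (um a b c).1.trace = 3 := by
  rw [um_coe, Matrix.trace_fin_three]
  simp
  norm_num

/-- `mk` of a conjugate of a unitriangular equals `mk` of a unitriangular: equality in `SL`. -/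
theorem lift_conj (h3 : (3 : F) ≠ 0) {s : SpecialLinearGroup (Fin 3) F} {a b c a' b' c' : F}
    (h : (QuotientGroup.mk (s * um a b c * s⁻¹) : PL) = QuotientGroup.mk (um a' b' c')) :
    um a' b' c' * s = s * um a b c := by
  obtain ⟨r, hr⟩ := (mk_eq_mk_iff _ _).1 h
  have h1 : (s * um a b c * s⁻¹).1.trace = 3 := by
    rw [val_mul, Matrix.trace_mul_comm, ← val_mul, inv_mul_cancel_left, trace_um]
  have h2 := congrArg Matrix.trace hr
  rw [trace_um, Matrix.trace_smul, h1, smul_eq_mul] at h2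
  have h4 : r = 1 := by
    have : (r - 1) * 3 = 0 := by rw [sub_mul, ← h2]; ring
    rcases mul_eq_zero.1 this with h5 | h5
    · exact sub_eq_zero.1 h5
    · exact absurd h5 h3
  rw [h4, one_smul] at hr
  have h5 : um a' b' c' = s * um a b c * s⁻¹ := Subtype.ext hr
  rw [h5, inv_mul_cancel_right]

theorem bd_of_mk {a b : F} {m : SpecialLinearGroup (Fin 2) F}
    (h : (QuotientGroup.mk (bd m) : PL) = QuotientGroup.mk (um a b 0)) : m = 1 := by
  obtain ⟨r, hr⟩ := (mk_eq_mk_iff _ _).1 h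
  rw [um_coe, bd_coe] at hr
  have h0 : r = 1 := by
    have := congrFun (congrFun hr 0) 0
    simpa using this.symm
  rw [h0, one_smul] at hr
  apply Subtype.ext
  ext i j
  fin_cases i <;> fin_cases j
  · simpa using (congrFun (congrFun hr 1) 1).symm
  · simpa using (congrFun (congrFun hr 1) 2).symm
  · simpa using (congrFun (congrFun hr 2) 1).symm
  · simpa using (congrFun (congrFun hr 2) 2).symm

/-- elements normalizing `EL e0`. -/
theorem norm_shape (h3 : (3 : F) ≠ 0) (hF : ∀ x : F, x ≠ 0 → x ^ 3 = 1) (g : PL)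
    (hg : ∀ a ∈ EL (e0 : Fin 3 → F), g * a * g⁻¹ ∈ EL (e0 : Fin 3 → F)) :
    ∃ (m : SpecialLinearGroup (Fin 2) F) (a b : F), g = QuotientGroup.mk (um a b 0) * QuotientGroup.mk (bd m) := by
  obtain ⟨s, rfl⟩ := QuotientGroup.mk_surjective g
  obtain ⟨a', b', h1⟩ := mem_EL0.1 (hg (QuotientGroup.mk (um 1 0 0)) (mem_EL0.2 ⟨1, 0, rfl⟩))
  have h2 := congrArg Subtype.val (lift_conj h3 (s := s) h1)
  rw [val_mul, val_mul, um_coe, um_coe] at h2
  have h10 : s.1 1 0 = 0 := by
    have := congrFun (congrFun h2 1) 1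
    simpa [Matrix.mul_apply, Fin.sum_univ_three] using this
  have h20 : s.1 2 0 = 0 := by
    have := congrFun (congrFun h2 2) 1
    simpa [Matrix.mul_apply, Fin.sum_univ_three] using this
  have hdet := s.2
  rw [Matrix.det_fin_three, h10, h20] at hdet
  have hdet' : s.1 0 0 * (s.1 1 1 * s.1 2 2 - s.1 1 2 * s.1 2 1) = 1 := by
    refine Eq.trans ?_ hdet
    ring
  have h00 : s.1 0 0 ≠ 0 := by
    intro h
    rw [h, zero_mul] at hdet'
    exact zero_ne_one hdet'
  set α := s.1 0 0 with hα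
  have hα3 : α ^ 3 = 1 := hF α h00
  have hinv : α⁻¹ ^ 3 = 1 := by rw [inv_pow, hα3, inv_one]
  have hinv2 : α⁻¹ * α = 1 := inv_mul_cancel₀ h00
  let m : SpecialLinearGroup (Fin 2) F :=
    ⟨!![α⁻¹ * s.1 1 1, α⁻¹ * s.1 1 2; α⁻¹ * s.1 2 1, α⁻¹ * s.1 2 2], by
      rw [Matrix.det_fin_two]
      simp only [Matrix.of_apply, Matrix.cons_val', Matrix.cons_val_zero, Matrix.cons_val_one, Matrix.cons_val_fin_one]
      have e1 : α⁻¹ * s.1 1 1 * (α⁻¹ * s.1 2 2) - α⁻¹ * s.1 1 2 * (α⁻¹ * s.1 2 1) =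
          α⁻¹ ^ 3 * (α * (s.1 1 1 * s.1 2 2 - s.1 1 2 * s.1 2 1)) := by
        have : α⁻¹ ^ 3 * (α * (s.1 1 1 * s.1 2 2 - s.1 1 2 * s.1 2 1)) =
          (α⁻¹ * α) * (α⁻¹ ^ 2 * (s.1 1 1 * s.1 2 2 - s.1 1 2 * s.1 2 1)) := by ring
        rw [this, hinv2]; ring
      rw [e1, hdet', mul_one, hinv]⟩
  have hm : m.1 = !![α⁻¹ * s.1 1 1, α⁻¹ * s.1 1 2; α⁻¹ * s.1 2 1, α⁻¹ * s.1 2 2] := rfl
  have hmd : m.1 0 0 * m.1 1 1 - m.1 0 1 * m.1 1 0 = 1 := by
    have := m.2
    rwa [Matrix.det_fin_two] at this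
  let x : F := α⁻¹ * s.1 0 1
  let y : F := α⁻¹ * s.1 0 2
  let a : F := x * m.1 1 1 - y * m.1 1 0
  let b : F := - x * m.1 0 1 + y * m.1 0 0
  refine ⟨m, a, b, ?_⟩
  rw [← QuotientGroup.mk_mul, mk_eq_mk_iff]
  refine ⟨α⁻¹, ?_⟩
  rw [um_mul_bd]
  have ex : a * m.1 0 0 + b * m.1 1 0 = x := by
    have : a * m.1 0 0 + b * m.1 1 0 = x * (m.1 0 0 * m.1 1 1 - m.1 0 1 * m.1 1 0) := by
      simp only [a, b]; ring
    rw [this, hmd, mul_one]
  have ey : a * m.1 0 1 + b * m.1 1 1 = y := by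
    have : a * m.1 0 1 + b * m.1 1 1 = y * (m.1 0 0 * m.1 1 1 - m.1 0 1 * m.1 1 0) := by
      simp only [a, b]; ring
    rw [this, hmd, mul_one]
  rw [ex, ey]
  ext i j
  rw [Matrix.smul_apply, smul_eq_mul]
  fin_cases i <;> fin_cases j
  · simp [← hα, hinv2]
  · simp [x]
  · simp [y]
  · simp [h10]
  · simp [hm]
  · simp [hm]
  · simp [h20]
  · simp [hm]
  · simp [hm]

/-- the homomorphism `SL2(F) → PSL3(F)` -/
def bdb : SpecialLinearGroup (Fin 2) F →* PL := (QuotientGroup.mk' _).comp bd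

theorem bdb_apply (m : SpecialLinearGroup (Fin 2) F) : bdb m = (QuotientGroup.mk (bd m) : PL) := rfl

theorem bdb_conj_mem (m : SpecialLinearGroup (Fin 2) F) (x : PL) (hx : x ∈ EL (e0 : Fin 3 → F)) :
    (bdb m)⁻¹ * x * bdb m ∈ EL (e0 : Fin 3 → F) := by
  obtain ⟨a, b, rfl⟩ := mem_EL0.1 hx
  rw [mem_EL0]
  refine ⟨a * m.1 0 0 + b * m.1 1 0, a * m.1 0 1 + b * m.1 1 1, ?_⟩
  rw [bdb_apply, mul_assoc, ← QuotientGroup.mk_mul, ← bd_conj, QuotientGroup.mk_mul, inv_mul_cancel_left]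

theorem bdb_mem_normalizer (m : SpecialLinearGroup (Fin 2) F) :
    bdb m ∈ Subgroup.normalizer ((EL (e0 : Fin 3 → F) : Subgroup PL) : Set PL) := by
  rw [Subgroup.mem_normalizer_iff]
  intro x
  constructor
  · intro hx
    have := bdb_conj_mem m⁻¹ x hx
    rwa [map_inv, inv_inv] at this
  · intro hx
    have := bdb_conj_mem m _ hx
    have e : (bdb m)⁻¹ * (bdb m * x * (bdb m)⁻¹) * bdb m = x := by group
    rwa [e] at this

theorem PD_EL0 (h3 : (3 : F) ≠ 0) (hF : ∀ x : F, x ≠ 0 → x ^ 3 = 1) :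
    PD (SpecialLinearGroup (Fin 2) F) (EL (e0 : Fin 3 → F)) := by
  refine ⟨?_, ?_, ?_⟩
  · intro x hx y hy hx1 hy1
    obtain ⟨a, b, rfl⟩ := mem_EL0.1 hx
    obtain ⟨a', b', rfl⟩ := mem_EL0.1 hy
    have hv : (![a, b] : Fin 2 → F) ≠ 0 := by
      intro h
      apply hx1
      have h0 : a = 0 := by simpa using congrFun h 0
      have h1 : b = 0 := by simpa using congrFun h 1
      rw [h0, h1, um_zero]; rfl
    have hw : (![a', b'] : Fin 2 → F) ≠ 0 := by
      intro h
      apply hy1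
      have h0 : a' = 0 := by simpa using congrFun h 0
      have h1 : b' = 0 := by simpa using congrFun h 1
      rw [h0, h1, um_zero]; rfl
    obtain ⟨s, hs⟩ := exists_SL_mulVec (n := 2) le_rfl hv hw
    have hs0 := congrFun hs 0
    have hs1 := congrFun hs 1
    simp [Matrix.mulVec, dotProduct, Fin.sum_univ_two] at hs0 hs1
    refine ⟨(bdb s.transpose)⁻¹, ?_⟩
    rw [inv_inv, bdb_apply, mul_assoc, ← QuotientGroup.mk_mul, ← bd_conj, QuotientGroup.mk_mul, inv_mul_cancel_left]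
    have e1 : a * (s.transpose).1 0 0 + b * (s.transpose).1 1 0 = a' := by
      rw [← hs0, SpecialLinearGroup.coe_transpose, Matrix.transpose_apply, Matrix.transpose_apply]; ring
    have e2 : a * (s.transpose).1 0 1 + b * (s.transpose).1 1 1 = b' := by
      rw [← hs1, SpecialLinearGroup.coe_transpose, Matrix.transpose_apply, Matrix.transpose_apply]; ring
    rw [e1, e2]
  · intro g hg
    obtain ⟨m, a, b, rfl⟩ := norm_shape h3 hF g (fun x hx => by rw [← hg x hx, mul_inv_cancel_right]; exact hx)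
    have key : ∀ x y : F, x * m.1 0 0 + y * m.1 1 0 = x ∧ x * m.1 0 1 + y * m.1 1 1 = y := by
      intro x y
      have h1 := hg (QuotientGroup.mk (um x y 0)) (mem_EL0.2 ⟨x, y, rfl⟩)
      have h2 : (QuotientGroup.mk (um x y 0) : PL) * QuotientGroup.mk (bd m) =
          QuotientGroup.mk (bd m) * QuotientGroup.mk (um x y 0) := by
        have e1 : (QuotientGroup.mk (um x y 0) : PL) * QuotientGroup.mk (um a b 0) =
            QuotientGroup.mk (um a b 0) * QuotientGroup.mk (um x y 0) := by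
          rw [← QuotientGroup.mk_mul, ← QuotientGroup.mk_mul, um_mul, um_mul]
          congr 2 <;> ring
        have e2 : (QuotientGroup.mk (um a b 0) : PL) * (QuotientGroup.mk (um x y 0) * QuotientGroup.mk (bd m)) =
            QuotientGroup.mk (um a b 0) * (QuotientGroup.mk (bd m) * QuotientGroup.mk (um x y 0)) := by
          rw [← mul_assoc, ← e1, mul_assoc, h1, mul_assoc]
        exact mul_left_cancel e2
      rw [← QuotientGroup.mk_mul, ← QuotientGroup.mk_mul] at h2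
      obtain ⟨r, hr⟩ := (mk_eq_mk_iff _ _).1 h2
      rw [um_mul_bd, bd_mul_um] at hr
      have h0 : r = 1 := by
        have := congrFun (congrFun hr 0) 0
        simpa using this.symm
      rw [h0, one_smul] at hr
      constructor
      · simpa using (congrFun (congrFun hr 0) 1).symm
      · simpa using (congrFun (congrFun hr 0) 2).symm
    have hm : m = 1 := by
      apply Subtype.ext
      ext i j
      have k1 := key 1 0
      have k2 := key 0 1
      simp only [one_mul, zero_mul, add_zero, zero_add] at k1 k2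
      fin_cases i <;> fin_cases j
      · simpa using k1.1
      · simpa using k1.2
      · simpa using k2.1
      · simpa using k2.2
    rw [hm, map_one, QuotientGroup.mk_one, mul_one]
    exact mem_EL0.2 ⟨a, b, rfl⟩
  · refine ⟨bdb, bdb_mem_normalizer, ?_, ?_⟩
    · intro m hm
      obtain ⟨a, b, h⟩ := mem_EL0.1 hm
      exact bd_of_mk h
    · intro g hg
      obtain ⟨m, a, b, rfl⟩ := norm_shape h3 hF g (fun x hx => (Subgroup.mem_normalizer_iff.1 hg x).1 hx)
      refine ⟨m, ?_⟩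
      rw [bdb_apply, mul_inv_cancel_right]
      exact mem_EL0.2 ⟨a, b, rfl⟩

theorem PD_EL (h3 : (3 : F) ≠ 0) (hF : ∀ x : F, x ≠ 0 → x ^ 3 = 1) {v : Fin 3 → F} (hv : v ≠ 0) :
    PD (SpecialLinearGroup (Fin 2) F) (EL v) := by
  obtain ⟨x, hx⟩ := exists_conj_EL (n := 3) (by norm_num) (v := (e0 : Fin 3 → F)) (w := v) (by simp [e0]) hv
  rw [← hx]
  exact (PD_EL0 h3 hF).map (MulAut.conj x)

theorem PD_ER (h3 : (3 : F) ≠ 0) (hF : ∀ x : F, x ≠ 0 → x ^ 3 = 1) {v : Fin 3 → F} (hv : v ≠ 0) :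
    PD (SpecialLinearGroup (Fin 2) F) (ER v) := by
  rw [← map_io_EL]
  exact (PD_EL h3 hF hv).map _

end Cfsg.Agent.Lib.L34H87
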