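import Mathlib
import Cfsg.Agent.Lib.L34bH87
import Cfsg.Agent.Lib.Gaschutz
import Cfsg.Agent.Lib.PGroupMeta
import Cfsg.Agent.Lib.SubgroupTools

set_option autoImplicit false

/-!
# Central extensions of `PSL_3(4)` by elementary abelian 2-groups (helper87)
-/

namespace Cfsg.Agent.Lib.L34H87

open Matrix MatrixGroups
open Cfsg.Agent.Lib.PSLAut

section elem

variable {X L : Type*} [Group X] [Group L] (π : X →* L) (hπ : Function.Surjective π)
  (hker : π.ker = Subgroup.center X) (hZ : ∀ z ∈ Subgroup.center X, z ^ 2 = 1)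

include hπ hker hZ

/-- preimage of an elementary abelian subgroup of order at least 8 on which the normalizer is transitive is elementary abelian. -/
theorem sq_eq_one {S : Type*} [Group S] {A : Subgroup L} (hA : PD S A) (hsq : ∀ a ∈ A, a ^ 2 = 1)
    (hcard : 8 ≤ Nat.card A) : ∀ h : X, π h ∈ A → h ^ 2 = 1 := by
  have hzc : ∀ z : X, π z = 1 → ∀ g : X, g * z = z * g := by
    intro z hz g
    have : z ∈ Subgroup.center X := by rw [← hker]; exact hz
    exact (Subgroup.mem_center_iff.1 this g)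
  have hz2 : ∀ z : X, π z = 1 → z ^ 2 = 1 := by
    intro z hz
    exact hZ z (by rw [← hker]; exact hz)
  have hcomm : ∀ a ∈ A, ∀ b ∈ A, a * b = b * a := by
    intro a ha b hb
    have h1 := hsq (a * b) (A.mul_mem ha hb)
    have h2 := hsq a ha
    have h3 := hsq b hb
    rw [pow_two] at h1 h2 h3
    calc a * b = a * b * ((b * a) * (b * a))⁻¹ * ((b * a) * (b * a)) := by group
      _ = a * b * ((b * a) * (b * a))⁻¹ * 1 := by
          have := hsq (b * a) (A.mul_mem hb ha)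
          rw [pow_two] at this; rw [this]
      _ = (a * b) * (a⁻¹ * b⁻¹ * (a⁻¹ * b⁻¹)) := by group
      _ = (a * b) * ((a * b) * (a * b)) := by
          rw [inv_eq_of_mul_eq_one_left h2, inv_eq_of_mul_eq_one_left h3]
      _ = a * b := by rw [h1, mul_one]
      _ = b * a * ((a * b) * (a * b)) := by
          calc a * b = (b * (a * a) * b) * (a * b) := by rw [h2, mul_one, h3, one_mul]
            _ = _ := by group
      _ = b * a := by rw [h1, mul_one]
  -- any two noncentral elements have the same square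
  have hsame : ∀ h k : X, π h ∈ A → π k ∈ A → π h ≠ 1 → π k ≠ 1 → h ^ 2 = k ^ 2 := by
    intro h k hh hk hh1 hk1
    obtain ⟨g, hg⟩ := hA.tr _ hh _ hk hh1 hk1
    obtain ⟨g, rfl⟩ := hπ g
    have h1 : π (k * (g * h * g⁻¹)⁻¹) = 1 := by
      rw [map_mul, map_inv, map_mul, map_mul, map_inv, hg, mul_inv_cancel]
    set z := k * (g * h * g⁻¹)⁻¹ with hz
    have h2 : k = z * (g * h * g⁻¹) := by rw [hz, inv_mul_cancel_right]
    have h3 : k ^ 2 = g * h ^ 2 * g⁻¹ := by
      rw [h2, pow_two, pow_two]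
      have e1 : z * (g * h * g⁻¹) * (z * (g * h * g⁻¹)) = z * z * (g * (h * h) * g⁻¹) := by
        calc z * (g * h * g⁻¹) * (z * (g * h * g⁻¹)) = z * ((g * h * g⁻¹) * z) * (g * h * g⁻¹) := by group
          _ = z * (z * (g * h * g⁻¹)) * (g * h * g⁻¹) := by rw [hzc z h1]
          _ = _ := by group
      have e2 := hz2 z h1
      rw [pow_two] at e2
      rw [e1, e2, one_mul]
    have h4 : π (h ^ 2) = 1 := by rw [map_pow]; exact hsq _ hh
    rw [h3, hzc _ h4, mul_inv_cancel_right]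
  -- commutators
  have hcom : ∀ h k : X, π h ∈ A → π k ∈ A → π h ≠ 1 → π k ≠ 1 → π (h * k) ≠ 1 →
      h * k * h⁻¹ * k⁻¹ = h ^ 2 := by
    intro h k hh hk hh1 hk1 hhk1
    have hhk : π (h * k) ∈ A := by rw [map_mul]; exact A.mul_mem hh hk
    have e1 := hsame (h * k) h hhk hh hhk1 hh1
    have e2 := hsame k h hk hh hk1 hh1
    have hc : π (h * k * h⁻¹ * k⁻¹) = 1 := by
      rw [map_mul, map_mul, map_mul, map_inv, map_inv, hcomm _ hh _ hk]; group
    have hh4 : π (h ^ 2) = 1 := by rw [map_pow]; exact hsq _ hh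
    have hh5 := hz2 _ hh4
    have hc2 := hz2 _ hc
    -- (hk)^2 = c^{-1} h^2 k^2
    have e3 : (h * k) ^ 2 = h ^ 2 * (h * k * h⁻¹ * k⁻¹)⁻¹ * k ^ 2 := by
      have e4 : h * k = (h * k * h⁻¹ * k⁻¹) * (k * h) := by group
      have e5 : k * h = (h * k * h⁻¹ * k⁻¹)⁻¹ * (h * k) := by group
      calc (h * k) ^ 2 = h * (k * h) * k := by rw [pow_two]; group
        _ = h * ((h * k * h⁻¹ * k⁻¹)⁻¹ * (h * k)) * k := by rw [← e5]
        _ = (h * (h * k * h⁻¹ * k⁻¹)⁻¹) * h * k ^ 2 := by rw [pow_two]; group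
        _ = ((h * k * h⁻¹ * k⁻¹)⁻¹ * h) * h * k ^ 2 := by
            rw [hzc ((h * k * h⁻¹ * k⁻¹)⁻¹) (by rw [map_inv, hc, inv_one]) h]
        _ = (h * k * h⁻¹ * k⁻¹)⁻¹ * h ^ 2 * k ^ 2 := by rw [pow_two h]; group
        _ = _ := by rw [hzc (h ^ 2) hh4]
    rw [e1, e2] at e3
    have e6 : (h * k * h⁻¹ * k⁻¹)⁻¹ = h * k * h⁻¹ * k⁻¹ := by
      rw [pow_two] at hc2
      exact inv_eq_of_mul_eq_one_left hc2
    rw [e6] at e3
    have e7 : h ^ 2 * (h * k * h⁻¹ * k⁻¹) * h ^ 2 = h * k * h⁻¹ * k⁻¹ := by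
      rw [hzc _ hc, mul_assoc, ← pow_two, hh5, mul_one]
    rw [e7] at e3
    exact e3.symm
  -- choose independent elements
  have hfin : Finite A := Nat.finite_of_card_ne_zero (by omega)
  obtain ⟨x, hx, hx1⟩ : ∃ x ∈ A, x ≠ 1 := by
    by_contra hcon
    push Not at hcon
    have : A = ⊥ := by rw [eq_bot_iff]; exact fun x hx => Subgroup.mem_bot.2 (hcon x hx)
    rw [this, Subgroup.card_bot] at hcard; omega
  have hlt : ∀ (T : Finset L), T.card < 8 → ∃ y ∈ A, y ∉ T := by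
    intro T hT
    by_contra hcon
    push Not at hcon
    have h1 : (A : Set L) ⊆ (T : Set L) := fun y hy => hcon y hy
    have h2 := Set.ncard_le_ncard h1 (Finset.finite_toSet T)
    rw [Set.ncard_coe_finset] at h2
    have h3 : (A : Set L).ncard = Nat.card A := rfl
    omega
  classical
  obtain ⟨y, hy, hyT⟩ := hlt {1, x} (lt_of_le_of_lt (Finset.card_le_two) (by norm_num))
  obtain ⟨z, hz, hzT⟩ := hlt {1, x, y, x * y} (lt_of_le_of_lt (Finset.card_le_four) (by norm_num))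
  simp only [Finset.mem_insert, Finset.mem_singleton, not_or] at hyT hzT
  have hne : ∀ u v : L, u ∈ A → u ≠ v → u * v ≠ 1 := by
    intro u v hu huv h
    apply huv
    have h1 := hsq u hu
    rw [pow_two] at h1
    exact mul_left_cancel (h1.trans h.symm)
  obtain ⟨hx', rfl⟩ := hπ x
  obtain ⟨hy', rfl⟩ := hπ y
  obtain ⟨hz', rfl⟩ := hπ z
  have hxy := hne _ _ hx (Ne.symm hyT.2)
  have hxz := hne _ _ hx (Ne.symm hzT.2.1)
  have hyz := hne _ _ hy (Ne.symm hzT.2.2.1)
  have hxyz := hne _ _ (A.mul_mem hx hy) (Ne.symm hzT.2.2.2)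
  rw [← map_mul] at hxy hxz hyz hxyz
  rw [← map_mul] at hxyz
  have k1 := hcom hx' hy' hx hy hx1 hyT.1 hxy
  have k2 := hcom hx' hz' hx hz hx1 hzT.1 hxz
  have k3 := hcom hx' (hy' * hz') hx (by rw [map_mul]; exact A.mul_mem hy hz) hx1 hyz
    (by rw [← mul_assoc]; exact hxyz)
  have k4 : hx' * (hy' * hz') * hx'⁻¹ * (hy' * hz')⁻¹ =
      (hx' * hy' * hx'⁻¹ * hy'⁻¹) * (hy' * (hx' * hz' * hx'⁻¹ * hz'⁻¹) * hy'⁻¹) := by group
  rw [k3, k1, k2] at k4
  have hx4 : π (hx' ^ 2) = 1 := by rw [map_pow]; exact hsq _ hx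
  rw [hzc _ hx4, mul_inv_cancel_right] at k4
  have hone : hx' ^ 2 = 1 := by
    have := mul_left_cancel (a := hx' ^ 2) (b := 1) (c := hx' ^ 2) (by rw [mul_one]; exact k4)
    exact this.symm
  intro h hh
  by_cases hh1 : π h = 1
  · exact hz2 h hh1
  · rw [hsame h hx' hh hx hh1 hx1, hone]

end elem

end Cfsg.Agent.Lib.L34H87
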