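import Mathlib
import Cfsg.Agent.Lib.L34cH87

set_option autoImplicit false

/-!
# Central extensions of `PSL_3(4)` by elementary abelian 2-groups, part 2 (helper87)
-/

namespace Cfsg.Agent.Lib.L34H87

open Matrix MatrixGroups
open Cfsg.Agent.Lib.PSLAut

/-- a pair of "parabolic radicals" generating the Sylow subgroup `U`. -/
structure Pair {L : Type*} [Group L] (S : Type*) [Group S] (U A B : Subgroup L) : Prop where
  pA : PD S A
  pB : PD S B
  sqA : ∀ a ∈ A, a ^ 2 = 1
  sqB : ∀ b ∈ B, b ^ 2 = 1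
  cA : Nat.card A = 16
  cB : Nat.card B = 16
  sup : A ⊔ B = U
  nA : U ≤ Subgroup.normalizer (A : Set L)
  nB : U ≤ Subgroup.normalizer (B : Set L)

theorem Pair.symm {L : Type*} [Group L] {S : Type*} [Group S] {U A B : Subgroup L} (h : Pair S U A B) :
    Pair S U B A := ⟨h.pB, h.pA, h.sqB, h.sqA, h.cB, h.cA, by rw [sup_comm]; exact h.sup, h.nB, h.nA⟩

section ext

variable {X L : Type*} [Group X] [Finite X] [Group L] (π : X →* L) (hπ : Function.Surjective π)
  (hker : π.ker = Subgroup.center X) (hZ : ∀ z ∈ Subgroup.center X, z ^ 2 = 1)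
  {S : Type*} [Group S] {U A B : Subgroup L} (hP : Pair S U A B)
  (T : Sylow 2 X) (hT : (T : Subgroup X) = U.comap π)

include hπ hker hZ hP

theorem el_ab : Cfsg.IsElementaryAbelian 2 (A.comap π) := by
  have h := sq_eq_one π hπ hker hZ hP.pA hP.sqA (by rw [hP.cA]; norm_num)
  refine ⟨⟨⟨?_⟩⟩, fun a ha => h a ha⟩
  rintro ⟨a, ha⟩ ⟨b, hb⟩
  apply Subtype.ext
  show a * b = b * a
  have h1 := h a ha
  have h2 := h b hb
  have h3 := h (a * b) ((A.comap π).mul_mem ha hb)
  rw [pow_two] at h1 h2 h3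
  have e1 : a⁻¹ = a := inv_eq_of_mul_eq_one_left h1
  have e2 : b⁻¹ = b := inv_eq_of_mul_eq_one_left h2
  have e3 : (a * b)⁻¹ = a * b := inv_eq_of_mul_eq_one_left h3
  rw [← e3, _root_.mul_inv_rev, e1, e2]

omit hker hZ in
theorem sup_comap : A.comap π ⊔ B.comap π = U.comap π := by
  rw [← hP.sup]
  exact Subgroup.comap_sup_eq π A B hπ

theorem inf_eq_center : A.comap π ⊓ B.comap π =
    (Subgroup.center ↥(A.comap π ⊔ B.comap π)).map (A.comap π ⊔ B.comap π).subtype := by
  have hA := el_ab π hπ hker hZ hP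
  have hB := el_ab π hπ hker hZ hP.symm
  ext x
  rw [Subgroup.mem_map]
  constructor
  · rintro ⟨hxA, hxB⟩
    refine ⟨⟨x, Subgroup.mem_sup_left hxA⟩, ?_, rfl⟩
    rw [Subgroup.mem_center_iff]
    rintro ⟨g, hg⟩
    apply Subtype.ext
    show g * x = x * g
    have h1 : A.comap π ⊔ B.comap π ≤ Subgroup.centralizer ({x} : Set X) := by
      apply sup_le
      · intro a ha
        rw [Subgroup.mem_centralizer_singleton_iff]
        exact congrArg Subtype.val (hA.1.is_comm.comm ⟨a, ha⟩ ⟨x, hxA⟩)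
      · intro a ha
        rw [Subgroup.mem_centralizer_singleton_iff]
        exact congrArg Subtype.val (hB.1.is_comm.comm ⟨a, ha⟩ ⟨x, hxB⟩)
    exact (Subgroup.mem_centralizer_singleton_iff.1 (h1 hg))
  · rintro ⟨⟨y, hy⟩, hc, rfl⟩
    rw [Subgroup.mem_center_iff] at hc
    have h1 : ∀ g ∈ A.comap π ⊔ B.comap π, g * y = y * g := fun g hg => congrArg Subtype.val (hc ⟨g, hg⟩)
    constructor
    · show π y ∈ A
      apply hP.pA.ce
      intro a ha
      obtain ⟨g, rfl⟩ := hπ a
      rw [← map_mul, ← map_mul, h1 g (Subgroup.mem_sup_left ha)]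
    · show π y ∈ B
      apply hP.pB.ce
      intro a ha
      obtain ⟨g, rfl⟩ := hπ a
      rw [← map_mul, ← map_mul, h1 g (Subgroup.mem_sup_right ha)]

include hT in
theorem exists_compl : ∃ C : Subgroup X, C ≤ Subgroup.normalizer ((A.comap π : Subgroup X) : Set X) ∧
    C ⊓ A.comap π = ⊥ ∧ A.comap π ⊔ C = Subgroup.normalizer ((A.comap π : Subgroup X) : Set X) ∧
    Nonempty (↥C ≃* S) := by
  classical
  have h2 : Fact (Nat.Prime 2) := ⟨Nat.prime_two⟩
  have hA := el_ab π hπ hker hZ hP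
  have hB := el_ab π hπ hker hZ hP.symm
  set H := A.comap π with hH
  set K := B.comap π with hK
  set N := Subgroup.normalizer (H : Set X) with hN
  have hNc : N = (Subgroup.normalizer (A : Set L)).comap π := by
    rw [Subgroup.comap_normalizer_eq_of_surjective A hπ]
  have hsup : H ⊔ K = (T : Subgroup X) := by rw [hT]; exact sup_comap π hπ hP
  have hHN : H ≤ N := Subgroup.le_normalizer
  have hTN : (T : Subgroup X) ≤ N := by
    rw [hT, hNc]; exact Subgroup.comap_mono hP.nA
  have hKN : K ≤ N := (le_sup_right.trans hsup.le).trans hTN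
  have hHT : H ≤ (T : Subgroup X) := le_sup_left.trans hsup.le
  obtain ⟨K0, hK0K, hK0i, hK0s⟩ := PGroupMeta.exists_complement_of_elementary (p := 2) hB (U := H ⊓ K) inf_le_right
  have hK0H : K0 ⊓ H = ⊥ := by
    rw [eq_bot_iff, ← hK0i]
    rintro x ⟨hx, hxH⟩
    exact ⟨⟨hxH, hK0K hx⟩, hx⟩
  have hHK0 : H ⊔ K0 = (T : Subgroup X) := by
    apply le_antisymm
    · exact sup_le hHT (hK0K.trans (le_sup_right.trans hsup.le))
    · rw [← hsup, ← hK0s]
      exact sup_le le_sup_left (sup_le (inf_le_left.trans le_sup_left) le_sup_right)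
  let H' : Subgroup N := H.subgroupOf N
  have hH'n : H'.Normal := Subgroup.normal_in_normalizer
  have hH'c : IsMulCommutative H' := by
    refine ⟨⟨?_⟩⟩
    rintro ⟨⟨a, ha'⟩, ha⟩ ⟨⟨b, hb'⟩, hb⟩
    apply Subtype.ext
    apply Subtype.ext
    have h := hA.1.is_comm.comm ⟨a, ha⟩ ⟨b, hb⟩
    exact congrArg (fun z : H => (z : X)) h
  have hcard : ∃ n, Nat.card H' = 2 ^ n := by
    have h1 : IsPGroup 2 H' := by
      rintro ⟨⟨a, ha'⟩, ha⟩
      refine ⟨1, ?_⟩
      apply Subtype.ext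
      apply Subtype.ext
      rw [pow_one]
      exact hA.2 a ha
    exact (IsPGroup.iff_card.1 h1)
  have hcop : (Nat.card H').Coprime ((T : Subgroup X).subgroupOf N).index := by
    obtain ⟨n, hn⟩ := hcard
    rw [hn]
    apply Nat.Coprime.pow_left
    rw [Nat.Prime.coprime_iff_not_dvd Nat.prime_two]
    intro h
    have h3 : ((T : Subgroup X).subgroupOf N).index ∣ (T : Subgroup X).index :=
      Subgroup.relIndex_dvd_index_of_le hTN
    exact T.not_dvd_index (h.trans h3)
  have hmem' : ∀ (x : N), x ∈ H' ↔ (x : X) ∈ H := fun x => Subgroup.mem_subgroupOf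
  obtain ⟨C, hC⟩ := Gaschutz.exists_complement H' ((T : Subgroup X).subgroupOf N)
    (Subgroup.subgroupOf_mono N hHT |> fun h => h) hcop (K0.subgroupOf N)
    (by
      rw [eq_bot_iff]
      rintro x ⟨hx1, hx2⟩
      have : (x : X) ∈ K0 ⊓ H := ⟨hx1, hx2⟩
      rw [hK0H, Subgroup.mem_bot] at this
      exact Subgroup.mem_bot.2 (Subtype.ext this))
    (by
      rw [← hHK0, Subgroup.subgroupOf_sup hHN (hK0K.trans hKN)])
  refine ⟨C.map N.subtype, ?_, ?_, ?_, ?_⟩
  · exact Subgroup.map_subtype_le C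
  · rw [eq_bot_iff]
    rintro x ⟨⟨y, hy, rfl⟩, hx⟩
    have h1 : y ∈ H' ⊓ C := ⟨hx, hy⟩
    rw [disjoint_iff.1 hC.disjoint, Subgroup.mem_bot] at h1
    rw [h1]; exact Subgroup.mem_bot.2 rfl
  · have h1 := congrArg (Subgroup.map N.subtype) hC.sup_eq_top
    rw [Subgroup.map_sup, Subgroup.map_subgroupOf_eq_of_le hHN, ← MonoidHom.range_eq_map, Subgroup.range_subtype] at h1
    exact h1
  · -- the isomorphism
    obtain ⟨f, hf1, hf2, hf3⟩ := hP.pA.em
    let NL := Subgroup.normalizer (A : Set L)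
    have hπN : ∀ x : N, π x ∈ NL := by
      rintro ⟨x, hx⟩
      rw [hNc] at hx
      exact hx
    let ψ : N →* NL := (π.comp N.subtype).codRestrict NL hπN
    let A' : Subgroup NL := A.subgroupOf NL
    have hA'n : A'.Normal := Subgroup.normal_in_normalizer
    let q : NL →* NL ⧸ A' := QuotientGroup.mk' A'
    have hq : ∀ x : NL, q x = 1 ↔ (x : L) ∈ A := by
      intro x
      rw [QuotientGroup.mk'_apply, QuotientGroup.eq_one_iff]
      exact Subgroup.mem_subgroupOf
    let φ1 : C →* NL ⧸ A' := (q.comp ψ).comp C.subtype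
    have hφ1 : Function.Bijective φ1 := by
      constructor
      · rw [injective_iff_map_eq_one]
        rintro ⟨c, hc⟩ h
        have h1 : ((ψ c : NL) : L) ∈ A := (hq _).1 h
        have h2 : c ∈ H' ⊓ C := ⟨h1, hc⟩
        rw [disjoint_iff.1 hC.disjoint, Subgroup.mem_bot] at h2
        exact Subtype.ext h2
      · intro y
        obtain ⟨⟨g, hg⟩, rfl⟩ := QuotientGroup.mk'_surjective A' y
        obtain ⟨x, rfl⟩ := hπ g
        have hxN : x ∈ N := by rw [hNc]; exact hg
        obtain ⟨h, hh, c, hc, hhc⟩ := Subgroup.mem_sup_of_normal_left.1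
          (show (⟨x, hxN⟩ : N) ∈ H' ⊔ C by rw [hC.sup_eq_top]; trivial)
        refine ⟨⟨c, hc⟩, ?_⟩
        show q (ψ c) = q ⟨π x, hg⟩
        have h1 : (⟨π x, hg⟩ : NL) = ψ h * ψ c := by
          apply Subtype.ext
          show π x = π h * π c
          rw [← map_mul]
          congr 1
          exact (congrArg Subtype.val hhc).symm
        rw [h1, map_mul, (hq (ψ h)).2 hh, one_mul]
    let φ2 : S →* NL ⧸ A' := q.comp (f.codRestrict NL hf1)
    have hφ2 : Function.Bijective φ2 := by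
      constructor
      · rw [injective_iff_map_eq_one]
        intro s h
        exact hf2 s ((hq _).1 h)
      · intro y
        obtain ⟨⟨g, hg⟩, rfl⟩ := QuotientGroup.mk'_surjective A' y
        obtain ⟨s, hs⟩ := hf3 g hg
        refine ⟨s, ?_⟩
        show q ⟨f s, hf1 s⟩ = q ⟨g, hg⟩
        have h1 : q (⟨g, hg⟩ * ⟨f s, hf1 s⟩⁻¹) = 1 := (hq _).2 hs
        rw [map_mul, map_inv, mul_inv_eq_one] at h1
        exact h1.symm
    exact ⟨(C.equivMapOfInjective N.subtype N.subtype_injective).symm.trans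
      ((MulEquiv.ofBijective φ1 hφ1).trans (MulEquiv.ofBijective φ2 hφ2).symm)⟩

end ext

end Cfsg.Agent.Lib.L34H87
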