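import Mathlib
import Cfsg.Agent.Lib.L34dH87

set_option autoImplicit false

/-!
# Central extensions of `PSL_3(4)` by elementary abelian 2-groups, part 3 (helper87)
-/

namespace Cfsg.Agent.Lib.L34H87

open Matrix MatrixGroups
open Cfsg.Agent.Lib.PSLAut

variable {F : Type*} [Field F] [Fintype F]

local notation "PL" => ProjectiveSpecialLinearGroup (Fin 3) F

theorem cube_eq (hF : Fintype.card F = 4) (x : F) (hx : x ≠ 0) : x ^ 3 = 1 := by
  have := FiniteField.pow_card_sub_one_eq_one x hx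
  rwa [hF] at this

theorem two_eq (hF : Fintype.card F = 4) : (2 : F) = 0 := by
  have h1 : ((Fintype.card F : ℕ) : F) = 0 := FiniteField.cast_card_eq_zero F
  rw [hF] at h1
  have h2 : (2 : F) * 2 = 0 := by
    have : ((4 : ℕ) : F) = 2 * 2 := by norm_num
    rw [← this]; exact h1
  exact mul_self_eq_zero.1 h2

theorem three_ne (hF : Fintype.card F = 4) : (3 : F) ≠ 0 := by
  have h := two_eq hF
  intro h3
  have : (1 : F) = 3 - 2 := by norm_num
  rw [h3, h, sub_zero] at this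
  exact one_ne_zero this

theorem le_norm {G : Type*} [Group G] {U A : Subgroup G} (h : ∀ u ∈ U, ∀ a ∈ A, u * a * u⁻¹ ∈ A) :
    U ≤ Subgroup.normalizer (A : Set G) := by
  intro u hu
  rw [Subgroup.mem_normalizer_iff]
  intro a
  refine ⟨h u hu a, fun ha => ?_⟩
  have := h u⁻¹ (U.inv_mem hu) _ ha
  have e : u⁻¹ * (u * a * u⁻¹) * u⁻¹⁻¹ = a := by group
  rwa [e] at this

theorem card_EL0 (hF : Fintype.card F = 4) : Nat.card (EL (e0 : Fin 3 → F)) = 16 := by
  let f : F × F → EL (e0 : Fin 3 → F) := fun p => ⟨QuotientGroup.mk (um p.1 p.2 0), mem_EL0.2 ⟨_, _, rfl⟩⟩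
  have hf : Function.Bijective f := by
    constructor
    · rintro ⟨a, b⟩ ⟨a', b'⟩ h
      have h1 := um_inj (congrArg Subtype.val h)
      exact Prod.ext h1.1 h1.2.1
    · rintro ⟨x, hx⟩
      obtain ⟨a, b, rfl⟩ := mem_EL0.1 hx
      exact ⟨(a, b), rfl⟩
  rw [← Nat.card_congr (Equiv.ofBijective f hf), Nat.card_prod, Nat.card_eq_fintype_card, hF]

theorem card_ER2 (hF : Fintype.card F = 4) : Nat.card (ER (e2 : Fin 3 → F)) = 16 := by
  let f : F × F → ER (e2 : Fin 3 → F) := fun p => ⟨QuotientGroup.mk (um 0 p.1 p.2), mem_ER2.2 ⟨_, _, rfl⟩⟩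
  have hf : Function.Bijective f := by
    constructor
    · rintro ⟨a, b⟩ ⟨a', b'⟩ h
      have h1 := um_inj (congrArg Subtype.val h)
      exact Prod.ext h1.2.1 h1.2.2
    · rintro ⟨x, hx⟩
      obtain ⟨a, b, rfl⟩ := mem_ER2.1 hx
      exact ⟨(a, b), rfl⟩
  rw [← Nat.card_congr (Equiv.ofBijective f hf), Nat.card_prod, Nat.card_eq_fintype_card, hF]

theorem pair (hF : Fintype.card F = 4) :
    Pair (SpecialLinearGroup (Fin 2) F) (UTb 3 F) (EL (e0 : Fin 3 → F)) (ER (e2 : Fin 3 → F)) := by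
  have h2 := two_eq hF
  refine ⟨PD_EL (three_ne hF) (cube_eq hF) (by simp [e0]), PD_ER (three_ne hF) (cube_eq hF) (by simp [e2]),
    ?_, ?_, card_EL0 hF, card_ER2 hF, ?_, ?_, ?_⟩
  · intro x hx
    obtain ⟨a, b, rfl⟩ := mem_EL0.1 hx
    rw [pow_two, ← QuotientGroup.mk_mul, um_mul, ← two_mul, ← two_mul, h2]
    simp [um_zero]
  · intro x hx
    obtain ⟨a, b, rfl⟩ := mem_ER2.1 hx
    rw [pow_two, ← QuotientGroup.mk_mul, um_mul, ← two_mul b, ← two_mul a, h2]
    simp [um_zero]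
  · apply le_antisymm
    · apply sup_le
      · intro x hx
        obtain ⟨a, b, rfl⟩ := mem_EL0.1 hx
        exact mem_UTb3.2 ⟨_, _, _, rfl⟩
      · intro x hx
        obtain ⟨a, b, rfl⟩ := mem_ER2.1 hx
        exact mem_UTb3.2 ⟨_, _, _, rfl⟩
    · intro x hx
      obtain ⟨a, b, c, rfl⟩ := mem_UTb3.1 hx
      have e : um a b c = um a (b - a * c) 0 * um 0 0 c := by
        rw [um_mul]; congr 1 <;> ring
      rw [e, QuotientGroup.mk_mul]
      exact Subgroup.mul_mem_sup (mem_EL0.2 ⟨_, _, rfl⟩) (mem_ER2.2 ⟨_, _, rfl⟩)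
  · apply le_norm
    intro u hu x hx
    obtain ⟨a, b, c, rfl⟩ := mem_UTb3.1 hu
    obtain ⟨x, y, rfl⟩ := mem_EL0.1 hx
    have e : um a b c * um x y 0 = um x (y - x * c) 0 * um a b c := by
      rw [um_mul, um_mul]; congr 1 <;> ring
    rw [← QuotientGroup.mk_mul, e, QuotientGroup.mk_mul, mul_inv_cancel_right]
    exact mem_EL0.2 ⟨_, _, rfl⟩
  · apply le_norm
    intro u hu x hx
    obtain ⟨a, b, c, rfl⟩ := mem_UTb3.1 hu
    obtain ⟨y, z, rfl⟩ := mem_ER2.1 hx
    have e : um a b c * um 0 y z = um 0 (y + a * z) z * um a b c := by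
      rw [um_mul, um_mul]; congr 1 <;> ring
    rw [← QuotientGroup.mk_mul, e, QuotientGroup.mk_mul, mul_inv_cancel_right]
    exact mem_ER2.2 ⟨_, _, rfl⟩

/-- the elementary abelian subgroups of order 16 of `UTb 3 F`. -/
theorem eq_or_eq (hF : Fintype.card F = 4) (A : Subgroup PL) (hA : A ≤ UTb 3 F) (hsq : ∀ a ∈ A, a ^ 2 = 1)
    (hc : Nat.card A = 16) : A = EL (e0 : Fin 3 → F) ∨ A = ER (e2 : Fin 3 → F) := by
  have h2 := two_eq hF
  have hfE : Finite (EL (e0 : Fin 3 → F)) := Nat.finite_of_card_ne_zero (by rw [card_EL0 hF]; norm_num)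
  have hfR : Finite (ER (e2 : Fin 3 → F)) := Nat.finite_of_card_ne_zero (by rw [card_ER2 hF]; norm_num)
  have key : ∀ a b c : F, (QuotientGroup.mk (um a b c) : PL) ∈ A → a * c = 0 := by
    intro a b c h
    have h1 := hsq _ h
    rw [pow_two, ← QuotientGroup.mk_mul, um_mul, ← QuotientGroup.mk_one, ← um_zero] at h1
    have h3 := (um_inj h1).2.1
    have : a * c = b + b + a * c - 2 * b := by ring
    rw [this, h3, h2, zero_mul, sub_zero]
  by_cases hall : ∀ a b c : F, (QuotientGroup.mk (um a b c) : PL) ∈ A → c = 0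
  · left
    apply Subgroup.eq_of_le_of_card_ge
    · intro x hx
      obtain ⟨a, b, c, rfl⟩ := mem_UTb3.1 (hA hx)
      rw [hall a b c hx]
      exact mem_EL0.2 ⟨_, _, rfl⟩
    · rw [card_EL0 hF, hc]
  · right
    push Not at hall
    obtain ⟨a', b', c', h', hc'⟩ := hall
    have ha' : a' = 0 := (mul_eq_zero.1 (key _ _ _ h')).resolve_right hc'
    apply Subgroup.eq_of_le_of_card_ge
    · intro x hx
      obtain ⟨a, b, c, rfl⟩ := mem_UTb3.1 (hA hx)
      have h3 := A.mul_mem hx h'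
      rw [← QuotientGroup.mk_mul, um_mul] at h3
      have h4 := key _ _ _ h3
      have h5 := key _ _ _ hx
      rw [ha', add_zero, mul_add, h5, zero_add] at h4
      have h6 : a = 0 := (mul_eq_zero.1 h4).resolve_right hc'
      rw [h6]
      exact mem_ER2.2 ⟨_, _, rfl⟩
    · rw [card_ER2 hF, hc]

omit [Fintype F] in
theorem sl2_equiv (h2 : (2 : F) = 0) :
    Nonempty (SpecialLinearGroup (Fin 2) F ≃* ProjectiveSpecialLinearGroup (Fin 2) F) := by
  have h : Subgroup.center (SpecialLinearGroup (Fin 2) F) = ⊥ := by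
    rw [eq_bot_iff]
    intro x hx
    rw [Matrix.SpecialLinearGroup.mem_center_iff] at hx
    obtain ⟨r, hr, hx⟩ := hx
    rw [Fintype.card_fin] at hr
    have h3 : (r - 1) ^ 2 = 0 := by
      have : (r - 1) ^ 2 = r ^ 2 - 2 * r + 1 := by ring
      rw [this, hr, h2, zero_mul, sub_zero]
      have : (1 : F) + 1 = 2 := by norm_num
      rw [this, h2]
    have h4 : r = 1 := sub_eq_zero.1 (pow_eq_zero_iff (by norm_num) |>.1 h3)
    rw [h4, map_one] at hx
    exact Subgroup.mem_bot.2 (Subtype.ext hx.symm)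
  exact ⟨(QuotientGroup.quotientBot.symm.trans (QuotientGroup.quotientMulEquivOfEq h.symm))⟩

/-- replace the isomorphism so that `T` maps to the standard Sylow subgroup. -/
theorem exists_std (hF : Fintype.card F = 4) {X : Type*} [Group X] [Finite X]
    (e : (X ⧸ Subgroup.center X) ≃* PL) (T : Sylow 2 X) :
    ∃ e' : (X ⧸ Subgroup.center X) ≃* PL,
      (T : Subgroup X).map (e'.toMonoidHom.comp (QuotientGroup.mk' (Subgroup.center X))) = UTb 3 F := by
  have hp : Fact (Nat.Prime 2) := ⟨Nat.prime_two⟩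
  have hch : CharP F 2 := by
    have := two_eq hF
    exact CharTwo.of_one_ne_zero_of_two_eq_zero one_ne_zero this
  let π0 : X →* PL := e.toMonoidHom.comp (QuotientGroup.mk' (Subgroup.center X))
  have hπ0 : Function.Surjective π0 := e.surjective.comp (QuotientGroup.mk'_surjective _)
  let T' : Sylow 2 PL := T.mapSurjective hπ0
  have : Finite (Sylow 2 PL) := inferInstance
  obtain ⟨g, hg⟩ := MulAction.exists_smul_eq PL T' (SylUTb 3 F 2)
  refine ⟨e.trans (MulAut.conj g), ?_⟩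
  have h1 : ((e.trans (MulAut.conj g)).toMonoidHom.comp (QuotientGroup.mk' (Subgroup.center X))) =
      (MulAut.conj g).toMonoidHom.comp π0 := rfl
  rw [h1, ← Subgroup.map_map]
  have h3 := congrArg (fun S : Sylow 2 PL => (S : Subgroup PL)) hg
  exact h3

end Cfsg.Agent.Lib.L34H87
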