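import Cfsg.Agent.Lib.LargeExtra

/-!
# Symmetry of orthogonality for large extraspecial 2-subgroups; singular subgroups
-/

set_option autoImplicit false

namespace Cfsg.Agent.Lib.LargeExtraSymm

open Cfsg Cfsg.Agent.Lib.LargeExtra

variable {G : Type*} [Group G]

/-- elementwise package for a large extraspecial subgroup -/
structure EX (Q : Subgroup G) (z : G) : Prop where
  sq : z * z = 1
  ne : z ≠ 1
  mem : z ∈ Q
  cen : ∀ q ∈ Q, q * z = z * q
  comm : ∀ a ∈ Q, ∀ b ∈ Q, a * b = b * a ∨ a * b = z * (b * a)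
  qsq : ∀ q ∈ Q, q * q = 1 ∨ q * q = z
  cent : ∀ x : G, (∀ q ∈ Q, q * x = x * q) → x = 1 ∨ x = z
  norm : ∀ x : G, x * z = z * x → ∀ q ∈ Q, x * q * x⁻¹ ∈ Q

theorem EX.of {Q : Subgroup G} {z : G} (h : PreLarge Q z) : EX Q z :=
  ⟨h.sq, h.ne, h.mem, h.cen, h.comm, h.qsq, h.cent, h.norm⟩

theorem EX.conj {Q R : Subgroup G} {z : G} (h : EX Q z) (g : G) (hR : ∀ y, y ∈ R ↔ g⁻¹ * y * g ∈ Q) :
    EX R (g * z * g⁻¹) := by
  have e : ∀ y : G, g * (g⁻¹ * y * g) * g⁻¹ = y := fun y => by group
  refine ⟨?_, ?_, ?_, ?_, ?_, ?_, ?_, ?_⟩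
  · calc g * z * g⁻¹ * (g * z * g⁻¹) = g * (z * z) * g⁻¹ := by group
      _ = 1 := by rw [h.sq]; group
  · intro h1
    apply h.ne
    calc z = g⁻¹ * (g * z * g⁻¹) * g := by group
      _ = 1 := by rw [h1]; group
  · rw [hR]
    have : g⁻¹ * (g * z * g⁻¹) * g = z := by group
    rw [this]; exact h.mem
  · intro q hq
    have h1 := h.cen _ ((hR q).1 hq)
    calc q * (g * z * g⁻¹) = g * ((g⁻¹ * q * g) * z) * g⁻¹ := by group
      _ = g * (z * (g⁻¹ * q * g)) * g⁻¹ := by rw [h1]
      _ = g * z * g⁻¹ * q := by group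
  · intro a ha b hb
    rcases h.comm _ ((hR a).1 ha) _ ((hR b).1 hb) with h1 | h1
    · left
      calc a * b = g * ((g⁻¹ * a * g) * (g⁻¹ * b * g)) * g⁻¹ := by group
        _ = g * ((g⁻¹ * b * g) * (g⁻¹ * a * g)) * g⁻¹ := by rw [h1]
        _ = b * a := by group
    · right
      calc a * b = g * ((g⁻¹ * a * g) * (g⁻¹ * b * g)) * g⁻¹ := by group
        _ = g * (z * ((g⁻¹ * b * g) * (g⁻¹ * a * g))) * g⁻¹ := by rw [h1]
        _ = g * z * g⁻¹ * (b * a) := by group
  · intro q hq
    rcases h.qsq _ ((hR q).1 hq) with h1 | h1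
    · left
      calc q * q = g * ((g⁻¹ * q * g) * (g⁻¹ * q * g)) * g⁻¹ := by group
        _ = 1 := by rw [h1]; group
    · right
      calc q * q = g * ((g⁻¹ * q * g) * (g⁻¹ * q * g)) * g⁻¹ := by group
        _ = g * z * g⁻¹ := by rw [h1]
  · intro x hx
    have h1 : ∀ q ∈ Q, q * (g⁻¹ * x * g) = (g⁻¹ * x * g) * q := by
      intro q hq
      have h2 : g * q * g⁻¹ ∈ R := by
        rw [hR]
        have : g⁻¹ * (g * q * g⁻¹) * g = q := by group
        rw [this]; exact hq
      have h3 := hx _ h2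
      calc q * (g⁻¹ * x * g) = g⁻¹ * ((g * q * g⁻¹) * x) * g := by group
        _ = g⁻¹ * (x * (g * q * g⁻¹)) * g := by rw [h3]
        _ = (g⁻¹ * x * g) * q := by group
    rcases h.cent _ h1 with h2 | h2
    · left
      rw [← e x, h2]; group
    · right
      rw [← e x, h2]
  · intro x hx q hq
    rw [hR]
    have h1 : (g⁻¹ * x * g) * z = z * (g⁻¹ * x * g) := by
      calc (g⁻¹ * x * g) * z = g⁻¹ * (x * (g * z * g⁻¹)) * g := by group
        _ = g⁻¹ * ((g * z * g⁻¹) * x) * g := by rw [hx]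
        _ = z * (g⁻¹ * x * g) := by group
    have h2 := h.norm _ h1 _ ((hR q).1 hq)
    have : g⁻¹ * (x * q * x⁻¹) * g = (g⁻¹ * x * g) * (g⁻¹ * q * g) * (g⁻¹ * x * g)⁻¹ := by group
    rw [this]; exact h2

section basics

variable {Q : Subgroup G} {z : G}

theorem EX.center (h : EX Q z) {q : G} (_hq : q ∈ Q) (hc : ∀ x ∈ Q, x * q = q * x) : q = 1 ∨ q = z := h.cent q hc

/-- two elements of `Q` both not commuting with `w` : their product commutes with `w` -/
theorem EX.mul_comm_of {a b w : G} (h : EX Q z) (ha : a ∈ Q) (hb : b ∈ Q) (hw : w ∈ Q) (haw : a * w ≠ w * a)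
    (hbw : b * w ≠ w * b) : (a * b) * w = w * (a * b) := by
  have h1 : a * w = z * (w * a) := (h.comm a ha w hw).resolve_left haw
  have h2 : b * w = z * (w * b) := (h.comm b hb w hw).resolve_left hbw
  calc (a * b) * w = a * (b * w) := by group
    _ = a * (z * (w * b)) := by rw [h2]
    _ = (a * z) * (w * b) := by group
    _ = (z * a) * (w * b) := by rw [h.cen a ha]
    _ = z * (a * w) * b := by group
    _ = z * (z * (w * a)) * b := by rw [h1]
    _ = (z * z) * (w * (a * b)) := by group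
    _ = w * (a * b) := by rw [h.sq, one_mul]

/-- the double centralizer property -/
theorem EX.dual_step (h : EX Q z) {W : Subgroup G} {w : G} (hwQ : w ∈ Q)
    (hP : ∀ u ∈ Q, (∀ q ∈ Q, (∀ v ∈ W, q * v = v * q) → q * u = u * q) → u ∈ W)
    (u : G) (hu : u ∈ Q) (hc : ∀ q ∈ Q, (∀ v ∈ W ⊔ Subgroup.zpowers w, q * v = v * q) → q * u = u * q) :
    u ∈ W ⊔ Subgroup.zpowers w := by
  by_cases h1 : ∀ q ∈ Q, (∀ v ∈ W, q * v = v * q) → q * u = u * q
  · exact Subgroup.mem_sup_left (hP u hu h1)
  push Not at h1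
  obtain ⟨k, hk, hkW, hku⟩ := h1
  -- k does not commute with w
  have hmem : ∀ q ∈ Q, (∀ v ∈ W, q * v = v * q) → q * w = w * q → ∀ v ∈ W ⊔ Subgroup.zpowers w, q * v = v * q := by
    intro q _ hqW hqw v hv
    have hle : W ⊔ Subgroup.zpowers w ≤ Subgroup.centralizer {q} := by
      rw [sup_le_iff]
      constructor
      · intro y hy
        rw [Subgroup.mem_centralizer_singleton_iff]
        exact (hqW y hy).symm
      · rw [Subgroup.zpowers_le, Subgroup.mem_centralizer_singleton_iff]
        exact hqw.symm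
    have := hle hv
    rw [Subgroup.mem_centralizer_singleton_iff] at this
    exact this.symm
  have hkw : k * w ≠ w * k := fun hkw => hku (hc k hk (hmem k hk hkW hkw))
  have h2 : u * w ∈ W := by
    apply hP _ (Q.mul_mem hu hwQ)
    intro q hq hqW
    by_cases hqw : q * w = w * q
    · have h3 := hc q hq (hmem q hq hqW hqw)
      calc q * (u * w) = (q * u) * w := by group
        _ = u * (q * w) := by rw [h3]; group
        _ = u * w * q := by rw [hqw]; group
    · -- q k commutes with w and W, hence with u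
      have h3 : (q * k) * w = w * (q * k) := h.mul_comm_of hq hk hwQ hqw hkw
      have h4 : (q * k) * u = u * (q * k) := by
        apply hc _ (Q.mul_mem hq hk)
        apply hmem _ (Q.mul_mem hq hk) _ h3
        intro v hv
        calc (q * k) * v = q * (k * v) := by group
          _ = (q * v) * k := by rw [hkW v hv]; group
          _ = v * (q * k) := by rw [hqW v hv]; group
      have h5 : q * u ≠ u * q := by
        intro h5
        apply hku
        have : k = q⁻¹ * (q * k) := by group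
        rw [this]
        have h6 : q⁻¹ * u = u * q⁻¹ := by
          calc q⁻¹ * u = q⁻¹ * (u * q) * q⁻¹ := by group
            _ = u * q⁻¹ := by rw [← h5]; group
        calc q⁻¹ * (q * k) * u = q⁻¹ * ((q * k) * u) := by group
          _ = (q⁻¹ * u) * (q * k) := by rw [h4]; group
          _ = u * (q⁻¹ * (q * k)) := by rw [h6]; group
      have e1 : q * u = z * (u * q) := (h.comm q hq u hu).resolve_left h5
      have e2 : q * w = z * (w * q) := (h.comm q hq w hwQ).resolve_left hqw
      calc q * (u * w) = (q * u) * w := by group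
        _ = z * (u * (q * w)) := by rw [e1]; group
        _ = z * (u * (z * (w * q))) := by rw [e2]
        _ = z * (u * z) * (w * q) := by group
        _ = z * (z * u) * (w * q) := by rw [h.cen u hu]
        _ = (z * z) * (u * w * q) := by group
        _ = u * w * q := by rw [h.sq, one_mul]
  have h3 : u = (u * w) * w⁻¹ := by group
  rw [h3]
  exact Subgroup.mul_mem _ (Subgroup.mem_sup_left h2)
    (Subgroup.inv_mem _ (Subgroup.mem_sup_right (Subgroup.mem_zpowers w)))

/-- double centralizer: an element of `Q` outside `W ∋ z` is moved by some element of `Q` centralizing `W` -/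
theorem EX.dual [Finite G] (h : EX Q z) {W : Subgroup G} (hWQ : W ≤ Q) (hzW : z ∈ W) {u : G} (hu : u ∈ Q)
    (huW : u ∉ W) : ∃ q ∈ Q, (∀ v ∈ W, q * v = v * q) ∧ q * u = z * (u * q) := by
  classical
  -- maximal subgroup of `W` containing `z` with the property
  let P : Subgroup G → Prop := fun W' => ∀ u ∈ Q, (∀ q ∈ Q, (∀ v ∈ W', q * v = v * q) → q * u = u * q) → u ∈ W'
  have hbase : P (Subgroup.zpowers z) := by
    intro y hy hc
    have := h.cent y (fun q hq => hc q hq (fun v hv => by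
      rcases (mem_zpowers_of_sq h.sq).1 hv with rfl | rfl
      · simp
      · exact h.cen q hq))
    exact (mem_zpowers_of_sq h.sq).2 this
  have key : P W := by
    have hfin : {W' : Subgroup G | Subgroup.zpowers z ≤ W' ∧ W' ≤ W ∧ P W'}.Finite := Set.toFinite _
    obtain ⟨M, hM⟩ := hfin.exists_maximal ⟨Subgroup.zpowers z, le_rfl, by rwa [Subgroup.zpowers_le], hbase⟩
    have hMP := hM.prop
    by_contra hcon
    have hne : M ≠ W := by rintro rfl; exact hcon hMP.2.2
    obtain ⟨w, hwW, hwM⟩ := SetLike.exists_of_lt (lt_of_le_of_ne hMP.2.1 hne)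
    have h1 : M ⊔ Subgroup.zpowers w ∈ {W' : Subgroup G | Subgroup.zpowers z ≤ W' ∧ W' ≤ W ∧ P W'} := by
      refine ⟨hMP.1.trans le_sup_left, sup_le hMP.2.1 (by rwa [Subgroup.zpowers_le]), ?_⟩
      exact h.dual_step (hWQ hwW) hMP.2.2
    have h2 := hM.le_of_ge h1 le_sup_left
    exact hwM (h2 (Subgroup.mem_sup_right (Subgroup.mem_zpowers w)))
  by_contra hcon
  push Not at hcon
  apply huW
  apply key u hu
  intro q hq hqW
  rcases h.comm q hq u hu with h1 | h1
  · exact h1
  · exact absurd h1 (hcon q hq hqW)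

/-- a noncentral element is moved by some element -/
theorem EX.exists_move (h : EX Q z) {x : G} (hx1 : x ≠ 1) (hxz : x ≠ z) (hx : x ∈ Q) :
    ∃ q ∈ Q, q * x = z * (x * q) := by
  by_contra hcon
  push Not at hcon
  rcases h.cent x (fun q hq => by
    rcases h.comm q hq x hx with h1 | h1
    · exact h1
    · exact absurd h1 (hcon q hq)) with h1 | h1
  · exact hx1 h1
  · exact hxz h1

/-- an element of `Q` centralizing `C_Q(x)` lies in `⟨x, z⟩` -/
theorem EX.cent_cent (h : EX Q z) {x y : G} (hx1 : x ≠ 1) (hxz : x ≠ z) (hx : x ∈ Q) (hx2 : x * x = 1) (hy : y ∈ Q)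
    (hc : ∀ e ∈ Q, e * x = x * e → e * y = y * e) : y = 1 ∨ y = z ∨ y = x ∨ y = z * x := by
  obtain ⟨k, hk, hkx⟩ := h.exists_move hx1 hxz hx
  have hkx' : k * x ≠ x * k := by
    intro h1
    rw [h1] at hkx
    exact h.ne (right_eq_mul.1 hkx)
  by_cases hky : k * y = y * k
  · -- y commutes with Q
    have : y = 1 ∨ y = z := h.cent y (fun q hq => by
      by_cases hqx : q * x = x * q
      · exact hc q hq hqx
      · have h1 := h.mul_comm_of hq hk hx hqx hkx'
        have h2 := hc _ (Q.mul_mem hq hk) h1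
        have h3 : k⁻¹ * y = y * k⁻¹ := by
          calc k⁻¹ * y = k⁻¹ * (y * k) * k⁻¹ := by group
            _ = y * k⁻¹ := by rw [← hky]; group
        calc q * y = (q * k) * (k⁻¹ * y) := by group
          _ = (q * k) * (y * k⁻¹) := by rw [h3]
          _ = ((q * k) * y) * k⁻¹ := by group
          _ = (y * (q * k)) * k⁻¹ := by rw [h2]
          _ = y * q := by group)
    rcases this with h1 | h1
    · exact Or.inl h1
    · exact Or.inr (Or.inl h1)
  · have hky' : k * y = z * (y * k) := (h.comm k hk y hy).resolve_left hky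
    have : x * y = 1 ∨ x * y = z := h.cent _ (fun q hq => by
      have hsub : ∀ q ∈ Q, q * x = x * q → q * (x * y) = x * y * q := by
        intro q hq hqx
        have h2 := hc q hq hqx
        calc q * (x * y) = (q * x) * y := by group
          _ = x * (q * y) := by rw [hqx]; group
          _ = x * y * q := by rw [h2]; group
      by_cases hqx : q * x = x * q
      · exact hsub q hq hqx
      · have h1 := h.mul_comm_of hq hk hx hqx hkx'
        have h2 := hsub _ (Q.mul_mem hq hk) h1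
        have hkxy : k * (x * y) = (x * y) * k := by
          calc k * (x * y) = (k * x) * y := by group
            _ = z * (x * (k * y)) := by rw [hkx]; group
            _ = z * (x * (z * (y * k))) := by rw [hky']
            _ = z * (x * z) * (y * k) := by group
            _ = z * (z * x) * (y * k) := by rw [h.cen x hx]
            _ = (z * z) * (x * y * k) := by group
            _ = (x * y) * k := by rw [h.sq, one_mul]
        have h3 : k⁻¹ * (x * y) = (x * y) * k⁻¹ := by
          calc k⁻¹ * (x * y) = k⁻¹ * ((x * y) * k) * k⁻¹ := by group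
            _ = (x * y) * k⁻¹ := by rw [← hkxy]; group
        calc q * (x * y) = (q * k) * (k⁻¹ * (x * y)) := by group
          _ = (q * k) * ((x * y) * k⁻¹) := by rw [h3]
          _ = ((q * k) * (x * y)) * k⁻¹ := by group
          _ = ((x * y) * (q * k)) * k⁻¹ := by rw [h2]
          _ = (x * y) * q := by group)
    have hy' : y = x * (x * y) := by rw [← mul_assoc, hx2, one_mul]
    rcases this with h1 | h1
    · right; right; left; rw [hy', h1, mul_one]
    · right; right; right; rw [hy', h1, h.cen x hx]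

end basics

/-! ### The symmetry lemma -/

section symm

variable {P Q : Subgroup G} {x z : G}

/-- `z` centralizes `x`, `P` is large extraspecial with centre `x`, `Q` with centre `z`, `x ∈ Q`, `z ∉ P`, and no
element of `P` conjugates `z` to `x z`.  Then `C_Q(x)` is abelian. -/
theorem comm_of_not_mem (hP : EX P x) (hQ : EX Q z) (hxQ : x ∈ Q) (hzP : z ∉ P)
    (hbad : ∀ p ∈ P, p * z ≠ x * (z * p)) {a b : G} (ha : a ∈ Q) (hb : b ∈ Q) (hax : a * x = x * a)
    (hbx : b * x = x * b) : a * b = b * a := by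
  have hxz : x * z = z * x := hQ.cen x hxQ
  have hxne : x ≠ z := by
    rintro rfl
    exact hzP hP.mem
  have hzPn : ∀ p ∈ P, z * p * z ∈ P := by
    intro p hp
    have := hP.norm z hxz.symm p hp
    rwa [inv_eq_of_mul_eq_one_right hQ.sq] at this
  -- intersection of P and Q
  have hA : ∀ y, y ∈ P → y ∈ Q → y = 1 ∨ y = x := by
    intro y hyP hyQ
    have h1 : ∀ e ∈ Q, e * x = x * e → e * y = y * e := by
      intro e he hex
      rcases hQ.comm e he y hyQ with h2 | h2
      · exact h2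
      · exfalso
        apply hzP
        have h3 := hP.norm e hex y hyP
        have h4 : z = (e * y * e⁻¹) * y⁻¹ := by rw [h2]; group
        rw [h4]
        exact P.mul_mem h3 (P.inv_mem hyP)
    rcases hQ.cent_cent hP.ne hxne hxQ hP.sq hyQ h1 with h2 | h2 | h2 | h2
    · exact Or.inl h2
    · exact absurd (h2 ▸ hyP) hzP
    · exact Or.inr h2
    · exfalso
      apply hzP
      have : z = y * x := by rw [h2, mul_assoc, hP.sq, mul_one]
      rw [this]
      exact P.mul_mem hyP hP.mem
  -- C_P(z) is centralized modulo x by C_Q(x)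
  have hF : ∀ f ∈ P, f * z = z * f → ∀ e ∈ Q, e * x = x * e → e * f = f * e ∨ e * f = x * (f * e) := by
    intro f hf hfz e he hex
    have h1 : f * e * f⁻¹ ∈ Q := hQ.norm f hfz e he
    have h2 : e * f * e⁻¹ ∈ P := hP.norm e hex f hf
    have h3 : e * f * e⁻¹ * f⁻¹ ∈ Q := by
      have : e * f * e⁻¹ * f⁻¹ = e * (f * e * f⁻¹)⁻¹ := by group
      rw [this]; exact Q.mul_mem he (Q.inv_mem h1)
    rcases hA _ (P.mul_mem h2 (P.inv_mem hf)) h3 with h4 | h4
    · left
      calc e * f = (e * f * e⁻¹ * f⁻¹) * (f * e) := by group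
        _ = f * e := by rw [h4, one_mul]
    · right
      calc e * f = (e * f * e⁻¹ * f⁻¹) * (f * e) := by group
        _ = x * (f * e) := by rw [h4]
  -- elements of P commuting with z modulo x commute with z
  have hmod : ∀ p ∈ P, (p * z = z * p ∨ p * z = x * (z * p)) → p * z = z * p := fun p hp h =>
    h.resolve_right (hbad p hp)
  -- p⁻¹ z p z commutes with z
  have hT : ∀ p ∈ P, (p⁻¹ * (z * p * z)) * z = z * (p⁻¹ * (z * p * z)) := by
    intro p hp
    have htP : p⁻¹ * (z * p * z) ∈ P := P.mul_mem (P.inv_mem hp) (hzPn p hp)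
    apply hmod _ htP
    have h1 : z * (p⁻¹ * (z * p * z)) * z = (p⁻¹ * (z * p * z))⁻¹ := by
      have hz : z⁻¹ = z := inv_eq_of_mul_eq_one_right hQ.sq
      calc z * (p⁻¹ * (z * p * z)) * z = z * p⁻¹ * z * p * (z * z) := by group
        _ = z * p⁻¹ * z * p := by rw [hQ.sq, mul_one]
        _ = (p⁻¹ * (z⁻¹ * p * z⁻¹))⁻¹ := by group
        _ = (p⁻¹ * (z * p * z))⁻¹ := by rw [hz]
    generalize hg : p⁻¹ * (z * p * z) = t at htP h1 ⊢
    -- z t z = t⁻¹ so t z = z t⁻¹... 
    have h2 : t * z = z * t⁻¹ := by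
      rw [← h1]
      calc t * z = (z * z) * t * z := by rw [hQ.sq, one_mul]
        _ = z * (z * t * z) := by group
    rcases hP.qsq t htP with h3 | h3
    · left
      rw [h2, inv_eq_of_mul_eq_one_right h3]
    · right
      have h4 : t⁻¹ = x * t := by
        rw [inv_eq_iff_mul_eq_one, ← mul_assoc, hP.cen t htP, mul_assoc, h3, hP.sq]
      rw [h2, h4, ← mul_assoc, ← mul_assoc, hxz]
  -- for a in C_Q(x): p⁻¹ a p a⁻¹ commutes with z
  have hS : ∀ a ∈ Q, a * x = x * a → ∀ p ∈ P, (p⁻¹ * (a * p * a⁻¹)) * z = z * (p⁻¹ * (a * p * a⁻¹)) := by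
    intro a ha hax p hp
    have hapP : a * p * a⁻¹ ∈ P := hP.norm a hax p hp
    have hsP : p⁻¹ * (a * p * a⁻¹) ∈ P := P.mul_mem (P.inv_mem hp) hapP
    apply hmod _ hsP
    have htP : p⁻¹ * (z * p * z) ∈ P := P.mul_mem (P.inv_mem hp) (hzPn p hp)
    have ht := hT p hp
    have h1 := hF _ htP ht a ha hax
    have haz : a * z = z * a := hQ.cen a ha
    have haz' : a⁻¹ * z = z * a⁻¹ := by
      calc a⁻¹ * z = a⁻¹ * (z * a) * a⁻¹ := by group
        _ = z * a⁻¹ := by rw [← haz]; group
    generalize hs : p⁻¹ * (a * p * a⁻¹) = s at hsP ⊢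
    generalize htt : p⁻¹ * (z * p * z) = t at htP ht h1
    have e1 : a * p * a⁻¹ = p * s := by rw [← hs]; group
    have e2 : z * p * z = p * t := by rw [← htt]; group
    -- z (p s) z = a (z p z) a⁻¹ = a p t a⁻¹ = p s (a t a⁻¹)
    have e3 : z * (p * s) * z = p * s * (a * t * a⁻¹) := by
      calc z * (p * s) * z = z * (a * p * a⁻¹) * z := by rw [e1]
        _ = (z * a) * p * (a⁻¹ * z) := by group
        _ = (a * z) * p * (z * a⁻¹) := by rw [haz, haz']
        _ = a * (z * p * z) * a⁻¹ := by group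
        _ = a * (p * t) * a⁻¹ := by rw [e2]
        _ = (a * p * a⁻¹) * (a * t * a⁻¹) := by group
        _ = p * s * (a * t * a⁻¹) := by rw [e1]
    have e4 : z * (p * s) * z = p * t * (z * s * z) := by
      calc z * (p * s) * z = (z * p) * 1 * s * z := by group
        _ = (z * p) * (z * z) * s * z := by rw [hQ.sq]
        _ = (z * p * z) * (z * s * z) := by group
        _ = p * t * (z * s * z) := by rw [e2]
    have e5 : z * s * z = t⁻¹ * s * (a * t * a⁻¹) := by
      have : p * t * (z * s * z) = p * s * (a * t * a⁻¹) := by rw [← e4, e3]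
      calc z * s * z = t⁻¹ * p⁻¹ * (p * t * (z * s * z)) := by group
        _ = t⁻¹ * p⁻¹ * (p * s * (a * t * a⁻¹)) := by rw [this]
        _ = t⁻¹ * s * (a * t * a⁻¹) := by group
    -- t⁻¹ s (a t a⁻¹) is s or x s
    have hsx := hP.cen s hsP
    have e6 : z * s * z = s ∨ z * s * z = x * s := by
      have h2 : a * t * a⁻¹ = t ∨ a * t * a⁻¹ = x * t := by
        rcases h1 with h1 | h1
        · left; rw [h1]; group
        · right; rw [h1]; group
      have h3 := hP.comm s hsP t htP
      have htx : t⁻¹ * x = x * t⁻¹ := hP.cen _ (P.inv_mem htP)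
      rcases h2 with h2 | h2 <;> rcases h3 with h3 | h3
      · left
        rw [e5, h2, mul_assoc, h3]; group
      · right
        calc z * s * z = t⁻¹ * (s * t) := by rw [e5, h2]; group
          _ = (t⁻¹ * x) * (t * s) := by rw [h3]; group
          _ = x * s := by rw [htx]; group
      · right
        calc z * s * z = t⁻¹ * (s * x) * t := by rw [e5, h2]; group
          _ = (t⁻¹ * x) * (s * t) := by rw [hsx]; group
          _ = x * s := by rw [htx, h3]; group
      · left
        calc z * s * z = t⁻¹ * (s * x) * t := by rw [e5, h2]; group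
          _ = (t⁻¹ * x) * (s * t) := by rw [hsx]; group
          _ = x * t⁻¹ * (x * (t * s)) := by rw [htx, h3]
          _ = x * (t⁻¹ * x) * (t * s) := by group
          _ = (x * x) * s := by rw [htx]; group
          _ = s := by rw [hP.sq, one_mul]
    have e7 : s * z = z * (z * s * z) := by
      calc s * z = (z * z) * s * z := by rw [hQ.sq, one_mul]
        _ = z * (z * s * z) := by group
    rcases e6 with h2 | h2
    · left; rw [e7, h2]
    · right; rw [e7, h2, ← mul_assoc, ← hxz, mul_assoc]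
  -- if a and b do not commute then z acts trivially on P
  rcases hQ.comm a ha b hb with hab | hab
  · exact hab
  exfalso
  have hact : ∀ p ∈ P, z * p * z⁻¹ = p ∨ z * p * z⁻¹ = x * p := by
    -- (ab) p' (ab)⁻¹ = (ba) p' (ba)⁻¹ modulo x
    have h1 : ∀ p ∈ P, (a * b) * p * (a * b)⁻¹ = (b * a) * p * (b * a)⁻¹ ∨
        (a * b) * p * (a * b)⁻¹ = x * ((b * a) * p * (b * a)⁻¹) := by
      intro p hp
      have ha1 := hS a ha hax p hp
      have hb1 := hS b hb hbx p hp
      have haP : p⁻¹ * (a * p * a⁻¹) ∈ P := P.mul_mem (P.inv_mem hp) (hP.norm a hax p hp)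
      have hbP : p⁻¹ * (b * p * b⁻¹) ∈ P := P.mul_mem (P.inv_mem hp) (hP.norm b hbx p hp)
      generalize hsa : p⁻¹ * (a * p * a⁻¹) = s at haP ha1
      generalize hsb : p⁻¹ * (b * p * b⁻¹) = t at hbP hb1
      have e1 : a * p * a⁻¹ = p * s := by rw [← hsa]; group
      have e2 : b * p * b⁻¹ = p * t := by rw [← hsb]; group
      have e3 : (a * b) * p * (a * b)⁻¹ = p * s * (a * t * a⁻¹) := by
        calc (a * b) * p * (a * b)⁻¹ = a * (b * p * b⁻¹) * a⁻¹ := by group
          _ = a * (p * t) * a⁻¹ := by rw [e2]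
          _ = (a * p * a⁻¹) * (a * t * a⁻¹) := by group
          _ = p * s * (a * t * a⁻¹) := by rw [e1]
      have e4 : (b * a) * p * (b * a)⁻¹ = p * t * (b * s * b⁻¹) := by
        calc (b * a) * p * (b * a)⁻¹ = b * (a * p * a⁻¹) * b⁻¹ := by group
          _ = b * (p * s) * b⁻¹ := by rw [e1]
          _ = (b * p * b⁻¹) * (b * s * b⁻¹) := by group
          _ = p * t * (b * s * b⁻¹) := by rw [e2]
      have c1 : ∃ ε, (ε = 1 ∨ ε = x) ∧ a * t * a⁻¹ = ε * t := by
        rcases hF t hbP hb1 a ha hax with h | h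
        · exact ⟨1, Or.inl rfl, by rw [h]; group⟩
        · exact ⟨x, Or.inr rfl, by rw [h]; group⟩
      have c2 : ∃ ε, (ε = 1 ∨ ε = x) ∧ b * s * b⁻¹ = ε * s := by
        rcases hF s haP ha1 b hb hbx with h | h
        · exact ⟨1, Or.inl rfl, by rw [h]; group⟩
        · exact ⟨x, Or.inr rfl, by rw [h]; group⟩
      have c3 : ∃ ε, (ε = 1 ∨ ε = x) ∧ s * t = ε * (t * s) := by
        rcases hP.comm s haP t hbP with h | h
        · exact ⟨1, Or.inl rfl, by rw [h, one_mul]⟩
        · exact ⟨x, Or.inr rfl, h⟩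
      obtain ⟨ε1, h1, d1⟩ := c1
      obtain ⟨ε2, h2, d2⟩ := c2
      obtain ⟨ε3, h3, d3⟩ := c3
      have hcε : ∀ ε, (ε = 1 ∨ ε = x) → ∀ q ∈ P, q * ε = ε * q := by
        rintro ε (rfl | rfl) q hq
        · simp
        · exact hP.cen q hq
      have hsq : ∀ ε, (ε = 1 ∨ ε = x) → ε * ε = 1 := by
        rintro ε (rfl | rfl)
        · simp
        · exact hP.sq
      have k1 : (a * b) * p * (a * b)⁻¹ = ε1 * ε3 * (p * t * s) := by
        rw [e3, d1]
        calc p * s * (ε1 * t) = p * (s * ε1) * t := by group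
          _ = (p * ε1) * (s * t) := by rw [hcε ε1 h1 s haP]; group
          _ = ε1 * p * (ε3 * (t * s)) := by rw [hcε ε1 h1 p hp, d3]
          _ = ε1 * (p * ε3) * (t * s) := by group
          _ = ε1 * ε3 * (p * t * s) := by rw [hcε ε3 h3 p hp]; group
      have k2 : (b * a) * p * (b * a)⁻¹ = ε2 * (p * t * s) := by
        rw [e4, d2]
        calc p * t * (ε2 * s) = p * (t * ε2) * s := by group
          _ = (p * ε2) * (t * s) := by rw [hcε ε2 h2 t hbP]; group
          _ = ε2 * (p * t * s) := by rw [hcε ε2 h2 p hp]; group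
      have k3 : p * t * s = ε2 * ((b * a) * p * (b * a)⁻¹) := by
        rw [k2, ← mul_assoc, hsq ε2 h2, one_mul]
      rw [k1, k3]
      rcases h1 with rfl | rfl <;> rcases h2 with rfl | rfl <;> rcases h3 with rfl | rfl
      · left; simp
      · right; simp
      · right; simp
      · left; rw [one_mul, ← mul_assoc, hP.sq, one_mul]
      · right; simp
      · left; rw [hP.sq]; simp
      · left; rw [mul_one, ← mul_assoc, hP.sq, one_mul]
      · right; rw [hP.sq]; simp
    intro p hp
    -- apply with (ba)⁻¹ p (ba)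
    have hba : (b * a)⁻¹ * x = x * (b * a)⁻¹ := by
      have : (b * a) * x = x * (b * a) := by
        rw [mul_assoc, hax, ← mul_assoc, hbx, mul_assoc]
      calc (b * a)⁻¹ * x = (b * a)⁻¹ * (x * (b * a)) * (b * a)⁻¹ := by group
        _ = x * (b * a)⁻¹ := by rw [← this]; group
    have hp' := hP.norm _ hba p hp
    have h2 := h1 _ hp'
    have e1 : (a * b) * ((b * a)⁻¹ * p * ((b * a)⁻¹)⁻¹) * (a * b)⁻¹ = z * p * z⁻¹ := by
      rw [hab]; group
    have e2 : (b * a) * ((b * a)⁻¹ * p * ((b * a)⁻¹)⁻¹) * (b * a)⁻¹ = p := by group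
    rw [e1, e2] at h2
    exact h2
  have hcz : ∀ p ∈ P, p * z = z * p := by
    intro p hp
    apply hmod p hp
    rcases hact p hp with h | h
    · left
      rw [mul_inv_eq_iff_eq_mul] at h
      exact h.symm
    · right
      rw [mul_inv_eq_iff_eq_mul] at h
      rw [h, ← mul_assoc, ← mul_assoc, hP.sq, one_mul]
  rcases hP.cent z hcz with h | h
  · exact hQ.ne h
  · exact hxne h.symm

/-- in the small case every element centralizing `z` has order dividing eight -/
theorem small_case (hQ : EX Q z) (hx2 : x * x = 1) (hx1 : x ≠ 1) (hxz : x ≠ z) (hxQ : x ∈ Q)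
    (hab : ∀ a ∈ Q, ∀ b ∈ Q, a * x = x * a → b * x = x * b → a * b = b * a) (h : G) (hh : h * z = z * h) :
    h ^ 8 = 1 := by
  have hxcz : x * z = z * x := hQ.cen x hxQ
  have hE : ∀ a ∈ Q, a * x = x * a → a = 1 ∨ a = z ∨ a = x ∨ a = z * x := fun a ha hax =>
    hQ.cent_cent hx1 hxz hxQ hx2 ha (fun e he hex => hab e he a ha hex hax)
  -- an element c with c² = z moving x
  obtain ⟨c, hc, hcx, hcc⟩ : ∃ c ∈ Q, c * x = z * (x * c) ∧ c * c = z := by
    obtain ⟨k, hk, hkx⟩ := hQ.exists_move hx1 hxz hxQ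
    rcases hQ.qsq k hk with h1 | h1
    · refine ⟨x * k, Q.mul_mem hxQ hk, ?_, ?_⟩
      · calc x * k * x = x * (k * x) := by group
          _ = (x * z) * (x * k) := by rw [hkx]; group
          _ = z * (x * (x * k)) := by rw [hxcz]; group
      · calc x * k * (x * k) = x * (k * x) * k := by group
          _ = (x * z) * x * (k * k) := by rw [hkx]; group
          _ = z * (x * x) * (k * k) := by rw [hxcz]; group
          _ = z := by rw [hx2, h1, mul_one, mul_one]
    · exact ⟨k, hk, hkx, h1⟩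
  have hcz : c * z = z * c := hQ.cen c hc
  have hcxn : c * x ≠ x * c := by
    intro h1
    rw [h1] at hcx
    exact hQ.ne (right_eq_mul.1 hcx)
  have hz2 := hQ.sq
  -- all elements of Q
  have hall : ∀ q ∈ Q, (q = 1 ∨ q = z ∨ q = x ∨ q = z * x) ∨ (q = c ∨ q = z * c ∨ q = x * c ∨ q = z * x * c) := by
    intro q hq
    by_cases hqx : q * x = x * q
    · left; exact hE q hq hqx
    · right
      have h1 : q * c ∈ Q := Q.mul_mem hq hc
      have h2 := hQ.mul_comm_of hq hc hxQ hqx hcxn
      have h3 := hE _ h1 h2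
      have hq' : q = (q * c) * (z * c) := by
        calc q = q * (z * z) := by rw [hz2, mul_one]
          _ = q * (c * c) * z := by rw [hcc]; group
          _ = (q * c) * (c * z) := by group
          _ = (q * c) * (z * c) := by rw [hcz]
      rcases h3 with h3 | h3 | h3 | h3
      · right; left; rw [hq', h3, one_mul]
      · left; rw [hq', h3, ← mul_assoc, hz2, one_mul]
      · right; right; right
        rw [hq', h3, ← mul_assoc, hxcz]
      · right; right; left
        calc q = (q * c) * (z * c) := hq'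
          _ = z * (x * z) * c := by rw [h3]; group
          _ = (z * z) * x * c := by rw [hxcz]; group
          _ = x * c := by rw [hz2, one_mul]
  have hsq1 : ∀ q ∈ Q, q * q = z → q = c ∨ q = z * c := by
    intro q hq hqq
    have k1 : x * c * (x * c) = 1 := by
      calc x * c * (x * c) = x * (c * x) * c := by group
        _ = (x * z) * x * (c * c) := by rw [hcx]; group
        _ = z * (x * x) * (c * c) := by rw [hxcz]; group
        _ = 1 := by rw [hx2, hcc, mul_one, hz2]
    have hne : (1 : G) ≠ z := fun h => hQ.ne h.symm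
    rcases hall q hq with (rfl | rfl | rfl | rfl) | (rfl | rfl | rfl | rfl)
    · exact absurd (by rw [← hqq, one_mul]) hne
    · exact absurd (by rw [← hz2, hqq]) hne
    · exact absurd (by rw [← hqq, hx2]) hne
    · exfalso; apply hne
      rw [← hqq]
      calc (1 : G) = (z * z) * (x * x) := by rw [hz2, hx2, one_mul]
        _ = z * (z * x) * x := by group
        _ = z * (x * z) * x := by rw [hxcz]
        _ = z * x * (z * x) := by group
    · exact Or.inl rfl
    · exact Or.inr rfl
    · exact absurd (by rw [← hqq, k1]) hne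
    · exfalso; apply hne
      rw [← hqq]
      have hxc : (x * c) * z = z * (x * c) := hQ.cen _ (Q.mul_mem hxQ hc)
      calc (1 : G) = (z * z) * (x * c * (x * c)) := by rw [hz2, k1, one_mul]
        _ = z * (z * (x * c)) * (x * c) := by group
        _ = z * ((x * c) * z) * (x * c) := by rw [hxc]
        _ = z * x * c * (z * x * c) := by group
  have hsq2 : ∀ q ∈ Q, q * q = 1 → q ≠ 1 → q ≠ z → (q = x ∨ q = z * x) ∨ (q = x * c ∨ q = z * (x * c)) := by
    intro q hq hqq hq1 hqz
    have hne : (1 : G) ≠ z := fun h => hQ.ne h.symm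
    rcases hall q hq with (rfl | rfl | rfl | rfl) | (rfl | rfl | rfl | rfl)
    · exact absurd rfl hq1
    · exact absurd rfl hqz
    · left; left; rfl
    · left; right; rfl
    · exact absurd (by rw [← hqq, hcc]) hne
    · exfalso; apply hne
      rw [← hqq]
      calc z * c * (z * c) = z * (c * z) * c := by group
        _ = (z * z) * (c * c) := by rw [hcz]; group
        _ = z := by rw [hz2, hcc, one_mul]
    · right; left; rfl
    · right; right; rw [mul_assoc]
  have hcon : ∀ u v : G, h * (u * v) * h⁻¹ = (h * u * h⁻¹) * (h * v * h⁻¹) := fun u v => by group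
  have hhz : h * z * h⁻¹ = z := by rw [hh]; group
  have hhc : h * c * h⁻¹ = c ∨ h * c * h⁻¹ = z * c := by
    apply hsq1 _ (hQ.norm h hh c hc)
    rw [← hcon, hcc, hhz]
  have hhx : (h * x * h⁻¹ = x ∨ h * x * h⁻¹ = z * x) ∨ (h * x * h⁻¹ = x * c ∨ h * x * h⁻¹ = z * (x * c)) := by
    apply hsq2 _ (hQ.norm h hh x hxQ)
    · rw [← hcon, hx2]; group
    · intro h1
      apply hx1
      calc x = h⁻¹ * (h * x * h⁻¹) * h := by group
        _ = 1 := by rw [h1]; group
    · intro h1
      apply hxz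
      calc x = h⁻¹ * (h * x * h⁻¹) * h := by group
        _ = h⁻¹ * (z * h) := by rw [h1]; group
        _ = h⁻¹ * (h * z) := by rw [hh]
        _ = z := by group
  have hccx : c * (z * c) = 1 := by
    calc c * (z * c) = (c * z) * c := by group
      _ = z * (c * c) := by rw [hcz]; group
      _ = 1 := by rw [hcc, hz2]
  -- h² fixes c
  have h2c : h * (h * c * h⁻¹) * h⁻¹ = c := by
    rcases hhc with h1 | h1
    · rw [h1, h1]
    · rw [h1, hcon, hhz, h1, ← mul_assoc, hz2, one_mul]
  have h2x : h * (h * x * h⁻¹) * h⁻¹ = x ∨ h * (h * x * h⁻¹) * h⁻¹ = z * x := by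
    rcases hhx with (h1 | h1) | (h1 | h1)
    · left; rw [h1, h1]
    · left; rw [h1, hcon, hhz, h1, ← mul_assoc, hz2, one_mul]
    · rcases hhc with h3 | h3
      · right
        rw [h1, hcon, h1, h3, mul_assoc, hcc, hxcz]
      · left
        rw [h1, hcon, h1, h3]
        calc x * c * (z * c) = x * (c * (z * c)) := by group
          _ = x := by rw [hccx, mul_one]
    · rcases hhc with h3 | h3
      · right
        rw [h1, hcon, hhz, hcon, h1, h3]
        calc z * (z * (x * c) * c) = (z * z) * (x * (c * c)) := by group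
          _ = z * x := by rw [hz2, hcc, one_mul, hxcz]
      · left
        rw [h1, hcon, hhz, hcon, h1, h3]
        calc z * (z * (x * c) * (z * c)) = (z * z) * x * (c * (z * c)) := by group
          _ = x := by rw [hz2, hccx, one_mul, mul_one]
  have e2 : ∀ y : G, h ^ 2 * y * (h ^ 2)⁻¹ = h * (h * y * h⁻¹) * h⁻¹ := fun y => by rw [pow_two]; group
  have t1 : h ^ 2 * c * (h ^ 2)⁻¹ = c := by rw [e2, h2c]
  have h4c : h ^ 4 * c * (h ^ 4)⁻¹ = c := by
    calc h ^ 4 * c * (h ^ 4)⁻¹ = h ^ 2 * (h ^ 2 * c * (h ^ 2)⁻¹) * (h ^ 2)⁻¹ := by group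
      _ = c := by rw [t1, t1]
  have h2z : h ^ 2 * z * (h ^ 2)⁻¹ = z := by rw [e2, hhz, hhz]
  have h4x : h ^ 4 * x * (h ^ 4)⁻¹ = x := by
    have : h ^ 4 * x * (h ^ 4)⁻¹ = h ^ 2 * (h ^ 2 * x * (h ^ 2)⁻¹) * (h ^ 2)⁻¹ := by group
    rw [this]
    rcases h2x with h1 | h1
    · have t2 : h ^ 2 * x * (h ^ 2)⁻¹ = x := by rw [e2, h1]
      rw [t2, t2]
    · rw [e2 x, h1]
      have : h ^ 2 * (z * x) * (h ^ 2)⁻¹ = (h ^ 2 * z * (h ^ 2)⁻¹) * (h ^ 2 * x * (h ^ 2)⁻¹) := by group
      rw [this, h2z, e2 x, h1, ← mul_assoc, hz2, one_mul]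
  have h4z : h ^ 4 * z = z * h ^ 4 := by
    have : Commute h z := hh
    exact (this.pow_left 4).eq
  have k1 : c * h ^ 4 = h ^ 4 * c := by
    rw [mul_inv_eq_iff_eq_mul] at h4c; exact h4c.symm
  have k2 : x * h ^ 4 = h ^ 4 * x := by
    rw [mul_inv_eq_iff_eq_mul] at h4x; exact h4x.symm
  have hfin : h ^ 4 = 1 ∨ h ^ 4 = z := by
    apply hQ.cent
    have c1 : Commute c (h ^ 4) := k1
    have c2 : Commute x (h ^ 4) := k2
    have c3 : Commute z (h ^ 4) := h4z.symm
    intro q hq
    rcases hall q hq with (rfl | rfl | rfl | rfl) | (rfl | rfl | rfl | rfl)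
    · simp
    · exact c3.eq
    · exact c2.eq
    · exact (c3.mul_left c2).eq
    · exact c1.eq
    · exact (c3.mul_left c1).eq
    · exact (c2.mul_left c1).eq
    · exact ((c3.mul_left c2).mul_left c1).eq
  have : h ^ 8 = h ^ 4 * h ^ 4 := by group
  rw [this]
  rcases hfin with h1 | h1
  · rw [h1, one_mul]
  · rw [h1, hz2]

end symm

/-! ### The setting of the statements -/

section setting

variable [Finite G] {Q : G → Subgroup G}
  (hQ : ∀ x : G, Q x = (Cfsg.pCore 2 ↥(Subgroup.centralizer ({x} : Set G))).map (Subgroup.centralizer ({x} : Set G)).subtype)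

include hQ

theorem mem_Q_iff (x y : G) : y ∈ Q x ↔ ∃ N : Subgroup G, (∀ n ∈ N, n * x = x * n) ∧
    (∀ c : G, c * x = x * c → ∀ n ∈ N, c * n * c⁻¹ ∈ N) ∧ IsPGroup 2 N ∧ y ∈ N := by
  have : Fact (Nat.Prime 2) := ⟨Nat.prime_two⟩
  constructor
  · intro hy
    refine ⟨Q x, ?_, ?_, ?_, hy⟩
    · intro n hn
      rw [hQ] at hn
      obtain ⟨m, -, rfl⟩ := hn
      exact Subgroup.mem_centralizer_singleton_iff.1 m.2
    · intro c hc n hn
      rw [hQ] at hn ⊢
      obtain ⟨m, hm, rfl⟩ := hn
      have hN : (Cfsg.pCore 2 ↥(Subgroup.centralizer ({x} : Set G))).Normal := pCore_normal'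
      refine ⟨⟨c, Subgroup.mem_centralizer_singleton_iff.2 hc⟩ * m * ⟨c, Subgroup.mem_centralizer_singleton_iff.2 hc⟩⁻¹,
        hN.conj_mem _ hm _, rfl⟩
    · rw [hQ]
      exact isPGroup_pCore.map _
  · rintro ⟨N, h1, h2, h3, h4⟩
    rw [hQ]
    have hle : N ≤ Subgroup.centralizer ({x} : Set G) := fun n hn =>
      Subgroup.mem_centralizer_singleton_iff.2 (h1 n hn)
    refine ⟨⟨y, hle h4⟩, ?_, rfl⟩
    have hmem : N.subgroupOf (Subgroup.centralizer ({x} : Set G)) ∈
        {N : Subgroup ↥(Subgroup.centralizer ({x} : Set G)) | N.Normal ∧ IsPGroup 2 N} := by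
      refine ⟨⟨?_⟩, ?_⟩
      · intro n hn c
        rw [Subgroup.mem_subgroupOf] at hn ⊢
        exact h2 c (Subgroup.mem_centralizer_singleton_iff.1 c.2) n hn
      · exact h3.comap_subtype
    exact (le_sSup hmem : _ ≤ Cfsg.pCore 2 _) (Subgroup.mem_subgroupOf.2 h4)

theorem Q_conj (g x y : G) : y ∈ Q (g * x * g⁻¹) ↔ g⁻¹ * y * g ∈ Q x := by
  -- one direction suffices
  have key : ∀ g x y : G, y ∈ Q x → g * y * g⁻¹ ∈ Q (g * x * g⁻¹) := by
    intro g x y hy
    obtain ⟨N, h1, h2, h3, h4⟩ := (mem_Q_iff hQ x y).1 hy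
    rw [mem_Q_iff hQ]
    refine ⟨N.map (MulAut.conj g).toMonoidHom, ?_, ?_, h3.map _, ⟨y, h4, by simp⟩⟩
    · rintro _ ⟨n, hn, rfl⟩
      have := h1 n hn
      change g * n * g⁻¹ * (g * x * g⁻¹) = g * x * g⁻¹ * (g * n * g⁻¹)
      calc g * n * g⁻¹ * (g * x * g⁻¹) = g * (n * x) * g⁻¹ := by group
        _ = g * (x * n) * g⁻¹ := by rw [this]
        _ = g * x * g⁻¹ * (g * n * g⁻¹) := by group
    · rintro c hc _ ⟨n, hn, rfl⟩
      refine ⟨(g⁻¹ * c * g) * n * (g⁻¹ * c * g)⁻¹, h2 _ ?_ n hn, ?_⟩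
      · calc g⁻¹ * c * g * x = g⁻¹ * (c * (g * x * g⁻¹)) * g := by group
          _ = g⁻¹ * ((g * x * g⁻¹) * c) * g := by rw [hc]
          _ = x * (g⁻¹ * c * g) := by group
      · change g * ((g⁻¹ * c * g) * n * (g⁻¹ * c * g)⁻¹) * g⁻¹ = c * (g * n * g⁻¹) * c⁻¹
        group
  constructor
  · intro h
    have := key g⁻¹ _ _ h
    have e1 : g⁻¹ * (g * x * g⁻¹) * g⁻¹⁻¹ = x := by group
    have e2 : g⁻¹ * y * g⁻¹⁻¹ = g⁻¹ * y * g := by group
    rwa [e1, e2] at this
  · intro h
    have := key g _ _ h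
    have e2 : g * (g⁻¹ * y * g) * g⁻¹ = y := by group
    rwa [e2] at this

theorem mem_Q_of_pow (x : G) (h8 : ∀ h : G, h * x = x * h → h ^ 8 = 1) (y : G) (hy : y * x = x * y) : y ∈ Q x := by
  rw [mem_Q_iff hQ]
  refine ⟨Subgroup.centralizer {x}, fun n hn => Subgroup.mem_centralizer_singleton_iff.1 hn, ?_, ?_,
    Subgroup.mem_centralizer_singleton_iff.2 hy⟩
  · intro c hc n hn
    rw [← Subgroup.mem_centralizer_singleton_iff] at hc
    exact Subgroup.mul_mem _ (Subgroup.mul_mem _ hc hn) (Subgroup.inv_mem _ hc)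
  · intro n
    refine ⟨3, ?_⟩
    apply Subtype.ext
    have := h8 n (Subgroup.mem_centralizer_singleton_iff.1 n.2)
    simpa using this

variable {z : G} (hz : orderOf z = 2) (hE : Cfsg.IsExtraspecial 2 ↥(Q z))
  (hC : Subgroup.centralizer ((Q z : Subgroup G) : Set G) ≤ Q z)

include hz hE hC

theorem EX_z : EX (Q z) z := by
  obtain ⟨z', hz'⟩ := exists_exData hE
  have hzsq : z * z = 1 := by
    have := pow_orderOf_eq_one z
    rwa [hz, pow_two] at this
  have hzne : z ≠ 1 := by
    rintro rfl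
    rw [orderOf_one] at hz
    omega
  have hzmem : z ∈ Q z := by
    rw [mem_Q_iff hQ]
    refine ⟨Subgroup.zpowers z, ?_, ?_, ?_, Subgroup.mem_zpowers z⟩
    · intro n hn
      rcases (mem_zpowers_of_sq hzsq).1 hn with rfl | rfl <;> simp
    · intro c hc n hn
      rcases (mem_zpowers_of_sq hzsq).1 hn with rfl | rfl
      · simp
      · rw [hc]; simp
    · intro n
      refine ⟨1, ?_⟩
      rcases (mem_zpowers_of_sq hzsq).1 n.2 with h | h
      · apply Subtype.ext; simp [h]
      · apply Subtype.ext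
        simp [h, pow_two, hzsq]
  have hcomm : ∀ q ∈ Q z, q * z = z * q := by
    intro q hq
    obtain ⟨N, h1, -, -, h4⟩ := (mem_Q_iff hQ z q).1 hq
    exact h1 q h4
  have hzz' : z = z' := by
    rcases hz'.center z hzmem (fun x hx => (hcomm x hx).symm) with h | h
    · exact absurd h hzne
    · exact h
  subst hzz'
  refine ⟨hz'.sq, hz'.ne, hz'.mem, hz'.cen, hz'.comm, hz'.qsq, ?_, ?_⟩
  · intro x hx
    have hxm : x ∈ Subgroup.centralizer ((Q z : Subgroup G) : Set G) := by
      rw [Subgroup.mem_centralizer_iff]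
      exact hx
    exact hz'.center x (hC hxm) (fun y hy => (hx y hy).symm)
  · intro x hx q hq
    obtain ⟨N, h1, h2, h3, h4⟩ := (mem_Q_iff hQ z q).1 hq
    exact (mem_Q_iff hQ z _).2 ⟨N, h1, h2, h3, h2 x hx q h4⟩

theorem EX_conj (g : G) : EX (Q (g * z * g⁻¹)) (g * z * g⁻¹) :=
  (EX_z hQ hz hE hC).conj g (fun y => Q_conj hQ g z y)

/-- `S5595` -/
theorem symmetric (g : G) (hx : g * z * g⁻¹ ∈ Q z) : z ∈ Q (g * z * g⁻¹) := by
  have hEz := EX_z hQ hz hE hC
  have hEx := EX_conj hQ hz hE hC g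
  have hcore : ∀ y, (∀ h : G, h * z = z * h → h ^ 8 = 1) → y * (g * z * g⁻¹) = (g * z * g⁻¹) * y →
      y ∈ Q (g * z * g⁻¹) := by
    intro y h8 hy
    apply mem_Q_of_pow hQ _ _ y hy
    intro h hh
    have h1 : (g⁻¹ * h * g) * z = z * (g⁻¹ * h * g) := by
      calc (g⁻¹ * h * g) * z = g⁻¹ * (h * (g * z * g⁻¹)) * g := by group
        _ = g⁻¹ * ((g * z * g⁻¹) * h) * g := by rw [hh]
        _ = z * (g⁻¹ * h * g) := by group
    have h2 := h8 _ h1
    have h3 : (g⁻¹ * h * g) ^ 8 = g⁻¹ * h ^ 8 * g := by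
      have := conj_pow (a := g⁻¹) (b := h) (i := 8)
      simpa using this
    rw [h3] at h2
    calc h ^ 8 = g * (g⁻¹ * h ^ 8 * g) * g⁻¹ := by group
      _ = 1 := by rw [h2]; group
  have hconj : ∀ k : G, k * (g * z * g⁻¹) * k⁻¹ = z → k * z * k⁻¹ = g * z * g⁻¹ → z ∈ Q (g * z * g⁻¹) := by
    intro k h1 h2
    -- x ∈ Q z = Q (k x k⁻¹)
    have h3 : g * z * g⁻¹ ∈ Q (k * (g * z * g⁻¹) * k⁻¹) := by rw [h1]; exact hx
    rw [Q_conj hQ k] at h3
    rw [← h2] at h3
    have h4 : k⁻¹ * (k * z * k⁻¹) * k = z := by group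
    rw [h4] at h3
    rw [← h2]; exact h3
  set x := g * z * g⁻¹ with hxdef
  have hxz : x * z = z * x := hEz.cen x hx
  by_contra hcon
  have hne : x ≠ z := by
    intro h
    rw [h] at hcon
    exact hcon hEz.mem
  by_cases hbad : ∃ p ∈ Q x, p * z = x * (z * p)
  · obtain ⟨p, hp, hpz⟩ := hbad
    obtain ⟨q, hq, hqx⟩ := hEz.exists_move hEx.ne hne hx
    apply hcon
    have hqz : q * z = z * q := hEz.cen q hq
    have hpx : p * x = x * p := hEx.cen p hp
    have cq1 : q * x * q⁻¹ = z * x := by rw [hqx]; group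
    have cq2 : q * z * q⁻¹ = z := by rw [hqz]; group
    have cp1 : p * z * p⁻¹ = x * z := by rw [hpz]; group
    have cp2 : p * x * p⁻¹ = x := by rw [hpx]; group
    apply hconj (q * p * q)
    · calc q * p * q * x * (q * p * q)⁻¹ = q * (p * (q * x * q⁻¹) * p⁻¹) * q⁻¹ := by group
        _ = q * ((p * z * p⁻¹) * (p * x * p⁻¹)) * q⁻¹ := by rw [cq1]; group
        _ = q * (x * z * x) * q⁻¹ := by rw [cp1, cp2]
        _ = q * (z * (x * x)) * q⁻¹ := by rw [hxz]; group
        _ = z := by rw [hEx.sq, mul_one, cq2]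
    · calc q * p * q * z * (q * p * q)⁻¹ = q * (p * (q * z * q⁻¹) * p⁻¹) * q⁻¹ := by group
        _ = q * (x * z) * q⁻¹ := by rw [cq2, cp1]
        _ = (q * x * q⁻¹) * (q * z * q⁻¹) := by group
        _ = z * (x * z) := by rw [cq1, cq2]; group
        _ = (z * z) * x := by rw [hxz]; group
        _ = x := by rw [hEz.sq, one_mul]
  · push Not at hbad
    apply hcon
    apply hcore z _ hxz.symm
    intro h hh
    exact small_case hEz hEx.sq hEx.ne hne hx
      (fun a ha b hb hax hbx => comm_of_not_mem hEx hEz hx hcon hbad ha hb hax hbx) h hh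

end setting

end Cfsg.Agent.Lib.LargeExtraSymm
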