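import Mathlib
import Cfsg.Prelude.Def_LocalStructure
import Cfsg.Agent.Lib.CoprimeGen
import Cfsg.Agent.Lib.PGroupRank

/-!
Coprime action of an elementary abelian group: hyperplanes with nontrivial fixed points.
-/

set_option autoImplicit false

namespace Cfsg.Agent.Lib.LeadLarge

open Subgroup Cfsg Cfsg.Agent.Lib.PGroupRank Cfsg.Agent.Lib.SubgroupTools
open scoped commutatorElement

variable {G : Type*} [Group G] [Finite G]

/-- If the elementary abelian `p`-group `U` of order at least `p ^ 2` acts coprimely on `R ≠ 1`, then some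
hyperplane of `U` has a nontrivial fixed point. -/
theorem exists_coatom {p : ℕ} [hp : Fact p.Prime] {U R : Subgroup G} (hU : IsElementaryAbelian p U)
    (hU1 : U ≠ ⊥) (hUR : U ≤ normalizer (R : Set G)) (hcop : (Nat.card R).Coprime p) (hR : R ≠ ⊥) :
    ∃ U₀ : Subgroup G, U₀ ≤ U ∧ IsCoatom (U₀.subgroupOf U) ∧ R ⊓ centralizer (U₀ : Set G) ≠ ⊥ := by
  have hUc := (isElementaryAbelian_iff.mp hU).1
  obtain ⟨W, -, hW⟩ := Finite.exists_le_maximal (a := (⊥ : Subgroup G))
    (p := fun W : Subgroup G => W ≤ U ∧ R ⊓ centralizer (W : Set G) ≠ ⊥) ⟨bot_le, by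
      have : centralizer ((⊥ : Subgroup G) : Set G) = ⊤ := by
        rw [eq_top_iff]
        intro x _
        rw [mem_centralizer_iff]
        intro y hy
        rw [mem_bot.mp hy]; simp
      rwa [this, inf_top_eq]⟩
  have hWU : W ≤ U := hW.prop.1
  -- key
  have key : ∀ a ∈ U, a ∉ W → U ≤ zpowers a ⊔ W := by
    intro a ha haW b hb
    by_contra hbn
    have hbW : b ∉ W := fun h => hbn (mem_sup_right h)
    -- the noncyclic group A
    set A : Subgroup G := zpowers a ⊔ zpowers b with hA
    have hAU : A ≤ U := sup_le (by rwa [zpowers_le]) (by rwa [zpowers_le])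
    have hAe : IsElementaryAbelian p A := IsElementaryAbelian.mono hU hAU
    have hAc : IsMulCommutative A := hAe.1
    have hAnc : ¬ IsCyclic A := by
      intro hcyc
      have hexp : Nat.card A ∣ p := by
        rw [← IsCyclic.exponent_eq_card]
        apply Monoid.exponent_dvd_of_forall_pow_eq_one
        rintro ⟨x, hx⟩
        ext
        exact hAe.2 x hx
      have hlt : zpowers a < A := by
        refine lt_of_le_of_ne le_sup_left ?_
        intro heq
        apply hbn
        apply mem_sup_left
        rw [heq]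
        exact mem_sup_right (mem_zpowers b)
      have h1 : Nat.card (zpowers a) ∣ Nat.card A := card_dvd_of_le hlt.le
      have ha1 : a ≠ 1 := by rintro rfl; exact haW (one_mem _)
      rcases (Nat.dvd_prime hp.out).mp (h1.trans hexp) with h2 | h2
      · rw [Nat.card_zpowers, orderOf_eq_one_iff] at h2
        exact ha1 h2
      · apply hlt.ne
        apply Subgroup.eq_of_le_of_card_ge hlt.le
        rw [h2]
        exact Nat.le_of_dvd hp.out.pos hexp
    set D : Subgroup G := R ⊓ centralizer (W : Set G) with hD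
    have hAD : A ≤ normalizer (D : Set G) := by
      have hk : ∀ a ∈ U, ∀ x ∈ D, a * x * a⁻¹ ∈ D := by
        intro a ha x hx
        refine mem_inf.mpr ⟨(mem_normalizer_iff.mp (hUR ha) x).mp hx.1, mem_centralizer_iff.mpr fun w hw => ?_⟩
        have h1 := mem_centralizer_iff.mp hx.2 w hw
        have h2 := hUc a ha w (hWU hw)
        have h3 := hUc a⁻¹ (inv_mem ha) w (hWU hw)
        calc w * (a * x * a⁻¹) = (w * a) * x * a⁻¹ := by group
          _ = a * (w * x) * a⁻¹ := by rw [← h2]; group
          _ = a * x * (w * a⁻¹) := by rw [h1]; group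
          _ = a * x * a⁻¹ * w := by rw [← h3]; group
      intro a ha
      rw [mem_normalizer_iff]
      intro x
      refine ⟨hk a (hAU ha) x, fun hx => ?_⟩
      have := hk a⁻¹ (inv_mem (hAU ha)) _ hx
      have h2 : a⁻¹ * (a * x * a⁻¹) * a⁻¹⁻¹ = x := by group
      rwa [h2] at this
    have hcopA : (Nat.card A).Coprime (Nat.card D) := by
      obtain ⟨n, hn⟩ := IsPGroup.iff_card.mp (IsElementaryAbelian.isPGroup hAe)
      rw [hn]
      apply Nat.Coprime.pow_left
      exact (Nat.Coprime.coprime_dvd_left (card_dvd_of_le inf_le_left) hcop).symm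
    have hgen := CoprimeGen.iSup_centralizer_eq hAc hAnc hAD hcopA
    have hex : ∃ c ∈ A, c ≠ 1 ∧ D ⊓ centralizer {c} ≠ ⊥ := by
      by_contra hcon
      push Not at hcon
      apply hW.prop.2
      rw [← hD, ← hgen, eq_bot_iff]
      exact iSup₂_le fun c hc => (hcon c hc.1 hc.2).le
    obtain ⟨c, hcA, hc1, hcD⟩ := hex
    have hcW : c ∉ W := by
      intro hcW
      have hcomm : ∀ x ∈ zpowers b, ∀ y ∈ zpowers a, x * y = y * x := fun x hx y hy =>
        hUc x ((zpowers_le.mpr hb) hx) y ((zpowers_le.mpr ha) hy)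
      have hn : zpowers b ≤ normalizer ((zpowers a : Subgroup G) : Set G) := by
        refine le_trans ?_ (centralizer_le_normalizer _)
        intro x hx
        rw [mem_centralizer_iff]
        intro y hy
        exact (hcomm x hx y hy).symm
      obtain ⟨y, hy, x, hx, hyx⟩ := (mem_sup_of_le_normalizer hn).mp hcA
      -- `x = y⁻¹ c ∈ ⟨a⟩ W`
      have hx2 : x ∈ zpowers a ⊔ W := by
        have : x = y⁻¹ * c := by rw [← hyx]; group
        rw [this]
        exact mul_mem (mem_sup_left (inv_mem hy)) (mem_sup_right hcW)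
      have hx1 : x = 1 := by
        by_contra hx1
        have h1 : Nat.card (zpowers b) ∣ p := by
          rw [Nat.card_zpowers]
          exact orderOf_dvd_of_pow_eq_one (hU.2 b hb)
        have h2 : Nat.card (zpowers b) = p := by
          rcases (Nat.dvd_prime hp.out).mp h1 with h3 | h3
          · exfalso
            rw [card_eq_one] at h3
            rw [h3, mem_bot] at hx
            exact hx1 hx
          · exact h3
        have h3 := eq_zpowers_of_card_eq_prime h2 hx hx1
        apply hbn
        have h4 : zpowers x ≤ zpowers a ⊔ W := by rwa [zpowers_le]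
        rw [h3, zpowers_le] at h4
        exact h4
      rw [hx1, mul_one] at hyx
      rw [hyx] at hy
      have h1 : Nat.card (zpowers a) ∣ p := by
        rw [Nat.card_zpowers]
        exact orderOf_dvd_of_pow_eq_one (hU.2 a ha)
      have h2 : Nat.card (zpowers a) = p := by
        rcases (Nat.dvd_prime hp.out).mp h1 with h3 | h3
        · exfalso
          rw [card_eq_one] at h3
          rw [h3, mem_bot] at hy
          exact hc1 hy
        · exact h3
      have h3 := eq_zpowers_of_card_eq_prime h2 hy hc1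
      apply haW
      have h4 : zpowers c ≤ W := by rwa [zpowers_le]
      rw [h3, zpowers_le] at h4
      exact h4
    have hle := hW.le_of_ge (y := W ⊔ zpowers c) ⟨sup_le hWU (by rw [zpowers_le]; exact hAU hcA), by
      intro hbot
      apply hcD
      rw [eq_bot_iff, ← hbot]
      refine le_inf (inf_le_left.trans inf_le_left) ?_
      rw [le_centralizer_iff]
      apply sup_le
      · rw [le_centralizer_iff]
        exact inf_le_left.trans inf_le_right
      · rw [zpowers_le, mem_centralizer_iff]
        intro z hz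
        exact (mem_centralizer_singleton_iff.mp hz.2)⟩ le_sup_left
    exact hcW (hle (mem_sup_right (mem_zpowers c)))
  by_cases hWeq : W = U
  · -- any hyperplane
    have hnt : Nontrivial U := (nontrivial_iff_ne_bot U).mpr hU1
    obtain ⟨M, hM⟩ := IsCoatomic.exists_coatom (Subgroup U)
    refine ⟨M.map U.subtype, map_subtype_le _, ?_, ?_⟩
    · have : (M.map U.subtype).subgroupOf U = M := by
        rw [subgroupOf, comap_map_eq_self_of_injective U.subtype_injective]
      rw [this]; exact hM
    · intro hbot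
      apply hW.prop.2
      rw [eq_bot_iff, ← hbot]
      refine inf_le_inf_left _ (centralizer_le ?_)
      rw [hWeq]
      exact map_subtype_le M
  · refine ⟨W, hWU, ⟨?_, ?_⟩, hW.prop.2⟩
    · intro htop
      apply hWeq
      exact le_antisymm hWU (subgroupOf_eq_top.mp htop)
    · intro X hX
      obtain ⟨a, haX, haW⟩ := SetLike.exists_of_lt hX
      rw [eq_top_iff]
      intro u _
      have h1 := key (a : G) a.2 haW u.2
      have h2 : zpowers (a : G) ⊔ W ≤ X.map U.subtype := by
        apply sup_le
        · rw [zpowers_le]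
          exact mem_map_of_mem U.subtype haX
        · intro w hw
          exact ⟨⟨w, hWU hw⟩, hX.le (mem_subgroupOf.mpr hw), rfl⟩
      obtain ⟨x, hx, hxu⟩ := h2 h1
      have : x = u := Subtype.ext hxu
      rwa [this] at hx

/-- First part of the lemma on large subgroups. -/
theorem inf_centralizer_eq_bot {p : ℕ} [hp : Fact p.Prime] (Q : Subgroup G) (hQp : IsPGroup p Q)
    (hlarge : Cfsg.IsLarge Q) (G₁ : Subgroup G) (hQG : Q ≤ G₁) (R : Subgroup G) (hR : (Nat.card R).Coprime p)
    (hGR : G₁ ≤ normalizer (R : Set G)) (x : G) (hx1 : x ≠ 1) (g : G) (hg : g ∈ G₁)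
    (hx : g * x * g⁻¹ ∈ Q ⊓ centralizer (Q : Set G)) : R ⊓ centralizer ({x} : Set G) = ⊥ := by
  rw [eq_bot_iff]
  intro c hc
  rw [mem_bot]
  have hcR : g * c * g⁻¹ ∈ R := (mem_normalizer_iff.mp (hGR hg) c).mp hc.1
  set y := g * x * g⁻¹ with hy
  set d := g * c * g⁻¹ with hd
  have hy1 : y ≠ 1 := by
    intro h
    apply hx1
    rw [hy, mul_inv_eq_one, mul_eq_left] at h
    exact h
  have hcx : c * x = x * c := mem_centralizer_singleton_iff.mp hc.2
  have hdy : d * y = y * d := by
    rw [hd, hy]
    calc g * c * g⁻¹ * (g * x * g⁻¹) = g * (c * x) * g⁻¹ := by group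
      _ = g * (x * c) * g⁻¹ := by rw [hcx]
      _ = g * x * g⁻¹ * (g * c * g⁻¹) := by group
  have hne : zpowers y ≠ ⊥ := by rwa [Ne, zpowers_eq_bot]
  have hNQ := hlarge.2 (zpowers y) (by rw [zpowers_le]; exact hx.2) hne
  have hdN : d ∈ normalizer (Q : Set G) := by
    apply hNQ
    apply centralizer_le_normalizer
    rw [mem_centralizer_iff]
    intro z hz
    obtain ⟨k, rfl⟩ := mem_zpowers_iff.mp hz
    exact ((show Commute d y from hdy).zpow_right k).symm
  have hRQ : R ⊓ Q = ⊥ := by
    obtain ⟨n, hn⟩ := IsPGroup.iff_card.mp hQp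
    exact inf_eq_bot_of_coprime' (by rw [hn]; exact Nat.Coprime.pow_right n hR)
  have hdQ : d ∈ centralizer (Q : Set G) := by
    rw [mem_centralizer_iff]
    intro q hq
    -- `[q, d] ∈ R ⊓ Q`
    have h1 : ⁅q, d⁆ ∈ R ⊓ Q := by
      refine mem_inf.mpr ⟨?_, ?_⟩
      · rw [commutatorElement_def]
        exact mul_mem ((mem_normalizer_iff.mp (hGR (hQG hq)) d).mp hcR) (inv_mem hcR)
      · have h2 : ⁅q, d⁆ = q * (d * q⁻¹ * d⁻¹) := by rw [commutatorElement_def]; group
        rw [h2]
        exact mul_mem hq ((mem_normalizer_iff.mp hdN _).mp (inv_mem hq))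
    rw [hRQ, mem_bot, commutatorElement_eq_one_iff_mul_comm] at h1
    exact h1
  have hd1 : d ∈ R ⊓ Q := ⟨hcR, hlarge.1 hdQ⟩
  rw [hRQ, mem_bot, hd, mul_inv_eq_one, mul_eq_left] at hd1
  exact hd1

end Cfsg.Agent.Lib.LeadLarge
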