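import Mathlib

/-!
The least subnormal supplement of a normal subgroup with perfect quotient.
-/

set_option autoImplicit false

namespace Cfsg.Agent.Lib.LeadSupp

open Subgroup
open scoped commutatorElement Pointwise

variable {G : Type*} [Group G]

theorem map_eq_top_of_sup {D X : Subgroup G} [D.Normal] (hX : X ⊔ D = ⊤) : X.map (QuotientGroup.mk' D) = ⊤ := by
  have h1 : (X ⊔ D).map (QuotientGroup.mk' D) = X.map (QuotientGroup.mk' D) := by
    rw [Subgroup.map_sup, sup_eq_left]
    rw [QuotientGroup.map_mk'_self]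
    exact bot_le
  rw [← h1, hX, ← MonoidHom.range_eq_map, MonoidHom.range_eq_top]
  exact QuotientGroup.mk'_surjective D

theorem sup_eq_top_of_map {D X : Subgroup G} [D.Normal] (hX : X.map (QuotientGroup.mk' D) = ⊤) : X ⊔ D = ⊤ := by
  have h1 := congrArg (Subgroup.comap (QuotientGroup.mk' D)) hX
  rwa [Subgroup.comap_map_eq, QuotientGroup.ker_mk', Subgroup.comap_top] at h1

/-- Commutators of supplements are supplements. -/
theorem commutator_supplement {D X Y : Subgroup G} [D.Normal]
    (hperf : ⁅(⊤ : Subgroup G), (⊤ : Subgroup G)⁆ ⊔ D = ⊤) (hX : X ⊔ D = ⊤) (hY : Y ⊔ D = ⊤) :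
    ⁅X, Y⁆ ⊔ D = ⊤ := by
  apply sup_eq_top_of_map
  rw [map_commutator, map_eq_top_of_sup hX, map_eq_top_of_sup hY]
  have h1 := map_eq_top_of_sup hperf
  rw [map_commutator, ← MonoidHom.range_eq_map, MonoidHom.range_eq_top.mpr (QuotientGroup.mk'_surjective D)] at h1
  exact h1

theorem commutator_le_inf {X Y : Subgroup G} (h1 : X ≤ normalizer (Y : Set G)) (h2 : Y ≤ normalizer (X : Set G)) :
    ⁅X, Y⁆ ≤ X ⊓ Y :=
  le_inf (le_normalizer_iff_commutator_le_left.mp h2) (le_normalizer_iff_commutator_le_right.mp h1)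

/-- A finite nonempty family of subgroups closed under intersections has a least element. -/
theorem exists_least [Finite G] (P : Subgroup G → Prop) (hne : ∃ X, P X) (hinf : ∀ X Y, P X → P Y → P (X ⊓ Y)) :
    ∃ X, P X ∧ ∀ Y, P Y → X ≤ Y := by
  obtain ⟨X, hX⟩ := (Set.toFinite {X : Subgroup G | P X}).exists_minimal hne
  refine ⟨X, hX.prop, fun Y hY => ?_⟩
  have h1 := hX.le_of_le (hinf X Y hX.prop hY) inf_le_left
  exact h1.trans inf_le_right

theorem main [Finite G] (D : Subgroup G) [D.Normal] (hperf : ⁅(⊤ : Subgroup G), (⊤ : Subgroup G)⁆ ⊔ D = ⊤) :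
    ∃ B : Subgroup G, B.Normal ∧ B ⊔ D = ⊤ ∧ ∀ B' : Subgroup G, B'.IsSubnormal → B' ⊔ D = ⊤ → B ≤ B' := by
  obtain ⟨B, ⟨hBn, hBD⟩, hBmin⟩ := exists_least (fun B : Subgroup G => B.Normal ∧ B ⊔ D = ⊤)
    ⟨⊤, inferInstance, top_sup_eq _⟩ (by
      rintro X Y ⟨hXn, hX⟩ ⟨hYn, hY⟩
      refine ⟨inferInstance, ?_⟩
      rw [eq_top_iff, ← commutator_supplement hperf hX hY]
      exact sup_le_sup_right (commutator_le_inf (by rw [normalizer_eq_top]; exact le_top)
        (by rw [normalizer_eq_top]; exact le_top)) D)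
  refine ⟨B, hBn, hBD, ?_⟩
  -- the least supplement normal in `B`
  obtain ⟨Y, ⟨hYB, hYn, hYD⟩, hYmin⟩ := exists_least
    (fun Y : Subgroup G => Y ≤ B ∧ B ≤ normalizer (Y : Set G) ∧ Y ⊔ D = ⊤)
    ⟨B, le_rfl, le_normalizer, hBD⟩ (by
      rintro X Y ⟨hXB, hXn, hX⟩ ⟨hYB, hYn, hY⟩
      refine ⟨inf_le_left.trans hXB, ?_, ?_⟩
      · intro b hb
        rw [mem_normalizer_iff]
        intro x
        have h1 := mem_normalizer_iff.mp (hXn hb) x
        have h2 := mem_normalizer_iff.mp (hYn hb) x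
        exact and_congr h1 h2
      · rw [eq_top_iff, ← commutator_supplement hperf hX hY]
        exact sup_le_sup_right (commutator_le_inf (hXB.trans hYn) (hYB.trans hXn)) D)
  have hYnorm : Y.Normal := by
    refine ⟨fun y hy g => ?_⟩
    have h1 : Y ≤ Y.map (MulAut.conj g⁻¹).toMonoidHom := by
      apply hYmin
      refine ⟨?_, ?_, ?_⟩
      · rintro _ ⟨x, hx, rfl⟩
        exact hBn.conj_mem x (hYB hx) g⁻¹
      · intro b hb
        have hb' : g * b * g⁻¹ ∈ B := hBn.conj_mem b hb g
        rw [mem_normalizer_iff]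
        intro x
        have key : ∀ z, z ∈ Y.map (MulAut.conj g⁻¹).toMonoidHom ↔ g * z * g⁻¹ ∈ Y := by
          intro z
          constructor
          · rintro ⟨w, hw, rfl⟩
            have : g * ((MulAut.conj g⁻¹).toMonoidHom w) * g⁻¹ = w := by
              simp only [MulEquiv.toMonoidHom_eq_coe, MonoidHom.coe_coe, MulAut.conj_apply]; group
            rwa [this]
          · intro hz
            refine ⟨_, hz, ?_⟩
            simp only [MulEquiv.toMonoidHom_eq_coe, MonoidHom.coe_coe, MulAut.conj_apply]; group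
        rw [key, key, mem_normalizer_iff.mp (hYn hb') (g * x * g⁻¹)]
        have : g * b * g⁻¹ * (g * x * g⁻¹) * (g * b * g⁻¹)⁻¹ = g * (b * x * b⁻¹) * g⁻¹ := by group
        rw [this]
      · have h2 : D.map (MulAut.conj g⁻¹).toMonoidHom = D := by
          apply le_antisymm
          · rintro _ ⟨x, hx, rfl⟩
            exact (inferInstance : D.Normal).conj_mem x hx g⁻¹
          · intro x hx
            refine ⟨g * x * g⁻¹, (inferInstance : D.Normal).conj_mem x hx g, ?_⟩
            simp only [MulEquiv.toMonoidHom_eq_coe, MonoidHom.coe_coe, MulAut.conj_apply]; group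
        have h3 := congrArg (Subgroup.map (MulAut.conj g⁻¹).toMonoidHom) hYD
        rw [Subgroup.map_sup, h2, ← MonoidHom.range_eq_map, MonoidHom.range_eq_top.mpr (MulAut.conj g⁻¹).surjective] at h3
        exact h3
    obtain ⟨w, hw, hwy⟩ := h1 hy
    have : g * y * g⁻¹ = w := by
      rw [← hwy]
      simp only [MulEquiv.toMonoidHom_eq_coe, MonoidHom.coe_coe, MulAut.conj_apply]; group
    rw [this]; exact hw
  have hBY : B ≤ Y := hBmin Y ⟨hYnorm, hYD⟩
  intro H hH
  induction hH with
  | top => exact fun _ => le_top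
  | step H K hHK _ hN ih =>
    intro hHD
    have hKD : K ⊔ D = ⊤ := by
      rw [eq_top_iff, ← hHD]
      exact sup_le_sup_right hHK D
    have hBK := ih hKD
    have hKn : K ≤ normalizer (H : Set G) := (normal_subgroupOf_iff_le_normalizer hHK).mp hN
    have h1 : H ⊓ B ⊔ D = ⊤ := by
      rw [eq_top_iff, ← commutator_supplement hperf hHD hBD]
      exact sup_le_sup_right (commutator_le_inf (by rw [normalizer_eq_top]; exact le_top) (hBK.trans hKn)) D
    have h2 : Y ≤ H ⊓ B := by
      apply hYmin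
      refine ⟨inf_le_right, ?_, h1⟩
      intro b hb
      rw [mem_normalizer_iff]
      intro x
      have h1 := mem_normalizer_iff.mp (hKn (hBK hb)) x
      have h2 := mem_normalizer_iff.mp (le_normalizer (H := B) hb) x
      exact and_congr h1 h2
    exact hBY.trans (h2.trans inf_le_left)

end Cfsg.Agent.Lib.LeadSupp
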