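import Cfsg.Agent.Lib.LeechCen1
import Cfsg.Agent.Lib.SympGen

/-!
The action of an involution centraliser of `Co2` on a symplectic space of dimension six.
-/

set_option autoImplicit false

namespace Cfsg.Agent.Lib.LeechSyl

open Cfsg Cfsg.Agent.Lib.Golay Cfsg.Agent.Lib.LeechMin Cfsg.Agent.Lib.GolayCoset Cfsg.Agent.Lib.LeechXi
  Cfsg.Agent.Lib.LeechTrans Cfsg.Agent.Lib.LeechCo2 Cfsg.Agent.Lib.LeechFrame Cfsg.Agent.Lib.LeechCount
  Cfsg.Agent.Lib.LeechOrder Cfsg.Agent.Lib.LeechMod Cfsg.Agent.Lib.LeechQuot Cfsg.Agent.Lib.LeechChain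
open Subgroup
open scoped Pointwise Matrix

theorem occ_mem : ocᶜ ∈ Sup := compl_mem_supports oc_mem

/-- the involution -/
def zz : Co0 := eps ocᶜ occ_mem

theorem zz_fix {x : leechLattice} : zz • x = x ↔ x ∈ LO := by
  constructor
  · intro h i hi
    have h1 := congrFun (congrArg Subtype.val h) i
    have h2 : ((zz • x : leechLattice) : GolayPt → ℤ) i = (x : GolayPt → ℤ) i := h1
    rw [zz, eps_apply, if_pos (Finset.mem_compl.2 hi)] at h2
    omega
  · intro h
    apply Subtype.ext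
    funext i
    rw [zz, eps_apply]
    by_cases hi : i ∈ oc
    · rw [if_neg (fun h' => Finset.mem_compl.1 h' hi)]
    · rw [if_pos (Finset.mem_compl.2 hi), h i hi, neg_zero]

theorem comm_LO {g : Co0} (hg : g * zz = zz * g) {x : leechLattice} (hx : x ∈ LO) : g • x ∈ LO := by
  rw [← zz_fix] at hx ⊢
  rw [← mul_smul, ← hg, mul_smul, hx]

theorem gram : ∀ j k : Fin 8, ((dotInt (vl (bL.getD j [])) (vl (bL.getD k [])) / 16 : ℤ) : ZMod 2) =
    if (j : ℕ) + 4 = k ∨ (k : ℕ) + 4 = j then 1 else 0 := by decide +kernel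

theorem kap_bV (j k : Fin 8) : kap (bV j) (bV k) = if (j : ℕ) + 4 = k ∨ (k : ℕ) + 4 = j then 1 else 0 := gram j k

theorem X_LO : X hab ∈ LO := by
  intro i hi
  rw [X_vl]
  revert i
  decide +kernel

theorem kapX : ∀ k : Fin 8, ((dotInt (vl Xl) (vl (bL.getD k [])) / 16 : ℤ) : ZMod 2) = if k = 3 ∨ k = 7 then 1 else 0 := by
  decide +kernel

theorem kap_X_bV (k : Fin 8) : kap (X hab) (bV k) = if k = 3 ∨ k = 7 then 1 else 0 := by
  unfold kap
  rw [X_vl]
  exact kapX k

theorem two_kap (a : ZMod 2) : a + a = 0 := CharTwo.add_self_eq_zero a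

theorem kap_double {y x : leechLattice} (hy : y ∈ LO) (hx : x ∈ LO) : kap (y + y) x = 0 := by
  rw [kap_comm, kap_add hx hy hy, two_kap]

theorem kap_add_left {b x y : leechLattice} (hb : b ∈ LO) (hx : x ∈ LO) (hy : y ∈ LO) : kap (x + y) b = kap x b + kap y b := by
  rw [kap_comm, kap_add hb hx hy, kap_comm b x, kap_comm b y]

theorem kap_X {x : leechLattice} (hx : x ∈ LO) : kap (X hab) x = kap (bV 3) x + kap (bV 7) x := by
  have hm : X hab + (bV 3 + bV 7) ∈ LO := add_mem X_LO (add_mem (bV_mem _) (bV_mem _))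
  obtain ⟨y, hy, h⟩ := half_of_even hm (fun k => by
    rw [← kap_zero_iff (bV_mem k) hm, kap_add (bV_mem k) X_LO (add_mem (bV_mem _) (bV_mem _)),
      kap_add (bV_mem k) (bV_mem _) (bV_mem _), kap_comm, kap_X_bV, kap_bV, kap_bV]
    revert k
    decide)
  have h1 := kap_double hy hx
  rw [← h, kap_add_left hx X_LO (add_mem (bV_mem _) (bV_mem _)), kap_add_left hx (bV_mem _) (bV_mem _)] at h1
  rwa [CharTwo.add_eq_zero] at h1

/-- the even part -/
def W6 : AddSubgroup leechLattice where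
  carrier := {x | x ∈ LO ∧ kap (X hab) x = 0}
  add_mem' := fun {a b} ha hb => ⟨add_mem ha.1 hb.1, by rw [kap_add X_LO ha.1 hb.1, ha.2, hb.2, add_zero]⟩
  zero_mem' := ⟨zero_mem _, by
    unfold kap
    have : dotInt (X hab : GolayPt → ℤ) ((0 : leechLattice) : GolayPt → ℤ) = 0 := by
      unfold dotInt
      apply Finset.sum_eq_zero
      intro i _
      show _ * (0 : ℤ) = 0
      ring
    rw [this]; rfl⟩
  neg_mem' := fun {a} ha => ⟨neg_mem ha.1, by
    have h : kap (X hab) (a + -a) = kap (X hab) a + kap (X hab) (-a) := kap_add X_LO ha.1 (neg_mem ha.1)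
    have h0 : kap (X hab) ((0 : leechLattice) + 0) = kap (X hab) 0 + kap (X hab) 0 := kap_add X_LO (zero_mem _) (zero_mem _)
    rw [add_zero, two_kap] at h0
    rw [add_neg_cancel, h0, ha.2, zero_add] at h
    exact h.symm⟩

abbrev V6 : Type := Fin 3 ⊕ Fin 3 → ZMod 2

def j6 : Fin 3 ⊕ Fin 3 → Fin 8
  | Sum.inl i => ![4, 5, 6] i
  | Sum.inr i => ![0, 1, 2] i

def k6 : Fin 3 ⊕ Fin 3 → Fin 8
  | Sum.inl i => ![0, 1, 2] i
  | Sum.inr i => ![4, 5, 6] i

/-- coordinates modulo two -/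
def kap6 : W6 →+ V6 where
  toFun x := fun k => kap (bV (j6 k)) x
  map_zero' := by
    funext k
    have h0 : kap (bV (j6 k)) ((0 : leechLattice) + 0) = kap (bV (j6 k)) 0 + kap (bV (j6 k)) 0 :=
      kap_add (bV_mem _) (zero_mem _) (zero_mem _)
    rw [add_zero, two_kap] at h0
    exact h0
  map_add' x y := by
    funext k
    exact kap_add (bV_mem _) x.2.1 y.2.1

theorem kap6_apply (x : W6) (k : Fin 3 ⊕ Fin 3) : kap6 x k = kap (bV (j6 k)) x := rfl

theorem k6_ne : ∀ k, ¬ (k6 k = 3 ∨ k6 k = 7) := by decide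

def bW (k : Fin 3 ⊕ Fin 3) : W6 := ⟨bV (k6 k), bV_mem _, by rw [kap_X_bV, if_neg (k6_ne k)]⟩

theorem bW_single : ∀ k l : Fin 3 ⊕ Fin 3, (if ((j6 l : Fin 8) : ℕ) + 4 = k6 k ∨ ((k6 k : Fin 8) : ℕ) + 4 = j6 l then (1 : ZMod 2) else 0) =
    (Pi.single k 1 : V6) l := by decide

theorem kap6_bW (k : Fin 3 ⊕ Fin 3) : kap6 (bW k) = Pi.single k 1 := by
  funext l
  show kap (bV (j6 l)) (bV (k6 k)) = _
  rw [kap_bV, bW_single]

/-- a vector with given coordinates -/
def lift6 (v : V6) : W6 := ∑ k, (v k).val • bW k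

theorem kap6_lift (v : V6) : kap6 (lift6 v) = v := by
  unfold lift6
  rw [map_sum]
  funext l
  rw [Finset.sum_apply, Finset.sum_eq_single_of_mem l (Finset.mem_univ _)]
  · rw [map_nsmul, kap6_bW, Pi.smul_apply, Pi.single_eq_same, nsmul_eq_mul, mul_one, ZMod.natCast_zmod_val]
  · intro b _ hb
    rw [map_nsmul, kap6_bW, Pi.smul_apply, Pi.single_eq_of_ne hb.symm, smul_zero]

theorem kap6_surj : Function.Surjective kap6 := fun v => ⟨lift6 v, kap6_lift v⟩

theorem cases8 : ∀ k : Fin 8, (∃ l, j6 l = k) ∨ k = 3 ∨ k = 7 := by decide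

/-- the radical -/
theorem kap6_ker {x : W6} (h : kap6 x = 0) : ∃ y ∈ LO, (x : leechLattice) = y + y ∨ (x : leechLattice) = X hab + (y + y) := by
  have h0 : ∀ l, kap (bV (j6 l)) x = 0 := fun l => congrFun h l
  have h1 := x.2.2
  rw [kap_X x.2.1, CharTwo.add_eq_zero] at h1
  by_cases h3 : kap (bV 3) x = 0
  · obtain ⟨y, hy, h4⟩ := half_of_even x.2.1 (fun k => by
      rw [← kap_zero_iff (bV_mem k) x.2.1]
      rcases cases8 k with ⟨l, rfl⟩ | rfl | rfl
      · exact h0 l
      · exact h3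
      · rw [← h1]; exact h3)
    exact ⟨y, hy, Or.inl h4⟩
  · have h3' : kap (bV 3) x = 1 := by
      have : ∀ a : ZMod 2, a ≠ 0 → a = 1 := by decide
      exact this _ h3
    have hm : -X hab + (x : leechLattice) ∈ LO := add_mem (neg_mem X_LO) x.2.1
    obtain ⟨y, hy, h4⟩ := half_of_even hm (fun k => by
      have e1 : kap (bV k) (X hab) + kap (bV k) (-X hab + (x : leechLattice)) = kap (bV k) x := by
        rw [← kap_add (bV_mem k) X_LO hm, add_neg_cancel_left]
      rw [← kap_zero_iff (bV_mem k) hm]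
      rw [kap_comm, kap_X_bV] at e1
      rcases cases8 k with ⟨l, rfl⟩ | rfl | rfl
      · rw [h0 l] at e1
        have : ∀ l, ¬ (j6 l = 3 ∨ j6 l = 7) := by decide
        rw [if_neg (this l), zero_add] at e1
        exact e1
      · rw [h3', if_pos (Or.inl rfl)] at e1
        exact add_eq_left.1 e1
      · rw [← h1, h3', if_pos (Or.inr rfl)] at e1
        exact add_eq_left.1 e1)
    exact ⟨y, hy, Or.inr (by rw [← h4, add_neg_cancel_left])⟩

/-- elements of the radical are orthogonal to everything modulo two -/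
theorem rad_kap {x z : W6} (h : kap6 x = 0) : kap (x : leechLattice) z = 0 := by
  obtain ⟨y, hy, h1 | h1⟩ := kap6_ker h
  · rw [h1, kap_double hy z.2.1]
  · rw [h1, kap_add_left z.2.1 X_LO (add_mem hy hy), kap_double hy z.2.1, z.2.2, add_zero]

theorem symp_eq (u v : V6) : sympForm 3 (ZMod 2) u v = ∑ k : Fin 3 ⊕ Fin 3, u k * v (Sum.swap k) := by
  rw [SympMat.sympForm_apply, Fintype.sum_sum_type, ← Finset.sum_add_distrib]
  apply Finset.sum_congr rfl
  intro i _
  show _ = u (Sum.inl i) * v (Sum.inr i) + u (Sum.inr i) * v (Sum.inl i)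
  rw [sub_eq_add_neg, CharTwo.neg_eq]
  ring

theorem j6_swap : ∀ k, j6 (Sum.swap k) = k6 k := by decide

theorem kap_sum {ι : Type*} (s : Finset ι) (n : ι → ℕ) (w : ι → W6) (z : W6) :
    kap ((∑ k ∈ s, n k • w k : W6) : leechLattice) z = ∑ k ∈ s, (n k : ZMod 2) * kap (w k : leechLattice) z := by
  classical
  let φ : W6 →+ ZMod 2 :=
    { toFun := fun w => kap (w : leechLattice) z
      map_zero' := by
        have h0 : kap ((0 : leechLattice) + 0) (z : leechLattice) = kap 0 (z : leechLattice) + kap 0 (z : leechLattice) :=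
          kap_add_left z.2.1 (zero_mem _) (zero_mem _)
        rw [add_zero, two_kap] at h0
        exact h0
      map_add' := fun a b => kap_add_left z.2.1 a.2.1 b.2.1 }
  have h1 : φ (∑ k ∈ s, n k • w k) = ∑ k ∈ s, (n k : ZMod 2) * φ (w k) := by
    rw [map_sum]
    apply Finset.sum_congr rfl
    intro k _
    rw [map_nsmul, nsmul_eq_mul]
  exact h1

theorem symp_kap (x z : W6) : sympForm 3 (ZMod 2) (kap6 x) (kap6 z) = kap (x : leechLattice) z := by
  have h1 : kap6 (x - lift6 (kap6 x)) = 0 := by rw [map_sub, kap6_lift, sub_self]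
  have h2 : kap (x : leechLattice) z = kap (lift6 (kap6 x) : leechLattice) z := by
    have h3 := rad_kap (z := z) h1
    have h4 : kap ((lift6 (kap6 x) : leechLattice) + ((x - lift6 (kap6 x) : W6) : leechLattice)) z =
        kap (lift6 (kap6 x) : leechLattice) z + kap ((x - lift6 (kap6 x) : W6) : leechLattice) z :=
      kap_add_left z.2.1 (lift6 (kap6 x)).2.1 (x - lift6 (kap6 x)).2.1
    rw [h3, add_zero] at h4
    rw [← h4]
    congr 1
    rw [AddSubgroup.coe_sub, add_sub_cancel]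
  rw [h2, symp_eq]
  unfold lift6
  rw [kap_sum]
  apply Finset.sum_congr rfl
  intro k _
  rw [ZMod.natCast_zmod_val]
  congr 1
  show kap (bV (j6 (Sum.swap k))) z = kap (bV (k6 k)) z
  rw [j6_swap]

end Cfsg.Agent.Lib.LeechSyl
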