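import Cfsg.Agent.Lib.LeechCen2

/-!
The homomorphism from an involution centraliser of `Co2` to `Sp(6, 2)`.
-/

set_option autoImplicit false

namespace Cfsg.Agent.Lib.LeechSyl

open Cfsg Cfsg.Agent.Lib.Golay Cfsg.Agent.Lib.LeechMin Cfsg.Agent.Lib.GolayCoset Cfsg.Agent.Lib.LeechXi
  Cfsg.Agent.Lib.LeechTrans Cfsg.Agent.Lib.LeechCo2 Cfsg.Agent.Lib.LeechFrame Cfsg.Agent.Lib.LeechCount
  Cfsg.Agent.Lib.LeechOrder Cfsg.Agent.Lib.LeechMod Cfsg.Agent.Lib.LeechQuot Cfsg.Agent.Lib.LeechChain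
open Subgroup
open scoped Pointwise Matrix

/-- the centraliser of the involution in the stabiliser of the vector -/
def D2 : Subgroup Co0 := MulAction.stabilizer Co0 (X hab) ⊓ centralizer {zz}

theorem mem_D2 {g : Co0} : g ∈ D2 ↔ g • X hab = X hab ∧ g * zz = zz * g := by
  unfold D2
  rw [Subgroup.mem_inf, MulAction.mem_stabilizer_iff, Subgroup.mem_centralizer_singleton_iff]

theorem D2_X (g : D2) : (g : Co0) • X hab = X hab := (mem_D2.1 g.2).1
theorem D2_LO (g : D2) {x : leechLattice} (hx : x ∈ LO) : (g : Co0) • x ∈ LO := comm_LO (mem_D2.1 g.2).2 hx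

/-- the action on the even part -/
def act6 (g : D2) : W6 →+ W6 where
  toFun x := ⟨(g : Co0) • (x : leechLattice), D2_LO g x.2.1, by
    have h := kap_smul (g := (g : Co0)) (X hab) (x : leechLattice)
    rw [D2_X g, x.2.2] at h
    exact h⟩
  map_zero' := Subtype.ext (by
    have h := smul_add' (g : Co0) (0 : leechLattice) 0
    rw [add_zero] at h
    exact (add_eq_left.1 h.symm))
  map_add' x y := Subtype.ext (smul_add' _ _ _)

theorem act6_coe (g : D2) (x : W6) : ((act6 g x : W6) : leechLattice) = (g : Co0) • (x : leechLattice) := rfl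

theorem act6_ker (g : D2) {x : W6} (h : kap6 x = 0) : kap6 (act6 g x) = 0 := by
  obtain ⟨y, hy, h1⟩ := kap6_ker h
  have hgy := D2_LO g hy
  funext k
  show kap (bV (j6 k)) ((g : Co0) • (x : leechLattice)) = 0
  rcases h1 with h1 | h1
  · rw [h1, smul_add', kap_comm, kap_double hgy (bV_mem _)]
  · rw [h1, smul_add', smul_add', D2_X g, kap_comm, kap_add_left (bV_mem _) X_LO (add_mem hgy hgy), kap_double hgy (bV_mem _),
      kap_X_bV, if_neg, add_zero]
    revert k
    decide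

theorem act6_congr (g : D2) {x y : W6} (h : kap6 x = kap6 y) : kap6 (act6 g x) = kap6 (act6 g y) := by
  have h1 : kap6 (x - y) = 0 := by rw [map_sub, h, sub_self]
  have h2 := act6_ker g h1
  rw [map_sub, map_sub] at h2
  exact sub_eq_zero.1 h2

theorem act6_kap (g : D2) (x y : W6) : kap (act6 g x : leechLattice) (act6 g y : leechLattice) = kap (x : leechLattice) y :=
  kap_smul _ _

/-- the induced map -/
def mp6 (g : D2) : V6 →ₗ[ZMod 2] V6 :=
  AddMonoidHom.toZModLinearMap 2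
    { toFun := fun v => kap6 (act6 g (lift6 v))
      map_zero' := act6_ker g (kap6_lift 0)
      map_add' := fun u v => by
        rw [← map_add kap6, ← map_add (act6 g)]
        apply act6_congr
        rw [map_add, kap6_lift, kap6_lift, kap6_lift] }

theorem mp6_kap (g : D2) (x : W6) : mp6 g (kap6 x) = kap6 (act6 g x) := act6_congr g (kap6_lift _)

theorem mp6_form (g : D2) (u v : V6) : sympForm 3 (ZMod 2) (mp6 g u) (mp6 g v) = sympForm 3 (ZMod 2) u v := by
  obtain ⟨x, rfl⟩ := kap6_surj u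
  obtain ⟨y, rfl⟩ := kap6_surj v
  rw [mp6_kap, mp6_kap, symp_kap, symp_kap, act6_kap]

theorem mp6_inj (g : D2) : Function.Injective (mp6 g) := by
  rw [injective_iff_map_eq_zero]
  intro u hu
  apply SympMat.eq_zero_of_sympForm
  intro v
  rw [← mp6_form g, hu]
  rw [symp_eq]
  apply Finset.sum_eq_zero
  intro k _
  rw [Pi.zero_apply, zero_mul]

theorem exists_mat6 (g : D2) : ∃ A : Matrix.symplecticGroup (Fin 3) (ZMod 2), ∀ x : W6,
    (A : Matrix (Fin 3 ⊕ Fin 3) (Fin 3 ⊕ Fin 3) (ZMod 2)) *ᵥ kap6 x = kap6 (act6 g x) := by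
  obtain ⟨A, hA⟩ := SympGen.exists_of_isometry (g := LinearEquiv.ofInjectiveEndo (mp6 g) (mp6_inj g)) (mp6_form g)
  refine ⟨A, fun x => ?_⟩
  rw [← SympGen.Φ_apply, hA, ← mp6_kap]
  rfl

theorem mat_ext6 {A B : Matrix.symplecticGroup (Fin 3) (ZMod 2)}
    (h : ∀ x : W6, (A : Matrix (Fin 3 ⊕ Fin 3) (Fin 3 ⊕ Fin 3) (ZMod 2)) *ᵥ kap6 x =
      (B : Matrix (Fin 3 ⊕ Fin 3) (Fin 3 ⊕ Fin 3) (ZMod 2)) *ᵥ kap6 x) : A = B := by
  apply SympGen.Φ_injective
  ext1 v
  obtain ⟨x, rfl⟩ := kap6_surj v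
  rw [SympGen.Φ_apply, SympGen.Φ_apply, h]

/-- the representation -/
noncomputable def rho6 : D2 →* Matrix.symplecticGroup (Fin 3) (ZMod 2) where
  toFun g := (exists_mat6 g).choose
  map_one' := by
    apply mat_ext6
    intro x
    rw [(exists_mat6 1).choose_spec, OneMemClass.coe_one, Matrix.one_mulVec]
    congr 1
  map_mul' g h := by
    apply mat_ext6
    intro x
    rw [(exists_mat6 (g * h)).choose_spec, Submonoid.coe_mul, ← Matrix.mulVec_mulVec, (exists_mat6 h).choose_spec,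
      (exists_mat6 g).choose_spec]
    congr 1

theorem rho6_spec (g : D2) (x : W6) :
    (rho6 g : Matrix (Fin 3 ⊕ Fin 3) (Fin 3 ⊕ Fin 3) (ZMod 2)) *ᵥ kap6 x = kap6 (act6 g x) := (exists_mat6 g).choose_spec x

theorem rho6_ker {g : D2} : rho6 g = 1 ↔ ∀ x : W6, kap6 (act6 g x) = kap6 x := by
  constructor
  · intro h x
    rw [← rho6_spec, h, OneMemClass.coe_one, Matrix.one_mulVec]
  · intro h
    apply mat_ext6
    intro x
    rw [rho6_spec, h, OneMemClass.coe_one, Matrix.one_mulVec]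

end Cfsg.Agent.Lib.LeechSyl
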