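import Cfsg.Agent.Lib.LeechCen3

/-!
Surjectivity of the homomorphism to `Sp(6, 2)`.
-/

set_option autoImplicit false

namespace Cfsg.Agent.Lib.LeechSyl

open Cfsg Cfsg.Agent.Lib.Golay Cfsg.Agent.Lib.LeechMin Cfsg.Agent.Lib.GolayCoset Cfsg.Agent.Lib.LeechXi
  Cfsg.Agent.Lib.LeechTrans Cfsg.Agent.Lib.LeechCo2 Cfsg.Agent.Lib.LeechFrame Cfsg.Agent.Lib.LeechCount
  Cfsg.Agent.Lib.LeechOrder Cfsg.Agent.Lib.LeechMod Cfsg.Agent.Lib.LeechQuot Cfsg.Agent.Lib.LeechChain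
open Subgroup
open scoped Pointwise Matrix

/-! ### sign changes on lists -/

def epl (C : ℕ) (l : List ℤ) : List ℤ := (List.range 24).map fun i => (if C.testBit i then -1 else 1) * l.getD i 0

theorem epl_spec {c : Finset GolayPt} {hc : c ∈ Sup} {C : ℕ} (h : ∀ i, i ∈ c ↔ C.testBit (ix i) = true)
    {v : leechLattice} {l : List ℤ} (hv : (v : GolayPt → ℤ) = vl l) :
    ((eps c hc • v : leechLattice) : GolayPt → ℤ) = vl (epl C l) := by
  funext i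
  rw [eps_apply, epl, vl_map, hv]
  by_cases hi : i ∈ c
  · rw [if_pos hi, if_pos ((h i).1 hi)]
    show -(l.getD (ix i) 0) = _
    ring
  · rw [if_neg hi, if_neg (fun h' => hi ((h i).2 h'))]
    show l.getD (ix i) 0 = _
    ring

theorem occ_bit : ∀ i, i ∈ ocᶜ ↔ (8241104 : ℕ).testBit (ix i) = true := by decide +kernel

theorem zz_vl {v : leechLattice} {l : List ℤ} (hv : (v : GolayPt → ℤ) = vl l) :
    ((zz • v : leechLattice) : GolayPt → ℤ) = vl (epl 8241104 l) := epl_spec occ_bit hv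

/-- elements given by a function on lists -/
def IsL (g : Co0) (G : List ℤ → List ℤ) : Prop := ∀ (v : leechLattice) (l : List ℤ), (v : GolayPt → ℤ) = vl l →
  ((g • v : leechLattice) : GolayPt → ℤ) = vl (G l)

theorem IsL.mul {g h : Co0} {G H : List ℤ → List ℤ} (hg : IsL g G) (hh : IsL h H) : IsL (g * h) (fun l => G (H l)) := by
  intro v l hv
  rw [mul_smul]
  exact hg _ _ (hh _ _ hv)

theorem IsL_ef {g h : Co0} {G H : List ℤ → List ℤ} (hg : IsL g G) (hh : IsL h H) (hGH : ∀ n : Fin 24, G (el n) = H (el n)) :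
    g = h := by
  apply ext_ef
  intro p
  apply Subtype.ext
  rw [hg _ _ (ef_vl p), hh _ _ (ef_vl p), hGH ⟨ix p, ix_lt p⟩]

theorem mem_D2_of {g : Co0} {G : List ℤ → List ℤ} (hg : IsL g G) (h1 : ∀ n : Fin 24, G (epl 8241104 (el n)) = epl 8241104 (G (el n)))
    (h2 : G Xl = Xl) : g ∈ D2 := by
  rw [mem_D2]
  constructor
  · apply Subtype.ext
    rw [hg _ _ X_vl, h2, X_vl]
  · exact IsL_ef (hg.mul (fun v l hv => zz_vl hv)) (IsL.mul (fun v l hv => zz_vl hv) hg) h1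

/-- the matrix of an element -/
def mL (G : List ℤ → List ℤ) : Matrix (Fin 3 ⊕ Fin 3) (Fin 3 ⊕ Fin 3) (ZMod 2) := fun i j =>
  ((dotInt (vl (bL.getD (j6 i) [])) (vl (G (bL.getD (k6 j) []))) / 16 : ℤ) : ZMod 2)

theorem rho6_mL (g : D2) {G : List ℤ → List ℤ} (hg : IsL g G) :
    (rho6 g : Matrix (Fin 3 ⊕ Fin 3) (Fin 3 ⊕ Fin 3) (ZMod 2)) = mL G := by
  ext i j
  have h1 := congrFun (rho6_spec g (bW j)) i
  rw [kap6_bW, Matrix.mulVec_single_one] at h1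
  have h2 : kap6 (act6 g (bW j)) i = mL G i j := by
    show ((dotInt (vl (bL.getD (j6 i) [])) (((g : Co0) • bV (k6 j) : leechLattice) : GolayPt → ℤ) / 16 : ℤ) : ZMod 2) = _
    rw [hg _ _ (bV_coe (k6 j))]
    rfl
  rw [← h2, ← h1]
  rfl

/-! ### the elements -/

def tq3 : List (List ℕ) :=
  [[0, 1, 2, 23], [0, 1, 2, 23], [0, 1, 2, 23], [3, 5, 14, 17], [4, 13, 16, 22], [3, 5, 14, 17],
    [6, 7, 19, 21], [6, 7, 19, 21], [8, 11, 12, 18], [9, 10, 15, 20], [9, 10, 15, 20], [8, 11, 12, 18],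
    [8, 11, 12, 18], [4, 13, 16, 22], [3, 5, 14, 17], [9, 10, 15, 20], [4, 13, 16, 22], [3, 5, 14, 17],
    [8, 11, 12, 18], [6, 7, 19, 21], [9, 10, 15, 20], [6, 7, 19, 21], [4, 13, 16, 22], [0, 1, 2, 23]]
def tm3 : List ℕ :=
  [8388615, 8388615, 8388615, 147496, 4268048, 147496, 2621632, 2621632, 268544, 1082880, 1082880, 268544,
    268544, 4268048, 147496, 1082880, 4268048, 147496, 268544, 2621632, 1082880, 2621632, 4268048, 8388615]

theorem card_T3 : (mset 8388615).card = 4 := by decide +kernel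
theorem tq3_ok1 : ∀ p : GolayPt, ((tq3.getD (ix p) []).map pt).Nodup ∧ (∀ j ∈ tq3.getD (ix p) [], j < 24) ∧
    ((tq3.getD (ix p) []).map pt).toFinset = mset (tm3.getD (ix p) 0) ∧ (tm3.getD (ix p) 0).testBit (ix p) = true ∧
    isCode (8388615 ^^^ tm3.getD (ix p) 0) = true ∧ pc (tm3.getD (ix p) 0) = 4 ∧ 8388615 ^^^ tm3.getD (ix p) 0 < 2 ^ 24 := by
  decide +kernel

noncomputable def x3 : Co0 := ⟨xi (mset 8388615) card_T3, xi_mem card_T3⟩

theorem x3_L : IsL x3 (xil 8388615 tq3) := by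
  intro v l hv
  show xiF (mset 8388615) (v : GolayPt → ℤ) = _
  rw [hv, xil_spec card_T3 (tq_ok tq3_ok1)]

def cP1 : ℕ := 47639082121384049013654533791318766
def cP1i : ℕ := 68979976310454745236424854115370722
def cP2 : ℕ := 966219223558358662612782884019422304
def cP2i : ℕ := 971213700108081362580017827427685920

theorem inM_cP1 : inM cP1 = true := by decide +kernel
noncomputable def pP1 : M24 := ⟨toPerm cP1, toPerm_mem_M24 inM_cP1⟩
theorem inM_cP2 : inM cP2 = true := by decide +kernel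
noncomputable def pP2 : M24 := ⟨toPerm cP2, toPerm_mem_M24 inM_cP2⟩
theorem pP1_inv (p : GolayPt) : (pP1 : Equiv.Perm GolayPt) (pt (img cP1i (ix p))) = p := by
  show toPerm cP1 _ = _
  rw [toPerm_apply (valid_of_inM inM_cP1)]; revert p; decide +kernel
theorem pP2_inv (p : GolayPt) : (pP2 : Equiv.Perm GolayPt) (pt (img cP2i (ix p))) = p := by
  show toPerm cP2 _ = _
  rw [toPerm_apply (valid_of_inM inM_cP2)]; revert p; decide +kernel
theorem pP1_lt : ∀ p : GolayPt, img cP1i (ix p) < 24 := by decide +kernel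
theorem pP2_lt : ∀ p : GolayPt, img cP2i (ix p) < 24 := by decide +kernel

theorem pP1_L : IsL (peH pP1) (pl cP1i) := fun _ _ hv => pl_spec pP1_inv pP1_lt hv
theorem pP2_L : IsL (peH pP2) (pl cP2i) := fun _ _ hv => pl_spec pP2_inv pP2_lt hv

theorem C1_mem : mset 12356440 ∈ Sup := (mset_mem_supports_iff (by norm_num)).mpr (by decide +kernel)
theorem C2_mem : mset 5930970 ∈ Sup := (mset_mem_supports_iff (by norm_num)).mpr (by decide +kernel)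
theorem C0_mem : mset 258862 ∈ Sup := (mset_mem_supports_iff (by norm_num)).mpr (by decide +kernel)

theorem mset_bit (n : ℕ) (i : GolayPt) : i ∈ mset n ↔ n.testBit (ix i) = true := mem_mset

theorem e1_L : IsL (eps (mset 12356440) C1_mem) (epl 12356440) := fun _ _ hv => epl_spec (mset_bit _) hv
theorem e2_L : IsL (eps (mset 5930970) C2_mem) (epl 5930970) := fun _ _ hv => epl_spec (mset_bit _) hv
theorem e0_L : IsL (eps (mset 258862) C0_mem) (epl 258862) := fun _ _ hv => epl_spec (mset_bit _) hv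

def G1 (l : List ℤ) : List ℤ := pl cP1i (epl 12356440 (xil 8388615 tq3 l))
def G2 (l : List ℤ) : List ℤ := pl cP2i (epl 5930970 l)

theorem g1_L : IsL (peH pP1 * (eps (mset 12356440) C1_mem * x3)) G1 := pP1_L.mul (e1_L.mul x3_L)
theorem g2_L : IsL (peH pP2 * eps (mset 5930970) C2_mem) G2 := pP2_L.mul e2_L

noncomputable def h1 : D2 := ⟨_, mem_D2_of g1_L (by decide +kernel) (by decide +kernel)⟩
noncomputable def h2 : D2 := ⟨_, mem_D2_of g2_L (by decide +kernel) (by decide +kernel)⟩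
noncomputable def h0 : D2 := ⟨_, mem_D2_of e0_L (by decide +kernel) (by decide +kernel)⟩

/-- matrices by rows -/
def mR (r : List (List (ZMod 2))) : Matrix (Fin 3 ⊕ Fin 3) (Fin 3 ⊕ Fin 3) (ZMod 2) := fun i j =>
  (r.getD (Sum.elim (fun k : Fin 3 => (k : ℕ)) (fun k : Fin 3 => (k : ℕ) + 3) i) []).getD
    (Sum.elim (fun k : Fin 3 => (k : ℕ)) (fun k : Fin 3 => (k : ℕ) + 3) j) 0

def M1r : List (List (ZMod 2)) := [[0, 1, 0, 1, 1, 0], [1, 0, 1, 1, 1, 0], [0, 0, 1, 1, 0, 1], [0, 0, 0, 0, 1, 0], [1, 0, 0, 1, 1, 1],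
  [1, 0, 0, 1, 1, 0]]
def M2r : List (List (ZMod 2)) := [[1, 0, 1, 1, 0, 1], [0, 1, 1, 1, 0, 0], [0, 0, 1, 0, 1, 1], [1, 0, 1, 0, 0, 1], [0, 0, 0, 0, 1, 0],
  [0, 0, 0, 1, 1, 1]]

theorem M1_eq : ∀ p : (Fin 3 ⊕ Fin 3) × (Fin 3 ⊕ Fin 3), mL G1 p.1 p.2 = mR M1r p.1 p.2 := by decide +kernel
theorem M2_eq : ∀ p : (Fin 3 ⊕ Fin 3) × (Fin 3 ⊕ Fin 3), mL G2 p.1 p.2 = mR M2r p.1 p.2 := by decide +kernel

def v06 : V6 := Pi.single (Sum.inl 1) 1

theorem M0_eq : ∀ p : (Fin 3 ⊕ Fin 3) × (Fin 3 ⊕ Fin 3), mL (epl 258862) p.1 p.2 = sympTransvection 3 v06 (1 : ZMod 2) p.1 p.2 := by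
  decide +kernel

def wtab : List (List ℕ) :=
  [[], [0], [], [1, 0, 0, 0], [0, 1, 1, 0, 0, 0], [0, 1, 0], [1, 0, 1, 0], [0, 1, 0, 1, 0],
    [1, 0, 0, 1, 0, 0], [1, 0], [0, 1, 1, 0, 0], [1, 1, 0, 0, 0], [1, 1, 1, 0], [1, 1, 0, 1, 0], [1, 1, 1, 1, 0, 0, 0], [0, 0, 0, 1, 1, 0],
    [1, 0, 1, 1, 1, 0], [0, 0, 0, 0, 1, 0], [0, 0, 0, 0, 0], [1, 0, 1, 0, 1, 0, 0], [1, 1, 0, 0, 0, 0, 0], [0, 0, 1, 1, 0], [1, 0, 0, 1, 0], [0, 0, 0, 1, 0, 0],
    [1, 1, 1, 0, 0], [0, 0, 0, 0, 0, 0, 0], [0, 1, 1, 0, 1, 0, 0], [1, 0, 0], [1, 1, 0, 0], [0, 0, 1, 1, 1, 0], [0, 0, 1, 0, 0, 1, 0], [0, 1, 0, 1, 0, 0],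
    [0, 1, 1, 1, 0, 1, 0], [1, 0, 1, 1, 0, 0], [0, 1, 1, 0], [0, 1, 1, 1, 0, 0, 0], [0, 0, 0, 0], [1, 1, 1, 0, 1, 0], [0, 1, 0, 1, 1, 0, 0], [1, 0, 0, 0, 1, 1, 0],
    [1, 1, 1, 0, 0, 0], [0, 0, 0, 1, 0], [1, 1, 0], [1, 1, 1, 1, 0, 1, 0], [1, 1, 1, 1, 0], [0, 0, 1, 0, 0], [0, 0, 0], [1, 0, 1, 1, 0],
    [1, 0, 0, 0, 1, 0, 0], [0, 1, 1, 1, 0], [0, 0], [0, 1, 0, 0, 0], [0, 0, 1, 0], [0, 0, 1, 0, 1, 0], [1, 0, 0, 0, 0, 0], [1, 1, 0, 1, 0, 0],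
    [1, 0, 0, 0, 0, 0, 0], [1, 1, 0, 0, 1, 0], [0, 0, 0, 0, 0, 0], [0, 1, 0, 1, 1, 1, 0], [0, 1, 0, 0, 1, 0], [1, 0, 0, 0, 0, 1, 0], [1, 0, 1, 0, 0], [0, 1, 0, 0]]

def evW : List ℕ → V6
  | [] => v06
  | 0 :: l => mR M1r *ᵥ evW l
  | _ :: l => mR M2r *ᵥ evW l

def numV (v : V6) : ℕ := (v (Sum.inl 0)).val + 2 * (v (Sum.inl 1)).val + 4 * (v (Sum.inl 2)).val + 8 * (v (Sum.inr 0)).val +
  16 * (v (Sum.inr 1)).val + 32 * (v (Sum.inr 2)).val

theorem reach : ∀ v : V6, v ≠ 0 → evW (wtab.getD (numV v) []) = v := by decide +kernel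

/-- vectors whose transvection is in the image -/
def TrV (v : V6) : Prop := ∃ g : D2, (rho6 g : Matrix (Fin 3 ⊕ Fin 3) (Fin 3 ⊕ Fin 3) (ZMod 2)) = sympTransvection 3 v (1 : ZMod 2)

theorem TrV_v0 : TrV v06 := ⟨h0, by
  rw [rho6_mL h0 e0_L]
  ext i j
  exact M0_eq (i, j)⟩

theorem TrV_conj {v : V6} (hv : TrV v) (h : D2) :
    TrV ((rho6 h : Matrix (Fin 3 ⊕ Fin 3) (Fin 3 ⊕ Fin 3) (ZMod 2)) *ᵥ v) := by
  obtain ⟨g, hg⟩ := hv
  refine ⟨h * g * h⁻¹, ?_⟩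
  have h1 := SympMat.transvection_conj v (rho6 h).2 (1 : ZMod 2)
  have h2 : rho6 (h * g * h⁻¹) * rho6 h = rho6 h * rho6 g := by
    rw [← map_mul, ← map_mul]
    congr 1
    group
  have h3 : (rho6 (h * g * h⁻¹) : Matrix (Fin 3 ⊕ Fin 3) (Fin 3 ⊕ Fin 3) (ZMod 2)) * (rho6 h : Matrix (Fin 3 ⊕ Fin 3) (Fin 3 ⊕ Fin 3) (ZMod 2)) =
      (rho6 h : Matrix (Fin 3 ⊕ Fin 3) (Fin 3 ⊕ Fin 3) (ZMod 2)) * (rho6 g : Matrix (Fin 3 ⊕ Fin 3) (Fin 3 ⊕ Fin 3) (ZMod 2)) :=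
    congrArg Subtype.val h2
  rw [hg, h1] at h3
  have h4 : (rho6 h : Matrix (Fin 3 ⊕ Fin 3) (Fin 3 ⊕ Fin 3) (ZMod 2)) *
      ((rho6 h)⁻¹ : Matrix.symplecticGroup (Fin 3) (ZMod 2)) = 1 := congrArg Subtype.val (mul_inv_cancel (rho6 h))
  have h5 := congrArg (fun z => z * (((rho6 h)⁻¹ : Matrix.symplecticGroup (Fin 3) (ZMod 2)) : Matrix (Fin 3 ⊕ Fin 3) (Fin 3 ⊕ Fin 3) (ZMod 2))) h3
  simp only [Matrix.mul_assoc] at h5
  rw [h4, Matrix.mul_one, Matrix.mul_one] at h5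
  exact h5

theorem TrV_ev (l : List ℕ) : TrV (evW l) := by
  induction l with
  | nil => exact TrV_v0
  | cons a l ih =>
    rcases a with _ | a
    · have h := TrV_conj ih h1
      rw [rho6_mL h1 g1_L, show mL G1 = mR M1r from Matrix.ext fun i j => M1_eq (i, j)] at h
      exact h
    · have h := TrV_conj ih h2
      rw [rho6_mL h2 g2_L, show mL G2 = mR M2r from Matrix.ext fun i j => M2_eq (i, j)] at h
      exact h

theorem rho6_surj : Function.Surjective rho6 := by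
  rw [← MonoidHom.range_eq_top, eq_top_iff, ← SympGen.closure_transvections 3 (ZMod 2), Subgroup.closure_le]
  rintro A ⟨w, c, hA⟩
  by_cases hw : w = 0
  · have : A = 1 := by
      apply Subtype.ext
      rw [hA, hw]
      apply Matrix.ext_of_mulVec_single
      intro i
      rw [SympMat.transvection_mulVec, smul_zero, add_zero, OneMemClass.coe_one, Matrix.one_mulVec]
    rw [this]; exact one_mem _
  · have hc : ∀ c : ZMod 2, c = 0 ∨ c = 1 := by decide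
    rcases hc c with rfl | rfl
    · have : A = 1 := by
        apply Subtype.ext
        rw [hA]
        apply Matrix.ext_of_mulVec_single
        intro i
        rw [SympMat.transvection_mulVec, zero_mul, zero_smul, add_zero, OneMemClass.coe_one, Matrix.one_mulVec]
      rw [this]; exact one_mem _
    · obtain ⟨g, hg⟩ := TrV_ev (wtab.getD (numV w) [])
      rw [reach w hw] at hg
      exact ⟨g, Subtype.ext (hg.trans hA.symm)⟩

end Cfsg.Agent.Lib.LeechSyl
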