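import Cfsg.Agent.Lib.LeechCen4
import Cfsg.Agent.Lib.GolayOctadA8
import Cfsg.Agent.Lib.LargeExtra7

/-!
The kernel of the homomorphism to `Sp(6, 2)` consists of the elements fixing every vector supported on the octad.
-/

set_option autoImplicit false

namespace Cfsg.Agent.Lib.LeechSyl

open Cfsg Cfsg.Agent.Lib.Golay Cfsg.Agent.Lib.LeechMin Cfsg.Agent.Lib.GolayCoset Cfsg.Agent.Lib.LeechXi
  Cfsg.Agent.Lib.LeechTrans Cfsg.Agent.Lib.LeechCo2 Cfsg.Agent.Lib.LeechFrame Cfsg.Agent.Lib.LeechCount
  Cfsg.Agent.Lib.LeechOrder Cfsg.Agent.Lib.LeechMod Cfsg.Agent.Lib.LeechQuot Cfsg.Agent.Lib.LeechChain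
open Subgroup
open scoped Pointwise Matrix

theorem zero_of_norm {x : leechLattice} (h : sqNorm (x : GolayPt → ℤ) = 0) : x = 0 := by
  apply Subtype.ext
  funext i
  have h1 := (Finset.sum_eq_zero_iff_of_nonneg (s := Finset.univ) (f := fun i => (x : GolayPt → ℤ) i ^ 2)
    (fun i _ => sq_nonneg _)).1 h i (Finset.mem_univ _)
  exact pow_eq_zero_iff (two_ne_zero) |>.1 h1

theorem norm_nonneg (x : GolayPt → ℤ) : 0 ≤ sqNorm x := Finset.sum_nonneg fun i _ => sq_nonneg _

theorem coe_sub_L (x y : leechLattice) : ((x - y : leechLattice) : GolayPt → ℤ) = (x : GolayPt → ℤ) - (y : GolayPt → ℤ) := rfl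
theorem coe_add_L (x y : leechLattice) : ((x + y : leechLattice) : GolayPt → ℤ) = (x : GolayPt → ℤ) + (y : GolayPt → ℤ) := rfl

theorem norm_double (y : GolayPt → ℤ) : sqNorm (y + y) = 4 * sqNorm y := by
  rw [sqNorm_add, ← sqNorm_eq_dot]; ring

theorem dot_double (x y : GolayPt → ℤ) : dotInt x (y + y) = 2 * dotInt x y := by
  rw [dot_add_right']; ring

theorem dot_sub_right' (b x y : GolayPt → ℤ) : dotInt b (x - y) = dotInt b x - dotInt b y := by
  rw [dot_comm, dot_sub_left, dot_comm, dot_comm y]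

/-- roots orthogonal to `X` are fixed up to sign -/
theorem ker_root {g : D2} (hg : rho6 g = 1) {s : leechLattice} (hs : s ∈ LO)
    (hX : dotInt (X hab : GolayPt → ℤ) (s : GolayPt → ℤ) = 0) (hn : sqNorm (s : GolayPt → ℤ) = 32) :
    (g : Co0) • s = s ∨ (g : Co0) • s = -s := by
  have hk : kap (X hab) s = 0 := by unfold kap; rw [hX]; rfl
  set w : W6 := ⟨s, hs, hk⟩ with hw
  have h1 : kap6 (act6 g w) = kap6 w := rho6_ker.1 hg w
  have h2 : kap6 (act6 g w - w) = 0 := by rw [map_sub, h1, sub_self]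
  obtain ⟨y, hy, h3⟩ := kap6_ker h2
  have hc : ((act6 g w - w : W6) : leechLattice) = (g : Co0) • s - s := rfl
  rw [hc] at h3
  have hgs : (g : Co0) • s ∈ LO := D2_LO g hs
  have hgn : sqNorm (((g : Co0) • s : leechLattice) : GolayPt → ℤ) = 32 := by rw [sqNorm_smul, hn]
  set d := dotInt (((g : Co0) • s : leechLattice) : GolayPt → ℤ) (s : GolayPt → ℤ) with hd
  have h4 : (32 : ℤ) ∣ d := by
    have h5 : kap ((g : Co0) • s) s = 0 := by
      have h6 := symp_kap (act6 g w) w
      have h7 := symp_kap w w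
      rw [h1, h7] at h6
      have h8 : kap (w : leechLattice) (w : leechLattice) = 0 := by
        show kap s s = 0
        unfold kap
        rw [← sqNorm_eq_dot, hn]
        rfl
      rw [h8] at h6
      exact h6.symm
    exact (kap_zero_iff hgs hs).1 h5
  have h5 : sqNorm (((g : Co0) • s - s : leechLattice) : GolayPt → ℤ) = 64 - 2 * d := by
    rw [coe_sub_L, sqNorm_sub, hgn, hn]; ring
  have h6 : sqNorm (((g : Co0) • s + s : leechLattice) : GolayPt → ℤ) = 64 + 2 * d := by
    rw [coe_add_L, sqNorm_add, hgn, hn]; ring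
  have h7 := norm_nonneg (((g : Co0) • s - s : leechLattice) : GolayPt → ℤ)
  have h8 := norm_nonneg (((g : Co0) • s + s : leechLattice) : GolayPt → ℤ)
  have h9 : d = 32 ∨ d = -32 ∨ d = 0 := by omega
  rcases h9 with h9 | h9 | h9
  · left
    have := zero_of_norm (x := (g : Co0) • s - s) (by rw [h5, h9]; norm_num)
    exact sub_eq_zero.1 this
  · right
    have := zero_of_norm (x := (g : Co0) • s + s) (by rw [h6, h9]; norm_num)
    exact eq_neg_of_add_eq_zero_left this
  · exfalso
    have hyn := norm32 hy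
    have hXg : dotInt (X hab : GolayPt → ℤ) (((g : Co0) • s : leechLattice) : GolayPt → ℤ) = 0 := by
      have := dot_smul (g : Co0) (X hab) s
      rw [D2_X g, hX] at this
      exact this
    have h10 : dotInt (X hab : GolayPt → ℤ) (((g : Co0) • s - s : leechLattice) : GolayPt → ℤ) = 0 := by
      rw [coe_sub_L, dot_sub_right', hXg, hX]; rfl
    rcases h3 with h3 | h3
    · rw [h3, coe_add_L, norm_double] at h5
      omega
    · have hXX : dotInt (X hab : GolayPt → ℤ) (X hab : GolayPt → ℤ) = 32 := by rw [← sqNorm_eq_dot, sqNorm_X]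
      rw [h3, coe_add_L, coe_add_L, sqNorm_add, norm_double, dot_double, sqNorm_X] at h5
      rw [h3, coe_add_L, coe_add_L, dot_add_right', dot_double, hXX] at h10
      omega

/-- elements moving a frame vector to a frame vector are monomial -/
theorem mono_of_ef {g : Co0} {i j : GolayPt} (h : g • ef i = ef j) :
    ∃ σ ∈ M24, ∃ c ∈ Sup, ∀ v : leechLattice, ((g • v : leechLattice) : GolayPt → ℤ) = signedPerm σ c v := by
  apply exists_mono
  intro v hv
  rw [← cross_single i] at hv
  rw [← cross_single j]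
  obtain ⟨h1, h2, z, hz, h3⟩ := hv
  refine ⟨(g • v : leechLattice).2, ?_, ((g • (⟨z, hz⟩ : leechLattice) : leechLattice) : GolayPt → ℤ), (g • (⟨z, hz⟩ : leechLattice) : leechLattice).2, ?_⟩
  · rw [sqNorm_smul, h2, sqNorm_single, sqNorm_single]
  · have h4 : ef i = v + ((⟨z, hz⟩ : leechLattice) + ⟨z, hz⟩) := by
      apply Subtype.ext
      rw [coe_ef]
      show _ = (v : GolayPt → ℤ) + (z + z)
      rw [← two_nsmul, ← h3]; abel
    have h5 : ef j = g • v + (g • (⟨z, hz⟩ : leechLattice) + g • (⟨z, hz⟩ : leechLattice)) := by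
      rw [← h, h4, smul_add', smul_add']
    have h6 := congrArg (fun x : leechLattice => (x : GolayPt → ℤ)) h5
    have h7 : (Pi.single j 8 : GolayPt → ℤ) = ((g • v : leechLattice) : GolayPt → ℤ) +
        (((g • (⟨z, hz⟩ : leechLattice) : leechLattice) : GolayPt → ℤ) + ((g • (⟨z, hz⟩ : leechLattice) : leechLattice) : GolayPt → ℤ)) := h6
    rw [h7, two_nsmul]; abel

/-- six points -/
def six : Finset GolayPt := {some 1, some 2, some 3, some 5, some 14, some 17}

theorem six_sub : ∀ i ∈ six, i ∈ oc := by decide +kernel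
theorem oc_cases : ∀ i ∈ oc, i = none ∨ i = some 0 ∨ i ∈ six := by decide +kernel
theorem six_two : ∀ i ∈ six, ∃ j ∈ six, ∃ k ∈ six, i ≠ j ∧ i ≠ k ∧ j ≠ k := by decide +kernel
theorem six_none : ∀ i ∈ six, i ≠ none ∧ i ≠ some 0 := by decide +kernel

theorem X_mem_LO {i j : GolayPt} (h : i ≠ j) (hi : i ∈ oc) (hj : j ∈ oc) : X h ∈ LO := by
  intro k hk
  have h1 : k ≠ i := fun e => hk (by rw [e]; exact hi)
  have h2 : k ≠ j := fun e => hk (by rw [e]; exact hj)
  rw [coe_X, Pi.add_apply, Pi.single_eq_of_ne h1, Pi.single_eq_of_ne h2]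
  rfl

theorem S_mem_LO {i j : GolayPt} (h : i ≠ j) (hi : i ∈ oc) (hj : j ∈ oc) : S h ∈ LO := by
  intro k hk
  have h1 : k ≠ i := fun e => hk (by rw [e]; exact hi)
  have h2 : k ≠ j := fun e => hk (by rw [e]; exact hj)
  rw [coe_S, Pi.sub_apply, Pi.single_eq_of_ne h1, Pi.single_eq_of_ne h2]
  rfl

theorem dotX (y : GolayPt → ℤ) : dotInt (X hab : GolayPt → ℤ) y = 4 * y none + 4 * y (some 0) := by
  rw [coe_X, dot_add_left, dot_single, dot_single]

/-- the spin root -/
def spL : List ℤ := [-2, 2, 2, 2, 0, 2, 0, 0, 0, 0, 0, 0, 0, 0, 2, 0, 0, -2, 0, 0, 0, 0, 0, 2]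
theorem spL_ok : isCode 8536111 = true ∧ 8536111 < 2 ^ 24 ∧
    (∀ i, (4 : ℤ) ∣ vl spL i - 2 * chi (mset 8536111) i) ∧ (8 : ℤ) ∣ ∑ i, vl spL i := by
  decide +kernel
def spV : leechLattice := ⟨vl spL, vl_mem spL_ok.1 spL_ok.2.1 spL_ok.2.2.1 spL_ok.2.2.2⟩
theorem spL_supp : ∀ i, i ∉ oc → vl spL i = 0 := by decide +kernel
theorem spV_mem : spV ∈ LO := spL_supp
theorem spV_norm : sqNorm (spV : GolayPt → ℤ) = 32 := by
  show sqNorm (vl spL) = 32
  decide +kernel
theorem spV_none : (spV : GolayPt → ℤ) none = 2 := by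
  show vl spL none = 2
  decide +kernel
theorem spV_zero : (spV : GolayPt → ℤ) (some 0) = -2 := by
  show vl spL (some 0) = -2
  decide +kernel
theorem spV_ne : ∀ i ∈ oc, vl spL i ≠ 0 := by decide +kernel

/-- elements of the kernel fix every vector supported on the octad -/
theorem ker_fix {g : D2} (hg : rho6 g = 1) {x : leechLattice} (hx : x ∈ LO) : (g : Co0) • x = x := by
  -- monomial form
  have h1 : (g : Co0) • S hab = S hab ∨ (g : Co0) • S hab = -S hab := by
    apply ker_root hg
    · exact S_mem_LO hab (by decide +kernel) (by decide +kernel)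
    · rw [dotX, coe_S]; decide +kernel
    · exact sqNorm_S
  obtain ⟨σ, hσ, c, hc, hm⟩ : ∃ σ ∈ M24, ∃ c ∈ Sup, ∀ v : leechLattice, (((g : Co0) • v : leechLattice) : GolayPt → ℤ) = signedPerm σ c v := by
    rcases h1 with h1 | h1
    · exact mono_of_ef (i := none) (j := none) (by rw [ef_eq, smul_add', D2_X g, h1])
    · exact mono_of_ef (i := none) (j := some 0) (by
        rw [ef_eq, smul_add', D2_X g, h1]
        exact (ef_sub hab).symm)
  -- pairs of points
  have h2 : ∀ i ∈ six, ∀ j ∈ six, ∀ h : i ≠ j, ((g : Co0) • X h = X h ∨ (g : Co0) • X h = -X h) := by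
    intro i hi j hj h
    apply ker_root hg
    · exact X_mem_LO h (six_sub i hi) (six_sub j hj)
    · obtain ⟨a1, a2⟩ := six_none i hi
      obtain ⟨a3, a4⟩ := six_none j hj
      rw [dotX, coe_X, Pi.add_apply, Pi.add_apply, Pi.single_eq_of_ne a1.symm, Pi.single_eq_of_ne a2.symm,
        Pi.single_eq_of_ne a3.symm, Pi.single_eq_of_ne a4.symm]
      norm_num
    · exact sqNorm_X h
  have h3 : ∀ i ∈ six, ∀ j ∈ six, i ≠ j → (σ i = i ∨ σ i = j) := by
    intro i hi j hj h
    by_contra hcon
    push Not at hcon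
    have h4 := congrFun (hm (X h)) (σ i)
    rw [signedPerm_apply, Equiv.symm_apply_apply] at h4
    have h5 : (X h : GolayPt → ℤ) i = 4 := by
      rw [coe_X, Pi.add_apply, Pi.single_eq_same, Pi.single_eq_of_ne h]; rfl
    have h6 : (X h : GolayPt → ℤ) (σ i) = 0 := by
      rw [coe_X, Pi.add_apply, Pi.single_eq_of_ne hcon.1, Pi.single_eq_of_ne hcon.2]; rfl
    have h7 : (((g : Co0) • X h : leechLattice) : GolayPt → ℤ) (σ i) = 0 := by
      rcases h2 i hi j hj h with e | e
      · rw [e, h6]
      · rw [e, coe_neg', Pi.neg_apply, h6]; rfl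
    rw [h7, h5] at h4
    rcases chi_cases c (σ i) with ⟨-, e⟩ | ⟨-, e⟩ <;> rw [e] at h4 <;> norm_num at h4
  have h4 : ∀ i ∈ six, σ i = i := by
    intro i hi
    obtain ⟨j, hj, k, hk, hij, hik, hjk⟩ := six_two i hi
    rcases h3 i hi j hj hij with e | e
    · exact e
    · rcases h3 i hi k hk hik with e' | e'
      · exact e'
      · exact absurd (e.symm.trans e') hjk
  -- signs on the two points
  have h5 : ∀ i, (X hab : GolayPt → ℤ) i = if i = none ∨ i = some 0 then 4 else 0 := by
    rw [coe_X]; decide +kernel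
  have h6 : ∀ i, (i = none ∨ i = some 0) → ((σ i = none ∨ σ i = some 0) ∧ σ i ∉ c) := by
    intro i hi
    have e1 := congrFun (hm (X hab)) (σ i)
    rw [signedPerm_apply, Equiv.symm_apply_apply, D2_X g, h5, h5, if_pos hi] at e1
    rcases chi_cases c (σ i) with ⟨e3, e⟩ | ⟨e3, e⟩ <;> rw [e] at e1 <;> by_cases e2 : σ i = none ∨ σ i = some 0
    · rw [if_pos e2] at e1; norm_num at e1
    · rw [if_neg e2] at e1; norm_num at e1
    · exact ⟨e2, e3⟩
    · rw [if_neg e2] at e1; norm_num at e1
  -- `σ` fixes both points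
  have h7 : σ none = none := by
    by_contra hne
    have e1 : σ none = some 0 := (h6 none (Or.inl rfl)).1.resolve_left hne
    have e2 : σ (some 0) = none := by
      rcases (h6 (some 0) (Or.inr rfl)).1 with e | e
      · exact e
      · exact absurd (σ.injective (e.trans e1.symm)) (by decide)
    have hst : ∀ x, σ x ∈ oc ↔ x ∈ oc := by
      have hto : ∀ x ∈ oc, σ x ∈ oc := by
        intro x hx
        rcases oc_cases x hx with rfl | rfl | h8
        · rw [e1]; decide +kernel
        · rw [e2]; decide +kernel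
        · rw [h4 x h8]; exact hx
      intro x
      refine ⟨fun h => ?_, hto x⟩
      have himg : oc.image σ = oc := by
        apply Finset.eq_of_subset_of_card_le
        · intro y hy
          obtain ⟨z, hz, rfl⟩ := Finset.mem_image.1 hy
          exact hto z hz
        · rw [Finset.card_image_of_injective _ σ.injective]
      rw [← himg] at h
      obtain ⟨z, hz, e⟩ := Finset.mem_image.1 h
      rw [← σ.injective e]; exact hz
    have hA : σ.subtypePerm hst ∈ (alternatingGroup ↥oc : Set (Equiv.Perm ↥oc)) := by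
      rw [← octad_induced oc oct0_mem]
      exact ⟨σ, hσ, hst, rfl⟩
    have hn : (none : GolayPt) ∈ oc := by decide +kernel
    have h0 : (some 0 : GolayPt) ∈ oc := by decide +kernel
    have hsw : σ.subtypePerm hst = Equiv.swap (⟨none, hn⟩ : ↥oc) ⟨some 0, h0⟩ := by
      apply Equiv.ext
      rintro ⟨x, hx⟩
      apply Subtype.ext
      rw [Equiv.Perm.subtypePerm_apply]
      rcases oc_cases x hx with rfl | rfl | h8
      · rw [Equiv.swap_apply_left]; exact e1
      · rw [Equiv.swap_apply_right]; exact e2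
      · rw [Equiv.swap_apply_of_ne_of_ne]
        · exact h4 x h8
        · intro h; exact (six_none x h8).1 (congrArg Subtype.val h)
        · intro h; exact (six_none x h8).2 (congrArg Subtype.val h)
    rw [hsw, SetLike.mem_coe, Equiv.Perm.mem_alternatingGroup, Equiv.Perm.sign_swap] at hA
    · exact absurd hA (by decide)
    · intro h
      have h' : (none : GolayPt) = some 0 := congrArg Subtype.val h
      exact Option.some_ne_none _ h'.symm
  have h8 : σ (some 0) = some 0 := by
    rcases (h6 (some 0) (Or.inr rfl)).1 with e | e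
    · exact absurd (σ.injective (e.trans h7.symm)) (by decide)
    · exact e
  have h9 : ∀ i ∈ oc, σ i = i := by
    intro i hi
    rcases oc_cases i hi with rfl | rfl | h
    · exact h7
    · exact h8
    · exact h4 i h
  have h9' : ∀ i ∈ oc, σ.symm i = i := fun i hi => by rw [Equiv.symm_apply_eq, h9 i hi]
  -- signs
  have h10 : none ∉ c := by
    have := (h6 none (Or.inl rfl)).2
    rwa [h7] at this
  have h11 : (g : Co0) • spV = spV := by
    rcases ker_root hg spV_mem (by rw [dotX, spV_none, spV_zero]; norm_num) spV_norm with e | e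
    · exact e
    · exfalso
      have e1 := congrFun (hm spV) none
      rw [signedPerm_apply, h9' none (by decide +kernel), e, coe_neg', Pi.neg_apply, spV_none] at e1
      rcases chi_cases c none with ⟨e3, e⟩ | ⟨e3, e⟩
      · exact h10 e3
      · rw [e] at e1; norm_num at e1
  have h12 : ∀ i ∈ oc, i ∉ c := by
    intro i hi hic
    have e1 := congrFun (hm spV) i
    rw [signedPerm_apply, h9' i hi, h11] at e1
    rcases chi_cases c i with ⟨e3, e⟩ | ⟨e3, e⟩
    · rw [e] at e1
      have := spV_ne i hi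
      change vl spL i = (1 - 2 * 1) * vl spL i at e1
      omega
    · exact e3 hic
  -- conclusion
  apply Subtype.ext
  rw [hm]
  funext i
  rw [signedPerm_apply]
  by_cases hi : i ∈ oc
  · rw [h9' i hi]
    rcases chi_cases c i with ⟨e3, e⟩ | ⟨e3, e⟩
    · exact absurd e3 (h12 i hi)
    · rw [e]; ring
  · have hi' : σ.symm i ∉ oc := by
      intro h
      have := h9 _ h
      rw [Equiv.apply_symm_apply] at this
      exact hi (this ▸ h)
    rw [hx _ hi', hx _ hi, mul_zero]

end Cfsg.Agent.Lib.LeechSyl
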