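import Cfsg.Agent.Lib.LeechCen5
import Cfsg.Agent.Lib.GolayMore

/-!
The pointwise stabiliser of the vectors supported on an octad is extraspecial of order `2 ^ 9`.
-/

set_option autoImplicit false
set_option maxHeartbeats 400000

namespace Cfsg.Agent.Lib.LeechSyl

open Cfsg Cfsg.Agent.Lib.Golay Cfsg.Agent.Lib.LeechMin Cfsg.Agent.Lib.GolayCoset Cfsg.Agent.Lib.LeechXi
  Cfsg.Agent.Lib.LeechTrans Cfsg.Agent.Lib.LeechCo2 Cfsg.Agent.Lib.LeechFrame Cfsg.Agent.Lib.LeechCount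
  Cfsg.Agent.Lib.LeechOrder Cfsg.Agent.Lib.LeechMod Cfsg.Agent.Lib.LeechQuot Cfsg.Agent.Lib.LeechChain
open Subgroup
open scoped Pointwise Matrix

/-- the pointwise stabiliser of the vectors supported on the octad -/
def Q9 : Subgroup Co0 where
  carrier := {g | ∀ x ∈ LO, g • x = x}
  mul_mem' := fun {a b} ha hb x hx => by rw [mul_smul, hb x hx, ha x hx]
  one_mem' := fun x _ => one_smul _ _
  inv_mem' := fun {a} ha x hx => by rw [inv_smul_eq_iff, ha x hx]

theorem mem_Q9 {g : Co0} : g ∈ Q9 ↔ ∀ x ∈ LO, g • x = x := Iff.rfl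

theorem ef_mem_LO {i : GolayPt} (hi : i ∈ oc) : ef i ∈ LO := by
  intro k hk
  have h1 : k ≠ i := fun e => hk (by rw [e]; exact hi)
  rw [coe_ef, Pi.single_eq_of_ne h1]

theorem Q9_form {g : Co0} (hg : g ∈ Q9) : ∃ (σ : M24) (c : Finset GolayPt) (hc : c ∈ Sup),
    (σ : Equiv.Perm GolayPt) ∈ OctPt oc ∧ (∀ i ∈ oc, i ∉ c) ∧ g = eps c hc * peH σ := by
  obtain ⟨σ, hσ, c, hc, hm⟩ := mono_of_ef (hg (ef none) (ef_mem_LO (by decide +kernel)))
  have h1 : ∀ i ∈ oc, σ i = i ∧ i ∉ c := by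
    intro i hi
    have h2 := hm (ef i)
    rw [hg (ef i) (ef_mem_LO hi), coe_ef, signedPerm_single] at h2
    have h3 : σ i = i := by
      by_contra hne
      have h4 := congrFun h2 i
      rw [Pi.single_eq_same, Pi.single_eq_of_ne (Ne.symm hne)] at h4
      norm_num at h4
    refine ⟨h3, fun hic => ?_⟩
    have h4 := congrFun h2 i
    rw [h3, Pi.single_eq_same, Pi.single_eq_same, if_pos hic] at h4
    norm_num at h4
  refine ⟨⟨σ, hσ⟩, c, hc, mem_OctPt.2 ⟨hσ, fun p hp => (h1 p hp).1⟩, fun i hi => (h1 i hi).2, ?_⟩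
  apply ext_smul
  intro v
  apply Subtype.ext
  rw [hm, mul_smul]
  funext i
  rw [signedPerm_apply, eps_apply, peH_smul]
  rcases chi_cases c i with ⟨e3, e⟩ | ⟨e3, e⟩
  · rw [e, if_pos e3]; ring
  · rw [e, if_neg e3]; ring

theorem OctPt_symm {σ : Equiv.Perm GolayPt} (hσ : σ ∈ OctPt oc) {i : GolayPt} (hi : i ∈ oc) : σ.symm i = i := by
  rw [Equiv.symm_apply_eq, (mem_OctPt.1 hσ).2 i hi]

theorem OctPt_symm_notin {σ : Equiv.Perm GolayPt} (hσ : σ ∈ OctPt oc) {i : GolayPt} (hi : i ∉ oc) : σ.symm i ∉ oc := by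
  intro h
  have := (mem_OctPt.1 hσ).2 _ h
  rw [Equiv.apply_symm_apply] at this
  exact hi (by rw [this]; exact h)

theorem Q9_of {σ : M24} (hσ : (σ : Equiv.Perm GolayPt) ∈ OctPt oc) {c : Finset GolayPt} (hc : c ∈ Sup) (h : ∀ i ∈ oc, i ∉ c) :
    eps c hc * peH σ ∈ Q9 := by
  intro x hx
  apply Subtype.ext
  funext i
  rw [mul_smul, eps_apply, peH_smul]
  by_cases hi : i ∈ oc
  · rw [if_neg (h i hi)]
    show (x : GolayPt → ℤ) ((σ : Equiv.Perm GolayPt).symm i) = _
    rw [OctPt_symm hσ hi]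
  · have := hx _ (OctPt_symm_notin hσ hi)
    rw [hx i hi]
    simp only [this, neg_zero, ite_self]

theorem eps_Q9 {c : Finset GolayPt} (hc : c ∈ Sup) (h : ∀ i ∈ oc, i ∉ c) : eps c hc ∈ Q9 := by
  have := Q9_of (σ := 1) (by exact one_mem _) hc h
  rwa [map_one, mul_one] at this

theorem eps_empty : eps ∅ GolayCoset.empty_mem = 1 := by
  apply ext_smul
  intro v
  apply Subtype.ext
  funext i
  rw [eps_apply, if_neg (Finset.notMem_empty _), one_smul]

theorem peH_Q9 {σ : M24} (hσ : (σ : Equiv.Perm GolayPt) ∈ OctPt oc) : peH σ ∈ Q9 := by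
  have := Q9_of hσ GolayCoset.empty_mem (fun i _ => Finset.notMem_empty i)
  rwa [eps_empty, one_mul] at this

theorem zz_Q9 : zz ∈ Q9 := fun _ hx => zz_fix.2 hx

/-- the difference between a code set and its image -/
theorem diff_cases {σ : Equiv.Perm GolayPt} (hσ : σ ∈ OctPt oc) {c : Finset GolayPt} (hc : c ∈ Sup) (h : ∀ i ∈ oc, i ∉ c) :
    symmDiff c (σ • c) = ∅ ∨ symmDiff c (σ • c) = ocᶜ := by
  have hsub : c ⊆ ocᶜ := fun i hi => Finset.mem_compl.2 fun h' => h i h' hi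
  have hsub' : σ • c ⊆ ocᶜ := by
    intro i hi
    rw [Finset.mem_compl]
    intro h'
    rw [mem_smul, OctPt_symm hσ h'] at hi
    exact h i h' hi
  have hcc : (ocᶜ).card = 16 := by
    rw [Finset.card_compl, card_oc]
    rfl
  have hcard := Finset.card_le_card hsub
  rw [hcc] at hcard
  have hs : (σ • c).card = c.card := card_smul' _ _
  have hs24 : (σ : Equiv.Perm GolayPt) ∈ M24 := (mem_OctPt.1 hσ).1
  rcases card_cases hc with h2 | h2 | h2 | h2 | h2
  · left
    rw [Finset.card_eq_zero] at h2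
    have h3 : (σ • c) = ∅ := by rw [← Finset.card_eq_zero, hs, h2]; rfl
    rw [h3, h2]; simp
  · have hd : Disjoint (mset 8536111) c := Finset.disjoint_left.2 fun i hi => h i hi
    rcases fix_trios_of_fix hs24 (fun p hp => (mem_OctPt.1 hσ).2 p hp) ⟨hc, h2⟩ hd with e | e
    · left; rw [e, symmDiff_self]; rfl
    · right
      have h5 : symmDiff c (σ • c) = c ∪ σ • c := e.symmDiff_eq_sup
      rw [h5]
      apply Finset.eq_of_subset_of_card_le (Finset.union_subset hsub hsub')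
      rw [Finset.card_union_of_disjoint e, hs, h2, hcc]
  · exfalso
    have hd : Disjoint oc c := Finset.disjoint_left.2 fun i hi => h i hi
    have h3 := symmDiff_mem_supports oc_mem hc
    have h4 : (symmDiff oc c).card = 20 := by
      have h5 : symmDiff oc c = oc ∪ c := hd.symmDiff_eq_sup
      rw [h5, Finset.card_union_of_disjoint hd, card_oc, h2]
    have := card_cases h3
    omega
  · left
    have h3 : c = ocᶜ := Finset.eq_of_subset_of_card_le hsub (by rw [hcc, h2])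
    have h4 : σ • c = ocᶜ := Finset.eq_of_subset_of_card_le hsub' (by rw [hcc, hs, h2])
    rw [h4, h3, symmDiff_self]; rfl
  · omega

theorem eps_congr {c d : Finset GolayPt} (hc : c ∈ Sup) (hd : d ∈ Sup) (h : c = d) : eps c hc = eps d hd := by subst h; rfl

theorem eps_inj {c d : Finset GolayPt} {hc : c ∈ Sup} {hd : d ∈ Sup} (h : eps c hc = eps d hd) : c = d := by
  have h1 : ∀ v : leechLattice, signedPerm 1 c v = signedPerm 1 d v := by
    intro v
    rw [← eps_smul c hc, ← eps_smul d hd, h]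
  exact (signedPerm_inj h1).2

theorem eps_peH_inj {c d : Finset GolayPt} {hc : c ∈ Sup} {hd : d ∈ Sup} {σ τ : M24} (h : eps c hc * peH σ = eps d hd * peH τ) :
    c = d ∧ σ = τ := by
  have hs : ∀ (c : Finset GolayPt) (hc : c ∈ Sup) (σ : M24) (v : leechLattice), (((eps c hc * peH σ) • v : leechLattice) : GolayPt → ℤ) =
      signedPerm σ c v := by
    intro c hc σ v
    funext i
    rw [mul_smul, eps_apply, peH_smul, signedPerm_apply]
    rcases chi_cases c i with ⟨e3, e⟩ | ⟨e3, e⟩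
    · rw [e, if_pos e3]; ring
    · rw [e, if_neg e3]; ring
  have h1 : ∀ v : leechLattice, signedPerm (σ : Equiv.Perm GolayPt) c v = signedPerm (τ : Equiv.Perm GolayPt) d v := by
    intro v
    rw [← hs c hc σ, ← hs d hd τ, h]
  obtain ⟨h2, h3⟩ := signedPerm_inj h1
  exact ⟨h3, Subtype.ext h2⟩

theorem form_mul {c d : Finset GolayPt} (hc : c ∈ Sup) (hd : d ∈ Sup) (σ τ : M24) :
    (eps c hc * peH σ) * (eps d hd * peH τ) =
      eps (symmDiff c ((σ : Equiv.Perm GolayPt) • d)) (symmDiff_mem_supports hc (smul_mem_Sup σ.2 hd)) * peH (σ * τ) := by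
  have h1 := eps_conj σ hd
  rw [mul_inv_eq_iff_eq_mul] at h1
  rw [← eps_mul hc (smul_mem_Sup σ.2 hd), map_mul]
  calc eps c hc * peH σ * (eps d hd * peH τ) = eps c hc * (peH σ * eps d hd) * peH τ := by group
    _ = _ := by rw [h1]; group

/-- elements commute up to the central involution -/
theorem Q9_comm {a b : Co0} (ha : a ∈ Q9) (hb : b ∈ Q9) : a * b = b * a ∨ a * b = zz * (b * a) := by
  obtain ⟨σ, c, hc, hσ, h1, rfl⟩ := Q9_form ha
  obtain ⟨τ, d, hd, hτ, h2, rfl⟩ := Q9_form hb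
  have hst : σ * τ = τ * σ := Subtype.ext (OctPt_comm oct0_mem hσ hτ)
  rw [form_mul hc hd, form_mul hd hc, hst]
  have h3 := diff_cases hτ hc h1
  have h4 := diff_cases hσ hd h2
  set C := (τ : Equiv.Perm GolayPt) • c
  set D := (σ : Equiv.Perm GolayPt) • d
  have hCS : C ∈ Sup := smul_mem_Sup τ.2 hc
  have hDS : D ∈ Sup := smul_mem_Sup σ.2 hd
  have key : symmDiff c D = symmDiff (symmDiff (symmDiff c C) (symmDiff d D)) (symmDiff d C) := by
    rw [symmDiff_assoc, symmDiff_assoc]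
    congr 1
    rw [symmDiff_comm d D, symmDiff_assoc, ← symmDiff_assoc d d C, symmDiff_self, bot_symmDiff,
      symmDiff_comm D C, ← symmDiff_assoc, symmDiff_self, bot_symmDiff]
  have hkey2 : ∀ E (hE : E ∈ Sup), symmDiff (symmDiff c C) (symmDiff d D) = E →
      eps (symmDiff c D) (symmDiff_mem_supports hc hDS) * peH (τ * σ) =
        eps E hE * (eps (symmDiff d C) (symmDiff_mem_supports hd hCS) * peH (τ * σ)) := by
    intro E hE h
    rw [← mul_assoc, eps_mul]
    congr 1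
    apply eps_congr
    rw [key, h]
  rcases h3 with h3 | h3 <;> rcases h4 with h4 | h4
  · left
    rw [hkey2 ∅ GolayCoset.empty_mem (by rw [h3, h4]; simp), eps_empty, one_mul]
  · right
    exact hkey2 ocᶜ occ_mem (by rw [h3, h4]; simp)
  · right
    exact hkey2 ocᶜ occ_mem (by rw [h3, h4]; simp)
  · left
    rw [hkey2 ∅ GolayCoset.empty_mem (by rw [h3, h4]; simp), eps_empty, one_mul]

theorem occ_eq : mset 8241104 = ocᶜ := by decide +kernel

/-- the centre -/
theorem Q9_center {q : Co0} (hq : q ∈ Q9) (h : ∀ x ∈ Q9, q * x = x * q) : q = 1 ∨ q = zz := by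
  obtain ⟨σ, c, hc, hσ, h1, rfl⟩ := Q9_form hq
  have hσ1 : σ = 1 := by
    apply Subtype.ext
    apply eq_one_of_fix_compl σ.2
    apply fix_compl_of_fix_octads σ.2
    intro b hb hd
    have hb' : ∀ i ∈ oc, i ∉ b := fun i hi => Finset.disjoint_left.1 hd hi
    have h2 := h _ (eps_Q9 hb.1 hb')
    have h3 := form_mul hc hb.1 σ 1
    have h4 := form_mul hb.1 hc 1 σ
    rw [map_one, mul_one, mul_one] at h3
    rw [map_one, mul_one, one_mul] at h4
    rw [h3, h4] at h2
    have h5 := (eps_peH_inj h2).1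
    have h6 : ((1 : M24) : Equiv.Perm GolayPt) • c = c := one_smul _ _
    rw [h6, symmDiff_comm b c] at h5
    exact symmDiff_right_injective c h5
  have hc2 : ∀ τ : Equiv.Perm GolayPt, τ ∈ OctPt oc → τ • c = c := by
    intro τ hτ
    have h2 := h _ (peH_Q9 (σ := ⟨τ, (mem_OctPt.1 hτ).1⟩) hτ)
    have h3 := form_mul hc GolayCoset.empty_mem σ ⟨τ, (mem_OctPt.1 hτ).1⟩
    have h4 := form_mul GolayCoset.empty_mem hc ⟨τ, (mem_OctPt.1 hτ).1⟩ σ
    rw [eps_empty, one_mul] at h3 h4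
    rw [h3, h4] at h2
    have h5 := (eps_peH_inj h2).1
    have h6 : (σ : Equiv.Perm GolayPt) • (∅ : Finset GolayPt) = ∅ := Finset.smul_finset_empty _
    rw [h6] at h5
    have h7 : symmDiff c (∅ : Finset GolayPt) = c := symmDiff_bot c
    have h8 : symmDiff (∅ : Finset GolayPt) (τ • c) = τ • c := bot_symmDiff _
    change symmDiff c ∅ = symmDiff ∅ (τ • c) at h5
    rw [h7, h8] at h5
    exact h5.symm
  rw [hσ1, map_one, mul_one]
  by_cases hce : c = ∅
  · left
    subst hce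
    exact eps_empty
  · right
    obtain ⟨p, hp⟩ := Finset.nonempty_iff_ne_empty.2 hce
    apply eps_congr
    ext x
    rw [Finset.mem_compl]
    constructor
    · intro hx hxo
      exact h1 x hxo hx
    · intro hx
      have hpo : p ∉ oc := fun h' => h1 p h' hp
      obtain ⟨τ, hτ, e⟩ := OctPt_transitive oct0_mem hpo hx
      rw [← hc2 τ hτ, mem_smul, ← e, Equiv.symm_apply_apply]
      exact hp

theorem o1_disj : ∀ i ∈ oc, i ∉ mset 6889680 := fun _ hi => Finset.disjoint_left.1 o01_disj hi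

theorem Q9_nonab : ∃ a ∈ Q9, ∃ b ∈ Q9, a * b ≠ b * a := by
  by_contra hcon
  push Not at hcon
  have h1 := Q9_center (eps_Q9 o1_mem.1 o1_disj) (fun x hx => hcon _ (eps_Q9 o1_mem.1 o1_disj) x hx)
  rcases h1 with h1 | h1
  · rw [← eps_empty] at h1
    have h2 := congrArg Finset.card (eps_inj h1)
    rw [o1_mem.2] at h2
    exact absurd h2 (by norm_num)
  · have h2 := congrArg Finset.card (eps_inj (h1 : _ = eps ocᶜ occ_mem))
    rw [o1_mem.2, Finset.card_compl, card_oc] at h2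
    exact absurd h2 (by decide)

theorem zz_sq : zz * zz = 1 := by
  rw [← eps_empty]
  unfold zz
  rw [eps_mul]
  apply eps_congr
  rw [symmDiff_self]; rfl

theorem zz_ne : zz ≠ 1 := by
  intro h
  rw [← eps_empty] at h
  have h2 := congrArg Finset.card (eps_inj h)
  rw [Finset.card_compl, card_oc] at h2
  exact absurd h2 (by decide)

theorem Q9_zz {q : Co0} (hq : q ∈ Q9) : q * zz = zz * q := by
  rcases Q9_comm hq zz_Q9 with h | h
  · exact h
  · exfalso
    rw [← mul_assoc, zz_sq, one_mul] at h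
    exact zz_ne (mul_eq_left.1 h)

theorem Q9_ex : LargeExtra.ExData Q9 zz :=
  LargeExtra.ExData.of zz_sq zz_ne zz_Q9 (fun _ hq => Q9_zz hq) (fun _ ha _ hb => Q9_comm ha hb)
    (fun _ hq h => Q9_center hq h) Q9_nonab

theorem Q9_extraspecial : IsExtraspecial 2 Q9 := LargeExtra.isExtraspecial_of_exData Q9_ex

theorem cnt32 : cntLt 4096 (fun n => Nat.beq (Nat.land (enc n) 8536111) 0) = 32 := by decide +kernel

theorem ncard_disj : {c : Finset GolayPt | c ∈ Sup ∧ ∀ i ∈ oc, i ∉ c}.ncard = 32 := by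
  rw [← cnt32]
  apply ncard_code_sets
  intro s
  constructor
  · rintro ⟨h1, h2⟩
    obtain ⟨n, hn, rfl⟩ := mem_supports_iff.1 h1
    refine ⟨n, hn, rfl, ?_⟩
    rw [Nat.beq_eq]
    apply mset_injOn (lt_of_le_of_lt Nat.and_le_left (enc_lt _)) (by norm_num)
    rw [mset_zero]
    show mset (Nat.land (enc n) 8536111) = ∅
    rw [mset_land]
    ext i
    rw [Finset.mem_inter]
    constructor
    · rintro ⟨h3, h4⟩; exact absurd h3 (h2 i h4)
    · intro h; exact absurd h (Finset.notMem_empty _)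
  · rintro ⟨n, hn, rfl, h⟩
    rw [Nat.beq_eq] at h
    refine ⟨mem_supports_iff.2 ⟨n, hn, rfl⟩, fun i hi h3 => ?_⟩
    have h4 : i ∈ mset (Nat.land (enc n) 8536111) := by
      rw [mset_land, Finset.mem_inter]; exact ⟨h3, hi⟩
    rw [h, mset_zero] at h4
    exact Finset.notMem_empty _ h4

theorem card_Q9 : Nat.card Q9 = 2 ^ 9 := by
  have h1 : Nat.card Q9 = Nat.card ({c : Finset GolayPt | c ∈ Sup ∧ ∀ i ∈ oc, i ∉ c} × OctPt oc) := by
    symm
    apply Nat.card_congr
    refine Equiv.ofBijective (fun p => ⟨eps p.1.1 p.1.2.1 * peH ⟨p.2.1, (mem_OctPt.1 p.2.2).1⟩, Q9_of p.2.2 p.1.2.1 p.1.2.2⟩) ⟨?_, ?_⟩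
    · rintro ⟨⟨c, hc⟩, ⟨σ, hσ⟩⟩ ⟨⟨d, hd⟩, ⟨τ, hτ⟩⟩ h
      have h2 := eps_peH_inj (congrArg Subtype.val h)
      obtain ⟨h3, h4⟩ := h2
      have h5 : σ = τ := congrArg Subtype.val h4
      subst h5
      have h6 : c = d := h3
      subst h6
      rfl
    · rintro ⟨q, hq⟩
      obtain ⟨σ, c, hc, hσ, h1, rfl⟩ := Q9_form hq
      exact ⟨⟨⟨c, hc, h1⟩, ⟨σ, hσ⟩⟩, rfl⟩
  have h2 : Nat.card (OctPt oc) = 16 := card_OctPt oct0_mem
  rw [h1, Nat.card_prod, Nat.card_coe_set_eq, ncard_disj, h2]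
  norm_num

end Cfsg.Agent.Lib.LeechSyl
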