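import Cfsg.Agent.Lib.LeechFrame
import Cfsg.Agent.Lib.GolayFix
import Cfsg.Agent.Lib.S5824Iso

/-!
Lattices with a coordinate frame and the minimal vector count of the Leech lattice.
-/

set_option autoImplicit false
set_option maxHeartbeats 400000

namespace Cfsg.Agent.Lib.LeechChar

open Cfsg Cfsg.Agent.Lib.Golay Cfsg.Agent.Lib.LeechMin

structure Good (M : AddSubgroup (GolayPt → ℤ)) : Prop where
  e8 : ∀ p, (Pi.single p 8 : GolayPt → ℤ) ∈ M
  e4 : ∀ p q, p ≠ q → (Pi.single p 4 - Pi.single q 4 : GolayPt → ℤ) ∈ M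
  min : ∀ x ∈ M, x ≠ 0 → 32 ≤ sqNorm x
  dot : ∀ x ∈ M, ∀ y ∈ M, (8 : ℤ) ∣ dotInt x y
  nrm : ∀ x ∈ M, (16 : ℤ) ∣ sqNorm x
  cnt : {x | x ∈ M ∧ sqNorm x = 32}.ncard = 196560

theorem dot_single' (p : GolayPt) (s : ℤ) (x : GolayPt → ℤ) : dotInt (Pi.single p s) x = s * x p :=
  LeechFrame.dot_single p s x

theorem dot_add_l (x y z : GolayPt → ℤ) : dotInt (x + y) z = dotInt x z + dotInt y z := by
  unfold dotInt
  rw [← Finset.sum_add_distrib]
  exact Finset.sum_congr rfl fun i _ => by rw [Pi.add_apply]; ring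

theorem dot_sub_l (x y z : GolayPt → ℤ) : dotInt (x - y) z = dotInt x z - dotInt y z := by
  unfold dotInt
  rw [← Finset.sum_sub_distrib]
  exact Finset.sum_congr rfl fun i _ => by rw [Pi.sub_apply]; ring

section
variable {M : AddSubgroup (GolayPt → ℤ)} (hM : Good M)
include hM

theorem Good.parity {x : GolayPt → ℤ} (hx : x ∈ M) (p q : GolayPt) : (2 : ℤ) ∣ x p - x q := by
  by_cases h : p = q
  · rw [h, sub_self]; exact dvd_zero _
  · have h1 := hM.dot _ (hM.e4 p q h) x hx
    rw [dot_sub_l, dot_single', dot_single'] at h1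
    omega

theorem Good.D_mem {y : GolayPt → ℤ} (h4 : ∀ p, (4 : ℤ) ∣ y p) (h8 : (8 : ℤ) ∣ ∑ p, y p) : y ∈ M := by
  choose t ht using h4
  have hs : ∑ p, y p = 4 * ∑ p, t p := by
    rw [Finset.mul_sum]; exact Finset.sum_congr rfl fun p _ => ht p
  rw [hs] at h8
  obtain ⟨k, hk⟩ : (2 : ℤ) ∣ ∑ p, t p := by omega
  have key : y = ∑ p, t p • (Pi.single p 4 - Pi.single none 4 : GolayPt → ℤ) + k • (Pi.single none 8 : GolayPt → ℤ) := by
    funext q
    rw [Pi.add_apply, Finset.sum_apply, Pi.smul_apply]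
    have h1 : ∀ p, (t p • (Pi.single p 4 - Pi.single none 4 : GolayPt → ℤ)) q =
        (if p = q then 4 * t q else 0) - t p * (Pi.single none 4 : GolayPt → ℤ) q := by
      intro p
      rw [Pi.smul_apply, Pi.sub_apply, smul_eq_mul, mul_sub]
      congr 1
      by_cases h : p = q
      · rw [if_pos h, h, Pi.single_eq_same]; ring
      · rw [if_neg h, Pi.single_eq_of_ne (Ne.symm h), mul_zero]
    rw [Finset.sum_congr rfl fun p _ => h1 p, Finset.sum_sub_distrib, Finset.sum_ite_eq' Finset.univ q,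
      if_pos (Finset.mem_univ _), ← Finset.sum_mul, hk, ht q, smul_eq_mul]
    by_cases h : q = none
    · rw [h, Pi.single_eq_same, Pi.single_eq_same]; ring
    · rw [Pi.single_eq_of_ne h, Pi.single_eq_of_ne h]; ring
  rw [key]
  apply add_mem
  · apply sum_mem
    intro p _
    apply AddSubgroup.zsmul_mem
    by_cases h : p = none
    · rw [h, sub_self]; exact zero_mem _
    · exact hM.e4 p none h
  · exact AddSubgroup.zsmul_mem _ (hM.e8 none) _

theorem Good.four_notin (p : GolayPt) {c : ℤ} (hc : c = 4 ∨ c = -4) : (Pi.single p c : GolayPt → ℤ) ∉ M := by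
  intro h
  have h1 := hM.min _ h (by
    intro h0
    have := congrFun h0 p
    rw [Pi.single_eq_same, Pi.zero_apply] at this
    omega)
  rw [LeechFrame.sqNorm_single] at h1
  rcases hc with rfl | rfl <;> norm_num at h1

end

/-- the code of a lattice -/
def Cd (M : AddSubgroup (GolayPt → ℤ)) : Set (Finset GolayPt) := {A | ∃ x ∈ M, ∀ p, (4 : ℤ) ∣ x p - 2 * chi A p}

theorem chi_symmDiff (A B : Finset GolayPt) (p : GolayPt) : chi (symmDiff A B) p = chi A p + chi B p - 2 * chi A p * chi B p := by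
  unfold chi
  by_cases h1 : p ∈ A <;> by_cases h2 : p ∈ B <;> simp [h1, h2, Finset.mem_symmDiff]

theorem Cd_symmDiff {M : AddSubgroup (GolayPt → ℤ)} {A B : Finset GolayPt} (hA : A ∈ Cd M) (hB : B ∈ Cd M) :
    symmDiff A B ∈ Cd M := by
  obtain ⟨x, hx, h1⟩ := hA
  obtain ⟨y, hy, h2⟩ := hB
  refine ⟨x + y, add_mem hx hy, fun p => ?_⟩
  have h3 := h1 p
  have h4 := h2 p
  rw [chi_symmDiff, Pi.add_apply]
  obtain ⟨a, ha⟩ := h3
  obtain ⟨b, hb⟩ := h4
  exact ⟨a + b + chi A p * chi B p, by linarith⟩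

theorem Cd_empty (M : AddSubgroup (GolayPt → ℤ)) : (∅ : Finset GolayPt) ∈ Cd M :=
  ⟨0, zero_mem _, fun p => by
    rcases chi_cases ∅ p with ⟨h, -⟩ | ⟨-, h⟩
    · simp at h
    · rw [h]; simp⟩

/-- the set of coordinates not divisible by four -/
def odd4 (x : GolayPt → ℤ) : Finset GolayPt := Finset.univ.filter fun p => ¬ (4 : ℤ) ∣ x p

theorem odd4_spec {x : GolayPt → ℤ} (h : ∀ p, (2 : ℤ) ∣ x p) (p : GolayPt) : (4 : ℤ) ∣ x p - 2 * chi (odd4 x) p := by
  have h1 := h p
  rcases chi_cases (odd4 x) p with ⟨h2, h3⟩ | ⟨h2, h3⟩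
  · rw [h3]
    rw [odd4, Finset.mem_filter] at h2
    omega
  · rw [h3]
    rw [odd4, Finset.mem_filter] at h2
    simp only [Finset.mem_univ, true_and, not_not] at h2
    omega

theorem odd4_mem {M : AddSubgroup (GolayPt → ℤ)} {x : GolayPt → ℤ} (hx : x ∈ M) (h : ∀ p, (2 : ℤ) ∣ x p) : odd4 x ∈ Cd M :=
  ⟨x, hx, odd4_spec h⟩

theorem sqNorm_chi (A : Finset GolayPt) : sqNorm (fun p => 2 * chi A p) = 4 * A.card := by
  unfold sqNorm
  have : ∀ p, (2 * chi A p) ^ 2 = 4 * chi A p := by
    intro p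
    rcases chi_cases A p with ⟨-, h⟩ | ⟨-, h⟩ <;> rw [h] <;> norm_num
  rw [Finset.sum_congr rfl fun p _ => this p, ← Finset.mul_sum, sum_chi]

theorem sqNorm_chi' (A : Finset GolayPt) {a : GolayPt} (ha : a ∈ A) : sqNorm (fun p => 2 * chi A p - 4 * chi {a} p) = 4 * A.card := by
  unfold sqNorm
  have : ∀ p, (2 * chi A p - 4 * chi {a} p) ^ 2 = 4 * chi A p := by
    intro p
    rcases chi_cases {a} p with ⟨h1, h2⟩ | ⟨-, h2⟩
    · rw [Finset.mem_singleton] at h1
      rw [h2, h1]
      rcases chi_cases A a with ⟨-, h⟩ | ⟨h', -⟩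
      · rw [h]; norm_num
      · exact absurd ha h'
    · rw [h2]
      rcases chi_cases A p with ⟨-, h⟩ | ⟨-, h⟩ <;> rw [h] <;> norm_num
  rw [Finset.sum_congr rfl fun p _ => this p, ← Finset.mul_sum, sum_chi]

section
variable {M : AddSubgroup (GolayPt → ℤ)} (hM : Good M)
include hM

theorem Good.rep {A : Finset GolayPt} (hA : A ∈ Cd M) (a : GolayPt) :
    (fun p => 2 * chi A p) ∈ M ∨ (fun p => 2 * chi A p - 4 * chi {a} p) ∈ M := by
  obtain ⟨x, hx, h⟩ := hA
  have h4 : (4 : ℤ) ∣ ∑ p, (x p - 2 * chi A p) := Finset.dvd_sum fun p _ => h p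
  by_cases h8 : (8 : ℤ) ∣ ∑ p, (x p - 2 * chi A p)
  · left
    have h1 := hM.D_mem h h8
    have h2 := sub_mem hx h1
    convert h2 using 1
    funext p
    simp
  · right
    have h1 := hM.D_mem (y := fun p => x p - 2 * chi A p + 4 * chi {a} p) (fun p => dvd_add (h p) (dvd_mul_right _ _)) (by
      rw [Finset.sum_add_distrib, ← Finset.mul_sum, sum_chi, Finset.card_singleton]
      push_cast
      omega)
    have h2 := sub_mem hx h1
    convert h2 using 1
    funext p
    simp only [Pi.sub_apply]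
    ring

theorem Good.card_mem {A : Finset GolayPt} (hA : A ∈ Cd M) : A = ∅ ∨ (8 ≤ A.card ∧ 4 ∣ A.card) := by
  by_cases h : A = ∅
  · exact Or.inl h
  · right
    obtain ⟨a, ha⟩ := Finset.nonempty_iff_ne_empty.2 h
    have hpos : 0 < A.card := Finset.card_pos.2 ⟨a, ha⟩
    rcases hM.rep hA a with h1 | h1
    · have h2 := hM.min _ h1 (by
        intro h0
        have h3 := sqNorm_chi A
        rw [h0] at h3
        have h4 : sqNorm (0 : GolayPt → ℤ) = 0 := by simp [sqNorm]
        rw [h4] at h3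
        omega)
      have h3 := hM.nrm _ h1
      rw [sqNorm_chi] at h2 h3
      omega
    · have h2 := hM.min _ h1 (by
        intro h0
        have h3 := sqNorm_chi' A ha
        rw [h0] at h3
        have h4 : sqNorm (0 : GolayPt → ℤ) = 0 := by simp [sqNorm]
        rw [h4] at h3
        omega)
      have h3 := hM.nrm _ h1
      rw [sqNorm_chi' A ha] at h2 h3
      omega

theorem Good.inter {A B : Finset GolayPt} (hA : A ∈ Cd M) (hB : B ∈ Cd M) : Even (A ∩ B).card := by
  obtain ⟨x, hx, h1⟩ := hA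
  obtain ⟨y, hy, h2⟩ := hB
  choose s hs using h1
  choose t ht using h2
  have h3 := hM.dot x hx y hy
  have h4 : dotInt x y = 4 * ((A ∩ B).card : ℤ) + 8 * ∑ p, (chi A p * t p + s p * chi B p + 2 * s p * t p) := by
    have h5 : ((A ∩ B).card : ℤ) = ∑ p, chi A p * chi B p := by
      rw [← sum_chi]
      apply Finset.sum_congr rfl
      intro p _
      unfold chi
      by_cases h1 : p ∈ A <;> by_cases h2 : p ∈ B <;> simp [h1, h2]
    rw [h5, Finset.mul_sum, Finset.mul_sum, ← Finset.sum_add_distrib]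
    unfold dotInt
    apply Finset.sum_congr rfl
    intro p _
    have e1 : x p = 2 * chi A p + 4 * s p := by linarith [hs p]
    have e2 : y p = 2 * chi B p + 4 * t p := by linarith [ht p]
    rw [e1, e2]; ring
  rw [h4] at h3
  have h6 : (2 : ℤ) ∣ ((A ∩ B).card : ℤ) := by omega
  rw [even_iff_two_dvd]
  exact_mod_cast h6

/-- distinct words share at most four points -/
theorem Good.inter_le {A B : Finset GolayPt} (hA : A ∈ Cd M) (hB : B ∈ Cd M) (hA8 : A.card = 8) (hB8 : B.card = 8) (hne : A ≠ B) :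
    (A ∩ B).card ≤ 4 := by
  have h1 := hM.card_mem (Cd_symmDiff hA hB)
  have h2 : (symmDiff A B).card + 2 * (A ∩ B).card = 16 := by
    have h3 : (symmDiff A B).card = (A \ B).card + (B \ A).card := by
      rw [symmDiff_def, Finset.sup_eq_union, Finset.card_union_of_disjoint]
      exact disjoint_sdiff_sdiff
    have h4 := Finset.card_sdiff_add_card_inter A B
    have h5 := Finset.card_sdiff_add_card_inter B A
    rw [Finset.inter_comm B A] at h5
    omega
  rcases h1 with h1 | ⟨h1, -⟩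
  · exact absurd (symmDiff_eq_bot.1 h1) hne
  · omega

end

/-! ### the size of the code -/

theorem support_add (v w : GolayPt → ZMod 2) : support₂ (v + w) = symmDiff (support₂ v) (support₂ w) := by
  ext p
  simp only [support₂, Finset.mem_filter, Finset.mem_univ, true_and, Finset.mem_symmDiff, Pi.add_apply]
  have h : ∀ a : ZMod 2, a = 0 ∨ a = 1 := by decide
  rcases h (v p) with h1 | h1 <;> rcases h (w p) with h2 | h2 <;> rw [h1, h2] <;> decide

/-- the code as a subspace -/
def C2 (M : AddSubgroup (GolayPt → ℤ)) : Submodule (ZMod 2) (GolayPt → ZMod 2) where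
  carrier := {w | support₂ w ∈ Cd M}
  add_mem' := fun {v w} hv hw => by
    show support₂ (v + w) ∈ Cd M
    rw [support_add]
    exact Cd_symmDiff hv hw
  zero_mem' := by
    show support₂ 0 ∈ Cd M
    have : support₂ (0 : GolayPt → ZMod 2) = ∅ := by ext p; simp [support₂]
    rw [this]
    exact Cd_empty M
  smul_mem' := fun c w hw => by
    have h : ∀ a : ZMod 2, a = 0 ∨ a = 1 := by decide
    rcases h c with rfl | rfl
    · rw [zero_smul]
      show support₂ 0 ∈ Cd M
      have : support₂ (0 : GolayPt → ZMod 2) = ∅ := by ext p; simp [support₂]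
      rw [this]
      exact Cd_empty M
    · rw [one_smul]; exact hw

theorem sum_eq_inter (v w : GolayPt → ZMod 2) : ∑ i, v i * w i = ((support₂ v ∩ support₂ w).card : ZMod 2) := by
  rw [Finset.card_eq_sum_ones, Nat.cast_sum, support₂, support₂, ← Finset.filter_and, Finset.sum_filter]
  apply Finset.sum_congr rfl
  intro i _
  have h3 : ∀ a : ZMod 2, a = 0 ∨ a = 1 := by decide
  rcases h3 (v i) with h | h <;> rcases h3 (w i) with h' | h' <;> simp [h, h']

theorem ncard_Cd (M : AddSubgroup (GolayPt → ℤ)) : (Cd M).ncard = Nat.card (C2 M) := by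
  rw [← Nat.card_coe_set_eq]
  exact (Nat.card_congr (Equiv.ofBijective (fun w : C2 M => (⟨support₂ w.1, w.2⟩ : Cd M)) ⟨
    fun a b h => Subtype.ext (support₂_injective (congrArg Subtype.val h)), fun s => by
      refine ⟨⟨GolayFix.word s.1, ?_⟩, ?_⟩
      · show support₂ _ ∈ Cd M
        rw [GolayFix.support_word]; exact s.2
      · exact Subtype.ext (GolayFix.support_word s.1)⟩)).symm

theorem Good.ncard_Cd_le {M : AddSubgroup (GolayPt → ℤ)} (hM : Good M) : (Cd M).ncard ≤ 4096 := by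
  have h1 : C2 M ≤ GolayFix.dotB.orthogonal (C2 M) := by
    intro v hv
    rw [LinearMap.BilinForm.mem_orthogonal_iff]
    intro u hu
    rw [GolayFix.dotB_apply, sum_eq_inter]
    exact (ZMod.natCast_eq_zero_iff _ 2).mpr (even_iff_two_dvd.1 (hM.inter hu hv))
  have h3 := LinearMap.BilinForm.finrank_orthogonal GolayFix.dotB_nondeg (C2 M)
  have h4 := Submodule.finrank_mono h1
  have h5 : Module.finrank (ZMod 2) (C2 M) ≤ 24 := by
    have := Submodule.finrank_le (C2 M)
    rwa [Module.finrank_fintype_fun_eq_card, card_pt] at this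
  rw [h3, Module.finrank_fintype_fun_eq_card, card_pt] at h4
  rw [ncard_Cd, Module.natCard_eq_pow_finrank (K := ZMod 2)]
  rw [Nat.card_zmod]
  calc 2 ^ Module.finrank (ZMod 2) (C2 M) ≤ 2 ^ 12 := Nat.pow_le_pow_right (by norm_num) (by omega)
    _ = 4096 := by norm_num

end Cfsg.Agent.Lib.LeechChar
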