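import Cfsg.Agent.Lib.LeechChar1

/-!
Counting minimal vectors in a lattice with a coordinate frame.
-/

set_option autoImplicit false
set_option maxHeartbeats 400000

namespace Cfsg.Agent.Lib.LeechChar

open Cfsg Cfsg.Agent.Lib.Golay Cfsg.Agent.Lib.LeechMin
open scoped Classical in
/-- words of weight eight -/
noncomputable def C8 (M : AddSubgroup (GolayPt → ℤ)) : Finset (Finset GolayPt) :=
  Finset.univ.filter fun A => A ∈ Cd M ∧ A.card = 8

theorem mem_C8 {M : AddSubgroup (GolayPt → ℤ)} {A : Finset GolayPt} : A ∈ C8 M ↔ A ∈ Cd M ∧ A.card = 8 := by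
  classical
  unfold C8
  rw [Finset.mem_filter]
  exact ⟨fun h => h.2, fun h => ⟨Finset.mem_univ _, h⟩⟩

section
variable {M : AddSubgroup (GolayPt → ℤ)} (hM : Good M)
include hM

theorem Good.disj : Set.PairwiseDisjoint (↑(C8 M) : Set (Finset GolayPt)) (Finset.powersetCard 5) := by
  intro A hA B hB hne
  rw [Finset.mem_coe, mem_C8] at hA hB
  rw [Function.onFun, Finset.disjoint_left]
  intro s hs ht
  rw [Finset.mem_powersetCard] at hs ht
  have h1 := hM.inter_le hA.1 hB.1 hA.2 hB.2 hne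
  have h2 : s ⊆ A ∩ B := Finset.subset_inter hs.1 ht.1
  have h3 := Finset.card_le_card h2
  omega

theorem Good.card_bi : ((C8 M).biUnion (Finset.powersetCard 5)).card = (C8 M).card * 56 := by
  rw [Finset.card_biUnion hM.disj, Finset.sum_const_nat]
  intro A hA
  rw [mem_C8] at hA
  rw [Finset.card_powersetCard, hA.2]
  decide

theorem Good.card_C8_le : (C8 M).card ≤ 759 := by
  have h1 := hM.card_bi
  have h2 : ((C8 M).biUnion (Finset.powersetCard 5)).card ≤ (Finset.powersetCard 5 (Finset.univ : Finset GolayPt)).card := by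
    apply Finset.card_le_card
    intro s hs
    rw [Finset.mem_biUnion] at hs
    obtain ⟨A, -, hA⟩ := hs
    rw [Finset.mem_powersetCard] at hA ⊢
    exact ⟨Finset.subset_univ _, hA.2⟩
  have h3 : (Finset.powersetCard 5 (Finset.univ : Finset GolayPt)).card = 42504 := by
    rw [Finset.card_powersetCard, Finset.card_univ, card_pt]
    decide +kernel
  omega

theorem Good.steiner (h : (C8 M).card = 759) : IsSteinerSystem 5 8 (↑(C8 M) : Set (Finset GolayPt)) := by
  refine ⟨fun b hb => (mem_C8.1 hb).2, fun s hs => ?_⟩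
  have h1 := hM.card_bi
  have h3 : (Finset.powersetCard 5 (Finset.univ : Finset GolayPt)).card = 42504 := by
    rw [Finset.card_powersetCard, Finset.card_univ, card_pt]
    decide +kernel
  have h2 : (C8 M).biUnion (Finset.powersetCard 5) = Finset.powersetCard 5 (Finset.univ : Finset GolayPt) := by
    apply Finset.eq_of_subset_of_card_le
    · intro s hs
      rw [Finset.mem_biUnion] at hs
      obtain ⟨A, -, hA⟩ := hs
      rw [Finset.mem_powersetCard] at hA ⊢
      exact ⟨Finset.subset_univ _, hA.2⟩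
    · rw [h3, h1, h]
  have h4 : s ∈ (C8 M).biUnion (Finset.powersetCard 5) := by
    rw [h2, Finset.mem_powersetCard]
    exact ⟨Finset.subset_univ _, hs⟩
  rw [Finset.mem_biUnion] at h4
  obtain ⟨A, hA, hsA⟩ := h4
  rw [Finset.mem_powersetCard] at hsA
  refine ⟨A, ⟨hA, hsA.1⟩, ?_⟩
  rintro B ⟨hB, hsB⟩
  by_contra hne
  have h5 := hM.inter_le (mem_C8.1 hB).1 (mem_C8.1 hA).1 (mem_C8.1 hB).2 (mem_C8.1 hA).2 hne
  have h6 := Finset.card_le_card (Finset.subset_inter hsB hsA.1)
  omega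

theorem Good.finite : {x | x ∈ M ∧ sqNorm x = 32}.Finite := by
  apply Set.finite_of_ncard_ne_zero
  rw [hM.cnt]
  norm_num

end

theorem sq_le {x : GolayPt → ℤ} (hx : sqNorm x = 32) (p : GolayPt) : x p ^ 2 ≤ 32 := by
  rw [← hx]
  exact Finset.single_le_sum (f := fun p => x p ^ 2) (fun i _ => sq_nonneg _) (Finset.mem_univ p)

theorem small {a : ℤ} (h : a ^ 2 ≤ 32) : -5 ≤ a ∧ a ≤ 5 := by
  constructor <;> nlinarith

/-! ### vectors divisible by four -/

theorem v4 {x : GolayPt → ℤ} (hx : sqNorm x = 32) (h4 : ∀ p, (4 : ℤ) ∣ x p) :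
    (∀ p, x p = 0 ∨ x p = 4 ∨ x p = -4) ∧ (Finset.univ.filter fun p => x p ≠ 0).card = 2 := by
  have h1 : ∀ p, x p = 0 ∨ x p = 4 ∨ x p = -4 := by
    intro p
    have h2 := small (sq_le hx p)
    have h3 := h4 p
    omega
  refine ⟨h1, ?_⟩
  have h2 : sqNorm x = 16 * ((Finset.univ.filter fun p => x p ≠ 0).card : ℤ) := by
    rw [Finset.card_filter]
    push_cast
    rw [Finset.mul_sum]
    unfold sqNorm
    apply Finset.sum_congr rfl
    intro p _
    rcases h1 p with h | h | h <;> rw [h] <;> norm_num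
  rw [hx] at h2
  omega

theorem card_sig : ((Finset.powersetCard 2 (Finset.univ : Finset GolayPt)).sigma (fun S => S.powerset)).card = 1104 := by
  rw [Finset.card_sigma, Finset.sum_congr rfl (g := fun _ => 4), Finset.sum_const, Finset.card_powersetCard, Finset.card_univ, card_pt]
  · rw [Nat.choose_two_right, smul_eq_mul]
  · intro S hS
    rw [Finset.mem_powersetCard] at hS
    rw [Finset.card_powerset, hS.2]; rfl

theorem card_W0 (F : Finset (GolayPt → ℤ)) (hF : ∀ x ∈ F, sqNorm x = 32 ∧ ∀ p, (4 : ℤ) ∣ x p) : F.card ≤ 1104 := by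
  refine le_of_le_of_eq ?_ card_sig
  apply Finset.card_le_card_of_injOn (fun x : GolayPt → ℤ =>
    (⟨Finset.univ.filter fun p => x p ≠ 0, Finset.univ.filter fun p => x p = 4⟩ : (_ : Finset GolayPt) × Finset GolayPt))
  · intro x hx
    have h23 := hF x (Finset.mem_coe.1 hx)
    have h45 := v4 h23.1 h23.2
    rw [Finset.mem_coe, Finset.mem_sigma]
    refine ⟨Finset.mem_powersetCard.2 ⟨Finset.subset_univ _, h45.2⟩, ?_⟩
    rw [Finset.mem_powerset]
    intro p hp
    rw [Finset.mem_filter] at hp ⊢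
    refine ⟨hp.1, ?_⟩
    rw [hp.2]; norm_num
  · intro x hx y hy h
    have h23 := hF x (Finset.mem_coe.1 hx)
    have h4 := (v4 h23.1 h23.2).1
    have h23' := hF y (Finset.mem_coe.1 hy)
    have h4' := (v4 h23'.1 h23'.2).1
    rw [Sigma.mk.injEq] at h
    obtain ⟨e1, e2⟩ := h
    have e2 := eq_of_heq e2
    funext p
    have a1 : x p ≠ 0 ↔ y p ≠ 0 := by
      have := Finset.ext_iff.1 e1 p
      simpa using this
    have a2 : x p = 4 ↔ y p = 4 := by
      have := Finset.ext_iff.1 e2 p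
      simpa using this
    rcases h4 p with h | h | h <;> rcases h4' p with h' | h' | h' <;> rw [h, h'] at a1 a2 ⊢ <;> simp at a1 a2

/-! ### even vectors -/

section
variable {M : AddSubgroup (GolayPt → ℤ)} (hM : Good M)
include hM

theorem Good.v2 {x : GolayPt → ℤ} (hxM : x ∈ M) (hx : sqNorm x = 32) (h2 : ∀ p, (2 : ℤ) ∣ x p) (h4 : ¬ ∀ p, (4 : ℤ) ∣ x p) :
    odd4 x ∈ C8 M ∧ (∀ p ∈ odd4 x, x p = 2 ∨ x p = -2) ∧ ∀ p, p ∉ odd4 x → x p = 0 := by
  have h1 := odd4_mem hxM h2
  have hne : odd4 x ≠ ∅ := by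
    intro h
    apply h4
    intro p
    by_contra hp
    have : p ∈ odd4 x := by rw [odd4, Finset.mem_filter]; exact ⟨Finset.mem_univ _, hp⟩
    rw [h] at this
    exact Finset.notMem_empty _ this
  have h8 : 8 ≤ (odd4 x).card := by
    rcases hM.card_mem h1 with h | h
    · exact absurd h hne
    · exact h.1
  have hge : ∀ p, 0 ≤ x p ^ 2 - 4 * chi (odd4 x) p := by
    intro p
    rcases chi_cases (odd4 x) p with ⟨e1, e2⟩ | ⟨e1, e2⟩
    · rw [e2]
      rw [odd4, Finset.mem_filter] at e1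
      have e3 : x p ≠ 0 := by intro h; apply e1.2; rw [h]; exact dvd_zero _
      have e4 := h2 p
      obtain ⟨k, hk⟩ := e4
      have e5 : k ≠ 0 := by rintro rfl; exact e3 (by rw [hk]; ring)
      have e6 : 1 ≤ k ^ 2 := by
        have : 0 < k ^ 2 := by positivity
        omega
      rw [hk]; nlinarith
    · rw [e2]; nlinarith [sq_nonneg (x p)]
  have hsum : ∑ p, (x p ^ 2 - 4 * chi (odd4 x) p) = 32 - 4 * ((odd4 x).card : ℤ) := by
    rw [Finset.sum_sub_distrib, ← Finset.mul_sum, sum_chi]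
    show sqNorm x - _ = _
    rw [hx]
  have hnn := Finset.sum_nonneg (s := Finset.univ) fun p (_ : p ∈ Finset.univ) => hge p
  have hc : (odd4 x).card = 8 := by omega
  have hz : ∀ p, x p ^ 2 - 4 * chi (odd4 x) p = 0 := by
    have h0 : ∑ p, (x p ^ 2 - 4 * chi (odd4 x) p) = 0 := by rw [hsum, hc]; norm_num
    intro p
    exact (Finset.sum_eq_zero_iff_of_nonneg fun p _ => hge p).1 h0 p (Finset.mem_univ _)
  refine ⟨mem_C8.2 ⟨h1, hc⟩, fun p hp => ?_, fun p hp => ?_⟩
  · have h3 := hz p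
    rcases chi_cases (odd4 x) p with ⟨e1, e2⟩ | ⟨e1, e2⟩
    · rw [e2] at h3
      have : (x p - 2) * (x p + 2) = 0 := by linarith [show (x p - 2) * (x p + 2) = x p ^ 2 - 4 by ring]
      rcases mul_eq_zero.1 this with h | h
      · left; omega
      · right; omega
    · exact absurd hp e1
  · have h3 := hz p
    rcases chi_cases (odd4 x) p with ⟨e1, e2⟩ | ⟨e1, e2⟩
    · exact absurd e1 hp
    · rw [e2] at h3
      have : x p ^ 2 = 0 := by linarith
      exact pow_eq_zero_iff (two_ne_zero) |>.1 this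

/-- a chosen element -/
noncomputable def a0 (A : Finset GolayPt) : GolayPt := if h : A.Nonempty then h.choose else none

omit hM in
theorem a0_mem {A : Finset GolayPt} (h : A.Nonempty) : a0 A ∈ A := by
  unfold a0
  rw [dif_pos h]
  exact h.choose_spec

theorem Good.card_W2 (F : Finset (GolayPt → ℤ)) (hF : ∀ x ∈ F, x ∈ M ∧ sqNorm x = 32 ∧ (∀ p, (2 : ℤ) ∣ x p) ∧ ¬ ∀ p, (4 : ℤ) ∣ x p) :
    F.card ≤ 128 * (C8 M).card := by
  have h1 : ((C8 M).sigma (fun A => (A.erase (a0 A)).powerset)).card = 128 * (C8 M).card := by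
    rw [Finset.card_sigma, Finset.sum_congr rfl (g := fun _ => 128), Finset.sum_const, smul_eq_mul, mul_comm]
    intro A hA
    rw [mem_C8] at hA
    have : A.Nonempty := by rw [← Finset.card_pos, hA.2]; norm_num
    rw [Finset.card_powerset, Finset.card_erase_of_mem (a0_mem this), hA.2]
    rfl
  rw [← h1]
  apply Finset.card_le_card_of_injOn (fun x : GolayPt → ℤ =>
    (⟨odd4 x, ((odd4 x).erase (a0 (odd4 x))).filter fun p => x p = 2⟩ : (_ : Finset GolayPt) × Finset GolayPt))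
  · intro x hx
    obtain ⟨g1, g2, g3, g4⟩ := hF x hx
    obtain ⟨h2, h3, h4⟩ := hM.v2 g1 g2 g3 g4
    rw [Finset.mem_coe, Finset.mem_sigma]
    refine ⟨h2, ?_⟩
    rw [Finset.mem_powerset]
    exact Finset.filter_subset _ _
  · intro x hx y hy h
    obtain ⟨g1, g2, g3, g4⟩ := hF x hx
    obtain ⟨h2, h3, h4⟩ := hM.v2 g1 g2 g3 g4
    obtain ⟨g1', g2', g3', g4'⟩ := hF y hy
    obtain ⟨h2', h3', h4'⟩ := hM.v2 g1' g2' g3' g4'
    rw [Sigma.mk.injEq] at h
    obtain ⟨e1, e2⟩ := h
    have e2 := eq_of_heq e2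
    have key : ∀ p, p ≠ a0 (odd4 x) → x p = y p := by
      intro p hp
      by_cases hpA : p ∈ odd4 x
      · have a2 := Finset.ext_iff.1 e2 p
        rw [Finset.mem_filter, Finset.mem_filter, ← e1, Finset.mem_erase] at a2
        have a3 : x p = 2 ↔ y p = 2 := by
          constructor
          · intro h; exact (a2.1 ⟨⟨hp, hpA⟩, h⟩).2
          · intro h; exact (a2.2 ⟨⟨hp, hpA⟩, h⟩).2
        rcases h3 p hpA with h | h <;> rcases h3' p (e1 ▸ hpA) with h' | h' <;> rw [h, h'] at a3 ⊢ <;> simp at a3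
      · rw [h4 p hpA, h4' p (e1 ▸ hpA)]
    have hA : a0 (odd4 x) ∈ odd4 x := by
      apply a0_mem
      rw [← Finset.card_pos, (mem_C8.1 h2).2]; norm_num
    have h5 : x - y = Pi.single (a0 (odd4 x)) (x (a0 (odd4 x)) - y (a0 (odd4 x))) := by
      funext p
      by_cases hp : p = a0 (odd4 x)
      · rw [hp, Pi.single_eq_same]; rfl
      · rw [Pi.single_eq_of_ne hp, Pi.sub_apply, key p hp, sub_self]
    have h6 := sub_mem g1 g1'
    rw [h5] at h6
    have hA' : a0 (odd4 x) ∈ odd4 y := by rw [← e1]; exact hA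
    have h7 : x (a0 (odd4 x)) = y (a0 (odd4 x)) := by
      rcases h3 _ hA with h | h <;> rcases h3' _ hA' with h' | h'
      · rw [h, h']
      · exact absurd h6 (hM.four_notin _ (Or.inl (by rw [h, h']; norm_num)))
      · exact absurd h6 (hM.four_notin _ (Or.inr (by rw [h, h']; norm_num)))
      · rw [h, h']
    funext p
    by_cases hp : p = a0 (odd4 x)
    · rw [hp]; exact h7
    · exact key p hp

end

/-! ### odd vectors -/

theorem v1 {x : GolayPt → ℤ} (hx : sqNorm x = 32) (h : ∀ p, ¬ (2 : ℤ) ∣ x p) : ∃ p, (x p = 3 ∨ x p = -3) ∧ ∀ q, q ≠ p → (x q = 1 ∨ x q = -1) := by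
  have h1 : ∀ p, x p = 1 ∨ x p = -1 ∨ x p = 3 ∨ x p = -3 ∨ x p = 5 ∨ x p = -5 := by
    intro p
    have h2 := small (sq_le hx p)
    have h3 := h p
    omega
  have hnn : ∀ p, 0 ≤ x p ^ 2 - 1 := by
    intro p
    rcases h1 p with h | h | h | h | h | h <;> rw [h] <;> norm_num
  have hs : ∑ p, (x p ^ 2 - 1) = 8 := by
    rw [Finset.sum_sub_distrib]
    show sqNorm x - _ = _
    rw [hx, sum_const]; norm_num
  obtain ⟨p, hp⟩ : ∃ p, x p ^ 2 - 1 ≠ 0 := by
    by_contra hcon
    push Not at hcon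
    rw [Finset.sum_congr rfl fun p _ => hcon p] at hs
    simp at hs
  have hle := Finset.single_le_sum (f := fun p => x p ^ 2 - 1) (fun i _ => hnn i) (Finset.mem_univ p)
  rw [hs] at hle
  have hx3 : x p = 3 ∨ x p = -3 := by
    have hle' : x p ^ 2 - 1 ≤ 8 := hle
    rcases h1 p with h | h | h | h | h | h
    · rw [h] at hp; norm_num at hp
    · rw [h] at hp; norm_num at hp
    · left; exact h
    · right; exact h
    · rw [h] at hle'; norm_num at hle'
    · rw [h] at hle'; norm_num at hle'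
  refine ⟨p, hx3, fun q hq => ?_⟩
  have h2 : (x q ^ 2 - 1) + (x p ^ 2 - 1) ≤ 8 := by
    rw [← hs, ← Finset.sum_pair (f := fun p => x p ^ 2 - 1) hq]
    exact Finset.sum_le_sum_of_subset_of_nonneg (Finset.subset_univ _) (fun i _ _ => hnn i)
  have h3 : x p ^ 2 = 9 := by rcases hx3 with h | h <;> rw [h] <;> norm_num
  rw [h3] at h2
  rcases h1 q with h | h | h | h | h | h
  · left; exact h
  · right; exact h
  all_goals (rw [h] at h2; norm_num at h2)

/-- the exceptional position -/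
noncomputable def pos (x : GolayPt → ℤ) : GolayPt := if h : ∃ p, (x p = 3 ∨ x p = -3) ∧ ∀ q, q ≠ p → (x q = 1 ∨ x q = -1) then h.choose else none

theorem pos_spec {x : GolayPt → ℤ} (h : ∃ p, (x p = 3 ∨ x p = -3) ∧ ∀ q, q ≠ p → (x q = 1 ∨ x q = -1)) :
    (x (pos x) = 3 ∨ x (pos x) = -3) ∧ ∀ q, q ≠ pos x → (x q = 1 ∨ x q = -1) := by
  unfold pos
  rw [dif_pos h]
  exact h.choose_spec

section
variable {M : AddSubgroup (GolayPt → ℤ)} (hM : Good M)
include hM

theorem Good.card_W1 (F : Finset (GolayPt → ℤ)) (hF : ∀ x ∈ F, x ∈ M ∧ sqNorm x = 32 ∧ ∀ p, ¬ (2 : ℤ) ∣ x p) :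
    F.card ≤ 24 * (Cd M).ncard := by
  classical
  by_cases hne : F.Nonempty
  · obtain ⟨x0, hx0⟩ := hne
    obtain ⟨k1, k2, k3⟩ := hF x0 hx0
    have h1 : ((Finset.univ : Finset GolayPt) ×ˢ ((Cd M).toFinite.toFinset)).card = 24 * (Cd M).ncard := by
      rw [Finset.card_product, Finset.card_univ, card_pt, Set.ncard_eq_toFinset_card _ (Cd M).toFinite]
    rw [← h1]
    apply Finset.card_le_card_of_injOn (fun x : GolayPt → ℤ => (pos x, odd4 (x - x0)))
    · intro x hx
      obtain ⟨g1, g2, g3⟩ := hF x hx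
      rw [Finset.mem_coe, Finset.mem_product]
      refine ⟨Finset.mem_univ _, ?_⟩
      rw [Set.Finite.mem_toFinset]
      apply odd4_mem (sub_mem g1 k1)
      intro p
      have := g3 p
      have := k3 p
      rw [Pi.sub_apply]
      omega
    · intro x hx y hy h
      obtain ⟨g1, g2, g3⟩ := hF x hx
      obtain ⟨g1', g2', g3'⟩ := hF y hy
      rw [Prod.mk.injEq] at h
      obtain ⟨e1, e2⟩ := h
      obtain ⟨s1, s2⟩ := pos_spec (v1 g2 g3)
      obtain ⟨s1', s2'⟩ := pos_spec (v1 g2' g3')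
      have hmod : ∀ p, (4 : ℤ) ∣ x p - y p := by
        intro p
        have a1 := odd4_spec (x := x - x0) (fun p => by
          have := g3 p
          have := k3 p
          rw [Pi.sub_apply]
          omega) p
        have a2 := odd4_spec (x := y - x0) (fun p => by
          have := g3' p
          have := k3 p
          rw [Pi.sub_apply]
          omega) p
        rw [← e2, Pi.sub_apply] at a2
        rw [Pi.sub_apply] at a1
        omega
      funext p
      have hm := hmod p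
      by_cases hp : p = pos x
      · rw [← hp] at s1
        rw [← e1, ← hp] at s1'
        omega
      · have s3 := s2 p hp
        have s4 := s2' p (fun h => hp (h.trans e1.symm))
        omega
  · rw [Finset.not_nonempty_iff_eq_empty] at hne
    rw [hne]; simp

theorem Good.main : (C8 M).card = 759 ∧ (Cd M).ncard = 4096 ∧ ∃ x ∈ M, sqNorm x = 32 ∧ ∀ p, ¬ (2 : ℤ) ∣ x p := by
  classical
  set F := hM.finite.toFinset with hFdef
  have hF : ∀ x, x ∈ F ↔ x ∈ M ∧ sqNorm x = 32 := fun x => Set.Finite.mem_toFinset _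
  have hcard : F.card = 196560 := by rw [← hM.cnt, Set.ncard_eq_toFinset_card _ hM.finite]
  set F1 := F.filter fun x => ¬ ∀ p, (2 : ℤ) ∣ x p with hF1
  set F0 := F.filter fun x => ∀ p, (4 : ℤ) ∣ x p with hF0
  set F2 := F.filter fun x => (∀ p, (2 : ℤ) ∣ x p) ∧ ¬ ∀ p, (4 : ℤ) ∣ x p with hF2
  have hcover : F ⊆ F1 ∪ (F0 ∪ F2) := by
    intro x hx
    rw [Finset.mem_union, Finset.mem_union, hF1, hF0, hF2, Finset.mem_filter, Finset.mem_filter, Finset.mem_filter]
    by_cases h1 : ∀ p, (2 : ℤ) ∣ x p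
    · by_cases h2 : ∀ p, (4 : ℤ) ∣ x p
      · exact Or.inr (Or.inl ⟨hx, h2⟩)
      · exact Or.inr (Or.inr ⟨hx, h1, h2⟩)
    · exact Or.inl ⟨hx, h1⟩
  have h0 : F.card ≤ F1.card + (F0.card + F2.card) :=
    (Finset.card_le_card hcover).trans ((Finset.card_union_le _ _).trans (Nat.add_le_add_left (Finset.card_union_le _ _) _))
  have b0 : F0.card ≤ 1104 := by
    apply card_W0
    intro x hx
    rw [hF0, Finset.mem_filter] at hx
    exact ⟨((hF x).1 hx.1).2, hx.2⟩
  have b2 : F2.card ≤ 128 * (C8 M).card := by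
    apply hM.card_W2
    intro x hx
    rw [hF2, Finset.mem_filter] at hx
    exact ⟨((hF x).1 hx.1).1, ((hF x).1 hx.1).2, hx.2⟩
  have hodd : ∀ x ∈ F1, x ∈ M ∧ sqNorm x = 32 ∧ ∀ p, ¬ (2 : ℤ) ∣ x p := by
    intro x hx
    rw [hF1, Finset.mem_filter] at hx
    refine ⟨((hF x).1 hx.1).1, ((hF x).1 hx.1).2, ?_⟩
    obtain ⟨q, hq⟩ := not_forall.1 hx.2
    intro p hp
    have := hM.parity ((hF x).1 hx.1).1 p q
    omega
  have b1 : F1.card ≤ 24 * (Cd M).ncard := hM.card_W1 F1 hodd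
  have c1 := hM.card_C8_le
  have c2 := hM.ncard_Cd_le
  refine ⟨by omega, by omega, ?_⟩
  have hpos : 0 < F1.card := by omega
  obtain ⟨x, hx⟩ := Finset.card_pos.1 hpos
  exact ⟨x, hodd x hx⟩

end

end Cfsg.Agent.Lib.LeechChar
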