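import Cfsg.Agent.Lib.LeechChar2

/-!
A lattice with a coordinate frame and the right number of minimal vectors is the Leech lattice.
-/

set_option autoImplicit false
set_option maxHeartbeats 400000

namespace Cfsg.Agent.Lib.LeechChar

open Cfsg Cfsg.Agent.Lib.Golay Cfsg.Agent.Lib.LeechMin Cfsg.Agent.Lib.LeechTrans Cfsg.Agent.Lib.LeechCo2

/-- permutation of the coordinates -/
def permT (e : Equiv.Perm GolayPt) : (GolayPt → ℤ) ≃+ (GolayPt → ℤ) where
  toFun x := fun p => x (e.symm p)
  invFun x := fun p => x (e p)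
  left_inv x := by funext p; simp
  right_inv x := by funext p; simp
  map_add' x y := rfl

/-- sign changes -/
def signT (c : Finset GolayPt) : (GolayPt → ℤ) ≃+ (GolayPt → ℤ) where
  toFun x := fun p => (1 - 2 * chi c p) * x p
  invFun x := fun p => (1 - 2 * chi c p) * x p
  left_inv x := by
    funext p
    rcases chi_cases c p with ⟨-, h⟩ | ⟨-, h⟩ <;> simp only [h] <;> ring
  right_inv x := by
    funext p
    rcases chi_cases c p with ⟨-, h⟩ | ⟨-, h⟩ <;> simp only [h] <;> ring
  map_add' x y := by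
    funext p
    simp only [Pi.add_apply]
    ring

theorem sqNorm_dot (x : GolayPt → ℤ) : sqNorm x = dotInt x x := by
  unfold sqNorm dotInt
  exact Finset.sum_congr rfl fun i _ => by rw [pow_two]

theorem permT_dot (e : Equiv.Perm GolayPt) (x y : GolayPt → ℤ) : dotInt (permT e x) (permT e y) = dotInt x y := by
  unfold dotInt
  exact Equiv.sum_comp e.symm fun p => x p * y p

theorem signT_dot (c : Finset GolayPt) (x y : GolayPt → ℤ) : dotInt (signT c x) (signT c y) = dotInt x y := by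
  unfold dotInt
  apply Finset.sum_congr rfl
  intro p _
  show (1 - 2 * chi c p) * x p * ((1 - 2 * chi c p) * y p) = x p * y p
  rcases chi_cases c p with ⟨-, h⟩ | ⟨-, h⟩ <;> rw [h] <;> ring

/-- the image of a lattice -/
def mp (τ : (GolayPt → ℤ) ≃+ (GolayPt → ℤ)) (M : AddSubgroup (GolayPt → ℤ)) : AddSubgroup (GolayPt → ℤ) := M.map τ.toAddMonoidHom

theorem mem_mp {τ : (GolayPt → ℤ) ≃+ (GolayPt → ℤ)} {M : AddSubgroup (GolayPt → ℤ)} {y : GolayPt → ℤ} : y ∈ mp τ M ↔ τ.symm y ∈ M := by
  constructor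
  · rintro ⟨x, hx, rfl⟩
    show τ.symm (τ x) ∈ M
    rw [AddEquiv.symm_apply_apply]; exact hx
  · intro h
    exact ⟨_, h, AddEquiv.apply_symm_apply _ _⟩

theorem mp_mem {τ : (GolayPt → ℤ) ≃+ (GolayPt → ℤ)} {M : AddSubgroup (GolayPt → ℤ)} {x : GolayPt → ℤ} (hx : x ∈ M) : τ x ∈ mp τ M :=
  ⟨x, hx, rfl⟩

theorem Good.mp {M : AddSubgroup (GolayPt → ℤ)} (hM : Good M) (τ : (GolayPt → ℤ) ≃+ (GolayPt → ℤ))
    (hd : ∀ x y, dotInt (τ x) (τ y) = dotInt x y)
    (hD : ∀ y : GolayPt → ℤ, (∀ p, (4 : ℤ) ∣ y p) → (8 : ℤ) ∣ ∑ p, y p → (∀ p, (4 : ℤ) ∣ τ.symm y p) ∧ (8 : ℤ) ∣ ∑ p, τ.symm y p) :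
    Good (mp τ M) := by
  have hsum : ∀ (p : GolayPt) (c : ℤ), ∑ q, (Pi.single p c : GolayPt → ℤ) q = c := by
    intro p c
    rw [Finset.sum_eq_single_of_mem p (Finset.mem_univ _), Pi.single_eq_same]
    intro q _ hq
    exact Pi.single_eq_of_ne hq _
  have h4 : ∀ (p : GolayPt) (c : ℤ), (4 : ℤ) ∣ c → ∀ q, (4 : ℤ) ∣ (Pi.single p c : GolayPt → ℤ) q := by
    intro p c hc q
    by_cases h : q = p
    · rw [h, Pi.single_eq_same]; exact hc
    · rw [Pi.single_eq_of_ne h]; exact dvd_zero _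
  have hn : ∀ x, sqNorm (τ x) = sqNorm x := fun x => by rw [sqNorm_dot, hd, ← sqNorm_dot]
  refine ⟨fun p => ?_, fun p q _ => ?_, ?_, ?_, ?_, ?_⟩
  · rw [mem_mp]
    obtain ⟨h1, h2⟩ := hD (Pi.single p 8) (h4 p 8 (by norm_num)) (by rw [hsum])
    exact hM.D_mem h1 h2
  · rw [mem_mp]
    obtain ⟨h1, h2⟩ := hD (Pi.single p 4 - Pi.single q 4) (fun r => by
      rw [Pi.sub_apply]; exact dvd_sub (h4 p 4 (by norm_num) r) (h4 q 4 (by norm_num) r)) (by
      have : ∑ r, (Pi.single p 4 - Pi.single q 4 : GolayPt → ℤ) r = 0 := by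
        simp only [Pi.sub_apply]
        rw [Finset.sum_sub_distrib, hsum, hsum, sub_self]
      rw [this]; exact dvd_zero _)
    exact hM.D_mem h1 h2
  · rintro _ ⟨x, hx, rfl⟩ hne
    show 32 ≤ sqNorm (τ x)
    rw [hn]
    apply hM.min x hx
    rintro rfl
    apply hne
    exact map_zero τ
  · rintro _ ⟨x, hx, rfl⟩ _ ⟨y, hy, rfl⟩
    show (8 : ℤ) ∣ dotInt (τ x) (τ y)
    rw [hd]; exact hM.dot x hx y hy
  · rintro _ ⟨x, hx, rfl⟩
    show (16 : ℤ) ∣ sqNorm (τ x)
    rw [hn]; exact hM.nrm x hx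
  · rw [← hM.cnt, ← Set.ncard_image_of_injective {x | x ∈ M ∧ sqNorm x = 32} τ.injective]
    congr 1
    ext y
    constructor
    · rintro ⟨⟨x, hx, rfl⟩, h⟩
      exact ⟨x, ⟨hx, by rw [← hn]; exact h⟩, rfl⟩
    · rintro ⟨x, ⟨hx, h⟩, rfl⟩
      exact ⟨⟨x, hx, rfl⟩, by rw [hn]; exact h⟩

theorem Good.perm {M : AddSubgroup (GolayPt → ℤ)} (hM : Good M) (e : Equiv.Perm GolayPt) : Good (LeechChar.mp (permT e) M) := by
  apply hM.mp _ (permT_dot e)
  intro y h1 h2
  refine ⟨fun p => h1 (e p), ?_⟩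
  have : ∑ p, (permT e).symm y p = ∑ p, y p := Equiv.sum_comp e y
  rw [this]; exact h2

theorem Good.sign {M : AddSubgroup (GolayPt → ℤ)} (hM : Good M) (c : Finset GolayPt) : Good (LeechChar.mp (signT c) M) := by
  apply hM.mp _ (signT_dot c)
  intro y h1 h2
  refine ⟨fun p => dvd_mul_of_dvd_right (h1 p) _, ?_⟩
  have h3 : ∑ p, (signT c).symm y p = ∑ p, y p - ∑ p, 2 * chi c p * y p := by
    rw [← Finset.sum_sub_distrib]
    apply Finset.sum_congr rfl
    intro p _
    show (1 - 2 * chi c p) * y p = _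
    ring
  rw [h3]
  apply dvd_sub h2
  apply Finset.dvd_sum
  intro p _
  obtain ⟨k, hk⟩ := h1 p
  rw [hk]
  exact ⟨chi c p * k, by ring⟩

theorem Cd_perm {M : AddSubgroup (GolayPt → ℤ)} (e : Equiv.Perm GolayPt) {A : Finset GolayPt} (hA : A ∈ Cd M) :
    A.image e ∈ Cd (mp (permT e) M) := by
  obtain ⟨x, hx, h⟩ := hA
  refine ⟨permT e x, mp_mem hx, fun p => ?_⟩
  have h1 : chi (A.image e) p = chi A (e.symm p) := by
    unfold chi
    have : p ∈ A.image e ↔ e.symm p ∈ A := by
      rw [Finset.mem_image]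
      constructor
      · rintro ⟨q, hq, rfl⟩; simpa using hq
      · intro h; exact ⟨_, h, by simp⟩
    simp only [this]
  rw [h1]
  exact h (e.symm p)

theorem Cd_sign_le {M : AddSubgroup (GolayPt → ℤ)} (c : Finset GolayPt) : Cd M ⊆ Cd (mp (signT c) M) := by
  rintro A ⟨x, hx, h⟩
  refine ⟨signT c x, mp_mem hx, fun p => ?_⟩
  have h1 := h p
  show (4 : ℤ) ∣ (1 - 2 * chi c p) * x p - 2 * chi A p
  obtain ⟨k, hk⟩ := h1
  have hk' : x p = 2 * chi A p + 4 * k := by linarith
  rw [hk']
  exact ⟨k - chi c p * chi A p - 2 * chi c p * k, by ring⟩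

theorem ncard_Sup : (Sup).ncard = 4096 := by
  rw [← LeechFrame.natCard_Sup, Nat.card_coe_set_eq]

theorem Good.exists_perm {M : AddSubgroup (GolayPt → ℤ)} (hM : Good M) : ∃ e : Equiv.Perm GolayPt, Cd (LeechChar.mp (permT e) M) = Sup := by
  obtain ⟨h1, -, -⟩ := hM.main
  obtain ⟨e, he⟩ := S5824.iso card_pt card_pt (hM.steiner h1) octads_steiner
  have hM' := hM.perm e
  refine ⟨e, ?_⟩
  have hoct : octads ⊆ Cd (LeechChar.mp (permT e) M) := by
    intro o ho
    rw [← he] at ho
    obtain ⟨b, hb, rfl⟩ := ho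
    exact Cd_perm e (mem_C8.1 hb).1
  apply Set.eq_of_subset_of_ncard_le
  · intro w hw
    apply S5824.mem_Sup_of
    intro m hm
    have h2 := hM'.inter (hoct (S5824.kL_octad m hm)) hw
    unfold S5824.par
    exact Nat.even_iff.1 h2
  · rw [ncard_Sup, hM'.main.2.1]
  · exact Set.toFinite _

theorem Good.eq_leech {M : AddSubgroup (GolayPt → ℤ)} (hM : Good M) (hC : Cd M = Sup) {p : GolayPt} (h0 : cv {p} ∅ ∈ M) :
    M = leechLattice := by
  have hcv : ∀ i, cv {p} ∅ i = 1 - 4 * chi {p} i := by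
    intro i
    unfold cv
    rcases chi_cases ∅ i with ⟨h, -⟩ | ⟨-, h⟩
    · simp at h
    · rw [h]; ring
  have hsum0 : ∑ i, cv {p} ∅ i = 20 := by
    rw [Finset.sum_congr rfl fun i _ => hcv i, Finset.sum_sub_distrib, ← Finset.mul_sum, sum_chi, sum_const]
    simp
  have hchi : ∀ A ∈ Cd M, (fun i => 2 * chi A i) ∈ M := by
    intro A hA
    by_cases hne : A = ∅
    · rw [hne]
      convert zero_mem M using 1
      funext i
      rcases chi_cases ∅ i with ⟨h, -⟩ | ⟨-, h⟩
      · simp at h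
      · rw [h]; rfl
    · obtain ⟨a, ha⟩ := Finset.nonempty_iff_ne_empty.2 hne
      rcases hM.rep hA a with h | h
      · exact h
      · exfalso
        have h1 := hM.dot _ h _ h0
        have h4 : 4 ∣ A.card := by
          rcases hM.card_mem hA with h | h
          · exact absurd h hne
          · exact h.2
        have h2 : dotInt (fun i => 2 * chi A i - 4 * chi {a} i) (cv {p} ∅) =
            2 * (A.card : ℤ) - 4 - 8 * chi A p + 16 * ∑ i, chi {a} i * chi {p} i := by
          have e1 : ∑ i, chi A i * chi {p} i = chi A p := by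
            rw [Finset.sum_eq_single_of_mem p (Finset.mem_univ _)]
            · rw [chi_single]; simp
            · intro b _ hb
              rw [chi_single, if_neg hb, mul_zero]
          have e2 : ∑ i, chi {a} i = 1 := by rw [sum_chi]; simp
          have e3 : dotInt (fun i => 2 * chi A i - 4 * chi {a} i) (cv {p} ∅) =
              2 * ∑ i, chi A i - 4 * ∑ i, chi {a} i - 8 * ∑ i, chi A i * chi {p} i + 16 * ∑ i, chi {a} i * chi {p} i := by
            rw [Finset.mul_sum, Finset.mul_sum, Finset.mul_sum, Finset.mul_sum, ← Finset.sum_sub_distrib, ← Finset.sum_sub_distrib,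
              ← Finset.sum_add_distrib]
            unfold dotInt
            apply Finset.sum_congr rfl
            intro i _
            rw [hcv]; ring
          rw [e3, e1, e2, sum_chi]
          ring
        rw [h2] at h1
        omega
  ext x
  constructor
  · intro hx
    have key : ∀ y ∈ M, (∀ i, (2 : ℤ) ∣ y i) → y ∈ leechLattice := by
      intro y hy h2
      rw [mem_lattice_iff']
      have hA := odd4_mem hy h2
      refine ⟨0, odd4 y, by rw [← hC]; exact hA, fun i => ?_, ?_⟩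
      · rw [sub_zero]; exact odd4_spec h2 i
      · rw [mul_zero, sub_zero]
        have h3 := sub_mem hy (hchi _ hA)
        set z : GolayPt → ℤ := y - fun i => 2 * chi (odd4 y) i with hz
        have hz4 : ∀ i, (4 : ℤ) ∣ z i := fun i => odd4_spec h2 i
        have hzs : ∑ i, z i = ∑ i, y i - 2 * ((odd4 y).card : ℤ) := by
          rw [← sum_chi, Finset.mul_sum, ← Finset.sum_sub_distrib]
          rfl
        have h4 : 4 ∣ (odd4 y).card := by
          rcases hM.card_mem hA with h | h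
          · rw [h]; simp
          · exact h.2
        have h8 : (8 : ℤ) ∣ ∑ i, z i := by
          by_contra hno
          have h5 : (4 : ℤ) ∣ ∑ i, z i := Finset.dvd_sum fun i _ => hz4 i
          have h6 := hM.D_mem (y := fun i => z i - 4 * chi {none} i) (fun i => dvd_sub (hz4 i) (dvd_mul_right _ _)) (by
            rw [Finset.sum_sub_distrib, ← Finset.mul_sum, sum_chi, Finset.card_singleton]
            push_cast
            omega)
          have h7 := sub_mem h3 h6
          apply hM.four_notin none (Or.inl rfl)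
          convert h7 using 1
          funext i
          rw [Pi.sub_apply, Pi.single_apply, chi_single]
          split_ifs <;> ring
        omega
    by_cases hodd : (2 : ℤ) ∣ x none
    · apply key x hx
      intro i
      have := hM.parity hx i none
      omega
    · have h1 := key (x - cv {p} ∅) (sub_mem hx h0) (by
        intro i
        have e1 := hM.parity hx i none
        have e2 := hM.parity h0 i none
        have e3 := hcv none
        rw [Pi.sub_apply]
        omega)
      have h2 := add_mem h1 (LeechFrame.cv_single_mem p)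
      rwa [sub_add_cancel] at h2
  · intro hx
    obtain ⟨m, A, hA, h1, h2⟩ := (mem_lattice_iff' x).1 hx
    rw [← hC] at hA
    have h3 := hchi A hA
    have h4 : 4 ∣ A.card := by
      rcases hM.card_mem hA with h | h
      · rw [h]; simp
      · exact h.2
    have h5 := hM.D_mem (y := fun i => x i - m * cv {p} ∅ i - 2 * chi A i) (fun i => by
      have e1 := h1 i
      obtain ⟨k, hk⟩ := e1
      show (4 : ℤ) ∣ x i - m * cv {p} ∅ i - 2 * chi A i
      rw [hcv]
      exact ⟨k + m * chi {p} i, by linarith⟩) (by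
      rw [Finset.sum_sub_distrib, Finset.sum_sub_distrib, ← Finset.mul_sum, ← Finset.mul_sum, hsum0, sum_chi]
      omega)
    have h6 := add_mem (add_mem h5 h3) (AddSubgroup.zsmul_mem M h0 m)
    convert h6 using 1
    funext i
    simp only [Pi.add_apply, Pi.smul_apply, smul_eq_mul]
    ring

theorem Good.exists_sign {M : AddSubgroup (GolayPt → ℤ)} (hM : Good M) : ∃ (c : Finset GolayPt) (p : GolayPt), cv {p} ∅ ∈ LeechChar.mp (signT c) M := by
  obtain ⟨-, -, x, hx, h1, h2⟩ := hM.main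
  obtain ⟨p, h3, h4⟩ := v1 h1 h2
  refine ⟨Finset.univ.filter fun q => ¬ (4 : ℤ) ∣ x q - 1, p, x, hx, ?_⟩
  show signT _ x = _
  funext q
  show (1 - 2 * chi _ q) * x q = cv {p} ∅ q
  have hcv : cv {p} ∅ q = 1 - 4 * chi {p} q := by
    unfold cv
    rcases chi_cases ∅ q with ⟨h, -⟩ | ⟨-, h⟩
    · simp at h
    · rw [h]; ring
  rw [hcv, chi_single]
  rcases chi_cases (Finset.univ.filter fun q => ¬ (4 : ℤ) ∣ x q - 1) q with ⟨e1, e2⟩ | ⟨e1, e2⟩
  · rw [e2]
    rw [Finset.mem_filter] at e1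
    by_cases hq : q = p
    · rw [if_pos hq]
      rw [← hq] at h3
      have := e1.2
      omega
    · rw [if_neg hq]
      have := h4 q hq
      have := e1.2
      omega
  · rw [e2]
    rw [Finset.mem_filter] at e1
    have e3 : (4 : ℤ) ∣ x q - 1 := by
      by_contra h
      exact e1 ⟨Finset.mem_univ _, h⟩
    by_cases hq : q = p
    · rw [if_pos hq]
      rw [← hq] at h3
      omega
    · rw [if_neg hq]
      have := h4 q hq
      omega

theorem Good.final {M : AddSubgroup (GolayPt → ℤ)} (hM : Good M) :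
    ∃ τ : (GolayPt → ℤ) ≃+ (GolayPt → ℤ), (∀ x, sqNorm (τ x) = sqNorm x) ∧ LeechChar.mp τ M = leechLattice := by
  obtain ⟨e, he⟩ := hM.exists_perm
  have hM1 := hM.perm e
  obtain ⟨c, p, hcp⟩ := hM1.exists_sign
  have hM2 := hM1.sign c
  have hC : Cd (LeechChar.mp (signT c) (LeechChar.mp (permT e) M)) = Sup := by
    symm
    apply Set.eq_of_subset_of_ncard_le
    · rw [← he]; exact Cd_sign_le c
    · rw [ncard_Sup, hM2.main.2.1]
    · exact Set.toFinite _
  refine ⟨(permT e).trans (signT c), fun x => ?_, ?_⟩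
  · rw [sqNorm_dot]
    show dotInt (signT c (permT e x)) (signT c (permT e x)) = _
    rw [signT_dot, permT_dot, ← sqNorm_dot]
  · rw [← hM2.eq_leech hC hcp]
    unfold LeechChar.mp
    rw [AddSubgroup.map_map]
    rfl

end Cfsg.Agent.Lib.LeechChar
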