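import Cfsg.Agent.Lib.LeechChar3

/-!
Recognition of the Leech lattice from its numbers of short vectors.
-/

set_option autoImplicit false
set_option maxHeartbeats 400000

namespace Cfsg.Agent.Lib.LeechChar

open Cfsg Cfsg.Agent.Lib.Golay Cfsg.Agent.Lib.LeechMin Cfsg.Agent.Lib.LeechTrans Cfsg.Agent.Lib.LeechCo2
open Matrix

abbrev L24 : Type := Fin 24 → ℤ

/-- the hypotheses -/
structure Hyp (B : Matrix (Fin 24) (Fin 24) ℤ) : Prop where
  symm : B.IsSymm
  pos : ∀ x : L24, x ≠ 0 → 0 < x ⬝ᵥ (B *ᵥ x)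
  even : ∀ x : L24, (2 : ℤ) ∣ x ⬝ᵥ (B *ᵥ x)
  no2 : ∀ x : L24, x ⬝ᵥ (B *ᵥ x) ≠ 2
  n4 : {x : L24 | x ⬝ᵥ (B *ᵥ x) = 4}.ncard = 196560
  n6 : {x : L24 | x ⬝ᵥ (B *ᵥ x) = 6}.ncard = 16773120
  n8 : {x : L24 | x ⬝ᵥ (B *ᵥ x) = 8}.ncard = 398034000

section
variable (B : Matrix (Fin 24) (Fin 24) ℤ)

/-- the bilinear form -/
def bf (x y : L24) : ℤ := x ⬝ᵥ (B *ᵥ y)

/-- the norm -/
def nm (x : L24) : ℤ := bf B x x

theorem bf_add_left (x y z : L24) : bf B (x + y) z = bf B x z + bf B y z := add_dotProduct _ _ _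
theorem bf_add_right (x y z : L24) : bf B x (y + z) = bf B x y + bf B x z := by
  unfold bf; rw [mulVec_add, dotProduct_add]
theorem bf_neg_left (x y : L24) : bf B (-x) y = -bf B x y := neg_dotProduct _ _
theorem bf_neg_right (x y : L24) : bf B x (-y) = -bf B x y := by
  unfold bf; rw [mulVec_neg, dotProduct_neg]

variable {B} (h : Hyp B)
include h

theorem Hyp.comm (x y : L24) : bf B x y = bf B y x := by
  unfold bf
  rw [dotProduct_comm, ← vecMul_transpose, h.symm.eq, dotProduct_mulVec]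

theorem Hyp.nm_add (x y : L24) : nm B (x + y) = nm B x + 2 * bf B x y + nm B y := by
  unfold nm
  rw [bf_add_left, bf_add_right, bf_add_right, h.comm y x]; ring

theorem Hyp.nm_sub (x y : L24) : nm B (x - y) = nm B x - 2 * bf B x y + nm B y := by
  rw [sub_eq_add_neg, h.nm_add, bf_neg_right]
  have : nm B (-y) = nm B y := by unfold nm; rw [bf_neg_left, bf_neg_right, neg_neg]
  rw [this]; ring

theorem Hyp.nm_double (x : L24) : nm B (x + x) = 4 * nm B x := by
  rw [h.nm_add]; unfold nm; ring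

omit h in
theorem nm_zero : nm B 0 = 0 := by
  unfold nm bf; rw [zero_dotProduct]

theorem Hyp.nm_ge {x : L24} (hx : x ≠ 0) : 4 ≤ nm B x := by
  have h1 : 0 < nm B x := h.pos x hx
  have h2 : (2 : ℤ) ∣ nm B x := h.even x
  have h3 : nm B x ≠ 2 := h.no2 x
  omega

end

/-- reduction modulo two -/
def rd (x : L24) : Fin 24 → ZMod 2 := fun i => (x i : ZMod 2)

theorem rd_eq {x y : L24} (h : rd x = rd y) : ∃ z, x - y = z + z := by
  have h1 : ∀ i, (2 : ℤ) ∣ x i - y i := by
    intro i
    have h2 := congrFun h i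
    have h3 : ((x i - y i : ℤ) : ZMod 2) = 0 := by
      push_cast
      exact sub_eq_zero.2 h2
    rw [ZMod.intCast_zmod_eq_zero_iff_dvd] at h3
    exact_mod_cast h3
  choose z hz using h1
  exact ⟨z, funext fun i => by rw [Pi.sub_apply, Pi.add_apply, hz]; ring⟩

theorem rd_neg (x : L24) : rd (-x) = rd x := by
  funext i
  show ((-(x i) : ℤ) : ZMod 2) = (x i : ZMod 2)
  push_cast
  exact CharTwo.neg_eq _

section
variable {B : Matrix (Fin 24) (Fin 24) ℤ} (h : Hyp B)
include h

theorem Hyp.key1 {x y : L24} (hr : rd x = rd y) (h1 : x ≠ y) (h2 : x ≠ -y) (hx : nm B x ≤ 8) (hy : nm B y ≤ 8) :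
    nm B x = 8 ∧ nm B y = 8 ∧ bf B x y = 0 := by
  obtain ⟨z, hz⟩ := rd_eq hr
  obtain ⟨w, hw⟩ := rd_eq (x := x) (y := -y) (by rw [rd_neg]; exact hr)
  have hz0 : z ≠ 0 := by
    rintro rfl
    rw [add_zero] at hz
    exact h1 (sub_eq_zero.1 hz)
  have hw0 : w ≠ 0 := by
    rintro rfl
    rw [add_zero] at hw
    exact h2 (sub_eq_zero.1 hw)
  have h3 := h.nm_sub x y
  have h4 := h.nm_add x y
  rw [hz, h.nm_double] at h3
  rw [sub_neg_eq_add] at hw
  rw [hw, h.nm_double] at h4
  have h5 := h.nm_ge hz0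
  have h6 := h.nm_ge hw0
  refine ⟨by omega, by omega, by omega⟩

/-- a large class of vectors of norm eight -/
theorem Hyp.exists_class : ∃ F : Finset L24, 48 ≤ F.card ∧ (∀ x ∈ F, nm B x = 8) ∧ ∀ x ∈ F, ∀ y ∈ F, rd x = rd y := by
  classical
  have f4 : {x : L24 | nm B x = 4}.Finite := Set.finite_of_ncard_ne_zero (by
    show {x : L24 | x ⬝ᵥ (B *ᵥ x) = 4}.ncard ≠ 0
    rw [h.n4]; norm_num)
  have f6 : {x : L24 | nm B x = 6}.Finite := Set.finite_of_ncard_ne_zero (by
    show {x : L24 | x ⬝ᵥ (B *ᵥ x) = 6}.ncard ≠ 0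
    rw [h.n6]; norm_num)
  have f8 : {x : L24 | nm B x = 8}.Finite := Set.finite_of_ncard_ne_zero (by
    show {x : L24 | x ⬝ᵥ (B *ᵥ x) = 8}.ncard ≠ 0
    rw [h.n8]; norm_num)
  have c4 : f4.toFinset.card = 196560 := by rw [← Set.ncard_eq_toFinset_card _ f4]; exact h.n4
  have c6 : f6.toFinset.card = 16773120 := by rw [← Set.ncard_eq_toFinset_card _ f6]; exact h.n6
  have c8 : f8.toFinset.card = 398034000 := by rw [← Set.ncard_eq_toFinset_card _ f8]; exact h.n8
  set V := f4.toFinset ∪ f6.toFinset with hV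
  have m4 : ∀ x, x ∈ f4.toFinset ↔ nm B x = 4 := fun x => Set.Finite.mem_toFinset _
  have m6 : ∀ x, x ∈ f6.toFinset ↔ nm B x = 6 := fun x => Set.Finite.mem_toFinset _
  have m8 : ∀ x, x ∈ f8.toFinset ↔ nm B x = 8 := fun x => Set.Finite.mem_toFinset _
  have hVm : ∀ x ∈ V, nm B x = 4 ∨ nm B x = 6 := by
    intro x hx
    rw [hV, Finset.mem_union, m4, m6] at hx
    exact hx
  have cV : V.card = 16969680 := by
    rw [hV, Finset.card_union_of_disjoint, c4, c6]
    rw [Finset.disjoint_left]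
    intro x hx hx'
    rw [m4] at hx
    rw [m6] at hx'
    omega
  have hI : V.card ≤ 2 * (V.image rd).card := by
    apply Finset.card_le_mul_card_image
    intro a ha
    obtain ⟨x0, hx0, rfl⟩ := Finset.mem_image.1 ha
    have : (V.filter fun x => rd x = rd x0) ⊆ {x0, -x0} := by
      intro x hx
      rw [Finset.mem_filter] at hx
      rw [Finset.mem_insert, Finset.mem_singleton]
      by_contra hcon
      push Not at hcon
      have e1 := hVm x hx.1
      have e2 := hVm x0 hx0
      have := h.key1 hx.2 hcon.1 hcon.2 (by omega) (by omega)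
      omega
    exact (Finset.card_le_card this).trans Finset.card_le_two
  have h0 : (0 : Fin 24 → ZMod 2) ∉ V.image rd := by
    intro h0
    obtain ⟨x, hx, e⟩ := Finset.mem_image.1 h0
    have e0 : rd x = rd 0 := by rw [e]; funext i; simp [rd]
    have e1 := hVm x hx
    have hne : x ≠ 0 := by
      rintro rfl
      rw [nm_zero] at e1
      omega
    have := h.key1 e0 hne (by rw [neg_zero]; exact hne) (by omega) (by rw [nm_zero]; norm_num)
    rw [nm_zero] at this
    omega
  set T : Finset (Fin 24 → ZMod 2) := Finset.univ \ insert 0 (V.image rd) with hT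
  have cT : T.card ≤ 8292375 := by
    have e1 := Finset.card_sdiff_add_card_inter (Finset.univ : Finset (Fin 24 → ZMod 2)) (insert 0 (V.image rd))
    rw [Finset.univ_inter, Finset.card_insert_of_notMem h0, Finset.card_univ, Fintype.card_fun, ZMod.card, Fintype.card_fin] at e1
    have e2 : (2 : ℕ) ^ 24 = 16777216 := by norm_num
    rw [e2, ← hT] at e1
    rw [cV] at hI
    clear_value T V
    omega
  have hmaps : ∀ x ∈ f8.toFinset, rd x ∈ T := by
    intro x hx
    rw [m8] at hx
    rw [hT, Finset.mem_sdiff]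
    refine ⟨Finset.mem_univ _, fun hmem => ?_⟩
    rw [Finset.mem_insert] at hmem
    rcases hmem with e | e
    · have e0 : rd x = rd 0 := by rw [e]; funext i; simp [rd]
      have hne : x ≠ 0 := by
        rintro rfl
        rw [nm_zero] at hx
        omega
      have := h.key1 e0 hne (by rw [neg_zero]; exact hne) (by omega) (by rw [nm_zero]; norm_num)
      rw [nm_zero] at this
      omega
    · obtain ⟨y, hy, e⟩ := Finset.mem_image.1 e
      have e1 := hVm y hy
      have hne1 : x ≠ y := by rintro rfl; omega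
      have hne2 : x ≠ -y := by
        rintro rfl
        have : nm B (-y) = nm B y := by unfold nm; rw [bf_neg_left, bf_neg_right, neg_neg]
        omega
      have := h.key1 e.symm hne1 hne2 (by omega) (by omega)
      omega
  obtain ⟨a, -, ha⟩ := Finset.exists_lt_card_fiber_of_mul_lt_card_of_maps_to (n := 47) hmaps (by rw [c8]; omega)
  refine ⟨f8.toFinset.filter fun x => rd x = a, by omega, fun x hx => ?_, fun x hx y hy => ?_⟩
  · rw [Finset.mem_filter, m8] at hx
    exact hx.1
  · rw [Finset.mem_filter] at hx hy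
    rw [hx.2, hy.2]

/-- a frame -/
theorem Hyp.exists_frame : ∃ g : Fin 24 → L24, (∀ i j, bf B (g i) (g j) = if i = j then 8 else 0) ∧ ∀ i j, rd (g i) = rd (g j) := by
  classical
  obtain ⟨F, hF, hn, hr⟩ := h.exists_class
  have key : ∀ k : ℕ, k ≤ 24 → ∃ g : Fin k → L24, (∀ i, g i ∈ F) ∧ ∀ i j, i ≠ j → bf B (g i) (g j) = 0 := by
    intro k
    induction k with
    | zero => intro _; exact ⟨fun i => i.elim0, fun i => i.elim0, fun i => i.elim0⟩
    | succ k ih =>
      intro hk
      obtain ⟨g, hg1, hg2⟩ := ih (by omega)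
      have hcard : ((Finset.univ.image g) ∪ (Finset.univ.image fun i => -g i)).card < F.card := by
        have e1 := Finset.card_union_le (Finset.univ.image g) (Finset.univ.image fun i => -g i)
        have e2 : (Finset.univ.image g).card ≤ k := (Finset.card_image_le).trans (by simp)
        have e3 : (Finset.univ.image fun i => -g i).card ≤ k := (Finset.card_image_le).trans (by simp)
        omega
      obtain ⟨x, hx, hx'⟩ := Finset.exists_mem_notMem_of_card_lt_card hcard
      rw [Finset.mem_union, Finset.mem_image, Finset.mem_image] at hx'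
      push Not at hx'
      have hb : ∀ i, bf B x (g i) = 0 := by
        intro i
        exact (h.key1 (hr x hx (g i) (hg1 i)) (fun e => hx'.1 i (Finset.mem_univ _) e.symm)
          (fun e => hx'.2 i (Finset.mem_univ _) e.symm) (le_of_eq (hn x hx)) (le_of_eq (hn _ (hg1 i)))).2.2
      refine ⟨Fin.cons x g, ?_, ?_⟩
      · intro i
        refine Fin.cases ?_ (fun i => ?_) i
        · exact hx
        · exact hg1 i
      · intro i j
        refine Fin.cases ?_ (fun i => ?_) i <;> refine Fin.cases ?_ (fun j => ?_) j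
        · intro hne; exact absurd rfl hne
        · intro _
          exact hb j
        · intro _
          rw [h.comm]
          exact hb i
        · intro hne
          exact hg2 i j (fun e => hne (by rw [e]))
  obtain ⟨g, hg1, hg2⟩ := key 24 le_rfl
  refine ⟨g, fun i j => ?_, fun i j => hr _ (hg1 i) _ (hg1 j)⟩
  by_cases hij : i = j
  · rw [if_pos hij, hij]
    exact hn _ (hg1 j)
  · rw [if_neg hij]
    exact hg2 i j hij

end

theorem map_eight : ((8 : ℤ) • (1 : Matrix (Fin 24) (Fin 24) ℤ)).map (Int.castRingHom ℚ) = (8 : ℚ) • (1 : Matrix (Fin 24) (Fin 24) ℚ) := by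
  ext i j
  rw [Matrix.map_apply, Matrix.smul_apply, Matrix.smul_apply, Matrix.one_apply, Matrix.one_apply]
  by_cases hij : i = j
  · rw [if_pos hij, if_pos hij]; norm_num
  · rw [if_neg hij, if_neg hij]; norm_num

/-- completeness of the frame -/
theorem complete {B : Matrix (Fin 24) (Fin 24) ℤ} (h : Hyp B) {g : Fin 24 → L24} (hg : ∀ i j, bf B (g i) (g j) = if i = j then 8 else 0)
    (x y : L24) : ∑ i, bf B (g i) x * bf B (g i) y = 8 * bf B x y := by
  set G : Matrix (Fin 24) (Fin 24) ℤ := Matrix.of g with hG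
  have h1 : G * B * Gᵀ = (8 : ℤ) • (1 : Matrix (Fin 24) (Fin 24) ℤ) := by
    ext i j
    rw [Matrix.mul_assoc, Matrix.smul_apply, Matrix.one_apply, Matrix.mul_apply']
    have h2 := hg i j
    unfold bf at h2
    have h3 : (fun k => (B * Gᵀ) k j) = B *ᵥ g j := by
      funext k
      rw [Matrix.mul_apply', Matrix.mulVec]
      rfl
    rw [h3]
    show g i ⬝ᵥ B *ᵥ g j = _
    rw [h2]
    by_cases hij : i = j
    · rw [if_pos hij, if_pos hij]; rfl
    · rw [if_neg hij, if_neg hij]; rfl
  have h2 : Gᵀ * (G * B) = (8 : ℤ) • (1 : Matrix (Fin 24) (Fin 24) ℤ) := by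
    have hinj : Function.Injective (Int.castRingHom ℚ) := Int.cast_injective
    apply Matrix.map_injective hinj
    have h3 : (G * B).map (Int.castRingHom ℚ) * (Gᵀ).map (Int.castRingHom ℚ) = (8 : ℚ) • (1 : Matrix (Fin 24) (Fin 24) ℚ) := by
      rw [← Matrix.map_mul, h1]
      exact map_eight
    have h4 : ((1 / 8 : ℚ) • (G * B).map (Int.castRingHom ℚ)) * (Gᵀ).map (Int.castRingHom ℚ) = 1 := by
      rw [Matrix.smul_mul, h3, smul_smul]
      norm_num
    have h5 := mul_eq_one_comm.1 h4
    rw [Matrix.mul_smul] at h5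
    have h6 : (Gᵀ).map (Int.castRingHom ℚ) * (G * B).map (Int.castRingHom ℚ) = (8 : ℚ) • (1 : Matrix (Fin 24) (Fin 24) ℚ) := by
      rw [← h5, smul_smul]
      norm_num
    show (Gᵀ * (G * B)).map (Int.castRingHom ℚ) = ((8 : ℤ) • (1 : Matrix (Fin 24) (Fin 24) ℤ)).map (Int.castRingHom ℚ)
    rw [Matrix.map_mul, h6]
    exact map_eight.symm
  have h3 : ∀ z i, bf B (g i) z = ((G * B) *ᵥ z) i := by
    intro z i
    rw [← Matrix.mulVec_mulVec]
    rfl
  have h4 : ∑ i, bf B (g i) x * bf B (g i) y = ((G * B) *ᵥ x) ⬝ᵥ ((G * B) *ᵥ y) := by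
    rw [dotProduct]
    exact Finset.sum_congr rfl fun i _ => by rw [h3, h3]
  rw [h4, dotProduct_mulVec, ← Matrix.vecMul_transpose, Matrix.vecMul_vecMul, Matrix.transpose_mul, h.symm.eq]
  have h5 : B * Gᵀ * (G * B) = (8 : ℤ) • B := by
    rw [Matrix.mul_assoc, h2, Matrix.mul_smul, Matrix.mul_one]
  rw [h5, Matrix.vecMul_smul, smul_dotProduct, ← dotProduct_mulVec]
  rfl

theorem recognise {B : Matrix (Fin 24) (Fin 24) ℤ} (h : Hyp B) :
    ∃ f : L24 ≃+ leechLattice, ∀ x : L24, sqNorm ((f x : leechLattice) : GolayPt → ℤ) = 8 * (x ⬝ᵥ (B *ᵥ x)) := by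
  obtain ⟨g, hg, hr⟩ := h.exists_frame
  let e : GolayPt ≃ Fin 24 := Fintype.equivFinOfCardEq card_pt
  let φ : L24 →+ (GolayPt → ℤ) :=
    { toFun := fun x p => bf B (g (e p)) x
      map_zero' := by
        funext p
        show bf B _ 0 = 0
        unfold bf
        rw [mulVec_zero, dotProduct_zero]
      map_add' := fun x y => by
        funext p
        exact bf_add_right B _ _ _ }
  have hdot : ∀ x y, dotInt (φ x) (φ y) = 8 * bf B x y := by
    intro x y
    rw [← complete h hg]
    exact Equiv.sum_comp e fun i => bf B (g i) x * bf B (g i) y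
  have hsq : ∀ x, sqNorm (φ x) = 8 * nm B x := fun x => by rw [sqNorm_dot, hdot]; rfl
  have hinj : Function.Injective φ := by
    rw [injective_iff_map_eq_zero]
    intro x hx
    by_contra hne
    have h1 := hsq x
    have h2 := h.nm_ge hne
    rw [hx] at h1
    have h4 : sqNorm (0 : GolayPt → ℤ) = 0 := by simp [sqNorm]
    rw [h4] at h1
    omega
  have hφg : ∀ p, φ (g (e p)) = Pi.single p 8 := by
    intro p
    funext q
    show bf B (g (e q)) (g (e p)) = _
    rw [hg]
    by_cases hq : q = p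
    · rw [hq, if_pos rfl, Pi.single_eq_same]
    · rw [if_neg (fun h' => hq (e.injective h')), Pi.single_eq_of_ne hq]
  have hM : Good φ.range := by
    refine ⟨fun p => ⟨_, hφg p⟩, fun p q _ => ?_, ?_, ?_, ?_, ?_⟩
    · obtain ⟨z, hz⟩ := rd_eq (hr (e p) (e q))
      refine ⟨z, ?_⟩
      have h1 : φ z + φ z = Pi.single p 8 - Pi.single q 8 := by
        rw [← map_add, ← hz, map_sub, hφg, hφg]
      funext r
      have h2 := congrFun h1 r
      rw [Pi.add_apply, Pi.sub_apply] at h2
      rw [Pi.sub_apply]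
      have h3 : ∀ s : GolayPt, (Pi.single s 8 : GolayPt → ℤ) r = 2 * (Pi.single s 4 : GolayPt → ℤ) r := by
        intro s
        by_cases hs : r = s
        · rw [hs, Pi.single_eq_same, Pi.single_eq_same]; norm_num
        · rw [Pi.single_eq_of_ne hs, Pi.single_eq_of_ne hs]; norm_num
      rw [h3, h3] at h2
      omega
    · rintro _ ⟨x, rfl⟩ hne
      have hx : x ≠ 0 := by rintro rfl; exact hne (map_zero φ)
      have := h.nm_ge hx
      rw [hsq]
      omega
    · rintro _ ⟨x, rfl⟩ _ ⟨y, rfl⟩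
      rw [hdot]
      exact dvd_mul_right _ _
    · rintro _ ⟨x, rfl⟩
      rw [hsq]
      have : (2 : ℤ) ∣ nm B x := h.even x
      omega
    · rw [← h.n4, ← Set.ncard_image_of_injective {x : L24 | x ⬝ᵥ (B *ᵥ x) = 4} hinj]
      congr 1
      ext y
      constructor
      · rintro ⟨⟨x, rfl⟩, hy⟩
        refine ⟨x, ?_, rfl⟩
        rw [hsq] at hy
        show nm B x = 4
        omega
      · rintro ⟨x, hx, rfl⟩
        refine ⟨⟨x, rfl⟩, ?_⟩
        rw [hsq]
        have : nm B x = 4 := hx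
        rw [this]; norm_num
  obtain ⟨τ, hτ, hL⟩ := hM.final
  let e1 : L24 ≃+ φ.range := AddMonoidHom.ofInjective hinj
  let e2 : φ.range ≃+ mp τ φ.range := AddSubgroup.equivMapOfInjective _ τ.toAddMonoidHom τ.injective
  let e3 : mp τ φ.range ≃+ leechLattice := AddEquiv.addSubgroupCongr hL
  refine ⟨(e1.trans e2).trans e3, fun x => ?_⟩
  show sqNorm (τ (φ x)) = _
  rw [hτ, hsq]
  rfl

end Cfsg.Agent.Lib.LeechChar
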