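import Cfsg.Agent.Lib.QuadNorm
import Cfsg.Agent.Lib.ClIso
import Cfsg.Agent.Lib.QuadForms

/-! General lemma for the low dimensional isomorphisms of orthogonal groups. -/

set_option autoImplicit false

namespace Cfsg.Agent.Lib.LowDim

open QuadraticMap Cfsg.Agent.Lib Cfsg.Agent.Lib.Quad Cfsg.Agent.Lib.QuadNorm

theorem center_quot_congr {G H : Type*} [Group G] [Group H] (e : G ≃* H) :
    Nonempty ((G ⧸ Subgroup.center G) ≃* (H ⧸ Subgroup.center H)) := by
  refine ⟨QuotientGroup.congr _ _ e ?_⟩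
  ext x
  rw [Subgroup.mem_map, Subgroup.mem_center_iff]
  constructor
  · rintro ⟨g, hg, rfl⟩ y
    obtain ⟨z, rfl⟩ := e.surjective y
    show e z * e g = e g * e z
    rw [← map_mul, ← map_mul, Subgroup.mem_center_iff.1 hg z]
  · intro hx
    refine ⟨e.symm x, ?_, e.apply_symm_apply x⟩
    rw [Subgroup.mem_center_iff]
    intro g
    apply e.injective
    rw [map_mul, map_mul, e.apply_symm_apply, hx]

section

variable {ι : Type} [Fintype ι] [DecidableEq ι] {F : Type*} [Field F]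
  {V : Type*} [AddCommGroup V] [Module F V]

theorem omega_equiv (Q : QuadraticForm F (ι → F)) :
    Nonempty (↥(Cfsg.Omega F ⇑Q) ≃* ↥(Om Q)) := by
  have e1 : ↥(Cfsg.Omega F ⇑Q) ≃* ↥((Om Q).subgroupOf (O Q)) :=
    ClIso.subgroupEquivOfIff (toO Q) _ _ (fun g => by
      rw [mem_Omega_iff_toO, Subgroup.mem_subgroupOf])
  exact ⟨e1.trans (Subgroup.subgroupOfEquivOfLe Om_le)⟩

theorem omega_equiv' {Q : QuadraticForm F (ι → F)} {Q' : QuadraticForm F V} (e : (ι → F) ≃ₗ[F] V)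
    (he : ∀ v, Q' (e v) = Q v) : Nonempty (↥(Cfsg.Omega F ⇑Q) ≃* ↥(Om Q')) := by
  obtain ⟨e1⟩ := omega_equiv Q
  have e2 : ↥(Om Q) ≃* ↥(Om Q') :=
    ((conjLE e).subgroupMap (Om Q)).trans (MulEquiv.subgroupCongr (map_Om_conjLE e he))
  exact ⟨e1.trans e2⟩

/-- Main lemma. -/
theorem pomega_equiv {G : Type*} [Group G] [Finite G] [Finite F] (Q : QuadraticForm F (ι → F))
    (Q' : QuadraticForm F V) (e : (ι → F) ≃ₗ[F] V) (he : ∀ v, Q' (e v) = Q v)
    (ρ : G →* (V ≃ₗ[F] V)) (hρ : ∀ g, ρ g ∈ Om Q')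
    (hcard : Nat.card ↥(Cfsg.Omega F ⇑Q) * Nat.card ρ.ker ≤ Nat.card G)
    (hcen : ∀ g, (∀ h, ρ g * ρ h = ρ h * ρ g) → g ∈ Subgroup.center G) :
    Nonempty (Cfsg.POmega F ⇑Q ≃* G ⧸ Subgroup.center G) := by
  obtain ⟨e1⟩ := omega_equiv' e he
  haveI : Finite ↥(Cfsg.isometryGroup F ⇑Q) := by
    haveI := Fintype.ofFinite F
    haveI : Finite (Matrix.GeneralLinearGroup ι F) := inferInstance
    infer_instance
  haveI : Finite ↥(Cfsg.Omega F ⇑Q) := inferInstance
  haveI : Finite ↥(Om Q') := Finite.of_equiv _ e1.toEquiv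
  have hOm : Nat.card ↥(Om Q') = Nat.card ↥(Cfsg.Omega F ⇑Q) := (Nat.card_congr e1.toEquiv).symm
  -- the restricted homomorphism
  let ρ' : G →* ↥(Om Q') := ρ.codRestrict (Om Q') hρ
  have hker : ρ'.ker = ρ.ker := by
    ext g
    rw [MonoidHom.mem_ker, MonoidHom.mem_ker, Subtype.ext_iff]
    rfl
  have hsurj : Function.Surjective ρ' := by
    rw [← MonoidHom.range_eq_top]
    apply Subgroup.eq_top_of_le_card
    have h1 : Nat.card ρ'.range * Nat.card ρ'.ker = Nat.card G := by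
      rw [← Subgroup.index_ker, mul_comm, Subgroup.card_mul_index]
    rw [hker] at h1
    rw [hOm]
    have hpos : 0 < Nat.card ρ.ker := Nat.card_pos
    rw [← h1] at hcard
    exact Nat.le_of_mul_le_mul_right hcard hpos
  let π : G →* ↥(Om Q') ⧸ Subgroup.center ↥(Om Q') := (QuotientGroup.mk' _).comp ρ'
  have hπs : Function.Surjective π := (QuotientGroup.mk'_surjective _).comp hsurj
  have hπk : π.ker = Subgroup.center G := by
    ext g
    rw [MonoidHom.mem_ker]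
    show ((ρ' g : ↥(Om Q')) : ↥(Om Q') ⧸ Subgroup.center ↥(Om Q')) = 1 ↔ _
    rw [QuotientGroup.eq_one_iff, Subgroup.mem_center_iff]
    constructor
    · intro h
      apply hcen
      intro x
      have := h (ρ' x)
      exact (congrArg Subtype.val this).symm
    · intro h y
      obtain ⟨x, rfl⟩ := hsurj y
      rw [← map_mul, ← map_mul, Subgroup.mem_center_iff.1 h x]
  obtain ⟨e2⟩ := center_quot_congr e1
  have e3 : G ⧸ Subgroup.center G ≃* ↥(Om Q') ⧸ Subgroup.center ↥(Om Q') :=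
    (QuotientGroup.quotientMulEquivOfEq hπk.symm).trans
      (QuotientGroup.quotientKerEquivOfSurjective π hπs)
  exact ⟨e2.trans e3.symm⟩

/-- Order of `Ω` in odd characteristic. -/
theorem card_Omega_odd [Finite F] {Q : QuadraticForm F (ι → F)} (hQ : Nd Q) (h2 : (2 : F) ≠ 0)
    (hn : 2 ≤ Module.finrank F (ι → F)) :
    Nat.card ↥(Cfsg.Omega F ⇑Q) * 4 = Nat.card ↥(Cfsg.isometryGroup F ⇑Q) := by
  rw [← index_Omega_odd hQ h2 hn, Subgroup.card_mul_index]

theorem card_Omega_even [Finite F] [CharP F 2] {Q : QuadraticForm F (ι → F)} (hQ : Nd Q)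
    (hgen : GenHyp Q) (hn : 0 < Module.finrank F (ι → F)) :
    Nat.card ↥(Cfsg.Omega F ⇑Q) * 2 = Nat.card ↥(Cfsg.isometryGroup F ⇑Q) := by
  rw [← index_Omega_even hQ hgen hn, Subgroup.card_mul_index]

end

end Cfsg.Agent.Lib.LowDim
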