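import Cfsg.Agent.Lib.LyFusP
import Cfsg.Agent.Lib.LyCUg
import Cfsg.Agent.Lib.FusionSelfNorm
import Cfsg.Agent.Lib.FlagSylow

/-!
The 2-fusion system of a finite group in which the centraliser of an involution is generated by lifted
Carmichael generators of the alternating group of degree eleven (helper90).
-/

set_option autoImplicit false
set_option linter.all false
set_option maxHeartbeats 400000
set_option maxRecDepth 100000

namespace Cfsg.Agent.Lib.LyFusA

open Equiv Equiv.Perm Subgroup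
open Cfsg.Agent.Lib.LyFusL (Q g1 g2 g3 τ Rep idl at' G1 G2 G3 TAU rG1 rG2 rG3 rTAU rid g1_mem g2_mem g3_mem pow8 center_Q)
open Cfsg.Agent.Lib.LyFusP (tree norm_tree mem_Q)
open Cfsg.Agent.Lib.LyCUg (x11 x11A CP crel crel_lift x11_3 x11_2 CP_finite card_alt)

/-! ### words -/

section
variable {G : Type*} [Group G] (X : Fin 9 → G)

def V1w : G := X 0 * (X 1)⁻¹ * X 2 * (X 3)⁻¹ * X 2 * (X 0)⁻¹ * X 6 * (X 7)⁻¹ * X 6
def V2w : G := X 0 * X 2 * (X 3)⁻¹ * X 2 * (X 1)⁻¹ * X 4 * (X 5)⁻¹ * X 4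
def V3w : G := X 2 * X 3 * (X 0)⁻¹ * X 4 * (X 0)⁻¹ * X 1 * (X 5)⁻¹ * X 1
def VTw : G := X 0 * (X 1)⁻¹ * X 2 * (X 3)⁻¹ * X 2 * (X 0)⁻¹ * X 4 * (X 5)⁻¹ * X 4

theorem map_V1 {H : Type*} [Group H] (f : G →* H) : f (V1w X) = V1w (fun i => f (X i)) := by
  simp only [V1w, map_mul, map_inv]
theorem map_V2 {H : Type*} [Group H] (f : G →* H) : f (V2w X) = V2w (fun i => f (X i)) := by
  simp only [V2w, map_mul, map_inv]
theorem map_V3 {H : Type*} [Group H] (f : G →* H) : f (V3w X) = V3w (fun i => f (X i)) := by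
  simp only [V3w, map_mul, map_inv]
theorem map_VT {H : Type*} [Group H] (f : G →* H) : f (VTw X) = VTw (fun i => f (X i)) := by
  simp only [VTw, map_mul, map_inv]

end

/-- lists for the three-cycles -/
def xl (i : ℕ) : List ℕ := (List.range 11).map fun j => if j = 0 then 1 else if j = 1 then i + 2 else if j = i + 2 then 0 else j

theorem rx (i : Fin 9) : Rep (x11 i) (xl i) := by
  refine ⟨by simp [xl], ?_⟩
  revert i
  decide +kernel

theorem rxi (i : Fin 9) : Rep (x11 i)⁻¹ (LyFusL.cmp (xl i) (xl i)) := by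
  have h : (x11 i)⁻¹ = x11 i * x11 i := by
    rw [inv_eq_iff_mul_eq_one, ← x11_3 i, pow_succ, pow_two, mul_assoc]
  rw [h]
  exact (rx i).mul (rx i)

theorem V1_x : V1w x11 = g1 := by
  have h := ((((((((rx 0).mul (rxi 1)).mul (rx 2)).mul (rxi 3)).mul (rx 2)).mul (rxi 0)).mul (rx 6)).mul (rxi 7)).mul (rx 6)
  exact h.ext (by
    have e : LyFusL.cmp (LyFusL.cmp (LyFusL.cmp (LyFusL.cmp (LyFusL.cmp (LyFusL.cmp (LyFusL.cmp (LyFusL.cmp (xl (0 : Fin 9)) (LyFusL.cmp (xl (1 : Fin 9)) (xl (1 : Fin 9)))) (xl (2 : Fin 9))) (LyFusL.cmp (xl (3 : Fin 9)) (xl (3 : Fin 9)))) (xl (2 : Fin 9)))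
      (LyFusL.cmp (xl (0 : Fin 9)) (xl (0 : Fin 9)))) (xl (6 : Fin 9))) (LyFusL.cmp (xl (7 : Fin 9)) (xl (7 : Fin 9)))) (xl (6 : Fin 9)) = G1 := by decide +kernel
    rw [e]; exact rG1)

theorem V2_x : V2w x11 = g2 := by
  have h := (((((((rx 0).mul (rx 2)).mul (rxi 3)).mul (rx 2)).mul (rxi 1)).mul (rx 4)).mul (rxi 5)).mul (rx 4)
  exact h.ext (by
    have e : LyFusL.cmp (LyFusL.cmp (LyFusL.cmp (LyFusL.cmp (LyFusL.cmp (LyFusL.cmp (LyFusL.cmp (xl (0 : Fin 9)) (xl (2 : Fin 9))) (LyFusL.cmp (xl (3 : Fin 9)) (xl (3 : Fin 9)))) (xl (2 : Fin 9)))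
      (LyFusL.cmp (xl (1 : Fin 9)) (xl (1 : Fin 9)))) (xl (4 : Fin 9))) (LyFusL.cmp (xl (5 : Fin 9)) (xl (5 : Fin 9)))) (xl (4 : Fin 9)) = G2 := by decide +kernel
    rw [e]; exact rG2)

theorem V3_x : V3w x11 = g3 := by
  have h := (((((((rx 2).mul (rx 3)).mul (rxi 0)).mul (rx 4)).mul (rxi 0)).mul (rx 1)).mul (rxi 5)).mul (rx 1)
  exact h.ext (by
    have e : LyFusL.cmp (LyFusL.cmp (LyFusL.cmp (LyFusL.cmp (LyFusL.cmp (LyFusL.cmp (LyFusL.cmp (xl (2 : Fin 9)) (xl (3 : Fin 9))) (LyFusL.cmp (xl (0 : Fin 9)) (xl (0 : Fin 9)))) (xl (4 : Fin 9)))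
      (LyFusL.cmp (xl (0 : Fin 9)) (xl (0 : Fin 9)))) (xl (1 : Fin 9))) (LyFusL.cmp (xl (5 : Fin 9)) (xl (5 : Fin 9)))) (xl (1 : Fin 9)) = G3 := by decide +kernel
    rw [e]; exact rG3)

theorem VT_x : VTw x11 = τ := by
  have h := ((((((((rx 0).mul (rxi 1)).mul (rx 2)).mul (rxi 3)).mul (rx 2)).mul (rxi 0)).mul (rx 4)).mul (rxi 5)).mul (rx 4)
  exact h.ext (by
    have e : LyFusL.cmp (LyFusL.cmp (LyFusL.cmp (LyFusL.cmp (LyFusL.cmp (LyFusL.cmp (LyFusL.cmp (LyFusL.cmp (xl (0 : Fin 9)) (LyFusL.cmp (xl (1 : Fin 9)) (xl (1 : Fin 9)))) (xl (2 : Fin 9))) (LyFusL.cmp (xl (3 : Fin 9)) (xl (3 : Fin 9)))) (xl (2 : Fin 9)))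
      (LyFusL.cmp (xl (0 : Fin 9)) (xl (0 : Fin 9)))) (xl (4 : Fin 9))) (LyFusL.cmp (xl (5 : Fin 9)) (xl (5 : Fin 9)))) (xl (4 : Fin 9)) = TAU := by decide +kernel
    rw [e]; exact rTAU)

/-! ### the homomorphism -/

theorem CP_alt' : ∃ e : CP ≃* alternatingGroup (Fin 11), ∀ i, e (PresentedGroup.of i) = x11A i := by
  obtain ⟨hfin, hcard⟩ := CP_finite
  have hl : ∀ r ∈ crel, FreeGroup.lift x11A r = 1 := by
    apply crel_lift
    · intro i
      exact Subtype.ext (x11_3 i)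
    · intro i j hij
      exact Subtype.ext (x11_2 i j hij)
  set f : CP →* alternatingGroup (Fin 11) := PresentedGroup.toGroup hl with hf
  have hfo : ∀ i, f (PresentedGroup.of i) = x11A i := fun i => PresentedGroup.toGroup.of hl
  have hsurj : Function.Surjective f := by
    have h1 : alternatingGroup (Fin 11) ≤ ((alternatingGroup (Fin 11)).subtype.comp f).range := by
      apply Cfsg.Agent.Lib.PresAlt.alt_le_of_star (a := (0 : Fin 11)) (b := 1) (by decide)
      intro i hi0 hi1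
      have hi2 : 2 ≤ i.val := by
        have h0 : i.val ≠ 0 := fun h => hi0 (Fin.ext h)
        have h1 : i.val ≠ 1 := fun h => hi1 (Fin.ext h)
        omega
      refine ⟨PresentedGroup.of ⟨i.val - 2, by omega⟩, ?_⟩
      rw [MonoidHom.comp_apply, hfo]
      have : (⟨i.val - 2 + 2, by omega⟩ : Fin 11) = i := Fin.ext (by simp; omega)
      change swap 0 1 * swap 1 (⟨i.val - 2 + 2, by omega⟩ : Fin 11) = _
      rw [this]
    intro y
    obtain ⟨g, hg⟩ := h1 y.2
    exact ⟨g, Subtype.ext hg⟩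
  have hle := Nat.card_le_card_of_surjective f hsurj
  rw [card_alt] at hle
  have hbij : Function.Bijective f := by
    rw [Nat.bijective_iff_surjective_and_card]
    exact ⟨hsurj, by rw [card_alt]; omega⟩
  exact ⟨MulEquiv.ofBijective f hbij, hfo⟩

theorem carm_alt' {G : Type*} [Group G] (x : Fin 9 → G) (h3 : ∀ i, x i ^ 3 = 1)
    (h2 : ∀ i j, i ≠ j → (x i * x j) ^ 2 = 1) (hne : ∃ i, x i ≠ 1) (hgen : closure (Set.range x) = ⊤) :
    ∃ e : G ≃* alternatingGroup (Fin 11), ∀ i, e (x i) = x11A i := by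
  obtain ⟨e, he⟩ := CP_alt'
  have hl := crel_lift x h3 h2
  set f : CP →* G := PresentedGroup.toGroup hl with hf
  have hs : IsSimpleGroup (alternatingGroup (Fin 11)) := alternatingGroup.isSimpleGroup (by simp)
  have hntC : Nontrivial CP := e.toEquiv.nontrivial
  have hsC : IsSimpleGroup CP := IsSimpleGroup.isSimpleGroup_of_surjective e.symm.toMonoidHom e.symm.surjective
  have hker : f.ker = ⊥ := by
    rcases hsC.eq_bot_or_eq_top_of_normal f.ker inferInstance with h | h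
    · exact h
    · exfalso
      obtain ⟨i, hi⟩ := hne
      apply hi
      have h1 : (PresentedGroup.of i : CP) ∈ f.ker := h ▸ Subgroup.mem_top _
      rw [MonoidHom.mem_ker] at h1
      rw [← h1]
      exact (PresentedGroup.toGroup.of hl).symm
  have hinj : Function.Injective f := (MonoidHom.ker_eq_bot_iff f).1 hker
  have hsurj : Function.Surjective f := by
    rw [← MonoidHom.range_eq_top, eq_top_iff, ← hgen, closure_le]
    rintro _ ⟨i, rfl⟩
    exact ⟨PresentedGroup.of i, PresentedGroup.toGroup.of hl⟩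
  refine ⟨(MulEquiv.ofBijective f ⟨hinj, hsurj⟩).symm.trans e, fun i => ?_⟩
  show e ((MulEquiv.ofBijective f ⟨hinj, hsurj⟩).symm (x i)) = x11A i
  rw [← he i]
  congr 1
  rw [MulEquiv.symm_apply_eq]
  exact (PresentedGroup.toGroup.of hl).symm

theorem exists_pi {G : Type*} [Group G] (X : Fin 9 → G) (Z : G) (h3 : ∀ i, X i ^ 3 = 1)
    (h2 : ∀ i j, i ≠ j → (X i * X j) ^ 2 = Z) (hc : ∀ i, Z * X i = X i * Z) (hZ : Z ≠ 1) (hZ2 : Z ^ 2 = 1) :
    ∃ π : closure (Set.range X) →* Perm (Fin 11), (∀ i, π ⟨X i, subset_closure ⟨i, rfl⟩⟩ = x11 i) ∧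
      (∀ g, sign (π g) = 1) ∧ ∀ g, π g = 1 → (g : G) = 1 ∨ (g : G) = Z := by
  set D := closure (Set.range X) with hD
  let X' : Fin 9 → D := fun i => ⟨X i, subset_closure ⟨i, rfl⟩⟩
  have hZD : Z ∈ D := by
    rw [← h2 0 1 (by decide)]
    exact pow_mem (mul_mem (X' 0).2 (X' 1).2) 2
  let Z' : D := ⟨Z, hZD⟩
  have hcen : ∀ g : D, Z' * g = g * Z' := by
    have h1 : D ≤ centralizer {Z} := by
      rw [hD, closure_le]
      rintro _ ⟨i, rfl⟩
      rw [SetLike.mem_coe, mem_centralizer_singleton_iff]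
      exact (hc i).symm
    intro g
    exact Subtype.ext (mem_centralizer_singleton_iff.1 (h1 g.2)).symm
  have hZ'2 : Z' * Z' = 1 := by
    apply Subtype.ext
    show Z * Z = 1
    rw [← pow_two]; exact hZ2
  have hZ'1 : Z' ≠ 1 := fun h => hZ (congrArg Subtype.val h)
  let Nz : Subgroup D := zpowers Z'
  have hNle : Nz ≤ center D := by
    rw [zpowers_le, mem_center_iff]
    intro g; exact (hcen g).symm
  have hNn : Nz.Normal := by
    constructor
    intro n hn g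
    have := mem_center_iff.1 (hNle hn) g
    rw [this, mul_inv_cancel_right]; exact hn
  have hmem : ∀ g, g ∈ Nz → g = 1 ∨ g = Z' := by
    intro g hg
    obtain ⟨k, rfl⟩ := mem_zpowers_iff.1 hg
    rcases Int.even_or_odd' k with ⟨m, rfl | rfl⟩
    · left; rw [zpow_mul, zpow_ofNat, pow_two, hZ'2, one_zpow]
    · right; rw [zpow_add, zpow_mul, zpow_ofNat, pow_two, hZ'2, one_zpow, one_mul, zpow_one]
  let x : Fin 9 → D ⧸ Nz := fun i => QuotientGroup.mk' Nz (X' i)
  have hgenD : closure (Set.range X') = ⊤ := by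
    rw [eq_top_iff]
    rintro ⟨g, hg⟩ -
    have h1 : D ≤ (closure (Set.range X')).map D.subtype := by
      apply (closure_le _).2
      rintro _ ⟨i, rfl⟩
      exact ⟨X' i, subset_closure ⟨i, rfl⟩, rfl⟩
    obtain ⟨l, hl, hlg⟩ := h1 hg
    have : l = ⟨g, hg⟩ := Subtype.ext hlg
    rwa [← this]
  have hX3 : ∀ i, X' i ^ 3 = 1 := fun i => Subtype.ext (h3 i)
  have hX2 : ∀ i j, i ≠ j → (X' i * X' j) ^ 2 = Z' := fun i j hij => Subtype.ext (h2 i j hij)
  have hone : ∀ i, X' i ∈ Nz → X' i = 1 := by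
    intro i hi
    rcases hmem _ hi with h | h
    · exact h
    · exfalso
      have h4 := hX3 i
      rw [h, pow_succ, pow_two, hZ'2, one_mul] at h4
      exact hZ'1 h4
  obtain ⟨e, he⟩ := carm_alt' x (fun i => by rw [← map_pow, hX3 i, map_one])
    (fun i j hij => by
      rw [← map_mul, ← map_pow, hX2 i j hij]
      exact (QuotientGroup.eq_one_iff Z').2 (mem_zpowers _))
    (by
      by_contra hcon
      push Not at hcon
      have h5 := hone 0 ((QuotientGroup.eq_one_iff (X' 0)).1 (hcon 0))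
      have h6 := hone 1 ((QuotientGroup.eq_one_iff (X' 1)).1 (hcon 1))
      have h7 := hX2 0 1 (by decide)
      rw [h5, h6, mul_one, one_pow] at h7
      exact hZ'1 h7.symm)
    (by
      have h8 : (Set.range x) = (QuotientGroup.mk' Nz) '' (Set.range X') := by
        rw [← Set.range_comp]; rfl
      rw [h8, ← MonoidHom.map_closure, hgenD, ← MonoidHom.range_eq_map,
        MonoidHom.range_eq_top.2 (QuotientGroup.mk'_surjective Nz)])
  refine ⟨((alternatingGroup (Fin 11)).subtype.comp e.toMonoidHom).comp (QuotientGroup.mk' Nz), fun i => ?_, fun g => ?_, fun g hg => ?_⟩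
  · show ((e (x i) : alternatingGroup (Fin 11)) : Perm (Fin 11)) = x11 i
    rw [he i]; rfl
  · exact Equiv.Perm.mem_alternatingGroup.1 (e (QuotientGroup.mk' Nz g)).2
  · have h1 : e (QuotientGroup.mk' Nz g) = 1 := Subtype.ext hg
    rw [map_eq_one_iff _ e.injective] at h1
    rcases hmem g ((QuotientGroup.eq_one_iff g).1 h1) with h | h
    · left; rw [h]; rfl
    · right; rw [h]

theorem exists_pi' {G : Type*} [Group G] (X : Fin 9 → G) (Z : G) (h3 : ∀ i, X i ^ 3 = 1)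
    (h2 : ∀ i j, i ≠ j → (X i * X j) ^ 2 = Z) (hc : ∀ i, Z * X i = X i * Z) (hZ : Z ≠ 1) (hZ2 : Z ^ 2 = 1)
    (D : Subgroup G) (hD : D = closure (Set.range X)) :
    ∃ π : D →* Perm (Fin 11), (∀ i (h : X i ∈ D), π ⟨X i, h⟩ = x11 i) ∧
      (∀ g, sign (π g) = 1) ∧ ∀ g, π g = 1 → (g : G) = 1 ∨ (g : G) = Z := by
  subst hD
  obtain ⟨π, h1, h2, h3⟩ := exists_pi X Z h3 h2 hc hZ hZ2
  exact ⟨π, fun i _ => h1 i, h2, h3⟩

/-! ### simplicity of the fusion system -/

theorem simple_of {G : Type*} [Group G] [Finite G] (X : Fin 9 → G) (Z : G) (h3 : ∀ i, X i ^ 3 = 1)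
    (h2 : ∀ i j, i ≠ j → (X i * X j) ^ 2 = Z) (hc : ∀ i, Z * X i = X i * Z) (hZ : Z ≠ 1) (hZ2 : Z ^ 2 = 1)
    (hcen : ∀ g, g * Z = Z * g → g ∈ closure (Set.range X)) (y1 y2 y3 : G)
    (e1 : y1⁻¹ * Z * y1 = V1w X) (e2 : y2⁻¹ * Z * y2 = V2w X) (e3 : y3⁻¹ * Z * y3 = V3w X)
    (eT : VTw X * V1w X = V1w X * VTw X * Z) (S : Sylow 2 G) : (Cfsg.groupFusionSystem (S : Subgroup G)).IsSimple 2 := by
  have : Fact (Nat.Prime 2) := ⟨Nat.prime_two⟩
  obtain ⟨D, hD⟩ : ∃ D, D = closure (Set.range X) := ⟨_, rfl⟩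
  obtain ⟨π, hπ, hsg, hker⟩ := exists_pi' X Z h3 h2 hc hZ hZ2 D hD
  rw [← hD] at hcen
  have hXD : ∀ i, X i ∈ D := fun i => by rw [hD]; exact subset_closure ⟨i, rfl⟩
  let X' : Fin 9 → D := fun i => ⟨X i, hXD i⟩
  have hπ' : (fun i => π (X' i)) = x11 := funext fun i => hπ i _
  have hZD : Z ∈ D := by
    rw [← h2 0 1 (by decide)]
    exact pow_mem (mul_mem (X' 0).2 (X' 1).2) 2
  let Z' : D := ⟨Z, hZD⟩
  have hZc : ∀ g ∈ D, g * Z = Z * g := by
    have h1 : D ≤ centralizer {Z} := by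
      rw [hD, closure_le]
      rintro _ ⟨i, rfl⟩
      rw [SetLike.mem_coe, mem_centralizer_singleton_iff]
      exact (hc i).symm
    intro g hg
    exact mem_centralizer_singleton_iff.1 (h1 hg)
  have hπZ : π Z' = 1 := by
    have : Z' = (X' 0 * X' 1) ^ 2 := Subtype.ext (h2 0 1 (by decide)).symm
    rw [this, map_pow, map_mul, show π (X' 0) = x11 0 from hπ 0 _, show π (X' 1) = x11 1 from hπ 1 _]
    exact x11_2 0 1 (by decide)
  -- the elements
  let U1 : D := V1w X'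
  let U2 : D := V2w X'
  let U3 : D := V3w X'
  let UT : D := VTw X'
  have u1 : (U1 : G) = V1w X := map_V1 X' D.subtype
  have u2 : (U2 : G) = V2w X := map_V2 X' D.subtype
  have u3 : (U3 : G) = V3w X := map_V3 X' D.subtype
  have uT : (UT : G) = VTw X := map_VT X' D.subtype
  have p1 : π U1 = g1 := by rw [map_V1 X' π, hπ', V1_x]
  have p2 : π U2 = g2 := by rw [map_V2 X' π, hπ', V2_x]
  have p3 : π U3 = g3 := by rw [map_V3 X' π, hπ', V3_x]
  have pT : π UT = τ := by rw [map_VT X' π, hπ', VT_x]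
  clear_value U1 U2 U3 UT
  let W : Subgroup G := (Q.comap π).map D.subtype
  have memW : ∀ {g : G}, g ∈ W ↔ ∃ h : g ∈ D, π ⟨g, h⟩ ∈ Q := by
    intro g
    constructor
    · rintro ⟨d, hd, rfl⟩
      exact ⟨d.2, hd⟩
    · rintro ⟨h, hq⟩
      exact ⟨⟨g, h⟩, hq, rfl⟩
  have hZW : Z ∈ W := memW.2 ⟨hZD, by show π Z' ∈ Q; rw [hπZ]; exact one_mem _⟩
  have w1 : (U1 : G) ∈ W := memW.2 ⟨U1.2, by rw [p1]; exact g1_mem⟩
  have w2 : (U2 : G) ∈ W := memW.2 ⟨U2.2, by rw [p2]; exact g2_mem⟩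
  have w3 : (U3 : G) ∈ W := memW.2 ⟨U3.2, by rw [p3]; exact g3_mem⟩
  have hWne : W ≠ ⊥ := by
    intro h
    rw [h, mem_bot] at hZW
    exact hZ hZW
  have hWp : IsPGroup 2 W := by
    rintro ⟨g, hg⟩
    refine ⟨4, Subtype.ext ?_⟩
    show g ^ 2 ^ 4 = 1
    obtain ⟨h, hq⟩ := memW.1 hg
    have h8 := pow8 hq
    rw [← map_pow] at h8
    have h9 : g ^ 8 = 1 ∨ g ^ 8 = Z := hker _ h8
    have : g ^ 2 ^ 4 = (g ^ 8) ^ 2 := by rw [← pow_mul]; norm_num
    rw [this]
    rcases h9 with h9 | h9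
    · rw [h9, one_pow]
    · rw [h9, hZ2]
  -- elements of W commuting with W
  have hcW : ∀ y ∈ W, y ≠ 1 → (∀ w ∈ W, w * y = y * w) → y = Z := by
    intro y hy hy1 hcomm
    obtain ⟨h, hq⟩ := memW.1 hy
    have c : ∀ (U : D), (U : G) ∈ W → π ⟨y, h⟩ * π U = π U * π ⟨y, h⟩ := by
      intro U hU
      rw [← map_mul, ← map_mul]
      congr 1
      exact Subtype.ext (hcomm _ hU).symm
    have c1 := c U1 w1
    have c2 := c U2 w2
    have c3 := c U3 w3
    rw [p1] at c1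
    rw [p2] at c2
    rw [p3] at c3
    rcases center_Q hq c1 c2 c3 with h1 | h1
    · rcases hker _ h1 with h2 | h2
      · exact absurd h2 hy1
      · exact h2
    · exfalso
      have h4 : π (⟨y, h⟩ * UT⁻¹) = 1 := by rw [map_mul, map_inv, h1, pT, mul_inv_cancel]
      have h5 : (U1 : G) * y = y * U1 := hcomm _ w1
      have h6 : y * (UT : G)⁻¹ = 1 ∨ y * (UT : G)⁻¹ = Z := hker _ h4
      have h7 : (UT : G) * U1 = U1 * UT := by
        rcases h6 with h6 | h6
        · rw [← mul_inv_eq_one.1 h6]; exact h5.symm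
        · have h8 : y = Z * UT := by rw [← h6]; group
          rw [h8] at h5
          have h9 := hZc _ U1.2
          have h10 : Z * ((U1 : G) * UT) = Z * (UT * U1) := by
            rw [← mul_assoc, ← h9, mul_assoc, h5, mul_assoc]
          exact (mul_left_cancel h10).symm
      rw [u1, uT, eT] at h7
      have : Z = 1 := by
        have h11 : V1w X * VTw X * Z = V1w X * VTw X * 1 := by rw [mul_one]; exact h7
        exact mul_left_cancel h11
      exact hZ this
  have hlift : ∀ q ∈ Q, ∃ d : D, π d = q ∧ d ∈ closure ({U1, U2, U3} : Set D) := by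
    have h1 : Q ≤ (closure ({U1, U2, U3} : Set D)).map π := by
      unfold Q
      rw [closure_le]
      rintro p (rfl | rfl | rfl)
      · exact ⟨U1, subset_closure (by simp), p1⟩
      · exact ⟨U2, subset_closure (by simp), p2⟩
      · exact ⟨U3, subset_closure (by simp), p3⟩
    intro q hq
    obtain ⟨d, hd, h⟩ := h1 hq
    exact ⟨d, h, hd⟩
  refine Cfsg.Agent.Lib.FusionSelfNorm.simple_of_selfnorm' 2 W hWne hWp ?_ ?_ S
  · intro g hg
    have hg' : ∀ w ∈ W, g⁻¹ * w * g ∈ W := by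
      let φ : W → W := fun w => ⟨g * w * g⁻¹, hg w w.2⟩
      have hφ : Function.Injective φ := by
        intro a b hab
        have h1 : g * (a : G) * g⁻¹ = g * b * g⁻¹ := congrArg Subtype.val hab
        exact Subtype.ext (mul_left_cancel (mul_right_cancel h1))
      have hs := Finite.injective_iff_surjective.1 hφ
      intro w hw
      obtain ⟨w', h⟩ := hs ⟨w, hw⟩
      have h1 : g * (w' : G) * g⁻¹ = w := congrArg Subtype.val h
      have h2 : g⁻¹ * w * g = w' := by rw [← h1]; group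
      rw [h2]; exact w'.2
    have hgD : g ∈ D := by
      have h1 : g * Z * g⁻¹ = Z := by
        apply hcW _ (hg Z hZW)
        · intro h
          apply hZ
          have : Z = g⁻¹ * (g * Z * g⁻¹) * g := by group
          rw [this, h]; group
        · intro w hw
          obtain ⟨h, _⟩ := memW.1 (hg' w hw)
          have h2 := hZc _ h
          calc w * (g * Z * g⁻¹) = g * ((g⁻¹ * w * g) * Z) * g⁻¹ := by group
            _ = g * (Z * (g⁻¹ * w * g)) * g⁻¹ := by rw [h2]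
            _ = (g * Z * g⁻¹) * w := by group
      apply hcen
      calc g * Z = g * Z * g⁻¹ * g := by group
        _ = Z * g := by rw [h1]
    refine memW.2 ⟨hgD, ?_⟩
    rw [mem_Q]
    refine ⟨hsg _, ?_⟩
    have hclW : ∀ d : D, d ∈ closure ({U1, U2, U3} : Set D) → (d : G) ∈ W := by
      have h1 : closure ({U1, U2, U3} : Set D) ≤ W.comap D.subtype := by
        rw [closure_le]
        rintro p (rfl | rfl | rfl)
        · exact w1
        · exact w2
        · exact w3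
      exact fun d hd => h1 hd
    apply norm_tree
    · intro q hq
      obtain ⟨d, rfl, hd⟩ := hlift q hq
      obtain ⟨h1, h2⟩ := memW.1 (hg _ (hclW d hd))
      rw [← map_mul, ← map_inv, ← map_mul]
      exact h2
    · intro q hq
      obtain ⟨d, rfl, hd⟩ := hlift q hq
      obtain ⟨h1, h2⟩ := memW.1 (hg' _ (hclW d hd))
      rw [← map_inv, ← map_mul, ← map_mul]
      exact h2
  · intro T hTW hT1 hTc
    obtain ⟨t, ht, ht1, htc⟩ := Cfsg.Agent.Lib.FlagSylow.exists_central hWp hTW hT1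
      (fun u hu t ht => hTc t ht u (mul_mem (mul_mem hu (hTW ht)) (inv_mem hu)))
    have htZ := hcW t (hTW ht) ht1 htc
    subst htZ
    have hconj : ∀ y V : G, y⁻¹ * t * y = V → V ∈ W → V ∈ T := by
      intro y V h hV
      have h1 := hTc t ht y⁻¹
      rw [inv_inv, h] at h1
      exact h1 hV
    have t1 : (U1 : G) ∈ T := hconj y1 _ (by rw [u1]; exact e1) w1
    have t2 : (U2 : G) ∈ T := hconj y2 _ (by rw [u2]; exact e2) w2
    have t3 : (U3 : G) ∈ T := hconj y3 _ (by rw [u3]; exact e3) w3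
    have hclT : ∀ d : D, d ∈ closure ({U1, U2, U3} : Set D) → (d : G) ∈ T := by
      have h1 : closure ({U1, U2, U3} : Set D) ≤ T.comap D.subtype := by
        rw [closure_le]
        rintro p (rfl | rfl | rfl)
        · exact t1
        · exact t2
        · exact t3
      exact fun d hd => h1 hd
    intro w hw
    obtain ⟨h, hq⟩ := memW.1 hw
    obtain ⟨d, hd, hd'⟩ := hlift _ hq
    have h4 : π (⟨w, h⟩ * d⁻¹) = 1 := by rw [map_mul, map_inv, hd, mul_inv_cancel]
    have h6 : w * (d : G)⁻¹ = 1 ∨ w * (d : G)⁻¹ = t := hker _ h4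
    have h7 : w = w * (d : G)⁻¹ * d := by group
    rw [h7]
    refine mul_mem ?_ (hclT d hd')
    rcases h6 with h6 | h6
    · rw [h6]; exact one_mem _
    · rw [h6]; exact ht

end Cfsg.Agent.Lib.LyFusA
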