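import Cfsg.Agent.Lib.LyFusW
import Cfsg.Agent.Lib.LyFusA
import Cfsg.Agent.Lib.LyCUs

/-!
The 2-fusion system of the Lyons group (helper90).
-/

set_option autoImplicit false
set_option linter.all false
set_option maxRecDepth 100000

namespace Cfsg.Agent.Lib.LyFus

open Cfsg.Spor Cfsg.Agent.Lib.M5 Cfsg.Agent.Lib.BenesWord Subgroup
open Cfsg.Agent.Lib.LyH (Y ρ ρ_spec relY)
open Cfsg.Agent.Lib.LyCU (YY X map_ev ρY6 ρX X3 XX XZ Z_ne1 Z_sq)
open Cfsg.Agent.Lib.LyCUw (v Zw)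
open Cfsg.Agent.Lib.LyFusA (V1w V2w V3w VTw)

theorem ρYY : ∀ c < 16, ρ (YY c) = v c := by
  intro c hc
  by_cases h : 7 ≤ c
  · unfold YY
    rw [if_pos h, ρX (c - 7) (by omega)]
    congr 1; omega
  · unfold YY
    rw [if_neg h, ρY6 c (by omega)]

theorem YY0 : YY 0 = Y 0 := by
  unfold YY LyCU.Y6 LyCU.Y5
  rw [if_neg (by norm_num), if_neg (by norm_num), if_neg (by norm_num)]

theorem YYX (i : ℕ) : YY (7 + i) = X i := by
  unfold YY
  rw [if_pos (by omega)]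
  congr 1; omega

theorem lift (hρ : Function.Injective ρ) (W : Wd) (hW : W ∈ LyFusW.relF) : W.eval YY = 1 := by
  apply hρ
  rw [map_one, map_ev, Cfsg.Agent.Lib.CoxBridge.eval_congr (n := 16) ρYY W (LyFusW.lets_F W hW)]
  exact LyFusW.relv W hW

theorem evZ : Zw.eval YY = Y 0 ^ 4 := by
  show YY 0 ^ 4 = Y 0 ^ 4
  rw [YY0]

theorem ev1 : LyFusW.V1.eval YY = V1w (fun i : Fin 9 => X i) := by
  show YY (7 + 0) * (YY (7 + 1))⁻¹ * YY (7 + 2) * (YY (7 + 3))⁻¹ * YY (7 + 2) * (YY (7 + 0))⁻¹ * YY (7 + 6) * (YY (7 + 7))⁻¹ * YY (7 + 6) = _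
  rw [YYX, YYX, YYX, YYX, YYX, YYX]; rfl

theorem ev2 : LyFusW.V2.eval YY = V2w (fun i : Fin 9 => X i) := by
  show YY (7 + 0) * YY (7 + 2) * (YY (7 + 3))⁻¹ * YY (7 + 2) * (YY (7 + 1))⁻¹ * YY (7 + 4) * (YY (7 + 5))⁻¹ * YY (7 + 4) = _
  rw [YYX, YYX, YYX, YYX, YYX, YYX]; rfl

theorem ev3 : LyFusW.V3.eval YY = V3w (fun i : Fin 9 => X i) := by
  show YY (7 + 2) * YY (7 + 3) * (YY (7 + 0))⁻¹ * YY (7 + 4) * (YY (7 + 0))⁻¹ * YY (7 + 1) * (YY (7 + 5))⁻¹ * YY (7 + 1) = _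
  rw [YYX, YYX, YYX, YYX, YYX, YYX]; rfl

theorem evT : LyFusW.VT.eval YY = VTw (fun i : Fin 9 => X i) := by
  show YY (7 + 0) * (YY (7 + 1))⁻¹ * YY (7 + 2) * (YY (7 + 3))⁻¹ * YY (7 + 2) * (YY (7 + 0))⁻¹ * YY (7 + 4) * (YY (7 + 5))⁻¹ * YY (7 + 4) = _
  rw [YYX, YYX, YYX, YYX, YYX, YYX]; rfl

/-- the main theorem -/
theorem main (hs : IsSimpleGroup Ly) (hb : Nat.card (centralizer ({Y 0 ^ 4} : Set Ly)) ≤ 39916800)
    {G : Type*} [Group G] [Finite G] (e : G ≃* Ly) (S : Sylow 2 G) :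
    (Cfsg.groupFusionSystem (S : Subgroup G)).IsSimple 2 := by
  have hfin : Finite Ly := Finite.of_equiv G e.toEquiv
  have hρ := LyCUs.ρ_inj hs
  -- the centraliser
  have hcen : centralizer ({Y 0 ^ 4} : Set Ly) = closure (Set.range (fun i : Fin 9 => X i)) := by
    obtain ⟨h1, _⟩ := LyCUg.dbl_of (fun i : Fin 9 => X i) (Y 0 ^ 4) (fun i => X3 hρ i i.2)
      (fun i j hij => XX hρ i i.2 j j.2 (fun h => hij (Fin.ext h))) (fun i => XZ hρ i i.2) (Z_ne1 hρ) Z_sq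
    have h3 : closure (Set.range (fun i : Fin 9 => X i)) ≤ centralizer {Y 0 ^ 4} := by
      rw [closure_le]
      rintro _ ⟨i, rfl⟩
      rw [SetLike.mem_coe, mem_centralizer_singleton_iff]
      exact (XZ hρ i i.2).symm
    exact (Subgroup.eq_of_le_of_card_ge h3 (by rw [h1]; exact hb)).symm
  have q1 := lift hρ LyFusW.r1 (by simp [LyFusW.relF])
  have q2 := lift hρ LyFusW.r2 (by simp [LyFusW.relF])
  have q3 := lift hρ LyFusW.r3 (by simp [LyFusW.relF])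
  have qT := lift hρ LyFusW.rT (by simp [LyFusW.relF])
  have f1 : (LyFusW.y1.eval YY)⁻¹ * Y 0 ^ 4 * LyFusW.y1.eval YY = V1w (fun i : Fin 9 => X i) := by
    have h : (LyFusW.y1.eval YY)⁻¹ * Zw.eval YY * LyFusW.y1.eval YY * (LyFusW.V1.eval YY)⁻¹ = 1 := q1
    rw [evZ, ev1] at h
    exact mul_inv_eq_one.1 h
  have f2 : (LyFusW.y2.eval YY)⁻¹ * Y 0 ^ 4 * LyFusW.y2.eval YY = V2w (fun i : Fin 9 => X i) := by
    have h : (LyFusW.y2.eval YY)⁻¹ * Zw.eval YY * LyFusW.y2.eval YY * (LyFusW.V2.eval YY)⁻¹ = 1 := q2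
    rw [evZ, ev2] at h
    exact mul_inv_eq_one.1 h
  have f3 : (LyFusW.y3.eval YY)⁻¹ * Y 0 ^ 4 * LyFusW.y3.eval YY = V3w (fun i : Fin 9 => X i) := by
    have h : (LyFusW.y3.eval YY)⁻¹ * Zw.eval YY * LyFusW.y3.eval YY * (LyFusW.V3.eval YY)⁻¹ = 1 := q3
    rw [evZ, ev3] at h
    exact mul_inv_eq_one.1 h
  have fT : VTw (fun i : Fin 9 => X i) * V1w (fun i : Fin 9 => X i) = V1w (fun i : Fin 9 => X i) * VTw (fun i : Fin 9 => X i) * Y 0 ^ 4 := by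
    have h : LyFusW.VT.eval YY * LyFusW.V1.eval YY * (LyFusW.V1.eval YY * LyFusW.VT.eval YY * Zw.eval YY)⁻¹ = 1 := qT
    rw [evZ, ev1, evT] at h
    exact mul_inv_eq_one.1 h
  have he : ∀ a : Ly, e.symm.toMonoidHom a = e.symm a := fun a => rfl
  refine LyFusA.simple_of (fun i : Fin 9 => e.symm (X i)) (e.symm (Y 0 ^ 4)) ?_ ?_ ?_ ?_ ?_ ?_
    (e.symm (LyFusW.y1.eval YY)) (e.symm (LyFusW.y2.eval YY)) (e.symm (LyFusW.y3.eval YY)) ?_ ?_ ?_ ?_ S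
  · intro i
    rw [← map_pow, X3 hρ i i.2, map_one]
  · intro i j hij
    rw [← map_mul, ← map_pow, XX hρ i i.2 j j.2 (fun h => hij (Fin.ext h))]
  · intro i
    rw [← map_mul, ← map_mul, XZ hρ i i.2]
  · intro h
    rw [map_eq_one_iff _ e.symm.injective] at h
    exact Z_ne1 hρ h
  · rw [← map_pow, Z_sq, map_one]
  · intro g hg
    have h1 : e g * Y 0 ^ 4 = Y 0 ^ 4 * e g := by
      have := congrArg e hg
      rwa [map_mul, map_mul, e.apply_symm_apply] at this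
    have h2 : e g ∈ centralizer ({Y 0 ^ 4} : Set Ly) := mem_centralizer_singleton_iff.2 h1
    rw [hcen] at h2
    have h3 : Set.range (fun i : Fin 9 => e.symm (X i)) = e.symm.toMonoidHom '' (Set.range (fun i : Fin 9 => X i)) := by
      rw [← Set.range_comp]; rfl
    rw [h3, ← MonoidHom.map_closure]
    exact ⟨e g, h2, e.symm_apply_apply g⟩
  · rw [← map_inv, ← map_mul, ← map_mul, f1]
    exact LyFusA.map_V1 _ e.symm.toMonoidHom
  · rw [← map_inv, ← map_mul, ← map_mul, f2]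
    exact LyFusA.map_V2 _ e.symm.toMonoidHom
  · rw [← map_inv, ← map_mul, ← map_mul, f3]
    exact LyFusA.map_V3 _ e.symm.toMonoidHom
  · have h1 := congrArg e.symm.toMonoidHom fT
    rw [map_mul, map_mul, map_mul, LyFusA.map_VT, LyFusA.map_V1] at h1
    exact h1

end Cfsg.Agent.Lib.LyFus
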