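import Mathlib

/-!
A Sylow 2-subgroup of the alternating group of degree eleven: coding by lists (helper90).
-/

set_option autoImplicit false
set_option linter.all false
set_option maxHeartbeats 400000
set_option maxRecDepth 100000

namespace Cfsg.Agent.Lib.LyFusL

open Equiv Equiv.Perm Subgroup

def g1 : Perm (Fin 11) := swap 0 1 * swap 2 3 * swap 4 5 * swap 8 9
def g2 : Perm (Fin 11) := swap 0 2 * swap 1 3 * swap 4 5 * swap 6 7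
def g3 : Perm (Fin 11) := swap 0 4 * swap 1 5 * swap 2 6 * swap 3 7
def τ : Perm (Fin 11) := swap 0 1 * swap 2 3 * swap 4 5 * swap 6 7

def s23 : Perm (Fin 11) := swap 2 3 * swap 8 9
def s45 : Perm (Fin 11) := swap 4 5 * swap 8 9
def s67 : Perm (Fin 11) := swap 6 7 * swap 8 9
def s01 : Perm (Fin 11) := swap 0 1 * swap 8 9
def d46 : Perm (Fin 11) := swap 4 6 * swap 5 7
def d47 : Perm (Fin 11) := swap 4 7 * swap 5 6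
def d02 : Perm (Fin 11) := swap 0 2 * swap 1 3

/-- the group -/
def Q : Subgroup (Perm (Fin 11)) := closure {g1, g2, g3}

theorem g1_mem : g1 ∈ Q := subset_closure (by simp)
theorem g2_mem : g2 ∈ Q := subset_closure (by simp)
theorem g3_mem : g3 ∈ Q := subset_closure (by simp)

/-- entry of a list -/
def at' (l : List ℕ) (i : ℕ) : ℕ := l.getD i 0

/-- a list of length eleven coding a permutation -/
structure Rep (p : Perm (Fin 11)) (l : List ℕ) : Prop where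
  len : l.length = 11
  ap : ∀ i : Fin 11, (p i : ℕ) = at' l i

/-- composition -/
def cmp (l m : List ℕ) : List ℕ := m.map (at' l)

theorem Rep.mul {p q : Perm (Fin 11)} {l m : List ℕ} (hp : Rep p l) (hq : Rep q m) : Rep (p * q) (cmp l m) := by
  refine ⟨by rw [cmp, List.length_map, hq.len], fun i => ?_⟩
  show (p (q i) : ℕ) = at' (cmp l m) i
  have h1 : (i : ℕ) < m.length := by rw [hq.len]; exact i.2
  have h2 : at' (cmp l m) i = at' l (at' m i) := by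
    unfold at' cmp
    rw [List.getD_eq_getElem _ _ (by rw [List.length_map]; exact h1), List.getElem_map, List.getD_eq_getElem _ _ h1]
    rfl
  rw [h2, ← hq.ap i, hp.ap (q i)]

theorem Rep.ext {p q : Perm (Fin 11)} {l : List ℕ} (hp : Rep p l) (hq : Rep q l) : p = q := by
  ext i
  rw [hp.ap, hq.ap]

theorem Rep.eq {p : Perm (Fin 11)} {l m : List ℕ} (hp : Rep p l) (hq : Rep p m) : l = m := by
  apply List.ext_getElem (by rw [hp.len, hq.len])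
  intro n h1 h2
  have hn : n < 11 := by rw [hp.len] at h1; exact h1
  have e1 := hp.ap ⟨n, hn⟩
  have e2 := hq.ap ⟨n, hn⟩
  rw [e1] at e2
  unfold at' at e2
  rwa [List.getD_eq_getElem _ _ h1, List.getD_eq_getElem _ _ h2] at e2

def idl : List ℕ := [0,1,2,3,4,5,6,7,8,9,10]
def G1 : List ℕ := [1,0,3,2,5,4,6,7,9,8,10]
def G2 : List ℕ := [2,3,0,1,5,4,7,6,8,9,10]
def G3 : List ℕ := [4,5,6,7,0,1,2,3,8,9,10]
def TAU : List ℕ := [1,0,3,2,5,4,7,6,8,9,10]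
def S23 : List ℕ := [0,1,3,2,4,5,6,7,9,8,10]
def S45 : List ℕ := [0,1,2,3,5,4,6,7,9,8,10]
def S67 : List ℕ := [0,1,2,3,4,5,7,6,9,8,10]
def S01 : List ℕ := [1,0,2,3,4,5,6,7,9,8,10]
def D46 : List ℕ := [0,1,2,3,6,7,4,5,8,9,10]
def D47 : List ℕ := [0,1,2,3,7,6,5,4,8,9,10]
def D02 : List ℕ := [2,3,0,1,4,5,6,7,8,9,10]

theorem rid : Rep 1 idl := ⟨rfl, by decide⟩
theorem rG1 : Rep g1 G1 := ⟨rfl, by decide +kernel⟩
theorem rG2 : Rep g2 G2 := ⟨rfl, by decide +kernel⟩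
theorem rG3 : Rep g3 G3 := ⟨rfl, by decide +kernel⟩
theorem rTAU : Rep τ TAU := ⟨rfl, by decide +kernel⟩
theorem rS23 : Rep s23 S23 := ⟨rfl, by decide +kernel⟩
theorem rS45 : Rep s45 S45 := ⟨rfl, by decide +kernel⟩
theorem rS67 : Rep s67 S67 := ⟨rfl, by decide +kernel⟩
theorem rS01 : Rep s01 S01 := ⟨rfl, by decide +kernel⟩
theorem rD46 : Rep d46 D46 := ⟨rfl, by decide +kernel⟩
theorem rD47 : Rep d47 D47 := ⟨rfl, by decide +kernel⟩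
theorem rD02 : Rep d02 D02 := ⟨rfl, by decide +kernel⟩

/-- the 128 elements -/
def QL : List (List ℕ) := [
  [0,1,2,3,4,5,6,7,8,9,10],
  [0,1,2,3,4,5,7,6,9,8,10],
  [0,1,2,3,5,4,6,7,9,8,10],
  [0,1,2,3,5,4,7,6,8,9,10],
  [0,1,2,3,6,7,4,5,8,9,10],
  [0,1,2,3,6,7,5,4,9,8,10],
  [0,1,2,3,7,6,4,5,9,8,10],
  [0,1,2,3,7,6,5,4,8,9,10],
  [0,1,3,2,4,5,6,7,9,8,10],
  [0,1,3,2,4,5,7,6,8,9,10],
  [0,1,3,2,5,4,6,7,8,9,10],
  [0,1,3,2,5,4,7,6,9,8,10],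
  [0,1,3,2,6,7,4,5,9,8,10],
  [0,1,3,2,6,7,5,4,8,9,10],
  [0,1,3,2,7,6,4,5,8,9,10],
  [0,1,3,2,7,6,5,4,9,8,10],
  [1,0,2,3,4,5,6,7,9,8,10],
  [1,0,2,3,4,5,7,6,8,9,10],
  [1,0,2,3,5,4,6,7,8,9,10],
  [1,0,2,3,5,4,7,6,9,8,10],
  [1,0,2,3,6,7,4,5,9,8,10],
  [1,0,2,3,6,7,5,4,8,9,10],
  [1,0,2,3,7,6,4,5,8,9,10],
  [1,0,2,3,7,6,5,4,9,8,10],
  [1,0,3,2,4,5,6,7,8,9,10],
  [1,0,3,2,4,5,7,6,9,8,10],
  [1,0,3,2,5,4,6,7,9,8,10],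
  [1,0,3,2,5,4,7,6,8,9,10],
  [1,0,3,2,6,7,4,5,8,9,10],
  [1,0,3,2,6,7,5,4,9,8,10],
  [1,0,3,2,7,6,4,5,9,8,10],
  [1,0,3,2,7,6,5,4,8,9,10],
  [2,3,0,1,4,5,6,7,8,9,10],
  [2,3,0,1,4,5,7,6,9,8,10],
  [2,3,0,1,5,4,6,7,9,8,10],
  [2,3,0,1,5,4,7,6,8,9,10],
  [2,3,0,1,6,7,4,5,8,9,10],
  [2,3,0,1,6,7,5,4,9,8,10],
  [2,3,0,1,7,6,4,5,9,8,10],
  [2,3,0,1,7,6,5,4,8,9,10],
  [2,3,1,0,4,5,6,7,9,8,10],
  [2,3,1,0,4,5,7,6,8,9,10],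
  [2,3,1,0,5,4,6,7,8,9,10],
  [2,3,1,0,5,4,7,6,9,8,10],
  [2,3,1,0,6,7,4,5,9,8,10],
  [2,3,1,0,6,7,5,4,8,9,10],
  [2,3,1,0,7,6,4,5,8,9,10],
  [2,3,1,0,7,6,5,4,9,8,10],
  [3,2,0,1,4,5,6,7,9,8,10],
  [3,2,0,1,4,5,7,6,8,9,10],
  [3,2,0,1,5,4,6,7,8,9,10],
  [3,2,0,1,5,4,7,6,9,8,10],
  [3,2,0,1,6,7,4,5,9,8,10],
  [3,2,0,1,6,7,5,4,8,9,10],
  [3,2,0,1,7,6,4,5,8,9,10],
  [3,2,0,1,7,6,5,4,9,8,10],
  [3,2,1,0,4,5,6,7,8,9,10],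
  [3,2,1,0,4,5,7,6,9,8,10],
  [3,2,1,0,5,4,6,7,9,8,10],
  [3,2,1,0,5,4,7,6,8,9,10],
  [3,2,1,0,6,7,4,5,8,9,10],
  [3,2,1,0,6,7,5,4,9,8,10],
  [3,2,1,0,7,6,4,5,9,8,10],
  [3,2,1,0,7,6,5,4,8,9,10],
  [4,5,6,7,0,1,2,3,8,9,10],
  [4,5,6,7,0,1,3,2,9,8,10],
  [4,5,6,7,1,0,2,3,9,8,10],
  [4,5,6,7,1,0,3,2,8,9,10],
  [4,5,6,7,2,3,0,1,8,9,10],
  [4,5,6,7,2,3,1,0,9,8,10],
  [4,5,6,7,3,2,0,1,9,8,10],
  [4,5,6,7,3,2,1,0,8,9,10],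
  [4,5,7,6,0,1,2,3,9,8,10],
  [4,5,7,6,0,1,3,2,8,9,10],
  [4,5,7,6,1,0,2,3,8,9,10],
  [4,5,7,6,1,0,3,2,9,8,10],
  [4,5,7,6,2,3,0,1,9,8,10],
  [4,5,7,6,2,3,1,0,8,9,10],
  [4,5,7,6,3,2,0,1,8,9,10],
  [4,5,7,6,3,2,1,0,9,8,10],
  [5,4,6,7,0,1,2,3,9,8,10],
  [5,4,6,7,0,1,3,2,8,9,10],
  [5,4,6,7,1,0,2,3,8,9,10],
  [5,4,6,7,1,0,3,2,9,8,10],
  [5,4,6,7,2,3,0,1,9,8,10],
  [5,4,6,7,2,3,1,0,8,9,10],
  [5,4,6,7,3,2,0,1,8,9,10],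
  [5,4,6,7,3,2,1,0,9,8,10],
  [5,4,7,6,0,1,2,3,8,9,10],
  [5,4,7,6,0,1,3,2,9,8,10],
  [5,4,7,6,1,0,2,3,9,8,10],
  [5,4,7,6,1,0,3,2,8,9,10],
  [5,4,7,6,2,3,0,1,8,9,10],
  [5,4,7,6,2,3,1,0,9,8,10],
  [5,4,7,6,3,2,0,1,9,8,10],
  [5,4,7,6,3,2,1,0,8,9,10],
  [6,7,4,5,0,1,2,3,8,9,10],
  [6,7,4,5,0,1,3,2,9,8,10],
  [6,7,4,5,1,0,2,3,9,8,10],
  [6,7,4,5,1,0,3,2,8,9,10],
  [6,7,4,5,2,3,0,1,8,9,10],
  [6,7,4,5,2,3,1,0,9,8,10],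
  [6,7,4,5,3,2,0,1,9,8,10],
  [6,7,4,5,3,2,1,0,8,9,10],
  [6,7,5,4,0,1,2,3,9,8,10],
  [6,7,5,4,0,1,3,2,8,9,10],
  [6,7,5,4,1,0,2,3,8,9,10],
  [6,7,5,4,1,0,3,2,9,8,10],
  [6,7,5,4,2,3,0,1,9,8,10],
  [6,7,5,4,2,3,1,0,8,9,10],
  [6,7,5,4,3,2,0,1,8,9,10],
  [6,7,5,4,3,2,1,0,9,8,10],
  [7,6,4,5,0,1,2,3,9,8,10],
  [7,6,4,5,0,1,3,2,8,9,10],
  [7,6,4,5,1,0,2,3,8,9,10],
  [7,6,4,5,1,0,3,2,9,8,10],
  [7,6,4,5,2,3,0,1,9,8,10],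
  [7,6,4,5,2,3,1,0,8,9,10],
  [7,6,4,5,3,2,0,1,8,9,10],
  [7,6,4,5,3,2,1,0,9,8,10],
  [7,6,5,4,0,1,2,3,8,9,10],
  [7,6,5,4,0,1,3,2,9,8,10],
  [7,6,5,4,1,0,2,3,9,8,10],
  [7,6,5,4,1,0,3,2,8,9,10],
  [7,6,5,4,2,3,0,1,8,9,10],
  [7,6,5,4,2,3,1,0,9,8,10],
  [7,6,5,4,3,2,0,1,9,8,10],
  [7,6,5,4,3,2,1,0,8,9,10]]

theorem chk1 : QL.all (fun l => QL.contains (cmp l G1) && QL.contains (cmp l G2) && QL.contains (cmp l G3)) = true := by decide +kernel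
theorem chk0 : QL.contains idl = true := by decide +kernel
/-- square -/
def sq (l : List ℕ) : List ℕ := cmp l l
theorem chk2 : QL.all (fun l => sq (sq (sq l)) == idl) = true := by decide +kernel
theorem chk3 : QL.all (fun l => !(cmp l G1 == cmp G1 l && cmp l G2 == cmp G2 l && cmp l G3 == cmp G3 l) || l == idl || l == TAU) = true := by
  decide +kernel

/-- products of generators -/
def pw : List ℕ → Perm (Fin 11)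
  | [] => 1
  | 1 :: l => g1 * pw l
  | 2 :: l => g2 * pw l
  | _ :: l => g3 * pw l

def pwl : List ℕ → List ℕ
  | [] => idl
  | 1 :: l => cmp G1 (pwl l)
  | 2 :: l => cmp G2 (pwl l)
  | _ :: l => cmp G3 (pwl l)

theorem pw_mem : ∀ l, pw l ∈ Q ∧ Rep (pw l) (pwl l) := by
  intro l
  induction l with
  | nil => exact ⟨one_mem _, rid⟩
  | cons k l ih =>
    match k with
    | 0 => exact ⟨mul_mem g3_mem ih.1, rG3.mul ih.2⟩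
    | 1 => exact ⟨mul_mem g1_mem ih.1, rG1.mul ih.2⟩
    | 2 => exact ⟨mul_mem g2_mem ih.1, rG2.mul ih.2⟩
    | (n + 3) => exact ⟨mul_mem g3_mem ih.1, rG3.mul ih.2⟩

theorem mem_of (l : List ℕ) {p : Perm (Fin 11)} {m : List ℕ} (hp : Rep p m) (h : pwl l = m) : p ∈ Q := by
  subst h
  rw [hp.ext (pw_mem l).2]
  exact (pw_mem l).1

theorem s23_mem : s23 ∈ Q := mem_of [1,2,3,1,2,3,1,2,3,2,3] rS23 (by decide +kernel)
theorem s45_mem : s45 ∈ Q := mem_of [1,2,3,1,3,2,3,1,3] rS45 (by decide +kernel)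
theorem s67_mem : s67 ∈ Q := mem_of [2,3,1,2,3,1,2,3,1,2,3] rS67 (by decide +kernel)
theorem s01_mem : s01 ∈ Q := mem_of [1,3,1,2,3,1,3,2,3] rS01 (by decide +kernel)
theorem d46_mem : d46 ∈ Q := mem_of [2,3,1,2,3,2,3,1,3] rD46 (by decide +kernel)
theorem d47_mem : d47 ∈ Q := mem_of [1,2,3,1,2,3,1,2,3,1,3] rD47 (by decide +kernel)
theorem d02_mem : d02 ∈ Q := mem_of [1,2,3,2,3,1,3,2,3] rD02 (by decide +kernel)

theorem ind_Q {P : Perm (Fin 11) → Prop} (h1 : P 1) (hm : ∀ p, P p → P (p * g1) ∧ P (p * g2) ∧ P (p * g3)) :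
    ∀ p ∈ Q, P p := by
  intro p hp
  have h2 : p ∈ Submonoid.closure {g1, g2, g3} := by
    rw [← Subgroup.closure_toSubmonoid_of_finite]; exact hp
  induction h2 using Submonoid.closure_induction_right with
  | one => exact h1
  | mul_right x hx y hy ih =>
    have hxQ : x ∈ Q := by
      have : x ∈ (Subgroup.closure {g1, g2, g3}).toSubmonoid := by rw [Subgroup.closure_toSubmonoid_of_finite]; exact hx
      exact this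
    have := hm x (ih hxQ)
    simp only [Set.mem_insert_iff, Set.mem_singleton_iff] at hy
    rcases hy with rfl | rfl | rfl
    · exact this.1
    · exact this.2.1
    · exact this.2.2

theorem rep_Q : ∀ p ∈ Q, ∃ l ∈ QL, Rep p l := by
  apply ind_Q
  · exact ⟨idl, List.contains_iff_mem.1 chk0, rid⟩
  · rintro p ⟨l, hl, hr⟩
    have h := List.all_eq_true.1 chk1 l hl
    simp only [Bool.and_eq_true] at h
    exact ⟨⟨_, List.contains_iff_mem.1 h.1.1, hr.mul rG1⟩, ⟨_, List.contains_iff_mem.1 h.1.2, hr.mul rG2⟩,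
      ⟨_, List.contains_iff_mem.1 h.2, hr.mul rG3⟩⟩

theorem pow8 {p : Perm (Fin 11)} (h : p ∈ Q) : p ^ 8 = 1 := by
  obtain ⟨l, hl, hr⟩ := rep_Q p h
  have h1 := List.all_eq_true.1 chk2 l hl
  have h2 : sq (sq (sq l)) = idl := by simpa using h1
  have h3 : Rep ((p * p) * (p * p) * ((p * p) * (p * p))) (sq (sq (sq l))) := ((hr.mul hr).mul (hr.mul hr)).mul ((hr.mul hr).mul (hr.mul hr))
  rw [h2] at h3
  have h4 := h3.ext rid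
  rw [← h4]
  simp only [pow_succ, pow_zero, one_mul, mul_assoc]

theorem center_Q {p : Perm (Fin 11)} (h : p ∈ Q) (c1 : p * g1 = g1 * p) (c2 : p * g2 = g2 * p) (c3 : p * g3 = g3 * p) :
    p = 1 ∨ p = τ := by
  obtain ⟨l, hl, hr⟩ := rep_Q p h
  have h1 := List.all_eq_true.1 chk3 l hl
  have e1 : cmp l G1 = cmp G1 l := (hr.mul rG1).eq (c1 ▸ rG1.mul hr)
  have e2 : cmp l G2 = cmp G2 l := (hr.mul rG2).eq (c2 ▸ rG2.mul hr)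
  have e3 : cmp l G3 = cmp G3 l := (hr.mul rG3).eq (c3 ▸ rG3.mul hr)
  rw [e1, e2, e3] at h1
  simp only [beq_self_eq_true, Bool.and_self, Bool.not_true, Bool.false_or, Bool.or_eq_true, beq_iff_eq] at h1
  rcases h1 with h1 | h1
  · left; rw [h1] at hr; exact hr.ext rid
  · right; rw [h1] at hr; exact hr.ext rTAU

end Cfsg.Agent.Lib.LyFusL
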