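import Cfsg.Agent.Lib.LyFusL

/-!
A Sylow 2-subgroup of the alternating group of degree eleven: the tree and the normalizer (helper90).
-/

set_option autoImplicit false
set_option linter.all false
set_option maxHeartbeats 400000
set_option maxRecDepth 100000

namespace Cfsg.Agent.Lib.LyFusP

open Equiv Equiv.Perm Subgroup Cfsg.Agent.Lib.LyFusL

/-- classes of pairs -/
def c2 (i : ℕ) : ℕ := i / 2
/-- classes of quadruples -/
def c4 (i : ℕ) : ℕ := if i < 8 then i / 4 else i / 2 - 2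

/-- permutations of the tree -/
def tree (p : Perm (Fin 11)) : Prop := (∀ i j : Fin 11, c2 i = c2 j → c2 (p i) = c2 (p j)) ∧
  (∀ i j : Fin 11, c4 i = c4 j → c4 (p i) = c4 (p j)) ∧ c4 (p 8) = 2 ∧ p 10 = 10

/-- check on lists -/
def treeL (l : List ℕ) : Bool := decide (∀ i j : Fin 11, c2 i = c2 j → c2 (at' l i) = c2 (at' l j)) &&
  (decide (∀ i j : Fin 11, c4 i = c4 j → c4 (at' l i) = c4 (at' l j)) && (decide (c4 (at' l 8) = 2) && decide (at' l 10 = 10)))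

theorem tree_of {p : Perm (Fin 11)} {l : List ℕ} (hr : Rep p l) (h : treeL l = true) : tree p := by
  unfold treeL at h
  rw [Bool.and_eq_true, Bool.and_eq_true, Bool.and_eq_true, decide_eq_true_eq, decide_eq_true_eq, decide_eq_true_eq, decide_eq_true_eq] at h
  obtain ⟨h1, h2, h3, h4⟩ := h
  refine ⟨fun i j hij => ?_, fun i j hij => ?_, ?_, ?_⟩
  · rw [hr.ap, hr.ap]; exact h1 i j hij
  · rw [hr.ap, hr.ap]; exact h2 i j hij
  · rw [hr.ap]; exact h3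
  · apply Fin.ext; rw [hr.ap]; exact h4

theorem tree_one : tree 1 := tree_of rid (by decide +kernel)

theorem tree_mul {p q : Perm (Fin 11)} (hp : tree p) (hq : tree q) : tree (p * q) := by
  refine ⟨fun i j h => hp.1 _ _ (hq.1 _ _ h), fun i j h => hp.2.1 _ _ (hq.2.1 _ _ h), ?_, ?_⟩
  · have h1 : c4 (q 8) = c4 ((8 : Fin 11) : ℕ) := hq.2.2.1
    have h2 := hp.2.1 _ _ h1
    exact h2.trans hp.2.2.1
  · show p (q 10) = 10
    rw [hq.2.2.2, hp.2.2.2]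

theorem tree_Q : ∀ p ∈ Q, sign p = 1 ∧ tree p := by
  apply ind_Q
  · exact ⟨Perm.sign_one, tree_one⟩
  · rintro p ⟨h1, h2⟩
    have s1 : sign g1 = 1 := by
      unfold g1
      rw [map_mul, map_mul, map_mul, sign_swap (by decide), sign_swap (by decide), sign_swap (by decide), sign_swap (by decide)]; rfl
    have s2 : sign g2 = 1 := by
      unfold g2
      rw [map_mul, map_mul, map_mul, sign_swap (by decide), sign_swap (by decide), sign_swap (by decide), sign_swap (by decide)]; rfl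
    have s3 : sign g3 = 1 := by
      unfold g3
      rw [map_mul, map_mul, map_mul, sign_swap (by decide), sign_swap (by decide), sign_swap (by decide), sign_swap (by decide)]; rfl
    exact ⟨⟨by rw [map_mul, h1, s1, one_mul], tree_mul h2 (tree_of rG1 (by decide +kernel))⟩,
      ⟨by rw [map_mul, h1, s2, one_mul], tree_mul h2 (tree_of rG2 (by decide +kernel))⟩,
      ⟨by rw [map_mul, h1, s3, one_mul], tree_mul h2 (tree_of rG3 (by decide +kernel))⟩⟩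

theorem ne_of {p : Perm (Fin 11)} {i j : Fin 11} (h : i ≠ j) : p i ≠ p j := fun h' => h (p.injective h')

theorem p89 {p : Perm (Fin 11)} (hp : tree p) (i : Fin 11) (hi : (i : ℕ) < 8) : (p i : ℕ) < 8 := by
  have h9 : c4 (p 9) = 2 := (hp.2.1 9 8 (by decide)).trans hp.2.2.1
  have h8 : c4 (p 8) = 2 := hp.2.2.1
  have h10 := hp.2.2.2
  have i8 : i ≠ 8 := by rintro rfl; simp at hi
  have i9 : i ≠ 9 := by rintro rfl; simp at hi
  have i10 : i ≠ 10 := by rintro rfl; simp at hi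
  have n3 := ne_of (p := p) i10
  rw [h10] at n3
  have key : ∀ x y : Fin 11, c4 x = 2 → c4 y = 2 → x ≠ y → ∀ z : Fin 11, z ≠ x → z ≠ y → z ≠ 10 → (z : ℕ) < 8 := by decide +kernel
  exact key _ _ h8 h9 (ne_of (by decide)) _ (ne_of i8) (ne_of i9) n3

theorem pair {r : Perm (Fin 11)} (hr : tree r) (i j : Fin 11) (hij : c2 i = c2 j) (hne : i ≠ j) (hi : r i = i)
    (hi8 : (i : ℕ) < 8) : r j = j := by
  have h1 := hr.1 i j hij
  have h2 : r j ≠ r i := ne_of hne.symm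
  rw [hi] at h1 h2
  have key : ∀ i j x : Fin 11, (i : ℕ) < 8 → c2 i = c2 j → i ≠ j → c2 i = c2 x → x ≠ i → x = j := by decide +kernel
  exact key i j _ hi8 hij hne h1 h2

def W0 : List (List ℕ) := [[], [1], [2], [1,2], [3], [1,3], [3,2], [2,3,2]]
def W1 : List (List ℕ) := [[], [1,2,3,1,2,3,1,2,3,2,3]]
def W2 : List (List ℕ) := [[], [1,2,3,1,3,2,3,1,3], [2,3,1,2,3,2,3,1,3], [1,2,3,1,2,3,1,2,3,1,3]]
def W3 : List (List ℕ) := [[], [2,3,1,2,3,1,2,3,1,2,3]]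

theorem ap (w : List ℕ) (i : Fin 11) {n : Fin 11} (h : at' (pwl w) i = n) : pw w i = n := by
  apply Fin.ext
  rw [(pw_mem w).2.ap, h]

/-- one step -/
theorem step (w : List ℕ) {p : Perm (Fin 11)} (hs : sign p = 1) (hp : tree p) :
    sign ((pw w)⁻¹ * p) = 1 ∧ tree ((pw w)⁻¹ * p) := by
  have h := tree_Q _ (inv_mem (pw_mem w).1)
  exact ⟨by rw [map_mul, hs, h.1, one_mul], tree_mul h.2 hp⟩

theorem fx (w : List ℕ) {p : Perm (Fin 11)} (i : Fin 11) (h : p i = i) (hw : at' (pwl w) i = i) : ((pw w)⁻¹ * p) i = i := by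
  rw [mul_apply, h, inv_eq_iff_eq]
  exact (ap w i hw).symm

theorem fx' (w : List ℕ) {p : Perm (Fin 11)} (i : Fin 11) (hw : at' (pwl w) i = p i) : ((pw w)⁻¹ * p) i = i := by
  rw [mul_apply, inv_eq_iff_eq]
  exact (ap w i hw).symm

theorem struct {p : Perm (Fin 11)} (hs : sign p = 1) (hp : tree p) : p ∈ Q := by
  obtain ⟨w0, e0⟩ : ∃ w, at' (pwl w) 0 = p 0 := by
    have h := p89 hp 0 (by decide)
    have key : ∀ x : Fin 11, (x : ℕ) < 8 → ∃ w ∈ W0, at' (pwl w) 0 = x := by decide +kernel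
    obtain ⟨w, _, h⟩ := key _ h
    exact ⟨w, h⟩
  obtain ⟨hs1, htr1⟩ := step w0 hs hp
  have a0 : ((pw w0)⁻¹ * p) 0 = 0 := fx' w0 0 e0
  suffices h : (pw w0)⁻¹ * p ∈ Q by
    have := mul_mem (pw_mem w0).1 h
    rwa [mul_inv_cancel_left] at this
  revert hs1 htr1 a0
  generalize (pw w0)⁻¹ * p = p1
  intro hs1 htr1 a0
  have a1 : p1 1 = 1 := pair htr1 0 1 (by decide) (by decide) a0 (by decide)
  obtain ⟨w1, e1, f0, f1⟩ : ∃ w, at' (pwl w) 2 = p1 2 ∧ at' (pwl w) 0 = 0 ∧ at' (pwl w) 1 = 1 := by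
    have h1 := htr1.2.1 0 2 (by decide)
    have h2 : p1 2 ≠ p1 0 := ne_of (by decide)
    have h3 : p1 2 ≠ p1 1 := ne_of (by decide)
    rw [a0] at h1 h2
    rw [a1] at h3
    have key : ∀ x : Fin 11, c4 ((0 : Fin 11) : ℕ) = c4 x → x ≠ 0 → x ≠ 1 → ∃ w ∈ W1, at' (pwl w) 2 = x ∧ at' (pwl w) 0 = 0 ∧ at' (pwl w) 1 = 1 := by decide +kernel
    obtain ⟨w, _, h⟩ := key _ h1 h2 h3
    exact ⟨w, h⟩
  obtain ⟨hs2, htr2⟩ := step w1 hs1 htr1
  have b0 := fx w1 0 a0 f0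
  have b1 := fx w1 1 a1 f1
  have b2 := fx' w1 2 e1
  suffices h : (pw w1)⁻¹ * p1 ∈ Q by
    have := mul_mem (pw_mem w1).1 h
    rwa [mul_inv_cancel_left] at this
  revert hs2 htr2 b0 b1 b2
  generalize (pw w1)⁻¹ * p1 = p2
  intro hs2 htr2 b0 b1 b2
  have b3 : p2 3 = 3 := pair htr2 2 3 (by decide) (by decide) b2 (by decide)
  obtain ⟨w2, e2, g0, g1', g2', g3'⟩ : ∃ w, at' (pwl w) 4 = p2 4 ∧ at' (pwl w) 0 = 0 ∧ at' (pwl w) 1 = 1 ∧ at' (pwl w) 2 = 2 ∧ at' (pwl w) 3 = 3 := by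
    have h := p89 htr2 4 (by decide)
    have n0 : p2 4 ≠ p2 0 := ne_of (by decide)
    have n1 : p2 4 ≠ p2 1 := ne_of (by decide)
    have n2 : p2 4 ≠ p2 2 := ne_of (by decide)
    have n3 : p2 4 ≠ p2 3 := ne_of (by decide)
    rw [b0] at n0
    rw [b1] at n1
    rw [b2] at n2
    rw [b3] at n3
    have key : ∀ x : Fin 11, (x : ℕ) < 8 → x ≠ 0 → x ≠ 1 → x ≠ 2 → x ≠ 3 →
      ∃ w ∈ W2, at' (pwl w) 4 = x ∧ at' (pwl w) 0 = 0 ∧ at' (pwl w) 1 = 1 ∧ at' (pwl w) 2 = 2 ∧ at' (pwl w) 3 = 3 := by decide +kernel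
    obtain ⟨w, _, h⟩ := key _ h n0 n1 n2 n3
    exact ⟨w, h⟩
  obtain ⟨hs3, htr3⟩ := step w2 hs2 htr2
  have m0 := fx w2 0 b0 g0
  have m1 := fx w2 1 b1 g1'
  have m2 := fx w2 2 b2 g2'
  have m3 := fx w2 3 b3 g3'
  have m4 := fx' w2 4 e2
  suffices h : (pw w2)⁻¹ * p2 ∈ Q by
    have := mul_mem (pw_mem w2).1 h
    rwa [mul_inv_cancel_left] at this
  revert hs3 htr3 m0 m1 m2 m3 m4
  generalize (pw w2)⁻¹ * p2 = p3
  intro hs3 htr3 m0 m1 m2 m3 m4
  have m5 : p3 5 = 5 := pair htr3 4 5 (by decide) (by decide) m4 (by decide)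
  obtain ⟨w3, e3, l0, l1, l2, l3, l4, l5⟩ : ∃ w, at' (pwl w) 6 = p3 6 ∧ at' (pwl w) 0 = 0 ∧ at' (pwl w) 1 = 1 ∧ at' (pwl w) 2 = 2 ∧
      at' (pwl w) 3 = 3 ∧ at' (pwl w) 4 = 4 ∧ at' (pwl w) 5 = 5 := by
    have h := p89 htr3 6 (by decide)
    have n0 : p3 6 ≠ p3 0 := ne_of (by decide)
    have n1 : p3 6 ≠ p3 1 := ne_of (by decide)
    have n2 : p3 6 ≠ p3 2 := ne_of (by decide)
    have n3 : p3 6 ≠ p3 3 := ne_of (by decide)
    have n4 : p3 6 ≠ p3 4 := ne_of (by decide)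
    have n5 : p3 6 ≠ p3 5 := ne_of (by decide)
    rw [m0] at n0
    rw [m1] at n1
    rw [m2] at n2
    rw [m3] at n3
    rw [m4] at n4
    rw [m5] at n5
    have key : ∀ x : Fin 11, (x : ℕ) < 8 → x ≠ 0 → x ≠ 1 → x ≠ 2 → x ≠ 3 → x ≠ 4 → x ≠ 5 →
      ∃ w ∈ W3, at' (pwl w) 6 = x ∧ at' (pwl w) 0 = 0 ∧ at' (pwl w) 1 = 1 ∧ at' (pwl w) 2 = 2 ∧
      at' (pwl w) 3 = 3 ∧ at' (pwl w) 4 = 4 ∧ at' (pwl w) 5 = 5 := by decide +kernel
    obtain ⟨w, _, h⟩ := key _ h n0 n1 n2 n3 n4 n5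
    exact ⟨w, h⟩
  obtain ⟨hs4, htr4⟩ := step w3 hs3 htr3
  have k0 := fx w3 0 m0 l0
  have k1 := fx w3 1 m1 l1
  have k2 := fx w3 2 m2 l2
  have k3 := fx w3 3 m3 l3
  have k4 := fx w3 4 m4 l4
  have k5 := fx w3 5 m5 l5
  have k6 := fx' w3 6 e3
  suffices h : (pw w3)⁻¹ * p3 ∈ Q by
    have := mul_mem (pw_mem w3).1 h
    rwa [mul_inv_cancel_left] at this
  revert hs4 htr4 k0 k1 k2 k3 k4 k5 k6
  generalize (pw w3)⁻¹ * p3 = p4
  intro hs4 htr4 k0 k1 k2 k3 k4 k5 k6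
  have k7 : p4 7 = 7 := pair htr4 6 7 (by decide) (by decide) k6 (by decide)
  have k10 : p4 10 = 10 := htr4.2.2.2
  have h8 : c4 (p4 8) = 2 := htr4.2.2.1
  have h9 : c4 (p4 9) = 2 := (htr4.2.1 9 8 (by decide)).trans h8
  have k8 : p4 8 = 8 ∧ p4 9 = 9 ∨ p4 8 = 9 ∧ p4 9 = 8 := by
    have key : ∀ x y : Fin 11, c4 x = 2 → c4 y = 2 → x ≠ y → x = 8 ∧ y = 9 ∨ x = 9 ∧ y = 8 := by decide +kernel
    exact key _ _ h8 h9 (ne_of (by decide))
  have hall : ∀ i : Fin 11, i = 0 ∨ i = 1 ∨ i = 2 ∨ i = 3 ∨ i = 4 ∨ i = 5 ∨ i = 6 ∨ i = 7 ∨ i = 8 ∨ i = 9 ∨ i = 10 := by decide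
  have hp4' : p4 = 1 := by
    rcases k8 with ⟨k8, k9⟩ | ⟨k8, k9⟩
    · apply Equiv.ext
      intro i
      rcases hall i with rfl | rfl | rfl | rfl | rfl | rfl | rfl | rfl | rfl | rfl | rfl <;> assumption
    · exfalso
      have : p4 = swap 8 9 := by
        apply Equiv.ext
        intro i
        rcases hall i with rfl | rfl | rfl | rfl | rfl | rfl | rfl | rfl | rfl | rfl | rfl
        · exact k0
        · exact k1
        · exact k2
        · exact k3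
        · exact k4
        · exact k5
        · exact k6
        · exact k7
        · rw [k8, swap_apply_left]
        · rw [k9, swap_apply_right]
        · exact k10
      rw [this, sign_swap (by decide)] at hs4
      exact absurd hs4 (by decide)
  rw [hp4']
  exact one_mem _

theorem mem_Q {p : Perm (Fin 11)} : p ∈ Q ↔ sign p = 1 ∧ tree p := ⟨tree_Q p, fun h => struct h.1 h.2⟩

theorem tree_sw2 {u v : Fin 11} (hu : (u : ℕ) < 8) (hv : (v : ℕ) < 8) (huv : u ≠ v) (h : tree (swap u v * swap 8 9)) : c2 u = c2 v := by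
  obtain ⟨j, hj1, hj2, hj3⟩ : ∃ j : Fin 11, j ≠ u ∧ c2 u = c2 j ∧ (j : ℕ) < 8 := by
    have key : ∀ u : Fin 11, (u : ℕ) < 8 → ∃ j : Fin 11, j ≠ u ∧ c2 u = c2 j ∧ (j : ℕ) < 8 := by decide +kernel
    exact key u hu
  by_cases hjv : j = v
  · rw [← hjv]; exact hj2
  have hn : ∀ x : Fin 11, (x : ℕ) < 8 → swap (8 : Fin 11) 9 x = x := by
    intro x hx
    apply swap_apply_of_ne_of_ne
    · rintro rfl; simp at hx
    · rintro rfl; simp at hx
  have h1 := h.1 u j hj2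
  rw [mul_apply, mul_apply, hn u hu, hn j hj3, swap_apply_left, swap_apply_of_ne_of_ne hj1 hjv] at h1
  rw [h1, hj2]

theorem tree_sw4 {u v u' v' : Fin 11} (hu : (u : ℕ) < 8) (hv : (v : ℕ) < 8) (h1 : c2 u = c2 u') (h2 : u ≠ u') (h3 : c2 v = c2 v')
    (h4 : v ≠ v') (h5 : u ≠ v) (h : tree (swap u v * swap u' v')) : c4 u = c4 v := by
  by_contra hne
  obtain ⟨j, hj1, hj2, hj3⟩ : ∃ j : Fin 11, j ≠ u ∧ j ≠ u' ∧ c4 u = c4 j := by
    have key : ∀ u : Fin 11, (u : ℕ) < 8 → ∀ u' : Fin 11, ∃ j : Fin 11, j ≠ u ∧ j ≠ u' ∧ c4 u = c4 j := by decide +kernel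
    exact key u hu u'
  have h24 : ∀ u v : Fin 11, c2 u = c2 v → c4 u = c4 v := by decide +kernel
  have hjv : j ≠ v := by rintro rfl; exact hne hj3
  have hjv' : j ≠ v' := by rintro rfl; exact hne (hj3.trans (h24 _ _ h3).symm)
  have huv' : u ≠ v' := by rintro rfl; exact hne (h24 _ _ h3).symm
  have h6 := h.2.1 u j hj3
  rw [mul_apply, mul_apply, swap_apply_of_ne_of_ne h2 huv', swap_apply_left, swap_apply_of_ne_of_ne hj2 hjv',
    swap_apply_of_ne_of_ne hj1 hjv] at h6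
  exact hne (hj3.trans h6.symm)

/-- the normalizer -/
theorem norm_tree {p : Perm (Fin 11)} (h1 : ∀ q ∈ Q, p * q * p⁻¹ ∈ Q) (h2 : ∀ q ∈ Q, p⁻¹ * q * p ∈ Q) : tree p := by
  have hmv : ∀ q ∈ Q, ∀ x, ∃ q' ∈ Q, q (p x) = p (q' x) := by
    intro q hq x
    refine ⟨p⁻¹ * q * p, h2 q hq, ?_⟩
    rw [mul_apply, mul_apply]
    exact (p.apply_symm_apply _).symm
  have hG : ∀ x : Fin 11, (g1 x : ℕ) = at' G1 x ∧ (g2 x : ℕ) = at' G2 x ∧ (g3 x : ℕ) = at' G3 x := fun x => ⟨rG1.ap x, rG2.ap x, rG3.ap x⟩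
  have h10 : p 10 = 10 := by
    have hf : ∀ q ∈ Q, q (p 10) = p 10 := by
      intro q hq
      obtain ⟨q', hq', e⟩ := hmv q hq 10
      rw [e, (tree_Q q' hq').2.2.2.2]
    have key : ∀ x : Fin 11, at' G1 x = x → at' G2 x = x → at' G3 x = x → x = 10 := by decide +kernel
    apply key
    · rw [← (hG _).1, hf _ g1_mem]
    · rw [← (hG _).2.1, hf _ g2_mem]
    · rw [← (hG _).2.2, hf _ g3_mem]
  have h89 : ∀ q ∈ Q, ∀ x : Fin 11, x = 8 ∨ x = 9 → q x = 8 ∨ q x = 9 := by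
    intro q hq x hx
    have ht := (tree_Q q hq).2
    have e : c4 (q x) = 2 := by
      rcases hx with rfl | rfl
      · exact ht.2.2.1
      · exact (ht.2.1 9 8 (by decide)).trans ht.2.2.1
    have key : ∀ x : Fin 11, c4 x = 2 → x = 8 ∨ x = 9 := by decide +kernel
    exact key _ e
  have hp89 : ∀ x : Fin 11, x = 8 ∨ x = 9 → p x = 8 ∨ p x = 9 := by
    intro x hx
    have hf : ∀ q ∈ Q, (q (p x) : ℕ) = p 8 ∨ (q (p x) : ℕ) = p 9 := by
      intro q hq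
      obtain ⟨q', hq', e⟩ := hmv q hq x
      rcases h89 q' hq' x hx with h | h
      · left; rw [e, h]
      · right; rw [e, h]
    have hx' : p x = p 8 ∨ p x = p 9 := by
      rcases hx with rfl | rfl
      · exact Or.inl rfl
      · exact Or.inr rfl
    have hne : p x ≠ 10 := by
      rw [← h10]
      rcases hx with rfl | rfl <;> exact ne_of (by decide)
    have f1 := hf _ g1_mem
    have f2 := hf _ g2_mem
    have f3 := hf _ g3_mem
    rw [(hG _).1] at f1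
    rw [(hG _).2.1] at f2
    rw [(hG _).2.2] at f3
    have key : ∀ x : Fin 11, x ≠ 10 → ¬ (x = 8 ∨ x = 9) → ∀ u v : Fin 11, (x = u ∨ x = v) → (at' G1 x = u ∨ at' G1 x = v) →
      (at' G2 x = u ∨ at' G2 x = v) → (at' G3 x = u ∨ at' G3 x = v) → False := by decide +kernel
    by_contra hcon
    exact key _ hne hcon _ _ hx' f1 f2 f3
  have hne89 : p 8 ≠ p 9 := ne_of (by decide)
  have a8 := hp89 8 (Or.inl rfl)
  have a9 := hp89 9 (Or.inr rfl)
  have hsw : swap (p 8) (p 9) = swap 8 9 := by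
    rcases a8 with e8 | e8 <;> rcases a9 with e9 | e9
    · exact absurd (e8.trans e9.symm) hne89
    · rw [e8, e9]
    · rw [e8, e9]; exact swap_comm _ _
    · exact absurd (e8.trans e9.symm) hne89
  have hlt : ∀ x : Fin 11, (x : ℕ) < 8 → (p x : ℕ) < 8 := by
    intro x hx
    have i8 : x ≠ 8 := by rintro rfl; simp at hx
    have i9 : x ≠ 9 := by rintro rfl; simp at hx
    have i10 : x ≠ 10 := by rintro rfl; simp at hx
    have n10 := ne_of (p := p) i10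
    rw [h10] at n10
    have key : ∀ u v : Fin 11, (u = 8 ∨ u = 9) → (v = 8 ∨ v = 9) → u ≠ v → ∀ x : Fin 11, x ≠ u → x ≠ v → x ≠ 10 → (x : ℕ) < 8 := by decide +kernel
    exact key _ _ a8 a9 hne89 _ (ne_of i8) (ne_of i9) n10
  have hc : ∀ x y : Fin 11, p * swap x y * p⁻¹ = swap (p x) (p y) := fun x y => (Equiv.swap_apply_apply p x y).symm
  have pr : ∀ x y : Fin 11, (x : ℕ) < 8 → (y : ℕ) < 8 → x ≠ y → swap x y * swap 8 9 ∈ Q → c2 (p x) = c2 (p y) := by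
    intro x y hx hy hxy hm
    have h3 := h1 _ hm
    have h4 : p * (swap x y * swap 8 9) * p⁻¹ = swap (p x) (p y) * swap 8 9 := by
      have h5 : p * (swap x y * swap 8 9) * p⁻¹ = (p * swap x y * p⁻¹) * (p * swap 8 9 * p⁻¹) := by group
      rw [h5, hc, hc, hsw]
    rw [h4] at h3
    exact tree_sw2 (hlt x hx) (hlt y hy) (ne_of hxy) (tree_Q _ h3).2
  have r01 : c2 (p 0) = c2 (p 1) := pr 0 1 (by decide) (by decide) (by decide) s01_mem
  have r23 : c2 (p 2) = c2 (p 3) := pr 2 3 (by decide) (by decide) (by decide) s23_mem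
  have r45 : c2 (p 4) = c2 (p 5) := pr 4 5 (by decide) (by decide) (by decide) s45_mem
  have r67 : c2 (p 6) = c2 (p 7) := pr 6 7 (by decide) (by decide) (by decide) s67_mem
  have r89 : c2 (p 8) = c2 (p 9) := by
    have key : ∀ u v : Fin 11, (u = 8 ∨ u = 9) → (v = 8 ∨ v = 9) → c2 u = c2 v := by decide +kernel
    exact key _ _ a8 a9
  have qd : ∀ x y x' y' : Fin 11, c2 (p x) = c2 (p x') → c2 (p y) = c2 (p y') → x ≠ x' → y ≠ y' → x ≠ y →
      (x : ℕ) < 8 → (y : ℕ) < 8 → swap x y * swap x' y' ∈ Q → c4 (p x) = c4 (p y) := by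
    intro x y x' y' hx hy hxx hyy hxy lx ly hm
    have h3 := h1 _ hm
    have h4 : p * (swap x y * swap x' y') * p⁻¹ = swap (p x) (p y) * swap (p x') (p y') := by
      have h5 : p * (swap x y * swap x' y') * p⁻¹ = (p * swap x y * p⁻¹) * (p * swap x' y' * p⁻¹) := by group
      rw [h5, hc, hc]
    rw [h4] at h3
    exact tree_sw4 (hlt x lx) (hlt y ly) hx (ne_of hxx) hy (ne_of hyy) (ne_of hxy) (tree_Q _ h3).2
  have r02 : c4 (p 0) = c4 (p 2) := qd 0 2 1 3 r01 r23 (by decide) (by decide) (by decide) (by decide) (by decide) d02_mem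
  have r46 : c4 (p 4) = c4 (p 6) := qd 4 6 5 7 r45 r67 (by decide) (by decide) (by decide) (by decide) (by decide) d46_mem
  have h24 : ∀ u v : Fin 11, c2 u = c2 v → c4 u = c4 v := by decide +kernel
  have hcl2 : ∀ i j : Fin 11, c2 i = c2 j → i = j ∨ (i = 0 ∧ j = 1) ∨ (i = 1 ∧ j = 0) ∨ (i = 2 ∧ j = 3) ∨ (i = 3 ∧ j = 2) ∨
      (i = 4 ∧ j = 5) ∨ (i = 5 ∧ j = 4) ∨ (i = 6 ∧ j = 7) ∨ (i = 7 ∧ j = 6) ∨ (i = 8 ∧ j = 9) ∨ (i = 9 ∧ j = 8) := by decide +kernel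
  have t2 : ∀ i j : Fin 11, c2 i = c2 j → c2 (p i) = c2 (p j) := by
    intro i j hij
    rcases hcl2 i j hij with rfl | ⟨rfl, rfl⟩ | ⟨rfl, rfl⟩ | ⟨rfl, rfl⟩ | ⟨rfl, rfl⟩ | ⟨rfl, rfl⟩ | ⟨rfl, rfl⟩ | ⟨rfl, rfl⟩ |
      ⟨rfl, rfl⟩ | ⟨rfl, rfl⟩ | ⟨rfl, rfl⟩
    · rfl
    · exact r01
    · exact r01.symm
    · exact r23
    · exact r23.symm
    · exact r45
    · exact r45.symm
    · exact r67
    · exact r67.symm
    · exact r89
    · exact r89.symm
  have q0 : c4 (p 0) = c4 (p 1) := h24 _ _ r01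
  have q2 : c4 (p 2) = c4 (p 3) := h24 _ _ r23
  have q4 : c4 (p 4) = c4 (p 5) := h24 _ _ r45
  have q6 : c4 (p 6) = c4 (p 7) := h24 _ _ r67
  have q8 : c4 (p 8) = c4 (p 9) := h24 _ _ r89
  have hA : ∀ i : Fin 11, c4 i = 0 → c4 (p i) = c4 (p 0) := by
    have key : ∀ i : Fin 11, c4 i = 0 → i = 0 ∨ i = 1 ∨ i = 2 ∨ i = 3 := by decide +kernel
    intro i hi
    rcases key i hi with rfl | rfl | rfl | rfl
    · rfl
    · exact q0.symm
    · exact r02.symm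
    · exact q2.symm.trans r02.symm
  have hB : ∀ i : Fin 11, c4 i = 1 → c4 (p i) = c4 (p 4) := by
    have key : ∀ i : Fin 11, c4 i = 1 → i = 4 ∨ i = 5 ∨ i = 6 ∨ i = 7 := by decide +kernel
    intro i hi
    rcases key i hi with rfl | rfl | rfl | rfl
    · rfl
    · exact q4.symm
    · exact r46.symm
    · exact q6.symm.trans r46.symm
  have hC : ∀ i : Fin 11, c4 i = 2 → c4 (p i) = c4 (p 8) := by
    have key : ∀ i : Fin 11, c4 i = 2 → i = 8 ∨ i = 9 := by decide +kernel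
    intro i hi
    rcases key i hi with rfl | rfl
    · rfl
    · exact q8.symm
  have t4 : ∀ i j : Fin 11, c4 i = c4 j → c4 (p i) = c4 (p j) := by
    intro i j hij
    have key : ∀ i : Fin 11, c4 i = 0 ∨ c4 i = 1 ∨ c4 i = 2 ∨ i = 10 := by decide +kernel
    rcases key i with h | h | h | h
    · rw [hA i h, hA j (hij ▸ h)]
    · rw [hB i h, hB j (hij ▸ h)]
    · rw [hC i h, hC j (hij ▸ h)]
    · subst h
      have key2 : ∀ j : Fin 11, c4 ((10 : Fin 11) : ℕ) = c4 j → j = 10 := by decide +kernel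
      rw [key2 j hij]
  refine ⟨t2, t4, ?_, h10⟩
  have key : ∀ x : Fin 11, x = 8 ∨ x = 9 → c4 x = 2 := by decide +kernel
  exact key _ a8

end Cfsg.Agent.Lib.LyFusP
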