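import Cfsg.Agent.Lib.LyCUw

/-!
Words for the 2-fusion system of the Lyons group: checks (helper90).
-/

set_option autoImplicit false
set_option linter.all false
set_option maxRecDepth 100000

namespace Cfsg.Agent.Lib.LyFusW

open Cfsg.Agent.Lib.M5 Cfsg.Agent.Lib.BenesWord Cfsg.Agent.Lib.BenesPerm
open Cfsg.Agent.Lib.LyCUw (L Zw chk_L v)

/-- product of letters with signs -/
def pr : List (ℕ × Bool) → Wd
  | [] => .one
  | [(c, s)] => if s then .g c else .inv (.g c)
  | (c, s) :: d :: l => .mul (if s then .g c else .inv (.g c)) (pr (d :: l))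

/-- the common part -/
def wL : List (ℕ × Bool) := [(2, false), (1, false), (3, true), (2, true), (3, true), (2, true), (3, false), (1, true), (2, true)]
def y1 : Wd := pr (wL ++ [(0, false), (9, true), (11, true), (15, true)])
def y2 : Wd := pr (wL ++ [(1, true), (9, false), (13, true), (8, false), (15, true)])
def y3 : Wd := pr (wL ++ [(0, true), (4, true), (14, true), (5, true), (13, true)])

def x (i : ℕ) : Wd := .g (7 + i)
def xi (i : ℕ) : Wd := .inv (.g (7 + i))

def V1 : Wd := .mul (.mul (.mul (.mul (.mul (.mul (.mul (.mul (x 0) (xi 1)) (x 2)) (xi 3)) (x 2)) (xi 0)) (x 6)) (xi 7)) (x 6)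
def V2 : Wd := .mul (.mul (.mul (.mul (.mul (.mul (.mul (x 0) (x 2)) (xi 3)) (x 2)) (xi 1)) (x 4)) (xi 5)) (x 4)
def V3 : Wd := .mul (.mul (.mul (.mul (.mul (.mul (.mul (x 2) (x 3)) (xi 0)) (x 4)) (xi 0)) (x 1)) (xi 5)) (x 1)
def VT : Wd := .mul (.mul (.mul (.mul (.mul (.mul (.mul (.mul (x 0) (xi 1)) (x 2)) (xi 3)) (x 2)) (xi 0)) (x 4)) (xi 5)) (x 4)

def r1 : Wd := .mul (.mul (.mul (.inv y1) Zw) y1) (.inv V1)
def r2 : Wd := .mul (.mul (.mul (.inv y2) Zw) y2) (.inv V2)
def r3 : Wd := .mul (.mul (.mul (.inv y3) Zw) y3) (.inv V3)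
def rT : Wd := .mul (.mul VT V1) (.inv (.mul (.mul V1 VT) Zw))

def relF : List Wd := [r1, r2, r3, rT]

theorem chk_F : chkRel 111 L relF = true := by decide +kernel

theorem lets_F : ∀ W ∈ relF, Cfsg.Agent.Lib.CoxBridge.lets 16 W = true := by decide +kernel

theorem relv : ∀ W ∈ relF, W.eval v = 1 := fun W hW =>
  uu_rel (by norm_num) (by norm_num) L chk_L chk_F W hW (lets_F W hW)

end Cfsg.Agent.Lib.LyFusW
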