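import Mathlib
import Cfsg.Agent.Lib.M11H

/-!
# Simple groups of order 7920: numbers of elements of given order (helper7)
-/

set_option autoImplicit false

namespace Cfsg.Agent.Lib.M11ByOrder

open Subgroup Cfsg Cfsg.Agent.Lib.CharBasic Cfsg.Agent.Lib.ColTools Cfsg.Agent.Lib.SmallSimple
open scoped ComplexConjugate

universe u

variable {G : Type u} [Group G] [Finite G] {A B C D X E F H : IrrCharacter G}

variable [IsSimpleGroup G]

/-- the conjugacy classes, with more information -/
theorem Tab.classes2 (h : Tab A B C D X E F H) (hG : Nat.card G = 7920) :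
    (∀ n : ℕ, Nat.card {g : G // orderOf g = n} ∈ ({0, 1, 165, 440, 990, 1320, 1440, 1584, 1980} : Finset ℕ)) := by
  classical
  obtain ⟨x, hx⟩ := exists_prime_orderOf_dvd_card' (G := G) 11 (by rw [hG]; norm_num)
  obtain ⟨y, hy⟩ := exists_prime_orderOf_dvd_card' (G := G) 5 (by rw [hG]; norm_num)
  obtain ⟨t, ht⟩ := exists_prime_orderOf_dvd_card' (G := G) 2 (by rw [hG]; norm_num)
  obtain ⟨g, hg⟩ := h.exists_four hG
  obtain ⟨k, hk, -⟩ := h.exists_eight hG hg
  obtain ⟨hCx, -, -, hnr⟩ := elt11 hG x hx
  obtain ⟨hCy, -, -⟩ := elt5 hG y hy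
  have hnr8 := h.eight_nonreal hG hk
  obtain ⟨-, hCk, -⟩ := h.sd hG hk
  have hC2 := (h.inv hG ht).2.2.2
  obtain ⟨z1, hz1⟩ := exists_prime_orderOf_dvd_card' (G := centralizer ({t} : Set G)) 3 (by rw [hC2]; norm_num)
  have hz0 : orderOf (z1 : G) = 3 := by rw [Subgroup.orderOf_coe, hz1]
  have hzt : Commute (z1 : G) t := (mem_centralizer_singleton_iff.1 z1.2)
  have hw : orderOf ((z1 : G) * t) = 6 := by
    rw [hzt.orderOf_mul_eq_mul_orderOf_of_coprime (by rw [hz0, ht]; decide), hz0, ht]
  have key : ∀ z : G, orderOf z = 3 → (∀ n : ℕ, Nat.card {g : G // orderOf g = n} ∈ ({0, 1, 165, 440, 990, 1320, 1440, 1584, 1980} : Finset ℕ)) := by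
    intro z hz
    set w : G := (z1 : G) * t with hwd
    have hne : ∀ a b : G, orderOf a ≠ orderOf b → ConjClasses.mk a ≠ ConjClasses.mk b := by
      intro a b hab hm
      exact hab (isConj_order (ConjClasses.mk_eq_mk_iff_isConj.1 hm))
    have hki : orderOf k⁻¹ = 8 := by rw [orderOf_inv, hk]
    have hxi : orderOf x⁻¹ = 11 := by rw [orderOf_inv, hx]
    have e8 : ConjClasses.mk k ≠ ConjClasses.mk k⁻¹ := fun hm => hnr8 (ConjClasses.mk_eq_mk_iff_isConj.1 hm)
    have e11 : ConjClasses.mk x ≠ ConjClasses.mk x⁻¹ := fun hm => hnr (ConjClasses.mk_eq_mk_iff_isConj.1 hm)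
    set L : List (ConjClasses G) := [ConjClasses.mk (1 : G), ConjClasses.mk t, ConjClasses.mk g, ConjClasses.mk k, ConjClasses.mk k⁻¹,
      ConjClasses.mk y, ConjClasses.mk x, ConjClasses.mk x⁻¹, ConjClasses.mk z, ConjClasses.mk w] with hL
    have hnd : L.Nodup := by
      rw [hL]
      simp only [List.nodup_cons, List.mem_cons, List.not_mem_nil, not_or, or_false, not_false_eq_true, List.nodup_nil, and_true]
      repeat' apply And.intro
      all_goals first
        | exact e8
        | exact e11
        | (apply hne; simp only [orderOf_one, ht, hg, hk, hki, hy, hx, hxi, hz, hw]; norm_num)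
    have := Fintype.ofFinite (ConjClasses G)
    have hcardC : Fintype.card (ConjClasses G) = 10 := by
      rw [← Nat.card_eq_fintype_card, ← card_irr, Nat.card_eq_fintype_card, ← Finset.card_univ]
      have : (Finset.univ : Finset (IrrCharacter G)) = [triv G, A, B, C, D, X, cc X, E, F, H].toFinset := by
        ext χ
        rw [List.mem_toFinset]
        exact ⟨fun _ => h.all χ, fun _ => Finset.mem_univ _⟩
      rw [this, List.toFinset_card_of_nodup h.nodup]
      rfl
    have hLu : L.toFinset = Finset.univ := by
      apply Finset.eq_univ_of_card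
      rw [List.toFinset_card_of_nodup hnd, hcardC]
      rfl
    have hall : ∀ v : G, ConjClasses.mk v ∈ L := by
      intro v
      rw [← List.mem_toFinset, hLu]
      exact Finset.mem_univ _
    have hsum : Nat.card G = ∑ c : ConjClasses G, Nat.card {v : G // ConjClasses.mk v = c} := by
      rw [← Nat.card_sigma]
      exact (Nat.card_congr (Equiv.sigmaFiberEquiv (fun v : G => ConjClasses.mk v))).symm
    rw [← hLu, List.sum_toFinset _ hnd, hL, hG] at hsum
    simp only [List.map_cons, List.map_nil, List.sum_cons, List.sum_nil] at hsum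
    have q1 := class_card (1 : G)
    have q2 := class_card t
    have q4 := class_card g
    have q8 := class_card k
    have q8' := class_card k⁻¹
    have q5 := class_card y
    have q11 := class_card x
    have q11' := class_card x⁻¹
    have q3 := class_card z
    have q6 := class_card w
    obtain ⟨-, hCk', -⟩ := h.sd hG hki
    obtain ⟨-, -, -, -, -, -, -, -, hC4, -⟩ := h.ord4 hG hg
    have hcen1 : Nat.card (centralizer ({(1 : G)} : Set G)) = 7920 := by
      have : centralizer ({(1 : G)} : Set G) = ⊤ := by
        rw [eq_top_iff]; intro v _; rw [mem_centralizer_singleton_iff]; simp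
      rw [this, card_top, hG]
    rw [hG] at q1 q2 q4 q8 q8' q5 q11 q11' q3 q6
    rw [hcen1] at q1
    rw [hC2] at q2
    rw [hC4] at q4
    rw [hCk, Nat.card_zpowers, hk] at q8
    rw [hCk', Nat.card_zpowers, hki] at q8'
    rw [hCy] at q5
    rw [hCx] at q11
    rw [(elt11 hG x⁻¹ hxi).1] at q11'
    have d6 : 6 ∣ Nat.card (centralizer ({w} : Set G)) := by
      rw [← hw, ← Nat.card_zpowers]
      apply card_dvd_of_le
      rw [zpowers_le, mem_centralizer_singleton_iff]
    have d48 : Nat.card (centralizer ({w} : Set G)) ∣ 48 := by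
      have hw3 : orderOf (w ^ 3) = 2 := by rw [orderOf_pow, hw]; decide
      rw [← (h.inv hG hw3).2.2.2]
      apply card_dvd_of_le
      intro v hv
      rw [mem_centralizer_singleton_iff] at hv ⊢
      exact Commute.pow_right (show Commute v w from hv) 3
    obtain ⟨c3, c6⟩ := arithC _ _ _ _ _ _ _ _ _ _ _ _ q1 q2 q4 q8 q8' q5 q11 q11' q3 q6 d48 d6 hsum.symm
    rw [c3] at q3
    rw [c6] at q6
    -- the number of elements of order `n`
    intro n
    have hcount : Nat.card {g : G // orderOf g = n} =
        ∑ c : ConjClasses G, Nat.card {v : {g : G // orderOf g = n} // ConjClasses.mk (v : G) = c} := by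
      rw [← Nat.card_sigma]
      exact (Nat.card_congr (Equiv.sigmaFiberEquiv (fun v : {g : G // orderOf g = n} => ConjClasses.mk (v : G)))).symm
    rw [← hLu, List.sum_toFinset _ hnd, hL] at hcount
    simp only [List.map_cons, List.map_nil, List.sum_cons, List.sum_nil] at hcount
    have hfib : ∀ a : G, Nat.card {v : {g : G // orderOf g = n} // ConjClasses.mk (v : G) = ConjClasses.mk a} =
        if orderOf a = n then Nat.card {v : G // ConjClasses.mk v = ConjClasses.mk a} else 0 := by
      intro a
      split_ifs with han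
      · apply Nat.card_congr
        refine ⟨fun v => ⟨v.1.1, v.2⟩, fun v => ⟨⟨v.1, ?_⟩, v.2⟩, fun v => rfl, fun v => rfl⟩
        rw [isConj_order (ConjClasses.mk_eq_mk_iff_isConj.1 v.2), han]
      · have : IsEmpty {v : {g : G // orderOf g = n} // ConjClasses.mk (v : G) = ConjClasses.mk a} := by
          refine ⟨fun v => han ?_⟩
          rw [← isConj_order (ConjClasses.mk_eq_mk_iff_isConj.1 v.2), v.1.2]
        rw [Nat.card_of_isEmpty]
    rw [hfib, hfib, hfib, hfib, hfib, hfib, hfib, hfib, hfib, hfib, orderOf_one, ht, hg, hk, hki, hy, hx, hxi, hz, hw] at hcount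
    generalize Nat.card {v : G // ConjClasses.mk v = ConjClasses.mk 1} = m1 at *
    generalize Nat.card {v : G // ConjClasses.mk v = ConjClasses.mk t} = m2 at *
    generalize Nat.card {v : G // ConjClasses.mk v = ConjClasses.mk g} = m4 at *
    generalize Nat.card {v : G // ConjClasses.mk v = ConjClasses.mk k} = m8 at *
    generalize Nat.card {v : G // ConjClasses.mk v = ConjClasses.mk k⁻¹} = m8' at *
    generalize Nat.card {v : G // ConjClasses.mk v = ConjClasses.mk y} = m5 at *
    generalize Nat.card {v : G // ConjClasses.mk v = ConjClasses.mk x} = m11 at *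
    generalize Nat.card {v : G // ConjClasses.mk v = ConjClasses.mk x⁻¹} = m11' at *
    generalize Nat.card {v : G // ConjClasses.mk v = ConjClasses.mk z} = m3 at *
    generalize Nat.card {v : G // ConjClasses.mk v = ConjClasses.mk w} = m6 at *
    rw [hcount]
    simp only [Finset.mem_insert, Finset.mem_singleton]
    by_cases n1 : n = 1
    · subst n1; norm_num; omega
    by_cases n2 : n = 2
    · subst n2; norm_num; omega
    by_cases n3 : n = 3
    · subst n3; norm_num; omega
    by_cases n4 : n = 4
    · subst n4; norm_num; omega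
    by_cases n5 : n = 5
    · subst n5; norm_num; omega
    by_cases n6 : n = 6
    · subst n6; norm_num; omega
    by_cases n8 : n = 8
    · subst n8; norm_num; omega
    by_cases n11 : n = 11
    · subst n11; norm_num; omega
    left
    simp [Ne.symm n1, Ne.symm n2, Ne.symm n3, Ne.symm n4, Ne.symm n5, Ne.symm n6, Ne.symm n8, Ne.symm n11]
  exact key _ hz0

/-- the numbers of elements of given order in a simple group of order 7920 -/
theorem card_order (hG : Nat.card G = 7920) (n : ℕ) :
    Nat.card {g : G // orderOf g = n} ∈ ({0, 1, 165, 440, 990, 1320, 1440, 1584, 1980} : Finset ℕ) := by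
  obtain ⟨A, B, C, D, X, E, F, H, h⟩ := exists_tab hG
  exact h.classes2 hG n

end Cfsg.Agent.Lib.M11ByOrder
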