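import Cfsg.Agent.Lib.M12DataA

set_option autoImplicit false
set_option linter.all false

/-! The group of order 192 (type A). -/

namespace Cfsg.Agent.Lib.M12A

open Cfsg.Agent.Lib.H10Enum Cfsg.Agent.Lib.M12Tab Cfsg.Agent.Lib.M12DataA

section defs
variable {G : Type*} [Group G]

/-- the relations -/
structure Rel (s a b c d p t : G) : Prop where
  ss : s * s = 1
  aa : a * a = 1
  bb : b * b = 1
  cc : c * c = 1
  dd : d * d = 1
  tt : t * t = 1
  r0 : s * a * s * a = 1
  r1 : s * b * s * b = 1
  r2 : s * c * s * c = 1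
  r3 : s * d * s * d = 1
  r4 : a * b * a * b = 1
  r5 : c * d * c * d = 1
  r6 : a * c * a * c = 1
  r7 : b * d * b * d = 1
  r8 : a * d * a * d * s = 1
  r9 : b * c * b * c * s = 1
  r10 : p * p * p = 1
  r11 : s * p * s * p⁻¹ = 1
  r12 : p * a * p⁻¹ * b = 1
  r13 : p * b * p⁻¹ * b * a = 1
  r14 : p * c * p⁻¹ * d = 1
  r15 : p * d * p⁻¹ * d * c = 1
  r16 : s * t * s * t = 1
  r17 : t * p * t * p = 1
  r18 : a * t * a * t = 1
  r19 : t * b * t * b * a = 1
  r20 : c * t * c * t = 1
  r21 : t * d * t * d * c = 1

/-- the letters -/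
def gl (s a b c d p t : G) : ℕ → G
  | 1 => s
  | 2 => a
  | 3 => b
  | 4 => c
  | 5 => d
  | 6 => p
  | 7 => t
  | _ => 1

theorem tb_lt {n c : ℕ} (hn : n < 256) (h : n.testBit c = true) : c < 8 := by
  by_contra hc8
  rw [Nat.testBit_lt_two_pow (x := n) (i := c)] at h
  · simp at h
  · exact lt_of_lt_of_le (by norm_num; exact hn : n < 2 ^ 8) (Nat.pow_le_pow_right (by norm_num) (by omega))

theorem inv_of_sq {a : G} (h : a * a = 1) : a⁻¹ = a := inv_eq_of_mul_eq_one_left h

namespace Rel
variable {s a b c d p t : G}

theorem hiv (h : Rel s a b c d p t) : ∀ i, (190 : ℕ).testBit i = true →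
    (gl s a b c d p t i)⁻¹ = gl s a b c d p t i := by
  intro i hc
  have hlt := tb_lt (n := 190) (by norm_num) hc
  interval_cases i <;> first | (exfalso; revert hc; decide) | skip
  · exact inv_of_sq h.ss
  · exact inv_of_sq h.aa
  · exact inv_of_sq h.bb
  · exact inv_of_sq h.cc
  · exact inv_of_sq h.dd
  · exact inv_of_sq h.tt

theorem hR (h : Rel s a b c d p t) : ∀ v ∈ R, wval (gl s a b c d p t) v = 1 := by
  unfold R
  simp only [List.forall_mem_cons, List.not_mem_nil, false_implies, implies_true, and_true]
  refine ⟨?_,?_,?_,?_,?_,?_,?_,?_,?_,?_,?_,?_,?_,?_,?_,?_,?_,?_,?_,?_,?_,?_⟩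
  · simpa [wval, val, gl, mul_assoc] using h.r0
  · simpa [wval, val, gl, mul_assoc] using h.r1
  · simpa [wval, val, gl, mul_assoc] using h.r2
  · simpa [wval, val, gl, mul_assoc] using h.r3
  · simpa [wval, val, gl, mul_assoc] using h.r4
  · simpa [wval, val, gl, mul_assoc] using h.r5
  · simpa [wval, val, gl, mul_assoc] using h.r6
  · simpa [wval, val, gl, mul_assoc] using h.r7
  · simpa [wval, val, gl, mul_assoc] using h.r8
  · simpa [wval, val, gl, mul_assoc] using h.r9
  · simpa [wval, val, gl, mul_assoc] using h.r10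
  · simpa [wval, val, gl, mul_assoc] using h.r11
  · simpa [wval, val, gl, mul_assoc] using h.r12
  · simpa [wval, val, gl, mul_assoc] using h.r13
  · simpa [wval, val, gl, mul_assoc] using h.r14
  · simpa [wval, val, gl, mul_assoc] using h.r15
  · simpa [wval, val, gl, mul_assoc] using h.r16
  · simpa [wval, val, gl, mul_assoc] using h.r17
  · simpa [wval, val, gl, mul_assoc] using h.r18
  · simpa [wval, val, gl, mul_assoc] using h.r19
  · simpa [wval, val, gl, mul_assoc] using h.r20
  · simpa [wval, val, gl, mul_assoc] using h.r21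

theorem map {H : Type*} [Group H] (f : G →* H) (h : Rel s a b c d p t) :
    Rel (f s) (f a) (f b) (f c) (f d) (f p) (f t) where
  ss := by simpa using congrArg f h.ss
  aa := by simpa using congrArg f h.aa
  bb := by simpa using congrArg f h.bb
  cc := by simpa using congrArg f h.cc
  dd := by simpa using congrArg f h.dd
  tt := by simpa using congrArg f h.tt
  r0 := by simpa using congrArg f h.r0
  r1 := by simpa using congrArg f h.r1
  r2 := by simpa using congrArg f h.r2
  r3 := by simpa using congrArg f h.r3
  r4 := by simpa using congrArg f h.r4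
  r5 := by simpa using congrArg f h.r5
  r6 := by simpa using congrArg f h.r6
  r7 := by simpa using congrArg f h.r7
  r8 := by simpa using congrArg f h.r8
  r9 := by simpa using congrArg f h.r9
  r10 := by simpa using congrArg f h.r10
  r11 := by simpa using congrArg f h.r11
  r12 := by simpa using congrArg f h.r12
  r13 := by simpa using congrArg f h.r13
  r14 := by simpa using congrArg f h.r14
  r15 := by simpa using congrArg f h.r15
  r16 := by simpa using congrArg f h.r16
  r17 := by simpa using congrArg f h.r17
  r18 := by simpa using congrArg f h.r18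
  r19 := by simpa using congrArg f h.r19
  r20 := by simpa using congrArg f h.r20
  r21 := by simpa using congrArg f h.r21

end Rel

/-- the elements -/
noncomputable def v (s a b c d p t : G) (i : ℕ) : G := pts (X := G) T (gl s a b c d p t) 1 i

namespace Rel
variable {s a b c d p t : G}

theorem v_zero : v s a b c d p t 0 = 1 := pts_zero (X := G) T _ 1

theorem step (h : Rel s a b c d p t) : ∀ i, 1 ≤ i → i < 8 → ∀ j < 192, ent tb i j < 192 ∧
    v s a b c d p t (ent tb i j) = gl s a b c d p t i * v s a b c d p t j := by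
  have hgood := sound (X := G) (x := gl s a b c d p t) (p := (1 : G)) rfl h.hiv h.hR (sub := []) (by simp) ok
  intro i h1 h8
  interval_cases i
  · exact chkL_sound h.hiv hgood 192 cl1
  · exact chkL_sound h.hiv hgood 192 cl2
  · exact chkL_sound h.hiv hgood 192 cl3
  · exact chkL_sound h.hiv hgood 192 cl4
  · exact chkL_sound h.hiv hgood 192 cl5
  · exact chkL_sound h.hiv hgood 192 cl6
  · exact chkL_sound h.hiv hgood 192 cl7

theorem table (h : Rel s a b c d p t) : ∀ i < 192, ∀ j < 192, ent mt i j < 192 ∧
    v s a b c d p t (ent mt i j) = v s a b c d p t i * v s a b c d p t j := by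
  intro i hi
  exact chkM_sound (x := gl s a b c d p t) (v := v s a b c d p t) (by norm_num) v_zero (chkRow0_sound 192 row0) h.step 191
    mtok i (by omega)

theorem v_gen (h : Rel s a b c d p t) : v s a b c d p t 1 = s ∧ v s a b c d p t 2 = a ∧ v s a b c d p t 3 = b ∧
    v s a b c d p t 4 = c ∧ v s a b c d p t 5 = d ∧ v s a b c d p t 6 = p ∧ v s a b c d p t 7 = t := by
  have key : ∀ i, 1 ≤ i → i < 8 → ent tb i 0 = i → v s a b c d p t i = gl s a b c d p t i := by
    intro i h1 h2 h3
    have h4 := (h.step i h1 h2 0 (by norm_num)).2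
    rw [h3, v_zero, mul_one] at h4
    exact h4
  exact ⟨key 1 (by norm_num) (by norm_num) (by decide +kernel), key 2 (by norm_num) (by norm_num) (by decide +kernel),
    key 3 (by norm_num) (by norm_num) (by decide +kernel), key 4 (by norm_num) (by norm_num) (by decide +kernel),
    key 5 (by norm_num) (by norm_num) (by decide +kernel), key 6 (by norm_num) (by norm_num) (by decide +kernel),
    key 7 (by norm_num) (by norm_num) (by decide +kernel)⟩

end Rel

end defs

end Cfsg.Agent.Lib.M12A
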