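import Cfsg.Agent.Lib.MathieuBlock
import Cfsg.Agent.Lib.BlockDefZero
import Cfsg.Prelude.Def_Spor_Mathieu

/-!
# `M22` has a single 2-block (helper83)
-/

set_option autoImplicit false
set_option linter.all false

namespace Cfsg.Agent.Lib.M22Block
open Cfsg Cfsg.Agent.Lib.Golay
open Cfsg.Agent.Lib.GolayFix (Fix mem_Fix Fix_mem_Sup)
open Cfsg.Agent.Lib.MathieuFix Cfsg.Agent.Lib.SingleBlock Cfsg.Agent.Lib.MathieuBlock
open Cfsg.Agent.Lib.DefZeroCount Cfsg.Agent.Lib.SylowOrd
open scoped Pointwise

lemma M22_le : Spor.M22 ≤ M24 := inf_le_left.trans inf_le_left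

lemma mem_M22 {g : Equiv.Perm GolayPt} :
    g ∈ Spor.M22 ↔ g ∈ M24 ∧ g none = none ∧ g (some 0) = some 0 := by
  rw [Spor.M22, Spor.M23, Subgroup.mem_inf, Subgroup.mem_inf, MulAction.mem_stabilizer_iff,
    MulAction.mem_stabilizer_iff, and_assoc]
  rfl

lemma card_M22 : Nat.card Spor.M22 = 443520 := by
  have h1 := card_stab_two (p := (none : GolayPt)) (q := (some 0 : GolayPt)) (by decide)
  have h2 : (MulAction.stabilizer M24 (none : GolayPt) ⊓ MulAction.stabilizer M24 (some 0 : GolayPt)).map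
      M24.subtype = Spor.M22 := by
    ext g
    rw [mem_M22]
    constructor
    · rintro ⟨k, hk, rfl⟩
      exact ⟨k.2, hk.1, hk.2⟩
    · rintro ⟨hg, h3, h4⟩
      exact ⟨⟨g, hg⟩, ⟨h3, h4⟩, rfl⟩
  rw [← h2, Subgroup.card_map_of_injective M24.subtype_injective, h1]

lemma card_Fix_prime {g : Equiv.Perm GolayPt} (hg : g ∈ M24) {q : ℕ} [Fact q.Prime] (hq : orderOf g = q) :
    (Fix g).card ≤ 8 ∧ 24 % q = (Fix g).card % q := by
  constructor
  · apply card_Fix_le hg
    rintro rfl
    rw [orderOf_one] at hq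
    exact (Fact.out : q.Prime).one_lt.ne hq
  · exact GolayFix.univ_card_modEq (by rw [← hq, pow_orderOf_eq_one])

/-- every involution of `M22` is good -/
lemma good (u : Spor.M22) (hu : orderOf u = 2) : ∃ Q, Good 2 u Q := by
  have hum := mem_M22.1 u.2
  have h2 : (u : Equiv.Perm GolayPt) ^ 2 = 1 := by
    have : u ^ 2 = 1 := by rw [← hu, pow_orderOf_eq_one]
    exact congrArg Subtype.val this
  have h1 : (u : Equiv.Perm GolayPt) ≠ 1 := by
    intro h
    have : u = 1 := Subtype.ext h
    rw [this, orderOf_one] at hu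
    exact absurd hu (by norm_num)
  have ho := fix_involution hum.1 h2 h1 hum.2.1
  refine ⟨_, good_of_octad M22_le hu ho rfl ?_⟩
  intro g hg
  rw [mem_M22]
  rw [mem_OctPt] at hg
  exact ⟨hg.1, hg.2 _ (mem_Fix.2 hum.2.1), hg.2 _ (mem_Fix.2 hum.2.2)⟩

noncomputable instance : Fintype Spor.M22 := Fintype.ofFinite _

lemma fact_M22 {q : ℕ} (hq : q.Prime) {k n : ℕ} (h : 443520 = q ^ k * n) (hn : ¬ q ∣ n) :
    (Nat.card Spor.M22).factorization q = k := by
  rw [card_M22, h, Nat.factorization_mul (pow_ne_zero _ hq.ne_zero) (by rintro rfl; simp at hn),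
    Nat.factorization_pow]
  simp [hq.factorization_self, Nat.factorization_eq_zero_of_not_dvd hn]

def F0 : Finset GolayPt := {none, some 0}

lemma card_F0 : F0.card = 2 := by decide

lemma F0_fix : ∀ g ∈ Spor.M22, ∀ p ∈ F0, g p = p := by
  intro g hg p hp
  rw [mem_M22] at hg
  simp only [F0, Finset.mem_insert, Finset.mem_singleton] at hp
  rcases hp with rfl | rfl
  · exact hg.2.1
  · exact hg.2.2

lemma exists_order {q : ℕ} [hq : Fact q.Prime] (hd : q ∣ 443520) : ∃ x : Spor.M22, orderOf x = q := by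
  apply exists_prime_orderOf_dvd_card'
  rw [card_M22]; exact hd

lemma card_centralizer_five {x : Spor.M22} (hx : orderOf x = 5) :
    Nat.card (Subgroup.centralizer ({x} : Set Spor.M22)) ∣ 20 := by
  classical
  haveI : Fact (Nat.Prime 5) := ⟨by norm_num⟩
  set C : Subgroup (Equiv.Perm GolayPt) := (Subgroup.centralizer ({x} : Set Spor.M22)).map Spor.M22.subtype with hC
  have hcard : Nat.card C = Nat.card (Subgroup.centralizer ({x} : Set Spor.M22)) :=
    Subgroup.card_map_of_injective Spor.M22.subtype_injective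
  have hxq : (x : Equiv.Perm GolayPt) ^ 5 = 1 := by
    have : x ^ 5 = 1 := by rw [← hx, pow_orderOf_eq_one]
    exact congrArg Subtype.val this
  have hox : orderOf (x : Equiv.Perm GolayPt) = 5 := by rw [Subgroup.orderOf_coe]; exact hx
  have hfx := card_Fix_prime (M22_le x.2) hox
  have hF4 : (Fix (x : Equiv.Perm GolayPt)).card = 4 := by omega
  have hcomm : ∀ g ∈ C, g * (x : Equiv.Perm GolayPt) = x * g := by
    rintro _ ⟨g, hg, rfl⟩
    exact congrArg Subtype.val (Subgroup.mem_centralizer_singleton_iff.1 hg)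
  have hCK : ∀ g ∈ C, g ∈ Spor.M22 := by
    rintro _ ⟨g, hg, rfl⟩
    exact g.2
  have hT : ((Fix (x : Equiv.Perm GolayPt))ᶜ).card = 20 := by
    rw [Finset.card_compl, card_pt, hF4]
  rw [← hcard, ← hT]
  apply card_dvd_of_free
  · intro g hg y hy
    rw [Finset.mem_compl] at hy ⊢
    intro h
    apply hy
    rw [← smul_Fix_of_commute (hcomm g hg), smul_mem_smul] at h
    exact h
  · intro g hg y hy hgy
    rw [Finset.mem_compl, mem_Fix] at hy
    by_contra hg1
    have hgM := M22_le (hCK g hg)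
    have h1 := orb_subset_Fix (q := 5) (hcomm g hg) hgy
    have h2 : F0 ⊆ Fix g := fun p hp => mem_Fix.2 (F0_fix g (hCK g hg) p hp)
    have h3 : Disjoint (orb (x : Equiv.Perm GolayPt) 5 y) F0 := by
      apply (orb_disjoint_Fix (by norm_num) hxq hy).mono_right
      exact fun p hp => mem_Fix.2 (F0_fix x x.2 p hp)
    have h4 := Finset.card_le_card (Finset.union_subset h1 h2)
    rw [Finset.card_union_of_disjoint h3, card_orb (by norm_num) hxq hy, card_F0] at h4
    have h8 : (Fix g).card = 8 := by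
      rcases fix_cases hgM hg1 (by omega) with h | h
      · exact h.2
      · omega
    -- `x` acts on `Fix g`
    have h5 := GolayFix.card_modEq hxq (Fix g) (fun p hp => Fix_of_commute (hcomm g hg).symm hp)
    have h6 : (Fix g ∩ Fix (x : Equiv.Perm GolayPt)).card ≤ 4 := by
      rw [← hF4]; exact Finset.card_le_card Finset.inter_subset_right
    have h7 : (Fix g ∩ Fix (x : Equiv.Perm GolayPt)).card = 3 := by
      rw [h8] at h5
      have : 8 % 5 = (Fix g ∩ Fix (x : Equiv.Perm GolayPt)).card % 5 := h5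
      omega
    -- `g` acts on `Fix x` with exactly three fixed points: impossible
    have h9 : (Fix (x : Equiv.Perm GolayPt) \ Fix g).card = 1 := by
      have := Finset.card_sdiff_add_card_inter (Fix (x : Equiv.Perm GolayPt)) (Fix g)
      rw [Finset.inter_comm, h7, hF4] at this
      omega
    obtain ⟨p, hp⟩ := Finset.card_eq_one.1 h9
    have hpm : p ∈ Fix (x : Equiv.Perm GolayPt) \ Fix g := by rw [hp]; exact Finset.mem_singleton_self p
    rw [Finset.mem_sdiff] at hpm
    have hgp : g p ∈ Fix (x : Equiv.Perm GolayPt) \ Fix g := by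
      rw [Finset.mem_sdiff]
      refine ⟨Fix_of_commute (hcomm g hg) hpm.1, ?_⟩
      intro h
      apply hpm.2
      rw [mem_Fix] at h ⊢
      exact g.injective h
    rw [hp, Finset.mem_singleton] at hgp
    exact hpm.2 (mem_Fix.2 hgp)

/-- Sylow numbers -/
lemma card_syl_aux {q : ℕ} [hq : Fact q.Prime] {t N : ℕ} (ht : t ≠ 0) (hd : q ∣ 443520)
    (hfact : (Nat.card Spor.M22).factorization q = 1)
    (hcent : ∀ x : Spor.M22, orderOf x = q →
      Nat.card (Subgroup.centralizer ({x} : Set Spor.M22)) ∣ q * t)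
    (hnum : ∀ c ∈ t.divisors, ∀ d ∈ (q - 1).divisors, ∀ n, n * (q * c * d) = 443520 →
      n % q = 1 % q → n = N) :
    (ordSet Spor.M22 q).card = (q - 1) * N := by
  obtain ⟨x, hx⟩ := exists_order hd
  obtain ⟨c, d, h1, h2, h3, h4⟩ := sylow_count hfact hx
  have hc : c ∣ t := by
    have := hcent x hx
    rw [h1] at this
    exact Nat.dvd_of_mul_dvd_mul_left hq.out.pos this
  rw [card_M22] at h3
  rw [card_ordSet hfact]
  congr 1
  have hq0 := hq.out.two_le
  exact hnum c (Nat.mem_divisors.2 ⟨hc, ht⟩) d (Nat.mem_divisors.2 ⟨h2, by omega⟩) _ h3 h4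

lemma card_ord_five : (ordSet Spor.M22 5).card = 88704 := by
  haveI : Fact (Nat.Prime 5) := ⟨by norm_num⟩
  have h := card_syl_aux (q := 5) (t := 4) (N := 22176) (by norm_num) (by norm_num)
    (fact_M22 (by norm_num) (k := 1) (n := 88704) (by norm_num) (by norm_num))
    (fun x hx => card_centralizer_five hx) (by
      intro c hc d hd n h1 h2
      have e1 : Nat.divisors 4 = {1, 2, 4} := by decide
      have e2 : Nat.divisors (5 - 1) = {1, 2, 4} := by decide
      rw [e1] at hc
      rw [e2] at hd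
      simp only [Finset.mem_insert, Finset.mem_singleton] at hc hd
      rcases hc with rfl | rfl | rfl <;> rcases hd with rfl | rfl | rfl <;> omega)
  rw [h]

lemma card_ord_seven : (ordSet Spor.M22 7).card = 126720 := by
  haveI : Fact (Nat.Prime 7) := ⟨by norm_num⟩
  have h := card_syl_aux (q := 7) (t := 3) (N := 21120) (by norm_num) (by norm_num)
    (fact_M22 (by norm_num) (k := 1) (n := 63360) (by norm_num) (by norm_num))
    (fun x hx => by
      have h1 := card_centralizer_dvd M22_le (by norm_num) hx F0 F0_fix (by rw [card_F0])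
      have h2 := card_Fix_prime (M22_le x.2) (q := 7) (by rw [Subgroup.orderOf_coe]; exact hx)
      have h3 : (Fix (x : Equiv.Perm GolayPt)).card = 3 := by omega
      rw [h3] at h1
      exact h1) (by
      intro c hc d hd n h1 h2
      have e1 : Nat.divisors 3 = {1, 3} := by decide
      have e2 : Nat.divisors (7 - 1) = {1, 2, 3, 6} := by decide
      rw [e1] at hc
      rw [e2] at hd
      simp only [Finset.mem_insert, Finset.mem_singleton] at hc hd
      rcases hc with rfl | rfl <;> rcases hd with rfl | rfl | rfl | rfl <;> omega)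
  rw [h]

lemma card_ord_eleven : (ordSet Spor.M22 11).card = 80640 := by
  haveI : Fact (Nat.Prime 11) := ⟨by norm_num⟩
  have h := card_syl_aux (q := 11) (t := 2) (N := 8064) (by norm_num) (by norm_num)
    (fact_M22 (by norm_num) (k := 1) (n := 40320) (by norm_num) (by norm_num))
    (fun x hx => by
      have h1 := card_centralizer_dvd M22_le (by norm_num) hx F0 F0_fix (by rw [card_F0]; norm_num)
      have h2 := card_Fix_prime (M22_le x.2) (q := 11) (by rw [Subgroup.orderOf_coe]; exact hx)
      have h3 : (Fix (x : Equiv.Perm GolayPt)).card = 2 := by omega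
      rw [h3] at h1
      exact h1) (by
      intro c hc d hd n h1 h2
      have e1 : Nat.divisors 2 = {1, 2} := by decide
      have e2 : Nat.divisors (11 - 1) = {1, 2, 5, 10} := by decide
      rw [e1] at hc
      rw [e2] at hd
      simp only [Finset.mem_insert, Finset.mem_singleton] at hc hd
      rcases hc with rfl | rfl <;> rcases hd with rfl | rfl | rfl | rfl <;> omega)
  rw [h]

/-- `M22` has no character of 2-defect zero -/
theorem no_defect_zero (χ : IrrCharacter Spor.M22) :
    ¬ (Nat.card Spor.M22).factorization 2 ≤ (charDegree (χ : Spor.M22 → ℂ)).factorization 2 := by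
  classical
  intro hle
  have hf2 := fact_M22 (q := 2) (k := 7) (n := 3465) (by norm_num) (by norm_num) (by norm_num)
  set f : Spor.M22 → ℂ := (χ : Spor.M22 → ℂ) with hf
  have hχ : IsIrrCharacter Spor.M22 f := χ.2
  set a := charDegree f with ha
  have ha1 : f 1 = a := (DefectZero.charDegree_eq hχ.isCharacter).symm
  have hapos : 0 < a := DefectZero.charDegree_pos hχ
  have h128 : 2 ^ 7 ∣ a := by
    rw [hf2] at hle
    exact (Nat.prime_two.pow_dvd_iff_le_factorization hapos.ne').2 hle
  have hdvd : a ∣ 443520 := by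
    rw [← card_M22]; exact DefectZero.charDegree_dvd hχ
  have hnorm := sum_norm_sq hχ
  rw [card_M22] at hnorm
  -- the subset
  have hd : ∀ {q r : ℕ}, q ≠ r → Disjoint (ordSet Spor.M22 q) (ordSet Spor.M22 r) := by
    intro q r hqr
    rw [Finset.disjoint_left]
    intro g hg hg'
    rw [mem_ordSet] at hg hg'
    exact hqr (hg.symm.trans hg')
  set U : Finset Spor.M22 := ((ordSet Spor.M22 1 ∪ ordSet Spor.M22 5) ∪ ordSet Spor.M22 7) ∪ ordSet Spor.M22 11 with hU
  have hUsum : ∀ F : Spor.M22 → ℝ, ∑ g ∈ U, F g = F 1 + ∑ g ∈ ordSet Spor.M22 5, F g +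
      ∑ g ∈ ordSet Spor.M22 7, F g + ∑ g ∈ ordSet Spor.M22 11, F g := by
    intro F
    have h1 : ordSet Spor.M22 1 = {1} := by
      ext g
      rw [mem_ordSet, Finset.mem_singleton, orderOf_eq_one_iff]
    rw [hU, Finset.sum_union, Finset.sum_union, Finset.sum_union (hd (by norm_num)), h1,
      Finset.sum_singleton]
    · rw [Finset.disjoint_union_left]; exact ⟨hd (by norm_num), hd (by norm_num)⟩
    · rw [Finset.disjoint_union_left, Finset.disjoint_union_left]
      exact ⟨⟨hd (by norm_num), hd (by norm_num)⟩, hd (by norm_num)⟩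
  have hUle : ∑ g ∈ U, ‖f g‖ ^ 2 ≤ ∑ g, ‖f g‖ ^ 2 :=
    Finset.sum_le_sum_of_subset_of_nonneg (Finset.subset_univ _) (fun _ _ _ => by positivity)
  have hU1 := hUsum (fun g => ‖f g‖ ^ 2)
  have hf1 : ‖f 1‖ ^ 2 = (a : ℝ) ^ 2 := by rw [ha1]; simp
  simp only [hf1] at hU1
  rw [hU1] at hUle
  set S5 := ∑ g ∈ ordSet Spor.M22 5, ‖f g‖ ^ 2 with hS5
  set S7 := ∑ g ∈ ordSet Spor.M22 7, ‖f g‖ ^ 2 with hS7
  set S11 := ∑ g ∈ ordSet Spor.M22 11, ‖f g‖ ^ 2 with hS11
  rw [hnorm] at hUle
  have hS5' : 0 ≤ S5 := Finset.sum_nonneg fun _ _ => by positivity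
  have hS7' : 0 ≤ S7 := Finset.sum_nonneg fun _ _ => by positivity
  have hS11' : 0 ≤ S11 := Finset.sum_nonneg fun _ _ => by positivity
  have h5 := fun k r hk => sum_order_ge (q := 5) (k := k) (r := r) hχ.isCharacter (by norm_num) ha1 hk
  have h7 := fun k r hk => sum_order_ge (q := 7) (k := k) (r := r) hχ.isCharacter (by norm_num) ha1 hk
  have h11 := fun k r hk => sum_order_ge (q := 11) (k := k) (r := r) hχ.isCharacter (by norm_num) ha1 hk
  rw [card_ord_five] at h5
  rw [card_ord_seven] at h7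
  rw [card_ord_eleven] at h11
  -- possible degrees
  obtain ⟨m, hm⟩ := h128
  have hm0 : 0 < m := by
    rcases Nat.eq_zero_or_pos m with h | h
    · rw [h] at hm; omega
    · exact h
  have hmle : m ≤ 5 := by
    by_contra hn
    push Not at hn
    have : (768 : ℝ) ≤ a := by
      have : 768 ≤ a := by rw [hm]; omega
      exact_mod_cast this
    have h3 : (768 : ℝ) ^ 2 ≤ (a : ℝ) ^ 2 := by gcongr
    push_cast at hUle
    linarith
  have hmd : m ∣ 3465 := by
    rw [hm] at hdvd
    have : 2 ^ 7 * m ∣ 2 ^ 7 * 3465 := by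
      have e : 2 ^ 7 * 3465 = 443520 := by norm_num
      rw [e]; exact hdvd
    exact Nat.dvd_of_mul_dvd_mul_left (by norm_num) this
  interval_cases m
  · -- a = 128
    have ha' : (a : ℝ) = 128 := by rw [hm]; norm_num
    have e7 := h7 18 2 (by rw [hm]; norm_num)
    have e11 := h11 11 7 (by rw [hm]; norm_num)
    rw [ha'] at hUle
    norm_num at e7 e11 hUle
    linarith
  · norm_num at hmd
  · -- a = 384
    have ha' : (a : ℝ) = 384 := by rw [hm]; norm_num
    have e5 := h5 76 4 (by rw [hm]; norm_num)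
    have e7 := h7 54 6 (by rw [hm]; norm_num)
    have e11 := h11 34 10 (by rw [hm]; norm_num)
    rw [ha'] at hUle hU1
    norm_num at e5 e7 e11 hUle
    -- equality: everything outside `U` vanishes
    have hrest : ∑ g ∈ Uᶜ, ‖f g‖ ^ 2 = 0 := by
      have h1 := Finset.sum_add_sum_compl U (fun g => ‖f g‖ ^ 2)
      rw [hnorm, hU1] at h1
      have h2 : 0 ≤ ∑ g ∈ Uᶜ, ‖f g‖ ^ 2 := Finset.sum_nonneg fun _ _ => by positivity
      norm_num at h1
      linarith
    have hvan : ∀ g, g ∉ U → f g = 0 := by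
      intro g hg
      have h1 := (Finset.sum_eq_zero_iff_of_nonneg (fun _ _ => by positivity)).1 hrest g
        (Finset.mem_compl.2 hg)
      have h2 : ‖f g‖ = 0 := by
        rwa [pow_eq_zero_iff (by norm_num)] at h1
      exact norm_eq_zero.1 h2
    haveI : Fact (Nat.Prime 3) := ⟨by norm_num⟩
    obtain ⟨P⟩ : Nonempty (Sylow 3 Spor.M22) := inferInstance
    have hP9 : Nat.card P = 9 := by
      rw [P.card_eq_multiplicity, fact_M22 (q := 3) (k := 2) (n := 49280) (by norm_num) (by norm_num)
        (by norm_num)]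
      norm_num
    have h9 := BlockDefZero.card_dvd_of_vanish hχ.isCharacter (P : Subgroup Spor.M22) (by
      intro u hu hu1
      apply hvan
      intro huU
      obtain ⟨k, hk⟩ := (IsPGroup.iff_orderOf.1 P.isPGroup') ⟨u, hu⟩
      rw [Subgroup.orderOf_mk] at hk
      have hk0 : k ≠ 0 := by
        rintro rfl
        rw [pow_zero, orderOf_eq_one_iff] at hk
        exact hu1 hk
      have h3 : 3 ∣ orderOf u := by rw [hk]; exact dvd_pow_self 3 hk0
      simp only [hU, Finset.mem_union, mem_ordSet] at huU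
      rcases huU with ((h | h) | h) | h <;> · rw [h] at h3; norm_num at h3)
    rw [show Nat.card (P : Subgroup Spor.M22) = 9 from hP9, ← ha, hm] at h9
    norm_num at h9
  · norm_num at hmd
  · -- a = 640
    have ha' : (a : ℝ) = 640 := by rw [hm]; norm_num
    have e7 := h7 91 3 (by rw [hm]; norm_num)
    rw [ha'] at hUle
    norm_num at e7 hUle
    linarith

theorem m22_single {M : Ideal AlgInt} (hM : IsPModular 2 M) (χ ψ : IrrCharacter Spor.M22) :
    SameBlock M (χ : Spor.M22 → ℂ) (ψ : Spor.M22 → ℂ) :=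
  single_block hM good no_defect_zero χ ψ

end Cfsg.Agent.Lib.M22Block
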