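import Cfsg.Agent.Lib.M23Ree

/-!
Nonexistence of generating triples in `M23` (helper43).
-/

set_option autoImplicit false

namespace Cfsg.Agent.Lib.M23Tri

open Module LinearMap Cfsg Cfsg.Agent.Lib.Golay Cfsg.Agent.Lib.PSL23 Cfsg.Agent.Lib.GolayFix Cfsg.Agent.Lib.MathieuFix

/-- rank of `1 - g` -/
noncomputable abbrev rk (g : Equiv.Perm GolayPt) : ℕ := finrank ℚ (range (dd (R g)))

theorem ree23 (x y z : Equiv.Perm GolayPt) (hxyz : x * y * z = 1) (hgen : Subgroup.closure {x, y} = M23P) :
    44 ≤ rk x + rk y + rk z := by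
  have hsc := scott (R z) (R y) (R x) (by
    intro f
    funext a
    show f ((x * y * z) a) = f a
    rw [hxyz]; rfl)
  set S : Submodule ℚ (GolayPt → ℚ) := range (dd (R z)) ⊔ range (dd (R y)) ⊔ range (dd (R x)) with hS
  have hSx : ∀ f, dd (R x) f ∈ S := fun f => Submodule.mem_sup_right ⟨f, rfl⟩
  have hSy : ∀ f, dd (R y) f ∈ S := fun f => Submodule.mem_sup_left (Submodule.mem_sup_right ⟨f, rfl⟩)
  have hcl : ∀ g ∈ Subgroup.closure {x, y}, ∀ f, dd (R g) f ∈ S := by
    intro g hg
    induction hg using Subgroup.closure_induction with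
    | mem g hg =>
      rcases hg with rfl | hg
      · exact hSx
      · rw [Set.mem_singleton_iff.1 hg]; exact hSy
    | one =>
      intro f
      have : dd (R (1 : Equiv.Perm GolayPt)) f = 0 := by
        funext a
        show f a - f a = 0
        rw [sub_self]
      rw [this]; exact S.zero_mem
    | mul g h _ _ hg hh =>
      intro f
      have : dd (R (g * h)) f = dd (R g) f + dd (R h) (R g f) := by
        funext a
        show f a - f (g (h a)) = (f a - f (g a)) + (f (g a) - f (g (h a)))
        ring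
      rw [this]; exact S.add_mem (hg f) (hh _)
    | inv g _ hg =>
      intro f
      have : dd (R g⁻¹) f = -(dd (R g) (R g⁻¹ f)) := by
        funext a
        show f a - f (g⁻¹ a) = -(f (g⁻¹ a) - f (g⁻¹ (g a)))
        rw [show g⁻¹ (g a) = a from g.symm_apply_apply a]; ring
      rw [this]; exact S.neg_mem (hg _)
  rw [hgen] at hcl
  have hA : ∀ a : ZMod 23, A a ∈ M23P := fun a => Fg_le (A_mem a)
  have hcard : finrank ℚ (GolayPt → ℚ) = 24 := by
    rw [Module.finrank_fintype_fun_eq_card]; rfl
  -- the lower bound for `S`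
  let T : Submodule ℚ (GolayPt → ℚ) := Submodule.span ℚ (({Pi.single none 1, Pi.single (some 0) 1} : Finset (GolayPt → ℚ)) : Set (GolayPt → ℚ))
  have hT1 : (Pi.single (none : GolayPt) (1 : ℚ)) ∈ T := Submodule.subset_span (by simp)
  have hT2 : (Pi.single (some 0 : GolayPt) (1 : ℚ)) ∈ T := Submodule.subset_span (by simp)
  have hST : S ⊔ T = ⊤ := by
    rw [eq_top_iff]
    intro f _
    have hf : f = ∑ a : GolayPt, f a • (Pi.single a (1 : ℚ) : GolayPt → ℚ) := by
      funext b
      simp [Finset.sum_apply, Pi.single_apply]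
    rw [hf]
    apply Submodule.sum_mem
    intro a _
    apply Submodule.smul_mem
    rcases a with _ | a
    · exact Submodule.mem_sup_right hT1
    · have h1 := hcl (A a) (hA a) (Pi.single (some a : GolayPt) (1 : ℚ))
      have h2 : (Pi.single (some a : GolayPt) (1 : ℚ) : GolayPt → ℚ) = dd (R (A a)) (Pi.single (some a : GolayPt) (1 : ℚ)) + Pi.single (some 0 : GolayPt) (1 : ℚ) := by
        funext b
        show (Pi.single (some a : GolayPt) (1 : ℚ) : GolayPt → ℚ) b = (Pi.single (some a : GolayPt) (1 : ℚ) : GolayPt → ℚ) b - (Pi.single (some a : GolayPt) (1 : ℚ) : GolayPt → ℚ) (A a b) + (Pi.single (some 0 : GolayPt) (1 : ℚ) : GolayPt → ℚ) b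
        have h3 : (Pi.single (some a : GolayPt) (1 : ℚ) : GolayPt → ℚ) (A a b) = (Pi.single (some 0 : GolayPt) (1 : ℚ) : GolayPt → ℚ) b := by
          rw [Pi.single_apply, Pi.single_apply]
          congr 1
          have e : (A a) (some 0) = some a := by rw [A_some, zero_add]
          rw [← e, (A a).injective.eq_iff]
        rw [h3]; ring
      rw [h2]
      exact Submodule.add_mem _ (Submodule.mem_sup_left h1) (Submodule.mem_sup_right hT2)
  have hTr : finrank ℚ T ≤ 2 := by
    refine (finrank_span_finset_le_card _).trans ?_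
    exact Finset.card_le_two
  have hSr : 22 ≤ finrank ℚ S := by
    have h1 := Submodule.finrank_add_le_finrank_add_finrank S T
    rw [hST, finrank_top, hcard] at h1
    omega
  -- the common kernel
  let N : Submodule ℚ (GolayPt → ℚ) := ker (dd (R z)) ⊓ ker (dd (R y)) ⊓ ker (dd (R x))
  have hN : ∀ f ∈ N, ∀ a : ZMod 23, f (some a) = f (some 0) := by
    intro f hf a
    have hx : ∀ b, f (x b) = f b := by
      intro b
      have h1 : dd (R x) f = 0 := (Submodule.mem_inf.1 hf).2
      have h2 : f b - f (x b) = 0 := congrFun h1 b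
      linarith
    have hy : ∀ b, f (y b) = f b := by
      intro b
      have h1 : dd (R y) f = 0 := (Submodule.mem_inf.1 (Submodule.mem_inf.1 hf).1).2
      have h2 : f b - f (y b) = 0 := congrFun h1 b
      linarith
    have h3 : ∀ g ∈ Subgroup.closure {x, y}, ∀ b, f (g b) = f b := by
      intro g hg
      induction hg using Subgroup.closure_induction with
      | mem g hg =>
        rcases hg with rfl | hg
        · exact hx
        · rw [Set.mem_singleton_iff.1 hg]; exact hy
      | one => intro b; rfl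
      | mul g h _ _ hg hh => intro b; rw [Equiv.Perm.mul_apply, hg, hh]
      | inv g _ hg =>
        intro b
        rw [← hg (g⁻¹ b), show g (g⁻¹ b) = b from g.apply_symm_apply b]
    rw [hgen] at h3
    have h4 := h3 (A a) (hA a) (some 0)
    rw [A_some, zero_add] at h4
    exact h4
  have hNr : finrank ℚ N ≤ 2 := by
    let φ : N →ₗ[ℚ] ℚ × ℚ := LinearMap.prod ((LinearMap.proj (none : GolayPt)).comp N.subtype) ((LinearMap.proj (some 0 : GolayPt)).comp N.subtype)
    have hφ : Function.Injective φ := by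
      rw [← LinearMap.ker_eq_bot, eq_bot_iff]
      intro f hf
      rw [LinearMap.mem_ker] at hf
      have h1 : (f : GolayPt → ℚ) none = 0 := congrArg Prod.fst hf
      have h2 : (f : GolayPt → ℚ) (some 0) = 0 := congrArg Prod.snd hf
      rw [Submodule.mem_bot]
      apply Subtype.ext
      funext b
      rcases b with _ | b
      · exact h1
      · rw [hN _ f.2 b, h2]; rfl
    have := LinearMap.finrank_le_finrank_of_injective hφ
    rw [Module.finrank_prod, Module.finrank_self] at this
    exact this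
  rw [hcard] at hsc
  have h1 : finrank ℚ (ker (dd (R z)) ⊓ ker (dd (R y)) ⊓ ker (dd (R x)) : Submodule ℚ (GolayPt → ℚ)) ≤ 2 := hNr
  show 44 ≤ finrank ℚ (range (dd (R x))) + finrank ℚ (range (dd (R y))) + finrank ℚ (range (dd (R z)))
  omega

lemma rk_gen {g : Equiv.Perm GolayPt} (hg : g none = none) : rk g ≤ 22 := by
  have h0 : 0 < orderOf g := orderOf_pos g
  have h := rank_le g (orderOf g) 1 rfl h0 (by
    apply Finset.card_pos.2
    exact ⟨none, by simp [hg]⟩)
  have hc : Fintype.card GolayPt = 24 := rfl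
  rw [hc] at h
  obtain ⟨m, hm⟩ : ∃ m, orderOf g = m + 1 := ⟨orderOf g - 1, by omega⟩
  rw [hm] at h
  simp only [Nat.add_sub_cancel] at h
  by_contra hcon
  push Not at hcon
  have h2 : (m + 1) * 23 ≤ (m + 1) * rk g := Nat.mul_le_mul_left _ hcon
  have h3 : (m + 1) * rk g + m * 1 ≤ m * 24 := h
  omega

lemma fix_eq (g : Equiv.Perm GolayPt) : (Finset.univ.filter fun a => g a = a) = Fix g := rfl

lemma rk_prime {g : Equiv.Perm GolayPt} {n f : ℕ} (hn : orderOf g = n) (hn0 : 0 < n) (hf : f ≤ (Fix g).card) :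
    n * rk g + (n - 1) * f ≤ (n - 1) * 24 := by
  have h := rank_le g n f hn hn0 (by rw [fix_eq]; exact hf)
  have hc : Fintype.card GolayPt = 24 := rfl
  rw [hc] at h
  exact h

lemma rk_two {g : Equiv.Perm GolayPt} (hg : g ∈ M23P) (h : orderOf g = 2) : rk g ≤ 8 := by
  rcases fix_two hg.1 h with ⟨_, h1⟩ | ⟨_, h1⟩
  · have := rk_prime (f := 8) h (by norm_num) (by rw [← fix_eq, h1])
    omega
  · exfalso
    have : none ∈ (Finset.univ.filter fun p => g p = p) := by
      rw [Finset.mem_filter]; exact ⟨Finset.mem_univ _, hg.2⟩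
    rw [Finset.card_eq_zero.1 h1] at this
    simp at this

lemma rk_three {g : Equiv.Perm GolayPt} (hg : g ∈ M23P) (h : orderOf g = 3) : rk g ≤ 12 := by
  rcases fix_three hg.1 h with ⟨_, h1⟩ | ⟨_, h1⟩
  · have := rk_prime (f := 6) h (by norm_num) (by rw [← fix_eq, h1])
    omega
  · exfalso
    have : none ∈ (Finset.univ.filter fun p => g p = p) := by
      rw [Finset.mem_filter]; exact ⟨Finset.mem_univ _, hg.2⟩
    rw [Finset.card_eq_zero.1 h1] at this
    simp at this

lemma rk_five {g : Equiv.Perm GolayPt} (hg : g ∈ M23P) (h : orderOf g = 5) : rk g ≤ 16 := by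
  have : Fact (Nat.Prime 5) := ⟨by norm_num⟩
  have h1 := univ_card_modEq (p := 5) (g := g) (by rw [← h]; exact pow_orderOf_eq_one g)
  have h2 : 24 % 5 = (Fix g).card % 5 := h1
  have := rk_prime (f := 4) h (by norm_num) (by omega)
  omega

lemma rk_seven {g : Equiv.Perm GolayPt} (hg : g ∈ M23P) (h : orderOf g = 7) : rk g ≤ 18 := by
  have : Fact (Nat.Prime 7) := ⟨by norm_num⟩
  have h1 := univ_card_modEq (p := 7) (g := g) (by rw [← h]; exact pow_orderOf_eq_one g)
  have h2 : 24 % 7 = (Fix g).card % 7 := h1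
  have := rk_prime (f := 3) h (by norm_num) (by omega)
  omega

/-- the excluded triples -/
theorem no_triple (x y z : Equiv.Perm GolayPt) (hx : x ∈ M23P) (hy : y ∈ M23P) (hxyz : x * y * z = 1)
    (hgen : Subgroup.closure {x, y} = M23P) (p q r : ℕ) (hp : orderOf x = p) (hq : orderOf y = q) (hr : orderOf z = r)
    (hpr : r = 2 ∨ r = 3 ∨ r = 5 ∨ r = 7 ∨ r = 11 ∨ r = 23) (hqr : q ≤ r) :
    ¬ ((p = 2 ∧ q = 3) ∨ (p = 2 ∧ q = 5 ∧ r = 5) ∨ (p = 2 ∧ q = 5 ∧ r = 7) ∨ (p = 3 ∧ q = 3 ∧ r ≤ 7)) := by
  intro h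
  have h44 := ree23 x y z hxyz hgen
  have hz : z ∈ M23P := by
    have : z = (x * y)⁻¹ := (inv_eq_of_mul_eq_one_right hxyz).symm
    rw [this]
    exact M23P.inv_mem (M23P.mul_mem hx hy)
  have hzn : z none = none := hz.2
  have h22 := rk_gen hzn
  rcases h with ⟨rfl, rfl⟩ | ⟨rfl, rfl, rfl⟩ | ⟨rfl, rfl, rfl⟩ | ⟨rfl, rfl, hr7⟩
  · have h1 := rk_two hx hp
    have h2 := rk_three hy hq
    omega
  · have h1 := rk_two hx hp
    have h2 := rk_five hy hq
    have h3 := rk_five hz hr
    omega
  · have h1 := rk_two hx hp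
    have h2 := rk_five hy hq
    have h3 := rk_seven hz hr
    omega
  · have h1 := rk_three hx hp
    have h2 := rk_three hy hq
    rcases hpr with rfl | rfl | rfl | rfl | rfl | rfl
    · omega
    · have h3 := rk_three hz hr
      omega
    · have h3 := rk_five hz hr
      omega
    · have h3 := rk_seven hz hr
      omega
    · omega
    · omega

end Cfsg.Agent.Lib.M23Tri
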