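import Cfsg.Agent.Lib.M23Data
import Cfsg.Agent.Lib.M23Ree2

/-!
Soundness of the certificates for generating triples in `M23` (helper43).
-/

set_option autoImplicit false

namespace Cfsg.Agent.Lib.M23Tri

open Cfsg Cfsg.Agent.Lib.Golay Cfsg.Agent.Lib.PSL23

lemma toPerm_powC {c : ℕ} (hc : valid c = true) (n : ℕ) : valid (powC c n) = true ∧ toPerm (powC c n) = toPerm c ^ n := by
  induction n with
  | zero => exact ⟨valid_of_inM inM_cId, by rw [pow_zero]; exact toPerm_cId⟩
  | succ n ih =>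
    refine ⟨valid_mulC hc ih.1, ?_⟩
    show toPerm (mulC c (powC c n)) = _
    rw [toPerm_mulC hc ih.1, ih.2, pow_succ']

lemma ne_one_of_notId {c : ℕ} (hc : valid c = true) (h : notId c = true) : toPerm c ≠ 1 := by
  intro h1
  obtain ⟨i, hi, h2⟩ := List.any_eq_true.1 h
  have hi' : i < 24 := List.mem_range.1 hi
  have h3 := ix_toPerm hc (pt i)
  rw [h1, Equiv.Perm.one_apply, ix_pt hi'] at h3
  rw [← h3] at h2
  simp at h2

lemma order_of {c n : ℕ} (hn : n.Prime) (hc : valid c = true) (h : notId c = true) (h2 : powC c n = cId) :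
    orderOf (toPerm c) = n := by
  have : Fact n.Prime := ⟨hn⟩
  apply orderOf_eq_prime
  · rw [← (toPerm_powC hc n).2, h2, toPerm_cId]
  · exact ne_one_of_notId hc h

lemma fix_none {c : ℕ} (hc : valid c = true) (h : img c 23 = 23) : toPerm c none = none := by
  rw [toPerm_apply hc]
  show pt (img c 23) = none
  rw [h]; rfl

lemma not_Fg {c : ℕ} (hc : valid c = true) (h : (img c 0 + img c 2) % 23 ≠ (2 * img c 1) % 23) : toPerm c ∉ Fg := by
  intro hF
  obtain ⟨u, _, a, hu⟩ := mem_Fg.1 hF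
  have key : ∀ t : ℕ, t < 23 → ((img c t : ℕ) : ZMod 23) = (u : ZMod 23) * (t : ZMod 23) + a := by
    intro t ht
    have h1 : toPerm c (some (t : ZMod 23)) = some ((u : ZMod 23) * (t : ZMod 23) + a) := by
      rw [hu, Equiv.Perm.mul_apply, m_some, A_some]
    have h2 := ix_toPerm hc (some (t : ZMod 23))
    rw [h1] at h2
    have h3 : ((u : ZMod 23) * (t : ZMod 23) + a : ZMod 23).val = img c ((t : ZMod 23).val) := h2
    rw [ZMod.val_natCast, Nat.mod_eq_of_lt ht] at h3
    rw [← h3, ZMod.natCast_zmod_val]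
  have k0 := key 0 (by norm_num)
  have k1 := key 1 (by norm_num)
  have k2 := key 2 (by norm_num)
  apply h
  have h4 : ((img c 0 + img c 2 : ℕ) : ZMod 23) = ((2 * img c 1 : ℕ) : ZMod 23) := by
    push_cast
    rw [k0, k1, k2]
    push_cast
    ring
  exact (ZMod.natCast_eq_natCast_iff' _ _ _).1 h4

lemma x11_eq : x11 = toPerm (cMul 2) := by
  have hv : inM (cMul 2) = true := by decide +kernel
  apply perm_eq_toPerm (valid_of_inM hv)
  have h0 : pt (img (cMul 2) 23) = none := by decide +kernel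
  have h1 : ∀ x : ZMod 23, (some (2 * x) : GolayPt) = pt (img (cMul 2) x.val) := by decide +kernel
  rintro (_ | x)
  · rw [x11_none]; exact h0.symm
  · rw [x11_some]; exact h1 x

lemma Fg_le_of (K : Subgroup (Equiv.Perm GolayPt)) (h1 : A 1 ∈ K) (h2 : x11 ∈ K) : Fg ≤ K := by
  rw [Fg, Subgroup.closure_le]
  rintro g (hg | ⟨u, hu, rfl⟩)
  · rw [Set.mem_singleton_iff] at hg; rw [hg]; exact h1
  · have key : ∀ u : (ZMod 23)ˣ, IsSquare u → ∃ k : Fin 11, (u : ZMod 23) = 2 ^ (k : ℕ) := by
      rintro _ ⟨v, rfl⟩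
      have : ∀ v : ZMod 23, v ≠ 0 → ∃ k : Fin 11, v * v = 2 ^ (k : ℕ) := by decide +kernel
      exact this v v.ne_zero
    obtain ⟨k, hk⟩ := key u hu
    have : m u = x11 ^ (k : ℕ) := by
      rw [x11, m_pow]
      congr 1
      apply Units.ext
      rw [Units.val_pow_eq_pow_val]
      exact hk
    show m u ∈ K
    rw [this]
    exact K.pow_mem h2 _

theorem cert_sound {p q r x y : ℕ} {L : List ℕ} {S : List (ℕ × ℕ × Bool)} (hp : p.Prime) (hq : q.Prime) (hr : r.Prime)
    (h : certOK p q r x y L S = true) : ∃ X Y : Equiv.Perm GolayPt, X ∈ M23P ∧ Y ∈ M23P ∧ orderOf X = p ∧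
      orderOf Y = q ∧ orderOf (X * Y) = r ∧ Subgroup.closure {X, Y} = M23P := by
  unfold certOK at h
  simp only [Bool.and_eq_true, Nat.beq_eq, List.any_eq_true, Bool.not_eq_true'] at h
  obtain ⟨hx, hy, hx23, hy23, nx, ny, nxy, px, py, pxy, ⟨c1, hc1, e1⟩, ⟨c2, hc2, e2⟩, ⟨c3, hc3, e3⟩, hslp⟩ := h
  have vx := valid_of_inM hx
  have vy := valid_of_inM hy
  have hXm : toPerm x ∈ M23P := ⟨toPerm_mem_M24 hx, fix_none vx hx23⟩
  have hYm : toPerm y ∈ M23P := ⟨toPerm_mem_M24 hy, fix_none vy hy23⟩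
  refine ⟨toPerm x, toPerm y, hXm, hYm, order_of hp vx nx px, order_of hq vy ny py, ?_, ?_⟩
  · rw [← toPerm_mulC vx vy]
    exact order_of hr (valid_mulC vx vy) nxy pxy
  · set K := Subgroup.closure {toPerm x, toPerm y} with hK
    have hKx : toPerm x ∈ K := Subgroup.subset_closure (Or.inl rfl)
    have hKy : toPerm y ∈ K := Subgroup.subset_closure (Or.inr rfl)
    have hs := slp_sound (gens := [x, y]) (K := K) (by
      intro c hc
      simp only [List.mem_cons, List.not_mem_nil, or_false] at hc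
      rcases hc with rfl | rfl
      · exact ⟨vx, hKx⟩
      · exact ⟨vy, hKy⟩) S L hslp
    have hA : A 1 ∈ K := by
      have := (hs c1 hc1).2
      rw [e1] at this
      have e : A 1 = toPerm cShift := shift_eq
      rw [e]; exact this
    have h11 : x11 ∈ K := by
      have := (hs c2 hc2).2
      rw [e2, ← x11_eq] at this
      exact this
    have hle : K ≤ M23P := by
      rw [hK, Subgroup.closure_le]
      rintro g (rfl | hg)
      · exact hXm
      · rw [Set.mem_singleton_iff] at hg; rw [hg]; exact hYm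
    rcases key23 K (Fg_le_of K hA h11) hle with h | h
    · exfalso
      have := (hs c3 hc3).2
      rw [h] at this
      refine not_Fg (hs c3 hc3).1 ?_ this
      intro h5
      rw [h5] at e3
      simp at e3
    · exact h

end Cfsg.Agent.Lib.M23Tri
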