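import Cfsg.Agent.Lib.PSL23
import Cfsg.Agent.Lib.MathieuFix
import Cfsg.Prelude.Def_Spor_Mathieu

/-!
Scott's inequality and triples of elements of `M23` (helper43).
-/

set_option autoImplicit false

namespace Cfsg.Agent.Lib.M23Tri

open Module LinearMap

/-- `1 - X` -/
abbrev dd {k V : Type*} [Field k] [AddCommGroup V] [Module k V] (X : V →ₗ[k] V) : V →ₗ[k] V := LinearMap.id - X

section scott
variable {k V : Type*} [Field k] [AddCommGroup V] [Module k V] [FiniteDimensional k V]

/-- Scott's inequality for three maps with product one -/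
theorem scott (X Y Z : V →ₗ[k] V) (h : ∀ v, X (Y (Z v)) = v) :
    finrank k V + finrank k (range (dd X) ⊔ range (dd Y) ⊔ range (dd Z) : Submodule k V) ≤
      finrank k (range (dd X)) + finrank k (range (dd Y)) + finrank k (range (dd Z)) +
      finrank k (ker (dd X) ⊓ ker (dd Y) ⊓ ker (dd Z) : Submodule k V) := by
  let A := range (dd X)
  let B := range (dd Y)
  let C := range (dd Z)
  let β : V →ₗ[k] A × (B × C) := LinearMap.prod (dd X).rangeRestrict (LinearMap.prod (dd Y).rangeRestrict (dd Z).rangeRestrict)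
  let δ : A × (B × C) →ₗ[k] V := LinearMap.coprod A.subtype (LinearMap.coprod (X ∘ₗ B.subtype) (X ∘ₗ Y ∘ₗ C.subtype))
  have h1 := LinearMap.finrank_range_add_finrank_ker δ
  have h2 := LinearMap.finrank_range_add_finrank_ker β
  have h3 : finrank k (A × (B × C)) = finrank k A + (finrank k B + finrank k C) := by
    rw [Module.finrank_prod, Module.finrank_prod]
  have h4 : range β ≤ ker δ := by
    rintro _ ⟨v, rfl⟩
    rw [LinearMap.mem_ker]
    show (v - X v) + (X (v - Y v) + X (Y (v - Z v))) = 0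
    rw [map_sub, map_sub, map_sub, h v]
    abel
  have h5 : ker β = ker (dd X) ⊓ ker (dd Y) ⊓ ker (dd Z) := by
    ext v
    simp only [Submodule.mem_inf, LinearMap.mem_ker]
    constructor
    · intro hv
      have e1 : (dd X) v = 0 := congrArg (fun w : A × (B × C) => (w.1 : V)) hv
      have e2 : (dd Y) v = 0 := congrArg (fun w : A × (B × C) => (w.2.1 : V)) hv
      have e3 : (dd Z) v = 0 := congrArg (fun w : A × (B × C) => (w.2.2 : V)) hv
      exact ⟨⟨e1, e2⟩, e3⟩
    · rintro ⟨⟨e1, e2⟩, e3⟩
      exact Prod.ext (Subtype.ext e1) (Prod.ext (Subtype.ext e2) (Subtype.ext e3))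
  have h6 : A ⊔ B ⊔ C ≤ range δ := by
    have hA : A ≤ range δ := by
      intro a ha
      refine ⟨(⟨a, ha⟩, 0), ?_⟩
      show a + (X 0 + X (Y 0)) = a
      simp
    have hB : B ≤ range δ := by
      intro b hb
      have e1 : b - X b ∈ A := ⟨b, rfl⟩
      refine ⟨(⟨b - X b, e1⟩, (⟨b, hb⟩, 0)), ?_⟩
      show (b - X b) + (X b + X (Y 0)) = b
      simp
    have hC : C ≤ range δ := by
      intro c hc
      have e0 : X (Y c) ∈ range δ := by
        refine ⟨(0, (0, ⟨c, hc⟩)), ?_⟩
        show 0 + (X 0 + X (Y c)) = _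
        simp
      have e1 : c - X c ∈ range δ := hA ⟨c, rfl⟩
      have e2 : X (c - Y c) ∈ range δ := by
        refine ⟨(0, (⟨c - Y c, ⟨c, rfl⟩⟩, 0)), ?_⟩
        show 0 + (X (c - Y c) + X (Y 0)) = _
        simp
      have : c = (c - X c) + X (c - Y c) + X (Y c) := by rw [map_sub]; abel
      rw [this]
      exact Submodule.add_mem _ (Submodule.add_mem _ e1 e2) e0
    exact sup_le (sup_le hA hB) hC
  have h7 := Submodule.finrank_mono h4
  have h8 := Submodule.finrank_mono h6
  rw [h5] at h2
  have h9 : finrank k (range (dd X) ⊔ range (dd Y) ⊔ range (dd Z) : Submodule k V) ≤ finrank k (range δ) := h8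
  have h10 : finrank k A = finrank k (range (dd X)) := rfl
  have h11 : finrank k B = finrank k (range (dd Y)) := rfl
  have h12 : finrank k C = finrank k (range (dd Z)) := rfl
  omega

end scott

section perm
variable {Ω : Type} [Fintype Ω] [DecidableEq Ω]

/-- permutation module -/
noncomputable abbrev R (g : Equiv.Perm Ω) : (Ω → ℚ) →ₗ[ℚ] (Ω → ℚ) := LinearMap.funLeft ℚ ℚ g

lemma R_apply (g : Equiv.Perm Ω) (f : Ω → ℚ) (a : Ω) : R g f a = f (g a) := rfl

/-- the rank of `1 - g` -/
theorem rank_le (g : Equiv.Perm Ω) (n f : ℕ) (hn : orderOf g = n) (hn0 : 0 < n) (hf : f ≤ (Finset.univ.filter fun a => g a = a).card) :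
    n * finrank ℚ (range (dd (R g))) + (n - 1) * f ≤ (n - 1) * Fintype.card Ω := by
  classical
  let H := Subgroup.zpowers g
  have hcardH : Fintype.card H = n := by rw [Fintype.card_zpowers, hn]
  let O := Quotient (MulAction.orbitRel H Ω)
  have hb := MulAction.sum_card_fixedBy_eq_card_orbits_mul_card_group H Ω
  have hb1 : Fintype.card Ω + (n - 1) * f ≤ ∑ a : H, Fintype.card (MulAction.fixedBy Ω a) := by
    rw [← Finset.add_sum_erase _ _ (Finset.mem_univ (1 : H))]
    have e1 : Fintype.card (MulAction.fixedBy Ω (1 : H)) = Fintype.card Ω := by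
      have : (MulAction.fixedBy Ω (1 : H)) = Set.univ := by
        ext a; simp
      simp [this]
    have e2 : (n - 1) * f ≤ ∑ a ∈ Finset.univ.erase (1 : H), Fintype.card (MulAction.fixedBy Ω a) := by
      have e3 : ∀ a ∈ Finset.univ.erase (1 : H), f ≤ Fintype.card (MulAction.fixedBy Ω a) := by
        intro a _
        refine hf.trans ?_
        rw [← Fintype.card_subtype]
        refine Fintype.card_le_of_injective (fun x : {x // g x = x} => (⟨x.1, ?_⟩ : MulAction.fixedBy Ω a)) ?_
        · obtain ⟨k, hk⟩ := Subgroup.mem_zpowers_iff.1 a.2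
          show (a : Equiv.Perm Ω) x.1 = x.1
          rw [← hk]
          exact Equiv.Perm.zpow_apply_eq_self_of_apply_eq_self x.2 k
        · intro x y hxy
          exact Subtype.ext (congrArg (fun z : MulAction.fixedBy Ω a => (z : Ω)) hxy)
      have e4 := Finset.card_nsmul_le_sum _ _ _ e3
      rw [Finset.card_erase_of_mem (Finset.mem_univ _), Finset.card_univ, hcardH] at e4
      simpa using e4
    omega
  rw [hb, hcardH] at hb1
  -- the kernel
  let ψ : (O → ℚ) →ₗ[ℚ] (Ω → ℚ) := LinearMap.funLeft ℚ ℚ (Quotient.mk _)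
  have hψ : Function.Injective ψ := LinearMap.funLeft_injective_of_surjective _ _ _ Quotient.mk_surjective
  have hψ2 : range ψ ≤ ker (dd (R g)) := by
    rintro _ ⟨h, rfl⟩
    rw [LinearMap.mem_ker]
    funext a
    show h (Quotient.mk _ a) - h (Quotient.mk _ (g a)) = 0
    have : (Quotient.mk (MulAction.orbitRel H Ω) (g a)) = Quotient.mk _ a := by
      apply Quotient.sound
      show g a ∈ MulAction.orbit H a
      exact ⟨⟨g, Subgroup.mem_zpowers g⟩, rfl⟩
    rw [this, sub_self]
  have h1 := Submodule.finrank_mono hψ2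
  rw [LinearMap.finrank_range_of_inj hψ, Module.finrank_fintype_fun_eq_card] at h1
  have h2 := LinearMap.finrank_range_add_finrank_ker (dd (R g))
  rw [Module.finrank_fintype_fun_eq_card] at h2
  obtain ⟨m, rfl⟩ : ∃ m, n = m + 1 := ⟨n - 1, by omega⟩
  simp only [Nat.add_sub_cancel] at hb1 ⊢
  have h3 : Fintype.card O * (m + 1) ≤ finrank ℚ (ker (dd (R g))) * (m + 1) := Nat.mul_le_mul_right _ h1
  have h4 : Fintype.card Ω * (m + 1) = finrank ℚ (range (dd (R g))) * (m + 1) + finrank ℚ (ker (dd (R g))) * (m + 1) := by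
    rw [← h2]; ring
  have h5 : Fintype.card Ω + m * f ≤ Fintype.card O * (m + 1) := hb1
  nlinarith

end perm

end Cfsg.Agent.Lib.M23Tri
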