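import Cfsg.Agent.Lib.HSRec3
import Cfsg.Agent.Lib.MLRecG

/-!
# Recognition of the McLaughlin group: the graph
-/

set_option autoImplicit false
set_option maxHeartbeats 400000

namespace Cfsg.Agent.Lib.MLRec

open Cfsg Cfsg.Agent.Lib
open Cfsg.Agent.Lib.HSRec (Rel Rel.smul Rel.smul_iff not_mem_orbit Nb)
open scoped Pointwise

section
variable {Ω G : Type*} [Group G] [MulAction G Ω]

/-- the data -/
structure Data (G : Type*) {Ω : Type*} [Group G] [MulAction G Ω] (a b c : Ω) : Prop where
  trans : MulAction.IsPretransitive G Ω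
  finG : Finite G
  card : Nat.card Ω = 275
  hb : (MulAction.orbit (MulAction.stabilizer G a) b).ncard = 112
  hc : (MulAction.orbit (MulAction.stabilizer G a) c).ncard = 162

variable {a b c : Ω} (D : Data G a b c)
include D

theorem Data.fin : Finite Ω := Nat.finite_of_card_ne_zero (by rw [D.card]; norm_num)

theorem Data.ba : b ≠ a := by
  rintro rfl
  have h1 : MulAction.orbit (MulAction.stabilizer G b) b = {b} := by
    ext x
    constructor
    · rintro ⟨g, rfl⟩
      exact g.2
    · rintro rfl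
      exact ⟨1, one_smul _ _⟩
  have := D.hb
  rw [h1, Set.ncard_singleton] at this
  omega

theorem Data.ca : c ≠ a := by
  rintro rfl
  have h1 : MulAction.orbit (MulAction.stabilizer G c) c = {c} := by
    ext x
    constructor
    · rintro ⟨g, rfl⟩
      exact g.2
    · rintro rfl
      exact ⟨1, one_smul _ _⟩
  have := D.hc
  rw [h1, Set.ncard_singleton] at this
  omega

theorem Data.cover (x : Ω) : x = a ∨ x ∈ MulAction.orbit (MulAction.stabilizer G a) b ∨
    x ∈ MulAction.orbit (MulAction.stabilizer G a) c := by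
  have hf := D.fin
  set O1 := MulAction.orbit (MulAction.stabilizer G a) b with hO1
  set O2 := MulAction.orbit (MulAction.stabilizer G a) c with hO2
  have hd : Disjoint O1 O2 := by
    rw [Set.disjoint_left]
    intro y h1 h2
    have e1 : MulAction.orbit (MulAction.stabilizer G a) y = O1 := MulAction.orbit_eq_iff.2 h1
    have e2 : MulAction.orbit (MulAction.stabilizer G a) y = O2 := MulAction.orbit_eq_iff.2 h2
    have h3 := D.hb
    have h4 := D.hc
    rw [← hO1, ← e1, e2] at h3
    rw [← hO2] at h4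
    omega
  have hn : a ∉ O1 ∪ O2 := by
    rintro (h | h)
    · exact not_mem_orbit D.ba h
    · exact not_mem_orbit D.ca h
  have h5 : (insert a (O1 ∪ O2)).ncard = 275 := by
    rw [Set.ncard_insert_of_notMem hn, Set.ncard_union_eq hd, D.hb, D.hc]
  have h6 : insert a (O1 ∪ O2) = Set.univ := by
    apply Set.eq_of_subset_of_ncard_le (Set.subset_univ _)
    rw [h5, Set.ncard_univ, D.card]
  have h7 : x ∈ insert a (O1 ∪ O2) := by rw [h6]; trivial
  exact h7

theorem Data.disj {y : Ω} (h1 : y ∈ MulAction.orbit (MulAction.stabilizer G a) b)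
    (h2 : y ∈ MulAction.orbit (MulAction.stabilizer G a) c) : False := by
  have e1 := MulAction.orbit_eq_iff.2 h1
  have e2 := MulAction.orbit_eq_iff.2 h2
  have h3 := D.hb
  have h4 := D.hc
  rw [← e1, e2] at h3
  omega

/-- the orbital is self-paired -/
theorem Data.swap : ∃ g : G, g • a = b ∧ g • b = a := by
  have hf := D.fin
  have ht := D.trans
  obtain ⟨h, hh⟩ := MulAction.exists_smul_eq G b a
  have hya : h • a ≠ a := by
    intro h1
    exact D.ba (MulAction.injective h (hh.trans h1.symm))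
  have hsz : (MulAction.orbit (MulAction.stabilizer G a) (h • a)).ncard = 112 := by
    rw [← D.hb, ← MulAction.index_stabilizer, ← MulAction.index_stabilizer]
    -- the two stabilisers
    have h1 : ((MulAction.stabilizer (MulAction.stabilizer G a) (h • a)).map (MulAction.stabilizer G a).subtype) =
        ((MulAction.stabilizer (MulAction.stabilizer G a) b).map (MulAction.stabilizer G a).subtype).map
          (MulAut.conj h).toMonoidHom := by
      ext g
      constructor
      · rintro ⟨k, hk, rfl⟩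
        have k1 : (k : G) • a = a := k.2
        have k2 : (k : G) • h • a = h • a := hk
        refine ⟨h⁻¹ * k * h, ⟨⟨h⁻¹ * k * h, ?_⟩, ?_, rfl⟩, ?_⟩
        · show (h⁻¹ * (k : G) * h) • a = a
          rw [mul_smul, mul_smul, k2, inv_smul_smul]
        · show (h⁻¹ * (k : G) * h) • b = b
          rw [mul_smul, mul_smul, hh, k1, inv_smul_eq_iff, hh]
        · show h * (h⁻¹ * (k : G) * h) * h⁻¹ = k
          group
      · rintro ⟨_, ⟨k, hk, rfl⟩, rfl⟩
        have k1 : (k : G) • a = a := k.2
        have k2 : (k : G) • b = b := hk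
        refine ⟨⟨h * k * h⁻¹, ?_⟩, ?_, rfl⟩
        · show (h * (k : G) * h⁻¹) • a = a
          have hi : h⁻¹ • a = b := by rw [inv_smul_eq_iff, hh]
          rw [mul_smul, mul_smul, hi, k2, hh]
        · show (h * (k : G) * h⁻¹) • h • a = h • a
          rw [mul_smul, mul_smul, inv_smul_smul, k1]
    have h2 : Nat.card (MulAction.stabilizer (MulAction.stabilizer G a) (h • a)) =
        Nat.card (MulAction.stabilizer (MulAction.stabilizer G a) b) := by
      rw [← Subgroup.card_map_of_injective (K := MulAction.stabilizer (MulAction.stabilizer G a) (h • a))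
          (MulAction.stabilizer G a).subtype_injective, h1,
        Subgroup.card_map_of_injective (MulAut.conj h).injective,
        Subgroup.card_map_of_injective (MulAction.stabilizer G a).subtype_injective]
    have hfG := D.finG
    have h3 := Subgroup.card_mul_index (MulAction.stabilizer (MulAction.stabilizer G a) (h • a))
    have h4 := Subgroup.card_mul_index (MulAction.stabilizer (MulAction.stabilizer G a) b)
    rw [h2, ← h4] at h3
    exact Nat.eq_of_mul_eq_mul_left Nat.card_pos h3
  rcases D.cover (h • a) with h1 | h1 | h1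
  · exact absurd h1 hya
  · obtain ⟨k, hk⟩ := h1
    have k1 : (k : G) • a = a := k.2
    have k2 : (k : G) • b = h • a := hk
    refine ⟨(k : G)⁻¹ * h, ?_, ?_⟩
    · rw [mul_smul, ← k2, inv_smul_smul]
    · rw [mul_smul, hh, inv_smul_eq_iff, k1]
  · exfalso
    rw [MulAction.orbit_eq_iff.2 h1, D.hc] at hsz
    omega

theorem Data.rel_symm {x y : Ω} (h : Rel G a b x y) : Rel G a b y x := by
  obtain ⟨s, s1, s2⟩ := D.swap
  obtain ⟨g, rfl, rfl⟩ := h
  exact ⟨g * s, by rw [mul_smul, s1], by rw [mul_smul, s2]⟩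

/-- the graph -/
def Data.graph (D : Data G a b c) : SimpleGraph Ω where
  Adj := Rel G a b
  symm := ⟨fun _ _ h => D.rel_symm h⟩
  loopless := ⟨by
    rintro x ⟨g, h1, h2⟩
    exact D.ba (MulAction.injective g (h2.trans h1.symm))⟩

theorem Data.adj_a {y : Ω} : Rel G a b a y ↔ y ∈ MulAction.orbit (MulAction.stabilizer G a) b := by
  constructor
  · rintro ⟨g, h1, rfl⟩
    exact ⟨⟨g, h1⟩, rfl⟩
  · rintro ⟨g, rfl⟩
    exact ⟨g, g.2, rfl⟩

theorem Data.smul_Nb (g : G) (x : Ω) : g • Nb G a b x = Nb G a b (g • x) := by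
  ext y
  rw [Set.mem_smul_set_iff_inv_smul_mem]
  show Rel G a b x (g⁻¹ • y) ↔ Rel G a b (g • x) y
  rw [← Rel.smul_iff g, smul_inv_smul]

theorem Data.card_Nb (x : Ω) : (Nb G a b x).ncard = 112 := by
  have ht := D.trans
  obtain ⟨g, rfl⟩ := MulAction.exists_smul_eq G a x
  rw [← D.smul_Nb, Set.ncard_smul_set, ← D.hb]
  congr 1
  ext y
  exact D.adj_a


theorem Data.loop (u : Ω) : ¬ Rel G a b u u := by
  rintro ⟨g, h1, h2⟩
  exact D.ba (MulAction.injective g (h2.trans h1.symm))

theorem Data.lam_const {x y : Ω} (h : Rel G a b x y) : (Nb G a b x ∩ Nb G a b y).ncard = (Nb G a b a ∩ Nb G a b b).ncard := by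
  obtain ⟨g, rfl, rfl⟩ := h
  rw [← D.smul_Nb, ← D.smul_Nb, ← Set.smul_set_inter, Set.ncard_smul_set]

theorem Data.mu_const {x y : Ω} (hne : x ≠ y) (hna : ¬ Rel G a b x y) :
    (Nb G a b x ∩ Nb G a b y).ncard = (Nb G a b a ∩ Nb G a b c).ncard := by
  have ht := D.trans
  obtain ⟨g, rfl⟩ := MulAction.exists_smul_eq G a x
  obtain ⟨u, rfl⟩ : ∃ u, g • u = y := ⟨g⁻¹ • y, smul_inv_smul _ _⟩
  have hna' : ¬ Rel G a b a u := fun h => hna (h.smul g)
  have hu : u ∈ MulAction.orbit (MulAction.stabilizer G a) c := by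
    rcases D.cover u with h | h | h
    · exact absurd (by rw [h]) hne
    · exact absurd (D.adj_a.2 h) hna'
    · exact h
  obtain ⟨h, rfl⟩ := hu
  have h5 : (h : G) • a = a := h.2
  show (Nb G a b (g • a) ∩ Nb G a b (g • (h : G) • c)).ncard = _
  rw [← D.smul_Nb, ← D.smul_Nb, ← Set.smul_set_inter, Set.ncard_smul_set]
  have h6 : Nb G a b a ∩ Nb G a b ((h : G) • c) = (h : G) • (Nb G a b a ∩ Nb G a b c) := by
    rw [Set.smul_set_inter, D.smul_Nb, D.smul_Nb, h5]
  rw [h6, Set.ncard_smul_set]

theorem Data.param : 112 * (112 - (Nb G a b a ∩ Nb G a b b).ncard - 1) = (275 - 112 - 1) * (Nb G a b a ∩ Nb G a b c).ncard := by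
  classical
  have hf := D.fin
  have := Fintype.ofFinite Ω
  have hcn : ∀ v w : Ω, Fintype.card (D.graph.commonNeighbors v w) = (Nb G a b v ∩ Nb G a b w).ncard := by
    intro v w
    rw [← Nat.card_eq_fintype_card, Nat.card_coe_set_eq]
    rfl
  have h0 : D.graph.IsSRGWith 275 112 (Nb G a b a ∩ Nb G a b b).ncard (Nb G a b a ∩ Nb G a b c).ncard := by
    refine ⟨?_, ?_, ?_, ?_⟩
    · rw [← Nat.card_eq_fintype_card, D.card]
    · intro v
      rw [← SimpleGraph.card_neighborSet_eq_degree, ← Nat.card_eq_fintype_card, Nat.card_coe_set_eq]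
      exact D.card_Nb v
    · intro v w hvw
      rw [hcn]
      exact D.lam_const hvw
    · intro v w hne hna
      rw [hcn]
      exact D.mu_const hne hna
  exact SimpleGraph.IsSRGWith.param_eq D.graph h0 (by norm_num)

theorem Data.lam_ne : (Nb G a b a ∩ Nb G a b b).ncard ≠ 111 := by
  intro hl
  have ht := D.trans
  have hf := D.fin
  set C : Ω → Set Ω := fun u => insert u (Nb G a b u) with hC
  have hCs : ∀ (g : G) u, g • C u = C (g • u) := by
    intro g u
    show g • insert u (Nb G a b u) = insert (g • u) (Nb G a b (g • u))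
    rw [← D.smul_Nb, Set.smul_set_insert]
  have hCc : ∀ u, (C u).ncard = 113 := by
    intro u
    show (insert u (Nb G a b u)).ncard = 113
    rw [Set.ncard_insert_of_notMem (show u ∉ Nb G a b u from D.loop u), D.card_Nb]
  have hadj : ∀ u v, Rel G a b u v → C v = C u := by
    intro u v h
    have h1 := D.lam_const h
    rw [hl] at h1
    have huv : u ≠ v := by
      rintro rfl
      exact D.loop u h
    have h2 : (insert u (insert v (Nb G a b u ∩ Nb G a b v))).ncard = 113 := by
      rw [Set.ncard_insert_of_notMem, Set.ncard_insert_of_notMem, h1]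
      · rintro ⟨-, h3⟩
        exact D.loop v h3
      · rintro (h3 | ⟨h3, -⟩)
        · exact huv h3
        · exact D.loop u h3
    have h3 : insert u (insert v (Nb G a b u ∩ Nb G a b v)) = C u := by
      apply Set.eq_of_subset_of_ncard_le _ (by rw [hCc, h2])
      rintro z (rfl | rfl | ⟨h4, -⟩)
      · left; rfl
      · right; exact h
      · right; exact h4
    have h4 : insert u (insert v (Nb G a b u ∩ Nb G a b v)) = C v := by
      apply Set.eq_of_subset_of_ncard_le _ (by rw [hCc, h2])
      rintro z (rfl | rfl | ⟨-, h4⟩)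
      · right; exact D.rel_symm h
      · left; rfl
      · right; exact h4
    rw [← h3, ← h4]
  have hCn : ∀ u ∈ C a, C u = C a := by
    intro u hu
    rcases hu with rfl | hu
    · rfl
    · exact hadj _ _ hu
  have hblock : MulAction.IsBlock G (C a) := by
    rw [MulAction.isBlock_iff_smul_eq_of_nonempty]
    intro g hg
    obtain ⟨u, hu1, hu2⟩ := hg
    obtain ⟨v, hv, rfl⟩ := hu1
    have h5 : C (g • v) = C a := hCn _ hu2
    calc g • C a = g • C v := by rw [hCn v hv]
      _ = C (g • v) := hCs g v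
      _ = C a := h5
  have hdvd := hblock.ncard_dvd_card ⟨a, Set.mem_insert _ _⟩
  rw [hCc, D.card] at hdvd
  omega

end

section
variable {H : Type*} [Group H] (R : Rep H)

/-- adjacency is invariant -/
theorem Rep.ad_inv (h : H) (i j : Fin 112) : ad (R.r h i) (R.r h j) = ad i j := by
  have key : ∀ h : H, ∀ i j : Fin 112, ad (R.r h i) (R.r h j) = ad i j := by
    intro x
    have hx : x ∈ Subgroup.closure {z | ∃ i < 2, z = R.gs i} := by rw [R.gen]; trivial
    induction hx using Subgroup.closure_induction with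
    | mem x hx =>
      obtain ⟨k, hk, rfl⟩ := hx
      intro i j
      rw [R.tab k hk, R.tab k hk]
      interval_cases k
      · exact MLRec.ad_inv i.2 j.2
      · exact MLRec.ad_inv2 i.2 j.2
    | one => intro i j; rw [map_one]; rfl
    | mul x y _ _ hx hy =>
      intro i j
      rw [map_mul]
      exact (hx _ _).trans (hy i j)
    | inv x _ hx =>
      intro i j
      have h1 := hx (R.r x⁻¹ i) (R.r x⁻¹ j)
      have h2 : ∀ k : Fin 112, R.r x (R.r x⁻¹ k) = k := by
        intro k
        rw [map_inv]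
        exact (R.r x).apply_symm_apply k
      rw [h2, h2] at h1
      exact h1.symm
  exact key h i j

end

section
variable {Ω G : Type*} [Group G] [MulAction G Ω] {a b c : Ω}

/-- the frame -/
structure Fr (G : Type*) {Ω : Type*} [Group G] [MulAction G Ω] (a b : Ω) (R : Rep (MulAction.stabilizer G a))
    (φ : Fin 112 → Ω) : Prop where
  inj : Function.Injective φ
  rng : ∀ x, Rel G a b a x ↔ ∃ i, φ i = x
  eqv : ∀ (h : MulAction.stabilizer G a) (i : Fin 112), φ (R.r h i) = h • φ i
  adj : ∀ i j, Rel G a b (φ i) (φ j) ↔ ad i j = true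
  lam : ∀ x y, Rel G a b x y → (Nb G a b x ∩ Nb G a b y).ncard = 30
  mu : ∀ x y, x ≠ y → ¬ Rel G a b x y → (Nb G a b x ∩ Nb G a b y).ncard = 56

theorem Data.exists_fr (D : Data G a b c) (R : Rep (MulAction.stabilizer G a)) : ∃ φ, Fr G a b R φ := by
  classical
  have hf := D.fin
  obtain ⟨φ, h1, h2, h3⟩ := R.exists_phi b D.hb
  have hrng : ∀ x, Rel G a b a x ↔ ∃ i, φ i = x := by
    intro x
    rw [D.adj_a, ← h2]; rfl
  have hsm : ∀ (h : MulAction.stabilizer G a) (x : Ω), h • x = (h : G) • x := fun _ _ => rfl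
  set L : Set (Fin 112) := {j | Rel G a b (φ 0) (φ j)} with hL
  have hLQ : ∀ x ∈ R.Q 6, ∀ j ∈ L, R.r x j ∈ L := by
    intro x hx j hj
    have hx0 : R.r x 0 = 0 := by
      have : R.Q 6 ≤ (MulAction.stabilizer (Equiv.Perm (Fin 112)) (0 : Fin 112)).comap R.r := by
        unfold Rep.Q
        rw [Subgroup.closure_le]
        rintro _ ⟨i, hi, rfl⟩
        exact R.y_fix (by omega)
      exact this hx
    have h4 : φ 0 = x • φ 0 := by rw [← h3, hx0]
    show Rel G a b (φ 0) (φ (R.r x j))
    rw [h4, h3, hsm, hsm, Rel.smul_iff]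
    exact hj
  obtain ⟨p0, p1, p4, p7, hS, e0, e1, e4, e7⟩ := eq_clsS (R.cls hLQ)
  have hp0 : p0 = false := by
    cases hp : p0
    · rfl
    · exact absurd (e0.1 hp) (D.loop _)
  have hcard := clsS_card p0 p1 p4 p7
  rw [← Set.ncard_coe_finset, ← hS] at hcard
  have hl : L.ncard = (Nb G a b a ∩ Nb G a b b).ncard := by
    have h5 : Rel G a b a (φ 0) := (hrng _).2 ⟨0, rfl⟩
    rw [← D.lam_const h5, ← Set.ncard_image_of_injective L h1]
    congr 1
    ext x
    constructor
    · rintro ⟨j, hj, rfl⟩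
      exact ⟨(hrng _).2 ⟨j, rfl⟩, hj⟩
    · rintro ⟨h6, h7⟩
      obtain ⟨j, rfl⟩ := (hrng _).1 h6
      exact ⟨j, h7, rfl⟩
  have hpar := D.param
  have hne := D.lam_ne
  rw [← hl] at hpar hne
  rw [hcard, hp0] at hpar hne
  have hcase : p1 = true ∧ p4 = true ∧ p7 = false := by
    cases p1 <;> cases p4 <;> cases p7 <;> simp only [Bool.toNat_true, Bool.toNat_false] at hpar hne <;> first
      | exact ⟨rfl, rfl, rfl⟩
      | (exfalso; omega)
  obtain ⟨rfl, rfl, rfl⟩ := hcase
  have hlam : (Nb G a b a ∩ Nb G a b b).ncard = 30 := by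
    rw [← hl, hcard, hp0]; rfl
  have hmu : (Nb G a b a ∩ Nb G a b c).ncard = 56 := by
    simp only [Bool.toNat_true, Bool.toNat_false] at hpar
    omega
  have had0 : ∀ j, Rel G a b (φ 0) (φ j) ↔ ad 0 j = true := by
    intro j
    rw [ad01 j j.2]
    have h8 : (j ∈ L) ↔ (j ∈ (↑(clsS p0 true true false) : Set (Fin 112))) := by rw [← hS]
    rw [hp0] at h8
    unfold clsS at h8
    rw [Finset.coe_filter] at h8
    refine h8.trans ?_
    show (j ∈ Finset.univ ∧ _) ↔ _
    simp only [Finset.mem_univ, true_and, beq_dec, Bool.false_and, Bool.or_false, Bool.false_or, Bool.true_and, Bool.or_eq_true,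
      decide_eq_true_eq]
  refine ⟨φ, ⟨h1, hrng, h3, ?_, fun x y h => by rw [D.lam_const h, hlam], fun x y h h' => by rw [D.mu_const h h', hmu]⟩⟩
  intro i j
  obtain ⟨h, rfl⟩ := R.trans i
  obtain ⟨j', rfl⟩ := (R.r h).surjective j
  rw [h3, h3, hsm, hsm, Rel.smul_iff, had0, R.ad_inv h 0 j']
  rfl

end

end Cfsg.Agent.Lib.MLRec
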