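import Cfsg.Agent.Lib.MLRecH
import Cfsg.Agent.Lib.MLRecE

/-!
# Recognition of the McLaughlin group: hemisystems in the graph
-/

set_option autoImplicit false
set_option maxHeartbeats 400000
set_option maxRecDepth 100000

namespace Cfsg.Agent.Lib.MLRec

open Cfsg Cfsg.Agent.Lib
open Cfsg.Agent.Lib.H58SM
open Cfsg.Agent.Lib.HSRec (Rel Rel.smul Rel.smul_iff not_mem_orbit Nb)
open scoped Pointwise

theorem rec_sum (f : ℕ → ℕ) (n : ℕ) : Nat.rec (motive := fun _ => ℕ) 0 (fun k r => Nat.add r (f k)) n = ∑ k ∈ Finset.range n, f k := by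
  induction n with
  | zero => rfl
  | succ n ih => rw [Finset.sum_range_succ, ← ih]; rfl

theorem rec_card (P : ℕ → Bool) (n : ℕ) : Nat.rec (motive := fun _ => ℕ) 0 (fun k r => Nat.add r (cond (P k) 1 0)) n =
    ((Finset.range n).filter fun k => P k = true).card := by
  rw [rec_sum (fun k => cond (P k) 1 0), Finset.card_filter]
  apply Finset.sum_congr rfl
  intro k _
  cases P k <;> rfl

theorem ncard_fin (P : ℕ → Bool) (n : ℕ) : Set.ncard {i : Fin n | P i = true} = ((Finset.range n).filter fun k => P k = true).card := by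
  have h : {i : Fin n | P i = true} = ↑(Finset.univ.filter fun i : Fin n => P i = true) := by
    ext i; simp
  rw [h, Set.ncard_coe_finset, ← Finset.card_map Fin.valEmbedding]
  congr 1
  ext k
  simp only [Finset.mem_map, Finset.mem_filter, Finset.mem_univ, true_and, Fin.valEmbedding_apply, Finset.mem_range]
  constructor
  · rintro ⟨i, hi, rfl⟩
    exact ⟨i.2, hi⟩
  · rintro ⟨hk, h⟩
    exact ⟨⟨k, hk⟩, h, rfl⟩

theorem nx_bij' : alln (fun f => alln (fun g => alln (fun i => !(alln (fun j => !(Nat.beq (nx f g j) i)) 162)) 162) 2) 4 = true := by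
  decide +kernel

theorem exists_of_not_alln {P : ℕ → Bool} {n : ℕ} (h : (!(alln (fun j => !(P j)) n)) = true) : ∃ j < n, P j = true := by
  by_contra hcon
  push Not at hcon
  have h2 : alln (fun j => !(P j)) n = true := by
    rw [alln_iff]
    intro j hj
    have := hcon j hj
    cases hP : P j
    · rfl
    · exact absurd hP this
  rw [h2] at h
  exact absurd h (by decide)

theorem nx_bij {f g i : ℕ} (hf : f < 4) (hg : g < 2) (hi : i < 162) : ∃ j < 162, nx f g j = i := by
  obtain ⟨j, hj, h⟩ := exists_of_not_alln (alln_iff.1 (alln_iff.1 (alln_iff.1 nx_bij' f hf) g hg) i hi)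
  exact ⟨j, hj, Sol.beq_iff.1 h⟩

theorem ne_of_chk {i j x y : ℕ} (h : (Nat.beq i j || !(Nat.beq x y)) = true) (hxy : x = y) : i = j := by
  rw [Bool.or_eq_true] at h
  rcases h with h | h
  · exact Sol.beq_iff.1 h
  · rw [hxy, show Nat.beq y y = true from Sol.beq_iff.2 rfl] at h
    exact absurd h (by decide)

theorem sm_inj' : alln (fun f => alln (fun i => frc (sm f i) fun m => alln (fun j => Nat.beq i j || !(Nat.beq m (sm f j))) 162) 162) 4
    = true := by decide +kernel

theorem sm_inj {f i j : ℕ} (hf : f < 4) (hi : i < 162) (hj : j < 162) (h : ∀ x < 112, bt (sm f i) x = bt (sm f j) x) : i = j := by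
  have h1 := alln_iff.1 (alln_iff.1 sm_inj' f hf) i hi
  rw [frc_eq] at h1
  apply ne_of_chk (alln_iff.1 h1 j hj)
  have e : F112 = 2 ^ 112 - 1 := by decide +kernel
  unfold sm solm gt at h ⊢
  rw [e] at h ⊢
  exact mask_ext h

theorem tm_inj {f i j : ℕ} (hf : f < 4) (hi : i < 162) (hj : j < 162) (h : tm f i = tm f j) : i = j := by
  have h1 := alln_iff.1 (alln_iff.1 tm_inj' f hf) i hi
  rw [frc_eq] at h1
  exact ne_of_chk (alln_iff.1 h1 j hj) h

/-! ### the search -/

theorem hemi_sol {S : ℕ → Bool} (hS : Hemi S) : ∃ t < 648, ∀ n < 112, S n = bt (solm t) n := by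
  have hcons : ∀ {S : ℕ → Bool}, S 0 = true → Cons S 1 0 := by
    intro S h0
    constructor
    · intro x hx
      rw [bt_eq, Nat.testBit_one_eq_true_iff_self_eq_zero] at hx
      rw [hx, h0]
    · intro x hx
      rw [bt_eq, Nat.zero_testBit] at hx
      exact absurd hx (by decide)
  cases h0 : S 0
  · have hS' : Hemi (fun n => !S n) := by
      intro k hk
      have := hS k hk
      revert this
      show _ → ct (!S (bq k 0)) (!S (bq k 1)) (!S (bq k 2)) (!S (bq k 3)) = 2
      cases S (bq k 0) <;> cases S (bq k 1) <;> cases S (bq k 2) <;> cases S (bq k 3) <;> decide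
    obtain ⟨t, ht, h⟩ := Tr.chk_spec hS' tree (hcons (by simp [h0])) tree_ok
    refine ⟨co t, (co_ok t ht).1, fun n hn => ?_⟩
    rw [← (co_ok t ht).2, bt_eq, show Nat.xor (solm t) F112 = solm t ^^^ F112 from rfl, Nat.testBit_xor, ← bt_eq, ← bt_eq,
      ← h n hn, bt_full hn]
    cases S n <;> rfl
  · exact Tr.chk_spec hS tree (hcons h0) tree_ok

/-! ### double count -/

theorem sum_ct (S : ℕ → Bool) : ∑ k ∈ Finset.range 280, ct (S (bq k 0)) (S (bq k 1)) (S (bq k 2)) (S (bq k 3)) =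
    ((Finset.range 112).filter fun n => S n = true).card * 10 := by
  have h1 : ∀ k ∈ Finset.range 280, ct (S (bq k 0)) (S (bq k 1)) (S (bq k 2)) (S (bq k 3)) =
      ∑ n ∈ Finset.range 112, if inb k n = true then (S n).toNat else 0 := by
    intro k hk
    rw [Finset.mem_range] at hk
    have hb := bq_ad k hk
    have hl := bq_lt k hk
    have ne : ∀ {x y}, x < 112 → ad x y = true → x ≠ y := by
      intro x y hx h hxy
      rw [← hxy, ad_irr x hx] at h
      exact absurd h (by decide)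
    have n01 := ne (hl 0 (by norm_num)) hb.1
    have n02 := ne (hl 0 (by norm_num)) hb.2.1
    have n03 := ne (hl 0 (by norm_num)) hb.2.2.1
    have n12 := ne (hl 1 (by norm_num)) hb.2.2.2.1
    have n13 := ne (hl 1 (by norm_num)) hb.2.2.2.2.1
    have n23 := ne (hl 2 (by norm_num)) hb.2.2.2.2.2
    rw [← Finset.sum_filter]
    have h2 : (Finset.range 112).filter (fun n => inb k n = true) = {bq k 0, bq k 1, bq k 2, bq k 3} := by
      ext n
      simp only [Finset.mem_filter, Finset.mem_range, Finset.mem_insert, Finset.mem_singleton, inb, Bool.or_eq_true, Sol.beq_iff]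
      constructor
      · exact fun h => h.2
      · intro h
        refine ⟨?_, h⟩
        rcases h with rfl | rfl | rfl | rfl
        · exact hl 0 (by norm_num)
        · exact hl 1 (by norm_num)
        · exact hl 2 (by norm_num)
        · exact hl 3 (by norm_num)
    rw [h2, Finset.sum_insert (by simp [n01, n02, n03]), Finset.sum_insert (by simp [n12, n13]),
      Finset.sum_insert (by simp [n23]), Finset.sum_singleton]
    unfold ct
    omega
  rw [Finset.sum_congr rfl h1, Finset.sum_comm, Finset.card_filter, Finset.sum_mul]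
  apply Finset.sum_congr rfl
  intro n hn
  rw [Finset.mem_range] at hn
  have h3 := Sol.beq_iff.1 (alln_iff.1 bq_ten n hn)
  rw [rec_card (fun k => inb k n)] at h3
  rw [← Finset.sum_filter, Finset.sum_const, h3, smul_eq_mul, mul_comm]
  cases S n <;> rfl

theorem ct_case : ∀ s0 s1 s2 s3 : Bool, (s0 = true → one3 s1 s2 s3 = true) → (s1 = true → one3 s0 s2 s3 = true) →
    (s2 = true → one3 s0 s1 s3 = true) → (s3 = true → one3 s0 s1 s2 = true) → ct s0 s1 s2 s3 = 0 ∨ ct s0 s1 s2 s3 = 2 := by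
  decide

section
variable {Ω G : Type*} [Group G] [MulAction G Ω] {a b c : Ω}

open Classical in
/-- the set of neighbours as a function -/
noncomputable def Sb (G : Type*) {Ω : Type*} [Group G] [MulAction G Ω] (a b : Ω) (φ : Fin 112 → Ω) (x : Ω) (n : ℕ) : Bool :=
  decide (∃ h : n < 112, Rel G a b x (φ ⟨n, h⟩))

theorem Sb_iff {φ : Fin 112 → Ω} {x : Ω} (i : Fin 112) : Sb G a b φ x i = true ↔ Rel G a b x (φ i) := by
  simp only [Sb, decide_eq_true_eq]
  exact ⟨fun ⟨_, h⟩ => h, fun h => ⟨i.2, h⟩⟩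

/-- the points at distance two -/
def Dl (G : Type*) {Ω : Type*} [Group G] [MulAction G Ω] (a b : Ω) (x : Ω) : Prop := x ≠ a ∧ ¬ Rel G a b a x

theorem Dl.smul {x : Ω} (h : Dl G a b x) (g : MulAction.stabilizer G a) : Dl G a b (g • x) := by
  have hg : (g : G) • a = a := g.2
  constructor
  · intro h1
    have h2 : (g : G) • x = a := h1
    exact h.1 (MulAction.injective (g : G) (h2.trans hg.symm))
  · intro h1
    have h2 : Rel G a b a ((g : G) • x) := h1
    rw [show Rel G a b a ((g : G) • x) ↔ Rel G a b ((g : G) • a) ((g : G) • x) by rw [hg], Rel.smul_iff] at h2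
    exact h.2 h2

variable (D : Data G a b c) {R : Rep (MulAction.stabilizer G a)} {φ : Fin 112 → Ω} (F : Fr G a b R φ)
include D

theorem Data.Dl_eq : {x | Dl G a b x} = MulAction.orbit (MulAction.stabilizer G a) c := by
  ext x
  constructor
  · intro h
    rcases D.cover x with h1 | h1 | h1
    · exact absurd h1 h.1
    · exact absurd (D.adj_a.2 h1) h.2
    · exact h1
  · intro h
    refine ⟨?_, fun h1 => D.disj (D.adj_a.1 h1) h⟩
    rintro rfl
    exact not_mem_orbit D.ca h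

theorem Data.Dl_card : {x | Dl G a b x}.ncard = 162 := by rw [D.Dl_eq, D.hc]

include F

theorem Data.three {x : Ω} (hx : Dl G a b x) {p q1 q2 q3 : Fin 112} (h1 : ad p q1 = true) (h2 : ad p q2 = true)
    (h3 : ad p q3 = true) (h12 : ad q1 q2 = true) (h13 : ad q1 q3 = true) (h23 : ad q2 q3 = true)
    (hp : Sb G a b φ x p = true) : one3 (Sb G a b φ x q1) (Sb G a b φ x q2) (Sb G a b φ x q3) = true := by
  rw [Sb_iff] at hp
  obtain ⟨g, hg1, hg2⟩ : ∃ g : G, g • a = φ p ∧ g • φ 0 = a := by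
    have h : Rel G a b (φ p) a := D.rel_symm ((F.rng _).2 ⟨p, rfl⟩)
    obtain ⟨g, hg1, hg2⟩ := h
    obtain ⟨i0, hi0⟩ := (F.rng b).1 ⟨1, one_smul _ _, one_smul _ _⟩
    obtain ⟨h, hh⟩ := R.trans i0
    refine ⟨g * h, ?_, ?_⟩
    · rw [mul_smul, show (h : G) • a = a from h.2, hg1]
    · rw [mul_smul, ← show h • φ 0 = (h : G) • φ 0 from rfl, ← F.eqv, hh, hi0, hg2]
  have nb : ∀ z, Rel G a b (φ p) z → ∃ i, g • φ i = z := by
    intro z hz
    have h : Rel G a b a (g⁻¹ • z) := by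
      rw [← Rel.smul_iff g, smul_inv_smul, hg1]; exact hz
    obtain ⟨i, hi⟩ := (F.rng _).1 h
    exact ⟨i, by rw [hi, smul_inv_smul]⟩
  obtain ⟨y, hy⟩ := nb x (D.rel_symm hp)
  obtain ⟨k1, hk1⟩ := nb (φ q1) ((F.adj _ _).2 h1)
  obtain ⟨k2, hk2⟩ := nb (φ q2) ((F.adj _ _).2 h2)
  obtain ⟨k3, hk3⟩ := nb (φ q3) ((F.adj _ _).2 h3)
  have e0 : ∀ k q : Fin 112, g • φ k = φ q → ad (0 : Fin 112) k = true := by
    intro k q h
    rw [← F.adj, ← Rel.smul_iff g, hg2, h]
    exact (F.rng _).2 ⟨q, rfl⟩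
  have e1 : ∀ k k' q q' : Fin 112, g • φ k = φ q → g • φ k' = φ q' → ad q q' = true → ad k k' = true := by
    intro k k' q q' h h' h''
    rw [← F.adj, ← Rel.smul_iff g, h, h', F.adj]
    exact h''
  have e2 : ∀ k q : Fin 112, g • φ k = φ q → Sb G a b φ x q = ad y k := by
    intro k q h
    rw [Bool.eq_iff_iff, Sb_iff, ← F.adj, ← Rel.smul_iff (x := φ y) g, hy, h]
  rw [e2 k1 q1 hk1, e2 k2 q2 hk2, e2 k3 q3 hk3]
  refine gq0 k1.2 k2.2 k3.2 y.2 (e0 _ _ hk1) (e0 _ _ hk2) (e0 _ _ hk3) (e1 _ _ _ _ hk1 hk2 h12) (e1 _ _ _ _ hk1 hk3 h13)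
    (e1 _ _ _ _ hk2 hk3 h23) ?_ ?_
  · intro h
    apply hx.1
    have : y = 0 := Fin.ext h
    rw [← hy, this, hg2]
  · cases h : ad y 0
    · rfl
    · exfalso
      have h4 : Rel G a b (φ y) (φ 0) := (F.adj y 0).2 h
      rw [← Rel.smul_iff g, hy, hg2] at h4
      exact hx.2 (D.rel_symm h4)

theorem Data.card56 {x : Ω} (hx : Dl G a b x) : ((Finset.range 112).filter fun n => Sb G a b φ x n = true).card = 56 := by
  rw [← ncard_fin, ← Set.ncard_image_of_injective _ F.inj, ← F.mu a x (Ne.symm hx.1) hx.2]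
  congr 1
  ext z
  constructor
  · rintro ⟨i, hi, rfl⟩
    exact ⟨(F.rng _).2 ⟨i, rfl⟩, (Sb_iff i).1 hi⟩
  · rintro ⟨h1, h2⟩
    obtain ⟨i, rfl⟩ := (F.rng _).1 h1
    exact ⟨i, (Sb_iff i).2 h2, rfl⟩

theorem Data.hemi {x : Ω} (hx : Dl G a b x) : Hemi (Sb G a b φ x) := by
  set S := Sb G a b φ x with hS
  have h1 : ∀ k < 280, ct (S (bq k 0)) (S (bq k 1)) (S (bq k 2)) (S (bq k 3)) = 0 ∨
      ct (S (bq k 0)) (S (bq k 1)) (S (bq k 2)) (S (bq k 3)) = 2 := by
    intro k hk
    have hl := bq_lt k hk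
    obtain ⟨a01, a02, a03, a12, a13, a23⟩ := bq_ad k hk
    have l0 := hl 0 (by norm_num)
    have l1 := hl 1 (by norm_num)
    have l2 := hl 2 (by norm_num)
    have l3 := hl 3 (by norm_num)
    have a10 : ad (bq k 1) (bq k 0) = true := by rw [ad_symm l1 l0]; exact a01
    have a20 : ad (bq k 2) (bq k 0) = true := by rw [ad_symm l2 l0]; exact a02
    have a21 : ad (bq k 2) (bq k 1) = true := by rw [ad_symm l2 l1]; exact a12
    have a30 : ad (bq k 3) (bq k 0) = true := by rw [ad_symm l3 l0]; exact a03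
    have a31 : ad (bq k 3) (bq k 1) = true := by rw [ad_symm l3 l1]; exact a13
    have a32 : ad (bq k 3) (bq k 2) = true := by rw [ad_symm l3 l2]; exact a23
    apply ct_case
    · exact fun h => D.three F hx (p := ⟨_, l0⟩) (q1 := ⟨_, l1⟩) (q2 := ⟨_, l2⟩) (q3 := ⟨_, l3⟩) a01 a02 a03 a12 a13 a23 h
    · exact fun h => D.three F hx (p := ⟨_, l1⟩) (q1 := ⟨_, l0⟩) (q2 := ⟨_, l2⟩) (q3 := ⟨_, l3⟩) a10 a12 a13 a02 a03 a23 h
    · exact fun h => D.three F hx (p := ⟨_, l2⟩) (q1 := ⟨_, l0⟩) (q2 := ⟨_, l1⟩) (q3 := ⟨_, l3⟩) a20 a21 a23 a01 a03 a13 h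
    · exact fun h => D.three F hx (p := ⟨_, l3⟩) (q1 := ⟨_, l0⟩) (q2 := ⟨_, l1⟩) (q3 := ⟨_, l2⟩) a30 a31 a32 a01 a02 a12 h
  have h2 := sum_ct S
  rw [D.card56 F hx] at h2
  intro k hk
  by_contra hne
  have h3 : ∑ k ∈ Finset.range 280, ct (S (bq k 0)) (S (bq k 1)) (S (bq k 2)) (S (bq k 3)) < ∑ _k ∈ Finset.range 280, 2 := by
    apply Finset.sum_lt_sum
    · intro i hi
      rcases h1 i (Finset.mem_range.1 hi) with h | h <;> omega
    · refine ⟨k, Finset.mem_range.2 hk, ?_⟩
      rcases h1 k hk with h | h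
      · omega
      · exact absurd h hne
  rw [Finset.sum_const, Finset.card_range] at h3
  simp only [smul_eq_mul] at h3
  omega

omit D F in
/-- the vertex has the hemisystem number `i` of the family `f` -/
def Is (G : Type*) {Ω : Type*} [Group G] [MulAction G Ω] (a b : Ω) (φ : Fin 112 → Ω) (f i : ℕ) (x : Ω) : Prop :=
  ∀ j : Fin 112, Rel G a b x (φ j) ↔ bt (sm f i) j = true

theorem Data.exists_is {x : Ω} (hx : Dl G a b x) : ∃ f < 4, ∃ i < 162, Is G a b φ f i x := by
  obtain ⟨t, ht, h⟩ := hemi_sol (D.hemi F hx)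
  refine ⟨t / 162, by omega, t % 162, Nat.mod_lt _ (by norm_num), fun j => ?_⟩
  rw [← Sb_iff, h j j.2]
  unfold sm
  rw [show Nat.add (Nat.mul 162 (t / 162)) (t % 162) = t from Nat.div_add_mod t 162]

omit D in
theorem Fr.is_smul {f g i : ℕ} (hf : f < 4) (hg : g < 2) (hi : i < 162) {x : Ω} :
    Is G a b φ f i x ↔ Is G a b φ f (nx f g i) (R.gs g • x) := by
  have key : ∀ j : Fin 112, (Rel G a b (R.gs g • x) (φ (R.r (R.gs g) j)) ↔ Rel G a b x (φ j)) ∧
      (bt (sm f (nx f g i)) (R.r (R.gs g) j : Fin 112) = bt (sm f i) j) := by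
    intro j
    constructor
    · rw [F.eqv]
      exact Rel.smul_iff ((R.gs g : MulAction.stabilizer G a) : G)
    · rw [R.tab g hg, nx_sol hf hg hi j.2]
  constructor
  · intro h j
    obtain ⟨j', rfl⟩ := (R.r (R.gs g)).surjective j
    rw [(key j').1, (key j').2]
    exact h j'
  · intro h j
    rw [← (key j).1, ← (key j).2]
    exact h _

theorem Data.is_zero {f : ℕ} (hf : f < 4) : ∀ i < 162, ∀ x, Dl G a b x → Is G a b φ f i x → ∃ y, Dl G a b y ∧ Is G a b φ f 0 y := by
  intro i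
  induction i using Nat.strong_induction_on with
  | _ i ih =>
    intro hi x hx h
    rcases Nat.eq_zero_or_pos i with rfl | h0
    · exact ⟨x, hx, h⟩
    · obtain ⟨h1, h2, h3⟩ := sol_tree f hf i hi h0
      apply ih _ h1 (by omega) ((R.gs (sgen f i))⁻¹ • x) (hx.smul _)
      rw [F.is_smul hf h2 (by omega), smul_inv_smul, h3]
      exact h

theorem Data.is_all {f : ℕ} (hf : f < 4) {y : Ω} (hy : Dl G a b y) (h : Is G a b φ f 0 y) :
    ∀ i < 162, ∃ x, Dl G a b x ∧ Is G a b φ f i x := by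
  intro i
  induction i using Nat.strong_induction_on with
  | _ i ih =>
    intro hi
    rcases Nat.eq_zero_or_pos i with rfl | h0
    · exact ⟨y, hy, h⟩
    · obtain ⟨h1, h2, h3⟩ := sol_tree f hf i hi h0
      obtain ⟨x, hx, hx'⟩ := ih _ h1 (by omega)
      refine ⟨R.gs (sgen f i) • x, hx.smul _, ?_⟩
      have := (F.is_smul hf h2 (by omega)).1 hx'
      rwa [h3] at this

theorem Data.exists_gamma : ∃ f < 4, ∃ γ : Fin 162 → Ω, Function.Injective γ ∧ (∀ x, Dl G a b x ↔ ∃ i, γ i = x) ∧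
    (∀ i : Fin 162, Is G a b φ f i (γ i)) := by
  have hfin := D.fin
  have hc : Dl G a b c := by
    have : c ∈ {x | Dl G a b x} := by rw [D.Dl_eq]; exact MulAction.mem_orbit_self _
    exact this
  obtain ⟨f, hf, i0, hi0, h0⟩ := D.exists_is F hc
  obtain ⟨y, hy, hy'⟩ := D.is_zero F hf i0 hi0 c hc h0
  have hall := D.is_all F hf hy hy'
  choose γ hγ using fun i : Fin 162 => hall i i.2
  have hinj : Function.Injective γ := by
    intro i j hij
    apply Fin.ext
    apply sm_inj hf i.2 j.2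
    intro x hx
    have h1 := (hγ i).2 ⟨x, hx⟩
    have h2 := (hγ j).2 ⟨x, hx⟩
    rw [hij] at h1
    exact Bool.eq_iff_iff.2 (h1.symm.trans h2)
  have hr : Set.range γ = {x | Dl G a b x} := by
    refine Set.eq_of_subset_of_ncard_le ?_ ?_ (Set.toFinite _)
    · rintro _ ⟨i, rfl⟩
      exact (hγ i).1
    · rw [D.Dl_card, ← Set.image_univ, Set.ncard_image_of_injective _ hinj, Set.ncard_univ, Nat.card_eq_fintype_card,
        Fintype.card_fin]
  refine ⟨f, hf, γ, hinj, fun x => ?_, fun i => (hγ i).2⟩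
  have h3 : x ∈ Set.range γ ↔ x ∈ {x | Dl G a b x} := by rw [hr]
  exact h3.symm

end

end Cfsg.Agent.Lib.MLRec
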