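import Cfsg.Agent.Lib.MLRecI

/-!
# Recognition of the McLaughlin group: the isomorphism with the graph given by the tables
-/

set_option autoImplicit false
set_option maxHeartbeats 400000
set_option maxRecDepth 100000

namespace Cfsg.Agent.Lib.MLRec

open Cfsg Cfsg.Agent.Lib
open Cfsg.Agent.Lib.H58SM
open Cfsg.Agent.Lib.HSRec (Rel Rel.smul Rel.smul_iff not_mem_orbit Nb)
open scoped Pointwise

theorem aj_symm {u v : ℕ} (hu : u < 275) (hv : v < 275) : aj u v = aj v u := by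
  have h := alln_iff.1 aj_symm' u hu
  rw [frc_eq] at h
  exact beq_iff_eq.1 (alln_iff.1 h v hv)

theorem aj2 {x : ℕ} (hx : x < 112) : (∀ y < 112, aj (x + 1) (y + 1) = ad x y) ∧ ∀ i < 162, aj (x + 1) (i + 113) = bt (sm 0 i) x := by
  have h := alln_iff.1 aj2' x hx
  rw [frc_eq, frc_eq, Bool.and_eq_true] at h
  exact ⟨fun y hy => beq_iff_eq.1 (alln_iff.1 h.1 y hy), fun i hi => beq_iff_eq.1 (alln_iff.1 h.2 i hi)⟩

theorem aj3 {i j : ℕ} (hi : i < 162) (hj : j < 162) : aj (i + 113) (j + 113) = rm 0 i j := by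
  have h := alln_iff.1 aj3' i hi
  rw [frc_eq, frc_eq] at h
  exact beq_iff_eq.1 (alln_iff.1 h j hj)

theorem tau_sol {f j x : ℕ} (hf : f < 4) (hj : j < 162) (hx : x < 112) : bt (sm f j) (tau f x) = bt (sm 0 (tm f j)) x := by
  have h := alln_iff.1 (alln_iff.1 tau_sol' f hf) j hj
  rw [frc_eq, frc_eq] at h
  exact beq_iff_eq.1 (alln_iff.1 h x hx)

theorem tau_ad {f x y : ℕ} (hf : f < 4) (hx : x < 112) (hy : y < 112) : ad (tau f x) (tau f y) = ad x y := by
  have h := alln_iff.1 (alln_iff.1 tau_ad' f hf) x hx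
  rw [frc_eq, frc_eq] at h
  exact beq_iff_eq.1 (alln_iff.1 h y hy)

theorem tm_rm {f i j : ℕ} (hf : f < 4) (hi : i < 162) (hj : j < 162) : rm f i j = rm 0 (tm f i) (tm f j) := by
  have h := alln_iff.1 (alln_iff.1 tm_rm' f hf) i hi
  rw [frc_eq, frc_eq] at h
  exact beq_iff_eq.1 (alln_iff.1 h j hj)

section
variable {Ω G : Type*} [Group G] [MulAction G Ω] {a b c : Ω}

structure Gm (G : Type*) {Ω : Type*} [Group G] [MulAction G Ω] (a b : Ω) (φ : Fin 112 → Ω) (f : ℕ) (γ : Fin 162 → Ω) : Prop where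
  hf : f < 4
  inj : Function.Injective γ
  rng : ∀ x, Dl G a b x ↔ ∃ i, γ i = x
  is : ∀ i : Fin 162, Is G a b φ f i (γ i)

variable (D : Data G a b c) {R : Rep (MulAction.stabilizer G a)} {φ : Fin 112 → Ω} (F : Fr G a b R φ)
  {f : ℕ} {γ : Fin 162 → Ω} (E : Gm G a b φ f γ)

include F E in
theorem Gm.smul {g : ℕ} (hg : g < 2) (i : Fin 162) : R.gs g • γ i = γ ⟨nx f g i, nx_lt f E.hf g hg i i.2⟩ := by
  have h1 : Dl G a b (R.gs g • γ i) := ((E.rng _).2 ⟨i, rfl⟩).smul _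
  obtain ⟨k, hk⟩ := (E.rng _).1 h1
  have h2 := (F.is_smul E.hf hg i.2).1 (E.is i)
  rw [← hk] at h2 ⊢
  congr 1
  apply Fin.ext
  apply sm_inj E.hf k.2 (nx_lt f E.hf g hg i i.2)
  intro x hx
  exact Bool.eq_iff_iff.2 ((E.is k ⟨x, hx⟩).symm.trans (h2 ⟨x, hx⟩))

include D F E in
theorem Data.rm_zero (j : Fin 162) : Rel G a b (γ 0) (γ j) ↔ rm f 0 j = true := by
  have hfin := D.fin
  have hsub : {j : Fin 162 | Rel G a b (γ 0) (γ j)} ⊆ {j : Fin 162 | rm f 0 j = true} := by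
    intro j hj
    have h1 := alln_iff.1 rm_cap f E.hf
    rw [frc_eq] at h1
    have h2 := alln_iff.1 h1 j j.2
    rw [Bool.or_eq_true, Bool.or_eq_true] at h2
    rcases h2 with h2 | h2 | h2
    · exfalso
      have h3 : j = 0 := Fin.ext (Sol.beq_iff.1 h2)
      rw [h3] at hj
      exact D.loop _ hj
    · exfalso
      rw [Sol.blt_iff] at h2
      unfold cap at h2
      rw [rec_card (fun x => bt (sm f 0) x && bt (sm f j) x), ← ncard_fin, ← Set.ncard_image_of_injective _ F.inj] at h2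
      have h3 : (φ '' {i : Fin 112 | (bt (sm f 0) i && bt (sm f j) i) = true}) ⊆ Nb G a b (γ 0) ∩ Nb G a b (γ j) := by
        rintro _ ⟨i, hi, rfl⟩
        have hi' : (bt (sm f 0) i && bt (sm f j) i) = true := hi
        rw [Bool.and_eq_true] at hi'
        exact ⟨(E.is 0 i).2 hi'.1, (E.is j i).2 hi'.2⟩
      have h4 := Set.ncard_le_ncard h3 (Set.toFinite _)
      rw [F.lam _ _ hj] at h4
      omega
    · exact h2
  have hc1 : {j : Fin 162 | rm f 0 j = true}.ncard = 56 := by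
    rw [ncard_fin (fun j => rm f 0 j), ← rec_card]
    exact Sol.beq_iff.1 (rm_56 f E.hf)
  have h0 : Dl G a b (γ 0) := (E.rng _).2 ⟨0, rfl⟩
  have hc2 : {j : Fin 162 | Rel G a b (γ 0) (γ j)}.ncard = 56 := by
    rw [← Set.ncard_image_of_injective _ E.inj]
    have h1 : Nb G a b (γ 0) = (Nb G a b a ∩ Nb G a b (γ 0)) ∪ γ '' {j : Fin 162 | Rel G a b (γ 0) (γ j)} := by
      ext z
      constructor
      · intro hz
        by_cases hza : z = a
        · exfalso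
          rw [hza] at hz
          exact h0.2 (D.rel_symm hz)
        by_cases hz1 : Rel G a b a z
        · exact Or.inl ⟨hz1, hz⟩
        · obtain ⟨j, rfl⟩ := (E.rng z).1 ⟨hza, hz1⟩
          exact Or.inr ⟨j, hz, rfl⟩
      · rintro (⟨-, h⟩ | ⟨j, hj, rfl⟩)
        · exact h
        · exact hj
    have h2 : Disjoint (Nb G a b a ∩ Nb G a b (γ 0)) (γ '' {j : Fin 162 | Rel G a b (γ 0) (γ j)}) := by
      rw [Set.disjoint_left]
      rintro _ ⟨h3, -⟩ ⟨j, -, rfl⟩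
      exact ((E.rng _).2 ⟨j, rfl⟩).2 h3
    have h3 := Set.ncard_union_eq h2
    rw [← h1, D.card_Nb, F.mu _ _ (Ne.symm h0.1) h0.2] at h3
    omega
  have heq := Set.eq_of_subset_of_ncard_le hsub (by rw [hc1, hc2]) (Set.toFinite _)
  have h4 : j ∈ {j : Fin 162 | Rel G a b (γ 0) (γ j)} ↔ j ∈ {j : Fin 162 | rm f 0 j = true} := by rw [heq]
  exact h4

include D F E in
theorem Data.rm_all : ∀ i, (hi : i < 162) → ∀ j : Fin 162, (Rel G a b (γ ⟨i, hi⟩) (γ j) ↔ rm f i j = true) := by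
  intro i
  induction i using Nat.strong_induction_on with
  | _ i ih =>
    intro hi j
    rcases Nat.eq_zero_or_pos i with rfl | h0
    · exact D.rm_zero F E j
    · obtain ⟨h1, h2, h3⟩ := sol_tree f E.hf i hi h0
      obtain ⟨j', hj', hj''⟩ := nx_bij E.hf h2 j.2
      have e1 := E.smul F h2 ⟨spar f i, by omega⟩
      have e2 := E.smul F h2 ⟨j', hj'⟩
      have e3 : (⟨nx f (sgen f i) (spar f i), nx_lt f E.hf _ h2 _ (by omega)⟩ : Fin 162) = ⟨i, hi⟩ := Fin.ext h3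
      have e4 : (⟨nx f (sgen f i) j', nx_lt f E.hf _ h2 _ hj'⟩ : Fin 162) = j := Fin.ext hj''
      rw [e3] at e1
      rw [e4] at e2
      rw [← e1, ← e2]
      refine (Rel.smul_iff ((R.gs (sgen f i) : MulAction.stabilizer G a) : G)).trans ?_
      rw [ih _ h1 (by omega) ⟨j', hj'⟩]
      have h5 := rm_inv E.hf h2 (show spar f i < 162 by omega) hj'
      rw [h3, hj''] at h5
      rw [h5]

include D in
theorem Data.exists_psi (R : Rep (MulAction.stabilizer G a)) :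
    ∃ ψ : Fin 275 ≃ Ω, ∀ u v : Fin 275, Rel G a b (ψ u) (ψ v) ↔ aj u v = true := by
  classical
  have hfin := D.fin
  obtain ⟨φ, F⟩ := D.exists_fr R
  obtain ⟨f, hf, γ, g1, g2, g3⟩ := D.exists_gamma F
  have E : Gm G a b φ f γ := ⟨hf, g1, g2, g3⟩
  set τ : Fin 162 → Fin 162 := fun j => ⟨tm f j, tm_lt f hf j j.2⟩ with hτ
  have hτb : Function.Bijective τ := Finite.injective_iff_bijective.1 (by
    intro i j h
    exact Fin.ext (tm_inj hf i.2 j.2 (congrArg Fin.val h)))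
  set τe : Fin 162 ≃ Fin 162 := Equiv.ofBijective τ hτb with hτe
  set σ : Fin 112 → Fin 112 := fun x => ⟨tau f x, tau_lt f hf x x.2⟩ with hσ
  have hσb : Function.Bijective σ := Finite.injective_iff_bijective.1 (by
    intro i j h
    exact Fin.ext (tau_inj f hf i i.2 j j.2 (congrArg Fin.val h)))
  set ψ : Fin 275 → Ω := fun u => if h0 : (u : ℕ) = 0 then a else
    if h1 : (u : ℕ) < 113 then φ (σ ⟨(u : ℕ) - 1, by omega⟩) else γ (τe.symm ⟨(u : ℕ) - 113, by omega⟩) with hψ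
  have P1 : ψ 0 = a := by
    rw [hψ]; exact dif_pos rfl
  have P2 : ∀ x : Fin 112, ψ ⟨x + 1, by omega⟩ = φ (σ x) := by
    intro x
    rw [hψ]
    show (if h0 : (x : ℕ) + 1 = 0 then a else if h1 : (x : ℕ) + 1 < 113 then φ (σ ⟨(x : ℕ) + 1 - 1, by omega⟩) else _) = _
    rw [dif_neg (by omega), dif_pos (by omega)]
    congr 2
  have P3 : ∀ j : Fin 162, ψ ⟨tm f j + 113, by have := tm_lt f hf j j.2; omega⟩ = γ j := by
    intro j
    have hj := tm_lt f hf j j.2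
    rw [hψ]
    show (if h0 : tm f j + 113 = 0 then a else if h1 : tm f j + 113 < 113 then φ (σ ⟨tm f j + 113 - 1, by omega⟩) else
      γ (τe.symm ⟨tm f j + 113 - 113, by omega⟩)) = _
    rw [dif_neg (by omega), dif_neg (by omega)]
    congr 1
    rw [Equiv.symm_apply_eq]
    apply Fin.ext
    show tm f j + 113 - 113 = tm f j
    omega
  have cases' : ∀ u : Fin 275, u = 0 ∨ (∃ x : Fin 112, u = ⟨x + 1, by omega⟩) ∨
      ∃ j : Fin 162, u = ⟨tm f j + 113, by have := tm_lt f hf j j.2; omega⟩ := by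
    intro u
    by_cases h0 : (u : ℕ) = 0
    · exact Or.inl (Fin.ext h0)
    by_cases h1 : (u : ℕ) < 113
    · exact Or.inr (Or.inl ⟨⟨(u : ℕ) - 1, by omega⟩, Fin.ext (by show (u : ℕ) = (u : ℕ) - 1 + 1; omega)⟩)
    · obtain ⟨j, hj⟩ := hτb.2 ⟨(u : ℕ) - 113, by omega⟩
      refine Or.inr (Or.inr ⟨j, Fin.ext ?_⟩)
      have h2 : tm f j = (u : ℕ) - 113 := congrArg Fin.val hj
      show (u : ℕ) = tm f j + 113
      omega
  have hsurj : Function.Surjective ψ := by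
    intro z
    by_cases hza : z = a
    · exact ⟨0, by rw [P1, hza]⟩
    by_cases hz1 : Rel G a b a z
    · obtain ⟨i, rfl⟩ := (F.rng z).1 hz1
      obtain ⟨x, rfl⟩ := hσb.2 i
      exact ⟨_, P2 x⟩
    · obtain ⟨j, rfl⟩ := (E.rng z).1 ⟨hza, hz1⟩
      exact ⟨_, P3 j⟩
  have hbij : Function.Bijective ψ := hsurj.bijective_of_nat_card_le (by
    rw [D.card, Nat.card_eq_fintype_card, Fintype.card_fin])
  have hsym : ∀ u v : Fin 275, (Rel G a b (ψ u) (ψ v) ↔ aj u v = true) → (Rel G a b (ψ v) (ψ u) ↔ aj v u = true) := by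
    intro u v h
    rw [aj_symm v.2 u.2, ← h]
    exact ⟨D.rel_symm, D.rel_symm⟩
  have A00 : Rel G a b (ψ 0) (ψ 0) ↔ aj (0 : Fin 275) (0 : Fin 275) = true := by
    have h : aj (0 : Fin 275) (0 : Fin 275) = false := aj_irr 0 (by norm_num)
    rw [h]
    exact ⟨fun h => absurd h (D.loop _), fun h => absurd h (by decide)⟩
  have A01 : ∀ x : Fin 112, Rel G a b (ψ 0) (ψ ⟨x + 1, by omega⟩) ↔ aj (0 : Fin 275) (x + 1) = true := by
    intro x
    have h : aj (0 : Fin 275) (x + 1) = true := aj0 x x.2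
    rw [h, P1, P2]
    exact ⟨fun _ => rfl, fun _ => (F.rng _).2 ⟨_, rfl⟩⟩
  have A02 : ∀ j : Fin 162, Rel G a b (ψ 0) (ψ ⟨tm f j + 113, by have := tm_lt f hf j j.2; omega⟩) ↔
      aj (0 : Fin 275) (tm f j + 113) = true := by
    intro j
    have h : aj (0 : Fin 275) (tm f j + 113) = false := aj1 _ (tm_lt f hf j j.2)
    rw [h, P1, P3]
    exact ⟨fun h => absurd h ((E.rng _).2 ⟨_, rfl⟩).2, fun h => absurd h (by decide)⟩
  have A11 : ∀ x y : Fin 112, Rel G a b (ψ ⟨x + 1, by omega⟩) (ψ ⟨y + 1, by omega⟩) ↔ aj (x + 1) (y + 1) = true := by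
    intro x y
    rw [P2, P2, F.adj, (aj2 x.2).1 y y.2]
    show ad (tau f x) (tau f y) = true ↔ _
    rw [tau_ad hf x.2 y.2]
  have A12 : ∀ (x : Fin 112) (j : Fin 162), Rel G a b (ψ ⟨x + 1, by omega⟩)
      (ψ ⟨tm f j + 113, by have := tm_lt f hf j j.2; omega⟩) ↔ aj (x + 1) (tm f j + 113) = true := by
    intro x j
    rw [P2, P3, (aj2 x.2).2 _ (tm_lt f hf j j.2), ← tau_sol hf j.2 x.2]
    exact ⟨fun h => (E.is j (σ x)).1 (D.rel_symm h), fun h => D.rel_symm ((E.is j (σ x)).2 h)⟩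
  have A22 : ∀ i j : Fin 162, Rel G a b (ψ ⟨tm f i + 113, by have := tm_lt f hf i i.2; omega⟩)
      (ψ ⟨tm f j + 113, by have := tm_lt f hf j j.2; omega⟩) ↔ aj (tm f i + 113) (tm f j + 113) = true := by
    intro i j
    rw [P3, P3, aj3 (tm_lt f hf i i.2) (tm_lt f hf j j.2), ← tm_rm hf i.2 j.2]
    exact D.rm_all F E i i.2 j
  refine ⟨Equiv.ofBijective ψ hbij, fun u v => ?_⟩
  show Rel G a b (ψ u) (ψ v) ↔ _
  rcases cases' u with rfl | ⟨x, rfl⟩ | ⟨i, rfl⟩
  · rcases cases' v with rfl | ⟨y, rfl⟩ | ⟨j, rfl⟩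
    · exact A00
    · exact A01 y
    · exact A02 j
  · rcases cases' v with rfl | ⟨y, rfl⟩ | ⟨j, rfl⟩
    · exact hsym _ _ (A01 x)
    · exact A11 x y
    · exact A12 x j
  · rcases cases' v with rfl | ⟨y, rfl⟩ | ⟨j, rfl⟩
    · exact hsym _ _ (A02 i)
    · exact hsym _ _ (A12 y i)
    · exact A22 i j

end

end Cfsg.Agent.Lib.MLRec
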