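import Cfsg.Agent.Lib.MLRecJ
import Cfsg.Agent.Lib.MLRecL
import Cfsg.Agent.Lib.HSRec4
import Cfsg.Agent.Lib.LeechSyl5
import Cfsg.Agent.Lib.LeechCount6
import Cfsg.Agent.Lib.LeechChain3

/-!
# Recognition of the McLaughlin group as a permutation group of rank three
-/

set_option autoImplicit false
set_option maxHeartbeats 400000

namespace Cfsg.Agent.Lib.MLRec

open Cfsg Cfsg.Agent.Lib
open Cfsg.Agent.Lib.HSRec (Rel Rel.smul Rel.smul_iff not_mem_orbit Nb)
open scoped Pointwise

section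
variable {Ω G : Type*} [Group G] [MulAction G Ω] {a b c : Ω}

theorem Data.card_G (D : Data G a b c) (R : Rep (MulAction.stabilizer G a)) : Nat.card G = 898128000 := by
  have ht := D.trans
  have h1 := Subgroup.card_mul_index (MulAction.stabilizer G a)
  rw [MulAction.index_stabilizer_of_transitive, D.card, R.card] at h1
  omega

/-- the group as a subgroup of the automorphism group of the standard graph -/
theorem Data.exists_emb (D : Data G a b c) (R : Rep (MulAction.stabilizer G a)) [FaithfulSMul G Ω] :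
    ∃ L : Subgroup AutT, Nonempty (G ≃* L) ∧ Nat.card L = 898128000 := by
  obtain ⟨ψ, hψ⟩ := D.exists_psi R
  set Φ : G →* AutT :=
    { toFun := fun g => ⟨(ψ.trans (MulAction.toPerm g)).trans ψ.symm, by
        intro u v
        rw [Bool.eq_iff_iff, ← hψ, ← hψ]
        show Rel G a b (ψ (ψ.symm (g • ψ u))) (ψ (ψ.symm (g • ψ v))) ↔ _
        rw [ψ.apply_symm_apply, ψ.apply_symm_apply, Rel.smul_iff]⟩
      map_one' := by
        apply Subtype.ext
        apply Equiv.ext
        intro u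
        show ψ.symm ((1 : G) • ψ u) = u
        rw [one_smul, ψ.symm_apply_apply]
      map_mul' := by
        intro g h
        apply Subtype.ext
        apply Equiv.ext
        intro u
        show ψ.symm ((g * h) • ψ u) = ψ.symm (g • ψ (ψ.symm (h • ψ u)))
        rw [ψ.apply_symm_apply, mul_smul] } with hΦ
  have hinj : Function.Injective Φ := by
    intro g h hgh
    apply FaithfulSMul.eq_of_smul_eq_smul (α := Ω)
    intro x
    have h1 : (Φ g : Equiv.Perm (Fin 275)) (ψ.symm x) = (Φ h : Equiv.Perm (Fin 275)) (ψ.symm x) := by rw [hgh]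
    have h2 : ψ.symm (g • ψ (ψ.symm x)) = ψ.symm (h • ψ (ψ.symm x)) := h1
    rw [ψ.apply_symm_apply] at h2
    exact ψ.symm.injective h2
  refine ⟨Φ.range, ⟨MonoidHom.ofInjective hinj⟩, ?_⟩
  rw [← D.card_G R]
  exact (Nat.card_congr (MonoidHom.ofInjective hinj).toEquiv).symm

end

/-- two groups of this kind are isomorphic -/
theorem iso_of_two {Ω G : Type*} [Group G] [MulAction G Ω] {a b c : Ω} (D : Data G a b c)
    (R : Rep (MulAction.stabilizer G a)) [FaithfulSMul G Ω]
    {Ω' G' : Type*} [Group G'] [MulAction G' Ω'] {a' b' c' : Ω'} (D' : Data G' a' b' c')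
    (R' : Rep (MulAction.stabilizer G' a')) [FaithfulSMul G' Ω'] (hs : IsSimpleGroup G') : Nonempty (G ≃* G') := by
  obtain ⟨L, ⟨e⟩, hL⟩ := D.exists_emb R
  obtain ⟨N, ⟨e'⟩, hN⟩ := D'.exists_emb R'
  have hNs : IsSimpleGroup N := e'.isSimpleGroup_congr.1 hs
  have h1 := Subgroup.card_mul_index L
  have h2 := card_AutT
  have h3 : 0 < Nat.card AutT := Nat.card_pos
  rw [hL] at h1
  have h4 : L.index = 1 ∨ L.index = 2 := by omega
  have heq : L = N := by
    rcases h4 with h4 | h4
    · have h5 : L = ⊤ := Subgroup.index_eq_one.1 h4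
      have h6 : N = ⊤ := by
        apply Subgroup.eq_top_of_card_eq
        rw [hN, ← h1, h4]
      rw [h5, h6]
    · exact HSRec.eq_of_simple hNs (by rw [hN]; norm_num) h4 (by rw [hL, hN])
  exact ⟨e.trans ((MulEquiv.subgroupCongr heq).trans e'.symm)⟩

end Cfsg.Agent.Lib.MLRec

namespace Cfsg.Agent.Lib.MLRec

open Cfsg Cfsg.Agent.Lib.Golay Cfsg.Agent.Lib.LeechMin Cfsg.Agent.Lib.GolayCoset Cfsg.Agent.Lib.LeechXi
  Cfsg.Agent.Lib.LeechTrans Cfsg.Agent.Lib.LeechCo2 Cfsg.Agent.Lib.LeechFrame Cfsg.Agent.Lib.LeechCount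
  Cfsg.Agent.Lib.LeechOrder Cfsg.Agent.Lib.LeechMod Cfsg.Agent.Lib.LeechQuot Cfsg.Agent.Lib.LeechChain
  Cfsg.Agent.Lib.LeechSyl
open scoped Pointwise

abbrev MG : Type := ↥(fixL [X hab, U none])

/-- the 275 vectors -/
abbrev V275 : Type := {v : leechLattice // v ∈ cls [(X hab, 16), (U none, 24)] 32}

instance : MulAction MG V275 where
  smul g v := ⟨(g : Co0) • v.1, smul_mem_cls g.2 v.2⟩
  one_smul v := Subtype.ext (one_smul _ _)
  mul_smul g h v := Subtype.ext (mul_smul (g : Co0) (h : Co0) v.1)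

theorem memX : X hac ∈ cls [(X hab, 16), (U none, 24)] 32 := by
  refine ⟨?_, ?_⟩
  · rw [coe_X]; decide +kernel
  · simp only [List.forall_mem_cons, List.not_mem_nil, false_imp_iff, implies_true, and_true, coe_X, coe_U]
    decide +kernel

theorem memD : X had ∈ cls [(X hac, 16), (X hab, 16), (U none, 24)] 32 := by
  refine ⟨?_, ?_⟩
  · rw [coe_X]; decide +kernel
  · simp only [List.forall_mem_cons, List.not_mem_nil, false_imp_iff, implies_true, and_true, coe_X, coe_U]
    decide +kernel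

theorem memO : O2 (mset 13062145) oct_mem ∈ cls [(X hac, 8), (X hab, 16), (U none, 24)] 32 := by
  refine ⟨?_, ?_⟩
  · rw [coe_O]; decide +kernel
  · simp only [List.forall_mem_cons, List.not_mem_nil, false_imp_iff, implies_true, and_true, coe_X, coe_U, coe_O]
    decide +kernel

noncomputable def vX : V275 := ⟨X hac, memX⟩
noncomputable def vD : V275 := ⟨X had, mem_cls2.2 ⟨(mem_cls3.1 memD).1, (mem_cls3.1 memD).2.2⟩⟩
noncomputable def vO : V275 := ⟨O2 (mset 13062145) oct_mem, mem_cls2.2 ⟨(mem_cls3.1 memO).1, (mem_cls3.1 memO).2.2⟩⟩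

instance : MulAction.IsPretransitive MG V275 := by
  have key : ∀ v : V275, ∃ g : MG, g • vX = v := by
    intro v
    obtain ⟨g, hg, h⟩ := chain275.1 _ v.2
    exact ⟨⟨g, hg⟩, Subtype.ext h⟩
  refine ⟨fun x y => ?_⟩
  obtain ⟨g, rfl⟩ := key x
  obtain ⟨h, rfl⟩ := key y
  exact ⟨h * g⁻¹, by rw [mul_smul, inv_smul_smul]⟩

theorem card_V275 : Nat.card V275 = 275 := by
  rw [← cls275]
  exact Nat.card_coe_set_eq _

theorem finite_MG : Finite MG := Nat.finite_of_card_ne_zero (by rw [card_McL]; norm_num)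

instance : FaithfulSMul MG V275 := by
  have hs : IsSimpleGroup MG := McL_simple
  have hk : (MulAction.toPermHom MG V275).ker = ⊥ := by
    rcases hs.eq_bot_or_eq_top_of_normal (MulAction.toPermHom MG V275).ker inferInstance with h | h
    · exact h
    · exfalso
      have h1 : Subsingleton V275 := by
        refine ⟨fun x y => ?_⟩
        obtain ⟨g, rfl⟩ := MulAction.exists_smul_eq MG x y
        have h2 : g ∈ (MulAction.toPermHom MG V275).ker := by rw [h]; trivial
        have h3 : MulAction.toPermHom MG V275 g = 1 := h2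
        exact (congrArg (fun σ : Equiv.Perm V275 => σ x) h3).symm
      have h2 := card_V275
      rw [Nat.card_of_subsingleton (vX)] at h2
      norm_num at h2
  refine ⟨fun {g h} hgh => ?_⟩
  apply (MonoidHom.ker_eq_bot_iff _).1 hk
  exact Equiv.ext hgh

/-- the stabilizer -/
noncomputable def stabMap : MulAction.stabilizer MG vX ≃* fixL [X hac, X hab, U none] where
  toFun g := ⟨((g : MG) : Co0), mem_fix3.2 ⟨congrArg Subtype.val g.2, mem_fix2.1 (g : MG).2⟩⟩
  invFun g := ⟨⟨g.1, mem_fix2.2 (mem_fix3.1 g.2).2⟩, Subtype.ext (mem_fix3.1 g.2).1⟩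
  left_inv _ := rfl
  right_inv _ := rfl
  map_mul' _ _ := rfl

theorem orbit_ncard {z : V275} {d : ℤ} {n : ℕ} (hz : z.1 ∈ cls [(X hac, d), (X hab, 16), (U none, 24)] 32)
    (ht : ∀ y ∈ cls [(X hac, d), (X hab, 16), (U none, 24)] 32, ∃ g ∈ fixL [X hac, X hab, U none], g • z.1 = y)
    (hn : (cls [(X hac, d), (X hab, 16), (U none, 24)] 32).ncard = n) :
    (MulAction.orbit (MulAction.stabilizer MG vX) z).ncard = n := by
  rw [← hn]
  refine Set.ncard_congr (fun v _ => v.1) ?_ (fun v w _ _ h => Subtype.ext h) ?_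
  · rintro _ ⟨g, rfl⟩
    have h1 : ((g : MG) : Co0) • X hac = X hac := congrArg Subtype.val g.2
    have h2 := mem_fix2.1 (g : MG).2
    exact smul_mem_cls (g := ((g : MG) : Co0)) (C := [(X hac, d), (X hab, 16), (U none, 24)])
      (mem_fix3.2 ⟨h1, h2.1, h2.2⟩) hz
  · intro y hy
    obtain ⟨g, hg, h⟩ := ht y hy
    rw [mem_fix3] at hg
    have hy' := mem_cls3.1 hy
    refine ⟨⟨y, mem_cls2.2 ⟨hy'.1, hy'.2.2⟩⟩, ⟨⟨⟨g, mem_fix2.2 hg.2⟩, Subtype.ext hg.1⟩, Subtype.ext h⟩, rfl⟩

theorem dataMcL : Data MG vX vO vD := by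
  refine ⟨inferInstance, finite_MG, card_V275, ?_, ?_⟩
  · exact orbit_ncard (d := 8) memO chain112.1 cls112
  · exact orbit_ncard (d := 16) memD chain162.1 cls162

/-- the McLaughlin group of the Leech lattice -/
theorem sporMcL_iso : Nonempty (Spor.McL ≃* MG) := by
  have h1 : sqNorm ((-Spor.leechV : leechLattice) : GolayPt → ℤ) = 48 := by
    show sqNorm (-Spor.vecV) = 48
    decide +kernel
  have h2 : Spor.leechU ∈ cls [(-Spor.leechV, 24)] 32 := by
    rw [mem_cls1]
    constructor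
    · show sqNorm Spor.vecU = 32
      decide +kernel
    · show dotInt (-Spor.vecV) Spor.vecU = 24
      decide +kernel
  obtain ⟨k, hk1, hk2⟩ := std23 h1 h2
  have e : ↥(MulAction.stabilizer Co0 Spor.leechV ⊓ MulAction.stabilizer Co0 Spor.leechU) ≃* MG :=
    conjEquiv k _ _ (by
      intro g
      rw [mem_fix2, conj_fix hk1, conj_fix hk2, Subgroup.mem_inf, MulAction.mem_stabilizer_iff, MulAction.mem_stabilizer_iff,
        smul_neg']
      constructor
      · rintro ⟨h3, h4⟩
        exact ⟨h4, by rw [h3]⟩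
      · rintro ⟨h3, h4⟩
        exact ⟨neg_injective h4, h3⟩)
  exact ⟨(stab2Equiv Spor.leechV Spor.leechU).trans e⟩

/-- recognition -/
theorem recognise {Ω G : Type*} [Group G] [MulAction G Ω] {a b c : Ω} (D : Data G a b c) [FaithfulSMul G Ω]
    (K : Type) [Field K] [Fintype K] (hK : Fintype.card K = 9) (e : MulAction.stabilizer G a ≃* Cfsg.PSU 4 K 3) :
    Spor.IsoMcL G := by
  obtain ⟨R0⟩ := exists_rep
  obtain ⟨e3⟩ := H8LU.fieldEquiv (F := K) (E := H58F9.F9) (by rw [hK, H8LU43.cF9]; norm_num)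
  have R : Rep (MulAction.stabilizer G a) :=
    R0.map (((H3Prj.equivPSU (n := 4) (F := H58F9.F9) (q := 3) H8LU43.cF9 (by norm_num)).trans
      (SUTransport.psuEquiv e3 4 3).symm).trans e.symm)
  obtain ⟨e4⟩ := H8LU43.iso
  have R' : Rep (MulAction.stabilizer MG vX) := R0.map (stabMap.trans e4).symm
  obtain ⟨f⟩ := iso_of_two D R dataMcL R' McL_simple
  obtain ⟨f'⟩ := sporMcL_iso
  exact ⟨f.trans f'.symm⟩

end Cfsg.Agent.Lib.MLRec
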