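import Mathlib

/-!
# Additive characters of matrix spaces over a finite field (helper39)
-/

set_option autoImplicit false
set_option linter.unusedSectionVars false

namespace Cfsg.Agent.Lib.MatChar

open Matrix

variable {F : Type*} [Field F]

theorem exists_ne_one (F : Type*) [Field F] [Finite F] : ∃ lam : AddChar F ℂ, lam ≠ 1 := by
  have h1 : Nontrivial (AddChar F ℂ) := by
    rw [← Finite.one_lt_card_iff_nontrivial]
    have := Fintype.ofFinite F
    rw [Nat.card_eq_fintype_card, AddChar.card_eq]
    exact Fintype.one_lt_card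
  exact exists_ne 1

/-- If `ψ(c b) = 1` for all `b`, with `ψ` non-trivial, then `c = 0`. -/
theorem eq_zero_of_forall {ψ : AddChar F ℂ} (hψ : ψ ≠ 1) {c : F} (h : ∀ b, ψ (c * b) = 1) : c = 0 := by
  by_contra hc
  apply hψ
  ext x
  have := h (c⁻¹ * x)
  rw [← mul_assoc, mul_inv_cancel₀ hc, one_mul] at this
  rw [this, AddChar.one_apply]

theorem apply_ne_zero {A : Type*} [AddCommGroup A] (ψ : AddChar A ℂ) (a : A) : ψ a ≠ 0 :=
  (AddChar.val_isUnit ψ _).ne_zero

variable {n : Type*} [Fintype n] [DecidableEq n]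

/-- The character `M ↦ λ(tr (B M))`. -/
def mchar (lam : AddChar F ℂ) (B : Matrix n n F) : AddChar (Matrix n n F) ℂ where
  toFun M := lam (Matrix.trace (B * M))
  map_zero_eq_one' := by simp
  map_add_eq_mul' M N := by
    rw [Matrix.mul_add, Matrix.trace_add, AddChar.map_add_eq_mul]

theorem mchar_apply (lam : AddChar F ℂ) (B M : Matrix n n F) : mchar lam B M = lam (Matrix.trace (B * M)) := rfl

theorem mchar_injective {lam : AddChar F ℂ} (hlam : lam ≠ 1) : Function.Injective (mchar (n := n) lam) := by
  intro B B' h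
  ext i j
  rw [← sub_eq_zero]
  refine eq_zero_of_forall hlam fun b => ?_
  have h1 := DFunLike.congr_fun h (Matrix.single j i b)
  rw [mchar_apply, mchar_apply] at h1
  have h2 : ∀ C : Matrix n n F, Matrix.trace (C * Matrix.single j i b) = C i j * b := by
    intro C
    rw [Matrix.trace_mul_single]
    simp [mul_comm]
  rw [h2, h2] at h1
  rw [sub_mul, AddChar.map_sub_eq_div, h1, div_self (apply_ne_zero _ _)]

theorem mchar_surjective [Finite F] {lam : AddChar F ℂ} (hlam : lam ≠ 1) (ψ : AddChar (Matrix n n F) ℂ) :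
    ∃ B, mchar lam B = ψ := by
  have h1 := Fintype.ofFinite F
  classical
  have h2 : Fintype.card (Matrix n n F) = Fintype.card (AddChar (Matrix n n F) ℂ) := AddChar.card_eq.symm
  exact ((Fintype.bijective_iff_injective_and_card (mchar (n := n) lam)).2 ⟨mchar_injective hlam, h2⟩).2 ψ

end Cfsg.Agent.Lib.MatChar
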