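import Mathlib
import Cfsg.Prelude.Def_Sporadic_a
import Cfsg.Agent.Lib.CharBasic

/-!
# Steiner systems from multiply transitive actions (helper7)
-/

set_option autoImplicit false
set_option linter.all false

namespace Cfsg.Agent.Lib.MathieuAct

open MulAction Cfsg
open scoped Pointwise

universe u v

section K

variable {K : Type u} [Group K] [Finite K] {D : Type v} [Fintype D] [MulAction K D]

theorem comm_order {k t : K} (hk : orderOf k = 3) (ht : orderOf t = 2) (h : Commute k t) : orderOf (k * t) = 6 := by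
  have := h.orderOf_mul_eq_mul_orderOf_of_coprime (by rw [hk, ht]; norm_num)
  rw [this, hk, ht]

theorem ar_i (i j q : ℕ) (h1 : i + j = 47) (h2 : 19 + 3 * i + j = q * 48) (h3 : 16 ≤ j) : i = 15 ∧ q = 2 := by omega

theorem ar_orb (a b : ℕ) (h : a + b = 19) (ha : a ∣ 48) (hb : b ∣ 48) : a = 3 ∨ b = 3 := by
  have h1 : a ∈ Nat.divisors 48 := Nat.mem_divisors.2 ⟨ha, by norm_num⟩
  have key : ∀ a ∈ Nat.divisors 48, (19 - a) ∣ 48 → a ≤ 19 → a = 3 ∨ 19 - a = 3 := by decide
  have hb' : b = 19 - a := by omega
  rw [hb'] at hb ⊢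
  exact key a h1 hb (by omega)

/-- in a group of order 48 acting on 19 points, with involutions fixing 3 points and elements of order 3 fixing one point, all
involutions have the same fixed points -/
theorem fix_eq (hK : Nat.card K = 48) (hD : Fintype.card D = 19)
    (hfix : ∀ k : K, k ≠ 1 → (orderOf k = 2 ∧ Nat.card {d : D // k • d = d} = 3) ∨ (orderOf k = 3 ∧ Nat.card {d : D // k • d = d} = 1)) :
    ∀ s t : K, orderOf s = 2 → orderOf t = 2 → ∀ d : D, s • d = d → t • d = d := by
  classical
  have := Fintype.ofFinite K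
  have i3 : Fact (Nat.Prime 3) := ⟨by norm_num⟩
  obtain ⟨r, hr⟩ := exists_prime_orderOf_dvd_card' (G := K) 3 (by rw [hK]; norm_num)
  -- the number of elements of order 3
  set I := (Finset.univ.filter fun k : K => orderOf k = 2) with hI
  set J := (Finset.univ.filter fun k : K => orderOf k = 3) with hJ
  have hpart : ∀ k : K, k = 1 ∨ k ∈ I ∨ k ∈ J := by
    intro k
    by_cases h : k = 1
    · exact Or.inl h
    · rcases hfix k h with h | h
      · exact Or.inr (Or.inl (Finset.mem_filter.2 ⟨Finset.mem_univ _, h.1⟩))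
      · exact Or.inr (Or.inr (Finset.mem_filter.2 ⟨Finset.mem_univ _, h.1⟩))
  have hIJ : Disjoint I J := by
    rw [Finset.disjoint_left]
    intro k h1 h2
    rw [hI, Finset.mem_filter] at h1
    rw [hJ, Finset.mem_filter] at h2
    omega
  have h1I : (1 : K) ∉ I ∪ J := by
    rw [Finset.mem_union, hI, hJ, Finset.mem_filter, Finset.mem_filter, orderOf_one]
    omega
  have huniv : (Finset.univ : Finset K) = insert 1 (I ∪ J) := by
    ext k
    simp only [Finset.mem_univ, Finset.mem_insert, Finset.mem_union, true_iff]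
    exact hpart k
  have hcard : I.card + J.card = 47 := by
    have h1 : (Finset.univ : Finset K).card = 48 := by rw [Finset.card_univ, ← Nat.card_eq_fintype_card, hK]
    rw [huniv, Finset.card_insert_of_notMem h1I, Finset.card_union_of_disjoint hIJ] at h1
    omega
  have hburn := sum_card_fixedBy_eq_card_orbits_mul_card_group K D
  have hfb : ∀ k : K, Fintype.card (fixedBy D k) = Nat.card {d : D // k • d = d} := by
    intro k
    rw [Nat.card_eq_fintype_card]
    rfl
  rw [Finset.sum_congr rfl (fun k _ => hfb k), huniv, Finset.sum_insert h1I, Finset.sum_union hIJ] at hburn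
  have e1 : Nat.card {d : D // (1 : K) • d = d} = 19 := by
    rw [← hD, ← Nat.card_eq_fintype_card]
    exact Nat.card_congr (Equiv.subtypeUnivEquiv (fun ω => one_smul K ω))
  have e2 : ∑ k ∈ I, Nat.card {d : D // k • d = d} = I.card * 3 := by
    rw [Finset.sum_congr rfl (g := fun _ => 3), Finset.sum_const, smul_eq_mul]
    intro k hk
    rw [hI, Finset.mem_filter] at hk
    have hk1 : k ≠ 1 := by
      rintro rfl
      rw [orderOf_one] at hk; omega
    rcases hfix k hk1 with h | h
    · exact h.2
    · have := h.1; omega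
  have e3 : ∑ k ∈ J, Nat.card {d : D // k • d = d} = J.card := by
    rw [Finset.sum_congr rfl (g := fun _ => 1), Finset.sum_const, smul_eq_mul, mul_one]
    intro k hk
    rw [hJ, Finset.mem_filter] at hk
    have hk1 : k ≠ 1 := by
      rintro rfl
      rw [orderOf_one] at hk; omega
    rcases hfix k hk1 with h | h
    · have := h.1; omega
    · exact h.2
  rw [e1, e2, e3, ← Nat.card_eq_fintype_card (α := K), hK] at hburn
  -- at least 16 elements of order 3
  have hC : Nat.card (Subgroup.centralizer ({r} : Set K)) ≤ 3 := by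
    have h1 : IsPGroup 3 (Subgroup.centralizer ({r} : Set K)) := by
      rw [IsPGroup.iff_orderOf]
      intro c
      by_cases hc : c = 1
      · exact ⟨0, by rw [hc, orderOf_one, pow_zero]⟩
      · have hc' : (c : K) ≠ 1 := fun h => hc (Subtype.ext h)
        rcases hfix c hc' with h | h
        · exfalso
          have hcm : Commute r (c : K) := by
            have := Subgroup.mem_centralizer_singleton_iff.1 c.2
            exact this.symm
          have h6 := comm_order hr h.1 hcm
          have hne : r * (c : K) ≠ 1 := by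
            intro h; rw [h, orderOf_one] at h6; omega
          rcases hfix _ hne with h | h
          · have := h.1; omega
          · have := h.1; omega
        · exact ⟨1, by rw [pow_one, ← h.1, Subgroup.orderOf_coe]⟩
    obtain ⟨m, hm⟩ := IsPGroup.iff_card.1 h1
    have h2 := Subgroup.card_subgroup_dvd_card (Subgroup.centralizer ({r} : Set K))
    rw [hm, hK] at h2
    rw [hm]
    rcases Nat.lt_or_ge m 2 with h | h
    · have : m ≤ 1 := by omega
      calc 3 ^ m ≤ 3 ^ 1 := Nat.pow_le_pow_right (by norm_num) this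
        _ = 3 := by norm_num
    · exfalso
      have h3 : 3 ^ 2 ∣ 48 := (pow_dvd_pow 3 h).trans h2
      norm_num at h3
  have hJ16 : 16 ≤ J.card := by
    have h1 := CharBasic.card_isConj_mul_card_centralizer r
    rw [hK] at h1
    have h2 : Nat.card {h : K // IsConj r h} ≤ J.card := by
      rw [Nat.card_eq_fintype_card, Fintype.card_subtype]
      apply Finset.card_le_card
      intro k hk
      rw [Finset.mem_filter] at hk
      obtain ⟨c, hc⟩ := isConj_iff.1 hk.2
      rw [hJ, Finset.mem_filter]
      refine ⟨Finset.mem_univ _, ?_⟩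
      rw [← hc, ← hr]
      exact orderOf_injective (MulAut.conj c).toMonoidHom (MulAut.conj c).injective r
    by_contra hlt
    push Not at hlt
    have h3 : Nat.card {h : K // IsConj r h} ≤ 15 := by omega
    have h4 : Nat.card {h : K // IsConj r h} * Nat.card (Subgroup.centralizer ({r} : Set K)) ≤ 15 * 3 := Nat.mul_le_mul h3 hC
    omega
  obtain ⟨hi, hq⟩ := ar_i I.card J.card (Fintype.card (Quotient (orbitRel K D))) hcard (by linarith) hJ16
  -- two orbits
  have hq2 : (Finset.univ : Finset (Quotient (orbitRel K D))).card = 2 := by rw [Finset.card_univ, hq]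
  obtain ⟨q1, q2, h12, hu⟩ := Finset.card_eq_two.1 hq2
  have hsum : Nat.card (orbit K q1.out) + Nat.card (orbit K q2.out) = 19 := by
    have h1 := Nat.card_congr (selfEquivSigmaOrbits K D)
    rw [Nat.card_eq_fintype_card, hD, Nat.card_sigma, hu, Finset.sum_pair h12] at h1
    exact h1.symm
  have hos : ∀ p : D, Nat.card (orbit K p) * Nat.card (stabilizer K p) = 48 := by
    intro p
    rw [← hK, Nat.card_congr (orbitProdStabilizerEquivGroup K p).symm, Nat.card_prod]
  have hdv : ∀ p : D, Nat.card (orbit K p) ∣ 48 := fun p => ⟨_, (hos p).symm⟩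
  obtain ⟨p, hp⟩ : ∃ p : D, Nat.card (orbit K p) = 3 := by
    rcases ar_orb _ _ hsum (hdv _) (hdv _) with h | h
    · exact ⟨_, h⟩
    · exact ⟨_, h⟩
  have hst : ∀ p' : D, Nat.card (orbit K p') = 3 → ∀ s : K, orderOf s = 2 → s • p' = p' := by
    intro p' hp' s hs
    have h1 := hos p'
    rw [hp'] at h1
    have h2 : Nat.card (stabilizer K p') = 16 := by omega
    have h3 : (Finset.univ.filter fun k : K => k ∈ stabilizer K p') ⊆ insert 1 I := by
      intro k hk
      rw [Finset.mem_filter] at hk
      rcases hpart k with h | h | h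
      · rw [h]; exact Finset.mem_insert_self _ _
      · exact Finset.mem_insert_of_mem h
      · exfalso
        rw [hJ, Finset.mem_filter] at h
        have h4 : orderOf (⟨k, hk.2⟩ : stabilizer K p') ∣ 16 := by
          rw [← h2]; exact orderOf_dvd_natCard _
        rw [Subgroup.orderOf_mk, h.2] at h4
        norm_num at h4
    have h4 : (Finset.univ.filter fun k : K => k ∈ stabilizer K p') = insert 1 I := by
      apply Finset.eq_of_subset_of_card_le h3
      have h5 : (1 : K) ∉ I := fun h => h1I (Finset.mem_union_left _ h)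
      rw [Finset.card_insert_of_notMem h5, hi]
      have h6 : (Finset.univ.filter fun k : K => k ∈ stabilizer K p').card = Nat.card (stabilizer K p') := by
        rw [← Fintype.card_subtype, ← Nat.card_eq_fintype_card]
      rw [h6, h2]
    have h5 : s ∈ insert 1 I := by
      apply Finset.mem_insert_of_mem
      rw [hI, Finset.mem_filter]
      exact ⟨Finset.mem_univ _, hs⟩
    rw [← h4, Finset.mem_filter] at h5
    exact h5.2
  have horb : ∀ p' ∈ orbit K p, Nat.card (orbit K p') = 3 := by
    intro p' hp'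
    rw [orbit_eq_iff.2 hp', hp]
  intro s t hs ht d hd
  have hs1 : s ≠ 1 := by rintro rfl; rw [orderOf_one] at hs; omega
  have hfs : Nat.card {d : D // s • d = d} = 3 := by
    rcases hfix s hs1 with h | h
    · exact h.2
    · have := h.1; omega
  have h1 : orbit K p = {d : D | s • d = d} := by
    apply Set.eq_of_subset_of_ncard_le
    · intro p' hp'
      exact hst p' (horb p' hp') s hs
    · rw [← Nat.card_coe_set_eq, ← Nat.card_coe_set_eq, hp]
      exact hfs.le
    · exact Set.toFinite _
  have h2 : d ∈ orbit K p := by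
    rw [h1]; exact hd
  exact hst d (horb d h2) t ht

end K

section G

variable {G : Type u} [Group G] [Finite G] {Ω : Type v} [Fintype Ω] [DecidableEq Ω] [MulAction G Ω]

/-- the fixed points -/
noncomputable def Fx (g : G) : Finset Ω := by
  classical
  exact Finset.univ.filter fun ω => g • ω = ω

theorem mem_Fx (g : G) (ω : Ω) : ω ∈ Fx g ↔ g • ω = ω := by
  classical
  rw [Fx, Finset.mem_filter]
  exact ⟨fun h => h.2, fun h => ⟨Finset.mem_univ _, h⟩⟩

theorem card_Fx (g : G) : (Fx g : Finset Ω).card = Nat.card {ω : Ω // g • ω = ω} := by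
  classical
  rw [Fx, Nat.card_eq_fintype_card, Fintype.card_subtype]

/-- the hypotheses -/
structure Hyp (G : Type u) [Group G] [Finite G] (Ω : Type v) [Fintype Ω] [DecidableEq Ω] [MulAction G Ω] (f : ℕ) : Prop where
  card : Fintype.card Ω = 19 + f
  cK : ∀ S : Finset Ω, S.card = f → Nat.card (fixingSubgroup G (S : Set Ω)) = 48
  fix : ∀ g : G, g ≠ 1 → f ≤ Nat.card {ω : Ω // g • ω = ω} →
    (orderOf g = 2 ∧ Nat.card {ω : Ω // g • ω = ω} = f + 3) ∨ (orderOf g = 3 ∧ Nat.card {ω : Ω // g • ω = ω} = f + 1)

variable {f : ℕ} (H : Hyp G Ω f)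
include H

theorem Hyp.eq_of_le {s t : G} (hs : orderOf s = 2) (ht : orderOf t = 2) {S : Finset Ω} (hS : S.card = f)
    (hsS : S ⊆ Fx s) (htS : S ⊆ Fx t) : (Fx s : Finset Ω) = Fx t := by
  classical
  have hsK : s ∈ fixingSubgroup G (S : Set Ω) := by
    rw [mem_fixingSubgroup_iff]
    intro ω hω
    exact (mem_Fx s ω).1 (hsS hω)
  have htK : t ∈ fixingSubgroup G (S : Set Ω) := by
    rw [mem_fixingSubgroup_iff]
    intro ω hω
    exact (mem_Fx t ω).1 (htS hω)
  have hD : Fintype.card (SubMulAction.ofFixingSubgroup G (S : Set Ω)) = 19 := by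
    have h1 : Fintype.card (SubMulAction.ofFixingSubgroup G (S : Set Ω)) = (Finset.univ \ S).card := by
      rw [Fintype.card_subtype]
      congr 1
      ext ω
      rw [Finset.mem_filter, Finset.mem_sdiff]
      rfl
    rw [h1, Finset.card_sdiff_of_subset (Finset.subset_univ _), Finset.card_univ, H.card, hS]
    omega
  have key := fix_eq (K := fixingSubgroup G (S : Set Ω)) (D := SubMulAction.ofFixingSubgroup G (S : Set Ω)) (H.cK S hS) hD ?_
  · ext ω
    rw [mem_Fx, mem_Fx]
    by_cases hω : ω ∈ S
    · exact ⟨fun _ => (mem_Fx t ω).1 (htS hω), fun _ => (mem_Fx s ω).1 (hsS hω)⟩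
    · have e1 := key ⟨s, hsK⟩ ⟨t, htK⟩ (by rw [Subgroup.orderOf_mk, hs]) (by rw [Subgroup.orderOf_mk, ht]) ⟨ω, hω⟩
      have e2 := key ⟨t, htK⟩ ⟨s, hsK⟩ (by rw [Subgroup.orderOf_mk, ht]) (by rw [Subgroup.orderOf_mk, hs]) ⟨ω, hω⟩
      constructor
      · intro h
        exact congrArg Subtype.val (e1 (Subtype.ext h))
      · intro h
        exact congrArg Subtype.val (e2 (Subtype.ext h))
  · intro k hk
    have hk1 : (k : G) ≠ 1 := fun h => hk (Subtype.ext h)
    have hSk : S ⊆ Fx (k : G) := by
      intro ω hω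
      rw [mem_Fx]
      exact (mem_fixingSubgroup_iff G).1 k.2 ω hω
    have hcount : (Fx (k : G) : Finset Ω).card = f + Nat.card {d : SubMulAction.ofFixingSubgroup G (S : Set Ω) // k • d = d} := by
      have h1 : Nat.card {d : SubMulAction.ofFixingSubgroup G (S : Set Ω) // k • d = d} = ((Fx (k : G) : Finset Ω) \ S).card := by
        rw [← Fintype.card_coe, ← Nat.card_eq_fintype_card]
        apply Nat.card_congr
        refine
          { toFun := fun d => ⟨d.1.1, ?_⟩
            invFun := fun ω => ⟨⟨ω.1, ?_⟩, ?_⟩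
            left_inv := fun d => rfl
            right_inv := fun ω => rfl }
        · rw [Finset.mem_sdiff, mem_Fx]
          exact ⟨congrArg Subtype.val d.2, d.1.2⟩
        · exact (Finset.mem_sdiff.1 ω.2).2
        · exact Subtype.ext ((mem_Fx _ _).1 (Finset.mem_sdiff.1 ω.2).1)
      rw [h1, Finset.card_sdiff_of_subset hSk, hS]
      have := Finset.card_le_card hSk
      omega
    have hle : f ≤ Nat.card {ω : Ω // (k : G) • ω = ω} := by
      rw [← card_Fx, ← hS]
      exact Finset.card_le_card hSk
    rw [card_Fx] at hcount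
    rcases H.fix _ hk1 hle with h | h
    · left
      refine ⟨by rw [← h.1, Subgroup.orderOf_coe], by omega⟩
    · right
      refine ⟨by rw [← h.1, Subgroup.orderOf_coe], by omega⟩

/-- the blocks -/
def Hyp.B (H : Hyp G Ω f) : Set (Finset Ω) := {b | ∃ t : G, orderOf t = 2 ∧ b.card = f + 3 ∧ b = Fx t}

theorem Hyp.steiner : IsSteinerSystem f (f + 3) H.B := by
  classical
  refine ⟨?_, ?_⟩
  · rintro b ⟨t, ht, hb, -⟩
    exact hb
  · intro S hS
    have h2 : Fact (Nat.Prime 2) := ⟨by norm_num⟩
    obtain ⟨t, ht⟩ := exists_prime_orderOf_dvd_card' (G := fixingSubgroup G (S : Set Ω)) 2 (by rw [H.cK S hS]; norm_num)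
    have ht' : orderOf (t : G) = 2 := by rw [Subgroup.orderOf_coe, ht]
    have hSt : S ⊆ Fx (t : G) := by
      intro ω hω
      rw [mem_Fx]
      exact (mem_fixingSubgroup_iff G).1 t.2 ω hω
    have ht1 : (t : G) ≠ 1 := by
      intro h; rw [h, orderOf_one] at ht'; omega
    have hc : (Fx (t : G) : Finset Ω).card = f + 3 := by
      have hle : f ≤ Nat.card {ω : Ω // (t : G) • ω = ω} := by
        rw [← card_Fx, ← hS]
        exact Finset.card_le_card hSt
      rcases H.fix _ ht1 hle with h | h
      · rw [card_Fx]; exact h.2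
      · have := h.1; omega
    refine ⟨Fx (t : G), ⟨⟨t, ht', hc, rfl⟩, hSt⟩, ?_⟩
    rintro b ⟨⟨s, hs, hb, rfl⟩, hSb⟩
    exact H.eq_of_le hs ht' hS hSb hSt

omit H in
theorem smul_Fx (g t : G) : g • (Fx t : Finset Ω) = Fx (g * t * g⁻¹) := by
  ext ω
  rw [← Finset.inv_smul_mem_iff, mem_Fx, mem_Fx, mul_smul, mul_smul, ← eq_inv_smul_iff (g := g)]

/-- the group acts on the Steiner system -/
theorem Hyp.exists_hom (hf : ∀ g : G, (∀ ω : Ω, g • ω = ω) → g = 1) : ∃ φ : G →* setSystemAut H.B, Function.Injective φ := by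
  classical
  have hle : ∀ g : G, g • H.B ⊆ H.B := by
    rintro g _ ⟨b, ⟨t, ht, hb, rfl⟩, rfl⟩
    refine ⟨g * t * g⁻¹, ?_, ?_, ?_⟩
    · rw [← ht]
      exact orderOf_injective (MulAut.conj g).toMonoidHom (MulAut.conj g).injective t
    · show (g • (Fx t : Finset Ω)).card = _
      rw [Finset.card_smul_finset, hb]
    · show g • (Fx t : Finset Ω) = _
      rw [smul_Fx]
  have hst : ∀ g : G, g • H.B = H.B := by
    intro g
    apply Set.Subset.antisymm (hle g)
    have := hle g⁻¹
    rwa [Set.smul_set_subset_iff_subset_inv_smul_set, inv_inv] at this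
  have hmem : ∀ g : G, MulAction.toPermHom G Ω g ∈ setSystemAut H.B := by
    intro g
    rw [MulAction.mem_stabilizer_iff]
    have := hst g
    exact this
  refine ⟨(MulAction.toPermHom G Ω).codRestrict _ hmem, ?_⟩
  rw [injective_iff_map_eq_one]
  intro g hg
  apply hf
  intro ω
  have h1 : MulAction.toPermHom G Ω g = 1 := congrArg Subtype.val hg
  have := congrArg (fun e : Equiv.Perm Ω => e ω) h1
  exact this

end G

section card

variable {G : Type u} [Group G] [Finite G] {Ω : Type v} [Fintype Ω] [DecidableEq Ω] [MulAction G Ω]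

theorem card_fixing {f : ℕ} (h : IsMultiplyPretransitive G Ω f) (S : Finset Ω) (hS : S.card = f) :
    Nat.card (fixingSubgroup G (S : Set Ω)) * (Fintype.card Ω).descFactorial f = Nat.card G := by
  classical
  let e0 : Fin f ≃ S := (S.equivFinOfCardEq hS).symm
  let e : Fin f ↪ Ω := e0.toEmbedding.trans (Function.Embedding.subtype _)
  have h1 : stabilizer G e = fixingSubgroup G (S : Set Ω) := by
    ext g
    rw [mem_stabilizer_iff, mem_fixingSubgroup_iff]
    constructor
    · intro h ω hω
      have h2 := congrArg (fun z : Fin f ↪ Ω => z (e0.symm ⟨ω, hω⟩)) h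
      have h3 : e (e0.symm ⟨ω, hω⟩) = ω := by
        show ((e0 (e0.symm ⟨ω, hω⟩) : S) : Ω) = ω
        rw [e0.apply_symm_apply]
      have h4 : g • e (e0.symm ⟨ω, hω⟩) = e (e0.symm ⟨ω, hω⟩) := h2
      rwa [h3] at h4
    · intro h
      ext i
      exact h _ (e0 i).2
  have h2 : orbit G e = Set.univ := MulAction.orbit_eq_univ G e
  have h3 := Nat.card_congr (orbitProdStabilizerEquivGroup G e)
  rw [Nat.card_prod, h1, h2, Nat.card_univ, Nat.card_eq_fintype_card (α := Fin f ↪ Ω), Fintype.card_embedding_eq, Fintype.card_fin] at h3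
  rw [← h3, mul_comm]

end card

end Cfsg.Agent.Lib.MathieuAct
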