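import Cfsg.Agent.Lib.MathieuFus

set_option autoImplicit false
set_option linter.unusedVariables false

/-!
A variant of `MathieuFus.center_eq`.
-/

namespace Cfsg.Agent.Lib.MathieuFus

open Cfsg Cfsg.Agent.Lib.Golay
open scoped Pointwise

theorem center_eq' {L : List ℕ} (hL : ∀ c ∈ L, valid c = true) {G : Subgroup (Equiv.Perm GolayPt)} {z x0 X : ℕ}
    (hz : valid z = true) (hzG : toPerm z ∈ G) (hx0 : x0 < 24)
    (hzc : (L.all fun c => Nat.beq (mulC z c) (mulC c z)) = true)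
    (hX : trOK L [] x0 X = true)
    (hfix : ∀ g ∈ G, (∀ p ∈ mset X, g p = p) → g = 1)
    (hc : ∀ y : GolayPt, fxC L x0 (ix y) = true → fxC L (ix y) x0 = true → y = pt x0 ∨ y = toPerm z (pt x0))
    {c : Equiv.Perm GolayPt} (hcG : c ∈ G) (hcW : ∀ w ∈ WL L, c * w = w * c) : c = 1 ∨ c = toPerm z := by
  have hzL : ∀ w ∈ WL L, toPerm z * w = w * toPerm z := zc_of hL hz hzc
  have key : ∀ c ∈ G, (∀ w ∈ WL L, c * w = w * c) → c (pt x0) = pt x0 → c = 1 := by
    intro c hcG hcW hc0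
    apply hfix c hcG
    intro p hp
    obtain ⟨w, hw, -, rfl⟩ := tr_exists hL hX (by simp) hx0 p hp
    rw [← Equiv.Perm.mul_apply, hcW w hw, Equiv.Perm.mul_apply, hc0]
  have hF : Fx (WL L) (pt x0) (c (pt x0)) := by
    intro u hu hux
    rw [← Equiv.Perm.mul_apply, ← hcW u hu, Equiv.Perm.mul_apply, hux]
  have hF' : Fx (WL L) (c (pt x0)) (pt x0) := by
    intro u hu hux
    rw [← Equiv.Perm.mul_apply, ← hcW u hu, Equiv.Perm.mul_apply] at hux
    exact c.injective hux
  have h2 := fx_check hL hF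
  have h2' := fx_check hL hF'
  rw [ix_pt hx0] at h2 h2'
  rcases hc _ h2 h2' with h3 | h3
  · exact Or.inl (key c hcG hcW h3)
  · right
    have h4 := key ((toPerm z)⁻¹ * c) (G.mul_mem (G.inv_mem hzG) hcG) (by
      intro w hw
      have h5 := hzL w hw
      have h6 : (toPerm z)⁻¹ * w = w * (toPerm z)⁻¹ := by
        rw [inv_mul_eq_iff_eq_mul, ← mul_assoc, h5, mul_inv_cancel_right]
      rw [mul_assoc, hcW w hw, ← mul_assoc, h6, mul_assoc]) (by
      rw [Equiv.Perm.mul_apply, h3, pia])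
    rw [inv_mul_eq_one] at h4
    exact h4.symm

end Cfsg.Agent.Lib.MathieuFus
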