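import Cfsg.Agent.Lib.MathieuFus2

set_option autoImplicit false
set_option linter.unusedVariables false
open Cfsg

/-!
The common Sylow `2`-subgroup of the Mathieu groups `M₂₂` and `M₂₃`.
-/

namespace Cfsg.Agent.Lib.MathieuFus22

open Cfsg.Agent.Lib.Golay Cfsg.Agent.Lib.MathieuFus Cfsg.Spor
open scoped Pointwise

/-- the central involution -/
def z : ℕ := 976448692869377735270425038196672544

/-- generators of the Sylow subgroup, all conjugate to `z` -/
def L : List ℕ := [976448692869377735270425038196672544, 976990105829392847739289005721748544, 984202951082164080105044112956360736, 984724508489452699215480746259449888, 984235865005994746954145143334668320, 961365507626256404119956257276790816, 965128854020860192151391391390468128, 970499966350631336865513127433832480, 963721886883755259286232606933354528, 980224387687010295957922729495201824, 975346028712660580592452217730074656, 966182099583441531322624363496310816, 968708902336673183175954409307867168, 983548720921252936276249910206105632, 981818691054096003685363657089320992,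 979121071158219704299181131031480352, 972512676110088067912772961567868960, 971592882964418941354553515258775584, 967812279691448225500382947153381408]

def st : List (ℕ × ℕ × ℕ × ℕ) := [(0, 981810648906475789432558603247733120, 0, 976990105829392847739289005721748544), (0, 979044126415307186514329648051438272, 0, 984202951082164080105044112956360736), (0, 973893318293474567736540135736150048, 0, 984724508489452699215480746259449888), (0, 982782239397782829619404432209952896, 0, 984235865005994746954145143334668320), (0, 984397409164513887749813228543186464, 0, 961365507626256404119956257276790816), (0, 971787934720182891153394745796101664, 0, 965128854020860192151391391390468128), (0, 979587474431140599959722894801569312, 0, 970499966350631336865513127433832480), (0, 980315064988907641559769027712301152, 0, 963721886883755259286232606933354528), (0, 976949543002629956531815179028183072, 0, 980224387687010295957922729495201824), (0, 976706035365292456604423906837728288, 0, 975346028712660580592452217730074656), (0, 979133655582709757997173875304105408,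 0, 966182099583441531322624363496310816), (0, 971382100833614142371526053008163872, 0, 968708902336673183175954409307867168), (0, 981651292625489150881968468735855040, 0, 983548720921252936276249910206105632), (0, 984126887911473146706055828623922208, 0, 981818691054096003685363657089320992), (0, 977020751796747994931303206606649888, 0, 979121071158219704299181131031480352), (0, 983012951612526918446581083863681056, 0, 972512676110088067912772961567868960), (0, 984716461758269456464882110199547328, 0, 971592882964418941354553515258775584), (0, 972521681601923578286694044990379072, 0, 967812279691448225500382947153381408)]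

/-- blocks -/
def c2 : ℕ := 5359790266897531377903919335277600

/-- orbits -/
def co : ℕ := 5359790266897531377903919368865857

def stepsX : List (ℕ × ℕ) := [(4845570, 6053905), (13062145, 13938692), (13062145, 7221256), (13062145, 13062145), (4845570, 4845570), (13938692, 13938692), (7221256, 7221256), (11952160, 11952160)]

def in22 (c : ℕ) : Bool := inM c && (Nat.beq (img c 23) 23 && Nat.beq (img c 0) 0)

theorem hLin : ∀ c ∈ L, in22 c = true := by decide +kernel

theorem mem22 {c : ℕ} (h : in22 c = true) : toPerm c ∈ M22 := by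
  unfold in22 at h
  rw [Bool.and_eq_true, Bool.and_eq_true] at h
  obtain ⟨h1, h2, h3⟩ := h
  have hv := valid_of_inM h1
  refine ⟨⟨toPerm_mem_M24 h1, ?_⟩, ?_⟩
  · refine MulAction.mem_stabilizer_iff.mpr ?_
    have h4 := toPerm_pt hv (i := 23) (by norm_num)
    rw [Nat.eq_of_beq_eq_true h2] at h4
    exact h4
  · refine MulAction.mem_stabilizer_iff.mpr ?_
    have h4 := toPerm_pt hv (i := 0) (by norm_num)
    rw [Nat.eq_of_beq_eq_true h3] at h4
    exact h4

variable {G : Subgroup (Equiv.Perm GolayPt)}

theorem hG (h : M22 ≤ G) : ∀ c, in22 c = true → valid c = true ∧ toPerm c ∈ G := fun c hc =>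
  ⟨valid_of_inM ((Bool.and_eq_true _ _).mp hc).1, h (mem22 hc)⟩

theorem hLv : ∀ c ∈ L, valid c = true := fun c hc => (hG le_rfl c (hLin c hc)).1

theorem hzL : z ∈ L := by decide +kernel

theorem hz1 : toPerm z ≠ 1 := toPerm_ne_one (hLv _ hzL) (i := 4) (by norm_num) (by decide +kernel)

theorem hzc : (L.all fun c => Nat.beq (mulC z c) (mulC c z)) = true := by decide +kernel

theorem hcen (h1 : M22 ≤ G) (h2 : G ≤ M24) : ∀ c ∈ G, (∀ w ∈ WL L, c * w = w * c) → c = 1 ∨ c = toPerm z := by
  intro c hc hw
  refine center_eq' (x0 := 4) (X := 8241104) hLv (hLv _ hzL) (hG h1 _ (hLin _ hzL)).2 (by norm_num) hzc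
    (by decide +kernel) (fun g hg hX => fixRun_sound (h2 hg) stepsX 8241104 (by decide +kernel) hX) ?_ hc hw
  have h : ∀ y : GolayPt, fxC L 4 (ix y) = true → fxC L (ix y) 4 = true → y = pt 4 ∨ y = pt (img z (ix (pt 4))) := by
    decide +kernel
  intro y hy
  rw [toPerm_apply (hLv _ hzL)]
  exact h y hy

theorem col2 : colOK L c2 = true := by decide +kernel
theorem colo : invOK L co = true := by decide +kernel

theorem hO : ∀ y : GolayPt, Nat.beq (img z (ix y)) (ix y) = true ↔ y ∈ mset 8536111 := by decide +kernel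

theorem hWG (h1 : M22 ≤ G) : WL L ≤ G := WL_le fun c hc => (hG h1 c (hLin c hc)).2

variable {g : Equiv.Perm GolayPt}

theorem Oiff (h1 : M22 ≤ G) (h2 : G ≤ M24) (hg : g ∈ NW G L) (y : GolayPt) : g y ∈ mset 8536111 ↔ y ∈ mset 8536111 :=
  fix_z (comm_z (hcen h1 h2) hz1 (hG h1 _ (hLin _ hzL)).2 (zc_of hLv (hLv _ hzL) hzc) hg) (hLv _ hzL) hO y

theorem g0 (hg : g ∈ NW G L) (h23 : g (pt 23) = pt 23) : g (pt 0) = pt 0 := by
  have h1 : P1 (WL L) (pt 0) := by
    intro u hu
    have h1 := inv_eq hLv colo hu (pt 0)
    have h2 : ∀ y : GolayPt, img co (ix y) = img co (ix (pt 0)) → y = pt 0 := by decide +kernel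
    exact h2 _ h1
  have h2 := p1_check hLv (h1.map (NW_norm hg))
  have h3 : ∀ y : GolayPt, p1C L (ix y) = true → y = pt 23 ∨ y = pt 0 := by decide +kernel
  rcases h3 _ h2 with h | h
  · exact absurd h (apply_ne h23 (by decide +kernel) rfl)
  · exact h

theorem two12 {u : Equiv.Perm GolayPt} (hu : u ∈ WL L) :
    (u (pt 1) = pt 1 ∨ u (pt 1) = pt 2) ∧ (u (pt 2) = pt 2 ∨ u (pt 2) = pt 1) := by
  have h1 := inv_eq hLv colo hu (pt 1)
  have h2 := inv_eq hLv colo hu (pt 2)
  have h3 : ∀ y : GolayPt, img co (ix y) = img co (ix (pt 1)) → y = pt 1 ∨ y = pt 2 := by decide +kernel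
  have h4 : ∀ y : GolayPt, img co (ix y) = img co (ix (pt 2)) → y = pt 2 ∨ y = pt 1 := by decide +kernel
  exact ⟨h3 _ h1, h4 _ h2⟩

theorem g12 (hg : g ∈ NW G L) (h23 : g (pt 23) = pt 23) :
    (g (pt 1) = pt 1 ∨ g (pt 1) = pt 2) ∧ (g (pt 2) = pt 1 ∨ g (pt 2) = pt 2) := by
  have h0 := g0 hg h23
  have h1 : P2 (WL L) (pt 1) := p2_of_two fun u hu => (two12 hu).1
  have h1' : P2 (WL L) (pt 2) := p2_of_two fun u hu => (two12 hu).2
  have h2 := p2_check hLv (h1.map (NW_norm hg))
  have h2' := p2_check hLv (h1'.map (NW_norm hg))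
  have h3 : ∀ y : GolayPt, p2C L (ix y) = true → y ≠ pt 23 → y ≠ pt 0 → y = pt 1 ∨ y = pt 2 := by
    decide +kernel
  exact ⟨h3 _ h2 (apply_ne h23 (by decide +kernel) rfl) (apply_ne h0 (by decide +kernel) rfl),
    h3 _ h2' (apply_ne h23 (by decide +kernel) rfl) (apply_ne h0 (by decide +kernel) rfl)⟩

theorem g3 (k1 : M22 ≤ G) (k2 : G ≤ M24) (hg : g ∈ NW G L) (h23 : g (pt 23) = pt 23) (h1 : g (pt 1) = pt 1) :
    g (pt 2) = pt 2 ∧ g (pt 3) ∈ mset 147496 ∧ g (pt 5) ∈ mset 147496 := by
  have h0 := g0 hg h23
  have h2 : g (pt 2) = pt 2 := by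
    rcases (g12 hg h23).2 with h | h
    · exact absurd h (apply_ne h1 (by decide +kernel) rfl)
    · exact h
  have h3 := (Oiff k1 k2 hg (pt 3)).mpr (by decide +kernel)
  have h5 := (Oiff k1 k2 hg (pt 5)).mpr (by decide +kernel)
  have h4 : ∀ y : GolayPt, y ∈ mset 8536111 → y ≠ pt 23 → y ≠ pt 0 → y ≠ pt 1 → y ≠ pt 2 → y ∈ mset 147496 := by
    decide +kernel
  exact ⟨h2, h4 _ h3 (apply_ne h23 (by decide +kernel) rfl) (apply_ne h0 (by decide +kernel) rfl)
    (apply_ne h1 (by decide +kernel) rfl) (apply_ne h2 (by decide +kernel) rfl),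
    h4 _ h5 (apply_ne h23 (by decide +kernel) rfl) (apply_ne h0 (by decide +kernel) rfl)
    (apply_ne h1 (by decide +kernel) rfl) (apply_ne h2 (by decide +kernel) rfl)⟩

theorem g5 (k1 : M22 ≤ G) (k2 : G ≤ M24) (hg : g ∈ NW G L) (h23 : g (pt 23) = pt 23) (h1 : g (pt 1) = pt 1)
    (h3 : g (pt 3) = pt 3) : g (pt 5) = pt 5 := by
  obtain ⟨h2, -, h5⟩ := g3 k1 k2 hg h23 h1
  have h6 : Fx (WL L) (pt 3) (pt 5) := fx_of_col hLv col2 (by decide +kernel) (by decide +kernel) (by decide +kernel)
  have h7 := fx_check hLv (h6.map (NW_norm hg))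
  rw [h3] at h7
  have h8 : ∀ y : GolayPt, fxC L (ix (pt 3)) (ix y) = true → y ∈ mset 147496 → y ≠ pt 3 → y = pt 5 := by
    decide +kernel
  exact h8 _ h7 h5 (apply_ne h3 (by decide +kernel) rfl)

theorem hN (k1 : M22 ≤ G) (k2 : G ≤ M24) (k3 : ∀ g ∈ G, g (pt 23) = pt 23) :
    NW G L ≤ WL L ∧ ∃ k, Nat.card ↥(NW G L) = 2 ^ k := by
  have hWK := WL_le_NW (hWG k1)
  have key : NW G L ⊓ FS [] ≤ WL L ∧ ∃ k, Nat.card ↥(NW G L ⊓ FS []) = 2 ^ k := by
    refine sift_step (b := 1) (O := mset 6) hWK ?_ (tr_exists hLv (by decide +kernel) (by simp) (by norm_num))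
      ⟨1, by decide +kernel⟩ ?_
    · intro g hg h
      have h1 := (g12 hg (k3 g (NW_mem hg))).1
      have h2 : ∀ y : GolayPt, y = pt 1 ∨ y = pt 2 → y ∈ mset 6 := by decide +kernel
      exact h2 _ h1
    refine sift_step (b := 3) (O := mset 147496) hWK ?_ (tr_exists hLv (by decide +kernel) (by simp) (by norm_num))
      ⟨2, by decide +kernel⟩ ?_
    · intro g hg h
      exact (g3 k1 k2 hg (k3 g (NW_mem hg)) (h 1 (by simp))).2.1
    refine sift_step (b := 4) (O := mset 8241104) hWK ?_ (tr_exists hLv (by decide +kernel) (by simp) (by norm_num))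
      ⟨4, by decide +kernel⟩ ?_
    · intro g hg h
      have h1 := (Oiff k1 k2 hg (pt 4)).not.mpr (by decide +kernel)
      have h2 : ∀ y : GolayPt, y ∉ mset 8536111 → y ∈ mset 8241104 := by decide +kernel
      exact h2 _ h1
    refine sift_end ?_
    intro g hg h
    have h23 := k3 g (NW_mem hg)
    have h1 := h 1 (by simp)
    have h3 := h 3 (by simp)
    exact base_fix (k2 (NW_mem hg)) h23 (g0 hg h23) h1 (g3 k1 k2 hg h23 h1).1 h3 (g5 k1 k2 hg h23 h1 h3) (h 4 (by simp))
  rwa [FS_nil, inf_top_eq] at key

theorem main (k1 : M22 ≤ G) (k2 : G ≤ M24) (k3 : ∀ g ∈ G, g (pt 23) = pt 23) (S : Sylow 2 G) :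
    (Cfsg.groupFusionSystem (S : Subgroup G)).IsSimple 2 :=
  simple_of_data hLin (hG k1) hzL hz1 (hcen k1 k2) (hN k1 k2 k3) (st := st) (by decide +kernel) S

end Cfsg.Agent.Lib.MathieuFus22
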