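import Cfsg.Prelude.Def_Local
import Cfsg.Agent.Lib.SimpleDeg
import Cfsg.Agent.Lib.ItoPSolv
import Cfsg.Agent.Lib.H10U35
import Cfsg.Agent.S0157
import Cfsg.Agent.Lib.BlockThird

/-!
# Groups all of whose degrees are less than `p`
-/

set_option autoImplicit false
set_option linter.all false

namespace Cfsg.Agent.Lib.MaxDegP

open Cfsg Subgroup Module Cfsg.Agent.Lib Cfsg.Agent.Lib.CharBasic Cfsg.Agent.Lib.TwoDeg
open scoped ComplexConjugate Pointwise commutatorElement

universe u

variable {G : Type u} [Group G]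

/-- all degrees less than `p` -/
def SD (p : ℕ) (G : Type u) [Group G] : Prop :=
  ∀ χ : G → ℂ, IsIrrCharacter G χ → ∀ d : ℕ, χ 1 = d → d < p

theorem SD.quot {p : ℕ} (h : SD p G) (N : Subgroup G) [N.Normal] : SD p (G ⧸ N) :=
  fun χ hχ d hd => h _ (hχ.inflate N) d hd

theorem SD.sub [Finite G] {p : ℕ} (h : SD p G) (H : Subgroup G) : SD p H := by
  classical
  letI := Fintype.ofFinite G
  letI := Fintype.ofFinite H
  intro θ hθ d hd
  obtain ⟨χ, hχ, hχθ⟩ := exists_over H hθ
  obtain ⟨m, hm, hm1⟩ := hχ.exists_degree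
  exact lt_of_le_of_lt (CharBasic.degree_le_of_constituent (hχ.isCharacter.restrict H) hθ hχθ (by exact hm1) hd)
    (h χ hχ m hm1)

/-- the irreducible characters of a `p`-subgroup are linear -/
theorem SD.lin [Finite G] {p : ℕ} [hp : Fact p.Prime] (h : SD p G) {P : Subgroup G} (hP : IsPGroup p P)
    (θ : P → ℂ) (hθ : IsIrrCharacter P θ) : θ 1 = 1 := by
  obtain ⟨d, hd0, hd⟩ := hθ.exists_degree
  have h1 := h.sub P θ hθ d hd
  have h2 : d ∣ Nat.card P := CharApps.irr_degree_dvd_card hθ hd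
  obtain ⟨k, hk⟩ := IsPGroup.iff_card.1 hP
  rw [hk, Nat.dvd_prime_pow hp.out] at h2
  obtain ⟨j, -, rfl⟩ := h2
  rcases Nat.eq_zero_or_pos j with rfl | hj
  · rw [hd]; simp
  · exfalso
    have : p ^ 1 ≤ p ^ j := Nat.pow_le_pow_right hp.out.pos hj
    rw [pow_one] at this
    omega

theorem SD.comm [Finite G] {p : ℕ} [hp : Fact p.Prime] (h : SD p G) {P : Subgroup G} (hP : IsPGroup p P) :
    ∀ a ∈ P, ∀ b ∈ P, a * b = b * a := by
  intro a ha b hb
  have h1 := comm_of_forall_irr_linear (G := P) (fun θ hθ => h.lin hP θ hθ) ⟨a, ha⟩ ⟨b, hb⟩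
  exact congrArg Subtype.val h1

/-- the reduction to simple groups -/
theorem normal_of_not_simple [Finite G] {p : ℕ} [hp : Fact p.Prime] (h : SD p G)
    (ih1 : ∀ N : Subgroup G, N ≠ ⊤ → ∀ P : Sylow p N, (P : Subgroup N).Normal)
    (ih2 : ∀ (N : Subgroup G) [N.Normal], N ≠ ⊥ → ∀ P : Sylow p (G ⧸ N), (P : Subgroup (G ⧸ N)).Normal)
    {N : Subgroup G} [hN : N.Normal] (hN1 : N ≠ ⊥) (hN2 : N ≠ ⊤) (P : Sylow p G) : (P : Subgroup G).Normal := by
  classical
  obtain ⟨S⟩ : Nonempty (Sylow p N) := inferInstance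
  have hS := ih1 N hN2 S
  haveI := S.characteristic_of_normal hS
  obtain ⟨R⟩ : Nonempty (Sylow p (G ⧸ N)) := inferInstance
  have hR := ih2 N hN1 R
  have hpdeg : ∀ χ : IrrCharacter G, ¬ p ∣ charDegree (χ : G → ℂ) := by
    intro χ hd
    have h1 := h χ χ.2 _ (BlockDeg.charDegree_cast_irr χ).symm
    have h2 := BlockDeg.charDegree_pos χ.2
    exact absurd (Nat.le_of_dvd h2 hd) (by omega)
  set Q : Subgroup G := (S : Subgroup N).map N.subtype with hQ
  have hQn : Q.Normal := inferInstance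
  have hQN : Q ≤ N := Subgroup.map_subtype_le _
  set R' : Subgroup G := (R : Subgroup (G ⧸ N)).comap (QuotientGroup.mk' N) with hR'
  have hR'n : R'.Normal := hR.comap _
  have hNR : N ≤ R' := by
    intro n hn
    rw [hR', Subgroup.mem_comap, QuotientGroup.mk'_apply, (QuotientGroup.eq_one_iff n).2 hn]
    exact Subgroup.one_mem _
  have hps : IsPSolvable p G := by
    refine ⟨4, ![⊥, Q, N, R', ⊤], rfl, rfl, ?_, ?_, ?_⟩
    · rw [Fin.monotone_iff_le_succ]
      intro i
      fin_cases i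
      · exact bot_le
      · exact hQN
      · exact hNR
      · exact le_top
    · intro i
      fin_cases i
      · exact inferInstanceAs (⊥ : Subgroup G).Normal
      · exact hQn
      · exact hN
      · exact hR'n
      · exact inferInstanceAs (⊤ : Subgroup G).Normal
    · intro i
      fin_cases i
      · left
        show ∃ m : ℕ, (⊥ : Subgroup G).relIndex Q = p ^ m
        rw [Subgroup.relIndex_bot_left]
        obtain ⟨k, hk⟩ := IsPGroup.iff_card.1 (S.2.map N.subtype)
        exact ⟨k, hk⟩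
      · right
        show (Q.relIndex N).Coprime p
        rw [Nat.coprime_comm, Nat.Prime.coprime_iff_not_dvd hp.out, Subgroup.relIndex, hQ]
        have : ((S : Subgroup N).map N.subtype).subgroupOf N = S := by
          rw [Subgroup.subgroupOf, Subgroup.comap_map_eq_self_of_injective N.subtype_injective]
        rw [this]
        exact S.not_dvd_index
      · left
        show ∃ m : ℕ, N.relIndex R' = p ^ m
        obtain ⟨k, hk⟩ := IsPGroup.iff_card.1 R.2
        refine ⟨k, ?_⟩
        rw [← H32PSolv.card_map_mk, hR', Subgroup.map_comap_eq_self_of_surjective (QuotientGroup.mk'_surjective N)]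
        exact hk
      · right
        show (R'.relIndex ⊤).Coprime p
        rw [Subgroup.relIndex_top_right, hR', Subgroup.index_comap_of_surjective _ (QuotientGroup.mk'_surjective N),
          Nat.coprime_comm, Nat.Prime.coprime_iff_not_dvd hp.out]
        exact R.not_dvd_index
  exact (ItoPSolv.ito_psolvable hps hpdeg P).1

section Sums

theorem sum_res_ge [Fintype G] {p : ℕ} [hp : Fact p.Prime] (h : SD p G) {P : Subgroup G} [Fintype P]
    (hP : IsPGroup p P) (χ : IrrCharacter G) :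
    Nat.card P * charDegree (χ : G → ℂ) ≤ ∑ x : P, ‖(χ : G → ℂ) x‖ ^ 2 := by
  classical
  have hres := χ.2.isCharacter.restrict P
  choose a ha using fun ψ : IrrCharacter P => hres.classInner_nat ψ.2.isCharacter
  have h1 : (charDegree (χ : G → ℂ) : ℂ) = ∑ ψ : IrrCharacter P, (a ψ : ℂ) := by
    rw [BlockDeg.charDegree_cast_irr χ]
    have h2 := hres.isClassFunction.expansion_apply 1
    have h3 : (χ : G → ℂ) ((1 : P) : G) = (χ : G → ℂ) 1 := rfl
    rw [← h3]
    refine h2.trans (Finset.sum_congr rfl fun ψ _ => ?_)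
    rw [ha ψ, h.lin hP ψ ψ.2, mul_one]
  have h2 : charDegree (χ : G → ℂ) = ∑ ψ : IrrCharacter P, a ψ := by exact_mod_cast h1
  have h3 : classInner (fun x : P => (χ : G → ℂ) x) (fun x : P => (χ : G → ℂ) x) =
      ((∑ ψ : IrrCharacter P, a ψ * a ψ : ℕ) : ℂ) := by
    rw [hres.isClassFunction.classInner_eq_sum]
    push_cast
    refine Finset.sum_congr rfl fun ψ _ => ?_
    rw [ha ψ, Complex.conj_natCast]
  rw [classInner_def, inv_mul_eq_iff_eq_mul₀ (by exact_mod_cast Nat.card_pos.ne')] at h3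
  have h4 : ∀ x : P, (χ : G → ℂ) x * conj ((χ : G → ℂ) x) = ((‖(χ : G → ℂ) x‖ ^ 2 : ℝ) : ℂ) := by
    intro x
    rw [Complex.mul_conj, Complex.normSq_eq_norm_sq]
  simp only [h4] at h3
  have h5 : ∑ x : P, ‖(χ : G → ℂ) x‖ ^ 2 = (Nat.card P : ℝ) * ((∑ ψ : IrrCharacter P, a ψ * a ψ : ℕ) : ℝ) := by
    exact_mod_cast h3
  rw [h5, h2]
  have h6 : ∑ ψ : IrrCharacter P, a ψ ≤ ∑ ψ : IrrCharacter P, a ψ * a ψ :=
    Finset.sum_le_sum fun ψ _ => Nat.le_mul_self (a ψ)
  have h7 : ((∑ ψ : IrrCharacter P, a ψ : ℕ) : ℝ) ≤ ((∑ ψ : IrrCharacter P, a ψ * a ψ : ℕ) : ℝ) := by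
    exact_mod_cast h6
  exact mul_le_mul_of_nonneg_left h7 (by positivity)

theorem sum_cent [Fintype G] (x : G) :
    ∑ χ : IrrCharacter G, ‖(χ : G → ℂ) x‖ ^ 2 = (Nat.card (centralizer ({x} : Set G)) : ℝ) := by
  have h1 := column_orthogonality x x
  rw [if_pos (IsConj.refl x)] at h1
  have h4 : ∀ χ : IrrCharacter G, (χ : G → ℂ) x * conj ((χ : G → ℂ) x) = ((‖(χ : G → ℂ) x‖ ^ 2 : ℝ) : ℂ) := by
    intro χ
    rw [Complex.mul_conj, Complex.normSq_eq_norm_sq]
  simp only [h4] at h1
  exact_mod_cast h1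

/-- (A) -/
theorem sum_deg_le [Fintype G] {p : ℕ} [hp : Fact p.Prime] (h : SD p G) {P : Subgroup G} [Fintype P]
    (hP : IsPGroup p P) :
    Nat.card P * ∑ χ : IrrCharacter G, charDegree (χ : G → ℂ) ≤
      ∑ x : P, Nat.card (centralizer ({(x : G)} : Set G)) := by
  have h1 : ((Nat.card P * ∑ χ : IrrCharacter G, charDegree (χ : G → ℂ) : ℕ) : ℝ) ≤
      ((∑ x : P, Nat.card (centralizer ({(x : G)} : Set G)) : ℕ) : ℝ) := by
    push_cast
    have h2 : ∑ x : P, (Nat.card (centralizer ({(x : G)} : Set G)) : ℝ) =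
        ∑ χ : IrrCharacter G, ∑ x : P, ‖(χ : G → ℂ) x‖ ^ 2 := by
      rw [Finset.sum_comm]
      exact Finset.sum_congr rfl fun x _ => (sum_cent (x : G)).symm
    rw [h2, Finset.mul_sum]
    exact Finset.sum_le_sum fun χ _ => sum_res_ge h hP χ
  exact_mod_cast h1

theorem sum_sq [Fintype G] : ∑ χ : IrrCharacter G, charDegree (χ : G → ℂ) ^ 2 = Nat.card G := by
  have h1 := sum_degree_sq (G := G)
  have h2 : ∑ χ : IrrCharacter G, (χ : G → ℂ) 1 ^ 2 =
      ((∑ χ : IrrCharacter G, charDegree (χ : G → ℂ) ^ 2 : ℕ) : ℂ) := by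
    push_cast
    exact Finset.sum_congr rfl fun χ _ => by rw [BlockDeg.charDegree_cast_irr χ]
  rw [h2] at h1
  exact_mod_cast h1

end Sums

section Simple

variable [Finite G] [IsSimpleGroup G] {p : ℕ} [hp : Fact p.Prime]

theorem centralizer_ne_top (hZ : center G = ⊥) {x : G} (hx : x ≠ 1) : centralizer ({x} : Set G) ≠ ⊤ := by
  intro h
  apply hx
  have : x ∈ center G := by
    rw [Subgroup.mem_center_iff]
    intro g
    have hg : g ∈ centralizer ({x} : Set G) := by rw [h]; trivial
    rw [Subgroup.mem_centralizer_singleton_iff] at hg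
    exact hg
  rw [hZ] at this
  exact this

theorem uniq (ih : ∀ H : Subgroup G, H ≠ ⊤ → ∀ P : Sylow p H, (P : Subgroup H).Normal) {P Q : Sylow p G}
    {H : Subgroup G} (hH : H ≠ ⊤) (hP : (P : Subgroup G) ≤ H) (hQ : (Q : Subgroup G) ≤ H) : P = Q := by
  have h1 := ih H hH (P.subtype hP)
  haveI := Sylow.unique_of_normal (P.subtype hP) h1
  exact Sylow.subtype_injective (Subsingleton.elim (P.subtype hP) (Q.subtype hQ))

theorem ti (hZ : center G = ⊥) (h : SD p G)
    (ih : ∀ H : Subgroup G, H ≠ ⊤ → ∀ P : Sylow p H, (P : Subgroup H).Normal) : H10U35.TI p G := by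
  intro P Q x hP hQ hx
  refine uniq ih (centralizer_ne_top hZ hx) ?_ ?_
  · intro y hy
    rw [Subgroup.mem_centralizer_singleton_iff]
    exact h.comm P.2 y hy x hP
  · intro y hy
    rw [Subgroup.mem_centralizer_singleton_iff]
    exact h.comm Q.2 y hy x hQ

theorem cent_le (hti : H10U35.TI p G) {P : Sylow p G} {x : G} (hx : x ∈ (P : Subgroup G)) (hx1 : x ≠ 1) :
    centralizer ({x} : Set G) ≤ normalizer ((P : Subgroup G) : Set G) := by
  intro g hg
  rw [Subgroup.mem_centralizer_singleton_iff] at hg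
  apply Sylow.smul_eq_iff_mem_normalizer.mp
  apply hti _ _ x _ hx hx1
  rw [Sylow.coe_subgroup_smul, Subgroup.mem_pointwise_smul_iff_inv_smul_mem]
  change g⁻¹ * x * g ∈ (P : Subgroup G)
  rw [mul_assoc, ← hg, inv_mul_cancel_left]
  exact hx

theorem not_normal (hZ : center G = ⊥) (h : SD p G) (hd : p ∣ Nat.card G) (P : Sylow p G) :
    ¬ (P : Subgroup G).Normal := by
  intro hn
  rcases IsSimpleGroup.eq_bot_or_eq_top_of_normal (P : Subgroup G) hn with h1 | h1
  · exact P.ne_bot_of_dvd_card hd h1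
  · apply SimpleDeg.not_comm hZ
    intro a b
    exact h.comm P.2 a (by rw [h1]; trivial) b (by rw [h1]; trivial)

theorem count (hZ : center G = ⊥) (h : SD p G) (hd : p ∣ Nat.card G) (hti : H10U35.TI p G) (P : Sylow p G) :
    Nat.card P + 1 ≤ Nat.card (Sylow p G) := by
  have h1 := hti.card_modEq P
  have h2 : Nat.card (Sylow p G) ≠ 1 := by
    intro h2
    apply not_normal hZ h hd P
    rw [Nat.card_eq_one_iff_unique] at h2
    obtain ⟨h3, -⟩ := h2
    exact Sylow.normal_of_subsingleton P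
  have h3 : 0 < Nat.card (Sylow p G) := Nat.card_pos
  have h4 : (Nat.card P : ℤ) ∣ (Nat.card (Sylow p G) : ℤ) - 1 := by
    have := (Nat.modEq_iff_dvd.1 h1.symm)
    exact_mod_cast this
  obtain ⟨k, hk⟩ := h4
  have hk0 : 0 < k := by
    by_contra hk0
    push Not at hk0
    have : (Nat.card P : ℤ) * k ≤ 0 := mul_nonpos_of_nonneg_of_nonpos (by positivity) hk0
    omega
  have : (Nat.card P : ℤ) * 1 ≤ Nat.card P * k := mul_le_mul_of_nonneg_left hk0 (by positivity)
  omega

/-- the Sylow subgroup has prime order -/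
theorem card_sylow_eq (hZ : center G = ⊥) (h : SD p G) (hd : p ∣ Nat.card G) (hti : H10U35.TI p G)
    (P : Sylow p G) : Nat.card P = p := by
  classical
  letI := Fintype.ofFinite G
  letI := Fintype.ofFinite (P : Subgroup G)
  set q := Nat.card P with hq
  set N := normalizer ((P : Subgroup G) : Set G) with hN
  set n := Nat.card (Sylow p G) with hn
  have hnN : n * Nat.card N = Nat.card G := by
    rw [hn, Sylow.card_eq_index_normalizer P, mul_comm]
    exact N.card_mul_index
  have hA := sum_deg_le h P.2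
  have hB : ∑ x : (P : Subgroup G), Nat.card (centralizer ({(x : G)} : Set G)) ≤ Nat.card G + (q - 1) * Nat.card N := by
    rw [← Finset.add_sum_erase _ _ (Finset.mem_univ (1 : (P : Subgroup G)))]
    apply Nat.add_le_add
    · exact Nat.le_of_dvd Nat.card_pos (Subgroup.card_subgroup_dvd_card _)
    · have h1 : ∀ x ∈ Finset.univ.erase (1 : (P : Subgroup G)), Nat.card (centralizer ({(x : G)} : Set G)) ≤ Nat.card N := by
        intro x hx
        have hx1 : (x : G) ≠ 1 := fun h' => (Finset.mem_erase.1 hx).1 (Subtype.ext h')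
        exact Nat.le_of_dvd Nat.card_pos (Subgroup.card_dvd_of_le (cent_le hti x.2 hx1))
      have h2 := Finset.sum_le_card_nsmul _ _ _ h1
      rw [Finset.card_erase_of_mem (Finset.mem_univ _), Finset.card_univ, smul_eq_mul, ← Nat.card_eq_fintype_card] at h2
      exact h2
  have hC : Nat.card G ≤ (p - 1) * ∑ χ : IrrCharacter G, charDegree (χ : G → ℂ) := by
    rw [← sum_sq, Finset.mul_sum]
    refine Finset.sum_le_sum fun χ _ => ?_
    have h1 := h χ χ.2 _ (BlockDeg.charDegree_cast_irr χ).symm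
    rw [sq]
    exact Nat.mul_le_mul_right _ (by omega)
  have hn1 : q + 1 ≤ n := count hZ h hd hti P
  have hqp : ∃ a, q = p ^ a := IsPGroup.iff_card.1 P.2
  obtain ⟨a, ha⟩ := hqp
  have ha0 : a ≠ 0 := by
    rintro rfl
    rw [pow_zero] at ha
    exact P.ne_bot_of_dvd_card hd (Subgroup.card_eq_one.1 ha)
  have hp2 := hp.out.two_le
  by_contra hne
  have ha2 : 2 ≤ a := by
    rcases (by omega : a = 1 ∨ 2 ≤ a) with h1 | h1
    · exfalso; apply hne; rw [ha, h1, pow_one]
    · exact h1
  have hq2 : p * p ≤ q := by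
    rw [ha, ← sq]
    exact Nat.pow_le_pow_right hp.out.pos ha2
  have hNpos : 0 < Nat.card N := Nat.card_pos
  have key : q * (n * Nat.card N) ≤ (p - 1) * (n * Nat.card N + (q - 1) * Nat.card N) := by
    rw [hnN]
    calc q * Nat.card G ≤ q * ((p - 1) * ∑ χ : IrrCharacter G, charDegree (χ : G → ℂ)) := Nat.mul_le_mul_left _ hC
      _ = (p - 1) * (q * ∑ χ : IrrCharacter G, charDegree (χ : G → ℂ)) := by ring
      _ ≤ (p - 1) * (Nat.card G + (q - 1) * Nat.card N) := Nat.mul_le_mul_left _ (hA.trans hB)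
  have key2 : q * n ≤ (p - 1) * (n + (q - 1)) := by
    have h1 : (q * n) * Nat.card N ≤ ((p - 1) * (n + (q - 1))) * Nat.card N := by
      calc (q * n) * Nat.card N = q * (n * Nat.card N) := by ring
        _ ≤ (p - 1) * (n * Nat.card N + (q - 1) * Nat.card N) := key
        _ = ((p - 1) * (n + (q - 1))) * Nat.card N := by ring
    exact Nat.le_of_mul_le_mul_right h1 hNpos
  obtain ⟨p', rfl⟩ : ∃ p', p = p' + 1 := ⟨p - 1, by omega⟩
  obtain ⟨q', hq'⟩ : ∃ q', q = q' + 1 := ⟨q - 1, by
    have : 0 < q := by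
      have : 0 < (p' + 1) * (p' + 1) := by positivity
      omega
    omega⟩
  rw [hq'] at key2 hq2 hn1
  simp only [Nat.add_sub_cancel] at key2
  have hpq : p' ≤ q' := by nlinarith
  obtain ⟨r, rfl⟩ := Nat.exists_eq_add_of_le hpq
  have h3 : (r + 1) * n ≤ p' * (p' + r) := by nlinarith
  have h4 : (r + 1) * (p' + r + 1 + 1) ≤ (r + 1) * n := Nat.mul_le_mul_left _ hn1
  have h5 : p' * p' + p' ≤ r := by nlinarith
  have h6 : p' * (p' + r) ≤ r * (p' + r) := Nat.mul_le_mul_right _ (by nlinarith)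
  nlinarith

theorem p_ne_two (hZ : center G = ⊥) (h : SD p G) : p ≠ 2 := by
  rintro rfl
  apply SimpleDeg.not_comm hZ
  apply comm_of_forall_irr_linear
  intro χ hχ
  obtain ⟨d, hd0, hd⟩ := hχ.exists_degree
  have h1 := h χ hχ d hd
  have h2 : d = 1 := by
    have : d ≠ 0 := by
      rintro rfl
      exact hχ.one_ne_zero (by rw [hd]; simp)
    omega
  rw [hd, h2, Nat.cast_one]

/-- the principal character -/
def one (G : Type u) [Group G] : IrrCharacter G := ⟨1, isIrrCharacter_one⟩

theorem deg_one : charDegree ((one G : IrrCharacter G) : G → ℂ) = 1 := by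
  have h1 := BlockDeg.charDegree_cast_irr (one G)
  have h2 : ((one G : IrrCharacter G) : G → ℂ) 1 = 1 := rfl
  rw [h2] at h1
  exact_mod_cast h1

theorem deg_gt (hZ : center G = ⊥) {χ : IrrCharacter G} (hχ : χ ≠ one G) : 1 < charDegree (χ : G → ℂ) := by
  have h1 := BlockDeg.charDegree_pos χ.2
  have h2 : charDegree (χ : G → ℂ) ≠ 1 := by
    intro h2
    apply SimpleDeg.deg_ne_one hZ χ.2 (fun h' => hχ (Subtype.ext h'))
    rw [← BlockDeg.charDegree_cast_irr χ, h2, Nat.cast_one]
  omega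

/-- the structure of the principal block -/
theorem block (hZ : center G = ⊥) (h : SD p G) (hd : p ∣ Nat.card G) (P : Sylow p G) (hP : Nat.card P = p) :
    (centralizer ((P : Subgroup G) : Set G)).relIndex (normalizer ((P : Subgroup G) : Set G)) = 2 ∧
    ∃ (α : IrrCharacter G) (Y : Finset (IrrCharacter G)), charDegree (α : G → ℂ) = p - 1 ∧
      (∀ x ∈ (P : Subgroup G), x ≠ 1 → (α : G → ℂ) x = -1) ∧ one G ∉ Y ∧
      Y.card = (p - 1) / 2 ∧ Y.Nonempty ∧ ∀ θ ∈ Y, charDegree (θ : G → ℂ) = p - 2 := by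
  classical
  letI := Fintype.ofFinite G
  have hp2 := p_ne_two hZ h
  have hp3 : 3 ≤ p := by have := hp.out.two_le; omega
  obtain ⟨M, hM⟩ := H76Char.exists_isPModular p
  haveI : M.IsMaximal := hM.2.1
  obtain ⟨X, Y, hXY, hdis, hX, hY, εX, ε, hXall, hε, hYd, -, hrel⟩ := Cfsg.Agent.S4441.result p M hM hp2 P hP _ rfl
  set e := (centralizer ((P : Subgroup G) : Set G)).relIndex (normalizer ((P : Subgroup G) : Set G)) with he
  -- `e` divides `p - 1`
  have hed : e ∣ p - 1 := by
    have hcyc : IsCyclic (P : Subgroup G) := isCyclic_of_prime_card (p := p) hP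
    have h1 : Nat.card (MulAut (P : Subgroup G)) = p - 1 := by
      rw [IsCyclic.card_mulAut, show Nat.card (P : Subgroup G) = p from hP, Nat.totient_prime hp.out]
    have h2 := Subgroup.card_dvd_of_injective _ (QuotientGroup.kerLift_injective (P : Subgroup G).normalizerMonoidHom)
    rw [Subgroup.normalizerMonoidHom_ker] at h2
    rw [← h1]
    exact h2
  have he0 : e ≠ 0 := by
    rw [he, Subgroup.relIndex]
    exact Subgroup.index_ne_zero_of_finite
  have he1 : e ≠ 1 := by
    intro h1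
    rw [he, Subgroup.relIndex_eq_one] at h1
    exact SimpleDeg.no_burnside hZ hd P h1
  have he2 : 2 ≤ e := by omega
  have hYne : 0 < Nat.card Y := by
    rw [hY]
    exact Nat.div_pos (Nat.le_of_dvd (by omega) hed) (by omega)
  letI : Fintype X := Fintype.ofFinite X
  letI : Fintype Y := Fintype.ofFinite Y
  have hXc : X.toFinset.card = e := by rw [← hX, Nat.card_eq_fintype_card, Set.toFinset_card]
  have hYc : Y.toFinset.card = (p - 1) / e := by rw [← hY, Nat.card_eq_fintype_card, Set.toFinset_card]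
  -- the nonprincipal members of `X`
  have hXd : ∀ χ ∈ X, χ ≠ one G → charDegree (χ : G → ℂ) = p - 1 ∧ εX χ = -1 := by
    intro χ hχ hne
    obtain ⟨h1, h2, -⟩ := hXall χ hχ
    have h3 := deg_gt hZ hne
    have h4 := h χ χ.2 _ (BlockDeg.charDegree_cast_irr χ).symm
    set d := charDegree (χ : G → ℂ) with hd
    rcases h1 with h1 | h1
    · exfalso
      rw [h1] at h2
      obtain ⟨k, hk⟩ := Int.modEq_iff_dvd.1 h2.symm
      have hk0 : 0 < k := by
        by_contra hk0
        push Not at hk0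
        have : (p : ℤ) * k ≤ 0 := mul_nonpos_of_nonneg_of_nonpos (by positivity) hk0
        omega
      have : (p : ℤ) * 1 ≤ p * k := mul_le_mul_of_nonneg_left hk0 (by positivity)
      omega
    · refine ⟨?_, h1⟩
      rw [h1] at h2
      obtain ⟨k, hk⟩ := Int.modEq_iff_dvd.1 h2.symm
      have hk0 : 0 < k := by
        by_contra hk0
        push Not at hk0
        have : (p : ℤ) * k ≤ 0 := mul_nonpos_of_nonneg_of_nonpos (by positivity) hk0
        omega
      have hk2 : k < 2 := by
        by_contra hk2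
        push Not at hk2
        have : (p : ℤ) * 2 ≤ p * k := mul_le_mul_of_nonneg_left hk2 (by positivity)
        omega
      have hk1 : k = 1 := by omega
      rw [hk1] at hk
      omega
  have hrel1 : ∀ θ ∈ Y, ε * (charDegree (θ : G → ℂ) : ℤ) = ∑ χ ∈ X.toFinset, εX χ * (charDegree (χ : G → ℂ) : ℤ) := by
    intro θ hθ
    have h1 := hrel θ hθ 1 (by
      rw [orderOf_one]
      exact fun h' => hp.out.one_lt.ne' (Nat.dvd_one.1 h'))
    rw [finsum_mem_eq_toFinset_sum] at h1
    have h2 : ((ε * (charDegree (θ : G → ℂ) : ℤ) : ℤ) : ℂ) =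
        ((∑ χ ∈ X.toFinset, εX χ * (charDegree (χ : G → ℂ) : ℤ) : ℤ) : ℂ) := by
      push_cast
      rw [BlockDeg.charDegree_cast_irr θ, h1]
      exact Finset.sum_congr rfl fun χ _ => by rw [BlockDeg.charDegree_cast_irr χ]
    exact_mod_cast h2
  have hpc : ((p - 1 : ℕ) : ℤ) = (p : ℤ) - 1 := by omega
  -- the principal character is in `X`
  have hone : one G ∈ principalBlock M G := BlockThird.triv_mem
  have honeX : one G ∈ X := by
    rw [hXY] at hone
    rcases hone with h1 | h1
    · exact h1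
    · exfalso
      have h2 := hrel1 _ h1
      have hnX : one G ∉ X := fun h' => (Set.disjoint_left.1 hdis) h' h1
      have h3 : ∑ χ ∈ X.toFinset, εX χ * (charDegree (χ : G → ℂ) : ℤ) = ∑ χ ∈ X.toFinset, (-1 : ℤ) * ((p : ℤ) - 1) := by
        refine Finset.sum_congr rfl fun χ hχ => ?_
        rw [Set.mem_toFinset] at hχ
        obtain ⟨h4, h5⟩ := hXd χ hχ (fun h' => hnX (h' ▸ hχ))
        rw [h4, h5, hpc]
      rw [h3, Finset.sum_const, hXc, deg_one, nsmul_eq_mul] at h2
      have h6 : (2 : ℤ) ≤ e := by exact_mod_cast he2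
      have h7 : (3 : ℤ) ≤ p := by exact_mod_cast hp3
      rcases hε with h8 | h8 <;> rw [h8] at h2 <;> push_cast at h2 <;> nlinarith
  have hεone : εX (one G) = 1 := by
    obtain ⟨h1, h2, -⟩ := hXall _ honeX
    rcases h1 with h1 | h1
    · exact h1
    · exfalso
      rw [h1, deg_one] at h2
      have h3 := Int.modEq_iff_dvd.1 h2.symm
      have h4 := Int.le_of_dvd (by norm_num) h3
      push_cast at h4
      omega
  have hsum : ∑ χ ∈ X.toFinset, εX χ * (charDegree (χ : G → ℂ) : ℤ) = 1 - ((e : ℤ) - 1) * ((p : ℤ) - 1) := by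
    rw [← Finset.add_sum_erase _ _ (Set.mem_toFinset.2 honeX), hεone, deg_one]
    have h3 : ∑ χ ∈ X.toFinset.erase (one G), εX χ * (charDegree (χ : G → ℂ) : ℤ) =
        ∑ χ ∈ X.toFinset.erase (one G), (-1 : ℤ) * ((p : ℤ) - 1) := by
      refine Finset.sum_congr rfl fun χ hχ => ?_
      rw [Finset.mem_erase, Set.mem_toFinset] at hχ
      obtain ⟨h4, h5⟩ := hXd χ hχ.2 hχ.1
      rw [h4, h5, hpc]
    rw [h3, Finset.sum_const, Finset.card_erase_of_mem (Set.mem_toFinset.2 honeX), hXc, nsmul_eq_mul]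
    have : ((e - 1 : ℕ) : ℤ) = (e : ℤ) - 1 := by omega
    rw [this]
    push_cast
    ring
  have hYfact : ∀ θ ∈ Y, e = 2 ∧ charDegree (θ : G → ℂ) = p - 2 := by
    intro θ hθ
    have h1 := hrel1 θ hθ
    rw [hsum] at h1
    have h4 := h θ θ.2 _ (BlockDeg.charDegree_cast_irr θ).symm
    have h5 := BlockDeg.charDegree_pos θ.2
    set d := charDegree (θ : G → ℂ) with hd
    have h6 : (2 : ℤ) ≤ e := by exact_mod_cast he2
    have h7 : (3 : ℤ) ≤ p := by exact_mod_cast hp3
    have h8 : (d : ℤ) ≤ p - 1 := by omega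
    have h9 : (1 : ℤ) ≤ d := by exact_mod_cast h5
    rcases hε with h10 | h10
    · exfalso
      rw [h10] at h1
      nlinarith
    · rw [h10] at h1
      have h11 : (e : ℤ) < 3 := by
        by_contra hcon
        push Not at hcon
        nlinarith
      have h12 : e = 2 := by omega
      refine ⟨h12, ?_⟩
      rw [h12] at h1
      push_cast at h1
      have : (d : ℤ) = p - 2 := by linarith
      omega
  obtain ⟨⟨θ0, hθ0⟩⟩ : Nonempty Y := (Nat.card_pos_iff.1 hYne).1
  have he22 : e = 2 := (hYfact θ0 hθ0).1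
  obtain ⟨α, hα⟩ : ∃ α ∈ X.toFinset, α ≠ one G := by
    by_contra hcon
    push Not at hcon
    have h1 : X.toFinset ⊆ {one G} := fun χ hχ => Finset.mem_singleton.2 (hcon χ hχ)
    have h2 := Finset.card_le_card h1
    rw [hXc, Finset.card_singleton] at h2
    omega
  have hαX : α ∈ X := Set.mem_toFinset.1 hα.1
  refine ⟨he22, α, Y.toFinset, (hXd α hαX hα.2).1, ?_, ?_, ?_, ?_, ?_⟩
  · intro x hx hx1
    have h1 := (hXall α hαX).2.2 x hx hx1 1 (Subgroup.one_mem _) (by
      rw [orderOf_one]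
      exact fun h' => hp.out.one_lt.ne' (Nat.dvd_one.1 h'))
    rw [mul_one, (hXd α hαX hα.2).2] at h1
    rw [h1]; push_cast; rfl
  · rw [Set.mem_toFinset]
    exact fun h' => (Set.disjoint_left.1 hdis) honeX h'
  · rw [hYc, he22]
  · exact ⟨θ0, Set.mem_toFinset.2 hθ0⟩
  · intro θ hθ
    exact (hYfact θ (Set.mem_toFinset.1 hθ)).2

theorem centralizer_eq (P : Sylow p G) (hP : Nat.card P = p) {x : G} (hx : x ∈ (P : Subgroup G)) (hx1 : x ≠ 1) :
    centralizer ({x} : Set G) = centralizer ((P : Subgroup G) : Set G) := by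
  have hz : zpowers x = (P : Subgroup G) := by
    apply Subgroup.eq_of_le_of_card_ge
    · rw [zpowers_le]; exact hx
    · have h1 : Nat.card (zpowers x) ∣ p := by
        rw [← hP]
        exact Subgroup.card_dvd_of_le (by rw [zpowers_le]; exact hx)
      rcases (Nat.dvd_prime hp.out).1 h1 with h2 | h2
      · exfalso
        apply hx1
        rw [Nat.card_zpowers, orderOf_eq_one_iff] at h2
        exact h2
      · rw [h2]; exact hP.le
  rw [← hz]
  apply le_antisymm
  · intro g hg
    rw [Subgroup.mem_centralizer_singleton_iff] at hg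
    rw [Subgroup.mem_centralizer_iff]
    rintro _ ⟨k, rfl⟩
    exact ((show Commute g x from hg).zpow_right k).symm
  · apply Subgroup.centralizer_le
    rw [Set.singleton_subset_iff]
    exact mem_zpowers x

theorem stab_le (hZ : center G = ⊥) (h : SD p G) (hd : p ∣ Nat.card G)
    (ih : ∀ H : Subgroup G, H ≠ ⊤ → ∀ P : Sylow p H, (P : Subgroup H).Normal)
    (hcard : ∀ P : Sylow p G, Nat.card P = p) (P : Sylow p G) {Q : Sylow p G} (hQ : Q ≠ P) :
    Nat.card (MulAction.stabilizer (centralizer ((P : Subgroup G) : Set G)) Q) ≤ 2 := by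
  set C := centralizer ((P : Subgroup G) : Set G) with hC
  set K : Subgroup G := (MulAction.stabilizer C Q).map C.subtype with hK
  have hKc : Nat.card K = Nat.card (MulAction.stabilizer C Q) :=
    (Nat.card_congr ((MulAction.stabilizer C Q).equivMapOfInjective C.subtype C.subtype_injective).toEquiv).symm
  have hKN : K ≤ normalizer ((Q : Subgroup G) : Set G) := by
    rintro _ ⟨x, hx, rfl⟩
    apply Sylow.smul_eq_iff_mem_normalizer.mp
    exact hx
  have hKC : K ≤ C := by
    rintro _ ⟨x, hx, rfl⟩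
    exact x.2
  have hdis : (centralizer ((Q : Subgroup G) : Set G)).subgroupOf K = ⊥ := by
    rw [eq_bot_iff]
    intro y hy
    rw [Subgroup.mem_bot]
    by_contra hy1
    have hy2 : (y : G) ≠ 1 := fun h' => hy1 (Subtype.ext h')
    apply hQ
    refine uniq ih (centralizer_ne_top hZ hy2) ?_ ?_
    · intro x hx
      rw [Subgroup.mem_centralizer_singleton_iff]
      exact Subgroup.mem_centralizer_iff.1 (show (y : G) ∈ centralizer ((Q : Subgroup G) : Set G) from hy) x hx
    · intro x hx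
      rw [Subgroup.mem_centralizer_singleton_iff]
      exact Subgroup.mem_centralizer_iff.1 (hKC y.2) x hx
  have h1 : (centralizer ((Q : Subgroup G) : Set G)).relIndex K = Nat.card K := by
    rw [Subgroup.relIndex, hdis, Subgroup.index_bot]
  have h2 := (block hZ h hd Q (hcard Q)).1
  rw [← hKc, ← h1, ← h2]
  exact Subgroup.relIndex_le_of_le_right hKN (by rw [h2]; norm_num)

theorem two_orbits (P : Sylow p G)
    (hstab : ∀ {Q : Sylow p G}, Q ≠ P → Nat.card (MulAction.stabilizer (centralizer ((P : Subgroup G) : Set G)) Q) ≤ 2)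
    {Q Q' : Sylow p G} (hQ : Q ≠ P) (hQ' : Q' ≠ P)
    (hcon : ∀ g : centralizer ((P : Subgroup G) : Set G), g • Q ≠ Q') :
    Nat.card (centralizer ((P : Subgroup G) : Set G)) + 1 ≤ Nat.card (Sylow p G) := by
  set C := centralizer ((P : Subgroup G) : Set G) with hC
  have hfix : ∀ g : C, g • P = P := by
    intro g
    apply Sylow.smul_eq_iff_mem_normalizer.mpr
    exact Subgroup.centralizer_le_normalizer _ g.2
  have horb : ∀ R : Sylow p G, R ≠ P → Nat.card C ≤ 2 * (MulAction.orbit C R).ncard := by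
    intro R hR
    rw [← MulAction.index_stabilizer, ← (MulAction.stabilizer C R).card_mul_index]
    exact Nat.mul_le_mul_right _ (hstab hR)
  have h1 := horb Q hQ
  have h2 := horb Q' hQ'
  have hnP : ∀ R : Sylow p G, R ≠ P → P ∉ MulAction.orbit C R := by
    rintro R hR ⟨g, hg⟩
    apply hR
    have : g • R = g • P := by rw [hfix g]; exact hg
    exact (MulAction.toPerm g).injective this
  have hdis : Disjoint (MulAction.orbit C Q) (MulAction.orbit C Q') := by
    rw [Set.disjoint_left]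
    rintro _ ⟨a, rfl⟩ ⟨b, hb⟩
    apply hcon (b⁻¹ * a)
    rw [mul_smul]
    have hb' : b • Q' = a • Q := hb
    rw [← hb', inv_smul_smul]
  have h3 : (insert P (MulAction.orbit C Q ∪ MulAction.orbit C Q')).ncard ≤ Nat.card (Sylow p G) := Set.ncard_le_card _
  rw [Set.ncard_insert_of_notMem (by
    rintro (h' | h')
    · exact hnP Q hQ h'
    · exact hnP Q' hQ' h'), Set.ncard_union_eq hdis] at h3
  omega

theorem two_trans (P : Sylow p G)
    (htrans : ∀ Q Q' : Sylow p G, Q ≠ P → Q' ≠ P → ∃ g : centralizer ((P : Subgroup G) : Set G), g • Q = Q') :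
    MulAction.IsMultiplyPretransitive G (Sylow p G) 2 := by
  rw [MulAction.is_two_pretransitive_iff]
  intro a b c d hab hcd
  obtain ⟨g1, hg1⟩ := MulAction.exists_smul_eq G a P
  obtain ⟨g2, hg2⟩ := MulAction.exists_smul_eq G c P
  have hfix : ∀ g : centralizer ((P : Subgroup G) : Set G), g • P = P := by
    intro g
    apply Sylow.smul_eq_iff_mem_normalizer.mpr
    exact Subgroup.centralizer_le_normalizer _ g.2
  have h1 : g1 • b ≠ P := by
    rw [← hg1]
    intro h'
    exact hab ((MulAction.toPerm g1).injective h').symm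
  have h2 : g2 • d ≠ P := by
    rw [← hg2]
    intro h'
    exact hcd ((MulAction.toPerm g2).injective h').symm
  obtain ⟨g, hg⟩ := htrans _ _ h1 h2
  refine ⟨g2⁻¹ * (g : G) * g1, ?_, ?_⟩
  · rw [mul_smul, mul_smul, hg1]
    have h3 : (g : G) • P = P := hfix g
    rw [h3, ← hg2, inv_smul_smul]
  · rw [mul_smul, mul_smul]
    have h3 : (g : G) • (g1 • b) = g2 • d := hg
    rw [h3, inv_smul_smul]

set_option maxHeartbeats 2000000 in
theorem no_simple (hZ : center G = ⊥) (h : SD p G) (hd : p ∣ Nat.card G)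
    (ih : ∀ H : Subgroup G, H ≠ ⊤ → ∀ P : Sylow p H, (P : Subgroup H).Normal) : False := by
  classical
  letI := Fintype.ofFinite G
  have hti := ti hZ h ih
  have hcard := card_sylow_eq hZ h hd hti
  obtain ⟨P⟩ : Nonempty (Sylow p G) := inferInstance
  letI := Fintype.ofFinite (P : Subgroup G)
  have hP : Nat.card P = p := hcard P
  have hp2 := p_ne_two hZ h
  have hp3 : 3 ≤ p := by have := hp.out.two_le; omega
  obtain ⟨he, α, Y, hα, hαx, hY1, hYc, hYne, hYd⟩ := block hZ h hd P hP
  set N := normalizer ((P : Subgroup G) : Set G) with hN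
  set C := centralizer ((P : Subgroup G) : Set G) with hC
  set n := Nat.card (Sylow p G) with hn
  set c := Nat.card C with hc
  have hCN : C ≤ N := Subgroup.centralizer_le_normalizer _
  have hNi : N.index = n := (Sylow.card_eq_index_normalizer P).symm
  have hCi : C.index = 2 * n := by
    rw [← Subgroup.relIndex_mul_index hCN, he, hNi]
  have hGc : Nat.card G = c * (2 * n) := by
    rw [← hCi]; exact C.card_mul_index.symm
  have hcpos : 0 < c := Nat.card_pos
  -- `p ≥ 5`
  have hpodd : Odd p := hp.out.odd_of_ne_two hp2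
  have hp5 : 5 ≤ p := by
    obtain ⟨θ, hθ⟩ := hYne
    have h1 := hYd θ hθ
    have h2 := deg_gt hZ (χ := θ) (fun h' => hY1 (h' ▸ hθ))
    have h3 : p ≠ 3 := by rintro rfl; omega
    have h4 : p ≠ 4 := by rintro rfl; exact absurd hpodd (by decide)
    omega
  -- sums
  set S := ∑ χ : IrrCharacter G, charDegree (χ : G → ℂ) with hS
  have hA : p * S ≤ Nat.card G + (p - 1) * c := by
    have h1 := sum_deg_le h P.2
    have h2 : Nat.card (P : Subgroup G) = p := hP
    rw [h2] at h1
    refine h1.trans ?_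
    rw [← Finset.add_sum_erase _ _ (Finset.mem_univ (1 : (P : Subgroup G)))]
    apply Nat.add_le_add
    · exact Nat.le_of_dvd Nat.card_pos (Subgroup.card_subgroup_dvd_card _)
    · have h3 : ∀ x ∈ Finset.univ.erase (1 : (P : Subgroup G)), Nat.card (centralizer ({(x : G)} : Set G)) ≤ c := by
        intro x hx
        have hx1 : (x : G) ≠ 1 := fun h' => (Finset.mem_erase.1 hx).1 (Subtype.ext h')
        rw [centralizer_eq P hP x.2 hx1]
      have h4 := Finset.sum_le_card_nsmul _ _ _ h3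
      rw [Finset.card_erase_of_mem (Finset.mem_univ _), Finset.card_univ, smul_eq_mul, ← Nat.card_eq_fintype_card, h2] at h4
      exact h4
  have hDle : ∀ χ : IrrCharacter G, charDegree (χ : G → ℂ) ≤ p - 1 := fun χ => by
    have := h χ χ.2 _ (BlockDeg.charDegree_cast_irr χ).symm
    omega
  have hB : Nat.card G + ∑ χ : IrrCharacter G, charDegree (χ : G → ℂ) * (p - 1 - charDegree (χ : G → ℂ)) = (p - 1) * S := by
    rw [← sum_sq, ← Finset.sum_add_distrib, hS, Finset.mul_sum]
    refine Finset.sum_congr rfl fun χ _ => ?_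
    have h1 := hDle χ
    obtain ⟨r, hr⟩ := Nat.exists_eq_add_of_le h1
    rw [hr, Nat.add_sub_cancel_left]
    ring
  -- the congruence and divisibility conditions on `n`
  obtain ⟨m, hm⟩ : ∃ m, n = 1 + m * p := by
    have h1 : Nat.card (Sylow p G) ≡ 1 [MOD p] := card_sylow_modEq_one p G
    have h2 := count hZ h hd hti P
    have h3 : (p : ℤ) ∣ (n : ℤ) - 1 := by
      have := Nat.modEq_iff_dvd.1 h1.symm
      exact_mod_cast this
    obtain ⟨k, hk⟩ := h3
    have hk0 : 0 ≤ k := by
      by_contra hk0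
      push Not at hk0
      have h4 : (p : ℤ) * k < 0 := mul_neg_of_pos_of_neg (by positivity) hk0
      have h5 : 1 ≤ n := Nat.card_pos
      omega
    refine ⟨k.toNat, ?_⟩
    have h4 : (n : ℤ) = 1 + (k.toNat : ℤ) * p := by
      rw [Int.toNat_of_nonneg hk0]; linarith
    exact_mod_cast h4
  have hdvd : (p - 1) ∣ 2 * n := by
    have hPne : (P : Subgroup G) ≠ ⊥ := P.ne_bot_of_dvd_card hd
    obtain ⟨⟨x, hx⟩, hx1'⟩ := Subgroup.ne_bot_iff_exists_ne_one.mp hPne
    have hx1 : x ≠ 1 := fun h' => hx1' (Subtype.ext h')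
    have h1 := hαx x hx hx1
    obtain ⟨r, ρ, hρ, hρα⟩ := α.2
    haveI := hρ
    have h2 := CharCentral.isIntegral_index_mul_character_div ρ x
    have h3 : (finrank ℂ (Fin r → ℂ) : ℂ) = ((p - 1 : ℕ) : ℂ) := by
      rw [← Representation.char_one ρ, hρα, ← BlockDeg.charDegree_cast_irr α, hα]
    rw [hρα, h1, centralizer_eq P hP hx hx1, ← hC, hCi, h3, mul_neg_one, neg_div] at h2
    have h4 := h2.neg
    rw [neg_neg] at h4
    exact CharCentral.nat_dvd_of_isIntegral_div (by omega) h4
  obtain ⟨p', rfl⟩ : ∃ p', p = p' + 1 := ⟨p - 1, by omega⟩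
  simp only [Nat.add_sub_cancel] at hA hB hdvd hYc hDle hα
  have hSG : Nat.card G ≤ p' * S := by omega
  have h2n : 2 * n ≤ p' * p' := by
    have h1 : (p' + 1) * Nat.card G ≤ p' * Nat.card G + p' * p' * c := by
      calc (p' + 1) * Nat.card G ≤ (p' + 1) * (p' * S) := Nat.mul_le_mul_left _ hSG
        _ = p' * ((p' + 1) * S) := by ring
        _ ≤ p' * (Nat.card G + p' * c) := Nat.mul_le_mul_left _ hA
        _ = p' * Nat.card G + p' * p' * c := by ring
    have h2 : Nat.card G ≤ p' * p' * c := by nlinarith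
    rw [hGc] at h2
    have h3 : (2 * n) * c ≤ (p' * p') * c := by rw [mul_comm (2 * n) c]; exact h2
    exact Nat.le_of_mul_le_mul_right h3 hcpos
  have h2n' : 2 * n = p' * (p' - 1) := by
    have h1 : p' ∣ 2 + 2 * m := by
      have h2 : 2 * n = 2 + 2 * m + p' * (2 * m) := by rw [hm]; ring
      rw [h2] at hdvd
      exact (Nat.dvd_add_left (Dvd.intro _ rfl)).1 hdvd
    obtain ⟨k, hk⟩ := h1
    have hk1 : k = 1 := by
      have hk0 : k ≠ 0 := by rintro rfl; omega
      by_contra hk1
      have hk2 : 2 ≤ k := by omega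
      have h3 : p' * 2 ≤ 2 + 2 * m := by rw [hk]; exact Nat.mul_le_mul_left _ hk2
      rw [hm] at h2n
      nlinarith
    rw [hk1, mul_one] at hk
    obtain ⟨p'', rfl⟩ : ∃ p'', p' = p'' + 1 := ⟨p' - 1, by omega⟩
    rw [hm, Nat.add_sub_cancel]
    have h4 : 2 * m = p'' - 1 := by omega
    obtain ⟨p3, rfl⟩ : ∃ p3, p'' = p3 + 1 := ⟨p'' - 1, by omega⟩
    rw [Nat.add_sub_cancel] at h4
    have h5 : 2 * (1 + m * (p3 + 1 + 1 + 1)) = 2 + (2 * m) * (p3 + 3) := by ring
    rw [h5, h4]; ring
  -- lower bound for the sum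
  have hlow : (p' - 1) + (p' / 2) * (p' - 1) ≤
      ∑ χ : IrrCharacter G, charDegree (χ : G → ℂ) * (p' - charDegree (χ : G → ℂ)) := by
    have h1 : ∑ χ ∈ insert (one G) Y, charDegree (χ : G → ℂ) * (p' - charDegree (χ : G → ℂ)) ≤
        ∑ χ : IrrCharacter G, charDegree (χ : G → ℂ) * (p' - charDegree (χ : G → ℂ)) :=
      Finset.sum_le_sum_of_subset (Finset.subset_univ _)
    refine le_trans ?_ h1
    rw [Finset.sum_insert hY1, deg_one, one_mul]
    have h2 : ∑ χ ∈ Y, charDegree (χ : G → ℂ) * (p' - charDegree (χ : G → ℂ)) = ∑ χ ∈ Y, (p' - 1) := by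
      refine Finset.sum_congr rfl fun χ hχ => ?_
      rw [hYd χ hχ]
      have : p' - (p' + 1 - 2) = 1 := by omega
      rw [this, mul_one]
      omega
    rw [h2, Finset.sum_const, hYc, smul_eq_mul]
  have hp'even : Even p' := by
    rcases Nat.even_or_odd p' with h1 | h1
    · exact h1
    · exact absurd h1.add_one (Nat.not_even_iff_odd.2 hpodd)
  obtain ⟨s, hs⟩ := hp'even
  have hp's : p' = 2 * s := by omega
  have hcbig : (p' + 1) * (p' - 1) * (s + 1) ≤ p' * c := by
    have h1 : p' / 2 = s := by omega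
    rw [h1] at hlow
    have h2 : (p' + 1) * (Nat.card G + ∑ χ : IrrCharacter G, charDegree (χ : G → ℂ) * (p' - charDegree (χ : G → ℂ))) ≤
        p' * (Nat.card G + p' * c) := by
      rw [hB]
      calc (p' + 1) * (p' * S) = p' * ((p' + 1) * S) := by ring
        _ ≤ p' * (Nat.card G + p' * c) := Nat.mul_le_mul_left _ hA
    have h3 : (p' + 1) * (Nat.card G + ((p' - 1) + s * (p' - 1))) ≤ p' * (Nat.card G + p' * c) :=
      le_trans (Nat.mul_le_mul_left _ (Nat.add_le_add_left hlow _)) h2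
    have h4 : Nat.card G = c * (p' * (p' - 1)) := by rw [hGc, h2n']
    obtain ⟨t, ht⟩ : ∃ t, p' = t + 1 := ⟨p' - 1, by omega⟩
    rw [h4] at h3
    rw [ht] at h3 ⊢
    rw [Nat.add_sub_cancel] at h3 ⊢
    nlinarith
  -- transitivity of `C` on the other Sylow subgroups
  have hstab : ∀ {Q : Sylow (p' + 1) G}, Q ≠ P → Nat.card (MulAction.stabilizer
      (centralizer ((P : Subgroup G) : Set G)) Q) ≤ 2 := fun hQ => stab_le hZ h hd ih hcard P hQ
  have htrans : ∀ Q Q' : Sylow (p' + 1) G, Q ≠ P → Q' ≠ P → ∃ g : C, g • Q = Q' := by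
    intro Q Q' hQ hQ'
    by_contra hcon
    push Not at hcon
    have h1 := two_orbits P hstab hQ hQ' hcon
    rw [← hc, ← hn] at h1
    obtain ⟨r, hr⟩ : ∃ r, s = r + 1 := ⟨s - 1, by omega⟩
    have h2 : 2 * n = (2 * r + 2) * (2 * r + 1) := by
      rw [h2n', hp's, hr]
      have : 2 * (r + 1) - 1 = 2 * r + 1 := by omega
      rw [this]; ring
    have h3 : n = (r + 1) * (2 * r + 1) := by nlinarith
    rw [hp's, hr] at hcbig
    have h4 : 2 * (r + 1) - 1 = 2 * r + 1 := by omega
    rw [h4] at hcbig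
    have h5 : 2 * (r + 1) * (c + 1) ≤ 2 * (r + 1) * n := Nat.mul_le_mul_left _ h1
    rw [h3] at h5
    nlinarith
  have h2tr := two_trans P htrans
  have hn2 : 2 ≤ Nat.card (Sylow (p' + 1) G) := by
    have := count hZ h hd hti P
    rw [hP] at this
    omega
  have hirr := (Cfsg.Agent.S0157.result (G := G) (Sylow (p' + 1) G) hn2).2 h2tr
  have hlast := h _ hirr (n - 1) (by
    have h1 : MulAction.fixedBy (Sylow (p' + 1) G) (1 : G) = Set.univ := by
      ext Q; simp
    rw [h1, Nat.card_coe_set_eq, Set.ncard_univ, ← hn]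
    rw [Nat.cast_sub (by omega)]
    simp)
  -- but `n - 1 ≥ p`
  obtain ⟨t, ht⟩ : ∃ t, p' = t + 4 := ⟨p' - 4, by omega⟩
  rw [ht] at h2n' hlast
  have h9 : 2 * n = (t + 4) * (t + 3) := by rw [h2n']; congr 1
  have h10 : n ≤ t + 5 := by omega
  nlinarith

end Simple

theorem normal_sylow (p : ℕ) [hp : Fact p.Prime] (n : ℕ) : ∀ (G : Type u) [Group G] [Finite G], Nat.card G = n →
    SD p G → ∀ P : Sylow p G, (P : Subgroup G).Normal := by
  induction n using Nat.strong_induction_on with
  | _ n ihn =>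
    intro G _ _ hn h P
    classical
    have ih1 : ∀ N : Subgroup G, N ≠ ⊤ → ∀ P : Sylow p N, (P : Subgroup N).Normal := by
      intro N hN2 P
      refine ihn (Nat.card N) ?_ N rfl (h.sub N) P
      rw [← hn, ← N.card_mul_index]
      have h1 : N.index ≠ 1 := fun h' => hN2 (Subgroup.index_eq_one.1 h')
      have h2 : N.index ≠ 0 := Subgroup.index_ne_zero_of_finite
      have h3 : 0 < Nat.card N := Nat.card_pos
      have h4 : 1 < N.index := by omega
      exact (Nat.lt_mul_iff_one_lt_right h3).2 h4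
    have ih2 : ∀ (N : Subgroup G) [N.Normal], N ≠ ⊥ → ∀ P : Sylow p (G ⧸ N), (P : Subgroup (G ⧸ N)).Normal := by
      intro N _ hN1 P
      refine ihn (Nat.card (G ⧸ N)) ?_ (G ⧸ N) rfl (h.quot N) P
      rw [← hn, ← N.card_mul_index]
      have h1 : Nat.card N ≠ 1 := fun h' => hN1 (Subgroup.card_eq_one.1 h')
      have h2 : N.index ≠ 0 := Subgroup.index_ne_zero_of_finite
      have h3 : 0 < Nat.card N := Nat.card_pos
      have h4 : 1 < Nat.card N := by omega
      have h5 : Nat.card (G ⧸ N) = N.index := rfl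
      rw [h5]
      exact (Nat.lt_mul_iff_one_lt_left (by omega)).2 h4
    by_cases hd : p ∣ Nat.card G
    swap
    · have h1 : (P : Subgroup G) = ⊥ := by
        apply Subgroup.card_eq_one.1
        obtain ⟨k, hk⟩ := IsPGroup.iff_card.1 P.2
        rcases Nat.eq_zero_or_pos k with rfl | hk0
        · rw [hk, pow_zero]
        · exfalso
          apply hd
          exact ((dvd_pow_self p hk0.ne').trans (hk ▸ dvd_rfl)).trans (Subgroup.card_subgroup_dvd_card (P : Subgroup G))
      rw [h1]; infer_instance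
    by_cases hN : ∃ N : Subgroup G, N.Normal ∧ N ≠ ⊥ ∧ N ≠ ⊤
    · obtain ⟨N, hN, hN1, hN2⟩ := hN
      exact normal_of_not_simple h ih1 ih2 hN1 hN2 P
    · by_cases hab : ∀ a b : G, a * b = b * a
      · refine ⟨fun x hx g => ?_⟩
        rw [hab g x, mul_inv_cancel_right]
        exact hx
      · exfalso
        haveI : Nontrivial G := by
          by_contra hnt
          rw [not_nontrivial_iff_subsingleton] at hnt
          exact hab fun a b => Subsingleton.elim _ _
        haveI : IsSimpleGroup G := ⟨fun N hNn => by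
          by_contra hcon
          push Not at hcon
          exact hN ⟨N, hNn, hcon.1, hcon.2⟩⟩
        exact no_simple (SimpleDeg.center_eq_bot hab) h hd ih1

end Cfsg.Agent.Lib.MaxDegP
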