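import Mathlib

/-!
# Normalizers in a simple group of order 1092 (helper2)
-/

set_option autoImplicit false

namespace Cfsg.Agent.Lib.MaxNz

open Subgroup
open scoped Pointwise

variable {G : Type*} [Group G] [Finite G]

/-- the numerical properties of `PSL(2,13)` which are used -/
structure Num (G : Type*) [Group G] [Finite G] : Prop where
  card : Nat.card G = 1092
  simple : IsSimpleGroup G
  orders : ∀ H : Subgroup G, H ≠ ⊤ → Nat.card H ∣ 14 ∨ Nat.card H ∣ 12 ∨ Nat.card H ∣ 78
  six : ∃ g : G, orderOf g = 6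

theorem coatom_of_dvd (h : Num G) (L : Subgroup G) (hL : L ≠ ⊤)
    (hd : 12 ∣ Nat.card L ∨ 14 ∣ Nat.card L ∨ 78 ∣ Nat.card L) : IsCoatom L := by
  refine ⟨hL, fun M hM => ?_⟩
  by_contra hne
  have h1 := card_dvd_of_le hM.le
  have h2 : Nat.card M ≤ Nat.card L := by
    have hLc := h.orders L hL
    have hMc := h.orders M hne
    have hLpos : 0 < Nat.card L := Nat.card_pos
    rcases hd with hd | hd | hd
    · have h3 := hd.trans h1
      rcases hMc with hMc | hMc | hMc
      · exact absurd (h3.trans hMc) (by norm_num)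
      · exact (Nat.le_of_dvd (by norm_num) hMc).trans (Nat.le_of_dvd hLpos hd)
      · exact absurd (h3.trans hMc) (by norm_num)
    · have h3 := hd.trans h1
      rcases hMc with hMc | hMc | hMc
      · exact (Nat.le_of_dvd (by norm_num) hMc).trans (Nat.le_of_dvd hLpos hd)
      · exact absurd (h3.trans hMc) (by norm_num)
      · exact absurd (h3.trans hMc) (by norm_num)
    · have h3 := hd.trans h1
      rcases hMc with hMc | hMc | hMc
      · exact absurd (h3.trans hMc) (by norm_num)
      · exact absurd (h3.trans hMc) (by norm_num)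
      · exact (Nat.le_of_dvd (by norm_num) hMc).trans (Nat.le_of_dvd hLpos hd)
  have h3 : L = M := Subgroup.eq_of_le_of_card_ge hM.le h2
  exact hM.ne h3

theorem nz_ne_top (h : Num G) (H : Subgroup G) (hb : H ≠ ⊥) (ht : H ≠ ⊤) : normalizer (H : Set G) ≠ ⊤ := by
  intro e
  haveI := h.simple
  rcases (normalizer_eq_top_iff.mp e).eq_bot_or_eq_top with h1 | h1
  · exact hb h1
  · exact ht h1

omit [Finite G] in
theorem ne_bot_of_card {H : Subgroup G} {n : ℕ} (hn : 1 < n) (hH : n ∣ Nat.card H) : H ≠ ⊥ := by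
  rintro rfl
  rw [card_bot] at hH
  exact absurd (Nat.le_of_dvd one_pos hH) (by omega)

theorem ne_top_of_card (h : Num G) {H : Subgroup G} (hH : Nat.card H ≠ 1092) : H ≠ ⊤ := by
  rintro rfl
  rw [card_top, h.card] at hH
  exact hH rfl

/-- Sylow's count in terms of the normalizer of a subgroup of prime order -/
theorem index_mod (h : Num G) {p : ℕ} [Fact p.Prime] {m : ℕ} (hm : p * m = 1092) (hpm : ¬ p ∣ m) {H : Subgroup G}
    (hH : Nat.card H = p) : ∃ P : Sylow p G, (P : Subgroup G) = H ∧ (normalizer (H : Set G)).index ≡ 1 [MOD p] := by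
  have h1 : IsPGroup p H := IsPGroup.of_card (n := 1) (by rw [hH, pow_one])
  have h2 : H.index = m := by
    have := H.card_mul_index
    rw [hH, h.card, ← hm] at this
    exact Nat.eq_of_mul_eq_mul_left (Fact.out : p.Prime).pos this
  refine ⟨h1.toSylow (by rw [h2]; exact hpm), rfl, ?_⟩
  have h3 := Sylow.card_eq_index_normalizer (h1.toSylow (by rw [h2]; exact hpm))
  have h4 := card_sylow_modEq_one p G
  rw [h3] at h4
  exact h4

theorem nz_seven (h : Num G) {H : Subgroup G} (hH : Nat.card H = 7) : Nat.card (normalizer (H : Set G)) = 14 := by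
  haveI : Fact (Nat.Prime 7) := ⟨by norm_num⟩
  obtain ⟨P, -, h2⟩ := index_mod h (p := 7) (m := 156) (by norm_num) (by norm_num) hH
  have h1 := nz_ne_top h H (ne_bot_of_card (n := 7) (by norm_num) (by rw [hH])) (ne_top_of_card h (by rw [hH]; norm_num))
  have h3 := card_dvd_of_le (le_normalizer (H := H))
  rw [hH] at h3
  have h4 := (normalizer (H : Set G)).card_mul_index
  rw [h.card] at h4
  rcases h.orders _ h1 with h5 | h5 | h5
  · obtain ⟨k, hk⟩ := h3
    rw [hk] at h5 h4 ⊢
    have : k ∣ 2 := Nat.dvd_of_mul_dvd_mul_left (by norm_num : 0 < 7) (by simpa using h5)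
    have hk2 := Nat.le_of_dvd (by norm_num) this
    interval_cases k
    · omega
    · have h6 : (normalizer (H : Set G)).index = 156 := by omega
      rw [h6] at h2
      exact absurd h2 (by decide)
    · rfl
  · exact absurd (h3.trans h5) (by norm_num)
  · exact absurd (h3.trans h5) (by norm_num)

theorem nz_thirteen (h : Num G) {H : Subgroup G} (hH : Nat.card H = 13) : Nat.card (normalizer (H : Set G)) = 78 := by
  haveI : Fact (Nat.Prime 13) := ⟨by norm_num⟩
  obtain ⟨P, -, h2⟩ := index_mod h (p := 13) (m := 84) (by norm_num) (by norm_num) hH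
  have h1 := nz_ne_top h H (ne_bot_of_card (n := 13) (by norm_num) (by rw [hH])) (ne_top_of_card h (by rw [hH]; norm_num))
  have h3 := card_dvd_of_le (le_normalizer (H := H))
  rw [hH] at h3
  have h4 := (normalizer (H : Set G)).card_mul_index
  rw [h.card] at h4
  rcases h.orders _ h1 with h5 | h5 | h5
  · exact absurd (h3.trans h5) (by norm_num)
  · exact absurd (h3.trans h5) (by norm_num)
  · obtain ⟨k, hk⟩ := h3
    rw [hk] at h5 h4 ⊢
    have : k ∣ 6 := Nat.dvd_of_mul_dvd_mul_left (by norm_num : 0 < 13) (by simpa using h5)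
    have hk2 := Nat.le_of_dvd (by norm_num) this
    generalize (normalizer (H : Set G)).index = i at h2 h4
    have h6 : i % 13 = 1 := h2
    interval_cases k <;> omega

theorem nz_three (h : Num G) {H : Subgroup G} (hH : Nat.card H = 3) : Nat.card (normalizer (H : Set G)) = 12 := by
  haveI : Fact (Nat.Prime 3) := ⟨by norm_num⟩
  obtain ⟨P, hP, h2⟩ := index_mod h (p := 3) (m := 364) (by norm_num) (by norm_num) hH
  obtain ⟨g, hg⟩ := h.six
  have hg2 : Nat.card (zpowers (g ^ 2)) = 3 := by
    rw [Nat.card_zpowers, orderOf_pow, hg]; norm_num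
  obtain ⟨Q, hQ, -⟩ := index_mod h (p := 3) (m := 364) (by norm_num) (by norm_num) hg2
  have h6 : 6 ∣ Nat.card (normalizer (H : Set G)) := by
    obtain ⟨x, hx⟩ := MulAction.exists_smul_eq G Q P
    have h7 : x * g * x⁻¹ ∈ normalizer (H : Set G) := by
      rw [← hP, ← hx, Sylow.coe_subgroup_smul, hQ]
      have h8 : MulAut.conj x • (zpowers (g ^ 2)) = zpowers ((x * g * x⁻¹) ^ 2) := by
        change (zpowers (g ^ 2)).map (MulAut.conj x).toMonoidHom = _
        rw [MonoidHom.map_zpowers]
        congr 1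
        simp [conj_pow]
      rw [h8]
      have h9 : x * g * x⁻¹ ∈ centralizer ((zpowers ((x * g * x⁻¹) ^ 2) : Subgroup G) : Set G) := by
        rw [mem_centralizer_iff]
        rintro _ ⟨k, rfl⟩
        exact ((Commute.refl (x * g * x⁻¹)).pow_left 2).zpow_left k
      exact centralizer_le_normalizer _ h9
    have h10 : orderOf (x * g * x⁻¹) = 6 := by
      rw [← hg]
      exact orderOf_injective (MulAut.conj x).toMonoidHom (MulAut.conj x).injective g
    rw [← h10, ← Subgroup.orderOf_mk _ h7]
    exact orderOf_dvd_natCard _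
  have h1 := nz_ne_top h H (ne_bot_of_card (n := 3) (by norm_num) (by rw [hH])) (ne_top_of_card h (by rw [hH]; norm_num))
  have h4 := (normalizer (H : Set G)).card_mul_index
  rw [h.card] at h4
  obtain ⟨k, hk⟩ := h6
  have h2' : (normalizer (H : Set G)).index % 3 = 1 := h2
  generalize (normalizer (H : Set G)).index = i at h2' h4
  rcases h.orders _ h1 with h5 | h5 | h5
  · exact absurd ((Dvd.intro k hk.symm).trans h5) (by norm_num)
  · rw [hk] at h5 h4 ⊢
    have : k ∣ 2 := Nat.dvd_of_mul_dvd_mul_left (by norm_num : 0 < 6) (by simpa using h5)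
    have hk2 := Nat.le_of_dvd (by norm_num) this
    interval_cases k <;> omega
  · rw [hk] at h5 h4 ⊢
    have : k ∣ 13 := Nat.dvd_of_mul_dvd_mul_left (by norm_num : 0 < 6) (by simpa using h5)
    have hk2 := Nat.le_of_dvd (by norm_num) this
    interval_cases k <;> omega

/-- the order of a Sylow `2`-subgroup -/
theorem card_sylow_two (h : Num G) (P : Sylow 2 G) : Nat.card P = 4 := by
  haveI : Fact (Nat.Prime 2) := ⟨Nat.prime_two⟩
  rw [Sylow.card_eq_multiplicity, h.card]
  have : (1092 : ℕ) = 2 ^ 2 * 273 := by norm_num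
  have h2 : (1092 : ℕ).factorization 2 = 2 := by
    rw [this, Nat.factorization_mul (by norm_num) (by norm_num), Nat.Prime.factorization_pow Nat.prime_two]
    simp [Nat.factorization_eq_zero_of_not_dvd (show ¬ 2 ∣ 273 by norm_num)]
  rw [h2]; norm_num

theorem nz_four (h : Num G) {H : Subgroup G} (hH : Nat.card H = 4) : Nat.card (normalizer (H : Set G)) = 12 := by
  haveI : Fact (Nat.Prime 2) := ⟨Nat.prime_two⟩
  have h0 : H.index = 273 := by
    have := H.card_mul_index
    rw [hH, h.card] at this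
    omega
  have hp : IsPGroup 2 H := IsPGroup.of_card (n := 2) (by rw [hH]; norm_num)
  have hi : ¬ 2 ∣ H.index := by rw [h0]; norm_num
  have h1 := nz_ne_top h H (ne_bot_of_card (n := 4) (by norm_num) (by rw [hH])) (ne_top_of_card h (by rw [hH]; norm_num))
  have h3 := card_dvd_of_le (le_normalizer (H := H))
  rw [hH] at h3
  rcases h.orders _ h1 with h5 | h5 | h5
  · exact absurd (h3.trans h5) (by norm_num)
  · obtain ⟨k, hk⟩ := h3
    have hk3 : k ∣ 3 := Nat.dvd_of_mul_dvd_mul_left (by norm_num : 0 < 4) (by rw [← hk]; simpa using h5)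
    rcases (Nat.dvd_prime Nat.prime_three).mp hk3 with rfl | rfl
    · exfalso
      have h6 : normalizer (H : Set G) = H :=
        (Subgroup.eq_of_le_of_card_ge le_normalizer (by rw [hk, hH])).symm
      have hcomm : ∀ x y : H, x * y = y * x := by
        have : Nat.card H = 2 ^ 2 := by rw [hH]; norm_num
        exact (IsPGroup.commGroupOfCardEqPrimeSq this).mul_comm
      have h7 : normalizer ((hp.toSylow hi : Sylow 2 G) : Set G) ≤ centralizer ((hp.toSylow hi : Sylow 2 G) : Set G) := by
        change normalizer (H : Set G) ≤ centralizer (H : Set G)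
        rw [h6]
        intro x hx
        rw [mem_centralizer_iff]
        intro y hy
        exact congrArg Subtype.val (hcomm ⟨y, hy⟩ ⟨x, hx⟩)
      have h8 := MonoidHom.ker_transferSylow_isComplement' (hp.toSylow hi) h7
      haveI := h.simple
      have h9 := h8.card_mul_card
      rcases (inferInstance : (MonoidHom.transferSylow (hp.toSylow hi) h7).ker.Normal).eq_bot_or_eq_top with e | e
      · rw [e, card_bot, h.card] at h9
        change 1 * Nat.card H = _ at h9
        rw [hH] at h9; omega
      · rw [e, card_top, h.card] at h9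
        change _ * Nat.card H = _ at h9
        rw [hH] at h9; omega
    · rw [hk]
  · exact absurd (h3.trans h5) (by norm_num)

omit [Finite G] in
theorem nz_comm (H : Subgroup G) (u : G) (hu : H = zpowers u) {b c : G}
    (hb : b ∈ normalizer (H : Set G)) (hc : c ∈ normalizer (H : Set G)) :
    b * c * b⁻¹ * c⁻¹ ∈ centralizer (H : Set G) := by
  subst hu
  have h1 := (mem_normalizer_iff.mp hb u).mp (mem_zpowers u)
  have h2 := (mem_normalizer_iff.mp hc u).mp (mem_zpowers u)
  obtain ⟨i, hi⟩ := h1
  obtain ⟨j, hj⟩ := h2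
  change u ^ i = b * u * b⁻¹ at hi
  change u ^ j = c * u * c⁻¹ at hj
  have h3 : (b * c) * u * (b * c)⁻¹ = (c * b) * u * (c * b)⁻¹ := by
    calc (b * c) * u * (b * c)⁻¹ = b * (c * u * c⁻¹) * b⁻¹ := by group
      _ = b * u ^ j * b⁻¹ := by rw [hj]
      _ = (b * u * b⁻¹) ^ j := by rw [conj_zpow]
      _ = (u ^ i) ^ j := by rw [hi]
      _ = (u ^ j) ^ i := by rw [← zpow_mul, ← zpow_mul, mul_comm]
      _ = (c * u * c⁻¹) ^ i := by rw [hj]
      _ = c * u ^ i * c⁻¹ := by rw [conj_zpow]
      _ = c * (b * u * b⁻¹) * c⁻¹ := by rw [hi]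
      _ = (c * b) * u * (c * b)⁻¹ := by group
  have h4 : Commute ((c * b)⁻¹ * (b * c)) u := by
    rw [commute_iff_eq]
    calc (c * b)⁻¹ * (b * c) * u = (c * b)⁻¹ * (b * c * u * (b * c)⁻¹) * (b * c) := by group
      _ = (c * b)⁻¹ * (c * b * u * (c * b)⁻¹) * (b * c) := by rw [h3]
      _ = u * ((c * b)⁻¹ * (b * c)) := by group
  have h5 : b * c * b⁻¹ * c⁻¹ = (c * b) * ((c * b)⁻¹ * (b * c)) * (c * b)⁻¹ := by group
  have h6 : (c * b)⁻¹ * (b * c) ∈ centralizer ((zpowers u : Subgroup G) : Set G) := by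
    rw [mem_centralizer_iff]
    rintro _ ⟨k, rfl⟩
    exact (h4.zpow_right k).eq.symm
  have h7 : c * b ∈ normalizer (centralizer ((zpowers u : Subgroup G) : Set G) : Set G) := by
    have := mul_mem hc hb
    have h8 : normalizer ((zpowers u : Subgroup G) : Set G) ≤
        normalizer (centralizer ((zpowers u : Subgroup G) : Set G) : Set G) := by
      intro x hx
      rw [mem_normalizer_iff]
      have key : ∀ x ∈ normalizer ((zpowers u : Subgroup G) : Set G), ∀ t ∈ centralizer ((zpowers u : Subgroup G) : Set G),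
          x * t * x⁻¹ ∈ centralizer ((zpowers u : Subgroup G) : Set G) := by
        intro x hx t ht
        rw [mem_centralizer_iff] at ht ⊢
        intro w hw
        have h9 : x⁻¹ * w * x ∈ zpowers u := by
          have := (mem_normalizer_iff.mp (inv_mem hx) w).mp hw
          simpa using this
        have h10 := ht _ h9
        calc w * (x * t * x⁻¹) = x * ((x⁻¹ * w * x) * t) * x⁻¹ := by group
          _ = x * (t * (x⁻¹ * w * x)) * x⁻¹ := by rw [h10]
          _ = x * t * x⁻¹ * w := by group
      intro t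
      refine ⟨key x hx t, fun ht => ?_⟩
      have := key x⁻¹ (inv_mem hx) _ ht
      have h11 : x⁻¹ * (x * t * x⁻¹) * x⁻¹⁻¹ = t := by group
      rwa [h11] at this
    exact h8 this
  rw [h5]
  exact (mem_normalizer_iff.mp h7 _).mp h6

/-- centralizers of involutions -/
theorem cent_two (h : Num G) {t : G} (ht : orderOf t = 2) : Nat.card (centralizer ({t} : Set G)) = 12 := by
  haveI : Fact (Nat.Prime 2) := ⟨Nat.prime_two⟩
  -- the centralizer has order divisible by four
  have key4 : ∀ t : G, orderOf t = 2 → ∃ P : Sylow 2 G, t ∈ (P : Subgroup G) ∧ (P : Subgroup G) ≤ centralizer ({t} : Set G) := by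
    intro t ht
    have h1 : IsPGroup 2 (zpowers t) := IsPGroup.of_card (n := 1) (by rw [Nat.card_zpowers, ht, pow_one])
    obtain ⟨P, hP⟩ := h1.exists_le_sylow
    have htP : t ∈ (P : Subgroup G) := hP (mem_zpowers t)
    refine ⟨P, htP, fun x hx => ?_⟩
    have hcomm : ∀ x y : P, x * y = y * x := by
      have : Nat.card P = 2 ^ 2 := by rw [card_sylow_two h]; norm_num
      exact (IsPGroup.commGroupOfCardEqPrimeSq this).mul_comm
    rw [mem_centralizer_singleton_iff]
    exact (congrArg Subtype.val (hcomm ⟨t, htP⟩ ⟨x, hx⟩)).symm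
  have hne : ∀ t : G, orderOf t = 2 → centralizer ({t} : Set G) ≠ ⊤ := by
    intro t ht e
    haveI := h.simple
    have h1 : (zpowers t).Normal := by
      refine ⟨fun n hn g => ?_⟩
      obtain ⟨k, rfl⟩ := hn
      have hg : g ∈ centralizer ({t} : Set G) := by rw [e]; exact mem_top g
      rw [mem_centralizer_singleton_iff] at hg
      have h2 : Commute g t := hg
      have h3 : g * t ^ k * g⁻¹ = t ^ k := by
        rw [(h2.zpow_right k).eq, mul_inv_cancel_right]
      change g * t ^ k * g⁻¹ ∈ _
      rw [h3]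
      exact ⟨k, rfl⟩
    rcases h1.eq_bot_or_eq_top with h2 | h2
    · have := Nat.card_zpowers t
      rw [h2, card_bot, ht] at this
      omega
    · have := Nat.card_zpowers t
      rw [h2, card_top, ht, h.card] at this
      omega
  have h4 : ∀ t : G, orderOf t = 2 → Nat.card (centralizer ({t} : Set G)) ∣ 12 := by
    intro t ht
    obtain ⟨P, -, hP⟩ := key4 t ht
    have h5 := card_dvd_of_le hP
    have h6 : Nat.card (P : Subgroup G) = 4 := card_sylow_two h P
    rw [h6] at h5
    rcases h.orders _ (hne t ht) with h7 | h7 | h7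
    · exact absurd (h5.trans h7) (by norm_num)
    · exact h7
    · exact absurd (h5.trans h7) (by norm_num)
  -- the cube of an element of order six
  obtain ⟨g, hg⟩ := h.six
  have hg3 : orderOf (g ^ 3) = 2 := by rw [orderOf_pow, hg]; norm_num
  have h12 : Nat.card (centralizer ({g ^ 3} : Set G)) = 12 := by
    obtain ⟨P, -, hP⟩ := key4 _ hg3
    have h5 := card_dvd_of_le hP
    have h6 : Nat.card (P : Subgroup G) = 4 := card_sylow_two h P
    rw [h6] at h5
    have h7 : g ∈ centralizer ({g ^ 3} : Set G) := by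
      rw [mem_centralizer_singleton_iff]
      exact ((Commute.refl g).pow_right 3).eq
    have h8 : 6 ∣ Nat.card (centralizer ({g ^ 3} : Set G)) := by
      rw [← hg, ← Subgroup.orderOf_mk _ h7]
      exact orderOf_dvd_natCard _
    have h9 : Nat.lcm 4 6 ∣ Nat.card (centralizer ({g ^ 3} : Set G)) := Nat.lcm_dvd h5 h8
    exact Nat.dvd_antisymm (h4 _ hg3) (by rwa [show Nat.lcm 4 6 = 12 from rfl] at h9)
  by_contra hcon
  obtain ⟨P, htP, hP⟩ := key4 t ht
  have h5 := card_dvd_of_le hP
  have h6 : Nat.card (P : Subgroup G) = 4 := card_sylow_two h P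
  rw [h6] at h5
  have h7 : Nat.card (centralizer ({t} : Set G)) = 4 := by
    obtain ⟨k, hk⟩ := h5
    have hk3 : k ∣ 3 := Nat.dvd_of_mul_dvd_mul_left (by norm_num : 0 < 4) (by rw [← hk]; simpa using h4 t ht)
    rcases (Nat.dvd_prime Nat.prime_three).mp hk3 with rfl | rfl
    · rw [hk]
    · exact absurd hk hcon
  have h8 : (P : Subgroup G) = centralizer ({t} : Set G) := Subgroup.eq_of_le_of_card_ge hP (by rw [h6, h7])
  -- the orbit of `t` under the normalizer of `P`
  have h9 : Nat.card (normalizer ((P : Subgroup G) : Set G)) = 12 := nz_four h h6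
  letI : MulAction (normalizer ((P : Subgroup G) : Set G)) G :=
    MulAction.compHom G ((MulAut.conj : G →* MulAut G).comp (normalizer ((P : Subgroup G) : Set G)).subtype)
  have hact : ∀ (x : normalizer ((P : Subgroup G) : Set G)) (y : G), x • y = (x : G) * y * (x : G)⁻¹ := fun x y => rfl
  have h10 : (MulAction.orbit (normalizer ((P : Subgroup G) : Set G)) t).ncard = 3 := by
    rw [← MulAction.index_stabilizer]
    have h11 : MulAction.stabilizer (normalizer ((P : Subgroup G) : Set G)) t =
        (P : Subgroup G).subgroupOf (normalizer ((P : Subgroup G) : Set G)) := by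
      ext x
      have h8' : (x : G) ∈ (P : Subgroup G) ↔ (x : G) * t = t * x := by
        rw [← mem_centralizer_singleton_iff]
        exact iff_of_eq (congrArg (fun K : Subgroup G => (x : G) ∈ K) h8)
      rw [MulAction.mem_stabilizer_iff, mem_subgroupOf, h8', hact]
      constructor
      · intro e; rw [← mul_inv_eq_iff_eq_mul]; exact e
      · intro e; rw [mul_inv_eq_iff_eq_mul]; exact e
    rw [h11]
    have h12 := ((P : Subgroup G).subgroupOf (normalizer ((P : Subgroup G) : Set G))).card_mul_index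
    rw [h9, Nat.card_congr (subgroupOfEquivOfLe (le_normalizer (H := (P : Subgroup G)))).toEquiv, h6] at h12
    omega
  have h11 : MulAction.orbit (normalizer ((P : Subgroup G) : Set G)) t ⊆ ((P : Subgroup G) : Set G) \ {1} := by
    rintro _ ⟨x, rfl⟩
    refine ⟨(mem_normalizer_iff.mp x.2 t).mp htP, ?_⟩
    simp only [Set.mem_singleton_iff, hact]
    intro e
    have : t = 1 := by
      have h13 : t = (x : G)⁻¹ * ((x : G) * t * (x : G)⁻¹) * x := by group
      rw [h13, e]; group
    rw [this, orderOf_one] at ht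
    exact absurd ht (by norm_num)
  have h12' : (((P : Subgroup G) : Set G) \ {1}).ncard = 3 := by
    rw [Set.ncard_sdiff_singleton_of_mem (one_mem _)]
    change Nat.card (P : Subgroup G) - 1 = 3
    rw [h6]
  have h13 := Set.eq_of_subset_of_ncard_le h11 (by rw [h10, h12'])
  -- a conjugate of the other involution lies in `P`
  obtain ⟨Q, hQ, -⟩ := key4 _ hg3
  obtain ⟨x, hx⟩ := MulAction.exists_smul_eq G Q P
  have h14 : x * g ^ 3 * x⁻¹ ∈ (P : Subgroup G) := by
    rw [← hx, Sylow.coe_subgroup_smul]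
    exact ⟨g ^ 3, hQ, rfl⟩
  have h15 : orderOf (x * g ^ 3 * x⁻¹) = 2 := by
    rw [← hg3]
    exact orderOf_injective (MulAut.conj x).toMonoidHom (MulAut.conj x).injective _
  have h16 : x * g ^ 3 * x⁻¹ ∈ MulAction.orbit (normalizer ((P : Subgroup G) : Set G)) t := by
    rw [h13]
    refine ⟨h14, ?_⟩
    intro e
    rw [Set.mem_singleton_iff] at e
    rw [e, orderOf_one] at h15
    exact absurd h15 (by norm_num)
  obtain ⟨y, hy⟩ := h16
  change (y : G) * t * (y : G)⁻¹ = _ at hy
  -- so the centralizers have the same order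
  have h17 : g ^ 3 = (x⁻¹ * y) * t * (x⁻¹ * y)⁻¹ := by
    calc g ^ 3 = x⁻¹ * (x * g ^ 3 * x⁻¹) * x := by group
      _ = x⁻¹ * ((y : G) * t * (y : G)⁻¹) * x := by rw [hy]
      _ = _ := by group
  have h18 : centralizer ({g ^ 3} : Set G) = (centralizer ({t} : Set G)).map (MulAut.conj (x⁻¹ * y)).toMonoidHom := by
    ext z
    rw [mem_map_equiv, mem_centralizer_singleton_iff, mem_centralizer_singleton_iff, h17, MulAut.conj_symm_apply]
    constructor
    · intro e
      have := congrArg (fun w => (x⁻¹ * y)⁻¹ * w * (x⁻¹ * (y : G))) e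
      simpa [mul_assoc] using this
    · intro e
      have := congrArg (fun w => (x⁻¹ * y) * w * (x⁻¹ * (y : G))⁻¹) e
      simpa [mul_assoc] using this
  rw [h18, Subgroup.card_map_of_injective (MulAut.conj (x⁻¹ * (y : G))).injective] at h12
  exact hcon h12

/-- the centralizer of a subgroup of order `13` -/
theorem cent_thirteen (h : Num G) {H : Subgroup G} (hH : Nat.card H = 13) : centralizer (H : Set G) = H := by
  haveI : Fact (Nat.Prime 13) := ⟨by norm_num⟩
  obtain ⟨u, hu⟩ : ∃ u : G, H = zpowers u := by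
    haveI : IsCyclic H := isCyclic_of_prime_card hH
    obtain ⟨u, hu⟩ := (Subgroup.isCyclic_iff_exists_zpowers_eq_top H).mp inferInstance
    exact ⟨u, hu.symm⟩
  have hle : H ≤ centralizer (H : Set G) := by
    intro x hx
    rw [mem_centralizer_iff]
    intro y hy
    rw [SetLike.mem_coe, hu] at hy
    rw [hu] at hx
    obtain ⟨i, rfl⟩ := hx
    obtain ⟨j, rfl⟩ := hy
    exact (Commute.zpow_zpow_self u j i).eq
  have hcent : centralizer (H : Set G) ≤ normalizer (H : Set G) := centralizer_le_normalizer _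
  have h1 := card_dvd_of_le hcent
  rw [nz_thirteen h hH] at h1
  have hno : ∀ p : ℕ, p.Prime → (p = 2 ∨ p = 3) → ¬ p ∣ Nat.card (centralizer (H : Set G)) := by
    intro p hp hp23 hd
    haveI : Fact p.Prime := ⟨hp⟩
    obtain ⟨x, hx⟩ := exists_prime_orderOf_dvd_card' p hd
    have hxo : orderOf (x : G) = p := by rw [Subgroup.orderOf_coe, hx]
    have hxc := mem_centralizer_iff.mp x.2
    -- `H` normalizes `⟨x⟩`
    have h2 : H ≤ centralizer ({(x : G)} : Set G) := by
      intro y hy
      rw [mem_centralizer_singleton_iff]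
      exact hxc y hy
    have h3 : Nat.card (zpowers (x : G)) = p := by rw [Nat.card_zpowers, hxo]
    rcases hp23 with rfl | rfl
    · have h4 := card_dvd_of_le h2
      rw [hH, cent_two h hxo] at h4
      exact absurd h4 (by norm_num)
    · have h4 : H ≤ normalizer ((zpowers (x : G) : Subgroup G) : Set G) := by
        refine le_trans ?_ (centralizer_le_normalizer _)
        intro y hy
        rw [mem_centralizer_iff]
        rintro _ ⟨k, rfl⟩
        have : Commute y (x : G) := hxc y hy
        exact (this.symm.zpow_left k).eq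
      have h5 := card_dvd_of_le h4
      rw [hH, nz_three h h3] at h5
      exact absurd h5 (by norm_num)
  have h5 := card_dvd_of_le hle
  rw [hH] at h5
  obtain ⟨k, hk⟩ := h5
  have h2 := hno 2 Nat.prime_two (Or.inl rfl)
  have h3 := hno 3 Nat.prime_three (Or.inr rfl)
  rw [hk] at h1 h2 h3
  have hk6 : k ∣ 6 := Nat.dvd_of_mul_dvd_mul_left (by norm_num : 0 < 13) (by simpa using h1)
  have hk2 := Nat.le_of_dvd (by norm_num) hk6
  refine (Subgroup.eq_of_le_of_card_ge hle ?_).symm
  rw [hk, hH]
  interval_cases k <;> omega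

/-- Overgroups of a subgroup of order `13` in its normalizer are normal in it. -/
theorem nz_le_nz (h : Num G) {P H : Subgroup G} (hP : Nat.card P = 13) (hPH : P ≤ H)
    (hH : H ≤ normalizer (P : Set G)) : normalizer (P : Set G) ≤ normalizer (H : Set G) := by
  haveI : Fact (Nat.Prime 13) := ⟨by norm_num⟩
  obtain ⟨u, hu⟩ : ∃ u : G, P = zpowers u := by
    haveI : IsCyclic P := isCyclic_of_prime_card hP
    obtain ⟨u, hu⟩ := (Subgroup.isCyclic_iff_exists_zpowers_eq_top P).mp inferInstance
    exact ⟨u, hu.symm⟩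
  have key : ∀ b ∈ normalizer (P : Set G), ∀ x ∈ H, b * x * b⁻¹ ∈ H := by
    intro b hb x hx
    have h1 := nz_comm P u hu hb (hH hx)
    rw [cent_thirteen h hP] at h1
    have h2 : b * x * b⁻¹ = (b * x * b⁻¹ * x⁻¹) * x := by group
    rw [h2]
    exact mul_mem (hPH h1) hx
  intro b hb
  rw [mem_normalizer_iff]
  intro x
  refine ⟨key b hb x, fun hx => ?_⟩
  have := key b⁻¹ (inv_mem hb) _ hx
  have h11 : b⁻¹ * (b * x * b⁻¹) * b⁻¹⁻¹ = x := by group
  rwa [h11] at this

/-- a subgroup of prime order in a subgroup where Sylow's count forces normality -/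
theorem exists_normal_prime (h : Num G) {H : Subgroup G} {p k : ℕ} [Fact p.Prime] (hH : Nat.card H = p * k)
    (hk : k < p) : ∃ P : Subgroup G, Nat.card P = p ∧ P ≤ H ∧ H ≤ normalizer (P : Set G) := by
  have hp : p.Prime := Fact.out
  have hk0 : 0 < k := by
    have : 0 < Nat.card H := Nat.card_pos
    rw [hH] at this
    exact Nat.pos_of_mul_pos_left this
  obtain ⟨Q⟩ : Nonempty (Sylow p H) := inferInstance
  have h1 : Nat.card Q = p := by
    rw [Sylow.card_eq_multiplicity, hH, Nat.factorization_mul hp.ne_zero hk0.ne']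
    rw [Finsupp.add_apply, hp.factorization_self, Nat.factorization_eq_zero_of_lt hk, pow_one]
  have h2 : (Q : Subgroup H).index = k := by
    have := (Q : Subgroup H).card_mul_index
    rw [hH, h1] at this
    exact Nat.eq_of_mul_eq_mul_left hp.pos this
  have h3 := Sylow.card_dvd_index Q
  rw [h2] at h3
  have h4 := card_sylow_modEq_one p H
  have h5 : Nat.card (Sylow p H) = 1 := by
    have h6 : Nat.card (Sylow p H) < p := (Nat.le_of_dvd hk0 h3).trans_lt hk
    have h7 : Nat.card (Sylow p H) % p = 1 % p := h4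
    rwa [Nat.mod_eq_of_lt h6, Nat.mod_eq_of_lt hp.one_lt] at h7
  haveI : Subsingleton (Sylow p H) := (Nat.card_eq_one_iff_unique.mp h5).1
  have h6 : (Q : Subgroup H).Normal := Q.normal_of_subsingleton
  refine ⟨(Q : Subgroup H).map H.subtype, ?_, map_subtype_le _, ?_⟩
  · rw [Subgroup.card_map_of_injective H.subtype_injective, h1]
  · intro x hx
    have h7 : ∀ x ∈ H, ∀ y ∈ (Q : Subgroup H).map H.subtype, x * y * x⁻¹ ∈ (Q : Subgroup H).map H.subtype := by
      rintro x hx _ ⟨y, hy, rfl⟩
      exact ⟨⟨x, hx⟩ * y * ⟨x, hx⟩⁻¹, h6.conj_mem y hy ⟨x, hx⟩, rfl⟩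
    rw [mem_normalizer_iff]
    intro y
    refine ⟨h7 x hx y, fun hy => ?_⟩
    have := h7 x⁻¹ (inv_mem hx) _ hy
    have h11 : x⁻¹ * (x * y * x⁻¹) * x⁻¹⁻¹ = y := by group
    rwa [h11] at this

/-- every proper nontrivial subgroup has a maximal normalizer -/
theorem coatom (h : Num G) (H : Subgroup G) (hb : H ≠ ⊥) (ht : H ≠ ⊤) : IsCoatom (normalizer (H : Set G)) := by
  apply coatom_of_dvd h _ (nz_ne_top h H hb ht)
  have hle := card_dvd_of_le (le_normalizer (H := H))
  have h13 : ∀ k, Nat.card H = 13 * k → k < 13 → 78 ∣ Nat.card (normalizer (H : Set G)) := by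
    intro k hk hk13
    haveI : Fact (Nat.Prime 13) := ⟨by norm_num⟩
    obtain ⟨P, hP, hPH, hHP⟩ := exists_normal_prime h hk hk13
    have := card_dvd_of_le (nz_le_nz h hP hPH hHP)
    rwa [nz_thirteen h hP] at this
  have h1 : Nat.card H ≠ 1 := fun e => hb (Subgroup.eq_bot_of_card_eq H e)
  have h2 : Nat.card H = 2 → 12 ∣ Nat.card (normalizer (H : Set G)) := by
    intro e
    haveI : Fact (Nat.Prime 2) := ⟨Nat.prime_two⟩
    haveI : IsCyclic H := isCyclic_of_prime_card e
    obtain ⟨u, hu⟩ := (Subgroup.isCyclic_iff_exists_zpowers_eq_top H).mp inferInstance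
    subst hu
    have h3 : orderOf u = 2 := by rw [← Nat.card_zpowers, e]
    have h4 : centralizer ({u} : Set G) ≤ normalizer ((zpowers u : Subgroup G) : Set G) := by
      refine le_trans ?_ (centralizer_le_normalizer _)
      intro y hy
      rw [mem_centralizer_singleton_iff] at hy
      rw [mem_centralizer_iff]
      rintro _ ⟨k, rfl⟩
      have : Commute y u := hy
      exact (this.symm.zpow_left k).eq
    have h5 := card_dvd_of_le h4
    rwa [cent_two h h3] at h5
  have h6 : Nat.card H = 6 → 12 ∣ Nat.card (normalizer (H : Set G)) := by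
    intro e
    haveI : Fact (Nat.Prime 3) := ⟨Nat.prime_three⟩
    obtain ⟨P, hP, hPH, hHP⟩ := exists_normal_prime h (p := 3) (k := 2) (H := H) (by rw [e]) (by norm_num)
    have h7 : (H.subgroupOf (normalizer (P : Set G))).Normal := by
      apply Subgroup.normal_of_index_eq_two
      have := (H.subgroupOf (normalizer (P : Set G))).card_mul_index
      rw [Nat.card_congr (subgroupOfEquivOfLe hHP).toEquiv, e, nz_three h hP] at this
      omega
    have h8 : normalizer (P : Set G) ≤ normalizer (H : Set G) := by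
      haveI := h7
      exact (Subgroup.normal_subgroupOf_iff_le_normalizer hHP).mp h7
    have := card_dvd_of_le h8
    rwa [nz_three h hP] at this
  have aux : ∀ n, Nat.card H = n → (n ∣ 14 ∨ n ∣ 12 ∨ n ∣ 78) → 12 ∣ Nat.card (normalizer (H : Set G)) ∨
      14 ∣ Nat.card (normalizer (H : Set G)) ∨ 78 ∣ Nat.card (normalizer (H : Set G)) := by
    intro n hn hd
    have hn' : n = 1 ∨ n = 2 ∨ n = 3 ∨ n = 4 ∨ n = 6 ∨ n = 7 ∨ n = 12 ∨ n = 13 ∨ n = 14 ∨ n = 26 ∨ n = 39 ∨ n = 78 := by
      have h78 : n ≤ 78 := by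
        rcases hd with hd | hd | hd
        · exact (Nat.le_of_dvd (by norm_num) hd).trans (by norm_num)
        · exact (Nat.le_of_dvd (by norm_num) hd).trans (by norm_num)
        · exact (Nat.le_of_dvd (by norm_num) hd)
      clear hn
      have : ∀ n ≤ 78, (n ∣ 14 ∨ n ∣ 12 ∨ n ∣ 78) → n = 1 ∨ n = 2 ∨ n = 3 ∨ n = 4 ∨ n = 6 ∨ n = 7 ∨ n = 12 ∨ n = 13 ∨
        n = 14 ∨ n = 26 ∨ n = 39 ∨ n = 78 := by decide
      exact this n h78 hd
    rcases hn' with rfl | rfl | rfl | rfl | rfl | rfl | rfl | rfl | rfl | rfl | rfl | rfl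
    · exact absurd hn h1
    · exact Or.inl (h2 hn)
    · exact Or.inl (by rw [nz_three h hn])
    · exact Or.inl (by rw [nz_four h hn])
    · exact Or.inl (h6 hn)
    · exact Or.inr (Or.inl (by rw [nz_seven h hn]))
    · exact Or.inl (hn ▸ hle)
    · exact Or.inr (Or.inr (h13 1 hn (by norm_num)))
    · exact Or.inr (Or.inl (hn ▸ hle))
    · exact Or.inr (Or.inr (h13 2 hn (by norm_num)))
    · exact Or.inr (Or.inr (h13 3 hn (by norm_num)))
    · exact Or.inr (Or.inr (hn ▸ hle))
  exact aux _ rfl (h.orders H ht)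

/-- The general form for central extensions. -/
theorem coatom_ext {X : Type*} [Group X] (h : Num G) (π : X →* G) (hπ : Function.Surjective π)
    (hc : ∀ c ∈ π.ker, ∀ x : X, c * x = x * c)
    (hH' : ∀ H : Subgroup X, ∀ x ∈ H, ∀ c ∈ π.ker, c ^ orderOf (π x) ∈ H → c ∈ H)
    (H : Subgroup X) (hH : ¬ H.Normal) : IsCoatom (normalizer (H : Set X)) := by
  have key : normalizer (H : Set X) = (normalizer ((H.map π : Subgroup G) : Set G)).comap π := by
    have h1 : ∀ x : X, π x ∈ normalizer ((H.map π : Subgroup G) : Set G) → ∀ y ∈ H, x * y * x⁻¹ ∈ H := by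
      intro x hx y hy
      have h2 : π x * π y * (π x)⁻¹ ∈ H.map π := (mem_normalizer_iff.mp hx _).mp ⟨y, hy, rfl⟩
      obtain ⟨z, hz, hzy⟩ := h2
      -- `x y x⁻¹ = z c`
      have hck : z⁻¹ * (x * y * x⁻¹) ∈ π.ker := by
        rw [MonoidHom.mem_ker, map_mul, map_inv, hzy, map_mul, map_mul, map_inv]
        group
      set c := z⁻¹ * (x * y * x⁻¹) with hcdef
      have hxy : x * y * x⁻¹ = z * c := by rw [hcdef]; group
      set n := orderOf (π y) with hn
      have h3 : c ^ n ∈ H := by
        have hyn : y ^ n ∈ π.ker := by rw [MonoidHom.mem_ker, map_pow, hn, pow_orderOf_eq_one]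
        have h4 : (x * y * x⁻¹) ^ n = y ^ n := by
          rw [conj_pow, ← hc _ hyn x, mul_inv_cancel_right]
        have h5 : (z * c) ^ n = z ^ n * c ^ n := by
          have : Commute z c := (hc c hck z).symm
          exact this.mul_pow n
        have h6 : c ^ n = (z ^ n)⁻¹ * y ^ n := by
          rw [← h4, hxy, h5]; group
        rw [h6]
        exact mul_mem (inv_mem (pow_mem hz n)) (pow_mem hy n)
      have h7 := hH' H y hy c hck h3
      rw [hxy]
      exact mul_mem hz h7
    ext x
    rw [mem_comap, mem_normalizer_iff]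
    constructor
    · intro hx
      rw [mem_normalizer_iff]
      have key2 : ∀ x : X, (∀ y, y ∈ H ↔ x * y * x⁻¹ ∈ H) → ∀ g ∈ H.map π, π x * g * (π x)⁻¹ ∈ H.map π := by
        rintro x hx _ ⟨y, hy, rfl⟩
        exact ⟨x * y * x⁻¹, (hx y).mp hy, by simp⟩
      intro g
      refine ⟨key2 x hx g, fun hg => ?_⟩
      have := key2 x⁻¹ (fun y => by
        rw [hx (x⁻¹ * y * x⁻¹⁻¹)]
        have : x * (x⁻¹ * y * x⁻¹⁻¹) * x⁻¹ = y := by group
        rw [this]) _ hg
      have h11 : π x⁻¹ * (π x * g * (π x)⁻¹) * (π x⁻¹)⁻¹ = g := by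
        rw [map_inv]; group
      rwa [h11] at this
    · intro hx y
      refine ⟨h1 x hx y, fun hy => ?_⟩
      have := h1 x⁻¹ (by rw [map_inv]; exact inv_mem hx) _ hy
      have h11 : x⁻¹ * (x * y * x⁻¹) * x⁻¹⁻¹ = y := by group
      rwa [h11] at this
  have hb : H.map π ≠ ⊥ := by
    intro e
    apply hH
    refine ⟨fun y hy x => ?_⟩
    have : y ∈ π.ker := by
      have : π y ∈ H.map π := ⟨y, hy, rfl⟩
      rw [e, mem_bot] at this
      exact this
    rw [← hc y this x, mul_inv_cancel_right]
    exact hy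
  have ht : H.map π ≠ ⊤ := by
    intro e
    apply hH
    rw [← normalizer_eq_top_iff, key, e]
    have : normalizer ((⊤ : Subgroup G) : Set G) = ⊤ := normalizer_eq_top_iff.mpr inferInstance
    rw [this, comap_top]
  rw [key]
  have h1 := coatom h _ hb ht
  refine ⟨fun e => h1.1 ?_, fun M hM => ?_⟩
  · rw [← comap_top π] at e
    exact comap_injective hπ e
  · have hker : π.ker ≤ M := by
      refine le_trans ?_ hM.le
      intro x hx
      rw [mem_comap, (MonoidHom.mem_ker.mp hx)]
      exact one_mem _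
    have h2 : M = (M.map π).comap π := by
      rw [comap_map_eq, sup_eq_left.mpr hker]
    rw [h2] at hM ⊢
    have h3 : normalizer ((H.map π : Subgroup G) : Set G) < M.map π := by
      refine lt_of_le_of_ne ((comap_le_comap_of_surjective hπ).mp hM.le) (fun e => ?_)
      rw [e] at hM
      exact hM.ne rfl
    rw [h1.2 _ h3, comap_top]

end Cfsg.Agent.Lib.MaxNz
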