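import Cfsg.Agent.Lib.McLCen1

/-!
The fifteen vectors are characterised by their inner products.
-/

set_option autoImplicit false
set_option maxHeartbeats 400000

namespace Cfsg.Agent.Lib.McLCen

open Cfsg Cfsg.Agent.Lib.Golay Cfsg.Agent.Lib.LeechMin Cfsg.Agent.Lib.GolayCoset Cfsg.Agent.Lib.LeechXi
  Cfsg.Agent.Lib.LeechTrans Cfsg.Agent.Lib.LeechCo2 Cfsg.Agent.Lib.LeechFrame Cfsg.Agent.Lib.LeechCount
  Cfsg.Agent.Lib.LeechOrder Cfsg.Agent.Lib.LeechMod Cfsg.Agent.Lib.LeechQuot Cfsg.Agent.Lib.LeechChain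
  Cfsg.Agent.Lib.LeechSyl
open Subgroup
open scoped Pointwise

abbrev pr : GolayPt := some 15
abbrev ps : GolayPt := some 9
def O1 : Finset GolayPt := mset 2702848
def E14 : Finset GolayPt := (ocᶜ.erase pr).erase ps

theorem pr_mem : pr ∈ ocᶜ := by decide +kernel
theorem ps_mem : ps ∈ ocᶜ.erase pr := by decide +kernel
theorem card_E14 : E14.card = 14 := by decide +kernel
theorem ps_O1 : ps ∈ O1 := by decide +kernel
theorem pr_O1 : pr ∉ O1 := by decide +kernel
theorem O1_sub : ∀ i ∈ O1, i ≠ ps → i ∈ E14 := by decide +kernel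
theorem O1_oc : ∀ i ∈ O1, i ∉ oc := by decide +kernel
theorem E14_spec : ∀ i, i ∈ E14 ↔ i ∉ oc ∧ i ≠ pr ∧ i ≠ ps := by decide +kernel

theorem split_sum (f : GolayPt → ℤ) : ∑ i ∈ ocᶜ, f i = f pr + (f ps + ∑ i ∈ E14, f i) := by
  rw [← Finset.add_sum_erase _ _ pr_mem, ← Finset.add_sum_erase _ _ ps_mem]
  rfl

theorem v0_form : ∀ i, vl v0L i = 2 * chi O1 i := by decide +kernel
theorem u0_form : ∀ i, vl u0L i = vl v0L i + uF pr ps i := by decide +kernel

theorem y_apply (x : leechLattice) (i : GolayPt) :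
    ((x + tt • x : leechLattice) : GolayPt → ℤ) i = if i ∈ oc then 0 else 2 * (x : GolayPt → ℤ) i := by
  show (x : GolayPt → ℤ) i + ((tt • x : leechLattice) : GolayPt → ℤ) i = _
  rw [tt_apply]
  split_ifs
  · ring
  · ring

theorem y_norm (x : leechLattice) : sqNorm ((x + tt • x : leechLattice) : GolayPt → ℤ) =
    4 * ∑ i ∈ ocᶜ, (x : GolayPt → ℤ) i ^ 2 := by
  unfold sqNorm
  rw [Finset.mul_sum, ← Finset.sum_subset (Finset.subset_univ ocᶜ)]
  · refine Finset.sum_congr rfl fun i hi => ?_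
    rw [y_apply, if_neg (Finset.mem_compl.1 hi)]
    ring
  · intro i _ hi
    rw [y_apply, if_pos (by_contra fun h => hi (Finset.mem_compl.2 h))]
    ring

theorem y_dotv (x : leechLattice) : dotInt ((x + tt • x : leechLattice) : GolayPt → ℤ) (v0 : GolayPt → ℤ) =
    4 * ∑ i ∈ O1, (x : GolayPt → ℤ) i := by
  unfold dotInt
  rw [Finset.mul_sum, ← Finset.sum_subset (Finset.subset_univ O1)]
  · refine Finset.sum_congr rfl fun i hi => ?_
    rw [y_apply, if_neg (O1_oc i hi), v0_coe, v0_form]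
    unfold chi
    rw [if_pos hi]
    ring
  · intro i _ hi
    rw [v0_coe, v0_form]
    unfold chi
    rw [if_neg hi]
    ring

theorem y_dotu (x : leechLattice) : dotInt ((x + tt • x : leechLattice) : GolayPt → ℤ) (u0 : GolayPt → ℤ) =
    dotInt ((x + tt • x : leechLattice) : GolayPt → ℤ) (v0 : GolayPt → ℤ) + 8 * ((x : GolayPt → ℤ) pr - (x : GolayPt → ℤ) ps) := by
  have h1 : (u0 : GolayPt → ℤ) = (v0 : GolayPt → ℤ) + uF pr ps := funext u0_form
  have h2 := dot_uF pr ps ((x + tt • x : leechLattice) : GolayPt → ℤ)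
  rw [h1, dot_add_right', LeechFrame.dot_comm _ (uF pr ps), h2, y_apply, y_apply, if_neg (Finset.mem_compl.1 pr_mem),
    if_neg (Finset.mem_compl.1 (Finset.mem_of_mem_erase ps_mem))]
  ring

/-! ### the pairs -/

def masks : List ℕ := [1082880, 35584, 299520, 41488, 4293120, 557632, 2130560]
def pairs : List (ℕ × ℕ) := [(10, 20), (11, 8), (12, 18), (13, 4), (16, 22), (19, 6), (21, 7)]

def chk (n : ℕ) : Bool :=
  cond (Nat.beq (pc (Nat.land n 8241104)) 4 && Nat.testBit n 15 && Nat.testBit n 9 && Nat.beq (pc (Nat.land n 2702848)) 2)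
    (masks.any fun m => Nat.beq (Nat.land n 8241104) m) true

theorem chk_all : allLt 4096 (fun k => chk (enc k)) = true := by decide +kernel

theorem mask_pairs : ∀ m ∈ masks, ∀ p ∈ O1, ∀ q ∈ E14, q ∉ O1 →
    (∀ i, m.testBit (ix i) = true ↔ i = pr ∨ i = ps ∨ i = p ∨ i = q) → (ix p, ix q) ∈ pairs := by decide +kernel

theorem pair_vec : ∀ k : Fin 7, ∃ v w : V4, v ≠ 0 ∧ w ≠ 0 ∧
    (∀ i, vl (zl v) i = if i = pr then 4 else if i = ps then -4 else if i = pt (pairs.getD k (0, 0)).1 then 4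
      else if i = pt (pairs.getD k (0, 0)).2 then 4 else 0) ∧
    (∀ i, vl (zl w) i = if i = pr then 4 else if i = ps then -4 else if i = pt (pairs.getD k (0, 0)).1 then 4
      else if i = pt (pairs.getD k (0, 0)).2 then -4 else 0) := by decide +kernel

theorem single_vec : ∃ v : V4, v ≠ 0 ∧ ∀ i, vl (zl v) i = if i = pr then 8 else 0 := by decide +kernel

end Cfsg.Agent.Lib.McLCen
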