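import Cfsg.Agent.Lib.McLCen2

/-!
The classification of the fifteen vectors.
-/

set_option autoImplicit false
set_option maxHeartbeats 400000

namespace Cfsg.Agent.Lib.McLCen

open Cfsg Cfsg.Agent.Lib.Golay Cfsg.Agent.Lib.LeechMin Cfsg.Agent.Lib.GolayCoset Cfsg.Agent.Lib.LeechXi
  Cfsg.Agent.Lib.LeechTrans Cfsg.Agent.Lib.LeechCo2 Cfsg.Agent.Lib.LeechFrame Cfsg.Agent.Lib.LeechCount
  Cfsg.Agent.Lib.LeechOrder Cfsg.Agent.Lib.LeechMod Cfsg.Agent.Lib.LeechQuot Cfsg.Agent.Lib.LeechChain
  Cfsg.Agent.Lib.LeechSyl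
open Subgroup
open scoped Pointwise

theorem ix_pr : ix pr = 15 := by decide +kernel
theorem ix_ps : ix ps = 9 := by decide +kernel

theorem testBit_land (a b i : ℕ) : (Nat.land a b).testBit i = (a.testBit i && b.testBit i) := Nat.testBit_and a b i

theorem bit_off (i : GolayPt) : (8241104 : ℕ).testBit (ix i) = true ↔ i ∉ oc := by
  rw [← occ_bit, Finset.mem_compl]

theorem bit_O1 (i : GolayPt) : (2702848 : ℕ).testBit (ix i) = true ↔ i ∈ O1 := mem_mset.symm

theorem chk_spec {n : ℕ} (h : chk n = true) (hc : pc (Nat.land n 8241104) = 4) (h15 : n.testBit 15 = true)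
    (h9 : n.testBit 9 = true) (h2 : pc (Nat.land n 2702848) = 2) : ∃ m ∈ masks, Nat.land n 8241104 = m := by
  unfold chk at h
  rw [hc, h15, h9, h2] at h
  generalize Nat.land n 8241104 = b at h
  change (masks.any fun m => Nat.beq b m) = true at h
  rw [List.any_eq_true] at h
  obtain ⟨m, hm1, hm2⟩ := h
  exact ⟨m, hm1, Nat.eq_of_beq_eq_true hm2⟩

/-- a code set meeting the sixteen points in four -/
theorem code_pairs {B : Finset GolayPt} (hB : B ∈ Sup) {p q : GolayPt} (hp : p ∈ O1) (hps : p ≠ ps) (hq : q ∈ E14) (hq1 : q ∉ O1)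
    (h : ∀ i, i ∉ oc → (i ∈ B ↔ i = pr ∨ i = ps ∨ i = p ∨ i = q)) : (ix p, ix q) ∈ pairs := by
  obtain ⟨n, hn, rfl⟩ := exists_mset B
  rw [mset_mem_supports_iff hn, isCode_iff] at hB
  obtain ⟨k, hk, rfl⟩ := hB
  have hoff : mset (Nat.land (enc k) 8241104) = {pr, ps, p, q} := by
    ext i
    rw [mem_mset]
    rw [testBit_land, Bool.and_eq_true, bit_off]
    simp only [Finset.mem_insert, Finset.mem_singleton]
    constructor
    · rintro ⟨h3, h4⟩
      exact (h i h4).1 (mem_mset.2 h3)
    · intro h3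
      have h4 : i ∉ oc := by
        rcases h3 with rfl | rfl | rfl | rfl
        · exact Finset.mem_compl.1 pr_mem
        · exact Finset.mem_compl.1 (Finset.mem_of_mem_erase ps_mem)
        · exact O1_oc _ hp
        · exact ((E14_spec _).1 hq).1
      exact ⟨mem_mset.1 ((h i h4).2 h3), h4⟩
  have e := (E14_spec q).1 hq
  have ep : p ≠ pr := fun h => pr_O1 (h ▸ hp)
  have epq : p ≠ q := fun h => hq1 (h ▸ hp)
  have hc : pc (Nat.land (enc k) 8241104) = 4 := by
    rw [← card_mset, hoff, Finset.card_insert_of_notMem, Finset.card_insert_of_notMem, Finset.card_insert_of_notMem,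
      Finset.card_singleton]
    · simpa using epq
    · simp only [Finset.mem_insert, Finset.mem_singleton, not_or]
      exact ⟨hps.symm, e.2.2.symm⟩
    · simp only [Finset.mem_insert, Finset.mem_singleton, not_or]
      exact ⟨by decide, ep.symm, e.2.1.symm⟩
  have hm : ∀ i, i ∈ mset (Nat.land (enc k) 8241104) → (enc k).testBit (ix i) = true := by
    intro i hi
    rw [mem_mset, testBit_land, Bool.and_eq_true] at hi
    exact hi.1
  have h15 : (enc k).testBit 15 = true := by
    have := hm pr (by rw [hoff]; simp)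
    rwa [ix_pr] at this
  have h9 : (enc k).testBit 9 = true := by
    have := hm ps (by rw [hoff]; simp)
    rwa [ix_ps] at this
  have h2 : pc (Nat.land (enc k) 2702848) = 2 := by
    rw [← card_mset]
    have : mset (Nat.land (enc k) 2702848) = {ps, p} := by
      ext i
      rw [mem_mset]
      rw [testBit_land, Bool.and_eq_true, bit_O1]
      simp only [Finset.mem_insert, Finset.mem_singleton]
      constructor
      · rintro ⟨h3, h4⟩
        rcases (h i (O1_oc i h4)).1 (mem_mset.2 h3) with rfl | rfl | rfl | rfl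
        · exact absurd h4 pr_O1
        · exact Or.inl rfl
        · exact Or.inr rfl
        · exact absurd h4 hq1
      · rintro (rfl | rfl)
        · exact ⟨hm _ (by rw [hoff]; simp), ps_O1⟩
        · exact ⟨hm _ (by rw [hoff]; simp), hp⟩
    rw [this, Finset.card_insert_of_notMem (by simpa using hps.symm), Finset.card_singleton]
  obtain ⟨m, hm1, hm3⟩ := chk_spec (allLt_iff.mp chk_all k hk) hc h15 h9 h2
  refine mask_pairs m hm1 p hp q hq hq1 (fun i => ?_)
  rw [← hm3, ← mem_mset, hoff]
  simp only [Finset.mem_insert, Finset.mem_singleton]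

/-- the final identification -/
theorem finish {x : leechLattice} {w : GolayPt → ℤ} (hw : ∀ i, (x : GolayPt → ℤ) i = 2 * w i) (hr : w pr = 1) (hs : w ps = -1)
    {p q : GolayPt} (hp : p ∈ O1) (hps : p ≠ ps) (hq : q ∈ E14) (hq1 : q ∉ O1) (h1 : w p = 1) (h2 : w q ^ 2 = 1)
    (h0 : ∀ i ∈ E14, i ≠ p → i ≠ q → w i = 0) : ∃ v : V4, v ≠ 0 ∧ x + tt • x = zV v := by
  obtain ⟨B, hBm⟩ : ∃ B : Finset GolayPt, ∀ i, i ∈ B ↔ w i % 2 = 1 :=
    ⟨Finset.univ.filter fun i => w i % 2 = 1, fun i => by simp⟩
  have hB : B ∈ Sup := by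
    refine mem_Sup_of x.2 (e := 0) (fun i => ?_)
    rw [hw i]
    unfold chi
    by_cases h : w i % 2 = 1
    · rw [if_pos ((hBm i).2 h)]; omega
    · rw [if_neg (fun h' => h ((hBm i).1 h'))]; omega
  have hq2 := int_eq_of_sq_eq_one h2
  have hbits : ∀ i, i ∉ oc → (i ∈ B ↔ i = pr ∨ i = ps ∨ i = p ∨ i = q) := by
    intro i hi
    rw [hBm]
    constructor
    · intro h
      by_contra hc
      push Not at hc
      rw [h0 i ((E14_spec i).2 ⟨hi, hc.1, hc.2.1⟩) hc.2.2.1 hc.2.2.2] at h
      norm_num at h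
    · intro h
      rcases h with h | h | h | h <;> rw [h]
      · rw [hr]; norm_num
      · rw [hs]; norm_num
      · rw [h1]; norm_num
      · rcases hq2 with h3 | h3 <;> rw [h3] <;> norm_num
  have hpq := code_pairs hB hp hps hq hq1 hbits
  obtain ⟨k, hk, hk2⟩ := List.mem_iff_getElem.1 hpq
  have hk7 : k < 7 := hk
  obtain ⟨v, v', hv0, hv0', hv, hv'⟩ := pair_vec ⟨k, hk7⟩
  have hkk : pairs.getD k (0, 0) = (ix p, ix q) := by rw [List.getD_eq_getElem _ _ hk, hk2]
  simp only [hkk, pt_ix] at hv hv'
  have e := (E14_spec q).1 hq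
  have ep : p ≠ pr := fun h => pr_O1 (h ▸ hp)
  have epq : p ≠ q := fun h => hq1 (h ▸ hp)
  have hpoc := O1_oc p hp
  have key : ∀ i, ((x + tt • x : leechLattice) : GolayPt → ℤ) i = if i = pr then 4 else if i = ps then -4 else if i = p then 4
      else if i = q then 4 * w q else 0 := by
    intro i
    rw [y_apply, hw]
    by_cases hi : i ∈ oc
    · rw [if_pos hi, if_neg, if_neg, if_neg, if_neg]
      · rintro rfl; exact e.1 hi
      · rintro rfl; exact hpoc hi
      · rintro rfl; exact Finset.mem_compl.1 (Finset.mem_of_mem_erase ps_mem) hi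
      · rintro rfl; exact Finset.mem_compl.1 pr_mem hi
    · rw [if_neg hi]
      by_cases e1 : i = pr
      · rw [if_pos e1, e1, hr]; norm_num
      rw [if_neg e1]
      by_cases e2 : i = ps
      · rw [if_pos e2, e2, hs]; norm_num
      rw [if_neg e2]
      by_cases e3 : i = p
      · rw [if_pos e3, e3, h1]; norm_num
      rw [if_neg e3]
      by_cases e4 : i = q
      · rw [if_pos e4, e4]; ring
      rw [if_neg e4, h0 i ((E14_spec i).2 ⟨hi, e1, e2⟩) e3 e4]; norm_num
  rcases hq2 with h3 | h3
  · refine ⟨v, hv0, ?_⟩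
    apply Subtype.ext
    funext i
    rw [key, h3, zV_coe, hv, mul_one]
  · refine ⟨v', hv0', ?_⟩
    apply Subtype.ext
    funext i
    rw [key, h3, zV_coe, hv']
    norm_num

theorem classify {x : leechLattice} (h1 : sqNorm ((x + tt • x : leechLattice) : GolayPt → ℤ) = 64)
    (h2 : dotInt ((x + tt • x : leechLattice) : GolayPt → ℤ) (u0 : GolayPt → ℤ) = 32)
    (h3 : dotInt ((x + tt • x : leechLattice) : GolayPt → ℤ) (v0 : GolayPt → ℤ) = 0) : ∃ v : V4, v ≠ 0 ∧ x + tt • x = zV v := by
  rw [y_norm, split_sum] at h1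
  rw [y_dotu, h3] at h2
  rw [y_dotv] at h3
  obtain ⟨m, A, hA, hm, hsum⟩ := (mem_lattice_iff' _).1 x.2
  by_cases hev : (2 : ℤ) ∣ m
  · have hw : ∀ i, ∃ w : ℤ, (x : GolayPt → ℤ) i = 2 * w := by
      intro i
      have h4 := hm i
      obtain ⟨m', hm'⟩ := hev
      obtain ⟨c, hc⟩ := h4
      exact ⟨m' + chi A i + 2 * c, by linarith⟩
    choose w hw using hw
    have hn : w pr ^ 2 + (w ps ^ 2 + ∑ i ∈ E14, w i ^ 2) = 4 := by
      have h5 : ∑ i ∈ E14, (x : GolayPt → ℤ) i ^ 2 = 4 * ∑ i ∈ E14, w i ^ 2 := by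
        rw [Finset.mul_sum]
        exact Finset.sum_congr rfl fun i _ => by rw [hw]; ring
      rw [h5, hw pr, hw ps] at h1
      linarith
    have hr : w pr - w ps = 2 := by
      rw [hw pr, hw ps] at h2
      linarith
    have hO : ∑ i ∈ O1, w i = 0 := by
      have h5 : ∑ i ∈ O1, (x : GolayPt → ℤ) i = 2 * ∑ i ∈ O1, w i := by
        rw [Finset.mul_sum]
        exact Finset.sum_congr rfl fun i _ => hw i
      rw [h5] at h3
      linarith
    have hO2 : w ps + ∑ i ∈ O1.erase ps, w i = 0 := by rw [Finset.add_sum_erase _ _ ps_O1, hO]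
    have hnn : 0 ≤ ∑ i ∈ E14, w i ^ 2 := Finset.sum_nonneg fun i _ => sq_nonneg _
    have hzero : ∑ i ∈ E14, w i ^ 2 = 0 → ∀ i ∈ E14, w i = 0 := by
      intro h i hi
      have := (Finset.sum_eq_zero_iff_of_nonneg (fun i _ => sq_nonneg (w i))).1 h i hi
      exact pow_eq_zero_iff two_ne_zero |>.1 this
    have hps : w ps = w pr - 2 := by linarith
    have h6 : w pr = 0 ∨ w pr = 1 ∨ w pr = 2 := by
      rw [hps] at hn
      have h7 : 0 ≤ w pr := by nlinarith
      have h8 : w pr ≤ 2 := by nlinarith
      omega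
    rcases h6 with h6 | h6 | h6
    · exfalso
      have h7 : w ps = -2 := by rw [hps, h6]; norm_num
      have h8 := hzero (by rw [h6, h7] at hn; linarith)
      have h9 : ∑ i ∈ O1.erase ps, w i = 0 := Finset.sum_eq_zero fun i hi =>
        h8 i (O1_sub i (Finset.mem_of_mem_erase hi) (Finset.ne_of_mem_erase hi))
      rw [h9, h7] at hO2
      norm_num at hO2
    · have h7 : w ps = -1 := by rw [hps, h6]; norm_num
      have h8 : ∑ i ∈ E14, w i ^ 2 = 2 := by rw [h6, h7] at hn; linarith
      set z : GolayPt → ℤ := fun i => if i ∈ E14 then w i else 0 with hz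
      have h9 : ∑ i, z i ^ 2 = 2 := by
        rw [← h8, ← Finset.sum_subset (Finset.subset_univ E14)]
        · exact Finset.sum_congr rfl fun i hi => by simp only [hz, if_pos hi]
        · intro i _ hi
          simp only [hz, if_neg hi]
          norm_num
      obtain ⟨c, e, hce, hc, he, hz0⟩ := two_support h9
      have hcE : c ∈ E14 := by
        by_contra h
        simp only [hz, if_neg h] at hc
        norm_num at hc
      have heE : e ∈ E14 := by
        by_contra h
        simp only [hz, if_neg h] at he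
        norm_num at he
      have hzc : z c = w c := by simp only [hz, if_pos hcE]
      have hze : z e = w e := by simp only [hz, if_pos heE]
      have hO3 : (∑ i, if i ∈ O1 then z i else 0) = 1 := by
        have h10 : ∑ i ∈ O1.erase ps, w i = 1 := by rw [h7] at hO2; linarith
        rw [← h10, ← Finset.sum_subset (Finset.subset_univ (O1.erase ps))]
        · refine Finset.sum_congr rfl fun i hi => ?_
          rw [if_pos (Finset.mem_of_mem_erase hi)]
          simp only [hz, if_pos (O1_sub i (Finset.mem_of_mem_erase hi) (Finset.ne_of_mem_erase hi))]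
        · intro i _ hi
          by_cases h11 : i ∈ O1
          · rw [if_pos h11]
            have h12 : i = ps := by
              by_contra h
              exact hi (Finset.mem_erase.2 ⟨h, h11⟩)
            have h13 : i ∉ E14 := fun h => ((E14_spec i).1 h).2.2 h12
            simp only [hz, if_neg h13]
          · rw [if_neg h11]
      have hO4 : (∑ i, if i ∈ O1 then z i else 0) = (if c ∈ O1 then z c else 0) + (if e ∈ O1 then z e else 0) := by
        refine Finset.sum_eq_add c e hce ?_ ?_ ?_
        · rintro i - ⟨hi1, hi2⟩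
          rw [hz0 i hi1 hi2]
          simp
        · intro h; exact absurd (Finset.mem_univ _) h
        · intro h; exact absurd (Finset.mem_univ _) h
      rw [hO3, hzc, hze] at hO4
      rw [hzc] at hc
      rw [hze] at he
      have hc' := int_eq_of_sq_eq_one hc
      have he' := int_eq_of_sq_eq_one he
      have hz0' : ∀ i ∈ E14, i ≠ c → i ≠ e → w i = 0 := by
        intro i hi h1 h2
        have := hz0 i h1 h2
        simpa only [hz, if_pos hi] using this
      by_cases hcO : c ∈ O1
      · by_cases heO : e ∈ O1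
        · rw [if_pos hcO, if_pos heO] at hO4
          exfalso; omega
        · rw [if_pos hcO, if_neg heO] at hO4
          exact finish hw h6 h7 hcO (fun h => ((E14_spec c).1 hcE).2.2 h) heE heO (by linarith) he hz0'
      · by_cases heO : e ∈ O1
        · rw [if_neg hcO, if_pos heO] at hO4
          exact finish hw h6 h7 heO (fun h => ((E14_spec e).1 heE).2.2 h) hcE hcO (by linarith) hc
            (fun i hi h1 h2 => hz0' i hi h2 h1)
        · rw [if_neg hcO, if_neg heO] at hO4
          exfalso; omega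
    · have h7 : w ps = 0 := by rw [hps, h6]; norm_num
      have h8 := hzero (by rw [h6, h7] at hn; linarith)
      obtain ⟨v, hv0, hv⟩ := single_vec
      refine ⟨v, hv0, ?_⟩
      apply Subtype.ext
      funext i
      rw [y_apply, zV_coe, hv, hw]
      by_cases hi : i ∈ oc
      · rw [if_pos hi, if_neg]
        rintro rfl; exact Finset.mem_compl.1 pr_mem hi
      · rw [if_neg hi]
        by_cases e1 : i = pr
        · rw [if_pos e1, e1, h6]; norm_num
        rw [if_neg e1]
        by_cases e2 : i = ps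
        · rw [e2, h7]; norm_num
        rw [h8 i ((E14_spec i).2 ⟨hi, e1, e2⟩)]; norm_num
  · exfalso
    have hodd : ∀ i, 1 ≤ (x : GolayPt → ℤ) i ^ 2 := by
      intro i
      have h4 := hm i
      have h5 : (x : GolayPt → ℤ) i ≠ 0 := by
        intro h6
        rw [h6] at h4
        omega
      have := sq_pos_of_ne_zero h5 (R := ℤ)
      linarith
    have h5 : (14 : ℤ) ≤ ∑ i ∈ E14, (x : GolayPt → ℤ) i ^ 2 := by
      have := Finset.card_nsmul_le_sum E14 (fun i => (x : GolayPt → ℤ) i ^ 2) 1 (fun i _ => hodd i)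
      rw [card_E14] at this
      simpa using this
    nlinarith [sq_nonneg ((x : GolayPt → ℤ) pr + (x : GolayPt → ℤ) ps)]

end Cfsg.Agent.Lib.McLCen
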