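import Cfsg.Agent.Lib.McLCen4
import Cfsg.Agent.Lib.GL4A8

/-!
Surjectivity of the homomorphism to `GL(4, 2)`.
-/

set_option autoImplicit false
set_option maxHeartbeats 400000

namespace Cfsg.Agent.Lib.McLCen

open Cfsg Cfsg.Agent.Lib.Golay Cfsg.Agent.Lib.LeechMin Cfsg.Agent.Lib.GolayCoset Cfsg.Agent.Lib.LeechXi
  Cfsg.Agent.Lib.LeechTrans Cfsg.Agent.Lib.LeechCo2 Cfsg.Agent.Lib.LeechFrame Cfsg.Agent.Lib.LeechCount
  Cfsg.Agent.Lib.LeechOrder Cfsg.Agent.Lib.LeechMod Cfsg.Agent.Lib.LeechQuot Cfsg.Agent.Lib.LeechChain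
  Cfsg.Agent.Lib.LeechSyl
open Subgroup
open scoped Pointwise Matrix

theorem mem_CM_of {g : Co0} {G : List ℤ → List ℤ} (hg : IsL g G)
    (h1 : ∀ n : Fin 24, G (epl 8536111 (el n)) = epl 8536111 (G (el n))) (h2 : G v0L = v0L) (h3 : G u0L = u0L) : g ∈ CM := by
  rw [mem_CM]
  refine ⟨⟨?_, ?_⟩, IsL_ef (hg.mul tt_L) (IsL.mul tt_L hg) h1⟩
  · apply Subtype.ext
    rw [hg _ _ v0_coe, h2, v0_coe]
  · apply Subtype.ext
    rw [hg _ _ u0_coe, h3, u0_coe]

/-- the matrix of an element -/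
theorem rhoG_mat (g : CM) {G : List ℤ → List ℤ} (hg : IsL (g : Co0) G) (M : Matrix (Fin 4) (Fin 4) (ZMod 2))
    (h : ∀ j : Fin 4, G (zl (Pi.single j 1)) = zl (fun i => M i j)) :
    ((rhoG g : Matrix.GeneralLinearGroup (Fin 4) (ZMod 2)) : Matrix (Fin 4) (Fin 4) (ZMod 2)) = M := by
  apply Matrix.ext_of_mulVec_single
  intro j
  rw [rhoG_spec, Matrix.mulVec_single_one]
  apply zV_inj
  rw [← pm_spec]
  apply Subtype.ext
  rw [hg _ _ (zV_coe _), h, zV_coe]
  rfl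

/-! ### the elements -/

def cB : ℕ := 26742999682035558444998587630782917
def cBi : ℕ := 589841196651828161367859349565245559
def cH : ℕ := 5989235823820259689967313196876887

theorem inM_cB : inM cB = true := by decide +kernel
noncomputable def pB : M24 := ⟨toPerm cB, toPerm_mem_M24 inM_cB⟩
theorem pB_inv (p : GolayPt) : (pB : Equiv.Perm GolayPt) (pt (img cBi (ix p))) = p := by
  have h : (pB : Equiv.Perm GolayPt) (pt (img cBi (ix p))) = pt (img cB (ix (pt (img cBi (ix p))))) := toPerm_apply (valid_of_inM inM_cB) _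
  rw [h]; revert p; decide +kernel
theorem pB_lt : ∀ p : GolayPt, img cBi (ix p) < 24 := by decide +kernel
theorem pB_L : IsL (peH pB) (pl cBi) := fun _ _ hv => pl_spec pB_inv pB_lt hv

theorem inM_cH : inM cH = true := by decide +kernel
noncomputable def pH : M24 := ⟨toPerm cH, toPerm_mem_M24 inM_cH⟩
theorem pH_inv (p : GolayPt) : (pH : Equiv.Perm GolayPt) (pt (img cH (ix p))) = p := by
  have h : (pH : Equiv.Perm GolayPt) (pt (img cH (ix p))) = pt (img cH (ix (pt (img cH (ix p))))) := toPerm_apply (valid_of_inM inM_cH) _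
  rw [h]; revert p; decide +kernel
theorem pH_lt : ∀ p : GolayPt, img cH (ix p) < 24 := by decide +kernel
theorem pH_L : IsL (peH pH) (pl cH) := fun _ _ hv => pl_spec pH_inv pH_lt hv

theorem CA_mem : mset 4587803 ∈ Sup := (mset_mem_supports_iff (by norm_num)).mpr (by decide +kernel)
theorem CG_mem : mset 2430217 ∈ Sup := (mset_mem_supports_iff (by norm_num)).mpr (by decide +kernel)

theorem A_L : IsL (eps (mset 4587803) CA_mem) (epl 4587803) := fun _ _ hv => epl_spec (mset_bit _) hv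
theorem E_L : IsL (eps (mset 2430217) CG_mem) (epl 2430217) := fun _ _ hv => epl_spec (mset_bit _) hv

def GG (l : List ℤ) : List ℤ := epl 2430217 (xil 8388615 tq3 (epl 2430217 l))
theorem G_L : IsL (eps (mset 2430217) CG_mem * (x3 * eps (mset 2430217) CG_mem)) GG := E_L.mul (x3_L.mul E_L)

def HH (l : List ℤ) : List ℤ := epl 4587803 (pl cH l)
theorem H_L : IsL (eps (mset 4587803) CA_mem * peH pH) HH := A_L.mul pH_L

noncomputable def gA : CM := ⟨eps (mset 4587803) CA_mem, mem_CM_of A_L (by decide +kernel) (by decide +kernel) (by decide +kernel)⟩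
noncomputable def gB : CM := ⟨peH pB, mem_CM_of pB_L (by decide +kernel) (by decide +kernel) (by decide +kernel)⟩
noncomputable def gG : CM := ⟨eps (mset 2430217) CG_mem * (x3 * eps (mset 2430217) CG_mem),
  mem_CM_of G_L (by decide +kernel) (by decide +kernel) (by decide +kernel)⟩
noncomputable def gH : CM := ⟨eps (mset 4587803) CA_mem * peH pH, mem_CM_of H_L (by decide +kernel) (by decide +kernel) (by decide +kernel)⟩

def mR (r : List (List (ZMod 2))) : Matrix (Fin 4) (Fin 4) (ZMod 2) := fun i j => (r.getD i []).getD j 0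
def rA : List (List (ZMod 2)) := [[1, 0, 1, 1], [0, 1, 0, 0], [0, 0, 1, 0], [0, 0, 0, 1]]
def rB : List (List (ZMod 2)) := [[1, 0, 0, 1], [0, 0, 0, 1], [0, 1, 0, 1], [0, 0, 1, 0]]
def rG : List (List (ZMod 2)) := [[1, 0, 0, 0], [1, 1, 0, 1], [0, 0, 1, 0], [0, 0, 0, 1]]

theorem matA : ((rhoG gA : Matrix.GeneralLinearGroup (Fin 4) (ZMod 2)) : Matrix (Fin 4) (Fin 4) (ZMod 2)) = mR rA :=
  rhoG_mat gA A_L _ (by decide +kernel)
theorem matB : ((rhoG gB : Matrix.GeneralLinearGroup (Fin 4) (ZMod 2)) : Matrix (Fin 4) (Fin 4) (ZMod 2)) = mR rB :=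
  rhoG_mat gB pB_L _ (by decide +kernel)
theorem matG : ((rhoG gG : Matrix.GeneralLinearGroup (Fin 4) (ZMod 2)) : Matrix (Fin 4) (Fin 4) (ZMod 2)) = mR rG :=
  rhoG_mat gG G_L _ (by decide +kernel)

def mOf (k : ℕ) : Matrix (Fin 4) (Fin 4) (ZMod 2) := match k with
  | 0 => mR rA
  | 1 => mR rB
  | _ => mR rG
noncomputable def gOf (k : ℕ) : CM := match k with
  | 0 => gA
  | 1 => gB
  | _ => gG

theorem mat_gOf (k : ℕ) : ((rhoG (gOf k) : Matrix.GeneralLinearGroup (Fin 4) (ZMod 2)) : Matrix (Fin 4) (Fin 4) (ZMod 2)) = mOf k := by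
  match k with
  | 0 => exact matA
  | 1 => exact matB
  | (n + 2) => exact matG

theorem mat_word (l : List ℕ) : ((rhoG (l.map gOf).prod : Matrix.GeneralLinearGroup (Fin 4) (ZMod 2)) : Matrix (Fin 4) (Fin 4) (ZMod 2)) =
    (l.map mOf).prod := by
  induction l with
  | nil => rw [List.map_nil, List.map_nil, List.prod_nil, List.prod_nil, map_one]; rfl
  | cons a l ih =>
    rw [List.map_cons, List.map_cons, List.prod_cons, List.prod_cons, map_mul, Units.val_mul, ih, mat_gOf]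

def wtab : List (List (List ℕ)) :=
  [[[], [1, 1, 1, 1, 0, 1, 1, 1], [1, 1, 0, 1, 1, 1, 1, 1], [1, 1, 1, 0, 1, 1, 1, 1]],
  [[1, 2, 1, 0, 1, 2, 0, 1, 1, 1, 1, 0], [], [1, 2, 1, 2, 0, 1, 1, 2, 0, 1, 1, 0], [2, 1, 2, 1, 0, 1, 2, 0, 1, 1, 1, 1, 0]],
  [[1, 2, 1, 1, 1, 1, 1, 1], [2, 0, 2, 1, 1, 2, 0, 2, 1, 0, 1, 0], [], [0, 1, 1, 2, 1, 2, 0, 1, 1, 2, 1]],
  [[1, 2, 0, 1, 1, 1, 2, 1, 0, 1, 1, 0], [1, 0, 1, 1, 2, 1, 2, 0, 1, 1, 2], [1, 1, 2, 0, 2, 0, 1, 1, 1, 1, 1], []]]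

theorem wtab_ok : ∀ i j : Fin 4, i ≠ j → (((wtab.getD i []).getD j []).map mOf).prod = Matrix.transvection i j 1 := by decide +kernel

theorem exists_mat (M : Matrix (Fin 4) (Fin 4) (ZMod 2)) (hM : M.det ≠ 0) :
    ∃ g : CM, ((rhoG g : Matrix.GeneralLinearGroup (Fin 4) (ZMod 2)) : Matrix (Fin 4) (Fin 4) (ZMod 2)) = M := by
  refine Matrix.diagonal_transvection_induction_of_det_ne_zero
    (fun M => ∃ g : CM, ((rhoG g : Matrix.GeneralLinearGroup (Fin 4) (ZMod 2)) : Matrix (Fin 4) (Fin 4) (ZMod 2)) = M) M hM ?_ ?_ ?_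
  · intro D hD
    have h1 : D = 1 := by
      funext i
      rw [Matrix.det_diagonal] at hD
      have h2 := Finset.prod_ne_zero_iff.mp hD i (Finset.mem_univ i)
      rcases GL4A8.zmod2_cases (D i) with h3 | h3
      · exact absurd h3 h2
      · exact h3
    rw [h1, Matrix.diagonal_one']
    exact ⟨1, by rw [map_one]; rfl⟩
  · rintro ⟨i, j, hij, c⟩
    rcases GL4A8.zmod2_cases c with rfl | rfl
    · refine ⟨1, ?_⟩
      simp only [Matrix.TransvectionStruct.toMatrix, Matrix.transvection_zero, map_one]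
      rfl
    · exact ⟨_, (mat_word _).trans (wtab_ok i j hij)⟩
  · rintro A B hA hB ⟨g, hg⟩ ⟨h, hh⟩
    exact ⟨g * h, by rw [map_mul, Units.val_mul, hg, hh]⟩

theorem rhoG_surj : Function.Surjective rhoG := by
  intro M
  obtain ⟨g, hg⟩ := exists_mat (M : Matrix (Fin 4) (Fin 4) (ZMod 2)) (GL4A8.det_ne_zero M)
  exact ⟨g, Units.ext hg⟩

/-- an element of order four -/
theorem gH_sq : (gH : Co0) * (gH : Co0) = tt := IsL_ef (H_L.mul H_L) tt_L (by decide +kernel)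

end Cfsg.Agent.Lib.McLCen
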