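import Cfsg.Agent.Lib.McLCen5
import Cfsg.Agent.Lib.LeechOutM7

/-!
The centraliser of an involution in McLaughlin's group is a non-split double cover of `A8`.
-/

set_option autoImplicit false
set_option maxHeartbeats 400000

namespace Cfsg.Agent.Lib.McLCen

open Cfsg Cfsg.Agent.Lib.Golay Cfsg.Agent.Lib.LeechMin Cfsg.Agent.Lib.GolayCoset Cfsg.Agent.Lib.LeechXi
  Cfsg.Agent.Lib.LeechTrans Cfsg.Agent.Lib.LeechCo2 Cfsg.Agent.Lib.LeechFrame Cfsg.Agent.Lib.LeechCount
  Cfsg.Agent.Lib.LeechOrder Cfsg.Agent.Lib.LeechMod Cfsg.Agent.Lib.LeechQuot Cfsg.Agent.Lib.LeechChain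
  Cfsg.Agent.Lib.LeechSyl
open Subgroup
open scoped Pointwise Matrix

theorem nonsplit_congr {H H' K : Type*} [Group H] [Group H'] [Group K] (e : H ≃* H') (h : IsNonsplitDoubleCover H K) :
    IsNonsplitDoubleCover H' K := by
  obtain ⟨h1, ⟨h2⟩, h3⟩ := h
  have hc : (Subgroup.center H).map (e : H →* H') = Subgroup.center H' := by
    ext x
    rw [Subgroup.mem_map]
    constructor
    · rintro ⟨y, hy, rfl⟩
      rw [Subgroup.mem_center_iff] at hy ⊢
      intro g
      have := congrArg e (hy (e.symm g))
      rw [map_mul, map_mul, e.apply_symm_apply] at this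
      exact this
    · intro hx
      refine ⟨e.symm x, ?_, e.apply_symm_apply x⟩
      rw [Subgroup.mem_center_iff] at hx ⊢
      intro g
      apply e.injective
      rw [map_mul, map_mul, e.apply_symm_apply]
      exact hx (e g)
  refine ⟨?_, ⟨(QuotientGroup.congr _ _ e hc).symm.trans h2⟩, ?_⟩
  · rw [← hc, Nat.card_congr ((Subgroup.center H).equivMapOfInjective (e : H →* H') e.injective).symm.toEquiv, h1]
  · intro L hL
    apply h3 (L.comap (e : H →* H'))
    rw [← hc] at hL
    rw [Subgroup.isComplement'_def, Subgroup.isComplement_iff_existsUnique] at hL ⊢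
    intro g
    obtain ⟨⟨x, y⟩, hxy, huniq⟩ := hL (e g)
    obtain ⟨a, ha, ha2⟩ := Subgroup.mem_map.1 x.2
    refine ⟨(⟨a, ha⟩, ⟨e.symm y, ?_⟩), ?_, ?_⟩
    · show e (e.symm (y : H')) ∈ L
      rw [e.apply_symm_apply]; exact y.2
    · show a * e.symm (y : H') = g
      apply e.injective
      rw [map_mul, e.apply_symm_apply, ← hxy]
      exact congrArg (fun z => z * (y : H')) ha2
    · rintro ⟨b, c⟩ hbc
      have h4 := huniq (⟨e b, Subgroup.mem_map_of_mem _ b.2⟩, ⟨e c, c.2⟩) (by
        show e (b : H) * e (c : H) = e g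
        rw [← map_mul]
        exact congrArg e hbc)
      have h5 : e (b : H) = x := congrArg (fun z => ((z.1 : _) : H')) h4
      have h6 : e (c : H) = y := congrArg (fun z => ((z.2 : _) : H')) h4
      apply Prod.ext
      · apply Subtype.ext
        apply e.injective
        rw [h5]; exact ha2.symm
      · apply Subtype.ext
        apply e.injective
        rw [h6]
        exact (e.apply_symm_apply _).symm

theorem tt_mem : tt ∈ CM := mem_CM_of tt_L (by decide +kernel) (by decide +kernel) (by decide +kernel)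

noncomputable def ttC : CM := ⟨tt, tt_mem⟩

theorem tt_sq : tt * tt = 1 := by
  apply IsL_ef (tt_L.mul tt_L) (H := fun l => l) (fun v l hv => by rw [one_smul]; exact hv)
  decide +kernel

theorem tt_ne : tt ≠ 1 := by
  intro h
  have h1 := tt_apply (ef none) none
  rw [h, one_smul, if_pos (by decide +kernel), coe_ef, Pi.single_eq_same] at h1
  norm_num at h1

theorem ttC_ker : rhoG ttC = 1 := by
  apply Units.ext
  rw [rhoG_mat ttC tt_L 1 (by decide +kernel)]
  rfl

theorem center_GL4 : Subgroup.center (GL (Fin 4) (ZMod 2)) = ⊥ := by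
  rw [eq_bot_iff]
  intro x hx
  have h1 : GL4A8.equivA8 x ∈ Subgroup.center (alternatingGroup (Fin 8)) := by
    rw [Subgroup.mem_center_iff] at hx ⊢
    intro g
    obtain ⟨y, rfl⟩ := GL4A8.equivA8.surjective g
    rw [← map_mul, ← map_mul, hx]
  rw [alternatingGroup.center_eq_bot (by simp), Subgroup.mem_bot] at h1
  rw [Subgroup.mem_bot]
  exact GL4A8.equivA8.injective (h1.trans (map_one _).symm)

theorem center_CM : Subgroup.center CM = rhoG.ker := by
  ext x
  rw [MonoidHom.mem_ker]
  constructor
  · intro hx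
    have h1 : rhoG x ∈ Subgroup.center (GL (Fin 4) (ZMod 2)) := by
      rw [Subgroup.mem_center_iff] at hx ⊢
      intro g
      obtain ⟨y, rfl⟩ := rhoG_surj g
      rw [← map_mul, ← map_mul, hx]
    rw [center_GL4, Subgroup.mem_bot] at h1
    exact h1
  · intro hx
    rw [Subgroup.mem_center_iff]
    intro g
    apply Subtype.ext
    rcases CM_ker hx with h | h
    · show (g : Co0) * (x : Co0) = (x : Co0) * (g : Co0)
      rw [h, mul_one, one_mul]
    · show (g : Co0) * (x : Co0) = (x : Co0) * (g : Co0)
      rw [h]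
      exact (mem_CM.1 g.2).2

theorem card_center_CM : Nat.card (Subgroup.center CM) = 2 := by
  have h1 : ((Subgroup.center CM : Subgroup CM) : Set CM) = {1, ttC} := by
    ext x
    rw [SetLike.mem_coe, center_CM, MonoidHom.mem_ker, Set.mem_insert_iff, Set.mem_singleton_iff]
    constructor
    · intro h
      rcases CM_ker h with h | h
      · left; exact Subtype.ext h
      · right; exact Subtype.ext h
    · rintro (rfl | rfl)
      · exact map_one _
      · exact ttC_ker
  show Nat.card ((Subgroup.center CM : Subgroup CM) : Set CM) = 2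
  rw [Nat.card_coe_set_eq, h1]
  refine Set.ncard_pair (fun h => tt_ne ?_)
  exact (congrArg (fun x : CM => (x : Co0)) h).symm

theorem CM_cover : IsNonsplitDoubleCover CM (alternatingGroup (Fin 8)) := by
  refine ⟨card_center_CM, ⟨?_⟩, ?_⟩
  · exact (QuotientGroup.quotientMulEquivOfEq center_CM).trans
      ((QuotientGroup.quotientKerEquivOfSurjective rhoG rhoG_surj).trans GL4A8.equivA8)
  · intro L hL
    obtain ⟨z, hz, l, hl, hzl⟩ : ∃ z ∈ Subgroup.center CM, ∃ l ∈ L, z * l = gH := by
      obtain ⟨⟨z, l⟩, h⟩ := hL.2 gH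
      exact ⟨z, z.2, l, l.2, h⟩
    have h3 : z * z = 1 := by
      rw [center_CM, MonoidHom.mem_ker] at hz
      apply Subtype.ext
      rcases CM_ker hz with h | h
      · show (z : Co0) * (z : Co0) = 1
        rw [h, mul_one]
      · show (z : Co0) * (z : Co0) = 1
        rw [h, tt_sq]
    have h4 : l * l = ttC := by
      have h5 : gH * gH = ttC := Subtype.ext gH_sq
      rw [← h5, ← hzl]
      rw [Subgroup.mem_center_iff] at hz
      calc l * l = (z * z) * (l * l) := by rw [h3, one_mul]
        _ = z * (z * l) * l := by group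
        _ = z * (l * z) * l := by rw [hz l]
        _ = z * l * (z * l) := by group
    have h6 : ttC ∈ L := by rw [← h4]; exact L.mul_mem hl hl
    have h7 : ttC ∈ Subgroup.center CM := by
      rw [center_CM, MonoidHom.mem_ker]; exact ttC_ker
    have h8 := Subgroup.disjoint_def.1 hL.disjoint h7 h6
    exact tt_ne (congrArg (fun x : CM => (x : Co0)) h8)

/-- centralisers correspond under isomorphisms -/
noncomputable def centCongr {G H : Type*} [Group G] [Group H] (e : G ≃* H) (t : G) :
    Subgroup.centralizer ({t} : Set G) ≃* Subgroup.centralizer ({e t} : Set H) where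
  toFun x := ⟨e x, by
    rw [Subgroup.mem_centralizer_singleton_iff, ← map_mul, ← map_mul, Subgroup.mem_centralizer_singleton_iff.1 x.2]⟩
  invFun y := ⟨e.symm y, by
    rw [Subgroup.mem_centralizer_singleton_iff]
    apply e.injective
    rw [map_mul, map_mul, e.apply_symm_apply, Subgroup.mem_centralizer_singleton_iff.1 y.2]⟩
  left_inv x := Subtype.ext (e.symm_apply_apply _)
  right_inv y := Subtype.ext (e.apply_symm_apply _)
  map_mul' x y := Subtype.ext (map_mul e _ _)

end Cfsg.Agent.Lib.McLCen
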