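import Cfsg.Agent.Lib.McLCen6
import Cfsg.Agent.Lib.BSWGrp
import Cfsg.Agent.Lib.GolayOctadA8

/-!
One class of involutions in `M22` and in McLaughlin's group.
-/

set_option autoImplicit false
set_option maxHeartbeats 400000

namespace Cfsg.Agent.Lib.McLCen

open Cfsg Cfsg.Agent.Lib.Golay Cfsg.Agent.Lib.LeechMin Cfsg.Agent.Lib.GolayCoset Cfsg.Agent.Lib.LeechXi
  Cfsg.Agent.Lib.LeechTrans Cfsg.Agent.Lib.LeechCo2 Cfsg.Agent.Lib.LeechFrame Cfsg.Agent.Lib.LeechCount
  Cfsg.Agent.Lib.LeechOrder Cfsg.Agent.Lib.LeechMod Cfsg.Agent.Lib.LeechQuot Cfsg.Agent.Lib.LeechChain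
  Cfsg.Agent.Lib.LeechSyl
open Subgroup
open scoped Pointwise Matrix

def L22 : List ℕ := [984818244535754528103549039458486304, 984724508489452699215480746259449888, 976568219141625759021091627404003360, 972713015682628765042443678633855008, 972771709591600271314490660250650656, 976978698201109872514653476119676960, 976783504883648070799297133914032160, 971710489191060819570070520927962144, 972606645568131968584696805283956768, 967905132146687071860748307912541216, 976531636853126291160407323722221600, 984235865005994746954145143334668320, 972995847379114216489588235306567712, 984202951082164080105044112956360736, 963472382420602523184296581551703072]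

theorem L22_inM : ∀ c ∈ L22, inM c = true := by decide +kernel
theorem L22_fix : ∀ c ∈ L22, pt (img c (ix none)) = none ∧ pt (img c (ix b0)) = b0 ∧ pt (img c (ix (some 4))) = some 4 := by decide +kernel
theorem L22_oc : ∀ c ∈ L22, ∀ i, pt (img c (ix i)) ∈ oc ↔ i ∈ oc := by decide +kernel
theorem L22_tr : ∀ y, y ∉ oc → y ≠ some 4 → ∃ c ∈ L22, pt (img c (ix y)) = some 6 := by decide +kernel

theorem oc_oct : oc ∈ octads := ⟨oc_mem, card_oc⟩

theorem none_oc : (none : GolayPt) ∈ oc := by decide +kernel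
theorem b0_oc : b0 ∈ oc := by decide +kernel

/-- moving the fixed octad -/
theorem to_oc {B : Finset GolayPt} (hB : B ∈ octads) (h1 : none ∈ B) (h2 : b0 ∈ B) :
    ∃ τ ∈ M24, τ none = none ∧ τ b0 = b0 ∧ ∀ i, τ i ∈ oc ↔ i ∈ B := by
  have hB8 : B.card = 8 := hB.2
  obtain ⟨c, hc⟩ : ((B.erase none).erase b0).Nonempty := by
    apply Finset.card_pos.1
    have := Finset.pred_card_le_card_erase (s := B) (a := none)
    have := Finset.pred_card_le_card_erase (s := B.erase none) (a := b0)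
    omega
  obtain ⟨d, hd⟩ : (((B.erase none).erase b0).erase c).Nonempty := by
    apply Finset.card_pos.1
    have := Finset.pred_card_le_card_erase (s := B) (a := none)
    have := Finset.pred_card_le_card_erase (s := B.erase none) (a := b0)
    have := Finset.pred_card_le_card_erase (s := (B.erase none).erase b0) (a := c)
    omega
  obtain ⟨e, he⟩ : ((((B.erase none).erase b0).erase c).erase d).Nonempty := by
    apply Finset.card_pos.1
    have := Finset.pred_card_le_card_erase (s := B) (a := none)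
    have := Finset.pred_card_le_card_erase (s := B.erase none) (a := b0)
    have := Finset.pred_card_le_card_erase (s := (B.erase none).erase b0) (a := c)
    have := Finset.pred_card_le_card_erase (s := ((B.erase none).erase b0).erase c) (a := d)
    omega
  simp only [Finset.mem_erase] at hc hd he
  obtain ⟨τ, hτ, t1, t2, t3, t4, t5⟩ := exists_five (a := none) (b := b0) (c := c) (d := d) (e := e) (a' := none) (b' := b0)
    (c' := some 1) (d' := some 2) (e' := some 3) hab hc.2.1.symm hd.2.2.1.symm he.2.2.2.1.symm hc.1.symm hd.2.1.symm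
    he.2.2.1.symm hd.1.symm he.2.1.symm he.1.symm (by decide) (by decide) (by decide) (by decide) (by decide) (by decide)
    (by decide) (by decide) (by decide) (by decide)
  refine ⟨τ, hτ, t1, t2, ?_⟩
  have h3 : τ • B = oc := by
    apply octad_eq_of_five ((smul_mem_octads hτ).mpr hB) oc_oct
    have h4 : ({none, b0, some 1, some 2, some 3} : Finset GolayPt) ⊆ τ • B ∩ oc := by
      intro i hi
      simp only [Finset.mem_insert, Finset.mem_singleton] at hi
      rw [Finset.mem_inter, mem_smul]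
      rcases hi with rfl | rfl | rfl | rfl | rfl
      · exact ⟨by rw [(Equiv.symm_apply_eq _).2 t1.symm]; exact h1, by decide +kernel⟩
      · exact ⟨by rw [(Equiv.symm_apply_eq _).2 t2.symm]; exact h2, by decide +kernel⟩
      · exact ⟨by rw [(Equiv.symm_apply_eq _).2 t3.symm]; exact hc.2.2, by decide +kernel⟩
      · exact ⟨by rw [(Equiv.symm_apply_eq _).2 t4.symm]; exact hd.2.2.2, by decide +kernel⟩
      · exact ⟨by rw [(Equiv.symm_apply_eq _).2 t5.symm]; exact he.2.2.2.2, by decide +kernel⟩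
    have h5 := Finset.card_le_card h4
    have h6 : ({none, b0, some 1, some 2, some 3} : Finset GolayPt).card = 5 := by decide +kernel
    omega
  intro i
  rw [← h3, mem_smul, Equiv.symm_apply_apply]

/-- canonical form of an involution of `M22` -/
theorem canon {σ : Equiv.Perm GolayPt} (hσ : σ ∈ M24) (h1 : σ none = none) (h2 : σ b0 = b0) (hsq : σ ^ 2 = 1) (hne : σ ≠ 1) :
    ∃ τ ∈ M24, τ none = none ∧ τ b0 = b0 ∧ τ * σ * τ⁻¹ ∈ OctPt oc ∧ (τ * σ * τ⁻¹) (some 4) = some 6 := by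
  have hF := MathieuFix.fix_involution hσ hsq hne h1
  obtain ⟨τ, hτ, t1, t2, t3⟩ := to_oc hF (GolayFix.mem_Fix.2 h1) (GolayFix.mem_Fix.2 h2)
  set ρ := τ * σ * τ⁻¹ with hρ
  have hρO : ρ ∈ OctPt oc := by
    rw [mem_OctPt]
    refine ⟨M24.mul_mem (M24.mul_mem hτ hσ) (M24.inv_mem hτ), fun p hp => ?_⟩
    have h3 : τ⁻¹ p ∈ GolayFix.Fix σ := by
      rw [← t3]
      show τ (τ.symm p) ∈ oc
      rw [Equiv.apply_symm_apply]; exact hp
    have h4 := GolayFix.mem_Fix.1 h3
    show τ (σ (τ⁻¹ p)) = p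
    rw [h4]
    exact Equiv.apply_symm_apply _ _
  have hρ1 : ρ ≠ 1 := by
    intro h
    apply hne
    rw [hρ] at h
    have : σ = τ⁻¹ * (τ * σ * τ⁻¹) * τ := by group
    rw [this, h]; group
  have hy1 : ρ (some 4) ≠ some 4 := fun h => hρ1 (OctPt_fix_eq_one oc_oct four_notin hρO h)
  have hy2 : ρ (some 4) ∉ oc := by
    intro h
    have h3 := (mem_OctPt.1 hρO).2 _ h
    have h4 := ρ.injective h3
    exact hy1 h4
  obtain ⟨c, hc, hcy⟩ := L22_tr _ hy2 hy1
  have hv := valid_of_inM (L22_inM c hc)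
  have hap : ∀ p, toPerm c p = pt (img c (ix p)) := fun p => toPerm_apply hv p
  have hκ : toPerm c ∈ M24 := toPerm_mem_M24 (L22_inM c hc)
  refine ⟨toPerm c * τ, M24.mul_mem hκ hτ, ?_, ?_, ?_, ?_⟩
  · show toPerm c (τ none) = none
    rw [t1, hap]; exact (L22_fix c hc).1
  · show toPerm c (τ b0) = b0
    rw [t2, hap]; exact (L22_fix c hc).2.1
  · have h5 : toPerm c * τ * σ * (toPerm c * τ)⁻¹ = toPerm c * ρ * (toPerm c)⁻¹ := by rw [hρ]; group
    rw [h5, mem_OctPt]
    refine ⟨M24.mul_mem (M24.mul_mem hκ (mem_OctPt.1 hρO).1) (M24.inv_mem hκ), fun p hp => ?_⟩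
    have h6 : (toPerm c).symm p ∈ oc := by
      rw [← L22_oc c hc, ← hap, Equiv.apply_symm_apply]; exact hp
    show toPerm c (ρ ((toPerm c).symm p)) = p
    rw [(mem_OctPt.1 hρO).2 _ h6, Equiv.apply_symm_apply]
  · have h5 : toPerm c * τ * σ * (toPerm c * τ)⁻¹ = toPerm c * ρ * (toPerm c)⁻¹ := by rw [hρ]; group
    rw [h5]
    show toPerm c (ρ ((toPerm c).symm (some 4))) = some 6
    have h6 : (toPerm c).symm (some 4) = some 4 := by
      rw [Equiv.symm_apply_eq, hap]; exact (L22_fix c hc).2.2.symm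
    rw [h6, hap, hcy]

theorem canon_unique {ρ ρ' : Equiv.Perm GolayPt} (h : ρ ∈ OctPt oc) (h' : ρ' ∈ OctPt oc) (h4 : ρ (some 4) = some 6)
    (h4' : ρ' (some 4) = some 6) : ρ = ρ' := by
  have h1 : ρ'⁻¹ * ρ ∈ OctPt oc := (OctPt oc).mul_mem ((OctPt oc).inv_mem h') h
  have h2 : (ρ'⁻¹ * ρ) (some 4) = some 4 := by
    show ρ'.symm (ρ (some 4)) = some 4
    rw [h4, Equiv.symm_apply_eq, h4']
  have h3 := OctPt_fix_eq_one oc_oct four_notin h1 h2
  rw [inv_mul_eq_one] at h3
  exact h3.symm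

/-- `M22` has one class of involutions -/
theorem m22_class {σ σ' : M24} (h : σ ∈ St none ⊓ St b0) (h' : σ' ∈ St none ⊓ St b0) (hsq : σ ^ 2 = 1) (hsq' : σ' ^ 2 = 1)
    (hne : σ ≠ 1) (hne' : σ' ≠ 1) : ∃ κ ∈ St none ⊓ St b0, κ * σ * κ⁻¹ = σ' := by
  obtain ⟨τ, hτ, t1, t2, t3, t4⟩ := canon σ.2 h.1 h.2 (congrArg (fun x : M24 => (x : Equiv.Perm GolayPt)) hsq) (fun e => hne (Subtype.ext e))
  obtain ⟨τ', hτ', t1', t2', t3', t4'⟩ := canon σ'.2 h'.1 h'.2 (congrArg (fun x : M24 => (x : Equiv.Perm GolayPt)) hsq')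
    (fun e => hne' (Subtype.ext e))
  have e := canon_unique t3 t3' t4 t4'
  have hm : (⟨τ, hτ⟩ : M24) ∈ St none ⊓ St b0 := ⟨t1, t2⟩
  have hm' : (⟨τ', hτ'⟩ : M24) ∈ St none ⊓ St b0 := ⟨t1', t2'⟩
  refine ⟨(⟨τ', hτ'⟩ : M24)⁻¹ * ⟨τ, hτ⟩, mul_mem (inv_mem hm') hm, ?_⟩
  have e2 : (⟨τ, hτ⟩ : M24) * σ * (⟨τ, hτ⟩ : M24)⁻¹ = (⟨τ', hτ'⟩ : M24) * σ' * (⟨τ', hτ'⟩ : M24)⁻¹ := Subtype.ext e
  calc (⟨τ', hτ'⟩ : M24)⁻¹ * ⟨τ, hτ⟩ * σ * ((⟨τ', hτ'⟩ : M24)⁻¹ * ⟨τ, hτ⟩)⁻¹
      = (⟨τ', hτ'⟩ : M24)⁻¹ * ((⟨τ, hτ⟩ : M24) * σ * (⟨τ, hτ⟩ : M24)⁻¹) * (⟨τ', hτ'⟩ : M24) := by group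
    _ = σ' := by rw [e2]; group

end Cfsg.Agent.Lib.McLCen
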