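import Cfsg.Agent.Lib.McLCen7

/-!
Involutions of the McLaughlin group: conclusion.
-/

set_option autoImplicit false
set_option maxHeartbeats 400000

namespace Cfsg.Agent.Lib.McLCen

open Cfsg Cfsg.Agent.Lib.Golay Cfsg.Agent.Lib.LeechMin Cfsg.Agent.Lib.GolayCoset Cfsg.Agent.Lib.LeechXi
  Cfsg.Agent.Lib.LeechTrans Cfsg.Agent.Lib.LeechCo2 Cfsg.Agent.Lib.LeechFrame Cfsg.Agent.Lib.LeechCount
  Cfsg.Agent.Lib.LeechOrder Cfsg.Agent.Lib.LeechMod Cfsg.Agent.Lib.LeechQuot Cfsg.Agent.Lib.LeechChain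
  Cfsg.Agent.Lib.LeechSyl
open Subgroup
open scoped Pointwise Matrix

theorem range_index : ¬ 2 ∣ fM.range.index := by
  have h1 : Nat.card fM.range = 443520 := by
    rw [← Nat.card_congr (MonoidHom.ofInjective fM_inj).toEquiv]
    exact card_M2
  have h2 := fM.range.card_mul_index
  rw [h1, card_GM] at h2
  have h3 : fM.range.index = 2025 := by omega
  rw [h3]
  norm_num

theorem to_m22 {x : GM} (hx : orderOf x = 2) : ∃ g : GM, ∃ σ : T22, g * x * g⁻¹ = fM σ ∧ (σ : M24) ^ 2 = 1 ∧ (σ : M24) ≠ 1 := by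
  haveI : Fact (Nat.Prime 2) := ⟨Nat.prime_two⟩
  have hp : IsPGroup 2 (zpowers x) := IsPGroup.of_card (n := 1) (by rw [Nat.card_zpowers, hx, pow_one])
  obtain ⟨g, hg⟩ := Cfsg.Agent.Lib.BSW.exists_conj_mem fM.range range_index (zpowers x) hp
  obtain ⟨σ, hσ⟩ := hg x (mem_zpowers x)
  have h2 : x ^ 2 = 1 := by rw [← hx, pow_orderOf_eq_one]
  have h3 : σ ^ 2 = 1 := by
    apply fM_inj
    rw [map_pow, hσ, map_one, conj_pow, h2, mul_one, mul_inv_cancel]
  have h4 : σ ≠ 1 := by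
    intro h
    rw [h, map_one] at hσ
    have h5 : x = 1 := by
      have : x = g⁻¹ * (g * x * g⁻¹) * g := by group
      rw [this, ← hσ]; group
    rw [h5, orderOf_one] at hx
    exact absurd hx (by norm_num)
  refine ⟨g, σ, hσ.symm, congrArg (fun y : T22 => (y : M24)) h3, fun h => h4 (Subtype.ext h)⟩

theorem gm_class (x y : GM) (hx : orderOf x = 2) (hy : orderOf y = 2) : IsConj x y := by
  obtain ⟨g, σ, h1, h2, h3⟩ := to_m22 hx
  obtain ⟨g', σ', h1', h2', h3'⟩ := to_m22 hy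
  obtain ⟨κ, hκ, h4⟩ := m22_class σ.2 σ'.2 h2 h2' h3 h3'
  have e : fM ⟨κ, hκ⟩ * fM σ * (fM ⟨κ, hκ⟩)⁻¹ = fM σ' := by
    rw [← map_inv, ← map_mul, ← map_mul]
    exact congrArg fM (Subtype.ext h4)
  rw [isConj_iff]
  refine ⟨g'⁻¹ * fM ⟨κ, hκ⟩ * g, ?_⟩
  calc g'⁻¹ * fM ⟨κ, hκ⟩ * g * x * (g'⁻¹ * fM ⟨κ, hκ⟩ * g)⁻¹
      = g'⁻¹ * (fM ⟨κ, hκ⟩ * (g * x * g⁻¹) * (fM ⟨κ, hκ⟩)⁻¹) * g' := by group
    _ = g'⁻¹ * fM σ' * g' := by rw [h1, e]
    _ = y := by rw [← h1']; group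

/-- the McLaughlin group is the stabiliser of any pair of the right type -/
theorem mcl_equiv {u v : leechLattice} (hu : sqNorm (u : GolayPt → ℤ) = 48) (hv : v ∈ cls [(u, 24)] 32) :
    Nonempty (Spor.McL ≃* fixL [v, u]) := by
  have h1 : sqNorm ((-Spor.leechV : leechLattice) : GolayPt → ℤ) = 48 := by
    show sqNorm (-Spor.vecV) = 48
    decide +kernel
  have h2 : Spor.leechU ∈ cls [(-Spor.leechV, 24)] 32 := by
    rw [mem_cls1]
    constructor
    · show sqNorm Spor.vecU = 32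
      decide +kernel
    · show dotInt (-Spor.vecV) Spor.vecU = 24
      decide +kernel
  obtain ⟨k, hk1, hk2⟩ := std23 h1 h2
  have e : ↥(MulAction.stabilizer Co0 Spor.leechV ⊓ MulAction.stabilizer Co0 Spor.leechU) ≃* GM :=
    conjEquiv k _ _ (by
      intro g
      rw [mem_fix2, conj_fix hk1, conj_fix hk2, Subgroup.mem_inf, MulAction.mem_stabilizer_iff, MulAction.mem_stabilizer_iff,
        smul_neg']
      constructor
      · rintro ⟨h3, h4⟩
        exact ⟨h4, by rw [h3]⟩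
      · rintro ⟨h3, h4⟩
        exact ⟨neg_injective h4, h3⟩)
  obtain ⟨k', hk1', hk2'⟩ := std23 hu hv
  have e' : ↥(fixL [v, u]) ≃* GM :=
    conjEquiv k' _ _ (by
      intro g
      rw [mem_fix2, mem_fix2, conj_fix hk1', conj_fix hk2'])
  exact ⟨((stab2Equiv Spor.leechV Spor.leechU).trans e).trans e'.symm⟩

theorem u0_norm : sqNorm (u0 : GolayPt → ℤ) = 48 := by
  show sqNorm (vl u0L) = 48
  decide +kernel

theorem v0_cls : v0 ∈ cls [(u0, 24)] 32 := by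
  rw [mem_cls1]
  constructor
  · show sqNorm (vl v0L) = 32
    decide +kernel
  · show dotInt (vl u0L) (vl v0L) = 24
    decide +kernel

theorem tt_fix : tt ∈ fixL [v0, u0] := mem_fix2.2 (mem_CM.1 tt_mem).1

/-- the centraliser inside the stabiliser -/
noncomputable def cmEquiv : Subgroup.centralizer ({(⟨tt, tt_fix⟩ : fixL [v0, u0])} : Set (fixL [v0, u0])) ≃* CM where
  toFun c := ⟨c.1.1, mem_CM.2 ⟨mem_fix2.1 c.1.2, congrArg (fun y : fixL [v0, u0] => (y : Co0))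
    (Subgroup.mem_centralizer_singleton_iff.1 c.2)⟩⟩
  invFun g := ⟨⟨g.1, mem_fix2.2 (mem_CM.1 g.2).1⟩, Subgroup.mem_centralizer_singleton_iff.2 (Subtype.ext (mem_CM.1 g.2).2)⟩
  left_inv _ := rfl
  right_inv _ := rfl
  map_mul' _ _ := rfl

theorem orderOf_tt : orderOf (⟨tt, tt_fix⟩ : fixL [v0, u0]) = 2 := by
  apply orderOf_eq_prime
  · rw [pow_two]
    exact Subtype.ext tt_sq
  · intro h
    exact tt_ne (congrArg (fun y : fixL [v0, u0] => (y : Co0)) h)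

theorem main : (∀ x y : ↥Cfsg.Spor.McL, orderOf x = 2 → orderOf y = 2 → IsConj x y) ∧ ∃ t : ↥Cfsg.Spor.McL, orderOf t = 2 ∧
    Cfsg.IsNonsplitDoubleCover ↥(Subgroup.centralizer ({t} : Set ↥Cfsg.Spor.McL)) ↥(alternatingGroup (Fin 8)) := by
  constructor
  · intro x y hx hy
    obtain ⟨e⟩ := mcl_equiv (u := U none) (v := X hab) (sqNorm_U none) mem552_X
    have h1 := gm_class (e x) (e y) (by rw [MulEquiv.orderOf_eq]; exact hx) (by rw [MulEquiv.orderOf_eq]; exact hy)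
    rw [isConj_iff] at h1 ⊢
    obtain ⟨c, hc⟩ := h1
    refine ⟨e.symm c, ?_⟩
    apply e.injective
    rw [map_mul, map_mul, map_inv, e.apply_symm_apply, hc]
  · obtain ⟨e⟩ := mcl_equiv u0_norm v0_cls
    refine ⟨e.symm ⟨tt, tt_fix⟩, by rw [MulEquiv.orderOf_eq, orderOf_tt], ?_⟩
    have f := centCongr e (e.symm ⟨tt, tt_fix⟩)
    rw [e.apply_symm_apply] at f
    exact nonsplit_congr ((f.trans cmEquiv).symm) CM_cover

end Cfsg.Agent.Lib.McLCen
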