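import Cfsg.Agent.Lib.MathieuFus22
import Cfsg.Agent.Lib.LeechFrame
import Cfsg.Agent.Lib.LeechOrder
import Cfsg.Prelude.Def_Spor_Conway

set_option autoImplicit false
set_option linter.unusedVariables false

/-!
The `2`-fusion system of the McLaughlin group: its Sylow `2`-subgroup is that of `M₂₂`.
-/

namespace Cfsg.Agent.Lib.McLFus

open Cfsg Cfsg.Spor Cfsg.Agent.Lib.Golay Cfsg.Agent.Lib.MathieuFus Cfsg.Agent.Lib.LeechMin Cfsg.Agent.Lib.LeechFrame
open Cfsg.Agent.Lib.MathieuFus22 (L z st in22 hLin hLv hzL hz1 hcen hN hG hWG mem22)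
open scoped Pointwise

theorem M22_le : M22 ≤ M24 := fun g hg => hg.1.1

theorem M22_none {g : Equiv.Perm GolayPt} (hg : g ∈ M22) : g none = none := hg.1.2

theorem M22_zero {g : Equiv.Perm GolayPt} (hg : g ∈ M22) : g (some 0) = some 0 := hg.2

theorem M22_23 : ∀ g ∈ M22, g (pt 23) = pt 23 := fun g hg => M22_none hg

theorem WL_le22 : WL L ≤ M22 := WL_le fun c hc => mem22 (hLin c hc)

theorem isPGroup_WL : IsPGroup 2 (WL L) := by
  obtain ⟨k, hk⟩ := (hN le_rfl M22_le M22_23).2
  have : Fact (Nat.Prime 2) := ⟨Nat.prime_two⟩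
  exact (IsPGroup.of_card hk).to_le (WL_le_NW (hWG le_rfl))

/-- strongly closed subgroups of the Sylow subgroup of `M₂₂` -/
theorem strong (T : Subgroup (Equiv.Perm GolayPt)) (hTW : T ≤ WL L) (hT1 : T ≠ ⊥)
    (hTc : ∀ x ∈ T, ∀ g ∈ M22, g * x * g⁻¹ ∈ WL L → g * x * g⁻¹ ∈ T) : WL L ≤ T := by
  have : Fact (Nat.Prime 2) := ⟨Nat.prime_two⟩
  obtain ⟨c, hcT, hc1, hcW⟩ := Cfsg.Agent.Lib.FlagSylow.exists_central (p := 2) isPGroup_WL hTW hT1 (fun u hu t ht =>
    hTc t ht u (WL_le22 hu) ((WL L).mul_mem ((WL L).mul_mem hu (hTW ht)) ((WL L).inv_mem hu)))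
  have hcz : c = toPerm z := by
    rcases hcen le_rfl M22_le c (WL_le22 (hTW hcT)) (fun w hw => (hcW w hw).symm) with h | h
    · exact absurd h hc1
    · exact h
  have h1 := drun_sound hLv (hG le_rfl) (T := T) hTc st [z] (by decide +kernel) (by
    intro d hd
    rw [List.mem_singleton] at hd
    rw [hd]
    exact ⟨hLv z hzL, hcz ▸ hcT⟩)
  exact WL_le h1

/-! ### the orbits -/

def κ (i : GolayPt) : Fin 5 :=
  if i = pt 23 then 0 else if i = pt 0 then 1 else if i ∈ mset 6 then 2 else if i ∈ mset 147496 then 3 else 4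

def rep (k : Fin 5) : GolayPt := if k = 0 then pt 23 else if k = 1 then pt 0 else if k = 2 then pt 1 else if k = 3 then pt 3 else pt 4

theorem const {x : GolayPt → ℤ} (hx : ∀ w ∈ WL L, ∀ i, x (w i) = x i) (i : GolayPt) : x i = x (rep (κ i)) := by
  have h1 : ∀ i ∈ mset 6, x i = x (pt 1) := by
    intro i hi
    obtain ⟨w, hw, -, rfl⟩ := tr_exists (L := L) (l := []) (b := 1) (O := 6) hLv (by decide +kernel) (by simp) (by norm_num) i hi
    exact hx w hw _
  have h2 : ∀ i ∈ mset 147496, x i = x (pt 3) := by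
    intro i hi
    obtain ⟨w, hw, -, rfl⟩ := tr_exists (L := L) (l := [1]) (b := 3) (O := 147496) hLv (by decide +kernel) (by simp) (by norm_num) i hi
    exact hx w hw _
  have h3 : ∀ i ∈ mset 8241104, x i = x (pt 4) := by
    intro i hi
    obtain ⟨w, hw, -, rfl⟩ := tr_exists (L := L) (l := [3, 1]) (b := 4) (O := 8241104) hLv (by decide +kernel) (by simp) (by norm_num) i hi
    exact hx w hw _
  have h4 : ∀ i : GolayPt, i ≠ pt 23 → i ≠ pt 0 → i ∉ mset 6 → i ∉ mset 147496 → i ∈ mset 8241104 := by decide +kernel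
  unfold κ
  split_ifs with c1 c2 c3 c4
  · rw [c1]; rfl
  · rw [c2]; rfl
  · rw [h1 i c3]; rfl
  · rw [h2 i c4]; rfl
  · rw [h3 i (h4 i c1 c2 c3 c4)]; rfl

theorem sum_const' {x : GolayPt → ℤ} (hx : ∀ i, x i = x (rep (κ i))) (f : ℤ → ℤ) :
    ∑ i, f (x i) = f (x (pt 23)) + f (x (pt 0)) + 2 * f (x (pt 1)) + 4 * f (x (pt 3)) + 16 * f (x (pt 4)) := by
  have h1 : ∑ i, f (x i) = ∑ i : GolayPt, (fun k => f (x (rep k))) (κ i) := Finset.sum_congr rfl fun i _ => by rw [hx i]
  rw [h1, Finset.sum_comp (fun k => f (x (rep k))) κ]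
  have h2 : (Finset.univ : Finset GolayPt).image κ = Finset.univ := by decide +kernel
  have c0 : ((Finset.univ : Finset GolayPt).filter fun i => κ i = 0).card = 1 := by decide +kernel
  have c1 : ((Finset.univ : Finset GolayPt).filter fun i => κ i = 1).card = 1 := by decide +kernel
  have c2 : ((Finset.univ : Finset GolayPt).filter fun i => κ i = 2).card = 2 := by decide +kernel
  have c3 : ((Finset.univ : Finset GolayPt).filter fun i => κ i = 3).card = 4 := by decide +kernel
  have c4 : ((Finset.univ : Finset GolayPt).filter fun i => κ i = 4).card = 16 := by decide +kernel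
  rw [h2, Fin.sum_univ_five, c0, c1, c2, c3, c4]
  simp only [nsmul_eq_mul]
  push_cast
  rw [one_mul, one_mul]
  rfl

theorem small : ∀ a ∈ Finset.Icc (-4 : ℤ) 4, ∀ c ∈ Finset.Icc (-4 : ℤ) 4, ∀ d ∈ Finset.Icc (-2 : ℤ) 2, ∀ e ∈ Finset.Icc (-1 : ℤ) 1,
    2 * a ^ 2 + 2 * c ^ 2 + 4 * d ^ 2 + 16 * e ^ 2 = 32 → 2 * a + c + 2 * d + 8 * e = 8 →
    (a - c) % 2 = 0 → (a - d) % 2 = 0 → (a - e) % 2 = 0 → a = 4 ∧ c = 0 ∧ d = 0 ∧ e = 0 := by decide +kernel

/-- the vector `4 e_∞ - 4 e_0` is the only minimal vector fixed by the Sylow subgroup with the given inner products -/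
theorem unique {x : GolayPt → ℤ} (hL : x ∈ leechLattice) (hx : ∀ w ∈ WL L, ∀ i, x (w i) = x i) (hn : sqNorm x = 32)
    (hu : dotInt x vecU = 0) (hv : dotInt x vecV = -16) : x = vecU' := by
  have hc := const hx
  set a := x (pt 23) with ha
  set b := x (pt 0) with hb
  set c := x (pt 1) with hcc
  set d := x (pt 3) with hd
  set e := x (pt 4) with he
  have e1 : a ^ 2 + b ^ 2 + 2 * c ^ 2 + 4 * d ^ 2 + 16 * e ^ 2 = 32 := by
    rw [← sum_const' hc (fun t => t ^ 2)]
    exact hn
  have e2 : 4 * a + 4 * b = 0 := by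
    have h1 : dotInt x vecU = ∑ i : GolayPt, ((if i = none then 4 * x i else 0) + (if i = some 0 then 4 * x i else 0)) := by
      unfold dotInt
      refine Finset.sum_congr rfl fun i _ => ?_
      unfold vecU
      by_cases h1 : i = none
      · subst h1; simp; ring
      by_cases h2 : i = some 0
      · subst h2; simp; ring
      · simp [h1, h2]
    rw [hu, Finset.sum_add_distrib, Finset.sum_ite_eq' Finset.univ (none : GolayPt), if_pos (Finset.mem_univ _),
      Finset.sum_ite_eq' Finset.univ (some 0 : GolayPt), if_pos (Finset.mem_univ _)] at h1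
    exact h1.symm
  have e3 : -(a + b + 2 * c + 4 * d + 16 * e) - 4 * a = -16 := by
    have h1 : dotInt x vecV = ∑ i : GolayPt, (-(x i) + (if i = none then -4 * x i else 0)) := by
      unfold dotInt
      refine Finset.sum_congr rfl fun i _ => ?_
      unfold vecV
      by_cases h1 : i = none
      · subst h1; simp; ring
      · simp [h1]
    rw [hv, Finset.sum_add_distrib, Finset.sum_neg_distrib, Finset.sum_ite_eq' Finset.univ (none : GolayPt),
      if_pos (Finset.mem_univ _), sum_const' hc (fun t => t)] at h1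
    rw [h1]
    show _ = _ + -4 * x (pt 23)
    ring
  obtain ⟨m, A, hA, h1, -⟩ := (mem_lattice_iff' x).1 hL
  have hpar : ∀ i j, (x i - x j) % 2 = 0 := by
    intro i j
    have h2 := h1 i
    have h3 := h1 j
    omega
  have hb' : b = -a := by linarith
  rw [hb'] at e1 e3
  have e4 : 2 * a ^ 2 + 2 * c ^ 2 + 4 * d ^ 2 + 16 * e ^ 2 = 32 := by linarith
  have e5 : 2 * a + c + 2 * d + 8 * e = 8 := by linarith
  have ba : a ∈ Finset.Icc (-4 : ℤ) 4 := by rw [Finset.mem_Icc]; constructor <;> nlinarith [sq_nonneg c, sq_nonneg d, sq_nonneg e]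
  have bc : c ∈ Finset.Icc (-4 : ℤ) 4 := by rw [Finset.mem_Icc]; constructor <;> nlinarith [sq_nonneg a, sq_nonneg d, sq_nonneg e]
  have bd : d ∈ Finset.Icc (-2 : ℤ) 2 := by rw [Finset.mem_Icc]; constructor <;> nlinarith [sq_nonneg a, sq_nonneg c, sq_nonneg e]
  have be : e ∈ Finset.Icc (-1 : ℤ) 1 := by rw [Finset.mem_Icc]; constructor <;> nlinarith [sq_nonneg a, sq_nonneg c, sq_nonneg d]
  obtain ⟨r1, r2, r3, r4⟩ := small a ba c bc d bd e be e4 e5 (hpar _ _) (hpar _ _) (hpar _ _)
  funext i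
  rw [hc i]
  have k1 : ∀ k : Fin 5, x (rep k) = if k = 0 then 4 else if k = 1 then -4 else 0 := by
    intro k
    fin_cases k
    · exact r1
    · show b = -4
      rw [hb', r1]
    · exact r2
    · exact r3
    · exact r4
  rw [k1]
  have k2 : ∀ i : GolayPt, (if κ i = 0 then (4 : ℤ) else if κ i = 1 then -4 else 0) = vecU' i := by decide +kernel
  exact k2 i

/-! ### the embedding of `M₂₂` -/

theorem signedPerm_empty (σ : Equiv.Perm GolayPt) (x : GolayPt → ℤ) (i : GolayPt) : signedPerm σ ∅ x i = x (σ.symm i) := by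
  simp [signedPerm]

theorem incl_mem {σ : Equiv.Perm GolayPt} (hσ : σ ∈ M22) : mono σ (M22_le hσ) ∅ empty_mem ∈ McL := by
  have h1 : σ.symm none = none := by rw [Equiv.symm_apply_eq, M22_none hσ]
  have h2 : σ.symm (some 0) = some 0 := by rw [Equiv.symm_apply_eq, M22_zero hσ]
  refine ⟨⟨mono_mem _ _ _ _, ?_⟩, ?_⟩
  · show mono σ (M22_le hσ) ∅ empty_mem leechV = leechV
    apply Subtype.ext
    rw [mono_apply]
    funext i
    rw [signedPerm_empty]
    show vecV (σ.symm i) = vecV i
    unfold vecV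
    have h3 : σ.symm i = none ↔ i = none := by
      rw [Equiv.symm_apply_eq, M22_none hσ]
    simp only [h3]
  · show mono σ (M22_le hσ) ∅ empty_mem leechU = leechU
    apply Subtype.ext
    rw [mono_apply]
    funext i
    rw [signedPerm_empty]
    show vecU (σ.symm i) = vecU i
    unfold vecU
    have h3 : σ.symm i = none ↔ i = none := by
      rw [Equiv.symm_apply_eq, M22_none hσ]
    have h4 : σ.symm i = some 0 ↔ i = some 0 := by
      rw [Equiv.symm_apply_eq, M22_zero hσ]
    simp only [h3, h4]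

/-- `M₂₂ → McL` -/
def Φ : ↥M22 →* ↥McL where
  toFun σ := ⟨mono σ.1 (M22_le σ.2) ∅ empty_mem, incl_mem σ.2⟩
  map_one' := by
    apply Subtype.ext
    apply Equiv.ext
    intro v
    apply Subtype.ext
    show signedPerm (1 : Equiv.Perm GolayPt) ∅ (v : GolayPt → ℤ) = v
    funext i
    rw [signedPerm_empty]
    rfl
  map_mul' σ τ := by
    apply Subtype.ext
    apply Equiv.ext
    intro v
    apply Subtype.ext
    show signedPerm (σ.1 * τ.1) ∅ (v : GolayPt → ℤ) = signedPerm σ.1 ∅ (signedPerm τ.1 ∅ (v : GolayPt → ℤ))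
    funext i
    rw [signedPerm_empty, signedPerm_empty, signedPerm_empty]
    rfl

theorem Φ_apply (σ : ↥M22) (v : leechLattice) (i : GolayPt) :
    ((((Φ σ).1 : Equiv.Perm leechLattice) v : leechLattice) : GolayPt → ℤ) i = (v : GolayPt → ℤ) (σ.1.symm i) := by
  exact signedPerm_empty σ.1 v i

theorem Φ_injective : Function.Injective Φ := by
  intro σ τ h
  apply Subtype.ext
  apply (signedPerm_inj (σ := σ.1) (τ := τ.1) (c := ∅) (d := ∅) ?_).1
  intro v
  funext i
  rw [signedPerm_empty, signedPerm_empty, ← Φ_apply, ← Φ_apply, h]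

/-- the Sylow subgroup of `M₂₂` -/
noncomputable def W0 : Subgroup ↥M22 := (WL L).subgroupOf M22

/-- the Sylow subgroup of `McL` -/
noncomputable def W : Subgroup ↥McL := W0.map Φ

theorem mem_W {g : ↥McL} : g ∈ W ↔ ∃ σ : ↥M22, σ.1 ∈ WL L ∧ Φ σ = g := Iff.rfl

instance : Finite ↥McL := by
  have h : McL ≤ Co0 := fun g hg => hg.1.1
  exact Finite.of_injective _ (Subgroup.inclusion_injective h)

theorem W_pgroup : IsPGroup 2 W := (isPGroup_WL.comap_of_injective _ (Subgroup.subtype_injective _)).map _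

theorem W_ne : W ≠ ⊥ := by
  intro h
  have h1 : Φ ⟨toPerm z, WL_le22 (mem_WL hzL)⟩ ∈ W := ⟨⟨toPerm z, WL_le22 (mem_WL hzL)⟩, mem_WL hzL, rfl⟩
  rw [h, Subgroup.mem_bot, ← map_one Φ] at h1
  exact hz1 (congrArg Subtype.val (Φ_injective h1))

theorem exists_of_fix {g : ↥McL} (hg : (g.1 : Equiv.Perm leechLattice) leechU' = leechU') : ∃ σ : ↥M22, Φ σ = g := by
  have hg0 : g.1 ∈ Co0 := g.2.1.1
  have hU : (g.1 : Equiv.Perm leechLattice) leechU = leechU := g.2.2
  have hV : (g.1 : Equiv.Perm leechLattice) leechV = leechV := g.2.1.2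
  have h8 : ef none = leechU + leechU' := by
    apply Subtype.ext
    rw [coe_ef]
    show Pi.single none 8 = vecU + vecU'
    funext i
    have : ∀ i : GolayPt, (Pi.single none 8 : GolayPt → ℤ) i = vecU i + vecU' i := by decide +kernel
    exact this i
  have hg8 : (g.1 : Equiv.Perm leechLattice) (ef none) = ef none := by
    rw [h8, hg0.1, hU, hg]
  let g' : Co0 := ⟨g.1, hg0⟩
  obtain ⟨σ, hσ, c, hc, h⟩ := exists_mono (g := g') (by
    intro v hv
    rw [← cross_single none] at hv ⊢
    obtain ⟨h1, h2, y, hy, h3⟩ := hv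
    refine ⟨(g' • v).2, ?_, ((g.1 : Equiv.Perm leechLattice) ⟨y, hy⟩ : leechLattice), Subtype.prop _, ?_⟩
    · rw [← h2]; exact hg0.2 v
    · have h4 : ef none = v + ((⟨y, hy⟩ : leechLattice) + ⟨y, hy⟩) := by
        apply Subtype.ext
        rw [coe_ef]
        show _ = (v : GolayPt → ℤ) + (y + y)
        rw [← two_nsmul, ← h3]; abel
      have h5 := congrArg (g.1 : Equiv.Perm leechLattice) h4
      rw [hg0.1, hg0.1, hg8] at h5
      have h6 := congrArg (Subtype.val : leechLattice → (GolayPt → ℤ)) h5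
      rw [coe_ef] at h6
      have h7 : ((g' • v : leechLattice) : GolayPt → ℤ) = ((g.1 : Equiv.Perm leechLattice) v : leechLattice) := rfl
      rw [two_nsmul, h6, h7, AddSubgroup.coe_add, AddSubgroup.coe_add]
      abel)
  have hV' : ∀ i, signedPerm σ c vecV i = vecV i := by
    intro i
    have h1 := h leechV
    have h2 : g' • leechV = leechV := hV
    rw [h2] at h1
    exact (congrFun h1 i).symm
  have hU' : ∀ i, signedPerm σ c vecU i = vecU i := by
    intro i
    have h1 := h leechU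
    have h2 : g' • leechU = leechU := hU
    rw [h2] at h1
    exact (congrFun h1 i).symm
  have hneg : ∀ i, vecV i < 0 := by
    intro i; unfold vecV; split_ifs <;> norm_num
  have hc0 : c = ∅ := by
    apply Finset.eq_empty_of_forall_notMem
    intro i hi
    have h1 := hV' i
    unfold signedPerm at h1
    rw [if_pos hi] at h1
    have h2 := hneg i
    have h3 := hneg (σ.symm i)
    omega
  subst hc0
  simp only [signedPerm_empty] at hV' hU'
  have hn : σ.symm none = none := by
    have h1 := hV' none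
    by_contra hne
    unfold vecV at h1
    rw [if_neg hne, if_pos rfl] at h1
    norm_num at h1
  have hz0 : σ.symm (some 0) = some 0 := by
    have h1 := hU' (some 0)
    unfold vecU at h1
    rw [if_pos (Or.inr rfl)] at h1
    by_contra hne
    rw [if_neg] at h1
    · norm_num at h1
    · rintro (h2 | h2)
      · have := σ.symm.injective (h2.trans hn.symm)
        exact absurd this (by simp)
      · exact hne h2
  have hσ22 : σ ∈ M22 := by
    refine ⟨⟨hσ, ?_⟩, ?_⟩
    · show σ none = none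
      have h1 := congrArg σ hn
      rw [Equiv.apply_symm_apply] at h1
      exact h1.symm
    · show σ (some 0) = some 0
      have h1 := congrArg σ hz0
      rw [Equiv.apply_symm_apply] at h1
      exact h1.symm
  refine ⟨⟨σ, hσ22⟩, ?_⟩
  apply Subtype.ext
  apply Equiv.ext
  intro v
  apply Subtype.ext
  exact (h v).symm

theorem self_norm (g : ↥McL) (hg : ∀ w ∈ W, g * w * g⁻¹ ∈ W) : g ∈ W := by
  -- `g⁻¹` normalizes as well
  have hg' : ∀ w ∈ W, g⁻¹ * w * g ∈ W := by
    have hle : W.map (MulAut.conj g).toMonoidHom ≤ W := by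
      rintro _ ⟨w, hw, rfl⟩
      exact hg w hw
    have heq : W.map (MulAut.conj g).toMonoidHom = W :=
      Subgroup.eq_of_le_of_card_ge hle (by rw [Subgroup.card_map_of_injective (MulAut.conj g).injective])
    intro w hw
    rw [← heq] at hw
    obtain ⟨w', hw', rfl⟩ := hw
    have : g⁻¹ * (MulAut.conj g).toMonoidHom w' * g = w' := by
      show g⁻¹ * (g * w' * g⁻¹) * g = w'
      group
    rw [this]; exact hw'
  have hg0 : g.1 ∈ Co0 := g.2.1.1
  have hU : (g.1 : Equiv.Perm leechLattice) leechU = leechU := g.2.2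
  have hV : (g.1 : Equiv.Perm leechLattice) leechV = leechV := g.2.1.2
  -- `g` fixes the vector
  have hfix : (g.1 : Equiv.Perm leechLattice) leechU' = leechU' := by
    apply Subtype.ext
    refine unique (Subtype.prop _) ?_ ?_ ?_ ?_
    · intro w hw i
      have h1 : ∀ w ∈ W, (w.1 : Equiv.Perm leechLattice) ((g.1 : Equiv.Perm leechLattice) leechU') =
          (g.1 : Equiv.Perm leechLattice) leechU' := by
        intro w hw
        obtain ⟨σ, hσ, h2⟩ := mem_W.1 (hg' w hw)
        have h3 : ((g⁻¹ * w * g).1 : Equiv.Perm leechLattice) leechU' = leechU' := by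
          rw [← h2]
          apply Subtype.ext
          funext i
          rw [Φ_apply]
          show vecU' (σ.1.symm i) = vecU' i
          have h4 : σ.1.symm i = none ↔ i = none := by
            rw [Equiv.symm_apply_eq, M22_none σ.2]
          have h5 : σ.1.symm i = some 0 ↔ i = some 0 := by
            rw [Equiv.symm_apply_eq, M22_zero σ.2]
          unfold vecU'
          simp only [h4, h5]
        have h6 : (w.1 : Equiv.Perm leechLattice) ((g.1 : Equiv.Perm leechLattice) leechU') =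
            (g.1 : Equiv.Perm leechLattice) (((g⁻¹ * w * g).1 : Equiv.Perm leechLattice) leechU') := by
          show _ = ((g * (g⁻¹ * w * g)).1 : Equiv.Perm leechLattice) leechU'
          have : g * (g⁻¹ * w * g) = w * g := by group
          rw [this]; rfl
        rw [h6, h3]
      have h2 := h1 (Φ ⟨w⁻¹, WL_le22 ((WL L).inv_mem hw)⟩) ⟨⟨w⁻¹, WL_le22 ((WL L).inv_mem hw)⟩, (WL L).inv_mem hw, rfl⟩
      have h3 := congrFun (congrArg (Subtype.val : leechLattice → (GolayPt → ℤ)) h2) i
      rw [Φ_apply] at h3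
      exact h3
    · rw [hg0.2]
      show sqNorm vecU' = 32
      decide +kernel
    · have h1 := LeechMod.dot_map hg0 leechU' leechU
      rw [hU] at h1
      rw [show vecU = (leechU : GolayPt → ℤ) from rfl, h1]
      show dotInt vecU' vecU = 0
      decide +kernel
    · have h1 := LeechMod.dot_map hg0 leechU' leechV
      rw [hV] at h1
      rw [show vecV = (leechV : GolayPt → ℤ) from rfl, h1]
      show dotInt vecU' vecV = -16
      decide +kernel
  obtain ⟨σ, rfl⟩ := exists_of_fix hfix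
  refine ⟨σ, ?_, rfl⟩
  apply (hN le_rfl M22_le M22_23).1
  refine ⟨σ.2, ?_⟩
  have hle : (WL L).map (MulAut.conj σ.1).toMonoidHom ≤ WL L := by
    rintro _ ⟨w, hw, rfl⟩
    obtain ⟨τ, hτ, h1⟩ := mem_W.1 (hg (Φ ⟨w, WL_le22 hw⟩) ⟨⟨w, WL_le22 hw⟩, hw, rfl⟩)
    rw [← map_mul, ← map_inv, ← map_mul] at h1
    have h2 := Φ_injective h1
    have h3 := congrArg Subtype.val h2
    show σ.1 * w * σ.1⁻¹ ∈ WL L
    have h4 : σ.1 * w * σ.1⁻¹ = τ.1 := h3.symm
    rw [h4]; exact hτ
  refine Subgroup.mem_normalizer_iff_map_conj_eq.mpr ?_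
  exact Subgroup.eq_of_le_of_card_ge hle (by
    rw [Subgroup.card_map_of_injective (MulAut.conj σ.1).injective])

theorem strong' (T : Subgroup ↥McL) (hTW : T ≤ W) (hT1 : T ≠ ⊥)
    (hTc : ∀ x ∈ T, ∀ g : ↥McL, g * x * g⁻¹ ∈ W → g * x * g⁻¹ ∈ T) : W ≤ T := by
  have h1 : WL L ≤ (T.comap Φ).map M22.subtype := by
    apply strong
    · rintro _ ⟨σ, hσ, rfl⟩
      obtain ⟨τ, hτ, h⟩ := mem_W.1 (hTW hσ)
      rw [Φ_injective h] at hτ
      exact hτ
    · intro h
      apply hT1
      rw [eq_bot_iff]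
      intro t ht
      obtain ⟨σ, hσ, rfl⟩ := mem_W.1 (hTW ht)
      have h2 : σ.1 ∈ (T.comap Φ).map M22.subtype := ⟨σ, ht, rfl⟩
      rw [h, Subgroup.mem_bot] at h2
      have h3 : σ = 1 := Subtype.ext h2
      rw [h3, map_one]; exact Subgroup.mem_bot.2 rfl
    · rintro _ ⟨σ, hσ, rfl⟩ g hg h
      refine ⟨⟨g, hg⟩ * σ * ⟨g, hg⟩⁻¹, ?_, rfl⟩
      show Φ (⟨g, hg⟩ * σ * ⟨g, hg⟩⁻¹) ∈ T
      rw [map_mul, map_mul, map_inv]
      apply hTc _ hσ
      rw [← map_inv, ← map_mul, ← map_mul]
      exact ⟨_, h, rfl⟩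
  intro w hw
  obtain ⟨σ, hσ, rfl⟩ := mem_W.1 hw
  obtain ⟨τ, hτ, h⟩ := h1 hσ
  have : τ = σ := Subtype.ext h
  rw [← this]; exact hτ

theorem main {G : Type*} [Group G] [Finite G] (e : G ≃* ↥McL) (S : Sylow 2 G) :
    (groupFusionSystem (S : Subgroup G)).IsSimple 2 := by
  have : Fact (Nat.Prime 2) := ⟨Nat.prime_two⟩
  refine Cfsg.Agent.Lib.FusionSelfNorm.simple_of_selfnorm' 2 (W.comap e.toMonoidHom) ?_ ?_ ?_ ?_ S
  · intro h
    apply W_ne
    rw [eq_bot_iff]
    intro w hw
    have h1 : e.symm w ∈ W.comap e.toMonoidHom := by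
      show e (e.symm w) ∈ W
      rw [e.apply_symm_apply]; exact hw
    rw [h, Subgroup.mem_bot] at h1
    rw [Subgroup.mem_bot, ← e.apply_symm_apply w, h1, map_one]
  · exact W_pgroup.comap_of_injective _ e.injective
  · intro g hg
    show e g ∈ W
    apply self_norm
    intro w hw
    have h1 := hg (e.symm w) (by show e (e.symm w) ∈ W; rw [e.apply_symm_apply]; exact hw)
    have h2 : e (g * e.symm w * g⁻¹) ∈ W := h1
    rw [map_mul, map_mul, map_inv, e.apply_symm_apply] at h2
    exact h2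
  · intro T hTW hT1 hTc
    have h1 : W ≤ T.map e.toMonoidHom := by
      apply strong'
      · rintro _ ⟨t, ht, rfl⟩
        exact hTW ht
      · intro h
        apply hT1
        exact (Subgroup.map_eq_bot_iff_of_injective T e.injective).1 h
      · rintro _ ⟨t, ht, rfl⟩ g hg
        refine ⟨e.symm g * t * (e.symm g)⁻¹, hTc t ht _ ?_, ?_⟩
        · show e (e.symm g * t * (e.symm g)⁻¹) ∈ W
          rw [map_mul, map_mul, map_inv, e.apply_symm_apply]
          exact hg
        · show e (e.symm g * t * (e.symm g)⁻¹) = g * e t * g⁻¹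
          rw [map_mul, map_mul, map_inv, e.apply_symm_apply]
    intro g hg
    obtain ⟨t, ht, h⟩ := h1 hg
    have : t = g := e.injective h
    rw [← this]; exact ht

end Cfsg.Agent.Lib.McLFus
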