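import Cfsg.Agent.Lib.FpfPQ3
import Mathlib.LinearAlgebra.Projectivization.Action
import Mathlib.LinearAlgebra.Projectivization.Cardinality

/-!
Linear algebra for Gross' theorem on automorphisms of order `2^n` (helper59): bilinear forms from
pairings, the bound for the section of a group acting with a faithful central character.
-/

set_option autoImplicit false

namespace Cfsg.Agent.Lib.MersLin1

open Module Subgroup Cfsg.Agent.Lib.WielandtFix Cfsg.Agent.Lib.SympFix Cfsg.Agent.Lib.WtGroup
  Cfsg.Agent.Lib.SubgroupTools Cfsg.Agent.Lib.Ward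
open scoped commutatorElement

universe u v w

section Pairing

variable {q : ℕ} [hq : Fact q.Prime] {M : Type*} [AddCommGroup M] [Module (ZMod q) M]
  {k : Type*} [Field k]

/-- a bilinear form from a pairing -/
theorem exists_bilin {e : M → M → k} (he : IsPairing e) :
    ∃ f : M →ₗ[ZMod q] M →ₗ[ZMod q] ZMod q, (∀ x, f x x = 0) ∧
      (∀ x y x' y', e x y = e x' y' → f x y = f x' y') ∧ (∀ x y, f x y = 0 → e x y = 1) := by
  classical
  by_cases htriv : ∀ x y : M, e x y = 1
  · exact ⟨0, fun x => rfl, fun x y x' y' _ => rfl, fun x y _ => htriv x y⟩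
  push Not at htriv
  obtain ⟨x₀, y₀, hy₀⟩ := htriv
  set ζ := e x₀ y₀ with hζ
  have hprim : IsPrimitiveRoot ζ q := by
    rw [IsPrimitiveRoot.iff_orderOf]
    exact orderOf_eq_prime (he.pow_eq_one (q := q) x₀ y₀) hy₀
  have hex : ∀ x y : M, ∃ i : ℕ, ζ ^ i = e x y := by
    intro x y
    obtain ⟨i, _, hi⟩ := hprim.eq_pow_of_pow_eq_one (he.pow_eq_one (q := q) x y)
    exact ⟨i, hi⟩
  choose B hB using hex
  have hcast : ∀ i j : ℕ, ζ ^ i = ζ ^ j → (i : ZMod q) = j := by
    intro i j hij
    rw [ZMod.natCast_eq_natCast_iff]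
    refine hprim.pow_inj (Nat.mod_lt _ hq.out.pos) (Nat.mod_lt _ hq.out.pos) ?_
    have h1 : orderOf ζ = q := hprim.eq_orderOf.symm
    have h2 := pow_mod_orderOf ζ i
    have h3 := pow_mod_orderOf ζ j
    rw [h1] at h2 h3
    rw [h2, h3, hij]
  have hadd_left : ∀ x y z, ((B (x + y) z : ℕ) : ZMod q) = B x z + B y z := by
    intro x y z
    rw [← Nat.cast_add]
    apply hcast
    rw [hB, pow_add, hB, hB, he.add_left]
  have hadd_right : ∀ x y z, ((B x (y + z) : ℕ) : ZMod q) = B x y + B x z := by
    intro x y z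
    rw [← Nat.cast_add]
    apply hcast
    rw [hB, pow_add, hB, hB, he.add_right]
  have hsmul : ∀ (c : ZMod q) (x : M), c • x = c.val • x := by
    intro c x
    conv_lhs => rw [← ZMod.natCast_zmod_val c]
    rw [Nat.cast_smul_eq_nsmul]
  let f : M →ₗ[ZMod q] M →ₗ[ZMod q] ZMod q := LinearMap.mk₂ (ZMod q)
    (fun x y => ((B x y : ℕ) : ZMod q)) hadd_left (by
      intro c x y
      rw [smul_eq_mul, hsmul]
      conv_rhs => rw [← ZMod.natCast_zmod_val c]
      rw [← Nat.cast_mul]
      apply hcast
      rw [hB, he.nsmul_left, ← hB, ← pow_mul, mul_comm]) hadd_right (by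
      intro c x y
      rw [smul_eq_mul, hsmul]
      conv_rhs => rw [← ZMod.natCast_zmod_val c]
      rw [← Nat.cast_mul]
      apply hcast
      rw [hB, he.nsmul_right, ← hB, ← pow_mul, mul_comm])
  have hf : ∀ x y, f x y = ((B x y : ℕ) : ZMod q) := fun x y => rfl
  refine ⟨f, ?_, ?_, ?_⟩
  · intro x
    rw [hf, ZMod.natCast_eq_zero_iff]
    rw [← hprim.pow_eq_one_iff_dvd, hB, he.self]
  · intro x y x' y' h
    rw [hf, hf]
    apply hcast
    rw [hB, hB, h]
  · intro x y h
    rw [hf, ZMod.natCast_eq_zero_iff] at h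
    rw [← hB]
    exact (hprim.pow_eq_one_iff_dvd _).2 h

/-- an isometry `A` with `A⁴ = -1` of a nondegenerate symplectic space over `𝔽₃` of dimension at
most two does not exist -/
theorem false_of_order_eight {M : Type*} [AddCommGroup M] [Module (ZMod 3) M] [Finite M]
    {e : M → M → k} (he : IsPairing e) (hnd : ∀ m, (∀ n, e m n = 1) → m = 0)
    (A : Module.End (ZMod 3) M) (hA : ∀ x y, e (A x) (A y) = e x y)
    (hA4 : ∀ x, A (A (A (A x))) = -x) (hdim : finrank (ZMod 3) M ≤ 2) {m₀ : M} (hm₀ : m₀ ≠ 0) :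
    False := by
  classical
  obtain ⟨f, hf0, hfe, hf1⟩ := exists_bilin (q := 3) he
  have hfA : ∀ x y, f (A x) (A y) = f x y := fun x y => hfe _ _ _ _ (hA x y)
  have hsw : ∀ x y, f y x = - f x y := by
    intro x y
    have h1 := hf0 (x + y)
    rw [map_add, map_add, LinearMap.add_apply, LinearMap.add_apply, hf0, hf0, zero_add,
      add_zero] at h1
    exact eq_neg_of_add_eq_zero_left h1
  have hex : ∃ x, f x (A (A x)) ≠ 0 := by
    by_contra hcon
    push Not at hcon
    apply hm₀
    apply hnd
    intro n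
    apply hf1
    -- `n = A² n'`
    obtain ⟨n', hn'⟩ : ∃ n', A (A n') = n := ⟨-(A (A n)), by rw [map_neg, map_neg, hA4, neg_neg]⟩
    rw [← hn']
    have h1 := hcon (m₀ + n')
    rw [map_add A, map_add A, map_add, map_add, LinearMap.add_apply, LinearMap.add_apply, hcon m₀,
      hcon n', zero_add, add_zero] at h1
    have h2 : f n' (A (A m₀)) = f m₀ (A (A n')) := by
      rw [hsw, ← hfA, ← hfA, hA4, map_neg, LinearMap.neg_apply, neg_neg]
    rw [h2] at h1
    have h3 : (2 : ZMod 3) * f m₀ (A (A n')) = 0 := by rw [two_mul]; exact h1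
    rcases mul_eq_zero.1 h3 with h4 | h4
    · exact absurd h4 (by decide)
    · exact h4
  obtain ⟨x, hx⟩ := hex
  set y := A (A x) with hy
  have hind : LinearIndependent (ZMod 3) ![x, y] := by
    rw [LinearIndependent.pair_iff]
    intro a b hab
    constructor
    · have h1 := congrArg (fun z => f z y) hab
      simp only [map_add, map_smul, LinearMap.add_apply, LinearMap.smul_apply, hf0, smul_zero,
        add_zero, map_zero, LinearMap.zero_apply] at h1
      exact (smul_eq_zero.1 h1).resolve_right hx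
    · have h1 := congrArg (fun z => f x z) hab
      simp only [map_add, map_smul, hf0, smul_zero, zero_add, map_zero] at h1
      exact (smul_eq_zero.1 h1).resolve_right hx
  have hspan : Submodule.span (ZMod 3) (Set.range ![x, y]) = ⊤ := by
    apply Submodule.eq_top_of_finrank_eq
    have h1 := finrank_span_eq_card hind
    rw [Fintype.card_fin] at h1
    have h2 := Submodule.finrank_le (Submodule.span (ZMod 3) (Set.range ![x, y]))
    omega
  have hAx : A x ∈ Submodule.span (ZMod 3) (Set.range ![x, y]) := by rw [hspan]; trivial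
  rw [Matrix.range_cons, Matrix.range_cons, Matrix.range_empty, Set.union_empty,
    Set.singleton_union, Submodule.mem_span_pair] at hAx
  obtain ⟨a, b, hab⟩ := hAx
  have hAAy : A (A y) = -x := by rw [hy]; exact hA4 x
  have hAy : A y = a • y - b • x := by
    have h1 : A (A (a • x + b • y)) = A (A (A x)) := by rw [hab]
    rw [map_add, map_add, map_smul, map_smul, map_smul, map_smul, hAAy, ← hy, smul_neg,
      ← sub_eq_add_neg] at h1
    rw [hy, h1]
  have h1 : f (A x) (A y) = f x y := hfA x y
  rw [← hab, hAy] at h1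
  simp only [map_add, map_sub, map_smul, LinearMap.add_apply, LinearMap.smul_apply, hf0,
    smul_eq_mul, mul_zero, add_zero] at h1
  rw [hsw x y] at h1
  have h2 : (a ^ 2 + b ^ 2 - 1) * f x y = 0 := by linear_combination h1
  have h2' := (mul_eq_zero.1 h2).resolve_right hx
  have h3 : A (A x) = (a ^ 2 - b ^ 2) • x + (2 * a * b) • y := by
    rw [← hab, map_add, map_smul, map_smul, hAy, ← hab]
    module
  rw [← hy] at h3
  have h4 : (a ^ 2 - b ^ 2) • x + (2 * a * b - 1) • y = 0 := by
    have h7 : (a ^ 2 - b ^ 2) • x + (2 * a * b - 1) • y =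
      ((a ^ 2 - b ^ 2) • x + (2 * a * b) • y) - y := by module
    rw [h7, ← h3, sub_self]
  obtain ⟨h5, h6⟩ := (LinearIndependent.pair_iff.1 hind) _ _ h4
  have hdec : ∀ a b : ZMod 3, a ^ 2 + b ^ 2 - 1 = 0 → a ^ 2 - b ^ 2 = 0 → 2 * a * b - 1 = 0 →
    False := by decide
  exact hdec a b h2' h5 h6

end Pairing

section Card

theorem sum_pairing {F : Type*} [Field F] {M : Type*} [AddCommGroup M] [Fintype M]
    {e : M → M → F} (he : IsPairing e) (hnd : ∀ m, (∀ n, e m n = 1) → m = 0) {d : M}
    (hd : d ≠ 0) : ∑ n, e n d = 0 := by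
  obtain ⟨n₀, hn₀⟩ : ∃ n, e n d ≠ 1 := by
    by_contra hcon
    push Not at hcon
    apply hd
    apply hnd
    intro n
    have h1 := he.mul_swap d n
    rwa [hcon n, mul_one] at h1
  have h1 : ∑ n, e n d = e n₀ d * ∑ n, e n d := by
    rw [Finset.mul_sum]
    symm
    refine Fintype.sum_equiv (Equiv.addLeft n₀) _ _ fun n => ?_
    rw [Equiv.coe_addLeft, he.add_left]
  have h2 : (e n₀ d - 1) * ∑ n, e n d = 0 := by rw [sub_mul, one_mul, ← h1, sub_self]
  exact (mul_eq_zero.1 h2).resolve_left (sub_ne_zero.2 hn₀)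

theorem card_le_sq {P : Type*} [Group P] {F : Type*} [Field F] {V : Type*} [AddCommGroup V]
    [Module F V] [FiniteDimensional F V] [Nontrivial V] (h : P →* Module.End F V) {M : Type*}
    [AddCommGroup M] [Finite M] (π : P → M) (hπ : Function.Surjective π) {e : M → M → F}
    (he : IsPairing e) (hnd : ∀ m, (∀ n, e m n = 1) → m = 0)
    (hcomm : ∀ x y, h (x * y) = e (π x) (π y) • h (y * x)) (hcard : (Nat.card M : F) ≠ 0) :
    Nat.card M ≤ finrank F V * finrank F V := by
  classical
  let _ : Fintype M := Fintype.ofFinite M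
  choose s hs using hπ
  have hli : LinearIndependent F (fun m => h (s m)) := by
    rw [Fintype.linearIndependent_iff]
    intro c hc m₀
    have h1 : ∀ n, ∑ m, (c m * e n m) • h (s m) = 0 := by
      intro n
      have h2 : ∀ m, h (s n) * (c m • h (s m)) * h (s n)⁻¹ = (c m * e n m) • h (s m) := by
        intro m
        rw [mul_smul_comm, ← map_mul, hcomm, hs, hs, smul_smul, smul_mul_assoc, ← map_mul,
          mul_inv_cancel_right]
      have h3 : h (s n) * (∑ m, c m • h (s m)) * h (s n)⁻¹ = 0 := by rw [hc, mul_zero, zero_mul]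
      rw [Finset.mul_sum, Finset.sum_mul, Finset.sum_congr rfl fun m _ => h2 m] at h3
      exact h3
    have h2 : ∑ n, e n (-m₀) • ∑ m, (c m * e n m) • h (s m) = 0 :=
      Finset.sum_eq_zero fun n _ => by rw [h1, smul_zero]
    simp only [Finset.smul_sum, smul_smul] at h2
    rw [Finset.sum_comm] at h2
    have h3 : ∀ m, ∑ n, (e n (-m₀) * (c m * e n m)) • h (s m) =
        (c m * ∑ n, e n (m - m₀)) • h (s m) := by
      intro m
      rw [← Finset.sum_smul, Finset.mul_sum]
      congr 1
      refine Finset.sum_congr rfl fun n _ => ?_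
      rw [sub_eq_add_neg, he.add_right]; ring
    rw [Finset.sum_congr rfl fun m _ => h3 m, Finset.sum_eq_single m₀] at h2
    · have h4 : ∑ n, e n (m₀ - m₀) = (Nat.card M : F) := by
        rw [Nat.card_eq_fintype_card, sub_self]
        simp only [he.zero_right]
        rw [Finset.sum_const, Finset.card_univ, nsmul_eq_mul, mul_one]
      rw [h4] at h2
      rcases smul_eq_zero.1 h2 with h5 | h5
      · exact (mul_eq_zero.1 h5).resolve_right hcard
      · exfalso
        have h6 : h (s m₀) * h (s m₀)⁻¹ = 1 := by rw [← map_mul, mul_inv_cancel, map_one]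
        rw [h5, zero_mul] at h6
        exact zero_ne_one h6
    · intro m _ hm
      rw [sum_pairing he hnd (sub_ne_zero.2 hm), mul_zero, zero_smul]
    · intro h; exact absurd (Finset.mem_univ _) h
  have h1 := hli.fintype_card_le_finrank
  rw [Module.finrank_linearMap, ← Nat.card_eq_fintype_card] at h1
  exact h1

end Card

section Line

/-- a `t`-group acting on a plane over `𝔽_q`, `t` not dividing `q + 1`, has an invariant line -/
theorem exists_line {P : Type*} [Group P] {t : ℕ} [Fact t.Prime]
    (hP : IsPGroup t P) {q : ℕ} [Fact q.Prime] {N : Type*} [AddCommGroup N] [Module (ZMod q) N]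
    (hN : finrank (ZMod q) N = 2) (h : P →* Module.End (ZMod q) N) (ht : ¬ t ∣ q + 1) :
    ∃ v : N, v ≠ 0 ∧ ∀ x, ∃ c : ZMod q, h x v = c • v := by
  classical
  let _ : DistribMulAction P N :=
    { smul := fun g v => h g v
      one_smul := fun v => by change h 1 v = v; rw [map_one]; rfl
      mul_smul := fun g g' v => by change h (g * g') v = h g (h g' v); rw [map_mul]; rfl
      smul_zero := fun g => map_zero (h g)
      smul_add := fun g v w => map_add (h g) _ _ }
  have hsc : SMulCommClass P (ZMod q) N := ⟨fun g c v => (h g).map_smul c v⟩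
  have hcard := Projectivization.card_of_finrank_two (ZMod q) N hN
  rw [Nat.card_zmod] at hcard
  obtain ⟨x, hx⟩ := hP.nonempty_fixed_point_of_prime_not_dvd_card (Projectivization (ZMod q) N)
    (by rw [hcard]; exact ht)
  refine ⟨x.rep, x.rep_nonzero, fun g => ?_⟩
  have h1 := hx g
  rw [← x.mk_rep, Projectivization.smul_mk, Projectivization.mk_eq_mk_iff'] at h1
  obtain ⟨c, hc⟩ := h1
  exact ⟨c, hc.symm⟩

end Line

end Cfsg.Agent.Lib.MersLin1
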