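import Cfsg.Agent.Lib.MersLin1
import Cfsg.Agent.Lib.ModRep

/-!
Linear algebra for Gross' theorem on automorphisms of order `2^n` (helper59): the configuration of
a `t`-group `T = [T,τ]` of class two and an involution `τ` with two-dimensional commutator space.
-/

set_option autoImplicit false
set_option linter.unusedSectionVars false

namespace Cfsg.Agent.Lib.MersLin2

open Module Subgroup Cfsg.Agent.Lib.WielandtFix Cfsg.Agent.Lib.SympFix Cfsg.Agent.Lib.WtGroup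
  Cfsg.Agent.Lib.SubgroupTools Cfsg.Agent.Lib.Ward Cfsg.Agent.Lib.MersLin1
  Cfsg.Agent.Lib.CoprimeAction Cfsg.Agent.Lib.CoprimeAction2
open scoped commutatorElement

universe u v w

section Lin

variable {q : ℕ} [hq : Fact q.Prime] {M : Type*} [AddCommGroup M] [Module (ZMod q) M]
  {G : Type*} [Group G]

theorem mul_act (ρ : Representation (ZMod q) G M) (x y : G) (v : M) :
    ρ (x * y) v = ρ x (ρ y v) := by rw [map_mul, Module.End.mul_apply]

theorem inv_act (ρ : Representation (ZMod q) G M) (x : G) (v : M) : ρ x⁻¹ (ρ x v) = v := by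
  rw [← mul_act, inv_mul_cancel, map_one]; rfl

theorem act_inv (ρ : Representation (ZMod q) G M) (x : G) (v : M) : ρ x (ρ x⁻¹ v) = v := by
  rw [← mul_act, mul_inv_cancel, map_one]; rfl

theorem trivial_of_tau (ρ : Representation (ZMod q) G M) {T : Subgroup G} {τ : G}
    (hT : ⁅T, zpowers τ⁆ = T) (V : Submodule (ZMod q) M) (hVT : ∀ x ∈ T, ∀ v ∈ V, ρ x v ∈ V)
    (hVτ : ∀ v ∈ V, ρ τ v = v) : ∀ x ∈ T, ∀ v ∈ V, ρ x v = v := by
  let E : Subgroup G :=
    { carrier := {g | ∀ v ∈ V, ρ g v = v}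
      one_mem' := fun v _ => by rw [map_one]; rfl
      mul_mem' := fun {a b} ha hb v hv => by rw [mul_act, hb v hv, ha v hv]
      inv_mem' := fun {a} ha v hv => by
        conv_lhs => rw [← ha v hv]
        exact inv_act ρ a v }
  have hτE : zpowers τ ≤ E := zpowers_le.2 hVτ
  have hle : ⁅T, zpowers τ⁆ ≤ E := by
    rw [commutator_le]
    intro x hx g hg v hv
    have hg' := hτE hg
    rw [commutatorElement_def, mul_act, mul_act, mul_act, (inv_mem hg' : g⁻¹ ∈ E) v hv,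
      hg' _ (hVT _ (inv_mem hx) v hv), act_inv]
  rw [hT] at hle
  exact fun x hx v hv => hle hx v hv

theorem mem_range_iff (hq2 : q ≠ 2) (ρ : Representation (ZMod q) G M) {τ : G} (hτ : τ * τ = 1)
    (v : M) : v ∈ LinearMap.range (ρ τ - 1) ↔ ρ τ v = -v := by
  have hττ : ∀ v, ρ τ (ρ τ v) = v := fun v => by rw [← mul_act, hτ, map_one]; rfl
  constructor
  · rintro ⟨w, rfl⟩
    rw [LinearMap.sub_apply, Module.End.one_apply, map_sub, hττ, neg_sub]
  · intro h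
    have h2 : (2 : ZMod q) ≠ 0 := by
      intro h0
      have h1 : ((2 : ℕ) : ZMod q) = 0 := by exact_mod_cast h0
      rw [ZMod.natCast_eq_zero_iff] at h1
      exact hq2 ((Nat.prime_dvd_prime_iff_eq hq.out Nat.prime_two).1 h1)
    refine ⟨(-(2 : ZMod q)⁻¹) • v, ?_⟩
    rw [LinearMap.sub_apply, Module.End.one_apply, map_smul, h, smul_neg, neg_smul, neg_neg,
      sub_neg_eq_add, ← add_smul, ← two_mul, mul_inv_cancel₀ h2, one_smul]

theorem finrank_neg [Finite M] (ρ : Representation (ZMod q) G M) [Finite G] {τ : G} :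
    finrank (ZMod q) (LinearMap.range (ρ τ - 1)) + finrank (ZMod q) (fixed ρ (zpowers τ)) =
      finrank (ZMod q) M := by
  have h1 := LinearMap.finrank_range_add_finrank_ker (ρ τ - 1)
  have h2 : LinearMap.ker (ρ τ - 1) = fixed ρ (zpowers τ) := by
    ext x
    rw [LinearMap.mem_ker, mem_fixed, HeisStep2.ker_sub_one]
    exact sub_eq_zero
  rwa [h2] at h1

end Lin

theorem comm_le {G : Type*} [Group G] (T : Subgroup G) : ⁅T, T⁆ ≤ T :=
  le_normalizer_iff_commutator_le_left.mp le_normalizer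

/-- the configuration -/
structure Cfg {q : ℕ} {M : Type*} [AddCommGroup M] [Module (ZMod q) M]
    {G : Type*} [Group G] (ρ : Representation (ZMod q) G M)
    (f : M →ₗ[ZMod q] M →ₗ[ZMod q] ZMod q) (T : Subgroup G) (τ : G) (t : ℕ) : Prop where
  hq2 : q ≠ 2
  hf0 : ∀ x, f x x = 0
  hfi : ∀ g x y, f (ρ g x) (ρ g y) = f x y
  hfn : ∀ x, (∀ y, f x y = 0) → x = 0
  hinj : Function.Injective ρ
  ht : t.Prime
  ht2 : t ≠ 2
  htq : t ≠ q
  htq1 : ¬ t ∣ q + 1
  hT : IsPGroup t T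
  hτ : τ * τ = 1
  hTτ : ⁅T, zpowers τ⁆ = T
  hDne : ⁅T, T⁆ ≠ ⊥
  hDc : ∀ z ∈ ⁅T, T⁆, ∀ y ∈ T, Commute y z
  hDτ : ∀ z ∈ ⁅T, T⁆, Commute τ z
  hN : finrank (ZMod q) (LinearMap.range (ρ τ - 1)) = 2

namespace Cfg

variable {q : ℕ} [hq : Fact q.Prime] {M : Type*} [AddCommGroup M] [Module (ZMod q) M] [Finite M]
  {G : Type*} [Group G] [Finite G] {ρ : Representation (ZMod q) G M}
  {f : M →ₗ[ZMod q] M →ₗ[ZMod q] ZMod q} {T : Subgroup G} {τ : G} {t : ℕ}

section Basic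

variable (C : Cfg ρ f T τ t)
include C

theorem two_ne : (2 : ZMod q) ≠ 0 := by
  intro h0
  have h1 : ((2 : ℕ) : ZMod q) = 0 := by exact_mod_cast h0
  rw [ZMod.natCast_eq_zero_iff] at h1
  exact C.hq2 ((Nat.prime_dvd_prime_iff_eq hq.out Nat.prime_two).1 h1)

theorem swap (x y : M) : f y x = - f x y := by
  have h1 := C.hf0 (x + y)
  rw [map_add, map_add, LinearMap.add_apply, LinearMap.add_apply, C.hf0, C.hf0, zero_add,
    add_zero] at h1
  exact eq_neg_of_add_eq_zero_left h1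

theorem adj (g : G) (x y : M) : f x (ρ g y) = f (ρ g⁻¹ x) y := by
  rw [← C.hfi g (ρ g⁻¹ x) y, act_inv]

theorem memN (v : M) : v ∈ LinearMap.range (ρ τ - 1) ↔ ρ τ v = -v :=
  mem_range_iff C.hq2 ρ C.hτ v

theorem tt (v : M) : ρ τ (ρ τ v) = v := by rw [← mul_act, C.hτ, map_one]; rfl

/-- `f` is nondegenerate on the commutator space -/
theorem exists_nd {v : M} (hv : ρ τ v = -v) (hv0 : v ≠ 0) : ∃ n, ρ τ n = -n ∧ f v n ≠ 0 := by
  obtain ⟨n, hn⟩ : ∃ n, f v n ≠ 0 := by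
    by_contra h
    push Not at h
    exact hv0 (C.hfn v h)
  refine ⟨n - ρ τ n, by rw [map_sub, C.tt, neg_sub], ?_⟩
  have hτi : τ⁻¹ = τ := inv_eq_of_mul_eq_one_left C.hτ
  rw [map_sub, C.adj, hτi, hv, map_neg, LinearMap.neg_apply, sub_neg_eq_add, ← two_mul]
  exact mul_ne_zero C.two_ne hn

/-- two nonorthogonal vectors span the commutator space -/
theorem span_N {v w : M} (hv : ρ τ v = -v) (hw : ρ τ w = -w) (hvw : f v w ≠ 0) {n : M}
    (hn : ρ τ n = -n) : ∃ a b : ZMod q, n = a • v + b • w := by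
  have hind : LinearIndependent (ZMod q) ![v, w] := by
    rw [LinearIndependent.pair_iff]
    intro a b hab
    constructor
    · have h1 := congrArg (fun z => f z w) hab
      simp only [map_add, map_smul, LinearMap.add_apply, LinearMap.smul_apply, C.hf0, smul_zero,
        add_zero, map_zero, LinearMap.zero_apply] at h1
      exact (smul_eq_zero.1 h1).resolve_right hvw
    · have h1 := congrArg (fun z => f v z) hab
      simp only [map_add, map_smul, C.hf0, smul_zero, zero_add, map_zero] at h1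
      exact (smul_eq_zero.1 h1).resolve_right hvw
  have hle : Submodule.span (ZMod q) (Set.range ![v, w]) ≤ LinearMap.range (ρ τ - 1) := by
    rw [Submodule.span_le]
    rintro _ ⟨i, rfl⟩
    fin_cases i
    · exact (C.memN v).2 hv
    · exact (C.memN w).2 hw
  have heq := Submodule.eq_of_le_of_finrank_eq hle (by
    rw [finrank_span_eq_card hind, Fintype.card_fin, C.hN])
  have hn' := (C.memN n).2 hn
  rw [← heq, Matrix.range_cons, Matrix.range_cons, Matrix.range_empty, Set.union_empty,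
    Set.singleton_union, Submodule.mem_span_pair] at hn'
  obtain ⟨a, b, hab⟩ := hn'
  exact ⟨a, b, hab.symm⟩

theorem perp_line {v w : M} (hv : ρ τ v = -v) (hv0 : v ≠ 0) (hw : ρ τ w = -w) (hvw : f v w = 0) :
    ∃ c : ZMod q, w = c • v := by
  obtain ⟨n, hn, hvn⟩ := C.exists_nd hv hv0
  obtain ⟨a, b, rfl⟩ := C.span_N hv hn hvn hw
  rw [map_add, map_smul, map_smul, C.hf0, smul_zero, zero_add] at hvw
  have hb := (smul_eq_zero.1 hvw).resolve_right hvn
  exact ⟨a, by rw [hb, zero_smul, add_zero]⟩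


theorem card_D : ∃ m, Nat.card (⁅T, T⁆ : Subgroup G) = t ^ m := by
  have := Fact.mk C.ht
  exact IsPGroup.iff_card.1 (C.hT.to_le (comm_le T))

theorem t_ne : (t : ZMod q) ≠ 0 := by
  rw [Ne, ZMod.natCast_eq_zero_iff, Nat.prime_dvd_prime_iff_eq hq.out C.ht]
  exact C.htq.symm

theorem card_D_ne : (Nat.card (⁅T, T⁆ : Subgroup G) : ZMod q) ≠ 0 := by
  obtain ⟨m, hm⟩ := C.card_D
  rw [hm, Nat.cast_pow]
  exact pow_ne_zero m C.t_ne

/-- `D` has no fixed points on the commutator space -/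
theorem fix_D {v : M} (hv : ρ τ v = -v) (hfix : ∀ z ∈ ⁅T, T⁆, ρ z v = v) : v = 0 := by
  classical
  by_contra hv0
  set D : Subgroup G := ⁅T, T⁆ with hD
  let _ : Fintype D := Fintype.ofFinite D
  obtain ⟨n, hn, hvn⟩ := C.exists_nd hv hv0
  set w := ∑ z : D, ρ (z : G) n with hw
  have hwD : ∀ z ∈ D, ρ z w = w := by
    intro x hx
    rw [hw, map_sum]
    refine Fintype.sum_equiv (Equiv.mulLeft (⟨x, hx⟩ : D)) _ _ fun s => ?_
    rw [← mul_act]
    rfl
  have hwτ : ρ τ w = -w := by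
    rw [hw, map_sum, ← Finset.sum_neg_distrib]
    refine Finset.sum_congr rfl fun z _ => ?_
    rw [← mul_act, (C.hDτ z z.2).eq, mul_act, hn, map_neg]
  have hvw : f v w ≠ 0 := by
    have h1 : ∀ z : D, f v (ρ (z : G) n) = f v n := by
      intro z
      rw [C.adj, hfix _ (inv_mem z.2)]
    rw [hw, map_sum, Finset.sum_congr rfl fun z _ => h1 z, Finset.sum_const, Finset.card_univ,
      nsmul_eq_mul, ← Nat.card_eq_fintype_card]
    exact mul_ne_zero C.card_D_ne hvn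
  have hNfix : ∀ n, ρ τ n = -n → ∀ z ∈ D, ρ z n = n := by
    intro n hn z hz
    obtain ⟨a, b, rfl⟩ := C.span_N hv hwτ hvw hn
    rw [map_add, map_smul, map_smul, hfix z hz, hwD z hz]
  -- the kernel of the averaging operator
  let P : Module.End (ZMod q) M := ∑ z : D, ρ (z : G)
  have hP : ∀ m, P m = ∑ z : D, ρ (z : G) m := fun m => LinearMap.sum_apply _ _ _
  have hPg : ∀ g, (∀ z ∈ D, Commute g z) → ∀ m, P (ρ g m) = ρ g (P m) := by
    intro g hg m
    rw [hP, hP, map_sum]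
    refine Finset.sum_congr rfl fun z _ => ?_
    rw [← mul_act, ← mul_act, (hg z z.2).eq]
  have hτfix : ∀ m ∈ LinearMap.ker P, ρ τ m = m := by
    intro m hm
    have h1 : ρ τ (ρ τ m - m) = -(ρ τ m - m) := by rw [map_sub, C.tt, neg_sub]
    have h2 : P (ρ τ m - m) = 0 := by
      rw [map_sub, hPg τ (fun z hz => C.hDτ z hz), LinearMap.mem_ker.1 hm, map_zero, sub_zero]
    rw [hP, Finset.sum_congr rfl fun (z : D) _ => hNfix _ h1 z z.2, Finset.sum_const,
      Finset.card_univ, ← Nat.card_eq_fintype_card, ← Nat.cast_smul_eq_nsmul (ZMod q)] at h2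
    exact sub_eq_zero.1 ((smul_eq_zero.1 h2).resolve_left C.card_D_ne)
  have htriv := trivial_of_tau ρ C.hTτ (LinearMap.ker P) (by
    intro x hx m hm
    rw [LinearMap.mem_ker, hPg x (fun z hz => C.hDc z hz x hx), LinearMap.mem_ker.1 hm, map_zero])
    hτfix
  have hker : ∀ m ∈ LinearMap.ker P, m = 0 := by
    intro m hm
    have h2 := LinearMap.mem_ker.1 hm
    rw [hP, Finset.sum_congr rfl fun (z : D) _ => htriv z (comm_le T z.2) m hm, Finset.sum_const,
      Finset.card_univ, ← Nat.card_eq_fintype_card, ← Nat.cast_smul_eq_nsmul (ZMod q)] at h2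
    exact (smul_eq_zero.1 h2).resolve_left C.card_D_ne
  apply C.hDne
  rw [eq_bot_iff]
  intro z hz
  rw [mem_bot]
  apply C.hinj
  rw [map_one]
  refine LinearMap.ext fun m => ?_
  have h1 : ρ z m - m ∈ LinearMap.ker P := by
    rw [LinearMap.mem_ker, map_sub, sub_eq_zero, hP, hP]
    refine Fintype.sum_equiv (Equiv.mulRight (⟨z, hz⟩ : D)) _ _ fun s => ?_
    rw [← mul_act]
    rfl
  exact sub_eq_zero.1 (hker _ h1)

theorem exists_weight : ∃ (χ : G → ZMod q) (v : M), v ≠ 0 ∧ ρ τ v = -v ∧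
    IsWt ρ ⁅T, T⁆ χ v ∧ ∃ z ∈ ⁅T, T⁆, χ z ≠ 1 := by
  classical
  have htf := Fact.mk C.ht
  set D : Subgroup G := ⁅T, T⁆ with hD
  set N := LinearMap.range (ρ τ - 1) with hN
  have hinv : ∀ z : D, ∀ w ∈ N, (ρ.comp D.subtype) z w ∈ N := by
    intro z w hw
    rw [hN, C.memN] at hw ⊢
    change ρ τ (ρ z w) = -(ρ z w)
    rw [← mul_act, (C.hDτ z z.2).eq, mul_act, hw, map_neg]
  obtain ⟨v, hv0, hv⟩ := exists_line (P := D) (C.hT.to_le (comm_le T)) C.hN
    (ModRep.subrep (ρ.comp D.subtype) N hinv) C.htq1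
  choose c hc using hv
  have hv0' : (v : M) ≠ 0 := fun h => hv0 (Subtype.ext h)
  have hvN : ρ τ v = -(v : M) := (C.memN v).1 v.2
  have hwt : IsWt ρ D (fun g => if h : g ∈ D then c ⟨g, h⟩ else 1) (v : M) := by
    intro z hz
    have h1 := congrArg Subtype.val (hc ⟨z, hz⟩)
    change ρ z v = c ⟨z, hz⟩ • (v : M) at h1
    rw [h1]
    simp only [dif_pos hz]
  refine ⟨_, v, hv0', hvN, hwt, ?_⟩
  by_contra hcon
  push Not at hcon
  apply hv0'
  apply C.fix_D hvN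
  intro z hz
  refine (hwt z hz).trans ?_
  have h9 := hcon z hz
  exact (congrArg (fun c : ZMod q => c • (v : M)) h9).trans (one_smul _ _)

end Basic

end Cfg

/-- a nontrivial weight of `[T,T]` on the commutator space of `τ` -/
structure WtD {q : ℕ} [Fact q.Prime] {M : Type*} [AddCommGroup M] [Module (ZMod q) M]
    {G : Type*} [Group G] (ρ : Representation (ZMod q) G M) (T : Subgroup G) (τ : G)
    (χ : G → ZMod q) (v : M) : Prop where
  hv0 : v ≠ 0
  hvτ : ρ τ v = -v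
  hv : IsWt ρ ⁅T, T⁆ χ v
  hnt : ∃ z ∈ ⁅T, T⁆, χ z ≠ 1

namespace WtD

variable {q : ℕ} [hq : Fact q.Prime] {M : Type*} [AddCommGroup M] [Module (ZMod q) M] [Finite M]
  {G : Type*} [Group G] [Finite G] {ρ : Representation (ZMod q) G M}
  {f : M →ₗ[ZMod q] M →ₗ[ZMod q] ZMod q} {T : Subgroup G} {τ : G} {t : ℕ} {χ : G → ZMod q} {v : M}

variable (E : WtD ρ T τ χ v) (C : Cfg ρ f T τ t)

section One

include E

theorem χone : χ 1 = 1 := isWt_one E.hv E.hv0

theorem χmul {x y : G} (hx : x ∈ ⁅T, T⁆) (hy : y ∈ ⁅T, T⁆) : χ (x * y) = χ x * χ y :=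
  isWt_mul E.hv E.hv0 hx hy

theorem χinv {x : G} (hx : x ∈ ⁅T, T⁆) : χ x * χ x⁻¹ = 1 := isWt_inv E.hv E.hv0 hx

theorem χne {x : G} (hx : x ∈ ⁅T, T⁆) : χ x ≠ 0 := left_ne_zero_of_mul_eq_one (E.χinv hx)

theorem χpow {x : G} (hx : x ∈ ⁅T, T⁆) (n : ℕ) : χ (x ^ n) = χ x ^ n := by
  induction n with
  | zero => rw [pow_zero, pow_zero, E.χone]
  | succ n ih => rw [pow_succ, pow_succ, E.χmul (pow_mem hx n) hx, ih]

end One

section Two

include E C

/-- the values of the weight have order a power of `t` -/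
theorem χt : ∃ m, ∀ x ∈ ⁅T, T⁆, χ x ^ (t ^ m) = 1 := by
  obtain ⟨m, hm⟩ := C.card_D
  refine ⟨m, fun x hx => ?_⟩
  have h1 : (⟨x, hx⟩ : (⁅T, T⁆ : Subgroup G)) ^ Nat.card (⁅T, T⁆ : Subgroup G) = 1 :=
    pow_card_eq_one'
  have h2 : x ^ (t ^ m) = 1 := by
    rw [← hm]
    exact congrArg Subtype.val h1
  rw [← E.χpow hx, h2, E.χone]

theorem χ_of_two {x : G} (hx : x ∈ ⁅T, T⁆) (h2 : χ x * χ x = 1) : χ x = 1 := by
  obtain ⟨m, hm⟩ := E.χt C
  have h1 : orderOf (χ x) ∣ Nat.gcd 2 (t ^ m) :=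
    Nat.dvd_gcd (orderOf_dvd_of_pow_eq_one (by rw [pow_two]; exact h2))
      (orderOf_dvd_of_pow_eq_one (hm x hx))
  have h3 : Nat.Coprime 2 (t ^ m) :=
    Nat.Coprime.pow_right m ((Nat.coprime_primes Nat.prime_two C.ht).2 C.ht2.symm)
  rw [h3.gcd_eq_one, Nat.dvd_one] at h1
  exact orderOf_eq_one_iff.1 h1

theorem isotropic {x y : M} (hx : IsWt ρ ⁅T, T⁆ χ x) (hy : IsWt ρ ⁅T, T⁆ χ y) : f x y = 0 := by
  by_contra hne
  obtain ⟨z, hz, hz1⟩ := E.hnt
  apply hz1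
  apply E.χ_of_two C hz
  have h1 := C.hfi z x y
  rw [hx z hz, hy z hz, map_smul, map_smul, LinearMap.smul_apply, smul_eq_mul, smul_eq_mul,
    ← mul_assoc] at h1
  have h2 : (χ z * χ z - 1) * f x y = 0 := by linear_combination h1
  exact sub_eq_zero.1 ((mul_eq_zero.1 h2).resolve_right hne)

theorem line {w : M} (hw : IsWt ρ ⁅T, T⁆ χ w) (hwτ : ρ τ w = -w) : ∃ c : ZMod q, w = c • v :=
  C.perp_line E.hvτ E.hv0 hwτ (E.isotropic C E.hv hw)

theorem inv_T {x : G} (hx : x ∈ T) {w : M} (hw : IsWt ρ ⁅T, T⁆ χ w) :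
    IsWt ρ ⁅T, T⁆ χ (ρ x w) := by
  intro z hz
  change ρ z (ρ x w) = χ z • ρ x w
  rw [← mul_act, ← (C.hDc z hz x hx).eq, mul_act, hw z hz, map_smul]

theorem inv_τ {w : M} (hw : IsWt ρ ⁅T, T⁆ χ w) : IsWt ρ ⁅T, T⁆ χ (ρ τ w) := by
  intro z hz
  change ρ z (ρ τ w) = χ z • ρ τ w
  rw [← mul_act, ← (C.hDτ z hz).eq, mul_act, hw z hz, map_smul]

/-- codimension one of the fixed space -/
theorem finrank_le :
    finrank (ZMod q) (wtSub ρ ⁅T, T⁆ χ) ≤
      finrank (ZMod q) (wtSub ρ ⁅T, T⁆ χ ⊓ fixed ρ (zpowers τ) : Submodule (ZMod q) M) + 1 := by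
  set V := wtSub ρ ⁅T, T⁆ χ with hV
  let φ : V →ₗ[ZMod q] M := (ρ τ - 1).domRestrict V
  have hφ : ∀ w : V, φ w = ρ τ w - w := fun w => rfl
  have h1 := LinearMap.finrank_range_add_finrank_ker φ
  have h2 : finrank (ZMod q) (LinearMap.range φ) ≤ 1 := by
    have hle : LinearMap.range φ ≤ Submodule.span (ZMod q) {v} := by
      rintro _ ⟨w, rfl⟩
      have hw : IsWt ρ ⁅T, T⁆ χ (w : M) := w.2
      obtain ⟨c, hc⟩ := E.line C (w := ρ τ w - w) (by
        intro z hz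
        rw [map_sub, hw z hz, E.inv_τ C hw z hz, smul_sub]) (by rw [map_sub, C.tt, neg_sub])
      rw [hφ, hc]
      exact Submodule.smul_mem _ _ (Submodule.mem_span_singleton_self v)
    have h3 := Submodule.finrank_mono hle
    rwa [finrank_span_singleton E.hv0] at h3
  have h3 : LinearMap.ker φ = (V ⊓ fixed ρ (zpowers τ)).comap V.subtype := by
    ext w
    rw [LinearMap.mem_ker, hφ, Submodule.mem_comap, Submodule.mem_inf, mem_fixed,
      HeisStep2.ker_sub_one, sub_eq_zero]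
    exact ⟨fun h => ⟨w.2, h⟩, fun h => h.2⟩
  have h4 : finrank (ZMod q) (LinearMap.ker φ) =
      finrank (ZMod q) (V ⊓ fixed ρ (zpowers τ) : Submodule (ZMod q) M) := by
    rw [h3]
    exact (Submodule.comapSubtypeEquivOfLe inf_le_left).finrank_eq
  omega

/-- commutation on the weight space -/
theorem comm_act {x y : G} (hx : x ∈ T) (hy : y ∈ T) {w : M} (hw : IsWt ρ ⁅T, T⁆ χ w) :
    ρ (x * y) w = χ ⁅x, y⁆ • ρ (y * x) w := by
  have h1 : x * y = ⁅x, y⁆ * (y * x) := by rw [commutatorElement_def]; group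
  rw [h1, mul_act]
  exact (E.inv_T C (mul_mem hy hx) hw) _ (commutator_mem_commutator hx hy)

theorem χcomm_left {x x' y : G} (hx : x ∈ T) (hx' : x' ∈ T) (hy : y ∈ T) :
    χ ⁅x * x', y⁆ = χ ⁅x, y⁆ * χ ⁅x', y⁆ := by
  have hc := commutator_mem_commutator hx' hy
  have h2 : ⁅x * x', y⁆ = x * ⁅x', y⁆ * x⁻¹ * ⁅x, y⁆ := by
    simp only [commutatorElement_def]; group
  rw [h2, (C.hDc _ hc x hx).eq, mul_inv_cancel_right,
    E.χmul hc (commutator_mem_commutator hx hy), mul_comm]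

theorem χcomm_swap {x y : G} (hx : x ∈ T) (hy : y ∈ T) : χ ⁅x, y⁆ * χ ⁅y, x⁆ = 1 := by
  have h1 : ⁅y, x⁆ = ⁅x, y⁆⁻¹ := by simp only [commutatorElement_def]; group
  rw [h1, E.χinv (commutator_mem_commutator hx hy)]

theorem exists_comm : ∃ x ∈ T, ∃ y ∈ T, χ ⁅⁅x, τ⁆, ⁅y, τ⁆⁆ ≠ 1 := by
  by_contra hcon
  push Not at hcon
  have hτT : τ ∈ normalizer (T : Set G) := by
    have h1 : ⁅T, zpowers τ⁆ ≤ T := C.hTτ.le
    exact (le_normalizer_iff_commutator_le_left.mpr h1) (mem_zpowers τ)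
  have hcT : ∀ x ∈ T, ⁅x, τ⁆ ∈ T := by
    intro x hx
    have h1 := commutator_mem_commutator hx (mem_zpowers τ)
    rwa [C.hTτ] at h1
  have hzp : ∀ g ∈ zpowers τ, g = 1 ∨ g = τ := by
    intro g hg
    by_cases h1 : g = 1
    · exact Or.inl h1
    · right
      have hfin : IsOfFinOrder τ := isOfFinOrder_of_finite τ
      have h3 := (hfin.mem_powers_iff_mem_zpowers).2 hg
      rw [Submonoid.mem_powers_iff] at h3
      obtain ⟨i, rfl⟩ := h3
      rcases Nat.even_or_odd i with ⟨j, rfl⟩ | ⟨j, rfl⟩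
      · exfalso
        apply h1
        rw [← two_mul, pow_mul, pow_two, C.hτ, one_pow]
      · rw [pow_succ, pow_mul, pow_two, C.hτ, one_pow, one_mul]
  have hgen : ∀ L : Subgroup G, (∀ x ∈ T, ⁅x, τ⁆ ∈ L) → T ≤ L := by
    intro L hL
    rw [← C.hTτ, commutator_le]
    intro x hx g hg
    rcases hzp g hg with rfl | rfl
    · rw [commutatorElement_one_right]; exact one_mem _
    · exact hL x hx
  have hmk : ∀ S : Set G, S ⊆ T → ∃ L : Subgroup G, ∀ g, g ∈ L ↔ g ∈ T ∧ ∀ y ∈ S, χ ⁅g, y⁆ = 1 := by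
    intro S hS
    refine ⟨{ carrier := {g | g ∈ T ∧ ∀ y ∈ S, χ ⁅g, y⁆ = 1}
              one_mem' := ⟨one_mem _, fun y _ => by rw [commutatorElement_one_left, E.χone]⟩
              mul_mem' := ?_
              inv_mem' := ?_ }, fun g => Iff.rfl⟩
    · rintro a b ⟨ha, ha'⟩ ⟨hb, hb'⟩
      exact ⟨mul_mem ha hb, fun y hy => by
        rw [E.χcomm_left C ha hb (hS hy), ha' y hy, hb' y hy, one_mul]⟩
    · rintro a ⟨ha, ha'⟩
      refine ⟨inv_mem ha, fun y hy => ?_⟩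
      have h1 := E.χcomm_left C (inv_mem ha) ha (hS hy)
      rw [inv_mul_cancel, commutatorElement_one_left, E.χone, ha' y hy, mul_one] at h1
      exact h1.symm
  obtain ⟨L₁, hL₁⟩ := hmk {g | ∃ y ∈ T, g = ⁅y, τ⁆} (by
    rintro _ ⟨y, hy, rfl⟩
    exact hcT y hy)
  have h1 : T ≤ L₁ := hgen L₁ (fun x hx => (hL₁ _).2 ⟨hcT x hx, by
    rintro _ ⟨y, hy, rfl⟩
    exact hcon x hx y hy⟩)
  obtain ⟨L₂, hL₂⟩ := hmk T le_rfl
  have h2 : T ≤ L₂ := hgen L₂ (fun x hx => (hL₂ _).2 ⟨hcT x hx, fun y hy => by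
    have h3 := ((hL₁ y).1 (h1 hy)).2 _ ⟨x, hx, rfl⟩
    have h4 := E.χcomm_swap C (hcT x hx) hy
    rwa [h3, mul_one] at h4⟩)
  obtain ⟨z, hz, hz1⟩ := E.hnt
  apply hz1
  have hker : ⁅T, T⁆ ≤ kerWt E.hv E.hv0 := by
    have h9 : ∀ L : Subgroup G, (∀ x ∈ T, ∀ y ∈ T, ⁅x, y⁆ ∈ L) → ⁅T, T⁆ ≤ L := by
      intro L hL
      rw [commutator_le]
      exact hL
    exact h9 _ fun x hx y hy => ⟨commutator_mem_commutator hx hy, ((hL₂ x).1 (h2 hx)).2 y hy⟩
  exact (hker hz).2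

end Two

end WtD

end Cfsg.Agent.Lib.MersLin2
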