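import Cfsg.Agent.Lib.MersLin2

/-!
Linear algebra for Gross' theorem on automorphisms of order `2^n` (helper59): the weight space has
dimension three and `t = 3`.
-/

set_option autoImplicit false
set_option linter.unusedSectionVars false

namespace Cfsg.Agent.Lib.MersLin3

open Module Subgroup Cfsg.Agent.Lib.WielandtFix Cfsg.Agent.Lib.SympFix Cfsg.Agent.Lib.WtGroup
  Cfsg.Agent.Lib.SubgroupTools Cfsg.Agent.Lib.Ward Cfsg.Agent.Lib.MersLin1
  Cfsg.Agent.Lib.CoprimeAction Cfsg.Agent.Lib.CoprimeAction2 Cfsg.Agent.Lib.MersLin2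
open scoped commutatorElement

universe u v w

theorem finrank_inf_le {F M : Type*} [Field F] [AddCommGroup M] [Module F M] [Finite M]
    {A B V : Submodule F M} (hA : A ≤ V) (hB : B ≤ V) :
    finrank F A + finrank F B ≤ finrank F (A ⊓ B : Submodule F M) + finrank F V := by
  have h1 := Submodule.finrank_sup_add_finrank_inf_eq A B
  have h2 : finrank F (A ⊔ B : Submodule F M) ≤ finrank F V := Submodule.finrank_mono (sup_le hA hB)
  omega

variable {q : ℕ} [hq : Fact q.Prime] {M : Type*} [AddCommGroup M] [Module (ZMod q) M] [Finite M]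
  {G : Type*} [Group G] [Finite G] {ρ : Representation (ZMod q) G M}
  {f : M →ₗ[ZMod q] M →ₗ[ZMod q] ZMod q} {T : Subgroup G} {τ : G} {t : ℕ} {χ : G → ZMod q} {v : M}

theorem ρ_injective (ρ : Representation (ZMod q) G M) (x : G) : Function.Injective (ρ x) := by
  intro a b hab
  rw [← inv_act ρ x a, hab, inv_act]

theorem finrank_map (ρ : Representation (ZMod q) G M) (x : G) (A : Submodule (ZMod q) M) :
    finrank (ZMod q) (A.map (ρ x)) = finrank (ZMod q) A :=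
  (Submodule.equivMapOfInjective (ρ x) (ρ_injective ρ x) A).finrank_eq.symm

section

variable (E : WtD ρ T τ χ v) (C : Cfg ρ f T τ t)
include E C

theorem map_le {x : G} (hx : x ∈ T) :
    (wtSub ρ ⁅T, T⁆ χ ⊓ fixed ρ (zpowers τ) : Submodule (ZMod q) M).map (ρ x) ≤
      wtSub ρ ⁅T, T⁆ χ := by
  rintro _ ⟨w, hw, rfl⟩
  exact E.inv_T C hx hw.1

/-- the commutator `⁅x,τ⁆` is trivial on the intersection of the two fixed spaces -/
theorem comm_fix {x : G} {w : M}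
    (hw : w ∈ (wtSub ρ ⁅T, T⁆ χ ⊓ fixed ρ (zpowers τ) : Submodule (ZMod q) M))
    (hw' : w ∈ (wtSub ρ ⁅T, T⁆ χ ⊓ fixed ρ (zpowers τ) : Submodule (ZMod q) M).map (ρ x)) :
    ρ ⁅x, τ⁆ w = w := by
  obtain ⟨w', hw'', rfl⟩ := hw'
  have h1 : ρ τ w' = w' := hw''.2 τ (mem_zpowers τ)
  have h2 : ρ τ⁻¹ (ρ x w') = ρ x w' := hw.2 τ⁻¹ (inv_mem (mem_zpowers τ))
  rw [commutatorElement_def, mul_act, h2, mul_act, mul_act, inv_act, h1]

theorem finrank_le_three : finrank (ZMod q) (wtSub ρ ⁅T, T⁆ χ) ≤ 3 := by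
  obtain ⟨x, hx, y, hy, hxy⟩ := E.exists_comm C
  set V := wtSub ρ ⁅T, T⁆ χ with hV
  set F : Submodule (ZMod q) M := V ⊓ fixed ρ (zpowers τ) with hF
  have hFV : F ≤ V := inf_le_left
  have h1 : finrank (ZMod q) V ≤ finrank (ZMod q) F + 1 := E.finrank_le C
  have hmx : F.map (ρ x) ≤ V := map_le E C hx
  have hmy : F.map (ρ y) ≤ V := map_le E C hy
  have h2 := finrank_inf_le hFV hmx
  have h3 := finrank_inf_le (A := F ⊓ F.map (ρ x)) (inf_le_left.trans hFV) hmy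
  have h4 : (F ⊓ F.map (ρ x)) ⊓ F.map (ρ y) = ⊥ := by
    rw [eq_bot_iff]
    rintro w ⟨⟨hw, hwx⟩, hwy⟩
    rw [Submodule.mem_bot]
    have hcT : ∀ x ∈ T, ⁅x, τ⁆ ∈ T := by
      intro x hx
      have h1 := commutator_mem_commutator hx (mem_zpowers τ)
      rwa [C.hTτ] at h1
    have e1 := comm_fix E C hw hwx
    have e2 := comm_fix E C hw hwy
    have e3 := E.comm_act C (hcT x hx) (hcT y hy) (hw.1 : IsWt ρ ⁅T, T⁆ χ w)
    rw [mul_act, mul_act, e1, e2, e1] at e3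
    have e4 : (χ ⁅⁅x, τ⁆, ⁅y, τ⁆⁆ - 1) • w = 0 := by rw [sub_smul, one_smul, ← e3, sub_self]
    exact (smul_eq_zero.1 e4).resolve_left (sub_ne_zero.2 hxy)
  rw [h4, finrank_bot] at h3
  rw [finrank_map] at h2 h3
  omega

theorem pos : 0 < finrank (ZMod q) (wtSub ρ ⁅T, T⁆ χ) := by
  have : Nontrivial (wtSub ρ ⁅T, T⁆ χ) := ⟨⟨v, E.hv⟩, 0, fun h => E.hv0 (congrArg Subtype.val h)⟩
  exact Module.finrank_pos

theorem dim_three : t = 3 ∧ finrank (ZMod q) (wtSub ρ ⁅T, T⁆ χ) = 3 := by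
  have h3 := finrank_le_three E C
  have h0 := pos E C
  obtain ⟨x, hx, y, hy, hxy⟩ := E.exists_comm C
  have hcT : ∀ x ∈ T, ⁅x, τ⁆ ∈ T := by
    intro x hx
    have h1 := commutator_mem_commutator hx (mem_zpowers τ)
    rwa [C.hTτ] at h1
  set c := ⁅x, τ⁆ with hc
  set d := ⁅y, τ⁆ with hd
  have hcT' : c ∈ T := hcT x hx
  have hdT' : d ∈ T := hcT y hy
  have hcd : ⁅c, d⁆ ∈ ⁅T, T⁆ := commutator_mem_commutator hcT' hdT'
  set V := wtSub ρ ⁅T, T⁆ χ with hV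
  let h : T →* Module.End (ZMod q) V := ModRep.subrep (ρ.comp T.subtype) V
    fun x w hw => E.inv_T C x.2 hw
  have hh : ∀ (x : T) (w : V), ((h x w : V) : M) = ρ (x : G) w := fun x w => rfl
  let δ : T →* ZMod q := LinearMap.det.comp h
  have hδ : δ ⁅(⟨c, hcT'⟩ : T), ⟨d, hdT'⟩⁆ = 1 := by
    have e1 : ∀ a : T, δ a * δ a⁻¹ = 1 := fun a => by rw [← map_mul, mul_inv_cancel, map_one]
    rw [commutatorElement_def, map_mul, map_mul, map_mul]
    calc δ ⟨c, hcT'⟩ * δ ⟨d, hdT'⟩ * δ (⟨c, hcT'⟩ : T)⁻¹ * δ (⟨d, hdT'⟩ : T)⁻¹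
        = (δ ⟨c, hcT'⟩ * δ (⟨c, hcT'⟩ : T)⁻¹) * (δ ⟨d, hdT'⟩ * δ (⟨d, hdT'⟩ : T)⁻¹) := by ring
      _ = 1 := by rw [e1, e1, one_mul]
  have hsc : h ⁅(⟨c, hcT'⟩ : T), ⟨d, hdT'⟩⁆ = χ ⁅c, d⁆ • (LinearMap.id : V →ₗ[ZMod q] V) := by
    refine LinearMap.ext fun w => ?_
    apply Subtype.ext
    rw [hh]
    exact w.2 _ hcd
  have hpow : χ ⁅c, d⁆ ^ finrank (ZMod q) V = 1 := by
    have e1 : δ ⁅(⟨c, hcT'⟩ : T), ⟨d, hdT'⟩⁆ = χ ⁅c, d⁆ ^ finrank (ZMod q) V := by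
      change LinearMap.det (h _) = _
      rw [hsc, LinearMap.det_smul, LinearMap.det_id, mul_one]
    rw [← e1, hδ]
  obtain ⟨m, hm⟩ := E.χt C
  have hdvd : orderOf (χ ⁅c, d⁆) ∣ t ^ m := orderOf_dvd_of_pow_eq_one (hm _ hcd)
  obtain ⟨j, _, hj⟩ := (Nat.dvd_prime_pow C.ht).1 hdvd
  have hj0 : j ≠ 0 := by
    rintro rfl
    rw [pow_zero] at hj
    exact hxy (orderOf_eq_one_iff.1 hj)
  have htd : t ∣ finrank (ZMod q) V := by
    refine (dvd_pow_self t hj0).trans ?_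
    rw [← hj]
    exact orderOf_dvd_of_pow_eq_one hpow
  have ht3 : t ≤ 3 := (Nat.le_of_dvd h0 htd).trans h3
  have ht2 := C.ht.two_le
  have ht2' := C.ht2
  have ht : t = 3 := by omega
  refine ⟨ht, ?_⟩
  rw [ht] at htd
  have := Nat.le_of_dvd h0 htd
  omega

theorem finrank_F : 2 ≤ finrank (ZMod q)
    (wtSub ρ ⁅T, T⁆ χ ⊓ fixed ρ (zpowers τ) : Submodule (ZMod q) M) := by
  have h1 := E.finrank_le C
  rw [(dim_three E C).2] at h1
  omega

theorem finrank_F_eq : finrank (ZMod q)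
    (wtSub ρ ⁅T, T⁆ χ ⊓ fixed ρ (zpowers τ) : Submodule (ZMod q) M) = 2 := by
  have h1 := finrank_F E C
  have h2 : finrank (ZMod q)
    (wtSub ρ ⁅T, T⁆ χ ⊓ fixed ρ (zpowers τ) : Submodule (ZMod q) M) < 3 := by
    rw [← (dim_three E C).2]
    refine Submodule.finrank_lt_finrank_of_lt (lt_of_le_of_ne inf_le_left ?_)
    intro h
    have h3 : v ∈ wtSub ρ ⁅T, T⁆ χ := E.hv
    rw [← h] at h3
    have h4 := h3.2 τ (mem_zpowers τ)
    rw [E.hvτ] at h4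
    have h5 : (2 : ZMod q) • v = 0 := by
      rw [two_smul]
      nth_rewrite 1 [← h4]
      rw [neg_add_cancel]
    exact E.hv0 ((smul_eq_zero.1 h5).resolve_left C.two_ne)
  omega

end

end Cfsg.Agent.Lib.MersLin3
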