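import Cfsg.Agent.Lib.MersLin3

/-!
Linear algebra for Gross' theorem on automorphisms of order `2^n` (helper59): elements of order
four and eight.
-/

set_option autoImplicit false
set_option linter.unusedSectionVars false

namespace Cfsg.Agent.Lib.MersLin4

open Module Subgroup Cfsg.Agent.Lib.WielandtFix Cfsg.Agent.Lib.SympFix Cfsg.Agent.Lib.WtGroup
  Cfsg.Agent.Lib.SubgroupTools Cfsg.Agent.Lib.Ward Cfsg.Agent.Lib.MersLin1
  Cfsg.Agent.Lib.CoprimeAction Cfsg.Agent.Lib.CoprimeAction2 Cfsg.Agent.Lib.MersLin2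
  Cfsg.Agent.Lib.MersLin3
open scoped commutatorElement

universe u v w

theorem polarize {k : Type*} [Field k] {M : Type*} [AddCommGroup M] [Module (ZMod 3) M]
    {e : M → M → k} (he : IsPairing e) (hnd : ∀ m, (∀ n, e m n = 1) → m = 0)
    (A : Module.End (ZMod 3) M) (hA : ∀ x y, e (A x) (A y) = e x y)
    (hA2 : ∀ x, A (A x) = -x) {m₀ : M} (hm₀ : m₀ ≠ 0) : ∃ x, e (x - A x) (A (x - A x)) ≠ 1 := by
  obtain ⟨f, hf0, hfe, hf1⟩ := exists_bilin (q := 3) he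
  have hfA : ∀ x y, f (A x) (A y) = f x y := fun x y => hfe _ _ _ _ (hA x y)
  have hsw : ∀ x y, f y x = - f x y := by
    intro x y
    have h1 := hf0 (x + y)
    rw [map_add, map_add, LinearMap.add_apply, LinearMap.add_apply, hf0, hf0, zero_add,
      add_zero] at h1
    exact eq_neg_of_add_eq_zero_left h1
  have h20 : (2 : ZMod 3) ≠ 0 := by decide
  by_contra hcon
  push Not at hcon
  have hcon' : ∀ x, f (x - A x) (A (x - A x)) = 0 := by
    intro x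
    have h1 := hfe (x - A x) (A (x - A x)) 0 0 (by rw [hcon, he.zero_right])
    rw [h1, map_zero]
  have h1 : ∀ x, f x (A x) = 0 := by
    intro x
    have h2 := hcon' x
    rw [map_sub A, hA2, sub_neg_eq_add, map_sub, LinearMap.sub_apply, map_add, map_add, hf0, hf0,
      hsw x (A x)] at h2
    have h3 : (2 : ZMod 3) * f x (A x) = 0 := by linear_combination h2
    exact (mul_eq_zero.1 h3).resolve_left h20
  apply hm₀
  apply hnd
  intro n
  apply hf1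
  have h2 := h1 (m₀ + (-(A n)))
  have h3 : A (-(A n)) = n := by rw [map_neg, hA2, neg_neg]
  rw [map_add A, h3, map_add, map_add f, LinearMap.add_apply, LinearMap.add_apply, h1 m₀] at h2
  have h4 : f (-(A n)) n = 0 := by
    have h5 := h1 (-(A n))
    rwa [h3] at h5
  have h5 : f (-(A n)) (A m₀) = f m₀ n := by
    rw [map_neg, LinearMap.neg_apply, hfA, hsw, neg_neg]
  rw [h4, h5, zero_add, add_zero] at h2
  have h6 : (2 : ZMod 3) * f m₀ n = 0 := by linear_combination h2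
  exact (mul_eq_zero.1 h6).resolve_left h20

variable {q : ℕ} [hq : Fact q.Prime] {M : Type*} [AddCommGroup M] [Module (ZMod q) M] [Finite M]
  {G : Type u} [Group G] [Finite G] {ρ : Representation (ZMod q) G M}
  {f : M →ₗ[ZMod q] M →ₗ[ZMod q] ZMod q} {T : Subgroup G} {τ : G} {t : ℕ} {χ : G → ZMod q} {v : M}

section

variable (E : WtD ρ T τ χ v) (C : Cfg ρ f T τ t)
include E C

theorem exists_sec (hexp : ∀ x ∈ T, x ^ 3 ∈ ⁅T, T⁆) {g : G} (hgT : g ∈ normalizer (T : Set G))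
    (hg : g ∈ stab ⁅T, T⁆ χ) : ∃ (M₂ : Type u) (_ : AddCommGroup M₂) (_ : Module (ZMod 3) M₂)
      (_ : Finite M₂) (A : Module.End (ZMod 3) M₂) (π : T → M₂) (e : M₂ → M₂ → ZMod q),
      Function.Surjective π ∧ (∀ x y, π (x * y) = π x + π y) ∧
      (∀ z : T, (z : G) ∈ ⁅T, T⁆ → π z = 0) ∧
      (∀ x y : T, (y : G) = g * x * g⁻¹ → A (π x) = π y) ∧ IsPairing e ∧
      (∀ x y : T, e (π x) (π y) = χ ⁅(x : G), (y : G)⁆) ∧ (∀ m, (∀ n, e m n = 1) → m = 0) ∧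
      (∀ m n, e (A m) (A n) = e m n) ∧ finrank (ZMod 3) M₂ ≤ 2 ∧ ∃ m₀ : M₂, m₀ ≠ 0 := by
  have h3f : Fact (Nat.Prime 3) := ⟨Nat.prime_three⟩
  obtain ⟨ht, hdim⟩ := dim_three E C
  obtain ⟨R, hR⟩ := SympSec.exists_radical (Q := T) (Z := ⁅T, T⁆) (μ := χ) C.hDc le_rfl E.χone
    (fun x hx y hy => E.χmul hx hy)
  obtain ⟨M₂, i1, i2, i3, ρ₂, π, e, hπ, hadd, hker, hρ, he, heμ, hnd, hinv⟩ :=
    SympSec.exists_symp (q := 3) (Q := T) (Z := ⁅T, T⁆) (X := zpowers g) (comm_le T) C.hDc le_rfl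
      hexp E.χone (fun x hx y hy => E.χmul hx hy) (zpowers_le.2 hgT) (zpowers_le.2 hg) hR
  obtain ⟨hZR, -, -⟩ := SympSec.radical_props (X := zpowers g) (comm_le T) C.hDc le_rfl E.χone
    (zpowers_le.2 hgT) (zpowers_le.2 hg) hR
  refine ⟨M₂, i1, i2, i3, ρ₂ ⟨g, mem_zpowers g⟩, π, e, hπ, hadd,
    fun z hz => (hker z).2 (hZR hz), fun x y hxy => hρ ⟨g, mem_zpowers g⟩ x y hxy, he, heμ, hnd,
    fun m n => hinv _ m n, ?_, ?_⟩
  · set V := wtSub ρ ⁅T, T⁆ χ with hV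
    have hVn : Nontrivial V := ⟨⟨v, E.hv⟩, 0, fun h => E.hv0 (congrArg Subtype.val h)⟩
    have h1 := card_le_sq (ModRep.subrep (ρ.comp T.subtype) V fun x w hw => E.inv_T C x.2 hw)
      π hπ he hnd (by
        intro x y
        refine LinearMap.ext fun w => ?_
        apply Subtype.ext
        change ρ ((x : G) * y) w = e (π x) (π y) • ρ ((y : G) * x) w
        rw [heμ]
        exact E.comm_act C x.2 y.2 w.2) (by
        rw [Module.natCard_eq_pow_finrank (K := ZMod 3), Nat.card_zmod, Nat.cast_pow]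
        apply pow_ne_zero
        have := C.t_ne
        rwa [ht] at this)
    rw [hdim, Module.natCard_eq_pow_finrank (K := ZMod 3), Nat.card_zmod] at h1
    by_contra hcon
    have h2 : 3 ^ 3 ≤ 3 ^ finrank (ZMod 3) M₂ := Nat.pow_le_pow_right (by norm_num) (by omega)
    omega
  · by_contra hcon
    push Not at hcon
    obtain ⟨x, hx, y, hy, hxy⟩ := E.exists_comm C
    have hcT : ∀ x ∈ T, ⁅x, τ⁆ ∈ T := by
      intro x hx
      have h1 := commutator_mem_commutator hx (mem_zpowers τ)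
      rwa [C.hTτ] at h1
    apply hxy
    have h1 := heμ ⟨_, hcT x hx⟩ ⟨_, hcT y hy⟩
    rw [hcon (π ⟨_, hcT x hx⟩), he.zero_left] at h1
    exact h1.symm

theorem no_order_eight (hexp : ∀ x ∈ T, x ^ 3 ∈ ⁅T, T⁆)
    (hinvT : ∀ x ∈ T, τ * x * τ⁻¹ * x ∈ ⁅T, T⁆) {a : G} (haT : a ∈ normalizer (T : Set G))
    (ha : a ∈ stab ⁅T, T⁆ χ) (ha4 : a ^ 4 = τ) : False := by
  obtain ⟨M₂, _, _, _, A, π, e, hπ, hadd, hz, hA, he, -, hnd, hAi, hdim, m₀, hm₀⟩ :=
    exists_sec E C hexp haT ha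
  refine false_of_order_eight he hnd A hAi ?_ hdim hm₀
  intro m
  obtain ⟨x, rfl⟩ := hπ m
  have hn : ∀ (g : G), g ∈ normalizer (T : Set G) → ∀ x : T, g * x * g⁻¹ ∈ T := fun g hg x =>
    (mem_normalizer_iff.1 hg _).1 x.2
  have h1 : ∀ (i : ℕ) (y : T), (y : G) = a ^ i * x * (a ^ i)⁻¹ →
      A (π y) = π ⟨a ^ (i + 1) * x * (a ^ (i + 1))⁻¹, hn _ (pow_mem haT _) x⟩ := by
    intro i y hy
    apply hA
    change a ^ (i + 1) * x * (a ^ (i + 1))⁻¹ = a * y * a⁻¹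
    rw [hy, pow_succ']
    group
  have h0 : π x = π ⟨a ^ 0 * x * (a ^ 0)⁻¹, hn _ (pow_mem haT _) x⟩ := by
    congr 1
    apply Subtype.ext
    change (x : G) = a ^ 0 * x * (a ^ 0)⁻¹
    rw [pow_zero]; simp
  conv_lhs => rw [h0]
  rw [h1 0 _ rfl, h1 1 _ rfl, h1 2 _ rfl, h1 3 _ rfl]
  have h2 : π (⟨a ^ (3 + 1) * x * (a ^ (3 + 1))⁻¹, hn _ (pow_mem haT _) x⟩ * x) = 0 := by
    apply hz
    change a ^ (3 + 1) * x * (a ^ (3 + 1))⁻¹ * x ∈ ⁅T, T⁆
    rw [show (3 + 1) = 4 from rfl, ha4]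
    exact hinvT x x.2
  rw [hadd] at h2
  exact eq_neg_of_add_eq_zero_left h2

theorem no_swap (hexp : ∀ x ∈ T, x ^ 3 ∈ ⁅T, T⁆)
    (hinvT : ∀ x ∈ T, τ * x * τ⁻¹ * x ∈ ⁅T, T⁆) {u : G} (huT : u ∈ normalizer (T : Set G))
    (hu4 : u ^ 4 = τ) (hu2 : u ^ 2 ∈ stab ⁅T, T⁆ χ)
    (hsw : ∀ z ∈ ⁅T, T⁆, χ (u⁻¹ * z * u) * χ z = 1) : False := by
  classical
  obtain ⟨ht, hdim⟩ := dim_three E C
  set g := u ^ 2 with hg
  have hgg : g * g = τ := by rw [hg, ← pow_add, ← hu4]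
  have hgT : g ∈ normalizer (T : Set G) := pow_mem huT 2
  have huD : u ∈ normalizer ((⁅T, T⁆ : Subgroup G) : Set G) :=
    (Lib.H32PSolv.le_normalizer_commutator (zpowers_le.2 huT) (zpowers_le.2 huT)) (mem_zpowers u)
  have hgD : g ∈ normalizer ((⁅T, T⁆ : Subgroup G) : Set G) := pow_mem huD 2
  set D : Subgroup G := ⁅T, T⁆ with hD
  let _ : Fintype D := Fintype.ofFinite D
  have hgτ : ∀ w, ρ g (ρ g w) = ρ τ w := fun w => by rw [← mul_act, hgg]
  have hgτ' : ∀ w, ρ g (ρ τ w) = ρ τ (ρ g w) := fun w => by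
    rw [← mul_act, ← mul_act, ← hgg, mul_assoc]
  have hguinv : ∀ w, ρ g (ρ u⁻¹ w) = ρ u⁻¹ (ρ g w) := fun w => by
    rw [← mul_act, ← mul_act, hg]
    congr 1
    congr 1
    group
  -- the dual weight space
  have hA : ∀ w, IsWt ρ D χ w → ρ g w = w → w ≠ 0 →
      ∃ w', IsWt ρ D χ w' ∧ ρ g w' = w' ∧ f w (ρ u w') ≠ 0 := by
    intro w hw hgw hw0
    obtain ⟨n, hn⟩ : ∃ n, f w n ≠ 0 := by
      by_contra h
      push Not at h
      exact hw0 (C.hfn w h)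
    set n₁ := ∑ z : D, χ z • ρ (z : G) n with hn₁
    have hn₁w : ∀ z ∈ D, ρ z n₁ = χ z⁻¹ • n₁ := by
      intro z hz
      rw [hn₁, map_sum, Finset.smul_sum]
      refine Fintype.sum_equiv (Equiv.mulLeft (⟨z, hz⟩ : D)) _ _ fun s => ?_
      rw [map_smul, ← mul_act, smul_smul]
      change χ s • ρ (z * s) n = (χ z⁻¹ * χ (z * s)) • ρ (z * s) n
      rw [← E.χmul (inv_mem hz) (mul_mem hz s.2), inv_mul_cancel_left]
    have hfn₁ : f w n₁ ≠ 0 := by
      have h1 : ∀ z : D, f w (χ z • ρ (z : G) n) = f w n := by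
        intro z
        rw [map_smul, C.adj, hw _ (inv_mem z.2), map_smul, LinearMap.smul_apply, smul_smul,
          E.χinv z.2, one_smul]
      rw [hn₁, map_sum, Finset.sum_congr rfl fun z _ => h1 z, Finset.sum_const, Finset.card_univ,
        nsmul_eq_mul, ← Nat.card_eq_fintype_card]
      exact mul_ne_zero C.card_D_ne hn
    set n₂ := (n₁ + ρ g n₁) + ρ τ (n₁ + ρ g n₁) with hn₂
    have hgn₂ : ρ g n₂ = n₂ := by
      rw [hn₂]
      simp only [map_add, hgτ, hgτ', C.tt]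
      abel
    have hfg : ∀ m, f w (ρ g m) = f w m := by
      intro m
      rw [C.adj]
      congr 2
      conv_lhs => rw [← hgw]
      exact inv_act ρ g w
    have hfn₂ : f w n₂ ≠ 0 := by
      have h1 : f w n₂ = (2 * 2) * f w n₁ := by
        rw [hn₂]
        simp only [map_add, ← hgτ, hfg]
        ring
      rw [h1]
      exact mul_ne_zero (mul_ne_zero C.two_ne C.two_ne) hfn₁
    have hn₂w : ∀ z ∈ D, ρ z n₂ = χ z⁻¹ • n₂ := by
      have h1 : ∀ m, (∀ z ∈ D, ρ z m = χ z⁻¹ • m) → ∀ z ∈ D, ρ z (ρ g m) = χ z⁻¹ • ρ g m := by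
        intro m hm z hz
        have h2 : z * g = g * (g⁻¹ * z * g) := by group
        have h3 : g⁻¹ * z * g ∈ D := conj_mem_of_normalizer hgD hz
        have h4 : (g⁻¹ * z * g)⁻¹ = g⁻¹ * z⁻¹ * g := by group
        rw [← mul_act, h2, mul_act, hm _ h3, map_smul, h4, hu2.2 _ (inv_mem hz)]
      have h2 := h1 n₁ hn₁w
      have h3 : ∀ z ∈ D, ρ z (n₁ + ρ g n₁) = χ z⁻¹ • (n₁ + ρ g n₁) := fun z hz => by
        rw [map_add, hn₁w z hz, h2 z hz, smul_add]
      have h4 : ∀ z ∈ D, ρ z (ρ τ (n₁ + ρ g n₁)) = χ z⁻¹ • ρ τ (n₁ + ρ g n₁) := fun z hz => by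
        rw [← mul_act, ← (C.hDτ z hz).eq, mul_act, h3 z hz, map_smul]
      intro z hz
      rw [hn₂, map_add, h3 z hz, h4 z hz, ← smul_add]
    refine ⟨ρ u⁻¹ n₂, ?_, ?_, ?_⟩
    · intro z hz
      have h2 : z * u⁻¹ = u⁻¹ * (u * z * u⁻¹) := by group
      have h3 : u * z * u⁻¹ ∈ D := (mem_normalizer_iff.1 huD z).1 hz
      have h4 := hsw _ h3
      have h5 : u⁻¹ * (u * z * u⁻¹) * u = z := by group
      rw [h5] at h4
      have h6 := E.χinv h3
      have h7 : χ (u * z * u⁻¹)⁻¹ = χ z := by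
        apply mul_left_cancel₀ (E.χne h3)
        rw [h6, mul_comm, h4]
      rw [← mul_act, h2, mul_act, hn₂w _ h3, map_smul, h7]
    · rw [hguinv, hgn₂]
    · rw [act_inv]
      exact hfn₂
  have hA2 : ∀ w, ρ g w = w → f w (ρ u w) = 0 := by
    intro w hw
    have h1 := C.hfi u w (ρ u w)
    rw [← mul_act, ← pow_two, ← hg, hw, C.swap] at h1
    have h2 : (2 : ZMod q) * f w (ρ u w) = 0 := by linear_combination -h1
    exact (mul_eq_zero.1 h2).resolve_left C.two_ne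
  set V := wtSub ρ D χ with hV
  set F : Submodule (ZMod q) M := V ⊓ fixed ρ (zpowers τ) with hF
  have hFV : F ≤ V := inf_le_left
  have hF2 : finrank (ZMod q) F = 2 := finrank_F_eq E C
  have hFmem : ∀ w, w ∈ F ↔ IsWt ρ D χ w ∧ ρ τ w = w := by
    intro w
    rw [hF, Submodule.mem_inf, mem_fixed, HeisStep2.ker_sub_one]
    exact Iff.rfl
  have hVg : ∀ w, IsWt ρ D χ w → IsWt ρ D χ (ρ g w) := by
    intro w hw z hz
    have h1 := isWt_tw ρ hw hgD z hz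
    rw [h1, tw_apply, hu2.2 z hz]
  have heps : ∃ ε : ZMod q, ε * ε = 1 ∧ ∀ w ∈ F, ρ g w = ε • w := by
    by_cases hex : ∃ w, IsWt ρ D χ w ∧ ρ g w = w ∧ w ≠ 0
    · obtain ⟨w, hw, hgw, hw0⟩ := hex
      obtain ⟨w', hw', hgw', hww'⟩ := hA w hw hgw hw0
      let P : Submodule (ZMod q) M := V ⊓ fixed ρ (zpowers g)
      have hPmem : ∀ w, w ∈ P ↔ IsWt ρ D χ w ∧ ρ g w = w := by
        intro w
        rw [Submodule.mem_inf, mem_fixed, HeisStep2.ker_sub_one]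
        exact Iff.rfl
      have hPF : P ≤ F := by
        intro w hw
        rw [hPmem] at hw
        rw [hFmem]
        exact ⟨hw.1, by rw [← hgτ, hw.2, hw.2]⟩
      have hind : LinearIndependent (ZMod q) ![w, w'] := by
        rw [LinearIndependent.pair_iff]
        intro a b hab
        have h1 := congrArg (fun z => f w (ρ u z)) hab
        simp only [map_add, map_smul, hA2 w hgw, smul_zero, zero_add, map_zero] at h1
        have hb := (smul_eq_zero.1 h1).resolve_right hww'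
        rw [hb, zero_smul, add_zero] at hab
        exact ⟨(smul_eq_zero.1 hab).resolve_right hw0, hb⟩
      have hle : Submodule.span (ZMod q) (Set.range ![w, w']) ≤ P := by
        rw [Submodule.span_le]
        rintro _ ⟨i, rfl⟩
        fin_cases i
        · exact (hPmem w).2 ⟨hw, hgw⟩
        · exact (hPmem w').2 ⟨hw', hgw'⟩
      have h2 := Submodule.finrank_mono hle
      rw [finrank_span_eq_card hind, Fintype.card_fin] at h2
      have h3 : P = F := Submodule.eq_of_le_of_finrank_le hPF (by rw [hF2]; exact h2)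
      refine ⟨1, one_mul 1, fun w hw => ?_⟩
      rw [← h3, hPmem] at hw
      rw [one_smul, hw.2]
    · push Not at hex
      refine ⟨-1, by ring, fun w hw => ?_⟩
      rw [hFmem] at hw
      have h1 : w + ρ g w = 0 := by
        apply hex
        · intro z hz
          rw [map_add, hw.1 z hz, hVg w hw.1 z hz, smul_add]
        · rw [map_add, hgτ, hw.2, add_comm]
      rw [neg_smul, one_smul]
      exact (neg_eq_of_add_eq_zero_right h1).symm
  obtain ⟨ε, hε, hgε⟩ := heps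
  have hB : ∀ x ∈ T, χ ⁅⁅x, g⁆, g * ⁅x, g⁆ * g⁻¹⁆ = 1 := by
    intro x hx
    have hcT : ⁅x, g⁆ ∈ T := by
      have h1 : ⁅T, zpowers g⁆ ≤ T := le_normalizer_iff_commutator_le_left.mp (zpowers_le.2 hgT)
      exact h1 (commutator_mem_commutator hx (mem_zpowers g))
    have hcT' : g * ⁅x, g⁆ * g⁻¹ ∈ T := (mem_normalizer_iff.1 hgT _).1 hcT
    have hmx : F.map (ρ x) ≤ V := map_le E C hx
    have h2 := finrank_inf_le hFV hmx
    rw [finrank_map, hF2, hdim] at h2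
    obtain ⟨w, ⟨hwF, hwx⟩, hw0⟩ : ∃ w ∈ (F ⊓ F.map (ρ x) : Submodule (ZMod q) M), w ≠ 0 := by
      apply Submodule.exists_mem_ne_zero_of_ne_bot
      intro h3
      rw [h3, finrank_bot] at h2
      omega
    have hginv : ∀ w ∈ F, ρ g⁻¹ w = ε • w := by
      intro w hw
      have h3 := congrArg (fun z => ε • ρ g⁻¹ z) (hgε w hw)
      simp only [inv_act, map_smul, smul_smul, hε, one_smul] at h3
      exact h3.symm
    have e1 : ρ ⁅x, g⁆ w = w := by
      obtain ⟨w', hw', hw''⟩ := hwx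
      rw [commutatorElement_def, mul_act, hginv w hwF, map_smul, mul_act, ← hw'', mul_act,
        inv_act, hgε w' hw', map_smul, smul_smul, hε, one_smul]
    have e2 : ρ (g * ⁅x, g⁆ * g⁻¹) w = w := by
      rw [mul_act, hginv w hwF, map_smul, mul_act, e1, hgε w hwF, smul_smul, hε, one_smul]
    have e3 := E.comm_act C hcT hcT' ((hFmem w).1 hwF).1
    rw [mul_act ρ ⁅x, g⁆ (g * ⁅x, g⁆ * g⁻¹), mul_act ρ (g * ⁅x, g⁆ * g⁻¹) ⁅x, g⁆, e2, e1,
      e2] at e3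
    have e4 : (χ ⁅⁅x, g⁆, g * ⁅x, g⁆ * g⁻¹⁆ - 1) • w = 0 := by
      rw [sub_smul, one_smul, ← e3, sub_self]
    exact sub_eq_zero.1 ((smul_eq_zero.1 e4).resolve_right hw0)
  obtain ⟨M₂, _, _, _, A, π, e, hπ, hadd, hz, hAπ, he, heμ, hnd, hAi, -, m₀, hm₀⟩ :=
    exists_sec E C hexp hgT hu2
  have hn : ∀ (g : G), g ∈ normalizer (T : Set G) → ∀ x : T, g * x * g⁻¹ ∈ T := fun g hg x =>
    (mem_normalizer_iff.1 hg _).1 x.2
  have hA2' : ∀ x, A (A x) = -x := by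
    intro m
    obtain ⟨x, rfl⟩ := hπ m
    rw [hAπ x ⟨g * x * g⁻¹, hn g hgT x⟩ rfl,
      hAπ ⟨g * x * g⁻¹, hn g hgT x⟩ ⟨g * (g * x * g⁻¹) * g⁻¹, hn g hgT ⟨_, hn g hgT x⟩⟩ rfl]
    have h2 : π ((⟨g * (g * x * g⁻¹) * g⁻¹, hn g hgT ⟨_, hn g hgT x⟩⟩ : T) * x) = 0 := by
      apply hz
      change g * (g * x * g⁻¹) * g⁻¹ * x ∈ D
      have h3 : g * (g * (x : G) * g⁻¹) * g⁻¹ * x = (g * g) * x * (g * g)⁻¹ * x := by group
      rw [h3, hgg]
      exact hinvT x x.2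
    rw [hadd] at h2
    exact eq_neg_of_add_eq_zero_left h2
  obtain ⟨m, hm⟩ := polarize he hnd A hAi hA2' hm₀
  obtain ⟨x, rfl⟩ := hπ m
  apply hm
  have hcT : ⁅(x : G), g⁆ ∈ T := by
    have h1 : ⁅T, zpowers g⁆ ≤ T := le_normalizer_iff_commutator_le_left.mp (zpowers_le.2 hgT)
    exact h1 (commutator_mem_commutator x.2 (mem_zpowers g))
  have h1 : π ⟨⁅(x : G), g⁆, hcT⟩ = π x - A (π x) := by
    rw [hAπ x ⟨g * x * g⁻¹, hn g hgT x⟩ rfl, eq_sub_iff_add_eq, ← hadd]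
    congr 1
    apply Subtype.ext
    change ⁅(x : G), g⁆ * (g * x * g⁻¹) = x
    rw [commutatorElement_def]
    group
  rw [← h1, hAπ ⟨⁅(x : G), g⁆, hcT⟩ ⟨g * ⁅(x : G), g⁆ * g⁻¹, hn g hgT ⟨_, hcT⟩⟩ rfl, heμ]
  exact hB x x.2

end

end Cfsg.Agent.Lib.MersLin4
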