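import Cfsg.Agent.Lib.MersLin4
import Cfsg.Agent.Lib.ShultGross

/-!
Linear algebra for Gross' theorem on automorphisms of order `2^n` (helper59): the case
`q + 1 = 2^l`.
-/

set_option autoImplicit false
set_option linter.unusedSectionVars false

namespace Cfsg.Agent.Lib.MersLin5

open Module Subgroup Cfsg.Agent.Lib.WielandtFix Cfsg.Agent.Lib.SympFix Cfsg.Agent.Lib.WtGroup
  Cfsg.Agent.Lib.SubgroupTools Cfsg.Agent.Lib.Ward Cfsg.Agent.Lib.MersLin1
  Cfsg.Agent.Lib.CoprimeAction Cfsg.Agent.Lib.CoprimeAction2 Cfsg.Agent.Lib.MersLin2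
  Cfsg.Agent.Lib.MersLin3 Cfsg.Agent.Lib.MersLin4
open scoped commutatorElement

universe u v w

variable {q : ℕ} [hq : Fact q.Prime] {M : Type*} [AddCommGroup M] [Module (ZMod q) M] [Finite M]
  {G : Type u} [Group G] [Finite G]

section Dich

variable {ρ : Representation (ZMod q) G M}
  {f : M →ₗ[ZMod q] M →ₗ[ZMod q] ZMod q} {T : Subgroup G} {τ : G} {t : ℕ} {χ : G → ZMod q} {v : M}

theorem dichotomy (E : WtD ρ T τ χ v) (C : Cfg ρ f T τ t) {u : G}
    (hu : u ∈ normalizer ((⁅T, T⁆ : Subgroup G) : Set G)) (huτ : Commute u τ) :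
    u ∈ stab ⁅T, T⁆ χ ∨ ∀ z ∈ ⁅T, T⁆, χ (u⁻¹ * z * u) * χ z = 1 := by
  have hw := isWt_tw ρ E.hv hu
  have hw0 : ρ u v ≠ 0 := ne_zero_of_H E.hv0 (H := ρ) u
  have hwτ : ρ τ (ρ u v) = -(ρ u v) := by
    rw [← mul_act, ← huτ.eq, mul_act, E.hvτ, map_neg]
  by_cases h0 : f v (ρ u v) = 0
  · left
    obtain ⟨c, hc⟩ := C.perp_line E.hvτ E.hv0 hwτ h0
    refine ⟨hu, fun z hz => ?_⟩
    have h1 := hw z hz
    rw [tw_apply] at h1
    have h2 : ρ z (ρ u v) = χ z • ρ u v := by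
      rw [hc, map_smul, E.hv z hz, smul_comm]
    rw [h2] at h1
    have h3 : (χ z - χ (u⁻¹ * z * u)) • ρ u v = 0 := by rw [sub_smul, h1, sub_self]
    exact (sub_eq_zero.1 ((smul_eq_zero.1 h3).resolve_right hw0)).symm
  · right
    intro z hz
    have h1 := C.hfi z v (ρ u v)
    rw [hw z hz, E.hv z hz, tw_apply, map_smul, map_smul, LinearMap.smul_apply, smul_eq_mul,
      smul_eq_mul, ← mul_assoc] at h1
    have h2 : (χ (u⁻¹ * z * u) * χ z - 1) * f v (ρ u v) = 0 := by linear_combination h1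
    exact sub_eq_zero.1 ((mul_eq_zero.1 h2).resolve_right h0)

end Dich

variable {k : Type*} [Field k]

theorem abelian_part (hc : q.Coprime (Nat.card G)) (ρ : Representation (ZMod q) G M)
    (hinj : Function.Injective ρ) {e : M → M → k} (he : IsPairing e)
    (hinv : ∀ g x y, e (ρ g x) (ρ g y) = e x y) (hnd : ∀ x, (∀ y, e x y = 1) → x = 0)
    {T : Subgroup G} {t : ℕ} (ht : t.Prime) (ht2 : t ≠ 2) (hT : IsPGroup t T) {u : G}
    (huT : u ∈ normalizer (T : Set G)) {l : ℕ} (hl2 : 2 ≤ l) (hl : orderOf u = 2 ^ l) {τ : G}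
    (hτu : u ^ 2 ^ (l - 1) = τ)
    (hcod : finrank (ZMod q) M = finrank (ZMod q) (fixed ρ (zpowers τ)) + 2)
    (hTτ : ⁅T, zpowers τ⁆ = T) (hD : ⁅T, T⁆ = ⊥) (hTne : T ≠ ⊥) : False := by
  have htf := Fact.mk ht
  obtain ⟨hτ2, hτ1⟩ := ShultGross.order_pow_prime (σ := u) Nat.prime_two (by omega) hl
  rw [hτu] at hτ2 hτ1
  have hcτ : Nat.card (zpowers τ) = 2 := by
    rw [Nat.card_zpowers]; exact orderOf_eq_prime hτ2 hτ1
  have hcu : Nat.card (zpowers u) = 2 ^ l := by rw [Nat.card_zpowers, hl]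
  have hcopu : (Nat.card (zpowers u)).Coprime (Nat.card T) := by
    obtain ⟨m, hm⟩ := IsPGroup.iff_card.1 hT
    rw [hcu, hm]
    exact Nat.Coprime.pow l m ((Nat.coprime_primes Nat.prime_two ht).2 ht2.symm)
  have hτu' : zpowers τ ≤ zpowers u := by
    rw [← hτu]; exact zpowers_le.2 (pow_mem (mem_zpowers u) _)
  have hcopτ : (Nat.card (zpowers τ)).Coprime (Nat.card T) :=
    hcopu.coprime_dvd_left (card_dvd_of_le hτu')
  have huTn : zpowers u ≤ normalizer (T : Set G) := zpowers_le.2 huT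
  have hab : IsMulCommutative T := isMulCommutative_iff_of_setLike.mpr (by
    intro x hx y hy
    have h1 : ⁅x, y⁆ ∈ ⁅T, T⁆ := commutator_mem_commutator hx hy
    rw [hD, mem_bot] at h1
    exact commutatorElement_eq_one_iff_mul_comm.1 h1)
  have hfixτ : ∀ x ∈ T, τ * x = x * τ → x = 1 := by
    intro x hx hxτ
    have h1 := inf_commutator_eq_bot_of_abelian (A := zpowers τ) (V := T) (hτu'.trans huTn) hcopτ
    rw [hTτ] at h1
    have h2 : x ∈ (T ⊓ centralizer (zpowers τ : Set G)) ⊓ T := by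
      refine ⟨⟨hx, ?_⟩, hx⟩
      change x ∈ centralizer (zpowers τ : Set G)
      rw [mem_centralizer_iff]
      intro g hg
      obtain ⟨i, rfl⟩ := mem_zpowers_iff.1 hg
      have h3 : Commute τ x := hxτ
      exact (h3.zpow_left i).eq
    rwa [h1, mem_bot] at h2
  have hgen : ∀ S : Subgroup G, S ≤ zpowers u → ∀ e ∈ S, e ≠ 1 → ∀ x ∈ T, e * x = x * e → x = 1 := by
    intro S hS e he he1 x hx hex
    have h1 := ShultGross.tau_mem Nat.prime_two (by omega : 0 < l) hl (hS he) he1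
    rw [hτu] at h1
    apply hfixτ x hx
    obtain ⟨i, hi⟩ := mem_zpowers_iff.1 h1
    have h3 : Commute e x := hex
    rw [← hi]
    exact (h3.zpow_left i).eq
  have hconj : ∀ S : Subgroup G, S ≤ zpowers u → ∀ e ∈ S, ∀ x ∈ T, e * x * e⁻¹ ∈ T :=
    fun S hS e he x hx => (mem_normalizer_iff.1 (huTn (hS he)) x).1 hx
  have hint : ∀ S : Subgroup G, S ≤ zpowers u → T ⊓ S = ⊥ := fun S hS =>
    inf_eq_bot_of_coprime' ((hcopu.coprime_dvd_left (card_dvd_of_le hS)).symm)
  have f1 := frob_linear hc ρ T (zpowers τ) (hint _ hτu') (hconj _ hτu') (hgen _ hτu')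
  have f2 := frob_linear hc ρ T (zpowers u) (hint _ le_rfl) (hconj _ le_rfl) (hgen _ le_rfl)
  rw [hcτ] at f1
  rw [hcu] at f2
  obtain ⟨i, hi⟩ := he.even_fixed hc ρ hinv hnd (T ⊔ zpowers u)
  obtain ⟨j, hj⟩ := he.even_fixed hc ρ hinv hnd (zpowers u)
  rw [hi, hj] at f2
  have h3 : finrank (ZMod q) (fixed ρ (T ⊔ zpowers τ)) ≤ finrank (ZMod q) (fixed ρ T) :=
    Submodule.finrank_mono fun v hv g hg => hv g (mem_sup_left hg)
  have h4 : finrank (ZMod q) (fixed ρ T) ≤ finrank (ZMod q) M := Submodule.finrank_le _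
  have h5 : 2 ^ 2 ≤ 2 ^ l := Nat.pow_le_pow_right (by norm_num) hl2
  have h6 : finrank (ZMod q) M ≤ finrank (ZMod q) (fixed ρ T) := by
    rcases le_or_gt j i with hji | hji
    · have := Nat.mul_le_mul_left (2 ^ l) (show j + j ≤ i + i by omega)
      omega
    · have := Nat.mul_le_mul_left (2 ^ l) (show i + i + 2 ≤ j + j by omega)
      rw [mul_add] at this
      omega
  have h7 : fixed ρ T = ⊤ := Submodule.eq_top_of_finrank_eq (le_antisymm h4 h6)
  apply hTne
  rw [eq_bot_iff]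
  intro x hx
  rw [mem_bot]
  apply hinj
  rw [map_one]
  refine LinearMap.ext fun m => ?_
  have h8 : m ∈ fixed ρ T := by rw [h7]; trivial
  exact h8 x hx

theorem commutator_eq_bot (hc : q.Coprime (Nat.card G)) (ρ : Representation (ZMod q) G M)
    (hinj : Function.Injective ρ) {e : M → M → k} (he : IsPairing e)
    (hinv : ∀ g x y, e (ρ g x) (ρ g y) = e x y) (hnd : ∀ x, (∀ y, e x y = 1) → x = 0)
    (T₀ : Subgroup G) {t : ℕ} (ht : t.Prime) (ht2 : t ≠ 2) (hT₀ : IsPGroup t T₀) {u : G}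
    (huT₀ : u ∈ normalizer (T₀ : Set G)) {l : ℕ} (hl2 : 2 ≤ l) (hl : orderOf u = 2 ^ l)
    (hql : q + 1 = 2 ^ l) {τ : G} (hτu : u ^ 2 ^ (l - 1) = τ)
    (hcod : finrank (ZMod q) M = finrank (ZMod q) (fixed ρ (zpowers τ)) + 2) :
    ⁅T₀, zpowers τ⁆ = ⊥ := by
  classical
  have htf := Fact.mk ht
  obtain ⟨hτ2, hτ1⟩ := ShultGross.order_pow_prime (σ := u) Nat.prime_two (by omega) hl
  rw [hτu] at hτ2 hτ1
  have hcτ : Nat.card (zpowers τ) = 2 := by
    rw [Nat.card_zpowers]; exact orderOf_eq_prime hτ2 hτ1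
  have hτu' : zpowers τ ≤ zpowers u := by
    rw [← hτu]; exact zpowers_le.2 (pow_mem (mem_zpowers u) _)
  have hcomm : Commute u τ := by rw [← hτu]; exact (Commute.refl u).pow_right _
  by_contra hne
  obtain ⟨T, hTmin⟩ := (Set.toFinite {T : Subgroup G | T ≤ T₀ ∧ zpowers u ≤ normalizer (T : Set G) ∧
    ⁅T, zpowers τ⁆ ≠ ⊥}).exists_minimal ⟨T₀, le_rfl, zpowers_le.2 huT₀, hne⟩
  obtain ⟨hTT₀, huT, hTne⟩ := hTmin.prop
  have hT : IsPGroup t T := hT₀.to_le hTT₀
  have hTs : Group.IsSolvable T := by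
    have : Group.IsNilpotent T := hT.isNilpotent
    infer_instance
  have hmin : ∀ S : Subgroup G, S < T → zpowers u ≤ normalizer (S : Set G) →
      ⁅S, zpowers τ⁆ = ⊥ := by
    intro S hS huS
    by_contra h
    exact hS.not_ge (hTmin.2 (y := S) ⟨hS.le.trans hTT₀, huS, h⟩ hS.le)
  have hcopτ : (Nat.card (zpowers τ)).Coprime (Nat.card T) := by
    obtain ⟨m, hm⟩ := IsPGroup.iff_card.1 hT
    rw [hcτ, hm]
    exact Nat.Coprime.pow_right m ((Nat.coprime_primes Nat.prime_two ht).2 ht2.symm)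
  have hτT : zpowers τ ≤ normalizer (T : Set G) := hτu'.trans huT
  have hun : zpowers u ≤ normalizer ((zpowers τ : Subgroup G) : Set G) := by
    rw [le_normalizer_iff]
    intro g hg x hx
    obtain ⟨i, rfl⟩ := mem_zpowers_iff.1 hg
    obtain ⟨j, rfl⟩ := mem_zpowers_iff.1 hx
    have h1 : Commute (u ^ i) (τ ^ j) := (hcomm.zpow_left i).zpow_right j
    rw [h1.eq, mul_inv_cancel_right]
    exact hx
  have hTτ : ⁅T, zpowers τ⁆ = T := by
    have hle : ⁅T, zpowers τ⁆ ≤ T := le_normalizer_iff_commutator_le_left.mp hτT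
    by_contra hneq
    have h1 := hmin _ (lt_of_le_of_ne hle hneq) (Lib.H32PSolv.le_normalizer_commutator huT hun)
    exact hTne (commutator_eq_bot_of_commutator_commutator hτT hcopτ (Or.inr hTs) h1)
  have hTne' : T ≠ ⊥ := by
    rintro rfl
    exact hTne (commutator_bot_left _)
  by_cases hD : ⁅T, T⁆ = ⊥
  · exact abelian_part hc ρ hinj he hinv hnd ht ht2 hT (huT (mem_zpowers u)) hl2 hl hτu hcod hTτ hD
      hTne'
  have hDT := comm_le T
  have hnt : Nontrivial T := (nontrivial_iff_ne_bot T).2 hTne'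
  have hDlt : ⁅T, T⁆ < T := by
    have h1 : _root_.commutator T < ⊤ := Group.IsSolvable.commutator_lt_top_of_nontrivial T
    refine lt_of_le_of_ne hDT ?_
    intro h2
    apply h1.ne
    rw [← T.map_subtype_commutator] at h2
    have h3 : (_root_.commutator T).map T.subtype = (⊤ : Subgroup T).map T.subtype := by
      rw [h2, ← MonoidHom.range_eq_map, range_subtype]
    exact Subgroup.map_injective T.subtype_injective h3
  have huD : zpowers u ≤ normalizer ((⁅T, T⁆ : Subgroup G) : Set G) :=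
    Lib.H32PSolv.le_normalizer_commutator huT huT
  have hDτ : zpowers τ ≤ centralizer ((⁅T, T⁆ : Subgroup G) : Set G) := by
    have h1 := hmin _ hDlt huD
    rw [commutator_comm, commutator_eq_bot_iff_le_centralizer] at h1
    exact h1
  have hTD : T ≤ centralizer ((⁅T, T⁆ : Subgroup G) : Set G) := le_centralizer_of_commutator_eq hTτ
      (Lib.H32PSolv.le_normalizer_commutator le_normalizer le_normalizer) hDτ
  obtain ⟨f, hf0, hfe, hf1⟩ := exists_bilin (q := q) he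
  have hq2 : q ≠ 2 := by
    rintro rfl
    have h1 : Even (2 ^ l) := (Nat.even_pow' (by omega)).2 even_two
    rw [← hql] at h1
    exact absurd h1 (by decide)
  have htq : t ≠ q := by
    rintro rfl
    obtain ⟨m, hm⟩ := IsPGroup.iff_card.1 hT
    have hm0 : m ≠ 0 := by
      rintro rfl
      rw [pow_zero] at hm
      exact hTne' (Subgroup.card_eq_one.1 hm)
    have h1 : t ∣ Nat.card G := (dvd_pow_self t hm0).trans (by
      rw [← hm]; exact Subgroup.card_subgroup_dvd_card T)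
    have h2 := Nat.dvd_gcd (dvd_refl t) h1
    rw [hc.gcd_eq_one, Nat.dvd_one] at h2
    exact ht.ne_one h2
  have C : Cfg ρ f T τ t :=
    { hq2 := hq2
      hf0 := hf0
      hfi := fun g x y => hfe _ _ _ _ (hinv g x y)
      hfn := fun x hx => hnd x fun y => hf1 x y (hx y)
      hinj := hinj
      ht := ht
      ht2 := ht2
      htq := htq
      htq1 := by
        rw [hql]
        intro h
        exact ht2 ((Nat.prime_dvd_prime_iff_eq ht Nat.prime_two).1 (ht.dvd_of_dvd_pow h))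
      hT := hT
      hτ := by rw [← pow_two]; exact hτ2
      hTτ := hTτ
      hDne := hD
      hDc := fun z hz y hy => (mem_centralizer_iff.1 (hTD hy) z hz).symm
      hDτ := fun z hz => (mem_centralizer_iff.1 (hDτ (mem_zpowers τ)) z hz).symm
      hN := by
        have h1 := finrank_neg (τ := τ) ρ
        omega }
  obtain ⟨χ, v, hv0, hvτ, hvχ, hnt'⟩ := C.exists_weight
  have E : WtD ρ T τ χ v := ⟨hv0, hvτ, hvχ, hnt'⟩
  obtain ⟨ht3, -⟩ := dim_three E C
  have hCT : T ⊓ centralizer ((zpowers τ : Subgroup G) : Set G) ≤ ⁅T, T⁆ :=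
    FpfPQ3.mem_commutator_of_centralizer hτT hTτ hcopτ
  have hexp : ∀ x ∈ T, x ^ 3 ∈ ⁅T, T⁆ := by
    obtain ⟨h1, h2⟩ := ShultGross.frattini_map hTne' huT
    intro x hx
    have h3 : (frattini T).map T.subtype ≤ ⁅T, T⁆ := by
      have h4 := hmin _ h1 h2
      rw [commutator_eq_bot_iff_le_centralizer] at h4
      exact (le_inf h1.le h4).trans hCT
    rw [← ht3]
    exact h3 ⟨⟨x, hx⟩ ^ t, HBBasic.pow_mem_frattini hT ⟨x, hx⟩, rfl⟩
  have hcopD : (Nat.card (zpowers τ)).Coprime (Nat.card (⁅T, T⁆ : Subgroup G)) :=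
    hcopτ.coprime_dvd_right (card_dvd_of_le hDT)
  have hzp : ∀ g ∈ zpowers τ, g = 1 ∨ g = τ := by
    intro g hg
    by_cases h1 : g = 1
    · exact Or.inl h1
    · right
      have h3 := ((isOfFinOrder_of_finite τ).mem_powers_iff_mem_zpowers).2 hg
      rw [Submonoid.mem_powers_iff] at h3
      obtain ⟨i, rfl⟩ := h3
      rcases Nat.even_or_odd i with ⟨j, rfl⟩ | ⟨j, rfl⟩
      · exfalso
        apply h1
        rw [← two_mul, pow_mul, hτ2, one_pow]
      · rw [pow_succ, pow_mul, hτ2, one_pow, one_mul]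
  have hinvT : ∀ x ∈ T, τ * x * τ⁻¹ * x ∈ ⁅T, T⁆ := by
    intro x hx
    have hx' : τ * x * τ⁻¹ ∈ T := (mem_normalizer_iff.1 (hτT (mem_zpowers τ)) x).1 hx
    obtain ⟨d, hd, hd'⟩ := exists_mul_mem_centralizer (A := zpowers τ) (D := ⁅T, T⁆)
      (hτu'.trans huD) hcopD (Or.inr (isSolvable_of_le hDT hTs)) (τ * x * τ⁻¹ * x) (by
        intro a ha
        rcases hzp a ha with rfl | rfl
        · have h9 : (τ * x * τ⁻¹ * x)⁻¹ * (1 * (τ * x * τ⁻¹ * x) * 1⁻¹) = 1 := by group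
          rw [h9]; exact one_mem _
        · have h8 : a⁻¹ = a := inv_eq_of_mul_eq_one_left C.hτ
          have h9 : (a * x * a⁻¹ * x)⁻¹ * (a * (a * x * a⁻¹ * x) * a⁻¹) =
              ⁅x⁻¹, (a * x * a⁻¹)⁻¹⁆ := by
            rw [commutatorElement_def, inv_inv, inv_inv]
            have e1 : a * (a * x * a⁻¹ * x) * a⁻¹ = (a * a) * x * (a⁻¹ * a⁻¹) * (a * x * a⁻¹) := by
              group
            rw [e1, h8, C.hτ]
            group
          rw [h9]
          exact commutator_mem_commutator (inv_mem hx) (inv_mem hx'))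
    have h1 : τ * x * τ⁻¹ * x * d ∈ ⁅T, T⁆ := by
      apply hCT
      exact ⟨mul_mem (mul_mem hx' hx) (hDT hd), hd'⟩
    have h2 := mul_mem h1 (inv_mem hd)
    rwa [mul_inv_cancel_right] at h2
  have hl3 : 3 ≤ l := by
    by_contra hcon
    have h1 : l = 2 := by omega
    rw [h1] at hql
    apply htq
    omega
  have huT' : u ∈ normalizer (T : Set G) := huT (mem_zpowers u)
  have haT : u ^ 2 ^ (l - 3) ∈ normalizer (T : Set G) := pow_mem huT' _
  have ha4 : (u ^ 2 ^ (l - 3)) ^ 4 = τ := by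
    rw [← hτu, ← pow_mul]
    congr 1
    have : l - 1 = (l - 3) + 2 := by omega
    rw [this, pow_add]
    norm_num
  by_cases ha : u ^ 2 ^ (l - 3) ∈ stab ⁅T, T⁆ χ
  · exact no_order_eight E C hexp hinvT haT ha ha4
  rcases dichotomy E C (huD (mem_zpowers u)) hcomm with hu | hu
  · exact ha (pow_mem hu _)
  have hu2 : u ^ 2 ∈ stab ⁅T, T⁆ χ := by
    refine ⟨pow_mem (huD (mem_zpowers u)) 2, fun z hz => ?_⟩
    have h1 : (u ^ 2)⁻¹ * z * u ^ 2 = u⁻¹ * (u⁻¹ * z * u) * u := by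
      rw [pow_two]; group
    have hz' : u⁻¹ * z * u ∈ ⁅T, T⁆ := conj_mem_of_normalizer (huD (mem_zpowers u)) hz
    have h2 := hu _ hz'
    have h3 := hu z hz
    rw [h1]
    apply mul_right_cancel₀ (E.χne hz')
    rw [h2, mul_comm, h3]
  by_cases hl4 : 4 ≤ l
  · apply ha
    have h1 : u ^ 2 ^ (l - 3) = (u ^ 2) ^ 2 ^ (l - 4) := by
      rw [← pow_mul]
      congr 1
      have : l - 3 = (l - 4) + 1 := by omega
      rw [this, pow_succ']
    rw [h1]
    exact pow_mem hu2 _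
  · have h1 : l = 3 := by omega
    have hu4 : u ^ 4 = τ := by
      rw [← hτu, h1]
      norm_num
    exact no_swap E C hexp hinvT huT' hu4 hu2 hu

end Cfsg.Agent.Lib.MersLin5
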