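import Mathlib

/-!
Sylow 2-subgroups of `PGL(2,q)`, `q` a Mersenne prime, meet pairwise nontrivially (helper17).
-/

set_option autoImplicit false
open scoped Pointwise MatrixGroups

namespace Cfsg.Agent.Lib.MersPGL

open Matrix

variable {q : ℕ} [hqp : Fact q.Prime]

local notation "GG" => GL (Fin 2) (ZMod q)
local notation "MM" => Matrix (Fin 2) (Fin 2) (ZMod q)

theorem exists_scalar_of_mem_center {g : GG} (h : g ∈ Subgroup.center GG) :
    ∃ c : ZMod q, (g : MM) = c • (1 : MM) := by
  obtain ⟨c, hc⟩ := Matrix.GeneralLinearGroup.mem_center_iff_val_mem_range_scalar.1 h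
  refine ⟨c, ?_⟩
  rw [← hc, Matrix.scalar_apply, Matrix.smul_one_eq_diagonal]

theorem mem_center_of_scalar {g : GG} {c : ZMod q} (h : (g : MM) = c • (1 : MM)) :
    g ∈ Subgroup.center GG := by
  refine Matrix.GeneralLinearGroup.mem_center_iff_val_mem_range_scalar.2 ⟨c, ?_⟩
  rw [h, Matrix.scalar_apply, Matrix.smul_one_eq_diagonal]

/-- No matrix with `B² = -1` has an eigenvector. -/
theorem no_eig (hns : ¬ IsSquare (-1 : ZMod q)) {B : MM} (hB : B * B = -1) {w : Fin 2 → ZMod q} (hw : w ≠ 0)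
    (l : ZMod q) : B *ᵥ w ≠ l • w := by
  intro h
  apply hns
  have h1 : B *ᵥ (B *ᵥ w) = -w := by rw [mulVec_mulVec, hB, neg_mulVec, one_mulVec]
  rw [h, mulVec_smul, h, smul_smul] at h1
  obtain ⟨i, hi⟩ : ∃ i, w i ≠ 0 := by
    by_contra hc
    push Not at hc
    exact hw (funext hc)
  have h2 := congrFun h1 i
  simp only [Pi.smul_apply, smul_eq_mul, Pi.neg_apply] at h2
  refine ⟨l, ?_⟩
  apply mul_right_cancel₀ hi
  rw [h2]; ring

/-- If `C B = - B C`, `B² = -1` and `C ≠ 0` then `det C ≠ 0`. -/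
theorem det_ne_zero (hns : ¬ IsSquare (-1 : ZMod q)) {B C : MM} (hB : B * B = -1)
    (hC : C * B = -(B * C)) (hC0 : C ≠ 0) : C.det ≠ 0 := by
  intro hdet
  obtain ⟨w, hw, hCw⟩ := Matrix.exists_mulVec_eq_zero_iff.2 hdet
  have h1 : C *ᵥ (B *ᵥ w) = 0 := by
    rw [mulVec_mulVec, hC, neg_mulVec, ← mulVec_mulVec, hCw, mulVec_zero, neg_zero]
  set v := B *ᵥ w with hv
  by_cases hδ : w 0 * v 1 - w 1 * v 0 = 0
  · -- `v` is a multiple of `w`
    by_cases hw0 : w 0 = 0
    · have hw1 : w 1 ≠ 0 := by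
        intro hw1
        apply hw
        funext i
        fin_cases i
        · exact hw0
        · exact hw1
      refine no_eig hns hB hw (v 1 / w 1) ?_
      rw [← hv]
      funext i
      fin_cases i
      · change v 0 = v 1 / w 1 * w 0
        rw [hw0, mul_zero]
        rw [hw0, zero_mul, zero_sub, neg_eq_zero] at hδ
        exact (mul_eq_zero.1 hδ).resolve_left hw1
      · change v 1 = v 1 / w 1 * w 1
        field_simp
    · refine no_eig hns hB hw (v 0 / w 0) ?_
      rw [← hv]
      funext i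
      fin_cases i
      · change v 0 = v 0 / w 0 * w 0
        field_simp
      · change v 1 = v 0 / w 0 * w 1
        field_simp
        linear_combination hδ
  · apply hC0
    have e0 : ∀ i, C i 0 * w 0 + C i 1 * w 1 = 0 := by
      intro i
      have := congrFun hCw i
      simpa [mulVec, dotProduct, Fin.sum_univ_two] using this
    have e1 : ∀ i, C i 0 * v 0 + C i 1 * v 1 = 0 := by
      intro i
      have := congrFun h1 i
      simpa [mulVec, dotProduct, Fin.sum_univ_two] using this
    ext i j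
    have f0 : C i 0 = 0 := by
      apply (mul_eq_zero.1 (show C i 0 * (w 0 * v 1 - w 1 * v 0) = 0 by
        linear_combination (v 1) * e0 i - (w 1) * e1 i)).resolve_right hδ
    have f1 : C i 1 = 0 := by
      apply (mul_eq_zero.1 (show C i 1 * (w 0 * v 1 - w 1 * v 0) = 0 by
        linear_combination (w 0) * e1 i - (v 0) * e0 i)).resolve_right hδ
    fin_cases j
    · exact f0
    · exact f1

/-- commuting in `PGL` means commuting up to sign -/
theorem comm_iff {B g : GG} (hB : (B : MM) * B = -1) :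
    (QuotientGroup.mk g : GG ⧸ Subgroup.center GG) * QuotientGroup.mk B = QuotientGroup.mk B * QuotientGroup.mk g ↔
      ((g : MM) * B = B * g ∨ (g : MM) * B = -((B : MM) * g)) := by
  constructor
  · intro h
    rw [← QuotientGroup.mk_mul, ← QuotientGroup.mk_mul, eq_comm, QuotientGroup.eq] at h
    obtain ⟨c, hc⟩ := exists_scalar_of_mem_center h
    have h1 : (g : MM) * B = c • ((B : MM) * g) := by
      have h2 : (((B * g) * ((B * g)⁻¹ * (g * B)) : GG) : MM) = ((g * B : GG) : MM) := by
        rw [mul_inv_cancel_left]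
      rw [Units.val_mul, hc, mul_smul_comm, mul_one, Units.val_mul, Units.val_mul] at h2
      exact h2.symm
    have h3 : c * c = 1 := by
      have h4 : (g : MM) * (B * B) = (c * c) • ((B : MM) * B * g) := by
        rw [← mul_assoc, h1, smul_mul_assoc, mul_assoc (B : MM) (g : MM) (B : MM), h1, mul_smul_comm, smul_smul,
          mul_assoc]
      rw [hB] at h4
      have h5 : (g : MM) = (c * c) • (g : MM) := by
        have : -(g : MM) = -((c * c) • (g : MM)) := by
          simpa using h4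
        exact neg_injective this
      have h6 := congrArg (fun X : MM => X * ((g⁻¹ : GG) : MM)) h5
      simp only [smul_mul_assoc] at h6
      rw [← Units.val_mul, mul_inv_cancel, Units.val_one] at h6
      have h7 := congrFun (congrFun h6 0) 0
      simpa using h7.symm
    rcases mul_self_eq_one_iff.1 h3 with rfl | rfl
    · left; rw [h1, one_smul]
    · right; rw [h1, neg_smul, one_smul]
  · rintro (h | h)
    · rw [← QuotientGroup.mk_mul, ← QuotientGroup.mk_mul]
      congr 1
      exact Units.ext h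
    · rw [← QuotientGroup.mk_mul, ← QuotientGroup.mk_mul, eq_comm, QuotientGroup.eq]
      apply mem_center_of_scalar (c := -1)
      rw [neg_smul, one_smul]
      have h2 : g * B = -(B * g) := Units.ext (by rw [Units.val_neg]; exact h)
      rw [h2, mul_neg, inv_mul_cancel, Units.val_neg, Units.val_one]

theorem not_square {k : ℕ} (hk : q + 1 = 2 ^ k) (hq : 7 ≤ q) : ¬ IsSquare (-1 : ZMod q) := by
  rw [ZMod.exists_sq_eq_neg_one_iff, not_not]
  have hk3 : 3 ≤ k := by
    by_contra h
    have : k ≤ 2 := by omega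
    have h2 : 2 ^ k ≤ 2 ^ 2 := Nat.pow_le_pow_right (by norm_num) this
    omega
  obtain ⟨j, rfl⟩ := Nat.exists_eq_add_of_le hk3
  rw [pow_add] at hk
  omega

theorem entries (hns : ¬ IsSquare (-1 : ZMod q)) {B : MM} (hB : B * B = -1) :
    B 0 1 ≠ 0 ∧ B 1 1 = -B 0 0 ∧ B 0 0 * B 0 0 + B 0 1 * B 1 0 = -1 := by
  have h00 := congrFun (congrFun hB 0) 0
  have h01 := congrFun (congrFun hB 0) 1
  simp only [Matrix.mul_apply, Fin.sum_univ_two, Matrix.neg_apply, Matrix.one_apply_eq] at h00
  simp only [Matrix.mul_apply, Fin.sum_univ_two, Matrix.neg_apply, Matrix.one_apply, Fin.zero_eq_one_iff,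
    if_false, neg_zero, OfNat.ofNat_ne_one] at h01
  have h1 : B 0 1 ≠ 0 := by
    intro h
    rw [h, zero_mul, add_zero] at h00
    exact hns ⟨B 0 0, h00.symm⟩
  refine ⟨h1, ?_, h00⟩
  have h2 : B 0 1 * (B 0 0 + B 1 1) = 0 := by linear_combination h01
  have h3 := (mul_eq_zero.1 h2).resolve_left h1
  linear_combination h3

theorem eq_add_smul (hns : ¬ IsSquare (-1 : ZMod q)) {B g : MM} (hB : B * B = -1) (h : g * B = B * g) :
    ∃ a b : ZMod q, g = a • (1 : MM) + b • B := by
  obtain ⟨h1, h2, h3⟩ := entries hns hB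
  have e00 := congrFun (congrFun h 0) 0
  have e01 := congrFun (congrFun h 0) 1
  simp only [Matrix.mul_apply, Fin.sum_univ_two] at e00 e01
  rw [h2] at e01
  refine ⟨g 0 0 - g 0 1 / B 0 1 * B 0 0, g 0 1 / B 0 1, ?_⟩
  ext i j
  fin_cases i <;> fin_cases j
  · simp
  · simp [h1]
  · simp
    field_simp
    linear_combination -e00
  · simp [h2]
    field_simp
    linear_combination -e01

theorem pow_scalar {k : ℕ} (hk : q + 1 = 2 ^ k) (hq : 7 ≤ q) {B g : GG} (hB : (B : MM) * B = -1)
    (h : (g : MM) * B = B * g) : (QuotientGroup.mk g : GG ⧸ Subgroup.center GG) ^ (2 ^ k) = 1 := by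
  have hns := not_square hk hq
  obtain ⟨a, b, hab⟩ := eq_add_smul hns hB h
  have hodd : Odd ((q - 1) / 2) := by
    have hk3 : 3 ≤ k := by
      by_contra h
      have : k ≤ 2 := by omega
      have h2 : 2 ^ k ≤ 2 ^ 2 := Nat.pow_le_pow_right (by norm_num) this
      omega
    obtain ⟨j, rfl⟩ := Nat.exists_eq_add_of_le hk3
    rw [pow_add] at hk
    rw [Nat.odd_iff]
    omega
  have hBq : (B : MM) ^ q = -B := by
    have h1 : q = 2 * ((q - 1) / 2) + 1 := by
      have := (Nat.Prime.eq_two_or_odd' hqp.out).resolve_left (by omega)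
      obtain ⟨m, hm⟩ := this
      omega
    have h1' : (B : MM) ^ q = (B : MM) ^ (2 * ((q - 1) / 2) + 1) := congrArg (fun n => (B : MM) ^ n) h1
    rw [h1', pow_succ, pow_mul, pow_two, hB, hodd.neg_one_pow, neg_one_mul]
  have hcomm : Commute (a • (1 : MM)) (b • (B : MM)) := by
    apply Commute.smul_left
    exact (Commute.one_left _)
  have hgq : (g : MM) ^ q = a • (1 : MM) - b • (B : MM) := by
    rw [hab, add_pow_char_of_commute q hcomm, smul_pow, smul_pow, one_pow, ZMod.pow_card, ZMod.pow_card, hBq, smul_neg,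
      sub_eq_add_neg]
  have hg : (g : MM) ^ (q + 1) = (a * a + b * b) • (1 : MM) := by
    rw [pow_succ, hgq]
    nth_rewrite 1 [hab]
    rw [sub_mul, mul_add, mul_add, smul_mul_smul_comm, smul_mul_smul_comm, smul_mul_smul_comm, smul_mul_smul_comm, hB,
      one_mul, one_mul, mul_one, add_smul, mul_comm b a]
    simp only [smul_neg]
    abel
  rw [← QuotientGroup.mk_pow, ← hk, QuotientGroup.eq_one_iff]
  apply mem_center_of_scalar (c := a * a + b * b)
  rw [Units.val_pow_eq_pow_val, hg]

theorem isPGroup_centralizer {k : ℕ} (hk : q + 1 = 2 ^ k) (hq : 7 ≤ q) {B : GG} (hB : (B : MM) * B = -1) :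
    IsPGroup 2 (Subgroup.centralizer ({(QuotientGroup.mk B : GG ⧸ Subgroup.center GG)} : Set _)) := by
  rintro ⟨x, hx⟩
  refine ⟨k + 1, ?_⟩
  apply Subtype.ext
  change x ^ (2 ^ (k + 1)) = 1
  obtain ⟨g, rfl⟩ := QuotientGroup.mk_surjective x
  have h1 := (comm_iff hB).1 (Subgroup.mem_centralizer_singleton_iff.1 hx)
  have h2 : ((g * g : GG) : MM) * B = B * (g * g : GG) := by
    rw [Units.val_mul]
    rcases h1 with h | h
    · rw [mul_assoc, h, ← mul_assoc, h, mul_assoc]
    · rw [mul_assoc, h, mul_neg, ← mul_assoc, h, neg_mul, neg_neg, mul_assoc]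
  have h3 := pow_scalar hk hq hB h2
  rw [pow_succ', pow_mul, pow_two, ← QuotientGroup.mk_mul]
  exact h3

section Count

open Classical in
/-- all `B` with `B² = -1` -/
noncomputable def SS (q : ℕ) [Fact q.Prime] : Finset (GL (Fin 2) (ZMod q)) :=
  Finset.univ.filter (fun B => (B : Matrix (Fin 2) (Fin 2) (ZMod q)) * B = -1)

theorem mem_SS {B : GG} : B ∈ SS q ↔ (B : MM) * B = -1 := by
  classical
  simp [SS]

def mB (a b : ZMod q) : Matrix (Fin 2) (Fin 2) (ZMod q) := !![a, b; -(1 + a * a) / b, -a]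

theorem mB_sq (a : ZMod q) {b : ZMod q} (hb : b ≠ 0) : mB a b * mB a b = -1 := by
  ext i j
  fin_cases i <;> fin_cases j
  · simp [mB, Matrix.mul_apply, Fin.sum_univ_two]
    field_simp
    ring
  · simp [mB, Matrix.mul_apply, Fin.sum_univ_two]
    ring
  · simp [mB, Matrix.mul_apply, Fin.sum_univ_two]
    ring
  · simp [mB, Matrix.mul_apply, Fin.sum_univ_two]
    field_simp
    ring

def gB (p : ZMod q × (ZMod q)ˣ) : GL (Fin 2) (ZMod q) :=
  ⟨mB p.1 p.2, -mB p.1 p.2, by rw [mul_neg, mB_sq _ p.2.ne_zero, neg_neg],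
    by rw [neg_mul, mB_sq _ p.2.ne_zero, neg_neg]⟩

theorem card_SS (hns : ¬ IsSquare (-1 : ZMod q)) : (SS q).card = q * (q - 1) := by
  classical
  have h : SS q = Finset.univ.image (gB (q := q)) := by
    ext B
    rw [mem_SS, Finset.mem_image]
    constructor
    · intro hB
      obtain ⟨h1, h2, h3⟩ := entries hns hB
      refine ⟨((B : MM) 0 0, Units.mk0 ((B : MM) 0 1) h1), Finset.mem_univ _, ?_⟩
      apply Units.ext
      change mB ((B : MM) 0 0) ((B : MM) 0 1) = (B : MM)
      ext i j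
      fin_cases i <;> fin_cases j
      · rfl
      · rfl
      · change -(1 + (B : MM) 0 0 * (B : MM) 0 0) / (B : MM) 0 1 = (B : MM) 1 0
        field_simp
        linear_combination -h3
      · exact h2.symm
    · rintro ⟨p, -, rfl⟩
      exact mB_sq _ p.2.ne_zero
  rw [h, Finset.card_image_of_injective, Finset.card_univ, Fintype.card_prod, ZMod.card, ZMod.card_units]
  rintro ⟨a, b⟩ ⟨a', b'⟩ h
  have h1 := congrArg (fun g : GG => (g : MM) 0 0) h
  have h2 := congrArg (fun g : GG => (g : MM) 0 1) h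
  exact Prod.ext h1 (Units.ext h2)

open Classical in
noncomputable def OM (q : ℕ) [Fact q.Prime] :
    Finset (GL (Fin 2) (ZMod q) ⧸ Subgroup.center (GL (Fin 2) (ZMod q))) :=
  (SS q).image (fun B => (QuotientGroup.mk B))

theorem mem_OM {z : GG ⧸ Subgroup.center GG} : z ∈ OM q ↔ ∃ B : GG, (B : MM) * B = -1 ∧ QuotientGroup.mk B = z := by
  classical
  simp [OM, mem_SS]

theorem card_OM (hq : 7 ≤ q) (hns : ¬ IsSquare (-1 : ZMod q)) : q * (q - 1) = (OM q).card * 2 := by
  classical
  rw [← card_SS hns]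
  rw [Finset.card_eq_sum_card_fiberwise (t := OM q) (f := fun B => (QuotientGroup.mk B : GG ⧸ Subgroup.center GG))]
  · rw [Finset.sum_const_nat (m := 2)]
    intro z hz
    obtain ⟨B, hB, rfl⟩ := mem_OM.1 hz
    have h1 : (SS q).filter (fun B' => (QuotientGroup.mk B' : GG ⧸ Subgroup.center GG) = QuotientGroup.mk B) = {B, -B} := by
      ext B'
      simp only [Finset.mem_filter, mem_SS, Finset.mem_insert, Finset.mem_singleton]
      constructor
      · rintro ⟨hB', h⟩
        rw [eq_comm, QuotientGroup.eq] at h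
        obtain ⟨c, hc⟩ := exists_scalar_of_mem_center h
        have h2 : (B' : MM) = c • (B : MM) := by
          have h3 : ((B * (B⁻¹ * B') : GG) : MM) = B' := by rw [mul_inv_cancel_left]
          rw [Units.val_mul, hc, mul_smul_comm, mul_one] at h3
          exact h3.symm
        have h4 : c * c = 1 := by
          rw [h2, smul_mul_smul_comm, hB] at hB'
          have := congrFun (congrFun hB' 0) 0
          simpa using this
        rcases mul_self_eq_one_iff.1 h4 with rfl | rfl
        · left; exact Units.ext (by rw [h2, one_smul])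
        · right; exact Units.ext (by rw [h2, neg_smul, one_smul, Units.val_neg])
      · rintro (rfl | rfl)
        · exact ⟨hB, rfl⟩
        · refine ⟨by rw [Units.val_neg, neg_mul_neg, hB], ?_⟩
          rw [eq_comm, QuotientGroup.eq]
          apply mem_center_of_scalar (c := -1)
          rw [mul_neg, inv_mul_cancel, Units.val_neg, Units.val_one, neg_smul, one_smul]
    rw [h1]
    apply Finset.card_pair
    intro h
    have h2 := congrArg (fun g : GG => (g : MM) 0 1) h
    simp only [Units.val_neg, Matrix.neg_apply] at h2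
    have h3 := (entries hns hB).1
    apply h3
    have h4 : (2 : ZMod q) * (B : MM) 0 1 = 0 := by linear_combination h2
    refine (mul_eq_zero.1 h4).resolve_left ?_
    intro h5
    have h6 : ((2 : ℕ) : ZMod q) = 0 := by exact_mod_cast h5
    rw [ZMod.natCast_eq_zero_iff] at h6
    exact absurd (Nat.le_of_dvd (by norm_num) h6) (by omega)
  · intro B hB
    exact mem_OM.2 ⟨B, mem_SS.1 hB, rfl⟩

/-- conjugation action on `OM` -/
@[reducible] noncomputable def act (P : Subgroup (GG ⧸ Subgroup.center GG)) : MulAction P {z // z ∈ OM q} where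
  smul g z := ⟨g * z * (g : GG ⧸ Subgroup.center GG)⁻¹, by
    obtain ⟨B, hB, h⟩ := mem_OM.1 z.2
    obtain ⟨γ, hγ⟩ := QuotientGroup.mk_surjective (g : GG ⧸ Subgroup.center GG)
    refine mem_OM.2 ⟨γ * B * γ⁻¹, ?_, ?_⟩
    · have h1 : (γ * B * γ⁻¹) * (γ * B * γ⁻¹) = -1 := by
        have h2 : B * B = -1 := Units.ext (by rw [Units.val_mul, hB, Units.val_neg, Units.val_one])
        calc (γ * B * γ⁻¹) * (γ * B * γ⁻¹) = γ * (B * B) * γ⁻¹ := by group
          _ = -1 := by rw [h2, mul_neg, mul_one, neg_mul, mul_inv_cancel]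
      have h3 := congrArg Units.val h1
      rw [Units.val_mul, Units.val_neg, Units.val_one] at h3
      exact h3
    · rw [← hγ, ← h]; rfl⟩
  one_smul z := Subtype.ext (by
    change ((1 : P) : GG ⧸ Subgroup.center GG) * z * ((1 : P) : GG ⧸ Subgroup.center GG)⁻¹ = z
    simp)
  mul_smul a b z := Subtype.ext (by
    change ((a * b : P) : GG ⧸ Subgroup.center GG) * z * ((a * b : P) : GG ⧸ Subgroup.center GG)⁻¹ =
      a * (b * z * (b : GG ⧸ Subgroup.center GG)⁻¹) * (a : GG ⧸ Subgroup.center GG)⁻¹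
    rw [Subgroup.coe_mul]
    group)

theorem sylow_eq {k : ℕ} (hk : q + 1 = 2 ^ k) (hq : 7 ≤ q) (P : Sylow 2 (GG ⧸ Subgroup.center GG)) :
    ∃ B : GG, (B : MM) * B = -1 ∧
      (P : Subgroup (GG ⧸ Subgroup.center GG)) = Subgroup.centralizer {(QuotientGroup.mk B : GG ⧸ Subgroup.center GG)} := by
  classical
  have hns := not_square hk hq
  have : Fact (Nat.Prime 2) := ⟨Nat.prime_two⟩
  let _ := act (q := q) (P : Subgroup (GG ⧸ Subgroup.center GG))
  have h1 := P.2.card_modEq_card_fixedPoints {z // z ∈ OM q}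
  have hodd : Odd (Nat.card {z // z ∈ OM q}) := by
    rw [Nat.card_eq_fintype_card, Fintype.card_coe]
    have h2 := card_OM hq hns
    have hk3 : 3 ≤ k := by
      by_contra h
      have : k ≤ 2 := by omega
      have h2 : 2 ^ k ≤ 2 ^ 2 := Nat.pow_le_pow_right (by norm_num) this
      omega
    obtain ⟨j, rfl⟩ := Nat.exists_eq_add_of_le hk3
    rw [pow_add] at hk
    have h3 : q - 1 = 2 * (4 * 2 ^ j - 1) := by omega
    rw [h3] at h2
    have h4 : (OM q).card = q * (4 * 2 ^ j - 1) := by
      have : q * (2 * (4 * 2 ^ j - 1)) = q * (4 * 2 ^ j - 1) * 2 := by ring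
      omega
    rw [h4]
    apply Odd.mul
    · rw [Nat.odd_iff]; omega
    · rw [Nat.odd_iff]
      have := Nat.two_pow_pos j
      omega
  have hne : (MulAction.fixedPoints (P : Subgroup (GG ⧸ Subgroup.center GG)) {z // z ∈ OM q}).Nonempty := by
    by_contra h
    rw [Set.not_nonempty_iff_eq_empty] at h
    rw [h] at h1
    have h2 : Nat.card (∅ : Set {z // z ∈ OM q}) = 0 := by simp
    rw [h2] at h1
    have h3 := Nat.odd_iff.1 hodd
    have h4 : Nat.card {z // z ∈ OM q} % 2 = 0 % 2 := h1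
    omega
  obtain ⟨z, hz⟩ := hne
  obtain ⟨B, hB, hBz⟩ := mem_OM.1 z.2
  refine ⟨B, hB, ?_⟩
  have h5 : (P : Subgroup (GG ⧸ Subgroup.center GG)) ≤
      Subgroup.centralizer {(QuotientGroup.mk B : GG ⧸ Subgroup.center GG)} := by
    intro g hg
    have h6 : g * (z : GG ⧸ Subgroup.center GG) * g⁻¹ = z := congrArg Subtype.val (hz ⟨g, hg⟩)
    rw [Subgroup.mem_centralizer_singleton_iff, hBz]
    exact mul_inv_eq_iff_eq_mul.1 h6
  exact (P.is_maximal' (isPGroup_centralizer hk hq hB) h5).symm

theorem main {k : ℕ} (hk : q + 1 = 2 ^ k) (hq : 7 ≤ q) (P P' : Sylow 2 (GG ⧸ Subgroup.center GG)) :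
    (P : Subgroup (GG ⧸ Subgroup.center GG)) ⊓ (P' : Subgroup (GG ⧸ Subgroup.center GG)) ≠ ⊥ := by
  have hns := not_square hk hq
  obtain ⟨B, hB, hP⟩ := sylow_eq hk hq P
  obtain ⟨B', hB', hP'⟩ := sylow_eq hk hq P'
  have h2 : (2 : ZMod q) ≠ 0 := by
    intro h5
    have h6 : ((2 : ℕ) : ZMod q) = 0 := by exact_mod_cast h5
    rw [ZMod.natCast_eq_zero_iff] at h6
    exact absurd (Nat.le_of_dvd (by norm_num) h6) (by omega)
  suffices h : ∃ D : GG, (QuotientGroup.mk D : GG ⧸ Subgroup.center GG) ≠ 1 ∧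
      ((D : MM) * B = B * D ∨ (D : MM) * B = -((B : MM) * D)) ∧
      ((D : MM) * B' = B' * D ∨ (D : MM) * B' = -((B' : MM) * D)) by
    obtain ⟨D, hD1, hD2, hD3⟩ := h
    intro hbot
    apply hD1
    rw [← Subgroup.mem_bot, ← hbot, Subgroup.mem_inf, hP, hP', Subgroup.mem_centralizer_singleton_iff,
      Subgroup.mem_centralizer_singleton_iff]
    exact ⟨(comm_iff hB).2 hD2, (comm_iff hB').2 hD3⟩
  by_cases hC : (B : MM) * B' - B' * B = 0
  · refine ⟨B, ?_, Or.inl rfl, Or.inl (sub_eq_zero.1 hC)⟩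
    intro h
    rw [QuotientGroup.eq_one_iff] at h
    obtain ⟨c, hc⟩ := exists_scalar_of_mem_center h
    have h3 := (entries hns hB).1
    rw [hc] at h3
    simp at h3
  · have hCB : ((B : MM) * B' - B' * B) * B = -((B : MM) * ((B : MM) * B' - B' * B)) := by
      rw [sub_mul, mul_sub, mul_assoc (B' : MM), hB, ← mul_assoc (B : MM) (B : MM) (B' : MM), hB]
      rw [mul_neg, mul_one, neg_mul, one_mul, mul_assoc]
      abel
    have hCB' : ((B : MM) * B' - B' * B) * B' = -((B' : MM) * ((B : MM) * B' - B' * B)) := by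
      rw [sub_mul, mul_sub, mul_assoc (B : MM), hB', ← mul_assoc (B' : MM) (B' : MM) (B : MM), hB']
      rw [mul_neg, mul_one, neg_mul, one_mul, mul_assoc]
      abel
    have hdet := det_ne_zero hns hB hCB hC
    let D : GG := Matrix.GeneralLinearGroup.mkOfDetNeZero _ hdet
    refine ⟨D, ?_, Or.inr hCB, Or.inr hCB'⟩
    intro h
    rw [QuotientGroup.eq_one_iff] at h
    obtain ⟨c, hc⟩ := exists_scalar_of_mem_center h
    have hc' : (B : MM) * B' - B' * B = c • (1 : MM) := hc
    rw [hc', smul_mul_assoc, one_mul, mul_smul_comm, mul_one] at hCB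
    have h3 := congrFun (congrFun hCB 0) 1
    simp only [Matrix.smul_apply, smul_eq_mul, Matrix.neg_apply] at h3
    have h4 : (2 : ZMod q) * (c * (B : MM) 0 1) = 0 := by linear_combination h3
    have h5 := (mul_eq_zero.1 h4).resolve_left h2
    have h6 := (mul_eq_zero.1 h5).resolve_right (entries hns hB).1
    apply hC
    rw [hc', h6, zero_smul]

end Count

end Cfsg.Agent.Lib.MersPGL
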