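import Mathlib
import Cfsg.Agent.Lib.H64Metacyclic

/-!
# Metacyclic `p`-groups, `p` odd: symplectic coordinates modulo the center (helper65)

For a metacyclic `p`-group `G` (`p` odd) with `|G'| = p ^ n` there is a surjective map
`F : G → (ZMod (p ^ n))²` with `F (g h) = F g + χ g • F h` such that two elements commute if and only
if the determinant of their coordinates vanishes.
-/

set_option autoImplicit false

namespace Cfsg.Agent.Lib.MetaOdd

open Subgroup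

/-- the geometric sum `1 + k + ⋯ + k^(t-1)` -/
def phi (k t : ℕ) : ℕ := ∑ s ∈ Finset.range t, k ^ s

theorem phi_zero (k : ℕ) : phi k 0 = 0 := rfl

theorem phi_one (k : ℕ) : phi k 1 = 1 := by simp [phi]

theorem phi_succ (k t : ℕ) : phi k (t + 1) = phi k t + k ^ t := Finset.sum_range_succ _ _

theorem phi_add (k s t : ℕ) : phi k (s + t) = phi k s + k ^ s * phi k t := by
  induction t with
  | zero => simp [phi_zero]
  | succ t ih => rw [← add_assoc, phi_succ, ih, phi_succ]; ring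

theorem phi_pow {k : ℕ} (hk : 1 ≤ k) (t : ℕ) : (k - 1) * phi k t + 1 = k ^ t := by
  obtain ⟨m, rfl⟩ := Nat.exists_eq_add_of_le hk
  rw [Nat.add_sub_cancel_left]
  induction t with
  | zero => simp [phi_zero]
  | succ t ih => rw [phi_succ, pow_succ, ← ih]; ring

theorem phi_pos {k t : ℕ} (hk : 1 ≤ k) (ht : t ≠ 0) : phi k t ≠ 0 := by
  obtain ⟨s, rfl⟩ := Nat.exists_eq_succ_of_ne_zero ht
  rw [phi_succ]
  have : 0 < k ^ s := by positivity
  omega

theorem not_dvd_of_dvd_sub {p k : ℕ} (hp : p.Prime) (hk : 1 ≤ k) (hkp : p ∣ k - 1) : ¬ p ∣ k := by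
  intro h
  have : p ∣ k - (k - 1) := Nat.dvd_sub h hkp
  rw [Nat.sub_sub_self hk, Nat.dvd_one] at this
  exact hp.one_lt.ne' this

theorem padicValNat_phi {p k t : ℕ} [hp : Fact p.Prime] (hp2 : p ≠ 2) (hk : 1 ≤ k) (hkp : p ∣ k - 1)
    (ht : t ≠ 0) : padicValNat p (phi k t) = padicValNat p t := by
  rcases Nat.eq_or_lt_of_le hk with h | h
  · subst h
    simp [phi]
  · have h1 := padicValNat.pow_sub_pow (hp.out.odd_of_ne_two hp2) (x := k) (y := 1) h hkp
      (not_dvd_of_dvd_sub hp.out hk hkp) ht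
    rw [one_pow, ← phi_pow hk t, Nat.add_sub_cancel, padicValNat.mul (by omega) (phi_pos hk ht)] at h1
    omega

theorem dvd_phi_iff {p k t n : ℕ} [hp : Fact p.Prime] (hp2 : p ≠ 2) (hk : 1 ≤ k) (hkp : p ∣ k - 1) :
    p ^ n ∣ phi k t ↔ p ^ n ∣ t := by
  rcases Nat.eq_zero_or_pos t with rfl | ht
  · simp [phi_zero]
  · rw [padicValNat_dvd_iff_le (phi_pos hk ht.ne'), padicValNat_dvd_iff_le ht.ne',
      padicValNat_phi hp2 hk hkp ht.ne']

theorem phi_cast_eq {p k s t n : ℕ} [hp : Fact p.Prime] (hp2 : p ≠ 2) (hk : 1 ≤ k) (hkp : p ∣ k - 1)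
    (h : (phi k s : ZMod (p ^ n)) = phi k t) : (s : ZMod (p ^ n)) = t := by
  wlog hst : s ≤ t generalizing s t
  · exact (this h.symm (by omega)).symm
  obtain ⟨d, rfl⟩ := Nat.exists_eq_add_of_le hst
  rw [phi_add] at h
  push_cast at h
  have h1 : ((k ^ s * phi k d : ℕ) : ZMod (p ^ n)) = 0 := by push_cast; linear_combination -h
  rw [ZMod.natCast_eq_zero_iff] at h1
  have hcop : Nat.Coprime (p ^ n) (k ^ s) :=
    (Nat.Coprime.pow _ _ ((hp.out.coprime_iff_not_dvd).2 (not_dvd_of_dvd_sub hp.out hk hkp)))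
  have h2 := hcop.dvd_of_dvd_mul_left h1
  rw [dvd_phi_iff hp2 hk hkp, ← ZMod.natCast_eq_zero_iff] at h2
  push_cast
  rw [h2, add_zero]

theorem phi_surj {p k n : ℕ} [hp : Fact p.Prime] (hp2 : p ≠ 2) (hk : 1 ≤ k) (hkp : p ∣ k - 1)
    (c : ZMod (p ^ n)) : ∃ t : ℕ, (phi k t : ZMod (p ^ n)) = c := by
  have : NeZero (p ^ n) := ⟨pow_ne_zero _ hp.out.ne_zero⟩
  have hinj : Function.Injective (fun x : ZMod (p ^ n) => (phi k x.val : ZMod (p ^ n))) := by
    intro x y hxy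
    have := phi_cast_eq hp2 hk hkp hxy
    rwa [ZMod.natCast_zmod_val, ZMod.natCast_zmod_val] at this
  obtain ⟨x, hx⟩ := Finite.surjective_of_injective hinj c
  exact ⟨x.val, hx⟩

/-- the data of a metacyclic `p`-group -/
structure MData {G : Type*} [Group G] (p n : ℕ) (a b : G) (k : ℕ) : Prop where
  hk : 1 ≤ k
  hkp : p ∣ k - 1
  conj : b * a * b⁻¹ = a ^ k
  gen : ∀ g : G, ∃ i j : ℕ, g = a ^ i * b ^ j
  ord : orderOf (a ^ (k - 1)) = p ^ n

/-- determinant -/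
def det {q : ℕ} (v w : ZMod q × ZMod q) : ZMod q := v.1 * w.2 - v.2 * w.1

namespace MData

variable {G : Type*} [Group G] {p n : ℕ} {a b : G} {k : ℕ}

theorem pow_conj (h : MData p n a b k) (i j : ℕ) : b ^ j * a ^ i = a ^ (i * k ^ j) * b ^ j := by
  have h1 : ∀ j : ℕ, b ^ j * a * (b ^ j)⁻¹ = a ^ (k ^ j) := by
    intro j
    induction j with
    | zero => simp
    | succ j ih =>
      calc b ^ (j + 1) * a * (b ^ (j + 1))⁻¹ = b * (b ^ j * a * (b ^ j)⁻¹) * b⁻¹ := by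
            rw [pow_succ']; group
        _ = (b * a * b⁻¹) ^ (k ^ j) := by rw [ih, conj_pow]
        _ = a ^ (k ^ (j + 1)) := by rw [h.conj, ← pow_mul, pow_succ']
  have h2 : b ^ j * a ^ i * (b ^ j)⁻¹ = a ^ (i * k ^ j) := by
    rw [← conj_pow, h1, ← pow_mul, mul_comm]
  rw [← h2]; group

theorem mul_rule (h : MData p n a b k) (i j i' j' : ℕ) :
    (a ^ i * b ^ j) * (a ^ i' * b ^ j') = a ^ (i + i' * k ^ j) * b ^ (j + j') := by
  rw [mul_assoc, ← mul_assoc (b ^ j), h.pow_conj, pow_add, pow_add]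
  group

theorem pow_rule (h : MData p n a b k) (i j t : ℕ) :
    (a ^ i * b ^ j) ^ t = a ^ (i * phi (k ^ j) t) * b ^ (j * t) := by
  induction t with
  | zero => simp [phi_zero]
  | succ t ih =>
    rw [pow_succ, ih, h.mul_rule]
    congr 2
    rw [phi_succ, pow_mul]; ring

theorem c_conj (h : MData p n a b k) {g : G} {i j : ℕ} (hg : g = a ^ i * b ^ j) :
    g * a * g⁻¹ = a * (a ^ (k - 1)) ^ (phi k j) := by
  have h1 : b ^ j * a = a ^ (k ^ j) * b ^ j := by
    have := h.pow_conj 1 j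
    rwa [pow_one, one_mul] at this
  have h2 : a * (a ^ (k - 1)) ^ (phi k j) = a ^ (k ^ j) := by
    rw [← pow_mul, ← pow_succ', phi_pow h.hk]
  rw [h2, hg, mul_inv_rev]
  calc a ^ i * b ^ j * a * ((b ^ j)⁻¹ * (a ^ i)⁻¹) = a ^ i * (b ^ j * a) * (b ^ j)⁻¹ * (a ^ i)⁻¹ := by group
    _ = a ^ i * (a ^ (k ^ j) * b ^ j) * (b ^ j)⁻¹ * (a ^ i)⁻¹ := by rw [h1]
    _ = a ^ (k ^ j) := by
      have : a ^ i * a ^ (k ^ j) = a ^ (k ^ j) * a ^ i := by rw [← pow_add, ← pow_add, add_comm]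
      calc _ = a ^ i * a ^ (k ^ j) * (a ^ i)⁻¹ := by group
        _ = _ := by rw [this]; group

theorem c_conj' (h : MData p n a b k) {g : G} {i j : ℕ} (hg : g = a ^ i * b ^ j) :
    g * b * g⁻¹ = ((a ^ (k - 1)) ^ i)⁻¹ * b := by
  have h1 : b * a ^ i = a ^ (i * k) * b := by
    have := h.pow_conj i 1
    rwa [pow_one, pow_one] at this
  have h2 : a ^ (i * k) = a ^ i * (a ^ (k - 1)) ^ i := by
    rw [← pow_mul, ← pow_add]
    congr 1
    have := h.hk
    obtain ⟨m, rfl⟩ := Nat.exists_eq_add_of_le this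
    rw [Nat.add_sub_cancel_left]; ring
  have h3 : b * (a ^ i)⁻¹ = ((a ^ (i * k)))⁻¹ * b := by
    rw [eq_inv_mul_iff_mul_eq, ← mul_assoc, ← h1]; group
  rw [hg, mul_inv_rev]
  calc a ^ i * b ^ j * b * ((b ^ j)⁻¹ * (a ^ i)⁻¹) = a ^ i * (b * (a ^ i)⁻¹) := by
        have : b ^ j * b = b * b ^ j := (pow_mul_comm' b j)
        calc _ = a ^ i * (b ^ j * b) * (b ^ j)⁻¹ * (a ^ i)⁻¹ := by group
          _ = _ := by rw [this]; group
    _ = _ := by rw [h3, h2, mul_inv_rev]; group; 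

theorem coord_unique (h : MData p n a b k) {i j i' j' : ℕ} (hg : a ^ i * b ^ j = a ^ i' * b ^ j') :
    (i : ZMod (p ^ n)) = i' ∧ (phi k j : ZMod (p ^ n)) = phi k j' := by
  constructor
  · have h1 := h.c_conj' (g := a ^ i * b ^ j) rfl
    have h2 := h.c_conj' (g := a ^ i * b ^ j) hg
    rw [h1, mul_right_cancel_iff, inv_inj, pow_inj_mod] at h2
    rw [ZMod.natCast_eq_natCast_iff, ← h.ord]
    exact h2
  · have h1 := h.c_conj (g := a ^ i * b ^ j) rfl
    have h2 := h.c_conj (g := a ^ i * b ^ j) hg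
    rw [h1, mul_left_cancel_iff, pow_inj_mod] at h2
    rw [ZMod.natCast_eq_natCast_iff, ← h.ord]
    exact h2

/-- the coordinates -/
noncomputable def F (h : MData p n a b k) (g : G) : ZMod (p ^ n) × ZMod (p ^ n) :=
  ((h.gen g).choose, phi k (h.gen g).choose_spec.choose)

theorem F_eq (h : MData p n a b k) (i j : ℕ) :
    h.F (a ^ i * b ^ j) = ((i : ZMod (p ^ n)), (phi k j : ZMod (p ^ n))) := by
  have h1 := (h.gen (a ^ i * b ^ j)).choose_spec.choose_spec
  obtain ⟨h2, h3⟩ := h.coord_unique h1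
  exact Prod.ext h2.symm h3.symm

theorem F_commute (h : MData p n a b k) (g g' : G) :
    g * g' = g' * g ↔ det (h.F g) (h.F g') = 0 := by
  obtain ⟨i, j, rfl⟩ := h.gen g
  obtain ⟨i', j', rfl⟩ := h.gen g'
  rw [h.F_eq, h.F_eq, h.mul_rule, h.mul_rule, add_comm j j', mul_right_cancel_iff]
  simp only [det]
  have h1 : ∀ x y z : ℕ, a ^ (x + y * k ^ z) = a ^ (x + y) * (a ^ (k - 1)) ^ (y * phi k z) := by
    intro x y z
    rw [← phi_pow h.hk z, ← pow_mul, ← pow_add]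
    congr 1
    ring
  rw [h1, h1, add_comm i i', mul_left_cancel_iff, pow_inj_mod, h.ord]
  have h2 : (i' * phi k j) % (p ^ n) = (i * phi k j') % (p ^ n) ↔
      ((i' * phi k j : ℕ) : ZMod (p ^ n)) = ((i * phi k j' : ℕ) : ZMod (p ^ n)) :=
    (ZMod.natCast_eq_natCast_iff _ _ _).symm
  rw [h2]
  push_cast
  constructor
  · intro h3; linear_combination -h3
  · intro h3; linear_combination -h3

/-- the multiplicative character `χ`, and the cocycle rule -/
theorem exists_chi (h : MData p n a b k) (g : G) : ∃ K : ℕ, 1 ≤ K ∧ p ∣ K - 1 ∧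
    (∀ g', h.F (g * g') = h.F g + (K : ZMod (p ^ n)) • h.F g') ∧
    ∀ t : ℕ, h.F (g ^ t) = (phi K t : ZMod (p ^ n)) • h.F g := by
  obtain ⟨i, j, rfl⟩ := h.gen g
  refine ⟨k ^ j, Nat.one_le_pow _ _ h.hk, ?_, ?_, ?_⟩
  · rw [← phi_pow h.hk, Nat.add_sub_cancel]
    exact Dvd.dvd.mul_right h.hkp _
  · intro g'
    obtain ⟨i', j', rfl⟩ := h.gen g'
    rw [h.mul_rule, h.F_eq, h.F_eq, h.F_eq, phi_add]
    simp only [Prod.smul_mk, Prod.mk_add_mk, smul_eq_mul]
    push_cast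
    rw [mul_comm (i' : ZMod (p ^ n))]
  · intro t
    have h1 : ∀ t, phi k (j * t) = phi (k ^ j) t * phi k j := by
      intro t
      induction t with
      | zero => simp [phi_zero]
      | succ t ih => rw [Nat.mul_succ, phi_add, ih, phi_succ, pow_mul]; ring
    rw [h.pow_rule, h.F_eq, h.F_eq, h1]
    simp only [Prod.smul_mk, smul_eq_mul]
    push_cast
    rw [mul_comm (i : ZMod (p ^ n))]

theorem F_surj [hp : Fact p.Prime] (hp2 : p ≠ 2) (h : MData p n a b k) (v : ZMod (p ^ n) × ZMod (p ^ n)) :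
    ∃ g, h.F g = v := by
  have : NeZero (p ^ n) := ⟨pow_ne_zero _ hp.out.ne_zero⟩
  obtain ⟨j, hj⟩ := phi_surj hp2 h.hk h.hkp v.2
  refine ⟨a ^ v.1.val * b ^ j, ?_⟩
  rw [h.F_eq, hj, ZMod.natCast_zmod_val]

theorem F_eq_zero_iff [hp : Fact p.Prime] (hp2 : p ≠ 2) (h : MData p n a b k) (g : G) :
    h.F g = 0 ↔ g ∈ center G := by
  rw [mem_center_iff]
  constructor
  · intro h1 g'
    rw [h.F_commute, h1]
    simp [det]
  · intro h1
    obtain ⟨x, hx⟩ := h.F_surj hp2 (1, 0)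
    obtain ⟨y, hy⟩ := h.F_surj hp2 (0, 1)
    have h2 := (h.F_commute x g).1 (h1 x)
    have h3 := (h.F_commute y g).1 (h1 y)
    rw [hx] at h2
    rw [hy] at h3
    simp only [det, one_mul, zero_mul, sub_zero, zero_sub, neg_eq_zero] at h2 h3
    exact Prod.ext h3 h2

/-- central elements are generated by `p ^ n`-th powers -/
theorem center_le [hp : Fact p.Prime] (hp2 : p ≠ 2) (h : MData p n a b k) :
    center G ≤ closure {x : G | ∃ y : G, y ^ p ^ n = x} := by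
  intro z hz
  rw [← h.F_eq_zero_iff hp2] at hz
  obtain ⟨i, j, rfl⟩ := h.gen z
  rw [h.F_eq] at hz
  have h1 : (i : ZMod (p ^ n)) = 0 := congrArg Prod.fst hz
  have h2 : (phi k j : ZMod (p ^ n)) = 0 := congrArg Prod.snd hz
  rw [ZMod.natCast_eq_zero_iff] at h1 h2
  rw [dvd_phi_iff hp2 h.hk h.hkp] at h2
  obtain ⟨i', rfl⟩ := h1
  obtain ⟨j', rfl⟩ := h2
  refine mul_mem ?_ ?_
  · apply Subgroup.subset_closure
    exact ⟨a ^ i', by rw [← pow_mul, mul_comm]⟩
  · apply Subgroup.subset_closure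
    exact ⟨b ^ j', by rw [← pow_mul, mul_comm]⟩

end MData

end Cfsg.Agent.Lib.MetaOdd
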