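import Mathlib
import Cfsg.Agent.Lib.MetaOdd

/-!
# Metacyclic `p`-groups, `p` odd: duality (helper65)
-/

set_option autoImplicit false

namespace Cfsg.Agent.Lib.MetaOdd

open Subgroup

section duality

variable {q : ℕ}

theorem det_add_left (u v w : ZMod q × ZMod q) : det (u + v) w = det u w + det v w := by
  simp only [det, Prod.fst_add, Prod.snd_add]; ring

theorem det_add_right (u v w : ZMod q × ZMod q) : det u (v + w) = det u v + det u w := by
  simp only [det, Prod.fst_add, Prod.snd_add]; ring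

theorem det_smul_left (c : ZMod q) (v w : ZMod q × ZMod q) : det (c • v) w = c * det v w := by
  simp only [det, Prod.smul_fst, Prod.smul_snd, smul_eq_mul]; ring

theorem det_smul_right (c : ZMod q) (v w : ZMod q × ZMod q) : det v (c • w) = c * det v w := by
  simp only [det, Prod.smul_fst, Prod.smul_snd, smul_eq_mul]; ring

/-- the orthogonal complement -/
def perp (W : Submodule (ZMod q) (ZMod q × ZMod q)) : Submodule (ZMod q) (ZMod q × ZMod q) where
  carrier := {v | ∀ w ∈ W, det v w = 0}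
  zero_mem' := by intro w _; simp [det]
  add_mem' := by
    intro u v hu hv w hw
    rw [det_add_left, hu w hw, hv w hw, add_zero]
  smul_mem' := by
    intro c v hv w hw
    rw [det_smul_left, hv w hw, mul_zero]

theorem mem_perp {W : Submodule (ZMod q) (ZMod q × ZMod q)} {v : ZMod q × ZMod q} :
    v ∈ perp W ↔ ∀ w ∈ W, det v w = 0 := Iff.rfl

open Classical in
/-- `|W| |W^⊥| = q²`. -/
theorem card_mul_card_perp [NeZero q] (W : Submodule (ZMod q) (ZMod q × ZMod q)) :
    Nat.card W * Nat.card (perp W) = q ^ 2 := by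
  let ψ := ZMod.stdAddChar (N := q)
  have hψ : ∀ x : ZMod q, ψ x = 1 ↔ x = 0 := by
    intro x
    rw [← AddChar.map_zero_eq_one ψ, ZMod.injective_stdAddChar.eq_iff]
  -- characters
  let χ₁ : (ZMod q × ZMod q) → AddChar W ℂ := fun v =>
    { toFun := fun w => ψ (det v w)
      map_zero_eq_one' := by
        show ψ (det v 0) = 1
        rw [hψ]; simp [det]
      map_add_eq_mul' := by
        intro x y
        show ψ (det v (x + y)) = _
        rw [det_add_right, AddChar.map_add_eq_mul] }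
  let χ₂ : W → AddChar (ZMod q × ZMod q) ℂ := fun w =>
    { toFun := fun v => ψ (det v w)
      map_zero_eq_one' := by
        show ψ (det 0 w) = 1
        rw [hψ]; simp [det]
      map_add_eq_mul' := by
        intro x y
        show ψ (det (x + y) w) = _
        rw [det_add_left, AddChar.map_add_eq_mul] }
  have h1 : ∀ v, (χ₁ v = 0) ↔ v ∈ perp W := by
    intro v
    constructor
    · intro h w hw
      have h2 : χ₁ v ⟨w, hw⟩ = 1 := by rw [h]; rfl
      exact (hψ _).1 h2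
    · intro h
      ext w
      exact (hψ _).2 (h w w.2)
  have h2 : ∀ w : W, (χ₂ w = 0) ↔ w = 0 := by
    intro w
    constructor
    · intro h
      have h3 : χ₂ w (1, 0) = 1 := by rw [h]; rfl
      have h4 : χ₂ w (0, 1) = 1 := by rw [h]; rfl
      have h3' := (hψ _).1 h3
      have h4' := (hψ _).1 h4
      simp only [det, one_mul, zero_mul, sub_zero, zero_sub, neg_eq_zero] at h3' h4'
      exact Subtype.ext (Prod.ext h4' h3')
    · rintro rfl
      ext v
      exact (hψ _).2 (by simp [det])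
  have e1 : ∑ v : ZMod q × ZMod q, ∑ w : W, χ₁ v w = (Fintype.card (perp W) * Fintype.card W : ℂ) := by
    calc _ = ∑ v : ZMod q × ZMod q, if v ∈ perp W then (Fintype.card W : ℂ) else 0 := by
          apply Finset.sum_congr rfl
          intro v _
          rw [AddChar.sum_eq_ite]
          simp only [h1]
      _ = _ := by
        rw [← Finset.sum_filter, Finset.sum_const, nsmul_eq_mul]
        congr 2
        rw [Fintype.card_subtype]
  have e2 : ∑ w : W, ∑ v : ZMod q × ZMod q, χ₂ w v = (Fintype.card (ZMod q × ZMod q) : ℂ) := by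
    calc _ = ∑ w : W, if w = 0 then (Fintype.card (ZMod q × ZMod q) : ℂ) else 0 := by
          apply Finset.sum_congr rfl
          intro w _
          rw [AddChar.sum_eq_ite]
          simp only [h2]
      _ = _ := by simp
  have e3 : ∑ v : ZMod q × ZMod q, ∑ w : W, χ₁ v w = ∑ w : W, ∑ v : ZMod q × ZMod q, χ₂ w v :=
    Finset.sum_comm
  rw [e1, e2] at e3
  have e4 : Fintype.card (perp W) * Fintype.card W = Fintype.card (ZMod q × ZMod q) := by exact_mod_cast e3
  rw [Nat.card_eq_fintype_card, Nat.card_eq_fintype_card, mul_comm, e4, Fintype.card_prod, ZMod.card]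
  ring

end duality

namespace MData

variable {G : Type*} [Group G] {p n : ℕ} {a b : G} {k : ℕ}

/-- preimage of a submodule -/
def pre [Finite G] (h : MData p n a b k) (W : Submodule (ZMod (p ^ n)) (ZMod (p ^ n) × ZMod (p ^ n))) :
    Subgroup G where
  carrier := {g | h.F g ∈ W}
  one_mem' := by
    show h.F 1 ∈ W
    have : h.F 1 = 0 := by
      have := h.F_eq 0 0
      rw [pow_zero, pow_zero, one_mul] at this
      rw [this, phi_zero]; simp
    rw [this]; exact W.zero_mem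
  mul_mem' := by
    intro x y hx hy
    obtain ⟨K, -, -, hK, -⟩ := h.exists_chi x
    show h.F (x * y) ∈ W
    rw [hK]
    exact W.add_mem hx (W.smul_mem _ hy)
  inv_mem' := by
    intro x hx
    show h.F x⁻¹ ∈ W
    have : x⁻¹ = x ^ (orderOf x - 1) := by
      rw [inv_eq_iff_mul_eq_one, ← pow_succ', Nat.sub_add_cancel (orderOf_pos x), pow_orderOf_eq_one]
    rw [this]
    obtain ⟨K, -, -, -, hK⟩ := h.exists_chi x
    rw [hK]
    exact W.smul_mem _ hx

theorem mem_pre [Finite G] (h : MData p n a b k)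
    {W : Submodule (ZMod (p ^ n)) (ZMod (p ^ n) × ZMod (p ^ n))} {g : G} : g ∈ h.pre W ↔ h.F g ∈ W := Iff.rfl

theorem F_mul_center [hp : Fact p.Prime] (hp2 : p ≠ 2) (h : MData p n a b k) {g z : G} (hz : z ∈ center G) :
    h.F (g * z) = h.F g := by
  obtain ⟨K, -, -, hK, -⟩ := h.exists_chi g
  rw [hK, (h.F_eq_zero_iff hp2 z).2 hz, smul_zero, add_zero]

theorem isUnit_K [hp : Fact p.Prime] {K : ℕ} (hK : 1 ≤ K) (hKp : p ∣ K - 1) : IsUnit (K : ZMod (p ^ n)) := by
  rw [ZMod.isUnit_iff_coprime]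
  exact (Nat.Coprime.pow_left n ((hp.out.coprime_iff_not_dvd).2 (not_dvd_of_dvd_sub hp.out hK hKp))).symm

theorem inv_mul_mem_center [hp : Fact p.Prime] (hp2 : p ≠ 2) (h : MData p n a b k) {g g' : G}
    (hg : h.F g = h.F g') : g⁻¹ * g' ∈ center G := by
  obtain ⟨K, hK1, hKp, hK, -⟩ := h.exists_chi g
  have h1 := hK (g⁻¹ * g')
  rw [mul_inv_cancel_left, ← hg, left_eq_add] at h1
  rw [← h.F_eq_zero_iff hp2]
  exact (isUnit_K hK1 hKp).smul_eq_zero.1 h1

/-- the order of the preimage -/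
theorem card_pre [hp : Fact p.Prime] [Finite G] (hp2 : p ≠ 2) (h : MData p n a b k)
    (W : Submodule (ZMod (p ^ n)) (ZMod (p ^ n) × ZMod (p ^ n))) :
    Nat.card (h.pre W) = Nat.card (center G) * Nat.card W := by
  have h1 : ∀ w : W, ∃ g : G, h.F g = w := fun w => h.F_surj hp2 w
  choose s hs using h1
  let e : (center G) × W ≃ h.pre W :=
    { toFun := fun x => ⟨s x.2 * x.1, by
        rw [mem_pre, h.F_mul_center hp2 x.1.2, hs]; exact x.2.2⟩
      invFun := fun g => (⟨(s ⟨h.F g, g.2⟩)⁻¹ * g, h.inv_mul_mem_center hp2 (hs _)⟩, ⟨h.F g, g.2⟩)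
      left_inv := by
        rintro ⟨z, w⟩
        have h2 : h.F (s w * z) = w := by rw [h.F_mul_center hp2 z.2, hs]
        have h3 : (⟨h.F (s w * z), by rw [h2]; exact w.2⟩ : W) = w := Subtype.ext h2
        apply Prod.ext
        · apply Subtype.ext
          show (s ⟨h.F (s w * z), _⟩)⁻¹ * (s w * z) = z
          rw [h3, inv_mul_cancel_left]
        · exact h3
      right_inv := by
        intro g
        apply Subtype.ext
        show s ⟨h.F g, g.2⟩ * ((s ⟨h.F g, g.2⟩)⁻¹ * g) = g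
        rw [mul_inv_cancel_left] }
  rw [← Nat.card_congr e, Nat.card_prod]

/-- the image of a subgroup -/
noncomputable def img [hp : Fact p.Prime] (hp2 : p ≠ 2) (h : MData p n a b k) (R : Subgroup G) :
    Submodule (ZMod (p ^ n)) (ZMod (p ^ n) × ZMod (p ^ n)) :=
  have hsmul : ∀ (c : ZMod (p ^ n)) (g : G), g ∈ R → ∃ g' ∈ R, h.F g' = c • h.F g := by
    intro c g hg
    obtain ⟨K, hK1, hKp, -, hK⟩ := h.exists_chi g
    obtain ⟨t, ht⟩ := phi_surj hp2 hK1 hKp c
    exact ⟨g ^ t, pow_mem hg t, by rw [hK, ht]⟩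
  { carrier := {v | ∃ g ∈ R, h.F g = v}
    zero_mem' := ⟨1, R.one_mem, (h.F_eq_zero_iff hp2 1).2 (one_mem _)⟩
    add_mem' := by
      rintro u v ⟨g, hg, rfl⟩ ⟨g', hg', rfl⟩
      obtain ⟨K, hK1, hKp, hK, -⟩ := h.exists_chi g
      obtain ⟨x, hx⟩ := (isUnit_K (n := n) hK1 hKp)
      obtain ⟨g'', hg'', he⟩ := hsmul (↑x⁻¹) g' hg'
      refine ⟨g * g'', mul_mem hg hg'', ?_⟩
      rw [hK, he, smul_smul, ← hx, Units.mul_inv, one_smul]
    smul_mem' := by
      rintro c v ⟨g, hg, rfl⟩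
      exact hsmul c g hg }

theorem mem_img [hp : Fact p.Prime] (hp2 : p ≠ 2) (h : MData p n a b k) {R : Subgroup G}
    {v : ZMod (p ^ n) × ZMod (p ^ n)} : v ∈ h.img hp2 R ↔ ∃ g ∈ R, h.F g = v := Iff.rfl

theorem pre_img [hp : Fact p.Prime] [Finite G] (hp2 : p ≠ 2) (h : MData p n a b k) {R : Subgroup G}
    (hR : center G ≤ R) : h.pre (h.img hp2 R) = R := by
  ext g
  rw [mem_pre, mem_img]
  constructor
  · rintro ⟨g', hg', he⟩
    have := mul_mem hg' (hR (h.inv_mul_mem_center hp2 he))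
    rwa [mul_inv_cancel_left] at this
  · intro hg
    exact ⟨g, hg, rfl⟩

theorem centralizer_eq [hp : Fact p.Prime] [Finite G] (hp2 : p ≠ 2) (h : MData p n a b k) (R : Subgroup G) :
    centralizer (R : Set G) = h.pre (perp (h.img hp2 R)) := by
  ext g
  rw [mem_centralizer_iff, mem_pre, mem_perp]
  constructor
  · rintro hg w ⟨g', hg', rfl⟩
    rw [← h.F_commute]
    exact (hg g' hg').symm
  · intro hg g' hg'
    exact ((h.F_commute g g').2 (hg _ ⟨g', hg', rfl⟩)).symm

/-- **duality**: `|R| |C_G(R)| = |G| |Z(G)|` for `Z(G) ≤ R`. -/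
theorem card_mul_card_centralizer [hp : Fact p.Prime] [Finite G] (hp2 : p ≠ 2) (h : MData p n a b k)
    {R : Subgroup G} (hR : center G ≤ R) :
    Nat.card R * Nat.card (centralizer (R : Set G)) = Nat.card G * Nat.card (center G) := by
  have : NeZero (p ^ n) := ⟨pow_ne_zero _ hp.out.ne_zero⟩
  have h1 := card_mul_card_perp (h.img hp2 R)
  have h2 := h.card_pre hp2 (h.img hp2 R)
  rw [h.pre_img hp2 hR] at h2
  have h3 := h.card_pre hp2 (perp (h.img hp2 R))
  rw [← h.centralizer_eq hp2] at h3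
  have h4 := h.card_pre hp2 ⊤
  have h5 : h.pre ⊤ = ⊤ := by ext g; simp [mem_pre]
  rw [h5, Subgroup.card_top] at h4
  have h6 : Nat.card (⊤ : Submodule (ZMod (p ^ n)) (ZMod (p ^ n) × ZMod (p ^ n))) = (p ^ n) ^ 2 := by
    rw [Nat.card_congr (Submodule.topEquiv (R := ZMod (p ^ n)) (M := ZMod (p ^ n) × ZMod (p ^ n))).toEquiv,
      Nat.card_prod, Nat.card_zmod]; ring
  rw [h2, h3, h4, h6, ← h1]
  ring

theorem index_center [hp : Fact p.Prime] [Finite G] (hp2 : p ≠ 2) (h : MData p n a b k) :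
    (center G).index = (p ^ n) ^ 2 := by
  have h4 := h.card_pre hp2 ⊤
  have h5 : h.pre ⊤ = ⊤ := by ext g; simp [mem_pre]
  rw [h5, Subgroup.card_top] at h4
  have h6 : Nat.card (⊤ : Submodule (ZMod (p ^ n)) (ZMod (p ^ n) × ZMod (p ^ n))) = (p ^ n) ^ 2 := by
    rw [Nat.card_congr (Submodule.topEquiv (R := ZMod (p ^ n)) (M := ZMod (p ^ n) × ZMod (p ^ n))).toEquiv,
      Nat.card_prod, Nat.card_zmod]; ring
  rw [h6, ← Subgroup.card_mul_index (center G)] at h4
  exact Nat.eq_of_mul_eq_mul_left Nat.card_pos h4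

/-- the class size of `g` is the order of the cyclic submodule generated by `F g` -/
theorem index_centralizer [hp : Fact p.Prime] [Finite G] (hp2 : p ≠ 2) (h : MData p n a b k) (g : G) :
    (centralizer ({g} : Set G)).index = Nat.card (Submodule.span (ZMod (p ^ n)) {h.F g}) := by
  have : NeZero (p ^ n) := ⟨pow_ne_zero _ hp.out.ne_zero⟩
  have h1 : centralizer ({g} : Set G) = h.pre (perp (Submodule.span (ZMod (p ^ n)) {h.F g})) := by
    ext x
    rw [mem_centralizer_singleton_iff, mem_pre, mem_perp]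
    constructor
    · rintro hx w hw
      obtain ⟨c, rfl⟩ := Submodule.mem_span_singleton.1 hw
      rw [det_smul_right, (h.F_commute x g).1 hx, mul_zero]
    · intro hx
      exact (h.F_commute x g).2 (hx _ (Submodule.mem_span_singleton_self _))
  have h2 := Subgroup.card_mul_index (centralizer ({g} : Set G))
  have h3 := h.card_pre hp2 (perp (Submodule.span (ZMod (p ^ n)) {h.F g}))
  rw [← h1] at h3
  have h4 := card_mul_card_perp (Submodule.span (ZMod (p ^ n)) {h.F g})
  rw [h3, ← Subgroup.card_mul_index (center G), h.index_center hp2, ← h4, mul_assoc] at h2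
  have h5 := Nat.eq_of_mul_eq_mul_left Nat.card_pos h2
  rw [mul_comm] at h5
  exact Nat.eq_of_mul_eq_mul_right Nat.card_pos h5

theorem card_span [hp : Fact p.Prime] (v : ZMod (p ^ n) × ZMod (p ^ n)) {s : ℕ} :
    Nat.card (Submodule.span (ZMod (p ^ n)) {v}) ≤ p ^ s ↔ (p ^ s : ℕ) • v = 0 := by
  have : NeZero (p ^ n) := ⟨pow_ne_zero _ hp.out.ne_zero⟩
  have h1 : Nat.card (Submodule.span (ZMod (p ^ n)) {v}) = addOrderOf v := by
    rw [← Nat.card_zmultiples]
    apply Nat.card_congr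
    apply Equiv.setCongr
    ext w
    simp only [SetLike.mem_coe, Submodule.mem_span_singleton, AddSubgroup.mem_zmultiples_iff]
    constructor
    · rintro ⟨c, rfl⟩
      refine ⟨c.val, ?_⟩
      rw [natCast_zsmul, ← Nat.cast_smul_eq_nsmul (ZMod (p ^ n)), ZMod.natCast_zmod_val]
    · rintro ⟨c, rfl⟩
      exact ⟨(c : ZMod (p ^ n)), by rw [Int.cast_smul_eq_zsmul]⟩
  rw [h1, ← addOrderOf_dvd_iff_nsmul_eq_zero]
  have h2 : addOrderOf v ∣ p ^ n := by
    rw [addOrderOf_dvd_iff_nsmul_eq_zero, ← Nat.cast_smul_eq_nsmul (ZMod (p ^ n))]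
    simp
  obtain ⟨t, ht, he⟩ := (Nat.dvd_prime_pow hp.out).1 h2
  rw [he, Nat.pow_dvd_pow_iff_le_right hp.out.one_lt, Nat.pow_le_pow_iff_right hp.out.one_lt]

/-- class size at most `p ^ s` -/
theorem index_le_iff [hp : Fact p.Prime] [Finite G] (hp2 : p ≠ 2) (h : MData p n a b k) (g : G) (s : ℕ) :
    (centralizer ({g} : Set G)).index ≤ p ^ s ↔ (p ^ s : ℕ) • h.F g = 0 := by
  rw [h.index_centralizer hp2, card_span]

/-- the subgroup of the elements with class size at most `p ^ s` -/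
noncomputable def small [Finite G] (h : MData p n a b k) (s : ℕ) : Subgroup G :=
  h.pre (LinearMap.ker (LinearMap.lsmul (ZMod (p ^ n)) (ZMod (p ^ n) × ZMod (p ^ n)) ((p ^ s : ℕ) : ZMod (p ^ n))))

theorem mem_small [hp : Fact p.Prime] [Finite G] (hp2 : p ≠ 2) (h : MData p n a b k) {g : G} {s : ℕ} :
    g ∈ h.small s ↔ (centralizer ({g} : Set G)).index ≤ p ^ s := by
  rw [h.index_le_iff hp2, small, mem_pre, LinearMap.mem_ker, LinearMap.lsmul_apply,
    Nat.cast_smul_eq_nsmul]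

theorem exists_of_nsmul {v : ZMod (p ^ n)} [hp : Fact p.Prime] {s : ℕ} (hs : s ≤ n)
    (hv : (p ^ (n - s) : ℕ) • v = 0) : ∃ w : ZMod (p ^ n), v = (p ^ s : ℕ) * w := by
  have : NeZero (p ^ n) := ⟨pow_ne_zero _ hp.out.ne_zero⟩
  have h1 : ((p ^ (n - s) * v.val : ℕ) : ZMod (p ^ n)) = 0 := by
    push_cast
    rw [ZMod.natCast_zmod_val, ← hv, nsmul_eq_mul]
    push_cast; rfl
  rw [ZMod.natCast_eq_zero_iff] at h1
  have h2 : p ^ n = p ^ (n - s) * p ^ s := by rw [← pow_add]; congr 1; omega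
  have h1' : p ^ (n - s) * p ^ s ∣ p ^ (n - s) * v.val := by
    obtain ⟨c, hc⟩ := h1
    exact ⟨c, by rw [hc, h2]⟩
  obtain ⟨c, hc⟩ := Nat.dvd_of_mul_dvd_mul_left (pow_pos hp.out.pos _) h1'
  refine ⟨c, ?_⟩
  calc v = ((v.val : ℕ) : ZMod (p ^ n)) := (ZMod.natCast_zmod_val v).symm
    _ = _ := by rw [hc]; push_cast; rfl

/-- **℧_s(G)** -/
theorem mho_eq [hp : Fact p.Prime] [Finite G] (hp2 : p ≠ 2) (h : MData p n a b k) {s : ℕ} (hs : s ≤ n) :
    closure {x : G | ∃ y : G, y ^ p ^ s = x} = h.small (n - s) := by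
  have : NeZero (p ^ n) := ⟨pow_ne_zero _ hp.out.ne_zero⟩
  apply le_antisymm
  · rw [closure_le]
    rintro _ ⟨y, rfl⟩
    rw [SetLike.mem_coe, h.mem_small hp2, h.index_le_iff hp2]
    obtain ⟨K, hK1, hKp, -, hK⟩ := h.exists_chi y
    rw [hK]
    have h1 : p ^ s ∣ phi K (p ^ s) := (dvd_phi_iff hp2 hK1 hKp).2 dvd_rfl
    obtain ⟨c, hc⟩ := h1
    have h2 : ((p ^ (n - s) * phi K (p ^ s) : ℕ) : ZMod (p ^ n)) = 0 := by
      rw [ZMod.natCast_eq_zero_iff, hc, ← mul_assoc, ← pow_add]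
      have : n - s + s = n := by omega
      rw [this]
      exact dvd_mul_right _ _
    rw [← Nat.cast_smul_eq_nsmul (ZMod (p ^ n)), smul_smul, ← Nat.cast_mul, h2, zero_smul]
  · intro g hg
    rw [h.mem_small hp2, h.index_le_iff hp2] at hg
    obtain ⟨w1, hw1⟩ := exists_of_nsmul hs (congrArg Prod.fst hg)
    obtain ⟨w2, hw2⟩ := exists_of_nsmul hs (congrArg Prod.snd hg)
    obtain ⟨y, hy⟩ := h.F_surj hp2 (w1, w2)
    obtain ⟨K, hK1, hKp, -, hK⟩ := h.exists_chi y
    obtain ⟨t, ht⟩ := phi_surj (n := n) hp2 hK1 hKp ((p ^ s : ℕ) : ZMod (p ^ n))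
    have hdvd : p ^ s ∣ t := by
      rw [← dvd_phi_iff hp2 hK1 hKp]
      have h1 : phi K t ≡ p ^ s [MOD p ^ n] := (ZMod.natCast_eq_natCast_iff _ _ _).1 ht
      have h2 : phi K t ≡ p ^ s [MOD p ^ s] := h1.of_dvd (pow_dvd_pow p hs)
      exact (h2.dvd_iff dvd_rfl).2 dvd_rfl
    obtain ⟨t', rfl⟩ := hdvd
    have hF : h.F (y ^ (p ^ s * t')) = h.F g := by
      rw [hK, ht, hy]
      exact Prod.ext hw1.symm hw2.symm
    have h3 := h.inv_mul_mem_center hp2 hF
    have h4 : g = y ^ (p ^ s * t') * ((y ^ (p ^ s * t'))⁻¹ * g) := by group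
    rw [h4]
    refine mul_mem ?_ ?_
    · apply Subgroup.subset_closure
      exact ⟨y ^ t', by rw [← pow_mul, mul_comm]⟩
    · have h5 := h.center_le hp2 h3
      refine (Subgroup.closure_mono ?_) h5
      rintro x ⟨z, rfl⟩
      refine ⟨z ^ p ^ (n - s), ?_⟩
      rw [← pow_mul, ← pow_add]
      congr 2; omega

theorem small_zero [hp : Fact p.Prime] [Finite G] (hp2 : p ≠ 2) (h : MData p n a b k) : h.small 0 = center G := by
  ext g
  rw [h.mem_small hp2, h.index_le_iff hp2, pow_zero, one_smul, h.F_eq_zero_iff hp2]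

theorem card_small [hp : Fact p.Prime] [Finite G] (hp2 : p ≠ 2) (h : MData p n a b k) {s : ℕ} (hs : s ≤ n) :
    Nat.card (h.small s) = Nat.card (center G) * p ^ (2 * s) := by
  have : NeZero (p ^ n) := ⟨pow_ne_zero _ hp.out.ne_zero⟩
  have key : Nat.card {x : ZMod (p ^ n) // (p ^ s : ℕ) • x = 0} = p ^ s := by
    have h1 := IsAddCyclic.card_nsmulAddMonoidHom_ker (G := ZMod (p ^ n)) (p ^ s)
    rw [Nat.card_zmod, Nat.gcd_eq_right (pow_dvd_pow p hs)] at h1
    exact h1
  rw [small, h.card_pre hp2]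
  congr 1
  rw [two_mul, pow_add]
  have e : (LinearMap.ker (LinearMap.lsmul (ZMod (p ^ n)) (ZMod (p ^ n) × ZMod (p ^ n)) ((p ^ s : ℕ) : ZMod (p ^ n)))) ≃
      {x : ZMod (p ^ n) // (p ^ s : ℕ) • x = 0} × {x : ZMod (p ^ n) // (p ^ s : ℕ) • x = 0} :=
    { toFun := fun v => (⟨v.1.1, by
        have := v.2
        rw [LinearMap.mem_ker, LinearMap.lsmul_apply, Nat.cast_smul_eq_nsmul] at this
        exact congrArg Prod.fst this⟩, ⟨v.1.2, by
        have := v.2
        rw [LinearMap.mem_ker, LinearMap.lsmul_apply, Nat.cast_smul_eq_nsmul] at this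
        exact congrArg Prod.snd this⟩)
      invFun := fun w => ⟨(w.1, w.2), by
        rw [LinearMap.mem_ker, LinearMap.lsmul_apply, Nat.cast_smul_eq_nsmul]
        exact Prod.ext w.1.2 w.2.2⟩
      left_inv := fun v => rfl
      right_inv := fun w => rfl }
  rw [Nat.card_congr e, Nat.card_prod, key]

end MData

/-- existence of the data -/
theorem exists_data {G : Type*} [Group G] [Finite G] {p : ℕ} [hp : Fact p.Prime] (hG : IsPGroup p G)
    {N : Subgroup G} [N.Normal] (h1 : IsCyclic N) (h2 : IsCyclic (G ⧸ N)) :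
    ∃ (n : ℕ) (a b : G) (k : ℕ), MData p n a b k := by
  obtain ⟨a, x, hx, htop, hNa⟩ := Cfsg.Agent.Lib.H64Metacyclic.met_top h1 h2
  have hgen : ∀ g : G, ∃ i j : ℕ, g = a ^ i * x ^ j := by
    intro g
    have hg : g ∈ zpowers a ⊔ zpowers x := by rw [← htop]; trivial
    obtain ⟨y, hy, j, hj⟩ := (Cfsg.Agent.Lib.H64Metacyclic.mem_zpowers_sup hx).1 hg
    obtain ⟨i, hi⟩ := mem_powers_iff_mem_zpowers.2 hy
    obtain ⟨j', hj'⟩ := mem_powers_iff_mem_zpowers.2 (zpow_mem (mem_zpowers x) j)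
    exact ⟨i, j', by rw [← hj, ← hi, ← hj']⟩
  by_cases hnab : x * a = a * x
  · exact ⟨0, a, x, 1, le_rfl, by simp, by rw [pow_one, hnab]; group, hgen, by simp⟩
  · obtain ⟨n, k, hn, hk, hkp, hkn, hact⟩ := Cfsg.Agent.Lib.H64Metacyclic.action_data hG a x hx hnab
    obtain ⟨m, hm⟩ := (IsPGroup.iff_orderOf.1 hG) (a ^ (k - 1))
    refine ⟨m, a, x, k, hk, hkp, ?_, hgen, hm⟩
    have := hact 1 a (mem_zpowers a)
    rwa [pow_one, pow_one] at this

end Cfsg.Agent.Lib.MetaOdd
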