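import Mathlib
import Cfsg.Agent.Lib.MetaOdd2
import Cfsg.Agent.Lib.FrattiniP
import Cfsg.Agent.Lib.H70Frattini
import Cfsg.Prelude.Def_OddOrderLocal
import Cfsg.Agent.S3879
import Cfsg.Agent.S3880

/-!
# Metacyclic `p`-groups, `p` odd: consequences (helper65)
-/

set_option autoImplicit false

namespace Cfsg.Agent.Lib.MetaOdd

open Subgroup

variable {G : Type*} [Group G]

theorem exists_data' [Finite G] {p : ℕ} [hp : Fact p.Prime] (hp2 : p ≠ 2) (hG : IsPGroup p G)
    (hmc : Cfsg.IsMetacyclic G) : ∃ (n : ℕ) (a b : G) (k : ℕ), Nat.card (commutator G) = p ^ n ∧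
      MData p n a b k := by
  have h3879 := Cfsg.Agent.S3879.result hp2 hG hmc
  obtain ⟨N, hN, h1, h2⟩ := hmc
  obtain ⟨n, a, b, k, h⟩ := exists_data hG h1 h2
  refine ⟨n, a, b, k, ?_, h⟩
  rw [h.index_center hp2] at h3879
  exact ((Nat.pow_left_injective (by norm_num : 2 ≠ 0)) h3879).symm

theorem exists_data_n [Finite G] {p n : ℕ} [hp : Fact p.Prime] (hp2 : p ≠ 2) (hG : IsPGroup p G)
    (hmc : Cfsg.IsMetacyclic G) (hn : Nat.card (commutator G) = p ^ n) :
    ∃ (a b : G) (k : ℕ), MData p n a b k := by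
  obtain ⟨m, a, b, k, hm, h⟩ := exists_data' hp2 hG hmc
  have : m = n := Nat.pow_right_injective hp.out.two_le (hm.symm.trans hn)
  subst this
  exact ⟨a, b, k, h⟩

namespace MData

variable {p n : ℕ} {a b : G} {k : ℕ}

/-- reduction modulo `p` of the coordinates as a homomorphism -/
noncomputable def redHom [hp : Fact p.Prime] [Finite G] (h : MData p n a b k) (hn : 1 ≤ n) :
    G →* Multiplicative (ZMod (p ^ n) × ZMod (p ^ n)) :=
  MonoidHom.mk' (fun g => Multiplicative.ofAdd ((p ^ (n - 1) : ℕ) • h.F g)) (by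
    intro x y
    rw [← ofAdd_add]
    congr 1
    obtain ⟨K, hK1, ⟨c, hc⟩, hK, -⟩ := h.exists_chi x
    rw [hK, smul_add]
    congr 1
    have hK' : K = p * c + 1 := by omega
    have h1 : ((p ^ (n - 1) * K : ℕ) : ZMod (p ^ n)) = ((p ^ (n - 1) : ℕ) : ZMod (p ^ n)) := by
      rw [hK', mul_add, ← mul_assoc, ← pow_succ, Nat.sub_add_cancel hn]
      push_cast
      have : ((p : ZMod (p ^ n)) ^ n) = 0 := by
        rw [← Nat.cast_pow]; exact ZMod.natCast_self _
      rw [this]; ring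
    rw [← Nat.cast_smul_eq_nsmul (ZMod (p ^ n)), ← Nat.cast_smul_eq_nsmul (ZMod (p ^ n)), smul_smul,
      ← Nat.cast_mul, h1])

theorem ker_redHom [hp : Fact p.Prime] [Finite G] (hp2 : p ≠ 2) (h : MData p n a b k) (hn : 1 ≤ n) :
    (h.redHom hn).ker = h.small (n - 1) := by
  ext g
  rw [MonoidHom.mem_ker, h.mem_small hp2, h.index_le_iff hp2]
  exact Iff.rfl

theorem frattini_eq [hp : Fact p.Prime] [Finite G] (hp2 : p ≠ 2) (hG : IsPGroup p G) (h : MData p n a b k)
    (hn : 1 ≤ n) : frattini G = h.small (n - 1) := by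
  apply le_antisymm
  · rw [← h.ker_redHom hp2 hn]
    apply Cfsg.Agent.Lib.FrattiniP.frattini_le_of_elementary (p := p)
    · exact Abelianization.commutator_subset_ker _
    · intro x
      rw [h.ker_redHom hp2 hn, ← h.mho_eq hp2 hn, pow_one]
      exact Subgroup.subset_closure ⟨x, rfl⟩
  · rw [← h.mho_eq hp2 hn, closure_le]
    rintro _ ⟨y, rfl⟩
    rw [pow_one]
    exact Cfsg.Agent.Lib.H70Frattini.pow_mem_frattini hG y

end MData

end Cfsg.Agent.Lib.MetaOdd
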