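import Mathlib

/-!
Weight projections for an action of a finite abelian group on a complex vector space (helper18).
-/

set_option autoImplicit false

namespace Cfsg.Agent.Lib.WeightProj

variable {X : Type*} [AddCommGroup X] [Fintype X] {V : Type*} [AddCommGroup V] [Module ℂ V]
variable (α : X → Module.End ℂ V)

/-- the projection onto the weight space of `l` -/
noncomputable def E (l : AddChar X ℂ) : Module.End ℂ V := (Fintype.card X : ℂ)⁻¹ • ∑ x, l (-x) • α x

variable {α}

theorem mul_E (hα : ∀ x y, α (x + y) = α x * α y) (l : AddChar X ℂ) (y : X) : α y * E α l = l y • E α l := by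
  unfold E
  rw [mul_smul_comm, smul_comm (l y), Finset.mul_sum]
  congr 1
  rw [Finset.smul_sum, ← Equiv.sum_comp (Equiv.addLeft y) (fun x => l y • l (-x) • α x)]
  apply Finset.sum_congr rfl
  intro x _
  rw [mul_smul_comm, ← hα, smul_smul, ← AddChar.map_add_eq_mul]
  congr 2
  simp

theorem sum_E (h0 : α 0 = 1) : ∑ l : AddChar X ℂ, E α l = 1 := by
  classical
  unfold E
  rw [← Finset.smul_sum, Finset.sum_comm]
  have h1 : ∀ x : X, ∑ l : AddChar X ℂ, l (-x) • α x = (if x = 0 then (Fintype.card X : ℂ) else 0) • α x := by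
    intro x
    rw [← Finset.sum_smul, AddChar.sum_apply_eq_ite]
    simp
  rw [Finset.sum_congr rfl (fun x _ => h1 x)]
  simp only [ite_smul, zero_smul, Finset.sum_ite_eq', Finset.mem_univ, if_true]
  rw [h0, smul_smul, inv_mul_cancel₀ (by exact_mod_cast Fintype.card_ne_zero), one_smul]

theorem E_mul [DecidableEq (AddChar X ℂ)] (hα : ∀ x y, α (x + y) = α x * α y) (l μ : AddChar X ℂ) :
    E α l * E α μ = if l = μ then E α l else 0 := by
  have h1 : E α l * E α μ = ((Fintype.card X : ℂ)⁻¹ * ∑ x, l (-x) * μ x) • E α μ := by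
    conv_lhs => rw [E]
    rw [smul_mul_assoc, Finset.sum_mul, mul_smul, Finset.sum_smul]
    congr 1
    apply Finset.sum_congr rfl
    intro x _
    rw [smul_mul_assoc, mul_E hα, smul_smul]
  rw [h1]
  have h2 : ∑ x, l (-x) * μ x = if l = μ then (Fintype.card X : ℂ) else 0 := by
    have h3 : ∀ x, l (-x) * μ x = (μ - l) x := by
      intro x
      rw [AddChar.sub_apply, AddChar.map_neg_eq_inv, mul_comm]
    rw [Finset.sum_congr rfl (fun x _ => h3 x), AddChar.sum_eq_ite]
    by_cases h : l = μ
    · rw [if_pos (by rw [h, sub_self]), if_pos h]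
    · rw [if_neg (by intro h'; exact h (sub_eq_zero.mp h').symm), if_neg h]
  rw [h2]
  split_ifs with h
  · rw [inv_mul_cancel₀ (by exact_mod_cast Fintype.card_ne_zero), one_smul, h]
  · rw [mul_zero, zero_smul]

theorem conj_E (g : Module.End ℂ V) (s : X ≃+ X) (h : ∀ x, g * α x = α (s x) * g) (l : AddChar X ℂ) :
    g * E α l = E α (l.compAddMonoidHom s.symm.toAddMonoidHom) * g := by
  unfold E
  rw [mul_smul_comm, smul_mul_assoc, Finset.mul_sum, Finset.sum_mul]
  congr 1
  rw [← Equiv.sum_comp s.toEquiv (fun x => (l.compAddMonoidHom s.symm.toAddMonoidHom) (-x) • α x * g)]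
  apply Finset.sum_congr rfl
  intro x _
  rw [mul_smul_comm, h, smul_mul_assoc]
  congr 1
  show l (-x) = l (s.symm (-(s x)))
  have h1 : s.symm (-(s x)) = -x := by rw [map_neg s.symm, AddEquiv.symm_apply_apply]
  rw [h1]

theorem idem [DecidableEq (AddChar X ℂ)] (hα : ∀ x y, α (x + y) = α x * α y) (l : AddChar X ℂ) :
    IsIdempotentElem (E α l) := by
  show E α l * E α l = E α l
  rw [E_mul hα, if_pos rfl]

variable [FiniteDimensional ℂ V]

theorem trace_idem {P : Module.End ℂ V} (hP : IsIdempotentElem P) :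
    ∃ n : ℕ, LinearMap.trace ℂ V P = n ∧ (n = 0 → P = 0) := by
  refine ⟨_, (LinearMap.IsIdempotentElem.isProj_range P hP).trace, ?_⟩
  intro h
  rw [Submodule.finrank_eq_zero] at h
  exact LinearMap.range_eq_bot.mp h

theorem trace_conj_eq {g g' P Q : Module.End ℂ V} (hg : g' * g = 1) (h : g * P = Q * g) :
    LinearMap.trace ℂ V P = LinearMap.trace ℂ V Q := by
  have hg' : g * g' = 1 := by
    exact mul_eq_one_comm.mp hg
  have h1 : P = g' * (Q * g) := by rw [← h, ← mul_assoc, hg, one_mul]
  rw [h1, LinearMap.trace_mul_comm, mul_assoc, hg', mul_one]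

end Cfsg.Agent.Lib.WeightProj
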