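import Mathlib
import Cfsg.Agent.Lib.WeightProj

/-!
Averages over subgroups and weight projections of one-parameter subgroups in complex representations; the "freeing" lemma
(helper18).
-/

set_option autoImplicit false
set_option linter.unusedSectionVars false

namespace Cfsg.Agent.Lib.MinDegA

open Cfsg.Agent.Lib.WeightProj

variable {Q : Type*} [Group Q] {V : Type*} [AddCommGroup V] [Module ℂ V] (ρ : Representation ℂ Q V)

section av

variable [Finite Q]

/-- the average over a subgroup -/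
noncomputable def av (H : Subgroup Q) : Module.End ℂ V :=
  letI := Fintype.ofFinite H
  (Fintype.card H : ℂ)⁻¹ • ∑ h : H, ρ (h : Q)

variable {ρ}

theorem mul_av {H : Subgroup Q} {g : Q} (hg : g ∈ H) : ρ g * av ρ H = av ρ H := by
  letI := Fintype.ofFinite H
  unfold av
  rw [mul_smul_comm, Finset.mul_sum]
  congr 1
  rw [← Equiv.sum_comp (Equiv.mulLeft (⟨g, hg⟩ : H)) (fun h : H => ρ (h : Q))]
  exact Finset.sum_congr rfl (fun h _ => by rw [← map_mul]; rfl)

theorem av_mul {H : Subgroup Q} {g : Q} (hg : g ∈ H) : av ρ H * ρ g = av ρ H := by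
  letI := Fintype.ofFinite H
  unfold av
  rw [smul_mul_assoc, Finset.sum_mul]
  congr 1
  rw [← Equiv.sum_comp (Equiv.mulRight (⟨g, hg⟩ : H)) (fun h : H => ρ (h : Q))]
  exact Finset.sum_congr rfl (fun h _ => by rw [← map_mul]; rfl)

/-- an operator fixed by all elements of `H` on the left -/
theorem av_mul_eq {H : Subgroup Q} {A : Module.End ℂ V} (h : ∀ g ∈ H, ρ g * A = A) : av ρ H * A = A := by
  letI := Fintype.ofFinite H
  unfold av
  have h1 : ∀ g : H, ρ (g : Q) * A = A := fun g => h g g.2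
  rw [smul_mul_assoc, Finset.sum_mul, Finset.sum_congr rfl (fun g _ => h1 g), Finset.sum_const, Finset.card_univ,
    ← Nat.cast_smul_eq_nsmul ℂ, smul_smul, inv_mul_cancel₀ (by exact_mod_cast Fintype.card_ne_zero), one_smul]

theorem mul_av_eq {H : Subgroup Q} {A : Module.End ℂ V} (h : ∀ g ∈ H, A * ρ g = A) : A * av ρ H = A := by
  letI := Fintype.ofFinite H
  unfold av
  have h1 : ∀ g : H, A * ρ (g : Q) = A := fun g => h g g.2
  rw [mul_smul_comm, Finset.mul_sum, Finset.sum_congr rfl (fun g _ => h1 g), Finset.sum_const, Finset.card_univ,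
    ← Nat.cast_smul_eq_nsmul ℂ, smul_smul, inv_mul_cancel₀ (by exact_mod_cast Fintype.card_ne_zero), one_smul]

/-- the fixing condition only has to be checked on generators -/
theorem fix_closure {T : Set Q} {A : Module.End ℂ V} (h : ∀ g ∈ T, ρ g * A = A) :
    ∀ g ∈ Subgroup.closure T, ρ g * A = A := by
  intro g hg
  induction hg using Subgroup.closure_induction with
  | mem x hx => exact h x hx
  | one => rw [map_one, one_mul]
  | mul x y _ _ hx hy => rw [map_mul, mul_assoc, hy, hx]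
  | inv x _ hx =>
    calc ρ x⁻¹ * A = ρ x⁻¹ * (ρ x * A) := by rw [hx]
      _ = A := by rw [← mul_assoc, ← map_mul, inv_mul_cancel, map_one, one_mul]

theorem av_idem (H : Subgroup Q) : av ρ H * av ρ H = av ρ H := av_mul_eq (fun _ hg => mul_av hg)

theorem av_mul_av {H H' : Subgroup Q} (h : H ≤ H') : av ρ H * av ρ H' = av ρ H' :=
  av_mul_eq (fun _ hg => mul_av (h hg))

theorem av_mul_av' {H H' : Subgroup Q} (h : H ≤ H') : av ρ H' * av ρ H = av ρ H' :=
  mul_av_eq (fun _ hg => av_mul (h hg))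

/-- elements of the normalizer commute with the average -/
theorem comm_av {H : Subgroup Q} {g : Q} (hg : ∀ x ∈ H, g * x * g⁻¹ ∈ H) : ρ g * av ρ H = av ρ H * ρ g := by
  letI := Fintype.ofFinite H
  unfold av
  rw [mul_smul_comm, smul_mul_assoc, Finset.mul_sum, Finset.sum_mul]
  congr 1
  have hinj : Function.Injective (fun x : H => (⟨g * x * g⁻¹, hg x x.2⟩ : H)) := by
    intro x y h
    have := congrArg Subtype.val h
    simpa using this
  have hbij := Finite.injective_iff_bijective.mp hinj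
  rw [← Equiv.sum_comp (Equiv.ofBijective _ hbij) (fun h : H => ρ (h : Q) * ρ g)]
  apply Finset.sum_congr rfl
  intro x _
  rw [← map_mul, ← map_mul]
  congr 1
  simp

/-- product of averages -/
theorem av_mul_av_sup {H L : Subgroup Q} (h : ∀ g ∈ L, ∀ x ∈ H, g * x * g⁻¹ ∈ H) :
    av ρ H * av ρ L = av ρ (H ⊔ L) := by
  have h1 : av ρ (H ⊔ L) * (av ρ H * av ρ L) = av ρ (H ⊔ L) := by
    rw [← mul_assoc, av_mul_av' le_sup_left, av_mul_av' le_sup_right]
  rw [← h1]
  symm
  apply av_mul_eq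
  have hcl : H ⊔ L = Subgroup.closure ((H : Set Q) ∪ L) := by
    rw [Subgroup.closure_union, Subgroup.closure_eq, Subgroup.closure_eq]
  rw [hcl]
  apply fix_closure
  rintro g (hg | hg)
  · rw [← mul_assoc, mul_av hg]
  · rw [← mul_assoc, comm_av (h g hg), mul_assoc, mul_av hg]

end av

section E

variable {F : Type*} [Field F] [Fintype F] {x : F → Q}

theorem add_of (hx : ∀ t u, x t * x u = x (t + u)) (t u : F) :
    (fun a => ρ (x a)) (t + u) = (fun a => ρ (x a)) t * (fun a => ρ (x a)) u := by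
  show ρ (x (t + u)) = ρ (x t) * ρ (x u)
  rw [← map_mul, hx]

theorem one_of (hx : ∀ t u, x t * x u = x (t + u)) : x 0 = 1 := by
  have := hx 0 0
  rw [add_zero] at this
  exact mul_eq_left.mp this

theorem inv_of (hx : ∀ t u, x t * x u = x (t + u)) (t : F) : (x t)⁻¹ = x (-t) := by
  rw [inv_eq_iff_mul_eq_one, hx, add_neg_cancel]
  exact one_of hx

variable (x) in
/-- the weight projections of a one-parameter subgroup -/
noncomputable def Er (l : AddChar F ℂ) : Module.End ℂ V := E (fun t => ρ (x t)) l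

variable {ρ}

theorem mul_Er (hx : ∀ t u, x t * x u = x (t + u)) (l : AddChar F ℂ) (t : F) :
    ρ (x t) * Er ρ x l = l t • Er ρ x l :=
  mul_E (α := fun t => ρ (x t)) (fun t u => add_of ρ hx t u) l t

theorem sum_Er (hx : ∀ t u, x t * x u = x (t + u)) : ∑ l : AddChar F ℂ, Er ρ x l = 1 :=
  sum_E (by show ρ (x 0) = 1; rw [one_of hx, map_one])

theorem Er_mul_self (hx : ∀ t u, x t * x u = x (t + u)) (l : AddChar F ℂ) : Er ρ x l * Er ρ x l = Er ρ x l := by
  classical
  exact idem (α := fun t => ρ (x t)) (fun t u => add_of ρ hx t u) l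

theorem Er_mul_ne (hx : ∀ t u, x t * x u = x (t + u)) {l m : AddChar F ℂ} (h : l ≠ m) : Er ρ x l * Er ρ x m = 0 := by
  classical
  unfold Er
  rw [E_mul (α := fun t => ρ (x t)) (fun t u => add_of ρ hx t u), if_neg h]

/-- operators commuting with the group commute with the projections -/
theorem comm_Er {A : Module.End ℂ V} (h : ∀ t, A * ρ (x t) = ρ (x t) * A) (l : AddChar F ℂ) :
    A * Er ρ x l = Er ρ x l * A := by
  unfold Er E
  rw [mul_smul_comm, smul_mul_assoc, Finset.mul_sum, Finset.sum_mul]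
  congr 1
  apply Finset.sum_congr rfl
  intro t _
  rw [mul_smul_comm, smul_mul_assoc, h]

theorem Er_mul (hx : ∀ t u, x t * x u = x (t + u)) (l : AddChar F ℂ) (t : F) :
    Er ρ x l * ρ (x t) = l t • Er ρ x l := by
  rw [← comm_Er (A := ρ (x t)) (fun u => by rw [← map_mul, ← map_mul, hx, hx, add_comm]), mul_Er hx]

/-- the projection for the trivial character is the average -/
theorem Er_one [Finite Q] (hx : ∀ t u, x t * x u = x (t + u)) {H : Subgroup Q} (hH : H = Subgroup.closure (Set.range x)) :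
    Er ρ x 1 = av ρ H := by
  have h1 : av ρ H * Er ρ x 1 = Er ρ x 1 := by
    apply av_mul_eq
    rw [hH]
    apply fix_closure
    rintro _ ⟨t, rfl⟩
    rw [mul_Er hx, AddChar.one_apply, one_smul]
  rw [← h1]
  unfold Er E
  rw [mul_smul_comm, Finset.mul_sum]
  have h2 : ∀ t : F, av ρ H * ((1 : AddChar F ℂ) (-t) • ρ (x t)) = av ρ H := by
    intro t
    rw [AddChar.one_apply, one_smul, av_mul]
    rw [hH]
    exact Subgroup.subset_closure ⟨t, rfl⟩
  rw [Finset.sum_congr rfl (fun t _ => h2 t), Finset.sum_const, Finset.card_univ, ← Nat.cast_smul_eq_nsmul ℂ, smul_smul,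
    inv_mul_cancel₀ (by exact_mod_cast Fintype.card_ne_zero), one_smul]

/-- if the group fixes `A` then nontrivial projections kill it -/
theorem Er_mul_eq_zero (hx : ∀ t u, x t * x u = x (t + u)) {l : AddChar F ℂ} (hl : l ≠ 1) {A : Module.End ℂ V}
    (h : ∀ t, ρ (x t) * A = A) : Er ρ x l * A = 0 := by
  obtain ⟨t, ht⟩ : ∃ t, l t ≠ 1 := by
    by_contra hcon
    push Not at hcon
    exact hl (by ext t; rw [hcon t, AddChar.one_apply])
  have h1 : Er ρ x l * ρ (x t) * A = l t • (Er ρ x l * A) := by rw [Er_mul hx, smul_mul_assoc]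
  rw [mul_assoc, h t] at h1
  have h2 : (1 - l t) • (Er ρ x l * A) = 0 := by rw [sub_smul, one_smul, ← h1, sub_self]
  rcases smul_eq_zero.mp h2 with h3 | h3
  · exact absurd (sub_eq_zero.mp h3).symm ht
  · exact h3

theorem fix_of_Er_zero (hx : ∀ t u, x t * x u = x (t + u)) {A : Module.End ℂ V}
    (h : ∀ l : AddChar F ℂ, l ≠ 1 → Er ρ x l * A = 0) (t : F) : ρ (x t) * A = A := by
  have h1 : A = Er ρ x 1 * A := by
    conv_lhs => rw [← one_mul A, ← sum_Er (ρ := ρ) hx, Finset.sum_mul]
    rw [Finset.sum_eq_single (1 : AddChar F ℂ) (fun l _ hl => h l hl) (fun h => absurd (Finset.mem_univ _) h)]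
  rw [h1, ← mul_assoc, mul_Er hx, AddChar.one_apply, one_smul]

/-- conjugation moves the weights -/
theorem conj_free {xs xr xt : F → Q} (hr : ∀ t u, xr t * xr u = xr (t + u)) (ht : ∀ t u, xt t * xt u = xt (t + u)) {n : F}
    (hsr : ∀ a b, xs a * xr b * (xs a)⁻¹ = xr b * xt (n * a * b)) (hst : ∀ a b, xs a * xt b = xt b * xs a)
    (l m : AddChar F ℂ) (a : F) :
    ρ (xs a) * (Er ρ xr l * Er ρ xt m) = Er ρ xr (l * (AddChar.mulShift m (-(n * a)))) * Er ρ xt m * ρ (xs a) := by
  have h1 : ∀ b, ρ (xs a) * (ρ (xr b) * Er ρ xt m) = m (n * a * b) • (ρ (xr b) * Er ρ xt m * ρ (xs a)) := by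
    intro b
    have e1 : ρ (xs a) * ρ (xr b) = ρ (xr b) * ρ (xt (n * a * b)) * ρ (xs a) := by
      rw [← map_mul, ← map_mul, ← map_mul, ← hsr]; congr 1; group
    have e2 : ρ (xs a) * Er ρ xt m = Er ρ xt m * ρ (xs a) :=
      comm_Er (fun t => by rw [← map_mul, ← map_mul, hst]) m
    rw [← mul_assoc, e1, mul_assoc, mul_assoc, e2, ← mul_assoc (ρ (xt _)), mul_Er ht, smul_mul_assoc, mul_smul_comm,
      ← mul_assoc]
  conv_lhs => rw [Er, E]
  conv_rhs => rw [Er, E]
  rw [smul_mul_assoc, mul_smul_comm, Finset.sum_mul, Finset.mul_sum, smul_mul_assoc, smul_mul_assoc, Finset.sum_mul,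
    Finset.sum_mul]
  congr 1
  apply Finset.sum_congr rfl
  intro b _
  rw [smul_mul_assoc, mul_smul_comm, h1, smul_mul_assoc, smul_mul_assoc, smul_smul]
  congr 1
  rw [AddChar.mul_apply, AddChar.mulShift_apply]
  congr 2
  ring

theorem mulShift_surj {m : AddChar F ℂ} (hm : m ≠ 1) (l : AddChar F ℂ) : ∃ a : F, AddChar.mulShift m a = l := by
  have hprim : m.IsPrimitive := AddChar.IsPrimitive.of_ne_one hm
  have hinj : Function.Injective (fun a : F => AddChar.mulShift m a) := AddChar.to_mulShift_inj_of_isPrimitive hprim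
  have hcard : Fintype.card F = Fintype.card (AddChar F ℂ) := by rw [AddChar.card_eq]
  have hbij := (Fintype.bijective_iff_injective_and_card _).mpr ⟨hinj, hcard⟩
  exact hbij.2 l

variable [FiniteDimensional ℂ V]

/-- the freeing lemma: all weights of `x_r` on the weight space of `x_t` have the same multiplicity -/
theorem trace_free {xs xr xt : F → Q} (hr : ∀ t u, xr t * xr u = xr (t + u)) (ht : ∀ t u, xt t * xt u = xt (t + u)) {n : F}
    (hn : n ≠ 0) (hsr : ∀ a b, xs a * xr b * (xs a)⁻¹ = xr b * xt (n * a * b)) (hst : ∀ a b, xs a * xt b = xt b * xs a)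
    {m : AddChar F ℂ} (hm : m ≠ 1) {A : Module.End ℂ V} (hA : ∀ a, ρ (xs a) * A = A * ρ (xs a)) (l l' : AddChar F ℂ) :
    LinearMap.trace ℂ V (Er ρ xr l * Er ρ xt m * A) = LinearMap.trace ℂ V (Er ρ xr l' * Er ρ xt m * A) := by
  obtain ⟨c, hc⟩ := mulShift_surj hm (l⁻¹ * l')
  have h1 := conj_free (ρ := ρ) hr ht hsr hst l m (-(c / n))
  have h2 : l * AddChar.mulShift m (-(n * (-(c / n)))) = l' := by
    have : -(n * (-(c / n))) = c := by field_simp
    rw [this, hc, mul_inv_cancel_left]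
  rw [h2] at h1
  have hg : ρ (xs (-(c / n)))⁻¹ * ρ (xs (-(c / n))) = 1 := by rw [← map_mul, inv_mul_cancel, map_one]
  refine trace_conj_eq hg ?_
  rw [← mul_assoc, h1, mul_assoc, hA, ← mul_assoc]

theorem trace_free_sum {xs xr xt : F → Q} (hr : ∀ t u, xr t * xr u = xr (t + u))
    (ht : ∀ t u, xt t * xt u = xt (t + u)) {n : F}
    (hn : n ≠ 0) (hsr : ∀ a b, xs a * xr b * (xs a)⁻¹ = xr b * xt (n * a * b)) (hst : ∀ a b, xs a * xt b = xt b * xs a)
    {m : AddChar F ℂ} (hm : m ≠ 1) {A : Module.End ℂ V} (hA : ∀ a, ρ (xs a) * A = A * ρ (xs a)) (l : AddChar F ℂ) :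
    LinearMap.trace ℂ V (Er ρ xt m * A) = Fintype.card F * LinearMap.trace ℂ V (Er ρ xr l * Er ρ xt m * A) := by
  have h1 : Er ρ xt m * A = ∑ l' : AddChar F ℂ, Er ρ xr l' * Er ρ xt m * A := by
    rw [← Finset.sum_mul, ← Finset.sum_mul, sum_Er hr, one_mul]
  rw [h1, map_sum, Finset.sum_congr rfl (fun l' _ => trace_free hr ht hn hsr hst hm hA l' l), Finset.sum_const,
    Finset.card_univ, AddChar.card_eq, nsmul_eq_mul]

end E

section rankone

variable [FiniteDimensional ℂ V]

/-- elements commuting with a projection of rank one commute on its range -/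
theorem comm_rank_one {P A B : Module.End ℂ V} (hP : P * P = P) (htr : LinearMap.trace ℂ V P = 1)
    (hA : A * P = P * A) (hB : B * P = P * B) : A * B * P = B * A * P := by
  have hi : IsIdempotentElem P := hP
  have h1 := (LinearMap.IsIdempotentElem.isProj_range P hi).trace
  rw [htr] at h1
  have h2 : Module.finrank ℂ (LinearMap.range P) = 1 := by exact_mod_cast h1.symm
  obtain ⟨⟨v, hv⟩, hv0, hspan⟩ := finrank_eq_one_iff'.mp h2
  have hPv : P v = v := by
    obtain ⟨w, rfl⟩ := hv
    rw [← Module.End.mul_apply, hP]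
  have hsc : ∀ A : Module.End ℂ V, A * P = P * A → ∃ c : ℂ, A v = c • v := by
    intro A hA
    have h3 : A v ∈ LinearMap.range P := by
      refine ⟨A v, ?_⟩
      rw [← Module.End.mul_apply, ← hA, Module.End.mul_apply, hPv]
    obtain ⟨c, hc⟩ := hspan ⟨A v, h3⟩
    exact ⟨c, (congrArg Subtype.val hc).symm⟩
  obtain ⟨a, ha⟩ := hsc A hA
  obtain ⟨b, hb⟩ := hsc B hB
  ext w
  obtain ⟨c, hc⟩ := hspan ⟨P w, ⟨w, rfl⟩⟩
  have hc' : P w = c • v := (congrArg Subtype.val hc).symm
  simp only [Module.End.mul_apply]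
  rw [hc', map_smul, map_smul, map_smul, map_smul, hb, ha, map_smul, map_smul, ha, hb, smul_comm a b]

/-- traces of idempotents -/
theorem trace_nat {P : Module.End ℂ V} (hP : P * P = P) : ∃ n : ℕ, LinearMap.trace ℂ V P = n ∧ (n = 0 → P = 0) :=
  trace_idem hP

theorem eq_zero_of_trace {P : Module.End ℂ V} (hP : P * P = P) (h : LinearMap.trace ℂ V P = 0) : P = 0 := by
  obtain ⟨n, hn, hn0⟩ := trace_nat hP
  apply hn0
  rw [h] at hn
  exact_mod_cast hn.symm

/-- `tr (P R) ≤ tr P` for commuting idempotents -/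
theorem trace_mul_le {P R : Module.End ℂ V} (hP : P * P = P) (hR : R * R = R) (h : P * R = R * P) {n : ℕ}
    (hn : LinearMap.trace ℂ V P = n) : ∃ k : ℕ, k ≤ n ∧ LinearMap.trace ℂ V (P * R) = k := by
  have h1 : (P * R) * (P * R) = P * R := by
    calc (P * R) * (P * R) = P * (R * P) * R := by noncomm_ring
      _ = (P * P) * (R * R) := by rw [← h]; noncomm_ring
      _ = P * R := by rw [hP, hR]
  have h2 : (P * (1 - R)) * (P * (1 - R)) = P * (1 - R) := by
    have e1 : P * (1 - R) = P - P * R := by noncomm_ring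
    rw [e1]
    calc (P - P * R) * (P - P * R) = P * P - P * P * R - P * (R * P) + (P * R) * (P * R) := by noncomm_ring
      _ = P - P * R := by rw [← h, h1, ← mul_assoc, hP]; abel
  obtain ⟨k, hk, -⟩ := trace_nat h1
  obtain ⟨j, hj, -⟩ := trace_nat h2
  refine ⟨k, ?_, hk⟩
  have h3 : LinearMap.trace ℂ V P = LinearMap.trace ℂ V (P * R) + LinearMap.trace ℂ V (P * (1 - R)) := by
    rw [← map_add]; congr 1; noncomm_ring
  rw [hn, hk, hj] at h3
  have : n = k + j := by exact_mod_cast h3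
  omega

end rankone

end Cfsg.Agent.Lib.MinDegA
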