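import Mathlib

/-!
Arithmetic for the minimal degrees: the number one below the bound does not divide the group order (helper18).
-/

set_option autoImplicit false

namespace Cfsg.Agent.Lib.MinDegArith


theorem div6 (x : ℤ) : (x^2 - 1) * (x^5 - 1) * (x^6 - 1) * (x^8 - 1) * (x^9 - 1) * (x^12 - 1) =
    (x^11 + x^8 + x^7 + x^5 + x^4 + x - 1) * (x^31 - x^29 - x^28 - x^27 + 2*x^24 + 2*x^23 + x^22 - 3*x^19 - 3*x^18 - x^17 - x^16 + 3*x^15 + 3*x^14 + 6*x^13 + 2*x^12 - 2*x^11 - 5*x^10 - 8*x^9 - 9*x^8 - 3*x^7 + 6*x^6 + 11*x^5 + 19*x^4 + 10*x^3 + 4*x^2 - 15*x - 27) + (-27*x^10 - 19*x^9 + 7*x^8 + 5*x^7 + 5*x^6 + 33*x^5 + 36*x^4 + 6*x^3 + 18*x^2 + 12*x - 26) := by ring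

theorem pos6 (y : ℕ) : 0 < (fun x : ℤ => 27*x^10 + 19*x^9 - 7*x^8 - 5*x^7 - 5*x^6 - 33*x^5 - 36*x^4 - 6*x^3 - 18*x^2 - 12*x + 26) (y + 60) ∧
    (fun x : ℤ => 27*x^10 + 19*x^9 - 7*x^8 - 5*x^7 - 5*x^6 - 33*x^5 - 36*x^4 - 6*x^3 - 18*x^2 - 12*x + 26) (y + 60) < (fun x : ℤ => x^11 + x^8 + x^7 + x^5 + x^4 + x - 1) (y + 60) := by
  constructor
  · dsimp only
    ring_nf
    positivity
  · dsimp only
    rw [← sub_pos]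
    ring_nf
    positivity

theorem small6 : ∀ q < 60, 2 ≤ q → ¬ ((q^11 + q^8 + q^7 + q^5 + q^4 + q - 1) ∣ q ^ 36 * (q ^ 2 - 1) * (q ^ 5 - 1) * (q ^ 6 - 1) * (q ^ 8 - 1) * (q ^ 9 - 1) * (q ^ 12 - 1)) := by
  intro q hq1 hq2
  interval_cases q <;> decide +kernel

theorem ndvd6 (q : ℕ) (hq : 2 ≤ q) : ¬ ((q^11 + q^8 + q^7 + q^5 + q^4 + q - 1) ∣ q ^ 36 * (q ^ 2 - 1) * (q ^ 5 - 1) * (q ^ 6 - 1) * (q ^ 8 - 1) * (q ^ 9 - 1) * (q ^ 12 - 1)) := by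
  rcases Nat.lt_or_ge q 60 with h | h
  · exact small6 q h hq
  · intro hd
    obtain ⟨y, rfl⟩ := Nat.exists_eq_add_of_le' h
    set q := y + 60 with hqy
    have h1 : ∀ d, 1 ≤ q ^ d := fun d => Nat.one_le_pow _ _ (by omega)
    have hcop : Nat.Coprime (q^11 + q^8 + q^7 + q^5 + q^4 + q - 1) (q ^ 36) := by
      apply Nat.Coprime.pow_right
      have h2 : q ∣ q^11 + q^8 + q^7 + q^5 + q^4 + q := ⟨q^10 + q^7 + q^6 + q^4 + q^3 + 1, by ring⟩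
      have h3 : 1 ≤ q^11 + q^8 + q^7 + q^5 + q^4 + q := by
        have := h1 11
        omega
      rw [Nat.Coprime, ← Nat.dvd_one]
      have h4 : Nat.gcd (q^11 + q^8 + q^7 + q^5 + q^4 + q - 1) q ∣ q^11 + q^8 + q^7 + q^5 + q^4 + q := (Nat.gcd_dvd_right _ _).trans h2
      have h5 : Nat.gcd (q^11 + q^8 + q^7 + q^5 + q^4 + q - 1) q ∣ q^11 + q^8 + q^7 + q^5 + q^4 + q - 1 := Nat.gcd_dvd_left _ _
      have h6 := Nat.dvd_sub h4 h5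
      have h7 : q^11 + q^8 + q^7 + q^5 + q^4 + q - (q^11 + q^8 + q^7 + q^5 + q^4 + q - 1) = 1 := by omega
      rwa [h7] at h6
    have hd2 : (q^11 + q^8 + q^7 + q^5 + q^4 + q - 1) ∣ (q ^ 2 - 1) * (q ^ 5 - 1) * (q ^ 6 - 1) * (q ^ 8 - 1) * (q ^ 9 - 1) * (q ^ 12 - 1) := by
      apply hcop.dvd_of_dvd_mul_left
      convert hd using 1
      ring
    have hd3 : ((q^11 + q^8 + q^7 + q^5 + q^4 + q - 1 : ℕ) : ℤ) ∣ (((q ^ 2 - 1) * (q ^ 5 - 1) * (q ^ 6 - 1) * (q ^ 8 - 1) * (q ^ 9 - 1) * (q ^ 12 - 1) : ℕ) : ℤ) := by exact_mod_cast hd2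
    have h3 : 1 ≤ q^11 + q^8 + q^7 + q^5 + q^4 + q := by
      have := h1 11
      omega
    rw [Nat.cast_sub h3] at hd3
    simp only [Nat.cast_mul, Nat.cast_sub (h1 _), Nat.cast_pow, Nat.cast_one, Nat.cast_add] at hd3
    rw [div6] at hd3
    have e : ((q : ℤ)^11 + (q : ℤ)^8 + (q : ℤ)^7 + (q : ℤ)^5 + (q : ℤ)^4 + (q : ℤ) - 1 : ℤ) = (q : ℤ)^11 + (q : ℤ)^8 + (q : ℤ)^7 + (q : ℤ)^5 + (q : ℤ)^4 + (q : ℤ) - 1 := by ring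
    rw [e] at hd3
    have hd4 := (Int.dvd_add_right (Dvd.intro _ rfl)).mp hd3
    obtain ⟨p1, p2⟩ := pos6 y
    have hqc : ((y : ℤ) + 60) = (q : ℤ) := by rw [hqy]; push_cast; ring
    rw [hqc] at p1 p2
    dsimp only at p1 p2
    have hd5 : ((q : ℤ)^11 + (q : ℤ)^8 + (q : ℤ)^7 + (q : ℤ)^5 + (q : ℤ)^4 + (q : ℤ) - 1) ∣ (27*(q : ℤ)^10 + 19*(q : ℤ)^9 - 7*(q : ℤ)^8 - 5*(q : ℤ)^7 - 5*(q : ℤ)^6 - 33*(q : ℤ)^5 - 36*(q : ℤ)^4 - 6*(q : ℤ)^3 - 18*(q : ℤ)^2 - 12*(q : ℤ) + 26) := by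
      have := (Int.dvd_neg).mpr hd4
      convert this using 1; ring
    have := Int.le_of_dvd p1 hd5
    linarith

theorem div7 (x : ℤ) : (x^2 - 1) * (x^6 - 1) * (x^8 - 1) * (x^10 - 1) * (x^12 - 1) * (x^14 - 1) * (x^18 - 1) =
    (x^17 + x^13 + x^11 + x^9 + x^7 + x^5 + x - 1) * (x^53 - x^51 - x^49 - x^47 + x^45 + 2*x^43 + x^41 + x^39 - 2*x^37 + x^36 - 3*x^35 - x^34 - x^33 - 2*x^32 + 2*x^31 - x^30 + 2*x^29 + 3*x^28 + x^27 + 5*x^26 - x^25 + x^24 - 2*x^23 - 3*x^22 - 2*x^21 - 9*x^20 + 2*x^19 - 7*x^18 + 2*x^17 + 4*x^16 - x^15 + 16*x^14 - 2*x^13 + 13*x^12 + 5*x^11 - 5*x^10 + 7*x^9 - 19*x^8 - 2*x^7 - 20*x^6 - 12*x^5 - 2*x^4 - 19*x^3 + 24*x^2 - 5*x + 31) + (25*x^16 + 5*x^15 + 48*x^14 - 29*x^13 + 46*x^12 - 23*x^11 + 24*x^10 - 27*x^9 + 7*x^8 - 37*x^7 - 2*x^6 - 41*x^5 + 17*x^4 - 43*x^3 + 30*x^2 - 36*x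 + 30) := by ring

theorem pos7 (y : ℕ) : 0 < (fun x : ℤ => 25*x^16 + 5*x^15 + 48*x^14 - 29*x^13 + 46*x^12 - 23*x^11 + 24*x^10 - 27*x^9 + 7*x^8 - 37*x^7 - 2*x^6 - 41*x^5 + 17*x^4 - 43*x^3 + 30*x^2 - 36*x + 30) (y + 60) ∧
    (fun x : ℤ => 25*x^16 + 5*x^15 + 48*x^14 - 29*x^13 + 46*x^12 - 23*x^11 + 24*x^10 - 27*x^9 + 7*x^8 - 37*x^7 - 2*x^6 - 41*x^5 + 17*x^4 - 43*x^3 + 30*x^2 - 36*x + 30) (y + 60) < (fun x : ℤ => x^17 + x^13 + x^11 + x^9 + x^7 + x^5 + x - 1) (y + 60) := by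
  constructor
  · dsimp only
    ring_nf
    positivity
  · dsimp only
    rw [← sub_pos]
    ring_nf
    positivity

theorem small7 : ∀ q < 60, 2 ≤ q → ¬ ((q^17 + q^13 + q^11 + q^9 + q^7 + q^5 + q - 1) ∣ q ^ 63 * (q ^ 2 - 1) * (q ^ 6 - 1) * (q ^ 8 - 1) * (q ^ 10 - 1) * (q ^ 12 - 1) * (q ^ 14 - 1) * (q ^ 18 - 1)) := by
  intro q hq1 hq2
  interval_cases q <;> decide +kernel

theorem ndvd7 (q : ℕ) (hq : 2 ≤ q) : ¬ ((q^17 + q^13 + q^11 + q^9 + q^7 + q^5 + q - 1) ∣ q ^ 63 * (q ^ 2 - 1) * (q ^ 6 - 1) * (q ^ 8 - 1) * (q ^ 10 - 1) * (q ^ 12 - 1) * (q ^ 14 - 1) * (q ^ 18 - 1)) := by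
  rcases Nat.lt_or_ge q 60 with h | h
  · exact small7 q h hq
  · intro hd
    obtain ⟨y, rfl⟩ := Nat.exists_eq_add_of_le' h
    set q := y + 60 with hqy
    have h1 : ∀ d, 1 ≤ q ^ d := fun d => Nat.one_le_pow _ _ (by omega)
    have hcop : Nat.Coprime (q^17 + q^13 + q^11 + q^9 + q^7 + q^5 + q - 1) (q ^ 63) := by
      apply Nat.Coprime.pow_right
      have h2 : q ∣ q^17 + q^13 + q^11 + q^9 + q^7 + q^5 + q := ⟨q^16 + q^12 + q^10 + q^8 + q^6 + q^4 + 1, by ring⟩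
      have h3 : 1 ≤ q^17 + q^13 + q^11 + q^9 + q^7 + q^5 + q := by
        have := h1 17
        omega
      rw [Nat.Coprime, ← Nat.dvd_one]
      have h4 : Nat.gcd (q^17 + q^13 + q^11 + q^9 + q^7 + q^5 + q - 1) q ∣ q^17 + q^13 + q^11 + q^9 + q^7 + q^5 + q := (Nat.gcd_dvd_right _ _).trans h2
      have h5 : Nat.gcd (q^17 + q^13 + q^11 + q^9 + q^7 + q^5 + q - 1) q ∣ q^17 + q^13 + q^11 + q^9 + q^7 + q^5 + q - 1 := Nat.gcd_dvd_left _ _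
      have h6 := Nat.dvd_sub h4 h5
      have h7 : q^17 + q^13 + q^11 + q^9 + q^7 + q^5 + q - (q^17 + q^13 + q^11 + q^9 + q^7 + q^5 + q - 1) = 1 := by omega
      rwa [h7] at h6
    have hd2 : (q^17 + q^13 + q^11 + q^9 + q^7 + q^5 + q - 1) ∣ (q ^ 2 - 1) * (q ^ 6 - 1) * (q ^ 8 - 1) * (q ^ 10 - 1) * (q ^ 12 - 1) * (q ^ 14 - 1) * (q ^ 18 - 1) := by
      apply hcop.dvd_of_dvd_mul_left
      convert hd using 1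
      ring
    have hd3 : ((q^17 + q^13 + q^11 + q^9 + q^7 + q^5 + q - 1 : ℕ) : ℤ) ∣ (((q ^ 2 - 1) * (q ^ 6 - 1) * (q ^ 8 - 1) * (q ^ 10 - 1) * (q ^ 12 - 1) * (q ^ 14 - 1) * (q ^ 18 - 1) : ℕ) : ℤ) := by exact_mod_cast hd2
    have h3 : 1 ≤ q^17 + q^13 + q^11 + q^9 + q^7 + q^5 + q := by
      have := h1 17
      omega
    rw [Nat.cast_sub h3] at hd3
    simp only [Nat.cast_mul, Nat.cast_sub (h1 _), Nat.cast_pow, Nat.cast_one, Nat.cast_add] at hd3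
    rw [div7] at hd3
    have e : ((q : ℤ)^17 + (q : ℤ)^13 + (q : ℤ)^11 + (q : ℤ)^9 + (q : ℤ)^7 + (q : ℤ)^5 + (q : ℤ) - 1 : ℤ) = (q : ℤ)^17 + (q : ℤ)^13 + (q : ℤ)^11 + (q : ℤ)^9 + (q : ℤ)^7 + (q : ℤ)^5 + (q : ℤ) - 1 := by ring
    rw [e] at hd3
    have hd4 := (Int.dvd_add_right (Dvd.intro _ rfl)).mp hd3
    obtain ⟨p1, p2⟩ := pos7 y
    have hqc : ((y : ℤ) + 60) = (q : ℤ) := by rw [hqy]; push_cast; ring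
    rw [hqc] at p1 p2
    dsimp only at p1 p2
    have hd5 : ((q : ℤ)^17 + (q : ℤ)^13 + (q : ℤ)^11 + (q : ℤ)^9 + (q : ℤ)^7 + (q : ℤ)^5 + (q : ℤ) - 1) ∣ (25*(q : ℤ)^16 + 5*(q : ℤ)^15 + 48*(q : ℤ)^14 - 29*(q : ℤ)^13 + 46*(q : ℤ)^12 - 23*(q : ℤ)^11 + 24*(q : ℤ)^10 - 27*(q : ℤ)^9 + 7*(q : ℤ)^8 - 37*(q : ℤ)^7 - 2*(q : ℤ)^6 - 41*(q : ℤ)^5 + 17*(q : ℤ)^4 - 43*(q : ℤ)^3 + 30*(q : ℤ)^2 - 36*(q : ℤ) + 30) := by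
      exact hd4
      
    have := Int.le_of_dvd p1 hd5
    linarith

theorem div8 (x : ℤ) : (x^2 - 1) * (x^8 - 1) * (x^12 - 1) * (x^14 - 1) * (x^18 - 1) * (x^20 - 1) * (x^24 - 1) * (x^30 - 1) =
    (x^29 + x^23 + x^19 + x^17 + x^13 + x^11 + x^7 + x - 1) * (x^99 - x^97 - x^93 + x^85 + x^83 + x^79 - x^75 - 2*x^71 + x^70 - x^69 - x^68 - 2*x^64 + x^63 + x^62 + x^61 - x^60 + 2*x^58 + 2*x^57 + x^56 - x^55 + 3*x^54 - x^52 + x^50 - 2*x^49 - 3*x^48 - x^46 - 5*x^44 - x^43 - x^42 + 3*x^41 - 3*x^40 - x^39 + 4*x^38 + x^37 + 3*x^36 - 2*x^35 + 8*x^34 + 2*x^33 + 3*x^32 - 2*x^31 + 4*x^30 + 4*x^29 - 3*x^28 - 2*x^27 - 5*x^26 + 7*x^25 - 9*x^24 - 6*x^23 - 5*x^22 + 2*x^21 - 7*x^20 - 10*x^19 + x^18 + x^17 + 3*x^16 - 13*x^15 + 11*x^14 + 8*x^13 + 10*x^12 - 7*x^11 + 9*x^10 + 22*x^9 + 3*x^8 + 2*x^7 - 7*x^6 + 28*x^5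 - 7*x^4 - 8*x^3 - 15*x^2 + 11*x - 4) + (-35*x^28 - 9*x^27 - 10*x^26 + 13*x^25 - 48*x^24 - 5*x^23 - 28*x^22 + 8*x^21 - 31*x^20 + 2*x^19 - 35*x^18 + 7*x^17 - 25*x^16 - 5*x^15 - 2*x^14 + 24*x^13 - 23*x^12 - 5*x^11 - 4*x^10 + 34*x^9 - 11*x^8 + 13*x^7 - 35*x^6 + 35*x^5 + x^4 + 7*x^3 - 27*x^2 + 15*x - 3) := by ring

theorem pos8 (y : ℕ) : 0 < (fun x : ℤ => 35*x^28 + 9*x^27 + 10*x^26 - 13*x^25 + 48*x^24 + 5*x^23 + 28*x^22 - 8*x^21 + 31*x^20 - 2*x^19 + 35*x^18 - 7*x^17 + 25*x^16 + 5*x^15 + 2*x^14 - 24*x^13 + 23*x^12 + 5*x^11 + 4*x^10 - 34*x^9 + 11*x^8 - 13*x^7 + 35*x^6 - 35*x^5 - x^4 - 7*x^3 + 27*x^2 - 15*x + 3) (y + 60) ∧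
    (fun x : ℤ => 35*x^28 + 9*x^27 + 10*x^26 - 13*x^25 + 48*x^24 + 5*x^23 + 28*x^22 - 8*x^21 + 31*x^20 - 2*x^19 + 35*x^18 - 7*x^17 + 25*x^16 + 5*x^15 + 2*x^14 - 24*x^13 + 23*x^12 + 5*x^11 + 4*x^10 - 34*x^9 + 11*x^8 - 13*x^7 + 35*x^6 - 35*x^5 - x^4 - 7*x^3 + 27*x^2 - 15*x + 3) (y + 60) < (fun x : ℤ => x^29 + x^23 + x^19 + x^17 + x^13 + x^11 + x^7 + x - 1) (y + 60) := by
  constructor
  · dsimp only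
    ring_nf
    positivity
  · dsimp only
    rw [← sub_pos]
    ring_nf
    positivity

theorem small8 : ∀ q < 60, 2 ≤ q → ¬ ((q^29 + q^23 + q^19 + q^17 + q^13 + q^11 + q^7 + q - 1) ∣ q ^ 120 * (q ^ 2 - 1) * (q ^ 8 - 1) * (q ^ 12 - 1) * (q ^ 14 - 1) * (q ^ 18 - 1) * (q ^ 20 - 1) * (q ^ 24 - 1) * (q ^ 30 - 1)) := by
  intro q hq1 hq2
  interval_cases q <;> decide +kernel

theorem ndvd8 (q : ℕ) (hq : 2 ≤ q) : ¬ ((q^29 + q^23 + q^19 + q^17 + q^13 + q^11 + q^7 + q - 1) ∣ q ^ 120 * (q ^ 2 - 1) * (q ^ 8 - 1) * (q ^ 12 - 1) * (q ^ 14 - 1) * (q ^ 18 - 1) * (q ^ 20 - 1) * (q ^ 24 - 1) * (q ^ 30 - 1)) := by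
  rcases Nat.lt_or_ge q 60 with h | h
  · exact small8 q h hq
  · intro hd
    obtain ⟨y, rfl⟩ := Nat.exists_eq_add_of_le' h
    set q := y + 60 with hqy
    have h1 : ∀ d, 1 ≤ q ^ d := fun d => Nat.one_le_pow _ _ (by omega)
    have hcop : Nat.Coprime (q^29 + q^23 + q^19 + q^17 + q^13 + q^11 + q^7 + q - 1) (q ^ 120) := by
      apply Nat.Coprime.pow_right
      have h2 : q ∣ q^29 + q^23 + q^19 + q^17 + q^13 + q^11 + q^7 + q := ⟨q^28 + q^22 + q^18 + q^16 + q^12 + q^10 + q^6 + 1, by ring⟩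
      have h3 : 1 ≤ q^29 + q^23 + q^19 + q^17 + q^13 + q^11 + q^7 + q := by
        have := h1 29
        omega
      rw [Nat.Coprime, ← Nat.dvd_one]
      have h4 : Nat.gcd (q^29 + q^23 + q^19 + q^17 + q^13 + q^11 + q^7 + q - 1) q ∣ q^29 + q^23 + q^19 + q^17 + q^13 + q^11 + q^7 + q := (Nat.gcd_dvd_right _ _).trans h2
      have h5 : Nat.gcd (q^29 + q^23 + q^19 + q^17 + q^13 + q^11 + q^7 + q - 1) q ∣ q^29 + q^23 + q^19 + q^17 + q^13 + q^11 + q^7 + q - 1 := Nat.gcd_dvd_left _ _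
      have h6 := Nat.dvd_sub h4 h5
      have h7 : q^29 + q^23 + q^19 + q^17 + q^13 + q^11 + q^7 + q - (q^29 + q^23 + q^19 + q^17 + q^13 + q^11 + q^7 + q - 1) = 1 := by omega
      rwa [h7] at h6
    have hd2 : (q^29 + q^23 + q^19 + q^17 + q^13 + q^11 + q^7 + q - 1) ∣ (q ^ 2 - 1) * (q ^ 8 - 1) * (q ^ 12 - 1) * (q ^ 14 - 1) * (q ^ 18 - 1) * (q ^ 20 - 1) * (q ^ 24 - 1) * (q ^ 30 - 1) := by
      apply hcop.dvd_of_dvd_mul_left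
      convert hd using 1
      ring
    have hd3 : ((q^29 + q^23 + q^19 + q^17 + q^13 + q^11 + q^7 + q - 1 : ℕ) : ℤ) ∣ (((q ^ 2 - 1) * (q ^ 8 - 1) * (q ^ 12 - 1) * (q ^ 14 - 1) * (q ^ 18 - 1) * (q ^ 20 - 1) * (q ^ 24 - 1) * (q ^ 30 - 1) : ℕ) : ℤ) := by exact_mod_cast hd2
    have h3 : 1 ≤ q^29 + q^23 + q^19 + q^17 + q^13 + q^11 + q^7 + q := by
      have := h1 29
      omega
    rw [Nat.cast_sub h3] at hd3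
    simp only [Nat.cast_mul, Nat.cast_sub (h1 _), Nat.cast_pow, Nat.cast_one, Nat.cast_add] at hd3
    rw [div8] at hd3
    have e : ((q : ℤ)^29 + (q : ℤ)^23 + (q : ℤ)^19 + (q : ℤ)^17 + (q : ℤ)^13 + (q : ℤ)^11 + (q : ℤ)^7 + (q : ℤ) - 1 : ℤ) = (q : ℤ)^29 + (q : ℤ)^23 + (q : ℤ)^19 + (q : ℤ)^17 + (q : ℤ)^13 + (q : ℤ)^11 + (q : ℤ)^7 + (q : ℤ) - 1 := by ring
    rw [e] at hd3
    have hd4 := (Int.dvd_add_right (Dvd.intro _ rfl)).mp hd3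
    obtain ⟨p1, p2⟩ := pos8 y
    have hqc : ((y : ℤ) + 60) = (q : ℤ) := by rw [hqy]; push_cast; ring
    rw [hqc] at p1 p2
    dsimp only at p1 p2
    have hd5 : ((q : ℤ)^29 + (q : ℤ)^23 + (q : ℤ)^19 + (q : ℤ)^17 + (q : ℤ)^13 + (q : ℤ)^11 + (q : ℤ)^7 + (q : ℤ) - 1) ∣ (35*(q : ℤ)^28 + 9*(q : ℤ)^27 + 10*(q : ℤ)^26 - 13*(q : ℤ)^25 + 48*(q : ℤ)^24 + 5*(q : ℤ)^23 + 28*(q : ℤ)^22 - 8*(q : ℤ)^21 + 31*(q : ℤ)^20 - 2*(q : ℤ)^19 + 35*(q : ℤ)^18 - 7*(q : ℤ)^17 + 25*(q : ℤ)^16 + 5*(q : ℤ)^15 + 2*(q : ℤ)^14 - 24*(q : ℤ)^13 + 23*(q : ℤ)^12 + 5*(q : ℤ)^11 + 4*(q : ℤ)^10 - 34*(q : ℤ)^9 + 11*(q : ℤ)^8 - 13*(q : ℤ)^7 + 35*(q : ℤ)^6 - 35*(q : ℤ)^5 - (q : ℤ)^4 - 7*(q : ℤ)^3 + 27*(q : ℤ)^2 - 15*(q : ℤ) + 3) := by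
      have := (Int.dvd_neg).mpr hd4
      convert this using 1; ring
    have := Int.le_of_dvd p1 hd5
    linarith

theorem tgt6 (q : ℕ) : q * (q ^ 6 + q ^ 3 + 1) * (q ^ 4 + 1) = q^11 + q^8 + q^7 + q^5 + q^4 + q := by ring

theorem big6 (q : ℕ) (hq : 2 ≤ q) (k : ℕ) (h : 2 * ((q - 1) * (q + 1)) * q ^ 10 ≤ q * k) : q * (q ^ 6 + q ^ 3 + 1) * (q ^ 4 + 1) ≤ k := by
  obtain ⟨y, rfl⟩ := Nat.exists_eq_add_of_le' hq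
  have e : y + 2 - 1 = y + 1 := rfl
  rw [e] at h
  have h2 : (y + 2) * ((y + 2) * ((y + 2) ^ 6 + (y + 2) ^ 3 + 1) * ((y + 2) ^ 4 + 1)) ≤ 2 * ((y + 1) * ((y + 2) + 1)) * (y + 2) ^ 10 := by
    have : (0 : ℤ) ≤ (((2 * ((y + 1) * ((y + 2) + 1)) * (y + 2) ^ 10 : ℕ) : ℤ) - (((y + 2) * ((y + 2) * ((y + 2) ^ 6 + (y + 2) ^ 3 + 1) * ((y + 2) ^ 4 + 1)) : ℕ) : ℤ)) := by
      push_cast
      ring_nf
      positivity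
    have h3 := sub_nonneg.mp this
    exact_mod_cast h3
  exact Nat.le_of_mul_le_mul_left (h2.trans h) (by omega)

theorem tgt7 (q : ℕ) : q ^ 17 + q ^ 13 + q ^ 11 + q ^ 9 + q ^ 7 + q ^ 5 + q = q^17 + q^13 + q^11 + q^9 + q^7 + q^5 + q := by ring

theorem big7 (q : ℕ) (hq : 2 ≤ q) (k : ℕ) (h : 2 * ((q - 1) * (q + 1)) * q ^ 16 ≤ q * k) : q ^ 17 + q ^ 13 + q ^ 11 + q ^ 9 + q ^ 7 + q ^ 5 + q ≤ k := by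
  obtain ⟨y, rfl⟩ := Nat.exists_eq_add_of_le' hq
  have e : y + 2 - 1 = y + 1 := rfl
  rw [e] at h
  have h2 : (y + 2) * ((y + 2) ^ 17 + (y + 2) ^ 13 + (y + 2) ^ 11 + (y + 2) ^ 9 + (y + 2) ^ 7 + (y + 2) ^ 5 + (y + 2)) ≤ 2 * ((y + 1) * ((y + 2) + 1)) * (y + 2) ^ 16 := by
    have : (0 : ℤ) ≤ (((2 * ((y + 1) * ((y + 2) + 1)) * (y + 2) ^ 16 : ℕ) : ℤ) - (((y + 2) * ((y + 2) ^ 17 + (y + 2) ^ 13 + (y + 2) ^ 11 + (y + 2) ^ 9 + (y + 2) ^ 7 + (y + 2) ^ 5 + (y + 2)) : ℕ) : ℤ)) := by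
      push_cast
      ring_nf
      positivity
    have h3 := sub_nonneg.mp this
    exact_mod_cast h3
  exact Nat.le_of_mul_le_mul_left (h2.trans h) (by omega)

theorem tgt8 (q : ℕ) : q * (q ^ 12 + 1) * (q ^ 10 + 1) * (q ^ 6 + 1) = q^29 + q^23 + q^19 + q^17 + q^13 + q^11 + q^7 + q := by ring

theorem big8 (q : ℕ) (hq : 2 ≤ q) (k : ℕ) (h : 2 * ((q - 1) * (q + 1)) * q ^ 28 ≤ q * k) : q * (q ^ 12 + 1) * (q ^ 10 + 1) * (q ^ 6 + 1) ≤ k := by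
  obtain ⟨y, rfl⟩ := Nat.exists_eq_add_of_le' hq
  have e : y + 2 - 1 = y + 1 := rfl
  rw [e] at h
  have h2 : (y + 2) * ((y + 2) * ((y + 2) ^ 12 + 1) * ((y + 2) ^ 10 + 1) * ((y + 2) ^ 6 + 1)) ≤ 2 * ((y + 1) * ((y + 2) + 1)) * (y + 2) ^ 28 := by
    have : (0 : ℤ) ≤ (((2 * ((y + 1) * ((y + 2) + 1)) * (y + 2) ^ 28 : ℕ) : ℤ) - (((y + 2) * ((y + 2) * ((y + 2) ^ 12 + 1) * ((y + 2) ^ 10 + 1) * ((y + 2) ^ 6 + 1)) : ℕ) : ℤ)) := by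
      push_cast
      ring_nf
      positivity
    have h3 := sub_nonneg.mp this
    exact_mod_cast h3
  exact Nat.le_of_mul_le_mul_left (h2.trans h) (by omega)

end Cfsg.Agent.Lib.MinDegArith
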