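import Cfsg.Agent.Lib.MinDegA
import Cfsg.Agent.Lib.UCELift

/-!
Complex representations of groups with a simply laced system of root elements: basic facts (helper18).
-/

set_option autoImplicit false
set_option linter.unusedSectionVars false

namespace Cfsg.Agent.Lib.MinDegB

open Cfsg.Lie Cfsg.Agent.Lib.ChevGood Cfsg.Agent.Lib.ChevRel Cfsg.Agent.Lib.ChevX Cfsg.Agent.Lib.UCEPair
open Cfsg.Agent.Lib.UCEBase Cfsg.Agent.Lib.UCESys Cfsg.Agent.Lib.UCELift Cfsg.Agent.Lib.UCESymbol Cfsg.Agent.Lib.UCETrip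
open Cfsg.Agent.Lib.WeightProj Cfsg.Agent.Lib.MinDegA

variable {D : ChevalleyDatum} (G : Good D)
  (P : ∀ r < D.nroots, ∀ s < D.nroots, PairOK D True r s) (T : ∀ a < D.nroots, ∀ b < D.nroots, Trip D a b)
  {F : Type*} [Field F] [Fintype F] {Q : Type*} [Group Q] (R : RSys D F Q)

theorem hx (r : Fin D.nroots) (t u : F) : R.x r t * R.x r u = R.x r (t + u) := R.add r r.2 t u

include G P in
theorem AA_conj {s r k : Fin D.nroots} {n : F} (h : AA D F s r k n) (a b : F) :
    R.x s a * R.x r b * (R.x s a)⁻¹ = R.x r b * R.x k (n * a * b) := by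
  have h1 := AA_cm G P R h (-a) (-b)
  have h2 : n * -a * -b = n * a * b := by ring
  rw [h2] at h1
  unfold cm at h1
  rw [inv_of (hx R s), inv_of (hx R r), neg_neg, neg_neg] at h1
  have h3 : CC D r k := by
    have := (AA_pr G P h).2.2.1
    unfold CC; rw [this]; norm_num
  rw [CC_comm G P R h3, ← h1]
  rw [← inv_of (hx R r) b, inv_of (hx R s) a]
  group

include G P in
theorem AA_st {s r k : Fin D.nroots} {n : F} (h : AA D F s r k n) (a b : F) :
    R.x s a * R.x k b = R.x k b * R.x s a := by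
  apply CC_comm G P R
  have := (AA_pr G P h).2.1
  unfold CC; rw [this]; norm_num

/-- the subgroup generated by a set of root subgroups -/
def XS (S : Set (Fin D.nroots)) : Subgroup Q := Subgroup.closure {g | ∃ r ∈ S, ∃ t, g = R.x r t}

theorem mem_XS {S : Set (Fin D.nroots)} {r : Fin D.nroots} (hr : r ∈ S) (t : F) : R.x r t ∈ XS R S :=
  Subgroup.subset_closure ⟨r, hr, t, rfl⟩

theorem XS_mono {S S' : Set (Fin D.nroots)} (h : S ⊆ S') : XS R S ≤ XS R S' :=
  Subgroup.closure_mono (fun _ ⟨r, hr, t, ht⟩ => ⟨r, h hr, t, ht⟩)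

theorem XS_insert (S : Set (Fin D.nroots)) (r : Fin D.nroots) :
    XS R (insert r S) = XS R S ⊔ Subgroup.closure (Set.range (fun t : F => R.x r t)) := by
  unfold XS
  rw [← Subgroup.closure_union]
  congr 1
  ext g
  constructor
  · rintro ⟨s, hs, t, rfl⟩
    rcases hs with rfl | hs
    · exact Or.inr ⟨t, rfl⟩
    · exact Or.inl ⟨s, hs, t, rfl⟩
  · rintro (⟨s, hs, t, rfl⟩ | ⟨t, rfl⟩)
    · exact ⟨s, Or.inr hs, t, rfl⟩
    · exact ⟨r, Or.inl rfl, t, rfl⟩

/-- `x_s` normalizes the group generated by the root subgroups of `S` -/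
def NS (D : ChevalleyDatum) (F : Type*) [Field F] (s : Fin D.nroots) (S : Set (Fin D.nroots)) : Prop :=
  ∀ r ∈ S, CC D s r ∨ ∃ k ∈ S, ∃ n : F, AA D F s r k n

include G P in
theorem NS_conj {s : Fin D.nroots} {S : Set (Fin D.nroots)} (h : NS D F s S) (a : F) {x : Q} (hx' : x ∈ XS R S) :
    R.x s a * x * (R.x s a)⁻¹ ∈ XS R S := by
  unfold XS at hx'
  induction hx' using Subgroup.closure_induction with
  | mem y hy =>
    obtain ⟨r, hr, t, rfl⟩ := hy
    rcases h r hr with h1 | ⟨k, hk, n, h1⟩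
    · rw [CC_comm G P R h1, mul_inv_cancel_right]; exact mem_XS R hr t
    · rw [AA_conj G P R h1]; exact mul_mem (mem_XS R hr t) (mem_XS R hk _)
  | one => rw [mul_one, mul_inv_cancel]; exact one_mem _
  | mul y z _ _ hy hz =>
    have : R.x s a * (y * z) * (R.x s a)⁻¹ = (R.x s a * y * (R.x s a)⁻¹) * (R.x s a * z * (R.x s a)⁻¹) := by group
    rw [this]; exact mul_mem hy hz
  | inv y _ hy =>
    have : R.x s a * y⁻¹ * (R.x s a)⁻¹ = (R.x s a * y * (R.x s a)⁻¹)⁻¹ := by group
    rw [this]; exact inv_mem hy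

variable {V : Type*} [AddCommGroup V] [Module ℂ V] {ρ : Representation ℂ Q V}

/-- the weight projections -/
noncomputable abbrev EE (ρ : Representation ℂ Q V) (R : RSys D F Q) (r : Fin D.nroots) (l : AddChar F ℂ) :
    Module.End ℂ V := Er ρ (fun t => R.x r t) l

/-- average over the group generated by the roots of `S` -/
noncomputable abbrev AV [Finite Q] (ρ : Representation ℂ Q V) (R : RSys D F Q) (S : Set (Fin D.nroots)) :
    Module.End ℂ V := av ρ (XS R S)

section fin
variable [Finite Q]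

include G P in
theorem comm_AV {s : Fin D.nroots} {S : Set (Fin D.nroots)} (h : NS D F s S) (a : F) :
    ρ (R.x s a) * AV ρ R S = AV ρ R S * ρ (R.x s a) :=
  comm_av (fun _ hx' => NS_conj G P R h a hx')

include G P in
theorem EE_AV {s : Fin D.nroots} {S : Set (Fin D.nroots)} (h : NS D F s S) (l : AddChar F ℂ) :
    EE ρ R s l * AV ρ R S = AV ρ R S * EE ρ R s l :=
  (comm_Er (fun t => (comm_AV G P R h t).symm) l).symm

include G P in
theorem AV_insert {s : Fin D.nroots} {S : Set (Fin D.nroots)} (h : NS D F s S) :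
    AV ρ R S * EE ρ R s 1 = AV ρ R (insert s S) := by
  unfold EE AV
  rw [Er_one (hx R s) rfl, XS_insert]
  apply av_mul_av_sup
  intro g hg x hx'
  induction hg using Subgroup.closure_induction generalizing x with
  | mem y hy =>
    obtain ⟨t, rfl⟩ := hy
    exact NS_conj G P R h t hx'
  | one => rw [one_mul, inv_one, mul_one]; exact hx'
  | mul y z _ _ hy hz =>
    have := hy _ (hz x hx')
    have e : y * z * x * (y * z)⁻¹ = y * (z * x * z⁻¹) * y⁻¹ := by group
    rw [e]; exact this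
  | inv y hy' hy =>
    -- finite group: y⁻¹ is a power of y
    obtain ⟨n, hn⟩ : ∃ n : ℕ, y⁻¹ = y ^ n := by
      have h1 := isOfFinOrder_of_finite y
      refine ⟨orderOf y - 1, ?_⟩
      rw [inv_eq_iff_mul_eq_one, ← pow_succ', Nat.sub_add_cancel (orderOf_pos y), pow_orderOf_eq_one]
    rw [hn]
    clear hn
    induction n generalizing x with
    | zero => simpa using hx'
    | succ n ih =>
      have e : y ^ (n + 1) * x * (y ^ (n + 1))⁻¹ = y ^ n * (y * x * y⁻¹) * (y ^ n)⁻¹ := by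
        rw [pow_succ]; group
      rw [e]
      exact ih _ (hy x hx')

theorem mul_AV {S : Set (Fin D.nroots)} {r : Fin D.nroots} (hr : r ∈ S) (t : F) :
    ρ (R.x r t) * AV ρ R S = AV ρ R S := mul_av (mem_XS R hr t)

theorem AV_mul {S : Set (Fin D.nroots)} {r : Fin D.nroots} (hr : r ∈ S) (t : F) :
    AV ρ R S * ρ (R.x r t) = AV ρ R S := av_mul (mem_XS R hr t)

theorem AV_idem (S : Set (Fin D.nroots)) : AV ρ R S * AV ρ R S = AV ρ R S := av_idem _

theorem AV_sub {S S' : Set (Fin D.nroots)} (h : S ⊆ S') : AV ρ R S' * AV ρ R S = AV ρ R S' :=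
  av_mul_av' (XS_mono R h)

theorem AV_sub' {S S' : Set (Fin D.nroots)} (h : S ⊆ S') : AV ρ R S * AV ρ R S' = AV ρ R S' :=
  av_mul_av (XS_mono R h)

/-- an operator fixed by the roots of `S` -/
theorem AV_fix {S : Set (Fin D.nroots)} {A : Module.End ℂ V} (h : ∀ r ∈ S, ∀ t, ρ (R.x r t) * A = A) :
    AV ρ R S * A = A := by
  apply av_mul_eq
  apply fix_closure
  rintro _ ⟨r, hr, t, rfl⟩
  exact h r hr t

theorem EE_kill {S : Set (Fin D.nroots)} {r : Fin D.nroots} (hr : r ∈ S) {l : AddChar F ℂ} (hl : l ≠ 1) :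
    EE ρ R r l * AV ρ R S = 0 :=
  Er_mul_eq_zero (hx R r) hl (fun t => mul_AV R hr t)

include G P in
/-- `x_s` commutes with `AV_S · E_r(l)` when `s + r ∈ S` (or they commute) -/
theorem comm_AV_EE {s r : Fin D.nroots} {S : Set (Fin D.nroots)} (h : NS D F s S) (hr : NS D F r S)
    (hsr : CC D s r ∨ ∃ k ∈ S, ∃ n : F, AA D F s r k n) (l : AddChar F ℂ) (a : F) :
    ρ (R.x s a) * (AV ρ R S * EE ρ R r l) = AV ρ R S * EE ρ R r l * ρ (R.x s a) := by
  rcases hsr with h1 | ⟨k, hk, n, h1⟩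
  · have e2 : ρ (R.x s a) * EE ρ R r l = EE ρ R r l * ρ (R.x s a) :=
      comm_Er (fun t => by rw [← map_mul, ← map_mul, CC_comm G P R h1]) l
    rw [← mul_assoc, comm_AV G P R h, mul_assoc, e2, mul_assoc]
  · rw [← mul_assoc, comm_AV G P R h, mul_assoc, mul_assoc]
    unfold EE Er E
    rw [mul_smul_comm, mul_smul_comm, smul_mul_assoc, mul_smul_comm, Finset.mul_sum, Finset.mul_sum, Finset.sum_mul,
      Finset.mul_sum]
    congr 1
    apply Finset.sum_congr rfl
    intro b _
    rw [mul_smul_comm, mul_smul_comm, smul_mul_assoc, mul_smul_comm]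
    congr 1
    have e1 : ρ (R.x s a) * ρ (R.x r b) = ρ (R.x k (n * a * b)) * ρ (R.x r b) * ρ (R.x s a) := by
      rw [← map_mul, ← map_mul, ← map_mul]
      congr 1
      have h3 : CC D k r := by
        have := (AA_pr G P h1).2.2.1
        apply CC_symm P
        unfold CC; rw [this]; norm_num
      rw [CC_comm G P R h3, ← AA_conj G P R h1]
      group
    rw [e1, ← mul_assoc, ← mul_assoc, AV_mul R hk, mul_assoc]

include G P in
/-- projections with disjoint commuting roots commute -/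
theorem EE_comm {r s : Fin D.nroots} (h : CC D r s) (l m : AddChar F ℂ) :
    EE ρ R r l * EE ρ R s m = EE ρ R s m * EE ρ R r l :=
  comm_Er (fun t => (comm_Er (fun u => by rw [← map_mul, ← map_mul, CC_comm G P R h]) l).symm) m

end fin

section traces

variable [FiniteDimensional ℂ V]

include G P in
theorem free {s r k : Fin D.nroots} {n : F} (h : AA D F s r k n) {m : AddChar F ℂ} (hm : m ≠ 1)
    {A : Module.End ℂ V} (hA : ∀ a, ρ (R.x s a) * A = A * ρ (R.x s a)) (l : AddChar F ℂ) :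
    LinearMap.trace ℂ V (EE ρ R k m * A) = Fintype.card F * LinearMap.trace ℂ V (EE ρ R r l * EE ρ R k m * A) :=
  trace_free_sum (hx R r) (hx R k) (AA_pr G P h).2.2.2.2.2.1 (AA_conj G P R h) (AA_st G P R h) hm hA l

/-- scaling conjugation -/
theorem trace_scale {xp xq : F → Q} (g : F → Q) (hg : ∀ u : F, u ≠ 0 → ∀ t, g u * xp t * (g u)⁻¹ = xq (u * t))
    {l m : AddChar F ℂ} (hl : l ≠ 1) (hm : m ≠ 1) :
    LinearMap.trace ℂ V (Er ρ xp l) = LinearMap.trace ℂ V (Er ρ xq m) := by
  obtain ⟨c, hc⟩ := mulShift_surj hm l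
  have hc0 : c ≠ 0 := by
    rintro rfl
    apply hl
    rw [← hc]
    ext t
    rw [AddChar.mulShift_apply, zero_mul, AddChar.map_zero_eq_one, AddChar.one_apply]
  have h2 : ρ (g c)⁻¹ * ρ (g c) = 1 := by rw [← map_mul, inv_mul_cancel, map_one]
  refine trace_conj_eq h2 ?_
  unfold Er E
  rw [mul_smul_comm, smul_mul_assoc, Finset.mul_sum, Finset.sum_mul]
  congr 1
  rw [← Equiv.sum_comp (Equiv.mulLeft₀ c hc0) (fun t => m (-t) • ρ (xq t) * ρ (g c))]
  apply Finset.sum_congr rfl
  intro t _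
  rw [mul_smul_comm, smul_mul_assoc]
  have e1 : l (-t) = m (-(Equiv.mulLeft₀ c hc0 t)) := by
    rw [← hc, AddChar.mulShift_apply]
    congr 1
    show c * -t = -(c * t)
    ring
  rw [e1]
  congr 1
  have e2 := hg c hc0 t
  show ρ (g c) * ρ (xp t) = ρ (xq (c * t)) * ρ (g c)
  rw [← e2, ← map_mul, ← map_mul]
  congr 1; group

include G P T in
theorem trace_adj_aux {a b r : Fin D.nroots} (h : D.chainEntry b a = [(r.val, -1)]) {l m : AddChar F ℂ} (hl : l ≠ 1)
    (hm : m ≠ 1) :
    LinearMap.trace ℂ V (EE ρ R a l) = LinearMap.trace ℂ V (EE ρ R r m) ∧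
      LinearMap.trace ℂ V (EE ρ R b l) = LinearMap.trace ℂ V (EE ρ R r m) := by
  let S := toSt3 G P T R a.2 b.2 r.2 h
  constructor
  · refine trace_scale (xp := fun t => R.x a t) (xq := fun t => R.x r t) (fun u => S.w 2 1 u⁻¹) ?_ hl hm
    intro u hu t
    have := S.w_kj (i := 2) (j := 1) (k := 0) (by decide) (by decide) (by decide) (inv_ne_zero hu) t
    rw [inv_inv] at this
    exact this
  · refine trace_scale (xp := fun t => R.x b t) (xq := fun t => R.x r t) (fun u => S.w 0 1 u) ?_ hl hm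
    intro u hu t
    exact S.w_jk (i := 0) (j := 1) (k := 2) (by decide) (by decide) (by decide) hu t

include G P T in
/-- adjacent roots have the same multiplicities -/
theorem trace_adj {a r : Fin D.nroots} (h : pr D r a = 1) {l m : AddChar F ℂ} (hl : l ≠ 1) (hm : m ≠ 1) :
    LinearMap.trace ℂ V (EE ρ R a l) = LinearMap.trace ℂ V (EE ρ R r m) := by
  have h' : pr D a r = 1 := by rw [(P a a.2 r r.2).symm]; exact h
  obtain ⟨d, n, hd⟩ := exists_dec (K := ℚ) G P h'
  obtain ⟨M, h1, h2⟩ := hd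
  have hM : M = 1 ∨ M = -1 := by
    rcases (P d d.2 a a.2).single with h4 | ⟨k', M', h4, h5⟩
    · rw [h1] at h4; simp at h4
    · rw [h1] at h4
      simp only [List.cons.injEq, Prod.mk.injEq, and_true] at h4
      rw [h4.2]; exact h5
  rcases hM with rfl | rfl
  · have hA : AA D ℚ a d r (-((1 : ℤ) : ℚ)) := ⟨1, h1, rfl⟩
    have hB := AA_symm G P hA (stdSys G ℚ) (fun _ hk t u => stdSys_inj G ℚ hk t u)
    obtain ⟨M', h4, h5⟩ := hB
    have : (M' : ℚ) = ((-1 : ℤ) : ℚ) := by push_cast at h5 ⊢; linarith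
    rw [Int.cast_inj.mp this] at h4
    exact (trace_adj_aux G P T R h4 hl hm).2
  · exact (trace_adj_aux G P T R h1 hl hm).1

end traces

end Cfsg.Agent.Lib.MinDegB
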