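import Cfsg.Agent.Lib.MinDegB

/-!
Weights of an abelian (mod centre) unipotent radical when the multiplicities are the smallest possible: only the weights in
the orbit of a root occur, each with multiplicity one (helper18).
-/

set_option autoImplicit false
set_option linter.unusedSectionVars false

namespace Cfsg.Agent.Lib.MinDegC

open Cfsg.Lie Cfsg.Agent.Lib.ChevGood Cfsg.Agent.Lib.ChevRel Cfsg.Agent.Lib.ChevX Cfsg.Agent.Lib.UCEPair
open Cfsg.Agent.Lib.UCEBase Cfsg.Agent.Lib.UCESys Cfsg.Agent.Lib.UCELift Cfsg.Agent.Lib.UCESymbol Cfsg.Agent.Lib.UCETrip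
open Cfsg.Agent.Lib.WeightProj Cfsg.Agent.Lib.MinDegA Cfsg.Agent.Lib.MinDegB

/-- the data of a unipotent radical: roots graded by `f`, `Z` the roots of degree 2, `U i` the roots of degree 1, in the
order of decreasing height -/
structure Rad (D : ChevalleyDatum) (G : Good D) (F : Type*) [Field F] where
  f : Fin D.nroots → ℤ
  ht : Fin D.nroots → ℤ
  N : ℕ
  U : ℕ → Fin D.nroots
  hU : ∀ i < N, f (U i) = 1
  exU : ∀ r, f r = 1 → ∃ i < N, U i = r
  inj : ∀ i < N, ∀ j < N, U i = U j → i = j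
  fle : ∀ r, f r ≤ 2
  fadd : ∀ a b k (n : F), AA D F a b k n → f k = f a + f b
  fneg : ∀ r, f ⟨D.neg r.val, neg_lt G r.2⟩ = -f r
  htadd : ∀ a b k (n : F), AA D F a b k n → ht k = ht a + ht b
  htne : ∀ r, ht r ≠ 0
  sorted : ∀ i < N, ∀ j < N, i ≤ j → ht (U j) ≤ ht (U i)

variable {D : ChevalleyDatum} {G : Good D}
  (P : ∀ r < D.nroots, ∀ s < D.nroots, PairOK D True r s) (T : ∀ a < D.nroots, ∀ b < D.nroots, Trip D a b)
  {F : Type*} [Field F] [Fintype F] {Q : Type*} [Group Q] (R : RSys D F Q) (X : Rad D G F)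

include G P in
/-- `pr a b ≥ -1` dichotomy -/
theorem pr_cases {a b : Fin D.nroots} (h : b.val ≠ D.neg a.val) : CC D a b ∨ ∃ k, ∃ n : F, AA D F a b k n := by
  by_cases h1 : 0 ≤ pr D a b
  · exact Or.inl h1
  · right
    have h2 := (P a a.2 b b.2).lower
    have h3 : pr D a b ≠ -2 := fun h3 => h ((P a a.2 b b.2).negtwo.mp h3)
    obtain ⟨k, n, hk⟩ := exists_AA (K := F) G P (a := a) (b := b) (by omega)
    exact ⟨k, n, hk⟩

namespace Rad

/-- roots of degree two -/
def Z : Set (Fin D.nroots) := {r | X.f r = 2}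

/-- roots of degree one adjacent to `r` -/
def adj (r : Fin D.nroots) : Set (Fin D.nroots) := {c | X.f c = 1 ∧ pr D r c = 1}

/-- the first roots -/
def W (i : ℕ) : Set (Fin D.nroots) := {r | X.f r = 2 ∨ ∃ j < i, j < X.N ∧ X.U j = r}

theorem neg_ne {a b : Fin D.nroots} (h : X.f b ≠ -X.f a) : b.val ≠ D.neg a.val := by
  intro h1
  apply h
  rw [← X.fneg a]
  congr 1
  exact Fin.ext h1

include P in
theorem NS_pos {a : Fin D.nroots} (ha : 1 ≤ X.f a) {S : Set (Fin D.nroots)} (hS : ∀ r ∈ S, 1 ≤ X.f r)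
    (hZ : X.Z ⊆ S) : NS D F a S := by
  intro r hr
  have h1 := hS r hr
  rcases pr_cases (G := G) (F := F) P (X.neg_ne (a := a) (b := r) (by omega)) with h2 | ⟨k, n, h2⟩
  · exact Or.inl h2
  · refine Or.inr ⟨k, hZ ?_, n, h2⟩
    have := X.fadd _ _ _ _ h2
    have := X.fle k
    show X.f k = 2
    omega

include P in
theorem NS_zero {s : Fin D.nroots} (hs : X.f s = 0) {S : Set (Fin D.nroots)} (hS : ∀ r ∈ S, 1 ≤ X.f r)
    (hcl : ∀ r ∈ S, ∀ k, ∀ n : F, AA D F s r k n → k ∈ S) : NS D F s S := by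
  intro r hr
  have h1 := hS r hr
  rcases pr_cases (G := G) (F := F) P (X.neg_ne (a := s) (b := r) (by omega)) with h2 | ⟨k, n, h2⟩
  · exact Or.inl h2
  · exact Or.inr ⟨k, hcl r hr k n h2, n, h2⟩

end Rad

variable [Finite Q] {V : Type*} [AddCommGroup V] [Module ℂ V] [FiniteDimensional ℂ V] {ρ : Representation ℂ Q V}

include G P in
/-- the free-list lemma -/
theorem free_list {r : Fin D.nroots} {S : Finset (Fin D.nroots)} {W : Set (Fin D.nroots)} {B : Module.End ℂ V}
    (h1 : ∀ a ∈ S, pr D r a = 1)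
    (h2 : ∀ a ∈ S, ∀ s, ∀ n : F, AA D F s a r n → NS D F s W ∧ ∀ t, ρ (R.x s t) * B = B * ρ (R.x s t))
    (h3 : ∀ a ∈ S, NS D F a W)
    (h4 : ∀ a ∈ S, ∀ b ∈ S, CC D a b ∨ ∃ k ∈ W, ∃ n : F, AA D F a b k n)
    {m : AddChar F ℂ} (hm : m ≠ 1) :
    LinearMap.trace ℂ V (B * (AV ρ R W * EE ρ R r m)) =
      (Fintype.card F : ℂ) ^ S.card * LinearMap.trace ℂ V (B * (AV ρ R (W ∪ S) * EE ρ R r m)) := by
  classical
  induction S using Finset.induction_on with
  | empty => simp
  | insert a S ha ih =>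
    rw [ih (fun b hb => h1 b (Finset.mem_insert_of_mem hb)) (fun b hb => h2 b (Finset.mem_insert_of_mem hb))
      (fun b hb => h3 b (Finset.mem_insert_of_mem hb))
      (fun b hb c hc => h4 b (Finset.mem_insert_of_mem hb) c (Finset.mem_insert_of_mem hc)),
      Finset.card_insert_of_notMem ha, pow_succ, mul_assoc]
    congr 1
    have hra := h1 a (Finset.mem_insert_self a S)
    have har : pr D a r = 1 := by rw [(P a a.2 r r.2).symm]; exact hra
    obtain ⟨s, m', hs'⟩ := exists_dec (K := F) G P har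
    have hs := AA_symm G P hs' (stdSys G F) (fun _ hk t u => stdSys_inj G F hk t u)
    obtain ⟨hNS, hB⟩ := h2 a (Finset.mem_insert_self a S) s _ hs
    have hlin := (AA_pr G P hs).2.2.2.1
    have hNS1 : NS D F s (W ∪ S) := by
      rintro b (hb | hb)
      · rcases hNS b hb with h | ⟨k, hk, n, h⟩
        · exact Or.inl h
        · exact Or.inr ⟨k, Or.inl hk, n, h⟩
      · left
        have hb' : b ∈ S := hb
        have e1 := hlin b b.2
        have e2 : pr D b r = 1 := by
          rw [(P b b.2 r r.2).symm]; exact h1 b (Finset.mem_insert_of_mem hb')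
        have e3 : pr D b a ≤ 2 := (P b b.2 a a.2).upper
        have e4 : pr D b a ≠ 2 := by
          intro h
          have h5 := (P b b.2 a a.2).two.mp h
          have h6 : b = a := Fin.ext h5
          rw [h6] at hb'
          exact ha hb'
        apply CC_symm P
        unfold CC
        omega
    have hNS2 : NS D F a (W ∪ S) := by
      rintro b (hb | hb)
      · rcases h3 a (Finset.mem_insert_self a S) b hb with h | ⟨k, hk, n, h⟩
        · exact Or.inl h
        · exact Or.inr ⟨k, Or.inl hk, n, h⟩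
      · rcases h4 a (Finset.mem_insert_self a S) b (Finset.mem_insert_of_mem hb) with h | ⟨k, hk, n, h⟩
        · exact Or.inl h
        · exact Or.inr ⟨k, Or.inl hk, n, h⟩
    have hA : ∀ t, ρ (R.x s t) * (B * AV ρ R (W ∪ S)) = B * AV ρ R (W ∪ S) * ρ (R.x s t) := by
      intro t
      rw [← mul_assoc, hB, mul_assoc, comm_AV G P R hNS1, mul_assoc]
    have h5 := free G P R (ρ := ρ) hs hm hA 1
    rw [← mul_assoc, LinearMap.trace_mul_comm, h5]
    congr 1
    have h6 : (W ∪ (insert a S : Finset (Fin D.nroots)) : Set (Fin D.nroots)) = insert a (W ∪ S) := by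
      ext x
      simp only [Finset.coe_insert, Set.mem_union, Set.mem_insert_iff, Finset.mem_coe]
      tauto
    rw [h6, ← AV_insert G P R hNS2, LinearMap.trace_mul_comm, ← mul_assoc, ← mul_assoc, ← mul_assoc]

/-- product of commuting idempotents -/
theorem idem_mul {A B : Module.End ℂ V} (hA : A * A = A) (hB : B * B = B) (h : A * B = B * A) :
    (A * B) * (A * B) = A * B := by
  calc (A * B) * (A * B) = A * (B * A) * B := by noncomm_ring
    _ = (A * A) * (B * B) := by rw [← h]; noncomm_ring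
    _ = A * B := by rw [hA, hB]

include G P in
theorem idem_AV_EE {r : Fin D.nroots} {S : Set (Fin D.nroots)} (h : NS D F r S) (l : AddChar F ℂ) :
    (AV ρ R S * EE ρ R r l) * (AV ρ R S * EE ρ R r l) = AV ρ R S * EE ρ R r l :=
  idem_mul (AV_idem R S) (Er_mul_self (hx R r) l) (EE_AV G P R h l).symm

end Cfsg.Agent.Lib.MinDegC
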