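import Cfsg.Agent.Lib.MinDegC

/-!
Weights of an abelian (mod centre) unipotent radical, continued (helper18).
-/

set_option autoImplicit false
set_option linter.unusedSectionVars false

namespace Cfsg.Agent.Lib.MinDegD

open Cfsg.Lie Cfsg.Agent.Lib.ChevGood Cfsg.Agent.Lib.ChevRel Cfsg.Agent.Lib.ChevX Cfsg.Agent.Lib.UCEPair
open Cfsg.Agent.Lib.UCEBase Cfsg.Agent.Lib.UCESys Cfsg.Agent.Lib.UCELift Cfsg.Agent.Lib.UCESymbol Cfsg.Agent.Lib.UCETrip
open Cfsg.Agent.Lib.WeightProj Cfsg.Agent.Lib.MinDegA Cfsg.Agent.Lib.MinDegB Cfsg.Agent.Lib.MinDegC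

variable {D : ChevalleyDatum} {G : Good D}
  (P : ∀ r < D.nroots, ∀ s < D.nroots, PairOK D True r s) (T : ∀ a < D.nroots, ∀ b < D.nroots, Trip D a b)
  {F : Type*} [Field F] [Fintype F] {Q : Type*} [Group Q] (R : RSys D F Q) (X : Rad D G F)
  [Finite Q] {V : Type*} [AddCommGroup V] [Module ℂ V] [FiniteDimensional ℂ V] {ρ : Representation ℂ Q V}

/-- the set `Z ∪ adj r` -/
def ZA (X : Rad D G F) (r : Fin D.nroots) : Set (Fin D.nroots) := {c | X.f c = 2 ∨ (X.f c = 1 ∧ pr D r c = 1)}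

theorem ZA_pos {r : Fin D.nroots} : ∀ c ∈ ZA X r, 1 ≤ X.f c := by
  rintro c (h | ⟨h, -⟩) <;> omega

theorem Z_sub {r : Fin D.nroots} : X.Z ⊆ ZA X r := fun _ h => Or.inl h

include P in
theorem NS_Z {a : Fin D.nroots} (ha : 0 ≤ X.f a) : NS D F a X.Z := by
  rcases lt_or_eq_of_le ha with h | h
  · exact X.NS_pos P (by omega) (fun r hr => by have : X.f r = 2 := hr; omega) subset_rfl
  · apply X.NS_zero P h.symm
    · intro r hr
      have : X.f r = 2 := hr
      omega
    · intro r hr k n hk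
      have h1 : X.f r = 2 := hr
      have := X.fadd _ _ _ _ hk
      show X.f k = 2
      omega

/-- the projection onto the weights in the orbit of `r` in normal form -/
noncomputable def P0 (ρ : Representation ℂ Q V) (R : RSys D F Q) (X : Rad D G F) (r : Fin D.nroots) (m : AddChar F ℂ) :
    Module.End ℂ V := AV ρ R (ZA X r) * EE ρ R r m

include P in
theorem NS_ZA {a r : Fin D.nroots} (ha : 1 ≤ X.f a) : NS D F a (ZA X r) :=
  X.NS_pos P ha (ZA_pos X) (Z_sub X)

include P in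
/-- sums of roots of degree 0 and orthogonal to `r` with roots in `ZA` -/
theorem NS_ZA0 {s r : Fin D.nroots} (hs : X.f s = 0) (hsr : pr D r s = 0) : NS D F s (ZA X r) := by
  apply X.NS_zero P hs (ZA_pos X)
  rintro c (h | ⟨h, h'⟩) k n hk
  · left
    have := X.fadd _ _ _ _ hk
    omega
  · right
    have h1 := X.fadd _ _ _ _ hk
    have h2 := (AA_pr G P hk).2.2.2.1 r r.2
    exact ⟨by omega, by omega⟩

/-- the number of adjacent roots -/
noncomputable def nadj (X : Rad D G F) (r : Fin D.nroots) : ℕ := (Finset.univ.filter (fun c => X.f c = 1 ∧ pr D r c = 1)).card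

include P in
/-- the trace of `P0` -/
theorem trace_P0 {r : Fin D.nroots} (hr : X.f r = 1) {m : AddChar F ℂ} (hm : m ≠ 1) :
    LinearMap.trace ℂ V (AV ρ R X.Z * EE ρ R r m) =
      (Fintype.card F : ℂ) ^ (nadj X r) * LinearMap.trace ℂ V (P0 ρ R X r m) := by
  classical
  have h := free_list (G := G) P R (ρ := ρ) (r := r) (S := Finset.univ.filter (fun c => X.f c = 1 ∧ pr D r c = 1)) (W := X.Z)
    (B := 1) (fun a ha => (Finset.mem_filter.mp ha).2.2) (by
      intro a ha s n hs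
      have h1 := X.fadd _ _ _ _ hs
      have h2 := (Finset.mem_filter.mp ha).2.1
      exact ⟨NS_Z P X (by omega), fun t => by rw [mul_one, one_mul]⟩)
    (by
      intro a ha
      have h2 := (Finset.mem_filter.mp ha).2.1
      exact NS_Z P X (by omega))
    (by
      intro a ha b hb
      have h2 := (Finset.mem_filter.mp ha).2.1
      have h3 := (Finset.mem_filter.mp hb).2.1
      rcases pr_cases (G := G) (F := F) P (X.neg_ne (a := a) (b := b) (by omega)) with h | ⟨k, n, h⟩
      · exact Or.inl h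
      · refine Or.inr ⟨k, ?_, n, h⟩
        have := X.fadd _ _ _ _ h
        show X.f k = 2
        omega) hm
  rw [one_mul, one_mul] at h
  rw [h]
  have hset : (X.Z ∪ ((Finset.univ.filter (fun c => X.f c = 1 ∧ pr D r c = 1) : Finset (Fin D.nroots)) : Set _)) = ZA X r := by
    ext c
    simp only [Set.mem_union, Finset.coe_filter, Finset.mem_univ, true_and, Set.mem_setOf_eq, ZA, Rad.Z]
  rw [hset]
  rfl

section step4

variable {r : Fin D.nroots} (hr : X.f r = 1) {m : AddChar F ℂ}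
  (h1 : LinearMap.trace ℂ V (P0 ρ R X r m) = 1)

include P hr in
theorem P0_idem (m : AddChar F ℂ) : P0 ρ R X r m * P0 ρ R X r m = P0 ρ R X r m :=
  idem_AV_EE (G := G) P R (NS_ZA P X (by omega)) m

include P hr in
theorem comm_P0 {c : Fin D.nroots} (hc : 1 ≤ X.f c) (t : F) (m : AddChar F ℂ) :
    ρ (R.x c t) * P0 ρ R X r m = P0 ρ R X r m * ρ (R.x c t) := by
  unfold P0
  apply comm_AV_EE G P R (NS_ZA P X hc) (NS_ZA P X (by omega))
  rcases pr_cases (G := G) (F := F) P (X.neg_ne (a := c) (b := r) (by omega)) with h | ⟨k, n, h⟩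
  · exact Or.inl h
  · refine Or.inr ⟨k, Or.inl ?_, n, h⟩
    have := X.fadd _ _ _ _ h
    have := X.fle k
    omega

include P hr in
theorem EE_P0 {c : Fin D.nroots} (hc : 1 ≤ X.f c) (l m : AddChar F ℂ) :
    EE ρ R c l * P0 ρ R X r m = P0 ρ R X r m * EE ρ R c l :=
  (comm_Er (fun t => (comm_P0 P R X hr hc t m).symm) l).symm

include P hr in
/-- the general divisibility argument -/
theorem kill_of_free {c c' s : Fin D.nroots} {n : F} (hs : AA D F s c' c n) (hc : 1 ≤ X.f c) (hc' : 1 ≤ X.f c')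
    {A : Module.End ℂ V} (hA : A = P0 ρ R X r m) (htr : LinearMap.trace ℂ V (P0 ρ R X r m) = 1)
    (hcomm : ∀ t, ρ (R.x s t) * A = A * ρ (R.x s t)) {l : AddChar F ℂ} (hl : l ≠ 1) : EE ρ R c l * P0 ρ R X r m = 0 := by
  have hq : 1 < Fintype.card F := Fintype.one_lt_card
  have e1 := free G P R (ρ := ρ) hs hl hcomm 1
  have hid := P0_idem P R X hr (ρ := ρ) m
  obtain ⟨k1, hk1, hk1'⟩ := trace_mul_le hid (Er_mul_self (hx R c) l) (EE_P0 P R X hr hc l m).symm (n := 1)
    (by rw [htr]; norm_num)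
  have hid2 : (EE ρ R c l * P0 ρ R X r m) * (EE ρ R c l * P0 ρ R X r m) = EE ρ R c l * P0 ρ R X r m :=
    idem_mul (Er_mul_self (hx R c) l) hid (EE_P0 P R X hr hc l m)
  have hcc' : CC D c' c := by
    have := (AA_pr G P hs).2.2.1
    unfold CC; omega
  have hcm : EE ρ R c' 1 * (EE ρ R c l * P0 ρ R X r m) = (EE ρ R c l * P0 ρ R X r m) * EE ρ R c' 1 := by
    rw [← mul_assoc, EE_comm G P R hcc', mul_assoc, EE_P0 P R X hr hc', mul_assoc]
  have hid3 := idem_mul (Er_mul_self (hx R c') 1) hid2 hcm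
  obtain ⟨k2, hk2, -⟩ := trace_nat hid3
  rw [hA, mul_assoc, hk2] at e1
  have e2 : LinearMap.trace ℂ V (EE ρ R c l * P0 ρ R X r m) = k1 := by
    rw [EE_P0 P R X hr hc]; exact hk1'
  rw [e2] at e1
  have e3 : k1 = Fintype.card F * k2 := by exact_mod_cast e1
  have e4 : k2 = 0 := by
    by_contra h0
    have : Fintype.card F * 1 ≤ Fintype.card F * k2 := Nat.mul_le_mul_left _ (Nat.pos_of_ne_zero h0)
    omega
  rw [e4, mul_zero] at e3
  apply eq_zero_of_trace hid2
  rw [e2, e3]; norm_num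

include P hr in
/-- orthogonal roots act trivially -/
theorem fix_orth (htr : LinearMap.trace ℂ V (P0 ρ R X r m) = 1) {c c' : Fin D.nroots} (hc : X.f c = 1)
    (hc' : X.f c' = 1) (hrc : pr D r c = 0) (hrc' : pr D r c' = 0) (hcc' : pr D c c' = 1) (t : F) :
    ρ (R.x c t) * P0 ρ R X r m = P0 ρ R X r m := by
  apply fix_of_Er_zero (hx R c)
  intro l hl
  have h2 : pr D c' c = 1 := by rw [(P c' c'.2 c c.2).symm]; exact hcc'
  obtain ⟨s, m', hs'⟩ := exists_dec (K := F) G P h2
  have hs := AA_symm G P hs' (stdSys G F) (fun _ hk t u => stdSys_inj G F hk t u)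
  have hlin := (AA_pr G P hs).2.2.2.1
  have hfs := X.fadd _ _ _ _ hs
  have hrs : pr D r s = 0 := by
    have := hlin r r.2
    omega
  refine kill_of_free P R X hr (m := m) hs (by omega) (by omega) rfl htr ?_ hl
  intro t
  unfold P0
  apply comm_AV_EE G P R (NS_ZA0 P X (by omega) hrs) (NS_ZA P X (by omega))
  left
  apply CC_symm P
  unfold CC; omega

end step4

end Cfsg.Agent.Lib.MinDegD
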