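import Cfsg.Agent.Lib.MinDegD

/-!
Weights of an abelian (mod centre) unipotent radical: the block decomposition (helper18).
-/

set_option autoImplicit false
set_option linter.unusedSectionVars false

namespace Cfsg.Agent.Lib.MinDegE

open Cfsg.Lie Cfsg.Agent.Lib.ChevGood Cfsg.Agent.Lib.ChevRel Cfsg.Agent.Lib.ChevX Cfsg.Agent.Lib.UCEPair
open Cfsg.Agent.Lib.UCEBase Cfsg.Agent.Lib.UCESys Cfsg.Agent.Lib.UCELift Cfsg.Agent.Lib.UCESymbol Cfsg.Agent.Lib.UCETrip
open Cfsg.Agent.Lib.WeightProj Cfsg.Agent.Lib.MinDegA Cfsg.Agent.Lib.MinDegB Cfsg.Agent.Lib.MinDegC Cfsg.Agent.Lib.MinDegD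

variable {D : ChevalleyDatum} {G : Good D}
  (P : ∀ r < D.nroots, ∀ s < D.nroots, PairOK D True r s) (T : ∀ a < D.nroots, ∀ b < D.nroots, Trip D a b)
  {F : Type*} [Field F] [Fintype F] {Q : Type*} [Group Q] (R : RSys D F Q) (X : Rad D G F)
  [Finite Q] {V : Type*} [AddCommGroup V] [Module ℂ V] [FiniteDimensional ℂ V] {ρ : Representation ℂ Q V}

/-- the combinatorial facts about the radical -/
structure RadOK (X : Rad D G F) : Prop where
  orth : ∀ r c, X.f r = 1 → X.f c = 1 → pr D r c = 0 → ∃ c', X.f c' = 1 ∧ pr D r c' = 0 ∧ pr D c c' = 1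
  neg : ∀ r c, X.f r = 1 → X.f c = 1 → pr D r c = -1 → (∃ c', X.f c' = 1 ∧ pr D r c' = 0 ∧ pr D c c' = 1) ∧
    ∀ c', X.f c' = 1 → pr D r c' = -1 → c' = c

variable {X} (H : RadOK X) {r : Fin D.nroots} (hr : X.f r = 1) {m : AddChar F ℂ}
  (htr : LinearMap.trace ℂ V (P0 ρ R X r m) = 1)

include P H hr htr

/-- the roots with `(r, c) = -1` act trivially -/
theorem fix_neg {c : Fin D.nroots} (hc : X.f c = 1) (hrc : pr D r c = -1) (t : F) :
    ρ (R.x c t) * P0 ρ R X r m = P0 ρ R X r m := by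
  obtain ⟨⟨c', hc', hrc', hcc'⟩, huniq⟩ := H.neg r c hr hc hrc
  apply fix_of_Er_zero (hx R c)
  intro l hl
  have h2 : pr D c' c = 1 := by rw [(P c' c'.2 c c.2).symm]; exact hcc'
  obtain ⟨s, m', hs'⟩ := exists_dec (K := F) G P h2
  have hs := AA_symm G P hs' (stdSys G F) (fun _ hk t u => stdSys_inj G F hk t u)
  have hlin := (AA_pr G P hs).2.2.2.1
  have hfs := X.fadd _ _ _ _ hs
  have hrs : pr D r s = -1 := by
    have := hlin r r.2
    omega
  have hsc' : pr D s c' = -1 := (AA_pr G P hs).1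
  let W' : Set (Fin D.nroots) := {w | X.f w = 2 ∨ (X.f w = 1 ∧ pr D r w = 1) ∨ (X.f w = 1 ∧ pr D r w = 0 ∧ w ≠ c')}
  have hW'pos : ∀ w ∈ W', 1 ≤ X.f w := by rintro w (h | ⟨h, -⟩ | ⟨h, -⟩) <;> omega
  have hsub : ZA X r ⊆ W' := by
    rintro w (h | h)
    · exact Or.inl h
    · exact Or.inr (Or.inl h)
  have hA : AV ρ R W' * EE ρ R r m = P0 ρ R X r m := by
    have e1 : AV ρ R W' * P0 ρ R X r m = P0 ρ R X r m := by
      apply AV_fix
      rintro w (h | h | ⟨h1, h2, -⟩) t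
      · unfold P0; rw [← mul_assoc, mul_AV R (Or.inl h)]
      · unfold P0; rw [← mul_assoc, mul_AV R (Or.inr h)]
      · obtain ⟨w', hw1, hw2, hw3⟩ := H.orth r w hr h1 h2
        exact fix_orth P R X hr htr h1 hw1 h2 hw2 hw3 t
    rw [← e1]
    unfold P0
    rw [← mul_assoc, AV_sub R hsub]
  have hkpr : ∀ k w (n : F), AA D F s w k n → X.f k = X.f w ∧ pr D r k = pr D r w - 1 := by
    intro k w n h
    have e1 := X.fadd _ _ _ _ h
    have e2 := (AA_pr G P h).2.2.2.1 r r.2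
    exact ⟨by omega, by omega⟩
  refine kill_of_free P R X hr (m := m) hs (by omega) (by omega) hA htr ?_ hl
  intro t
  apply comm_AV_EE G P R
  · apply X.NS_zero P (by omega) hW'pos
    rintro w hw k n h
    obtain ⟨e1, e2⟩ := hkpr k w n h
    rcases hw with hw | ⟨hw, hw'⟩ | ⟨hw, hw', hw''⟩
    · left; omega
    · right; right
      refine ⟨by omega, by omega, ?_⟩
      rintro rfl
      have := (AA_pr G P h).2.1
      omega
    · exfalso
      have h3 : k = c := huniq k (by omega) (by omega)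
      subst h3
      apply hw''
      have e3 := (AA_pr G P h).2.2.2.2.1
      have e4 := (AA_pr G P hs).2.2.2.2.1
      exact Fin.ext (G.rv_inj w w.2 c' c'.2 (fun j _ => by have := e3 j; have := e4 j; omega))
  · exact X.NS_pos P (by omega) hW'pos (fun w hw => Or.inl hw)
  · right
    have hsr : pr D s r = -1 := by rw [(P s s.2 r r.2).symm]; exact hrs
    obtain ⟨k, n, hk⟩ := exists_AA (K := F) G P hsr
    refine ⟨k, Or.inr (Or.inl ?_), n, hk⟩
    obtain ⟨e1, e2⟩ := hkpr k r n hk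
    have := pr_self G r.2
    exact ⟨by omega, by omega⟩

/-- all roots of degree one other than `r` act trivially -/
theorem fix_all {c : Fin D.nroots} (hc : 1 ≤ X.f c) (hcr : c ≠ r) (t : F) :
    ρ (R.x c t) * P0 ρ R X r m = P0 ρ R X r m := by
  have hle := X.fle c
  have h2 : X.f c = 2 ∨ X.f c = 1 := by omega
  rcases h2 with h2 | h2
  · unfold P0; rw [← mul_assoc, mul_AV R (Or.inl h2)]
  · have l1 := (P r r.2 c c.2).lower
    have l2 := (P r r.2 c c.2).upper
    have l3 : pr D r c ≠ 2 := fun h => hcr (Fin.ext ((P r r.2 c c.2).two.mp h)).symm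
    have l4 : pr D r c ≠ -2 := fun h => X.neg_ne (a := r) (b := c) (by omega) ((P r r.2 c c.2).negtwo.mp h)
    have h3 : pr D r c = 1 ∨ pr D r c = 0 ∨ pr D r c = -1 := by omega
    rcases h3 with h3 | h3 | h3
    · unfold P0; rw [← mul_assoc, mul_AV R (Or.inr ⟨h2, h3⟩)]
    · obtain ⟨c', h4, h5, h6⟩ := H.orth r c hr h2 h3
      exact fix_orth P R X hr htr h2 h4 h3 h5 h6 t
    · exact fix_neg P R H hr htr h2 h3 t

/-- enlarging the average does not change `P0` -/
theorem absorb {S : Set (Fin D.nroots)} (h1 : ZA X r ⊆ S) (h2 : ∀ c ∈ S, 1 ≤ X.f c ∧ c ≠ r) :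
    AV ρ R S * EE ρ R r m = P0 ρ R X r m := by
  have e1 : AV ρ R S * P0 ρ R X r m = P0 ρ R X r m := by
    apply AV_fix
    intro w hw t
    exact fix_all P R H hr htr (h2 w hw).1 (h2 w hw).2 t
  rw [← e1]
  unfold P0
  rw [← mul_assoc, AV_sub R h1]

end Cfsg.Agent.Lib.MinDegE
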