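import Cfsg.Agent.Lib.MinDegJ
import Cfsg.Agent.Lib.ChevOkE6

/-! Kernel checked combinatorial data for the minimal degrees, type E6 (helper18, machine generated). -/

set_option autoImplicit false

namespace Cfsg.Agent.Lib.MinDegE6

open Cfsg.Lie Cfsg.Agent.Lib.ChevGood Cfsg.Agent.Lib.UCEPair Cfsg.Agent.Lib.UCETrip Cfsg.Agent.Lib.MinDegI Cfsg.Agent.Lib.ChevOkE6

set_option maxRecDepth 1000000

def U : List ℕ := [70, 69, 68, 66, 67, 65, 55, 64, 63, 54, 62, 53, 52, 61, 51, 49, 50, 48, 47, 46]

def LL : List (ℕ × Bool) := [(9, true), (8, true), (7, true), (7, true), (6, false), (6, true), (6, false), (5, false), (5, true), (5, false), (4, false), (4, false), (4, false), (3, false), (3, false), (3, false), (2, false), (2, false), (1, false), (0, false)]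

theorem k0 : 0 < chevE6.nroots := by decide
theorem k1 : chkRad chevE6 good.rv 1 U = true := by decide +kernel
theorem k2 : chkTop chevE6 good.rv 1 60 U [(36, 59), (38, 58), (41, 57), (45, 56)] = true := by decide +kernel
theorem k5 : chkAdj chevE6 U 9 = true := by decide +kernel
theorem k6 : chkEll chevE6 U 60 LL = true := by decide +kernel
theorem k7 : chkConn chevE6 71 [1, 2, 3, 5, 27, 46, 47, 48, 50, 55, 69, 70] = true := by decide +kernel

def A : List ℕ := [66, 65, 63, 68, 69, 70, 67, 55, 64, 54]

theorem k3 : chkHeis chevE6 good.rv 1 71 = true := by decide +kernel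
theorem k4 : chkLag chevE6 good.rv 1 71 60 A 3 (36, 59) = true := by decide +kernel

end Cfsg.Agent.Lib.MinDegE6
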