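import Cfsg.Agent.Lib.MinDegJ
import Cfsg.Agent.Lib.ChevOkE7

/-! Kernel checked combinatorial data for the minimal degrees, type E7 (helper18, machine generated). -/

set_option autoImplicit false

namespace Cfsg.Agent.Lib.MinDegE7

open Cfsg.Lie Cfsg.Agent.Lib.ChevGood Cfsg.Agent.Lib.UCEPair Cfsg.Agent.Lib.UCETrip Cfsg.Agent.Lib.MinDegI Cfsg.Agent.Lib.ChevOkE7

set_option maxRecDepth 1000000

def U : List ℕ := [125, 124, 123, 122, 121, 118, 120, 117, 116, 114, 113, 108, 111, 107, 92, 105, 91, 102, 89, 98, 86, 82, 77, 72, 68, 65, 63]

def LL : List (ℕ × Bool) := [(16, true), (15, true), (14, true), (13, true), (12, true), (12, false), (11, true), (11, false), (10, false), (10, false), (9, false), (9, false), (8, false), (8, false), (8, false), (7, false), (7, false), (6, false), (6, false), (5, false), (5, false), (4, false), (4, false), (3, false), (2, false), (1, false), (0, false)]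

theorem k0 : 0 < chevE7.nroots := by decide
theorem k1 : chkRad chevE7 good.rv 6 U = true := by decide +kernel
theorem k2 : chkTop chevE7 good.rv 6 119 U [(78, 115), (79, 112), (84, 104)] = true := by decide +kernel
theorem k5 : chkAdj chevE7 U 16 = true := by decide +kernel
theorem k6 : chkEll chevE7 U 119 LL = true := by decide +kernel
theorem k7 : chkConn chevE7 125 [1, 2, 3, 4, 5, 10, 11, 31, 93, 94, 95, 96, 97, 102, 103, 123, 124, 125] = true := by decide +kernel

end Cfsg.Agent.Lib.MinDegE7
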