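import Cfsg.Agent.Lib.MinDegJ
import Cfsg.Agent.Lib.ChevOkE8

/-! Kernel checked combinatorial data for the minimal degrees, type E8 (helper18, machine generated). -/

set_option autoImplicit false

namespace Cfsg.Agent.Lib.MinDegE8

open Cfsg.Lie Cfsg.Agent.Lib.ChevGood Cfsg.Agent.Lib.UCEPair Cfsg.Agent.Lib.UCETrip Cfsg.Agent.Lib.MinDegI Cfsg.Agent.Lib.ChevOkE8

set_option maxRecDepth 1000000

def U : List ℕ := [238, 237, 236, 235, 234, 233, 232, 231, 225, 230, 224, 229, 223, 228, 222, 218, 227, 221, 217, 220, 216, 213, 215, 212, 203, 211, 209, 202, 208, 201, 199, 206, 198, 193, 196, 192, 183, 190, 182, 161, 187, 180, 160, 177, 158, 173, 155, 168, 151, 146, 140, 134, 129, 125, 122, 120]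

def LL : List (ℕ × Bool) := [(27, true), (26, true), (25, true), (24, true), (23, true), (22, true), (22, true), (21, true), (21, false), (20, true), (20, false), (19, true), (19, false), (18, true), (18, false), (18, false), (17, true), (17, false), (17, false), (16, false), (16, false), (16, false), (15, false), (15, false), (15, false), (14, false), (14, false), (14, false), (13, false), (13, false), (13, false), (12, false), (12, false), (12, false), (11, false), (11, false), (11, false), (10, false), (10, false), (10, false), (9, false), (9, false), (9, false), (8, false), (8, false), (7, false), (7, false), (6, false), (6, false), (5, false), (5, false), (4, false), (3, false), (2, false), (1, false), (0, false)]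

theorem k0 : 0 < chevE8.nroots := by decide
theorem k1 : chkRad chevE8 good.rv 7 U = true := by decide +kernel
theorem k2 : chkTop chevE8 good.rv 7 226 U [(162, 219), (163, 214), (174, 191)] = true := by decide +kernel
theorem k5 : chkAdj chevE8 U 27 = true := by decide +kernel
theorem k6 : chkEll chevE8 U 226 LL = true := by decide +kernel
theorem k7 : chkConn chevE8 239 [1, 4, 5, 12, 14, 32, 71, 120, 122, 129, 134, 161, 168, 182, 222, 225, 227, 238] = true := by decide +kernel

def A : List ℕ := [232, 231, 230, 229, 228, 227, 233, 234, 235, 236, 237, 238, 225, 224, 223, 222, 218, 221, 217, 220, 216, 213, 215, 212, 203, 211, 209, 202]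

theorem k3 : chkHeis chevE8 good.rv 7 239 = true := by decide +kernel
theorem k4 : chkLag chevE8 good.rv 7 239 226 A 6 (162, 219) = true := by decide +kernel

end Cfsg.Agent.Lib.MinDegE8
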