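import Cfsg.Agent.Lib.MinDegE

/-!
Weights of an abelian (mod centre) unipotent radical: trace formulas (helper18).
-/

set_option autoImplicit false
set_option linter.unusedSectionVars false

namespace Cfsg.Agent.Lib.MinDegF

open Cfsg.Lie Cfsg.Agent.Lib.ChevGood Cfsg.Agent.Lib.ChevRel Cfsg.Agent.Lib.ChevX Cfsg.Agent.Lib.UCEPair
open Cfsg.Agent.Lib.UCEBase Cfsg.Agent.Lib.UCESys Cfsg.Agent.Lib.UCELift Cfsg.Agent.Lib.UCESymbol Cfsg.Agent.Lib.UCETrip
open Cfsg.Agent.Lib.WeightProj Cfsg.Agent.Lib.MinDegA Cfsg.Agent.Lib.MinDegB Cfsg.Agent.Lib.MinDegC Cfsg.Agent.Lib.MinDegD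
open Cfsg.Agent.Lib.MinDegE

variable {D : ChevalleyDatum} {G : Good D}
  (P : ∀ r < D.nroots, ∀ s < D.nroots, PairOK D True r s) (T : ∀ a < D.nroots, ∀ b < D.nroots, Trip D a b)
  {F : Type*} [Field F] [Fintype F] {Q : Type*} [Group Q] (R : RSys D F Q) (X : Rad D G F)
  [Finite Q] {V : Type*} [AddCommGroup V] [Module ℂ V] [FiniteDimensional ℂ V] {ρ : Representation ℂ Q V}

/-- the number of lower adjacent roots -/
def ell (X : Rad D G F) (i : ℕ) : ℕ := ((Finset.range X.N).filter (fun j => i < j ∧ pr D (X.U i) (X.U j) = 1)).card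

theorem W_pos (i : ℕ) : ∀ c ∈ X.W i, 1 ≤ X.f c := by
  rintro c (h | ⟨j, -, h, rfl⟩)
  · omega
  · rw [X.hU j h]

theorem Z_sub_W (i : ℕ) : X.Z ⊆ X.W i := fun _ h => Or.inl h

include P in
/-- sums with a root of degree zero and positive height -/
theorem NS_W {s : Fin D.nroots} (hs : X.f s = 0) (hpos : 0 < X.ht s) {i : ℕ} (hi : i < X.N) : NS D F s (X.W i) := by
  apply X.NS_zero P hs (W_pos X i)
  rintro c (h | ⟨j, h1, h2, rfl⟩) k n hk
  · left
    have := X.fadd _ _ _ _ hk
    omega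
  · right
    have h3 := X.fadd _ _ _ _ hk
    have h4 := X.htadd _ _ _ _ hk
    have h5 := X.hU j h2
    obtain ⟨l, hl, hl'⟩ := X.exU k (by omega)
    refine ⟨l, ?_, hl, hl'⟩
    by_contra hcon
    have h6 := X.sorted i hi l hl (by omega)
    have h7 := X.sorted j h2 i hi (by omega)
    rw [hl'] at h6
    omega

include P in
/-- the first step of the trace computation of a block -/
theorem block_free {i : ℕ} (hi : i < X.N) {m : AddChar F ℂ} (hm : m ≠ 1) {B : Module.End ℂ V}
    (hB : ∀ s, X.f s = 0 → 0 < X.ht s → ∀ t, ρ (R.x s t) * B = B * ρ (R.x s t))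
    (H : RadOK X) (htr : LinearMap.trace ℂ V (P0 ρ R X (X.U i) m) = 1) :
    LinearMap.trace ℂ V (B * (AV ρ R (X.W i) * EE ρ R (X.U i) m)) =
      (Fintype.card F : ℂ) ^ (ell X i) * LinearMap.trace ℂ V (B * P0 ρ R X (X.U i) m) := by
  classical
  let S : Finset (Fin D.nroots) := ((Finset.range X.N).filter (fun j => i < j ∧ pr D (X.U i) (X.U j) = 1)).image X.U
  have hS : ∀ a ∈ S, ∃ j, j < X.N ∧ i < j ∧ pr D (X.U i) (X.U j) = 1 ∧ X.U j = a := by
    intro a ha
    obtain ⟨j, hj, hj'⟩ := Finset.mem_image.mp ha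
    obtain ⟨h1, h2, h3⟩ := Finset.mem_filter.mp hj
    exact ⟨j, Finset.mem_range.mp h1, h2, h3, hj'⟩
  have hcard : S.card = ell X i := by
    apply Finset.card_image_of_injOn
    intro a ha b hb hab
    exact X.inj a (Finset.mem_range.mp (Finset.mem_filter.mp ha).1) b (Finset.mem_range.mp (Finset.mem_filter.mp hb).1) hab
  have h := free_list (G := G) P R (ρ := ρ) (r := X.U i) (S := S) (W := X.W i) (B := B)
    (by intro a ha; obtain ⟨j, -, -, h3, rfl⟩ := hS a ha; exact h3)
    (by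
      intro a ha s n hs
      obtain ⟨j, h1, h2, h3, rfl⟩ := hS a ha
      have e1 := X.fadd _ _ _ _ hs
      have e2 := X.htadd _ _ _ _ hs
      have e3 := X.hU i hi
      have e4 := X.hU j h1
      have e5 := X.sorted i hi j h1 h2.le
      have e6 := X.htne s
      have e7 : 0 < X.ht s := by omega
      exact ⟨NS_W P X (by omega) e7 hi, hB s (by omega) e7⟩)
    (by
      intro a ha
      obtain ⟨j, h1, h2, h3, rfl⟩ := hS a ha
      exact X.NS_pos P (by rw [X.hU j h1]) (W_pos X i) (Z_sub_W X i))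
    (by
      intro a ha b hb
      obtain ⟨j, h1, -, -, rfl⟩ := hS a ha
      obtain ⟨j', h1', -, -, rfl⟩ := hS b hb
      have e1 := X.hU j h1
      have e2 := X.hU j' h1'
      rcases pr_cases (G := G) (F := F) P (X.neg_ne (a := X.U j) (b := X.U j') (by omega)) with h | ⟨k, n, h⟩
      · exact Or.inl h
      · refine Or.inr ⟨k, Or.inl ?_, n, h⟩
        have := X.fadd _ _ _ _ h
        omega) hm
  rw [h, hcard]
  congr 2
  congr 1
  apply absorb P R H (X.hU i hi) htr
  · rintro c (hc | ⟨hc1, hc2⟩)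
    · exact Or.inl (Or.inl hc)
    · obtain ⟨j, hj, rfl⟩ := X.exU c hc1
      rcases lt_trichotomy j i with h | h | h
      · exact Or.inl (Or.inr ⟨j, h, hj, rfl⟩)
      · exfalso
        subst h
        have := pr_self G (X.U j).2
        omega
      · right
        exact Finset.mem_coe.mpr (Finset.mem_image.mpr ⟨j, Finset.mem_filter.mpr ⟨Finset.mem_range.mpr hj, h, hc2⟩, rfl⟩)
  · rintro c (hc | hc)
    · refine ⟨W_pos X i c hc, ?_⟩
      rintro rfl
      rcases hc with hc | ⟨j, h1, h2, h3⟩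
      · have := X.hU i hi; omega
      · have := X.inj j h2 i hi h3; omega
    · obtain ⟨j, h1, h2, h3, rfl⟩ := hS c hc
      refine ⟨by rw [X.hU j h1], ?_⟩
      intro h
      have := X.inj j h1 i hi h
      omega

include P in
/-- one step of the decomposition -/
theorem W_succ {i : ℕ} (hi : i < X.N) :
    AV ρ R (X.W i) = AV ρ R (X.W (i + 1)) + ∑ m ∈ Finset.univ.filter (fun m : AddChar F ℂ => m ≠ 1),
      AV ρ R (X.W i) * EE ρ R (X.U i) m := by
  classical
  have h1 : AV ρ R (X.W i) = ∑ m : AddChar F ℂ, AV ρ R (X.W i) * EE ρ R (X.U i) m := by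
    rw [← Finset.mul_sum, sum_Er (hx R _), mul_one]
  have h2 : AV ρ R (X.W (i + 1)) = AV ρ R (X.W i) * EE ρ R (X.U i) 1 := by
    rw [AV_insert G P R (X.NS_pos P (by rw [X.hU i hi]) (W_pos X i) (Z_sub_W X i))]
    congr 1
    ext c
    simp only [Rad.W, Set.mem_setOf_eq, Set.mem_insert_iff]
    constructor
    · rintro (h | ⟨j, h1, h2, h3⟩)
      · exact Or.inr (Or.inl h)
      · rcases Nat.lt_succ_iff_lt_or_eq.mp h1 with h4 | rfl
        · exact Or.inr (Or.inr ⟨j, h4, h2, h3⟩)
        · exact Or.inl h3.symm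
    · rintro (h | h | ⟨j, h1, h2, h3⟩)
      · exact Or.inr ⟨i, Nat.lt_succ_self i, hi, h.symm⟩
      · exact Or.inl h
      · exact Or.inr ⟨j, by omega, h2, h3⟩
  rw [h2]
  conv_lhs => rw [h1]
  rw [← Finset.add_sum_erase _ _ (Finset.mem_univ (1 : AddChar F ℂ))]
  congr 1
  apply Finset.sum_congr _ (fun _ _ => rfl)
  ext m
  simp

include P in
/-- the decomposition of the trace -/
theorem trace_decomp {B : Module.End ℂ V} {c : ℕ → ℂ}
    (hc : ∀ i < X.N, ∀ m : AddChar F ℂ, m ≠ 1 → LinearMap.trace ℂ V (B * (AV ρ R (X.W i) * EE ρ R (X.U i) m)) = c i) :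
    LinearMap.trace ℂ V (B * AV ρ R (X.W 0)) = LinearMap.trace ℂ V (B * AV ρ R (X.W X.N)) +
      ((Fintype.card F : ℂ) - 1) * ∑ i ∈ Finset.range X.N, c i := by
  classical
  have key : ∀ k ≤ X.N, LinearMap.trace ℂ V (B * AV ρ R (X.W 0)) = LinearMap.trace ℂ V (B * AV ρ R (X.W k)) +
      ((Fintype.card F : ℂ) - 1) * ∑ i ∈ Finset.range k, c i := by
    intro k
    induction k with
    | zero => intro _; simp
    | succ k ih =>
      intro hk
      rw [ih (by omega), W_succ P R X (i := k) (by omega), mul_add, map_add, Finset.mul_sum, map_sum,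
        Finset.sum_congr rfl (fun m hm => hc k (by omega) m (Finset.mem_filter.mp hm).2), Finset.sum_const,
        Finset.sum_range_succ, mul_add, add_assoc]
      congr 1
      rw [add_comm]
      congr 1
      have hcard : (Finset.univ.filter (fun m : AddChar F ℂ => m ≠ 1)).card = Fintype.card F - 1 := by
        rw [Finset.filter_ne', Finset.card_erase_of_mem (Finset.mem_univ _), Finset.card_univ, AddChar.card_eq]
      rw [hcard, nsmul_eq_mul, Nat.cast_sub Fintype.card_pos, Nat.cast_one]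
  exact key X.N le_rfl

theorem W_zero : X.W 0 = X.Z := by
  ext c
  simp [Rad.W, Rad.Z]

variable (H : RadOK X) (htr : ∀ r, X.f r = 1 → ∀ m : AddChar F ℂ, m ≠ 1 → LinearMap.trace ℂ V (P0 ρ R X r m) = 1)

include P H htr in
/-- **dimension formula** -/
theorem dim_formula :
    LinearMap.trace ℂ V (AV ρ R X.Z) = LinearMap.trace ℂ V (AV ρ R (X.W X.N)) +
      ((Fintype.card F : ℂ) - 1) * ∑ i ∈ Finset.range X.N, (Fintype.card F : ℂ) ^ (ell X i) := by
  have h := trace_decomp P R X (ρ := ρ) (B := 1) (c := fun i => (Fintype.card F : ℂ) ^ (ell X i)) (by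
    intro i hi m hm
    have h1 := block_free P R X hi hm (ρ := ρ) (B := 1) (fun s _ _ t => by rw [mul_one, one_mul]) H
      (htr _ (X.hU i hi) m hm)
    rw [h1, one_mul, htr _ (X.hU i hi) m hm, mul_one])
  rw [one_mul, one_mul, W_zero] at h
  exact h

/-- the facts about the highest root `p` of the Levi factor -/
structure TopOK (X : Rad D G F) (p : Fin D.nroots) : Prop where
  zero : X.f p = 0
  top : ∀ s, X.f s = 0 → 0 < X.ht s → CC D s p
  dec : ∀ r, X.f r = 1 → pr D r p ≤ 0 → ∃ s1 s2, ∃ n : F, AA D F s1 s2 p n ∧ X.f s1 = 0 ∧ X.f s2 = 0 ∧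
    pr D r s1 ≤ 0 ∧ pr D r s2 ≤ 0

include P H in
/-- roots of degree zero with nonpositive product with `r` normalize the weight space of `r` -/
theorem comm_P0_zero {r s : Fin D.nroots} (hr : X.f r = 1) {m : AddChar F ℂ}
    (htr : LinearMap.trace ℂ V (P0 ρ R X r m) = 1) (hs : X.f s = 0) (hrs : pr D r s ≤ 0) (t : F) :
    ρ (R.x s t) * P0 ρ R X r m = P0 ρ R X r m * ρ (R.x s t) := by
  let S : Set (Fin D.nroots) := {c | 1 ≤ X.f c ∧ c ≠ r}
  have hA : AV ρ R S * EE ρ R r m = P0 ρ R X r m := by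
    apply absorb P R H hr htr
    · rintro c (h | ⟨h1, h2⟩)
      · refine ⟨by omega, ?_⟩
        rintro rfl
        omega
      · refine ⟨by omega, ?_⟩
        rintro rfl
        have := pr_self G c.2
        omega
    · exact fun c hc => hc
  rw [← hA]
  apply comm_AV_EE G P R
  · apply X.NS_zero P hs (fun c hc => hc.1)
    rintro c ⟨h1, h2⟩ k n hk
    have e1 := X.fadd _ _ _ _ hk
    refine ⟨by omega, ?_⟩
    rintro rfl
    have e2 := (AA_pr G P hk).2.1
    have e3 : pr D k s = pr D s k := (P k k.2 s s.2).symm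
    omega
  · apply X.NS_pos P (by omega) (fun c hc => hc.1)
    intro c hc
    have : X.f c = 2 := hc
    refine ⟨by omega, ?_⟩
    rintro rfl
    omega
  · rcases pr_cases (G := G) (F := F) P (X.neg_ne (a := s) (b := r) (by omega)) with h | ⟨k, n, h⟩
    · exact Or.inl h
    · refine Or.inr ⟨k, ?_, n, h⟩
      have e1 := X.fadd _ _ _ _ h
      refine ⟨by omega, ?_⟩
      rintro rfl
      have e2 := (AA_pr G P h).2.2.1
      have := pr_self G k.2
      omega

include P H in
theorem kill_top {p r : Fin D.nroots} (hp : TopOK X p) (hr : X.f r = 1) {m : AddChar F ℂ}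
    (htr : LinearMap.trace ℂ V (P0 ρ R X r m) = 1) (hrp : pr D r p ≤ 0) {l : AddChar F ℂ} (hl : l ≠ 1) :
    EE ρ R p l * P0 ρ R X r m = 0 := by
  obtain ⟨s1, s2, n, hA, h1, h2, h3, h4⟩ := hp.dec r hr hrp
  apply Er_mul_eq_zero (hx R p) hl
  intro t
  have hn := (AA_pr G P hA).2.2.2.2.2.1
  have e1 := AA_cm G P R hA (n⁻¹ * t) 1
  have e2 : n * (n⁻¹ * t) * 1 = t := by rw [mul_one, mul_inv_cancel_left₀ hn]
  rw [e2] at e1
  have c1 := comm_P0_zero P R X H hr htr h1 h3 (n⁻¹ * t)
  have c2 := comm_P0_zero P R X H hr htr h2 h4 1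
  have hid := P0_idem P R X hr (ρ := ρ) m
  have e3 := comm_rank_one hid htr c1 c2
  rw [← e1]
  unfold cm
  have e4 : ρ ((R.x s1 (n⁻¹ * t))⁻¹ * (R.x s2 1)⁻¹ * R.x s1 (n⁻¹ * t) * R.x s2 1) =
      ρ ((R.x s2 1) * R.x s1 (n⁻¹ * t))⁻¹ * (ρ (R.x s1 (n⁻¹ * t)) * ρ (R.x s2 1)) := by
    rw [← map_mul, ← map_mul]; congr 1; group
  rw [e4, mul_assoc, e3, ← map_mul, ← mul_assoc, ← map_mul, inv_mul_cancel, map_one, one_mul]

include P H htr in
/-- **multiplicity formula** for the highest root of the Levi factor -/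
theorem mult_formula {p : Fin D.nroots} (hp : TopOK X p) {l : AddChar F ℂ} (hl : l ≠ 1) :
    (Fintype.card F : ℂ) * LinearMap.trace ℂ V (EE ρ R p l * AV ρ R X.Z) =
      (Fintype.card F : ℂ) * LinearMap.trace ℂ V (EE ρ R p l * AV ρ R (X.W X.N)) +
      ((Fintype.card F : ℂ) - 1) * ∑ i ∈ Finset.range X.N, (if pr D (X.U i) p = 1 then (Fintype.card F : ℂ) ^ (ell X i) else 0) := by
  have hq : (Fintype.card F : ℂ) ≠ 0 := by exact_mod_cast Fintype.card_ne_zero
  have h := trace_decomp P R X (ρ := ρ) (B := EE ρ R p l)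
    (c := fun i => (Fintype.card F : ℂ)⁻¹ * (if pr D (X.U i) p = 1 then (Fintype.card F : ℂ) ^ (ell X i) else 0)) (by
    intro i hi m hm
    have hfi := X.hU i hi
    have htri := htr _ hfi m hm
    split_ifs with h1
    · -- free action
      have h1' : pr D p (X.U i) = 1 := by rw [(P p p.2 (X.U i) (X.U i).2).symm]; exact h1
      obtain ⟨s, m', hs'⟩ := exists_dec (K := F) G P h1'
      have hs := AA_symm G P hs' (stdSys G F) (fun _ hk t u => stdSys_inj G F hk t u)
      have e1 := X.fadd _ _ _ _ hs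
      have e2 : NS D F s (X.W i) := X.NS_pos P (by have := hp.zero; omega) (W_pos X i) (Z_sub_W X i)
      have e3 := free G P R (ρ := ρ) hs hm (A := AV ρ R (X.W i)) (fun t => comm_AV G P R e2 t) l
      have e4 : NS D F (X.U i) (X.W i) := X.NS_pos P (by omega) (W_pos X i) (Z_sub_W X i)
      have e5 := block_free P R X hi hm (ρ := ρ) (B := 1) (fun s _ _ t => by rw [mul_one, one_mul]) H htri
      rw [one_mul, one_mul, htri, mul_one] at e5
      rw [← EE_AV G P R e4, ← mul_assoc, ← e5, ← EE_AV G P R e4, e3, inv_mul_cancel_left₀ hq]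
    · -- trivial action
      have h2 : pr D (X.U i) p ≤ 0 := by
        have l2 := (P (X.U i) (X.U i).2 p p.2).upper
        have l3 : pr D (X.U i) p ≠ 2 := by
          intro h
          have := Fin.ext ((P (X.U i) (X.U i).2 p p.2).two.mp h)
          have h3 := hp.zero
          rw [← this] at h3
          omega
        omega
      rw [block_free P R X hi hm (ρ := ρ) (B := EE ρ R p l) (by
        intro s h3 h4 t
        exact comm_Er (fun u => by rw [← map_mul, ← map_mul, CC_comm G P R (hp.top s h3 h4)]) l) H htri,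
        kill_top P R X H hp hfi htri h2 hl, map_zero, mul_zero, mul_zero])
  rw [W_zero] at h
  rw [h, mul_add, ← Finset.mul_sum]
  congr 1
  field_simp

end Cfsg.Agent.Lib.MinDegF
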