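import Cfsg.Agent.Lib.MinDegF

/-!
The two kinds of radicals: abelian and Heisenberg (helper18).
-/

set_option autoImplicit false
set_option linter.unusedSectionVars false

namespace Cfsg.Agent.Lib.MinDegG

open Cfsg.Lie Cfsg.Agent.Lib.ChevGood Cfsg.Agent.Lib.ChevRel Cfsg.Agent.Lib.ChevX Cfsg.Agent.Lib.UCEPair
open Cfsg.Agent.Lib.UCEBase Cfsg.Agent.Lib.UCESys Cfsg.Agent.Lib.UCELift Cfsg.Agent.Lib.UCESymbol Cfsg.Agent.Lib.UCETrip
open Cfsg.Agent.Lib.WeightProj Cfsg.Agent.Lib.MinDegA Cfsg.Agent.Lib.MinDegB Cfsg.Agent.Lib.MinDegC Cfsg.Agent.Lib.MinDegD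
open Cfsg.Agent.Lib.MinDegE Cfsg.Agent.Lib.MinDegF

variable {D : ChevalleyDatum} {G : Good D}
  (P : ∀ r < D.nroots, ∀ s < D.nroots, PairOK D True r s) (T : ∀ a < D.nroots, ∀ b < D.nroots, Trip D a b)
  {F : Type*} [Field F] [Fintype F] {Q : Type*} [Group Q] (R : RSys D F Q) (X : Rad D G F)

include P in
/-- orthogonal roots of degree one are adjacent to other ones -/
theorem orth_dec {r c : Fin D.nroots} (hc : X.f c = 1) (h : pr D r c = 0)
    (h2 : ∀ a, X.f a = 2 → pr D r a ≠ 0) : ∃ c', X.f c' = 1 ∧ pr D r c' = 0 ∧ pr D c c' = 1 := by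
  have hcr : pr D c r = 0 := by rw [(P c c.2 r r.2).symm]; exact h
  obtain ⟨a, b, M, ha, hb, h3, h4, h5⟩ := (P c c.2 r r.2).dec (by omega) (Or.inl trivial)
  have hA : AA D F ⟨a, ha⟩ ⟨b, hb⟩ c (-(M : F)) := ⟨M, h3, rfl⟩
  obtain ⟨e1, e2, e3, e4, -⟩ := AA_pr G P hA
  have e5 := e4 r r.2
  have e6 : pr D r a = pr D a r := (P r r.2 a ha).symm
  have e7 : pr D r b = pr D b r := (P r r.2 b hb).symm
  have e8 := X.fadd _ _ _ _ hA
  have e9 := X.fle ⟨a, ha⟩
  have e10 := X.fle ⟨b, hb⟩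
  change pr D r c = pr D r a + pr D r b at e5
  have ea : pr D r a = 0 := by omega
  have eb : pr D r b = 0 := by omega
  have fa : X.f ⟨a, ha⟩ ≠ 2 := fun hh => h2 _ hh ea
  have fb : X.f ⟨b, hb⟩ ≠ 2 := fun hh => h2 _ hh eb
  by_cases hfa : X.f ⟨a, ha⟩ = 1
  · refine ⟨⟨a, ha⟩, hfa, ea, ?_⟩
    rw [(P c c.2 a ha).symm]; exact e2
  · refine ⟨⟨b, hb⟩, by omega, eb, ?_⟩
    rw [(P c c.2 b hb).symm]; exact e3

include P in
theorem radOK_abelian (h : ∀ r, X.f r ≤ 1) : RadOK X where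
  orth r c _ hc hrc := orth_dec P X hc hrc (fun a ha _ => by have := h a; omega)
  neg r c hr hc hrc := by
    exfalso
    obtain ⟨k, n, hk⟩ := exists_AA (K := F) G P hrc
    have := X.fadd _ _ _ _ hk
    have := h k
    omega

/-- the Heisenberg case -/
structure Heis (X : Rad D G F) (θ : Fin D.nroots) : Prop where
  pr_eq : ∀ r : Fin D.nroots, pr D θ r = X.f r
  uniq : ∀ r, X.f r = 2 → r = θ

variable {X} {θ : Fin D.nroots} (hθ : Heis X θ)
include P hθ

omit P in
theorem Heis.f_theta : X.f θ = 2 := by rw [← hθ.pr_eq]; exact pr_self G θ.2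

theorem radOK_heis : RadOK X where
  orth r c hr hc hrc := orth_dec P X hc hrc (fun a ha h0 => by
    have := hθ.uniq a ha
    subst this
    have h1 := hθ.pr_eq r
    have h2 : pr D r a = pr D a r := (P r r.2 a a.2).symm
    omega)
  neg r c hr hc hrc := by
    have hrθ : pr D θ r = 1 := by rw [hθ.pr_eq, hr]
    have hrθ' : pr D r θ = 1 := by rw [(P r r.2 θ θ.2).symm]; exact hrθ
    have key : ∀ c', X.f c' = 1 → pr D r c' = -1 → ∃ n : F, AA D F r c' θ n := by
      intro c' hc' hrc'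
      obtain ⟨k, n, hk⟩ := exists_AA (K := F) G P hrc'
      have e1 := X.fadd _ _ _ _ hk
      have e2 := hθ.uniq k (by omega)
      subst e2
      exact ⟨n, hk⟩
    obtain ⟨n, hn⟩ := key c hc hrc
    have hlin := (AA_pr G P hn).2.2.2.1
    constructor
    · -- a root adjacent to both r and θ
      obtain ⟨a, ha1, ha2⟩ := exists_adj G P (a := θ) (k := r) hrθ'
      -- c' = θ - a
      obtain ⟨d, m, hd⟩ := exists_dec (K := F) G P (c := a) (k := θ) ha2
      have hl2 := (AA_pr G P hd).2.2.2.1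
      have e1 := X.fadd _ _ _ _ hd
      have e2 := hθ.f_theta
      have e3 := hθ.pr_eq a
      have e4 : pr D θ a = pr D a θ := (P θ θ.2 a a.2).symm
      refine ⟨d, by omega, ?_, ?_⟩
      · have := hl2 r r.2
        have e5 : pr D r a = pr D a r := (P r r.2 a a.2).symm
        omega
      · -- pr c d = pr c θ - pr c a
        have e5 := hl2 c c.2
        have e6 : pr D c θ = pr D θ c := (P c c.2 θ θ.2).symm
        have e7 := hθ.pr_eq c
        have e8 := hlin a a.2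
        have e9 : pr D a c = pr D c a := (P a a.2 c c.2).symm
        omega
    · intro c' hc' hrc'
      obtain ⟨n', hn'⟩ := key c' hc' hrc'
      have e1 := (AA_pr G P hn).2.2.2.2.1
      have e2 := (AA_pr G P hn').2.2.2.2.1
      exact Fin.ext (G.rv_inj c' c'.2 c c.2 (fun j _ => by have := e1 j; have := e2 j; omega))

variable [Finite Q] {V : Type*} [AddCommGroup V] [Module ℂ V] [FiniteDimensional ℂ V] {ρ : Representation ℂ Q V}

omit P in
theorem Z_eq : X.Z = {θ} := by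
  ext r
  constructor
  · intro h; exact hθ.uniq r h
  · rintro rfl; exact hθ.f_theta

omit P in
theorem AV_Z : AV ρ R X.Z = EE ρ R θ 1 := by
  rw [Z_eq hθ]
  unfold EE AV XS
  rw [Er_one (hx R θ) rfl]
  congr 2
  ext g
  constructor
  · rintro ⟨r, rfl, t, rfl⟩; exact ⟨t, rfl⟩
  · rintro ⟨t, rfl⟩; exact ⟨θ, rfl, t, rfl⟩

/-- decomposition along the centre -/
theorem trace_Z (B : Module.End ℂ V) :
    LinearMap.trace ℂ V B = LinearMap.trace ℂ V (B * AV ρ R X.Z) +
      ∑ m ∈ Finset.univ.filter (fun m : AddChar F ℂ => m ≠ 1), LinearMap.trace ℂ V (B * EE ρ R θ m) := by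
  classical
  have h1 : B = ∑ m : AddChar F ℂ, B * EE ρ R θ m := by
    rw [← Finset.mul_sum, sum_Er (hx R _), mul_one]
  conv_lhs => rw [h1]
  rw [map_sum, ← Finset.add_sum_erase _ _ (Finset.mem_univ (1 : AddChar F ℂ)), AV_Z R hθ]
  congr 1
  apply Finset.sum_congr _ (fun _ _ => rfl)
  ext m
  simp

/-- multiplicity of a root of degree one on the weight spaces of the centre -/
theorem mult_theta {d : ℂ} (hd : ∀ r, ∀ m : AddChar F ℂ, m ≠ 1 → LinearMap.trace ℂ V (EE ρ R r m) = d)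
    {r : Fin D.nroots} (hr : X.f r = 1) {m : AddChar F ℂ} (hm : m ≠ 1) (l : AddChar F ℂ) :
    d = (Fintype.card F : ℂ) * LinearMap.trace ℂ V (EE ρ R r l * EE ρ R θ m) := by
  have h1 : pr D θ r = 1 := by rw [hθ.pr_eq, hr]
  have h2 : pr D r θ = 1 := by rw [(P r r.2 θ θ.2).symm]; exact h1
  obtain ⟨s, m', hs'⟩ := exists_dec (K := F) G P h2
  have hs := AA_symm G P hs' (stdSys G F) (fun _ hk t u => stdSys_inj G F hk t u)
  have h3 := free G P R (ρ := ρ) hs hm (A := 1) (fun t => by rw [mul_one, one_mul]) l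
  rw [mul_one, mul_one, hd θ m hm] at h3
  exact h3

theorem mult_Z {d : ℂ} (hd : ∀ r, ∀ m : AddChar F ℂ, m ≠ 1 → LinearMap.trace ℂ V (EE ρ R r m) = d)
    {r : Fin D.nroots} (hr : X.f r = 1) {m : AddChar F ℂ} (hm : m ≠ 1) :
    d = (Fintype.card F : ℂ) * LinearMap.trace ℂ V (AV ρ R X.Z * EE ρ R r m) := by
  have hq : (Fintype.card F : ℂ) ≠ 0 := by exact_mod_cast Fintype.card_ne_zero
  have h := trace_Z P R hθ (ρ := ρ) (EE ρ R r m)
  have h1 : ∀ l ∈ Finset.univ.filter (fun m : AddChar F ℂ => m ≠ 1),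
      LinearMap.trace ℂ V (EE ρ R r m * EE ρ R θ l) = (Fintype.card F : ℂ)⁻¹ * d := by
    intro l hl
    rw [mult_theta P R hθ hd hr (Finset.mem_filter.mp hl).2 m, inv_mul_cancel_left₀ hq]
  have hcard : (Finset.univ.filter (fun m : AddChar F ℂ => m ≠ 1)).card = Fintype.card F - 1 := by
    rw [Finset.filter_ne', Finset.card_erase_of_mem (Finset.mem_univ _), Finset.card_univ, AddChar.card_eq]
  rw [Finset.sum_congr rfl h1, Finset.sum_const, hcard, nsmul_eq_mul, Nat.cast_sub Fintype.card_pos, Nat.cast_one,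
    hd r m hm, LinearMap.trace_mul_comm] at h
  have h2 : (Fintype.card F : ℂ) * d = (Fintype.card F : ℂ) * LinearMap.trace ℂ V (AV ρ R X.Z * EE ρ R r m) +
      ((Fintype.card F : ℂ) - 1) * d := by
    conv_lhs => rw [h]
    field_simp
  linear_combination h2

/-- the dimension: `tr 1 = tr Z + (q-1) d` -/
theorem dim_Z {d : ℂ} (hd : ∀ r, ∀ m : AddChar F ℂ, m ≠ 1 → LinearMap.trace ℂ V (EE ρ R r m) = d) :
    (Module.finrank ℂ V : ℂ) = LinearMap.trace ℂ V (AV ρ R X.Z) + ((Fintype.card F : ℂ) - 1) * d := by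
  have h := trace_Z P R hθ (ρ := ρ) 1
  have hcard : (Finset.univ.filter (fun m : AddChar F ℂ => m ≠ 1)).card = Fintype.card F - 1 := by
    rw [Finset.filter_ne', Finset.card_erase_of_mem (Finset.mem_univ _), Finset.card_univ, AddChar.card_eq]
  rw [LinearMap.trace_one, one_mul, Finset.sum_congr rfl (fun m hm => by
    rw [one_mul, hd θ m (Finset.mem_filter.mp hm).2]), Finset.sum_const, hcard, nsmul_eq_mul, Nat.cast_sub Fintype.card_pos,
    Nat.cast_one] at h
  exact h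

end Cfsg.Agent.Lib.MinDegG
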