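import Cfsg.Agent.Lib.MinDegG

/-!
The action of the highest root of the Levi factor on the weight spaces of the centre of a Heisenberg radical (helper18).
-/

set_option autoImplicit false
set_option linter.unusedSectionVars false

namespace Cfsg.Agent.Lib.MinDegH

open Cfsg.Lie Cfsg.Agent.Lib.ChevGood Cfsg.Agent.Lib.ChevRel Cfsg.Agent.Lib.ChevX Cfsg.Agent.Lib.UCEPair
open Cfsg.Agent.Lib.UCEBase Cfsg.Agent.Lib.UCESys Cfsg.Agent.Lib.UCELift Cfsg.Agent.Lib.UCESymbol Cfsg.Agent.Lib.UCETrip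
open Cfsg.Agent.Lib.WeightProj Cfsg.Agent.Lib.MinDegA Cfsg.Agent.Lib.MinDegB Cfsg.Agent.Lib.MinDegC Cfsg.Agent.Lib.MinDegD
open Cfsg.Agent.Lib.MinDegE Cfsg.Agent.Lib.MinDegF Cfsg.Agent.Lib.MinDegG

variable {D : ChevalleyDatum} {G : Good D}
  (P : ∀ r < D.nroots, ∀ s < D.nroots, PairOK D True r s) (T : ∀ a < D.nroots, ∀ b < D.nroots, Trip D a b)
  {F : Type*} [Field F] [Fintype F] {Q : Type*} [Group Q] (R : RSys D F Q) {X : Rad D G F}
  {θ p : Fin D.nroots} (hθ : Heis X θ)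

/-- the first roots of a list -/
def WL (A : ℕ → Fin D.nroots) (i : ℕ) : Set (Fin D.nroots) := {r | ∃ j < i, A j = r}

/-- a Lagrangian list of roots adapted to `p` -/
structure Lag (X : Rad D G F) (θ p : Fin D.nroots) (A : ℕ → Fin D.nroots) (nA nS : ℕ) : Prop where
  le : nA ≤ nS
  one : ∀ i < nS, X.f (A i) = 1
  pos : ∀ i < nS, ∀ j < i, 0 ≤ pr D (A i) (A j) ∧ pr D (A i) (A j) ≤ 1
  adjp : ∀ k < nA, pr D (A k) p = 1
  adj : ∀ k < nA, ∀ j < k, pr D (A k) (A j) = 1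
  normp : ∀ i, nA ≤ i → i < nS → NS D F p (WL A i)
  free : ∀ i, nA ≤ i → i < nS → ∀ s, ∀ n : F, AA D F s (A i) θ n → CC D s p ∨ ∃ k < i, ∃ n' : F, AA D F s p (A k) n'
  dec : ∃ s1 s2, ∃ n : F, AA D F s1 s2 p n ∧ X.f s1 = 0 ∧ X.f s2 = 0 ∧ NS D F s1 (WL A nS) ∧ NS D F s2 (WL A nS)

variable {A : ℕ → Fin D.nroots} {nA nS : ℕ} (L : Lag X θ p A nA nS)

include P hθ in
/-- every root of degree `≥ 0` commutes with `θ` -/
theorem CC_theta {s : Fin D.nroots} (hs : 0 ≤ X.f s) : CC D s θ := by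
  apply CC_symm P
  unfold CC
  rw [hθ.pr_eq]; exact hs

theorem WL_succ (A : ℕ → Fin D.nroots) (i : ℕ) : WL A (i + 1) = insert (A i) (WL A i) := by
  ext c
  simp only [WL, Set.mem_setOf_eq, Set.mem_insert_iff]
  constructor
  · rintro ⟨j, h1, h2⟩
    rcases Nat.lt_succ_iff_lt_or_eq.mp h1 with h3 | rfl
    · exact Or.inr ⟨j, h3, h2⟩
    · exact Or.inl h2.symm
  · rintro (h | ⟨j, h1, h2⟩)
    · exact ⟨i, Nat.lt_succ_self i, h.symm⟩
    · exact ⟨j, by omega, h2⟩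

include L P in
theorem NS_A {i : ℕ} (hi : i < nS) : NS D F (A i) (WL A i) := by
  rintro _ ⟨j, hj, rfl⟩
  exact Or.inl (L.pos i hi j hj).1

include L P hθ in
theorem NS_s {i : ℕ} (hi : i < nS) {s : Fin D.nroots} {n : F} (hs : AA D F s (A i) θ n) : NS D F s (WL A i) := by
  rintro _ ⟨j, hj, rfl⟩
  left
  have e1 := (AA_pr G P hs).2.2.2.1 (A j) (A j).2
  have e2 := L.pos i hi j hj
  have e3 : pr D (A j) (A i) = pr D (A i) (A j) := (P (A j) (A j).2 (A i) (A i).2).symm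
  have e4 : pr D (A j) θ = pr D θ (A j) := (P (A j) (A j).2 θ θ.2).symm
  have e5 := hθ.pr_eq (A j)
  have e6 := L.one j (by omega)
  apply CC_symm P
  unfold CC
  omega

variable [Finite Q] {V : Type*} [AddCommGroup V] [Module ℂ V] [FiniteDimensional ℂ V] {ρ : Representation ℂ Q V}

include P hθ in
/-- `E_θ` commutes with averages over roots of degree one -/
theorem theta_AV {S : Set (Fin D.nroots)} (hS : ∀ r ∈ S, 0 ≤ X.f r) (φ : AddChar F ℂ) :
    EE ρ R θ φ * AV ρ R S = AV ρ R S * EE ρ R θ φ := by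
  apply EE_AV G P R
  intro r hr
  left
  apply CC_symm P
  exact CC_theta P hθ (hS r hr)

include P hθ in
theorem comm_theta {s : Fin D.nroots} (hs : 0 ≤ X.f s) (φ : AddChar F ℂ) (t : F) :
    ρ (R.x s t) * EE ρ R θ φ = EE ρ R θ φ * ρ (R.x s t) :=
  comm_Er (fun u => by rw [← map_mul, ← map_mul, CC_comm G P R (CC_theta P hθ hs)]) φ

omit [Fintype F] in
theorem WL_pos {i : ℕ} (L : Lag X θ p A nA nS) (hi : i ≤ nS) : ∀ r ∈ WL A i, X.f r = 1 := by
  rintro _ ⟨j, hj, rfl⟩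
  exact L.one j (by omega)

include P hθ L in
theorem step_free {i : ℕ} (hi : i < nS) {φ : AddChar F ℂ} (hφ : φ ≠ 1) (l : AddChar F ℂ) :
    LinearMap.trace ℂ V (EE ρ R θ φ * AV ρ R (WL A i)) =
      (Fintype.card F : ℂ) * LinearMap.trace ℂ V (EE ρ R (A i) l * EE ρ R θ φ * AV ρ R (WL A i)) := by
  have h1 : pr D (A i) θ = 1 := by
    rw [(P (A i) (A i).2 θ θ.2).symm, hθ.pr_eq, L.one i hi]
  obtain ⟨s, m', hs'⟩ := exists_dec (K := F) G P h1
  have hs := AA_symm G P hs' (stdSys G F) (fun _ hk t u => stdSys_inj G F hk t u)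
  exact free G P R (ρ := ρ) hs hφ (fun t => comm_AV G P R (NS_s P hθ L hi hs) t) l

include P hθ L in
theorem step_op {i : ℕ} (hi : i < nS) (φ : AddChar F ℂ) :
    EE ρ R (A i) 1 * EE ρ R θ φ * AV ρ R (WL A i) = EE ρ R θ φ * AV ρ R (WL A (i + 1)) := by
  rw [EE_comm G P R (CC_theta P hθ (by rw [L.one i hi]; norm_num)), mul_assoc, EE_AV G P R (NS_A P L hi),
    AV_insert G P R (NS_A P L hi), WL_succ]

include P hθ L in
theorem chain {d : ℂ} (hd : ∀ r, ∀ m : AddChar F ℂ, m ≠ 1 → LinearMap.trace ℂ V (EE ρ R r m) = d)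
    {φ : AddChar F ℂ} (hφ : φ ≠ 1) :
    ∀ k ≤ nS, d = (Fintype.card F : ℂ) ^ k * LinearMap.trace ℂ V (EE ρ R θ φ * AV ρ R (WL A k)) := by
  intro k
  induction k with
  | zero =>
    intro _
    have h0 : AV ρ R (WL A 0) = 1 := by
      have : AV ρ R (WL A 0) * 1 = 1 := AV_fix R (by rintro r ⟨j, hj, -⟩; omega)
      rwa [mul_one] at this
    rw [h0, mul_one, hd θ φ hφ]; ring
  | succ k ih =>
    intro hk
    rw [ih (by omega), step_free P R hθ L (i := k) (by omega) hφ 1, step_op P R hθ L (by omega : k < nS), pow_succ,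
      mul_assoc]

include P hθ L in
/-- decomposition of the weights of `A k` -/
theorem step_sum {i : ℕ} (hi : i < nS) (φ : AddChar F ℂ) (B : Module.End ℂ V) :
    LinearMap.trace ℂ V (B * (EE ρ R θ φ * AV ρ R (WL A i))) =
      LinearMap.trace ℂ V (B * (EE ρ R θ φ * AV ρ R (WL A (i + 1)))) +
      ∑ m ∈ Finset.univ.filter (fun m : AddChar F ℂ => m ≠ 1),
        LinearMap.trace ℂ V (B * (EE ρ R (A i) m * (EE ρ R θ φ * AV ρ R (WL A i)))) := by
  classical
  have h1 : B * (EE ρ R θ φ * AV ρ R (WL A i)) =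
      ∑ m : AddChar F ℂ, B * (EE ρ R (A i) m * (EE ρ R θ φ * AV ρ R (WL A i))) := by
    rw [← Finset.mul_sum, ← Finset.sum_mul, sum_Er (hx R _), one_mul]
  conv_lhs => rw [h1]
  rw [map_sum, ← Finset.add_sum_erase _ _ (Finset.mem_univ (1 : AddChar F ℂ))]
  congr 1
  · rw [← mul_assoc (EE ρ R (A i) 1), step_op P R hθ L hi]
  · apply Finset.sum_congr _ (fun _ _ => rfl)
    ext m
    simp

include P hθ L in
/-- the free part -/
theorem part_free {d : ℂ} (hd : ∀ r, ∀ m : AddChar F ℂ, m ≠ 1 → LinearMap.trace ℂ V (EE ρ R r m) = d) (hp : X.f p = 0)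
    {φ : AddChar F ℂ} (hφ : φ ≠ 1) {k : ℕ} (hk : k < nA) {m : AddChar F ℂ} (hm : m ≠ 1) (l : AddChar F ℂ) :
    d = (Fintype.card F : ℂ) ^ (k + 2) *
      LinearMap.trace ℂ V (EE ρ R p l * (EE ρ R (A k) m * (EE ρ R θ φ * AV ρ R (WL A k)))) := by
  have hkS : k < nS := lt_of_lt_of_le hk L.le
  rw [chain P R hθ L hd hφ k hkS.le, step_free P R hθ L hkS hφ m]
  have h1 : pr D p (A k) = 1 := by rw [(P p p.2 (A k) (A k).2).symm]; exact L.adjp k hk
  obtain ⟨s, m', hs'⟩ := exists_dec (K := F) G P h1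
  have hs := AA_symm G P hs' (stdSys G F) (fun _ hk t u => stdSys_inj G F hk t u)
  have e1 := X.fadd _ _ _ _ hs
  have e2 := L.one k hkS
  have hNS : NS D F s (WL A k) := by
    rintro _ ⟨j, hj, rfl⟩
    left
    have e3 := (AA_pr G P hs).2.2.2.1 (A j) (A j).2
    have e4 := L.adj k hk j hj
    have e5 : pr D (A j) (A k) = pr D (A k) (A j) := (P (A j) (A j).2 (A k) (A k).2).symm
    have e6 := L.adjp j (by omega)
    apply CC_symm P
    unfold CC
    omega
  have hcomm : ∀ t, ρ (R.x s t) * (EE ρ R θ φ * AV ρ R (WL A k)) = EE ρ R θ φ * AV ρ R (WL A k) * ρ (R.x s t) := by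
    intro t
    rw [← mul_assoc, comm_theta P R hθ (by omega), mul_assoc, comm_AV G P R hNS, mul_assoc]
  have h3 := free G P R (ρ := ρ) hs hm hcomm l
  rw [mul_assoc (EE ρ R (A k) m), h3, mul_assoc (EE ρ R p l)]
  ring

include P hθ L in
/-- the trivial part -/
theorem part_zero {d : ℂ} (hd : ∀ r, ∀ m : AddChar F ℂ, m ≠ 1 → LinearMap.trace ℂ V (EE ρ R r m) = d)
    (hdS : d = (Fintype.card F : ℂ) ^ nS) (hp : X.f p = 0) {φ : AddChar F ℂ} (hφ : φ ≠ 1) {l : AddChar F ℂ} (hl : l ≠ 1) :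
    LinearMap.trace ℂ V (EE ρ R p l * (EE ρ R θ φ * AV ρ R (WL A nA))) = 0 := by
  have hq : (Fintype.card F : ℂ) ≠ 0 := by exact_mod_cast Fintype.card_ne_zero
  have hAV : ∀ i ≤ nS, EE ρ R θ φ * AV ρ R (WL A i) = AV ρ R (WL A i) * EE ρ R θ φ := fun i hi =>
    theta_AV P R hθ (fun r hr => by rw [WL_pos L hi r hr]; norm_num) φ
  have hθp : EE ρ R p l * EE ρ R θ φ = EE ρ R θ φ * EE ρ R p l :=
    EE_comm G P R (CC_theta P hθ (by omega)) l φ
  have h1 : pr D p p = 2 := pr_self G p.2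
  have key : ∀ i, nA ≤ i → i ≤ nS → ∃ c : ℂ, c ≠ 0 ∧
      LinearMap.trace ℂ V (EE ρ R p l * (EE ρ R θ φ * AV ρ R (WL A nA))) =
        c * LinearMap.trace ℂ V (EE ρ R p l * (EE ρ R θ φ * AV ρ R (WL A i))) := by
    intro i hi
    induction i, hi using Nat.le_induction with
    | base => intro _; exact ⟨1, one_ne_zero, by rw [one_mul]⟩
    | succ i hi ih =>
      intro hi'
      obtain ⟨c, hc, hc'⟩ := ih (by omega)
      refine ⟨c * Fintype.card F, mul_ne_zero hc hq, ?_⟩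
      rw [hc', mul_assoc]
      congr 1
      have hiS : i < nS := by omega
      have h1 : pr D (A i) θ = 1 := by
        rw [(P (A i) (A i).2 θ θ.2).symm, hθ.pr_eq, L.one i hiS]
      obtain ⟨s, m', hs'⟩ := exists_dec (K := F) G P h1
      have hs := AA_symm G P hs' (stdSys G F) (fun _ hk t u => stdSys_inj G F hk t u)
      have hNSp := L.normp i hi hiS
      have hcomm : ∀ t, ρ (R.x s t) * (AV ρ R (WL A i) * EE ρ R p l) = AV ρ R (WL A i) * EE ρ R p l * ρ (R.x s t) := by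
        intro t
        apply comm_AV_EE G P R (NS_s P hθ L hiS hs) hNSp
        rcases L.free i hi hiS s _ hs with h | ⟨k, hk, n', h⟩
        · exact Or.inl h
        · exact Or.inr ⟨A k, ⟨k, hk, rfl⟩, n', h⟩
      have h3 := free G P R (ρ := ρ) hs hφ hcomm 1
      have e1 : EE ρ R p l * (EE ρ R θ φ * AV ρ R (WL A i)) = EE ρ R θ φ * (AV ρ R (WL A i) * EE ρ R p l) := by
        rw [← mul_assoc, hθp, mul_assoc, EE_AV G P R hNSp]
      rw [e1, h3]
      congr 1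
      have e2 : EE ρ R (A i) 1 * EE ρ R θ φ * (AV ρ R (WL A i) * EE ρ R p l) =
          (EE ρ R θ φ * AV ρ R (WL A (i + 1))) * EE ρ R p l := by
        rw [← step_op P R hθ L hiS, mul_assoc, mul_assoc, mul_assoc]
      rw [e2, LinearMap.trace_mul_comm]
  obtain ⟨c, hc, hc'⟩ := key nS L.le le_rfl
  rw [hc']
  have hY : (EE ρ R θ φ * AV ρ R (WL A nS)) * (EE ρ R θ φ * AV ρ R (WL A nS)) = EE ρ R θ φ * AV ρ R (WL A nS) :=
    idem_mul (Er_mul_self (hx R θ) φ) (AV_idem R _) (hAV nS le_rfl)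
  have htr : LinearMap.trace ℂ V (EE ρ R θ φ * AV ρ R (WL A nS)) = 1 := by
    have := chain P R hθ L hd hφ nS le_rfl
    rw [hdS] at this
    have hq' : (Fintype.card F : ℂ) ^ nS ≠ 0 := pow_ne_zero _ hq
    exact (mul_left_cancel₀ hq' (by rw [mul_one]; exact this)).symm
  obtain ⟨s1, s2, n, hA, h1, h2, h3, h4⟩ := L.dec
  have hc1 : ∀ s, X.f s = 0 → NS D F s (WL A nS) → ∀ t, ρ (R.x s t) * (EE ρ R θ φ * AV ρ R (WL A nS)) =
      EE ρ R θ φ * AV ρ R (WL A nS) * ρ (R.x s t) := by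
    intro s hs hNS t
    rw [← mul_assoc, comm_theta P R hθ (by omega), mul_assoc, comm_AV G P R hNS, mul_assoc]
  have h0 : EE ρ R p l * (EE ρ R θ φ * AV ρ R (WL A nS)) = 0 := by
    apply Er_mul_eq_zero (hx R p) hl
    intro t
    have hn := (AA_pr G P hA).2.2.2.2.2.1
    have e1 := AA_cm G P R hA (n⁻¹ * t) 1
    have e2 : n * (n⁻¹ * t) * 1 = t := by rw [mul_one, mul_inv_cancel_left₀ hn]
    rw [e2] at e1
    have c1 := hc1 s1 h1 h3 (n⁻¹ * t)
    have c2 := hc1 s2 h2 h4 1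
    have e3 := comm_rank_one hY htr c1 c2
    rw [← e1]
    unfold cm
    have e4 : ρ ((R.x s1 (n⁻¹ * t))⁻¹ * (R.x s2 1)⁻¹ * R.x s1 (n⁻¹ * t) * R.x s2 1) =
        ρ ((R.x s2 1) * R.x s1 (n⁻¹ * t))⁻¹ * (ρ (R.x s1 (n⁻¹ * t)) * ρ (R.x s2 1)) := by
      rw [← map_mul, ← map_mul]; congr 1; group
    rw [e4, mul_assoc, e3, ← map_mul, ← mul_assoc, ← map_mul, inv_mul_cancel, map_one, one_mul]
  rw [h0, map_zero, mul_zero]

include P hθ L in
/-- the multiplicity of `(p, θ)`-weights -/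
theorem mult_p_theta {d : ℂ} (hd : ∀ r, ∀ m : AddChar F ℂ, m ≠ 1 → LinearMap.trace ℂ V (EE ρ R r m) = d)
    (hdS : d = (Fintype.card F : ℂ) ^ nS) (hp : X.f p = 0) {φ : AddChar F ℂ} (hφ : φ ≠ 1) {l : AddChar F ℂ} (hl : l ≠ 1) :
    LinearMap.trace ℂ V (EE ρ R p l * EE ρ R θ φ) =
      ((Fintype.card F : ℂ) - 1) * ∑ k ∈ Finset.range nA, d / (Fintype.card F : ℂ) ^ (k + 2) := by
  have hq : (Fintype.card F : ℂ) ≠ 0 := by exact_mod_cast Fintype.card_ne_zero
  have h0 : AV ρ R (WL A 0) = 1 := by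
    have : AV ρ R (WL A 0) * 1 = 1 := AV_fix R (by rintro r ⟨j, hj, -⟩; omega)
    rwa [mul_one] at this
  have hcard : (Finset.univ.filter (fun m : AddChar F ℂ => m ≠ 1)).card = Fintype.card F - 1 := by
    classical
    rw [Finset.filter_ne', Finset.card_erase_of_mem (Finset.mem_univ _), Finset.card_univ, AddChar.card_eq]
  have key : ∀ k ≤ nA, LinearMap.trace ℂ V (EE ρ R p l * EE ρ R θ φ) =
      LinearMap.trace ℂ V (EE ρ R p l * (EE ρ R θ φ * AV ρ R (WL A k))) +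
        ((Fintype.card F : ℂ) - 1) * ∑ j ∈ Finset.range k, d / (Fintype.card F : ℂ) ^ (j + 2) := by
    intro k
    induction k with
    | zero => intro _; rw [h0, mul_one]; simp
    | succ k ih =>
      intro hk
      have hkS : k < nS := lt_of_lt_of_le hk L.le
      rw [ih (by omega), step_sum P R hθ L hkS φ (EE ρ R p l)]
      have h1 : ∀ m ∈ Finset.univ.filter (fun m : AddChar F ℂ => m ≠ 1),
          LinearMap.trace ℂ V (EE ρ R p l * (EE ρ R (A k) m * (EE ρ R θ φ * AV ρ R (WL A k)))) =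
            d / (Fintype.card F : ℂ) ^ (k + 2) := by
        intro m hm
        have := part_free P R hθ L hd hp hφ (by omega : k < nA) (Finset.mem_filter.mp hm).2 l
        rw [eq_div_iff (pow_ne_zero _ hq), mul_comm]
        exact this.symm
      rw [Finset.sum_congr rfl h1, Finset.sum_const, hcard, nsmul_eq_mul, Nat.cast_sub Fintype.card_pos, Nat.cast_one,
        Finset.sum_range_succ]
      ring
  rw [key nA le_rfl, part_zero P R hθ L hd hdS hp hφ hl, zero_add]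

include P hθ L in
/-- the multiplicity of `p` on the fixed space of the centre -/
theorem mult_p_Z {d : ℂ} (hd : ∀ r, ∀ m : AddChar F ℂ, m ≠ 1 → LinearMap.trace ℂ V (EE ρ R r m) = d)
    (hdS : d = (Fintype.card F : ℂ) ^ nS) (hp : X.f p = 0) {l : AddChar F ℂ} (hl : l ≠ 1) :
    LinearMap.trace ℂ V (EE ρ R p l * AV ρ R X.Z) = d - ((Fintype.card F : ℂ) - 1) *
      (((Fintype.card F : ℂ) - 1) * ∑ k ∈ Finset.range nA, d / (Fintype.card F : ℂ) ^ (k + 2)) := by
  classical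
  have h := trace_Z P R hθ (ρ := ρ) (EE ρ R p l)
  have hcard : (Finset.univ.filter (fun m : AddChar F ℂ => m ≠ 1)).card = Fintype.card F - 1 := by
    rw [Finset.filter_ne', Finset.card_erase_of_mem (Finset.mem_univ _), Finset.card_univ, AddChar.card_eq]
  rw [Finset.sum_congr rfl (fun m hm => mult_p_theta P R hθ L hd hdS hp (Finset.mem_filter.mp hm).2 hl), Finset.sum_const,
    hcard, nsmul_eq_mul, Nat.cast_sub Fintype.card_pos, Nat.cast_one, hd p l hl] at h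
  linear_combination (-1 : ℂ) * h

end Cfsg.Agent.Lib.MinDegH
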