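import Cfsg.Agent.Lib.MinDegH

/-!
Kernel checkable certificates for the combinatorial hypotheses on radicals (helper18).
-/

set_option autoImplicit false
set_option linter.unusedSectionVars false

namespace Cfsg.Agent.Lib.MinDegI

open Cfsg.Lie Cfsg.Agent.Lib.ChevGood Cfsg.Agent.Lib.ChevRel Cfsg.Agent.Lib.ChevX Cfsg.Agent.Lib.UCEPair
open Cfsg.Agent.Lib.UCEBase Cfsg.Agent.Lib.UCESys Cfsg.Agent.Lib.UCELift Cfsg.Agent.Lib.UCESymbol Cfsg.Agent.Lib.UCETrip
open Cfsg.Agent.Lib.WeightProj Cfsg.Agent.Lib.MinDegA Cfsg.Agent.Lib.MinDegB Cfsg.Agent.Lib.MinDegC Cfsg.Agent.Lib.MinDegD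
open Cfsg.Agent.Lib.MinDegE Cfsg.Agent.Lib.MinDegF Cfsg.Agent.Lib.MinDegG Cfsg.Agent.Lib.MinDegH

theorem card_filter_range (N : ℕ) (p : ℕ → Prop) [DecidablePred p] :
    ((Finset.range N).filter p).card = (List.range N).countP (fun j => decide (p j)) := by
  induction N with
  | zero => simp
  | succ N ih =>
    rw [Finset.range_add_one, Finset.filter_insert, List.range_succ, List.countP_append, ← ih]
    split_ifs with h
    · rw [Finset.card_insert_of_notMem (by simp)]
      simp [List.countP_cons, h]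
    · simp [List.countP_cons, h]

theorem sum_range_getD {M : Type*} [AddCommMonoid M] {α : Type*} (L : List α) (a : α) (g : α → M) :
    ∑ i ∈ Finset.range L.length, g (L.getD i a) = (L.map g).sum := by
  induction L with
  | nil => simp
  | cons x L ih =>
    rw [List.length_cons, Finset.sum_range_succ', List.map_cons, List.sum_cons, ← ih, add_comm]
    simp

variable (D : ChevalleyDatum)

/-- index as an element of `Fin` -/
def tF (h0 : 0 < D.nroots) (r : ℕ) : Fin D.nroots := ⟨if r < D.nroots then r else 0, by split_ifs <;> assumption⟩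

variable {D}

theorem tF_val {h0 : 0 < D.nroots} {r : ℕ} (h : r < D.nroots) : (tF D h0 r).val = r := if_pos h

theorem tF_fin (h0 : 0 < D.nroots) (r : Fin D.nroots) : tF D h0 r.val = r := Fin.ext (tF_val r.2)

/-- height -/
def hv (D : ChevalleyDatum) (rv : ℕ → ℕ → ℤ) (r : ℕ) : ℤ := ∑ j ∈ Finset.range D.rank, rv r j

def chkRad (D : ChevalleyDatum) (rv : ℕ → ℕ → ℤ) (j0 : ℕ) (Ul : List ℕ) : Bool :=
  Ul.all (fun r => decide (r < D.nroots)) && decide Ul.Nodup &&
  (List.range D.nroots).all (fun r => decide (rv r j0 ≤ 2) && (decide (rv r j0 = 1) == Ul.contains r) &&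
    decide (hv D rv r ≠ 0)) &&
  decide (Ul.Pairwise (fun a b => hv D rv b ≤ hv D rv a))

variable (G : Good D) {F : Type*} [Field F]

theorem getD_mem {Ul : List ℕ} {i : ℕ} (h : i < Ul.length) : Ul.getD i 0 ∈ Ul := by
  rw [List.getD_eq_getElem _ _ h]; exact List.getElem_mem h

/-- the radical of a certificate -/
noncomputable def mkRad (F : Type*) [Field F] (P : ∀ r < D.nroots, ∀ s < D.nroots, PairOK D True r s) (j0 : ℕ) (Ul : List ℕ)
    (h0 : 0 < D.nroots)
    (h : chkRad D G.rv j0 Ul = true) : Rad D G F where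
  f r := G.rv r j0
  ht r := hv D G.rv r
  N := Ul.length
  U i := tF D h0 (Ul.getD i 0)
  hU i hi := by
    unfold chkRad at h
    simp only [Bool.and_eq_true, List.all_eq_true, decide_eq_true_eq, List.mem_range, beq_iff_eq] at h
    obtain ⟨⟨⟨h1, h2⟩, h3⟩, h4⟩ := h
    have hm := getD_mem hi
    have hlt := h1 _ hm
    rw [tF_val hlt]
    have := (h3 _ hlt).1.2
    rw [List.contains_iff_mem.mpr hm, decide_eq_true_eq] at this
    exact this
  exU r hr := by
    unfold chkRad at h
    simp only [Bool.and_eq_true, List.all_eq_true, decide_eq_true_eq, List.mem_range, beq_iff_eq] at h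
    obtain ⟨⟨⟨h1, h2⟩, h3⟩, h4⟩ := h
    have := (h3 _ r.2).1.2
    rw [decide_eq_true hr] at this
    have hm := List.contains_iff_mem.mp this.symm
    obtain ⟨i, hi, hi'⟩ := List.getElem_of_mem hm
    refine ⟨i, hi, ?_⟩
    rw [List.getD_eq_getElem _ _ hi, hi', tF_fin]
  inj i hi j hj hij := by
    unfold chkRad at h
    simp only [Bool.and_eq_true, List.all_eq_true, decide_eq_true_eq, List.mem_range, beq_iff_eq] at h
    obtain ⟨⟨⟨h1, h2⟩, h3⟩, h4⟩ := h
    have e := congrArg Fin.val hij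
    rw [tF_val (h1 _ (getD_mem hi)), tF_val (h1 _ (getD_mem hj)), List.getD_eq_getElem _ _ hi,
      List.getD_eq_getElem _ _ hj] at e
    exact (List.Nodup.getElem_inj_iff h2).mp e
  fle r := by
    unfold chkRad at h
    simp only [Bool.and_eq_true, List.all_eq_true, decide_eq_true_eq, List.mem_range, beq_iff_eq] at h
    exact (h.1.2 _ r.2).1.1
  fadd a b k n hA := (AA_pr G P hA).2.2.2.2.1 j0
  fneg r := G.rv_neg r r.2 j0
  htadd a b k n hA := by
    unfold hv
    rw [← Finset.sum_add_distrib]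
    exact Finset.sum_congr rfl (fun j _ => (AA_pr G P hA).2.2.2.2.1 j)
  htne r := by
    unfold chkRad at h
    simp only [Bool.and_eq_true, List.all_eq_true, decide_eq_true_eq, List.mem_range, beq_iff_eq] at h
    exact (h.1.2 _ r.2).2
  sorted i hi j hj hij := by
    unfold chkRad at h
    simp only [Bool.and_eq_true, List.all_eq_true, decide_eq_true_eq, List.mem_range, beq_iff_eq] at h
    obtain ⟨⟨⟨h1, h2⟩, h3⟩, h4⟩ := h
    rw [tF_val (h1 _ (getD_mem hi)), tF_val (h1 _ (getD_mem hj)), List.getD_eq_getElem _ _ hi,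
      List.getD_eq_getElem _ _ hj]
    rcases Nat.lt_or_eq_of_le hij with h5 | h5
    · exact List.pairwise_iff_getElem.mp h4 i j hi hj h5
    · subst h5; exact le_rfl

theorem mkRad_val (P : ∀ r < D.nroots, ∀ s < D.nroots, PairOK D True r s) (j0 : ℕ) (Ul : List ℕ)
    (h0 : 0 < D.nroots) (h : chkRad D G.rv j0 Ul = true) (i : ℕ) (hi : i < Ul.length) :
    ((mkRad G F P j0 Ul h0 h).U i).val = Ul.getD i 0 := by
  have hlt : ∀ r ∈ Ul, r < D.nroots := by
    unfold chkRad at h
    simp only [Bool.and_eq_true, List.all_eq_true, decide_eq_true_eq] at h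
    exact h.1.1.1
  exact tF_val (h0 := h0) (hlt _ (getD_mem hi))

/-- the sum relation -/
def sumIs (D : ChevalleyDatum) (a b k : ℕ) : Bool :=
  match D.chainEntry b a with
  | [(k', _)] => k' == k
  | _ => false

theorem sumIs_AA {a b k : Fin D.nroots} (h : sumIs D a b k = true) : ∃ n : F, AA D F a b k n := by
  unfold sumIs at h
  split at h
  · next k' M h' =>
    rw [beq_iff_eq] at h
    subst h
    exact ⟨_, M, h', rfl⟩
  · simp at h

/-- membership of all sums -/
def nsChk (D : ChevalleyDatum) (s : ℕ) (L : List ℕ) : Bool :=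
  L.all fun r => decide (0 ≤ pr D s r) || L.any fun k => sumIs D s r k

theorem nsChk_NS (h0 : 0 < D.nroots) {s : Fin D.nroots} {L : List ℕ} (hlt : ∀ r ∈ L, r < D.nroots) (h : nsChk D s L = true)
    {S : Set (Fin D.nroots)} (hS : S = {r | r.val ∈ L}) : NS D F s S := by
  subst hS
  intro r hr
  unfold nsChk at h
  rw [List.all_eq_true] at h
  have h1 := h r hr
  rw [Bool.or_eq_true] at h1
  rcases h1 with h1 | h1
  · left
    have h2 : 0 ≤ pr D s r := of_decide_eq_true h1
    exact h2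
  · right
    rw [List.any_eq_true] at h1
    obtain ⟨k, hk, hk'⟩ := h1
    obtain ⟨n, hn⟩ := sumIs_AA (F := F) (a := s) (b := r) (k := ⟨k, hlt k hk⟩) hk'
    exact ⟨⟨k, hlt k hk⟩, hk, n, hn⟩

/-- certificate for the highest root of the Levi factor -/
def chkTop (D : ChevalleyDatum) (rv : ℕ → ℕ → ℤ) (j0 p : ℕ) (Ul : List ℕ) (C : List (ℕ × ℕ)) : Bool :=
  decide (rv p j0 = 0) &&
  (List.range D.nroots).all (fun s => !(decide (rv s j0 = 0) && decide (0 < hv D rv s)) || decide (0 ≤ pr D s p)) &&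
  C.all (fun c => decide (c.1 < D.nroots) && decide (c.2 < D.nroots) && sumIs D c.1 c.2 p && decide (rv c.1 j0 = 0) &&
    decide (rv c.2 j0 = 0)) &&
  Ul.all (fun r => !decide (pr D r p ≤ 0) || C.any (fun c => decide (pr D r c.1 ≤ 0) && decide (pr D r c.2 ≤ 0)))

variable {G} in
theorem topOK {P : ∀ r < D.nroots, ∀ s < D.nroots, PairOK D True r s} {j0 : ℕ} {Ul : List ℕ} {h0 : 0 < D.nroots}
    {h : chkRad D G.rv j0 Ul = true} {p : Fin D.nroots} {C : List (ℕ × ℕ)} (ht : chkTop D G.rv j0 p Ul C = true) :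
    TopOK (mkRad G F P j0 Ul h0 h) p := by
  unfold chkTop at ht
  simp only [Bool.and_eq_true, List.all_eq_true, decide_eq_true_eq, List.mem_range, Bool.or_eq_true, Bool.not_eq_true',
    List.any_eq_true, Bool.and_eq_false_iff, decide_eq_false_iff_not] at ht
  obtain ⟨⟨⟨h1, h2⟩, h3⟩, h4⟩ := ht
  refine ⟨h1, ?_, ?_⟩
  · intro s hs hs'
    have hs0 : G.rv s j0 = 0 := hs
    have hs1 : 0 < hv D G.rv s := hs'
    rcases h2 s s.2 with (h5 | h5) | h5
    · exact absurd hs0 h5
    · exact absurd hs1 h5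
    · exact h5
  · intro r hr hrp
    obtain ⟨i, hi, hir⟩ := (mkRad G F P j0 Ul h0 h).exU r hr
    have hmem : r.val ∈ Ul := by
      have e1 : tF D h0 (Ul.getD i 0) = r := hir
      have hm : Ul.getD i 0 ∈ Ul := getD_mem hi
      have hlt : Ul.getD i 0 < D.nroots := by
        unfold chkRad at h
        simp only [Bool.and_eq_true, List.all_eq_true, decide_eq_true_eq] at h
        exact h.1.1.1 _ hm
      rw [← e1, tF_val hlt]; exact hm
    rcases h4 r hmem with h5 | ⟨c, hc, h5, h6⟩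
    · exact absurd hrp h5
    · obtain ⟨⟨⟨⟨c1, c2⟩, c3⟩, c4⟩, c5⟩ := h3 c hc
      obtain ⟨n, hn⟩ := sumIs_AA (F := F) (a := ⟨c.1, c1⟩) (b := ⟨c.2, c2⟩) (k := p) c3
      exact ⟨⟨c.1, c1⟩, ⟨c.2, c2⟩, n, hn, c4, c5, h5, h6⟩

/-- certificate for the Heisenberg case -/
def chkHeis (D : ChevalleyDatum) (rv : ℕ → ℕ → ℤ) (j0 θ : ℕ) : Bool :=
  (List.range D.nroots).all (fun r => decide (pr D θ r = rv r j0) && (!decide (rv r j0 = 2) || (r == θ)))

variable {G} in
theorem heisOK {P : ∀ r < D.nroots, ∀ s < D.nroots, PairOK D True r s} {j0 : ℕ} {Ul : List ℕ} {h0 : 0 < D.nroots}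
    {h : chkRad D G.rv j0 Ul = true} {θ : Fin D.nroots} (ht : chkHeis D G.rv j0 θ = true) :
    Heis (mkRad G F P j0 Ul h0 h) θ := by
  unfold chkHeis at ht
  simp only [Bool.and_eq_true, List.all_eq_true, decide_eq_true_eq, List.mem_range, Bool.or_eq_true, Bool.not_eq_true',
    decide_eq_false_iff_not, beq_iff_eq] at ht
  refine ⟨fun r => (ht r r.2).1, ?_⟩
  intro r hr
  rcases (ht r r.2).2 with h5 | h5
  · exact absurd hr h5
  · exact Fin.ext h5

/-- certificate for the Lagrangian -/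
def chkLag (D : ChevalleyDatum) (rv : ℕ → ℕ → ℤ) (j0 θ p : ℕ) (A : List ℕ) (nA : ℕ) (c : ℕ × ℕ) : Bool :=
  decide (nA ≤ A.length) && A.all (fun r => decide (r < D.nroots) && decide (rv r j0 = 1)) &&
  (List.range A.length).all (fun i => (List.range i).all (fun j =>
    decide (0 ≤ pr D (A.getD i 0) (A.getD j 0)) && decide (pr D (A.getD i 0) (A.getD j 0) ≤ 1))) &&
  (List.range nA).all (fun k => decide (pr D (A.getD k 0) p = 1) &&
    (List.range k).all (fun j => decide (pr D (A.getD k 0) (A.getD j 0) = 1))) &&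
  (List.range A.length).all (fun i => decide (i < nA) || (nsChk D p (A.take i) &&
    (decide (pr D (A.getD i 0) p ≤ 0) ||
      (List.range i).any (fun k => (List.range D.rank).all (fun j =>
        decide (rv (A.getD i 0) j + rv (A.getD k 0) j = rv θ j + rv p j)))))) &&
  (decide (c.1 < D.nroots) && decide (c.2 < D.nroots) && sumIs D c.1 c.2 p && decide (rv c.1 j0 = 0) &&
    decide (rv c.2 j0 = 0) && nsChk D c.1 A && nsChk D c.2 A)

theorem WL_take (h0 : 0 < D.nroots) {A : List ℕ} (hA : ∀ r ∈ A, r < D.nroots) {i : ℕ} (hi : i ≤ A.length) :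
    WL (fun i => tF D h0 (A.getD i 0)) i = {r : Fin D.nroots | r.val ∈ A.take i} := by
  ext r
  simp only [WL, Set.mem_setOf_eq]
  constructor
  · rintro ⟨j, hj, rfl⟩
    have hj' : j < A.length := by omega
    rw [tF_val (hA _ (getD_mem hj')), List.getD_eq_getElem _ _ hj']
    rw [List.mem_take_iff_getElem]
    exact ⟨j, by omega, rfl⟩
  · intro hr
    rw [List.mem_take_iff_getElem] at hr
    obtain ⟨j, hj, hj'⟩ := hr
    refine ⟨j, by omega, ?_⟩
    apply Fin.ext
    have hjA : j < A.length := by omega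
    rw [tF_val (hA _ (getD_mem hjA)), List.getD_eq_getElem _ _ hjA]
    exact hj'

variable {G} in
theorem lagOK {P : ∀ r < D.nroots, ∀ s < D.nroots, PairOK D True r s} {j0 : ℕ} {Ul : List ℕ} {h0 : 0 < D.nroots}
    {h : chkRad D G.rv j0 Ul = true} {θ p : Fin D.nroots} {A : List ℕ} {nA : ℕ} {c : ℕ × ℕ}
    (hθ : Heis (mkRad G F P j0 Ul h0 h) θ)
    (ht : chkLag D G.rv j0 θ p A nA c = true) :
    Lag (mkRad G F P j0 Ul h0 h) θ p (fun i => tF D h0 (A.getD i 0)) nA A.length := by
  unfold chkLag at ht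
  simp only [Bool.and_eq_true, List.all_eq_true, decide_eq_true_eq, List.mem_range, Bool.or_eq_true, List.any_eq_true] at ht
  obtain ⟨⟨⟨⟨⟨h1, h2⟩, h3⟩, h4⟩, h5⟩, ⟨⟨⟨⟨⟨⟨c1, c2⟩, c3⟩, c4⟩, c5⟩, c6⟩, c7⟩⟩ := ht
  have hlt : ∀ r ∈ A, r < D.nroots := fun r hr => (h2 r hr).1
  have hval : ∀ i, i < A.length → (tF D h0 (A.getD i 0)).val = A.getD i 0 := fun i hi => tF_val (hlt _ (getD_mem hi))
  refine ⟨h1, ?_, ?_, ?_, ?_, ?_, ?_, ?_⟩
  · intro i hi
    show G.rv (tF D h0 (A.getD i 0)).val j0 = 1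
    rw [hval i hi]
    exact (h2 _ (getD_mem hi)).2
  · intro i hi j hj
    rw [hval i hi, hval j (by omega)]
    exact h3 i hi j hj
  · intro k hk
    rw [hval k (by omega)]
    exact (h4 k hk).1
  · intro k hk j hj
    rw [hval k (by omega), hval j (by omega)]
    exact (h4 k hk).2 j hj
  · intro i hi hi'
    rcases h5 i hi' with h6 | h6
    · omega
    · exact nsChk_NS h0 (fun r hr => hlt r (List.mem_of_mem_take hr)) h6.1 (WL_take h0 hlt hi'.le)
  · intro i hi hi' s n hs
    rcases h5 i hi' with h6 | ⟨-, h6⟩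
    · omega
    · have hlin := (AA_pr G P hs).2.2.2.1 p p.2
      have e1 : pr D p θ = pr D θ p := (P p p.2 θ θ.2).symm
      have e2 := hθ.pr_eq p
      have e3 : pr D p (tF D h0 (A.getD i 0)) = pr D (tF D h0 (A.getD i 0)) p := (P p p.2 _ (tF D h0 (A.getD i 0)).2).symm
      have e4 : pr D p s = pr D s p := (P p p.2 s s.2).symm
      have hrvs := (AA_pr G P hs).2.2.2.2.1
      have hp0 : (mkRad G F P j0 Ul h0 h).f p = 0 := by
        obtain ⟨n', hn'⟩ := sumIs_AA (F := F) (a := ⟨c.1, c1⟩) (b := ⟨c.2, c2⟩) (k := p) c3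
        have := (mkRad G F P j0 Ul h0 h).fadd _ _ _ _ hn'
        have e7 : (mkRad G F P j0 Ul h0 h).f ⟨c.1, c1⟩ = 0 := c4
        have e8 : (mkRad G F P j0 Ul h0 h).f ⟨c.2, c2⟩ = 0 := c5
        omega
      rcases h6 with h6 | ⟨k, hk, h6⟩
      · left
        rw [← hval i hi'] at h6
        unfold CC
        omega
      · right
        refine ⟨k, hk, ?_⟩
        have hrv : ∀ j, G.rv (tF D h0 (A.getD k 0)) j = G.rv s j + G.rv p j := by
          intro j
          by_cases hj : j < D.rank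
          · have e5 := h6 j hj
            have e6 := hrvs j
            rw [hval i hi'] at e6
            rw [hval k (by omega)]
            omega
          · rw [G.rv_out _ j (by omega), G.rv_out _ j (by omega), G.rv_out _ j (by omega)]; ring
        -- pr s p = -1 as the sum is a root
        have h7 : pr D s p = -1 := by
          by_contra hne
          have hpp : pr D p p = 2 := pr_self G p.2
          have hss : pr D s s = 2 := pr_self G s.2
          set w := tF D h0 (A.getD k 0) with hw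
          have hww : pr D w w = 2 := pr_self G w.2
          have l1 := pr_lin G (r := w) p.2 w.2 s.2 1 1 (fun j => by rw [hrv j]; ring)
          have l2 := pr_lin G (r := s) p.2 w.2 s.2 1 1 (fun j => by rw [hrv j]; ring)
          have l3 := pr_lin G (r := p) p.2 w.2 s.2 1 1 (fun j => by rw [hrv j]; ring)
          have s1 : pr D w s = pr D s w := (P w w.2 s s.2).symm
          have s2 : pr D w p = pr D p w := (P w w.2 p p.2).symm
          omega
        exact AA_of_sum G P h7 hrv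
  · obtain ⟨n, hn⟩ := sumIs_AA (F := F) (a := ⟨c.1, c1⟩) (b := ⟨c.2, c2⟩) (k := p) c3
    have e7 : (mkRad G F P j0 Ul h0 h).f ⟨c.1, c1⟩ = 0 := c4
    have e8 : (mkRad G F P j0 Ul h0 h).f ⟨c.2, c2⟩ = 0 := c5
    have e9 : WL (fun i => tF D h0 (A.getD i 0)) A.length = {r : Fin D.nroots | r.val ∈ A} := by
      rw [WL_take h0 hlt le_rfl, List.take_length]
    have c6' : nsChk D (⟨c.1, c1⟩ : Fin D.nroots).val A = true := c6
    have c7' : nsChk D (⟨c.2, c2⟩ : Fin D.nroots).val A = true := c7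
    exact ⟨⟨c.1, c1⟩, ⟨c.2, c2⟩, n, hn, e7, e8, nsChk_NS h0 hlt c6' e9, nsChk_NS h0 hlt c7' e9⟩

/-- certificate for the numbers of adjacent roots -/
def chkAdj (D : ChevalleyDatum) (Ul : List ℕ) (e : ℕ) : Bool :=
  (List.range Ul.length).all (fun i =>
    (List.range Ul.length).countP (fun j => decide (pr D (Ul.getD i 0) (Ul.getD j 0) = 1)) == e)

variable {G} in
theorem nadj_eq' (X : Rad D G F) {Ul : List ℕ} (hN : X.N = Ul.length) (hv : ∀ i, i < Ul.length → (X.U i).val = Ul.getD i 0)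
    {e : ℕ} (ha : chkAdj D Ul e = true) {r : Fin D.nroots} (hr : X.f r = 1) : nadj X r = e := by
  classical
  obtain ⟨i, hi, rfl⟩ := X.exU r hr
  unfold chkAdj at ha
  rw [List.all_eq_true] at ha
  rw [hN] at hi
  have h1 := ha i (List.mem_range.mpr hi)
  rw [beq_iff_eq] at h1
  have h2 : (Finset.univ.filter (fun c => X.f c = 1 ∧ pr D (X.U i) c = 1)) =
      ((Finset.range X.N).filter (fun j => pr D (X.U i) (X.U j) = 1)).image X.U := by
    ext c
    simp only [Finset.mem_filter, Finset.mem_univ, true_and, Finset.mem_image, Finset.mem_range]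
    constructor
    · rintro ⟨h3, h4⟩
      obtain ⟨j, hj, rfl⟩ := X.exU c h3
      exact ⟨j, ⟨hj, h4⟩, rfl⟩
    · rintro ⟨j, ⟨hj, h4⟩, rfl⟩
      exact ⟨X.hU j hj, h4⟩
  have h3 : (((Finset.range X.N).filter (fun j => pr D (X.U i) (X.U j) = 1)).image X.U).card =
      ((Finset.range X.N).filter (fun j => pr D (X.U i) (X.U j) = 1)).card := by
    apply Finset.card_image_of_injOn
    intro a ha b hb hab
    rw [Finset.coe_filter] at ha hb
    exact X.inj a (Finset.mem_range.mp ha.1) b (Finset.mem_range.mp hb.1) hab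
  unfold nadj
  rw [h2, h3, card_filter_range, hN, ← h1]
  apply List.countP_congr
  intro j hj
  rw [List.mem_range] at hj
  rw [hv i hi, hv j hj]

variable {G} in
theorem nadj_eq {P : ∀ r < D.nroots, ∀ s < D.nroots, PairOK D True r s} {j0 : ℕ} {Ul : List ℕ} {h0 : 0 < D.nroots}
    {h : chkRad D G.rv j0 Ul = true} {e : ℕ} (ha : chkAdj D Ul e = true) {r : Fin D.nroots}
    (hr : (mkRad G F P j0 Ul h0 h).f r = 1) : nadj (mkRad G F P j0 Ul h0 h) r = e :=
  nadj_eq' (mkRad G F P j0 Ul h0 h) rfl (mkRad_val G P j0 Ul h0 h) ha hr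

/-- certificate for the numbers of lower adjacent roots and the products with `p` -/
def chkEll (D : ChevalleyDatum) (Ul : List ℕ) (p : ℕ) (LL : List (ℕ × Bool)) : Bool :=
  (LL.length == Ul.length) &&
  (List.range Ul.length).all (fun i =>
    ((List.range Ul.length).countP (fun j => decide (i < j ∧ pr D (Ul.getD i 0) (Ul.getD j 0) = 1)) ==
      (LL.getD i (0, false)).1) && (decide (pr D (Ul.getD i 0) p = 1) == (LL.getD i (0, false)).2))

variable {G} in
theorem ell_eq' (X : Rad D G F) {Ul : List ℕ} (hN : X.N = Ul.length) (hv : ∀ i, i < Ul.length → (X.U i).val = Ul.getD i 0)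
    {p : ℕ} {LL : List (ℕ × Bool)} (ha : chkEll D Ul p LL = true) (q : ℂ) :
    ∑ i ∈ Finset.range X.N, q ^ (ell X i) = (LL.map (fun x => q ^ x.1)).sum ∧
    ∑ i ∈ Finset.range X.N, (if pr D (X.U i) p = 1 then q ^ (ell X i) else 0) =
      (LL.map (fun x => if x.2 then q ^ x.1 else 0)).sum := by
  unfold chkEll at ha
  rw [Bool.and_eq_true, beq_iff_eq, List.all_eq_true] at ha
  obtain ⟨hlen, ha⟩ := ha
  have key : ∀ i, i < Ul.length → ell X i = (LL.getD i (0, false)).1 ∧
      (pr D (X.U i) p = 1 ↔ (LL.getD i (0, false)).2 = true) := by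
    intro i hi
    have h1 := ha i (List.mem_range.mpr hi)
    rw [Bool.and_eq_true, beq_iff_eq, beq_iff_eq] at h1
    constructor
    · rw [← h1.1]
      unfold ell
      rw [card_filter_range, hN]
      apply List.countP_congr
      intro j hj
      rw [List.mem_range] at hj
      rw [hv i hi, hv j hj]
    · rw [hv i hi, ← h1.2, decide_eq_true_eq]
  rw [hN, ← hlen]
  constructor
  · rw [← sum_range_getD LL (0, false) (fun x => q ^ x.1)]
    apply Finset.sum_congr rfl
    intro i hi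
    rw [(key i (by rw [← hlen]; exact Finset.mem_range.mp hi)).1]
  · rw [← sum_range_getD LL (0, false) (fun x => if x.2 then q ^ x.1 else 0)]
    apply Finset.sum_congr rfl
    intro i hi
    have h2 := key i (by rw [← hlen]; exact Finset.mem_range.mp hi)
    rw [h2.1]
    by_cases h3 : pr D (X.U i) p = 1
    · rw [if_pos h3, if_pos (h2.2.mp h3)]
    · rw [if_neg h3, if_neg (fun h4 => h3 (h2.2.mpr h4))]

variable {G} in
theorem ell_eq {P : ∀ r < D.nroots, ∀ s < D.nroots, PairOK D True r s} {j0 : ℕ} {Ul : List ℕ} {h0 : 0 < D.nroots}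
    {h : chkRad D G.rv j0 Ul = true} {p : ℕ} {LL : List (ℕ × Bool)} (ha : chkEll D Ul p LL = true) (q : ℂ) :
    ∑ i ∈ Finset.range (mkRad G F P j0 Ul h0 h).N, q ^ (ell (mkRad G F P j0 Ul h0 h) i) = (LL.map (fun x => q ^ x.1)).sum ∧
    ∑ i ∈ Finset.range (mkRad G F P j0 Ul h0 h).N, (if pr D ((mkRad G F P j0 Ul h0 h).U i) p = 1 then
        q ^ (ell (mkRad G F P j0 Ul h0 h) i) else 0) =
      (LL.map (fun x => if x.2 then q ^ x.1 else 0)).sum :=
  ell_eq' (mkRad G F P j0 Ul h0 h) rfl (mkRad_val G P j0 Ul h0 h) ha q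

/-- certificate for the connectedness of the adjacency graph -/
def chkConn (D : ChevalleyDatum) (θ : ℕ) (S : List ℕ) : Bool :=
  decide (θ < D.nroots) && S.all (fun a => decide (a < D.nroots)) &&
  (List.range D.nroots).all (fun r => S.any (fun a => decide (pr D r a = 1) &&
    S.any (fun b => decide (pr D a b = 1) && decide (pr D b θ = 1))))

theorem conn_of {θ : ℕ} {S : List ℕ} (h : chkConn D θ S = true) :
    ∃ t : Fin D.nroots, ∀ r : Fin D.nroots, ∃ a b : Fin D.nroots, pr D r a = 1 ∧ pr D a b = 1 ∧ pr D b t = 1 := by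
  unfold chkConn at h
  simp only [Bool.and_eq_true, List.all_eq_true, decide_eq_true_eq, List.mem_range, List.any_eq_true] at h
  obtain ⟨⟨h1, h2⟩, h3⟩ := h
  refine ⟨⟨θ, h1⟩, fun r => ?_⟩
  obtain ⟨a, ha, h4, b, hb, h5, h6⟩ := h3 r r.2
  exact ⟨⟨a, h2 a ha⟩, ⟨b, h2 b hb⟩, h4, h5, h6⟩

end Cfsg.Agent.Lib.MinDegI
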