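import Cfsg.Agent.Lib.MinDegI
import Cfsg.Agent.Lib.CharBasic

/-!
General consequences: constant multiplicities, the Landazuri-Seitz bound, passing to a Levi factor (helper18).
-/

set_option autoImplicit false
set_option linter.unusedSectionVars false

universe u

namespace Cfsg.Agent.Lib.MinDegJ

open Cfsg.Lie Cfsg.Agent.Lib.ChevGood Cfsg.Agent.Lib.ChevRel Cfsg.Agent.Lib.ChevX Cfsg.Agent.Lib.UCEPair
open Cfsg.Agent.Lib.UCEBase Cfsg.Agent.Lib.UCESys Cfsg.Agent.Lib.UCELift Cfsg.Agent.Lib.UCESymbol Cfsg.Agent.Lib.UCETrip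
open Cfsg.Agent.Lib.WeightProj Cfsg.Agent.Lib.MinDegA Cfsg.Agent.Lib.MinDegB Cfsg.Agent.Lib.MinDegC Cfsg.Agent.Lib.MinDegD
open Cfsg.Agent.Lib.MinDegE Cfsg.Agent.Lib.MinDegF Cfsg.Agent.Lib.MinDegG

section gen

variable {D : ChevalleyDatum} {G : Good D}
  (P : ∀ r < D.nroots, ∀ s < D.nroots, PairOK D True r s) (T : ∀ a < D.nroots, ∀ b < D.nroots, Trip D a b)
  {F : Type*} [Field F] [Fintype F] {Q : Type*} [Group Q] [Finite Q] (R : RSys D F Q)
  {V : Type*} [AddCommGroup V] [Module ℂ V] [FiniteDimensional ℂ V] (ρ : Representation ℂ Q V)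

theorem exists_char (F : Type*) [Field F] [Fintype F] : ∃ m : AddChar F ℂ, m ≠ 1 := by
  by_contra h
  push Not at h
  have h1 : Fintype.card (AddChar F ℂ) = 1 := Fintype.card_eq_one_iff.mpr ⟨1, h⟩
  rw [AddChar.card_eq] at h1
  have := Fintype.one_lt_card (α := F)
  omega

include G P T in
/-- the multiplicity of nontrivial weights is constant -/
theorem exists_d (hconn : ∃ t : Fin D.nroots, ∀ r : Fin D.nroots, ∃ a b : Fin D.nroots, pr D r a = 1 ∧ pr D a b = 1 ∧
    pr D b t = 1) : ∃ d : ℕ, ∀ r : Fin D.nroots, ∀ m : AddChar F ℂ, m ≠ 1 → LinearMap.trace ℂ V (EE ρ R r m) = d := by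
  obtain ⟨t, ht⟩ := hconn
  obtain ⟨l, hl⟩ := exists_char F
  obtain ⟨d, hd, -⟩ := trace_nat (Er_mul_self (ρ := ρ) (hx R t) l)
  refine ⟨d, fun r m hm => ?_⟩
  obtain ⟨a, b, h1, h2, h3⟩ := ht r
  rw [← trace_adj G P T R h1 hl hm, ← trace_adj G P T R h2 hl hl, ← trace_adj G P T R h3 hl hl]
  exact hd

variable {ρ}

/-- multiplicity zero means trivial -/
theorem trivial_of_zero (h : ∀ r : Fin D.nroots, ∀ m : AddChar F ℂ, m ≠ 1 → LinearMap.trace ℂ V (EE ρ R r m) = 0)
    (hgen : Subgroup.closure {g : Q | ∃ r < D.nroots, ∃ t, g = R.x r t} = ⊤) (g : Q) : ρ g = 1 := by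
  have hg : g ∈ Subgroup.closure {g : Q | ∃ r < D.nroots, ∃ t, g = R.x r t} := by rw [hgen]; exact Subgroup.mem_top g
  have := fix_closure (ρ := ρ) (A := 1) (T := {g : Q | ∃ r < D.nroots, ∃ t, g = R.x r t}) (by
    rintro _ ⟨r, hr, t, rfl⟩
    refine fix_of_Er_zero (ρ := ρ) (hx R ⟨r, hr⟩) ?_ t
    intro l hl
    rw [mul_one]
    exact eq_zero_of_trace (Er_mul_self (hx R ⟨r, hr⟩) l) (h ⟨r, hr⟩ l hl)) g hg
  rwa [mul_one] at this

theorem card_ne : (Finset.univ.filter (fun m : AddChar F ℂ => m ≠ 1)).card = Fintype.card F - 1 := by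
  classical
  rw [Finset.filter_ne', Finset.card_erase_of_mem (Finset.mem_univ _), Finset.card_univ, AddChar.card_eq]

include G P in
/-- the Landazuri-Seitz bound -/
theorem ls_bound {d : ℕ} (hd : ∀ r : Fin D.nroots, ∀ m : AddChar F ℂ, m ≠ 1 → LinearMap.trace ℂ V (EE ρ R r m) = d)
    {r c : Fin D.nroots} (hrc : pr D r c = 1) :
    (Fintype.card F - 1) * (Fintype.card F + 1) * d ≤ Fintype.card F * Module.finrank ℂ V := by
  classical
  have hq : (Fintype.card F : ℂ) ≠ 0 := by exact_mod_cast Fintype.card_ne_zero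
  have hcr : pr D c r = 1 := by rw [(P c c.2 r r.2).symm]; exact hrc
  -- the weights of `c`
  have h1 : (Module.finrank ℂ V : ℂ) = LinearMap.trace ℂ V (EE ρ R c 1) + ((Fintype.card F : ℂ) - 1) * d := by
    have e1 : (1 : Module.End ℂ V) = ∑ m : AddChar F ℂ, EE ρ R c m := (sum_Er (hx R c)).symm
    have e2 : (Module.finrank ℂ V : ℂ) = LinearMap.trace ℂ V 1 := (LinearMap.trace_one ℂ V).symm
    rw [e2, e1, map_sum, ← Finset.add_sum_erase _ _ (Finset.mem_univ (1 : AddChar F ℂ))]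
    congr 1
    rw [Finset.sum_congr rfl (fun m hm => hd c m (Finset.ne_of_mem_erase hm)), Finset.sum_const,
      Finset.card_erase_of_mem (Finset.mem_univ _), Finset.card_univ, AddChar.card_eq, nsmul_eq_mul,
      Nat.cast_sub Fintype.card_pos, Nat.cast_one]
  -- the weights of `r` on the fixed space of `c`
  have h2 : LinearMap.trace ℂ V (EE ρ R c 1) = LinearMap.trace ℂ V (EE ρ R c 1 * EE ρ R r 1) +
      ((Fintype.card F : ℂ) - 1) * ((Fintype.card F : ℂ)⁻¹ * d) := by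
    have e1 : EE ρ R c 1 = ∑ m : AddChar F ℂ, EE ρ R c 1 * EE ρ R r m := by
      rw [← Finset.mul_sum, sum_Er (hx R r), mul_one]
    have e2 : LinearMap.trace ℂ V (EE ρ R c 1) = ∑ m : AddChar F ℂ, LinearMap.trace ℂ V (EE ρ R c 1 * EE ρ R r m) := by
      conv_lhs => rw [e1]
      rw [map_sum]
    rw [e2, ← Finset.add_sum_erase _ _ (Finset.mem_univ (1 : AddChar F ℂ))]
    congr 1
    have e3 : ∀ m ∈ Finset.univ.erase (1 : AddChar F ℂ), LinearMap.trace ℂ V (EE ρ R c 1 * EE ρ R r m) =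
        (Fintype.card F : ℂ)⁻¹ * d := by
      intro m hm
      have hm1 := Finset.ne_of_mem_erase hm
      obtain ⟨s, m', hs'⟩ := exists_dec (K := F) G P hcr
      have hs := AA_symm G P hs' (stdSys G F) (fun _ hk t u => stdSys_inj G F hk t u)
      have h3 := free G P R (ρ := ρ) hs hm1 (A := 1) (fun t => by rw [mul_one, one_mul]) 1
      rw [mul_one, mul_one, hd r m hm1] at h3
      rw [h3, inv_mul_cancel_left₀ hq]
    rw [Finset.sum_congr rfl e3, Finset.sum_const,
      Finset.card_erase_of_mem (Finset.mem_univ _), Finset.card_univ, AddChar.card_eq, nsmul_eq_mul,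
      Nat.cast_sub Fintype.card_pos, Nat.cast_one]
  have hCC : CC D c r := by unfold CC; omega
  obtain ⟨k, hk, -⟩ := trace_nat (idem_mul (Er_mul_self (ρ := ρ) (hx R c) 1) (Er_mul_self (ρ := ρ) (hx R r) 1)
    (EE_comm G P R hCC 1 1))
  have hk' : LinearMap.trace ℂ V (EE ρ R c 1 * EE ρ R r 1) = k := hk
  rw [hk'] at h2
  have h3 : (Fintype.card F : ℂ) * Module.finrank ℂ V = Fintype.card F * k +
      ((Fintype.card F : ℂ) - 1) * (Fintype.card F + 1) * d := by
    rw [h1, h2]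
    field_simp
    ring
  have h4 : (Fintype.card F : ℂ) - 1 = ((Fintype.card F - 1 : ℕ) : ℂ) := by
    rw [Nat.cast_sub Fintype.card_pos, Nat.cast_one]
  rw [h4] at h3
  have h5 : Fintype.card F * Module.finrank ℂ V = Fintype.card F * k + (Fintype.card F - 1) * (Fintype.card F + 1) * d := by
    exact_mod_cast h3
  omega

end gen

/-! ### Levi factors -/

section levi

/-- every nontrivial representation has dimension at least `M` -/
def MinRep (Γ : Type*) [Group Γ] (M : ℕ) : Prop :=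
  ∀ (V : Type u) [AddCommGroup V] [Module ℂ V] [FiniteDimensional ℂ V] (σ : Representation ℂ Γ V),
    (∃ g, σ g ≠ 1) → M ≤ Module.finrank ℂ V

theorem minRep_of_irr {Γ : Type*} [Group Γ] [Finite Γ] {M : ℕ}
    (h : ∀ (V : Type u) [AddCommGroup V] [Module ℂ V] [FiniteDimensional ℂ V] (σ : Representation ℂ Γ V),
      σ.IsIrreducible → (∃ g, σ g ≠ 1) → M ≤ Module.finrank ℂ V) : MinRep.{u} Γ M := by
  intro V _ _ _ σ
  refine CharBasic.rep_induction (G := Γ) (P := fun V _ _ _ σ => (∃ g, σ g ≠ 1) → M ≤ Module.finrank ℂ V) ?_ ?_ ?_ V σ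
  · intro V _ _ _ σ hV ⟨g, hg⟩
    exfalso
    apply hg
    ext x
    exact Subsingleton.elim _ _
  · intro V _ _ _ σ hσ hg
    exact h V σ hσ hg
  · intro V _ _ _ σ S T hST _ _ h1 h2 ⟨g, hg⟩
    have hfr : Module.finrank ℂ S.toSubmodule + Module.finrank ℂ T.toSubmodule = Module.finrank ℂ V :=
      Submodule.finrank_add_eq_of_isCompl hST
    by_cases hS : ∃ g, S.toRepresentation g ≠ 1
    · have := h1 hS
      omega
    · by_cases hT : ∃ g, T.toRepresentation g ≠ 1
      · have := h2 hT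
        omega
      · exfalso
        push Not at hS hT
        apply hg
        ext x
        have hx : x ∈ S.toSubmodule ⊔ T.toSubmodule := by rw [hST.sup_eq_top]; trivial
        obtain ⟨y, hy, z, hz, rfl⟩ := Submodule.mem_sup.mp hx
        have e1 := congrArg Subtype.val (LinearMap.congr_fun (hS g) ⟨y, hy⟩)
        have e2 := congrArg Subtype.val (LinearMap.congr_fun (hT g) ⟨z, hz⟩)
        rw [map_add, map_add]
        have e1' : σ g y = y := e1
        have e2' : σ g z = z := e2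
        rw [e1', e2']; rfl

/-- **passing to a Levi factor** -/
theorem level_up {Q : Type*} [Group Q] {V : Type u} [AddCommGroup V] [Module ℂ V] [FiniteDimensional ℂ V]
    {ρ : Representation ℂ Q V} {Γ : Type*} [Group Γ] (φ : Γ →* Q) {A : Module.End ℂ V} (hA : A * A = A)
    (hcomm : ∀ g, ρ (φ g) * A = A * ρ (φ g)) (hnt : ∃ g, ρ (φ g) * A ≠ A) {M : ℕ} (hM : MinRep.{u} Γ M) :
    ∃ c : ℕ, LinearMap.trace ℂ V A = c ∧ M ≤ c := by
  have h1 := (LinearMap.IsIdempotentElem.isProj_range A (show IsIdempotentElem A from hA)).trace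
  refine ⟨_, h1, ?_⟩
  have hst : ∀ g, ∀ x ∈ LinearMap.range A, ρ (φ g) x ∈ LinearMap.range A := by
    rintro g _ ⟨x, rfl⟩
    have : (ρ (φ g) * A) x = (A * ρ (φ g)) x := by rw [hcomm]
    exact ⟨ρ (φ g) x, this.symm⟩
  let σ : Representation ℂ Γ (LinearMap.range A) :=
    { toFun := fun g => (ρ (φ g)).restrict (hst g)
      map_one' := by
        ext x
        simp
      map_mul' := fun g h => by
        ext x
        simp }
  apply hM (LinearMap.range A) σ
  obtain ⟨g, hg⟩ := hnt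
  refine ⟨g, fun h2 => hg ?_⟩
  ext x
  have e1 := congrArg Subtype.val (LinearMap.congr_fun h2 ⟨A x, ⟨x, rfl⟩⟩)
  exact e1

/-- commuting with generators suffices -/
theorem comm_of_gen {Q : Type*} [Group Q] {V : Type*} [AddCommGroup V] [Module ℂ V]
    {ρ : Representation ℂ Q V} {Γ : Type*} [Group Γ] (φ : Γ →* Q) {A : Module.End ℂ V} {S : Set Γ}
    (hS : Subgroup.closure S = ⊤) (h : ∀ g ∈ S, ρ (φ g) * A = A * ρ (φ g)) (g : Γ) : ρ (φ g) * A = A * ρ (φ g) := by
  have hg : g ∈ Subgroup.closure S := by rw [hS]; exact Subgroup.mem_top g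
  induction hg using Subgroup.closure_induction with
  | mem x hx => exact h x hx
  | one => rw [map_one, map_one, one_mul, mul_one]
  | mul x y _ _ hx hy => rw [map_mul, map_mul, mul_assoc, hy, ← mul_assoc, hx, mul_assoc]
  | inv x _ hx =>
    have e1 : ρ (φ x⁻¹) * ρ (φ x) = 1 := by rw [← map_mul, ← map_mul, inv_mul_cancel, map_one, map_one]
    have e2 : ρ (φ x) * ρ (φ x⁻¹) = 1 := by rw [← map_mul, ← map_mul, mul_inv_cancel, map_one, map_one]
    calc ρ (φ x⁻¹) * A = ρ (φ x⁻¹) * (A * (ρ (φ x) * ρ (φ x⁻¹))) := by rw [e2, mul_one]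
      _ = ρ (φ x⁻¹) * (A * ρ (φ x)) * ρ (φ x⁻¹) := by noncomm_ring
      _ = (ρ (φ x⁻¹) * ρ (φ x)) * A * ρ (φ x⁻¹) := by rw [← hx]; noncomm_ring
      _ = A * ρ (φ x⁻¹) := by rw [e1, one_mul]

end levi

end Cfsg.Agent.Lib.MinDegJ
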