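import Cfsg.Agent.Lib.MinDegJ

/-!
The alternative for nontrivial representations: large dimension or exact formulas (helper18).
-/

set_option autoImplicit false
set_option linter.unusedSectionVars false

universe u

namespace Cfsg.Agent.Lib.MinDegK

open Cfsg.Lie Cfsg.Agent.Lib.ChevGood Cfsg.Agent.Lib.ChevRel Cfsg.Agent.Lib.ChevX Cfsg.Agent.Lib.UCEPair
open Cfsg.Agent.Lib.UCEBase Cfsg.Agent.Lib.UCESys Cfsg.Agent.Lib.UCELift Cfsg.Agent.Lib.UCESymbol Cfsg.Agent.Lib.UCETrip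
open Cfsg.Agent.Lib.WeightProj Cfsg.Agent.Lib.MinDegA Cfsg.Agent.Lib.MinDegB Cfsg.Agent.Lib.MinDegC Cfsg.Agent.Lib.MinDegD
open Cfsg.Agent.Lib.MinDegE Cfsg.Agent.Lib.MinDegF Cfsg.Agent.Lib.MinDegG Cfsg.Agent.Lib.MinDegH Cfsg.Agent.Lib.MinDegJ

variable {D : ChevalleyDatum} {G : Good D}
  (P : ∀ r < D.nroots, ∀ s < D.nroots, PairOK D True r s) (T : ∀ a < D.nroots, ∀ b < D.nroots, Trip D a b)
  {F : Type*} [Field F] [Fintype F] {Q : Type*} [Group Q] [Finite Q] (R : RSys D F Q) {X : Rad D G F}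
  {V : Type*} [AddCommGroup V] [Module ℂ V] [FiniteDimensional ℂ V] {ρ : Representation ℂ Q V}

include P in
theorem trace_P0_nat {r : Fin D.nroots} (hr : X.f r = 1) (m : AddChar F ℂ) :
    ∃ k : ℕ, LinearMap.trace ℂ V (P0 ρ R X r m) = k :=
  (trace_nat (P0_idem P R X hr (ρ := ρ) m)).imp (fun _ h => h.1)

include P T in
theorem heis_case {θ p : Fin D.nroots} (hθ : Heis X θ) {A : ℕ → Fin D.nroots} {nA nS : ℕ} (L : Lag X θ p A nA nS)
    (hp : TopOK X p) (hadj : ∀ r, X.f r = 1 → nadj X r + 1 = nS) (hN : 0 < X.N)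
    (hconn : ∃ t : Fin D.nroots, ∀ r : Fin D.nroots, ∃ a b : Fin D.nroots, pr D r a = 1 ∧ pr D a b = 1 ∧ pr D b t = 1)
    (hgen : Subgroup.closure {g : Q | ∃ r < D.nroots, ∃ t, g = R.x r t} = ⊤) (hnt : ∃ g, ρ g ≠ 1) :
    (2 * ((Fintype.card F - 1) * (Fintype.card F + 1)) * Fintype.card F ^ nS ≤ Fintype.card F * Module.finrank ℂ V) ∨
    ((Module.finrank ℂ V : ℂ) = LinearMap.trace ℂ V (AV ρ R (X.W X.N)) +
        ((Fintype.card F : ℂ) - 1) * ∑ i ∈ Finset.range X.N, (Fintype.card F : ℂ) ^ (ell X i) +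
        ((Fintype.card F : ℂ) - 1) * (Fintype.card F : ℂ) ^ nS ∧
      ∀ l : AddChar F ℂ, l ≠ 1 → (Fintype.card F : ℂ) * LinearMap.trace ℂ V (EE ρ R p l * AV ρ R (X.W X.N)) =
        (Fintype.card F : ℂ) * ((Fintype.card F : ℂ) ^ nS - ((Fintype.card F : ℂ) - 1) *
          (((Fintype.card F : ℂ) - 1) * ∑ k ∈ Finset.range nA, (Fintype.card F : ℂ) ^ nS / (Fintype.card F : ℂ) ^ (k + 2))) -
        ((Fintype.card F : ℂ) - 1) * ∑ i ∈ Finset.range X.N,
          (if pr D (X.U i) p = 1 then (Fintype.card F : ℂ) ^ (ell X i) else 0)) := by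
  have hq : (Fintype.card F : ℂ) ≠ 0 := by exact_mod_cast Fintype.card_ne_zero
  obtain ⟨d, hd⟩ := exists_d (G := G) P T R ρ hconn
  -- d = q^nS μ
  have hd' : ∀ r, X.f r = 1 → ∀ m : AddChar F ℂ, m ≠ 1 →
      (d : ℂ) = (Fintype.card F : ℂ) ^ nS * LinearMap.trace ℂ V (P0 ρ R X r m) := by
    intro r hr m hm
    rw [mult_Z P R hθ hd hr hm, trace_P0 P R X hr hm, ← hadj r hr, pow_succ]
    ring
  obtain ⟨m0, hm0⟩ := exists_char F
  obtain ⟨μ, hμ⟩ := trace_P0_nat P R (ρ := ρ) (X := X) (X.hU 0 hN) m0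
  have hdμ : d = Fintype.card F ^ nS * μ := by
    have := hd' _ (X.hU 0 hN) m0 hm0
    rw [hμ] at this
    exact_mod_cast this
  rcases Nat.lt_or_ge μ 2 with h2 | h2
  · have h3 : μ = 0 ∨ μ = 1 := by omega
    rcases h3 with rfl | rfl
    · exfalso
      obtain ⟨g, hg⟩ := hnt
      apply hg
      apply trivial_of_zero R _ hgen
      intro r m hm
      rw [hd r m hm, hdμ, mul_zero, Nat.cast_zero]
    · right
      rw [mul_one] at hdμ
      have htr : ∀ r, X.f r = 1 → ∀ m : AddChar F ℂ, m ≠ 1 → LinearMap.trace ℂ V (P0 ρ R X r m) = 1 := by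
        intro r hr m hm
        have h4 := hd' r hr m hm
        rw [hdμ, Nat.cast_pow] at h4
        have h5 : (Fintype.card F : ℂ) ^ nS ≠ 0 := pow_ne_zero _ hq
        exact (mul_left_cancel₀ h5 (by rw [mul_one]; exact h4)).symm
      have hdc : (d : ℂ) = (Fintype.card F : ℂ) ^ nS := by rw [hdμ, Nat.cast_pow]
      have H := radOK_heis P hθ
      constructor
      · rw [dim_Z P R hθ hd, dim_formula P R X H htr, hdc]
      · intro l hl
        have h6 := mult_formula P R X H htr hp hl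
        rw [mult_p_Z P R hθ L hd hdc hp.zero hl, hdc] at h6
        linear_combination (-1 : ℂ) * h6
  · left
    obtain ⟨t, ht⟩ := hconn
    obtain ⟨a, b, h3, -, -⟩ := ht t
    have h4 := ls_bound (G := G) P R hd h3
    rw [hdμ] at h4
    refine le_trans ?_ h4
    calc 2 * ((Fintype.card F - 1) * (Fintype.card F + 1)) * Fintype.card F ^ nS
        = ((Fintype.card F - 1) * (Fintype.card F + 1)) * (Fintype.card F ^ nS * 2) := by ring
      _ ≤ ((Fintype.card F - 1) * (Fintype.card F + 1)) * (Fintype.card F ^ nS * μ) := by gcongr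

include P T in
theorem abelian_case {p : Fin D.nroots} (hf : ∀ r, X.f r ≤ 1) {nS : ℕ}
    (hp : TopOK X p) (hadj : ∀ r, X.f r = 1 → nadj X r = nS) (hN : 0 < X.N)
    (hconn : ∃ t : Fin D.nroots, ∀ r : Fin D.nroots, ∃ a b : Fin D.nroots, pr D r a = 1 ∧ pr D a b = 1 ∧ pr D b t = 1)
    (hgen : Subgroup.closure {g : Q | ∃ r < D.nroots, ∃ t, g = R.x r t} = ⊤) (hnt : ∃ g, ρ g ≠ 1) :
    (2 * ((Fintype.card F - 1) * (Fintype.card F + 1)) * Fintype.card F ^ nS ≤ Fintype.card F * Module.finrank ℂ V) ∨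
    ((Module.finrank ℂ V : ℂ) = LinearMap.trace ℂ V (AV ρ R (X.W X.N)) +
        ((Fintype.card F : ℂ) - 1) * ∑ i ∈ Finset.range X.N, (Fintype.card F : ℂ) ^ (ell X i) ∧
      ∀ l : AddChar F ℂ, l ≠ 1 → (Fintype.card F : ℂ) * LinearMap.trace ℂ V (EE ρ R p l * AV ρ R (X.W X.N)) =
        (Fintype.card F : ℂ) * (Fintype.card F : ℂ) ^ nS -
        ((Fintype.card F : ℂ) - 1) * ∑ i ∈ Finset.range X.N,
          (if pr D (X.U i) p = 1 then (Fintype.card F : ℂ) ^ (ell X i) else 0)) := by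
  have hq : (Fintype.card F : ℂ) ≠ 0 := by exact_mod_cast Fintype.card_ne_zero
  obtain ⟨d, hd⟩ := exists_d (G := G) P T R ρ hconn
  have hZ : AV ρ R X.Z = 1 := by
    have : AV ρ R X.Z * 1 = 1 := AV_fix R (by
      intro r hr
      have h1 : X.f r = 2 := hr
      have := hf r
      omega)
    rwa [mul_one] at this
  -- d = q^nS μ
  have hd' : ∀ r, X.f r = 1 → ∀ m : AddChar F ℂ, m ≠ 1 →
      (d : ℂ) = (Fintype.card F : ℂ) ^ nS * LinearMap.trace ℂ V (P0 ρ R X r m) := by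
    intro r hr m hm
    rw [← hd r m hm, ← hadj r hr, ← trace_P0 P R X hr hm, hZ, one_mul]
  obtain ⟨m0, hm0⟩ := exists_char F
  obtain ⟨μ, hμ⟩ := trace_P0_nat P R (ρ := ρ) (X := X) (X.hU 0 hN) m0
  have hdμ : d = Fintype.card F ^ nS * μ := by
    have := hd' _ (X.hU 0 hN) m0 hm0
    rw [hμ] at this
    exact_mod_cast this
  rcases Nat.lt_or_ge μ 2 with h2 | h2
  · have h3 : μ = 0 ∨ μ = 1 := by omega
    rcases h3 with rfl | rfl
    · exfalso
      obtain ⟨g, hg⟩ := hnt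
      apply hg
      apply trivial_of_zero R _ hgen
      intro r m hm
      rw [hd r m hm, hdμ, mul_zero, Nat.cast_zero]
    · right
      rw [mul_one] at hdμ
      have htr : ∀ r, X.f r = 1 → ∀ m : AddChar F ℂ, m ≠ 1 → LinearMap.trace ℂ V (P0 ρ R X r m) = 1 := by
        intro r hr m hm
        have h4 := hd' r hr m hm
        rw [hdμ, Nat.cast_pow] at h4
        have h5 : (Fintype.card F : ℂ) ^ nS ≠ 0 := pow_ne_zero _ hq
        exact (mul_left_cancel₀ h5 (by rw [mul_one]; exact h4)).symm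
      have hdc : (d : ℂ) = (Fintype.card F : ℂ) ^ nS := by rw [hdμ, Nat.cast_pow]
      have H := radOK_abelian P X hf
      constructor
      · have h6 := dim_formula P R X H htr
        rw [hZ, LinearMap.trace_one] at h6
        exact h6
      · intro l hl
        have h6 := mult_formula P R X H htr hp hl
        rw [hZ, mul_one, hd p l hl, hdc] at h6
        linear_combination (-1 : ℂ) * h6
  · left
    obtain ⟨t, ht⟩ := hconn
    obtain ⟨a, b, h3, -, -⟩ := ht t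
    have h4 := ls_bound (G := G) P R hd h3
    rw [hdμ] at h4
    refine le_trans ?_ h4
    calc 2 * ((Fintype.card F - 1) * (Fintype.card F + 1)) * Fintype.card F ^ nS
        = ((Fintype.card F - 1) * (Fintype.card F + 1)) * (Fintype.card F ^ nS * 2) := by ring
      _ ≤ ((Fintype.card F - 1) * (Fintype.card F + 1)) * (Fintype.card F ^ nS * μ) := by gcongr

include P in
/-- the fixed space of the radical as a module for the Levi factor -/
theorem levi_bound {V : Type u} [AddCommGroup V] [Module ℂ V] [FiniteDimensional ℂ V] {ρ : Representation ℂ Q V}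
    {p : Fin D.nroots} (hp : X.f p = 0) {l : AddChar F ℂ} (hl : l ≠ 1)
    (hmul : LinearMap.trace ℂ V (EE ρ R p l * AV ρ R (X.W X.N)) ≠ 0)
    {Γ : Type*} [Group Γ] (φ : Γ →* Q) {S : Set Γ} (hS : Subgroup.closure S = ⊤)
    (hφ : ∀ g ∈ S, ∃ s : Fin D.nroots, X.f s = 0 ∧ ∃ t, φ g = R.x s t) (hφp : ∀ t, ∃ g, φ g = R.x p t)
    {M : ℕ} (hM : MinRep.{u} Γ M) : ∃ c : ℕ, LinearMap.trace ℂ V (AV ρ R (X.W X.N)) = c ∧ M ≤ c := by
  refine level_up (ρ := ρ) φ (AV_idem R _) ?_ ?_ hM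
  · refine comm_of_gen (ρ := ρ) φ hS ?_
    intro g hg
    obtain ⟨s, hs, t, ht⟩ := hφ g hg
    rw [ht]
    apply comm_AV G P R
    apply X.NS_zero P hs (W_pos X _)
    rintro c hc k n hk
    have e1 := X.fadd _ _ _ _ hk
    have e2 := W_pos X _ c hc
    have e3 := X.fle c
    by_cases h : X.f c = 2
    · exact Or.inl (by omega)
    · obtain ⟨i, hi, hi'⟩ := X.exU k (by omega)
      exact Or.inr ⟨i, hi, hi, hi'⟩
  · by_contra hcon
    push Not at hcon
    apply hmul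
    have : EE ρ R p l * AV ρ R (X.W X.N) = 0 := by
      apply Er_mul_eq_zero (hx R p) hl
      intro t
      obtain ⟨g, hg⟩ := hφp t
      show ρ (R.x p t) * _ = _
      rw [← hg]
      exact hcon g
    rw [this, map_zero]

end Cfsg.Agent.Lib.MinDegK
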