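import Cfsg.Agent.Lib.MinDegK
import Cfsg.Agent.Lib.MinDegE6
import Cfsg.Agent.Lib.MinDegE7
import Cfsg.Agent.Lib.MinDegE8

/-!
The alternative for the groups of type E6, E7, E8 (helper18).
-/

set_option autoImplicit false
set_option linter.unusedSectionVars false

universe u

namespace Cfsg.Agent.Lib.MinDegL

open Cfsg.Lie Cfsg.Agent.Lib.ChevGood Cfsg.Agent.Lib.ChevRel Cfsg.Agent.Lib.ChevX Cfsg.Agent.Lib.UCEPair
open Cfsg.Agent.Lib.UCEBase Cfsg.Agent.Lib.UCESys Cfsg.Agent.Lib.UCELift Cfsg.Agent.Lib.UCESymbol Cfsg.Agent.Lib.UCETrip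
open Cfsg.Agent.Lib.WeightProj Cfsg.Agent.Lib.MinDegA Cfsg.Agent.Lib.MinDegB Cfsg.Agent.Lib.MinDegC Cfsg.Agent.Lib.MinDegD
open Cfsg.Agent.Lib.MinDegE Cfsg.Agent.Lib.MinDegF Cfsg.Agent.Lib.MinDegG Cfsg.Agent.Lib.MinDegH Cfsg.Agent.Lib.MinDegI
open Cfsg.Agent.Lib.MinDegJ Cfsg.Agent.Lib.MinDegK

variable {F : Type*} [Field F] [Fintype F] {Q : Type*} [Group Q] [Finite Q]
  {V : Type*} [AddCommGroup V] [Module ℂ V] [FiniteDimensional ℂ V] {ρ : Representation ℂ Q V}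

/-! ### E6 -/

noncomputable def X6 (F : Type*) [Field F] : Rad chevE6 ChevOkE6.good F :=
  mkRad ChevOkE6.good F pairOK_E6 1 MinDegE6.U MinDegE6.k0 MinDegE6.k1

def p6 : Fin chevE6.nroots := ⟨60, by decide⟩
def t6 : Fin chevE6.nroots := ⟨71, by decide⟩

theorem X6_N : (X6 F).N = 20 := rfl

theorem E6_case (R : RSys chevE6 F Q)
    (hgen : Subgroup.closure {g : Q | ∃ r < chevE6.nroots, ∃ t, g = R.x r t} = ⊤) (hnt : ∃ g, ρ g ≠ 1) :
    (2 * ((Fintype.card F - 1) * (Fintype.card F + 1)) * Fintype.card F ^ 10 ≤ Fintype.card F * Module.finrank ℂ V) ∨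
    ((Module.finrank ℂ V : ℂ) = LinearMap.trace ℂ V (AV ρ R ((X6 F).W (X6 F).N)) +
        ((Fintype.card F : ℂ) ^ 11 + (Fintype.card F : ℂ) ^ 8 + (Fintype.card F : ℂ) ^ 7 - (Fintype.card F : ℂ) ^ 3 -
          (Fintype.card F : ℂ) ^ 2 - 1) ∧
      ∀ l : AddChar F ℂ, l ≠ 1 → LinearMap.trace ℂ V (EE ρ R p6 l * AV ρ R ((X6 F).W (X6 F).N)) =
        (Fintype.card F : ℂ) ^ 4) := by
  have hq : (Fintype.card F : ℂ) ≠ 0 := by exact_mod_cast Fintype.card_ne_zero
  have hθ : Heis (X6 F) t6 := heisOK (θ := t6) MinDegE6.k3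
  have hL := lagOK (P := pairOK_E6) (h0 := MinDegE6.k0) (h := MinDegE6.k1) (p := p6) hθ MinDegE6.k4
  have hp : TopOK (X6 F) p6 := topOK (p := p6) MinDegE6.k2
  have hadj : ∀ r, (X6 F).f r = 1 → nadj (X6 F) r + 1 = MinDegE6.A.length := by
    intro r hr
    have : nadj (X6 F) r = 9 := nadj_eq MinDegE6.k5 hr
    rw [this]; rfl
  have h := heis_case pairOK_E6 trip_E6 R (ρ := ρ) hθ hL hp hadj (by rw [X6_N]; norm_num) (conn_of MinDegE6.k7) hgen hnt
  have hA : MinDegE6.A.length = 10 := rfl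
  obtain ⟨e1, e2⟩ : _ ∧ _ := ell_eq (F := F) (P := pairOK_E6) (h0 := MinDegE6.k0) (h := MinDegE6.k1) MinDegE6.k6 (Fintype.card F : ℂ)
  change ∑ i ∈ Finset.range (X6 F).N, (Fintype.card F : ℂ) ^ (ell (X6 F) i) = _ at e1
  change ∑ i ∈ Finset.range (X6 F).N, (if pr chevE6 ((X6 F).U i) 60 = 1 then (Fintype.card F : ℂ) ^ (ell (X6 F) i) else 0) = _ at e2
  rw [hA] at h
  rcases h with h | ⟨h1, h2⟩
  · exact Or.inl h
  · right
    constructor
    · rw [h1, e1]
      simp only [MinDegE6.LL, List.map_cons, List.map_nil, List.sum_cons, List.sum_nil]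
      ring
    · intro l hl
      have h3 := h2 l hl
      change _ = _ - _ * ∑ i ∈ Finset.range (X6 F).N, (if pr chevE6 ((X6 F).U i) 60 = 1 then
        (Fintype.card F : ℂ) ^ (ell (X6 F) i) else 0) at h3
      rw [e2] at h3
      simp only [MinDegE6.LL, List.map_cons, List.map_nil, List.sum_cons, List.sum_nil, Finset.sum_range_succ,
        Finset.sum_range_zero, if_true, if_false, reduceCtorEq] at h3
      apply mul_left_cancel₀ hq
      rw [h3]
      field_simp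
      ring

/-! ### E7 -/

noncomputable def X7 (F : Type*) [Field F] : Rad chevE7 ChevOkE7.good F :=
  mkRad ChevOkE7.good F pairOK_E7 6 MinDegE7.U MinDegE7.k0 MinDegE7.k1

def p7 : Fin chevE7.nroots := ⟨119, by decide⟩

theorem X7_N : (X7 F).N = 27 := rfl

set_option maxRecDepth 1000000 in
theorem rv7_all : (List.range chevE7.nroots).all (fun r => decide (ChevOkE7.good.rv r 6 ≤ 1)) = true := by decide +kernel

omit [Fintype F] in
theorem X7_le (r : Fin chevE7.nroots) : (X7 F).f r ≤ 1 := by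
  have h := rv7_all
  rw [List.all_eq_true] at h
  exact of_decide_eq_true (h r (List.mem_range.mpr r.2))

theorem E7_case (R : RSys chevE7 F Q)
    (hgen : Subgroup.closure {g : Q | ∃ r < chevE7.nroots, ∃ t, g = R.x r t} = ⊤) (hnt : ∃ g, ρ g ≠ 1) :
    (2 * ((Fintype.card F - 1) * (Fintype.card F + 1)) * Fintype.card F ^ 16 ≤ Fintype.card F * Module.finrank ℂ V) ∨
    ((Module.finrank ℂ V : ℂ) = LinearMap.trace ℂ V (AV ρ R ((X7 F).W (X7 F).N)) +
        ((Fintype.card F : ℂ) ^ 17 + (Fintype.card F : ℂ) ^ 13 + (Fintype.card F : ℂ) ^ 9 - (Fintype.card F : ℂ) ^ 8 -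
          (Fintype.card F : ℂ) ^ 4 - 1) ∧
      ∀ l : AddChar F ℂ, l ≠ 1 → LinearMap.trace ℂ V (EE ρ R p7 l * AV ρ R ((X7 F).W (X7 F).N)) =
        (Fintype.card F : ℂ) ^ 10) := by
  have hq : (Fintype.card F : ℂ) ≠ 0 := by exact_mod_cast Fintype.card_ne_zero
  have hp : TopOK (X7 F) p7 := topOK (p := p7) MinDegE7.k2
  have hadj : ∀ r, (X7 F).f r = 1 → nadj (X7 F) r = 16 := fun r hr => nadj_eq MinDegE7.k5 hr
  have h := abelian_case pairOK_E7 trip_E7 R (ρ := ρ) X7_le hp hadj (by rw [X7_N]; norm_num) (conn_of MinDegE7.k7) hgen hnt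
  obtain ⟨e1, e2⟩ : _ ∧ _ := ell_eq (F := F) (P := pairOK_E7) (h0 := MinDegE7.k0) (h := MinDegE7.k1) MinDegE7.k6 (Fintype.card F : ℂ)
  change ∑ i ∈ Finset.range (X7 F).N, (Fintype.card F : ℂ) ^ (ell (X7 F) i) = _ at e1
  change ∑ i ∈ Finset.range (X7 F).N, (if pr chevE7 ((X7 F).U i) 119 = 1 then (Fintype.card F : ℂ) ^ (ell (X7 F) i) else 0) = _ at e2
  rcases h with h | ⟨h1, h2⟩
  · exact Or.inl h
  · right
    constructor
    · rw [h1, e1]
      simp only [MinDegE7.LL, List.map_cons, List.map_nil, List.sum_cons, List.sum_nil]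
      ring
    · intro l hl
      have h3 := h2 l hl
      change _ = _ - _ * ∑ i ∈ Finset.range (X7 F).N, (if pr chevE7 ((X7 F).U i) 119 = 1 then
        (Fintype.card F : ℂ) ^ (ell (X7 F) i) else 0) at h3
      rw [e2] at h3
      simp only [MinDegE7.LL, List.map_cons, List.map_nil, List.sum_cons, List.sum_nil, if_true, if_false, reduceCtorEq] at h3
      apply mul_left_cancel₀ hq
      rw [h3]
      ring

/-! ### E8 -/

noncomputable def X8 (F : Type*) [Field F] : Rad chevE8 ChevOkE8.good F :=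
  mkRad ChevOkE8.good F pairOK_E8 7 MinDegE8.U MinDegE8.k0 MinDegE8.k1

def p8 : Fin chevE8.nroots := ⟨226, by decide⟩
def t8 : Fin chevE8.nroots := ⟨239, by decide⟩

theorem X8_N : (X8 F).N = 56 := rfl

theorem E8_case (R : RSys chevE8 F Q)
    (hgen : Subgroup.closure {g : Q | ∃ r < chevE8.nroots, ∃ t, g = R.x r t} = ⊤) (hnt : ∃ g, ρ g ≠ 1) :
    (2 * ((Fintype.card F - 1) * (Fintype.card F + 1)) * Fintype.card F ^ 28 ≤ Fintype.card F * Module.finrank ℂ V) ∨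
    ((Module.finrank ℂ V : ℂ) = LinearMap.trace ℂ V (AV ρ R ((X8 F).W (X8 F).N)) +
        ((Fintype.card F : ℂ) ^ 29 + (Fintype.card F : ℂ) ^ 23 + (Fintype.card F : ℂ) ^ 19 - (Fintype.card F : ℂ) ^ 9 -
          (Fintype.card F : ℂ) ^ 5 - 1) ∧
      ∀ l : AddChar F ℂ, l ≠ 1 → LinearMap.trace ℂ V (EE ρ R p8 l * AV ρ R ((X8 F).W (X8 F).N)) =
        (Fintype.card F : ℂ) ^ 16) := by
  have hq : (Fintype.card F : ℂ) ≠ 0 := by exact_mod_cast Fintype.card_ne_zero
  have hθ : Heis (X8 F) t8 := heisOK (θ := t8) MinDegE8.k3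
  have hL := lagOK (P := pairOK_E8) (h0 := MinDegE8.k0) (h := MinDegE8.k1) (p := p8) hθ MinDegE8.k4
  have hp : TopOK (X8 F) p8 := topOK (p := p8) MinDegE8.k2
  have hadj : ∀ r, (X8 F).f r = 1 → nadj (X8 F) r + 1 = MinDegE8.A.length := by
    intro r hr
    have : nadj (X8 F) r = 27 := nadj_eq MinDegE8.k5 hr
    rw [this]; rfl
  have h := heis_case pairOK_E8 trip_E8 R (ρ := ρ) hθ hL hp hadj (by rw [X8_N]; norm_num) (conn_of MinDegE8.k7) hgen hnt
  have hA : MinDegE8.A.length = 28 := rfl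
  obtain ⟨e1, e2⟩ : _ ∧ _ := ell_eq (F := F) (P := pairOK_E8) (h0 := MinDegE8.k0) (h := MinDegE8.k1) MinDegE8.k6 (Fintype.card F : ℂ)
  change ∑ i ∈ Finset.range (X8 F).N, (Fintype.card F : ℂ) ^ (ell (X8 F) i) = _ at e1
  change ∑ i ∈ Finset.range (X8 F).N, (if pr chevE8 ((X8 F).U i) 226 = 1 then (Fintype.card F : ℂ) ^ (ell (X8 F) i) else 0) = _ at e2
  rw [hA] at h
  rcases h with h | ⟨h1, h2⟩
  · exact Or.inl h
  · right
    constructor
    · rw [h1, e1]
      simp only [MinDegE8.LL, List.map_cons, List.map_nil, List.sum_cons, List.sum_nil]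
      ring
    · intro l hl
      have h3 := h2 l hl
      change _ = _ - _ * ∑ i ∈ Finset.range (X8 F).N, (if pr chevE8 ((X8 F).U i) 226 = 1 then
        (Fintype.card F : ℂ) ^ (ell (X8 F) i) else 0) at h3
      rw [e2] at h3
      simp only [MinDegE8.LL, List.map_cons, List.map_nil, List.sum_cons, List.sum_nil, Finset.sum_range_succ,
        Finset.sum_range_zero, if_true, if_false, reduceCtorEq] at h3
      apply mul_left_cancel₀ hq
      rw [h3]
      field_simp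
      ring

end Cfsg.Agent.Lib.MinDegL
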