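import Cfsg.Agent.Lib.MinDegL
import Cfsg.Agent.Lib.UCEFinal

/-!
Embeddings of the systems of types A5 < E6 < E7 < E8 (helper18).
-/

set_option autoImplicit false
set_option linter.unusedSectionVars false

universe u

namespace Cfsg.Agent.Lib.MinDegM

open Cfsg.Lie Cfsg.Agent.Lib.ChevGood Cfsg.Agent.Lib.ChevRel Cfsg.Agent.Lib.ChevX Cfsg.Agent.Lib.UCEPair
open Cfsg.Agent.Lib.UCEBase Cfsg.Agent.Lib.UCESys Cfsg.Agent.Lib.UCELift Cfsg.Agent.Lib.UCESymbol Cfsg.Agent.Lib.UCETrip
open Cfsg.Agent.Lib.MinDegI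

/-- embedding certificate -/
def chkEmb (D' D : ChevalleyDatum) (E : List ℕ) : Bool :=
  decide (E.length = D'.nroots) && E.all (fun a => decide (a < D.nroots)) && decide E.Nodup &&
  (List.range D'.nroots).all (fun r => decide (D.neg (E.getD r 0) = E.getD (D'.neg r) 0) &&
    (List.range D'.nroots).all (fun s => decide (D.chainEntry (E.getD r 0) (E.getD s 0) =
      (D'.chainEntry r s).map (fun p => (E.getD p.1 0, p.2)))))

section emb

variable {D' D : ChevalleyDatum} {E : List ℕ} (h : chkEmb D' D E = true)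
include h

theorem emb_len : E.length = D'.nroots := by
  unfold chkEmb at h
  simp only [Bool.and_eq_true, decide_eq_true_eq] at h
  exact h.1.1.1

theorem emb_lt {r : ℕ} (hr : r < D'.nroots) : E.getD r 0 < D.nroots := by
  have hl := emb_len h
  unfold chkEmb at h
  simp only [Bool.and_eq_true, decide_eq_true_eq, List.all_eq_true] at h
  exact h.1.1.2 _ (getD_mem (by omega))

theorem emb_inj {r s : ℕ} (hr : r < D'.nroots) (hs : s < D'.nroots) (e : E.getD r 0 = E.getD s 0) : r = s := by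
  have hl := emb_len h
  unfold chkEmb at h
  simp only [Bool.and_eq_true, decide_eq_true_eq, List.all_eq_true] at h
  rw [List.getD_eq_getElem _ _ (by omega), List.getD_eq_getElem _ _ (by omega)] at e
  exact (List.Nodup.getElem_inj_iff h.1.2).mp e

theorem emb_neg {r : ℕ} (hr : r < D'.nroots) : D.neg (E.getD r 0) = E.getD (D'.neg r) 0 := by
  unfold chkEmb at h
  simp only [Bool.and_eq_true, decide_eq_true_eq, List.all_eq_true, List.mem_range] at h
  exact (h.2 r hr).1

theorem emb_chain {r s : ℕ} (hr : r < D'.nroots) (hs : s < D'.nroots) :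
    D.chainEntry (E.getD r 0) (E.getD s 0) = (D'.chainEntry r s).map (fun p => (E.getD p.1 0, p.2)) := by
  unfold chkEmb at h
  simp only [Bool.and_eq_true, decide_eq_true_eq, List.all_eq_true, List.mem_range] at h
  exact (h.2 r hr).2 s hs

/-- the terms of the commutator formula -/
theorem emb_terms (G' : Good D') (P' : ∀ r < D'.nroots, ∀ s < D'.nroots, PairOK D' True r s) {r s : ℕ}
    (hr : r < D'.nroots) (hs : s < D'.nroots) :
    D.commTerms (E.getD r 0) (E.getD s 0) = (D'.commTerms r s).map (fun c => (E.getD c.1 0, c.2)) := by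
  rcases (P' r hr s hs).single with h1 | ⟨k, M, h1, -⟩
  · have h2 : D'.chainEntry s r = [] := by
      by_contra hne
      have h3 := (P' s hs r hr).neg1.mp hne
      rw [← (P' r hr s hs).symm] at h3
      exact (P' r hr s hs).neg1.mpr h3 h1
    have h3 := emb_chain h hr hs
    have h4 := emb_chain h hs hr
    rw [h1] at h3
    rw [h2] at h4
    rw [commTerms_nil h3 h4, commTerms_nil h1 h2]
    rfl
  · obtain ⟨M', h2, -⟩ := chain_swap G' P' hr hs h1
    have h3 := emb_chain h hr hs
    have h4 := emb_chain h hs hr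
    rw [h1] at h3
    rw [h2] at h4
    rw [commTerms_single h3 h4, commTerms_single h1 h2]
    rfl

variable {K : Type*} [Field K] {Q : Type*} [Group Q]

/-- the restriction of a system -/
def embSys (G' : Good D') (P' : ∀ r < D'.nroots, ∀ s < D'.nroots, PairOK D' True r s) (R : RSys D K Q) : RSys D' K Q where
  x r t := R.x (E.getD r 0) t
  add r hr t u := R.add _ (emb_lt h hr) t u
  rel r hr s hs h1 h2 t u := by
    have e1 := R.rel _ (emb_lt h hr) _ (emb_lt h hs) (fun e => h1 (emb_inj h hs hr e)) (fun e => by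
      rw [emb_neg h hr] at e
      exact h2 (emb_inj h hs (neg_lt G' hr) e)) t u
    rw [e1]
    unfold ChevalleyDatum.commWord
    rw [emb_terms h G' P' hr hs, List.map_map, List.map_map, List.map_map]
    rfl

theorem embSys_R3 (G' : Good D') (P' : ∀ r < D'.nroots, ∀ s < D'.nroots, PairOK D' True r s) {R : RSys D K Q} (h3 : R3 R) :
    R3 (embSys h G' P' R) := by
  have e : ∀ r < D'.nroots, ∀ t, hh (embSys h G' P' R) r t = hh R (E.getD r 0) t := by
    intro r hr t
    unfold hh nn embSys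
    simp only [emb_neg h hr]
  intro r hr t u ht hu
  rw [e r hr, e r hr, e r hr]
  exact h3 _ (emb_lt h hr) t u ht hu

end emb

def e67 : List ℕ := [6, 10, 13, 15, 16, 19, 21, 22, 24, 25, 26, 28, 29, 30, 31, 32, 35, 37, 38, 40, 41, 42, 44, 45, 46, 47, 49, 50, 51, 52, 54, 55, 56, 58, 59, 61, 64, 66, 67, 69, 70, 71, 73, 74, 75, 76, 78, 79, 80, 81, 83, 84, 85, 87, 88, 90, 93, 94, 95, 96, 97, 99, 100, 101, 103, 104, 106, 109, 110, 112, 115, 119]

def e78 : List ℕ := [13, 20, 25, 29, 32, 34, 35, 39, 42, 44, 45, 48, 50, 51, 53, 54, 55, 58, 60, 61, 63, 64, 65, 67, 68, 69, 70, 72, 73, 74, 75, 76, 77, 80, 82, 83, 85, 86, 87, 89, 90, 91, 92, 94, 95, 96, 97, 98, 100, 101, 102, 103, 104, 106, 107, 108, 109, 111, 112, 113, 115, 116, 118, 121, 123, 124, 126, 127, 128, 130, 131, 132, 133, 135, 136, 137, 138, 139, 141, 142, 143, 144, 145, 147, 148, 149, 150, 152, 153, 154, 156, 157, 159, 162, 163, 164, 165, 166, 167, 169, 170, 171, 172, 174, 175, 176, 178, 179, 181, 184, 185, 186, 188,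 189, 191, 194, 195, 197, 200, 204, 205, 207, 210, 214, 219, 226]

set_option maxRecDepth 1000000 in
theorem emb67 : chkEmb chevE6 chevE7 e67 = true := by decide +kernel

set_option maxRecDepth 1000000 in
theorem emb78 : chkEmb chevE7 chevE8 e78 = true := by decide +kernel

/-- the table of the roots and signs for the subsystem of type A5 -/
def a5 : List (List (ℕ × ℤ)) := [[(0, 1), (56, 1), (57, -1), (58, 1), (59, -1), (60, 1)], [(15, 1), (0, 1), (42, 1), (43, -1), (44, 1), (45, -1)], [(14, -1), (29, 1), (0, 1), (39, 1), (40, -1), (41, 1)], [(13, 1), (28, -1), (32, 1), (0, 1), (37, 1), (38, -1)], [(12, -1), (27, 1), (31, -1), (34, 1), (0, 1), (36, 1)], [(11, 1), (26, -1), (30, 1), (33, -1), (35, 1), (0, 1)]]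

def a5r (i j : ℕ) : ℕ := ((a5.getD i []).getD j (0, 1)).1
def a5s (i j : ℕ) : ℤ := ((a5.getD i []).getD j (0, 1)).2

set_option maxRecDepth 1000000 in
theorem a5_lt : ∀ i : Fin 6, ∀ j : Fin 6, a5r i j < chevE6.nroots := by decide +kernel

set_option maxRecDepth 1000000 in
theorem a5_comm : ∀ i : Fin 6, ∀ j : Fin 6, ∀ k : Fin 6, ∀ l : Fin 6, i ≠ j → k ≠ l → i ≠ l → j ≠ k →
    0 ≤ pr chevE6 (a5r i j) (a5r k l) := by decide +kernel

set_option maxRecDepth 1000000 in
theorem a5_add : ∀ i : Fin 6, ∀ j : Fin 6, ∀ l : Fin 6, i ≠ j → j ≠ l → i ≠ l →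
    chevE6.chainEntry (a5r j l) (a5r i j) = [(a5r i l, - (a5s i l * a5s i j * a5s j l))] ∧
      (a5s i l * a5s i l = 1) ∧ (a5s i j * a5s i j = 1) ∧ (a5s j l * a5s j l = 1) := by decide +kernel

set_option maxRecDepth 1000000 in
theorem a5_f : ∀ i : Fin 6, ∀ j : Fin 6, i ≠ j → ChevOkE6.good.rv (a5r i j) 1 = 0 := by decide +kernel

end Cfsg.Agent.Lib.MinDegM
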