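import Cfsg.Agent.Lib.SLWeight

/-!
# The minimal degree of non-linear irreducible representations of `SL_n(q)` (helper83)
-/

set_option autoImplicit false
set_option linter.all false

namespace Cfsg.Agent.Lib.SLMin

open Matrix MinIdxTv MinIdxFour MinIdxAct AvgTrace SLPoint SL2Gap SLGap SLWeight

variable {F : Type*} [Field F] [Fintype F] {n : ℕ} {V : Type*} [AddCommGroup V] [Module ℂ V] [FiniteDimensional ℂ V]
  (ρ : Representation ℂ (SpecialLinearGroup (Fin n) F) V)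

theorem trace_conj {G : Type*} [Group G] (ρ : Representation ℂ G V) (g x : G) :
    LinearMap.trace ℂ V (ρ (g * x * g⁻¹)) = LinearMap.trace ℂ V (ρ x) := by
  rw [map_mul ρ, map_mul ρ, LinearMap.trace_mul_comm, ← mul_assoc, rho_inv_mul, one_mul]

theorem trace_same_center (hn : 3 ≤ n) {c f f' : Fin n → F} (hc : c ≠ 0) (hf : f ≠ 0) (hf' : f' ≠ 0) (h : f ⬝ᵥ c = 0)
    (h' : f' ⬝ᵥ c = 0) : LinearMap.trace ℂ V (ρ (tv c f)) = LinearMap.trace ℂ V (ρ (tv c f')) := by
  have key : ∀ {f f' : Fin n → F}, f ≠ 0 → f ⬝ᵥ c = 0 → f' ⬝ᵥ c = 0 → f' ∉ Submodule.span F {f} →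
      LinearMap.trace ℂ V (ρ (tv c f)) = LinearMap.trace ℂ V (ρ (tv c f')) := by
    intro f f' hf h h' hs
    have h1 : f ∉ Submodule.span F {f' - f} := by
      intro h2
      obtain ⟨t, ht⟩ := Submodule.mem_span_singleton.1 h2
      have ht0 : t ≠ 0 := by
        rintro rfl
        rw [zero_smul] at ht
        exact hf ht.symm
      apply hs
      rw [Submodule.mem_span_singleton]
      refine ⟨t⁻¹ * (1 + t), ?_⟩
      have h3 : t • f' = (1 + t) • f := by
        rw [smul_sub, sub_eq_iff_eq_add] at ht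
        rw [ht, add_smul, one_smul]
      rw [mul_smul, ← h3, smul_smul, inv_mul_cancel₀ ht0, one_smul]
    obtain ⟨v, hv, hvf⟩ := exists_dot h1
    have hv1 : (f' - f) ⬝ᵥ v = 0 := by rw [dotProduct_comm]; exact hv _ (Submodule.mem_span_singleton_self _)
    have hv2 : f ⬝ᵥ v = 1 := by rw [dotProduct_comm]; exact hvf
    have hv3 : (-(f' - f)) ⬝ᵥ v = 0 := by rw [neg_dotProduct, hv1, neg_zero]
    have e : tv c f' = tv v (-(f' - f)) * tv c f * (tv v (-(f' - f)))⁻¹ := by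
      rw [tv_conj _ _ _ h, tv_mulVec _ _ _ hv3, tv_inv _ _ hv3, neg_neg, vecMul_tv _ _ _ hv1, hv2, one_smul, add_sub_cancel,
        neg_dotProduct, sub_dotProduct, h, h', sub_zero, neg_zero, zero_smul, add_zero]
    rw [e, trace_conj]
  by_cases hs : f' ∈ Submodule.span F {f}
  · have hq1 : 1 < Fintype.card F := Fintype.one_lt_card
    obtain ⟨k, hk, hks⟩ : ∃ k : Fin n → F, k ⬝ᵥ c = 0 ∧ k ∉ Submodule.span F {f} := by
      by_contra hcon
      push Not at hcon
      have h1 : Nat.card (Wc c) ≤ Nat.card (Submodule.span F {f}) :=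
        Nat.card_le_card_of_injective (fun w : Wc c => (⟨w.1, hcon w.1 w.2⟩ : Submodule.span F {f})) (by
          intro a b hab
          exact Subtype.ext (congrArg (fun x : Submodule.span F {f} => x.1) hab))
      rw [card_span_singleton hf, card_Wc (by omega) hc] at h1
      have h2 : Fintype.card F ^ 2 ≤ Fintype.card F ^ (n - 1) := Nat.pow_le_pow_right (by omega) (by omega)
      nlinarith
    have hks' : k ∉ Submodule.span F {f'} := by
      intro h1
      apply hks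
      have h2 : Submodule.span F {f'} ≤ Submodule.span F {f} := by
        rw [Submodule.span_le, Set.singleton_subset_iff]; exact hs
      exact h2 h1
    rw [key hf h hk hks, key hf' h' hk hks']
  · exact key hf h h' hs

theorem trace_tv (hn : 3 ≤ n) {c f c' f' : Fin n → F} (hc : c ≠ 0) (hf : f ≠ 0) (h : f ⬝ᵥ c = 0)
    (hc' : c' ≠ 0) (hf' : f' ≠ 0) (h' : f' ⬝ᵥ c' = 0) :
    LinearMap.trace ℂ V (ρ (tv c f)) = LinearMap.trace ℂ V (ρ (tv c' f')) := by
  obtain ⟨g, hg⟩ := exists_move (by omega) hc hc'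
  rw [← trace_conj ρ g, tv_conj _ _ _ h, hg]
  apply trace_same_center ρ hn hc' _ hf' _ h'
  · intro h1
    apply hf
    rw [← inv_vm g f, h1, zero_vecMul]
  · rw [← hg, conj_dot, h]

/-- the point unipotent radical acts non-trivially -/
theorem E_ne_one (hn : 3 ≤ n) (hρ : ρ.IsIrreducible) (hD : 2 ≤ Module.finrank ℂ V) {c : Fin n → F} (hc : c ≠ 0) : E ρ c ≠ 1 := by
  intro h1
  have h2 : ∀ f : Fin n → F, f ⬝ᵥ c = 0 → ρ (tv c f) = 1 := by
    intro f hf
    have h3 := av_mul_rho ρ (u := fun f : Wc c => tv c f.1) (fun f g => tv_add f g) ⟨f, hf⟩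
    have h4 : av ρ (fun f : Wc c => tv c f.1) = 1 := h1
    rw [h4, one_mul] at h3
    exact h3
  have h3 : ρ.ker = ⊤ := by
    apply eq_top_of_tv_mem
    intro c' f' hcf
    rw [MonoidHom.mem_ker]
    by_cases hc' : c' = 0
    · rw [hc', tv_zero_left, map_one]
    obtain ⟨g, hg⟩ := exists_move (by omega) hc hc'
    have e : tv c' f' = g * tv c (f' ᵥ* (g : Matrix (Fin n) (Fin n) F)) * g⁻¹ := by
      rw [tv_conj _ _ _ (by rw [← dotProduct_mulVec, hg, hcf]), hg, vm_inv]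
    rw [e, map_mul ρ, map_mul ρ, h2 _ (by rw [← dotProduct_mulVec, hg, hcf]), mul_one, rho_mul_inv]
  have h4 : ∀ g, ρ g = 1 := fun g => by
    have : g ∈ ρ.ker := by rw [h3]; trivial
    exact this
  have h5 := RepSchur.finrank_le_one_of_comm hρ (fun g k => by rw [h4, h4])
  omega

/-- the arithmetic of the multiplicity one case -/
theorem arith (q N c D : ℕ) (hq : 2 ≤ q) (hN : 2 ≤ N) (hN4 : q = 2 → N ≠ 4) (hD : D = c + (q - 1) * N)
    (r : ℝ) (hr : r * (q * D) = (q - 1) * (c * ((q - 1) * N + 2) - (q - 1) * N * (N - 1)))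
    (hr' : r = 0 ∨ ((q : ℝ) - 1) / q ≤ r) : N ≤ c := by
  by_contra hcon
  push Not at hcon
  obtain ⟨p, rfl⟩ : ∃ p, q = p + 1 := ⟨q - 1, by omega⟩
  obtain ⟨m, rfl⟩ : ∃ m, N = m + 1 := ⟨N - 1, by omega⟩
  have hp : 1 ≤ p := by omega
  have hm : 1 ≤ m := by omega
  have hc : c ≤ m := by omega
  have hpR : (1 : ℝ) ≤ p := by exact_mod_cast hp
  have hmR : (1 : ℝ) ≤ m := by exact_mod_cast hm
  have hcR : (c : ℝ) ≤ m := by exact_mod_cast hc
  have hc0 : (0 : ℝ) ≤ c := Nat.cast_nonneg c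
  have hDR : (D : ℝ) = c + p * (m + 1) := by
    rw [hD]
    push_cast
    simp
  push_cast at hr hr'
  have e1 : (p : ℝ) + 1 - 1 = p := by ring
  have e2 : (m : ℝ) + 1 - 1 = m := by ring
  rw [e1, e2] at hr
  rw [e1] at hr'
  have hDpos : (0 : ℝ) < D := by rw [hDR]; positivity
  rcases hr' with h0 | h1
  · rw [h0, zero_mul] at hr
    have hK : (c : ℝ) * (p * (m + 1) + 2) - p * (m + 1) * m = 0 := by
      have := mul_eq_zero.1 hr.symm
      rcases this with h | h
      · linarith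
      · exact h
    -- back to natural numbers
    have hKN : c * (p * (m + 1) + 2) = p * (m + 1) * m := by
      have : ((c * (p * (m + 1) + 2) : ℕ) : ℝ) = ((p * (m + 1) * m : ℕ) : ℝ) := by push_cast; linarith
      exact_mod_cast this
    rcases Nat.lt_or_ge c m with h2 | h2
    · -- `c ≤ m - 1`
      obtain ⟨l, rfl⟩ : ∃ l, m = l + 1 := ⟨m - 1, by omega⟩
      have hcl : c ≤ l := by omega
      rcases Nat.lt_or_ge c l with h3 | h3
      · have h4 : c * (p * (l + 1 + 1) + 2) < p * (l + 1 + 1) * (l + 1) := by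
          have h5 : (c + 1) * (p * (l + 1 + 1) + 2) ≤ l * (p * (l + 1 + 1) + 2) := Nat.mul_le_mul_right _ h3
          nlinarith
        omega
      · have h4 : c = l := by omega
        rw [h4] at hKN
        -- `l (p (l+2) + 2) = p (l+2) (l+1)` so `2 l = p (l + 2)`
        have h5 : 2 * l = p * (l + 2) := by nlinarith
        have h6 : p = 1 := by
          by_contra h7
          have h8 : 2 ≤ p := by omega
          nlinarith
        rw [h6] at h5
        apply hN4
        · omega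
        · omega
    · have h4 : c = m := by omega
      rw [h4] at hKN
      nlinarith
  · have h2 : (p : ℝ) * D ≤ r * ((p + 1) * D) := by
      have h3 : (p : ℝ) / (p + 1) * ((p + 1) * D) ≤ r * ((p + 1) * D) :=
        mul_le_mul_of_nonneg_right h1 (by positivity)
      have h4 : (p : ℝ) / (p + 1) * ((p + 1) * D) = p * D := by
        field_simp
      rwa [h4] at h3
    rw [hr] at h2
    have h3 : (D : ℝ) ≤ c * (p * (m + 1) + 2) - p * (m + 1) * m := by
      by_contra h4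
      push Not at h4
      have := mul_lt_mul_of_pos_left h4 (by linarith : (0 : ℝ) < p)
      linarith
    rw [hDR] at h3
    have h4 : (c : ℝ) * (p * (m + 1) + 1) ≤ m * (p * (m + 1) + 1) :=
      mul_le_mul_of_nonneg_right hcR (by positivity)
    nlinarith

/-- the lower bound -/
theorem lower (hn : 3 ≤ n) (h3 : n = 3 → Fintype.card F ≠ 2 ∧ Fintype.card F ≠ 4) (h4 : n = 4 → 4 ≤ Fintype.card F)
    (hρ : ρ.IsIrreducible) (hD2 : 2 ≤ Module.finrank ℂ V) :
    Fintype.card F ^ n - Fintype.card F ≤ (Fintype.card F - 1) * Module.finrank ℂ V := by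
  classical
  set q := Fintype.card F with hq
  have hq1 : 2 ≤ q := Fintype.one_lt_card
  have hV : Module.finrank ℂ V ≠ 0 := by omega
  -- dual vectors
  let i0 : Fin n := ⟨0, by omega⟩
  let i1 : Fin n := ⟨1, by omega⟩
  have h01 : i0 ≠ i1 := by
    intro h
    have := congrArg Fin.val h
    simp [i0, i1] at this
  have h : Dual (F := F) (Pi.single i0 1) (Pi.single i1 1) (Pi.single i0 1) (Pi.single i1 1) :=
    ⟨by simp, by simp [h01], by simp [h01.symm], by simp⟩
  set c₀ : Fin n → F := Pi.single i0 1 with hc₀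
  set c₁ : Fin n → F := Pi.single i1 1 with hc₁
  have hf₁ : (Pi.single i1 1 : Fin n → F) ≠ 0 := h.symm.c₀_ne
  have hc0 := h.c₀_ne
  have hc1 : c₁ ≠ 0 := h.symm.c₀_ne
  -- the trace of transvections
  set s := LinearMap.trace ℂ V (ρ (tv c₀ (Pi.single i1 1))) with hs
  have htv : ∀ c f : Fin n → F, c ≠ 0 → f ≠ 0 → f ⬝ᵥ c = 0 → LinearMap.trace ℂ V (ρ (tv c f)) = s :=
    fun c f hc hf hfc => trace_tv ρ hn hc hf hfc hc0 hf₁ h.h10
  have hu0 : uc c₀ 0 = (1 : SpecialLinearGroup (Fin n) F) := tv_zero_right c₀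
  have huadd : ∀ f g : Wc c₀, uc c₀ (f + g) = uc c₀ f * uc c₀ g := fun f g => tv_add f g
  have hus : ∀ f : Wc c₀, f ≠ 0 → LinearMap.trace ℂ V (ρ (uc c₀ f)) = s := by
    intro f hf
    exact htv c₀ f.1 hc0 (fun e => hf (Subtype.ext e)) f.2
  -- cardinalities
  set W := Fintype.card (Wc c₀ ⊓ Wc c₁ : Submodule F (Fin n → F)) with hW
  have hWpow : W = q ^ (n - 2) := card_W2 (by omega) h
  have hA : Fintype.card (Wc c₀) = q * W := card_decomp h
  have hqn : q ^ n = q * (q * W) := by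
    rw [hWpow, ← pow_succ', ← pow_succ']
    congr 1
    omega
  have hWq : q ≤ W := by
    rw [hWpow]
    calc q = q ^ 1 := (pow_one q).symm
      _ ≤ q ^ (n - 2) := Nat.pow_le_pow_right (by omega) (by omega)
  have hWpos : 0 < W := by omega
  have hAne : (Fintype.card (Wc c₀) : ℂ) ≠ 0 := Nat.cast_ne_zero.2 Fintype.card_ne_zero
  -- a non-trivial weight
  obtain ⟨ψ₀, hψ₀⟩ : ∃ ψ : AddChar (Wc c₀) ℂ, ψ ≠ 0 := by
    have h5 : 1 < Fintype.card (AddChar (Wc c₀) ℂ) := by
      rw [AddChar.card_eq, hA]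
      nlinarith
    haveI := Fintype.one_lt_card_iff_nontrivial.1 h5
    exact exists_ne 0
  set D := Module.finrank ℂ V with hD
  set μ := Module.finrank ℂ (LinearMap.range (ew ρ (uc c₀) ψ₀)) with hμ
  have hμ1 : (μ : ℂ) = (Fintype.card (Wc c₀) : ℂ)⁻¹ * (D - s) := by
    rw [hμ, ← trace_idem (ew_mul_self ρ huadd ψ₀), trace_ew ρ hu0 s hus hψ₀]
  have hEidem := E_idem ρ c₀
  set c := Module.finrank ℂ (LinearMap.range (E ρ c₀)) with hc
  have hEtr : LinearMap.trace ℂ V (E ρ c₀) = c := trace_idem hEidem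
  have hc1' : (c : ℂ) = (Fintype.card (Wc c₀) : ℂ)⁻¹ * (D + (Fintype.card (Wc c₀) - 1) * s) := by
    rw [← hEtr]
    exact trace_av ρ hu0 s hus
  have hs1 : s = D - Fintype.card (Wc c₀) * μ := by
    rw [hμ1, mul_inv_cancel_left₀ hAne]; ring
  have hDc : (D : ℂ) = c + (Fintype.card (Wc c₀) - 1) * μ := by
    have h6 : (c : ℂ) * Fintype.card (Wc c₀) = D + (Fintype.card (Wc c₀) - 1) * s := by
      rw [hc1']; field_simp
    rw [hs1] at h6
    have h7 : (Fintype.card (Wc c₀) : ℂ) * c = Fintype.card (Wc c₀) * (D - (Fintype.card (Wc c₀) - 1) * μ) := by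
      linear_combination h6
    have h8 := mul_left_cancel₀ hAne h7
    linear_combination -h8
  have hDcN : D = c + (q * W - 1) * μ := by
    have h6 : ((c + (q * W - 1) * μ : ℕ) : ℂ) = (c : ℂ) + (Fintype.card (Wc c₀) - 1) * μ := by
      rw [hA]
      have h7 : 1 ≤ q * W := Nat.one_le_iff_ne_zero.2 (by positivity)
      push_cast [Nat.cast_sub h7]
      ring
    have h8 : (D : ℂ) = ((c + (q * W - 1) * μ : ℕ) : ℂ) := by rw [h6, hDc]
    exact_mod_cast h8
  obtain ⟨p, hp⟩ : ∃ p, q = p + 1 := ⟨q - 1, by omega⟩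
  have hp1 : 1 ≤ p := by omega
  have hqp : q - 1 = p := by omega
  -- multiplicity zero
  by_cases hμ0 : μ = 0
  · exfalso
    apply E_ne_one ρ hn hρ hD2 hc0
    apply eq_one_of_trace hEidem
    rw [hEtr, ← hD, hDcN, hμ0, mul_zero, add_zero]
  by_cases hμ2 : 2 ≤ μ
  · -- multiplicity at least two
    rw [hqn, hqp]
    have h6 : (q * W - 1) * 2 ≤ D := by
      rw [hDcN]
      calc (q * W - 1) * 2 ≤ (q * W - 1) * μ := Nat.mul_le_mul_left _ hμ2
        _ ≤ _ := Nat.le_add_left _ _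
    have h7 : q * (q * W) - q = q * (q * W - 1) := by rw [Nat.mul_sub, mul_one]
    rw [h7]
    calc q * (q * W - 1) ≤ (p * 2) * (q * W - 1) := Nat.mul_le_mul_right _ (by omega)
      _ = p * ((q * W - 1) * 2) := by ring
      _ ≤ p * D := Nat.mul_le_mul_left _ h6
  -- multiplicity one
  have hμ1' : μ = 1 := by omega
  have hone : ∀ ψ : AddChar (Wc c₀) ℂ, ψ ≠ 0 → LinearMap.trace ℂ V (ew ρ (uc c₀) ψ) = 1 := by
    intro ψ hψ
    rw [trace_ew ρ hu0 s hus hψ, ← hμ1, hμ1', Nat.cast_one]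
  have hs2 : s = c - 1 := by
    rw [hs1, hDc, hμ1', Nat.cast_one]; ring
  -- the trace of `A₁ E`
  have hAE : LinearMap.trace ℂ V (A ρ c₀ c₁ c₁ * E ρ c₀) = (c : ℂ) - W + 1 := by
    have hz : ∀ z : (Wc c₀ ⊓ Wc c₁ : Submodule F (Fin n → F)), LinearMap.trace ℂ V (ρ (tv c₁ z.1) * E ρ c₀) =
        ((c : ℂ) - W) + if z = 0 then (W : ℂ) else 0 := by
      intro z
      by_cases hz0 : z = 0
      · rw [if_pos hz0, hz0]
        show LinearMap.trace ℂ V (ρ (tv c₁ 0) * E ρ c₀) = _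
        rw [tv_zero_right, map_one, one_mul, hEtr]
        ring
      rw [if_neg hz0, add_zero]
      have hz0' : z.1 ≠ 0 := fun e => hz0 (Subtype.ext e)
      have hzc0 : z.1 ⬝ᵥ c₀ = 0 := z.2.1
      have hzc1 : z.1 ⬝ᵥ c₁ = 0 := z.2.2
      let z' : Wc c₀ := ⟨z.1, z.2.1⟩
      have hz' : z' ≠ 0 := fun e => hz0' (congrArg Subtype.val e)
      have hcz : ∀ y : Wc c₀, (y - (y.1 ⬝ᵥ c₁) • z').1 ⬝ᵥ c₁ = y.1 ⬝ᵥ c₁ := by
        intro y
        show (y.1 - (y.1 ⬝ᵥ c₁) • z.1) ⬝ᵥ c₁ = _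
        rw [sub_dotProduct, smul_dotProduct, hzc1, smul_zero, sub_zero]
      let σ : Wc c₀ ≃+ Wc c₀ :=
        { toFun := fun y => y - (y.1 ⬝ᵥ c₁) • z'
          invFun := fun y => y + (y.1 ⬝ᵥ c₁) • z'
          left_inv := by
            intro y
            show (y - (y.1 ⬝ᵥ c₁) • z') + ((y - (y.1 ⬝ᵥ c₁) • z').1 ⬝ᵥ c₁) • z' = y
            rw [hcz, sub_add_cancel]
          right_inv := by
            intro y
            show (y + (y.1 ⬝ᵥ c₁) • z') - ((y + (y.1 ⬝ᵥ c₁) • z').1 ⬝ᵥ c₁) • z' = y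
            have : (y + (y.1 ⬝ᵥ c₁) • z').1 ⬝ᵥ c₁ = y.1 ⬝ᵥ c₁ := by
              show (y.1 + (y.1 ⬝ᵥ c₁) • z.1) ⬝ᵥ c₁ = _
              rw [add_dotProduct, smul_dotProduct, hzc1, smul_zero, add_zero]
            rw [this, add_sub_cancel_right]
          map_add' := by
            intro x y
            show (x + y) - ((x.1 + y.1) ⬝ᵥ c₁) • z' = (x - (x.1 ⬝ᵥ c₁) • z') + (y - (y.1 ⬝ᵥ c₁) • z')
            rw [add_dotProduct, add_smul]; abel }
      have hσ : ∀ y : Wc c₀, tv c₁ z.1 * uc c₀ y * (tv c₁ z.1)⁻¹ = uc c₀ (σ y) := by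
        intro y
        unfold uc
        rw [tv_conj _ _ _ y.2, tv_mulVec _ _ _ hzc1, hzc0, zero_smul, add_zero, tv_inv _ _ hzc1,
          vecMul_tv _ _ _ (by rw [neg_dotProduct, hzc1, neg_zero]), smul_neg, ← sub_eq_add_neg]
        rfl
      have hfixiff : ∀ ψ : AddChar (Wc c₀) ℂ, (∀ y, ψ (σ y) = ψ y) ↔ ∀ t : F, ψ (t • z') = 1 := by
        intro ψ
        constructor
        · intro hψ t
          obtain ⟨y0, hy0⟩ : ∃ y0 : Wc c₀, y0.1 ⬝ᵥ c₁ = -t := by
            refine ⟨⟨(-t) • Pi.single i1 1, by rw [mem_Wc, smul_dotProduct, h.h10, smul_zero]⟩, ?_⟩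
            show ((-t) • (Pi.single i1 1 : Fin n → F)) ⬝ᵥ c₁ = -t
            rw [smul_dotProduct, h.h11, smul_eq_mul, mul_one]
          have h5 := hψ y0
          have h6 : σ y0 = y0 + t • z' := by
            show y0 - (y0.1 ⬝ᵥ c₁) • z' = _
            rw [hy0]
            apply Subtype.ext
            show y0.1 - (-t) • z.1 = y0.1 + t • z.1
            ext i
            simp
          rw [h6, AddChar.map_add_eq_mul] at h5
          have h7 : ψ y0 ≠ 0 := by
            intro h8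
            have h9 := AddChar.map_add_eq_mul ψ (-y0) y0
            rw [neg_add_cancel, AddChar.map_zero_eq_one, h8, mul_zero] at h9
            exact one_ne_zero h9
          exact mul_left_cancel₀ h7 (by rw [h5, mul_one])
        · intro hψ y
          show ψ (y - (y.1 ⬝ᵥ c₁) • z') = ψ y
          rw [AddChar.map_sub_eq_div, hψ, div_one]
      have h5 := trace_rho_av ρ hu0 huadd hσ (fun ψ hψ0 hψ =>
        weight_one ρ hn h3 h4 h (hone ψ hψ0) hz0' z.2.1 z.2.2 ((hfixiff ψ).1 hψ))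
      have h6 : LinearMap.trace ℂ V (ρ (tv c₁ z.1) * E ρ c₀) = LinearMap.trace ℂ V (ρ (tv c₁ z.1) * av ρ (uc c₀)) := rfl
      rw [h6, h5, htv c₁ z.1 hc1 hz0' hzc1, hs2]
      have h7 : (Nat.card {ψ : AddChar (Wc c₀) ℂ // ∀ a, ψ (σ a) = ψ a} : ℂ) = W := by
        have h8 : Nat.card {ψ : AddChar (Wc c₀) ℂ // ∀ a, ψ (σ a) = ψ a} = Nat.card {ψ : AddChar (Wc c₀) ℂ // ∀ t : F, ψ (t • z') = 1} :=
          Nat.card_congr (Equiv.subtypeEquivRight hfixiff)
        have h9 := card_fix (F := F) hz'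
        rw [← h8, hA] at h9
        exact_mod_cast Nat.eq_of_mul_eq_mul_left (by omega : 0 < q) h9
      rw [h7]; ring
    have h5 : LinearMap.trace ℂ V (A ρ c₀ c₁ c₁ * E ρ c₀) = (W : ℂ)⁻¹ *
        ∑ z : (Wc c₀ ⊓ Wc c₁ : Submodule F (Fin n → F)), LinearMap.trace ℂ V (ρ (tv c₁ z.1) * E ρ c₀) := by
      unfold A
      conv_lhs => enter [2, 1]; unfold av
      rw [smul_mul_assoc, Finset.sum_mul, map_smul, map_sum, smul_eq_mul]
    rw [h5, Finset.sum_congr rfl (fun z _ => hz z), Finset.sum_add_distrib, Finset.sum_const, Finset.card_univ, ← hW,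
      Finset.sum_ite_eq' Finset.univ (0 : (Wc c₀ ⊓ Wc c₁ : Submodule F (Fin n → F))), if_pos (Finset.mem_univ _), nsmul_eq_mul]
    have hW0 : (W : ℂ) ≠ 0 := Nat.cast_ne_zero.2 (by omega)
    field_simp
  -- the sum over the points
  have hid := points_identity ρ hρ hV (by omega : 2 ≤ n) hc0 _ (fun v hv => trace_EE_const ρ hn hv h.c₁_not_mem)
  have hgap := gap_E ρ h
  rw [hAE] at hgap
  rw [hEtr] at hid
  set τ := LinearMap.trace ℂ V (E ρ c₁ * E ρ c₀) with hτ
  obtain ⟨r, hr, hr'⟩ := hgap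
  -- the number of points
  obtain ⟨N, hN⟩ : ∃ N, q * W = p * N + 1 := by
    have h5 : q * W = q ^ (n - 1) := by
      rw [hWpow, ← pow_succ']
      congr 1
      omega
    rw [h5, ← hqp]
    refine ⟨∑ i ∈ Finset.range (n - 1), q ^ i, ?_⟩
    have h6 := Nat.geomSum_eq hq1 (n - 1)
    have h7 : (q - 1) ∣ q ^ (n - 1) - 1 := by
      have := Nat.sub_dvd_pow_sub_pow q 1 (n - 1)
      rwa [one_pow] at this
    rw [h6, Nat.mul_div_cancel' h7]
    have : 1 ≤ q ^ (n - 1) := Nat.one_le_pow _ _ (by omega)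
    omega
  have hN2 : 2 ≤ N := by
    by_contra hcon
    have h5 : N ≤ 1 := by omega
    have h6 : q * W ≤ p + 1 := by rw [hN]; nlinarith
    have h7 : q * 2 ≤ q * W := Nat.mul_le_mul_left _ (by omega)
    omega
  have hN4 : q = 2 → N ≠ 4 := by
    intro h5 h6
    have h7 : p = 1 := by omega
    rw [h6, h7, h5] at hN
    omega
  have hDN : D = c + (q - 1) * N := by
    rw [hDcN, hμ1', hN, hqp, mul_one, Nat.add_sub_cancel]
  have hcN := arith q N c D hq1 hN2 hN4 hDN r (by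
    -- the identity
    have hDne : (D : ℂ) ≠ 0 := Nat.cast_ne_zero.2 hV
    have hqC : (q : ℂ) = p + 1 := by rw [hp]; push_cast; ring
    have hpC : (p : ℂ) ≠ 0 := Nat.cast_ne_zero.2 (by omega)
    have hWC : (q : ℂ) * W = p * N + 1 := by exact_mod_cast hN
    have hDC : (D : ℂ) = c + p * N := by rw [hDN, hqp]; push_cast; ring
    have hqnC : (q : ℂ) ^ n = q * (p * N + 1) := by
      have : ((q ^ n : ℕ) : ℂ) = q * (q * W) := by rw [hqn]; push_cast; ring
      rw [← hWC]; push_cast at this; exact this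
    have h5 : ((r * (q * D) : ℝ) : ℂ) = (((q - 1) * (c * ((q - 1) * N + 2) - (q - 1) * N * (N - 1)) : ℝ) : ℂ) := by
      push_cast
      rw [← hr]
      rw [← hq, hqnC, ← hD] at hid
      have h6 : (((q : ℂ) - 1) * c + (q * (p * N + 1) - q) * τ) * D = (q * (p * N + 1) - 1) * c ^ 2 := by
        rw [hid]; field_simp
      -- multiply by `p N`
      have hNC : (N : ℂ) ≠ 0 := Nat.cast_ne_zero.2 (by omega)
      have hqC' : (q : ℂ) ≠ 0 := Nat.cast_ne_zero.2 (by omega)
      apply mul_left_cancel₀ (mul_ne_zero hpC hNC)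
      rw [hqC] at h6 hWC ⊢
      rw [hDC] at h6 ⊢
      linear_combination (-1 : ℂ) * h6 - (p * N * (c + p * N)) * hWC
    exact_mod_cast h5) hr'
  -- conclusion
  rw [hqn, hN, hqp, hDN, hqp]
  have h5 : q * (p * N + 1) - q = q * (p * N) := by rw [mul_add, mul_one, Nat.add_sub_cancel]
  rw [h5, hp]
  nlinarith

end Cfsg.Agent.Lib.SLMin
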