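import Cfsg.Agent.Lib.MinDegM
import Cfsg.Agent.Lib.MinDegArith
import Cfsg.Agent.Lib.UCEMain
import Cfsg.Agent.Lib.SLMin
import Cfsg.Agent.Lib.ClSLn
import Cfsg.Agent.Lib.CharCentral
import Cfsg.Agent.S2401
import Cfsg.Agent.S1063
import Cfsg.Agent.S1064
import Cfsg.Agent.S1065

/-!
Minimal degrees of the groups of types E6, E7, E8 (helper18).
-/

set_option autoImplicit false
set_option linter.unusedSectionVars false

universe u v

namespace Cfsg.Agent.Lib.MinDegN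

open Cfsg.Lie Cfsg.Agent.Lib.ChevGood Cfsg.Agent.Lib.ChevRel Cfsg.Agent.Lib.ChevX Cfsg.Agent.Lib.UCEPair
open Cfsg.Agent.Lib.UCEBase Cfsg.Agent.Lib.UCESys Cfsg.Agent.Lib.UCELift Cfsg.Agent.Lib.UCESymbol Cfsg.Agent.Lib.UCETrip
open Cfsg.Agent.Lib.MinDegA Cfsg.Agent.Lib.MinDegB Cfsg.Agent.Lib.MinDegC
open Cfsg.Agent.Lib.MinDegI Cfsg.Agent.Lib.MinDegJ Cfsg.Agent.Lib.MinDegK Cfsg.Agent.Lib.MinDegL Cfsg.Agent.Lib.MinDegM

/-- representations of dimension at most one of a perfect group are trivial -/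
theorem trivial_of_perfect {Γ : Type*} [Group Γ] (hperf : commutator Γ = ⊤) {V : Type*} [AddCommGroup V] [Module ℂ V]
    [FiniteDimensional ℂ V] (σ : Representation ℂ Γ V) (h : Module.finrank ℂ V ≤ 1) (g : Γ) : σ g = 1 := by
  have hscal : ∀ A : Module.End ℂ V, ∃ c : ℂ, A = c • 1 := by
    intro A
    obtain ⟨v, hv⟩ := (finrank_le_one_iff (K := ℂ) (V := V)).mp h
    obtain ⟨c, hc⟩ := hv (A v)
    refine ⟨c, ?_⟩
    ext w
    obtain ⟨d, rfl⟩ := hv w
    rw [map_smul, ← hc]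
    show d • c • v = c • (d • v)
    rw [smul_comm]
  have hcomm : ∀ A B : Module.End ℂ V, A * B = B * A := by
    intro A B
    obtain ⟨a, rfl⟩ := hscal A
    obtain ⟨b, rfl⟩ := hscal B
    rw [smul_mul_smul_comm, smul_mul_smul_comm, mul_comm a b]
  have hg : g ∈ commutator Γ := by rw [hperf]; exact Subgroup.mem_top g
  rw [commutator_eq_closure] at hg
  induction hg using Subgroup.closure_induction with
  | mem x hx =>
    obtain ⟨a, b, rfl⟩ := hx
    rw [commutatorElement_def, map_mul, map_mul, map_mul, hcomm (σ a) (σ b), mul_assoc, mul_assoc,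
      ← mul_assoc (σ a), ← map_mul, mul_inv_cancel, map_one, one_mul, ← map_mul, mul_inv_cancel, map_one]
  | one => exact map_one σ
  | mul x y _ _ hx hy => rw [map_mul, hx, hy, one_mul]
  | inv x _ hx =>
    have h1 : σ x⁻¹ * σ x = 1 := by rw [← map_mul, inv_mul_cancel, map_one]
    rw [hx, mul_one] at h1
    exact h1

/-! ### SL6 -/

theorem minRep_SL6 (F : Type v) [Field F] [Fintype F] [DecidableEq F] :
    MinRep.{u} (Matrix.SpecialLinearGroup (Fin 6) F)
      (Fintype.card F ^ 5 + Fintype.card F ^ 4 + Fintype.card F ^ 3 + Fintype.card F ^ 2 + Fintype.card F) := by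
  apply minRep_of_irr
  intro V _ _ _ σ hσ ⟨g, hg⟩
  have hperf : commutator (Matrix.SpecialLinearGroup (Fin 6) F) = ⊤ :=
    Cfsg.Agent.Lib.ClSLn.commutator_SL_eq_top (by rw [Fintype.card_fin]; norm_num)
  have h2 : 2 ≤ Module.finrank ℂ V := by
    by_contra h
    exact hg (trivial_of_perfect hperf σ (by omega) g)
  have h3 := SLMin.lower (n := 6) (F := F) σ (by norm_num) (by norm_num) (by norm_num) hσ h2
  have hq : 2 ≤ Fintype.card F := Fintype.one_lt_card
  obtain ⟨y, hy⟩ := Nat.exists_eq_add_of_le' hq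
  rw [hy] at h3 ⊢
  have e1 : y + 2 - 1 = y + 1 := rfl
  rw [e1] at h3
  have e2 : (y + 2) ^ 6 - (y + 2) = (y + 1) * ((y + 2) ^ 5 + (y + 2) ^ 4 + (y + 2) ^ 3 + (y + 2) ^ 2 + (y + 2)) := by
    apply Nat.sub_eq_of_eq_add
    ring
  rw [e2] at h3
  exact Nat.le_of_mul_le_mul_left h3 (by omega)

/-! ### the subsystem of type A5 -/

/-- the commutator relations of the subsystem of type A5 -/
theorem a5_rel {F : Type*} [Field F] [Fintype F] {Q : Type*} [Group Q] (R : RSys chevE6 F Q) {i j l : Fin 6} (hij : i ≠ j) (hjl : j ≠ l)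
    (hil : i ≠ l) (t u : F) :
    R.x (a5r i j) (a5s i j * t) * R.x (a5r j l) (a5s j l * u) * (R.x (a5r i j) (a5s i j * t))⁻¹ *
      (R.x (a5r j l) (a5s j l * u))⁻¹ = R.x (a5r i l) (a5s i l * (t * u)) := by
  obtain ⟨h1, h2, h3, h4⟩ := a5_add i j l hij hjl hil
  have hA : AA chevE6 F ⟨a5r i j, a5_lt i j⟩ ⟨a5r j l, a5_lt j l⟩ ⟨a5r i l, a5_lt i l⟩
      (((a5s i l * a5s i j * a5s j l : ℤ)) : F) := ⟨_, h1, by push_cast; ring⟩
  have h5 := AA_conj ChevOkE6.good pairOK_E6 R hA (a5s i j * t) (a5s j l * u)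
  have h6 := AA_pr ChevOkE6.good pairOK_E6 hA
  change R.x (a5r i j) (a5s i j * t) * R.x (a5r j l) (a5s j l * u) * (R.x (a5r i j) (a5s i j * t))⁻¹ =
    R.x (a5r j l) (a5s j l * u) * R.x (a5r i l) _ at h5
  have h7 : R.x (a5r j l) (a5s j l * u) * R.x (a5r i l) (((a5s i l * a5s i j * a5s j l : ℤ) : F) * (a5s i j * t) * (a5s j l * u)) =
      R.x (a5r i l) (((a5s i l * a5s i j * a5s j l : ℤ) : F) * (a5s i j * t) * (a5s j l * u)) * R.x (a5r j l) (a5s j l * u) := by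
    apply CC_comm ChevOkE6.good pairOK_E6 R (a := ⟨a5r j l, a5_lt j l⟩) (b := ⟨a5r i l, a5_lt i l⟩)
    unfold CC
    have := h6.2.2.1
    omega
  rw [h5, h7, mul_inv_cancel_right]
  congr 1
  have e3 : ((a5s i j : ℤ) : F) * (a5s i j : ℤ) = 1 := by exact_mod_cast congrArg (Int.cast : ℤ → F) h3
  have e4 : ((a5s j l : ℤ) : F) * (a5s j l : ℤ) = 1 := by exact_mod_cast congrArg (Int.cast : ℤ → F) h4
  push_cast
  linear_combination ((a5s i l : ℤ) : F) * t * u * (((a5s i j : ℤ) : F) * (a5s i j : ℤ)) * e4 + ((a5s i l : ℤ) : F) * t * u * e3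

theorem a5_cc {F : Type*} [Field F] [Fintype F] {Q : Type*} [Group Q] (R : RSys chevE6 F Q) {i j k l : Fin 6} (hij : i ≠ j) (hkl : k ≠ l)
    (hil : i ≠ l) (hjk : j ≠ k) (t u : F) :
    R.x (a5r i j) t * R.x (a5r k l) u = R.x (a5r k l) u * R.x (a5r i j) t :=
  CC_comm ChevOkE6.good pairOK_E6 R (a := ⟨a5r i j, a5_lt i j⟩) (b := ⟨a5r k l, a5_lt k l⟩) (a5_comm i j k l hij hkl hil hjk) t u

/-- the homomorphism from `SL6` -/
theorem exists_SL6 (F : Type v) [Field F] [Fintype F] {Q : Type*} [Group Q] (R : RSys chevE6 F Q) :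
    ∃ (Γ : Type v) (_ : Group Γ) (_ : Γ ≃* Matrix.SpecialLinearGroup (Fin 6) F) (φ : Γ →* Q) (S : Set Γ),
      Subgroup.closure S = ⊤ ∧ (∀ g ∈ S, ∃ i j : Fin 6, i ≠ j ∧ ∃ t, φ g = R.x (a5r i j) t) ∧
      ∀ t, ∃ g, φ g = R.x 60 t := by
  obtain ⟨e, -⟩ := Cfsg.Agent.S2401.result (K := F) 6 (by norm_num)
  refine ⟨_, inferInstance, e, PresentedGroup.toGroup (f := fun p => R.x (a5r p.1.1.1 p.1.1.2) ((a5s p.1.1.1 p.1.1.2 : ℤ) * p.2)) ?_,
    Set.range PresentedGroup.of, PresentedGroup.closure_range_of _, ?_, ?_⟩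
  · rintro r ((⟨a, t, u, rfl⟩ | ⟨a, b, t, u, h1, h2, rfl⟩) | ⟨a, b, h, t, u, h1, rfl⟩)
    · simp only [map_mul, map_inv, FreeGroup.lift_apply_of]
      rw [R.add _ (a5_lt _ _), ← mul_add, mul_inv_cancel]
    · simp only [map_mul, map_inv, FreeGroup.lift_apply_of]
      rw [a5_cc R a.2 b.2 h1 h2]
      group
    · simp only [map_mul, map_inv, FreeGroup.lift_apply_of]
      obtain ⟨⟨i, j⟩, hij⟩ := a
      obtain ⟨⟨k, l⟩, hkl⟩ := b
      dsimp only at h h1 hij hkl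
      subst h1
      dsimp only
      rw [a5_rel R hij hkl h, mul_inv_cancel]
  · rintro _ ⟨⟨a, t⟩, rfl⟩
    refine ⟨a.1.1, a.1.2, a.2, ((a5s a.1.1 a.1.2 : ℤ) : F) * t, ?_⟩
    rw [PresentedGroup.toGroup.of]
  · intro t
    refine ⟨PresentedGroup.of (⟨((0 : Fin 6), (5 : Fin 6)), by decide⟩, t), ?_⟩
    rw [PresentedGroup.toGroup.of]
    have h1 : a5r (0 : Fin 6) (5 : Fin 6) = 60 := by decide
    have h2 : a5s (0 : Fin 6) (5 : Fin 6) = 1 := by decide
    dsimp only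
    rw [h1, h2, Int.cast_one, one_mul]

theorem minRep_congr {Γ Γ' : Type*} [Group Γ] [Group Γ'] (e : Γ ≃* Γ') {M : ℕ} (h : MinRep.{u} Γ' M) : MinRep.{u} Γ M := by
  intro V _ _ _ σ ⟨g, hg⟩
  exact h V (σ.comp e.symm.toMonoidHom) ⟨e g, by
    show σ (e.symm (e g)) ≠ 1
    rw [e.symm_apply_apply]; exact hg⟩

/-! ### orders -/

theorem card_ext {Γ Δ : Type*} [Group Γ] [Group Δ] (θ : Γ →* Δ) (hθ : Function.Surjective θ) :
    Nat.card Γ = Nat.card Δ * Nat.card θ.ker := by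
  rw [Subgroup.card_eq_card_quotient_mul_card_subgroup θ.ker,
    Nat.card_congr (QuotientGroup.quotientKerEquivOfSurjective θ hθ).toEquiv]

theorem card_St6 (F : Type v) [Field F] [Fintype F] (q : ℕ) (hq : Fintype.card F = q) :
    Nat.card (chevE6.SteinbergGroup F) =
      q ^ 36 * (q ^ 2 - 1) * (q ^ 5 - 1) * (q ^ 6 - 1) * (q ^ 8 - 1) * (q ^ 9 - 1) * (q ^ 12 - 1) := by
  obtain ⟨θ, h1, h2, -⟩ := Cfsg.Agent.Lib.StPres.ker_eq_center (D := chevE6) (K := F) (by simp)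
  have h3 := Cfsg.Agent.Lib.StCenter.card_center_e6_e7 (K := F) hq (chevE6, 3) (by simp)
  have h4 := Cfsg.Agent.S1063.result (F := F) hq
  rw [card_ext θ h1, h2, ← h4, mul_comm]
  congr 1

theorem card_St7 (F : Type v) [Field F] [Fintype F] (q : ℕ) (hq : Fintype.card F = q) :
    Nat.card (chevE7.SteinbergGroup F) =
      q ^ 63 * (q ^ 2 - 1) * (q ^ 6 - 1) * (q ^ 8 - 1) * (q ^ 10 - 1) * (q ^ 12 - 1) * (q ^ 14 - 1) * (q ^ 18 - 1) := by
  obtain ⟨θ, h1, h2, -⟩ := Cfsg.Agent.Lib.StPres.ker_eq_center (D := chevE7) (K := F) (by simp)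
  have h3 := Cfsg.Agent.Lib.StCenter.card_center_e6_e7 (K := F) hq (chevE7, 2) (by simp)
  have h4 := Cfsg.Agent.S1064.result (F := F) hq
  rw [card_ext θ h1, h2, ← h4, mul_comm]
  congr 1

/-! ### the three types -/

theorem nontriv_of_two {Γ : Type*} [Group Γ] {V : Type*} [AddCommGroup V] [Module ℂ V] [FiniteDimensional ℂ V]
    {σ : Representation ℂ Γ V} (hσ : σ.IsIrreducible) (h2 : 2 ≤ Module.finrank ℂ V) : ∃ g, σ g ≠ 1 := by
  by_contra h
  push Not at h
  haveI : Nontrivial V := Module.finrank_pos_iff.mp (by omega : 0 < Module.finrank ℂ V)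
  obtain ⟨v, hv⟩ := exists_ne (0 : V)
  let S : Subrepresentation σ := ⟨Submodule.span ℂ {v}, fun g w hw => by rw [h g]; exact hw⟩
  have hS : S = ⊥ ∨ S = ⊤ := hσ.2 S
  rcases hS with hS | hS
  · have h3 : v ∈ S.toSubmodule := Submodule.mem_span_singleton_self v
    rw [hS] at h3
    exact hv h3
  · have h3 : Submodule.span ℂ {v} = ⊤ := congrArg Subrepresentation.toSubmodule hS
    have h4 : Module.finrank ℂ V ≤ 1 := by
      rw [← finrank_top, ← h3]
      exact (finrank_span_le_card ({v} : Set V)).trans (by simp)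
    omega

theorem minRep_E6 (F : Type v) [Field F] [Fintype F] :
    MinRep.{u} (chevE6.SteinbergGroup F)
      (Fintype.card F ^ 11 + Fintype.card F ^ 8 + Fintype.card F ^ 7 + Fintype.card F ^ 5 + Fintype.card F ^ 4 +
        Fintype.card F) := by
  classical
  haveI : Finite (chevE6.SteinbergGroup F) := Cfsg.Agent.Lib.UCEMain.finite_st (by simp) F
  apply minRep_of_irr
  intro V _ _ _ σ hσ hg
  have hq : 2 ≤ Fintype.card F := Fintype.one_lt_card
  have hgen := Cfsg.Agent.Lib.UCEFinal.st_gen (D := chevE6) (K := F)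
  rcases E6_case (Cfsg.Agent.Lib.UCEFinal.stSys chevE6 F) (ρ := σ) hgen hg with h | ⟨h1, h2⟩
  · rw [← MinDegArith.tgt6]
    exact MinDegArith.big6 _ hq _ h
  · obtain ⟨Γ, _, e, φ, S, hS, hφ, hφp⟩ := exists_SL6 F (Cfsg.Agent.Lib.UCEFinal.stSys chevE6 F)
    obtain ⟨l, hl⟩ := exists_char F
    have hmul : LinearMap.trace ℂ V (EE σ (Cfsg.Agent.Lib.UCEFinal.stSys chevE6 F) p6 l *
        AV σ (Cfsg.Agent.Lib.UCEFinal.stSys chevE6 F) ((X6 F).W (X6 F).N)) ≠ 0 := by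
      rw [h2 l hl]
      exact pow_ne_zero _ (by exact_mod_cast Fintype.card_ne_zero)
    have hp0 : (X6 F).f p6 = 0 := a5_f 0 5 (by decide)
    obtain ⟨c, hc, hM⟩ := levi_bound pairOK_E6 (Cfsg.Agent.Lib.UCEFinal.stSys chevE6 F) (X := X6 F) (p := p6) hp0 hl hmul φ hS
      (by
        intro g hg
        obtain ⟨i, j, hij, t, ht⟩ := hφ g hg
        exact ⟨⟨a5r i j, a5_lt i j⟩, a5_f i j hij, t, ht⟩) hφp (minRep_congr e (minRep_SL6 F))
    rw [hc] at h1
    have h3 : Module.finrank ℂ V + Fintype.card F ^ 3 + Fintype.card F ^ 2 + 1 =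
        c + Fintype.card F ^ 11 + Fintype.card F ^ 8 + Fintype.card F ^ 7 := by
      have : ((Module.finrank ℂ V + Fintype.card F ^ 3 + Fintype.card F ^ 2 + 1 : ℕ) : ℂ) =
        ((c + Fintype.card F ^ 11 + Fintype.card F ^ 8 + Fintype.card F ^ 7 : ℕ) : ℂ) := by
        push_cast
        rw [h1]; ring
      exact_mod_cast this
    by_contra hcon
    have h4 : Module.finrank ℂ V = Fintype.card F ^ 11 + Fintype.card F ^ 8 + Fintype.card F ^ 7 + Fintype.card F ^ 5 +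
        Fintype.card F ^ 4 + Fintype.card F - 1 := by omega
    have h5 := CharCentral.finrank_dvd_card σ
    rw [h4, card_St6 F _ rfl] at h5
    exact MinDegArith.ndvd6 _ hq h5

set_option maxRecDepth 1000000 in
theorem e67_f : ∀ r < 72, ChevOkE7.good.rv (e67.getD r 0) 6 = 0 := by decide +kernel

set_option maxRecDepth 1000000 in
theorem e78_f : ∀ r < 126, ChevOkE8.good.rv (e78.getD r 0) 7 = 0 := by decide +kernel

theorem minRep_E7 (F : Type v) [Field F] [Fintype F] :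
    MinRep.{u} (chevE7.SteinbergGroup F)
      (Fintype.card F ^ 17 + Fintype.card F ^ 13 + Fintype.card F ^ 11 + Fintype.card F ^ 9 + Fintype.card F ^ 7 +
        Fintype.card F ^ 5 + Fintype.card F) := by
  classical
  haveI : Finite (chevE7.SteinbergGroup F) := Cfsg.Agent.Lib.UCEMain.finite_st (by simp) F
  apply minRep_of_irr
  intro V _ _ _ σ hσ hg
  have hq : 2 ≤ Fintype.card F := Fintype.one_lt_card
  have hgen := Cfsg.Agent.Lib.UCEFinal.st_gen (D := chevE7) (K := F)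
  rcases E7_case (Cfsg.Agent.Lib.UCEFinal.stSys chevE7 F) (ρ := σ) hgen hg with h | ⟨h1, h2⟩
  · exact MinDegArith.big7 _ hq _ h
  · obtain ⟨φ, hφ⟩ := Cfsg.Agent.Lib.UCEFinal.exists_hom ChevOkE6.good
      (embSys emb67 ChevOkE6.good pairOK_E6 (Cfsg.Agent.Lib.UCEFinal.stSys chevE7 F))
      (embSys_R3 emb67 ChevOkE6.good pairOK_E6 Cfsg.Agent.Lib.UCEFinal.stSys_R3)
    obtain ⟨l, hl⟩ := exists_char F
    have hmul : LinearMap.trace ℂ V (EE σ (Cfsg.Agent.Lib.UCEFinal.stSys chevE7 F) p7 l *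
        AV σ (Cfsg.Agent.Lib.UCEFinal.stSys chevE7 F) ((X7 F).W (X7 F).N)) ≠ 0 := by
      rw [h2 l hl]
      exact pow_ne_zero _ (by exact_mod_cast Fintype.card_ne_zero)
    have hp0 : (X7 F).f p7 = 0 := e67_f 71 (by norm_num)
    obtain ⟨c, hc, hM⟩ := levi_bound pairOK_E7 (Cfsg.Agent.Lib.UCEFinal.stSys chevE7 F) (X := X7 F) (p := p7) hp0 hl hmul φ
      (Cfsg.Agent.Lib.UCEFinal.st_gen (D := chevE6) (K := F))
      (by
        rintro _ ⟨r, hr, t, rfl⟩
        exact ⟨⟨e67.getD r 0, emb_lt emb67 hr⟩, e67_f r hr, t, hφ r hr t⟩)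
      (fun t => ⟨chevE6.stGen F 71 t, hφ 71 (by decide) t⟩) (minRep_E6 F)
    rw [hc] at h1
    have h3 : Module.finrank ℂ V + Fintype.card F ^ 8 + Fintype.card F ^ 4 + 1 =
        c + Fintype.card F ^ 17 + Fintype.card F ^ 13 + Fintype.card F ^ 9 := by
      have : ((Module.finrank ℂ V + Fintype.card F ^ 8 + Fintype.card F ^ 4 + 1 : ℕ) : ℂ) =
        ((c + Fintype.card F ^ 17 + Fintype.card F ^ 13 + Fintype.card F ^ 9 : ℕ) : ℂ) := by
        push_cast
        rw [h1]; ring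
      exact_mod_cast this
    by_contra hcon
    have h4 : Module.finrank ℂ V = Fintype.card F ^ 17 + Fintype.card F ^ 13 + Fintype.card F ^ 11 + Fintype.card F ^ 9 +
        Fintype.card F ^ 7 + Fintype.card F ^ 5 + Fintype.card F - 1 := by omega
    have h5 := CharCentral.finrank_dvd_card σ
    rw [h4, card_St7 F _ rfl] at h5
    exact MinDegArith.ndvd7 _ hq h5

theorem min_E8 (F : Type v) [Field F] [Fintype F] {V : Type u} [AddCommGroup V] [Module ℂ V] [FiniteDimensional ℂ V]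
    {σ : Representation ℂ (chevE8.group F) V} (hσ : σ.IsIrreducible) (h2' : 2 ≤ Module.finrank ℂ V) :
    Fintype.card F * (Fintype.card F ^ 12 + 1) * (Fintype.card F ^ 10 + 1) * (Fintype.card F ^ 6 + 1) ≤
      Module.finrank ℂ V := by
  classical
  have hg := nontriv_of_two hσ h2'
  have hq : 2 ≤ Fintype.card F := Fintype.one_lt_card
  have hgen := Cfsg.Agent.Lib.UCEFinal.group_gen (K := F) ChevOkE8.good
  rcases E8_case (stdSys ChevOkE8.good F) (ρ := σ) hgen hg with h | ⟨h1, h2⟩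
  · exact MinDegArith.big8 _ hq _ h
  · obtain ⟨φ, hφ⟩ := Cfsg.Agent.Lib.UCEFinal.exists_hom ChevOkE7.good
      (embSys emb78 ChevOkE7.good pairOK_E7 (stdSys ChevOkE8.good F))
      (embSys_R3 emb78 ChevOkE7.good pairOK_E7 (Cfsg.Agent.Lib.UCEFinal.std_R3 ChevOkE8.good))
    obtain ⟨l, hl⟩ := exists_char F
    have hmul : LinearMap.trace ℂ V (EE σ (stdSys ChevOkE8.good F) p8 l *
        AV σ (stdSys ChevOkE8.good F) ((X8 F).W (X8 F).N)) ≠ 0 := by
      rw [h2 l hl]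
      exact pow_ne_zero _ (by exact_mod_cast Fintype.card_ne_zero)
    have hp0 : (X8 F).f p8 = 0 := e78_f 125 (by norm_num)
    obtain ⟨c, hc, hM⟩ := levi_bound pairOK_E8 (stdSys ChevOkE8.good F) (X := X8 F) (p := p8) hp0 hl hmul φ
      (Cfsg.Agent.Lib.UCEFinal.st_gen (D := chevE7) (K := F))
      (by
        rintro _ ⟨r, hr, t, rfl⟩
        exact ⟨⟨e78.getD r 0, emb_lt emb78 hr⟩, e78_f r hr, t, hφ r hr t⟩)
      (fun t => ⟨chevE7.stGen F 125 t, hφ 125 (by decide) t⟩) (minRep_E7 F)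
    rw [hc] at h1
    have h3 : Module.finrank ℂ V + Fintype.card F ^ 9 + Fintype.card F ^ 5 + 1 =
        c + Fintype.card F ^ 29 + Fintype.card F ^ 23 + Fintype.card F ^ 19 := by
      have : ((Module.finrank ℂ V + Fintype.card F ^ 9 + Fintype.card F ^ 5 + 1 : ℕ) : ℂ) =
        ((c + Fintype.card F ^ 29 + Fintype.card F ^ 23 + Fintype.card F ^ 19 : ℕ) : ℂ) := by
        push_cast
        rw [h1]; ring
      exact_mod_cast this
    rw [MinDegArith.tgt8]
    by_contra hcon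
    have h4 : Module.finrank ℂ V = Fintype.card F ^ 29 + Fintype.card F ^ 23 + Fintype.card F ^ 19 + Fintype.card F ^ 17 +
        Fintype.card F ^ 13 + Fintype.card F ^ 11 + Fintype.card F ^ 7 + Fintype.card F - 1 := by omega
    have h5 := CharCentral.finrank_dvd_card σ
    rw [h4, Cfsg.Agent.S1065.result (F := F) rfl] at h5
    exact MinDegArith.ndvd8 _ hq h5

end Cfsg.Agent.Lib.MinDegN
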