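import Cfsg.Agent.Lib.MinDegJ
import Cfsg.Agent.Lib.UCESymbol

/-!
Weight projections parametrized by the field; weight multiplicities of systems of type A2 (helper18).
-/

set_option autoImplicit false
set_option linter.unusedSectionVars false

namespace Cfsg.Agent.Lib.MinG2A

open Cfsg.Agent.Lib.UCEBase Cfsg.Agent.Lib.UCESymbol
open Cfsg.Agent.Lib.WeightProj Cfsg.Agent.Lib.MinDegA

section basic

variable {F : Type*} [Field F] [Fintype F] {Q : Type*} [Group Q]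
  {V : Type*} [AddCommGroup V] [Module ℂ V] (ρ : Representation ℂ Q V) (ψ : AddChar F ℂ)

/-- the projection to the weight `t ↦ ψ (a t)` of the root group `x` -/
noncomputable def pr (x : F → Q) (a : F) : Module.End ℂ V := Er ρ x (AddChar.mulShift ψ a)

variable {ρ ψ} (hψ : ψ ≠ 1) {x x' : F → Q} (hx : ∀ t u, x t * x u = x (t + u))

include hx

theorem pr_self (a : F) : pr ρ ψ x a * pr ρ ψ x a = pr ρ ψ x a := Er_mul_self hx _

theorem mul_pr (a t : F) : ρ (x t) * pr ρ ψ x a = ψ (a * t) • pr ρ ψ x a := by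
  unfold pr; rw [mul_Er hx, AddChar.mulShift_apply]

theorem pr_mul (a t : F) : pr ρ ψ x a * ρ (x t) = ψ (a * t) • pr ρ ψ x a := by
  unfold pr; rw [Er_mul hx, AddChar.mulShift_apply]

theorem fix_pr (t : F) : ρ (x t) * pr ρ ψ x 0 = pr ρ ψ x 0 := by
  rw [mul_pr hx, zero_mul, AddChar.map_zero_eq_one, one_smul]

include hψ

omit hx in
theorem shift_inj {a b : F} (h : AddChar.mulShift ψ a = AddChar.mulShift ψ b) : a = b :=
  AddChar.to_mulShift_inj_of_isPrimitive (AddChar.IsPrimitive.of_ne_one hψ) h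

omit hx in
theorem shift_bij : Function.Bijective (fun a : F => AddChar.mulShift ψ a) :=
  ⟨fun _ _ h => shift_inj hψ h, fun l => mulShift_surj hψ l⟩

omit hx in
theorem shift_ne {a : F} (ha : a ≠ 0) : AddChar.mulShift ψ a ≠ 1 := by
  intro h
  apply ha
  apply shift_inj hψ
  rw [h, AddChar.mulShift_zero]

theorem pr_ne {a b : F} (h : a ≠ b) : pr ρ ψ x a * pr ρ ψ x b = 0 :=
  Er_mul_ne hx (fun e => h (shift_inj hψ e))

theorem sum_pr : ∑ a, pr ρ ψ x a = 1 := by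
  rw [← sum_Er (ρ := ρ) hx]
  exact Fintype.sum_bijective _ (shift_bij hψ) _ _ (fun a => rfl)

omit hψ hx in
theorem pr_comm {A : Module.End ℂ V} (h : ∀ t, A * ρ (x t) = ρ (x t) * A) (a : F) :
    A * pr ρ ψ x a = pr ρ ψ x a * A := comm_Er h _

omit hψ hx in
theorem pr_conj {g : Q} {c : F} (hc : c ≠ 0) (h : ∀ t, g * x t * g⁻¹ = x' (c * t)) (a : F) :
    ρ g * pr ρ ψ x a = pr ρ ψ x' (a * c⁻¹) * ρ g := by
  unfold pr Er E
  rw [mul_smul_comm, smul_mul_assoc, Finset.mul_sum, Finset.sum_mul]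
  congr 1
  refine Fintype.sum_bijective (fun t => c * t) (mulLeft_bijective₀ c hc) _ _ (fun t => ?_)
  rw [mul_smul_comm, smul_mul_assoc, ← map_mul, ← map_mul, ← h, AddChar.mulShift_apply, AddChar.mulShift_apply,
    inv_mul_cancel_right]
  congr 2
  field_simp

omit hψ hx in
/-- conjugation with a trivial weight -/
theorem pr_conj0 {g : Q} {c : F} (hc : c ≠ 0) (h : ∀ t, g * x t * g⁻¹ = x' (c * t)) :
    ρ g * pr ρ ψ x 0 = pr ρ ψ x' 0 * ρ g := by
  rw [pr_conj hc h, zero_mul]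

omit hψ hx in
theorem tr_conj [FiniteDimensional ℂ V] {g : Q} {P P' : Module.End ℂ V} (h : ρ g * P = P' * ρ g) :
    LinearMap.trace ℂ V P = LinearMap.trace ℂ V P' := by
  have hg : ρ g⁻¹ * ρ g = 1 := by rw [← map_mul, inv_mul_cancel, map_one]
  exact trace_conj_eq hg h

omit hψ hx in
theorem mul_conj {g : Q} {P P' R R' : Module.End ℂ V} (h : ρ g * P = P' * ρ g) (h' : ρ g * R = R' * ρ g) :
    ρ g * (P * R) = P' * R' * ρ g := by
  rw [← mul_assoc, h, mul_assoc, h', mul_assoc]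

variable [FiniteDimensional ℂ V]

omit hx in
theorem pr_free {xs xr xt : F → Q} (hr : ∀ t u, xr t * xr u = xr (t + u)) (ht : ∀ t u, xt t * xt u = xt (t + u)) {n : F}
    (hn : n ≠ 0) (hsr : ∀ a b, xs a * xr b * (xs a)⁻¹ = xr b * xt (n * a * b)) (hst : ∀ a b, xs a * xt b = xt b * xs a)
    {c : F} (hc : c ≠ 0) {A : Module.End ℂ V} (hA : ∀ a, ρ (xs a) * A = A * ρ (xs a)) (a a' : F) :
    LinearMap.trace ℂ V (pr ρ ψ xr a * pr ρ ψ xt c * A) = LinearMap.trace ℂ V (pr ρ ψ xr a' * pr ρ ψ xt c * A) :=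
  trace_free hr ht hn hsr hst (shift_ne hψ hc) hA _ _

omit hx in
theorem pr_free_sum {xs xr xt : F → Q} (hr : ∀ t u, xr t * xr u = xr (t + u)) (ht : ∀ t u, xt t * xt u = xt (t + u)) {n : F}
    (hn : n ≠ 0) (hsr : ∀ a b, xs a * xr b * (xs a)⁻¹ = xr b * xt (n * a * b)) (hst : ∀ a b, xs a * xt b = xt b * xs a)
    {c : F} (hc : c ≠ 0) {A : Module.End ℂ V} (hA : ∀ a, ρ (xs a) * A = A * ρ (xs a)) (a : F) :
    LinearMap.trace ℂ V (pr ρ ψ xt c * A) = Fintype.card F * LinearMap.trace ℂ V (pr ρ ψ xr a * pr ρ ψ xt c * A) :=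
  trace_free_sum hr ht hn hsr hst (shift_ne hψ hc) hA _

omit hψ hx in
/-- the multiplicity -/
theorem tr_rank {P : Module.End ℂ V} (hP : P * P = P) :
    LinearMap.trace ℂ V P = Module.finrank ℂ (LinearMap.range P) :=
  (LinearMap.IsIdempotentElem.isProj_range P (show IsIdempotentElem P from hP)).trace

end basic

/-! ### systems of type A2 -/

section A2

variable {F : Type*} [Field F] [Fintype F] {Γ : Type*} [Group Γ] (S : St3 F Γ)
  {V : Type*} [AddCommGroup V] [Module ℂ V] (σ : Representation ℂ Γ V) (ψ : AddChar F ℂ)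

theorem h_kj {i j k : Fin 3} (h1 : i ≠ j) (h2 : j ≠ k) (h3 : i ≠ k) {u : F} (hu : u ≠ 0) (t : F) :
    S.h i j u * S.y k j t * (S.h i j u)⁻¹ = S.y k j (u * t) := by
  unfold St3.h
  have : S.w i j u * S.w i j (-1) * S.y k j t * (S.w i j u * S.w i j (-1))⁻¹ =
      S.w i j u * (S.w i j (-1) * S.y k j t * (S.w i j (-1))⁻¹) * (S.w i j u)⁻¹ := by group
  rw [this, S.w_kj h1 h2 h3 (neg_ne_zero.mpr one_ne_zero), S.w_ki h1 h2 h3 hu]
  congr 1
  rw [inv_neg, inv_one]; ring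

theorem h_jk {i j k : Fin 3} (h1 : i ≠ j) (h2 : j ≠ k) (h3 : i ≠ k) {u : F} (hu : u ≠ 0) (t : F) :
    S.h i j u * S.y j k t * (S.h i j u)⁻¹ = S.y j k (u⁻¹ * t) := by
  unfold St3.h
  have : S.w i j u * S.w i j (-1) * S.y j k t * (S.w i j u * S.w i j (-1))⁻¹ =
      S.w i j u * (S.w i j (-1) * S.y j k t * (S.w i j (-1))⁻¹) * (S.w i j u)⁻¹ := by group
  rw [this, S.w_jk h1 h2 h3 (neg_ne_zero.mpr one_ne_zero), S.w_ik h1 h2 h3 hu]
  congr 1
  ring

theorem h_ij {i j k : Fin 3} (h1 : i ≠ j) (h2 : j ≠ k) (h3 : i ≠ k) {u : F} (hu : u ≠ 0) (t : F) :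
    S.h i j u * S.y i j t * (S.h i j u)⁻¹ = S.y i j (u * u * t) := by
  unfold St3.h
  have : S.w i j u * S.w i j (-1) * S.y i j t * (S.w i j u * S.w i j (-1))⁻¹ =
      S.w i j u * (S.w i j (-1) * S.y i j t * (S.w i j (-1))⁻¹) * (S.w i j u)⁻¹ := by group
  rw [this, S.w_ij h1 h2 h3 (neg_ne_zero.mpr one_ne_zero), S.w_ji h1 h2 h3 hu]
  congr 1
  rw [inv_neg, inv_one]; ring

/-- the weight projection for the Sylow subgroup -/
noncomputable def PP (a b : F) : Module.End ℂ V := pr σ ψ (S.y 0 1) a * pr σ ψ (S.y 1 2) b * pr σ ψ (S.y 0 2) 0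

/-- the multiplicity of a linear weight of the Sylow subgroup -/
noncomputable def mm (a b : F) : ℕ := Module.finrank ℂ (LinearMap.range (PP S σ ψ a b))

variable {S σ ψ}

theorem c0 (t u : F) : S.y 0 1 t * S.y 0 2 u = S.y 0 2 u * S.y 0 1 t := S.row 0 1 2 (by decide) (by decide) (by decide) t u
theorem c1 (t u : F) : S.y 1 2 t * S.y 0 2 u = S.y 0 2 u * S.y 1 2 t :=
  (S.col 0 1 2 (by decide) (by decide) (by decide) u t).symm
theorem a01 (t u : F) : S.y 0 1 t * S.y 0 1 u = S.y 0 1 (t + u) := S.add 0 1 (by decide) t u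
theorem a12 (t u : F) : S.y 1 2 t * S.y 1 2 u = S.y 1 2 (t + u) := S.add 1 2 (by decide) t u
theorem a02 (t u : F) : S.y 0 2 t * S.y 0 2 u = S.y 0 2 (t + u) := S.add 0 2 (by decide) t u

theorem r01_Z (t : F) (c : F) : σ (S.y 0 1 t) * pr σ ψ (S.y 0 2) c = pr σ ψ (S.y 0 2) c * σ (S.y 0 1 t) :=
  pr_comm (fun u => by rw [← map_mul, ← map_mul, c0]) c
theorem r12_Z (t : F) (c : F) : σ (S.y 1 2 t) * pr σ ψ (S.y 0 2) c = pr σ ψ (S.y 0 2) c * σ (S.y 1 2 t) :=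
  pr_comm (fun u => by rw [← map_mul, ← map_mul, c1]) c

theorem k01_Z (a c : F) : pr σ ψ (S.y 0 1) a * pr σ ψ (S.y 0 2) c = pr σ ψ (S.y 0 2) c * pr σ ψ (S.y 0 1) a :=
  (pr_comm (fun t => (r01_Z t c).symm) a).symm
theorem k12_Z (a c : F) : pr σ ψ (S.y 1 2) a * pr σ ψ (S.y 0 2) c = pr σ ψ (S.y 0 2) c * pr σ ψ (S.y 1 2) a :=
  (pr_comm (fun t => (r12_Z t c).symm) a).symm

/-- modulo the centre the two simple root groups commute -/
theorem r01_12 (t u : F) : σ (S.y 0 1 t) * (σ (S.y 1 2 u) * pr σ ψ (S.y 0 2) 0) =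
    σ (S.y 1 2 u) * (σ (S.y 0 1 t) * pr σ ψ (S.y 0 2) 0) := by
  have h := S.conjL (i := 0) (j := 1) (k := 2) (by decide) (by decide) (by decide) t u
  have h1 : S.y 0 1 t * S.y 1 2 u = S.y 1 2 u * S.y 0 1 t * S.y 0 2 (t * u) := by
    rw [mul_assoc, c0, ← mul_assoc, ← h]; group
  rw [← mul_assoc, ← map_mul, h1, map_mul, map_mul, mul_assoc, mul_assoc, fix_pr a02]

theorem pr_commZ {x : F → Γ} {A Z : Module.End ℂ V} (h : ∀ u, A * (σ (x u) * Z) = σ (x u) * (A * Z)) (b : F) :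
    A * (pr σ ψ x b * Z) = pr σ ψ x b * (A * Z) := by
  unfold pr Er E
  simp only [smul_mul_assoc, mul_smul_comm, Finset.sum_mul, Finset.mul_sum, h]

theorem k01_12 (a b : F) : pr σ ψ (S.y 0 1) a * (pr σ ψ (S.y 1 2) b * pr σ ψ (S.y 0 2) 0) =
    pr σ ψ (S.y 1 2) b * (pr σ ψ (S.y 0 1) a * pr σ ψ (S.y 0 2) 0) := by
  have h1 : ∀ t, σ (S.y 0 1 t) * (pr σ ψ (S.y 1 2) b * pr σ ψ (S.y 0 2) 0) =
      pr σ ψ (S.y 1 2) b * (σ (S.y 0 1 t) * pr σ ψ (S.y 0 2) 0) := fun t => pr_commZ (fun u => r01_12 t u) b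
  exact (pr_commZ (fun t => (h1 t).symm) a).symm

theorem PP_self (a b : F) : PP S σ ψ a b * PP S σ ψ a b = PP S σ ψ a b := by
  unfold PP
  have e : pr σ ψ (S.y 0 1) a * pr σ ψ (S.y 1 2) b * pr σ ψ (S.y 0 2) 0 =
      (pr σ ψ (S.y 1 2) b * pr σ ψ (S.y 0 1) a) * pr σ ψ (S.y 0 2) 0 := by
    rw [mul_assoc, k01_12, mul_assoc]
  calc (pr σ ψ (S.y 0 1) a * pr σ ψ (S.y 1 2) b * pr σ ψ (S.y 0 2) 0) *
        (pr σ ψ (S.y 0 1) a * pr σ ψ (S.y 1 2) b * pr σ ψ (S.y 0 2) 0) =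
      pr σ ψ (S.y 0 1) a * pr σ ψ (S.y 1 2) b * (pr σ ψ (S.y 0 2) 0 * (pr σ ψ (S.y 0 1) a * pr σ ψ (S.y 1 2) b)) *
        pr σ ψ (S.y 0 2) 0 := by noncomm_ring
    _ = pr σ ψ (S.y 0 1) a * pr σ ψ (S.y 1 2) b * (pr σ ψ (S.y 0 1) a * pr σ ψ (S.y 1 2) b) *
        (pr σ ψ (S.y 0 2) 0 * pr σ ψ (S.y 0 2) 0) := by
        rw [← mul_assoc (pr σ ψ (S.y 0 2) 0), ← k01_Z, mul_assoc (pr σ ψ (S.y 0 1) a) (pr σ ψ (S.y 0 2) 0), ← k12_Z]
        noncomm_ring
    _ = pr σ ψ (S.y 0 1) a * pr σ ψ (S.y 1 2) b * (pr σ ψ (S.y 0 1) a * pr σ ψ (S.y 1 2) b * pr σ ψ (S.y 0 2) 0) := by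
        rw [pr_self a02, mul_assoc]
    _ = pr σ ψ (S.y 0 1) a * (pr σ ψ (S.y 1 2) b * pr σ ψ (S.y 1 2) b) * pr σ ψ (S.y 0 1) a * pr σ ψ (S.y 0 2) 0 := by
        rw [e]; noncomm_ring
    _ = pr σ ψ (S.y 0 1) a * (pr σ ψ (S.y 1 2) b * pr σ ψ (S.y 0 1) a * pr σ ψ (S.y 0 2) 0) := by
        rw [pr_self a12]; noncomm_ring
    _ = (pr σ ψ (S.y 0 1) a * pr σ ψ (S.y 0 1) a) * pr σ ψ (S.y 1 2) b * pr σ ψ (S.y 0 2) 0 := by
        rw [← e]; noncomm_ring
    _ = _ := by rw [pr_self a01]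

variable [FiniteDimensional ℂ V] (hψ : ψ ≠ 1)

theorem tr_PP (a b : F) : LinearMap.trace ℂ V (PP S σ ψ a b) = mm S σ ψ a b := tr_rank (PP_self a b)

theorem mm_h02 {u : F} (hu : u ≠ 0) (a b : F) : mm S σ ψ a b = mm S σ ψ (a * u⁻¹) (b * u⁻¹) := by
  have h : LinearMap.trace ℂ V (PP S σ ψ a b) = LinearMap.trace ℂ V (PP S σ ψ (a * u⁻¹) (b * u⁻¹)) := by
    apply tr_conj (g := S.h 0 2 u)
    unfold PP
    exact mul_conj (mul_conj (pr_conj hu (fun t => S.h_ik (i := 0) (j := 2) (k := 1) (by decide) (by decide) (by decide) hu t) a)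
      (pr_conj hu (fun t => h_kj S (i := 0) (j := 2) (k := 1) (by decide) (by decide) (by decide) hu t) b))
      (pr_conj0 (mul_ne_zero hu hu) (fun t => h_ij S (k := 1) (by decide) (by decide) (by decide) hu t))
  rw [tr_PP, tr_PP] at h
  exact_mod_cast h

theorem mm_h01 {u : F} (hu : u ≠ 0) (a b : F) : mm S σ ψ a b = mm S σ ψ (a * (u * u)⁻¹) (b * u) := by
  have h : LinearMap.trace ℂ V (PP S σ ψ a b) = LinearMap.trace ℂ V (PP S σ ψ (a * (u * u)⁻¹) (b * u)) := by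
    apply tr_conj (g := S.h 0 1 u)
    unfold PP
    refine mul_conj (mul_conj (pr_conj (mul_ne_zero hu hu) (fun t => h_ij S (k := 2) (by decide) (by decide) (by decide) hu t) a)
      ?_) (pr_conj0 hu (fun t => S.h_ik (i := 0) (j := 1) (k := 2) (by decide) (by decide) (by decide) hu t))
    have := pr_conj (ρ := σ) (ψ := ψ) (inv_ne_zero hu) (fun t => h_jk S (i := 0) (j := 1) (k := 2) (by decide) (by decide) (by decide) hu t) b
    rwa [inv_inv] at this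
  rw [tr_PP, tr_PP] at h
  exact_mod_cast h

/-- cubes -/
theorem mm_cube {u : F} (hu : u ≠ 0) (a b : F) : mm S σ ψ (a * (u * u * u)) b = mm S σ ψ a b := by
  rw [mm_h01 hu, mm_h02 hu]
  congr 1
  · field_simp
  · field_simp

theorem mm_b {b b' : F} (hb : b ≠ 0) (hb' : b' ≠ 0) : mm S σ ψ 0 b = mm S σ ψ 0 b' := by
  have := mm_h02 (S := S) (σ := σ) (ψ := ψ) (u := b * b'⁻¹) (mul_ne_zero hb (inv_ne_zero hb')) 0 b
  rw [this, zero_mul]
  congr 1
  field_simp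

theorem mm_a {a a' : F} (ha : a ≠ 0) (ha' : a' ≠ 0) : mm S σ ψ a 0 = mm S σ ψ a' 0 := by
  have := mm_h02 (S := S) (σ := σ) (ψ := ψ) (u := a * a'⁻¹) (mul_ne_zero ha (inv_ne_zero ha')) a 0
  rw [this, zero_mul]
  congr 1
  field_simp

/-- the multiplicity of a nontrivial weight of the highest root group, divided by `q` -/
noncomputable def d1 (S : St3 F Γ) (σ : Representation ℂ Γ V) (ψ : AddChar F ℂ) : ℕ :=
  Module.finrank ℂ (LinearMap.range (pr σ ψ (S.y 0 1) 0 * pr σ ψ (S.y 0 2) 1))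

theorem tr_d1 : LinearMap.trace ℂ V (pr σ ψ (S.y 0 1) 0 * pr σ ψ (S.y 0 2) 1) = d1 S σ ψ :=
  tr_rank (MinDegC.idem_mul (pr_self a01 0) (pr_self a02 1) (k01_Z 0 1))

include hψ

theorem tr02 {c : F} (hc : c ≠ 0) : LinearMap.trace ℂ V (pr σ ψ (S.y 0 2) c) = Fintype.card F * (d1 S σ ψ : ℂ) := by
  have h1 : LinearMap.trace ℂ V (pr σ ψ (S.y 0 2) c) = LinearMap.trace ℂ V (pr σ ψ (S.y 0 2) 1) := by
    apply tr_conj (g := S.h 0 1 c)
    have := pr_conj (ρ := σ) (ψ := ψ) (x := S.y 0 2) (x' := S.y 0 2) hc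
      (fun t => S.h_ik (i := 0) (j := 1) (by decide) (by decide) (by decide) hc t) c
    rwa [mul_inv_cancel₀ hc] at this
  rw [h1, ← tr_d1]
  have h2 := pr_free_sum (ρ := σ) hψ (xs := S.y 1 2) (xr := S.y 0 1) (xt := S.y 0 2) a01 a02 (n := -1) (by norm_num)
    (fun a b => by
      rw [S.conjR (i := 0) (j := 1) (k := 2) (by decide) (by decide) (by decide)]
      congr 2; ring) c1 (c := 1) one_ne_zero (A := 1) (fun a => by rw [one_mul, mul_one]) 0
  rw [mul_one, mul_one] at h2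
  exact h2

theorem tr01_02 {a : F} (ha : a ≠ 0) :
    LinearMap.trace ℂ V (pr σ ψ (S.y 0 1) a * pr σ ψ (S.y 0 2) 0) = d1 S σ ψ := by
  have hq : (Fintype.card F : ℂ) ≠ 0 := by exact_mod_cast Fintype.card_ne_zero
  have h1 : LinearMap.trace ℂ V (pr σ ψ (S.y 0 1) a * pr σ ψ (S.y 0 2) 0) =
      LinearMap.trace ℂ V (pr σ ψ (S.y 0 2) (-a) * pr σ ψ (S.y 0 1) 0) := by
    apply tr_conj (g := S.w 1 2 1)
    refine mul_conj ?_ (pr_conj0 (c := 1) one_ne_zero (fun t => ?_))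
    · have := pr_conj (ρ := σ) (ψ := ψ) (x := S.y 0 1) (x' := S.y 0 2) (g := S.w 1 2 1) (c := -1) (by norm_num)
        (fun t => by rw [S.w_ki (i := 1) (j := 2) (k := 0) (by decide) (by decide) (by decide) one_ne_zero]; congr 1; ring) a
      rwa [inv_neg, inv_one, mul_neg, mul_one] at this
    · rw [S.w_kj (i := 1) (j := 2) (k := 0) (by decide) (by decide) (by decide) one_ne_zero, inv_one]
  have h2 := pr_free_sum (ρ := σ) hψ (xs := S.y 1 2) (xr := S.y 0 1) (xt := S.y 0 2) a01 a02 (n := -1) (by norm_num)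
    (fun a b => by
      rw [S.conjR (i := 0) (j := 1) (k := 2) (by decide) (by decide) (by decide)]
      congr 2; ring) c1 (c := -a) (neg_ne_zero.mpr ha) (A := 1) (fun a => by rw [one_mul, mul_one]) 0
  rw [mul_one, mul_one, tr02 hψ (neg_ne_zero.mpr ha)] at h2
  rw [h1, ← k01_Z]
  exact (mul_left_cancel₀ hq h2).symm

theorem tr12_02 {b : F} (hb : b ≠ 0) :
    LinearMap.trace ℂ V (pr σ ψ (S.y 1 2) b * pr σ ψ (S.y 0 2) 0) = d1 S σ ψ := by
  have hq : (Fintype.card F : ℂ) ≠ 0 := by exact_mod_cast Fintype.card_ne_zero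
  have h1 : LinearMap.trace ℂ V (pr σ ψ (S.y 1 2) b * pr σ ψ (S.y 0 2) 0) =
      LinearMap.trace ℂ V (pr σ ψ (S.y 0 2) b * pr σ ψ (S.y 1 2) 0) := by
    apply tr_conj (g := S.w 0 1 1)
    refine mul_conj ?_ (pr_conj0 (c := -1) (by norm_num) (fun t => ?_))
    · have := pr_conj (ρ := σ) (ψ := ψ) (x := S.y 1 2) (x' := S.y 0 2) (g := S.w 0 1 1) (c := 1) one_ne_zero
        (fun t => by rw [S.w_jk (i := 0) (j := 1) (k := 2) (by decide) (by decide) (by decide) one_ne_zero]) b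
      rwa [inv_one, mul_one] at this
    · rw [S.w_ik (i := 0) (j := 1) (k := 2) (by decide) (by decide) (by decide) one_ne_zero, inv_one]; congr 1; ring
  have h2 := pr_free_sum (ρ := σ) hψ (xs := S.y 0 1) (xr := S.y 1 2) (xt := S.y 0 2) a12 a02 (n := 1) (by norm_num)
    (fun a b => by
      rw [S.conjL (i := 0) (j := 1) (k := 2) (by decide) (by decide) (by decide)]
      congr 2; ring) c0 (c := b) hb (A := 1) (fun a => by rw [one_mul, mul_one]) 0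
  rw [mul_one, mul_one, tr02 hψ hb] at h2
  rw [h1, ← k12_Z]
  exact (mul_left_cancel₀ hq h2).symm

theorem sum_b {a : F} (ha : a ≠ 0) : ∑ b, mm S σ ψ a b = d1 S σ ψ := by
  have h : (∑ b, (mm S σ ψ a b : ℂ)) = d1 S σ ψ := by
    rw [← tr01_02 hψ ha]
    have e : pr σ ψ (S.y 0 1) a * pr σ ψ (S.y 0 2) 0 = ∑ b, PP S σ ψ a b := by
      unfold PP
      rw [← Finset.sum_mul, ← Finset.mul_sum, sum_pr hψ a12, mul_one]
    rw [e, map_sum]
    exact Finset.sum_congr rfl (fun b _ => (tr_PP a b).symm)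
  exact_mod_cast h

theorem sum_a {b : F} (hb : b ≠ 0) : ∑ a, mm S σ ψ a b = d1 S σ ψ := by
  have h : (∑ a, (mm S σ ψ a b : ℂ)) = d1 S σ ψ := by
    rw [← tr12_02 hψ hb]
    have e : pr σ ψ (S.y 1 2) b * pr σ ψ (S.y 0 2) 0 = ∑ a, PP S σ ψ a b := by
      unfold PP
      rw [← Finset.sum_mul, ← Finset.sum_mul, sum_pr hψ a01, one_mul]
    rw [e, map_sum]
    exact Finset.sum_congr rfl (fun b _ => (tr_PP _ _).symm)
  exact_mod_cast h

theorem tr_Z0 : LinearMap.trace ℂ V (pr σ ψ (S.y 0 2) 0) = ∑ a, ∑ b, (mm S σ ψ a b : ℂ) := by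
  have e : pr σ ψ (S.y 0 2) 0 = ∑ a, ∑ b, PP S σ ψ a b := by
    have e1 : ∀ a, ∑ b, PP S σ ψ a b = pr σ ψ (S.y 0 1) a * pr σ ψ (S.y 0 2) 0 := fun a => by
      unfold PP
      rw [← Finset.sum_mul, ← Finset.mul_sum, sum_pr hψ a12, mul_one]
    rw [Finset.sum_congr rfl (fun a _ => e1 a), ← Finset.sum_mul, sum_pr hψ a01, one_mul]
  rw [e, map_sum]
  refine Finset.sum_congr rfl (fun a _ => ?_)
  rw [map_sum]
  exact Finset.sum_congr rfl (fun b _ => tr_PP a b)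

/-- the dimension formula -/
theorem dim_formula [DecidableEq F] : Module.finrank ℂ V + (d1 S σ ψ + mm S σ ψ 0 1) =
    Fintype.card F * Fintype.card F * d1 S σ ψ + Fintype.card F * mm S σ ψ 0 1 + mm S σ ψ 0 0 := by
  have h : (Module.finrank ℂ V : ℂ) = ((Fintype.card F - 1 : ℕ) : ℂ) * (Fintype.card F * d1 S σ ψ) +
      (((Fintype.card F - 1 : ℕ) : ℂ) * d1 S σ ψ + (((Fintype.card F - 1 : ℕ) : ℂ) * mm S σ ψ 0 1 + mm S σ ψ 0 0)) := by
    have e1 : (Module.finrank ℂ V : ℂ) = LinearMap.trace ℂ V 1 := (LinearMap.trace_one (R := ℂ) (M := V)).symm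
    rw [e1, ← sum_pr (ρ := σ) hψ (x := S.y 0 2) a02, map_sum, ← Finset.sum_erase_add _ _ (Finset.mem_univ (0 : F)),
      Finset.sum_congr rfl (fun c hc => tr02 hψ (Finset.ne_of_mem_erase hc)), Finset.sum_const,
      Finset.card_erase_of_mem (Finset.mem_univ _), Finset.card_univ, nsmul_eq_mul, tr_Z0 hψ]
    congr 1
    rw [← Finset.sum_erase_add _ _ (Finset.mem_univ (0 : F))]
    congr 1
    · have : ∀ a ∈ Finset.univ.erase (0 : F), ∑ b, (mm S σ ψ a b : ℂ) = d1 S σ ψ := fun a ha => by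
        exact_mod_cast sum_b hψ (Finset.ne_of_mem_erase ha)
      rw [Finset.sum_congr rfl this, Finset.sum_const,
        Finset.card_erase_of_mem (Finset.mem_univ _), Finset.card_univ, nsmul_eq_mul]
    · rw [← Finset.sum_erase_add _ _ (Finset.mem_univ (0 : F))]
      congr 1
      have : ∀ b ∈ Finset.univ.erase (0 : F), (mm S σ ψ 0 b : ℂ) = mm S σ ψ 0 1 := fun b hb => by
        rw [mm_b (Finset.ne_of_mem_erase hb) one_ne_zero]
      rw [Finset.sum_congr rfl this, Finset.sum_const,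
        Finset.card_erase_of_mem (Finset.mem_univ _), Finset.card_univ, nsmul_eq_mul]
  have hc : ((Fintype.card F - 1 : ℕ) : ℂ) = (Fintype.card F : ℂ) - 1 := by
    rw [Nat.cast_sub Fintype.card_pos, Nat.cast_one]
  rw [hc] at h
  have : ((Module.finrank ℂ V + (d1 S σ ψ + mm S σ ψ 0 1) : ℕ) : ℂ) =
      ((Fintype.card F * Fintype.card F * d1 S σ ψ + Fintype.card F * mm S σ ψ 0 1 + mm S σ ψ 0 0 : ℕ) : ℂ) := by
    push_cast
    rw [h]; ring
  exact_mod_cast this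

end A2

end Cfsg.Agent.Lib.MinG2A
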