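import Mathlib

/-!
Arithmetic for the minimal degree of G2(q) (helper18).
-/

set_option autoImplicit false

namespace Cfsg.Agent.Lib.MinG2Arith

theorem nd (N D R Qt c : ℤ) (e : c * N = D * Qt + R) (hR : R ≠ 0) (hlt : |R| < D) : ¬ D ∣ c * N := by
  intro h
  rw [e] at h
  have h2 := (Int.dvd_add_right (Dvd.intro _ rfl)).mp h
  have := Int.le_of_dvd (abs_pos.mpr hR) ((dvd_abs _ _).mpr h2)
  omega

set_option maxRecDepth 100000 in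
theorem small10 : ∀ y < 40, (y + 7) % 3 = 1 → y ≠ 3 → 3 * (((y + 7) ^ 3 * ((y + 7) ^ 2 - 1) * ((y + 7) ^ 3 - 1))) %
    ((y + 7) ^ 3 + 2 * (y + 7) ^ 2 + 2 * (y + 7) - 5) ≠ 0 := by decide +kernel

set_option maxRecDepth 100000 in
theorem small11 : ∀ y < 40, (y + 7) % 3 = 1 → 3 * (((y + 7) ^ 3 * ((y + 7) ^ 2 - 1) * ((y + 7) ^ 3 - 1))) %
    ((y + 7) ^ 3 + 2 * (y + 7) ^ 2 + 2 * (y + 7) - 2) ≠ 0 := by decide +kernel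

set_option maxRecDepth 100000 in
theorem small20 : ∀ y < 600, (y + 7) % 3 = 1 → 3 * (((y + 7) ^ 3 * ((y + 7) ^ 2 - 1) * ((y + 7) ^ 3 - 1))) %
    (2 * (y + 7) ^ 3 + (y + 7) ^ 2 + (y + 7) - 4) ≠ 0 := by decide +kernel

theorem cast_N (q : ℕ) (hq : 7 ≤ q) : ((q ^ 3 * (q ^ 2 - 1) * (q ^ 3 - 1) : ℕ) : ℤ) =
    (q : ℤ) ^ 3 * ((q : ℤ) ^ 2 - 1) * ((q : ℤ) ^ 3 - 1) := by
  have h1 : ∀ d, 1 ≤ q ^ d := fun d => Nat.one_le_pow _ _ (by omega)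
  rw [Nat.cast_mul, Nat.cast_mul, Nat.cast_sub (h1 _), Nat.cast_sub (h1 _)]
  push_cast
  ring

theorem to_int {k q c : ℕ} (hq : 7 ≤ q) (h : k ∣ q ^ 3 * (q ^ 2 - 1) * (q ^ 3 - 1)) :
    ((c * k : ℕ) : ℤ) ∣ (c : ℤ) * ((q : ℤ) ^ 3 * ((q : ℤ) ^ 2 - 1) * ((q : ℤ) ^ 3 - 1)) := by
  rw [← cast_N q hq, ← Nat.cast_mul]
  exact Int.natCast_dvd_natCast.mpr (Nat.mul_dvd_mul_left c h)

theorem nd10 (q k : ℕ) (hq : 7 ≤ q) (h3 : q % 3 = 1) (h10 : q ≠ 10) (hk : 3 * k + 5 = q ^ 3 + 2 * q ^ 2 + 2 * q) :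
    ¬ k ∣ q ^ 3 * (q ^ 2 - 1) * (q ^ 3 - 1) := by
  intro h
  rcases Nat.lt_or_ge q 47 with h1 | h1
  · obtain ⟨y, rfl⟩ := Nat.exists_eq_add_of_le' hq
    apply small10 y (by omega) h3 (by omega)
    have : (y + 7) ^ 3 + 2 * (y + 7) ^ 2 + 2 * (y + 7) - 5 = 3 * k := by omega
    rw [this]
    exact Nat.mod_eq_zero_of_dvd (Nat.mul_dvd_mul_left 3 h)
  · have h2 := to_int (c := 3) hq h
    have e : ((3 * k : ℕ) : ℤ) = (q : ℤ) ^ 3 + 2 * q ^ 2 + 2 * q - 5 := by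
      have : ((3 * k + 5 : ℕ) : ℤ) = ((q ^ 3 + 2 * q ^ 2 + 2 * q : ℕ) : ℤ) := by rw [hk]
      push_cast at this ⊢
      linarith
    rw [e] at h2
    have hz : (47 : ℤ) ≤ q := by exact_mod_cast h1
    refine nd _ _ (-(18 * (q : ℤ) ^ 2) - 612 * q + 630) (3 * q ^ 5 - 6 * q ^ 4 + 3 * q ^ 3 + 18 * q ^ 2 - 72 * q + 126) _ ?_ ?_ ?_ h2
    · push_cast; ring
    · nlinarith
    · rw [abs_lt]
      constructor <;> nlinarith [mul_nonneg (sub_nonneg.mpr hz) (sq_nonneg (q : ℤ))]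

theorem nd11 (q k : ℕ) (hq : 7 ≤ q) (h3 : q % 3 = 1) (hk : 3 * k + 2 = q ^ 3 + 2 * q ^ 2 + 2 * q) :
    ¬ k ∣ q ^ 3 * (q ^ 2 - 1) * (q ^ 3 - 1) := by
  intro h
  rcases Nat.lt_or_ge q 47 with h1 | h1
  · obtain ⟨y, rfl⟩ := Nat.exists_eq_add_of_le' hq
    apply small11 y (by omega) h3
    have : (y + 7) ^ 3 + 2 * (y + 7) ^ 2 + 2 * (y + 7) - 2 = 3 * k := by omega
    rw [this]
    exact Nat.mod_eq_zero_of_dvd (Nat.mul_dvd_mul_left 3 h)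
  · have h2 := to_int (c := 3) hq h
    have e : ((3 * k : ℕ) : ℤ) = (q : ℤ) ^ 3 + 2 * q ^ 2 + 2 * q - 2 := by
      have : ((3 * k + 2 : ℕ) : ℤ) = ((q ^ 3 + 2 * q ^ 2 + 2 * q : ℕ) : ℤ) := by rw [hk]
      push_cast at this ⊢
      linarith
    rw [e] at h2
    have hz : (47 : ℤ) ≤ q := by exact_mod_cast h1
    refine nd _ _ (-(36 * (q : ℤ) ^ 2) - 198 * q + 126) (3 * q ^ 5 - 6 * q ^ 4 + 3 * q ^ 3 + 9 * q ^ 2 - 36 * q + 63) _ ?_ ?_ ?_ h2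
    · push_cast; ring
    · nlinarith
    · rw [abs_lt]
      constructor <;> nlinarith [mul_nonneg (sub_nonneg.mpr hz) (sq_nonneg (q : ℤ))]

theorem nd20 (q k : ℕ) (hq : 7 ≤ q) (h3 : q % 3 = 1) (hk : 3 * k + 4 = 2 * q ^ 3 + q ^ 2 + q) :
    ¬ k ∣ q ^ 3 * (q ^ 2 - 1) * (q ^ 3 - 1) := by
  intro h
  rcases Nat.lt_or_ge q 607 with h1 | h1
  · obtain ⟨y, rfl⟩ := Nat.exists_eq_add_of_le' hq
    apply small20 y (by omega) h3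
    have : 2 * (y + 7) ^ 3 + (y + 7) ^ 2 + (y + 7) - 4 = 3 * k := by omega
    rw [this]
    exact Nat.mod_eq_zero_of_dvd (Nat.mul_dvd_mul_left 3 h)
  · have h2 := to_int (c := 3) hq h
    have h2 : ((3 * k : ℕ) : ℤ) ∣ 192 * ((q : ℤ) ^ 3 * ((q : ℤ) ^ 2 - 1) * ((q : ℤ) ^ 3 - 1)) := by
      have e1 : 192 * ((q : ℤ) ^ 3 * ((q : ℤ) ^ 2 - 1) * ((q : ℤ) ^ 3 - 1)) =
        64 * (((3 : ℕ) : ℤ) * ((q : ℤ) ^ 3 * ((q : ℤ) ^ 2 - 1) * ((q : ℤ) ^ 3 - 1))) := by push_cast; ring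
      rw [e1]; exact Dvd.dvd.mul_left h2 _
    have e : ((3 * k : ℕ) : ℤ) = 2 * (q : ℤ) ^ 3 + q ^ 2 + q - 4 := by
      have : ((3 * k + 4 : ℕ) : ℤ) = ((2 * q ^ 3 + q ^ 2 + q : ℕ) : ℤ) := by rw [hk]
      push_cast at this ⊢
      linarith
    rw [e] at h2
    have hz : (607 : ℤ) ≤ q := by exact_mod_cast h1
    refine nd _ _ (1017 * (q : ℤ) ^ 2 - 333 * q - 684) (96 * q ^ 5 - 48 * q ^ 4 - 120 * q ^ 3 + 180 * q ^ 2 - 126 * q - 171) _ ?_ ?_ ?_ h2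
    · ring
    · nlinarith
    · rw [abs_lt]
      constructor <;> nlinarith [mul_nonneg (sub_nonneg.mpr hz) (sq_nonneg (q : ℤ))]

theorem nd21 (q k : ℕ) (hq : 7 ≤ q) (hk : 3 * k + 1 = 2 * q ^ 3 + q ^ 2 + q) :
    ¬ k ∣ q ^ 3 * (q ^ 2 - 1) * (q ^ 3 - 1) := by
  intro h
  have h2 := to_int (c := 3) hq h
  have h2 : ((3 * k : ℕ) : ℤ) ∣ 192 * ((q : ℤ) ^ 3 * ((q : ℤ) ^ 2 - 1) * ((q : ℤ) ^ 3 - 1)) := by
    have e1 : 192 * ((q : ℤ) ^ 3 * ((q : ℤ) ^ 2 - 1) * ((q : ℤ) ^ 3 - 1)) =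
      64 * (((3 : ℕ) : ℤ) * ((q : ℤ) ^ 3 * ((q : ℤ) ^ 2 - 1) * ((q : ℤ) ^ 3 - 1))) := by push_cast; ring
    rw [e1]; exact Dvd.dvd.mul_left h2 _
  have e : ((3 * k : ℕ) : ℤ) = 2 * (q : ℤ) ^ 3 + q ^ 2 + q - 1 := by
    have : ((3 * k + 1 : ℕ) : ℤ) = ((2 * q ^ 3 + q ^ 2 + q : ℕ) : ℤ) := by rw [hk]
    push_cast at this ⊢
    linarith
  rw [e] at h2
  have hz : (7 : ℤ) ≤ q := by exact_mod_cast hq
  refine nd _ _ (9 * (q : ℤ) ^ 2 + 9 * q + 9) (96 * q ^ 5 - 48 * q ^ 4 - 120 * q ^ 3 + 36 * q ^ 2 + 18 * q + 9) _ ?_ ?_ ?_ h2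
  · ring
  · nlinarith
  · rw [abs_lt]
    constructor <;> nlinarith [mul_nonneg (sub_nonneg.mpr hz) (sq_nonneg (q : ℤ))]

end Cfsg.Agent.Lib.MinG2Arith
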