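import Cfsg.Agent.Lib.MinG2A
import Cfsg.Agent.Lib.MinG2Arith
import Cfsg.Agent.Lib.MinDegN

/-!
Representations of SL3(q) with root multiplicity q^2 (helper18).
-/

set_option autoImplicit false
set_option linter.unusedSectionVars false

universe u

namespace Cfsg.Agent.Lib.MinG2B

open Cfsg.Agent.Lib.UCEBase Cfsg.Agent.Lib.UCESymbol
open Cfsg.Agent.Lib.WeightProj Cfsg.Agent.Lib.MinDegA Cfsg.Agent.Lib.MinG2A

section cubes

variable {F : Type*} [Field F] [Fintype F] [DecidableEq F]

theorem sum_units (g : F → ℕ) : ∑ a ∈ Finset.univ.erase (0 : F), g a = ∑ u : Fˣ, g u := by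
  symm
  apply Finset.sum_bij (fun (u : Fˣ) _ => (u : F))
  · intro u _; exact Finset.mem_erase.mpr ⟨u.ne_zero, Finset.mem_univ _⟩
  · intro u _ v _ h; exact Units.ext h
  · intro a ha; exact ⟨Units.mk0 a (Finset.ne_of_mem_erase ha), Finset.mem_univ _, rfl⟩
  · intro u _; rfl

theorem three_dvd (g : F → ℕ) (hg : ∀ u : F, u ≠ 0 → ∀ a, g (a * (u * u * u)) = g a) :
    (Fintype.card F - 1) ∣ 3 * ∑ a ∈ Finset.univ.erase (0 : F), g a := by
  classical
  rw [sum_units]
  set H : Subgroup Fˣ := (powMonoidHom 3 : Fˣ →* Fˣ).range with hH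
  have hind : Nat.card (Fˣ ⧸ H) ∣ 3 := by
    have h1 : H.index = (Nat.card Fˣ).gcd 3 := IsCyclic.index_powMonoidHom_range Fˣ 3
    have h2 : H.index = Nat.card (Fˣ ⧸ H) := rfl
    rw [← h2, h1]
    exact Nat.gcd_dvd_right _ _
  -- constant on the fibres
  have hconst : ∀ u v : Fˣ, (QuotientGroup.mk' H) u = (QuotientGroup.mk' H) v → g u = g v := by
    intro u v h
    have h1 : u⁻¹ * v ∈ H := QuotientGroup.eq.mp h
    obtain ⟨w, hw⟩ := h1
    have h2 : v = u * w ^ 3 := by
      have : w ^ 3 = u⁻¹ * v := hw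
      rw [this, mul_inv_cancel_left]
    rw [h2]
    have h3 := hg w w.ne_zero u
    rw [← h3]
    congr 1
    push_cast
    ring
  set c := (Finset.univ.filter (fun u : Fˣ => (QuotientGroup.mk' H) u = 1)).card with hc
  have hfib : ∀ x : Fˣ ⧸ H, (Finset.univ.filter (fun u : Fˣ => (QuotientGroup.mk' H) u = x)).card = c := by
    intro x
    exact MonoidHom.card_fiber_eq_of_mem_range (QuotientGroup.mk' H) ⟨_, (QuotientGroup.mk'_surjective H x).choose_spec⟩
      ⟨1, map_one _⟩
  have hsum : ∀ f : Fˣ → ℕ, (∀ u v : Fˣ, (QuotientGroup.mk' H) u = (QuotientGroup.mk' H) v → f u = f v) →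
      ∑ u, f u = c * ∑ x : Fˣ ⧸ H, f (QuotientGroup.mk'_surjective H x).choose := by
    intro f hf
    rw [← Finset.sum_fiberwise Finset.univ (QuotientGroup.mk' H) f, Finset.mul_sum]
    refine Finset.sum_congr rfl (fun x _ => ?_)
    rw [← hfib x]
    rw [Finset.sum_congr rfl (fun u hu => hf u (QuotientGroup.mk'_surjective H x).choose (by
      rw [(QuotientGroup.mk'_surjective H x).choose_spec]
      exact (Finset.mem_filter.mp hu).2)), Finset.sum_const, smul_eq_mul]
  have h1 : Fintype.card F - 1 = c * Nat.card (Fˣ ⧸ H) := by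
    have := hsum (fun _ => 1) (fun _ _ _ => rfl)
    simp only [Finset.sum_const, smul_eq_mul, mul_one, Finset.card_univ] at this
    rw [Fintype.card_units] at this
    rw [this, Nat.card_eq_fintype_card]
  rw [hsum (fun u => g u) hconst, h1]
  obtain ⟨e, he⟩ := hind
  refine ⟨e * ∑ x : Fˣ ⧸ H, g ((QuotientGroup.mk'_surjective H x).choose : Fˣ), ?_⟩
  calc 3 * (c * ∑ x : Fˣ ⧸ H, g ((QuotientGroup.mk'_surjective H x).choose : Fˣ)) =
      (Nat.card (Fˣ ⧸ H) * e) * (c * ∑ x : Fˣ ⧸ H, g ((QuotientGroup.mk'_surjective H x).choose : Fˣ)) := by rw [← he]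
    _ = _ := by ring

theorem one_dvd (h : Fintype.card F % 3 = 2) (g : F → ℕ) (hg : ∀ u : F, u ≠ 0 → ∀ a, g (a * (u * u * u)) = g a) :
    (Fintype.card F - 1) ∣ ∑ a ∈ Finset.univ.erase (0 : F), g a := by
  have h1 := three_dvd g hg
  have h2 : Nat.Coprime (Fintype.card F - 1) 3 := by
    have : ¬ 3 ∣ Fintype.card F - 1 := by omega
    exact ((Nat.Prime.coprime_iff_not_dvd Nat.prime_three).mpr this).symm
  exact h2.dvd_of_dvd_mul_left h1

end cubes

section rest

variable {F : Type*} [Field F] [Fintype F] {Γ : Type*} [Group Γ] (S : St3 F Γ) (ψ : AddChar F ℂ)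

theorem pr_inter {V W : Type*} [AddCommGroup V] [Module ℂ V] [AddCommGroup W] [Module ℂ W]
    {σ : Representation ℂ Γ V} {τ : Representation ℂ Γ W} (f : W →ₗ[ℂ] V) (hf : ∀ g w, f (τ g w) = σ g (f w))
    (x : F → Γ) (a : F) (w : W) : f (pr τ ψ x a w) = pr σ ψ x a (f w) := by
  unfold pr Er E
  simp only [LinearMap.smul_apply, LinearMap.coe_sum, Finset.sum_apply, map_smul, map_sum, hf]

theorem PP_inter {V W : Type*} [AddCommGroup V] [Module ℂ V] [AddCommGroup W] [Module ℂ W]
    {σ : Representation ℂ Γ V} {τ : Representation ℂ Γ W} (f : W →ₗ[ℂ] V) (hf : ∀ g w, f (τ g w) = σ g (f w))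
    (a b : F) (w : W) : f (PP S τ ψ a b w) = PP S σ ψ a b (f w) := by
  unfold PP
  simp only [Module.End.mul_apply, pr_inter ψ f hf]

theorem mm_le {V W : Type*} [AddCommGroup V] [Module ℂ V] [FiniteDimensional ℂ V] [AddCommGroup W] [Module ℂ W]
    {σ : Representation ℂ Γ V} {τ : Representation ℂ Γ W} (f : W →ₗ[ℂ] V) (hf : ∀ g w, f (τ g w) = σ g (f w))
    (hinj : Function.Injective f) (a b : F) : mm S τ ψ a b ≤ mm S σ ψ a b := by
  unfold mm
  have h : (LinearMap.range (PP S τ ψ a b)).map f ≤ LinearMap.range (PP S σ ψ a b) := by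
    rintro _ ⟨_, ⟨w, rfl⟩, rfl⟩
    exact ⟨f w, (PP_inter S ψ f hf a b w).symm⟩
  rw [(Submodule.equivMapOfInjective f hinj (LinearMap.range (PP S τ ψ a b))).finrank_eq]
  exact Submodule.finrank_mono h

/-- an irreducible subrepresentation containing a given weight -/
theorem exists_sub [Finite Γ] (a b : F) (V : Type u) [AddCommGroup V] [Module ℂ V] [FiniteDimensional ℂ V]
    (σ : Representation ℂ Γ V) (h : mm S σ ψ a b ≠ 0) :
    ∃ (W : Type u) (_ : AddCommGroup W) (_ : Module ℂ W) (_ : FiniteDimensional ℂ W) (τ : Representation ℂ Γ W) (f : W →ₗ[ℂ] V),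
      τ.IsIrreducible ∧ (∀ g w, f (τ g w) = σ g (f w)) ∧ Function.Injective f ∧ mm S τ ψ a b ≠ 0 := by
  revert h
  refine CharBasic.rep_induction (G := Γ) (P := fun V _ _ _ σ => mm S σ ψ a b ≠ 0 →
    ∃ (W : Type u) (_ : AddCommGroup W) (_ : Module ℂ W) (_ : FiniteDimensional ℂ W) (τ : Representation ℂ Γ W) (f : W →ₗ[ℂ] V),
      τ.IsIrreducible ∧ (∀ g w, f (τ g w) = σ g (f w)) ∧ Function.Injective f ∧ mm S τ ψ a b ≠ 0) ?_ ?_ ?_ V σ
  · intro V _ _ _ σ hV h
    exfalso
    apply h
    haveI : Subsingleton (LinearMap.range (PP S σ ψ a b)) := inferInstance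
    exact Module.finrank_zero_of_subsingleton
  · intro V _ _ _ σ hσ h
    exact ⟨V, _, _, ‹_›, σ, LinearMap.id, hσ, fun _ _ => rfl, fun _ _ h => h, h⟩
  · intro V _ _ _ σ A B hAB _ _ h1 h2 h
    by_cases hA : mm S A.toRepresentation ψ a b ≠ 0
    · obtain ⟨W, i1, i2, i3, τ, f, e1, e2, e3, e4⟩ := h1 hA
      refine ⟨W, i1, i2, i3, τ, A.toSubmodule.subtype ∘ₗ f, e1, fun g w => ?_, ?_, e4⟩
      · show ((f (τ g w) : A.toSubmodule) : V) = σ g (f w : V)
        rw [e2]; rfl
      · exact (Submodule.injective_subtype _).comp e3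
    · by_cases hB : mm S B.toRepresentation ψ a b ≠ 0
      · obtain ⟨W, i1, i2, i3, τ, f, e1, e2, e3, e4⟩ := h2 hB
        refine ⟨W, i1, i2, i3, τ, B.toSubmodule.subtype ∘ₗ f, e1, fun g w => ?_, ?_, e4⟩
        · show ((f (τ g w) : B.toSubmodule) : V) = σ g (f w : V)
          rw [e2]; rfl
        · exact (Submodule.injective_subtype _).comp e3
      · exfalso
        apply h
        push Not at hA hB
        have z1 : PP S A.toRepresentation ψ a b = 0 :=
          LinearMap.range_eq_bot.mp (Submodule.finrank_eq_zero.mp hA)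
        have z2 : PP S B.toRepresentation ψ a b = 0 :=
          LinearMap.range_eq_bot.mp (Submodule.finrank_eq_zero.mp hB)
        have z : PP S σ ψ a b = 0 := by
          ext x
          have hx : x ∈ A.toSubmodule ⊔ B.toSubmodule := by rw [hAB.sup_eq_top]; trivial
          obtain ⟨y, hy, z, hz, rfl⟩ := Submodule.mem_sup.mp hx
          have e1 := PP_inter S ψ (σ := σ) (τ := A.toRepresentation) A.toSubmodule.subtype (fun _ _ => rfl) a b ⟨y, hy⟩
          have e2 := PP_inter S ψ (σ := σ) (τ := B.toRepresentation) B.toSubmodule.subtype (fun _ _ => rfl) a b ⟨z, hz⟩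
          rw [z1] at e1
          rw [z2] at e2
          have e1' : PP S σ ψ a b y = 0 := e1.symm
          have e2' : PP S σ ψ a b z = 0 := e2.symm
          rw [map_add, e1', e2', add_zero]; rfl
        unfold mm
        rw [z, LinearMap.range_zero]
        exact finrank_bot ℂ V

end rest

section main

variable {F : Type*} [Field F] [Fintype F] {Γ : Type*} [Group Γ] (S : St3 F Γ) {ψ : AddChar F ℂ} (hψ : ψ ≠ 1)

include hψ

/-- the basic relations between the multiplicities -/
theorem split {V : Type*} [AddCommGroup V] [Module ℂ V] [FiniteDimensional ℂ V] [DecidableEq F] (σ : Representation ℂ Γ V) :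
    ∑ a ∈ Finset.univ.erase (0 : F), mm S σ ψ a 1 + mm S σ ψ 0 1 = d1 S σ ψ := by
  rw [Finset.sum_erase_add _ _ (Finset.mem_univ _), sum_a hψ one_ne_zero]

theorem bound2 {V : Type*} [AddCommGroup V] [Module ℂ V] [FiniteDimensional ℂ V] (σ : Representation ℂ Γ V)
    (h2 : 2 < Fintype.card F) (h3 : Fintype.card F % 3 = 2) (hd : d1 S σ ψ = Fintype.card F) :
    Fintype.card F ^ 3 - 1 ≤ Module.finrank ℂ V := by
  classical
  have hs := split S hψ σ
  rw [hd] at hs
  obtain ⟨k, hk⟩ := one_dvd h3 (fun a => mm S σ ψ a 1) (fun u hu a => mm_cube hu a 1)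
  have hA : 1 ≤ mm S σ ψ 0 1 := by
    by_contra h0
    have h0' : mm S σ ψ 0 1 = 0 := by omega
    rw [h0', hk, add_zero] at hs
    obtain ⟨y, hy⟩ := Nat.exists_eq_add_of_le' (show 3 ≤ Fintype.card F by omega)
    rw [hy] at hs
    have e : y + 3 - 1 = y + 2 := rfl
    rw [e] at hs
    rcases k with _ | _ | k
    · omega
    · omega
    · have : (y + 2) * (k + 1 + 1) = (y + 2) * 2 + (y + 2) * k := by ring
      omega
  have hdim := dim_formula (S := S) (σ := σ) hψ
  rw [hd] at hdim
  obtain ⟨z, hz⟩ := Nat.exists_eq_add_of_le' hA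
  rw [hz] at hdim
  obtain ⟨y, hy⟩ := Nat.exists_eq_add_of_le' (show 1 ≤ Fintype.card F by omega)
  have e1 : Fintype.card F * (z + 1) = Fintype.card F * z + Fintype.card F := by ring
  have e2 : Fintype.card F * Fintype.card F * Fintype.card F = Fintype.card F ^ 3 := by ring
  have e3 : z ≤ Fintype.card F * z := Nat.le_mul_of_pos_left _ (by omega)
  rw [e1, e2] at hdim
  omega

theorem bound1 [Finite Γ] (V : Type u) [AddCommGroup V] [Module ℂ V] [FiniteDimensional ℂ V] (σ : Representation ℂ Γ V)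
    (h2 : 7 ≤ Fintype.card F) (h3 : Fintype.card F % 3 = 1) (h10 : Fintype.card F ≠ 10)
    (hd : d1 S σ ψ = Fintype.card F)
    (hN : Nat.card Γ = Fintype.card F ^ 3 * (Fintype.card F ^ 2 - 1) * (Fintype.card F ^ 3 - 1))
    (hmin : ∀ (W : Type u) [AddCommGroup W] [Module ℂ W] [FiniteDimensional ℂ W] (τ : Representation ℂ Γ W),
      τ.IsIrreducible → 2 ≤ Module.finrank ℂ W → Fintype.card F ^ 2 + Fintype.card F ≤ Module.finrank ℂ W) :
    Fintype.card F ^ 3 + 1 ≤ Module.finrank ℂ V ∨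
    ∃ (W : Type u) (_ : AddCommGroup W) (_ : Module ℂ W) (_ : FiniteDimensional ℂ W) (τ : Representation ℂ Γ W) (f : W →ₗ[ℂ] V),
      τ.IsIrreducible ∧ (∀ g w, f (τ g w) = σ g (f w)) ∧ Function.Injective f ∧
      Fintype.card F ^ 3 ≤ Module.finrank ℂ W + 1 := by
  classical
  set q := Fintype.card F with hq
  have hs := split S hψ σ
  rw [hd] at hs
  obtain ⟨s, hs3⟩ := three_dvd (fun a => mm S σ ψ a 1) (fun u hu a => mm_cube hu a 1)
  have hdim := dim_formula (S := S) (σ := σ) hψ
  rw [hd] at hdim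
  rw [← hq] at hs3 hdim
  set T := ∑ a ∈ Finset.univ.erase (0 : F), mm S σ ψ a 1 with hT
  set A := mm S σ ψ 0 1 with hA
  have hs4 : s ≤ 3 := by
    by_contra hc
    have : (q - 1) * 4 ≤ (q - 1) * s := Nat.mul_le_mul_left _ (by omega)
    omega
  have hcases : s ≤ 2 ∨ s = 3 := by omega
  rcases hcases with hs2 | rfl
  · left
    have h5 : (q - 1) * s ≤ (q - 1) * 2 := Nat.mul_le_mul_left _ hs2
    have h6 : q + 2 ≤ 3 * A := by omega
    obtain ⟨y, hy⟩ := Nat.exists_eq_add_of_le' h2
    have h7 : 3 * (q - 1) * A + 3 * A = 3 * (q * A) := by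
      rw [hy]
      have : y + 7 - 1 = y + 6 := rfl
      rw [this]; ring
    have h8 : (q - 1) * (q + 2) ≤ (q - 1) * (3 * A) := Nat.mul_le_mul_left _ h6
    have h9 : (q - 1) * (3 * A) = 3 * (q - 1) * A := by ring
    have h10 : 3 * q + 3 ≤ (q - 1) * (q + 2) := by
      rw [hy]
      have : y + 7 - 1 = y + 6 := rfl
      rw [this]
      have : (y + 6) * (y + 7 + 2) = y * y + 15 * y + 54 := by ring
      omega
    have e2 : q * q * q = q ^ 3 := by ring
    rw [e2] at hdim
    omega
  · have hA1 : A = 1 := by omega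
    rw [hA1] at hdim
    have e2 : q * q * q = q ^ 3 := by ring
    rw [e2, mul_one] at hdim
    by_cases hn : 2 ≤ mm S σ ψ 0 0
    · left; omega
    · right
      have hA0 : mm S σ ψ 0 1 ≠ 0 := by rw [← hA, hA1]; exact one_ne_zero
      obtain ⟨W, i1, i2, i3, τ, f, hirr, hf, hinj, hW⟩ := exists_sub S ψ 0 1 V σ hA0
      refine ⟨W, i1, i2, i3, τ, f, hirr, hf, hinj, ?_⟩
      have hAW : mm S τ ψ 0 1 = 1 := by
        have := mm_le S ψ f hf hinj 0 1
        rw [← hA, hA1] at this
        omega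
      have hnW : mm S τ ψ 0 0 ≤ 1 := by
        have := mm_le S ψ f hf hinj 0 0
        omega
      have hTW : ∑ a ∈ Finset.univ.erase (0 : F), mm S τ ψ a 1 ≤ T :=
        Finset.sum_le_sum (fun a _ => mm_le S ψ f hf hinj a 1)
      obtain ⟨s', hs3'⟩ := three_dvd (fun a => mm S τ ψ a 1) (fun u hu a => mm_cube hu a 1)
      have hsW := split S hψ τ
      have hdimW := dim_formula (S := S) (σ := τ) hψ
      rw [← hsW, hAW, ← hq] at hdimW
      rw [← hq] at hs3'
      set T' := ∑ a ∈ Finset.univ.erase (0 : F), mm S τ ψ a 1 with hT'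
      set n' := mm S τ ψ 0 0 with hn'
      have hs4' : s' ≤ 3 := by
        by_contra hc
        have : (q - 1) * 4 ≤ (q - 1) * s' := Nat.mul_le_mul_left _ (by omega)
        omega
      have hdvd := CharCentral.finrank_dvd_card τ
      rw [hN] at hdvd
      set k := Module.finrank ℂ W with hk
      have e3 : q * q * (T' + 1) = q * q * T' + q ^ 2 := by ring
      have e4 : q * q * (3 * T') = q * q * ((q - 1) * s') := by rw [hs3']
      obtain ⟨y, hy⟩ := Nat.exists_eq_add_of_le' (show 1 ≤ q by omega)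
      have e5 : q * q * ((q - 1) * s') + q ^ 2 * s' = q ^ 3 * s' := by
        rw [hy]
        have : y + 1 - 1 = y := rfl
        rw [this]; ring
      have e6 : q * q * (3 * T') = 3 * (q * q * T') := by ring
      interval_cases s'
      · -- 0
        exfalso
        have hT0 : T' = 0 := by omega
        rw [hT0] at hdimW e3
        have h49 : 7 * 7 ≤ q * q := Nat.mul_le_mul h2 h2
        have hqq : q ^ 2 = q * q := sq q
        have := hmin W τ hirr (by omega)
        omega
      · -- 1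
        exfalso
        rcases (show n' = 0 ∨ n' = 1 by omega) with h0 | h0
        · exact MinG2Arith.nd10 q k h2 h3 h10 (by omega) hdvd
        · exact MinG2Arith.nd11 q k h2 h3 (by omega) hdvd
      · exfalso
        rcases (show n' = 0 ∨ n' = 1 by omega) with h0 | h0
        · exact MinG2Arith.nd20 q k h2 h3 (by omega) hdvd
        · exact MinG2Arith.nd21 q k h2 (by omega) hdvd
      · omega

end main

end Cfsg.Agent.Lib.MinG2B
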