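import Cfsg.Agent.Lib.MinG2B
import Cfsg.Agent.Lib.ChevOkG2
import Cfsg.Agent.Lib.TwG2c
import Cfsg.Agent.Lib.UCESLn
import Cfsg.Agent.S2401
import Cfsg.Agent.S1059

/-!
Relations in G2(F) (helper18).
-/

set_option autoImplicit false
set_option linter.unusedSectionVars false

universe u v

namespace Cfsg.Agent.Lib.MinG2C

open Cfsg.Lie Cfsg.Agent.Lib.ChevX Cfsg.Agent.Lib.ChevGood Cfsg.Agent.Lib.ChevRel
open Cfsg.Agent.Lib.UCEBase Cfsg.Agent.Lib.UCESymbol Cfsg.Agent.Lib.UCESys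
open Cfsg.Agent.Lib.WeightProj Cfsg.Agent.Lib.MinDegA Cfsg.Agent.Lib.MinG2A Cfsg.Agent.Lib.MinG2B
open Cfsg.Agent.Lib.TwTab Cfsg.Agent.Lib.TwFix Cfsg.Agent.Lib.ChevNPerm Cfsg.Agent.Lib.ChevClosed Cfsg.Agent.Lib.ChevBruhat

/-- the good structure -/
noncomputable abbrev G : Good chevG2 := ChevOkG2.good

section

variable {F : Type*} [Field F]

/-- root elements of `G2(F)` -/
noncomputable def X (r : ℕ) (t : F) : chevG2.group F := (stdSys G F).x r t

theorem X_coe {r : ℕ} (hr : r < 12) (t : F) : (X r t : GL chevG2.Idx F) = xg chevG2 F r t := stdSys_coe G F hr t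

theorem X_add {r : ℕ} (hr : r < 12) (t u : F) : X r t * X r u = X r (t + u) := (stdSys G F).add r hr t u

theorem X_inj {r : ℕ} (hr : r < 12) {t u : F} (h : X r t = X r u) : t = u := stdSys_inj G F hr t u h |>.symm ▸ rfl

theorem X_rel {r s : ℕ} (hr : r < 12) (hs : s < 12) (h1 : s ≠ r) (h2 : s ≠ chevG2.neg r) {l : List (ℕ × ℤ × ℕ × ℕ)}
    (hl : chevG2.commTerms r s = l) (t u : F) :
    cm (X s u) (X r t) = (l.map fun c => X c.1 ((c.2.1 : F) * (-t) ^ c.2.2.1 * u ^ c.2.2.2)).prod := by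
  have h := (stdSys G F).rel r hr s hs h1 h2 t u
  rw [ChevalleyDatum.commWord, hl, List.map_map] at h
  exact h

theorem X_comm {r s : ℕ} (hr : r < 12) (hs : s < 12) (h1 : s ≠ r) (h2 : s ≠ chevG2.neg r)
    (hl : chevG2.commTerms r s = []) (t u : F) : X r t * X s u = X s u * X r t := by
  have h := X_rel hr hs h1 h2 hl t u
  rw [List.map_nil, List.prod_nil] at h
  exact (cm_eq_one_iff.mp h).symm

/-- a single term -/
theorem X_one {r s k : ℕ} {C : ℤ} (hr : r < 12) (hs : s < 12) (h1 : s ≠ r) (h2 : s ≠ chevG2.neg r)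
    (hl : chevG2.commTerms r s = [(k, C, 1, 1)]) (t u : F) : cm (X s u) (X r t) = X k (-((C : F)) * t * u) := by
  rw [X_rel hr hs h1 h2 hl]
  simp only [List.map_cons, List.map_nil, List.prod_cons, List.prod_nil, mul_one, pow_one]
  congr 1; ring

/-- the roots of the subsystem of long roots -/
def rt : Fin 3 → Fin 3 → ℕ := ![![6, 6, 11], ![5, 5, 10], ![0, 1, 1]]

theorem rt_lt (i j : Fin 3) : rt i j < 12 := by revert i j; decide

theorem rt_cmt : ∀ i j k : Fin 3, i ≠ j → j ≠ k → i ≠ k → rt i j ≠ rt j k ∧ rt i j ≠ chevG2.neg (rt j k) ∧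
    chevG2.commTerms (rt j k) (rt i j) = [(rt i k, -1, 1, 1)] := by decide +kernel

theorem rt_row : ∀ i j k : Fin 3, i ≠ j → j ≠ k → i ≠ k → rt i k ≠ rt i j ∧ rt i k ≠ chevG2.neg (rt i j) ∧
    chevG2.commTerms (rt i j) (rt i k) = [] := by decide +kernel

theorem rt_col : ∀ i j k : Fin 3, i ≠ j → j ≠ k → i ≠ k → rt j k ≠ rt i k ∧ rt j k ≠ chevG2.neg (rt i k) ∧
    chevG2.commTerms (rt i k) (rt j k) = [] := by decide +kernel

/-- the long root subsystem -/
noncomputable def S3 (F : Type*) [Field F] : St3 F (chevG2.group F) where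
  y i j t := X (rt i j) t
  add i j _ t u := X_add (rt_lt i j) t u
  cmt i j k h1 h2 h3 t u := by
    obtain ⟨e1, e2, e3⟩ := rt_cmt i j k h1 h2 h3
    rw [X_one (rt_lt _ _) (rt_lt _ _) e1 e2 e3]
    congr 1; push_cast; ring
  row i j k h1 h2 h3 t u := by
    obtain ⟨e1, e2, e3⟩ := rt_row i j k h1 h2 h3
    exact X_comm (rt_lt _ _) (rt_lt _ _) e1 e2 e3 t u
  col i j k h1 h2 h3 t u := by
    obtain ⟨e1, e2, e3⟩ := rt_col i j k h1 h2 h3
    exact X_comm (rt_lt _ _) (rt_lt _ _) e1 e2 e3 t u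

/-! ### SL3 -/

/-- elementary matrices -/
noncomputable def SSL (F : Type*) [Field F] : St3 F (Matrix.SpecialLinearGroup (Fin 3) F) where
  y i j t := if h : i ≠ j then UCESLn.x ⟨(i, j), h⟩ t else 1
  add i j h t u := by
    rw [dif_pos h, dif_pos h, dif_pos h]; exact UCESLn.x_add _ t u
  cmt i j k h1 h2 h3 t u := by
    rw [dif_pos h1, dif_pos h2, dif_pos h3]
    exact UCESLn.x_cm (a := ⟨(i, j), h1⟩) (b := ⟨(j, k), h2⟩) (k := ⟨(i, k), h3⟩) rfl rfl t u
  row i j k h1 h2 h3 t u := by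
    rw [dif_pos h1, dif_pos h3]
    exact UCESLn.x_comm (a := ⟨(i, j), h1⟩) (b := ⟨(i, k), h3⟩) ⟨h1.symm, h3⟩ t u
  col i j k h1 h2 h3 t u := by
    rw [dif_pos h3, dif_pos h2]
    exact UCESLn.x_comm (a := ⟨(i, k), h3⟩) (b := ⟨(j, k), h2⟩) ⟨h2.symm, h3⟩ t u

/-- systems of type A2 give homomorphisms from `SL3` -/
theorem exists_hom [Finite F] {Q : Type*} [Group Q] (S : St3 F Q) : ∃ φ : Matrix.SpecialLinearGroup (Fin 3) F →* Q,
    ∀ i j, i ≠ j → ∀ t, φ ((SSL F).y i j t) = S.y i j t := by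
  obtain ⟨e, he⟩ := Cfsg.Agent.S2401.result (K := F) 3 (by norm_num)
  have hrel : ∀ r ∈ ({g : FreeGroup ({ij : Fin 3 × Fin 3 // ij.1 ≠ ij.2} × F) | ∃ (a : {ij : Fin 3 × Fin 3 // ij.1 ≠ ij.2}) (t u : F),
            g = FreeGroup.of (a, t) * FreeGroup.of (a, u) * (FreeGroup.of (a, t + u))⁻¹} ∪
          {g | ∃ (a b : {ij : Fin 3 × Fin 3 // ij.1 ≠ ij.2}) (t u : F), a.1.1 ≠ b.1.2 ∧ a.1.2 ≠ b.1.1 ∧
            g = FreeGroup.of (a, t) * FreeGroup.of (b, u) * (FreeGroup.of (a, t))⁻¹ * (FreeGroup.of (b, u))⁻¹} ∪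
          {g | ∃ (a b : {ij : Fin 3 × Fin 3 // ij.1 ≠ ij.2}) (h : a.1.1 ≠ b.1.2) (t u : F), a.1.2 = b.1.1 ∧
            g = FreeGroup.of (a, t) * FreeGroup.of (b, u) * (FreeGroup.of (a, t))⁻¹ * (FreeGroup.of (b, u))⁻¹ *
              (FreeGroup.of (⟨(a.1.1, b.1.2), h⟩, t * u))⁻¹}),
      FreeGroup.lift (fun p : {ij : Fin 3 × Fin 3 // ij.1 ≠ ij.2} × F => S.y p.1.1.1 p.1.1.2 p.2) r = 1 := by
    rintro r ((⟨a, t, u, rfl⟩ | ⟨a, b, t, u, h1, h2, rfl⟩) | ⟨a, b, h, t, u, h1, rfl⟩)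
    · simp only [map_mul, map_inv, FreeGroup.lift_apply_of]
      rw [S.add _ _ a.2, mul_inv_cancel]
    · simp only [map_mul, map_inv, FreeGroup.lift_apply_of]
      obtain ⟨⟨i, j⟩, hij⟩ := a
      obtain ⟨⟨k, l⟩, hkl⟩ := b
      dsimp only at h1 h2 hij hkl ⊢
      have hc : S.y i j t * S.y k l u = S.y k l u * S.y i j t := by
        by_cases hik : i = k
        · subst hik
          by_cases hjl : j = l
          · subst hjl
            rw [S.add _ _ hij, S.add _ _ hij, add_comm]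
          · exact S.row i j l hij hjl h1 t u
        · by_cases hjl : j = l
          · subst hjl
            exact S.col i k j hik hkl hij t u
          · exfalso
            revert h1 h2 hij hkl hik hjl
            revert i j k l
            decide
      rw [hc]; group
    · simp only [map_mul, map_inv, FreeGroup.lift_apply_of]
      obtain ⟨⟨i, j⟩, hij⟩ := a
      obtain ⟨⟨k, l⟩, hkl⟩ := b
      dsimp only at h h1 hij hkl ⊢
      subst h1
      have hc := S.cmt i j l hij hkl h (-t) (-u)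
      unfold cm at hc
      rw [S.inv hij, S.inv hkl, _root_.neg_neg, _root_.neg_neg, neg_mul_neg, ← S.inv hij, ← S.inv hkl] at hc
      rw [hc, mul_inv_cancel]
  refine ⟨(PresentedGroup.toGroup hrel).comp e.symm.toMonoidHom, fun i j hij t => ?_⟩
  have h1 : (SSL F).y i j t = e (PresentedGroup.of (⟨(i, j), hij⟩, t)) := by
    apply Subtype.ext
    rw [he]
    show ((if h : i ≠ j then UCESLn.x ⟨(i, j), h⟩ t else 1 : Matrix.SpecialLinearGroup (Fin 3) F) : Matrix (Fin 3) (Fin 3) F) = _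
    rw [dif_pos hij]
    exact UCESLn.x_coe _ t
  rw [h1]
  show (PresentedGroup.toGroup hrel) (e.symm (e _)) = _
  rw [e.symm_apply_apply, PresentedGroup.toGroup.of]

/-! ### the torus and the Weyl elements -/

theorem hg_group {r : ℕ} (t : F) : hg chevG2 F r t ∈ chevG2.group F := by
  unfold hg ng
  exact mul_mem (mul_mem (mul_mem (xg_mem_group G _ _) (xg_mem_group G _ _)) (xg_mem_group G _ _))
    (mul_mem (mul_mem (xg_mem_group G _ _) (xg_mem_group G _ _)) (xg_mem_group G _ _))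

/-- torus elements -/
noncomputable def tor (a b : F) : chevG2.group F :=
  ⟨hg chevG2 F 7 a, hg_group a⟩ * ⟨hg chevG2 F 6 b, hg_group b⟩

theorem tor_conj {a b : F} (ha : a ≠ 0) (hb : b ≠ 0) {s : ℕ} (hs : s < 12) (t : F) :
    tor a b * X s t * (tor a b)⁻¹ = X s (a ^ (chevG2.cartan 0 s) * b ^ (chevG2.cartan 1 s) * t) := by
  apply Subtype.ext
  have h := TwTab.HP_conj G (TwG2.ok2 ha hb) (s := s) hs t
  rw [TwG2.chr2] at h
  have e : HP chevG2 F [(0, a), (1, b)] = ((tor a b : chevG2.group F) : GL chevG2.Idx F) := by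
    unfold HP
    rw [List.map_cons, List.map_cons, List.map_nil, List.prod_cons, List.prod_cons, List.prod_nil, mul_one]
    rfl
  rw [e] at h
  rw [Subgroup.coe_mul, Subgroup.coe_mul, Subgroup.coe_inv, X_coe hs, X_coe hs]
  exact h

theorem tor_conj' {a b : F} (ha : a ≠ 0) (hb : b ≠ 0) {s : ℕ} (hs : s < 12) {m n : ℤ}
    (h : [((0 : ℤ), (-1 : ℤ)), (-3, 1), (-1, 0), (1, -1), (-2, 1), (3, -2), (-3, 2), (2, -1), (-1, 1), (1, 0), (3, -1), (0, 1)].getD s (0, 0) = (m, n))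
    (t : F) : tor a b * X s t * (tor a b)⁻¹ = X s (a ^ m * b ^ n * t) := by
  have h2 := (TwG2.cartV s hs).trans h
  rw [Prod.mk.injEq] at h2
  rw [tor_conj ha hb hs, h2.1, h2.2]

/-- Weyl elements -/
noncomputable def nw (i : ℕ) : chevG2.group F := SigData.Nn G F i

theorem nw_conj {i s s' : ℕ} (hi : i < 2) (hs : s < 12) (h : chevG2.reflectRoot i s = s') :
    ∃ c : F, (c = 1 ∨ c = -1) ∧ ∀ t, nw i * X s t * (nw i)⁻¹ = X s' (c * t) := by
  refine ⟨(G.η i s : F), ?_, fun t => ?_⟩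
  · rcases G.η_sq i hi s hs with h | h <;> rw [h] <;> simp
  · subst h
    apply Subtype.ext
    have h1 := congrArg Subtype.val (SigData.Nn_conj (G := G) (F := F) hi hs t)
    have e1 : ∀ r, r < 12 → ∀ t : F, ((TwTab.X G F r t : chevG2.group F) : GL chevG2.Idx F) = (X r t : chevG2.group F) :=
      fun r hr t => (X_coe hr t).symm
    rw [Subgroup.coe_mul, Subgroup.coe_mul, Subgroup.coe_inv] at h1 ⊢
    rw [← e1 s hs, ← e1 _ (G.w_lt i hi s hs)]
    exact h1

end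

end Cfsg.Agent.Lib.MinG2C
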