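import Cfsg.Agent.Lib.MinG2C

/-!
The minimal degree of G2(q), q prime to 3 (helper18).
-/

set_option autoImplicit false
set_option linter.unusedSectionVars false

universe u v

namespace Cfsg.Agent.Lib.MinG2D

open Cfsg.Lie Cfsg.Agent.Lib.ChevX Cfsg.Agent.Lib.ChevGood Cfsg.Agent.Lib.ChevRel
open Cfsg.Agent.Lib.UCEBase Cfsg.Agent.Lib.UCESymbol Cfsg.Agent.Lib.UCESys
open Cfsg.Agent.Lib.WeightProj Cfsg.Agent.Lib.MinDegA Cfsg.Agent.Lib.MinG2A Cfsg.Agent.Lib.MinG2B Cfsg.Agent.Lib.MinG2C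
open Cfsg.Agent.Lib.TwTab

section rel

variable {F : Type*} [Field F]

theorem X_zero {r : ℕ} (hr : r < 12) : X r (0 : F) = 1 := by
  have h := X_add hr (0 : F) 0
  rw [add_zero] at h
  exact mul_eq_left.mp h

theorem X_neg {r : ℕ} (hr : r < 12) (t : F) : X r (-t) = (X r t)⁻¹ := by
  rw [eq_inv_iff_mul_eq_one, X_add hr, neg_add_cancel, X_zero hr]

theorem X_conj {r s k : ℕ} {C : ℤ} (hr : r < 12) (hs : s < 12) (hk : k < 12) (h1 : s ≠ r) (h2 : s ≠ chevG2.neg r)
    (hl : chevG2.commTerms r s = [(k, C, 1, 1)]) (a b : F) :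
    X s a * X r b * (X s a)⁻¹ = X r b * X k (-(C : F) * a * b) := by
  have h := X_one hr hs h1 h2 hl b (-a)
  unfold cm at h
  rw [X_neg hs, inv_inv] at h
  have e2 : (X k (-(C : F) * b * -a) : chevG2.group F) = (X k (-(C : F) * a * b))⁻¹ := by
    rw [← X_neg hk]; congr 1; ring
  rw [e2] at h
  have h4 : X s a * (X r b)⁻¹ * (X s a)⁻¹ = (X k (-(C : F) * a * b))⁻¹ * (X r b)⁻¹ := by
    rw [← h]; group
  have h5 := congrArg (fun x => x⁻¹) h4
  simpa [mul_assoc] using h5

theorem c89 : chevG2.commTerms 8 9 = [(11, 3, 1, 1)] := by decide +kernel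
theorem c98 : chevG2.commTerms 9 8 = [(11, -3, 1, 1)] := by decide +kernel
theorem c6_8 : chevG2.commTerms 6 8 = [] := by decide +kernel
theorem c6_9 : chevG2.commTerms 6 9 = [] := by decide +kernel
theorem c6_11 : chevG2.commTerms 6 11 = [] := by decide +kernel
theorem c8_11 : chevG2.commTerms 8 11 = [] := by decide +kernel
theorem c9_11 : chevG2.commTerms 9 11 = [] := by decide +kernel
theorem c7_11 : chevG2.commTerms 7 11 = [] := by decide +kernel
theorem c8_10 : chevG2.commTerms 8 10 = [] := by decide +kernel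
theorem c9_10 : chevG2.commTerms 9 10 = [] := by decide +kernel
theorem c10_11 : chevG2.commTerms 10 11 = [] := by decide +kernel
theorem c7_10 : chevG2.commTerms 7 10 = [] := by decide +kernel

theorem x6_8 (t u : F) : X 6 t * X 8 u = X 8 u * X 6 t := X_comm (by norm_num) (by norm_num) (by norm_num) (by decide) c6_8 t u
theorem x6_9 (t u : F) : X 6 t * X 9 u = X 9 u * X 6 t := X_comm (by norm_num) (by norm_num) (by norm_num) (by decide) c6_9 t u
theorem x6_11 (t u : F) : X 6 t * X 11 u = X 11 u * X 6 t := X_comm (by norm_num) (by norm_num) (by norm_num) (by decide) c6_11 t u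
theorem x8_11 (t u : F) : X 8 t * X 11 u = X 11 u * X 8 t := X_comm (by norm_num) (by norm_num) (by norm_num) (by decide) c8_11 t u
theorem x9_11 (t u : F) : X 9 t * X 11 u = X 11 u * X 9 t := X_comm (by norm_num) (by norm_num) (by norm_num) (by decide) c9_11 t u
theorem x7_11 (t u : F) : X 7 t * X 11 u = X 11 u * X 7 t := X_comm (by norm_num) (by norm_num) (by norm_num) (by decide) c7_11 t u
theorem x8_10 (t u : F) : X 8 t * X 10 u = X 10 u * X 8 t := X_comm (by norm_num) (by norm_num) (by norm_num) (by decide) c8_10 t u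
theorem x9_10 (t u : F) : X 9 t * X 10 u = X 10 u * X 9 t := X_comm (by norm_num) (by norm_num) (by norm_num) (by decide) c9_10 t u
theorem x10_11 (t u : F) : X 10 t * X 11 u = X 11 u * X 10 t := X_comm (by norm_num) (by norm_num) (by norm_num) (by decide) c10_11 t u
theorem x7_10 (t u : F) : X 7 t * X 10 u = X 10 u * X 7 t := X_comm (by norm_num) (by norm_num) (by norm_num) (by decide) c7_10 t u

theorem y01 (t : F) : (S3 F).y 0 1 t = X 6 t := rfl
theorem y12 (t : F) : (S3 F).y 1 2 t = X 10 t := rfl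
theorem y02 (t : F) : (S3 F).y 0 2 t = X 11 t := rfl

end rel

section

variable {F : Type*} [Field F] [Fintype F] {V : Type*} [AddCommGroup V] [Module ℂ V]
  {ρ : Representation ℂ (chevG2.group F) V} {ψ : AddChar F ℂ}

theorem kk {r s : ℕ} (h : ∀ t u : F, X r t * X s u = X s u * X r t) (a b : F) :
    pr ρ ψ (X r) a * pr ρ ψ (X s) b = pr ρ ψ (X s) b * pr ρ ψ (X r) a :=
  pr_comm (fun u => (pr_comm (A := ρ (X s u)) (fun t => by rw [← map_mul, ← map_mul, h]) a).symm) b

theorem rr {r s : ℕ} (h : ∀ t u : F, X r t * X s u = X s u * X r t) (t b : F) :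
    ρ (X r t) * pr ρ ψ (X s) b = pr ρ ψ (X s) b * ρ (X r t) :=
  pr_comm (fun u => by rw [← map_mul, ← map_mul, h]) b

variable [FiniteDimensional ℂ V] (hψ : ψ ≠ 1)

include hψ

theorem heis (h3 : (3 : F) ≠ 0) : ∃ μ : ℕ, d1 (S3 F) ρ ψ = Fintype.card F * μ := by
  have h1 := tr_d1 (S := S3 F) (σ := ρ) (ψ := ψ)
  change LinearMap.trace ℂ V (pr ρ ψ (X 6) 0 * pr ρ ψ (X 11) 1) = _ at h1
  rw [kk x6_11] at h1
  have h2 := pr_free_sum (ρ := ρ) hψ (xs := X 9) (xr := X 8) (xt := X 11) (X_add (by norm_num)) (X_add (by norm_num))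
    (n := -3) (neg_ne_zero.mpr h3) (fun a b => by
      rw [X_conj (by norm_num) (by norm_num) (by norm_num) (by norm_num) (by decide) c89]; push_cast; rfl) x9_11 (c := 1) one_ne_zero
    (A := pr ρ ψ (X 6) 0) (fun a => rr (fun t u => (x6_9 u t).symm) a 0) 0
  rw [h1] at h2
  have hid : (pr ρ ψ (X 8) 0 * pr ρ ψ (X 11) 1 * pr ρ ψ (X 6) 0) * (pr ρ ψ (X 8) 0 * pr ρ ψ (X 11) 1 * pr ρ ψ (X 6) 0) =
      pr ρ ψ (X 8) 0 * pr ρ ψ (X 11) 1 * pr ρ ψ (X 6) 0 := by
    apply MinDegC.idem_mul (MinDegC.idem_mul (pr_self (X_add (by norm_num)) 0) (pr_self (X_add (by norm_num)) 1) (kk x8_11 0 1))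
      (pr_self (X_add (by norm_num)) 0)
    rw [mul_assoc, ← kk x6_11, ← mul_assoc, ← kk x6_8, mul_assoc]
  rw [tr_rank hid] at h2
  exact ⟨_, by exact_mod_cast h2⟩

theorem triv_of_d1 (h : d1 (S3 F) ρ ψ = 0) (t : F) : ρ (X 11 t) = 1 := by
  have h1 : ∀ c : F, c ≠ 0 → pr ρ ψ (X 11) c = 0 := by
    intro c hc
    apply eq_zero_of_trace (pr_self (X_add (by norm_num)) c)
    have := tr02 (S := S3 F) (σ := ρ) hψ hc
    rw [h, Nat.cast_zero, mul_zero] at this
    exact this
  have h2 : (1 : Module.End ℂ V) = pr ρ ψ (X 11) 0 := by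
    rw [← sum_pr (ρ := ρ) hψ (x := X 11) (X_add (by norm_num)), Finset.sum_eq_single (0 : F) (fun c _ hc => h1 c hc)
      (fun h => absurd (Finset.mem_univ _) h)]
  calc ρ (X 11 t) = ρ (X 11 t) * 1 := (mul_one _).symm
    _ = 1 := by rw [h2, fix_pr (X_add (by norm_num))]

end

section final

variable {F : Type v} [Field F] [Fintype F] {V : Type u} [AddCommGroup V] [Module ℂ V] [FiniteDimensional ℂ V]
  {ρ : Representation ℂ (chevG2.group F) V} {ψ : AddChar F ℂ} (hψ : ψ ≠ 1)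

theorem card_SL3 : Nat.card (Matrix.SpecialLinearGroup (Fin 3) F) =
    Fintype.card F ^ 3 * (Fintype.card F ^ 2 - 1) * (Fintype.card F ^ 3 - 1) := by
  have h := ClSLn.card_SL_formula (F := F) rfl 3 (by norm_num)
  have hq : 2 ≤ Fintype.card F := Fintype.one_lt_card
  simp only [Finset.prod_range_succ, Finset.prod_range_zero, one_mul, zero_add, pow_one] at h
  have e : 3 * (3 - 1) / 2 = 3 := by norm_num
  rw [e] at h
  have h2 : (Fintype.card F - 1) * Nat.card (Matrix.SpecialLinearGroup (Fin 3) F) = (Fintype.card F - 1) *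
      (Fintype.card F ^ 3 * (Fintype.card F ^ 2 - 1) * (Fintype.card F ^ 3 - 1)) := by
    rw [h]; ring
  exact Nat.eq_of_mul_eq_mul_left (by omega) h2

theorem hmin3 (hq : 7 ≤ Fintype.card F) (W : Type u) [AddCommGroup W] [Module ℂ W] [FiniteDimensional ℂ W]
    (τ : Representation ℂ (Matrix.SpecialLinearGroup (Fin 3) F) W) (hτ : τ.IsIrreducible) (h2 : 2 ≤ Module.finrank ℂ W) :
    Fintype.card F ^ 2 + Fintype.card F ≤ Module.finrank ℂ W := by
  classical
  have h3 := SLMin.lower (n := 3) (F := F) τ (by norm_num) (fun _ => ⟨by omega, by omega⟩) (by norm_num) hτ h2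
  obtain ⟨y, hy⟩ := Nat.exists_eq_add_of_le' hq
  rw [hy] at h3 ⊢
  have e1 : y + 7 - 1 = y + 6 := rfl
  rw [e1] at h3
  have e2 : (y + 7) ^ 3 - (y + 7) = (y + 6) * ((y + 7) ^ 2 + (y + 7)) := by
    apply Nat.sub_eq_of_eq_add
    ring
  rw [e2] at h3
  exact Nat.le_of_mul_le_mul_left h3 (by omega)

/-- SL3 is generated by the elementary matrices -/
theorem SL_comm {Q : Type*} [Group Q] (φ : Matrix.SpecialLinearGroup (Fin 3) F →* Q) (z : Q)
    (h : ∀ i j, i ≠ j → ∀ t, z * φ ((SSL F).y i j t) = φ ((SSL F).y i j t) * z) (g : Matrix.SpecialLinearGroup (Fin 3) F) :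
    z * φ g = φ g * z := by
  obtain ⟨e, he⟩ := Cfsg.Agent.S2401.result (K := F) 3 (by norm_num)
  have h1 : ∀ p : _, z * φ (e p) = φ (e p) * z := by
    intro p
    have hp : p ∈ Subgroup.closure (Set.range PresentedGroup.of) := by
      rw [PresentedGroup.closure_range_of]; exact Subgroup.mem_top p
    induction hp using Subgroup.closure_induction with
    | mem x hx =>
      obtain ⟨⟨a, t⟩, rfl⟩ := hx
      have h2 : e (PresentedGroup.of (a, t)) = (SSL F).y a.1.1 a.1.2 t := by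
        apply Subtype.ext
        rw [he]
        show _ = ((if h : a.1.1 ≠ a.1.2 then UCESLn.x ⟨(a.1.1, a.1.2), h⟩ t else 1 : Matrix.SpecialLinearGroup (Fin 3) F) :
          Matrix (Fin 3) (Fin 3) F)
        rw [dif_pos a.2]
        exact (UCESLn.x_coe _ t).symm
      rw [h2]
      exact h _ _ a.2 t
    | one => rw [map_one, map_one, mul_one, one_mul]
    | mul x y _ _ hx hy => rw [map_mul, map_mul, ← mul_assoc, hx, mul_assoc, hy, ← mul_assoc]
    | inv x _ hx =>
      rw [map_inv, map_inv]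
      exact ((Commute.inv_right (show Commute z (φ (e x)) from hx)))
  have := h1 (e.symm g)
  rwa [e.apply_symm_apply] at this

theorem exists_omega (h3 : Fintype.card F % 3 = 1) : ∃ ω : F, ω ≠ 0 ∧ ω ≠ 1 ∧ ω ^ 3 = 1 := by
  classical
  haveI : Fact (Nat.Prime 3) := ⟨Nat.prime_three⟩
  have hq : 1 < Fintype.card F := Fintype.one_lt_card
  have hd : 3 ∣ Fintype.card Fˣ := by
    rw [Fintype.card_units]; omega
  obtain ⟨w, hw⟩ := exists_prime_orderOf_dvd_card 3 hd
  refine ⟨w, w.ne_zero, ?_, ?_⟩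
  · intro h
    have h1 : w = 1 := Units.ext h
    rw [h1, orderOf_one] at hw
    omega
  · have h1 : w ^ 3 = 1 := by rw [← hw]; exact pow_orderOf_eq_one w
    have := congrArg Units.val h1
    simpa using this

include hψ

/-- the contradiction: a large irreducible constituent for SL3 -/
theorem contra (h7 : 7 ≤ Fintype.card F) (h3 : Fintype.card F % 3 = 1) (h3' : (3 : F) ≠ 0)
    (hd : d1 (S3 F) ρ ψ = Fintype.card F) (φ : Matrix.SpecialLinearGroup (Fin 3) F →* chevG2.group F)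
    (hφ : ∀ i j, i ≠ j → ∀ t, φ ((SSL F).y i j t) = (S3 F).y i j t)
    (W : Type u) [AddCommGroup W] [Module ℂ W] [FiniteDimensional ℂ W]
    (τ : Representation ℂ (Matrix.SpecialLinearGroup (Fin 3) F) W) (f : W →ₗ[ℂ] V)
    (hτ : τ.IsIrreducible) (hf : ∀ g w, f (τ g w) = ρ (φ g) (f w)) (hinj : Function.Injective f)
    (hW : Fintype.card F ^ 3 ≤ Module.finrank ℂ W + 1) (hV : Module.finrank ℂ V ≤ Fintype.card F ^ 3) : False := by
  classical
  haveI := hτ
  set q := Fintype.card F with hq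
  obtain ⟨ω, hω0, hω1, hω3⟩ := exists_omega h3
  set z : chevG2.group F := tor ω 1 with hz
  have hz1 : ∀ {s : ℕ} (_ : s < 12) {m n : ℤ}
      (_ : [((0 : ℤ), (-1 : ℤ)), (-3, 1), (-1, 0), (1, -1), (-2, 1), (3, -2), (-3, 2), (2, -1), (-1, 1), (1, 0), (3, -1), (0, 1)].getD s (0, 0) = (m, n))
      (t : F), z * X s t * z⁻¹ = X s (ω ^ m * t) := by
    intro s hs m n h t
    rw [hz, tor_conj' hω0 one_ne_zero hs h, one_zpow, mul_one]
  have hωz : ω ^ (3 : ℤ) = 1 := by exact_mod_cast hω3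
  have hωz' : ω ^ (-3 : ℤ) = 1 := by rw [zpow_neg, hωz, inv_one]
  have hlong : ∀ i j : Fin 3, i ≠ j → ∀ t, z * (S3 F).y i j t = (S3 F).y i j t * z := by
    intro i j hij t
    have h1 : z * (S3 F).y i j t * z⁻¹ = (S3 F).y i j t := by
      revert hij
      revert i j
      intro i j
      fin_cases i <;> fin_cases j <;> intro hij
      · exact absurd rfl hij
      · change z * X 6 t * z⁻¹ = X 6 t
        rw [hz1 (s := 6) (by norm_num) (m := -3) (n := 2) rfl, hωz', one_mul]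
      · change z * X 11 t * z⁻¹ = X 11 t
        rw [hz1 (s := 11) (by norm_num) (m := 0) (n := 1) rfl, zpow_zero, one_mul]
      · change z * X 5 t * z⁻¹ = X 5 t
        rw [hz1 (s := 5) (by norm_num) (m := 3) (n := -2) rfl, hωz, one_mul]
      · exact absurd rfl hij
      · change z * X 10 t * z⁻¹ = X 10 t
        rw [hz1 (s := 10) (by norm_num) (m := 3) (n := -1) rfl, hωz, one_mul]
      · change z * X 0 t * z⁻¹ = X 0 t
        rw [hz1 (s := 0) (by norm_num) (m := 0) (n := -1) rfl, zpow_zero, one_mul]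
      · change z * X 1 t * z⁻¹ = X 1 t
        rw [hz1 (s := 1) (by norm_num) (m := -3) (n := 1) rfl, hωz', one_mul]
      · exact absurd rfl hij
    exact mul_inv_eq_iff_eq_mul.mp h1
  have hcomm : ∀ g, z * φ g = φ g * z := SL_comm φ z (fun i j hij t => by rw [hφ i j hij]; exact hlong i j hij t)
  have h343 : 7 * 7 * 7 ≤ q ^ 3 := by
    have := Nat.pow_le_pow_left h7 3
    omega
  -- the range is stable
  let N : Subrepresentation τ :=
    { toSubmodule := (LinearMap.range f).comap ((ρ z) ∘ₗ f)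
      apply_mem_toSubmodule := by
        intro g w hw
        obtain ⟨w', hw'⟩ := hw
        refine ⟨τ g w', ?_⟩
        show f (τ g w') = ρ z (f (τ g w))
        rw [hf, hf, hw']
        show (ρ (φ g) * ρ z) (f w) = (ρ z * ρ (φ g)) (f w)
        rw [← map_mul, ← map_mul, hcomm] }
  have hNtop : N = ⊤ := by
    rcases hτ.2 N with h | h
    · exfalso
      -- dimension
      have hinj2 : Function.Injective ((ρ z) ∘ₗ f) := by
        intro a b hab
        apply hinj
        have h1 : ρ z (f a) = ρ z (f b) := hab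
        have h2 := congrArg (ρ z⁻¹) h1
        rwa [← Module.End.mul_apply, ← Module.End.mul_apply, ← map_mul, inv_mul_cancel, map_one] at h2
      have e1 := LinearMap.finrank_range_of_inj hinj
      have e2 := LinearMap.finrank_range_of_inj hinj2
      have e3 := Submodule.finrank_sup_add_finrank_inf_eq (LinearMap.range f) (LinearMap.range ((ρ z) ∘ₗ f))
      have e4 := Submodule.finrank_le (LinearMap.range f ⊔ LinearMap.range ((ρ z) ∘ₗ f))
      have e5 : 0 < Module.finrank ℂ ↥(LinearMap.range f ⊓ LinearMap.range ((ρ z) ∘ₗ f)) := by omega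
      obtain ⟨⟨v, hv1, hv2⟩, hv0⟩ := Module.finrank_pos_iff_exists_ne_zero.mp e5
      obtain ⟨w, rfl⟩ := hv2
      have hw : w ∈ N.toSubmodule := hv1
      rw [h] at hw
      have hw0 : w = 0 := hw
      apply hv0
      apply Subtype.ext
      show ((ρ z) ∘ₗ f) w = 0
      rw [hw0, map_zero]
    · exact h
  have hstab : ∀ w, ∃ w', f w' = ρ z (f w) := by
    intro w
    have : w ∈ N.toSubmodule := by rw [hNtop]; trivial
    exact this
  let eq := LinearEquiv.ofInjective f hinj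
  let k : W →ₗ[ℂ] W := eq.symm.toLinearMap ∘ₗ ((ρ z) ∘ₗ f).codRestrict (LinearMap.range f) (fun w => hstab w)
  have hk : ∀ w, f (k w) = ρ z (f w) := by
    intro w
    have := LinearEquiv.apply_symm_apply eq ⟨ρ z (f w), hstab w⟩
    exact congrArg Subtype.val this
  obtain ⟨κ, hκ⟩ := CharCentral.exists_scalar_of_commute τ k (by
    intro g w
    apply hinj
    rw [hk, hf, hf, hk]
    show (ρ z * ρ (φ g)) (f w) = (ρ (φ g) * ρ z) (f w)
    rw [← map_mul, ← map_mul, hcomm])
  have hκ' : ∀ y ∈ LinearMap.range f, ρ z y = κ • y := by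
    rintro _ ⟨w, rfl⟩
    rw [← hk, hκ, LinearMap.smul_apply, LinearMap.id_apply, map_smul]
  -- the multiplicity of the weights of x9
  obtain ⟨s0, hs0⟩ : ∃ s0 : F, ψ s0 ≠ 1 := by
    by_contra hcon
    push Not at hcon
    exact hψ (by ext t; rw [hcon t, AddChar.one_apply])
  have hD : q ≤ Module.finrank ℂ (LinearMap.range (pr ρ ψ (X 9) 1)) := by
    have hP := pr_self (ρ := ρ) (ψ := ψ) (x := X 9) (X_add (by norm_num)) 1
    have hR := pr_self (ρ := ρ) (ψ := ψ) (x := X 11) (X_add (by norm_num)) 1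
    obtain ⟨j, hj, hj2⟩ := trace_mul_le hP hR (kk x9_11 1 1) (tr_rank hP)
    have h2 := pr_free_sum (ρ := ρ) hψ (xs := X 8) (xr := X 9) (xt := X 11) (X_add (by norm_num)) (X_add (by norm_num))
      (n := 3) h3' (fun a b => by
        rw [X_conj (by norm_num) (by norm_num) (by norm_num) (by norm_num) (by decide) c98]; push_cast; rw [neg_neg]) x8_11 (c := 1) one_ne_zero
      (A := 1) (fun a => by rw [mul_one, one_mul]) 1
    rw [mul_one, mul_one, hj2] at h2
    have h4 := tr02 (S := S3 F) (σ := ρ) hψ (c := 1) one_ne_zero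
    change LinearMap.trace ℂ V (pr ρ ψ (X 11) 1) = _ at h4
    rw [h4, hd] at h2
    have hq0 : (Fintype.card F : ℂ) ≠ 0 := by exact_mod_cast Fintype.card_ne_zero
    have h5 : (q : ℂ) = j := mul_left_cancel₀ hq0 h2
    have h6 : q = j := by exact_mod_cast h5
    rw [h6]; exact hj
  -- the intersection
  set t0 : F := (ω - 1)⁻¹ * s0 with ht0
  set Y := LinearMap.range f with hY
  have eY : Module.finrank ℂ Y = Module.finrank ℂ W := LinearMap.finrank_range_of_inj hinj
  have hinj9 : Function.Injective (ρ (X 9 t0)) := by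
    intro a b h1
    have h2 := congrArg (ρ (X 9 t0)⁻¹) h1
    rwa [← Module.End.mul_apply, ← Module.End.mul_apply, ← map_mul, inv_mul_cancel, map_one] at h2
  have eY2 : Module.finrank ℂ (Y.map (ρ (X 9 t0))) = Module.finrank ℂ W := by
    rw [← (Submodule.equivMapOfInjective (ρ (X 9 t0)) hinj9 Y).finrank_eq, eY]
  have e3 := Submodule.finrank_sup_add_finrank_inf_eq Y (Y.map (ρ (X 9 t0)))
  have e4 := Submodule.finrank_le (Y ⊔ Y.map (ρ (X 9 t0)))
  have e5 := Submodule.finrank_sup_add_finrank_inf_eq (Y ⊓ Y.map (ρ (X 9 t0))) (LinearMap.range (pr ρ ψ (X 9) 1))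
  have e6 := Submodule.finrank_le (Y ⊓ Y.map (ρ (X 9 t0)) ⊔ LinearMap.range (pr ρ ψ (X 9) 1))
  have e7 : 0 < Module.finrank ℂ ↥(Y ⊓ Y.map (ρ (X 9 t0)) ⊓ LinearMap.range (pr ρ ψ (X 9) 1)) := by omega
  obtain ⟨⟨v, ⟨hv1, hv2⟩, hv3⟩, hv0⟩ := Module.finrank_pos_iff_exists_ne_zero.mp e7
  obtain ⟨v', hv', rfl⟩ := hv2
  have hne : ρ (X 9 t0) v' ≠ 0 := fun h => hv0 (Subtype.ext h)
  have hκ0 : κ ≠ 0 := by
    intro h0
    have h1 := hκ' _ hv1
    rw [h0, zero_smul] at h1
    have h2 := congrArg (ρ z⁻¹) h1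
    rw [← Module.End.mul_apply, ← map_mul, inv_mul_cancel, map_one, map_zero] at h2
    exact hne h2
  have hu : z * X 9 t0 * z⁻¹ = X 9 (ω * t0) := by
    rw [hz1 (s := 9) (by norm_num) (m := 1) (n := 0) rfl, zpow_one]
  have hu2 : (X 9 s0 : chevG2.group F) * X 9 t0 = z * X 9 t0 * z⁻¹ := by
    rw [hu, X_add (by norm_num)]
    congr 1
    have : ω - 1 ≠ 0 := sub_ne_zero.mpr hω1
    rw [ht0]; field_simp; ring
  have h8 : ρ (X 9 s0) (ρ (X 9 t0) v') = ρ (X 9 t0) v' := by
    rw [← Module.End.mul_apply, ← map_mul, hu2, map_mul, map_mul, Module.End.mul_apply, Module.End.mul_apply]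
    have h9 : ρ z⁻¹ v' = κ⁻¹ • v' := by
      have h10 := hκ' _ hv'
      have h11 := congrArg (ρ z⁻¹) h10
      rw [← Module.End.mul_apply, ← map_mul, inv_mul_cancel, map_one, map_smul] at h11
      rw [show v' = κ • ρ z⁻¹ v' from h11, map_smul, smul_smul, inv_mul_cancel₀ hκ0, one_smul]
      have : ρ z⁻¹ v' = ρ z⁻¹ (κ • ρ z⁻¹ v') := by rw [← h11]; rfl
      rw [map_smul] at this
      exact this.symm
    rw [h9, map_smul, map_smul, hκ' _ hv1, smul_smul, inv_mul_cancel₀ hκ0, one_smul]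
  obtain ⟨y, hy⟩ := hv3
  have h12 : ρ (X 9 s0) (ρ (X 9 t0) v') = ψ s0 • (ρ (X 9 t0) v') := by
    rw [← hy, ← Module.End.mul_apply, mul_pr (X_add (by norm_num)), one_mul, LinearMap.smul_apply]
  rw [h12] at h8
  have h13 : (ψ s0 - 1) • (ρ (X 9 t0) v') = 0 := by rw [sub_smul, one_smul, h8, sub_self]
  rcases smul_eq_zero.mp h13 with h | h
  · exact hs0 (sub_eq_zero.mp h)
  · exact hne h

/-- **q prime to 3** -/
theorem main_ne3 (h3' : (3 : F) ≠ 0) (hnt : ∃ u, ρ (X 11 u) ≠ 1) (hpp : IsPrimePow (Fintype.card F)) :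
    (Fintype.card F % 3 = 1 → 4 < Fintype.card F → Fintype.card F ^ 3 + 1 ≤ Module.finrank ℂ V) ∧
    (Fintype.card F % 3 = 2 → 2 < Fintype.card F → Fintype.card F ^ 3 - 1 ≤ Module.finrank ℂ V) := by
  classical
  set q := Fintype.card F with hq
  obtain ⟨μ, hμ⟩ := heis (ρ := ρ) hψ h3'
  have hμ0 : μ ≠ 0 := by
    rintro rfl
    obtain ⟨u, hu⟩ := hnt
    exact hu (triv_of_d1 hψ (by rw [hμ, mul_zero]) u)
  have hq2 : 2 ≤ q := Fintype.one_lt_card
  rcases Nat.lt_or_ge μ 2 with h2 | h2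
  · have h1 : μ = 1 := by omega
    rw [h1, mul_one] at hμ
    constructor
    · intro h3 h4
      have h7 : 7 ≤ q := by omega
      have h10 : q ≠ 10 := by
        intro h10
        rw [h10] at hpp
        obtain ⟨p, k, hp, hk, e⟩ := hpp
        have hp' : p.Prime := Nat.prime_iff.mpr hp
        have h2 : 2 ∣ p ^ k := by rw [e]; norm_num
        have h5 : 5 ∣ p ^ k := by rw [e]; norm_num
        have e2 := (Nat.prime_dvd_prime_iff_eq Nat.prime_two hp').mp (Nat.prime_two.dvd_of_dvd_pow h2)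
        have e5 := (Nat.prime_dvd_prime_iff_eq Nat.prime_five hp').mp (Nat.prime_five.dvd_of_dvd_pow h5)
        omega
      obtain ⟨φ, hφ⟩ := exists_hom (S3 F)
      have hpr : ∀ i j, i ≠ j → ∀ a : F, MinG2A.pr (ρ.comp φ) ψ ((SSL F).y i j) a = MinG2A.pr ρ ψ ((S3 F).y i j) a := by
        intro i j hij a
        unfold MinG2A.pr Er
        congr 1
        funext t
        show ρ (φ _) = _
        rw [hφ i j hij]
      have hd : d1 (SSL F) (ρ.comp φ) ψ = q := by
        refine Eq.trans ?_ hμ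
        unfold d1
        rw [hpr 0 1 (by decide), hpr 0 2 (by decide)]
      rcases bound1 (SSL F) hψ V (ρ.comp φ) h7 h3 h10 hd card_SL3 (fun W _ _ _ τ => hmin3 h7 W τ) with h | h
      · exact h
      · obtain ⟨W, i1, i2, i3, τ, f, e1, e2, e3, e4⟩ := h
        by_contra hcon
        exact contra hψ h7 h3 h3' hμ φ hφ W τ f e1 e2 e3 e4 (by rw [← hq]; omega)
    · intro h3 h4
      exact bound2 (S3 F) hψ ρ h4 h3 hμ
  · have hdim := dim_formula (S := S3 F) (σ := ρ) hψ
    rw [hμ, ← hq] at hdim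
    have h5 : q * q * (q * μ) = q ^ 3 * μ := by ring
    have h6 : q ^ 3 * 2 ≤ q ^ 3 * μ := Nat.mul_le_mul_left _ h2
    obtain ⟨ν, hν⟩ := Nat.exists_eq_add_of_le' h2
    have h7 : mm (S3 F) ρ ψ 0 1 ≤ q * mm (S3 F) ρ ψ 0 1 := Nat.le_mul_of_pos_left _ (by omega)
    obtain ⟨y, hy⟩ := Nat.exists_eq_add_of_le' hq2
    have h8 : q ^ 3 * μ = q ^ 3 * 2 + q ^ 3 * ν := by rw [hν]; ring
    have h9 : q * μ = q * 2 + q * ν := by rw [hν]; ring
    have h10 : q * ν ≤ q ^ 3 * ν := Nat.mul_le_mul_right _ (by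
      calc q = q ^ 1 := (pow_one q).symm
        _ ≤ q ^ 3 := Nat.pow_le_pow_right (by omega) (by norm_num))
    have h11 : q * 2 + 1 ≤ q ^ 3 := by
      rw [hy]
      have : (y + 2) ^ 3 = y ^ 3 + 6 * y ^ 2 + 12 * y + 8 := by ring
      rw [this]
      omega
    constructor <;> intro _ _ <;> omega

end final

end Cfsg.Agent.Lib.MinG2D
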