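import Cfsg.Agent.Lib.MinG2D

/-!
Weight multiplicities for G2(q), q a power of 3: the relations (helper18).
-/

set_option autoImplicit false
set_option linter.unusedSectionVars false

universe u v

namespace Cfsg.Agent.Lib.MinG2E

open Cfsg.Lie Cfsg.Agent.Lib.ChevX Cfsg.Agent.Lib.ChevGood
open Cfsg.Agent.Lib.UCEBase Cfsg.Agent.Lib.UCESymbol Cfsg.Agent.Lib.UCESys
open Cfsg.Agent.Lib.WeightProj Cfsg.Agent.Lib.MinDegA Cfsg.Agent.Lib.MinG2A Cfsg.Agent.Lib.MinG2B Cfsg.Agent.Lib.MinG2C
open Cfsg.Agent.Lib.MinG2D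

/-! ### general lemmas -/

section gen

variable {F : Type*} [Field F] [Fintype F] {Q : Type*} [Group Q] {V : Type*} [AddCommGroup V] [Module ℂ V]
  {ρ : Representation ℂ Q V} {ψ : AddChar F ℂ}

/-- conjugation shifting the weights -/
theorem shift {g : Q} {x : F → Q} {R : Module.End ℂ V} (hR : ρ g * R = R * ρ g) {m : F}
    (h : ∀ b, ρ (g * x b * g⁻¹) * R = ψ (m * b) • (ρ (x b) * R)) (a : F) :
    ρ g * (pr ρ ψ x a * R) = pr ρ ψ x (a - m) * R * ρ g := by
  unfold pr Er E
  rw [smul_mul_assoc, mul_smul_comm, smul_mul_assoc, smul_mul_assoc, Finset.sum_mul, Finset.mul_sum, Finset.sum_mul,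
    Finset.sum_mul]
  congr 1
  refine Finset.sum_congr rfl (fun b _ => ?_)
  rw [smul_mul_assoc, mul_smul_comm, smul_mul_assoc, smul_mul_assoc, AddChar.mulShift_apply, AddChar.mulShift_apply]
  have h1 : ρ g * (ρ (x b) * R) = ψ (m * b) • (ρ (x b) * R * ρ g) := by
    have h2 : ρ g * ρ (x b) = ρ (g * x b * g⁻¹) * ρ g := by
      rw [← map_mul, ← map_mul]; congr 1; group
    rw [← mul_assoc, h2, mul_assoc, hR, ← mul_assoc, h, smul_mul_assoc]
  rw [h1, smul_smul, ← AddChar.map_add_eq_mul]
  congr 2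
  ring

/-- the rank of an endomorphism -/
noncomputable def tn (P : Module.End ℂ V) : ℕ := Module.finrank ℂ (LinearMap.range P)

variable [FiniteDimensional ℂ V]

theorem tr_tn {P : Module.End ℂ V} (hP : P * P = P) : LinearMap.trace ℂ V P = tn P := tr_rank hP

theorem tn_conj {g : Q} {P P' : Module.End ℂ V} (hP : P * P = P) (hP' : P' * P' = P') (h : ρ g * P = P' * ρ g) :
    tn P = tn P' := by
  have := tr_conj h
  rw [tr_tn hP, tr_tn hP'] at this
  exact_mod_cast this

theorem tn_sum {ι : Type*} (s : Finset ι) {P : Module.End ℂ V} {f : ι → Module.End ℂ V} (hP : P * P = P)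
    (hf : ∀ i ∈ s, f i * f i = f i) (h : P = ∑ i ∈ s, f i) : tn P = ∑ i ∈ s, tn (f i) := by
  have h1 : (tn P : ℂ) = ((∑ i ∈ s, tn (f i) : ℕ) : ℂ) := by
    rw [← tr_tn hP, h, map_sum]
    push_cast
    exact Finset.sum_congr rfl (fun i hi => tr_tn (hf i hi))
  exact_mod_cast h1

theorem tn_zero {P : Module.End ℂ V} (hP : P * P = P) (h : tn P = 0) : P = 0 :=
  eq_zero_of_trace hP (by rw [tr_tn hP, h, Nat.cast_zero])

theorem tn_eq_of_trace {P P' : Module.End ℂ V} (hP : P * P = P) (hP' : P' * P' = P') {c : ℕ}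
    (h : LinearMap.trace ℂ V P = c * LinearMap.trace ℂ V P') : tn P = c * tn P' := by
  rw [tr_tn hP, tr_tn hP'] at h
  exact_mod_cast h

theorem tn_one : tn (1 : Module.End ℂ V) = Module.finrank ℂ V := by
  unfold tn
  rw [show (1 : Module.End ℂ V) = LinearMap.id from rfl, LinearMap.range_id, finrank_top]

end gen

/-! ### sums invariant under a translation -/

section trans

variable {F : Type*} [Field F] [Fintype F]

theorem three_dvd_sum (h3 : (3 : F) = 0) {m : F} (hm : m ≠ 0) (g : F → ℕ) (hg : ∀ a, g (a + m) = g a) :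
    3 ∣ ∑ a, g a := by
  classical
  set H : AddSubgroup F := AddSubgroup.zmultiples m with hH
  have hcard : Nat.card H = 3 := by
    rw [hH, Nat.card_zmultiples]
    haveI : Fact (Nat.Prime 3) := ⟨Nat.prime_three⟩
    apply addOrderOf_eq_prime
    · rw [nsmul_eq_mul]
      have : ((3 : ℕ) : F) = 0 := by exact_mod_cast h3
      rw [this, zero_mul]
    · exact hm
  have hg' : ∀ h ∈ H, ∀ a, g (a + h) = g a := by
    intro h hh
    rw [hH, AddSubgroup.zmultiples_eq_closure] at hh
    induction hh using AddSubgroup.closure_induction with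
    | mem x hx => rw [Set.mem_singleton_iff.mp hx]; exact hg
    | zero => intro a; rw [add_zero]
    | add x y _ _ hx hy => intro a; rw [← add_assoc, hy, hx]
    | neg x _ hx => intro a; rw [← hx (a + -x), neg_add_cancel_right]
  have hconst : ∀ u v : F, (QuotientAddGroup.mk' H) u = (QuotientAddGroup.mk' H) v → g u = g v := by
    intro u v h
    have h1 : -u + v ∈ H := QuotientAddGroup.eq.mp h
    have h2 := hg' _ h1 u
    rw [add_neg_cancel_left] at h2
    exact h2.symm
  set c := (Finset.univ.filter (fun u : F => (QuotientAddGroup.mk' H) u = 0)).card with hc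
  have hc3 : c = 3 := by
    rw [hc, ← hcard, Nat.card_eq_fintype_card, Fintype.card_subtype]
    congr 1
    ext u
    simp only [Finset.mem_filter, Finset.mem_univ, true_and]
    exact QuotientAddGroup.eq_zero_iff u
  have hfib : ∀ x : F ⧸ H, (Finset.univ.filter (fun u : F => (QuotientAddGroup.mk' H) u = x)).card = c := by
    intro x
    exact AddMonoidHom.card_fiber_eq_of_mem_range (QuotientAddGroup.mk' H)
      ⟨_, (QuotientAddGroup.mk'_surjective H x).choose_spec⟩ ⟨0, map_zero _⟩
  rw [← Finset.sum_fiberwise Finset.univ (QuotientAddGroup.mk' H) g]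
  apply Finset.dvd_sum
  intro x _
  rw [Finset.sum_congr rfl (fun u hu => hconst u (QuotientAddGroup.mk'_surjective H x).choose (by
      rw [(QuotientAddGroup.mk'_surjective H x).choose_spec]
      exact (Finset.mem_filter.mp hu).2)), Finset.sum_const, hfib, hc3, smul_eq_mul]
  exact dvd_mul_right _ _

theorem exists_shift (hq : 3 < Fintype.card F) {a b : F} (h : a ≠ 0 ∨ b ≠ 0) : ∃ s : F, -(s * a) + s ^ 3 * b ≠ 0 := by
  classical
  by_contra hcon
  push Not at hcon
  set P : Polynomial F := -(Polynomial.C a * Polynomial.X) + Polynomial.C b * Polynomial.X ^ 3 with hP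
  have hP0 : P ≠ 0 := by
    intro h0
    have h1 : P.coeff 1 = -a := by
      rw [hP]
      simp [Polynomial.coeff_X_pow]
    have h2 : P.coeff 3 = b := by
      rw [hP]
      simp [Polynomial.coeff_X_pow]
    rw [h0, Polynomial.coeff_zero] at h1 h2
    rcases h with h | h
    · exact h (neg_eq_zero.mp h1.symm)
    · exact h h2.symm
  have hdeg : P.natDegree ≤ 3 := by
    rw [hP]
    compute_degree
  have hroots : (Finset.univ : Finset F) ⊆ P.roots.toFinset := by
    intro s _
    rw [Multiset.mem_toFinset, Polynomial.mem_roots hP0, Polynomial.IsRoot.def, hP]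
    simp only [Polynomial.eval_add, Polynomial.eval_neg, Polynomial.eval_mul, Polynomial.eval_C, Polynomial.eval_X,
      Polynomial.eval_pow]
    rw [← hcon s]; ring
  have h1 := Finset.card_le_card hroots
  rw [Finset.card_univ] at h1
  have h2 := Multiset.toFinset_card_le P.roots
  have h3 := Polynomial.card_roots' P
  omega

/-- the sum over the squares -/
theorem sum_sq [DecidableEq F] (h : F → ℕ) (c : F) (hc : c ≠ 0) : ∑ u : Fˣ, h (c * (u : F) ^ 2) ≤ 2 * ∑ e, h e := by
  classical
  have h1 : ∑ u : Fˣ, h (c * (u : F) ^ 2) = ∑ e : F, ∑ u ∈ Finset.univ.filter (fun u : Fˣ => c * (u : F) ^ 2 = e), h e := by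
    rw [← Finset.sum_fiberwise Finset.univ (fun u : Fˣ => c * (u : F) ^ 2)]
    refine Finset.sum_congr rfl (fun e _ => Finset.sum_congr rfl (fun u hu => ?_))
    rw [(Finset.mem_filter.mp hu).2]
  rw [h1, Finset.mul_sum]
  refine Finset.sum_le_sum (fun e _ => ?_)
  rw [Finset.sum_const, smul_eq_mul]
  apply Nat.mul_le_mul_right
  rcases (Finset.univ.filter (fun u : Fˣ => c * (u : F) ^ 2 = e)).eq_empty_or_nonempty with h0 | ⟨v, hv⟩
  · rw [h0]; simp
  · have hsub : Finset.univ.filter (fun u : Fˣ => c * (u : F) ^ 2 = e) ⊆ {v, -v} := by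
      intro u hu
      have e1 := (Finset.mem_filter.mp hu).2
      have e2 := (Finset.mem_filter.mp hv).2
      have e3 : (u : F) ^ 2 = (v : F) ^ 2 := mul_left_cancel₀ hc (e1.trans e2.symm)
      rw [Finset.mem_insert, Finset.mem_singleton]
      rcases sq_eq_sq_iff_eq_or_eq_neg.mp e3 with h | h
      · left; exact Units.ext h
      · right; exact Units.ext (by rw [h]; rfl)
    exact (Finset.card_le_card hsub).trans Finset.card_le_two

end trans

/-! ### relations in characteristic three -/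

section rel

variable {F : Type*} [Field F] (h3 : (3 : F) = 0)

theorem c76 : chevG2.commTerms 7 6 = [(8, -1, 1, 1), (9, 1, 2, 1), (10, 1, 3, 1), (11, 1, 3, 2)] := by decide +kernel
theorem c78 : chevG2.commTerms 7 8 = [(9, -2, 1, 1), (10, -3, 2, 1), (11, 3, 1, 2)] := by decide +kernel
theorem c67 : chevG2.commTerms 6 7 = [(8, 1, 1, 1), (9, 1, 1, 2), (10, -1, 1, 3), (11, -2, 2, 3)] := by decide +kernel
theorem c79 : chevG2.commTerms 7 9 = [(10, 3, 1, 1)] := by decide +kernel
theorem c10_6 : chevG2.commTerms 10 6 = [(11, -1, 1, 1)] := by decide +kernel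

/-- `x7(s) x6(b) x7(s)⁻¹` -/
theorem r76 (s b : F) : X 7 s * X 6 b * (X 7 s)⁻¹ =
    X 6 b * (X 8 (-(s * b)) * (X 9 (s ^ 2 * b) * (X 10 (s ^ 3 * b) * X 11 (s ^ 3 * b ^ 2)))) := by
  have h := X_rel (F := F) (r := 7) (s := 6) (by norm_num) (by norm_num) (by norm_num) (by decide) c76 (-s) b
  simp only [List.map_cons, List.map_nil, List.prod_cons, List.prod_nil, mul_one, pow_one, _root_.neg_neg] at h
  unfold cm at h
  rw [X_neg (by norm_num), inv_inv] at h
  have h2 : X 7 s * X 6 b * (X 7 s)⁻¹ = X 6 b * ((X 6 b)⁻¹ * X 7 s * X 6 b * (X 7 s)⁻¹) := by group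
  rw [h2, h]
  congr 2
  · congr 1; push_cast; ring
  · congr 1
    · congr 1; push_cast; ring
    · congr 1
      · congr 1; push_cast; ring
      · congr 1; push_cast; ring

/-- `x6(s) x7(b) x6(s)⁻¹` -/
theorem r67 (s b : F) : X 6 s * X 7 b * (X 6 s)⁻¹ =
    X 7 b * (X 8 (s * b) * (X 9 (s * b ^ 2) * (X 10 (-(s * b ^ 3)) * X 11 (-2 * s ^ 2 * b ^ 3)))) := by
  have h := X_rel (F := F) (r := 6) (s := 7) (by norm_num) (by norm_num) (by norm_num) (by decide) c67 (-s) b
  simp only [List.map_cons, List.map_nil, List.prod_cons, List.prod_nil, mul_one, pow_one, _root_.neg_neg] at h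
  unfold cm at h
  rw [X_neg (by norm_num), inv_inv] at h
  have h2 : X 6 s * X 7 b * (X 6 s)⁻¹ = X 7 b * ((X 7 b)⁻¹ * X 6 s * X 7 b * (X 6 s)⁻¹) := by group
  rw [h2, h]
  congr 2
  · congr 1; push_cast; ring
  · congr 1
    · congr 1; push_cast; ring
    · congr 1
      · congr 1; push_cast; ring
      · congr 1; push_cast; ring

theorem r6_10 (s b : F) : X 6 s * X 10 b * (X 6 s)⁻¹ = X 10 b * X 11 (s * b) := by
  rw [X_conj (by norm_num) (by norm_num) (by norm_num) (by norm_num) (by decide) c10_6]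
  congr 2; push_cast; ring

include h3

/-- `x7(s) x8(b) x7(s)⁻¹` -/
theorem r78 (s b : F) : X 7 s * X 8 b * (X 7 s)⁻¹ = X 8 b * X 9 (s * b) := by
  have h := X_rel (F := F) (r := 7) (s := 8) (by norm_num) (by norm_num) (by norm_num) (by decide) c78 (-s) b
  simp only [List.map_cons, List.map_nil, List.prod_cons, List.prod_nil, mul_one, pow_one, _root_.neg_neg] at h
  unfold cm at h
  rw [X_neg (by norm_num), inv_inv] at h
  have e1 : ((-3 : ℤ) : F) * s ^ 2 * b = 0 := by push_cast; linear_combination -(s ^ 2 * b) * h3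
  have e2 : ((3 : ℤ) : F) * s * b ^ 2 = 0 := by push_cast; linear_combination (s * b ^ 2) * h3
  have e3 : ((-2 : ℤ) : F) * s * b = s * b := by push_cast; linear_combination -(s * b) * h3
  rw [e1, e2, e3, X_zero (by norm_num), X_zero (by norm_num), mul_one, mul_one] at h
  have h2 : X 7 s * X 8 b * (X 7 s)⁻¹ = X 8 b * ((X 8 b)⁻¹ * X 7 s * X 8 b * (X 7 s)⁻¹) := by group
  rw [h2, h]

theorem x7_9 (t u : F) : X 7 t * X 9 u = X 9 u * X 7 t := by
  have h := X_one (F := F) (r := 7) (s := 9) (by norm_num) (by norm_num) (by norm_num) (by decide) c79 t u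
  have e : -((3 : ℤ) : F) * t * u = 0 := by push_cast; linear_combination -(t * u) * h3
  rw [e, X_zero (by norm_num)] at h
  exact (cm_eq_one_iff.mp h).symm

theorem x8_9 (t u : F) : X 8 t * X 9 u = X 9 u * X 8 t := by
  have h := X_one (F := F) (r := 8) (s := 9) (by norm_num) (by norm_num) (by norm_num) (by decide) c89 t u
  have e : -((3 : ℤ) : F) * t * u = 0 := by push_cast; linear_combination -(t * u) * h3
  rw [e, X_zero (by norm_num)] at h
  exact (cm_eq_one_iff.mp h).symm

end rel

end Cfsg.Agent.Lib.MinG2E
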