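import Cfsg.Agent.Lib.MinG2E

/-!
Weight multiplicities for G2(q), q a power of 3 (helper18).
-/

set_option autoImplicit false
set_option linter.unusedSectionVars false

universe u v

namespace Cfsg.Agent.Lib.MinG2F

open Cfsg.Lie Cfsg.Agent.Lib.ChevX Cfsg.Agent.Lib.ChevGood
open Cfsg.Agent.Lib.UCEBase Cfsg.Agent.Lib.UCESymbol Cfsg.Agent.Lib.UCESys
open Cfsg.Agent.Lib.WeightProj Cfsg.Agent.Lib.MinDegA Cfsg.Agent.Lib.MinG2A Cfsg.Agent.Lib.MinG2B Cfsg.Agent.Lib.MinG2C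
open Cfsg.Agent.Lib.MinG2D Cfsg.Agent.Lib.MinG2E

section

variable {F : Type*} [Field F] [Fintype F] {V : Type*} [AddCommGroup V] [Module ℂ V]
  {ρ : Representation ℂ (chevG2.group F) V} {ψ : AddChar F ℂ}

theorem idem {P R : Module.End ℂ V} (hP : P * P = P) (hR : R * R = R) (h : Commute P R) : (P * R) * (P * R) = P * R := by
  calc (P * R) * (P * R) = P * (R * P) * R := by noncomm_ring
    _ = (P * P) * (R * R) := by rw [← h.eq]; noncomm_ring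
    _ = P * R := by rw [hP, hR]

theorem pI {r : ℕ} (hr : r < 12) (a : F) : pr ρ ψ (X r) a * pr ρ ψ (X r) a = pr ρ ψ (X r) a := pr_self (X_add hr) a

variable (ρ ψ)

theorem I6 (a : F) : pr ρ ψ (X 6) a * pr ρ ψ (X 6) a = pr ρ ψ (X 6) a := pI (by norm_num) a
theorem I7 (a : F) : pr ρ ψ (X 7) a * pr ρ ψ (X 7) a = pr ρ ψ (X 7) a := pI (by norm_num) a
theorem I8 (a : F) : pr ρ ψ (X 8) a * pr ρ ψ (X 8) a = pr ρ ψ (X 8) a := pI (by norm_num) a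
theorem I9 (a : F) : pr ρ ψ (X 9) a * pr ρ ψ (X 9) a = pr ρ ψ (X 9) a := pI (by norm_num) a
theorem I10 (a : F) : pr ρ ψ (X 10) a * pr ρ ψ (X 10) a = pr ρ ψ (X 10) a := pI (by norm_num) a
theorem I11 (a : F) : pr ρ ψ (X 11) a * pr ρ ψ (X 11) a = pr ρ ψ (X 11) a := pI (by norm_num) a

theorem k68 (a b : F) : Commute (pr ρ ψ (X 6) a) (pr ρ ψ (X 8) b) := kk x6_8 a b
theorem k69 (a b : F) : Commute (pr ρ ψ (X 6) a) (pr ρ ψ (X 9) b) := kk x6_9 a b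
theorem k6b (a b : F) : Commute (pr ρ ψ (X 6) a) (pr ρ ψ (X 11) b) := kk x6_11 a b
theorem k89 (h3 : (3 : F) = 0) (a b : F) : Commute (pr ρ ψ (X 8) a) (pr ρ ψ (X 9) b) := kk (x8_9 h3) a b
theorem k8a (a b : F) : Commute (pr ρ ψ (X 8) a) (pr ρ ψ (X 10) b) := kk x8_10 a b
theorem k8b (a b : F) : Commute (pr ρ ψ (X 8) a) (pr ρ ψ (X 11) b) := kk x8_11 a b
theorem k9a (a b : F) : Commute (pr ρ ψ (X 9) a) (pr ρ ψ (X 10) b) := kk x9_10 a b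
theorem k9b (a b : F) : Commute (pr ρ ψ (X 9) a) (pr ρ ψ (X 11) b) := kk x9_11 a b
theorem kab (a b : F) : Commute (pr ρ ψ (X 10) a) (pr ρ ψ (X 11) b) := kk x10_11 a b
theorem k79 (h3 : (3 : F) = 0) (a b : F) : Commute (pr ρ ψ (X 7) a) (pr ρ ψ (X 9) b) := kk (x7_9 h3) a b
theorem k7a (a b : F) : Commute (pr ρ ψ (X 7) a) (pr ρ ψ (X 10) b) := kk x7_10 a b
theorem k7b (a b : F) : Commute (pr ρ ψ (X 7) a) (pr ρ ψ (X 11) b) := kk x7_11 a b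

theorem m68 (t b : F) : Commute (ρ (X 6 t)) (pr ρ ψ (X 8) b) := rr x6_8 t b
theorem m69 (t b : F) : Commute (ρ (X 6 t)) (pr ρ ψ (X 9) b) := rr x6_9 t b
theorem m6b (t b : F) : Commute (ρ (X 6 t)) (pr ρ ψ (X 11) b) := rr x6_11 t b
theorem m79 (h3 : (3 : F) = 0) (t b : F) : Commute (ρ (X 7 t)) (pr ρ ψ (X 9) b) := rr (x7_9 h3) t b
theorem m7a (t b : F) : Commute (ρ (X 7 t)) (pr ρ ψ (X 10) b) := rr x7_10 t b
theorem m7b (t b : F) : Commute (ρ (X 7 t)) (pr ρ ψ (X 11) b) := rr x7_11 t b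
theorem m8a (t b : F) : Commute (ρ (X 8 t)) (pr ρ ψ (X 10) b) := rr x8_10 t b
theorem m8b (t b : F) : Commute (ρ (X 8 t)) (pr ρ ψ (X 11) b) := rr x8_11 t b

noncomputable def T3 (l a b : F) : Module.End ℂ V := pr ρ ψ (X 11) l * (pr ρ ψ (X 8) a * pr ρ ψ (X 9) b)
noncomputable def A2 (l a b : F) : Module.End ℂ V := pr ρ ψ (X 10) 0 * T3 ρ ψ l a b
noncomputable def R3 (a b e : F) : Module.End ℂ V :=
  pr ρ ψ (X 8) a * (pr ρ ψ (X 9) b * (pr ρ ψ (X 10) e * pr ρ ψ (X 11) 0))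
noncomputable def R4 (c a b e : F) : Module.End ℂ V := pr ρ ψ (X 6) c * R3 ρ ψ a b e

variable {ρ ψ} (h3 : (3 : F) = 0)
include h3

theorem T3_I (l a b : F) : T3 ρ ψ l a b * T3 ρ ψ l a b = T3 ρ ψ l a b := by
  unfold T3
  exact idem (I11 ρ ψ l) (idem (I8 ρ ψ a) (I9 ρ ψ b) (k89 ρ ψ h3 a b)) ((k8b ρ ψ a l).symm.mul_right (k9b ρ ψ b l).symm)

theorem A2_I (l a b : F) : A2 ρ ψ l a b * A2 ρ ψ l a b = A2 ρ ψ l a b := by
  unfold A2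
  refine idem (I10 ρ ψ 0) (T3_I h3 l a b) ?_
  unfold T3
  exact (kab ρ ψ 0 l).mul_right ((k8a ρ ψ a 0).symm.mul_right (k9a ρ ψ b 0).symm)

theorem R3_I (a b e : F) : R3 ρ ψ a b e * R3 ρ ψ a b e = R3 ρ ψ a b e := by
  unfold R3
  exact idem (I8 ρ ψ a) (idem (I9 ρ ψ b) (idem (I10 ρ ψ e) (I11 ρ ψ 0) (kab ρ ψ e 0)) ((k9a ρ ψ b e).mul_right (k9b ρ ψ b 0)))
    ((k89 ρ ψ h3 a b).mul_right ((k8a ρ ψ a e).mul_right (k8b ρ ψ a 0)))

omit h3 in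
/-- `x6` and `x10` commute modulo `x11` -/
theorem r6_10' (t u : F) : ρ (X 6 t) * (ρ (X 10 u) * pr ρ ψ (X 11) 0) = ρ (X 10 u) * (ρ (X 6 t) * pr ρ ψ (X 11) 0) :=
  r01_12 (S := S3 F) t u

omit h3 in
theorem c6_10 (c e : F) : pr ρ ψ (X 6) c * (pr ρ ψ (X 10) e * pr ρ ψ (X 11) 0) =
    (pr ρ ψ (X 10) e * pr ρ ψ (X 11) 0) * pr ρ ψ (X 6) c := by
  have h := k01_12 (S := S3 F) (σ := ρ) (ψ := ψ) c e
  change pr ρ ψ (X 6) c * (pr ρ ψ (X 10) e * pr ρ ψ (X 11) 0) = pr ρ ψ (X 10) e * (pr ρ ψ (X 6) c * pr ρ ψ (X 11) 0) at h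
  rw [h, mul_assoc, kk x6_11 c 0]

theorem c6_R3 (c a b e : F) : Commute (pr ρ ψ (X 6) c) (R3 ρ ψ a b e) := by
  unfold R3
  exact (k68 ρ ψ c a).mul_right ((k69 ρ ψ c b).mul_right (c6_10 c e))

theorem R4_I (c a b e : F) : R4 ρ ψ c a b e * R4 ρ ψ c a b e = R4 ρ ψ c a b e := by
  unfold R4
  exact idem (I6 ρ ψ c) (R3_I h3 a b e) (c6_R3 h3 c a b e)

/-! ### conjugation by the torus -/

omit h3 in
theorem pT {x y : F} (hx : x ≠ 0) (hy : y ≠ 0) {s : ℕ} (hs : s < 12) {m n : ℤ}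
    (h : [((0 : ℤ), (-1 : ℤ)), (-3, 1), (-1, 0), (1, -1), (-2, 1), (3, -2), (-3, 2), (2, -1), (-1, 1), (1, 0), (3, -1), (0, 1)].getD s (0, 0) = (m, n))
    (a : F) : ρ (tor x y) * pr ρ ψ (X s) a = pr ρ ψ (X s) (a * (x ^ m * y ^ n)⁻¹) * ρ (tor x y) :=
  pr_conj (mul_ne_zero (zpow_ne_zero _ hx) (zpow_ne_zero _ hy)) (fun t => tor_conj' hx hy hs h t) a

omit h3 in
/-- conjugation by Weyl elements -/
theorem pN {i s s' : ℕ} (hi : i < 2) (hs : s < 12) (h : chevG2.reflectRoot i s = s') :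
    ∃ c : F, c ≠ 0 ∧ ∀ a, ρ (nw i) * pr ρ ψ (X s) a = pr ρ ψ (X s') (a * c) * ρ (nw i) := by
  obtain ⟨c, hc, h1⟩ := nw_conj (F := F) hi hs h
  have hc0 : c ≠ 0 := by rcases hc with h | h <;> rw [h] <;> norm_num
  exact ⟨c⁻¹, inv_ne_zero hc0, fun a => pr_conj hc0 h1 a⟩

variable [FiniteDimensional ℂ V]

theorem T3_T {x y : F} (hx : x ≠ 0) (hy : y ≠ 0) (l a b : F) :
    tn (T3 ρ ψ l a b) = tn (T3 ρ ψ (l * y⁻¹) (a * (x⁻¹ * y)⁻¹) (b * x⁻¹)) := by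
  apply tn_conj (g := tor x y) (T3_I h3 _ _ _) (T3_I h3 _ _ _)
  have e1 := pT (ρ := ρ) (ψ := ψ) hx hy (s := 11) (by norm_num) (m := 0) (n := 1) rfl l
  have e2 := pT (ρ := ρ) (ψ := ψ) hx hy (s := 8) (by norm_num) (m := -1) (n := 1) rfl a
  have e3 := pT (ρ := ρ) (ψ := ψ) hx hy (s := 9) (by norm_num) (m := 1) (n := 0) rfl b
  rw [zpow_zero, one_mul, zpow_one] at e1
  rw [zpow_neg, zpow_one, zpow_one] at e2
  rw [zpow_zero, mul_one, zpow_one] at e3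
  exact mul_conj e1 (mul_conj e2 e3)

theorem T3_N (l a : F) : ∃ c c' : F, c ≠ 0 ∧ c' ≠ 0 ∧ tn (T3 ρ ψ l a 0) = tn (T3 ρ ψ (l * c) 0 (a * c')) := by
  obtain ⟨c, hc, h1⟩ := pN (ρ := ρ) (ψ := ψ) (F := F) (i := 0) (s := 11) (s' := 11) (by norm_num) (by norm_num) (by decide)
  obtain ⟨c', hc', h2⟩ := pN (ρ := ρ) (ψ := ψ) (i := 0) (s := 8) (s' := 9) (by norm_num) (by norm_num) (by decide)
  obtain ⟨c'', hc'', h3'⟩ := pN (ρ := ρ) (ψ := ψ) (i := 0) (s := 9) (s' := 8) (by norm_num) (by norm_num) (by decide)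
  refine ⟨c, c', hc, hc', ?_⟩
  apply tn_conj (g := (nw 0 : chevG2.group F)) (T3_I h3 _ _ _) (T3_I h3 _ _ _)
  have e := mul_conj (h1 l) (mul_conj (h2 a) (h3' 0))
  rw [zero_mul, (k89 ρ ψ h3 0 (a * c')).symm.eq] at e
  exact e

variable (hψ : ψ ≠ 1)
include hψ

theorem T3_S (l a : F) {b : F} (hb : b ≠ 0) : tn (T3 ρ ψ l a b) = tn (T3 ρ ψ l 0 b) := by
  have h := pr_free (ρ := ρ) hψ (xs := X 7) (xr := X 8) (xt := X 9) (X_add (by norm_num)) (X_add (by norm_num))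
    (n := 1) one_ne_zero (fun a b => by rw [r78 h3, one_mul]) (x7_9 h3) hb (A := pr ρ ψ (X 11) l)
    (fun a => rr x7_11 a l) a 0
  have e : ∀ a, pr ρ ψ (X 8) a * pr ρ ψ (X 9) b * pr ρ ψ (X 11) l = T3 ρ ψ l a b := fun a => by
    unfold T3
    exact (((k8b ρ ψ a l).symm.mul_right (k9b ρ ψ b l).symm).eq).symm
  rw [e, e, tr_tn (T3_I h3 _ _ _), tr_tn (T3_I h3 _ _ _)] at h
  exact_mod_cast h

theorem T3_const {l : F} (hl : l ≠ 0) {a b : F} (h : ¬ (a = 0 ∧ b = 0)) : tn (T3 ρ ψ l a b) = tn (T3 ρ ψ 1 0 1) := by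
  have key : ∀ l b : F, l ≠ 0 → b ≠ 0 → tn (T3 ρ ψ l 0 b) = tn (T3 ρ ψ 1 0 1) := by
    intro l b hl hb
    rw [T3_T h3 hb hl, zero_mul, mul_inv_cancel₀ hl, mul_inv_cancel₀ hb]
  by_cases hb : b = 0
  · subst hb
    have ha : a ≠ 0 := fun ha => h ⟨ha, rfl⟩
    obtain ⟨c, c', hc, hc', e⟩ := T3_N (ρ := ρ) (ψ := ψ) h3 l a
    rw [e]
    exact key _ _ (mul_ne_zero hl hc) (mul_ne_zero ha hc')
  · rw [T3_S h3 hψ l a hb]
    exact key _ _ hl hb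

theorem T3_const0 {a b : F} (h : ¬ (a = 0 ∧ b = 0)) : tn (T3 ρ ψ 0 a b) = tn (T3 ρ ψ 0 0 1) := by
  have key : ∀ b : F, b ≠ 0 → tn (T3 ρ ψ 0 0 b) = tn (T3 ρ ψ 0 0 1) := by
    intro b hb
    rw [T3_T h3 hb one_ne_zero, zero_mul, zero_mul, mul_inv_cancel₀ hb]
  by_cases hb : b = 0
  · subst hb
    have ha : a ≠ 0 := fun ha => h ⟨ha, rfl⟩
    obtain ⟨c, c', hc, hc', e⟩ := T3_N (ρ := ρ) (ψ := ψ) h3 0 a
    rw [e, zero_mul]
    exact key _ (mul_ne_zero ha hc')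
  · rw [T3_S h3 hψ 0 a hb]
    exact key _ hb

theorem T3_A2 {l : F} (hl : l ≠ 0) (a b : F) : tn (T3 ρ ψ l a b) = Fintype.card F * tn (A2 ρ ψ l a b) := by
  apply tn_eq_of_trace (T3_I h3 _ _ _) (A2_I h3 _ _ _)
  have h := pr_free_sum (ρ := ρ) hψ (xs := X 6) (xr := X 10) (xt := X 11) (X_add (by norm_num)) (X_add (by norm_num))
    (n := 1) one_ne_zero (fun a b => by rw [r6_10, one_mul]) x6_11 hl (A := pr ρ ψ (X 8) a * pr ρ ψ (X 9) b)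
    (fun t => ((m68 ρ ψ t a).mul_right (m69 ρ ψ t b)).eq) 0
  rw [mul_assoc] at h
  exact h

omit h3 hψ [FiniteDimensional ℂ V] in
/-- sums of functions constant off the origin -/
theorem sum2 [DecidableEq F] (f : F → F → ℕ) (c : ℕ) (h : ∀ a b, ¬ (a = 0 ∧ b = 0) → f a b = c) :
    ∑ a, ∑ b, f a b + c = Fintype.card F * Fintype.card F * c + f 0 0 := by
  have h1 : ∑ a : F, ∑ b : F, f a b + c = ∑ a : F, ∑ b : F, c + f 0 0 := by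
    rw [← Finset.sum_erase_add _ _ (Finset.mem_univ (0 : F)),
      ← Finset.sum_erase_add _ (fun b => f 0 b) (Finset.mem_univ (0 : F)),
      ← Finset.sum_erase_add _ (fun _ => ∑ b : F, c) (Finset.mem_univ (0 : F))]
    have e1 : ∑ a ∈ Finset.univ.erase (0 : F), ∑ b, f a b = ∑ a ∈ Finset.univ.erase (0 : F), ∑ b : F, c :=
      Finset.sum_congr rfl (fun a ha => Finset.sum_congr rfl (fun b _ => h a b (fun hh => Finset.ne_of_mem_erase ha hh.1)))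
    have e2 : ∑ b ∈ Finset.univ.erase (0 : F), f 0 b = ∑ b ∈ Finset.univ.erase (0 : F), c :=
      Finset.sum_congr rfl (fun b hb => h 0 b (fun hh => Finset.ne_of_mem_erase hb hh.2))
    have e3 : ∑ b : F, c = ∑ b ∈ Finset.univ.erase (0 : F), c + c := by
      rw [Finset.sum_erase_add _ (fun _ => c) (Finset.mem_univ (0 : F))]
    rw [e1, e2]
    omega
  rw [h1]
  simp only [Finset.sum_const, Finset.card_univ, smul_eq_mul]
  ring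

omit h3 hψ [FiniteDimensional ℂ V] in
theorem sum1 [DecidableEq F] (f : F → ℕ) (c : ℕ) (h : ∀ a, a ≠ 0 → f a = c) :
    ∑ a, f a + c = Fintype.card F * c + f 0 := by
  have h1 : ∑ a : F, f a + c = ∑ a : F, c + f 0 := by
    rw [← Finset.sum_erase_add _ _ (Finset.mem_univ (0 : F)),
      ← Finset.sum_erase_add _ (fun _ => c) (Finset.mem_univ (0 : F))]
    rw [Finset.sum_congr rfl (fun a ha => h a (Finset.ne_of_mem_erase ha))]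
    ring
  rw [h1]
  simp only [Finset.sum_const, Finset.card_univ, smul_eq_mul]

theorem sum_T3 (l : F) : tn (pr ρ ψ (X 11) l) = ∑ a, ∑ b, tn (T3 ρ ψ l a b) := by
  have h1 : ∀ a, (pr ρ ψ (X 11) l * pr ρ ψ (X 8) a) * (pr ρ ψ (X 11) l * pr ρ ψ (X 8) a) = pr ρ ψ (X 11) l * pr ρ ψ (X 8) a :=
    fun a => idem (I11 ρ ψ l) (I8 ρ ψ a) (k8b ρ ψ a l).symm
  rw [tn_sum Finset.univ (I11 ρ ψ l) (fun a _ => h1 a) (by
    rw [← Finset.mul_sum, sum_pr hψ (X_add (by norm_num)), mul_one])]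
  refine Finset.sum_congr rfl (fun a _ => ?_)
  rw [tn_sum Finset.univ (h1 a) (fun b _ => T3_I (ρ := ρ) (ψ := ψ) h3 l a b) (by
    simp only [T3]
    rw [← Finset.mul_sum, ← Finset.mul_sum, sum_pr hψ (X_add (by norm_num)), mul_one])]

/-- `d1 = μ0 + (q^2 - 1) μ` -/
theorem rel_d1 : d1 (S3 F) ρ ψ + tn (A2 ρ ψ 1 0 1) = Fintype.card F * Fintype.card F * tn (A2 ρ ψ 1 0 1) + tn (A2 ρ ψ 1 0 0) := by
  classical
  have hq : 0 < Fintype.card F := Fintype.card_pos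
  have h1 : tn (pr ρ ψ (X 11) (1 : F)) = Fintype.card F * d1 (S3 F) ρ ψ := by
    have := tr02 (S := S3 F) (σ := ρ) hψ (c := 1) one_ne_zero
    change LinearMap.trace ℂ V (pr ρ ψ (X 11) 1) = _ at this
    rw [tr_tn (pI (by norm_num) 1)] at this
    exact_mod_cast this
  have h2 := sum2 (fun a b => tn (T3 ρ ψ 1 a b)) (tn (T3 ρ ψ 1 0 1)) (fun a b h => T3_const h3 hψ one_ne_zero h)
  rw [← sum_T3 h3 hψ, h1, T3_A2 h3 hψ one_ne_zero, T3_A2 h3 hψ one_ne_zero] at h2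
  apply Nat.eq_of_mul_eq_mul_left hq
  rw [mul_add, mul_add, h2]
  ring

/-- the total for the fixed space of `x11` -/
theorem rel_Z : tn (pr ρ ψ (X 11) (0 : F)) + tn (T3 ρ ψ 0 0 1) =
    Fintype.card F * Fintype.card F * tn (T3 ρ ψ 0 0 1) + tn (T3 ρ ψ 0 0 0) := by
  classical
  have h2 := sum2 (fun a b => tn (T3 ρ ψ 0 a b)) (tn (T3 ρ ψ 0 0 1)) (fun a b h => T3_const0 h3 hψ h)
  rw [← sum_T3 h3 hψ] at h2
  exact h2

end

end Cfsg.Agent.Lib.MinG2F
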