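import Cfsg.Agent.Lib.MinG2F

/-!
Weight multiplicities for G2(q), q a power of 3: shifts and the vanishing argument (helper18).
-/

set_option autoImplicit false
set_option linter.unusedSectionVars false

universe u v

namespace Cfsg.Agent.Lib.MinG2G

open Cfsg.Lie Cfsg.Agent.Lib.ChevX Cfsg.Agent.Lib.ChevGood
open Cfsg.Agent.Lib.UCEBase Cfsg.Agent.Lib.UCESymbol Cfsg.Agent.Lib.UCESys
open Cfsg.Agent.Lib.WeightProj Cfsg.Agent.Lib.MinDegA Cfsg.Agent.Lib.MinG2A Cfsg.Agent.Lib.MinG2B Cfsg.Agent.Lib.MinG2C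
open Cfsg.Agent.Lib.MinG2D Cfsg.Agent.Lib.MinG2E Cfsg.Agent.Lib.MinG2F

section

variable {F : Type*} [Field F] [Fintype F] {V : Type*} [AddCommGroup V] [Module ℂ V]
  {ρ : Representation ℂ (chevG2.group F) V} {ψ : AddChar F ℂ}

theorem unit_zero {g : chevG2.group F} {A : Module.End ℂ V} (h : ρ g * A = 0) : A = 0 := by
  have h1 : ρ g⁻¹ * (ρ g * A) = 0 := by rw [h, mul_zero]
  rwa [← mul_assoc, ← map_mul, inv_mul_cancel, map_one, one_mul] at h1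

theorem unit_zero' {g : chevG2.group F} {A : Module.End ℂ V} (h : A * ρ g = 0) : A = 0 := by
  have h1 : (A * ρ g) * ρ g⁻¹ = 0 := by rw [h, zero_mul]
  rwa [mul_assoc, ← map_mul, mul_inv_cancel, map_one, mul_one] at h1

variable (ρ ψ)

theorem m98 (h3 : (3 : F) = 0) (t b : F) : Commute (ρ (X 9 t)) (pr ρ ψ (X 8) b) := rr (fun t u => (x8_9 h3 u t).symm) t b
theorem ma8 (t b : F) : Commute (ρ (X 10 t)) (pr ρ ψ (X 8) b) := rr (fun t u => (x8_10 u t).symm) t b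
theorem ma9 (t b : F) : Commute (ρ (X 10 t)) (pr ρ ψ (X 9) b) := rr (fun t u => (x9_10 u t).symm) t b
theorem mb8 (t b : F) : Commute (ρ (X 11 t)) (pr ρ ψ (X 8) b) := rr (fun t u => (x8_11 u t).symm) t b
theorem mb9 (t b : F) : Commute (ρ (X 11 t)) (pr ρ ψ (X 9) b) := rr (fun t u => (x9_11 u t).symm) t b
theorem mba (t b : F) : Commute (ρ (X 11 t)) (pr ρ ψ (X 10) b) := rr (fun t u => (x10_11 u t).symm) t b

theorem w8 (a b e u : F) : ρ (X 8 u) * R3 ρ ψ a b e = ψ (a * u) • R3 ρ ψ a b e := by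
  unfold R3
  rw [← mul_assoc, mul_pr (X_add (by norm_num)), smul_mul_assoc]

theorem w9 (h3 : (3 : F) = 0) (a b e u : F) : ρ (X 9 u) * R3 ρ ψ a b e = ψ (b * u) • R3 ρ ψ a b e := by
  unfold R3
  rw [← mul_assoc, (m98 ρ ψ h3 u a).eq, mul_assoc, ← mul_assoc (ρ (X 9 u)), mul_pr (X_add (by norm_num)), smul_mul_assoc,
    mul_smul_comm]

theorem w10 (a b e u : F) : ρ (X 10 u) * R3 ρ ψ a b e = ψ (e * u) • R3 ρ ψ a b e := by
  unfold R3
  rw [← mul_assoc, (ma8 ρ ψ u a).eq, mul_assoc, ← mul_assoc (ρ (X 10 u)), (ma9 ρ ψ u b).eq, mul_assoc,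
    ← mul_assoc (ρ (X 10 u)), mul_pr (X_add (by norm_num)), smul_mul_assoc, mul_smul_comm, mul_smul_comm]

theorem w11 (a b e u : F) : ρ (X 11 u) * R3 ρ ψ a b e = R3 ρ ψ a b e := by
  unfold R3
  rw [← mul_assoc, (mb8 ρ ψ u a).eq, mul_assoc, ← mul_assoc (ρ (X 11 u)), (mb9 ρ ψ u b).eq, mul_assoc,
    ← mul_assoc (ρ (X 11 u)), (mba ρ ψ u e).eq, mul_assoc, fix_pr (X_add (by norm_num))]

variable {ρ ψ} (h3 : (3 : F) = 0)
include h3

/-- `x7` shifts the weights of `x8` -/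
theorem R3_shift' (s a b e : F) : ρ (X 7 s) * R3 ρ ψ a b e = R3 ρ ψ (a - s * b) b e * ρ (X 7 s) := by
  have hR : ρ (X 7 s) * (pr ρ ψ (X 9) b * (pr ρ ψ (X 10) e * pr ρ ψ (X 11) 0)) =
      (pr ρ ψ (X 9) b * (pr ρ ψ (X 10) e * pr ρ ψ (X 11) 0)) * ρ (X 7 s) :=
    ((m79 ρ ψ h3 s b).mul_right ((m7a ρ ψ s e).mul_right (m7b ρ ψ s 0))).eq
  have h := MinG2E.shift (ρ := ρ) (ψ := ψ) (g := X 7 s) (x := X 8) hR (m := s * b) (fun c => by
    rw [r78 h3, map_mul, mul_assoc, ← mul_assoc (ρ (X 9 (s * c))), mul_pr (X_add (by norm_num)), smul_mul_assoc, mul_smul_comm]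
    congr 2; ring) a
  unfold R3
  rw [h]

theorem R4_shift' (s c a e : F) : ρ (X 7 s) * R4 ρ ψ c a 0 e = R4 ρ ψ (c - (-(s * a) + s ^ 3 * e)) a 0 e * ρ (X 7 s) := by
  have hR : ρ (X 7 s) * R3 ρ ψ a 0 e = R3 ρ ψ a 0 e * ρ (X 7 s) := by
    rw [R3_shift' h3, mul_zero, sub_zero]
  have h := MinG2E.shift (ρ := ρ) (ψ := ψ) (g := X 7 s) (x := X 6) hR (m := -(s * a) + s ^ 3 * e) (fun b => by
    rw [r76, map_mul, map_mul, map_mul, map_mul, mul_assoc, mul_assoc, mul_assoc, mul_assoc, w11, w10, mul_smul_comm,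
      w9 ρ ψ h3, zero_mul, AddChar.map_zero_eq_one, one_smul, mul_smul_comm, w8, mul_smul_comm, mul_smul_comm, smul_smul,
      ← AddChar.map_add_eq_mul]
    congr 2; ring) c
  unfold R4
  rw [h]

variable [FiniteDimensional ℂ V]

theorem R3_shift (s a b e : F) : tn (R3 ρ ψ a b e) = tn (R3 ρ ψ (a - s * b) b e) :=
  tn_conj (R3_I h3 _ _ _) (R3_I h3 _ _ _) (R3_shift' h3 s a b e)

theorem R4_shift (s c a e : F) : tn (R4 ρ ψ c a 0 e) = tn (R4 ρ ψ (c - (-(s * a) + s ^ 3 * e)) a 0 e) :=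
  tn_conj (R4_I h3 _ _ _ _) (R4_I h3 _ _ _ _) (R4_shift' h3 s c a e)

omit [FiniteDimensional ℂ V] in
omit V [AddCommGroup V] [Module ℂ V] in
theorem cube_surj (c : F) : ∃ s : F, s ^ 3 = c := by
  have hinj : Function.Injective (fun s : F => s ^ 3) := by
    intro s t h
    have h' : s ^ 3 = t ^ 3 := h
    have : (s - t) ^ 3 = 0 := by linear_combination h' + (-(s ^ 2 * t) + s * t ^ 2) * h3
    exact sub_eq_zero.mp (pow_eq_zero_iff (by norm_num) |>.mp this)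
  exact (Finite.injective_iff_surjective.mp hinj) c

theorem R4_const1 {a : F} (ha : a ≠ 0) (c : F) : tn (R4 ρ ψ c a 0 0) = tn (R4 ρ ψ 0 a 0 0) := by
  rw [R4_shift h3 (-(c * a⁻¹)) c a 0]
  congr 2
  field_simp; ring

theorem R4_const2 {e : F} (he : e ≠ 0) (c : F) : tn (R4 ρ ψ c 0 0 e) = tn (R4 ρ ψ 0 0 0 e) := by
  obtain ⟨s, hs⟩ := cube_surj h3 (c * e⁻¹)
  rw [R4_shift h3 s c 0 e, hs]
  congr 2
  field_simp; ring

theorem R3_T {x y : F} (hx : x ≠ 0) (hy : y ≠ 0) (a b e : F) :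
    tn (R3 ρ ψ a b e) = tn (R3 ρ ψ (a * (x⁻¹ * y)⁻¹) (b * x⁻¹) (e * (x ^ 3 * y⁻¹)⁻¹)) := by
  apply tn_conj (g := tor x y) (R3_I h3 _ _ _) (R3_I h3 _ _ _)
  have e1 := pT (ρ := ρ) (ψ := ψ) hx hy (s := 8) (by norm_num) (m := -1) (n := 1) rfl a
  have e2 := pT (ρ := ρ) (ψ := ψ) hx hy (s := 9) (by norm_num) (m := 1) (n := 0) rfl b
  have e3 := pT (ρ := ρ) (ψ := ψ) hx hy (s := 10) (by norm_num) (m := 3) (n := -1) rfl e
  have e4 := pT (ρ := ρ) (ψ := ψ) hx hy (s := 11) (by norm_num) (m := 0) (n := 1) rfl 0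
  rw [zpow_neg, zpow_one, zpow_one] at e1
  rw [zpow_zero, mul_one, zpow_one] at e2
  rw [zpow_neg, zpow_one, show (x : F) ^ (3 : ℤ) = x ^ 3 from by exact_mod_cast rfl] at e3
  rw [zero_mul] at e4
  exact mul_conj e1 (mul_conj e2 (mul_conj e3 e4))

variable (hψ : ψ ≠ 1)
include hψ

theorem sum_R4 (a b e : F) : tn (R3 ρ ψ a b e) = ∑ c, tn (R4 ρ ψ c a b e) := by
  refine tn_sum Finset.univ (R3_I h3 a b e) (fun c _ => R4_I h3 c a b e) ?_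
  unfold R4
  rw [← Finset.sum_mul, sum_pr hψ (X_add (by norm_num)), one_mul]

theorem three_dvd_R3 (hq : 3 < Fintype.card F) {a e : F} (h : a ≠ 0 ∨ e ≠ 0) : 3 ∣ tn (R3 ρ ψ a 0 e) := by
  obtain ⟨s, hs⟩ := exists_shift hq h
  rw [sum_R4 h3 hψ]
  exact three_dvd_sum h3 hs _ (fun c => by
    rw [R4_shift h3 s, add_sub_cancel_right])

/-- the multiplicity `μ` -/
theorem A2_const {l b : F} (hl : l ≠ 0) (hb : b ≠ 0) : tn (A2 ρ ψ l 0 b) = tn (A2 ρ ψ 1 0 1) := by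
  have hq : 0 < Fintype.card F := Fintype.card_pos
  have h := T3_const (ρ := ρ) h3 hψ hl (a := 0) (b := b) (fun h => hb h.2)
  rw [T3_A2 h3 hψ hl, T3_A2 h3 hψ one_ne_zero] at h
  exact Nat.eq_of_mul_eq_mul_left hq h

omit h3 in
/-- the Heisenberg swap -/
theorem swap {b l : F} (h3 : (3 : F) = 0) (hb : b ≠ 0) :
    LinearMap.trace ℂ V (pr ρ ψ (X 7) 0 * pr ρ ψ (X 9) b * (pr ρ ψ (X 11) l * pr ρ ψ (X 10) 0)) =
    LinearMap.trace ℂ V (pr ρ ψ (X 8) 0 * pr ρ ψ (X 9) b * (pr ρ ψ (X 11) l * pr ρ ψ (X 10) 0)) := by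
  have hq : (Fintype.card F : ℂ) ≠ 0 := by exact_mod_cast Fintype.card_ne_zero
  have h1 := pr_free_sum (ρ := ρ) hψ (xs := X 7) (xr := X 8) (xt := X 9) (X_add (by norm_num)) (X_add (by norm_num))
    (n := 1) one_ne_zero (fun a b => by rw [r78 h3, one_mul]) (x7_9 h3) hb (A := pr ρ ψ (X 11) l * pr ρ ψ (X 10) 0)
    (fun a => ((m7b ρ ψ a l).mul_right (m7a ρ ψ a 0)).eq) 0
  have h2 := pr_free_sum (ρ := ρ) hψ (xs := X 8) (xr := X 7) (xt := X 9) (X_add (by norm_num)) (X_add (by norm_num))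
    (n := -1) (by norm_num) (fun a b => by
      have h := r78 h3 b a
      have h' : X 8 a * X 7 b = X 7 b * X 8 a * (X 9 (b * a))⁻¹ := by
        have e1 : X 7 b * X 8 a = X 8 a * X 9 (b * a) * X 7 b := mul_inv_eq_iff_eq_mul.mp h
        rw [e1, mul_assoc (X 8 a), ← x7_9 h3]; group
      rw [h', ← X_neg (by norm_num), mul_assoc (X 7 b), x8_9 h3]
      rw [show (-1 : F) * a * b = -(b * a) by ring]; group) (x8_9 h3) hb (A := pr ρ ψ (X 11) l * pr ρ ψ (X 10) 0)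
    (fun a => ((m8b ρ ψ a l).mul_right (m8a ρ ψ a 0)).eq) 0
  rw [h1] at h2
  exact (mul_left_cancel₀ hq h2).symm

theorem R3_mu {a b e : F} (hb : b ≠ 0) (he : e ≠ 0) : tn (R3 ρ ψ a b e) = tn (A2 ρ ψ 1 0 1) := by
  rw [R3_shift h3 (a * b⁻¹) a b e, mul_assoc, inv_mul_cancel₀ hb, mul_one, sub_self]
  obtain ⟨c1, hc1, e1⟩ := pN (ρ := ρ) (ψ := ψ) (F := F) (i := 1) (s := 8) (s' := 7) (by norm_num) (by norm_num) (by decide)
  obtain ⟨c2, hc2, e2⟩ := pN (ρ := ρ) (ψ := ψ) (F := F) (i := 1) (s := 9) (s' := 9) (by norm_num) (by norm_num) (by decide)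
  obtain ⟨c3, hc3, e3⟩ := pN (ρ := ρ) (ψ := ψ) (F := F) (i := 1) (s := 10) (s' := 11) (by norm_num) (by norm_num) (by decide)
  obtain ⟨c4, hc4, e4⟩ := pN (ρ := ρ) (ψ := ψ) (F := F) (i := 1) (s := 11) (s' := 10) (by norm_num) (by norm_num) (by decide)
  have h1 := tr_conj (mul_conj (e1 0) (mul_conj (e2 b) (mul_conj (e3 e) (e4 0))))
  rw [zero_mul, zero_mul, ← mul_assoc (pr ρ ψ (X 7) 0), swap hψ h3 (mul_ne_zero hb hc2)] at h1
  have e5 : pr ρ ψ (X 8) 0 * pr ρ ψ (X 9) (b * c2) * (pr ρ ψ (X 11) (e * c3) * pr ρ ψ (X 10) 0) =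
      A2 ρ ψ (e * c3) 0 (b * c2) := by
    unfold A2 T3
    have hc : Commute (pr ρ ψ (X 8) 0 * pr ρ ψ (X 9) (b * c2)) (pr ρ ψ (X 11) (e * c3) * pr ρ ψ (X 10) 0) :=
      ((k8b ρ ψ 0 (e * c3)).mul_left (k9b ρ ψ (b * c2) (e * c3))).mul_right ((k8a ρ ψ 0 0).mul_left (k9a ρ ψ (b * c2) 0))
    rw [hc.eq, ← (kab ρ ψ 0 (e * c3)).eq, mul_assoc]
  rw [e5, tr_tn (A2_I h3 _ _ _)] at h1
  have h2 : tn (R3 ρ ψ 0 b e) = tn (A2 ρ ψ (e * c3) 0 (b * c2)) := by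
    have := (tr_tn (R3_I (ρ := ρ) (ψ := ψ) h3 0 b e)).symm.trans h1
    exact_mod_cast this
  rw [h2, A2_const h3 hψ (mul_ne_zero he hc3) (mul_ne_zero hb hc2)]

end

end Cfsg.Agent.Lib.MinG2G
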