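import Mathlib

/-!
Arithmetic for the minimal degree of G2(q), q a power of 3 (helper18).
-/

set_option autoImplicit false

namespace Cfsg.Agent.Lib.MinG2H

/-- the order of `G2(q)` as an integer -/
theorem ord_eq {q : ℕ} (hq : 1 ≤ q) : ((q ^ 6 * (q ^ 2 - 1) * (q ^ 6 - 1) : ℕ) : ℤ) =
    (q : ℤ) ^ 6 * ((q : ℤ) ^ 2 - 1) ^ 2 * ((q : ℤ) ^ 4 + (q : ℤ) ^ 2 + 1) := by
  have h2 : 1 ≤ q ^ 2 := Nat.one_le_pow _ _ hq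
  have h6 : 1 ≤ q ^ 6 := Nat.one_le_pow _ _ hq
  push_cast [Nat.cast_sub h2, Nat.cast_sub h6]
  ring

theorem ex1 {q k : ℕ} (hk : q = 3 ^ k) (h9 : 9 ≤ q) {n : ℕ} (hn : n + 2 = q ^ 4 + q ^ 2) :
    ¬ n ∣ q ^ 6 * (q ^ 2 - 1) * (q ^ 6 - 1) := by
  intro hd
  have h1 : (n : ℤ) ∣ (q : ℤ) ^ 6 * ((q : ℤ) ^ 2 - 1) ^ 2 * ((q : ℤ) ^ 4 + (q : ℤ) ^ 2 + 1) := by
    rw [← ord_eq (by omega)]; exact_mod_cast hd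
  have hn' : (n : ℤ) = ((q : ℤ) ^ 2 - 1) * ((q : ℤ) ^ 2 + 2) := by
    have : (n : ℤ) + 2 = (q : ℤ) ^ 4 + (q : ℤ) ^ 2 := by exact_mod_cast hn
    linear_combination this
  have h2 : ((q : ℤ) ^ 2 + 2) ∣ (q : ℤ) ^ 6 * ((q : ℤ) ^ 2 - 1) ^ 2 * ((q : ℤ) ^ 4 + (q : ℤ) ^ 2 + 1) :=
    (Dvd.intro_left _ hn'.symm).trans h1
  have h3 : ((q : ℤ) ^ 2 + 2) ∣ 27 * (q : ℤ) ^ 6 := by
    have h4 : 27 * (q : ℤ) ^ 6 = (q : ℤ) ^ 6 * ((q : ℤ) ^ 2 - 1) ^ 2 * ((q : ℤ) ^ 4 + (q : ℤ) ^ 2 + 1) -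
        ((q : ℤ) ^ 2 + 2) * ((q : ℤ) ^ 12 - 3 * (q : ℤ) ^ 10 + 6 * (q : ℤ) ^ 8 - 13 * (q : ℤ) ^ 6) := by ring
    rw [h4]
    exact dvd_sub h2 (dvd_mul_right _ _)
  have hk0 : k ≠ 0 := by
    rintro rfl
    rw [pow_zero] at hk
    omega
  obtain ⟨j, rfl⟩ : ∃ j, k = j + 1 := ⟨k - 1, by omega⟩
  have hc : IsCoprime ((q : ℤ) ^ 2 + 2) 3 := by
    refine ⟨-1, 3 * ((3 : ℤ) ^ j) ^ 2 + 1, ?_⟩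
    have : (q : ℤ) = 3 * 3 ^ j := by rw [hk]; push_cast; ring
    rw [this]; ring
  have hc2 : IsCoprime ((q : ℤ) ^ 2 + 2) (27 * (q : ℤ) ^ 6) := by
    have : (27 * (q : ℤ) ^ 6) = 3 ^ 3 * (3 ^ (j + 1)) ^ 6 := by rw [hk]; push_cast; ring
    rw [this]
    exact (hc.pow_right).mul_right ((hc.pow_right).pow_right)
  have hu := hc2.isUnit_of_dvd' dvd_rfl h3
  rw [Int.isUnit_iff] at hu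
  have h81 : (0 : ℤ) ≤ (q : ℤ) ^ 2 := sq_nonneg _
  omega

theorem ex2 {q : ℕ} (h9 : 9 ≤ q) {n : ℕ} (hn : n + 1 = q ^ 4 + q ^ 2) :
    ¬ n ∣ q ^ 6 * (q ^ 2 - 1) * (q ^ 6 - 1) := by
  intro hd
  have h1 : (n : ℤ) ∣ (q : ℤ) ^ 6 * ((q : ℤ) ^ 2 - 1) ^ 2 * ((q : ℤ) ^ 4 + (q : ℤ) ^ 2 + 1) := by
    rw [← ord_eq (by omega)]; exact_mod_cast hd
  have hn' : (n : ℤ) = (q : ℤ) ^ 4 + (q : ℤ) ^ 2 - 1 := by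
    have : (n : ℤ) + 1 = (q : ℤ) ^ 4 + (q : ℤ) ^ 2 := by exact_mod_cast hn
    linear_combination this
  rw [hn'] at h1
  have hc : IsCoprime ((q : ℤ) ^ 4 + (q : ℤ) ^ 2 - 1) ((q : ℤ) ^ 6) := by
    apply IsCoprime.pow_right
    exact ⟨-1, (q : ℤ) ^ 3 + q, by ring⟩
  have h2 : ((q : ℤ) ^ 4 + (q : ℤ) ^ 2 - 1) ∣ ((q : ℤ) ^ 2 - 1) ^ 2 * ((q : ℤ) ^ 4 + (q : ℤ) ^ 2 + 1) := by
    rw [mul_assoc] at h1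
    exact hc.dvd_of_dvd_mul_left h1
  have h3 : ((q : ℤ) ^ 4 + (q : ℤ) ^ 2 - 1) ∣ 6 * (q : ℤ) ^ 2 - 4 := by
    have h4 : 6 * (q : ℤ) ^ 2 - 4 = ((q : ℤ) ^ 4 + (q : ℤ) ^ 2 - 1) * ((q : ℤ) ^ 4 - 2 * (q : ℤ) ^ 2 + 3) -
        ((q : ℤ) ^ 2 - 1) ^ 2 * ((q : ℤ) ^ 4 + (q : ℤ) ^ 2 + 1) := by ring
    rw [h4]
    exact dvd_sub (dvd_mul_right _ _) h2
  have h9' : (9 : ℤ) ≤ q := by exact_mod_cast h9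
  have h5 := Int.le_of_dvd (by nlinarith) h3
  nlinarith [sq_nonneg ((q : ℤ) ^ 2 - 3)]

theorem ex3 {q : ℕ} (h9 : 9 ≤ q) {n : ℕ} (hn : n = q ^ 4 + q ^ 2) :
    ¬ n ∣ q ^ 6 * (q ^ 2 - 1) * (q ^ 6 - 1) := by
  intro hd
  have h1 : (n : ℤ) ∣ (q : ℤ) ^ 6 * ((q : ℤ) ^ 2 - 1) ^ 2 * ((q : ℤ) ^ 4 + (q : ℤ) ^ 2 + 1) := by
    rw [← ord_eq (by omega)]; exact_mod_cast hd
  have hn' : (n : ℤ) = (q : ℤ) ^ 2 * ((q : ℤ) ^ 2 + 1) := by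
    rw [hn]; push_cast; ring
  have h2 : ((q : ℤ) ^ 2 + 1) ∣ (q : ℤ) ^ 6 * ((q : ℤ) ^ 2 - 1) ^ 2 * ((q : ℤ) ^ 4 + (q : ℤ) ^ 2 + 1) :=
    (Dvd.intro_left _ hn'.symm).trans h1
  have hc : IsCoprime ((q : ℤ) ^ 2 + 1) ((q : ℤ) ^ 6) := by
    apply IsCoprime.pow_right
    exact ⟨1, -q, by ring⟩
  have h3 : ((q : ℤ) ^ 2 + 1) ∣ ((q : ℤ) ^ 2 - 1) ^ 2 * ((q : ℤ) ^ 4 + (q : ℤ) ^ 2 + 1) := by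
    rw [mul_assoc] at h2
    exact hc.dvd_of_dvd_mul_left h2
  have h4 : ((q : ℤ) ^ 2 + 1) ∣ 4 := by
    have h5 : (4 : ℤ) = ((q : ℤ) ^ 2 - 1) ^ 2 * ((q : ℤ) ^ 4 + (q : ℤ) ^ 2 + 1) -
        ((q : ℤ) ^ 2 + 1) * ((q : ℤ) ^ 6 - 2 * (q : ℤ) ^ 4 + 2 * (q : ℤ) ^ 2 - 3) := by ring
    rw [h5]
    exact dvd_sub h3 (dvd_mul_right _ _)
  have h9' : (9 : ℤ) ≤ q := by exact_mod_cast h9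
  have h5 := Int.le_of_dvd (by norm_num) h4
  nlinarith

end Cfsg.Agent.Lib.MinG2H
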