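import Cfsg.Agent.Lib.MinG2G

/-!
Weight multiplicities for G2(q), q a power of 3: the generic multiplicity does not vanish (helper18).
-/

set_option autoImplicit false
set_option linter.unusedSectionVars false

universe u v

namespace Cfsg.Agent.Lib.MinG2I

open Cfsg.Lie Cfsg.Agent.Lib.ChevX Cfsg.Agent.Lib.ChevGood
open Cfsg.Agent.Lib.UCEBase Cfsg.Agent.Lib.UCESymbol Cfsg.Agent.Lib.UCESys
open Cfsg.Agent.Lib.WeightProj Cfsg.Agent.Lib.MinDegA Cfsg.Agent.Lib.MinG2A Cfsg.Agent.Lib.MinG2B Cfsg.Agent.Lib.MinG2C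
open Cfsg.Agent.Lib.MinG2D Cfsg.Agent.Lib.MinG2E Cfsg.Agent.Lib.MinG2F Cfsg.Agent.Lib.MinG2G

section

variable {F : Type*} [Field F] [Fintype F] {V : Type*} [AddCommGroup V] [Module ℂ V]
  {ρ : Representation ℂ (chevG2.group F) V} {ψ : AddChar F ℂ}

theorem only0 (hψ : ψ ≠ 1) {r : ℕ} (hr : r < 12) {A : Module.End ℂ V} (h : ∀ c : F, c ≠ 0 → pr ρ ψ (X r) c * A = 0) :
    pr ρ ψ (X r) 0 * A = A := by
  classical
  have h1 : (∑ c : F, pr ρ ψ (X r) c) * A = A := by rw [sum_pr hψ (X_add hr), one_mul]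
  rw [Finset.sum_mul, Finset.sum_eq_single (0 : F) (fun c _ hc => h c hc) (fun h => absurd (Finset.mem_univ _) h)] at h1
  exact h1

theorem fixA (hψ : ψ ≠ 1) {r : ℕ} (hr : r < 12) {A : Module.End ℂ V} (h : ∀ c : F, c ≠ 0 → pr ρ ψ (X r) c * A = 0) (t : F) :
    ρ (X r t) * A = A := by
  rw [← only0 hψ hr h, ← mul_assoc, fix_pr (X_add hr)]

theorem exists_sq_ne (hq : 3 < Fintype.card F) : ∃ s : F, s ≠ 0 ∧ s ^ 2 - 1 ≠ 0 := by
  classical
  by_contra hcon
  push Not at hcon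
  have h1 : (Finset.univ : Finset F) ⊆ {0, 1, -1} := by
    intro s _
    simp only [Finset.mem_insert, Finset.mem_singleton]
    by_cases hs : s = 0
    · exact Or.inl hs
    · right
      have := hcon s hs
      have h2 : (s - 1) * (s + 1) = 0 := by linear_combination this
      rcases mul_eq_zero.mp h2 with h | h
      · exact Or.inl (sub_eq_zero.mp h)
      · exact Or.inr (eq_neg_of_add_eq_zero_left h)
  have h2 := Finset.card_le_card h1
  rw [Finset.card_univ] at h2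
  have h3 := Finset.card_le_three (a := (0 : F)) (b := 1) (c := -1)
  omega

variable [FiniteDimensional ℂ V] (h3 : (3 : F) = 0) (hψ : ψ ≠ 1)
include h3 hψ

theorem mu_ne (hq : 3 < Fintype.card F) (hnt : ∃ u, ρ (X 9 u) ≠ 1) : tn (A2 ρ ψ 1 0 1) ≠ 0 := by
  classical
  intro hμ
  have hT : ∀ l a b : F, l ≠ 0 → ¬ (a = 0 ∧ b = 0) → T3 ρ ψ l a b = 0 := by
    intro l a b hl hab
    apply tn_zero (T3_I h3 _ _ _)
    rw [T3_const h3 hψ hl hab, T3_A2 h3 hψ one_ne_zero, hμ, mul_zero]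
  -- the weights of x11 and x9, x8
  have h118 : ∀ l a : F, l ≠ 0 → a ≠ 0 → pr ρ ψ (X 11) l * pr ρ ψ (X 8) a = 0 := by
    intro l a hl ha
    have e : pr ρ ψ (X 11) l * pr ρ ψ (X 8) a = ∑ b, T3 ρ ψ l a b := by
      simp only [T3]
      rw [← Finset.mul_sum, ← Finset.mul_sum, sum_pr hψ (X_add (by norm_num)), mul_one]
    rw [e]
    exact Finset.sum_eq_zero (fun b _ => hT l a b hl (fun h => ha h.1))
  have h119 : ∀ l b : F, l ≠ 0 → b ≠ 0 → pr ρ ψ (X 11) l * pr ρ ψ (X 9) b = 0 := by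
    intro l b hl hb
    have e : pr ρ ψ (X 11) l * pr ρ ψ (X 9) b = ∑ a, T3 ρ ψ l a b := by
      simp only [T3]
      rw [← Finset.mul_sum, ← Finset.sum_mul, sum_pr hψ (X_add (by norm_num)), one_mul]
    rw [e]
    exact Finset.sum_eq_zero (fun a _ => hT l a b hl (fun h => hb h.2))
  have h109 : ∀ e b : F, e ≠ 0 → b ≠ 0 → pr ρ ψ (X 10) e * pr ρ ψ (X 9) b = 0 := by
    intro e b he hb
    obtain ⟨c2, hc2, e2⟩ := pN (ρ := ρ) (ψ := ψ) (F := F) (i := 1) (s := 9) (s' := 9) (by norm_num) (by norm_num) (by decide)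
    obtain ⟨c3, hc3, e3⟩ := pN (ρ := ρ) (ψ := ψ) (F := F) (i := 1) (s := 10) (s' := 11) (by norm_num) (by norm_num) (by decide)
    apply unit_zero (g := (nw 1 : chevG2.group F))
    rw [mul_conj (e3 e) (e2 b), h119 _ _ (mul_ne_zero he hc3) (mul_ne_zero hb hc2), zero_mul]
  have h68 : ∀ e a : F, e ≠ 0 → a ≠ 0 → pr ρ ψ (X 6) e * pr ρ ψ (X 8) a = 0 := by
    intro e a he ha
    obtain ⟨c2, hc2, e2⟩ := pN (ρ := ρ) (ψ := ψ) (F := F) (i := 0) (s := 8) (s' := 9) (by norm_num) (by norm_num) (by decide)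
    obtain ⟨c3, hc3, e3⟩ := pN (ρ := ρ) (ψ := ψ) (F := F) (i := 0) (s := 6) (s' := 10) (by norm_num) (by norm_num) (by decide)
    apply unit_zero (g := (nw 0 : chevG2.group F))
    rw [mul_conj (e3 e) (e2 a), h109 _ _ (mul_ne_zero he hc3) (mul_ne_zero ha hc2), zero_mul]
  -- the operator A
  set A := pr ρ ψ (X 8) (0 : F) * pr ρ ψ (X 9) 1 with hA
  have hshift : ∀ s a : F, ρ (X 7 s) * (pr ρ ψ (X 8) a * pr ρ ψ (X 9) 1) = pr ρ ψ (X 8) (a - s) * pr ρ ψ (X 9) 1 * ρ (X 7 s) := by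
    intro s a
    exact MinG2E.shift (ρ := ρ) (ψ := ψ) (g := X 7 s) (x := X 8) (m79 ρ ψ h3 s 1).eq (m := s) (fun c => by
      rw [r78 h3, map_mul, mul_assoc, mul_pr (X_add (by norm_num)), mul_smul_comm, one_mul]) a
  have a11 : ∀ t, ρ (X 11 t) * A = A := by
    intro t
    apply fixA hψ (by norm_num)
    intro c hc
    rw [hA, ← (k89 ρ ψ h3 0 1).symm.eq, ← mul_assoc, h119 c 1 hc one_ne_zero, zero_mul]
  have a10 : ∀ t, ρ (X 10 t) * A = A := by
    intro t
    apply fixA hψ (by norm_num)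
    intro c hc
    rw [hA, ← (k89 ρ ψ h3 0 1).symm.eq, ← mul_assoc, h109 c 1 hc one_ne_zero, zero_mul]
  have a9 : ∀ t, ρ (X 9 t) * A = ψ t • A := by
    intro t
    rw [hA, ← (k89 ρ ψ h3 0 1).symm.eq, ← mul_assoc, mul_pr (X_add (by norm_num)), one_mul, smul_mul_assoc]
  have a8 : ∀ t, ρ (X 8 t) * A = A := by
    intro t
    rw [hA, ← mul_assoc, fix_pr (X_add (by norm_num))]
  have key : ∀ s t : F, s ≠ 0 → ψ (s ^ 2 * t) • (ρ (X 6 t) * A) = A := by
    intro s t hs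
    have h1 : ρ (X 6 t) * (ρ (X 7 s) * A) = ρ (X 7 s) * A := by
      rw [hA, hshift, zero_sub, ← mul_assoc, ← mul_assoc]
      rw [fixA hψ (r := 6) (by norm_num) (fun c hc => h68 c (-s) hc (neg_ne_zero.mpr hs)) t]
    have h2 : ρ (X 7 (-s)) * (ρ (X 6 t) * (ρ (X 7 s) * A)) = A := by
      rw [h1, ← mul_assoc, ← map_mul, X_neg (by norm_num), inv_mul_cancel, map_one, one_mul]
    have h4 : X 7 (-s) * X 6 t * X 7 s = X 6 t * (X 8 (s * t) * (X 9 (s ^ 2 * t) * (X 10 ((-s) ^ 3 * t) * X 11 ((-s) ^ 3 * t ^ 2)))) := by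
      have h := r76 (-s) t
      rw [X_neg (by norm_num), inv_inv] at h
      rw [X_neg (by norm_num), h]
      congr 2
      · congr 1; ring
      · congr 2; ring
    have h5 : ρ (X 7 (-s)) * (ρ (X 6 t) * (ρ (X 7 s) * A)) = ρ (X 7 (-s) * X 6 t * X 7 s) * A := by
      rw [map_mul, map_mul]; noncomm_ring
    rw [h5, h4, map_mul, map_mul, map_mul, map_mul, mul_assoc, mul_assoc, mul_assoc, mul_assoc, a11, a10, a9, mul_smul_comm, a8,
      mul_smul_comm] at h2
    exact h2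
  have hA0 : A = 0 := by
    by_contra hA0
    obtain ⟨s, hs, hs2⟩ := exists_sq_ne hq
    have hall : ∀ t, ψ ((s ^ 2 - 1) * t) = 1 := by
      intro t
      have h1 := key s t hs
      have h2 := key 1 t one_ne_zero
      rw [one_pow, one_mul] at h2
      have hne : ρ (X 6 t) * A ≠ 0 := fun h => hA0 (unit_zero h)
      have h4 : (ψ (s ^ 2 * t) - ψ t) • (ρ (X 6 t) * A) = 0 := by rw [sub_smul, h1, h2, sub_self]
      rcases smul_eq_zero.mp h4 with h | h
      · have h5 : ψ ((s ^ 2 - 1) * t + t) = ψ t := by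
          rw [show (s ^ 2 - 1) * t + t = s ^ 2 * t by ring]; exact sub_eq_zero.mp h
        rw [AddChar.map_add_eq_mul] at h5
        have h6 : ψ t ≠ 0 := by
          intro h0
          have : ψ (t + -t) = 0 := by rw [AddChar.map_add_eq_mul, h0, zero_mul]
          rw [add_neg_cancel, AddChar.map_zero_eq_one] at this
          exact one_ne_zero this
        exact mul_right_cancel₀ h6 (by rw [h5, one_mul])
      · exact absurd h hne
    apply hψ
    ext t
    have := hall ((s ^ 2 - 1)⁻¹ * t)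
    rw [mul_inv_cancel_left₀ hs2] at this
    rw [this, AddChar.one_apply]
  have h9' : pr ρ ψ (X 9) (1 : F) = 0 := by
    have e : pr ρ ψ (X 9) (1 : F) = ∑ a, pr ρ ψ (X 8) a * pr ρ ψ (X 9) 1 := by
      rw [← Finset.sum_mul, sum_pr hψ (X_add (by norm_num)), one_mul]
    rw [e]
    refine Finset.sum_eq_zero (fun a _ => ?_)
    have h1 := hshift (-a) 0
    rw [← hA, hA0, mul_zero, zero_sub, neg_neg] at h1
    exact unit_zero' h1.symm
  have h9 : ∀ b : F, b ≠ 0 → pr ρ ψ (X 9) b = 0 := by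
    intro b hb
    have h1 := pT (ρ := ρ) (ψ := ψ) (x := b) (y := 1) hb one_ne_zero (s := 9) (by norm_num) (m := 1) (n := 0) rfl b
    rw [zpow_one, zpow_zero, mul_one, mul_inv_cancel₀ hb, h9', zero_mul] at h1
    exact unit_zero h1
  obtain ⟨u, hu⟩ := hnt
  apply hu
  have := fixA (ρ := ρ) (ψ := ψ) hψ (r := 9) (by norm_num) (A := 1) (fun c hc => by rw [h9 c hc, zero_mul]) u
  rwa [mul_one] at this

end

end Cfsg.Agent.Lib.MinG2I
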