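import Cfsg.Agent.Lib.MinG2I
import Cfsg.Agent.Lib.MinG2H

/-!
Weight multiplicities for G2(q), q a power of 3: the count (helper18).
-/

set_option autoImplicit false
set_option linter.unusedSectionVars false

universe u v

namespace Cfsg.Agent.Lib.MinG2J

open Cfsg.Lie Cfsg.Agent.Lib.ChevX Cfsg.Agent.Lib.ChevGood
open Cfsg.Agent.Lib.UCEBase Cfsg.Agent.Lib.UCESymbol Cfsg.Agent.Lib.UCESys
open Cfsg.Agent.Lib.WeightProj Cfsg.Agent.Lib.MinDegA Cfsg.Agent.Lib.MinG2A Cfsg.Agent.Lib.MinG2B Cfsg.Agent.Lib.MinG2C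
open Cfsg.Agent.Lib.MinG2D Cfsg.Agent.Lib.MinG2E Cfsg.Agent.Lib.MinG2F Cfsg.Agent.Lib.MinG2G Cfsg.Agent.Lib.MinG2I

section

variable {F : Type*} [Field F] [Fintype F] {V : Type*} [AddCommGroup V] [Module ℂ V]
  {ρ : Representation ℂ (chevG2.group F) V} {ψ : AddChar F ℂ}

variable (ρ ψ) in
/-- weights of `x7` and `x8` -/
noncomputable def R7 (c a : F) : Module.End ℂ V := pr ρ ψ (X 7) c * R3 ρ ψ a 0 0

variable (ρ ψ) in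
/-- weights of `x6` and `x7` -/
noncomputable def R6 (c a : F) : Module.End ℂ V := pr ρ ψ (X 6) c * R7 ρ ψ a 0

theorem R6_a (t e : F) : Commute (ρ (X 6 t)) (pr ρ ψ (X 10) e * pr ρ ψ (X 11) 0) := by
  have h1 : ρ (X 6 t) * (pr ρ ψ (X 10) e * pr ρ ψ (X 11) 0) = pr ρ ψ (X 10) e * (ρ (X 6 t) * pr ρ ψ (X 11) 0) :=
    pr_commZ (fun u => r6_10' t u) e
  show _ = _
  rw [h1, (m6b ρ ψ t 0).eq, mul_assoc]

theorem R6_b (t a b e : F) : Commute (ρ (X 6 t)) (R3 ρ ψ a b e) := by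
  unfold R3
  exact (m68 ρ ψ t a).mul_right ((m69 ρ ψ t b).mul_right (R6_a t e))

variable (h3 : (3 : F) = 0)
include h3

theorem m7_R3 (s a e : F) : Commute (ρ (X 7 s)) (R3 ρ ψ a 0 e) := by
  have := R3_shift' (ρ := ρ) (ψ := ψ) h3 s a 0 e
  rwa [mul_zero, sub_zero] at this

theorem c7_R3 (c a e : F) : Commute (pr ρ ψ (X 7) c) (R3 ρ ψ a 0 e) :=
  (pr_comm (fun t => (m7_R3 h3 t a e).symm.eq) c).symm

theorem R7_I (c a : F) : R7 ρ ψ c a * R7 ρ ψ c a = R7 ρ ψ c a :=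
  idem (I7 ρ ψ c) (R3_I h3 a 0 0) (c7_R3 h3 c a 0)

theorem R7_shift' (s c a : F) : ρ (X 6 s) * R7 ρ ψ c a = R7 ρ ψ (c - s * a) a * ρ (X 6 s) := by
  have h := MinG2E.shift (ρ := ρ) (ψ := ψ) (g := X 6 s) (x := X 7) (R := R3 ρ ψ a 0 0) (R6_b s a 0 0).eq (m := s * a) (fun b => by
    rw [r67, map_mul, map_mul, map_mul, map_mul, mul_assoc, mul_assoc, mul_assoc, mul_assoc, w11, w10, mul_smul_comm,
      w9 ρ ψ h3, zero_mul, zero_mul, AddChar.map_zero_eq_one, one_smul, one_smul, w8, mul_smul_comm]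
    congr 2; ring) c
  unfold R7
  rw [h]

theorem m6_R7 (s c : F) : Commute (ρ (X 6 s)) (R7 ρ ψ c 0) := by
  have := R7_shift' (ρ := ρ) (ψ := ψ) h3 s c 0
  rwa [mul_zero, sub_zero] at this

theorem c6_R7 (c a : F) : Commute (pr ρ ψ (X 6) c) (R7 ρ ψ a 0) :=
  (pr_comm (fun t => (m6_R7 h3 t a).symm.eq) c).symm

theorem R6_I (c a : F) : R6 ρ ψ c a * R6 ρ ψ c a = R6 ρ ψ c a :=
  idem (I6 ρ ψ c) (R7_I h3 a 0) (c6_R7 h3 c a)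


variable [FiniteDimensional ℂ V]

theorem R7_shift (s c a : F) : tn (R7 ρ ψ c a) = tn (R7 ρ ψ (c - s * a) a) :=
  tn_conj (R7_I h3 _ _) (R7_I h3 _ _) (R7_shift' h3 s c a)

theorem R7_const {a : F} (ha : a ≠ 0) (c : F) : tn (R7 ρ ψ c a) = tn (R7 ρ ψ 0 a) := by
  rw [R7_shift h3 (c * a⁻¹) c a, mul_assoc, inv_mul_cancel₀ ha, mul_one, sub_self]

theorem R7_N (c : F) : ∃ k : F, k ≠ 0 ∧ tn (R7 ρ ψ c 0) = tn (R7 ρ ψ 0 (c * k)) := by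
  obtain ⟨c1, hc1, e1⟩ := pN (ρ := ρ) (ψ := ψ) (F := F) (i := 1) (s := 8) (s' := 7) (by norm_num) (by norm_num) (by decide)
  obtain ⟨c2, hc2, e2⟩ := pN (ρ := ρ) (ψ := ψ) (F := F) (i := 1) (s := 9) (s' := 9) (by norm_num) (by norm_num) (by decide)
  obtain ⟨c3, hc3, e3⟩ := pN (ρ := ρ) (ψ := ψ) (F := F) (i := 1) (s := 10) (s' := 11) (by norm_num) (by norm_num) (by decide)
  obtain ⟨c4, hc4, e4⟩ := pN (ρ := ρ) (ψ := ψ) (F := F) (i := 1) (s := 11) (s' := 10) (by norm_num) (by norm_num) (by decide)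
  obtain ⟨c5, hc5, e5⟩ := pN (ρ := ρ) (ψ := ψ) (F := F) (i := 1) (s := 7) (s' := 8) (by norm_num) (by norm_num) (by decide)
  refine ⟨c5, hc5, ?_⟩
  apply tn_conj (g := (nw 1 : chevG2.group F)) (R7_I h3 _ _) (R7_I h3 _ _)
  have h1 := mul_conj (e5 c) (mul_conj (e1 0) (mul_conj (e2 0) (mul_conj (e3 0) (e4 0))))
  rw [zero_mul, zero_mul, zero_mul, zero_mul] at h1
  have e6 : pr ρ ψ (X 8) (c * c5) * (pr ρ ψ (X 7) 0 * (pr ρ ψ (X 9) 0 * (pr ρ ψ (X 11) 0 * pr ρ ψ (X 10) 0))) =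
      R7 ρ ψ 0 (c * c5) := by
    have h7 : Commute (pr ρ ψ (X 7) 0) (pr ρ ψ (X 9) 0 * (pr ρ ψ (X 10) 0 * pr ρ ψ (X 11) (0 : F))) :=
      (k79 ρ ψ h3 0 0).mul_right ((k7a ρ ψ 0 0).mul_right (k7b ρ ψ 0 0))
    rw [(kab ρ ψ 0 0).symm.eq, h7.eq, ← mul_assoc]
    exact (c7_R3 h3 0 (c * c5) 0).symm.eq
  rw [e6] at h1
  exact h1

theorem R6_T {x : F} (hx : x ≠ 0) (c a : F) : tn (R6 ρ ψ c a) = tn (R6 ρ ψ (c * x⁻¹) a) := by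
  apply tn_conj (g := tor x (x ^ 2)) (R6_I h3 _ _) (R6_I h3 _ _)
  have hx2 : x ^ 2 ≠ 0 := pow_ne_zero 2 hx
  have e6 := pT (ρ := ρ) (ψ := ψ) hx hx2 (s := 6) (by norm_num) (m := -3) (n := 2) rfl c
  have e7 := pT (ρ := ρ) (ψ := ψ) hx hx2 (s := 7) (by norm_num) (m := 2) (n := -1) rfl a
  have e1 := pT (ρ := ρ) (ψ := ψ) hx hx2 (s := 8) (by norm_num) (m := -1) (n := 1) rfl 0
  have e2 := pT (ρ := ρ) (ψ := ψ) hx hx2 (s := 9) (by norm_num) (m := 1) (n := 0) rfl 0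
  have e3 := pT (ρ := ρ) (ψ := ψ) hx hx2 (s := 10) (by norm_num) (m := 3) (n := -1) rfl 0
  have e4 := pT (ρ := ρ) (ψ := ψ) hx hx2 (s := 11) (by norm_num) (m := 0) (n := 1) rfl 0
  rw [zero_mul] at e1 e2 e3 e4
  have z1 : x ^ (-3 : ℤ) * (x ^ 2) ^ (2 : ℤ) = x := by
    rw [zpow_neg, show (x : F) ^ (3 : ℤ) = x ^ 3 from by exact_mod_cast rfl,
      show ((x ^ 2 : F)) ^ (2 : ℤ) = (x ^ 2) ^ 2 from by exact_mod_cast rfl]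
    field_simp
  have z2 : x ^ (2 : ℤ) * (x ^ 2) ^ (-1 : ℤ) = 1 := by
    rw [zpow_neg, zpow_one, show (x : F) ^ (2 : ℤ) = x ^ 2 from by exact_mod_cast rfl]
    field_simp
  rw [z1] at e6
  rw [z2, inv_one, mul_one] at e7
  exact mul_conj e6 (mul_conj e7 (mul_conj e1 (mul_conj e2 (mul_conj e3 e4))))

theorem R4_N (c : F) : ∃ k : F, k ≠ 0 ∧ tn (R4 ρ ψ c 0 0 0) = tn (R4 ρ ψ 0 0 0 (c * k)) := by
  obtain ⟨c1, hc1, e1⟩ := pN (ρ := ρ) (ψ := ψ) (F := F) (i := 0) (s := 6) (s' := 10) (by norm_num) (by norm_num) (by decide)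
  obtain ⟨c2, hc2, e2⟩ := pN (ρ := ρ) (ψ := ψ) (F := F) (i := 0) (s := 8) (s' := 9) (by norm_num) (by norm_num) (by decide)
  obtain ⟨c3, hc3, e3⟩ := pN (ρ := ρ) (ψ := ψ) (F := F) (i := 0) (s := 9) (s' := 8) (by norm_num) (by norm_num) (by decide)
  obtain ⟨c4, hc4, e4⟩ := pN (ρ := ρ) (ψ := ψ) (F := F) (i := 0) (s := 10) (s' := 6) (by norm_num) (by norm_num) (by decide)
  obtain ⟨c5, hc5, e5⟩ := pN (ρ := ρ) (ψ := ψ) (F := F) (i := 0) (s := 11) (s' := 11) (by norm_num) (by norm_num) (by decide)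
  refine ⟨c1, hc1, ?_⟩
  apply tn_conj (g := (nw 0 : chevG2.group F)) (R4_I h3 _ _ _ _) (R4_I h3 _ _ _ _)
  have h1 := mul_conj (e1 c) (mul_conj (e2 0) (mul_conj (e3 0) (mul_conj (e4 0) (e5 0))))
  rw [zero_mul, zero_mul, zero_mul, zero_mul] at h1
  have e6 : pr ρ ψ (X 10) (c * c1) * (pr ρ ψ (X 9) 0 * (pr ρ ψ (X 8) 0 * (pr ρ ψ (X 6) 0 * pr ρ ψ (X 11) 0))) =
      R4 ρ ψ 0 0 0 (c * c1) := by
    have h8 : Commute (pr ρ ψ (X 10) (c * c1)) (pr ρ ψ (X 9) 0 * pr ρ ψ (X 8) (0 : F)) :=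
      (k9a ρ ψ 0 (c * c1)).symm.mul_right (k8a ρ ψ 0 (c * c1)).symm
    unfold R4
    rw [(c6_R3 h3 0 0 0 (c * c1)).eq]
    unfold R3
    calc pr ρ ψ (X 10) (c * c1) * (pr ρ ψ (X 9) 0 * (pr ρ ψ (X 8) 0 * (pr ρ ψ (X 6) 0 * pr ρ ψ (X 11) 0))) =
        (pr ρ ψ (X 10) (c * c1) * (pr ρ ψ (X 9) 0 * pr ρ ψ (X 8) 0)) * (pr ρ ψ (X 6) 0 * pr ρ ψ (X 11) 0) := by noncomm_ring
      _ = ((pr ρ ψ (X 8) 0 * pr ρ ψ (X 9) 0) * pr ρ ψ (X 10) (c * c1)) * (pr ρ ψ (X 11) 0 * pr ρ ψ (X 6) 0) := by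
          rw [h8.eq, (k6b ρ ψ 0 0).eq, (k89 ρ ψ h3 0 0).eq]
      _ = _ := by noncomm_ring
  rw [e6] at h1
  exact h1

variable (hψ : ψ ≠ 1)
include hψ

theorem sum_R7 (a : F) : tn (R3 ρ ψ a 0 0) = ∑ c, tn (R7 ρ ψ c a) := by
  refine tn_sum Finset.univ (R3_I h3 a 0 0) (fun c _ => R7_I h3 c a) ?_
  unfold R7
  rw [← Finset.sum_mul, sum_pr hψ (X_add (by norm_num)), one_mul]

theorem sum_R6c (a : F) : tn (R7 ρ ψ a 0) = ∑ c, tn (R6 ρ ψ c a) := by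
  refine tn_sum Finset.univ (R7_I h3 a 0) (fun c _ => R6_I h3 c a) ?_
  unfold R6
  rw [← Finset.sum_mul, sum_pr hψ (X_add (by norm_num)), one_mul]

theorem sum_R6a (c : F) : tn (R4 ρ ψ c 0 0 0) = ∑ a, tn (R6 ρ ψ c a) := by
  refine tn_sum Finset.univ (R4_I h3 c 0 0 0) (fun a _ => R6_I h3 c a) ?_
  unfold R6 R7 R4
  rw [← Finset.mul_sum, ← Finset.sum_mul, sum_pr hψ (X_add (by norm_num)), one_mul]

theorem sum_T30 (a b : F) : tn (T3 ρ ψ 0 a b) = ∑ e, tn (R3 ρ ψ a b e) := by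
  refine tn_sum Finset.univ (T3_I h3 0 a b) (fun e _ => R3_I h3 a b e) ?_
  unfold R3
  rw [← Finset.mul_sum, ← Finset.mul_sum, ← Finset.sum_mul, sum_pr hψ (X_add (by norm_num)), one_mul]
  unfold T3
  have hc : Commute (pr ρ ψ (X 11) 0) (pr ρ ψ (X 8) a * pr ρ ψ (X 9) b) := (k8b ρ ψ a 0).symm.mul_right (k9b ρ ψ b 0).symm
  rw [hc.eq, mul_assoc]

theorem sum_d1 : d1 (S3 F) ρ ψ = ∑ a, ∑ b, tn (R3 ρ ψ a b 1) := by
  have h0 : (pr ρ ψ (X 10) 1 * pr ρ ψ (X 11) 0) * (pr ρ ψ (X 10) 1 * pr ρ ψ (X 11) 0) = pr ρ ψ (X 10) (1 : F) * pr ρ ψ (X 11) 0 :=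
    idem (I10 ρ ψ 1) (I11 ρ ψ 0) (kab ρ ψ 1 0)
  have h1 : tn (pr ρ ψ (X 10) 1 * pr ρ ψ (X 11) (0 : F)) = d1 (S3 F) ρ ψ := by
    have := tr12_02 (S := S3 F) (σ := ρ) hψ (b := 1) one_ne_zero
    change LinearMap.trace ℂ V (pr ρ ψ (X 10) 1 * pr ρ ψ (X 11) 0) = _ at this
    rw [tr_tn h0] at this
    exact_mod_cast this
  have h2 : ∀ a : F, (pr ρ ψ (X 8) a * (pr ρ ψ (X 10) 1 * pr ρ ψ (X 11) 0)) * (pr ρ ψ (X 8) a * (pr ρ ψ (X 10) 1 * pr ρ ψ (X 11) 0)) =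
      pr ρ ψ (X 8) a * (pr ρ ψ (X 10) 1 * pr ρ ψ (X 11) 0) := fun a =>
    idem (I8 ρ ψ a) h0 ((k8a ρ ψ a 1).mul_right (k8b ρ ψ a 0))
  rw [← h1, tn_sum Finset.univ h0 (fun a _ => h2 a) (by rw [← Finset.sum_mul, sum_pr hψ (X_add (by norm_num)), one_mul])]
  refine Finset.sum_congr rfl (fun a _ => ?_)
  refine tn_sum Finset.univ (h2 a) (fun b _ => R3_I h3 a b 1) ?_
  unfold R3
  rw [← Finset.mul_sum, ← Finset.sum_mul, sum_pr hψ (X_add (by norm_num)), one_mul]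

end

end Cfsg.Agent.Lib.MinG2J
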