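import Mathlib

/-!
Arithmetic for the minimal degree of G2(q), q a power of 3, second part (helper18).
-/

set_option autoImplicit false

namespace Cfsg.Agent.Lib.MinG2L

theorem arith {q μ d D μ0 ν0 S Z N T : ℕ} (hq : 9 ≤ q) (hμ0 : μ ≠ 0) (k1 : N + q * d = q * (q * d) + Z)
    (k2 : Z + D = q * q * D + T) (k3 : d + μ = q * q * μ + μ0) (k4 : D + μ = q * μ + ν0)
    (k5 : d + q * μ = S + q * (q * μ)) (hq3 : 3 ∣ q) (hS : 3 ∣ S) (hE : 3 ∣ D) :
    q ^ 4 + q ^ 2 ≤ N + 2 ∨ (μ = 1 ∧ d = q * q ∧ D = q) := by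
  have z1 : (N : ℤ) = (q ^ 2 - q) * d + Z := by
    have : (N : ℤ) + q * d = q * (q * d) + Z := by exact_mod_cast k1
    linear_combination this
  have z2 : (Z : ℤ) = (q ^ 2 - 1) * D + T := by
    have : (Z : ℤ) + D = q * q * D + T := by exact_mod_cast k2
    linear_combination this
  have z3 : (d : ℤ) = (q ^ 2 - 1) * μ + μ0 := by
    have : (d : ℤ) + μ = q * q * μ + μ0 := by exact_mod_cast k3
    linear_combination this
  have z4 : (D : ℤ) = (q - 1) * μ + ν0 := by
    have : (D : ℤ) + μ = q * μ + ν0 := by exact_mod_cast k4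
    linear_combination this
  have hq' : (9 : ℤ) ≤ q := by exact_mod_cast hq
  have hμ0' : (0 : ℤ) ≤ μ0 := Int.natCast_nonneg _
  have hν0' : (0 : ℤ) ≤ ν0 := Int.natCast_nonneg _
  have hT0 : (0 : ℤ) ≤ (T : ℤ) := Int.natCast_nonneg _
  have hN : (N : ℤ) = (q ^ 2 - 1) ^ 2 * μ + (q ^ 2 - q) * μ0 + (q ^ 2 - 1) * ν0 + T := by
    rw [z1, z2, z3, z4]; ring
  have p1 : (0 : ℤ) ≤ (q : ℤ) ^ 2 - q := by nlinarith
  have p2 : (0 : ℤ) ≤ (q : ℤ) ^ 2 - 1 := by nlinarith
  by_cases h2 : 2 ≤ μ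
  · left
    have h2' : (2 : ℤ) ≤ μ := by exact_mod_cast h2
    have e1 : ((q : ℤ) ^ 2 - 1) ^ 2 * 2 ≤ (q ^ 2 - 1) ^ 2 * μ := mul_le_mul_of_nonneg_left h2' (sq_nonneg _)
    have e2 := mul_nonneg p1 hμ0'
    have e3 := mul_nonneg p2 hν0'
    have : (q : ℤ) ^ 4 + q ^ 2 ≤ N + 2 := by nlinarith [sq_nonneg ((q : ℤ) ^ 2 - 9)]
    exact_mod_cast this
  · have h1 : μ = 1 := by omega
    by_cases hcase : μ0 = 1 ∧ ν0 = 1
    · right
      refine ⟨h1, ?_, ?_⟩
      · rw [hcase.1, h1] at k3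
        omega
      · rw [hcase.2, h1] at k4
        omega
    · left
      obtain ⟨m, hm⟩ := hq3
      obtain ⟨s, hs⟩ := hS
      obtain ⟨t, ht'⟩ := hE
      rw [h1] at k3 k4 k5
      have n1 : μ0 % 3 = 1 := by
        have a1 : d + q * 1 = 3 * s + q * (q * 1) := by rw [← hs]; exact k5
        have a2 : q * (q * 1) = 3 * (m * q) := by rw [mul_one]; nth_rewrite 1 [hm]; ring
        have a3 : q * q * 1 = 3 * (m * q) := by rw [mul_one]; nth_rewrite 1 [hm]; ring
        omega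
      have n2 : ν0 % 3 = 1 := by omega
      have h1' : (μ : ℤ) = 1 := by exact_mod_cast h1
      rw [h1'] at hN
      have n3 : 1 ≤ μ0 := by omega
      have n4 : 1 ≤ ν0 := by omega
      have : 4 ≤ μ0 ∨ 4 ≤ ν0 := by
        rcases Nat.lt_or_ge μ0 4 with h | h
        · rcases Nat.lt_or_ge ν0 4 with h' | h'
          · exfalso; apply hcase; omega
          · exact Or.inr h'
        · exact Or.inl h
      have n3' : (1 : ℤ) ≤ μ0 := by exact_mod_cast n3
      have n4' : (1 : ℤ) ≤ ν0 := by exact_mod_cast n4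
      have : (q : ℤ) ^ 4 + q ^ 2 ≤ N + 2 := by
        rcases this with h | h
        · have h' : (4 : ℤ) ≤ μ0 := by exact_mod_cast h
          have e2 := mul_le_mul_of_nonneg_left h' p1
          have e3 := mul_le_mul_of_nonneg_left n4' p2
          have e4 := sq_nonneg ((q : ℤ) - 1)
          linarith
        · have h' : (4 : ℤ) ≤ ν0 := by exact_mod_cast h
          have e2 := mul_le_mul_of_nonneg_left n3' p1
          have e3 := mul_le_mul_of_nonneg_left h' p2
          have e4 : (0 : ℤ) ≤ (2 * q + 1) * (q - 1) := mul_nonneg (by linarith) (by linarith)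
          linarith
      exact_mod_cast this

end Cfsg.Agent.Lib.MinG2L
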