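import Cfsg.Agent.Lib.MinG2J
import Cfsg.Agent.Lib.CharCentral
import Cfsg.Agent.Lib.MinG2L

/-!
The minimal degree of G2(q), q a power of 3 (helper18).
-/

set_option autoImplicit false
set_option linter.unusedSectionVars false

universe u v

namespace Cfsg.Agent.Lib.MinG2K

open Cfsg.Lie Cfsg.Agent.Lib.ChevX Cfsg.Agent.Lib.ChevGood
open Cfsg.Agent.Lib.UCEBase Cfsg.Agent.Lib.UCESymbol Cfsg.Agent.Lib.UCESys
open Cfsg.Agent.Lib.WeightProj Cfsg.Agent.Lib.MinDegA Cfsg.Agent.Lib.MinG2A Cfsg.Agent.Lib.MinG2B Cfsg.Agent.Lib.MinG2C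
open Cfsg.Agent.Lib.MinG2D Cfsg.Agent.Lib.MinG2E Cfsg.Agent.Lib.MinG2F Cfsg.Agent.Lib.MinG2G Cfsg.Agent.Lib.MinG2I Cfsg.Agent.Lib.MinG2J

section

variable {F : Type*} [Field F] [Fintype F] {V : Type*} [AddCommGroup V] [Module ℂ V]
  {ρ : Representation ℂ (chevG2.group F) V} {ψ : AddChar F ℂ} [FiniteDimensional ℂ V]

theorem dim11 (hψ : ψ ≠ 1) : Module.finrank ℂ V + Fintype.card F * d1 (S3 F) ρ ψ =
    Fintype.card F * (Fintype.card F * d1 (S3 F) ρ ψ) + tn (pr ρ ψ (X 11) 0) := by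
  classical
  have h1 : ∀ c : F, c ≠ 0 → tn (pr ρ ψ (X 11) c) = Fintype.card F * d1 (S3 F) ρ ψ := by
    intro c hc
    have := tr02 (S := S3 F) (σ := ρ) hψ hc
    change LinearMap.trace ℂ V (pr ρ ψ (X 11) c) = _ at this
    rw [tr_tn (I11 ρ ψ c)] at this
    exact_mod_cast this
  have h2 : Module.finrank ℂ V = ∑ c, tn (pr ρ ψ (X 11) c) := by
    rw [← tn_one, tn_sum Finset.univ (one_mul (1 : Module.End ℂ V)) (fun c _ => I11 ρ ψ c) (sum_pr hψ (X_add (by norm_num))).symm]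
  rw [h2, sum1 _ _ h1]

variable (h3 : (3 : F) = 0) (hψ : ψ ≠ 1)
include h3 hψ

theorem D_eq : tn (T3 ρ ψ 0 0 1) + tn (A2 ρ ψ 1 0 1) = Fintype.card F * tn (A2 ρ ψ 1 0 1) + tn (R3 ρ ψ 0 1 0) := by
  classical
  rw [sum_T30 h3 hψ, sum1 _ _ (fun e he => R3_mu h3 hψ one_ne_zero he)]

theorem d1_eq : d1 (S3 F) ρ ψ + Fintype.card F * tn (A2 ρ ψ 1 0 1) =
    ∑ a, tn (R3 ρ ψ a 0 1) + Fintype.card F * (Fintype.card F * tn (A2 ρ ψ 1 0 1)) := by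
  classical
  rw [sum_d1 h3 hψ]
  have h1 : ∀ a : F, ∑ b, tn (R3 ρ ψ a b 1) + tn (A2 ρ ψ 1 0 1) = Fintype.card F * tn (A2 ρ ψ 1 0 1) + tn (R3 ρ ψ a 0 1) :=
    fun a => sum1 _ _ (fun b hb => R3_mu h3 hψ hb one_ne_zero)
  have h2 : ∑ a : F, (∑ b, tn (R3 ρ ψ a b 1) + tn (A2 ρ ψ 1 0 1)) = ∑ a : F, (Fintype.card F * tn (A2 ρ ψ 1 0 1) + tn (R3 ρ ψ a 0 1)) :=
    Finset.sum_congr rfl (fun a _ => h1 a)
  rw [Finset.sum_add_distrib, Finset.sum_add_distrib, Finset.sum_const, Finset.sum_const, Finset.card_univ, smul_eq_mul, smul_eq_mul] at h2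
  rw [h2, add_comm]

theorem D_alt : tn (T3 ρ ψ 0 0 1) = ∑ e, tn (R3 ρ ψ 1 0 e) := by
  rw [← T3_const0 h3 hψ (a := 1) (b := 0) (fun h => one_ne_zero h.1), sum_T30 h3 hψ]

/-- the case of generic multiplicity one -/
theorem tight (hq : 9 ≤ Fintype.card F) (hμ : tn (A2 ρ ψ 1 0 1) = 1) (hd : d1 (S3 F) ρ ψ = Fintype.card F * Fintype.card F)
    (hD : tn (T3 ρ ψ 0 0 1) = Fintype.card F) :
    ∃ u : ℕ, Module.finrank ℂ V + 2 = Fintype.card F ^ 4 + Fintype.card F ^ 2 + u := by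
  classical
  set q := Fintype.card F with hqdef
  -- (C)
  have hS : ∑ a, tn (R3 ρ ψ a 0 1) = q := by
    have := d1_eq (ρ := ρ) h3 hψ
    rw [hμ, hd, ← hqdef] at this
    nlinarith
  have hE : ∑ e, tn (R3 ρ ψ 1 0 e) = q := by rw [← D_alt h3 hψ, hD]
  have c1 : ∀ e : F, e ≠ 0 → tn (R3 ρ ψ 1 0 e) = 0 := by
    intro e he
    have h1 := sum_sq (fun e => tn (R3 ρ ψ 1 0 e)) e he
    rw [hE] at h1
    have h2 : ∀ u : Fˣ, tn (R3 ρ ψ 1 0 (e * (u : F) ^ 2)) = tn (R3 ρ ψ 1 0 e) := by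
      intro u
      have hu : ((u : F))⁻¹ ≠ 0 := inv_ne_zero u.ne_zero
      rw [R3_T h3 hu hu 1 0 e]
      congr 2
      · rw [inv_mul_cancel₀ hu, inv_one, mul_one]
      · rw [zero_mul]
      · have := u.ne_zero
        field_simp
    rw [Finset.sum_congr rfl (fun u _ => h2 u), Finset.sum_const, Finset.card_univ, Fintype.card_units, smul_eq_mul, ← hqdef] at h1
    obtain ⟨k, hk⟩ := three_dvd_R3 (ρ := ρ) h3 hψ (by omega : 3 < Fintype.card F) (a := 1) (e := e) (Or.inl one_ne_zero)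
    rw [hk] at h1 ⊢
    rcases Nat.eq_zero_or_pos k with h0 | h0
    · rw [h0]
    · exfalso
      have h4 : (q - 1) * 3 ≤ (q - 1) * (3 * k) := Nat.mul_le_mul_left _ (by omega)
      omega
  have c2 : tn (R3 ρ ψ 1 0 0) = q := by
    rw [← hE, Finset.sum_eq_single (0 : F) (fun e _ he => c1 e he) (fun h => absurd (Finset.mem_univ _) h)]
  have c3 : ∀ a : F, a ≠ 0 → tn (R3 ρ ψ a 0 0) = q := by
    intro a ha
    rw [R3_T h3 one_ne_zero ha a 0 0, inv_one, one_mul, mul_inv_cancel₀ ha, zero_mul, zero_mul, c2]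
  have c4 : ∀ a e : F, a ≠ 0 → e ≠ 0 → tn (R3 ρ ψ a 0 e) = 0 := by
    intro a e ha he
    rw [R3_T h3 one_ne_zero ha a 0 e, inv_one, one_mul, mul_inv_cancel₀ ha, zero_mul, c1]
    exact mul_ne_zero he (inv_ne_zero (mul_ne_zero (pow_ne_zero _ one_ne_zero) (inv_ne_zero ha)))
  have c5 : tn (R3 ρ ψ 0 0 1) = q := by
    rw [← hS, Finset.sum_eq_single (0 : F) (fun a _ ha => c4 a 1 ha one_ne_zero) (fun h => absurd (Finset.mem_univ _) h)]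
  have c6 : ∀ e : F, e ≠ 0 → tn (R3 ρ ψ 0 0 e) = q := by
    intro e he
    rw [R3_T h3 one_ne_zero (inv_ne_zero he) 0 0 e, zero_mul, zero_mul, one_pow, one_mul, inv_inv, mul_inv_cancel₀ he, c5]
  -- (E)
  have c7 : ∀ e : F, e ≠ 0 → tn (R4 ρ ψ 0 0 0 e) = 1 := by
    intro e he
    have h1 := sum_R4 (ρ := ρ) h3 hψ 0 0 e
    rw [Finset.sum_congr rfl (fun c _ => R4_const2 h3 he c), Finset.sum_const, Finset.card_univ, smul_eq_mul, c6 e he, ← hqdef] at h1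
    have h2 : q * 1 = q * tn (R4 ρ ψ 0 0 0 e) := by rw [mul_one]; exact h1
    exact (Nat.eq_of_mul_eq_mul_left (by omega) h2).symm
  have c8 : ∀ c : F, c ≠ 0 → tn (R4 ρ ψ c 0 0 0) = 1 := by
    intro c hc
    obtain ⟨k, hk, e⟩ := R4_N (ρ := ρ) (ψ := ψ) h3 c
    rw [e, c7 _ (mul_ne_zero hc hk)]
  have c9 : tn (R3 ρ ψ 0 0 0) + 1 = q * 1 + tn (R4 ρ ψ 0 0 0 0) := by
    rw [sum_R4 h3 hψ]
    exact sum1 _ _ c8
  have c10 : tn (T3 ρ ψ 0 0 0) + q = q * q + tn (R3 ρ ψ 0 0 0) := by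
    rw [sum_T30 h3 hψ]
    exact sum1 _ _ c6
  -- (G)
  have g1 : ∀ a : F, a ≠ 0 → tn (R7 ρ ψ 0 a) = 1 := by
    intro a ha
    have h1 := sum_R7 (ρ := ρ) h3 hψ a
    rw [Finset.sum_congr rfl (fun c _ => R7_const h3 ha c), Finset.sum_const, Finset.card_univ, smul_eq_mul, c3 a ha, ← hqdef] at h1
    have h2 : q * 1 = q * tn (R7 ρ ψ 0 a) := by rw [mul_one]; exact h1
    exact (Nat.eq_of_mul_eq_mul_left (by omega) h2).symm
  have g2 : ∀ c : F, c ≠ 0 → tn (R7 ρ ψ c 0) = 1 := by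
    intro c hc
    obtain ⟨k, hk, e⟩ := R7_N (ρ := ρ) (ψ := ψ) h3 c
    rw [e, g1 _ (mul_ne_zero hc hk)]
  have g3 : ∀ a : F, a ≠ 0 → tn (R6 ρ ψ 0 a) = 1 := by
    intro a ha
    have h1 := sum_R6c (ρ := ρ) h3 hψ a
    have h2 : ∑ c, tn (R6 ρ ψ c a) + tn (R6 ρ ψ 1 a) = q * tn (R6 ρ ψ 1 a) + tn (R6 ρ ψ 0 a) :=
      sum1 _ _ (fun c hc => by rw [R6_T h3 hc c a, mul_inv_cancel₀ hc])
    rw [← h1, g2 a ha] at h2
    rcases Nat.eq_zero_or_pos (tn (R6 ρ ψ 1 a)) with h0 | h0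
    · rw [h0] at h2; omega
    · exfalso
      have : 9 * tn (R6 ρ ψ 1 a) ≤ q * tn (R6 ρ ψ 1 a) := Nat.mul_le_mul_right _ hq
      omega
  have g4 : tn (R4 ρ ψ 0 0 0 0) + 1 = q * 1 + tn (R6 ρ ψ 0 0) := by
    rw [sum_R6a h3 hψ]
    exact sum1 _ _ g3
  refine ⟨tn (R6 ρ ψ 0 0), ?_⟩
  have k1 := dim11 (ρ := ρ) hψ
  have k2 := rel_Z (ρ := ρ) h3 hψ
  rw [hd, ← hqdef] at k1
  rw [hD, ← hqdef] at k2
  nlinarith

theorem lower (hq : 9 ≤ Fintype.card F) (hq3 : 3 ∣ Fintype.card F) (hnt : ∃ u, ρ (X 9 u) ≠ 1) :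
    ∃ u : ℕ, Module.finrank ℂ V + 2 = Fintype.card F ^ 4 + Fintype.card F ^ 2 + u := by
  rcases MinG2L.arith hq (mu_ne (ρ := ρ) h3 hψ (by omega) hnt) (dim11 (ρ := ρ) hψ) (rel_Z (ρ := ρ) h3 hψ)
    (rel_d1 (ρ := ρ) h3 hψ) (D_eq (ρ := ρ) h3 hψ) (d1_eq (ρ := ρ) h3 hψ) hq3
    (Finset.dvd_sum (fun a _ => three_dvd_R3 h3 hψ (by omega) (Or.inr one_ne_zero)))
    (by
      rw [D_alt h3 hψ]
      exact Finset.dvd_sum (fun e _ => three_dvd_R3 h3 hψ (by omega) (Or.inl one_ne_zero))) with h | ⟨h1, h2, h4⟩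
  · exact ⟨Module.finrank ℂ V + 2 - (Fintype.card F ^ 4 + Fintype.card F ^ 2), by omega⟩
  · exact tight h3 hψ hq h1 h2 h4

/-- **q a power of 3** -/
theorem main3 [ρ.IsIrreducible] (hq : 3 < Fintype.card F) (hnt : ∃ u, ρ (X 9 u) ≠ 1) :
    Fintype.card F ^ 4 + Fintype.card F ^ 2 + 1 ≤ Module.finrank ℂ V := by
  classical
  have : Fact (Nat.Prime 3) := ⟨Nat.prime_three⟩
  have : CharP F 3 := by
    have : CharP F (ringChar F) := inferInstance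
    have h1 : ringChar F ∣ 3 := (ringChar.spec F 3).mp (by exact_mod_cast h3)
    have h2 : ringChar F ≠ 1 := CharP.ringChar_ne_one
    have h4 : ringChar F = 3 := ((Nat.dvd_prime Nat.prime_three).mp h1).resolve_left h2
    rwa [h4] at this
  obtain ⟨n, _, hn⟩ := FiniteField.card F 3
  have hn2 : 2 ≤ (n : ℕ) := by
    by_contra hcon
    have : (n : ℕ) = 1 := by have := n.pos; omega
    rw [this] at hn
    omega
  have h9 : 9 ≤ Fintype.card F := by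
    rw [hn]
    calc 9 = 3 ^ 2 := by norm_num
      _ ≤ 3 ^ (n : ℕ) := Nat.pow_le_pow_right (by norm_num) hn2
  have hd3 : 3 ∣ Fintype.card F := by rw [hn]; exact dvd_pow_self 3 (by omega)
  obtain ⟨u, hu⟩ := lower (ρ := ρ) h3 hψ h9 hd3 hnt
  have hdvd := CharCentral.finrank_dvd_card ρ
  rw [Cfsg.Agent.S1059.result (F := F) rfl] at hdvd
  by_contra hcon
  have hu3 : u < 3 := by omega
  interval_cases u
  · exact MinG2H.ex1 hn h9 (by omega) hdvd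
  · exact MinG2H.ex2 h9 (by omega) hdvd
  · exact MinG2H.ex3 h9 (by omega) hdvd

end

end Cfsg.Agent.Lib.MinG2K
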