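import Mathlib
import Cfsg.Agent.Lib.ClSLn

/-!
Transvections `tv c f = 1 + c ⊗ f` in `SL_n(F)` and a Fourier count of vectors orthogonal to an additive subgroup.
Used for the minimal index of proper subgroups of `SL_n(q)`.
-/
set_option autoImplicit false

namespace Cfsg.Agent.Lib.MinIdxTv

open Matrix

section tv

variable {F : Type*} [Field F] {n : ℕ}

theorem det_tv (c f : Fin n → F) (h : f ⬝ᵥ c = 0) : (1 + vecMulVec c f : Matrix (Fin n) (Fin n) F).det = 1 := by
  rw [Matrix.vecMulVec_eq Unit, Matrix.det_one_add_replicateCol_mul_replicateRow, h, add_zero]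

/-- the element of `SL` given by a matrix of determinant one. -/
def mkSL (A : Matrix (Fin n) (Fin n) F) (h : A.det = 1) : Matrix.SpecialLinearGroup (Fin n) F := ⟨A, h⟩

theorem mkSL_coe (A : Matrix (Fin n) (Fin n) F) (h : A.det = 1) : ((mkSL A h : Matrix.SpecialLinearGroup (Fin n) F) : Matrix (Fin n) (Fin n) F) = A := rfl

open Classical in
/-- The transvection `x ↦ x + f(x) c`, for `f(c) = 0` (and `1` otherwise). -/
noncomputable def tv (c f : Fin n → F) : Matrix.SpecialLinearGroup (Fin n) F :=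
  if h : f ⬝ᵥ c = 0 then mkSL (1 + vecMulVec c f) (det_tv c f h) else 1

theorem tv_coe (c f : Fin n → F) (h : f ⬝ᵥ c = 0) :
    ((tv c f : SpecialLinearGroup (Fin n) F) : Matrix (Fin n) (Fin n) F) = 1 + vecMulVec c f := by
  unfold tv
  rw [dif_pos h, mkSL_coe]

theorem vv_mul (a b c d : Fin n → F) : vecMulVec a b * vecMulVec c d = (b ⬝ᵥ c) • vecMulVec a d := by
  ext i j
  simp only [Matrix.mul_apply, vecMulVec_apply, Matrix.smul_apply, dotProduct, smul_eq_mul, Finset.sum_mul]
  exact Finset.sum_congr rfl (fun k _ => by ring)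

theorem vv_add_right (a b c : Fin n → F) : vecMulVec a (b + c) = vecMulVec a b + vecMulVec a c := by
  ext i j; simp [vecMulVec_apply, mul_add]

theorem vv_add_left (a b c : Fin n → F) : vecMulVec (a + b) c = vecMulVec a c + vecMulVec b c := by
  ext i j; simp [vecMulVec_apply, add_mul]

theorem vv_smul_right (a b : Fin n → F) (r : F) : vecMulVec a (r • b) = r • vecMulVec a b := by
  ext i j; simp [vecMulVec_apply]; ring

theorem vv_smul_left (a b : Fin n → F) (r : F) : vecMulVec (r • a) b = r • vecMulVec a b := by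
  ext i j; simp [vecMulVec_apply]; ring

theorem vv_zero_right (a : Fin n → F) : vecMulVec a (0 : Fin n → F) = 0 := by
  ext i j; simp [vecMulVec_apply]

theorem vv_zero_left (a : Fin n → F) : vecMulVec (0 : Fin n → F) a = 0 := by
  ext i j; simp [vecMulVec_apply]

theorem vv_neg_right (a b : Fin n → F) : vecMulVec a (-b) = -vecMulVec a b := by
  ext i j; simp [vecMulVec_apply]

theorem vv_inj {c f f' : Fin n → F} (hc : c ≠ 0) (h : vecMulVec c f = vecMulVec c f') : f = f' := by
  obtain ⟨i, hi⟩ := Function.ne_iff.mp hc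
  ext j
  have := congrFun (congrFun h i) j
  rw [vecMulVec_apply, vecMulVec_apply] at this
  exact mul_left_cancel₀ hi this

theorem mul_vv (M : Matrix (Fin n) (Fin n) F) (c f : Fin n → F) : M * vecMulVec c f = vecMulVec (M *ᵥ c) f := by
  ext i j
  simp only [Matrix.mul_apply, vecMulVec_apply, Matrix.mulVec, dotProduct, Finset.sum_mul]
  exact Finset.sum_congr rfl (fun k _ => by ring)

theorem vv_mul_mat (M : Matrix (Fin n) (Fin n) F) (c f : Fin n → F) : vecMulVec c f * M = vecMulVec c (f ᵥ* M) := by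
  ext i j
  simp only [Matrix.mul_apply, vecMulVec_apply, Matrix.vecMul, dotProduct, Finset.mul_sum]
  exact Finset.sum_congr rfl (fun k _ => by ring)

theorem vv_mulVec (c f x : Fin n → F) : vecMulVec c f *ᵥ x = (f ⬝ᵥ x) • c := by
  ext i
  simp only [Matrix.mulVec, dotProduct, vecMulVec_apply, Pi.smul_apply, smul_eq_mul, Finset.sum_mul]
  exact Finset.sum_congr rfl (fun k _ => by ring)

theorem tv_mulVec (c f x : Fin n → F) (h : f ⬝ᵥ c = 0) :
    ((tv c f : SpecialLinearGroup (Fin n) F) : Matrix (Fin n) (Fin n) F) *ᵥ x = x + (f ⬝ᵥ x) • c := by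
  rw [tv_coe c f h, Matrix.add_mulVec, Matrix.one_mulVec, vv_mulVec]

theorem sl_ext {g h : SpecialLinearGroup (Fin n) F} (H : (g : Matrix (Fin n) (Fin n) F) = (h : Matrix (Fin n) (Fin n) F)) :
    g = h := Subtype.ext H

theorem tv_mul_right (c f f' : Fin n → F) (h : f ⬝ᵥ c = 0) (h' : f' ⬝ᵥ c = 0) :
    (tv c f : SpecialLinearGroup (Fin n) F) * tv c f' = tv c (f + f') := by
  apply sl_ext
  rw [Matrix.SpecialLinearGroup.coe_mul, tv_coe c f h, tv_coe c f' h', tv_coe c (f + f') (by rw [add_dotProduct, h, h', add_zero]),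
    vv_add_right, add_mul, one_mul, mul_add, mul_one, vv_mul, h, zero_smul, add_zero]
  abel

theorem tv_mul_left (c c' f : Fin n → F) (h : f ⬝ᵥ c = 0) (h' : f ⬝ᵥ c' = 0) :
    (tv c f : SpecialLinearGroup (Fin n) F) * tv c' f = tv (c + c') f := by
  apply sl_ext
  rw [Matrix.SpecialLinearGroup.coe_mul, tv_coe c f h, tv_coe c' f h', tv_coe (c + c') f (by rw [dotProduct_add, h, h', add_zero]),
    vv_add_left, add_mul, one_mul, mul_add, mul_one, vv_mul, h', zero_smul, add_zero]
  abel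

theorem tv_zero_right (c : Fin n → F) : (tv c 0 : SpecialLinearGroup (Fin n) F) = 1 := by
  apply sl_ext
  rw [tv_coe c 0 (zero_dotProduct c), vv_zero_right, add_zero, Matrix.SpecialLinearGroup.coe_one]

theorem tv_zero_left (f : Fin n → F) : (tv 0 f : SpecialLinearGroup (Fin n) F) = 1 := by
  apply sl_ext
  rw [tv_coe 0 f (dotProduct_zero f), vv_zero_left, add_zero, Matrix.SpecialLinearGroup.coe_one]

theorem tv_inv (c f : Fin n → F) (h : f ⬝ᵥ c = 0) : (tv c f : SpecialLinearGroup (Fin n) F)⁻¹ = tv c (-f) := by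
  rw [inv_eq_iff_mul_eq_one, tv_mul_right c f (-f) h (by rw [neg_dotProduct, h, neg_zero]), add_neg_cancel, tv_zero_right]

theorem tv_smul (c f : Fin n → F) (r : F) (h : f ⬝ᵥ c = 0) :
    (tv (r • c) f : SpecialLinearGroup (Fin n) F) = tv c (r • f) := by
  apply sl_ext
  rw [tv_coe _ _ (by rw [dotProduct_smul, h, smul_zero]), tv_coe _ _ (by rw [smul_dotProduct, h, smul_zero]),
    vv_smul_left, vv_smul_right]

theorem tv_inj {c f f' : Fin n → F} (hc : c ≠ 0) (h : f ⬝ᵥ c = 0) (h' : f' ⬝ᵥ c = 0)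
    (heq : (tv c f : SpecialLinearGroup (Fin n) F) = tv c f') : f = f' := by
  have := congrArg (fun g : SpecialLinearGroup (Fin n) F => (g : Matrix (Fin n) (Fin n) F)) heq
  simp only [tv_coe c f h, tv_coe c f' h'] at this
  exact vv_inj hc (add_left_cancel this)

theorem mul_inv_coe (g : SpecialLinearGroup (Fin n) F) :
    (g : Matrix (Fin n) (Fin n) F) * ((g⁻¹ : SpecialLinearGroup (Fin n) F) : Matrix (Fin n) (Fin n) F) = 1 := by
  rw [← Matrix.SpecialLinearGroup.coe_mul, mul_inv_cancel, Matrix.SpecialLinearGroup.coe_one]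

theorem inv_mul_coe (g : SpecialLinearGroup (Fin n) F) :
    ((g⁻¹ : SpecialLinearGroup (Fin n) F) : Matrix (Fin n) (Fin n) F) * (g : Matrix (Fin n) (Fin n) F) = 1 := by
  rw [← Matrix.SpecialLinearGroup.coe_mul, inv_mul_cancel, Matrix.SpecialLinearGroup.coe_one]

theorem conj_dot (g : SpecialLinearGroup (Fin n) F) (c f : Fin n → F) :
    (f ᵥ* ((g⁻¹ : SpecialLinearGroup (Fin n) F) : Matrix (Fin n) (Fin n) F)) ⬝ᵥ ((g : Matrix (Fin n) (Fin n) F) *ᵥ c) = f ⬝ᵥ c := by
  rw [← Matrix.dotProduct_mulVec, Matrix.mulVec_mulVec, inv_mul_coe, Matrix.one_mulVec]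

theorem tv_conj (g : SpecialLinearGroup (Fin n) F) (c f : Fin n → F) (h : f ⬝ᵥ c = 0) :
    g * tv c f * g⁻¹ = tv ((g : Matrix (Fin n) (Fin n) F) *ᵥ c) (f ᵥ* ((g⁻¹ : SpecialLinearGroup (Fin n) F) : Matrix (Fin n) (Fin n) F)) := by
  apply sl_ext
  rw [Matrix.SpecialLinearGroup.coe_mul, Matrix.SpecialLinearGroup.coe_mul, tv_coe c f h, tv_coe _ _ (by rw [conj_dot, h]), mul_add, mul_one,
    add_mul, mul_inv_coe, mul_vv, vv_mul_mat]

theorem eq_top_of_tv_mem (H : Subgroup (SpecialLinearGroup (Fin n) F))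
    (h : ∀ c f : Fin n → F, f ⬝ᵥ c = 0 → tv c f ∈ H) : H = ⊤ := by
  apply ClSLn.eq_top_of_transvection_mem
  intro i j hij a
  have h0 : (Pi.single j (1 : F) : Fin n → F) ⬝ᵥ (Pi.single i a) = 0 := by
    rw [single_one_dotProduct, Pi.single_eq_of_ne hij.symm]
  have : SpecialLinearGroup.transvection hij a = tv (Pi.single i a) (Pi.single j 1) := by
    apply sl_ext
    rw [tv_coe _ _ h0, Matrix.SpecialLinearGroup.transvection_coe]
    congr 1
    ext k l
    rw [vecMulVec_apply, Matrix.single_apply]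
    by_cases hk : k = i
    · subst hk
      by_cases hl : l = j
      · subst hl; simp
      · have : ¬ (j = l) := fun h => hl h.symm
        simp [hl, this]
    · have : ¬ (i = k) := fun h => hk h.symm
      simp [hk, this]
  rw [this]
  exact h _ _ h0

/-- a functional vanishing on `W` with value one at `u` -/
theorem exists_dot {W : Submodule F (Fin n → F)} {u : Fin n → F} (hu : u ∉ W) :
    ∃ w : Fin n → F, (∀ x ∈ W, w ⬝ᵥ x = 0) ∧ w ⬝ᵥ u = 1 := by
  obtain ⟨f, hfu, hf⟩ := Submodule.exists_le_ker_of_notMem hu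
  refine ⟨fun i => (f u)⁻¹ * f (Pi.single i 1), ?_⟩
  have key : ∀ x, (fun i => (f u)⁻¹ * f (Pi.single i 1)) ⬝ᵥ x = (f u)⁻¹ * f x := by
    intro x
    conv_rhs => rw [← Finset.univ_sum_single x]
    rw [map_sum, Finset.mul_sum, dotProduct]
    apply Finset.sum_congr rfl
    intro i _
    have : (Pi.single i (x i) : Fin n → F) = x i • Pi.single i 1 := by
      rw [← Pi.single_smul, smul_eq_mul, mul_one]
    rw [this, map_smul, smul_eq_mul]; ring
  constructor
  · intro x hx
    rw [key, show f x = 0 from hf hx, mul_zero]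
  · rw [key, inv_mul_cancel₀ hfu]

/-- a functional vanishing on `ker f` is proportional to `f`. -/
theorem mem_span_of_ker {f b : Fin n → F} (hf : f ≠ 0) (h : ∀ x : Fin n → F, f ⬝ᵥ x = 0 → b ⬝ᵥ x = 0) : ∃ a : F, b = a • f := by
  obtain ⟨i, hi⟩ := Function.ne_iff.mp hf
  refine ⟨b i / f i, ?_⟩
  ext j
  have h1 := h (Pi.single j 1 - (f j / f i) • Pi.single i 1) (by
    rw [dotProduct_sub, dotProduct_smul, dotProduct_single_one, dotProduct_single_one, smul_eq_mul]
    have : f i ≠ 0 := hi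
    field_simp
    ring)
  rw [dotProduct_sub, dotProduct_smul, dotProduct_single_one, dotProduct_single_one, smul_eq_mul, sub_eq_zero] at h1
  have : f i ≠ 0 := hi
  rw [h1, Pi.smul_apply, smul_eq_mul]
  field_simp

end tv

end Cfsg.Agent.Lib.MinIdxTv
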