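import Mathlib
import Cfsg.Agent.Lib.MinIdxTv

/-!
Fourier counting for the fixed vectors of transvection subgroups on a finite `SL_n(q)`-set.
-/
set_option autoImplicit false

namespace Cfsg.Agent.Lib.MinIdxFour

open Matrix MinIdxTv

section fourier

variable {F : Type*} [Field F] [Fintype F] {n : ℕ}

open Classical in
/-- The vectors `v` such that `ψ (f ⬝ᵥ v) = 1` for all `f ∈ B`. -/
noncomputable def perp (ψ : AddChar F ℂ) (B : AddSubgroup (Fin n → F)) : Finset (Fin n → F) :=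
  Finset.univ.filter (fun v => ∀ f ∈ B, ψ (f ⬝ᵥ v) = 1)

omit [Fintype F] in
theorem perp_add_one (ψ : AddChar F ℂ) (a b : F) (ha : ψ a = 1) (hb : ψ b = 1) : ψ (a + b) = 1 := by
  rw [AddChar.map_add_eq_mul, ha, hb, one_mul]

theorem mem_perp (ψ : AddChar F ℂ) (B : AddSubgroup (Fin n → F)) (v : Fin n → F) :
    v ∈ perp ψ B ↔ ∀ f ∈ B, ψ (f ⬝ᵥ v) = 1 := by
  classical
  unfold perp
  rw [Finset.mem_filter]
  simp

/-- `v ↦ f ⬝ᵥ v` as additive hom. -/
def dotL (f : Fin n → F) : (Fin n → F) →+ F where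
  toFun v := f ⬝ᵥ v
  map_zero' := dotProduct_zero f
  map_add' := dotProduct_add f

/-- `f ↦ f ⬝ᵥ v` as additive hom. -/
def dotR (v : Fin n → F) : (Fin n → F) →+ F where
  toFun f := f ⬝ᵥ v
  map_zero' := zero_dotProduct v
  map_add' := fun f g => add_dotProduct f g v

omit [Fintype F] in
theorem exists_dot_eq {f : Fin n → F} (hf : f ≠ 0) (a : F) : ∃ v : Fin n → F, f ⬝ᵥ v = a := by
  obtain ⟨i, hi⟩ := Function.ne_iff.mp hf
  refine ⟨Pi.single i (a / f i), ?_⟩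
  rw [dotProduct_single]
  exact mul_div_cancel₀ a hi

theorem sum_dot (ψ : AddChar F ℂ) (hψ : ψ ≠ 0) {f : Fin n → F} (hf : f ≠ 0) : ∑ v : Fin n → F, ψ (f ⬝ᵥ v) = 0 := by
  have h : (ψ.compAddMonoidHom (dotL f)) ≠ 0 := by
    rw [AddChar.ne_zero_iff] at hψ ⊢
    obtain ⟨a, ha⟩ := hψ
    obtain ⟨v, hv⟩ := exists_dot_eq hf a
    refine ⟨v, ?_⟩
    rw [AddChar.compAddMonoidHom_apply]
    change ψ (f ⬝ᵥ v) ≠ 1
    rwa [hv]
  exact AddChar.sum_eq_zero_iff_ne_zero.mpr h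

open Classical in
theorem sum_sub (ψ : AddChar F ℂ) (B : AddSubgroup (Fin n → F)) (v : Fin n → F) :
    ∑ f : B, ψ ((f : Fin n → F) ⬝ᵥ v) = if v ∈ perp ψ B then (Nat.card B : ℂ) else 0 := by
  split_ifs with h
  · rw [mem_perp] at h
    rw [Finset.sum_congr rfl (fun (f : B) _ => h f.1 f.2), Finset.sum_const, Finset.card_univ, nsmul_eq_mul, mul_one, Nat.card_eq_fintype_card]
  · rw [mem_perp] at h
    push Not at h
    obtain ⟨f, hf, hne⟩ := h
    have h2 : (ψ.compAddMonoidHom ((dotR v).comp B.subtype)) ≠ 0 := by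
      rw [AddChar.ne_zero_iff]
      exact ⟨⟨f, hf⟩, hne⟩
    exact AddChar.sum_eq_zero_iff_ne_zero.mpr h2

theorem card_perp (ψ : AddChar F ℂ) (hψ : ψ ≠ 0) (B : AddSubgroup (Fin n → F)) :
    (perp ψ B).card * Nat.card B = Fintype.card F ^ n := by
  classical
  have h1 : ∑ v : Fin n → F, ∑ f : B, ψ ((f : Fin n → F) ⬝ᵥ v) = ((perp ψ B).card * Nat.card B : ℂ) := by
    rw [Finset.sum_congr rfl (fun v _ => sum_sub ψ B v), Finset.sum_ite, Finset.sum_const_zero, add_zero, Finset.sum_const,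
      nsmul_eq_mul]
    congr 3
    ext v
    simp
  have h2 : ∑ v : Fin n → F, ∑ f : B, ψ ((f : Fin n → F) ⬝ᵥ v) = (Fintype.card F ^ n : ℂ) := by
    rw [Finset.sum_comm, Finset.sum_eq_single (0 : B)]
    · simp
    · intro f _ hf
      exact sum_dot ψ hψ (fun h => hf (Subtype.ext h))
    · intro h; exact absurd (Finset.mem_univ _) h
  rw [h1] at h2
  exact_mod_cast h2

/-- The annihilator of `c`. -/
def Wc (c : Fin n → F) : Submodule F (Fin n → F) where
  carrier := {f | f ⬝ᵥ c = 0}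
  add_mem' := by
    intro a b ha hb
    simp only [Set.mem_ofPred_eq] at *
    rw [add_dotProduct, ha, hb, add_zero]
  zero_mem' := zero_dotProduct c
  smul_mem' := by
    intro r a ha
    simp only [Set.mem_ofPred_eq] at *
    rw [smul_dotProduct, ha, smul_zero]

omit [Fintype F] in
theorem mem_Wc (c f : Fin n → F) : f ∈ Wc c ↔ f ⬝ᵥ c = 0 := Iff.rfl

omit [Fintype F] in
theorem mem_span_of_ann {U : Submodule F (Fin n → F)} {v : Fin n → F}
    (h : ∀ f : Fin n → F, (∀ x ∈ U, f ⬝ᵥ x = 0) → f ⬝ᵥ v = 0) : v ∈ U := by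
  by_contra hv
  obtain ⟨f, hf, h1⟩ := exists_dot hv
  rw [h f hf] at h1
  exact zero_ne_one h1

/-- perp of a subspace is the usual annihilator -/
theorem mem_perp_sub (ψ : AddChar F ℂ) (hψ : ψ ≠ 0) (U : Submodule F (Fin n → F)) (v : Fin n → F) :
    v ∈ perp ψ U.toAddSubgroup ↔ ∀ f ∈ U, f ⬝ᵥ v = 0 := by
  rw [mem_perp]
  constructor
  · intro h f hf
    by_contra hne
    obtain ⟨a, ha⟩ := AddChar.ne_zero_iff.mp hψ
    have := h ((a / (f ⬝ᵥ v)) • f) (U.smul_mem _ hf)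
    rw [smul_dotProduct, smul_eq_mul, div_mul_cancel₀ _ hne] at this
    exact ha this
  · intro h f hf
    rw [h f hf, AddChar.map_zero_eq_one]

theorem card_annih (ψ : AddChar F ℂ) (hψ : ψ ≠ 0) (U : Submodule F (Fin n → F)) :
    Nat.card {v : Fin n → F // ∀ f ∈ U, f ⬝ᵥ v = 0} * Nat.card U = Fintype.card F ^ n := by
  classical
  rw [← card_perp ψ hψ U.toAddSubgroup]
  congr 1
  rw [Nat.card_eq_fintype_card, Fintype.card_subtype]
  congr 1
  ext v
  rw [mem_perp_sub ψ hψ]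
  simp

end fourier

end Cfsg.Agent.Lib.MinIdxFour
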