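import Mathlib
import Cfsg.Agent.Lib.MinIdxFour

/-!
Finite `SL_n(q)`-sets: counting fixed vectors of the transvection groups with centre `c`.
-/
set_option autoImplicit false

namespace Cfsg.Agent.Lib.MinIdxAct

open Matrix MinIdxTv MinIdxFour

section action

variable {F : Type*} [Field F] {n : ℕ}
  {X : Type*} [MulAction (Matrix.SpecialLinearGroup (Fin n) F) X]

/-- The functionals `f` with `f(c)=0` such that the transvection `1 + c ⊗ f` fixes `x`. -/
noncomputable def Bs (c : Fin n → F) (x : X) : AddSubgroup (Fin n → F) where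
  carrier := {f | f ⬝ᵥ c = 0 ∧ tv c f • x = x}
  zero_mem' := ⟨zero_dotProduct c, by rw [tv_zero_right, one_smul]⟩
  add_mem' := by
    rintro a b ⟨ha, ha'⟩ ⟨hb, hb'⟩
    refine ⟨by rw [add_dotProduct, ha, hb, add_zero], ?_⟩
    rw [← tv_mul_right c a b ha hb, mul_smul, hb', ha']
  neg_mem' := by
    rintro a ⟨ha, ha'⟩
    refine ⟨by rw [neg_dotProduct, ha, neg_zero], ?_⟩
    rw [← tv_inv c a ha, inv_smul_eq_iff, ha']

theorem mem_Bs {c f : Fin n → F} {x : X} : f ∈ Bs c x ↔ f ⬝ᵥ c = 0 ∧ tv c f • x = x := Iff.rfl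

theorem Bs_le (c : Fin n → F) (x : X) : Bs c x ≤ (Wc c).toAddSubgroup := fun _ hf => hf.1

theorem vm_inv (g : Matrix.SpecialLinearGroup (Fin n) F) (f : Fin n → F) :
    (f ᵥ* (g : Matrix (Fin n) (Fin n) F)) ᵥ* ((g⁻¹ : Matrix.SpecialLinearGroup (Fin n) F) : Matrix (Fin n) (Fin n) F) = f := by
  rw [vecMul_vecMul, mul_inv_coe, vecMul_one]

theorem inv_vm (g : Matrix.SpecialLinearGroup (Fin n) F) (f : Fin n → F) :
    (f ᵥ* ((g⁻¹ : Matrix.SpecialLinearGroup (Fin n) F) : Matrix (Fin n) (Fin n) F)) ᵥ* (g : Matrix (Fin n) (Fin n) F) = f := by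
  rw [vecMul_vecMul, inv_mul_coe, vecMul_one]

theorem mv_inv (g : Matrix.SpecialLinearGroup (Fin n) F) (f : Fin n → F) :
    ((g⁻¹ : Matrix.SpecialLinearGroup (Fin n) F) : Matrix (Fin n) (Fin n) F) *ᵥ ((g : Matrix (Fin n) (Fin n) F) *ᵥ f) = f := by
  rw [mulVec_mulVec, inv_mul_coe, one_mulVec]

theorem inv_mv (g : Matrix.SpecialLinearGroup (Fin n) F) (f : Fin n → F) :
    (g : Matrix (Fin n) (Fin n) F) *ᵥ (((g⁻¹ : Matrix.SpecialLinearGroup (Fin n) F) : Matrix (Fin n) (Fin n) F) *ᵥ f) = f := by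
  rw [mulVec_mulVec, mul_inv_coe, one_mulVec]

theorem mem_Bs_smul (g : Matrix.SpecialLinearGroup (Fin n) F) (c f : Fin n → F) (x : X) :
    f ∈ Bs ((g : Matrix (Fin n) (Fin n) F) *ᵥ c) (g • x) ↔ f ᵥ* (g : Matrix (Fin n) (Fin n) F) ∈ Bs c x := by
  rw [mem_Bs, mem_Bs]
  have e : (f ᵥ* (g : Matrix (Fin n) (Fin n) F)) ⬝ᵥ c = f ⬝ᵥ ((g : Matrix (Fin n) (Fin n) F) *ᵥ c) := (dotProduct_mulVec f _ c).symm
  rw [e]
  apply and_congr_right
  intro h
  have := tv_conj g c (f ᵥ* (g : Matrix (Fin n) (Fin n) F)) (by rw [e, h])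
  rw [vm_inv] at this
  rw [← this, mul_smul, mul_smul, inv_smul_smul, smul_left_cancel_iff]

/-- right multiplication by `g`. -/
def vmEquiv (g : Matrix.SpecialLinearGroup (Fin n) F) : (Fin n → F) ≃ (Fin n → F) where
  toFun f := f ᵥ* (g : Matrix (Fin n) (Fin n) F)
  invFun f := f ᵥ* ((g⁻¹ : Matrix.SpecialLinearGroup (Fin n) F) : Matrix (Fin n) (Fin n) F)
  left_inv f := vm_inv g f
  right_inv f := inv_vm g f

theorem card_Bs_smul (g : Matrix.SpecialLinearGroup (Fin n) F) (c : Fin n → F) (x : X) :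
    Nat.card (Bs ((g : Matrix (Fin n) (Fin n) F) *ᵥ c) (g • x)) = Nat.card (Bs c x) :=
  Nat.card_congr ((vmEquiv g).subtypeEquiv (fun f => mem_Bs_smul g c f x))

theorem mem_perp_smul [Fintype F] (ψ : AddChar F ℂ) (g : Matrix.SpecialLinearGroup (Fin n) F) (c : Fin n → F) (x : X) (v : Fin n → F) :
    (g : Matrix (Fin n) (Fin n) F) *ᵥ v ∈ perp ψ (Bs ((g : Matrix (Fin n) (Fin n) F) *ᵥ c) (g • x)) ↔ v ∈ perp ψ (Bs c x) := by
  rw [mem_perp, mem_perp]
  constructor
  · intro h f hf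
    have h1 := h (f ᵥ* ((g⁻¹ : Matrix.SpecialLinearGroup (Fin n) F) : Matrix (Fin n) (Fin n) F)) (by rw [mem_Bs_smul, inv_vm]; exact hf)
    rwa [dotProduct_mulVec, inv_vm] at h1
  · intro h f hf
    rw [mem_Bs_smul] at hf
    rw [dotProduct_mulVec]
    exact h _ hf

variable (X) in
open Classical in
/-- weighted number of `x` for which `v` is orthogonal to `Bs c x`. -/
noncomputable def Mf [Fintype F] [Fintype X] (ψ : AddChar F ℂ) (c v : Fin n → F) : ℕ :=
  ∑ x : X, if v ∈ perp ψ (Bs c x) then Nat.card (Bs c x) else 0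

variable (X) in
theorem sum_Mf [Fintype F] [Fintype X] (ψ : AddChar F ℂ) (hψ : ψ ≠ 0) (c : Fin n → F) :
    ∑ v, Mf X ψ c v = Fintype.card X * Fintype.card F ^ n := by
  classical
  unfold Mf
  rw [Finset.sum_comm]
  have : ∀ x : X, (∑ v : Fin n → F, if v ∈ perp ψ (Bs c x) then Nat.card (Bs c x) else 0) = Fintype.card F ^ n := by
    intro x
    rw [← card_perp ψ hψ (Bs c x), Finset.sum_ite, Finset.sum_const_zero, add_zero, Finset.sum_const, smul_eq_mul]
    congr 2
    ext v
    simp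
  rw [Finset.sum_congr rfl (fun x _ => this x), Finset.sum_const, Finset.card_univ, smul_eq_mul]

variable (X) in
theorem Mf_smul [Fintype F] [Fintype X] (ψ : AddChar F ℂ) (g : Matrix.SpecialLinearGroup (Fin n) F) (c v : Fin n → F) :
    Mf X ψ ((g : Matrix (Fin n) (Fin n) F) *ᵥ c) ((g : Matrix (Fin n) (Fin n) F) *ᵥ v) = Mf X ψ c v := by
  classical
  unfold Mf
  rw [← Equiv.sum_comp (MulAction.toPerm g : Equiv.Perm X)]
  apply Finset.sum_congr rfl
  intro x _
  rw [MulAction.toPerm_apply, card_Bs_smul]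
  simp only [mem_perp_smul]

variable (X) in
theorem Mf_line [Fintype F] [Fintype X] (ψ : AddChar F ℂ) (c v : Fin n → F) (hv : v ∈ Submodule.span F {c}) :
    Mf X ψ c v = ∑ x : X, Nat.card (Bs c x) := by
  unfold Mf
  apply Finset.sum_congr rfl
  intro x _
  rw [if_pos]
  rw [mem_perp]
  intro f hf
  obtain ⟨a, rfl⟩ := Submodule.mem_span_singleton.mp hv
  rw [dotProduct_smul, hf.1, smul_zero, AddChar.map_zero_eq_one]

theorem exists_fix_move {c v v' : Fin n → F} (hv : v ∉ Submodule.span F {c}) (hv' : v' ∉ Submodule.span F {c, v}) :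
    ∃ g : Matrix.SpecialLinearGroup (Fin n) F, (g : Matrix (Fin n) (Fin n) F) *ᵥ c = c ∧ (g : Matrix (Fin n) (Fin n) F) *ᵥ v = v' := by
  have h : v ∉ Submodule.span F {c, v' - v} := by
    intro h
    obtain ⟨a, b, hab⟩ := Submodule.mem_span_pair.mp h
    by_cases hb : b = 0
    · rw [hb, zero_smul, add_zero] at hab
      exact hv (Submodule.mem_span_singleton.mpr ⟨a, hab⟩)
    · apply hv'
      rw [Submodule.mem_span_pair]
      refine ⟨-(a / b), (1 + b) / b, ?_⟩
      have e : b • v' = (1 + b) • v - a • c := by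
        have e1 : b • v' - ((1 + b) • v - a • c) = (a • c + b • (v' - v)) - v := by module
        rw [← sub_eq_zero, e1, hab, sub_self]
      have e2 : v' = b⁻¹ • (b • v') := by rw [smul_smul, inv_mul_cancel₀ hb, one_smul]
      rw [e2, e, smul_sub, smul_smul, smul_smul]
      rw [div_eq_inv_mul, div_eq_inv_mul, neg_smul]
      abel
  obtain ⟨f, hf, hf1⟩ := exists_dot h
  have hfc : f ⬝ᵥ c = 0 := hf c (Submodule.subset_span (by simp))
  have hfv : f ⬝ᵥ (v' - v) = 0 := hf _ (Submodule.subset_span (by simp))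
  refine ⟨tv (v' - v) f, ?_, ?_⟩
  · rw [tv_mulVec _ _ _ hfv, hfc, zero_smul, add_zero]
  · rw [tv_mulVec _ _ _ hfv, hf1, one_smul, add_sub_cancel]

theorem exists_notMem_span_pair (hn : 3 ≤ n) (c v : Fin n → F) : ∃ w, w ∉ Submodule.span F {c, v} := by
  by_contra h
  push Not at h
  have htop : Submodule.span F {c, v} = ⊤ := by
    rw [eq_top_iff]; intro w _; exact h w
  have h1 : Module.finrank F (Submodule.span F ({c, v} : Set (Fin n → F))) ≤ 2 := by
    classical
    have := finrank_span_finset_le_card (R := F) ({c, v} : Finset (Fin n → F))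
    rw [Finset.coe_pair] at this
    exact this.trans Finset.card_le_two
  rw [htop, finrank_top, Module.finrank_fin_fun] at h1
  omega

theorem exists_notMem_span_singleton (hn : 2 ≤ n) (c : Fin n → F) : ∃ w, w ∉ Submodule.span F {c} := by
  by_contra h
  push Not at h
  have htop : Submodule.span F {c} = ⊤ := by
    rw [eq_top_iff]; intro w _; exact h w
  have h1 : Module.finrank F (Submodule.span F ({c} : Set (Fin n → F))) ≤ 1 := by
    have := finrank_span_finset_le_card (R := F) ({c} : Finset (Fin n → F))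
    rwa [Finset.coe_singleton, Finset.card_singleton] at this
  rw [htop, finrank_top, Module.finrank_fin_fun] at h1
  omega

theorem span_pair_le {c v v' : Fin n → F} (h : v' ∈ Submodule.span F {c, v}) : Submodule.span F {c, v'} ≤ Submodule.span F {c, v} := by
  rw [Submodule.span_le]
  intro z hz
  rcases hz with rfl | hz
  · exact Submodule.subset_span (by simp)
  · rw [Set.mem_singleton_iff] at hz
    rw [hz]; exact h

variable (X) in
theorem Mf_const [Fintype F] [Fintype X] (ψ : AddChar F ℂ) (hn : 3 ≤ n) {c v v' : Fin n → F} (hv : v ∉ Submodule.span F {c})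
    (hv' : v' ∉ Submodule.span F {c}) : Mf X ψ c v = Mf X ψ c v' := by
  have key : ∀ {v v' : Fin n → F}, v ∉ Submodule.span F {c} → v' ∉ Submodule.span F {c, v} → Mf X ψ c v = Mf X ψ c v' := by
    intro v v' h h'
    obtain ⟨g, hg, hgv⟩ := exists_fix_move h h'
    have := Mf_smul X ψ g c v
    rw [hg, hgv] at this
    exact this.symm
  by_cases h : v' ∈ Submodule.span F {c, v}
  · obtain ⟨w, hw⟩ := exists_notMem_span_pair hn c v
    rw [key hv hw, key hv' (fun h2 => hw (span_pair_le h h2))]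
  · exact key hv h

theorem exists_move (hn : 2 ≤ n) {c c' : Fin n → F} (hc : c ≠ 0) (hc' : c' ≠ 0) :
    ∃ g : Matrix.SpecialLinearGroup (Fin n) F, (g : Matrix (Fin n) (Fin n) F) *ᵥ c = c' := by
  have key : ∀ {c c' : Fin n → F}, c ≠ 0 → c' ∉ Submodule.span F {c} → ∃ g : Matrix.SpecialLinearGroup (Fin n) F, (g : Matrix (Fin n) (Fin n) F) *ᵥ c = c' := by
    intro c c' hc h
    have h1 : c ∉ Submodule.span F {(0 : Fin n → F)} := by
      rw [Submodule.mem_span_singleton]
      rintro ⟨a, ha⟩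
      rw [smul_zero] at ha
      exact hc ha.symm
    have h2 : c' ∉ Submodule.span F {(0 : Fin n → F), c} := by
      rw [Submodule.span_insert_zero]; exact h
    obtain ⟨g, _, hg⟩ := exists_fix_move h1 h2
    exact ⟨g, hg⟩
  by_cases h : c' ∈ Submodule.span F {c}
  · obtain ⟨w, hw⟩ := exists_notMem_span_singleton hn c
    obtain ⟨g, hg⟩ := key hc hw
    have hw0 : w ≠ 0 := by
      rintro rfl
      exact hw (Submodule.zero_mem _)
    have : c' ∉ Submodule.span F {w} := by
      intro h2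
      obtain ⟨a, ha⟩ := Submodule.mem_span_singleton.mp h2
      have ha0 : a ≠ 0 := by
        rintro rfl
        rw [zero_smul] at ha
        exact hc' ha.symm
      apply hw
      have : w = a⁻¹ • c' := by rw [← ha, smul_smul, inv_mul_cancel₀ ha0, one_smul]
      rw [this]
      exact Submodule.smul_mem _ _ h
    obtain ⟨g', hg'⟩ := key hw0 this
    exact ⟨g' * g, by rw [Matrix.SpecialLinearGroup.coe_mul, ← mulVec_mulVec, hg, hg']⟩
  · exact key hc h

end action

section orbit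

variable {F : Type*} [Field F] [Fintype F] {n : ℕ}
  {X : Type*} [Fintype X] [MulAction (Matrix.SpecialLinearGroup (Fin n) F) X]

theorem card_span_singleton {c : Fin n → F} (hc : c ≠ 0) : Nat.card (Submodule.span F {c}) = Fintype.card F := by
  rw [← Nat.card_eq_fintype_card]
  exact (Nat.card_congr (LinearEquiv.toSpanNonzeroSingleton F _ c hc).toEquiv).symm

theorem card_Wc (hn : 1 ≤ n) {c : Fin n → F} (hc : c ≠ 0) : Nat.card (Wc c) = Fintype.card F ^ (n - 1) := by
  obtain ⟨ψ, hψ⟩ := (AddChar.exists_apply_ne_zero (α := F) (a := 1)).mpr one_ne_zero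
  have hψ' : ψ ≠ 0 := AddChar.ne_zero_iff.mpr ⟨1, hψ⟩
  have h := card_annih ψ hψ' (Wc c)
  have h2 : Nat.card {v : Fin n → F // ∀ f ∈ Wc c, f ⬝ᵥ v = 0} = Fintype.card F := by
    rw [← card_span_singleton hc]
    apply Nat.card_congr
    apply Equiv.subtypeEquivRight
    intro v
    constructor
    · intro h3
      apply mem_span_of_ann
      intro f hf
      exact h3 f (hf c (Submodule.mem_span_singleton_self c))
    · intro h3 f hf
      obtain ⟨a, rfl⟩ := Submodule.mem_span_singleton.mp h3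
      rw [dotProduct_smul, hf, smul_zero]
  rw [h2] at h
  have h4 : Fintype.card F ^ n = Fintype.card F * Fintype.card F ^ (n - 1) := by
    rw [← pow_succ', Nat.sub_add_cancel hn]
  rw [h4] at h
  exact Nat.eq_of_mul_eq_mul_left Fintype.card_pos h

open Classical in
/-- The orbit of `x` under the transvections of centre `c`. -/
noncomputable def orb (c : Fin n → F) (x : X) : Finset X :=
  Finset.univ.image (fun f : Wc c => tv c f.1 • x)

omit [Fintype X] in
theorem mem_orb {c : Fin n → F} {x y : X} : y ∈ orb c x ↔ ∃ f : Fin n → F, f ⬝ᵥ c = 0 ∧ tv c f • x = y := by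
  classical
  unfold orb
  rw [Finset.mem_image]
  constructor
  · rintro ⟨f, _, h⟩
    exact ⟨f.1, f.2, h⟩
  · rintro ⟨f, hf, h⟩
    exact ⟨⟨f, hf⟩, Finset.mem_univ _, h⟩

omit [Fintype X] in
theorem self_mem_orb (c : Fin n → F) (x : X) : x ∈ orb c x :=
  mem_orb.mpr ⟨0, zero_dotProduct c, by rw [tv_zero_right, one_smul]⟩

omit [Fintype X] in
theorem Bs_orb {c : Fin n → F} {x y : X} (h : y ∈ orb c x) : Bs c y = Bs c x := by
  obtain ⟨f, hf, rfl⟩ := mem_orb.mp h
  ext g
  rw [mem_Bs, mem_Bs]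
  apply and_congr_right
  intro hg
  rw [← mul_smul, tv_mul_right c g f hg hf, add_comm, ← tv_mul_right c f g hf hg, mul_smul, smul_left_cancel_iff]

omit [Fintype X] in
theorem orb_symm {c : Fin n → F} {x y : X} (h : y ∈ orb c x) : x ∈ orb c y := by
  obtain ⟨f, hf, rfl⟩ := mem_orb.mp h
  refine mem_orb.mpr ⟨-f, by rw [neg_dotProduct, hf, neg_zero], ?_⟩
  rw [← tv_inv c f hf, inv_smul_smul]

omit [Fintype X] in
theorem orb_trans {c : Fin n → F} {x y z : X} (h : y ∈ orb c x) (h' : z ∈ orb c y) : z ∈ orb c x := by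
  obtain ⟨f, hf, rfl⟩ := mem_orb.mp h
  obtain ⟨g, hg, rfl⟩ := mem_orb.mp h'
  refine mem_orb.mpr ⟨g + f, by rw [add_dotProduct, hf, hg, add_zero], ?_⟩
  rw [← tv_mul_right c g f hg hf, mul_smul]

omit [Fintype X] in
theorem card_orb (c : Fin n → F) (x : X) : (orb c x).card * Nat.card (Bs c x) = Nat.card (Wc c) := by
  classical
  have h := Finset.card_eq_sum_card_image (fun f : Wc c => tv c f.1 • x) Finset.univ
  rw [Finset.card_univ, ← Nat.card_eq_fintype_card] at h
  rw [h]
  change _ = ∑ y ∈ orb c x, _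
  rw [← smul_eq_mul, ← Finset.sum_const]
  apply Finset.sum_congr rfl
  intro y hy
  obtain ⟨f0, hf0, rfl⟩ := mem_orb.mp hy
  rw [Nat.card_eq_fintype_card, ← Finset.card_univ]
  apply Finset.card_bij (fun (b : Bs c x) _ => (⟨f0 + b.1, by
    change (f0 + b.1) ⬝ᵥ c = 0
    rw [add_dotProduct, hf0, b.2.1, add_zero]⟩ : Wc c))
  · intro b _
    rw [Finset.mem_filter]
    refine ⟨Finset.mem_univ _, ?_⟩
    change tv c (f0 + b.1) • x = tv c f0 • x
    rw [← tv_mul_right c f0 b.1 hf0 b.2.1, mul_smul, b.2.2]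
  · intro b _ b' _ h
    exact Subtype.ext (add_left_cancel (congrArg Subtype.val h))
  · intro f hf
    rw [Finset.mem_filter] at hf
    have hf2 : f.1 ⬝ᵥ c = 0 := f.2
    have hd : (-f0 + f.1) ⬝ᵥ c = 0 := by rw [add_dotProduct, neg_dotProduct, hf0, hf2, neg_zero, add_zero]
    refine ⟨⟨-f0 + f.1, hd, ?_⟩, Finset.mem_univ _, Subtype.ext (by simp)⟩
    rw [← tv_mul_right c (-f0) f.1 (by rw [neg_dotProduct, hf0, neg_zero]) hf2, mul_smul, hf.2, ← mul_smul,
      tv_mul_right c (-f0) f0 (by rw [neg_dotProduct, hf0, neg_zero]) hf0, neg_add_cancel, tv_zero_right, one_smul]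

theorem Mf_ge (ψ : AddChar F ℂ) {c v : Fin n → F} {x : X} (h : v ∈ perp ψ (Bs c x)) : Nat.card (Wc c) ≤ Mf X ψ c v := by
  classical
  rw [← card_orb c x, ← smul_eq_mul, ← Finset.sum_const]
  unfold Mf
  refine (Finset.sum_le_sum (fun y hy => ?_)).trans (Finset.sum_le_sum_of_subset (Finset.subset_univ (orb c x)))
  rw [Bs_orb hy, if_pos h]

theorem Mf_ge_two (ψ : AddChar F ℂ) {c v : Fin n → F} {x y : X} (h : v ∈ perp ψ (Bs c x)) (h' : v ∈ perp ψ (Bs c y))
    (hxy : y ∉ orb c x) : 2 * Nat.card (Wc c) ≤ Mf X ψ c v := by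
  classical
  have hdisj : Disjoint (orb c x) (orb c y) := by
    rw [Finset.disjoint_left]
    intro z hz hz'
    exact hxy (orb_trans hz (orb_symm hz'))
  have e : 2 * Nat.card (Wc c) = ∑ z ∈ orb c x ∪ orb c y, Nat.card (Bs c z) := by
    rw [Finset.sum_union hdisj, Finset.sum_congr rfl (fun z hz => by rw [Bs_orb hz]), Finset.sum_const, smul_eq_mul, card_orb]
    rw [Finset.sum_congr rfl (fun z hz => by rw [Bs_orb hz]), Finset.sum_const, smul_eq_mul, card_orb]
    ring
  rw [e]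
  unfold Mf
  refine (Finset.sum_le_sum (fun z hz => ?_)).trans (Finset.sum_le_sum_of_subset (Finset.subset_univ (orb c x ∪ orb c y)))
  rw [if_pos]
  rw [Finset.mem_union] at hz
  rcases hz with hz | hz
  · rw [Bs_orb hz]; exact h
  · rw [Bs_orb hz]; exact h'

end orbit

end Cfsg.Agent.Lib.MinIdxAct
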