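import Cfsg.Agent.Lib.MinTD4C

/-!
The groups 3D4(q): the relations between the fixed elements, continued (helper18).
-/

set_option autoImplicit false
set_option linter.unusedSectionVars false

namespace Cfsg.Agent.Lib.MinTD4D

open Cfsg.Lie Cfsg.Agent.Lib.ChevGood Cfsg.Agent.Lib.ChevRel Cfsg.Agent.Lib.ChevX Cfsg.Agent.Lib.UCEPair
open Cfsg.Agent.Lib.UCEBase Cfsg.Agent.Lib.UCESys Cfsg.Agent.Lib.UCELift Cfsg.Agent.Lib.UCESymbol Cfsg.Agent.Lib.UCETrip
open Cfsg.Agent.Lib.TwFix Cfsg.Agent.Lib.TwTab Cfsg.Agent.Lib.MinTD4A Cfsg.Agent.Lib.MinTD4C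

variable {K : Type*} [Field K] [Fintype K] {q : ℕ} (hq : IsPrimePow q) (hK : Fintype.card K = q ^ 3)

theorem cj2 {Q : Type*} [Group Q] (a b c : Q) : a * (b * c) * a⁻¹ = a * b * a⁻¹ * (a * c * a⁻¹) := by group

noncomputable def X14 (u : F0 hq hK) : Gh hq hK := XL hq hK 14 (by decide) u
noncomputable def X22 (u : F0 hq hK) : Gh hq hK := XL hq hK 22 (by decide) u
noncomputable def X23 (u : F0 hq hK) : Gh hq hK := XL hq hK 23 (by decide) u

theorem X14_add (t u : F0 hq hK) : X14 hq hK t * X14 hq hK u = X14 hq hK (t + u) := XL_add hq hK _ t u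
theorem X22_add (t u : F0 hq hK) : X22 hq hK t * X22 hq hK u = X22 hq hK (t + u) := XL_add hq hK _ t u
theorem X23_add (t u : F0 hq hK) : X23 hq hK t * X23 hq hK u = X23 hq hK (t + u) := XL_add hq hK _ t u

/-- conjugation of the long root `14` by the short root -/
theorem rel5 (t : K) (u : F0 hq hK) : (YY hq hK t)⁻¹ * X14 hq hK u * YY hq hK t =
    X14 hq hK u * YY1 hq hK (u * t) * YY2 hq hK (-(u * (t * t ^ q))) * X22 hq hK (u * nm hq hK t) *
      X23 hq hK (u * (u * nm hq hK t)) := by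
  apply Subtype.ext
  have hu := F0_pow hq hK u
  have h := rel14 t (t ^ q) ((t ^ q) ^ q) (u : K)
  show (x 18 t * x 13 (t ^ q) * x 12 ((t ^ q) ^ q))⁻¹ * x 14 (u : K) * (x 18 t * x 13 (t ^ q) * x 12 ((t ^ q) ^ q)) =
    x 14 (u : K) * (x 19 (u * t) * x 16 (-((u * t) ^ q)) * x 15 (-(((u * t) ^ q) ^ q))) *
      (x 21 (-(u * (t * t ^ q))) * x 17 (-((-(u * (t * t ^ q))) ^ q)) * x 20 (((-(u * (t * t ^ q))) ^ q) ^ q)) *
      x 22 ((u : K) * (t * t ^ q * (t ^ q) ^ q)) * x 23 ((u : K) * (u * (t * t ^ q * (t ^ q) ^ q)))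
  rw [h]
  have e1 : ((u : K) * t) ^ q = u * t ^ q := by rw [mul_pow, hu]
  have e2 : (((u : K) * t) ^ q) ^ q = u * (t ^ q) ^ q := by rw [e1, mul_pow, hu]
  have e3 : (-((u : K) * (t * t ^ q))) ^ q = -(u * (t ^ q * (t ^ q) ^ q)) := by
    rw [npow hq hK, mul_pow, hu, mul_pow]
  have e4 : ((-((u : K) * (t * t ^ q))) ^ q) ^ q = -(u * ((t ^ q) ^ q * t)) := by
    rw [e3, npow hq hK, mul_pow, hu, mul_pow, p3 hq hK]
  rw [e2, e1, e4, e3]
  have f1 : t * (u : K) = u * t := by ring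
  have f2 : -(t ^ q * (u : K)) = -(u * t ^ q) := by ring
  have f3 : -((t ^ q) ^ q * (u : K)) = -(u * (t ^ q) ^ q) := by ring
  have f4 : -(t * t ^ q * (u : K)) = -(u * (t * t ^ q)) := by ring
  have f5 : t ^ q * (t ^ q) ^ q * (u : K) = -(-(u * (t ^ q * (t ^ q) ^ q))) := by ring
  have f6 : -(t * (t ^ q) ^ q * (u : K)) = -(u * ((t ^ q) ^ q * t)) := by ring
  have f7 : t * t ^ q * (t ^ q) ^ q * (u : K) = u * (t * t ^ q * (t ^ q) ^ q) := by ring
  have f8 : t * t ^ q * (t ^ q) ^ q * (u : K) * u = u * (u * (t * t ^ q * (t ^ q) ^ q)) := by ring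
  rw [f8, f7, f6, f5, f4, f3, f2, f1]

/-- `YY` moves `YY2` by `X22` -/
theorem rel4 (t w : K) : YY hq hK t * YY2 hq hK w * (YY hq hK t)⁻¹ =
    YY2 hq hK w * X22 hq hK (tr hq hK ((t ^ q) ^ q * w)) := by
  apply Subtype.ext
  show x 18 t * x 13 (t ^ q) * x 12 ((t ^ q) ^ q) * (x 21 w * x 17 (-(w ^ q)) * x 20 ((w ^ q) ^ q)) *
    (x 18 t * x 13 (t ^ q) * x 12 ((t ^ q) ^ q))⁻¹ = x 21 w * x 17 (-(w ^ q)) * x 20 ((w ^ q) ^ q) *
      x 22 ((t ^ q) ^ q * w + ((t ^ q) ^ q * w) ^ q + (((t ^ q) ^ q * w) ^ q) ^ q)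
  have e1 : ((t ^ q) ^ q * w) ^ q = t * w ^ q := by rw [mul_pow, p3 hq hK]
  have e2 : (((t ^ q) ^ q * w) ^ q) ^ q = t ^ q * (w ^ q) ^ q := by rw [e1, mul_pow]
  rw [e2, e1]
  have c1 : x 12 ((t ^ q) ^ q) * x 21 w * (x 12 ((t ^ q) ^ q))⁻¹ = x 21 w * x 22 ((t ^ q) ^ q * w) := by
    rw [cjx (k := 22) (M := -1) (by decide +kernel) (by decide) (by decide) (by decide)]; congr 2; push_cast; ring
  have c2 : x 13 (t ^ q) * x 20 ((w ^ q) ^ q) * (x 13 (t ^ q))⁻¹ = x 20 ((w ^ q) ^ q) * x 22 (t ^ q * (w ^ q) ^ q) := by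
    rw [cjx (k := 22) (M := -1) (by decide +kernel) (by decide) (by decide) (by decide)]; congr 2; push_cast; ring
  have c3 : x 18 t * x 17 (-(w ^ q)) * (x 18 t)⁻¹ = x 17 (-(w ^ q)) * x 22 (t * w ^ q) := by
    rw [cjx (k := 22) (M := 1) (by decide +kernel) (by decide) (by decide) (by decide)]; congr 2; push_cast; ring
  have k1 : ∀ {a b : ℕ} (_ : 0 ≤ pr chevD4 a b) (_ : a < chevD4.nroots) (_ : b < chevD4.nroots) (s u : K),
      x a s * x b u * (x a s)⁻¹ = x b u := by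
    intro a b h1 h2 h3 s u
    rw [(ccx h1 h2 h3 s u).eq, mul_inv_cancel_right]
  have cm : ∀ {a : ℕ} (_ : 0 ≤ pr chevD4 22 a) (_ : a < chevD4.nroots) (s u : K), x 22 s * x a u = x a u * x 22 s :=
    fun h1 h2 s u => (ccx h1 (by decide) h2 s u).eq
  have hj : ∀ (a b c d : chevD4.group K), a * (b * c * d) * a⁻¹ = (a * b * a⁻¹) * (a * c * a⁻¹) * (a * d * a⁻¹) := by
    intro a b c d; group
  calc x 18 t * x 13 (t ^ q) * x 12 ((t ^ q) ^ q) * (x 21 w * x 17 (-(w ^ q)) * x 20 ((w ^ q) ^ q)) *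
        (x 18 t * x 13 (t ^ q) * x 12 ((t ^ q) ^ q))⁻¹
      = x 18 t * (x 13 (t ^ q) * (x 12 ((t ^ q) ^ q) * (x 21 w * x 17 (-(w ^ q)) * x 20 ((w ^ q) ^ q)) * (x 12 ((t ^ q) ^ q))⁻¹) *
        (x 13 (t ^ q))⁻¹) * (x 18 t)⁻¹ := by group
    _ = x 18 t * (x 13 (t ^ q) * ((x 21 w * x 22 ((t ^ q) ^ q * w)) * x 17 (-(w ^ q)) * x 20 ((w ^ q) ^ q)) *
        (x 13 (t ^ q))⁻¹) * (x 18 t)⁻¹ := by
      rw [hj (x 12 ((t ^ q) ^ q)), c1, k1 (by decide +kernel) (by decide) (by decide),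
        k1 (by decide +kernel) (by decide) (by decide)]
    _ = x 18 t * ((x 21 w * x 22 ((t ^ q) ^ q * w)) * x 17 (-(w ^ q)) * (x 20 ((w ^ q) ^ q) * x 22 (t ^ q * (w ^ q) ^ q))) *
        (x 18 t)⁻¹ := by
      rw [hj (x 13 (t ^ q)), c2, k1 (b := 17) (by decide +kernel) (by decide) (by decide), cj2 (x 13 (t ^ q)) (x 21 w),
        k1 (b := 21) (by decide +kernel) (by decide) (by decide), k1 (b := 22) (by decide +kernel) (by decide) (by decide)]
    _ = (x 21 w * x 22 ((t ^ q) ^ q * w)) * (x 17 (-(w ^ q)) * x 22 (t * w ^ q)) *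
        (x 20 ((w ^ q) ^ q) * x 22 (t ^ q * (w ^ q) ^ q)) := by
      rw [hj (x 18 t), c3, cj2 (x 18 t) (x 21 w), cj2 (x 18 t) (x 20 ((w ^ q) ^ q)),
        k1 (b := 21) (by decide +kernel) (by decide) (by decide), k1 (b := 22) (by decide +kernel) (by decide) (by decide),
        k1 (b := 20) (by decide +kernel) (by decide) (by decide), k1 (b := 22) (by decide +kernel) (by decide) (by decide)]
    _ = x 21 w * (x 22 ((t ^ q) ^ q * w) * x 17 (-(w ^ q))) * (x 22 (t * w ^ q) * x 20 ((w ^ q) ^ q)) *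
          x 22 (t ^ q * (w ^ q) ^ q) := by group
    _ = x 21 w * x 17 (-(w ^ q)) * (x 22 ((t ^ q) ^ q * w) * x 20 ((w ^ q) ^ q)) * x 22 (t * w ^ q) *
          x 22 (t ^ q * (w ^ q) ^ q) := by
      rw [cm (a := 17) (by decide +kernel) (by decide), cm (a := 20) (by decide +kernel) (by decide)]; group
    _ = x 21 w * x 17 (-(w ^ q)) * x 20 ((w ^ q) ^ q) * (x 22 ((t ^ q) ^ q * w) * x 22 (t * w ^ q) *
          x 22 (t ^ q * (w ^ q) ^ q)) := by
      rw [cm (a := 20) (by decide +kernel) (by decide)]; group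
    _ = _ := by rw [xadd (by decide), xadd (by decide)]

/-- `YY1` and `YY2` commute up to `X23` -/
theorem rel3 (v w : K) : YY1 hq hK v * YY2 hq hK w * (YY1 hq hK v)⁻¹ =
    YY2 hq hK w * X23 hq hK (tr hq hK (v * w ^ q)) := by
  apply Subtype.ext
  show x 19 v * x 16 (-(v ^ q)) * x 15 (-((v ^ q) ^ q)) * (x 21 w * x 17 (-(w ^ q)) * x 20 ((w ^ q) ^ q)) *
    (x 19 v * x 16 (-(v ^ q)) * x 15 (-((v ^ q) ^ q)))⁻¹ = x 21 w * x 17 (-(w ^ q)) * x 20 ((w ^ q) ^ q) *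
      x 23 (v * w ^ q + (v * w ^ q) ^ q + ((v * w ^ q) ^ q) ^ q)
  have e1 : (v * w ^ q) ^ q = v ^ q * (w ^ q) ^ q := by rw [mul_pow]
  have e2 : ((v * w ^ q) ^ q) ^ q = (v ^ q) ^ q * w := by rw [e1, mul_pow, p3 hq hK]
  rw [e2, e1]
  have c1 : x 15 (-((v ^ q) ^ q)) * x 21 w * (x 15 (-((v ^ q) ^ q)))⁻¹ = x 21 w * x 23 ((v ^ q) ^ q * w) := by
    rw [cjx (k := 23) (M := 1) (by decide +kernel) (by decide) (by decide) (by decide)]; congr 2; push_cast; ring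
  have c2 : x 16 (-(v ^ q)) * x 20 ((w ^ q) ^ q) * (x 16 (-(v ^ q)))⁻¹ = x 20 ((w ^ q) ^ q) * x 23 (v ^ q * (w ^ q) ^ q) := by
    rw [cjx (k := 23) (M := 1) (by decide +kernel) (by decide) (by decide) (by decide)]; congr 2; push_cast; ring
  have c3 : x 19 v * x 17 (-(w ^ q)) * (x 19 v)⁻¹ = x 17 (-(w ^ q)) * x 23 (v * w ^ q) := by
    rw [cjx (k := 23) (M := 1) (by decide +kernel) (by decide) (by decide) (by decide)]; congr 2; push_cast; ring
  have k1 : ∀ {a b : ℕ} (_ : 0 ≤ pr chevD4 a b) (_ : a < chevD4.nroots) (_ : b < chevD4.nroots) (s u : K),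
      x a s * x b u * (x a s)⁻¹ = x b u := by
    intro a b h1 h2 h3 s u
    rw [(ccx h1 h2 h3 s u).eq, mul_inv_cancel_right]
  have cm : ∀ {a : ℕ} (_ : 0 ≤ pr chevD4 23 a) (_ : a < chevD4.nroots) (s u : K), x 23 s * x a u = x a u * x 23 s :=
    fun h1 h2 s u => (ccx h1 (by decide) h2 s u).eq
  have hj : ∀ (a b c d : chevD4.group K), a * (b * c * d) * a⁻¹ = (a * b * a⁻¹) * (a * c * a⁻¹) * (a * d * a⁻¹) := by
    intro a b c d; group
  calc x 19 v * x 16 (-(v ^ q)) * x 15 (-((v ^ q) ^ q)) * (x 21 w * x 17 (-(w ^ q)) * x 20 ((w ^ q) ^ q)) *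
        (x 19 v * x 16 (-(v ^ q)) * x 15 (-((v ^ q) ^ q)))⁻¹
      = x 19 v * (x 16 (-(v ^ q)) * (x 15 (-((v ^ q) ^ q)) * (x 21 w * x 17 (-(w ^ q)) * x 20 ((w ^ q) ^ q)) *
        (x 15 (-((v ^ q) ^ q)))⁻¹) * (x 16 (-(v ^ q)))⁻¹) * (x 19 v)⁻¹ := by group
    _ = x 19 v * (x 16 (-(v ^ q)) * ((x 21 w * x 23 ((v ^ q) ^ q * w)) * x 17 (-(w ^ q)) * x 20 ((w ^ q) ^ q)) *
        (x 16 (-(v ^ q)))⁻¹) * (x 19 v)⁻¹ := by
      rw [hj (x 15 (-((v ^ q) ^ q))), c1, k1 (by decide +kernel) (by decide) (by decide),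
        k1 (by decide +kernel) (by decide) (by decide)]
    _ = x 19 v * ((x 21 w * x 23 ((v ^ q) ^ q * w)) * x 17 (-(w ^ q)) * (x 20 ((w ^ q) ^ q) * x 23 (v ^ q * (w ^ q) ^ q))) *
        (x 19 v)⁻¹ := by
      rw [hj (x 16 (-(v ^ q))), c2, k1 (b := 17) (by decide +kernel) (by decide) (by decide), cj2 (x 16 (-(v ^ q))) (x 21 w),
        k1 (b := 21) (by decide +kernel) (by decide) (by decide), k1 (b := 23) (by decide +kernel) (by decide) (by decide)]
    _ = (x 21 w * x 23 ((v ^ q) ^ q * w)) * (x 17 (-(w ^ q)) * x 23 (v * w ^ q)) *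
        (x 20 ((w ^ q) ^ q) * x 23 (v ^ q * (w ^ q) ^ q)) := by
      rw [hj (x 19 v), c3, cj2 (x 19 v) (x 21 w), cj2 (x 19 v) (x 20 ((w ^ q) ^ q)),
        k1 (b := 21) (by decide +kernel) (by decide) (by decide), k1 (b := 23) (by decide +kernel) (by decide) (by decide),
        k1 (b := 20) (by decide +kernel) (by decide) (by decide), k1 (b := 23) (by decide +kernel) (by decide) (by decide)]
    _ = x 21 w * (x 23 ((v ^ q) ^ q * w) * x 17 (-(w ^ q))) * (x 23 (v * w ^ q) * x 20 ((w ^ q) ^ q)) *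
          x 23 (v ^ q * (w ^ q) ^ q) := by group
    _ = x 21 w * x 17 (-(w ^ q)) * (x 23 ((v ^ q) ^ q * w) * x 20 ((w ^ q) ^ q)) * x 23 (v * w ^ q) *
          x 23 (v ^ q * (w ^ q) ^ q) := by
      rw [cm (a := 17) (by decide +kernel) (by decide), cm (a := 20) (by decide +kernel) (by decide)]; group
    _ = x 21 w * x 17 (-(w ^ q)) * x 20 ((w ^ q) ^ q) * (x 23 ((v ^ q) ^ q * w) * x 23 (v * w ^ q) *
          x 23 (v ^ q * (w ^ q) ^ q)) := by
      rw [cm (a := 20) (by decide +kernel) (by decide)]; group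
    _ = _ := by
      rw [xadd (by decide), xadd (by decide)]
      congr 2
      ring

theorem rel6 (u v : F0 hq hK) : X14 hq hK u * X22 hq hK v * (X14 hq hK u)⁻¹ = X22 hq hK v * X23 hq hK (u * v) := by
  apply Subtype.ext
  show x 14 (u : K) * x 22 (v : K) * (x 14 (u : K))⁻¹ = x 22 (v : K) * x 23 ((u : K) * v)
  rw [cjx (k := 23) (M := -1) (by decide +kernel) (by decide) (by decide) (by decide)]; congr 2; push_cast; ring

/-! ### commuting elements -/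

theorem cXX {r s : ℕ} (hr : r ∈ [14, 22, 23, 9, 1, 0]) (hs : s ∈ [14, 22, 23, 9, 1, 0]) (h : 0 ≤ pr chevD4 r s)
    (t u : F0 hq hK) : Commute (XL hq hK r hr t) (XL hq hK s hs u) := by
  apply Subtype.ext
  exact (ccx (K := K) h (lt_of_long hr) (lt_of_long hs) t u).eq

theorem c3X {a b c s : ℕ} (ha : a < chevD4.nroots) (hb : b < chevD4.nroots) (hc : c < chevD4.nroots)
    (hs : s < chevD4.nroots) (h1 : 0 ≤ pr chevD4 a s) (h2 : 0 ≤ pr chevD4 b s) (h3 : 0 ≤ pr chevD4 c s)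
    (t1 t2 t3 u : K) : Commute (x a t1 * x b t2 * x c t3) (x s u) :=
  ((ccx (K := K) h1 ha hs t1 u).mul_left (ccx (K := K) h2 hb hs t2 u)).mul_left (ccx (K := K) h3 hc hs t3 u)

theorem cY22 (t : K) (u : F0 hq hK) : Commute (YY hq hK t) (X22 hq hK u) :=
  Subtype.ext (c3X (by decide) (by decide) (by decide) (by decide) (by decide +kernel) (by decide +kernel) (by decide +kernel) _ _ _ _).eq

theorem cY23 (t : K) (u : F0 hq hK) : Commute (YY hq hK t) (X23 hq hK u) :=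
  Subtype.ext (c3X (by decide) (by decide) (by decide) (by decide) (by decide +kernel) (by decide +kernel) (by decide +kernel) _ _ _ _).eq

theorem cY1_22 (t : K) (u : F0 hq hK) : Commute (YY1 hq hK t) (X22 hq hK u) :=
  Subtype.ext (c3X (by decide) (by decide) (by decide) (by decide) (by decide +kernel) (by decide +kernel) (by decide +kernel) _ _ _ _).eq

theorem cY1_23 (t : K) (u : F0 hq hK) : Commute (YY1 hq hK t) (X23 hq hK u) :=
  Subtype.ext (c3X (by decide) (by decide) (by decide) (by decide) (by decide +kernel) (by decide +kernel) (by decide +kernel) _ _ _ _).eq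

theorem cY2_14 (t : K) (u : F0 hq hK) : Commute (YY2 hq hK t) (X14 hq hK u) :=
  Subtype.ext (c3X (by decide) (by decide) (by decide) (by decide) (by decide +kernel) (by decide +kernel) (by decide +kernel) _ _ _ _).eq

theorem cY2_22 (t : K) (u : F0 hq hK) : Commute (YY2 hq hK t) (X22 hq hK u) :=
  Subtype.ext (c3X (by decide) (by decide) (by decide) (by decide) (by decide +kernel) (by decide +kernel) (by decide +kernel) _ _ _ _).eq

theorem cY2_23 (t : K) (u : F0 hq hK) : Commute (YY2 hq hK t) (X23 hq hK u) :=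
  Subtype.ext (c3X (by decide) (by decide) (by decide) (by decide) (by decide +kernel) (by decide +kernel) (by decide +kernel) _ _ _ _).eq

theorem c14_23 (t u : F0 hq hK) : Commute (X14 hq hK t) (X23 hq hK u) := cXX hq hK _ _ (by decide +kernel) t u
theorem c22_23 (t u : F0 hq hK) : Commute (X22 hq hK t) (X23 hq hK u) := cXX hq hK _ _ (by decide +kernel) t u

end Cfsg.Agent.Lib.MinTD4D
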