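import Cfsg.Agent.Lib.MinTD4D
import Cfsg.Agent.Lib.MinDegJ

/-!
Weights of the groups 3D4(q) (helper18).
-/

set_option autoImplicit false
set_option linter.unusedSectionVars false

namespace Cfsg.Agent.Lib.MinTD4E

open Cfsg.Lie Cfsg.Agent.Lib.ChevGood Cfsg.Agent.Lib.ChevRel Cfsg.Agent.Lib.ChevX Cfsg.Agent.Lib.UCEPair
open Cfsg.Agent.Lib.UCEBase Cfsg.Agent.Lib.UCESys Cfsg.Agent.Lib.UCELift Cfsg.Agent.Lib.UCESymbol Cfsg.Agent.Lib.UCETrip
open Cfsg.Agent.Lib.TwFix Cfsg.Agent.Lib.TwTab Cfsg.Agent.Lib.MinTD4A Cfsg.Agent.Lib.MinTD4C Cfsg.Agent.Lib.MinTD4D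
open Cfsg.Agent.Lib.WeightProj Cfsg.Agent.Lib.MinDegA Cfsg.Agent.Lib.MinDegB

/-! ### general lemmas -/

section gen

variable {Q : Type*} [Group Q] {V : Type*} [AddCommGroup V] [Module ℂ V] {ρ : Representation ℂ Q V}
  {K : Type*} [Field K] [Fintype K] {F : Type*} [Field F] [Fintype F]

/-- conjugation moves the weights, with two different fields -/
theorem conj_gen {xr : K → Q} {xt : F → Q} {g : Q} (ht : ∀ t u, xt t * xt u = xt (t + u)) {β : K → F}
    (h : ∀ w, g * xr w * g⁻¹ = xr w * xt (β w)) (hg : ∀ b, g * xt b = xt b * g) {l l' : AddChar K ℂ} {m : AddChar F ℂ}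
    (hl : ∀ w, l' (-w) = l (-w) * m (β w)) :
    ρ g * (Er ρ xr l * Er ρ xt m) = Er ρ xr l' * Er ρ xt m * ρ g := by
  have h0 : ρ g * Er ρ xt m = Er ρ xt m * ρ g := comm_Er (fun b => by rw [← map_mul, ← map_mul, hg]) m
  have h1 : ∀ w, ρ g * (ρ (xr w) * Er ρ xt m) = m (β w) • (ρ (xr w) * Er ρ xt m * ρ g) := by
    intro w
    have e1 : ρ g * ρ (xr w) = ρ (xr w) * ρ (xt (β w)) * ρ g := by
      rw [← map_mul, ← map_mul, ← map_mul, ← h]; congr 1; group
    rw [← mul_assoc, e1, mul_assoc, h0, mul_assoc (ρ (xr w)), ← mul_assoc (ρ (xt (β w))), mul_Er ht, smul_mul_assoc,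
      mul_smul_comm, mul_assoc]
  have e2 : Er ρ xr l = ((Fintype.card K : ℂ)⁻¹) • ∑ t : K, l (-t) • ρ (xr t) := rfl
  have e3 : Er ρ xr l' = ((Fintype.card K : ℂ)⁻¹) • ∑ t : K, l' (-t) • ρ (xr t) := rfl
  rw [e2, e3]
  rw [smul_mul_assoc, mul_smul_comm, smul_mul_assoc, smul_mul_assoc, Finset.sum_mul, Finset.mul_sum, Finset.sum_mul,
    Finset.sum_mul]
  congr 1
  apply Finset.sum_congr rfl
  intro w _
  rw [smul_mul_assoc, mul_smul_comm, h1, smul_smul, ← hl, smul_mul_assoc, smul_mul_assoc]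

/-- fixed operators -/
theorem Er_fix {x : F → Q} (hx : ∀ t u, x t * x u = x (t + u)) {A : Module.End ℂ V} (h : ∀ t, ρ (x t) * A = A) :
    Er ρ x 1 * A = A := by
  conv_rhs => rw [← one_mul A, ← sum_Er (ρ := ρ) hx, Finset.sum_mul]
  rw [Finset.sum_eq_single (1 : AddChar F ℂ) (fun l _ hl => Er_mul_eq_zero hx hl h) (fun h => absurd (Finset.mem_univ _) h)]

variable [FiniteDimensional ℂ V]

theorem trace_gen {xr : K → Q} {xt : F → Q} {g : Q} (ht : ∀ t u, xt t * xt u = xt (t + u)) {β : K → F}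
    (h : ∀ w, g * xr w * g⁻¹ = xr w * xt (β w)) (hg : ∀ b, g * xt b = xt b * g) {l l' : AddChar K ℂ} {m : AddChar F ℂ}
    (hl : ∀ w, l' (-w) = l (-w) * m (β w)) {A : Module.End ℂ V} (hA : ρ g * A = A * ρ g) :
    LinearMap.trace ℂ V (Er ρ xr l * Er ρ xt m * A) = LinearMap.trace ℂ V (Er ρ xr l' * Er ρ xt m * A) := by
  have h1 := conj_gen (ρ := ρ) ht h hg hl
  have h2 : ρ g⁻¹ * ρ g = 1 := by rw [← map_mul, inv_mul_cancel, map_one]
  refine trace_conj_eq h2 ?_
  rw [← mul_assoc, h1, mul_assoc, hA, ← mul_assoc]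

/-- operators commuting with a projection of rank one are scalars on it -/
theorem scal {P A : Module.End ℂ V} (hP : P * P = P) (htr : LinearMap.trace ℂ V P = 1) (hA : A * P = P * A) :
    ∃ c : ℂ, A * P = c • P := by
  have hi : IsIdempotentElem P := hP
  have h1 := (LinearMap.IsIdempotentElem.isProj_range P hi).trace
  rw [htr] at h1
  have h2 : Module.finrank ℂ (LinearMap.range P) = 1 := by exact_mod_cast h1.symm
  obtain ⟨⟨v, hv⟩, hv0, hspan⟩ := finrank_eq_one_iff'.mp h2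
  obtain ⟨v', rfl⟩ := hv
  have hPv : P (P v') = P v' := LinearMap.congr_fun hP v'
  have hAv : A (P v') ∈ LinearMap.range P := ⟨A v', by
    have := LinearMap.congr_fun hA v'
    exact this.symm⟩
  obtain ⟨c, hc⟩ := hspan ⟨A (P v'), hAv⟩
  refine ⟨c, ?_⟩
  ext w
  obtain ⟨e, he⟩ := hspan ⟨P w, ⟨w, rfl⟩⟩
  have he' : e • P v' = P w := congrArg Subtype.val he
  have hc' : c • P v' = A (P v') := congrArg Subtype.val hc
  show A (P w) = c • P w
  rw [← he', map_smul, ← hc', smul_comm]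

/-- the character by which a one-parameter group acts -/
theorem char_of {x : F → Q} (hx : ∀ t u, x t * x u = x (t + u)) {P : Module.End ℂ V} (hP : P * P = P)
    (htr : LinearMap.trace ℂ V P = 1) (hc : ∀ t, ρ (x t) * P = P * ρ (x t)) :
    ∃ b : AddChar F ℂ, ∀ t, ρ (x t) * P = b t • P := by
  choose b hb using fun t => scal hP htr (hc t)
  have hP0 : P ≠ 0 := by rintro rfl; rw [map_zero] at htr; exact zero_ne_one htr
  have h0 : b 0 = 1 := by
    have e : ρ (x 0) = 1 := by rw [one_of hx, map_one]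
    have h1 := hb 0
    rw [e, one_mul] at h1
    have h2 : (b 0 - 1) • P = 0 := by rw [sub_smul, one_smul, ← h1, sub_self]
    rcases smul_eq_zero.mp h2 with h3 | h3
    · exact sub_eq_zero.mp h3
    · exact absurd h3 hP0
  have hadd : ∀ t u, b (t + u) = b t * b u := by
    intro t u
    have h1 := hb (t + u)
    rw [← hx, map_mul, mul_assoc, hb u, mul_smul_comm, hb t, smul_smul] at h1
    have h2 : (b (t + u) - b t * b u) • P = 0 := by rw [sub_smul, ← h1, mul_comm, sub_self]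
    rcases smul_eq_zero.mp h2 with h3 | h3
    · exact sub_eq_zero.mp h3
    · exact absurd h3 hP0
  exact ⟨⟨b, h0, hadd⟩, hb⟩

end gen

/-! ### the groups 3D4 -/

section td4

variable {K : Type*} [Field K] [Fintype K] {q : ℕ} (hq : IsPrimePow q) (hK : Fintype.card K = q ^ 3)
  [Fintype (F0 hq hK)] {V : Type*} [AddCommGroup V] [Module ℂ V] [FiniteDimensional ℂ V]
  (ρ : Representation ℂ (Gh hq hK) V)

theorem card_F : Fintype.card (F0 hq hK) = q := by rw [← Nat.card_eq_fintype_card, card_F0]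

theorem rm_mem (i j : Fin 3) : rm chevD4 14 22 23 i j ∈ [14, 22, 23, 9, 1, 0] := by
  revert i j
  decide

/-- the system of type A2 of the long roots -/
noncomputable def S3 : St3 (F0 hq hK) (Gh hq hK) where
  y i j u := XL hq hK _ (rm_mem i j) u
  add i j _ t u := XL_add hq hK _ t u
  cmt i j k hij hjk hik t u := by
    apply Subtype.ext
    exact (toSt3 G pairOK_D4 trip_D4 (R K) (a := 14) (b := 22) (r := 23) (by decide) (by decide) (by decide)
      (by decide +kernel)).cmt i j k hij hjk hik t u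
  row i j k hij hjk hik t u := by
    apply Subtype.ext
    exact (toSt3 G pairOK_D4 trip_D4 (R K) (a := 14) (b := 22) (r := 23) (by decide) (by decide) (by decide)
      (by decide +kernel)).row i j k hij hjk hik t u
  col i j k hij hjk hik t u := by
    apply Subtype.ext
    exact (toSt3 G pairOK_D4 trip_D4 (R K) (a := 14) (b := 22) (r := 23) (by decide) (by decide) (by decide)
      (by decide +kernel)).col i j k hij hjk hik t u

noncomputable abbrev E14 (l : AddChar (F0 hq hK) ℂ) : Module.End ℂ V := Er ρ (X14 hq hK) l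
noncomputable abbrev E22 (l : AddChar (F0 hq hK) ℂ) : Module.End ℂ V := Er ρ (X22 hq hK) l
noncomputable abbrev E23 (l : AddChar (F0 hq hK) ℂ) : Module.End ℂ V := Er ρ (X23 hq hK) l
noncomputable abbrev E2 (l : AddChar K ℂ) : Module.End ℂ V := Er ρ (YY2 hq hK) l

theorem tr14 {l m : AddChar (F0 hq hK) ℂ} (hl : l ≠ 1) (hm : m ≠ 1) :
    LinearMap.trace ℂ V (E14 hq hK ρ l) = LinearMap.trace ℂ V (E23 hq hK ρ m) := by
  refine trace_scale (xp := X14 hq hK) (xq := X23 hq hK) (fun u => (S3 hq hK).w 2 1 u⁻¹) ?_ hl hm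
  intro u hu t
  have := (S3 hq hK).w_kj (i := 2) (j := 1) (k := 0) (by decide) (by decide) (by decide) (inv_ne_zero hu) t
  rw [inv_inv] at this
  exact this

theorem tr22 {l m : AddChar (F0 hq hK) ℂ} (hl : l ≠ 1) (hm : m ≠ 1) :
    LinearMap.trace ℂ V (E22 hq hK ρ l) = LinearMap.trace ℂ V (E23 hq hK ρ m) := by
  refine trace_scale (xp := X22 hq hK) (xq := X23 hq hK) (fun u => (S3 hq hK).w 0 1 u) ?_ hl hm
  intro u hu t
  exact (S3 hq hK).w_jk (i := 0) (j := 1) (k := 2) (by decide) (by decide) (by decide) hu t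

/-- the constant multiplicity -/
theorem exists_d : ∃ d : ℕ, ∀ m : AddChar (F0 hq hK) ℂ, m ≠ 1 → LinearMap.trace ℂ V (E14 hq hK ρ m) = d ∧
    LinearMap.trace ℂ V (E22 hq hK ρ m) = d ∧ LinearMap.trace ℂ V (E23 hq hK ρ m) = d := by
  obtain ⟨l, hl⟩ := MinDegJ.exists_char (F0 hq hK)
  obtain ⟨d, hd, -⟩ := trace_nat (Er_mul_self (ρ := ρ) (X14_add hq hK) l)
  have h14 : LinearMap.trace ℂ V (E14 hq hK ρ l) = d := hd
  have h23 : ∀ m : AddChar (F0 hq hK) ℂ, m ≠ 1 → LinearMap.trace ℂ V (E23 hq hK ρ m) = d := fun m hm => by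
    rw [← tr14 hq hK ρ hl hm, h14]
  exact ⟨d, fun m hm => ⟨by rw [tr14 hq hK ρ hm hm, h23 m hm], by rw [tr22 hq hK ρ hm hm, h23 m hm], h23 m hm⟩⟩

variable {ρ}

theorem rel6' (u v : F0 hq hK) : X22 hq hK v * X14 hq hK u * (X22 hq hK v)⁻¹ = X14 hq hK u * X23 hq hK (-1 * v * u) := by
  have h1 := rel6 hq hK u v
  have h2 := (c22_23 hq hK v (u * v)).eq
  have h3 := (c14_23 hq hK u (u * v)).eq
  have h4 : X23 hq hK (-1 * v * u) = (X23 hq hK (u * v))⁻¹ := by
    rw [eq_inv_iff_mul_eq_one, X23_add]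
    have : -1 * v * u + u * v = 0 := by ring
    rw [this]
    exact one_of (X23_add hq hK)
  rw [h4]
  have h5 : X14 hq hK u * X22 hq hK v = X22 hq hK v * X23 hq hK (u * v) * X14 hq hK u := by rw [← h1]; group
  calc X22 hq hK v * X14 hq hK u * (X22 hq hK v)⁻¹
      = (X23 hq hK (u * v))⁻¹ * (X23 hq hK (u * v) * X22 hq hK v) * X14 hq hK u * (X22 hq hK v)⁻¹ := by group
    _ = (X23 hq hK (u * v))⁻¹ * (X22 hq hK v * X23 hq hK (u * v) * X14 hq hK u) * (X22 hq hK v)⁻¹ := by rw [← h2]; group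
    _ = (X23 hq hK (u * v))⁻¹ * X14 hq hK u := by rw [← h5]; group
    _ = (X23 hq hK (u * v))⁻¹ * (X14 hq hK u * X23 hq hK (u * v)) * (X23 hq hK (u * v))⁻¹ := by group
    _ = _ := by rw [h3]; group

theorem free22 {m : AddChar (F0 hq hK) ℂ} (hm : m ≠ 1) (l : AddChar (F0 hq hK) ℂ) :
    LinearMap.trace ℂ V (E23 hq hK ρ m) = q * LinearMap.trace ℂ V (E22 hq hK ρ l * E23 hq hK ρ m) := by
  have h := trace_free_sum (ρ := ρ) (xs := X14 hq hK) (xr := X22 hq hK) (xt := X23 hq hK) (n := 1) (X22_add hq hK)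
    (X23_add hq hK) one_ne_zero (fun a b => by rw [one_mul]; exact rel6 hq hK a b) (fun a b => (c14_23 hq hK a b).eq) hm
    (A := 1) (fun a => by rw [mul_one, one_mul]) l
  rw [mul_one, mul_one, card_F] at h
  exact h

theorem free14 {m : AddChar (F0 hq hK) ℂ} (hm : m ≠ 1) (l : AddChar (F0 hq hK) ℂ) :
    LinearMap.trace ℂ V (E23 hq hK ρ m) = q * LinearMap.trace ℂ V (E14 hq hK ρ l * E23 hq hK ρ m) := by
  have h := trace_free_sum (ρ := ρ) (xs := X22 hq hK) (xr := X14 hq hK) (xt := X23 hq hK) (n := -1) (X14_add hq hK)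
    (X23_add hq hK) (neg_ne_zero.mpr one_ne_zero) (fun a b => rel6' hq hK b a) (fun a b => (c22_23 hq hK a b).eq) hm
    (A := 1) (fun a => by rw [mul_one, one_mul]) l
  rw [mul_one, mul_one, card_F] at h
  exact h

theorem card_ne : ((Finset.univ.erase (1 : AddChar (F0 hq hK) ℂ)).card : ℂ) = (q : ℂ) - 1 := by
  rw [Finset.card_erase_of_mem (Finset.mem_univ _), Finset.card_univ, AddChar.card_eq, card_F,
    Nat.cast_sub hq.pos, Nat.cast_one]

/-- decomposition along `X23` -/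
theorem split23 (B : Module.End ℂ V) : LinearMap.trace ℂ V B = LinearMap.trace ℂ V (B * E23 hq hK ρ 1) +
    ∑ m ∈ Finset.univ.erase (1 : AddChar (F0 hq hK) ℂ), LinearMap.trace ℂ V (B * E23 hq hK ρ m) := by
  classical
  have h1 : B = ∑ m : AddChar (F0 hq hK) ℂ, B * E23 hq hK ρ m := by
    rw [← Finset.mul_sum, sum_Er (X23_add hq hK), mul_one]
  conv_lhs => rw [h1]
  rw [map_sum, ← Finset.add_sum_erase _ _ (Finset.mem_univ (1 : AddChar (F0 hq hK) ℂ))]

/-- first division -/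
theorem div1 {d : ℕ} (hd : ∀ m : AddChar (F0 hq hK) ℂ, m ≠ 1 → LinearMap.trace ℂ V (E14 hq hK ρ m) = d ∧
    LinearMap.trace ℂ V (E22 hq hK ρ m) = d ∧ LinearMap.trace ℂ V (E23 hq hK ρ m) = d) {m : AddChar (F0 hq hK) ℂ}
    (hm : m ≠ 1) : (q : ℂ) * LinearMap.trace ℂ V (E22 hq hK ρ m * E23 hq hK ρ 1) = d := by
  have hq0 : (q : ℂ) ≠ 0 := by exact_mod_cast hq.pos.ne'
  have h := split23 hq hK (ρ := ρ) (E22 hq hK ρ m)
  have h1 : ∀ l ∈ Finset.univ.erase (1 : AddChar (F0 hq hK) ℂ),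
      LinearMap.trace ℂ V (E22 hq hK ρ m * E23 hq hK ρ l) = (q : ℂ)⁻¹ * d := by
    intro l hl
    have := free22 hq hK (ρ := ρ) (Finset.ne_of_mem_erase hl) m
    rw [(hd l (Finset.ne_of_mem_erase hl)).2.2] at this
    rw [this, inv_mul_cancel_left₀ hq0]
  rw [Finset.sum_congr rfl h1, Finset.sum_const, nsmul_eq_mul, card_ne hq hK, (hd m hm).2.1] at h
  field_simp at h
  linear_combination -h

/-- the dimension -/
theorem dimf {d : ℕ} (hd : ∀ m : AddChar (F0 hq hK) ℂ, m ≠ 1 → LinearMap.trace ℂ V (E14 hq hK ρ m) = d ∧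
    LinearMap.trace ℂ V (E22 hq hK ρ m) = d ∧ LinearMap.trace ℂ V (E23 hq hK ρ m) = d) :
    (q : ℂ) * Module.finrank ℂ V = q * LinearMap.trace ℂ V (E14 hq hK ρ 1 * E23 hq hK ρ 1) +
      ((q : ℂ) - 1) * (q + 1) * d := by
  classical
  have hq0 : (q : ℂ) ≠ 0 := by exact_mod_cast hq.pos.ne'
  have h0 : (Module.finrank ℂ V : ℂ) = LinearMap.trace ℂ V (E14 hq hK ρ 1) + ((q : ℂ) - 1) * d := by
    have e1 : (1 : Module.End ℂ V) = ∑ m : AddChar (F0 hq hK) ℂ, E14 hq hK ρ m := (sum_Er (X14_add hq hK)).symm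
    have e2 : (Module.finrank ℂ V : ℂ) = LinearMap.trace ℂ V 1 := (LinearMap.trace_one ℂ V).symm
    rw [e2, e1, map_sum, ← Finset.add_sum_erase _ _ (Finset.mem_univ (1 : AddChar (F0 hq hK) ℂ))]
    congr 1
    rw [Finset.sum_congr rfl (fun m hm => (hd m (Finset.ne_of_mem_erase hm)).1), Finset.sum_const, nsmul_eq_mul, card_ne hq hK]
  have h := split23 hq hK (ρ := ρ) (E14 hq hK ρ 1)
  have h1 : ∀ l ∈ Finset.univ.erase (1 : AddChar (F0 hq hK) ℂ),
      LinearMap.trace ℂ V (E14 hq hK ρ 1 * E23 hq hK ρ l) = (q : ℂ)⁻¹ * d := by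
    intro l hl
    have := free14 hq hK (ρ := ρ) (Finset.ne_of_mem_erase hl) 1
    rw [(hd l (Finset.ne_of_mem_erase hl)).2.2] at this
    rw [this, inv_mul_cancel_left₀ hq0]
  rw [Finset.sum_congr rfl h1, Finset.sum_const, nsmul_eq_mul, card_ne hq hK] at h
  rw [h0, h]
  field_simp
  ring

end td4

end Cfsg.Agent.Lib.MinTD4E
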