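import Cfsg.Agent.Lib.MinTD4E

/-!
Weights of the groups 3D4(q), continued: the lower bound (helper18).
-/

set_option autoImplicit false
set_option linter.unusedSectionVars false

namespace Cfsg.Agent.Lib.MinTD4F

open Cfsg.Lie Cfsg.Agent.Lib.ChevGood Cfsg.Agent.Lib.ChevRel Cfsg.Agent.Lib.ChevX Cfsg.Agent.Lib.UCEPair
open Cfsg.Agent.Lib.UCEBase Cfsg.Agent.Lib.UCESys Cfsg.Agent.Lib.UCELift Cfsg.Agent.Lib.UCESymbol Cfsg.Agent.Lib.UCETrip
open Cfsg.Agent.Lib.TwFix Cfsg.Agent.Lib.TwTab Cfsg.Agent.Lib.MinTD4A Cfsg.Agent.Lib.MinTD4C Cfsg.Agent.Lib.MinTD4D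
open Cfsg.Agent.Lib.WeightProj Cfsg.Agent.Lib.MinDegA Cfsg.Agent.Lib.MinDegB Cfsg.Agent.Lib.MinTD4E

variable {K : Type*} [Field K] [Fintype K] {q : ℕ} (hq : IsPrimePow q) (hK : Fintype.card K = q ^ 3)
  [Fintype (F0 hq hK)] {V : Type*} [AddCommGroup V] [Module ℂ V] [FiniteDimensional ℂ V]
  {ρ : Representation ℂ (Gh hq hK) V}

/-- the character of the trace -/
def mT (m : AddChar (F0 hq hK) ℂ) : AddChar K ℂ where
  toFun w := m (tr hq hK w)
  map_zero_eq_one' := by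
    have : tr hq hK (0 : K) = 0 := by
      apply Subtype.ext
      show (0 : K) + 0 ^ q + (0 ^ q) ^ q = 0
      rw [zero_pow hq.pos.ne', zero_pow hq.pos.ne']; ring
    rw [this, AddChar.map_zero_eq_one]
  map_add_eq_mul' a b := by rw [tr_add, AddChar.map_add_eq_mul]

theorem mT_apply (m : AddChar (F0 hq hK) ℂ) (w : K) : mT hq hK m w = m (tr hq hK w) := rfl

theorem mT_ne {m : AddChar (F0 hq hK) ℂ} (hm : m ≠ 1) : mT hq hK m ≠ 1 := by
  intro h
  apply hm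
  obtain ⟨t, ht⟩ := MinTD4B.exists_trace_ne (K := K) hq hK
  have ht' : tr hq hK t ≠ 0 := fun h0 => ht (congrArg Subtype.val h0)
  ext u
  have h1 := congrArg (fun ψ : AddChar K ℂ => ψ ((u / tr hq hK t : F0 hq hK) * t)) h
  simp only [mT_apply, tr_smul, AddChar.one_apply] at h1
  rw [div_mul_cancel₀ _ ht'] at h1
  rw [h1, AddChar.one_apply]

/-- the commutations -/
theorem k23_22 (m l : AddChar (F0 hq hK) ℂ) : E22 hq hK ρ m * E23 hq hK ρ l = E23 hq hK ρ l * E22 hq hK ρ m :=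
  comm_Er (fun t => (comm_Er (fun u => by rw [← map_mul, ← map_mul, (c22_23 hq hK u t).eq]) m).symm) l

theorem k23_14 (m l : AddChar (F0 hq hK) ℂ) : E14 hq hK ρ m * E23 hq hK ρ l = E23 hq hK ρ l * E14 hq hK ρ m :=
  comm_Er (fun t => (comm_Er (fun u => by rw [← map_mul, ← map_mul, (c14_23 hq hK u t).eq]) m).symm) l

theorem k2_22 (l : AddChar K ℂ) (m : AddChar (F0 hq hK) ℂ) : E2 hq hK ρ l * E22 hq hK ρ m = E22 hq hK ρ m * E2 hq hK ρ l :=
  comm_Er (fun t => (comm_Er (fun u => by rw [← map_mul, ← map_mul, (cY2_22 hq hK u t).eq]) l).symm) m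

theorem k2_23 (l : AddChar K ℂ) (m : AddChar (F0 hq hK) ℂ) : E2 hq hK ρ l * E23 hq hK ρ m = E23 hq hK ρ m * E2 hq hK ρ l :=
  comm_Er (fun t => (comm_Er (fun u => by rw [← map_mul, ← map_mul, (cY2_23 hq hK u t).eq]) l).symm) m

theorem kY22 (t : K) (m : AddChar (F0 hq hK) ℂ) : ρ (YY hq hK t) * E22 hq hK ρ m = E22 hq hK ρ m * ρ (YY hq hK t) :=
  comm_Er (fun u => by rw [← map_mul, ← map_mul, (cY22 hq hK t u).eq]) m

theorem kY23 (t : K) (m : AddChar (F0 hq hK) ℂ) : ρ (YY hq hK t) * E23 hq hK ρ m = E23 hq hK ρ m * ρ (YY hq hK t) :=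
  comm_Er (fun u => by rw [← map_mul, ← map_mul, (cY23 hq hK t u).eq]) m

/-- second division -/
theorem div2 {m : AddChar (F0 hq hK) ℂ} (hm : m ≠ 1) (l : AddChar K ℂ) :
    LinearMap.trace ℂ V (E22 hq hK ρ m * E23 hq hK ρ 1) =
      (q : ℂ) ^ 3 * LinearMap.trace ℂ V (E2 hq hK ρ l * E22 hq hK ρ m * E23 hq hK ρ 1) := by
  have key : ∀ l' : AddChar K ℂ, LinearMap.trace ℂ V (E2 hq hK ρ l' * E22 hq hK ρ m * E23 hq hK ρ 1) =
      LinearMap.trace ℂ V (E2 hq hK ρ l * E22 hq hK ρ m * E23 hq hK ρ 1) := by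
    intro l'
    obtain ⟨a, ha⟩ := mulShift_surj (mT_ne hq hK hm) (l'⁻¹ * l)
    refine trace_gen (g := YY hq hK ((-a) ^ q)) (X22_add hq hK) (β := fun w => tr hq hK ((((-a) ^ q) ^ q) ^ q * w))
      (fun w => rel4 hq hK _ w) (fun b => (cY22 hq hK _ b).eq) ?_ (kY23 hq hK _ 1)
    intro w
    have h1 : l (-w) = l' (-w) * (AddChar.mulShift (mT hq hK m) a) (-w) := by
      rw [ha, ← AddChar.mul_apply, mul_inv_cancel_left]
    rw [h1, AddChar.mulShift_apply, mT_apply, p3 hq hK]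
    congr 3
    ring
  have h1 : E22 hq hK ρ m * E23 hq hK ρ 1 = ∑ l' : AddChar K ℂ, E2 hq hK ρ l' * E22 hq hK ρ m * E23 hq hK ρ 1 := by
    rw [← Finset.sum_mul, ← Finset.sum_mul, sum_Er (YY2_add hq hK), one_mul]
  rw [h1, map_sum, Finset.sum_congr rfl (fun l' _ => key l'), Finset.sum_const, Finset.card_univ, AddChar.card_eq, hK,
    nsmul_eq_mul]
  push_cast
  ring

/-- `X14` commutes with the `X22`-weights on the fixed space of `X23` -/
theorem kX14 (u : F0 hq hK) (m : AddChar (F0 hq hK) ℂ) :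
    ρ (X14 hq hK u) * (E22 hq hK ρ m * E23 hq hK ρ 1) = E22 hq hK ρ m * E23 hq hK ρ 1 * ρ (X14 hq hK u) :=
  conj_gen (ρ := ρ) (X23_add hq hK) (β := fun v => u * v) (fun w => rel6 hq hK u w) (fun b => (c14_23 hq hK u b).eq)
    (fun w => by rw [AddChar.one_apply, mul_one])

/-- `Y1` commutes with the `Y2`-weights on the fixed space of `X23` -/
theorem kY1 (v : K) (l : AddChar K ℂ) :
    ρ (YY1 hq hK v) * (E2 hq hK ρ l * E23 hq hK ρ 1) = E2 hq hK ρ l * E23 hq hK ρ 1 * ρ (YY1 hq hK v) :=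
  conj_gen (ρ := ρ) (X23_add hq hK) (β := fun w => tr hq hK (v * w ^ q)) (fun w => rel3 hq hK v w)
    (fun b => (cY1_23 hq hK v b).eq) (fun w => by rw [AddChar.one_apply, mul_one])

/-- the projection -/
noncomputable abbrev PP (ρ : Representation ℂ (Gh hq hK) V) (m : AddChar (F0 hq hK) ℂ) : Module.End ℂ V :=
  E2 hq hK ρ 1 * (E22 hq hK ρ m * E23 hq hK ρ 1)

theorem W_idem (m : AddChar (F0 hq hK) ℂ) : (E22 hq hK ρ m * E23 hq hK ρ 1) * (E22 hq hK ρ m * E23 hq hK ρ 1) =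
    E22 hq hK ρ m * E23 hq hK ρ 1 :=
  MinDegC.idem_mul (Er_mul_self (X22_add hq hK) m) (Er_mul_self (X23_add hq hK) 1) (k23_22 hq hK m 1)

theorem k2_W (l : AddChar K ℂ) (m : AddChar (F0 hq hK) ℂ) : E2 hq hK ρ l * (E22 hq hK ρ m * E23 hq hK ρ 1) =
    (E22 hq hK ρ m * E23 hq hK ρ 1) * E2 hq hK ρ l := by
  rw [← mul_assoc, k2_22, mul_assoc, k2_23, ← mul_assoc]

theorem PP_idem (m : AddChar (F0 hq hK) ℂ) : PP hq hK ρ m * PP hq hK ρ m = PP hq hK ρ m :=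
  MinDegC.idem_mul (Er_mul_self (YY2_add hq hK) 1) (W_idem hq hK m) (k2_W hq hK 1 m)

/-- **the multiplicities divided by `q⁴`** -/
theorem exists_mu {d : ℕ} (hd : ∀ m : AddChar (F0 hq hK) ℂ, m ≠ 1 → LinearMap.trace ℂ V (E14 hq hK ρ m) = d ∧
    LinearMap.trace ℂ V (E22 hq hK ρ m) = d ∧ LinearMap.trace ℂ V (E23 hq hK ρ m) = d) :
    ∃ μ : ℕ, d = q ^ 4 * μ ∧ ∀ m : AddChar (F0 hq hK) ℂ, m ≠ 1 → LinearMap.trace ℂ V (PP hq hK ρ m) = μ := by
  have hq0 : (q : ℂ) ≠ 0 := by exact_mod_cast hq.pos.ne'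
  have h1 : ∀ m : AddChar (F0 hq hK) ℂ, m ≠ 1 → (d : ℂ) = (q : ℂ) ^ 4 * LinearMap.trace ℂ V (PP hq hK ρ m) := by
    intro m hm
    have e1 := div1 hq hK hd hm
    rw [div2 hq hK hm 1, mul_assoc (E2 hq hK ρ 1)] at e1
    rw [← e1]; ring
  obtain ⟨m0, hm0⟩ := MinDegJ.exists_char (F0 hq hK)
  obtain ⟨μ, hμ, -⟩ := trace_nat (PP_idem hq hK (ρ := ρ) m0)
  have h2 := h1 m0 hm0
  rw [hμ] at h2
  refine ⟨μ, by exact_mod_cast h2, fun m hm => ?_⟩
  have h3 := h1 m hm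
  rw [h2] at h3
  exact (mul_left_cancel₀ (pow_ne_zero 4 hq0) h3).symm

/-- the operator counting the weights trivial on `X14` and `X23` -/
theorem T0_ne {m : AddChar (F0 hq hK) ℂ} (hm : m ≠ 1) (h1 : LinearMap.trace ℂ V (PP hq hK ρ m) = 1) :
    E14 hq hK ρ 1 * (E22 hq hK ρ m * E23 hq hK ρ 1) ≠ 0 := by
  set P := PP hq hK ρ m with hP
  have hid := PP_idem hq hK (ρ := ρ) m
  have hWP : (E22 hq hK ρ m * E23 hq hK ρ 1) * P = P := by
    rw [hP]
    unfold PP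
    rw [← mul_assoc, ← k2_W, mul_assoc, W_idem]
  have h2P : E2 hq hK ρ 1 * P = P := by
    rw [hP]
    unfold PP
    rw [← mul_assoc, Er_mul_self (YY2_add hq hK)]
  have h22P : E22 hq hK ρ m * P = P := by
    calc E22 hq hK ρ m * P = E22 hq hK ρ m * ((E22 hq hK ρ m * E23 hq hK ρ 1) * P) := by rw [hWP]
      _ = (E22 hq hK ρ m * E22 hq hK ρ m) * E23 hq hK ρ 1 * P := by noncomm_ring
      _ = E22 hq hK ρ m * E23 hq hK ρ 1 * P := by rw [Er_mul_self (X22_add hq hK)]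
      _ = P := hWP
  have h23P : E23 hq hK ρ 1 * P = P := by
    calc E23 hq hK ρ 1 * P = E23 hq hK ρ 1 * ((E22 hq hK ρ m * E23 hq hK ρ 1) * P) := by rw [hWP]
      _ = (E23 hq hK ρ 1 * E23 hq hK ρ 1) * E22 hq hK ρ m * P := by rw [k23_22]; noncomm_ring
      _ = E23 hq hK ρ 1 * E22 hq hK ρ m * P := by rw [Er_mul_self (X23_add hq hK)]
      _ = P := by rw [← k23_22]; exact hWP
  -- commutations with P
  have c14 : ∀ u, ρ (X14 hq hK u) * P = P * ρ (X14 hq hK u) := by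
    intro u
    rw [hP]
    unfold PP
    have e : ρ (X14 hq hK u) * E2 hq hK ρ 1 = E2 hq hK ρ 1 * ρ (X14 hq hK u) :=
      comm_Er (fun t => by rw [← map_mul, ← map_mul, (cY2_14 hq hK t u).eq]) 1
    rw [← mul_assoc, e, mul_assoc, kX14, ← mul_assoc]
  have cY1 : ∀ v, ρ (YY1 hq hK v) * P = P * ρ (YY1 hq hK v) := by
    intro v
    rw [hP]
    unfold PP
    have e : ρ (YY1 hq hK v) * E22 hq hK ρ m = E22 hq hK ρ m * ρ (YY1 hq hK v) :=
      comm_Er (fun t => by rw [← map_mul, ← map_mul, (cY1_22 hq hK v t).eq]) m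
    have e2 : E2 hq hK ρ 1 * (E22 hq hK ρ m * E23 hq hK ρ 1) = E22 hq hK ρ m * (E2 hq hK ρ 1 * E23 hq hK ρ 1) := by
      rw [← mul_assoc, k2_22, mul_assoc]
    rw [e2, ← mul_assoc, e, mul_assoc, kY1, ← mul_assoc]
  obtain ⟨b, hb⟩ := char_of (X14_add hq hK) hid h1 c14
  obtain ⟨a, ha⟩ := char_of (YY1_add hq hK) hid h1 cY1
  obtain ⟨β, hβ⟩ := mulShift_surj hm b
  obtain ⟨α, hα⟩ := mulShift_surj (mT_ne hq hK hm) a
  obtain ⟨t, ht⟩ := MinTD4B.exists_zero (K := K) hq hK (β := (β : K)) (α := α) β.2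
  have ht' : β + tr hq hK (α * t) + nm hq hK t = 0 := Subtype.ext ht
  set g := YY hq hK t with hg
  set P' := ρ g * P * ρ g⁻¹ with hP'
  have hgg : ρ g⁻¹ * ρ g = 1 := by rw [← map_mul, inv_mul_cancel, map_one]
  -- `X14` fixes `P'`
  have hfix : ∀ u, ρ (X14 hq hK u) * P' = P' := by
    intro u
    have e1 : ρ (X14 hq hK u) * ρ g = ρ g * ρ (g⁻¹ * X14 hq hK u * g) := by
      rw [← map_mul, ← map_mul]; congr 1; group
    have e2 : ρ (g⁻¹ * X14 hq hK u * g) * P = P := by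
      rw [hg, rel5, map_mul, map_mul, map_mul, map_mul]
      have f23 : ρ (X23 hq hK (u * (u * nm hq hK t))) * P = P := by
        rw [← h23P, ← mul_assoc, mul_Er (X23_add hq hK), AddChar.one_apply, one_smul]
      have f22 : ρ (X22 hq hK (u * nm hq hK t)) * P = m (u * nm hq hK t) • P := by
        conv_lhs => rw [← h22P]
        rw [← mul_assoc, mul_Er (X22_add hq hK), smul_mul_assoc, h22P]
      have f2 : ρ (YY2 hq hK (-(u * (t * t ^ q)))) * P = P := by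
        conv_lhs => rw [← h2P]
        rw [← mul_assoc, mul_Er (YY2_add hq hK), AddChar.one_apply, one_smul, h2P]
      rw [mul_assoc, f23, mul_assoc, f22, mul_smul_comm, mul_assoc, f2, mul_assoc, ha, mul_smul_comm, hb, smul_smul, smul_smul]
      have e3 : m (u * nm hq hK t) * a (u * t) * b u = 1 := by
        rw [← hβ, ← hα, AddChar.mulShift_apply, AddChar.mulShift_apply, mT_apply, ← AddChar.map_add_eq_mul,
          ← AddChar.map_add_eq_mul]
        have e4 : α * ((u : K) * t) = u * (α * t) := by ring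
        rw [e4, tr_smul]
        have e5 : u * nm hq hK t + u * tr hq hK (α * t) + β * u = 0 := by linear_combination u * ht'
        rw [e5, AddChar.map_zero_eq_one]
      rw [e3, one_smul]
    rw [hP', ← mul_assoc, ← mul_assoc, e1, mul_assoc (ρ g), e2]
  have hWP' : (E22 hq hK ρ m * E23 hq hK ρ 1) * P' = P' := by
    have e1 : (E22 hq hK ρ m * E23 hq hK ρ 1) * ρ g = ρ g * (E22 hq hK ρ m * E23 hq hK ρ 1) := by
      rw [hg, mul_assoc, ← kY23, ← mul_assoc, ← kY22, mul_assoc]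
    rw [hP', ← mul_assoc, ← mul_assoc, e1, mul_assoc (ρ g), hWP]
  intro h0
  have h2 := Er_fix (X14_add hq hK) hfix
  rw [← hWP', ← mul_assoc] at h2
  have h3 : E14 hq hK ρ 1 * (E22 hq hK ρ m * E23 hq hK ρ 1) * P' = E22 hq hK ρ m * E23 hq hK ρ 1 * P' := h2
  rw [h0, zero_mul, hWP'] at h3
  have h4 : P = 0 := by
    calc P = (ρ g⁻¹ * ρ g) * P * (ρ g⁻¹ * ρ g) := by rw [hgg, one_mul, mul_one]
      _ = ρ g⁻¹ * P' * ρ g := by rw [hP']; noncomm_ring
      _ = 0 := by rw [← h3, mul_zero, zero_mul]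
  rw [h4, map_zero] at h1
  exact zero_ne_one h1

end Cfsg.Agent.Lib.MinTD4F
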