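import Cfsg.Agent.Lib.MinTD4F
import Cfsg.Agent.Lib.MinDegN
import Cfsg.Agent.S1067
import Cfsg.Agent.S1071

/-!
The minimal degree of the groups 3D4(q) (helper18).
-/

set_option autoImplicit false
set_option linter.unusedSectionVars false

namespace Cfsg.Agent.Lib.MinTD4G

open Cfsg.Lie Cfsg.Agent.Lib.ChevGood Cfsg.Agent.Lib.ChevRel Cfsg.Agent.Lib.ChevX Cfsg.Agent.Lib.UCEPair
open Cfsg.Agent.Lib.UCEBase Cfsg.Agent.Lib.UCESys Cfsg.Agent.Lib.UCELift Cfsg.Agent.Lib.UCESymbol Cfsg.Agent.Lib.UCETrip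
open Cfsg.Agent.Lib.TwFix Cfsg.Agent.Lib.TwTab Cfsg.Agent.Lib.MinTD4A Cfsg.Agent.Lib.MinTD4C Cfsg.Agent.Lib.MinTD4D
open Cfsg.Agent.Lib.WeightProj Cfsg.Agent.Lib.MinDegA Cfsg.Agent.Lib.MinDegB Cfsg.Agent.Lib.MinTD4E Cfsg.Agent.Lib.MinTD4F

section

variable {K : Type*} [Field K] [Fintype K] {q : ℕ} (hq : IsPrimePow q) (hK : Fintype.card K = q ^ 3)
  [Fintype (F0 hq hK)] {V : Type*} [AddCommGroup V] [Module ℂ V] [FiniteDimensional ℂ V]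
  {ρ : Representation ℂ (Gh hq hK) V}

theorem k14_W (l m : AddChar (F0 hq hK) ℂ) : E14 hq hK ρ l * (E22 hq hK ρ m * E23 hq hK ρ 1) =
    (E22 hq hK ρ m * E23 hq hK ρ 1) * E14 hq hK ρ l :=
  (comm_Er (fun u => (kX14 hq hK u m).symm) l).symm

theorem n00_ge (h1 : ∀ m : AddChar (F0 hq hK) ℂ, m ≠ 1 → LinearMap.trace ℂ V (PP hq hK ρ m) = 1) :
    ∃ n : ℕ, LinearMap.trace ℂ V (E14 hq hK ρ 1 * E23 hq hK ρ 1) = n ∧ q - 1 ≤ n := by
  classical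
  have hid : ∀ m : AddChar (F0 hq hK) ℂ, (E14 hq hK ρ 1 * (E22 hq hK ρ m * E23 hq hK ρ 1)) *
      (E14 hq hK ρ 1 * (E22 hq hK ρ m * E23 hq hK ρ 1)) = E14 hq hK ρ 1 * (E22 hq hK ρ m * E23 hq hK ρ 1) := fun m =>
    MinDegC.idem_mul (Er_mul_self (X14_add hq hK) 1) (W_idem hq hK m) (k14_W hq hK 1 m)
  choose k hk hk0 using fun m => trace_nat (hid m)
  refine ⟨∑ m, k m, ?_, ?_⟩
  · have e : E14 hq hK ρ 1 * E23 hq hK ρ 1 = ∑ m : AddChar (F0 hq hK) ℂ, E14 hq hK ρ 1 * (E22 hq hK ρ m * E23 hq hK ρ 1) := by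
      rw [← Finset.mul_sum, ← Finset.sum_mul, sum_Er (X22_add hq hK), one_mul]
    rw [e, map_sum, Nat.cast_sum]
    exact Finset.sum_congr rfl (fun m _ => hk m)
  · have h2 : ∀ m ∈ Finset.univ.erase (1 : AddChar (F0 hq hK) ℂ), 1 ≤ k m := by
      intro m hm
      by_contra h3
      exact T0_ne hq hK (Finset.ne_of_mem_erase hm) (h1 m (Finset.ne_of_mem_erase hm)) (hk0 m (by omega))
    have h3 := Finset.sum_le_sum h2
    rw [Finset.sum_const, smul_eq_mul, mul_one, Finset.card_erase_of_mem (Finset.mem_univ _), Finset.card_univ,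
      AddChar.card_eq, card_F] at h3
    exact h3.trans (Finset.sum_le_sum_of_subset (Finset.erase_subset _ _))

/-- the alternative -/
theorem alt (hnt : ∃ u, ρ (X14 hq hK u) ≠ 1) :
    2 * ((q - 1) * (q + 1)) * q ^ 3 ≤ Module.finrank ℂ V ∨
      ∃ n : ℕ, q - 1 ≤ n ∧ Module.finrank ℂ V = n + (q - 1) * (q + 1) * q ^ 3 := by
  have hq0 : (q : ℂ) ≠ 0 := by exact_mod_cast hq.pos.ne'
  obtain ⟨d, hd⟩ := exists_d hq hK ρ
  obtain ⟨μ, hμ, hμ'⟩ := exists_mu hq hK hd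
  have hdim := dimf hq hK hd
  have hid : (E14 hq hK ρ 1 * E23 hq hK ρ 1) * (E14 hq hK ρ 1 * E23 hq hK ρ 1) = E14 hq hK ρ 1 * E23 hq hK ρ 1 :=
    MinDegC.idem_mul (Er_mul_self (X14_add hq hK) 1) (Er_mul_self (X23_add hq hK) 1) (k23_14 hq hK 1 1)
  have hfin : ∀ n : ℕ, LinearMap.trace ℂ V (E14 hq hK ρ 1 * E23 hq hK ρ 1) = n →
      Module.finrank ℂ V = n + (q - 1) * (q + 1) * q ^ 3 * μ := by
    intro n hn
    rw [hn, hμ] at hdim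
    have h4 : (q : ℂ) - 1 = ((q - 1 : ℕ) : ℂ) := by rw [Nat.cast_sub hq.pos, Nat.cast_one]
    rw [h4] at hdim
    have h5 : q * Module.finrank ℂ V = q * (n + (q - 1) * (q + 1) * q ^ 3 * μ) := by
      have : (q : ℂ) * Module.finrank ℂ V = q * (n + ((q - 1 : ℕ) : ℂ) * (q + 1) * q ^ 3 * μ) := by
        rw [hdim]; push_cast; ring
      exact_mod_cast this
    exact Nat.eq_of_mul_eq_mul_left hq.pos h5
  rcases Nat.lt_or_ge μ 2 with h2 | h2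
  · have h3 : μ = 0 ∨ μ = 1 := by omega
    rcases h3 with rfl | rfl
    · exfalso
      obtain ⟨u, hu⟩ := hnt
      apply hu
      rw [mul_zero] at hμ
      have := fix_of_Er_zero (ρ := ρ) (X14_add hq hK) (A := 1) (by
        intro l hl
        rw [mul_one]
        apply eq_zero_of_trace (Er_mul_self (X14_add hq hK) l)
        have := (hd l hl).1
        rw [hμ, Nat.cast_zero] at this
        exact this) u
      rwa [mul_one] at this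
    · right
      obtain ⟨n, hn, hn'⟩ := n00_ge hq hK (ρ := ρ) (fun m hm => by rw [hμ' m hm, Nat.cast_one])
      have := hfin n hn
      rw [mul_one] at this
      exact ⟨n, hn', this⟩
  · left
    obtain ⟨n, hn, -⟩ := trace_nat hid
    rw [hfin n hn]
    calc 2 * ((q - 1) * (q + 1)) * q ^ 3 = (q - 1) * (q + 1) * q ^ 3 * 2 := by ring
      _ ≤ (q - 1) * (q + 1) * q ^ 3 * μ := Nat.mul_le_mul_left _ h2
      _ ≤ _ := Nat.le_add_left _ _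

end

theorem posA (y : ℕ) : (0 : ℤ) < 3 * ((y : ℤ) + 2) ^ 4 - 3 * ((y : ℤ) + 2) ^ 3 - 2 * ((y : ℤ) + 2) ^ 2 +
    4 * ((y : ℤ) + 2) - 2 := by
  have : 3 * ((y : ℤ) + 2) ^ 4 - 3 * ((y : ℤ) + 2) ^ 3 - 2 * ((y : ℤ) + 2) ^ 2 +
    4 * ((y : ℤ) + 2) - 2 = 3 * y ^ 4 + 21 * y ^ 3 + 52 * y ^ 2 + 56 * y ^ 1 + 22 := by ring
  rw [this]
  positivity

theorem posB (y : ℕ) : (0 : ℤ) < (((y : ℤ) + 2) ^ 5 - ((y : ℤ) + 2) ^ 3 + ((y : ℤ) + 2) - 1) -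
    (3 * ((y : ℤ) + 2) ^ 4 - 3 * ((y : ℤ) + 2) ^ 3 - 2 * ((y : ℤ) + 2) ^ 2 + 4 * ((y : ℤ) + 2) - 2) := by
  have : (((y : ℤ) + 2) ^ 5 - ((y : ℤ) + 2) ^ 3 + ((y : ℤ) + 2) - 1) -
    (3 * ((y : ℤ) + 2) ^ 4 - 3 * ((y : ℤ) + 2) ^ 3 - 2 * ((y : ℤ) + 2) ^ 2 + 4 * ((y : ℤ) + 2) - 2) = 1 * y ^ 5 + 7 * y ^ 4 + 18 * y ^ 3 + 22 * y ^ 2 + 13 * y ^ 1 + 3 := by ring
  rw [this]
  positivity

theorem ndvd (q k : ℕ) (hq : 2 ≤ q) (hk : k + q ^ 3 + 1 = q ^ 5 + q)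
    (h : k ∣ q ^ 12 * (q ^ 2 - 1) * (q ^ 6 - 1) * (q ^ 8 + q ^ 4 + 1)) : False := by
  have h1 : ∀ d, 1 ≤ q ^ d := fun d => Nat.one_le_pow _ _ (by omega)
  have hkz : (k : ℤ) = (q : ℤ) ^ 5 - q ^ 3 + q - 1 := by
    have : ((k + q ^ 3 + 1 : ℕ) : ℤ) = ((q ^ 5 + q : ℕ) : ℤ) := by rw [hk]
    push_cast at this
    linarith
  have hz : (k : ℤ) ∣ ((q ^ 12 * (q ^ 2 - 1) * (q ^ 6 - 1) * (q ^ 8 + q ^ 4 + 1) : ℕ) : ℤ) := Int.natCast_dvd_natCast.mpr h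
  rw [Nat.cast_mul, Nat.cast_mul, Nat.cast_mul, Nat.cast_sub (h1 _), Nat.cast_sub (h1 _)] at hz
  push_cast at hz
  have hcop : IsCoprime (k : ℤ) ((q : ℤ) ^ 12) := by
    apply IsCoprime.pow_right
    refine ⟨-1, (q : ℤ) ^ 4 - q ^ 2 + 1, ?_⟩
    rw [hkz]; ring
  have hz2 : (k : ℤ) ∣ ((q : ℤ) ^ 2 - 1) * (q ^ 6 - 1) * (q ^ 8 + q ^ 4 + 1) := by
    apply hcop.dvd_of_dvd_mul_left
    have e : (q : ℤ) ^ 12 * (((q : ℤ) ^ 2 - 1) * (q ^ 6 - 1) * (q ^ 8 + q ^ 4 + 1)) =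
        q ^ 12 * (q ^ 2 - 1) * (q ^ 6 - 1) * (q ^ 8 + q ^ 4 + 1) := by ring
    rw [e]
    exact hz
  have hid : ((q : ℤ) ^ 2 - 1) * (q ^ 6 - 1) * (q ^ 8 + q ^ 4 + 1) =
      k * ((q : ℤ) ^ 11 + q ^ 6 - 2 * q ^ 5 + q ^ 4 + q - 3) + (3 * q ^ 4 - 3 * q ^ 3 - 2 * q ^ 2 + 4 * q - 2) := by
    rw [hkz]; ring
  rw [hid] at hz2
  have hz3 := (Int.dvd_add_right (Dvd.intro _ rfl)).mp hz2
  obtain ⟨y, hy⟩ := Nat.exists_eq_add_of_le' hq
  have hyz : (q : ℤ) = (y : ℤ) + 2 := by rw [hy]; push_cast; ring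
  rw [hyz] at hz3 hkz
  have hle := Int.le_of_dvd (posA y) hz3
  rw [hkz] at hle
  linarith [posB y]

/-- **the minimal degree of 3D4(q)** -/
theorem main {K : Type*} [Field K] [Fintype K] (q : ℕ) (hq : IsPrimePow q) (hK : Fintype.card K = q ^ 3) (k : ℕ)
    (ρ : Representation ℂ (twistedD4 K q) (Fin k → ℂ)) (hρ : ρ.IsIrreducible) (hk : 2 ≤ k) :
    q * (q ^ 4 - q ^ 2 + 1) ≤ k := by
  classical
  haveI : Fintype (F0 hq hK) := Fintype.ofFinite _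
  have hq2 : 2 ≤ q := hq.two_le
  obtain ⟨hsimple, -⟩ := Cfsg.Agent.S1071.result (K := K) hq hK
  obtain ⟨g, hg⟩ := MinDegN.nontriv_of_two hρ (by rw [Module.finrank_fin_fun]; exact hk)
  have hker : MonoidHom.ker ρ = ⊥ := by
    rcases hsimple.eq_bot_or_eq_top_of_normal (MonoidHom.ker ρ) inferInstance with h | h
    · exact h
    · exfalso
      apply hg
      have : g ∈ MonoidHom.ker ρ := by rw [h]; exact Subgroup.mem_top g
      exact this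
  have hnt : ∃ u, (ρ.comp (iota hq hK)) (X14 hq hK u) ≠ 1 := by
    refine ⟨1, fun h => ?_⟩
    have h1 : iota hq hK (X14 hq hK 1) ∈ MonoidHom.ker ρ := h
    rw [hker, Subgroup.mem_bot] at h1
    have h2 : ((X14 hq hK 1 : Gh hq hK) : chevD4.group K) = 1 :=
      Subtype.ext (congrArg (fun z => ((z : twistedD4 K q) : GL chevD4.Idx K)) h1)
    have h3 : (R K).x 14 (1 : K) = (R K).x 14 (0 : K) := by
      have e : (R K).x 14 (0 : K) = 1 := one_of (fun t u => xadd (K := K) (by decide) t u)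
      rw [e]; exact h2
    exact one_ne_zero (stdSys_inj _ K (by decide) _ _ h3)
  have halt := alt hq hK (ρ := ρ.comp (iota hq hK)) hnt
  rw [Module.finrank_fin_fun] at halt
  obtain ⟨y, rfl⟩ := Nat.exists_eq_add_of_le' hq2
  have e1 : y + 2 - 1 = y + 1 := rfl
  have e2 : (y + 2) ^ 4 - (y + 2) ^ 2 = (y + 1) * (y + 3) * (y + 2) ^ 2 := by
    apply Nat.sub_eq_of_eq_add
    ring
  rw [e1] at halt
  rw [e2]
  rcases halt with h | ⟨n, hn, hn'⟩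
  · refine le_trans ?_ h
    have : (0 : ℤ) ≤ ((2 * ((y + 1) * (y + 2 + 1)) * (y + 2) ^ 3 : ℕ) : ℤ) -
        (((y + 2) * ((y + 1) * (y + 3) * (y + 2) ^ 2 + 1) : ℕ) : ℤ) := by
      push_cast
      ring_nf
      positivity
    exact_mod_cast sub_nonneg.mp this
  · by_contra hcon
    have h3 : n = y + 1 := by
      have e3 : (y + 2) * ((y + 1) * (y + 3) * (y + 2) ^ 2 + 1) = (y + 1) * (y + 2 + 1) * (y + 2) ^ 3 + (y + 2) := by ring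
      omega
    have h4 := CharCentral.finrank_dvd_card ρ
    rw [Module.finrank_fin_fun, Cfsg.Agent.S1067.result hq hK] at h4
    refine ndvd (y + 2) k hq2 ?_ h4
    rw [hn', h3]
    ring

end Cfsg.Agent.Lib.MinTD4G
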