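import Cfsg.Agent.Lib.MinTE6A
import Cfsg.Agent.Lib.TwField

/-!
Root elements of the groups 2E6(q): the endomorphism, its fixed points, the fixed field (helper18).
-/

set_option autoImplicit false
set_option linter.unusedSectionVars false

namespace Cfsg.Agent.Lib.MinTE6B

open Cfsg.Lie Cfsg.Agent.Lib.ChevGood Cfsg.Agent.Lib.ChevRel Cfsg.Agent.Lib.ChevX Cfsg.Agent.Lib.UCEPair
open Cfsg.Agent.Lib.UCEBase Cfsg.Agent.Lib.UCESys Cfsg.Agent.Lib.UCELift Cfsg.Agent.Lib.UCESymbol Cfsg.Agent.Lib.UCETrip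
open Cfsg.Agent.Lib.TwFix Cfsg.Agent.Lib.TwTab Cfsg.Agent.Lib.MinTE6A

section free

variable {K : Type*} [Field K]

/-- the root elements of `E6(K)` -/
noncomputable abbrev R (K : Type*) [Field K] : RSys chevE6 K (chevE6.group K) := stdSys G K

/-- root elements -/
noncomputable abbrev x (r : ℕ) (t : K) : chevE6.group K := (R K).x r t

theorem n72 : chevE6.nroots = 72 := by decide +kernel

theorem lt72 {r : ℕ} (hr : r < 72) : r < chevE6.nroots := by rw [n72]; exact hr

theorem xadd {r : ℕ} (hr : r < 72) (t u : K) : x r t * x r u = x r (t + u) := (R K).add r (lt72 hr) t u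

theorem xzero {r : ℕ} (hr : r < 72) : x r (0 : K) = 1 := by
  have := xadd (K := K) hr 0 0
  rw [add_zero] at this
  exact mul_eq_left.mp this

theorem xinv {r : ℕ} (hr : r < 72) (t : K) : (x r t)⁻¹ = x r (-t) := by
  rw [inv_eq_iff_mul_eq_one, xadd hr, add_neg_cancel, xzero hr]

theorem xcc {a b : ℕ} (ha : a < 72) (hb : b < 72) (h : sm a b = 0) (h' : a + b ≠ 71) (t u : K) :
    Commute (x a t) (x b u) :=
  CC_comm G pairOK_E6 (R K) (a := ⟨a, lt72 ha⟩) (b := ⟨b, lt72 hb⟩) (t_pr a ha b hb h h') t u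

theorem aa {a b : ℕ} (ha : a < 72) (hb : b < 72) (h : sm a b ≠ 0) :
    AA chevE6 K ⟨a, lt72 ha⟩ ⟨b, lt72 hb⟩ ⟨sm a b - 1, lt72 (t_ch a ha b hb h).2⟩ (nn a b : K) :=
  ⟨-nn a b, (t_ch a ha b hb h).1, by push_cast; ring⟩

theorem xcj {a b : ℕ} (ha : a < 72) (hb : b < 72) (h : sm a b ≠ 0) (t u : K) :
    x a t * x b u * (x a t)⁻¹ = x b u * x (sm a b - 1) (nn a b * t * u) := by
  have hA := aa (K := K) ha hb h
  have h1 := AA_cm G pairOK_E6 (R K) hA (-t) (-u)
  have h2 : (nn a b : K) * -t * -u = nn a b * t * u := by ring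
  rw [h2] at h1
  change cm (x a (-t)) (x b (-u)) = x (sm a b - 1) (nn a b * t * u) at h1
  unfold cm at h1
  rw [xinv ha, xinv hb, neg_neg, neg_neg] at h1
  have h3 : x b u * x (sm a b - 1) (nn a b * t * u) = x (sm a b - 1) (nn a b * t * u) * x b u := by
    apply CC_comm G pairOK_E6 (R K) (a := ⟨b, lt72 hb⟩) (b := ⟨sm a b - 1, lt72 (t_ch a ha b hb h).2⟩)
    have := (AA_pr G pairOK_E6 hA).2.2.1
    unfold CC; omega
  rw [h3, ← h1, xinv ha]
  have h4 : x b (-u) * x b u = 1 := by rw [← xinv hb, inv_mul_cancel]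
  have h5 : x a t * x b u * x a (-t) * x b (-u) * x b u = x a t * x b u * x a (-t) * (x b (-u) * x b u) := by
    group
  rw [h5, h4, mul_one]

end free

/-! ### the endomorphism -/

section sigma

variable {K : Type*} [Field K] [Fintype K] {q : ℕ} (hq : IsPrimePow q) (hK : Fintype.card K = q ^ 2)

theorem R_X {r : ℕ} (hr : r < chevE6.nroots) (t : K) : x r t = X G K r t := by
  apply Subtype.ext
  rw [stdSys_coe G K hr]
  rfl

/-- the endomorphism -/
noncomputable def sg : chevE6.group K →* chevE6.group K := (TwE6.sig hq hK).σ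

include hq hK in
theorem npow (t : K) : (-t) ^ q = -(t ^ q) := by
  rw [← TwE6.frob_eq hq hK, ← TwE6.frob_eq hq hK, map_neg]

include hq hK in
theorem apow (t u : K) : (t + u) ^ q = t ^ q + u ^ q := by
  rw [← TwE6.frob_eq hq hK, ← TwE6.frob_eq hq hK, ← TwE6.frob_eq hq hK, map_add]

include hK in
theorem p2 (t : K) : (t ^ q) ^ q = t := by
  have := TwField.pow_pow_card hK t
  rw [← pow_mul, ← pow_two]
  exact this

/-- the action of the endomorphism on the root `s` -/
def Sg (s : ℕ) : Prop := ∀ t : K, sg hq hK (x s t) = x (rho s) ((eps s : K) * t ^ q)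

theorem sg_sim (i : ℕ) (hi : i < 6) : Sg hq hK (chevE6.simple i) ∧ Sg hq hK (71 - chevE6.simple i) := by
  obtain ⟨h1, h2, h3, h4, h5, h6⟩ := t_sim i hi
  constructor
  · intro t
    have h := (TwE6.sig hq hK).σp i hi t
    rw [R_X (lt72 h1), R_X (lt72 (t_rho _ h1).1), h5, Int.cast_one, one_mul, ← h2]
    exact h
  · intro t
    have h := (TwE6.sig hq hK).σm i hi t
    have h7 : 71 - chevE6.simple i < 72 := by omega
    rw [R_X (lt72 h7), R_X (lt72 (t_rho _ h7).1), h6, Int.cast_one, one_mul, ← h4, ← h3]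
    exact h

/-- the image of a sum -/
theorem sg_add {a b k : ℕ} (ha : a < 72) (hb : b < 72) (hk : sm a b = k + 1) (h1 : Sg hq hK a) (h2 : Sg hq hK b) :
    Sg hq hK k := by
  intro t
  have h0 : sm a b ≠ 0 := by omega
  have hk' : sm a b - 1 = k := by omega
  have e1 := xcj (K := K) ha hb h0 ((nn a b : K) * t) 1
  obtain ⟨h3, h4⟩ := t_sgn a ha b hb h0
  have h0' : sm (rho a) (rho b) ≠ 0 := by omega
  have e2 := xcj (K := K) (t_rho a ha).1 (t_rho b hb).1 h0' ((eps a : K) * ((nn a b : K) * t) ^ q) ((eps b : K) * 1 ^ q)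
  rw [h3, hk', Nat.add_sub_cancel] at e2
  rw [hk'] at e1 h4
  have e3 : (nn a b : K) * ((nn a b : K) * t) * 1 = t := by
    rcases nn_sq a b with h | h <;> rw [h] <;> push_cast <;> ring
  rw [e3] at e1
  have e4 : x k t = (x b 1)⁻¹ * (x a ((nn a b : K) * t) * x b 1 * (x a ((nn a b : K) * t))⁻¹) := by rw [e1]; group
  rw [e4, map_mul, map_mul, map_mul, map_inv, map_inv, h1, h2, e2, inv_mul_cancel_left]
  congr 1
  have e5 : ((nn a b : K) * t) ^ q = nn a b * t ^ q := by
    rcases nn_sq a b with h | h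
    · rw [h, Int.cast_one, one_mul, one_mul]
    · rw [h, Int.cast_neg, Int.cast_one, neg_one_mul, npow hq hK, neg_one_mul]
  rw [e5, one_pow]
  have e6 : (((nn (rho a) (rho b) * eps a * eps b : ℤ)) : K) = ((nn a b * eps k : ℤ) : K) := by rw [h4]
  push_cast at e6
  have e7 : (nn a b : K) * nn a b = 1 := by
    rcases nn_sq a b with h | h <;> rw [h] <;> push_cast <;> ring
  linear_combination (nn a b : K) * t ^ q * e6 + (eps k : K) * t ^ q * e7

/-- check of a list of sums -/
def chkF : List (ℕ × ℕ × ℕ) → List ℕ → List ℕ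
  | [], kn => kn
  | t :: l, kn => if kn.elem t.1 && kn.elem t.2.1 && Nat.blt t.1 72 && Nat.blt t.2.1 72 && (sm t.1 t.2.1 == t.2.2 + 1) then
      chkF l (t.2.2 :: kn) else []

theorem chkF_sound (l : List (ℕ × ℕ × ℕ)) : ∀ (kn : List ℕ), (∀ s ∈ kn, Sg hq hK s) → ∀ s ∈ chkF l kn, Sg hq hK s := by
  induction l with
  | nil => intro kn h; exact h
  | cons t l ih =>
    intro kn h
    unfold chkF
    split_ifs with hc
    · apply ih
      simp only [Bool.and_eq_true, List.elem_eq_mem, decide_eq_true_eq, beq_iff_eq, Nat.blt_eq] at hc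
      obtain ⟨⟨⟨⟨h1, h2⟩, h3⟩, h4⟩, h5⟩ := hc
      intro s hs
      rcases List.mem_cons.mp hs with rfl | hs
      · exact sg_add hq hK h3 h4 h5 (h _ h1) (h _ h2)
      · exact h s hs
    · intro s hs; exact absurd hs List.not_mem_nil

theorem all_mem : ∀ s < 72, s ∈ chkF foldL ((List.range 6).map chevE6.simple ++ (List.range 6).map fun i => 71 - chevE6.simple i) := by
  decide +kernel

theorem sgx {s : ℕ} (hs : s < 72) (t : K) : sg hq hK (x s t) = x (rho s) ((eps s : K) * t ^ q) := by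
  refine chkF_sound hq hK _ _ ?_ s (all_mem s hs) t
  intro s hs
  rcases List.mem_append.mp hs with h | h
  · obtain ⟨i, hi, rfl⟩ := List.mem_map.mp h
    exact (sg_sim hq hK i (List.mem_range.mp hi)).1
  · obtain ⟨i, hi, rfl⟩ := List.mem_map.mp h
    exact (sg_sim hq hK i (List.mem_range.mp hi)).2

/-! ### fixed points -/

/-- the fixed points of the endomorphism -/
noncomputable def Gh : Subgroup (chevE6.group K) := (sg hq hK).eqLocus (MonoidHom.id _)

theorem mem_Gh {g : chevE6.group K} : g ∈ Gh hq hK ↔ sg hq hK g = g := Iff.rfl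

theorem mem_tw {g : chevE6.group K} (h : g ∈ Gh hq hK) : (g : GL chevE6.Idx K) ∈ twistedE6 K q := by
  rw [TwE6.twisted_eq (TwField.pow_pow_card hK)]
  rw [(TwE6.all hq hK).mem_iff_fix]
  refine ⟨g.2, ?_⟩
  rw [(TwE6.T hq hK).s_eq g.2]
  exact congrArg Subtype.val h

/-- the homomorphism to the twisted group -/
noncomputable def iota : Gh hq hK →* twistedE6 K q where
  toFun g := ⟨(g : chevE6.group K), mem_tw hq hK g.2⟩
  map_one' := rfl
  map_mul' _ _ := rfl

/-- the fixed field -/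
def F0 : Subfield K where
  carrier := {t | t ^ q = t}
  mul_mem' := by
    intro a b ha hb
    show (a * b) ^ q = a * b
    rw [mul_pow, show a ^ q = a from ha, show b ^ q = b from hb]
  one_mem' := one_pow q
  add_mem' := by
    intro a b ha hb
    show (a + b) ^ q = a + b
    rw [apow hq hK, show a ^ q = a from ha, show b ^ q = b from hb]
  zero_mem' := zero_pow hq.pos.ne'
  neg_mem' := by
    intro a ha
    show (-a) ^ q = -a
    rw [npow hq hK, show a ^ q = a from ha]
  inv_mem' := by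
    intro a ha
    show (a⁻¹) ^ q = a⁻¹
    rw [inv_pow, show a ^ q = a from ha]

theorem F0_pow (u : F0 hq hK) : (u : K) ^ q = u := u.2

theorem card_F0 : Nat.card (F0 hq hK) = q := TwField.card_fix hq.pos (by norm_num) hK

/-- trace -/
def tr (t : K) : F0 hq hK := ⟨t + t ^ q, by
  show (t + t ^ q) ^ q = _
  rw [apow hq hK, p2 hK]; ring⟩

/-- norm -/
def nm (t : K) : F0 hq hK := ⟨t * t ^ q, by
  show (t * t ^ q) ^ q = _
  rw [mul_pow, p2 hK]; ring⟩

theorem tr_add (t u : K) : tr hq hK (t + u) = tr hq hK t + tr hq hK u := by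
  apply Subtype.ext
  show t + u + (t + u) ^ q = t + t ^ q + (u + u ^ q)
  rw [apow hq hK]; ring

theorem tr_smul (c : F0 hq hK) (t : K) : tr hq hK (c * t) = c * tr hq hK t := by
  apply Subtype.ext
  show (c : K) * t + ((c : K) * t) ^ q = c * (t + t ^ q)
  rw [mul_pow, F0_pow hq hK]; ring

open Polynomial in
include hq hK in
/-- the trace is not zero -/
theorem exists_trace_ne : ∃ t : K, t + t ^ q ≠ 0 := by
  classical
  have h2 : 2 ≤ q := hq.two_le
  by_contra hcon
  push Not at hcon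
  let P : K[X] := Polynomial.X ^ q + Polynomial.X
  have hd : (Polynomial.X : K[X]).degree < (q : ℕ) := by
    rw [degree_X]
    exact_mod_cast (by omega : 1 < q)
  have hL : P.Monic := monic_X_pow_add hd
  have hLd : P.natDegree = q := by
    have h3 : P.degree = (q : ℕ) := by
      show (Polynomial.X ^ q + Polynomial.X : K[X]).degree = _
      rw [degree_add_eq_left_of_degree_lt (by rw [degree_X_pow]; exact hd), degree_X_pow]
    exact natDegree_eq_of_degree_eq_some h3
  have h0 : ∀ t ∈ (Finset.univ : Finset K), P.IsRoot t := by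
    intro t _
    show (Polynomial.X ^ q + Polynomial.X : K[X]).eval t = 0
    simp only [eval_add, eval_pow, eval_X]
    have := hcon t
    linear_combination this
  have h3 := Polynomial.card_le_degree_of_subset_roots (p := P) (Z := Finset.univ) (by
    intro t _
    rw [mem_roots hL.ne_zero]
    exact h0 t (Finset.mem_univ _))
  rw [Finset.card_univ, hK, hLd] at h3
  have : q < q ^ 2 := by nlinarith
  omega

theorem tr_surj (w : F0 hq hK) : ∃ t : K, tr hq hK t = w := by
  obtain ⟨t, ht⟩ := exists_trace_ne (K := K) hq hK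
  have ht' : tr hq hK t ≠ 0 := fun h0 => ht (congrArg Subtype.val h0)
  refine ⟨((w / tr hq hK t : F0 hq hK) : K) * t, ?_⟩
  rw [tr_smul, div_mul_cancel₀ _ ht']

/-! ### the fixed root elements -/

theorem L_mem {r : ℕ} (hr : r < 72) (h : rho r = r) (t : F0 hq hK) : x r (t : K) ∈ Gh hq hK := by
  rw [mem_Gh, sgx hq hK hr, h, (t_rho r hr).2.2.2.2.1 h, Int.cast_one, one_mul, F0_pow]

open Classical in
/-- the long root elements -/
noncomputable def L (r : ℕ) (t : F0 hq hK) : Gh hq hK := if h : x r (t : K) ∈ Gh hq hK then ⟨_, h⟩ else 1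

theorem L_val {r : ℕ} (hr : r < 72) (h : rho r = r) (t : F0 hq hK) : (L hq hK r t : chevE6.group K) = x r (t : K) := by
  unfold L
  rw [dif_pos (L_mem hq hK hr h t)]

theorem t_opp : ∀ s < 72, rho s ≠ s → sm s (rho s) = 0 ∧ s + rho s ≠ 71 ∧ sm (rho s) s = 0 := by
  decide +kernel

include hq hK in
theorem eps_pow {s : ℕ} (hs : s < 72) (t : K) : ((eps s : K) * t) ^ q = eps s * t ^ q := by
  rcases (t_rho s hs).2.2.2.1 with h | h
  · rw [h, Int.cast_one, one_mul, one_mul]
  · rw [h, Int.cast_neg, Int.cast_one, neg_one_mul, npow hq hK, neg_one_mul]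

theorem eps_eps {s : ℕ} (hs : s < 72) : (eps s : K) * eps s = 1 := by
  rcases (t_rho s hs).2.2.2.1 with h | h <;> rw [h] <;> push_cast <;> ring

theorem Y_mem {s : ℕ} (hs : s < 72) (h : rho s ≠ s) (t : K) : x s t * x (rho s) ((eps s : K) * t ^ q) ∈ Gh hq hK := by
  rw [mem_Gh, map_mul, sgx hq hK hs, sgx hq hK (t_rho s hs).1, (t_rho s hs).2.1, (t_rho s hs).2.2.1, eps_pow hq hK hs,
    p2 hK, ← mul_assoc, eps_eps hs, one_mul]
  exact (xcc (t_rho s hs).1 hs (t_opp s hs h).2.2 (by have := (t_opp s hs h).2.1; omega) _ _).eq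

open Classical in
/-- the short root elements -/
noncomputable def Y (s : ℕ) (t : K) : Gh hq hK :=
  if h : x s t * x (rho s) ((eps s : K) * t ^ q) ∈ Gh hq hK then ⟨_, h⟩ else 1

theorem Y_val {s : ℕ} (hs : s < 72) (h : rho s ≠ s) (t : K) :
    (Y hq hK s t : chevE6.group K) = x s t * x (rho s) ((eps s : K) * t ^ q) := by
  unfold Y
  rw [dif_pos (Y_mem hq hK hs h t)]

theorem L_add {r : ℕ} (hr : r < 72) (h : rho r = r) (t u : F0 hq hK) : L hq hK r t * L hq hK r u = L hq hK r (t + u) := by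
  apply Subtype.ext
  show (L hq hK r t : chevE6.group K) * (L hq hK r u : chevE6.group K) = _
  rw [L_val hq hK hr h, L_val hq hK hr h, L_val hq hK hr h, xadd hr]
  rfl

theorem Y_add {s : ℕ} (hs : s < 72) (h : rho s ≠ s) (t u : K) : Y hq hK s t * Y hq hK s u = Y hq hK s (t + u) := by
  apply Subtype.ext
  show (Y hq hK s t : chevE6.group K) * (Y hq hK s u : chevE6.group K) = _
  rw [Y_val hq hK hs h, Y_val hq hK hs h, Y_val hq hK hs h, ← xadd hs, apow hq hK, mul_add, ← xadd (t_rho s hs).1]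
  have h1 := (xcc (t_rho s hs).1 hs (t_opp s hs h).2.2 (by have := (t_opp s hs h).2.1; omega) ((eps s : K) * t ^ q) u).eq
  calc x s t * x (rho s) ((eps s : K) * t ^ q) * (x s u * x (rho s) ((eps s : K) * u ^ q))
      = x s t * (x (rho s) ((eps s : K) * t ^ q) * x s u) * x (rho s) ((eps s : K) * u ^ q) := by group
    _ = _ := by rw [h1]; group

/-- the two descriptions of a short root element -/
theorem Y_rho {s : ℕ} (hs : s < 72) (h : rho s ≠ s) (t : K) : Y hq hK (rho s) t = Y hq hK s ((eps s : K) * t ^ q) := by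
  have hr := t_rho s hs
  apply Subtype.ext
  rw [Y_val hq hK hs h, Y_val hq hK hr.1 (by rw [hr.2.1]; exact fun h' => h h'.symm), hr.2.1, hr.2.2.1, eps_pow hq hK hs,
    p2 hK, ← mul_assoc, eps_eps hs, one_mul]
  exact (xcc hr.1 hs (t_opp s hs h).2.2 (by have := (t_opp s hs h).2.1; omega) _ _).eq

end sigma

end Cfsg.Agent.Lib.MinTE6B
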