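import Cfsg.Agent.Lib.MinTE6B

/-!
The groups 2E6(q): the relations between the fixed root elements (helper18).
-/

set_option autoImplicit false
set_option linter.unusedSectionVars false

namespace Cfsg.Agent.Lib.MinTE6C

open Cfsg.Lie Cfsg.Agent.Lib.MinTE6A Cfsg.Agent.Lib.MinTE6B

variable {K : Type*} [Field K] [Fintype K] {q : ℕ} (hq : IsPrimePow q) (hK : Fintype.card K = q ^ 2)

/-! ### combinatorics -/

/-- the orthogonality -/
def oc (a b : ℕ) : Prop := sm a b = 0 ∧ a + b ≠ 71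

instance (a b : ℕ) : Decidable (oc a b) := by unfold oc; infer_instance

theorem xoc {a b : ℕ} (ha : a < 72) (hb : b < 72) (h : oc a b) (t u : K) : x a t * x b u = x b u * x a t :=
  (xcc ha hb h.1 h.2 t u).eq

set_option synthInstance.maxHeartbeats 400000 in
set_option synthInstance.maxSize 2000 in
theorem t_LS : ∀ r < 72, ∀ s < 72, rho r = r → rho s ≠ s → sm r s ≠ 0 →
    rho (sm r s - 1) ≠ sm r s - 1 ∧ sm (rho s) (sm r s - 1) ≠ 0 ∧
    rho (sm (rho s) (sm r s - 1) - 1) = sm (rho s) (sm r s - 1) - 1 ∧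
    oc (sm (rho s) (sm r s - 1) - 1) (rho (sm r s - 1)) := by
  decide +kernel

set_option synthInstance.maxHeartbeats 400000 in
set_option synthInstance.maxSize 2000 in
theorem t_SL : ∀ s < 72, ∀ r < 72, rho s ≠ s → rho r = r → sm s r ≠ 0 →
    rho (sm s r - 1) ≠ sm s r - 1 ∧ sm s (rho (sm s r - 1)) ≠ 0 ∧
    rho (sm s (rho (sm s r - 1)) - 1) = sm s (rho (sm s r - 1)) - 1 := by
  decide +kernel

set_option synthInstance.maxHeartbeats 400000 in
set_option synthInstance.maxSize 2000 in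
theorem t_SS : ∀ s < 72, ∀ d < 72, rho s ≠ s → rho d ≠ d → sm s d ≠ 0 →
    oc s (rho d) ∧ oc (rho s) d ∧ oc s (rho (sm s d - 1)) ∧ oc (sm s d - 1) (rho d) := by
  decide +kernel

theorem cast_nn (a b : ℕ) : (((nn a b : ℤ) : F0 hq hK) : K) = ((nn a b : ℤ) : K) := by
  rcases nn_sq a b with h | h <;> rw [h] <;> simp

include hq hK in
theorem nn_pow (a b : ℕ) (t : K) : ((nn a b : K) * t) ^ q = nn a b * t ^ q := by
  rcases nn_sq a b with h | h
  · rw [h, Int.cast_one, one_mul, one_mul]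
  · rw [h, Int.cast_neg, Int.cast_one, neg_one_mul, npow hq hK, neg_one_mul]

/-! ### relations -/

theorem rLL {r s : ℕ} (hr : r < 72) (hs : s < 72) (h1 : rho r = r) (h2 : rho s = s) (h : sm r s ≠ 0) (t u : F0 hq hK) :
    rho (sm r s - 1) = sm r s - 1 ∧
    L hq hK r t * L hq hK s u * (L hq hK r t)⁻¹ = L hq hK s u * L hq hK (sm r s - 1) (nn r s * t * u) := by
  have h3 := (t_sgn r hr s hs h).1
  rw [h1, h2] at h3
  have h4 : rho (sm r s - 1) = sm r s - 1 := by omega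
  refine ⟨h4, Subtype.ext ?_⟩
  show (L hq hK r t : chevE6.group K) * (L hq hK s u : chevE6.group K) * (L hq hK r t : chevE6.group K)⁻¹ =
    (L hq hK s u : chevE6.group K) * (L hq hK (sm r s - 1) (nn r s * t * u) : chevE6.group K)
  rw [L_val hq hK hr h1, L_val hq hK hs h2, L_val hq hK (t_ch r hr s hs h).2 h4, xcj hr hs h]
  congr 2

theorem rSSB {s d : ℕ} (hs : s < 72) (hd : d < 72) (h1 : rho s ≠ s) (h2 : rho d ≠ d) (h : sm s d ≠ 0)
    (h3 : rho (sm s d - 1) ≠ sm s d - 1) (u t : K) :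
    Y hq hK s u * Y hq hK d t * (Y hq hK s u)⁻¹ = Y hq hK d t * Y hq hK (sm s d - 1) (nn s d * u * t) := by
  obtain ⟨c1, c2, c3, c4⟩ := t_SS s hs d hd h1 h2 h
  obtain ⟨e1, e2⟩ := t_sgn s hs d hd h
  have hk := (t_ch s hs d hd h).2
  have hrs := (t_rho s hs).1
  have hrd := (t_rho d hd).1
  have hrk := (t_rho _ hk).1
  set k := sm s d - 1 with hkdef
  have h' : sm (rho s) (rho d) ≠ 0 := by omega
  apply Subtype.ext
  show (Y hq hK s u : chevE6.group K) * (Y hq hK d t : chevE6.group K) * (Y hq hK s u : chevE6.group K)⁻¹ =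
    (Y hq hK d t : chevE6.group K) * (Y hq hK k (nn s d * u * t) : chevE6.group K)
  rw [Y_val hq hK hs h1, Y_val hq hK hd h2, Y_val hq hK hk h3]
  have r1 : x (rho s) ((eps s : K) * u ^ q) * x d t * (x (rho s) ((eps s : K) * u ^ q))⁻¹ = x d t := by
    rw [xoc hrs hd c2, mul_inv_cancel_right]
  have r2 := xcj (K := K) hrs hrd h' ((eps s : K) * u ^ q) ((eps d : K) * t ^ q)
  rw [e1, Nat.add_sub_cancel] at r2
  have r3 := xcj (K := K) hs hd h u t
  rw [← hkdef] at r3
  have r4 : x s u * x (rho d) ((eps d : K) * t ^ q) * (x s u)⁻¹ = x (rho d) ((eps d : K) * t ^ q) := by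
    rw [xoc hs hrd c1, mul_inv_cancel_right]
  have r5 : ∀ w : K, x s u * x (rho k) w * (x s u)⁻¹ = x (rho k) w := fun w => by
    rw [xoc hs hrk c3, mul_inv_cancel_right]
  have r6 : ∀ w : K, x k w * x (rho d) ((eps d : K) * t ^ q) = x (rho d) ((eps d : K) * t ^ q) * x k w := fun w =>
    xoc hk hrd c4 _ _
  have e3 : ((nn (rho s) (rho d) * eps s * eps d : ℤ) : K) = ((nn s d * eps k : ℤ) : K) := by rw [e2]
  push_cast at e3
  have e4 : (nn (rho s) (rho d) : K) * ((eps s : K) * u ^ q) * ((eps d : K) * t ^ q) = eps k * (nn s d * u * t) ^ q := by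
    have : ((nn s d : K) * u * t) ^ q = nn s d * (u ^ q * t ^ q) := by
      rw [mul_assoc, nn_pow hq hK, mul_pow]
    rw [this]
    linear_combination (u ^ q * t ^ q) * e3
  calc x s u * x (rho s) ((eps s : K) * u ^ q) * (x d t * x (rho d) ((eps d : K) * t ^ q)) *
        (x s u * x (rho s) ((eps s : K) * u ^ q))⁻¹
      = x s u * ((x (rho s) ((eps s : K) * u ^ q) * x d t * (x (rho s) ((eps s : K) * u ^ q))⁻¹) *
        (x (rho s) ((eps s : K) * u ^ q) * x (rho d) ((eps d : K) * t ^ q) * (x (rho s) ((eps s : K) * u ^ q))⁻¹)) *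
        (x s u)⁻¹ := by group
    _ = (x s u * x d t * (x s u)⁻¹) * (x s u * x (rho d) ((eps d : K) * t ^ q) * (x s u)⁻¹) *
        (x s u * x (rho k) ((nn (rho s) (rho d) : K) * ((eps s : K) * u ^ q) * ((eps d : K) * t ^ q)) * (x s u)⁻¹) := by
      rw [r1, r2]; group
    _ = x d t * (x k (nn s d * u * t) * x (rho d) ((eps d : K) * t ^ q)) *
        x (rho k) ((nn (rho s) (rho d) : K) * ((eps s : K) * u ^ q) * ((eps d : K) * t ^ q)) := by
      rw [r3, r4, r5]; group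
    _ = _ := by rw [r6, e4]; group

theorem rSSC {s d : ℕ} (hs : s < 72) (hd : d < 72) (h1 : rho s ≠ s) (h2 : rho d ≠ d) (h : sm s d ≠ 0)
    (h3 : rho (sm s d - 1) = sm s d - 1) (u t : K) :
    Y hq hK s u * Y hq hK d t * (Y hq hK s u)⁻¹ = Y hq hK d t * L hq hK (sm s d - 1) (nn s d * tr hq hK (u * t)) := by
  obtain ⟨c1, c2, c3, c4⟩ := t_SS s hs d hd h1 h2 h
  obtain ⟨e1, e2⟩ := t_sgn s hs d hd h
  have hk := (t_ch s hs d hd h).2
  have hrs := (t_rho s hs).1
  have hrd := (t_rho d hd).1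
  have hek := (t_rho _ hk).2.2.2.2.1 h3
  rw [hek, mul_one] at e2
  rw [h3] at c3 e1
  set k := sm s d - 1 with hkdef
  have h' : sm (rho s) (rho d) ≠ 0 := by omega
  apply Subtype.ext
  show (Y hq hK s u : chevE6.group K) * (Y hq hK d t : chevE6.group K) * (Y hq hK s u : chevE6.group K)⁻¹ =
    (Y hq hK d t : chevE6.group K) * (L hq hK k (nn s d * tr hq hK (u * t)) : chevE6.group K)
  rw [Y_val hq hK hs h1, Y_val hq hK hd h2, L_val hq hK hk h3]
  have r1 : x (rho s) ((eps s : K) * u ^ q) * x d t * (x (rho s) ((eps s : K) * u ^ q))⁻¹ = x d t := by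
    rw [xoc hrs hd c2, mul_inv_cancel_right]
  have r2 := xcj (K := K) hrs hrd h' ((eps s : K) * u ^ q) ((eps d : K) * t ^ q)
  rw [e1, Nat.add_sub_cancel] at r2
  have r3 := xcj (K := K) hs hd h u t
  rw [← hkdef] at r3
  have r4 : x s u * x (rho d) ((eps d : K) * t ^ q) * (x s u)⁻¹ = x (rho d) ((eps d : K) * t ^ q) := by
    rw [xoc hs hrd c1, mul_inv_cancel_right]
  have r5 : ∀ w : K, x s u * x k w * (x s u)⁻¹ = x k w := fun w => by
    rw [xoc hs hk c3, mul_inv_cancel_right]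
  have r6 : ∀ w : K, x k w * x (rho d) ((eps d : K) * t ^ q) = x (rho d) ((eps d : K) * t ^ q) * x k w := fun w =>
    xoc hk hrd c4 _ _
  have e3 : ((nn (rho s) (rho d) * eps s * eps d : ℤ) : K) = ((nn s d : ℤ) : K) := by rw [e2]
  push_cast at e3
  have e4 : (nn s d : K) * u * t + (nn (rho s) (rho d) : K) * ((eps s : K) * u ^ q) * ((eps d : K) * t ^ q) =
      ((((nn s d : ℤ) : F0 hq hK) * tr hq hK (u * t) : F0 hq hK) : K) := by
    show _ = (((nn s d : ℤ) : F0 hq hK) : K) * (u * t + (u * t) ^ q)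
    rw [cast_nn, mul_pow]
    linear_combination (u ^ q * t ^ q) * e3
  calc x s u * x (rho s) ((eps s : K) * u ^ q) * (x d t * x (rho d) ((eps d : K) * t ^ q)) *
        (x s u * x (rho s) ((eps s : K) * u ^ q))⁻¹
      = x s u * ((x (rho s) ((eps s : K) * u ^ q) * x d t * (x (rho s) ((eps s : K) * u ^ q))⁻¹) *
        (x (rho s) ((eps s : K) * u ^ q) * x (rho d) ((eps d : K) * t ^ q) * (x (rho s) ((eps s : K) * u ^ q))⁻¹)) *
        (x s u)⁻¹ := by group
    _ = (x s u * x d t * (x s u)⁻¹) * (x s u * x (rho d) ((eps d : K) * t ^ q) * (x s u)⁻¹) *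
        (x s u * x k ((nn (rho s) (rho d) : K) * ((eps s : K) * u ^ q) * ((eps d : K) * t ^ q)) * (x s u)⁻¹) := by
      rw [r1, r2]; group
    _ = x d t * (x k (nn s d * u * t) * x (rho d) ((eps d : K) * t ^ q)) *
        x k ((nn (rho s) (rho d) : K) * ((eps s : K) * u ^ q) * ((eps d : K) * t ^ q)) := by
      rw [r3, r4, r5]; group
    _ = x d t * x (rho d) ((eps d : K) * t ^ q) * (x k (nn s d * u * t) *
        x k ((nn (rho s) (rho d) : K) * ((eps s : K) * u ^ q) * ((eps d : K) * t ^ q))) := by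
      rw [r6]; group
    _ = _ := by rw [xadd hk, e4]

theorem rLS {r s : ℕ} (hr : r < 72) (hs : s < 72) (h1 : rho r = r) (h2 : rho s ≠ s) (h : sm r s ≠ 0)
    (t : F0 hq hK) (u : K) :
    L hq hK r t * Y hq hK s u * (L hq hK r t)⁻¹ = Y hq hK s u * (Y hq hK (sm r s - 1) (nn r s * t * u) *
      L hq hK (sm (rho s) (sm r s - 1) - 1) (-((nn (rho s) (sm r s - 1) : ℤ) : F0 hq hK) * ((eps s : ℤ) : F0 hq hK) *
        ((nn r s : ℤ) : F0 hq hK) * t * nm hq hK u)) := by
  obtain ⟨c1, c2, c3, c4⟩ := t_LS r hr s hs h1 h2 h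
  obtain ⟨e1, e2⟩ := t_sgn r hr s hs h
  have hk := (t_ch r hr s hs h).2
  have hrs := (t_rho s hs).1
  have hrk := (t_rho _ hk).1
  rw [h1, (t_rho r hr).2.2.2.2.1 h1, mul_one] at e2
  rw [h1] at e1
  set k := sm r s - 1 with hkdef
  have hm := (t_ch (rho s) hrs k hk c2).2
  set m := sm (rho s) k - 1 with hmdef
  have h' : sm r (rho s) ≠ 0 := by omega
  have hcast : ∀ z : ℤ, (((z : ℤ) : F0 hq hK) : K) = (z : K) := fun z => by norm_cast
  apply Subtype.ext
  show (L hq hK r t : chevE6.group K) * (Y hq hK s u : chevE6.group K) * (L hq hK r t : chevE6.group K)⁻¹ =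
    (Y hq hK s u : chevE6.group K) * ((Y hq hK k (nn r s * t * u) : chevE6.group K) * (L hq hK m _ : chevE6.group K))
  rw [Y_val hq hK hs h2, L_val hq hK hr h1, Y_val hq hK hk c1, L_val hq hK hm c3]
  have r1 := xcj (K := K) hr hs h (t : K) u
  rw [← hkdef] at r1
  have r2 := xcj (K := K) hr hrs h' (t : K) ((eps s : K) * u ^ q)
  rw [e1, Nat.add_sub_cancel] at r2
  have r3 := xcj (K := K) hrs hk c2 (-((eps s : K) * u ^ q)) ((nn r s : K) * t * u)
  rw [← hmdef, ← xinv hrs, inv_inv] at r3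
  have r4 : ∀ w w' : K, x m w * x (rho k) w' = x (rho k) w' * x m w := fun w w' => xoc hm hrk c4 _ _
  have e3 : ((nn r (rho s) * eps s : ℤ) : K) = ((nn r s * eps k : ℤ) : K) := by rw [e2]
  push_cast at e3
  have e4 : (nn r (rho s) : K) * t * ((eps s : K) * u ^ q) = eps k * (nn r s * t * u) ^ q := by
    have : ((nn r s : K) * t * u) ^ q = nn r s * (t * u ^ q) := by
      rw [mul_assoc, nn_pow hq hK, mul_pow, F0_pow hq hK]
    rw [this]
    linear_combination (t * u ^ q) * e3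
  have e5 : (nn (rho s) k : K) * -((eps s : K) * u ^ q) * ((nn r s : K) * t * u) =
      ((-((nn (rho s) k : ℤ) : F0 hq hK) * ((eps s : ℤ) : F0 hq hK) * ((nn r s : ℤ) : F0 hq hK) * t * nm hq hK u : F0 hq hK) : K) := by
    show _ = -(((nn (rho s) k : ℤ) : F0 hq hK) : K) * (((eps s : ℤ) : F0 hq hK) : K) * (((nn r s : ℤ) : F0 hq hK) : K) * t * (u * u ^ q)
    rw [hcast, hcast, hcast]
    ring
  calc x r (t : K) * (x s u * x (rho s) ((eps s : K) * u ^ q)) * (x r (t : K))⁻¹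
      = (x r (t : K) * x s u * (x r (t : K))⁻¹) * (x r (t : K) * x (rho s) ((eps s : K) * u ^ q) * (x r (t : K))⁻¹) := by group
    _ = x s u * x (rho s) ((eps s : K) * u ^ q) * ((x (rho s) ((eps s : K) * u ^ q))⁻¹ * x k (nn r s * t * u) *
        x (rho s) ((eps s : K) * u ^ q)) * x (rho k) ((nn r (rho s) : K) * t * ((eps s : K) * u ^ q)) := by
      rw [r1, r2]; group
    _ = x s u * x (rho s) ((eps s : K) * u ^ q) * x k (nn r s * t * u) *
        (x m ((nn (rho s) k : K) * -((eps s : K) * u ^ q) * ((nn r s : K) * t * u)) *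
        x (rho k) ((nn r (rho s) : K) * t * ((eps s : K) * u ^ q))) := by
      rw [r3]; group
    _ = _ := by rw [r4, e4, e5]; group

theorem rSL {s r : ℕ} (hs : s < 72) (hr : r < 72) (h2 : rho s ≠ s) (h1 : rho r = r) (h : sm s r ≠ 0)
    (u : K) (t : F0 hq hK) :
    Y hq hK s u * L hq hK r t * (Y hq hK s u)⁻¹ = L hq hK r t * (Y hq hK (sm s r - 1) (nn s r * u * t) *
      L hq hK (sm s (rho (sm s r - 1)) - 1) (((nn s (rho (sm s r - 1)) : ℤ) : F0 hq hK) * ((nn (rho s) r : ℤ) : F0 hq hK) *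
        ((eps s : ℤ) : F0 hq hK) * t * nm hq hK u)) := by
  obtain ⟨c1, c2, c3⟩ := t_SL s hs r hr h2 h1 h
  obtain ⟨e1, e2⟩ := t_sgn s hs r hr h
  have hk := (t_ch s hs r hr h).2
  have hrs := (t_rho s hs).1
  have hrk := (t_rho _ hk).1
  rw [h1, (t_rho r hr).2.2.2.2.1 h1, mul_one] at e2
  rw [h1] at e1
  set k := sm s r - 1 with hkdef
  have hm := (t_ch s hs (rho k) hrk c2).2
  set m := sm s (rho k) - 1 with hmdef
  have h' : sm (rho s) r ≠ 0 := by omega
  have hcast : ∀ z : ℤ, (((z : ℤ) : F0 hq hK) : K) = (z : K) := fun z => by norm_cast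
  apply Subtype.ext
  show (Y hq hK s u : chevE6.group K) * (L hq hK r t : chevE6.group K) * (Y hq hK s u : chevE6.group K)⁻¹ =
    (L hq hK r t : chevE6.group K) * ((Y hq hK k (nn s r * u * t) : chevE6.group K) * (L hq hK m _ : chevE6.group K))
  rw [Y_val hq hK hs h2, L_val hq hK hr h1, Y_val hq hK hk c1, L_val hq hK hm c3]
  have r1 := xcj (K := K) hs hr h u (t : K)
  rw [← hkdef] at r1
  have r2 := xcj (K := K) hrs hr h' ((eps s : K) * u ^ q) (t : K)
  rw [e1, Nat.add_sub_cancel] at r2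
  have r3 := xcj (K := K) hs hrk c2 u ((nn (rho s) r : K) * ((eps s : K) * u ^ q) * t)
  rw [← hmdef] at r3
  have e3 : ((nn (rho s) r * eps s : ℤ) : K) = ((nn s r * eps k : ℤ) : K) := by rw [e2]
  push_cast at e3
  have e4 : (nn (rho s) r : K) * ((eps s : K) * u ^ q) * t = eps k * (nn s r * u * t) ^ q := by
    have : ((nn s r : K) * u * t) ^ q = nn s r * (u ^ q * t) := by
      rw [mul_assoc, nn_pow hq hK, mul_pow, F0_pow hq hK]
    rw [this]
    linear_combination (t * u ^ q) * e3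
  have e5 : (nn s (rho k) : K) * u * ((nn (rho s) r : K) * ((eps s : K) * u ^ q) * t) =
      ((((nn s (rho k) : ℤ) : F0 hq hK) * ((nn (rho s) r : ℤ) : F0 hq hK) * ((eps s : ℤ) : F0 hq hK) * t * nm hq hK u : F0 hq hK) : K) := by
    show _ = (((nn s (rho k) : ℤ) : F0 hq hK) : K) * (((nn (rho s) r : ℤ) : F0 hq hK) : K) * (((eps s : ℤ) : F0 hq hK) : K) * t * (u * u ^ q)
    rw [hcast, hcast, hcast]
    ring
  calc x s u * x (rho s) ((eps s : K) * u ^ q) * x r (t : K) * (x s u * x (rho s) ((eps s : K) * u ^ q))⁻¹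
      = x s u * (x (rho s) ((eps s : K) * u ^ q) * x r (t : K) * (x (rho s) ((eps s : K) * u ^ q))⁻¹) * (x s u)⁻¹ := by group
    _ = (x s u * x r (t : K) * (x s u)⁻¹) * (x s u * x (rho k) ((nn (rho s) r : K) * ((eps s : K) * u ^ q) * t) * (x s u)⁻¹) := by
      rw [r2]; group
    _ = x r (t : K) * (x k (nn s r * u * t) * x (rho k) ((nn (rho s) r : K) * ((eps s : K) * u ^ q) * t) *
        x m ((nn s (rho k) : K) * u * ((nn (rho s) r : K) * ((eps s : K) * u ^ q) * t))) := by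
      rw [r1, r3]; group
    _ = _ := by rw [e5, e4]

end Cfsg.Agent.Lib.MinTE6C
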