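import Cfsg.Agent.Lib.MinTE6C

/-!
The groups 2E6(q): commutators of root subgroups (helper18).
-/

set_option autoImplicit false
set_option linter.unusedSectionVars false

namespace Cfsg.Agent.Lib.MinTE6D

open Cfsg.Lie Cfsg.Agent.Lib.MinTE6A Cfsg.Agent.Lib.MinTE6B Cfsg.Agent.Lib.MinTE6C

variable {K : Type*} [Field K] [Fintype K] {q : ℕ} (hq : IsPrimePow q) (hK : Fintype.card K = q ^ 2)

/-- the root subgroups -/
def U (s : ℕ) : Set (Gh hq hK) := if rho s = s then Set.range (L hq hK s) else Set.range (Y hq hK s)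

theorem mem_U_long {s : ℕ} (h : rho s = s) {g : Gh hq hK} : g ∈ U hq hK s ↔ ∃ t, L hq hK s t = g := by
  unfold U; rw [if_pos h]; rfl

theorem mem_U_short {s : ℕ} (h : rho s ≠ s) {g : Gh hq hK} : g ∈ U hq hK s ↔ ∃ t, Y hq hK s t = g := by
  unfold U; rw [if_neg h]; rfl

theorem U_rho {s : ℕ} (hs : s < 72) : U hq hK (rho s) = U hq hK s := by
  by_cases h : rho s = s
  · rw [h]
  · have hr := t_rho s hs
    have h' : rho (rho s) ≠ rho s := by rw [hr.2.1]; exact fun h' => h h'.symm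
    ext g
    rw [mem_U_short hq hK h, mem_U_short hq hK h']
    constructor
    · rintro ⟨t, rfl⟩; exact ⟨_, (Y_rho hq hK hs h t).symm⟩
    · rintro ⟨t, rfl⟩
      have := Y_rho hq hK hr.1 h' t
      rw [hr.2.1] at this
      exact ⟨_, this.symm⟩

/-- the representatives -/
def rp (s : ℕ) : ℕ := if rho s < s then rho s else s

theorem U_rp {s : ℕ} (hs : s < 72) : U hq hK (rp s) = U hq hK s := by
  unfold rp
  split_ifs
  · exact U_rho hq hK hs
  · rfl

/-- opposite roots -/
def op (s d : ℕ) : Bool := (s + d == 71) || (s + rho d == 71)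

/-- the roots occurring in the commutators -/
def cb (s d : ℕ) : List ℕ :=
  if sm s d == 0 then (if sm s (rho d) == 0 then [] else [rp (sm s (rho d) - 1)])
  else if (rho s == s) == (rho d == d) then [rp (sm s d - 1)]
  else if rho s == s then [rp (sm s d - 1), sm (rho d) (sm s d - 1) - 1]
  else [rp (sm s d - 1), sm s (rho (sm s d - 1)) - 1]

theorem U_one {s : ℕ} (hs : s < 72) : (1 : Gh hq hK) ∈ U hq hK s := by
  by_cases h : rho s = s
  · rw [mem_U_long hq hK h]
    refine ⟨0, ?_⟩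
    have := L_add hq hK hs h 0 0
    rw [add_zero] at this
    exact mul_eq_left.mp this
  · rw [mem_U_short hq hK h]
    refine ⟨0, ?_⟩
    have := Y_add hq hK hs h 0 0
    rw [add_zero] at this
    exact mul_eq_left.mp this

theorem U_inv {s : ℕ} (hs : s < 72) {g : Gh hq hK} (hg : g ∈ U hq hK s) : g⁻¹ ∈ U hq hK s := by
  by_cases h : rho s = s
  · rw [mem_U_long hq hK h] at hg ⊢
    obtain ⟨t, rfl⟩ := hg
    refine ⟨-t, ?_⟩
    have h0 := L_add hq hK hs h 0 0
    rw [add_zero] at h0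
    rw [eq_inv_iff_mul_eq_one, L_add hq hK hs h, neg_add_cancel]
    exact mul_eq_left.mp h0
  · rw [mem_U_short hq hK h] at hg ⊢
    obtain ⟨t, rfl⟩ := hg
    refine ⟨-t, ?_⟩
    have h0 := Y_add hq hK hs h 0 0
    rw [add_zero] at h0
    rw [eq_inv_iff_mul_eq_one, Y_add hq hK hs h, neg_add_cancel]
    exact mul_eq_left.mp h0

/-- the elements of a root subgroup in terms of root elements -/
theorem U_form {s : ℕ} (hs : s < 72) {g : Gh hq hK} (hg : g ∈ U hq hK s) :
    ∃ t u : K, (g : chevE6.group K) = x s t * x (rho s) u := by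
  by_cases h : rho s = s
  · rw [mem_U_long hq hK h] at hg
    obtain ⟨t, rfl⟩ := hg
    exact ⟨t, 0, by rw [L_val hq hK hs h, xzero (t_rho s hs).1, mul_one]⟩
  · rw [mem_U_short hq hK h] at hg
    obtain ⟨t, rfl⟩ := hg
    exact ⟨t, _, Y_val hq hK hs h t⟩

/-- commuting root subgroups -/
theorem U_comm {s d : ℕ} (hs : s < 72) (hd : d < 72) (h1 : sm s d = 0) (h2 : sm s (rho d) = 0) (hop : op s d = false)
    {g h : Gh hq hK} (hg : g ∈ U hq hK s) (hh : h ∈ U hq hK d) : g * h = h * g := by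
  have hrs := t_rho s hs
  have hrd := t_rho d hd
  unfold op at hop
  simp only [Bool.or_eq_false_iff, beq_eq_false_iff_ne, ne_eq] at hop
  have h3 : sm (rho s) (rho d) = 0 := by
    by_contra h
    have := (t_sgn _ hrs.1 _ hrd.1 h).1
    rw [hrs.2.1, hrd.2.1] at this
    omega
  have h4 : sm (rho s) d = 0 := by
    by_contra h
    have := (t_sgn _ hrs.1 _ hd h).1
    rw [hrs.2.1] at this
    omega
  have h5 : rho s + rho d ≠ 71 := by
    intro h
    have h6 : s = rho (71 - rho d) := by rw [← hrs.2.1]; congr 1; omega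
    rw [(t_rho _ hrd.1).2.2.2.2.2, hrd.2.1] at h6
    omega
  have h6 : rho s + d ≠ 71 := by
    intro h
    have h6 : s = rho (71 - d) := by rw [← hrs.2.1]; congr 1; omega
    rw [hrd.2.2.2.2.2] at h6
    have := hrd.1
    omega
  obtain ⟨t, u, e1⟩ := U_form hq hK hs hg
  obtain ⟨v, w, e2⟩ := U_form hq hK hd hh
  apply Subtype.ext
  show (g : chevE6.group K) * (h : chevE6.group K) = (h : chevE6.group K) * (g : chevE6.group K)
  rw [e1, e2]
  have c1 := xcc (K := K) hs hd h1 hop.1 t v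
  have c2 := xcc (K := K) hs hrd.1 h2 hop.2 t w
  have c3 := xcc (K := K) hrs.1 hd h4 h6 u v
  have c4 := xcc (K := K) hrs.1 hrd.1 h3 h5 u w
  exact ((c1.mul_right c2).mul_left (c3.mul_right c4)).eq

/-- `h⁻¹ (g h g⁻¹)` from the relation -/
theorem red {Q : Type*} [Group Q] {g h e : Q} (hr : g * h * g⁻¹ = h * e) : h⁻¹ * (g * h * g⁻¹) = e := by
  rw [hr, inv_mul_cancel_left]

theorem span1 {s d : ℕ} (hs : s < 72) (hd : d < 72) (h0 : sm s d ≠ 0) (P : Subgroup (Gh hq hK))
    (hP : ∀ c ∈ cb s d, ∀ e ∈ U hq hK c, e ∈ P) {g h : Gh hq hK} (hg : g ∈ U hq hK s) (hh : h ∈ U hq hK d) :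
    h⁻¹ * (g * h * g⁻¹) ∈ P := by
  have hk := (t_ch s hs d hd h0).2
  have h0' : (sm s d == 0) = false := by simpa using h0
  have hUk : ∀ c, c = rp (sm s d - 1) → U hq hK c = U hq hK (sm s d - 1) := fun c hc => by rw [hc, U_rp hq hK hk]
  by_cases hls : rho s = s <;> by_cases hld : rho d = d
  · have hcb : cb s d = [rp (sm s d - 1)] := by unfold cb; rw [h0']; simp [hls, hld]
    rw [mem_U_long hq hK hls] at hg
    rw [mem_U_long hq hK hld] at hh
    obtain ⟨t, rfl⟩ := hg
    obtain ⟨u, rfl⟩ := hh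
    obtain ⟨h1, h2⟩ := rLL hq hK hs hd hls hld h0 t u
    rw [red h2]
    apply hP _ (by rw [hcb]; exact List.mem_singleton_self _)
    rw [hUk _ rfl, mem_U_long hq hK h1]
    exact ⟨_, rfl⟩
  · have hcb : cb s d = [rp (sm s d - 1), sm (rho d) (sm s d - 1) - 1] := by unfold cb; rw [h0']; simp [hls, hld]
    obtain ⟨c1, c2, c3, c4⟩ := t_LS s hs d hd hls hld h0
    rw [mem_U_long hq hK hls] at hg
    rw [mem_U_short hq hK hld] at hh
    obtain ⟨t, rfl⟩ := hg
    obtain ⟨u, rfl⟩ := hh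
    rw [red (rLS hq hK hs hd hls hld h0 t u)]
    apply P.mul_mem
    · apply hP _ (by rw [hcb]; exact List.mem_cons_self)
      rw [hUk _ rfl, mem_U_short hq hK c1]
      exact ⟨_, rfl⟩
    · apply hP (sm (rho d) (sm s d - 1) - 1) (by rw [hcb]; simp)
      rw [mem_U_long hq hK c3]
      exact ⟨_, rfl⟩
  · have hcb : cb s d = [rp (sm s d - 1), sm s (rho (sm s d - 1)) - 1] := by unfold cb; rw [h0']; simp [hls, hld]
    obtain ⟨c1, c2, c3⟩ := t_SL s hs d hd hls hld h0
    rw [mem_U_short hq hK hls] at hg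
    rw [mem_U_long hq hK hld] at hh
    obtain ⟨t, rfl⟩ := hg
    obtain ⟨u, rfl⟩ := hh
    rw [red (rSL hq hK hs hd hls hld h0 t u)]
    apply P.mul_mem
    · apply hP _ (by rw [hcb]; exact List.mem_cons_self)
      rw [hUk _ rfl, mem_U_short hq hK c1]
      exact ⟨_, rfl⟩
    · apply hP (sm s (rho (sm s d - 1)) - 1) (by rw [hcb]; simp)
      rw [mem_U_long hq hK c3]
      exact ⟨_, rfl⟩
  · have hcb : cb s d = [rp (sm s d - 1)] := by unfold cb; rw [h0']; simp [hls, hld]
    rw [mem_U_short hq hK hls] at hg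
    rw [mem_U_short hq hK hld] at hh
    obtain ⟨t, rfl⟩ := hg
    obtain ⟨u, rfl⟩ := hh
    by_cases h3 : rho (sm s d - 1) = sm s d - 1
    · rw [red (rSSC hq hK hs hd hls hld h0 h3 t u)]
      apply hP _ (by rw [hcb]; exact List.mem_singleton_self _)
      rw [hUk _ rfl, mem_U_long hq hK h3]
      exact ⟨_, rfl⟩
    · rw [red (rSSB hq hK hs hd hls hld h0 h3 t u)]
      apply hP _ (by rw [hcb]; exact List.mem_singleton_self _)
      rw [hUk _ rfl, mem_U_short hq hK h3]
      exact ⟨_, rfl⟩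

theorem cb_nil {s d : ℕ} (h1 : sm s d = 0) (h2 : sm s (rho d) = 0) : cb s d = [] := by
  unfold cb; rw [h1, h2]; rfl

/-- passage to the conjugate root -/
theorem cb_rho {s d : ℕ} (hs : s < 72) (hd : d < 72) (h1 : sm s d = 0) (h2 : sm s (rho d) ≠ 0) :
    cb s (rho d) = cb s d := by
  have hrd := t_rho d hd
  have hrs := t_rho s hs
  have hld : rho d ≠ d := by intro h; rw [h] at h2; exact h2 h1
  have hls : rho s ≠ s := by
    intro h
    have := (t_sgn s hs _ hrd.1 h2).1
    rw [h, hrd.2.1] at this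
    omega
  have hld' : d ≠ rho d := fun h => hld h.symm
  unfold cb
  simp [h1, h2, hls, hrd.2.1, hld']

/-- **the commutators lie in the group generated by the root subgroups of the sums** -/
theorem span {s d : ℕ} (hs : s < 72) (hd : d < 72) (hop : op s d = false) (P : Subgroup (Gh hq hK))
    (hP : ∀ c ∈ cb s d, ∀ e ∈ U hq hK c, e ∈ P) {g h : Gh hq hK} (hg : g ∈ U hq hK s) (hh : h ∈ U hq hK d) :
    h⁻¹ * (g * h * g⁻¹) ∈ P := by
  by_cases h1 : sm s d = 0
  · by_cases h2 : sm s (rho d) = 0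
    · rw [U_comm hq hK hs hd h1 h2 hop hg hh, mul_inv_cancel_right, inv_mul_cancel]
      exact P.one_mem
    · refine span1 hq hK hs (t_rho d hd).1 h2 P ?_ hg (by rw [U_rho hq hK hd]; exact hh)
      rw [cb_rho hs hd h1 h2]
      exact hP
  · exact span1 hq hK hs hd h1 P hP hg hh

theorem t_rp : ∀ k < 72, rho k ≠ k → rho (rp k) ≠ rp k := by
  decide +kernel

theorem surj1 {s d c : ℕ} (hs : s < 72) (hd : d < 72) (h0 : sm s d ≠ 0) (hc : c ∈ cb s d) (P : Subgroup (Gh hq hK))
    (hP : ∀ c' ∈ cb s d, c' ≠ c → ∀ e ∈ U hq hK c', e ∈ P)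
    (hcm : ∀ g ∈ U hq hK s, ∀ h ∈ U hq hK d, h⁻¹ * (g * h * g⁻¹) ∈ P) : ∀ e ∈ U hq hK c, e ∈ P := by
  have hk := (t_ch s hs d hd h0).2
  have h0' : (sm s d == 0) = false := by simpa using h0
  have hUk : U hq hK (rp (sm s d - 1)) = U hq hK (sm s d - 1) := U_rp hq hK hk
  have hnnK : (nn s d : K) * nn s d = 1 := by
    rcases nn_sq s d with h | h <;> rw [h] <;> push_cast <;> ring
  have hnnF : ((nn s d : ℤ) : F0 hq hK) * ((nn s d : ℤ) : F0 hq hK) = 1 := by
    rcases nn_sq s d with h | h <;> rw [h] <;> push_cast <;> ring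
  have hnm1 : nm hq hK (1 : K) = 1 := by
    apply Subtype.ext
    show (1 : K) * 1 ^ q = 1
    rw [one_pow, one_mul]
  have hcast : (((nn s d : ℤ) : F0 hq hK) : K) = ((nn s d : ℤ) : K) := by norm_cast
  intro e he
  by_cases hls : rho s = s <;> by_cases hld : rho d = d
  · have hcb : cb s d = [rp (sm s d - 1)] := by unfold cb; rw [h0']; simp [hls, hld]
    rw [hcb, List.mem_singleton] at hc
    subst hc
    have h1 := (rLL hq hK hs hd hls hld h0 0 0).1
    rw [hUk, mem_U_long hq hK h1] at he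
    obtain ⟨w, rfl⟩ := he
    have h2 := (rLL hq hK hs hd hls hld h0 ((nn s d : ℤ) : F0 hq hK) w).2
    have h3 := hcm _ ((mem_U_long hq hK hls).mpr ⟨((nn s d : ℤ) : F0 hq hK), rfl⟩) _ ((mem_U_long hq hK hld).mpr ⟨w, rfl⟩)
    rw [red h2, hnnF, one_mul] at h3
    exact h3
  · have hcb : cb s d = [rp (sm s d - 1), sm (rho d) (sm s d - 1) - 1] := by unfold cb; rw [h0']; simp [hls, hld]
    obtain ⟨c1, c2, c3, c4⟩ := t_LS s hs d hd hls hld h0
    have hne : rp (sm s d - 1) ≠ sm (rho d) (sm s d - 1) - 1 := by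
      intro h
      have := t_rp _ hk c1
      rw [h] at this
      exact this c3
    have key : ∀ (t : F0 hq hK) (u : K), Y hq hK (sm s d - 1) (nn s d * t * u) *
      L hq hK (sm (rho d) (sm s d - 1) - 1) (-((nn (rho d) (sm s d - 1) : ℤ) : F0 hq hK) * ((eps d : ℤ) : F0 hq hK) *
        ((nn s d : ℤ) : F0 hq hK) * t * nm hq hK u) ∈ P := by
      intro t u
      have h3 := hcm _ ((mem_U_long hq hK hls).mpr ⟨t, rfl⟩) _ ((mem_U_short hq hK hld).mpr ⟨u, rfl⟩)
      rw [red (rLS hq hK hs hd hls hld h0 t u)] at h3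
      exact h3
    rw [hcb] at hc
    rcases List.mem_cons.mp hc with rfl | hc
    · rw [hUk, mem_U_short hq hK c1] at he
      obtain ⟨w, rfl⟩ := he
      have h4 := key ((nn s d : ℤ) : F0 hq hK) w
      rw [hcast, hnnK, one_mul] at h4
      refine (P.mul_mem_cancel_right ?_).mp h4
      apply hP (sm (rho d) (sm s d - 1) - 1) (by rw [hcb]; simp) hne.symm
      rw [mem_U_long hq hK c3]
      exact ⟨_, rfl⟩
    · rw [List.mem_singleton] at hc
      subst hc
      rw [mem_U_long hq hK c3] at he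
      obtain ⟨w, rfl⟩ := he
      set a : F0 hq hK := -((nn (rho d) (sm s d - 1) : ℤ) : F0 hq hK) * ((eps d : ℤ) : F0 hq hK) * ((nn s d : ℤ) : F0 hq hK) with ha
      have ha2 : a * a = 1 := by
        rw [ha]
        rcases nn_sq (rho d) (sm s d - 1) with h | h <;> rcases nn_sq s d with h' | h' <;>
          rcases (t_rho d hd).2.2.2.1 with h'' | h'' <;> rw [h, h', h''] <;> push_cast <;> ring
      have h4 := key (a * w) 1
      have e1 : a * (a * w) * nm hq hK (1 : K) = w := by rw [hnm1, mul_one, ← mul_assoc, ha2, one_mul]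
      rw [e1] at h4
      refine (P.mul_mem_cancel_left ?_).mp h4
      apply hP (rp (sm s d - 1)) (by rw [hcb]; simp) hne
      rw [hUk, mem_U_short hq hK c1]
      exact ⟨_, rfl⟩
  · have hcb : cb s d = [rp (sm s d - 1), sm s (rho (sm s d - 1)) - 1] := by unfold cb; rw [h0']; simp [hls, hld]
    obtain ⟨c1, c2, c3⟩ := t_SL s hs d hd hls hld h0
    have hne : rp (sm s d - 1) ≠ sm s (rho (sm s d - 1)) - 1 := by
      intro h
      have := t_rp _ hk c1
      rw [h] at this
      exact this c3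
    have key : ∀ (u : K) (t : F0 hq hK), Y hq hK (sm s d - 1) (nn s d * u * t) *
      L hq hK (sm s (rho (sm s d - 1)) - 1) (((nn s (rho (sm s d - 1)) : ℤ) : F0 hq hK) * ((nn (rho s) d : ℤ) : F0 hq hK) *
        ((eps s : ℤ) : F0 hq hK) * t * nm hq hK u) ∈ P := by
      intro u t
      have h3 := hcm _ ((mem_U_short hq hK hls).mpr ⟨u, rfl⟩) _ ((mem_U_long hq hK hld).mpr ⟨t, rfl⟩)
      rw [red (rSL hq hK hs hd hls hld h0 u t)] at h3
      exact h3
    rw [hcb] at hc
    rcases List.mem_cons.mp hc with rfl | hc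
    · rw [hUk, mem_U_short hq hK c1] at he
      obtain ⟨w, rfl⟩ := he
      have h4 := key (nn s d * w) 1
      rw [← mul_assoc, hnnK, one_mul] at h4
      have e1 : w * ((1 : F0 hq hK) : K) = w := by
        show w * 1 = w
        rw [mul_one]
      rw [e1] at h4
      refine (P.mul_mem_cancel_right ?_).mp h4
      apply hP (sm s (rho (sm s d - 1)) - 1) (by rw [hcb]; simp) hne.symm
      rw [mem_U_long hq hK c3]
      exact ⟨_, rfl⟩
    · rw [List.mem_singleton] at hc
      subst hc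
      rw [mem_U_long hq hK c3] at he
      obtain ⟨w, rfl⟩ := he
      set a : F0 hq hK := ((nn s (rho (sm s d - 1)) : ℤ) : F0 hq hK) * ((nn (rho s) d : ℤ) : F0 hq hK) *
        ((eps s : ℤ) : F0 hq hK) with ha
      have ha2 : a * a = 1 := by
        rw [ha]
        rcases nn_sq s (rho (sm s d - 1)) with h | h <;> rcases nn_sq (rho s) d with h' | h' <;>
          rcases (t_rho s hs).2.2.2.1 with h'' | h'' <;> rw [h, h', h''] <;> push_cast <;> ring
      have h4 := key 1 (a * w)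
      have e1 : a * (a * w) * nm hq hK (1 : K) = w := by rw [hnm1, mul_one, ← mul_assoc, ha2, one_mul]
      rw [e1] at h4
      refine (P.mul_mem_cancel_left ?_).mp h4
      apply hP (rp (sm s d - 1)) (by rw [hcb]; simp) hne
      rw [hUk, mem_U_short hq hK c1]
      exact ⟨_, rfl⟩
  · have hcb : cb s d = [rp (sm s d - 1)] := by unfold cb; rw [h0']; simp [hls, hld]
    rw [hcb, List.mem_singleton] at hc
    subst hc
    by_cases h3 : rho (sm s d - 1) = sm s d - 1
    · rw [hUk, mem_U_long hq hK h3] at he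
      obtain ⟨w, rfl⟩ := he
      obtain ⟨t, ht⟩ := tr_surj hq hK (((nn s d : ℤ) : F0 hq hK) * w)
      have h2 := rSSC hq hK hs hd hls hld h0 h3 1 t
      have h4 := hcm _ ((mem_U_short hq hK hls).mpr ⟨1, rfl⟩) _ ((mem_U_short hq hK hld).mpr ⟨t, rfl⟩)
      rw [red h2, one_mul, ht, ← mul_assoc, hnnF, one_mul] at h4
      exact h4
    · rw [hUk, mem_U_short hq hK h3] at he
      obtain ⟨w, rfl⟩ := he
      have h2 := rSSB hq hK hs hd hls hld h0 h3 (nn s d : K) w
      have h4 := hcm _ ((mem_U_short hq hK hls).mpr ⟨(nn s d : K), rfl⟩) _ ((mem_U_short hq hK hld).mpr ⟨w, rfl⟩)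
      rw [red h2, hnnK, one_mul] at h4
      exact h4

/-- **the commutators generate the root subgroups of the sums** -/
theorem surj {s d c : ℕ} (hs : s < 72) (hd : d < 72) (hc : c ∈ cb s d) (P : Subgroup (Gh hq hK))
    (hP : ∀ c' ∈ cb s d, c' ≠ c → ∀ e ∈ U hq hK c', e ∈ P)
    (hcm : ∀ g ∈ U hq hK s, ∀ h ∈ U hq hK d, h⁻¹ * (g * h * g⁻¹) ∈ P) : ∀ e ∈ U hq hK c, e ∈ P := by
  by_cases h1 : sm s d = 0
  · by_cases h2 : sm s (rho d) = 0
    · rw [cb_nil h1 h2] at hc
      exact absurd hc List.not_mem_nil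
    · rw [← cb_rho hs hd h1 h2] at hc hP
      exact surj1 hq hK hs (t_rho d hd).1 h2 hc P hP (fun g hg h hh => hcm g hg h (by rw [← U_rho hq hK hd]; exact hh))
  · exact surj1 hq hK hs hd h1 hc P hP hcm

end Cfsg.Agent.Lib.MinTE6D
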