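import Cfsg.Agent.Lib.WeightProj

/-!
Dimensions of weight spaces in invariant subspaces (helper18).
-/

set_option autoImplicit false
set_option linter.unusedSectionVars false

namespace Cfsg.Agent.Lib.MinTE6E

open Cfsg.Agent.Lib.WeightProj

section lin

variable {U : Type*} [AddCommGroup U] [Module ℂ U] [FiniteDimensional ℂ U] {P : Type*} [AddCommGroup P] [Fintype P]

/-- weight spaces -/
def wtU (T : P → Module.End ℂ U) (α : AddChar P ℂ) : Submodule ℂ U where
  carrier := {u | ∀ a, T a u = α a • u}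
  add_mem' := by
    intro u v hu hv a
    rw [map_add, hu a, hv a, smul_add]
  zero_mem' := by intro a; rw [map_zero, smul_zero]
  smul_mem' := by
    intro c u hu a
    rw [map_smul, hu a, smul_comm]

theorem range_E {T : P → Module.End ℂ U} (hT : ∀ a b, T (a + b) = T a * T b) (α : AddChar P ℂ) :
    LinearMap.range (E T α) = wtU T α := by
  ext u
  constructor
  · rintro ⟨v, rfl⟩ a
    have := mul_E hT α a
    exact LinearMap.congr_fun this v
  · intro hu
    refine ⟨u, ?_⟩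
    have h1 : E T α u = ((Fintype.card P : ℂ)⁻¹ * ∑ a : P, α (-a) * α a) • u := by
      unfold E
      rw [LinearMap.smul_apply, LinearMap.sum_apply, mul_smul, Finset.sum_smul]
      congr 1
      apply Finset.sum_congr rfl
      intro a _
      rw [LinearMap.smul_apply, hu a, smul_smul]
    have h2 : ∀ a ∈ (Finset.univ : Finset P), α (-a) * α a = 1 := by
      intro a _
      rw [← AddChar.map_add_eq_mul, neg_add_cancel, AddChar.map_zero_eq_one]
    rw [h1, Finset.sum_congr rfl h2, Finset.sum_const, nsmul_eq_mul, mul_one, Finset.card_univ,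
      inv_mul_cancel₀ (by exact_mod_cast Fintype.card_ne_zero), one_smul]

theorem trace_wtU {T : P → Module.End ℂ U} (hT : ∀ a b, T (a + b) = T a * T b) (α : AddChar P ℂ) :
    LinearMap.trace ℂ U (E T α) = Module.finrank ℂ (wtU T α) := by
  classical
  have hi := idem hT α
  have h1 := (LinearMap.IsIdempotentElem.isProj_range _ hi).trace
  rw [h1, range_E hT α]

theorem sum_wtU {T : P → Module.End ℂ U} (hT : ∀ a b, T (a + b) = T a * T b) (h0 : T 0 = 1) :
    Module.finrank ℂ U = ∑ α : AddChar P ℂ, Module.finrank ℂ (wtU T α) := by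
  have h1 : (Module.finrank ℂ U : ℂ) = LinearMap.trace ℂ U 1 := (LinearMap.trace_one ℂ U).symm
  have h2 : (Module.finrank ℂ U : ℂ) = ∑ α : AddChar P ℂ, (Module.finrank ℂ (wtU T α) : ℂ) := by
    rw [h1, ← sum_E h0, map_sum]
    exact Finset.sum_congr rfl (fun α _ => trace_wtU hT α)
  exact_mod_cast h2

theorem free_wtU {T : P → Module.End ℂ U} (hT : ∀ a b, T (a + b) = T a * T b) (h0 : T 0 = 1)
    (hB : ∀ a, a ≠ 0 → ∃ (B B' : Module.End ℂ U) (ζ : ℂ), B' * B = 1 ∧ ζ ≠ 1 ∧ B * T a = ζ • (T a * B))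
    (α : AddChar P ℂ) : Module.finrank ℂ U = Fintype.card P * Module.finrank ℂ (wtU T α) := by
  have h1 : ∀ a, a ≠ 0 → LinearMap.trace ℂ U (T a) = 0 := by
    intro a ha
    obtain ⟨B, B', ζ, h2, h3, h4⟩ := hB a ha
    have h5 : LinearMap.trace ℂ U (T a) = LinearMap.trace ℂ U (ζ • T a) :=
      trace_conj_eq h2 (by rw [h4, smul_mul_assoc])
    rw [map_smul, smul_eq_mul] at h5
    have h6 : (1 - ζ) * LinearMap.trace ℂ U (T a) = 0 := by linear_combination h5
    rcases mul_eq_zero.mp h6 with h7 | h7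
    · exact absurd (sub_eq_zero.mp h7).symm h3
    · exact h7
  have h2 : LinearMap.trace ℂ U (E T α) = (Fintype.card P : ℂ)⁻¹ * Module.finrank ℂ U := by
    unfold E
    rw [map_smul, map_sum, Finset.sum_eq_single 0]
    · rw [neg_zero, AddChar.map_zero_eq_one, one_smul, h0, LinearMap.trace_one, smul_eq_mul]
    · intro a _ ha
      rw [map_smul, h1 a ha, smul_zero]
    · intro h; exact absurd (Finset.mem_univ _) h
  rw [trace_wtU hT α] at h2
  have h3 : (Fintype.card P : ℂ) ≠ 0 := by exact_mod_cast Fintype.card_ne_zero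
  have h4 : (Module.finrank ℂ U : ℂ) = Fintype.card P * Module.finrank ℂ (wtU T α) := by
    rw [h2, mul_inv_cancel_left₀ h3]
  exact_mod_cast h4

end lin

section rep

variable {Q : Type*} [Group Q] {V : Type*} [AddCommGroup V] [Module ℂ V] [FiniteDimensional ℂ V]
  (ρ : Representation ℂ Q V) {P : Type*} [AddCommGroup P]

/-- weight spaces of a one-parameter subgroup -/
def wt (z : P → Q) (α : AddChar P ℂ) : Submodule ℂ V where
  carrier := {u | ∀ a, ρ (z a) u = α a • u}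
  add_mem' := by
    intro u v hu hv a
    rw [map_add, hu a, hv a, smul_add]
  zero_mem' := by intro a; rw [map_zero, smul_zero]
  smul_mem' := by
    intro c u hu a
    rw [map_smul, hu a, smul_comm]

variable {ρ}

theorem mem_wt {z : P → Q} {α : AddChar P ℂ} {v : V} : v ∈ wt ρ z α ↔ ∀ a, ρ (z a) v = α a • v := Iff.rfl

theorem z_zero {z : P → Q} (hz : ∀ a b, z a * z b = z (a + b)) : z 0 = 1 := by
  have := hz 0 0
  rw [add_zero] at this
  exact mul_eq_left.mp this

variable [Fintype P]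

/-- the restricted operators -/
noncomputable def TW {z : P → Q} {W : Submodule ℂ V} (hW : ∀ a, ∀ v ∈ W, ρ (z a) v ∈ W) (a : P) : Module.End ℂ W :=
  (ρ (z a)).restrict (hW a)

theorem TW_add {z : P → Q} (hz : ∀ a b, z a * z b = z (a + b)) {W : Submodule ℂ V} (hW : ∀ a, ∀ v ∈ W, ρ (z a) v ∈ W)
    (a b : P) : TW hW (a + b) = TW hW a * TW hW b := by
  ext v
  show ρ (z (a + b)) (v : V) = ρ (z a) (ρ (z b) (v : V))
  rw [← hz, map_mul]; rfl

theorem TW_zero {z : P → Q} (hz : ∀ a b, z a * z b = z (a + b)) {W : Submodule ℂ V} (hW : ∀ a, ∀ v ∈ W, ρ (z a) v ∈ W) :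
    TW hW 0 = 1 := by
  ext v
  show ρ (z 0) (v : V) = v
  rw [z_zero hz, map_one]; rfl

theorem finrank_TW {z : P → Q} {W : Submodule ℂ V} (hW : ∀ a, ∀ v ∈ W, ρ (z a) v ∈ W) (α : AddChar P ℂ) :
    Module.finrank ℂ (wtU (TW hW) α) = Module.finrank ℂ (W ⊓ wt ρ z α : Submodule ℂ V) := by
  have h1 : (wtU (TW hW) α).map W.subtype = W ⊓ wt ρ z α := by
    ext v
    constructor
    · rintro ⟨w, hw, rfl⟩
      refine ⟨w.2, fun a => ?_⟩
      exact congrArg Subtype.val (hw a)
    · rintro ⟨h1, h2⟩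
      refine ⟨⟨v, h1⟩, fun a => Subtype.ext (h2 a), rfl⟩
  rw [← h1, Submodule.finrank_map_subtype_eq]

/-- **decomposition into weight spaces** -/
theorem sum_dim {z : P → Q} (hz : ∀ a b, z a * z b = z (a + b)) {W : Submodule ℂ V} (hW : ∀ a, ∀ v ∈ W, ρ (z a) v ∈ W) :
    Module.finrank ℂ W = ∑ α : AddChar P ℂ, Module.finrank ℂ (W ⊓ wt ρ z α : Submodule ℂ V) := by
  rw [sum_wtU (TW_add hz hW) (TW_zero hz hW)]
  exact Finset.sum_congr rfl (fun α _ => finrank_TW hW α)

/-- **free action on the weights** -/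
theorem free_dim {z : P → Q} (hz : ∀ a b, z a * z b = z (a + b)) {W : Submodule ℂ V} (hW : ∀ a, ∀ v ∈ W, ρ (z a) v ∈ W)
    (hB : ∀ a, a ≠ 0 → ∃ (g : Q) (ζ : ℂ), (∀ v ∈ W, ρ g v ∈ W) ∧ (∀ v ∈ W, ρ g⁻¹ v ∈ W) ∧ ζ ≠ 1 ∧
      ∀ v ∈ W, ρ (g * z a * g⁻¹) v = ζ • ρ (z a) v)
    (α : AddChar P ℂ) : Module.finrank ℂ W = Fintype.card P * Module.finrank ℂ (W ⊓ wt ρ z α : Submodule ℂ V) := by
  rw [free_wtU (TW_add hz hW) (TW_zero hz hW) ?_ α, finrank_TW hW α]
  intro a ha
  obtain ⟨g, ζ, h1, h2, h3, h4⟩ := hB a ha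
  refine ⟨(ρ g).restrict h1, (ρ g⁻¹).restrict h2, ζ, ?_, h3, ?_⟩
  · ext v
    show ρ g⁻¹ (ρ g (v : V)) = v
    have : ρ g⁻¹ * ρ g = 1 := by rw [← map_mul, inv_mul_cancel, map_one]
    exact LinearMap.congr_fun this v
  · ext v
    show ρ g (ρ (z a) (v : V)) = ζ • ρ (z a) (ρ g (v : V))
    have h5 := h4 _ (h1 v v.2)
    rw [← h5]
    have : ρ (g * z a * g⁻¹) * ρ g = ρ g * ρ (z a) := by rw [← map_mul, ← map_mul]; congr 1; group
    exact (LinearMap.congr_fun this v).symm

end rep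

end Cfsg.Agent.Lib.MinTE6E
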