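import Cfsg.Agent.Lib.MinTE6D
import Cfsg.Agent.Lib.MinTE6E

/-!
The groups 2E6(q): weight spaces for sets of root subgroups (helper18).
-/

set_option autoImplicit false
set_option linter.unusedSectionVars false

namespace Cfsg.Agent.Lib.MinTE6F

open Cfsg.Lie Cfsg.Agent.Lib.MinTE6A Cfsg.Agent.Lib.MinTE6B Cfsg.Agent.Lib.MinTE6C Cfsg.Agent.Lib.MinTE6D
open Cfsg.Agent.Lib.MinTE6E

/-- the boolean test: the root subgroup of `s` preserves the space of `D`, `R`, if those of `A` are trivial there -/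
def pres (s : ℕ) (D R A : List ℕ) : Bool :=
  Nat.blt s 72 && (R.all fun d => rho d == d) &&
    ((D ++ R).all fun d => Nat.blt d 72 && !op s d && (cb s d).all fun c => A.elem c)

theorem pres_iff {s : ℕ} {D R A : List ℕ} : pres s D R A = true ↔ s < 72 ∧ (∀ d ∈ R, rho d = d) ∧
    ∀ d ∈ D ++ R, d < 72 ∧ op s d = false ∧ ∀ c ∈ cb s d, c ∈ A := by
  unfold pres
  simp only [Bool.and_eq_true, Nat.blt_eq, List.all_eq_true, beq_iff_eq, Bool.not_eq_true', List.elem_eq_mem,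
    decide_eq_true_eq]
  constructor
  · rintro ⟨⟨h1, h2⟩, h3⟩
    exact ⟨h1, h2, fun d hd => ⟨(h3 d hd).1.1, (h3 d hd).1.2, (h3 d hd).2⟩⟩
  · rintro ⟨h1, h2, h3⟩
    exact ⟨⟨h1, h2⟩, fun d hd => ⟨⟨(h3 d hd).1, (h3 d hd).2.1⟩, (h3 d hd).2.2⟩⟩

variable {K : Type*} [Field K] [Fintype K] {q : ℕ} (hq : IsPrimePow q) (hK : Fintype.card K = q ^ 2)
  {V : Type*} [AddCommGroup V] [Module ℂ V] (ρ : Representation ℂ (Gh hq hK) V)

/-- the stabilizer of a vector -/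
def stb (v : V) : Subgroup (Gh hq hK) where
  carrier := {g | ρ g v = v}
  mul_mem' := by
    intro a b ha hb
    show ρ (a * b) v = v
    rw [map_mul]
    show ρ a (ρ b v) = v
    rw [show ρ b v = v from hb, show ρ a v = v from ha]
  one_mem' := by
    show ρ 1 v = v
    rw [map_one]; rfl
  inv_mem' := by
    intro a ha
    show ρ a⁻¹ v = v
    have h1 : ρ a⁻¹ (ρ a v) = v := by
      have : ρ a⁻¹ * ρ a = 1 := by rw [← map_mul, inv_mul_cancel, map_one]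
      exact LinearMap.congr_fun this v
    rwa [show ρ a v = v from ha] at h1

/-- the spaces -/
def Wt (D : List ℕ) (w : List (ℕ × AddChar (F0 hq hK) ℂ)) : Submodule ℂ V where
  carrier := {v | (∀ d ∈ D, ∀ g ∈ U hq hK d, ρ g v = v) ∧ ∀ p ∈ w, ∀ t, ρ (L hq hK p.1 t) v = p.2 t • v}
  add_mem' := by
    rintro u v ⟨h1, h2⟩ ⟨h3, h4⟩
    refine ⟨fun d hd g hg => ?_, fun p hp t => ?_⟩
    · rw [map_add, h1 d hd g hg, h3 d hd g hg]
    · rw [map_add, h2 p hp t, h4 p hp t, smul_add]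
  zero_mem' := ⟨fun d _ g _ => map_zero _, fun p _ t => by rw [map_zero, smul_zero]⟩
  smul_mem' := by
    rintro c u ⟨h1, h2⟩
    refine ⟨fun d hd g hg => ?_, fun p hp t => ?_⟩
    · rw [map_smul, h1 d hd g hg]
    · rw [map_smul, h2 p hp t, smul_comm]

variable {ρ}

theorem mem_Wt {D : List ℕ} {w : List (ℕ × AddChar (F0 hq hK) ℂ)} {v : V} : v ∈ Wt hq hK ρ D w ↔
    (∀ d ∈ D, ∀ g ∈ U hq hK d, ρ g v = v) ∧ ∀ p ∈ w, ∀ t, ρ (L hq hK p.1 t) v = p.2 t • v := Iff.rfl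

theorem map_mul' (g h : Gh hq hK) (v : V) : ρ (g * h) v = ρ g (ρ h v) := by rw [map_mul]; rfl

/-- root subgroups commute on vectors fixed by the commutators -/
theorem swap {s d : ℕ} (hs : s < 72) (hd : d < 72) (hop : op s d = false) {v : V}
    (hv : ∀ c ∈ cb s d, ∀ e ∈ U hq hK c, ρ e v = v) {g h : Gh hq hK} (hg : g ∈ U hq hK s) (hh : h ∈ U hq hK d) :
    ρ h (ρ g v) = ρ g (ρ h v) := by
  have h1 := span hq hK hs hd hop (stb hq hK ρ v) hv (U_inv hq hK hs hg) hh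
  have h2 : ρ (h⁻¹ * (g⁻¹ * h * g⁻¹⁻¹)) v = v := h1
  have h3 : h * g = g * (h * (h⁻¹ * (g⁻¹ * h * g⁻¹⁻¹))) := by group
  rw [← map_mul', h3, map_mul', map_mul', h2]

theorem pres_mem {s : ℕ} {D A : List ℕ} {w : List (ℕ × AddChar (F0 hq hK) ℂ)} (h : pres s D (w.map Prod.fst) A = true)
    {g : Gh hq hK} (hg : g ∈ U hq hK s) {v : V} (hv : v ∈ Wt hq hK ρ D w) (hA : ∀ c ∈ A, ∀ e ∈ U hq hK c, ρ e v = v) :
    ρ g v ∈ Wt hq hK ρ D w := by
  obtain ⟨h1, h2, h3⟩ := pres_iff.mp h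
  refine ⟨fun d hd e he => ?_, fun p hp t => ?_⟩
  · obtain ⟨h4, h5, h6⟩ := h3 d (List.mem_append_left _ hd)
    rw [swap hq hK h1 h4 h5 (fun c hc => hA c (h6 c hc)) hg he, hv.1 d hd e he]
  · have hp' : p.1 ∈ w.map Prod.fst := List.mem_map_of_mem hp
    obtain ⟨h4, h5, h6⟩ := h3 p.1 (List.mem_append_right _ hp')
    rw [swap hq hK h1 h4 h5 (fun c hc => hA c (h6 c hc)) hg ((mem_U_long hq hK (h2 _ hp')).mpr ⟨t, rfl⟩), hv.2 p hp t,
      map_smul]

theorem pres_mem' {s : ℕ} {D : List ℕ} {w : List (ℕ × AddChar (F0 hq hK) ℂ)} (h : pres s D (w.map Prod.fst) D = true)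
    {g : Gh hq hK} (hg : g ∈ U hq hK s) {v : V} (hv : v ∈ Wt hq hK ρ D w) : ρ g v ∈ Wt hq hK ρ D w :=
  pres_mem hq hK h hg hv hv.1

variable (ρ)

/-- adding a weight -/
theorem Wt_cons {D : List ℕ} {w : List (ℕ × AddChar (F0 hq hK) ℂ)} (c : ℕ) (l : AddChar (F0 hq hK) ℂ) :
    Wt hq hK ρ D w ⊓ wt ρ (L hq hK c) l = Wt hq hK ρ D ((c, l) :: w) := by
  ext v
  constructor
  · rintro ⟨h1, h2⟩
    refine ⟨h1.1, fun p hp t => ?_⟩
    rcases List.mem_cons.mp hp with rfl | hp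
    · exact h2 t
    · exact h1.2 p hp t
  · rintro ⟨h1, h2⟩
    exact ⟨⟨h1, fun p hp => h2 p (List.mem_cons_of_mem _ hp)⟩, fun t => h2 _ List.mem_cons_self t⟩

/-- adding a trivial long root subgroup -/
theorem Wt_long {D : List ℕ} {w : List (ℕ × AddChar (F0 hq hK) ℂ)} {c : ℕ} (hc : rho c = c) :
    Wt hq hK ρ D ((c, 1) :: w) = Wt hq hK ρ (c :: D) w := by
  ext v
  constructor
  · rintro ⟨h1, h2⟩
    refine ⟨fun d hd g hg => ?_, fun p hp => h2 p (List.mem_cons_of_mem _ hp)⟩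
    rcases List.mem_cons.mp hd with rfl | hd
    · obtain ⟨t, rfl⟩ := (mem_U_long hq hK hc).mp hg
      rw [h2 _ List.mem_cons_self t, AddChar.one_apply, one_smul]
    · exact h1 d hd g hg
  · rintro ⟨h1, h2⟩
    refine ⟨fun d hd => h1 d (List.mem_cons_of_mem _ hd), fun p hp t => ?_⟩
    rcases List.mem_cons.mp hp with rfl | hp
    · rw [AddChar.one_apply, one_smul]
      exact h1 c List.mem_cons_self _ ((mem_U_long hq hK hc).mpr ⟨t, rfl⟩)
    · exact h2 p hp t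

/-- adding a trivial short root subgroup -/
theorem Wt_short {D : List ℕ} {w : List (ℕ × AddChar (F0 hq hK) ℂ)} {c : ℕ} (hc : rho c ≠ c) :
    Wt hq hK ρ D w ⊓ wt ρ (Y hq hK c) 1 = Wt hq hK ρ (c :: D) w := by
  ext v
  constructor
  · rintro ⟨h1, h2⟩
    refine ⟨fun d hd g hg => ?_, h1.2⟩
    rcases List.mem_cons.mp hd with rfl | hd
    · obtain ⟨t, rfl⟩ := (mem_U_short hq hK hc).mp hg
      rw [h2 t, AddChar.one_apply, one_smul]
    · exact h1.1 d hd g hg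
  · rintro ⟨h1, h2⟩
    refine ⟨⟨fun d hd => h1 d (List.mem_cons_of_mem _ hd), h2⟩, fun t => ?_⟩
    rw [AddChar.one_apply, one_smul]
    exact h1 c List.mem_cons_self _ ((mem_U_short hq hK hc).mpr ⟨t, rfl⟩)

theorem Wt_le {D D' : List ℕ} {w w' : List (ℕ × AddChar (F0 hq hK) ℂ)} (h : ∀ d ∈ D', d ∈ D) (h' : ∀ p ∈ w', p ∈ w) :
    Wt hq hK ρ D w ≤ Wt hq hK ρ D' w' := fun _ hv => ⟨fun d hd => hv.1 d (h d hd), fun p hp => hv.2 p (h' p hp)⟩

variable [FiniteDimensional ℂ V] [Fintype (F0 hq hK)]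

theorem card_F : Fintype.card (F0 hq hK) = q := by rw [← Nat.card_eq_fintype_card, card_F0]

theorem exists_ne {l : AddChar (F0 hq hK) ℂ} (hl : l ≠ 1) : ∃ u, l u ≠ 1 := by
  by_contra h
  push Not at h
  exact hl (by ext u; rw [h u, AddChar.one_apply])

/-- **the free step, long roots** -/
theorem freeL {D : List ℕ} {w : List (ℕ × AddChar (F0 hq hK) ℂ)} {c s r : ℕ}
    (hc : pres c D (w.map Prod.fst) D = true) (hs : pres s D (w.map Prod.fst) D = true) (hlc : rho c = c) (hls : rho s = s)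
    (hsm : sm s c = r + 1) {l : AddChar (F0 hq hK) ℂ} (hl : l ≠ 1) (hr : (r, l) ∈ w) (γ : AddChar (F0 hq hK) ℂ) :
    Module.finrank ℂ (Wt hq hK ρ D w) = q * Module.finrank ℂ (Wt hq hK ρ D ((c, γ) :: w)) := by
  have hc72 := (pres_iff.mp hc).1
  have hs72 := (pres_iff.mp hs).1
  rw [← Wt_cons]
  have h := free_dim (ρ := ρ) (z := L hq hK c) (W := Wt hq hK ρ D w) (fun a b => L_add hq hK hc72 hlc a b)
    (fun a v hv => pres_mem' hq hK hc ((mem_U_long hq hK hlc).mpr ⟨a, rfl⟩) hv) ?_ γ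
  · rw [card_F] at h; exact h
  · intro a ha
    obtain ⟨u, hu⟩ := exists_ne hq hK hl
    have hnnF : ((nn s c : ℤ) : F0 hq hK) * ((nn s c : ℤ) : F0 hq hK) = 1 := by
      rcases nn_sq s c with h | h <;> rw [h] <;> push_cast <;> ring
    refine ⟨L hq hK s (((nn s c : ℤ) : F0 hq hK) * u * a⁻¹), l u,
      fun v hv => pres_mem' hq hK hs ((mem_U_long hq hK hls).mpr ⟨_, rfl⟩) hv,
      fun v hv => pres_mem' hq hK hs (U_inv hq hK hs72 ((mem_U_long hq hK hls).mpr ⟨_, rfl⟩)) hv, hu, fun v hv => ?_⟩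
    rw [(rLL hq hK hs72 hc72 hls hlc (by omega) _ a).2, map_mul', hsm, Nat.add_sub_cancel, hv.2 _ hr, map_smul]
    congr 2
    have e1 : ((nn s c : ℤ) : F0 hq hK) * (((nn s c : ℤ) : F0 hq hK) * u * a⁻¹) * a =
        (((nn s c : ℤ) : F0 hq hK) * ((nn s c : ℤ) : F0 hq hK)) * u * (a⁻¹ * a) := by ring
    rw [e1, hnnF, inv_mul_cancel₀ ha, one_mul, mul_one]

/-- **the free step, short roots** -/
theorem freeS {D : List ℕ} {w : List (ℕ × AddChar (F0 hq hK) ℂ)} {c s r : ℕ}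
    (hc : pres c D (w.map Prod.fst) D = true) (hs : pres s D (w.map Prod.fst) D = true) (hlc : rho c ≠ c) (hls : rho s ≠ s)
    (hsm : sm s c = r + 1) {l : AddChar (F0 hq hK) ℂ} (hl : l ≠ 1) (hr : (r, l) ∈ w) :
    Module.finrank ℂ (Wt hq hK ρ D w) = q ^ 2 * Module.finrank ℂ (Wt hq hK ρ (c :: D) w) := by
  have hc72 := (pres_iff.mp hc).1
  have hs72 := (pres_iff.mp hs).1
  have hlr : rho r = r := (pres_iff.mp hc).2.1 r (List.mem_map_of_mem hr)
  rw [← Wt_short hq hK ρ hlc]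
  have h := free_dim (ρ := ρ) (z := Y hq hK c) (W := Wt hq hK ρ D w) (fun a b => Y_add hq hK hc72 hlc a b)
    (fun a v hv => pres_mem' hq hK hc ((mem_U_short hq hK hlc).mpr ⟨a, rfl⟩) hv) ?_ 1
  · rw [hK] at h; exact h
  · intro a ha
    obtain ⟨u, hu⟩ := exists_ne hq hK hl
    have hnnF : ((nn s c : ℤ) : F0 hq hK) * ((nn s c : ℤ) : F0 hq hK) = 1 := by
      rcases nn_sq s c with h | h <;> rw [h] <;> push_cast <;> ring
    obtain ⟨y, hy⟩ := tr_surj hq hK (((nn s c : ℤ) : F0 hq hK) * u)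
    refine ⟨Y hq hK s (y * a⁻¹), l u,
      fun v hv => pres_mem' hq hK hs ((mem_U_short hq hK hls).mpr ⟨_, rfl⟩) hv,
      fun v hv => pres_mem' hq hK hs (U_inv hq hK hs72 ((mem_U_short hq hK hls).mpr ⟨_, rfl⟩)) hv, hu, fun v hv => ?_⟩
    have h3 : rho (sm s c - 1) = sm s c - 1 := by rw [hsm, Nat.add_sub_cancel]; exact hlr
    rw [rSSC hq hK hs72 hc72 hls hlc (by omega) h3, map_mul', hsm, Nat.add_sub_cancel, hv.2 _ hr, map_smul]
    congr 2
    rw [mul_assoc, inv_mul_cancel₀ ha, mul_one, hy, ← mul_assoc, hnnF, one_mul]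

/-! ### chains of free steps -/

def chk (R : List ℕ) : List (ℕ × ℕ × ℕ) → List ℕ → Bool
  | [], _ => true
  | t :: l, D => pres t.1 D R D && pres t.2.1 D R D && (sm t.2.1 t.1 == t.2.2 + 1) && R.elem t.2.2 &&
      ((rho t.1 == t.1) == (rho t.2.1 == t.2.1)) && chk R l (t.1 :: D)

def ext : List (ℕ × ℕ × ℕ) → List ℕ → List ℕ
  | [], D => D
  | t :: l, D => ext l (t.1 :: D)

def ell : List (ℕ × ℕ × ℕ) → ℕ
  | [] => 0
  | t :: l => (if rho t.1 == t.1 then 1 else 2) + ell l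

theorem ell_cons (t : ℕ × ℕ × ℕ) (l : List (ℕ × ℕ × ℕ)) :
    ell (t :: l) = (if rho t.1 == t.1 then 1 else 2) + ell l := rfl

theorem chain {w : List (ℕ × AddChar (F0 hq hK) ℂ)} (hw : ∀ p ∈ w, p.2 ≠ 1) (st : List (ℕ × ℕ × ℕ)) :
    ∀ D : List ℕ, chk (w.map Prod.fst) st D = true →
    Module.finrank ℂ (Wt hq hK ρ D w) = q ^ ell st * Module.finrank ℂ (Wt hq hK ρ (ext st D) w) := by
  induction st with
  | nil => intro D _; show _ = q ^ 0 * _; rw [pow_zero, one_mul]; rfl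
  | cons t st ih =>
    intro D h
    unfold chk at h
    simp only [Bool.and_eq_true, beq_iff_eq, List.elem_eq_mem, decide_eq_true_eq] at h
    obtain ⟨⟨⟨⟨⟨h1, h2⟩, h3⟩, h4⟩, h5⟩, h6⟩ := h
    obtain ⟨p, hp, hpr⟩ := List.mem_map.mp h4
    have hp' : (t.2.2, p.2) ∈ w := by rw [← hpr]; exact hp
    have e1 : ext (t :: st) D = ext st (t.1 :: D) := rfl
    rw [e1]
    by_cases hl : rho t.1 = t.1
    · have hl' : rho t.2.1 = t.2.1 := by
        have : (rho t.2.1 == t.2.1) = true := by rw [← h5]; simp [hl]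
        simpa using this
      rw [freeL hq hK ρ h1 h2 hl hl' h3 (hw p hp) hp' 1, Wt_long hq hK ρ hl, ih _ h6, ← mul_assoc]
      congr 1
      rw [ell_cons, if_pos (by simpa using hl), pow_add, pow_one]
    · have hl' : rho t.2.1 ≠ t.2.1 := by
        have : (rho t.2.1 == t.2.1) = false := by rw [← h5]; simp [hl]
        simpa using this
      rw [freeS hq hK ρ h1 h2 hl hl' h3 (hw p hp) hp', ih _ h6, ← mul_assoc]
      congr 1
      rw [ell_cons, if_neg (by simpa using hl), pow_add]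

/-- decomposition for a long root -/
theorem split {D : List ℕ} {w : List (ℕ × AddChar (F0 hq hK) ℂ)} {r : ℕ} (hr : rho r = r)
    (h : pres r D (w.map Prod.fst) D = true) :
    Module.finrank ℂ (Wt hq hK ρ D w) = ∑ l : AddChar (F0 hq hK) ℂ, Module.finrank ℂ (Wt hq hK ρ D ((r, l) :: w)) := by
  rw [sum_dim (ρ := ρ) (z := L hq hK r) (fun a b => L_add hq hK (pres_iff.mp h).1 hr a b)
    (fun a v hv => pres_mem' hq hK h ((mem_U_long hq hK hr).mpr ⟨a, rfl⟩) hv)]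
  exact Finset.sum_congr rfl (fun l _ => by rw [Wt_cons])

theorem split_ge {D : List ℕ} {r : ℕ} (hr : rho r = r) (h : pres r D [] D = true) {n : ℕ}
    (hn : ∀ l : AddChar (F0 hq hK) ℂ, l ≠ 1 → n ≤ Module.finrank ℂ (Wt hq hK ρ D [(r, l)])) :
    (q - 1) * n + Module.finrank ℂ (Wt hq hK ρ (r :: D) []) ≤ Module.finrank ℂ (Wt hq hK ρ D []) := by
  classical
  rw [split hq hK ρ (w := []) hr h, ← Finset.add_sum_erase _ _ (Finset.mem_univ (1 : AddChar (F0 hq hK) ℂ)),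
    Wt_long hq hK ρ hr, add_comm]
  apply Nat.add_le_add_left
  have h1 : ∑ l ∈ Finset.univ.erase (1 : AddChar (F0 hq hK) ℂ), n ≤
      ∑ l ∈ Finset.univ.erase (1 : AddChar (F0 hq hK) ℂ), Module.finrank ℂ (Wt hq hK ρ D [(r, l)]) :=
    Finset.sum_le_sum (fun l hl => hn l (Finset.ne_of_mem_erase hl))
  rwa [Finset.sum_const, smul_eq_mul, Finset.card_erase_of_mem (Finset.mem_univ _), Finset.card_univ,
    AddChar.card_eq, card_F] at h1

theorem short_ge (D : List ℕ) (c : ℕ) :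
    Module.finrank ℂ (Wt hq hK ρ (c :: D) []) ≤ Module.finrank ℂ (Wt hq hK ρ D []) :=
  Submodule.finrank_mono (Wt_le hq hK ρ (fun _ hd => List.mem_cons_of_mem _ hd) (fun _ hp => hp))

end Cfsg.Agent.Lib.MinTE6F
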