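import Cfsg.Agent.Lib.MinTE6F

/-!
The groups 2E6(q): lines in the weight spaces (helper18).
-/

set_option autoImplicit false
set_option linter.unusedSectionVars false

namespace Cfsg.Agent.Lib.MinTE6G

open Cfsg.Lie Cfsg.Agent.Lib.MinTE6A Cfsg.Agent.Lib.MinTE6B Cfsg.Agent.Lib.MinTE6C Cfsg.Agent.Lib.MinTE6D
open Cfsg.Agent.Lib.MinTE6E Cfsg.Agent.Lib.MinTE6F

variable {K : Type*} [Field K] [Fintype K] {q : ℕ} (hq : IsPrimePow q) (hK : Fintype.card K = q ^ 2)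
  {V : Type*} [AddCommGroup V] [Module ℂ V] [FiniteDimensional ℂ V] [Fintype (F0 hq hK)]
  (ρ : Representation ℂ (Gh hq hK) V)

/-! ### adjacent roots -/

def adjc (a c s s' : ℕ) : Bool :=
  (pres c [] [a] [] && pres s [] [a] [] && (rho c == c) && (rho s == s) && (sm s c == a + 1)) &&
  (pres a [] [c] [] && pres s' [] [c] [] && (rho a == a) && (rho s' == s') && (sm s' a == c + 1))

theorem adj {a c s s' : ℕ} (h : adjc a c s s' = true) {α γ : AddChar (F0 hq hK) ℂ} (hα : α ≠ 1) (hγ : γ ≠ 1) :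
    Module.finrank ℂ (Wt hq hK ρ [] [(a, α)]) = Module.finrank ℂ (Wt hq hK ρ [] [(c, γ)]) := by
  unfold adjc at h
  simp only [Bool.and_eq_true, beq_iff_eq] at h
  obtain ⟨⟨⟨⟨⟨h1, h2⟩, h3⟩, h4⟩, h5⟩, ⟨⟨⟨h6, h7⟩, h8⟩, h9⟩, h10⟩ := h
  have e1 := freeL hq hK ρ (D := []) (w := [(a, α)]) h1 h2 h3 h4 h5 hα (by simp) γ
  have e2 := freeL hq hK ρ (D := []) (w := [(c, γ)]) h6 h7 h8 h9 h10 hγ (by simp) α
  have e3 : Wt hq hK ρ [] [(c, γ), (a, α)] = Wt hq hK ρ [] [(a, α), (c, γ)] := by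
    apply le_antisymm
    · exact Wt_le hq hK ρ (fun _ h => h) (fun p hp => by
        simp only [List.mem_cons, List.not_mem_nil, or_false] at hp ⊢; exact hp.symm)
    · exact Wt_le hq hK ρ (fun _ h => h) (fun p hp => by
        simp only [List.mem_cons, List.not_mem_nil, or_false] at hp ⊢; exact hp.symm)
  rw [e1, e2, e3]

/-! ### lines -/

variable {ρ}

/-- `g` acts on `W` as a scalar -/
def scal (ρ : Representation ℂ (Gh hq hK) V) (W : Submodule ℂ V) (g : Gh hq hK) : Prop :=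
  ∃ χ : ℂ, χ ≠ 0 ∧ ∀ v ∈ W, ρ g v = χ • v

theorem scal_of {W : Submodule ℂ V} (h1 : Module.finrank ℂ W = 1) {g : Gh hq hK} (hg : ∀ v ∈ W, ρ g v ∈ W) :
    scal hq hK ρ W g := by
  obtain ⟨⟨v, hv⟩, hv0, hspan⟩ := finrank_eq_one_iff'.mp h1
  obtain ⟨c, hc⟩ := hspan ⟨ρ g v, hg v hv⟩
  have hc' : c • v = ρ g v := congrArg Subtype.val hc
  refine ⟨c, ?_, fun w hw => ?_⟩
  · rintro rfl
    rw [zero_smul] at hc'
    have h2 : ρ g⁻¹ (ρ g v) = v := by
      have : ρ g⁻¹ * ρ g = 1 := by rw [← map_mul, inv_mul_cancel, map_one]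
      exact LinearMap.congr_fun this v
    rw [← hc', map_zero] at h2
    exact hv0 (Subtype.ext h2.symm)
  · obtain ⟨e, he⟩ := hspan ⟨w, hw⟩
    have he' : e • v = w := congrArg Subtype.val he
    rw [← he', map_smul, ← hc', smul_comm]

theorem scal_inv {W : Submodule ℂ V} {g : Gh hq hK} {χ : ℂ} (h0 : χ ≠ 0) (h : ∀ v ∈ W, ρ g v = χ • v) :
    ∀ v ∈ W, ρ g⁻¹ v = χ⁻¹ • v := by
  intro v hv
  have h2 : ρ g⁻¹ (ρ g v) = v := by
    have : ρ g⁻¹ * ρ g = 1 := by rw [← map_mul, inv_mul_cancel, map_one]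
    exact LinearMap.congr_fun this v
  rw [h v hv, map_smul] at h2
  rw [← h2, smul_smul, inv_mul_cancel₀ h0, one_smul, h2]

theorem comm_triv {W : Submodule ℂ V} {g h : Gh hq hK} (hg : scal hq hK ρ W g) (hh : scal hq hK ρ W h) :
    ∀ v ∈ W, ρ (h⁻¹ * (g * h * g⁻¹)) v = v := by
  obtain ⟨χ, hχ, h1⟩ := hg
  obtain ⟨ψ, hψ, h2⟩ := hh
  intro v hv
  have h3 := scal_inv hq hK hχ h1
  have h4 := scal_inv hq hK hψ h2
  rw [map_mul', map_mul', map_mul', h3 v hv]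
  simp only [map_smul]
  rw [h2 v hv]
  simp only [map_smul]
  rw [h1 v hv]
  simp only [map_smul]
  rw [h4 v hv]
  simp only [smul_smul]
  have e : χ⁻¹ * (ψ * (χ * ψ⁻¹)) = 1 := by field_simp
  have e2 : χ⁻¹ * ψ * χ * ψ⁻¹ = 1 := by field_simp
  first
    | rw [e, one_smul]
    | rw [e2, one_smul]

def presL (a : ℕ) (Λ R A : List ℕ) : Bool := (A.elem a && Nat.blt a 72) || pres a Λ R A

def clo (Λ R : List ℕ) : List (ℕ × ℕ × ℕ) → List ℕ → List ℕ
  | [], A => A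
  | t :: l, A => if presL t.1 Λ R A && presL t.2.1 Λ R A && (cb t.1 t.2.1).elem t.2.2 &&
      ((cb t.1 t.2.1).all fun c => (c == t.2.2) || A.elem c) then clo Λ R l (t.2.2 :: A) else []

theorem presL_scal {Λ A : List ℕ} {w : List (ℕ × AddChar (F0 hq hK) ℂ)} (h1 : Module.finrank ℂ (Wt hq hK ρ Λ w) = 1)
    (hA : ∀ c ∈ A, ∀ e ∈ U hq hK c, ∀ v ∈ Wt hq hK ρ Λ w, ρ e v = v) {a : ℕ}
    (ha : presL a Λ (w.map Prod.fst) A = true) :
    a < 72 ∧ ∀ g ∈ U hq hK a, (∀ v ∈ Wt hq hK ρ Λ w, ρ g v ∈ Wt hq hK ρ Λ w) ∧ scal hq hK ρ (Wt hq hK ρ Λ w) g := by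
  unfold presL at ha
  simp only [Bool.or_eq_true, Bool.and_eq_true, List.elem_eq_mem, decide_eq_true_eq, Nat.blt_eq] at ha
  have key : a < 72 ∧ ∀ g ∈ U hq hK a, ∀ v ∈ Wt hq hK ρ Λ w, ρ g v ∈ Wt hq hK ρ Λ w := by
    rcases ha with ⟨h2, h3⟩ | h2
    · exact ⟨h3, fun g hg v hv => by rw [hA a h2 g hg v hv]; exact hv⟩
    · exact ⟨(pres_iff.mp h2).1, fun g hg v hv => pres_mem hq hK h2 hg hv (fun c hc e he => hA c hc e he v hv)⟩
  exact ⟨key.1, fun g hg => ⟨key.2 g hg, scal_of hq hK h1 (key.2 g hg)⟩⟩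

theorem clo_sound {Λ : List ℕ} {w : List (ℕ × AddChar (F0 hq hK) ℂ)} (h1 : Module.finrank ℂ (Wt hq hK ρ Λ w) = 1)
    (st : List (ℕ × ℕ × ℕ)) : ∀ A : List ℕ, (∀ c ∈ A, ∀ e ∈ U hq hK c, ∀ v ∈ Wt hq hK ρ Λ w, ρ e v = v) →
    ∀ c ∈ clo Λ (w.map Prod.fst) st A, ∀ e ∈ U hq hK c, ∀ v ∈ Wt hq hK ρ Λ w, ρ e v = v := by
  induction st with
  | nil => intro A hA; exact hA
  | cons t st ih =>
    intro A hA
    unfold clo
    split_ifs with hc
    · apply ih
      simp only [Bool.and_eq_true, List.elem_eq_mem, decide_eq_true_eq, List.all_eq_true, Bool.or_eq_true,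
        beq_iff_eq] at hc
      obtain ⟨⟨⟨h2, h3⟩, h4⟩, h5⟩ := hc
      obtain ⟨ha, hga⟩ := presL_scal hq hK h1 hA h2
      obtain ⟨hb, hgb⟩ := presL_scal hq hK h1 hA h3
      intro c hc e he v hv
      rcases List.mem_cons.mp hc with rfl | hc
      · have := surj hq hK ha hb h4 (stb hq hK ρ v) (fun c' hc' hne e' he' => ?_)
          (fun g hg h hh => comm_triv hq hK (hga g hg).2 (hgb h hh).2 v hv) e he
        · exact this
        · rcases h5 c' hc' with h6 | h6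
          · exact absurd h6 hne
          · exact hA c' h6 e' he' v hv
      · exact hA c hc e he v hv
    · intro c hc; exact absurd hc List.not_mem_nil

/-- the closure of a line -/
theorem line_le {Λ D : List ℕ} {w : List (ℕ × AddChar (F0 hq hK) ℂ)} (h1 : Module.finrank ℂ (Wt hq hK ρ Λ w) = 1)
    {st : List (ℕ × ℕ × ℕ)} (h : (D.all fun c => (clo Λ (w.map Prod.fst) st Λ).elem c) = true) :
    Wt hq hK ρ Λ w ≤ Wt hq hK ρ D w := by
  intro v hv
  refine ⟨fun d hd g hg => ?_, hv.2⟩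
  rw [List.all_eq_true] at h
  have h2 := h d hd
  rw [List.elem_eq_mem, decide_eq_true_eq] at h2
  exact clo_sound hq hK h1 st Λ (fun c hc e he v hv => hv.1 c hc e he) d h2 g hg v hv

/-- a long root subgroup acting by scalars on a line acts by a character -/
theorem line_char {W : Submodule ℂ V} (h1 : Module.finrank ℂ W = 1) {b : ℕ} (hb : b < 72) (hlb : rho b = b)
    (h : ∀ g ∈ U hq hK b, ∀ v ∈ W, ρ g v ∈ W) :
    ∃ β : AddChar (F0 hq hK) ℂ, ∀ v ∈ W, ∀ t, ρ (L hq hK b t) v = β t • v := by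
  classical
  have h2 := sum_dim (ρ := ρ) (z := L hq hK b) (W := W) (fun a b' => L_add hq hK hb hlb a b')
    (fun a v hv => h _ ((mem_U_long hq hK hlb).mpr ⟨a, rfl⟩) v hv)
  obtain ⟨β, hβ⟩ : ∃ β : AddChar (F0 hq hK) ℂ, Module.finrank ℂ (W ⊓ wt ρ (L hq hK b) β : Submodule ℂ V) ≠ 0 := by
    by_contra hcon
    push Not at hcon
    rw [Finset.sum_congr rfl (fun β _ => hcon β), Finset.sum_const_zero, h1] at h2
    exact one_ne_zero h2
  have h3 : W ⊓ wt ρ (L hq hK b) β = W := by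
    apply Submodule.eq_of_le_of_finrank_le inf_le_left
    rw [h1]; omega
  refine ⟨β, fun v hv t => ?_⟩
  have h4 : v ∈ W ⊓ wt ρ (L hq hK b) β := by rw [h3]; exact hv
  exact h4.2 t

/-- **the case of a remaining scalar root subgroup `b`** -/
theorem line_le' {Λ D Λb : List ℕ} {p b : ℕ} {l : AddChar (F0 hq hK) ℂ} (hl : l ≠ 1)
    (h1 : Module.finrank ℂ (Wt hq hK ρ Λ [(p, l)]) = 1) {st : List (ℕ × ℕ × ℕ)}
    (hp : rho p = p) (hlb : rho b = b)
    (h : ((D ++ Λb).all fun c => (clo Λ [p] st Λ).elem c) = true) (hb : presL b Λ [p] (clo Λ [p] st Λ) = true)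
    (hbp : ∀ β : AddChar (F0 hq hK) ℂ, β ≠ 1 → Wt hq hK ρ Λb [(b, β)] ≤ Wt hq hK ρ [p] [(b, β)]) :
    Wt hq hK ρ Λ [(p, l)] ≤ Wt hq hK ρ (b :: D) [(p, l)] := by
  have hA := clo_sound hq hK h1 st Λ (fun c hc e he v hv => hv.1 c hc e he)
  rw [List.all_eq_true] at h
  have hmem : ∀ c ∈ D ++ Λb, c ∈ clo Λ [p] st Λ := by
    intro c hc
    have h2 := h c hc
    rwa [List.elem_eq_mem, decide_eq_true_eq] at h2
  obtain ⟨hb72, hgb⟩ := presL_scal hq hK h1 hA hb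
  obtain ⟨β, hβ⟩ := line_char hq hK h1 hb72 hlb (fun g hg => (hgb g hg).1)
  have hβ1 : β = 1 := by
    by_contra hne
    obtain ⟨⟨v, hv⟩, hv0, -⟩ := finrank_eq_one_iff'.mp h1
    have h3 : v ∈ Wt hq hK ρ Λb [(b, β)] := by
      refine ⟨fun d hd g hg => hA d (hmem d (List.mem_append_right _ hd)) g hg v hv, fun x hx t => ?_⟩
      rw [List.mem_singleton] at hx
      subst hx
      exact hβ v hv t
    have h4 := (hbp β hne h3).1 p (List.mem_singleton_self _)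
    obtain ⟨u, hu⟩ := exists_ne hq hK hl
    have h5 := h4 (L hq hK p u) ((mem_U_long hq hK hp).mpr ⟨u, rfl⟩)
    rw [hv.2 (p, l) (List.mem_singleton_self _) u] at h5
    have h6 : (l u - 1) • v = 0 := by rw [sub_smul, one_smul]; exact sub_eq_zero.mpr h5
    rcases smul_eq_zero.mp h6 with h7 | h7
    · exact hu (sub_eq_zero.mp h7)
    · exact hv0 (Subtype.ext h7)
  intro v hv
  refine ⟨fun d hd g hg => ?_, hv.2⟩
  rcases List.mem_cons.mp hd with rfl | hd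
  · obtain ⟨t, rfl⟩ := (mem_U_long hq hK hlb).mp hg
    rw [hβ v hv t, hβ1, AddChar.one_apply, one_smul]
  · exact hA d (hmem d (List.mem_append_left _ hd)) g hg v hv

/-! ### the opposite root -/

theorem opp_triv {r o : ℕ} {st1 st2 : List (ℕ × ℕ × ℕ)} (h1 : chk [r] st1 [] = true) (e1 : ell st1 = 6)
    (h2 : chk [o, r] st2 (ext st1 []) = true) (e2 : ell st2 = 8) (h3 : pres o (ext st1 []) [r] (ext st1 []) = true)
    (ho : rho o = o) {l : AddChar (F0 hq hK) ℂ} (hl : l ≠ 1)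
    (hd : Module.finrank ℂ (Wt hq hK ρ [] [(r, l)]) = q ^ 10) :
    Module.finrank ℂ (Wt hq hK ρ (o :: ext st1 []) [(r, l)]) = q ^ 4 := by
  classical
  have hq0 : 0 < q := hq.pos
  have hq2 : 2 ≤ q := hq.two_le
  have c1 := chain hq hK ρ (w := [(r, l)]) (fun p hp => by rw [List.mem_singleton] at hp; rw [hp]; exact hl) st1 [] h1
  rw [hd, e1] at c1
  have c2 : Module.finrank ℂ (Wt hq hK ρ (ext st1 []) [(r, l)]) = q ^ 4 := by
    apply Nat.eq_of_mul_eq_mul_left (pow_pos hq0 6)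
    rw [← c1, ← pow_add]
  have c3 := split hq hK ρ (w := [(r, l)]) ho h3
  have c4 : ∀ l' ∈ Finset.univ.erase (1 : AddChar (F0 hq hK) ℂ),
      Module.finrank ℂ (Wt hq hK ρ (ext st1 []) [(o, l'), (r, l)]) = 0 := by
    intro l' hl'
    have hl'1 := Finset.ne_of_mem_erase hl'
    have c5 := chain hq hK ρ (w := [(o, l'), (r, l)]) (fun p hp => by
      simp only [List.mem_cons, List.not_mem_nil, or_false] at hp
      rcases hp with rfl | rfl
      · exact hl'1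
      · exact hl) st2 _ h2
    rw [e2] at c5
    have c6 : Module.finrank ℂ (Wt hq hK ρ (ext st1 []) [(o, l'), (r, l)]) ≤ q ^ 4 := by
      rw [← c2]
      exact Submodule.finrank_mono (Wt_le hq hK ρ (fun _ h => h) (fun p hp => List.mem_cons_of_mem _ hp))
    by_contra hne
    have c7 : 1 ≤ Module.finrank ℂ (Wt hq hK ρ (ext st2 (ext st1 [])) [(o, l'), (r, l)]) := by
      rcases Nat.eq_zero_or_pos (Module.finrank ℂ (Wt hq hK ρ (ext st2 (ext st1 [])) [(o, l'), (r, l)])) with h | h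
      · rw [h, mul_zero] at c5; exact absurd c5 hne
      · exact h
    have c8 : q ^ 8 ≤ q ^ 4 := by
      calc q ^ 8 = q ^ 8 * 1 := (mul_one _).symm
        _ ≤ _ := Nat.mul_le_mul_left _ c7
        _ ≤ q ^ 4 := by rw [← c5]; exact c6
    have c9 : q ^ 4 < q ^ 8 := Nat.pow_lt_pow_right (by omega) (by norm_num)
    omega
  rw [c2, ← Finset.add_sum_erase _ _ (Finset.mem_univ (1 : AddChar (F0 hq hK) ℂ)), Finset.sum_congr rfl c4,
    Finset.sum_const_zero, add_zero, Wt_long hq hK ρ ho] at c3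
  exact c3.symm

end Cfsg.Agent.Lib.MinTE6G
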