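import Cfsg.Agent.Lib.MinTE6H
import Cfsg.Agent.Lib.MinDegJ

/-!
The groups 2E6(q): the lower bound (helper18).
-/

set_option autoImplicit false
set_option linter.unusedSectionVars false

namespace Cfsg.Agent.Lib.MinTE6I

open Cfsg.Lie Cfsg.Agent.Lib.MinTE6A Cfsg.Agent.Lib.MinTE6B Cfsg.Agent.Lib.MinTE6C Cfsg.Agent.Lib.MinTE6D
open Cfsg.Agent.Lib.MinTE6E Cfsg.Agent.Lib.MinTE6F Cfsg.Agent.Lib.MinTE6G Cfsg.Agent.Lib.MinTE6H Cfsg.Agent.Lib

variable {K : Type*} [Field K] [Fintype K] {q : ℕ} (hq : IsPrimePow q) (hK : Fintype.card K = q ^ 2)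
  {V : Type*} [AddCommGroup V] [Module ℂ V] [FiniteDimensional ℂ V] [Fintype (F0 hq hK)]
  (ρ : Representation ℂ (Gh hq hK) V)

/-- the dimension of the space of a weight -/
noncomputable abbrev m (D : List ℕ) (r : ℕ) (l : AddChar (F0 hq hK) ℂ) : ℕ := Module.finrank ℂ (Wt hq hK ρ D [(r, l)])

/-- all long roots have the same multiplicities -/
theorem m_const {r : ℕ} (hr : r ∈ [71, 70, 69, 65, 63, 60, 53, 51, 47, 46, 44, 39]) {l l' : AddChar (F0 hq hK) ℂ}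
    (hl : l ≠ 1) (hl' : l' ≠ 1) : m hq hK ρ [] r l = m hq hK ρ [] 71 l' := by
  have h70 : ∀ {l l' : AddChar (F0 hq hK) ℂ}, l ≠ 1 → l' ≠ 1 → m hq hK ρ [] 70 l = m hq hK ρ [] 71 l' :=
    fun hl hl' => (adj hq hK ρ adj70 hl' hl).symm
  simp only [List.mem_cons, List.not_mem_nil, or_false] at hr
  rcases hr with rfl | rfl | rfl | rfl | rfl | rfl | rfl | rfl | rfl | rfl | rfl | rfl
  · exact (h70 hl hl).symm.trans (h70 hl hl')
  · exact h70 hl hl'
  · exact (adj hq hK ρ adj69 hl' hl).symm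
  · exact (adj hq hK ρ adj65 hl' hl).symm
  · exact (adj hq hK ρ adj63 hl' hl).symm
  · exact (adj hq hK ρ adj60 hl' hl).symm.trans (h70 hl' hl')
  · exact (adj hq hK ρ adj53 hl' hl).symm
  · exact (adj hq hK ρ adj51 hl' hl).symm
  · exact (adj hq hK ρ adj47 hl' hl).symm
  · exact (adj hq hK ρ adj46 hl' hl).symm
  · exact (adj hq hK ρ adj44 hl' hl).symm.trans (h70 hl' hl')
  · exact (adj hq hK ρ adj39 hl' hl).symm.trans (h70 hl' hl')

theorem chain1 {r : ℕ} {l : AddChar (F0 hq hK) ℂ} (hl : l ≠ 1) {st : List (ℕ × ℕ × ℕ)} {D : List ℕ}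
    (h : chk [r] st D = true) : m hq hK ρ D r l = q ^ ell st * m hq hK ρ (ext st D) r l :=
  chain hq hK ρ (w := [(r, l)]) (fun p hp => by rw [List.mem_singleton] at hp; rw [hp]; exact hl) st D h

theorem Wt_congr {D D' : List ℕ} {w : List (ℕ × AddChar (F0 hq hK) ℂ)} (h : ∀ d, d ∈ D ↔ d ∈ D') :
    Wt hq hK ρ D w = Wt hq hK ρ D' w :=
  le_antisymm (Wt_le hq hK ρ (fun d hd => (h d).mpr hd) (fun _ hp => hp))
    (Wt_le hq hK ρ (fun d hd => (h d).mp hd) (fun _ hp => hp))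

section one

variable (hd : ∀ l : AddChar (F0 hq hK) ℂ, l ≠ 1 → m hq hK ρ [] 71 l = q ^ 10)
include hd

theorem line1 {r : ℕ} (hr : r ∈ [71, 70, 69, 65, 63, 60, 53, 51, 47, 46, 44, 39]) {l : AddChar (F0 hq hK) ℂ}
    (hl : l ≠ 1) {st : List (ℕ × ℕ × ℕ)} (h : chk [r] st [] = true ∧ ell st = 10) : m hq hK ρ (ext st []) r l = 1 := by
  have h1 := chain1 hq hK ρ hl h.1
  rw [h.2, m_const hq hK ρ hr hl hl, hd l hl] at h1
  apply Nat.eq_of_mul_eq_mul_left (pow_pos hq.pos 10)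
  rw [← h1, mul_one]

theorem t0 {l : AddChar (F0 hq hK) ℂ} (hl : l ≠ 1) : q ^ 10 ≤ m hq hK ρ [] 71 l := (hd l hl).ge

theorem t1 {l : AddChar (F0 hq hK) ℂ} (hl : l ≠ 1) : q ^ 9 ≤ m hq hK ρ [71] 70 l := by
  have h1 := chain1 hq hK ρ hl (r := 70) (st := [(71, 25, 70)]) (D := []) (by decide +kernel)
  rw [m_const hq hK ρ (by decide) hl hl, hd l hl, show ell [(71, 25, 70)] = 1 by decide +kernel] at h1
  apply Nat.le_of_mul_le_mul_left _ (pow_pos hq.pos 1)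
  rw [← pow_add]
  exact h1.le

theorem t2 {l : AddChar (F0 hq hK) ℂ} (hl : l ≠ 1) : q ^ 8 ≤ m hq hK ρ [70, 71] 69 l := by
  have h1 := chain1 hq hK ρ hl (r := 69) (st := [(71, 24, 69), (70, 32, 69)]) (D := []) (by decide +kernel)
  rw [m_const hq hK ρ (by decide) hl hl, hd l hl, show ell [(71, 24, 69), (70, 32, 69)] = 2 by decide +kernel] at h1
  apply Nat.le_of_mul_le_mul_left _ (pow_pos hq.pos 2)
  rw [← pow_add]
  exact h1.le

theorem o65 {l : AddChar (F0 hq hK) ℂ} (hl : l ≠ 1) : m hq hK ρ (69 :: ext a65 []) 65 l = q ^ 4 :=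
  opp_triv hq hK ka65.1 ka65.2.1 ka65.2.2.1 ka65.2.2.2.1 ka65.2.2.2.2 (by decide +kernel) hl
    (by rw [← hd l hl]; exact m_const hq hK ρ (by decide) hl hl)

theorem o63 {l : AddChar (F0 hq hK) ℂ} (hl : l ≠ 1) : m hq hK ρ (70 :: ext a63 []) 63 l = q ^ 4 :=
  opp_triv hq hK ka63.1 ka63.2.1 ka63.2.2.1 ka63.2.2.2.1 ka63.2.2.2.2 (by decide +kernel) hl
    (by rw [← hd l hl]; exact m_const hq hK ρ (by decide) hl hl)

theorem o60 {l : AddChar (F0 hq hK) ℂ} (hl : l ≠ 1) : m hq hK ρ (71 :: ext a60 []) 60 l = q ^ 4 :=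
  opp_triv hq hK ka60.1 ka60.2.1 ka60.2.2.1 ka60.2.2.2.1 ka60.2.2.2.2 (by decide +kernel) hl
    (by rw [← hd l hl]; exact m_const hq hK ρ (by decide) hl hl)

/-- the free steps followed by an inclusion -/
theorem ge_of {D Λ : List ℕ} {r e n : ℕ} {l : AddChar (F0 hq hK) ℂ} (hl : l ≠ 1) {st : List (ℕ × ℕ × ℕ)}
    (h : chk [r] st D = true ∧ ell st = e) (hn : n ≤ m hq hK ρ Λ r l)
    (hle : Wt hq hK ρ Λ [(r, l)] ≤ Wt hq hK ρ (ext st D) [(r, l)]) : q ^ e * n ≤ m hq hK ρ D r l := by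
  rw [chain1 hq hK ρ hl h.1, h.2]
  exact Nat.mul_le_mul_left _ (hn.trans (Submodule.finrank_mono hle))

theorem t4 {l : AddChar (F0 hq hK) ℂ} (hl : l ≠ 1) : q ^ 6 ≤ m hq hK ρ [66, 69, 70, 71] 65 l := by
  have := ge_of hq hK ρ hd hl (st := [(63, 39, 65), (60, 47, 65)]) (D := [66, 69, 70, 71]) (e := 2) (by decide +kernel)
    (o65 hq hK ρ hd hl).ge (Wt_le hq hK ρ (by decide) (fun _ h => h))
  rw [← pow_add] at this
  exact this

theorem t5 {l : AddChar (F0 hq hK) ℂ} (hl : l ≠ 1) : q ^ 5 ≤ m hq hK ρ [65, 66, 69, 70, 71] 63 l := by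
  have := ge_of hq hK ρ hd hl (st := [(60, 46, 63)]) (D := [65, 66, 69, 70, 71]) (e := 1) (by decide +kernel)
    (o63 hq hK ρ hd hl).ge (Wt_le hq hK ρ (by decide) (fun _ h => h))
  rw [← pow_add] at this
  exact this

theorem t6 {l : AddChar (F0 hq hK) ℂ} (hl : l ≠ 1) : q ^ 4 ≤ m hq hK ρ [63, 65, 66, 69, 70, 71] 60 l := by
  have := ge_of hq hK ρ hd hl (st := []) (D := [63, 65, 66, 69, 70, 71]) (e := 0) (by decide +kernel)
    (o60 hq hK ρ hd hl).ge (Wt_le hq hK ρ (by decide) (fun _ h => h))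
  rw [← pow_add] at this
  exact this

theorem t7 {l : AddChar (F0 hq hK) ℂ} (hl : l ≠ 1) : q ^ 4 ≤ m hq hK ρ [60, 63, 65, 66, 69, 70, 71] 53 l := by
  have h1 := line1 hq hK ρ hd (by decide) hl kc53
  have := ge_of hq hK ρ hd hl (st := [(51, 39, 53), (48, 43, 53), (47, 44, 53)]) (D := [60, 63, 65, 66, 69, 70, 71])
    (e := 4) (by decide +kernel) h1.ge
    ((line_le hq hK (w := [(53, l)]) h1 kd53).trans (Wt_le hq hK ρ (by decide) (fun _ h => h)))
  rw [mul_one] at this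
  exact this

theorem t8 {l : AddChar (F0 hq hK) ℂ} (hl : l ≠ 1) : q ^ 3 ≤ m hq hK ρ [53, 60, 63, 65, 66, 69, 70, 71] 51 l := by
  have h1 := line1 hq hK ρ hd (by decide) hl kc51
  have := ge_of hq hK ρ hd hl (st := [(48, 42, 51), (46, 44, 51)]) (D := [53, 60, 63, 65, 66, 69, 70, 71])
    (e := 3) (by decide +kernel) h1.ge
    ((line_le hq hK (w := [(51, l)]) h1 kd51).trans (Wt_le hq hK ρ (by decide) (fun _ h => h)))
  rw [mul_one] at this
  exact this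

theorem t10 {l : AddChar (F0 hq hK) ℂ} (hl : l ≠ 1) : q ≤ m hq hK ρ [48, 51, 53, 60, 63, 65, 66, 69, 70, 71] 47 l := by
  have h1 := line1 hq hK ρ hd (by decide) hl kc47
  have := ge_of hq hK ρ hd hl (st := [(46, 39, 47)]) (D := [48, 51, 53, 60, 63, 65, 66, 69, 70, 71])
    (e := 1) (by decide +kernel) h1.ge
    ((line_le hq hK (w := [(47, l)]) h1 kd47).trans (Wt_le hq hK ρ (by decide) (fun _ h => h)))
  rw [mul_one, pow_one] at this
  exact this

theorem t11 {l : AddChar (F0 hq hK) ℂ} (hl : l ≠ 1) : 1 ≤ m hq hK ρ [47, 48, 51, 53, 60, 63, 65, 66, 69, 70, 71] 46 l := by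
  have h1 := line1 hq hK ρ hd (by decide) hl kc46
  rw [← h1]
  exact Submodule.finrank_mono ((line_le hq hK (w := [(46, l)]) h1 kd46).trans (Wt_le hq hK ρ (by decide) (fun _ h => h)))

theorem l44 {l : AddChar (F0 hq hK) ℂ} (hl : l ≠ 1) : Wt hq hK ρ (ext c44 []) [(44, l)] ≤
    Wt hq hK ρ (46 :: [71, 70, 69, 66, 65, 63, 60, 53, 51, 48, 47, 40, 39]) [(44, l)] :=
  line_le' hq hK hl (line1 hq hK ρ hd (by decide) hl kc44) (by decide +kernel) (by decide +kernel) kd44 ks44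
    (fun β hβ => (line_le hq hK (w := [(46, β)]) (line1 hq hK ρ hd (by decide) hβ kc46) kd46).trans
      (Wt_le hq hK ρ (by decide) (fun _ h => h)))

theorem l39 {l : AddChar (F0 hq hK) ℂ} (hl : l ≠ 1) : Wt hq hK ρ (ext c39 []) [(39, l)] ≤
    Wt hq hK ρ (46 :: [71, 70, 69, 66, 65, 63, 60, 53, 51, 48, 47, 44, 40]) [(39, l)] :=
  line_le' hq hK hl (line1 hq hK ρ hd (by decide) hl kc39) (by decide +kernel) (by decide +kernel) kd39 ks39
    (fun β hβ => (line_le hq hK (w := [(46, β)]) (line1 hq hK ρ hd (by decide) hβ kc46) kd46).trans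
      (Wt_le hq hK ρ (by decide) (fun _ h => h)))

theorem t12 {l : AddChar (F0 hq hK) ℂ} (hl : l ≠ 1) :
    q ^ 2 ≤ m hq hK ρ [46, 47, 48, 51, 53, 60, 63, 65, 66, 69, 70, 71] 44 l := by
  have h1 := line1 hq hK ρ hd (by decide) hl kc44
  have := ge_of hq hK ρ hd hl (st := [(40, 42, 44)]) (D := [46, 47, 48, 51, 53, 60, 63, 65, 66, 69, 70, 71])
    (e := 2) (by decide +kernel) h1.ge ((l44 hq hK ρ hd hl).trans (Wt_le hq hK ρ (by decide) (fun _ h => h)))
  rw [mul_one] at this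
  exact this

theorem t14 {l : AddChar (F0 hq hK) ℂ} (hl : l ≠ 1) :
    1 ≤ m hq hK ρ [40, 44, 46, 47, 48, 51, 53, 60, 63, 65, 66, 69, 70, 71] 39 l := by
  have h1 := line1 hq hK ρ hd (by decide) hl kc39
  rw [← h1]
  exact Submodule.finrank_mono ((l39 hq hK ρ hd hl).trans (Wt_le hq hK ρ (by decide) (fun _ h => h)))

theorem bound : (q - 1) * (q ^ 10 + q ^ 9 + q ^ 8 + q ^ 6 + q ^ 5 + q ^ 4 + q ^ 4 + q ^ 3 + q + 1 + q ^ 2 + 1) ≤
    Module.finrank ℂ (Wt hq hK ρ [] []) := by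
  have s0 := split_ge hq hK ρ (D := []) (r := 71) (by decide +kernel) (by decide +kernel) (fun l hl => t0 hq hK ρ hd hl)
  have s1 := split_ge hq hK ρ (D := [71]) (r := 70) (by decide +kernel) (by decide +kernel) (fun l hl => t1 hq hK ρ hd hl)
  have s2 := split_ge hq hK ρ (D := [70, 71]) (r := 69) (by decide +kernel) (by decide +kernel)
    (fun l hl => t2 hq hK ρ hd hl)
  have s3 := short_ge hq hK ρ [69, 70, 71] 66
  have s4 := split_ge hq hK ρ (D := [66, 69, 70, 71]) (r := 65) (by decide +kernel) (by decide +kernel)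
    (fun l hl => t4 hq hK ρ hd hl)
  have s5 := split_ge hq hK ρ (D := [65, 66, 69, 70, 71]) (r := 63) (by decide +kernel) (by decide +kernel)
    (fun l hl => t5 hq hK ρ hd hl)
  have s6 := split_ge hq hK ρ (D := [63, 65, 66, 69, 70, 71]) (r := 60) (by decide +kernel) (by decide +kernel)
    (fun l hl => t6 hq hK ρ hd hl)
  have s7 := split_ge hq hK ρ (D := [60, 63, 65, 66, 69, 70, 71]) (r := 53) (by decide +kernel) (by decide +kernel)
    (fun l hl => t7 hq hK ρ hd hl)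
  have s8 := split_ge hq hK ρ (D := [53, 60, 63, 65, 66, 69, 70, 71]) (r := 51) (by decide +kernel) (by decide +kernel)
    (fun l hl => t8 hq hK ρ hd hl)
  have s9 := short_ge hq hK ρ [51, 53, 60, 63, 65, 66, 69, 70, 71] 48
  have s10 := split_ge hq hK ρ (D := [48, 51, 53, 60, 63, 65, 66, 69, 70, 71]) (r := 47) (by decide +kernel)
    (by decide +kernel) (fun l hl => t10 hq hK ρ hd hl)
  have s11 := split_ge hq hK ρ (D := [47, 48, 51, 53, 60, 63, 65, 66, 69, 70, 71]) (r := 46) (by decide +kernel)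
    (by decide +kernel) (fun l hl => t11 hq hK ρ hd hl)
  have s12 := split_ge hq hK ρ (D := [46, 47, 48, 51, 53, 60, 63, 65, 66, 69, 70, 71]) (r := 44) (by decide +kernel)
    (by decide +kernel) (fun l hl => t12 hq hK ρ hd hl)
  have s13 := short_ge hq hK ρ [44, 46, 47, 48, 51, 53, 60, 63, 65, 66, 69, 70, 71] 40
  have s14 := split_ge hq hK ρ (D := [40, 44, 46, 47, 48, 51, 53, 60, 63, 65, 66, 69, 70, 71]) (r := 39)
    (by decide +kernel) (by decide +kernel) (fun l hl => t14 hq hK ρ hd hl)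
  have e : (q - 1) * (q ^ 10 + q ^ 9 + q ^ 8 + q ^ 6 + q ^ 5 + q ^ 4 + q ^ 4 + q ^ 3 + q + 1 + q ^ 2 + 1) =
    (q - 1) * q ^ 10 + (q - 1) * q ^ 9 + (q - 1) * q ^ 8 + (q - 1) * q ^ 6 + (q - 1) * q ^ 5 + (q - 1) * q ^ 4 +
    (q - 1) * q ^ 4 + (q - 1) * q ^ 3 + (q - 1) * q + (q - 1) * 1 + (q - 1) * q ^ 2 + (q - 1) * 1 := by ring
  rw [e]
  omega

end one

theorem Wt_top : Wt hq hK ρ [] [] = ⊤ := by
  rw [eq_top_iff]
  intro v _
  exact ⟨fun d hd => absurd hd List.not_mem_nil, fun p hp => absurd hp List.not_mem_nil⟩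

/-- **the lower bound** -/
theorem lower (hnt : ∃ u, ρ (L hq hK 71 u) ≠ 1) :
    2 * (q - 1) * q ^ 10 ≤ Module.finrank ℂ V ∨
    (q - 1) * (q ^ 10 + q ^ 9 + q ^ 8 + q ^ 6 + q ^ 5 + q ^ 4 + q ^ 4 + q ^ 3 + q + 1 + q ^ 2 + 1) ≤ Module.finrank ℂ V := by
  classical
  obtain ⟨l0, hl0⟩ := MinDegJ.exists_char (F0 hq hK)
  have hV : Module.finrank ℂ (Wt hq hK ρ [] []) = Module.finrank ℂ V := by rw [Wt_top, finrank_top]
  have h1 := chain1 hq hK ρ hl0 kc71.1
  rw [kc71.2] at h1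
  set μ := m hq hK ρ (ext c71 []) 71 l0 with hμ
  have hd : ∀ l : AddChar (F0 hq hK) ℂ, l ≠ 1 → m hq hK ρ [] 71 l = q ^ 10 * μ := fun l hl => by
    rw [← h1]; exact m_const hq hK ρ (by decide) hl hl0
  rcases Nat.lt_or_ge μ 2 with h2 | h2
  · have h3 : μ = 0 ∨ μ = 1 := by omega
    rcases h3 with h3 | h3
    · exfalso
      obtain ⟨u, hu⟩ := hnt
      apply hu
      have h4 := split hq hK ρ (D := []) (w := []) (r := 71) (by decide +kernel)
        (show pres 71 [] [] [] = true by decide +kernel)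
      rw [← Finset.add_sum_erase _ _ (Finset.mem_univ (1 : AddChar (F0 hq hK) ℂ)), Finset.sum_congr rfl
        (fun l hl => hd l (Finset.ne_of_mem_erase hl)), h3, mul_zero, Finset.sum_const_zero, add_zero, hV,
        Wt_long hq hK ρ (by decide +kernel)] at h4
      have h5 : Wt hq hK ρ [71] [] = ⊤ := Submodule.eq_top_of_finrank_eq h4.symm
      ext v
      have h6 : v ∈ Wt hq hK ρ [71] [] := by rw [h5]; trivial
      exact h6.1 71 (List.mem_singleton_self _) _ ((mem_U_long hq hK (by decide +kernel)).mpr ⟨u, rfl⟩)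
    · right
      rw [← hV]
      exact bound hq hK ρ (fun l hl => by rw [hd l hl, h3, mul_one])
  · left
    have h4 := split_ge hq hK ρ (D := []) (r := 71) (by decide +kernel) (by decide +kernel)
      (fun l hl => (hd l hl).ge)
    rw [hV] at h4
    calc 2 * (q - 1) * q ^ 10 = (q - 1) * (q ^ 10 * 2) := by ring
      _ ≤ (q - 1) * (q ^ 10 * μ) := Nat.mul_le_mul_left _ (Nat.mul_le_mul_left _ h2)
      _ ≤ _ := by omega

end Cfsg.Agent.Lib.MinTE6I
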