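import Mathlib

/-!
Arithmetic for the minimal degree of 2E6(q) (helper18).
-/

set_option autoImplicit false

namespace Cfsg.Agent.Lib.MinTE6J

/-- the bound minus zero -/
def TT (q : ℤ) : ℤ := q ^ 11 - q ^ 8 + q ^ 7 + q ^ 5 - q ^ 4 + q

def NN (q : ℤ) : ℤ := (q ^ 2 - 1) * (q ^ 5 + 1) * (q ^ 6 - 1) * (q ^ 8 - 1) * (q ^ 9 + 1) * (q ^ 12 - 1)

theorem id1 (q : ℤ) : NN q = (TT q - 1) * (1 * q ^ 31 - 1 * q ^ 29 + 1 * q ^ 28 - 1 * q ^ 27 - 2 * q ^ 24 + 2 * q ^ 23 - 1 * q ^ 22 + 2 * q ^ 20 - 3 * q ^ 19 + 1 * q ^ 18 + 3 * q ^ 17 - 3 * q ^ 16 + 1 * q ^ 15 + 1 * q ^ 14 - 4 * q ^ 13 + 6 * q ^ 12 - 4 * q ^ 11 - 3 * q ^ 10 + 10 * q ^ 9 - 11 * q ^ 8 + 5 * q ^ 7 + 8 * q ^ 6 - 17 * q ^ 5 + 15 * q ^ 4 - 2 * q ^ 3 - 14 * q ^ 2 + 25 * q ^ 1 - 23) + (1 * q ^ 10 + 29 * q ^ 9 - 47 * q ^ 8 + 31 *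 q ^ 7 - 15 * q ^ 6 + 17 * q ^ 5 - 6 * q ^ 4 + 12 * q ^ 3 - 40 * q ^ 2 + 48 * q ^ 1 - 22) := by
  unfold NN TT; ring

theorem id2 (q : ℤ) : NN q = (TT q - 2) * (1 * q ^ 31 - 1 * q ^ 29 + 1 * q ^ 28 - 1 * q ^ 27 - 2 * q ^ 24 + 2 * q ^ 23 - 1 * q ^ 22 + 3 * q ^ 20 - 3 * q ^ 19 + 5 * q ^ 17 - 5 * q ^ 16 + 3 * q ^ 14 - 9 * q ^ 13 + 10 * q ^ 12 - 5 * q ^ 11 - 7 * q ^ 10 + 22 * q ^ 9 - 21 * q ^ 8 + 6 * q ^ 7 + 24 * q ^ 6 - 40 * q ^ 5 + 26 * q ^ 4 + 7 * q ^ 3 - 49 * q ^ 2 + 63 * q ^ 1 - 42) + (-27 * q ^ 10 + 112 * q ^ 9 - 134 * q ^ 8 + 85 * q ^ 7 - 25 * q ^ 6 + 3 * q ^ 4 + 63 * q ^ 3 - 162 * q ^ 2 + 168 * q ^ 1 - 83) := by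
  unfold NN TT; ring

theorem pos1 (y : ℕ) : (0 : ℤ) < TT ((y : ℤ) + 6) - 1 - (1 * ((y : ℤ) + 6) ^ 10 + 29 * ((y : ℤ) + 6) ^ 9 - 47 * ((y : ℤ) + 6) ^ 8 + 31 * ((y : ℤ) + 6) ^ 7 - 15 * ((y : ℤ) + 6) ^ 6 + 17 * ((y : ℤ) + 6) ^ 5 - 6 * ((y : ℤ) + 6) ^ 4 + 12 * ((y : ℤ) + 6) ^ 3 - 40 * ((y : ℤ) + 6) ^ 2 + 48 * ((y : ℤ) + 6) ^ 1 - 22) := by
  obtain ⟨n, hn⟩ : ∃ n : ℕ, TT ((y : ℤ) + 6) - 1 - (1 * ((y : ℤ) + 6) ^ 10 + 29 * ((y : ℤ) + 6) ^ 9 - 47 * ((y : ℤ) + 6) ^ 8 + 31 * ((y : ℤ) + 6) ^ 7 - 15 * ((y : ℤ) + 6) ^ 6 + 17 * ((y : ℤ) + 6) ^ 5 - 6 * ((y : ℤ) + 6) ^ 4 + 12 * ((y : ℤ) + 6) ^ 3 - 40 * ((y : ℤ) + 6) ^ 2 + 48 * ((y : ℤ) + 6) ^ 1 - 22) = (n : ℤ) + 79522443 :=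
    ⟨1 * y ^ 11 + 65 * y ^ 10 + 1891 * y ^ 9 + 32500 * y ^ 8 + 366354 * y ^ 7 + 2839299 * y ^ 6 + 15394196 * y ^ 5 + 58121561 * y ^ 4 + 148619628 * y ^ 3 + 241889368 * y ^ 2 + 219789505 * y ^ 1, by unfold TT; push_cast; ring⟩
  rw [hn]
  have := Int.natCast_nonneg n
  linarith

theorem pos1' (y : ℕ) : (0 : ℤ) < 1 * ((y : ℤ) + 6) ^ 10 + 29 * ((y : ℤ) + 6) ^ 9 - 47 * ((y : ℤ) + 6) ^ 8 + 31 * ((y : ℤ) + 6) ^ 7 - 15 * ((y : ℤ) + 6) ^ 6 + 17 * ((y : ℤ) + 6) ^ 5 - 6 * ((y : ℤ) + 6) ^ 4 + 12 * ((y : ℤ) + 6) ^ 3 - 40 * ((y : ℤ) + 6) ^ 2 + 48 * ((y : ℤ) + 6) ^ 1 - 22 := by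
  obtain ⟨n, hn⟩ : ∃ n : ℕ, 1 * ((y : ℤ) + 6) ^ 10 + 29 * ((y : ℤ) + 6) ^ 9 - 47 * ((y : ℤ) + 6) ^ 8 + 31 * ((y : ℤ) + 6) ^ 7 - 15 * ((y : ℤ) + 6) ^ 6 + 17 * ((y : ℤ) + 6) ^ 5 - 6 * ((y : ℤ) + 6) ^ 4 + 12 * ((y : ℤ) + 6) ^ 3 - 40 * ((y : ℤ) + 6) ^ 2 + 48 * ((y : ℤ) + 6) ^ 1 - 22 = (n : ℤ) + 281881418 :=
    ⟨1 * y ^ 10 + 89 * y ^ 9 + 3139 * y ^ 8 + 61279 * y ^ 7 + 752247 * y ^ 6 + 6149537 * y ^ 5 + 34174188 * y ^ 4 + 128127252 * y ^ 3 + 311242784 * y ^ 2 + 443431152 * y ^ 1, by push_cast; ring⟩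
  rw [hn]
  have := Int.natCast_nonneg n
  linarith

theorem pos2 (y : ℕ) : (0 : ℤ) < TT ((y : ℤ) + 50) - 2 + 2 * (-27 * ((y : ℤ) + 50) ^ 10 + 112 * ((y : ℤ) + 50) ^ 9 - 134 * ((y : ℤ) + 50) ^ 8 + 85 * ((y : ℤ) + 50) ^ 7 - 25 * ((y : ℤ) + 50) ^ 6 + 3 * ((y : ℤ) + 50) ^ 4 + 63 * ((y : ℤ) + 50) ^ 3 - 162 * ((y : ℤ) + 50) ^ 2 + 168 * ((y : ℤ) + 50) ^ 1 - 83) := by
  obtain ⟨n, hn⟩ : ∃ n : ℕ, TT ((y : ℤ) + 50) - 2 + 2 * (-27 * ((y : ℤ) + 50) ^ 10 + 112 * ((y : ℤ) + 50) ^ 9 - 134 * ((y : ℤ) + 50) ^ 8 + 85 * ((y : ℤ) + 50) ^ 7 - 25 * ((y : ℤ) + 50) ^ 6 + 3 * ((y : ℤ) + 50) ^ 4 + 63 * ((y : ℤ) + 50) ^ 3 - 162 * ((y : ℤ) + 50) ^ 2 + 168 * ((y : ℤ) + 50) ^ 1 - 83) = (n : ℤ) + 36500000358706682 :=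
    ⟨1 * y ^ 11 + 496 * y ^ 10 + 110724 * y ^ 9 + 14650531 * y ^ 8 + 1272552571 * y ^ 7 + 75833229800 * y ^ 6 + 3140775962501 * y ^ 5 + 89328058750255 * y ^ 4 + 1672142281276126 * y ^ 3 + 18683430001343576 * y ^ 2 + 96618609409662937 * y ^ 1, by unfold TT; push_cast; ring⟩
  rw [hn]
  have := Int.natCast_nonneg n
  linarith

theorem pos2' (y : ℕ) : (0 : ℤ) < -(-27 * ((y : ℤ) + 50) ^ 10 + 112 * ((y : ℤ) + 50) ^ 9 - 134 * ((y : ℤ) + 50) ^ 8 + 85 * ((y : ℤ) + 50) ^ 7 - 25 * ((y : ℤ) + 50) ^ 6 + 3 * ((y : ℤ) + 50) ^ 4 + 63 * ((y : ℤ) + 50) ^ 3 - 162 * ((y : ℤ) + 50) ^ 2 + 168 * ((y : ℤ) + 50) ^ 1 - 83) := by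
  obtain ⟨n, hn⟩ : ∃ n : ℕ, -(-27 * ((y : ℤ) + 50) ^ 10 + 112 * ((y : ℤ) + 50) ^ 9 - 134 * ((y : ℤ) + 50) ^ 8 + 85 * ((y : ℤ) + 50) ^ 7 - 25 * ((y : ℤ) + 50) ^ 6 + 3 * ((y : ℤ) + 50) ^ 4 + 63 * ((y : ℤ) + 50) ^ 3 - 162 * ((y : ℤ) + 50) ^ 2 + 168 * ((y : ℤ) + 50) ^ 1 - 83) = (n : ℤ) + 2423137109348771683 :=
    ⟨27 * y ^ 10 + 13388 * y ^ 9 + 2987234 * y ^ 8 + 394973515 * y ^ 7 + 34270850275 * y ^ 6 + 2038983545000 * y ^ 5 + 84242004062497 * y ^ 4 + 2386576468749337 * y ^ 3 + 44369007031195712 * y ^ 2 + 488796999998043532 * y ^ 1, by push_cast; ring⟩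
  rw [hn]
  have := Int.natCast_nonneg n
  linarith

theorem small1 : ∀ q < 6, 2 ≤ q → ¬ (q * (q ^ 6 - q ^ 3 + 1) * (q ^ 4 + 1) - 1 ∣
    q ^ 36 * ((q ^ 2 - 1) * (q ^ 5 + 1) * (q ^ 6 - 1) * (q ^ 8 - 1) * (q ^ 9 + 1) * (q ^ 12 - 1))) := by
  decide +kernel

theorem small2 : ∀ q < 50, 3 ≤ q → ¬ (q * (q ^ 6 - q ^ 3 + 1) * (q ^ 4 + 1) - 2 ∣
    2 * ((q ^ 2 - 1) * (q ^ 5 + 1) * (q ^ 6 - 1) * (q ^ 8 - 1) * (q ^ 9 + 1) * (q ^ 12 - 1))) := by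
  decide +kernel

theorem two2 : ¬ (2 * (2 ^ 6 - 2 ^ 3 + 1) * (2 ^ 4 + 1) - 2 ∣
    2 ^ 36 * ((2 ^ 2 - 1) * (2 ^ 5 + 1) * (2 ^ 6 - 1) * (2 ^ 8 - 1) * (2 ^ 9 + 1) * (2 ^ 12 - 1))) := by
  decide +kernel

theorem cast_N {q : ℕ} (hq : 2 ≤ q) :
    (((q ^ 2 - 1) * (q ^ 5 + 1) * (q ^ 6 - 1) * (q ^ 8 - 1) * (q ^ 9 + 1) * (q ^ 12 - 1) : ℕ) : ℤ) = NN q := by
  have h1 : ∀ d, 1 ≤ q ^ d := fun d => Nat.one_le_pow _ _ (by omega)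
  unfold NN
  push_cast [Nat.cast_sub (h1 2), Nat.cast_sub (h1 6), Nat.cast_sub (h1 8), Nat.cast_sub (h1 12)]
  ring

theorem cast_T {q : ℕ} (hq : 2 ≤ q) : ((q * (q ^ 6 - q ^ 3 + 1) * (q ^ 4 + 1) : ℕ) : ℤ) = TT q := by
  have h1 : q ^ 3 ≤ q ^ 6 := Nat.pow_le_pow_right (by omega) (by norm_num)
  unfold TT
  push_cast [Nat.cast_sub h1]
  ring

theorem T_pos {q : ℕ} (hq : 2 ≤ q) : 2 < q * (q ^ 6 - q ^ 3 + 1) * (q ^ 4 + 1) := by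
  have h1 : 1 ≤ q ^ 6 - q ^ 3 + 1 := by omega
  have h2 : 2 < q ^ 4 + 1 := by
    have : 2 ^ 4 ≤ q ^ 4 := Nat.pow_le_pow_left hq 4
    omega
  calc 2 < q ^ 4 + 1 := h2
    _ = 1 * 1 * (q ^ 4 + 1) := by ring
    _ ≤ q * (q ^ 6 - q ^ 3 + 1) * (q ^ 4 + 1) :=
      Nat.mul_le_mul_right _ (Nat.mul_le_mul (by omega) h1)

/-- **`T - 1` does not divide the order** -/
theorem nd1 {q k : ℕ} (hq : 2 ≤ q) (hk : k + 1 = q * (q ^ 6 - q ^ 3 + 1) * (q ^ 4 + 1))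
    (h : k ∣ q ^ 36 * ((q ^ 2 - 1) * (q ^ 5 + 1) * (q ^ 6 - 1) * (q ^ 8 - 1) * (q ^ 9 + 1) * (q ^ 12 - 1))) : False := by
  rcases Nat.lt_or_ge q 6 with h6 | h6
  · apply small1 q h6 hq
    have : k = q * (q ^ 6 - q ^ 3 + 1) * (q ^ 4 + 1) - 1 := by omega
    rwa [← this]
  · have hkz : (k : ℤ) = TT q - 1 := by
      rw [← cast_T hq, ← hk]; push_cast; ring
    have hz : (k : ℤ) ∣ ((q ^ 36 * ((q ^ 2 - 1) * (q ^ 5 + 1) * (q ^ 6 - 1) * (q ^ 8 - 1) * (q ^ 9 + 1) * (q ^ 12 - 1)) : ℕ) : ℤ) :=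
      Int.natCast_dvd_natCast.mpr h
    rw [Nat.cast_mul, cast_N hq, Nat.cast_pow] at hz
    have hcop : IsCoprime (k : ℤ) ((q : ℤ) ^ 36) := by
      apply IsCoprime.pow_right
      refine ⟨-1, (q : ℤ) ^ 10 - q ^ 7 + q ^ 6 + q ^ 4 - q ^ 3 + 1, ?_⟩
      rw [hkz]; unfold TT; ring
    have hz2 := hcop.dvd_of_dvd_mul_left hz
    rw [id1, ← hkz] at hz2
    have hz3 := (Int.dvd_add_right (Dvd.intro _ rfl)).mp hz2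
    obtain ⟨y, hy⟩ := Nat.exists_eq_add_of_le' h6
    have hyz : (q : ℤ) = (y : ℤ) + 6 := by rw [hy]; push_cast; ring
    rw [hyz] at hz3 hkz
    have hle := Int.le_of_dvd (pos1' y) hz3
    rw [hkz] at hle
    linarith [pos1 y]

/-- the last step for `T - 2` -/
theorem nd2' {q k : ℕ} (hq : 3 ≤ q) (hk : k + 2 = q * (q ^ 6 - q ^ 3 + 1) * (q ^ 4 + 1))
    (h : (k : ℤ) ∣ 2 * NN q) : False := by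
  have hq2 : 2 ≤ q := by omega
  rcases Nat.lt_or_ge q 50 with h6 | h6
  · apply small2 q h6 hq
    have : k = q * (q ^ 6 - q ^ 3 + 1) * (q ^ 4 + 1) - 2 := by omega
    rw [← this]
    rw [← cast_N hq2] at h
    exact_mod_cast h
  · have hkz : (k : ℤ) = TT q - 2 := by
      rw [← cast_T hq2, ← hk]; push_cast; ring
    rw [id2, ← hkz, mul_add, ← mul_assoc, mul_comm (2 : ℤ) (k : ℤ), mul_assoc] at h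
    have hz3 := (Int.dvd_add_right (Dvd.intro _ rfl)).mp h
    obtain ⟨y, hy⟩ := Nat.exists_eq_add_of_le' h6
    have hyz : (q : ℤ) = (y : ℤ) + 50 := by rw [hy]; push_cast; ring
    rw [hyz] at hz3 hkz
    have hz4 := (Int.dvd_neg).mpr hz3
    have h5 := pos2' y
    have h7 := pos2 y
    have hle := Int.le_of_dvd (by linarith) hz4
    rw [hkz] at hle
    linarith

/-- **`T - 2` does not divide the order** -/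
theorem nd2 {q k : ℕ} (hq : IsPrimePow q) (hk : k + 2 = q * (q ^ 6 - q ^ 3 + 1) * (q ^ 4 + 1))
    (h : k ∣ q ^ 36 * ((q ^ 2 - 1) * (q ^ 5 + 1) * (q ^ 6 - 1) * (q ^ 8 - 1) * (q ^ 9 + 1) * (q ^ 12 - 1))) : False := by
  have hq2 : 2 ≤ q := hq.two_le
  have hkz : (k : ℤ) = TT q - 2 := by
    rw [← cast_T hq2, ← hk]; push_cast; ring
  have hz : (k : ℤ) ∣ ((q ^ 36 * ((q ^ 2 - 1) * (q ^ 5 + 1) * (q ^ 6 - 1) * (q ^ 8 - 1) * (q ^ 9 + 1) * (q ^ 12 - 1)) : ℕ) : ℤ) :=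
    Int.natCast_dvd_natCast.mpr h
  rw [Nat.cast_mul, cast_N hq2, Nat.cast_pow] at hz
  rcases Nat.even_or_odd' q with ⟨j, hj | hj⟩
  · -- even
    obtain ⟨p, n, hp, hn, rfl⟩ := hq
    have hp' := hp.nat_prime
    have h2p : 2 ∣ p := (Nat.prime_two.dvd_of_dvd_pow (n := n) ⟨j, hj⟩)
    have hp2 : p = 2 := ((Nat.prime_dvd_prime_iff_eq Nat.prime_two hp').mp h2p).symm
    subst hp2
    rcases Nat.lt_or_ge n 2 with hn2 | hn2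
    · have : n = 1 := by omega
      subst this
      rw [pow_one] at hk h
      apply two2
      have : k = 2 * (2 ^ 6 - 2 ^ 3 + 1) * (2 ^ 4 + 1) - 2 := by omega
      rwa [← this]
    · obtain ⟨i, rfl⟩ := Nat.exists_eq_add_of_le' hn2
      have hqi : ((2 ^ (i + 2) : ℕ) : ℤ) = 4 * 2 ^ i := by push_cast; ring
      set Q : ℤ := ((2 ^ (i + 2) : ℕ) : ℤ) with hQ
      set P : ℤ := 2 * 2 ^ i * (Q ^ 6 - Q ^ 3 + 1) * (Q ^ 4 + 1) - 1 with hP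
      have hkP : (k : ℤ) = 2 * P := by
        rw [hkz, hP]
        unfold TT
        have : Q = 2 * (2 * 2 ^ i) := by rw [hqi]; ring
        linear_combination (Q ^ 6 - Q ^ 3 + 1) * (Q ^ 4 + 1) * this
      have hc1 : IsCoprime P (2 ^ i) := ⟨-1, 2 * (Q ^ 6 - Q ^ 3 + 1) * (Q ^ 4 + 1), by rw [hP]; ring⟩
      have hc2 : IsCoprime P 2 := ⟨-1, 2 ^ i * (Q ^ 6 - Q ^ 3 + 1) * (Q ^ 4 + 1), by rw [hP]; ring⟩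
      have hcQ : IsCoprime P Q := by
        have : Q = 2 * 2 * 2 ^ i := by rw [hqi]; ring
        rw [this]
        exact (hc2.mul_right hc2).mul_right hc1
      have hPd : P ∣ NN Q := by
        apply (hcQ.pow_right (n := 36)).dvd_of_dvd_mul_left
        exact (Dvd.intro_left 2 hkP.symm).trans hz
      apply nd2' (q := 2 ^ (i + 2)) (k := k) _ hk
      · rw [hkP]
        exact mul_dvd_mul_left 2 hPd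
      · have : 2 ^ 2 ≤ 2 ^ (i + 2) := Nat.pow_le_pow_right (by norm_num) (by omega)
        omega
  · -- odd
    have hcop : IsCoprime (k : ℤ) ((q : ℤ) ^ 36) := by
      apply IsCoprime.pow_right
      have hjz : (q : ℤ) = 2 * j + 1 := by rw [hj]; push_cast; ring
      refine ⟨j, 1 - j * ((q : ℤ) ^ 10 - q ^ 7 + q ^ 6 + q ^ 4 - q ^ 3 + 1), ?_⟩
      rw [hkz]; unfold TT
      linear_combination hjz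
    have hz2 := hcop.dvd_of_dvd_mul_left hz
    exact nd2' (q := q) (k := k) (by omega) hk (hz2.trans (Dvd.intro_left 2 rfl))

/-- the comparison of the bounds -/
theorem cmp1 {q : ℕ} (hq : 2 ≤ q) : q * (q ^ 6 - q ^ 3 + 1) * (q ^ 4 + 1) ≤ 2 * (q - 1) * q ^ 10 := by
  have h : ((q * (q ^ 6 - q ^ 3 + 1) * (q ^ 4 + 1) : ℕ) : ℤ) ≤ ((2 * (q - 1) * q ^ 10 : ℕ) : ℤ) := by
    rw [cast_T hq]
    obtain ⟨y, rfl⟩ := Nat.exists_eq_add_of_le' hq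
    have e : y + 2 - 1 = y + 1 := rfl
    rw [e]
    unfold TT
    push_cast
    have : (0 : ℤ) ≤ 2 * ((y : ℤ) + 1) * (y + 2) ^ 10 - (((y : ℤ) + 2) ^ 11 - ((y : ℤ) + 2) ^ 8 + ((y : ℤ) + 2) ^ 7 +
        ((y : ℤ) + 2) ^ 5 - ((y : ℤ) + 2) ^ 4 + ((y : ℤ) + 2)) := by
      ring_nf
      positivity
    linarith
  exact_mod_cast h

theorem cmp2 {q : ℕ} (hq : 2 ≤ q) : q * (q ^ 6 - q ^ 3 + 1) * (q ^ 4 + 1) =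
    (q - 1) * (q ^ 10 + q ^ 9 + q ^ 8 + q ^ 6 + q ^ 5 + q ^ 4 + q ^ 4 + q ^ 3 + q + 1 + q ^ 2 + 1) + 2 := by
  have h : ((q * (q ^ 6 - q ^ 3 + 1) * (q ^ 4 + 1) : ℕ) : ℤ) = (((q - 1) * (q ^ 10 + q ^ 9 + q ^ 8 + q ^ 6 + q ^ 5 + q ^ 4 +
      q ^ 4 + q ^ 3 + q + 1 + q ^ 2 + 1) + 2 : ℕ) : ℤ) := by
    rw [cast_T hq]
    unfold TT
    push_cast [Nat.cast_sub (show 1 ≤ q by omega)]
    ring
  exact_mod_cast h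

end Cfsg.Agent.Lib.MinTE6J
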