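import Cfsg.Agent.Lib.MinTE6I
import Cfsg.Agent.Lib.MinTE6J
import Cfsg.Agent.Lib.MinDegN
import Cfsg.Agent.S1066
import Cfsg.Agent.S1070

/-!
The minimal degree of the groups 2E6(q) (helper18).
-/

set_option autoImplicit false
set_option linter.unusedSectionVars false

namespace Cfsg.Agent.Lib.MinTE6K

open Cfsg.Lie Cfsg.Agent.Lib.MinTE6A Cfsg.Agent.Lib.MinTE6B
open Cfsg.Agent.Lib.UCESys

/-- **the minimal degree of 2E6(q)** -/
theorem main {K : Type*} [Field K] [Fintype K] (q : ℕ) (hq : IsPrimePow q) (hK : Fintype.card K = q ^ 2) (k : ℕ)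
    (ρ : Representation ℂ (twistedE6 K q) (Fin k → ℂ)) (hρ : ρ.IsIrreducible) (hk : 2 ≤ k) :
    q * (q ^ 6 - q ^ 3 + 1) * (q ^ 4 + 1) ≤ k := by
  classical
  haveI : Fintype (F0 hq hK) := Fintype.ofFinite _
  have hq2 : 2 ≤ q := hq.two_le
  obtain ⟨hsimple, -⟩ := Cfsg.Agent.S1070.result (K := K) hq hK
  obtain ⟨g, hg⟩ := MinDegN.nontriv_of_two hρ (by rw [Module.finrank_fin_fun]; exact hk)
  have hker : MonoidHom.ker ρ = ⊥ := by
    rcases hsimple.eq_bot_or_eq_top_of_normal (MonoidHom.ker ρ) inferInstance with h | h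
    · exact h
    · exfalso
      apply hg
      have : g ∈ MonoidHom.ker ρ := by rw [h]; exact Subgroup.mem_top g
      exact this
  have hnt : ∃ u, (ρ.comp (iota hq hK)) (L hq hK 71 u) ≠ 1 := by
    refine ⟨1, fun h => ?_⟩
    have h1 : iota hq hK (L hq hK 71 1) ∈ MonoidHom.ker ρ := h
    rw [hker, Subgroup.mem_bot] at h1
    have h2 : ((L hq hK 71 1 : Gh hq hK) : chevE6.group K) = 1 :=
      Subtype.ext (congrArg (fun z => ((z : twistedE6 K q) : GL chevE6.Idx K)) h1)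
    rw [L_val hq hK (by norm_num) (by decide +kernel)] at h2
    have h3 : (R K).x 71 (1 : K) = (R K).x 71 (0 : K) := by
      have e : (R K).x 71 (0 : K) = 1 := xzero (by norm_num)
      rw [e]; exact h2
    exact one_ne_zero (stdSys_inj _ K (lt72 (by norm_num)) _ _ h3)
  have hlow := MinTE6I.lower hq hK (ρ.comp (iota hq hK)) hnt
  rw [Module.finrank_fin_fun] at hlow
  rcases hlow with h | h
  · exact (MinTE6J.cmp1 hq2).trans h
  · have hT := MinTE6J.cmp2 hq2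
    by_contra hcon
    have h4 := CharCentral.finrank_dvd_card ρ
    rw [Module.finrank_fin_fun] at h4
    have h5 := Cfsg.Agent.S1066.result (K := K) hq hK
    have h6 : k ∣ q ^ 36 * ((q ^ 2 - 1) * (q ^ 5 + 1) * (q ^ 6 - 1) * (q ^ 8 - 1) * (q ^ 9 + 1) * (q ^ 12 - 1)) := by
      have e : q ^ 36 * ((q ^ 2 - 1) * (q ^ 5 + 1) * (q ^ 6 - 1) * (q ^ 8 - 1) * (q ^ 9 + 1) * (q ^ 12 - 1)) =
          q ^ 36 * (q ^ 2 - 1) * (q ^ 5 + 1) * (q ^ 6 - 1) * (q ^ 8 - 1) * (q ^ 9 + 1) * (q ^ 12 - 1) := by ring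
      rw [e, ← h5]
      exact h4.mul_left _
    have h7 : k + 2 = q * (q ^ 6 - q ^ 3 + 1) * (q ^ 4 + 1) ∨ k + 1 = q * (q ^ 6 - q ^ 3 + 1) * (q ^ 4 + 1) := by omega
    rcases h7 with h7 | h7
    · exact MinTE6J.nd2 hq h7 h6
    · exact MinTE6J.nd1 hq2 h7 h6

end Cfsg.Agent.Lib.MinTE6K
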