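import Cfsg.Agent.Lib.DegTools
import Cfsg.Agent.Lib.StructConst
import Cfsg.Agent.Lib.CoprimeAction2
import Cfsg.Agent.Lib.FrobAction2

set_option autoImplicit false

/-!
# Characters multiplicative on coprime prime power elements (helper79), for S4756
-/

namespace Cfsg.Agent.Lib.MultChar

open Cfsg Cfsg.Agent.Lib.DefectZero Cfsg.Agent.Lib.CharBasic
open scoped ComplexConjugate commutatorElement

universe u

variable {G : Type u} [Group G]

/-- The multiplicativity hypothesis. -/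
def Mult (G : Type u) [Group G] : Prop :=
  ∀ (x y : G) (χ : Cfsg.IrrCharacter G), x ≠ 1 → y ≠ 1 →
    (∃ p q a b : ℕ, p.Prime ∧ q.Prime ∧ p ≠ q ∧ orderOf x = p ^ a ∧ orderOf y = q ^ b) →
    (χ : G → ℂ) (x * y) = (χ : G → ℂ) x * (χ : G → ℂ) y

/-- `χ` vanishes on the nonidentity `q`-elements. -/
def Van (χ : G → ℂ) (q : ℕ) : Prop := ∀ x : G, x ≠ 1 → (∃ a, orderOf x = q ^ a) → χ x = 0

theorem key [Finite G] (h : Mult G) (χ : IrrCharacter G) (h1 : (χ : G → ℂ) 1 ≠ 1) {x y : G}
    (hx : x ≠ 1) (hy : y ≠ 1)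
    (hxy : ∃ p q a b : ℕ, p.Prime ∧ q.Prime ∧ p ≠ q ∧ orderOf x = p ^ a ∧ orderOf y = q ^ b) :
    (χ : G → ℂ) x * (χ : G → ℂ) y = 0 := by
  have := Fintype.ofFinite G
  have hs := StructConst.sum_conj_mul χ.2 x y
  have hcard : (Nat.card G : ℂ) ≠ 0 := by exact_mod_cast Nat.card_pos.ne'
  have hχ1 := χ.2.one_ne_zero
  have h2 : ∀ b : G, (χ : G → ℂ) (x * (b * y * b⁻¹)) = (χ : G → ℂ) x * (χ : G → ℂ) y := by
    intro b
    rw [h x (b * y * b⁻¹) χ hx, χ.2.isClassFunction y b]
    · intro hb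
      apply hy
      have : y = b⁻¹ * (b * y * b⁻¹) * b := by group
      rw [this, hb]
      group
    · obtain ⟨p, q, a, b', hp, hq, hpq, hxo, hyo⟩ := hxy
      refine ⟨p, q, a, b', hp, hq, hpq, hxo, ?_⟩
      rw [← hyo]
      have := orderOf_injective (MulAut.conj b).toMonoidHom (MulAut.conj b).injective y
      simpa using this
  simp only [h2, Finset.sum_const, Finset.card_univ, nsmul_eq_mul] at hs
  rw [← Nat.card_eq_fintype_card, eq_div_iff hχ1] at hs
  by_contra h0
  apply h1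
  have h3 : (Nat.card G : ℂ) * ((χ : G → ℂ) x * (χ : G → ℂ) y) ≠ 0 := mul_ne_zero hcard h0
  apply mul_left_cancel₀ h3
  linear_combination hs

/-- Every nonlinear irreducible character belongs to one prime. -/
theorem exists_prime [Finite G] (h : Mult G) (χ : IrrCharacter G) (h1 : (χ : G → ℂ) 1 ≠ 1) :
    ∃ p : ℕ, p.Prime ∧ ∀ q : ℕ, q.Prime → q ≠ p → Van (χ : G → ℂ) q := by
  by_cases hex : ∃ p : ℕ, p.Prime ∧ ¬ Van (χ : G → ℂ) p
  · obtain ⟨p, hp, hv⟩ := hex
    refine ⟨p, hp, fun q hq hqp y hy hyo => ?_⟩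
    unfold Van at hv
    push Not at hv
    obtain ⟨x, hx, ⟨a, hxo⟩, hx0⟩ := hv
    obtain ⟨b, hyo⟩ := hyo
    exact (mul_eq_zero.mp (key h χ h1 hx hy ⟨p, q, a, b, hp, hq, hqp.symm, hxo, hyo⟩)).resolve_left
      hx0
  · push Not at hex
    exact ⟨2, Nat.prime_two, fun q hq _ => hex q hq⟩

theorem card_dvd_of_van [Finite G] {χ : G → ℂ} (hχ : IsCharacter G χ) {q : ℕ} [Fact q.Prime]
    (hv : Van χ q) (Q : Sylow q G) : Nat.card Q ∣ charDegree χ := by
  have := Fintype.ofFinite G
  have := Fintype.ofFinite Q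
  obtain ⟨n, hn⟩ := (hχ.restrict (Q : Subgroup G)).classInner_nat
    (isCharacter_one (G := (Q : Subgroup G)))
  rw [classInner_def] at hn
  have hz : ∀ x : (Q : Subgroup G), x ≠ 1 → χ (x : G) = 0 := by
    intro x hx
    apply hv _ (fun h => hx (Subtype.ext h))
    obtain ⟨k, hk⟩ := (IsPGroup.iff_orderOf.mp Q.2) x
    exact ⟨k, by rw [← Subgroup.orderOf_coe] at hk; exact hk⟩
  rw [Finset.sum_eq_single 1] at hn
  · refine ⟨n, ?_⟩
    have hd := charDegree_eq hχ
    have hc : (Nat.card Q : ℂ) ≠ 0 := by exact_mod_cast Nat.card_pos.ne'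
    have : ((charDegree χ : ℕ) : ℂ) = ((Nat.card Q * n : ℕ) : ℂ) := by
      rw [hd]
      push_cast
      rw [← hn]
      simp only [Pi.one_apply, map_one, mul_one, OneMemClass.coe_one]
      field_simp
    exact_mod_cast this
  · intro b _ hb
    rw [hz b hb]
    simp
  · intro h
    exact absurd (Finset.mem_univ _) h

theorem ordCompl_dvd_of_van [Finite G] {χ : G → ℂ} (hχ : IsIrrCharacter G χ) {p : ℕ}
    (hv : ∀ q : ℕ, q.Prime → q ≠ p → Van χ q) :
    (Nat.card G) / p ^ (Nat.card G).factorization p ∣ charDegree χ := by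
  have hd0 : charDegree χ ≠ 0 := (charDegree_pos hχ).ne'
  have hn0 : Nat.card G ≠ 0 := Nat.card_pos.ne'
  have h0 : (Nat.card G) / p ^ (Nat.card G).factorization p ≠ 0 := (Nat.ordCompl_pos p hn0).ne'
  rw [← Nat.factorization_prime_le_iff_dvd h0 hd0]
  intro q hq
  have := Fact.mk hq
  by_cases hqp : q = p
  · subst hqp
    rw [Nat.factorization_ordCompl]
    simp
  · rw [Nat.factorization_ordCompl, Finsupp.erase_ne hqp]
    obtain ⟨Q⟩ : Nonempty (Sylow q G) := inferInstance
    have h1 := card_dvd_of_van hχ.isCharacter (hv q hq hqp) Q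
    rw [Q.card_eq_multiplicity] at h1
    exact (hq.pow_dvd_iff_le_factorization hd0).mp h1

theorem sum_split [Finite G] :
    ∑ χ : IrrCharacter G, (if (χ : G → ℂ) 1 = 1 then 0 else charDegree (χ : G → ℂ) ^ 2) +
      (commutator G).index = Nat.card G := by
  classical
  have h1 : ∑ χ : IrrCharacter G, charDegree (χ : G → ℂ) ^ 2 = Nat.card G := by
    have := sum_degree_sq (G := G)
    have h2 : ((∑ χ : IrrCharacter G, charDegree (χ : G → ℂ) ^ 2 : ℕ) : ℂ) = Nat.card G := by
      rw [← this]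
      push_cast
      apply Finset.sum_congr rfl
      intro χ _
      rw [charDegree_eq χ.2.isCharacter]
    exact_mod_cast h2
  have h3 : (commutator G).index = ∑ χ : IrrCharacter G, (if (χ : G → ℂ) 1 = 1 then 1 else 0) := by
    rw [← card_linear, Nat.card_eq_fintype_card, Fintype.card_subtype, Finset.card_filter]
  rw [h3, ← Finset.sum_add_distrib, ← h1]
  apply Finset.sum_congr rfl
  intro χ _
  by_cases h : (χ : G → ℂ) 1 = 1
  · have hd : charDegree (χ : G → ℂ) = 1 := by
      have := charDegree_eq χ.2.isCharacter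
      rw [h] at this
      exact_mod_cast this
    rw [if_pos h, if_pos h, hd]
    norm_num
  · rw [if_neg h, if_neg h, add_zero]

theorem sq_lt [Finite G] (χ : IrrCharacter G) (h1 : (χ : G → ℂ) 1 ≠ 1) :
    charDegree (χ : G → ℂ) ^ 2 < Nat.card G := by
  classical
  rw [← sum_split (G := G)]
  have h2 := Finset.single_le_sum (f := fun χ : IrrCharacter G =>
    (if (χ : G → ℂ) 1 = 1 then 0 else charDegree (χ : G → ℂ) ^ 2)) (fun _ _ => Nat.zero_le _)
    (Finset.mem_univ χ)
  simp only [if_neg h1] at h2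
  have h3 : 0 < (commutator G).index := Nat.pos_of_ne_zero Subgroup.index_ne_zero_of_finite
  omega

/-- One prime for all nonlinear characters. -/
theorem exists_prime_all [Finite G] (h : Mult G) (hG : ¬ ∀ a b : G, a * b = b * a) :
    ∃ p : ℕ, p.Prime ∧ ∀ χ : IrrCharacter G, (χ : G → ℂ) 1 ≠ 1 → ∀ q : ℕ, q.Prime → q ≠ p →
      Van (χ : G → ℂ) q := by
  have hex : ∃ χ : IrrCharacter G, (χ : G → ℂ) 1 ≠ 1 := by
    by_contra hcon
    push Not at hcon
    exact hG (comm_of_forall_irr_linear (fun χ hχ => hcon ⟨χ, hχ⟩))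
  obtain ⟨χ, hχ1⟩ := hex
  obtain ⟨p, hp, hv⟩ := exists_prime h χ hχ1
  refine ⟨p, hp, fun ψ hψ1 => ?_⟩
  obtain ⟨r, hr, hw⟩ := exists_prime h ψ hψ1
  by_cases hrp : r = p
  · subst hrp
    exact hw
  exfalso
  have hn0 : Nat.card G ≠ 0 := Nat.card_pos.ne'
  have aux : ∀ (θ : IrrCharacter G) (s : ℕ), (θ : G → ℂ) 1 ≠ 1 → s.Prime →
      (∀ q : ℕ, q.Prime → q ≠ s → Van (θ : G → ℂ) q) →
      (Nat.card G) / s ^ (Nat.card G).factorization s < s ^ (Nat.card G).factorization s := by
    intro θ s hθ1 hs hvs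
    have h1 := ordCompl_dvd_of_van θ.2 hvs
    have h2 := sq_lt θ hθ1
    have h3 := Nat.le_of_dvd (charDegree_pos θ.2) h1
    have h4 := Nat.ordProj_mul_ordCompl_eq_self (Nat.card G) s
    have h5 : ((Nat.card G) / s ^ (Nat.card G).factorization s) ^ 2 < Nat.card G :=
      lt_of_le_of_lt (Nat.pow_le_pow_left h3 2) h2
    by_contra hcon
    push Not at hcon
    have := Nat.mul_le_mul_right ((Nat.card G) / s ^ (Nat.card G).factorization s) hcon
    rw [h4] at this
    nlinarith
  have h1 := aux χ p hχ1 hp hv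
  have h2 := aux ψ r hψ1 hr hw
  -- the r-part divides the p'-part
  have aux2 : ∀ s t : ℕ, s.Prime → t.Prime → s ≠ t →
      s ^ (Nat.card G).factorization s ≤ (Nat.card G) / t ^ (Nat.card G).factorization t := by
    intro s t hs ht hst
    apply Nat.le_of_dvd (Nat.ordCompl_pos t hn0)
    have h4 := Nat.ordProj_mul_ordCompl_eq_self (Nat.card G) t
    have h5 : s ^ (Nat.card G).factorization s ∣ t ^ (Nat.card G).factorization t *
        ((Nat.card G) / t ^ (Nat.card G).factorization t) := by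
      rw [h4]
      exact Nat.ordProj_dvd _ _
    exact (Nat.Coprime.pow _ _ ((Nat.coprime_primes hs ht).mpr hst)).dvd_of_dvd_mul_left h5
  have h3 := aux2 r p hr hp hrp
  have h4 := aux2 p r hp hr (fun h => hrp h.symm)
  omega

/-- Centralizers of the elements of prime power order outside `P`. -/
theorem card_centralizer [Finite G] {a : G}
    (hv : ∀ χ : IrrCharacter G, (χ : G → ℂ) 1 ≠ 1 → (χ : G → ℂ) a = 0) :
    Nat.card (Subgroup.centralizer ({a} : Set G)) = (commutator G).index := by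
  classical
  have h := column_orthogonality a a
  rw [if_pos (IsConj.refl a)] at h
  have h2 : (∑ χ : IrrCharacter G, (χ : G → ℂ) a * conj ((χ : G → ℂ) a)) =
      ∑ χ : IrrCharacter G, (if (χ : G → ℂ) 1 = 1 then (1 : ℂ) else 0) := by
    apply Finset.sum_congr rfl
    intro χ _
    by_cases h1 : (χ : G → ℂ) 1 = 1
    · rw [if_pos h1, χ.2.isCharacter.mul_conj_of_linear h1]
    · rw [if_neg h1, hv χ h1, zero_mul]
  have h3 : (commutator G).index = ∑ χ : IrrCharacter G, (if (χ : G → ℂ) 1 = 1 then 1 else 0) := by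
    rw [← card_linear, Nat.card_eq_fintype_card, Fintype.card_subtype, Finset.card_filter]
  have h4 : ((commutator G).index : ℂ) =
      ∑ χ : IrrCharacter G, (if (χ : G → ℂ) 1 = 1 then (1 : ℂ) else 0) := by
    rw [h3]
    push_cast
    rfl
  have h5 : (Nat.card (Subgroup.centralizer ({a} : Set G)) : ℂ) = (commutator G).index := by
    rw [← h, h2, h4]
  exact_mod_cast h5

open Subgroup Cfsg.Agent.Lib.CoprimeAction Cfsg.Agent.Lib.CoprimeAction2

theorem mem_comm (a b : G) : a * b * a⁻¹ * b⁻¹ ∈ commutator G :=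
  Subgroup.commutator_mem_commutator (Subgroup.mem_top a) (Subgroup.mem_top b)

theorem forward [Finite G] (h : Mult G) (hG : ¬ ∀ a b : G, a * b = b * a)
    (hnp : ¬ ∃ p : ℕ, p.Prime ∧ IsPGroup p G) :
    ∃ (p : ℕ) (_ : Fact p.Prime) (P : Sylow p G) (A : Subgroup G), (P : Subgroup G).Normal ∧
      IsCyclic ↥A ∧ A ≠ ⊥ ∧ (Nat.card ↥A).Coprime p ∧ A ⊔ (P : Subgroup G) = ⊤ ∧
      IsMulCommutative ↥((P : Subgroup G) ⊓ Subgroup.centralizer (A : Set G)) ∧
      (⁅A, (P : Subgroup G)⁆).Normal ∧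
      ((P : Subgroup G) ⊓ Subgroup.centralizer (A : Set G)) ⊔ ⁅A, (P : Subgroup G)⁆ =
        (P : Subgroup G) ∧
      ((P : Subgroup G) ⊓ Subgroup.centralizer (A : Set G)) ⊓ ⁅A, (P : Subgroup G)⁆ = ⊥ ∧
      ∀ a ∈ A, a ≠ 1 → ∀ d ∈ ⁅A, (P : Subgroup G)⁆, a * d = d * a → d = 1 := by
  classical
  obtain ⟨p, hp, hall⟩ := exists_prime_all h hG
  have hpF := Fact.mk hp
  have hn0 : Nat.card G ≠ 0 := Nat.card_pos.ne'
  have hb : (Nat.card G) / p ^ (Nat.card G).factorization p ∣ (commutator G).index := by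
    have hs := sum_split (G := G)
    have h1 : (Nat.card G) / p ^ (Nat.card G).factorization p ∣
        ∑ χ : IrrCharacter G, (if (χ : G → ℂ) 1 = 1 then 0 else charDegree (χ : G → ℂ) ^ 2) := by
      apply Finset.dvd_sum
      intro χ _
      by_cases h1 : (χ : G → ℂ) 1 = 1
      · simp [h1]
      · rw [if_neg h1]
        exact (ordCompl_dvd_of_van χ.2 (hall χ h1)).trans (dvd_pow_self _ two_ne_zero)
    have h2 : (Nat.card G) / p ^ (Nat.card G).factorization p ∣ Nat.card G :=
      Nat.ordCompl_dvd _ _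
    exact (Nat.dvd_add_right h1).mp (by rw [hs]; exact h2)
  have hGp : IsPGroup p (commutator G) := by
    have h1 := Subgroup.card_mul_index (commutator G)
    have h2 := Nat.ordProj_mul_ordCompl_eq_self (Nat.card G) p
    obtain ⟨c, hc⟩ := hb
    have h3 : Nat.card (commutator G) ∣ p ^ (Nat.card G).factorization p := by
      refine ⟨c, ?_⟩
      have hb0 : 0 < (Nat.card G) / p ^ (Nat.card G).factorization p := Nat.ordCompl_pos p hn0
      apply Nat.eq_of_mul_eq_mul_right hb0
      calc _ = Nat.card G := h2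
        _ = Nat.card (commutator G) * (commutator G).index := h1.symm
        _ = Nat.card (commutator G) *
            ((Nat.card G) / p ^ (Nat.card G).factorization p * c) := by rw [← hc]
        _ = _ := by ring
    obtain ⟨k, _, hk⟩ := (Nat.dvd_prime_pow hp).mp h3
    exact IsPGroup.of_card hk
  obtain ⟨P, hP⟩ := hGp.exists_le_sylow
  have hPn : (P : Subgroup G).Normal := by
    refine ⟨fun x hx g => ?_⟩
    have h1 := hP (mem_comm g x)
    have h2 := (P : Subgroup G).mul_mem h1 hx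
    simpa using h2
  obtain ⟨A, hA⟩ := Subgroup.exists_right_complement'_of_coprime (N := (P : Subgroup G))
    P.card_coprime_index
  have hsup : (P : Subgroup G) ⊔ A = ⊤ := hA.sup_eq_top
  have hinf : (P : Subgroup G) ⊓ A = ⊥ := hA.disjoint.eq_bot
  have hcardA : Nat.card (P : Subgroup G) * Nat.card A = Nat.card G := hA.card_mul_card
  have hcop : (Nat.card A).Coprime (Nat.card (P : Subgroup G)) := by
    have h1 := P.card_coprime_index
    have h2 := Subgroup.card_mul_index (P : Subgroup G)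
    have h3 : (P : Subgroup G).index = Nat.card A := by
      apply Nat.eq_of_mul_eq_mul_left (Nat.card_pos (α := (P : Subgroup G)))
      rw [h2, hcardA]
    rw [h3] at h1
    exact h1.symm
  have hAcomm : ∀ a ∈ A, ∀ b ∈ A, a * b = b * a := by
    intro a ha b hb
    have h1 : a * b * a⁻¹ * b⁻¹ ∈ (P : Subgroup G) ⊓ A :=
      ⟨hP (mem_comm a b), A.mul_mem (A.mul_mem (A.mul_mem ha hb) (A.inv_mem ha)) (A.inv_mem hb)⟩
    rw [hinf, mem_bot] at h1
    have h2 : a * b = (a * b * a⁻¹ * b⁻¹) * (b * a) := by group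
    rw [h2, h1, one_mul]
  have hA1 : A ≠ ⊥ := by
    rintro rfl
    rw [sup_bot_eq] at hsup
    apply hnp
    refine ⟨p, hp, ?_⟩
    have h1 := P.2
    rw [hsup] at h1
    exact h1.of_equiv Subgroup.topEquiv
  have hpcard : ¬ p ∣ Nat.card A := by
    intro hd
    have h1 := Subgroup.card_mul_index (P : Subgroup G)
    have h2 : (P : Subgroup G).index = Nat.card A := by
      apply Nat.eq_of_mul_eq_mul_left (Nat.card_pos (α := (P : Subgroup G)))
      rw [h1, hcardA]
    exact P.not_dvd_index (h2 ▸ hd)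
  have hcopp : (Nat.card A).Coprime p := ((Nat.Prime.coprime_iff_not_dvd hp).mpr hpcard).symm
  have hPcomm : (P : Subgroup G) ⊔ A = ⊤ := hsup
  have hDle : ⁅A, (P : Subgroup G)⁆ ≤ commutator G := Subgroup.commutator_mono le_top le_top
  have hAnorm : A ≤ normalizer ((P : Subgroup G) : Set G) := by
    rw [Subgroup.normalizer_eq_top]
    exact le_top
  have hDC : ⁅(P : Subgroup G), A⁆ ⊔ ((P : Subgroup G) ⊓ centralizer (A : Set G)) =
      (P : Subgroup G) :=
    commutator_sup_centralizer hAnorm hcop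
      (Or.inl (Group.isSolvable_of_comm fun a b => Subtype.ext (hAcomm a a.2 b b.2)))
  rw [Subgroup.commutator_comm] at hDC
  have hDP : ⁅A, (P : Subgroup G)⁆ ≤ (P : Subgroup G) := hDle.trans hP
  -- elements of prime power order of `A`
  have hcent : ∀ a ∈ A, a ≠ 1 → (∃ q k : ℕ, q.Prime ∧ orderOf a = q ^ k) →
      Nat.card (Subgroup.centralizer ({a} : Set G)) = (commutator G).index := by
    rintro a ha ha1 ⟨q, k, hq, hk⟩
    apply card_centralizer
    intro χ hχ1
    have hqp : q ≠ p := by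
      rintro rfl
      apply hpcard
      have h1 : orderOf a ∣ Nat.card A := Subgroup.orderOf_dvd_natCard A ha
      rw [hk] at h1
      refine dvd_trans (dvd_pow_self q ?_) h1
      rintro rfl
      rw [pow_zero, orderOf_eq_one_iff] at hk
      exact ha1 hk
    exact hall χ hχ1 q hq hqp a ha1 ⟨k, hk⟩
  -- the central equality
  have hmain : ∀ a ∈ A, a ≠ 1 → (∃ q k : ℕ, q.Prime ∧ orderOf a = q ^ k) →
      (P : Subgroup G) ⊓ centralizer (A : Set G) = (P : Subgroup G) ⊓ centralizer ({a} : Set G) ∧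
      ⁅A, (P : Subgroup G)⁆ = commutator G ∧
      ((P : Subgroup G) ⊓ centralizer (A : Set G)) ⊓ ⁅A, (P : Subgroup G)⁆ = ⊥ := by
    intro a ha ha1 haq
    have h1 := hcent a ha ha1 haq
    have hCle : (P : Subgroup G) ⊓ centralizer (A : Set G) ≤
        (P : Subgroup G) ⊓ centralizer ({a} : Set G) :=
      inf_le_inf_left _ (centralizer_le (by simpa using ha))
    -- |C_P(a)| |A| ≤ |C_G(a)|
    have h2 : Nat.card ((P : Subgroup G) ⊓ centralizer ({a} : Set G) : Subgroup G) * Nat.card A ≤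
        Nat.card (Subgroup.centralizer ({a} : Set G)) := by
      rw [← Nat.card_prod]
      have hAc : ∀ b ∈ A, b ∈ centralizer ({a} : Set G) := by
        intro b hb
        rw [mem_centralizer_singleton_iff]
        exact hAcomm b hb a ha
      refine Nat.card_le_card_of_injective
        (fun x : ((P : Subgroup G) ⊓ centralizer ({a} : Set G) : Subgroup G) × A =>
          (⟨x.1 * x.2, mul_mem x.1.2.2 (hAc x.2 x.2.2)⟩ :
            Subgroup.centralizer ({a} : Set G))) ?_
      rintro ⟨⟨x, hx⟩, ⟨y, hy⟩⟩ ⟨⟨x', hx'⟩, ⟨y', hy'⟩⟩ hxy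
      simp only [Subtype.mk.injEq] at hxy
      have h3 : x'⁻¹ * x = y' * y⁻¹ := by
        rw [inv_mul_eq_iff_eq_mul, ← mul_assoc, ← hxy, mul_inv_cancel_right]
      have h4 : x'⁻¹ * x ∈ (P : Subgroup G) ⊓ A :=
        ⟨(P : Subgroup G).mul_mem ((P : Subgroup G).inv_mem hx'.1) hx.1,
          h3 ▸ A.mul_mem hy' (A.inv_mem hy)⟩
      rw [hinf, mem_bot] at h4
      have h5 : x = x' := (inv_mul_eq_one.mp h4).symm
      have h6 : y = y' := by
        rw [h4] at h3
        exact (mul_inv_eq_one.mp h3.symm).symm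
      simp [h5, h6]
    -- |C_P(a)| |G'| ≤ |P|
    have h3 : Nat.card ((P : Subgroup G) ⊓ centralizer ({a} : Set G) : Subgroup G) *
        Nat.card (commutator G) ≤ Nat.card (P : Subgroup G) := by
      have h4 := Subgroup.card_mul_index (commutator G)
      rw [← h1] at h4
      have h5 := Nat.mul_le_mul_left (Nat.card (commutator G)) h2
      rw [h4, ← hcardA] at h5
      have h6 : 0 < Nat.card A := Nat.card_pos
      nlinarith
    have h4 : Nat.card (⁅A, (P : Subgroup G)⁆ ⊔
          ((P : Subgroup G) ⊓ centralizer (A : Set G)) : Subgroup G) *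
        Nat.card (⁅A, (P : Subgroup G)⁆ ⊓
          ((P : Subgroup G) ⊓ centralizer (A : Set G)) : Subgroup G) =
        Nat.card (⁅A, (P : Subgroup G)⁆ : Subgroup G) *
          Nat.card ((P : Subgroup G) ⊓ centralizer (A : Set G) : Subgroup G) :=
      SubgroupTools.card_sup_mul_card_inf
        (inf_le_left.trans (normalizer_commutator_ge_right A (P : Subgroup G)))
    rw [hDC] at h4
    have h5 : Nat.card (⁅A, (P : Subgroup G)⁆ : Subgroup G) ≤ Nat.card (commutator G) :=
      Subgroup.card_le_of_le hDle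
    have h6 : Nat.card ((P : Subgroup G) ⊓ centralizer (A : Set G) : Subgroup G) ≤
        Nat.card ((P : Subgroup G) ⊓ centralizer ({a} : Set G) : Subgroup G) :=
      Subgroup.card_le_of_le hCle
    have p1 : 0 < Nat.card (⁅A, (P : Subgroup G)⁆ ⊓
          ((P : Subgroup G) ⊓ centralizer (A : Set G)) : Subgroup G) := Nat.card_pos
    have p2 : 0 < Nat.card (P : Subgroup G) := Nat.card_pos
    have p3 : 0 < Nat.card (⁅A, (P : Subgroup G)⁆ : Subgroup G) := Nat.card_pos
    have p4 : 0 < Nat.card ((P : Subgroup G) ⊓ centralizer (A : Set G) : Subgroup G) :=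
      Nat.card_pos
    have h7 : Nat.card (⁅A, (P : Subgroup G)⁆ ⊓
          ((P : Subgroup G) ⊓ centralizer (A : Set G)) : Subgroup G) = 1 := by
      have h8 := Nat.mul_le_mul h5 h6
      nlinarith
    have h8 : Nat.card (⁅A, (P : Subgroup G)⁆ : Subgroup G) = Nat.card (commutator G) := by
      rw [h7, mul_one] at h4
      nlinarith
    have h9 : Nat.card ((P : Subgroup G) ⊓ centralizer (A : Set G) : Subgroup G) =
        Nat.card ((P : Subgroup G) ⊓ centralizer ({a} : Set G) : Subgroup G) := by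
      rw [h7, mul_one] at h4
      nlinarith
    refine ⟨Subgroup.eq_of_le_of_card_ge hCle h9.ge, Subgroup.eq_of_le_of_card_ge hDle h8.ge, ?_⟩
    rw [inf_comm]
    exact Subgroup.card_eq_one.mp h7
  obtain ⟨a₀, ha₀, ha₀1, hq₀⟩ : ∃ a ∈ A, a ≠ 1 ∧ ∃ q k : ℕ, q.Prime ∧ orderOf a = q ^ k := by
    have h1 : Nat.card A ≠ 1 := fun h => hA1 (Subgroup.card_eq_one.mp h)
    obtain ⟨q, hq, hqd⟩ := Nat.exists_prime_and_dvd h1
    have := Fact.mk hq
    obtain ⟨a, ha⟩ := exists_prime_orderOf_dvd_card' q hqd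
    rw [← Subgroup.orderOf_coe] at ha
    refine ⟨a, a.2, ?_, q, 1, hq, by rw [ha, pow_one]⟩
    intro h2
    rw [h2, orderOf_one] at ha
    exact hq.one_lt.ne ha
  obtain ⟨-, hDG, hCD⟩ := hmain a₀ ha₀ ha₀1 hq₀
  have hfpf : ∀ a ∈ A, a ≠ 1 → ∀ d ∈ ⁅A, (P : Subgroup G)⁆, a * d = d * a → d = 1 := by
    intro a ha ha1 d hd had
    have ho : orderOf a ≠ 1 := fun h => ha1 (orderOf_eq_one_iff.mp h)
    obtain ⟨q, hq, hqd⟩ := Nat.exists_prime_and_dvd ho
    have ho0 : orderOf a ≠ 0 := (orderOf_pos a).ne'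
    have h1 : orderOf (a ^ (orderOf a / q)) = q := orderOf_pow_orderOf_div ho0 hqd
    have h2 : a ^ (orderOf a / q) ≠ 1 := by
      intro h
      rw [h, orderOf_one] at h1
      exact hq.one_lt.ne h1
    obtain ⟨h3, -, -⟩ := hmain (a ^ (orderOf a / q)) (A.pow_mem ha _) h2
      ⟨q, 1, hq, by rw [h1, pow_one]⟩
    have h4 : d ∈ (P : Subgroup G) ⊓ centralizer ({a ^ (orderOf a / q)} : Set G) := by
      refine ⟨hDP hd, ?_⟩
      change d ∈ centralizer ({a ^ (orderOf a / q)} : Set G)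
      rw [mem_centralizer_singleton_iff]
      have h5 : Commute a d := had
      exact (h5.pow_left _).eq.symm
    rw [← h3] at h4
    have h5 : d ∈ ((P : Subgroup G) ⊓ centralizer (A : Set G)) ⊓ ⁅A, (P : Subgroup G)⁆ :=
      ⟨h4, hd⟩
    rw [hCD, mem_bot] at h5
    exact h5
  have hDn : (⁅A, (P : Subgroup G)⁆ : Subgroup G).Normal := by
    rw [hDG]
    infer_instance
  have hcyc : IsCyclic A := by
    have hVn : (⁅A, (P : Subgroup G)⁆ ⊓
        centralizer ((⁅A, (P : Subgroup G)⁆ : Subgroup G) : Set G)).Normal := inferInstance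
    set V : Subgroup G := ⁅A, (P : Subgroup G)⁆ ⊓
        centralizer ((⁅A, (P : Subgroup G)⁆ : Subgroup G) : Set G) with hV
    have hAV : A ≤ normalizer (V : Set G) := by
      rw [Subgroup.normalizer_eq_top]
      exact le_top
    let _ : CommGroup V :=
      { (inferInstance : Group V) with
        mul_comm := by
          intro x y
          apply Subtype.ext
          exact (mem_centralizer_iff.mp y.2.2 x.1 x.2.1) }
    have hDP' : IsPGroup p (⁅A, (P : Subgroup G)⁆ : Subgroup G) := P.2.to_le hDP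
    have hDne : Nontrivial (⁅A, (P : Subgroup G)⁆ : Subgroup G) := by
      rw [Subgroup.nontrivial_iff_ne_bot]
      intro h0
      rw [hDG] at h0
      apply hG
      intro a b
      have h1 := mem_comm a b
      rw [h0, mem_bot] at h1
      have h2 : a * b = (a * b * a⁻¹ * b⁻¹) * (b * a) := by group
      rw [h2, h1, one_mul]
    have hVne : Nontrivial V := by
      have h1 := hDP'.center_nontrivial
      obtain ⟨⟨z, hz⟩, hz1⟩ := exists_ne (1 : Subgroup.center (⁅A, (P : Subgroup G)⁆ : Subgroup G))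
      rw [Subgroup.nontrivial_iff_ne_bot]
      intro h0
      have h2 : (z : G) ∈ V := by
        refine ⟨z.2, ?_⟩
        change (z : G) ∈ centralizer ((⁅A, (P : Subgroup G)⁆ : Subgroup G) : Set G)
        rw [mem_centralizer_iff]
        intro x hx
        have := Subgroup.mem_center_iff.mp hz ⟨x, hx⟩
        exact congrArg Subtype.val this
      rw [h0, mem_bot] at h2
      apply hz1
      apply Subtype.ext
      apply Subtype.ext
      exact h2
    have hf : FrobAction.IsFPF (FrobAction2.conjAct hAV) := by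
      intro a ha v hv
      rw [FrobAction2.conjAct_fixed] at hv
      apply Subtype.ext
      exact hfpf a a.2 (fun h => ha (Subtype.ext h)) v v.2.1 hv
    exact FrobAction.isCyclic_of_comm hf (fun a b => Subtype.ext (hAcomm a a.2 b b.2))
  refine ⟨p, hpF, P, A, hPn, hcyc, hA1, hcopp, by rw [sup_comm]; exact hsup, ?_, hDn,
    by rw [sup_comm]; exact hDC, hCD, hfpf⟩
  refine ⟨⟨?_⟩⟩
  rintro ⟨x, hx⟩ ⟨y, hy⟩
  apply Subtype.ext
  change x * y = y * x
  have h1 : x * y * x⁻¹ * y⁻¹ ∈ ((P : Subgroup G) ⊓ centralizer (A : Set G)) ⊓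
      ⁅A, (P : Subgroup G)⁆ := by
    refine ⟨?_, ?_⟩
    · exact mul_mem (mul_mem (mul_mem hx hy) (Subgroup.inv_mem _ hx)) (Subgroup.inv_mem _ hy)
    · rw [hDG]
      exact mem_comm x y
  rw [hCD, mem_bot] at h1
  have h2 : x * y = (x * y * x⁻¹ * y⁻¹) * (y * x) := by group
  rw [h2, h1, one_mul]

/-! ### The converse -/

/-- The structure of `(2)`: decomposition. -/
theorem comm_le {A C D : Subgroup G} (hAc : ∀ a ∈ A, ∀ b ∈ A, a * b = b * a)
    (hCc : ∀ x ∈ C, ∀ y ∈ C, x * y = y * x) (hcA : ∀ x ∈ C, ∀ a ∈ A, a * x = x * a)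
    [hDn : D.Normal]
    (hdec : ∀ y : G, ∃ c ∈ C, ∃ a ∈ A, ∃ d ∈ D, y = c * a * d) : commutator G ≤ D := by
  rw [commutator_def, Subgroup.commutator_le]
  intro x _ y _
  rw [← QuotientGroup.eq_one_iff]
  obtain ⟨c, hc, a, ha, d, hd, rfl⟩ := hdec x
  obtain ⟨c', hc', a', ha', d', hd', rfl⟩ := hdec y
  have hd1 : ((d : G) : G ⧸ D) = 1 := (QuotientGroup.eq_one_iff d).mpr hd
  have hd2 : ((d' : G) : G ⧸ D) = 1 := (QuotientGroup.eq_one_iff d').mpr hd'
  have h1 : c * a * (c' * a') = c' * a' * (c * a) := by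
    have e1 := hcA c' hc' a ha
    have e2 := hcA c hc a' ha'
    have e3 := hCc c hc c' hc'
    have e4 := hAc a ha a' ha'
    calc c * a * (c' * a') = c * (a * c') * a' := by group
      _ = c * c' * (a * a') := by rw [e1]; group
      _ = c' * (c * a') * a := by rw [e3, e4]; group
      _ = c' * a' * (c * a) := by rw [← e2]; group
  have h2 : ((c : G ⧸ D) * a) * (c' * a') = (c' * a') * (c * a) :=
    congrArg (fun z : G => (z : G ⧸ D)) h1
  rw [commutatorElement_def]
  simp only [QuotientGroup.mk_mul, QuotientGroup.mk_inv, hd1, hd2, mul_one]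
  rw [mul_inv_eq_one, mul_inv_eq_iff_eq_mul]
  exact h2

theorem conj_coset [Finite G] {D : Subgroup G} [hDn : D.Normal] {u : G}
    (hfix : ∀ d ∈ D, u * d = d * u → d = 1) {d : G} (hd : d ∈ D) : IsConj u (u * d) := by
  let f : D → D :=
    fun d => ⟨u⁻¹ * ((d : G)⁻¹) * u⁻¹⁻¹ * d,
      D.mul_mem (hDn.conj_mem _ (D.inv_mem d.2) _) d.2⟩
  have hf : Function.Injective f := by
    rintro ⟨x, hx⟩ ⟨y, hy⟩ hxy
    have h1 : u⁻¹ * x⁻¹ * u⁻¹⁻¹ * x = u⁻¹ * y⁻¹ * u⁻¹⁻¹ * y :=
      congrArg Subtype.val hxy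
    apply Subtype.ext
    change x = y
    have h2 : x⁻¹ * u * x = y⁻¹ * u * y := by
      have := congrArg (fun z => u * z) h1
      simpa [mul_assoc] using this
    have h3 : u * (x * y⁻¹) = (x * y⁻¹) * u := by
      calc u * (x * y⁻¹) = x * (x⁻¹ * u * x) * y⁻¹ := by group
        _ = x * (y⁻¹ * u * y) * y⁻¹ := by rw [h2]
        _ = _ := by group
    have h4 := hfix (x * y⁻¹) (D.mul_mem hx (D.inv_mem hy)) h3
    exact mul_inv_eq_one.mp h4
  have hs : Function.Surjective f := Finite.surjective_of_injective hf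
  obtain ⟨⟨x, hx⟩, hxd⟩ := hs ⟨d, hd⟩
  have h1 : u⁻¹ * x⁻¹ * u⁻¹⁻¹ * x = d := congrArg Subtype.val hxd
  rw [isConj_iff]
  refine ⟨x⁻¹, ?_⟩
  rw [← h1]
  group

theorem size_le [Finite G] {D : Subgroup G} [hDn : D.Normal] {u d₀ : G}
    (hfix : ∀ d ∈ D, u * d = d * u → d = 1) (hd₀ : d₀ ∈ D) :
    Nat.card D ≤ Nat.card {x : G // IsConj (u * d₀) x} :=
  Nat.card_le_card_of_injective
    (fun d : D => (⟨u * d, (conj_coset hfix hd₀).symm.trans (conj_coset hfix d.2)⟩ :
      {x : G // IsConj (u * d₀) x}))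
    (fun _ _ hxy => Subtype.ext (mul_left_cancel (congrArg Subtype.val hxy)))

/-- A nonlinear character vanishes on elements with small centralizer. -/
theorem eq_zero_of_card_le [Finite G] {g : G}
    (h : Nat.card (Subgroup.centralizer ({g} : Set G)) ≤ (commutator G).index)
    (χ : IrrCharacter G) (hχ : (χ : G → ℂ) 1 ≠ 1) : (χ : G → ℂ) g = 0 := by
  classical
  by_contra h0
  have h1 := column_orthogonality g g
  rw [if_pos (IsConj.refl g)] at h1
  have h2 : ∑ ψ : IrrCharacter G, Complex.normSq ((ψ : G → ℂ) g) =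
      Nat.card (Subgroup.centralizer ({g} : Set G)) := by
    have h3 : ((∑ ψ : IrrCharacter G, Complex.normSq ((ψ : G → ℂ) g) : ℝ) : ℂ) =
        Nat.card (Subgroup.centralizer ({g} : Set G)) := by
      rw [← h1]
      push_cast
      apply Finset.sum_congr rfl
      intro ψ _
      rw [Complex.mul_conj]
    exact_mod_cast h3
  have h3 : (commutator G).index = ∑ ψ : IrrCharacter G, (if (ψ : G → ℂ) 1 = 1 then 1 else 0) := by
    rw [← card_linear, Nat.card_eq_fintype_card, Fintype.card_subtype, Finset.card_filter]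
  have h4 : ((commutator G).index : ℝ) =
      ∑ ψ : IrrCharacter G, (if (ψ : G → ℂ) 1 = 1 then (1 : ℝ) else 0) := by
    rw [h3]
    push_cast
    rfl
  have h5 : ∑ ψ : IrrCharacter G, (if (ψ : G → ℂ) 1 = 1 then (1 : ℝ) else 0) <
      ∑ ψ : IrrCharacter G, Complex.normSq ((ψ : G → ℂ) g) := by
    apply Finset.sum_lt_sum
    · intro ψ _
      by_cases hψ : (ψ : G → ℂ) 1 = 1
      · rw [if_pos hψ]
        have := ψ.2.isCharacter.mul_conj_of_linear hψ g
        rw [Complex.mul_conj] at this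
        have h6 : Complex.normSq ((ψ : G → ℂ) g) = 1 := by exact_mod_cast this
        rw [h6]
      · rw [if_neg hψ]
        exact Complex.normSq_nonneg _
    · refine ⟨χ, Finset.mem_univ _, ?_⟩
      rw [if_neg hχ]
      exact Complex.normSq_pos.mpr h0
  rw [← h4, h2] at h5
  have h6 : (commutator G).index < Nat.card (Subgroup.centralizer ({g} : Set G)) := by
    exact_mod_cast h5
  omega

theorem backward [Finite G] {p : ℕ} [Fact p.Prime] {P : Sylow p G} {A : Subgroup G}
    (hPn : (P : Subgroup G).Normal) (hcyc : IsCyclic A)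
    (hsup : A ⊔ (P : Subgroup G) = ⊤)
    (hCc : IsMulCommutative ↥((P : Subgroup G) ⊓ Subgroup.centralizer (A : Set G)))
    (hDn : (⁅A, (P : Subgroup G)⁆).Normal)
    (hCD : ((P : Subgroup G) ⊓ Subgroup.centralizer (A : Set G)) ⊔ ⁅A, (P : Subgroup G)⁆ =
        (P : Subgroup G))
    (hfpf : ∀ a ∈ A, a ≠ 1 → ∀ d ∈ ⁅A, (P : Subgroup G)⁆, a * d = d * a → d = 1)
    (hcop : (Nat.card ↥A).Coprime p)
    {g : G} (hg : g ∉ P) (χ : IrrCharacter G) (hχ : (χ : G → ℂ) 1 ≠ 1) : (χ : G → ℂ) g = 0 := by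
  classical
  have hAc : ∀ a ∈ A, ∀ b ∈ A, a * b = b * a := by
    intro a ha b hb
    have h := hcyc.isMulCommutative
    exact congrArg Subtype.val (h.is_comm.comm (⟨a, ha⟩ : A) ⟨b, hb⟩)
  have hCc' : ∀ x ∈ (P : Subgroup G) ⊓ Subgroup.centralizer (A : Set G),
      ∀ y ∈ (P : Subgroup G) ⊓ Subgroup.centralizer (A : Set G), x * y = y * x := by
    intro x hx y hy
    have := hCc.is_comm.comm (⟨x, hx⟩ : ↥((P : Subgroup G) ⊓ Subgroup.centralizer (A : Set G)))
      ⟨y, hy⟩
    exact congrArg Subtype.val this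
  have hcA : ∀ x ∈ (P : Subgroup G) ⊓ Subgroup.centralizer (A : Set G), ∀ a ∈ A,
      a * x = x * a := by
    intro x hx a ha
    exact mem_centralizer_iff.mp hx.2 a ha
  have hCP : (P : Subgroup G) ⊓ Subgroup.centralizer (A : Set G) ≤ (P : Subgroup G) := inf_le_left
  generalize (P : Subgroup G) ⊓ Subgroup.centralizer (A : Set G) = C at hCc' hcA hCD hCP
  generalize ⁅A, (P : Subgroup G)⁆ = D at hDn hfpf hCD
  -- decomposition of the elements
  have hdec : ∀ y : G, ∃ c ∈ C, ∃ a ∈ A, ∃ d ∈ D, y = c * a * d := by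
    intro y
    have h1 : y ∈ (P : Subgroup G) ⊔ A := by rw [sup_comm, hsup]; exact mem_top y
    rw [Subgroup.mem_sup_of_normal_left] at h1
    obtain ⟨x, hx, a, ha, rfl⟩ := h1
    rw [← hCD, Subgroup.mem_sup_of_normal_right] at hx
    obtain ⟨c, hc, d, hd, rfl⟩ := hx
    refine ⟨c, hc, a, ha, a⁻¹ * d * a⁻¹⁻¹, hDn.conj_mem d hd a⁻¹, ?_⟩
    group
  have hcomm : commutator G ≤ D := comm_le hAc hCc' hcA hdec
  obtain ⟨c, hc, a, ha, d₀, hd₀, hgd⟩ := hdec g
  have hDP : D ≤ (P : Subgroup G) := by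
    rw [← hCD]
    exact le_sup_right
  have ha1 : a ≠ 1 := by
    rintro rfl
    apply hg
    rw [hgd, mul_one]
    exact (P : Subgroup G).mul_mem (hCP hc) (hDP hd₀)
  -- no element of D commutes with `c * a`
  have hfix : ∀ d ∈ D, c * a * d = d * (c * a) → d = 1 := by
    intro d hd hcd
    have hca : Commute c a := (hcA c hc a ha).symm
    have h1 : (c * a) ^ Nat.card (P : Subgroup G) = a ^ Nat.card (P : Subgroup G) := by
      rw [hca.mul_pow]
      have : c ^ Nat.card (P : Subgroup G) = 1 :=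
        orderOf_dvd_iff_pow_eq_one.mp (Subgroup.orderOf_dvd_natCard _ (hCP hc))
      rw [this, one_mul]
    have h2 : a ^ Nat.card (P : Subgroup G) ≠ 1 := by
      intro h3
      apply ha1
      rw [← orderOf_eq_one_iff]
      have h4 := orderOf_dvd_of_pow_eq_one h3
      have h5 : orderOf a ∣ Nat.card A := Subgroup.orderOf_dvd_natCard A ha
      obtain ⟨k, hk⟩ := IsPGroup.iff_card.mp P.2
      have h6 : (Nat.card A).Coprime (Nat.card (P : Subgroup G)) := by
        rw [hk]
        exact Nat.Coprime.pow_right k hcop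
      exact Nat.eq_one_of_dvd_coprimes h6 h5 h4
    have h3 : Commute (c * a) d := hcd
    have h4 := (h3.pow_left (Nat.card (P : Subgroup G))).eq
    rw [h1] at h4
    exact hfpf _ (A.pow_mem ha _) h2 d hd h4
  have hsize := size_le hfix hd₀
  rw [← hgd] at hsize
  apply eq_zero_of_card_le _ χ hχ
  have h1 := card_isConj_mul_card_centralizer g
  have h2 := Subgroup.card_mul_index D
  have h3 : Nat.card (Subgroup.centralizer ({g} : Set G)) ≤ D.index := by
    by_contra hcon
    push Not at hcon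
    have h4 : 0 < Nat.card D := Nat.card_pos
    have := Nat.mul_lt_mul_of_le_of_lt hsize hcon (h4.trans_le hsize)
    rw [h1, h2] at this
    exact lt_irrefl _ this
  refine h3.trans ?_
  exact Nat.le_of_dvd (Nat.pos_of_ne_zero Subgroup.index_ne_zero_of_finite)
    (Subgroup.index_dvd_of_le hcomm)

end Cfsg.Agent.Lib.MultChar
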