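import Cfsg.Agent.Lib.SUSFinal
import Cfsg.Agent.Lib.NBN4

set_option autoImplicit false
set_option linter.unusedSectionVars false
set_option linter.unusedVariables false

/-!
# Two-transitive groups with nilpotent normal transitive subgroups of point stabilisers, V (helper71)

The base case: in a rank one set-up the group `Q` is a 2-group.
-/

namespace Cfsg.Agent.Lib.NBN5

open MulAction Cfsg.Agent.Lib.RankOne Cfsg.Agent.Lib.RankOneC Cfsg.Agent.Lib.SuzS1 Cfsg.Agent.Lib.H26SuzPP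
open Cfsg.Agent.Lib.H26SuzP

universe u v

theorem base : NBN4.Base.{u, v} := by
  intro G Ω _ _ _ _ a t Q hS h2
  have hP := Cfsg.Agent.Lib.SuzX9.PG hS h2
  obtain ⟨K, s, r, -, X⟩ := exists_env hS h2 (Cfsg.Agent.S1131.result hS h2)
  have h1 : qq Q = Nat.card X.E := by
    refine Nat.card_congr ⟨fun x => ⟨x.1, Q_fix X.hS x.1.2, congrArg Subtype.val x.2⟩,
      fun x => ⟨⟨x.1, X.EQ x.2⟩, Subtype.ext x.2.2⟩, fun x => rfl, fun x => rfl⟩
  rw [PP, h1] at hP
  by_cases hrr : r * r = 1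
  · exact Cfsg.Agent.Lib.SUApp.isPGroup X hrr
  · have h3 := hP.1 s X.sQ r X.hr X.s_ne X.ss X.hsr hrr
    have h4 : IsPGroup 2 X.E := fun x => ⟨1, Subtype.ext (by
      rw [pow_one, pow_two]; exact x.2.2)⟩
    obtain ⟨k, hk⟩ := IsPGroup.iff_card.1 h4
    apply IsPGroup.of_card (n := 2 * k)
    rw [h3, hk, ← pow_mul, mul_comm]

end Cfsg.Agent.Lib.NBN5
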