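import Cfsg.Agent.Lib.RelDeg
import Cfsg.Agent.Lib.CrossDeg

/-!
# Piece P3 of S4781 (helper49): abelian derived subgroup with an abelian complement, no divisibility among degrees
-/

set_option autoImplicit false
set_option linter.unusedSectionVars false
set_option linter.unusedVariables false

namespace Cfsg.Agent.Lib.NDP3

open Cfsg Cfsg.Agent.Lib Cfsg.Agent.Lib.CharBasic Cfsg.Agent.Lib.Clifford Cfsg.Agent.Lib.CliffordCorr Cfsg.Agent.Lib.RelDeg
open Subgroup

universe u

/-- separation of a point from a subgroup of a finite abelian group -/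
theorem exists_lin_sep {N : Type u} [Group N] [Finite N] (hN : ∀ a b : N, a * b = b * a) {I : Subgroup N} {x : N}
    (hx : x ∉ I) : ∃ mu : Lin N, mu.val x ≠ 1 ∧ ∀ n ∈ I, mu.val n = 1 := by
  let _ : CommGroup N := { (inferInstance : Group N) with mul_comm := hN }
  have h1 : (QuotientGroup.mk x : N ⧸ I) ≠ 1 := by
    rw [Ne, QuotientGroup.eq_one_iff]
    exact hx
  obtain ⟨φ, hφ⟩ := CommGroup.exists_apply_ne_one_of_hasEnoughRootsOfUnity (N ⧸ I) ℂ h1
  refine ⟨φ.comp (QuotientGroup.mk' I), hφ, fun n hn => ?_⟩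
  change φ (QuotientGroup.mk n) = 1
  rw [(QuotientGroup.eq_one_iff n).mpr hn, map_one]

section

variable {K : Type u} [Group K] [Finite K]

theorem index_pos' (S : Subgroup K) : 0 < S.index := Nat.pos_of_ne_zero Subgroup.index_ne_zero_of_finite

theorem eq_of_le_of_index {S T : Subgroup K} (h : S ≤ T) (hi : S.index = T.index) : S = T := by
  apply Subgroup.eq_of_le_of_card_ge h
  have h1 := S.card_mul_index
  have h2 := T.card_mul_index
  rw [hi] at h1
  have h3 : Nat.card S * T.index = Nat.card T * T.index := h1.trans h2.symm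
  exact (Nat.eq_of_mul_eq_mul_right (index_pos' T) h3).symm.le

/-- an invariant linear character extends over a complement -/
theorem ext_of_compl {J A : Subgroup K} [hJn : J.Normal] (hJA : J ⊓ A = ⊥) (hJA' : J ⊔ A = ⊤) (mu : Lin J)
    (hJS : J ≤ inertia J (lf mu)) : Ext hJS mu := by
  have hex : ∀ k : K, ∃ a ∈ A, k * a⁻¹ ∈ J := by
    intro k
    have hk : k ∈ J ⊔ A := by rw [hJA']; exact mem_top k
    rw [← SetLike.mem_coe, Subgroup.normal_mul] at hk
    obtain ⟨j, hj, a, ha, rfl⟩ := hk
    refine ⟨a, ha, ?_⟩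
    change j * a * a⁻¹ ∈ J
    rw [mul_inv_cancel_right]
    exact hj
  choose α hαA hαJ using hex
  have huniq : ∀ k a : K, a ∈ A → k * a⁻¹ ∈ J → α k = a := by
    intro k a ha hka
    have h1 : (k * a⁻¹)⁻¹ * (k * (α k)⁻¹) ∈ J := mul_mem (inv_mem hka) (hαJ k)
    have e1 : (k * a⁻¹)⁻¹ * (k * (α k)⁻¹) = a * (α k)⁻¹ := by group
    rw [e1] at h1
    have h2 : a * (α k)⁻¹ ∈ J ⊓ A := Subgroup.mem_inf.mpr ⟨h1, mul_mem ha (inv_mem (hαA k))⟩
    rw [hJA, mem_bot, mul_inv_eq_one] at h2
    exact h2.symm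
  have hmul : ∀ k l : K, α (k * l) = α k * α l := by
    intro k l
    apply huniq _ _ (mul_mem (hαA k) (hαA l))
    have e1 : k * l * (α k * α l)⁻¹ = (k * (l * (α l)⁻¹) * k⁻¹) * (k * (α k)⁻¹) := by group
    rw [e1]
    exact mul_mem (hJn.conj_mem _ (hαJ l) k) (hαJ k)
  have hinv : ∀ t ∈ inertia J (lf mu), ∀ n : J, mu.val ⟨t * n * t⁻¹, hJn.conj_mem (n : K) n.2 t⟩ = mu.val n := by
    intro t ht n
    have h1 := mem_LI.mp ht
    have h2 := congrArg (fun l : Lin J => l.val n) h1
    exact h2
  let κ : ↥(inertia J (lf mu)) →* ℂˣ :=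
    { toFun := fun t => mu.val ⟨(t : K) * (α t)⁻¹, hαJ t⟩
      map_one' := by
        have h1 : α (((1 : ↥(inertia J (lf mu))) : K)) = 1 := by
          apply huniq _ _ (one_mem _)
          rw [Subgroup.coe_one, inv_one, mul_one]
          exact one_mem _
        have h2 : (⟨((1 : ↥(inertia J (lf mu))) : K) * (α ((1 : ↥(inertia J (lf mu))) : K))⁻¹, hαJ _⟩ : J) = 1 := by
          apply Subtype.ext
          simp only [h1]
          simp
        rw [h2, map_one]
      map_mul' := by
        intro s t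
        have h1 : (⟨((s * t : ↥(inertia J (lf mu))) : K) * (α ((s * t : ↥(inertia J (lf mu))) : K))⁻¹, hαJ _⟩ : J) =
            ⟨(s : K) * ((⟨(t : K) * (α t)⁻¹, hαJ t⟩ : J) : K) * (s : K)⁻¹, hJn.conj_mem _ (hαJ t) s⟩ *
              ⟨(s : K) * (α s)⁻¹, hαJ s⟩ := by
          apply Subtype.ext
          simp only [Subgroup.coe_mul, hmul]
          group
        rw [h1, map_mul, hinv s s.2, mul_comm] }
  refine ⟨κ, ?_⟩
  apply Lin.ext'
  intro n
  have h1 : α (n : K) = 1 := by
    apply huniq _ _ (one_mem _)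
    rw [inv_one, mul_one]
    exact n.2
  change mu.val ⟨(n : K) * (α n)⁻¹, _⟩ = mu.val n
  congr 1
  apply Subtype.ext
  simp only [h1]
  simp

end

section main

variable {K : Type u} [Group K] [Finite K]

theorem conj_mem_of_comm {S : Subgroup K} (hJS : commutator K ≤ S) {g h : K} (hg : g ∈ S) : h * g * h⁻¹ ∈ S := by
  have h1 : h * g * h⁻¹ * g⁻¹ ∈ commutator K := Subgroup.commutator_mem_commutator (mem_top h) (mem_top g)
  have h2 := mul_mem (hJS h1) hg
  rwa [inv_mul_cancel_right] at h2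

theorem key (nd : ∀ a ∈ charDegrees K, ∀ b ∈ charDegrees K, 1 < a → a ∣ b → a = b) (A : Subgroup K)
    (hJA : commutator K ⊓ A = ⊥) (hJA' : commutator K ⊔ A = ⊤) (mu : Lin (commutator K)) (hmu : mu ≠ 1) :
    (inertia (commutator K) (lf mu)).index ∈ charDegrees K ∧ 1 < (inertia (commutator K) (lf mu)).index := by
  have := Fintype.ofFinite K
  have := Fintype.ofFinite (commutator K)
  have hJS : commutator K ≤ inertia (commutator K) (lf mu) := le_inertia (irr_lf mu).isClassFunction
  have hext := ext_of_compl hJA hJA' mu hJS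
  obtain ⟨χ, -, hχ⟩ := index_mem hmu rfl hext
  refine ⟨⟨χ, hχ⟩, ?_⟩
  have h1 : (inertia (commutator K) (lf mu)).index ≠ 1 := by
    intro h1
    exact hmu (eq_one_of_ext_top le_rfl (Subgroup.index_eq_one.mp h1) hext)
  have h2 := index_pos' (inertia (commutator K) (lf mu))
  omega

/-- all inertia groups of nontrivial linear characters coincide -/
theorem inertia_eq (nd : ∀ a ∈ charDegrees K, ∀ b ∈ charDegrees K, 1 < a → a ∣ b → a = b) (A : Subgroup K)
    (hJA : commutator K ⊓ A = ⊥) (hJA' : commutator K ⊔ A = ⊤) (m1 m2 : Lin (commutator K)) (h1 : m1 ≠ 1) (h2 : m2 ≠ 1) :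
    inertia (commutator K) (lf m1) = inertia (commutator K) (lf m2) := by
  have hle : ∀ m : Lin (commutator K), commutator K ≤ inertia (commutator K) (lf m) :=
    fun m => le_inertia (irr_lf m).isClassFunction
  have star : ∀ m n : Lin (commutator K), m ≠ 1 → n ≠ 1 →
      inertia (commutator K) (lf m) ≤ inertia (commutator K) (lf n) →
      inertia (commutator K) (lf m) = inertia (commutator K) (lf n) := by
    intro m n hm hn hmn
    obtain ⟨a1, a2⟩ := key nd A hJA hJA' m hm
    obtain ⟨b1, b2⟩ := key nd A hJA hJA' n hn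
    exact eq_of_le_of_index hmn (nd _ b1 _ a1 b2 (Subgroup.index_dvd_of_le hmn)).symm
  by_contra hne
  -- the fixed points of `S`
  let M : Subgroup K → Lin (commutator K) → Prop := fun S nu => ∀ g ∈ S, lcj g nu = nu
  have M_mul : ∀ S a b, M S a → M S b → M S (a * b) := by
    intro S a b ha hb g hg
    rw [lcj_mul, ha g hg, hb g hg]
  have M_inv : ∀ S a, M S a → M S a⁻¹ := by
    intro S a ha g hg
    have h3 : lcj g a * lcj g a⁻¹ = 1 := by rw [← lcj_mul, mul_inv_cancel, lcj_one']
    rw [ha g hg] at h3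
    exact (inv_eq_of_mul_eq_one_right h3).symm
  have M_lcj : ∀ S : Subgroup K, commutator K ≤ S → ∀ a (h : K), M S a → M S (lcj h a) := by
    intro S hS a h ha g hg
    have h3 := ha (h * g * h⁻¹) (conj_mem_of_comm hS hg)
    rw [lcj_lcj]
    have e1 : h * g = (h * g * h⁻¹) * h := by group
    rw [e1, ← lcj_lcj, h3]
  have hself : ∀ m : Lin (commutator K), M (inertia (commutator K) (lf m)) m := fun m g hg => mem_LI.mp hg
  have htriv : ∀ nu, M (inertia (commutator K) (lf m1)) nu → M (inertia (commutator K) (lf m2)) nu → nu = 1 := by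
    intro nu ha hb
    by_contra hnu
    apply hne
    rw [star m1 nu h1 hnu (fun g hg => mem_LI.mpr (ha g hg)), star m2 nu h2 hnu (fun g hg => mem_LI.mpr (hb g hg))]
  have hprod : m1 * m2 ≠ 1 := by
    intro h3
    have h4 : m2 = m1⁻¹ := (inv_eq_of_mul_eq_one_right h3).symm
    apply hne
    apply le_antisymm
    · intro g hg
      rw [mem_LI, h4]
      exact M_inv _ _ (hself m1) g hg
    · intro g hg
      rw [mem_LI]
      have h5 : m1 = m2⁻¹ := by rw [h4, inv_inv]
      rw [h5]
      exact M_inv _ _ (hself m2) g hg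
  have hboth : ∀ g ∈ inertia (commutator K) (lf (m1 * m2)), lcj g m1 = m1 ∧ lcj g m2 = m2 := by
    intro g hg
    have h3 := mem_LI.mp hg
    rw [lcj_mul] at h3
    have h4 : lcj g m1 * m1⁻¹ = m2 * (lcj g m2)⁻¹ := by
      rw [mul_inv_eq_iff_eq_mul, mul_comm m2, mul_assoc, mul_comm m2, ← h3, mul_comm (lcj g m1), inv_mul_cancel_left]
    have h5 : lcj g m1 * m1⁻¹ = 1 := by
      apply htriv
      · exact M_mul _ _ _ (M_lcj _ (hle m1) _ g (hself m1)) (M_inv _ _ (hself m1))
      · rw [h4]
        exact M_mul _ _ _ (hself m2) (M_inv _ _ (M_lcj _ (hle m2) _ g (hself m2)))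
    refine ⟨mul_inv_eq_one.mp h5, ?_⟩
    rw [h5] at h4
    exact (mul_inv_eq_one.mp h4.symm).symm
  have e1 := star (m1 * m2) m1 hprod h1 (fun g hg => mem_LI.mpr (hboth g hg).1)
  have e2 := star (m1 * m2) m2 hprod h2 (fun g hg => mem_LI.mpr (hboth g hg).2)
  exact hne (e1.symm.trans e2)

theorem exists_ne_of_degree (χ : IrrCharacter K) (h : charDegree (χ : K → ℂ) ≠ 1) :
    ∃ x ∈ commutator K, (χ : K → ℂ) x ≠ (χ : K → ℂ) 1 := by
  by_contra hcon
  push Not at hcon
  obtain ⟨ψ, hψ, hψχ⟩ := χ.2.deflate (commutator K) hcon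
  apply h
  have h1 : ψ 1 = 1 := hψ.one_eq_one_of_comm (fun a b => by
    obtain ⟨a, rfl⟩ := QuotientGroup.mk_surjective a
    obtain ⟨b, rfl⟩ := QuotientGroup.mk_surjective b
    rw [← QuotientGroup.mk_mul, ← QuotientGroup.mk_mul, QuotientGroup.eq]
    have h2 : (a * b)⁻¹ * (b * a) = b⁻¹ * a⁻¹ * b⁻¹⁻¹ * a⁻¹⁻¹ := by group
    rw [h2]
    exact Subgroup.commutator_mem_commutator (mem_top _) (mem_top _))
  have h3 : (χ : K → ℂ) 1 = 1 := by
    rw [← hψχ 1, QuotientGroup.mk_one, h1]
  simp [charDegree, h3]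

theorem abelian_case {K : Type u} [Group K] [Finite K]
    (nd : ∀ a ∈ charDegrees K, ∀ b ∈ charDegrees K, 1 < a → a ∣ b → a = b) (A : Subgroup K)
    (hA : ∀ a ∈ A, ∀ b ∈ A, a * b = b * a) (hJA : commutator K ⊓ A = ⊥) (hJA' : commutator K ⊔ A = ⊤)
    (hJ : ∀ a ∈ commutator K, ∀ b ∈ commutator K, a * b = b * a) (hne : commutator K ≠ ⊥) :
    (∀ k : K, ∀ y ∈ commutator K, y ≠ 1 → k * y = y * k → ∀ z ∈ commutator K, k * z = z * k) ∧
    (∀ a ∈ charDegrees K, a ≠ 1 → a = (centralizer (commutator K : Set K)).index) := by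
  have := Fintype.ofFinite K
  have := Fintype.ofFinite (commutator K)
  have hJ' : ∀ a b : commutator K, a * b = b * a := fun a b => Subtype.ext (hJ a a.2 b b.2)
  -- an element fixing one nontrivial linear character centralizes `J`
  have hcent : ∀ mu : Lin (commutator K), mu ≠ 1 → ∀ k ∈ inertia (commutator K) (lf mu), ∀ z ∈ commutator K,
      k * z = z * k := by
    intro mu hmu k hk z hz
    by_contra hne'
    set x : commutator K := ⟨k * z * k⁻¹, (inferInstance : (commutator K).Normal).conj_mem z hz k⟩ * ⟨z, hz⟩⁻¹ with hx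
    have hx1 : x ∉ (⊥ : Subgroup (commutator K)) := by
      rw [mem_bot]
      intro hc
      apply hne'
      have h1 := congrArg Subtype.val hc
      simp only [hx, Subgroup.coe_mul, Subgroup.coe_inv, Subgroup.coe_one] at h1
      rw [mul_inv_eq_one, mul_inv_eq_iff_eq_mul] at h1
      exact h1
    obtain ⟨nu, hnu, -⟩ := exists_lin_sep hJ' hx1
    have hnu1 : nu ≠ 1 := by
      rintro rfl
      exact hnu rfl
    have h2 : k ∈ inertia (commutator K) (lf nu) := by
      rw [← inertia_eq nd A hJA hJA' mu nu hmu hnu1]; exact hk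
    have h3 := congrArg (fun l : Lin (commutator K) => l.val ⟨z, hz⟩) (mem_LI.mp h2)
    have h4 : nu.val ⟨k * z * k⁻¹, (inferInstance : (commutator K).Normal).conj_mem z hz k⟩ = nu.val ⟨z, hz⟩ := h3
    apply hnu
    rw [hx, map_mul, map_inv, h4, mul_inv_cancel]
  refine ⟨?_, ?_⟩
  · intro k y hy hy1 hky
    -- the commutator map of `k` on `J`
    let f : commutator K →* commutator K :=
      { toFun := fun z => ⟨k * z * k⁻¹, (inferInstance : (commutator K).Normal).conj_mem z z.2 k⟩ * z⁻¹
        map_one' := by apply Subtype.ext; simp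
        map_mul' := by
          intro a b
          have e1 : (⟨k * ((a * b : commutator K) : K) * k⁻¹,
              (inferInstance : (commutator K).Normal).conj_mem _ (a * b).2 k⟩ : commutator K) =
              ⟨k * a * k⁻¹, (inferInstance : (commutator K).Normal).conj_mem a a.2 k⟩ *
                ⟨k * b * k⁻¹, (inferInstance : (commutator K).Normal).conj_mem b b.2 k⟩ := by
            apply Subtype.ext
            simp only [Subgroup.coe_mul]
            group
          rw [e1, mul_inv_rev]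
          set u := (⟨k * a * k⁻¹, (inferInstance : (commutator K).Normal).conj_mem a a.2 k⟩ : commutator K)
          set v := (⟨k * b * k⁻¹, (inferInstance : (commutator K).Normal).conj_mem b b.2 k⟩ : commutator K)
          calc u * v * (b⁻¹ * a⁻¹) = u * ((v * b⁻¹) * a⁻¹) := by group
            _ = u * (a⁻¹ * (v * b⁻¹)) := by rw [hJ' (v * b⁻¹)]
            _ = u * a⁻¹ * (v * b⁻¹) := by group }
    have hfy : f ⟨y, hy⟩ = 1 := by
      apply Subtype.ext
      change k * y * k⁻¹ * y⁻¹ = 1
      rw [hky]; group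
    have hninj : ¬ Function.Injective f := by
      intro hinj
      have h1 := hinj (hfy.trans (map_one f).symm)
      exact hy1 (congrArg Subtype.val h1)
    have hnsurj : f.range ≠ ⊤ := by
      intro hr
      exact hninj (Finite.injective_iff_surjective.mpr (MonoidHom.range_eq_top.mp hr))
    obtain ⟨x, hx⟩ : ∃ x, x ∉ f.range := by
      by_contra hcon
      push Not at hcon
      exact hnsurj (eq_top_iff.mpr fun x _ => hcon x)
    obtain ⟨mu, hmux, hmu⟩ := exists_lin_sep hJ' hx
    have hmu1 : mu ≠ 1 := by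
      rintro rfl
      exact hmux rfl
    have hk : k ∈ inertia (commutator K) (lf mu) := by
      rw [mem_LI]
      apply Lin.ext'
      intro z
      have h1 := hmu (f z) ⟨z, rfl⟩
      have h2 : mu.val (⟨k * z * k⁻¹, (inferInstance : (commutator K).Normal).conj_mem z z.2 k⟩ * z⁻¹) = 1 := h1
      rw [map_mul, map_inv, mul_inv_eq_one] at h2
      exact h2
    exact hcent mu hmu1 k hk
  · rintro _ ⟨χ, rfl⟩ ha
    obtain ⟨x, hx, hx1⟩ := exists_ne_of_degree χ ha
    have hres := χ.2.isCharacter.restrict (commutator K)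
    have h0 : (fun n : commutator K => (χ : K → ℂ) n) ≠ 0 := by
      intro h0
      have h1 := congrFun h0 1
      simp only [OneMemClass.coe_one, Pi.zero_apply] at h1
      exact χ.2.one_ne_zero h1
    obtain ⟨θ, hθ⟩ := Clifford.exists_constituent hres h0
    have hθ1 : (θ : commutator K → ℂ) 1 = 1 := θ.2.one_eq_one_of_comm hJ'
    obtain ⟨mu, hmu⟩ := exists_lf_of_degree θ.2 (by simp [charDegree, hθ1])
    have hne1 : mu ≠ 1 := by
      rintro rfl
      have h2 := ne_one_of_over χ.2 ⟨x, hx, hx1⟩ θ.2 hθ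
      apply h2
      rw [hmu, lf_one]
    have hθ' : classInner (fun n : commutator K => (χ : K → ℂ) n) (lf mu) ≠ 0 := by rw [← hmu]; exact hθ
    have hdvd := CrossDeg.inertia_index_dvd (commutator K) χ.2 (irr_lf mu) hθ'
    obtain ⟨k1, k2⟩ := key nd A hJA hJA' mu hne1
    have heq := nd _ k1 _ ⟨χ, rfl⟩ k2 hdvd
    rw [← heq]
    congr 1
    apply le_antisymm
    · intro k hk
      rw [mem_centralizer_iff]
      intro z hz
      exact (hcent mu hne1 k hk z hz).symm
    · intro k hk
      rw [mem_LI]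
      apply Lin.ext'
      intro z
      change mu.val ⟨k * z * k⁻¹, _⟩ = mu.val z
      congr 1
      apply Subtype.ext
      change k * (z : K) * k⁻¹ = z
      rw [mul_inv_eq_iff_eq_mul]
      exact (mem_centralizer_iff.mp hk z z.2).symm

end main

end Cfsg.Agent.Lib.NDP3
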