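import Cfsg.Agent.Lib.NDQuot
import Cfsg.Agent.Lib.NDP3

set_option autoImplicit false

/-!
# No divisibility among character degrees: the abelian case (helper85)
-/

open Cfsg Cfsg.Agent.Lib Cfsg.Agent.Lib.CharBasic Cfsg.Agent.Lib.Clifford
open Cfsg.Agent.Lib.CliffordCorr Cfsg.Agent.Lib.RelDeg Cfsg.Agent.Lib.NDGrp Subgroup
open scoped commutatorElement

namespace Cfsg.Agent.Lib.NDDat

universe u

variable {G : Type u} [Group G] [Finite G] {K : Subgroup G} [hK : K.Normal] {r : ℕ}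

theorem exists_compl' (D : Dat K r) : ∃ A : Subgroup K, (∀ a ∈ A, ∀ b ∈ A, a * b = b * a) ∧
    commutator K ⊓ A = ⊥ ∧ commutator K ⊔ A = ⊤ := by
  obtain ⟨A, hAK, hA, hJA, hsup⟩ := exists_compl D
  refine ⟨A.subgroupOf K, ?_, ?_, ?_⟩
  · intro a ha b hb
    exact Subtype.ext (hA _ (mem_subgroupOf.1 ha) _ (mem_subgroupOf.1 hb))
  · rw [eq_bot_iff]
    intro y hy
    have h1 : (y : G) ∈ ⁅K, K⁆ ⊓ A := mem_inf.2 ⟨mem_comm.1 (mem_inf.1 hy).1, mem_subgroupOf.1 (mem_inf.1 hy).2⟩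
    rw [hJA] at h1
    exact mem_bot.2 (Subtype.ext (mem_bot.1 h1))
  · rw [eq_top_iff]
    intro k _
    obtain ⟨j, hj, a, ha, he⟩ := hsup k k.2
    have hjK : j ∈ K := commutator_le_self K hj
    have h1 : k = (⟨j, hjK⟩ : K) * (⟨a, hAK ha⟩ : K) := Subtype.ext he
    rw [h1]
    exact mul_mem (mem_sup_left (mem_comm.2 hj)) (mem_sup_right (mem_subgroupOf.2 ha))

/-- Abelian situation. -/
def Ab (K : Subgroup G) : Prop := ∀ a ∈ (⁅K, K⁆ : Subgroup G), ∀ b ∈ (⁅K, K⁆ : Subgroup G), a * b = b * a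

theorem ab_case (D : Dat K r) (hab : Ab K) (hne : commutator K ≠ ⊥) :
    (∀ k : K, ∀ y ∈ commutator K, y ≠ 1 → k * y = y * k → ∀ z ∈ commutator K, k * z = z * k) ∧
    (∀ a ∈ charDegrees K, a ≠ 1 → a = (centralizer (commutator K : Set K)).index) := by
  obtain ⟨A, hA, hJA, hJA'⟩ := exists_compl' D
  refine NDP3.abelian_case D.nd A hA hJA hJA' ?_ hne
  intro a ha b hb
  exact Subtype.ext (hab _ (mem_comm.1 ha) _ (mem_comm.1 hb))

theorem ab_fpf (D : Dat K r) (hab : Ab K) {k y z : G} (hk : k ∈ K) (hy : y ∈ ⁅K, K⁆) (hy1 : y ≠ 1)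
    (hky : k * y = y * k) (hz : z ∈ ⁅K, K⁆) : k * z = z * k := by
  have hyK : y ∈ K := commutator_le_self K hy
  have hzK : z ∈ K := commutator_le_self K hz
  have hne : commutator K ≠ ⊥ := by
    intro h
    have h1 : (⟨y, hyK⟩ : K) ∈ commutator K := mem_comm.2 hy
    rw [h, mem_bot] at h1
    exact hy1 (congrArg Subtype.val h1)
  have h2 := (ab_case D hab hne).1 ⟨k, hk⟩ ⟨y, hyK⟩ (mem_comm.2 hy) (fun h => hy1 (congrArg Subtype.val h))
    (Subtype.ext hky) ⟨z, hzK⟩ (mem_comm.2 hz)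
  exact congrArg Subtype.val h2

/-- `K'` is a chief factor if it is abelian. -/
theorem chief (D : Dat K r) (hab : Ab K) {X : Subgroup G} (hX : X.Normal) (hXJ : X ≤ ⁅K, K⁆) :
    X = ⊥ ∨ X = ⁅K, K⁆ := by
  by_contra hcon
  push Not at hcon
  obtain ⟨hX1, hX2⟩ := hcon
  obtain ⟨y, hy, hyX⟩ := SetLike.exists_of_lt (lt_of_le_of_ne hXJ hX2)
  have claim1 : ∀ g v : G, v ∈ ⁅K, K⁆ → v ∉ X → g * v * g⁻¹ * v⁻¹ ∈ X → g * v = v * g := by
    intro g v hv hvX hg
    obtain ⟨k, hk, he⟩ := conj_in D hv g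
    have hkJ : ∀ z ∈ ⁅K, K⁆, k * z = z * k := by
      by_contra hn
      have hfp : ∀ u ∈ ⁅K, K⁆, k * u = u * k → u = 1 := by
        intro u hu huk
        by_contra hu1
        exact hn (fun z hz => ab_fpf D hab hk hu hu1 huk hz)
      let f : X → X := fun x => ⟨k * x * k⁻¹ * (x : G)⁻¹, mul_mem (hX.conj_mem _ x.2 k) (inv_mem x.2)⟩
      have hcomm : ∀ a ∈ (⁅K, K⁆ : Subgroup G), k * a * k⁻¹ ∈ ⁅K, K⁆ := fun a ha =>
        (commutator_normal K K).conj_mem _ ha k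
      have hquot : ∀ a ∈ (⁅K, K⁆ : Subgroup G), ∀ b ∈ (⁅K, K⁆ : Subgroup G),
          k * a * k⁻¹ * a⁻¹ = k * b * k⁻¹ * b⁻¹ → a = b := by
        intro a ha b hb hab'
        have h1 : k * (b⁻¹ * a) * k⁻¹ = b⁻¹ * a := by
          have h2 : k * (b⁻¹ * a) * k⁻¹ = (k * b * k⁻¹)⁻¹ * (k * a * k⁻¹) := by group
          have h3 : k * a * k⁻¹ = (k * b * k⁻¹ * b⁻¹) * a := by rw [← hab']; group
          rw [h2, h3]
          group
        have h4 : k * (b⁻¹ * a) = (b⁻¹ * a) * k := by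
          rw [mul_inv_eq_iff_eq_mul] at h1
          exact h1
        have h5 := hfp _ (mul_mem (inv_mem hb) ha) h4
        exact (inv_mul_eq_one.1 h5).symm
      have hf : Function.Injective f := by
        intro a b hab'
        exact Subtype.ext (hquot a (hXJ a.2) b (hXJ b.2) (congrArg Subtype.val hab'))
      have hs := Finite.surjective_of_injective hf
      have hg' : k * v * k⁻¹ * v⁻¹ ∈ X := by rw [← he]; exact hg
      obtain ⟨x, hx⟩ := hs ⟨_, hg'⟩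
      have h6 : k * x * k⁻¹ * (x : G)⁻¹ = k * v * k⁻¹ * v⁻¹ := congrArg Subtype.val hx
      have h7 := hquot _ (hXJ x.2) _ hv h6
      apply hvX
      rw [← h7]
      exact x.2
    have h8 := hkJ v hv
    have h9 : g * v * g⁻¹ = v := by rw [he, h8, mul_inv_cancel_right]
    rw [mul_inv_eq_iff_eq_mul] at h9
    exact h9
  have claim2 : ∀ g : G, g * y = y * g → g ∈ centralizer (X : Set G) := by
    intro g hg
    rw [mem_centralizer_iff]
    intro x hx
    have h1 : y * x ∉ X := by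
      intro h
      apply hyX
      have h2 : y = (y * x) * x⁻¹ := by group
      rw [h2]
      exact mul_mem h (inv_mem hx)
    have h2 : g * (y * x) * g⁻¹ * (y * x)⁻¹ ∈ X := by
      have h3 : g * (y * x) * g⁻¹ * (y * x)⁻¹ = (g * y) * x * g⁻¹ * x⁻¹ * y⁻¹ := by group
      have h4 : (g * y) * x * g⁻¹ * x⁻¹ * y⁻¹ = y * ((g * x * g⁻¹) * x⁻¹) * y⁻¹ := by rw [hg]; group
      rw [h3, h4]
      exact hX.conj_mem _ (mul_mem (hX.conj_mem _ hx g) (inv_mem hx)) y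
    have h3 := claim1 g (y * x) (mul_mem hy (hXJ hx)) h1 h2
    have h4 : y * (g * x) = y * (x * g) := by
      rw [← mul_assoc, ← hg, mul_assoc, h3, mul_assoc]
    exact (mul_left_cancel h4).symm
  apply D.ne_top
  rw [eq_top_iff]
  intro g _
  obtain ⟨k, hk, he⟩ := conj_in D hy g
  have h1 : (k⁻¹ * g) * y = y * (k⁻¹ * g) := by
    have h2 : k⁻¹ * (g * y * g⁻¹) * g = k⁻¹ * (k * y * k⁻¹) * g := by rw [he]
    have h3 : k⁻¹ * (g * y * g⁻¹) * g = (k⁻¹ * g) * y := by group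
    have h4 : k⁻¹ * (k * y * k⁻¹) * g = y * (k⁻¹ * g) := by group
    rw [h3, h4] at h2
    exact h2
  have h2 := centralizer_le D hX hXJ hX1 (claim2 _ h1)
  have h3 : g = k * (k⁻¹ * g) := by group
  rw [h3]
  exact mul_mem hk h2

end Cfsg.Agent.Lib.NDDat
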