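import Cfsg.Agent.Lib.NDGrp

set_option autoImplicit false

/-!
# No divisibility among character degrees: the invariant subgroup (helper85)
-/

open Cfsg Cfsg.Agent.Lib Cfsg.Agent.Lib.CharBasic Cfsg.Agent.Lib.Clifford
open Cfsg.Agent.Lib.CliffordCorr Cfsg.Agent.Lib.RelDeg Cfsg.Agent.Lib.NDGrp Subgroup
open scoped commutatorElement

namespace Cfsg.Agent.Lib.NDDat

universe u

/-- The situation of a solvable group with a disconnected degree graph. -/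
structure Dat {G : Type u} [Group G] (K : Subgroup G) [K.Normal] (r : ℕ) : Prop where
  hr : r.Prime
  comm_le : commutator G ≤ K
  ne_top : K ≠ ⊤
  inv : ∀ ψ : K → ℂ, IsIrrCharacter K ψ → charDegree ψ ≠ 1 → ∀ g : G, cj K g ψ = ψ
  nd : ∀ a ∈ charDegrees K, ∀ b ∈ charDegrees K, 1 < a → a ∣ b → a = b
  cop : ∀ a ∈ charDegrees K, a.Coprime K.index
  rJ : ¬ r ∣ Nat.card ↥(⁅K, K⁆ : Subgroup G)
  P1 : ∀ L : Subgroup G, L.Normal → ¬ L ≤ K → ∃ x ∈ L, x ∈ K ∧ (∃ n : ℕ, x ^ r ^ n = 1) ∧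
    ∃ g : G, g * x * g⁻¹ * x⁻¹ ∉ ⁅K, K⁆
  P2 : ∃ x ∈ commutator G, (∃ n : ℕ, x ^ r ^ n = 1) ∧ ∃ g : G, g * x * g⁻¹ * x⁻¹ ∉ ⁅K, K⁆

section Basic

variable {G : Type u} [Group G] [Finite G] {K : Subgroup G} [hK : K.Normal] {r : ℕ}

theorem mem_comm {y : K} : y ∈ commutator K ↔ (y : G) ∈ ⁅K, K⁆ := by
  rw [← subgroupOf_commutator K, mem_subgroupOf]

theorem chi_conj (D : Dat K r) (g : G) (k : K) (χ : IrrCharacter K) (hχ : charDegree (χ : K → ℂ) ≠ 1) :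
    (χ : K → ℂ) ⟨g * k * g⁻¹, hK.conj_mem _ k.2 g⟩ = (χ : K → ℂ) k := by
  have := congrFun (D.inv χ χ.2 hχ g) k
  exact this

/-- Elements of `K'` conjugate in `G` are conjugate in `K`. -/
theorem conj_in (D : Dat K r) {y : G} (hy : y ∈ ⁅K, K⁆) (g : G) : ∃ k ∈ K, g * y * g⁻¹ = k * y * k⁻¹ := by
  have hyK : y ∈ K := commutator_le_self K hy
  have h1 : IsConj (⟨y, hyK⟩ : K) ⟨g * y * g⁻¹, hK.conj_mem _ hyK g⟩ := by
    rw [isConj_iff_forall_irr]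
    intro χ
    by_cases hχ : charDegree (χ : K → ℂ) = 1
    · obtain ⟨lam, hlam⟩ := degree_one_of χ hχ
      rw [hlam]
      change ((lam _ : ℂˣ) : ℂ) = ((lam _ : ℂˣ) : ℂ)
      rw [lin_eq_of_commutator lam]
      rw [mem_comm]
      have h2 : g * y * g⁻¹ ∈ ⁅K, K⁆ := (commutator_normal K K).conj_mem _ hy g
      exact mul_mem hy (inv_mem h2)
    · exact (chi_conj D g ⟨y, hyK⟩ χ hχ).symm
  rw [isConj_iff] at h1
  obtain ⟨c, hc⟩ := h1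
  exact ⟨c, c.2, (congrArg Subtype.val hc).symm⟩

theorem isConj_mul (D : Dat K r) {x j g : G} (hx : x ∈ K) (hg : g * x * g⁻¹ * x⁻¹ ∉ ⁅K, K⁆) (hj : j ∈ ⁅K, K⁆) :
    ∃ k ∈ K, k * x * k⁻¹ = x * j := by
  have hjK : j ∈ K := commutator_le_self K hj
  have key : ∀ i : G, i ∈ ⁅K, K⁆ → ∀ hi : x * i ∈ K,
      (⟨x * i, hi⟩ : K) * (⟨g * (x * i) * g⁻¹, hK.conj_mem _ hi g⟩ : K)⁻¹ ∉ commutator K := by
    intro i hi hi' h
    rw [mem_comm] at h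
    apply hg
    have h1 : x * i * (g * (x * i) * g⁻¹)⁻¹ ∈ ⁅K, K⁆ := h
    have h2 : x * i * x⁻¹ ∈ ⁅K, K⁆ := (commutator_normal K K).conj_mem _ hi x
    have h3 : g * (x * i⁻¹ * x⁻¹) * g⁻¹ ∈ ⁅K, K⁆ :=
      (commutator_normal K K).conj_mem _ ((commutator_normal K K).conj_mem _ (inv_mem hi) x) g
    have h4 : g * x * g⁻¹ * x⁻¹ = (g * (x * i⁻¹ * x⁻¹) * g⁻¹) * (x * i * (g * (x * i) * g⁻¹)⁻¹)⁻¹ *
        (x * i * x⁻¹) := by group
    rw [h4]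
    exact mul_mem (mul_mem h3 (inv_mem h1)) h2
  have hc := conj_mul (K := K) (k := ⟨x, hx⟩) (k' := ⟨g * x * g⁻¹, hK.conj_mem _ hx g⟩)
    (j := ⟨j, hjK⟩) (by
      have := key 1 (one_mem _) (by rwa [mul_one])
      simpa using this) (fun χ hχ => chi_conj D g ⟨x, hx⟩ χ hχ) (mem_comm.2 hj) (by
      intro χ hχ
      exact vanish (key j hj (mul_mem hx hjK)) (fun χ hχ => chi_conj D g ⟨x * j, mul_mem hx hjK⟩ χ hχ) χ hχ)
  rw [isConj_iff] at hc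
  obtain ⟨c, hc⟩ := hc
  exact ⟨c, c.2, congrArg Subtype.val hc⟩

/-- Special elements act fixed-point-freely on `K'`. -/
theorem fpf (D : Dat K r) {x g : G} (hx : x ∈ K) (hg : g * x * g⁻¹ * x⁻¹ ∉ ⁅K, K⁆) {n : ℕ} (hn : x ^ r ^ n = 1)
    {y : G} (hy : y ∈ ⁅K, K⁆) (hc : x * y = y * x) : y = 1 := by
  obtain ⟨k, hk, he⟩ := isConj_mul D hx hg hy
  have h1 : (x * y) ^ r ^ n = 1 := by
    rw [← he, conj_pow, hn, mul_one, mul_inv_cancel]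
  have h2 : (x * y) ^ r ^ n = x ^ r ^ n * y ^ r ^ n := Commute.mul_pow hc _
  rw [h1, hn, one_mul] at h2
  have h3 : orderOf y ∣ r ^ n := orderOf_dvd_of_pow_eq_one h2.symm
  have h4 : orderOf y ∣ Nat.card ↥(⁅K, K⁆ : Subgroup G) := by
    have := orderOf_dvd_natCard (⟨y, hy⟩ : ↥(⁅K, K⁆ : Subgroup G))
    rwa [Subgroup.orderOf_mk] at this
  have h5 : (r ^ n).Coprime (Nat.card ↥(⁅K, K⁆ : Subgroup G)) :=
    Nat.Coprime.pow_left _ ((Nat.Prime.coprime_iff_not_dvd D.hr).2 D.rJ)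
  exact orderOf_eq_one_iff.1 (Nat.eq_one_of_dvd_coprimes h5 h3 h4)

theorem exists_special (D : Dat K r) : ∃ x ∈ K, (∃ n : ℕ, x ^ r ^ n = 1) ∧ ∃ g : G, g * x * g⁻¹ * x⁻¹ ∉ ⁅K, K⁆ := by
  obtain ⟨x, hx, h⟩ := D.P2
  exact ⟨x, D.comm_le hx, h⟩

/-- `K'` has an abelian complement in `K`. -/
theorem exists_compl (D : Dat K r) : ∃ A : Subgroup G, A ≤ K ∧ (∀ a ∈ A, ∀ b ∈ A, a * b = b * a) ∧
    ⁅K, K⁆ ⊓ A = ⊥ ∧ ∀ k ∈ K, ∃ j ∈ ⁅K, K⁆, ∃ a ∈ A, k = j * a := by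
  obtain ⟨x, hx, ⟨n, hn⟩, g, hg⟩ := exists_special D
  refine ⟨K ⊓ centralizer {x}, inf_le_left, ?_, ?_, ?_⟩
  · intro a ha b hb
    have h1 : ⁅a, b⁆ ∈ ⁅K, K⁆ := commutator_mem_commutator ha.1 hb.1
    have hax := mem_centralizer_singleton_iff.1 ha.2
    have hbx := mem_centralizer_singleton_iff.1 hb.2
    have h2 : x * ⁅a, b⁆ = ⁅a, b⁆ * x := by
      have h3 : ⁅a, b⁆ ∈ centralizer {x} := by
        rw [commutatorElement_def]
        exact mul_mem (mul_mem (mul_mem ha.2 hb.2) (inv_mem ha.2)) (inv_mem hb.2)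
      exact (mem_centralizer_singleton_iff.1 h3).symm
    have h4 := fpf D hx hg hn h1 h2
    exact commutatorElement_eq_one_iff_mul_comm.1 h4
  · rw [eq_bot_iff]
    intro y hy
    have h1 := mem_centralizer_singleton_iff.1 hy.2.2
    exact mem_bot.2 (fpf D hx hg hn hy.1 h1.symm)
  · intro k hk
    let f : ↥(⁅K, K⁆ : Subgroup G) → ↥(⁅K, K⁆ : Subgroup G) := fun j =>
      ⟨x⁻¹ * ((j : G) * x * (j : G)⁻¹), by
        have h1 : x⁻¹ * (j : G) * x⁻¹⁻¹ ∈ ⁅K, K⁆ := (commutator_normal K K).conj_mem _ j.2 x⁻¹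
        have h2 : x⁻¹ * ((j : G) * x * (j : G)⁻¹) = x⁻¹ * (j : G) * x⁻¹⁻¹ * (j : G)⁻¹ := by group
        rw [h2]
        exact mul_mem h1 (inv_mem j.2)⟩
    have hf : Function.Injective f := by
      intro i j hij
      have h1 : x⁻¹ * ((i : G) * x * (i : G)⁻¹) = x⁻¹ * ((j : G) * x * (j : G)⁻¹) := congrArg Subtype.val hij
      have h2 := mul_left_cancel h1
      have h3 : x * ((j : G)⁻¹ * i) = ((j : G)⁻¹ * i) * x := by
        have h4 : (j : G)⁻¹ * ((i : G) * x * (i : G)⁻¹) * i = (j : G)⁻¹ * ((j : G) * x * (j : G)⁻¹) * i := by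
          rw [h2]
        have h5 : (j : G)⁻¹ * ((i : G) * x * (i : G)⁻¹) * i = ((j : G)⁻¹ * i) * x := by group
        have h6 : (j : G)⁻¹ * ((j : G) * x * (j : G)⁻¹) * i = x * ((j : G)⁻¹ * i) := by group
        rw [h5, h6] at h4
        exact h4.symm
      have h7 := fpf D hx hg hn (mul_mem (inv_mem j.2) i.2) h3
      apply Subtype.ext
      exact (inv_mul_eq_one.1 h7).symm
    have hs := Finite.surjective_of_injective hf
    have h1 : x⁻¹ * (k * x * k⁻¹) ∈ ⁅K, K⁆ := by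
      have h2 : x⁻¹ * (k * x * k⁻¹) = ⁅x⁻¹, k⁆ := by rw [commutatorElement_def]; group
      rw [h2]
      exact commutator_mem_commutator (inv_mem hx) hk
    obtain ⟨j, hj⟩ := hs ⟨_, h1⟩
    have h2 : x⁻¹ * ((j : G) * x * (j : G)⁻¹) = x⁻¹ * (k * x * k⁻¹) := congrArg Subtype.val hj
    have h3 := mul_left_cancel h2
    refine ⟨j, j.2, (j : G)⁻¹ * k, mem_inf.2 ⟨K.mul_mem (K.inv_mem (commutator_le_self K j.2)) hk, ?_⟩, by group⟩
    rw [mem_centralizer_singleton_iff]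
    have h4 : (j : G)⁻¹ * (k * x * k⁻¹) * k = (j : G)⁻¹ * ((j : G) * x * (j : G)⁻¹) * k := by rw [h3]
    have h5 : (j : G)⁻¹ * (k * x * k⁻¹) * k = (j : G)⁻¹ * k * x := by group
    have h6 : (j : G)⁻¹ * ((j : G) * x * (j : G)⁻¹) * k = x * ((j : G)⁻¹ * k) := by group
    rw [h5, h6] at h4
    exact h4

/-- Centralizers of normal subgroups inside `K'` are in `K`. -/
theorem centralizer_le (D : Dat K r) {X : Subgroup G} (hX : X.Normal) (hXJ : X ≤ ⁅K, K⁆) (hX1 : X ≠ ⊥) :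
    centralizer (X : Set G) ≤ K := by
  by_contra hc
  obtain ⟨x, hx, hxK, ⟨n, hn⟩, g, hg⟩ := D.P1 (centralizer (X : Set G)) inferInstance hc
  obtain ⟨y, hy, hy1⟩ := (X.bot_or_exists_ne_one).resolve_left hX1
  exact hy1 (fpf D hxK hg hn (hXJ hy) (mem_centralizer_iff.1 hx y hy).symm)

theorem not_centralize (D : Dat K r) {X : Subgroup G} (hXJ : X ≤ ⁅K, K⁆) (hX1 : X ≠ ⊥) :
    ¬ commutator G ≤ centralizer (X : Set G) := by
  intro hc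
  obtain ⟨x, hx, ⟨n, hn⟩, g, hg⟩ := D.P2
  obtain ⟨y, hy, hy1⟩ := (X.bot_or_exists_ne_one).resolve_left hX1
  exact hy1 (fpf D (D.comm_le hx) hg hn (hXJ hy) (mem_centralizer_iff.1 (hc hx) y hy).symm)

end Basic

end Cfsg.Agent.Lib.NDDat
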