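import Cfsg.Agent.Lib.HallPi

/-!
# S4781, piece P2: the counting argument with Hall subgroups (helper30)
-/

set_option autoImplicit false

namespace Cfsg.Agent.Lib.NDP2

open Subgroup Pointwise Cfsg.Agent.Lib.SubgroupTools Cfsg.Agent.Lib.HallPi

/-! ### arithmetic -/

theorem arith_aux {q n s t a b : ℕ} (hq : q.Prime) (ha : a < s) (hb : b < t) (hab : a < b)
    (ha0 : 0 < a) (h1 : n * q ^ a + 1 = q ^ s + n) (h2 : n * q ^ b + 1 = q ^ t + n) : False := by
  have e1 : (n : ℤ) * q ^ a + 1 = q ^ s + n := by exact_mod_cast h1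
  have e2 : (n : ℤ) * q ^ b + 1 = q ^ t + n := by exact_mod_cast h2
  have d1 : (q : ℤ) ^ (a + 1) ∣ (n : ℤ) - 1 := by
    have h : (n : ℤ) - 1 = n * q ^ b - q ^ t := by linarith
    rw [h]
    exact dvd_sub ((pow_dvd_pow _ (by omega)).mul_left _) (pow_dvd_pow _ (by omega))
  have d2 : (q : ℤ) ^ (a + 1) ∣ (n : ℤ) * q ^ a := by
    have h : (n : ℤ) * q ^ a = q ^ s + (n - 1) := by linarith
    rw [h]
    exact dvd_add (pow_dvd_pow _ (by omega)) d1
  have hq0 : (q : ℤ) ≠ 0 := by exact_mod_cast hq.ne_zero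
  have d3 : (q : ℤ) ∣ n := by
    rw [pow_succ'] at d2
    exact (mul_dvd_mul_iff_right (pow_ne_zero a hq0)).mp d2
  have d4 : (q : ℤ) ∣ (n : ℤ) - 1 := (dvd_pow_self _ (by omega)).trans d1
  have d5 : (q : ℤ) ∣ ((1 : ℕ) : ℤ) := by
    have h := dvd_sub d3 d4
    simpa using h
  exact hq.one_lt.ne' (Nat.dvd_one.mp (Int.natCast_dvd_natCast.mp d5))

theorem arith_eq {q n s a : ℕ} (hq : q.Prime)
    (h1 : n * (q ^ a - 1) = q ^ s - 1) : n * q ^ a + 1 = q ^ s + n := by
  have pos : ∀ k, 1 ≤ q ^ k := fun k => Nat.one_le_pow _ _ hq.pos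
  obtain ⟨x, hx⟩ := Nat.exists_eq_add_of_le (pos a)
  obtain ⟨y, hy⟩ := Nat.exists_eq_add_of_le (pos s)
  rw [hx, hy] at h1 ⊢
  simp only [Nat.add_sub_cancel_left] at h1
  rw [← h1]; ring

theorem arith_pos {q n s a : ℕ} (hq : q.Prime) (hs : s ≠ 0)
    (h1 : n * (q ^ a - 1) = q ^ s - 1) : 0 < a := by
  rcases Nat.eq_zero_or_pos a with h | h
  · subst h
    have h2 : 1 < q ^ s := Nat.one_lt_pow hs hq.one_lt
    simp at h1
    omega
  · exact h

theorem arith_lt {q n s a : ℕ} (hq : q.Prime) (hn : 1 < n) (ha : 0 < a)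
    (h1 : n * q ^ a + 1 = q ^ s + n) : a < s := by
  have h2 : 1 < q ^ a := Nat.one_lt_pow ha.ne' hq.one_lt
  have h3 : q ^ a < q ^ s := by nlinarith
  exact (Nat.pow_lt_pow_iff_right hq.one_lt).mp h3

theorem arith {q n s t a b : ℕ} (hq : q.Prime) (hn : 1 < n) (hs : s ≠ 0) (ht : t ≠ 0)
    (h1 : n * (q ^ a - 1) = q ^ s - 1) (h2 : n * (q ^ b - 1) = q ^ t - 1) : q ^ s = q ^ t := by
  have pos : ∀ k, 1 ≤ q ^ k := fun k => Nat.one_le_pow _ _ hq.pos
  have ha := arith_pos hq hs h1
  have hb := arith_pos hq ht h2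
  have e1 := arith_eq hq h1
  have e2 := arith_eq hq h2
  have l1 := arith_lt hq hn ha e1
  have l2 := arith_lt hq hn hb e2
  rcases lt_trichotomy a b with h | h | h
  · exact (arith_aux hq l1 l2 h ha e1 e2).elim
  · subst h
    have h3 := h1.symm.trans h2
    have := pos s
    have := pos t
    omega
  · exact (arith_aux hq l2 l1 h hb e2 e1).elim

/-! ### counting -/

/-- The subgroup of the fixed points of `S` in `V`. -/
def fx {G : Type*} (V : Type*) [Group G] [Group V] [MulDistribMulAction G V] (S : Subgroup G) :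
    Subgroup V where
  carrier := {v | ∀ g ∈ S, g • v = v}
  mul_mem' {a b} ha hb g hg := by rw [smul_mul', ha g hg, hb g hg]
  one_mem' g _ := smul_one g
  inv_mem' {a} ha g hg := by rw [smul_inv', ha g hg]

theorem card_ne_one (H : Type*) [Group H] [Finite H] :
    Nat.card {x : H // x ≠ 1} = Nat.card H - 1 := by
  have h := Set.ncard_compl ({1} : Set H)
  rw [Set.ncard_singleton] at h
  rw [← h]
  rfl

theorem smul_ne {G V : Type*} [Group G] [Group V] [MulDistribMulAction G V] (g : G) {v : V}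
    (hv : v ≠ 1) : g • v ≠ 1 := by
  intro h
  apply hv
  have h1 := congrArg (fun x => g⁻¹ • x) h
  simpa using h1

theorem count {G V : Type*} [Group G] [Finite G] [Group V] [Finite V] [MulDistribMulAction G V]
    (S : Subgroup G)
    (hS : ∀ u : V, u ≠ 1 → ∃ g : G, MulAction.stabilizer G u = MulAut.conj g • S) :
    Nat.card G * (Nat.card (fx V S) - 1) =
      (Nat.card V - 1) * Nat.card (normalizer (S : Set G)) := by
  classical
  have stab : ∀ (g : G) (u : V),
      MulAction.stabilizer G (g • u) = MulAut.conj g • MulAction.stabilizer G u :=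
    fun g u => MulAction.stabilizer_smul_eq_stabilizer_map_conj g u
  have hfx : ∀ u : V, u ∈ fx V S → u ≠ 1 → MulAction.stabilizer G u = S := by
    intro u hu hu1
    obtain ⟨g, hg⟩ := hS u hu1
    symm
    apply eq_of_le_of_card_ge (fun x hx => hu x hx)
    rw [hg, card_conj_smul]
  have hfx' : ∀ u : V, MulAction.stabilizer G u = S → u ∈ fx V S := by
    intro u hu g hg
    rw [← hu] at hg
    exact hg
  choose! γ hγ using hS
  have hn : ∀ (g : G) (v : V), v ∈ fx V S → v ≠ 1 →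
      (γ (g • v))⁻¹ * g ∈ normalizer (S : Set G) := by
    intro g v hv hv1
    rw [mem_normalizer_iff_conj_smul, conj_smul_mul]
    have h1 := hγ (g • v) (smul_ne g hv1)
    rw [stab, hfx v hv hv1] at h1
    rw [h1, ← conj_smul_mul, inv_mul_cancel, conj_smul_one]
  have hm : ∀ (u : V) (n : G), u ≠ 1 → n ∈ normalizer (S : Set G) →
      (γ u * n)⁻¹ • u ∈ fx V S := by
    intro u n hu hn
    apply hfx'
    rw [stab, hγ u hu, ← conj_smul_mul, mul_inv_rev, mul_assoc, inv_mul_cancel, mul_one]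
    exact mem_normalizer_iff_conj_smul.mp (inv_mem hn)
  have e : G × {v : fx V S // v ≠ 1} ≃ {u : V // u ≠ 1} × normalizer (S : Set G) :=
    { toFun := fun p => (⟨p.1 • (p.2.1 : V), smul_ne _ (fun h => p.2.2 (Subtype.ext h))⟩,
        ⟨(γ (p.1 • (p.2.1 : V)))⁻¹ * p.1, hn p.1 p.2.1 p.2.1.2 (fun h => p.2.2 (Subtype.ext h))⟩)
      invFun := fun p => (γ p.1.1 * p.2.1,
        ⟨⟨(γ p.1.1 * p.2.1)⁻¹ • p.1.1, hm p.1.1 p.2.1 p.1.2 p.2.2⟩,
          fun h => smul_ne (γ p.1.1 * p.2.1)⁻¹ p.1.2 (congrArg Subtype.val h)⟩)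
      left_inv := by
        rintro ⟨g, v, hv⟩
        simp
      right_inv := by
        rintro ⟨u, n⟩
        refine Prod.ext (Subtype.ext ?_) (Subtype.ext ?_)
        · exact smul_inv_smul _ _
        · change (γ ((γ (u : V) * (n : G)) • (γ (u : V) * (n : G))⁻¹ • (u : V)))⁻¹ *
            (γ (u : V) * (n : G)) = n
          rw [smul_inv_smul, inv_mul_cancel_left] }
  have h := Nat.card_congr e
  rw [Nat.card_prod, Nat.card_prod, card_ne_one, card_ne_one] at h
  exact h

/-! ### Hall subgroups of `G / C` -/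

section Hall

variable {G : Type*} [Group G] [Finite G] {C : Subgroup G} [C.Normal]

theorem card_map_mk (S : Subgroup G) (h : C ≤ S) :
    Nat.card (S.map (QuotientGroup.mk' C)) = C.relIndex S := by
  have h1 := card_map_mul_card_inf_ker (QuotientGroup.mk' C) S
  rw [QuotientGroup.ker_mk', inf_eq_right.mpr h] at h1
  have h2 := card_mul_relIndex_of_le h
  apply Nat.eq_of_mul_eq_mul_left (Nat.card_pos (α := C))
  rw [h2, ← h1, mul_comm]

theorem eq_of_map_eq {S T : Subgroup G} (hS : C ≤ S) (hT : C ≤ T)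
    (h : S.map (QuotientGroup.mk' C) = T.map (QuotientGroup.mk' C)) : S = T := by
  have h1 := congrArg (Subgroup.comap (QuotientGroup.mk' C)) h
  rwa [comap_map_eq, comap_map_eq, QuotientGroup.ker_mk', sup_eq_left.mpr hS,
    sup_eq_left.mpr hT] at h1

theorem hall_conj [Group.IsSolvable G] {f : ℕ} {S T : Subgroup G} (hS : C ≤ S) (hT : C ≤ T)
    (h1 : C.relIndex S = f) (h2 : C.relIndex T = f) (hc : f.Coprime (C.index / f)) :
    ∃ g : G, MulAut.conj g • S = T := by
  have key : ∀ R : Subgroup G, C ≤ R → C.relIndex R = f →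
      Cfsg.IsPiHall {p : ℕ | p ∣ f} (R.map (QuotientGroup.mk' C)) := by
    intro R hR hf
    have hf0 : 0 < f := by
      rw [← hf, ← card_map_mk R hR]; exact Nat.card_pos
    refine ⟨fun p _ hp => ?_, fun p hp hp1 hp2 => ?_⟩
    · rw [card_map_mk R hR, hf] at hp
      exact hp
    · rw [index_map_eq _ (QuotientGroup.mk'_surjective C)
        (by rw [QuotientGroup.ker_mk']; exact hR)] at hp2
      have h3 : C.index / f = R.index := by
        rw [← relIndex_mul_index hR, hf, Nat.mul_div_cancel_left _ hf0]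
      rw [h3] at hc
      exact hp.one_lt.ne' (Nat.dvd_one.mp (hc ▸ Nat.dvd_gcd hp1 hp2))
  obtain ⟨g', hg'⟩ := exists_conj_eq (key S hS h1) (key T hT h2)
  obtain ⟨g, rfl⟩ := QuotientGroup.mk'_surjective C g'
  refine ⟨g, ?_⟩
  rw [← map_conj_smul] at hg'
  refine eq_of_map_eq ?_ hT hg'
  have h3 := conj_smul_mono g hS
  rwa [conj_smul_normal] at h3

theorem mem_of_pow {E S : Subgroup G} [E.Normal] {f : ℕ}
    (hE : ∀ e ∈ E, ∀ g : G, e * g * e⁻¹ * g⁻¹ ∈ C) (hCE : C ≤ E) (hS : C ≤ S)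
    (h1 : C.relIndex S = f) (hc : (C.relIndex E).Coprime f) {x : G} (hx : x ∈ E ⊔ S)
    (hxf : x ^ f ∈ C) : x ∈ S := by
  obtain ⟨e, he, y, hy, rfl⟩ := mem_sup_of_normal_left.mp hx
  have hcomm : Commute (QuotientGroup.mk' C e) (QuotientGroup.mk' C y) := by
    have h3 : QuotientGroup.mk' C (e * y * e⁻¹ * y⁻¹) = 1 :=
      (QuotientGroup.eq_one_iff _).mpr (hE e he y)
    rw [map_mul, map_mul, map_mul, map_inv, map_inv] at h3
    have h4 := mul_inv_eq_one.mp h3
    exact mul_inv_eq_iff_eq_mul.mp h4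
  have hy1 : (QuotientGroup.mk' C y) ^ f = 1 := by
    have h3 : (⟨QuotientGroup.mk' C y, mem_map_of_mem _ hy⟩ :
        S.map (QuotientGroup.mk' C)) ^ Nat.card (S.map (QuotientGroup.mk' C)) = 1 := pow_card_eq_one'
    rw [card_map_mk S hS, h1] at h3
    exact congrArg Subtype.val h3
  have he2 : (QuotientGroup.mk' C e) ^ (C.relIndex E) = 1 := by
    have h3 : (⟨QuotientGroup.mk' C e, mem_map_of_mem _ he⟩ :
        E.map (QuotientGroup.mk' C)) ^ Nat.card (E.map (QuotientGroup.mk' C)) = 1 := pow_card_eq_one'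
    rw [card_map_mk E hCE] at h3
    exact congrArg Subtype.val h3
  have he1 : (QuotientGroup.mk' C e) ^ f = 1 := by
    have h3 : (QuotientGroup.mk' C (e * y)) ^ f = 1 := by
      rw [← map_pow]; exact (QuotientGroup.eq_one_iff _).mpr hxf
    rw [map_mul, hcomm.mul_pow, hy1, mul_one] at h3
    exact h3
  have he3 : QuotientGroup.mk' C e = 1 := by
    have h3 : orderOf (QuotientGroup.mk' C e) ∣ 1 := by
      rw [← hc]
      exact Nat.dvd_gcd (orderOf_dvd_of_pow_eq_one he2) (orderOf_dvd_of_pow_eq_one he1)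
    exact orderOf_eq_one_iff.mp (Nat.dvd_one.mp h3)
  exact S.mul_mem (hS ((QuotientGroup.eq_one_iff _).mp he3)) hy

theorem normalizer_eq {E S : Subgroup G} [E.Normal] {f : ℕ}
    (hE : ∀ e ∈ E, ∀ g : G, e * g * e⁻¹ * g⁻¹ ∈ C) (hCE : C ≤ E) (hS : C ≤ S)
    (h1 : C.relIndex S = f) (hc : (C.relIndex E).Coprime f) :
    normalizer (S : Set G) = normalizer ((E ⊔ S : Subgroup G) : Set G) := by
  ext g
  rw [mem_normalizer_iff_conj_smul, mem_normalizer_iff_conj_smul]
  constructor
  · intro h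
    rw [conj_smul_sup, conj_smul_normal, h]
  · intro h
    refine eq_of_le_of_card_ge ?_ (card_conj_smul g S).ge
    intro x hx
    have hxT : x ∈ E ⊔ S := by
      rw [← h]; exact conj_smul_mono g le_sup_right hx
    refine mem_of_pow hE hCE hS h1 hc hxT ?_
    rw [mem_conj_smul] at hx
    have h3 : (g⁻¹ * x * g) ^ f ∈ C := by
      have h4 : (⟨QuotientGroup.mk' C (g⁻¹ * x * g), mem_map_of_mem _ hx⟩ :
          S.map (QuotientGroup.mk' C)) ^ Nat.card (S.map (QuotientGroup.mk' C)) = 1 :=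
        pow_card_eq_one'
      rw [card_map_mk S hS, h1] at h4
      have h5 := congrArg Subtype.val h4
      exact (QuotientGroup.eq_one_iff _).mp h5
    have h4 := (inferInstance : C.Normal).conj_mem _ h3 g
    have h5 : g * (g⁻¹ * x * g) ^ f * g⁻¹ = x ^ f := by
      rw [← conj_pow]; congr 1; group
    rwa [h5] at h4

theorem exists_compl {E T : Subgroup G} [E.Normal] {f : ℕ} (hCE : C ≤ E) (hET : E ≤ T)
    (h1 : E.relIndex T = f) (hc : (C.relIndex E).Coprime f) :
    ∃ S : Subgroup G, C ≤ S ∧ C.relIndex S = f ∧ E ⊔ S = T := by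
  set π := QuotientGroup.mk' C with hπ
  have hsurj : Function.Surjective π := QuotientGroup.mk'_surjective C
  have hCT : C ≤ T := hCE.trans hET
  have hEn : (E.map π).Normal := Normal.map inferInstance π hsurj
  have hle : E.map π ≤ T.map π := map_mono hET
  have hcT : Nat.card (T.map π) = Nat.card (E.map π) * f := by
    rw [card_map_mk T hCT, card_map_mk E hCE, ← h1, relIndex_mul_relIndex C E T hCE hET]
  set N := (E.map π).subgroupOf (T.map π) with hN
  have hNc : Nat.card N = C.relIndex E := by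
    rw [hN, card_subgroupOf_of_le hle, card_map_mk E hCE]
  have hNi : N.index = f := by
    have h3 : Nat.card (E.map π) * (E.map π).relIndex (T.map π) = Nat.card (T.map π) :=
      card_mul_relIndex_of_le hle
    rw [hcT] at h3
    exact Nat.eq_of_mul_eq_mul_left Nat.card_pos h3
  obtain ⟨H, hH⟩ := exists_right_complement'_of_coprime (N := N) (by rw [hNc, hNi]; exact hc)
  have hHc : Nat.card H = f := by rw [← hNi]; exact hH.symm.index_eq_card.symm
  set R := H.map (T.map π).subtype with hR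
  have hRc : Nat.card R = f := by
    rw [hR, card_map_of_injective (T.map π).subtype_injective, hHc]
  have hER : E.map π ⊔ R = T.map π := by
    have h3 := congrArg (Subgroup.map (T.map π).subtype) hH.sup_eq_top
    rw [Subgroup.map_sup, hN, subgroupOf_map_subtype, inf_eq_left.mpr hle, ← MonoidHom.range_eq_map,
      range_subtype] at h3
    exact h3
  have hmc : (R.comap π).map π = R := map_comap_eq_self_of_surjective hsurj R
  have hCS : C ≤ R.comap π := by
    intro x hx
    have h3 : π x = 1 := (QuotientGroup.eq_one_iff x).mpr hx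
    rw [mem_comap, h3]
    exact one_mem _
  refine ⟨R.comap π, hCS, ?_, ?_⟩
  · rw [← card_map_mk _ hCS, ← hπ, hmc, hRc]
  · refine eq_of_map_eq (hCE.trans le_sup_left) hCT ?_
    rw [← hπ, Subgroup.map_sup, hmc, hER]

end Hall

theorem relIndex_of {G : Type*} [Group G] {K C S : Subgroup G} [K.Normal] (h1 : S ⊓ K = C)
    (h2 : S ⊔ K = ⊤) : C ≤ S ∧ C.relIndex S = K.index := by
  refine ⟨h1 ▸ inf_le_left, ?_⟩
  rw [← h1, inf_relIndex_left, ← relIndex_sup_right, h2, relIndex_top_right]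

theorem count_contra {G V W : Type*} [Group G] [Finite G] [Group.IsSolvable G] [Group V] [Finite V]
    [Group W] [Finite W] [MulDistribMulAction G V] [MulDistribMulAction G W]
    (K C E : Subgroup G) [K.Normal] [C.Normal] [E.Normal] (hCE : C ≤ E) (hEK : E ≤ K)
    (hV : ∀ v : V, v ≠ 1 → MulAction.stabilizer G v ⊓ K = C ∧ MulAction.stabilizer G v ⊔ K = ⊤)
    (hW : ∀ w : W, w ≠ 1 → MulAction.stabilizer G w ⊓ K = E ∧ MulAction.stabilizer G w ⊔ K = ⊤)
    (hE : ∀ e ∈ E, ∀ g : G, e * g * e⁻¹ * g⁻¹ ∈ C) (hcop : (C.relIndex K).Coprime K.index)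
    {q s t : ℕ} (hq : q.Prime) (hs : s ≠ 0) (ht : t ≠ 0) (hVc : Nat.card V = q ^ s)
    (hWc : Nat.card W = q ^ t)
    (hne : ∃ v v' : V, v ≠ 1 ∧ v' ≠ 1 ∧ MulAction.stabilizer G v ≠ MulAction.stabilizer G v') :
    Nat.card V = Nat.card W := by
  classical
  obtain ⟨v₀, v₁, hv₀, hv₁, hne⟩ := hne
  have hf0 : 0 < K.index := Nat.pos_of_ne_zero index_ne_zero_of_finite
  have hcop' : K.index.Coprime (C.index / K.index) := by
    rw [← relIndex_mul_index (hCE.trans hEK), Nat.mul_div_cancel _ hf0]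
    exact hcop.symm
  have hcE : (C.relIndex E).Coprime K.index :=
    Nat.Coprime.coprime_dvd_left ⟨E.relIndex K, (relIndex_mul_relIndex C E K hCE hEK).symm⟩ hcop
  have hVs : ∀ v : V, v ≠ 1 → C ≤ MulAction.stabilizer G v ∧
      C.relIndex (MulAction.stabilizer G v) = K.index :=
    fun v hv => relIndex_of (hV v hv).1 (hV v hv).2
  have hWs : ∀ w : W, w ≠ 1 → E ≤ MulAction.stabilizer G w ∧
      E.relIndex (MulAction.stabilizer G w) = K.index :=
    fun w hw => relIndex_of (hW w hw).1 (hW w hw).2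
  have hWn : Nontrivial W := by
    rw [← Finite.one_lt_card_iff_nontrivial, hWc]
    exact Nat.one_lt_pow ht hq.one_lt
  obtain ⟨w₀, hw₀⟩ := exists_ne (1 : W)
  obtain ⟨S, hCS, hSf, hES⟩ := exists_compl hCE (hWs w₀ hw₀).1 (hWs w₀ hw₀).2 hcE
  have cV : ∀ u : V, u ≠ 1 → ∃ g : G, MulAction.stabilizer G u = MulAut.conj g • S := by
    intro u hu
    obtain ⟨g, hg⟩ := hall_conj hCS (hVs u hu).1 hSf (hVs u hu).2 hcop'
    exact ⟨g, hg.symm⟩
  have cW : ∀ u : W, u ≠ 1 → ∃ g : G, MulAction.stabilizer G u = MulAut.conj g • (E ⊔ S) := by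
    intro u hu
    obtain ⟨S', hCS', hSf', hES'⟩ := exists_compl hCE (hWs u hu).1 (hWs u hu).2 hcE
    obtain ⟨g, hg⟩ := hall_conj hCS hCS' hSf hSf' hcop'
    refine ⟨g, ?_⟩
    rw [conj_smul_sup, conj_smul_normal, hg, hES']
  have k1 := count (V := V) S cV
  have k2 := count (V := W) (E ⊔ S) cW
  rw [← normalizer_eq hE hCE hCS hSf hcE] at k2
  set M := normalizer (S : Set G) with hM
  have hidx : Nat.card M * M.index = Nat.card G := card_mul_index M
  have hM0 : 0 < Nat.card M := Nat.card_pos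
  have i1 : M.index * (Nat.card (fx V S) - 1) = Nat.card V - 1 := by
    apply Nat.eq_of_mul_eq_mul_left hM0
    rw [← mul_assoc, hidx, k1, mul_comm]
  have i2 : M.index * (Nat.card (fx W (E ⊔ S)) - 1) = Nat.card W - 1 := by
    apply Nat.eq_of_mul_eq_mul_left hM0
    rw [← mul_assoc, hidx, k2, mul_comm]
  have hn : 1 < M.index := by
    have h0 : M.index ≠ 0 := index_ne_zero_of_finite
    have h1 : M.index ≠ 1 := by
      intro h
      rw [index_eq_one] at h
      apply hne
      obtain ⟨g, hg⟩ := cV v₀ hv₀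
      obtain ⟨g', hg'⟩ := cV v₁ hv₁
      have hm : ∀ g : G, MulAut.conj g • S = S := fun g =>
        mem_normalizer_iff_conj_smul.mp (by rw [← hM, h]; exact mem_top g)
      rw [hg, hg', hm, hm]
    omega
  obtain ⟨a, -, ha⟩ := (Nat.dvd_prime_pow hq).mp (hVc ▸ card_subgroup_dvd_card (fx V S))
  obtain ⟨b, -, hb⟩ := (Nat.dvd_prime_pow hq).mp (hWc ▸ card_subgroup_dvd_card (fx W (E ⊔ S)))
  rw [ha, hVc] at i1
  rw [hb, hWc] at i2
  rw [hVc, hWc]
  exact arith hq hn hs ht i1 i2

end Cfsg.Agent.Lib.NDP2
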