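import Cfsg.Agent.Lib.NDChief
import Cfsg.Agent.Lib.MinNormSolv
import Cfsg.Agent.Lib.NDP2

set_option autoImplicit false

/-!
# No divisibility among character degrees: the second chief factor (helper85)
-/

open Cfsg Cfsg.Agent.Lib Cfsg.Agent.Lib.CharBasic Cfsg.Agent.Lib.Clifford
open Cfsg.Agent.Lib.CliffordCorr Cfsg.Agent.Lib.RelDeg Cfsg.Agent.Lib.NDGrp Subgroup
open scoped commutatorElement

namespace Cfsg.Agent.Lib.NDDat

universe u

/-- If all irreducible degrees are one then the group is abelian. -/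
theorem exists_nonlinear {K : Type u} [Group K] [Finite K] (h : commutator K ≠ ⊥) :
    ∃ a ∈ charDegrees K, a ≠ 1 := by
  by_contra hcon
  push Not at hcon
  apply h
  rw [eq_bot_iff]
  intro y hy
  have h1 : IsConj y 1 := by
    rw [isConj_iff_forall_irr]
    intro χ
    obtain ⟨lam, hlam⟩ := degree_one_of χ (hcon _ ⟨χ, rfl⟩)
    rw [hlam]
    change ((lam _ : ℂˣ) : ℂ) = ((lam _ : ℂˣ) : ℂ)
    rw [lin_eq_of_commutator lam (x := y) (y := 1) (by rwa [inv_one, mul_one])]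
  rw [isConj_one_left] at h1
  exact mem_bot.2 h1

variable {G : Type u} [Group G] [Finite G] {K : Subgroup G} [hK : K.Normal] {r : ℕ}

/-- A member of the complement centralizing something in `K'` is central modulo `K'`. -/
theorem comm_mem (D : Dat K r) {A : Subgroup G} (hAK : A ≤ K) (hA : ∀ a ∈ A, ∀ b ∈ A, a * b = b * a)
    (hsup : ∀ k ∈ K, ∃ j ∈ (⁅K, K⁆ : Subgroup G), ∃ a ∈ A, k = j * a) {a w : G} (ha : a ∈ A)
    (hw : w ∈ ⁅K, K⁆) (hw1 : w ≠ 1) (haw : a * w = w * a) (g : G) : g * a * g⁻¹ * a⁻¹ ∈ ⁅K, K⁆ := by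
  by_contra hg
  have haK := hAK ha
  let f : ↥(⁅K, K⁆ : Subgroup G) → ↥(⁅K, K⁆ : Subgroup G) := fun j =>
    ⟨a⁻¹ * ((j : G) * a * (j : G)⁻¹), by
      have h1 : a⁻¹ * (j : G) * a⁻¹⁻¹ ∈ ⁅K, K⁆ := (commutator_normal K K).conj_mem _ j.2 a⁻¹
      have h2 : a⁻¹ * ((j : G) * a * (j : G)⁻¹) = a⁻¹ * (j : G) * a⁻¹⁻¹ * (j : G)⁻¹ := by group
      rw [h2]
      exact mul_mem h1 (inv_mem j.2)⟩
  have hs : Function.Surjective f := by
    intro y
    obtain ⟨k, hk, he⟩ := isConj_mul D haK hg y.2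
    obtain ⟨j, hj, b, hb, hkb⟩ := hsup k hk
    refine ⟨⟨j, hj⟩, Subtype.ext ?_⟩
    change a⁻¹ * (j * a * j⁻¹) = y
    have h1 : k * a * k⁻¹ = j * a * j⁻¹ := by
      rw [hkb]
      have h2 : j * b * a * (j * b)⁻¹ = j * (b * a * b⁻¹) * j⁻¹ := by group
      rw [h2, hA b hb a ha, mul_inv_cancel_right]
    rw [← h1, he, inv_mul_cancel_left]
  have hi := Finite.injective_iff_surjective.2 hs
  have h1 : f ⟨w, hw⟩ = f 1 := by
    apply Subtype.ext
    change a⁻¹ * (w * a * w⁻¹) = a⁻¹ * (1 * a * 1⁻¹)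
    rw [← haw, mul_inv_cancel_right]
    group
  have h2 := hi h1
  exact hw1 (congrArg Subtype.val h2)

section W

/-- the subgroup `K''` -/
abbrev WW (K : Subgroup G) : Subgroup G := ⁅(⁅K, K⁆ : Subgroup G), (⁅K, K⁆ : Subgroup G)⁆

theorem WW_le : WW K ≤ ⁅K, K⁆ := commutator_le_self _

instance : (WW K).Normal := commutator_normal _ _

instance mapNormal : (K.map (QuotientGroup.mk' (WW K))).Normal :=
  hK.map _ (QuotientGroup.mk'_surjective _)

theorem datQ (D : Dat K r) : Dat (K.map (QuotientGroup.mk' (WW K))) r :=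
  D.map _ (QuotientGroup.mk'_surjective _) (by rw [QuotientGroup.ker_mk']; exact WW_le)

theorem commQ : (⁅K.map (QuotientGroup.mk' (WW K)), K.map (QuotientGroup.mk' (WW K))⁆ : Subgroup (G ⧸ WW K)) =
    (⁅K, K⁆ : Subgroup G).map (QuotientGroup.mk' (WW K)) := (map_commutator _ _ _).symm

theorem abQ : Ab (K.map (QuotientGroup.mk' (WW K))) := by
  intro a ha b hb
  rw [commQ] at ha hb
  obtain ⟨x, hx, rfl⟩ := ha
  obtain ⟨y, hy, rfl⟩ := hb
  rw [← commutatorElement_eq_one_iff_mul_comm, ← map_commutatorElement]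
  have h1 : ⁅x, y⁆ ∈ WW K := commutator_mem_commutator hx hy
  exact (QuotientGroup.eq_one_iff _).2 h1

theorem memQ {x : G} : QuotientGroup.mk' (WW K) x = 1 ↔ x ∈ WW K := QuotientGroup.eq_one_iff _

theorem mulQ {x y : G} : QuotientGroup.mk' (WW K) x * QuotientGroup.mk' (WW K) y =
    QuotientGroup.mk' (WW K) y * QuotientGroup.mk' (WW K) x ↔ x * y * x⁻¹ * y⁻¹ ∈ WW K := by
  rw [← commutatorElement_eq_one_iff_mul_comm, ← map_commutatorElement, memQ, commutatorElement_def]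

/-- (Q1) -/
theorem Q1 (D : Dat K r) {k y z : G} (hk : k ∈ K) (hy : y ∈ ⁅K, K⁆) (hyW : y ∉ WW K)
    (h : k * y * k⁻¹ * y⁻¹ ∈ WW K) (hz : z ∈ ⁅K, K⁆) : k * z * k⁻¹ * z⁻¹ ∈ WW K := by
  rw [← mulQ] at h ⊢
  refine ab_fpf (datQ D) abQ (mem_map_of_mem _ hk) ?_ ?_ h ?_
  · rw [commQ]; exact mem_map_of_mem _ hy
  · rwa [Ne, memQ]
  · rw [commQ]; exact mem_map_of_mem _ hz

/-- (Q2) -/
theorem Q2 (D : Dat K r) {X : Subgroup G} (hX : X.Normal) (hWX : WW K ≤ X) (hXJ : X ≤ ⁅K, K⁆) :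
    X = WW K ∨ X = ⁅K, K⁆ := by
  have hn : (X.map (QuotientGroup.mk' (WW K))).Normal := hX.map _ (QuotientGroup.mk'_surjective _)
  have h1 := chief (datQ D) abQ hn (by rw [commQ]; exact map_mono hXJ)
  have hback : ∀ Y : Subgroup G, WW K ≤ Y → (Y.map (QuotientGroup.mk' (WW K))).comap (QuotientGroup.mk' (WW K)) = Y := by
    intro Y hY
    rw [comap_map_eq, QuotientGroup.ker_mk', sup_eq_left.2 hY]
  rcases h1 with h1 | h1
  · left
    rw [← hback X hWX, h1]
    exact (MonoidHom.comap_bot _).trans (QuotientGroup.ker_mk' _)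
  · right
    rw [commQ] at h1
    rw [← hback X hWX, h1, hback _ WW_le]

/-- the elements of `K` acting trivially on `K'/K''` -/
def CG (K : Subgroup G) [K.Normal] : Subgroup G :=
  K ⊓ (centralizer (((⁅K, K⁆ : Subgroup G).map (QuotientGroup.mk' (WW K)) : Subgroup (G ⧸ WW K)) :
    Set (G ⧸ WW K))).comap (QuotientGroup.mk' (WW K))

theorem mem_CG {g : G} : g ∈ CG K ↔ g ∈ K ∧ ∀ y ∈ ⁅K, K⁆, g * y * g⁻¹ * y⁻¹ ∈ WW K := by
  rw [CG, mem_inf, mem_comap, mem_centralizer_iff]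
  refine and_congr_right (fun _ => ⟨fun h y hy => ?_, fun h v hv => ?_⟩)
  · rw [← mulQ]
    exact (h _ (mem_map_of_mem _ hy)).symm
  · obtain ⟨y, hy, rfl⟩ := hv
    exact (mulQ.2 (h y hy)).symm

instance : (CG K).Normal := by
  have : ((⁅K, K⁆ : Subgroup G).map (QuotientGroup.mk' (WW K))).Normal :=
    (commutator_normal K K).map _ (QuotientGroup.mk'_surjective _)
  have h2 : ((centralizer (((⁅K, K⁆ : Subgroup G).map (QuotientGroup.mk' (WW K)) : Subgroup (G ⧸ WW K)) :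
    Set (G ⧸ WW K))).comap (QuotientGroup.mk' (WW K))).Normal := Subgroup.Normal.comap inferInstance _
  unfold CG
  infer_instance

theorem J_le_CG : (⁅K, K⁆ : Subgroup G) ≤ CG K := by
  intro x hx
  rw [mem_CG]
  refine ⟨commutator_le_self K hx, fun y hy => ?_⟩
  exact commutator_mem_commutator hx hy

theorem CG_le : CG K ≤ K := inf_le_left

/-- `|K : C|` is a character degree. -/
theorem CG_degree (D : Dat K r) (hne : WW K ≠ (⁅K, K⁆ : Subgroup G)) :
    ((CG K).subgroupOf K).index ∈ charDegrees K ∧ ((CG K).subgroupOf K).index ≠ 1 := by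
  set π := QuotientGroup.mk' (WW K) with hπ
  have hsurj : Function.Surjective (π.subgroupMap K) := π.subgroupMap_surjective K
  have hne' : commutator ↥(K.map π) ≠ ⊥ := by
    intro h
    apply hne
    apply le_antisymm WW_le
    intro y hy
    have h1 : π y ∈ ⁅K.map π, K.map π⁆ := by rw [commQ]; exact mem_map_of_mem _ hy
    have h2 : (⟨π y, commutator_le_self _ h1⟩ : ↥(K.map π)) ∈ commutator ↥(K.map π) := mem_comm.2 h1
    rw [h, mem_bot] at h2
    exact memQ.1 (congrArg Subtype.val h2)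
  obtain ⟨a, ha, ha1⟩ := exists_nonlinear hne'
  have h1 := (ab_case (datQ D) abQ hne').2 a ha ha1
  have h2 : (CG K).subgroupOf K = (centralizer (commutator ↥(K.map π) : Set ↥(K.map π))).comap (π.subgroupMap K) := by
    ext k
    rw [mem_subgroupOf, mem_CG, mem_comap, mem_centralizer_iff]
    constructor
    · rintro ⟨-, h⟩ v hv
      have hv' : (v : G ⧸ WW K) ∈ (⁅K, K⁆ : Subgroup G).map π := by
        rw [← commQ]; exact mem_comm.1 hv
      obtain ⟨y, hy, he⟩ := hv'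
      apply Subtype.ext
      change (v : G ⧸ WW K) * π k = π k * v
      rw [← he]
      exact (mulQ.2 (h y hy)).symm
    · intro h
      refine ⟨k.2, fun y hy => ?_⟩
      have hy' : π y ∈ ⁅K.map π, K.map π⁆ := by rw [commQ]; exact mem_map_of_mem _ hy
      have h3 := h ⟨π y, commutator_le_self _ hy'⟩ (mem_comm.2 hy')
      have h4 : π y * π k = π k * π y := congrArg Subtype.val h3
      exact mulQ.1 h4.symm
  have h3 : ((CG K).subgroupOf K).index = a := by
    rw [h2, index_comap_of_surjective _ hsurj, h1]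
  rw [h3]
  exact ⟨inflate _ hsurj ha, ha1⟩

end W

end Cfsg.Agent.Lib.NDDat
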