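import Mathlib
import Cfsg.Agent.Lib.ZassHalf
import Cfsg.Agent.Lib.FrobAction

/-!
Abelian subgroups of two-point stabilisers in Zassenhaus groups are cyclic (helper13).
-/

set_option autoImplicit false

namespace Cfsg.Agent.Lib.ZassCyc

open MulAction ZassBasic

universe u v

variable {G : Type u} {Ω : Type v} [Group G] [MulAction G Ω]

theorem isCyclic_of_free [Finite G] (K N : Subgroup G) (hKc : ∀ x ∈ K, ∀ y ∈ K, x * y = y * x)
    (hNc : ∀ x ∈ N, ∀ y ∈ N, x * y = y * x) (hn : ∀ n ∈ N, ∀ k ∈ K, n * k * n⁻¹ ∈ K)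
    (hK1 : ∃ k ∈ K, k ≠ 1) (hfree : ∀ n ∈ N, ∀ k ∈ K, k ≠ 1 → n * k = k * n → n = 1) :
    IsCyclic N := by
  let act : N →* MulAut K := {
    toFun := fun n =>
      { toFun := fun k => ⟨n * k * (n : G)⁻¹, hn n n.2 k k.2⟩
        invFun := fun k => ⟨(n : G)⁻¹ * k * n, by
          have := hn (n : G)⁻¹ (N.inv_mem n.2) k k.2
          rwa [inv_inv] at this⟩
        left_inv := fun k => Subtype.ext (by
          show (n : G)⁻¹ * (n * k * (n : G)⁻¹) * n = k
          group)
        right_inv := fun k => Subtype.ext (by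
          show n * ((n : G)⁻¹ * k * n) * (n : G)⁻¹ = k
          group)
        map_mul' := fun k l => Subtype.ext (by
          show n * ((k : G) * l) * (n : G)⁻¹ = (n * k * (n : G)⁻¹) * (n * l * (n : G)⁻¹)
          group) }
    map_one' := by
      ext k
      show (1 : G) * k * (1 : G)⁻¹ = k
      group
    map_mul' := fun n m => by
      ext k
      show (n * m : G) * k * (n * m : G)⁻¹ = n * (m * k * (m : G)⁻¹) * (n : G)⁻¹
      group }
  obtain ⟨k0, hk0, hk01⟩ := hK1
  have hnt : Nontrivial K := ⟨⟨k0, hk0⟩, 1, fun h => hk01 (congrArg Subtype.val h)⟩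
  have hKc' : ∀ x y : K, x * y = y * x := fun x y => Subtype.ext (hKc x x.2 y y.2)
  let _ : CommGroup K := { (inferInstance : Group K) with mul_comm := hKc' }
  have hf : FrobAction.IsFPF act := by
    intro n hn1 k hk
    by_contra hk1
    apply hn1
    apply Subtype.ext
    have hk' : n * (k : G) * (n : G)⁻¹ = k := congrArg Subtype.val hk
    refine hfree n n.2 k k.2 (fun h => hk1 (Subtype.ext h)) ?_
    calc (n : G) * k = (n * (k : G) * (n : G)⁻¹) * n := by group
      _ = k * n := by rw [hk']
  exact FrobAction.isCyclic_of_comm hf (fun x y => Subtype.ext (hNc x x.2 y y.2))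

/-- in the "half" case the two-point stabiliser is cyclic and inverted -/
theorem half_cyclic [Finite G] [Finite Ω] (h2 : IsMultiplyPretransitive G Ω 2) (h3 : Fix3 G Ω)
    {a b : Ω} (hab : a ≠ b) (heven : Even (Nat.card ↥(stabilizer G a ⊓ stabilizer G b)))
    (hd : 2 * Nat.card ↥(stabilizer G a ⊓ stabilizer G b) ≤ Nat.card Ω - 2) :
    IsCyclic ↥(stabilizer G a ⊓ stabilizer G b) ∧
      ∃ v : G, orderOf v = 2 ∧ v • a = b ∧ v • b = a ∧
        ∀ h ∈ stabilizer G a ⊓ stabilizer G b, v * h * v⁻¹ = h⁻¹ := by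
  classical
  set H : Subgroup G := stabilizer G a ⊓ stabilizer G b with hH
  obtain ⟨z, hz⟩ : ∃ z : H, orderOf z = 2 := by
    have := Fact.mk Nat.prime_two
    exact exists_prime_orderOf_dvd_card' 2 (even_iff_two_dvd.1 heven)
  have hz1 : (z : G) ≠ 1 := by
    intro h
    have : z = 1 := Subtype.ext h
    rw [this, orderOf_one] at hz
    omega
  have hzz : (z : G) * z = 1 := by
    have : z * z = 1 := by rw [← sq, ← hz, pow_orderOf_eq_one]
    exact congrArg Subtype.val this
  have hza : (z : G) • a = a := z.2.1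
  have hzb : (z : G) • b = b := z.2.2
  have hswap := ZassHalf.swap_all h2 h3 hab hzz hz1 hza hzb hd
  obtain ⟨s, hsa, hsb⟩ := exists_move h2 hab hab.symm
  obtain ⟨hss, c, hca, hcb, hsc⟩ := hswap s hsa hsb
  have hs1 : s ≠ 1 := by
    rintro rfl
    rw [one_smul] at hsa
    exact hab hsa
  have hsinv : s⁻¹ = s := inv_eq_of_mul_eq_one_right hss
  have hinv : ∀ h ∈ H, s * h * s⁻¹ = h⁻¹ := by
    intro h hh
    have hha : h • a = a := hh.1
    have hhb : h • b = b := hh.2
    obtain ⟨h1, -⟩ := hswap (s * h) (by rw [mul_smul, hha, hsa]) (by rw [mul_smul, hhb, hsb])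
    rw [hsinv]
    have h4 : s * h * s * h = 1 := by
      calc s * h * s * h = s * h * (s * h) := by group
        _ = 1 := h1
    exact eq_inv_of_mul_eq_one_left h4
  let K := kernel h2 h3 hab hzz hz1 hza hzb
  have hK : ∀ g, g ∈ K ↔ InK a g := fun g => Iff.rfl
  have hreg := ZassHalf.kernel_regular h2 h3 hab K hK
  refine ⟨?_, s, ?_, hsa, hsb, hinv⟩
  · apply isCyclic_of_free K H
    · intro x hx y hy
      have hi : ∀ k ∈ K, (z : G) * k * z = k⁻¹ := fun k hk =>
        inK_invert h2 h3 hab hzz hz1 hza hzb ((hK k).1 hk)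
      have h1 := hi _ (K.mul_mem hx hy)
      have h2 := hi _ hx
      have h3 := hi _ hy
      have h4 : (z : G) * (x * y) * z = (z * x * z) * (z * y * z) := by
        calc (z : G) * (x * y) * z = z * x * (1 : G) * y * z := by group
          _ = z * x * (z * z) * y * z := by rw [hzz]
          _ = (z * x * z) * (z * y * z) := by group
      rw [h4, h2, h3, mul_inv_rev] at h1
      have h5 := congrArg (·⁻¹) h1
      simp only [mul_inv_rev, inv_inv] at h5
      exact h5.symm
    · intro x hx y hy
      have h1 := hinv _ (H.mul_mem hx hy)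
      have h4 : s * (x * y) * s⁻¹ = (s * x * s⁻¹) * (s * y * s⁻¹) := by group
      rw [h4, hinv x hx, hinv y hy, mul_inv_rev] at h1
      have h5 := congrArg (·⁻¹) h1
      simp only [mul_inv_rev, inv_inv] at h5
      exact h5.symm
    · intro n hn k hk
      exact (hK _).2 (inK_conj ((hK _).1 hk) hn.1)
    · obtain ⟨k, hk, -⟩ := hreg c hca
      refine ⟨k, k.2, ?_⟩
      intro h
      apply hcb
      rw [← hk]
      show (k : G) • b = b
      rw [h, one_smul]
    · intro n hn k hk hk1 hc
      have hna : n • a = a := hn.1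
      have hnb : n • b = b := hn.2
      have hkK := (hK k).1 hk
      have hkb : k • b ≠ b := hkK.2 hk1 b hab.symm
      have hka : k • b ≠ a := fun h' => hab (MulAction.injective _ (hkK.1.trans h'.symm))
      refine h3 n a b (k • b) hab hkb.symm hka.symm hna hnb ?_
      rw [smul_smul, hc, mul_smul, hnb]
  · have := Fact.mk Nat.prime_two
    exact orderOf_eq_prime (by rw [sq, hss]) hs1

end Cfsg.Agent.Lib.ZassCyc
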