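import Cfsg.Agent.Lib.NDP3
import Cfsg.Agent.Lib.ZassCyc

/-!
# Piece P4 of S4781 (helper49)
-/

set_option autoImplicit false
set_option linter.unusedSectionVars false
set_option linter.unusedVariables false

namespace Cfsg.Agent.Lib.NDP4

open Cfsg Cfsg.Agent.Lib Cfsg.Agent.Lib.CharBasic Cfsg.Agent.Lib.Clifford Cfsg.Agent.Lib.CliffordCorr Cfsg.Agent.Lib.RelDeg
open Cfsg.Agent.Lib.NDP3 Cfsg.Agent.Lib.DefectZero
open Subgroup
open scoped commutatorElement

universe u

section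

variable {K : Type u} [Group K] [Finite K]

/-- the conjugation endomorphism of a normal subgroup -/
def cnj {N : Subgroup K} (k : K) (hk : ∀ x ∈ N, k * x * k⁻¹ ∈ N) : N →* N where
  toFun z := ⟨k * z * k⁻¹, hk z z.2⟩
  map_one' := by apply Subtype.ext; simp
  map_mul' a b := by
    apply Subtype.ext
    change k * ((a : K) * b) * k⁻¹ = (k * a * k⁻¹) * (k * b * k⁻¹)
    group

/-- an element with a fixed point on the abelian normal subgroup `N` fixes a nontrivial linear character -/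
theorem exists_fixed_lin {N : Subgroup K} [hNn : N.Normal] (hN : ∀ a ∈ N, ∀ b ∈ N, a * b = b * a) {k y : K} (hy : y ∈ N)
    (hy1 : y ≠ 1) (hky : k * y = y * k) : ∃ mu : Lin N, mu ≠ 1 ∧ k ∈ inertia N (lf mu) := by
  have hN' : ∀ a b : N, a * b = b * a := fun a b => Subtype.ext (hN a a.2 b b.2)
  let c := cnj (N := N) k (fun x hx => hNn.conj_mem x hx k)
  let f : N →* N :=
    { toFun := fun z => c z * z⁻¹
      map_one' := by rw [map_one, inv_one, mul_one]
      map_mul' := by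
        intro a b
        rw [map_mul, mul_inv_rev]
        calc c a * c b * (b⁻¹ * a⁻¹) = c a * ((c b * b⁻¹) * a⁻¹) := by group
          _ = c a * (a⁻¹ * (c b * b⁻¹)) := by rw [hN' (c b * b⁻¹)]
          _ = c a * a⁻¹ * (c b * b⁻¹) := by group }
  have hfy : f ⟨y, hy⟩ = 1 := by
    apply Subtype.ext
    change k * y * k⁻¹ * y⁻¹ = 1
    rw [hky]; group
  have hninj : ¬ Function.Injective f := by
    intro hinj
    have h1 := hinj (hfy.trans (map_one f).symm)
    exact hy1 (congrArg Subtype.val h1)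
  have hnsurj : f.range ≠ ⊤ := by
    intro hr
    exact hninj (Finite.injective_iff_surjective.mpr (MonoidHom.range_eq_top.mp hr))
  obtain ⟨x, hx⟩ : ∃ x, x ∉ f.range := by
    by_contra hcon
    push Not at hcon
    exact hnsurj (eq_top_iff.mpr fun x _ => hcon x)
  obtain ⟨mu, hmux, hmu⟩ := exists_lin_sep hN' hx
  have hmu1 : mu ≠ 1 := by
    rintro rfl
    exact hmux rfl
  refine ⟨mu, hmu1, ?_⟩
  rw [mem_LI]
  apply Lin.ext'
  intro z
  have h1 := hmu (f z) ⟨z, rfl⟩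
  have h2 : mu.val (c z * z⁻¹) = 1 := h1
  rw [map_mul, map_inv, mul_inv_eq_one] at h2
  exact h2

/-- Clifford counting: `ν` a linear character of the normal subgroup `D` of `T = I(μ)`, `ν` over `μ`, inertia group of `ν` in
`T` inside `C`: a degree of `K` divisible by `|K : C ∩ T|`. -/
theorem exists_degree {W C : Subgroup K} [W.Normal] (mu : Lin W) {D : Subgroup K} (hWD : W ≤ D)
    (hDT : D ≤ inertia W (lf mu)) (hDn : ∀ t ∈ inertia W (lf mu), ∀ x ∈ D, t * x * t⁻¹ ∈ D) (nu : Lin D)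
    (hnu : ∀ n (hn : n ∈ W), nu.val ⟨n, hWD hn⟩ = mu.val ⟨n, hn⟩)
    (hC : ∀ t (ht : t ∈ inertia W (lf mu)), (∀ x : D, nu.val (cnj t (hDn t ht) x) = nu.val x) → t ∈ C) :
    ∃ a ∈ charDegrees K, (C ⊓ inertia W (lf mu)).index ∣ a := by
  classical
  have := Fintype.ofFinite K
  have := Fintype.ofFinite W
  set T := inertia W (lf mu) with hT
  have hWT : W ≤ T := hWD.trans hDT
  have := Fintype.ofFinite T
  have hDn' : (D.subgroupOf T).Normal := by
    constructor
    intro x hx t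
    rw [mem_subgroupOf] at hx ⊢
    exact hDn t t.2 x hx
  have := Fintype.ofFinite (D.subgroupOf T)
  let e := subgroupOfEquivOfLe hDT
  let θ : Lin (D.subgroupOf T) := nu.comap e.toMonoidHom
  obtain ⟨ψ, hψ⟩ := DegTools.exists_over (D.subgroupOf T) (irr_lf θ)
  -- `ψ` lies over `mu`
  have hres := ψ.2.isCharacter.restrict (D.subgroupOf T)
  have hsub := hres.sub_constituent (irr_lf θ) hψ
  let ι : W →* D.subgroupOf T :=
    { toFun := fun n => ⟨⟨n, hWT n.2⟩, mem_subgroupOf.mpr (hWD n.2)⟩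
      map_one' := rfl
      map_mul' := fun _ _ => rfl }
  have hover : classInner (resTo W T hWT (ψ : T → ℂ)) (lf mu) ≠ 0 := by
    have h5 := hsub.comp ι
    have h6 : resTo W T hWT (ψ : T → ℂ) = lf mu +
        fun x : W => ((fun h : D.subgroupOf T => (ψ : T → ℂ) h) - lf θ) (ι x) := by
      funext n
      have h7 : lf θ (ι n) = lf mu n := by
        change ((nu.val (e (ι n)) : ℂˣ) : ℂ) = ((mu.val n : ℂˣ) : ℂ)
        have h8 : e (ι n) = ⟨(n : K), hWD n.2⟩ := rfl
        rw [h8, hnu n n.2]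
      simp only [Pi.add_apply, Pi.sub_apply, h7]
      change (ψ : T → ℂ) ⟨n, hWT n.2⟩ = _
      have h9 : (ψ : T → ℂ) ((ι n : D.subgroupOf T) : T) = (ψ : T → ℂ) ⟨n, hWT n.2⟩ := rfl
      rw [h9]
      ring
    obtain ⟨m, hm⟩ := h5.classInner_nat (irr_lf mu).isCharacter
    rw [h6, classInner_add_left, (irr_lf mu).classInner_self, hm]
    exact_mod_cast (by omega : 1 + m ≠ 0)
  obtain ⟨hirr, -⟩ := corr_irr hWT (irr_lf mu) (fun g => by rw [hT]; exact mem_inertia) ψ.2 hover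
  refine ⟨charDegree (indFun T (ψ : T → ℂ)), ⟨⟨_, hirr⟩, rfl⟩, ?_⟩
  have hdeg : charDegree (indFun T (ψ : T → ℂ)) = T.index * charDegree (ψ : T → ℂ) := by
    have h5 := charDegree_eq hirr.isCharacter
    rw [IndFun.indFun_one, ← charDegree_eq ψ.2.isCharacter] at h5
    exact_mod_cast h5
  have hdvd := CrossDeg.inertia_index_dvd (D.subgroupOf T) ψ.2 (irr_lf θ) hψ
  have hle : inertia (D.subgroupOf T) (lf θ) ≤ C.subgroupOf T := by
    intro t ht
    rw [mem_subgroupOf]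
    apply hC t t.2
    intro x
    have h1 := mem_LI.mp ht
    have h2 := congrArg (fun l : Lin (D.subgroupOf T) => l.val (e.symm x)) h1
    have h3 : nu.val (e (MulAut.conjNormal t (e.symm x))) = nu.val (e (e.symm x)) := h2
    rw [MulEquiv.apply_symm_apply] at h3
    rw [← h3]
    congr 1
  have h1 : (C ⊓ T).index = T.index * C.relIndex T := by
    rw [← Subgroup.relIndex_mul_index (inf_le_right : C ⊓ T ≤ T), Subgroup.inf_relIndex_right, mul_comm]
  rw [h1, hdeg]
  exact Nat.mul_dvd_mul_left _ ((Subgroup.index_dvd_of_le hle).trans hdvd)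


theorem stepA (nd : ∀ a ∈ charDegrees K, ∀ b ∈ charDegrees K, 1 < a → a ∣ b → a = b) (W C : Subgroup K) [hWn : W.Normal] [C.Normal]
    (hWJ : W < commutator K) (hWab : ∀ a ∈ W, ∀ b ∈ W, a * b = b * a)
    (hWmin : ∀ X : Subgroup K, X.Normal → X ≤ W → X = ⊥ ∨ X = W) (hW1 : W ≠ ⊥)
    (hC : ∀ k, k ∈ C ↔ ∀ y ∈ commutator K, k * y * k⁻¹ * y⁻¹ ∈ W) (hJC : commutator K ≤ C)
    (hfpf : ∀ k, k ∉ C → ∀ y ∈ commutator K, k * y * k⁻¹ * y⁻¹ ∈ W → y ∈ W)
    (hCd : C.index ∈ charDegrees K) (hC1 : C ≠ ⊤) {q w : ℕ} (hq : q.Prime) (hw : w.Prime) (hqw : q ≠ w)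
    (hJq : ∀ y ∈ commutator K, y ^ q ∈ W) (hWw : ∀ y ∈ W, y ^ w = 1)
    (hnc : ¬ ∀ y ∈ commutator K, ∀ z ∈ W, y * z = z * y) (mu : Lin W) (hmu : mu ≠ 1) {y : K} (hy : y ∈ commutator K)
    (hyT : y ∈ inertia W (lf mu)) : y ∈ W := by
  by_contra hyW
  have fq : Fact q.Prime := ⟨hq⟩
  set T := inertia W (lf mu) with hT
  have hJn : (commutator K).Normal := inferInstance
  set D := commutator K ⊓ T with hD
  have hWT : W ≤ T := le_inertia (irr_lf mu).isClassFunction
  have hWD : W ≤ D := le_inf hWJ.le hWT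
  have hDT : D ≤ T := inf_le_right
  have hDn : ∀ t ∈ T, ∀ x ∈ D, t * x * t⁻¹ ∈ D := by
    rintro t ht x ⟨hx1, hx2⟩
    exact mem_inf.mpr ⟨hJn.conj_mem x hx1 t, mul_mem (mul_mem ht hx2) (inv_mem ht)⟩
  have hW' : (W.subgroupOf D).Normal := inferInstance
  have hmuT : ∀ t ∈ T, ∀ n (hn : n ∈ W), mu.val ⟨t * n * t⁻¹, hWn.conj_mem n hn t⟩ = mu.val ⟨n, hn⟩ := by
    intro t ht n hn
    exact congrArg (fun l : Lin W => l.val ⟨n, hn⟩) (mem_LI.mp ht)
  let e := subgroupOfEquivOfLe hWD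
  let lam : W.subgroupOf D →* ℂˣ := mu.val.comp e.toMonoidHom
  have hlinv : ∀ (g : D) (n : W.subgroupOf D), lam ⟨g * n * g⁻¹, hW'.conj_mem (n : D) n.2 g⟩ = lam n := by
    intro g n
    exact hmuT g (hDT g.2) n (mem_subgroupOf.mp n.2)
  -- the quotient
  have hcommW : ∀ a ∈ D, ∀ b ∈ D, a * b * a⁻¹ * b⁻¹ ∈ W := fun a ha b hb => (hC a).mp (hJC ha.1) b hb.1
  have hQab : ∀ a b : D ⧸ W.subgroupOf D, a * b = b * a := by
    intro a b
    obtain ⟨a, rfl⟩ := QuotientGroup.mk_surjective a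
    obtain ⟨b, rfl⟩ := QuotientGroup.mk_surjective b
    rw [← QuotientGroup.mk_mul, ← QuotientGroup.mk_mul, QuotientGroup.eq, mem_subgroupOf]
    have h1 := hcommW _ (inv_mem b.2) _ (inv_mem a.2)
    simp only [Subgroup.coe_mul, Subgroup.coe_inv]
    have e1 : ((a : K) * b)⁻¹ * (b * a) = (b : K)⁻¹ * (a : K)⁻¹ * ((b : K)⁻¹)⁻¹ * ((a : K)⁻¹)⁻¹ := by group
    rw [e1]
    exact h1
  have hQp : IsPGroup q (D ⧸ W.subgroupOf D) := by
    intro a
    obtain ⟨a, rfl⟩ := QuotientGroup.mk_surjective a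
    refine ⟨1, ?_⟩
    rw [pow_one, ← QuotientGroup.mk_pow, QuotientGroup.eq_one_iff, mem_subgroupOf]
    exact hJq a a.2.1
  obtain ⟨m, hm⟩ := IsPGroup.iff_card.mp hQp
  have hidx : (W.subgroupOf D).index = q ^ m := hm
  have hcopw : ∀ f : D →* ℂˣ, True := fun _ => trivial
  have hlamo : orderOf lam ∣ w := by
    rw [LinExt.orderOf_dvd_iff']
    intro n
    change mu.val (e n) ^ w = 1
    rw [← map_pow]
    have h1 : (e n) ^ w = 1 := Subtype.ext (by
      rw [Subgroup.coe_pow, Subgroup.coe_one]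
      exact hWw _ (e n).2)
    rw [h1, map_one]
  have hcop : Nat.Coprime (W.subgroupOf D).index (orderOf lam) := by
    rw [hidx]
    apply Nat.Coprime.pow_left
    exact Nat.Coprime.coprime_dvd_right hlamo ((Nat.coprime_primes hq hw).mpr hqw)
  obtain ⟨mh, mh1, mh2, mh3⟩ := LinExt.exists_unique_ext lam hlinv hcop
  -- a nontrivial character of the quotient
  have hymk : (QuotientGroup.mk (⟨y, mem_inf.mpr ⟨hy, hyT⟩⟩ : D) : D ⧸ W.subgroupOf D) ∉
      (⊥ : Subgroup (D ⧸ W.subgroupOf D)) := by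
    rw [mem_bot, QuotientGroup.eq_one_iff, mem_subgroupOf]
    exact hyW
  obtain ⟨lq, hlq, -⟩ := exists_lin_sep hQab hymk
  let lb : D →* ℂˣ := lq.val.comp (QuotientGroup.mk' (W.subgroupOf D))
  have hlbW : ∀ n (hn : n ∈ W), lb ⟨n, hWD hn⟩ = 1 := by
    intro n hn
    change lq.val (QuotientGroup.mk _) = 1
    rw [(QuotientGroup.eq_one_iff _).mpr (mem_subgroupOf.mpr hn), map_one]
  obtain ⟨a, ha, hadvd⟩ := exists_degree (C := C) mu hWD hDT hDn (mh * lb) (by
    intro n hn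
    change mh ⟨n, hWD hn⟩ * lb ⟨n, hWD hn⟩ = _
    rw [hlbW n hn, mul_one]
    exact mh1 ⟨⟨n, hWD hn⟩, mem_subgroupOf.mpr hn⟩) (by
    intro t ht hfix
    by_contra htC
    set c := cnj (N := D) t (hDn t ht) with hc
    have hmh : mh.comp c = mh := by
      apply mh3
      · intro n
        have h1 := hmuT t ht n (mem_subgroupOf.mp n.2)
        have h2 := mh1 ⟨c n, mem_subgroupOf.mpr (hWn.conj_mem _ (mem_subgroupOf.mp n.2) t)⟩
        exact h2.trans h1
      · have h1 : orderOf (mh.comp c) ∣ orderOf mh := by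
          rw [LinExt.orderOf_dvd_iff']
          intro h
          exact (LinExt.orderOf_dvd_iff' mh _).mp dvd_rfl (c h)
        rw [mh2] at h1
        exact Nat.Coprime.coprime_dvd_right h1 hcop
    have hlb : ∀ x : D, lb (c x) = lb x := by
      intro x
      have h1 : mh (c x) * lb (c x) = mh x * lb x := hfix x
      have h2 : mh (c x) = mh x := congrArg (fun f : D →* ℂˣ => f x) hmh
      rw [h2] at h1
      exact mul_left_cancel h1
    let F : D →* D ⧸ W.subgroupOf D :=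
      { toFun := fun x => QuotientGroup.mk (c x) * (QuotientGroup.mk x)⁻¹
        map_one' := by
          rw [map_one, QuotientGroup.mk_one, inv_one, mul_one]
        map_mul' := by
          intro a b
          rw [map_mul, QuotientGroup.mk_mul, QuotientGroup.mk_mul, mul_inv_rev]
          set u := (QuotientGroup.mk (c a) : D ⧸ W.subgroupOf D)
          set v := (QuotientGroup.mk (c b) : D ⧸ W.subgroupOf D)
          set a' := (QuotientGroup.mk a : D ⧸ W.subgroupOf D)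
          set b' := (QuotientGroup.mk b : D ⧸ W.subgroupOf D)
          calc u * v * (b'⁻¹ * a'⁻¹) = u * ((v * b'⁻¹) * a'⁻¹) := by group
            _ = u * (a'⁻¹ * (v * b'⁻¹)) := by rw [hQab (v * b'⁻¹)]
            _ = u * a'⁻¹ * (v * b'⁻¹) := by group }
    have hker : F.ker = W.subgroupOf D := by
      ext x
      rw [MonoidHom.mem_ker]
      change QuotientGroup.mk (c x) * (QuotientGroup.mk x)⁻¹ = (1 : D ⧸ W.subgroupOf D) ↔ _
      rw [← QuotientGroup.mk_inv, ← QuotientGroup.mk_mul, QuotientGroup.eq_one_iff, mem_subgroupOf, mem_subgroupOf]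
      constructor
      · intro h
        exact hfpf t htC x x.2.1 h
      · intro h
        exact mul_mem (hWn.conj_mem _ h t) (inv_mem h)
    have hrange : F.range = ⊤ := by
      apply Subgroup.eq_top_of_card_eq
      rw [← Subgroup.index_ker, hker]
      rfl
    apply hlq
    have h1 : (QuotientGroup.mk (⟨y, mem_inf.mpr ⟨hy, hyT⟩⟩ : D) : D ⧸ W.subgroupOf D) ∈ F.range := by
      rw [hrange]; exact mem_top _
    obtain ⟨x, hx⟩ := h1
    rw [← hx]
    change lq.val (QuotientGroup.mk (c x) * (QuotientGroup.mk x)⁻¹) = 1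
    rw [map_mul, map_inv, mul_inv_eq_one]
    exact hlb x)
  -- the degree is `|K : C|`
  have h1 : C.index ∣ (C ⊓ T).index := Subgroup.index_dvd_of_le inf_le_left
  have h1C : 1 < C.index := by
    have h2 : C.index ≠ 1 := fun h => hC1 (Subgroup.index_eq_one.mp h)
    have h3 := index_pos' C
    omega
  have h2 := nd _ hCd _ ha h1C (h1.trans hadvd)
  have h3 : (C ⊓ T).index = C.index := Nat.dvd_antisymm (by rw [← h2] at hadvd; exact hadvd) h1
  have h4 : C ⊓ T = C := eq_of_le_of_index inf_le_left h3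
  have hJT : commutator K ≤ T := hJC.trans (inf_eq_left.mp h4)
  -- `[W, J] = 1`
  have hX : (⁅W, commutator K⁆).Normal := inferInstance
  have hXW : ⁅W, commutator K⁆ ≤ W := Subgroup.commutator_le_left _ _
  rcases hWmin _ hX hXW with h5 | h5
  · apply hnc
    intro j hj z hz
    have h6 : ⁅z, j⁆ ∈ ⁅W, commutator K⁆ := Subgroup.commutator_mem_commutator hz hj
    rw [h5, mem_bot, commutatorElement_eq_one_iff_mul_comm] at h6
    exact h6.symm
  · apply hmu
    have h6 : ⁅W, commutator K⁆ ≤ (mu.val.ker).map W.subtype := by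
      rw [Subgroup.commutator_le]
      intro z hz j hj
      refine ⟨⟨z, hz⟩ * ⟨j * z * j⁻¹, hWn.conj_mem z hz j⟩⁻¹, ?_, ?_⟩
      · rw [SetLike.mem_coe, MonoidHom.mem_ker, map_mul, map_inv, hmuT j (hJT hj) z hz, mul_inv_cancel]
      · change z * (j * z * j⁻¹)⁻¹ = _
        rw [commutatorElement_def]
        group
    rw [h5] at h6
    apply Lin.ext'
    intro n
    obtain ⟨n', hn', hnn⟩ := h6 n.2
    have h7 : n' = n := Subtype.ext hnn
    rw [h7] at hn'
    exact hn'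

theorem case_two {K : Type u} [Group K] [Finite K] (nd : ∀ a ∈ charDegrees K, ∀ b ∈ charDegrees K, 1 < a → a ∣ b → a = b) (W C : Subgroup K) [W.Normal] [C.Normal]
    (hWJ : W < commutator K) (hWab : ∀ a ∈ W, ∀ b ∈ W, a * b = b * a)
    (hWmin : ∀ X : Subgroup K, X.Normal → X ≤ W → X = ⊥ ∨ X = W) (hW1 : W ≠ ⊥)
    (hC : ∀ k, k ∈ C ↔ ∀ y ∈ commutator K, k * y * k⁻¹ * y⁻¹ ∈ W) (hJC : commutator K ≤ C)
    (hfpf : ∀ k, k ∉ C → ∀ y ∈ commutator K, k * y * k⁻¹ * y⁻¹ ∈ W → y ∈ W)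
    (hCd : C.index ∈ charDegrees K) (hC1 : C ≠ ⊤) {q w : ℕ} (hq : q.Prime) (hw : w.Prime) (hqw : q ≠ w)
    (hJq : ∀ y ∈ commutator K, y ^ q ∈ W) (hWw : ∀ y ∈ W, y ^ w = 1)
    (hnc : ¬ ∀ y ∈ commutator K, ∀ z ∈ W, y * z = z * y) : W.relIndex (commutator K) = q := by
  have fq : Fact q.Prime := ⟨hq⟩
  have fw : Fact w.Prime := ⟨hw⟩
  -- elements outside `W` act fixed point freely on `W`
  have hfree : ∀ y ∈ commutator K, y ∉ W → ∀ z ∈ W, z ≠ 1 → y * z ≠ z * y := by
    intro y hy hyW z hz hz1 hyz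
    obtain ⟨mu, hmu, hmuy⟩ := exists_fixed_lin hWab hz hz1 hyz
    exact hyW (stepA nd W C hWJ hWab hWmin hW1 hC hJC hfpf hCd hC1 hq hw hqw hJq hWw hnc mu hmu hy hmuy)
  set J := commutator K with hJ
  have hW' : (W.subgroupOf J).Normal := inferInstance
  have hWp : IsPGroup w (W.subgroupOf J) := by
    intro x
    refine ⟨1, ?_⟩
    rw [pow_one]
    apply Subtype.ext
    apply Subtype.ext
    rw [Subgroup.coe_pow, Subgroup.coe_pow]
    exact hWw _ (mem_subgroupOf.mp x.2)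
  have hQp : IsPGroup q (J ⧸ W.subgroupOf J) := by
    intro a
    obtain ⟨a, rfl⟩ := QuotientGroup.mk_surjective a
    refine ⟨1, ?_⟩
    rw [pow_one, ← QuotientGroup.mk_pow, QuotientGroup.eq_one_iff, mem_subgroupOf]
    exact hJq a a.2
  obtain ⟨m, hm⟩ := IsPGroup.iff_card.mp hQp
  obtain ⟨l, hl⟩ := IsPGroup.iff_card.mp hWp
  have hidx : (W.subgroupOf J).index = q ^ m := hm
  obtain ⟨Q0, hQ0⟩ := Subgroup.exists_right_complement'_of_coprime (N := W.subgroupOf J) (by
    rw [hl, hidx]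
    exact Nat.Coprime.pow _ _ ((Nat.coprime_primes hw hq).mpr hqw.symm))
  set Q := Q0.map J.subtype with hQ
  have hQJ : Q ≤ J := map_subtype_le _
  have hcardQ : Nat.card Q = W.relIndex J := by
    rw [hQ, Subgroup.card_map_of_injective J.subtype_injective]
    exact hQ0.symm.index_eq_card.symm
  have hQW : ∀ x ∈ Q, x ∈ W → x = 1 := by
    rintro _ ⟨x, hx, rfl⟩ hxW
    have h1 : x ∈ W.subgroupOf J ⊓ Q0 := mem_inf.mpr ⟨mem_subgroupOf.mpr hxW, hx⟩
    rw [hQ0.disjoint.eq_bot, mem_bot] at h1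
    rw [h1]; rfl
  have hQab : ∀ x ∈ Q, ∀ y ∈ Q, x * y = y * x := by
    intro x hx y hy
    have h1 : x * y * x⁻¹ * y⁻¹ ∈ W := (hC x).mp (hJC (hQJ hx)) y (hQJ hy)
    have h2 := hQW _ (mul_mem (mul_mem (mul_mem hx hy) (inv_mem hx)) (inv_mem hy)) h1
    rw [mul_inv_eq_one, mul_inv_eq_iff_eq_mul] at h2
    exact h2
  obtain ⟨z0, hz0, hz01⟩ : ∃ z ∈ W, z ≠ 1 := by
    by_contra hcon
    push Not at hcon
    exact hW1 (by rw [eq_bot_iff]; exact fun x hx => mem_bot.mpr (hcon x hx))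
  have hcyc : IsCyclic Q := by
    refine ZassCyc.isCyclic_of_free W Q hWab hQab (fun n _ k hk => (inferInstance : W.Normal).conj_mem k hk n)
      ⟨z0, hz0, hz01⟩ ?_
    intro n hn k hk hk1 hnk
    by_contra hn1
    exact hfree n (hQJ hn) (fun h => hn1 (hQW n hn h)) k hk hk1 hnk
  obtain ⟨g, hg⟩ := hcyc.exists_generator
  have hgq : g ^ q = 1 := by
    apply Subtype.ext
    rw [Subgroup.coe_pow, Subgroup.coe_one]
    exact hQW _ (pow_mem g.2 q) (hJq _ (hQJ g.2))
  have hcard : Nat.card Q ∣ q := by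
    rw [← Nat.card_congr (Subgroup.topEquiv (G := Q)).toEquiv, ← (eq_top_iff.mpr fun x _ => hg x : zpowers g = ⊤),
      Nat.card_zpowers]
    exact orderOf_dvd_of_pow_eq_one hgq
  rw [← hcardQ]
  rcases (Nat.dvd_prime hq).mp hcard with h | h
  · exfalso
    rw [hcardQ] at h
    exact hWJ.not_ge (Subgroup.relIndex_eq_one.mp h)
  · exact h

end

end Cfsg.Agent.Lib.NDP4
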