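import Cfsg.Agent.Lib.RelDeg
import Cfsg.Agent.Lib.DegTools
import Cfsg.Agent.Lib.CharCentral
import Cfsg.Agent.Lib.CliffordCorr
import Cfsg.Agent.Lib.BlockDeg
import Cfsg.Prelude.Def_DegreeGraph

set_option autoImplicit false

/-!
# S4781, piece P5 (case one; helper17)
-/

namespace Cfsg.Agent.Lib.NDP5

open Cfsg Cfsg.Agent.Lib Cfsg.Agent.Lib.CharBasic Cfsg.Agent.Lib.Clifford
  Cfsg.Agent.Lib.CliffordCorr Subgroup

universe u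

/-! ### fixed-point-free maps -/

theorem exists_comm_of_fpf {Q : Type u} [Group Q] {X : Subgroup Q} [Finite X] {g : Q}
    (hg : ∀ x ∈ X, g * x * g⁻¹ ∈ X) (hf : ∀ x ∈ X, g * x * g⁻¹ = x → x = 1) :
    ∀ y ∈ X, ∃ x ∈ X, y = g * x * g⁻¹ * x⁻¹ := by
  let F : X → X := fun x => ⟨g * x * g⁻¹ * (x : Q)⁻¹, X.mul_mem (hg x x.2) (X.inv_mem x.2)⟩
  have hinj : Function.Injective F := by
    intro a b hab
    have h1 : g * a * g⁻¹ * (a : Q)⁻¹ = g * b * g⁻¹ * (b : Q)⁻¹ := congrArg Subtype.val hab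
    have h3 : g * a * g⁻¹ = g * b * g⁻¹ * (b : Q)⁻¹ * a := by rw [← h1]; group
    have h2 : g * ((b : Q)⁻¹ * a) * g⁻¹ = (b : Q)⁻¹ * a := by
      calc g * ((b : Q)⁻¹ * a) * g⁻¹ = (g * b * g⁻¹)⁻¹ * (g * a * g⁻¹) := by group
        _ = (b : Q)⁻¹ * a := by rw [h3]; group
    have h4 := hf _ (X.mul_mem (X.inv_mem b.2) a.2) h2
    exact Subtype.ext (inv_mul_eq_one.mp h4).symm
  have hsurj : Function.Surjective F := Finite.surjective_of_injective hinj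
  intro y hy
  obtain ⟨x, hx⟩ := hsurj ⟨y, hy⟩
  exact ⟨x, x.2, (congrArg Subtype.val hx).symm⟩

theorem exists_comm_mod {K : Type u} [Group K] [Finite K] {X N : Subgroup K} [N.Normal]
    {g : K} (hg : ∀ x ∈ X, g * x * g⁻¹ ∈ X)
    (hf : ∀ x ∈ X, g * x * g⁻¹ * x⁻¹ ∈ N → x ∈ N) :
    ∀ y ∈ X, ∃ x ∈ X, ∃ w ∈ N, y = g * x * g⁻¹ * x⁻¹ * w := by
  intro y hy
  set f := QuotientGroup.mk' N with hfd
  obtain ⟨x, hx, hxy⟩ := exists_comm_of_fpf (X := X.map f) (g := f g) (by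
    rintro _ ⟨x, hx, rfl⟩
    exact ⟨g * x * g⁻¹, hg x hx, by simp⟩) (by
    rintro _ ⟨x, hx, rfl⟩ h
    have h1 : f (g * x * g⁻¹ * x⁻¹) = 1 := by
      rw [map_mul, map_mul, map_mul, map_inv, map_inv, h, mul_inv_cancel]
    exact (QuotientGroup.eq_one_iff _).mpr (hf x hx ((QuotientGroup.eq_one_iff _).mp h1)))
    (f y) ⟨y, hy, rfl⟩
  obtain ⟨x, hx, rfl⟩ := hx
  refine ⟨x, hx, (g * x * g⁻¹ * x⁻¹)⁻¹ * y, ?_, by group⟩
  have h1 : f ((g * x * g⁻¹ * x⁻¹)⁻¹ * y) = 1 := by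
    rw [map_mul, hxy]
    simp only [map_inv, map_mul]
    group
  exact (QuotientGroup.eq_one_iff _).mp h1

/-! ### characters -/

/-- values at elements central modulo the kernel -/
theorem central_value {D : Type u} [Group D] [Finite D] {ζ : D → ℂ} (hζ : IsIrrCharacter D ζ)
    (N : Subgroup D) (hN : ∀ n ∈ N, ζ n = ζ 1) {y : D} (hy : ∀ c : D, y * c * y⁻¹ * c⁻¹ ∈ N)
    (c : D) : ζ (y * c) * ζ 1 = ζ y * ζ c := by
  obtain ⟨n, ρ, hρ, rfl⟩ := hζ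
  have h1 : ∀ c v, ρ y (ρ c v) = ρ c (ρ y v) := by
    intro c v
    have h2 := acts_trivially_of_character_eq ρ N hN _ (hy c) (ρ (c * y) v)
    rw [← Module.End.mul_apply, ← map_mul] at h2
    have h3 : y * c * y⁻¹ * c⁻¹ * (c * y) = y * c := by group
    rw [h3, map_mul, map_mul] at h2
    exact h2
  obtain ⟨m, hm⟩ := CharCentral.exists_scalar_of_commute ρ (ρ y) h1
  have h4 : ∀ c, ρ.character (y * c) = m * ρ.character c := by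
    intro c
    rw [Representation.character, Representation.character, map_mul, hm]
    have : (m • LinearMap.id : (Fin n → ℂ) →ₗ[ℂ] (Fin n → ℂ)) * ρ c = m • ρ c := by
      ext v; simp
    rw [this, map_smul, smul_eq_mul]
  have h5 := h4 1
  rw [mul_one] at h5
  rw [h4, h5]
  ring

/-- separation -/
theorem exists_sep {D : Type u} [Group D] [Finite D] (N : Subgroup D) [N.Normal] {x : D}
    (hx : x ∉ N) : ∃ χ : D → ℂ, IsIrrCharacter D χ ∧ (∀ n ∈ N, χ n = χ 1) ∧ χ x ≠ χ 1 ∧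
      ((∀ a b : D, a * b * a⁻¹ * b⁻¹ ∈ N) → χ 1 = 1) := by
  have h1 : ¬ IsConj (QuotientGroup.mk' N x) 1 := by
    rw [isConj_one_left]
    exact fun h => hx ((QuotientGroup.eq_one_iff _).mp h)
  rw [isConj_iff_forall_irr] at h1
  push Not at h1
  obtain ⟨χ, hχ⟩ := h1
  refine ⟨fun d => (χ : D ⧸ N → ℂ) (QuotientGroup.mk' N d), χ.2.inflate N, ?_, ?_, ?_⟩
  · intro n hn
    have h2 : QuotientGroup.mk' N n = 1 := (QuotientGroup.eq_one_iff _).mpr hn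
    simp only [h2, map_one]
  · simp only [map_one]
    exact hχ
  · intro hab
    simp only [map_one]
    apply χ.2.one_eq_one_of_comm
    intro a b
    obtain ⟨a, rfl⟩ := QuotientGroup.mk'_surjective N a
    obtain ⟨b, rfl⟩ := QuotientGroup.mk'_surjective N b
    rw [← map_mul, ← map_mul, ← mul_inv_eq_one, ← map_inv, ← map_mul]
    refine (QuotientGroup.eq_one_iff _).mpr ?_
    have := hab a b
    rw [mul_inv_rev, ← mul_assoc]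
    exact this

/-! ### normalized values -/

section Ctx

variable {K : Type u} [Group K]

open Classical in
/-- normalized values of a function on a subgroup -/
noncomputable def rr {C : Subgroup K} (ζ : C → ℂ) (x : K) : ℂ :=
  if h : x ∈ C then ζ ⟨x, h⟩ / ζ 1 else 0

theorem rr_of {C : Subgroup K} (ζ : C → ℂ) {x : K} (h : x ∈ C) : rr ζ x = ζ ⟨x, h⟩ / ζ 1 :=
  dif_pos h

theorem rr_one {C : Subgroup K} {ζ : C → ℂ} (hζ : IsIrrCharacter C ζ) : rr ζ 1 = 1 := by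
  rw [rr_of ζ C.one_mem]
  exact div_self hζ.one_ne_zero

theorem rr_eq_one {C : Subgroup K} {ζ : C → ℂ} (hζ : IsIrrCharacter C ζ) {x : K} (h : x ∈ C) :
    rr ζ x = 1 ↔ ζ ⟨x, h⟩ = ζ 1 := by
  rw [rr_of ζ h, div_eq_one_iff_eq hζ.one_ne_zero]

theorem rr_conj {C : Subgroup K} [C.Normal] {ζ : C → ℂ} {g : K} (hg : cj C g ζ = ζ)
    {x : K} (hx : x ∈ C) : rr ζ (g * x * g⁻¹) = rr ζ x := by
  have hx' : g * x * g⁻¹ ∈ C := ‹C.Normal›.conj_mem x hx g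
  rw [rr_of ζ hx, rr_of ζ hx']
  have h := congrFun hg ⟨x, hx⟩
  rw [cj_apply] at h
  rw [h]

theorem rr_mul [Finite K] {C : Subgroup K} {ζ : C → ℂ} (hζ : IsIrrCharacter C ζ)
    (N : Subgroup C) (hN : ∀ n ∈ N, ζ n = ζ 1) {y : K} (hy : y ∈ C)
    (hyc : ∀ c : C, (⟨y, hy⟩ : C) * c * ⟨y, hy⟩⁻¹ * c⁻¹ ∈ N) {c : K} (hc : c ∈ C) :
    rr ζ (y * c) = rr ζ y * rr ζ c := by
  rw [rr_of ζ (C.mul_mem hy hc), rr_of ζ hy, rr_of ζ hc]
  have h := central_value hζ N hN hyc ⟨c, hc⟩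
  have h0 := hζ.one_ne_zero
  have h1 : (⟨y * c, C.mul_mem hy hc⟩ : C) = ⟨y, hy⟩ * ⟨c, hc⟩ := rfl
  rw [h1]
  field_simp
  exact h

/-- (star) -/
theorem star [Finite K] {C : Subgroup K} [C.Normal]
    (nd : ∀ a ∈ charDegrees K, ∀ b ∈ charDegrees K, 1 < a → a ∣ b → a = b)
    (hCd : C.index ∈ charDegrees K) (hC1 : C ≠ ⊤) {ζ : C → ℂ} (hζ : IsIrrCharacter C ζ)
    {w : K} (hwC : w ∈ C) (hw : (⟨w, hwC⟩ : C) ∈ commutator C) (hne : rr ζ w ≠ 1) :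
    ∃ g, g ∉ C ∧ cj C g ζ = ζ := by
  by_contra hcon
  push Not at hcon
  have := Fintype.ofFinite K
  have := Fintype.ofFinite C
  have hT : ∀ g : K, g ∈ C ↔ cj C g ζ = ζ := by
    intro g
    refine ⟨fun h => cj_of_mem hζ.isClassFunction h, fun h => ?_⟩
    by_contra h1
    exact hcon g h1 h
  obtain ⟨h1, -⟩ := corr_irr (N := C) (T := C) le_rfl hζ hT hζ (by
    have : resTo C C le_rfl ζ = ζ := rfl
    rw [this, hζ.classInner_self]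
    exact one_ne_zero)
  have h2 : charDegree (indFun C ζ) = C.index * charDegree ζ := by
    have h3 := BlockDeg.charDegree_cast_irr ⟨indFun C ζ, h1⟩
    have h4 := BlockDeg.charDegree_cast_irr ⟨ζ, hζ⟩
    have h5 : ((charDegree (indFun C ζ) : ℕ) : ℂ) = ((C.index * charDegree ζ : ℕ) : ℂ) := by
      push_cast
      rw [h3, h4]
      exact IndFun.indFun_one C ζ
    exact_mod_cast h5
  have hi : 1 < C.index := by
    have h3 := Subgroup.index_ne_zero_of_finite (H := C)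
    have h4 : C.index ≠ 1 := fun h => hC1 (Subgroup.index_eq_one.mp h)
    omega
  have h3 := nd _ hCd _ ⟨⟨indFun C ζ, h1⟩, rfl⟩ hi (by
    change C.index ∣ charDegree (indFun C ζ)
    rw [h2]; exact dvd_mul_right _ _)
  have h4 : charDegree ζ = 1 := by
    change C.index = charDegree (indFun C ζ) at h3
    rw [h2] at h3
    have h5 : C.index * 1 = C.index * charDegree ζ := by rw [mul_one]; exact h3
    exact (Nat.eq_of_mul_eq_mul_left (by omega) h5).symm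
  have h5 : ζ 1 = 1 := by
    have h6 := BlockDeg.charDegree_cast_irr ⟨ζ, hζ⟩
    have h7 : (charDegree ζ : ℂ) = ζ 1 := h6
    rw [← h7, h4, Nat.cast_one]
  apply hne
  rw [rr_eq_one hζ hwC, h5]
  exact hζ.isCharacter.eq_one_on_commutator h5 hw

structure Ctx (J W C E : Subgroup K) : Prop where
  Wn : W.Normal
  Cn : C.Normal
  Jn : J.Normal
  En : E.Normal
  WJ : W ≤ J
  JC : J ≤ C
  CE : C ≤ E
  Wc : ∀ w ∈ W, ∀ e ∈ E, w * e = e * w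
  JJ : ∀ a ∈ J, ∀ b ∈ J, a * b * a⁻¹ * b⁻¹ ∈ W
  KJ : ∀ a b : K, a * b * a⁻¹ * b⁻¹ ∈ J
  CJ : ∀ c ∈ C, ∀ y ∈ J, y * c * y⁻¹ * c⁻¹ ∈ W
  fpf : ∀ g, g ∉ C → ∀ y ∈ J, g * y * g⁻¹ * y⁻¹ ∈ W → y ∈ W
  fpfW : ∀ g, g ∉ E → ∀ w ∈ W, g * w = w * g → w = 1
  star : ∀ ζ : C → ℂ, IsIrrCharacter C ζ → (∃ w ∈ W, rr ζ w ≠ 1) → ∃ g, ∃ _ : g ∉ C,
    ∀ x ∈ C, rr ζ (g * x * g⁻¹) = rr ζ x

namespace Ctx

variable {J W C E : Subgroup K}

theorem WC (h : Ctx J W C E) : W ≤ C := h.WJ.trans h.JC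

/-- multiplicativity at elements of `W` -/
theorem rr_mul_W [Finite K] (h : Ctx J W C E) {ζ : C → ℂ} (hζ : IsIrrCharacter C ζ) {w c : K}
    (hw : w ∈ W) (hc : c ∈ C) : rr ζ (w * c) = rr ζ w * rr ζ c := by
  refine rr_mul hζ ⊥ (by
    intro n hn
    rw [mem_bot.mp hn]) (h.WC hw) ?_ hc
  intro c
  rw [mem_bot]
  apply Subtype.ext
  change w * c * w⁻¹ * (c : K)⁻¹ = 1
  rw [h.Wc w hw c (h.CE c.2)]
  group

theorem rr_inv_W [Finite K] (h : Ctx J W C E) {ζ : C → ℂ} (hζ : IsIrrCharacter C ζ) {w : K}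
    (hw : w ∈ W) : rr ζ w * rr ζ w⁻¹ = 1 := by
  rw [← h.rr_mul_W hζ hw (C.inv_mem (h.WC hw)), mul_inv_cancel, rr_one hζ]

theorem star' [Finite K] (h : Ctx J W C E) {ζ : C → ℂ} (hζ : IsIrrCharacter C ζ)
    (hne : ∃ w ∈ W, rr ζ w ≠ 1) : ∃ g ∈ E, g ∉ C ∧ ∀ x ∈ C, rr ζ (g * x * g⁻¹) = rr ζ x := by
  obtain ⟨g, hg, hg2⟩ := h.star ζ hζ hne
  refine ⟨g, ?_, hg, hg2⟩
  by_contra hgE
  obtain ⟨w, hw, hw1⟩ := hne
  apply hw1
  have := h.Wn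
  obtain ⟨x, hx, hxw⟩ := exists_comm_of_fpf (X := W) (g := g)
    (fun x hx => h.Wn.conj_mem x hx g) (fun x hx hxx => h.fpfW g hgE x hx (by
      conv_rhs => rw [← hxx]
      group)) w hw
  rw [hxw, h.rr_mul_W hζ (h.Wn.conj_mem x hx g) (C.inv_mem (h.WC hx)), hg2 x (h.WC hx)]
  exact h.rr_inv_W hζ hx

/-- surjectivity of commutation with `g ∉ C` on subgroups between `W` and `J` -/
theorem exists_comm [Finite K] (h : Ctx J W C E) {X : Subgroup K} (hXJ : X ≤ J) {g : K}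
    (hg : g ∉ C) (hgX : ∀ x ∈ X, g * x * g⁻¹ ∈ X) :
    ∀ y ∈ X, ∃ x ∈ X, ∃ w ∈ W, y = g * x * g⁻¹ * x⁻¹ * w := by
  have := h.Wn
  exact exists_comm_mod hgX (fun x hx hxw => h.fpf g hg x (hXJ hx) hxw)

/-- elements of `C` commuting with some `e ∈ E \ C` centralize `J` -/
theorem comm_of [Finite K] (h : Ctx J W C E) {e a : K} (he : e ∈ E) (heC : e ∉ C) (ha : a ∈ C)
    (hea : e * a = a * e) : ∀ y ∈ J, y * a * y⁻¹ * a⁻¹ = 1 := by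
  -- t y = y a y⁻¹ a⁻¹
  have hmul : ∀ x ∈ J, ∀ y ∈ J, (x * y) * a * (x * y)⁻¹ * a⁻¹ =
      (x * a * x⁻¹ * a⁻¹) * (y * a * y⁻¹ * a⁻¹) := by
    intro x hx y hy
    have h1 := h.Wc _ (h.CJ a ha y hy) x (h.CE (h.JC hx))
    have h2 := h.Wc _ (h.CJ a ha y hy) _ (h.CE (h.WC (h.CJ a ha x hx)))
    calc (x * y) * a * (x * y)⁻¹ * a⁻¹ = (x * (y * a * y⁻¹ * a⁻¹)) * x⁻¹ * (x * a * x⁻¹ * a⁻¹) := by
          group
      _ = (y * a * y⁻¹ * a⁻¹) * (x * a * x⁻¹ * a⁻¹) := by rw [← h1]; group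
      _ = _ := h2
  have hW : ∀ w ∈ W, w * a * w⁻¹ * a⁻¹ = 1 := by
    intro w hw
    rw [h.Wc w hw a (h.CE ha)]
    group
  have hinv : ∀ x ∈ J, (x * a * x⁻¹ * a⁻¹) * (x⁻¹ * a * (x⁻¹)⁻¹ * a⁻¹) = 1 := by
    intro x hx
    rw [← hmul x hx _ (J.inv_mem hx)]
    group
  have he2 : ∀ x ∈ J, (e * x * e⁻¹) * a * (e * x * e⁻¹)⁻¹ * a⁻¹ = x * a * x⁻¹ * a⁻¹ := by
    intro x hx
    have h1 := h.Wc _ (h.CJ a ha x hx) e he
    have h3 : e⁻¹ * a = a * e⁻¹ := by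
      rw [inv_mul_eq_iff_eq_mul, ← mul_assoc, hea]; group
    have h4 : a⁻¹ * e = e * a⁻¹ := by
      rw [inv_mul_eq_iff_eq_mul, ← mul_assoc, ← hea]; group
    calc (e * x * e⁻¹) * a * (e * x * e⁻¹)⁻¹ * a⁻¹
        = e * x * (e⁻¹ * a) * e * x⁻¹ * e⁻¹ * a⁻¹ := by group
      _ = e * (x * a * x⁻¹ * a⁻¹) * (a * e⁻¹ * a⁻¹) := by rw [h3]; group
      _ = e * (x * a * x⁻¹ * a⁻¹) * e⁻¹ := by rw [← h3]; group
      _ = _ := by rw [← h1]; group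
  intro y hy
  obtain ⟨x, hx, w, hw, rfl⟩ := h.exists_comm le_rfl heC (fun x hx => h.Jn.conj_mem x hx e) y hy
  have hxe : e * x * e⁻¹ ∈ J := h.Jn.conj_mem x hx e
  rw [hmul _ (J.mul_mem hxe (J.inv_mem hx)) w (h.WJ hw), hW w hw, mul_one,
    hmul _ hxe _ (J.inv_mem hx), he2 x hx]
  exact hinv x hx

/-- two multiplicative functions invariant under `g ∉ C` which agree on `W` are equal -/
theorem uniq [Finite K] (h : Ctx J W C E) {Z : Subgroup K} (hWZ : W ≤ Z) (hZJ : Z ≤ J) {g : K}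
    (hg : g ∉ C) (hgZ : ∀ x ∈ Z, g * x * g⁻¹ ∈ Z) {r₁ r₂ : K → ℂ}
    (h1 : ∀ x ∈ Z, ∀ y ∈ Z, r₁ (x * y) = r₁ x * r₁ y) (h1' : r₁ 1 = 1)
    (h2 : ∀ x ∈ Z, ∀ y ∈ Z, r₂ (x * y) = r₂ x * r₂ y) (h2' : r₂ 1 = 1)
    (i1 : ∀ x ∈ Z, r₁ (g * x * g⁻¹) = r₁ x) (i2 : ∀ x ∈ Z, r₂ (g * x * g⁻¹) = r₂ x)
    (hW : ∀ w ∈ W, r₁ w = r₂ w) : ∀ y ∈ Z, r₁ y = r₂ y := by
  have key : ∀ r : K → ℂ, (∀ x ∈ Z, ∀ y ∈ Z, r (x * y) = r x * r y) → r 1 = 1 →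
      (∀ x ∈ Z, r (g * x * g⁻¹) = r x) → ∀ x ∈ Z, ∀ w ∈ W, r (g * x * g⁻¹ * x⁻¹ * w) = r w := by
    intro r a b c x hx w hw
    have hgx := hgZ x hx
    rw [a _ (Z.mul_mem hgx (Z.inv_mem hx)) w (hWZ hw), a _ hgx _ (Z.inv_mem hx), c x hx,
      ← a x hx _ (Z.inv_mem hx), mul_inv_cancel, b, one_mul]
  intro y hy
  obtain ⟨x, hx, w, hw, rfl⟩ := h.exists_comm hZJ hg hgZ y hy
  rw [key r₁ h1 h1' i1 x hx w hw, key r₂ h2 h2' i2 x hx w hw, hW w hw]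

theorem main3 [Finite K] (h : Ctx J W C E)
    (hCC : ∀ a ∈ C, ∀ b ∈ C, a * b * a⁻¹ * b⁻¹ ∈ W)
    (hCJ : ∀ c ∈ C, ∀ y ∈ J, ∃ j ∈ J, y * c * y⁻¹ * c⁻¹ = y * j * y⁻¹ * j⁻¹)
    {ζ : C → ℂ} (hζ : IsIrrCharacter C ζ) (hne : ∃ w ∈ W, rr ζ w ≠ 1) {y₀ : K} (hy₀ : y₀ ∈ J)
    (hy : ∀ z ∈ J, rr ζ (y₀ * z * y₀⁻¹ * z⁻¹) = 1) : y₀ ∈ W := by
  by_contra hyW
  have := h.Cn
  have hinvW : ∀ w ∈ W, rr ζ w = 1 → rr ζ w⁻¹ = 1 := by
    intro w hw h1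
    have h2 := h.rr_inv_W hζ hw
    rwa [h1, one_mul] at h2
  let Z : Subgroup K :=
    { carrier := {y | y ∈ J ∧ ∀ z ∈ J, rr ζ (y * z * y⁻¹ * z⁻¹) = 1}
      one_mem' := by
        refine ⟨J.one_mem, fun z _ => ?_⟩
        have : (1 : K) * z * 1⁻¹ * z⁻¹ = 1 := by group
        rw [this, rr_one hζ]
      mul_mem' := by
        rintro x y ⟨hx, hx2⟩ ⟨hy, hy2⟩
        refine ⟨J.mul_mem hx hy, fun z hz => ?_⟩
        have h1 := h.Wc _ (h.JJ y hy z hz) x (h.CE (h.JC hx))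
        have h2 : (x * y) * z * (x * y)⁻¹ * z⁻¹ = (y * z * y⁻¹ * z⁻¹) * (x * z * x⁻¹ * z⁻¹) := by
          calc (x * y) * z * (x * y)⁻¹ * z⁻¹ = (x * (y * z * y⁻¹ * z⁻¹)) * x⁻¹ * (x * z * x⁻¹ * z⁻¹) := by
                group
            _ = _ := by rw [← h1]; group
        rw [h2, h.rr_mul_W hζ (h.JJ y hy z hz) (h.WC (h.JJ x hx z hz)), hx2 z hz, hy2 z hz, one_mul]
      inv_mem' := by
        rintro y ⟨hy, hy2⟩
        refine ⟨J.inv_mem hy, fun z hz => ?_⟩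
        have h0 := h.JJ y hy z hz
        have h1 := h.Wc _ (W.inv_mem h0) y (h.CE (h.JC hy))
        have h2 : y⁻¹ * z * y⁻¹⁻¹ * z⁻¹ = (y * z * y⁻¹ * z⁻¹)⁻¹ := by
          calc y⁻¹ * z * y⁻¹⁻¹ * z⁻¹ = y⁻¹ * ((y * z * y⁻¹ * z⁻¹)⁻¹ * y) := by group
            _ = _ := by rw [h1]; group
        rw [h2]
        exact hinvW _ h0 (hy2 z hz) }
  have hZJ : Z ≤ J := fun y hy => hy.1
  have hWZ : W ≤ Z := by
    intro w hw
    refine ⟨h.WJ hw, fun z hz => ?_⟩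
    rw [h.Wc w hw z (h.CE (h.JC hz))]
    have : z * w * w⁻¹ * z⁻¹ = 1 := by group
    rw [this, rr_one hζ]
  have hZE : ∀ g ∈ E, ∀ y ∈ Z, g * y * g⁻¹ ∈ Z := by
    rintro g hg y ⟨hy, hy2⟩
    refine ⟨h.Jn.conj_mem y hy g, fun z hz => ?_⟩
    have hz' : g⁻¹ * z * g ∈ J := by
      have := h.Jn.conj_mem z hz g⁻¹
      rwa [inv_inv] at this
    have h0 := h.JJ y hy _ hz'
    have h1 := h.Wc _ h0 g hg
    have h2 : g * y * g⁻¹ * z * (g * y * g⁻¹)⁻¹ * z⁻¹ =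
        y * (g⁻¹ * z * g) * y⁻¹ * (g⁻¹ * z * g)⁻¹ := by
      calc g * y * g⁻¹ * z * (g * y * g⁻¹)⁻¹ * z⁻¹
          = (g * (y * (g⁻¹ * z * g) * y⁻¹ * (g⁻¹ * z * g)⁻¹)) * g⁻¹ := by group
        _ = _ := by rw [← h1]; group
    rw [h2]
    exact hy2 _ hz'
  -- multiplicativity on Z for all characters agreeing on W
  have hmul : ∀ ζ' : C → ℂ, IsIrrCharacter C ζ' → (∀ w ∈ W, rr ζ' w = rr ζ w) →
      ∀ y ∈ Z, ∀ c ∈ C, rr ζ' (y * c) = rr ζ' y * rr ζ' c := by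
    intro ζ' hζ' hW y hyZ c hc
    let N : Subgroup C :=
      { carrier := {n | (n : K) ∈ W ∧ rr ζ n = 1}
        one_mem' := ⟨W.one_mem, rr_one hζ⟩
        mul_mem' := by
          rintro x y ⟨hx, hx2⟩ ⟨hy, hy2⟩
          refine ⟨W.mul_mem hx hy, ?_⟩
          change rr ζ ((x : K) * y) = 1
          rw [h.rr_mul_W hζ hx y.2, hx2, hy2, one_mul]
        inv_mem' := by
          rintro x ⟨hx, hx2⟩
          exact ⟨W.inv_mem hx, hinvW _ hx hx2⟩ }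
    refine rr_mul hζ' N ?_ (h.JC hyZ.1) ?_ hc
    · rintro n ⟨hn, hn2⟩
      rw [← hW _ hn, rr_eq_one hζ' n.2] at hn2
      exact hn2
    · intro c
      obtain ⟨j, hj, hjc⟩ := hCJ c c.2 y hyZ.1
      constructor
      · change y * c * y⁻¹ * (c : K)⁻¹ ∈ W
        rw [hjc]
        exact h.JJ y hyZ.1 j hj
      · change rr ζ (y * c * y⁻¹ * (c : K)⁻¹) = 1
        rw [hjc]
        exact hyZ.2 j hj
  -- the twist
  have hWCn : (W.subgroupOf C).Normal := h.Wn.subgroupOf C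
  obtain ⟨χ, hχ, hχW, hχy, hχ1⟩ := exists_sep (W.subgroupOf C) (x := ⟨y₀, h.JC hy₀⟩) (by
    rw [Subgroup.mem_subgroupOf]
    exact hyW)
  have hχ1' : χ 1 = 1 := hχ1 (by
    intro a b
    rw [Subgroup.mem_subgroupOf]
    exact hCC a a.2 b b.2)
  have hζ2 : IsIrrCharacter C (ζ * χ) := hζ.mul_linear hχ.isCharacter hχ1'
  have hr2 : ∀ x ∈ C, rr (ζ * χ) x = rr ζ x * rr χ x := by
    intro x hx
    rw [rr_of _ hx, rr_of _ hx, rr_of _ hx, Pi.mul_apply, Pi.mul_apply, mul_div_mul_comm]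
  have hχW' : ∀ w ∈ W, rr χ w = 1 := by
    intro w hw
    rw [rr_eq_one hχ (h.WC hw)]
    exact hχW _ hw
  have hr2W : ∀ w ∈ W, rr (ζ * χ) w = rr ζ w := by
    intro w hw
    rw [hr2 w (h.WC hw), hχW' w hw, mul_one]
  obtain ⟨g₁, hg₁E, hg₁, hi₁⟩ := h.star' hζ hne
  obtain ⟨g₂, hg₂E, hg₂, hi₂⟩ := h.star' hζ2 (by
    obtain ⟨w, hw, hw1⟩ := hne
    exact ⟨w, hw, by rw [hr2W w hw]; exact hw1⟩)
  -- rr ζ is g₂-invariant on Z
  have hA : ∀ x ∈ Z, rr ζ (g₂ * x * g₂⁻¹) = rr ζ x := by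
    refine h.uniq hWZ hZJ hg₁ (hZE g₁ hg₁E) (r₁ := fun x => rr ζ (g₂ * x * g₂⁻¹)) (r₂ := rr ζ)
      ?_ ?_ ?_ (rr_one hζ) ?_ (fun x hx => hi₁ x (h.JC (hZJ hx))) ?_
    · intro x hx y hy
      have h1 : g₂ * (x * y) * g₂⁻¹ = (g₂ * x * g₂⁻¹) * (g₂ * y * g₂⁻¹) := by group
      rw [h1]
      exact hmul ζ hζ (fun _ _ => rfl) _ (hZE g₂ hg₂E x hx) _ (h.JC (hZJ (hZE g₂ hg₂E y hy)))
    · have h1 : g₂ * 1 * g₂⁻¹ = 1 := by group
      rw [h1, rr_one hζ]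
    · intro x hx y hy
      exact hmul ζ hζ (fun _ _ => rfl) x hx y (h.JC (hZJ hy))
    · intro x hx
      -- g₂ g₁ = g₁ g₂ c
      set c : K := g₂⁻¹ * g₁⁻¹ * (g₂⁻¹)⁻¹ * (g₁⁻¹)⁻¹ with hc
      have hcJ : c ∈ J := h.KJ _ _
      have hcx : c * x * c⁻¹ ∈ Z := hZE c (h.CE (h.JC hcJ)) x hx
      have h1 : g₂ * (g₁ * x * g₁⁻¹) * g₂⁻¹ = g₁ * (g₂ * (c * x * c⁻¹) * g₂⁻¹) * g₁⁻¹ := by
        rw [hc]; group
      have h2 := hZE g₂ hg₂E _ hcx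
      rw [h1, hi₁ _ (h.JC (hZJ h2))]
      have h3 : g₂ * (c * x * c⁻¹) * g₂⁻¹ =
          (g₂ * c * g₂⁻¹) * (g₂ * x * g₂⁻¹) * (g₂ * c * g₂⁻¹)⁻¹ := by group
      rw [h3]
      exact rr_conj (cj_of_mem hζ.isClassFunction (h.JC (h.Jn.conj_mem c hcJ g₂)))
        (h.JC (hZJ (hZE g₂ hg₂E x hx)))
    · intro w hw
      rw [← h.Wc w hw g₂ hg₂E]
      have : w * g₂ * g₂⁻¹ = w := by group
      rw [this]
  have hB : ∀ x ∈ Z, rr (ζ * χ) x = rr ζ x := by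
    refine h.uniq hWZ hZJ hg₂ (hZE g₂ hg₂E) ?_ (rr_one hζ2) ?_ (rr_one hζ)
      (fun x hx => hi₂ x (h.JC (hZJ hx))) hA hr2W
    · intro x hx y hy
      exact hmul (ζ * χ) hζ2 hr2W x hx y (h.JC (hZJ hy))
    · intro x hx y hy
      exact hmul ζ hζ (fun _ _ => rfl) x hx y (h.JC (hZJ hy))
  have hy₀Z : y₀ ∈ Z := ⟨hy₀, hy⟩
  have h1 := hB y₀ hy₀Z
  have h2 := hmul ζ hζ (fun _ _ => rfl) y₀ hy₀Z _ (C.inv_mem (h.JC hy₀))
  rw [mul_inv_cancel, rr_one hζ] at h2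
  have h3 : rr ζ y₀ ≠ 0 := by
    intro h0
    rw [h0, zero_mul] at h2
    exact one_ne_zero h2
  rw [hr2 y₀ (h.JC hy₀)] at h1
  have h4 : rr χ y₀ = 1 := by
    apply mul_left_cancel₀ h3
    rw [h1, mul_one]
  exact hχy ((rr_eq_one hχ (h.JC hy₀)).mp h4)

end Ctx

end Ctx

/-- P5 -/
theorem case_one {K : Type u} [Group K] [Finite K]
    (nd : ∀ a ∈ charDegrees K, ∀ b ∈ charDegrees K, 1 < a → a ∣ b → a = b)
    (W C E A : Subgroup K) [W.Normal] [C.Normal] [E.Normal]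
    (hA : ∀ a ∈ A, ∀ b ∈ A, a * b = b * a) (_hJA : commutator K ⊓ A = ⊥)
    (hJA' : commutator K ⊔ A = ⊤)
    (hWJ : W < commutator K) (hWc : ∀ a ∈ W, ∀ b ∈ commutator K, a * b = b * a)
    (hJW : W = ⁅commutator K, commutator K⁆)
    (_hWmin : ∀ X : Subgroup K, X.Normal → X ≤ W → X = ⊥ ∨ X = W) (hW1 : W ≠ ⊥)
    (hC : ∀ k, k ∈ C ↔ ∀ y ∈ commutator K, k * y * k⁻¹ * y⁻¹ ∈ W)
    (hE : ∀ k, k ∈ E ↔ ∀ y ∈ W, k * y = y * k)
    (hfpf : ∀ k, k ∉ C → ∀ y ∈ commutator K, k * y * k⁻¹ * y⁻¹ ∈ W → y ∈ W)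
    (hfpfW : ∀ k, k ∉ E → ∀ y ∈ W, k * y = y * k → y = 1)
    (hCd : C.index ∈ charDegrees K) (hC1 : C ≠ ⊤) :
    (∃ e ∈ E, e ∉ C) ∧ ∀ y ∈ commutator K, y ∉ W → ∀ w ∈ W,
      ∃ z ∈ commutator K, y * z * y⁻¹ * z⁻¹ = w := by
  set J : Subgroup K := commutator K with hJ
  have hJJ : ∀ a ∈ J, ∀ b ∈ J, a * b * a⁻¹ * b⁻¹ ∈ W := by
    intro a ha b hb
    rw [hJW]
    exact commutator_mem_commutator ha hb
  have hJC : J ≤ C := fun y hy => (hC y).2 fun z hz => hJJ y hy z hz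
  have hCJ0 : ∀ c ∈ C, ∀ y ∈ J, y * c * y⁻¹ * c⁻¹ ∈ W := by
    intro c hc y hy
    have h1 := W.inv_mem ((hC c).1 hc y hy)
    have h2 : (c * y * c⁻¹ * y⁻¹)⁻¹ = y * c * y⁻¹ * c⁻¹ := by group
    rwa [h2] at h1
  have hWJb : ⁅W, J⁆ = ⊥ := by
    rw [eq_bot_iff, commutator_le]
    intro a ha b hb
    rw [mem_bot, commutatorElement_eq_one_iff_mul_comm]
    exact hWc a ha b hb
  have hJCW : ⁅J, C⁆ ≤ W := by
    rw [commutator_le]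
    intro y hy c hc
    exact hCJ0 c hc y hy
  have hCE : C ≤ E := by
    have h1 : ⁅⁅J, C⁆, J⁆ = ⊥ := by
      rw [eq_bot_iff, ← hWJb]
      exact commutator_mono hJCW le_rfl
    have h2 : ⁅⁅C, J⁆, J⁆ = ⊥ := by
      rw [commutator_comm C J]; exact h1
    have h3 := commutator_commutator_eq_bot_of_rotate h1 h2
    intro c hc
    rw [hE]
    intro w hw
    rw [hJW] at hw
    have h4 := commutator_mem_commutator hw hc
    rw [h3, mem_bot, commutatorElement_eq_one_iff_mul_comm] at h4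
    exact h4.symm
  have hWC : W ≤ C := hWJ.le.trans hJC
  have hctx : Ctx J W C E :=
    { Wn := inferInstance
      Cn := inferInstance
      Jn := inferInstance
      En := inferInstance
      WJ := hWJ.le
      JC := hJC
      CE := hCE
      Wc := fun w hw e he => ((hE e).1 he w hw).symm
      JJ := hJJ
      KJ := fun a b => commutator_mem_commutator (mem_top a) (mem_top b)
      CJ := hCJ0
      fpf := hfpf
      fpfW := hfpfW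
      star := by
        rintro ζ hζ ⟨w, hw, hw1⟩
        have h1 : (⟨w, hWC hw⟩ : C) ∈ commutator C := by
          have h2 : w ∈ (commutator C).map C.subtype := by
            rw [map_subtype_commutator]
            rw [hJW] at hw
            exact commutator_mono hJC hJC hw
          obtain ⟨x, hx, hxw⟩ := h2
          have h3 : x = ⟨w, hWC hw⟩ := Subtype.ext hxw
          rwa [h3] at hx
        obtain ⟨g, hg, hg2⟩ := star nd hCd hC1 hζ (hWC hw) h1 hw1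
        exact ⟨g, hg, fun x hx => rr_conj hg2 hx⟩ }
  have ha : ∃ e ∈ E, e ∉ C := by
    obtain ⟨w, hw, hw1⟩ : ∃ w ∈ W, w ≠ 1 := by
      by_contra hcon
      push Not at hcon
      exact hW1 ((eq_bot_iff_forall W).2 hcon)
    obtain ⟨χ, hχ, -, hχw, -⟩ := exists_sep (⊥ : Subgroup C) (x := ⟨w, hWC hw⟩) (by
      rw [mem_bot]
      exact fun h => hw1 (congrArg Subtype.val h))
    obtain ⟨g, hgE, hg, -⟩ := hctx.star' hχ ⟨w, hw, fun h => hχw ((rr_eq_one hχ (hWC hw)).mp h)⟩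
    exact ⟨g, hgE, hg⟩
  refine ⟨ha, ?_⟩
  have hdec : ∀ k : K, ∃ j ∈ J, ∃ b ∈ A, j * b = k := by
    intro k
    have h1 : k ∈ J ⊔ A := by rw [hJA']; trivial
    rwa [mem_sup_of_normal_left] at h1
  obtain ⟨e, heE, heC, heA⟩ : ∃ e ∈ E, e ∉ C ∧ e ∈ A := by
    obtain ⟨e, he, heC⟩ := ha
    obtain ⟨j, hj, b, hb, rfl⟩ := hdec e
    refine ⟨b, ?_, fun h => heC (C.mul_mem (hJC hj) h), hb⟩
    have h1 := E.mul_mem (E.inv_mem (hCE (hJC hj))) he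
    rwa [inv_mul_cancel_left] at h1
  have hcent : ∀ b ∈ A, b ∈ C → ∀ y ∈ J, y * b = b * y := by
    intro b hb hbC y hy
    have h1 := hctx.comm_of heE heC hbC (hA e heA b hb) y hy
    rw [mul_inv_eq_one, mul_inv_eq_iff_eq_mul] at h1
    exact h1
  have hdecC : ∀ c ∈ C, ∃ j ∈ J, ∃ b ∈ A, b ∈ C ∧ j * b = c := by
    intro c hc
    obtain ⟨j, hj, b, hb, rfl⟩ := hdec c
    refine ⟨j, hj, b, hb, ?_, rfl⟩
    have h1 := C.mul_mem (C.inv_mem (hJC hj)) hc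
    rwa [inv_mul_cancel_left] at h1
  have hCJ : ∀ c ∈ C, ∀ y ∈ J, ∃ j ∈ J, y * c * y⁻¹ * c⁻¹ = y * j * y⁻¹ * j⁻¹ := by
    intro c hc y hy
    obtain ⟨j, hj, b, hb, hbC, rfl⟩ := hdecC c hc
    refine ⟨j, hj, ?_⟩
    have h1 := hcent b hb hbC y⁻¹ (J.inv_mem hy)
    calc y * (j * b) * y⁻¹ * (j * b)⁻¹ = y * j * (b * y⁻¹) * b⁻¹ * j⁻¹ := by group
      _ = y * j * y⁻¹ * j⁻¹ := by rw [← h1]; group
  have hCC : ∀ a ∈ C, ∀ b ∈ C, a * b * a⁻¹ * b⁻¹ ∈ W := by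
    intro a ha b hb
    obtain ⟨j, hj, b, hb', hbC, rfl⟩ := hdecC b hb
    obtain ⟨i, hi, a, ha', haC, rfl⟩ := hdecC a ha
    have h1 := hcent a ha' haC j hj
    have h2 := hcent b hb' hbC i⁻¹ (J.inv_mem hi)
    have h3 := hA a ha' b hb'
    have h4 : i * a * (j * b) * (i * a)⁻¹ * (j * b)⁻¹ = i * j * i⁻¹ * j⁻¹ := by
      calc i * a * (j * b) * (i * a)⁻¹ * (j * b)⁻¹
          = i * (a * j) * b * a⁻¹ * i⁻¹ * b⁻¹ * j⁻¹ := by group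
        _ = i * j * (a * b) * a⁻¹ * i⁻¹ * b⁻¹ * j⁻¹ := by rw [← h1]; group
        _ = i * j * (b * i⁻¹) * b⁻¹ * j⁻¹ := by rw [h3]; group
        _ = _ := by rw [← h2]; group
    rw [h4]
    exact hJJ i hi j hj
  intro y hy hyW w hw
  by_contra hcon
  have hyz : ∀ z ∈ J, ∀ x ∈ E, (y * z * y⁻¹ * z⁻¹) * x = x * (y * z * y⁻¹ * z⁻¹) := fun z hz x hx =>
    hctx.Wc _ (hJJ y hy z hz) x hx
  let I : Subgroup K :=
    { carrier := {x | ∃ z ∈ J, y * z * y⁻¹ * z⁻¹ = x}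
      one_mem' := ⟨1, J.one_mem, by group⟩
      mul_mem' := by
        rintro _ _ ⟨z, hz, rfl⟩ ⟨z', hz', rfl⟩
        refine ⟨z * z', J.mul_mem hz hz', ?_⟩
        have h1 := hyz z' hz' z (hCE (hJC hz))
        calc y * (z * z') * y⁻¹ * (z * z')⁻¹
            = y * z * y⁻¹ * z⁻¹ * (z * (y * z' * y⁻¹ * z'⁻¹)) * z⁻¹ := by group
          _ = _ := by rw [← h1]; group
      inv_mem' := by
        rintro _ ⟨z, hz, rfl⟩
        refine ⟨z⁻¹, J.inv_mem hz, ?_⟩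
        have h1 := hyz z hz z (hCE (hJC hz))
        have h2 : (y * z * y⁻¹ * z⁻¹)⁻¹ * z = z * (y * z * y⁻¹ * z⁻¹)⁻¹ := by
          rw [inv_mul_eq_iff_eq_mul, ← mul_assoc, h1]; group
        calc y * z⁻¹ * y⁻¹ * z⁻¹⁻¹ = z⁻¹ * ((y * z * y⁻¹ * z⁻¹)⁻¹ * z) := by group
          _ = _ := by rw [h2]; group }
  have hIW : I ≤ W := by
    rintro _ ⟨z, hz, rfl⟩
    exact hJJ y hy z hz
  have hIn : (I.subgroupOf C).Normal := by
    constructor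
    intro n hn c
    rw [mem_subgroupOf] at hn ⊢
    have h1 := hctx.Wc _ (hIW hn) c (hCE c.2)
    have h2 : ((c * n * c⁻¹ : C) : K) = n := by
      change (c : K) * n * (c : K)⁻¹ = n
      rw [← h1]; group
    rw [h2]
    exact hn
  obtain ⟨χ, hχ, hχI, hχw, -⟩ := exists_sep (I.subgroupOf C) (x := ⟨w, hWC hw⟩) (by
    rw [mem_subgroupOf]
    exact hcon)
  exact hyW (hctx.main3 hCC hCJ hχ ⟨w, hw, fun h => hχw ((rr_eq_one hχ (hWC hw)).mp h)⟩ hy (by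
    intro z hz
    have h1 : y * z * y⁻¹ * z⁻¹ ∈ I := ⟨z, hz, rfl⟩
    rw [rr_eq_one hχ (hWC (hIW h1))]
    exact hχI _ h1))

end Cfsg.Agent.Lib.NDP5
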