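import Cfsg.Agent.Lib.NDFin1
import Cfsg.Agent.Lib.NDP4
import Cfsg.Agent.Lib.NDP5
import Cfsg.Agent.Lib.CoprimeAction2

set_option autoImplicit false

/-!
# No divisibility among character degrees: `K'` is abelian (helper85)
-/

open Cfsg Cfsg.Agent.Lib Cfsg.Agent.Lib.CharBasic Cfsg.Agent.Lib.Clifford
open Cfsg.Agent.Lib.CliffordCorr Cfsg.Agent.Lib.RelDeg Cfsg.Agent.Lib.NDGrp Subgroup
open scoped commutatorElement

namespace Cfsg.Agent.Lib.NDDat

universe u

variable {G : Type u} [Group G] [Finite G] {K : Subgroup G} [hK : K.Normal] {r : ℕ}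

theorem coe_commutator : commutator K = (⁅K, K⁆ : Subgroup G).subgroupOf K := (subgroupOf_commutator K).symm

theorem WW_eq : (WW K).subgroupOf K = ⁅commutator K, commutator K⁆ := by
  apply map_injective K.subtype_injective
  rw [map_commutator, subgroupOf_map_subtype, inf_eq_left.2 (WW_le.trans (commutator_le_self K)), coe_commutator,
    subgroupOf_map_subtype, inf_eq_left.2 (commutator_le_self K)]

/-- data for the quotient `V = K'/K''` -/
theorem V_data [Group.IsSolvable G] (D : Dat K r) (hWJ : WW K < (⁅K, K⁆ : Subgroup G)) :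
    ∃ q s : ℕ, q.Prime ∧ s ≠ 0 ∧ (∀ y ∈ (⁅K, K⁆ : Subgroup G), y ^ q ∈ WW K) ∧
      Nat.card ↥((⁅K, K⁆ : Subgroup G).map (QuotientGroup.mk' (WW K))) = q ^ s := by
  have hn : ((⁅K, K⁆ : Subgroup G).map (QuotientGroup.mk' (WW K))).Normal :=
    (commutator_normal K K).map _ (QuotientGroup.mk'_surjective _)
  have hne : (⁅K, K⁆ : Subgroup G).map (QuotientGroup.mk' (WW K)) ≠ ⊥ := by
    intro h
    obtain ⟨y, hy, hyW⟩ := SetLike.exists_of_lt hWJ
    apply hyW
    have h1 := mem_map_of_mem (QuotientGroup.mk' (WW K)) hy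
    rw [h, mem_bot] at h1
    exact memQ.1 h1
  obtain ⟨q, hq, -, hx⟩ := MinNormSolv.elementary_of_minimal hne (by
    intro X hX hXJ
    rw [← commQ] at hXJ ⊢
    exact chief (datQ D) abQ hX hXJ)
  obtain ⟨s, hs, hc⟩ := MinNormSolv.card_eq_prime_pow hne hq hx
  refine ⟨q, s, hq, hs.ne', ?_, hc⟩
  intro y hy
  have h1 := hx _ (mem_map_of_mem (QuotientGroup.mk' (WW K)) hy)
  rw [← map_pow] at h1
  exact memQ.1 h1

theorem minK (D : Dat K r) (hmin : ∀ X : Subgroup G, X.Normal → X ≤ WW K → X = ⊥ ∨ X = WW K)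
    (X : Subgroup K) (hX : X.Normal) (hXW : X ≤ (WW K).subgroupOf K) : X = ⊥ ∨ X = (WW K).subgroupOf K := by
  have h1 : X.map K.subtype ≤ WW K := by
    rintro _ ⟨x, hx, rfl⟩
    exact mem_subgroupOf.1 (hXW hx)
  have h2 : (X.map K.subtype).Normal := by
    refine ⟨?_⟩
    rintro _ ⟨x, hx, rfl⟩ g
    have hxJ : (x : G) ∈ ⁅K, K⁆ := WW_le (mem_subgroupOf.1 (hXW hx))
    obtain ⟨k, hk, he⟩ := conj_in D hxJ g
    change g * (x : G) * g⁻¹ ∈ _
    rw [he]
    exact ⟨⟨k, hk⟩ * x * ⟨k, hk⟩⁻¹, hX.conj_mem _ hx _, rfl⟩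
  rcases hmin _ h2 h1 with h3 | h3
  · left
    rwa [map_eq_bot_iff_of_injective _ K.subtype_injective] at h3
  · right
    apply map_injective K.subtype_injective
    rw [h3, subgroupOf_map_subtype, inf_eq_left.2 (WW_le.trans (commutator_le_self K))]

theorem mem_CK {k : K} : k ∈ (CG K).subgroupOf K ↔ ∀ y ∈ commutator K, k * y * k⁻¹ * y⁻¹ ∈ (WW K).subgroupOf K := by
  rw [mem_subgroupOf, mem_CG]
  constructor
  · rintro ⟨-, h⟩ y hy
    exact mem_subgroupOf.2 (h y (mem_comm.1 hy))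
  · intro h
    refine ⟨k.2, fun y hy => ?_⟩
    exact mem_subgroupOf.1 (h ⟨y, commutator_le_self K hy⟩ (mem_comm.2 hy))

theorem fpfK (D : Dat K r) (k : K) (hk : k ∉ (CG K).subgroupOf K) (y : K) (hy : y ∈ commutator K)
    (h : k * y * k⁻¹ * y⁻¹ ∈ (WW K).subgroupOf K) : y ∈ (WW K).subgroupOf K := by
  by_contra hyW
  apply hk
  rw [mem_subgroupOf, mem_CG]
  refine ⟨k.2, fun z hz => ?_⟩
  exact Q1 D k.2 (mem_comm.1 hy) (fun h' => hyW (mem_subgroupOf.2 h')) (mem_subgroupOf.1 h) hz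

theorem commutator_le_centralizer_of_prime_card {H : Type*} [Group H] {X : Subgroup H} [X.Normal] {q : ℕ}
    (hq : q.Prime) (hc : Nat.card X = q) : commutator H ≤ centralizer (X : Set H) := by
  have : Fact q.Prime := ⟨hq⟩
  have hcyc : IsCyclic X := isCyclic_of_prime_card hc
  obtain ⟨x, hx⟩ := hcyc.exists_generator
  rw [commutator_def, commutator_le]
  intro g _ h _
  have hpow : ∀ g : H, ∃ n : ℤ, g * (x : H) * g⁻¹ = (x : H) ^ n := by
    intro g
    have h1 : g * (x : H) * g⁻¹ ∈ X := Subgroup.Normal.conj_mem inferInstance _ x.2 g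
    obtain ⟨n, hn⟩ := mem_zpowers_iff.1 (hx ⟨_, h1⟩)
    exact ⟨n, by rw [← coe_zpow, hn]⟩
  obtain ⟨m, hm⟩ := hpow g
  obtain ⟨n, hn⟩ := hpow h
  have hgh : (g * h) * (x : H) * (g * h)⁻¹ = (h * g) * (x : H) * (h * g)⁻¹ := by
    have h1 : (g * h) * (x : H) * (g * h)⁻¹ = g * (h * (x : H) * h⁻¹) * g⁻¹ := by group
    have h2 : (h * g) * (x : H) * (h * g)⁻¹ = h * (g * (x : H) * g⁻¹) * h⁻¹ := by group
    rw [h1, h2, hm, hn, ← conj_zpow, ← conj_zpow, hm, hn, ← zpow_mul, ← zpow_mul, mul_comm]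
  have hc1 : ⁅g, h⁆ * (h * g * (x : H) * (h * g)⁻¹) = (h * g * (x : H) * (h * g)⁻¹) * ⁅g, h⁆ := by
    have h1 : ⁅g, h⁆ * (h * g * (x : H) * (h * g)⁻¹) = (g * h) * (x : H) * (g * h)⁻¹ * ⁅g, h⁆ := by
      rw [commutatorElement_def]; group
    rw [h1, hgh]
  rw [mem_centralizer_iff]
  -- `h g x (h g)⁻¹` generates `X`
  intro y hy
  have hy' : (h * g)⁻¹ * y * (h * g) ∈ X := by
    have := Subgroup.Normal.conj_mem (inferInstance : X.Normal) y hy (h * g)⁻¹
    rwa [inv_inv] at this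
  obtain ⟨k, hk⟩ := mem_zpowers_iff.1 (hx ⟨_, hy'⟩)
  have hk' : (x : H) ^ k = (h * g)⁻¹ * y * (h * g) := by rw [← coe_zpow, hk]
  have hy2 : y = (h * g * (x : H) * (h * g)⁻¹) ^ k := by
    rw [conj_zpow, hk']; group
  rw [hy2]
  have hcomm : Commute (h * g * (x : H) * (h * g)⁻¹) ⁅g, h⁆ := hc1.symm
  exact (hcomm.zpow_left k)

/-- `K'' ` is central in `K'` if it is a minimal normal subgroup. -/
theorem central (D : Dat K r) [Group.IsSolvable G] (hW1 : WW K ≠ ⊥)
    (hmin : ∀ X : Subgroup G, X.Normal → X ≤ WW K → X = ⊥ ∨ X = WW K) :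
    ∀ y ∈ (⁅K, K⁆ : Subgroup G), ∀ z ∈ WW K, y * z = z * y := by
  have hJ1 : (⁅K, K⁆ : Subgroup G) ≠ ⊥ := fun h => hW1 (le_bot_iff.1 (h ▸ WW_le))
  have hWJ : WW K < (⁅K, K⁆ : Subgroup G) := Group.IsSolvable.commutator_lt_of_ne_bot hJ1
  obtain ⟨w, hw, hWab, hWw⟩ := MinNormSolv.elementary_of_minimal hW1 hmin
  obtain ⟨q, s, hq, hs, hJq, hVc⟩ := V_data D hWJ
  by_contra hnc
  have hqw : q ≠ w := by
    rintro rfl
    have : Fact q.Prime := ⟨hq⟩
    have hWp : IsPGroup q (WW K) := fun x => ⟨1, by rw [pow_one]; exact Subtype.ext (hWw x x.2)⟩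
    have hJp : IsPGroup q (⁅K, K⁆ : Subgroup G) := fun x => ⟨2, by
      apply Subtype.ext
      change (x : G) ^ q ^ 2 = 1
      rw [pow_two, pow_mul]
      exact hWw _ (hJq x x.2)⟩
    have h1 := CoprimeAction2.commutator_lt_of_pgroup hJp hWp (by
      rw [normalizer_eq_top_iff.2 inferInstance]
      exact le_top) hW1
    rcases hmin ⁅WW K, (⁅K, K⁆ : Subgroup G)⁆ inferInstance h1.le with h2 | h2
    · apply hnc
      intro y hy z hz
      rw [commutator_eq_bot_iff_le_centralizer] at h2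
      exact mem_centralizer_iff.1 (h2 hz) y hy
    · exact h1.ne h2
  obtain ⟨hCd, hC1⟩ := CG_degree D hWJ.ne
  have hWJ' : (WW K).subgroupOf K < commutator K := by
    rw [coe_commutator]
    refine lt_of_le_of_ne (fun x hx => mem_subgroupOf.2 (WW_le (mem_subgroupOf.1 hx))) ?_
    intro h
    apply hWJ.ne
    have h1 := congrArg (Subgroup.map K.subtype) h
    rwa [subgroupOf_map_subtype, subgroupOf_map_subtype, inf_eq_left.2 (commutator_le_self K),
      inf_eq_left.2 (WW_le.trans (commutator_le_self K))] at h1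
  have h1 := NDP4.case_two (K := K) D.nd ((WW K).subgroupOf K) ((CG K).subgroupOf K) hWJ' (by
      intro a ha b hb
      have := hWab.is_comm.comm ⟨(a : G), mem_subgroupOf.1 ha⟩ ⟨(b : G), mem_subgroupOf.1 hb⟩
      have h2 : (a : G) * (b : G) = (b : G) * (a : G) := congrArg Subtype.val this
      exact Subtype.ext h2) (minK D hmin) (by
      intro h
      apply hW1
      have h1 := congrArg (Subgroup.map K.subtype) h
      rwa [subgroupOf_map_subtype, inf_eq_left.2 (WW_le.trans (commutator_le_self K)), Subgroup.map_bot] at h1)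
    (fun k => mem_CK) (by
      rw [coe_commutator]
      exact fun x hx => mem_subgroupOf.2 (J_le_CG (mem_subgroupOf.1 hx))) (fpfK D) hCd (by
      intro h
      apply hC1
      rw [h, index_top]) hq hw hqw (fun y hy => mem_subgroupOf.2 (hJq y (mem_comm.1 hy)))
    (fun y hy => Subtype.ext (hWw y (mem_subgroupOf.1 hy))) (by
      intro h
      apply hnc
      intro y hy z hz
      have h2 := h ⟨y, commutator_le_self K hy⟩ (mem_comm.2 hy) ⟨z, commutator_le_self K (WW_le hz)⟩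
        (mem_subgroupOf.2 hz)
      exact congrArg Subtype.val h2)
  rw [coe_commutator, relIndex_subgroupOf (commutator_le_self K)] at h1
  -- hence `J/W` has prime order
  have hn : ((⁅K, K⁆ : Subgroup G).map (QuotientGroup.mk' (WW K))).Normal :=
    (commutator_normal K K).map _ (QuotientGroup.mk'_surjective _)
  have h2 : Nat.card ↥((⁅K, K⁆ : Subgroup G).map (QuotientGroup.mk' (WW K))) = q := by
    rw [NDP2.card_map_mk _ WW_le, h1]
  have h3 := commutator_le_centralizer_of_prime_card hq h2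
  refine not_centralize (datQ D) (X := (⁅K, K⁆ : Subgroup G).map (QuotientGroup.mk' (WW K))) ?_ ?_ h3
  · rw [commQ]
  · intro h
    rw [h, card_bot] at h2
    exact hq.one_lt.ne h2

end Cfsg.Agent.Lib.NDDat
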