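import Cfsg.Agent.Lib.NDFin2

set_option autoImplicit false

/-!
# No divisibility among character degrees: the contradiction (helper85)
-/

open Cfsg Cfsg.Agent.Lib Cfsg.Agent.Lib.CharBasic Cfsg.Agent.Lib.Clifford
open Cfsg.Agent.Lib.CliffordCorr Cfsg.Agent.Lib.RelDeg Cfsg.Agent.Lib.NDGrp Subgroup
open scoped commutatorElement

namespace Cfsg.Agent.Lib.NDDat

universe u

variable {G : Type u} [Group G] [Finite G] {K : Subgroup G} [hK : K.Normal] {r : ℕ}

/-- the centralizer of `K''` in `K` -/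
def EG (K : Subgroup G) [K.Normal] : Subgroup G := K ⊓ centralizer (WW K : Set G)

theorem mem_EG {g : G} : g ∈ EG K ↔ g ∈ K ∧ ∀ y ∈ WW K, g * y = y * g := by
  rw [EG, mem_inf, mem_centralizer_iff]
  exact and_congr_right (fun _ => ⟨fun h y hy => (h y hy).symm, fun h y hy => (h y hy).symm⟩)

instance : (EG K).Normal := by
  unfold EG
  infer_instance

theorem EG_le : EG K ≤ K := inf_le_left

section Central

variable (hcen : ∀ y ∈ (⁅K, K⁆ : Subgroup G), ∀ z ∈ WW K, y * z = z * y)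

include hcen in
theorem J_le_EG : (⁅K, K⁆ : Subgroup G) ≤ EG K := fun x hx =>
  mem_EG.2 ⟨commutator_le_self K hx, fun y hy => hcen x hx y hy⟩

include hcen in
theorem CG_le_EG : CG K ≤ EG K := by
  intro c hc
  obtain ⟨hcK, hc⟩ := mem_CG.1 hc
  refine mem_EG.2 ⟨hcK, ?_⟩
  have h1 : WW K ≤ centralizer ({c} : Set G) := by
    rw [commutator_le]
    intro y hy z hz
    rw [mem_centralizer_singleton_iff]
    obtain ⟨a, hy', e1⟩ : ∃ a ∈ WW K, c * y * c⁻¹ = a * y := ⟨_, hc y hy, by group⟩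
    obtain ⟨b, hz', e2⟩ : ∃ b ∈ WW K, c * z * c⁻¹ = b * z := ⟨_, hc z hz, by group⟩
    have haz := hcen z hz a hy'
    have hby := hcen y hy b hz'
    have hab : a * b = b * a := hcen a (WW_le hy') b hz'
    have h2 : c * ⁅y, z⁆ * c⁻¹ = ⁅y, z⁆ := by
      have h3 : c * ⁅y, z⁆ * c⁻¹ = ((c * y * c⁻¹) * (c * z * c⁻¹)) * ((c * z * c⁻¹) * (c * y * c⁻¹))⁻¹ := by
        rw [commutatorElement_def]; group
      have h4 : a * y * (b * z) = (a * b) * (y * z) := by
        calc a * y * (b * z) = a * (y * b) * z := by group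
          _ = a * (b * y) * z := by rw [hby]
          _ = (a * b) * (y * z) := by group
      have h5 : b * z * (a * y) = (a * b) * (z * y) := by
        calc b * z * (a * y) = b * (z * a) * y := by group
          _ = b * (a * z) * y := by rw [haz]
          _ = (b * a) * (z * y) := by group
          _ = (a * b) * (z * y) := by rw [hab]
      rw [h3, e1, e2, h4, h5, commutatorElement_def]
      have hc1 : y * z * y⁻¹ * z⁻¹ ∈ (⁅K, K⁆ : Subgroup G) :=
        mul_mem (mul_mem (mul_mem hy hz) (inv_mem hy)) (inv_mem hz)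
      have hc2 : a * b ∈ WW K := mul_mem hy' hz'
      have h7 := hcen _ hc1 _ hc2
      have h8 : a * b * (y * z) * (a * b * (z * y))⁻¹ = (a * b) * (y * z * y⁻¹ * z⁻¹) * (a * b)⁻¹ := by group
      rw [h8, ← h7, mul_inv_cancel_right]
    have h3 : c * ⁅y, z⁆ = ⁅y, z⁆ * c := by
      rw [mul_inv_eq_iff_eq_mul] at h2
      exact h2
    exact h3.symm
  intro y hy
  exact (mem_centralizer_singleton_iff.1 (h1 hy)).symm

include hcen in
theorem fpfE (D : Dat K r) (hmin : ∀ X : Subgroup G, X.Normal → X ≤ WW K → X = ⊥ ∨ X = WW K) {k y : G}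
    (hk : k ∈ K) (hkE : k ∉ EG K) (hy : y ∈ WW K) (hky : k * y = y * k) : y = 1 := by
  have hn : (WW K ⊓ centralizer ({k} : Set G)).Normal := by
    refine ⟨fun x hx g => ?_⟩
    obtain ⟨hxW, hxk⟩ := mem_inf.1 hx
    rw [mem_centralizer_singleton_iff] at hxk
    refine mem_inf.2 ⟨Normal.conj_mem inferInstance _ hxW g, ?_⟩
    rw [mem_centralizer_singleton_iff]
    obtain ⟨h, hh, he⟩ := conj_in D (WW_le hxW) g
    rw [he]
    -- `k h = h k c` with `c ∈ K'`
    have hc : ⁅k⁻¹, h⁻¹⁆ ∈ ⁅K, K⁆ := commutator_mem_commutator (inv_mem hk) (inv_mem hh)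
    have hcx := hcen _ hc x hxW
    have h1 : k * h = h * k * ⁅k⁻¹, h⁻¹⁆ := by rw [commutatorElement_def]; group
    have h2 : k * (h * x * h⁻¹) * k⁻¹ = h * x * h⁻¹ := by
      have h3 : k * (h * x * h⁻¹) * k⁻¹ = (k * h) * x * (k * h)⁻¹ := by group
      rw [h3, h1]
      have h4 : h * k * ⁅k⁻¹, h⁻¹⁆ * x * (h * k * ⁅k⁻¹, h⁻¹⁆)⁻¹ =
          h * (k * (⁅k⁻¹, h⁻¹⁆ * x * ⁅k⁻¹, h⁻¹⁆⁻¹) * k⁻¹) * h⁻¹ := by group
      rw [h4, hcx, mul_inv_cancel_right, ← hxk, mul_inv_cancel_right]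
    rw [mul_inv_eq_iff_eq_mul] at h2
    exact h2.symm
  rcases hmin _ hn inf_le_left with h | h
  · have h1 : y ∈ WW K ⊓ centralizer ({k} : Set G) := mem_inf.2 ⟨hy, mem_centralizer_singleton_iff.2 hky.symm⟩
    rw [h] at h1
    exact mem_bot.1 h1
  · exfalso
    apply hkE
    refine mem_EG.2 ⟨hk, fun z hz => ?_⟩
    have h1 : z ∈ WW K ⊓ centralizer ({k} : Set G) := by rw [h]; exact hz
    exact (mem_centralizer_singleton_iff.1 (mem_inf.1 h1).2).symm

end Central

theorem central_consequences (D : Dat K r) [Group.IsSolvable G] (hW1 : WW K ≠ ⊥)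
    (hmin : ∀ X : Subgroup G, X.Normal → X ≤ WW K → X = ⊥ ∨ X = WW K)
    (hcen : ∀ y ∈ (⁅K, K⁆ : Subgroup G), ∀ z ∈ WW K, y * z = z * y) :
    ∀ y ∈ (⁅K, K⁆ : Subgroup G), y ∉ WW K → ∀ w ∈ WW K, ∃ z ∈ (⁅K, K⁆ : Subgroup G), y * z * y⁻¹ * z⁻¹ = w := by
  have hJ1 : (⁅K, K⁆ : Subgroup G) ≠ ⊥ := fun h => hW1 (le_bot_iff.1 (h ▸ WW_le))
  have hWJ : WW K < (⁅K, K⁆ : Subgroup G) := Group.IsSolvable.commutator_lt_of_ne_bot hJ1
  obtain ⟨hCd, hC1⟩ := CG_degree D hWJ.ne
  have hWJ' : (WW K).subgroupOf K < commutator K := by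
    rw [coe_commutator]
    refine lt_of_le_of_ne (fun x hx => mem_subgroupOf.2 (WW_le (mem_subgroupOf.1 hx))) ?_
    intro h
    apply hWJ.ne
    have h1 := congrArg (Subgroup.map K.subtype) h
    rwa [subgroupOf_map_subtype, subgroupOf_map_subtype, inf_eq_left.2 (commutator_le_self K),
      inf_eq_left.2 (WW_le.trans (commutator_le_self K))] at h1
  obtain ⟨A, hA, hJA, hJA'⟩ := exists_compl' D
  have h1 := NDP5.case_one (K := K) D.nd ((WW K).subgroupOf K) ((CG K).subgroupOf K) ((EG K).subgroupOf K) A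
    hA hJA hJA' hWJ' (by
      intro a ha b hb
      have h2 := hcen b (mem_comm.1 hb) a (mem_subgroupOf.1 ha)
      exact Subtype.ext h2.symm) WW_eq (minK D hmin) (by
      intro h
      apply hW1
      have h1 := congrArg (Subgroup.map K.subtype) h
      rwa [subgroupOf_map_subtype, inf_eq_left.2 (WW_le.trans (commutator_le_self K)), Subgroup.map_bot] at h1)
    (fun k => mem_CK) (by
      intro k
      rw [mem_subgroupOf, mem_EG]
      constructor
      · rintro ⟨-, h⟩ y hy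
        exact Subtype.ext (h y (mem_subgroupOf.1 hy))
      · intro h
        refine ⟨k.2, fun y hy => ?_⟩
        exact congrArg Subtype.val (h ⟨y, commutator_le_self K (WW_le hy)⟩ (mem_subgroupOf.2 hy))) (fpfK D) (by
      intro k hk y hy h
      have h2 := fpfE hcen D hmin k.2 (fun h' => hk (mem_subgroupOf.2 h')) (mem_subgroupOf.1 hy)
        (congrArg Subtype.val h)
      exact Subtype.ext h2) hCd (by
      intro h
      apply hC1
      rw [h, index_top])
  intro y hy hyW w hw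
  obtain ⟨z, hz, he⟩ := h1.2 ⟨y, commutator_le_self K hy⟩ (mem_comm.2 hy) (fun h => hyW (mem_subgroupOf.1 h))
    ⟨w, commutator_le_self K (WW_le hw)⟩ (mem_subgroupOf.2 hw)
  exact ⟨z, mem_comm.1 hz, congrArg Subtype.val he⟩

end Cfsg.Agent.Lib.NDDat
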