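import Cfsg.Agent.Lib.NDFin3

set_option autoImplicit false

/-!
# No divisibility among character degrees: counting (helper85)
-/

open Cfsg Cfsg.Agent.Lib Cfsg.Agent.Lib.CharBasic Cfsg.Agent.Lib.Clifford
open Cfsg.Agent.Lib.CliffordCorr Cfsg.Agent.Lib.RelDeg Cfsg.Agent.Lib.NDGrp Subgroup
open scoped commutatorElement

namespace Cfsg.Agent.Lib.NDDat

universe u

variable {G : Type u} [Group G] [Finite G] {K : Subgroup G} [hK : K.Normal] {r : ℕ}

theorem smul_mem_sup {V : Type*} [Group V] [MulDistribMulAction G V] {v : V} {K : Subgroup G}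
    (h : ∀ g : G, ∃ k ∈ K, g • v = k • v) : MulAction.stabilizer G v ⊔ K = ⊤ := by
  rw [eq_top_iff]
  intro g _
  obtain ⟨k, hk, he⟩ := h g
  have h1 : k⁻¹ * g ∈ MulAction.stabilizer G v := by
    rw [MulAction.mem_stabilizer_iff, mul_smul, he, inv_smul_smul]
  have h2 : g = k * (k⁻¹ * g) := by group
  rw [h2]
  exact mul_mem (mem_sup_right hk) (mem_sup_left h1)

theorem final (D : Dat K r) [Group.IsSolvable G]
    (hmin : ∀ X : Subgroup G, X.Normal → X ≤ WW K → X = ⊥ ∨ X = WW K) : WW K = ⊥ := by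
  by_contra hW1
  have hcen := central D hW1 hmin
  have hJ1 : (⁅K, K⁆ : Subgroup G) ≠ ⊥ := fun h => hW1 (le_bot_iff.1 (h ▸ WW_le))
  have hWJ : WW K < (⁅K, K⁆ : Subgroup G) := Group.IsSolvable.commutator_lt_of_ne_bot hJ1
  obtain ⟨q, s, hq, hs, hJq, hVc⟩ := V_data D hWJ
  have hsurjW := central_consequences D hW1 hmin hcen
  obtain ⟨y0, hy0, hy0W⟩ := SetLike.exists_of_lt hWJ
  -- `K''` has exponent `q`
  have hWq : ∀ x ∈ WW K, x ^ q = 1 := by
    intro x hx
    obtain ⟨z, hz, he⟩ := hsurjW y0 hy0 hy0W x hx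
    have h1 : z * y0 * z⁻¹ = x⁻¹ * y0 := by
      rw [← he]; group
    have h2 : (z * y0 * z⁻¹) ^ q = z * y0 ^ q * z⁻¹ := conj_pow
    have h3 : z * y0 ^ q * z⁻¹ = y0 ^ q := by rw [hcen z hz _ (hJq y0 hy0), mul_inv_cancel_right]
    have h4 : (x⁻¹ * y0) ^ q = (x⁻¹) ^ q * y0 ^ q := by
      have hc : Commute x⁻¹ y0 := (hcen y0 hy0 _ (inv_mem hx)).symm
      exact hc.mul_pow q
    rw [h1, h4, h3] at h2
    have h5 : (x⁻¹) ^ q = 1 := by
      have := mul_right_cancel (b := y0 ^ q) (h2.trans (one_mul _).symm)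
      exact this
    rw [inv_pow, inv_eq_one] at h5
    exact h5
  obtain ⟨t, ht, hWc⟩ := MinNormSolv.card_eq_prime_pow hW1 hq hWq
  set π := QuotientGroup.mk' (WW K) with hπ
  set V := (⁅K, K⁆ : Subgroup G).map π with hV
  have hVn : V.Normal := (commutator_normal K K).map _ (QuotientGroup.mk'_surjective _)
  letI aV : MulDistribMulAction G V := MulDistribMulAction.compHom V ((MulAut.conjNormal (H := V)).comp π)
  letI aW : MulDistribMulAction G (WW K) := MulDistribMulAction.compHom (WW K) (MulAut.conjNormal (H := WW K))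
  have smulV : ∀ (g : G) (v : V), ((g • v : V) : G ⧸ WW K) = π g * v * (π g)⁻¹ := fun g v => rfl
  have smulW : ∀ (g : G) (v : WW K), ((g • v : WW K) : G) = g * v * g⁻¹ := fun g v => rfl
  have hrep : ∀ v : V, ∃ y ∈ (⁅K, K⁆ : Subgroup G), (v : G ⧸ WW K) = π y ∧ (v ≠ 1 → y ∉ WW K) := by
    intro v
    obtain ⟨y, hy, he⟩ := v.2
    refine ⟨y, hy, he.symm, ?_⟩
    intro hv h
    apply hv
    apply Subtype.ext
    rw [← he]
    exact memQ.2 h
  have hstabV : ∀ (g : G) (v : V) (y : G), (v : G ⧸ WW K) = π y → (g • v = v ↔ g * y * g⁻¹ * y⁻¹ ∈ WW K) := by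
    intro g v y he
    rw [← mulQ, Subtype.ext_iff, smulV, he, mul_inv_eq_iff_eq_mul]
  have hcop : ((CG K).relIndex K).Coprime K.index := by
    obtain ⟨h1, -⟩ := CG_degree D hWJ.ne
    exact D.cop _ h1
  obtain ⟨A, hAK, hA, -, hsup⟩ := exists_compl D
  obtain ⟨w0, hw0, hw01⟩ := ((WW K).bot_or_exists_ne_one).resolve_left hW1
  have hcount := NDP2.count_contra (V := V) (W := WW K) K (CG K) (EG K) (CG_le_EG hcen) EG_le (by
    intro v hv
    obtain ⟨y, hy, he, hyW⟩ := hrep v
    have hyW := hyW hv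
    constructor
    · ext g
      rw [mem_inf, MulAction.mem_stabilizer_iff, hstabV g v y he, mem_CG]
      constructor
      · rintro ⟨h1, h2⟩
        exact ⟨h2, fun z hz => Q1 D h2 hy hyW h1 hz⟩
      · rintro ⟨h1, h2⟩
        exact ⟨h2 y hy, h1⟩
    · apply smul_mem_sup
      intro g
      obtain ⟨k, hk, h1⟩ := conj_in D hy g
      refine ⟨k, hk, Subtype.ext ?_⟩
      rw [smulV, smulV, he, ← map_mul, ← map_inv, ← map_mul, h1, map_mul, map_mul, map_inv]) (by
    intro v hv
    have hv1 : (v : G) ≠ 1 := fun h => hv (Subtype.ext h)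
    constructor
    · ext g
      rw [mem_inf, MulAction.mem_stabilizer_iff, mem_EG, Subtype.ext_iff, smulW, mul_inv_eq_iff_eq_mul]
      constructor
      · rintro ⟨h1, h2⟩
        refine ⟨h2, ?_⟩
        by_contra hn
        exact hv1 (fpfE hcen D hmin h2 (fun h => hn (mem_EG.1 h).2) v.2 h1)
      · rintro ⟨h1, h2⟩
        exact ⟨h2 v v.2, h1⟩
    · apply smul_mem_sup
      intro g
      obtain ⟨k, hk, h1⟩ := conj_in D (WW_le v.2) g
      exact ⟨k, hk, Subtype.ext h1⟩) (by
    intro e he g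
    apply J_le_CG
    obtain ⟨heK, heW⟩ := mem_EG.1 he
    obtain ⟨j, hj, a, ha, rfl⟩ := hsup e heK
    have haw : a * w0 = w0 * a := by
      have h1 := heW w0 hw0
      have h2 := hcen j hj w0 hw0
      have h3 : j * (a * w0) = j * (w0 * a) := by
        rw [← mul_assoc, h1, ← mul_assoc, ← mul_assoc, h2]
      exact mul_left_cancel h3
    have h1 := comm_mem D hAK hA hsup ha (WW_le hw0) hw01 haw g
    have h2 : j * a * g * (j * a)⁻¹ * g⁻¹ = j * (g * a * g⁻¹ * a⁻¹)⁻¹ * (g * j⁻¹ * g⁻¹) := by group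
    rw [h2]
    exact mul_mem (mul_mem hj (inv_mem h1)) ((commutator_normal K K).conj_mem _ (inv_mem hj) g)) hcop hq hs
      ht.ne' hVc hWc (by
    by_contra hcon
    push Not at hcon
    have hv0 : (⟨π y0, mem_map_of_mem π hy0⟩ : V) ≠ 1 := by
      intro h
      exact hy0W (memQ.1 (congrArg Subtype.val h))
    set v0 : V := ⟨π y0, mem_map_of_mem π hy0⟩ with hv0d
    have hV1 : V ≠ ⊥ := by
      intro h
      have hmem : π y0 ∈ V := mem_map_of_mem π hy0
      rw [h, mem_bot] at hmem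
      exact hy0W (memQ.1 hmem)
    have h1 := centralizer_le (datQ D) hVn (by rw [commQ]) hV1
    apply D.ne_top
    rw [eq_top_iff]
    intro g _
    obtain ⟨k, hk, h2⟩ := conj_in D hy0 g
    have h3 : π (k⁻¹ * g) ∈ centralizer (V : Set (G ⧸ WW K)) := by
      rw [mem_centralizer_iff]
      intro v hv
      by_cases hv1 : v = 1
      · rw [hv1, one_mul, mul_one]
      · have h4 := hcon v0 ⟨v, hv⟩ hv0 (fun h => hv1 (congrArg Subtype.val h))
        have h5 : k⁻¹ * g ∈ MulAction.stabilizer G v0 := by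
          rw [MulAction.mem_stabilizer_iff, mul_smul]
          have h6 : g • v0 = k • v0 := by
            apply Subtype.ext
            rw [smulV, smulV]
            change π g * π y0 * (π g)⁻¹ = π k * π y0 * (π k)⁻¹
            rw [← map_mul, ← map_inv, ← map_mul, h2, map_mul, map_mul, map_inv]
          rw [h6, inv_smul_smul]
        rw [h4, MulAction.mem_stabilizer_iff, Subtype.ext_iff, smulV, mul_inv_eq_iff_eq_mul] at h5
        exact h5.symm
    have h4 := h1 h3
    obtain ⟨k', hk', he⟩ := h4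
    have h5 : k'⁻¹ * (k⁻¹ * g) ∈ WW K := by
      rw [← memQ, map_mul, map_inv]
      change (π k')⁻¹ * π (k⁻¹ * g) = 1
      rw [he, inv_mul_cancel]
    have h6 : g = k * (k' * (k'⁻¹ * (k⁻¹ * g))) := by group
    rw [h6]
    exact mul_mem hk (mul_mem hk' (commutator_le_self K (WW_le h5))))
  -- but `|K''| < |K'/K''|`
  choose rep hrepJ hrepe hrepW using hrep
  let F : V → WW K := fun v => ⟨y0 * rep v * y0⁻¹ * (rep v)⁻¹, commutator_mem_commutator hy0 (hrepJ v)⟩
  have hFval : ∀ (v : V) (z : G), z ∈ (⁅K, K⁆ : Subgroup G) → (v : G ⧸ WW K) = π z →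
      (F v : G) = y0 * z * y0⁻¹ * z⁻¹ := by
    intro v z hz he
    have h1 : z⁻¹ * rep v ∈ WW K := by
      rw [← memQ, map_mul, map_inv]
      change (π z)⁻¹ * π (rep v) = 1
      rw [← he, hrepe v, inv_mul_cancel]
    set u := z⁻¹ * rep v with hu
    have h2 : rep v = z * u := by rw [hu]; group
    change y0 * rep v * y0⁻¹ * (rep v)⁻¹ = _
    rw [h2]
    have h3 := hcen y0⁻¹ (inv_mem hy0) u h1
    have h4 : y0 * (z * u) * y0⁻¹ * (z * u)⁻¹ = y0 * z * (u * y0⁻¹) * u⁻¹ * z⁻¹ := by group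
    rw [h4, ← h3]
    group
  have hFs : Function.Surjective F := by
    intro w
    obtain ⟨z, hz, he⟩ := hsurjW y0 hy0 hy0W w w.2
    refine ⟨⟨π z, mem_map_of_mem π hz⟩, Subtype.ext ?_⟩
    rw [hFval _ z hz rfl, he]
  have hFi : Function.Injective F := by
    have hb := (Nat.bijective_iff_surjective_and_card F).2 ⟨hFs, hcount⟩
    exact hb.1
  have h1 : F ⟨π y0, mem_map_of_mem π hy0⟩ = F 1 := by
    apply Subtype.ext
    rw [hFval _ y0 hy0 rfl, hFval 1 1 (one_mem _) (map_one π).symm]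
    group
  have h2 := hFi h1
  exact hy0W (memQ.1 (congrArg Subtype.val h2))

/-- `K''=1`. -/
theorem WW_eq_bot {G : Type u} [Group G] [Finite G] [Group.IsSolvable G] {K : Subgroup G} [hK : K.Normal]
    {r : ℕ} (D : Dat K r) : WW K = ⊥ := by
  by_contra hne
  -- a maximal normal subgroup below `K''`
  obtain ⟨Y, ⟨hYn, hYlt⟩, hYmax⟩ : ∃ Y : Subgroup G, (Y.Normal ∧ Y < WW K) ∧
      ∀ Z : Subgroup G, (Z.Normal ∧ Z < WW K) → Y ≤ Z → Z = Y := by
    obtain ⟨Y, hY⟩ := (Set.toFinite {Y : Subgroup G | Y.Normal ∧ Y < WW K}).exists_maximal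
      ⟨⊥, inferInstance, bot_lt_iff_ne_bot.2 hne⟩
    refine ⟨Y, hY.1, fun Z hZ hYZ => le_antisymm (hY.2 hZ hYZ) hYZ⟩
  have hsurj := QuotientGroup.mk'_surjective Y
  have hYJ : Y ≤ (⁅K, K⁆ : Subgroup G) := hYlt.le.trans WW_le
  have hKn : (K.map (QuotientGroup.mk' Y)).Normal := hK.map _ hsurj
  have D' : Dat (K.map (QuotientGroup.mk' Y)) r := D.map _ hsurj (by rw [QuotientGroup.ker_mk']; exact hYJ)
  have hWmap : WW (K.map (QuotientGroup.mk' Y)) = (WW K).map (QuotientGroup.mk' Y) := by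
    change ⁅(⁅K.map (QuotientGroup.mk' Y), K.map (QuotientGroup.mk' Y)⁆ : Subgroup _), _⁆ = _
    rw [← map_commutator, ← map_commutator]
  have h1 := final D' (by
    intro X hX hXW
    have hXn : (X.comap (QuotientGroup.mk' Y)).Normal := hX.comap _
    have hle : X.comap (QuotientGroup.mk' Y) ≤ WW K := by
      have h2 := comap_mono (f := QuotientGroup.mk' Y) hXW
      rw [hWmap, comap_map_eq, QuotientGroup.ker_mk', sup_eq_left.2 hYlt.le] at h2
      exact h2
    have hYX : Y ≤ X.comap (QuotientGroup.mk' Y) := by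
      intro y hy
      rw [mem_comap]
      have : QuotientGroup.mk' Y y = 1 := (QuotientGroup.eq_one_iff y).2 hy
      rw [this]
      exact one_mem _
    by_cases hlt : X.comap (QuotientGroup.mk' Y) < WW K
    · left
      have h3 := hYmax _ ⟨hXn, hlt⟩ hYX
      rw [← map_comap_eq_self_of_surjective hsurj X, h3]
      exact QuotientGroup.map_mk'_self Y
    · right
      have h3 : X.comap (QuotientGroup.mk' Y) = WW K := by
        by_contra h
        exact hlt (lt_of_le_of_ne hle h)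
      rw [← map_comap_eq_self_of_surjective hsurj X, h3, hWmap])
  rw [hWmap] at h1
  have h2 : WW K ≤ Y := by
    intro x hx
    have h3 := mem_map_of_mem (QuotientGroup.mk' Y) hx
    rw [h1, mem_bot] at h3
    exact (QuotientGroup.eq_one_iff x).1 h3
  exact absurd h2 (not_le_of_gt hYlt)

/-- All nonlinear degrees of `K` are equal. -/
theorem degrees_eq [Group.IsSolvable G] (D : Dat K r) :
    ∀ a ∈ charDegrees K, ∀ b ∈ charDegrees K, a ≠ 1 → b ≠ 1 → a = b := by
  intro a ha b hb ha1 hb1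
  have hab : Ab K := by
    intro x hx y hy
    have h1 : ⁅x, y⁆ ∈ WW K := commutator_mem_commutator hx hy
    rw [WW_eq_bot D, mem_bot] at h1
    exact commutatorElement_eq_one_iff_mul_comm.1 h1
  have hne : commutator K ≠ ⊥ := by
    intro h
    obtain ⟨χ, hχ⟩ := ha
    apply ha1
    rw [← hχ]
    -- abelian groups have only linear characters
    by_contra hd
    obtain ⟨x, hx, hne⟩ := NDP3.exists_ne_of_degree χ hd
    rw [h, mem_bot] at hx
    rw [hx] at hne
    exact hne rfl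
  have h1 := (ab_case D hab hne).2
  rw [h1 a ha ha1, h1 b hb hb1]

end Cfsg.Agent.Lib.NDDat
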