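import Cfsg.Agent.Lib.RelDeg4

set_option autoImplicit false

/-!
# No divisibility among character degrees: elements of an invariant subgroup (helper85)
-/

open Cfsg Cfsg.Agent.Lib Cfsg.Agent.Lib.CharBasic Cfsg.Agent.Lib.Clifford
open Cfsg.Agent.Lib.CliffordCorr Cfsg.Agent.Lib.RelDeg Subgroup
open scoped commutatorElement

namespace Cfsg.Agent.Lib.NDGrp

universe u

section Vanish

variable {K : Type u} [Group K] [Finite K]

/-- Linear characters separate elements modulo the commutator subgroup. -/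
theorem exists_lin {z : K} (hz : z ∉ commutator K) : ∃ lam : K →* ℂˣ, lam z ≠ 1 := by
  have h1 : (QuotientGroup.mk z : K ⧸ commutator K) ≠ 1 := by
    rwa [Ne, QuotientGroup.eq_one_iff]
  obtain ⟨φ, hφ⟩ := CommGroup.exists_apply_ne_one_of_hasEnoughRootsOfUnity (Abelianization K) ℂ h1
  exact ⟨φ.comp Abelianization.of, hφ⟩

theorem lin_eq_of_commutator (lam : K →* ℂˣ) {x y : K} (h : x * y⁻¹ ∈ commutator K) : lam x = lam y := by
  have h1 : lam (x * y⁻¹) = 1 := by
    have h2 : commutator K ≤ lam.ker := Abelianization.commutator_subset_ker lam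
    exact h2 h
  rw [map_mul, map_inv] at h1
  exact mul_inv_eq_one.1 h1

theorem degree_one_of (χ : IrrCharacter K) (h : charDegree (χ : K → ℂ) = 1) :
    ∃ lam : K →* ℂˣ, (χ : K → ℂ) = lf lam := exists_lf_of_degree χ.2 h

/-- Elements moved modulo `K'` by a map fixing all nonlinear characters are killed by them. -/
theorem vanish {k k' : K} (hk : k * k'⁻¹ ∉ commutator K)
    (h : ∀ χ : IrrCharacter K, charDegree (χ : K → ℂ) ≠ 1 → (χ : K → ℂ) k' = (χ : K → ℂ) k)
    (χ : IrrCharacter K) (hχ : charDegree (χ : K → ℂ) ≠ 1) : (χ : K → ℂ) k = 0 := by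
  classical
  obtain ⟨lam, hlam⟩ := exists_lin hk
  have hnc : ¬ IsConj k k' := by
    intro hc
    rw [isConj_iff] at hc
    obtain ⟨c, hc⟩ := hc
    apply hk
    rw [← hc, mul_inv_rev, mul_inv_rev, inv_inv]
    have : k * (c * (k⁻¹ * c⁻¹)) = ⁅k, c⁆ := by rw [commutatorElement_def]; group
    rw [this]
    exact commutator_mem_commutator (mem_top _) (mem_top _)
  have h0 := column_orthogonality k k'
  rw [if_neg hnc] at h0
  rw [← Finset.sum_filter_add_sum_filter_not Finset.univ (fun χ : IrrCharacter K => charDegree (χ : K → ℂ) = 1)] at h0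
  have hlin : ∑ χ ∈ Finset.univ.filter (fun χ : IrrCharacter K => charDegree (χ : K → ℂ) = 1),
      (χ : K → ℂ) k * (starRingEnd ℂ) ((χ : K → ℂ) k') = 0 := by
    set S := ∑ χ ∈ Finset.univ.filter (fun χ : IrrCharacter K => charDegree (χ : K → ℂ) = 1),
      (χ : K → ℂ) k * (starRingEnd ℂ) ((χ : K → ℂ) k') with hS
    let t : IrrCharacter K → IrrCharacter K := fun χ => ⟨tw (lam : Lin K) χ, irr_tw lam χ.2⟩
    have ht : S = ∑ χ ∈ Finset.univ.filter (fun χ : IrrCharacter K => charDegree (χ : K → ℂ) = 1),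
      ((t χ : IrrCharacter K) : K → ℂ) k * (starRingEnd ℂ) (((t χ : IrrCharacter K) : K → ℂ) k') := by
      rw [hS]
      symm
      apply Finset.sum_bij (fun χ _ => t χ)
      · intro χ hχ
        rw [Finset.mem_filter] at hχ ⊢
        exact ⟨Finset.mem_univ _, by
          have := charDegree_tw (lam : Lin K) (χ : K → ℂ)
          rw [← hχ.2, ← this]⟩
      · intro χ _ ψ _ he
        have h1 : tw (lam : Lin K) (χ : K → ℂ) = tw (lam : Lin K) (ψ : K → ℂ) := congrArg Subtype.val he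
        exact Subtype.ext (tw_inj _ h1)
      · intro ψ hψ
        rw [Finset.mem_filter] at hψ
        refine ⟨⟨tw ((lam : Lin K)⁻¹) ψ, irr_tw _ ψ.2⟩, ?_, ?_⟩
        · rw [Finset.mem_filter]
          refine ⟨Finset.mem_univ _, ?_⟩
          have := charDegree_tw ((lam : Lin K)⁻¹) (ψ : K → ℂ)
          rw [← hψ.2, ← this]
        · apply Subtype.ext
          funext x
          change ((lam x : ℂˣ) : ℂ) * ((((lam⁻¹ : K →* ℂˣ) x : ℂˣ) : ℂ) * (ψ : K → ℂ) x) = (ψ : K → ℂ) x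
          have : ((lam⁻¹ : K →* ℂˣ) x : ℂˣ) = (lam x)⁻¹ := rfl
          rw [this, ← mul_assoc, ← Units.val_mul, mul_inv_cancel, Units.val_one, one_mul]
      · intro χ _
        rfl
    have ht2 : S = (((lam k : ℂˣ) : ℂ) * (starRingEnd ℂ) ((lam k' : ℂˣ) : ℂ)) * S := by
      conv_lhs => rw [ht]
      rw [hS, Finset.mul_sum]
      apply Finset.sum_congr rfl
      intro χ _
      change ((lam k : ℂˣ) : ℂ) * (χ : K → ℂ) k * (starRingEnd ℂ) (((lam k' : ℂˣ) : ℂ) * (χ : K → ℂ) k') = _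
      rw [map_mul]
      ring
    have hne : ((lam k : ℂˣ) : ℂ) * (starRingEnd ℂ) ((lam k' : ℂˣ) : ℂ) ≠ 1 := by
      have h1 : (starRingEnd ℂ) ((lam k' : ℂˣ) : ℂ) = ((lam k'⁻¹ : ℂˣ) : ℂ) := by
        have h2 := IsIrrCharacter.inv (irr_lf (lam : Lin K)) k'
        exact h2.symm
      rw [h1, ← Units.val_mul, ← map_mul]
      intro h2
      exact hlam (Units.ext h2)
    have h3 : (((lam k : ℂˣ) : ℂ) * (starRingEnd ℂ) ((lam k' : ℂˣ) : ℂ) - 1) * S = 0 := by
      rw [sub_mul, one_mul, ← ht2, sub_self]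
    rcases mul_eq_zero.1 h3 with h4 | h4
    · exact absurd (sub_eq_zero.1 h4) hne
    · exact h4
  rw [hlin, zero_add] at h0
  have h1 : ∑ χ ∈ Finset.univ.filter (fun χ : IrrCharacter K => ¬ charDegree (χ : K → ℂ) = 1),
      (Complex.normSq ((χ : K → ℂ) k) : ℝ) = 0 := by
    have h2 : ((∑ χ ∈ Finset.univ.filter (fun χ : IrrCharacter K => ¬ charDegree (χ : K → ℂ) = 1),
      (Complex.normSq ((χ : K → ℂ) k) : ℝ) : ℝ) : ℂ) = 0 := by
      rw [← h0, Complex.ofReal_sum]
      apply Finset.sum_congr rfl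
      intro χ hχ
      rw [Finset.mem_filter] at hχ
      rw [h χ hχ.2, Complex.mul_conj]
    exact_mod_cast h2
  rw [Finset.sum_eq_zero_iff_of_nonneg (fun _ _ => Complex.normSq_nonneg _)] at h1
  exact Complex.normSq_eq_zero.1 (h1 χ (by rw [Finset.mem_filter]; exact ⟨Finset.mem_univ _, hχ⟩))

/-- Then `k` is conjugate to `k * j` for `j ∈ K'`. -/
theorem conj_mul {k k' : K} (hk : k * k'⁻¹ ∉ commutator K)
    (h : ∀ χ : IrrCharacter K, charDegree (χ : K → ℂ) ≠ 1 → (χ : K → ℂ) k' = (χ : K → ℂ) k)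
    {j : K} (hj : j ∈ commutator K)
    (hj' : ∀ χ : IrrCharacter K, charDegree (χ : K → ℂ) ≠ 1 → (χ : K → ℂ) (k * j) = 0) : IsConj k (k * j) := by
  rw [isConj_iff_forall_irr]
  intro χ
  by_cases hχ : charDegree (χ : K → ℂ) = 1
  · obtain ⟨lam, hlam⟩ := degree_one_of χ hχ
    rw [hlam]
    change ((lam k : ℂˣ) : ℂ) = ((lam (k * j) : ℂˣ) : ℂ)
    rw [lin_eq_of_commutator lam (x := k) (y := k * j)]
    rw [mul_inv_rev, ← mul_assoc]
    have : k * j⁻¹ * k⁻¹ = k * j⁻¹ * k⁻¹ := rfl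
    exact (commutator_normal (⊤ : Subgroup K) ⊤).conj_mem _ (inv_mem hj) k
  · rw [hj' χ hχ, vanish hk h χ hχ]

end Vanish

end Cfsg.Agent.Lib.NDGrp
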