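import Cfsg.Agent.Lib.RelDeg
import Cfsg.Agent.Lib.ExtDeg
import Cfsg.Agent.Lib.H39Lin2
import Cfsg.Agent.Lib.CharBasic2
import Cfsg.Agent.Lib.DegRatio
import Cfsg.Agent.Lib.CharApps

/-!
# Piece P1 of S4781 (helper79)
-/

set_option autoImplicit false

open Cfsg Cfsg.Agent.Lib Cfsg.Agent.Lib.CharBasic Cfsg.Agent.Lib.Clifford Cfsg.Agent.Lib.CliffordCorr
open Cfsg.Agent.Lib.RelDeg Cfsg.Agent.Lib.DefectZero Subgroup

namespace Cfsg.Agent.Lib.NDP1

universe u

theorem nonab_case {K : Type u} [Group K] [Finite K] {r : ℕ} (hr : r.Prime) (H : Subgroup K) [H.Normal]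
    (hH : (Nat.card H).Coprime r) {k : ℕ} (hk : H.index = r ^ k) (hna : ¬ commutator K ≤ H)
    (nd : ∀ a ∈ charDegrees K, ∀ b ∈ charDegrees K, 1 < a → a ∣ b → a = b)
    (hd : ∀ a ∈ charDegrees K, a ≠ 1 → r ∣ a) :
    ∀ a ∈ charDegrees K, ∀ b ∈ charDegrees K, a ≠ 1 → b ≠ 1 → a = b := by
  classical
  have := Fintype.ofFinite K
  have := Fintype.ofFinite H
  -- a nonlinear character of `K/H`
  obtain ⟨χ₀, hχ₀, hne⟩ : ∃ χ : K ⧸ H → ℂ, IsIrrCharacter (K ⧸ H) χ ∧ χ 1 ≠ 1 := by
    by_contra hcon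
    push Not at hcon
    apply hna
    rw [commutator_def, Subgroup.commutator_le]
    intro a _ b _
    have h1 := comm_of_forall_irr_linear hcon (QuotientGroup.mk a : K ⧸ H) (QuotientGroup.mk b)
    rw [← QuotientGroup.eq_one_iff, commutatorElement_def]
    simp only [QuotientGroup.mk_mul, QuotientGroup.mk_inv, h1]
    group
  set m := charDegree χ₀ with hm
  have hm1 : (m : ℂ) = χ₀ 1 := charDegree_eq hχ₀.isCharacter
  have hmne : m ≠ 1 := by
    intro h
    rw [h, Nat.cast_one] at hm1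
    exact hne hm1.symm
  obtain ⟨ψ₀, hψ₀⟩ := DegTools.exists_inflate H ⟨χ₀, hχ₀⟩
  have hmem : m ∈ charDegrees K := ⟨ψ₀, hψ₀⟩
  have hmd : m ∣ r ^ k := by
    rw [← hk, Subgroup.index]
    exact CharApps.irr_degree_dvd_card hχ₀ hm1.symm
  obtain ⟨b₀, -, hb₀⟩ := (Nat.dvd_prime_pow hr).mp hmd
  have hb0 : b₀ ≠ 0 := by
    rintro rfl
    exact hmne (by rw [hb₀, pow_zero])
  have hm1lt : 1 < m := by
    rw [hb₀]
    exact Nat.one_lt_pow hb0 hr.one_lt
  have key : ∀ a ∈ charDegrees K, a ≠ 1 → a = m := by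
    rintro a ⟨ψ, rfl⟩ ha
    have h0 : (fun n : H => (ψ : K → ℂ) n) ≠ 0 := by
      intro h1
      have := congrFun h1 1
      simp only [OneMemClass.coe_one, Pi.zero_apply] at this
      exact ψ.2.one_ne_zero this
    obtain ⟨θ, hθ⟩ := exists_constituent (ψ.2.isCharacter.restrict H) h0
    set T := inertia H (θ : H → ℂ) with hTdef
    have hHT : H ≤ T := le_inertia θ.2.isClassFunction
    have hcop : Nat.Coprime H.index (Nat.card H) := by
      rw [hk]
      exact (Nat.Coprime.pow_right k hH).symm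
    have hT : ∀ g : K, g ∈ T ↔ cj H g (θ : H → ℂ) = θ := fun g => mem_inertia
    obtain ⟨η, hη, hext⟩ := ExtDeg.exists_ext hHT θ.2 (fun g hg => (hT g).mp hg) hcop
    have hdeg : ∀ β : T → ℂ, IsIrrCharacter T β → (∀ n : H, β ⟨n, hHT n.2⟩ = β 1) →
        T.index * (charDegree β * charDegree (θ : H → ℂ)) ∈ charDegrees K := by
      intro β hβ hβH
      obtain ⟨h1, -, h3⟩ := ExtDeg.deg_of_ext hHT θ.2 hT hη hext hβ hβH
      refine ⟨⟨_, h1⟩, ?_⟩
      have h4 := charDegree_eq h1.isCharacter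
      rw [h3, ← charDegree_eq hβ.isCharacter, ← charDegree_eq θ.2.isCharacter] at h4
      exact_mod_cast h4
    have hc : T.index * charDegree (θ : H → ℂ) ∈ charDegrees K := by
      have h1 := hdeg _ isIrrCharacter_fun_one (fun _ => rfl)
      have h2 : charDegree (fun _ : T => (1 : ℂ)) = 1 := by simp [charDegree]
      rw [h2, one_mul] at h1
      exact h1
    have hdvd := deg_dvd ψ.2 θ.2 hθ
    have hTpos : 0 < T.index := Nat.pos_of_ne_zero Subgroup.index_ne_zero_of_finite
    have hθpos : 0 < charDegree (θ : H → ℂ) := by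
      apply Nat.pos_of_ne_zero
      intro h
      have h1 := charDegree_eq θ.2.isCharacter
      rw [h, Nat.cast_zero] at h1
      exact θ.2.one_ne_zero h1.symm
    by_cases hc1 : T.index * charDegree (θ : H → ℂ) = 1
    · obtain ⟨f, hf, hfi⟩ := DegRatio.degree_ratio ψ.2 θ.2 hθ (charDegree_eq ψ.2.isCharacter).symm
        (charDegree_eq θ.2.isCharacter).symm
      rw [Nat.eq_one_of_mul_eq_one_left hc1, mul_one] at hf
      rw [hk, ← hf] at hfi
      obtain ⟨j, -, hj⟩ := (Nat.dvd_prime_pow hr).mp hfi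
      have hj0 : j ≠ 0 := by
        rintro rfl
        exact ha (by rw [hj, pow_zero])
      have h1lt : 1 < charDegree (ψ : K → ℂ) := by
        rw [hj]
        exact Nat.one_lt_pow hj0 hr.one_lt
      rcases le_total j b₀ with h | h
      · exact nd _ ⟨ψ, rfl⟩ _ hmem h1lt (by rw [hj, hb₀]; exact pow_dvd_pow r h)
      · exact (nd _ hmem _ ⟨ψ, rfl⟩ hm1lt (by rw [hj, hb₀]; exact pow_dvd_pow r h)).symm
    · have hclt : 1 < T.index * charDegree (θ : H → ℂ) := by
        have := Nat.mul_pos hTpos hθpos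
        omega
      have hca := nd _ hc _ ⟨ψ, rfl⟩ hclt hdvd
      have hcomm := ExtDeg.comm_of_linear hHT (by
        intro β hβ hβH
        have h1 := nd _ hc _ (hdeg β hβ hβH) hclt
          (Nat.mul_dvd_mul_left _ (dvd_mul_left _ _))
        have h2 : charDegree β = 1 := by
          have h3 := Nat.eq_of_mul_eq_mul_left hTpos h1
          have h4 : 1 * charDegree (θ : H → ℂ) = charDegree β * charDegree (θ : H → ℂ) := by
            rw [one_mul]; exact h3
          exact (Nat.eq_of_mul_eq_mul_right hθpos h4).symm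
        have h5 := charDegree_eq hβ.isCharacter
        rw [h2, Nat.cast_one] at h5
        exact h5.symm)
      have hle : m ≤ (T.map (QuotientGroup.mk' H)).index := by
        apply H39Lin2.le_index_of_comm hχ₀ hm1.symm
        rintro _ ⟨a, ha, rfl⟩ _ ⟨b, hb, rfl⟩
        rw [← map_mul, ← map_mul]
        have h1 := hcomm a ha b hb
        have h2 : a * b = (a * b * a⁻¹ * b⁻¹) * (b * a) := by group
        rw [h2, map_mul (QuotientGroup.mk' H) (a * b * a⁻¹ * b⁻¹)]
        have h3 : QuotientGroup.mk' H (a * b * a⁻¹ * b⁻¹) = 1 := (QuotientGroup.eq_one_iff _).mpr h1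
        rw [h3, one_mul]
      have hidx : (T.map (QuotientGroup.mk' H)).index = T.index := by
        rw [Subgroup.index_map, QuotientGroup.ker_mk', sup_eq_left.mpr hHT,
          MonoidHom.range_eq_top.mpr (QuotientGroup.mk'_surjective H), Subgroup.index_top, mul_one]
      rw [hidx] at hle
      have hTd : T.index ∣ r ^ k := by
        rw [← hk]
        exact Subgroup.index_dvd_of_le hHT
      obtain ⟨j, -, hj⟩ := (Nat.dvd_prime_pow hr).mp hTd
      have hmT : m ∣ T.index := by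
        rw [hb₀, hj] at hle ⊢
        exact pow_dvd_pow r ((Nat.pow_le_pow_iff_right hr.one_lt).mp hle)
      exact (nd _ hmem _ ⟨ψ, rfl⟩ hm1lt ((hmT.mul_right _).trans hca.dvd)).symm
  intro a ha b hb ha1 hb1
  rw [key a ha ha1, key b hb hb1]

end Cfsg.Agent.Lib.NDP1
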