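import Cfsg.Agent.Lib.NDDat

set_option autoImplicit false

/-!
# No divisibility among character degrees: passing to quotients (helper85)
-/

open Cfsg Cfsg.Agent.Lib Cfsg.Agent.Lib.CharBasic Cfsg.Agent.Lib.Clifford
open Cfsg.Agent.Lib.CliffordCorr Cfsg.Agent.Lib.RelDeg Cfsg.Agent.Lib.NDGrp Subgroup
open scoped commutatorElement

namespace Cfsg.Agent.Lib.NDDat

universe u

theorem inflate {K K' : Type u} [Group K] [Group K'] (f : K →* K') (hf : Function.Surjective f) {a : ℕ}
    (ha : a ∈ charDegrees K') : a ∈ charDegrees K := by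
  obtain ⟨χ, rfl⟩ := ha
  refine ⟨⟨fun g => (χ : K' → ℂ) (f g), χ.2.comp_surjective _ hf⟩, ?_⟩
  simp only [charDegree, map_one]

theorem Dat.map {G G' : Type u} [Group G] [Group G'] [Finite G] {K : Subgroup G} [hK : K.Normal] {r : ℕ}
    (D : Dat K r) (f : G →* G') (hf : Function.Surjective f) (hker : f.ker ≤ ⁅K, K⁆)
    [hN : (K.map f).Normal] : Dat (K.map f) r := by
  have hkK : f.ker ≤ K := hker.trans (commutator_le_self K)
  have hidx : (K.map f).index = K.index := index_map_eq K hf hkK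
  have hsurj : Function.Surjective (f.subgroupMap K) := f.subgroupMap_surjective K
  have hcomm : ⁅K.map f, K.map f⁆ = (⁅K, K⁆ : Subgroup G).map f := (map_commutator _ _ f).symm
  have hmem : ∀ x : G, f x ∈ ⁅K.map f, K.map f⁆ → x ∈ ⁅K, K⁆ := by
    intro x hx
    rw [hcomm] at hx
    obtain ⟨y, hy, he⟩ := hx
    have h1 : y⁻¹ * x ∈ f.ker := by rw [MonoidHom.mem_ker, map_mul, map_inv, he, inv_mul_cancel]
    have h2 : x = y * (y⁻¹ * x) := by group
    rw [h2]
    exact mul_mem hy (hker h1)
  have hGc : commutator G' = (commutator G).map f := by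
    rw [commutator_def, commutator_def, map_commutator, map_top_of_surjective f hf]
  refine ⟨D.hr, ?_, ?_, ?_, ?_, ?_, ?_, ?_, ?_⟩
  · rw [hGc]
    exact map_mono D.comm_le
  · intro h
    apply D.ne_top
    rw [← index_eq_one, ← hidx, h, index_top]
  · intro ψ hψ hd g'
    obtain ⟨g, rfl⟩ := hf g'
    have h1 : IsIrrCharacter K (fun k => ψ (f.subgroupMap K k)) := hψ.comp_surjective _ hsurj
    have h2 := D.inv _ h1 (by
      intro h
      apply hd
      rw [← h]
      simp only [charDegree, map_one]) g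
    funext n
    obtain ⟨k, rfl⟩ := hsurj n
    have h3 := congrFun h2 k
    rw [cj_apply] at h3 ⊢
    rw [← h3]
    congr 1
    apply Subtype.ext
    change f g * f (k : G) * (f g)⁻¹ = f (g * (k : G) * g⁻¹)
    rw [map_mul, map_mul, map_inv]
  · intro a ha b hb h1 h2
    exact D.nd a (inflate _ hsurj ha) b (inflate _ hsurj hb) h1 h2
  · intro a ha
    rw [hidx]
    exact D.cop a (inflate _ hsurj ha)
  · rw [hcomm]
    intro h
    exact D.rJ (h.trans (card_map_dvd (⁅K, K⁆ : Subgroup G) f))
  · intro L hL hLK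
    have hn : (L.comap f).Normal := hL.comap f
    have h1 : ¬ L.comap f ≤ K := by
      intro h
      apply hLK
      rw [← map_comap_eq_self_of_surjective hf L]
      exact map_mono h
    obtain ⟨x, hx, hxK, ⟨n, hn⟩, g, hg⟩ := D.P1 _ hn h1
    refine ⟨f x, hx, mem_map_of_mem f hxK, ⟨n, by rw [← map_pow, hn, map_one]⟩, f g, ?_⟩
    intro h
    apply hg
    apply hmem
    rw [map_mul, map_mul, map_mul, map_inv, map_inv]
    exact h
  · obtain ⟨x, hx, ⟨n, hn⟩, g, hg⟩ := D.P2
    refine ⟨f x, by rw [hGc]; exact mem_map_of_mem f hx, ⟨n, by rw [← map_pow, hn, map_one]⟩, f g, ?_⟩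
    intro h
    apply hg
    apply hmem
    rw [map_mul, map_mul, map_mul, map_inv, map_inv]
    exact h

end Cfsg.Agent.Lib.NDDat
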