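import Cfsg.Agent.Lib.NFLin
import Mathlib.Tactic

/-!
Linear groups regular on the non-zero vectors: counting (helper12).
-/

set_option autoImplicit false

namespace Cfsg.Agent.Lib.NFCount

open Cfsg.Agent.Lib.FrobAction Cfsg.Agent.Lib.RegLin Cfsg.Agent.Lib.NFStruct Cfsg.Agent.Lib.NFLin

variable {p : ℕ} [hp : Fact p.Prime] {V : Type*} [AddCommGroup V] [Module (ZMod p) V] [Finite V]
  {H : Subgroup (V ≃ₗ[ZMod p] V)}

theorem exists_ne_of_hI (hI : ∀ A : Subgroup H, A.Normal → IsCyclic A →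
    ∃ W : Submodule (ZMod p) V, W ≠ ⊥ ∧ W ≠ ⊤ ∧ ∀ a ∈ A, ∀ v ∈ W, ((a : H) : V ≃ₗ[ZMod p] V) v ∈ W) :
    ∃ v : V, v ≠ 0 := by
  obtain ⟨W, hW, -⟩ := hI ⊥ inferInstance inferInstance
  obtain ⟨v, -, hv⟩ := Submodule.exists_mem_ne_zero_of_ne_bot hW
  exact ⟨v, hv⟩

/-- the basic numerical data attached to a normal abelian subgroup. -/
theorem data (hreg : ∀ v w : V, v ≠ 0 → w ≠ 0 → ∃! h : H, (h : V ≃ₗ[ZMod p] V) v = w)
    (hV : ∃ v : V, v ≠ 0) {A : Subgroup H} (hAn : A.Normal) (hAc : IsMulCommutative A) :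
    ∃ m d : ℕ, 1 ≤ m ∧ Nat.card (EA H A) = p ^ m ∧ Nat.card V = (p ^ m) ^ d ∧
      (Subgroup.centralizer (A : Set H)).index ≤ m ∧ Nat.card A ∣ p ^ m - 1 ∧
      Nat.card H + 1 = Nat.card V ∧ 1 ≤ d := by
  have hA := comm_iff.mp hAc
  have htr := trans_of hreg
  obtain ⟨d, hd⟩ := card_V hV hAn hA htr
  have hE := card_E (H := H) (A := A)
  have hdvd := card_dvd hV hAn hA htr
  have hidx := index_le hV hAn hA htr
  refine ⟨Module.finrank (ZMod p) (EA H A), d, ?_, hE, by rw [hd, hE], hidx, hE ▸ hdvd,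
    card_H hreg hV, ?_⟩
  · by_contra hcon
    have h0 : Module.finrank (ZMod p) (EA H A) = 0 := by omega
    rw [h0] at hidx
    have hH : Finite H := finite_H
    have := Subgroup.index_ne_zero_of_finite (H := Subgroup.centralizer (A : Set H))
    omega
  · by_contra hcon
    have h0 : d = 0 := by omega
    rw [h0, pow_zero] at hd
    obtain ⟨v, hv⟩ := hV
    have : Nontrivial V := ⟨v, 0, hv⟩
    have := Finite.one_lt_card (α := V)
    omega

/-- an involution forces odd characteristic. -/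
theorem not_dvd_card_H (hreg : ∀ v w : V, v ≠ 0 → w ≠ 0 → ∃! h : H, (h : V ≃ₗ[ZMod p] V) v = w)
    (hV : ∃ v : V, v ≠ 0) {n : ℕ} (hn : n ∣ Nat.card H) : ¬ p ∣ n := by
  intro h
  have hc := card_H hreg hV
  have hH : Finite H := finite_H
  have h1 : p ∣ Nat.card V := by
    obtain ⟨v, hv⟩ := hV
    have : Nontrivial V := ⟨v, 0, hv⟩
    have h2 := Module.natCard_eq_pow_finrank (K := ZMod p) (V := V)
    rw [Nat.card_zmod] at h2
    rw [h2]
    apply dvd_pow_self
    intro h0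
    rw [h0, pow_zero] at h2
    have := Finite.one_lt_card (α := V)
    omega
  have h2 : p ∣ Nat.card H := h.trans hn
  have h3 : p ∣ 1 := (Nat.dvd_add_right h2).mp (hc ▸ h1)
  exact hp.out.one_lt.ne' (Nat.dvd_one.mp h3)

/-- the main divisibility. -/
theorem dvd_of {A N : Subgroup H} {m d : ℕ} (hNn : N.Normal)
    (hV : Nat.card V = (p ^ m) ^ d) (hA : Nat.card A ∣ p ^ m - 1)
    (hH : Nat.card H + 1 = Nat.card V)
    (hCC : Subgroup.centralizer (A : Set H) ⊓ Subgroup.centralizer (N : Set H) = A) {a : ℕ}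
    (ha : Nat.card (MulAut N) ∣ a) :
    (p ^ m) ^ d - 1 ∣ (p ^ m - 1) * a * (Subgroup.centralizer (A : Set H)).index := by
  have hfin : Finite H := finite_H
  have h1 : (p ^ m) ^ d - 1 = Nat.card H := by omega
  rw [h1, ← Subgroup.card_mul_index (Subgroup.centralizer (A : Set H))]
  apply Nat.mul_dvd_mul_right
  exact (card_dvd_mulAut hNn hCC).trans (Nat.mul_dvd_mul hA ha)

/-- the centraliser of a maximal normal abelian subgroup is not abelian. -/
theorem centralizer_not_comm {m d : ℕ} {A : Subgroup H} (hAc : IsMulCommutative A)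
    (hAmax : ∀ B : Subgroup H, B.Normal → IsMulCommutative B → A ≤ B → B = A) (hAn : A.Normal)
    (hm : 1 ≤ m) (hV : Nat.card V = (p ^ m) ^ d) (hA : Nat.card A ∣ p ^ m - 1)
    (hH : Nat.card H + 1 = Nat.card V) (hd : 2 ≤ d)
    (hidx : (Subgroup.centralizer (A : Set H)).index ≤ m) :
    ¬ IsMulCommutative (Subgroup.centralizer (A : Set H)) := by
  intro hC
  have hAle : A ≤ Subgroup.centralizer (A : Set H) := by
    intro a ha
    rw [Subgroup.mem_centralizer_iff]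
    intro b hb
    exact comm_iff.mp hAc b hb a ha
  have hCA := hAmax _ inferInstance hC hAle
  rw [hCA] at hidx
  have h1 := Subgroup.card_mul_index A
  have hq : 2 ^ m ≤ p ^ m := Nat.pow_le_pow_left hp.out.two_le m
  have hm2 : m < 2 ^ m := Nat.lt_two_pow_self
  have hle : Nat.card A ≤ p ^ m - 1 := Nat.le_of_dvd (by omega) hA
  have h2 : Nat.card H ≤ (p ^ m - 1) * m := by
    rw [← h1]; exact Nat.mul_le_mul hle hidx
  have h3 : (p ^ m) ^ 2 ≤ (p ^ m) ^ d := Nat.pow_le_pow_right (by omega) hd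
  obtain ⟨r, hr⟩ : ∃ r, p ^ m = r + 1 := ⟨p ^ m - 1, by omega⟩
  rw [hr] at h2 h3 hV hq
  rw [hV] at hH
  simp only [Nat.add_sub_cancel] at h2
  have : m < r + 1 := by omega
  nlinarith

theorem two_le_d {m d : ℕ} {A : Subgroup H} (hreg : ∀ v w : V, v ≠ 0 → w ≠ 0 → ∃! h : H, (h : V ≃ₗ[ZMod p] V) v = w)
    (hVn : ∃ v : V, v ≠ 0) (hAn : A.Normal) (hAc : IsMulCommutative A) (hm : 1 ≤ m)
    (hE : Nat.card (EA H A) = p ^ m) (hV : Nat.card V = (p ^ m) ^ d)
    {W : Submodule (ZMod p) V} (hWb : W ≠ ⊥) (hWt : W ≠ ⊤)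
    (hW : ∀ a ∈ A, ∀ v ∈ W, ((a : H) : V ≃ₗ[ZMod p] V) v ∈ W) : 2 ≤ d := by
  have h1 := sq_le hVn hAn (comm_iff.mp hAc) (trans_of hreg) W hWb hWt hW
  rw [hE, hV] at h1
  have h2 : 1 < p ^ m := Nat.one_lt_pow (by omega) hp.out.one_lt
  exact (Nat.pow_le_pow_iff_right h2).mp h1

theorem isFPF_sub {G W : Type*} [Group G] [CommGroup W] {act : G →* MulAut W} (hf : IsFPF act)
    (N : Subgroup G) : IsFPF (act.comp N.subtype) := hf.comp N.subtype N.subtype_injective

/-- solvable minimal non-abelian normal subgroups are quaternion of order 8. -/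
theorem quat_of_solvable (hreg : ∀ v w : V, v ≠ 0 → w ≠ 0 → ∃! h : H, (h : V ≃ₗ[ZMod p] V) v = w)
    (hVn : ∃ v : V, v ≠ 0) {A N : Subgroup H} (hAn : A.Normal) (hAc : IsMulCommutative A)
    (hAmax : ∀ B : Subgroup H, B.Normal → IsMulCommutative B → A ≤ B → B = A) (hNn : N.Normal)
    (hNle : N ≤ Subgroup.centralizer (A : Set H)) (hNna : ¬ IsMulCommutative N)
    (hNmin : ∀ M : Subgroup H, M.Normal → M ≤ N → ¬ IsMulCommutative M → M = N)
    (hs : Group.IsSolvable N) : Nonempty (N ≃* QuaternionGroup 2) := by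
  have hfin : Finite H := finite_H
  obtain ⟨v, hv⟩ := hVn
  have : Nontrivial V := ⟨v, 0, hv⟩
  have : Nontrivial (Multiplicative V) := inferInstance
  refine NFQuat.quat_of_char (isFPF_sub (fpf hreg) N) hs ?_
    (fun M hM hMt => central_of_char hAn hAc hAmax hNn hNle hNmin M hM hMt)
  intro h
  apply hNna
  exact ⟨⟨h⟩⟩

end Cfsg.Agent.Lib.NFCount
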