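import Cfsg.Agent.Lib.NFZas
import Cfsg.Agent.Lib.Burnside
import Cfsg.Agent.Lib.SubgroupTools
import Cfsg.Agent.Lib.ClSL2Syl
import Mathlib.Tactic

/-!
Insoluble sharply doubly transitive groups (helper12).
-/

set_option autoImplicit false

namespace Cfsg.Agent.Lib.NFInsol

open scoped commutatorElement
open Cfsg.Agent.Lib.FrobAction Cfsg.Agent.Lib.RegLin Cfsg.Agent.Lib.NFStruct Cfsg.Agent.Lib.NFLin
  Cfsg.Agent.Lib.NFCount Cfsg.Agent.Lib.NFSolv Cfsg.Agent.Lib.NFZas

/-- the quotient by the centraliser of a cyclic normal subgroup is abelian. -/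
theorem commutator_le_centralizer {G : Type*} [Group G] {A : Subgroup G} (hAn : A.Normal)
    (hAc : IsCyclic A) : commutator G ≤ Subgroup.centralizer (A : Set G) := by
  rw [commutator_def, Subgroup.commutator_le]
  intro x _ y _
  let f : G →* MulAut A := MulAut.conjNormal
  have hcomm : ∀ α β : MulAut A, α * β = β * α := by
    intro α β
    apply (IsCyclic.mulAutMulEquiv A).injective
    rw [map_mul, map_mul, mul_comm]
  have h1 : f ⁅x, y⁆ = 1 := by
    rw [map_commutatorElement, commutatorElement_eq_one_iff_mul_comm]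
    exact hcomm _ _
  rw [Subgroup.mem_centralizer_iff]
  intro a ha
  have h2 := congrArg (fun α : MulAut A => ((α ⟨a, ha⟩ : A) : G)) h1
  have h3 : ((f ⁅x, y⁆ ⟨a, ha⟩ : A) : G) = ⁅x, y⁆ * a * ⁅x, y⁆⁻¹ := MulAut.conjNormal_apply _ _
  have h4 : ⁅x, y⁆ * a * ⁅x, y⁆⁻¹ = a := by rw [← h3]; exact h2
  rw [mul_inv_eq_iff_eq_mul] at h4
  exact h4.symm

/-- a group with a normal subgroup with abelian quotient... -/
theorem isSolvable_of_commutator_le {G : Type*} [Group G] {C : Subgroup G}
    (hC : IsMulCommutative C) (h : commutator G ≤ C) : Group.IsSolvable G := by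
  have hC2 : Group.IsSolvable C := Group.isSolvable_of_comm (fun a b => hC.is_comm.comm a b)
  have h1 : Group.IsSolvable (commutator G) :=
    Group.isSolvable_of_isSolvable_injective (f := Subgroup.inclusion h) (Subgroup.inclusion_injective h)
  exact Group.isSolvable_of_ker_le_range (commutator G).subtype (Abelianization.of (G := G))
    (by rw [Abelianization.ker_of, Subgroup.range_subtype])

theorem isSolvable_of_dvd_24 {G : Type*} [Group G] [Finite G] (h : Nat.card G ∣ 24) :
    Group.IsSolvable G := by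
  have h1 : Nat.card G ∈ Nat.divisors 24 := Nat.mem_divisors.mpr ⟨h, by norm_num⟩
  have h2 : ∃ a b : ℕ, Nat.card G = 2 ^ a * 3 ^ b := by
    have h3 : Nat.divisors 24 = {1, 2, 3, 4, 6, 8, 12, 24} := by decide +kernel
    rw [h3] at h1
    simp only [Finset.mem_insert, Finset.mem_singleton] at h1
    rcases h1 with h | h | h | h | h | h | h | h
    · exact ⟨0, 0, by rw [h]; norm_num⟩
    · exact ⟨1, 0, by rw [h]; norm_num⟩
    · exact ⟨0, 1, by rw [h]; norm_num⟩
    · exact ⟨2, 0, by rw [h]; norm_num⟩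
    · exact ⟨1, 1, by rw [h]; norm_num⟩
    · exact ⟨3, 0, by rw [h]; norm_num⟩
    · exact ⟨2, 1, by rw [h]; norm_num⟩
    · exact ⟨3, 1, by rw [h]; norm_num⟩
  obtain ⟨a, b, hab⟩ := h2
  exact Burnside.isSolvable_of_card_eq _ 2 3 a b Nat.prime_two Nat.prime_three hab rfl

variable {p : ℕ} [hp : Fact p.Prime] {V : Type*} [AddCommGroup V] [Module (ZMod p) V] [Finite V]
  {H : Subgroup (V ≃ₗ[ZMod p] V)}

/-- in dimension 1 the centraliser is abelian. -/
theorem centralizer_comm_of_line (hreg : ∀ v w : V, v ≠ 0 → w ≠ 0 → ∃! h : H, (h : V ≃ₗ[ZMod p] V) v = w)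
    (hVn : ∃ v : V, v ≠ 0) {A : Subgroup H} (hAn : A.Normal) (hAc : IsMulCommutative A)
    (hV : Nat.card V = Nat.card (EA H A)) : IsMulCommutative (Subgroup.centralizer (A : Set H)) := by
  obtain ⟨v, hv⟩ := hVn
  obtain ⟨L, hL, -, -, -, hLcard⟩ := line hAn (comm_iff.mp hAc) (trans_of hreg) hv
  have hLt : L = ⊤ := by
    apply SetLike.coe_injective
    apply Set.eq_of_subset_of_ncard_le (Set.subset_univ _) _ (Set.toFinite _)
    show (Set.univ : Set V).ncard ≤ _
    rw [Set.ncard_univ, ← Nat.card_coe_set_eq]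
    exact (hV.trans hLcard.symm).le
  have hgen : ∀ w : V, ∃ x ∈ EA H A, x v = w := fun w => (hL w).mp (hLt ▸ Submodule.mem_top)
  -- elements of the centraliser commute with EA
  have hcomm : ∀ c ∈ Subgroup.centralizer (A : Set H), ∀ x ∈ EA H A, ∀ w : V,
      (c : V ≃ₗ[ZMod p] V) (x w) = x ((c : V ≃ₗ[ZMod p] V) w) := by
    intro c hc x hx
    induction hx using Algebra.adjoin_induction with
    | mem x hx =>
      obtain ⟨a, ha, rfl⟩ := hx
      intro w
      have h1 := Subgroup.mem_centralizer_iff.mp hc a ha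
      exact (congrArg (fun h : H => (h : V ≃ₗ[ZMod p] V) w) h1).symm
    | algebraMap r =>
      intro w
      rw [Module.algebraMap_end_apply, Module.algebraMap_end_apply, map_smul]
    | add x y _ _ hx hy =>
      intro w
      rw [LinearMap.add_apply, map_add, hx, hy, LinearMap.add_apply]
    | mul x y _ _ hx hy =>
      intro w
      show (c : V ≃ₗ[ZMod p] V) (x (y w)) = x (y _)
      rw [hx, hy]
  rw [comm_iff]
  intro c hc c' hc'
  obtain ⟨x, hx, hxv⟩ := hgen ((c : V ≃ₗ[ZMod p] V) v)
  obtain ⟨x', hx', hxv'⟩ := hgen ((c' : V ≃ₗ[ZMod p] V) v)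
  have h1 : ((c * c' : H) : V ≃ₗ[ZMod p] V) v = x' (x v) := by
    show (c : V ≃ₗ[ZMod p] V) ((c' : V ≃ₗ[ZMod p] V) v) = _
    rw [← hxv', hcomm c hc x' hx' v, hxv]
  have h2 : ((c' * c : H) : V ≃ₗ[ZMod p] V) v = x' (x v) := by
    show (c' : V ≃ₗ[ZMod p] V) ((c : V ≃ₗ[ZMod p] V) v) = _
    rw [← hxv, hcomm c' hc' x hx v, ← hxv']
    have := EA_comm (comm_iff.mp hAc) hx hx'
    exact congrArg (fun f : Module.End (ZMod p) V => f v) this
  have h3 : x' (x v) ≠ 0 := by
    rw [← h1]
    intro h0
    apply hv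
    have := congrArg ((c * c' : H) : V ≃ₗ[ZMod p] V).symm h0
    rwa [LinearEquiv.symm_apply_apply, map_zero] at this
  exact (hreg v _ hv h3).unique h1 h2

/-- orders of products with the centre. -/
theorem product {G : Type*} [Group G] [Finite G] {N B : Subgroup G}
    (hcomm : ∀ n ∈ N, ∀ b ∈ B, n * b = b * n) (hcop : (Nat.card N).Coprime (Nat.card B))
    (hcard : Nat.card G = Nat.card N * Nat.card B) : Nonempty (G ≃* N × B) := by
  let f : N × B →* G :=
    { toFun := fun x => (x.1 : G) * x.2
      map_one' := by simp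
      map_mul' := by
        rintro ⟨n, b⟩ ⟨n', b'⟩
        show ((n * n' : N) : G) * ((b * b' : B) : G) = (n * b) * (n' * b')
        rw [Subgroup.coe_mul, Subgroup.coe_mul]
        calc (n : G) * n' * (b * b') = n * (n' * b) * b' := by group
          _ = n * (b * n') * b' := by rw [hcomm n' n'.2 b b.2]
          _ = n * b * (n' * b') := by group }
  have hinj : Function.Injective f := by
    rw [injective_iff_map_eq_one]
    rintro ⟨n, b⟩ h
    have h1 : (n : G) * b = 1 := h
    have h2 : (n : G) = (b : G)⁻¹ := mul_eq_one_iff_eq_inv.mp h1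
    have hbot : N ⊓ B = ⊥ := Subgroup.inf_eq_bot_of_coprime hcop
    have h3 : (n : G) ∈ N ⊓ B := ⟨n.2, h2 ▸ B.inv_mem b.2⟩
    rw [hbot, Subgroup.mem_bot] at h3
    have h4 : (b : G) = 1 := by rw [h3, one_mul] at h1; exact h1
    exact Prod.ext (Subtype.ext h3) (Subtype.ext h4)
  have hbij : Function.Bijective f := by
    rw [Nat.bijective_iff_injective_and_card]
    exact ⟨hinj, by rw [Nat.card_prod, hcard]⟩
  exact ⟨(MulEquiv.ofBijective f hbij).symm⟩

/-- kernel of the conjugation action. -/
theorem ker_conjNormal {G : Type*} [Group G] {N : Subgroup G} (hNn : N.Normal) :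
    (MulAut.conjNormal : G →* MulAut N).ker = Subgroup.centralizer (N : Set G) := by
  ext x
  rw [MonoidHom.mem_ker, Subgroup.mem_centralizer_iff]
  constructor
  · intro h n hn
    have h1 := congrArg (fun α : MulAut N => ((α ⟨n, hn⟩ : N) : G)) h
    have h2 : ((MulAut.conjNormal x ⟨n, hn⟩ : N) : G) = x * n * x⁻¹ := MulAut.conjNormal_apply _ _
    have h3 : x * n * x⁻¹ = n := by rw [← h2]; exact h1
    rw [mul_inv_eq_iff_eq_mul] at h3
    exact h3.symm
  · intro h
    ext n
    rw [MulAut.conjNormal_apply]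
    have := h n n.2
    show x * n * x⁻¹ = (n : G)
    rw [← this]; group

theorem exists_ne_of_insoluble (hns : ¬ Group.IsSolvable H) : ∃ v : V, v ≠ 0 := by
  by_contra hcon
  push Not at hcon
  apply hns
  have : Subsingleton H := by
    constructor
    intro a b
    apply Subtype.ext
    ext v
    rw [hcon v, map_zero, map_zero]
  infer_instance

/-- the order of `N ⊓ A`. -/
theorem card_inf_two {G : Type*} [Group G] [Finite G] {N A : Subgroup G}
    (hA : Subgroup.centralizer (N : Set G) = A)
    (e : N ≃* Matrix.SpecialLinearGroup (Fin 2) (ZMod 5)) : Nat.card (N ⊓ A : Subgroup G) = 2 := by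
  have h5 : Fact (Nat.Prime 5) := ⟨by norm_num⟩
  have h1 : (Subgroup.center N).map N.subtype = N ⊓ A := by
    rw [← hA]
    ext x
    constructor
    · rintro ⟨y, hy, rfl⟩
      refine ⟨y.2, ?_⟩
      show (y : G) ∈ Subgroup.centralizer (N : Set G)
      rw [Subgroup.mem_centralizer_iff]
      intro n hn
      exact congrArg Subtype.val (Subgroup.mem_center_iff.mp hy ⟨n, hn⟩)
    · rintro ⟨hx1, hx2⟩
      refine ⟨⟨x, hx1⟩, ?_, rfl⟩
      rw [SetLike.mem_coe, Subgroup.mem_center_iff]
      intro n
      exact Subtype.ext (Subgroup.mem_centralizer_iff.mp hx2 (n : G) n.2)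
  have h2 : Nat.card (Subgroup.center N) = 2 := by
    have h3 : (Subgroup.center N).map e.toMonoidHom =
        Subgroup.center (Matrix.SpecialLinearGroup (Fin 2) (ZMod 5)) := by
      ext x
      constructor
      · rintro ⟨y, hy, rfl⟩
        rw [Subgroup.mem_center_iff]
        intro z
        obtain ⟨z, rfl⟩ := e.surjective z
        show e z * e y = e y * e z
        rw [← map_mul, ← map_mul, Subgroup.mem_center_iff.mp hy z]
      · intro hx
        refine ⟨e.symm x, ?_, e.apply_symm_apply x⟩
        rw [SetLike.mem_coe, Subgroup.mem_center_iff]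
        intro z
        apply e.injective
        rw [map_mul, map_mul, e.apply_symm_apply]
        exact Subgroup.mem_center_iff.mp hx (e z)
    have h4 := ClSL2Syl.card_center_SL2 (F := ZMod 5) (by rw [ZMod.card]; decide)
    rw [← h4, ← h3]
    exact (Nat.card_congr ((Subgroup.center N).equivMapOfInjective e.toMonoidHom e.injective).toEquiv)
  rw [← h1, ← h2]
  exact (Nat.card_congr ((Subgroup.center N).equivMapOfInjective N.subtype N.subtype_injective).toEquiv).symm

theorem final_prod {G : Type*} [Group G] [Finite G] {N A : Subgroup G}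
    (hA : Subgroup.centralizer (N : Set G) = A)
    (e : N ≃* Matrix.SpecialLinearGroup (Fin 2) (ZMod 5)) (hN : Nat.card N = 120) (r : ℕ)
    [hr : Fact r.Prime] (hrA : r ∣ Nat.card A) (hcop : (120).Coprime r)
    (hG : Nat.card G = 120 * r) :
    Nonempty (G ≃* Matrix.SpecialLinearGroup (Fin 2) (ZMod 5) × Multiplicative (ZMod r)) := by
  obtain ⟨z, hz⟩ := exists_prime_orderOf_dvd_card' r hrA
  let B : Subgroup G := Subgroup.zpowers (z : G)
  have hB : Nat.card B = r := by
    rw [Nat.card_zpowers, Subgroup.orderOf_coe, hz]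
  have hBA : B ≤ A := by
    rw [Subgroup.zpowers_le]; exact z.2
  obtain ⟨f⟩ := product (N := N) (B := B) (fun n hn b hb => by
      have h1 := hBA hb
      rw [← hA, Subgroup.mem_centralizer_iff] at h1
      exact h1 n hn) (by rw [hN, hB]; exact hcop) (by rw [hG, hN, hB])
  have g : B ≃* Multiplicative (ZMod r) := mulEquivOfPrimeCardEq hB (by
    rw [Nat.card_congr Multiplicative.toAdd, Nat.card_zmod])
  exact ⟨f.trans (MulEquiv.prodCongr e g)⟩

theorem insoluble (hreg : ∀ v w : V, v ≠ 0 → w ≠ 0 → ∃! h : H, (h : V ≃ₗ[ZMod p] V) v = w)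
    (hns : ¬ Group.IsSolvable H) :
    (Nat.card V = 121 ∧ Nonempty (H ≃* Matrix.SpecialLinearGroup (Fin 2) (ZMod 5))) ∨
    (Nat.card V = 841 ∧ Nonempty (H ≃* Matrix.SpecialLinearGroup (Fin 2) (ZMod 5) ×
      Multiplicative (ZMod 7))) ∨
    (Nat.card V = 3481 ∧ Nonempty (H ≃* Matrix.SpecialLinearGroup (Fin 2) (ZMod 5) ×
      Multiplicative (ZMod 29))) := by
  have hfin : Finite H := finite_H
  have hVn := exists_ne_of_insoluble hns
  obtain ⟨A, hAn, hAc, hAmax⟩ := exists_max (G := H)
  obtain ⟨m, d, hm, hE, hV, hidx, hAd, hH, hd1⟩ := data hreg hVn hAn hAc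
  have hAcyc : IsCyclic A := cyclic hVn hAn (comm_iff.mp hAc) (trans_of hreg)
  have hCna : ¬ IsMulCommutative (Subgroup.centralizer (A : Set H)) := fun h =>
    hns (isSolvable_of_commutator_le h (commutator_le_centralizer hAn hAcyc))
  have hd : 2 ≤ d := by
    by_contra hlt
    have h1 : d = 1 := by omega
    rw [h1, pow_one, ← hE] at hV
    exact hCna (centralizer_comm_of_line hreg hVn hAn hAc hV)
  have hCn : (Subgroup.centralizer (A : Set H)).Normal := inferInstance
  obtain ⟨N, hNn, hNle, hNna, hNmin⟩ := exists_min hCn hCna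
  obtain ⟨hV2, hAp, hC, hNA, hcase⟩ := main hreg hVn hAn hAc hAmax hNn hNle hNna hNmin
    hm hd hV hAd hH hidx
  rcases hcase with ⟨⟨e⟩⟩ | ⟨⟨e⟩, hp4⟩
  · exfalso
    apply hns
    have h1 : Group.IsSolvable (MulAut N) := by
      have : Finite (MulAut N) :=
        Finite.of_injective (fun f : MulAut N => (f : N → N)) DFunLike.coe_injective
      apply isSolvable_of_dvd_24
      rw [Nat.card_congr (MulAut.congr e).toEquiv]
      exact NFQuat.dvd_card_mulAut_q8
    have h2 : Group.IsSolvable A := Group.isSolvable_of_comm (fun a b => hAc.is_comm.comm a b)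
    apply Group.isSolvable_of_ker_le_range A.subtype (MulAut.conjNormal : H →* MulAut N)
    rw [ker_conjNormal hNn, hNA, Subgroup.range_subtype]
  · have h5 : Fact (Nat.Prime 5) := ⟨by norm_num⟩
    have hN : Nat.card N = 120 := by
      rw [Nat.card_congr e.toEquiv, ClSL2.card_SL2 (q := 5) (by rw [ZMod.card])]
      norm_num
    have hinf := card_inf_two hNA e
    have hnorm : A ≤ Subgroup.normalizer (N : Set H) := by
      rw [Subgroup.normalizer_eq_top_iff.mpr hNn]; exact le_top
    have hsup := SubgroupTools.card_sup_mul_card_inf hnorm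
    rw [hinf, hN] at hsup
    have h60 : 60 * Nat.card A ∣ Nat.card H := by
      have h1 : Nat.card (N ⊔ A : Subgroup H) = 60 * Nat.card A := by omega
      rw [← h1]
      exact Subgroup.card_subgroup_dvd_card _
    have h120 : Nat.card H ∣ Nat.card A * 120 := by
      have h1 := card_dvd_mulAut (A := A) (N := N) hNn (by rw [hC, top_inf_eq, hNA])
      rw [hC, Subgroup.card_top] at h1
      refine h1.trans (Nat.mul_dvd_mul_left _ ?_)
      rw [Nat.card_congr (MulAut.congr e).toEquiv]
      exact card_mulAut_SL25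
    have h2A : 2 ∣ Nat.card A := by
      rw [← hinf]
      exact Subgroup.card_dvd_of_le inf_le_right
    rw [hV2] at hH
    rcases hp4 with rfl | rfl | rfl | rfl
    · left
      refine ⟨by rw [hV2]; norm_num, ?_⟩
      have hNt : N = ⊤ := by
        apply Subgroup.eq_top_of_card_eq
        rw [hN]; omega
      exact ⟨(Subgroup.topEquiv.symm.trans (MulEquiv.subgroupCongr hNt.symm)).trans e⟩
    · exfalso
      have hH360 : Nat.card H = 360 := by omega
      rw [hH360] at h60 h120
      have h3 : 3 ∣ Nat.card A := by omega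
      have hp3 : Fact (Nat.Prime 3) := ⟨Nat.prime_three⟩
      obtain ⟨z, hz⟩ := exists_prime_orderOf_dvd_card' 3 h3
      obtain ⟨y, hy⟩ := exists_prime_orderOf_dvd_card' (G := N) 3 (by rw [hN]; norm_num)
      obtain ⟨v, hv⟩ := hVn
      have hVnt : Nontrivial V := ⟨v, 0, hv⟩
      have hVnt' : Nontrivial (Multiplicative V) := inferInstance
      have hcom : Commute (z : H) (y : H) := by
        have h1 : (z : H) ∈ Subgroup.centralizer (N : Set H) := hNA.ge z.2
        rw [Subgroup.mem_centralizer_iff] at h1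
        exact (h1 y y.2).symm
      have h1 := mem_zpowers_of_commute (fpf hreg) (p := 3) hcom
        (by rw [Subgroup.orderOf_coe, hz]) (by rw [Subgroup.orderOf_coe, hy])
      have h2 : (z : H) ∈ N := (Subgroup.zpowers_le.mpr y.2) h1
      have h4 : Subgroup.zpowers (z : H) ≤ N ⊓ A := Subgroup.zpowers_le.mpr ⟨h2, z.2⟩
      have h6 := Subgroup.card_dvd_of_le h4
      rw [hinf, Nat.card_zpowers, Subgroup.orderOf_coe, hz] at h6
      omega
    · right; left
      refine ⟨by rw [hV2]; norm_num, ?_⟩
      have hH360 : Nat.card H = 840 := by omega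
      rw [hH360] at h60 h120
      have hp3 : Fact (Nat.Prime 7) := ⟨by norm_num⟩
      exact final_prod hNA e hN 7 (by omega) (by norm_num) (by omega)
    · right; right
      refine ⟨by rw [hV2]; norm_num, ?_⟩
      have hH360 : Nat.card H = 3480 := by omega
      rw [hH360] at h60 h120
      have hp3 : Fact (Nat.Prime 29) := ⟨by norm_num⟩
      exact final_prod hNA e hN 29 (by omega) (by norm_num) (by omega)

end Cfsg.Agent.Lib.NFInsol
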