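import Cfsg.Agent.Lib.NFStruct
import Mathlib.Tactic

/-!
Linear groups regular on the non-zero vectors: orders and numerics (helper12).
-/

set_option autoImplicit false

namespace Cfsg.Agent.Lib.NFLin

open Cfsg.Agent.Lib.FrobAction Cfsg.Agent.Lib.RegLin Cfsg.Agent.Lib.NFStruct

variable {p : ℕ} [hp : Fact p.Prime] {V : Type*} [AddCommGroup V] [Module (ZMod p) V]

/-- the action on the multiplicative copy of `V`. -/
def act (H : Subgroup (V ≃ₗ[ZMod p] V)) : H →* MulAut (Multiplicative V) where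
  toFun h := AddEquiv.toMultiplicative ((h : V ≃ₗ[ZMod p] V).toAddEquiv)
  map_one' := rfl
  map_mul' _ _ := rfl

theorem act_apply (H : Subgroup (V ≃ₗ[ZMod p] V)) (h : H) (v : Multiplicative V) :
    act H h v = Multiplicative.ofAdd ((h : V ≃ₗ[ZMod p] V) v.toAdd) := rfl

variable {H : Subgroup (V ≃ₗ[ZMod p] V)}

theorem fpf (hreg : ∀ v w : V, v ≠ 0 → w ≠ 0 → ∃! h : H, (h : V ≃ₗ[ZMod p] V) v = w) :
    IsFPF (act H) := by
  intro a ha v hv
  by_contra hv1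
  apply ha
  have hv0 : v.toAdd ≠ 0 := fun h => hv1 (Multiplicative.toAdd.injective h)
  exact (hreg v.toAdd v.toAdd hv0 hv0).unique (congrArg Multiplicative.toAdd hv) rfl

theorem card_H [Finite V] (hreg : ∀ v w : V, v ≠ 0 → w ≠ 0 → ∃! h : H, (h : V ≃ₗ[ZMod p] V) v = w)
    (hV : ∃ v : V, v ≠ 0) : Nat.card H + 1 = Nat.card V := by
  classical
  obtain ⟨v, hv⟩ := hV
  let f : H → {w : V // w ≠ 0} := fun h => ⟨(h : V ≃ₗ[ZMod p] V) v, fun h0 => hv (by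
    have := congrArg (h : V ≃ₗ[ZMod p] V).symm h0
    rwa [LinearEquiv.symm_apply_apply, map_zero] at this)⟩
  have hf : Function.Bijective f := by
    constructor
    · intro a b hab
      have h1 := congrArg Subtype.val hab
      exact (hreg v _ hv (f b).2).unique h1 rfl
    · rintro ⟨w, hw⟩
      obtain ⟨h, hh, -⟩ := hreg v w hv hw
      exact ⟨h, Subtype.ext hh⟩
  have h1 := Nat.card_eq_of_bijective f hf
  have h2 := Nat.card_congr (Equiv.sumCompl (fun w : V => w = 0))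
  rw [Nat.card_sum, Nat.card_unique] at h2
  rw [h1, ← h2, add_comm]

theorem finite_H [Finite V] : Finite H :=
  Finite.of_injective (fun h : H => ((h : V ≃ₗ[ZMod p] V) : V → V))
    (fun _ _ hab => Subtype.ext (DFunLike.coe_injective hab))

theorem trans_of (hreg : ∀ v w : V, v ≠ 0 → w ≠ 0 → ∃! h : H, (h : V ≃ₗ[ZMod p] V) v = w) :
    ∀ v w : V, v ≠ 0 → w ≠ 0 → ∃ h : H, (h : V ≃ₗ[ZMod p] V) v = w :=
  fun v w hv hw => (hreg v w hv hw).exists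

/-- `|V|` is a power of `|E|`. -/
theorem card_V [Finite V] (hV : ∃ v : V, v ≠ 0) {A : Subgroup H} (hAn : A.Normal)
    (hA : ∀ x ∈ A, ∀ y ∈ A, x * y = y * x)
    (htr : ∀ v w : V, v ≠ 0 → w ≠ 0 → ∃ h : H, (h : V ≃ₗ[ZMod p] V) v = w) :
    ∃ d : ℕ, Nat.card V = Nat.card (EA H A) ^ d := by
  classical
  have hfinE := finite_E (H := H) (A := A)
  have hF := isField hV hAn hA htr
  let _ : Field (EA H A) := hF.toField
  have : Module.Finite (EA H A) V := Module.Finite.of_finite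
  exact ⟨_, Module.natCard_eq_pow_finrank (K := EA H A) (V := V)⟩

theorem uniq_invol (hreg : ∀ v w : V, v ≠ 0 → w ≠ 0 → ∃! h : H, (h : V ≃ₗ[ZMod p] V) v = w)
    (hV : ∃ v : V, v ≠ 0) : ∀ s t : H, s * s = 1 → s ≠ 1 → t * t = 1 → t ≠ 1 → s = t := by
  obtain ⟨v, hv⟩ := hV
  have : Nontrivial V := ⟨v, 0, hv⟩
  have : Nontrivial (Multiplicative V) := inferInstance
  exact fun s t hs hs1 ht ht1 => invol_unique (fpf hreg) hs hs1 ht ht1

/-- numerical consequences, common part. -/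
theorem numeric_aux {a q m d j : ℕ} (hq : 2 ≤ q) (hd : 2 ≤ d) (hj : 1 ≤ j) (hjm : j ≤ m)
    (ha : 1 ≤ a) (hdvd : q ^ d - 1 ∣ (q - 1) * a * j) : q ^ (d - 1) < a * m := by
  have h1 : q ^ d - 1 ≤ (q - 1) * a * j := Nat.le_of_dvd
    (Nat.mul_pos (Nat.mul_pos (by omega) (by omega)) (by omega)) hdvd
  have h2 : (q - 1) * a * j ≤ (q - 1) * (a * m) := by
    rw [mul_assoc]
    exact Nat.mul_le_mul_left _ (Nat.mul_le_mul_left _ hjm)
  obtain ⟨e, rfl⟩ : ∃ e, d = e + 2 := ⟨d - 2, by omega⟩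
  obtain ⟨r, rfl⟩ : ∃ r, q = r + 2 := ⟨q - 2, by omega⟩
  have h3 : (r + 2 - 1) * ((r + 2) ^ (e + 1) + 1) ≤ (r + 2) ^ (e + 2) - 1 := by
    have h4 : 2 ≤ (r + 2) ^ (e + 1) := by
      calc 2 ≤ r + 2 := by omega
        _ = (r + 2) ^ 1 := (pow_one _).symm
        _ ≤ (r + 2) ^ (e + 1) := Nat.pow_le_pow_right (by omega) (by omega)
    have h5 : r + 2 ≤ (r + 2) ^ (e + 1) := by
      calc r + 2 = (r + 2) ^ 1 := (pow_one _).symm
        _ ≤ (r + 2) ^ (e + 1) := Nat.pow_le_pow_right (by omega) (by omega)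
    have e1 : r + 2 - 1 = r + 1 := by omega
    have e2 : (r + 2) ^ (e + 2) = (r + 2) ^ (e + 1) * (r + 2) := by ring
    rw [e1, e2]
    have : (r + 1) * ((r + 2) ^ (e + 1) + 1) + 1 ≤ (r + 2) ^ (e + 1) * (r + 2) := by nlinarith
    omega
  have h6 : (r + 2 - 1) * ((r + 2) ^ (e + 1) + 1) ≤ (r + 2 - 1) * (a * m) := h3.trans (h1.trans h2)
  have h7 := Nat.le_of_mul_le_mul_left h6 (by omega)
  have e3 : e + 2 - 1 = e + 1 := by omega
  rw [e3]
  omega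

theorem numeric24 {p m d j : ℕ} (hp : 3 ≤ p) (hm : 1 ≤ m) (hd : 2 ≤ d) (hj : 1 ≤ j) (hjm : j ≤ m)
    (hdvd : (p ^ m) ^ d - 1 ∣ (p ^ m - 1) * 24 * j) :
    m = 1 ∧ d = 2 ∧ (p = 3 ∨ p = 5 ∨ p = 7 ∨ p = 11 ∨ p = 23) := by
  have hpm : p ≤ p ^ m := by
    calc p = p ^ 1 := (pow_one p).symm
      _ ≤ p ^ m := Nat.pow_le_pow_right (by omega) hm
  have h1 := numeric_aux (a := 24) (q := p ^ m) (by omega) hd hj hjm (by norm_num) hdvd
  have h2 : 3 ^ m < 24 * m := by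
    calc 3 ^ m ≤ p ^ m := Nat.pow_le_pow_left hp m
      _ = (p ^ m) ^ 1 := (pow_one _).symm
      _ ≤ (p ^ m) ^ (d - 1) := Nat.pow_le_pow_right (by omega) (by omega)
      _ < 24 * m := h1
  have hm5 : m < 5 := by
    by_contra hcon
    push Not at hcon
    have : ∀ n : ℕ, 5 ≤ n → 24 * n ≤ 3 ^ n := by
      intro n hn
      induction n, hn using Nat.le_induction with
      | base => norm_num
      | succ n hn ih => rw [pow_succ]; omega
    have := this m hcon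
    omega
  have hd6 : d < 6 := by
    by_contra hcon
    push Not at hcon
    have : 3 ^ 5 ≤ (p ^ m) ^ (d - 1) := by
      calc 3 ^ 5 ≤ (p ^ m) ^ 5 := Nat.pow_le_pow_left (by omega) 5
        _ ≤ (p ^ m) ^ (d - 1) := Nat.pow_le_pow_right (by omega) (by omega)
    omega
  have hp96 : p < 96 := by
    have : p ≤ (p ^ m) ^ (d - 1) := by
      calc p ≤ p ^ m := hpm
        _ = (p ^ m) ^ 1 := (pow_one _).symm
        _ ≤ (p ^ m) ^ (d - 1) := Nat.pow_le_pow_right (by omega) (by omega)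
    omega
  have key : ∀ (m : Fin 5) (d : Fin 6) (p : Fin 96) (j : Fin 5), (1 ≤ m.val ∧ 2 ≤ d.val ∧ 3 ≤ p.val ∧
      (p.val ^ m.val) ^ (d.val - 1) < 24 * m.val) →
      (1 ≤ j.val ∧ j.val ≤ m.val ∧
      (p.val ^ m.val) ^ d.val - 1 ∣ (p.val ^ m.val - 1) * 24 * j.val) →
      m.val = 1 ∧ d.val = 2 ∧ (p.val = 3 ∨ p.val = 5 ∨ p.val = 7 ∨ p.val = 11 ∨ p.val = 23) := by
    decide +kernel
  exact key ⟨m, hm5⟩ ⟨d, hd6⟩ ⟨p, hp96⟩ ⟨j, by omega⟩ ⟨hm, hd, hp, h1⟩ ⟨hj, hjm, hdvd⟩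

theorem numeric120 {p m d j : ℕ} (hp : 7 ≤ p) (hm : 1 ≤ m) (hd : 2 ≤ d) (hj : 1 ≤ j) (hjm : j ≤ m)
    (hdvd : (p ^ m) ^ d - 1 ∣ (p ^ m - 1) * 120 * j) (h120 : 120 ∣ (p ^ m) ^ d - 1) :
    m = 1 ∧ d = 2 ∧ (p = 11 ∨ p = 19 ∨ p = 29 ∨ p = 59 ∨ p = 119) := by
  have hpm : p ≤ p ^ m := by
    calc p = p ^ 1 := (pow_one p).symm
      _ ≤ p ^ m := Nat.pow_le_pow_right (by omega) hm
  have h1 := numeric_aux (a := 120) (q := p ^ m) (by omega) hd hj hjm (by norm_num) hdvd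
  have h2 : 7 ^ m < 120 * m := by
    calc 7 ^ m ≤ p ^ m := Nat.pow_le_pow_left hp m
      _ = (p ^ m) ^ 1 := (pow_one _).symm
      _ ≤ (p ^ m) ^ (d - 1) := Nat.pow_le_pow_right (by omega) (by omega)
      _ < 120 * m := h1
  have hm5 : m < 4 := by
    by_contra hcon
    push Not at hcon
    have : ∀ n : ℕ, 4 ≤ n → 120 * n ≤ 7 ^ n := by
      intro n hn
      induction n, hn using Nat.le_induction with
      | base => norm_num
      | succ n hn ih => rw [pow_succ]; omega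
    have := this m hcon
    omega
  have hd6 : d < 5 := by
    by_contra hcon
    push Not at hcon
    have : 7 ^ 4 ≤ (p ^ m) ^ (d - 1) := by
      calc 7 ^ 4 ≤ (p ^ m) ^ 4 := Nat.pow_le_pow_left (by omega) 4
        _ ≤ (p ^ m) ^ (d - 1) := Nat.pow_le_pow_right (by omega) (by omega)
    omega
  have hp96 : p < 360 := by
    have : p ≤ (p ^ m) ^ (d - 1) := by
      calc p ≤ p ^ m := hpm
        _ = (p ^ m) ^ 1 := (pow_one _).symm
        _ ≤ (p ^ m) ^ (d - 1) := Nat.pow_le_pow_right (by omega) (by omega)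
    omega
  have key : ∀ (m : Fin 4) (d : Fin 5) (p : Fin 360) (j : Fin 4), (1 ≤ m.val ∧ 2 ≤ d.val ∧ 7 ≤ p.val ∧
      (p.val ^ m.val) ^ (d.val - 1) < 120 * m.val) →
      (1 ≤ j.val ∧ j.val ≤ m.val ∧
      (p.val ^ m.val) ^ d.val - 1 ∣ (p.val ^ m.val - 1) * 120 * j.val ∧
      120 ∣ (p.val ^ m.val) ^ d.val - 1) →
      m.val = 1 ∧ d.val = 2 ∧ (p.val = 11 ∨ p.val = 19 ∨ p.val = 29 ∨ p.val = 59 ∨ p.val = 119) := by
    decide +kernel
  exact key ⟨m, hm5⟩ ⟨d, hd6⟩ ⟨p, hp96⟩ ⟨j, by omega⟩ ⟨hm, hd, hp, h1⟩ ⟨hj, hjm, hdvd, h120⟩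

end Cfsg.Agent.Lib.NFLin
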