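import Cfsg.Agent.Lib.NFCount
import Cfsg.Agent.Lib.QuatRec
import Mathlib.Tactic

/-!
Solvable linear groups regular on the non-zero vectors (helper12).
-/

set_option autoImplicit false

namespace Cfsg.Agent.Lib.NFSolv

open Cfsg.Agent.Lib.FrobAction Cfsg.Agent.Lib.RegLin Cfsg.Agent.Lib.NFStruct Cfsg.Agent.Lib.NFLin
  Cfsg.Agent.Lib.NFCount

variable {p : ℕ} [hp : Fact p.Prime] {V : Type*} [AddCommGroup V] [Module (ZMod p) V] [Finite V]
  {H : Subgroup (V ≃ₗ[ZMod p] V)}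

/-- counting when the normal subgroup is quaternion. -/
theorem count_quat (hreg : ∀ v w : V, v ≠ 0 → w ≠ 0 → ∃! h : H, (h : V ≃ₗ[ZMod p] V) v = w)
    (hVn : ∃ v : V, v ≠ 0) {A N : Subgroup H} {m d : ℕ} (hNn : N.Normal) (hm : 1 ≤ m) (hd : 2 ≤ d)
    (hV : Nat.card V = (p ^ m) ^ d) (hA : Nat.card A ∣ p ^ m - 1)
    (hH : Nat.card H + 1 = Nat.card V) (hidx : (Subgroup.centralizer (A : Set H)).index ≤ m)
    (hCC : Subgroup.centralizer (A : Set H) ⊓ Subgroup.centralizer (N : Set H) = A)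
    (e : N ≃* QuaternionGroup 2) :
    m = 1 ∧ d = 2 ∧ (p = 3 ∨ p = 5 ∨ p = 7 ∨ p = 11 ∨ p = 23) := by
  have hfin : Finite H := finite_H
  have hN8 : Nat.card N = 8 := by
    rw [Nat.card_congr e.toEquiv, Nat.card_eq_fintype_card, QuaternionGroup.card]
  have hp2 : p ≠ 2 := by
    intro h
    apply not_dvd_card_H (n := 8) hreg hVn (hN8 ▸ Subgroup.card_subgroup_dvd_card N)
    rw [h]; norm_num
  have hp3 : 3 ≤ p := by have := hp.out.two_le; omega
  have h24 : Nat.card (MulAut N) ∣ 24 := by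
    rw [Nat.card_congr (MulAut.congr e).toEquiv]
    exact NFQuat.dvd_card_mulAut_q8
  have h1 := dvd_of (p := p) (m := m) (d := d) hNn hV hA hH hCC h24
  have hj : 1 ≤ (Subgroup.centralizer (A : Set H)).index :=
    Nat.one_le_iff_ne_zero.mpr Subgroup.index_ne_zero_of_finite
  exact numeric24 hp3 hm hd hj hidx h1

/-- the case of order 9 does not occur. -/
theorem not_nine (hreg : ∀ v w : V, v ≠ 0 → w ≠ 0 → ∃! h : H, (h : V ≃ₗ[ZMod p] V) v = w)
    (hVn : ∃ v : V, v ≠ 0)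
    (hI : ∀ A : Subgroup H, A.Normal → IsCyclic A → ∃ W : Submodule (ZMod p) V, W ≠ ⊥ ∧ W ≠ ⊤ ∧
      ∀ a ∈ A, ∀ v ∈ W, ((a : H) : V ≃ₗ[ZMod p] V) v ∈ W)
    (N : Subgroup H) (e : N ≃* QuaternionGroup 2) (hV : Nat.card V = 9) : False := by
  have hfin : Finite H := finite_H
  have hH := card_H hreg hVn
  have hN8 : Nat.card N = 8 := by
    rw [Nat.card_congr e.toEquiv, Nat.card_eq_fintype_card, QuaternionGroup.card]
  have hNt : N = ⊤ := by
    apply Subgroup.eq_top_of_card_eq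
    omega
  let x : H := (e.symm (.a 1) : N)
  have hx : orderOf x = 4 := by
    have h1 : orderOf x = orderOf (e.symm (.a 1)) := by
      show orderOf ((e.symm (.a 1) : N) : H) = _
      rw [Subgroup.orderOf_coe]
    rw [h1, MulEquiv.orderOf_eq, QuaternionGroup.orderOf_a_one]
  have hB4 : Nat.card (Subgroup.zpowers x) = 4 := by rw [Nat.card_zpowers, hx]
  have hBn : (Subgroup.zpowers x).Normal := by
    apply Subgroup.normal_of_index_eq_two
    have := Subgroup.card_mul_index (Subgroup.zpowers x)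
    rw [hB4] at this
    omega
  have hBc : IsCyclic (Subgroup.zpowers x) := inferInstance
  obtain ⟨W, hWb, hWt, hW⟩ := hI _ hBn hBc
  have hBm : IsMulCommutative (Subgroup.zpowers x) := by
    rw [comm_iff]
    rintro _ ⟨i, rfl⟩ _ ⟨j, rfl⟩
    exact (Commute.zpow_zpow_self x i j)
  obtain ⟨m, d, hm, hE, hVd, hidx, hA, -, hd⟩ := data hreg hVn hBn hBm
  have hd2 := two_le_d hreg hVn hBn hBm hm hE hVd hWb hWt hW
  rw [hB4] at hA
  have hq : 1 < p ^ m := Nat.one_lt_pow (by omega) hp.out.one_lt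
  have h5 : 4 ≤ p ^ m - 1 := Nat.le_of_dvd (by omega) hA
  have h6 : (p ^ m) ^ 2 ≤ (p ^ m) ^ d := Nat.pow_le_pow_right (by omega) hd2
  rw [← hVd, hV] at h6
  have h7 : 5 ^ 2 ≤ (p ^ m) ^ 2 := Nat.pow_le_pow_left (by omega) 2
  omega

theorem degrees (hreg : ∀ v w : V, v ≠ 0 → w ≠ 0 → ∃! h : H, (h : V ≃ₗ[ZMod p] V) v = w)
    (hI : ∀ A : Subgroup H, A.Normal → IsCyclic A → ∃ W : Submodule (ZMod p) V, W ≠ ⊥ ∧ W ≠ ⊤ ∧
      ∀ a ∈ A, ∀ v ∈ W, ((a : H) : V ≃ₗ[ZMod p] V) v ∈ W) (hsolv : Group.IsSolvable H) :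
    Nat.card V = 25 ∨ Nat.card V = 49 ∨ Nat.card V = 121 ∨ Nat.card V = 529 := by
  have hfin : Finite H := finite_H
  have hVn := exists_ne_of_hI hI
  obtain ⟨A, hAn, hAc, hAmax⟩ := exists_max (G := H)
  obtain ⟨m, d, hm, hE, hV, hidx, hA, hH, -⟩ := data hreg hVn hAn hAc
  have hAcyc : IsCyclic A := cyclic hVn hAn (comm_iff.mp hAc) (trans_of hreg)
  obtain ⟨W, hWb, hWt, hW⟩ := hI A hAn hAcyc
  have hd := two_le_d hreg hVn hAn hAc hm hE hV hWb hWt hW
  have hCna := centralizer_not_comm hAc hAmax hAn hm hV hA hH hd hidx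
  have hCn : (Subgroup.centralizer (A : Set H)).Normal := inferInstance
  obtain ⟨N, hNn, hNle, hNna, hNmin⟩ := exists_min hCn hCna
  have hquat : ∀ N : Subgroup H, N.Normal → N ≤ Subgroup.centralizer (A : Set H) →
      ¬ IsMulCommutative N → (∀ M : Subgroup H, M.Normal → M ≤ N → ¬ IsMulCommutative M → M = N) →
      Nonempty (N ≃* QuaternionGroup 2) := fun N h1 h2 h3 h4 =>
    quat_of_solvable hreg hVn hAn hAc hAmax h1 h2 h3 h4 inferInstance
  have hCC := inf_centralizer (uniq_invol hreg hVn) hAn hAc hAmax hNn hNle hNna hNmin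
    (fun N h1 h2 h3 h4 => exists_four (Or.inl (hquat N h1 h2 h3 h4)))
  obtain ⟨e⟩ := hquat N hNn hNle hNna hNmin
  obtain ⟨rfl, rfl, hp5⟩ := count_quat hreg hVn hNn hm hd hV hA hH hidx hCC e
  rw [pow_one] at hV
  rcases hp5 with h | h | h | h | h
  · exact (not_nine hreg hVn hI N e (by rw [hV, h]; norm_num)).elim
  all_goals subst h; omega

end Cfsg.Agent.Lib.NFSolv
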