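import Cfsg.Agent.Lib.RegLin
import Cfsg.Agent.Lib.NFQuat
import Mathlib.LinearAlgebra.Matrix.SpecialLinearGroup
import Mathlib.Tactic

/-!
Linear groups regular on the non-zero vectors: minimal non-abelian normal subgroups (helper12).
-/

set_option autoImplicit false

namespace Cfsg.Agent.Lib.NFStruct

open Cfsg.Agent.Lib.FrobAction Cfsg.Agent.Lib.RegLin

section Abstract

variable {G : Type*} [Group G]

theorem comm_iff {N : Subgroup G} : IsMulCommutative N ↔ ∀ x ∈ N, ∀ y ∈ N, x * y = y * x := by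
  constructor
  · intro h x hx y hy
    exact congrArg Subtype.val (h.is_comm.comm (⟨x, hx⟩ : N) ⟨y, hy⟩)
  · intro h
    exact ⟨⟨fun x y => Subtype.ext (h x x.2 y y.2)⟩⟩

/-- proper characteristic subgroups of a minimal non-abelian normal subgroup centralising a maximal
normal abelian subgroup are contained in it. -/
theorem map_le_of_char {A N : Subgroup G} (hAn : A.Normal) (hAc : IsMulCommutative A)
    (hAmax : ∀ B : Subgroup G, B.Normal → IsMulCommutative B → A ≤ B → B = A) (hNn : N.Normal)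
    (hNle : N ≤ Subgroup.centralizer (A : Set G))
    (hNmin : ∀ M : Subgroup G, M.Normal → M ≤ N → ¬ IsMulCommutative M → M = N)
    (M : Subgroup N) (hM : M.Characteristic) (hMt : M ≠ ⊤) : M.map N.subtype ≤ A := by
  have hMn : (M.map N.subtype).Normal := inferInstance
  have hMle : M.map N.subtype ≤ N := Subgroup.map_subtype_le M
  have hMc : IsMulCommutative (M.map N.subtype) := by
    by_contra hno
    apply hMt
    rw [eq_top_iff]
    intro x _
    have := hNmin _ hMn hMle hno
    have hx : (x : G) ∈ M.map N.subtype := this.ge x.2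
    obtain ⟨y, hy, hyx⟩ := hx
    have : y = x := Subtype.ext hyx
    exact this ▸ hy
  have h1 : (M.map N.subtype) ⊔ A = A := by
    apply hAmax _ inferInstance _ le_sup_right
    rw [comm_iff]
    have hc1 := comm_iff.mp hMc
    have hc2 := comm_iff.mp hAc
    have hc3 : ∀ x ∈ M.map N.subtype, ∀ a ∈ A, x * a = a * x := fun x hx a ha =>
      (Subgroup.mem_centralizer_iff.mp (hNle (hMle hx)) a ha).symm
    intro x hx y hy
    obtain ⟨u, hu, a, ha, rfl⟩ := (Subgroup.mem_sup_of_normal_right).mp hx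
    obtain ⟨v, hv, b, hb, rfl⟩ := (Subgroup.mem_sup_of_normal_right).mp hy
    calc u * a * (v * b) = u * (a * v) * b := by group
      _ = u * (v * a) * b := by rw [hc3 v hv a ha]
      _ = (u * v) * (a * b) := by group
      _ = (v * u) * (b * a) := by rw [hc1 u hu v hv, hc2 a ha b hb]
      _ = v * (u * b) * a := by group
      _ = v * (b * u) * a := by rw [hc3 u hu b hb]
      _ = v * b * (u * a) := by group
  calc M.map N.subtype ≤ (M.map N.subtype) ⊔ A := le_sup_left
    _ = A := h1

theorem central_of_char {A N : Subgroup G} (hAn : A.Normal) (hAc : IsMulCommutative A)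
    (hAmax : ∀ B : Subgroup G, B.Normal → IsMulCommutative B → A ≤ B → B = A) (hNn : N.Normal)
    (hNle : N ≤ Subgroup.centralizer (A : Set G))
    (hNmin : ∀ M : Subgroup G, M.Normal → M ≤ N → ¬ IsMulCommutative M → M = N)
    (M : Subgroup N) (hM : M.Characteristic) (hMt : M ≠ ⊤) : M ≤ Subgroup.center N := by
  intro x hx
  rw [Subgroup.mem_center_iff]
  intro y
  have h1 : (x : G) ∈ A := map_le_of_char hAn hAc hAmax hNn hNle hNmin M hM hMt ⟨x, hx, rfl⟩
  exact Subtype.ext (Subgroup.mem_centralizer_iff.mp (hNle y.2) x h1).symm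

/-- existence of minimal non-abelian normal subgroups. -/
theorem exists_min [Finite G] {C : Subgroup G} (hCn : C.Normal) (hC : ¬ IsMulCommutative C) :
    ∃ N : Subgroup G, N.Normal ∧ N ≤ C ∧ ¬ IsMulCommutative N ∧
      ∀ M : Subgroup G, M.Normal → M ≤ N → ¬ IsMulCommutative M → M = N := by
  have hfin : {N : Subgroup G | N.Normal ∧ N ≤ C ∧ ¬ IsMulCommutative N}.Finite := Set.toFinite _
  obtain ⟨N, ⟨hN1, hN2, hN3⟩, hN4⟩ := hfin.exists_minimal ⟨C, hCn, le_refl C, hC⟩
  exact ⟨N, hN1, hN2, hN3, fun M hM1 hM2 hM3 => le_antisymm hM2 (hN4 ⟨hM1, hM2.trans hN2, hM3⟩ hM2)⟩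

/-- existence of maximal normal abelian subgroups. -/
theorem exists_max [Finite G] : ∃ A : Subgroup G, A.Normal ∧ IsMulCommutative A ∧
      ∀ B : Subgroup G, B.Normal → IsMulCommutative B → A ≤ B → B = A := by
  have hfin : {N : Subgroup G | N.Normal ∧ IsMulCommutative N}.Finite := Set.toFinite _
  obtain ⟨N, ⟨hN1, hN3⟩, hN4⟩ := hfin.exists_maximal ⟨⊥, inferInstance, inferInstance⟩
  exact ⟨N, hN1, hN3, fun M hM1 hM2 hM3 => le_antisymm (hN4 ⟨hM1, hM2⟩ hM3) hM3⟩

/-- the centraliser in `C(A)` of `N` is `A`. -/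
theorem inf_centralizer [Finite G] (huniq : ∀ s t : G, s * s = 1 → s ≠ 1 → t * t = 1 → t ≠ 1 → s = t)
    {A N : Subgroup G} (hAn : A.Normal) (hAc : IsMulCommutative A)
    (hAmax : ∀ B : Subgroup G, B.Normal → IsMulCommutative B → A ≤ B → B = A) (hNn : N.Normal)
    (hNle : N ≤ Subgroup.centralizer (A : Set G)) (hNna : ¬ IsMulCommutative N)
    (hNmin : ∀ M : Subgroup G, M.Normal → M ≤ N → ¬ IsMulCommutative M → M = N)
    (hP : ∀ N : Subgroup G, N.Normal → N ≤ Subgroup.centralizer (A : Set G) →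
      ¬ IsMulCommutative N → (∀ M : Subgroup G, M.Normal → M ≤ N → ¬ IsMulCommutative M → M = N) →
      ∃ u ∈ N, u * u ≠ 1 ∧ (u * u) * (u * u) = 1 ∧ ∃ w ∈ N, u * w ≠ w * u) :
    Subgroup.centralizer (A : Set G) ⊓ Subgroup.centralizer (N : Set G) = A := by
  have hAle : A ≤ Subgroup.centralizer (A : Set G) := by
    intro a ha
    rw [Subgroup.mem_centralizer_iff]
    intro b hb
    exact comm_iff.mp hAc b hb a ha
  have hAN : A ≤ Subgroup.centralizer (N : Set G) := by
    intro a ha
    rw [Subgroup.mem_centralizer_iff]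
    intro b hb
    exact (Subgroup.mem_centralizer_iff.mp (hNle hb) a ha).symm
  have hDn : (Subgroup.centralizer (A : Set G) ⊓ Subgroup.centralizer (N : Set G)).Normal := by
    have h1 : (Subgroup.centralizer (A : Set G)).Normal := inferInstance
    have h2 : (Subgroup.centralizer (N : Set G)).Normal := inferInstance
    infer_instance
  by_cases hc : IsMulCommutative
      (Subgroup.centralizer (A : Set G) ⊓ Subgroup.centralizer (N : Set G) : Subgroup G)
  · exact hAmax _ hDn hc (le_inf hAle hAN)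
  · exfalso
    obtain ⟨N₂, hN₂n, hN₂le, hN₂na, hN₂min⟩ := exists_min hDn hc
    obtain ⟨u, hu, hu2, hu4, w, hw, huw⟩ := hP N hNn hNle hNna hNmin
    obtain ⟨v, hv, hv2, hv4, -⟩ := hP N₂ hN₂n (hN₂le.trans inf_le_left) hN₂na hN₂min
    have hvN : ∀ x ∈ N, x * v = v * x := fun x hx =>
      Subgroup.mem_centralizer_iff.mp (inf_le_right (a := Subgroup.centralizer (A : Set G)) (hN₂le hv)) x hx
    have huv : u * u = v * v := huniq _ _ hu4 hu2 hv4 hv2
    have h1 : (u * v⁻¹) * (u * v⁻¹) = 1 := by
      have e1 : v⁻¹ * u = u * v⁻¹ := by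
        have := hvN u hu
        calc v⁻¹ * u = v⁻¹ * (u * v) * v⁻¹ := by group
          _ = v⁻¹ * (v * u) * v⁻¹ := by rw [this]
          _ = u * v⁻¹ := by group
      calc (u * v⁻¹) * (u * v⁻¹) = u * (v⁻¹ * u) * v⁻¹ := by group
        _ = u * (u * v⁻¹) * v⁻¹ := by rw [e1]
        _ = (u * u) * (v * v)⁻¹ := by group
        _ = 1 := by rw [huv, mul_inv_cancel]
    have h2 : u * v⁻¹ = 1 ∨ u * v⁻¹ = u * u := by
      by_cases h : u * v⁻¹ = 1
      · exact Or.inl h
      · exact Or.inr (huniq _ _ h1 h hu4 hu2)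
    apply huw
    rcases h2 with h2 | h2
    · have : u = v := by rw [← mul_inv_eq_one]; exact h2
      rw [this]; exact (hvN w hw).symm
    · have h3 : u = v⁻¹ := (mul_left_cancel h2).symm
      have := hvN w hw
      rw [h3]
      calc v⁻¹ * w = v⁻¹ * (w * v) * v⁻¹ := by group
          _ = v⁻¹ * (v * w) * v⁻¹ := by rw [this]
          _ = w * v⁻¹ := by group

/-- counting. -/
theorem card_dvd_mulAut [Finite G] {A N : Subgroup G} (hNn : N.Normal)
    (hCC : Subgroup.centralizer (A : Set G) ⊓ Subgroup.centralizer (N : Set G) = A) :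
    Nat.card (Subgroup.centralizer (A : Set G)) ∣ Nat.card A * Nat.card (MulAut N) := by
  classical
  have hfin : Finite (MulAut N) :=
    Finite.of_injective (fun f : MulAut N => (f : N → N)) DFunLike.coe_injective
  let C := Subgroup.centralizer (A : Set G)
  let f : C →* MulAut N := (MulAut.conjNormal (H := N)).comp C.subtype
  have hker : f.ker.map C.subtype = A := by
    rw [← hCC]
    ext x
    constructor
    · rintro ⟨y, hy, rfl⟩
      refine ⟨y.2, ?_⟩
      show (y : G) ∈ Subgroup.centralizer (N : Set G)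
      rw [Subgroup.mem_centralizer_iff]
      intro n hn
      have h1 := congrArg (fun g : MulAut N => ((g ⟨n, hn⟩ : N) : G)) (MonoidHom.mem_ker.mp hy)
      have h2 : (y : G) * n * (y : G)⁻¹ = n := by
        have h3 : ((f y ⟨n, hn⟩ : N) : G) = (y : G) * n * (y : G)⁻¹ :=
          MulAut.conjNormal_apply (y : G) (⟨n, hn⟩ : N)
        rw [← h3]; exact h1
      show n * (y : G) = (y : G) * n
      rw [mul_inv_eq_iff_eq_mul] at h2
      exact h2.symm
    · rintro ⟨hx1, hx2⟩
      refine ⟨⟨x, hx1⟩, ?_, rfl⟩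
      rw [SetLike.mem_coe, MonoidHom.mem_ker]
      ext n
      have h3 : ((f ⟨x, hx1⟩ n : N) : G) = x * n * x⁻¹ :=
          MulAut.conjNormal_apply x n
      rw [h3]
      have := Subgroup.mem_centralizer_iff.mp hx2 (n : G) n.2
      show x * n * x⁻¹ = (n : G)
      rw [← this]; group
  have h1 : Nat.card f.ker = Nat.card A := by
    rw [← hker]
    exact (Nat.card_congr (f.ker.equivMapOfInjective C.subtype C.subtype_injective).toEquiv)
  have h2 := Subgroup.card_mul_index f.ker
  rw [Subgroup.index_ker, h1] at h2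
  rw [← h2]
  exact Nat.mul_dvd_mul_left _ (Subgroup.card_subgroup_dvd_card _)

/-- the two groups have a non-central element of order 4. -/
theorem exists_four {N : Subgroup G} (h : Nonempty (N ≃* QuaternionGroup 2) ∨
    Nonempty (N ≃* Matrix.SpecialLinearGroup (Fin 2) (ZMod 5))) :
    ∃ u ∈ N, u * u ≠ 1 ∧ (u * u) * (u * u) = 1 ∧ ∃ w ∈ N, u * w ≠ w * u := by
  have key : ∀ {K : Type} [Group K] (e : N ≃* K) (x y : K), x * x ≠ 1 → (x * x) * (x * x) = 1 →
      x * y ≠ y * x → ∃ u ∈ N, u * u ≠ 1 ∧ (u * u) * (u * u) = 1 ∧ ∃ w ∈ N, u * w ≠ w * u := by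
    intro K _ e x y h1 h2 h3
    refine ⟨(e.symm x : N), (e.symm x).2, ?_, ?_, (e.symm y : N), (e.symm y).2, ?_⟩
    · intro h
      apply h1
      have : e.symm (x * x) = 1 := by rw [map_mul]; exact Subtype.ext h
      rwa [map_eq_one_iff e.symm e.symm.injective] at this
    · have : e.symm ((x * x) * (x * x)) = 1 := by rw [h2, map_one]
      rw [map_mul, map_mul] at this
      exact congrArg Subtype.val this
    · intro h
      apply h3
      apply e.symm.injective
      rw [map_mul, map_mul]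
      exact Subtype.ext h
  rcases h with ⟨⟨e⟩⟩ | ⟨⟨e⟩⟩
  · exact key e (.a 1) (.xa 0) (by decide) (by decide) (by decide)
  · refine key e ⟨!![0, 1; -1, 0], by simp [Matrix.det_fin_two]⟩ ⟨!![1, 1; 0, 1], by simp [Matrix.det_fin_two]⟩ ?_ ?_ ?_
    · intro h
      exact absurd (congrArg Subtype.val h) (by decide)
    · apply Subtype.ext
      show (_ : Matrix (Fin 2) (Fin 2) (ZMod 5)) = _
      decide
    · intro h
      exact absurd (congrArg Subtype.val h) (by decide)

end Abstract

end Cfsg.Agent.Lib.NFStruct
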