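import Cfsg.Agent.Lib.NFSolv
import Cfsg.Agent.Lib.KleinAut
import Cfsg.Agent.Lib.ClSmall
import Cfsg.Agent.Lib.AutAlt
import Cfsg.Agent.Lib.FrobFinal
import Mathlib.Tactic

/-!
Automorphisms of `SL(2,5)`, minimal non-abelian normal subgroups in near-field groups (helper12).
-/

set_option autoImplicit false

namespace Cfsg.Agent.Lib.NFZas

open Cfsg.Agent.Lib.FrobAction Cfsg.Agent.Lib.RegLin Cfsg.Agent.Lib.NFStruct Cfsg.Agent.Lib.NFLin
  Cfsg.Agent.Lib.NFCount Cfsg.Agent.Lib.NFSolv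

theorem perfect_SL25 : commutator (Matrix.SpecialLinearGroup (Fin 2) (ZMod 5)) = ⊤ := by
  have h1 : (2 : ZMod 5) ≠ 0 := by decide
  have h2 : (2 : ZMod 5) ^ 2 ≠ 1 := by decide
  have : Fact (Nat.Prime 5) := ⟨by norm_num⟩
  exact ClSLn.commutator_SL_eq_top' (fun _ => ⟨2, h1, h2⟩)

/-- automorphisms of perfect groups act faithfully on the central quotient. -/
theorem quotAut_injective {G : Type*} [Group G] (hp : commutator G = ⊤) :
    Function.Injective (KleinAut.quotAut G) := by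
  rw [injective_iff_map_eq_one]
  intro α hα
  rw [KleinAut.quotAut_eq_one_iff] at hα
  have hz : ∀ g h : G, (g⁻¹ * α g) * h = h * (g⁻¹ * α g) := fun g h =>
    (Subgroup.mem_center_iff.mp (hα g) h).symm
  let ζ : G →* Subgroup.center G :=
    { toFun := fun g => ⟨g⁻¹ * α g, hα g⟩
      map_one' := by apply Subtype.ext; simp
      map_mul' := fun g h => by
        apply Subtype.ext
        show (g * h)⁻¹ * α (g * h) = (g⁻¹ * α g) * (h⁻¹ * α h)
        calc (g * h)⁻¹ * α (g * h) = h⁻¹ * (g⁻¹ * α g) * α h := by rw [map_mul]; group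
          _ = h⁻¹ * ((g⁻¹ * α g) * α h) := by group
          _ = h⁻¹ * (α h * (g⁻¹ * α g)) := by rw [hz g (α h)]
          _ = (h⁻¹ * α h) * (g⁻¹ * α g) := by group
          _ = (g⁻¹ * α g) * (h⁻¹ * α h) := (hz g _).symm }
  have hker : ζ.ker = ⊤ := by
    rw [eq_top_iff, ← hp, commutator_def, Subgroup.commutator_le]
    intro x _ y _
    rw [MonoidHom.mem_ker, map_commutatorElement, commutatorElement_eq_one_iff_mul_comm]
    exact Subtype.ext (hz x (ζ y : G))
  ext g
  have h1 : g ∈ ζ.ker := hker ▸ Subgroup.mem_top g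
  have h2 : g⁻¹ * α g = 1 := congrArg Subtype.val (MonoidHom.mem_ker.mp h1)
  exact (inv_mul_eq_one.mp h2).symm

theorem card_mulAut_A5 : Nat.card (MulAut (alternatingGroup (Fin 5))) = 120 := by
  have h1 := AutAlt.bijective_conjNormal (α := Fin 5) (by decide) (by decide)
  rw [← Nat.card_eq_of_bijective _ h1, Nat.card_eq_fintype_card, Fintype.card_perm, Fintype.card_fin]
  rfl

theorem card_mulAut_SL25 : Nat.card (MulAut (Matrix.SpecialLinearGroup (Fin 2) (ZMod 5))) ∣ 120 := by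
  have : Fact (Nat.Prime 5) := ⟨by norm_num⟩
  obtain ⟨e⟩ := ClSmall.psl2_five (F := ZMod 5) (by rw [ZMod.card])
  have h1 := Subgroup.card_dvd_of_injective _ (quotAut_injective perfect_SL25)
  rw [← card_mulAut_A5, ← Nat.card_congr (MulAut.congr e).toEquiv]
  exact h1

variable {p : ℕ} [hp : Fact p.Prime] {V : Type*} [AddCommGroup V] [Module (ZMod p) V] [Finite V]
  {H : Subgroup (V ≃ₗ[ZMod p] V)}

/-- minimal non-abelian normal subgroups. -/
theorem dichotomy (hreg : ∀ v w : V, v ≠ 0 → w ≠ 0 → ∃! h : H, (h : V ≃ₗ[ZMod p] V) v = w)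
    (hVn : ∃ v : V, v ≠ 0) {A N : Subgroup H} (hAn : A.Normal) (hAc : IsMulCommutative A)
    (hAmax : ∀ B : Subgroup H, B.Normal → IsMulCommutative B → A ≤ B → B = A) (hNn : N.Normal)
    (hNle : N ≤ Subgroup.centralizer (A : Set H)) (hNna : ¬ IsMulCommutative N)
    (hNmin : ∀ M : Subgroup H, M.Normal → M ≤ N → ¬ IsMulCommutative M → M = N) :
    Nonempty (N ≃* QuaternionGroup 2) ∨
      Nonempty (N ≃* Matrix.SpecialLinearGroup (Fin 2) (ZMod 5)) := by
  by_cases hs : Group.IsSolvable N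
  · exact Or.inl (quat_of_solvable hreg hVn hAn hAc hAmax hNn hNle hNna hNmin hs)
  · right
    have hfin : Finite H := finite_H
    have hp : commutator N = ⊤ := by
      by_contra hne
      apply hs
      have h1 := central_of_char hAn hAc hAmax hNn hNle hNmin (commutator N) inferInstance hne
      have : Group.IsNilpotent N := by
        apply Subgroup.isNilpotent_of_ker_le_center (Abelianization.of (G := N))
        rw [Abelianization.ker_of]
        exact h1
      infer_instance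
    have hNnt : Nontrivial N := by
      by_contra h
      rw [not_nontrivial_iff_subsingleton] at h
      exact hNna ⟨⟨fun a b => Subsingleton.elim _ _⟩⟩
    obtain ⟨v, hv⟩ := hVn
    have hVnt : Nontrivial V := ⟨v, 0, hv⟩
    have hVnt' : Nontrivial (Multiplicative V) := inferInstance
    exact FrobFinal.perfect (FrobExist.of_action _ (isFPF_sub (fpf hreg) N)) hp

/-- counting when the normal subgroup is `SL(2,5)`. -/
theorem count_SL25 (hreg : ∀ v w : V, v ≠ 0 → w ≠ 0 → ∃! h : H, (h : V ≃ₗ[ZMod p] V) v = w)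
    (hVn : ∃ v : V, v ≠ 0) {A N : Subgroup H} {m d : ℕ} (hNn : N.Normal) (hm : 1 ≤ m) (hd : 2 ≤ d)
    (hV : Nat.card V = (p ^ m) ^ d) (hA : Nat.card A ∣ p ^ m - 1)
    (hH : Nat.card H + 1 = Nat.card V) (hidx : (Subgroup.centralizer (A : Set H)).index ≤ m)
    (hCC : Subgroup.centralizer (A : Set H) ⊓ Subgroup.centralizer (N : Set H) = A)
    (e : N ≃* Matrix.SpecialLinearGroup (Fin 2) (ZMod 5)) :
    m = 1 ∧ d = 2 ∧ (p = 11 ∨ p = 19 ∨ p = 29 ∨ p = 59) := by
  have hfin : Finite H := finite_H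
  have hN8 : Nat.card N = 120 := by
    have : Fact (Nat.Prime 5) := ⟨by norm_num⟩
    rw [Nat.card_congr e.toEquiv, ClSL2.card_SL2 (q := 5) (by rw [ZMod.card])]
    norm_num
  have hNdvd : 120 ∣ Nat.card H := hN8 ▸ Subgroup.card_subgroup_dvd_card N
  have hpn : ¬ p ∣ 120 := not_dvd_card_H hreg hVn hNdvd
  have hp3 : 7 ≤ p := by
    by_contra hlt
    push Not at hlt
    have h0 := hp.out.two_le
    interval_cases p
    · exact hpn (by norm_num)
    · exact hpn (by norm_num)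
    · exact absurd hp.out (by norm_num)
    · exact hpn (by norm_num)
    · exact absurd hp.out (by norm_num)
  have h24 : Nat.card (MulAut N) ∣ 120 := by
    rw [Nat.card_congr (MulAut.congr e).toEquiv]
    exact card_mulAut_SL25
  have h1 := dvd_of (p := p) (m := m) (d := d) hNn hV hA hH hCC h24
  have hj : 1 ≤ (Subgroup.centralizer (A : Set H)).index :=
    Nat.one_le_iff_ne_zero.mpr Subgroup.index_ne_zero_of_finite
  have h2 : (p ^ m) ^ d - 1 = Nat.card H := by omega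
  obtain ⟨h3, h4, h5⟩ := numeric120 hp3 hm hd hj hidx h1 (by rw [h2]; exact hNdvd)
  refine ⟨h3, h4, ?_⟩
  rcases h5 with h | h | h | h | h
  · exact Or.inl h
  · exact Or.inr (Or.inl h)
  · exact Or.inr (Or.inr (Or.inl h))
  · exact Or.inr (Or.inr (Or.inr h))
  · subst h; exact absurd hp.out (by norm_num)

/-- classification of the situation with a reducible maximal normal abelian subgroup. -/
theorem main (hreg : ∀ v w : V, v ≠ 0 → w ≠ 0 → ∃! h : H, (h : V ≃ₗ[ZMod p] V) v = w)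
    (hVn : ∃ v : V, v ≠ 0) {A N : Subgroup H} {m d : ℕ} (hAn : A.Normal) (hAc : IsMulCommutative A)
    (hAmax : ∀ B : Subgroup H, B.Normal → IsMulCommutative B → A ≤ B → B = A) (hNn : N.Normal)
    (hNle : N ≤ Subgroup.centralizer (A : Set H)) (hNna : ¬ IsMulCommutative N)
    (hNmin : ∀ M : Subgroup H, M.Normal → M ≤ N → ¬ IsMulCommutative M → M = N)
    (hm : 1 ≤ m) (hd : 2 ≤ d)
    (hV : Nat.card V = (p ^ m) ^ d) (hA : Nat.card A ∣ p ^ m - 1)
    (hH : Nat.card H + 1 = Nat.card V) (hidx : (Subgroup.centralizer (A : Set H)).index ≤ m) :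
    Nat.card V = p ^ 2 ∧ Nat.card A ∣ p - 1 ∧ Subgroup.centralizer (A : Set H) = ⊤ ∧
      Subgroup.centralizer (N : Set H) = A ∧
      (Nonempty (N ≃* QuaternionGroup 2) ∨
        (Nonempty (N ≃* Matrix.SpecialLinearGroup (Fin 2) (ZMod 5)) ∧
          (p = 11 ∨ p = 19 ∨ p = 29 ∨ p = 59))) := by
  have hfin : Finite H := finite_H
  have hdich : ∀ N : Subgroup H, N.Normal → N ≤ Subgroup.centralizer (A : Set H) →
      ¬ IsMulCommutative N → (∀ M : Subgroup H, M.Normal → M ≤ N → ¬ IsMulCommutative M → M = N) →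
      Nonempty (N ≃* QuaternionGroup 2) ∨
        Nonempty (N ≃* Matrix.SpecialLinearGroup (Fin 2) (ZMod 5)) := fun N h1 h2 h3 h4 =>
    dichotomy hreg hVn hAn hAc hAmax h1 h2 h3 h4
  have hCC := inf_centralizer (uniq_invol hreg hVn) hAn hAc hAmax hNn hNle hNna hNmin
    (fun N h1 h2 h3 h4 => exists_four (hdich N h1 h2 h3 h4))
  have key : m = 1 ∧ d = 2 ∧ (Nonempty (N ≃* QuaternionGroup 2) ∨
        (Nonempty (N ≃* Matrix.SpecialLinearGroup (Fin 2) (ZMod 5)) ∧
          (p = 11 ∨ p = 19 ∨ p = 29 ∨ p = 59))) := by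
    rcases hdich N hNn hNle hNna hNmin with ⟨⟨e⟩⟩ | ⟨⟨e⟩⟩
    · obtain ⟨h1, h2, -⟩ := count_quat hreg hVn hNn hm hd hV hA hH hidx hCC e
      exact ⟨h1, h2, Or.inl ⟨e⟩⟩
    · obtain ⟨h1, h2, h3⟩ := count_SL25 hreg hVn hNn hm hd hV hA hH hidx hCC e
      exact ⟨h1, h2, Or.inr ⟨⟨e⟩, h3⟩⟩
  obtain ⟨rfl, rfl, h3⟩ := key
  rw [pow_one] at hV hA
  have hC : Subgroup.centralizer (A : Set H) = ⊤ := by
    rw [← Subgroup.index_eq_one]
    have : (Subgroup.centralizer (A : Set H)).index ≠ 0 := Subgroup.index_ne_zero_of_finite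
    omega
  refine ⟨hV, hA, hC, ?_, h3⟩
  rw [hC, top_inf_eq] at hCC
  exact hCC

/-- in a regular linear group of degree `p^2` non-abelian subgroups are irreducible. -/
theorem irreducible (hreg : ∀ v w : V, v ≠ 0 → w ≠ 0 → ∃! h : H, (h : V ≃ₗ[ZMod p] V) v = w)
    {N : Subgroup H} (hNna : ¬ IsMulCommutative N) (hV : Nat.card V = p ^ 2)
    (W : Submodule (ZMod p) V) (hW : ∀ n ∈ N, ∀ v ∈ W, ((n : H) : V ≃ₗ[ZMod p] V) v ∈ W) :
    W = ⊥ ∨ W = ⊤ := by
  by_contra hcon
  push Not at hcon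
  obtain ⟨hWb, hWt⟩ := hcon
  have h1 := Module.natCard_eq_pow_finrank (K := ZMod p) (V := V)
  rw [Nat.card_zmod, hV] at h1
  have hV2 : Module.finrank (ZMod p) V = 2 := (Nat.pow_right_injective hp.out.two_le h1).symm
  have hlt := Submodule.finrank_lt (s := W) hWt
  have hpos : 0 < Module.finrank (ZMod p) W := by
    rw [Module.finrank_pos_iff]
    exact (Submodule.nontrivial_iff_ne_bot).mpr hWb
  have hW1 : Module.finrank (ZMod p) W = 1 := by omega
  obtain ⟨w, hw, hw0⟩ := Submodule.exists_mem_ne_zero_of_ne_bot hWb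
  have hgen : ∀ u ∈ W, ∃ c : ZMod p, c • w = u := by
    intro u hu
    obtain ⟨c, hc⟩ := (finrank_eq_one_iff_of_nonzero' (⟨w, hw⟩ : W)
      (fun h => hw0 (congrArg Subtype.val h))).mp hW1 ⟨u, hu⟩
    exact ⟨c, congrArg Subtype.val hc⟩
  apply hNna
  rw [comm_iff]
  intro x hx y hy
  obtain ⟨c, hc⟩ := hgen _ (hW x hx w hw)
  obtain ⟨c', hc'⟩ := hgen _ (hW y hy w hw)
  have h2 : ((x * y : H) : V ≃ₗ[ZMod p] V) w = (c' * c) • w := by
    show (x : V ≃ₗ[ZMod p] V) ((y : V ≃ₗ[ZMod p] V) w) = _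
    rw [← hc', map_smul, ← hc, smul_smul]
  have h3 : ((y * x : H) : V ≃ₗ[ZMod p] V) w = (c' * c) • w := by
    show (y : V ≃ₗ[ZMod p] V) ((x : V ≃ₗ[ZMod p] V) w) = _
    rw [← hc, map_smul, ← hc', smul_smul, mul_comm]
  have h4 : (c' * c) • w ≠ 0 := by
    rw [← h2]
    intro h0
    apply hw0
    have := congrArg ((x * y : H) : V ≃ₗ[ZMod p] V).symm h0
    rwa [LinearEquiv.symm_apply_apply, map_zero] at this
  exact (hreg w _ hw0 h4).unique h2 h3

end Cfsg.Agent.Lib.NFZas
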