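import Cfsg.Agent.Lib.NPartB
import Cfsg.Agent.Lib.DihBSW
import Cfsg.Agent.Lib.NFInsol

/-!
# Partitioned groups with dihedral Sylow 2-subgroups (for S4248, part C): local structure
-/

set_option autoImplicit false
set_option maxHeartbeats 400000

namespace Cfsg.Agent.Lib.NPartC62

open Subgroup NPartB

universe u

variable {G : Type u} [Group G]

/-- an abelian `2`-group with a single involution is cyclic -/
theorem exists_gen [Finite G] {A : Subgroup G} (hA : IsPGroup 2 A)
    (hcomm : ∀ x ∈ A, ∀ y ∈ A, x * y = y * x) {z : G} (hz : orderOf z = 2) (hzA : z ∈ A)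
    (huniq : ∀ x ∈ A, x ^ 2 = 1 → x = 1 ∨ x = z) : ∃ r ∈ A, A = zpowers r := by
  classical
  obtain ⟨r, hr⟩ := Finite.exists_max (fun a : A => orderOf (a : G))
  refine ⟨r, r.2, le_antisymm ?_ (by rw [zpowers_le]; exact r.2)⟩
  have hpow : ∀ x ∈ A, ∃ k : ℕ, orderOf x = 2 ^ k := by
    intro x hx
    obtain ⟨k, hk⟩ := (IsPGroup.iff_orderOf.1 hA) ⟨x, hx⟩
    exact ⟨k, by rw [← Subgroup.orderOf_mk x hx]; exact hk⟩
  obtain ⟨n, hn⟩ := hpow r r.2
  have hn1 : 1 ≤ n := by
    by_contra h0
    have h1 : n = 0 := by omega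
    have h2 := hr ⟨z, hzA⟩
    simp only [hn, h1, hz] at h2
    omega
  obtain ⟨m, rfl⟩ : ∃ m, n = m + 1 := ⟨n - 1, by omega⟩
  have hzr : z ∈ zpowers (r : G) := by
    have h1 : ((r : G) ^ 2 ^ m) ^ 2 = 1 := by
      rw [← pow_mul, ← pow_succ, ← hn]; exact pow_orderOf_eq_one _
    rcases huniq _ (pow_mem r.2 _) h1 with h2 | h2
    · have h3 := orderOf_dvd_of_pow_eq_one h2
      rw [hn] at h3
      have := (Nat.pow_dvd_pow_iff_le_right (by norm_num : 1 < 2)).1 h3
      omega
    · rw [← h2]; exact pow_mem (mem_zpowers _) _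
  have key : ∀ k : ℕ, ∀ x ∈ A, x ^ 2 ^ k = 1 → x ∈ zpowers (r : G) := by
    intro k
    induction k with
    | zero =>
      intro x _ h1
      rw [pow_zero, pow_one] at h1
      rw [h1]; exact one_mem _
    | succ k ih =>
      intro x hx h1
      have h2 : x ^ 2 ∈ zpowers (r : G) := by
        apply ih _ (pow_mem hx _)
        rw [← pow_mul, ← pow_succ']; exact h1
      obtain ⟨i, hi⟩ := mem_zpowers_iff.1 h2
      rcases Int.even_or_odd' i with ⟨j, hj | hj⟩
      · have h3 : (x * ((r : G) ^ j)⁻¹) ^ 2 = 1 := by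
          have hc : Commute x (((r : G) ^ j)⁻¹) :=
            hcomm x hx _ (inv_mem (zpow_mem r.2 j))
          rw [hc.mul_pow, ← hi, hj, inv_pow, ← zpow_natCast ((r : G) ^ j), ← zpow_mul]
          rw [show j * ((2 : ℕ) : ℤ) = 2 * j by push_cast; ring, mul_inv_cancel]
        have h4 : x = x * ((r : G) ^ j)⁻¹ * (r : G) ^ j := by group
        rcases huniq _ (mul_mem hx (inv_mem (zpow_mem r.2 j))) h3 with h5 | h5
        · rw [h4, h5, one_mul]; exact zpow_mem (mem_zpowers _) _
        · rw [h4, h5]; exact mul_mem hzr (zpow_mem (mem_zpowers _) _)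
      · exfalso
        have h3 : orderOf (x ^ 2) = 2 ^ (m + 1) := by
          rw [← hi, hj]
          obtain ⟨c, hc⟩ := hpow (x ^ 2) (pow_mem hx _)
          rw [← hi, hj] at hc
          apply Nat.dvd_antisymm
          · rw [← hn]
            exact orderOf_dvd_of_mem_zpowers (zpow_mem (mem_zpowers _) _)
          · rw [hc]
            have h6 : (r : G) ^ ((2 * j + 1) * (2 ^ c : ℕ)) = 1 := by
              rw [zpow_mul, zpow_natCast, ← hc]
              exact pow_orderOf_eq_one _
            rw [← orderOf_dvd_iff_zpow_eq_one, hn] at h6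
            have h7 : IsCoprime (((2 ^ (m + 1) : ℕ) : ℤ)) (2 * j + 1) := by
              push_cast
              apply IsCoprime.pow_left
              exact ⟨-j, 1, by ring⟩
            have h8 := h7.dvd_of_dvd_mul_left h6
            exact_mod_cast h8
        have h4 := orderOf_pow x (n := 2)
        obtain ⟨c, hc⟩ := hpow x hx
        have h5 := hr ⟨x, hx⟩
        simp only [hn] at h5
        rcases Nat.eq_zero_or_pos c with h6 | h6
        · rw [h6, pow_zero] at hc
          rw [orderOf_eq_one_iff.1 hc, one_pow, orderOf_one] at h3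
          have : 1 < 2 ^ (m + 1) := Nat.one_lt_two_pow (by omega)
          omega
        · have h7 : Nat.gcd (orderOf x) 2 = 2 := by
            rw [hc]
            exact Nat.gcd_eq_right (dvd_pow_self 2 h6.ne')
          rw [h7, h3] at h4
          have h8 : 2 ∣ orderOf x := by rw [hc]; exact dvd_pow_self 2 h6.ne'
          have h9 := Nat.div_mul_cancel h8
          rw [← h4] at h9
          have : 0 < 2 ^ (m + 1) := by positivity
          omega
  intro x hx
  obtain ⟨k, hk⟩ := hpow x hx
  exact key k x hx (by rw [← hk]; exact pow_orderOf_eq_one x)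

variable [Finite G] {X : G → Subgroup G}

/-- the centralizer of an involution whose component is not elementary abelian -/
theorem cent_cases (h : NP X) {z t c : G} (hz : orderOf z = 2) (htz : t * z = z * t)
    (htX : t ∉ X z) (hc : c * z = z * c) (hx : ∃ x ∈ X z, x ^ 2 ≠ 1) : c ∈ X z ∨ c * t ∈ X z := by
  by_contra hcon
  push Not at hcon
  obtain ⟨x, hxX, hx2⟩ := hx
  obtain ⟨-, h1⟩ := inv_of_comm h hz hc hcon.1
  obtain ⟨-, h2⟩ := inv_of_comm h hz htz htX
  have hct : (c * t) * z = z * (c * t) := by rw [mul_assoc, htz, ← mul_assoc, hc, mul_assoc]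
  obtain ⟨-, h3⟩ := inv_of_comm h hz hct hcon.2
  have h4 := h3 x hxX
  have h5 : c * t * x * (c * t)⁻¹ = c * (t * x * t⁻¹) * c⁻¹ := by group
  rw [h5, h2 x hxX, h1 _ (inv_mem hxX), inv_inv] at h4
  apply hx2
  rw [pow_two]
  nth_rewrite 2 [h4]
  exact mul_inv_cancel x

/-- the local situation of the dihedral case -/
structure Dih (X : G → Subgroup G) (z t : G) : Prop where
  np : NP X
  hz : orderOf z = 2
  comm : ∀ x ∈ X z, ∀ y ∈ X z, x * y = y * x
  uniq : ∀ x ∈ X z, x ^ 2 = 1 → x = 1 ∨ x = z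
  ex : ∃ x ∈ X z, x ^ 2 ≠ 1
  ht : orderOf t = 2
  tY : t ∉ X z
  inv : ∀ x ∈ X z, t * x * t⁻¹ = x⁻¹
  C : centralizer ({z} : Set G) = X z ⊔ zpowers t
  N : normalizer (X z : Set G) = centralizer ({z} : Set G)

namespace Dih

variable {z t : G}

omit [Finite G] in
theorem t_inv (hd : Dih X z t) : t⁻¹ = t := inv_eq_of_mul_eq_one_left (sq hd.ht)

omit [Finite G] in
theorem z_inv (hd : Dih X z t) : z⁻¹ = z := inv_eq_of_mul_eq_one_left (sq hd.hz)

omit [Finite G] in
theorem tz (hd : Dih X z t) : t * z = z * t := by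
  have h1 := hd.inv z (hd.np.mem z)
  rw [hd.z_inv] at h1
  nth_rewrite 2 [← h1]
  group

omit [Finite G] in
theorem Y_le (hd : Dih X z t) : X z ≤ centralizer ({z} : Set G) := by
  rw [hd.C]; exact le_sup_left

theorem mem_C (hd : Dih X z t) {c : G} (hc : c * z = z * c) : c ∈ X z ∨ c * t ∈ X z :=
  cent_cases hd.np hd.hz hd.tz hd.tY hc hd.ex

omit [Finite G] in
theorem mul_t_order (hd : Dih X z t) {y : G} (hy : y ∈ X z) : orderOf (y * t) = 2 := by
  apply orderOf_eq_prime
  · have h1 := hd.inv y hy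
    rw [hd.t_inv] at h1
    calc (y * t) ^ 2 = y * (t * y * t) := by rw [pow_two]; group
      _ = 1 := by rw [h1, mul_inv_cancel]
  · intro h1
    apply hd.tY
    have : t = y⁻¹ := eq_inv_of_mul_eq_one_right h1
    rw [this]; exact inv_mem hy

omit [Finite G] in
theorem mul_t_not_mem (hd : Dih X z t) {y : G} (hy : y ∈ X z) : y * t ∉ X z := by
  intro h1
  apply hd.tY
  have := mul_mem (inv_mem hy) h1
  rwa [inv_mul_cancel_left] at this

/-- another choice of `t` -/
theorem change (hd : Dih X z t) {y : G} (hy : y ∈ X z) : Dih X z (y * t) := by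
  have hzt' : (y * t) * z = z * (y * t) := by
    rw [mul_assoc, hd.tz, ← mul_assoc, hd.comm y hy z (hd.np.mem z), mul_assoc]
  have hmem : y * t ∈ centralizer ({z} : Set G) := mem_centralizer_singleton_iff.2 hzt'
  refine { hd with
    ht := hd.mul_t_order hy
    tY := hd.mul_t_not_mem hy
    inv := ?_
    C := ?_ }
  · intro x hx
    have h1 : y * t * x * (y * t)⁻¹ = y * (t * x * t⁻¹) * y⁻¹ := by group
    rw [h1, hd.inv x hx, hd.comm y hy _ (inv_mem hx)]; group
  · apply le_antisymm
    · intro c hc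
      rcases cent_cases hd.np hd.hz hzt' (hd.mul_t_not_mem hy)
        (mem_centralizer_singleton_iff.1 hc) hd.ex with h1 | h1
      · exact mem_sup_left h1
      · have h2 : c = (c * (y * t)) * (y * t) := by
          rw [mul_assoc, sq (hd.mul_t_order hy), mul_one]
        rw [h2]
        exact mul_mem (mem_sup_left h1) (mem_sup_right (mem_zpowers _))
    · rw [sup_le_iff, zpowers_le]
      exact ⟨hd.Y_le, hmem⟩

end Dih

end Cfsg.Agent.Lib.NPartC62
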