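import Cfsg.Agent.Lib.NPartC62a

/-!
# Partitioned groups with dihedral Sylow 2-subgroups (for S4248, part C): classes of involutions
-/

set_option autoImplicit false
set_option maxHeartbeats 400000

namespace Cfsg.Agent.Lib.NPartC62

open Subgroup NPartB

universe u

variable {G : Type u} [Group G] [Finite G] {X : G → Subgroup G}

namespace Dih

variable {z t : G}

theorem exists_dh (hd : Dih X z t) (T : Sylow 2 G) (htT : t ∈ (T : Subgroup G))
    (hzT : z ∈ (T : Subgroup G)) (hTC : (T : Subgroup G) ≤ centralizer ({z} : Set G)) :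
    ∃ (r : G) (q n : ℕ), DihSylow.DH (T : Subgroup G) r t q n ∧ r ∈ X z ∧ r ^ (q : ℤ) = z := by
  set A := (T : Subgroup G) ⊓ X z with hAdef
  have hzA : z ∈ A := ⟨hzT, hd.np.mem z⟩
  have hA2 : IsPGroup 2 A := T.isPGroup'.to_le inf_le_left
  obtain ⟨r, hrA, hr⟩ := exists_gen hA2 (fun x hx y hy => hd.comm x hx.2 y hy.2) hd.hz hzA
    (fun x hx => hd.uniq x hx.2)
  obtain ⟨k, hk⟩ := (IsPGroup.iff_orderOf.1 hA2) ⟨r, hrA⟩
  rw [Subgroup.orderOf_mk] at hk
  have hk1 : 1 ≤ k := by
    by_contra h0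
    have h1 : k = 0 := by omega
    rw [h1, pow_zero, orderOf_eq_one_iff] at hk
    rw [hr, hk, zpowers_one_eq_bot, mem_bot] at hzA
    exact ne_one hd.hz hzA
  obtain ⟨n, rfl⟩ : ∃ n, k = n + 1 := ⟨k - 1, by omega⟩
  have hrel : A.relIndex (T : Subgroup G) = 2 := by
    rw [relIndex_eq_two_iff]
    refine ⟨t, htT, fun b hb => ?_⟩
    have h1 : b * z = z * b := mem_centralizer_singleton_iff.1 (hTC hb)
    rcases hd.mem_C h1 with h2 | h2
    · right
      refine ⟨⟨hb, h2⟩, fun h3 => ?_⟩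
      exact hd.mul_t_not_mem h2 h3.2
    · left
      refine ⟨⟨mul_mem hb htT, h2⟩, fun h3 => ?_⟩
      exact hd.mul_t_not_mem h3.2 h2
  have hcard : Nat.card (T : Subgroup G) = 4 * 2 ^ n := by
    have h1 := (A.subgroupOf (T : Subgroup G)).card_mul_index
    have h2 : (A.subgroupOf (T : Subgroup G)).index = 2 := hrel
    have h3 : Nat.card (A.subgroupOf (T : Subgroup G)) = 2 ^ (n + 1) := by
      have h4 : Nat.card (A.subgroupOf (T : Subgroup G)) = Nat.card A :=
        Nat.card_congr (Subgroup.subgroupOfEquivOfLe (inf_le_left : A ≤ (T : Subgroup G))).toEquiv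
      rw [h4, hr, Nat.card_zpowers, hk]
    rw [h2, h3] at h1
    rw [← h1, pow_succ]; ring
  refine ⟨r, 2 ^ n, n, ⟨rfl, hcard, hrA.1, htT, by rw [hk, pow_succ'], sq hd.ht,
    hd.inv r hrA.2, ?_⟩, hrA.2, ?_⟩
  · rw [← hr]
    exact fun h1 => hd.tY h1.2
  · rw [zpow_natCast]
    have h1 : (r ^ 2 ^ n) ^ 2 = 1 := by
      rw [← pow_mul, ← pow_succ, ← hk]; exact pow_orderOf_eq_one _
    rcases hd.uniq _ (pow_mem hrA.2 _) h1 with h2 | h2
    · exfalso
      have h3 := orderOf_dvd_of_pow_eq_one h2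
      rw [hk] at h3
      have := (Nat.pow_dvd_pow_iff_le_right (by norm_num : 1 < 2)).1 h3
      omega
    · exact h2

omit [Finite G] in
/-- the case of one class of involutions -/
theorem setup_top (hd : Dih X z t) (hall : ∀ a b : G, orderOf a = 2 → orderOf b = 2 → IsConj a b) :
    BSW.Setup z t (X z) where
  ht := hd.hz
  comm := hd.comm
  le := hd.Y_le
  tK := hd.np.mem z
  hs := hd.ht
  sH := mem_centralizer_singleton_iff.2 hd.tz
  sK := hd.tY
  sup := hd.C.symm
  inf := by
    ext x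
    constructor
    · rintro ⟨h1, h2⟩
      have h3 := mem_centralizer_singleton_iff.1 h2
      have h4 := hd.inv x h1
      rw [← h3, mul_inv_cancel_right] at h4
      have h5 : x ^ 2 = 1 := by
        rw [pow_two]; nth_rewrite 1 [h4]; exact inv_mul_cancel x
      rcases hd.uniq x h1 h5 with rfl | rfl
      · exact one_mem _
      · exact mem_zpowers _
    · intro h1
      have h2 : zpowers z ≤ X z ⊓ centralizer ({t} : Set G) := by
        rw [zpowers_le]
        exact ⟨hd.np.mem z, mem_centralizer_singleton_iff.2 hd.tz.symm⟩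
      exact h2 h1
  inv := hd.inv
  TI := by
    intro g hg
    apply hd.np.ti
    rw [hd.N]; exact hg
  conj := hall

theorem one_class (hd : Dih X z t) (hab : NoAb G) [Nontrivial G]
    (hall : ∀ a b : G, orderOf a = 2 → orderOf b = 2 → IsConj a b) :
    ∃ (F : Type) (_ : Field F) (_ : Fintype F), 4 ≤ Fintype.card F ∧
      Nonempty (G ≃* Matrix.ProjectiveSpecialLinearGroup (Fin 2) F) := by
  cases nonempty_fintype G
  obtain ⟨Q, D, h1, h2, h3, h4, h5, h6, h7⟩ := (hd.setup_top hall).concl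
  obtain ⟨F, hF, hFf, hc, hi⟩ := PSL2OfData.psl2_of_data Q D h1 h2 h3 h4 h5 h6 h7
  refine ⟨F, hF, hFf, ?_, hi⟩
  by_contra hcon
  have hodd : Nat.card Q = 2 * Nat.card D + 1 := h4.symm
  have h8 : Nat.card Q ≤ 3 := by rw [← hc]; omega
  have hDpos : 0 < Nat.card D := Nat.card_pos
  have h9 : Nat.card Q = 3 := by omega
  rw [h9] at h1
  have h10 : Nat.card G = 12 := by omega
  exact hab.not_solvable (NFInsol.isSolvable_of_dvd_24 (by rw [h10]; norm_num))

end Dih

end Cfsg.Agent.Lib.NPartC62
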