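import Cfsg.Agent.Lib.NPartC62b

/-!
# Partitioned groups with dihedral Sylow 2-subgroups (for S4248, part C): two classes
-/

set_option autoImplicit false
set_option maxHeartbeats 400000

namespace Cfsg.Agent.Lib.NPartC62

open Subgroup NPartB

universe u

variable {G : Type u} [Group G] {X : G → Subgroup G}

theorem isConj_conj {a b : G} (g : G) (h : IsConj a b) :
    IsConj (g * a * g⁻¹) (g * b * g⁻¹) := by
  obtain ⟨c, rfl⟩ := isConj_iff.1 h
  refine isConj_iff.2 ⟨g * c * g⁻¹, by group⟩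

theorem isConj_conj_left {a b : G} (g : G) (h : IsConj a b) : IsConj (g * a * g⁻¹) b :=
  (isConj_iff.2 ⟨g, rfl⟩ : IsConj a (g * a * g⁻¹)).symm.trans h

theorem Dih.conj {z t : G} (hd : Dih X z t) (g : G) : Dih X (g * z * g⁻¹) (g * t * g⁻¹) := by
  have hX : X (g * z * g⁻¹) = (X z).map (MulAut.conj g).toMonoidHom := hd.np.conj g z
  have hmem : ∀ x, x ∈ X (g * z * g⁻¹) ↔ ∃ y ∈ X z, x = g * y * g⁻¹ := by
    intro x
    rw [hX]
    constructor
    · rintro ⟨y, hy, rfl⟩; exact ⟨y, hy, rfl⟩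
    · rintro ⟨y, hy, rfl⟩; exact ⟨y, hy, rfl⟩
  have hcen : centralizer ({g * z * g⁻¹} : Set G) =
      (centralizer ({z} : Set G)).map (MulAut.conj g).toMonoidHom := by
    ext x
    rw [mem_centralizer_singleton_iff]
    constructor
    · intro h1
      refine ⟨g⁻¹ * x * g, mem_centralizer_singleton_iff.2 ?_, ?_⟩
      · calc g⁻¹ * x * g * z = g⁻¹ * (x * (g * z * g⁻¹)) * g := by group
          _ = z * (g⁻¹ * x * g) := by rw [h1]; group
      · show g * (g⁻¹ * x * g) * g⁻¹ = x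
        group
    · rintro ⟨y, hy, rfl⟩
      have h1 := mem_centralizer_singleton_iff.1 hy
      show g * y * g⁻¹ * (g * z * g⁻¹) = g * z * g⁻¹ * (g * y * g⁻¹)
      calc g * y * g⁻¹ * (g * z * g⁻¹) = g * (y * z) * g⁻¹ := by group
        _ = _ := by rw [h1]; group
  refine ⟨hd.np, by rw [orderOf_conj]; exact hd.hz, ?_, ?_, ?_, by rw [orderOf_conj]; exact hd.ht,
    ?_, ?_, ?_, ?_⟩
  · intro x hx y hy
    obtain ⟨a, ha, rfl⟩ := (hmem x).1 hx
    obtain ⟨b, hb, rfl⟩ := (hmem y).1 hy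
    calc g * a * g⁻¹ * (g * b * g⁻¹) = g * (a * b) * g⁻¹ := by group
      _ = _ := by rw [hd.comm a ha b hb]; group
  · intro x hx hx2
    obtain ⟨a, ha, rfl⟩ := (hmem x).1 hx
    have h1 : a ^ 2 = 1 := by
      have : (g * a * g⁻¹) ^ 2 = g * a ^ 2 * g⁻¹ := by rw [pow_two, pow_two]; group
      rw [this] at hx2
      simpa using hx2
    rcases hd.uniq a ha h1 with h2 | h2
    · left; rw [h2]; group
    · right; rw [h2]
  · obtain ⟨x, hx, hx2⟩ := hd.ex
    refine ⟨g * x * g⁻¹, (hmem _).2 ⟨x, hx, rfl⟩, ?_⟩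
    intro h1
    apply hx2
    have : (g * x * g⁻¹) ^ 2 = g * x ^ 2 * g⁻¹ := by rw [pow_two, pow_two]; group
    rw [this] at h1
    simpa using h1
  · intro h1
    exact hd.tY (hd.np.mem_conj_iff.1 h1)
  · intro x hx
    obtain ⟨a, ha, rfl⟩ := (hmem x).1 hx
    calc g * t * g⁻¹ * (g * a * g⁻¹) * (g * t * g⁻¹)⁻¹ = g * (t * a * t⁻¹) * g⁻¹ := by group
      _ = _ := by rw [hd.inv a ha]; group
  · rw [hcen, hd.C, Subgroup.map_sup, hX, MonoidHom.map_zpowers]
    rfl
  · rw [hcen, hX, ← hd.N]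
    exact (Subgroup.map_equiv_normalizer_eq _ (MulAut.conj g)).symm

/-- the case of two classes of involutions -/
structure Two (X : G → Subgroup G) (z t : G) (L : Subgroup G) (v : G) : Prop extends
    Dih X z t where
  Ln : L.Normal
  Li : L.index = 2
  zL : z ∈ L
  tL : t ∈ L
  vt : v * t ∈ X z
  vL : v ∉ L
  vo : orderOf v = 2
  cls : ∀ w : G, orderOf w = 2 → IsConj z w ∨ IsConj v w

namespace Two

variable {z t v : G} {L : Subgroup G}

theorem conj (hd : Two X z t L v) (g : G) :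
    Two X (g * z * g⁻¹) (g * t * g⁻¹) L (g * v * g⁻¹) where
  toDih := hd.toDih.conj g
  Ln := hd.Ln
  Li := hd.Li
  zL := hd.Ln.conj_mem _ hd.zL g
  tL := hd.Ln.conj_mem _ hd.tL g
  vt := by
    have h1 : g * v * g⁻¹ * (g * t * g⁻¹) = g * (v * t) * g⁻¹ := by group
    rw [h1]
    exact hd.np.mem_conj hd.vt
  vL := by
    intro h1
    apply hd.vL
    have := hd.Ln.conj_mem _ h1 g⁻¹
    simpa [mul_assoc] using this
  vo := by rw [orderOf_conj]; exact hd.vo
  cls := by
    intro w hw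
    rcases hd.cls w hw with h1 | h1
    · exact Or.inl (isConj_conj_left g h1)
    · exact Or.inr (isConj_conj_left g h1)

/-- conjugate elements are congruent modulo `L` -/
theorem mem_iff_of_isConj (hd : Two X z t L v) {a b : G} (h : IsConj a b) : a ∈ L ↔ b ∈ L := by
  obtain ⟨g, rfl⟩ := isConj_iff.1 h
  constructor
  · intro ha; exact hd.Ln.conj_mem _ ha g
  · intro hb
    have := hd.Ln.conj_mem _ hb g⁻¹
    simpa [mul_assoc] using this

theorem mul_mem_iff (hd : Two X z t L v) {a b : G} : a * b ∈ L ↔ (a ∈ L ↔ b ∈ L) :=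
  Subgroup.mul_mem_iff_of_index_two hd.Li

theorem isConj_v (hd : Two X z t L v) {w : G} (hw : orderOf w = 2) (hwL : w ∉ L) : IsConj v w := by
  rcases hd.cls w hw with h1 | h1
  · exact absurd ((hd.mem_iff_of_isConj h1).1 hd.zL) hwL
  · exact h1

theorem isConj_z (hd : Two X z t L v) {w : G} (hw : orderOf w = 2) (hwL : w ∈ L) : IsConj z w := by
  rcases hd.cls w hw with h1 | h1
  · exact h1
  · exact absurd ((hd.mem_iff_of_isConj h1).2 hwL) hd.vL

theorem of_outside (hd : Two X z t L v) {w : G} (hw : orderOf w = 2) (hwL : w ∉ L) :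
    ∃ z' t' : G, Two X z' t' L w := by
  obtain ⟨g, rfl⟩ := isConj_iff.1 (hd.isConj_v hw hwL)
  exact ⟨_, _, hd.conj g⟩

theorem vz (hd : Two X z t L v) : v * z = z * v := by
  have h1 : v = (v * t) * t := by rw [mul_assoc, sq hd.ht, mul_one]
  rw [h1, mul_assoc, hd.tz, ← mul_assoc, hd.comm _ hd.vt z (hd.np.mem z), mul_assoc]

theorem vY (hd : Two X z t L v) : v ∉ X z := by
  intro h1
  apply hd.tY
  have := mul_mem (inv_mem h1) hd.vt
  rwa [inv_mul_cancel_left] at this

theorem zV (hd : Two X z t L v) : z ∉ X v := by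
  intro h1
  apply hd.vY
  rw [hd.np.eq (ne_one hd.hz) h1]
  exact hd.np.mem v

variable [Finite G]

theorem comm_V (hd : Two X z t L v) : ∀ x ∈ X v, ∀ y ∈ X v, x * y = y * x :=
  comm_of_comm hd.np hd.vo hd.vz.symm hd.zV

theorem inv_V (hd : Two X z t L v) : ∀ x ∈ X v, z * x * z⁻¹ = x⁻¹ :=
  (inv_of_comm hd.np hd.vo hd.vz.symm hd.zV).2

omit [Finite G] in
theorem orderOf_of_sq {x : G} (h1 : x ^ 2 = 1) (h2 : x ≠ 1) : orderOf x = 2 :=
  orderOf_eq_prime h1 h2

omit [Finite G] in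
theorem uniq_L (hd : Two X z t L v) {w : G} (hw : orderOf w = 2) (hwL : w ∈ L) :
    ∀ x ∈ X w, x ^ 2 = 1 → x = 1 ∨ x = w := by
  obtain ⟨g, rfl⟩ := isConj_iff.1 (hd.isConj_z hw hwL)
  exact (hd.conj g).uniq

theorem uniq_V (hd : Two X z t L v) : ∀ x ∈ X v, x ^ 2 = 1 → x = 1 ∨ x = v := by
  intro x hx hx2
  by_contra hcon
  push Not at hcon
  have hxo := orderOf_of_sq hx2 hcon.1
  have hex : ∃ w ∈ X v, w ∈ L ∧ orderOf w = 2 := by
    by_cases hxL : x ∈ L
    · exact ⟨x, hx, hxL, hxo⟩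
    · refine ⟨x * v, mul_mem hx (hd.np.mem v), hd.mul_mem_iff.2 ⟨fun h => absurd h hxL,
        fun h => absurd h hd.vL⟩, orderOf_of_sq ?_ ?_⟩
      · have hc : Commute x v := hd.comm_V x hx v (hd.np.mem v)
        rw [hc.mul_pow, hx2, ← hd.vo, pow_orderOf_eq_one, mul_one]
      · intro h1
        apply hcon.2
        rw [mul_eq_one_iff_eq_inv.1 h1]
        exact inv_eq_of_mul_eq_one_left (sq hd.vo)
  obtain ⟨w, hwV, hwL, hwo⟩ := hex
  have h1 : X w = X v := hd.np.eq (ne_one hwo) hwV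
  rcases hd.uniq_L hwo hwL v (by rw [h1]; exact hd.np.mem v)
    (by rw [← hd.vo]; exact pow_orderOf_eq_one v) with h2 | h2
  · exact ne_one hd.vo h2
  · exact hd.vL (h2 ▸ hwL)

theorem cent_v (hd : Two X z t L v) {c : G} (hc : c * v = v * c) : c ∈ X v ∨ c * z ∈ X v := by
  by_cases hx : ∃ x ∈ X v, x ^ 2 ≠ 1
  · exact cent_cases hd.np hd.vo hd.vz.symm hd.zV hc hx
  · push Not at hx
    have hsq : ∀ c : G, c * v = v * c → c * c = 1 := by
      intro c hc
      by_cases h1 : c ∈ X v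
      · rw [← pow_two]; exact hx c h1
      · exact sq (inv_of_comm hd.np hd.vo hc h1).1
    have h1 := hsq c hc
    have h2 : (c * z) * (c * z) = 1 := by
      apply hsq
      rw [mul_assoc, ← hd.vz, ← mul_assoc, hc, mul_assoc]
    have h3 : c * z = z * c := by
      have e1 : c⁻¹ = c := inv_eq_of_mul_eq_one_left h1
      have e2 := hd.z_inv
      have h4 : (c * z)⁻¹ = c * z := inv_eq_of_mul_eq_one_left h2
      rw [mul_inv_rev, e1, e2] at h4
      exact h4.symm
    rcases cent_cases hd.np hd.hz hd.vz hd.vY h3 hd.ex with h4 | h4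
    · rcases hd.uniq c h4 (by rw [pow_two]; exact h1) with rfl | rfl
      · left; exact one_mem _
      · right; rw [h1]; exact one_mem _
    · have h5 : (c * v) ^ 2 = 1 := by
        rw [pow_two]
        apply hsq
        rw [mul_assoc, hc, ← mul_assoc, hc]
        rw [mul_assoc, hc]
      rcases hd.uniq _ h4 h5 with h6 | h6
      · left
        rw [mul_eq_one_iff_eq_inv.1 h6]
        exact inv_mem (hd.np.mem v)
      · right
        have h7 : c * z = v := by
          rw [← h6, ← mul_assoc, h1, one_mul]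
        rw [h7]; exact hd.np.mem v

theorem card_cent (hd : Two X z t L v) :
    Nat.card (centralizer ({v} : Set G)) = 2 * Nat.card (X v) := by
  have hle : X v ≤ centralizer ({v} : Set G) := fun x hx =>
    mem_centralizer_singleton_iff.2 (hd.comm_V x hx v (hd.np.mem v))
  have hrel : (X v).relIndex (centralizer ({v} : Set G)) = 2 := by
    rw [relIndex_eq_two_iff]
    refine ⟨z, mem_centralizer_singleton_iff.2 hd.vz.symm, fun b hb => ?_⟩
    rcases hd.cent_v (mem_centralizer_singleton_iff.1 hb) with h2 | h2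
    · right
      refine ⟨h2, fun h3 => hd.zV ?_⟩
      have := mul_mem (inv_mem h2) h3
      rwa [inv_mul_cancel_left] at this
    · left
      refine ⟨h2, fun h3 => hd.zV ?_⟩
      have := mul_mem (inv_mem h3) h2
      rwa [inv_mul_cancel_left] at this
  have h1 := ((X v).subgroupOf (centralizer ({v} : Set G))).card_mul_index
  have h2 : ((X v).subgroupOf (centralizer ({v} : Set G))).index = 2 := hrel
  have h3 : Nat.card ((X v).subgroupOf (centralizer ({v} : Set G))) = Nat.card (X v) :=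
    Nat.card_congr (Subgroup.subgroupOfEquivOfLe hle).toEquiv
  rw [h2, h3] at h1
  rw [← h1, mul_comm]

omit [Finite G] in
/-- a component which is not contained in `L` -/
theorem card_half (hd : Two X z t L v) {A : Subgroup G} {a : G} (haA : a ∈ A) (ha : a ∉ L) :
    Nat.card A = 2 * Nat.card (A ⊓ L : Subgroup G) := by
  have hrel : (A ⊓ L).relIndex A = 2 := by
    rw [relIndex_eq_two_iff]
    refine ⟨a, haA, fun b hb => ?_⟩
    by_cases hbL : b ∈ L
    · right
      exact ⟨⟨hb, hbL⟩, fun h => ha ((hd.mul_mem_iff.1 h.2).1 hbL)⟩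
    · left
      exact ⟨⟨mul_mem hb haA, hd.mul_mem_iff.2 ⟨fun h => absurd h hbL, fun h => absurd h ha⟩⟩,
        fun h => hbL h.2⟩
  have h1 := ((A ⊓ L).subgroupOf A).card_mul_index
  have h2 : ((A ⊓ L).subgroupOf A).index = 2 := hrel
  have h3 : Nat.card ((A ⊓ L).subgroupOf A) = Nat.card (A ⊓ L : Subgroup G) :=
    Nat.card_congr (Subgroup.subgroupOfEquivOfLe inf_le_left).toEquiv
  rw [h2, h3] at h1
  rw [← h1, mul_comm]

theorem odd_V (hd : Two X z t L v) : Odd (Nat.card (X v ⊓ L : Subgroup G)) := by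
  rw [← Nat.not_even_iff_odd]
  intro h1
  obtain ⟨⟨x, hx⟩, hxo⟩ := exists_prime_orderOf_dvd_card' 2 h1.two_dvd
  rw [Subgroup.orderOf_mk] at hxo
  rcases hd.uniq_V x hx.1 (by rw [← hxo]; exact pow_orderOf_eq_one x) with h2 | h2
  · exact ne_one hxo h2
  · exact hd.vL (h2 ▸ hx.2)

end Two

end Cfsg.Agent.Lib.NPartC62
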