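import Cfsg.Agent.Lib.NPartC62c
import Cfsg.Agent.Lib.ConjSylow

/-!
# Partitioned groups with dihedral Sylow 2-subgroups (for S4248, part C): the subgroup `L`
-/

set_option autoImplicit false
set_option maxHeartbeats 400000

namespace Cfsg.Agent.Lib.NPartC62

open Subgroup NPartB

universe u

variable {G : Type u} [Group G] [Finite G] {X : G → Subgroup G}

namespace Two

variable {z t v : G} {L : Subgroup G}

theorem setup (hd : Two X z t L v) :
    BSW.Setup (⟨z, hd.zL⟩ : L) (⟨t, hd.tL⟩ : L) ((X z).subgroupOf L) where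
  ht := by rw [Subgroup.orderOf_mk]; exact hd.hz
  comm := fun x hx y hy => Subtype.ext (hd.comm x hx y hy)
  le := fun x hx => mem_centralizer_singleton_iff.2
    (Subtype.ext (hd.comm x hx z (hd.np.mem z)))
  tK := hd.np.mem z
  hs := by rw [Subgroup.orderOf_mk]; exact hd.ht
  sH := mem_centralizer_singleton_iff.2 (Subtype.ext hd.tz)
  sK := hd.tY
  sup := by
    apply le_antisymm
    · rw [sup_le_iff, zpowers_le]
      exact ⟨fun x hx => mem_centralizer_singleton_iff.2
        (Subtype.ext (hd.comm x hx z (hd.np.mem z))),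
        mem_centralizer_singleton_iff.2 (Subtype.ext hd.tz)⟩
    · intro c hc
      have h1 : (c : G) * z = z * c := congrArg Subtype.val (mem_centralizer_singleton_iff.1 hc)
      rcases hd.mem_C h1 with h2 | h2
      · exact mem_sup_left h2
      · have h3 : c = (c * ⟨t, hd.tL⟩) * ⟨t, hd.tL⟩ := by
          apply Subtype.ext
          show (c : G) = c * t * t
          rw [mul_assoc, sq hd.ht, mul_one]
        rw [h3]
        exact mul_mem (mem_sup_left h2) (mem_sup_right (mem_zpowers _))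
  inf := by
    ext x
    constructor
    · rintro ⟨h1, h2⟩
      have h3 : (x : G) * t = t * x := congrArg Subtype.val (mem_centralizer_singleton_iff.1 h2)
      have h4 := hd.inv x h1
      rw [← h3, mul_inv_cancel_right] at h4
      have h5 : (x : G) ^ 2 = 1 := by
        rw [pow_two]; nth_rewrite 1 [h4]; exact inv_mul_cancel _
      rcases hd.uniq x h1 h5 with h6 | h6
      · have : x = 1 := Subtype.ext h6
        rw [this]; exact one_mem _
      · have : x = ⟨z, hd.zL⟩ := Subtype.ext h6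
        rw [this]; exact mem_zpowers _
    · intro h1
      have h2 : zpowers (⟨z, hd.zL⟩ : L) ≤
          (X z).subgroupOf L ⊓ centralizer ({(⟨t, hd.tL⟩ : L)} : Set L) := by
        rw [zpowers_le]
        exact ⟨hd.np.mem z, mem_centralizer_singleton_iff.2 (Subtype.ext hd.tz.symm)⟩
      exact h2 h1
  inv := fun x hx => Subtype.ext (hd.inv x hx)
  TI := by
    intro g hg
    rw [eq_bot_iff]
    rintro x ⟨hx1, y, hy, hyx⟩
    rw [mem_bot]
    apply Subtype.ext
    have hgN : (g : G) ∉ normalizer (X z : Set G) := by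
      rw [hd.N]
      intro h1
      exact hg (mem_centralizer_singleton_iff.2
        (Subtype.ext (mem_centralizer_singleton_iff.1 h1)))
    have h1 := hd.np.ti hgN
    have h2 : (x : G) ∈ X z ⊓ (X z).map (MulAut.conj (g : G)).toMonoidHom :=
      ⟨hx1, y, hy, congrArg Subtype.val hyx⟩
    rw [h1, mem_bot] at h2
    exact h2
  conj := by
    have key : ∀ w : L, orderOf w = 2 → IsConj (⟨z, hd.zL⟩ : L) w := by
      intro w hw
      have h1 : orderOf (w : G) = 2 := by rw [Subgroup.orderOf_coe]; exact hw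
      obtain ⟨g, hg⟩ := isConj_iff.1 (hd.isConj_z h1 w.2)
      by_cases hgL : g ∈ L
      · exact isConj_iff.2 ⟨⟨g, hgL⟩, Subtype.ext hg⟩
      · have h2 : g * v ∈ L := hd.mul_mem_iff.2 ⟨fun h => absurd h hgL, fun h => absurd h hd.vL⟩
        refine isConj_iff.2 ⟨⟨g * v, h2⟩, Subtype.ext ?_⟩
        show g * v * z * (g * v)⁻¹ = w
        rw [← hg]
        calc g * v * z * (g * v)⁻¹ = g * (v * z) * v⁻¹ * g⁻¹ := by group
          _ = g * z * g⁻¹ := by rw [hd.vz]; group
    intro x y hx hy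
    exact (key x hx).symm.trans (key y hy)

omit [Finite G] in
theorem card_subgroupOf (A B : Subgroup G) :
    Nat.card (A.subgroupOf B) = Nat.card (A ⊓ B : Subgroup G) := by
  rw [← Subgroup.subgroupOf_map_subtype, Subgroup.card_subtype]

omit [Finite G] in
theorem cubic_inj {a b : ℕ} (ha : 1 ≤ a) (hb : 1 ≤ b)
    (h : a * (a + 1) * (a - 1) = b * (b + 1) * (b - 1)) (ha2 : 2 ≤ a) : a = b := by
  have mono : ∀ m n : ℕ, 1 ≤ m → m < n → 2 ≤ n →
      m * (m + 1) * (m - 1) < n * (n + 1) * (n - 1) := by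
    intro m n hm hmn hn
    obtain ⟨m, rfl⟩ : ∃ m', m = m' + 1 := ⟨m - 1, by omega⟩
    obtain ⟨n, rfl⟩ : ∃ n', n = n' + 1 := ⟨n - 1, by omega⟩
    have h1 : m < n := by omega
    simp only [Nat.add_sub_cancel]
    have h2 : (m + 1) * (m + 1 + 1) < (n + 1) * (n + 1 + 1) :=
      Nat.mul_lt_mul'' (by omega) (by omega)
    exact Nat.mul_lt_mul'' h2 h1
  rcases lt_trichotomy a b with h1 | h1 | h1
  · have := mono a b ha h1 (by omega)
    omega
  · exact h1
  · have := mono b a hb h1 ha2
    omega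

/-- the subgroup `Q` of `L` -/
structure QD (L Y Q : Subgroup G) (p f q k : ℕ) : Prop where
  hp : p.Prime
  hq : q = p ^ f
  qodd : Odd q
  q5 : 5 ≤ q
  le : Q ≤ L
  card : Nat.card Q = q
  cent : ∀ x ∈ Q, x ≠ 1 → ∀ c ∈ L, c * x = x * c → c ∈ Q
  comm : ∀ x ∈ Q, ∀ y ∈ Q, x * y = y * x
  cardN : Nat.card (normalizer (Q : Set G)) = q * (q - 1)
  cardL : 2 * Nat.card L = q * (q + 1) * (q - 1)
  idx : Q.relIndex L * 2 = (q + 1) * (q - 1)
  cardK : Nat.card (Y ⊓ L : Subgroup G) = k
  kq : (q = 2 * k + 1 ∧ Nat.card L = k * q * (q + 1)) ∨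
    (q + 1 = 2 * k ∧ Nat.card L = k * q * (q - 1))

theorem exists_Q (hd : Two X z t L v) (hab : NoAb G) [Nontrivial G] :
    ∃ (Q : Subgroup G) (p f q k : ℕ), QD L (X z) Q p f q k := by
  classical
  have hcardG : Nat.card L * 2 = Nat.card G := by
    have := L.card_mul_index
    rwa [hd.Li] at this
  cases nonempty_fintype G
  have hLf : Fintype L := Fintype.ofFinite L
  obtain ⟨ε, q, hc⟩ := hd.setup.exists_cnt
  obtain ⟨Q, D, h1, h2, h3, h4, h5, h6, h7⟩ := hd.setup.concl
  obtain ⟨F, hF, hFf, hFc, -⟩ := PSL2OfData.psl2_of_data Q D h1 h2 h3 h4 h5 h6 h7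
  set k := Nat.card ((X z).subgroupOf L) with hk
  have hkpos : 0 < k := Nat.card_pos
  have hDpos : 0 < Nat.card D := Nat.card_pos
  -- `k ≥ 2`
  have hk2 : 2 ≤ k := by
    obtain ⟨m, hm⟩ := hd.setup.even_card
    omega
  have hkq : (q = 2 * k + 1 ∧ Nat.card L = k * q * (q + 1)) ∨
      (q + 1 = 2 * k ∧ Nat.card L = k * q * (q - 1)) := by
    rcases hc.hε with h8 | h8
    · left
      have e1 := hc.hq
      have e2 := hc.order
      rw [h8] at e1 e2
      have e3 : q = 2 * k + 1 := by rw [hk]; omega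
      refine ⟨e3, ?_⟩
      rw [← hk] at e2
      exact_mod_cast e2
    · right
      have e1 := hc.hq
      have e2 := hc.order
      rw [h8] at e1 e2
      have e3 : q + 1 = 2 * k := by rw [hk]; omega
      refine ⟨e3, ?_⟩
      rw [← hk] at e2
      obtain ⟨m, rfl⟩ : ∃ m, q = m + 1 := ⟨q - 1, by omega⟩
      rw [Nat.add_sub_cancel]
      push_cast at e2
      rw [show (m : ℤ) + 1 + -1 = m by ring] at e2
      exact_mod_cast e2
  have hLq : 2 * Nat.card L = q * (q + 1) * (q - 1) := by
    rcases hkq with ⟨e1, e2⟩ | ⟨e1, e2⟩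
    · rw [e2, e1, Nat.add_sub_cancel]; ring
    · rw [e2]
      calc 2 * (k * q * (q - 1)) = q * (2 * k) * (q - 1) := by ring
        _ = _ := by rw [← e1]
  have hQq : Nat.card Q = q := by
    apply cubic_inj (by omega) (by omega) _ (by omega)
    rw [← h1, hLq]
  have hpp : IsPrimePow (Nat.card Q) := by
    rw [← hFc]; exact FiniteField.isPrimePow_card F
  obtain ⟨p, f, hp, hf, hpf⟩ := (isPrimePow_nat_iff _).1 hpp
  have hqodd : Odd q := ⟨Nat.card D, by omega⟩
  have hq5 : 5 ≤ q := by
    by_contra hcon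
    have h8 : q = 3 := by
      obtain ⟨m, hm⟩ := hqodd
      omega
    rw [h8] at hLq
    exact hab.not_solvable (NFInsol.isSolvable_of_dvd_24 (by
      rw [← hcardG]
      have : Nat.card L = 12 := by omega
      rw [this]))
  have hLn := hd.Ln
  set Q₁ : Subgroup G := Q.map L.subtype with hQ₁
  have hQ₁L : Q₁ ≤ L := map_subtype_le _
  have hQ₁s : Q₁.subgroupOf L = Q := by
    rw [hQ₁]
    exact Subgroup.comap_map_eq_self_of_injective L.subtype_injective Q
  have hcard₁ : Nat.card Q₁ = q := by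
    rw [hQ₁, Subgroup.card_subtype, hQq]
  have hidx : Q.index * 2 = (q + 1) * (q - 1) := by
    have e1 := Q.card_mul_index
    rw [hQq] at e1
    have e2 : q * (Q.index * 2) = q * ((q + 1) * (q - 1)) := by
      rw [← mul_assoc, e1, ← mul_assoc, ← hLq, mul_comm]
    exact Nat.eq_of_mul_eq_mul_left (by omega) e2
  -- the normalizer
  have hNL : Nat.card (normalizer (Q : Set L)) * 2 = q * (q - 1) := by
    rw [h6]
    have hDN : D ≤ normalizer (Q : Set L) := by rw [h6]; exact le_sup_right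
    have e1 := ConjSylow.card_sup_mul_card_inf hDN
    rw [inf_comm, h5, sup_comm] at e1
    have e2 : Nat.card ((⊥ : Subgroup L)) = 1 := by simp
    rw [e2, mul_one] at e1
    rw [e1, hQq]
    have e3 : q - 1 = 2 * Nat.card D := by omega
    rw [e3]; ring
  have hcardN : Nat.card (normalizer (Q₁ : Set G)) = q * (q - 1) := by
    have hpF : Fact p.Prime := ⟨hp⟩
    have hpodd : p ≠ 2 := by
      rintro rfl
      rw [hQq] at hpf
      rw [← hpf] at hqodd
      exact absurd hqodd (Nat.not_odd_iff_even.2 (Nat.even_pow.2 ⟨even_two, hf.ne'⟩))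
    have hpq : p ∣ q := by rw [← hQq, ← hpf]; exact dvd_pow_self p hf.ne'
    have hPidx : ¬ p ∣ Q.index := by
      intro h8
      have h9 : p ∣ (q + 1) * (q - 1) := by rw [← hidx]; exact h8.mul_right 2
      rcases (Nat.Prime.dvd_mul hp).1 h9 with h10 | h10
      · exact hp.one_lt.ne' (Nat.dvd_one.1 ((Nat.dvd_add_right hpq).1 h10))
      · have h11 := Nat.dvd_sub hpq h10
        have h12 : q - (q - 1) = 1 := by omega
        rw [h12] at h11
        exact hp.one_lt.ne' (Nat.dvd_one.1 h11)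
    have hQp : IsPGroup p Q := IsPGroup.of_card (n := f) hpf.symm
    let P : Sylow p L := hQp.toSylow hPidx
    have hP : (P : Subgroup L) = Q := rfl
    have e1 := Sylow.normalizer_sup_eq_top P
    rw [hP] at e1
    have e2 : L.relIndex (normalizer (Q₁ : Set G)) = 2 := by
      have e3 := Subgroup.relIndex_sup_right (H := normalizer (Q₁ : Set G)) (K := L)
      rw [← e3]
      have e4 : normalizer (Q₁ : Set G) ⊔ L = ⊤ := e1
      rw [e4, relIndex_top_right, hd.Li]
    have e5 := (L.subgroupOf (normalizer (Q₁ : Set G))).card_mul_index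
    have e6 : (L.subgroupOf (normalizer (Q₁ : Set G))).index = 2 := e2
    have e7 : Nat.card (L.subgroupOf (normalizer (Q₁ : Set G))) =
        Nat.card (normalizer (Q : Set L)) := by
      have e8 : (normalizer (Q₁ : Set G)).subgroupOf L = normalizer (Q : Set L) := by
        rw [Subgroup.subgroupOf_normalizer_eq hQ₁L, hQ₁s]
      rw [← e8]
      rw [card_subgroupOf, card_subgroupOf, inf_comm]
    rw [e6, e7, hNL] at e5
    exact e5.symm
  refine ⟨Q₁, p, f, q, k, hp, by rw [← hQq, hpf], hqodd, hq5, hQ₁L, hcard₁, ?_, ?_, hcardN, hLq,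
    ?_, ?_, hkq⟩
  · rintro _ ⟨x, hx, rfl⟩ hx1 c hc hcx
    have hx1' : x ≠ 1 := by rintro rfl; exact hx1 rfl
    have e1 : (⟨c, hc⟩ : L) ∈ centralizer ({x} : Set L) :=
      mem_centralizer_singleton_iff.2 (Subtype.ext hcx)
    rw [h2 x hx hx1'] at e1
    exact ⟨_, e1, rfl⟩
  · rintro _ ⟨x, hx, rfl⟩ _ ⟨y, hy, rfl⟩
    by_cases hx1 : x = 1
    · rw [hx1]; simp
    · rw [← h2 x hx hx1] at hy
      exact congrArg Subtype.val (mem_centralizer_singleton_iff.1 hy).symm
  · rw [← hidx]
    congr 1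
    show (Q₁.subgroupOf L).index = _
    rw [hQ₁s]
  · rw [hk, card_subgroupOf]

end Two

end Cfsg.Agent.Lib.NPartC62
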