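import Cfsg.Agent.Lib.NPartC62d
import Cfsg.Agent.Lib.CharBasic

/-!
# Partitioned groups with dihedral Sylow 2-subgroups (for S4248, part C): centralizers in `Q`
-/

set_option autoImplicit false
set_option maxHeartbeats 400000

namespace Cfsg.Agent.Lib.NPartC62

open Subgroup NPartB

universe u

variable {G : Type u} [Group G]

theorem ab_normalClosure {w : G} (h : ∀ a : G, IsConj w a → a * w = w * a) :
    ∀ a ∈ normalClosure ({w} : Set G), ∀ b ∈ normalClosure ({w} : Set G), a * b = b * a := by
  have h0 : ∀ a b : G, IsConj w a → IsConj w b → a * b = b * a := by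
    intro a b ha hb
    obtain ⟨g, rfl⟩ := isConj_iff.1 ha
    have h1 := h _ (isConj_conj_left g⁻¹ (hb.symm)).symm
    rw [inv_inv] at h1
    calc g * w * g⁻¹ * b = g * (w * (g⁻¹ * b * g)) * g⁻¹ := by group
      _ = b * (g * w * g⁻¹) := by rw [← h1]; group
  have hS : ∀ a ∈ Group.conjugatesOfSet ({w} : Set G), IsConj w a := by
    intro a ha
    obtain ⟨b, hb, hab⟩ := Group.mem_conjugatesOfSet_iff.1 ha
    rw [Set.mem_singleton_iff.1 hb] at hab
    exact hab
  have h2 : normalClosure ({w} : Set G) ≤ centralizer (Group.conjugatesOfSet ({w} : Set G)) := by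
    rw [normalClosure, closure_le]
    intro a ha
    rw [SetLike.mem_coe, mem_centralizer_iff]
    intro b hb
    exact h0 b a (hS b hb) (hS a ha)
  have h3 : normalClosure ({w} : Set G) ≤
      centralizer (normalClosure ({w} : Set G) : Set G) := by
    conv_lhs => rw [normalClosure]
    rw [closure_le]
    intro a ha
    rw [SetLike.mem_coe, mem_centralizer_iff]
    intro b hb
    exact (mem_centralizer_iff.1 (h2 hb) a ha).symm
  intro a ha b hb
  exact mem_centralizer_iff.1 (h3 hb) a ha

variable [Finite G] {X : G → Subgroup G}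

namespace Two

variable {z t v : G} {L Y Q : Subgroup G} {p f q k : ℕ}

theorem odd_of_mem (hQ : QD L Y Q p f q k) {x : G} (hx : x ∈ Q) : Odd (orderOf x) := by
  have h1 : orderOf x ∣ q := by
    rw [← hQ.card, ← Subgroup.orderOf_mk x hx]
    exact orderOf_dvd_natCard _
  exact Odd.of_dvd_nat hQ.qodd h1

theorem not_comm (hd : Two X z t L v) (hab : NoAb G) (hQ : QD L Y Q p f q k) {x : G} (hx : x ∈ Q)
    (hx1 : x ≠ 1) {w : G} (hw : orderOf w = 2) : w * x ≠ x * w := by
  classical
  intro hwx
  -- facts about involutions commuting with elements of `Q`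
  have hout : ∀ x ∈ Q, x ≠ 1 → ∀ w : G, orderOf w = 2 → w * x = x * w → w ∉ L := by
    intro x hx hx1 w hw hwx hwL
    have h1 := hQ.cent x hx hx1 w hwL hwx
    have h2 := odd_of_mem hQ h1
    rw [hw] at h2
    exact absurd h2 (by decide)
  have hXx : ∀ x ∈ Q, x ≠ 1 → ∀ w : G, orderOf w = 2 → w * x = x * w → X x = X w := by
    intro x hx hx1 w hw hwx
    refine hd.np.same_of_order_ne hx1 (ne_one hw) hwx.symm ?_
    intro h1
    have h2 := odd_of_mem hQ hx
    rw [h1, hw] at h2
    exact absurd h2 (by decide)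
  have hwL := hout x hx hx1 w hw hwx
  have hX := hXx x hx hx1 w hw hwx
  obtain ⟨z', t', hw'⟩ := hd.of_outside hw hwL
  have huw : ∀ g : G, g * w * g⁻¹ ∈ X w → g * w = w * g := by
    intro g hg
    rcases hw'.uniq_V _ hg (by
      have : orderOf (g * w * g⁻¹) = 2 := by rw [orderOf_conj]; exact hw
      rw [← this]; exact pow_orderOf_eq_one _) with h1 | h1
    · exfalso
      have : orderOf (g * w * g⁻¹) = 2 := by rw [orderOf_conj]; exact hw
      exact ne_one this h1
    · calc g * w = g * w * g⁻¹ * g := by group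
        _ = w * g := by rw [h1]
  have hQw : ∀ y ∈ Q, y * w = w * y := by
    intro y hy
    apply huw
    have h1 : y ∈ normalizer (X x : Set G) :=
      hd.np.commute_mem_normalizer (hQ.comm y hy x hx)
    rw [hX] at h1
    exact (mem_normalizer_iff.1 h1 w).1 (hd.np.mem w)
  have hQX : Q ≤ X w := by
    intro y hy
    by_cases hy1 : y = 1
    · rw [hy1]; exact one_mem _
    · rw [← hXx y hy hy1 w hw (hQw y hy).symm]
      exact hd.np.mem y
  have hXL : X w ⊓ L = Q := by
    apply le_antisymm
    · rintro c ⟨hc1, hc2⟩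
      exact hQ.cent x hx hx1 c hc2 (hw'.comm_V c hc1 x (hQX hx))
    · exact le_inf hQX hQ.le
  have hcX : Nat.card (X w) = 2 * q := by
    rw [hw'.card_half (hd.np.mem w) hwL, hXL, hQ.card]
  have hcC : Nat.card (centralizer ({w} : Set G)) = 4 * q := by
    rw [hw'.card_cent, hcX]; ring
  have hNC : normalizer (Q : Set G) ≤ centralizer ({w} : Set G) := by
    intro n hn
    rw [mem_centralizer_singleton_iff]
    apply huw
    have h1 : n * x * n⁻¹ ∈ Q := (mem_normalizer_iff.1 hn x).1 hx
    have h2 := hd.np.mem_normalizer_of hx1 (hQX hx) (hQX h1)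
    exact (mem_normalizer_iff.1 h2 w).1 (hd.np.mem w)
  have hdiv := Subgroup.card_dvd_of_le hNC
  rw [hQ.cardN, hcC, mul_comm 4 q] at hdiv
  have hq5 := hQ.q5
  have hdiv2 : q - 1 ∣ 4 := Nat.dvd_of_mul_dvd_mul_left (by omega) hdiv
  have hq : q = 5 := by
    have := Nat.le_of_dvd (by norm_num) hdiv2
    omega
  have hcardG : Nat.card L * 2 = Nat.card G := by
    have := L.card_mul_index
    rwa [hd.Li] at this
  have hL := hQ.cardL
  rw [hq] at hL hcC
  have hcls := CharBasic.card_isConj_mul_card_centralizer w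
  rw [hcC, ← hcardG] at hcls
  have hcls6 : Nat.card {a : G // IsConj w a} = 6 := by omega
  -- the second involution
  have hwz : w * z' = z' * w := hw'.vz
  have hw2 : orderOf (w * z') = 2 := by
    apply orderOf_of_sq
    · rw [(show Commute w z' from hwz).mul_pow, ← hw, pow_orderOf_eq_one, one_mul, hw, ← hw'.hz,
        pow_orderOf_eq_one]
    · intro h1
      apply hwL
      rw [mul_eq_one_iff_eq_inv.1 h1]
      exact inv_mem hw'.zL
  have hw2L : w * z' ∉ L := by
    intro h1
    exact hwL ((hd.mul_mem_iff.1 h1).2 hw'.zL)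
  have hw2c : IsConj w (w * z') := hw'.isConj_v hw2 hw2L
  have hne : w * z' ≠ w := by
    intro h1
    exact ne_one hw'.hz (mul_eq_left.1 h1)
  have hfree : ∀ y ∈ Q, y * (w * z') * y⁻¹ = w * z' → y = 1 := by
    intro y hy h1
    by_contra hy1
    have h2 : w * z' * y = y * (w * z') := by
      calc w * z' * y = y * (w * z') * y⁻¹ * y := by rw [h1]
        _ = _ := by group
    have h3 := hXx y hy hy1 _ hw2 h2
    have h4 := hXx y hy hy1 _ hw (hQw y hy).symm
    rcases hw'.uniq_V (w * z') (by rw [← h4, h3]; exact hd.np.mem _)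
      (by rw [← hw2]; exact pow_orderOf_eq_one _) with h5 | h5
    · exact ne_one hw2 h5
    · exact hne h5
  let F : Option Q → {a : G // IsConj w a} := fun o =>
    match o with
    | none => ⟨w, IsConj.refl w⟩
    | some y => ⟨(y : G) * (w * z') * (y : G)⁻¹, hw2c.trans (isConj_iff.2 ⟨y, rfl⟩)⟩
  have hFinj : Function.Injective F := by
    intro a b hab'
    match a, b, hab' with
    | none, none, _ => rfl
    | none, some y, h1 =>
      exfalso
      have h2 : w = (y : G) * (w * z') * (y : G)⁻¹ := congrArg Subtype.val h1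
      apply hne
      have h3 := hQw y y.2
      calc w * z' = (y : G)⁻¹ * ((y : G) * (w * z') * (y : G)⁻¹) * y := by group
        _ = (y : G)⁻¹ * (w * y) := by rw [← h2]; group
        _ = w := by rw [← h3]; group
    | some y, none, h1 =>
      exfalso
      have h2 : (y : G) * (w * z') * (y : G)⁻¹ = w := congrArg Subtype.val h1
      apply hne
      have h3 := hQw y y.2
      calc w * z' = (y : G)⁻¹ * ((y : G) * (w * z') * (y : G)⁻¹) * y := by group
        _ = (y : G)⁻¹ * (w * y) := by rw [h2]; group
        _ = w := by rw [← h3]; group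
    | some y, some y', h1 =>
      have h2 : (y : G) * (w * z') * (y : G)⁻¹ = (y' : G) * (w * z') * (y' : G)⁻¹ :=
        congrArg Subtype.val h1
      have h3 := hfree ((y' : G)⁻¹ * y) (mul_mem (inv_mem y'.2) y.2) (by
        calc (y' : G)⁻¹ * y * (w * z') * ((y' : G)⁻¹ * y)⁻¹
            = (y' : G)⁻¹ * ((y : G) * (w * z') * (y : G)⁻¹) * y' := by group
          _ = w * z' := by rw [h2]; group)
      rw [inv_mul_eq_one] at h3
      exact congrArg some (Subtype.ext h3.symm)
  have hFsurj : Function.Surjective F := by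
    have h1 : Nat.card (Option Q) = Nat.card {a : G // IsConj w a} := by
      rw [hcls6, Finite.card_option, hQ.card, hq]
    exact ((Nat.bijective_iff_injective_and_card F).2 ⟨hFinj, h1⟩).2
  have hcomm : ∀ a : G, IsConj w a → a * w = w * a := by
    intro a ha
    obtain ⟨o, ho⟩ := hFsurj ⟨a, ha⟩
    match o, ho with
    | none, h1 =>
      have h2 : w = a := congrArg Subtype.val h1
      rw [h2]
    | some y, h1 =>
      have h2 : (y : G) * (w * z') * (y : G)⁻¹ = a := congrArg Subtype.val h1
      have h3 := hQw y y.2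
      have h4 : (y : G)⁻¹ * w = w * (y : G)⁻¹ := by
        calc (y : G)⁻¹ * w = (y : G)⁻¹ * (w * y) * (y : G)⁻¹ := by group
          _ = w * (y : G)⁻¹ := by rw [← h3]; group
      rw [← h2]
      calc (y : G) * (w * z') * (y : G)⁻¹ * w = (y : G) * (w * z') * ((y : G)⁻¹ * w) := by group
        _ = (y : G) * w * (z' * w) * (y : G)⁻¹ := by rw [h4]; group
        _ = (y * w) * (w * z') * (y : G)⁻¹ := by rw [← hwz]
        _ = w * ((y : G) * (w * z') * (y : G)⁻¹) := by rw [h3]; group
  have h1 := hab (normalClosure {w}) inferInstance (ab_normalClosure hcomm)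
  have h2 : w ∈ normalClosure ({w} : Set G) := subset_normalClosure rfl
  rw [h1, mem_bot] at h2
  exact ne_one hw h2

end Two

end Cfsg.Agent.Lib.NPartC62
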