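import Cfsg.Agent.Lib.NPartC62e

/-!
# Partitioned groups with dihedral Sylow 2-subgroups (for S4248, part C): counting involutions
-/

set_option autoImplicit false
set_option maxHeartbeats 400000

namespace Cfsg.Agent.Lib.NPartC62

open Subgroup NPartB

universe u

variable {G : Type u} [Group G] [Finite G] {X : G → Subgroup G}

theorem Dih.card_cent {z t : G} (hd : Dih X z t) :
    Nat.card (centralizer ({z} : Set G)) = 2 * Nat.card (X z) := by
  have hrel : (X z).relIndex (centralizer ({z} : Set G)) = 2 := by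
    rw [relIndex_eq_two_iff]
    refine ⟨t, mem_centralizer_singleton_iff.2 hd.tz, fun b hb => ?_⟩
    rcases hd.mem_C (mem_centralizer_singleton_iff.1 hb) with h2 | h2
    · right
      exact ⟨h2, hd.mul_t_not_mem h2⟩
    · left
      exact ⟨h2, fun h3 => hd.mul_t_not_mem h3 h2⟩
  have h1 := ((X z).subgroupOf (centralizer ({z} : Set G))).card_mul_index
  have h2 : ((X z).subgroupOf (centralizer ({z} : Set G))).index = 2 := hrel
  have h3 : Nat.card ((X z).subgroupOf (centralizer ({z} : Set G))) = Nat.card (X z) :=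
    Nat.card_congr (Subgroup.subgroupOfEquivOfLe hd.Y_le).toEquiv
  rw [h2, h3] at h1
  rw [← h1, mul_comm]

namespace Two

variable {z t v : G} {L Q : Subgroup G} {p f q k : ℕ}

omit [Finite G] in
theorem card_G (hd : Two X z t L v) (hQ : QD L (X z) Q p f q k) :
    Nat.card G = q * (q + 1) * (q - 1) := by
  have := L.card_mul_index
  rw [hd.Li] at this
  rw [← hQ.cardL, ← this, mul_comm]

theorem conj_into {r : ℕ} (hr : r.Prime) {A : Subgroup G} (hA : ¬ r ∣ A.relIndex L) {x : G}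
    (hx : x ∈ L) (hxo : orderOf x = r) : ∃ g ∈ L, g * x * g⁻¹ ∈ A := by
  have : Fact r.Prime := ⟨hr⟩
  have h1 : IsPGroup r (zpowers (⟨x, hx⟩ : L)) := IsPGroup.of_card (n := 1) (by
    rw [Nat.card_zpowers, Subgroup.orderOf_mk, hxo, pow_one])
  obtain ⟨g, hg⟩ := BSW.exists_conj_mem (A.subgroupOf L) hA _ h1
  exact ⟨g, g.2, hg _ (mem_zpowers _)⟩

theorem coprime_q (hd : Two X z t L v) (hab : NoAb G) (hQ : QD L (X z) Q p f q k) :
    Nat.Coprime (Nat.card (X v ⊓ L : Subgroup G)) q := by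
  rw [Nat.coprime_iff_gcd_eq_one]
  by_contra hcon
  obtain ⟨r, hr, hrd⟩ := Nat.exists_prime_and_dvd hcon
  have hrm := hrd.trans (Nat.gcd_dvd_left _ _)
  have hrq := hrd.trans (Nat.gcd_dvd_right _ _)
  have hrF : Fact r.Prime := ⟨hr⟩
  obtain ⟨⟨x, hx⟩, hxo⟩ := exists_prime_orderOf_dvd_card' r hrm
  rw [Subgroup.orderOf_mk] at hxo
  have hidx : ¬ r ∣ Q.relIndex L := by
    intro h8
    have h9 : r ∣ (q + 1) * (q - 1) := by rw [← hQ.idx]; exact h8.mul_right 2
    rcases (Nat.Prime.dvd_mul hr).1 h9 with h10 | h10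
    · exact hr.one_lt.ne' (Nat.dvd_one.1 ((Nat.dvd_add_right hrq).1 h10))
    · have h11 := Nat.dvd_sub hrq h10
      have h12 : q - (q - 1) = 1 := by have := hQ.q5; omega
      rw [h12] at h11
      exact hr.one_lt.ne' (Nat.dvd_one.1 h11)
  obtain ⟨g, hgL, hg⟩ := conj_into hr hidx hx.2 hxo
  have hx1 : x ≠ 1 := by
    rintro rfl
    rw [orderOf_one] at hxo
    exact hr.one_lt.ne hxo
  refine hd.not_comm hab hQ hg (by simpa using hx1) (w := g * v * g⁻¹)
    (by rw [orderOf_conj]; exact hd.vo) ?_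
  have h1 := hd.comm_V v (hd.np.mem v) x hx.1
  calc g * v * g⁻¹ * (g * x * g⁻¹) = g * (v * x) * g⁻¹ := by group
    _ = _ := by rw [h1]; group

theorem relIndex_K (hQ : QD L (X z) Q p f q k) :
    (q = 2 * k + 1 ∧ (X z ⊓ L).relIndex L = q * (q + 1)) ∨
    (q + 1 = 2 * k ∧ (X z ⊓ L).relIndex L = q * (q - 1)) := by
  have hkpos : 0 < k := by rw [← hQ.cardK]; exact Nat.card_pos
  have h1 := ((X z ⊓ L).subgroupOf L).card_mul_index
  have h2 : Nat.card ((X z ⊓ L).subgroupOf L) = k := by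
    rw [card_subgroupOf, inf_assoc, inf_idem, hQ.cardK]
  rw [h2] at h1
  have h3 : ((X z ⊓ L).subgroupOf L).index = (X z ⊓ L).relIndex L := rfl
  rw [h3] at h1
  rcases hQ.kq with ⟨h4, h5⟩ | ⟨h4, h5⟩
  · left
    refine ⟨h4, ?_⟩
    rw [h5, mul_assoc] at h1
    exact Nat.eq_of_mul_eq_mul_left hkpos h1
  · right
    refine ⟨h4, ?_⟩
    rw [h5, mul_assoc] at h1
    exact Nat.eq_of_mul_eq_mul_left hkpos h1

theorem coprime_k (hd : Two X z t L v) (hQ : QD L (X z) Q p f q k) :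
    Nat.Coprime (Nat.card (X v ⊓ L : Subgroup G)) k := by
  rw [Nat.coprime_iff_gcd_eq_one]
  by_contra hcon
  obtain ⟨r, hr, hrd⟩ := Nat.exists_prime_and_dvd hcon
  have hrm := hrd.trans (Nat.gcd_dvd_left _ _)
  have hrk := hrd.trans (Nat.gcd_dvd_right _ _)
  have hrF : Fact r.Prime := ⟨hr⟩
  have hr2 : ¬ r ∣ 2 := by
    intro h1
    have h2 := (Nat.prime_dvd_prime_iff_eq hr Nat.prime_two).1 h1
    rw [h2] at hrm
    exact (Nat.not_even_iff_odd.2 hd.odd_V) (even_iff_two_dvd.2 hrm)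
  have hr1 : ¬ r ∣ 1 := fun h1 => hr.one_lt.ne' (Nat.dvd_one.1 h1)
  obtain ⟨⟨x, hx⟩, hxo⟩ := exists_prime_orderOf_dvd_card' r hrm
  rw [Subgroup.orderOf_mk] at hxo
  have hq5 := hQ.q5
  have hidx : ¬ r ∣ (X z ⊓ L).relIndex L := by
    intro h8
    rcases relIndex_K hQ with ⟨h1, h2⟩ | ⟨h1, h2⟩
    · rw [h2, hr.dvd_mul] at h8
      rcases h8 with h8 | h8
      · rw [h1] at h8
        exact hr1 ((Nat.dvd_add_right (hrk.mul_left 2)).1 h8)
      · rw [h1, add_assoc] at h8
        exact hr2 ((Nat.dvd_add_right (hrk.mul_left 2)).1 h8)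
    · rw [h2, hr.dvd_mul] at h8
      have h3 : r ∣ q + 1 := by rw [h1]; exact hrk.mul_left 2
      rcases h8 with h8 | h8
      · exact hr1 ((Nat.dvd_add_right h8).1 h3)
      · have h4 := Nat.dvd_sub h3 h8
        have h5 : q + 1 - (q - 1) = 2 := by omega
        rw [h5] at h4
        exact hr2 h4
  obtain ⟨g, hgL, hg⟩ := conj_into hr hidx hx.2 hxo
  have hx1 : x ≠ 1 := by
    rintro rfl
    rw [orderOf_one] at hxo
    exact hr.one_lt.ne hxo
  have h1 : X x = X v := hd.np.eq hx1 hx.1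
  have h2 : X (g * x * g⁻¹) = X z := hd.np.eq (by simpa using hx1) hg.1
  have h3 : g * v * g⁻¹ ∈ X (g * x * g⁻¹) := hd.np.mem_conj (by rw [h1]; exact hd.np.mem v)
  rw [h2] at h3
  have h4 : orderOf (g * v * g⁻¹) = 2 := by rw [orderOf_conj]; exact hd.vo
  rcases hd.uniq _ h3 (by rw [← h4]; exact pow_orderOf_eq_one _) with h5 | h5
  · exact ne_one h4 h5
  · apply hd.vL
    rw [hd.mem_iff_of_isConj (isConj_iff.2 ⟨g, rfl⟩ : IsConj v (g * v * g⁻¹)), h5]
    exact hd.zL

theorem bound (hd : Two X z t L v) (hab : NoAb G) (hQ : QD L (X z) Q p f q k) :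
    (q = 2 * k + 1 ∧ 2 * Nat.card (X v ⊓ L : Subgroup G) ≤ q + 1) ∨
    (q + 1 = 2 * k ∧ 2 * Nat.card (X v ⊓ L : Subgroup G) ≤ q - 1) := by
  have h1 := hd.coprime_q hab hQ
  have h2 := hd.coprime_k hQ
  have h3 : Nat.card (X v ⊓ L : Subgroup G) ∣ Nat.card L := Subgroup.card_dvd_of_le inf_le_right
  have hodd := hd.odd_V
  have hq5 := hQ.q5
  obtain ⟨a, ha⟩ := hQ.qodd
  rcases hQ.kq with ⟨h4, h5⟩ | ⟨h4, h5⟩
  · left
    refine ⟨h4, ?_⟩
    rw [h5] at h3
    have h6 := (Nat.Coprime.mul_right h2 h1).dvd_of_dvd_mul_left h3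
    have h7 : q + 1 = (a + 1) * 2 := by omega
    rw [h7] at h6
    have h8 := (Nat.Coprime.dvd_of_dvd_mul_right (Nat.coprime_two_right.2 hodd) h6)
    have := Nat.le_of_dvd (by omega) h8
    omega
  · right
    refine ⟨h4, ?_⟩
    rw [h5] at h3
    have h6 := (Nat.Coprime.mul_right h2 h1).dvd_of_dvd_mul_left h3
    have h7 : q - 1 = a * 2 := by omega
    rw [h7] at h6
    have h8 := (Nat.Coprime.dvd_of_dvd_mul_right (Nat.coprime_two_right.2 hodd) h6)
    have := Nat.le_of_dvd (by omega) h8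
    omega

theorem card_inv_ge (hd : Two X z t L v) (hab : NoAb G) (hQ : QD L (X z) Q p f q k) :
    q ^ 2 ≤ Nat.card {g : G // orderOf g = 2} := by
  classical
  have hG := hd.card_G hQ
  have hq5 := hQ.q5
  set N1 := Nat.card {a : G // IsConj z a} with hN1
  set N2 := Nat.card {a : G // IsConj v a} with hN2
  have hle : N1 + N2 ≤ Nat.card {g : G // orderOf g = 2} := by
    rw [hN1, hN2, ← Nat.card_sum]
    let F : {a : G // IsConj z a} ⊕ {a : G // IsConj v a} → {g : G // orderOf g = 2} :=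
      Sum.elim (fun a => ⟨a, by
          obtain ⟨g, hg⟩ := isConj_iff.1 a.2
          rw [← hg, orderOf_conj]; exact hd.hz⟩)
        (fun a => ⟨a, by
          obtain ⟨g, hg⟩ := isConj_iff.1 a.2
          rw [← hg, orderOf_conj]; exact hd.vo⟩)
    apply Nat.card_le_card_of_injective F
    rintro (a | a) (b | b) h
    · have h1 : (a : G) = (b : G) :=
        congrArg (fun x : {g : G // orderOf g = 2} => (x : G)) h
      exact congrArg Sum.inl (Subtype.ext h1)
    · exfalso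
      have h1 : (a : G) = (b : G) :=
        congrArg (fun x : {g : G // orderOf g = 2} => (x : G)) h
      have h2 := (hd.mem_iff_of_isConj a.2).1 hd.zL
      rw [h1] at h2
      exact hd.vL ((hd.mem_iff_of_isConj b.2).2 h2)
    · exfalso
      have h1 : (a : G) = (b : G) :=
        congrArg (fun x : {g : G // orderOf g = 2} => (x : G)) h
      have h2 := (hd.mem_iff_of_isConj b.2).1 hd.zL
      rw [← h1] at h2
      exact hd.vL ((hd.mem_iff_of_isConj a.2).2 h2)
    · have h1 : (a : G) = (b : G) :=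
        congrArg (fun x : {g : G // orderOf g = 2} => (x : G)) h
      exact congrArg Sum.inr (Subtype.ext h1)
  refine le_trans ?_ hle
  have e1 := CharBasic.card_isConj_mul_card_centralizer z
  have e2 := CharBasic.card_isConj_mul_card_centralizer v
  have hvt : v * t ∉ L := fun h => hd.vL ((hd.mul_mem_iff.1 h).2 hd.tL)
  rw [← hN1, hd.toDih.card_cent, hd.card_half hd.vt hvt, hQ.cardK, hG] at e1
  rw [← hN2, hd.card_cent, hd.card_half (hd.np.mem v) hd.vL, hG] at e2
  set m := Nat.card (X v ⊓ L : Subgroup G) with hm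
  obtain ⟨s, rfl⟩ : ∃ s, q = s + 1 := ⟨q - 1, by omega⟩
  rw [Nat.add_sub_cancel] at e1 e2
  have hspos : 0 < s := by omega
  rcases hd.bound hab hQ with ⟨h1, h2⟩ | ⟨h1, h2⟩
  · -- `s = 2 k`
    have h3 : s = 2 * k := by omega
    have e3 : s * (2 * N1) = s * ((s + 1) * (s + 1 + 1)) := by
      calc s * (2 * N1) = N1 * (2 * (2 * k)) := by rw [← h3]; ring
        _ = (s + 1) * (s + 1 + 1) * s := e1
        _ = _ := by ring
    have e4 : 2 * N1 = (s + 1) * (s + 1 + 1) := Nat.eq_of_mul_eq_mul_left hspos e3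
    have e5 : (s + 1 + 1) * ((s + 1) * s) ≤ (s + 1 + 1) * (2 * N2) := by
      calc (s + 1 + 1) * ((s + 1) * s) = (s + 1) * (s + 1 + 1) * s := by ring
        _ = N2 * (2 * (2 * m)) := e2.symm
        _ ≤ N2 * (2 * (s + 1 + 1)) := by
          apply Nat.mul_le_mul_left
          apply Nat.mul_le_mul_left
          exact h2
        _ = _ := by ring
    have e6 : (s + 1) * s ≤ 2 * N2 := Nat.le_of_mul_le_mul_left e5 (by omega)
    nlinarith
  · rw [Nat.add_sub_cancel] at h2
    have e3 : (s + 1 + 1) * (2 * N1) = (s + 1 + 1) * ((s + 1) * s) := by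
      calc (s + 1 + 1) * (2 * N1) = N1 * (2 * (2 * k)) := by rw [← h1]; ring
        _ = (s + 1) * (s + 1 + 1) * s := e1
        _ = _ := by ring
    have e4 : 2 * N1 = (s + 1) * s := Nat.eq_of_mul_eq_mul_left (by omega) e3
    have e5 : s * ((s + 1) * (s + 1 + 1)) ≤ s * (2 * N2) := by
      calc s * ((s + 1) * (s + 1 + 1)) = (s + 1) * (s + 1 + 1) * s := by ring
        _ = N2 * (2 * (2 * m)) := e2.symm
        _ ≤ N2 * (2 * s) := by
          apply Nat.mul_le_mul_left
          apply Nat.mul_le_mul_left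
          exact h2
        _ = _ := by ring
    have e6 : (s + 1) * (s + 1 + 1) ≤ 2 * N2 := Nat.le_of_mul_le_mul_left e5 hspos
    nlinarith

end Two

end Cfsg.Agent.Lib.NPartC62
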