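import Mathlib
import Cfsg.Agent.Lib.HigSL2

/-!
Groups acting faithfully on the natural module `F²` of `SL₂(F)`, containing `SL₂(F)` such that a Sylow
`p`-subgroup normalizes `SL₂(F)` (S2932): semilinearity of the normalizer, the structure of the Sylow subgroup.
-/

set_option autoImplicit false

namespace Cfsg.Agent.Lib.NatSL2a

open Cfsg.Agent.Lib.HigSL2 Matrix

variable {F : Type*} [Field F]

theorem mk4_mulVec {a b c d : F} (h : a * d - b * c = 1) (w : Fin 2 → F) :
    (mk4 a b c d h).1 *ᵥ w = ![a * w 0 + b * w 1, c * w 0 + d * w 1] := by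
  ext i
  fin_cases i <;> simp [mk4, Matrix.mulVec, dotProduct, Fin.sum_univ_two]

theorem U_mulVec (a : F) (w : Fin 2 → F) : (U a).1 *ᵥ w = ![w 0 + a * w 1, w 1] := by
  unfold U
  rw [mk4_mulVec]
  ext i
  fin_cases i <;> simp

theorem Lo_mulVec (a : F) (w : Fin 2 → F) : (Lo a).1 *ᵥ w = ![w 0, a * w 0 + w 1] := by
  unfold Lo
  rw [mk4_mulVec]
  ext i
  fin_cases i <;> simp

theorem eta2 (w : Fin 2 → F) : w = ![w 0, w 1] := by
  ext i; fin_cases i <;> rfl

/-- additive maps commuting with `SL₂(F)` are scalars -/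
theorem scalar_of_commute (f : (Fin 2 → F) → (Fin 2 → F)) (hadd : ∀ v w, f (v + w) = f v + f w)
    (hU : ∀ (m : SpecialLinearGroup (Fin 2) F) w, f (m.1 *ᵥ w) = m.1 *ᵥ f w) :
    ∃ c : F, ∀ w, f w = c • w := by
  have h1 : ∀ x, (f ![x, 0]) 1 = 0 := by
    intro x
    have h := hU (U 1) ![x, 0]
    rw [U_mulVec, U_mulVec] at h
    have h2 := congrFun h 0
    simp only [Matrix.cons_val_zero, Matrix.cons_val_one, mul_zero, add_zero, one_mul] at h2
    exact left_eq_add.mp h2
  have h2 : ∀ y, (f ![0, y]) 0 = 0 := by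
    intro y
    have h := hU (Lo 1) ![0, y]
    rw [Lo_mulVec, Lo_mulVec] at h
    have h2 := congrFun h 1
    simp only [Matrix.cons_val_zero, Matrix.cons_val_one, mul_zero, zero_add, one_mul] at h2
    exact right_eq_add.mp h2
  have h3 : ∀ t y, (f ![t * y, 0]) 0 = t * (f ![0, y]) 1 := by
    intro t y
    have h := hU (U t) ![0, y]
    rw [U_mulVec, U_mulVec] at h
    have e : (![(![0, y] : Fin 2 → F) 0 + t * (![0, y] : Fin 2 → F) 1, (![0, y] : Fin 2 → F) 1] : Fin 2 → F)
        = ![t * y, 0] + ![0, y] := by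
      ext i; fin_cases i <;> simp
    rw [e, hadd] at h
    have h4 := congrFun h 0
    simp only [Pi.add_apply, Matrix.cons_val_zero, h2, zero_add, add_zero] at h4
    exact h4
  refine ⟨(f ![0, 1]) 1, fun w => ?_⟩
  have h4 : ∀ y, (f ![0, y]) 1 = (f ![0, 1]) 1 * y := by
    intro y
    have a1 := h3 1 y
    have a2 := h3 y 1
    rw [one_mul, one_mul] at a1
    rw [mul_one] at a2
    rw [← a1, a2, mul_comm]
  have h5 : ∀ y, (f ![y, 0]) 0 = (f ![0, 1]) 1 * y := by
    intro y
    have a2 := h3 y 1
    rw [mul_one] at a2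
    rw [a2, mul_comm]
  have e : w = ![w 0, 0] + ![0, w 1] := by
    ext i; fin_cases i <;> simp
  conv_lhs => rw [e, hadd]
  ext i
  fin_cases i
  · change (f ![w 0, 0]) 0 + (f ![0, w 1]) 0 = (f ![0, 1]) 1 * w 0
    rw [h2, h5, add_zero]
  · change (f ![w 0, 0]) 1 + (f ![0, w 1]) 1 = (f ![0, 1]) 1 * w 1
    rw [h1, h4, zero_add]

theorem smul_inj {a b : F} (h : a • (![1, 0] : Fin 2 → F) = b • ![1, 0]) : a = b := by
  have := congrFun h 0
  simpa using this

section act

variable {G : Type*} [Group G] [DistribMulAction G (Fin 2 → F)] {s : SpecialLinearGroup (Fin 2) F →* G}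

/-- the field automorphism attached to an element normalizing `SL₂(F)` -/
def sg (G : Type*) [Group G] [DistribMulAction G (Fin 2 → F)] (g : G) (l : F) : F :=
  (g • (l • (g⁻¹ • (![1, 0] : Fin 2 → F)))) 0

variable (hs : ∀ m w, s m • w = m.1 *ᵥ w)

include hs

theorem sg_spec {g : G} (hg : g ∈ Subgroup.normalizer (s.range : Set G)) (l : F) (w : Fin 2 → F) :
    g • (l • (g⁻¹ • w)) = sg G g l • w := by
  have e1 : ∀ v w : Fin 2 → F, g • (l • (g⁻¹ • (v + w))) = g • (l • (g⁻¹ • v)) + g • (l • (g⁻¹ • w)) := by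
    intro v w
    rw [smul_add, smul_add, smul_add]
  have e2 : ∀ (m : SpecialLinearGroup (Fin 2) F) (w : Fin 2 → F),
      g • (l • (g⁻¹ • (m.1 *ᵥ w))) = m.1 *ᵥ (g • (l • (g⁻¹ • w))) := by
    intro m w
    have h1 : g⁻¹ * s m * g ∈ s.range := by
      have := (Subgroup.mem_normalizer_iff.1 ((Subgroup.normalizer _).inv_mem hg) (s m)).1 ⟨m, rfl⟩
      simpa using this
    obtain ⟨m', hm'⟩ := h1
    have h2 : g⁻¹ • (m.1 *ᵥ w) = m'.1 *ᵥ (g⁻¹ • w) := by
      rw [← hs, ← hs, hm', smul_smul, smul_smul]
      congr 1; group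
    have h3 : l • (m'.1 *ᵥ (g⁻¹ • w)) = m'.1 *ᵥ (l • (g⁻¹ • w)) := (Matrix.mulVec_smul _ _ _).symm
    rw [h2, h3, ← hs, ← hs, hm', smul_smul, smul_smul]
    congr 1; group
  obtain ⟨c, hc⟩ := scalar_of_commute (fun w : Fin 2 → F => g • (l • (g⁻¹ • w))) e1 e2
  have h0 := hc ![1, 0]
  have h1 : sg G g l = c := by
    unfold sg
    rw [h0]
    simp
  rw [h1]
  exact hc w

theorem sg_smul {g : G} (hg : g ∈ Subgroup.normalizer (s.range : Set G)) (l : F) (w : Fin 2 → F) :
    g • (l • w) = sg G g l • (g • w) := by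
  rw [← sg_spec hs hg, inv_smul_smul]

variable {p : ℕ} [hp : Fact p.Prime] [Algebra (ZMod p) F]

/-- the homomorphism to field automorphisms -/
noncomputable def sgHom : (Subgroup.normalizer (s.range : Set G) : Subgroup G) →* (F →ₐ[ZMod p] F) where
  toFun g :=
    { toFun := sg G (g : G)
      map_one' := by
        unfold sg
        rw [one_smul, smul_inv_smul]
        simp
      map_mul' := fun a b => by
        have h := sg_spec hs g.2
        apply smul_inj
        rw [← h, mul_smul, mul_smul, ← h b, ← h a, inv_smul_smul]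
      map_zero' := by
        unfold sg
        rw [zero_smul, smul_zero]
        rfl
      map_add' := fun a b => by
        unfold sg
        rw [add_smul, smul_add]
        rfl
      commutes' := fun r => by
        have key : ∀ (φ ψ : ZMod p →+* F), φ = ψ := fun φ ψ => RingHom.ext_zmod φ ψ
        let τ : F →+* F :=
          { toFun := sg G (g : G)
            map_one' := by
              unfold sg
              rw [one_smul, smul_inv_smul]
              simp
            map_mul' := fun a b => by
              have h := sg_spec hs g.2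
              apply smul_inj
              rw [← h, mul_smul, mul_smul, ← h b, ← h a, inv_smul_smul]
            map_zero' := by
              unfold sg
              rw [zero_smul, smul_zero]
              rfl
            map_add' := fun a b => by
              unfold sg
              rw [add_smul, smul_add]
              rfl }
        exact RingHom.congr_fun (key (τ.comp (algebraMap (ZMod p) F)) (algebraMap (ZMod p) F)) r }
  map_one' := by
    ext l
    change sg G (1 : G) l = l
    unfold sg
    rw [inv_one, one_smul, one_smul]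
    simp
  map_mul' g h := by
    ext l
    change sg G ((g : G) * (h : G)) l = sg G (g : G) (sg G (h : G) l)
    apply smul_inj
    rw [← sg_spec hs (mul_mem g.2 h.2), ← sg_spec hs g.2, ← sg_spec hs h.2, _root_.mul_inv_rev, mul_smul, mul_smul]


theorem sgHom_apply (g : (Subgroup.normalizer (s.range : Set G) : Subgroup G)) (l : F) :
    sgHom hs (p := p) g l = sg G (g : G) l := rfl

/-- the homomorphism to the Galois group -/
noncomputable def galHom : (Subgroup.normalizer (s.range : Set G) : Subgroup G) →* (F ≃ₐ[ZMod p] F) :=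
  (AlgEquiv.algHomUnitsEquiv (ZMod p) F).toMonoidHom.comp (sgHom hs).toHomUnits


theorem galHom_apply (g : (Subgroup.normalizer (s.range : Set G) : Subgroup G)) (l : F) :
    galHom hs (p := p) g l = sg G (g : G) l := rfl

end act

end Cfsg.Agent.Lib.NatSL2a
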