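import Cfsg.Agent.Lib.NatSL2a

/-!
Groups containing `SL₂(F)` on the natural module (S2932): the Sylow subgroup.
-/

set_option autoImplicit false

namespace Cfsg.Agent.Lib.NatSL2b

open Cfsg.Agent.Lib.HigSL2 Matrix Cfsg.Agent.Lib.NatSL2a

variable {F : Type*} [Field F]

/-- the line fixed by the unitriangular subgroup -/
def V1 (F : Type*) [Field F] : AddSubgroup (Fin 2 → F) where
  carrier := {w | w 1 = 0}
  add_mem' := fun {a b} ha hb => by
    change a 1 + b 1 = 0
    rw [show a 1 = 0 from ha, show b 1 = 0 from hb, add_zero]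
  zero_mem' := rfl
  neg_mem' := fun {a} ha => by
    change - a 1 = 0
    rw [show a 1 = 0 from ha, neg_zero]

theorem mem_V1 {w : Fin 2 → F} : w ∈ V1 F ↔ w 1 = 0 := Iff.rfl

variable {G : Type*} [Group G] [DistribMulAction G (Fin 2 → F)] {s : SpecialLinearGroup (Fin 2) F →* G}
variable (hs : ∀ m w, s m • w = m.1 *ᵥ w)
include hs

theorem u_smul (a : F) (w : Fin 2 → F) : s (U a) • w = ![w 0 + a * w 1, w 1] := by
  rw [hs, U_mulVec]

theorem u_fix_iff (a : F) (w : Fin 2 → F) : s (U a) • w = w ↔ a * w 1 = 0 := by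
  rw [u_smul hs]
  constructor
  · intro h
    have := congrFun h 0
    simpa using this
  · intro h
    rw [h, add_zero]
    exact (eta2 w).symm

theorem u_sub_mem (a : F) (w : Fin 2 → F) : s (U a) • w - w ∈ V1 F := by
  rw [u_smul hs, mem_V1]
  simp

theorem s_injective [FaithfulSMul G (Fin 2 → F)] : Function.Injective s := by
  rw [injective_iff_map_eq_one]
  intro m hm
  have h : ∀ w, m.1 *ᵥ w = w := fun w => by rw [← hs, hm, one_smul]
  apply Subtype.ext
  change m.1 = 1
  ext i j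
  have h1 := congrFun (h (Pi.single j 1)) i
  rw [Matrix.mulVec_single_one] at h1
  rw [Matrix.one_apply]
  simpa [Pi.single_apply] using h1

variable {p : ℕ} [hp : Fact p.Prime]

/-- a `p`-subgroup of `SL₂(F)` containing the unitriangular group is unitriangular -/
theorem mem_U_of_mem [Finite F] [CharP F p] {P : Subgroup G} (hP : IsPGroup p P) (hU : ∀ a, s (U a) ∈ P)
    {g : G} (hg : g ∈ P) (hg2 : g ∈ s.range) : ∃ a, g = s (U a) := by
  classical
  have hfin : Fintype F := Fintype.ofFinite F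
  have hQ : IsPGroup p (P ⊓ s.range : Subgroup G) := hP.to_le inf_le_left
  have hcard : p ∣ Nat.card (Fin 2 → F) := by
    rw [Nat.card_fun, Nat.card_eq_fintype_card (α := Fin 2), Fintype.card_fin, Nat.card_eq_fintype_card]
    exact dvd_pow ((CharP.cast_eq_zero_iff F p _).1 (by rw [Nat.cast_card_eq_zero])) (by norm_num)
  obtain ⟨b, hb, hb0⟩ := hQ.exists_fixed_point_of_prime_dvd_card_of_fixed_point (Fin 2 → F) hcard
    (a := 0) (fun g => smul_zero _)
  have hb1 : s (U 1) • b = b := hb ⟨s (U 1), hU 1, ⟨_, rfl⟩⟩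
  rw [u_fix_iff hs, one_mul] at hb1
  have hx : b 0 ≠ 0 := by
    intro h
    apply hb0
    rw [eta2 b, hb1, h]
    ext i; fin_cases i <;> rfl
  obtain ⟨m, rfl⟩ := hg2
  obtain ⟨a, c, d, e, hdet, rfl⟩ := exists_mk4 m
  have h2 : s (mk4 a c d e hdet) • b = b := hb ⟨_, hg, ⟨_, rfl⟩⟩
  rw [hs, mk4_mulVec] at h2
  have h3 := congrFun h2 0
  have h4 := congrFun h2 1
  simp only [Matrix.cons_val_zero, Matrix.cons_val_one, hb1, mul_zero, add_zero] at h3 h4
  have ha : a = 1 := by
    apply mul_right_cancel₀ hx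
    rw [h3, one_mul]
  have hd : d = 0 := by
    rcases mul_eq_zero.1 h4 with h | h
    · exact h
    · exact absurd h hx
  have he : e = 1 := by
    rw [ha, hd] at hdet
    linear_combination hdet
  subst ha hd he
  exact ⟨c, rfl⟩

theorem smul_mem_V1 [Finite F] [CharP F p] {P : Subgroup G} (hP : IsPGroup p P) (hU : ∀ a, s (U a) ∈ P)
    (hPN : P ≤ Subgroup.normalizer (s.range : Set G))
    {g : G} (hg : g ∈ P) {w : Fin 2 → F} (hw : w ∈ V1 F) : g • w ∈ V1 F := by
  have h1 : g⁻¹ * s (U 1) * g ∈ s.range := by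
    have := (Subgroup.mem_normalizer_iff.1 ((Subgroup.normalizer _).inv_mem (hPN hg)) (s (U 1))).1 ⟨_, rfl⟩
    simpa using this
  obtain ⟨a, ha⟩ := mem_U_of_mem hs hP hU (mul_mem (mul_mem (inv_mem hg) (hU 1)) hg) h1
  have h2 : (g⁻¹ * s (U 1) * g) • w = w := by
    rw [ha, u_fix_iff hs, mem_V1.1 hw, mul_zero]
  have h3 : s (U 1) • (g • w) = g • w := by
    rw [mul_smul, mul_smul, inv_smul_eq_iff] at h2
    exact h2
  rw [u_fix_iff hs, one_mul] at h3
  exact h3

theorem mem_U_of_sg [Finite F] [CharP F p] [FaithfulSMul G (Fin 2 → F)] {P : Subgroup G} (hP : IsPGroup p P)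
    (hU : ∀ a, s (U a) ∈ P) (hPN : P ≤ Subgroup.normalizer (s.range : Set G))
    {g : G} (hg : g ∈ P) (h1 : ∀ l : F, sg G g l = l) : ∃ a, g = s (U a) := by
  have hlin : ∀ (l : F) (w : Fin 2 → F), g • (l • w) = l • (g • w) := by
    intro l w
    rw [sg_smul hs (hPN hg), h1]
  have hexp : ExpChar F p := ExpChar.prime hp.out
  obtain ⟨k, hk⟩ := hP ⟨g, hg⟩
  have hk' : g ^ p ^ k = 1 := congrArg Subtype.val hk
  have hdec : ∀ w : Fin 2 → F, w = w 0 • ![1, 0] + w 1 • ![0, 1] := by
    intro w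
    ext i; fin_cases i <;> simp
  have he0 : (g • (![1, 0] : Fin 2 → F)) 1 = 0 :=
    smul_mem_V1 hs hP hU hPN hg (mem_V1.2 (by simp))
  have hform : ∀ w : Fin 2 → F, g • w = w 0 • (g • ![1, 0]) + w 1 • (g • ![0, 1]) := by
    intro w
    conv_lhs => rw [hdec w]
    rw [smul_add, hlin, hlin]
  have hcomp1 : ∀ w : Fin 2 → F, (g • w) 1 = w 1 * (g • (![0, 1] : Fin 2 → F)) 1 := by
    intro w
    rw [hform w]
    simp only [Pi.add_apply, Pi.smul_apply, smul_eq_mul]
    rw [he0, mul_zero, zero_add]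
  have hpow1 : ∀ (n : ℕ) (w : Fin 2 → F), (g ^ n • w) 1 = w 1 * ((g • (![0, 1] : Fin 2 → F)) 1) ^ n := by
    intro n
    induction n with
    | zero => intro w; simp
    | succ n ih =>
      intro w
      rw [pow_succ', mul_smul, hcomp1, ih, pow_succ, mul_assoc]
  have hd : (g • (![0, 1] : Fin 2 → F)) 1 = 1 := by
    have h2 := hpow1 (p ^ k) ![0, 1]
    rw [hk', one_smul] at h2
    simp only [Matrix.cons_val_one, Matrix.cons_val_fin_one, one_mul] at h2
    have h3 := (ExpChar.pow_prime_pow_mul_eq_one_iff (R := F) p k 1 ((g • (![0, 1] : Fin 2 → F)) 1)).1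
      (by rw [mul_one]; exact h2.symm)
    simpa using h3
  have hcomp0 : ∀ w : Fin 2 → F, w 1 = 0 → (g • w) 0 = w 0 * (g • (![1, 0] : Fin 2 → F)) 0 := by
    intro w hw
    rw [hform w]
    simp only [Pi.add_apply, Pi.smul_apply, smul_eq_mul]
    rw [hw, zero_mul, add_zero]
  have hpow0 : ∀ (n : ℕ) (w : Fin 2 → F), w 1 = 0 →
      (g ^ n • w) 0 = w 0 * ((g • (![1, 0] : Fin 2 → F)) 0) ^ n := by
    intro n
    induction n with
    | zero => intro w _; simp
    | succ n ih =>
      intro w hw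
      rw [pow_succ', mul_smul, hcomp0 _ (by rw [hpow1, hw, zero_mul]), ih w hw, pow_succ, mul_assoc]
  have hc : (g • (![1, 0] : Fin 2 → F)) 0 = 1 := by
    have h2 := hpow0 (p ^ k) ![1, 0] (by simp)
    rw [hk', one_smul] at h2
    simp only [Matrix.cons_val_zero, one_mul] at h2
    have h3 := (ExpChar.pow_prime_pow_mul_eq_one_iff (R := F) p k 1 ((g • (![1, 0] : Fin 2 → F)) 0)).1
      (by rw [mul_one]; exact h2.symm)
    simpa using h3
  refine ⟨(g • (![0, 1] : Fin 2 → F)) 0, ?_⟩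
  apply FaithfulSMul.eq_of_smul_eq_smul (α := Fin 2 → F)
  intro w
  rw [u_smul hs, hform w]
  ext i
  fin_cases i
  · simp only [Pi.add_apply, Pi.smul_apply, smul_eq_mul, Fin.zero_eta, Matrix.cons_val_zero]
    rw [hc, mul_one, mul_comm]
  · simp only [Pi.add_apply, Pi.smul_apply, smul_eq_mul, Fin.mk_one, Matrix.cons_val_one]
    rw [he0, hd, mul_zero, zero_add, mul_one]
    rfl

/-- the subgroup acting trivially on the line and on the quotient -/
def KK (G : Type*) [Group G] [DistribMulAction G (Fin 2 → F)] : Subgroup G where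
  carrier := {g | (∀ w ∈ V1 F, g • w = w) ∧ ∀ w : Fin 2 → F, g • w - w ∈ V1 F}
  one_mem' := ⟨fun w _ => one_smul _ _, fun w => by rw [one_smul, sub_self]; exact zero_mem _⟩
  mul_mem' := fun {a b} ha hb => ⟨fun w hw => by rw [mul_smul, hb.1 w hw, ha.1 w hw], fun w => by
    have h1 : (a * b) • w - w = a • (b • w - w) + (a • w - w) := by
      rw [smul_sub, mul_smul]; abel
    rw [h1, ha.1 _ (hb.2 w)]
    exact add_mem (hb.2 w) (ha.2 w)⟩
  inv_mem' := fun {a} ha => ⟨fun w hw => by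
    rw [inv_smul_eq_iff]; exact (ha.1 w hw).symm, fun w => by
    have h1 : a⁻¹ • w - w = - (a • (a⁻¹ • w) - a⁻¹ • w) := by
      rw [smul_inv_smul]; abel
    rw [h1]
    exact neg_mem (ha.2 _)⟩

omit hs in
theorem KK_isPGroup [CharP F p] [FaithfulSMul G (Fin 2 → F)] : IsPGroup p (KK (F := F) G) := by
  intro g
  refine ⟨1, ?_⟩
  apply Subtype.ext
  change (g : G) ^ p ^ 1 = 1
  rw [pow_one]
  apply FaithfulSMul.eq_of_smul_eq_smul (α := Fin 2 → F)
  intro w
  have key : ∀ n : ℕ, (g : G) ^ n • w = w + n • ((g : G) • w - w) := by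
    intro n
    induction n with
    | zero => simp
    | succ n ih =>
      rw [pow_succ', mul_smul, ih, smul_add, g.2.1 _ ((V1 F).nsmul_mem (g.2.2 w) n), succ_nsmul]
      abel
  rw [key p, one_smul]
  have : p • ((g : G) • w - w) = 0 := by
    ext i
    rw [Pi.smul_apply, nsmul_eq_mul, CharP.cast_eq_zero, zero_mul]
    rfl
  rw [this, add_zero]

/-- elements acting trivially on the line and on the quotient are unitriangular -/
theorem mem_U_of_KK [Finite F] [CharP F p] [FaithfulSMul G (Fin 2 → F)] (P : Sylow p G)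
    (hU : ∀ a, s (U a) ∈ (P : Subgroup G)) (hPN : (P : Subgroup G) ≤ Subgroup.normalizer (s.range : Set G))
    {g : G} (hg : g ∈ KK (F := F) G) : ∃ a, g = s (U a) := by
  have hnorm : (P : Subgroup G) ≤ Subgroup.normalizer ((KK (F := F) G : Subgroup G) : Set G) := by
    intro x hx
    have key : ∀ x ∈ (P : Subgroup G), ∀ g ∈ KK (F := F) G, x * g * x⁻¹ ∈ KK (F := F) G := by
      intro x hx g hg
      refine ⟨fun w hw => ?_, fun w => ?_⟩
      · rw [mul_smul, mul_smul, hg.1 _ (smul_mem_V1 hs P.2 hU hPN (inv_mem hx) hw), smul_inv_smul]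
      · have : (x * g * x⁻¹) • w - w = x • (g • (x⁻¹ • w) - x⁻¹ • w) := by
          rw [smul_sub, smul_inv_smul, mul_smul, mul_smul]
        rw [this]
        exact smul_mem_V1 hs P.2 hU hPN hx (hg.2 _)
    rw [Subgroup.mem_normalizer_iff]
    intro g
    constructor
    · exact key x hx g
    · intro h
      have := key x⁻¹ (inv_mem hx) _ h
      simpa [mul_assoc] using this
  have h1 : IsPGroup p ((P : Subgroup G) ⊔ KK (F := F) G : Subgroup G) :=
    P.2.to_sup_of_normal_right' KK_isPGroup hnorm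
  have h2 := P.is_maximal' h1 le_sup_left
  have hgP : g ∈ (P : Subgroup G) := by
    have : g ∈ ((P : Subgroup G) ⊔ KK (F := F) G : Subgroup G) := Subgroup.mem_sup_right hg
    rw [h2] at this
    exact this
  refine mem_U_of_sg hs P.2 hU hPN hgP (fun l => ?_)
  apply smul_inj
  rw [← sg_spec hs (hPN hgP)]
  have e1 : g⁻¹ • (![1, 0] : Fin 2 → F) = ![1, 0] := by
    rw [inv_smul_eq_iff]; exact (hg.1 _ (by rw [mem_V1]; simp)).symm
  rw [e1]
  exact hg.1 _ (by rw [mem_V1]; simp)

end Cfsg.Agent.Lib.NatSL2b
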