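import Cfsg.Agent.Lib.NatSL2b

/-!
Groups containing `SL₂(F)` on the natural module (S2932): two conjugates of the fixed line meeting nontrivially
force `|F| = 4`.
-/

set_option autoImplicit false

namespace Cfsg.Agent.Lib.NatSL2c

open Cfsg.Agent.Lib.HigSL2 Matrix Cfsg.Agent.Lib.NatSL2a Cfsg.Agent.Lib.NatSL2b
open scoped Pointwise

variable {F : Type*} [Field F] [Finite F]

theorem sq_card_fixed_le {p : ℕ} [Fact p.Prime] [Algebra (ZMod p) F] (σ : F ≃ₐ[ZMod p] F) (hσ : σ ≠ 1) :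
    Nat.card {l : F // σ l = l} * Nat.card {l : F // σ l = l} ≤ Nat.card F := by
  obtain ⟨y, hy⟩ : ∃ y, σ y ≠ y := by
    by_contra hcon
    push Not at hcon
    exact hσ (AlgEquiv.ext hcon)
  rw [← Nat.card_prod]
  refine Nat.card_le_card_of_injective (fun x : {l : F // σ l = l} × {l : F // σ l = l} => x.1.1 + x.2.1 * y) ?_
  rintro ⟨⟨a, ha⟩, ⟨b, hb⟩⟩ ⟨⟨c, hc⟩, ⟨d, hd⟩⟩ h
  change a + b * y = c + d * y at h
  have h1 : (b - d) * y = c - a := by linear_combination h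
  have h2 : (b - d) * σ y = c - a := by
    have := congrArg σ h1
    simpa [ha, hb, hc, hd] using this
  have h3 : (b - d) * (σ y - y) = 0 := by linear_combination h2 - h1
  rcases mul_eq_zero.1 h3 with h4 | h4
  · have hbd : b = d := sub_eq_zero.1 h4
    subst hbd
    have hac : a = c := by linear_combination h
    subst hac
    rfl
  · exact absurd (sub_eq_zero.1 h4) hy

theorem p_le_card_fixed {p : ℕ} [hp : Fact p.Prime] [Algebra (ZMod p) F] (σ : F ≃ₐ[ZMod p] F) :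
    p ≤ Nat.card {l : F // σ l = l} := by
  have h1 : Nat.card (ZMod p) = p := by simp
  refine h1.symm.le.trans ?_
  refine Nat.card_le_card_of_injective (fun x : ZMod p => (⟨algebraMap (ZMod p) F x, by simp⟩ : {l : F // σ l = l})) ?_
  intro a b h
  exact (algebraMap (ZMod p) F).injective (congrArg Subtype.val h)

omit [Finite F] in
theorem card_V1 : Nat.card (V1 F) = Nat.card F := by
  refine Nat.card_congr ⟨fun w => w.1 0, fun x => ⟨![x, 0], by rw [mem_V1]; simp⟩, fun w => ?_, fun x => ?_⟩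
  · apply Subtype.ext
    change ![w.1 0, 0] = w.1
    conv_rhs => rw [eta2 w.1]
    rw [mem_V1.1 w.2]
  · simp

variable {G : Type*} [Group G] [DistribMulAction G (Fin 2 → F)] {s : SpecialLinearGroup (Fin 2) F →* G}

omit [Finite F] in
theorem card_smul (g : G) (V : AddSubgroup (Fin 2 → F)) : Nat.card ↥(g • V) = Nat.card V := by
  refine (Nat.card_congr ⟨fun w => ⟨g • w.1, AddSubgroup.smul_mem_pointwise_smul _ _ _ w.2⟩,
    fun w => ⟨g⁻¹ • w.1, AddSubgroup.mem_pointwise_smul_iff_inv_smul_mem.1 w.2⟩, fun w => ?_, fun w => ?_⟩).symm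
  · simp
  · simp

/-- the unitriangular subgroup -/
def UU (s : SpecialLinearGroup (Fin 2) F →* G) : Subgroup G where
  carrier := {g | ∃ a, g = s (U a)}
  one_mem' := ⟨0, by rw [U_zero, map_one]⟩
  mul_mem' := fun {a b} ha hb => by
    obtain ⟨x, rfl⟩ := ha
    obtain ⟨y, rfl⟩ := hb
    exact ⟨x + y, by rw [← map_mul, U_mul]⟩
  inv_mem' := fun {a} ha => by
    obtain ⟨x, rfl⟩ := ha
    exact ⟨-x, by rw [inv_eq_iff_mul_eq_one, ← map_mul, U_mul, add_neg_cancel, U_zero, map_one]⟩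

omit [Finite F] [DistribMulAction G (Fin 2 → F)] in
theorem u_pow (a : F) (n : ℕ) : s (U a) ^ n = s (U (n * a)) := by
  induction n with
  | zero => rw [pow_zero, Nat.cast_zero, zero_mul, U_zero, map_one]
  | succ n ih => rw [pow_succ, ih, ← map_mul, U_mul]; congr 2; push_cast; ring

variable (hs : ∀ m w, s m • w = m.1 *ᵥ w)
include hs

variable {p : ℕ} [hp : Fact p.Prime]

theorem stab_V1 [CharP F p] {P : Subgroup G} (hP : IsPGroup p P) (hU : ∀ a, s (U a) ∈ P)
    (hPN : P ≤ Subgroup.normalizer (s.range : Set G)) {g : G} (hg : g ∈ P) : g • V1 F = V1 F := by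
  ext w
  rw [AddSubgroup.mem_pointwise_smul_iff_inv_smul_mem]
  constructor
  · intro h
    have := smul_mem_V1 hs hP hU hPN hg h
    rwa [smul_inv_smul] at this
  · intro h
    exact smul_mem_V1 hs hP hU hPN (inv_mem hg) h

omit hp in
/-- by maximality an element of `U` moving a vector of `V₂` inside `V₂` stabilizes `V₂` -/
theorem stab_of_max {h : G}
    (hmax : ∀ k : G, k • V1 F ≠ V1 F → Nat.card ↥(V1 F ⊓ k • V1 F) ≤ Nat.card ↥(V1 F ⊓ h • V1 F))
    {v : Fin 2 → F} (hv : v ∈ h • V1 F) (hv1 : v ∉ V1 F) (t : F)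
    (ht : s (U t) • v ∈ h • V1 F) : s (U t) • (h • V1 F) = h • V1 F := by
  by_contra hne
  have hk : (h⁻¹ * s (U t) * h) • V1 F ≠ V1 F := by
    intro h1
    apply hne
    rw [mul_smul, mul_smul, inv_smul_eq_iff] at h1
    exact h1
  have h2 := hmax _ hk
  have h3 : h • (V1 F ⊓ (h⁻¹ * s (U t) * h) • V1 F) = h • V1 F ⊓ s (U t) • (h • V1 F) := by
    ext w
    rw [AddSubgroup.mem_pointwise_smul_iff_inv_smul_mem, AddSubgroup.mem_inf, AddSubgroup.mem_inf,
      AddSubgroup.mem_pointwise_smul_iff_inv_smul_mem, AddSubgroup.mem_pointwise_smul_iff_inv_smul_mem,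
      AddSubgroup.mem_pointwise_smul_iff_inv_smul_mem, AddSubgroup.mem_pointwise_smul_iff_inv_smul_mem]
    have : (h⁻¹ * s (U t) * h)⁻¹ • h⁻¹ • w = h⁻¹ • (s (U t))⁻¹ • w := by
      rw [smul_smul, smul_smul]; congr 1; group
    rw [this]
  rw [← card_smul h, h3] at h2
  have h4 : V1 F ⊓ h • V1 F ≤ h • V1 F ⊓ s (U t) • (h • V1 F) := by
    intro w hw
    refine ⟨hw.2, ?_⟩
    have : (s (U t))⁻¹ • w = w := by
      rw [inv_smul_eq_iff]
      exact ((u_fix_iff hs t w).2 (by rw [mem_V1.1 hw.1, mul_zero])).symm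
    change w ∈ s (U t) • (h • V1 F)
    rw [AddSubgroup.mem_pointwise_smul_iff_inv_smul_mem, this]
    exact hw.2
  have h5 := AddSubgroup.eq_of_le_of_card_ge h4 h2
  have h6 : s (U t) • v ∈ V1 F ⊓ h • V1 F := by
    rw [h5]
    exact ⟨ht, AddSubgroup.smul_mem_pointwise_smul _ _ _ hv⟩
  apply hv1
  have h7 := mem_V1.1 h6.1
  rw [u_smul hs] at h7
  rw [mem_V1]
  simpa using h7

omit hp in
theorem exists_not_mem {h : G} (hne : h • V1 F ≠ V1 F) : ∃ v ∈ h • V1 F, v ∉ V1 F := by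
  by_contra hcon
  push Not at hcon
  exact hne (AddSubgroup.eq_of_le_of_card_ge hcon (by rw [card_smul]))

omit hp in
theorem card_le_U0 [FaithfulSMul G (Fin 2 → F)] {h : G} (hne : h • V1 F ≠ V1 F)
    (hmax : ∀ k : G, k • V1 F ≠ V1 F → Nat.card ↥(V1 F ⊓ k • V1 F) ≤ Nat.card ↥(V1 F ⊓ h • V1 F)) [Finite G] :
    Nat.card ↥(V1 F ⊓ h • V1 F) ≤ Nat.card ↥(UU s ⊓ MulAction.stabilizer G (h • V1 F)) := by
  obtain ⟨v, hv, hv1⟩ := exists_not_mem hs hne
  have hv0 : v 1 ≠ 0 := hv1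
  have key : ∀ w ∈ V1 F ⊓ h • V1 F, s (U (w 0 / v 1)) • v = v + w := by
    intro w hw
    rw [u_smul hs, div_mul_cancel₀ _ hv0]
    conv_rhs => rw [eta2 v, eta2 w, mem_V1.1 hw.1]
    ext i; fin_cases i <;> simp
  refine Nat.card_le_card_of_injective (fun w : ↥(V1 F ⊓ h • V1 F) =>
    (⟨s (U (w.1 0 / v 1)), ⟨⟨_, rfl⟩, ?_⟩⟩ : ↥(UU s ⊓ MulAction.stabilizer G (h • V1 F)))) ?_
  · change s (U (w.1 0 / v 1)) • (h • V1 F) = h • V1 F
    refine stab_of_max hs hmax hv hv1 _ ?_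
    rw [key _ w.2]
    exact add_mem hv w.2.2
  · intro a b hab
    have h1 : s (U (a.1 0 / v 1)) = s (U (b.1 0 / v 1)) := congrArg Subtype.val hab
    apply Subtype.ext
    have h2 := key _ a.2
    rw [h1, key _ b.2] at h2
    exact (add_left_cancel h2).symm

end Cfsg.Agent.Lib.NatSL2c
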