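import Cfsg.Agent.Lib.NatSL2c

/-!
Groups containing `SL₂(F)` on the natural module (S2932): two conjugates of the fixed line meeting nontrivially
force `|F| = 4`, conclusion of the counting.
-/

set_option autoImplicit false

namespace Cfsg.Agent.Lib.NatSL2d

open Cfsg.Agent.Lib.HigSL2 Matrix Cfsg.Agent.Lib.NatSL2a Cfsg.Agent.Lib.NatSL2b Cfsg.Agent.Lib.NatSL2c
open scoped Pointwise

theorem mem_conj_smul {A : Type*} [Group A] (K : Subgroup A) (g x : A) :
    x ∈ MulAut.conj g • K ↔ g⁻¹ * x * g ∈ K := by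
  rw [Subgroup.mem_pointwise_smul_iff_inv_smul_mem, ← map_inv, MulAut.smul_def, MulAut.conj_apply, inv_inv]

variable {F : Type*} [Field F] [Finite F]
variable {G : Type*} [Group G] [Finite G] [DistribMulAction G (Fin 2 → F)] [FaithfulSMul G (Fin 2 → F)]
  {s : SpecialLinearGroup (Fin 2) F →* G}
variable (hs : ∀ m w, s m • w = m.1 *ᵥ w)
include hs

variable {p : ℕ} [hp : Fact p.Prime] [CharP F p]

/-- a Sylow conjugation inside the stabilizer of the line -/
theorem exists_conj (P : Sylow p G) (hU : ∀ a, s (U a) ∈ (P : Subgroup G))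
    (hPN : (P : Subgroup G) ≤ Subgroup.normalizer (s.range : Set G)) (h : G) :
    ∃ k : G, k • V1 F = h • V1 F ∧ ∀ u ∈ UU s ⊓ MulAction.stabilizer G (h • V1 F), k⁻¹ * u * k ∈ (P : Subgroup G) := by
  set S : Subgroup G := MulAction.stabilizer G (h • V1 F) with hS
  have h1 : ((MulAut.conj h • P : Sylow p G) : Subgroup G) ≤ S := by
    intro x hx
    have hx0 : x ∈ MulAut.conj h • (P : Subgroup G) := hx
    have hx' : h⁻¹ * x * h ∈ (P : Subgroup G) := (mem_conj_smul _ _ _).1 hx0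
    have h2 := stab_V1 hs P.2 hU hPN hx'
    rw [mul_smul, mul_smul, inv_smul_eq_iff] at h2
    exact h2
  have hUp : IsPGroup p (UU s ⊓ S : Subgroup G) := by
    refine P.2.to_le ?_
    rintro _ ⟨⟨a, rfl⟩, -⟩
    exact hU a
  have hUp' : IsPGroup p ((UU s ⊓ S).subgroupOf S : Subgroup S) := by
    exact hUp.comap_subtype
  obtain ⟨Q, hQ⟩ := hUp'.exists_le_sylow
  obtain ⟨n, hn⟩ := MulAction.exists_smul_eq S ((MulAut.conj h • P : Sylow p G).subtype h1) Q
  refine ⟨(n : G) * h, ?_, fun u hu => ?_⟩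
  · rw [mul_smul]
    exact n.2
  · have hu2 : u ∈ S := hu.2
    have h3 : (⟨u, hu2⟩ : S) ∈ Q := hQ (Subgroup.mem_subgroupOf.2 hu)
    rw [← hn] at h3
    have h4 : (n⁻¹ * ⟨u, hu2⟩ * n : S) ∈ (MulAut.conj h • P : Sylow p G).subtype h1 := by
      have h5 : (⟨u, hu2⟩ : S) ∈ MulAut.conj n • (((MulAut.conj h • P : Sylow p G).subtype h1 : Sylow p S) : Subgroup S) := h3
      exact (mem_conj_smul _ _ _).1 h5
    have h6 : (n : G)⁻¹ * u * n ∈ (MulAut.conj h • P : Sylow p G) := h4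
    have h7 : (n : G)⁻¹ * u * n ∈ MulAut.conj h • (P : Subgroup G) := h6
    have h8 : h⁻¹ * ((n : G)⁻¹ * u * n) * h ∈ (P : Subgroup G) := (mem_conj_smul _ _ _).1 h7
    have : ((n : G) * h)⁻¹ * u * ((n : G) * h) = h⁻¹ * ((n : G)⁻¹ * u * n) * h := by group
    rw [this]
    exact h8

omit [CharP F p] in
/-- the fixed vectors of a semilinear map on the line -/
theorem card_fix_le [Algebra (ZMod p) F] (x : (Subgroup.normalizer (s.range : Set G) : Subgroup G))
    (hx : ∀ w ∈ V1 F, (x : G) • w ∈ V1 F) :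
    Nat.card {w : Fin 2 → F // w ∈ V1 F ∧ (x : G) • w = w} ≤ Nat.card {l : F // galHom hs (p := p) x l = l} := by
  set c : F := ((x : G) • (![1, 0] : Fin 2 → F)) 0 with hc
  have hform : ∀ w : Fin 2 → F, w ∈ V1 F → ((x : G) • w) 0 = galHom hs (p := p) x (w 0) * c := by
    intro w hw
    have h1 : w = w 0 • ![1, 0] := by
      conv_lhs => rw [eta2 w, mem_V1.1 hw]
      ext i; fin_cases i <;> simp
    conv_lhs => rw [h1, sg_smul hs x.2]
    rfl
  by_cases hex : ∃ w0 : Fin 2 → F, w0 ∈ V1 F ∧ (x : G) • w0 = w0 ∧ w0 ≠ 0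
  · obtain ⟨w0, hw0, hxw0, hne⟩ := hex
    have hne0 : w0 0 ≠ 0 := by
      intro h
      apply hne
      rw [eta2 w0, h, mem_V1.1 hw0]
      ext i; fin_cases i <;> rfl
    refine Nat.card_le_card_of_injective (fun w => ⟨w.1 0 / w0 0, ?_⟩) ?_
    · have h1 := hform w.1 w.2.1
      have h2 := hform w0 hw0
      rw [w.2.2] at h1
      rw [hxw0] at h2
      rw [map_div₀]
      have hc0 : c ≠ 0 := by
        intro h
        rw [h, mul_zero] at h2
        exact hne0 h2
      have hg0 : galHom hs (p := p) x (w0 0) ≠ 0 := by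
        intro h
        rw [h, zero_mul] at h2
        exact hne0 h2
      rw [div_eq_div_iff hg0 hne0]
      apply mul_right_cancel₀ hc0
      calc galHom hs (p := p) x (w.1 0) * w0 0 * c = (galHom hs (p := p) x (w.1 0) * c) * w0 0 := by ring
        _ = w.1 0 * w0 0 := by rw [← h1]
        _ = w.1 0 * (galHom hs (p := p) x (w0 0) * c) := by rw [← h2]
        _ = w.1 0 * galHom hs (p := p) x (w0 0) * c := by ring
    · intro a b hab
      have h1 : a.1 0 / w0 0 = b.1 0 / w0 0 := congrArg Subtype.val hab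
      have h2 : a.1 0 = b.1 0 := by
        field_simp at h1
        exact h1
      apply Subtype.ext
      rw [eta2 a.1, eta2 b.1, mem_V1.1 a.2.1, mem_V1.1 b.2.1, h2]
  · push Not at hex
    have h1 : Subsingleton {w : Fin 2 → F // w ∈ V1 F ∧ (x : G) • w = w} :=
      ⟨fun a b => Subtype.ext (by rw [hex _ a.2.1 a.2.2, hex _ b.2.1 b.2.2])⟩
    have h2 : Nonempty {l : F // galHom hs (p := p) x l = l} := ⟨⟨0, map_zero _⟩⟩
    exact (Finite.card_le_one_iff_subsingleton.2 h1).trans Nat.card_pos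

omit [CharP F p] hp in
/-- `|V₁| ≤ |fixed vectors| · |V₁ ∩ V₂|` -/
theorem card_V1_le {k : G} (x : G) (hx : ∀ w ∈ V1 F, x • w ∈ V1 F)
    (hx2 : ∀ w ∈ V1 F, k • (x • w - w) ∈ V1 F) :
    Nat.card F ≤ Nat.card {w : Fin 2 → F // w ∈ V1 F ∧ x • w = w} * Nat.card ↥(V1 F ⊓ k • V1 F) := by
  let δ : V1 F →+ (Fin 2 → F) :=
    { toFun := fun w => x • w.1 - w.1
      map_zero' := by simp
      map_add' := fun a b => by
        change x • (a.1 + b.1) - (a.1 + b.1) = (x • a.1 - a.1) + (x • b.1 - b.1)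
        rw [smul_add]; abel }
  have h1 : Nat.card (V1 F) = Nat.card δ.ker * Nat.card δ.range := by
    rw [← AddSubgroup.index_ker, AddSubgroup.card_mul_index]
  rw [← card_V1, h1]
  refine Nat.mul_le_mul ?_ ?_
  · refine Nat.card_le_card_of_injective (fun w => ⟨w.1.1, w.1.2, ?_⟩) ?_
    · exact sub_eq_zero.1 (w.2 : x • w.1.1 - w.1.1 = 0)
    · intro a b hab
      have : a.1.1 = b.1.1 := congrArg (fun z : {w : Fin 2 → F // w ∈ V1 F ∧ x • w = w} => z.1) hab
      exact Subtype.ext (Subtype.ext this)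
  · refine Nat.card_le_card_of_injective (fun w => ⟨k • w.1, ?_, ?_⟩) ?_
    · obtain ⟨y, hy⟩ := w.2
      rw [← hy]
      exact hx2 _ y.2
    · obtain ⟨y, hy⟩ := w.2
      rw [← hy]
      exact AddSubgroup.smul_mem_pointwise_smul _ _ _ (sub_mem (hx _ y.2) y.2)
    · intro a b hab
      have : k • a.1 = k • b.1 := congrArg Subtype.val hab
      exact Subtype.ext (smul_left_cancel k this)

/-- **Main counting.** -/
theorem core_max (P : Sylow p G) (hU : ∀ a, s (U a) ∈ (P : Subgroup G))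
    (hPN : (P : Subgroup G) ≤ Subgroup.normalizer (s.range : Set G)) {h : G} (hne : h • V1 F ≠ V1 F)
    (hW : V1 F ⊓ h • V1 F ≠ ⊥)
    (hmax : ∀ k : G, k • V1 F ≠ V1 F → Nat.card ↥(V1 F ⊓ k • V1 F) ≤ Nat.card ↥(V1 F ⊓ h • V1 F)) :
    p = 2 ∧ Nat.card F = 4 := by
  classical
  letI : Algebra (ZMod p) F := ZMod.algebra F p
  have hfin : Fintype F := Fintype.ofFinite F
  obtain ⟨k, hk, hkP⟩ := exists_conj hs P hU hPN h
  have ha : 1 < Nat.card ↥(V1 F ⊓ h • V1 F) := by
    have : Nontrivial ↥(V1 F ⊓ h • V1 F) := (AddSubgroup.nontrivial_iff_ne_bot _).2 hW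
    exact Finite.one_lt_card
  have h1 := card_le_U0 hs hne hmax
  set U0 : Subgroup G := UU s ⊓ MulAction.stabilizer G (h • V1 F) with hU0
  obtain ⟨v, hv, hv1⟩ := exists_not_mem hs hne
  -- the homomorphism to the Galois group
  have hNmem : ∀ u : U0, k⁻¹ * (u : G) * k ∈ Subgroup.normalizer (s.range : Set G) := fun u => hPN (hkP _ u.2)
  let φ0 : U0 →* (Subgroup.normalizer (s.range : Set G) : Subgroup G) :=
    { toFun := fun u => ⟨k⁻¹ * (u : G) * k, hNmem u⟩
      map_one' := by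
        apply Subtype.ext
        change k⁻¹ * (1 : G) * k = 1
        group
      map_mul' := fun a b => by
        apply Subtype.ext
        change k⁻¹ * ((a : G) * (b : G)) * k = (k⁻¹ * (a : G) * k) * (k⁻¹ * (b : G) * k)
        group }
  let φ : U0 →* (F ≃ₐ[ZMod p] F) := (galHom hs (p := p)).comp φ0
  have hφ : ∀ u : U0, φ u = 1 → u = 1 := by
    intro u hu
    have h2 : ∀ l : F, sg G (k⁻¹ * (u : G) * k) l = l := by
      intro l
      have := AlgEquiv.congr_fun hu l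
      exact this
    obtain ⟨b, hb⟩ := mem_U_of_sg hs P.2 hU hPN (hkP _ u.2) h2
    obtain ⟨t, ht⟩ := u.2.1
    have hv' : k⁻¹ • v ∈ V1 F := by
      rw [← hk] at hv
      exact AddSubgroup.mem_pointwise_smul_iff_inv_smul_mem.1 hv
    have h3 : (k⁻¹ * (u : G) * k) • (k⁻¹ • v) = k⁻¹ • v := by
      rw [hb, u_fix_iff hs, mem_V1.1 hv', mul_zero]
    rw [mul_smul, mul_smul, smul_inv_smul] at h3
    have h4 : (u : G) • v = v := smul_left_cancel _ h3
    rw [ht, u_fix_iff hs] at h4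
    rcases mul_eq_zero.1 h4 with h5 | h5
    · apply Subtype.ext
      rw [ht, h5, U_zero, map_one]
      rfl
    · exact absurd h5 hv1
  have hφinj : Function.Injective φ := (injective_iff_map_eq_one φ).2 hφ
  have hcyc : IsCyclic U0 := isCyclic_of_injective φ hφinj
  have hexp : ∀ u : U0, u ^ p = 1 := by
    intro u
    obtain ⟨t, ht⟩ := u.2.1
    apply Subtype.ext
    rw [Subgroup.coe_pow, ht, u_pow, CharP.cast_eq_zero, zero_mul, U_zero, map_one]
    rfl
  have hcard : Nat.card U0 ≤ p := by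
    have h2 : Monoid.exponent U0 ∣ p := Monoid.exponent_dvd_of_forall_pow_eq_one hexp
    rw [IsCyclic.exponent_eq_card] at h2
    exact Nat.le_of_dvd hp.out.pos h2
  have hU01 : 1 < Nat.card U0 := lt_of_lt_of_le ha h1
  have hnt : Nontrivial U0 := Finite.one_lt_card_iff_nontrivial.1 hU01
  obtain ⟨u, hu⟩ := exists_ne (1 : U0)
  set σ : F ≃ₐ[ZMod p] F := φ u with hσ
  have hσ1 : σ ≠ 1 := fun h => hu (hφ u h)
  have hσp : σ ^ p = 1 := by rw [hσ, ← map_pow, hexp, map_one]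
  -- counting
  have h2 := card_fix_le hs (p := p) (φ0 u) (fun w hw => smul_mem_V1 hs P.2 hU hPN (hkP _ u.2) hw)
  have h3 := card_V1_le hs (k := k) (k⁻¹ * (u : G) * k) (fun w hw => smul_mem_V1 hs P.2 hU hPN (hkP _ u.2) hw)
    (fun w hw => by
      obtain ⟨t, ht⟩ := u.2.1
      have : k • ((k⁻¹ * (u : G) * k) • w - w) = s (U t) • (k • w) - k • w := by
        rw [smul_sub, mul_smul, mul_smul, smul_inv_smul, ht]
      rw [this]
      exact u_sub_mem hs _ _)
  have h4 := sq_card_fixed_le σ hσ1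
  have h5 := p_le_card_fixed σ
  set f := Nat.card {l : F // σ l = l} with hf
  have h2' : Nat.card {w : Fin 2 → F // w ∈ V1 F ∧ (k⁻¹ * (u : G) * k) • w = w} ≤ f := h2
  rw [hk] at h3
  have h6 : Nat.card F ≤ f * p := h3.trans (Nat.mul_le_mul h2' (h1.trans hcard))
  have h7 : f = p := by
    apply le_antisymm _ h5
    have : f * f ≤ f * p := h4.trans h6
    have hfpos : 0 < f := lt_of_lt_of_le hp.out.pos h5
    exact Nat.le_of_mul_le_mul_left this hfpos
  rw [h7] at h4 h6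
  have hq : Nat.card F = p ^ 2 := by
    rw [sq]
    exact le_antisymm h6 h4
  have hfr : Module.finrank (ZMod p) F = 2 := by
    have h8 : Nat.card F = Nat.card (ZMod p) ^ Module.finrank (ZMod p) F := Module.natCard_eq_pow_finrank
    rw [Nat.card_zmod, hq] at h8
    exact (Nat.pow_right_injective hp.out.two_le h8).symm
  have hgal : Nat.card (F ≃ₐ[ZMod p] F) = 2 := by
    rw [IsGalois.card_aut_eq_finrank, hfr]
  have hord : orderOf σ = p := orderOf_eq_prime hσp hσ1
  have hdvd : p ∣ 2 := by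
    rw [← hord, ← hgal]
    exact orderOf_dvd_natCard σ
  have hp2 : p = 2 := (Nat.prime_dvd_prime_iff_eq hp.out Nat.prime_two).1 hdvd
  refine ⟨hp2, ?_⟩
  rw [hq, hp2]
  norm_num

theorem core (P : Sylow p G) (hU : ∀ a, s (U a) ∈ (P : Subgroup G))
    (hPN : (P : Subgroup G) ≤ Subgroup.normalizer (s.range : Set G)) {h : G} (hne : h • V1 F ≠ V1 F)
    (hW : V1 F ⊓ h • V1 F ≠ ⊥) : p = 2 ∧ Nat.card F = 4 := by
  have : Nonempty {k : G // k • V1 F ≠ V1 F} := ⟨⟨h, hne⟩⟩
  obtain ⟨k, hk⟩ := Finite.exists_max (fun k : {k : G // k • V1 F ≠ V1 F} => Nat.card ↥(V1 F ⊓ k.1 • V1 F))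
  refine core_max hs P hU hPN k.2 ?_ (fun l hl => hk ⟨l, hl⟩)
  intro hbot
  have h1 := hk ⟨h, hne⟩
  have h2 : Nontrivial ↥(V1 F ⊓ h • V1 F) := (AddSubgroup.nontrivial_iff_ne_bot _).2 hW
  have h3 : 1 < Nat.card ↥(V1 F ⊓ h • V1 F) := Finite.one_lt_card
  simp only [hbot, AddSubgroup.card_bot] at h1
  omega

end Cfsg.Agent.Lib.NatSL2d
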