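import Cfsg.Agent.Lib.NatSL2d

/-!
Groups containing `SL₂(F)` on the natural module (S2932): when the conjugates of the line are disjoint, `SL₂(F)` is
normal.
-/

set_option autoImplicit false

namespace Cfsg.Agent.Lib.NatSL2e

open Cfsg.Agent.Lib.HigSL2 Matrix Cfsg.Agent.Lib.NatSL2a Cfsg.Agent.Lib.NatSL2b Cfsg.Agent.Lib.NatSL2c
open scoped Pointwise

variable {F : Type*} [Field F]

theorem exists_mulVec_eq (w : Fin 2 → F) (hw : w ≠ 0) :
    ∃ m : SpecialLinearGroup (Fin 2) F, m.1 *ᵥ ![1, 0] = w := by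
  by_cases h0 : w 0 = 0
  · have h1 : w 1 ≠ 0 := by
      intro h
      apply hw
      rw [eta2 w, h0, h]
      ext i; fin_cases i <;> rfl
    refine ⟨mk4 (w 0) (-(w 1)⁻¹) (w 1) 0 (by field_simp; ring), ?_⟩
    rw [mk4_mulVec]
    conv_rhs => rw [eta2 w]
    ext i; fin_cases i <;> simp
  · refine ⟨mk4 (w 0) 0 (w 1) (w 0)⁻¹ (by field_simp; ring), ?_⟩
    rw [mk4_mulVec]
    conv_rhs => rw [eta2 w]
    ext i; fin_cases i <;> simp

/-- the Weyl element -/
def wy : SpecialLinearGroup (Fin 2) F := mk4 0 1 (-1) 0 (by ring)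

theorem Lo_eq (b : F) : Lo b = wy * U (-b) * wy⁻¹ := by
  unfold wy Lo U
  rw [mk4_inv, mk4_mul, mk4_mul]
  apply mk4_ext <;> ring

variable [Finite F]
variable {G : Type*} [Group G] [DistribMulAction G (Fin 2 → F)] [FaithfulSMul G (Fin 2 → F)]
  {s : SpecialLinearGroup (Fin 2) F →* G}

/-- normality from conjugates of unitriangular elements -/
theorem normal_of_conj (hc : ∀ (h : G) (a : F), h * s (U a) * h⁻¹ ∈ s.range) : s.range.Normal := by
  constructor
  rintro _ ⟨m, rfl⟩ g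
  let T : Subgroup (SpecialLinearGroup (Fin 2) F) := s.range.comap ((MulAut.conj g).toMonoidHom.comp s)
  have hT : T = ⊤ := by
    refine closure_induction (fun a => ?_) (fun b => ?_)
    · change g * s (U a) * g⁻¹ ∈ s.range
      exact hc g a
    · change g * s (Lo b) * g⁻¹ ∈ s.range
      have : g * s (Lo b) * g⁻¹ = (g * s wy) * s (U (-b)) * (g * s wy)⁻¹ := by
        rw [Lo_eq, map_mul, map_mul, map_inv]
        group
      rw [this]
      exact hc _ _
  have : m ∈ T := by rw [hT]; trivial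
  exact this

variable (hs : ∀ m w, s m • w = m.1 *ᵥ w)
include hs

variable {p : ℕ} [hp : Fact p.Prime] [CharP F p]

theorem normal_of_disjoint (P : Sylow p G) (hU : ∀ a, s (U a) ∈ (P : Subgroup G))
    (hPN : (P : Subgroup G) ≤ Subgroup.normalizer (s.range : Set G))
    (hdis : ∀ h : G, h • V1 F ≠ V1 F → V1 F ⊓ h • V1 F = ⊥) : s.range.Normal := by
  apply normal_of_conj
  intro h a
  have he : (![1, 0] : Fin 2 → F) ≠ 0 := by
    intro h
    have := congrFun h 0
    simp at this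
  have heV : (![1, 0] : Fin 2 → F) ∈ V1 F := by rw [mem_V1]; simp
  have hw : h • (![1, 0] : Fin 2 → F) ≠ 0 := by
    intro h1
    apply he
    have := congrArg (fun x => h⁻¹ • x) h1
    simpa using this
  obtain ⟨m, hm⟩ := exists_mulVec_eq _ hw
  have hk1 : ((s m)⁻¹ * h) • (![1, 0] : Fin 2 → F) = ![1, 0] := by
    rw [mul_smul, inv_smul_eq_iff, hs]
    exact hm.symm
  have hkV : ((s m)⁻¹ * h) • V1 F = V1 F := by
    by_contra hne
    have h1 := hdis _ hne
    have h2 : (![1, 0] : Fin 2 → F) ∈ V1 F ⊓ ((s m)⁻¹ * h) • V1 F := by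
      refine ⟨heV, ?_⟩
      have := AddSubgroup.smul_mem_pointwise_smul (![1, 0] : Fin 2 → F) ((s m)⁻¹ * h) (V1 F) heV
      rw [hk1] at this
      exact this
    rw [h1] at h2
    exact he h2
  set k := (s m)⁻¹ * h with hk
  have hkinv : ∀ w ∈ V1 F, k⁻¹ • w ∈ V1 F := by
    intro w hw
    rw [← hkV] at hw
    exact AddSubgroup.mem_pointwise_smul_iff_inv_smul_mem.1 hw
  have hkmem : ∀ w ∈ V1 F, k • w ∈ V1 F := by
    intro w hw
    rw [← hkV]
    exact AddSubgroup.smul_mem_pointwise_smul _ _ _ hw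
  have h3 : k * s (U a) * k⁻¹ ∈ KK (F := F) G := by
    refine ⟨fun w hw => ?_, fun w => ?_⟩
    · rw [mul_smul, mul_smul, (u_fix_iff hs a _).2 (by rw [mem_V1.1 (hkinv w hw), mul_zero]), smul_inv_smul]
    · have : (k * s (U a) * k⁻¹) • w - w = k • (s (U a) • (k⁻¹ • w) - k⁻¹ • w) := by
        rw [smul_sub, smul_inv_smul, mul_smul, mul_smul]
      rw [this]
      exact hkmem _ (u_sub_mem hs _ _)
  obtain ⟨b, hb⟩ := mem_U_of_KK hs P hU hPN h3
  have h4 : h * s (U a) * h⁻¹ = s m * (k * s (U a) * k⁻¹) * (s m)⁻¹ := by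
    rw [hk]; group
  rw [h4, hb, ← map_mul, ← map_inv, ← map_mul]
  exact ⟨_, rfl⟩

/-- Either `SL₂(F)` is normal, or `|F| = 4`. -/
theorem normal_or [Finite G] (P : Sylow p G) (hU : ∀ a, s (U a) ∈ (P : Subgroup G))
    (hPN : (P : Subgroup G) ≤ Subgroup.normalizer (s.range : Set G)) :
    s.range.Normal ∨ (p = 2 ∧ Nat.card F = 4) := by
  by_cases h : ∀ h : G, h • V1 F ≠ V1 F → V1 F ⊓ h • V1 F = ⊥
  · exact Or.inl (normal_of_disjoint hs P hU hPN h)
  · push Not at h
    obtain ⟨g, hg1, hg2⟩ := h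
    exact Or.inr (NatSL2d.core hs P hU hPN hg1 hg2)

end Cfsg.Agent.Lib.NatSL2e
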