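import Cfsg.Agent.Lib.NatSL2e
import Cfsg.Agent.Lib.Cores
import Cfsg.Agent.Lib.GL4A8
import Cfsg.Agent.Lib.ClSL2

/-!
Groups containing `SL₂(4)` on the natural module (S2932): embedding in `GL₄(2)`, cores.
-/

set_option autoImplicit false

namespace Cfsg.Agent.Lib.NatSL2f

open Cfsg.Agent.Lib.HigSL2 Matrix Cfsg.Agent.Lib.NatSL2a Cfsg.Agent.Lib.NatSL2b Cfsg.Agent.Lib.NatSL2c
  Cfsg.Agent.Lib.NatSL2e
open scoped Pointwise

variable {F : Type*} [Field F] [Finite F] [CharP F 2]

theorem exists_ne_one_sq (h4 : Nat.card F = 4) : ∃ a : F, a ≠ 0 ∧ a ^ 2 ≠ 1 := by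
  classical
  have hfin : Fintype F := Fintype.ofFinite F
  by_contra hcon
  push Not at hcon
  have h1 : Nat.card F ≤ 2 := by
    have : ∀ a : F, a = 0 ∨ a = 1 := by
      intro a
      by_cases h : a = 0
      · exact Or.inl h
      · right
        have h2 := hcon a h
        have h3 : (a - 1) ^ 2 = 0 := by
          rw [sub_sq, h2]
          have : (2 : F) = 0 := CharTwo.two_eq_zero
          rw [this]; ring_nf
          linear_combination this
        exact sub_eq_zero.1 (pow_eq_zero_iff (two_ne_zero) |>.1 h3)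
    rw [Nat.card_eq_fintype_card]
    calc Fintype.card F ≤ ({0, 1} : Finset F).card := by
          rw [← Finset.card_univ]
          exact Finset.card_le_card (fun a _ => by
            rcases this a with h | h <;> simp [h])
      _ ≤ 2 := Finset.card_le_two
  omega

theorem simple_SL2 (h4 : Nat.card F = 4) : IsSimpleGroup (SpecialLinearGroup (Fin 2) F) := by
  have h1 := Matrix.ProjectiveSpecialLinearGroup.rank_two_simple' (exists_ne_one_sq h4)
  have hc : Subgroup.center (SpecialLinearGroup (Fin 2) F) = ⊥ := by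
    rw [eq_bot_iff]
    intro A hA
    rw [Matrix.SpecialLinearGroup.mem_center_iff] at hA
    obtain ⟨r, hr, hA⟩ := hA
    rw [Fintype.card_fin] at hr
    have h3 : (r - 1) ^ 2 = 0 := by
      have : (2 : F) = 0 := CharTwo.two_eq_zero
      linear_combination hr - (r - 1) * this
    have h4 : r = 1 := sub_eq_zero.1 (pow_eq_zero_iff (two_ne_zero) |>.1 h3)
    rw [Subgroup.mem_bot]
    apply Subtype.ext
    rw [← hA, h4, map_one]
    rfl
  have e : Matrix.ProjectiveSpecialLinearGroup (Fin 2) F ≃* SpecialLinearGroup (Fin 2) F :=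
    (QuotientGroup.quotientMulEquivOfEq hc).trans QuotientGroup.quotientBot
  exact (MulEquiv.isSimpleGroup_congr e).1 h1

theorem perfect_SL2 (h4 : Nat.card F = 4) : commutator (SpecialLinearGroup (Fin 2) F) = ⊤ := by
  obtain ⟨a, h1, h2⟩ := exists_ne_one_sq h4
  exact Matrix.SL2.commutator_eq_top h1 h2

theorem card_SL2 (h4 : Nat.card F = 4) : Nat.card (SpecialLinearGroup (Fin 2) F) = 60 := by
  have hfin : Fintype F := Fintype.ofFinite F
  rw [ClSL2.card_SL2 (q := 4) (by rw [← Nat.card_eq_fintype_card]; exact h4)]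
  norm_num

variable {G : Type*} [Group G] [Finite G] [DistribMulAction G (Fin 2 → F)] [FaithfulSMul G (Fin 2 → F)]
  {s : SpecialLinearGroup (Fin 2) F →* G}

/-- the embedding in `GL₄(2)` -/
theorem exists_embed (h4 : Nat.card F = 4) : ∃ f : G →* GL (Fin 4) (ZMod 2), Function.Injective f := by
  letI : Algebra (ZMod 2) F := ZMod.algebra F 2
  have hfin : Fintype F := Fintype.ofFinite F
  have hfr : Module.finrank (ZMod 2) (Fin 2 → F) = 4 := by
    have h1 : Nat.card (Fin 2 → F) = Nat.card (ZMod 2) ^ Module.finrank (ZMod 2) (Fin 2 → F) :=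
      Module.natCard_eq_pow_finrank
    rw [Nat.card_fun, Nat.card_eq_fintype_card (α := Fin 2), Fintype.card_fin, h4, Nat.card_zmod] at h1
    have h2 : (2 : ℕ) ^ 4 = 2 ^ Module.finrank (ZMod 2) (Fin 2 → F) := by rw [← h1]; norm_num
    exact (Nat.pow_right_injective le_rfl h2).symm
  let b := Module.finBasisOfFinrankEq (ZMod 2) (Fin 2 → F) hfr
  let φ : G →* Module.End (ZMod 2) (Fin 2 → F) :=
    { toFun := fun g => (DistribSMul.toAddMonoidHom (Fin 2 → F) g).toZModLinearMap 2
      map_one' := by ext w; simp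
      map_mul' := fun g h => by
        apply LinearMap.ext
        intro w
        change (g * h) • w = g • (h • w)
        rw [mul_smul] }
  let ψ : G →* (Matrix (Fin 4) (Fin 4) (ZMod 2))ˣ :=
    (Units.map ((LinearMap.toMatrixAlgEquiv b).toAlgHom : Module.End (ZMod 2) (Fin 2 → F) →* Matrix (Fin 4) (Fin 4) (ZMod 2))).comp φ.toHomUnits
  refine ⟨ψ, ?_⟩
  rw [injective_iff_map_eq_one]
  intro g hg
  have h1 : LinearMap.toMatrixAlgEquiv b (φ g) = 1 := congrArg Units.val hg
  have h2 : φ g = 1 := by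
    apply (LinearMap.toMatrixAlgEquiv b).injective
    rw [h1, map_one]
  apply FaithfulSMul.eq_of_smul_eq_smul (α := Fin 2 → F)
  intro w
  rw [one_smul]
  exact LinearMap.congr_fun h2 w

theorem card_dvd (h4 : Nat.card F = 4) (G : Type*) [Group G] [Finite G] [DistribMulAction G (Fin 2 → F)]
    [FaithfulSMul G (Fin 2 → F)] : Nat.card G ∣ 20160 := by
  obtain ⟨f, hf⟩ := exists_embed (G := G) h4
  rw [← GL4A8.card_GL4]
  exact Subgroup.card_dvd_of_injective f hf

variable (hs : ∀ m w, s m • w = m.1 *ᵥ w)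
include hs

/-- no nontrivial normal 2-subgroup -/
theorem eq_bot_of_isPGroup {N : Subgroup G} [hN : N.Normal] (hN2 : IsPGroup 2 N) : N = ⊥ := by
  classical
  have hfin : Fintype F := Fintype.ofFinite F
  have hcard : 2 ∣ Nat.card (Fin 2 → F) := by
    rw [Nat.card_fun, Nat.card_eq_fintype_card (α := Fin 2), Fintype.card_fin, Nat.card_eq_fintype_card]
    exact dvd_pow ((CharP.cast_eq_zero_iff F 2 _).1 (by rw [Nat.cast_card_eq_zero])) (by norm_num)
  have hp2 : Fact (Nat.Prime 2) := ⟨Nat.prime_two⟩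
  obtain ⟨b, hb, hb0⟩ := hN2.exists_fixed_point_of_prime_dvd_card_of_fixed_point (Fin 2 → F) hcard
    (a := 0) (fun g => smul_zero _)
  obtain ⟨m0, hm0⟩ := exists_mulVec_eq b (Ne.symm hb0)
  rw [eq_bot_iff]
  intro g hg
  rw [Subgroup.mem_bot]
  apply FaithfulSMul.eq_of_smul_eq_smul (α := Fin 2 → F)
  intro w
  rw [one_smul]
  by_cases hw : w = 0
  · rw [hw, smul_zero]
  obtain ⟨m, hm⟩ := exists_mulVec_eq w hw
  have h1 : w = (s (m * m0⁻¹)) • b := by
    rw [map_mul, mul_smul, hs m]
    have : s m0⁻¹ • b = ![1, 0] := by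
      rw [map_inv, inv_smul_eq_iff, hs]
      exact hm0.symm
    rw [this, hm]
  have h2 : ((s (m * m0⁻¹))⁻¹ * g * s (m * m0⁻¹)) • b = b := by
    have := hN.conj_mem g hg (s (m * m0⁻¹))⁻¹
    rw [inv_inv] at this
    exact hb ⟨_, this⟩
  rw [h1]
  rw [mul_smul, mul_smul, inv_smul_eq_iff] at h2
  exact h2

end Cfsg.Agent.Lib.NatSL2f
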