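import Cfsg.Agent.Lib.NatSL2f
import Cfsg.Agent.Lib.SubgroupTools

/-!
Groups containing `SL₂(4)` on the natural module (S2932): a nontrivial normal subgroup of odd order forces normality.
-/

set_option autoImplicit false

namespace Cfsg.Agent.Lib.NatSL2g

open Cfsg.Agent.Lib.HigSL2 Matrix Cfsg.Agent.Lib.NatSL2a Cfsg.Agent.Lib.NatSL2b Cfsg.Agent.Lib.NatSL2c
  Cfsg.Agent.Lib.NatSL2e Cfsg.Agent.Lib.NatSL2f
open scoped Pointwise

/-- a group of order dividing 21, embedded normally, contains a normal subgroup of prime order -/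
theorem exists_prime_normal {G : Type*} [Group G] [Finite G] {D : Subgroup G} [hD : D.Normal] (hne : D ≠ ⊥)
    (h21 : Nat.card D ∣ 21) : ∃ E : Subgroup G, E.Normal ∧ E ≤ D ∧ (Nat.card E).Prime := by
  have h7 : Fact (Nat.Prime 7) := ⟨by norm_num⟩
  by_cases h : 7 ∣ Nat.card D
  · let P : Sylow 7 D := default
    have hcard : Nat.card P = 7 := by
      rw [P.card_eq_multiplicity]
      have hpos : Nat.card D ≠ 0 := Nat.card_pos.ne'
      have h1 : (Nat.card D).factorization 7 = 1 := by
        apply le_antisymm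
        · by_contra hcon
          push Not at hcon
          have h2 : 7 ^ 2 ∣ Nat.card D := (h7.out.pow_dvd_iff_le_factorization hpos).2 hcon
          have := h2.trans h21
          omega
        · exact (h7.out.dvd_iff_one_le_factorization hpos).1 h
      rw [h1, pow_one]
    have hidx : (P : Subgroup D).index ∣ 3 := by
      have h1 := Subgroup.card_mul_index (P : Subgroup D)
      rw [hcard] at h1
      have h2 : 7 * (P : Subgroup D).index ∣ 7 * 3 := by rw [h1]; exact h21
      exact Nat.dvd_of_mul_dvd_mul_left (by norm_num) h2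
    have hs1 : Nat.card (Sylow 7 D) = 1 := by
      have h1 := card_sylow_modEq_one 7 D
      have h2 := (Sylow.card_dvd_index P).trans hidx
      have h3 := Nat.le_of_dvd (by norm_num) h2
      have h4 : Nat.card (Sylow 7 D) % 7 = 1 % 7 := h1
      omega
    have hsub : Subsingleton (Sylow 7 D) := (Nat.card_eq_one_iff_unique.1 hs1).1
    have hchar : (P : Subgroup D).Characteristic := Sylow.characteristic_of_subsingleton P
    refine ⟨(P : Subgroup D).map D.subtype, Cores.normal_map_subtype_of_characteristic _, ?_, ?_⟩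
    · rintro _ ⟨x, -, rfl⟩
      exact x.2
    · rw [Cores.card_map_subtype]
      change (Nat.card P).Prime
      rw [hcard]
      norm_num
  · refine ⟨D, hD, le_rfl, ?_⟩
    have h1 : (Nat.card D).Coprime 7 := (Nat.Prime.coprime_iff_not_dvd h7.out).2 h |>.symm
    have h2 : Nat.card D ∣ 3 := h1.dvd_of_dvd_mul_right (by norm_num; exact h21)
    have h3 : Nat.card D ≠ 1 := by
      intro h; exact hne (Subgroup.card_eq_one.1 h)
    rcases (Nat.dvd_prime Nat.prime_three).1 h2 with h4 | h4
    · exact absurd h4 h3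
    · rw [h4]; exact Nat.prime_three

variable {F : Type*} [Field F] [Finite F] [CharP F 2]
variable {G : Type*} [Group G] [Finite G] [DistribMulAction G (Fin 2 → F)] [FaithfulSMul G (Fin 2 → F)]
  {s : SpecialLinearGroup (Fin 2) F →* G}

omit [Finite F] [CharP F 2] [Finite G] [FaithfulSMul G (Fin 2 → F)] in
theorem exists_matrix {x : G} (hx : ∀ (l : F) (w : Fin 2 → F), x • (l • w) = l • (x • w)) :
    ∃ M : Matrix (Fin 2) (Fin 2) F, ∀ w : Fin 2 → F, x • w = M *ᵥ w := by
  let φ : (Fin 2 → F) →ₗ[F] (Fin 2 → F) :=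
    { toFun := fun w => x • w
      map_add' := fun a b => smul_add _ _ _
      map_smul' := fun l w => hx l w }
  refine ⟨LinearMap.toMatrix' φ, fun w => ?_⟩
  rw [LinearMap.toMatrix'_mulVec]
  rfl

omit [Finite F] [CharP F 2] in
theorem matrix_eq {M N : Matrix (Fin 2) (Fin 2) F} (h : ∀ w, M *ᵥ w = N *ᵥ w) : M = N :=
  Matrix.ext_of_mulVec_single (fun i => by rw [h])

variable (hs : ∀ m w, s m • w = m.1 *ᵥ w)
include hs

omit [Finite F] [CharP F 2] [Finite G] in
/-- the commutator of two linear elements is in `SL₂(F)` -/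
theorem commutator_mem {x y : G} (hx : ∀ (l : F) (w : Fin 2 → F), x • (l • w) = l • (x • w))
    (hy : ∀ (l : F) (w : Fin 2 → F), y • (l • w) = l • (y • w)) : x * y * x⁻¹ * y⁻¹ ∈ s.range := by
  have hinv : ∀ z : G, (∀ (l : F) (w : Fin 2 → F), z • (l • w) = l • (z • w)) →
      ∀ (l : F) (w : Fin 2 → F), z⁻¹ • (l • w) = l • (z⁻¹ • w) := by
    intro z hz l w
    rw [inv_smul_eq_iff, hz, smul_inv_smul]
  obtain ⟨X, hX⟩ := exists_matrix hx
  obtain ⟨Y, hY⟩ := exists_matrix hy
  obtain ⟨X', hX'⟩ := exists_matrix (hinv x hx)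
  obtain ⟨Y', hY'⟩ := exists_matrix (hinv y hy)
  have h1 : X * X' = 1 := matrix_eq (fun w => by
    rw [← Matrix.mulVec_mulVec, ← hX', ← hX, smul_inv_smul, Matrix.one_mulVec])
  have h2 : Y * Y' = 1 := matrix_eq (fun w => by
    rw [← Matrix.mulVec_mulVec, ← hY', ← hY, smul_inv_smul, Matrix.one_mulVec])
  have hdet : (X * Y * X' * Y').det = 1 := by
    have d1 := congrArg Matrix.det h1
    have d2 := congrArg Matrix.det h2
    rw [Matrix.det_mul, Matrix.det_one] at d1 d2
    rw [Matrix.det_mul, Matrix.det_mul, Matrix.det_mul]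
    calc X.det * Y.det * X'.det * Y'.det = (X.det * X'.det) * (Y.det * Y'.det) := by ring
      _ = 1 := by rw [d1, d2, one_mul]
  let mm : SpecialLinearGroup (Fin 2) F := ⟨X * Y * X' * Y', hdet⟩
  refine ⟨mm, ?_⟩
  apply FaithfulSMul.eq_of_smul_eq_smul (α := Fin 2 → F)
  intro w
  rw [hs, mul_smul, mul_smul, mul_smul, hY', hX', hY, hX, Matrix.mulVec_mulVec,
    Matrix.mulVec_mulVec, Matrix.mulVec_mulVec]

/-- a normal subgroup of prime order forces normality -/
theorem normal_of_prime (h4 : Nat.card F = 4) {E : Subgroup G} [hE : E.Normal] (hp : (Nat.card E).Prime)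
    (hodd : ¬ 2 ∣ Nat.card E) : s.range.Normal := by
  classical
  have hfin : Fintype F := Fintype.ofFinite F
  have : Fact (Nat.card E).Prime := ⟨hp⟩
  have hcyc : IsCyclic E := isCyclic_of_prime_card (p := Nat.card E) rfl
  have hcent : ∀ (e : G), e ∈ E → ∀ m, s m * e = e * s m := by
    intro e he m
    let φ : SpecialLinearGroup (Fin 2) F →* (ZMod (Nat.card E))ˣ :=
      ((IsCyclic.mulAutMulEquiv E).toMonoidHom.comp (MulAut.conjNormal (H := E))).comp s
    have h1 : φ m = 1 := by
      have h2 : commutator (SpecialLinearGroup (Fin 2) F) ≤ φ.ker := Abelianization.commutator_subset_ker φ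
      rw [perfect_SL2 h4] at h2
      exact h2 (Subgroup.mem_top m)
    have h3 : MulAut.conjNormal (H := E) (s m) = 1 := by
      apply (IsCyclic.mulAutMulEquiv E).injective
      rw [map_one]
      exact h1
    have h5 := MulEquiv.congr_fun h3 ⟨e, he⟩
    have h6 := congrArg Subtype.val h5
    rw [MulAut.conjNormal_apply] at h6
    change s m * e * (s m)⁻¹ = e at h6
    rw [mul_inv_eq_iff_eq_mul] at h6
    exact h6
  obtain ⟨e, he1⟩ := IsCyclic.exists_generator (α := E)
  have hne : (e : G) ≠ 1 := by
    intro h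
    have h1 : e = 1 := Subtype.ext h
    have h2 : Nat.card E = 1 := by
      rw [Nat.card_eq_one_iff_unique]
      refine ⟨⟨fun a b => ?_⟩, ⟨1⟩⟩
      obtain ⟨i, hi⟩ := he1 a
      obtain ⟨j, hj⟩ := he1 b
      have hi' : (1 : E) ^ i = a := by rw [← h1]; exact hi
      have hj' : (1 : E) ^ j = b := by rw [← h1]; exact hj
      rw [← hi', ← hj', _root_.one_zpow, _root_.one_zpow]
    exact hp.ne_one h2
  obtain ⟨c, hc⟩ := scalar_of_commute (fun w : Fin 2 → F => (e : G) • w) (fun v w => smul_add _ _ _)
    (fun m w => by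
      change (e : G) • (m.1 *ᵥ w) = m.1 *ᵥ ((e : G) • w)
      rw [← hs, ← hs, smul_smul, smul_smul, hcent _ e.2 m])
  have hc' : ∀ w : Fin 2 → F, (e : G) • w = c • w := hc
  have hc1 : c ≠ 1 := by
    intro h
    apply hne
    apply FaithfulSMul.eq_of_smul_eq_smul (α := Fin 2 → F)
    intro w
    rw [hc', h, one_smul, one_smul]
  have hc0 : c ≠ 0 := by
    intro h
    have h1 := hc' ![1, 0]
    rw [h, zero_smul] at h1
    have h2 : (![1, 0] : Fin 2 → F) = 0 := by
      have := congrArg (fun x => (e : G)⁻¹ • x) h1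
      simpa using this
    have := congrFun h2 0
    simp at this
  have hall : ∀ l : F, l = 0 ∨ l = 1 ∨ l = c ∨ l = c * c := by
    have h2 : (2 : F) = 0 := CharTwo.two_eq_zero
    have hcc1 : c * c ≠ 1 := by
      intro h
      have h3 : (c - 1) ^ 2 = 0 := by linear_combination h - (c - 1) * h2
      exact hc1 (sub_eq_zero.1 (pow_eq_zero_iff (two_ne_zero) |>.1 h3))
    have hcc0 : c * c ≠ 0 := mul_ne_zero hc0 hc0
    have hccc : c * c ≠ c := by
      intro h
      exact hc1 (mul_left_cancel₀ hc0 (by rw [h, mul_one]))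
    have hcard : ({0, 1, c, c * c} : Finset F).card = 4 := by
      rw [Finset.card_insert_of_notMem, Finset.card_insert_of_notMem, Finset.card_insert_of_notMem,
        Finset.card_singleton]
      · simp only [Finset.mem_singleton]; exact fun h => hccc h.symm
      · simp only [Finset.mem_insert, Finset.mem_singleton, not_or]; exact ⟨fun h => hc1 h.symm, fun h => hcc1 h.symm⟩
      · simp only [Finset.mem_insert, Finset.mem_singleton, not_or]
        exact ⟨zero_ne_one, fun h => hc0 h.symm, fun h => hcc0 h.symm⟩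
    have huniv : ({0, 1, c, c * c} : Finset F) = Finset.univ := by
      apply Finset.eq_univ_of_card
      rw [hcard, ← h4, Nat.card_eq_fintype_card]
    intro l
    have : l ∈ ({0, 1, c, c * c} : Finset F) := by rw [huniv]; exact Finset.mem_univ _
    simpa using this
  have hlin : ∀ x ∈ Subgroup.centralizer (E : Set G), ∀ (l : F) (w : Fin 2 → F), x • (l • w) = l • (x • w) := by
    intro x hx l w
    have hxe : (e : G) * x = x * (e : G) := Subgroup.mem_centralizer_iff.1 hx _ e.2
    have hxc : ∀ w : Fin 2 → F, x • (c • w) = c • (x • w) := by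
      intro w
      rw [← hc', ← hc', smul_smul, smul_smul, hxe]
    rcases hall l with h | h | h | h
    · rw [h, zero_smul, zero_smul, smul_zero]
    · rw [h, one_smul, one_smul]
    · rw [h, hxc]
    · rw [h, mul_smul, mul_smul, hxc, hxc]
  have hle1 : ⁅Subgroup.centralizer (E : Set G), Subgroup.centralizer (E : Set G)⁆ ≤ s.range := by
    rw [Subgroup.commutator_le]
    intro x hx y hy
    exact commutator_mem hs (hlin x hx) (hlin y hy)
  have hle2 : s.range ≤ ⁅Subgroup.centralizer (E : Set G), Subgroup.centralizer (E : Set G)⁆ := by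
    have h1 : s.range ≤ Subgroup.centralizer (E : Set G) := by
      rintro _ ⟨m, rfl⟩
      rw [Subgroup.mem_centralizer_iff]
      intro e he
      exact (hcent e he m).symm
    have h2 : s.range = ⁅s.range, s.range⁆ := by
      have h3 : (⁅(⊤ : Subgroup (SpecialLinearGroup (Fin 2) F)), ⊤⁆) = ⊤ := perfect_SL2 h4
      rw [MonoidHom.range_eq_map, ← Subgroup.map_commutator, h3]
    rw [h2]
    exact Subgroup.commutator_mono h1 h1
  rw [le_antisymm hle2 hle1]
  infer_instance

/-- a nontrivial normal subgroup of odd order forces normality -/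
theorem normal_of_odd (h4 : Nat.card F = 4) {D : Subgroup G} [hD : D.Normal] (hne : D ≠ ⊥)
    (hodd : ¬ 2 ∣ Nat.card D) : s.range.Normal := by
  have hL : Nat.card s.range = 60 := by
    rw [← card_SL2 h4]
    exact (Nat.card_congr (MonoidHom.ofInjective (s_injective hs)).toEquiv).symm
  have hsimple := simple_SL2 h4
  have hinf : s.range ⊓ D = ⊥ := by
    rcases IsSimpleGroup.eq_bot_or_eq_top_of_normal (D.comap s) inferInstance with h | h
    · rw [eq_bot_iff]
      rintro _ ⟨⟨m, rfl⟩, hm⟩
      have : m ∈ D.comap s := hm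
      rw [h, Subgroup.mem_bot] at this
      rw [this, map_one]
      exact one_mem _
    · exfalso
      apply hodd
      have h1 : s.range ≤ D := by
        rintro _ ⟨m, rfl⟩
        have : m ∈ D.comap s := by rw [h]; trivial
        exact this
      have h2 := Subgroup.card_dvd_of_le h1
      rw [hL] at h2
      exact (by norm_num : 2 ∣ 60).trans h2
  have hprod : 60 * Nat.card D ∣ 20160 := by
    have h1 := SubgroupTools.card_sup_mul_card_inf (N := D) (H := s.range) (by
      rw [Subgroup.normalizer_eq_top]; exact le_top)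
    rw [inf_comm, hinf, Subgroup.card_bot, mul_one, hL] at h1
    rw [mul_comm, ← h1]
    exact (Subgroup.card_subgroup_dvd_card _).trans (card_dvd h4 G)
  have h336 : Nat.card D ∣ 336 := Nat.dvd_of_mul_dvd_mul_left (by norm_num : 0 < 60) (by norm_num; exact hprod)
  have h21 : Nat.card D ∣ 21 := by
    have hc : (Nat.card D).Coprime 16 := by
      have : (Nat.card D).Coprime 2 := ((Nat.Prime.coprime_iff_not_dvd Nat.prime_two).2 hodd).symm
      exact this.pow_right 4
    exact hc.dvd_of_dvd_mul_right (by norm_num; exact h336)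
  obtain ⟨E, hE, hED, hEp⟩ := exists_prime_normal hne h21
  exact normal_of_prime hs h4 hEp (fun h => hodd (h.trans (Subgroup.card_dvd_of_le hED)))

end Cfsg.Agent.Lib.NatSL2g
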