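import Cfsg.Agent.Lib.NilpMax2
import Cfsg.Agent.Lib.BaerSuzuki

/-!
# All centralizers of noncentral elements maximal (helper1)

`maximal_centralizers`: S4262, from the Glauberman-Thompson theorem.
-/

set_option autoImplicit false
set_option linter.style.haveILetI false

namespace Cfsg.Agent.Lib.NilpMax

open Subgroup Cfsg Cfsg.Agent.Lib.SubgroupTools Cfsg.Agent.Lib.PNilp

universe u

/-- Noncentral elements have noncentral powers of prime power order. -/
theorem exists_primary_power {G : Type u} [Group G] [Finite G] (Z : Subgroup G) :
    ∀ (n : ℕ) (x : G), orderOf x = n → x ∉ Z →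
      ∃ (p k : ℕ), p.Prime ∧ x ^ k ∉ Z ∧ ∃ j, orderOf (x ^ k) = p ^ j := by
  intro n
  induction n using Nat.strong_induction_on with
  | _ n ih =>
    intro x hn hx
    have hx1 : orderOf x ≠ 1 := by
      intro h0
      rw [orderOf_eq_one_iff] at h0
      exact hx (h0 ▸ Z.one_mem)
    obtain ⟨p, hp, hpd⟩ := Nat.exists_prime_and_dvd hx1
    obtain ⟨e, f, hreg⟩ := Cfsg.Agent.Lib.PPart.exists_isRegExp p hp G
    by_cases h1 : x ^ f ∈ Z
    · have h2 : x ^ e ∉ Z := by
        intro h0
        exact hx (hreg.mul_eq x ▸ Z.mul_mem h0 h1)
      have h3 : orderOf (x ^ e) < n := by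
        rw [← hn]
        refine lt_of_le_of_ne (Nat.le_of_dvd (orderOf_pos x) (orderOf_pow_dvd e)) ?_
        intro h0
        exact hreg.reg x (h0 ▸ hpd)
      obtain ⟨q, k, hq, h4, j, h5⟩ := ih _ h3 (x ^ e) rfl h2
      exact ⟨q, e * k, hq, by rwa [pow_mul], j, by rwa [pow_mul]⟩
    · obtain ⟨j, hj⟩ := hreg.sing x
      exact ⟨p, f, hp, h1, j, hj⟩

/-- S4262. -/
theorem maximal_centralizers
    (GT : ∀ (G : Type u) [Group G] [Finite G] (p : ℕ) [Fact p.Prime], p ≠ 2 → ∀ P : Sylow p G,
      HasNormalPComplement p (normalizer (centerThompsonOf p (P : Subgroup G) : Set G)) →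
      HasNormalPComplement p G)
    {G : Type u} [Group G] [Finite G]
    (h : ∀ g : G, g ∉ Subgroup.center G → IsCoatom (Subgroup.centralizer ({g} : Set G))) :
    Group.IsSolvable G := by
  by_contra hns
  -- centralizers of powers
  have hpow : ∀ (x : G) (k : ℕ), centralizer ({x} : Set G) ≤ centralizer ({x ^ k} : Set G) := by
    intro x k g hg
    rw [mem_centralizer_singleton_iff] at hg ⊢
    exact (Commute.pow_right (show Commute g x from hg) k)
  have heq : ∀ x y : G, x ∉ center G → y ∉ center G →
      centralizer ({x} : Set G) ≤ centralizer ({y} : Set G) →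
      centralizer ({x} : Set G) = centralizer ({y} : Set G) := by
    intro x y hx hy hle
    by_contra hne
    exact (h y hy).1 ((h x hx).2 _ (lt_of_le_of_ne hle hne))
  -- nilpotency for primary elements
  have hnil1 : ∀ (p : ℕ) (x : G), p.Prime → x ∉ center G → (∃ j, orderOf x = p ^ j) →
      Group.IsNilpotent (centralizer ({x} : Set G)) := by
    rintro p x hp hx ⟨j, hj⟩
    haveI : Fact p.Prime := ⟨hp⟩
    have hcen : ∀ y ∈ centralizer ({x} : Set G), ¬ p ∣ orderOf y →
        ∀ g ∈ centralizer ({x} : Set G), g * y = y * g := by
      intro y hy hyp g hg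
      by_cases hyZ : y ∈ center G
      · exact mem_center_iff.mp hyZ g
      · obtain ⟨e, f, hreg⟩ := Cfsg.Agent.Lib.PPart.exists_isRegExp p hp G
        have hxy : y * x = x * y := mem_centralizer_singleton_iff.mp hy
        obtain ⟨h1, h2⟩ := hreg.eq_of_mul (g := y * x) rfl hxy hyp ⟨j, hj⟩
        have h3 : y * x ∉ center G := by
          intro h0
          have h4 : (y * x) ^ f ∈ center G := pow_mem h0 f
          rw [h2] at h4
          exact hx h4
        have h5 : centralizer ({y * x} : Set G) ≤ centralizer ({x} : Set G) := by
          have := hpow (y * x) f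
          rwa [h2] at this
        have h6 : centralizer ({y * x} : Set G) ≤ centralizer ({y} : Set G) := by
          have := hpow (y * x) e
          rwa [h1] at this
        have h7 := heq _ _ h3 hx h5
        rw [← h7] at hg
        exact mem_centralizer_singleton_iff.mp (h6 hg)
    set C := centralizer ({x} : Set G) with hC
    have hpq : IsPGroup p (C ⧸ center C) := by
      intro q
      obtain ⟨g, rfl⟩ := QuotientGroup.mk_surjective q
      obtain ⟨k, hk⟩ := exists_pow_coprime p (g : G)
      refine ⟨k, ?_⟩
      rw [← QuotientGroup.mk_pow, QuotientGroup.eq_one_iff, mem_center_iff]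
      intro c
      apply Subtype.ext
      show (c : G) * (g : G) ^ p ^ k = (g : G) ^ p ^ k * (c : G)
      apply hcen _ (pow_mem g.2 _) _ _ c.2
      intro h0
      exact (Nat.Prime.coprime_iff_not_dvd hp).mp hk.symm h0
    haveI : Group.IsNilpotent (C ⧸ center C) := hpq.isNilpotent
    exact Group.of_quotient_center_nilpotent inferInstance
  have hnil : ∀ x : G, x ∉ center G → Group.IsNilpotent (centralizer ({x} : Set G)) := by
    intro x hx
    obtain ⟨p, k, hp, hk, hj⟩ := exists_primary_power (center G) _ x rfl hx
    rw [heq x (x ^ k) hx hk (hpow x k)]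
    exact hnil1 p _ hp hk hj
  -- quotients by normal subgroups not in a centralizer
  have hquot : ∀ (x : G) (N : Subgroup G) [N.Normal], x ∉ center G →
      N ⊔ centralizer ({x} : Set G) = ⊤ → Group.IsSolvable (G ⧸ N) := by
    intro x N _ hx htop
    have hsurj : Function.Surjective ((QuotientGroup.mk' N).comp (centralizer ({x} : Set G)).subtype) := by
      rw [← MonoidHom.range_eq_top, MonoidHom.range_comp, range_subtype]
      have h1 : (N ⊔ centralizer ({x} : Set G)).map (QuotientGroup.mk' N) = ⊤ := by
        rw [htop, ← MonoidHom.range_eq_map, MonoidHom.range_eq_top]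
        exact QuotientGroup.mk'_surjective N
      rw [_root_.Subgroup.map_sup, QuotientGroup.map_mk'_self, bot_sup_eq] at h1
      exact h1
    haveI := hnil x hx
    exact Group.isSolvable_of_surjective hsurj
  -- normal solvable subgroups are central
  have hrad : ∀ N : Subgroup G, N.Normal → Group.IsSolvable N → N ≤ center G := by
    intro N hN hNs n hn
    rw [mem_center_iff]
    intro x
    by_cases hx : x ∈ center G
    · exact (mem_center_iff.mp hx n).symm
    · by_cases hle : N ≤ centralizer ({x} : Set G)
      · exact (mem_centralizer_singleton_iff.mp (hle hn)).symm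
      · exfalso
        apply hns
        have htop : N ⊔ centralizer ({x} : Set G) = ⊤ := by
          apply (h x hx).2
          refine lt_of_le_of_ne le_sup_right ?_
          intro h0
          exact hle (h0 ▸ le_sup_left)
        have hQ := hquot x N hx htop
        exact Group.isSolvable_of_ker_le_range N.subtype (QuotientGroup.mk' N)
          (by rw [QuotientGroup.ker_mk', range_subtype])
  have hcomap : ∀ N : Subgroup (G ⧸ center G), N.Normal → Group.IsSolvable N → N = ⊥ := by
    intro N hN hNs
    have h1 : (N.comap (QuotientGroup.mk' (center G))) ≤ center G := by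
      apply hrad _ inferInstance
      have hk : Group.IsSolvable (center G) := Group.isSolvable_of_comm (fun a b => Subtype.ext (mem_center_iff.mp b.2 a))
      set L := N.comap (QuotientGroup.mk' (center G)) with hL
      have hker : center G ≤ L := by
        intro z hz
        rw [hL, mem_comap]
        have : (QuotientGroup.mk' (center G)) z = 1 := by
          rw [← MonoidHom.mem_ker, QuotientGroup.ker_mk']; exact hz
        rw [this]; exact N.one_mem
      let φ : L →* N := ((QuotientGroup.mk' (center G)).comp L.subtype).codRestrict N (fun x => x.2)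
      refine Group.isSolvable_of_ker_le_range (inclusion hker) φ ?_
      intro x hx
      have h2 : (QuotientGroup.mk' (center G)) (x : G) = 1 := congrArg Subtype.val (MonoidHom.mem_ker.mp hx)
      rw [← MonoidHom.mem_ker, QuotientGroup.ker_mk'] at h2
      exact ⟨⟨x, h2⟩, rfl⟩
    rw [← map_comap_eq_self_of_surjective (QuotientGroup.mk'_surjective (center G)) N, eq_bot_iff]
    refine (map_mono h1).trans ?_
    rw [QuotientGroup.map_mk'_self]
  -- a noncentral element
  obtain ⟨x, hx⟩ : ∃ x : G, x ∉ center G := by
    by_contra hcon
    push Not at hcon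
    exact hns (Group.isSolvable_of_comm (fun a b => mem_center_iff.mp (hcon b) a))
  have hsurjZ := QuotientGroup.mk'_surjective (center G)
  rcases Nat.even_or_odd (Nat.card (G ⧸ center G)) with heven | hodd
  · -- an involution
    obtain ⟨t, ht⟩ := exists_prime_orderOf_dvd_card' 2 (even_iff_two_dvd.mp heven)
    obtain ⟨w, hw1, hwodd, hw⟩ := Cfsg.Agent.Lib.BaerSuzuki.exists_inverted_odd t ht (by
      intro N hN hNp htN
      haveI : Group.IsNilpotent N := hNp.isNilpotent
      have h1 := hcomap N hN inferInstance
      rw [h1, mem_bot] at htN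
      rw [htN, orderOf_one] at ht
      exact absurd ht (by norm_num))
    obtain ⟨u, rfl⟩ := hsurjZ t
    obtain ⟨y, rfl⟩ := hsurjZ w
    have hy : y ∉ center G := by
      intro h0
      apply hw1
      rw [← MonoidHom.mem_ker, QuotientGroup.ker_mk']; exact h0
    set A := (zpowers ((QuotientGroup.mk' (center G)) y)).comap (QuotientGroup.mk' (center G)) with hA
    -- `A` is centralized by `C(y)`
    have hAel : ∀ a ∈ A, ∃ (n : ℤ) (z : G), z ∈ center G ∧ a = y ^ n * z := by
      intro a ha
      rw [hA, mem_comap] at ha
      obtain ⟨n, hn⟩ := mem_zpowers_iff.mp ha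
      refine ⟨n, (y ^ n)⁻¹ * a, ?_, by group⟩
      rw [← map_zpow] at hn
      have h1 := QuotientGroup.eq.mp hn
      exact h1
    have hAcomm : ∀ g ∈ centralizer ({y} : Set G), ∀ a ∈ A, g * a = a * g := by
      intro g hg a ha
      obtain ⟨n, z, hz, rfl⟩ := hAel a ha
      have h1 : Commute g (y ^ n) := Commute.zpow_right (show Commute g y from mem_centralizer_singleton_iff.mp hg) n
      have h2 : Commute g z := mem_center_iff.mp hz g
      exact h1.mul_right h2
    have hle : centralizer ({y} : Set G) ≤ normalizer (A : Set G) := by
      intro g hg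
      rw [mem_normalizer_iff]
      intro a
      constructor
      · intro ha
        have h1 := hAcomm g hg a ha
        rw [h1]; simpa using ha
      · intro ha
        have h1 := hAcomm g hg _ ha
        have h2 : g * a * g⁻¹ = a := by
          have h3 : g * (g * a * g⁻¹) = g * a := by rw [h1]; group
          exact mul_left_cancel h3
        rwa [h2] at ha
    have huN : u ∈ normalizer (A : Set G) := by
      have h1 : (QuotientGroup.mk' (center G)) u ∈
          normalizer ((zpowers ((QuotientGroup.mk' (center G)) y) : Subgroup (G ⧸ center G)) : Set (G ⧸ center G)) := by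
        have h2 : (zpowers ((QuotientGroup.mk' (center G)) y)).map
            (MulAut.conj ((QuotientGroup.mk' (center G)) u)).toMonoidHom =
            zpowers ((QuotientGroup.mk' (center G)) y) := by
          rw [MonoidHom.map_zpowers]
          have h3 : (MulAut.conj ((QuotientGroup.mk' (center G)) u)).toMonoidHom
              ((QuotientGroup.mk' (center G)) y) = ((QuotientGroup.mk' (center G)) y)⁻¹ := hw
          rw [h3, zpowers_inv]
        exact (Cfsg.Agent.Lib.ThompsonJ.mem_normalizer_iff_map).mpr h2
      rw [mem_normalizer_iff] at h1 ⊢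
      intro a
      rw [hA, mem_comap, mem_comap, map_mul, map_mul, map_inv]
      exact h1 _
    have hunot : u ∉ centralizer ({y} : Set G) := by
      intro h0
      have h1 := mem_centralizer_singleton_iff.mp h0
      have h2 : (QuotientGroup.mk' (center G)) u * (QuotientGroup.mk' (center G)) y =
          (QuotientGroup.mk' (center G)) y * (QuotientGroup.mk' (center G)) u := by
        rw [← map_mul, h1, map_mul]
      rw [h2, mul_inv_cancel_right] at hw
      have h3 : ((QuotientGroup.mk' (center G)) y) ^ 2 = 1 := by
        rw [pow_two]
        nth_rewrite 1 [hw]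
        rw [inv_mul_cancel]
      have h4 := orderOf_dvd_of_pow_eq_one h3
      rcases (Nat.dvd_prime Nat.prime_two).mp h4 with h5 | h5
      · exact hw1 (orderOf_eq_one_iff.mp h5)
      · rw [h5] at hwodd
        exact absurd hwodd (by decide)
    have htop : normalizer (A : Set G) = ⊤ := by
      apply (h y hy).2
      refine lt_of_le_of_ne hle ?_
      intro h0
      exact hunot (h0 ▸ huN)
    have hyA : y ∈ A := by
      rw [hA, mem_comap]; exact mem_zpowers _
    have hAZ := hrad A (normalizer_eq_top_iff.mp htop) (by
      apply Group.isSolvable_of_comm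
      intro a b
      apply Subtype.ext
      have hAy : (A : Subgroup G) ≤ centralizer ({y} : Set G) := by
        intro c hc
        obtain ⟨n, z, hz, rfl⟩ := hAel c hc
        rw [mem_centralizer_singleton_iff]
        have h1 : Commute (y ^ n) y := (Commute.refl y).zpow_left n
        have h2 : Commute z y := (mem_center_iff.mp hz y).symm
        exact h1.mul_left h2
      exact hAcomm a (hAy a.2) b b.2)
    exact hy (hAZ hyA)
  · -- odd order modulo the centre: Thompson's theorem
    apply hns
    set M := centralizer ({x} : Set G) with hM
    have hZM : center G ≤ M := by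
      intro z hz
      rw [hM, mem_centralizer_singleton_iff]
      exact (mem_center_iff.mp hz x).symm
    set M' := M.map (QuotientGroup.mk' (center G)) with hM'
    have hcM : M'.comap (QuotientGroup.mk' (center G)) = M := by
      rw [hM', comap_map_eq, QuotientGroup.ker_mk', sup_eq_left.mpr hZM]
    have hcoat : IsCoatom M' := by
      constructor
      · intro h0
        rw [h0, comap_top] at hcM
        exact (h x hx).1 hcM.symm
      · intro L hL
        have h1 : M < L.comap (QuotientGroup.mk' (center G)) := by
          have h3 := (comap_lt_comap_of_surjective hsurjZ).mpr hL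
          rwa [hcM] at h3
        have h2 := (h x hx).2 _ h1
        rw [← map_comap_eq_self_of_surjective hsurjZ L, h2, ← MonoidHom.range_eq_map,
          MonoidHom.range_eq_top.mpr hsurjZ]
    haveI := hnil x hx
    have hnM' : Group.IsNilpotent M' := Group.nilpotent_of_surjective
      ((QuotientGroup.mk' (center G)).subgroupMap M) (MonoidHom.subgroupMap_surjective _ _)
    have hoM' : Odd (Nat.card M') := Odd.of_dvd_nat hodd (Subgroup.card_subgroup_dvd_card M')
    have hQ := thompson GT M' hcoat hnM' hoM'
    have hk : Group.IsSolvable (center G) := Group.isSolvable_of_comm (fun a b => Subtype.ext (mem_center_iff.mp b.2 a))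
    exact Group.isSolvable_of_ker_le_range (center G).subtype (QuotientGroup.mk' (center G))
          (by rw [QuotientGroup.ker_mk', range_subtype])

end Cfsg.Agent.Lib.NilpMax
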