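import Mathlib

/-!
# Orders of nilpotent permutation groups (helper66): arithmetic
-/

set_option autoImplicit false

namespace Cfsg.Agent.Lib.NilpPerm

open Nat

/-- the order of a Sylow `2`-subgroup of the symmetric group of degree `n` -/
def S (n : ℕ) : ℕ := 2 ^ padicValNat 2 n !

/-- the bound -/
def B (n : ℕ) : ℕ := if n % 4 = 3 then 3 * S (n - 3) else S n

theorem S_pos (n : ℕ) : 0 < S n := Nat.pow_pos (by norm_num)

theorem S_zero : S 0 = 1 := by simp [S]

theorem S_succ (n : ℕ) : S (n + 1) = 2 ^ padicValNat 2 (n + 1) * S n := by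
  rw [S, factorial_succ, padicValNat.mul (by omega) (factorial_ne_zero n), pow_add, S]

theorem S_le_succ (n : ℕ) : S n ≤ S (n + 1) := by
  rw [S_succ]; exact Nat.le_mul_of_pos_left _ (Nat.pow_pos (by norm_num))

theorem S_succ_odd {n : ℕ} (h : n % 2 = 0) : S (n + 1) = S n := by
  rw [S_succ, padicValNat.eq_zero_of_not_dvd (by omega)]; simp

theorem S_succ_even {n : ℕ} (h : n % 2 = 1) : 2 * S n ≤ S (n + 1) := by
  rw [S_succ]
  apply Nat.mul_le_mul_right
  have h1 : 1 ≤ padicValNat 2 (n + 1) := one_le_padicValNat_of_dvd (by omega) (by omega)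
  calc 2 = 2 ^ 1 := rfl
    _ ≤ _ := Nat.pow_le_pow_right (by norm_num) h1

theorem S_succ_four {n : ℕ} (h : n % 4 = 3) : 4 * S n ≤ S (n + 1) := by
  rw [S_succ]
  apply Nat.mul_le_mul_right
  have h1 : 2 ≤ padicValNat 2 (n + 1) := (padicValNat_dvd_iff_le (by omega)).1 (by
    omega)
  calc 4 = 2 ^ 2 := rfl
    _ ≤ _ := Nat.pow_le_pow_right (by norm_num) h1

theorem S_succ_two {n : ℕ} (h : n % 4 = 1) : S (n + 1) = 2 * S n := by
  rw [S_succ]
  congr 1
  have h1 : 1 ≤ padicValNat 2 (n + 1) := one_le_padicValNat_of_dvd (by omega) (by omega)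
  have h2 : ¬ 2 ≤ padicValNat 2 (n + 1) := by
    intro h2
    have := (padicValNat_dvd_iff_le (p := 2) (a := n + 1) (n := 2) (by omega)).2 h2
    omega
  have h3 : padicValNat 2 (n + 1) = 1 := by omega
  rw [h3, pow_one]

theorem S_mul (a b : ℕ) : S a * S b ≤ S (a + b) := by
  have h1 : a ! * b ! ∣ (a + b)! := Nat.factorial_mul_factorial_dvd_factorial_add a b
  obtain ⟨c, hc⟩ := h1
  have hc0 : c ≠ 0 := by
    rintro rfl
    rw [mul_zero] at hc
    exact factorial_ne_zero _ hc
  rw [S, S, S, hc, padicValNat.mul (mul_ne_zero (factorial_ne_zero a) (factorial_ne_zero b)) hc0,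
    padicValNat.mul (factorial_ne_zero a) (factorial_ne_zero b), pow_add, pow_add]
  exact Nat.le_mul_of_pos_right _ (Nat.pow_pos (by norm_num))

/-- three steps up, away from `3` modulo `4` -/
theorem S_three {m : ℕ} (h : m % 4 ≠ 0) : 4 * S m ≤ S (m + 3) := by
  have h1 : S m ≤ S (m + 1) := S_le_succ m
  have h2 : S (m + 1) ≤ S (m + 2) := S_le_succ (m + 1)
  have h3 : S (m + 2) ≤ S (m + 3) := S_le_succ (m + 2)
  have h5 : m % 4 = 1 ∨ m % 4 = 2 ∨ m % 4 = 3 := by omega
  rcases h5 with h5 | h5 | h5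
  · have h4 : 4 * S (m + 2) ≤ S (m + 3) := S_succ_four (by omega)
    omega
  · have h4 : 4 * S (m + 1) ≤ S (m + 2) := S_succ_four (by omega)
    omega
  · have h4 : 4 * S m ≤ S (m + 1) := S_succ_four (by omega)
    omega

theorem S_three_zero {m : ℕ} (h : m % 4 = 0) : S (m + 3) = 2 * S m := by
  have h1 : S (m + 1) = S m := S_succ_odd (by omega)
  have h2 : S (m + 2) = 2 * S (m + 1) := S_succ_two (n := m + 1) (by omega)
  have h3 : S (m + 3) = S (m + 2) := S_succ_odd (n := m + 2) (by omega)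
  omega

theorem S_one : S 1 = 1 := by have := S_succ_odd (n := 0) rfl; rw [S_zero] at this; exact this
theorem S_two : S 2 = 2 := by have := S_succ_two (n := 1) rfl; rw [S_one] at this; exact this
theorem S_3 : S 3 = 2 := by have := S_succ_odd (n := 2) rfl; rw [S_two] at this; exact this

theorem v2_of {n k : ℕ} (hn : n ≠ 0) (h1 : 2 ^ k ∣ n) (h2 : ¬ 2 ^ (k + 1) ∣ n) : padicValNat 2 n = k := by
  have h3 := (padicValNat_dvd_iff_le (p := 2) hn).1 h1
  have h4 : ¬ k + 1 ≤ padicValNat 2 n := fun h => h2 ((padicValNat_dvd_iff_le (p := 2) hn).2 h)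
  omega

theorem S_4 : S 4 = 8 := by
  rw [S_succ 3, S_3, v2_of (k := 2) (by norm_num) (by norm_num) (by norm_num)]
  rfl
theorem S_5 : S 5 = 8 := by have := S_succ_odd (n := 4) rfl; rw [S_4] at this; exact this
theorem S_6 : S 6 = 16 := by have := S_succ_two (n := 5) rfl; rw [S_5] at this; exact this
theorem S_7 : S 7 = 16 := by have := S_succ_odd (n := 6) rfl; rw [S_6] at this; exact this
theorem S_8 : S 8 = 128 := by
  rw [S_succ 7, S_7, v2_of (k := 3) (by norm_num) (by norm_num) (by norm_num)]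
  rfl
theorem S_9 : S 9 = 128 := by have := S_succ_odd (n := 8) rfl; rw [S_8] at this; exact this
theorem S_10 : S 10 = 256 := by have := S_succ_two (n := 9) rfl; rw [S_9] at this; exact this
theorem S_11 : S 11 = 256 := by have := S_succ_odd (n := 10) rfl; rw [S_10] at this; exact this
theorem S_12 : S 12 = 1024 := by
  rw [S_succ 11, S_11, v2_of (k := 2) (by norm_num) (by norm_num) (by norm_num)]
  rfl
theorem S_13 : S 13 = 1024 := by have := S_succ_odd (n := 12) rfl; rw [S_12] at this; exact this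
theorem S_14 : S 14 = 2048 := by have := S_succ_two (n := 13) rfl; rw [S_13] at this; exact this

theorem B_of_ne {n : ℕ} (h : n % 4 ≠ 3) : B n = S n := if_neg h
theorem B_of_eq {n : ℕ} (h : n % 4 = 3) : B n = 3 * S (n - 3) := if_pos h

theorem B_one : B 1 = 1 := by rw [B_of_ne (by norm_num), S_one]

theorem B_pos (n : ℕ) : 0 < B n := by
  unfold B; split_ifs
  · have := S_pos (n - 3); omega
  · exact S_pos n

/-- `S` is at most `B` -/
theorem S_le_B (n : ℕ) : S n ≤ B n := by
  by_cases h : n % 4 = 3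
  · rw [B_of_eq h]
    have h1 := S_three_zero (m := n - 3) (by omega)
    rw [show n - 3 + 3 = n by omega] at h1
    omega
  · rw [B_of_ne h]

theorem B_mul_aux {a b : ℕ} (ha : a % 4 = 3) (hb : b % 4 ≠ 3) : B a * B b ≤ B (a + b) := by
  rw [B_of_eq ha, B_of_ne hb]
  have h1 := S_mul (a - 3) b
  by_cases h : (a + b) % 4 = 3
  · rw [B_of_eq h, show a + b - 3 = a - 3 + b by omega]
    rw [mul_assoc]
    omega
  · rw [B_of_ne h, show a + b = (a - 3 + b) + 3 by omega]
    have h2 := S_three (m := a - 3 + b) (by omega)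
    rw [mul_assoc]
    omega

/-- `B` is supermultiplicative -/
theorem B_mul (a b : ℕ) : B a * B b ≤ B (a + b) := by
  by_cases ha : a % 4 = 3
  · by_cases hb : b % 4 = 3
    · rw [B_of_eq ha, B_of_eq hb, B_of_ne (n := a + b) (by omega)]
      have h1 := S_mul (a - 3) (b - 3)
      have h2 := S_mul (a - 3 + (b - 3)) 6
      rw [S_6, show a - 3 + (b - 3) + 6 = a + b by omega] at h2
      have h3 : 3 * S (a - 3) * (3 * S (b - 3)) = 9 * (S (a - 3) * S (b - 3)) := by ring
      rw [h3]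
      omega
    · exact B_mul_aux ha hb
  · by_cases hb : b % 4 = 3
    · rw [mul_comm, add_comm]; exact B_mul_aux hb ha
    · rw [B_of_ne ha, B_of_ne hb]
      exact (S_mul a b).trans (S_le_B _)

theorem B_mono {a b : ℕ} (h : a ≤ b) : B a ≤ B b := by
  obtain ⟨c, rfl⟩ := Nat.exists_eq_add_of_le h
  exact (Nat.le_mul_of_pos_right _ (B_pos c)).trans (B_mul a c)

theorem add_le_mul' {x y : ℕ} (hx : 2 ≤ x) (hy : 2 ≤ y) : x + y ≤ x * y := by nlinarith

theorem B_mul_le {x y : ℕ} (hx : 2 ≤ x) (hy : 2 ≤ y) : B x * B y ≤ B (x * y) :=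
  (B_mul x y).trans (B_mono (add_le_mul' hx hy))

theorem sq_le_three_pow : ∀ p : ℕ, 3 ≤ p → p ^ 2 ≤ 3 ^ (p - 1) := by
  intro p hp
  induction p, hp using Nat.le_induction with
  | base => norm_num
  | succ p hp ih =>
    rw [show p + 1 - 1 = (p - 1) + 1 by omega, pow_succ 3]
    have : (p + 1) ^ 2 ≤ p ^ 2 * 3 := by nlinarith
    exact this.trans (Nat.mul_le_mul_right _ ih)

theorem three_pow_le : ∀ n : ℕ, 9 ≤ n → n % 2 = 1 → 3 ^ (n - 1) ≤ B n ^ 2 := by
  intro n
  induction n using Nat.strong_induction_on with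
  | _ n ih =>
    intro hn hodd
    by_cases h17 : 17 ≤ n
    · have h1 := ih (n - 8) (by omega) (by omega) (by omega)
      have h2 := B_mul (n - 8) 8
      rw [B_of_ne (n := 8) (by norm_num), S_8, show n - 8 + 8 = n by omega] at h2
      have h3 : (B (n - 8) * 128) ^ 2 ≤ B n ^ 2 := Nat.pow_le_pow_left h2 2
      have h4 : 3 ^ (n - 1) = 3 ^ (n - 8 - 1) * 6561 := by
        rw [show n - 1 = (n - 8 - 1) + 8 by omega, pow_add]
        norm_num
      rw [h4]
      rw [mul_pow] at h3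
      refine le_trans ?_ h3
      exact Nat.mul_le_mul h1 (by norm_num)
    · have h5 : n = 9 ∨ n = 11 ∨ n = 13 ∨ n = 15 := by omega
      rcases h5 with rfl | rfl | rfl | rfl
      · rw [B_of_ne (by norm_num), S_9]; norm_num
      · rw [B_of_eq (by norm_num), show 11 - 3 = 8 from rfl, S_8]; norm_num
      · rw [B_of_ne (by norm_num), S_13]; norm_num
      · rw [B_of_eq (by norm_num), show 15 - 3 = 12 from rfl, S_12]; norm_num

/-- twice the exponent: the order of a Sylow `p`-subgroup of the symmetric group of degree `p ^ a` -/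
theorem pp_sq_le {p : ℕ} [hp : Fact p.Prime] (hp3 : 3 ≤ p) {a : ℕ} (ha : a ≠ 0) :
    (p ^ padicValNat p (p ^ a)!) ^ 2 ≤ 3 ^ (p ^ a - 1) := by
  have h1 := sub_one_mul_padicValNat_factorial_lt_of_ne_zero (p := p) (pow_ne_zero a hp.out.ne_zero)
  have h3 : (p - 1) * padicValNat p (p ^ a)! ≤ p ^ a - 1 := by omega
  calc (p ^ padicValNat p (p ^ a)!) ^ 2 = (p ^ 2) ^ padicValNat p (p ^ a)! := by
        rw [← pow_mul, ← pow_mul, mul_comm]
    _ ≤ (3 ^ (p - 1)) ^ padicValNat p (p ^ a)! := Nat.pow_le_pow_left (sq_le_three_pow p hp3) _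
    _ = 3 ^ ((p - 1) * padicValNat p (p ^ a)!) := by rw [← pow_mul]
    _ ≤ 3 ^ (p ^ a - 1) := Nat.pow_le_pow_right (by norm_num) h3

theorem small_pp {p : ℕ} [hp : Fact p.Prime] (hp3 : 3 ≤ p) {a : ℕ} (ha : a ≠ 0) (h9 : p ^ a < 9) : a = 1 := by
  by_contra h1
  have h2 : 2 ≤ a := by omega
  have h3 : 3 ^ 2 ≤ p ^ a := (Nat.pow_le_pow_left hp3 2).trans (Nat.pow_le_pow_right (by omega) h2)
  omega

theorem padicValNat_factorial_self {p : ℕ} [hp : Fact p.Prime] : padicValNat p p ! = 1 := by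
  have h1 := padicValNat_factorial_mul (p := p) 1
  rw [mul_one, factorial_one] at h1
  rw [h1]; simp

/-- the prime power case -/
theorem pp_le {p : ℕ} [hp : Fact p.Prime] {a : ℕ} (ha : a ≠ 0) : p ^ padicValNat p (p ^ a)! ≤ B (p ^ a) := by
  rcases hp.out.two_le.eq_or_lt with h2 | h2
  · subst h2
    exact S_le_B _
  · have hp3 : 3 ≤ p := h2
    have hodd : p ^ a % 2 = 1 := by
      rcases hp.out.eq_two_or_odd with h | h
      · omega
      · exact Nat.odd_iff.1 ((Nat.odd_iff.2 h).pow)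
    by_cases h9 : 9 ≤ p ^ a
    · have h3 := (pp_sq_le hp3 ha).trans (three_pow_le _ h9 hodd)
      exact (Nat.pow_le_pow_iff_left (by norm_num)).1 h3
    · have h1 := small_pp hp3 ha (by omega)
      subst h1
      rw [pow_one] at h9 hodd ⊢
      rw [padicValNat_factorial_self, pow_one]
      have h5 : p = 3 ∨ p = 5 ∨ p = 7 := by omega
      rcases h5 with rfl | rfl | rfl
      · rw [B_of_eq (by norm_num)]; simp [S_zero]
      · rw [B_of_ne (by norm_num), S_5]; norm_num
      · rw [B_of_eq (by norm_num), show 7 - 3 = 4 from rfl, S_4]; norm_num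

end Cfsg.Agent.Lib.NilpPerm
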