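import Cfsg.Agent.Lib.NilpPerm
import Cfsg.Agent.Lib.HallComplement

/-!
# Orders of nilpotent permutation groups (helper66): the bound
-/

set_option autoImplicit false

namespace Cfsg.Agent.Lib.NilpPerm

open Equiv MulAction

universe v w

/-- restriction to an invariant subset -/
def res {Ω : Type v} (N : Subgroup (Perm Ω)) (p : Ω → Prop) (h : ∀ g ∈ N, ∀ x, p (g x) ↔ p x) :
    N →* Perm {x // p x} where
  toFun g := (g : Perm Ω).subtypePerm (h g g.2)
  map_one' := rfl
  map_mul' _ _ := rfl

theorem res_apply {Ω : Type v} (N : Subgroup (Perm Ω)) (p : Ω → Prop) (h : ∀ g ∈ N, ∀ x, p (g x) ↔ p x)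
    (g : N) (x : {x // p x}) : ((res N p h g x : {x // p x}) : Ω) = (g : Perm Ω) x := rfl

theorem nilp_range {H : Type w} [Group H] (hH : Group.IsNilpotent H) {A : Type v} (φ : H →* Perm A) :
    Group.IsNilpotent φ.range :=
  Group.nilpotent_of_surjective φ.rangeRestrict φ.rangeRestrict_surjective

theorem transfer {H : Type w} [Group H] (hH : Group.IsNilpotent H) {A : Type v} {n : ℕ}
    (ih : ∀ N : Subgroup (Perm A), Group.IsNilpotent N → Nat.card N ≤ B n) (φ : H →* Perm A)
    (hφ : Function.Injective φ) : Nat.card H ≤ B n := by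
  rw [Nat.card_congr (MonoidHom.ofInjective hφ).toEquiv]
  exact ih _ (nilp_range hH φ)

/-- the order of a group is at most the product of the orders of its images on an invariant set and the complement -/
theorem card_le_mul {Ω : Type v} [Finite Ω] (N : Subgroup (Perm Ω)) (p : Ω → Prop)
    (h : ∀ g ∈ N, ∀ x, p (g x) ↔ p x) :
    Nat.card N ≤ Nat.card (res N p h).range * Nat.card (res N (fun x => ¬ p x) (fun g hg x => not_congr (h g hg x))).range := by
  rw [← Nat.card_prod]
  apply Nat.card_le_card_of_injective (fun g : N => ((⟨res N p h g, g, rfl⟩ : (res N p h).range),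
    (⟨res N (fun x => ¬ p x) (fun g hg x => not_congr (h g hg x)) g, g, rfl⟩ :
      (res N (fun x => ¬ p x) (fun g hg x => not_congr (h g hg x))).range)))
  intro g g' hgg
  have h0 := Prod.ext_iff.1 hgg
  have h1 : res N p h g = res N p h g' := congrArg Subtype.val h0.1
  have h2 : res N (fun x => ¬ p x) (fun g hg x => not_congr (h g hg x)) g =
      res N (fun x => ¬ p x) (fun g hg x => not_congr (h g hg x)) g' := congrArg Subtype.val h0.2
  apply Subtype.ext
  ext x
  by_cases hx : p x
  · have h3 := congrArg (fun f : Perm {x // p x} => ((f ⟨x, hx⟩ : {x // p x}) : Ω)) h1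
    exact h3
  · have h3 := congrArg (fun f : Perm {x // ¬ p x} => ((f ⟨x, hx⟩ : {x // ¬ p x}) : Ω)) h2
    exact h3

theorem card_add_card_compl {Ω : Type v} [Finite Ω] (p : Ω → Prop) :
    Nat.card {x // p x} + Nat.card {x // ¬ p x} = Nat.card Ω := by
  classical
  rw [← Nat.card_sum]
  exact Nat.card_congr (Equiv.sumCompl p)

theorem orbit_mul_stab (G : Type w) [Group G] {Ω : Type v} [MulAction G Ω] (ω : Ω) :
    Nat.card (orbit G ω) * Nat.card (stabilizer G ω) = Nat.card G := by
  rw [← Nat.card_prod]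
  exact Nat.card_congr (MulAction.orbitProdStabilizerEquivGroup G ω)

/-- the transitive case: splitting off a prime -/
theorem trans_split {Ω : Type v} [Finite Ω] (N : Subgroup (Perm Ω)) (hN : Group.IsNilpotent N)
    (ω : Ω) (htr : ∀ x, ∃ g : N, g • ω = x) {p : ℕ} (hp : p.Prime) (hpn : p ∣ Nat.card Ω) :
    ∃ (P K : Subgroup N) (x y : ℕ), IsPGroup p P ∧ (Nat.card K).Coprime p ∧ Nat.card N = Nat.card P * Nat.card K ∧
      x * y = Nat.card Ω ∧ (∃ a, x = p ^ a) ∧ y.Coprime p ∧
      (∃ φ : P →* Perm (orbit P ω), Function.Injective φ) ∧ Nat.card (orbit P ω) = x ∧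
      (∃ φ : K →* Perm (orbit K ω), Function.Injective φ) ∧ Nat.card (orbit K ω) = y := by
  haveI := Fact.mk hp
  haveI : Group.IsNilpotent N := hN
  obtain ⟨P, K, hK, hc⟩ := HallComplement.hasNormalPComplement_of_isNilpotent (G := N) p
  have hPn : (P : Subgroup N).Normal := by
    have := (Group.isNilpotent_of_finite_tfae (G := N)).out 0 3
    exact this.1 hN p inferInstance P
  have hdis : Disjoint (P : Subgroup N) K := hc.disjoint.symm
  have hcomm : ∀ g ∈ (P : Subgroup N), ∀ k ∈ K, g * k = k * g := fun g hg k hk =>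
    (Subgroup.commute_of_normal_of_disjoint _ _ hPn hK hdis g k hg hk)
  have hcard : Nat.card N = Nat.card (P : Subgroup N) * Nat.card K := by
    rw [mul_comm]; exact hc.card_mul.symm
  have hcop : (Nat.card K).Coprime p := by
    rw [Nat.coprime_comm, hp.coprime_iff_not_dvd]
    intro h
    have h1 : p ∣ (P : Subgroup N).index := by
      have h2 := (P : Subgroup N).card_mul_index
      rw [hcard] at h2
      rwa [Nat.eq_of_mul_eq_mul_left Nat.card_pos h2]
    exact P.not_dvd_index h1
  have hprod : ∀ n : N, ∃ g ∈ (P : Subgroup N), ∃ k ∈ K, n = g * k := by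
    intro n
    obtain ⟨⟨k, g⟩, hkg⟩ := hc.2 n
    exact ⟨g, g.2, k, k.2, by rw [hcomm g g.2 k k.2]; exact hkg.symm⟩
  haveI htrans : IsPretransitive N Ω := by
    refine ⟨fun x y => ?_⟩
    obtain ⟨g, hg⟩ := htr x
    obtain ⟨h, hh⟩ := htr y
    exact ⟨h * g⁻¹, by rw [mul_smul, ← hg, inv_smul_smul, hh]⟩
  have hx : ∃ a, Nat.card (orbit (P : Subgroup N) ω) = p ^ a := by
    obtain ⟨m, hm⟩ := IsPGroup.iff_card.1 P.isPGroup'
    have h1 : Nat.card (orbit (P : Subgroup N) ω) ∣ Nat.card (P : Subgroup N) :=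
      ⟨_, (orbit_mul_stab (P : Subgroup N) ω).symm⟩
    rw [hm] at h1
    obtain ⟨a, -, ha⟩ := (Nat.dvd_prime_pow hp).1 h1
    exact ⟨a, ha⟩
  have hy : (Nat.card (orbit K ω)).Coprime p := by
    have h1 : Nat.card (orbit K ω) ∣ Nat.card K :=
      ⟨_, (orbit_mul_stab K ω).symm⟩
    exact hcop.coprime_dvd_left h1
  have hxd : Nat.card (orbit (P : Subgroup N) ω) ∣ Nat.card Ω := by
    have hb : IsBlock N (orbit (P : Subgroup N) ω) := IsBlock.orbit_of_normal ω
    have := hb.ncard_block_mul_ncard_orbit_eq ⟨ω, mem_orbit_self ω⟩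
    rw [← this, ← Nat.card_coe_set_eq]
    exact Dvd.intro _ rfl
  have hyd : Nat.card (orbit K ω) ∣ Nat.card Ω := by
    have hb : IsBlock N (orbit K ω) := IsBlock.orbit_of_normal ω
    have := hb.ncard_block_mul_ncard_orbit_eq ⟨ω, mem_orbit_self ω⟩
    rw [← this, ← Nat.card_coe_set_eq]
    exact Dvd.intro _ rfl
  have hpos : 0 < Nat.card Ω := Nat.card_pos_iff.2 ⟨⟨ω⟩, inferInstance⟩
  have hxy : Nat.card (orbit (P : Subgroup N) ω) * Nat.card (orbit K ω) = Nat.card Ω := by
    apply le_antisymm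
    · apply Nat.le_of_dvd hpos
      apply Nat.Coprime.mul_dvd_of_dvd_of_dvd _ hxd hyd
      obtain ⟨a, ha⟩ := hx
      rw [ha]
      exact (hy.pow_right a).symm
    · rw [← Nat.card_prod]
      -- surjection
      have hsurj : ∀ z : Ω, ∃ q : orbit (P : Subgroup N) ω × orbit K ω, ∃ g ∈ (P : Subgroup N), ∃ k ∈ K,
          q.1.1 = g • ω ∧ q.2.1 = k • ω ∧ z = (g * k) • ω := by
        intro z
        obtain ⟨n, hn⟩ := htr z
        obtain ⟨g, hg, k, hk, rfl⟩ := hprod n
        exact ⟨(⟨g • ω, ⟨⟨g, hg⟩, rfl⟩⟩, ⟨k • ω, ⟨⟨k, hk⟩, rfl⟩⟩), g, hg, k, hk, rfl, rfl, hn.symm⟩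
      choose f hf using hsurj
      apply Nat.card_le_card_of_injective f
      intro z z' hzz
      obtain ⟨g, hg, k, hk, e1, e2, e3⟩ := hf z
      obtain ⟨g', hg', k', hk', e1', e2', e3'⟩ := hf z'
      rw [hzz, e1'] at e1
      rw [hzz, e2'] at e2
      rw [e3, e3', mul_smul, ← e2, ← mul_smul, hcomm g hg k' hk', mul_smul, ← e1, ← mul_smul,
        ← hcomm g' hg' k' hk']
  have hfaith : ∀ n : N, (∀ z : Ω, n • z = z) → n = 1 := by
    intro n hn
    apply Subtype.ext
    ext z
    exact hn z
  refine ⟨P, K, _, _, P.isPGroup', hcop, hcard, hxy, hx, hy, ⟨MulAction.toPermHom (P : Subgroup N) (orbit (P : Subgroup N) ω), ?_⟩, rfl,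
    ⟨MulAction.toPermHom K (orbit K ω), ?_⟩, rfl⟩
  · rw [injective_iff_map_eq_one]
    intro g hg
    have h1 : ∀ h ∈ (P : Subgroup N), (g : N) • (h • ω) = h • ω := by
      intro h hh
      have h2 := congrArg (fun f : Perm (orbit (P : Subgroup N) ω) => ((f ⟨h • ω, ⟨⟨h, hh⟩, rfl⟩⟩ : orbit (P : Subgroup N) ω) : Ω)) hg
      exact h2
    apply Subtype.ext
    apply hfaith
    intro z
    obtain ⟨n, hn⟩ := htr z
    obtain ⟨h, hh, k, hk, rfl⟩ := hprod n
    rw [← hn, hcomm h hh k hk, mul_smul, ← mul_smul, hcomm _ g.2 k hk, mul_smul, h1 h hh]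
  · rw [injective_iff_map_eq_one]
    intro g hg
    have h1 : ∀ h ∈ K, (g : N) • (h • ω) = h • ω := by
      intro h hh
      have h2 := congrArg (fun f : Perm (orbit K ω) => ((f ⟨h • ω, ⟨⟨h, hh⟩, rfl⟩⟩ : orbit K ω) : Ω)) hg
      exact h2
    apply Subtype.ext
    apply hfaith
    intro z
    obtain ⟨n, hn⟩ := htr z
    obtain ⟨h, hh, k, hk, rfl⟩ := hprod n
    rw [← hn, mul_smul, ← mul_smul, ← hcomm _ hh _ g.2, mul_smul, h1 k hk]

/-- Nilpotent permutation groups of degree `n` have order at most `B n`. -/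
theorem card_le_B : ∀ (n : ℕ) (Ω : Type v) [Finite Ω], Nat.card Ω = n → ∀ N : Subgroup (Perm Ω),
    Group.IsNilpotent N → Nat.card N ≤ B n := by
  intro n
  induction n using Nat.strong_induction_on with
  | _ n ih =>
    intro Ω _ hn N hN
    by_cases h2 : n < 2
    · have hsub : Subsingleton Ω := (Finite.card_le_one_iff_subsingleton).1 (by omega)
      have h3 : Nat.card N = 1 := by
        rw [Nat.card_eq_one_iff_unique]
        exact ⟨⟨fun a b => Subtype.ext (Equiv.ext fun x => Subsingleton.elim _ _)⟩, ⟨1⟩⟩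
      rw [h3]; exact B_pos n
    · push Not at h2
      have hne : Nonempty Ω := (Nat.card_pos_iff.1 (by omega)).1
      obtain ⟨ω⟩ := hne
      by_cases htr : ∀ x, ∃ g : N, g • ω = x
      · have hp : (Nat.minFac n).Prime := Nat.minFac_prime (by omega)
        obtain ⟨P, K, x, y, hP, hK, hcard, hxy, ⟨a, hxa⟩, hy, ⟨φ, hφ⟩, ho1, ⟨ψ, hψ⟩, ho2⟩ :=
          trans_split N hN ω htr hp (by rw [hn]; exact Nat.minFac_dvd n)
        rw [hn] at hxy
        have hpx : n.minFac ∣ x := by
          have h3 : n.minFac ∣ x * y := by rw [hxy]; exact Nat.minFac_dvd n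
          exact (hy.symm).dvd_of_dvd_mul_right h3
        have hx2 : 2 ≤ x := by
          have h3 : x ≠ 0 := by rintro rfl; omega
          exact hp.two_le.trans (Nat.le_of_dvd (Nat.pos_of_ne_zero h3) hpx)
        have hy0 : y ≠ 0 := by rintro rfl; omega
        have hPnil : Group.IsNilpotent P := by haveI := hN; infer_instance
        have hKnil : Group.IsNilpotent K := by haveI := hN; infer_instance
        have hyn : y < n := by nlinarith [Nat.pos_of_ne_zero hy0]
        have hKle : Nat.card K ≤ B y := transfer hKnil (ih y hyn _ ho2) ψ hψ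
        by_cases hy1 : y = 1
        · subst hy1
          rw [mul_one] at hxy
          rw [B_one] at hKle
          have hK1 : Nat.card K = 1 := le_antisymm hKle Nat.card_pos
          rw [hcard, hK1, mul_one]
          haveI := Fact.mk hp
          obtain ⟨m, hm⟩ := IsPGroup.iff_card.1 hP
          have h3 : n.minFac ^ m ∣ n.factorial := by
            have h4 : Nat.card N ∣ Nat.card (Perm Ω) := Subgroup.card_subgroup_dvd_card N
            rw [Nat.card_perm, hn, hcard, hK1, mul_one, hm] at h4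
            exact h4
          have h4 : m ≤ padicValNat n.minFac n.factorial :=
            (padicValNat_dvd_iff_le (Nat.factorial_ne_zero n)).1 h3
          rw [hm]
          have hxa' : n = n.minFac ^ a := by rw [← hxy]; rw [hxy]; rw [← hxa, hxy]
          have ha : a ≠ 0 := by
            rintro rfl
            rw [pow_zero] at hxa'
            omega
          calc n.minFac ^ m ≤ n.minFac ^ padicValNat n.minFac n.factorial :=
                Nat.pow_le_pow_right hp.pos h4
            _ = n.minFac ^ padicValNat n.minFac (n.minFac ^ a).factorial := by rw [← hxa']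
            _ ≤ B (n.minFac ^ a) := pp_le ha
            _ = B n := by rw [← hxa']
        · have hy2 : 2 ≤ y := by omega
          have hxn : x < n := by nlinarith
          have hPle : Nat.card P ≤ B x := transfer hPnil (ih x hxn _ ho1) φ hφ
          rw [hcard, ← hxy]
          exact (Nat.mul_le_mul hPle hKle).trans (B_mul_le hx2 hy2)
      · push Not at htr
        obtain ⟨z, hz⟩ := htr
        have hinv : ∀ g ∈ N, ∀ x, (g x ∈ orbit N ω) ↔ x ∈ orbit N ω := by
          intro g hg x
          constructor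
          · rintro ⟨h, hh⟩
            refine ⟨(⟨g, hg⟩ : N)⁻¹ * h, ?_⟩
            have hh' : h • ω = (⟨g, hg⟩ : N) • x := hh
            change ((⟨g, hg⟩ : N)⁻¹ * h) • ω = x
            rw [mul_smul, hh', inv_smul_smul]
          · rintro ⟨h, hh⟩
            refine ⟨(⟨g, hg⟩ : N) * h, ?_⟩
            have hh' : h • ω = x := hh
            change ((⟨g, hg⟩ : N) * h) • ω = g x
            rw [mul_smul, hh']
            rfl
        have hsum := card_add_card_compl (fun x => x ∈ orbit N ω)
        have h3 : 0 < Nat.card {x // x ∈ orbit N ω} := Nat.card_pos_iff.2 ⟨⟨⟨ω, mem_orbit_self ω⟩⟩, inferInstance⟩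
        have h4 : 0 < Nat.card {x // ¬ x ∈ orbit N ω} := Nat.card_pos_iff.2 ⟨⟨⟨z, by
          rintro ⟨g, hg⟩; exact hz g hg⟩⟩, inferInstance⟩
        rw [hn] at hsum
        have h5 := card_le_mul N _ hinv
        have h6 := ih _ (by omega) _ rfl _ (nilp_range hN (res N (fun x => x ∈ orbit N ω) hinv))
        have h7 := ih _ (by omega) _ rfl _ (nilp_range hN (res N (fun x => ¬ x ∈ orbit N ω) (fun g hg x => not_congr (hinv g hg x))))
        calc Nat.card N ≤ _ := h5
          _ ≤ _ := Nat.mul_le_mul h6 h7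
          _ ≤ _ := B_mul _ _
          _ = B n := by rw [hsum]

end Cfsg.Agent.Lib.NilpPerm
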