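import Cfsg.Agent.Lib.NilpPerm2

/-!
# Orders of nilpotent permutation groups (helper66): conjugacy of the largest ones
-/

set_option autoImplicit false

namespace Cfsg.Agent.Lib.NilpPerm

open Equiv MulAction

universe v w

theorem card_sylow {n : ℕ} (P : Sylow 2 (Perm (Fin n))) : Nat.card P = S n := by
  rw [P.card_eq_multiplicity, Nat.card_perm, Nat.card_fin, S, Nat.factorization_def _ Nat.prime_two]

/-- splitting a nilpotent group of order `3 * 2 ^ k` -/
theorem split {G : Type v} [Group G] [Finite G] (N : Subgroup G) (hN : Group.IsNilpotent N) {k : ℕ}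
    (hcard : Nat.card N = 3 * 2 ^ k) : ∃ (c : G) (T : Subgroup G), orderOf c = 3 ∧ T ≤ N ∧ c ∈ N ∧
      Nat.card T = 2 ^ k ∧ T ≤ Subgroup.centralizer {c} ∧ N = Subgroup.zpowers c ⊔ T := by
  haveI : Group.IsNilpotent N := hN
  haveI := Fact.mk Nat.prime_two
  obtain ⟨P, K, hK, hc⟩ := HallComplement.hasNormalPComplement_of_isNilpotent (G := N) 2
  have hPn : (P : Subgroup N).Normal := by
    have := (Group.isNilpotent_of_finite_tfae (G := N)).out 0 3
    exact this.1 hN 2 inferInstance P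
  have hPc : Nat.card P = 2 ^ k := by
    rw [P.card_eq_multiplicity, hcard, Nat.factorization_mul (by norm_num) (by positivity),
      Nat.prime_two.factorization_pow]
    have h3 : Nat.factorization 3 2 = 0 := Nat.factorization_eq_zero_of_not_dvd (by norm_num)
    simp [h3]
  have hKc : Nat.card K = 3 := by
    have h1 : Nat.card K * Nat.card P = Nat.card N := hc.card_mul
    rw [hcard, hPc] at h1
    exact Nat.eq_of_mul_eq_mul_right (by positivity) h1
  have hdis : Disjoint (P : Subgroup N) K := hc.disjoint.symm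
  have hcomm : ∀ g ∈ (P : Subgroup N), ∀ k ∈ K, g * k = k * g := fun g hg k hk =>
    (Subgroup.commute_of_normal_of_disjoint _ _ hPn hK hdis g k hg hk)
  haveI : Fact (Nat.Prime 3) := ⟨Nat.prime_three⟩
  haveI : IsCyclic K := isCyclic_of_prime_card hKc
  obtain ⟨c, hcgen⟩ := IsCyclic.exists_generator (α := K)
  have hc3 : orderOf c = 3 := by rw [orderOf_eq_card_of_forall_mem_zpowers hcgen, hKc]
  have hTN : (P : Subgroup N).map N.subtype ≤ N := by
    rintro _ ⟨x, -, rfl⟩; exact x.2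
  have hTcard : Nat.card ((P : Subgroup N).map N.subtype) = 2 ^ k := by
    rw [← hPc]
    exact (Nat.card_congr ((P : Subgroup N).equivMapOfInjective N.subtype N.subtype_injective).toEquiv).symm
  refine ⟨((c : N) : G), (P : Subgroup N).map N.subtype, ?_, hTN, (c : N).2, hTcard, ?_, ?_⟩
  · rw [Subgroup.orderOf_coe, Subgroup.orderOf_coe, hc3]
  · rintro _ ⟨x, hx, rfl⟩
    rw [Subgroup.mem_centralizer_singleton_iff]
    have := hcomm x hx c c.2
    exact congrArg Subtype.val this
  · apply le_antisymm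
    · intro x hx
      obtain ⟨⟨a, b⟩, hab⟩ := hc.2 ⟨x, hx⟩
      have h1 : x = ((a : N) : G) * ((b : N) : G) := by
        have := congrArg Subtype.val hab
        exact this.symm
      rw [h1]
      refine Subgroup.mul_mem_sup ?_ ⟨b, b.2, rfl⟩
      obtain ⟨m, hm⟩ := hcgen a
      refine ⟨m, ?_⟩
      have := congrArg (fun z : K => ((z : N) : G)) hm
      exact this
    · rw [sup_le_iff]
      exact ⟨by rw [Subgroup.zpowers_le]; exact (c : N).2, hTN⟩

/-- conjugacy of two such subgroups with the same element of order three -/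
theorem conj_same {G : Type v} [Group G] [Finite G] {c : G} {T₁ T₂ : Subgroup G} {k : ℕ}
    (hk : (Nat.card (Subgroup.centralizer {c})).factorization 2 = k)
    (h1 : T₁ ≤ Subgroup.centralizer {c}) (h2 : T₂ ≤ Subgroup.centralizer {c})
    (hc1 : Nat.card T₁ = 2 ^ k) (hc2 : Nat.card T₂ = 2 ^ k) :
    ∃ g : G, Subgroup.zpowers c ⊔ T₂ = (Subgroup.zpowers c ⊔ T₁).map (MulAut.conj g).toMonoidHom := by
  haveI := Fact.mk Nat.prime_two
  set C := Subgroup.centralizer ({c} : Set G) with hC
  have e1 : Nat.card (T₁.subgroupOf C) = 2 ^ (Nat.card C).factorization 2 := by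
    rw [hk, Nat.card_congr (Subgroup.subgroupOfEquivOfLe h1).toEquiv, hc1]
  have e2 : Nat.card (T₂.subgroupOf C) = 2 ^ (Nat.card C).factorization 2 := by
    rw [hk, Nat.card_congr (Subgroup.subgroupOfEquivOfLe h2).toEquiv, hc2]
  obtain ⟨g, hg⟩ := MulAction.exists_smul_eq C (Sylow.ofCard _ e1) (Sylow.ofCard _ e2)
  have h3 : (T₂.subgroupOf C) = (T₁.subgroupOf C).map (MulAut.conj g).toMonoidHom := by
    have := congrArg (fun P : Sylow 2 C => (P : Subgroup C)) hg
    exact this.symm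
  have h4 : T₂ = T₁.map (MulAut.conj (g : G)).toMonoidHom := by
    have h5 := congrArg (fun H : Subgroup C => H.map C.subtype) h3
    simp only [Subgroup.subgroupOf_map_subtype, inf_eq_left.2 h2] at h5
    rw [h5]
    ext x
    constructor
    · rintro ⟨_, ⟨y, hy, rfl⟩, rfl⟩
      exact ⟨y, hy, rfl⟩
    · rintro ⟨y, hy, rfl⟩
      exact ⟨_, ⟨⟨y, h1 hy⟩, hy, rfl⟩, rfl⟩
  refine ⟨g, ?_⟩
  rw [Subgroup.map_sup, ← h4, MonoidHom.map_zpowers]
  have h6 : (MulAut.conj (g : G)).toMonoidHom c = c := by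
    have := Subgroup.mem_centralizer_singleton_iff.1 g.2
    change (g : G) * c * (g : G)⁻¹ = c
    rw [this, mul_inv_cancel_right]
  rw [h6]

/-- the general conjugacy statement -/
theorem conj_of_split {G : Type v} [Group G] [Finite G] {c₁ c₂ : G} {T₁ T₂ : Subgroup G} {k : ℕ}
    (hk : (Nat.card (Subgroup.centralizer {c₂})).factorization 2 = k)
    (h1 : T₁ ≤ Subgroup.centralizer {c₁}) (h2 : T₂ ≤ Subgroup.centralizer {c₂})
    (hc1 : Nat.card T₁ = 2 ^ k) (hc2 : Nat.card T₂ = 2 ^ k) (hconj : IsConj c₁ c₂) :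
    ∃ g : G, Subgroup.zpowers c₂ ⊔ T₂ = (Subgroup.zpowers c₁ ⊔ T₁).map (MulAut.conj g).toMonoidHom := by
  obtain ⟨h, hh⟩ := isConj_iff.1 hconj
  have h3 : T₁.map (MulAut.conj h).toMonoidHom ≤ Subgroup.centralizer {c₂} := by
    rintro _ ⟨x, hx, rfl⟩
    rw [Subgroup.mem_centralizer_singleton_iff]
    have h4 := Subgroup.mem_centralizer_singleton_iff.1 (h1 hx)
    change h * x * h⁻¹ * c₂ = c₂ * (h * x * h⁻¹)
    rw [← hh]
    calc h * x * h⁻¹ * (h * c₁ * h⁻¹) = h * (x * c₁) * h⁻¹ := by group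
      _ = h * (c₁ * x) * h⁻¹ := by rw [h4]
      _ = _ := by group
  have h5 : Nat.card (T₁.map (MulAut.conj h).toMonoidHom) = 2 ^ k := by
    rw [← hc1]
    exact (Nat.card_congr (T₁.equivMapOfInjective _ (MulAut.conj h).injective).toEquiv).symm
  obtain ⟨g, hg⟩ := conj_same hk h3 h2 h5 hc2
  refine ⟨g * h, ?_⟩
  rw [hg, Subgroup.map_sup, Subgroup.map_sup, MonoidHom.map_zpowers, MonoidHom.map_zpowers]
  have h6 : (MulAut.conj (g * h)).toMonoidHom = ((MulAut.conj g).toMonoidHom).comp (MulAut.conj h).toMonoidHom := by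
    ext x; simp [mul_assoc]
  rw [h6]
  congr 1
  · congr 1
    change g * c₂ * g⁻¹ = g * (h * c₁ * h⁻¹) * g⁻¹
    rw [hh]
  · rw [Subgroup.map_map]

/-- an element of order three commuting with a large 2-group is a 3-cycle -/
theorem isThreeCycle_of {n : ℕ} (hn : n % 4 = 3) {c : Perm (Fin n)} (hc : orderOf c = 3)
    {T : Subgroup (Perm (Fin n))} (hT : T ≤ Subgroup.centralizer {c}) {k : ℕ} (hTc : Nat.card T = 2 ^ k)
    (hk : S (n - 3) ≤ 2 * 2 ^ k) : c.IsThreeCycle := by
  classical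
  obtain ⟨j, hj⟩ := Perm.cycleType_prime_order (σ := c) (by rw [hc]; exact Nat.prime_three)
  rw [hc] at hj
  by_cases hj0 : j = 0
  · subst hj0
    unfold Perm.IsThreeCycle
    rw [hj]; rfl
  exfalso
  have hsum : c.cycleType.sum ≤ n := by
    have := c.sum_cycleType_le
    simpa using this
  rw [hj, Multiset.sum_replicate, smul_eq_mul] at hsum
  have h1 := Perm.nat_card_centralizer c
  rw [hj, Multiset.sum_replicate, Multiset.prod_replicate, Fintype.card_fin, smul_eq_mul,
    Multiset.toFinset_replicate, if_neg (by omega), Finset.prod_singleton, Multiset.count_replicate_self] at h1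
  have h2 : 2 ^ k ∣ (n - (j + 1) * 3).factorial * 3 ^ (j + 1) * (j + 1).factorial := by
    rw [← h1, ← hTc]
    exact Subgroup.card_dvd_of_le hT
  have h3 : 2 ^ k ∣ (n - (j + 1) * 3).factorial * (j + 1).factorial := by
    have h4 : (2 ^ k).Coprime (3 ^ (j + 1)) := Nat.Coprime.pow _ _ (by norm_num)
    apply h4.dvd_of_dvd_mul_left
    rw [show 3 ^ (j + 1) * ((n - (j + 1) * 3).factorial * (j + 1).factorial) =
      (n - (j + 1) * 3).factorial * 3 ^ (j + 1) * (j + 1).factorial by ring]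
    exact h2
  have h4 : 2 ^ k ∣ (n - 4).factorial := by
    refine h3.trans ((Nat.factorial_mul_factorial_dvd_factorial_add _ _).trans (Nat.factorial_dvd_factorial ?_))
    omega
  have h5 : 2 ^ k ≤ S (n - 4) := by
    rw [S]
    exact Nat.pow_le_pow_right (by norm_num) ((padicValNat_dvd_iff_le (Nat.factorial_ne_zero _)).1 h4)
  have h6 : 4 * S (n - 4) ≤ S (n - 4 + 1) := S_succ_four (by omega)
  rw [show n - 4 + 1 = n - 3 by omega] at h6
  have h7 := S_pos (n - 4)
  omega

theorem card_centralizer_three {n : ℕ} {c : Perm (Fin n)} (hc : c.IsThreeCycle) :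
    Nat.card (Subgroup.centralizer {c}) = (n - 3).factorial * 3 := by
  classical
  have h1 := Perm.nat_card_centralizer c
  rw [show c.cycleType = {3} from hc] at h1
  rw [h1]
  simp

theorem fact_aux (m : ℕ) : (m.factorial * 3).factorization 2 = padicValNat 2 m.factorial := by
  rw [Nat.factorization_mul (Nat.factorial_ne_zero _) (by norm_num)]
  have h3 : Nat.factorization 3 2 = 0 := Nat.factorization_eq_zero_of_not_dvd (by norm_num)
  simp [h3, Nat.factorization_def _ Nat.prime_two]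

/-- conjugacy in the symmetric group -/
theorem conj_sym {n : ℕ} (hn : n % 4 = 3) {N₁ N₂ : Subgroup (Perm (Fin n))} (h1 : Group.IsNilpotent N₁)
    (h2 : Group.IsNilpotent N₂) (hc1 : Nat.card N₁ = 3 * S (n - 3)) (hc2 : Nat.card N₂ = 3 * S (n - 3)) :
    ∃ g : Perm (Fin n), N₂ = N₁.map (MulAut.conj g).toMonoidHom := by
  obtain ⟨c₁, T₁, o1, hTN1, -, hT1, hC1, e1⟩ := split N₁ h1 hc1
  obtain ⟨c₂, T₂, o2, hTN2, -, hT2, hC2, e2⟩ := split N₂ h2 hc2
  have i1 := isThreeCycle_of hn o1 hC1 hT1 (by rw [S]; omega)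
  have i2 := isThreeCycle_of hn o2 hC2 hT2 (by rw [S]; omega)
  have hconj : IsConj c₁ c₂ := Perm.isConj_iff_cycleType_eq.2 (by rw [show c₁.cycleType = {3} from i1, show c₂.cycleType = {3} from i2])
  obtain ⟨g, hg⟩ := conj_of_split (k := padicValNat 2 (n - 3).factorial)
    (by rw [card_centralizer_three i2, fact_aux]) hC1 hC2 hT1 hT2 hconj
  exact ⟨g, by rw [e2, hg, ← e1]⟩

end Cfsg.Agent.Lib.NilpPerm
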