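import Cfsg.Agent.Lib.NilpPerm3

/-!
# Orders of nilpotent permutation groups (helper66): existence, and the alternating bound
-/

set_option autoImplicit false

namespace Cfsg.Agent.Lib.NilpPerm

open Equiv MulAction

universe v w

/-- the product of a 2-subgroup and a cyclic group of order three -/
theorem exists_prod {X Y G : Type*} [Group X] [Group Y] [Group G] [Finite X] (Φ : X × Y →* G) (hΦ : Function.Injective Φ)
    (P : Sylow 2 X) {b : Y} (hb : orderOf b = 3) :
    ∃ M : Subgroup G, Group.IsNilpotent M ∧ Nat.card M = 3 * Nat.card P ∧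
      Nonempty (M ≃* (↥(P : Subgroup X) × Multiplicative (ZMod 3))) := by
  haveI := Fact.mk Nat.prime_two
  haveI := Fact.mk Nat.prime_three
  have h3 : Nat.card (Subgroup.zpowers b) = 3 := by rw [Nat.card_zpowers, hb]
  have h3' : Nat.card (Multiplicative (ZMod 3)) = 3 := by simp
  let e1 : ((P : Subgroup X).prod (Subgroup.zpowers b)).map Φ ≃* (P : Subgroup X).prod (Subgroup.zpowers b) :=
    (Subgroup.equivMapOfInjective _ Φ hΦ).symm
  let e2 := Subgroup.prodEquiv (P : Subgroup X) (Subgroup.zpowers b)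
  let e3 : ↥(P : Subgroup X) × ↥(Subgroup.zpowers b) ≃* ↥(P : Subgroup X) × Multiplicative (ZMod 3) :=
    MulEquiv.prodCongr (MulEquiv.refl _) (mulEquivOfPrimeCardEq h3 h3')
  let e := (e1.trans e2).trans e3
  refine ⟨((P : Subgroup X).prod (Subgroup.zpowers b)).map Φ, ?_, ?_, ⟨e⟩⟩
  · haveI : Group.IsNilpotent (P : Subgroup X) := P.isPGroup'.isNilpotent
    haveI : Group.IsNilpotent (↥(P : Subgroup X) × Multiplicative (ZMod 3)) := inferInstance
    exact Group.nilpotent_of_mulEquiv e.symm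
  · rw [Nat.card_congr e.toEquiv, Nat.card_prod, h3', mul_comm]

/-- the embedding -/
def emb (n : ℕ) (hn : 3 ≤ n) : Perm (Fin (n - 3)) × Perm (Fin 3) →* Perm (Fin n) :=
  ((finSumFinEquiv.trans (finCongr (by omega : n - 3 + 3 = n))).permCongrHom.toMonoidHom).comp
    (Perm.sumCongrHom (Fin (n - 3)) (Fin 3))

theorem emb_injective (n : ℕ) (hn : 3 ≤ n) : Function.Injective (emb n hn) := by
  intro x y h
  apply Perm.sumCongrHom_injective
  exact (finSumFinEquiv.trans (finCongr (by omega : n - 3 + 3 = n))).permCongrHom.injective h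

theorem sign_emb (n : ℕ) (hn : 3 ≤ n) (a : Perm (Fin (n - 3))) (b : Perm (Fin 3)) :
    Perm.sign (emb n hn (a, b)) = Perm.sign a * Perm.sign b := by
  change Perm.sign ((finSumFinEquiv.trans (finCongr (by omega : n - 3 + 3 = n))).permCongr (Perm.sumCongr a b)) = _
  rw [Perm.sign_permCongr, Perm.sign_sumCongr]

theorem exists_order_three : ∃ b : Perm (Fin 3), orderOf b = 3 ∧ Perm.sign b = 1 := by
  refine ⟨finRotate 3, ?_, by decide⟩
  rw [orderOf_eq_prime_iff]
  decide

theorem exists_sym {n : ℕ} (hn : 3 ≤ n) (P : Sylow 2 (Perm (Fin (n - 3)))) :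
    ∃ M : Subgroup (Perm (Fin n)), Group.IsNilpotent M ∧ Nat.card M = 3 * Nat.card P ∧
      Nonempty (M ≃* (↥(P : Subgroup (Perm (Fin (n - 3)))) × Multiplicative (ZMod 3))) := by
  obtain ⟨b, hb, -⟩ := exists_order_three
  exact exists_prod (emb n hn) (emb_injective n hn) P hb

/-- the embedding of alternating groups -/
def embAlt (n : ℕ) (hn : 3 ≤ n) : alternatingGroup (Fin (n - 3)) × alternatingGroup (Fin 3) →* alternatingGroup (Fin n) :=
  MonoidHom.codRestrict ((emb n hn).comp
    (MonoidHom.prodMap (alternatingGroup (Fin (n - 3))).subtype (alternatingGroup (Fin 3)).subtype)) _ (by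
      rintro ⟨a, b⟩
      rw [Perm.mem_alternatingGroup]
      change Perm.sign (emb n hn (a.1, b.1)) = 1
      rw [sign_emb, Perm.mem_alternatingGroup.1 a.2, Perm.mem_alternatingGroup.1 b.2, one_mul])

theorem embAlt_injective (n : ℕ) (hn : 3 ≤ n) : Function.Injective (embAlt n hn) := by
  rintro ⟨a, b⟩ ⟨a', b'⟩ h
  have h1 : emb n hn (a.1, b.1) = emb n hn (a'.1, b'.1) := congrArg Subtype.val h
  have h2 := emb_injective n hn h1
  rw [Prod.mk.injEq] at h2
  exact Prod.ext (Subtype.ext h2.1) (Subtype.ext h2.2)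

theorem exists_alt {n : ℕ} (hn : 3 ≤ n) (P : Sylow 2 (alternatingGroup (Fin (n - 3)))) :
    ∃ M : Subgroup (alternatingGroup (Fin n)), Group.IsNilpotent M ∧ Nat.card M = 3 * Nat.card P ∧
      Nonempty (M ≃* (↥(P : Subgroup (alternatingGroup (Fin (n - 3)))) × Multiplicative (ZMod 3))) := by
  obtain ⟨b, hb, hs⟩ := exists_order_three
  refine exists_prod (embAlt n hn) (embAlt_injective n hn) P (b := ⟨b, Perm.mem_alternatingGroup.2 hs⟩) ?_
  exact (Subgroup.orderOf_coe (⟨b, Perm.mem_alternatingGroup.2 hs⟩ : alternatingGroup (Fin 3))).symm.trans hb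

/-! ### The function for alternating groups -/

/-- the bound for alternating groups -/
def A (n : ℕ) : ℕ := if n < 2 then 1 else if n = 3 then 3 else if n = 5 then 5 else if n = 6 then 9 else
  if n = 9 then 81 else B n / 2

theorem even_S {n : ℕ} (hn : 2 ≤ n) : 2 ∣ S n := by
  have h1 : 1 ≤ padicValNat 2 n.factorial := one_le_padicValNat_of_dvd (Nat.factorial_ne_zero n)
    (Nat.dvd_factorial (by norm_num) hn)
  rw [S]
  exact dvd_pow_self 2 (by omega)

theorem even_B {n : ℕ} (hn : 2 ≤ n) (h3 : n ≠ 3) : 2 ∣ B n := by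
  by_cases h : n % 4 = 3
  · rw [B_of_eq h]; exact (even_S (by omega)).mul_left _
  · rw [B_of_ne h]; exact even_S hn

theorem B_2 : B 2 = 2 := by rw [B_of_ne (by norm_num), S_two]
theorem B_3 : B 3 = 3 := by rw [B_of_eq (by norm_num)]; simp [S_zero]
theorem B_4 : B 4 = 8 := by rw [B_of_ne (by norm_num), S_4]
theorem B_5 : B 5 = 8 := by rw [B_of_ne (by norm_num), S_5]
theorem B_6 : B 6 = 16 := by rw [B_of_ne (by norm_num), S_6]
theorem B_7 : B 7 = 24 := by rw [B_of_eq (by norm_num), show 7 - 3 = 4 from rfl, S_4]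
theorem B_8 : B 8 = 128 := by rw [B_of_ne (by norm_num), S_8]
theorem B_9 : B 9 = 128 := by rw [B_of_ne (by norm_num), S_9]
theorem B_10 : B 10 = 256 := by rw [B_of_ne (by norm_num), S_10]
theorem B_11 : B 11 = 384 := by rw [B_of_eq (by norm_num), show 11 - 3 = 8 from rfl, S_8]
theorem B_12 : B 12 = 1024 := by rw [B_of_ne (by norm_num), S_12]
theorem B_13 : B 13 = 1024 := by rw [B_of_ne (by norm_num), S_13]

theorem A_lt {n : ℕ} (h : n < 2) : A n = 1 := if_pos h
theorem A_3 : A 3 = 3 := by simp [A]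
theorem A_5 : A 5 = 5 := by simp [A]
theorem A_6 : A 6 = 9 := by simp [A]
theorem A_9 : A 9 = 81 := by simp [A]

theorem two_A_of {n : ℕ} (h2 : 2 ≤ n) (h3 : n ≠ 3) (h5 : n ≠ 5) (h6 : n ≠ 6) (h9 : n ≠ 9) : 2 * A n = B n := by
  have h1 : A n = B n / 2 := by
    unfold A
    rw [if_neg (by omega), if_neg h3, if_neg h5, if_neg h6, if_neg h9]
  rw [h1]
  exact Nat.mul_div_cancel' (even_B h2 h3)

theorem A_2 : A 2 = 1 := by have := two_A_of (n := 2) (by norm_num) (by norm_num) (by norm_num) (by norm_num) (by norm_num); rw [B_2] at this; omega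
theorem A_4 : A 4 = 4 := by have := two_A_of (n := 4) (by norm_num) (by norm_num) (by norm_num) (by norm_num) (by norm_num); rw [B_4] at this; omega
theorem A_7 : A 7 = 12 := by have := two_A_of (n := 7) (by norm_num) (by norm_num) (by norm_num) (by norm_num) (by norm_num); rw [B_7] at this; omega
theorem A_8 : A 8 = 64 := by have := two_A_of (n := 8) (by norm_num) (by norm_num) (by norm_num) (by norm_num) (by norm_num); rw [B_8] at this; omega
theorem A_10 : A 10 = 128 := by have := two_A_of (n := 10) (by norm_num) (by norm_num) (by norm_num) (by norm_num) (by norm_num); rw [B_10] at this; omega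
theorem A_11 : A 11 = 192 := by have := two_A_of (n := 11) (by norm_num) (by norm_num) (by norm_num) (by norm_num) (by norm_num); rw [B_11] at this; omega
theorem A_12 : A 12 = 512 := by have := two_A_of (n := 12) (by norm_num) (by norm_num) (by norm_num) (by norm_num) (by norm_num); rw [B_12] at this; omega
theorem A_13 : A 13 = 512 := by have := two_A_of (n := 13) (by norm_num) (by norm_num) (by norm_num) (by norm_num) (by norm_num); rw [B_13] at this; omega

theorem B_le_two_A {n : ℕ} (h2 : 2 ≤ n) : B n ≤ 2 * A n := by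
  by_cases h3 : n = 3
  · subst h3; rw [A_3, B_3]; norm_num
  by_cases h5 : n = 5
  · subst h5; rw [A_5, B_5]; norm_num
  by_cases h6 : n = 6
  · subst h6; rw [A_6, B_6]; norm_num
  by_cases h9 : n = 9
  · subst h9; rw [A_9, B_9]; norm_num
  exact (two_A_of h2 h3 h5 h6 h9).ge

theorem A_le_B {n : ℕ} (h2 : 2 ≤ n) (h3 : n ≠ 3) : 128 * A n ≤ 81 * B n := by
  by_cases h5 : n = 5
  · subst h5; rw [A_5, B_5]; norm_num
  by_cases h6 : n = 6
  · subst h6; rw [A_6, B_6]; norm_num
  by_cases h9 : n = 9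
  · subst h9; rw [A_9, B_9]
  have := two_A_of h2 h3 h5 h6 h9
  omega

theorem A_succ {n : ℕ} (h : 1 ≤ n) : A n ≤ A (n + 1) := by
  by_cases h10 : 10 ≤ n
  · have h1 := two_A_of (n := n) (by omega) (by omega) (by omega) (by omega) (by omega)
    have h2 := two_A_of (n := n + 1) (by omega) (by omega) (by omega) (by omega) (by omega)
    have h3 : B n ≤ B (n + 1) := B_mono (by omega)
    omega
  · have h9 : n ≤ 9 := by omega
    interval_cases n
    · rw [A_lt (by norm_num), A_2]
    · rw [A_2, A_3]; norm_num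
    · rw [A_3, A_4]; norm_num
    · rw [A_4, A_5]; norm_num
    · rw [A_5, A_6]; norm_num
    · rw [A_6, A_7]; norm_num
    · rw [A_7, A_8]; norm_num
    · rw [A_8, A_9]; norm_num
    · rw [A_9, A_10]; norm_num

theorem A_three {n : ℕ} (h : 1 ≤ n) : 3 * A n ≤ A (n + 3) := by
  by_cases h1 : n = 1
  · subst h1; rw [A_lt (by norm_num), A_4]; norm_num
  by_cases h3 : n = 3
  · subst h3; rw [A_3, A_6]
  by_cases h5 : n = 5
  · subst h5; rw [A_5, A_8]; norm_num
  by_cases h6 : n = 6
  · subst h6; rw [A_6, A_9]; norm_num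
  by_cases h9 : n = 9
  · subst h9; rw [A_9, A_12]; norm_num
  have h7 := two_A_of (n := n) (by omega) h3 h5 h6 h9
  have h8 := B_mul n 3
  rw [B_3] at h8
  have h10 := B_le_two_A (n := n + 3) (by omega)
  omega

theorem A_mul {a b : ℕ} (ha : 1 ≤ a) (hb : 1 ≤ b) : A a * A b ≤ A (a + b) := by
  by_cases ha1 : a = 1
  · subst ha1; rw [A_lt (by norm_num), one_mul, add_comm]; exact A_succ hb
  by_cases hb1 : b = 1
  · subst hb1; rw [A_lt (n := 1) (by norm_num), mul_one]; exact A_succ ha
  by_cases ha3 : a = 3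
  · subst ha3; rw [A_3, add_comm]; exact A_three hb
  by_cases hb3 : b = 3
  · subst hb3; rw [A_3, mul_comm]; exact A_three ha
  have h1 := A_le_B (n := a) (by omega) ha3
  have h2 := A_le_B (n := b) (by omega) hb3
  have h3 := Nat.mul_le_mul h1 h2
  have h4 := B_mul a b
  have h5 := B_le_two_A (n := a + b) (by omega)
  have h6 : 128 * A a * (128 * A b) = 16384 * (A a * A b) := by ring
  have h7 : 81 * B a * (81 * B b) = 6561 * (B a * B b) := by ring
  rw [h6, h7] at h3
  omega

theorem two_B_pred {n : ℕ} (h2 : 2 ≤ n) (he : n % 2 = 0) : 2 * B (n - 1) ≤ B n := by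
  rw [B_of_ne (n := n) (by omega)]
  by_cases h : (n - 1) % 4 = 3
  · rw [B_of_eq h]
    have h1 := S_succ_four (n := n - 1) h
    have h3 := S_three_zero (m := n - 1 - 3) (by omega)
    rw [show n - 1 + 1 = n by omega] at h1
    rw [show n - 1 - 3 + 3 = n - 1 by omega] at h3
    omega
  · rw [B_of_ne h]
    have h1 := S_succ_even (n := n - 1) (by omega)
    rw [show n - 1 + 1 = n by omega] at h1
    exact h1

theorem A_pp_aux : ∀ n : ℕ, 17 ≤ n → n % 2 = 1 → 4 * 3 ^ (n - 1) ≤ B n ^ 2 := by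
  intro n hn hodd
  have h1 := three_pow_le (n - 8) (by omega) (by omega)
  have h2 := B_mul (n - 8) 8
  rw [B_8, show n - 8 + 8 = n by omega] at h2
  by_cases h25 : 25 ≤ n
  · have h3 := three_pow_le (n - 16) (by omega) (by omega)
    have h4 := B_mul (n - 16) 8
    rw [B_8, show n - 16 + 8 = n - 8 by omega] at h4
    have h5 : B (n - 16) * 16384 ≤ B n := by
      calc B (n - 16) * 16384 = B (n - 16) * 128 * 128 := by ring
        _ ≤ B (n - 8) * 128 := Nat.mul_le_mul_right _ h4
        _ ≤ _ := h2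
    have h6 := Nat.pow_le_pow_left h5 2
    refine le_trans ?_ h6
    rw [mul_pow, show n - 1 = (n - 16 - 1) + 16 by omega, pow_add]
    calc 4 * (3 ^ (n - 16 - 1) * 3 ^ 16) = 3 ^ (n - 16 - 1) * (4 * 3 ^ 16) := by ring
      _ ≤ B (n - 16) ^ 2 * 16384 ^ 2 := Nat.mul_le_mul h3 (by norm_num)
  · have h7 : n = 17 ∨ n = 19 ∨ n = 21 ∨ n = 23 := by omega
    have h8 := Nat.pow_le_pow_left h2 2
    rcases h7 with rfl | rfl | rfl | rfl
    · rw [show 17 - 8 = 9 from rfl, B_9] at h8
      exact le_trans (by norm_num) h8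
    · rw [show 19 - 8 = 11 from rfl, B_11] at h8
      exact le_trans (by norm_num) h8
    · rw [show 21 - 8 = 13 from rfl, B_13] at h8
      exact le_trans (by norm_num) h8
    · rw [show 23 - 8 = 15 from rfl, B_of_eq (n := 15) (by norm_num), show 15 - 3 = 12 from rfl, S_12] at h8
      exact le_trans (by norm_num) h8

theorem A_pp {p : ℕ} [hp : Fact p.Prime] (hp3 : 3 ≤ p) {a : ℕ} (ha : a ≠ 0) : p ^ padicValNat p (p ^ a).factorial ≤ A (p ^ a) := by
  have hodd : p ^ a % 2 = 1 := by
    rcases hp.out.eq_two_or_odd with h | h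
    · omega
    · exact Nat.odd_iff.1 ((Nat.odd_iff.2 h).pow)
  by_cases h17 : 17 ≤ p ^ a
  · have h3 := (Nat.mul_le_mul_left 4 (pp_sq_le hp3 ha)).trans (A_pp_aux _ h17 hodd)
    have h4 : (2 * p ^ padicValNat p (p ^ a).factorial) ^ 2 ≤ (2 * A (p ^ a)) ^ 2 := by
      rw [two_A_of (n := p ^ a) (by omega) (by omega) (by omega) (by omega) (by omega)]
      refine le_trans (le_of_eq ?_) h3
      ring
    have h5 := (Nat.pow_le_pow_iff_left (by norm_num)).1 h4
    omega
  · by_cases ha1 : a = 1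
    · subst ha1
      rw [pow_one] at h17 hodd ⊢
      rw [padicValNat_factorial_self, pow_one]
      have h5 : p = 3 ∨ p = 5 ∨ p = 7 ∨ p = 9 ∨ p = 11 ∨ p = 13 ∨ p = 15 := by omega
      rcases h5 with rfl | rfl | rfl | rfl | rfl | rfl | rfl
      · rw [A_3]
      · rw [A_5]
      · rw [A_7]; norm_num
      · rw [A_9]; norm_num
      · rw [A_11]; norm_num
      · rw [A_13]; norm_num
      · exfalso; revert hp; intro hp; exact absurd hp.out (by norm_num)
    · have hp4 : p < 5 := by
        by_contra h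
        have h1 : 5 ^ 2 ≤ p ^ a := (Nat.pow_le_pow_left (by omega : 5 ≤ p) 2).trans (Nat.pow_le_pow_right (by omega) (by omega))
        omega
      have hp3' : p = 3 := by
        have h4 : p ≠ 4 := by rintro rfl; exact absurd hp.out (by norm_num)
        omega
      subst hp3'
      have ha2 : a = 2 := by
        by_contra h
        have h1 : 3 ^ 3 ≤ 3 ^ a := Nat.pow_le_pow_right (by omega) (by omega)
        omega
      subst ha2
      have h1 := pp_sq_le (p := 3) le_rfl (a := 2) (by norm_num)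
      have h2 : (3 ^ padicValNat 3 (3 ^ 2).factorial) ^ 2 ≤ 81 ^ 2 := h1.trans (by norm_num)
      have h3 := (Nat.pow_le_pow_iff_left (by norm_num)).1 h2
      rw [show (3 : ℕ) ^ 2 = 9 from rfl] at h3 ⊢
      rw [A_9]
      exact h3

end Cfsg.Agent.Lib.NilpPerm
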