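import Cfsg.Agent.Lib.NilpPerm4

/-!
# Orders of nilpotent permutation groups (helper66): the alternating bound, conjugacy
-/

set_option autoImplicit false

namespace Cfsg.Agent.Lib.NilpPerm

open Equiv MulAction

universe v w

theorem sign_res {Ω : Type v} [Fintype Ω] [DecidableEq Ω] (N : Subgroup (Perm Ω)) (p : Ω → Prop) [DecidablePred p]
    (h : ∀ g ∈ N, ∀ x, p (g x) ↔ p x) (g : N) :
    Perm.sign (g : Perm Ω) = Perm.sign (res N p h g) *
      Perm.sign (res N (fun x => ¬ p x) (fun g hg x => not_congr (h g hg x)) g) := by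
  rw [← Perm.sign_subtypeCongr]
  congr 1
  ext x
  by_cases hx : p x
  · rw [Perm.subtypeCongr.left_apply _ _ hx]; rfl
  · rw [Perm.subtypeCongr.right_apply _ _ hx]; rfl

theorem card_le_half {Ω : Type v} [Fintype Ω] [DecidableEq Ω] (N : Subgroup (Perm Ω)) (hs : ∀ g ∈ N, Perm.sign g = 1)
    (p : Ω → Prop) [DecidablePred p] (h : ∀ g ∈ N, ∀ x, p (g x) ↔ p x)
    (hodd : (∃ r ∈ (res N p h).range, Perm.sign r ≠ 1) ∨
      (∃ r ∈ (res N (fun x => ¬ p x) (fun g hg x => not_congr (h g hg x))).range, Perm.sign r ≠ 1)) :
    2 * Nat.card N ≤ Nat.card (res N p h).range * Nat.card (res N (fun x => ¬ p x) (fun g hg x => not_congr (h g hg x))).range := by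
  classical
  set f1 := res N p h with hf1
  set f2 := res N (fun x => ¬ p x) (fun g hg x => not_congr (h g hg x)) with hf2
  let f : N →* f1.range × f2.range := f1.rangeRestrict.prod f2.rangeRestrict
  let sg : f1.range × f2.range →* ℤˣ := (Perm.sign.comp f1.range.subtype).coprod (Perm.sign.comp f2.range.subtype)
  have hf : Function.Injective f := by
    intro g g' hgg
    have h0 := Prod.ext_iff.1 hgg
    have h1 : f1 g = f1 g' := congrArg Subtype.val h0.1
    have h2 : f2 g = f2 g' := congrArg Subtype.val h0.2
    apply Subtype.ext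
    ext x
    by_cases hx : p x
    · have h3 := congrArg (fun f : Perm {x // p x} => ((f ⟨x, hx⟩ : {x // p x}) : Ω)) h1
      exact h3
    · have h3 := congrArg (fun f : Perm {x // ¬ p x} => ((f ⟨x, hx⟩ : {x // ¬ p x}) : Ω)) h2
      exact h3
  have hk : ∀ g, f g ∈ sg.ker := by
    intro g
    rw [MonoidHom.mem_ker]
    change Perm.sign (f1 g) * Perm.sign (f2 g) = 1
    rw [hf1, hf2, ← sign_res, hs g g.2]
  have h1 : Nat.card N ≤ Nat.card sg.ker :=
    Nat.card_le_card_of_injective (fun g => (⟨f g, hk g⟩ : sg.ker)) (fun g g' hgg => hf (congrArg Subtype.val hgg))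
  have h2 : Nat.card (f1.range × f2.range) = Nat.card sg.ker * Nat.card sg.range := by
    rw [← sg.ker.card_mul_index, Subgroup.index_ker]
  have h3 : 2 ≤ Nat.card sg.range := by
    have h4 : ∃ x ∈ sg.range, x ≠ 1 := by
      rcases hodd with ⟨r, hr, hr1⟩ | ⟨r, hr, hr1⟩
      · refine ⟨Perm.sign r, ⟨(⟨r, hr⟩, 1), ?_⟩, hr1⟩
        change Perm.sign r * Perm.sign (1 : Perm {x // ¬ p x}) = Perm.sign r
        rw [Perm.sign_one, mul_one]
      · refine ⟨Perm.sign r, ⟨(1, ⟨r, hr⟩), ?_⟩, hr1⟩
        change Perm.sign (1 : Perm {x // p x}) * Perm.sign r = Perm.sign r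
        rw [Perm.sign_one, one_mul]
    obtain ⟨x, hx, hx1⟩ := h4
    have h5 : Nontrivial sg.range := ⟨⟨x, hx⟩, 1, fun he => hx1 (congrArg Subtype.val he)⟩
    exact Finite.one_lt_card
  rw [← Nat.card_prod, h2]
  nlinarith

/-- Nilpotent groups of even permutations of degree `n` have order at most `A n`. -/
theorem card_le_A : ∀ (n : ℕ) (Ω : Type v) [Fintype Ω] [DecidableEq Ω], Nat.card Ω = n → ∀ N : Subgroup (Perm Ω),
    Group.IsNilpotent N → (∀ g ∈ N, Perm.sign g = 1) → Nat.card N ≤ A n := by
  classical
  intro n
  induction n using Nat.strong_induction_on with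
  | _ n ih =>
    intro Ω _ _ hn N hN hs
    by_cases h2 : n < 2
    · have hsub : Subsingleton Ω := (Finite.card_le_one_iff_subsingleton).1 (by omega)
      have h3 : Nat.card N = 1 := by
        rw [Nat.card_eq_one_iff_unique]
        exact ⟨⟨fun a b => Subtype.ext (Equiv.ext fun x => Subsingleton.elim _ _)⟩, ⟨1⟩⟩
      rw [h3, A_lt h2]
    · push Not at h2
      have hne : Nonempty Ω := (Nat.card_pos_iff.1 (by omega)).1
      have hBA := B_le_two_A h2
      obtain ⟨ω⟩ := hne
      by_cases htr : ∀ x, ∃ g : N, g • ω = x
      · have hp : (Nat.minFac n).Prime := Nat.minFac_prime (by omega)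
        obtain ⟨P, K, x, y, hP, hK, hcard, hxy, ⟨a, hxa⟩, hy, ⟨φ, hφ⟩, ho1, ⟨ψ, hψ⟩, ho2⟩ :=
          trans_split N hN ω htr hp (by rw [hn]; exact Nat.minFac_dvd n)
        rw [hn] at hxy
        have hpx : n.minFac ∣ x := by
          have h3 : n.minFac ∣ x * y := by rw [hxy]; exact Nat.minFac_dvd n
          exact (hy.symm).dvd_of_dvd_mul_right h3
        have hx2 : 2 ≤ x := by
          have h3 : x ≠ 0 := by rintro rfl; omega
          exact hp.two_le.trans (Nat.le_of_dvd (Nat.pos_of_ne_zero h3) hpx)
        have hy0 : y ≠ 0 := by rintro rfl; omega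
        have hPnil : Group.IsNilpotent P := by haveI := hN; infer_instance
        have hKnil : Group.IsNilpotent K := by haveI := hN; infer_instance
        have hKle : Nat.card K ≤ B y := transfer hKnil (card_le_B y _ ho2) ψ hψ
        by_cases hy1 : y = 1
        · subst hy1
          rw [mul_one] at hxy
          rw [B_one] at hKle
          have hK1 : Nat.card K = 1 := le_antisymm hKle Nat.card_pos
          haveI := Fact.mk hp
          obtain ⟨m, hm⟩ := IsPGroup.iff_card.1 hP
          have hNm : Nat.card N = n.minFac ^ m := by rw [hcard, hK1, mul_one, hm]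
          have hxa' : n = n.minFac ^ a := by rw [← hxy]; rw [hxy]; rw [← hxa, hxy]
          have ha : a ≠ 0 := by
            rintro rfl
            rw [pow_zero] at hxa'
            omega
          rcases hp.two_le.eq_or_lt with hp2 | hp2
          · -- a 2-group
            have hle : N ≤ alternatingGroup Ω := fun g hg => Perm.mem_alternatingGroup.2 (hs g hg)
            have hnt : Nontrivial Ω := Finite.one_lt_card_iff_nontrivial.1 (by omega)
            have h3 : 2 * Nat.card N ∣ n.factorial := by
              have h4 : Nat.card N ∣ Nat.card (alternatingGroup Ω) := Subgroup.card_dvd_of_le hle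
              have h5 : 2 * Nat.card (alternatingGroup Ω) = Nat.card (Perm Ω) := two_mul_nat_card_alternatingGroup
              rw [Nat.card_perm, hn] at h5
              rw [← h5]
              exact Nat.mul_dvd_mul_left 2 h4
            rw [hNm, ← hp2, ← pow_succ'] at h3
            have h4 : m + 1 ≤ padicValNat 2 n.factorial :=
              (padicValNat_dvd_iff_le (Nat.factorial_ne_zero n)).1 h3
            have h5 : 2 * Nat.card N ≤ S n := by
              rw [hNm, ← hp2, ← pow_succ', S]
              exact Nat.pow_le_pow_right (by norm_num) h4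
            have h6 := S_le_B n
            omega
          · have h3 : n.minFac ^ m ∣ n.factorial := by
              have h4 : Nat.card N ∣ Nat.card (Perm Ω) := Subgroup.card_subgroup_dvd_card N
              rw [Nat.card_perm, hn, hNm] at h4
              exact h4
            have h4 : m ≤ padicValNat n.minFac n.factorial :=
              (padicValNat_dvd_iff_le (Nat.factorial_ne_zero n)).1 h3
            rw [hNm]
            calc n.minFac ^ m ≤ n.minFac ^ padicValNat n.minFac n.factorial :=
                  Nat.pow_le_pow_right hp.pos h4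
              _ = n.minFac ^ padicValNat n.minFac (n.minFac ^ a).factorial := by rw [← hxa']
              _ ≤ A (n.minFac ^ a) := A_pp hp2 ha
              _ = A n := by rw [← hxa']
        · have hy2 : 2 ≤ y := by omega
          have hPle : Nat.card P ≤ B x := transfer hPnil (card_le_B x _ ho1) φ hφ
          have hle : Nat.card N ≤ B (x + y) := by
            rw [hcard]
            exact (Nat.mul_le_mul hPle hKle).trans (B_mul x y)
          have hcop : x.Coprime y := by rw [hxa]; exact (hy.symm).pow_left a
          have hne : x ≠ y := by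
            rintro rfl
            rw [Nat.coprime_self] at hcop
            omega
          rcases Nat.mod_two_eq_zero_or_one n with he | ho
          · have h3 : x + y ≤ n - 1 := by
              have h4 : x + y + 1 ≤ x * y := by
                rcases lt_or_gt_of_ne hne with h5 | h5
                · nlinarith
                · nlinarith
              omega
            have h4 := B_mono h3
            have h5 := two_B_pred h2 he
            omega
          · have hx3 : 3 ≤ x := by
              by_contra h
              have : x = 2 := by omega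
              subst this
              omega
            have hy3 : 3 ≤ y := by
              by_contra h
              have : y = 2 := by omega
              subst this
              omega
            have h3 : x + y + 4 ≤ x * y := by
              rcases lt_or_gt_of_ne hne with h5 | h5
              · nlinarith
              · nlinarith
            have h4 := B_mul (x + y) 4
            rw [B_4] at h4
            have h5 : B (x + y + 4) ≤ B n := B_mono (by omega)
            omega
      · push Not at htr
        obtain ⟨z, hz⟩ := htr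
        have hinv : ∀ g ∈ N, ∀ x, (g x ∈ orbit N ω) ↔ x ∈ orbit N ω := by
          intro g hg x
          constructor
          · rintro ⟨h, hh⟩
            refine ⟨(⟨g, hg⟩ : N)⁻¹ * h, ?_⟩
            have hh' : h • ω = (⟨g, hg⟩ : N) • x := hh
            change ((⟨g, hg⟩ : N)⁻¹ * h) • ω = x
            rw [mul_smul, hh', inv_smul_smul]
          · rintro ⟨h, hh⟩
            refine ⟨(⟨g, hg⟩ : N) * h, ?_⟩
            have hh' : h • ω = x := hh
            change ((⟨g, hg⟩ : N) * h) • ω = g x
            rw [mul_smul, hh']
            rfl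
        have hsum := card_add_card_compl (fun x => x ∈ orbit N ω)
        have h3 : 0 < Nat.card {x // x ∈ orbit N ω} := Nat.card_pos_iff.2 ⟨⟨⟨ω, mem_orbit_self ω⟩⟩, inferInstance⟩
        have h4 : 0 < Nat.card {x // ¬ x ∈ orbit N ω} := Nat.card_pos_iff.2 ⟨⟨⟨z, by
          rintro ⟨g, hg⟩; exact hz g hg⟩⟩, inferInstance⟩
        rw [hn] at hsum
        by_cases hodd : (∃ r ∈ (res N (fun x => x ∈ orbit N ω) hinv).range, Perm.sign r ≠ 1) ∨
            (∃ r ∈ (res N (fun x => ¬ x ∈ orbit N ω) (fun g hg x => not_congr (hinv g hg x))).range, Perm.sign r ≠ 1)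
        · have h5 := card_le_half N hs _ hinv hodd
          have h6 := card_le_B _ _ rfl _ (nilp_range hN (res N (fun x => x ∈ orbit N ω) hinv))
          have h7 := card_le_B _ _ rfl _ (nilp_range hN (res N (fun x => ¬ x ∈ orbit N ω) (fun g hg x => not_congr (hinv g hg x))))
          have h8 : 2 * Nat.card N ≤ B n := by
            calc 2 * Nat.card N ≤ _ := h5
              _ ≤ _ := Nat.mul_le_mul h6 h7
              _ ≤ _ := B_mul _ _
              _ = B n := by rw [hsum]
          omega
        · push Not at hodd
          have h5 := card_le_mul N _ hinv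
          have h6 := ih _ (by omega) _ rfl _ (nilp_range hN (res N (fun x => x ∈ orbit N ω) hinv)) hodd.1
          have h7 := ih _ (by omega) _ rfl _ (nilp_range hN (res N (fun x => ¬ x ∈ orbit N ω) (fun g hg x => not_congr (hinv g hg x)))) hodd.2
          calc Nat.card N ≤ _ := h5
            _ ≤ _ := Nat.mul_le_mul h6 h7
            _ ≤ _ := A_mul h3 h4
            _ = A n := by rw [hsum]

/-- the bound for subgroups of the alternating group -/
theorem card_le_A' {n : ℕ} (N : Subgroup (alternatingGroup (Fin n))) (hN : Group.IsNilpotent N) : Nat.card N ≤ A n := by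
  have h1 : Nat.card (N.map (alternatingGroup (Fin n)).subtype) = Nat.card N :=
    (Nat.card_congr (N.equivMapOfInjective _ (alternatingGroup (Fin n)).subtype_injective).toEquiv).symm
  rw [← h1]
  apply card_le_A n (Fin n) (by simp)
  · haveI := hN
    exact Group.nilpotent_of_mulEquiv (N.equivMapOfInjective _ (alternatingGroup (Fin n)).subtype_injective)
  · rintro _ ⟨g, -, rfl⟩
    exact Perm.mem_alternatingGroup.1 g.2

theorem card_sylow_alt {n : ℕ} (hn : 2 ≤ n) (P : Sylow 2 (alternatingGroup (Fin n))) : 2 * Nat.card P = S n := by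
  haveI : Nontrivial (Fin n) := Fin.nontrivial_iff_two_le.2 hn
  have h1 : 2 * Nat.card (alternatingGroup (Fin n)) = Nat.card (Perm (Fin n)) := two_mul_nat_card_alternatingGroup
  rw [Nat.card_perm, Nat.card_fin] at h1
  rw [P.card_eq_multiplicity, S, ← Nat.factorization_def _ Nat.prime_two, ← h1,
    Nat.factorization_mul (by norm_num) Nat.card_pos.ne', ← pow_succ']
  congr 1
  simp [Nat.prime_two.factorization_self, add_comm]

/-- the centralizer of a 3-cycle in the alternating group -/
theorem card_centralizer_three_alt {n : ℕ} (hn : 5 ≤ n) {c : alternatingGroup (Fin n)}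
    (hc : (c : Perm (Fin n)).IsThreeCycle) :
    2 * Nat.card (Subgroup.centralizer {c}) = (n - 3).factorial * 3 := by
  classical
  rw [← card_centralizer_three hc]
  set C := Subgroup.centralizer {(c : Perm (Fin n))} with hC
  let s : C →* ℤˣ := Perm.sign.comp C.subtype
  have h2 : Nat.card C = Nat.card s.ker * Nat.card s.range := by
    rw [← s.ker.card_mul_index, Subgroup.index_ker]
  -- an odd element
  have hsupp : (c : Perm (Fin n)).support.card = 3 := hc.card_support
  have h3 : 1 < ((c : Perm (Fin n)).supportᶜ).card := by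
    rw [Finset.card_compl, Fintype.card_fin, hsupp]; omega
  obtain ⟨a, ha, b, hb, hab⟩ := Finset.one_lt_card.1 h3
  rw [Finset.mem_compl, Perm.notMem_support] at ha hb
  have hsw : swap a b ∈ C := by
    rw [hC, Subgroup.mem_centralizer_singleton_iff]
    have := Equiv.mul_swap_eq_swap_mul (c : Perm (Fin n)) a b
    rw [ha, hb] at this
    exact this.symm
  have h4 : Nat.card s.range = 2 := by
    have h5 : s.range = ⊤ := by
      rw [eq_top_iff]
      intro x _
      rcases Int.units_eq_one_or x with rfl | rfl
      · exact one_mem _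
      · refine ⟨⟨swap a b, hsw⟩, ?_⟩
        change Perm.sign (swap a b) = -1
        exact Perm.sign_swap hab
    rw [h5, Subgroup.card_top]
    simp
  have h5 : Nat.card s.ker = Nat.card (Subgroup.centralizer {c}) := by
    apply Nat.card_congr
    refine ⟨fun x => ⟨⟨x.1.1, Perm.mem_alternatingGroup.2 x.2⟩, ?_⟩, fun x => ⟨⟨x.1.1, ?_⟩, ?_⟩, ?_, ?_⟩
    · rw [Subgroup.mem_centralizer_singleton_iff]
      apply Subtype.ext
      exact Subgroup.mem_centralizer_singleton_iff.1 x.1.2
    · rw [hC, Subgroup.mem_centralizer_singleton_iff]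
      exact congrArg Subtype.val (Subgroup.mem_centralizer_singleton_iff.1 x.2)
    · exact Perm.mem_alternatingGroup.1 x.1.2
    · intro x; rfl
    · intro x; rfl
  rw [h2, h4, h5, mul_comm]

/-- conjugacy in the alternating group -/
theorem conj_alt {n : ℕ} (hn : n % 4 = 3) (h7 : 7 ≤ n) {N₁ N₂ : Subgroup (alternatingGroup (Fin n))}
    (h1 : Group.IsNilpotent N₁) (h2 : Group.IsNilpotent N₂) {k : ℕ} (hk : 2 * 2 ^ k = S (n - 3))
    (hc1 : Nat.card N₁ = 3 * 2 ^ k) (hc2 : Nat.card N₂ = 3 * 2 ^ k) :
    ∃ g : alternatingGroup (Fin n), N₂ = N₁.map (MulAut.conj g).toMonoidHom := by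
  obtain ⟨c₁, T₁, o1, hTN1, -, hT1, hC1, e1⟩ := split N₁ h1 hc1
  obtain ⟨c₂, T₂, o2, hTN2, -, hT2, hC2, e2⟩ := split N₂ h2 hc2
  have key : ∀ (c : alternatingGroup (Fin n)) (T : Subgroup (alternatingGroup (Fin n))), orderOf c = 3 →
      T ≤ Subgroup.centralizer {c} → Nat.card T = 2 ^ k → (c : Perm (Fin n)).IsThreeCycle := by
    intro c T hc hT hTc
    have h3 : Nat.card (T.map (alternatingGroup (Fin n)).subtype) = 2 ^ k := by
      rw [← hTc]
      exact (Nat.card_congr (T.equivMapOfInjective _ (alternatingGroup (Fin n)).subtype_injective).toEquiv).symm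
    refine isThreeCycle_of hn (by rw [Subgroup.orderOf_coe, hc]) (T := T.map (alternatingGroup (Fin n)).subtype) ?_ h3 hk.ge
    rintro _ ⟨x, hx, rfl⟩
    rw [Subgroup.mem_centralizer_singleton_iff]
    exact congrArg Subtype.val (Subgroup.mem_centralizer_singleton_iff.1 (hT hx))
  have i1 := key c₁ T₁ o1 hC1 hT1
  have i2 := key c₂ T₂ o2 hC2 hT2
  have hconj : IsConj c₁ c₂ := alternatingGroup.isThreeCycle_isConj (by rw [Nat.card_fin]; omega) i1 i2
  have hfac : (Nat.card (Subgroup.centralizer {c₂})).factorization 2 = k := by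
    have h3 := card_centralizer_three_alt (by omega) i2
    have h4 := fact_aux (n - 3)
    rw [← h3, Nat.factorization_mul (by norm_num) Nat.card_pos.ne'] at h4
    have h5 : Nat.factorization 2 2 = 1 := Nat.prime_two.factorization_self
    have h6 : k + 1 = padicValNat 2 (n - 3).factorial := by
      rw [← pow_succ', S] at hk
      exact Nat.pow_right_injective le_rfl hk
    simp only [Finsupp.coe_add, Pi.add_apply, h5] at h4
    omega
  obtain ⟨g, hg⟩ := conj_of_split (k := k) hfac hC1 hC2 hT1 hT2 hconj
  exact ⟨g, by rw [e2, hg, ← e1]⟩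

end Cfsg.Agent.Lib.NilpPerm
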