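import Cfsg.Agent.Lib.OddBaseL
import Cfsg.Agent.S3762

/-!
# Regular orbits of p-groups of symplectic type, p odd (helper61)
-/

set_option autoImplicit false

open Subgroup
open scoped commutatorElement

namespace Cfsg.Agent.Lib.NoFixA

open OddBaseA OddBaseB OddBaseC OddBaseD OddBaseH OddBaseI OddBaseJ OddBaseK OddBaseL

section lin

variable {K V A : Type*} [Field K] [AddCommGroup V] [Module K V] [Group A] [DistribMulAction A V]

/-- the fixed space of an element with a central commutator -/
theorem fx_pow_le [Finite V] {x y : A} {ζ : K} (hx : ∀ (k : K) (v : V), x • (k • v) = k • (x • v))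
    (hy : ∀ (k : K) (v : V), y • (k • v) = k • (y • v)) (hζ : ∀ v : V, ⁅x, y⁆ • v = ζ • v) {n : ℕ}
    (hinj : ∀ i < n, ∀ j < n, ζ ^ i = ζ ^ j → i = j) : Nat.card (fx V x) ^ n ≤ Nat.card V := by
  classical
  have hxy : ∀ v : V, x • y • v = ζ • (y • x • v) := by
    intro v
    rw [← hζ, smul_smul, smul_smul, smul_smul]
    congr 1
    rw [commutatorElement_def]
    group
  have hpow : ∀ (i : ℕ) (v : V), x • v = v → x • (y ^ i • v) = ζ ^ i • (y ^ i • v) := by
    intro i
    induction i with
    | zero => intro v hv; simp [hv]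
    | succ i ih =>
      intro v hv
      rw [pow_succ', mul_smul, hxy, ih v hv, hy, smul_smul, ← mul_smul y, ← pow_succ', ← pow_succ']
  let g : Module.End K V :=
    { toFun := fun v => x • v
      map_add' := smul_add x
      map_smul' := hx }
  have hind := Module.End.eigenspaces_iSupIndep g
  have hind2 : iSupIndep (fun i : Fin n => g.eigenspace (ζ ^ (i : ℕ))) :=
    hind.comp (f := fun i : Fin n => ζ ^ (i : ℕ)) (fun i j hij => Fin.ext (hinj i i.2 j j.2 hij))
  rw [iSupIndep_iff_finsetSum_eq_zero_imp_eq_zero] at hind2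
  let F : (Fin n → fx V x) → V := fun f => ∑ i : Fin n, y ^ (i : ℕ) • ((f i : fx V x) : V)
  have hF : Function.Injective F := by
    intro f f' hff
    have h1 : ∑ i : Fin n, y ^ (i : ℕ) • (((f i - f' i : fx V x)) : V) = 0 := by
      have : ∀ i : Fin n, y ^ (i : ℕ) • (((f i - f' i : fx V x)) : V) = y ^ (i : ℕ) • ((f i : fx V x) : V) - y ^ (i : ℕ) • ((f' i : fx V x) : V) := by
        intro i
        rw [AddSubgroup.coe_sub, smul_sub]
      rw [Finset.sum_congr rfl (fun i _ => this i), Finset.sum_sub_distrib]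
      exact sub_eq_zero.mpr hff
    have h2 := hind2 Finset.univ (fun i => y ^ (i : ℕ) • (((f i - f' i : fx V x)) : V)) (by
      intro i _
      rw [Module.End.mem_eigenspace_iff]
      exact hpow i _ (f i - f' i).2) h1
    funext i
    have h3 := h2 i (Finset.mem_univ i)
    have h4 := (smul_eq_zero_iff_eq _).mp h3
    have h5 : f i - f' i = 0 := Subtype.ext h4
    exact sub_eq_zero.mp h5
  have h1 := Nat.card_le_card_of_injective F hF
  rw [Nat.card_fun, Nat.card_eq_fintype_card (α := Fin n), Fintype.card_fin] at h1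
  exact h1

end lin

/-- the numerical inequality -/
theorem num1 (d : ℕ) (hd : 3 ≤ d) : (3 * (d ^ 2 - 1)) ^ 3 < 8 * 16 ^ d := by
  induction d, hd using Nat.le_induction with
  | base => norm_num
  | succ d hd ih =>
    have h1 : (d + 1) ^ 2 - 1 ≤ 2 * (d ^ 2 - 1) := by
      obtain ⟨e, rfl⟩ : ∃ e, d = e + 3 := ⟨d - 3, by omega⟩
      have h2 : (e + 3 + 1) ^ 2 = e ^ 2 + 8 * e + 16 := by ring
      have h3 : (e + 3) ^ 2 = e ^ 2 + 6 * e + 9 := by ring
      rw [h2, h3]
      omega
    calc (3 * ((d + 1) ^ 2 - 1)) ^ 3 ≤ (3 * (2 * (d ^ 2 - 1))) ^ 3 := Nat.pow_le_pow_left (Nat.mul_le_mul_left _ h1) 3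
      _ = 8 * (3 * (d ^ 2 - 1)) ^ 3 := by ring
      _ < 8 * (8 * 16 ^ d) := Nat.mul_lt_mul_of_pos_left ih (by norm_num)
      _ ≤ 8 * 16 ^ (d + 1) := by
        rw [pow_succ]
        omega

theorem num2 {Q d f p : ℕ} (hp : 3 ≤ p) (hQ : p + 1 ≤ Q) (hf : f * p ≤ d) (hf1 : 1 ≤ f) :
    3 * (d ^ 2 - 1) < 2 * Q ^ (d - f) := by
  have hd : 3 ≤ d := by nlinarith
  have h3f : 3 * f ≤ d := by nlinarith
  have h1 := num1 d hd
  have h2 : 8 * 16 ^ d ≤ (2 * Q ^ (d - f)) ^ 3 := by
    have h3 : (2 * Q ^ (d - f)) ^ 3 = 8 * Q ^ (3 * (d - f)) := by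
      rw [mul_pow, ← pow_mul, mul_comm (d - f) 3]; norm_num
    rw [h3]
    have h4 : 16 ^ d = 4 ^ (2 * d) := by
      rw [pow_mul]; norm_num
    rw [h4]
    apply Nat.mul_le_mul_left
    calc 4 ^ (2 * d) ≤ 4 ^ (3 * (d - f)) := Nat.pow_le_pow_right (by norm_num) (by omega)
      _ ≤ Q ^ (3 * (d - f)) := Nat.pow_le_pow_left (by omega) _
  exact (Nat.pow_lt_pow_iff_left (by norm_num)).mp (h1.trans_le h2)

theorem num3 {Q d f p I s : ℕ} (hp : 3 ≤ p) (hQ : p + 1 ≤ Q) (hf : f * p ≤ d) (hd1 : 1 ≤ d) (hI : I ≤ d ^ 2) (hI1 : 1 ≤ I)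
    (hs : s ≤ p * (I - 1)) (h : (p - 1) * (Q ^ d - 1) ≤ s * (Q ^ f - 1)) : False := by
  rcases Nat.eq_zero_or_pos f with hf0 | hf1
  · rw [hf0, pow_zero, Nat.sub_self, mul_zero] at h
    have h1 : 1 < Q ^ d := Nat.one_lt_pow (by omega) (by omega)
    have h2 : 0 < (p - 1) * (Q ^ d - 1) := Nat.mul_pos (by omega) (by omega)
    omega
  · have h1 := num2 hp hQ hf hf1
    have hfd : f ≤ d := by nlinarith
    set X := Q ^ f with hX
    set Y := Q ^ (d - f) with hY
    have hXY : Q ^ d = X * Y := by
      rw [hX, hY, ← pow_add]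
      congr 1
      omega
    have hX1 : 1 < X := Nat.one_lt_pow (by omega) (by omega)
    have hY1 : 1 ≤ Y := Nat.one_le_pow _ _ (by omega)
    rw [hXY] at h
    obtain ⟨x, hx⟩ : ∃ x, X = x + 1 := ⟨X - 1, by omega⟩
    have hx1 : 1 ≤ x := by omega
    obtain ⟨r, hr⟩ : ∃ r, p = r + 1 := ⟨p - 1, by omega⟩
    have h2 : X - 1 = x := by omega
    have h3 : r * (x * Y) ≤ (p - 1) * (X * Y - 1) := by
      have : p - 1 = r := by omega
      rw [this]
      apply Nat.mul_le_mul_left
      rw [hx, add_mul, one_mul]
      omega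
    have h4 : s * x ≤ p * (d ^ 2 - 1) * x := by
      apply Nat.mul_le_mul_right
      exact hs.trans (Nat.mul_le_mul_left _ (by omega))
    rw [h2] at h
    have h5 : r * (x * Y) ≤ p * (d ^ 2 - 1) * x := h3.trans (h.trans h4)
    have h6 : r * Y ≤ p * (d ^ 2 - 1) := by
      have : x * (r * Y) ≤ x * (p * (d ^ 2 - 1)) := by
        calc x * (r * Y) = r * (x * Y) := by ring
          _ ≤ p * (d ^ 2 - 1) * x := h5
          _ = _ := by ring
      exact Nat.le_of_mul_le_mul_left this hx1
    have h7 : 2 * p ≤ 3 * r := by omega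
    have h8 : r * (2 * Y) ≤ r * (3 * (d ^ 2 - 1)) := by
      calc r * (2 * Y) = 2 * (r * Y) := by ring
        _ ≤ 2 * (p * (d ^ 2 - 1)) := Nat.mul_le_mul_left _ h6
        _ = (2 * p) * (d ^ 2 - 1) := by ring
        _ ≤ (3 * r) * (d ^ 2 - 1) := Nat.mul_le_mul_right _ h7
        _ = _ := by ring
    have h9 : 2 * Y ≤ 3 * (d ^ 2 - 1) := Nat.le_of_mul_le_mul_left h8 (by omega)
    omega

section count

universe u v

variable {P : Type u} {V : Type v} [Group P] [AddCommGroup V] [DistribMulAction P V]

/-- abelian characteristic subgroups are cyclic -/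
theorem cyclic_of_free [Finite V] [Nontrivial V] {W : Subgroup P} (hW : ∀ x ∈ W, ∀ y ∈ W, x * y = y * x) (hf : Free V W)
    (hfaith : ∀ a : P, (∀ v : V, a • v = v) → a = 1) [Finite P] : IsCyclic W := by
  let _ := fdK (V := V) hW hf
  let χ : W →* (RR V W) :=
    { toFun := fun z => ⟨enz V (z : P), enz_mem z.2⟩
      map_one' := Subtype.ext enz_one
      map_mul' := fun x y => Subtype.ext (enz_mul (x : P) y) }
  refine isCyclic_of_injective_ringHom χ ?_
  intro x y hxy
  have h1 : enz V (x : P) = enz V (y : P) := congrArg (fun t : RR V W => (t : AddMonoid.End V)) hxy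
  have h2 : (x : P)⁻¹ * y = 1 := by
    apply hfaith
    intro v
    rw [mul_smul, inv_smul_eq_iff]
    exact (congrArg (fun t : AddMonoid.End V => t v) h1).symm
  exact Subtype.ext (inv_mul_eq_one.mp h2)

/-- class two -/
theorem comm_center [Finite P] {p : ℕ} [Fact p.Prime] (hp2 : p ≠ 2) (hP : IsPGroup p P)
    (hcyc : ∀ W : Subgroup P, W.Characteristic → IsMulCommutative W → IsCyclic W) (x y : P) : ⁅x, y⁆ ∈ center P := by
  obtain ⟨E, R, hER, hsup, hE, hR⟩ := Cfsg.Agent.S3762.result hP hcyc
  have hRc : IsCyclic R := by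
    rcases hR with h | h
    · exact h
    · exact absurd h.1 hp2
  have hRcomm : ∀ r ∈ R, ∀ s ∈ R, r * s = s * r := by
    intro r hr s hs
    have := (IsCyclic.commGroup (α := R)).mul_comm ⟨r, hr⟩ ⟨s, hs⟩
    exact congrArg Subtype.val this
  have hEc : ∀ e ∈ E, ∀ f ∈ E, ⁅e, f⁆ ∈ center P := by
    intro e he f hf
    have h1 : ∀ g ∈ E, g * ⁅e, f⁆ = ⁅e, f⁆ * g := by
      rcases hE with h | h
      · intro g hg
        rw [h, mem_bot] at he
        rw [he]; simp
      · intro g hg
        have h2 : ⁅(⟨e, he⟩ : E), (⟨f, hf⟩ : E)⁆ ∈ center E := by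
          have h3 := commutator_mem_commutator (Subgroup.mem_top (⟨e, he⟩ : E)) (Subgroup.mem_top (⟨f, hf⟩ : E))
          rw [← commutator_def, h.1.2.2] at h3
          exact h3
        have h3 := (Subgroup.mem_center_iff.mp h2) ⟨g, hg⟩
        exact congrArg Subtype.val h3
    rw [Subgroup.mem_center_iff]
    intro g
    have hg : g ∈ E ⊔ R := by rw [hsup]; exact Subgroup.mem_top g
    have hle : E ⊔ R ≤ centralizer {⁅e, f⁆} := by
      rw [sup_le_iff]
      constructor
      · intro g hg
        rw [mem_centralizer_singleton_iff]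
        exact h1 g hg
      · intro r hr
        rw [mem_centralizer_singleton_iff]
        have : Commute r ⁅e, f⁆ := by
          rw [commutatorElement_def]
          have h5 : Commute r e := (hER e he r hr).symm
          have h6 : Commute r f := (hER f hf r hr).symm
          exact ((h5.mul_right h6).mul_right h5.inv_right).mul_right h6.inv_right
        exact this
    exact mem_centralizer_singleton_iff.mp (hle hg)
  have hRcen : R ≤ center P := by
    intro r hr
    rw [Subgroup.mem_center_iff]
    intro g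
    have hg : g ∈ E ⊔ R := by rw [hsup]; exact Subgroup.mem_top g
    have hle : E ⊔ R ≤ centralizer {r} := by
      rw [sup_le_iff]
      constructor
      · intro e he
        rw [mem_centralizer_singleton_iff]
        exact hER e he r hr
      · intro s hs
        rw [mem_centralizer_singleton_iff]
        exact hRcomm s hs r hr
    exact mem_centralizer_singleton_iff.mp (hle hg)
  have hRn : R.Normal := ⟨fun r hr g => by
    rw [Subgroup.mem_center_iff.mp (hRcen hr) g, mul_assoc, mul_inv_cancel, mul_one]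
    exact hr⟩
  have hdec : ∀ g : P, ∃ e ∈ E, ∃ r ∈ R, g = e * r := by
    intro g
    have hg : g ∈ ((E ⊔ R : Subgroup P) : Set P) := by rw [hsup]; exact Subgroup.mem_top g
    rw [Subgroup.mul_normal] at hg
    obtain ⟨e, he, r, hr, rfl⟩ := hg
    exact ⟨e, he, r, hr, rfl⟩
  obtain ⟨e, he, r, hr, rfl⟩ := hdec x
  obtain ⟨f, hf, s, hs, rfl⟩ := hdec y
  have hr' := Subgroup.mem_center_iff.mp (hRcen hr)
  have hs' := Subgroup.mem_center_iff.mp (hRcen hs)
  have h1 : ⁅e * r, f * s⁆ = ⁅e, f⁆ := by
    rw [commutatorElement_def, commutatorElement_def, mul_inv_rev, mul_inv_rev]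
    calc e * r * (f * s) * (r⁻¹ * e⁻¹) * (s⁻¹ * f⁻¹) = e * (r * f * s * r⁻¹) * e⁻¹ * s⁻¹ * f⁻¹ := by group
      _ = e * (f * s) * e⁻¹ * s⁻¹ * f⁻¹ := by
        have : r * f * s * r⁻¹ = f * s := by
          rw [mul_assoc r, ← hr' (f * s), mul_assoc, mul_inv_cancel, mul_one]
        rw [this]
      _ = e * f * (s * e⁻¹ * s⁻¹) * f⁻¹ := by group
      _ = e * f * e⁻¹ * f⁻¹ := by
        have : s * e⁻¹ * s⁻¹ = e⁻¹ := by
          rw [← hs' e⁻¹, mul_assoc, mul_inv_cancel, mul_one]
        rw [this]
  rw [h1]
  exact hEc e he f hf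

theorem reg_LS {K : Type v} [Field K] [Finite K] [Module K V] [Finite P] [Finite V] [Nontrivial V] {σ : P →* (K ≃+* K)}
    {χ : center P →* Kˣ} (h : LS V σ (center P) χ) {p : ℕ} [hp : Fact p.Prime] (hp2 : p ≠ 2) (hP : IsPGroup p P)
    (hcomm : ∀ x y : P, ⁅x, y⁆ ∈ center P) : ∃ v : V, ∀ b : P, b ≠ 1 → b • v ≠ v := by
  classical
  by_contra hcon
  push Not at hcon
  have hp3 : 3 ≤ p := by
    have := hp.out.two_le
    omega
  have hPn : Nontrivial P := by
    obtain ⟨b, hb, -⟩ := hcon 0
    exact ⟨⟨b, 1, hb⟩⟩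
  have : Fintype P := Fintype.ofFinite P
  have : Fintype V := Fintype.ofFinite V
  set d := Module.finrank K V with hd
  set Q := Nat.card K with hQ
  have hV : Nat.card V = Q ^ d := card_V_eq
  have hQ1 : 1 < Q := Finite.one_lt_card
  have hd1 : 1 ≤ d := Module.finrank_pos
  -- the index
  have hI : (center P).index ≤ d ^ 2 := by
    have h1 := h.index_le (F := ⊤) le_top (by
      intro x _
      rw [mem_centralizer_iff]
      intro z hz
      exact (Subgroup.mem_center_iff.mp hz x).symm) (fun x _ y _ => hcomm x y) (by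
      intro x _ hx
      rw [Subgroup.mem_center_iff]
      intro y
      exact (hx y (Subgroup.mem_top y)).symm)
    rw [Subgroup.card_top, ← (center P).card_mul_index, mul_comm] at h1
    exact Nat.le_of_mul_le_mul_right h1 Nat.card_pos
  -- p divides Q - 1
  have hpQ : p + 1 ≤ Q := by
    have h1 := h.card_dvd
    have hZn : Nontrivial (center P) := hP.center_nontrivial
    have h2 : p ∣ Nat.card (center P) := by
      have h3 : IsPGroup p (center P) := hP.to_subgroup _
      obtain ⟨k, hk⟩ := IsPGroup.iff_card.mp h3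
      have h4 : k ≠ 0 := by
        rintro rfl
        rw [pow_zero] at hk
        have := Finite.one_lt_card (α := center P)
        omega
      rw [hk]
      exact dvd_pow_self p h4
    have h3 : p ∣ Q - 1 := h2.trans h1
    have h4 := Nat.le_of_dvd (by omega) h3
    omega
  have hcyc := h.cyclic
  set S : Finset P := Finset.univ.filter (fun b => b ^ p = 1 ∧ b ∉ center P) with hS
  have hSmem : ∀ b, b ∈ S ↔ b ^ p = 1 ∧ b ∉ center P := by
    intro b
    rw [hS, Finset.mem_filter]
    simp
  -- the number of elements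
  have hScard : S.card ≤ p * ((center P).index - 1) := by
    have h1 : S.card ≤ p * (S.image (fun x : P => (QuotientGroup.mk x : P ⧸ center P))).card := by
      apply Finset.card_le_mul_card_image
      intro a ha
      obtain ⟨s, hs, rfl⟩ := Finset.mem_image.mp ha
      have h2 : (Finset.univ.filter (fun z : center P => z ^ p = 1)).card ≤ p := by
        have := hcyc
        exact IsCyclic.card_pow_eq_one_le hp.out.pos
      refine le_trans ?_ h2
      refine Finset.card_le_card_of_injOn (fun x => if hx : s⁻¹ * x ∈ center P then ⟨s⁻¹ * x, hx⟩ else 1) ?_ ?_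
      · intro x hx
        have hx' := Finset.mem_coe.mp hx
        rw [Finset.mem_filter] at hx'
        have hxz : s⁻¹ * x ∈ center P := QuotientGroup.eq.mp hx'.2.symm
        rw [Finset.mem_coe, Finset.mem_filter]
        refine ⟨Finset.mem_univ _, ?_⟩
        simp only [dif_pos hxz]
        apply Subtype.ext
        show (s⁻¹ * x) ^ p = 1
        have hc : Commute s (s⁻¹ * x) := (Subgroup.mem_center_iff.mp hxz s)
        have h3 : (s * (s⁻¹ * x)) ^ p = s ^ p * (s⁻¹ * x) ^ p := hc.mul_pow p
        rw [mul_inv_cancel_left, ((hSmem x).mp hx'.1).1, ((hSmem s).mp hs).1, one_mul] at h3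
        exact h3.symm
      · intro x hx y hy hxy
        have hx' := Finset.mem_coe.mp hx
        have hy' := Finset.mem_coe.mp hy
        rw [Finset.mem_filter] at hx' hy'
        have hxz : s⁻¹ * x ∈ center P := QuotientGroup.eq.mp hx'.2.symm
        have hyz : s⁻¹ * y ∈ center P := QuotientGroup.eq.mp hy'.2.symm
        simp only [dif_pos hxz, dif_pos hyz] at hxy
        exact mul_left_cancel (congrArg Subtype.val hxy)
    refine h1.trans (Nat.mul_le_mul_left _ ?_)
    have : Fintype (P ⧸ center P) := Fintype.ofFinite _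
    have h2 : S.image (fun x : P => (QuotientGroup.mk x : P ⧸ center P)) ⊆ Finset.univ.erase 1 := by
      intro a ha
      obtain ⟨s, hs, rfl⟩ := Finset.mem_image.mp ha
      rw [Finset.mem_erase]
      refine ⟨?_, Finset.mem_univ _⟩
      intro h1
      exact ((hSmem s).mp hs).2 ((QuotientGroup.eq_one_iff s).mp h1)
    refine (Finset.card_le_card h2).trans ?_
    rw [Finset.card_erase_of_mem (Finset.mem_univ _), Finset.card_univ, Subgroup.index, Nat.card_eq_fintype_card]
  -- fixed spaces
  have hfx : ∀ b ∈ S, Nat.card (fx V b) ≤ Q ^ (d / p) := by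
    intro b hb
    obtain ⟨hb1, hb2⟩ := (hSmem b).mp hb
    obtain ⟨c, hc⟩ : ∃ c, b * c ≠ c * b := by
      by_contra hcon
      push Not at hcon
      exact hb2 (Subgroup.mem_center_iff.mpr fun g => (hcon g).symm)
    have hall : ∀ g : P, g ∈ centralizer (center P : Set P) := by
      intro x
      rw [mem_centralizer_iff]
      intro z hz
      exact (Subgroup.mem_center_iff.mp hz x).symm
    have hlin : ∀ g : P, ∀ (k : K) (v : V), g • (k • v) = k • (g • v) := by
      intro g k v
      rw [h.semi, (h.ker g).mpr (hall g)]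
      rfl
    set z : center P := ⟨⁅b, c⁆, hcomm b c⟩ with hz
    have hz1 : z ≠ 1 := by
      intro h1
      exact hc (commutatorElement_eq_one_iff_mul_comm.mp (congrArg Subtype.val h1))
    have hord : p ∣ orderOf z := by
      have h3 : IsPGroup p (center P) := hP.to_subgroup _
      obtain ⟨k, hk⟩ := (IsPGroup.iff_orderOf.mp h3) z
      have h4 : k ≠ 0 := by
        rintro rfl
        rw [pow_zero, orderOf_eq_one_iff] at hk
        exact hz1 hk
      rw [hk]
      exact dvd_pow_self p h4
    have h1 := fx_pow_le (K := K) (V := V) (x := b) (y := c) (ζ := ((χ z : Kˣ) : K)) (hlin b) (hlin c) (fun v => h.chi z v) (n := p) (by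
      intro i hi j hj hij
      have h5 : χ (z ^ i) = χ (z ^ j) := by
        apply Units.ext
        rw [map_pow, map_pow, Units.val_pow_eq_pow_val, Units.val_pow_eq_pow_val]
        exact hij
      have h6 := h.inj h5
      have h7 := pow_inj_mod.mp h6
      have h8 : p ≤ orderOf z := Nat.le_of_dvd (orderOf_pos z) hord
      rwa [Nat.mod_eq_of_lt (by omega), Nat.mod_eq_of_lt (by omega)] at h7)
    obtain ⟨k, hk⟩ := h.exists_pow (hall b)
    rw [hk, hV, ← pow_mul] at h1
    have h2 := (Nat.pow_le_pow_iff_right hQ1).mp h1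
    rw [hk]
    exact Nat.pow_le_pow_right (by omega) ((Nat.le_div_iff_mul_le hp.out.pos).mpr h2)
  -- double counting
  have hdc : (p - 1) * (Q ^ d - 1) ≤ S.card * (Q ^ (d / p) - 1) := by
    have h1 := Finset.sum_card_bipartiteAbove_eq_sum_card_bipartiteBelow (s := S) (t := (Finset.univ : Finset V).erase 0)
      (fun b v => b • v = v)
    have h2 : ∑ b ∈ S, ((((Finset.univ : Finset V).erase 0).bipartiteAbove (fun b v => b • v = v) b).card) ≤
        ∑ _b ∈ S, (Q ^ (d / p) - 1) := by
      apply Finset.sum_le_sum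
      intro b hb
      have h3 := hfx b hb
      have h4 : (((Finset.univ : Finset V).erase 0).bipartiteAbove (fun b v => b • v = v) b).card + 1 ≤ Nat.card (fx V b) := by
        have h5 : Nat.card (fx V b) = (Finset.univ.filter (fun v : V => b • v = v)).card := by
          rw [Nat.card_eq_fintype_card, Fintype.card_subtype]
          rfl
        rw [h5, ← Finset.card_insert_of_notMem (a := (0 : V))]
        · apply Finset.card_le_card
          intro v hv
          rw [Finset.mem_filter]
          refine ⟨Finset.mem_univ _, ?_⟩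
          rcases Finset.mem_insert.mp hv with rfl | hv
          · exact smul_zero b
          · exact ((Finset.mem_bipartiteAbove _).mp hv).2
        · intro hv
          have := ((Finset.mem_bipartiteAbove _).mp hv).1
          exact (Finset.mem_erase.mp this).1 rfl
      omega
    have h3 : ∑ _v ∈ (Finset.univ : Finset V).erase 0, (p - 1) ≤
        ∑ v ∈ (Finset.univ : Finset V).erase 0, (S.bipartiteBelow (fun b v => b • v = v) v).card := by
      apply Finset.sum_le_sum
      intro v hv
      have hv0 : v ≠ 0 := (Finset.mem_erase.mp hv).1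
      obtain ⟨b, hb1, hbv⟩ := hcon v
      obtain ⟨k, hk⟩ := (IsPGroup.iff_orderOf.mp hP) b
      have hk0 : k ≠ 0 := by
        rintro rfl
        rw [pow_zero, orderOf_eq_one_iff] at hk
        exact hb1 hk
      obtain ⟨m, rfl⟩ : ∃ m, k = m + 1 := ⟨k - 1, by omega⟩
      set c := b ^ (p ^ m) with hc
      have hcord : orderOf c = p := by
        rw [hc, orderOf_pow_of_dvd (pow_ne_zero _ hp.out.ne_zero) (by rw [hk]; exact pow_dvd_pow p (Nat.le_succ m)), hk, pow_succ,
          Nat.mul_div_cancel_left _ (pow_pos hp.out.pos m)]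
      have hfixpow : ∀ (g : P), g • v = v → ∀ n : ℕ, g ^ n • v = v := by
        intro g hg n
        induction n with
        | zero => rw [pow_zero, one_smul]
        | succ n ih => rw [pow_succ, mul_smul, hg, ih]
      have hcv : c • v = v := hfixpow b hbv _
      have h5 : (Finset.Ico 1 p).card ≤ (S.bipartiteBelow (fun b v => b • v = v) v).card := by
        refine Finset.card_le_card_of_injOn (fun i => c ^ i) ?_ ?_
        · intro i hi
          have hi' := Finset.mem_Ico.mp (Finset.mem_coe.mp hi)
          have hci : c ^ i ≠ 1 := by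
            intro h6
            have h7 := orderOf_dvd_of_pow_eq_one h6
            rw [hcord] at h7
            have := Nat.le_of_dvd (by omega) h7
            omega
          rw [Finset.mem_coe, Finset.mem_bipartiteBelow, hSmem]
          refine ⟨⟨?_, ?_⟩, hfixpow c hcv i⟩
          · rw [← pow_mul, mul_comm, pow_mul, ← hcord, pow_orderOf_eq_one, one_pow]
          · intro h6
            have h7 := h.fx_Z h6 hci
            rw [Nat.card_eq_one_iff_unique] at h7
            have h8 : (⟨v, hfixpow c hcv i⟩ : fx V (c ^ i)) = 0 := h7.1.elim _ _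
            exact hv0 (congrArg Subtype.val h8)
        · intro i hi j hj hij
          have hi' := Finset.mem_Ico.mp (Finset.mem_coe.mp hi)
          have hj' := Finset.mem_Ico.mp (Finset.mem_coe.mp hj)
          have h7 := pow_inj_mod.mp hij
          rwa [hcord, Nat.mod_eq_of_lt (by omega), Nat.mod_eq_of_lt (by omega)] at h7
      rwa [Nat.card_Ico] at h5
    rw [Finset.sum_const, smul_eq_mul, Finset.card_erase_of_mem (Finset.mem_univ _), Finset.card_univ,
      ← Nat.card_eq_fintype_card, hV, mul_comm] at h3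
    rw [Finset.sum_const, smul_eq_mul] at h2
    exact h3.trans (h1 ▸ h2)
  exact num3 hp3 hpQ (Nat.div_mul_le_self d p) hd1 hI (Nat.one_le_iff_ne_zero.mpr Subgroup.FiniteIndex.index_ne_zero) hScard hdc

theorem regular [Finite P] [Finite V] [Nontrivial V] {p : ℕ} [hp : Fact p.Prime] (hp2 : p ≠ 2) (hP : IsPGroup p P)
    (hfaith : ∀ a : P, (∀ v : V, a • v = v) → a = 1)
    (hfree : ∀ W : Subgroup P, W.Characteristic → (∀ x ∈ W, ∀ y ∈ W, x * y = y * x) → Free V W) :
    ∃ v : V, ∀ b : P, b ≠ 1 → b • v ≠ v := by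
  have hcomm := comm_center hp2 hP (fun W hW hWc => by
    have h1 : ∀ x ∈ W, ∀ y ∈ W, x * y = y * x := by
      intro x hx y hy
      have := (isMulCommutative_iff.mp hWc) ⟨x, hx⟩ ⟨y, hy⟩
      exact congrArg Subtype.val this
    exact cyclic_of_free h1 (hfree W hW h1) hfaith)
  have hZc : ∀ x ∈ center P, ∀ y ∈ center P, x * y = y * x := by
    intro x _ y hy
    exact Subgroup.mem_center_iff.mp hy x
  have hf : Free V (center P) := hfree _ inferInstance hZc
  have hZn : (center P).Normal := inferInstance
  let _ := fdK (V := V) hZc hf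
  have hfin := finite_RR (V := V) (Z := center P)
  let χ : center P →* (RR V (center P))ˣ :=
    { toFun := fun z =>
        { val := ⟨enz V (z : P), enz_mem z.2⟩
          inv := ⟨enz V (z : P)⁻¹, enz_mem (inv_mem z.2)⟩
          val_inv := Subtype.ext (enz_mul_inv (z : P))
          inv_val := Subtype.ext (enz_inv_mul (z : P)) }
      map_one' := by
        apply Units.ext
        apply Subtype.ext
        exact enz_one
      map_mul' := fun x y => by
        apply Units.ext
        apply Subtype.ext
        exact enz_mul (x : P) y }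
  have h : LS (K := RR V (center P)) V (sgm hZn) (center P) χ := by
    refine ⟨?_, ?_, ?_, ?_, hfaith⟩
    · intro a k v
      show enz V a ((k : AddMonoid.End V) v) = (enz V a * k * enz V a⁻¹) (enz V a v)
      have : (enz V a * (k : AddMonoid.End V) * enz V a⁻¹) * enz V a = enz V a * k := by
        rw [mul_assoc, enz_inv_mul, mul_one]
      exact (congrArg (fun t : AddMonoid.End V => t v) this).symm
    · intro a
      rw [Subgroup.mem_centralizer_iff]
      constructor
      · intro h1 z hz
        exact (Subgroup.mem_center_iff.mp hz a).symm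
      · intro h1
        ext x : 1
        apply Subtype.ext
        show enz V a * (x : AddMonoid.End V) * enz V a⁻¹ = x
        have h2 : enz V a * (x : AddMonoid.End V) = x * enz V a := by
          refine commute_RR ?_ x.2
          intro z hz
          rw [← enz_mul, ← enz_mul, h1 z hz]
        rw [h2, mul_assoc, enz_mul_inv, mul_one]
    · intro z v
      rfl
    · intro x y hxy
      have h1 : enz V (x : P) = enz V (y : P) := congrArg (fun t : (RR V (center P))ˣ => ((t : RR V (center P)) : AddMonoid.End V)) hxy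
      have h2 : (x : P)⁻¹ * y = 1 := by
        apply hfaith
        intro v
        rw [mul_smul, inv_smul_eq_iff]
        exact (congrArg (fun t : AddMonoid.End V => t v) h1).symm
      exact Subtype.ext (inv_mul_eq_one.mp h2)
  exact reg_LS h hp2 hP hcomm

end count

end Cfsg.Agent.Lib.NoFixA
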