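import Cfsg.Agent.Lib.NoFixA

/-!
# Vectors fixed by no conjugate of an element of a normal p-subgroup, p odd (helper61)
-/

set_option autoImplicit false

open Subgroup
open scoped commutatorElement

namespace Cfsg.Agent.Lib.NoFixB

open OddBaseA OddBaseB OddBaseC OddBaseD OddBaseH OddBaseI OddBaseJ OddBaseK OddBaseL NoFixA

universe u v

section imprim

variable {B : Type u} {V : Type v} [Group B] [Finite B] [AddCommGroup V] [DistribMulAction B V]

/-- the imprimitive case -/
theorem imprim {p : ℕ} [Fact p.Prime] (hirr : Irr B V) {N : Subgroup B} (hNn : N.Normal) (hN : IsPGroup p N) {a : B}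
    (ha : a ∈ N) (hav : ∃ v : V, a • v ≠ v) {L : Subgroup B} (hL : IsCoatom L) {e : V →+ V} (h : Sys L e)
    (IH : ∀ a0 ∈ L, a0 ∈ N → (∃ w : V, e w = w ∧ a0 • w ≠ w) → ∃ w : V, e w = w ∧ ∀ l ∈ L, (l * a0 * l⁻¹) • w ≠ w) :
    ∃ v : V, ∀ b : B, (b * a * b⁻¹) • v ≠ v := by
  classical
  by_cases hcore : a ∈ L.normalCore
  · have : Fintype (B ⧸ L) := Fintype.ofFinite _
    obtain ⟨g0, w0, hw0, hg0⟩ : ∃ (g0 : B) (w : V), e w = w ∧ (g0⁻¹ * a * g0) • w ≠ w := by
      by_contra hcon
      push Not at hcon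
      obtain ⟨v, hv⟩ := hav
      apply hv
      conv_lhs => rw [← h.sum_eq hirr v]
      conv_rhs => rw [← h.sum_eq hirr v]
      rw [Finset.smul_sum]
      refine Finset.sum_congr rfl fun c _ => ?_
      rw [EE_apply]
      have h1 := hcon c.out (e ((c.out)⁻¹ • v)) (h.idem _)
      conv_rhs => rw [← h1]
      rw [smul_smul, smul_smul]
      congr 1
      group
    have hca : g0⁻¹ * a * g0 ∈ L.normalCore := by
      have := (Subgroup.normalCore_normal L).conj_mem a hcore g0⁻¹
      rwa [inv_inv] at this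
    have hna : g0⁻¹ * a * g0 ∈ N := by
      have := hNn.conj_mem a ha g0⁻¹
      rwa [inv_inv] at this
    obtain ⟨w, hw, hwl⟩ := IH (g0⁻¹ * a * g0) (Subgroup.normalCore_le L hca) hna ⟨w0, hw0, hg0⟩
    let f : B ⧸ L → e.range := fun _ => ⟨w, w, hw⟩
    refine ⟨∑ d, d.out • ((f d : e.range) : V), ?_⟩
    intro b hb
    set v := ∑ d, d.out • ((f d : e.range) : V) with hv
    set c : B ⧸ L := ((b * g0 : B) : B ⧸ L) with hc
    have hl : (c.out)⁻¹ * (b * g0) ∈ L := by
      rw [← QuotientGroup.eq]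
      exact Quotient.out_eq c
    set l := (c.out)⁻¹ * (b * g0) with hl'
    have h1 : e ((c.out)⁻¹ • v) = w := h.proj f c
    have hlmem : l * (g0⁻¹ * a * g0) * l⁻¹ ∈ L :=
      mul_mem (mul_mem hl (Subgroup.normalCore_le L hca)) (inv_mem hl)
    have h2 : (c.out)⁻¹ • ((b * a * b⁻¹) • v) = (l * (g0⁻¹ * a * g0) * l⁻¹) • ((c.out)⁻¹ • v) := by
      rw [smul_smul, smul_smul]
      congr 1
      rw [hl']
      group
    rw [hb] at h2
    have h3 : e ((c.out)⁻¹ • v) = (l * (g0⁻¹ * a * g0) * l⁻¹) • e ((c.out)⁻¹ • v) := by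
      conv_lhs => rw [h2]
      rw [h.comm _ hlmem]
    rw [h1] at h3
    exact hwl l hl h3.symm
  · -- the blocks are moved
    have hNL : ¬ N ≤ L := by
      intro h1
      exact hcore ((Subgroup.normal_le_normalCore (N := N)).mpr h1 ha)
    have hle : N ⊓ L ≤ L.normalCore := by
      obtain ⟨x, hxN, hxL, hx⟩ : ∃ x ∈ N, x ∉ L ∧ x ∈ normalizer ((N ⊓ L : Subgroup B) : Set B) := by
        have hnil : Group.IsNilpotent N := hN.isNilpotent
        have hlt : L.subgroupOf N < ⊤ := by
          rw [lt_top_iff_ne_top]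
          intro h1
          exact hNL (subgroupOf_eq_top.mp h1)
        have h1 := Group.normalizerCondition_of_isNilpotent (G := N) _ hlt
        obtain ⟨y, hy, hyn⟩ := SetLike.exists_of_lt h1
        refine ⟨y, y.2, fun h2 => hyn (mem_subgroupOf.mpr h2), ?_⟩
        rw [mem_normalizer_iff] at hy ⊢
        intro z
        constructor
        · intro hz
          have h2 := (hy ⟨z, hz.1⟩).mp (mem_subgroupOf.mpr hz.2)
          exact Subgroup.mem_inf.mpr ⟨mul_mem (mul_mem y.2 hz.1) (inv_mem y.2), mem_subgroupOf.mp h2⟩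
        · intro hz
          have hzN : z ∈ N := by
            have : z = (y : B)⁻¹ * ((y : B) * z * (y : B)⁻¹) * y := by group
            rw [this]
            exact mul_mem (mul_mem (inv_mem y.2) hz.1) y.2
          exact ⟨hzN, mem_subgroupOf.mp ((hy ⟨z, hzN⟩).mpr (mem_subgroupOf.mpr hz.2))⟩
      have hLn : L ≤ normalizer ((N ⊓ L : Subgroup B) : Set B) := by
        intro l hl
        rw [mem_normalizer_iff]
        intro z
        constructor
        · intro hz
          exact Subgroup.mem_inf.mpr ⟨hNn.conj_mem z hz.1 l, mul_mem (mul_mem hl hz.2) (inv_mem hl)⟩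
        · intro hz
          have : z = l⁻¹ * (l * z * l⁻¹) * l⁻¹⁻¹ := by group
          rw [this]
          exact Subgroup.mem_inf.mpr ⟨hNn.conj_mem _ hz.1 l⁻¹, mul_mem (mul_mem (inv_mem hl) hz.2) (inv_mem (inv_mem hl))⟩
      have htop : normalizer ((N ⊓ L : Subgroup B) : Set B) = ⊤ := by
        apply hL.2
        refine lt_of_le_of_ne hLn ?_
        intro h1
        apply hxL
        rw [h1]
        exact hx
      have hn : (N ⊓ L).Normal := Subgroup.normalizer_eq_top_iff.mp htop
      exact (Subgroup.normal_le_normalCore (N := N ⊓ L)).mpr inf_le_right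
    obtain ⟨v0, hv0⟩ := h.ne
    refine ⟨e v0, ?_⟩
    intro b hb
    have h1 : b * a * b⁻¹ ∉ L := by
      intro h2
      have h3 := hle ⟨hNn.conj_mem a ha b, h2⟩
      have h4 := (Subgroup.normalCore_normal L).conj_mem _ h3 b⁻¹
      apply hcore
      have h5 : b⁻¹ * (b * a * b⁻¹) * b⁻¹⁻¹ = a := by group
      rwa [h5] at h4
    have h2 := h.orth _ h1 v0
    rw [hb, h.idem] at h2
    exact hv0 h2

end imprim

/-- reduction to faithful actions -/
theorem reduceF {p : ℕ} {B : Type u} [Group B] [Finite B] {V : Type v} [AddCommGroup V] [Finite V] [DistribMulAction B V]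
    (H : ∀ (A : Type v) [Group A] [Finite A] [DistribMulAction A V], Irr A V → (∀ a : A, (∀ v : V, a • v = v) → a = 1) →
      ∀ N : Subgroup A, N.Normal → IsPGroup p N → ∀ a ∈ N, a ≠ 1 → ∃ v : V, ∀ b : A, (b * a * b⁻¹) • v ≠ v)
    (hirr : Irr B V) {N : Subgroup B} (hNn : N.Normal) (hN : IsPGroup p N) {a : B} (ha : a ∈ N) (hav : ∃ v : V, a • v ≠ v) :
    ∃ v : V, ∀ b : B, (b * a * b⁻¹) • v ≠ v := by
  have hfin := finite_end (V := V)
  let ψ : B →* AddMonoid.End V := DistribMulAction.toAddMonoidEnd B V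
  let φ : B →* (AddMonoid.End V)ˣ := ψ.toHomUnits
  let A := φ.range
  let act : DistribMulAction A V :=
    { smul := fun a v => ((a : (AddMonoid.End V)ˣ) : AddMonoid.End V) v
      one_smul := fun v => rfl
      mul_smul := fun a b v => rfl
      smul_zero := fun a => map_zero ((a : (AddMonoid.End V)ˣ) : AddMonoid.End V)
      smul_add := fun a v w => map_add ((a : (AddMonoid.End V)ˣ) : AddMonoid.End V) v w }
  have hsm : ∀ (b : B) (v : V), (⟨φ b, ⟨b, rfl⟩⟩ : A) • v = b • v := fun b v => rfl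
  have hirrA : Irr A V := by
    constructor
    · exact hirr.nt
    · intro U hU
      apply hirr.irr U
      intro b u hu
      exact hU ⟨φ b, ⟨b, rfl⟩⟩ u hu
  have hfaith : ∀ a : A, (∀ v : V, a • v = v) → a = 1 := by
    intro a ha
    apply Subtype.ext
    apply Units.ext
    ext v
    exact ha v
  have hfA : Finite A := Finite.of_surjective φ.rangeRestrict φ.rangeRestrict_surjective
  obtain ⟨v, hv⟩ := H A hirrA hfaith (N.map φ.rangeRestrict) (hNn.map _ φ.rangeRestrict_surjective) (hN.map _)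
    (φ.rangeRestrict a) ⟨a, ha, rfl⟩ (by
      intro h1
      obtain ⟨v, hv⟩ := hav
      apply hv
      have h2 : (φ.rangeRestrict a) • v = v := by rw [h1, one_smul]
      exact h2)
  refine ⟨v, ?_⟩
  intro b hb
  refine hv (φ.rangeRestrict b) ?_
  rw [← map_inv, ← map_mul, ← map_mul]
  exact hb

theorem main {p : ℕ} [Fact p.Prime] (hp2 : p ≠ 2) : ∀ n : ℕ, ∀ (V : Type v) [AddCommGroup V] [Finite V] (B : Type v) [Group B]
    [Finite B] [DistribMulAction B V], Nat.card V ≤ n → Irr B V → ∀ N : Subgroup B, N.Normal → IsPGroup p N →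
    ∀ a ∈ N, (∃ v : V, a • v ≠ v) → ∃ v : V, ∀ b : B, (b * a * b⁻¹) • v ≠ v := by
  intro n
  induction n with
  | zero =>
    intro V _ _ B _ _ _ hc
    have := Nat.card_pos (α := V)
    omega
  | succ n ih =>
    intro V _ _ B _ _ _ hc hirr N hNn hN a ha hav
    refine reduceF ?_ hirr hNn hN ha hav
    clear hav ha hN hNn hirr a N
    intro A _ _ _ hirr hfaith N hNn hN a ha ha1
    have hav : ∃ v : V, a • v ≠ v := by
      by_contra hcon
      push Not at hcon
      exact ha1 (hfaith a hcon)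
    by_cases hex : ∃ W : Subgroup A, W.Normal ∧ W ≤ N ∧ (∀ x ∈ W, ∀ y ∈ W, x * y = y * x) ∧ ¬ Free V W
    · obtain ⟨W, hWn, -, hWc, hWf⟩ := hex
      obtain ⟨M, e, hM, hS⟩ := exists_sys hirr hWn hWc hWf
      obtain ⟨L, hL, hML⟩ := (eq_top_or_exists_le_coatom M).resolve_left hM
      have h := hS.merge hML
      refine imprim hirr hNn hN ha hav hL h ?_
      intro a0 ha0 ha0N hw0
      have hirrW := h.irr hirr
      have hlt := h.card_range_lt hL.ne_top
      let _ := h.act
      obtain ⟨w0, hw1, hw2⟩ := hw0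
      obtain ⟨w, hw⟩ := ih _ L (by omega) hirrW (N.subgroupOf L) (hNn.subgroupOf L)
        (fun g => by
          obtain ⟨k, hk⟩ := hN ⟨((g : L) : A), mem_subgroupOf.mp g.2⟩
          refine ⟨k, Subtype.ext (Subtype.ext ?_)⟩
          have h1 : ((g : L) : A) ^ p ^ k = 1 := congrArg Subtype.val hk
          rw [SubmonoidClass.coe_pow, SubmonoidClass.coe_pow, h1]
          rfl)
        ⟨a0, ha0⟩ (mem_subgroupOf.mpr ha0N) ⟨⟨w0, h.mem_range.mpr hw1⟩, fun h1 => hw2 (congrArg Subtype.val h1)⟩
      refine ⟨w, h.mem_range.mp w.2, ?_⟩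
      intro l hl h1
      exact hw ⟨l, hl⟩ (Subtype.ext h1)
    · push Not at hex
      have hnt := hirr.nt
      have hset : ∀ W : Subgroup N, RR V W = RR V (W.map N.subtype) := by
        intro W
        unfold RR
        congr 1
        ext x
        constructor
        · rintro ⟨z, hz, rfl⟩
          exact ⟨(z : A), ⟨z, hz, rfl⟩, rfl⟩
        · rintro ⟨_, ⟨z, hz, rfl⟩, rfl⟩
          exact ⟨z, hz, rfl⟩
      obtain ⟨v, hv⟩ := regular (P := N) (V := V) hp2 hN (by
        intro x hx
        exact Subtype.ext (hfaith (x : A) hx)) (by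
        intro W hW hWc
        have h1 : Free V (W.map N.subtype) := by
          apply hex
          · exact ConjAct.normal_of_characteristic_of_normal
          · exact map_subtype_le W
          · rintro _ ⟨x, hx, rfl⟩ _ ⟨y, hy, rfl⟩
            exact congrArg Subtype.val (hWc x hx y hy)
        intro k hk hk0 v hkv
        rw [hset] at hk
        exact h1 k hk hk0 v hkv)
      refine ⟨v, ?_⟩
      intro b hb
      refine hv ⟨b * a * b⁻¹, hNn.conj_mem a ha b⟩ ?_ hb
      intro h1
      have h2 : b * a * b⁻¹ = 1 := congrArg Subtype.val h1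
      exact ha1 (conj_eq_one_iff.mp h2)

end Cfsg.Agent.Lib.NoFixB
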