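import Cfsg.Agent.Lib.NoFixB
import Cfsg.Agent.Lib.Cores
import Cfsg.Agent.Lib.Cores2

/-!
# Odd p-subgroups subnormal in the join with a conjugate by a member of every class (helper61)
-/

set_option autoImplicit false

open Subgroup
open scoped Pointwise commutatorElement

namespace Cfsg.Agent.Lib.NoFixC

open OddBaseI OddBaseJ

universe u

/-- the hypothesis -/
def Hyp {G : Type u} [Group G] (p : ℕ) (A : Subgroup G) : Prop :=
  IsPGroup p A ∧ ∀ c : G, ∃ g : G, IsConj c g ∧ IsPGroup p ↥(A ⊔ MulAut.conj g • A)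

theorem hyp_of {G : Type u} [Group G] [Finite G] {p : ℕ} [Fact p.Prime] {A : Subgroup G} (hA : IsPGroup p A)
    (h : ∀ c : G, ∃ g : G, IsConj c g ∧ (A.subgroupOf (A ⊔ MulAut.conj g • A)).IsSubnormal) : Hyp p A := by
  refine ⟨hA, fun c => ?_⟩
  obtain ⟨g, hg, hs⟩ := h c
  refine ⟨g, hg, ?_⟩
  set X := A ⊔ MulAut.conj g • A with hX
  have h1 : A.subgroupOf X ≤ pCore p X := by
    apply Cores.le_pCore_of_isSubnormal hs
    exact hA.comap_subtype
  have hA2 : IsPGroup p ↥(MulAut.conj g • A) := by
    have : MulAut.conj g • A = A.map (MulAut.conj g).toMonoidHom := rfl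
    rw [this]
    exact hA.map _
  have h2 : IsPGroup p ↥((MulAut.conj g • A).subgroupOf X) := hA2.comap_subtype
  have h3 : IsPGroup p ↥(pCore p X ⊔ (MulAut.conj g • A).subgroupOf X) :=
    IsPGroup.to_sup_of_normal_left (Cores.isPGroup_pCore p X) h2
  have h4 : pCore p X ⊔ (MulAut.conj g • A).subgroupOf X = ⊤ := by
    rw [eq_top_iff]
    have h5 : A.subgroupOf X ⊔ (MulAut.conj g • A).subgroupOf X = ⊤ := by
      rw [← Subgroup.subgroupOf_sup le_sup_left le_sup_right]
      exact Subgroup.subgroupOf_self (A ⊔ MulAut.conj g • A)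
    rw [← h5]
    exact sup_le_sup_right h1 _
  rw [h4] at h3
  exact h3.of_equiv Subgroup.topEquiv

theorem conj_smul_map {G : Type u} [Group G] {M : Subgroup G} [M.Normal] (g : G) (A : Subgroup G) :
    MulAut.conj (QuotientGroup.mk' M g) • (A.map (QuotientGroup.mk' M)) = (MulAut.conj g • A).map (QuotientGroup.mk' M) := by
  ext x
  constructor
  · intro hx
    obtain ⟨y, hy, rfl⟩ := hx
    obtain ⟨a, ha, rfl⟩ := hy
    exact ⟨g * a * g⁻¹, ⟨a, ha, rfl⟩, rfl⟩
  · rintro ⟨y, ⟨a, ha, rfl⟩, rfl⟩
    exact ⟨QuotientGroup.mk' M a, ⟨a, ha, rfl⟩, rfl⟩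

theorem Hyp.quot {G : Type u} [Group G] {p : ℕ} {A : Subgroup G} (h : Hyp p A) (M : Subgroup G) [M.Normal] :
    Hyp p (A.map (QuotientGroup.mk' M)) := by
  refine ⟨h.1.map _, fun c => ?_⟩
  obtain ⟨c, rfl⟩ := QuotientGroup.mk'_surjective M c
  obtain ⟨g, hg, hX⟩ := h.2 c
  refine ⟨QuotientGroup.mk' M g, MonoidHom.map_isConj _ hg, ?_⟩
  rw [conj_smul_map, ← Subgroup.map_sup]
  exact hX.map _

/-- commutative structure -/
@[reducible] def cg {G : Type u} [Group G] {M : Subgroup G} (hM : ∀ x ∈ M, ∀ y ∈ M, x * y = y * x) : CommGroup M :=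
  { (inferInstance : Group M) with mul_comm := fun x y => Subtype.ext (hM x x.2 y y.2) }

/-- conjugation of the quotient on an abelian normal subgroup -/
noncomputable def qh {G : Type u} [Group G] {M : Subgroup G} [M.Normal] (hM : ∀ x ∈ M, ∀ y ∈ M, x * y = y * x) :
    G ⧸ M →* MulAut M :=
  QuotientGroup.lift M (MulAut.conjNormal (H := M)) (by
    intro x hx
    ext y
    rw [MulAut.conjNormal_apply, hM x hx y y.2]
    simp)

theorem qh_mk {G : Type u} [Group G] {M : Subgroup G} [M.Normal] (hM : ∀ x ∈ M, ∀ y ∈ M, x * y = y * x) (g : G) (m : M) :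
    ((qh hM (QuotientGroup.mk' M g) m : M) : G) = g * m * g⁻¹ := by
  rw [qh]
  exact MulAut.conjNormal_apply g m

/-- the action -/
@[reducible] noncomputable def qAct {G : Type u} [Group G] {M : Subgroup G} [M.Normal] (hM : ∀ x ∈ M, ∀ y ∈ M, x * y = y * x) :
    @DistribMulAction (G ⧸ M) (Additive M) _ (@AddCommGroup.toAddGroup _ (@Additive.addCommGroup M (cg hM))).toSubNegMonoid.toAddMonoid :=
  let _ : CommGroup M := cg hM
  { smul := fun b v => Additive.ofMul (qh hM b v.toMul)
    one_smul := fun v => by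
      change Additive.ofMul (qh hM 1 v.toMul) = v
      rw [map_one]; rfl
    mul_smul := fun a b v => by
      change Additive.ofMul (qh hM (a * b) v.toMul) = Additive.ofMul (qh hM a (qh hM b v.toMul))
      rw [map_mul]; rfl
    smul_zero := fun a => by
      change Additive.ofMul (qh hM a 1) = 0
      rw [map_one]; rfl
    smul_add := fun a v w => by
      change Additive.ofMul (qh hM a (v.toMul * w.toMul)) = _
      rw [map_mul]; rfl }

/-- minimal normal subgroups of a solvable group are irreducible -/
theorem irr_of_min {G : Type u} [Group G] {M : Subgroup G} [M.Normal] (hM : ∀ x ∈ M, ∀ y ∈ M, x * y = y * x)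
    (hne : M ≠ ⊥) (hmin : ∀ L : Subgroup G, L.Normal → L ≤ M → L = ⊥ ∨ L = M) :
    @Irr (G ⧸ M) (Additive M) _ (@Additive.addCommGroup M (cg hM)) (qAct hM) := by
  let _ : CommGroup M := cg hM
  let _ := qAct hM
  constructor
  · have : Nontrivial M := (Subgroup.nontrivial_iff_ne_bot M).mpr hne
    exact inferInstanceAs (Nontrivial (Additive M))
  · intro U hU
    let L : Subgroup G :=
      { carrier := {x | ∃ h : x ∈ M, Additive.ofMul (⟨x, h⟩ : M) ∈ U}
        one_mem' := ⟨one_mem _, U.zero_mem⟩
        mul_mem' := by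
          rintro x y ⟨hx, hx'⟩ ⟨hy, hy'⟩
          exact ⟨mul_mem hx hy, U.add_mem hx' hy'⟩
        inv_mem' := by
          rintro x ⟨hx, hx'⟩
          exact ⟨inv_mem hx, U.neg_mem hx'⟩ }
    have hLn : L.Normal := by
      constructor
      rintro x ⟨hx, hx'⟩ g
      refine ⟨(inferInstance : M.Normal).conj_mem x hx g, ?_⟩
      have h1 := hU (QuotientGroup.mk' M g) _ hx'
      convert h1 using 2
      apply Subtype.ext
      exact (qh_mk hM g ⟨x, hx⟩).symm
    rcases hmin L hLn (fun x hx => hx.1) with h | h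
    · left
      rw [eq_bot_iff]
      intro v hv
      have h1 : (v.toMul : G) ∈ L := ⟨v.toMul.2, hv⟩
      rw [h, Subgroup.mem_bot] at h1
      rw [AddSubgroup.mem_bot]
      exact Subtype.ext h1
    · right
      rw [eq_top_iff]
      intro v _
      have h1 : (v.toMul : G) ∈ L := by rw [h]; exact v.toMul.2
      obtain ⟨_, h2⟩ := h1
      exact h2

theorem main {p : ℕ} [hp : Fact p.Prime] (hp2 : p ≠ 2) : ∀ n : ℕ, ∀ (G : Type u) [Group G] [Finite G] [Group.IsSolvable G],
    Nat.card G ≤ n → ∀ A : Subgroup G, Hyp p A → A ≤ pCore p G := by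
  intro n
  induction n with
  | zero =>
    intro G _ _ _ h
    exact absurd h (Nat.card_pos).not_ge
  | succ n ih =>
    intro G _ _ _ hn A hA
    by_cases htriv : Subsingleton G
    · intro x _
      rw [Subsingleton.elim x 1]
      exact one_mem _
    have hnt : Nontrivial G := not_subsingleton_iff_nontrivial.mp htriv
    obtain ⟨M, hM⟩ : ∃ N : Subgroup G, Minimal (fun L : Subgroup G => L.Normal ∧ ⊥ < L) N :=
      (Set.toFinite {L : Subgroup G | L.Normal ∧ ⊥ < L}).exists_minimal ⟨⊤, inferInstance, bot_lt_top⟩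
    have hMn : M.Normal := hM.prop.1
    have hMne : M ≠ ⊥ := hM.prop.2.ne'
    have hmin : ∀ L : Subgroup G, L.Normal → L ≤ M → L = ⊥ ∨ L = M := by
      intro L h1 h3
      by_cases h : L = ⊥
      · exact Or.inl h
      · right
        exact le_antisymm h3 (hM.le_of_le ⟨h1, bot_lt_iff_ne_bot.mpr h⟩ h3)
    have hab : ∀ x ∈ M, ∀ y ∈ M, x * y = y * x := by
      intro x hx y hy
      have h1 := chief_abelian (K := ⊥) hMn hM.prop.2 (fun L h1 _ h3 => hmin L h1 h3) x hx y hy
      rw [Subgroup.mem_bot] at h1
      exact commutatorElement_eq_one_iff_mul_comm.mp h1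
    -- the quotient
    have hQ : A.map (QuotientGroup.mk' M) ≤ pCore p (G ⧸ M) := by
      apply ih (G ⧸ M) _ _ (hA.quot M)
      have h1 := Subgroup.card_eq_card_quotient_mul_card_subgroup M
      have h2 : 1 < Nat.card M := by
        rw [Nat.one_lt_iff_ne_zero_and_ne_one]
        exact ⟨Nat.card_pos.ne', fun h => hMne (Subgroup.card_eq_one.mp h)⟩
      have h3 : 0 < Nat.card (G ⧸ M) := Nat.card_pos
      nlinarith
    set R := (pCore p (G ⧸ M)).comap (QuotientGroup.mk' M) with hR
    have hAR : A ≤ R := Subgroup.map_le_iff_le_comap.mp hQ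
    have hRn : R.Normal := inferInstance
    by_cases hMp : p ∣ Nat.card M
    · -- M is a p-group
      have hMp' : IsPGroup p M := by
        obtain ⟨x, hx⟩ := exists_prime_orderOf_dvd_card' p hMp
        let P : Subgroup G :=
          { carrier := {x | x ∈ M ∧ x ^ p = 1}
            one_mem' := ⟨one_mem _, one_pow _⟩
            mul_mem' := by
              rintro x y ⟨hx, hx'⟩ ⟨hy, hy'⟩
              refine ⟨mul_mem hx hy, ?_⟩
              rw [(show Commute x y from hab x hx y hy).mul_pow, hx', hy', one_mul]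
            inv_mem' := by
              rintro x ⟨hx, hx'⟩
              refine ⟨inv_mem hx, ?_⟩
              rw [inv_pow, hx', inv_one] }
        have hPn : P.Normal := by
          constructor
          rintro x ⟨hx, hx'⟩ g
          refine ⟨hMn.conj_mem x hx g, ?_⟩
          rw [conj_pow, hx']
          simp
        rcases hmin P hPn (fun x hx => hx.1) with h | h
        · exfalso
          have h1 : (x : G) ∈ P := by
            refine ⟨x.2, ?_⟩
            have : x ^ p = 1 := by rw [← hx]; exact pow_orderOf_eq_one x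
            exact_mod_cast congrArg (Subtype.val) this
          rw [h, Subgroup.mem_bot] at h1
          have h2 : x = 1 := Subtype.ext h1
          rw [h2, orderOf_one] at hx
          exact hp.out.one_lt.ne hx
        · intro y
          have h1 : (y : G) ∈ P := by rw [h]; exact y.2
          refine ⟨1, Subtype.ext ?_⟩
          rw [pow_one]
          exact h1.2
      have hRp : IsPGroup p R := by
        apply IsPGroup.comap_of_ker_isPGroup (Cores.isPGroup_pCore p (G ⧸ M))
        rw [QuotientGroup.ker_mk']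
        exact hMp'
      exact hAR.trans (Cores.le_pCore hRn hRp)
    · by_cases hcen : A ≤ centralizer (M : Set G)
      · -- A centralizes M
        set D := R ⊓ centralizer (M : Set G) with hD
        have hDn : D.Normal := inferInstance
        let f : D →* pCore p (G ⧸ M) := ((QuotientGroup.mk' M).comp D.subtype).codRestrict _ (fun x => x.2.1)
        have hpg : IsPGroup p (pCore p (G ⧸ M)) := Cores.isPGroup_pCore p (G ⧸ M)
        have hnil1 : Group.IsNilpotent (pCore p (G ⧸ M)) := hpg.isNilpotent
        have hnil : Group.IsNilpotent D := by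
          apply Subgroup.isNilpotent_of_ker_le_center f
          intro x hx
          rw [Subgroup.mem_center_iff]
          intro y
          have hxM : (x : G) ∈ M := by
            have h1 : f x = 1 := hx
            have h2 : QuotientGroup.mk' M (x : G) = 1 := congrArg Subtype.val h1
            rw [← MonoidHom.mem_ker, QuotientGroup.ker_mk'] at h2
            exact h2
          have h3 := Subgroup.mem_centralizer_iff.mp y.2.2 x hxM
          exact Subtype.ext h3.symm
        have h1 : IsPGroup p (A.subgroupOf D) := hA.1.comap_subtype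
        obtain ⟨P, hP⟩ := h1.exists_le_sylow
        have hPn : (P : Subgroup D).Normal := by
          have := (Group.isNilpotent_of_finite_tfae (G := D)).out 0 3
          exact (this.mp hnil) p hp P
        have h2 : (P : Subgroup D) ≤ pCore p D := Cores.le_pCore hPn P.isPGroup'
        have hAD : A ≤ D := le_inf hAR hcen
        calc A = (A.subgroupOf D).map D.subtype := by
              rw [Subgroup.subgroupOf_map_subtype, inf_eq_left.mpr hAD]
          _ ≤ (pCore p D).map D.subtype := Subgroup.map_mono (hP.trans h2)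
          _ ≤ pCore p G := Cores.map_pCore_subtype_le p D
      · exfalso
        rw [SetLike.not_le_iff_exists] at hcen
        obtain ⟨a, haA, ha⟩ := hcen
        rw [Subgroup.mem_centralizer_iff] at ha
        push Not at ha
        obtain ⟨m, hm, hma⟩ := ha
        have hm : m ∈ M := hm
        let _ : CommGroup M := cg hab
        let _ := qAct hab
        have hfin : Finite (Additive M) := inferInstanceAs (Finite M)
        obtain ⟨v, hv⟩ := NoFixB.main hp2 (Nat.card (Additive M)) (Additive M) (G ⧸ M) le_rfl (irr_of_min hab hMne hmin)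
          (pCore p (G ⧸ M)) inferInstance (Cores.isPGroup_pCore p (G ⧸ M)) (QuotientGroup.mk' M a) (hAR haA) (by
            refine ⟨Additive.ofMul ⟨m, hm⟩, fun h => hma ?_⟩
            have h1 : ((qh hab (QuotientGroup.mk' M a) ⟨m, hm⟩ : M) : G) = m := congrArg (fun v : Additive M => ((v.toMul : M) : G)) h
            rw [qh_mk] at h1
            change a * m * a⁻¹ = m at h1
            rw [mul_inv_eq_iff_eq_mul] at h1
            exact h1.symm)
        obtain ⟨g, hg, hX⟩ := hA.2 (v.toMul : G)
        rw [isConj_iff] at hg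
        obtain ⟨k, hk⟩ := hg
        set m0 : G := (v.toMul : G) with hm0
        have hm0M : m0 ∈ M := v.toMul.2
        have hgM : g ∈ M := by rw [← hk]; exact hMn.conj_mem _ hm0M k
        set X := A ⊔ MulAut.conj g • A with hXdef
        have hz1 : g * a * g⁻¹ * a⁻¹ ∈ X := by
          apply mul_mem
          · apply (le_sup_right : MulAut.conj g • A ≤ X)
            exact ⟨a, haA, rfl⟩
          · exact inv_mem ((le_sup_left : A ≤ X) haA)
        have hz2 : g * a * g⁻¹ * a⁻¹ ∈ M := by
          have : g * a * g⁻¹ * a⁻¹ = g * (a * g⁻¹ * a⁻¹) := by group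
          rw [this]
          exact mul_mem hgM (hMn.conj_mem _ (inv_mem hgM) a)
        have hz : g * a * g⁻¹ * a⁻¹ = 1 := by
          obtain ⟨j, hj⟩ := hX ⟨_, hz1⟩
          have h1 : (g * a * g⁻¹ * a⁻¹) ^ p ^ j = 1 := congrArg Subtype.val hj
          have h2 : (g * a * g⁻¹ * a⁻¹) ^ Nat.card M = 1 := by
            have := pow_card_eq_one' (x := (⟨_, hz2⟩ : M))
            exact congrArg Subtype.val this
          have h3 : Nat.Coprime (p ^ j) (Nat.card M) := Nat.Coprime.pow_left _ ((Nat.Prime.coprime_iff_not_dvd hp.out).mpr hMp)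
          have h4 : orderOf (g * a * g⁻¹ * a⁻¹) ∣ 1 := by
            rw [← h3]
            exact Nat.dvd_gcd (orderOf_dvd_of_pow_eq_one h1) (orderOf_dvd_of_pow_eq_one h2)
          exact orderOf_eq_one_iff.mp (Nat.dvd_one.mp h4)
        have hga : g * a = a * g := by
          have : g * a = (g * a * g⁻¹ * a⁻¹) * (a * g) := by group
          rw [this, hz, one_mul]
        apply hv (QuotientGroup.mk' M k⁻¹)
        rw [← map_inv, ← map_mul, ← map_mul]
        change Additive.ofMul (qh hab (QuotientGroup.mk' M (k⁻¹ * a * k⁻¹⁻¹)) v.toMul) = v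
        have h5 : (qh hab (QuotientGroup.mk' M (k⁻¹ * a * k⁻¹⁻¹)) v.toMul) = v.toMul := by
          apply Subtype.ext
          rw [qh_mk, ← hm0]
          calc k⁻¹ * a * k⁻¹⁻¹ * m0 * (k⁻¹ * a * k⁻¹⁻¹)⁻¹ = k⁻¹ * (a * (k * m0 * k⁻¹)) * a⁻¹ * k := by group
            _ = k⁻¹ * (g * a) * a⁻¹ * k := by rw [hk, hga]
            _ = k⁻¹ * g * k := by group
            _ = m0 := by rw [← hk]; group
        rw [h5]
        rfl

end Cfsg.Agent.Lib.NoFixC
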