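import Cfsg.Agent.Lib.QdSection
import Cfsg.Agent.Lib.ClSL2Syl
import Cfsg.Agent.Lib.ReeQ
import Cfsg.Agent.Lib.ReeZ
import Cfsg.Prelude.Def_LieTwisted

/-!
# No quadratic action for `PSL(2, q)`, `q` odd, and Ree groups (helper2)
-/

set_option autoImplicit false
set_option linter.unusedSectionVars false

open scoped MatrixGroups commutatorElement

namespace Cfsg.Agent.Lib.NoQuad

open Subgroup Cfsg.Agent.Lib.QuadSection Cfsg.Agent.Lib.QdSection

/-- two noncommuting elements of a `2`-subgroup with squares different from `1` -/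
def Bad (M : Type*) [Group M] : Prop :=
  ∃ (P : Subgroup M) (x y : M), IsPGroup 2 P ∧ x ∈ P ∧ y ∈ P ∧ x ^ 2 ≠ 1 ∧ y ^ 2 ≠ 1 ∧ x * y ≠ y * x

theorem bad_of_surj {K N : Type*} [Group K] [Finite K] [Group N] [Finite N] (f : K →* N)
    (hf : Function.Surjective f) (h : Bad N) : Bad K := by
  haveI : Fact (Nat.Prime 2) := ⟨Nat.prime_two⟩
  obtain ⟨P, x, y, hP, hx, hy, hx2, hy2, hxy⟩ := h
  obtain ⟨Q, hQ⟩ := hP.exists_le_sylow
  obtain ⟨Q', hQ'⟩ := Sylow.mapSurjective_surjective hf 2 Q
  have hmem : ∀ z ∈ P, ∃ w ∈ (Q' : Subgroup K), f w = z := by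
    intro z hz
    have h1 : z ∈ Q := hQ hz
    rw [← hQ'] at h1
    exact h1
  obtain ⟨a, ha, rfl⟩ := hmem x hx
  obtain ⟨b, hb, rfl⟩ := hmem y hy
  refine ⟨Q', a, b, Q'.2, ha, hb, ?_, ?_, ?_⟩
  · intro h; apply hx2; rw [← map_pow, h, map_one]
  · intro h; apply hy2; rw [← map_pow, h, map_one]
  · intro h; apply hxy; rw [← map_mul, h, map_mul]

theorem bad_of_le {M : Type*} [Group M] (K : Subgroup M) (h : Bad K) : Bad M := by
  obtain ⟨P, x, y, hP, hx, hy, hx2, hy2, hxy⟩ := h
  refine ⟨P.map K.subtype, x, y, hP.map _, ⟨x, hx, rfl⟩, ⟨y, hy, rfl⟩, ?_, ?_, ?_⟩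
  · intro h; exact hx2 (Subtype.ext h)
  · intro h; exact hy2 (Subtype.ext h)
  · intro h; exact hxy (Subtype.ext h)

theorem bad_of_equiv {M N : Type*} [Group M] [Group N] (e : M ≃* N) (h : Bad M) : Bad N := by
  obtain ⟨P, x, y, hP, hx, hy, hx2, hy2, hxy⟩ := h
  refine ⟨P.map e.toMonoidHom, e x, e y, hP.map _, ⟨x, hx, rfl⟩, ⟨y, hy, rfl⟩, ?_, ?_, ?_⟩
  · intro h; exact hx2 (e.injective (by rw [map_pow, h, map_one]))
  · intro h; exact hy2 (e.injective (by rw [map_pow, h, map_one]))
  · intro h; rw [← map_mul, ← map_mul] at h; exact hxy (e.injective h)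

theorem bad_quaternion {n : ℕ} (hn : 2 ≤ n) {M : Type*} [Group M] (P : Subgroup M) (hP : IsPGroup 2 P)
    (e : P ≃* QuaternionGroup n) : Bad M := by
  haveI : NeZero n := ⟨by omega⟩
  haveI : Fact (1 < 2 * n) := ⟨by omega⟩
  have h2 : (2 : ZMod (2 * n)) ≠ 0 := by
    intro h
    have h1 : ((2 : ℕ) : ZMod (2 * n)) = 0 := by exact_mod_cast h
    rw [ZMod.natCast_eq_zero_iff] at h1
    have := Nat.le_of_dvd (by norm_num) h1
    omega
  have hn0 : (n : ZMod (2 * n)) ≠ 0 := by
    intro h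
    rw [ZMod.natCast_eq_zero_iff] at h
    have := Nat.le_of_dvd (by omega) h
    omega
  refine ⟨P, e.symm (QuaternionGroup.a 1), e.symm (QuaternionGroup.xa 0), hP, (e.symm _).2, (e.symm _).2, ?_, ?_, ?_⟩
  · intro h
    have h1 : (e.symm (QuaternionGroup.a 1)) ^ 2 = 1 := Subtype.ext h
    rw [← map_pow] at h1
    have h3 : (QuaternionGroup.a 1 : QuaternionGroup n) ^ 2 = 1 := by simpa using h1
    rw [pow_two, QuaternionGroup.a_mul_a, QuaternionGroup.one_def] at h3
    have h4 : (1 + 1 : ZMod (2 * n)) = 0 := by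
      injection h3
    apply h2
    rw [← h4]; norm_num
  · intro h
    have h1 : (e.symm (QuaternionGroup.xa 0)) ^ 2 = 1 := Subtype.ext h
    rw [← map_pow] at h1
    have h3 : (QuaternionGroup.xa 0 : QuaternionGroup n) ^ 2 = 1 := by simpa using h1
    rw [pow_two, QuaternionGroup.xa_mul_xa, QuaternionGroup.one_def] at h3
    have h4 : (n + 0 - 0 : ZMod (2 * n)) = 0 := by
      injection h3
    apply hn0
    simpa using h4
  · intro h
    have h1 : e.symm (QuaternionGroup.a 1) * e.symm (QuaternionGroup.xa 0) =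
      e.symm (QuaternionGroup.xa 0) * e.symm (QuaternionGroup.a 1) := Subtype.ext h
    rw [← map_mul, ← map_mul] at h1
    have h3 := e.symm.injective h1
    rw [QuaternionGroup.a_mul_xa, QuaternionGroup.xa_mul_a] at h3
    have h4 : (0 - 1 : ZMod (2 * n)) = 0 + 1 := by
      injection h3
    apply h2
    linear_combination -h4

theorem bad_SL2 {F : Type*} [Field F] [Fintype F] (hodd : Odd (Fintype.card F)) : Bad SL(2, F) := by
  haveI : Fact (Nat.Prime 2) := ⟨Nat.prime_two⟩
  obtain ⟨P⟩ : Nonempty (Sylow 2 SL(2, F)) := inferInstance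
  obtain ⟨k, hk, ⟨e⟩⟩ := ClSL2Syl.sylow_two_SL2 hodd P
  exact bad_quaternion (n := 2 ^ k) (by
    calc 2 = 2 ^ 1 := by norm_num
      _ ≤ 2 ^ k := Nat.pow_le_pow_right two_pos hk) P P.2 e

theorem not_bad_PSL2 {F : Type*} [Field F] [Fintype F] (hodd : Odd (Fintype.card F)) :
    ¬ Bad (Matrix.ProjectiveSpecialLinearGroup (Fin 2) F) := by
  haveI : Fact (Nat.Prime 2) := ⟨Nat.prime_two⟩
  have h2 : (2 : F) ≠ 0 := ClUtil.two_ne_zero_of_odd_card hodd
  rintro ⟨P, x, y, hP, hx, hy, hx2, hy2, hxy⟩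
  obtain ⟨Q, hQ⟩ := hP.exists_le_sylow
  obtain ⟨Q', hQ'⟩ := Sylow.mapSurjective_surjective
    (QuotientGroup.mk'_surjective (Subgroup.center SL(2, F))) 2 Q
  have hmem : ∀ z ∈ P, ∃ w ∈ (Q' : Subgroup SL(2, F)), QuotientGroup.mk' (Subgroup.center SL(2, F)) w = z := by
    intro z hz
    have h1 : z ∈ Q := hQ hz
    rw [← hQ'] at h1
    exact h1
  obtain ⟨k, hk, ⟨e⟩⟩ := ClSL2Syl.sylow_two_SL2 hodd Q'
  haveI : NeZero (2 ^ k) := ⟨by positivity⟩
  have key : ∀ w, ∀ hw : w ∈ (Q' : Subgroup SL(2, F)), (QuotientGroup.mk' (Subgroup.center SL(2, F)) w) ^ 2 ≠ 1 →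
      ∃ i, e ⟨w, hw⟩ = QuaternionGroup.a i := by
    intro w hw hw2
    rcases h : e ⟨w, hw⟩ with i | i
    · exact ⟨i, rfl⟩
    · exfalso
      apply hw2
      have h3 : (e ⟨w, hw⟩) ^ 4 = 1 := by
        rw [h]
        have h4 : (4 : ℕ) = 2 * 2 := rfl
        rw [h4, pow_mul, pow_two (QuaternionGroup.xa i), QuaternionGroup.xa_mul_xa, pow_two, QuaternionGroup.a_mul_a,
          QuaternionGroup.one_def]
        congr 1
        have h5 : (((2 * 2 ^ k : ℕ)) : ZMod (2 * 2 ^ k)) = 0 := ZMod.natCast_self _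
        push_cast at h5 ⊢
        linear_combination h5
      rw [← map_pow] at h3
      have h4 : (⟨w, hw⟩ : (Q' : Subgroup SL(2, F))) ^ 4 = 1 := by simpa using h3
      have h5 : w ^ 4 = 1 := congrArg Subtype.val h4
      rw [← map_pow]
      rw [QuotientGroup.mk'_apply, QuotientGroup.eq_one_iff]
      by_cases h6 : w ^ 2 = 1
      · rw [h6]; exact one_mem _
      · apply ClSL2Syl.neg_one_mem_center
        apply ClSL2Syl.unique_involution h2 _ h6
        rw [← pow_add]
        exact h5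
  obtain ⟨a, ha, rfl⟩ := hmem x hx
  obtain ⟨b, hb, rfl⟩ := hmem y hy
  obtain ⟨i, hi⟩ := key a ha hx2
  obtain ⟨j, hj⟩ := key b hb hy2
  apply hxy
  have h3 : e (⟨a, ha⟩ * ⟨b, hb⟩) = e (⟨b, hb⟩ * ⟨a, ha⟩) := by
    rw [map_mul, map_mul, hi, hj, QuaternionGroup.a_mul_a, QuaternionGroup.a_mul_a, add_comm]
  have h4 := congrArg Subtype.val (e.injective h3)
  rw [← map_mul, ← map_mul]
  exact congrArg _ h4

theorem not_bad_of_comm {M : Type*} [Group M] [Finite M] (h : ∀ S : Sylow 2 M, ∀ x ∈ S, ∀ y ∈ S, x * y = y * x) :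
    ¬ Bad M := by
  haveI : Fact (Nat.Prime 2) := ⟨Nat.prime_two⟩
  rintro ⟨P, x, y, hP, hx, hy, hx2, hy2, hxy⟩
  obtain ⟨Q, hQ⟩ := hP.exists_le_sylow
  exact hxy (h Q x (hQ hx) y (hQ hy))

theorem not_bad_ree {M : Type*} [Group M] (h : Cfsg.Lie.IsoRee M) : ¬ Bad M := by
  obtain ⟨K, _, _, m, hm, hK, ⟨e⟩⟩ := h
  intro hb
  refine not_bad_of_comm ?_ (bad_of_equiv e hb)
  intro S x hx y hy
  have h1 := (Cfsg.Agent.Lib.ReeQ.rd hK hm).cent_syl S
  have h2 : x ∈ Subgroup.centralizer ((S : Subgroup ↥(Cfsg.Lie.twistedG2 K (3 ^ m))) : Set ↥(Cfsg.Lie.twistedG2 K (3 ^ m))) := by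
    rw [h1]; exact hx
  exact (Subgroup.mem_centralizer_iff.mp h2 y hy).symm

theorem exists_fixed {L : Type*} [Group L] [Finite L] {p : ℕ} [hp : Fact p.Prime] {T V : Subgroup L}
    (hT : IsPGroup p T) (hV : IsPGroup p V) (hVne : V ≠ ⊥) (hTV : T ≤ normalizer (V : Set L)) :
    V ⊓ centralizer (T : Set L) ≠ ⊥ := by
  letI : MulAction T V :=
    { smul := fun t v => ⟨t * v * (t : L)⁻¹, (mem_normalizer_iff.mp (hTV t.2) v).mp v.2⟩
      one_smul := fun v => Subtype.ext (show (1 : L) * v * 1⁻¹ = v by group)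
      mul_smul := fun s t v => Subtype.ext (show ((s : L) * t) * v * ((s : L) * t)⁻¹ = s * (t * v * (t : L)⁻¹) * (s : L)⁻¹ by group) }
  have hdvd : p ∣ Nat.card V := by
    obtain ⟨n, hn⟩ := IsPGroup.iff_card.1 hV
    rw [hn]
    apply dvd_pow_self
    rintro rfl
    rw [pow_zero] at hn
    exact hVne (Subgroup.card_eq_one.mp hn)
  obtain ⟨w, hw, hne⟩ := hT.exists_fixed_point_of_prime_dvd_card_of_fixed_point V hdvd
    (a := 1) (by
      intro t
      exact Subtype.ext (show (t : L) * 1 * (t : L)⁻¹ = 1 by group))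
  intro h
  have h1 : (w : L) ∈ V ⊓ centralizer (T : Set L) := by
    refine ⟨w.2, ?_⟩
    show (w : L) ∈ centralizer (T : Set L)
    rw [mem_centralizer_iff]
    intro t ht
    have h2 : t * w * t⁻¹ = w := congrArg Subtype.val (hw ⟨t, ht⟩)
    calc t * w = t * w * t⁻¹ * t := by group
      _ = w * t := by rw [h2]
  rw [h] at h1
  exact hne (Subtype.ext (Subgroup.mem_bot.mp h1)).symm

theorem main {L : Type*} [Group L] [Finite L] {p : ℕ} [Fact p.Prime] (hp2 : p ≠ 2) {V H : Subgroup L}
    (hV : Cfsg.IsElementaryAbelian p V) (hHV : H ≤ normalizer (V : Set L))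
    (hirr : ∀ U : Subgroup L, U ≤ V → H ≤ normalizer (U : Set L) → U = ⊥ ∨ U = V)
    [hn : ((centralizer (V : Set L)).subgroupOf H).Normal]
    (hbad : ¬ Bad (↥H ⧸ (centralizer (V : Set L)).subgroupOf H))
    {A : Subgroup L} (hA : A ≤ H) (hquad : ⁅⁅V, A⁆, A⁆ = ⊥) : ⁅V, A⁆ = ⊥ := by
  have hVp : IsPGroup p V := fun v => ⟨1, by rw [pow_one]; exact Subtype.ext (hV.2 v v.2)⟩
  rw [commutator_eq_bot_iff_le_centralizer]
  by_contra hcon
  have hex : ∃ a ∈ A, a ∉ centralizer (V : Set L) := by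
    by_contra h
    push Not at h
    apply hcon
    intro v hv
    rw [mem_centralizer_iff]
    intro a ha
    have := mem_centralizer_iff.mp (h a ha) v hv
    exact this.symm
  obtain ⟨a, haA, haV⟩ := hex
  have hq : Quad V a := by
    intro x hx
    have h1 : ⁅⁅x, a⁆, a⁆ ∈ ⁅⁅V, A⁆, A⁆ :=
      commutator_mem_commutator (commutator_mem_commutator hx haA) haA
    rw [hquad, Subgroup.mem_bot] at h1
    exact h1
  have hVne : V ≠ ⊥ := by
    rintro rfl
    apply haV
    rw [mem_centralizer_iff]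
    intro v hv
    rw [Subgroup.mem_bot.mp hv]
    simp
  obtain ⟨H1, Q, hHQ, f, θ, h1, h2, h3, h4, h5⟩ := PStabPair.natSec_of_not_stable hp2 hVp hHV (hA haA) hq (by
    intro D hDH hHD hD haD
    -- `C_V(D) ≠ 1`
    have hDV : D ≤ normalizer (V : Set L) := hDH.trans hHV
    have hU : V ⊓ centralizer (D : Set L) ≠ ⊥ := by
      -- the `p`-group `V * P` for `P` a Sylow subgroup of `D`
      obtain ⟨P⟩ : Nonempty (Sylow p ↥D) := inferInstance
      set T : Subgroup L := (P : Subgroup ↥D).map D.subtype with hT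
      have hTD : T ≤ D := map_subtype_le _
      have hTp : IsPGroup p T := P.2.map _
      have hTV : T ≤ normalizer (V : Set L) := hTD.trans hDV
      -- `D = T C_D(V)`
      have hDT : ∀ d ∈ D, ∃ t ∈ T, ∃ c ∈ centralizer (V : Set L), d = t * c := by
        have hC : ((centralizer (V : Set L)).subgroupOf D).Normal := by
          apply Subgroup.normal_subgroupOf_of_le_normalizer
          exact hDV.trans (by
            intro g hg
            rw [mem_normalizer_iff]
            have key : ∀ g ∈ normalizer (V : Set L), ∀ c ∈ centralizer (V : Set L), g * c * g⁻¹ ∈ centralizer (V : Set L) := by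
              intro g hg c hc
              rw [mem_centralizer_iff] at hc ⊢
              intro v hv
              have h6 : g⁻¹ * v * g ∈ V := by
                have := (mem_normalizer_iff.mp (inv_mem hg) v).mp hv
                rwa [inv_inv] at this
              have h7 := hc _ h6
              calc v * (g * c * g⁻¹) = g * (g⁻¹ * v * g * c) * g⁻¹ := by group
                _ = g * (c * (g⁻¹ * v * g)) * g⁻¹ := by rw [h7]
                _ = _ := by group
            intro c
            refine ⟨fun hc => key g hg c hc, fun hc => ?_⟩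
            have := key g⁻¹ (inv_mem hg) _ hc
            have e : g⁻¹ * (g * c * g⁻¹) * g⁻¹⁻¹ = c := by group
            rwa [e] at this)
        have hidx : ((P : Subgroup ↥D) ⊔ (centralizer (V : Set L)).subgroupOf D) = ⊤ := by
          -- the quotient is a `p`-group
          have hqp : IsPGroup p (↥D ⧸ (centralizer (V : Set L)).subgroupOf D) := by
            intro q
            obtain ⟨d, rfl⟩ := QuotientGroup.mk_surjective q
            obtain ⟨k, hk⟩ := hD d d.2
            refine ⟨k, ?_⟩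
            rw [← QuotientGroup.mk_pow, QuotientGroup.eq_one_iff]
            exact hk
          have h6 : ((P : Subgroup ↥D).map (QuotientGroup.mk' ((centralizer (V : Set L)).subgroupOf D))) = ⊤ := by
            have h7 := Sylow.coe_mapSurjective (QuotientGroup.mk'_surjective ((centralizer (V : Set L)).subgroupOf D)) P
            rw [← h7]
            exact ((Sylow.mapSurjective (QuotientGroup.mk'_surjective ((centralizer (V : Set L)).subgroupOf D)) P).3
              (hqp.to_subgroup ⊤) le_top).symm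
          have h8 := congrArg (comap (QuotientGroup.mk' ((centralizer (V : Set L)).subgroupOf D))) h6
          rw [comap_map_eq, QuotientGroup.ker_mk', comap_top] at h8
          exact h8
        intro d hd
        have h6 : (⟨d, hd⟩ : ↥D) ∈ ((P : Subgroup ↥D) ⊔ (centralizer (V : Set L)).subgroupOf D) := by
          rw [hidx]; exact mem_top _
        obtain ⟨t, ht, c, hc, htc⟩ := mem_sup_of_normal_right.mp h6
        exact ⟨t, ⟨t, ht, rfl⟩, c, hc, congrArg Subtype.val htc.symm⟩
      -- nontrivial fixed points of `T` on `V`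
      have hfix : V ⊓ centralizer (T : Set L) ≠ ⊥ := exists_fixed hTp hVp hVne hTV
      intro h6
      apply hfix
      rw [eq_bot_iff, ← h6]
      refine le_inf inf_le_left ?_
      rintro x ⟨hxV, hxT⟩
      rw [mem_centralizer_iff]
      intro d hd
      obtain ⟨t, ht, c, hc, rfl⟩ := hDT d hd
      have e1 := mem_centralizer_iff.mp hc x hxV
      have e2 := mem_centralizer_iff.mp hxT t ht
      rw [mul_assoc, ← e1, ← mul_assoc, e2, mul_assoc]
    rcases hirr (V ⊓ centralizer (D : Set L)) inf_le_left (by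
      intro h hh
      rw [mem_normalizer_iff]
      have key : ∀ h ∈ H, ∀ x ∈ V ⊓ centralizer (D : Set L), h * x * h⁻¹ ∈ V ⊓ centralizer (D : Set L) := by
        rintro h hh x ⟨hxV, hxD⟩
        refine ⟨(mem_normalizer_iff.mp (hHV hh) x).mp hxV, ?_⟩
        show h * x * h⁻¹ ∈ centralizer (D : Set L)
        replace hxD : x ∈ centralizer (D : Set L) := hxD
        rw [mem_centralizer_iff] at hxD ⊢
        intro d hd
        have h6 : h⁻¹ * d * h ∈ D := by
          have := (mem_normalizer_iff.mp (inv_mem (hHD hh)) d).mp hd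
          rwa [inv_inv] at this
        have h7 := hxD _ h6
        calc d * (h * x * h⁻¹) = h * (h⁻¹ * d * h * x) * h⁻¹ := by group
          _ = h * (x * (h⁻¹ * d * h)) * h⁻¹ := by rw [h7]
          _ = _ := by group
      intro x
      refine ⟨fun hx => key h hh x hx, fun hx => ?_⟩
      have := key h⁻¹ (inv_mem hh) _ hx
      have e : h⁻¹ * (h * x * h⁻¹) * h⁻¹⁻¹ = x := by group
      rwa [e] at this) with h6 | h6
    · exact hU h6
    · apply haV
      rw [mem_centralizer_iff]
      intro v hv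
      rw [← h6] at hv
      exact (mem_centralizer_iff.mp hv.2 a haD).symm)
  -- the section `SL(2, p)` of the quotient
  apply hbad
  let α : H1 →* ↥H ⧸ (centralizer (V : Set L)).subgroupOf H :=
    (QuotientGroup.mk' ((centralizer (V : Set L)).subgroupOf H)).comp (Subgroup.inclusion h1)
  obtain ⟨K, R, hR, hK, ⟨e⟩⟩ := exists_section α θ h4 (by
    intro h hh
    rw [MonoidHom.mem_ker] at hh ⊢
    have h6 : (h : L) ∈ centralizer (V : Set L) := by
      have h7 : (QuotientGroup.mk (Subgroup.inclusion h1 h) : ↥H ⧸ (centralizer (V : Set L)).subgroupOf H) = 1 := hh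
      rw [QuotientGroup.eq_one_iff] at h7
      exact h7
    have h8 : ∀ w : Fin 2 → ZMod p, (θ h : Matrix (Fin 2) (Fin 2) (ZMod p)).mulVec w = w := by
      intro w
      obtain ⟨x, hx⟩ := h3 (Multiplicative.ofAdd w)
      have h9 := h5 h x
      have h10 : cj (hHQ h.2) x = x := by
        apply Subtype.ext
        have h11 := mem_centralizer_iff.mp h6 x (h2 x.2)
        show (h : L) * x * (h : L)⁻¹ = x
        rw [← h11]; group
      rw [h10, hx] at h9
      exact h9.symm
    ext i j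
    have h9 := congrFun (h8 (Pi.single j 1)) i
    rw [Matrix.mulVec_single_one] at h9
    simp only [Matrix.col_apply] at h9
    rw [h9]
    simp [Matrix.one_apply, Pi.single_apply])
  apply bad_of_le K
  apply bad_of_surj (e.toMonoidHom.comp (QuotientGroup.mk' _)) (e.surjective.comp (QuotientGroup.mk'_surjective _))
  apply bad_SL2
  rw [ZMod.card]
  exact (Fact.out : p.Prime).odd_of_ne_two hp2

end Cfsg.Agent.Lib.NoQuad
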