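import Cfsg.Agent.Lib.MinPair

/-!
The norm map: `C_A(H)` is a direct factor of `C_A(S)` for `A` an abelian `p`-group, `|H : S|` prime to `p`.
-/

set_option autoImplicit false

namespace Cfsg.Agent.Lib.NormSplit

open Cfsg.Agent.Lib.CFSylow Cfsg.Agent.Lib.MinPair

theorem norm_split {G : Type*} [Group G] [Finite G] {p : ℕ} [Fact p.Prime] {S A H : Subgroup G}
    (hSH : S ≤ H) (hidx : ¬ p ∣ S.relIndex H) (hA : IsPGroup p A)
    (hAc : ∀ a ∈ A, ∀ b ∈ A, a * b = b * a) (hHA : H ≤ nz A) :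
    ∃ K ≤ A ⊓ cz S, (A ⊓ cz H) ⊓ K = ⊥ ∧ (A ⊓ cz H) ⊔ K = A ⊓ cz S := by
  classical
  have hconj : ∀ h ∈ H, ∀ a ∈ A, h * a * h⁻¹ ∈ A := fun h hh a ha =>
    le_normalizer_iff.1 hHA h hh a ha
  let _ : CommGroup ↥A :=
    { (inferInstance : Group ↥A) with
      mul_comm := fun a b => Subtype.ext (hAc a a.2 b b.2) }
  set ι := ↥H ⧸ S.subgroupOf H with hι
  have : Fintype ι := Fintype.ofFinite ι
  let f : ↥(A ⊓ cz S) → ι → ↥A := fun a => Quotient.lift
    (fun h : ↥H => (⟨(h : G) * a * (h : G)⁻¹, hconj h h.2 a a.2.1⟩ : ↥A)) (by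
      intro h h' hh'
      have h1 : h⁻¹ * h' ∈ S.subgroupOf H := QuotientGroup.leftRel_apply.1 hh'
      have h2 : (h : G)⁻¹ * h' ∈ S := h1
      have h3 := (Subgroup.mem_centralizer_iff.1 a.2.2) _ h2
      apply Subtype.ext
      show (h : G) * a * (h : G)⁻¹ = (h' : G) * a * (h' : G)⁻¹
      calc (h : G) * a * (h : G)⁻¹ = (h : G) * (a * ((h : G)⁻¹ * h')) * (h' : G)⁻¹ := by group
        _ = (h : G) * (((h : G)⁻¹ * h') * a) * (h' : G)⁻¹ := by rw [h3]
        _ = (h' : G) * a * (h' : G)⁻¹ := by group)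
  have hf : ∀ (a : ↥(A ⊓ cz S)) (h : ↥H), f a (QuotientGroup.mk h) =
      ⟨(h : G) * a * (h : G)⁻¹, hconj h h.2 a a.2.1⟩ := fun a h => rfl
  let N : ↥(A ⊓ cz S) →* ↥A :=
    { toFun := fun a => ∏ c : ι, f a c
      map_one' := by
        apply Finset.prod_eq_one
        intro c _
        obtain ⟨h, rfl⟩ := QuotientGroup.mk_surjective c
        rw [hf]
        apply Subtype.ext
        simp
      map_mul' := by
        intro a b
        rw [← Finset.prod_mul_distrib]
        apply Finset.prod_congr rfl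
        intro c _
        obtain ⟨h, rfl⟩ := QuotientGroup.mk_surjective c
        rw [hf, hf, hf]
        apply Subtype.ext
        show (h : G) * ((a : G) * b) * (h : G)⁻¹ = ((h : G) * a * (h : G)⁻¹) * ((h : G) * b * (h : G)⁻¹)
        group }
  have hNdef : ∀ a, N a = ∏ c : ι, f a c := fun a => rfl
  -- invariance
  have hNH : ∀ a, ((N a : ↥A) : G) ∈ cz H := by
    intro a
    rw [Subgroup.mem_centralizer_iff]
    intro h hh
    let φ : ↥A →* ↥A :=
      { toFun := fun x => ⟨h * x * h⁻¹, hconj h hh x x.2⟩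
        map_one' := Subtype.ext (by simp)
        map_mul' := fun x y => Subtype.ext (by
          show h * ((x : G) * y) * h⁻¹ = (h * x * h⁻¹) * (h * y * h⁻¹)
          group) }
    have h1 : φ (N a) = N a := by
      rw [hNdef, map_prod]
      refine Fintype.prod_equiv (MulAction.toPerm (⟨h, hh⟩ : ↥H)) _ _ ?_
      intro c
      obtain ⟨x, rfl⟩ := QuotientGroup.mk_surjective c
      have e : (MulAction.toPerm (⟨h, hh⟩ : ↥H)) ((x : ↥H) : ι) = (((⟨h, hh⟩ * x : ↥H)) : ι) := rfl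
      rw [e, hf, hf]
      apply Subtype.ext
      show h * ((x : G) * a * (x : G)⁻¹) * h⁻¹ = (h * x) * a * (h * x)⁻¹
      group
    have h2 : h * ((N a : ↥A) : G) * h⁻¹ = ((N a : ↥A) : G) := congrArg Subtype.val h1
    exact mul_inv_eq_iff_eq_mul.1 h2
  have hcard : Nat.card ι = S.relIndex H := rfl
  have hNW : ∀ a : ↥(A ⊓ cz S), (a : G) ∈ cz H → ((N a : ↥A) : G) = (a : G) ^ (S.relIndex H) := by
    intro a ha
    have h1 : N a = (⟨a, a.2.1⟩ : ↥A) ^ (S.relIndex H) := by
      rw [hNdef, ← hcard, Nat.card_eq_fintype_card, ← Finset.card_univ, ← Finset.prod_const]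
      apply Finset.prod_congr rfl
      intro c _
      obtain ⟨h, rfl⟩ := QuotientGroup.mk_surjective c
      rw [hf]
      apply Subtype.ext
      have h2 := Subgroup.mem_centralizer_iff.1 ha h h.2
      show (h : G) * a * (h : G)⁻¹ = a
      rw [h2]; group
    rw [h1]; rfl
  have hcop : (S.relIndex H).Coprime p := by
    rw [Nat.coprime_comm]
    exact (Nat.Prime.coprime_iff_not_dvd Fact.out).2 hidx
  refine ⟨N.ker.map (A ⊓ cz S).subtype, Subgroup.map_subtype_le _, ?_, ?_⟩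
  · rw [eq_bot_iff]
    rintro _ ⟨hx, a, ha, rfl⟩
    have hx2 : (a : G) ∈ cz H := (Subgroup.mem_inf.1 hx).2
    have h1 := hNW a hx2
    have h2 : N a = 1 := ha
    rw [h2] at h1
    have h3 : (a : G) ^ (S.relIndex H) = 1 := h1.symm
    obtain ⟨k, hk⟩ := hA ⟨a, a.2.1⟩
    have hk' : (a : G) ^ p ^ k = 1 := congrArg Subtype.val hk
    have h4 : orderOf (a : G) = 1 := Nat.Coprime.eq_one_of_dvd
      (Nat.Coprime.coprime_dvd_left (orderOf_dvd_of_pow_eq_one h3) (Nat.Coprime.pow_right k hcop))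
      (orderOf_dvd_of_pow_eq_one hk')
    rw [Subgroup.mem_bot]
    exact orderOf_eq_one_iff.1 h4
  · apply le_antisymm
    · exact sup_le (inf_le_inf_left _ (Subgroup.centralizer_le hSH)) (Subgroup.map_subtype_le _)
    · intro x hx
      let a : ↥(A ⊓ cz S) := ⟨x, hx⟩
      -- `w ^ n = N a`
      obtain ⟨k, hk⟩ := hA (N a)
      have hcopk : (S.relIndex H).Coprime (p ^ k) := Nat.Coprime.pow_right k hcop
      obtain ⟨m, hm⟩ : ∃ m : ℕ, (((N a : ↥A)) ^ m) ^ (S.relIndex H) = N a := by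
        obtain ⟨m, hm⟩ := exists_pow_eq_self_of_coprime (n := S.relIndex H) (x := N a)
          (Nat.Coprime.coprime_dvd_right (orderOf_dvd_of_pow_eq_one hk) hcopk)
        refine ⟨m, ?_⟩
        rw [← pow_mul, mul_comm, pow_mul]; exact hm
      set w : G := ((N a : ↥A) : G) ^ m with hw
      have hwH : w ∈ cz H := pow_mem (hNH a) m
      have hwA : w ∈ A := pow_mem (N a).2 m
      have hwS : w ∈ A ⊓ cz S := Subgroup.mem_inf.2 ⟨hwA, Subgroup.centralizer_le hSH hwH⟩
      have hNw : N ⟨w, hwS⟩ = N a := by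
        apply Subtype.ext
        rw [hNW ⟨w, hwS⟩ hwH]
        have := congrArg (Subtype.val) hm
        exact this
      have h5 : a * ⟨w, hwS⟩⁻¹ ∈ N.ker := by
        rw [MonoidHom.mem_ker, map_mul, map_inv, hNw, mul_inv_cancel]
      have e : x = w * (x * w⁻¹) := by
        have h6 := hAc x hx.1 w hwA
        calc x = (x * w) * w⁻¹ := by group
          _ = (w * x) * w⁻¹ := by rw [h6]
          _ = w * (x * w⁻¹) := by group
      rw [e]
      exact mul_mem (Subgroup.mem_sup_left (Subgroup.mem_inf.2 ⟨hwA, hwH⟩))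
        (Subgroup.mem_sup_right ⟨_, h5, rfl⟩)

end Cfsg.Agent.Lib.NormSplit
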