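import Mathlib
import Cfsg.Prelude.Def_GeometricClasses
import Cfsg.Agent.Lib.GeoBridge
import Cfsg.Agent.Lib.OrthMax
import Cfsg.Agent.Lib.QuadBridge
import Cfsg.Agent.Lib.QuadForms

set_option autoImplicit false

/-!
Bridge for the orthogonal groups `omegaGL Q` acting on `ι → F`.
-/

namespace Cfsg.Agent.Lib.OrthBridge

open Cfsg Cfsg.Geo Cfsg.Agent.Lib.GeoBridge QuadraticMap Module Cfsg.Agent.Lib.Quad
open Cfsg.Agent.Lib.OrthMax
open scoped MatrixGroups Matrix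

variable {ι : Type} [Fintype ι] [DecidableEq ι] {F : Type*} [Field F]

theorem toLE_eq (g : GL ι F) : toLE g = le g := rfl

/-- the quadratic form of a nondegenerate quadratic form given as a function -/
def qf {Q : (ι → F) → F} (hQ : IsNondegenerateQuadraticForm Q) : QuadraticForm F (ι → F) where
  toFun := Q
  toFun_smul c v := by rw [hQ.smul, smul_eq_mul, pow_two]
  exists_companion' := ⟨LinearMap.mk₂ F (polar Q) hQ.polar_bilinear.add_left
    hQ.polar_bilinear.smul_left hQ.polar_bilinear.add_right (fun c v x => hQ.polar_bilinear.smul_right c v x),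
    fun x y => by rw [LinearMap.mk₂_apply, polar]; ring⟩

@[simp] theorem coe_qf {Q : (ι → F) → F} (hQ : IsNondegenerateQuadraticForm Q) : ⇑(qf hQ) = Q := rfl

theorem nd_qf {Q : (ι → F) → F} (hQ : IsNondegenerateQuadraticForm Q) : Nd (qf hQ) := by
  apply nd_of
  intro x hx
  by_contra h
  obtain ⟨y, hy⟩ := (hQ.nondegenerate x h).2
  exact hy (hx y)

theorem mem_omegaGL_iff {Q : QuadraticForm F (ι → F)} (g : GL ι F) :
    g ∈ omegaGL ⇑Q ↔ le g ∈ Om Q := by
  rw [omegaGL, Subgroup.mem_map]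
  constructor
  · rintro ⟨x, hx, rfl⟩
    exact (mem_Omega_iff x).1 hx
  · intro h
    have hO : g ∈ Cfsg.isometryGroup F ⇑Q := mem_isometryGroup_iff_toLE.2 (Om_le h)
    exact ⟨⟨g, hO⟩, (mem_Omega_iff ⟨g, hO⟩).2 h, rfl⟩

/-- transfer principle for maximal subgroups of `Ω` -/
theorem Om_max_of {Q : QuadraticForm F (ι → F)} {K : Subgroup (GL ι F)}
    {P : ((ι → F) ≃ₗ[F] (ι → F)) → Prop} (hK : ∀ g, g ∈ K ↔ P (le g))
    (hlt : ∃ t ∈ Om Q, ¬ P t)
    (h : ∀ M : Subgroup ((ι → F) ≃ₗ[F] (ι → F)), M ≤ Om Q → (∀ g ∈ Om Q, P g → g ∈ M) →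
      (∃ g ∈ M, ¬ P g) → Om Q ≤ M) :
    IsMaximalIn (omegaGL ⇑Q) (K ⊓ omegaGL ⇑Q) := by
  apply isMaximalIn_of
  · refine lt_of_le_of_ne inf_le_right fun heq => ?_
    obtain ⟨t, ht, htP⟩ := hlt
    apply htP
    have ht2 : le.symm t ∈ omegaGL ⇑Q := by
      rw [mem_omegaGL_iff, MulEquiv.apply_symm_apply]; exact ht
    rw [← heq] at ht2
    have := (hK _).1 (Subgroup.mem_inf.1 ht2).1
    rwa [MulEquiv.apply_symm_apply] at this
  · intro M hHM hMK hex g hg
    have hM : M ≤ Om Q := by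
      intro x hx
      have := hMK (le.symm x) (by rwa [MulEquiv.apply_symm_apply])
      rwa [mem_omegaGL_iff, MulEquiv.apply_symm_apply] at this
    refine h M hM ?_ ?_ ((mem_omegaGL_iff g).1 hg)
    · intro x hx hxP
      have := hHM (le.symm x) (Subgroup.mem_inf.2 ⟨?_, ?_⟩)
      · rwa [MulEquiv.apply_symm_apply] at this
      · rw [hK, MulEquiv.apply_symm_apply]; exact hxP
      · rw [mem_omegaGL_iff, MulEquiv.apply_symm_apply]; exact hx
    · obtain ⟨x, hx, hxH⟩ := hex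
      exact ⟨le x, hx, fun hcon => hxH (Subgroup.mem_inf.2 ⟨(hK x).2 hcon, hMK x hx⟩)⟩

/-- transfer principle for stabilisers of subspaces in `Ω` -/
theorem Om_stab_max_of [Finite F] {Q : QuadraticForm F (ι → F)} (hQ : Nd Q)
    (hn : 5 ≤ finrank F (ι → F)) {W : Submodule F (ι → F)} (h0 : W ≠ ⊥) (h1 : W ≠ ⊤)
    (h : ∀ M : Subgroup ((ι → F) ≃ₗ[F] (ι → F)), M ≤ Om Q →
      (∀ g ∈ Om Q, (∀ w ∈ W, g w ∈ W) → g ∈ M) →
      (∃ g ∈ M, ∃ w ∈ W, g w ∉ W) → Om Q ≤ M) :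
    IsMaximalIn (omegaGL ⇑Q) (subspaceStabilizer W ⊓ omegaGL ⇑Q) := by
  apply Om_max_of (P := fun g => ∀ w ∈ W, g w ∈ W) (fun g => mem_subspaceStabilizer_iff' W g)
  · obtain ⟨g, hg, w, hw, hgw⟩ := exists_move hQ (Or.inr (Or.inl (by omega))) (by omega) h0 h1
    exact ⟨g, hg, fun hcon => hgw (hcon w hw)⟩
  · intro M hM hH ⟨g, hg, hgP⟩
    push Not at hgP
    exact h M hM hH ⟨g, hg, hgP⟩

/-- stabilisers of totally singular subspaces -/
theorem Om_ts_max [Finite F] {Q : QuadraticForm F (ι → F)} (hQ : Nd Q)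
    (hn : 5 ≤ finrank F (ι → F)) {W : Submodule F (ι → F)} (h0 : W ≠ ⊥)
    (hW : ∀ w ∈ W, Q w = 0)
    (hexc : ∀ C : Submodule F (ι → F), (∀ c ∈ C, Q c = 0) → W ≤ C →
      2 * (finrank F W + 1) = finrank F (ι → F) → finrank F C ≤ finrank F W) :
    IsMaximalIn (omegaGL ⇑Q) (subspaceStabilizer W ⊓ omegaGL ⇑Q) := by
  have h1 : W ≠ ⊤ := by
    rintro rfl
    obtain ⟨w, hw, hw0⟩ := Submodule.exists_mem_ne_zero_of_ne_bot h0
    apply hw0
    apply hQ.eq_zero
    intro y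
    rw [polar, hW _ trivial, hW _ trivial, hW _ trivial]; ring
  apply Om_stab_max_of hQ hn h0 h1
  intro M hM hH hex
  exact ts_stab_max hQ (Or.inr (Or.inl (by omega))) (by omega) (hM.trans Om_le) hW hH hex hexc

omit [DecidableEq ι] in
theorem two_finrank_le {Q : QuadraticForm F (ι → F)} (hQ : Nd Q) {C : Submodule F (ι → F)}
    (hC : ∀ c ∈ C, Q c = 0) : 2 * finrank F C ≤ finrank F (ι → F) := by
  have h1 : C ≤ perp Q C := by
    intro x hx
    rw [mem_perp]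
    intro y hy
    rw [polar, hC _ (C.add_mem hy hx), hC _ hx, hC _ hy]; ring
  have h2 := Submodule.finrank_mono h1
  have h3 := hQ.finrank_add_finrank_perp C
  omega

end Cfsg.Agent.Lib.OrthBridge
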