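import Mathlib
import Cfsg.Agent.Lib.NsTor67
import Cfsg.Agent.Lib.OrthBridge
import Cfsg.Agent.Lib.QuadNorm
import Cfsg.Agent.Lib.QuadSpinor

/-!
(helper67) Elements of prime order of orthogonal groups in characteristic two without fixed nonsingular points.
-/

set_option autoImplicit false
set_option linter.unusedSectionVars false

namespace Cfsg.Agent.Lib.NsPt67

open QuadraticMap Module Cfsg Cfsg.Geo Cfsg.Agent.Lib.GeoBridge Cfsg.Agent.Lib.Quad Cfsg.Agent.Lib.GaussSign67
open Cfsg.Agent.Lib.OrthBridge Cfsg.Agent.Lib.QuadNorm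
open scoped MatrixGroups Matrix

universe u v w

section gen
variable {ι : Type} [Fintype ι] [DecidableEq ι] {F : Type u} [Field F] [CharP F 2]

omit [Fintype ι] [DecidableEq ι] in
theorem sq_one {z : F} (h : z * z = 1) : z = 1 := by
  have h2 : (z - 1) ^ 2 = 0 := by
    linear_combination h - (z - 1) * (CharTwo.two_eq_zero : (2 : F) = 0)
  exact sub_eq_zero.1 ((pow_eq_zero_iff two_ne_zero).1 h2)

theorem key (Q : QuadraticForm F (ι → F)) (hex : ∃ v, Q v ≠ 0) (r : ℕ) :
    (∀ x : GL ι F, x ∈ omegaGL ⇑Q →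
      (∃ z : F, ((x ^ r : GL ι F) : Matrix ι ι F) = z • (1 : Matrix ι ι F)) →
      (∀ z : F, (x : Matrix ι ι F) ≠ z • (1 : Matrix ι ι F)) →
      ∃ W : Submodule F (ι → F), (Module.finrank F ↥W = 1 ∧ ∃ v ∈ W, Q v ≠ 0) ∧ W.map (Matrix.toLin' (x : Matrix ι ι F)) ≤ W) ↔
    (∀ g ∈ Om Q, g ^ r = 1 → g ≠ 1 → ∃ v, Q v ≠ 0 ∧ g v = v) := by
  obtain ⟨v0, hv0⟩ := hex
  have hsc : ∀ (g : (ι → F) ≃ₗ[F] (ι → F)), g ∈ O Q → ∀ (v : ι → F) (z : F), Q v ≠ 0 → g v = z • v → z = 1 := by
    intro g hg v z hv h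
    have h1 := mem_O.1 hg v
    rw [h, Q_smul] at h1
    apply sq_one
    exact mul_right_cancel₀ hv (by rw [one_mul]; exact h1)
  constructor
  · intro H g hg hgr hg1
    by_contra hcon
    push Not at hcon
    have hx : (le.symm g) ∈ omegaGL ⇑Q := by
      rw [mem_omegaGL_iff, MulEquiv.apply_symm_apply]; exact hg
    obtain ⟨W, ⟨hW1, v, hvW, hv⟩, hW⟩ := H (le.symm g) hx ⟨1, by rw [← map_pow, hgr, map_one, one_smul]; rfl⟩ (by
      intro z hz
      have h1 : g v0 = z • v0 := by
        have h2 : le (le.symm g) v0 = z • v0 := by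
          rw [le_apply, hz, Matrix.smul_mulVec, Matrix.one_mulVec]
        rwa [MulEquiv.apply_symm_apply] at h2
      have h3 := hsc g (Om_le hg) v0 z hv0 h1
      rw [h3, one_smul] at h1
      exact hcon v0 hv0 h1)
    have hv00 : v ≠ 0 := by
      rintro rfl
      exact hv (QuadraticMap.map_zero Q)
    have hWs : Submodule.span F {v} = W := by
      apply Submodule.eq_of_le_of_finrank_eq
      · rw [Submodule.span_singleton_le_iff_mem]; exact hvW
      · rw [hW1, finrank_span_singleton hv00]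
    have h2 : g v ∈ W := by
      have h3 := hW (Submodule.mem_map_of_mem hvW)
      rw [Matrix.toLin'_apply, ← le_apply, MulEquiv.apply_symm_apply] at h3
      exact h3
    rw [← hWs] at h2
    obtain ⟨c, hc⟩ := Submodule.mem_span_singleton.1 h2
    have h3 := hsc g (Om_le hg) v c hv hc.symm
    rw [h3, one_smul] at hc
    exact hcon v hv hc.symm
  · intro H x hx ⟨z, hz⟩ hxz
    have hxO := (mem_omegaGL_iff x).1 hx
    have hz1 : z = 1 := by
      apply hsc (le x ^ r) ((O Q).pow_mem (Om_le hxO) r) v0 z hv0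
      rw [← map_pow, le_apply, hz, Matrix.smul_mulVec, Matrix.one_mulVec]
    obtain ⟨v, hv, hgv⟩ := H (le x) hxO (by
      rw [← map_pow]
      have : x ^ r = 1 := Units.ext (by rw [hz, hz1, one_smul]; rfl)
      rw [this, map_one]) (by
      intro h
      apply hxz 1
      have h1 : x = 1 := by
        rw [← map_one (le (ι := ι) (F := F))] at h
        exact le.injective h
      rw [h1, one_smul]; rfl)
    have hv00 : v ≠ 0 := by
      rintro rfl
      exact hv (QuadraticMap.map_zero Q)
    refine ⟨Submodule.span F {v}, ⟨finrank_span_singleton hv00, v, Submodule.mem_span_singleton_self _, hv⟩, ?_⟩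
    rw [Submodule.map_span_le]
    intro w hw
    rw [Set.mem_singleton_iff] at hw
    subst hw
    rw [Matrix.toLin'_apply, ← le_apply, hgv]
    exact Submodule.mem_span_singleton_self _

end gen

section inv
variable {F : Type u} [Field F] [Finite F] [CharP F 2]
variable {V : Type v} [AddCommGroup V] [Module F V] [FiniteDimensional F V] {Q : QuadraticForm F V}

theorem even_of_mem_Om (hQ : Nd Q) (hgen : GenHyp Q) {g : V ≃ₗ[F] V} (hg : g ∈ Om Q) : Even (finrank F (mov g)) := by
  have h := ((mem_Om_iff_homs hQ hgen ⟨g, Om_le hg⟩).1 hg).1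
  exact sgn_eq_one_iff.1 h

theorem isSquare_two (c : F) : IsSquare c := by
  have hF := Fintype.ofFinite F
  exact FiniteField.isSquare_of_char_two (F := F) (ringChar.eq_iff.2 inferInstance) c

theorem mem_Om_of_even (hQ : Nd Q) (hgen : GenHyp Q) {g : V ≃ₗ[F] V} (hg : g ∈ O Q) (he : Even (finrank F (mov g))) : g ∈ Om Q := by
  refine (mem_Om_iff_homs hQ hgen ⟨g, hg⟩).2 ⟨sgn_true he, sgn_true (isSquare_two _)⟩

theorem mem_Om_of_odd (hQ : Nd Q) (hgen : GenHyp Q) {g : V ≃ₗ[F] V} (hg : g ∈ O Q) {r : ℕ} (hr : Odd r) (hgr : g ^ r = 1) : g ∈ Om Q := by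
  refine (mem_Om_iff_homs hQ hgen ⟨g, hg⟩).2 ⟨?_, sgn_true (isSquare_two _)⟩
  set h := parHom hQ (hQ.R_eq_O hgen) with hh
  have h1 : (h ⟨g, hg⟩) ^ r = 1 := by
    rw [← map_pow]
    have : (⟨g, hg⟩ : ↥(O Q)) ^ r = 1 := Subtype.ext hgr
    rw [this, map_one]
  obtain ⟨k, rfl⟩ := hr
  rw [pow_succ, pow_mul, Int.units_sq, one_pow, one_mul] at h1
  exact h1

/-- involutions with only singular fixed vectors -/
theorem inv_cases (hQ : Nd Q) (hgen : GenHyp Q) {d : ℕ} (hd : finrank F V = 2 * d) {g : V ≃ₗ[F] V} (hg : g ∈ Om Q)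
    (hg2 : g ^ 2 = 1) (hfix : ∀ v, Q v ≠ 0 → g v ≠ v) :
    Even d ∧ ∃ W : Submodule F V, (∀ w ∈ W, Q w = 0) ∧ finrank F W = d := by
  have hgO := Om_le hg
  have hts : ∀ w ∈ fixS g, Q w = 0 := by
    intro w hw
    by_contra h
    exact hfix w h (mem_fixS.1 hw)
  have hpol : ∀ x ∈ fixS g, ∀ y ∈ fixS g, polar Q x y = 0 := by
    intro x hx y hy
    rw [polar, hts _ ((fixS g).add_mem hx hy), hts x hx, hts y hy]; simp
  have h1 : mov g ≤ fixS g := by
    intro v hv
    obtain ⟨x, hx⟩ := mem_mov.1 hv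
    rw [mem_fixS, ← hx, map_sub]
    have h2 : g (g x) = x := by
      have := LinearEquiv.congr_fun hg2 x
      rwa [pow_two] at this
    rw [h2]
    have h3 : (x - g x) - (g x - x) = (2 : F) • (x - g x) := by rw [two_smul]; abel
    rw [← sub_eq_zero, h3, CharTwo.two_eq_zero, zero_smul]
  have h2 : fixS g ≤ mov g := by
    rw [hQ.mov_eq hgO]
    intro v hv
    rw [mem_perp]
    intro w hw
    exact hpol w hw v hv
  have h3 : mov g = fixS g := le_antisymm h1 h2
  have h4 := finrank_mov_add_fixS g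
  have h5 := even_of_mem_Om hQ hgen hg
  rw [h3] at h4 h5
  have h6 : finrank F (fixS g) = d := by omega
  rw [h6] at h5
  exact ⟨h5, fixS g, hts, h6⟩

end inv

section plus
variable (F : Type u) [Field F] [Finite F] [CharP F 2]

theorem exists_inv {d : ℕ} (hd : Even d) (hd1 : 1 ≤ d) (hgen : GenHyp (quadPlus d F)) :
    ∃ g ∈ Om (quadPlus d F), g ^ 2 = 1 ∧ g ≠ 1 ∧ ∀ v, quadPlus d F v ≠ 0 → g v ≠ v := by
  classical
  obtain ⟨k, rfl⟩ := hd
  let e : Fin k ⊕ Fin k ≃ Fin (k + k) := finSumFinEquiv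
  let s : Fin (k + k) → Fin (k + k) := fun i => e (Sum.swap (e.symm i))
  have hss : ∀ i, s (s i) = i := by
    intro i
    show e (Sum.swap (e.symm (e (Sum.swap (e.symm i))))) = i
    rw [Equiv.symm_apply_apply, Sum.swap_swap, Equiv.apply_symm_apply]
  have hsi : ∀ i, s i ≠ i := by
    intro i h
    have h1 : Sum.swap (e.symm i) = e.symm i := by
      rw [Equiv.eq_symm_apply]; exact h
    generalize e.symm i = j at h1
    rcases j with j | j <;> simp at h1
  have hQv : ∀ v : Fin (k + k) ⊕ Fin (k + k) → F, quadPlus (k + k) F v = ∑ i, v (Sum.inl i) * v (Sum.inr i) := fun v => rfl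
  have halt : ∀ y : Fin (k + k) → F, ∑ i, y (s i) * y i = 0 := by
    intro y
    apply Finset.sum_involution (fun i _ => s i)
    · intro i _
      rw [hss]
      have : y (s i) * y i + y i * y (s i) = (2 : F) * (y i * y (s i)) := by ring
      rw [this, CharTwo.two_eq_zero, zero_mul]
    · intro i _ _
      exact hsi i
    · intro i _; exact Finset.mem_univ _
    · intro i _; exact hss i
  let f : (Fin (k + k) ⊕ Fin (k + k) → F) →ₗ[F] (Fin (k + k) ⊕ Fin (k + k) → F) :=
    { toFun := fun v j => Sum.elim (fun i => v (Sum.inl i) + v (Sum.inr (s i))) (fun i => v (Sum.inr i)) j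
      map_add' := by
        intro u v
        ext j
        rcases j with i | i
        · simp only [Sum.elim_inl, Pi.add_apply]; ring
        · simp only [Sum.elim_inr, Pi.add_apply]
      map_smul' := by
        intro c v
        ext j
        rcases j with i | i
        · simp only [Sum.elim_inl, Pi.smul_apply, smul_eq_mul, RingHom.id_apply]; ring
        · simp only [Sum.elim_inr, Pi.smul_apply, smul_eq_mul, RingHom.id_apply] }
  have hf1 : ∀ v i, f v (Sum.inl i) = v (Sum.inl i) + v (Sum.inr (s i)) := fun v i => rfl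
  have hf2 : ∀ v i, f v (Sum.inr i) = v (Sum.inr i) := fun v i => rfl
  have hfQ : ∀ v, quadPlus (k + k) F (f v) = quadPlus (k + k) F v := by
    intro v
    rw [hQv, hQv]
    have h1 : ∀ i, f v (Sum.inl i) * f v (Sum.inr i) = v (Sum.inl i) * v (Sum.inr i) + v (Sum.inr (s i)) * v (Sum.inr i) := by
      intro i
      rw [hf1, hf2]; ring
    rw [Finset.sum_congr rfl fun i _ => h1 i, Finset.sum_add_distrib, halt (fun i => v (Sum.inr i)), add_zero]
  let g := ofMap (nd_quadPlus : Nd (quadPlus (k + k) F)) f hfQ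
  have hg1 : ∀ v i, g v (Sum.inl i) = v (Sum.inl i) + v (Sum.inr (s i)) := fun v i => rfl
  have hg2 : ∀ v i, g v (Sum.inr i) = v (Sum.inr i) := fun v i => rfl
  have hgO : g ∈ O (quadPlus (k + k) F) := ofMap_mem _ _ _
  have hfixiff : ∀ v, g v = v ↔ ∀ i, v (Sum.inr i) = 0 := by
    intro v
    constructor
    · intro h i
      have h1 := congrFun h (Sum.inl (s i))
      rw [hg1, hss] at h1
      exact add_eq_left.1 h1
    · intro h
      ext j
      rcases j with i | i
      · rw [hg1, h, add_zero]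
      · rw [hg2]
  have hfix : ∀ v, quadPlus (k + k) F v ≠ 0 → g v ≠ v := by
    intro v hv h
    apply hv
    rw [hQv]
    apply Finset.sum_eq_zero
    intro i _
    rw [(hfixiff v).1 h, mul_zero]
  refine ⟨g, mem_Om_of_even nd_quadPlus hgen hgO ?_, ?_, ?_, hfix⟩
  · have hmov : finrank F (fixS g) = k + k := by
      let ψ : (Fin (k + k) → F) →ₗ[F] (Fin (k + k) ⊕ Fin (k + k) → F) :=
        { toFun := fun y j => Sum.elim y (fun _ => 0) j
          map_add' := by
            intro u v
            ext j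
            rcases j with i | i <;> simp
          map_smul' := by
            intro c v
            ext j
            rcases j with i | i <;> simp }
      have hψ : Function.Injective ψ := by
        intro u v h
        ext i
        exact congrFun h (Sum.inl i)
      have hr : LinearMap.range ψ = fixS g := by
        ext v
        rw [mem_fixS, hfixiff, LinearMap.mem_range]
        constructor
        · rintro ⟨y, rfl⟩ i
          rfl
        · intro h
          refine ⟨fun i => v (Sum.inl i), ?_⟩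
          ext j
          rcases j with i | i
          · rfl
          · exact (h i).symm
      rw [← hr, LinearMap.finrank_range_of_inj hψ, Module.finrank_fintype_fun_eq_card, Fintype.card_fin]
    have h4 := finrank_mov_add_fixS g
    rw [hmov, finrank_plus] at h4
    have : finrank F (mov g) = k + k := by omega
    rw [this]
    exact ⟨k, rfl⟩
  · ext1 v
    rw [pow_two]
    show g (g v) = v
    ext j
    rcases j with i | i
    · rw [hg1, hg1, hg2]
      have : v (Sum.inl i) + v (Sum.inr (s i)) + v (Sum.inr (s i)) = v (Sum.inl i) + (2 : F) * v (Sum.inr (s i)) := by ring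
      rw [this, CharTwo.two_eq_zero, zero_mul, add_zero]
    · rw [hg2, hg2]
  · intro h
    have i0 : Fin (k + k) := ⟨0, by omega⟩
    have h1 := (hfixiff (fun _ => 1)).1 (by rw [h]; rfl) i0
    exact one_ne_zero h1

end plus

section tor
variable {F : Type u} [Field F] [Finite F] [CharP F 2] {χ : AddChar F ℤ}
variable {V : Type v} [AddCommGroup V] [Module F V] [FiniteDimensional F V] {Q : QuadraticForm F V}
variable {V' : Type w} [AddCommGroup V'] [Module F V'] [FiniteDimensional F V'] {Q' : QuadraticForm F V'}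

omit [Finite F] [CharP F 2] [FiniteDimensional F V] [FiniteDimensional F V'] in
/-- transport of a semiregular element -/
theorem transport (e : V' ≃ₗ[F] V) (he : ∀ x, Q (e x) = Q' x) {T : V' ≃ₗ[F] V'} (hT : T ∈ O Q') {m : ℕ} (hm : orderOf T = m)
    (hsr : ∀ (k : ℕ) (v : V'), (T ^ k) v = v → v = 0 ∨ T ^ k = 1) {r : ℕ} (hr : r.Prime) (hrm : r ∣ m) (hm0 : m ≠ 0) :
    ∃ g ∈ O Q, g ^ r = 1 ∧ g ≠ 1 ∧ ∀ v, v ≠ 0 → g v ≠ v := by
  obtain ⟨c, hc⟩ := hrm
  have hc0 : c ≠ 0 := by rintro rfl; exact hm0 (by rw [hc, mul_zero])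
  have h1 : T ^ c ≠ 1 := by
    intro h
    have h2 := orderOf_dvd_of_pow_eq_one h
    rw [hm, hc] at h2
    have h3 := Nat.le_of_dvd (Nat.pos_of_ne_zero hc0) h2
    have := hr.two_le
    nlinarith [Nat.pos_of_ne_zero hc0]
  have hmem : conjLE e (T ^ c) ∈ O Q := (conjLE_mem e he (T ^ c)).2 ((O Q').pow_mem hT c)
  refine ⟨conjLE e (T ^ c), hmem, ?_, ?_, ?_⟩
  · rw [← map_pow, ← pow_mul, mul_comm c r, ← hc, ← hm, pow_orderOf_eq_one, map_one]
  · intro h
    apply h1
    rw [← map_one (conjLE e)] at h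
    exact (conjLE e).injective h
  · intro v hv h
    rw [conjLE_apply] at h
    have h2 : (T ^ c) (e.symm v) = e.symm v := by
      rw [LinearEquiv.eq_symm_apply]; exact h
    rcases hsr c _ h2 with h3 | h3
    · exact hv (by simpa using h3)
    · exact h1 h3

end tor

section field
variable (F : Type u) [Field F] [Finite F] [CharP F 2]

theorem exists_aniso : ∃ a b : F, ∀ z₁ z₂ : F, z₁ ^ 2 + a * z₁ * z₂ + b * z₂ ^ 2 = 0 → z₁ = 0 ∧ z₂ = 0 := by
  have h20 : (2 : F) = 0 := CharTwo.two_eq_zero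
  obtain ⟨b, hb⟩ : ∃ b : F, ∀ t : F, t ^ 2 + t ≠ b := by
    by_contra hcon
    push Not at hcon
    have hs : Function.Surjective (fun t : F => t ^ 2 + t) := hcon
    have hi := (Finite.injective_iff_surjective.2 hs)
    have h1 : (0 : F) = 1 := hi (by show (0 : F) ^ 2 + 0 = 1 ^ 2 + 1; linear_combination -h20)
    exact zero_ne_one h1
  refine ⟨1, b, fun z₁ z₂ h => ?_⟩
  have hz : z₂ = 0 := by
    by_contra hz
    apply hb (z₁ / z₂)
    field_simp
    linear_combination h - b * z₂ ^ 2 * h20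
  subst hz
  refine ⟨?_, rfl⟩
  have h1 : z₁ ^ 2 = 0 := by linear_combination h
  exact pow_eq_zero_iff two_ne_zero |>.1 h1

end field

end Cfsg.Agent.Lib.NsPt67
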