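import Mathlib
import Cfsg.Agent.Lib.ORealB67
import Cfsg.Agent.Lib.QuadIndex

/-!
(helper67) Nonsingular points of orthogonal spaces in characteristic two: counting, semiregular elements, involutions.
-/

set_option autoImplicit false
set_option linter.unusedSectionVars false

namespace Cfsg.Agent.Lib.NsPt67

open QuadraticMap Module Cfsg.Agent.Lib.Quad Cfsg.Agent.Lib.GaussSign67

universe u v w

variable {F : Type u} [Field F] [Finite F] {χ : AddChar F ℤ}
variable {V : Type v} [AddCommGroup V] [Module F V] [FiniteDimensional F V] {Q : QuadraticForm F V}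

theorem gs_of_ts (hχ : χ ≠ 1) (hQ : Nd Q) (W : Submodule F V) (hW : ∀ w ∈ W, Q w = 0) (hdim : 2 * finrank F W = finrank F V) :
    gs χ Q = (Nat.card F : ℤ) ^ (finrank F W) := by
  classical
  have hfin : Finite V := Module.finite_of_finite F
  have := Fintype.ofFinite V
  have := Fintype.ofFinite W
  have hWW : ∀ x ∈ W, ∀ y ∈ W, polar Q x y = 0 := by
    intro x hx y hy
    rw [polar, hW _ (W.add_mem hx hy), hW x hx, hW y hy]; simp
  have hperp : perp Q W = W := by
    symm
    apply Submodule.eq_of_le_of_finrank_eq
    · intro x hx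
      rw [mem_perp]
      intro w hw
      exact hWW w hw x hx
    · have := hQ.finrank_add_finrank_perp W
      omega
  have hcard : (Fintype.card W : ℤ) = (Nat.card F : ℤ) ^ (finrank F W) := by
    rw [← Nat.card_eq_fintype_card, Module.natCard_eq_pow_finrank (K := F) (V := W)]
    push_cast; rfl
  have h1 : (Fintype.card W : ℤ) * gs χ Q = (Fintype.card W : ℤ) * (Fintype.card W : ℤ) := by
    have h2 : ∀ w : W, ∑ v : V, χ (Q (v + w)) = gs χ Q := by
      intro w
      rw [gs_eq]
      exact Fintype.sum_equiv (Equiv.addRight (w : V)) _ _ (fun v => rfl)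
    calc (Fintype.card W : ℤ) * gs χ Q = ∑ w : W, ∑ v : V, χ (Q (v + w)) := by
          rw [Finset.sum_congr rfl fun w _ => h2 w, Finset.sum_const, Finset.card_univ, nsmul_eq_mul]
      _ = ∑ v : V, ∑ w : W, χ (Q (v + w)) := Finset.sum_comm
      _ = ∑ v : V, χ (Q v) * (if v ∈ W then (Fintype.card W : ℤ) else 0) := by
          apply Finset.sum_congr rfl
          intro v _
          have h3 : ∀ w : W, χ (Q (v + w)) = χ (Q v) * χ (polar Q v w) := by
            intro w
            rw [Q_add, hW _ w.2, add_zero, AddChar.map_add_eq_mul]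
          rw [Finset.sum_congr rfl fun w _ => h3 w, ← Finset.mul_sum]
          congr 1
          split_ifs with hv
          · rw [Finset.sum_congr rfl fun w _ => by rw [hWW v hv w w.2, AddChar.map_zero_eq_one], Finset.sum_const,
              Finset.card_univ, nsmul_eq_mul, mul_one]
          · let φ : W →ₗ[F] F := (polarBilin Q v) ∘ₗ W.subtype
            have h4 := gs_linear hχ φ (by
              intro h0
              apply hv
              rw [← hperp, mem_perp']
              intro w hw
              exact LinearMap.congr_fun h0 ⟨w, hw⟩)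
            rw [gs_eq] at h4
            exact h4
      _ = ∑ v : V, (if v ∈ W then (Fintype.card W : ℤ) else 0) := by
          apply Finset.sum_congr rfl
          intro v _
          split_ifs with hv
          · rw [hW v hv, AddChar.map_zero_eq_one, one_mul]
          · rw [mul_zero]
      _ = (Fintype.card W : ℤ) * (Fintype.card W : ℤ) := by
          rw [← Finset.sum_filter, Finset.sum_const, nsmul_eq_mul]
          congr 1
          rw [← Fintype.card_subtype]
  have h2 : (Fintype.card W : ℤ) ≠ 0 := by
    exact_mod_cast Fintype.card_ne_zero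
  rw [mul_left_cancel₀ h2 h1, hcard]

section two
variable [CharP F 2]

omit [FiniteDimensional F V] in
theorem sqrt_unique {c : F} (hc : c ≠ 0) : ∃! l : F, l * l * c = 1 := by
  have hF := Fintype.ofFinite F
  obtain ⟨t, ht⟩ := FiniteField.isSquare_of_char_two (F := F) (ringChar.eq_iff.2 inferInstance) c⁻¹
  refine ⟨t, ?_, ?_⟩
  · show t * t * c = 1
    rw [← ht, inv_mul_cancel₀ hc]
  · intro l hl
    have h1 : l * l = t * t := by
      rw [← ht]
      exact eq_inv_of_mul_eq_one_left hl
    have h2 : (l - t) ^ 2 = 0 := by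
      linear_combination h1 - (l * t - t * t) * (CharTwo.two_eq_zero : (2 : F) = 0)
    exact sub_eq_zero.1 (pow_eq_zero_iff two_ne_zero |>.1 h2)

/-- nonsingular points correspond to vectors with `Q v = 1` -/
theorem card_ns : Nat.card {W : Submodule F V // Module.finrank F ↥W = 1 ∧ ∃ v ∈ W, Q v ≠ 0} = Nat.card {v : V // Q v = 1} := by
  symm
  apply Nat.card_eq_of_bijective (fun v : {v : V // Q v = 1} => (⟨Submodule.span F {(v : V)},
    finrank_span_singleton (by intro h; have := v.2; rw [h, QuadraticMap.map_zero] at this; exact zero_ne_one this),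
    v, Submodule.mem_span_singleton_self _, by rw [v.2]; exact one_ne_zero⟩ : {W : Submodule F V // Module.finrank F ↥W = 1 ∧ ∃ v ∈ W, Q v ≠ 0}))
  constructor
  · rintro ⟨v, hv⟩ ⟨w, hw⟩ h
    have h1 : Submodule.span F {v} = Submodule.span F {w} := congrArg Subtype.val h
    have h2 : v ∈ Submodule.span F {w} := by rw [← h1]; exact Submodule.mem_span_singleton_self _
    obtain ⟨c, rfl⟩ := Submodule.mem_span_singleton.1 h2
    apply Subtype.ext
    show c • w = w
    rw [Q_smul, hw] at hv
    have h3 := (sqrt_unique (F := F) one_ne_zero).unique hv (by rw [one_mul, one_mul] : (1 : F) * 1 * 1 = 1)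
    rw [h3, one_smul]
  · rintro ⟨W, hW1, v, hv, hvQ⟩
    obtain ⟨l, hl, -⟩ := sqrt_unique hvQ
    refine ⟨⟨l • v, by rw [Q_smul]; exact hl⟩, ?_⟩
    apply Subtype.ext
    show Submodule.span F {l • v} = W
    have hl0 : l ≠ 0 := by
      rintro rfl
      simp at hl
    have hv0 : v ≠ 0 := by
      rintro rfl
      exact hvQ (QuadraticMap.map_zero Q)
    apply Submodule.eq_of_le_of_finrank_eq
    · rw [Submodule.span_singleton_le_iff_mem]
      exact W.smul_mem l hv
    · rw [hW1, finrank_span_singleton (smul_ne_zero hl0 hv0)]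

/-- the number of vectors with `Q v = 1` -/
theorem card_one (hχ : χ ≠ 1) : (Nat.card F : ℤ) * Nat.card {v : V // Q v = 1} = (Nat.card V : ℤ) - gs χ Q := by
  classical
  have hfin : Finite V := Module.finite_of_finite F
  have := Fintype.ofFinite V
  have := Fintype.ofFinite F
  have hN : ∀ c : F, c ≠ 0 → Nat.card {v : V // Q v = c} = Nat.card {v : V // Q v = 1} := by
    intro c hc
    obtain ⟨l, hl, -⟩ := sqrt_unique hc
    have hl0 : l ≠ 0 := by
      rintro rfl
      simp at hl
    apply Nat.card_eq_of_bijective (fun v : {v : V // Q v = c} => (⟨l • (v : V), by rw [Q_smul, v.2]; exact hl⟩ : {v : V // Q v = 1}))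
    constructor
    · intro v w h
      have h1 : l • (v : V) = l • (w : V) := congrArg Subtype.val h
      exact Subtype.ext (smul_right_injective V hl0 h1)
    · rintro ⟨w, hw⟩
      refine ⟨⟨l⁻¹ • w, ?_⟩, ?_⟩
      · rw [Q_smul, hw, mul_one]
        have : l * l * c = 1 := hl
        field_simp
        rw [← this]; ring
      · apply Subtype.ext
        show l • l⁻¹ • w = w
        rw [smul_smul, mul_inv_cancel₀ hl0, one_smul]
  set N0 := Nat.card {v : V // Q v = 0} with hN0
  set N1 := Nat.card {v : V // Q v = 1} with hN1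
  have hsum : ∀ f : F → ℤ, ∑ v : V, f (Q v) = f 0 * N0 + ∑ c ∈ Finset.univ.erase (0 : F), f c * N1 := by
    intro f
    rw [← Finset.sum_fiberwise (s := (Finset.univ : Finset V)) (g := fun v => Q v) (f := fun v => f (Q v)),
      ← Finset.add_sum_erase _ _ (Finset.mem_univ (0 : F))]
    have key : ∀ c : F, ∑ v ∈ Finset.univ.filter (fun v : V => Q v = c), f (Q v) = f c * Nat.card {v : V // Q v = c} := by
      intro c
      rw [Finset.sum_congr rfl (fun v hv => by rw [(Finset.mem_filter.1 hv).2] : ∀ v ∈ Finset.univ.filter (fun v : V => Q v = c), f (Q v) = f c),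
        Finset.sum_const, nsmul_eq_mul, mul_comm, Nat.card_eq_fintype_card, Fintype.card_subtype]
    congr 1
    · exact key 0
    · apply Finset.sum_congr rfl
      intro c hc
      rw [← hN c (Finset.ne_of_mem_erase hc)]
      exact key c
  have h1 := hsum (fun _ => 1)
  have h2 := hsum χ
  have hcharsum : ∑ c : F, χ c = 0 := AddChar.sum_eq_zero_of_ne_one hχ
  rw [← Finset.add_sum_erase _ _ (Finset.mem_univ (0 : F)), AddChar.map_zero_eq_one] at hcharsum
  rw [← Finset.sum_mul, AddChar.map_zero_eq_one] at h2
  rw [gs_eq, h2]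
  rw [Finset.sum_const, Finset.card_univ, nsmul_eq_mul, mul_one, Finset.sum_const, Finset.card_erase_of_mem (Finset.mem_univ _),
    Finset.card_univ, nsmul_eq_mul, ← Nat.card_eq_fintype_card, ← Nat.card_eq_fintype_card] at h1
  have hq1 : 1 ≤ Nat.card F := Nat.card_pos
  rw [Nat.cast_sub hq1] at h1
  rw [h1]
  push_cast
  linear_combination (N1 : ℤ) * hcharsum

end two

end Cfsg.Agent.Lib.NsPt67
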