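import Mathlib
import Cfsg.Agent.Lib.NseTools

/-!
# Numbers of elements of a given order, modulo a prime (helper7)
-/

set_option autoImplicit false
set_option linter.all false

namespace Cfsg.Agent.Lib.NseEleven

open Subgroup Cfsg.Agent.Lib.NseTools

universe u

variable {G : Type u} [Group G] [Finite G]

/-- if the centralizer of an element of order `p` has order `p`, the number of elements of order `n` is divisible by `p` -/
theorem dvd_card_orderOf {p : ℕ} [hp : Fact p.Prime] {z : G} (hz : orderOf z = p)
    (hC : Nat.card (centralizer ({z} : Set G)) = p) {n : ℕ} (hn1 : n ≠ 1) (hnp : n ≠ p) :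
    p ∣ Nat.card {g : G // orderOf g = n} := by
  classical
  have ho : ∀ (h g : G), orderOf (h * g * h⁻¹) = orderOf g := by
    intro h g
    exact orderOf_injective (MulAut.conj h).toMonoidHom (MulAut.conj h).injective g
  letI act : MulAction (zpowers z) {g : G // orderOf g = n} :=
    { smul := fun h g => ⟨(h : G) * g.1 * (h : G)⁻¹, by rw [ho]; exact g.2⟩
      one_smul := by
        intro g
        apply Subtype.ext
        show ((1 : zpowers z) : G) * g.1 * ((1 : zpowers z) : G)⁻¹ = g.1
        simp
      mul_smul := by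
        intro a b g
        apply Subtype.ext
        show ((a * b : zpowers z) : G) * g.1 * ((a * b : zpowers z) : G)⁻¹ = (a : G) * ((b : G) * g.1 * (b : G)⁻¹) * (a : G)⁻¹
        rw [Subgroup.coe_mul]; group }
  have hpg : IsPGroup p (zpowers z) := IsPGroup.of_card (n := 1) (by rw [Nat.card_zpowers, hz, pow_one])
  have h1 := hpg.card_modEq_card_fixedPoints {g : G // orderOf g = n}
  have h2 : IsEmpty (MulAction.fixedPoints (zpowers z) {g : G // orderOf g = n}) := by
    refine ⟨fun g => ?_⟩
    have h3 : z * g.1.1 * z⁻¹ = g.1.1 := congrArg Subtype.val (g.2 ⟨z, mem_zpowers z⟩)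
    have h4 : g.1.1 ∈ centralizer ({z} : Set G) := by
      rw [mem_centralizer_singleton_iff]
      calc g.1.1 * z = (z * g.1.1 * z⁻¹) * z := by rw [h3]
        _ = z * g.1.1 := by group
    have h5 := orderOf_dvd_natCard (⟨g.1.1, h4⟩ : centralizer ({z} : Set G))
    rw [hC, Subgroup.orderOf_mk, g.1.2] at h5
    rcases (Nat.dvd_prime hp.out).1 h5 with h6 | h6
    · exact hn1 h6
    · exact hnp h6
  have h3 : Nat.card (MulAction.fixedPoints (zpowers z) {g : G // orderOf g = n}) = 0 := Nat.card_of_isEmpty
  rw [h3] at h1
  exact (Nat.modEq_zero_iff_dvd).1 h1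

theorem card_orderOf_one : Nat.card {g : G // orderOf g = 1} = 1 := by
  have : Unique {g : G // orderOf g = 1} :=
    { default := ⟨1, orderOf_one⟩
      uniq := fun g => Subtype.ext (orderOf_eq_one_iff.1 g.2) }
  exact Nat.card_unique

end Cfsg.Agent.Lib.NseEleven
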