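import Cfsg.Agent.Lib.OFldZ
import Cfsg.Agent.Lib.PSpBal

set_option autoImplicit false
set_option linter.unusedSectionVars false

/-!
# Local balance for orthogonal socles: field automorphisms (helper21)

* `SS D` : the image of `Ω(Q₀)` in the automorphism group of `PΩ(Q)`.
* `comm_E`, `rigid` : semisimilarities centralising `SS D`.
* `balance_fd`.
-/

namespace Cfsg.Agent.Lib.OBal

open Matrix QuadraticMap Module
open Cfsg.Agent.Lib.Quad Cfsg.Agent.Lib.ClOrthSiegel Cfsg.Agent.Lib.ClOmega Cfsg.Agent.Lib.POmAut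
open Cfsg.Agent.Lib.Descent Cfsg.Agent.Lib.OFld
open Cfsg.Agent.Lib.OAut (Semi H2)
open Cfsg.Agent.Lib.PSLAut (quotAut aut_ext)

/-! ### semisimilarities commuting with Siegel transformations over a subfield -/

section Rigid

variable {ι : Type} [Fintype ι] [DecidableEq ι] {F : Type*} [Field F] {F₀ : Type*} [Field F₀]
  {σ : F ≃+* F} {ι₀ : F₀ →+* F} {Q : QuadraticForm F (ι → F)} {Q₀ : QuadraticForm F₀ (ι → F₀)}

theorem E_ex (hQ : Nd Q) (hQ₀ : Nd Q₀) (D : Ds σ ι₀ Q Q₀) {z y : ι → F₀} (hz : Q₀ z = 0) (hzy : polar Q₀ z y = 0)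
    (u : ι → F₀) : E hQ (ex ι₀ z) (ex ι₀ y) (ex ι₀ u) = ex ι₀ (E hQ₀ z y u) := by
  rw [E_apply hQ (by rw [D.base, hz, map_zero]) (by rw [D.polar_ex, hzy, map_zero]), E_apply hQ₀ hz hzy, D.polar_ex,
    D.polar_ex, D.base]
  ext i
  simp [ex]

/-- the extension of a Siegel transformation -/
theorem miG_E (hQ : Nd Q) (hQ₀ : Nd Q₀) (D : Ds σ ι₀ Q Q₀) {z y : ι → F₀} (hz : Q₀ z = 0) (hzy : polar Q₀ z y = 0) :
    D.miG (iO Q₀ ⟨E hQ₀ z y, E_mem hQ₀ z y⟩) = iO Q ⟨E hQ (ex ι₀ z) (ex ι₀ y), E_mem hQ _ _⟩ := by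
  refine GO_ext_ex ι₀ fun u => ?_
  rw [D.miG_ex, iO_mulVec, iO_mulVec]
  exact (E_ex hQ hQ₀ D hz hzy u).symm

/-- commutation up to a scalar with a Siegel transformation is commutation -/
theorem comm_E (hQ : Nd Q) (hdim : 5 ≤ finrank F (ι → F)) {s : Semi Q} {z y : ι → F} {u : F}
    (h : ∀ w, s.Φ (E hQ z y w) = u • E hQ z y (s.Φ w)) (w : ι → F) : s.Φ (E hQ z y w) = E hQ z y (s.Φ w) := by
  classical
  obtain ⟨x, hx0, hx⟩ := OAut.Dat.exists_perp hQ (Submodule.span F {z, y, s.Φ.symm z, s.Φ.symm y}) (by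
    have h3 : finrank F (Submodule.span F {z, y, s.Φ.symm z, s.Φ.symm y}) ≤ 4 := by
      have h4 := finrank_span_finset_le_card (R := F) ({z, y, s.Φ.symm z, s.Φ.symm y} : Finset (ι → F))
      have h5 : ({z, y, s.Φ.symm z, s.Φ.symm y} : Finset (ι → F)).card ≤ 4 := Finset.card_le_four
      have h6 : ((({z, y, s.Φ.symm z, s.Φ.symm y} : Finset (ι → F))) : Set (ι → F)) = {z, y, s.Φ.symm z, s.Φ.symm y} := by
        simp
      rw [h6] at h4
      exact le_trans h4 h5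
    omega)
  have e1 : E hQ z y x = x := OAut.Dat.E_fix hQ (hx z (Submodule.subset_span (by simp)))
    (hx y (Submodule.subset_span (by simp)))
  have p1 : ∀ v, polar Q (s.Φ.symm v) x = 0 → polar Q v (s.Φ x) = 0 := by
    intro v hv
    have := s.polar_map (s.Φ.symm v) x
    rw [AddEquiv.apply_symm_apply, hv, map_zero, mul_zero] at this
    exact this
  have e2 : E hQ z y (s.Φ x) = s.Φ x := OAut.Dat.E_fix hQ (p1 z (hx _ (Submodule.subset_span (by simp))))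
    (p1 y (hx _ (Submodule.subset_span (by simp))))
  have h1 := h x
  rw [e1, e2] at h1
  have hΦ : s.Φ x ≠ 0 := fun h' => hx0 ((map_eq_zero_iff s.Φ s.Φ.injective).1 h')
  have hu : u = 1 := by
    have : (1 - u) • s.Φ x = 0 := by rw [sub_smul, one_smul, ← h1, sub_self]
    rcases smul_eq_zero.1 this with h2 | h2
    · exact (sub_eq_zero.1 h2).symm
    · exact absurd h2 hΦ
  rw [h, hu, one_smul]

/-- a semisimilarity commuting with all Siegel transformations over the subfield -/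
theorem rigid (hQ : Nd Q) (D : Ds σ ι₀ Q Q₀) {s : Semi Q} {e₁ e₂ f₁ f₂ : ι → F₀} (H : H2 Q₀ e₁ e₂ f₁ f₂)
    (h : ∀ z y : ι → F₀, Q₀ z = 0 → polar Q₀ z y = 0 → ∀ w, s.Φ (E hQ (ex ι₀ z) (ex ι₀ y) w) =
      E hQ (ex ι₀ z) (ex ι₀ y) (s.Φ w)) :
    (∃ l : F, l ≠ 0 ∧ ∀ u : ι → F₀, s.Φ (ex ι₀ u) = l • ex ι₀ u) ∧ ∀ y, s.σ (ι₀ y) = ι₀ y := by
  -- the action of `E - 1`
  have key : ∀ z y : ι → F₀, Q₀ z = 0 → polar Q₀ z y = 0 → ∀ w,
      s.Φ (polar Q (ex ι₀ z) w • ex ι₀ y - polar Q (ex ι₀ y) w • ex ι₀ z - (ι₀ (Q₀ y) * polar Q (ex ι₀ z) w) • ex ι₀ z) =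
      polar Q (ex ι₀ z) (s.Φ w) • ex ι₀ y - polar Q (ex ι₀ y) (s.Φ w) • ex ι₀ z -
        (ι₀ (Q₀ y) * polar Q (ex ι₀ z) (s.Φ w)) • ex ι₀ z := by
    intro z y hz hzy w
    have h1 := h z y hz hzy w
    have hz' : Q (ex ι₀ z) = 0 := by rw [D.base, hz, map_zero]
    have hzy' : polar Q (ex ι₀ z) (ex ι₀ y) = 0 := by rw [D.polar_ex, hzy, map_zero]
    rw [E_apply hQ hz' hzy', E_apply hQ hz' hzy', D.base] at h1
    have h2 : s.Φ (polar Q (ex ι₀ z) w • ex ι₀ y - polar Q (ex ι₀ y) w • ex ι₀ z -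
        (ι₀ (Q₀ y) * polar Q (ex ι₀ z) w) • ex ι₀ z) =
        s.Φ (w + polar Q (ex ι₀ z) w • ex ι₀ y - polar Q (ex ι₀ y) w • ex ι₀ z -
        (ι₀ (Q₀ y) * polar Q (ex ι₀ z) w) • ex ι₀ z) - s.Φ w := by
      rw [← map_sub]; congr 1; abel
    rw [h2, h1]; abel
  -- for two singular vectors
  have hE1 : ∀ {e₁ e₂ f₁ f₂ : ι → F₀}, H2 Q₀ e₁ e₂ f₁ f₂ → ∀ c : F₀,
      s.Φ (ι₀ c • ex ι₀ e₁) = (ι₀ c * polar Q (ex ι₀ e₂) (s.Φ (ex ι₀ f₂))) • ex ι₀ e₁ := by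
    intro e₁ e₂ f₁ f₂ H c
    have a1 := key e₁ (c • e₂) H.qe1 (by rw [polar_smul_right, H.ee, smul_zero]) (ex ι₀ f₂)
    have a2 := key e₁ (c • f₂) H.qe1 (by rw [polar_smul_right, H.e1f2, smul_zero]) (ex ι₀ e₂)
    rw [Q_smul, H.qe2, mul_zero, map_zero, D.polar_ex, D.polar_ex, H.e1f2, polar_smul_left, H.e2f2, ex_smul] at a1
    rw [Q_smul, H.qf2, mul_zero, map_zero, D.polar_ex, D.polar_ex, H.ee, polar_smul_left, H.f2e2, ex_smul] at a2
    simp only [map_zero, zero_smul, zero_sub, zero_mul, sub_zero, smul_eq_mul, mul_one] at a1 a2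
    -- compare
    have a3 := a1.symm.trans a2
    rw [polar_smul_left, polar_smul_left] at a3
    have a4 := congrArg (polar Q (ex ι₀ f₂)) a3
    simp only [polar_sub_right, polar_smul_right, D.polar_ex, H.f2e2, H.f2e1, polar_self, H.qf2, map_one, map_zero,
      smul_eq_mul, mul_one, mul_zero, sub_zero, smul_zero] at a4
    rw [smul_smul, a4, zero_smul, zero_sub, polar_smul_left, map_neg, neg_inj, smul_eq_mul] at a1
    exact a1
  have hl : s.Φ (ex ι₀ e₁) = polar Q (ex ι₀ e₂) (s.Φ (ex ι₀ f₂)) • ex ι₀ e₁ := by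
    have := hE1 H 1
    rwa [map_one, one_smul, one_mul] at this
  set l := polar Q (ex ι₀ e₂) (s.Φ (ex ι₀ f₂)) with hldef
  have hm : s.Φ (ex ι₀ f₁) = polar Q (ex ι₀ f₂) (s.Φ (ex ι₀ e₂)) • ex ι₀ f₁ := by
    have := hE1 H.flip 1
    rwa [map_one, one_smul, one_mul] at this
  set μ := polar Q (ex ι₀ f₂) (s.Φ (ex ι₀ e₂)) with hmdef
  have he1 : ex ι₀ e₁ ≠ 0 := by
    intro h0
    have h1 := D.polar_ex e₁ f₁
    rw [h0, H.e1f1, polar_zero_left, map_one] at h1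
    exact zero_ne_one h1
  have hlm : l = μ := by
    have h1 := hE1 H.flip2 1
    rw [map_one, one_smul, one_mul, hl] at h1
    exact smul_left_injective F he1 h1
  have hl0 : l ≠ 0 := by
    intro h0
    rw [h0, zero_smul] at hl
    exact he1 ((map_eq_zero_iff s.Φ s.Φ.injective).1 hl)
  have hE1' : ∀ c : F₀, s.Φ (ι₀ c • ex ι₀ e₁) = l • ι₀ c • ex ι₀ e₁ := fun c => by
    rw [hE1 H, smul_smul, mul_comm]
  have hF1' : ∀ c : F₀, s.Φ (ι₀ c • ex ι₀ f₁) = l • ι₀ c • ex ι₀ f₁ := fun c => by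
    rw [hE1 H.flip, smul_smul, mul_comm, hlm]
  refine ⟨⟨l, hl0, fun u => ?_⟩, fun y => ?_⟩
  · -- the perpendicular part
    have hperp : ∀ v : ι → F₀, polar Q₀ e₁ v = 0 → polar Q₀ f₁ v = 0 → s.Φ (ex ι₀ v) = l • ex ι₀ v := by
      intro v h1 h2
      have a1 := key e₁ v H.qe1 h1 (ex ι₀ f₁)
      have h2' : polar Q₀ v f₁ = 0 := by rw [polar_comm, h2]
      rw [hm, ← hlm, D.polar_ex, D.polar_ex, H.e1f1, h2', polar_smul_right, polar_smul_right, D.polar_ex, D.polar_ex,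
        H.e1f1, h2'] at a1
      simp only [map_one, map_zero, one_smul, zero_smul, sub_zero, mul_one, smul_eq_mul, map_sub] at a1
      rw [hE1', sub_eq_iff_eq_add] at a1
      rw [a1, smul_smul, mul_zero, zero_smul, sub_zero, mul_comm l (ι₀ _), sub_add_cancel]
    have hdec : u = (polar Q₀ f₁ u) • e₁ + (polar Q₀ e₁ u) • f₁ + (u - (polar Q₀ f₁ u) • e₁ - (polar Q₀ e₁ u) • f₁) := by
      abel
    have h3 := hperp (u - (polar Q₀ f₁ u) • e₁ - (polar Q₀ e₁ u) • f₁) (by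
        rw [polar_sub_right, polar_sub_right, polar_smul_right, polar_smul_right, polar_self, H.qe1, H.e1f1]
        simp) (by
        rw [polar_sub_right, polar_sub_right, polar_smul_right, polar_smul_right, polar_self, H.qf1, H.f1e1]
        simp)
    rw [hdec, ex_add, ex_add, map_add, map_add, h3, ex_smul, ex_smul, hE1', hF1', smul_add, smul_add]
  · have h1 := hE1' y
    rw [s.smul, hl, smul_smul, smul_smul] at h1
    have h2 := smul_left_injective F he1 h1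
    rw [mul_comm] at h2
    exact mul_left_cancel₀ hl0 h2

end Rigid

/-! ### the abstract data for local balance -/

section Abs

variable {G : Type*} [Group G] {G' : Type*} [Group G']

/-- the data needed for the local balance criterion -/
def Bal (I : Subgroup G) (p : ℕ) (x : G) : Prop :=
  ∃ S : Subgroup G, S ≤ I ⊓ Subgroup.centralizer {x} ∧
    (∀ c ∈ I ⊓ Subgroup.centralizer {x}, ∀ s ∈ S, c * s * c⁻¹ ∈ S) ∧ S ≠ ⊥ ∧
    (∀ N : Subgroup G, N ≤ S → (∀ s ∈ S, ∀ n ∈ N, s * n * s⁻¹ ∈ N) → N ≠ ⊥ → (Nat.card N).Coprime p →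
      (Nat.card ↥(I ⊓ Subgroup.centralizer {x})).Coprime p) ∧
    ∀ g : G, (∀ s ∈ S, g * s = s * g) → ∃ k, g ^ (p ^ k) = 1

theorem Bal.iff [Finite G] {I A : Subgroup G} (hI : I.Normal) (hIA : I ≤ A) {p : ℕ} {x y : G} (h : Bal I p x) (α : G)
    (hxy : y = α * x * α⁻¹) :
    Cfsg.pPrimeCore p ↥(A ⊓ Subgroup.centralizer {y}) ≠ ⊥ ↔ (Nat.card ↥(I ⊓ Subgroup.centralizer {y})).Coprime p := by
  obtain ⟨S, h1, h2, h3, h4, h5⟩ := h
  exact LBal.local_balance_conj hI hIA α hxy h1 h2 h3 h4 h5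

/-- if `S` is a simple group containing the fourth powers of `C_I(x)` -/
theorem bal_of_simple {I S : Subgroup G} {p : ℕ} [Finite G] (hp : p.Prime) {x : G} (hS : S ≤ I ⊓ Subgroup.centralizer {x})
    (hSn : ∀ c ∈ I ⊓ Subgroup.centralizer {x}, ∀ s ∈ S, c * s * c⁻¹ ∈ S) (hS1 : S ≠ ⊥)
    (hsimp : ∀ N : Subgroup G, N ≤ S → (∀ s ∈ S, ∀ n ∈ N, s * n * s⁻¹ ∈ N) → N ≠ ⊥ → N = S)
    (h4 : ∀ c ∈ I ⊓ Subgroup.centralizer {x}, c ^ 4 ∈ S) (h2 : p = 2 → 2 ∣ Nat.card S)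
    (h5 : ∀ g : G, (∀ s ∈ S, g * s = s * g) → ∃ k, g ^ (p ^ k) = 1) : Bal I p x := by
  refine ⟨S, hS, hSn, hS1, ?_, h5⟩
  intro N hN hNn hN1 hNc
  have e := hsimp N hN hNn hN1
  subst e
  by_contra hcop
  have hdvd : p ∣ Nat.card ↥(I ⊓ Subgroup.centralizer {x}) := by
    by_contra hnd
    exact hcop ((Nat.Prime.coprime_iff_not_dvd hp).2 hnd).symm
  rcases Nat.eq_or_lt_of_le hp.two_le with h | h
  · subst h
    exact absurd (Nat.Coprime.eq_one_of_dvd hNc.symm (h2 rfl)) (by norm_num)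
  · have := Fact.mk hp
    obtain ⟨c, hc⟩ := exists_prime_orderOf_dvd_card' (G := ↥(I ⊓ Subgroup.centralizer {x})) p hdvd
    have h6 : (c : G) ^ 4 ∈ N := h4 c c.2
    have h7 : (4 : ℕ).Coprime p := by
      rw [Nat.coprime_comm, Nat.Prime.coprime_iff_not_dvd hp]
      intro hd
      have h8 : p ∣ 2 ^ 2 := by norm_num; exact hd
      have := Nat.le_of_dvd (by norm_num) (hp.dvd_of_dvd_pow h8)
      omega
    have h8 : orderOf ((c : G) ^ 4) = p := by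
      rw [Nat.Coprime.orderOf_pow (by rw [Subgroup.orderOf_coe, hc]; exact h7.symm), Subgroup.orderOf_coe, hc]
    have h9 : p ∣ Nat.card N := by
      have h10 := orderOf_dvd_natCard (⟨(c : G) ^ 4, h6⟩ : N)
      rwa [Subgroup.orderOf_mk, h8] at h10
    exact hp.one_lt.ne' (Nat.Coprime.eq_one_of_dvd hNc.symm h9)

theorem simple_image {Om : Type*} [Group Om] (φ : Om →* G) [hs : IsSimpleGroup (Om ⧸ Subgroup.center Om)]
    (hc : ∀ z ∈ Subgroup.center Om, φ z = 1) {S N : Subgroup G} (hS : ∀ x, x ∈ S ↔ ∃ t, φ t = x) (hN : N ≤ S)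
    (hn : ∀ s ∈ S, ∀ n ∈ N, s * n * s⁻¹ ∈ N) (h1 : N ≠ ⊥) : N = S := by
  set M := (N.comap φ).map (QuotientGroup.mk' (Subgroup.center Om)) with hM
  have hMn : M.Normal := by
    have h2 : (N.comap φ).Normal := by
      constructor
      intro t ht s
      rw [Subgroup.mem_comap, map_mul, map_mul, map_inv]
      exact hn _ ((hS _).2 ⟨s, rfl⟩) _ ht
    exact h2.map _ (QuotientGroup.mk'_surjective _)
  rcases hMn.eq_bot_or_eq_top with h | h
  · exfalso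
    apply h1
    rw [eq_bot_iff]
    intro x hx
    obtain ⟨t, rfl⟩ := (hS x).1 (hN hx)
    have h2 : (QuotientGroup.mk' (Subgroup.center Om)) t ∈ M := ⟨t, hx, rfl⟩
    rw [h, Subgroup.mem_bot] at h2
    exact hc t ((QuotientGroup.eq_one_iff t).1 h2)
  · refine le_antisymm hN ?_
    intro x hx
    obtain ⟨t, rfl⟩ := (hS x).1 hx
    have h2 : (QuotientGroup.mk' (Subgroup.center Om)) t ∈ M := by rw [h]; trivial
    obtain ⟨t', ht', e⟩ := h2
    have h3 : t'⁻¹ * t ∈ Subgroup.center Om := QuotientGroup.eq.1 e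
    have h4 : φ t = φ t' := by
      have := hc _ h3
      rw [map_mul, map_inv, inv_mul_eq_one] at this
      exact this.symm
    rw [h4]
    exact ht'

end Abs

/-! ### the subgroup `Ω(Q₀)` -/

section SS

variable {ι : Type} [Fintype ι] [DecidableEq ι] {F : Type*} [Field F] {F₀ : Type*} [Field F₀]
  {σ : F ≃+* F} {ι₀ : F₀ →+* F} {Q : QuadraticForm F (ι → F)} {Q₀ : QuadraticForm F₀ (ι → F₀)}

/-- the image of `Ω(Q₀)` -/
noncomputable def SS (D : Ds σ ι₀ Q Q₀) : Subgroup (MulAut (Cfsg.POmega F ⇑Q)) := ((OmG Q₀).map D.miG).map dg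

theorem OmG_conj (g : GO Q) {t : GO Q} (ht : t ∈ OmG Q) : g * t * g⁻¹ ∈ OmG Q := by
  obtain ⟨s, hs⟩ := mem_OmG.1 ht
  refine mem_OmG.2 ⟨co g s, ?_⟩
  rw [co_coe, hs]; rfl

theorem miG_OmG [Finite F] (D : Ds σ ι₀ Q Q₀) (hQ : Nd Q) (hQ₀ : Nd Q₀) (hgen : GenHyp Q) (hgen₀ : GenHyp Q₀) {t : GO Q₀}
    (ht : t ∈ OmG Q₀) : D.miG t ∈ OmG Q := by
  have : Finite F₀ := Finite.of_injective ι₀ ι₀.injective
  obtain ⟨s, rfl, hs⟩ := exists_iO_of_mem_OmG ht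
  rw [mem_Om_iff' hQ₀ hgen₀] at hs
  obtain ⟨vs, hvs, rfl⟩ := exists_list_O hQ₀ hgen₀ s
  have e1 : D.miG (iO Q₀ (vs.map (rO Q₀)).prod) = iO Q ((vs.map (ex ι₀)).map (rO Q)).prod := by
    rw [iO_prod_rO, iO_prod_rO, map_list_prod, List.map_map, List.map_map]
    congr 1
    exact List.map_congr_left fun v _ => miG_rf D v
  have hvs' : ∀ v ∈ vs.map (ex ι₀), Q v ≠ 0 := by
    intro v hv
    obtain ⟨u, hu, rfl⟩ := List.mem_map.1 hv
    rw [D.base]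
    exact (map_ne_zero ι₀).2 (hvs u hu)
  rw [e1, iO_mem_OmG, mem_Om_iff' hQ hgen]
  rw [parO_prod hQ₀ hgen₀ vs hvs, spin_prod hQ₀ hgen₀ vs hvs] at hs
  refine ⟨(parO_prod hQ hgen _ hvs').2 (by rw [List.length_map]; exact hs.1), ?_⟩
  refine (spin_prod hQ hgen _ hvs').trans (sgn_true ?_)
  have e2 : ((vs.map (ex ι₀)).map ⇑Q).prod = ι₀ (vs.map ⇑Q₀).prod := by
    rw [map_list_prod, List.map_map, List.map_map]
    congr 1
    exact List.map_congr_left fun v _ => D.base v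
  rw [e2]
  have h3 : IsSquare (vs.map ⇑Q₀).prod := by
    by_contra hn
    have := hs.2
    rw [sgn_false hn] at this
    exact absurd this (by decide)
  exact h3.map ι₀

theorem exists_SS (D : Ds σ ι₀ Q Q₀) {x : MulAut (Cfsg.POmega F ⇑Q)} :
    x ∈ SS D ↔ ∃ t ∈ OmG Q₀, dg (D.miG t) = x := by
  unfold SS
  constructor
  · rintro ⟨_, ⟨t, ht, rfl⟩, rfl⟩
    exact ⟨t, ht, rfl⟩
  · rintro ⟨t, ht, rfl⟩
    exact ⟨_, ⟨t, ht, rfl⟩, rfl⟩

/-- commuting with `SS` -/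
theorem comm_SS (D : Ds σ ι₀ Q Q₀) (h : Gd Q) (d₀ : OAut.Dat Q₀) (hdim : 5 ≤ finrank F (ι → F)) {s : Semi Q}
    (hs : ∀ x ∈ SS D, sa s * x = x * sa s) (z y : ι → F₀) (hz : Q₀ z = 0) (hzy : polar Q₀ z y = 0) (w : ι → F) :
    s.Φ (E h.nd (ex ι₀ z) (ex ι₀ y) w) = E h.nd (ex ι₀ z) (ex ι₀ y) (s.Φ w) := by
  have ht : iO Q₀ ⟨E d₀.nd z y, E_mem d₀.nd z y⟩ ∈ OmG Q₀ := (iO_mem_OmG _).2 (d₀.E_mem_Om z y)
  have h1 := hs _ ((exists_SS D).2 ⟨_, ht, rfl⟩)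
  rw [miG_E h.nd d₀.nd D hz hzy] at h1
  have h2 := sa_cs h s (iO Q ⟨E h.nd (ex ι₀ z) (ex ι₀ y), E_mem h.nd _ _⟩)
  rw [h1, mul_inv_cancel_right] at h2
  obtain ⟨u, hu⟩ := h.dg_eq_dg h2.symm
  refine comm_E h.nd hdim (u := u) (fun w => ?_) w
  have h3 := cs_spec s (iO Q ⟨E h.nd (ex ι₀ z) (ex ι₀ y), E_mem h.nd _ _⟩) w
  rw [hu, GO_mul, sc_mulVec, iO_mulVec, iO_mulVec] at h3
  exact h3.symm

theorem semi_pow_σ (s : Semi Q) (k : ℕ) : (s ^ k).σ = s.σ ^ k := by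
  have : Semi.sig (s ^ k) = (Semi.sig s) ^ k := map_pow _ _ _
  exact this

/-- the powers of a semisimilarity acting by scalars on the subfield points -/
theorem pow_ex {s : Semi Q} {l : F} (hl : ∀ u : ι → F₀, s.Φ (ex ι₀ u) = l • ex ι₀ u) (k : ℕ) :
    ∃ L : F, ∀ u : ι → F₀, (s ^ k).Φ (ex ι₀ u) = L • ex ι₀ u := by
  induction k with
  | zero => exact ⟨1, fun u => by rw [pow_zero, one_smul]; rfl⟩
  | succ k ih =>
    obtain ⟨L, hL⟩ := ih
    refine ⟨(s ^ k).σ l * L, fun u => ?_⟩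
    rw [pow_succ, Semi.mul_Φ, hl, (s ^ k).smul, hL, smul_smul]

/-- the centraliser of `SS D` has exponent dividing the order of `σ` -/
theorem pow_of_comm [Finite F] (D : Ds σ ι₀ Q Q₀) (h : Gd Q) (d₀ : OAut.Dat Q₀) {e₁ e₂ f₁ f₂ : ι → F₀} (H : H2 Q₀ e₁ e₂ f₁ f₂)
    (hdim : 5 ≤ finrank F (ι → F)) {p : ℕ} (hr : orderOf σ = p) {s : Semi Q}
    (hs : ∀ x ∈ SS D, sa s * x = x * sa s) : sa s ^ p = 1 := by
  have := Fintype.ofFinite F
  obtain ⟨⟨l, hl0, hl⟩, hfix⟩ := rigid h.nd D H (s := s) (fun z y hz hzy w => comm_SS D h d₀ hdim hs z y hz hzy w)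
  have h1 : s.σ ∈ Subgroup.zpowers σ := by
    apply FFAut.mem_zpowers_of_fixed
    intro x hx
    obtain ⟨y, rfl⟩ := (D.fix x).1 hx
    exact hfix y
  have h2 : orderOf s.σ ∣ p := by rw [← hr]; exact orderOf_dvd_of_mem_zpowers h1
  have h3 : (s ^ p).σ = 1 := by rw [semi_pow_σ, orderOf_dvd_iff_pow_eq_one.1 h2]
  obtain ⟨g, hg⟩ := exists_toS h h3
  obtain ⟨L, hL⟩ := pow_ex hl p
  have h4 : ∀ u : ι → F₀, g.1.1 *ᵥ ex ι₀ u = L • ex ι₀ u := by
    intro u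
    rw [← toS_Φ h, ← hg, hL]
  have hL0 : L ≠ 0 := by
    rintro rfl
    obtain ⟨x, hx⟩ : ∃ x : ι → F₀, ex ι₀ x ≠ 0 := by
      refine ⟨e₁, fun h0 => ?_⟩
      have h1 := D.polar_ex e₁ f₁
      rw [h0, H.e1f1, polar_zero_left, map_one] at h1
      exact zero_ne_one h1
    have h5 := hL x
    rw [zero_smul] at h5
    exact hx ((map_eq_zero_iff (s ^ p).Φ (s ^ p).Φ.injective).1 h5)
  have h5 : g = sc Q (Units.mk0 L hL0) := GO_ext_ex ι₀ fun u => by rw [h4, sc_mulVec]; rfl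
  rw [← map_pow, hg, sa_toS, h5, dg_sc]

/-- an involution of `PΩ` in odd characteristic -/
theorem two_dvd_SS [Finite F] (D : Ds σ ι₀ Q Q₀) (h : Gd Q) (h₀ : Gd Q₀) (hgen₀ : GenHyp Q₀) (h2 : (2 : F₀) ≠ 0)
    {e₁ e₂ f₁ f₂ : ι → F₀} (H : H2 Q₀ e₁ e₂ f₁ f₂) (hdim : 5 ≤ finrank F₀ (ι → F₀)) : 2 ∣ Nat.card (SS D) := by
  classical
  have : Finite F₀ := Finite.of_injective ι₀ ι₀.injective
  have hv : Q₀ (e₁ + f₁) = 1 := by rw [Q_add, H.qe1, H.qf1, H.e1f1]; ring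
  have hw : Q₀ (e₂ + f₂) = 1 := by rw [Q_add, H.qe2, H.qf2, H.e2f2]; ring
  have hvw : polar Q₀ (e₁ + f₁) (e₂ + f₂) = 0 := by
    rw [polar_add_left, polar_add_right, polar_add_right, H.ee, H.e1f2, H.f1e2, H.ff]; ring
  have hwv : polar Q₀ (e₂ + f₂) (e₁ + f₁) = 0 := by rw [polar_comm, hvw]
  set v := e₁ + f₁ with hvd
  set w := e₂ + f₂ with hwd
  have hv0 : Q₀ v ≠ 0 := by rw [hv]; exact one_ne_zero
  have hw0 : Q₀ w ≠ 0 := by rw [hw]; exact one_ne_zero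
  set t : ↥(O Q₀) := ([v, w].map (rO Q₀)).prod with ht
  have hvs : ∀ x ∈ [v, w], Q₀ x ≠ 0 := by
    intro x hx
    simp only [List.mem_cons, List.not_mem_nil, or_false] at hx
    rcases hx with rfl | rfl
    · rw [hv]; exact one_ne_zero
    · rw [hw]; exact one_ne_zero
  have htO : iO Q₀ t ∈ OmG Q₀ := by
    rw [iO_mem_OmG, mem_Om_iff' h₀.nd hgen₀]
    refine ⟨(parO_prod h₀.nd hgen₀ _ hvs).2 (by simp), (spin_prod h₀.nd hgen₀ _ hvs).trans (sgn_true ?_)⟩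
    simp [hv, hw]
  have htv : ∀ x, (iO Q₀ t).1.1 *ᵥ x = refl Q₀ v (refl Q₀ w x) := by
    intro x
    rw [iO_mulVec, ht, coe_prod_rO]
    simp
  have e1 : (iO Q₀ t) ^ 2 = 1 := by
    apply GO_ext
    intro x
    rw [pow_two, GO_mul, htv, htv]
    have hc : ∀ x, refl Q₀ w (refl Q₀ v x) = refl Q₀ v (refl Q₀ w x) := by
      intro x
      rw [refl_apply hw0, refl_apply hv0, refl_apply hv0, refl_apply hw0]
      simp only [polar_sub_right, polar_smul_right, hvw, hwv, smul_zero, sub_zero]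
      abel
    rw [hc (refl Q₀ w x), refl_refl, refl_refl]
    show x = (1 : Matrix ι ι F₀) *ᵥ x
    rw [Matrix.one_mulVec]
  have e2 : dg (D.miG (iO Q₀ t)) ≠ 1 := by
    intro e
    rw [D.dg_miG_eq_one h h₀] at e
    obtain ⟨c, hc⟩ := h₀.ker _ e
    obtain ⟨x, hx0, hx⟩ := OAut.Dat.exists_perp h₀.nd (Submodule.span F₀ {v, w}) (by
      have h3 : finrank F₀ (Submodule.span F₀ {v, w}) ≤ 2 := by
        have h4 := finrank_span_finset_le_card (R := F₀) ({v, w} : Finset (ι → F₀))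
        have h5 : ({v, w} : Finset (ι → F₀)).card ≤ 2 := Finset.card_le_two
        have h6 : ((({v, w} : Finset (ι → F₀))) : Set (ι → F₀)) = {v, w} := by simp
        rw [h6] at h4
        exact le_trans h4 h5
      omega)
    have h1 := hc x
    rw [htv, refl_of_perp (hx w (Submodule.subset_span (by simp))), refl_of_perp (hx v (Submodule.subset_span (by simp)))] at h1
    have hc1 : c = 1 := by
      have h3 : (1 - c) • x = 0 := by rw [sub_smul, one_smul, ← h1, sub_self]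
      exact (sub_eq_zero.1 ((smul_eq_zero.1 h3).resolve_right hx0)).symm
    have h4 := hc v
    rw [htv, refl_of_perp hwv, refl_self (by rw [hv]; exact one_ne_zero), hc1, one_smul] at h4
    have h5 := congrArg (polar Q₀ v) h4
    rw [polar_neg_right, polar_self', hv, mul_one] at h5
    have h6 : (2 : F₀) * 2 = 0 := by linear_combination -h5
    exact h2 (mul_self_eq_zero.1 h6)
  have h3 : orderOf (dg (D.miG (iO Q₀ t))) = 2 := by
    refine orderOf_eq_prime ?_ e2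
    rw [← map_pow, ← map_pow, e1, map_one, map_one]
  have h4 : dg (D.miG (iO Q₀ t)) ∈ SS D := (exists_SS D).2 ⟨_, htO, rfl⟩
  have h5 := orderOf_dvd_natCard (⟨_, h4⟩ : SS D)
  rwa [Subgroup.orderOf_mk, h3] at h5

/-- `Ω` inside the similarity group -/
def omI (Q : QuadraticForm F (ι → F)) : Cfsg.Omega F ⇑Q →* GO Q :=
  (Subgroup.inclusion IO_le_GO).comp (Cfsg.Omega F ⇑Q).subtype

theorem E_ne_scalar (hQ : Nd Q) (hdim : 5 ≤ finrank F (ι → F)) {e₁ e₂ f₁ f₂ : ι → F} (H : H2 Q e₁ e₂ f₁ f₂) :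
    ¬ ∃ c : F, ∀ v, (iO Q ⟨E hQ e₁ e₂, E_mem hQ e₁ e₂⟩).1.1 *ᵥ v = c • v := by
  classical
  rintro ⟨c, hc⟩
  obtain ⟨x, hx0, hx⟩ := OAut.Dat.exists_perp hQ (Submodule.span F {e₁, e₂}) (by
    have h3 : finrank F (Submodule.span F {e₁, e₂}) ≤ 2 := by
      have h4 := finrank_span_finset_le_card (R := F) ({e₁, e₂} : Finset (ι → F))
      have h5 : ({e₁, e₂} : Finset (ι → F)).card ≤ 2 := Finset.card_le_two
      have h6 : ((({e₁, e₂} : Finset (ι → F))) : Set (ι → F)) = {e₁, e₂} := by simp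
      rw [h6] at h4
      exact le_trans h4 h5
    omega)
  have h1 := hc x
  rw [iO_mulVec] at h1
  have h2 : E hQ e₁ e₂ x = x := OAut.Dat.E_fix hQ (hx e₁ (Submodule.subset_span (by simp)))
    (hx e₂ (Submodule.subset_span (by simp)))
  have hc1 : c = 1 := by
    have h3 : (1 - c) • x = 0 := by
      rw [sub_smul, one_smul, ← h1]
      show x - E hQ e₁ e₂ x = 0
      rw [h2, sub_self]
    exact (sub_eq_zero.1 ((smul_eq_zero.1 h3).resolve_right hx0)).symm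
  have h4 := hc f₂
  rw [iO_mulVec, hc1, one_smul] at h4
  have h5 : E hQ e₁ e₂ f₂ = f₂ := h4
  rw [E_apply hQ H.qe1 H.ee, H.e1f2, H.e2f2, H.qe2] at h5
  have h6 : e₁ = 0 := by
    have h7 : f₂ + (0 : F) • e₂ - (1 : F) • e₁ - (0 * 0 : F) • e₁ = f₂ := h5
    rw [zero_smul, add_zero, one_smul, mul_zero, zero_smul, sub_zero, sub_eq_self] at h7
    exact h7
  have h7 := H.e1f1
  rw [h6, polar_zero_left] at h7
  exact zero_ne_one h7

/-- the hypotheses -/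
structure BH (D : Ds σ ι₀ Q Q₀) : Prop where
  gd : Gd Q
  gd₀ : Gd Q₀
  gen : GenHyp Q
  gen₀ : GenHyp Q₀
  dat₀ : OAut.Dat Q₀
  h2 : ∃ e₁ e₂ f₁ f₂ : ι → F₀, H2 Q₀ e₁ e₂ f₁ f₂
  simp₀ : IsSimpleGroup (Cfsg.POmega F₀ ⇑Q₀)
  surj : Function.Surjective (sa (Q := Q))

theorem bal_fd [Finite F] (D : Ds σ ι₀ Q Q₀) (B : BH D) {p : ℕ} (hp : p.Prime) (hr : orderOf σ = p) (hpF : (p : F₀) ≠ 0) :
    Bal (Cfsg.Inn (Cfsg.POmega F ⇑Q)) p D.toSg.fd := by
  have : Finite F₀ := Finite.of_injective ι₀ ι₀.injective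
  have hfin : Finite (MulAut (Cfsg.POmega F ⇑Q)) := inferInstance
  obtain ⟨e₁, e₂, f₁, f₂, H⟩ := B.h2
  have hdim₀ : 5 ≤ finrank F₀ (ι → F₀) := by have := B.dat₀.dim; omega
  have hdim : 5 ≤ finrank F (ι → F) := by
    rw [Module.finrank_pi] at hdim₀ ⊢; exact hdim₀
  refine bal_of_simple (S := SS D) hp ?_ ?_ ?_ ?_ ?_ ?_ ?_
  · intro x hx
    obtain ⟨t, ht, rfl⟩ := (exists_SS D).1 hx
    rw [Subgroup.mem_inf, Subgroup.mem_centralizer_singleton_iff, Inn_eq]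
    refine ⟨⟨_, miG_OmG D B.gd.nd B.gd₀.nd B.gen B.gen₀ ht, rfl⟩, ?_⟩
    rw [D.toSg.fd_dg, D.fG_miG]
  · intro c hc x hx
    obtain ⟨t, ht, rfl⟩ := (exists_SS D).1 hx
    rw [Subgroup.mem_inf, Subgroup.mem_centralizer_singleton_iff, Inn_eq] at hc
    obtain ⟨⟨g, hg, rfl⟩, hcx⟩ := hc
    rw [D.commute_iff B.gd hr hp.pos] at hcx
    obtain ⟨b, g₀, rfl⟩ := hcx
    refine (exists_SS D).2 ⟨g₀ * t * g₀⁻¹, OmG_conj g₀ ht, ?_⟩
    rw [map_mul, map_mul, map_mul, map_mul, map_inv, map_inv, map_mul, dg_sc, one_mul]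
  · intro hbot
    have h1 : ∀ t ∈ OmG Q₀, dg t = 1 := by
      intro t ht
      rw [← D.dg_miG_eq_one B.gd B.gd₀, ← Subgroup.mem_bot, ← hbot]
      exact (exists_SS D).2 ⟨t, ht, rfl⟩
    exact E_ne_scalar B.gd₀.nd hdim₀ H (B.gd₀.ker _ (h1 _ ((iO_mem_OmG _).2 (B.dat₀.E_mem_Om e₁ e₂))))
  · intro N hN hn h1
    have := B.simp₀
    refine simple_image (((dg (Q := Q)).comp D.miG).comp (omI Q₀)) (hs := B.simp₀) (fun z hz => ?_) (fun x => ?_) hN hn h1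
    · refine (D.dg_miG_eq_one B.gd B.gd₀ _).2 ?_
      refine aut_ext fun t => ?_
      rw [dg_mk]
      show _ = QuotientGroup.mk t
      congr 1
      apply Subtype.ext
      apply Subtype.ext
      rw [co_coe]
      have h2 := Subgroup.mem_center_iff.1 hz t
      have h3 := congrArg (fun y : Cfsg.Omega F₀ ⇑Q₀ => y.1.1) h2
      show z.1.1 * t.1.1 * z.1.1⁻¹ = t.1.1
      rw [mul_inv_eq_iff_eq_mul]
      exact h3.symm
    · rw [exists_SS]
      constructor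
      · rintro ⟨t, ht, rfl⟩
        obtain ⟨s, hs⟩ := mem_OmG.1 ht
        have : omI Q₀ s = t := Subtype.ext hs
        exact ⟨s, by rw [← this]; rfl⟩
      · rintro ⟨s, rfl⟩
        exact ⟨omI Q₀ s, mem_OmG.2 ⟨s, rfl⟩, rfl⟩
  · intro c hc
    rw [Subgroup.mem_inf, Subgroup.mem_centralizer_singleton_iff, Inn_eq] at hc
    obtain ⟨⟨g, hg, rfl⟩, hcx⟩ := hc
    rw [D.commute_iff B.gd hr hp.pos] at hcx
    obtain ⟨b, g₀, rfl⟩ := hcx
    rw [map_mul, dg_sc, one_mul]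
    obtain ⟨s, hs⟩ := B.gd₀.exists_iO (g := sc Q₀ (B.gd₀.mu g₀)⁻¹ * (g₀ * g₀)) (by
      rw [map_mul, B.gd₀.mu_sc, map_mul, ← mul_inv, inv_mul_cancel])
    have h1 : g₀ * g₀ = sc Q₀ (B.gd₀.mu g₀) * iO Q₀ s := by
      rw [← hs, ← mul_assoc, ← sc_mul, mul_inv_cancel, sc_one, one_mul]
    refine (exists_SS D).2 ⟨iO Q₀ (s * s), ?_, ?_⟩
    · rw [iO_mem_OmG, mem_Om_iff' B.gd₀.nd B.gen₀, map_mul, map_mul]
      exact ⟨Int.units_mul_self _, Int.units_mul_self _⟩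
    · have h2 : dg (D.miG (g₀ * g₀)) = dg (D.miG (iO Q₀ s)) := by
        rw [h1, map_mul, map_mul, D.miG_sc, dg_sc, one_mul]
      have h3 : dg (D.miG g₀) * dg (D.miG g₀) = dg (D.miG (iO Q₀ s)) := by rw [← map_mul, ← map_mul, h2]
      rw [show (4 : ℕ) = 2 + 2 from rfl, pow_add, pow_two, h3, map_mul, map_mul, map_mul]
  · intro h
    subst h
    refine two_dvd_SS D B.gd B.gd₀ B.gen₀ ?_ H hdim₀
    exact_mod_cast hpF
  · intro g hg
    obtain ⟨s, rfl⟩ := B.surj g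
    exact ⟨1, by rw [pow_one]; exact pow_of_comm D B.gd B.dat₀ H hdim hr hg⟩

end SS

end Cfsg.Agent.Lib.OBal
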