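import Cfsg.Agent.Lib.OBalA
import Cfsg.Agent.S0295
import Cfsg.Agent.S0296
import Cfsg.Agent.S0297

set_option autoImplicit false
set_option linter.unusedSectionVars false

/-!
# Local balance for orthogonal socles: the odd-dimensional case (helper21)
-/

namespace Cfsg.Agent.Lib.OBal

open Matrix QuadraticMap Module
open Cfsg.Agent.Lib.Quad Cfsg.Agent.Lib.ClOrthSiegel Cfsg.Agent.Lib.ClOmega Cfsg.Agent.Lib.POmAut
open Cfsg.Agent.Lib.Descent Cfsg.Agent.Lib.OFld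
open Cfsg.Agent.Lib.OAut (Semi H2)

section Gen

variable {ι : Type} [Fintype ι] [DecidableEq ι] {F : Type*} [Field F] {F₀ : Type*} [Field F₀]
  {σ : F ≃+* F} {Q : QuadraticForm F (ι → F)}

theorem conj_inj (h : Gd Q) (d : OAut.Dat Q) {e₁ e₂ f₁ f₂ : ι → F} (H : H2 Q e₁ e₂ f₁ f₂)
    [hs : IsSimpleGroup (Cfsg.POmega F ⇑Q)] :
    Function.Injective (MulAut.conj : Cfsg.POmega F ⇑Q →* MulAut (Cfsg.POmega F ⇑Q)) := by
  rw [← MonoidHom.ker_eq_bot_iff]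
  have hn : (MulAut.conj : Cfsg.POmega F ⇑Q →* MulAut (Cfsg.POmega F ⇑Q)).ker.Normal := inferInstance
  rcases hn.eq_bot_or_eq_top with h1 | h1
  · exact h1
  exfalso
  have h2 : dg (iO Q ⟨E h.nd e₁ e₂, E_mem h.nd e₁ e₂⟩) ∈ Cfsg.Inn (Cfsg.POmega F ⇑Q) := by
    rw [Inn_eq]
    exact ⟨_, (iO_mem_OmG _).2 (d.E_mem_Om e₁ e₂), rfl⟩
  obtain ⟨k, hk⟩ := h2
  have h3 : k ∈ (MulAut.conj : Cfsg.POmega F ⇑Q →* MulAut (Cfsg.POmega F ⇑Q)).ker := by rw [h1]; trivial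
  rw [MonoidHom.mem_ker] at h3
  have h4 : dg (iO Q ⟨E h.nd e₁ e₂, E_mem h.nd e₁ e₂⟩) = 1 := by rw [← hk]; exact h3
  exact E_ne_scalar h.nd (by have := d.dim; omega) H (h.ker _ h4)

/-- every automorphism is a similarity times a field automorphism -/
theorem exists_dg_fd (h : Gd Q) (hsur : Function.Surjective (sa (Q := Q))) (x : MulAut (Cfsg.POmega F ⇑Q))
    (hSg : ∀ τ : F ≃+* F, Sg τ Q) : ∃ (g : GO Q) (τ : F ≃+* F), x = dg g * (hSg τ).fd := by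
  obtain ⟨s, rfl⟩ := hsur x
  obtain ⟨a, ha⟩ := exists_toS h (s := s * (fS (hSg s.σ))⁻¹) (by
    have : Semi.sig (s * (fS (hSg s.σ))⁻¹) = 1 := by
      rw [map_mul, map_inv, mul_inv_eq_one]; rfl
    exact this)
  refine ⟨a, s.σ, ?_⟩
  rw [← sa_toS h, ← ha, map_mul, map_inv, ← sa_fS, inv_mul_cancel_right]

end Gen

section Odd

variable {F : Type*} [Field F] [Fintype F] {m : ℕ}

theorem exists_conj_odd (h2 : (2 : F) ≠ 0) (hm : 3 ≤ m) {p : ℕ} (hp : p.Prime)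
    {x : MulAut (Cfsg.POmega F ⇑(quadOdd m F))} (hord : orderOf x = p) (hnot : ∀ g : GO (quadOdd m F), x ≠ dg g) :
    ∃ (σ : F ≃+* F) (α : MulAut (Cfsg.POmega F ⇑(quadOdd m F))), orderOf σ = p ∧
      x = α * (ds_odd (m := m) (fixed_emb σ)).toSg.fd * α⁻¹ := by
  have h := fm_odd (F := F) h2 hm
  obtain ⟨g, τ, rfl⟩ := exists_dg_fd h.gd (surj_odd h2 hm) x (fun τ => sg_odd τ)
  have hτ : τ ≠ 1 := by
    rintro rfl
    apply hnot g
    rw [Sg.fd_one, mul_one]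
  have hτp := h.orderOf_fd (sg_odd (m := m) τ) hp hτ hord
  have D := ds_odd (m := m) (fixed_emb τ)
  obtain ⟨k, -, hk⟩ := conj_of_coset h.gd (P := ⊤) (fun _ => Subgroup.mem_top _) D.toSg hτp hp.pos
    (h90_odd D h.gd h2 (by simp) hτp hp.pos) (g := g) (g₀ := 1)
    (by rw [← hord]; exact pow_orderOf_eq_one _)
    (by rw [map_one, one_mul]; exact Sg.fd_pow_orderOf _ hτp) (Subgroup.mem_top _)
  refine ⟨τ, dg k, hτp, ?_⟩
  rw [map_one, one_mul] at hk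
  exact hk

theorem bh_odd {F₀ : Type*} [Field F₀] [Fintype F₀] (h2 : (2 : F) ≠ 0) (hm : 3 ≤ m) {σ : F ≃+* F} {ι₀ : F₀ →+* F}
    (hι : ∀ x, σ x = x ↔ ∃ y, ι₀ y = x) (hodd : Odd (Fintype.card F₀)) : BH (ds_odd (m := m) hι) where
  gd := gd_odd h2 hm
  gd₀ := gd_odd (two_ne_zero_of_odd hodd) hm
  gen := genHyp_of_two_ne_zero h2
  gen₀ := genHyp_of_two_ne_zero (two_ne_zero_of_odd hodd)
  dat₀ := Cfsg.Agent.Lib.OAut.Semi.dat_odd (two_ne_zero_of_odd hodd) hm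
  h2 := ⟨_, _, _, _, Cfsg.Agent.Lib.OAut.Semi.h2_odd hm⟩
  simp₀ := Cfsg.Agent.S0295.result hodd m hm
  surj := surj_odd h2 hm

theorem odd_main {r : ℕ} [Fact r.Prime] [CharP F r] (hodd : Odd (Fintype.card F)) (hm : 3 ≤ m)
    (A : Subgroup (MulAut (Cfsg.POmega F ⇑(quadOdd m F)))) (hinn : ∀ k : Cfsg.POmega F ⇑(quadOdd m F), MulAut.conj k ∈ A)
    {p : ℕ} [Fact p.Prime] (hpr : p ≠ r) (x : MulAut (Cfsg.POmega F ⇑(quadOdd m F))) (hord : orderOf x = p)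
    (hnot : ∀ g : GO (quadOdd m F), x ≠ dg g) :
    (∃ (α : MulAut (Cfsg.POmega F ⇑(quadOdd m F))) (σ : F ≃+* F), σ ≠ 1 ∧ α * x * α⁻¹ = (sg_odd (m := m) σ).fd) ∧
    (Cfsg.pPrimeCore p ↥(A ⊓ Subgroup.centralizer {x}) ≠ ⊥ ↔
      Nat.Coprime p (Nat.card ↥(MonoidHom.eqLocus x.toMonoidHom (MonoidHom.id (Cfsg.POmega F ⇑(quadOdd m F)))))) := by
  classical
  have h2 := two_ne_zero_of_odd hodd
  have hp : p.Prime := Fact.out
  obtain ⟨σ, α, hσ, hx⟩ := exists_conj_odd h2 hm hp hord hnot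
  have hinn' : Cfsg.Inn (Cfsg.POmega F ⇑(quadOdd m F)) ≤ A := by rintro _ ⟨k, rfl⟩; exact hinn k
  have hs : IsSimpleGroup (Cfsg.POmega F ⇑(quadOdd m F)) := Cfsg.Agent.S0295.result hodd m hm
  have hcard := Lib.LBal.card_fixed (conj_inj (gd_odd (F := F) h2 hm)
    (Cfsg.Agent.Lib.OAut.Semi.dat_odd h2 hm) (Cfsg.Agent.Lib.OAut.Semi.h2_odd hm)) x
  have hfin : Fintype (FFAut.fixed σ) := Fintype.ofFinite _
  have hodd₀ : Odd (Fintype.card (FFAut.fixed σ)) := by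
    have h3 := card_eq (fixed_emb σ) hσ
    rw [Nat.card_eq_fintype_card, Nat.card_eq_fintype_card] at h3
    rw [h3] at hodd
    exact Nat.Odd.of_mul_left (by
      rw [← Nat.succ_pred_eq_of_pos hp.pos, pow_succ'] at hodd; exact hodd)
  have hB := bal_fd (ds_odd (m := m) (fixed_emb σ)) (bh_odd h2 hm (fixed_emb σ) hodd₀) hp hσ (by
    intro h0
    have h3 : ((p : ℕ) : F) = 0 := by
      rw [← map_natCast (FFAut.fixed σ).subtype, h0, map_zero]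
    rw [CharP.cast_eq_zero_iff F r] at h3
    exact hpr ((Nat.prime_dvd_prime_iff_eq Fact.out hp).1 h3).symm)
  refine ⟨⟨α⁻¹, σ, ?_, ?_⟩, ?_⟩
  · rintro rfl
    rw [orderOf_one] at hσ
    exact hp.one_lt.ne hσ
  · rw [hx]; group
  · rw [hB.iff Lib.LBal.inn_normal hinn' α hx, hcard, Nat.coprime_comm]

end Odd

end Cfsg.Agent.Lib.OBal
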