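import Cfsg.Agent.Lib.OFldT

set_option autoImplicit false
set_option linter.unusedSectionVars false

/-!
# The minus type: independence of the coefficients; classes that do not split (helper21)
-/

namespace Cfsg.Agent.Lib.OFld

open Matrix QuadraticMap Module
open Cfsg.Agent.Lib.Quad Cfsg.Agent.Lib.ClOrthSiegel Cfsg.Agent.Lib.ClOmega Cfsg.Agent.Lib.POmAut
open Cfsg.Agent.Lib.Descent Cfsg.Agent.Lib.SplitCount
open Cfsg.Agent.Lib.PSLAut (quotAut aut_ext)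
open Cfsg (IsConjUnder splitClassCount)

section Minus

variable {F : Type*} [Field F] [Fintype F] {m : ℕ}

theorem minus_psi_map {a b a' b' : F} (hab : ∀ z₁ z₂ : F, z₁ ^ 2 + a * z₁ * z₂ + b * z₂ ^ 2 = 0 → z₁ = 0 ∧ z₂ = 0)
    (hab' : ∀ z₁ z₂ : F, z₁ ^ 2 + a' * z₁ * z₂ + b' * z₂ ^ 2 = 0 → z₁ = 0 ∧ z₂ = 0) (hm : 3 ≤ m)
    (ψ : Cfsg.POmega F ⇑(quadMinus m F a b) ≃* Cfsg.POmega F ⇑(quadMinus m F a' b')) :
    (((ev_minus hab hm).eps.ker).map (dg (Q := quadMinus m F a b))).map (MulAut.congr ψ).toMonoidHom =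
      ((ev_minus hab' hm).eps.ker).map (dg (Q := quadMinus m F a' b')) := by
  obtain ⟨e, he⟩ := minus_equiv m hab hab'
  have T : Tr e 1 (quadMinus m F a b) (quadMinus m F a' b') := ⟨one_ne_zero, fun v => by rw [he, one_mul]⟩
  have hn := (fm_minus hab' hm).normal (surj_minus hab' hm)
  let α : MulAut (Cfsg.POmega F ⇑(quadMinus m F a' b')) := T.tP.symm.trans ψ
  have h1 : ∀ β, MulAut.congr ψ β = α * T.tA β * α⁻¹ := by
    intro β
    ext x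
    show ψ (β (ψ.symm x)) = ψ (T.tP.symm (T.tP (β (T.tP.symm (T.tP (ψ.symm x))))))
    rw [MulEquiv.symm_apply_apply, MulEquiv.symm_apply_apply]
  have hmap := T.map_dg (ev_minus hab hm) (ev_minus hab' hm)
  ext γ
  constructor
  · rintro ⟨β, hβ, rfl⟩
    show MulAut.congr ψ β ∈ _
    rw [h1]
    apply hn.conj_mem
    rw [← hmap]
    exact ⟨β, hβ, rfl⟩
  · intro hγ
    have h2 : α⁻¹ * γ * α ∈ ((ev_minus hab' hm).eps.ker).map (dg (Q := quadMinus m F a' b')) := by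
      have := hn.conj_mem _ hγ α⁻¹
      rwa [inv_inv] at this
    rw [← hmap] at h2
    obtain ⟨β, hβ, e1⟩ := h2
    refine ⟨β, hβ, ?_⟩
    show MulAut.congr ψ β = _
    rw [h1]
    have e1' : T.tA β = α⁻¹ * γ * α := e1
    rw [e1']; group

/-- the coset statement for the minus type form -/
theorem coset_minus {a b a' b' : F} (hab : ∀ z₁ z₂ : F, z₁ ^ 2 + a * z₁ * z₂ + b * z₂ ^ 2 = 0 → z₁ = 0 ∧ z₂ = 0)
    (hab' : ∀ z₁ z₂ : F, z₁ ^ 2 + a' * z₁ * z₂ + b' * z₂ ^ 2 = 0 → z₁ = 0 ∧ z₂ = 0) (hm : 3 ≤ m)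
    (ψ : Cfsg.POmega F ⇑(quadMinus m F a b) ≃* Cfsg.POmega F ⇑(quadMinus m F a' b')) {σ : F ≃+* F} (hσ : σ ≠ 1)
    (ha : σ a' = a') (hb : σ b' = b') {r : ℕ} (hr : r.Prime) {x δ : MulAut (Cfsg.POmega F ⇑(quadMinus m F a b))}
    (hx : MulAut.congr ψ x = (sg_minus (m := m) ha hb).fd) (hxr : orderOf x = r)
    (hδ : δ ∈ ((ev_minus hab hm).eps.ker).map (dg (Q := quadMinus m F a b))) :
    orderOf (δ * x) = r ↔ IsConjUnder (((ev_minus hab hm).eps.ker).map (dg (Q := quadMinus m F a b))) x (δ * x) := by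
  have hn := (fm_minus hab' hm).normal (surj_minus hab' hm)
  rw [← isConjUnder_map (MulAut.congr ψ), minus_psi_map hab hab' hm ψ, ← (MulAut.congr ψ).orderOf_eq (δ * x), map_mul, hx]
  refine coset_iff (fm_minus hab' hm) (sg_minus (m := m) ha hb) hσ hr (fun h => h90_minus hab' hm ha hb hr h) (α := 1)
    (g₀ := 1) (by simp) ?_ ?_
  · rw [← hx, (MulAut.congr ψ).orderOf_eq, hxr]
  · rw [← minus_psi_map hab hab' hm ψ]
    exact ⟨δ, hδ, rfl⟩

/-- the field automorphism has odd order -/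
theorem odd_of_fix {a b : F} (hab : ∀ z₁ z₂ : F, z₁ ^ 2 + a * z₁ * z₂ + b * z₂ ^ 2 = 0 → z₁ = 0 ∧ z₂ = 0) {σ : F ≃+* F}
    (ha : σ a = a) (hb : σ b = b) {r : ℕ} (hp : r.Prime) (hr : orderOf σ = r) : Odd r := by
  rcases hp.eq_two_or_odd' with h2 | h2
  swap
  · exact h2
  exfalso
  subst h2
  have hfr : finrank (FFAut.fixed σ) F = 2 := by rw [FFAut.finrank_fixed, hr]
  have hab0 : ∀ z₁ z₂ : FFAut.fixed σ, z₁ ^ 2 + ⟨a, ha⟩ * z₁ * z₂ + ⟨b, hb⟩ * z₂ ^ 2 = 0 → z₁ = 0 ∧ z₂ = 0 := by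
    intro z₁ z₂ h
    have h1 := congrArg Subtype.val h
    obtain ⟨h3, h4⟩ := hab z₁ z₂ h1
    exact ⟨Subtype.ext h3, Subtype.ext h4⟩
  let _ : Fintype (FFAut.fixed σ) := Fintype.ofFinite _
  obtain ⟨α, hα⟩ := exists_root (F := FFAut.fixed σ) (K := F) hfr hab0
  have h1 : α ^ 2 + a * α * 1 + b * 1 ^ 2 = 0 := by
    rw [mul_one, one_pow, mul_one]
    exact hα
  exact one_ne_zero (hab α 1 h1).2

end Minus

/-! ### classes that do not split -/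

section Split

theorem split_one {X : Type*} [Group X] (H K : Subgroup X) (x : X)
    (h : ∀ g ∈ H, ∃ c, c * x = x * c ∧ g * c⁻¹ ∈ K) : splitClassCount H K x = 1 := by
  unfold splitClassCount
  rw [Nat.card_eq_one_iff_unique]
  have key : ∀ y : {y : X // IsConjUnder H x y}, IsConjUnder K x y.1 := by
    rintro ⟨y, g, hg, rfl⟩
    obtain ⟨c, hc, hk⟩ := h g hg
    refine ⟨g * c⁻¹, hk, ?_⟩
    have : c⁻¹ * x * c = x := by rw [mul_assoc, ← hc, inv_mul_cancel_left]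
    calc g * x * g⁻¹ = g * (c⁻¹ * x * c) * g⁻¹ := by rw [this]
      _ = g * c⁻¹ * x * (g * c⁻¹)⁻¹ := by group
  refine ⟨⟨?_⟩, ⟨Quot.mk _ ⟨x, isConjUnder_refl H x⟩⟩⟩
  intro p q
  induction p using Quot.ind with
  | mk p =>
    induction q using Quot.ind with
    | mk q => exact Quot.sound (isConjUnder_trans (isConjUnder_symm (key p)) (key q))

variable {ι : Type} [Fintype ι] [DecidableEq ι] {F : Type*} [Field F] [Finite F] {F₀ : Type*} [Field F₀]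
  {Q : QuadraticForm F (ι → F)} {k : ℕ}

theorem mem_Inn_of (g : GO Q) {c : Fˣ} {s : ↥(O Q)} (hg : g = sc Q c * iO Q s)
    (hs : (s : (ι → F) ≃ₗ[F] (ι → F)) ∈ Om Q) : dg g ∈ Cfsg.Inn (Cfsg.POmega F ⇑Q) := by
  rw [Inn_eq]
  refine ⟨iO Q s, (iO_mem_OmG s).2 hs, ?_⟩
  rw [hg, map_mul, dg_sc, one_mul]

theorem char_two_isSquare (h2 : (2 : F) = 0) (a : F) : IsSquare a := by
  have := Fintype.ofFinite F
  refine FiniteField.isSquare_of_char_two ?_ a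
  have h3 : ((2 : ℕ) : F) = 0 := by exact_mod_cast h2
  rcases (Nat.dvd_prime Nat.prime_two).1 ((ringChar.spec F 2).1 h3) with h4 | h4
  · exact absurd h4 (CharP.ringChar_ne_one)
  · exact h4

/-- in characteristic two `Inndiag = Inn` -/
theorem Ev.inn_of_two (h : Ev Q k) (h2 : (2 : F) = 0) (g : GO Q) (hg : h.eps g = 1) :
    dg g ∈ Cfsg.Inn (Cfsg.POmega F ⇑Q) := by
  obtain ⟨c, s, rfl⟩ := exists_two h.gd h2 g
  refine mem_Inn_of _ rfl ?_
  rw [mem_Om_iff' h.gd.nd h.gen]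
  rw [map_mul, h.eps_sc, one_mul, h.eps_iO] at hg
  refine ⟨hg, ?_⟩
  obtain ⟨vs, hvs, rfl⟩ := exists_list_O h.gd.nd h.gen s
  rw [spin_prod h.gd.nd h.gen vs hvs]
  exact sgn_true (char_two_isSquare h2 _)

theorem Ev.split_of_two (h : Ev Q k) (h2 : (2 : F) = 0) (x : MulAut (Cfsg.POmega F ⇑Q)) :
    splitClassCount ((h.eps.ker).map (dg (Q := Q))) (Cfsg.Inn (Cfsg.POmega F ⇑Q)) x = 1 := by
  refine split_one _ _ _ ?_
  rintro _ ⟨g, hg, rfl⟩
  exact ⟨1, by rw [one_mul, mul_one], by rw [inv_one, mul_one]; exact h.inn_of_two h2 g hg⟩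

/-- all multipliers occur (for proper similarities) -/
def MuS {F : Type*} [Field F] [Finite F] {Q : QuadraticForm F (ι → F)} {k : ℕ} (h : Ev Q k) : Prop :=
  ∀ c : Fˣ, ∃ g : GO Q, h.gd.mu g = c ∧ h.eps g = 1

theorem Ev.muS_of (h : Ev Q k) (hmu : ∀ c : Fˣ, ∃ g : GO Q, h.gd.mu g = c) : MuS h := by
  intro c
  obtain ⟨g, hg⟩ := hmu c
  obtain ⟨v, hv⟩ := h.gd.ne
  rcases Int.units_eq_one_or (h.eps g) with he | he
  · exact ⟨g, hg, he⟩
  · refine ⟨g * rf Q v, ?_, ?_⟩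
    · rw [map_mul, hg]
      have : h.gd.mu (rf Q v) = 1 := h.gd.mu_iO _
      rw [this, mul_one]
    · rw [map_mul, he, h.eps_rf hv]; decide

/-- a square-multiplier proper similarity -/
theorem Ev.exists_par (h : Ev Q k) {g : GO Q} (hg : h.eps g = 1) (hs : IsSquare (h.gd.mu g : F)) :
    ∃ (c : Fˣ) (s : ↥(O Q)), g = sc Q c * iO Q s ∧ parO h.gd.nd h.gen s = 1 := by
  obtain ⟨c, hc⟩ := hs
  have hc0 : c ≠ 0 := by rintro rfl; rw [mul_zero] at hc; exact (h.gd.mu g).ne_zero hc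
  obtain ⟨s, hs⟩ := h.gd.exists_iO (g := sc Q (Units.mk0 c hc0)⁻¹ * g) (by
    rw [map_mul, h.gd.mu_sc, ← mul_inv]
    rw [inv_mul_eq_one]
    apply Units.ext
    rw [hc]; rfl)
  have e1 : g = sc Q (Units.mk0 c hc0) * iO Q s := by
    rw [← hs, ← mul_assoc, ← sc_mul, mul_inv_cancel, sc_one, one_mul]
  refine ⟨_, s, e1, ?_⟩
  rw [e1, map_mul, h.eps_sc, one_mul, h.eps_iO] at hg
  exact hg

theorem Ev.split_of_odd {σ : F ≃+* F} {ι₀ : F₀ →+* F} {Q₀ : QuadraticForm F₀ (ι → F₀)} [Finite F₀] (D : Ds σ ι₀ Q Q₀)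
    (h : Ev Q k) (h₀ : Ev Q₀ k) (hmu : MuS h₀) {r : ℕ} (hr : orderOf σ = r) (h0 : 0 < r) (hro : Odd r) :
    splitClassCount ((h.eps.ker).map (dg (Q := Q))) (Cfsg.Inn (Cfsg.POmega F ⇑Q)) D.toSg.fd = 1 := by
  by_cases h2 : (2 : F) = 0
  · exact h.split_of_two h2 _
  have h20 : (2 : F₀) ≠ 0 := fun e => h2 (by rw [← map_ofNat ι₀ 2, e, map_zero])
  have comm : ∀ g₀ : GO Q₀, dg (D.miG g₀) * D.toSg.fd = D.toSg.fd * dg (D.miG g₀) := fun g₀ =>
    (D.commute_iff h.gd hr h0 _).2 ⟨1, g₀, by rw [sc_one, one_mul]⟩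
  refine split_one _ _ _ ?_
  rintro _ ⟨g, hg, rfl⟩
  have hg' : h.eps g = 1 := hg
  -- first correct the multiplier
  obtain ⟨g₁, hg₁, hs₁⟩ : ∃ g₁ : GO Q₀, h₀.eps g₁ = 1 ∧ IsSquare (h.gd.mu (g * (D.miG g₁)⁻¹) : F) := by
    by_cases hs : IsSquare (h.gd.mu g : F)
    · exact ⟨1, map_one _, by rw [map_one, inv_one, mul_one]; exact hs⟩
    · obtain ⟨ε, hε⟩ := exists_nonsq (F := F₀) h20
      have hε0 : ε ≠ 0 := by rintro rfl; exact hε ⟨0, by simp⟩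
      obtain ⟨g₁, hg1, hg2⟩ := hmu (Units.mk0 ε hε0)
      refine ⟨g₁, hg2, ?_⟩
      have hns : ¬ IsSquare (ι₀ ε) := fun h' => hε (isSquare_of_odd D.fix hr hro h')
      rw [map_mul, map_inv, D.mu_miG h.gd h₀.gd, hg1, Units.val_mul, Units.val_inv_eq_inv_val]
      show IsSquare (_ * (ι₀ ε)⁻¹)
      exact isSquare_mul_of_not_isSquare hs (by rwa [isSquare_inv])
  obtain ⟨c, s, hcs, hpar⟩ := h.exists_par (g := g * (D.miG g₁)⁻¹) (by
    rw [map_mul, map_inv, hg', h.eps_miG D h₀, hg₁, inv_one, mul_one]) hs₁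
  -- then the spinor norm
  obtain ⟨g₂, hg₂⟩ : ∃ g₂ : GO Q₀, ∃ t : ↥(O Q), D.miG g₂ = iO Q t ∧ (s * t⁻¹ : ↥(O Q)).1 ∈ Om Q := by
    rcases Int.units_eq_one_or (spO h.gd.nd h.gen s) with hsp | hsp
    · refine ⟨1, 1, by rw [map_one, map_one], ?_⟩
      rw [inv_one, mul_one, mem_Om_iff' h.gd.nd h.gen]
      exact ⟨hpar, hsp⟩
    · obtain ⟨v, w, hv, hw, hvw⟩ := exists_pair h₀.gd.nd h20 (by rw [h.card]; have := h.pos; omega)
      refine ⟨([v, w].map (rf Q₀)).prod, ([ex ι₀ v, ex ι₀ w].map (rO Q)).prod, ?_, ?_⟩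
      · rw [iO_prod_rO]; simp [miG_rf]
      · rw [mem_Om_iff' h.gd.nd h.gen]
        have hvs : ∀ u ∈ [ex ι₀ v, ex ι₀ w], Q u ≠ 0 := by simp [D.base, hv, hw]
        constructor
        · rw [map_mul, map_inv, hpar, one_mul, inv_eq_one, parO_prod h.gd.nd h.gen _ hvs]; simp
        · rw [map_mul, map_inv, hsp, spin_prod h.gd.nd h.gen _ hvs]
          have : sgn (IsSquare (([ex ι₀ v, ex ι₀ w].map ⇑Q).prod)) = -1 := by
            apply sgn_false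
            simp only [List.map_cons, List.map_nil, List.prod_cons, List.prod_nil, mul_one, D.base, ← map_mul]
            exact fun h' => hvw (isSquare_of_odd D.fix hr hro h')
          rw [this]; decide
  obtain ⟨t, ht, hst⟩ := hg₂
  refine ⟨dg (D.miG (g₂ * g₁)), comm _, ?_⟩
  have e1 : g * (D.miG (g₂ * g₁))⁻¹ = sc Q c * iO Q (s * t⁻¹) := by
    rw [map_mul, _root_.mul_inv_rev, ← mul_assoc, hcs, ht, map_mul, map_inv, mul_assoc]
  rw [← map_inv, ← map_mul]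
  exact mem_Inn_of _ e1 hst

end Split

section Mu

variable {F : Type*} [Field F] [Fintype F] {m : ℕ}

theorem muS_minus {a b : F} (hab : ∀ z₁ z₂ : F, z₁ ^ 2 + a * z₁ * z₂ + b * z₂ ^ 2 = 0 → z₁ = 0 ∧ z₂ = 0)
    (hm : 3 ≤ m) : MuS (ev_minus hab hm) := by
  apply Ev.muS_of
  intro c
  obtain ⟨s, t, hst⟩ := exists_st hab (c : F)
  refine ⟨dmG m c s t hst, ?_⟩
  apply Units.ext
  exact (ev_minus hab hm).gd.mu_eq fun v => dm_Q (hst := hst) v

theorem muS_plus (hm : 4 ≤ m) : MuS (ev_plus (F := F) hm) := by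
  apply Ev.muS_of
  intro c
  refine ⟨dlG m c, ?_⟩
  apply Units.ext
  exact (ev_plus hm).gd.mu_eq fun v => dl_Q c v

end Mu

end Cfsg.Agent.Lib.OFld
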