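import Cfsg.Agent.Lib.OFldU

set_option autoImplicit false
set_option linter.unusedSectionVars false

/-!
# Involutory field automorphisms of `PΩ(Q)`, even dimension, odd characteristic: the class splitting (helper21)

* `sq_iff_norm` : `x` is a square iff its norm is.
* `spO_fpf` : spinor norm of a fixed point free isometry.
* `Ev.split_r2`.
-/

namespace Cfsg.Agent.Lib.OFld

open Matrix QuadraticMap Module
open Cfsg.Agent.Lib.Quad Cfsg.Agent.Lib.ClOrthSiegel Cfsg.Agent.Lib.ClOmega Cfsg.Agent.Lib.POmAut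
open Cfsg.Agent.Lib.Descent Cfsg.Agent.Lib.SplitCount
open Cfsg.Agent.Lib.PSLAut (quotAut aut_ext)
open Cfsg (IsConjUnder splitClassCount)

section Crit

variable {F F₀ : Type*} [Field F] [Finite F] [Field F₀] {σ : F ≃+* F} {ι₀ : F₀ →+* F}

theorem sq_iff_norm (hι : ∀ x, σ x = x ↔ ∃ y, ι₀ y = x) (hr : orderOf σ = 2) {x : F} {y : F₀} (hx : x ≠ 0)
    (h : x * σ x = ι₀ y) : IsSquare x ↔ IsSquare y := by
  have hnorm : ∀ a : Fˣ, ∏ i ∈ Finset.range 2, (σ ^ i) (a : F) = a * σ a := by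
    intro a
    rw [Finset.prod_range_succ, Finset.prod_range_one, pow_zero, pow_one]; rfl
  have hss : ∀ u : F, σ (σ u) = u := by
    intro u
    have : (σ ^ 2) u = u := by rw [← hr, pow_orderOf_eq_one]; rfl
    exact this
  constructor
  · rintro ⟨u, rfl⟩
    obtain ⟨w, hw⟩ := (hι (u * σ u)).1 (by rw [map_mul, hss, mul_comm])
    refine ⟨w, ι₀.injective ?_⟩
    rw [map_mul, hw, ← h, map_mul]; ring
  · rintro ⟨w, rfl⟩
    have hw0 : ι₀ w ≠ 0 := by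
      intro h0
      rw [map_mul, h0, mul_zero] at h
      exact (mul_ne_zero hx ((map_ne_zero σ).2 hx)) h
    obtain ⟨u, hu⟩ := exists_norm hr (by norm_num) (c := Units.mk0 _ hw0) ((hι _).2 ⟨w, rfl⟩)
    rw [hnorm, Units.val_mk0] at hu
    obtain ⟨b, hb⟩ := hilbert90_units hr (by norm_num) (a := Units.mk0 x hx * (u * u)⁻¹) (by
      rw [hnorm, Units.val_mul, Units.val_inv_eq_inv_val, Units.val_mul, Units.val_mk0, map_mul, map_inv₀, map_mul]
      have h1 : x * ((u : F) * u)⁻¹ * (σ x * (σ u * σ u)⁻¹) = (x * σ x) * (((u : F) * σ u) * (u * σ u))⁻¹ := by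
        simp only [mul_inv]; ring
      rw [h1, h, hu, map_mul]
      exact mul_inv_cancel₀ (mul_ne_zero hw0 hw0))
    rw [Units.val_mul, Units.val_inv_eq_inv_val, Units.val_mul, Units.val_mk0] at hb
    obtain ⟨c, hc⟩ := (hι ((b : F) * σ b)).1 (by rw [map_mul, hss, mul_comm])
    obtain ⟨d, hd⟩ := isSquare_of_two hι hr c
    have hd0 : d * d ≠ 0 := by
      rw [← hd, hc]
      exact mul_ne_zero b.ne_zero ((map_ne_zero σ).2 b.ne_zero)
    have hd1 : d ≠ 0 := left_ne_zero_of_mul hd0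
    have hsb : σ (b : F) ≠ 0 := (map_ne_zero σ).2 b.ne_zero
    have hx1 : x = (u * u) * b * (σ b)⁻¹ := by
      rw [eq_mul_inv_iff_mul_eq₀ hsb]
      have : x * σ (b : F) = (u * u) * (x * ((u : F) * u)⁻¹ * σ b) := by
        have := u.ne_zero
        field_simp
      rw [this, hb]
    refine ⟨u * b * d⁻¹, ?_⟩
    rw [hx1]
    have h2 : (b : F) * σ b = d * d := by rw [← hc, hd]
    have h3 : (σ (b : F))⁻¹ = b * (d * d)⁻¹ := by
      rw [← h2, mul_inv]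
      rw [mul_inv_cancel_left₀ b.ne_zero]
    rw [h3, mul_inv]; ring

/-- the square root of a nonsquare of the subfield -/
theorem sqrt_nonsq (hι : ∀ x, σ x = x ↔ ∃ y, ι₀ y = x) (hr : orderOf σ = 2) {ε : F₀} (hε : ¬ IsSquare ε) {β : F}
    (hβ : β * β = ι₀ ε) : σ β = -β ∧ (IsSquare β ↔ IsSquare (-ε)) := by
  have hε0 : ε ≠ 0 := by rintro rfl; exact hε ⟨0, by simp⟩
  have hβ0 : β ≠ 0 := by
    rintro rfl
    rw [mul_zero] at hβ
    exact hε0 ((map_eq_zero ι₀).1 hβ.symm)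
  have h1 : σ β * σ β = β * β := by
    rw [← map_mul, hβ]; exact (hι _).2 ⟨ε, rfl⟩
  have h2 : σ β = -β := by
    rcases mul_self_eq_mul_self_iff.1 h1 with h | h
    · exfalso
      obtain ⟨b, hb⟩ := (hι β).1 h
      apply hε
      refine ⟨b, ι₀.injective ?_⟩
      rw [map_mul, hb, hβ]
    · exact h
  refine ⟨h2, sq_iff_norm hι hr hβ0 ?_⟩
  rw [h2, map_neg, ← hβ]; ring

theorem isSquare_neg_iff [Finite F₀] {ε : F₀} (hε : ¬ IsSquare ε) : IsSquare (-ε) ↔ ¬ IsSquare (-1 : F₀) := by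
  have hε0 : ε ≠ 0 := by rintro rfl; exact hε ⟨0, by simp⟩
  constructor
  · intro h h'
    apply hε
    have := h'.mul h
    rwa [neg_one_mul, neg_neg] at this
  · intro h
    have := isSquare_mul_of_not_isSquare h hε
    rwa [neg_one_mul] at this

end Crit

/-! ### Wall discriminant -/

section Wall

variable {F V : Type*} [Field F] [AddCommGroup V] [Module F V] [FiniteDimensional F V] {Q : QuadraticForm F V}

theorem wd_fpf {g : V ≃ₗ[F] V} (hg : g ∈ O Q) (hfix : fixS g = ⊥) {κ : Type*} [Fintype κ]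
    [DecidableEq κ] (b : Basis κ F V) :
    IsSquare (wd Q g * ((LinearMap.toMatrix b b (LinearMap.id - g.toLinearMap)).det *
      (LinearMap.BilinForm.toMatrix b (polarBilin Q)).det)) := by
  let E : (V ⧸ fixS g) ≃ₗ[F] V := Submodule.quotEquivOfEqBot (fixS g) hfix
  let c := finBasis F (V ⧸ fixS g)
  have h1 : wd Q g = (LinearMap.BilinForm.toMatrix (c.map E) (wallB Q g)).det := by
    rw [wd, dif_pos hg]
    congr 1
    ext i j
    rw [LinearMap.BilinForm.toMatrix_apply, LinearMap.BilinForm.toMatrix_apply, Basis.map_apply, Basis.map_apply]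
    have hE : ∀ x, Submodule.Quotient.mk (E x) = x := fun x => by
      obtain ⟨x, rfl⟩ := Submodule.Quotient.mk_surjective _ x
      rfl
    conv_lhs => rw [← hE (finBasis F (V ⧸ fixS g) i), ← hE (finBasis F (V ⧸ fixS g) j)]
    rw [wallQ_mk, wallB_apply]
  have h2 : wallB Q g = LinearMap.BilinForm.compLeft (polarBilin Q) (LinearMap.id - g.toLinearMap) := rfl
  have h3 := isSquare_det_mul_det (c.map E) b (wallB Q g)
  rw [← h1, h2, LinearMap.BilinForm.toMatrix_compLeft, Matrix.det_mul, Matrix.det_transpose, mul_comm] at h3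
  exact h3

end Wall

section Fpf

variable {ι : Type} [Fintype ι] [DecidableEq ι] {F : Type*} [Field F] [Finite F] {Q : QuadraticForm F (ι → F)}

theorem spO_fpf (hQ : Nd Q) (hgen : GenHyp Q) (s : ↥(O Q)) (hd : (1 - (iO Q s).1.1).det ≠ 0)
    (hA : IsSquare (LinearMap.BilinForm.toMatrix (Pi.basisFun F ι) (polarBilin Q)).det) :
    spO hQ hgen s = 1 ↔ IsSquare (1 - (iO Q s).1.1).det := by
  have h1 : LinearMap.toMatrix (Pi.basisFun F ι) (Pi.basisFun F ι) (LinearMap.id - (s : (ι → F) ≃ₗ[F] (ι → F)).toLinearMap) =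
      1 - (iO Q s).1.1 := by
    rw [map_sub, LinearMap.toMatrix_id]
    congr 1
  have hfix : fixS (s : (ι → F) ≃ₗ[F] (ι → F)) = ⊥ := by
    rw [eq_bot_iff]
    intro v hv
    rw [mem_fixS] at hv
    have h2 : (1 - (iO Q s).1.1) *ᵥ v = 0 := by
      rw [Matrix.sub_mulVec, Matrix.one_mulVec, iO_mulVec, hv, sub_self]
    have h3 : IsUnit (1 - (iO Q s).1.1) := (Matrix.isUnit_iff_isUnit_det _).2 (isUnit_iff_ne_zero.2 hd)
    rw [Submodule.mem_bot]
    have h4 := (Matrix.mulVec_injective_iff_isUnit.2 h3)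
    exact h4 (by rw [h2, Matrix.mulVec_zero])
  have key := wd_fpf (Q := Q) s.2 hfix (Pi.basisFun F ι)
  rw [h1] at key
  show sgn _ = 1 ↔ _
  rw [sgn_eq_one_iff]
  obtain ⟨a, ha⟩ := hA
  have ha0 : a ≠ 0 := by
    rintro rfl
    rw [mul_zero] at ha
    exact hQ.gram_ne_zero (Pi.basisFun F ι) ha
  rw [ha, ← mul_assoc, isSquare_mul_sq_iff ha0, mul_comm] at key
  constructor
  · intro h
    exact isSquare_of_mul_right (wd_ne_zero hQ _) h key
  · intro h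
    exact isSquare_of_mul_left hd h key

end Fpf

/-! ### the splitting -/

section Split2

variable {ι : Type} [Fintype ι] [DecidableEq ι] {F : Type*} [Field F] {F₀ : Type*} [Field F₀]
  {σ : F ≃+* F} {ι₀ : F₀ →+* F} {Q : QuadraticForm F (ι → F)} {Q₀ : QuadraticForm F₀ (ι → F₀)} {k : ℕ}

theorem gram_ex (D : Ds σ ι₀ Q Q₀) : (LinearMap.BilinForm.toMatrix (Pi.basisFun F ι) (polarBilin Q)).det =
    ι₀ (LinearMap.BilinForm.toMatrix (Pi.basisFun F₀ ι) (polarBilin Q₀)).det := by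
  rw [RingHom.map_det]
  congr 1
  ext i j
  rw [RingHom.mapMatrix_apply, Matrix.map_apply, LinearMap.BilinForm.toMatrix_apply, LinearMap.BilinForm.toMatrix_apply]
  show polar Q _ _ = ι₀ (polar Q₀ _ _)
  rw [Pi.basisFun_apply, Pi.basisFun_apply, Pi.basisFun_apply, Pi.basisFun_apply, ← ex_single ι₀ i, ← ex_single ι₀ j,
    D.polar_ex]

variable [Finite F] [Finite F₀]

theorem isSquare_gram (D : Ds σ ι₀ Q Q₀) (hr : orderOf σ = 2) :
    IsSquare (LinearMap.BilinForm.toMatrix (Pi.basisFun F ι) (polarBilin Q)).det := by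
  rw [gram_ex D]
  exact isSquare_of_two D.fix hr _

theorem Ev.caseA (D : Ds σ ι₀ Q Q₀) (h : Ev Q k) (h2 : ¬ (2 : F) = 0) (hr : orderOf σ = 2) : CaseA Q :=
  (h.gd.nd.neg_mem_Om_iff h2 (Pi.basisFun F ι)).2
    ⟨by rw [Module.finrank_pi, h.card]; exact even_two_mul k, isSquare_gram D hr⟩

theorem card_ou (H : Hyp Q k) (hA : CaseA Q) {δ : GO Q} {v : ι → F} (D : Dat H δ v) :
    Nat.card ↥((H.eps.ker).map (ou Q)) = 4 := by
  rcases D.d_sq with h | h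
  · obtain ⟨e⟩ := D.klein hA h
    rw [Nat.card_congr e.toEquiv]
    show Nat.card (ZMod 2 × ZMod 2) = 4
    rw [Nat.card_prod, Nat.card_zmod]
  · obtain ⟨e⟩ := D.cyc4 hA h
    rw [Nat.card_congr e.toEquiv]
    show Nat.card (ZMod 4) = 4
    rw [Nat.card_zmod]

theorem Ev.ker_eq (h : Ev Q k) (h2 : ¬ (2 : F) = 0) : h.eps.ker = (h.hyp h2).eps.ker := by
  ext g
  rw [MonoidHom.mem_ker, MonoidHom.mem_ker, h.eps_ne h2]

theorem Ev.ou_miG_one (D : Ds σ ι₀ Q Q₀) (h : Ev Q k) (h₀ : Ev Q₀ k) (h2 : ¬ (2 : F) = 0) (hr : orderOf σ = 2)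
    {g₀ : GO Q₀} (he : h₀.eps g₀ = 1) (hs : IsSquare (h₀.gd.mu g₀ : F₀)) : ou Q (D.miG g₀) = 1 := by
  obtain ⟨c, t, rfl, hpar⟩ := h₀.exists_par he hs
  obtain ⟨vs, hvs, rfl⟩ := exists_list_O h₀.gd.nd h₀.gen t
  rw [parO_prod h₀.gd.nd h₀.gen vs hvs] at hpar
  have e1 : D.miG (iO Q₀ (vs.map (rO Q₀)).prod) = iO Q ((vs.map (ex ι₀)).map (rO Q)).prod := by
    rw [iO_prod_rO, iO_prod_rO, map_list_prod, List.map_map, List.map_map]
    congr 1
    exact List.map_congr_left fun v _ => miG_rf D v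
  have hvs' : ∀ v ∈ vs.map (ex ι₀), Q v ≠ 0 := by
    intro v hv
    obtain ⟨u, hu, rfl⟩ := List.mem_map.1 hv
    rw [D.base]
    exact (map_ne_zero ι₀).2 (hvs u hu)
  rw [map_mul, D.miG_sc, e1, map_mul, ou_sc, one_mul, (h.hyp h2).ouA (h.caseA D h2 hr)]
  refine ⟨?_, ?_⟩
  · exact (parO_prod h.gd.nd h.gen _ hvs').2 (by rw [List.length_map]; exact hpar)
  · refine (spin_prod h.gd.nd h.gen _ hvs').trans (sgn_true ?_)
    have e2 : ((vs.map (ex ι₀)).map ⇑Q).prod = ι₀ (vs.map ⇑Q₀).prod := by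
      rw [map_list_prod, List.map_map, List.map_map]
      congr 1
      exact List.map_congr_left fun v _ => D.base v
    rw [e2]
    exact isSquare_of_two D.fix hr _

theorem Inn_le (h : Ev Q k) : Cfsg.Inn (Cfsg.POmega F ⇑Q) ≤ h.eps.ker.map (dg (Q := Q)) := by
  rw [Inn_eq]
  rintro _ ⟨g, hg, rfl⟩
  obtain ⟨s, rfl, hs⟩ := exists_iO_of_mem_OmG hg
  refine ⟨_, ?_, rfl⟩
  show _ ∈ h.eps.ker
  rw [MonoidHom.mem_ker, h.eps_iO]
  exact ((mem_Om_iff' h.gd.nd h.gen s).1 hs).1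

set_option maxHeartbeats 2000000 in
theorem Ev.split_r2 (D : Ds σ ι₀ Q Q₀) (h : Ev Q k) (h₀ : Ev Q₀ k) (h2 : ¬ (2 : F) = 0) (hr : orderOf σ = 2)
    (hmu : MuS h) {δ₀ : GO Q₀} (hδe : h₀.eps δ₀ = 1) (hδm : ¬ IsSquare (h₀.gd.mu δ₀ : F₀)) :
    splitClassCount ((h.eps.ker).map (dg (Q := Q))) (Cfsg.Inn (Cfsg.POmega F ⇑Q)) D.toSg.fd *
      Nat.card ↥(Subgroup.zpowers (ou Q (D.miG δ₀))) = 4 ∧
      ou Q (D.miG δ₀) * ou Q (D.miG δ₀) = 1 := by
  have hw : ou Q (D.miG δ₀) * ou Q (D.miG δ₀) = 1 := by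
    rw [← map_mul, ← map_mul]
    refine h.ou_miG_one D h₀ h2 hr (by rw [map_mul, hδe, one_mul]) ⟨h₀.gd.mu δ₀, ?_⟩
    rw [map_mul, Units.val_mul]
  refine ⟨?_, hw⟩
  rw [split_eq _ _ (Inn_le h), map_mk_dg, h.ker_eq h2]
  have hC : ((((h.hyp h2).eps.ker).map (dg (Q := Q)) ⊓ Subgroup.centralizer {D.toSg.fd}).map
      (QuotientGroup.mk' (Cfsg.Inn (Cfsg.POmega F ⇑Q)))) = Subgroup.zpowers (ou Q (D.miG δ₀)) := by
    apply le_antisymm
    · rintro _ ⟨_, ⟨⟨g, hg, rfl⟩, hc⟩, rfl⟩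
      have hc' : dg g * D.toSg.fd = D.toSg.fd * dg g := Subgroup.mem_centralizer_singleton_iff.1 hc
      obtain ⟨b, g₀, rfl⟩ := (D.commute_iff h.gd hr (by norm_num) g).1 hc'
      have hg' : h₀.eps g₀ = 1 := by
        rw [← h.ker_eq h2] at hg
        have : h.eps (sc Q b * D.miG g₀) = 1 := hg
        rwa [map_mul, h.eps_sc, one_mul, h.eps_miG D h₀] at this
      show ou Q (sc Q b * D.miG g₀) ∈ _
      rw [map_mul, ou_sc, one_mul]
      by_cases hs : IsSquare (h₀.gd.mu g₀ : F₀)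
      · rw [h.ou_miG_one D h₀ h2 hr hg' hs]
        exact one_mem _
      · have h3 : ou Q (D.miG (g₀ * δ₀⁻¹)) = 1 := by
          refine h.ou_miG_one D h₀ h2 hr (by rw [map_mul, map_inv, hδe, hg', inv_one, mul_one]) ?_
          rw [map_mul, map_inv, Units.val_mul, Units.val_inv_eq_inv_val]
          exact isSquare_mul_of_not_isSquare hs (by rwa [isSquare_inv])
        rw [map_mul, map_mul, map_inv, map_inv, mul_inv_eq_one] at h3
        rw [h3]
        exact Subgroup.mem_zpowers _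
    · rw [Subgroup.zpowers_le]
      refine ⟨dg (D.miG δ₀), ⟨⟨D.miG δ₀, ?_, rfl⟩, ?_⟩, rfl⟩
      · show _ ∈ (h.hyp h2).eps.ker
        rw [← h.ker_eq h2, MonoidHom.mem_ker, h.eps_miG D h₀, hδe]
      · show _ ∈ Subgroup.centralizer _
        rw [Subgroup.mem_centralizer_singleton_iff]
        exact (D.commute_iff h.gd hr (by norm_num) _).2 ⟨1, δ₀, by rw [sc_one, one_mul]⟩
  rw [hC]
  obtain ⟨ε, hε⟩ := exists_nonsq (F := F) h2
  have hε0 : ε ≠ 0 := by rintro rfl; exact hε ⟨0, by simp⟩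
  obtain ⟨δ, hδ1, hδ2⟩ := hmu (Units.mk0 ε hε0)
  obtain ⟨v, hv⟩ := (h.hyp h2).exists_Q one_ne_zero
  have hD : Dat (h.hyp h2) δ v := by
    refine ⟨?_, ?_, hv⟩
    · rcases Int.units_eq_one_or ((h.hyp h2).sig δ) with h3 | h3
      · exfalso
        rw [Hyp.sig_eq_one_iff, h.mu_hyp h2, hδ1] at h3
        exact hε h3
      · exact h3
    · rw [← h.eps_ne h2, hδ2]
  have hcard := card_ou (h.hyp h2) (h.caseA D h2 hr) hD
  have hle : Subgroup.zpowers (ou Q (D.miG δ₀)) ≤ ((h.hyp h2).eps.ker).map (ou Q) := by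
    rw [Subgroup.zpowers_le]
    refine ⟨D.miG δ₀, ?_, rfl⟩
    show _ ∈ (h.hyp h2).eps.ker
    rw [← h.ker_eq h2, MonoidHom.mem_ker, h.eps_miG D h₀, hδe]
  have h5 := Subgroup.relIndex_mul_relIndex ⊥ (Subgroup.zpowers (ou Q (D.miG δ₀))) (((h.hyp h2).eps.ker).map (ou Q)) bot_le hle
  rw [Subgroup.relIndex_bot_left, Subgroup.relIndex_bot_left, hcard, mul_comm] at h5
  exact h5

theorem Ev.split_r2_four (D : Ds σ ι₀ Q Q₀) (h : Ev Q k) (h₀ : Ev Q₀ k) (h2 : ¬ (2 : F) = 0) (hr : orderOf σ = 2)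
    (hmu : MuS h) {δ₀ : GO Q₀} (hδe : h₀.eps δ₀ = 1) (hδm : ¬ IsSquare (h₀.gd.mu δ₀ : F₀))
    (hw : ou Q (D.miG δ₀) = 1) :
    splitClassCount ((h.eps.ker).map (dg (Q := Q))) (Cfsg.Inn (Cfsg.POmega F ⇑Q)) D.toSg.fd = 4 := by
  obtain ⟨h3, h4⟩ := h.split_r2 D h₀ h2 hr hmu hδe hδm
  rw [hw, Subgroup.zpowers_one_eq_bot, Subgroup.card_bot, mul_one] at h3
  exact h3

theorem Ev.split_r2_two (D : Ds σ ι₀ Q Q₀) (h : Ev Q k) (h₀ : Ev Q₀ k) (h2 : ¬ (2 : F) = 0) (hr : orderOf σ = 2)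
    (hmu : MuS h) {δ₀ : GO Q₀} (hδe : h₀.eps δ₀ = 1) (hδm : ¬ IsSquare (h₀.gd.mu δ₀ : F₀))
    (hw : ou Q (D.miG δ₀) ≠ 1) :
    splitClassCount ((h.eps.ker).map (dg (Q := Q))) (Cfsg.Inn (Cfsg.POmega F ⇑Q)) D.toSg.fd = 2 := by
  obtain ⟨h3, h4⟩ := h.split_r2 D h₀ h2 hr hmu hδe hδm
  have h5 : orderOf (ou Q (D.miG δ₀)) = 2 := orderOf_eq_prime (by rw [pow_two, h4]) hw
  rw [Nat.card_zpowers, h5] at h3
  omega

/-- `miG δ₀` is inner up to scalars iff a determinant is a square -/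
theorem Ev.ou_miG_iff (D : Ds σ ι₀ Q Q₀) (h : Ev Q k) (h₀ : Ev Q₀ k) (h2 : ¬ (2 : F) = 0) (hr : orderOf σ = 2)
    {δ₀ : GO Q₀} (hδe : h₀.eps δ₀ = 1) {β : F} (hβ : β * β = ι₀ (h₀.gd.mu δ₀))
    (hd : (Matrix.scalar ι β - δ₀.1.1.map ι₀).det ≠ 0) :
    ou Q (D.miG δ₀) = 1 ↔ IsSquare (Matrix.scalar ι β - δ₀.1.1.map ι₀).det := by
  have hβ0 : β ≠ 0 := by
    rintro rfl
    rw [mul_zero] at hβ
    exact (h₀.gd.mu δ₀).ne_zero ((map_eq_zero ι₀).1 hβ.symm)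
  obtain ⟨s, hs⟩ := h.gd.exists_iO (g := sc Q (Units.mk0 β hβ0)⁻¹ * D.miG δ₀) (by
    rw [map_mul, h.gd.mu_sc, ← mul_inv, inv_mul_eq_one]
    apply Units.ext
    rw [D.mu_miG h.gd h₀.gd, Units.val_mul, Units.val_mk0, hβ]; rfl)
  have hs' : D.miG δ₀ = sc Q (Units.mk0 β hβ0) * iO Q s := by
    rw [← hs, ← mul_assoc, ← sc_mul, mul_inv_cancel, sc_one, one_mul]
  have hpar : (h.hyp h2).par s = 1 := by
    have := h.eps_miG D h₀ δ₀
    rw [hδe, hs', map_mul, h.eps_sc, one_mul, h.eps_iO] at this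
    exact this
  have hM : δ₀.1.1.map ι₀ = Matrix.scalar ι β * (iO Q s).1.1 := by
    have := congrArg (fun g : GO Q => g.1.1) hs'
    exact this
  have hdet : (Matrix.scalar ι β - δ₀.1.1.map ι₀).det = (1 - (iO Q s).1.1).det * (β ^ k * β ^ k) := by
    have : Matrix.scalar ι β - δ₀.1.1.map ι₀ = Matrix.scalar ι β * (1 - (iO Q s).1.1) := by
      rw [hM, mul_sub, mul_one]
    rw [this, Matrix.det_mul, Matrix.scalar_apply, Matrix.det_diagonal, Finset.prod_const, Finset.card_univ, h.card,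
      ← pow_add, mul_comm, two_mul]
  rw [hdet] at hd ⊢
  rw [hs', map_mul, ou_sc, one_mul, (h.hyp h2).ouA (h.caseA D h2 hr), isSquare_mul_sq_iff (pow_ne_zero _ hβ0),
    ← spO_fpf h.gd.nd h.gen s (left_ne_zero_of_mul hd) (isSquare_gram D hr)]
  exact ⟨fun h3 => h3.2, fun h3 => ⟨hpar, h3⟩⟩

end Split2

end Cfsg.Agent.Lib.OFld
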