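import Cfsg.Agent.Lib.OFldW

set_option autoImplicit false
set_option linter.unusedSectionVars false

/-!
# Involutory field automorphisms of `PΩ⁺`, odd characteristic: the class splitting (helper21)

* `plus_count`, `mixed_count` : number of `Inn`-classes for the plus type form over `F` with `F₀`-structure of plus type,
  resp. minus type.
-/

namespace Cfsg.Agent.Lib.OFld

open Matrix QuadraticMap Module
open Cfsg.Agent.Lib.Quad Cfsg.Agent.Lib.ClOrthSiegel Cfsg.Agent.Lib.ClOmega Cfsg.Agent.Lib.POmAut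
open Cfsg.Agent.Lib.Descent Cfsg.Agent.Lib.SplitCount
open Cfsg (IsConjUnder splitClassCount)

section Count

variable {F F₀ : Type*} [Field F] [Fintype F] [Field F₀] [Fintype F₀] {σ : F ≃+* F} {ι₀ : F₀ →+* F}

theorem cond_iff (hι : ∀ x, σ x = x ↔ ∃ y, ι₀ y = x) (hr : orderOf σ = 2) (h20 : (2 : F₀) ≠ 0) {ε : F₀} (hε : ¬ IsSquare ε)
    {β : F} (hβ : β * β = ι₀ ε) (m : ℕ) : ¬ IsSquare (β ^ m) ↔ (Odd m ∧ Fintype.card F₀ % 4 = 1) := by
  have hodd : Odd (Fintype.card F₀) := odd_card_of_two h20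
  have h1 : ¬ IsSquare β ↔ Fintype.card F₀ % 4 = 1 := by
    rw [(sqrt_nonsq hι hr hε hβ).2, isSquare_neg_iff hε, not_not, FiniteField.isSquare_neg_one_iff]
    obtain ⟨k, hk⟩ := hodd
    omega
  rcases Nat.even_or_odd m with he | ho
  · have h5 : ¬ Odd m := Nat.not_odd_iff_even.2 he
    have h6 := he.isSquare_pow β
    tauto
  · rw [← h1]
    refine ⟨fun h => ⟨ho, fun h' => h (h'.pow m)⟩, fun h => not_isSquare_pow_odd h.2 ho⟩

theorem exists_beta (hι : ∀ x, σ x = x ↔ ∃ y, ι₀ y = x) (hr : orderOf σ = 2) (h20 : (2 : F₀) ≠ 0) :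
    ∃ (ε : F₀ˣ) (β i : F), ¬ IsSquare (ε : F₀) ∧ β * β = ι₀ ε ∧ β ≠ 0 ∧ β ≠ 1 ∧ i * i = -1 ∧ i ≠ 0 := by
  obtain ⟨ε, hε⟩ := exists_nonsq (F := F₀) h20
  have hε0 : ε ≠ 0 := by rintro rfl; exact hε ⟨0, by simp⟩
  obtain ⟨β, hβ⟩ := isSquare_of_two hι hr ε
  obtain ⟨i, hi⟩ := isSquare_of_two hι hr (-1 : F₀)
  rw [map_neg, map_one] at hi
  refine ⟨Units.mk0 ε hε0, β, i, hε, hβ.symm, ?_, ?_, hi.symm, ?_⟩
  · rintro rfl
    rw [mul_zero] at hβ
    exact hε0 ((map_eq_zero ι₀).1 hβ)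
  · rintro rfl
    apply hε
    refine ⟨1, ι₀.injective ?_⟩
    rw [hβ, map_mul, map_one]
  · rintro rfl
    rw [mul_zero] at hi
    exact one_ne_zero (neg_eq_zero.1 hi)

theorem det_plus {m : ℕ} (ε : F₀ˣ) (β : F) :
    (Matrix.scalar (Fin m ⊕ Fin m) β - (dl m ε).1.map ι₀).det = (β - ι₀ ε) ^ m * (β - 1) ^ m := by
  have h1 : Matrix.scalar (Fin m ⊕ Fin m) β - (dl m ε).1.map ι₀ =
      fromBlocks ((β - ι₀ ε) • (1 : Matrix (Fin m) (Fin m) F)) 0 0 ((β - 1) • (1 : Matrix (Fin m) (Fin m) F)) := by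
    ext i j
    rcases i with i | i <;> rcases j with j | j
    · by_cases hij : i = j
      · subst hij; simp [dl]
      · simp [dl, hij]
    · simp [dl]
    · simp [dl]
    · by_cases hij : i = j
      · subst hij; simp [dl]
      · simp [dl, hij]
  rw [h1, Matrix.det_fromBlocks_zero₂₁, Matrix.det_smul, Matrix.det_smul]
  simp

theorem det_plus' {m : ℕ} {ε : F₀ˣ} {β i : F} (hβ : β * β = ι₀ ε) (hi : i * i = -1) :
    (Matrix.scalar (Fin m ⊕ Fin m) β - (dl m ε).1.map ι₀).det = β ^ m * ((i * (β - 1)) ^ m * (i * (β - 1)) ^ m) := by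
  rw [det_plus, ← hβ, ← mul_pow, ← mul_pow, ← mul_pow]
  congr 1
  linear_combination -β * (β - 1) * (β - 1) * hi

theorem plus_count {m : ℕ} (hm : 4 ≤ m) (hι : ∀ x, σ x = x ↔ ∃ y, ι₀ y = x) (hr : orderOf σ = 2) (h2 : ¬ (2 : F) = 0) :
    ((Odd m ∧ Fintype.card F₀ % 4 = 1) → splitClassCount (((ev_plus (F := F) hm).eps.ker).map (dg (Q := quadPlus m F)))
      (Cfsg.Inn (Cfsg.POmega F ⇑(quadPlus m F))) (sg_plus (m := m) σ).fd = 2) ∧
    (¬ (Odd m ∧ Fintype.card F₀ % 4 = 1) → splitClassCount (((ev_plus (F := F) hm).eps.ker).map (dg (Q := quadPlus m F)))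
      (Cfsg.Inn (Cfsg.POmega F ⇑(quadPlus m F))) (sg_plus (m := m) σ).fd = 4) := by
  have h20 : (2 : F₀) ≠ 0 := fun e => h2 (by rw [← map_ofNat ι₀ 2, e, map_zero])
  obtain ⟨ε, β, i, hε, hβ, hβ0, hβ1, hi, hi0⟩ := exists_beta hι hr h20
  have D := ds_plus (m := m) hι
  have hmuv : (ev_plus (F := F₀) hm).gd.mu (dlG m ε) = ε := by
    apply Units.ext
    exact (ev_plus hm).gd.mu_eq fun v => dl_Q ε v
  have heps : (ev_plus (F := F₀) hm).eps (dlG m ε) = 1 := by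
    rw [(ev_plus hm).eps_ne h20]
    exact eps_dlG _ ε
  have hdet := det_plus' (m := m) hβ hi
  have hne : i * (β - 1) ≠ 0 := mul_ne_zero hi0 (sub_ne_zero.2 hβ1)
  have key := (ev_plus (F := F) hm).ou_miG_iff D (ev_plus (F := F₀) hm) h2 hr heps (β := β) (by rw [hmuv]; exact hβ) (by
    show (Matrix.scalar (Fin m ⊕ Fin m) β - (dl m ε).1.map ι₀).det ≠ 0
    rw [hdet]
    exact mul_ne_zero (pow_ne_zero _ hβ0) (mul_ne_zero (pow_ne_zero _ hne) (pow_ne_zero _ hne)))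
  have key2 : ou (quadPlus m F) (D.miG (dlG m ε)) = 1 ↔ IsSquare (β ^ m) := by
    rw [key]
    show IsSquare (Matrix.scalar (Fin m ⊕ Fin m) β - (dl m ε).1.map ι₀).det ↔ _
    rw [hdet, isSquare_mul_sq_iff (pow_ne_zero _ hne)]
  have hcond := cond_iff hι hr h20 hε hβ m
  constructor
  · intro h
    refine (ev_plus (F := F) hm).split_r2_two D (ev_plus (F := F₀) hm) h2 hr (muS_plus hm) heps (by rw [hmuv]; exact hε) ?_
    intro h'
    exact (hcond.2 h) (key2.1 h')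
  · intro h
    refine (ev_plus (F := F) hm).split_r2_four D (ev_plus (F := F₀) hm) h2 hr (muS_plus hm) heps (by rw [hmuv]; exact hε) ?_
    rw [key2]
    by_contra h'
    exact h (hcond.1 h')

/-! ### the minus type form over the subfield -/

/-- multiplication by `s + t ω` -/
def P2 {K : Type*} [Field K] (a b s t : K) : Matrix (Fin 2) (Fin 2) K := !![s, -(b * t); t, s + a * t]

theorem P2_det {K : Type*} [Field K] (a b s t : K) : (P2 a b s t).det = s ^ 2 + a * s * t + b * t ^ 2 := by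
  rw [P2, Matrix.det_fin_two_of]; ring

/-- block matrix -/
noncomputable def em {K : Type*} [Field K] {a b : K} (n : ℕ) (c : Kˣ) (s t : K)
    (hst : s ^ 2 + a * s * t + b * t ^ 2 = c) : GL ((Fin n ⊕ Fin n) ⊕ Fin 2) K :=
  GeneralLinearGroup.mkOfDetNeZero (fromBlocks (dl n c).1 0 0 (P2 a b s t)) (by
    rw [Matrix.det_fromBlocks_zero₂₁, dl_det, P2_det, hst]
    exact mul_ne_zero (pow_ne_zero _ c.ne_zero) c.ne_zero)

section Em

variable {K : Type*} [Field K] {a b : K} {n : ℕ} {c : Kˣ} {s t : K} {hst : s ^ 2 + a * s * t + b * t ^ 2 = c}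

theorem em_coe : (em n c s t hst).1 = fromBlocks (dl n c).1 0 0 (P2 a b s t) := rfl

theorem em_det : (em n c s t hst).1.det = (c : K) ^ (n + 1) := by
  rw [em_coe, Matrix.det_fromBlocks_zero₂₁, dl_det, P2_det, hst, pow_succ]

theorem em_Q (v : (Fin n ⊕ Fin n) ⊕ Fin 2 → K) :
    quadMinus n K a b ((em n c s t hst).1 *ᵥ v) = c * quadMinus n K a b v := by
  have h1 : ((em n c s t hst).1 *ᵥ v) ∘ Sum.inl = (dl n c).1 *ᵥ (v ∘ Sum.inl) := by
    funext i
    show ((em n c s t hst).1 *ᵥ v) (Sum.inl i) = _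
    rw [em_coe, fromBlocks_mulVec]
    simp
  have h2 : ∀ j, ((em n c s t hst).1 *ᵥ v) (Sum.inr j) = (P2 a b s t *ᵥ (v ∘ Sum.inr)) j := by
    intro j
    rw [em_coe, fromBlocks_mulVec]
    simp
  have h3 : (P2 a b s t *ᵥ (v ∘ Sum.inr)) 0 = s * v (.inr 0) - b * t * v (.inr 1) := by
    simp [P2, Matrix.mulVec, dotProduct, Fin.sum_univ_two]; ring
  have h4 : (P2 a b s t *ᵥ (v ∘ Sum.inr)) 1 = t * v (.inr 0) + (s + a * t) * v (.inr 1) := by
    simp [P2, Matrix.mulVec, dotProduct, Fin.sum_univ_two]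
  rw [quadMinus_split, quadMinus_split, h1, dl_Q, h2, h2, h3, h4, ← hst]
  ring

/-- the proper similarity of the minus form -/
noncomputable def emG (n : ℕ) (c : Kˣ) (s t : K) (hst : s ^ 2 + a * s * t + b * t ^ 2 = c) : GO (quadMinus n K a b) :=
  ⟨em n c s t hst, mem_GO.2 ⟨c, em_Q⟩⟩

theorem mu_emG (h : Gd (quadMinus n K a b)) : h.mu (emG n c s t hst) = c := by
  apply Units.ext
  exact h.mu_eq fun v => em_Q (hst := hst) v

end Em

theorem det_mixed {n : ℕ} {a b : F₀} {ε : F₀ˣ} {s t : F₀} (hst : s ^ 2 + a * s * t + b * t ^ 2 = ε) {β i : F}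
    (hβ : β * β = ι₀ ε) (hi : i * i = -1) :
    (Matrix.scalar ((Fin n ⊕ Fin n) ⊕ Fin 2) β - (em n ε s t hst).1.map ι₀).det =
      β ^ (n + 1) * (2 * β - ι₀ (2 * s + a * t)) * ((i * (β - 1)) ^ n * (i * (β - 1)) ^ n) := by
  have h1 : Matrix.scalar ((Fin n ⊕ Fin n) ⊕ Fin 2) β - (em n ε s t hst).1.map ι₀ =
      fromBlocks (Matrix.scalar (Fin n ⊕ Fin n) β - (dl n ε).1.map ι₀) 0 0
        !![β - ι₀ s, ι₀ (b * t); - ι₀ t, β - ι₀ (s + a * t)] := by
    ext i j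
    rcases i with i | i <;> rcases j with j | j
    · by_cases hij : i = j
      · subst hij; simp [em_coe]
      · simp [em_coe, hij]
    · simp [em_coe]
    · simp [em_coe]
    · fin_cases i <;> fin_cases j <;> simp [em_coe, P2]
  rw [h1, Matrix.det_fromBlocks_zero₂₁, det_plus' hβ hi, Matrix.det_fin_two_of]
  have h2 : (β - ι₀ s) * (β - ι₀ (s + a * t)) - ι₀ (b * t) * -ι₀ t = β * (2 * β - ι₀ (2 * s + a * t)) := by
    have h3 : ι₀ (s ^ 2 + a * s * t + b * t ^ 2) = β * β := by rw [hst, hβ]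
    simp only [map_add, map_mul, map_pow, map_ofNat] at h3 ⊢
    linear_combination h3
  rw [h2, pow_succ]; ring

/-- the form `quadMinus` with possibly isotropic binary part -/
theorem ev_mixed {n : ℕ} (hn : 3 ≤ n) {a b : F} (hd : a ^ 2 - 4 * b ≠ 0) : Ev (quadMinus n F a b) (n + 1) where
  gd := gd_of (nd_quadMinus hd) (genHyp_minus n (by omega) a b) (hpMinus n a b) hn (by rw [finrank_minus]; omega)
  gen := genHyp_minus n (by omega) a b
  card := by simp; omega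
  pos := by omega

theorem mixed_count {n : ℕ} (hn : 3 ≤ n) {a b : F₀}
    (hab : ∀ z₁ z₂ : F₀, z₁ ^ 2 + a * z₁ * z₂ + b * z₂ ^ 2 = 0 → z₁ = 0 ∧ z₂ = 0)
    (hι : ∀ x, σ x = x ↔ ∃ y, ι₀ y = x) (hr : orderOf σ = 2) (h2 : ¬ (2 : F) = 0)
    (h : Ev (quadMinus n F (ι₀ a) (ι₀ b)) (n + 1)) (hmu : MuS h) :
    ((Odd (n + 1) ∧ Fintype.card F₀ % 4 = 1) → splitClassCount ((h.eps.ker).map (dg (Q := quadMinus n F (ι₀ a) (ι₀ b))))
      (Cfsg.Inn (Cfsg.POmega F ⇑(quadMinus n F (ι₀ a) (ι₀ b)))) (ds_minus (m := n) hι a b).toSg.fd = 4) ∧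
    (¬ (Odd (n + 1) ∧ Fintype.card F₀ % 4 = 1) → splitClassCount ((h.eps.ker).map (dg (Q := quadMinus n F (ι₀ a) (ι₀ b))))
      (Cfsg.Inn (Cfsg.POmega F ⇑(quadMinus n F (ι₀ a) (ι₀ b)))) (ds_minus (m := n) hι a b).toSg.fd = 2) := by
  have h20 : (2 : F₀) ≠ 0 := fun e => h2 (by rw [← map_ofNat ι₀ 2, e, map_zero])
  obtain ⟨ε, β, i, hε, hβ, hβ0, hβ1, hi, hi0⟩ := exists_beta hι hr h20
  have D := ds_minus (m := n) hι a b
  obtain ⟨s, t, hst⟩ := exists_st hab (ε : F₀)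
  have h₀ := ev_minus (m := n) hab hn
  have hmuv : h₀.gd.mu (emG n ε s t hst) = ε := mu_emG h₀.gd
  have heps : h₀.eps (emG n ε s t hst) = 1 := by
    rw [h₀.eps_ne h20, Hyp.eps_eq_one_iff, h₀.mu_hyp h20, hmuv]
    exact em_det (hst := hst)
  have hdet := det_mixed (n := n) hst hβ hi
  have hne : i * (β - 1) ≠ 0 := mul_ne_zero hi0 (sub_ne_zero.2 hβ1)
  -- `2 β - τ` is not a square
  have hσβ := (sqrt_nonsq hι hr hε hβ).1
  have ht : t ≠ 0 := by
    rintro rfl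
    apply hε
    rw [← hst]
    exact ⟨s, by ring⟩
  have hτ0 : 2 * β - ι₀ (2 * s + a * t) ≠ 0 := by
    intro h'
    have h3 := congrArg σ h'
    have h4 : σ (ι₀ (2 * s + a * t)) = ι₀ (2 * s + a * t) := (hι _).2 ⟨_, rfl⟩
    rw [map_sub, map_mul, map_ofNat, hσβ, h4, map_zero] at h3
    have h5 : (2 * 2 : F) * β = 0 := by linear_combination h' - h3
    exact (mul_ne_zero (mul_ne_zero h2 h2) hβ0) h5
  have hτ : ¬ IsSquare (2 * β - ι₀ (2 * s + a * t)) := by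
    have h4 : σ (ι₀ (2 * s + a * t)) = ι₀ (2 * s + a * t) := (hι _).2 ⟨_, rfl⟩
    rw [sq_iff_norm hι hr hτ0 (y := (a ^ 2 - 4 * b) * (t * t)) ?_, isSquare_mul_sq_iff ht]
    · exact not_isSquare_disc h20 hab
    · rw [map_sub, map_mul, map_ofNat, hσβ, h4]
      have h3 : ι₀ (s ^ 2 + a * s * t + b * t ^ 2) = β * β := by rw [hst, hβ]
      simp only [map_add, map_mul, map_pow, map_ofNat, map_sub] at h3 ⊢
      linear_combination 4 * h3
  have hne3 : β ^ (n + 1) * (2 * β - ι₀ (2 * s + a * t)) * ((i * (β - 1)) ^ n * (i * (β - 1)) ^ n) ≠ 0 :=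
    mul_ne_zero (mul_ne_zero (pow_ne_zero _ hβ0) hτ0) (mul_ne_zero (pow_ne_zero _ hne) (pow_ne_zero _ hne))
  have key := h.ou_miG_iff D h₀ h2 hr heps (β := β) (by rw [hmuv]; exact hβ) (by
    show (Matrix.scalar ((Fin n ⊕ Fin n) ⊕ Fin 2) β - (em n ε s t hst).1.map ι₀).det ≠ 0
    rw [hdet]
    exact hne3)
  have key2 : ou (quadMinus n F (ι₀ a) (ι₀ b)) (D.miG (emG n ε s t hst)) = 1 ↔ ¬ IsSquare (β ^ (n + 1)) := by
    rw [key]
    show IsSquare (Matrix.scalar ((Fin n ⊕ Fin n) ⊕ Fin 2) β - (em n ε s t hst).1.map ι₀).det ↔ _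
    rw [hdet, isSquare_mul_sq_iff (pow_ne_zero _ hne)]
    constructor
    · intro h3 h4
      exact hτ (isSquare_of_mul_left (pow_ne_zero _ hβ0) h4 h3)
    · intro h3
      exact isSquare_mul_of_not_isSquare h3 hτ
  have hcond := cond_iff hι hr h20 hε hβ (n + 1)
  constructor
  · intro h'
    exact h.split_r2_four D h₀ h2 hr hmu heps (by rw [hmuv]; exact hε) (key2.2 (hcond.2 h'))
  · intro h'
    exact h.split_r2_two D h₀ h2 hr hmu heps (by rw [hmuv]; exact hε) (fun h3 => h' (hcond.1 (key2.1 h3)))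

end Count

end Cfsg.Agent.Lib.OFld
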