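import Cfsg.Agent.Lib.OFldX
import Cfsg.Agent.Lib.PSLField3

set_option autoImplicit false
set_option linter.unusedSectionVars false

/-!
# Involutory graph-field automorphisms of `PΩ⁺` (helper21)

* `Tr.tA_fd` : transport of field automorphisms.
* `exists_form` : conjugates of `dg g * fd σ`.
* `gf_main`.
-/

namespace Cfsg.Agent.Lib.OFld

open Matrix QuadraticMap Module
open Cfsg.Agent.Lib.Quad Cfsg.Agent.Lib.ClOrthSiegel Cfsg.Agent.Lib.ClOmega Cfsg.Agent.Lib.POmAut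
open Cfsg.Agent.Lib.Descent Cfsg.Agent.Lib.SplitCount
open Cfsg.Agent.Lib.PSLAut (quotAut aut_ext)
open Cfsg.Agent.Lib.OAut (Semi poEquiv poEquiv_mk H2)
open Cfsg (IsConjUnder splitClassCount)

section Transport

variable {ι κ : Type} [Fintype ι] [DecidableEq ι] [Fintype κ] [DecidableEq κ] {F : Type*} [Field F]
  {e : (ι → F) ≃ₗ[F] (κ → F)} {c : F} {Q : QuadraticForm F (ι → F)} {Q' : QuadraticForm F (κ → F)}

theorem Tr.tA_fd (T : Tr e c Q Q') {σ : F ≃+* F} (S : Sg σ Q) (S' : Sg σ Q') {g : GO Q'}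
    (hg : ∀ v, g.1.1 *ᵥ sv σ (e v) = e (sv σ v)) : T.tA S.fd = dg g * S'.fd := by
  refine T.tA_eq fun s => ?_
  show dg g (S'.fd (QuotientGroup.mk (comIso T.tI s))) = _
  rw [S'.fd_mk, dg_mk, S.fd_mk, T.tP_mk]
  congr 1
  apply Subtype.ext
  apply Subtype.ext
  rw [co_coe, S'.fO_coe]
  show g.1 * mp σ (trGL e s.1.1) * g.1⁻¹ = trGL e (mp σ s.1.1)
  rw [mul_inv_eq_iff_eq_mul]
  apply Units.ext
  apply matrix_ext_of_mulVec
  intro w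
  obtain ⟨w, rfl⟩ := sv_surj σ w
  obtain ⟨v, rfl⟩ := e.surjective w
  rw [Units.val_mul, Units.val_mul, ← Matrix.mulVec_mulVec, ← Matrix.mulVec_mulVec, hg, trGL_mulVec, mp_coe, mp_coe,
    ← sv_mulVec, ← sv_mulVec, trGL_mulVec, hg]

theorem Tr.muS [Finite F] {k : ℕ} (T : Tr e c Q Q') {h : Ev Q k} {h' : Ev Q' k} (hm : MuS h') : MuS h := by
  intro d
  obtain ⟨g, hg1, hg2⟩ := hm d
  obtain ⟨g, rfl⟩ := T.tG.surjective g
  refine ⟨g, ?_, ?_⟩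
  · rw [← hg1, T.mu_tG h.gd]
  · rw [← hg2, T.eps_tG h]

end Transport

section Form

variable {ι : Type} [Fintype ι] [DecidableEq ι] {F : Type*} [Field F] [Finite F] {Q : QuadraticForm F (ι → F)}

theorem aut_comm (σ τ : F ≃+* F) : σ * τ = τ * σ := by
  have := Fintype.ofFinite F
  have hc := Lib.FFAut.isCyclic_aut (F := F)
  obtain ⟨g, hg⟩ := hc.exists_generator
  obtain ⟨i, rfl⟩ := hg σ
  obtain ⟨j, rfl⟩ := hg τ
  show g ^ i * g ^ j = g ^ j * g ^ i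
  rw [← _root_.zpow_add, ← _root_.zpow_add, add_comm]

theorem invol_unique {F : Type*} [Field F] [Fintype F] {p f : ℕ} [Fact p.Prime] (hF : Fintype.card F = p ^ f) (hf : 1 ≤ f)
    {σ τ : F ≃+* F} (hσ : orderOf σ = 2) (hτ : orderOf τ = 2) : σ = τ := by
  ext x
  rw [Lib.FFAut.eq_pow_of_orderOf_two hF hf hσ, Lib.FFAut.eq_pow_of_orderOf_two hF hf hτ]

/-- conjugates of `dg g * fd` -/
theorem exists_form {k : ℕ} (h : Ev Q k) (hsur : Function.Surjective (sa (Q := Q))) (hSg : ∀ τ : F ≃+* F, Sg τ Q)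
    {σ : F ≃+* F} (S : Sg σ Q) (α : MulAut (Cfsg.POmega F ⇑Q)) (g : GO Q) :
    ∃ g' : GO Q, h.eps g' = h.eps g ∧ α * (dg g * S.fd) * α⁻¹ = dg g' * S.fd := by
  obtain ⟨s, rfl⟩ := hsur α
  have T : Sg s.σ Q := hSg s.σ
  obtain ⟨a, ha⟩ := exists_toS h.gd (s := s * (fS T)⁻¹) (by
    have : Semi.sig (s * (fS T)⁻¹) = 1 := by
      rw [map_mul, map_inv]
      exact mul_inv_cancel _
    exact this)
  have hs : sa s = dg a * T.fd := by
    rw [← sa_toS h.gd, ← sa_fS T, ← map_mul, ← ha, inv_mul_cancel_right]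
  have hcomm : T.fd * S.fd = S.fd * T.fd := by
    rw [← T.fd_mul S (T.mul S), ← S.fd_mul T (S.mul T)]
    congr 1
    exact aut_comm _ _
  refine ⟨a * T.fG g * (S.fG a)⁻¹, ?_, ?_⟩
  · rw [map_mul, map_mul, map_inv, h.eps_fG, h.eps_fG, mul_comm (h.eps a), mul_inv_cancel_right]
  · have e1 : T.fd * dg g = dg (T.fG g) * T.fd := T.fd_dg g
    have e2 : S.fd * (dg a)⁻¹ = (dg (S.fG a))⁻¹ * S.fd := by
      rw [← map_inv, S.fd_dg, map_inv, map_inv]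
    rw [hs, _root_.mul_inv_rev]
    calc dg a * T.fd * (dg g * S.fd) * (T.fd⁻¹ * (dg a)⁻¹)
        = dg a * (T.fd * dg g) * S.fd * T.fd⁻¹ * (dg a)⁻¹ := by simp only [mul_assoc]
      _ = dg a * dg (T.fG g) * (T.fd * S.fd) * T.fd⁻¹ * (dg a)⁻¹ := by rw [e1]; simp only [mul_assoc]
      _ = dg a * dg (T.fG g) * (S.fd * (dg a)⁻¹) := by rw [hcomm]; simp only [mul_assoc, mul_inv_cancel_left]
      _ = dg (a * T.fG g * (S.fG a)⁻¹) * S.fd := by rw [e2, map_mul, map_mul, map_inv]; simp only [mul_assoc]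

end Form

section Main

variable {F F₀ : Type*} [Field F] [Fintype F] [Field F₀] [Fintype F₀] {σ : F ≃+* F} {ι₀ : F₀ →+* F} {m : ℕ}

/-- the quadratic space of a graph-field involution -/
theorem gf_space (hm : 5 ≤ m) (hι : ∀ x, σ x = x ↔ ∃ y, ι₀ y = x) (hr : orderOf σ = 2) {g : GO (quadPlus m F)}
    (hge : (ev_plus (F := F) (m := m) (by omega)).eps g = -1) (hN : (sg_plus (m := m) σ).nkG g 2 = 1) :
    ∃ (ζ : F₀) (_ : ∀ t : F₀, t ^ 2 + t + ζ ≠ 0) (c : F)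
      (e : (((Fin (m - 1) ⊕ Fin (m - 1)) ⊕ Fin 2) → F) ≃ₗ[F] (Fin m ⊕ Fin m → F)),
      Tr e c (quadMinus (m - 1) F (ι₀ 1) (ι₀ ζ)) (quadPlus m F) ∧ ∀ v, g.1.1 *ᵥ sv σ (e v) = e (sv σ v) := by
  have hm4 : 4 ≤ m := by omega
  obtain ⟨-, ⟨ε'⟩⟩ := equivs (ι := Fin m ⊕ Fin m) (k := m) (by omega) (by simp; omega)
  have hev := ev_plus (F := F) hm4
  have D := ds_plus (m := m) hι
  obtain ⟨Q', Q₁, -, D1, hn1', hnd1, hd1⟩ := dsc_exists hι hev.gd (sg_plus (m := m) σ) hr (by norm_num) hN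
  have hrP : rP (Equiv.refl (Fin m ⊕ Fin m)) F₀ = quadPlus m F₀ := by
    ext v
    rfl
  have hk1 : 1 ≤ m := by omega
  rcases pl_or_mi (Equiv.refl (Fin m ⊕ Fin m)) ε' hk1 hnd1 with h1 | ⟨ζ, hζ, h1⟩
  · exfalso
    rw [hrP] at h1
    obtain ⟨c, hc⟩ := D.dsc_conj hd1 D.dsc_one h1
    have h2 := congrArg hev.eps hc
    rw [map_mul, map_mul, map_inv, map_one, mul_one, hev.eps_fG, mul_inv_cancel] at h2
    have h3 : hev.eps g = -1 := hge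
    rw [h2] at h3
    exact absurd h3 (by decide)
  obtain ⟨h', b, hb, hgh, hh⟩ := hd1
  obtain ⟨k₁, l, hl, hk⟩ := h1
  have hl' : ι₀ l ≠ 0 := (map_ne_zero ι₀).2 hl
  have key : ∀ v, quadPlus m F ((h' * mi ι₀ k₁).1 *ᵥ v) = (b * ι₀ l) * rM ε' F (ι₀ 1) (ι₀ ζ) v := by
    refine sim_of_base ι₀ fun u => ?_
    rw [Units.val_mul, ← Matrix.mulVec_mulVec, mi_ex, hh, hk, (ds_rM ε' hι 1 ζ).base, map_mul]; ring
  refine ⟨ζ, hζ, b * ι₀ l, (fc F ε').symm.trans (toLE (h' * mi ι₀ k₁)), ⟨mul_ne_zero hb hl', fun v => ?_⟩, fun v => ?_⟩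
  · rw [LinearEquiv.trans_apply, toLE_apply, key, rM_apply, LinearEquiv.apply_symm_apply]
  · rw [LinearEquiv.trans_apply, LinearEquiv.trans_apply, toLE_apply, toLE_apply]
    have h3 : sv σ ((fc F ε').symm v) = (fc F ε').symm (sv σ v) := rfl
    have h4 : g.1 * mp σ (h' * mi ι₀ k₁) = h' * mi ι₀ k₁ := by
      rw [map_mul, D.mp_mi, hgh, ← mul_assoc, inv_mul_cancel_right]
    rw [sv_mulVec, h3, ← mp_coe, Matrix.mulVec_mulVec, ← Units.val_mul, h4]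

theorem gf_space' {n : ℕ} (hn : 4 ≤ n) (h5 : 4 ≤ n + 1) (hι : ∀ x, σ x = x ↔ ∃ y, ι₀ y = x) (hr : orderOf σ = 2)
    {g : GO (quadPlus (n + 1) F)} (hge : (ev_plus (F := F) h5).eps g = -1) (hN : (sg_plus (m := n + 1) σ).nkG g 2 = 1) :
    ∃ (ζ : F₀) (_ : ∀ t : F₀, t ^ 2 + t + ζ ≠ 0) (c : F)
      (e : (((Fin n ⊕ Fin n) ⊕ Fin 2) → F) ≃ₗ[F] (Fin (n + 1) ⊕ Fin (n + 1) → F)),
      Tr e c (quadMinus n F (ι₀ 1) (ι₀ ζ)) (quadPlus (n + 1) F) ∧ ∀ v, g.1.1 *ᵥ sv σ (e v) = e (sv σ v) :=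
  gf_space (m := n + 1) (by omega) hι hr hge hN

set_option maxHeartbeats 1000000 in
theorem gf_main {p f : ℕ} [Fact p.Prime] (hF : Fintype.card F = p ^ f) (hf : 1 ≤ f) {n : ℕ} (hn : 4 ≤ n) (h5 : 4 ≤ n + 1)
    (hr : orderOf σ = 2) {g : GO (quadPlus (n + 1) F)} (hge : (ev_plus (F := F) h5).eps g = -1)
    (ho : (dg g * (sg_plus (m := n + 1) σ).fd) ^ 2 = 1) (hF₀ : Fintype.card F₀ = p ^ (f / 2)) (hn3 : 3 ≤ n) :
    2 ∣ f ∧ (∃ (a₀ b₀ : F₀) (hab0 : ∀ z₁ z₂ : F₀, z₁ ^ 2 + a₀ * z₁ * z₂ + b₀ * z₂ ^ 2 = 0 → z₁ = 0 ∧ z₂ = 0),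
      Nonempty (↥(((ev_plus (F := F) h5).eps.ker).map (dg (Q := quadPlus (n + 1) F)) ⊓
          Subgroup.centralizer {dg g * (sg_plus (m := n + 1) σ).fd}) ≃*
        ↥(((ev_minus hab0 hn3).eps.ker).map (dg (Q := quadMinus n F₀ a₀ b₀))))) ∧
      (¬ (2 : F) = 0 → ((Odd (n + 1) ∧ Fintype.card F₀ % 4 = 1) →
        splitClassCount (((ev_plus (F := F) h5).eps.ker).map (dg (Q := quadPlus (n + 1) F)))
          (Cfsg.Inn (Cfsg.POmega F ⇑(quadPlus (n + 1) F))) (dg g * (sg_plus (m := n + 1) σ).fd) = 4) ∧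
        (¬ (Odd (n + 1) ∧ Fintype.card F₀ % 4 = 1) →
        splitClassCount (((ev_plus (F := F) h5).eps.ker).map (dg (Q := quadPlus (n + 1) F)))
          (Cfsg.Inn (Cfsg.POmega F ⇑(quadPlus (n + 1) F))) (dg g * (sg_plus (m := n + 1) σ).fd) = 2)) := by
  obtain ⟨hrf, ι₀, hι⟩ := Lib.FFAut.exists_embedding hF hf hr (by norm_num) F₀ hF₀
  refine ⟨hrf, ?_⟩
  have hev := ev_plus (F := F) h5
  obtain ⟨a, ha⟩ := norm_one hev.gd (sg_plus (m := n + 1) σ) hr (by norm_num) ho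
  have hdg : dg g = dg (sc _ a * g) := by rw [map_mul, dg_sc, one_mul]
  have hge' : hev.eps (sc _ a * g) = -1 := by rw [map_mul, hev.eps_sc, one_mul]; exact hge
  obtain ⟨ζ, hζ, c, e, T, he⟩ := gf_space' hn h5 hι hr hge' ha
  have hab0 := anis_of_root hζ
  have hdisc : (ι₀ 1) ^ 2 - 4 * ι₀ ζ ≠ 0 := by
    have h1 := disc_ne_zero_of_anisotropic hab0
    intro h2
    apply h1
    apply ι₀.injective
    rw [map_sub, map_mul, map_pow, map_ofNat, h2, map_zero]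
  have hmx : Ev (quadMinus n F (ι₀ 1) (ι₀ ζ)) (n + 1) := ev_mixed hn3 hdisc
  have hmuS : MuS hmx := Tr.muS T (h := hmx) (h' := hev) (muS_plus h5)
  have D : Ds σ ι₀ (quadMinus n F (ι₀ 1) (ι₀ ζ)) (quadMinus n F₀ 1 ζ) := ds_minus (m := n) hι 1 ζ
  have hfd : T.tA D.toSg.fd = dg g * (sg_plus (m := n + 1) σ).fd := by
    rw [hdg]
    exact T.tA_fd D.toSg (sg_plus (m := n + 1) σ) he
  have hmap := T.map_dg hmx hev
  have h₀ := ev_minus (m := n) hab0 hn3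
  refine ⟨⟨1, ζ, hab0, ?_⟩, fun h2 => ?_⟩
  · obtain ⟨e1⟩ := D.centralizer_fd hmx.gd h₀.gd hr (by norm_num)
      (P := hmx.eps.ker) (P₀ := h₀.eps.ker) (fun c => hmx.eps_sc c) (fun g => by
        rw [MonoidHom.mem_ker, MonoidHom.mem_ker, hmx.eps_miG D h₀])
    have e2 := centMap T.tA ((hmx.eps.ker).map (dg (Q := quadMinus n F (ι₀ 1) (ι₀ ζ)))) D.toSg.fd
    refine ⟨(e2.trans (MulEquiv.subgroupCongr ?_)).symm.trans e1⟩
    rw [hfd, hmap]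
  · obtain ⟨c1, c2⟩ := mixed_count hn3 hab0 hι hr h2 hmx hmuS
    rw [← hmap, ← inn_map T.tP, ← hfd]
    have hs := splitClassCount_map T.tA ((hmx.eps.ker).map (dg (Q := quadMinus n F (ι₀ 1) (ι₀ ζ))))
      (Cfsg.Inn (Cfsg.POmega F ⇑(quadMinus n F (ι₀ 1) (ι₀ ζ)))) D.toSg.fd
    exact ⟨fun h => hs.trans (c1 h), fun h => hs.trans (c2 h)⟩

/-- the shape of an involutory graph-field automorphism -/
theorem gf_form (hm : 5 ≤ m) (h5 : 4 ≤ m)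
    {x α : MulAut (Cfsg.POmega F ⇑(quadPlus m F))} {v : Fin m ⊕ Fin m → F} (hv : quadPlus m F v ≠ 0) (hσ : σ ≠ 1)
    (hx : α * x * α⁻¹ = dg (rf (quadPlus m F) v) * (sg_plus (m := m) σ).fd) (hx2 : orderOf x = 2) :
    orderOf σ = 2 ∧ ∃ g : GO (quadPlus m F), (ev_plus (F := F) h5).eps g = -1 ∧ x = dg g * (sg_plus (m := m) σ).fd ∧
      (dg g * (sg_plus (m := m) σ).fd) ^ 2 = 1 := by
  have h1 : orderOf σ = 2 := (fm_plus h5).orderOf_fd (sg_plus (m := m) σ) Nat.prime_two hσ (g := rf (quadPlus m F) v)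
    (by rw [← hx, orderOf_conj, hx2])
  refine ⟨h1, ?_⟩
  obtain ⟨g, hg1, hg2⟩ := exists_form (ev_plus (F := F) h5) (surj_plus hm) (fun τ => sg_plus (m := m) τ)
    (sg_plus (m := m) σ) α⁻¹ (rf (quadPlus m F) v)
  have hx' : x = dg g * (sg_plus (m := m) σ).fd := by
    rw [← hg2, ← hx]; group
  refine ⟨g, by rw [hg1, (ev_plus h5).eps_rf hv], hx', ?_⟩
  rw [← hx', ← hx2, pow_orderOf_eq_one]

/-- graph-field automorphisms -/
def GF (x : MulAut (Cfsg.POmega F ⇑(quadPlus m F))) : Prop :=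
  ∃ (α : MulAut (Cfsg.POmega F ⇑(quadPlus m F))) (v : Fin m ⊕ Fin m → F) (σ : F ≃+* F), σ ≠ 1 ∧ quadPlus m F v ≠ 0 ∧
    α * x * α⁻¹ = dg (rf (quadPlus m F) v) * (sg_plus (m := m) σ).fd

theorem gf_of {x : MulAut (Cfsg.POmega F ⇑(quadPlus m F))} (hx : Cfsg.IsGraphFieldAutClassPOmegaPlus m x) : GF x := by
  obtain ⟨α, γ, φ, σ, v, r, hσ, hv, -, hr, hγ, hφ, e⟩ := hx
  have hγ' : γ = dg (rf (quadPlus m F) v) := eq_dg_rf (Q := quadPlus m F) (v := v) hr hγ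
  have hφ' := ((sg_plus (m := m) σ).isFieldAut_iff _).1 hφ
  subst hγ'
  subst hφ'
  exact ⟨α, v, σ, hσ, hv, e⟩

set_option maxHeartbeats 2000000 in
theorem gf_all {p f : ℕ} [Fact p.Prime] (hF : Fintype.card F = p ^ f) (hf : 1 ≤ f) {n : ℕ} (hn : 4 ≤ n) (h5 : 4 ≤ n + 1)
    (hn3 : 3 ≤ n) {x : MulAut (Cfsg.POmega F ⇑(quadPlus (n + 1) F))} (hx : GF x) (hx2 : orderOf x = 2)
    (hF₀ : Fintype.card F₀ = p ^ (f / 2)) :
    Even f ∧ (∀ y : MulAut (Cfsg.POmega F ⇑(quadPlus (n + 1) F)), GF y → orderOf y = 2 →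
      IsConjUnder (((ev_plus (F := F) h5).eps.ker).map (dg (Q := quadPlus (n + 1) F))) x y) ∧
      (∃ (a₀ b₀ : F₀) (hab0 : ∀ z₁ z₂ : F₀, z₁ ^ 2 + a₀ * z₁ * z₂ + b₀ * z₂ ^ 2 = 0 → z₁ = 0 ∧ z₂ = 0),
      Nonempty (↥(((ev_plus (F := F) h5).eps.ker).map (dg (Q := quadPlus (n + 1) F)) ⊓ Subgroup.centralizer {x}) ≃*
        ↥(((ev_minus hab0 hn3).eps.ker).map (dg (Q := quadMinus n F₀ a₀ b₀))))) ∧
      (p = 2 → splitClassCount (((ev_plus (F := F) h5).eps.ker).map (dg (Q := quadPlus (n + 1) F)))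
          (Cfsg.Inn (Cfsg.POmega F ⇑(quadPlus (n + 1) F))) x = 1) ∧
      ((p ≠ 2 ∧ Odd (n + 1) ∧ p ^ (f / 2) % 4 = 1) →
        splitClassCount (((ev_plus (F := F) h5).eps.ker).map (dg (Q := quadPlus (n + 1) F)))
          (Cfsg.Inn (Cfsg.POmega F ⇑(quadPlus (n + 1) F))) x = 4) ∧
      ((p ≠ 2 ∧ ¬ (Odd (n + 1) ∧ p ^ (f / 2) % 4 = 1)) →
        splitClassCount (((ev_plus (F := F) h5).eps.ker).map (dg (Q := quadPlus (n + 1) F)))
          (Cfsg.Inn (Cfsg.POmega F ⇑(quadPlus (n + 1) F))) x = 2) := by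
  have hm : 5 ≤ n + 1 := by omega
  obtain ⟨α, v, σ, hσ1, hv, e⟩ := hx
  obtain ⟨hσ, g, hge, hxg, ho⟩ := gf_form hm h5 hv hσ1 e hx2
  have h2 : p ≠ 2 → ¬ (2 : F) = 0 := by
    intro hp h'
    have : CharP F p := charP_of_card_eq_prime_pow hF
    have h3 : ((2 : ℕ) : F) = 0 := by exact_mod_cast h'
    rw [CharP.cast_eq_zero_iff F p] at h3
    exact hp ((Nat.prime_dvd_prime_iff_eq (Fact.out) Nat.prime_two).1 h3)
  obtain ⟨hrf, hc, hcount⟩ := gf_main (F₀ := F₀) hF hf (n := n) hn h5 hσ hge ho hF₀ hn3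
  rw [← hxg] at hc hcount
  refine ⟨(even_iff_two_dvd).2 hrf, ?_, hc, ?_, ?_, ?_⟩
  · rintro y ⟨α', v', τ, hτ1, hv', e'⟩ hy2
    obtain ⟨hτ, g', hge', hyg, ho'⟩ := gf_form hm h5 hv' hτ1 e' hy2
    have hστ : τ = σ := invol_unique hF hf hτ hσ
    subst hστ
    obtain ⟨k, hk, e⟩ := conj_of_coset (ev_plus (F := F) h5).gd (P := (ev_plus (F := F) h5).eps.ker)
      (fun c => (ev_plus (F := F) h5).eps_sc c) (sg_plus (m := n + 1) τ) hσ (by norm_num)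
      (h90_plus h5 τ Nat.prime_two hσ) (g := g') (g₀ := g) ho' ho (by
        rw [MonoidHom.mem_ker, map_mul, map_inv, hge, hge']; decide)
    rw [← hxg, ← hyg] at e
    exact ⟨dg k, ⟨k, hk, rfl⟩, e⟩
  · intro hp
    subst hp
    have : CharP F 2 := charP_of_card_eq_prime_pow hF
    exact (ev_plus (F := F) h5).split_of_two (CharTwo.two_eq_zero) x
  · intro h
    exact (hcount (h2 h.1)).1 (by rw [hF₀]; exact h.2)
  · intro h
    exact (hcount (h2 h.1)).2 (by rw [hF₀]; exact h.2)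

end Main

end Cfsg.Agent.Lib.OFld
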