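import Cfsg.Agent.Lib.OFldY
import Cfsg.Agent.Lib.D4OutPO

set_option autoImplicit false
set_option linter.unusedSectionVars false

/-!
# `Inndiag(PΩ₈⁺(q))` is normal in the automorphism group (helper21)

* `exists_d4` : `D₄(F) ≅ PΩ₈⁺(F)` with the images of the root elements.
* `normal_plus4`, `normal_plus`.
-/

namespace Cfsg.Agent.Lib.OFld

open Matrix QuadraticMap Module
open Cfsg.Agent.Lib.Quad Cfsg.Agent.Lib.ClOrthSiegel Cfsg.Agent.Lib.ClOmega Cfsg.Agent.Lib.POmAut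
open Cfsg.Agent.Lib.Descent Cfsg.Agent.Lib.SplitCount
open Cfsg (IsConjUnder splitClassCount)
open Cfsg.Lie

theorem iso_of' {St G Om : Type*} [Group St] [Group G] [Group Om] [IsSimpleGroup G] (θ : St →* G)
    (hθ : Function.Surjective θ) (hk : θ.ker = Subgroup.center St) (ψ : St →* Om) (hψ : Function.Surjective ψ)
    (hnc : ∃ x y : Om, x * y ≠ y * x) :
    ∃ e : G ≃* Om ⧸ Subgroup.center Om, ∀ x, e (θ x) = QuotientGroup.mk (ψ x) := by
  set Ψ := (QuotientGroup.mk' (Subgroup.center Om)).comp ψ with hΨd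
  have hΨ : Function.Surjective Ψ := (QuotientGroup.mk'_surjective _).comp hψ
  have h1 : Subgroup.center St ≤ Ψ.ker := by
    intro z hz
    rw [MonoidHom.mem_ker, hΨd, MonoidHom.comp_apply]
    show (QuotientGroup.mk (ψ z) : Om ⧸ Subgroup.center Om) = 1
    rw [QuotientGroup.eq_one_iff, Subgroup.mem_center_iff]
    intro y
    obtain ⟨x, rfl⟩ := hψ y
    rw [← map_mul, ← map_mul, Subgroup.mem_center_iff.1 hz x]
  have h2 : Ψ.ker ≤ θ.ker := by
    have hn : (Ψ.ker.map θ).Normal := Subgroup.Normal.map inferInstance θ hθ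
    rcases hn.eq_bot_or_eq_top with h | h
    · rwa [Subgroup.map_eq_bot_iff] at h
    · exfalso
      have h3 : Ψ.ker = ⊤ := by
        have h4 : (Ψ.ker.map θ).comap θ = ⊤ := by rw [h, Subgroup.comap_top]
        rw [Subgroup.comap_map_eq, hk, sup_eq_left.2 h1] at h4
        exact h4
      obtain ⟨x, y, hxy⟩ := hnc
      apply hxy
      obtain ⟨x, rfl⟩ := hψ x
      have h5 : x ∈ Ψ.ker := by rw [h3]; exact Subgroup.mem_top x
      rw [MonoidHom.mem_ker, hΨd, MonoidHom.comp_apply] at h5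
      have h6 : ψ x ∈ Subgroup.center Om := by
        rw [← QuotientGroup.eq_one_iff]; exact h5
      exact (Subgroup.mem_center_iff.1 h6 y).symm
  have h3 : θ.ker = Ψ.ker := le_antisymm (hk ▸ h1) h2
  refine ⟨(QuotientGroup.quotientKerEquivOfSurjective θ hθ).symm.trans
    ((QuotientGroup.quotientMulEquivOfEq h3).trans (QuotientGroup.quotientKerEquivOfSurjective Ψ hΨ)), fun x => ?_⟩
  have h7 : (QuotientGroup.quotientKerEquivOfSurjective θ hθ).symm (θ x) = QuotientGroup.mk x := by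
    rw [MulEquiv.symm_apply_eq]; rfl
  rw [MulEquiv.trans_apply, h7]
  rfl

section D4

open Cfsg.Agent.Lib.ChevOrth Cfsg.Agent.Lib.HypSys Cfsg.Agent.Lib.SparseRep Cfsg.Agent.Lib.SparseRepData
open Cfsg.Agent.Lib.ChevStd Cfsg.Agent.Lib.ChevGood Cfsg.Agent.Lib.ChevX Cfsg.Agent.Lib.ChevRel

variable (F : Type*) [Field F]

theorem exists_d4 : ∃ e : ↥(chevD4.group F) ≃* Cfsg.POmega F ⇑(quadPlus 4 F), ∀ r < 24, ∀ t : F,
    ∃ s : Cfsg.Omega F ⇑(quadPlus 4 F),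
      toLE s.1.1 = sg (quadPlus 4 F) (bP 4 F (PD r)) (((sD r : F) * t) • bP 4 F (QD r)) ∧
      e (X D4Out.G r t) = QuotientGroup.mk s := by
  have hD : chevD4 ∈ [chevG2, chevB2, chevD4, chevF4, chevE6, chevE7, chevE8] := by simp
  obtain ⟨hs, -⟩ := ChevSimple.simple (F := F) hD (by
    intro h
    rcases h with h | h
    · exact absurd (congrArg ChevalleyDatum.nroots h) (by decide)
    · exact absurd (congrArg ChevalleyDatum.nroots h) (by decide))
  obtain ⟨θ, h1, h2, h3⟩ := Cfsg.Agent.Lib.StPres.ker_eq_center (K := F) hD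
  have H := hs_plus 4 F
  -- the representation
  have hr : ∀ x, toLE (repD4.hom encD4 F x) ∈ Om (quadPlus 4 F) := by
    intro x
    rw [← closure_D4]
    exact ⟨repD4.hom encD4 F x, ⟨x, rfl⟩, rfl⟩
  have hi : ∀ x, repD4.hom encD4 F x ∈ Cfsg.isometryGroup F ⇑(quadPlus 4 F) := by
    intro x
    rw [mem_isometryGroup_iff_toLE]
    exact Om_le (hr x)
  let ψ : chevD4.SteinbergGroup F →* ↥(Cfsg.Omega F ⇑(quadPlus 4 F)) :=
    ((repD4.hom encD4 F).codRestrict _ hi).codRestrict _ (fun x => by rw [mem_Omega_iff]; exact hr x)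
  have hψ : Function.Surjective ψ := by
    rintro ⟨g, hg⟩
    have h4 := (mem_Omega_iff g).1 hg
    rw [← closure_D4] at h4
    obtain ⟨_, ⟨x, rfl⟩, hx⟩ := h4
    refine ⟨x, Subtype.ext (Subtype.ext ?_)⟩
    exact toLE.injective hx
  obtain ⟨e, he⟩ := iso_of' θ h1 h2 ψ hψ
    (noncomm_Omega (noncomm3 H (H.R_le_of_three rfl (by decide)) (p := (0, false))
    (q := (1, false)) (s := (2, false)) (by decide) (by decide) (by decide)))
  refine ⟨e, fun r hr24 t => ⟨ψ (chevD4.stGen F r t), ?_, ?_⟩⟩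
  · show toLE (repD4.hom encD4 F (chevD4.stGen F r t)) = _
    rw [SRep.hom_stGen, X_D4 hr24]
  · have h5 : X D4Out.G r t = θ (chevD4.stGen F r t) := by
      apply Subtype.ext
      apply Units.ext
      rw [h3 r t hr24]
      exact coe_xg D4Out.G r t
    rw [h5]
    exact he _

variable {F}

/-- weights -/
def wt (τ : Fin 4 → Fˣ) (μ : Fˣ) (p : Fin 4 × Bool) : Fˣ := if p.2 then μ * (τ p.1)⁻¹ else τ p.1

/-- diagonal similarities -/
def tT (τ : Fin 4 → Fˣ) (μ : Fˣ) : GL (Fin 4 ⊕ Fin 4) F where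
  val := Matrix.diagonal (Sum.elim (fun i => ((τ i : Fˣ) : F)) (fun i => ((μ * (τ i)⁻¹ : Fˣ) : F)))
  inv := Matrix.diagonal (Sum.elim (fun i => (((τ i)⁻¹ : Fˣ) : F)) (fun i => (((μ * (τ i)⁻¹)⁻¹ : Fˣ) : F)))
  val_inv := by
    rw [Matrix.diagonal_mul_diagonal, ← Matrix.diagonal_one]
    congr 1
    funext i
    rcases i with i | i
    · simp
    · show ((μ * (τ i)⁻¹ : Fˣ) : F) * (((μ * (τ i)⁻¹)⁻¹ : Fˣ) : F) = 1
      rw [← Units.val_mul, mul_inv_cancel, Units.val_one]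
  inv_val := by
    rw [Matrix.diagonal_mul_diagonal, ← Matrix.diagonal_one]
    congr 1
    funext i
    rcases i with i | i
    · simp
    · show (((μ * (τ i)⁻¹)⁻¹ : Fˣ) : F) * ((μ * (τ i)⁻¹ : Fˣ) : F) = 1
      rw [← Units.val_mul, inv_mul_cancel, Units.val_one]

theorem tT_apply (τ : Fin 4 → Fˣ) (μ : Fˣ) (v : Fin 4 ⊕ Fin 4 → F) (p : Fin 4 × Bool) :
    ((tT τ μ).1 *ᵥ v) (idx 4 p) = wt τ μ p * v (idx 4 p) := by
  show (Matrix.diagonal _ *ᵥ v) _ = _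
  rw [Matrix.mulVec_diagonal]
  obtain ⟨i, b⟩ := p
  cases b <;> rfl

theorem tT_bP (τ : Fin 4 → Fˣ) (μ : Fˣ) (p : Fin 4 × Bool) :
    (tT τ μ).1 *ᵥ bP 4 F p = (wt τ μ p : F) • bP 4 F p := by
  show Matrix.diagonal _ *ᵥ Pi.single (idx 4 p) 1 = _
  rw [Matrix.diagonal_mulVec_single]
  unfold bP
  rw [← Pi.single_smul]
  congr 1
  obtain ⟨i, b⟩ := p
  cases b <;> simp [idx, wt]

theorem tT_Q (τ : Fin 4 → Fˣ) (μ : Fˣ) (v : Fin 4 ⊕ Fin 4 → F) :
    quadPlus 4 F ((tT τ μ).1 *ᵥ v) = μ * quadPlus 4 F v := by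
  show Cfsg.quadFormPlus 4 F _ = μ * Cfsg.quadFormPlus 4 F v
  unfold Cfsg.quadFormPlus
  rw [Finset.mul_sum]
  refine Finset.sum_congr rfl fun i _ => ?_
  have h1 : ((tT τ μ).1 *ᵥ v) (Sum.inl i) = τ i * v (Sum.inl i) := tT_apply τ μ v (i, false)
  have h2 : ((tT τ μ).1 *ᵥ v) (Sum.inr i) = (μ * (τ i)⁻¹ : Fˣ) * v (Sum.inr i) := tT_apply τ μ v (i, true)
  rw [h1, h2, Units.val_mul, Units.val_inv_eq_inv_val]
  have := (τ i).ne_zero
  field_simp

theorem tT_det (τ : Fin 4 → Fˣ) (μ : Fˣ) : (tT τ μ).1.det = (μ : F) ^ 4 := by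
  show (Matrix.diagonal _).det = _
  rw [Matrix.det_diagonal, Fintype.prod_sum_type]
  show (∏ i, (τ i : F)) * ∏ i, ((μ * (τ i)⁻¹ : Fˣ) : F) = _
  rw [← Finset.prod_mul_distrib]
  have : ∀ i : Fin 4, (τ i : F) * ((μ * (τ i)⁻¹ : Fˣ) : F) = μ := by
    intro i
    rw [← Units.val_mul]
    congr 1
    rw [mul_comm, inv_mul_cancel_right]
  simp only [this, Finset.prod_const, Finset.card_univ, Fintype.card_fin]

/-- as a similarity -/
def tTG (τ : Fin 4 → Fˣ) (μ : Fˣ) : GO (quadPlus 4 F) := ⟨tT τ μ, mem_GO.2 ⟨μ, tT_Q τ μ⟩⟩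

theorem conj_sg (τ : Fin 4 → Fˣ) (μ : Fˣ) {p q : Fin 4 × Bool} (hpq : q.1 ≠ p.1) (c : F) :
    toLE (tT τ μ) * sg (quadPlus 4 F) (bP 4 F p) (c • bP 4 F q) =
      sg (quadPlus 4 F) (bP 4 F p) ((((wt τ μ p * wt τ μ q * μ⁻¹ : Fˣ) : F) * c) • bP 4 F q) * toLE (tT τ μ) := by
  have H := hs_plus 4 F
  have hz : ∀ c : F, polar (quadPlus 4 F) (bP 4 F p) (c • bP 4 F q) = 0 := fun c => by
    rw [polar_smul_right, H.pbne hpq, smul_zero]
  have hpol : ∀ u v, polar (quadPlus 4 F) ((tT τ μ).1 *ᵥ u) ((tT τ μ).1 *ᵥ v) = μ * polar (quadPlus 4 F) u v := by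
    intro u v
    simp only [polar, ← Matrix.mulVec_add, tT_Q]; ring
  have hμ : (μ : F) ≠ 0 := μ.ne_zero
  have hb : ∀ (p : Fin 4 × Bool) x, polar (quadPlus 4 F) (bP 4 F p) ((tT τ μ).1 *ᵥ x) * (wt τ μ p : F) =
      μ * polar (quadPlus 4 F) (bP 4 F p) x := by
    intro p x
    rw [← hpol, tT_bP, polar_smul_left, smul_eq_mul, mul_comm]
  ext1 x
  show toLE (tT τ μ) (sg (quadPlus 4 F) (bP 4 F p) (c • bP 4 F q) x) = sg (quadPlus 4 F) _ _ (toLE (tT τ μ) x)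
  rw [sg_apply (H.qb _) (hz _), sg_apply (H.qb _) (hz _), toLE_apply, toLE_apply, Q_smul, Q_smul, H.qb,
    polar_smul_left, polar_smul_left]
  simp only [mul_zero, zero_mul, zero_smul, sub_zero, smul_eq_mul, Matrix.mulVec_sub, Matrix.mulVec_add,
    Matrix.mulVec_smul, tT_bP, smul_smul]
  have h1 := hb p x
  have h2 := hb q x
  have e1 : polar (quadPlus 4 F) (bP 4 F p) x = (μ : F)⁻¹ * (polar (quadPlus 4 F) (bP 4 F p) ((tT τ μ).1 *ᵥ x) * (wt τ μ p : F)) := by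
    rw [h1, inv_mul_cancel_left₀ hμ]
  have e2 : polar (quadPlus 4 F) (bP 4 F q) x = (μ : F)⁻¹ * (polar (quadPlus 4 F) (bP 4 F q) ((tT τ μ).1 *ᵥ x) * (wt τ μ q : F)) := by
    rw [h2, inv_mul_cancel_left₀ hμ]
  rw [e1, e2, Units.val_mul, Units.val_mul, Units.val_inv_eq_inv_val]
  congr 1
  · congr 2
    ring
  · congr 1
    ring

/-- conjugation by a diagonal similarity on root elements -/
theorem dg_root {e : ↥(chevD4.group F) ≃* Cfsg.POmega F ⇑(quadPlus 4 F)} (he : ∀ r < 24, ∀ t : F,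
    ∃ s : Cfsg.Omega F ⇑(quadPlus 4 F),
      toLE s.1.1 = sg (quadPlus 4 F) (bP 4 F (PD r)) (((sD r : F) * t) • bP 4 F (QD r)) ∧
      e (X D4Out.G r t) = QuotientGroup.mk s) (τ : Fin 4 → Fˣ) (μ : Fˣ) {r : ℕ} (hr : r < 24) (t : F) :
    e.symm (dg (tTG τ μ) (e (X D4Out.G r t))) =
      X D4Out.G r (((wt τ μ (PD r) * wt τ μ (QD r) * μ⁻¹ : Fˣ) : F) * t) := by
  rw [MulEquiv.symm_apply_eq]
  obtain ⟨s, hs, h1⟩ := he r hr t
  obtain ⟨s', hs', h1'⟩ := he r hr (((wt τ μ (PD r) * wt τ μ (QD r) * μ⁻¹ : Fˣ) : F) * t)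
  rw [h1, h1', dg_mk]
  congr 1
  apply Subtype.ext
  apply Subtype.ext
  apply toLE.injective
  rw [hs', co_coe, map_mul, map_mul, map_inv, hs, mul_inv_eq_iff_eq_mul]
  show toLE (tT τ μ) * _ = _ * toLE (tT τ μ)
  rw [conj_sg τ μ (tabD1 r hr)]
  congr 3
  ring

/-- solving for the torus element -/
def solT (c : Fin 4 → Fˣ) : Fin 4 → Fˣ := ![c 0 * c 1 * c 2, c 1 * c 2, c 2, 1]

theorem simple_tab : (∀ i : Fin 4, chevD4.simple i = ![18, 14, 13, 12] i) ∧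
    (∀ i : Fin 4, chevD4.neg (chevD4.simple i) = ![5, 9, 10, 11] i) := by decide

theorem char_pos (c : Fin 4 → Fˣ) (i : Fin 4) : wt (solT c) (c 2 * (c 3)⁻¹) (PD (chevD4.simple i)) *
    wt (solT c) (c 2 * (c 3)⁻¹) (QD (chevD4.simple i)) * (c 2 * (c 3)⁻¹)⁻¹ = c i := by
  rw [simple_tab.1]
  apply Units.ext
  have h0 := (c 0).ne_zero
  have h1 := (c 1).ne_zero
  have h2 := (c 2).ne_zero
  have h3 := (c 3).ne_zero
  fin_cases i <;> simp [wt, PD, QD, solT] <;> field_simp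

theorem char_neg (c : Fin 4 → Fˣ) (i : Fin 4) : wt (solT c) (c 2 * (c 3)⁻¹) (PD (chevD4.neg (chevD4.simple i))) *
    wt (solT c) (c 2 * (c 3)⁻¹) (QD (chevD4.neg (chevD4.simple i))) * (c 2 * (c 3)⁻¹)⁻¹ = (c i)⁻¹ := by
  rw [simple_tab.2]
  apply Units.ext
  have h0 := (c 0).ne_zero
  have h1 := (c 1).ne_zero
  have h2 := (c 2).ne_zero
  have h3 := (c 3).ne_zero
  fin_cases i <;> simp [wt, PD, QD, solT] <;> field_simp

theorem congr_dF {e : ↥(chevD4.group F) ≃* Cfsg.POmega F ⇑(quadPlus 4 F)} (he : ∀ r < 24, ∀ t : F,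
    ∃ s : Cfsg.Omega F ⇑(quadPlus 4 F),
      toLE s.1.1 = sg (quadPlus 4 F) (bP 4 F (PD r)) (((sD r : F) * t) • bP 4 F (QD r)) ∧
      e (X D4Out.G r t) = QuotientGroup.mk s) (c : Fin 4 → Fˣ) :
    MulAut.congr e (D4Out.dF c) = dg (tTG (solT c) (c 2 * (c 3)⁻¹)) := by
  rw [← MulEquiv.eq_symm_apply]
  have hroot := fun (r : ℕ) (hr : r < 24) (t : F) => dg_root he (solT c) (c 2 * (c 3)⁻¹) hr t
  apply D4Out.ext4
  · intro i t
    rw [D4Out.dF_pos]
    have h1 : ∀ i : Fin 4, chevD4.simple i < 24 := by decide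
    refine Eq.trans ?_ (hroot _ (h1 i) t).symm
    rw [char_pos]
  · intro i t
    rw [D4Out.dF_neg]
    have h1 : ∀ i : Fin 4, chevD4.neg (chevD4.simple i) < 24 := by decide
    refine Eq.trans ?_ (hroot _ (h1 i) t).symm
    rw [char_neg]

/-! ### normality -/

theorem eps_tTG [Fintype F] (h4 : 4 ≤ 4) (h2 : ¬ (2 : F) = 0) (τ : Fin 4 → Fˣ) (μ : Fˣ) :
    (ev_plus (F := F) h4).eps (tTG τ μ) = 1 := by
  rw [(ev_plus h4).eps_ne h2, Hyp.eps_eq_one_iff, (ev_plus h4).mu_hyp h2]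
  have h1 : (ev_plus (F := F) h4).gd.mu (tTG τ μ) = μ := by
    apply Units.ext
    exact (ev_plus h4).gd.mu_eq fun v => tT_Q τ μ v
  rw [h1]
  exact tT_det τ μ

theorem normal_of_ou {ι : Type} [Fintype ι] [DecidableEq ι] [Finite F] {Q : QuadraticForm F (ι → F)} {k : ℕ} (h : Ev Q k)
    (hn : ((h.eps.ker).map (ou Q)).Normal) : ((h.eps.ker).map (dg (Q := Q))).Normal := by
  have h1 : (h.eps.ker).map (dg (Q := Q)) =
      (((h.eps.ker).map (ou Q))).comap (QuotientGroup.mk' (Cfsg.Inn (Cfsg.POmega F ⇑Q))) := by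
    rw [← map_mk_dg, Subgroup.comap_map_eq, QuotientGroup.ker_mk', sup_eq_left.2 (Inn_le h)]
  rw [h1]
  exact Subgroup.Normal.comap hn _

theorem normal_plus4 [Fintype F] (h4 : 4 ≤ 4) :
    (((ev_plus (F := F) h4).eps.ker).map (dg (Q := quadPlus 4 F))).Normal := by
  have hev := ev_plus (F := F) h4
  by_cases h2 : (2 : F) = 0
  · have h1 : ((hev.eps.ker).map (dg (Q := quadPlus 4 F))) = Cfsg.Inn (Cfsg.POmega F ⇑(quadPlus 4 F)) := by
      apply le_antisymm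
      · rintro _ ⟨g, hg, rfl⟩
        exact hev.inn_of_two h2 g hg
      · exact Inn_le hev
    rw [h1]
    infer_instance
  obtain ⟨p, hp⟩ := CharP.exists F
  have hpp : p.Prime := CharP.char_is_prime F p
  have : Fact p.Prime := ⟨hpp⟩
  obtain ⟨f, -, hF⟩ := FiniteField.card F p
  have hp2 : p ≠ 2 := by
    rintro rfl
    exact h2 CharTwo.two_eq_zero
  obtain ⟨e, he⟩ := exists_d4 F
  let E := D4Out.outCongr e
  apply normal_of_ou
  have hA : CaseA (quadPlus 4 F) := (caseA_plus_iff h2).2 (by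
    rintro ⟨h5, -⟩
    exact absurd h5 (by decide))
  obtain ⟨ε, v, hε, hD⟩ := exists_dat_plus (hev.hyp h2)
  have hcard := card_ou (hev.hyp h2) hA hD
  rw [← hev.ker_eq h2] at hcard
  have hle : (D4Out.VV F).map E.toMonoidHom ≤ (hev.eps.ker).map (ou (quadPlus 4 F)) := by
    rintro _ ⟨x, hx, rfl⟩
    obtain ⟨c, rfl⟩ := D4Out.mem_VV.1 hx
    refine ⟨tTG (solT c) (c 2 * (c 3)⁻¹), eps_tTG h4 h2 _ _, ?_⟩
    show QuotientGroup.mk' _ (dg (tTG (solT c) (c 2 * (c 3)⁻¹))) = _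
    rw [← congr_dF he]
    rfl
  have hcard2 : Nat.card ↥((D4Out.VV F).map E.toMonoidHom) = 4 := by
    exact (Nat.card_congr (E.subgroupMap (D4Out.VV F)).toEquiv).symm.trans (D4Out.card_VV hF hp2)
  have heq : (D4Out.VV F).map E.toMonoidHom = (hev.eps.ker).map (ou (quadPlus 4 F)) := by
    have : Finite ↥((hev.eps.ker).map (ou (quadPlus 4 F))) := Nat.finite_of_card_ne_zero (by rw [hcard]; norm_num)
    exact Subgroup.eq_of_le_of_card_ge hle (by rw [hcard, hcard2])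
  rw [← heq]
  exact Subgroup.Normal.map D4Out.VV_normal E.toMonoidHom E.surjective

theorem normal_plus [Fintype F] {m : ℕ} (hm : 4 ≤ m) :
    (((ev_plus (F := F) hm).eps.ker).map (dg (Q := quadPlus m F))).Normal := by
  rcases Nat.eq_or_lt_of_le hm with h | h
  · subst h
    exact normal_plus4 hm
  · exact (fm_plus hm).normal (surj_plus h)

end D4

section Field

variable {F F₀ : Type*} [Field F] [Fintype F] [Field F₀] [Fintype F₀] {σ : F ≃+* F} {m : ℕ}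

theorem plus_main {p f : ℕ} [Fact p.Prime] (hF : Fintype.card F = p ^ f) (hf : 1 ≤ f) (hm : 4 ≤ m) (hσ : σ ≠ 1)
    {x α : MulAut (Cfsg.POmega F ⇑(quadPlus m F))} (hx : α * x * α⁻¹ = (sg_plus (m := m) σ).fd) {r : ℕ} (hr : r.Prime)
    (hxr : orderOf x = r) (hF₀ : Fintype.card F₀ = p ^ (f / r)) :
    r ∣ f ∧ Nonempty (↥(((ev_plus (F := F) hm).eps.ker).map (dg (Q := quadPlus m F)) ⊓ Subgroup.centralizer {x}) ≃*
        ↥(((ev_plus (F := F₀) hm).eps.ker).map (dg (Q := quadPlus m F₀)))) ∧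
      ((Odd r ∨ p = 2) → splitClassCount (((ev_plus (F := F) hm).eps.ker).map (dg (Q := quadPlus m F)))
        (Cfsg.Inn (Cfsg.POmega F ⇑(quadPlus m F))) x = 1) ∧
      ((r = 2 ∧ p ≠ 2 ∧ Odd m ∧ p ^ (f / 2) % 4 = 1) →
        splitClassCount (((ev_plus (F := F) hm).eps.ker).map (dg (Q := quadPlus m F)))
        (Cfsg.Inn (Cfsg.POmega F ⇑(quadPlus m F))) x = 2) ∧
      ((r = 2 ∧ p ≠ 2 ∧ ¬ (Odd m ∧ p ^ (f / 2) % 4 = 1)) →
        splitClassCount (((ev_plus (F := F) hm).eps.ker).map (dg (Q := quadPlus m F)))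
        (Cfsg.Inn (Cfsg.POmega F ⇑(quadPlus m F))) x = 4) := by
  have hn := normal_plus (F := F) hm
  have hσr : orderOf σ = r := (fm_plus (F := F) hm).order_of_class (sg_plus (m := m) σ) hr hσ hx hxr
  obtain ⟨hrf, ι₀, hι⟩ := Lib.FFAut.exists_embedding hF hf hσr hr.pos F₀ hF₀
  have D := ds_plus (m := m) hι
  have hev := ev_plus (F := F) hm
  have h₀ := ev_plus (F := F₀) hm
  have h2 : p ≠ 2 → ¬ (2 : F) = 0 := by
    intro hp h'
    have : CharP F p := charP_of_card_eq_prime_pow hF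
    have h3 : ((2 : ℕ) : F) = 0 := by exact_mod_cast h'
    rw [CharP.cast_eq_zero_iff F p] at h3
    exact hp ((Nat.prime_dvd_prime_iff_eq (Fact.out) Nat.prime_two).1 h3)
  refine ⟨hrf, ?_, ?_, ?_, ?_⟩
  · exact cent_iso (fm_plus (F := F) hm) D h₀.gd (P₀ := h₀.eps.ker) (fun g => by
      rw [MonoidHom.mem_ker, MonoidHom.mem_ker, hev.eps_miG D h₀]) hσr hr.pos hx
  · intro h
    rw [split_conj hn hx]
    by_cases hp : p = 2
    · subst hp
      have : CharP F 2 := charP_of_card_eq_prime_pow hF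
      exact hev.split_of_two (CharTwo.two_eq_zero) _
    · exact hev.split_of_odd D h₀ (muS_plus hm) hσr hr.pos (h.resolve_right hp)
  · rintro ⟨rfl, hp, h⟩
    rw [split_conj hn hx]
    exact (plus_count hm hι hσr (h2 hp)).1 (by rw [hF₀]; exact h)
  · rintro ⟨rfl, hp, h⟩
    rw [split_conj hn hx]
    exact (plus_count hm hι hσr (h2 hp)).2 (by rw [hF₀]; exact h)

end Field

end Cfsg.Agent.Lib.OFld
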