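import Cfsg.Agent.Lib.OrthNd
import Cfsg.Agent.Lib.QuadIndex

set_option autoImplicit false
set_option linter.unusedSectionVars false

/-!
# Reflection calculus over finite fields of odd order (helper21)

* `univ_in`, `span_norm`, `exists_half`, `univ_fix` : vectors of prescribed norm in nondegenerate subspaces.
* `core` : a set of isometries closed under commutators with reflections and without involutions is trivial.
* `rigid_refl` : additive maps preserving the planes spanned by orthogonal vectors of equal norm.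
-/

namespace Cfsg.Agent.Lib.OGr

open QuadraticMap Module
open Cfsg.Agent.Lib.Quad Cfsg.Agent.Lib.OrthNd

variable {F V : Type*} [Field F] [AddCommGroup V] [Module F V] [FiniteDimensional F V]
  {Q : QuadraticForm F V}

theorem sum_two [Finite F] (h2 : (2 : F) ≠ 0) {a b : F} (ha : a ≠ 0) (hb : b ≠ 0) (d : F) :
    ∃ x y : F, a * x ^ 2 + b * y ^ 2 = d := by
  have := Fintype.ofFinite F
  have hodd : Fintype.card F % 2 = 1 := by
    by_contra h
    have h3 : ringChar F = 2 := by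
      by_contra h4
      have := FiniteField.odd_card_of_char_ne_two h4
      omega
    have h5 : ((2 : ℕ) : F) = 0 := by
      rw [← h3]; exact CharP.cast_eq_zero F (ringChar F)
    exact h2 (by exact_mod_cast h5)
  obtain ⟨x, y, hxy⟩ := FiniteField.exists_root_sum_quadratic
    (f := Polynomial.C a * Polynomial.X ^ 2 - Polynomial.C d)
    (g := Polynomial.C b * Polynomial.X ^ 2) (by
      rw [Polynomial.degree_sub_C]
      · rw [Polynomial.degree_C_mul_X_pow _ ha]; rfl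
      · rw [Polynomial.degree_C_mul_X_pow _ ha]; exact Nat.cast_pos.2 two_pos) (by
      rw [Polynomial.degree_C_mul_X_pow _ hb]; rfl) hodd
  refine ⟨x, y, ?_⟩
  simp at hxy
  linear_combination hxy

theorem univ_in [Finite F] (h2 : (2 : F) ≠ 0) {A : Submodule F V} (hA : NDs Q A) (hd : 2 ≤ finrank F A) {c : F}
    (hc : c ≠ 0) : ∃ v ∈ A, Q v = c := by
  obtain ⟨v, -, hv⟩ := (nd_res_of_inf hA).exists_Q_eq h2 hd c
  exact ⟨v, v.2, hv hc⟩

theorem exists_ns {A : Submodule F V} (hA : NDs Q A) (hd : 1 ≤ finrank F A) : ∃ v ∈ A, Q v ≠ 0 := by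
  obtain ⟨v, hv⟩ := (nd_res_of_inf hA).exists_Q_ne_zero hd
  exact ⟨v, v.2, hv⟩

theorem mem_cut1 {A : Submodule F V} {v x : V} : x ∈ A ⊓ perp Q (F ∙ v) ↔ x ∈ A ∧ polar Q v x = 0 := by
  rw [Submodule.mem_inf, mem_perp_singleton]

theorem nds_cut1 (h2 : (2 : F) ≠ 0) {A : Submodule F V} (hA : NDs Q A) {v : V} (hv : v ∈ A) (hQv : Q v ≠ 0) :
    NDs Q (A ⊓ perp Q (F ∙ v)) := by
  rw [NDs, eq_bot_iff]
  rintro x ⟨hx, hx'⟩
  obtain ⟨hxA, hvx⟩ := mem_cut1.1 hx
  have h1 : x ∈ A ⊓ perp Q A := by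
    refine ⟨hxA, mem_perp.2 fun a ha => ?_⟩
    have h3 := mem_perp.1 hx' (a - ((2 * Q v)⁻¹ * polar Q v a) • v) (mem_cut1.2 ⟨A.sub_mem ha (A.smul_mem _ hv), by
      rw [polar_sub_right, polar_smul_right, polar_self']
      simp only [smul_eq_mul]
      field_simp
      ring⟩)
    rw [polar_sub_left, polar_smul_left, hvx, smul_zero, sub_zero] at h3
    exact h3
  rw [show A ⊓ perp Q A = ⊥ from hA] at h1
  exact h1

theorem finrank_cut1 (hQ : Nd Q) (A : Submodule F V) (v : V) :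
    finrank F A ≤ finrank F ↥(A ⊓ perp Q (F ∙ v)) + 1 := by
  have h1 := Submodule.finrank_sup_add_finrank_inf_eq A (perp Q (F ∙ v))
  have h2 := hQ.finrank_add_finrank_perp (F ∙ v)
  have h3 : finrank F (F ∙ v) ≤ 1 := by
    by_cases hv : v = 0
    · subst hv; rw [Submodule.span_zero_singleton, finrank_bot]; exact zero_le_one
    · rw [finrank_span_singleton hv]
  have h4 := Submodule.finrank_le (A ⊔ perp Q (F ∙ v))
  omega

/-- vectors of a given norm span -/
theorem span_norm [Finite F] (hQ : Nd Q) (h2 : (2 : F) ≠ 0) {A : Submodule F V} (hA : NDs Q A) (hd : 3 ≤ finrank F A) {c : F}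
    (hc : c ≠ 0) {U : Submodule F V} (hU : ∀ w ∈ A, Q w = c → w ∈ U) : A ≤ U := by
  -- reflections
  have key : ∀ x ∈ A, Q x ≠ 0 → ∀ w ∈ A, Q w = c → polar Q x w ≠ 0 → x ∈ U := by
    intro x hx hQx w hw hQw hp
    have h1 := hU (refl Q x w) (by rw [refl_apply hQx]; exact A.sub_mem hw (A.smul_mem _ hx)) (by
      rw [refl_mem x, hQw])
    rw [refl_apply hQx] at h1
    have h3 := U.sub_mem (hU w hw hQw) h1
    rw [sub_sub_cancel] at h3
    exact (U.smul_mem_iff (mul_ne_zero (inv_ne_zero hQx) hp)).1 h3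
  obtain ⟨w₁, hw₁, hQ₁⟩ := univ_in h2 hA (by omega) hc
  have hA₁ := nds_cut1 h2 hA hw₁ (by rw [hQ₁]; exact hc)
  have hd₁ := finrank_cut1 hQ A w₁
  obtain ⟨w₂, hw₂, hQ₂⟩ := univ_in h2 hA₁ (by omega) hc
  obtain ⟨hw₂A, h12⟩ := mem_cut1.1 hw₂
  have h21 : polar Q w₂ w₁ = 0 := by rw [polar_comm, h12]
  have hperp : ∀ x ∈ A, polar Q w₁ x = 0 → polar Q w₂ x = 0 → x ∈ U := by
    intro x hx h1 h3
    by_cases hx1 : Q (w₁ + x) = 0
    · have e1 : c + Q x = 0 := by rw [Q_add, hQ₁, h1, add_zero] at hx1; exact hx1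
      have h4 : Q (w₁ + w₂ + x) = c := by
        rw [Q_add, Q_add, hQ₁, hQ₂, h12, polar_add_left, h1, h3]; linear_combination e1
      have h5 := hU (w₁ + w₂ + x) (A.add_mem (A.add_mem hw₁ hw₂A) hx) h4
      have h6 := U.sub_mem h5 (U.add_mem (hU w₁ hw₁ hQ₁) (hU w₂ hw₂A hQ₂))
      rwa [add_sub_cancel_left] at h6
    · have h5 := key (w₁ + x) (A.add_mem hw₁ hx) hx1 w₁ hw₁ hQ₁ (by
        rw [polar_add_left, polar_self', hQ₁, polar_comm Q x w₁, h1, add_zero]
        exact mul_ne_zero h2 hc)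
      have h6 := U.sub_mem h5 (hU w₁ hw₁ hQ₁)
      rwa [add_sub_cancel_left] at h6
  intro x hx
  have h3 := hperp (x - ((2 * c)⁻¹ * polar Q w₁ x) • w₁ - ((2 * c)⁻¹ * polar Q w₂ x) • w₂)
    (A.sub_mem (A.sub_mem hx (A.smul_mem _ hw₁)) (A.smul_mem _ hw₂A)) (by
      rw [polar_sub_right, polar_sub_right, polar_smul_right, polar_smul_right, polar_self', h12, hQ₁]
      simp only [smul_eq_mul]
      field_simp
      ring) (by
      rw [polar_sub_right, polar_sub_right, polar_smul_right, polar_smul_right, polar_self', h21, hQ₂]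
      simp only [smul_eq_mul]
      field_simp
      ring)
  have h4 := U.add_mem (U.add_mem h3 (U.smul_mem ((2 * c)⁻¹ * polar Q w₂ x) (hU w₂ hw₂A hQ₂)))
    (U.smul_mem ((2 * c)⁻¹ * polar Q w₁ x) (hU w₁ hw₁ hQ₁))
  rwa [sub_add_cancel, sub_add_cancel] at h4

/-- nonsingular vectors span -/
theorem span_ns (hQ : Nd Q) (h2 : (2 : F) ≠ 0) {A : Submodule F V} (hA : NDs Q A) {U : Submodule F V}
    (hU : ∀ w ∈ A, Q w ≠ 0 → w ∈ U) : A ≤ U := by
  intro x hx
  by_cases hQx : Q x = 0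
  swap
  · exact hU x hx hQx
  by_cases hx0 : x = 0
  · rw [hx0]; exact U.zero_mem
  obtain ⟨y, hy, -, hxy⟩ := exists_one_in hQ hA bot_le hx (by simpa using hx0)
  have hyx : polar Q y x = 1 := by rw [polar_comm, hxy]
  have e1 : Q (y + x) = Q y + 1 := by rw [Q_add, hQx, hyx]; ring
  have e2 : Q (y - x) = Q y - 1 := by rw [Q_sub, hQx, hyx]; ring
  by_cases h3 : Q y = 0
  · have h4 := hU (y + x) (A.add_mem hy hx) (by rw [e1, h3, zero_add]; exact one_ne_zero)
    have h5 := hU (y - x) (A.sub_mem hy hx) (by rw [e2, h3, zero_sub]; exact neg_ne_zero.2 one_ne_zero)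
    have h6 := U.sub_mem h4 h5
    rw [show y + x - (y - x) = (2 : F) • x from by rw [two_smul]; abel] at h6
    exact (U.smul_mem_iff h2).1 h6
  · by_cases h4 : Q y = -1
    · have h5 := hU (y - x) (A.sub_mem hy hx) (by
        rw [e2, h4]
        intro h0
        apply h2
        linear_combination -h0)
      have h6 := U.sub_mem (hU y hy h3) h5
      rwa [sub_sub_cancel] at h6
    · have h5 := hU (y + x) (A.add_mem hy hx) (by
        rw [e1]
        intro h0
        exact h4 (eq_neg_of_add_eq_zero_left h0))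
      have h6 := U.sub_mem h5 (hU y hy h3)
      rwa [add_sub_cancel_left] at h6

/-- the value of `B(r_u r_w x, x)` -/
theorem polar_rr {u w : V} {c : F} (hu : Q u = c) (hw : Q w = c) (hc : c ≠ 0) (x : V) :
    c * c * polar Q (refl Q u (refl Q w x)) x =
      2 * (c * c) * Q x - c * (polar Q w x) ^ 2 - c * (polar Q u x) ^ 2 + polar Q w x * polar Q u x * polar Q u w := by
  have hu0 : Q u ≠ 0 := by rw [hu]; exact hc
  have hw0 : Q w ≠ 0 := by rw [hw]; exact hc
  rw [refl_apply hu0, refl_apply hw0, hu, hw]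
  simp only [polar_sub_left, polar_smul_left, polar_sub_right, polar_smul_right, polar_self', smul_eq_mul]
  field_simp
  ring

theorem refl_neg (u : V) : refl Q (-u) = refl Q u := by
  rw [← neg_one_smul F u, refl_smul (neg_ne_zero.2 one_ne_zero)]

theorem exists_half [Finite F] (hQ : Nd Q) (h2 : (2 : F) ≠ 0) {A : Submodule F V} (hA : NDs Q A) (hd : 3 ≤ finrank F A)
    {u w : V} (hu : u ∈ A) (hw : w ∈ A) (huw : Q u = Q w) (hw0 : Q w ≠ 0) (hne : u ≠ w) (hne' : u ≠ -w) :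
    ∃ x ∈ A, Q x ≠ 0 ∧ polar Q (refl Q u (refl Q w x)) x = 0 := by
  -- reduce to a polynomial identity
  have red : ∀ {u : V}, Q u = Q w → ∀ x, 2 * (Q w * Q w) * Q x - Q w * (polar Q w x) ^ 2 - Q w * (polar Q u x) ^ 2 +
      polar Q w x * polar Q u x * polar Q u w = 0 → polar Q (refl Q u (refl Q w x)) x = 0 := by
    intro u hu x hx
    have h1 := polar_rr (Q := Q) hu rfl hw0 x
    rw [hx] at h1
    exact (mul_eq_zero.1 h1).resolve_left (mul_ne_zero hw0 hw0)
  -- the degenerate plane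
  have deg : ∀ {u : V}, u ∈ A → Q u = Q w → u ≠ w → polar Q u w = 2 * Q w →
      ∃ x ∈ A, Q x ≠ 0 ∧ polar Q (refl Q u (refl Q w x)) x = 0 := by
    intro u hu huw hne hg
    obtain ⟨x₀, hx₀, -, hz⟩ := exists_one_in hQ hA bot_le (A.sub_mem hu hw) (by simpa using sub_ne_zero.2 hne)
    have hQz : Q (u - w) = 0 := by rw [Q_sub, huw, hg]; ring
    have hQx : Q (x₀ + ((2 * Q w)⁻¹ - Q x₀) • (u - w)) = (2 * Q w)⁻¹ := by
      rw [Q_add, Q_smul, hQz, polar_smul_right, polar_comm Q x₀, hz]; simp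
    have hzx : polar Q (u - w) (x₀ + ((2 * Q w)⁻¹ - Q x₀) • (u - w)) = 1 := by
      rw [polar_add_right, polar_smul_right, polar_self', hQz, hz]; simp
    refine ⟨_, A.add_mem hx₀ (A.smul_mem _ (A.sub_mem hu hw)), by rw [hQx]; exact inv_ne_zero (mul_ne_zero h2 hw0), red huw _ ?_⟩
    set x := x₀ + ((2 * Q w)⁻¹ - Q x₀) • (u - w)
    rw [polar_sub_left] at hzx
    rw [hQx, hg]
    have e1 : polar Q u x = 1 + polar Q w x := by linear_combination hzx
    rw [e1]
    field_simp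
    ring
  by_cases hg : polar Q u w = 2 * Q w
  · exact deg hu huw hne hg
  by_cases hg' : polar Q u w = -(2 * Q w)
  · obtain ⟨x, hx, h1, h3⟩ := deg (u := -u) (A.neg_mem hu) (by rw [QuadraticMap.map_neg, huw])
      (fun h => hne' (by rw [← h, neg_neg])) (by rw [polar_neg_left, hg', neg_neg])
    rw [refl_neg] at h3
    exact ⟨x, hx, h1, h3⟩
  -- the nondegenerate plane
  set c := Q w with hcdef
  set γ := polar Q u w with hγ
  have hdisc : γ ^ 2 - 4 * c ^ 2 ≠ 0 := by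
    intro h
    have h3 : (γ - 2 * c) * (γ + 2 * c) = 0 := by linear_combination h
    rcases mul_eq_zero.1 h3 with h4 | h4
    · exact hg (sub_eq_zero.1 h4)
    · exact hg' (eq_neg_of_add_eq_zero_left h4)
  by_cases hτ : γ ^ 2 - 2 * c ^ 2 = 0
  · refine ⟨w, hw, hw0, red huw w ?_⟩
    rw [polar_self', ← hcdef, ← hγ]
    linear_combination c * hτ
  set z := u - ((2 * c)⁻¹ * γ) • w with hz
  have hzA : z ∈ A := A.sub_mem hu (A.smul_mem _ hw)
  have hwz : polar Q w z = 0 := by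
    rw [hz, polar_sub_right, polar_smul_right, polar_self', polar_comm Q w u, ← hγ, ← hcdef]
    simp only [smul_eq_mul]
    field_simp
    ring
  have hQz : Q z = -(γ ^ 2 - 4 * c ^ 2) / (4 * c) := by
    rw [hz, Q_sub, Q_smul, huw, polar_smul_right, ← hγ, ← hcdef]
    simp only [smul_eq_mul]
    have h4 : (4 : F) ≠ 0 := by
      have : (4 : F) = 2 * 2 := by norm_num
      rw [this]; exact mul_ne_zero h2 h2
    field_simp
    ring
  have h4 : (4 : F) ≠ 0 := by
    have : (4 : F) = 2 * 2 := by norm_num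
    rw [this]; exact mul_ne_zero h2 h2
  have hQz0 : Q z ≠ 0 := by
    rw [hQz]
    exact div_ne_zero (neg_ne_zero.2 hdisc) (mul_ne_zero h4 hw0)
  have hA₁ := nds_cut1 h2 hA hw hw0
  have hd₁ := finrank_cut1 hQ A w
  have hzA₁ : z ∈ A ⊓ perp Q (F ∙ w) := mem_cut1.2 ⟨hzA, hwz⟩
  have hA₂ := nds_cut1 h2 hA₁ hzA₁ hQz0
  have hd₂ := finrank_cut1 hQ (A ⊓ perp Q (F ∙ w)) z
  obtain ⟨n, hn, hQn⟩ := exists_ns hA₂ (by omega)
  obtain ⟨hn1, hzn⟩ := mem_cut1.1 hn
  obtain ⟨hnA, hwn⟩ := mem_cut1.1 hn1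
  obtain ⟨a, b, hab⟩ := sum_two h2 hw0 hQz0 (-(2 * c ^ 2 * Q n) / (γ ^ 2 - 2 * c ^ 2))
  have hux : polar Q u (n + (a • w + b • z)) = 2 * Q z * b + γ * a := by
    have hu' : u = z + ((2 * c)⁻¹ * γ) • w := by rw [hz, sub_add_cancel]
    have e1 : polar Q u n = 0 := by rw [hu', polar_add_left, polar_smul_left, hzn, hwn]; simp
    have e2 : polar Q u z = 2 * Q z := by rw [hu', polar_add_left, polar_smul_left, polar_self', hwz]; simp
    rw [polar_add_right, polar_add_right, polar_smul_right, polar_smul_right, e1, e2, ← hγ]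
    simp only [smul_eq_mul]; ring
  have hwx : polar Q w (n + (a • w + b • z)) = 2 * c * a := by
    rw [polar_add_right, polar_add_right, polar_smul_right, polar_smul_right, hwn, hwz, polar_self']
    simp only [smul_eq_mul]; ring
  have hQx : Q (n + (a • w + b • z)) = Q n + (Q w * a ^ 2 + Q z * b ^ 2) := by
    have e1 : polar Q n (a • w + b • z) = 0 := by
      rw [polar_add_right, polar_smul_right, polar_smul_right, polar_comm Q n w, polar_comm Q n z, hwn, hzn]; simp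
    rw [Q_add, e1, Q_add, Q_smul, Q_smul, polar_smul_left, polar_smul_right, hwz]
    simp only [smul_eq_mul]; ring
  refine ⟨n + (a • w + b • z), A.add_mem hnA (A.add_mem (A.smul_mem _ hw) (A.smul_mem _ hzA)), ?_, red huw _ ?_⟩
  · rw [hQx, hab]
    have e1 : Q n + -(2 * c ^ 2 * Q n) / (γ ^ 2 - 2 * c ^ 2) = Q n * (γ ^ 2 - 4 * c ^ 2) / (γ ^ 2 - 2 * c ^ 2) := by
      field_simp; ring
    rw [e1]
    exact div_ne_zero (mul_ne_zero hQn hdisc) hτ
  · rw [hux, hwx, hQx]
    have e3 : (γ ^ 2 - 2 * c ^ 2) * (c * a ^ 2 + Q z * b ^ 2) = -(2 * c ^ 2 * Q n) := by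
      rw [hab]; field_simp
    have e4 : 4 * c * Q z = -(γ ^ 2 - 4 * c ^ 2) := by
      rw [hQz]; field_simp
    have e5 : (2 * (c * c) * (Q n + (c * a ^ 2 + Q z * b ^ 2)) - c * (2 * c * a) ^ 2 - c * (2 * Q z * b + γ * a) ^ 2 +
      2 * c * a * (2 * Q z * b + γ * a) * γ) = 2 * c ^ 2 * Q n + (γ ^ 2 - 2 * c ^ 2) * (c * a ^ 2 + Q z * b ^ 2) -
        (4 * c * Q z + (γ ^ 2 - 4 * c ^ 2)) * (Q z * b ^ 2) := by ring
    rw [← hcdef, e5, e4, e3]
    ring

/-- prescribed norms orthogonal to two vectors -/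
theorem univ_fix [Finite F] (hQ : Nd Q) (h2 : (2 : F) ≠ 0) {A : Submodule F V} (hA : NDs Q A) (hd : 5 ≤ finrank F A)
    {u w : V} (hu : u ∈ A) (hw : w ∈ A) (hw0 : Q w ≠ 0) {d : F} (hd0 : d ≠ 0) :
    ∃ v ∈ A, Q v = d ∧ polar Q u v = 0 ∧ polar Q w v = 0 := by
  have hA₁ := nds_cut1 h2 hA hw hw0
  have hd₁ := finrank_cut1 hQ A w
  set z := u - ((2 * Q w)⁻¹ * polar Q w u) • w with hz
  have hu' : u = z + ((2 * Q w)⁻¹ * polar Q w u) • w := by rw [hz, sub_add_cancel]
  have hwz : polar Q w z = 0 := by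
    rw [hz, polar_sub_right, polar_smul_right, polar_self']
    simp only [smul_eq_mul]
    field_simp
    ring
  have hzA₁ : z ∈ A ⊓ perp Q (F ∙ w) := mem_cut1.2 ⟨A.sub_mem hu (A.smul_mem _ hw), hwz⟩
  have fin : ∀ v ∈ A ⊓ perp Q (F ∙ w), Q v = d → polar Q z v = 0 → ∃ v ∈ A, Q v = d ∧ polar Q u v = 0 ∧ polar Q w v = 0 := by
    intro v hv h1 h3
    obtain ⟨hvA, hwv⟩ := mem_cut1.1 hv
    refine ⟨v, hvA, h1, ?_, hwv⟩
    rw [hu', polar_add_left, polar_smul_left, h3, hwv]; simp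
  by_cases hz0 : z = 0
  · obtain ⟨v, hv, h1⟩ := univ_in h2 hA₁ (by omega) hd0
    exact fin v hv h1 (by rw [hz0, polar_zero_left])
  by_cases hQz : Q z = 0
  · obtain ⟨y, hy, hQy, hzy⟩ := exists_partner hQ hA₁ hzA₁ hz0 hQz
    have hA₂ := nds_cut hQ hA₁ hzA₁ hy hQz hQy hzy
    have hd₂ := finrank_cut hQ (A ⊓ perp Q (F ∙ w)) z y
    obtain ⟨v, hv, h1⟩ := univ_in h2 hA₂ (by omega) hd0
    obtain ⟨hv1, h3, -⟩ := mem_cut.1 hv
    exact fin v hv1 h1 h3
  · have hA₂ := nds_cut1 h2 hA₁ hzA₁ hQz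
    have hd₂ := finrank_cut1 hQ (A ⊓ perp Q (F ∙ w)) z
    obtain ⟨v, hv, h1⟩ := univ_in h2 hA₂ (by omega) hd0
    obtain ⟨hv1, h3⟩ := mem_cut1.1 hv
    exact fin v hv1 h1 h3

theorem refl_comm {x y : V} (h : polar Q y x = 0) : refl Q y * refl Q x = refl Q x * refl Q y := by
  have h1 := refl_conj (Q := Q) (refl_mem (Q := Q) y) x
  rw [refl_of_perp h, mul_inv_eq_iff_eq_mul] at h1
  exact h1

/-- a non-scalar involution -/
theorem rr_inv (hQ : Nd Q) (h2 : (2 : F) ≠ 0) (hd : 3 ≤ finrank F V) {x y : V} (hx : Q x ≠ 0) (h : polar Q y x = 0) :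
    (refl Q y * refl Q x) * (refl Q y * refl Q x) = 1 ∧ ¬ ∃ e : F, ∀ v, (refl Q y * refl Q x) v = e • v := by
  constructor
  · calc (refl Q y * refl Q x) * (refl Q y * refl Q x) = (refl Q y * refl Q x) * (refl Q x * refl Q y) := by
          rw [refl_comm h]
      _ = refl Q y * (refl Q x * refl Q x) * refl Q y := by group
      _ = 1 := by rw [refl_mul_self, mul_one, refl_mul_self]
  · rintro ⟨e, he⟩
    have h3 := hQ.finrank_add_finrank_perp (Submodule.span F {y, x})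
    have h4 : finrank F (Submodule.span F {y, x}) ≤ 2 := by
      classical
      have h3 := finrank_span_finset_le_card (R := F) ({y, x} : Finset V)
      have h4 : ({y, x} : Finset V).card ≤ 2 := Finset.card_le_two (a := y) (b := x)
      rw [Finset.coe_pair] at h3
      exact h3.trans h4
    have h5 : perp Q (Submodule.span F {y, x}) ≠ (⊥ : Submodule F V) := by
      intro h0
      rw [h0, finrank_bot] at h3
      omega
    obtain ⟨z, hz, hz0⟩ := Submodule.exists_mem_ne_zero_of_ne_bot h5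
    rw [mem_perp_span] at hz
    have h6 : (refl Q y * refl Q x) z = z := by
      rw [LinearEquiv.mul_apply, refl_of_perp (hz x (by simp)), refl_of_perp (hz y (by simp))]
    have h7 : e = 1 := by
      have h8 := he z
      rw [h6] at h8
      have h9 : (1 - e) • z = 0 := by rw [sub_smul, one_smul, ← h8, sub_self]
      exact (sub_eq_zero.1 ((smul_eq_zero.1 h9).resolve_right hz0)).symm
    have h8 := he x
    rw [LinearEquiv.mul_apply, refl_self hx, map_neg, refl_of_perp h, h7, one_smul] at h8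
    have h9 : (2 : F) • x = 0 := by
      rw [two_smul]
      nth_rewrite 1 [← h8]
      rw [neg_add_cancel]
    have h10 := (smul_eq_zero.1 h9).resolve_left h2
    rw [h10, QuadraticMap.map_zero] at hx
    exact hx rfl

theorem core [Finite F] (hQ : Nd Q) (h2 : (2 : F) ≠ 0) {A : Submodule F V} (hA : NDs Q A) (hd : 3 ≤ finrank F A)
    (P : (V ≃ₗ[F] V) → Prop) (hPO : ∀ t, P t → t ∈ O Q) (hPA : ∀ t, P t → ∀ x ∈ perp Q A, t x = x) {c : F} (hc : c ≠ 0)
    (h1 : ∀ t, P t → ∀ w ∈ A, Q w = c → P (refl Q (t w) * refl Q w))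
    (h3 : (∀ t, P t → ∀ w ∈ A, Q w ≠ 0 → P (refl Q (t w) * refl Q w)) ∨
      (5 ≤ finrank F A ∧ ∀ t, P t → ∀ v ∈ A, ∀ w ∈ A, Q v = Q w → Q w ≠ 0 → t v = v →
        P (refl Q v * (refl Q (t w) * refl Q w) * refl Q v)))
    (h4 : ∀ t, P t → t * t = 1 → ∃ e : F, ∀ x, t x = e • x) (t : V ≃ₗ[F] V) (ht : P t) : t * t = 1 := by
  by_contra hne
  have hV : 3 ≤ finrank F V := hd.trans (Submodule.finrank_le A)
  obtain ⟨w, hw, hQw, h5, h6⟩ : ∃ w ∈ A, Q w = c ∧ t w ≠ w ∧ t w ≠ -w := by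
    by_contra hcon
    push Not at hcon
    apply hne
    have h5 : A ≤ LinearMap.ker ((t * t).toLinearMap - LinearMap.id) := by
      refine span_norm hQ h2 hA hd hc fun w hw hQw => ?_
      rw [LinearMap.mem_ker, LinearMap.sub_apply, sub_eq_zero]
      show t (t w) = w
      by_cases h6 : t w = w
      · rw [h6, h6]
      · rw [hcon w hw hQw h6, map_neg, hcon w hw hQw h6, neg_neg]
    ext v
    obtain ⟨a, ha, b, hb, rfl⟩ := nds_sup hQ hA v
    have h6 := h5 ha
    rw [LinearMap.mem_ker, LinearMap.sub_apply, sub_eq_zero] at h6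
    show t (t (a + b)) = a + b
    rw [map_add, map_add, hPA t ht b hb, hPA t ht b hb]
    congr 1
  have hw0 : Q w ≠ 0 := by rw [hQw]; exact hc
  have htw : t w ∈ A := by
    rw [← hQ.perp_perp A]
    refine mem_perp.2 fun x hx => ?_
    rw [← hPA t ht x hx, O_polar (hPO t ht), polar_comm]
    exact mem_perp.1 hx w hw
  have hQtw : Q (t w) = Q w := hPO t ht w
  set s := refl Q (t w) * refl Q w with hs
  have hPs : P s := h1 t ht w hw hQw
  obtain ⟨x, hx, hQx, hpx⟩ := exists_half hQ h2 hA hd htw hw hQtw hw0 h5 h6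
  have hpx' : polar Q (s x) x = 0 := hpx
  obtain ⟨e1, e2⟩ := rr_inv hQ h2 hV hQx hpx'
  rcases h3 with h3 | ⟨h5, h3⟩
  · exact e2 (h4 _ (h3 s hPs x hx hQx) e1)
  · obtain ⟨v, hv, hQv, huv, hwv⟩ := univ_fix hQ h2 hA h5 htw hw hw0 hQx
    have hsv : s v = v := by
      rw [hs, LinearEquiv.mul_apply, refl_of_perp hwv, refl_of_perp huv]
    have h6 := h3 s hPs v hv x hx hQv hQx hsv
    set r := refl Q (s x) * refl Q x with hr
    obtain ⟨e, he⟩ := h4 _ h6 (by
      calc refl Q v * r * refl Q v * (refl Q v * r * refl Q v) = refl Q v * r * (refl Q v * refl Q v) * r * refl Q v := by group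
        _ = refl Q v * (r * r) * refl Q v := by rw [refl_mul_self, mul_one]; group
        _ = 1 := by rw [e1, mul_one, refl_mul_self])
    apply e2
    refine ⟨e, fun y => ?_⟩
    have h7 := he (refl Q v y)
    rw [LinearEquiv.mul_apply, LinearEquiv.mul_apply, refl_refl] at h7
    have h8 := congrArg (refl Q v) h7
    rw [refl_refl, map_smul, refl_refl] at h8
    exact h8

theorem rigid_refl [Finite F] (hQ : Nd Q) (h2 : (2 : F) ≠ 0) {A : Submodule F V} (hA : NDs Q A) (hd : 5 ≤ finrank F A)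
    (Φ : V →+ V) (h : ∀ v w, (v ∈ A ∨ v ∈ perp Q A) → w ∈ A → polar Q v w = 0 → Q v = Q w → Q w ≠ 0 →
      Φ v ∈ Submodule.span F {v, w}) :
    (∀ v, (v ∈ A ∨ v ∈ perp Q A) → Q v ≠ 0 → ∃ a : F, Φ v = a • v) ∧ ∃ κ : F, ∀ u ∈ A, Φ u = κ • u := by
  have h1 : ∀ v, (v ∈ A ∨ v ∈ perp Q A) → Q v ≠ 0 → ∃ a : F, Φ v = a • v := by
    intro v hv hQv
    obtain ⟨w, hw, hQw, hvw, w', hw', hQw', hvw', hww'⟩ : ∃ w ∈ A, Q w = Q v ∧ polar Q v w = 0 ∧
        ∃ w' ∈ A, Q w' = Q v ∧ polar Q v w' = 0 ∧ polar Q w w' = 0 := by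
      rcases hv with hv | hv
      · have hA₁ := nds_cut1 h2 hA hv hQv
        have hd₁ := finrank_cut1 hQ A v
        obtain ⟨w, hw, hQw⟩ := univ_in h2 hA₁ (by omega) hQv
        have hA₂ := nds_cut1 h2 hA₁ hw (by rw [hQw]; exact hQv)
        have hd₂ := finrank_cut1 hQ (A ⊓ perp Q (F ∙ v)) w
        obtain ⟨w', hw', hQw'⟩ := univ_in h2 hA₂ (by omega) hQv
        obtain ⟨hw1, hww'⟩ := mem_cut1.1 hw'
        exact ⟨w, (mem_cut1.1 hw).1, hQw, (mem_cut1.1 hw).2, w', (mem_cut1.1 hw1).1, hQw', (mem_cut1.1 hw1).2, hww'⟩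
      · obtain ⟨w, hw, hQw⟩ := univ_in h2 hA (by omega) hQv
        have hA₁ := nds_cut1 h2 hA hw (by rw [hQw]; exact hQv)
        have hd₁ := finrank_cut1 hQ A w
        obtain ⟨w', hw', hQw'⟩ := univ_in h2 hA₁ (by omega) hQv
        obtain ⟨hw'A, hww'⟩ := mem_cut1.1 hw'
        exact ⟨w, hw, hQw, mem_perp'.1 hv w hw, w', hw'A, hQw', mem_perp'.1 hv w' hw'A, hww'⟩
    have k1 := h v w hv hw hvw hQw.symm (by rw [hQw]; exact hQv)
    have k2 := h v w' hv hw' hvw' hQw'.symm (by rw [hQw']; exact hQv)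
    obtain ⟨a, b, k1⟩ := Submodule.mem_span_pair.1 k1
    obtain ⟨a', b', k2⟩ := Submodule.mem_span_pair.1 k2
    have k3 := congrArg (polar Q w) (k1.trans k2.symm)
    simp only [polar_add_right, polar_smul_right, polar_comm Q w v, hvw, hww', polar_self', hQw, smul_eq_mul,
      mul_zero, zero_add, add_zero] at k3
    have k4 : b = 0 := by
      rcases mul_eq_zero.1 k3 with k | k
      · exact k
      · exact absurd k (mul_ne_zero h2 hQv)
    exact ⟨a, by rw [← k1, k4, zero_smul, add_zero]⟩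
  refine ⟨h1, ?_⟩
  -- a base vector of norm one
  have base : ∀ v ∈ A, Q v = 1 → ∀ κ : F, Φ v = κ • v → ∀ x ∈ A, polar Q v x = 0 → Φ x = κ • x := by
    intro v hv hQv κ hκ
    have hv0 : Q v ≠ 0 := by rw [hQv]; exact one_ne_zero
    -- comparison of coefficients
    have cmp : ∀ x, polar Q v x = 0 → x ≠ 0 → ∀ a b a' b' : F, a • v + b • x = a' • v + b' • x → a = a' ∧ b = b' := by
      intro x hvx hx0 a b a' b' he
      have e1 := congrArg (polar Q v) he
      simp only [polar_add_right, polar_smul_right, polar_self', hQv, hvx, smul_eq_mul, mul_zero, add_zero, mul_one] at e1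
      have e2 : a = a' := mul_right_cancel₀ h2 e1
      refine ⟨e2, ?_⟩
      rw [e2, add_right_inj] at he
      have e3 : (b - b') • x = 0 := by rw [sub_smul, he, sub_self]
      exact sub_eq_zero.1 ((smul_eq_zero.1 e3).resolve_right hx0)
    have sing : ∀ x ∈ A, polar Q v x = 0 → Q x = 0 → Φ x = κ • x := by
      intro x hx hvx hQx
      by_cases hx0 : x = 0
      · rw [hx0, map_zero, smul_zero]
      have hxv : polar Q x v = 0 := by rw [polar_comm, hvx]
      obtain ⟨d, hd⟩ := h1 (v + x) (Or.inl (A.add_mem hv hx)) (by rw [Q_add, hQx, hvx, hQv]; simp)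
      obtain ⟨e, he⟩ := h1 (v - x) (Or.inl (A.sub_mem hv hx)) (by rw [Q_sub, hQx, hvx, hQv]; simp)
      rw [map_add, hκ] at hd
      rw [map_sub, hκ] at he
      have e1 : Φ x = (d - κ) • v + d • x := by
        rw [sub_smul, show (d • v - κ • v + d • x : V) = d • (v + x) - κ • v from by rw [smul_add]; abel, ← hd]; abel
      have e2 : Φ x = (κ - e) • v + e • x := by
        rw [sub_smul, show (κ • v - e • v + e • x : V) = κ • v - e • (v - x) from by rw [smul_sub]; abel, ← he]; abel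
      obtain ⟨e3, e4⟩ := cmp x hvx hx0 _ _ _ _ (e1.symm.trans e2)
      have e5 : d = κ := by
        have : (2 : F) * (d - κ) = 0 := by linear_combination e3 + e4
        exact sub_eq_zero.1 ((mul_eq_zero.1 this).resolve_left h2)
      rw [e1, e5, sub_self, zero_smul, zero_add]
    have gen : ∀ x ∈ A, polar Q v x = 0 → Q x ≠ 0 → Q x + 1 ≠ 0 → Φ x = κ • x := by
      intro x hx hvx hQx hQx1
      have hx0 : x ≠ 0 := by rintro rfl; exact hQx (QuadraticMap.map_zero Q)
      obtain ⟨b, hb⟩ := h1 x (Or.inl hx) hQx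
      obtain ⟨d, hd⟩ := h1 (v + x) (Or.inl (A.add_mem hv hx)) (by rw [Q_add, hvx, hQv, add_zero, add_comm]; exact hQx1)
      rw [map_add, hκ, hb, smul_add] at hd
      obtain ⟨e1, e2⟩ := cmp x hvx hx0 _ _ _ _ hd
      rw [hb, e2, e1]
    intro x hx hvx
    by_cases hQx : Q x = 0
    · exact sing x hx hvx hQx
    by_cases hQx1 : Q x + 1 = 0
    swap
    · exact gen x hx hvx hQx hQx1
    have hA₁ := nds_cut1 h2 hA hv hv0
    have hd₁ := finrank_cut1 hQ A v
    have hA₂ := nds_cut1 h2 hA₁ (mem_cut1.2 ⟨hx, hvx⟩) hQx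
    have hd₂ := finrank_cut1 hQ (A ⊓ perp Q (F ∙ v)) x
    obtain ⟨y, hy, hQy⟩ := univ_in h2 hA₂ (by omega) (one_ne_zero (α := F))
    obtain ⟨hy1, hxy⟩ := mem_cut1.1 hy
    obtain ⟨hyA, hvy⟩ := mem_cut1.1 hy1
    have e1 := gen y hyA hvy (by rw [hQy]; exact one_ne_zero) (by
      rw [hQy]
      intro h0
      exact h2 (by rw [← h0]; norm_num))
    have e2 := sing (x + y) (A.add_mem hx hyA) (by rw [polar_add_right, hvx, hvy, add_zero]) (by
      rw [Q_add, hxy, hQy, add_zero]; exact hQx1)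
    rw [map_add, e1, smul_add, add_left_inj] at e2
    exact e2
  obtain ⟨v, hv, hQv⟩ := univ_in h2 hA (by omega) (one_ne_zero (α := F))
  have hv0 : Q v ≠ 0 := by rw [hQv]; exact one_ne_zero
  obtain ⟨κ, hκ⟩ := h1 v (Or.inl hv) hv0
  have hA₁ := nds_cut1 h2 hA hv hv0
  have hd₁ := finrank_cut1 hQ A v
  obtain ⟨y, hy, hQy⟩ := univ_in h2 hA₁ (by omega) (one_ne_zero (α := F))
  obtain ⟨hyA, hvy⟩ := mem_cut1.1 hy
  have hyv : polar Q y v = 0 := by rw [polar_comm, hvy]
  have e1 := base v hv hQv κ hκ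
  have e2 := base y hyA hQy κ (e1 y hyA hvy)
  refine ⟨κ, fun u hu => ?_⟩
  have e3 := e1 (u - ((2 : F)⁻¹ * polar Q v u) • v) (A.sub_mem hu (A.smul_mem _ hv)) (by
    rw [polar_sub_right, polar_smul_right, polar_self', hQv]
    simp only [smul_eq_mul]
    field_simp
    ring)
  have e4 := e2 (((2 : F)⁻¹ * polar Q v u) • v) (A.smul_mem _ hv) (by rw [polar_smul_right, hyv, smul_zero])
  have e5 : u = (u - ((2 : F)⁻¹ * polar Q v u) • v) + ((2 : F)⁻¹ * polar Q v u) • v := by rw [sub_add_cancel]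
  rw [e5, map_add, e3, e4, smul_add]

end Cfsg.Agent.Lib.OGr
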