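import Cfsg.Agent.Lib.OGrA
import Cfsg.Agent.Lib.OBalB

set_option autoImplicit false
set_option linter.unusedSectionVars false

/-!
# Graph involutions of orthogonal groups in odd characteristic (helper21)

`SG g` : the image in `Aut(PΩ(Q))` of the centralizer of the similarity `g` in `Ω(Q)`.
-/

namespace Cfsg.Agent.Lib.OGr

open Matrix QuadraticMap Module
open Cfsg.Agent.Lib.Quad Cfsg.Agent.Lib.ClOrthSiegel Cfsg.Agent.Lib.ClOmega Cfsg.Agent.Lib.POmAut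
open Cfsg.Agent.Lib.Descent Cfsg.Agent.Lib.OFld Cfsg.Agent.Lib.OrthNd Cfsg.Agent.Lib.OBal
open Cfsg.Agent.Lib.OAut (Semi H2)

variable {ι : Type} [Fintype ι] [DecidableEq ι] {F : Type*} [Field F] {Q : QuadraticForm F (ι → F)}

/-- the image of the centralizer of `g` in `Ω(Q)` -/
def SG (g : GO Q) : Subgroup (MulAut (Cfsg.POmega F ⇑Q)) := (OmG Q ⊓ Subgroup.centralizer {g}).map dg

theorem mem_SG {g : GO Q} {x : MulAut (Cfsg.POmega F ⇑Q)} : x ∈ SG g ↔ ∃ t ∈ OmG Q, t * g = g * t ∧ dg t = x := by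
  unfold SG
  constructor
  · rintro ⟨t, ht, rfl⟩
    obtain ⟨h1, h2⟩ := Subgroup.mem_inf.1 ht
    exact ⟨t, h1, Subgroup.mem_centralizer_singleton_iff.1 h2, rfl⟩
  · rintro ⟨t, h1, h2, rfl⟩
    exact ⟨t, Subgroup.mem_inf.2 ⟨h1, Subgroup.mem_centralizer_singleton_iff.2 h2⟩, rfl⟩

theorem SG_le (g : GO Q) : SG g ≤ Cfsg.Inn (Cfsg.POmega F ⇑Q) ⊓ Subgroup.centralizer {dg g} := by
  intro x hx
  obtain ⟨t, h1, h2, rfl⟩ := mem_SG.1 hx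
  have e1 : dg t ∈ Cfsg.Inn (Cfsg.POmega F ⇑Q) := by
    rw [Inn_eq]
    exact Subgroup.mem_map_of_mem _ h1
  have e2 : dg t * dg g = dg g * dg t := by rw [← map_mul, ← map_mul, h2]
  exact Subgroup.mem_inf.2 ⟨e1, Subgroup.mem_centralizer_singleton_iff.2 e2⟩

/-- cancelling a central scalar -/
theorem comm_of_sc {a g b : GO Q} {u : Fˣ} (hb : b = sc Q u * g) (h : a * b = b * a) : a * g = g * a := by
  subst hb
  have h1 : sc Q u * (a * g) = sc Q u * (g * a) := by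
    calc sc Q u * (a * g) = (sc Q u * a) * g := (mul_assoc _ _ _).symm
      _ = (a * sc Q u) * g := by rw [sc_comm]
      _ = a * (sc Q u * g) := mul_assoc _ _ _
      _ = (sc Q u * g) * a := h
      _ = sc Q u * (g * a) := mul_assoc _ _ _
  exact mul_left_cancel h1

theorem conj_comm {G : Type*} [Group G] {t r g : G} (h : r * g = g * r) :
    (t * r * t⁻¹) * (t * g * t⁻¹) = (t * g * t⁻¹) * (t * r * t⁻¹) := by
  calc (t * r * t⁻¹) * (t * g * t⁻¹) = t * (r * g) * t⁻¹ := by group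
    _ = t * (g * r) * t⁻¹ := by rw [h]
    _ = (t * g * t⁻¹) * (t * r * t⁻¹) := by group

theorem SG_conj (h : Gd Q) (g : GO Q) : ∀ c ∈ Cfsg.Inn (Cfsg.POmega F ⇑Q) ⊓ Subgroup.centralizer {dg g}, ∀ s ∈ SG g,
    c * s * c⁻¹ ∈ SG g := by
  intro c hc x hx
  obtain ⟨r, h1, h2, rfl⟩ := mem_SG.1 hx
  rw [Subgroup.mem_inf, Subgroup.mem_centralizer_singleton_iff, Inn_eq] at hc
  obtain ⟨⟨t, ht, rfl⟩, hc⟩ := hc
  have h3 : dg (t * g * t⁻¹) = dg g := by rw [map_mul, map_mul, map_inv, hc, mul_inv_cancel_right]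
  obtain ⟨u, hu⟩ := h.dg_eq_dg h3
  exact mem_SG.2 ⟨t * r * t⁻¹, OmG_conj t h1, comm_of_sc hu (conj_comm h2), by rw [map_mul, map_mul, map_inv]⟩

/-- isometries as automorphisms -/
noncomputable def dO (Q : QuadraticForm F (ι → F)) : ↥(O Q) →* MulAut (Cfsg.POmega F ⇑Q) := (dg (Q := Q)).comp (iO Q)

theorem dO_scalar (h : Gd Q) {s : ↥(O Q)} (hs : dO Q s = 1) : ∃ e : F, ∀ x, (s : (ι → F) ≃ₗ[F] (ι → F)) x = e • x := by
  obtain ⟨e, he⟩ := h.ker _ hs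
  exact ⟨e, fun x => by rw [← he, iO_mulVec]⟩

theorem dO_of_scalar {s : ↥(O Q)} {e : F} (he0 : e ≠ 0) (he : ∀ x, (s : (ι → F) ≃ₗ[F] (ι → F)) x = e • x) : dO Q s = 1 := by
  have : iO Q s = sc Q (Units.mk0 e he0) := by
    apply GO_ext
    intro v
    rw [iO_mulVec, sc_mulVec, he]; rfl
  show dg (iO Q s) = 1
  rw [this, dg_sc]

/-- the elements of `Ω(Q)` commuting with `g` lying over `N` -/
def PN (g : GO Q) (N : Subgroup (MulAut (Cfsg.POmega F ⇑Q))) (τ : (ι → F) ≃ₗ[F] (ι → F)) : Prop :=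
  ∃ hτ : τ ∈ Om Q, τ * toLE g.1 = toLE g.1 * τ ∧ dO Q ⟨τ, Om_le hτ⟩ ∈ N

/-- the elements of `Ω(Q)` commuting with `g` -/
def CG (g : GO Q) (τ : (ι → F) ≃ₗ[F] (ι → F)) : Prop := τ ∈ Om Q ∧ τ * toLE g.1 = toLE g.1 * τ

theorem iO_comm {g : GO Q} {s : ↥(O Q)} (hs : (s : (ι → F) ≃ₗ[F] (ι → F)) * toLE g.1 = toLE g.1 * s) :
    iO Q s * g = g * iO Q s := by
  apply GO_ext
  intro v
  rw [GO_mul, GO_mul, iO_mulVec, iO_mulVec]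
  exact congrArg (fun f : (ι → F) ≃ₗ[F] (ι → F) => f v) hs

theorem CG.mem {g : GO Q} {τ : (ι → F) ≃ₗ[F] (ι → F)} (h : CG g τ) : dO Q ⟨τ, Om_le h.1⟩ ∈ SG g :=
  mem_SG.2 ⟨iO Q ⟨τ, Om_le h.1⟩, (iO_mem_OmG _).2 h.1, iO_comm h.2, rfl⟩

section PN

variable {g : GO Q} {N : Subgroup (MulAut (Cfsg.POmega F ⇑Q))}

theorem PN.cg {τ : (ι → F) ≃ₗ[F] (ι → F)} (h : PN g N τ) : CG g τ := ⟨h.1, h.2.1⟩

theorem PN.mul {τ τ' : (ι → F) ≃ₗ[F] (ι → F)} (h : PN g N τ) (h' : PN g N τ') : PN g N (τ * τ') := by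
  obtain ⟨h1, h2, h3⟩ := h
  obtain ⟨h1', h2', h3'⟩ := h'
  refine ⟨mul_mem h1 h1', by rw [mul_assoc, h2', ← mul_assoc, h2, mul_assoc], ?_⟩
  have : (⟨τ * τ', Om_le (mul_mem h1 h1')⟩ : ↥(O Q)) = ⟨τ, Om_le h1⟩ * ⟨τ', Om_le h1'⟩ := rfl
  rw [this, map_mul]
  exact mul_mem h3 h3'

theorem PN.inv {τ : (ι → F) ≃ₗ[F] (ι → F)} (h : PN g N τ) : PN g N τ⁻¹ := by
  obtain ⟨h1, h2, h3⟩ := h
  refine ⟨inv_mem h1, by rw [inv_mul_eq_iff_eq_mul, ← mul_assoc, h2, mul_inv_cancel_right], ?_⟩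
  have : (⟨τ⁻¹, Om_le (inv_mem h1)⟩ : ↥(O Q)) = (⟨τ, Om_le h1⟩)⁻¹ := rfl
  rw [this, map_inv]
  exact inv_mem h3

theorem PN.conj (hn : ∀ s ∈ SG g, ∀ n ∈ N, s * n * s⁻¹ ∈ N) {τ y : (ι → F) ≃ₗ[F] (ι → F)} (h : PN g N τ) (hy : CG g y) :
    PN g N (y * τ * y⁻¹) := by
  obtain ⟨h1, h2, h3⟩ := h
  refine ⟨mul_mem (mul_mem hy.1 h1) (inv_mem hy.1), ?_, ?_⟩
  · have e1 : y⁻¹ * toLE g.1 = toLE g.1 * y⁻¹ := by
      rw [inv_mul_eq_iff_eq_mul, ← mul_assoc, hy.2, mul_inv_cancel_right]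
    rw [mul_assoc, e1, ← mul_assoc, mul_assoc y τ, h2, ← mul_assoc y, hy.2]
    simp only [mul_assoc]
  · have : (⟨y * τ * y⁻¹, Om_le (mul_mem (mul_mem hy.1 h1) (inv_mem hy.1))⟩ : ↥(O Q)) =
        ⟨y, Om_le hy.1⟩ * ⟨τ, Om_le h1⟩ * (⟨y, Om_le hy.1⟩)⁻¹ := rfl
    rw [this, map_mul, map_mul, map_inv]
    exact hn _ hy.mem _ h3

/-- commutators -/
theorem PN.comm (hn : ∀ s ∈ SG g, ∀ n ∈ N, s * n * s⁻¹ ∈ N) {τ y : (ι → F) ≃ₗ[F] (ι → F)} (h : PN g N τ) (hy : CG g y) :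
    PN g N (τ * y * τ⁻¹ * y⁻¹) := by
  have h1 := h.mul (h.inv.conj hn hy)
  rwa [← mul_assoc, ← mul_assoc] at h1

theorem PN.sq [Finite F] (h : Gd Q) (hcop : (Nat.card N).Coprime 2) {τ : (ι → F) ≃ₗ[F] (ι → F)} (hτ : PN g N τ) (hsq : τ * τ = 1) :
    ∃ e : F, ∀ x, τ x = e • x := by
  obtain ⟨h1, h2, h3⟩ := hτ
  refine dO_scalar h (s := ⟨τ, Om_le h1⟩) ?_
  refine LBal.eq_one_of_pow (k := 1) (p := 2) hcop h3 ?_
  have : (⟨τ, Om_le h1⟩ * ⟨τ, Om_le h1⟩ : ↥(O Q)) = 1 := Subtype.ext hsq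
  rw [pow_one, pow_two, ← map_mul, this, map_one]

end PN

end Cfsg.Agent.Lib.OGr
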