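import Cfsg.Agent.Lib.OGrB

set_option autoImplicit false
set_option linter.unusedSectionVars false

/-!
# Graph involutions of orthogonal groups in odd characteristic: reflections (helper21)
-/

namespace Cfsg.Agent.Lib.OGr

open Matrix QuadraticMap Module
open Cfsg.Agent.Lib.Quad Cfsg.Agent.Lib.ClOrthSiegel Cfsg.Agent.Lib.ClOmega Cfsg.Agent.Lib.POmAut
open Cfsg.Agent.Lib.Descent Cfsg.Agent.Lib.OFld Cfsg.Agent.Lib.OrthNd Cfsg.Agent.Lib.OBal
open Cfsg.Agent.Lib.OAut (Semi H2)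
open scoped commutatorElement

section Gen

variable {F V : Type*} [Field F] [AddCommGroup V] [Module F V] [FiniteDimensional F V]
  {Q : QuadraticForm F V}

/-- products of two reflections in vectors of the same norm -/
theorem rr_mem_Om (hQ : Nd Q) {v w : V} (hv : Q v ≠ 0) (h : Q v = Q w) : refl Q v * refl Q w ∈ Om Q := by
  have hv0 : v ≠ 0 := by rintro rfl; exact hv (QuadraticMap.map_zero Q)
  have hw0 : w ≠ 0 := by rintro rfl; exact hv (by rw [h, QuadraticMap.map_zero])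
  obtain ⟨g, hg, hgv⟩ := hQ.exists_map_eq hv0 hw0 h
  have h1 := refl_conj hg v
  rw [hgv] at h1
  have h3 : refl Q v * refl Q w = ⁅refl Q v, g⁆ := by
    rw [commutatorElement_def, refl_inv, ← h1]; group
  rw [h3]
  exact Subgroup.commutator_mem_commutator (refl_mem v) hg

theorem eq_of_refl (h2 : (2 : F) ≠ 0) {u w : V} (hu : Q u ≠ 0) (huw : Q u = Q w) (h : refl Q u = refl Q w) :
    u = w ∨ u = -w := by
  have hw : Q w ≠ 0 := by rw [← huw]; exact hu
  have h1 : refl Q w u = -u := by rw [← h, refl_self hu]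
  rw [refl_apply hw] at h1
  have h3 : u = ((2 : F)⁻¹ * ((Q w)⁻¹ * polar Q w u)) • w := by
    have h4 : (2 : F) • u = ((Q w)⁻¹ * polar Q w u) • w := by
      rw [two_smul]
      rw [sub_eq_iff_eq_add, neg_add_eq_sub, eq_sub_iff_add_eq] at h1
      exact h1
    rw [mul_smul, ← h4, smul_smul, inv_mul_cancel₀ h2, one_smul]
  set l := (2 : F)⁻¹ * ((Q w)⁻¹ * polar Q w u)
  have h4 : l * l = 1 := by
    have h5 := congrArg Q h3
    rw [Q_smul, huw] at h5
    have h6 : (l * l - 1) * Q w = 0 := by linear_combination -h5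
    exact sub_eq_zero.1 ((mul_eq_zero.1 h6).resolve_right hw)
  rcases mul_self_eq_one_iff.1 h4 with h5 | h5
  · left; rw [h3, h5, one_smul]
  · right; rw [h3, h5, neg_smul, one_smul]

end Gen

variable {ι : Type} [Fintype ι] [DecidableEq ι] {F : Type*} [Field F] {Q : QuadraticForm F (ι → F)}

/-- a decomposition into eigenspaces of an isometry -/
structure Spl (g : GO Q) (A : Submodule F (ι → F)) : Prop where
  gO : toLE g.1 ∈ O Q
  nds : NDs Q A
  eig : ∀ v, (v ∈ A ∨ v ∈ perp Q A) → toLE g.1 v = v ∨ toLE g.1 v = -v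
  stab : ∀ τ ∈ O Q, τ * toLE g.1 = toLE g.1 * τ → ∀ x ∈ A, τ x ∈ A

section

variable {g : GO Q} {A : Submodule F (ι → F)} {N : Subgroup (MulAut (Cfsg.POmega F ⇑Q))}

theorem inv_comm {G : Type*} [Group G] {a b : G} (h : a * b = b * a) : a⁻¹ * b = b * a⁻¹ := by
  rw [inv_mul_eq_iff_eq_mul, ← mul_assoc, h, mul_inv_cancel_right]

theorem Spl.perp (hQ : Nd Q) (S : Spl g A) : Spl g (perp Q A) where
  gO := S.gO
  nds := nds_perp hQ S.nds
  eig v hv := by
    rw [hQ.perp_perp] at hv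
    exact S.eig v hv.symm
  stab τ hτ hc x hx := by
    refine mem_perp.2 fun a ha => ?_
    have h1 := S.stab τ⁻¹ (inv_mem hτ) (inv_comm hc) a ha
    have h3 := mem_perp.1 hx _ h1
    rw [← O_polar hτ] at h3
    have h4 : τ (τ⁻¹ a) = a := τ.apply_symm_apply a
    rwa [h4] at h3

theorem Spl.refl_comm (S : Spl g A) {v : ι → F} (hv : v ∈ A ∨ v ∈ Quad.perp Q A) :
    refl Q v * toLE g.1 = toLE g.1 * refl Q v := by
  have h1 := refl_conj S.gO v
  have h3 : refl Q (toLE g.1 v) = refl Q v := by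
    rcases S.eig v hv with h | h
    · rw [h]
    · rw [h, refl_neg]
  rw [h3, mul_inv_eq_iff_eq_mul] at h1
  exact h1.symm

theorem Spl.cg (S : Spl g A) (hQ : Nd Q) {v w : ι → F} (hv : v ∈ A ∨ v ∈ Quad.perp Q A) (hw : w ∈ A ∨ w ∈ Quad.perp Q A)
    (h0 : Q w ≠ 0) (h : Q v = Q w) : CG g (refl Q v * refl Q w) := by
  refine ⟨rr_mem_Om hQ (by rw [h]; exact h0) h, ?_⟩
  rw [mul_assoc, S.refl_comm hw, ← mul_assoc, S.refl_comm hv, mul_assoc]

theorem PN.rr (S : Spl g A) (hQ : Nd Q) (hn : ∀ s ∈ SG g, ∀ n ∈ N, s * n * s⁻¹ ∈ N) {τ : (ι → F) ≃ₗ[F] (ι → F)}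
    (hτ : PN g N τ) {v w : ι → F} (hv : v ∈ A ∨ v ∈ Quad.perp Q A) (hw : w ∈ A ∨ w ∈ Quad.perp Q A)
    (h0 : Q w ≠ 0) (h : Q v = Q w) : PN g N (refl Q (τ v) * refl Q (τ w) * (refl Q w * refl Q v)) := by
  have h1 := hτ.comm hn (S.cg hQ hv hw h0 h)
  have h3 : τ * (refl Q v * refl Q w) * τ⁻¹ * (refl Q v * refl Q w)⁻¹ =
      refl Q (τ v) * refl Q (τ w) * (refl Q w * refl Q v) := by
    rw [← refl_conj (Om_le hτ.1) v, ← refl_conj (Om_le hτ.1) w, _root_.mul_inv_rev, refl_inv, refl_inv]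
    group
  rwa [h3] at h1

theorem PN.mem (S : Spl g A) {τ : (ι → F) ≃ₗ[F] (ι → F)} (hτ : PN g N τ) {x : ι → F} (hx : x ∈ A) : τ x ∈ A :=
  S.stab τ (Om_le hτ.1) hτ.2.1 x hx

/-- one reflection from the perpendicular space -/
theorem PN.rr_fix (S : Spl g A) (hQ : Nd Q) (hn : ∀ s ∈ SG g, ∀ n ∈ N, s * n * s⁻¹ ∈ N) {τ : (ι → F) ≃ₗ[F] (ι → F)}
    (hτ : PN g N τ) (hfix : ∀ x ∈ Quad.perp Q A, τ x = x) {v w : ι → F} (hv : v ∈ Quad.perp Q A) (hw : w ∈ A)
    (h0 : Q w ≠ 0) (h : Q v = Q w) : PN g N (refl Q (τ w) * refl Q w) := by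
  have h1 := hτ.rr S hQ hn (Or.inr hv) (Or.inl hw) h0 h
  rw [hfix v hv] at h1
  have e1 : refl Q w * refl Q v = refl Q v * refl Q w := OGr.refl_comm (mem_perp.1 hv w hw)
  have e2 : refl Q v * refl Q (τ w) = refl Q (τ w) * refl Q v :=
    (OGr.refl_comm (mem_perp.1 hv _ (hτ.mem S hw))).symm
  have e3 : refl Q v * refl Q (τ w) * (refl Q w * refl Q v) = refl Q (τ w) * refl Q w := by
    calc refl Q v * refl Q (τ w) * (refl Q w * refl Q v) = refl Q (τ w) * refl Q v * (refl Q v * refl Q w) := by rw [e1, e2]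
      _ = refl Q (τ w) * (refl Q v * refl Q v) * refl Q w := by group
      _ = refl Q (τ w) * refl Q w := by rw [refl_mul_self, mul_one]
  rwa [e3] at h1

theorem fixperp [Finite F] (S : Spl g A) (h : Gd Q) (h2 : (2 : F) ≠ 0) (hn : ∀ s ∈ SG g, ∀ n ∈ N, s * n * s⁻¹ ∈ N)
    (hcop : (Nat.card N).Coprime 2) (hd : 3 ≤ finrank F A) (hd1 : 1 ≤ finrank F (Quad.perp Q A))
    (hd2 : 2 ≤ finrank F (Quad.perp Q A) ∨ 5 ≤ finrank F A) {τ : (ι → F) ≃ₗ[F] (ι → F)} (hτ : PN g N τ)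
    (hfix : ∀ x ∈ Quad.perp Q A, τ x = x) : τ = 1 := by
  have hQ := h.nd
  obtain ⟨v₀, hv₀, hQv₀⟩ := exists_ns (nds_perp hQ S.nds) hd1
  have fixR : ∀ {v x : ι → F}, v ∈ A → x ∈ Quad.perp Q A → refl Q v x = x := fun hv hx =>
    refl_of_perp (mem_perp.1 hx _ hv)
  have key := core hQ h2 S.nds hd (fun τ => PN g N τ ∧ ∀ x ∈ Quad.perp Q A, τ x = x) (fun t ht => Om_le ht.1.1)
    (fun t ht => ht.2) hQv₀ (fun t ht w hw hQw => by
      refine ⟨ht.1.rr_fix S hQ hn ht.2 hv₀ hw (by rw [hQw]; exact hQv₀) hQw.symm, fun x hx => ?_⟩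
      rw [LinearEquiv.mul_apply, fixR hw hx, fixR (ht.1.mem S hw) hx])
    (by
      rcases hd2 with hd2 | hd2
      · left
        intro t ht w hw hQw
        obtain ⟨v, hv, hQv⟩ := univ_in h2 (nds_perp hQ S.nds) hd2 hQw
        refine ⟨ht.1.rr_fix S hQ hn ht.2 hv hw hQw hQv, fun x hx => ?_⟩
        rw [LinearEquiv.mul_apply, fixR hw hx, fixR (ht.1.mem S hw) hx]
      · right
        refine ⟨hd2, fun t ht v hv w hw hvw hw0 htv => ?_⟩
        constructor
        · have h1 := ht.1.rr S hQ hn (Or.inl hv) (Or.inl hw) hw0 hvw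
          rw [htv] at h1
          have e1 : refl Q v * refl Q (t w) * (refl Q w * refl Q v) = refl Q v * (refl Q (t w) * refl Q w) * refl Q v := by
            group
          rwa [e1] at h1
        · intro x hx
          rw [LinearEquiv.mul_apply, LinearEquiv.mul_apply, LinearEquiv.mul_apply, fixR hv hx, fixR hw hx,
            fixR (ht.1.mem S hw) hx, fixR hv hx])
    (fun t ht hsq => ht.1.sq h hcop hsq) τ ⟨hτ, hfix⟩
  obtain ⟨e, he⟩ := hτ.sq h hcop key
  have he1 : e = 1 := by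
    have h3 := he v₀
    rw [hfix v₀ hv₀] at h3
    have hv0 : v₀ ≠ 0 := by rintro rfl; exact hQv₀ (QuadraticMap.map_zero Q)
    have h9 : (1 - e) • v₀ = 0 := by rw [sub_smul, one_smul, ← h3, sub_self]
    exact (sub_eq_zero.1 ((smul_eq_zero.1 h9).resolve_right hv0)).symm
  ext1 x
  rw [he, he1, one_smul]; rfl

/-- squares on `A` -/
theorem sq_on [Finite F] (S : Spl g A) (h : Gd Q) (h2 : (2 : F) ≠ 0) (hn : ∀ s ∈ SG g, ∀ n ∈ N, s * n * s⁻¹ ∈ N)
    (hcop : (Nat.card N).Coprime 2) (hd : 3 ≤ finrank F A) (hd1 : 1 ≤ finrank F (Quad.perp Q A))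
    (hd2 : 2 ≤ finrank F (Quad.perp Q A) ∨ 5 ≤ finrank F A) {τ : (ι → F) ≃ₗ[F] (ι → F)} (hτ : PN g N τ)
    {x : ι → F} (hx : x ∈ A) : τ (τ x) = x := by
  have hQ := h.nd
  have hτO : τ ∈ O Q := Om_le hτ.1
  obtain ⟨w, hw, hQw⟩ := exists_ns (nds_perp hQ S.nds) hd1
  have hτw : τ w ∈ Quad.perp Q A := hτ.mem (S.perp hQ) hw
  -- the elements `refl (τ v) * refl v` agree
  have same : ∀ v ∈ A, ∀ v' ∈ A, Q v = Q w → Q v' = Q w → refl Q (τ v) * refl Q v = refl Q (τ v') * refl Q v' := by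
    intro v hv v' hv' hQv hQv'
    have k1 := hτ.rr S hQ hn (Or.inl hv) (Or.inr hw) hQw hQv
    have k2 := hτ.rr S hQ hn (Or.inl hv') (Or.inr hw) hQw hQv'
    have k3 := k1.mul k2.inv
    have c1 : ∀ {a b : ι → F}, a ∈ A → b ∈ Quad.perp Q A → refl Q a * refl Q b = refl Q b * refl Q a := fun ha hb =>
      OGr.refl_comm (mem_perp.1 hb _ ha)
    have e1 : ∀ v ∈ A, refl Q (τ v) * refl Q (τ w) * (refl Q w * refl Q v) =
        (refl Q (τ v) * refl Q v) * (refl Q (τ w) * refl Q w) := by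
      intro v hv
      calc refl Q (τ v) * refl Q (τ w) * (refl Q w * refl Q v) = refl Q (τ v) * refl Q (τ w) * (refl Q v * refl Q w) := by
            rw [c1 hv hw]
        _ = refl Q (τ v) * (refl Q (τ w) * refl Q v) * refl Q w := by group
        _ = refl Q (τ v) * (refl Q v * refl Q (τ w)) * refl Q w := by rw [c1 hv hτw]
        _ = _ := by group
    rw [e1 v hv, e1 v' hv'] at k3
    have e2 : (refl Q (τ v) * refl Q v) * (refl Q (τ w) * refl Q w) *
        ((refl Q (τ v') * refl Q v') * (refl Q (τ w) * refl Q w))⁻¹ =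
        (refl Q (τ v) * refl Q v) * (refl Q (τ v') * refl Q v')⁻¹ := by group
    rw [e2] at k3
    have fixR : ∀ {v x : ι → F}, v ∈ A → x ∈ Quad.perp Q A → refl Q v x = x := fun hv hx =>
      refl_of_perp (mem_perp.1 hx _ hv)
    have k4 := fixperp S h h2 hn hcop hd hd1 hd2 k3 (fun x hx => by
      rw [_root_.mul_inv_rev, refl_inv, refl_inv, LinearEquiv.mul_apply, LinearEquiv.mul_apply, LinearEquiv.mul_apply,
        fixR (hτ.mem S hv') hx, fixR hv' hx, fixR hv hx, fixR (hτ.mem S hv) hx])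
    exact mul_inv_eq_one.1 k4
  -- hence `τ v = ± v`
  have pm : ∀ v ∈ A, Q v = Q w → τ v = v ∨ τ v = -v := by
    intro v hv hQv
    by_contra hcon
    have hv0 : Q v ≠ 0 := by rw [hQv]; exact hQw
    have hne : refl Q (τ v) ≠ refl Q v := fun he => hcon (eq_of_refl h2 (by rw [hτO]; exact hv0) (hτO v) he)
    have hle : A ≤ Submodule.span F {v, τ v} := by
      refine span_norm hQ h2 S.nds hd hQw fun v' hv' hQv' => ?_
      rw [← hQ.perp_perp (Submodule.span F {v, τ v})]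
      refine mem_perp.2 fun x hx => ?_
      rw [mem_perp_span] at hx
      have hv'0 : Q v' ≠ 0 := by rw [hQv']; exact hQw
      have k1 : (refl Q (τ v') * refl Q v') x = x := by
        rw [← same v hv v' hv' hQv hQv', LinearEquiv.mul_apply, refl_of_perp (hx v (by simp)),
          refl_of_perp (hx (τ v) (by simp))]
      rw [LinearEquiv.mul_apply] at k1
      have k2 : refl Q v' x = refl Q (τ v') x := by rw [← refl_refl (Q := Q) (τ v') (refl Q v' x), k1]
      rw [refl_apply hv'0, refl_apply (by rw [hτO]; exact hv'0), hτO v', sub_right_inj, mul_smul, mul_smul] at k2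
      have k3 := smul_right_injective _ (inv_ne_zero hv'0) k2
      by_contra hp
      have hp' : polar Q v' x ≠ 0 := by rw [polar_comm]; exact hp
      have k4 : v' = ((polar Q v' x)⁻¹ * polar Q (τ v') x) • τ v' := by
        rw [mul_smul, ← k3, smul_smul, inv_mul_cancel₀ hp', one_smul]
      have k5 : ((polar Q v' x)⁻¹ * polar Q (τ v') x) ≠ 0 := by
        intro h0
        rw [h0, zero_smul] at k4
        exact hv'0 (by rw [k4, QuadraticMap.map_zero])
      have k6 : refl Q v' = refl Q (τ v') := by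
        rw [k4, refl_smul k5, ← k4]
      have k7 : refl Q (τ v) * refl Q v = 1 := by
        rw [same v hv v' hv' hQv hQv', k6, refl_mul_self]
      exact hne (by rw [← refl_inv v]; exact mul_eq_one_iff_eq_inv.1 k7)
    have h3 := Submodule.finrank_mono hle
    have h4 : finrank F (Submodule.span F {v, τ v}) ≤ 2 := by
      classical
      have h3 := finrank_span_finset_le_card (R := F) ({v, τ v} : Finset (ι → F))
      have h4 : ({v, τ v} : Finset (ι → F)).card ≤ 2 := Finset.card_le_two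
      rw [Finset.coe_pair] at h3
      exact h3.trans h4
    omega
  have hle : A ≤ LinearMap.ker ((τ * τ).toLinearMap - LinearMap.id) := by
    refine span_norm hQ h2 S.nds hd hQw fun v hv hQv => ?_
    rw [LinearMap.mem_ker, LinearMap.sub_apply, sub_eq_zero]
    show τ (τ v) = v
    rcases pm v hv hQv with h6 | h6
    · rw [h6, h6]
    · rw [h6, map_neg, h6, neg_neg]
  have h3 := hle hx
  rw [LinearMap.mem_ker, LinearMap.sub_apply, sub_eq_zero] at h3
  exact h3

end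

end Cfsg.Agent.Lib.OGr
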