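import Cfsg.Agent.Lib.OGrC

set_option autoImplicit false
set_option linter.unusedSectionVars false

/-!
# Graph involutions of orthogonal groups in odd characteristic: involutory isometries (helper21)
-/

namespace Cfsg.Agent.Lib.OGr

open Matrix QuadraticMap Module
open Cfsg.Agent.Lib.Quad Cfsg.Agent.Lib.ClOrthSiegel Cfsg.Agent.Lib.ClOmega Cfsg.Agent.Lib.POmAut
open Cfsg.Agent.Lib.Descent Cfsg.Agent.Lib.OFld Cfsg.Agent.Lib.OrthNd Cfsg.Agent.Lib.OBal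
open Cfsg.Agent.Lib.OAut (Semi H2)

variable {ι : Type} [Fintype ι] [DecidableEq ι] {F : Type*} [Field F] {Q : QuadraticForm F (ι → F)}

theorem mem_mov_iff (h2 : (2 : F) ≠ 0) {γ : (ι → F) ≃ₗ[F] (ι → F)} (hγ : γ * γ = 1) {x : ι → F} :
    x ∈ mov γ ↔ γ x = -x := by
  constructor
  · rintro ⟨y, rfl⟩
    show γ (γ y - y) = -(γ y - y)
    have : γ (γ y) = y := congrArg (fun f : (ι → F) ≃ₗ[F] (ι → F) => f y) hγ
    rw [map_sub, this]; abel
  · intro hx
    refine mem_mov.2 ⟨-((2 : F)⁻¹ • x), ?_⟩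
    rw [map_neg, map_smul, hx, smul_neg, neg_neg, sub_neg_eq_add, ← add_smul]
    have : (2 : F)⁻¹ + 2⁻¹ = 1 := by
      rw [← two_mul, mul_inv_cancel₀ h2]
    rw [this, one_smul]

theorem spl_fixS (hQ : Nd Q) (h2 : (2 : F) ≠ 0) {g : GO Q} (hg : toLE g.1 ∈ O Q) (hgg : toLE g.1 * toLE g.1 = 1) :
    Spl g (fixS (toLE g.1)) where
  gO := hg
  nds := by
    rw [NDs, eq_bot_iff]
    rintro x ⟨h1, h3⟩
    rw [SetLike.mem_coe, mem_fixS] at h1
    rw [SetLike.mem_coe, ← hQ.mov_eq hg, mem_mov_iff h2 hgg, h1] at h3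
    have h4 : (2 : F) • x = 0 := by
      rw [two_smul]; nth_rewrite 1 [h3]; rw [neg_add_cancel]
    exact (Submodule.mem_bot F).2 ((smul_eq_zero.1 h4).resolve_left h2)
  eig v hv := by
    rcases hv with hv | hv
    · exact Or.inl (mem_fixS.1 hv)
    · rw [← hQ.mov_eq hg, mem_mov_iff h2 hgg] at hv
      exact Or.inr hv
  stab τ hτ hc x hx := by
    rw [mem_fixS] at hx ⊢
    have h1 : τ (toLE g.1 x) = toLE g.1 (τ x) := congrArg (fun f : (ι → F) ≃ₗ[F] (ι → F) => f x) hc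
    rw [← h1, hx]

section

variable {g : GO Q} {A : Submodule F (ι → F)} {N : Subgroup (MulAut (Cfsg.POmega F ⇑Q))}

theorem sq_one (S : Spl g A) (hd : finrank F A = 1) {τ : (ι → F) ≃ₗ[F] (ι → F)} (hτ : PN g N τ) {x : ι → F} (hx : x ∈ A) :
    τ (τ x) = x := by
  obtain ⟨v, hv, hQv⟩ := exists_ns S.nds (by omega)
  have hv0 : v ≠ 0 := by rintro rfl; exact hQv (QuadraticMap.map_zero Q)
  have hsp : ∀ y ∈ A, ∃ c : F, c • v = y := by
    intro y hy
    have h1 : (F ∙ v) = A := Submodule.eq_of_le_of_finrank_eq ((Submodule.span_singleton_le_iff_mem _ _).2 hv)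
      (by rw [finrank_span_singleton hv0, hd])
    rw [← h1] at hy
    exact Submodule.mem_span_singleton.1 hy
  obtain ⟨l, hl⟩ := hsp _ (hτ.mem S hv)
  have h1 : l * l = 1 := by
    have h3 : Q (τ v) = Q v := Om_le hτ.1 v
    rw [← hl, Q_smul] at h3
    have h4 : (l * l - 1) * Q v = 0 := by linear_combination h3
    exact sub_eq_zero.1 ((mul_eq_zero.1 h4).resolve_right hQv)
  obtain ⟨c, rfl⟩ := hsp x hx
  rw [map_smul, ← hl, map_smul, map_smul, ← hl, smul_smul, smul_smul, mul_assoc, h1, mul_one]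

theorem N_bot [Finite F] (S : Spl g A) (h : Gd Q) (h2 : (2 : F) ≠ 0) (hN : N ≤ SG g) (hn : ∀ s ∈ SG g, ∀ n ∈ N, s * n * s⁻¹ ∈ N)
    (hcop : (Nat.card N).Coprime 2) (hV : 8 ≤ finrank F (ι → F)) (hdA : finrank F A = 1 ∨ 3 ≤ finrank F A)
    (hdB : finrank F (Quad.perp Q A) = 1 ∨ 3 ≤ finrank F (Quad.perp Q A)) : N = ⊥ := by
  have hQ := h.nd
  have hsum := hQ.finrank_add_finrank_perp A
  rw [eq_bot_iff]
  intro x hx
  obtain ⟨t, ht, htg, rfl⟩ := mem_SG.1 (hN hx)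
  obtain ⟨s, rfl, hs⟩ := exists_iO_of_mem_OmG ht
  have hPN : PN g N (s : (ι → F) ≃ₗ[F] (ι → F)) := by
    refine ⟨hs, ?_, hx⟩
    ext1 v
    have h1 := congrArg (fun f : GO Q => f.1.1 *ᵥ v) htg
    simp only [GO_mul, iO_mulVec] at h1
    exact h1
  have hA : ∀ x ∈ A, (s : (ι → F) ≃ₗ[F] (ι → F)) ((s : (ι → F) ≃ₗ[F] (ι → F)) x) = x := by
    intro x hx
    rcases hdA with hdA | hdA
    · exact sq_one S hdA hPN hx
    · exact sq_on S h h2 hn hcop hdA (by omega) (by omega) hPN hx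
  have S' := S.perp hQ
  have hB : ∀ x ∈ Quad.perp Q A, (s : (ι → F) ≃ₗ[F] (ι → F)) ((s : (ι → F) ≃ₗ[F] (ι → F)) x) = x := by
    intro x hx
    rcases hdB with hdB | hdB
    · exact sq_one S' hdB hPN hx
    · refine sq_on S' h h2 hn hcop hdB ?_ ?_ hPN hx
      · rw [hQ.perp_perp]; omega
      · rw [hQ.perp_perp]; omega
  obtain ⟨e, he⟩ := hPN.sq h hcop (by
    ext1 v
    obtain ⟨a, ha, b, hb, rfl⟩ := nds_sup hQ S.nds v
    rw [LinearEquiv.mul_apply, map_add, map_add, hA a ha, hB b hb]; rfl)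
  have he0 : e ≠ 0 := by
    rintro rfl
    obtain ⟨v, hv⟩ := h.ne
    have h1 := he v
    rw [zero_smul] at h1
    have h3 : v = 0 := (LinearEquiv.map_eq_zero_iff _).1 h1
    rw [h3, QuadraticMap.map_zero] at hv
    exact hv rfl
  exact (Subgroup.mem_bot).2 (dO_of_scalar (s := s) he0 he)

end

theorem finrank_four (a b c d : ι → F) : finrank F (Submodule.span F {a, b, c, d}) ≤ 4 := by
  classical
  have h4 := finrank_span_finset_le_card (R := F) ({a, b, c, d} : Finset (ι → F))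
  have h5 : ({a, b, c, d} : Finset (ι → F)).card ≤ 4 := Finset.card_le_four
  have h6 : ((({a, b, c, d} : Finset (ι → F))) : Set (ι → F)) = {a, b, c, d} := by simp
  rw [h6] at h4
  exact le_trans h4 h5

/-- commuting with a product of two orthogonal reflections -/
theorem span_of_comm (h : Gd Q) (h2 : (2 : F) ≠ 0) (hV : 5 ≤ finrank F (ι → F)) {s : Semi Q} {v w : ι → F}
    (hvw : polar Q v w = 0) (hv : Q v ≠ 0) (hw : Q w ≠ 0)
    (hs : sa s * dg (rf Q v * rf Q w) = dg (rf Q v * rf Q w) * sa s) : s.Φ v ∈ Submodule.span F {v, w} := by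
  have h1 := sa_cs h s (rf Q v * rf Q w)
  rw [hs, mul_inv_cancel_right, map_mul (cs s), cs_rf, cs_rf] at h1
  obtain ⟨u, hu⟩ := h.dg_eq_dg h1.symm
  have hev : ∀ x, refl Q (s.Φ v) (refl Q (s.Φ w) x) = (u : F) • refl Q v (refl Q w x) := by
    intro x
    have h3 := congrArg (fun f : GO Q => f.1.1 *ᵥ x) hu
    simp only [GO_mul, sc_mulVec, rf_mulVec] at h3
    exact h3
  obtain ⟨x, hx0, hx⟩ := OAut.Dat.exists_perp h.nd (Submodule.span F {v, w, s.Φ v, s.Φ w})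
    (lt_of_le_of_lt (finrank_four _ _ _ _) (by omega))
  have hu1 : (u : F) = 1 := by
    have h3 := hev x
    rw [refl_of_perp (hx _ (Submodule.subset_span (by simp))), refl_of_perp (hx _ (Submodule.subset_span (by simp))),
      refl_of_perp (hx _ (Submodule.subset_span (by simp))), refl_of_perp (hx _ (Submodule.subset_span (by simp)))] at h3
    have h4 : (1 - (u : F)) • x = 0 := by rw [sub_smul, one_smul, ← h3, sub_self]
    exact (sub_eq_zero.1 ((smul_eq_zero.1 h4).resolve_right hx0)).symm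
  have h3 := hev (s.Φ v)
  have hp : polar Q (s.Φ w) (s.Φ v) = 0 := by rw [s.polar_map, polar_comm, hvw, map_zero, mul_zero]
  have hΦ : Q (s.Φ v) ≠ 0 := by rw [s.q]; exact mul_ne_zero s.c0 ((map_ne_zero s.σ).2 hv)
  rw [hu1, one_smul, refl_of_perp hp, refl_self hΦ, refl_apply hv, refl_apply hw] at h3
  simp only [polar_sub_right, polar_smul_right, hvw, smul_zero, sub_zero] at h3
  rw [Submodule.mem_span_pair]
  refine ⟨(2 : F)⁻¹ * ((Q v)⁻¹ * polar Q v (s.Φ v)), (2 : F)⁻¹ * ((Q w)⁻¹ * polar Q w (s.Φ v)), ?_⟩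
  have h4 : (2 : F) • s.Φ v = ((Q v)⁻¹ * polar Q v (s.Φ v)) • v + ((Q w)⁻¹ * polar Q w (s.Φ v)) • w := by
    rw [two_smul]
    have h5 : s.Φ v = -(s.Φ v - ((Q w)⁻¹ * polar Q w (s.Φ v)) • w - ((Q v)⁻¹ * polar Q v (s.Φ v)) • v) := by
      rw [← h3, neg_neg]
    nth_rewrite 2 [h5]
    abel
  rw [mul_smul (2 : F)⁻¹ ((Q v)⁻¹ * polar Q v (s.Φ v)) v, mul_smul (2 : F)⁻¹ _ w, ← smul_add, ← h4, smul_smul,
    inv_mul_cancel₀ h2, one_smul]

/-- the centralizer of `SG g` -/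
theorem cent_SG [Finite F] {g : GO Q} {A : Submodule F (ι → F)} (S : Spl g A) (h : Gd Q) (h2 : (2 : F) ≠ 0)
    (hd : 5 ≤ finrank F A) {s : Semi Q} (hs : ∀ x ∈ SG g, sa s * x = x * sa s) : sa s ^ 2 = 1 := by
  have hQ := h.nd
  have hV : 5 ≤ finrank F (ι → F) := hd.trans (Submodule.finrank_le A)
  obtain ⟨h1, κ, hκ⟩ := rigid_refl hQ h2 S.nds hd s.Φ.toAddMonoidHom (fun v w hv hw hvw hQvw hQw => by
    have hQv : Q v ≠ 0 := by rw [hQvw]; exact hQw
    refine span_of_comm h h2 hV hvw hQv hQw ?_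
    have h3 := hs _ (S.cg hQ hv (Or.inl hw) hQw hQvw).mem
    have e : dO Q ⟨refl Q v * refl Q w, Om_le (S.cg hQ hv (Or.inl hw) hQw hQvw).1⟩ = dg (rf Q v * rf Q w) := by
      rw [rf, rf, ← map_mul]; rfl
    rwa [e] at h3)
  have hΦ : ∀ u ∈ A, s.Φ u = κ • u := hκ
  obtain ⟨v, hv, hQv⟩ := exists_ns S.nds (by omega)
  have hv0 : v ≠ 0 := by rintro rfl; exact hQv (QuadraticMap.map_zero Q)
  have hκ0 : κ ≠ 0 := by
    rintro rfl
    have := hΦ v hv
    rw [zero_smul] at this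
    exact hv0 ((map_eq_zero_iff s.Φ s.Φ.injective).1 this)
  have hσ : s.σ = 1 := by
    ext α
    have h3 := hΦ (α • v) (A.smul_mem _ hv)
    rw [s.smul, hΦ v hv, smul_smul, smul_smul] at h3
    have h4 := smul_left_injective F hv0 h3
    rw [mul_comm κ] at h4
    exact mul_right_cancel₀ hκ0 h4
  have hq : ∀ v, Q (s.Φ v) = s.c * Q v := fun v => by rw [s.q, hσ]; rfl
  have hsm : ∀ (a : F) v, s.Φ (a • v) = a • s.Φ v := fun a v => by rw [s.smul, hσ]; rfl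
  have hsq : ∀ v, (v ∈ A ∨ v ∈ Quad.perp Q A) → Q v ≠ 0 → s.Φ (s.Φ v) = s.c • v := by
    intro v hv hQv
    obtain ⟨a, ha⟩ := h1 v hv hQv
    have ha' : s.Φ v = a • v := ha
    have h3 := hq v
    rw [ha', Q_smul] at h3
    have h4 : a * a = s.c := mul_right_cancel₀ hQv h3
    rw [ha', hsm, ha', smul_smul, h4]
  obtain ⟨t, ht⟩ := exists_toS h (s := s * s) (by
    have : Semi.sig (s * s) = 1 := by
      rw [map_mul]
      show s.σ * s.σ = 1
      rw [hσ, one_mul]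
    exact this)
  have htv : ∀ v, t.1.1 *ᵥ v = s.Φ (s.Φ v) := by
    intro v
    rw [← toS_Φ h, ← ht, Semi.mul_Φ]
  have hU : ∀ v, t.1.1 *ᵥ v = s.c • v := by
    have h5 : ∀ B : Submodule F (ι → F), NDs Q B → (∀ v ∈ B, v ∈ A ∨ v ∈ Quad.perp Q A) →
        B ≤ LinearMap.ker (Matrix.toLin' t.1.1 - s.c • LinearMap.id) := by
      intro B hB hBA
      refine span_ns hQ h2 hB fun w hw hQw => ?_
      rw [LinearMap.mem_ker, LinearMap.sub_apply, Matrix.toLin'_apply, htv, hsq w (hBA w hw) hQw, LinearMap.smul_apply,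
        LinearMap.id_apply, sub_self]
    intro v
    obtain ⟨a, ha, b, hb, rfl⟩ := nds_sup hQ S.nds v
    have h6 := h5 A S.nds (fun v hv => Or.inl hv) ha
    have h7 := h5 _ (nds_perp hQ S.nds) (fun v hv => Or.inr hv) hb
    rw [LinearMap.mem_ker, LinearMap.sub_apply, Matrix.toLin'_apply, LinearMap.smul_apply, LinearMap.id_apply,
      sub_eq_zero] at h6 h7
    rw [Matrix.mulVec_add, h6, h7, smul_add]
  have ht1 : t = sc Q (Units.mk0 s.c s.c0) := by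
    apply GO_ext
    intro v
    rw [hU, sc_mulVec]; rfl
  rw [pow_two, ← map_mul, ht, sa_toS, ht1, dg_sc]

/-- involutory isometries with eigenspaces of odd dimension -/
theorem bal_I [Finite F] (h : Gd Q) (h2 : (2 : F) ≠ 0) (hsur : Function.Surjective (sa (Q := Q))) {g : GO Q}
    (hg : toLE g.1 ∈ O Q) (hgg : toLE g.1 * toLE g.1 = 1) (hodd : ¬ Even (finrank F (mov (toLE g.1))))
    (hn : Even (finrank F (ι → F))) (hV : 8 ≤ finrank F (ι → F)) :
    Bal (Cfsg.Inn (Cfsg.POmega F ⇑Q)) 2 (dg g) ∧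
      2 ∣ Nat.card ↥(Cfsg.Inn (Cfsg.POmega F ⇑Q) ⊓ Subgroup.centralizer {dg g}) := by
  have hQ := h.nd
  have S := spl_fixS hQ h2 hg hgg
  have hsum := hQ.finrank_add_finrank_perp (fixS (toLE g.1))
  rw [← hQ.mov_eq hg] at hsum
  have hoddA : ¬ Even (finrank F (fixS (toLE g.1))) := by
    intro he
    apply hodd
    rw [← hsum, Nat.even_add] at hn
    exact hn.1 he
  obtain ⟨a, ha⟩ := Nat.not_even_iff_odd.1 hodd
  obtain ⟨b, hb⟩ := Nat.not_even_iff_odd.1 hoddA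
  -- the large eigenspace
  obtain ⟨B, SB, hdB⟩ : ∃ B, Spl g B ∧ 5 ≤ finrank F B := by
    by_cases h5 : 5 ≤ finrank F (fixS (toLE g.1))
    · exact ⟨_, S, h5⟩
    · refine ⟨_, S.perp hQ, ?_⟩
      rw [← hQ.mov_eq hg]
      omega
  obtain ⟨v, hv, hQv⟩ := exists_ns SB.nds (by omega)
  have hB₁ := nds_cut1 h2 SB.nds hv hQv
  have hd₁ := finrank_cut1 hQ B v
  obtain ⟨w, hw, hQw⟩ := univ_in h2 hB₁ (by omega) hQv
  obtain ⟨hwB, hvw⟩ := mem_cut1.1 hw
  have hQw0 : Q w ≠ 0 := by rw [hQw]; exact hQv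
  have hcg := SB.cg hQ (Or.inl hv) (Or.inl hwB) hQw0 hQw.symm
  obtain ⟨e1, e2⟩ := rr_inv hQ h2 (by omega) (x := w) (y := v) hQw0 hvw
  have hy : dO Q ⟨_, Om_le hcg.1⟩ ∈ SG g := hcg.mem
  have hy1 : dO Q ⟨_, Om_le hcg.1⟩ ≠ 1 := fun he => e2 (dO_scalar h he)
  have hy2 : dO Q ⟨_, Om_le hcg.1⟩ * dO Q ⟨_, Om_le hcg.1⟩ = 1 := by
    have : (⟨_, Om_le hcg.1⟩ * ⟨_, Om_le hcg.1⟩ : ↥(O Q)) = 1 := Subtype.ext e1
    rw [← map_mul, this, map_one]
  constructor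
  · refine ⟨SG g, SG_le g, SG_conj h g, ?_, ?_, ?_⟩
    · intro hbot
      rw [hbot, Subgroup.mem_bot] at hy
      exact hy1 hy
    · intro N hN hnN hN1 hcop
      exfalso
      refine hN1 (N_bot S h h2 hN hnN hcop hV ?_ ?_)
      · omega
      · rw [← hQ.mov_eq hg]; omega
    · intro x hx
      obtain ⟨s, rfl⟩ := hsur x
      exact ⟨1, by rw [pow_one]; exact cent_SG SB h h2 hdB hx⟩
  · have h5 : orderOf (dO Q ⟨_, Om_le hcg.1⟩) = 2 := orderOf_eq_prime (by rw [pow_two]; exact hy2) hy1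
    have h6 := orderOf_dvd_natCard (⟨_, SG_le g hy⟩ : ↥(Cfsg.Inn (Cfsg.POmega F ⇑Q) ⊓ Subgroup.centralizer {dg g}))
    rwa [Subgroup.orderOf_mk, h5] at h6

end Cfsg.Agent.Lib.OGr
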