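import Cfsg.Agent.Lib.OGrD
import Cfsg.Agent.Lib.QuadExt

set_option autoImplicit false
set_option linter.unusedSectionVars false

/-!
# Graph involutions: similarities with `g² = c`, `c` not a square (helper21)

`VK g c` : the natural module over `F(√c)`, `qK` : the quadratic form over `F(√c)`.
-/

namespace Cfsg.Agent.Lib.OGr

open Matrix QuadraticMap Module
open Cfsg.Agent.Lib.Quad Cfsg.Agent.Lib.ClOrthSiegel Cfsg.Agent.Lib.ClOmega Cfsg.Agent.Lib.POmAut
open Cfsg.Agent.Lib.Descent Cfsg.Agent.Lib.OFld Cfsg.Agent.Lib.OrthNd Cfsg.Agent.Lib.OBal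
open Cfsg.Agent.Lib.OAut (Semi H2)
open scoped commutatorElement

variable {ι : Type} [Fintype ι] [DecidableEq ι] {F : Type*} [Field F] {Q : QuadraticForm F (ι → F)}

/-- `F(√c)` -/
abbrev KF {F : Type*} [Field F] (c : F) : Type _ := QuadraticAlgebra F c 0

/-- the hypotheses -/
class Kst (g : GO Q) (c : F) : Prop where
  gg : ∀ v, g.1.1 *ᵥ (g.1.1 *ᵥ v) = c • v

/-- the module over `F(√c)` -/
def VK (_ : GO Q) (_ : F) : Type _ := ι → F

variable {g : GO Q} {c : F}

instance : AddCommGroup (VK g c) := inferInstanceAs (AddCommGroup (ι → F))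
instance : Module F (VK g c) := inferInstanceAs (Module F (ι → F))
instance : FiniteDimensional F (VK g c) := inferInstanceAs (FiniteDimensional F (ι → F))

/-- the action of `g` -/
def gA (g : GO Q) (c : F) : VK g c →ₗ[F] VK g c where
  toFun v := g.1.1 *ᵥ (v : ι → F)
  map_add' v w := Matrix.mulVec_add _ (v : ι → F) w
  map_smul' a v := Matrix.mulVec_smul _ a (v : ι → F)

theorem gA_apply (v : ι → F) : (gA g c v : ι → F) = g.1.1 *ᵥ v := rfl

theorem gA_gA [h : Kst g c] (v : VK g c) : gA g c (gA g c v) = c • v := h.gg v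

instance [Kst g c] : SMul (KF c) (VK g c) where
  smul z v := z.re • v + z.im • gA g c v

theorem k_smul [Kst g c] (z : KF c) (v : VK g c) : z • v = z.re • v + z.im • gA g c v := rfl

instance instModK [Kst g c] : Module (KF c) (VK g c) where
  one_smul v := by
    show (1 : F) • v + (0 : F) • gA g c v = v
    rw [one_smul, zero_smul, add_zero]
  mul_smul x y v := by
    rw [k_smul, k_smul, k_smul, map_add, map_smul, map_smul, gA_gA]
    simp only [QuadraticAlgebra.re_mul, QuadraticAlgebra.im_mul]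
    module
  smul_zero z := by rw [k_smul]; simp
  smul_add z v w := by rw [k_smul, k_smul, k_smul, map_add]; module
  add_smul x y v := by
    rw [k_smul, k_smul, k_smul]
    simp only [QuadraticAlgebra.re_add, QuadraticAlgebra.im_add]
    module
  zero_smul v := by rw [k_smul]; simp

instance [Kst g c] : IsScalarTower F (KF c) (VK g c) where
  smul_assoc a z v := by
    rw [k_smul, k_smul]
    simp only [QuadraticAlgebra.re_smul, QuadraticAlgebra.im_smul, smul_eq_mul]
    module

theorem k_omega [Kst g c] (v : VK g c) : (⟨0, 1⟩ : KF c) • v = gA g c v := by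
  rw [k_smul]; simp

theorem k_alg [Kst g c] (a : F) (v : VK g c) : (algebraMap F (KF c) a) • v = a • v := by
  rw [k_smul]; simp

instance [Kst g c] : Module.Finite (KF c) (VK g c) := Module.Finite.of_restrictScalars_finite F (KF c) (VK g c)

instance [Finite F] : Finite (KF c) := Finite.of_equiv _ (QuadraticAlgebra.equivProd c 0).symm

theorem two_K (h2 : (2 : F) ≠ 0) : (2 : KF c) ≠ 0 := by
  intro h
  apply h2
  have h1 : (algebraMap F (KF c)) 2 = 0 := by rw [map_ofNat]; exact h
  have h3 := congrArg QuadraticAlgebra.re h1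
  exact h3

theorem fact_of (hc : ¬ IsSquare c) : Fact (∀ r : F, r ^ 2 ≠ c + 0 * r) := by
  refine ⟨fun r hr => hc ⟨r, ?_⟩⟩
  rw [zero_mul, add_zero] at hr
  rw [← hr, pow_two]

theorem finrank_VK [Kst g c] [Fact (∀ r : F, r ^ 2 ≠ c + 0 * r)] : finrank F (ι → F) = 2 * finrank (KF c) (VK g c) := by
  have h1 := Module.finrank_mul_finrank F (KF c) (VK g c)
  rw [QuadraticAlgebra.finrank_eq_two] at h1
  exact h1.symm

/-- the determinant of `g` -/
theorem det_K [Kst g c] [Fact (∀ r : F, r ^ 2 ≠ c + 0 * r)] : g.1.1.det = (-c) ^ finrank (KF c) (VK g c) := by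
  let f : VK g c →ₗ[KF c] VK g c := (⟨0, 1⟩ : KF c) • LinearMap.id
  have h1 := LinearMap.det_restrictScalars (R := F) (f := f)
  have h3 : (f.restrictScalars F) = gA g c := by
    ext1 v
    show (⟨0, 1⟩ : KF c) • v = _
    exact k_omega v
  have h4 : LinearMap.det f = (⟨0, 1⟩ : KF c) ^ finrank (KF c) (VK g c) := by
    rw [LinearMap.det_smul, LinearMap.det_id, mul_one]
  have h5 : LinearMap.det (gA g c) = g.1.1.det := by
    have h6 : gA g c = Matrix.toLin' g.1.1 := by
      ext1 v
      exact (Matrix.toLin'_apply g.1.1 v).symm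
    rw [h6]
    exact LinearMap.det_toLin' g.1.1
  rw [h3, h4, h5, map_pow] at h1
  rw [h1]
  congr 1
  rw [Algebra.norm_eq_matrix_det (QuadraticAlgebra.basis c 0), Matrix.det_fin_two]
  simp only [Algebra.leftMulMatrix_eq_repr_mul, QuadraticAlgebra.basis_repr_apply]
  simp [QuadraticAlgebra.basis, Module.Basis.coe_ofEquivFun]

/-- the hypotheses: `g² = c` and multiplier `c` -/
class Kq (g : GO Q) (c : F) : Prop extends Kst g c where
  c0 : c ≠ 0
  two : (2 : F) ≠ 0
  mu : ∀ v, Q (g.1.1 *ᵥ v) = c * Q v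

/-- `Q` on `VK` -/
def QV (g : GO Q) (c : F) : QuadraticForm F (VK g c) := Q

section Form

variable [hk : Kq g c]

theorem QV_g (x : VK g c) : QV g c (gA g c x) = c * QV g c x := hk.mu x

theorem pol_gg (x y : VK g c) : polar (QV g c) (gA g c x) (gA g c y) = c * polar (QV g c) x y := by
  simp only [polar, ← map_add, QV_g]; ring

theorem adj (x y : VK g c) : polar (QV g c) (gA g c x) y = polar (QV g c) x (gA g c y) := by
  have h1 := pol_gg x (gA g c y)
  rw [gA_gA, polar_smul_right, smul_eq_mul] at h1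
  exact mul_left_cancel₀ hk.c0 h1

/-- the values of the form over `F(√c)` -/
def fK (x : VK g c) : KF c := ⟨c * QV g c x, (2 : F)⁻¹ * polar (QV g c) (gA g c x) x⟩

theorem polar_fK (x y : VK g c) : polar fK x y = (⟨c * polar (QV g c) x y, polar (QV g c) (gA g c x) y⟩ : KF c) := by
  have h2 := hk.two
  apply QuadraticAlgebra.ext
  · show c * QV g c (x + y) - c * QV g c x - c * QV g c y = _
    rw [polar]; ring
  · show (2 : F)⁻¹ * polar (QV g c) (gA g c (x + y)) (x + y) - (2 : F)⁻¹ * polar (QV g c) (gA g c x) x -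
      (2 : F)⁻¹ * polar (QV g c) (gA g c y) y = polar (QV g c) (gA g c x) y
    rw [map_add, polar_add_left, polar_add_right, polar_add_right, adj y x, polar_comm _ y (gA g c x)]
    field_simp
    ring

/-- the quadratic form over `F(√c)` -/
noncomputable def qK (g : GO Q) (c : F) [hk : Kq g c] : QuadraticForm (KF c) (VK g c) :=
  QuadraticMap.ofPolar fK
    (by
      intro z x
      have h2 := hk.two
      rw [smul_eq_mul]
      apply QuadraticAlgebra.ext
      · show c * QV g c (z • x) = _
        rw [k_smul, Q_add, Q_smul, Q_smul, QV_g, polar_smul_left, polar_smul_right, polar_comm _ x]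
        simp only [QuadraticAlgebra.re_mul, QuadraticAlgebra.im_mul, fK, smul_eq_mul]
        field_simp
        ring
      · show (2 : F)⁻¹ * polar (QV g c) (gA g c (z • x)) (z • x) = _
        rw [k_smul, map_add, map_smul, map_smul, gA_gA]
        simp only [polar_add_left, polar_add_right, polar_smul_left, polar_smul_right, polar_self', QV_g,
          QuadraticAlgebra.re_mul, QuadraticAlgebra.im_mul, fK, smul_eq_mul, polar_comm _ x (gA g c x)]
        field_simp
        ring)
    (by
      intro x x' y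
      rw [polar_fK, polar_fK, polar_fK, map_add]
      apply QuadraticAlgebra.ext
      · show c * polar (QV g c) (x + x') y = c * polar (QV g c) x y + c * polar (QV g c) x' y
        rw [polar_add_left]; ring
      · show polar (QV g c) (gA g c x + gA g c x') y = polar (QV g c) (gA g c x) y + polar (QV g c) (gA g c x') y
        rw [polar_add_left])
    (by
      intro z x y
      rw [polar_fK, polar_fK, smul_eq_mul]
      apply QuadraticAlgebra.ext
      · show c * polar (QV g c) (z • x) y = _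
        rw [k_smul, polar_add_left, polar_smul_left, polar_smul_left]
        simp only [QuadraticAlgebra.re_mul, smul_eq_mul]
        ring
      · show polar (QV g c) (gA g c (z • x)) y = _
        rw [k_smul, map_add, map_smul, map_smul, gA_gA, polar_add_left, polar_smul_left, polar_smul_left, polar_smul_left]
        simp only [QuadraticAlgebra.im_mul, smul_eq_mul]
        ring)

theorem qK_apply (x : VK g c) : qK g c x = (⟨c * QV g c x, (2 : F)⁻¹ * polar (QV g c) (gA g c x) x⟩ : KF c) := rfl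

theorem polar_qK (x y : VK g c) : polar (qK g c) x y = (⟨c * polar (QV g c) x y, polar (QV g c) (gA g c x) y⟩ : KF c) :=
  polar_fK x y

theorem polar_qK_zero {x y : VK g c} (h1 : polar (QV g c) x y = 0) (h2 : polar (QV g c) (gA g c x) y = 0) :
    polar (qK g c) x y = 0 := by
  rw [polar_qK, h1, h2, mul_zero]; rfl

end Form

section Field

variable [hk : Kq g c] [hf : Fact (∀ r : F, r ^ 2 ≠ c + 0 * r)]

theorem nd_qK (hQ : Nd Q) : Nd (qK g c) := by
  refine nd_of fun x hx => ?_
  have h1 : ∀ y : VK g c, polar (QV g c) x y = 0 := by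
    intro y
    have h3 := hx y
    rw [polar_qK] at h3
    have h4 := congrArg QuadraticAlgebra.re h3
    exact (mul_eq_zero.1 h4).resolve_left hk.c0
  exact hQ.eq_zero (x := (x : ι → F)) h1

/-- `F(√c)`-linear maps as `F`-linear maps -/
def rho (τ : VK g c ≃ₗ[KF c] VK g c) : (ι → F) ≃ₗ[F] (ι → F) := (τ.restrictScalars F : VK g c ≃ₗ[F] VK g c)

theorem rho_apply (τ : VK g c ≃ₗ[KF c] VK g c) (v : ι → F) : rho τ v = (τ (v : VK g c) : VK g c) := rfl

theorem rho_mul (τ τ' : VK g c ≃ₗ[KF c] VK g c) : rho (τ * τ') = rho τ * rho τ' := rfl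

theorem rho_one : rho (1 : VK g c ≃ₗ[KF c] VK g c) = 1 := rfl

theorem rho_inv (τ : VK g c ≃ₗ[KF c] VK g c) : rho τ⁻¹ = (rho τ)⁻¹ := rfl

theorem rho_O {τ : VK g c ≃ₗ[KF c] VK g c} (h : τ ∈ O (qK g c)) : rho τ ∈ O Q := by
  intro v
  have h1 := congrArg QuadraticAlgebra.re (h (v : VK g c))
  exact mul_left_cancel₀ hk.c0 h1

theorem rho_comm (τ : VK g c ≃ₗ[KF c] VK g c) : rho τ * toLE g.1 = toLE g.1 * rho τ := by
  have h1 : ∀ v : VK g c, τ (gA g c v) = gA g c (τ v) := fun v => by
    have h1 := τ.map_smul (⟨0, 1⟩ : KF c) v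
    rwa [k_omega, k_omega] at h1
  ext1 v
  exact h1 v

/-- an `F`-linear map on `VK` -/
def sgV (σ : (ι → F) ≃ₗ[F] (ι → F)) : VK g c ≃ₗ[F] VK g c := σ

theorem sgV_gA {σ : (ι → F) ≃ₗ[F] (ι → F)} (h : σ * toLE g.1 = toLE g.1 * σ) (v : VK g c) :
    sgV σ (gA g c v) = gA g c (sgV σ v) := congrArg (fun f : (ι → F) ≃ₗ[F] (ι → F) => f v) h

/-- `F`-linear maps commuting with `g` -/
noncomputable def lam {σ : (ι → F) ≃ₗ[F] (ι → F)} (h : σ * toLE g.1 = toLE g.1 * σ) : VK g c ≃ₗ[KF c] VK g c where
  toFun v := sgV σ v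
  map_add' v w := map_add (sgV σ) v w
  map_smul' z v := by
    rw [k_smul, map_add, map_smul, map_smul, sgV_gA h]; rfl
  invFun v := (sgV σ).symm v
  left_inv v := (sgV σ).symm_apply_apply v
  right_inv v := (sgV σ).apply_symm_apply v

theorem lam_apply {σ : (ι → F) ≃ₗ[F] (ι → F)} (h : σ * toLE g.1 = toLE g.1 * σ) (v : VK g c) :
    lam (c := c) h v = sgV σ v := rfl

theorem rho_lam {σ : (ι → F) ≃ₗ[F] (ι → F)} (h : σ * toLE g.1 = toLE g.1 * σ) : rho (lam (c := c) h) = σ := by
  ext1 v; rfl

theorem lam_O {σ : (ι → F) ≃ₗ[F] (ι → F)} (h : σ * toLE g.1 = toLE g.1 * σ) (hσ : σ ∈ O Q) :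
    lam (c := c) h ∈ O (qK g c) := by
  have hO : sgV (g := g) (c := c) σ ∈ O (QV g c) := hσ
  intro v
  rw [qK_apply, qK_apply, lam_apply, hO v, ← sgV_gA h, O_polar hO]

theorem rho_Om {τ : VK g c ≃ₗ[KF c] VK g c} (h : τ ∈ Om (qK g c)) : rho τ ∈ Om Q := by
  let R : (VK g c ≃ₗ[KF c] VK g c) →* ((ι → F) ≃ₗ[F] (ι → F)) :=
    { toFun := rho, map_one' := rho_one, map_mul' := rho_mul }
  have h1 : Om (qK g c) ≤ (Om Q).comap R := by
    rw [Om, Subgroup.commutator_le]
    intro a ha b hb
    rw [Subgroup.mem_comap, map_commutatorElement]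
    exact Subgroup.commutator_mem_commutator (rho_O ha) (rho_O hb)
  exact h1 h

end Field

end Cfsg.Agent.Lib.OGr
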