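import Cfsg.Agent.Lib.OGrE

set_option autoImplicit false
set_option linter.unusedSectionVars false

/-!
# Graph involutions: similarities with `g² = c`, `c` not a square, multiplier `c` (helper21)
-/

namespace Cfsg.Agent.Lib.OGr

open Matrix QuadraticMap Module
open Cfsg.Agent.Lib.Quad Cfsg.Agent.Lib.ClOrthSiegel Cfsg.Agent.Lib.ClOmega Cfsg.Agent.Lib.POmAut
open Cfsg.Agent.Lib.Descent Cfsg.Agent.Lib.OFld Cfsg.Agent.Lib.OrthNd Cfsg.Agent.Lib.OBal
open Cfsg.Agent.Lib.OAut (Semi H2)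
open scoped commutatorElement

variable {ι : Type} [Fintype ι] [DecidableEq ι] {F : Type*} [Field F] {Q : QuadraticForm F (ι → F)}
variable {g : GO Q} {c : F} [hk : Kq g c] [hf : Fact (∀ r : F, r ^ 2 ≠ c + 0 * r)]

theorem K_ns : ¬ IsSquare c := by
  rintro ⟨r, hr⟩
  apply hf.out r
  rw [hr]; ring

/-- a reflection over `F(√c)` as a product of two reflections -/
theorem rho_refl {s t : F} (hst : c = s ^ 2 + t ^ 2) (ht : t ≠ 0) {w : VK g c} (hw : qK g c w = ⟨c, s⟩) :
    rho (refl (qK g c) w) = refl Q (w : ι → F) * refl Q (t⁻¹ • (gA g c w - s • w) : VK g c) := by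
  have hc0 := hk.c0
  have h2 := hk.two
  rw [qK_apply] at hw
  have e1 : QV g c w = 1 := by
    have := congrArg QuadraticAlgebra.re hw
    simp only at this
    exact mul_left_cancel₀ hc0 (this.trans (mul_one c).symm)
  have e2 : polar (QV g c) (gA g c w) w = 2 * s := by
    have := congrArg QuadraticAlgebra.im hw
    simp only at this
    rw [← this]; field_simp
  have e2' : polar (QV g c) w (gA g c w) = 2 * s := by rw [polar_comm, e2]
  have e3 : QV g c (gA g c w - s • w) = t ^ 2 := by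
    rw [Q_sub, Q_smul, QV_g, polar_smul_right, e1, e2, smul_eq_mul, hst]; ring
  have e4 : ∀ x : VK g c, refl (QV g c) (t⁻¹ • (gA g c w - s • w)) x =
      x - ((t ^ 2)⁻¹ * (polar (QV g c) (gA g c w) x - s * polar (QV g c) w x)) • (gA g c w - s • w) := by
    intro x
    rw [refl_smul (inv_ne_zero ht), refl_apply (by rw [e3]; exact pow_ne_zero 2 ht), e3, polar_sub_left,
      polar_smul_left, smul_eq_mul]
  have hn : (⟨c, s⟩ : KF c) * ⟨c, -s⟩ = algebraMap F (KF c) (c * t ^ 2) := by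
    apply QuadraticAlgebra.ext
    · rw [QuadraticAlgebra.re_mul]
      show c * c + c * s * -s = c * t ^ 2
      have : t ^ 2 = c - s ^ 2 := by rw [hst]; ring
      rw [this]; ring
    · rw [QuadraticAlgebra.im_mul]
      show c * -s + s * c + 0 * s * -s = 0
      ring
  have hct : c * t ^ 2 ≠ 0 := mul_ne_zero hc0 (pow_ne_zero 2 ht)
  have hinv : (⟨c, s⟩ : KF c)⁻¹ = algebraMap F (KF c) (c * t ^ 2)⁻¹ * ⟨c, -s⟩ := by
    refine inv_eq_of_mul_eq_one_right ?_
    rw [mul_left_comm, hn, ← map_mul, inv_mul_cancel₀ hct, map_one]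
  have hqw0 : qK g c w ≠ 0 := by
    rw [qK_apply, hw]
    intro h0
    exact hc0 (congrArg QuadraticAlgebra.re h0)
  have key : ∀ x : VK g c, refl (qK g c) w x = refl (QV g c) w (refl (QV g c) (t⁻¹ • (gA g c w - s • w)) x) := by
    intro x
    have hqv0 : QV g c w ≠ 0 := by rw [e1]; exact one_ne_zero
    rw [e4, refl_apply hqw0, refl_apply hqv0, qK_apply, hw, hinv, polar_qK, e1, inv_one, one_mul]
    have e5 : polar (QV g c) w (x - ((t ^ 2)⁻¹ * (polar (QV g c) (gA g c w) x - s * polar (QV g c) w x)) •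
        (gA g c w - s • w)) = polar (QV g c) w x := by
      rw [polar_sub_right, polar_smul_right, polar_sub_right, polar_smul_right, e2', polar_self', e1]
      simp only [smul_eq_mul]; ring
    rw [e5, mul_assoc, mul_smul, k_alg, k_smul]
    simp only [QuadraticAlgebra.re_mul, QuadraticAlgebra.im_mul]
    generalize polar (QV g c) (gA g c w) x = p'
    generalize polar (QV g c) w x = p
    have e6 : (c * t ^ 2)⁻¹ * (c * (c * p) + c * (-s) * p') = (t ^ 2)⁻¹ * (c * p - s * p') := by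
      field_simp; ring
    have e7 : (c * t ^ 2)⁻¹ * (c * p' + -s * (c * p) + 0 * -s * p') = (t ^ 2)⁻¹ * (p' - s * p) := by
      field_simp; ring
    have e8 : (t ^ 2)⁻¹ * (c * p - s * p') = p - (t ^ 2)⁻¹ * (p' - s * p) * s := by
      rw [hst]; field_simp; ring
    rw [smul_add, smul_smul, smul_smul, e6, e7, e8]
    module
  ext1 x
  exact key x

theorem rho_refl_Om (h : Nd Q) {s t : F} (hst : c = s ^ 2 + t ^ 2) (ht : t ≠ 0) {w : VK g c} (hw : qK g c w = ⟨c, s⟩) :
    rho (refl (qK g c) w) ∈ Om Q := by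
  rw [rho_refl hst ht hw]
  have hc0 := hk.c0
  have h2 := hk.two
  rw [qK_apply] at hw
  have e1 : QV g c w = 1 := by
    have := congrArg QuadraticAlgebra.re hw
    simp only at this
    exact mul_left_cancel₀ hc0 (this.trans (mul_one c).symm)
  have e2 : polar (QV g c) (gA g c w) w = 2 * s := by
    have := congrArg QuadraticAlgebra.im hw
    simp only at this
    rw [← this]; field_simp
  have e3 : QV g c (gA g c w - s • w) = t ^ 2 := by
    rw [Q_sub, Q_smul, QV_g, polar_smul_right, e1, e2, smul_eq_mul, hst]; ring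
  have e4 : QV g c (t⁻¹ • (gA g c w - s • w)) = 1 := by
    rw [Q_smul, e3]; field_simp
  exact rr_mem_Om h (v := (w : ι → F)) (by
    show QV g c w ≠ 0
    rw [e1]; exact one_ne_zero) (e1.trans e4.symm)

theorem rho_rr_Om (h : Nd Q) {v w : VK g c} (hv : qK g c v ≠ 0) (hvw : qK g c v = qK g c w) :
    CG g (rho (refl (qK g c) v * refl (qK g c) w)) :=
  ⟨rho_Om (rr_mem_Om (nd_qK h) hv hvw), rho_comm _⟩

theorem nds_top {K V : Type*} [Field K] [AddCommGroup V] [Module K V] [FiniteDimensional K V] {q : QuadraticForm K V}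
    (h : Nd q) : NDs q (⊤ : Submodule K V) := by
  rw [NDs, eq_bot_iff]
  rintro x ⟨-, hx⟩
  exact (Submodule.mem_bot K).2 (h.eq_zero fun y => by
    rw [polar_comm]
    exact mem_perp.1 hx y Submodule.mem_top)

theorem mem_perp_top {K V : Type*} [Field K] [AddCommGroup V] [Module K V] [FiniteDimensional K V] {q : QuadraticForm K V}
    (h : Nd q) {x : V} (hx : x ∈ Quad.perp q (⊤ : Submodule K V)) : x = 0 :=
  h.eq_zero fun y => by
    rw [polar_comm]
    exact mem_perp.1 hx y Submodule.mem_top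

theorem KN_bot [Finite F] (h : Gd Q) {N : Subgroup (MulAut (Cfsg.POmega F ⇑Q))} (hN : N ≤ SG g)
    (hn : ∀ s ∈ SG g, ∀ n ∈ N, s * n * s⁻¹ ∈ N) (hcop : (Nat.card N).Coprime 2)
    (hV : 5 ≤ finrank (KF c) (VK g c)) : N = ⊥ := by
  have hQ := h.nd
  have h2 := hk.two
  have hc0 := hk.c0
  have hK := nd_qK (g := g) (c := c) hQ
  obtain ⟨s, t, hst⟩ := sum_two h2 one_ne_zero one_ne_zero c
  rw [one_mul, one_mul] at hst
  have ht : t ≠ 0 := by
    rintro rfl
    apply K_ns (c := c)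
    exact ⟨s, by rw [← hst]; ring⟩
  have hcK : (⟨c, s⟩ : KF c) ≠ 0 := fun h0 => hc0 (congrArg QuadraticAlgebra.re h0)
  have hftop : finrank (KF c) (⊤ : Submodule (KF c) (VK g c)) = finrank (KF c) (VK g c) := finrank_top _ _
  have key := core hK (two_K h2) (nds_top hK) (by rw [hftop]; omega)
    (fun τ => τ ∈ O (qK g c) ∧ PN g N (rho τ)) (fun τ hτ => hτ.1)
    (fun τ _ x hx => by rw [mem_perp_top hK hx, map_zero]) hcK
    (fun τ hτ w _ hw => by
      refine ⟨mul_mem (refl_mem _) (refl_mem _), ?_⟩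
      have hy : CG g (rho (refl (qK g c) w)) := ⟨rho_refl_Om hQ hst.symm ht hw, rho_comm _⟩
      have h1 := hτ.2.comm hn hy
      rw [← rho_inv, ← rho_inv, ← rho_mul, ← rho_mul, ← rho_mul, refl_conj hτ.1, refl_inv] at h1
      exact h1)
    (by
      right
      refine ⟨by rw [hftop]; exact hV, fun τ hτ v _ w _ hvw hw0 hτv => ?_⟩
      refine ⟨mul_mem (mul_mem (refl_mem _) (mul_mem (refl_mem _) (refl_mem _))) (refl_mem _), ?_⟩
      have h1 := hτ.2.comm hn (rho_rr_Om hQ (by rw [hvw]; exact hw0) hvw)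
      rw [← rho_inv, ← rho_inv, ← rho_mul, ← rho_mul, ← rho_mul] at h1
      have h3 : τ * (refl (qK g c) v * refl (qK g c) w) * τ⁻¹ * (refl (qK g c) v * refl (qK g c) w)⁻¹ =
          refl (qK g c) v * (refl (qK g c) (τ w) * refl (qK g c) w) * refl (qK g c) v := by
        have h4 := refl_conj hτ.1 v
        rw [hτv] at h4
        nth_rewrite 3 [← h4]
        rw [← refl_conj hτ.1 w, _root_.mul_inv_rev, refl_inv, refl_inv]
        group
      rwa [h3] at h1)
    (fun τ hτ hsq => by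
      obtain ⟨e, he⟩ := hτ.2.sq h hcop (by rw [← rho_mul, hsq, rho_one])
      refine ⟨algebraMap F (KF c) e, fun x => ?_⟩
      rw [k_alg]
      exact he x)
  rw [eq_bot_iff]
  intro x hx
  obtain ⟨t, ht, htg, rfl⟩ := mem_SG.1 (hN hx)
  obtain ⟨s, rfl, hs⟩ := exists_iO_of_mem_OmG ht
  have hcomm : (s : (ι → F) ≃ₗ[F] (ι → F)) * toLE g.1 = toLE g.1 * s := by
    ext1 v
    have h1 := congrArg (fun f : GO Q => f.1.1 *ᵥ v) htg
    simp only [GO_mul, iO_mulVec] at h1
    exact h1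
  have hPN : PN g N (s : (ι → F) ≃ₗ[F] (ι → F)) := ⟨hs, hcomm, hx⟩
  have h3 := key (lam (c := c) hcomm) ⟨lam_O hcomm s.2, by rw [rho_lam]; exact hPN⟩
  have h4 : (s : (ι → F) ≃ₗ[F] (ι → F)) * s = 1 := by
    have := congrArg rho h3
    rwa [rho_mul, rho_lam, rho_one] at this
  obtain ⟨e, he⟩ := hPN.sq h hcop h4
  have he0 : e ≠ 0 := by
    rintro rfl
    obtain ⟨v, hv⟩ := h.ne
    have h1 := he v
    rw [zero_smul] at h1
    have h3 : v = 0 := (LinearEquiv.map_eq_zero_iff _).1 h1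
    rw [h3, QuadraticMap.map_zero] at hv
    exact hv rfl
  exact (Subgroup.mem_bot).2 (dO_of_scalar (s := s) he0 he)

/-- a semisimilarity on `VK` -/
def phV (g : GO Q) (c : F) (s : Semi Q) : VK g c →+ VK g c := s.Φ.toAddMonoidHom

theorem phV_apply (s : Semi Q) (v : ι → F) : (phV g c s v : ι → F) = s.Φ v := rfl

omit hk hf in
theorem phV_ne {s : Semi Q} {x : VK g c} (hx : x ≠ 0) : phV g c s x ≠ 0 :=
  fun h0 => hx ((map_eq_zero_iff s.Φ s.Φ.injective).1 h0)

omit hk hf in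
theorem polar_phV (s : Semi Q) (x y : VK g c) : polar (QV g c) (phV g c s x) (phV g c s y) = s.c * s.σ (polar (QV g c) x y) :=
  s.polar_map x y

theorem K_comm (h : Gd Q) {s : Semi Q} {τ : VK g c ≃ₗ[KF c] VK g c} (hcg : CG g (rho τ))
    (hs : sa s * dO Q ⟨rho τ, Om_le hcg.1⟩ = dO Q ⟨rho τ, Om_le hcg.1⟩ * sa s) :
    ∃ u : F, ∀ x : VK g c, phV g c s (τ x) = u • τ (phV g c s x) := by
  set T : GO Q := iO Q ⟨rho τ, Om_le hcg.1⟩ with hT
  have h1' : sa s * dg T = dg T * sa s := hs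
  have h3 := sa_cs h s T
  rw [h1', mul_inv_cancel_right] at h3
  obtain ⟨u, hu⟩ := h.dg_eq_dg h3.symm
  have hTv : ∀ x : ι → F, T.1.1 *ᵥ x = rho τ x := fun x => iO_mulVec _ _
  have hev : ∀ x : ι → F, s.Φ (rho τ x) = (u : F) • rho τ (s.Φ x) := by
    intro x
    rw [← hTv, ← hTv, ← cs_spec, hu, GO_mul, sc_mulVec]
  exact ⟨u, hev⟩

omit hk hf in
theorem K_exists_perp (h : Nd Q) (s : Semi Q) (hV : 8 < finrank F (ι → F)) (v w : VK g c) : ∃ x : VK g c, x ≠ 0 ∧
    polar (QV g c) v x = 0 ∧ polar (QV g c) (gA g c v) x = 0 ∧ polar (QV g c) w x = 0 ∧ polar (QV g c) (gA g c w) x = 0 ∧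
    polar (QV g c) v (phV g c s x) = 0 ∧ polar (QV g c) (gA g c v) (phV g c s x) = 0 ∧
    polar (QV g c) w (phV g c s x) = 0 ∧ polar (QV g c) (gA g c w) (phV g c s x) = 0 := by
  obtain ⟨x, hx0, hx⟩ := OAut.Dat.exists_perp h ((Submodule.span F {(v : ι → F), gA g c v, (w : ι → F), gA g c w}) ⊔
    Submodule.span F {s.Φ.symm v, s.Φ.symm (gA g c v), s.Φ.symm w, s.Φ.symm (gA g c w)})
    (by
      have h4 := Submodule.finrank_add_le_finrank_add_finrank (Submodule.span F {(v : ι → F), gA g c v, (w : ι → F), gA g c w})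
        (Submodule.span F {s.Φ.symm v, s.Φ.symm (gA g c v), s.Φ.symm w, s.Φ.symm (gA g c w)})
      have h5 := finrank_four (F := F) (v : ι → F) (gA g c v) (w : ι → F) (gA g c w)
      have h6 := finrank_four (F := F) (s.Φ.symm v) (s.Φ.symm (gA g c v)) (s.Φ.symm w) (s.Φ.symm (gA g c w))
      exact lt_of_le_of_lt (h4.trans (Nat.add_le_add h5 h6)) hV)
  have hx' : ∀ y : ι → F, y ∈ ({(v : ι → F), gA g c v, (w : ι → F), gA g c w} : Set (ι → F)) → polar Q y x = 0 :=
    fun y hy => hx y (Submodule.mem_sup_left (Submodule.subset_span hy))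
  have hsx : ∀ y : ι → F, s.Φ.symm y ∈ ({s.Φ.symm v, s.Φ.symm (gA g c v), s.Φ.symm w, s.Φ.symm (gA g c w)} : Set (ι → F)) →
      polar Q y (s.Φ x) = 0 := by
    intro y hy
    have h4 := hx _ (Submodule.mem_sup_right (Submodule.subset_span hy))
    have h5 := s.polar_map (s.Φ.symm y) x
    rw [h4, map_zero, mul_zero] at h5
    have h6 : s.Φ (s.Φ.symm y) = y := s.Φ.apply_symm_apply y
    rwa [h6] at h5
  exact ⟨x, hx0, hx' _ (Or.inl rfl), hx' _ (Or.inr (Or.inl rfl)), hx' _ (Or.inr (Or.inr (Or.inl rfl))),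
    hx' _ (Or.inr (Or.inr (Or.inr rfl))), hsx _ (Or.inl rfl), hsx _ (Or.inr (Or.inl rfl)),
    hsx _ (Or.inr (Or.inr (Or.inl rfl))), hsx _ (Or.inr (Or.inr (Or.inr rfl)))⟩

/-- commuting with a product of two orthogonal reflections over `F(√c)` -/
theorem K_span_of_comm (h : Gd Q) (hV : 5 ≤ finrank (KF c) (VK g c)) {s : Semi Q} (hs : ∀ x ∈ SG g, sa s * x = x * sa s)
    {v w : VK g c} (hvw : polar (qK g c) v w = 0) (hqvw : qK g c v = qK g c w) (hw : qK g c w ≠ 0) :
    phV g c s v ∈ Submodule.span (KF c) {v, w} := by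
  have hQ := h.nd
  have h2 := two_K (c := c) hk.two
  have hv : qK g c v ≠ 0 := by rw [hqvw]; exact hw
  have hcg := rho_rr_Om hQ hv hqvw
  obtain ⟨u, hu⟩ := K_comm h hcg (hs _ hcg.mem)
  obtain ⟨x, hx0, h1, h3, h4, h5, h6, h7, h8, h9⟩ := K_exists_perp (g := g) (c := c) hQ s (by
    rw [finrank_VK (g := g) (c := c)]; omega) v w
  have hu1 : u = 1 := by
    have h10 := hu x
    rw [LinearEquiv.mul_apply, LinearEquiv.mul_apply, refl_of_perp (polar_qK_zero h4 h5), refl_of_perp (polar_qK_zero h1 h3),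
      refl_of_perp (polar_qK_zero h8 h9), refl_of_perp (polar_qK_zero h6 h7)] at h10
    have h11 : (1 - u) • phV g c s x = 0 := by rw [sub_smul, one_smul, ← h10, sub_self]
    exact (sub_eq_zero.1 ((smul_eq_zero.1 h11).resolve_right (phV_ne hx0))).symm
  have h10 := hu v
  have hwv : polar (qK g c) w v = 0 := by rw [polar_comm]; exact hvw
  rw [hu1, one_smul, LinearEquiv.mul_apply, LinearEquiv.mul_apply, refl_of_perp hwv, refl_self hv, map_neg] at h10
  generalize phV g c s v = y at h10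
  rw [refl_apply hv, refl_apply hw] at h10
  simp only [polar_sub_right, polar_smul_right, hvw, smul_zero, sub_zero] at h10
  rw [Submodule.mem_span_pair]
  refine ⟨(2 : KF c)⁻¹ * ((qK g c v)⁻¹ * polar (qK g c) v y), (2 : KF c)⁻¹ * ((qK g c w)⁻¹ * polar (qK g c) w y), ?_⟩
  have h6 : (2 : KF c) • y = ((qK g c v)⁻¹ * polar (qK g c) v y) • v + ((qK g c w)⁻¹ * polar (qK g c) w y) • w := by
    rw [two_smul]
    have h7 : y = -(y - ((qK g c w)⁻¹ * polar (qK g c) w y) • w - ((qK g c v)⁻¹ * polar (qK g c) v y) • v) := by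
      rw [← h10, neg_neg]
    nth_rewrite 2 [h7]
    abel
  rw [mul_smul (2 : KF c)⁻¹ ((qK g c v)⁻¹ * polar (qK g c) v y) v, mul_smul (2 : KF c)⁻¹ _ w, ← smul_add, ← h6, smul_smul,
    inv_mul_cancel₀ h2, one_smul]

/-- the centralizer of `SG g` -/
theorem K_cent_SG [Finite F] (h : Gd Q) (hV : 5 ≤ finrank (KF c) (VK g c)) {s : Semi Q}
    (hs : ∀ x ∈ SG g, sa s * x = x * sa s) : sa s ^ 2 = 1 := by
  have hQ := h.nd
  have hK := nd_qK (g := g) (c := c) hQ
  have h2 := hk.two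
  have hftop : finrank (KF c) (⊤ : Submodule (KF c) (VK g c)) = finrank (KF c) (VK g c) := finrank_top _ _
  obtain ⟨-, κ, hκ⟩ := rigid_refl hK (two_K h2) (nds_top hK) (by rw [hftop]; exact hV) (phV g c s)
    (fun v w _ _ hvw hqvw hw => K_span_of_comm h hV hs hvw hqvw hw)
  have hΦ : ∀ u : VK g c, phV g c s u = κ • u := fun u => hκ u Submodule.mem_top
  obtain ⟨v, hv⟩ := h.ne
  have hv0 : v ≠ 0 := by rintro rfl; exact hv (QuadraticMap.map_zero Q)
  have hΦv : s.Φ v ≠ 0 := fun h0 => hv0 ((map_eq_zero_iff s.Φ s.Φ.injective).1 h0)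
  have hlin : ∀ (α : F) (x : VK g c), phV g c s (α • x) = α • phV g c s x := by
    intro α x
    rw [hΦ, hΦ, ← k_alg, ← k_alg, smul_smul, smul_smul, mul_comm]
  have hσ : s.σ = 1 := by
    ext α
    have h3 : s.Φ (α • v) = α • s.Φ v := hlin α v
    rw [s.smul] at h3
    exact smul_left_injective F hΦv h3
  obtain ⟨t, ht⟩ := exists_toS h (s := s * s) (by
    have : Semi.sig (s * s) = 1 := by
      rw [map_mul]
      show s.σ * s.σ = 1
      rw [hσ, one_mul]
    exact this)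
  have htv : ∀ v, t.1.1 *ᵥ v = s.Φ (s.Φ v) := by
    intro v
    rw [← toS_Φ h, ← ht, Semi.mul_Φ]
  have hadj : ∀ x y : VK g c, polar (QV g c) (κ • x) y = polar (QV g c) x (κ • y) := by
    intro x y
    rw [k_smul, k_smul, polar_add_left, polar_add_right, polar_smul_left, polar_smul_left, polar_smul_right,
      polar_smul_right, adj]
  have hpp : ∀ x y : VK g c, polar (QV g c) (phV g c s (phV g c s x)) y = s.c * polar (QV g c) x y := by
    intro x y
    have e3 := polar_phV s x y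
    rw [hσ] at e3
    have e4 : (1 : F ≃+* F) (polar (QV g c) x y) = polar (QV g c) x y := rfl
    rw [e4] at e3
    rw [hΦ (phV g c s x), hadj, ← hΦ y]
    exact e3
  have hU : ∀ v, t.1.1 *ᵥ v = s.c • v := by
    intro v
    rw [htv, ← sub_eq_zero]
    refine hQ.eq_zero fun y => ?_
    have e1 : polar Q (s.Φ (s.Φ v)) y = s.c * polar Q v y := hpp v y
    rw [polar_sub_left, polar_smul_left, e1, smul_eq_mul, sub_self]
  have ht1 : t = sc Q (Units.mk0 s.c s.c0) := by
    apply GO_ext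
    intro v
    rw [hU, sc_mulVec]; rfl
  rw [pow_two, ← map_mul, ht, sa_toS, ht1, dg_sc]

theorem bal_II [Finite F] (h : Gd Q) (hsur : Function.Surjective (sa (Q := Q)))
    (hV : 5 ≤ finrank (KF c) (VK g c)) :
    Bal (Cfsg.Inn (Cfsg.POmega F ⇑Q)) 2 (dg g) ∧
      2 ∣ Nat.card ↥(Cfsg.Inn (Cfsg.POmega F ⇑Q) ⊓ Subgroup.centralizer {dg g}) := by
  have hQ := h.nd
  have hK := nd_qK (g := g) (c := c) hQ
  have h2 := two_K (c := c) hk.two
  have hftop : finrank (KF c) (⊤ : Submodule (KF c) (VK g c)) = finrank (KF c) (VK g c) := finrank_top _ _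
  obtain ⟨v, hv, hQv⟩ := exists_ns (nds_top hK) (by omega)
  have hB₁ := nds_cut1 h2 (nds_top hK) hv hQv
  have hd₁ := finrank_cut1 hK (⊤ : Submodule (KF c) (VK g c)) v
  obtain ⟨w, hw, hQw⟩ := univ_in h2 hB₁ (by omega) hQv
  obtain ⟨-, hvw⟩ := mem_cut1.1 hw
  have hQw0 : qK g c w ≠ 0 := by rw [hQw]; exact hQv
  have hcg := rho_rr_Om hQ hQv hQw.symm
  obtain ⟨e1, e2⟩ := rr_inv hK h2 (by omega) (x := w) (y := v) hQw0 hvw
  have hy : dO Q ⟨_, Om_le hcg.1⟩ ∈ SG g := hcg.mem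
  have hy1 : dO Q ⟨_, Om_le hcg.1⟩ ≠ 1 := by
    intro he
    obtain ⟨e, he'⟩ := dO_scalar h he
    refine e2 ⟨algebraMap F (KF c) e, fun x => ?_⟩
    rw [k_alg]
    exact he' x
  have hy2 : dO Q ⟨_, Om_le hcg.1⟩ * dO Q ⟨_, Om_le hcg.1⟩ = 1 := by
    have : (⟨_, Om_le hcg.1⟩ * ⟨_, Om_le hcg.1⟩ : ↥(O Q)) = 1 := Subtype.ext (congrArg rho e1)
    rw [← map_mul, this, map_one]
  constructor
  · refine ⟨SG g, SG_le g, SG_conj h g, ?_, ?_, ?_⟩
    · intro hbot
      rw [hbot, Subgroup.mem_bot] at hy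
      exact hy1 hy
    · intro N hN hnN hN1 hcop
      exact absurd (KN_bot h hN hnN hcop hV) hN1
    · intro x hx
      obtain ⟨s, rfl⟩ := hsur x
      exact ⟨1, by rw [pow_one]; exact K_cent_SG h hV hx⟩
  · have h5 : orderOf (dO Q ⟨_, Om_le hcg.1⟩) = 2 := orderOf_eq_prime (by rw [pow_two]; exact hy2) hy1
    have h6 := orderOf_dvd_natCard (⟨_, SG_le g hy⟩ : ↥(Cfsg.Inn (Cfsg.POmega F ⇑Q) ⊓ Subgroup.centralizer {dg g}))
    rwa [Subgroup.orderOf_mk, h5] at h6

end Cfsg.Agent.Lib.OGr
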