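import Cfsg.Agent.Lib.OGrF
import Cfsg.Agent.Lib.OFldI

set_option autoImplicit false
set_option linter.unusedSectionVars false

/-!
# Graph involutions in odd characteristic: classification (helper21)
-/

namespace Cfsg.Agent.Lib.OGr

open Matrix QuadraticMap Module
open Cfsg.Agent.Lib.Quad Cfsg.Agent.Lib.ClOrthSiegel Cfsg.Agent.Lib.ClOmega Cfsg.Agent.Lib.POmAut
open Cfsg.Agent.Lib.Descent Cfsg.Agent.Lib.OFld Cfsg.Agent.Lib.OrthNd Cfsg.Agent.Lib.OBal
open Cfsg.Agent.Lib.OAut (Semi H2)

variable {ι : Type} [Fintype ι] [DecidableEq ι] {F : Type*} [Field F] {Q : QuadraticForm F (ι → F)}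

/-- the determinant of an involution -/
theorem det_inv {V : Type*} [AddCommGroup V] [Module F V] [FiniteDimensional F V] (h2 : (2 : F) ≠ 0) {γ : V ≃ₗ[F] V}
    (hγ : γ * γ = 1) : LinearMap.det γ.toLinearMap = (-1) ^ finrank F (mov γ) := by
  have hmem : ∀ x, x ∈ mov γ ↔ γ x = -x := by
    intro x
    constructor
    · rintro ⟨y, rfl⟩
      show γ (γ y - y) = -(γ y - y)
      have : γ (γ y) = y := congrArg (fun f : V ≃ₗ[F] V => f y) hγ
      rw [map_sub, this]; abel
    · intro hx
      refine mem_mov.2 ⟨-((2 : F)⁻¹ • x), ?_⟩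
      rw [map_neg, map_smul, hx, smul_neg, neg_neg, sub_neg_eq_add, ← add_smul]
      have : (2 : F)⁻¹ + 2⁻¹ = 1 := by
        rw [← two_mul, mul_inv_cancel₀ h2]
      rw [this, one_smul]
  have hc : IsCompl (fixS γ) (mov γ) := by
    constructor
    · rw [Submodule.disjoint_def]
      intro x hx hx'
      rw [mem_fixS] at hx
      rw [hmem, hx] at hx'
      have h4 : (2 : F) • x = 0 := by
        rw [two_smul]; nth_rewrite 1 [hx']; rw [neg_add_cancel]
      exact (smul_eq_zero.1 h4).resolve_left h2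
    · rw [codisjoint_iff]
      apply Submodule.eq_top_of_finrank_eq
      have h3 := Submodule.finrank_sup_add_finrank_inf_eq (fixS γ) (mov γ)
      have h4 := finrank_mov_add_fixS γ
      have h5 : fixS γ ⊓ mov γ = ⊥ := by
        rw [eq_bot_iff]
        rintro x ⟨hx, hx'⟩
        rw [SetLike.mem_coe, mem_fixS] at hx
        rw [SetLike.mem_coe, hmem, hx] at hx'
        have h4 : (2 : F) • x = 0 := by
          rw [two_smul]; nth_rewrite 1 [hx']; rw [neg_add_cancel]
        exact (Submodule.mem_bot F).2 ((smul_eq_zero.1 h4).resolve_left h2)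
      rw [h5, finrank_bot] at h3
      omega
  let e := Submodule.prodEquivOfIsCompl (fixS γ) (mov γ) hc
  let f : (fixS γ × mov γ) →ₗ[F] (fixS γ × mov γ) := LinearMap.prodMap LinearMap.id ((-1 : F) • LinearMap.id)
  have h1 : (e : (fixS γ × mov γ) →ₗ[F] V) ∘ₗ f ∘ₗ (e.symm : V →ₗ[F] (fixS γ × mov γ)) = γ.toLinearMap := by
    ext1 v
    obtain ⟨⟨a, b⟩, rfl⟩ := e.surjective v
    show e (f (e.symm (e (a, b)))) = γ (e (a, b))
    rw [e.symm_apply_apply]
    show (a : V) + (((-1 : F) • b : mov γ) : V) = γ ((a : V) + (b : V))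
    rw [map_add, mem_fixS.1 a.2, (hmem _).1 b.2]
    simp
  rw [← h1, LinearMap.det_conj, LinearMap.det_prodMap, LinearMap.det_id, one_mul, LinearMap.det_smul, LinearMap.det_id,
    mul_one]

theorem Gd.mu_val_eq (h : Gd Q) {g : GO Q} {c : Fˣ} (hc : h.mu g = c) (v : ι → F) : Q (g.1.1 *ᵥ v) = c * Q v := by
  rw [h.mu_spec, hc]

/-- an involution negating the form is proper -/
theorem finrank_mov_anti (hQ : Nd Q) (h2 : (2 : F) ≠ 0) {γ : (ι → F) ≃ₗ[F] (ι → F)} (hγ : γ * γ = 1)
    (hanti : ∀ v, Q (γ v) = - Q v) : finrank F (ι → F) = 2 * finrank F (mov γ) := by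
  have hpol : ∀ x y, polar Q (γ x) (γ y) = - polar Q x y := by
    intro x y
    simp only [polar, ← map_add, hanti]; ring
  have z : ∀ a : F, a = -a → a = 0 := by
    intro a ha
    have h3 : 2 * a = 0 := by linear_combination ha
    exact (mul_eq_zero.1 h3).resolve_left h2
  have h1 : fixS γ ≤ Quad.perp Q (fixS γ) := by
    intro x hx
    refine mem_perp.2 fun a ha => z _ ?_
    rw [mem_fixS] at hx ha
    have h3 := hpol a x
    rwa [hx, ha] at h3
  have h3 : mov γ ≤ Quad.perp Q (mov γ) := by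
    intro x hx
    refine mem_perp.2 fun a ha => z _ ?_
    rw [mem_mov_iff h2 hγ] at hx ha
    have h3 := hpol a x
    rwa [hx, ha, polar_neg_left, polar_neg_right, neg_neg] at h3
  have h4 := hQ.finrank_add_finrank_perp (fixS γ)
  have h5 := hQ.finrank_add_finrank_perp (mov γ)
  have h6 := finrank_mov_add_fixS γ
  have h7 := Submodule.finrank_mono h1
  have h8 := Submodule.finrank_mono h3
  omega

theorem bal_graph [Finite F] {k : ℕ} (h : Ev Q k) (h2 : (2 : F) ≠ 0) (hk : 4 ≤ k) (hsur : Function.Surjective (sa (Q := Q)))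
    {g : GO Q} (he : h.eps g = -1) (ho : dg g * dg g = 1) :
    Bal (Cfsg.Inn (Cfsg.POmega F ⇑Q)) 2 (dg g) ∧
      2 ∣ Nat.card ↥(Cfsg.Inn (Cfsg.POmega F ⇑Q) ⊓ Subgroup.centralizer {dg g}) := by
  have hQ := h.gd.nd
  have hfr : finrank F (ι → F) = 2 * k := by rw [Module.finrank_fintype_fun_eq_card, h.card]
  obtain ⟨c, hc⟩ := h.gd.exists_sc (g := g * g) (by rw [map_mul, ho])
  have hmu : h.gd.mu g * h.gd.mu g = c * c := by rw [← map_mul, hc, h.gd.mu_sc]
  have hmu' : (h.gd.mu g : F) = c ∨ (h.gd.mu g : F) = -c := by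
    have : (h.gd.mu g : F) * h.gd.mu g = c * c := by rw [← Units.val_mul, hmu, Units.val_mul]
    exact mul_self_eq_mul_self_iff.1 this
  have hgg : ∀ v, g.1.1 *ᵥ (g.1.1 *ᵥ v) = (c : F) • v := by
    intro v
    rw [← GO_mul, hc, sc_mulVec]
  by_cases hsq : IsSquare (c : F)
  · obtain ⟨d, hd⟩ := hsq
    have hd0 : d ≠ 0 := by rintro rfl; exact c.ne_zero (by rw [hd, mul_zero])
    set γ : GO Q := sc Q (Units.mk0 d hd0)⁻¹ * g with hγ
    have hdγ : dg γ = dg g := by rw [hγ, map_mul, dg_sc, one_mul]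
    have heγ : h.eps γ = -1 := by rw [hγ, map_mul, h.eps_sc, one_mul, he]
    have hγv : ∀ v, γ.1.1 *ᵥ v = d⁻¹ • (g.1.1 *ᵥ v) := by
      intro v
      rw [hγ, GO_mul, sc_mulVec]; rfl
    have hγγ : toLE γ.1 * toLE γ.1 = 1 := by
      ext1 v
      show γ.1.1 *ᵥ (γ.1.1 *ᵥ v) = v
      rw [hγv, hγv, Matrix.mulVec_smul, hgg, smul_smul, smul_smul, hd]
      have : d⁻¹ * d⁻¹ * (d * d) = 1 := by field_simp
      rw [this, one_smul]
    rcases hmu' with hm | hm
    · -- isometry
      have hO : toLE γ.1 ∈ O Q := by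
        intro v
        show Q (γ.1.1 *ᵥ v) = Q v
        rw [hγv, Q_smul, h.gd.mu_spec, hm, hd]
        field_simp
      have hodd : ¬ Even (finrank F (mov (toLE γ.1))) := by
        intro hev
        have h3 : h.eps γ = 1 := by
          have e1 : γ = iO Q ⟨toLE γ.1, hO⟩ := by
            apply GO_ext
            intro v
            rw [iO_mulVec]; rfl
          rw [e1, h.eps_iO]
          show sgn _ = 1
          rw [sgn_eq_one_iff]
          exact hev
        rw [h3] at heγ
        exact absurd heγ (by decide)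
      rw [← hdγ]
      exact bal_I h.gd h2 hsur hO hγγ hodd (by rw [hfr]; exact even_two_mul k) (by omega)
    · exfalso
      have hanti : ∀ v, Q (toLE γ.1 v) = - Q v := by
        intro v
        show Q (γ.1.1 *ᵥ v) = - Q v
        rw [hγv, Q_smul, h.gd.mu_spec, hm, hd]
        field_simp
      have h3 := finrank_mov_anti hQ h2 hγγ hanti
      have h4 := det_inv h2 hγγ
      have h5 : γ.1.1.det = (-1) ^ k := by
        have : LinearMap.det (toLE γ.1).toLinearMap = γ.1.1.det := by
          rw [toLE_toLinearMap]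
          exact LinearMap.det_toLin' γ.1.1
        rw [← this, h4]
        congr 1
        omega
      have h6 : h.eps γ = 1 := by
        rw [h.eps_ne h2, Hyp.eps_eq_one_iff, h5, h.mu_hyp h2]
        congr 1
        exact (h.gd.mu_eq (c := -1) (fun v => by rw [neg_one_mul]; exact hanti v)).symm
      rw [h6] at heγ
      exact absurd heγ (by decide)
  · have hf : Fact (∀ r : F, r ^ 2 ≠ (c : F) + 0 * r) := fact_of hsq
    have hst : Kst g (c : F) := ⟨hgg⟩
    have hfk : finrank (KF (c : F)) (VK g (c : F)) = k := by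
      have := finrank_VK (g := g) (c := (c : F))
      omega
    have hdet := det_K (g := g) (c := (c : F))
    rw [hfk] at hdet
    have hne : ¬ g.1.1.det = (h.gd.mu g : F) ^ k := by
      intro h3
      have h6 : h.eps g = 1 := by
        rw [h.eps_ne h2, Hyp.eps_eq_one_iff, h3, h.mu_hyp h2]
      rw [h6] at he
      exact absurd he (by decide)
    rcases hmu' with hm | hm
    · have hKq : Kq g (c : F) := ⟨c.ne_zero, h2, fun v => by rw [h.gd.mu_spec, hm]⟩
      have hkodd : ¬ Even k := by
        intro hev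
        apply hne
        rw [hdet, hm, hev.neg_pow]
      have hk5 : 5 ≤ k := by
        rcases Nat.lt_or_ge 4 k with h5 | h5
        · exact h5
        · exfalso
          apply hkodd
          have : k = 4 := by omega
          rw [this]; decide
      exact bal_II h.gd hsur (c := (c : F)) (by rw [hfk]; exact hk5)
    · exfalso
      apply hne
      rw [hdet, hm]

end Cfsg.Agent.Lib.OGr
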