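import Cfsg.Agent.Lib.OGrG

set_option autoImplicit false
set_option linter.unusedSectionVars false

/-!
# Descent of semisimilarities of prime order (helper21)
-/

namespace Cfsg.Agent.Lib.OGr

open Matrix QuadraticMap Module
open Cfsg.Agent.Lib.Quad Cfsg.Agent.Lib.ClOrthSiegel Cfsg.Agent.Lib.ClOmega Cfsg.Agent.Lib.POmAut
open Cfsg.Agent.Lib.Descent Cfsg.Agent.Lib.OFld Cfsg.Agent.Lib.OrthNd Cfsg.Agent.Lib.OBal
open Cfsg.Agent.Lib.OAut (Semi H2)

variable {ι : Type} [Fintype ι] [DecidableEq ι] {F : Type*} [Field F] {F₀ : Type*} [Field F₀]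
  {Q : QuadraticForm F (ι → F)}

theorem semi_pow_succ_Φ (s : Semi Q) (k : ℕ) (v : ι → F) : (s ^ (k + 1)).Φ v = s.Φ ((s ^ k).Φ v) := by
  rw [pow_succ', Semi.mul_Φ]

theorem semi_pow_succ_Φ' (s : Semi Q) (k : ℕ) (v : ι → F) : (s ^ (k + 1)).Φ v = (s ^ k).Φ (s.Φ v) := by
  rw [pow_succ, Semi.mul_Φ]

theorem iterate_semi (s : Semi Q) (a : F) (k : ℕ) (v : ι → F) :
    (fun v => a • s.Φ v)^[k] v = (∏ i ∈ Finset.range k, (s.σ ^ i) a) • (s ^ k).Φ v := by
  induction k with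
  | zero => simp only [Function.iterate_zero, id, Finset.range_zero, Finset.prod_empty, one_smul]; rfl
  | succ k ih =>
    rw [Function.iterate_succ_apply', ih, s.smul, smul_smul, ← semi_pow_succ_Φ, Finset.prod_range_succ', map_prod]
    congr 1
    rw [pow_zero, mul_comm]
    congr 1
    exact Finset.prod_congr rfl fun i _ => (pow_apply' s.σ i a).symm

theorem iterate_mul (σ : F ≃+* F) (a : F) (k : ℕ) (x : F) :
    (fun x => a * σ x)^[k] x = (∏ i ∈ Finset.range k, (σ ^ i) a) * (σ ^ k) x := by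
  induction k with
  | zero => simp
  | succ k ih =>
    rw [Function.iterate_succ_apply', ih, map_mul, ← mul_assoc, ← pow_apply', Finset.prod_range_succ', map_prod]
    congr 1
    rw [pow_zero, mul_comm]
    congr 1
    exact Finset.prod_congr rfl fun i _ => (pow_apply' σ i a).symm

theorem semi_descent [Finite F] (h : Gd Q) {s : Semi Q} {p : ℕ} (hp : orderOf s.σ = p) (h0 : 0 < p) (ho : sa s ^ p = 1)
    {ι₀ : F₀ →+* F} (hι : ∀ x, s.σ x = x ↔ ∃ y, ι₀ y = x) :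
    ∃ (e : (ι → F) ≃ₗ[F] (ι → F)) (b : F) (Q' : QuadraticForm F (ι → F)) (Q₁ : QuadraticForm F₀ (ι → F₀))
      (T : Tr e b Q' Q) (D : Ds s.σ ι₀ Q' Q₁), Nd Q' ∧ Nd Q₁ ∧ T.tA D.toSg.fd = sa s := by
  -- the power
  obtain ⟨t, ht⟩ := exists_toS h (s := s ^ p) (by rw [semi_pow_σ, ← hp, pow_orderOf_eq_one])
  have ht1 : dg t = 1 := by rw [← sa_toS h, ← ht, map_pow, ho]
  obtain ⟨c, hc⟩ := h.exists_sc ht1
  have hpow : ∀ v, (s ^ p).Φ v = (c : F) • v := by
    intro v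
    rw [ht, toS_Φ, hc, sc_mulVec]
  obtain ⟨v₀, hv₀⟩ := h.ne
  have hv₀0 : v₀ ≠ 0 := by rintro rfl; exact hv₀ (QuadraticMap.map_zero Q)
  have hcσ : s.σ (c : F) = c := by
    have h1 := semi_pow_succ_Φ s p v₀
    rw [semi_pow_succ_Φ' s p v₀, hpow, hpow, s.smul] at h1
    have h2 : s.Φ v₀ ≠ 0 := fun h' => hv₀0 ((map_eq_zero_iff s.Φ s.Φ.injective).1 h')
    exact (smul_left_injective F h2 h1).symm
  obtain ⟨a, ha⟩ := exists_norm hp h0 (c := c⁻¹) (by
    rw [Units.val_inv_eq_inv_val, map_inv₀, hcσ])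
  set φ : (ι → F) → (ι → F) := fun v => (a : F) • s.Φ v with hφ
  have hφp : ∀ v, φ^[p] v = v := by
    intro v
    rw [hφ, iterate_semi, ha, hpow, smul_smul, Units.inv_mul, one_smul]
  obtain ⟨bb, hbb⟩ := exists_fixed_basis hp h0 (φ := φ) (fun v w => by simp only [hφ, map_add, smul_add])
    (fun x v => by simp only [hφ, s.smul, smul_smul, mul_comm]) hφp (ι := ι) (by simp)
  let e : (ι → F) ≃ₗ[F] (ι → F) := bb.equivFun.symm
  have he : ∀ v, φ (e v) = e (sv s.σ v) := by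
    intro v
    have e1 : ∀ v : ι → F, e v = ∑ i, v i • bb i := fun v => bb.equivFun_symm_apply v
    have hsum : ∀ (S : Finset ι) (u : ι → (ι → F)), φ (∑ i ∈ S, u i) = ∑ i ∈ S, φ (u i) := by
      intro S u
      simp only [hφ, map_sum, Finset.smul_sum]
    rw [e1, e1, hsum]
    refine Finset.sum_congr rfl fun i _ => ?_
    have e2 : φ (v i • bb i) = s.σ (v i) • φ (bb i) := by simp only [hφ, s.smul, smul_smul, mul_comm]
    rw [e2, hbb]; rfl
  -- the multiplier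
  set μ : F := a * a * s.c with hμ
  have hμ0 : μ ≠ 0 := mul_ne_zero (mul_ne_zero a.ne_zero a.ne_zero) s.c0
  have hQφ : ∀ v, Q (φ v) = μ * s.σ (Q v) := by
    intro v
    simp only [hφ, Q_smul, s.q, hμ]; ring
  have hQφk : ∀ k v, Q (φ^[k] v) = (fun x => μ * s.σ x)^[k] (Q v) := by
    intro k
    induction k with
    | zero => intro v; rfl
    | succ k ih => intro v; rw [Function.iterate_succ_apply', hQφ, ih, Function.iterate_succ_apply']
  have hμp : ∏ i ∈ Finset.range p, (s.σ ^ i) μ = 1 := by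
    have h1 := hQφk p v₀
    rw [hφp, iterate_mul] at h1
    have h2 : (s.σ ^ p) (Q v₀) = Q v₀ := by rw [← hp, pow_orderOf_eq_one]; rfl
    rw [h2] at h1
    exact mul_right_cancel₀ hv₀ (by rw [one_mul]; exact h1.symm)
  obtain ⟨b, hb⟩ := hilbert90_units hp h0 (a := Units.mk0 μ hμ0) hμp
  rw [Units.val_mk0] at hb
  let Q' : QuadraticForm F (ι → F) := (b⁻¹ : F) • Q.comp e.toLinearMap
  have hQ' : ∀ v, Q' v = (b : F)⁻¹ * Q (e v) := fun v => rfl
  have hsb : s.σ (b : F) ≠ 0 := (map_ne_zero s.σ).2 b.ne_zero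
  have S' : Sg s.σ Q' := by
    constructor
    intro v
    rw [hQ', hQ', ← he, hQφ, map_mul, map_inv₀]
    have : (b : F)⁻¹ * μ = (s.σ (b : F))⁻¹ := by
      apply eq_inv_of_mul_eq_one_left
      rw [mul_assoc, hb, inv_mul_cancel₀ b.ne_zero]
    rw [← mul_assoc, this]
  obtain ⟨Q₁, D⟩ := exists_descent hι S'
  have T : Tr e (b : F) Q' Q := ⟨b.ne_zero, fun v => by rw [hQ', mul_inv_cancel_left₀ b.ne_zero]⟩
  have hnd : Nd Q' := by
    have h1 := h.nd
    rw [nd_iff] at h1 ⊢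
    intro x hx
    have h2 : e x = 0 := by
      apply h1
      intro y
      have h3 := hx (e.symm y)
      have h4 := T.polar_map x (e.symm y)
      rw [h3, mul_zero, LinearEquiv.apply_symm_apply] at h4
      exact h4
    exact (LinearEquiv.map_eq_zero_iff e).1 h2
  refine ⟨e, b, Q', Q₁, T, D, hnd, D.nd hnd, ?_⟩
  refine T.tA_eq fun t => ?_
  rw [Sg.fd_mk, Tr.tP_mk]
  refine sa_mk _ _ _ fun w => ?_
  obtain ⟨v, rfl⟩ := e.surjective w
  have e1 : ∀ v, s.Φ (e v) = (a : F)⁻¹ • e (sv s.σ v) := by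
    intro v
    rw [← he]
    simp only [hφ]
    rw [smul_smul, inv_mul_cancel₀ a.ne_zero, one_smul]
  have e2 : ∀ (t : Cfsg.Omega F ⇑Q') (v : ι → F), (comIso T.tI t).1.1.1 *ᵥ (e v) = e (t.1.1.1 *ᵥ v) := fun t v =>
    trGL_mulVec e t.1.1 v
  rw [e1, e2, e1, Matrix.mulVec_smul, e2]
  congr 2
  show (mp s.σ t.1.1).1 *ᵥ _ = _
  rw [mp_coe, ← sv_mulVec]

end Cfsg.Agent.Lib.OGr
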