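import Cfsg.Agent.Lib.OGrH
import Cfsg.Agent.Lib.OFldY

set_option autoImplicit false
set_option linter.unusedSectionVars false

/-!
# Local balance for orthogonal socles of minus type (helper21)
-/

namespace Cfsg.Agent.Lib.OGr

open Matrix QuadraticMap Module
open Cfsg.Agent.Lib.Quad Cfsg.Agent.Lib.ClOrthSiegel Cfsg.Agent.Lib.ClOmega Cfsg.Agent.Lib.POmAut
open Cfsg.Agent.Lib.Descent Cfsg.Agent.Lib.OFld Cfsg.Agent.Lib.OrthNd Cfsg.Agent.Lib.OBal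
open Cfsg.Agent.Lib.OAut (Semi H2)

/-- transport of balance data -/
theorem Bal.map {G G' : Type*} [Group G] [Group G'] (Ψ : G ≃* G') {I : Subgroup G} {p : ℕ} {x : G} (h : Bal I p x) :
    Bal (I.map Ψ.toMonoidHom) p (Ψ x) := by
  obtain ⟨S, h1, h2, h3, h4, h5⟩ := h
  have hc : (I.map Ψ.toMonoidHom ⊓ Subgroup.centralizer {Ψ x}) = (I ⊓ Subgroup.centralizer {x}).map Ψ.toMonoidHom := by
    ext y
    constructor
    · intro hy
      obtain ⟨⟨c, hc, rfl⟩, hy2⟩ := Subgroup.mem_inf.1 hy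
      refine ⟨c, Subgroup.mem_inf.2 ⟨hc, ?_⟩, rfl⟩
      rw [Subgroup.mem_centralizer_singleton_iff] at hy2 ⊢
      apply Ψ.injective
      rw [map_mul, map_mul]
      exact hy2
    · rintro ⟨c, hc, rfl⟩
      obtain ⟨hc1, hc2⟩ := Subgroup.mem_inf.1 hc
      refine Subgroup.mem_inf.2 ⟨⟨c, hc1, rfl⟩, ?_⟩
      rw [Subgroup.mem_centralizer_singleton_iff] at hc2 ⊢
      show Ψ c * Ψ x = Ψ x * Ψ c
      rw [← map_mul, hc2, map_mul]
  have hinj : Function.Injective Ψ.toMonoidHom := Ψ.injective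
  refine ⟨S.map Ψ.toMonoidHom, ?_, ?_, ?_, ?_, ?_⟩
  · rw [hc]; exact Subgroup.map_mono h1
  · rw [hc]
    rintro _ ⟨c, hc, rfl⟩ _ ⟨s, hs, rfl⟩
    exact ⟨c * s * c⁻¹, h2 c hc s hs, by rw [map_mul, map_mul, map_inv]⟩
  · intro h0
    exact h3 ((Subgroup.map_eq_bot_iff_of_injective _ hinj).1 h0)
  · intro N hN hn hN1 hcop
    rw [hc]
    have e1 : (N.comap Ψ.toMonoidHom).map Ψ.toMonoidHom = N := Subgroup.map_comap_eq_self_of_surjective Ψ.surjective N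
    have e2 : Nat.card ↥(N.comap Ψ.toMonoidHom) = Nat.card N := by
      conv_rhs => rw [← e1]
      exact (Subgroup.card_map_of_injective hinj).symm
    rw [Subgroup.card_map_of_injective hinj]
    refine h4 (N.comap Ψ.toMonoidHom) ?_ ?_ ?_ (by rw [e2]; exact hcop)
    · intro y hy
      obtain ⟨s, hs, e⟩ := hN hy
      rwa [← hinj e]
    · intro s hs n hn'
      rw [Subgroup.mem_comap, map_mul, map_mul, map_inv]
      exact hn _ ⟨s, hs, rfl⟩ _ hn'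
    · intro h0
      rw [h0, Subgroup.map_bot] at e1
      exact hN1 e1.symm
  · intro g hg
    obtain ⟨k, hk⟩ := h5 (Ψ.symm g) (fun s hs => by
      apply Ψ.injective
      rw [map_mul, map_mul, MulEquiv.apply_symm_apply]
      exact hg _ ⟨s, hs, rfl⟩)
    refine ⟨k, ?_⟩
    rw [← Ψ.apply_symm_apply g, ← map_pow, hk, map_one]

section

variable {F : Type*} [Field F] {m : ℕ}

theorem exists_zeta (F : Type*) [Field F] [Finite F] : ∃ ζ : F, ∀ t : F, t ^ 2 + t + ζ ≠ 0 := by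
  by_contra hcon
  push Not at hcon
  have hsur : Function.Surjective (fun t : F => t ^ 2 + t) := by
    intro y
    obtain ⟨t, ht⟩ := hcon (-y)
    exact ⟨t, by show t ^ 2 + t = y; linear_combination ht⟩
  have hinj := Finite.injective_iff_surjective.2 hsur
  have h1 : (0 : F) = -1 := hinj (by norm_num)
  have h2 : (1 : F) = 0 := by linear_combination h1
  exact one_ne_zero h2

theorem split_equiv (m : ℕ) {ζ t : F} (ht : t ^ 2 + t + ζ = 0) (hd : 1 + 2 * t ≠ 0) :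
    ∃ e : (Fin (m + 1) ⊕ Fin (m + 1) → F) ≃ₗ[F] ((Fin m ⊕ Fin m) ⊕ Fin 2 → F),
      ∀ v, quadMinus m F 1 ζ (e v) = quadPlus (m + 1) F v := by
  let z2 : (Fin (m + 1) ⊕ Fin (m + 1) → F) → F := fun v => (1 + 2 * t)⁻¹ * (v (Sum.inr (Fin.last m)) - v (Sum.inl (Fin.last m)))
  let z1 : (Fin (m + 1) ⊕ Fin (m + 1) → F) → F := fun v => v (Sum.inl (Fin.last m)) + t * z2 v
  let f : (Fin (m + 1) ⊕ Fin (m + 1) → F) →ₗ[F] ((Fin m ⊕ Fin m) ⊕ Fin 2 → F) :=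
    { toFun := fun v => Sum.elim (Sum.elim (fun i => v (Sum.inl i.castSucc)) (fun i => v (Sum.inr i.castSucc))) ![z1 v, z2 v]
      map_add' := by
        intro v w
        ext i
        rcases i with (i | i) | i
        · rfl
        · rfl
        · fin_cases i
          · show z1 (v + w) = z1 v + z1 w
            simp only [z1, z2, Pi.add_apply]; ring
          · show z2 (v + w) = z2 v + z2 w
            simp only [z2, Pi.add_apply]; ring
      map_smul' := by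
        intro c v
        ext i
        rcases i with (i | i) | i
        · rfl
        · rfl
        · fin_cases i
          · show z1 (c • v) = c * z1 v
            simp only [z1, z2, Pi.smul_apply, smul_eq_mul]; ring
          · show z2 (c • v) = c * z2 v
            simp only [z2, Pi.smul_apply, smul_eq_mul]; ring }
  have hinj : Function.Injective f := by
    rw [injective_iff_map_eq_zero]
    intro v hv
    have h1 : ∀ i : Fin m, v (Sum.inl i.castSucc) = 0 := fun i => congrFun hv (Sum.inl (Sum.inl i))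
    have h2 : ∀ i : Fin m, v (Sum.inr i.castSucc) = 0 := fun i => congrFun hv (Sum.inl (Sum.inr i))
    have h3 : z1 v = 0 := congrFun hv (Sum.inr 0)
    have h4 : z2 v = 0 := congrFun hv (Sum.inr 1)
    have h5 : v (Sum.inl (Fin.last m)) = 0 := by
      have : z1 v = v (Sum.inl (Fin.last m)) + t * z2 v := rfl
      rw [h3, h4, mul_zero, add_zero] at this
      exact this.symm
    have h6 : v (Sum.inr (Fin.last m)) = 0 := by
      have : z2 v = (1 + 2 * t)⁻¹ * (v (Sum.inr (Fin.last m)) - v (Sum.inl (Fin.last m))) := rfl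
      rw [h4, h5, sub_zero] at this
      exact (mul_eq_zero.1 this.symm).resolve_left (inv_ne_zero hd)
    ext i
    rcases i with i | i
    · refine Fin.lastCases ?_ (fun i => ?_) i
      · exact h5
      · exact h1 i
    · refine Fin.lastCases ?_ (fun i => ?_) i
      · exact h6
      · exact h2 i
  refine ⟨LinearEquiv.ofInjectiveOfFinrankEq f hinj (by simp; omega), fun v => ?_⟩
  show Cfsg.quadFormMinus m F 1 ζ (f v) = Cfsg.quadFormPlus (m + 1) F v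
  rw [Cfsg.quadFormMinus, Cfsg.quadFormPlus, Fin.sum_univ_castSucc]
  have e1 : ∀ i : Fin m, f v (Sum.inl (Sum.inl i)) = v (Sum.inl i.castSucc) := fun i => rfl
  have e2 : ∀ i : Fin m, f v (Sum.inl (Sum.inr i)) = v (Sum.inr i.castSucc) := fun i => rfl
  have e3 : f v (Sum.inr 0) = z1 v := rfl
  have e4 : f v (Sum.inr 1) = z2 v := rfl
  simp only [e1, e2, e3, e4, add_assoc]
  congr 1
  have e5 : z1 v = v (Sum.inl (Fin.last m)) + t * z2 v := rfl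
  have e6 : v (Sum.inr (Fin.last m)) = v (Sum.inl (Fin.last m)) + (1 + 2 * t) * z2 v := by
    have : z2 v = (1 + 2 * t)⁻¹ * (v (Sum.inr (Fin.last m)) - v (Sum.inl (Fin.last m))) := rfl
    rw [this, mul_inv_cancel_left₀ hd]; ring
  rw [e6, e5]
  linear_combination (z2 v) ^ 2 * ht

theorem sml_split [Finite F] {ι : Type} [Fintype ι] [DecidableEq ι] (ε : ι ≃ Fin (m + 1) ⊕ Fin (m + 1))
    (ε' : ι ≃ (Fin (m + 1 - 1) ⊕ Fin (m + 1 - 1)) ⊕ Fin 2) {ζ t : F} (ht : t ^ 2 + t + ζ = 0) (hd : 1 + 2 * t ≠ 0) :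
    Sml (rM ε' F 1 ζ) (rP ε F) := by
  obtain ⟨e, he⟩ := split_equiv m ht hd
  exact sml_of_isom ε' ((fc F ε).trans e) one_ne_zero fun v => by
    rw [one_mul, LinearEquiv.trans_apply]; exact he _

theorem rM_refl (a b : F) : rM (k := m + 1) (Equiv.refl ((Fin m ⊕ Fin m) ⊕ Fin 2)) F a b = quadMinus m F a b := by
  ext v; rfl

theorem minus_not_plus [Finite F] (ε : (Fin m ⊕ Fin m) ⊕ Fin 2 ≃ Fin (m + 1) ⊕ Fin (m + 1)) {a b : F}
    (hab : ∀ z₁ z₂ : F, z₁ ^ 2 + a * z₁ * z₂ + b * z₂ ^ 2 = 0 → z₁ = 0 ∧ z₂ = 0) :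
    ¬ Sml (quadMinus m F a b) (rP ε F) := by
  intro h
  obtain ⟨ζ, hζ⟩ := exists_zeta F
  have h1 := sml_mi_mi (k := m + 1) (Equiv.refl ((Fin m ⊕ Fin m) ⊕ Fin 2)) hab (anis_of_root hζ)
  rw [rM_refl a b] at h1
  exact not_pl_mi ε (Equiv.refl ((Fin m ⊕ Fin m) ⊕ Fin 2)) (by omega) hζ (h1.trans h)

end

section Minus

variable {F : Type*} [Field F] [Fintype F] {F₀ : Type*} [Field F₀] {m : ℕ}

theorem field_minus (hm : 3 ≤ m) {a b : F} (hab : ∀ z₁ z₂ : F, z₁ ^ 2 + a * z₁ * z₂ + b * z₂ ^ 2 = 0 → z₁ = 0 ∧ z₂ = 0)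
    {s : Semi (quadMinus m F a b)} {p : ℕ} (h0 : 0 < p) (hσ : orderOf s.σ = p) (ho : sa s ^ p = 1)
    {ι₀ : F₀ →+* F} (hι : ∀ x, s.σ x = x ↔ ∃ y, ι₀ y = x) :
    ∃ (ζ : F₀) (_ : ∀ t : F₀, t ^ 2 + t + ζ ≠ 0) (_ : ∀ t : F, t ^ 2 + t + ι₀ ζ ≠ 0)
      (ψ : Cfsg.POmega F ⇑(quadMinus m F (ι₀ 1) (ι₀ ζ)) ≃* Cfsg.POmega F ⇑(quadMinus m F a b)),
      MulAut.congr ψ (ds_minus (m := m) hι 1 ζ).toSg.fd = sa s := by
  have : Finite F₀ := Finite.of_injective ι₀ ι₀.injective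
  have hev := ev_minus hab hm
  obtain ⟨e, c, Q', Q₁, T, D, hn', hn₁, hfd⟩ := semi_descent hev.gd hσ h0 ho hι
  obtain ⟨⟨ε⟩, -⟩ := equivs (ι := (Fin m ⊕ Fin m) ⊕ Fin 2) (k := m + 1) (by omega) hev.card
  have hsm : Sml (quadMinus m F a b) Q' := sml_of_equiv e T.ne T.q
  have hnp := minus_not_plus ε hab
  rcases pl_or_mi ε (Equiv.refl ((Fin m ⊕ Fin m) ⊕ Fin 2)) (by omega) hn₁ with h1 | ⟨ζ, hζ, h1⟩
  · exact absurd (hsm.trans (Sml.ext D (ds_rP ε hι) h1)) hnp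
  rw [rM_refl] at h1
  have D' := ds_minus (m := m) hι 1 ζ
  refine ⟨ζ, hζ, fun t ht => ?_, ?_⟩
  · have h2 := Sml.ext D D' h1
    rw [map_one, ← rM_refl] at h2
    have hd : 1 + 2 * t ≠ 0 := by
      intro h3
      have h4 := disc_ne_zero_of_anisotropic (anis_of_root hζ)
      apply h4
      apply ι₀.injective
      rw [map_sub, map_mul, map_pow, map_one, map_zero, map_ofNat]
      linear_combination (1 + 2 * t) * h3 - 4 * ht
    exact hnp ((hsm.trans h2).trans (sml_split ε (Equiv.refl _) ht hd))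
  · obtain ⟨k₁, l, hl, hk⟩ := h1
    have hl' : ι₀ l ≠ 0 := (map_ne_zero ι₀).2 hl
    have T1 : Tr (toLE (mi ι₀ k₁)) (ι₀ l) (quadMinus m F (ι₀ 1) (ι₀ ζ)) Q' := by
      refine ⟨hl', sim_of_base ι₀ fun u => ?_⟩
      rw [mi_ex, D.base, hk, D'.base, map_mul]
    have h3 : T1.tA D'.toSg.fd = D.toSg.fd := by
      have h4 := T1.tA_fd D'.toSg D.toSg (g := 1) (fun v => by
        show (1 : Matrix _ _ F) *ᵥ _ = _
        rw [Matrix.one_mulVec, toLE_apply, toLE_apply, sv_mulVec, ← mp_coe, D.mp_mi])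
      rw [h4, map_one, one_mul]
    refine ⟨T1.tP.trans T.tP, ?_⟩
    rw [← hfd, ← h3]
    rfl

/-- even-dimensional forms: graph involutions -/
theorem graph_false {ι : Type} [Fintype ι] [DecidableEq ι] {Q : QuadraticForm F (ι → F)} {k : ℕ} (hev : Ev Q k)
    (hk : 4 ≤ k) {r : ℕ} [Fact r.Prime] [CharP F r] (hsur : Function.Surjective (sa (Q := Q)))
    {A : Subgroup (MulAut (Cfsg.POmega F ⇑Q))} (hinn' : Cfsg.Inn (Cfsg.POmega F ⇑Q) ≤ A) {p : ℕ} (hp : p.Prime)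
    (hpr : p ≠ r) {g : GO Q} (he : hev.eps g = -1) (ho : dg g ^ p = 1)
    (hcard : Nat.card ↥(Cfsg.Inn (Cfsg.POmega F ⇑Q) ⊓ Subgroup.centralizer {dg g}) =
      Nat.card ↥(MonoidHom.eqLocus (dg g).toMonoidHom (MonoidHom.id (Cfsg.POmega F ⇑Q)))) :
    ¬ Cfsg.pPrimeCore p ↥(A ⊓ Subgroup.centralizer {dg g}) ≠ ⊥ ∧
      ¬ Nat.Coprime p (Nat.card ↥(MonoidHom.eqLocus (dg g).toMonoidHom (MonoidHom.id (Cfsg.POmega F ⇑Q)))) := by
  have hr : r.Prime := Fact.out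
  obtain ⟨c, hc⟩ := hev.gd.exists_sc (g := g ^ p) (by rw [map_pow, ho])
  have h1 : (-1 : ℤˣ) ^ p = 1 := by
    rw [← he, ← map_pow, hc, hev.eps_sc]
  have hp2 : p = 2 := by
    rcases hp.eq_two_or_odd' with h2 | h2
    · exact h2
    · rw [h2.neg_one_pow] at h1
      exact absurd h1 (by decide)
  subst hp2
  have h2 : (2 : F) ≠ 0 := by
    intro h0
    have h3 : ((2 : ℕ) : F) = 0 := by exact_mod_cast h0
    rw [CharP.cast_eq_zero_iff F r] at h3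
    exact hpr ((Nat.prime_dvd_prime_iff_eq hr hp).1 h3).symm
  obtain ⟨hB, h2d⟩ := bal_graph hev h2 hk hsur he (by rw [← pow_two, ho])
  have hnc : ¬ (Nat.card ↥(Cfsg.Inn (Cfsg.POmega F ⇑Q) ⊓ Subgroup.centralizer {dg g})).Coprime 2 := by
    intro h3
    exact absurd (Nat.Coprime.eq_one_of_dvd h3.symm h2d) (by norm_num)
  rw [hB.iff Lib.LBal.inn_normal hinn' 1 (by group), ← hcard]
  exact ⟨hnc, fun h3 => hnc h3.symm⟩

theorem fieldAut_of {a b a' b' : F} (hab' : ∀ z₁ z₂ : F, z₁ ^ 2 + a' * z₁ * z₂ + b' * z₂ ^ 2 = 0 → z₁ = 0 ∧ z₂ = 0)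
    {σ : F ≃+* F} (hσ : σ ≠ 1) (ha : σ a' = a') (hb : σ b' = b') (S : Sg σ (quadMinus m F a' b'))
    (ψ : Cfsg.POmega F ⇑(quadMinus m F a' b') ≃* Cfsg.POmega F ⇑(quadMinus m F a b))
    {x : MulAut (Cfsg.POmega F ⇑(quadMinus m F a b))} (hx : MulAut.congr ψ S.fd = x) :
    Cfsg.IsFieldAutClassPOmegaMinus m (a := a) (b := b) x := by
  have key : (ψ.trans (MulAut.congr ψ S.fd)).trans ψ.symm = S.fd := by
    ext y
    show ψ.symm (ψ (S.fd (ψ.symm (ψ y)))) = S.fd y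
    rw [ψ.symm_apply_apply, ψ.symm_apply_apply]
  refine ⟨a', b', ψ.symm, σ, hab', fun h0 => hσ h0, ha, hb, ?_⟩
  refine (S.isFieldAut_iff _).2 ?_
  rw [← hx]
  exact key

theorem bh_minus {σ : F ≃+* F} {ι₀ : F₀ →+* F} (hι : ∀ x, σ x = x ↔ ∃ y, ι₀ y = x) [Fintype F₀] (hm : 3 ≤ m) {a b : F₀}
    (hab : ∀ z₁ z₂ : F, z₁ ^ 2 + ι₀ a * z₁ * z₂ + ι₀ b * z₂ ^ 2 = 0 → z₁ = 0 ∧ z₂ = 0)
    (hab0 : ∀ z₁ z₂ : F₀, z₁ ^ 2 + a * z₁ * z₂ + b * z₂ ^ 2 = 0 → z₁ = 0 ∧ z₂ = 0) : BH (ds_minus (m := m) hι a b) where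
  gd := gd_minus hab hm
  gd₀ := gd_minus hab0 hm
  gen := genHyp_minus m (by omega) _ _
  gen₀ := genHyp_minus m (by omega) _ _
  dat₀ := Cfsg.Agent.Lib.OAut.Semi.dat_minus hab0 hm
  h2 := ⟨_, _, _, _, Cfsg.Agent.Lib.OAut.Semi.h2_minus a b hm⟩
  simp₀ := Cfsg.Agent.S0297.result (m + 1) (by omega) a b hab0
  surj := surj_minus hab hm

theorem ne_zero_fixed {r : ℕ} [Fact r.Prime] [CharP F r] {ι₀ : F₀ →+* F} {p : ℕ} (hp : p.Prime) (hpr : p ≠ r) :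
    (p : F₀) ≠ 0 := by
  intro h0
  have h3 : ((p : ℕ) : F) = 0 := by
    rw [← map_natCast ι₀, h0, map_zero]
  rw [CharP.cast_eq_zero_iff F r] at h3
  exact hpr ((Nat.prime_dvd_prime_iff_eq Fact.out hp).1 h3).symm

set_option maxHeartbeats 4000000 in
/-- the field automorphism case -/
theorem minus_field {r : ℕ} [Fact r.Prime] [CharP F r] (hm : 3 ≤ m) {a b : F}
    (hab : ∀ z₁ z₂ : F, z₁ ^ 2 + a * z₁ * z₂ + b * z₂ ^ 2 = 0 → z₁ = 0 ∧ z₂ = 0)
    {p : ℕ} (hp : p.Prime) (hpr : p ≠ r) {s : Semi (quadMinus m F a b)} (ho : sa s ^ p = 1) (hσ1 : s.σ ≠ 1) :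
    Bal (Cfsg.Inn (Cfsg.POmega F ⇑(quadMinus m F a b))) p (sa s) ∧
      Cfsg.IsFieldAutClassPOmegaMinus m (a := a) (b := b) (sa s) := by
  have hσp : orderOf s.σ = p := by
    have := Fact.mk hp
    refine orderOf_eq_prime ?_ hσ1
    rw [← semi_pow_σ]
    exact sig_of_sa (Cfsg.Agent.Lib.OAut.Semi.dat_minus hab hm) (Cfsg.Agent.Lib.OAut.Semi.h2_minus a b hm)
      (by rw [map_pow, ho])
  have hfin : Fintype (FFAut.fixed s.σ) := Fintype.ofFinite _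
  have hι := fixed_emb s.σ
  revert hι
  generalize (FFAut.fixed s.σ).subtype = ι₀
  intro hι
  obtain ⟨ζ, hζ, hζ', ψ, hψ⟩ := field_minus hm hab hp.pos hσp ho hι
  have hab' : ∀ z₁ z₂ : F, z₁ ^ 2 + ι₀ 1 * z₁ * z₂ + ι₀ ζ * z₂ ^ 2 = 0 → z₁ = 0 ∧ z₂ = 0 := by
    rw [map_one]; exact anis_of_root hζ'
  have hB := bal_fd (ds_minus (m := m) hι 1 ζ) (bh_minus hι hm hab' (anis_of_root hζ)) hp hσp
    (ne_zero_fixed (r := r) (ι₀ := ι₀) hp hpr)
  have hB' := Bal.map (MulAut.congr ψ) hB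
  rw [inn_map, hψ] at hB'
  exact ⟨hB', fieldAut_of hab' hσ1 ((ds_minus (m := m) hι 1 ζ).sig 1) ((ds_minus (m := m) hι 1 ζ).sig ζ) _ ψ hψ⟩

set_option maxHeartbeats 4000000 in
theorem minus_main {r : ℕ} [Fact r.Prime] [CharP F r] (hm : 3 ≤ m) {a b : F}
    (hab : ∀ z₁ z₂ : F, z₁ ^ 2 + a * z₁ * z₂ + b * z₂ ^ 2 = 0 → z₁ = 0 ∧ z₂ = 0)
    (A : Subgroup (MulAut (Cfsg.POmega F ⇑(quadMinus m F a b))))
    (hinn : ∀ k : Cfsg.POmega F ⇑(quadMinus m F a b), MulAut.conj k ∈ A)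
    {p : ℕ} (hp : p.Prime) (hpr : p ≠ r) (x : MulAut (Cfsg.POmega F ⇑(quadMinus m F a b))) (hord : orderOf x = p)
    (hnot : ∀ g : GO (quadMinus m F a b), (ev_minus hab hm).eps g = 1 → x ≠ dg g) :
    Cfsg.pPrimeCore p ↥(A ⊓ Subgroup.centralizer {x}) ≠ ⊥ ↔ (Cfsg.IsFieldAutClassPOmegaMinus m (a := a) (b := b) x ∧
      Nat.Coprime p (Nat.card ↥(MonoidHom.eqLocus x.toMonoidHom (MonoidHom.id (Cfsg.POmega F ⇑(quadMinus m F a b)))))) := by
  have hinn' : Cfsg.Inn (Cfsg.POmega F ⇑(quadMinus m F a b)) ≤ A := by rintro _ ⟨k, rfl⟩; exact hinn k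
  have hs : IsSimpleGroup (Cfsg.POmega F ⇑(quadMinus m F a b)) := Cfsg.Agent.S0297.result (m + 1) (by omega) a b hab
  have hcard := Lib.LBal.card_fixed (conj_inj (gd_minus hab hm)
    (Cfsg.Agent.Lib.OAut.Semi.dat_minus hab hm) (Cfsg.Agent.Lib.OAut.Semi.h2_minus a b hm)) x
  have ho : x ^ p = 1 := by rw [← hord, pow_orderOf_eq_one]
  obtain ⟨s, hsx⟩ := surj_minus hab hm x
  by_cases hσ1 : s.σ = 1
  · obtain ⟨g, hg⟩ := exists_toS (gd_minus hab hm) hσ1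
    have hxg : x = dg g := by rw [← hsx, hg, sa_toS]
    subst hxg
    have he : (ev_minus hab hm).eps g = -1 := (Int.units_eq_one_or _).resolve_left fun he => hnot g he rfl
    obtain ⟨h1, h2⟩ := graph_false (ev_minus hab hm) (by omega) (surj_minus hab hm) hinn' hp hpr he ho hcard
    exact ⟨fun h => absurd h h1, fun h => absurd h.2 h2⟩
  · rw [← hsx] at ho
    obtain ⟨hB, hF⟩ := minus_field hm hab hp hpr ho hσ1
    rw [hsx] at hB hF
    rw [hB.iff Lib.LBal.inn_normal hinn' 1 (by group), hcard, Nat.coprime_comm]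
    exact ⟨fun h => ⟨hF, h⟩, fun h => h.2⟩

end Minus

end Cfsg.Agent.Lib.OGr
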