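import Cfsg.Agent.Lib.OW9

/-! # Finite special Jordan division rings are fields -/

set_option autoImplicit false

namespace Cfsg.Agent.Lib.OW

universe u

section comm

variable {V : Type u} [AddCommGroup V]

/-- the ring generated by the words -/
def Rg {E : Type u} [Ring E] (f : Bool → E) : Subring E where
  carrier := {X | ∃ Y, (X, Y) ∈ RP f}
  mul_mem' := by
    rintro a b ⟨a', ha⟩ ⟨b', hb⟩
    exact ⟨b' * a', RP_mul f ha hb⟩
  one_mem' := ⟨1, word_mem f []⟩
  add_mem' := by
    rintro a b ⟨a', ha⟩ ⟨b', hb⟩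
    exact ⟨a' + b', (RP f).add_mem ha hb⟩
  zero_mem' := ⟨0, (RP f).zero_mem⟩
  neg_mem' := by
    rintro a ⟨a', ha⟩
    exact ⟨-a', (RP f).neg_mem ha⟩

theorem gen_mem {E : Type u} [Ring E] (f : Bool → E) (x : Bool) : f x ∈ Rg f :=
  ⟨f x, by have := word_mem f [x]; rwa [List.reverse_singleton, val_single] at this⟩

theorem Rg_comm {E : Type u} [Ring E] {f : Bool → E} {X : E} (hX : ∀ x, X * f x = f x * X)
    {z : E} (hz : z ∈ Rg f) : X * z = z * X := by
  have hw : ∀ w : List Bool, X * val f w = val f w * X := by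
    intro w
    induction w with
    | nil => rw [val_nil, one_mul, mul_one]
    | cons x w ih => rw [val_cons, ← mul_assoc, hX, mul_assoc, ih, mul_assoc]
  obtain ⟨Y, hY⟩ := hz
  unfold RP at hY
  have : ∀ p : E × E, p ∈ AddSubgroup.closure
      (Set.range fun w : List Bool => (val f w, val f w.reverse)) → X * p.1 = p.1 * X := by
    intro p hp
    induction hp using AddSubgroup.closure_induction with
    | mem x hx =>
      obtain ⟨w, rfl⟩ := hx
      exact hw w
    | zero => simp
    | add x y _ _ hx hy => rw [Prod.fst_add, mul_add, hx, hy, add_mul]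
    | neg x _ hx => rw [Prod.fst_neg, mul_neg, hx, neg_mul]
  exact this _ hY

/-- non-injective factor kills -/
theorem kill [Finite V] {J : AddSubgroup (AddMonoid.End V)}
    (hinj : ∀ x ∈ J, x ≠ 0 → Function.Injective x) {A B : AddMonoid.End V} (h : A * B ∈ J)
    (hAB : ¬ Function.Injective A ∨ ¬ Function.Injective B) : A * B = 0 := by
  by_contra h0
  have h1 : Function.Injective (A * B) := hinj _ h h0
  have hc : ⇑(A * B) = A ∘ B := rfl
  rcases hAB with h2 | h2
  · apply h2
    have h3 : Function.Surjective (A * B) := Finite.surjective_of_injective h1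
    rw [hc] at h3
    exact Finite.injective_iff_surjective.2 h3.of_comp
  · apply h2
    rw [hc] at h1
    exact h1.of_comp

theorem noninj {A : AddMonoid.End V} {u : V} (h : A u = 0) (hu : u ≠ 0) :
    ¬ Function.Injective A := fun h1 => hu (h1 (by rw [h, map_zero]))

theorem comm_step [Finite V] {J : AddSubgroup (AddMonoid.End V)} (h1 : 1 ∈ J)
    (hU : ∀ x ∈ J, ∀ y ∈ J, x * y * x ∈ J) (hinj : ∀ x ∈ J, x ≠ 0 → Function.Injective x)
    (f : Bool → AddMonoid.End V) (hf : ∀ x, f x ∈ J) {X : AddMonoid.End V} (hX : X ∈ Rg f)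
    {u v : V} (hu : u ≠ 0) (hv : v ≠ 0) (hXu : X u = 0) (hXv : X v = v) :
    ∀ z ∈ Rg f, X * z = z * X := by
  obtain ⟨Y, hXY⟩ := hX
  have hXn : ¬ Function.Injective X := noninj hXu hu
  have hX1 : ¬ Function.Injective (1 - X : AddMonoid.End V) := by
    apply noninj (u := v) _ hv
    show v - X v = 0
    rw [hXv, sub_self]
  have e1 : X * Y = 0 := by
    have := RP_conj h1 hU f hf (cs := []) rfl hXY
    rw [val_nil, mul_one] at this
    exact kill hinj this (Or.inl hXn)
  have e2 : (1 - X) * (1 - Y) = 0 := by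
    have h2 : ((1, 1) - (X, Y) : AddMonoid.End V × AddMonoid.End V) ∈ RP f :=
      (RP f).sub_mem (word_mem f []) hXY
    have := RP_conj h1 hU f hf (cs := []) rfl h2
    rw [val_nil, mul_one] at this
    exact kill hinj this (Or.inl hX1)
  have e3 : Y = 1 - X := by
    have h2 : (1 - X) * (1 - Y) = 1 - X - Y + X * Y := by noncomm_ring
    rw [e2, e1, add_zero] at h2
    exact (sub_eq_zero.1 h2.symm).symm
  suffices hsuff : ∀ x, X * f x = f x * X from fun z hz => Rg_comm hsuff hz
  intro x
  have e4 : X * f x * Y = 0 := by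
    have := RP_conj h1 hU f hf (cs := [x]) rfl hXY
    rw [val_single] at this
    rw [mul_assoc] at this ⊢
    exact kill hinj this (Or.inl hXn)
  have e5 : Y * f x * X = 0 := by
    have := RP_conj h1 hU f hf (cs := [x]) rfl (RP_swap f hXY)
    rw [val_single] at this
    exact kill hinj this (Or.inr hXn)
  rw [e3] at e4 e5
  have e6 : X * f x * (1 - X) = X * f x - X * f x * X := by noncomm_ring
  have e7 : (1 - X) * f x * X = f x * X - X * f x * X := by noncomm_ring
  rw [e6, sub_eq_zero] at e4
  rw [e7, sub_eq_zero] at e5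
  rw [e4, e5]

theorem comm_two [Finite V] [Nontrivial V] {J : AddSubgroup (AddMonoid.End V)} (h1 : 1 ∈ J)
    (hU : ∀ x ∈ J, ∀ y ∈ J, x * y * x ∈ J) (hinj : ∀ x ∈ J, x ≠ 0 → Function.Injective x)
    {p : ℕ} (hp : p.Prime) (hpV : ∀ v : V, p • v = 0) {a b : AddMonoid.End V} (ha : a ∈ J)
    (hb : b ∈ J) : a * b = b * a := by
  classical
  haveI : Finite (AddMonoid.End V) := Finite.of_injective (fun f => (f : V → V))
    (fun f g h => DFunLike.coe_injective h)
  set f : Bool → AddMonoid.End V := fun x => if x then a else b with hfdef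
  have hf : ∀ x, f x ∈ J := by
    intro x; cases x
    · exact hb
    · exact ha
  have haR : a ∈ Rg f := gen_mem f true
  have hbR : b ∈ Rg f := gen_mem f false
  let R := Rg f
  haveI : Finite (Submodule R V) := Finite.of_injective (fun N => (N : Set V)) SetLike.coe_injective
  obtain ⟨V', hV'⟩ := IsAtomic.exists_atom (Submodule R V)
  haveI hsimp : IsSimpleModule R V' := isSimpleModule_iff_isAtom.2 hV'
  haveI : Nontrivial V' := IsSimpleModule.nontrivial R V'
  -- each element acts as zero or injectively
  have hzi : ∀ x : R, (∀ m : V', x • m = 0) ∨ ∀ m : V', x • m = 0 → m = 0 := by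
    intro x
    by_contra hc
    push Not at hc
    obtain ⟨⟨v, hv⟩, u, hu1, hu2⟩ := hc
    obtain ⟨y, hy⟩ := IsSimpleModule.toSpanSingleton_surjective R hv v
    rw [LinearMap.toSpanSingleton_apply] at hy
    have hv0 : v ≠ 0 := by
      rintro rfl
      rw [smul_zero] at hv
      exact hv rfl
    have hXv : ((y * x : R) : AddMonoid.End V) (v : V) = v := by
      have : (y * x) • v = v := by rw [mul_smul]; exact hy
      exact congrArg Subtype.val this
    have hXu : ((y * x : R) : AddMonoid.End V) (u : V) = 0 := by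
      have : (y * x) • u = 0 := by rw [mul_smul, hu1, smul_zero]
      exact congrArg Subtype.val this
    have hu2' : (u : V) ≠ 0 := fun h => hu2 (Subtype.ext h)
    have hv0' : (v : V) ≠ 0 := fun h => hv0 (Subtype.ext h)
    have hcomm := comm_step h1 hU hinj f hf (y * x).2 hu2' hv0' hXu hXv
    obtain ⟨z, hz⟩ := IsSimpleModule.toSpanSingleton_surjective R hu2 v
    rw [LinearMap.toSpanSingleton_apply] at hz
    have hz' : (z : AddMonoid.End V) (u : V) = v := congrArg Subtype.val hz
    have h3 : (((y * x : R) : AddMonoid.End V) * z) (u : V) =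
        ((z : AddMonoid.End V) * ((y * x : R) : AddMonoid.End V)) (u : V) := by
      rw [hcomm z z.2]
    have h4 : (((y * x : R) : AddMonoid.End V) * z) (u : V) = v := by
      show ((y * x : R) : AddMonoid.End V) ((z : AddMonoid.End V) (u : V)) = v
      rw [hz', hXv]
    have h5 : ((z : AddMonoid.End V) * ((y * x : R) : AddMonoid.End V)) (u : V) = 0 := by
      show (z : AddMonoid.End V) (((y * x : R) : AddMonoid.End V) (u : V)) = 0
      rw [hXu, map_zero]
    rw [h4, h5] at h3
    exact hv0' h3
  -- the image ring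
  let ρ := Module.toAddMonoidEnd R V'
  let D := RingHom.range (R := R) (S := AddMonoid.End V') ρ
  haveI : Finite (AddMonoid.End V') := Finite.of_injective (fun f => (f : V' → V'))
    (fun f g h => DFunLike.coe_injective h)
  haveI : Finite D := Subtype.finite
  haveI : Nontrivial D := by
    refine ⟨⟨0, 1, fun h => ?_⟩⟩
    obtain ⟨v, hv⟩ := exists_ne (0 : V')
    have : (0 : AddMonoid.End V') v = (1 : AddMonoid.End V') v := by
      rw [show (0 : AddMonoid.End V') = 1 from congrArg Subtype.val h]
    exact hv this.symm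
  haveI : NoZeroDivisors D := by
    refine ⟨?_⟩
    rintro ⟨_, x, rfl⟩ ⟨_, y, rfl⟩ hxy
    have hxy' : ∀ m : V', x • y • m = 0 := by
      intro m
      have : (ρ x * ρ y) m = 0 := by
        rw [show ρ x * ρ y = 0 from congrArg Subtype.val hxy]; rfl
      exact this
    rcases hzi x with h2 | h2
    · left
      apply Subtype.ext
      ext m
      exact congrArg Subtype.val (h2 m)
    · right
      apply Subtype.ext
      ext m
      exact congrArg Subtype.val (h2 _ (hxy' m))
  haveI : IsDomain D := NoZeroDivisors.to_isDomain D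
  have hfield := Finite.isDomain_to_isField D
  have hcommD : ∀ (x y : R) (m : V'), x • y • m = y • x • m := by
    intro x y m
    have := hfield.mul_comm ⟨ρ x, x, rfl⟩ ⟨ρ y, y, rfl⟩
    have h2 : ρ x * ρ y = ρ y * ρ x := congrArg Subtype.val this
    have h3 : (ρ x * ρ y) m = (ρ y * ρ x) m := by rw [h2]
    exact h3
  -- the commutator
  set c := a * b - b * a with hc
  have hcV : ∀ m : V', c (m : V) = 0 := by
    intro m
    have h2 := congrArg Subtype.val (hcommD ⟨a, haR⟩ ⟨b, hbR⟩ m)
    have h3 : a (b (m : V)) = b (a (m : V)) := h2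
    show a (b (m : V)) - b (a (m : V)) = 0
    rw [h3, sub_self]
  obtain ⟨v0, hv0⟩ := exists_ne (0 : V')
  have hv0' : (v0 : V) ≠ 0 := fun h => hv0 (Subtype.ext h)
  have hsq : ∀ x ∈ J, x * x ∈ J := by
    intro x hx
    have := hU x hx 1 h1
    rwa [mul_one] at this
  have hvan : ∀ (x : AddMonoid.End V) (hx : x ∈ R), x * c - c * x ∈ J → x * c = c * x := by
    intro x hx hd
    by_contra h2
    have h3 := hinj _ hd (sub_ne_zero.2 h2)
    apply hv0'
    apply h3
    rw [map_zero]
    show x (c (v0 : V)) - c (x (v0 : V)) = 0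
    have h4 := hcV v0
    have h5 := hcV ((⟨x, hx⟩ : R) • v0)
    have h6 : c (x (v0 : V)) = 0 := h5
    rw [h4, h6, map_zero, sub_zero]
  have hac : a * c = c * a := by
    apply hvan a haR
    have e : a * c - c * a = (a * a * b + b * (a * a)) - (a * b * a + a * b * a) := by
      rw [hc]; noncomm_ring
    rw [e]
    exact J.sub_mem (jord h1 hU (hsq a ha) hb) (J.add_mem (hU a ha b hb) (hU a ha b hb))
  -- powers
  have hpow : ∀ k : ℕ, a ^ (k + 1) * b = b * a ^ (k + 1) + (k + 1) • (a ^ k * c) := by
    intro k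
    induction k with
    | zero => rw [zero_add, pow_one, pow_zero, one_mul, one_smul, hc]; abel
    | succ k ih =>
      have h2 : a ^ (k + 1) * c = c * a ^ (k + 1) :=
        ((show Commute a c from hac).pow_left (k + 1)).eq
      have e1 : a ^ (k + 1 + 1) * b = a * (a ^ (k + 1) * b) := by
        rw [pow_succ' a (k + 1), mul_assoc]
      rw [e1, ih, mul_add, ← mul_assoc, mul_smul_comm, ← mul_assoc, ← pow_succ']
      have e2 : a * b * a ^ (k + 1) = b * a ^ (k + 1 + 1) + c * a ^ (k + 1) := by
        rw [hc, pow_succ' a (k + 1)]; noncomm_ring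
      rw [e2, ← h2, add_assoc]
      congr 1
      rw [add_smul (k + 1) 1, one_smul, add_comm]
  have hpE : ∀ x : AddMonoid.End V, p • x = 0 := by
    intro x
    ext v
    show (p • x) v = 0
    have : (p • x) v = p • x v := rfl
    rw [this]; exact hpV _
  have hapb : a ^ p * b = b * a ^ p := by
    obtain ⟨k, hk⟩ := Nat.exists_eq_succ_of_ne_zero hp.pos.ne'
    have hk' : p = k + 1 := hk
    have := hpow k
    rw [← hk', hpE, add_zero] at this
    exact this
  by_cases ha0 : a = 0
  · rw [ha0, zero_mul, mul_zero]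
  -- unit
  have hainj := hinj a ha ha0
  have habij : Function.Bijective a := ⟨hainj, Finite.surjective_of_injective hainj⟩
  let e : V ≃+ V := AddEquiv.ofBijective a habij
  let u : (AddMonoid.End V)ˣ := ⟨a, e.symm.toAddMonoidHom,
    by ext v; exact e.apply_symm_apply v, by ext v; exact e.symm_apply_apply v⟩
  have hJpow : ∀ k : ℕ, a ^ k ∈ J ∧ a ^ (k + 1) ∈ J := by
    intro k
    induction k with
    | zero => exact ⟨by rw [pow_zero]; exact h1, by rw [zero_add, pow_one]; exact ha⟩
    | succ k ih =>
      refine ⟨ih.2, ?_⟩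
      have : a ^ (k + 1 + 1) = a * a ^ k * a := by rw [pow_succ, pow_succ']
      rw [this]
      exact hU a ha _ ih.1
  haveI : Fact p.Prime := ⟨hp⟩
  haveI hnt : Nontrivial (AddMonoid.End V) := by
    refine ⟨⟨0, 1, fun h => ?_⟩⟩
    obtain ⟨v, hv⟩ := exists_ne (0 : V)
    have : (0 : AddMonoid.End V) v = (1 : AddMonoid.End V) v := by rw [h]
    exact hv this.symm
  haveI : CharP (AddMonoid.End V) p := by
    refine ⟨fun x => ?_⟩
    have h0 : ((p : ℕ) : AddMonoid.End V) = 0 := by
      have := hpE 1
      rwa [nsmul_one] at this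
    constructor
    · intro hx
      by_contra hnd
      have hcop : Nat.Coprime x p := ((Nat.Prime.coprime_iff_not_dvd hp).2 hnd).symm
      have h2 : ((1 : ℤ) : AddMonoid.End V) = 0 := by
        have h3 := Nat.gcd_eq_gcd_ab x p
        rw [hcop.gcd_eq_one] at h3
        have h4 : ((1 : ℤ) : AddMonoid.End V) =
            ((x : ℤ) * x.gcdA p + p * x.gcdB p : ℤ) := by
          rw [← h3]; norm_num
        rw [h4]
        push_cast
        rw [hx, h0]; simp
      rw [Int.cast_one] at h2
      exact one_ne_zero h2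
    · rintro ⟨k, rfl⟩
      rw [Nat.cast_mul, h0, zero_mul]
  have hcop : p.Coprime (orderOf u) := by
    rw [Nat.Prime.coprime_iff_not_dvd hp]
    rintro ⟨k, hk⟩
    have hN := orderOf_pos u
    have hk0 : 0 < k := by
      rcases Nat.eq_zero_or_pos k with h2 | h2
      · rw [h2, mul_zero] at hk; omega
      · exact h2
    have h2 : (u ^ k) ^ p = 1 := by rw [← pow_mul, mul_comm, ← hk, pow_orderOf_eq_one]
    have h3 : (a ^ k) ^ p = 1 := by
      have := congrArg Units.val h2
      rw [Units.val_pow_eq_pow_val, Units.val_pow_eq_pow_val] at this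
      exact this
    have h4 : (a ^ k - 1) ^ p = 0 := by
      rw [sub_pow_char_of_commute _ (Commute.one_right _), h3, one_pow, sub_self]
    have h5 : a ^ k - 1 = 0 := by
      by_contra h6
      have h7 := hinj _ (J.sub_mem (hJpow k).1 h1) h6
      have h8 : ∀ m : ℕ, Function.Injective ((a ^ k - 1) ^ m : AddMonoid.End V) := by
        intro m
        induction m with
        | zero =>
          rw [pow_zero]
          exact fun x y hxy => hxy
        | succ m ih =>
          rw [pow_succ]
          have : ⇑((a ^ k - 1) ^ m * (a ^ k - 1) : AddMonoid.End V) =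
            ⇑((a ^ k - 1) ^ m : AddMonoid.End V) ∘ ⇑(a ^ k - 1 : AddMonoid.End V) := rfl
          rw [this]
          exact ih.comp h7
      have h9 := h8 p
      rw [h4] at h9
      obtain ⟨v, hv⟩ := exists_ne (0 : V)
      exact hv (h9 rfl)
    have h6 : u ^ k = 1 := by
      apply Units.ext
      rw [Units.val_pow_eq_pow_val, Units.val_one]
      exact sub_eq_zero.1 h5
    have h7 := Nat.le_of_dvd hk0 (orderOf_dvd_of_pow_eq_one h6)
    rw [hk] at h7
    have := hp.two_le
    nlinarith
  obtain ⟨m, hm⟩ := exists_pow_eq_self_of_coprime hcop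
  have hm' : (a ^ p) ^ m = a := by
    have := congrArg Units.val hm
    rw [Units.val_pow_eq_pow_val, Units.val_pow_eq_pow_val] at this
    exact this
  have hfin : Commute ((a ^ p) ^ m) b := (show Commute (a ^ p) b from hapb).pow_left m
  rw [hm'] at hfin
  exact hfin.eq

/-- the final algebraic statement: `J` is the carrier of a field -/
theorem alg_field [Finite V] [Nontrivial V] {J : AddSubgroup (AddMonoid.End V)} (h1 : 1 ∈ J)
    (hU : ∀ x ∈ J, ∀ y ∈ J, x * y * x ∈ J) (hinj : ∀ x ∈ J, x ≠ 0 → Function.Injective x)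
    {p : ℕ} (hp : p.Prime) (hpV : ∀ v : V, p • v = 0) (hcard : Nat.card J = Nat.card V) :
    ∃ K : Subring (AddMonoid.End V), K.toAddSubgroup = J ∧ IsField K ∧
      ∀ v0 v : V, v0 ≠ 0 → ∃ x ∈ K, x v0 = v := by
  classical
  haveI : Finite (AddMonoid.End V) := Finite.of_injective (fun f => (f : V → V))
    (fun f g h => DFunLike.coe_injective h)
  have hcomm : ∀ a ∈ J, ∀ b ∈ J, a * b = b * a := fun a ha b hb =>
    comm_two h1 hU hinj hp hpV ha hb
  -- transitivity
  have htr : ∀ v0 v : V, v0 ≠ 0 → ∃ x ∈ J, x v0 = v := by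
    intro v0 v hv0
    have hi : Function.Injective (fun x : J => (x : AddMonoid.End V) v0) := by
      intro x y hxy
      by_contra hne
      have h2 : (x : AddMonoid.End V) - y ≠ 0 := fun h => hne (Subtype.ext (sub_eq_zero.1 h))
      have h3 := hinj _ (J.sub_mem x.2 y.2) h2
      apply hv0
      apply h3
      rw [map_zero]
      show (x : AddMonoid.End V) v0 - (y : AddMonoid.End V) v0 = 0
      rw [sub_eq_zero]; exact hxy
    have hb := (Nat.bijective_iff_injective_and_card _).2 ⟨hi, hcard⟩
    obtain ⟨x, hx⟩ := hb.2 v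
    exact ⟨x, x.2, hx⟩
  -- the generated subring
  set K := Subring.closure (J : Set (AddMonoid.End V)) with hK
  have hKcomm : ∀ a ∈ K, ∀ b ∈ K, a * b = b * a := by
    intro a ha b hb
    have hcl := Subring.closureCommRingOfComm (s := (J : Set (AddMonoid.End V)))
      (fun a ha b hb => hcomm a ha b hb)
    have h2 : ∀ b ∈ J, ∀ a ∈ K, a * b = b * a := by
      intro b hb a ha
      induction ha using Subring.closure_induction with
      | mem x hx => exact hcomm x hx b hb
      | zero => rw [zero_mul, mul_zero]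
      | one => rw [one_mul, mul_one]
      | add x y _ _ hx hy => rw [add_mul, hx, hy, mul_add]
      | neg x _ hx => rw [neg_mul, hx, mul_neg]
      | mul x y _ _ hx hy => rw [mul_assoc, hy, ← mul_assoc, hx, mul_assoc]
    induction hb using Subring.closure_induction with
    | mem x hx => exact h2 x hx a ha
    | zero => rw [zero_mul, mul_zero]
    | one => rw [one_mul, mul_one]
    | add x y _ _ hx hy => rw [mul_add, hx, hy, add_mul]
    | neg x _ hx => rw [neg_mul, ← hx, mul_neg]
    | mul x y _ _ hx hy => rw [← mul_assoc, hx, mul_assoc, hy, mul_assoc]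
  obtain ⟨v0, hv0⟩ := exists_ne (0 : V)
  have hKJ : ∀ s ∈ K, s ∈ J := by
    intro s hs
    obtain ⟨x, hx, hxs⟩ := htr v0 (s v0) hv0
    have : s = x := by
      ext v
      obtain ⟨y, hy, hyv⟩ := htr v0 v hv0
      have hyK : y ∈ K := Subring.subset_closure hy
      have hxK : x ∈ K := Subring.subset_closure hx
      have e1 : (s * y) v0 = (y * s) v0 := by rw [hKcomm s hs y hyK]
      have e2 : (x * y) v0 = (y * x) v0 := by rw [hKcomm x hxK y hyK]
      have e1' : s (y v0) = y (s v0) := e1
      have e2' : x (y v0) = y (x v0) := e2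
      rw [hyv] at e1' e2'
      rw [e1', e2', hxs]
    rw [this]; exact hx
  refine ⟨K, ?_, ?_, ?_⟩
  · ext x
    exact ⟨fun hx => hKJ x hx, fun hx => Subring.subset_closure hx⟩
  · haveI : Finite K := Subtype.finite
    haveI : Nontrivial K := by
      refine ⟨⟨0, 1, fun h => ?_⟩⟩
      have : (0 : AddMonoid.End V) v0 = (1 : AddMonoid.End V) v0 := by
        rw [show (0 : AddMonoid.End V) = 1 from congrArg Subtype.val h]
      exact hv0 this.symm
    haveI : NoZeroDivisors K := by
      refine ⟨?_⟩
      intro x y hxy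
      by_contra hc
      push Not at hc
      have hx := hinj _ (hKJ _ x.2) (fun h => hc.1 (Subtype.ext h))
      have hy := hinj _ (hKJ _ y.2) (fun h => hc.2 (Subtype.ext h))
      apply hv0
      apply hy
      apply hx
      rw [map_zero, map_zero]
      have : ((x : AddMonoid.End V) * (y : AddMonoid.End V)) v0 = 0 := by
        rw [show (x : AddMonoid.End V) * (y : AddMonoid.End V) = 0 from congrArg Subtype.val hxy]
        rfl
      exact this
    haveI : IsDomain K := NoZeroDivisors.to_isDomain K
    exact Finite.isDomain_to_isField K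
  · intro v0 v hv0
    obtain ⟨x, hx, h⟩ := htr v0 v hv0
    exact ⟨x, Subring.subset_closure hx, h⟩

end comm

end Cfsg.Agent.Lib.OW
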