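import Mathlib

/-! # Finite special Jordan division rings: algebra -/

set_option autoImplicit false

namespace Cfsg.Agent.Lib.OW

universe u

section cohn

variable {E : Type u} [Ring E] {J : AddSubgroup E}

/-- inverse-closed pair gives closure under `x y x` -/
theorem hua {J J' : AddSubgroup E} (h1 : (1 : E) ∈ J)
    (hJ : ∀ x ∈ J, x ≠ 0 → ∃ y ∈ J', x * y = 1 ∧ y * x = 1)
    (hJ' : ∀ x ∈ J', x ≠ 0 → ∃ y ∈ J, x * y = 1 ∧ y * x = 1) :
    ∀ x ∈ J, ∀ y ∈ J, x * y * x ∈ J := by
  by_cases h10 : (1 : E) = 0
  · intro x _ y _
    have : x * y * x = 0 := by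
      have := mul_one (x * y * x)
      rw [← this, h10, mul_zero]
    rw [this]; exact J.zero_mem
  -- step 1
  have step1 : ∀ m ∈ J, ∀ d ∈ J, ∀ d', m ≠ 0 → d * d' = 1 → d' * d = 1 → m * d' * m ∈ J := by
    intro m hm d hd d' hm0 hd1 hd2
    obtain ⟨m', hm', hm1, hm2⟩ := hJ m hm hm0
    by_cases hk : m + d = 0
    · have e1 : d = -m := (neg_eq_of_add_eq_zero_right hk).symm
      have e2 : d' = -m' := by
        calc d' = (m' * m) * d' := by rw [hm2, one_mul]
          _ = - (m' * (d * d')) := by rw [e1]; noncomm_ring
          _ = -m' := by rw [hd1, mul_one]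
      rw [e2]
      have : m * -m' * m = -m := by
        rw [mul_neg, neg_mul, hm1, one_mul]
      rw [this]
      exact J.neg_mem hm
    · obtain ⟨k', hk', hk1, hk2⟩ := hJ (m + d) (J.add_mem hm hd) hk
      have hne : m' - k' ≠ 0 := by
        intro h2
        have h3 : m' = k' := sub_eq_zero.1 h2
        subst h3
        have h4 : (m + d) = m := by
          calc m + d = (m * m') * (m + d) := by rw [hm1, one_mul]
            _ = m * (m' * (m + d)) := by rw [mul_assoc]
            _ = m := by rw [hk2, mul_one]
        have h5 : d = 0 := by simpa using h4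
        rw [h5, zero_mul] at hd1
        exact h10 hd1.symm
      obtain ⟨z, hz, hz1, hz2⟩ := hJ' (m' - k') (J'.sub_mem hm' hk') hne
      have e1 : m * d' * (m + d) * (m' - k') = 1 := by
        calc m * d' * (m + d) * (m' - k')
            = m * d' * ((m + d) * m') - m * d' * ((m + d) * k') := by noncomm_ring
          _ = m * d' * (m * m' + d * m') - m * d' := by rw [hk1]; noncomm_ring
          _ = m * (d' * d) * m' := by rw [hm1]; noncomm_ring
          _ = 1 := by rw [hd2, mul_one, hm1]
      have e2 : m * d' * (m + d) = z := by
        calc m * d' * (m + d) = m * d' * (m + d) * ((m' - k') * z) := by rw [hz1, mul_one]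
          _ = (m * d' * (m + d) * (m' - k')) * z := by noncomm_ring
          _ = z := by rw [e1, one_mul]
      have e3 : m * d' * m = z - m := by
        rw [← e2, mul_add, mul_assoc m d' d, hd2, mul_one]
        abel
      rw [e3]
      exact J.sub_mem hz hm
  have step2 : ∀ d ∈ J, d ≠ 0 → ∃ d' ∈ J, d * d' = 1 ∧ d' * d = 1 := by
    intro d hd hd0
    obtain ⟨d', -, hd1, hd2⟩ := hJ d hd hd0
    have := step1 1 h1 d hd d' h10 hd1 hd2
    rw [one_mul, mul_one] at this
    exact ⟨d', this, hd1, hd2⟩
  intro x hx y hy
  by_cases hx0 : x = 0
  · rw [hx0, mul_zero]; exact J.zero_mem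
  by_cases hy0 : y = 0
  · rw [hy0, mul_zero, zero_mul]; exact J.zero_mem
  obtain ⟨y', hy', hy1, hy2⟩ := step2 y hy hy0
  exact step1 x hx y' hy' y hx0 hy2 hy1

variable (h1 : (1 : E) ∈ J) (hU : ∀ x ∈ J, ∀ y ∈ J, x * y * x ∈ J)

include hU in
theorem lin3 {x y z : E} (hx : x ∈ J) (hy : y ∈ J) (hz : z ∈ J) : x * y * z + z * y * x ∈ J := by
  have e : x * y * z + z * y * x = (x + z) * y * (x + z) - x * y * x - z * y * z := by
    noncomm_ring
  rw [e]
  exact J.sub_mem (J.sub_mem (hU _ (J.add_mem hx hz) _ hy) (hU _ hx _ hy)) (hU _ hz _ hy)

include h1 hU in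
theorem jord {x z : E} (hx : x ∈ J) (hz : z ∈ J) : x * z + z * x ∈ J := by
  have := lin3 hU hx h1 hz
  rwa [mul_one, mul_one] at this

variable (f : Bool → E)

/-- value of a word -/
def val (w : List Bool) : E := (w.map f).prod

theorem val_nil : val f [] = 1 := rfl
theorem val_cons (x : Bool) (w : List Bool) : val f (x :: w) = f x * val f w := by
  simp [val]
theorem val_append (w v : List Bool) : val f (w ++ v) = val f w * val f v := by
  simp [val]
theorem val_single (x : Bool) : val f [x] = f x := by simp [val]

/-- symmetrized word -/
def S (w : List Bool) : E := val f w + val f w.reverse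

variable (hf : ∀ x, f x ∈ J)

include h1 hU hf in
theorem val_pal {w : List Bool} (hw : w.Palindrome) : val f w ∈ J := by
  induction hw with
  | nil => exact h1
  | singleton x => rw [val_single]; exact hf x
  | cons_concat x _ ih =>
    rw [val_cons, val_append, val_single, ← mul_assoc]
    exact hU _ (hf x) _ ih

include hU hf in
theorem S_same {x : Bool} {u : List Bool} (hu : S f u ∈ J) : S f (x :: (u ++ [x])) ∈ J := by
  have e : S f (x :: (u ++ [x])) = f x * S f u * f x := by
    unfold S
    have : (x :: (u ++ [x])).reverse = x :: (u.reverse ++ [x]) := by simp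
    rw [this]
    simp only [val_cons, val_append, val_nil]
    noncomm_ring
  rw [e]
  exact hU _ (hf x) _ hu

include h1 hU in
theorem S_rot {p u : List Bool} (hp : p.reverse = p) (hpJ : val f p ∈ J) (hu : S f u ∈ J) :
    S f (p ++ u) + S f (u ++ p) ∈ J := by
  have e : S f (p ++ u) + S f (u ++ p) = val f p * S f u + S f u * val f p := by
    unfold S
    rw [List.reverse_append, List.reverse_append, hp, val_append, val_append, val_append,
      val_append]
    noncomm_ring
  rw [e]
  exact jord h1 hU hpJ hu

/-- alternating word ending with `z`, of length `j+1` -/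
def alt (z : Bool) : ℕ → List Bool
  | 0 => [z]
  | j + 1 => alt (!z) j ++ [z]

theorem alt_length (z : Bool) (j : ℕ) : (alt z j).length = j + 1 := by
  induction j generalizing z with
  | zero => rfl
  | succ j ih => rw [alt, List.length_append, ih]; rfl

theorem alt_cons (z : Bool) (j : ℕ) : ∃ x, alt z (j + 1) = x :: alt z j ∧
    (Even (j + 1) → x = z) := by
  induction j generalizing z with
  | zero => exact ⟨!z, rfl, by simp⟩
  | succ j ih =>
    obtain ⟨x, hx, hx2⟩ := ih (!z)
    refine ⟨x, ?_, ?_⟩
    · rw [alt, hx, List.cons_append]
      rfl
    · intro he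
      -- j + 2 even means j even; x is first letter of alt (!z) (j+1)
      clear hx2
      have key : ∀ (i : ℕ) (z x : Bool) (l : List Bool), alt z i = x :: l → (Even i → x = z) ∧
          (Odd i → x = !z) := by
        intro i
        induction i with
        | zero =>
          intro z x l h
          have : z = x := by
            simp only [alt, List.cons.injEq] at h
            exact h.1
          exact ⟨fun _ => this.symm, fun h => absurd h (by simp)⟩
        | succ i ihi =>
          intro z x l h
          have hne : alt (!z) i ≠ [] := by
            intro h2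
            have := alt_length (!z) i
            rw [h2] at this
            simp at this
          obtain ⟨y, l', hl'⟩ := List.exists_cons_of_ne_nil hne
          have h3 : y = x := by
            rw [alt, hl', List.cons_append] at h
            simp only [List.cons.injEq] at h
            exact h.1
          subst h3
          obtain ⟨h4, h5⟩ := ihi (!z) y l' hl'
          constructor
          · intro he
            have : Odd i := by
              rcases Nat.even_or_odd i with h6 | h6
              · exact absurd he (Nat.not_even_iff_odd.2 h6.add_one)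
              · exact h6
            rw [h5 this, Bool.not_not]
          · intro ho
            have : Even i := by
              rcases Nat.even_or_odd i with h6 | h6
              · exact h6
              · exact absurd ho (Nat.not_odd_iff_even.2 h6.add_one)
            exact h4 this
      have ho : Odd (j + 1) := by
        rcases Nat.even_or_odd (j + 1) with h6 | h6
        · exact absurd he (Nat.not_even_iff_odd.2 h6.add_one)
        · exact h6
      have := (key (j + 1) (!z) x _ hx).2 ho
      rw [this, Bool.not_not]

theorem alt_pal (z : Bool) (i : ℕ) : (alt z (2 * i)).Palindrome := by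
  induction i generalizing z with
  | zero => exact List.Palindrome.singleton z
  | succ i ih =>
    obtain ⟨x, hx, hx2⟩ := alt_cons z (2 * i + 1)
    have hxz : x = z := hx2 ⟨i + 1, by ring⟩
    subst hxz
    have e : alt x (2 * (i + 1)) = x :: (alt (!x) (2 * i) ++ [x]) := hx
    rw [e]
    exact List.Palindrome.cons_concat x (ih (!x))

/-- last letter of an alternating word -/
theorem alt_last (z : Bool) (j : ℕ) : ∃ l, alt z j = l ++ [z] := by
  cases j with
  | zero => exact ⟨[], rfl⟩
  | succ j => exact ⟨alt (!z) j, rfl⟩

include h1 hU hf in
/-- Cohn: symmetrized words in two generators lie in `J` -/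
theorem cohn : ∀ (N : ℕ) (w : List Bool), w.length = N → S f w ∈ J := by
  intro N
  induction N using Nat.strong_induction_on with
  | _ N IH =>
  intro w hw
  cases w with
  | nil =>
    have : S f [] = 1 + 1 := rfl
    rw [this]; exact J.add_mem h1 h1
  | cons z0 u0 =>
    have claim : ∀ (u : List Bool) (j : ℕ) (z : Bool), (alt z j ++ u).length = N →
        S f (alt z j ++ u) ∈ J := by
      intro u
      induction u with
      | nil =>
        intro j z hlen
        rw [List.append_nil] at hlen ⊢
        rcases Nat.even_or_odd' j with ⟨i, rfl | rfl⟩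
        · have hp := alt_pal z i
          have : S f (alt z (2 * i)) = val f (alt z (2 * i)) + val f (alt z (2 * i)) := by
            unfold S
            rw [hp.reverse_eq]
          rw [this]
          exact J.add_mem (val_pal h1 hU f hf hp) (val_pal h1 hU f hf hp)
        · obtain ⟨x, hx, -⟩ := alt_cons z (2 * i)
          have hp := alt_pal z i
          have : S f (alt z (2 * i + 1)) = f x * val f (alt z (2 * i)) +
              val f (alt z (2 * i)) * f x := by
            unfold S
            rw [hx, List.reverse_cons, hp.reverse_eq, val_cons, val_append, val_single]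
          rw [this]
          exact jord h1 hU (hf x) (val_pal h1 hU f hf hp)
      | cons y u' ih =>
        intro j z hlen
        by_cases hyz : y = !z
        · subst hyz
          have e : alt z j ++ (!z) :: u' = alt (!z) (j + 1) ++ u' := by
            rw [alt, Bool.not_not, List.append_assoc]
            rfl
          rw [e] at hlen ⊢
          exact ih (j + 1) (!z) hlen
        · have hyz' : y = z := by
            cases y <;> cases z <;> simp_all
          subst hyz'
          rw [List.length_append, alt_length, List.length_cons] at hlen
          rcases Nat.even_or_odd' j with ⟨i, rfl | rfl⟩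
          · have hp := alt_pal y i
            obtain ⟨l, hl⟩ := alt_last y (2 * i)
            have hll : l.length = 2 * i := by
              have := alt_length y (2 * i)
              rw [hl, List.length_append] at this
              simpa using this
            have r1 := S_rot (p := alt y (2 * i)) (u := y :: u') h1 hU f hp.reverse_eq
              (val_pal h1 hU f hf hp) (IH (u'.length + 1) (by omega) _ (by simp))
            have r2 : S f ((y :: u') ++ alt y (2 * i)) ∈ J := by
              have e : (y :: u') ++ alt y (2 * i) = y :: ((u' ++ l) ++ [y]) := by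
                rw [hl]; simp
              rw [e]
              exact S_same hU f hf (IH (u'.length + 2 * i) (by omega) _ (by
                rw [List.length_append, hll]))
            have := J.sub_mem r1 r2
            rwa [add_sub_cancel_right] at this
          · obtain ⟨x, hx, -⟩ := alt_cons y (2 * i)
            have hp := alt_pal y i
            obtain ⟨l, hl⟩ := alt_last y (2 * i)
            have hll : l.length = 2 * i := by
              have := alt_length y (2 * i)
              rw [hl, List.length_append] at this
              simpa using this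
            have hlp : (alt y (2 * i)).length = 2 * i + 1 := alt_length y (2 * i)
            -- first rotation
            have r1 := S_rot (p := [x]) (u := alt y (2 * i) ++ y :: u') h1 hU f rfl
              (by rw [val_single]; exact hf x)
              (IH (2 * i + 1 + (u'.length + 1)) (by omega) _ (by
                rw [List.length_append, hlp, List.length_cons]))
            have r2 := S_rot (p := alt y (2 * i)) (u := (y :: u') ++ [x]) h1 hU f hp.reverse_eq
              (val_pal h1 hU f hf hp) (IH (u'.length + 2) (by omega) _ (by simp))
            have r3 : S f (((y :: u') ++ [x]) ++ alt y (2 * i)) ∈ J := by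
              have e : ((y :: u') ++ [x]) ++ alt y (2 * i) = y :: ((u' ++ [x] ++ l) ++ [y]) := by
                rw [hl]; simp
              rw [e]
              exact S_same hU f hf (IH (u'.length + 1 + 2 * i) (by omega) _ (by
                rw [List.length_append, List.length_append, hll]; rfl))
            have e1 : alt y (2 * i + 1) ++ y :: u' = [x] ++ (alt y (2 * i) ++ y :: u') := by
              rw [hx]; rfl
            have e2 : (alt y (2 * i) ++ y :: u') ++ [x] = alt y (2 * i) ++ ((y :: u') ++ [x]) := by
              simp
            rw [e1]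
            rw [e2] at r1
            have := J.add_mem (J.sub_mem r1 r2) r3
            have e3 : S f ([x] ++ (alt y (2 * i) ++ y :: u')) +
                S f (alt y (2 * i) ++ ((y :: u') ++ [x])) -
                (S f (alt y (2 * i) ++ ((y :: u') ++ [x])) +
                S f (((y :: u') ++ [x]) ++ alt y (2 * i))) +
                S f (((y :: u') ++ [x]) ++ alt y (2 * i)) =
                S f ([x] ++ (alt y (2 * i) ++ y :: u')) := by abel
            rwa [e3] at this
    exact claim u0 0 z0 hw

/-- reversal pairs -/
def RP : AddSubgroup (E × E) :=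
  AddSubgroup.closure (Set.range fun w : List Bool => (val f w, val f w.reverse))

theorem word_mem (w : List Bool) : (val f w, val f w.reverse) ∈ RP f :=
  AddSubgroup.subset_closure ⟨w, rfl⟩

theorem RP_swap {x : E × E} (hx : x ∈ RP f) : (x.2, x.1) ∈ RP f := by
  unfold RP at hx
  induction hx using AddSubgroup.closure_induction with
  | mem x hx =>
    obtain ⟨w, rfl⟩ := hx
    have := word_mem f w.reverse
    rwa [List.reverse_reverse] at this
  | zero => exact (RP f).zero_mem
  | add x y _ _ hx hy => exact (RP f).add_mem hx hy
  | neg x _ hx => exact (RP f).neg_mem hx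

theorem RP_mul {x y : E × E} (hx : x ∈ RP f) (hy : y ∈ RP f) : (x.1 * y.1, y.2 * x.2) ∈ RP f := by
  unfold RP at hx hy
  induction hx, hy using AddSubgroup.closure_induction₂ with
  | mem x y hx hy =>
    obtain ⟨w, rfl⟩ := hx
    obtain ⟨v, rfl⟩ := hy
    have := word_mem f (w ++ v)
    rwa [List.reverse_append, val_append, val_append] at this
  | zero_left y _ => simp only [Prod.fst_zero, Prod.snd_zero, zero_mul, mul_zero]; exact (RP f).zero_mem
  | zero_right x _ => simp only [Prod.fst_zero, Prod.snd_zero, zero_mul, mul_zero]; exact (RP f).zero_mem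
  | add_left x y z _ _ _ h1 h2 =>
    have := (RP f).add_mem h1 h2
    simpa [add_mul, mul_add] using this
  | add_right x y z _ _ _ h1 h2 =>
    have := (RP f).add_mem h1 h2
    simpa [add_mul, mul_add] using this
  | neg_left x y _ _ h1 =>
    have := (RP f).neg_mem h1
    simpa using this
  | neg_right x y _ _ h1 =>
    have := (RP f).neg_mem h1
    simpa using this

include h1 hU hf in
theorem RP_add {x : E × E} (hx : x ∈ RP f) : x.1 + x.2 ∈ J := by
  unfold RP at hx
  induction hx using AddSubgroup.closure_induction with
  | mem x hx =>
    obtain ⟨w, rfl⟩ := hx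
    exact cohn h1 hU f hf _ w rfl
  | zero => simpa using J.zero_mem
  | add x y _ _ hx hy =>
    have e : (x + y).1 + (x + y).2 = (x.1 + x.2) + (y.1 + y.2) := by
      simp only [Prod.fst_add, Prod.snd_add]; abel
    rw [e]; exact J.add_mem hx hy
  | neg x _ hx =>
    have e : (-x).1 + (-x).2 = -(x.1 + x.2) := by
      simp only [Prod.fst_neg, Prod.snd_neg]; abel
    rw [e]; exact J.neg_mem hx

include h1 hU hf in
theorem RP_bil {cs : List Bool} (hcs : cs.reverse = cs) {x y : E × E} (hx : x ∈ RP f)
    (hy : y ∈ RP f) : x.1 * val f cs * y.2 + y.1 * val f cs * x.2 ∈ J := by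
  unfold RP at hx hy
  induction hx, hy using AddSubgroup.closure_induction₂ with
  | mem x y hx hy =>
    obtain ⟨w, rfl⟩ := hx
    obtain ⟨v, rfl⟩ := hy
    have := cohn h1 hU f hf _ (w ++ cs ++ v.reverse) rfl
    unfold S at this
    rw [List.reverse_append, List.reverse_append, hcs, List.reverse_reverse] at this
    simp only [val_append] at this
    rw [← mul_assoc] at this
    exact this
  | zero_left y _ => simpa using J.zero_mem
  | zero_right x _ => simpa using J.zero_mem
  | add_left x y z _ _ _ h1 h2 =>
    have e : (x + y).1 * val f cs * z.2 + z.1 * val f cs * (x + y).2 =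
      (x.1 * val f cs * z.2 + z.1 * val f cs * x.2) +
      (y.1 * val f cs * z.2 + z.1 * val f cs * y.2) := by
      simp only [Prod.fst_add, Prod.snd_add]; noncomm_ring
    rw [e]; exact J.add_mem h1 h2
  | add_right x y z _ _ _ h1 h2 =>
    have e : z.1 * val f cs * (x + y).2 + (x + y).1 * val f cs * z.2 =
      (z.1 * val f cs * x.2 + x.1 * val f cs * z.2) +
      (z.1 * val f cs * y.2 + y.1 * val f cs * z.2) := by
      simp only [Prod.fst_add, Prod.snd_add]; noncomm_ring
    rw [e]; exact J.add_mem h1 h2
  | neg_left x y _ _ h1 =>
    have e : (-x).1 * val f cs * y.2 + y.1 * val f cs * (-x).2 =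
      -(x.1 * val f cs * y.2 + y.1 * val f cs * x.2) := by
      simp only [Prod.fst_neg, Prod.snd_neg]; noncomm_ring
    rw [e]; exact J.neg_mem h1
  | neg_right x y _ _ h1 =>
    have e : x.1 * val f cs * (-y).2 + (-y).1 * val f cs * x.2 =
      -(x.1 * val f cs * y.2 + y.1 * val f cs * x.2) := by
      simp only [Prod.fst_neg, Prod.snd_neg]; noncomm_ring
    rw [e]; exact J.neg_mem h1

include h1 hU hf in
theorem pal_conj {cs : List Bool} (hcs : cs.reverse = cs) (w : List Bool) :
    val f w * val f cs * val f w.reverse ∈ J := by
  induction w with
  | nil =>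
    rw [List.reverse_nil, val_nil, one_mul, mul_one]
    exact val_pal h1 hU f hf (List.Palindrome.of_reverse_eq hcs)
  | cons x w ih =>
    have e : val f (x :: w) * val f cs * val f (x :: w).reverse =
        f x * (val f w * val f cs * val f w.reverse) * f x := by
      rw [val_cons, List.reverse_cons, val_append, val_single]
      noncomm_ring
    rw [e]
    exact hU _ (hf x) _ ih

include h1 hU hf in
theorem RP_conj {cs : List Bool} (hcs : cs.reverse = cs) {x : E × E} (hx : x ∈ RP f) :
    x.1 * val f cs * x.2 ∈ J := by
  have hx' := hx
  unfold RP at hx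
  induction hx using AddSubgroup.closure_induction with
  | mem x hx =>
    obtain ⟨w, rfl⟩ := hx
    exact pal_conj h1 hU f hf hcs w
  | zero => simpa using J.zero_mem
  | add x y hxm hym hx hy =>
    have e : (x + y).1 * val f cs * (x + y).2 = (x.1 * val f cs * x.2) + (y.1 * val f cs * y.2) +
        (x.1 * val f cs * y.2 + y.1 * val f cs * x.2) := by
      simp only [Prod.fst_add, Prod.snd_add]; noncomm_ring
    rw [e]
    exact J.add_mem (J.add_mem (hx hxm) (hy hym)) (RP_bil h1 hU f hf hcs hxm hym)
  | neg x hxm hx =>
    have e : (-x).1 * val f cs * (-x).2 = x.1 * val f cs * x.2 := by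
      simp only [Prod.fst_neg, Prod.snd_neg]; noncomm_ring
    rw [e]; exact hx hxm

end cohn

end Cfsg.Agent.Lib.OW
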