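import Mathlib

/-! Orthogonal bases for symmetric bilinear forms over finite fields of odd characteristic (helper13). -/

set_option autoImplicit false

namespace Cfsg.Agent.Lib.SymBasis

open Module Submodule

variable {F V : Type*} [Field F] [AddCommGroup V] [Module F V]
  {B : LinearMap.BilinForm F V}

lemma odd_card [Fintype F] (h2 : (2 : F) ≠ 0) : Fintype.card F % 2 = 1 := by
  apply FiniteField.odd_card_of_char_ne_two
  intro h
  apply h2
  have := ringChar.Nat.cast_ringChar (R := F)
  rw [h] at this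
  exact_mod_cast this

/-- binary diagonal forms are universal -/
lemma universal [Finite F] (h2 : (2 : F) ≠ 0) {a b : F} (ha : a ≠ 0) (hb : b ≠ 0) (c : F) :
    ∃ x y : F, a * x ^ 2 + b * y ^ 2 = c := by
  cases nonempty_fintype F
  have hf : (Polynomial.C a * Polynomial.X ^ 2 : Polynomial F).degree = 2 :=
    Polynomial.degree_C_mul_X_pow 2 ha
  have hg : (Polynomial.C b * Polynomial.X ^ 2 - Polynomial.C c : Polynomial F).degree = 2 := by
    rw [Polynomial.degree_sub_eq_left_of_degree_lt]
    · exact Polynomial.degree_C_mul_X_pow 2 hb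
    · rw [Polynomial.degree_C_mul_X_pow 2 hb]
      exact lt_of_le_of_lt Polynomial.degree_C_le (by norm_num)
  obtain ⟨x, y, hxy⟩ := FiniteField.exists_root_sum_quadratic hf hg (odd_card h2)
  refine ⟨x, y, ?_⟩
  simp only [Polynomial.eval_mul, Polynomial.eval_C, Polynomial.eval_pow, Polynomial.eval_X,
    Polynomial.eval_sub] at hxy
  linear_combination hxy

/-- the product (quotient) of two nonsquares is a square -/
lemma isSquare_div [Finite F] {a b : F} (ha : ¬ IsSquare a) (hb : ¬ IsSquare b) : IsSquare (a / b) := by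
  classical
  cases nonempty_fintype F
  have e1 : quadraticChar F a = -1 := quadraticChar_neg_one_iff_not_isSquare.mpr ha
  have e2 : quadraticChar F b = -1 := quadraticChar_neg_one_iff_not_isSquare.mpr hb
  have hb0 : b ≠ 0 := by rintro rfl; exact hb ⟨0, by simp⟩
  have ha0 : a ≠ 0 := by rintro rfl; exact ha ⟨0, by simp⟩
  have e3 : quadraticChar F (a / b) * quadraticChar F b = quadraticChar F a := by
    rw [← map_mul, div_mul_cancel₀ _ hb0]
  rw [e1, e2] at e3
  have e4 : quadraticChar F (a / b) = 1 := by linarith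
  exact (quadraticChar_one_iff_isSquare (div_ne_zero ha0 hb0)).mp e4

lemma exists_anisotropic (h2 : (2 : F) ≠ 0) (hS : B.IsSymm) (W : Submodule F V)
    (h : ∀ v ∈ W, B v v = 0) : ∀ x ∈ W, ∀ y ∈ W, B x y = 0 := by
  intro x hx y hy
  have h1 := h (x + y) (W.add_mem hx hy)
  simp only [map_add, LinearMap.add_apply, h x hx, h y hy, zero_add, add_zero] at h1
  have h3 : B y x = B x y := (hS.eq x y).symm
  rw [h3] at h1
  have h4 : (2 : F) * B x y = 0 := by linear_combination h1
  exact (mul_eq_zero.1 h4).resolve_left h2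

/-- the orthogonal complement in `W` of an anisotropic vector -/
lemma exists_perp (hS : B.IsSymm) [FiniteDimensional F V] (W : Submodule F V)
    (hnd : ∀ x ∈ W, (∀ y ∈ W, B x y = 0) → x = 0) {v : V} (hv : v ∈ W) (hvv : B v v ≠ 0) :
    ∃ W' : Submodule F V, finrank F W' + 1 = finrank F W ∧ (∀ w, w ∈ W' ↔ w ∈ W ∧ B v w = 0) ∧
      (∀ x ∈ W', (∀ y ∈ W', B x y = 0) → x = 0) := by
  let T : W →ₗ[F] F := (B v).comp W.subtype
  have hTs : Function.Surjective T := fun a => ⟨(a / B v v) • ⟨v, hv⟩, by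
    rw [map_smul]
    show (a / B v v) • B v v = a
    rw [smul_eq_mul, div_mul_cancel₀ _ hvv]⟩
  have hker : finrank F (LinearMap.ker T) + 1 = finrank F W := by
    have h1 := LinearMap.finrank_range_add_finrank_ker T
    rw [LinearMap.range_eq_top.2 hTs, finrank_top, finrank_self] at h1
    omega
  let W' : Submodule F V := (LinearMap.ker T).map W.subtype
  have hW' : finrank F W' = finrank F (LinearMap.ker T) := Submodule.finrank_map_subtype_eq W _
  have hmem : ∀ w, w ∈ W' ↔ w ∈ W ∧ B v w = 0 := by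
    intro w
    constructor
    · rintro ⟨u, hu, rfl⟩
      exact ⟨u.2, hu⟩
    · rintro ⟨h1, h2⟩
      exact ⟨⟨w, h1⟩, h2, rfl⟩
  refine ⟨W', by omega, hmem, ?_⟩
  intro x hx h
  rw [hmem] at hx
  apply hnd x hx.1
  intro y hy
  have h1 : y - (B v y / B v v) • v ∈ W' := by
    rw [hmem]
    refine ⟨W.sub_mem hy (W.smul_mem _ hv), ?_⟩
    rw [map_sub, map_smul, smul_eq_mul, div_mul_cancel₀ _ hvv, sub_self]
  have h2 := h _ h1
  have h3 : B x v = 0 := (hS.eq v x).symm.trans hx.2
  rw [map_sub, map_smul, h3, smul_zero, sub_zero] at h2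
  exact h2

lemma ne_bot_of_finrank [FiniteDimensional F V] {W : Submodule F V} (h : 0 < finrank F W) : W ≠ ⊥ := by
  rintro rfl
  rw [finrank_bot] at h
  omega

/-- an anisotropic vector -/
lemma exists_ne_zero (h2 : (2 : F) ≠ 0) (hS : B.IsSymm) (W : Submodule F V)
    (hnd : ∀ x ∈ W, (∀ y ∈ W, B x y = 0) → x = 0) (hne : W ≠ ⊥) : ∃ v ∈ W, B v v ≠ 0 := by
  by_contra hcon
  push Not at hcon
  apply hne
  rw [Submodule.eq_bot_iff]
  intro x hx
  exact hnd x hx fun y hy => exists_anisotropic h2 hS W hcon x hx y hy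

/-- in dimension at least two every value is taken -/
lemma exists_value [Finite F] [FiniteDimensional F V] (h2 : (2 : F) ≠ 0) (hS : B.IsSymm) (W : Submodule F V)
    (hnd : ∀ x ∈ W, (∀ y ∈ W, B x y = 0) → x = 0) (hdim : 2 ≤ finrank F W) (c : F) :
    ∃ v ∈ W, B v v = c := by
  obtain ⟨u, hu, huu⟩ := exists_ne_zero h2 hS W hnd (ne_bot_of_finrank (by omega))
  obtain ⟨W', hW', hmem, hnd'⟩ := exists_perp hS W hnd hu huu
  obtain ⟨v, hv, hvv⟩ := exists_ne_zero h2 hS W' hnd' (ne_bot_of_finrank (by omega))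
  rw [hmem] at hv
  obtain ⟨x, y, hxy⟩ := universal h2 huu hvv c
  refine ⟨x • u + y • v, W.add_mem (W.smul_mem _ hu) (W.smul_mem _ hv.1), ?_⟩
  have h3 : B v u = 0 := (hS.eq u v).symm.trans hv.2
  simp only [map_add, map_smul, LinearMap.add_apply, LinearMap.smul_apply, smul_eq_mul, h3, hv.2]
  rw [← hxy]
  ring

/-- orthogonal families -/
theorem exists_family [Finite F] [FiniteDimensional F V] (h2 : (2 : F) ≠ 0) (hS : B.IsSymm)
    {α : F} (hα : ¬ IsSquare α) :
    ∀ (n : ℕ) (W : Submodule F V), finrank F W = n + 1 → (∀ x ∈ W, (∀ y ∈ W, B x y = 0) → x = 0) →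
      ∃ e : Fin (n + 1) → V, (∀ i, e i ∈ W) ∧ (∀ i j, i ≠ j → B (e i) (e j) = 0) ∧
        (∀ i, i ≠ Fin.last n → B (e i) (e i) = 1) ∧
        (B (e (Fin.last n)) (e (Fin.last n)) = 1 ∨ B (e (Fin.last n)) (e (Fin.last n)) = α) := by
  intro n
  induction n with
  | zero =>
    intro W hW hnd
    obtain ⟨v, hv, hvv⟩ := exists_ne_zero h2 hS W hnd (ne_bot_of_finrank (by omega))
    have hcase : ∃ c : F, (c * c * B v v = 1 ∨ c * c * B v v = α) := by
      by_cases hsq : IsSquare (B v v)
      · obtain ⟨r, hr⟩ := hsq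
        refine ⟨r⁻¹, Or.inl ?_⟩
        have hr0 : r ≠ 0 := by rintro rfl; apply hvv; rw [hr]; ring
        rw [hr]
        field_simp
      · obtain ⟨r, hr⟩ := isSquare_div hα hsq
        refine ⟨r, Or.inr ?_⟩
        rw [← hr, div_mul_cancel₀ _ hvv]
    obtain ⟨c, hc⟩ := hcase
    refine ⟨fun _ => c • v, fun _ => W.smul_mem _ hv, ?_, ?_, ?_⟩
    · intro i j hij
      exact absurd (Subsingleton.elim (α := Fin 1) i j) hij
    · intro i hi
      exact absurd (Subsingleton.elim (α := Fin 1) i _) hi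
    · simp only [map_smul, LinearMap.smul_apply, smul_eq_mul, ← mul_assoc]
      exact hc
  | succ n ih =>
    intro W hW hnd
    obtain ⟨v, hv, hvv⟩ := exists_value h2 hS W hnd (by omega) 1
    obtain ⟨W', hW', hmem, hnd'⟩ := exists_perp hS W hnd hv (by rw [hvv]; exact one_ne_zero)
    obtain ⟨e, he, hee, he1, hel⟩ := ih W' (by omega) hnd'
    refine ⟨Fin.cons v e, ?_, ?_, ?_, ?_⟩
    · intro i
      refine Fin.cases ?_ (fun i => ?_) i
      · exact hv
      · exact ((hmem _).1 (he i)).1
    · intro i j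
      refine Fin.cases ?_ (fun i => ?_) i <;> refine Fin.cases ?_ (fun j => ?_) j
      · intro h; exact absurd rfl h
      · intro _
        rw [Fin.cons_zero, Fin.cons_succ, ((hmem _).1 (he j)).2]
      · intro _
        rw [Fin.cons_zero, Fin.cons_succ]
        exact (hS.eq v (e i)).symm.trans ((hmem _).1 (he i)).2
      · intro hij
        rw [Fin.cons_succ, Fin.cons_succ]
        exact hee i j fun h => hij (by rw [h])
    · intro i
      refine Fin.cases ?_ (fun i => ?_) i
      · intro _; rw [Fin.cons_zero, hvv]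
      · intro hi
        rw [Fin.cons_succ]
        apply he1
        rintro rfl
        exact hi rfl
    · rw [← Fin.succ_last, Fin.cons_succ]
      exact hel

theorem exists_basis [Finite F] [FiniteDimensional F V] (h2 : (2 : F) ≠ 0) (hS : B.IsSymm)
    (hB : B.Nondegenerate) {n : ℕ} (hn : finrank F V = n + 1) {α : F} (hα : ¬ IsSquare α) :
    ∃ b : Basis (Fin (n + 1)) F V, (∀ i j, i ≠ j → B (b i) (b j) = 0) ∧
      (∀ i, i ≠ Fin.last n → B (b i) (b i) = 1) ∧
      (B (b (Fin.last n)) (b (Fin.last n)) = 1 ∨ B (b (Fin.last n)) (b (Fin.last n)) = α) := by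
  obtain ⟨e, -, hee, he1, hel⟩ := exists_family h2 hS hα n ⊤ (by rw [finrank_top, hn])
    (fun x _ h => hB.1 x fun y => h y trivial)
  have hα0 : α ≠ 0 := by rintro rfl; exact hα ⟨0, by simp⟩
  have hli : LinearIndependent F e := by
    apply LinearMap.linearIndependent_of_isOrthoᵢ (B := B)
    · intro i j hij
      exact hee i j hij
    · intro i h
      by_cases hi : i = Fin.last n
      · subst hi
        rcases hel with h' | h' <;> rw [h'] at h
        · exact one_ne_zero h
        · exact hα0 h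
      · rw [he1 i hi] at h
        exact one_ne_zero h
  refine ⟨basisOfLinearIndependentOfCardEqFinrank' e hli (by simp [hn]), ?_, ?_, ?_⟩ <;>
    simp only [coe_basisOfLinearIndependentOfCardEqFinrank']
  · exact hee
  · exact he1
  · exact hel

end Cfsg.Agent.Lib.SymBasis
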