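import Cfsg.Agent.Lib.QuadIndex
import Cfsg.Agent.Lib.SymBasis
import Cfsg.Agent.Lib.LBal

/-!
# Orthogonal groups in odd characteristic have no normal subgroups of odd order (helper45)
-/

set_option autoImplicit false
set_option linter.unusedSectionVars false

namespace Cfsg.Agent.Lib.OddCore

open QuadraticMap Module
open Cfsg.Agent.Lib.Quad

variable {F V : Type*} [Field F] [AddCommGroup V] [Module F V] {Q : QuadraticForm F V}

theorem finrank_le_two [FiniteDimensional F V] {a b : V} (h : ∀ v : V, ∃ x y : F, v = x • a + y • b) : finrank F V ≤ 2 := by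
  have h1 : Submodule.span F (Set.range ![a, b]) = ⊤ := by
    rw [eq_top_iff]
    intro v _
    obtain ⟨x, y, rfl⟩ := h v
    exact Submodule.add_mem _ (Submodule.smul_mem _ _ (Submodule.subset_span ⟨0, rfl⟩))
      (Submodule.smul_mem _ _ (Submodule.subset_span ⟨1, rfl⟩))
  have h2 := finrank_range_le_card (R := F) ![a, b]
  rw [Set.finrank, h1, finrank_top] at h2
  simpa using h2

/-- a nonsingular vector perpendicular to a nondegenerate plane -/
theorem exists_perp [FiniteDimensional F V] (hQ : Nd Q) (hn : 3 ≤ finrank F V) {a b : V}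
    (hg : polar Q a b ^ 2 ≠ 4 * Q a * Q b) : ∃ u, Q u ≠ 0 ∧ polar Q a u = 0 ∧ polar Q b u = 0 := by
  by_contra hcon
  push Not at hcon
  obtain ⟨γ, hγ⟩ : ∃ γ, γ = polar Q a b := ⟨_, rfl⟩
  have hba : polar Q b a = γ := by rw [polar_comm, hγ]
  have hD : 4 * Q a * Q b - γ ^ 2 ≠ 0 := by
    intro h
    apply hg
    rw [← hγ]
    linear_combination -h
  obtain ⟨D, hDd⟩ : ∃ D, D = 4 * Q a * Q b - γ ^ 2 := ⟨_, rfl⟩
  rw [← hDd] at hD
  have key : ∀ v : V, ∃ x y : F, polar Q a (v - (x • a + y • b)) = 0 ∧ polar Q b (v - (x • a + y • b)) = 0 := by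
    intro v
    refine ⟨(2 * Q b * polar Q a v - γ * polar Q b v) / D, (2 * Q a * polar Q b v - γ * polar Q a v) / D, ?_, ?_⟩
    · rw [polar_sub_right, polar_add_right, polar_smul_right, polar_smul_right, polar_self', ← hγ, smul_eq_mul, smul_eq_mul]
      field_simp
      rw [hDd]; ring
    · rw [polar_sub_right, polar_add_right, polar_smul_right, polar_smul_right, polar_self', hba, smul_eq_mul, smul_eq_mul]
      field_simp
      rw [hDd]; ring
  have h0 : ∀ v : V, ∃ x y : F, v = x • a + y • b := by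
    intro v
    obtain ⟨x, y, h1, h2⟩ := key v
    refine ⟨x, y, ?_⟩
    rw [← sub_eq_zero]
    apply hQ.eq_zero
    intro w
    obtain ⟨x', y', h3, h4⟩ := key w
    have hs : ∀ u, polar Q a u = 0 → polar Q b u = 0 → Q u = 0 := by
      intro u hu1 hu2
      by_contra hu
      exact hcon u hu hu1 hu2
    have e1 : polar Q (v - (x • a + y • b)) (w - (x' • a + y' • b)) = 0 := by
      rw [polar, hs _ h1 h2, hs _ h3 h4, hs _ (by rw [polar_add_right, h1, h3, add_zero]) (by rw [polar_add_right, h2, h4, add_zero])]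
      ring
    rw [polar_sub_right, polar_add_right, polar_smul_right, polar_smul_right, polar_comm Q _ a, polar_comm Q _ b, h1, h2,
      smul_zero, smul_zero, add_zero, sub_zero] at e1
    exact e1
  have := finrank_le_two h0
  omega

/-- an isometry fixing all nonsingular lines is scalar -/
theorem exists_move [FiniteDimensional F V] (h2 : (2 : F) ≠ 0) (hQ : Nd Q) (hn : 3 ≤ finrank F V) {x : V ≃ₗ[F] V} (hx : x ∈ O Q)
    (hns : ∀ c : F, ∃ v, x v ≠ c • v) : ∃ a, Q a ≠ 0 ∧ ∀ c : F, x a ≠ c • a := by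
  by_contra hcon
  push Not at hcon
  have hsq : ∀ a, Q a ≠ 0 → ∀ c : F, x a = c • a → c = 1 ∨ c = -1 := by
    intro a ha c hc
    have h1 := hx a
    rw [hc, Q_smul] at h1
    have h3 : (c - 1) * (c + 1) = 0 := by
      apply mul_right_cancel₀ ha
      linear_combination h1
    rcases mul_eq_zero.1 h3 with h4 | h4
    · left; exact sub_eq_zero.1 h4
    · right; exact eq_neg_of_add_eq_zero_left h4
  -- no mixed signs
  have hmix : ∀ a b, Q a ≠ 0 → Q b ≠ 0 → x a = a → x b = -b → False := by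
    intro a b ha hb hxa hxb
    have hab : polar Q a b = 0 := by
      have h1 := O_polar hx a b
      rw [hxa, hxb, polar_neg_right] at h1
      have h3 : 2 * polar Q a b = 0 := by linear_combination -h1
      exact (mul_eq_zero.1 h3).resolve_left h2
    have hba : polar Q b a = 0 := by rw [polar_comm, hab]
    have hfin : ∀ w, polar Q a w = 0 → polar Q b w = 0 → Q (a + b + w) ≠ 0 → (x w = w ∨ x w = -w) → False := by
      intro w haw hbw hne hxw
      obtain ⟨c, hc⟩ := hcon _ hne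
      have h1 : x (a + b + w) = a - b + x w := by rw [map_add, map_add, hxa, hxb]; abel
      rw [h1] at hc
      have hawx : polar Q a (x w) = 0 ∧ polar Q b (x w) = 0 := by
        rcases hxw with h | h
        · rw [h]; exact ⟨haw, hbw⟩
        · rw [h, polar_neg_right, polar_neg_right, haw, hbw]; simp
      have h3 := congrArg (polar Q a) hc
      have h4 := congrArg (polar Q b) hc
      rw [polar_add_right, polar_sub_right, polar_smul_right, polar_add_right, polar_add_right, polar_self', hab, hawx.1, haw,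
        smul_eq_mul] at h3
      rw [polar_add_right, polar_sub_right, polar_smul_right, polar_add_right, polar_add_right, polar_self', hba, hawx.2, hbw,
        smul_eq_mul] at h4
      have e1 : (c - 1) * (2 * Q a) = 0 := by linear_combination -h3
      have e2 : (c + 1) * (2 * Q b) = 0 := by linear_combination -h4
      have e3 := (mul_eq_zero.1 e1).resolve_right (mul_ne_zero h2 ha)
      have e4 := (mul_eq_zero.1 e2).resolve_right (mul_ne_zero h2 hb)
      apply h2
      linear_combination e4 - e3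
    by_cases hs : Q (a + b) = 0
    · obtain ⟨w, hw, haw, hbw⟩ := exists_perp (a := a) (b := b) hQ hn (by
        rw [hab]
        intro h
        have h4 : (4 : F) ≠ 0 := by
          have : (4 : F) = 2 * 2 := by norm_num
          rw [this]; exact mul_ne_zero h2 h2
        exact mul_ne_zero (mul_ne_zero h4 ha) hb (by rw [← h]; ring))
      refine hfin w haw hbw ?_ ?_
      · rw [Q_add, hs, polar_add_left, haw, hbw]
        simpa using hw
      · obtain ⟨c, hc⟩ := hcon w hw
        rcases hsq w hw c hc with h | h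
        · left; rw [hc, h, one_smul]
        · right; rw [hc, h, neg_smul, one_smul]
    · exact hfin 0 (by simp) (by simp) (by simpa using hs) (by simp)
  -- the sign
  obtain ⟨a, ha⟩ := hQ.exists_Q_ne_zero (by omega)
  obtain ⟨ε, hε⟩ := hcon a ha
  have hall : ∀ b, Q b ≠ 0 → x b = ε • b := by
    intro b hb
    obtain ⟨c, hc⟩ := hcon b hb
    rcases hsq a ha ε hε with h | h <;> rcases hsq b hb c hc with h' | h'
    · rw [hc, h, h']
    · exfalso
      exact hmix a b ha hb (by rw [hε, h, one_smul]) (by rw [hc, h', neg_smul, one_smul])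
    · exfalso
      exact hmix b a hb ha (by rw [hc, h', one_smul]) (by rw [hε, h, neg_smul, one_smul])
    · rw [hc, h, h']
  obtain ⟨v, hv⟩ := hns ε
  apply hv
  by_cases hv0 : Q v = 0
  · by_cases h1 : Q (v + a) = 0
    · have h3 : Q (v - a) ≠ 0 := by
        intro h3
        rw [Q_add] at h1
        rw [Q_sub] at h3
        have : 2 * Q a = 0 := by linear_combination h1 + h3 - 2 * hv0
        exact mul_ne_zero h2 ha this
      have h4 := hall _ h3
      rw [map_sub, hall a ha, smul_sub, sub_left_inj] at h4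
      exact h4
    · have h4 := hall _ h1
      rw [map_add, hall a ha, smul_add, add_left_inj] at h4
      exact h4
  · exact hall v hv0

/-- a nonsingular vector sent to its perp by a product of two reflections -/
theorem exists_perp_image [Finite F] [FiniteDimensional F V] (h2 : (2 : F) ≠ 0) (hQ : Nd Q) (hn : 3 ≤ finrank F V) {a b : V} (ha : Q a ≠ 0)
    (hab : Q b = Q a) (hne : ∀ c : F, b ≠ c • a) : ∃ c, Q c ≠ 0 ∧ polar Q (refl Q b (refl Q a c)) c = 0 := by
  have hb : Q b ≠ 0 := by rw [hab]; exact ha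
  obtain ⟨γ, hγ⟩ : ∃ γ, γ = polar Q a b := ⟨_, rfl⟩
  obtain ⟨s, hs⟩ : ∃ s, s = Q a := ⟨_, rfl⟩
  have hs0 : s ≠ 0 := by rw [hs]; exact ha
  have hba : polar Q b a = γ := by rw [polar_comm, hγ]
  -- general formula
  have hform : ∀ c, polar Q (refl Q b (refl Q a c)) c =
      2 * Q c - s⁻¹ * polar Q a c ^ 2 - s⁻¹ * polar Q b c ^ 2 + s⁻¹ * s⁻¹ * γ * polar Q a c * polar Q b c := by
    intro c
    rw [refl_apply ha, refl_apply hb, polar_sub_left, polar_sub_left, polar_smul_left, polar_smul_left, polar_sub_right,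
      polar_smul_right, polar_self', hba, hab, ← hs]
    simp only [smul_eq_mul]
    ring
  by_cases hdeg : γ ^ 2 = 4 * s * s
  · -- degenerate plane
    obtain ⟨δ, hδ, hδγ⟩ : ∃ δ : F, δ * δ = 1 ∧ δ * γ = 2 * s := by
      have h3 : (γ - 2 * s) * (γ + 2 * s) = 0 := by linear_combination hdeg
      rcases mul_eq_zero.1 h3 with h4 | h4
      · exact ⟨1, by ring, by linear_combination h4⟩
      · exact ⟨-1, by ring, by linear_combination -h4⟩
    obtain ⟨z, hz⟩ : ∃ z, z = δ • b - a := ⟨_, rfl⟩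
    have hz0 : z ≠ 0 := by
      intro h0
      rw [h0] at hz
      have h5 : a = δ • b := (sub_eq_zero.1 hz.symm).symm
      apply hne δ
      rw [h5, smul_smul, hδ, one_smul]
    have hQz : Q z = 0 := by
      rw [hz, Q_sub, Q_smul, polar_smul_left, hba, smul_eq_mul, hab, ← hs, hδγ, hδ]; ring
    obtain ⟨x₀, hx₀⟩ := hQ.exists_polar_one' hz0
    obtain ⟨t, ht⟩ : ∃ t, t = (2 * s)⁻¹ - Q x₀ := ⟨_, rfl⟩
    have hzx : polar Q z (x₀ + t • z) = 1 := by
      rw [polar_add_right, polar_smul_right, polar_self', hQz, hx₀]; simp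
    have hQc : Q (x₀ + t • z) = (2 * s)⁻¹ := by
      rw [Q_add, Q_smul, hQz, polar_smul_right, polar_comm Q x₀ z, hx₀, ht, smul_eq_mul]; ring
    refine ⟨x₀ + t • z, by rw [hQc]; exact inv_ne_zero (mul_ne_zero h2 hs0), ?_⟩
    rw [hform, hQc]
    have e1 : δ * polar Q b (x₀ + t • z) - polar Q a (x₀ + t • z) = 1 := by
      rw [← hzx, hz, polar_sub_left, polar_smul_left, smul_eq_mul]
    obtain ⟨p, hp⟩ : ∃ p, p = polar Q b (x₀ + t • z) := ⟨_, rfl⟩
    obtain ⟨r, hr⟩ : ∃ r, r = polar Q a (x₀ + t • z) := ⟨_, rfl⟩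
    rw [← hp, ← hr] at e1 ⊢
    have e2 : γ = 2 * s * δ := by linear_combination δ * hδγ - γ * hδ
    rw [e2]
    have e3 : r = δ * p - 1 := by linear_combination -e1
    rw [e3]
    field_simp
    linear_combination p ^ 2 * hδ
  · -- nondegenerate plane
    have hg : polar Q a b ^ 2 ≠ 4 * Q a * Q b := by rw [← hγ, hab, ← hs]; exact hdeg
    obtain ⟨u, hu, hau, hbu⟩ := exists_perp hQ hn hg
    obtain ⟨κ, hκ⟩ : ∃ κ, κ = γ ^ 2 - 2 * s * s := ⟨_, rfl⟩
    by_cases hκ0 : κ = 0
    · refine ⟨a, ha, ?_⟩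
      rw [hform, polar_self', hba, ← hs]
      have : γ ^ 2 = 2 * s * s := by linear_combination hκ0 - hκ
      field_simp
      linear_combination this
    · -- universality of the plane
      have hD : 4 * s * s - γ ^ 2 ≠ 0 := by
        intro h; apply hdeg; linear_combination -h
      obtain ⟨x, y, hxy⟩ := Cfsg.Agent.Lib.SymBasis.universal h2 (a := s) (b := s * (4 * s * s - γ ^ 2)) hs0 (mul_ne_zero hs0 hD)
        (-(2 * s * s) * Q u / κ)
      obtain ⟨c, hc⟩ : ∃ c, c = (x - γ * y) • a + (2 * s * y) • b := ⟨_, rfl⟩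
      have hQc0 : Q c = s * x ^ 2 + s * (4 * s * s - γ ^ 2) * y ^ 2 := by
        rw [hc, Q_add, Q_smul, Q_smul, polar_smul_left, polar_smul_right, ← hγ, hab, ← hs, smul_eq_mul, smul_eq_mul]
        ring
      have hQc : Q c = -(2 * s * s) * Q u / κ := by rw [hQc0, hxy]
      have hac : polar Q a (u + c) = 2 * s * x := by
        rw [polar_add_right, hau, hc, polar_add_right, polar_smul_right, polar_smul_right, polar_self', ← hγ, ← hs, smul_eq_mul, smul_eq_mul]
        ring
      have hbc : polar Q b (u + c) = γ * x + (4 * s * s - γ ^ 2) * y := by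
        rw [polar_add_right, hbu, hc, polar_add_right, polar_smul_right, polar_smul_right, polar_self', hba, hab, ← hs, smul_eq_mul, smul_eq_mul]
        ring
      have huc : polar Q u c = 0 := by
        rw [hc, polar_add_right, polar_smul_right, polar_smul_right, polar_comm Q u a, polar_comm Q u b, hau, hbu]; simp
      have hQuc : Q (u + c) = Q u + Q c := by rw [Q_add, huc, add_zero]
      refine ⟨u + c, ?_, ?_⟩
      · rw [hQuc, hQc]
        intro h
        have h5 : (κ - 2 * s * s) * Q u = 0 := by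
          field_simp at h
          rw [mul_comm]
          linear_combination h
        have h6 := (mul_eq_zero.1 h5).resolve_right hu
        apply hdeg
        linear_combination h6 - hκ
      · have hbr : 2 * Q c - s⁻¹ * (2 * s * x) ^ 2 - s⁻¹ * (γ * x + (4 * s * s - γ ^ 2) * y) ^ 2 +
            s⁻¹ * s⁻¹ * γ * (2 * s * x) * (γ * x + (4 * s * s - γ ^ 2) * y) = κ * s⁻¹ * s⁻¹ * Q c := by
          rw [hQc0, hκ]
          field_simp
          ring
        rw [hform, hQuc, hac, hbc]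
        have h7 : 2 * (Q u + Q c) - s⁻¹ * (2 * s * x) ^ 2 - s⁻¹ * (γ * x + (4 * s * s - γ ^ 2) * y) ^ 2 +
            s⁻¹ * s⁻¹ * γ * (2 * s * x) * (γ * x + (4 * s * s - γ ^ 2) * y) = 2 * Q u + κ * s⁻¹ * s⁻¹ * Q c := by
          rw [← hbr]; ring
        rw [h7, hQc]
        field_simp
        ring

/-- orthogonal nonsingular vectors of the same length: a nonscalar involution -/
theorem invol [FiniteDimensional F V] (h2 : (2 : F) ≠ 0) (hQ : Nd Q) (hn : 3 ≤ finrank F V) {c d : V} (hc : Q c ≠ 0) (hd : Q d ≠ 0)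
    (hcd : polar Q d c = 0) : (refl Q d * refl Q c) ^ 2 = 1 ∧ ∀ k : F, ∃ v, (refl Q d * refl Q c) v ≠ k • v := by
  have hcomm : refl Q d * refl Q c = refl Q c * refl Q d := by
    have h := refl_conj (refl_mem (Q := Q) d) c
    rw [refl_of_perp hcd] at h
    rw [mul_inv_eq_iff_eq_mul] at h
    exact h
  constructor
  · rw [pow_two]
    calc refl Q d * refl Q c * (refl Q d * refl Q c) = refl Q d * (refl Q c * refl Q d) * refl Q c := by simp only [mul_assoc]
      _ = (refl Q d * refl Q d) * (refl Q c * refl Q c) := by rw [← hcomm]; simp only [mul_assoc]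
      _ = 1 := by rw [refl_mul_self, refl_mul_self, one_mul]
  · intro k
    by_contra hcon
    push Not at hcon
    obtain ⟨u, hu, h3, h4⟩ := exists_perp (a := c) (b := d) hQ hn (by
      rw [polar_comm, hcd]
      intro h
      have h4 : (4 : F) ≠ 0 := by
        have : (4 : F) = 2 * 2 := by norm_num
        rw [this]; exact mul_ne_zero h2 h2
      exact mul_ne_zero (mul_ne_zero h4 hc) hd (by rw [← h]; ring))
    have e1 := hcon c
    rw [LinearEquiv.mul_apply, refl_self hc, map_neg, refl_of_perp hcd] at e1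
    have e2 := hcon u
    rw [LinearEquiv.mul_apply, refl_of_perp h3, refl_of_perp h4] at e2
    have hc0 : c ≠ 0 := by rintro rfl; exact hc (by simp)
    have hu0 : u ≠ 0 := by rintro rfl; exact hu (by simp)
    have k1 : k = -1 := by
      have : (k + 1) • c = 0 := by rw [add_smul, ← e1, one_smul]; simp
      exact eq_neg_of_add_eq_zero_left ((smul_eq_zero.1 this).resolve_right hc0)
    have k2 : k = 1 := by
      have : (k - 1) • u = 0 := by rw [sub_smul, ← e2, one_smul, sub_self]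
      exact sub_eq_zero.1 ((smul_eq_zero.1 this).resolve_right hu0)
    apply h2
    rw [k2] at k1
    linear_combination k1

/-- **no normal subgroups of odd order** -/
theorem no_odd_normal [Finite F] [FiniteDimensional F V] (h2 : (2 : F) ≠ 0) (hQ : Nd Q) (hn : 3 ≤ finrank F V)
    {G : Type*} [Group G] (Ψ : O Q →* G) (hker : ∀ x : O Q, Ψ x = 1 ↔ ∃ c : F, ∀ v, x.1 v = c • v)
    {S : Subgroup G} [Finite S] (hS1 : S ≤ Ψ.range) (hS2 : ∀ t : O Q, ∀ s ∈ S, Ψ t * s * (Ψ t)⁻¹ ∈ S)
    {N : Subgroup G} (hN : N ≤ S) (hn1 : ∀ s ∈ S, ∀ n ∈ N, s * n * s⁻¹ ∈ N) (hodd : (Nat.card N).Coprime 2) : N = ⊥ := by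
  obtain ⟨R, hR⟩ : ∃ R, R = (Cfsg.pPrimeCore 2 ↥S).map S.subtype := ⟨_, rfl⟩
  have hRS : R ≤ S := by rw [hR]; exact Subgroup.map_subtype_le _
  have hRcop : (Nat.card R).Coprime 2 := by
    have h : Nat.card R = Nat.card (Cfsg.pPrimeCore 2 ↥S) := by
      rw [hR]
      exact (Nat.card_congr (Subgroup.equivMapOfInjective _ _ S.subtype_injective).toEquiv).symm
    rw [h]; exact Cores.coprime_card_pPrimeCore 2 _
  have hRn : ∀ s ∈ S, ∀ r ∈ R, s * r * s⁻¹ ∈ R := by
    intro s hs r hr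
    rw [hR] at hr ⊢
    obtain ⟨w, hw, rfl⟩ := hr
    have hn : (Cfsg.pPrimeCore 2 ↥S).Normal := Cfsg.pPrimeCore_normal _ _
    exact ⟨⟨s, hs⟩ * w * ⟨s, hs⟩⁻¹, hn.conj_mem w hw ⟨s, hs⟩, rfl⟩
  -- maximality
  have hmax : ∀ M : Subgroup G, M ≤ S → (∀ s ∈ S, ∀ n ∈ M, s * n * s⁻¹ ∈ M) → (Nat.card M).Coprime 2 → M ≤ R := by
    intro M hM hMn hMc
    have h1 : (M.subgroupOf S).Normal := by
      constructor
      intro m hm s
      rw [Subgroup.mem_subgroupOf] at hm ⊢
      exact hMn s s.2 m hm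
    have hle : M.subgroupOf S ≤ Cfsg.pPrimeCore 2 ↥S := Cores.le_pPrimeCore h1 (by
      have h : Nat.card (M.subgroupOf S) = Nat.card M := Nat.card_congr (Subgroup.subgroupOfEquivOfLe hM).toEquiv
      rw [h]; exact hMc)
    intro m hm
    rw [hR]
    exact ⟨⟨m, hM hm⟩, hle hm, rfl⟩
  have hRt : ∀ t : O Q, ∀ r ∈ R, Ψ t * r * (Ψ t)⁻¹ ∈ R := by
    intro t r hr
    have h1 : R.map (MulAut.conj (Ψ t)).toMonoidHom ≤ R := by
      apply hmax
      · rintro _ ⟨r, hr, rfl⟩
        exact hS2 t r (hRS hr)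
      · rintro s hs _ ⟨r, hr, rfl⟩
        refine ⟨(Ψ t)⁻¹ * s * Ψ t * r * ((Ψ t)⁻¹ * s * Ψ t)⁻¹, ?_, ?_⟩
        · apply hRn _ _ _ hr
          have := hS2 t⁻¹ s hs
          rwa [map_inv, inv_inv] at this
        · show Ψ t * ((Ψ t)⁻¹ * s * Ψ t * r * ((Ψ t)⁻¹ * s * Ψ t)⁻¹) * (Ψ t)⁻¹ = s * (Ψ t * r * (Ψ t)⁻¹) * s⁻¹
          group
      · have h : Nat.card (R.map (MulAut.conj (Ψ t)).toMonoidHom) = Nat.card R :=
          (Nat.card_congr (Subgroup.equivMapOfInjective _ _ (MulAut.conj (Ψ t)).injective).toEquiv).symm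
        rw [h]; exact hRcop
    exact h1 ⟨r, hr, rfl⟩
  have hfinR : Finite R := Finite.of_injective _ (Subgroup.inclusion_injective hRS)
  have hno : ∀ r ∈ R, r ^ 2 = 1 → r = 1 := fun r hr h => LBal.eq_one_of_pow (k := 1) hRcop hr (by rw [pow_one]; exact h)
  have hNR := hmax N hN hn1 hodd
  by_contra hne
  obtain ⟨⟨w, hwN⟩, hw⟩ := Subgroup.ne_bot_iff_exists_ne_one.1 hne
  have hw1 : w ≠ 1 := fun h => hw (Subtype.ext h)
  obtain ⟨x, rfl⟩ := hS1 (hN hwN)
  have hxns : ∀ c : F, ∃ v, x.1 v ≠ c • v := by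
    intro c
    by_contra hcon
    push Not at hcon
    exact hw1 ((hker x).2 ⟨c, hcon⟩)
  obtain ⟨a, ha, hxa⟩ := exists_move h2 hQ hn x.2 hxns
  have hxaQ : Q (x.1 a) = Q a := x.2 a
  obtain ⟨c, hc, hperp⟩ := exists_perp_image h2 hQ hn ha hxaQ hxa
  -- first commutator
  let ra : O Q := ⟨refl Q a, refl_mem a⟩
  let rb : O Q := ⟨refl Q (x.1 a), refl_mem _⟩
  let rc : O Q := ⟨refl Q c, refl_mem c⟩
  have hcomm : ∀ (y r : O Q), Ψ y ∈ R → Ψ (y * r * y⁻¹ * r⁻¹) ∈ R := by
    intro y r hy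
    have h1 := hRt r _ (R.inv_mem hy)
    have h3 := R.mul_mem hy h1
    rw [map_mul, map_mul, map_mul, map_inv, map_inv]
    have : Ψ y * Ψ r * (Ψ y)⁻¹ * (Ψ r)⁻¹ = Ψ y * (Ψ r * (Ψ y)⁻¹ * (Ψ r)⁻¹) := by group
    rw [this]; exact h3
  have hy : Ψ (rb * ra) ∈ R := by
    have h1 := hcomm x ra (hNR hwN)
    have h3 : x * ra * x⁻¹ * ra⁻¹ = rb * ra := by
      apply Subtype.ext
      show x.1 * refl Q a * x.1⁻¹ * (refl Q a)⁻¹ = refl Q (x.1 a) * refl Q a
      rw [refl_conj x.2, refl_inv]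
    rwa [h3] at h1
  have hd : Q ((rb * ra).1 c) = Q c := (rb * ra).2 c
  have hdd : (rb * ra).1 c = refl Q (x.1 a) (refl Q a c) := rfl
  have hz : Ψ (⟨refl Q ((rb * ra).1 c), refl_mem _⟩ * rc) ∈ R := by
    have h1 := hcomm (rb * ra) rc hy
    have h3 : (rb * ra) * rc * (rb * ra)⁻¹ * rc⁻¹ = ⟨refl Q ((rb * ra).1 c), refl_mem _⟩ * rc := by
      apply Subtype.ext
      show (rb * ra).1 * refl Q c * ((rb * ra).1)⁻¹ * (refl Q c)⁻¹ = refl Q ((rb * ra).1 c) * refl Q c
      rw [refl_conj (rb * ra).2, refl_inv]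
    rwa [h3] at h1
  obtain ⟨h3, h4⟩ := invol h2 hQ hn (c := c) (d := (rb * ra).1 c) hc (by rw [hd]; exact hc) (by rw [hdd]; exact hperp)
  have h5 := hno _ hz (by
    rw [← map_pow]
    have : (⟨refl Q ((rb * ra).1 c), refl_mem _⟩ * rc : O Q) ^ 2 = 1 := Subtype.ext h3
    rw [this, map_one])
  obtain ⟨k, hk⟩ := (hker _).1 h5
  obtain ⟨v, hv⟩ := h4 k
  exact hv (hk v)

end Cfsg.Agent.Lib.OddCore
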