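import Mathlib.Combinatorics.SimpleGraph.Diam
import Mathlib.GroupTheory.OrderOfElement
import Mathlib.Algebra.Group.Conj
import Mathlib.Tactic

/-!
Graphs of diameter two, and the graph on a conjugacy class of involutions joining two involutions
whose product has odd order.
-/

set_option autoImplicit false

namespace Cfsg.Agent.Lib.OddGraph

theorem connected_and_diam {α : Type*} {G : SimpleGraph α} [Nonempty α]
    (h : ∀ a b : α, a ≠ b → G.Adj a b ∨ ∃ c, G.Adj a c ∧ G.Adj c b)
    (hne : ∃ a b : α, a ≠ b ∧ ¬ G.Adj a b) : G.Connected ∧ G.diam = 2 := by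
  have hconn : G.Connected := by
    rw [SimpleGraph.connected_iff]
    refine ⟨?_, inferInstance⟩
    intro a b
    by_cases hab : a = b
    · rw [hab]
    · rcases h a b hab with h1 | ⟨c, h1, h2⟩
      · exact h1.reachable
      · exact h1.reachable.trans h2.reachable
  refine ⟨hconn, ?_⟩
  have hle : G.ediam ≤ 2 := by
    apply SimpleGraph.ediam_le_of_edist_le
    intro a b
    by_cases hab : a = b
    · rw [hab, SimpleGraph.edist_self]; exact zero_le
    · rcases h a b hab with h1 | ⟨c, h1, h2⟩
      · rw [SimpleGraph.edist_eq_one_iff_adj.2 h1]; norm_num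
      · calc G.edist a b ≤ G.edist a c + G.edist c b := SimpleGraph.edist_triangle
          _ = 2 := by
            rw [SimpleGraph.edist_eq_one_iff_adj.2 h1, SimpleGraph.edist_eq_one_iff_adj.2 h2]; norm_num
  have hge : 2 ≤ G.ediam := by
    obtain ⟨a, b, hab, hadj⟩ := hne
    refine le_trans ?_ (SimpleGraph.edist_le_ediam (u := a) (v := b))
    by_contra hlt
    push Not at hlt
    have h1 : G.edist a b ≤ 1 := by
      have h5 : G.edist a b < 1 + 1 := by
        have : (1 : ℕ∞) + 1 = 2 := by norm_num
        rw [this]; exact hlt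
      exact ENat.lt_add_one_iff (by simp) |>.1 h5
    rcases h1.lt_or_eq with h2 | h2
    · have h3 : G.edist a b = 0 := by
        exact ENat.lt_one_iff_eq_zero.1 h2
      exact hab (SimpleGraph.edist_eq_zero_iff.1 h3)
    · exact hadj (SimpleGraph.edist_eq_one_iff_adj.1 h2)
  have : G.ediam = 2 := le_antisymm hle hge
  rw [SimpleGraph.diam, this]
  rfl

lemma orderOf_mul_comm' {G : Type*} [Group G] (x y : G) : orderOf (x * y) = orderOf (y * x) := by
  have h : y * x = MulAut.conj y (x * y) := by
    rw [MulAut.conj_apply]; group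
  rw [h, MulEquiv.orderOf_eq]

/-- The criterion: in a conjugacy class any two elements `x y` have a "middle" `z`. -/
theorem class_graph {G : Type*} [Group G] (t : G)
    (h : ∀ x y : G, IsConj t x → IsConj t y → ∃ z : G, IsConj t z ∧ Odd (orderOf (x * z)) ∧ Odd (orderOf (z * y)))
    (hne : ∃ x y : G, IsConj t x ∧ IsConj t y ∧ x ≠ y ∧ ¬ Odd (orderOf (x * y))) :
    (SimpleGraph.fromRel fun x y : {x : G // IsConj t x} => Odd (orderOf (x.1 * y.1))).Connected ∧
      (SimpleGraph.fromRel fun x y : {x : G // IsConj t x} => Odd (orderOf (x.1 * y.1))).diam = 2 := by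
  haveI : Nonempty {x : G // IsConj t x} := ⟨⟨t, IsConj.refl t⟩⟩
  apply connected_and_diam
  · rintro ⟨x, hx⟩ ⟨y, hy⟩ hxy
    obtain ⟨z, hz, h1, h2⟩ := h x y hx hy
    by_cases hzx : x = z
    · left
      rw [SimpleGraph.fromRel_adj]
      refine ⟨hxy, Or.inl ?_⟩
      subst hzx; exact h2
    · by_cases hzy : z = y
      · left
        rw [SimpleGraph.fromRel_adj]
        refine ⟨hxy, Or.inl ?_⟩
        subst hzy; exact h1
      · right
        refine ⟨⟨z, hz⟩, ?_, ?_⟩
        · rw [SimpleGraph.fromRel_adj]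
          refine ⟨?_, Or.inl h1⟩
          intro he; exact hzx (congrArg Subtype.val he)
        · rw [SimpleGraph.fromRel_adj]
          refine ⟨?_, Or.inl h2⟩
          intro he; exact hzy (congrArg Subtype.val he)
  · obtain ⟨x, y, hx, hy, hxy, ho⟩ := hne
    refine ⟨⟨x, hx⟩, ⟨y, hy⟩, ?_, ?_⟩
    · intro he; exact hxy (congrArg Subtype.val he)
    · rw [SimpleGraph.fromRel_adj]
      rintro ⟨-, h1 | h1⟩
      · exact ho h1
      · rw [orderOf_mul_comm'] at h1
        exact ho h1

end Cfsg.Agent.Lib.OddGraph
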