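import Mathlib

set_option autoImplicit false

/-! Conjugacy classes of involutions whose pairwise products have odd order. -/

namespace Cfsg.Agent.Lib.OddProducts

variable {G : Type*} [Group G]

theorem mem_conj {d a : G} (g : G) (ha : a ∈ conjugatesOf d) : g * a * g⁻¹ ∈ conjugatesOf d := by
  exact IsConj.trans ha (isConj_iff.2 ⟨g, rfl⟩)

theorem sq_one {d a : G} (hd : d * d = 1) (ha : a ∈ conjugatesOf d) : a * a = 1 := by
  obtain ⟨c, rfl⟩ := isConj_iff.1 ha
  calc c * d * c⁻¹ * (c * d * c⁻¹) = c * (d * d) * c⁻¹ := by group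
    _ = 1 := by rw [hd]; group

theorem inv_eq {a : G} (ha : a * a = 1) : a⁻¹ = a := inv_eq_of_mul_eq_one_left ha

/-- an element `y` of odd order such that `y ^ 2` commutes with `w` commutes with `w` -/
theorem commute_of_sq {y w : G} (hy : Odd (orderOf y)) (h : Commute (y ^ 2) w) : Commute y w := by
  obtain ⟨k, hk⟩ := hy
  have h1 : y = (y ^ 2) ^ (k + 1) := by
    rw [← pow_mul]
    have : 2 * (k + 1) = orderOf y + 1 := by omega
    rw [this, pow_succ, pow_orderOf_eq_one, one_mul]
  rw [h1]
  exact h.pow_left _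

theorem eq_one_of_sq {w : G} (hw : Odd (orderOf w)) (h : w * w = 1) : w = 1 := by
  have h1 : orderOf w ∣ 2 := orderOf_dvd_of_pow_eq_one (by rw [pow_two, h])
  rcases (Nat.dvd_prime Nat.prime_two).1 h1 with h2 | h2
  · exact orderOf_eq_one_iff.1 h2
  · rw [h2] at hw
    exact absurd hw (by decide)

/-- uniqueness of midpoints -/
theorem midpoint_unique {e a b : G} (ha : a * a = 1) (hb : b * b = 1) (he : e * e = 1)
    (hab : Odd (orderOf (a * b))) (hea : Odd (orderOf (e * a)))
    (h : a * e * a = b * e * b) : a = b := by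
  -- w = a * b commutes with e
  have hw : Commute e (b * a) := by
    show e * (b * a) = b * a * e
    have h1 : b * (a * e * a) * b = e := by
      rw [h]
      calc b * (b * e * b) * b = (b * b) * e * (b * b) := by group
        _ = e := by rw [hb]; group
    calc e * (b * a) = (b * (a * e * a) * b) * (b * a) := by rw [h1]
      _ = b * a * e * a * (b * b) * a := by group
      _ = b * a * e * (a * a) := by rw [hb]; group
      _ = b * a * e := by rw [ha, mul_one]
  -- a inverts b * a
  have h3 : a * (b * a) * a = a * b := by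
    calc a * (b * a) * a = a * b * (a * a) := by group
      _ = a * b := by rw [ha, mul_one]
  have hinv : (b * a)⁻¹ = a * b := by
    rw [mul_inv_rev, inv_eq ha, inv_eq hb]
  -- e * a inverts b * a
  have h4 : (e * a) * (b * a) * (e * a)⁻¹ = (b * a)⁻¹ := by
    rw [mul_inv_rev, inv_eq ha, inv_eq he, hinv]
    calc e * a * (b * a) * (a * e) = e * (a * b) * (a * a) * e := by group
      _ = e * (a * b) * e := by rw [ha, mul_one]
      _ = e * (b * a)⁻¹ * e := by rw [hinv]
      _ = (b * a)⁻¹ * (e * e) := by rw [(hw.inv_right).eq]; group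
      _ = a * b := by rw [he, mul_one, hinv]
  have h5 : Commute ((e * a) ^ 2) (b * a) := by
    generalize e * a = y at h4
    generalize b * a = w at h4
    show y ^ 2 * w = w * y ^ 2
    have h6 : y * w⁻¹ * y⁻¹ = w := by
      have := congrArg (fun t => t⁻¹) h4
      simp only [mul_inv_rev, inv_inv] at this
      simpa [mul_assoc] using this
    calc y ^ 2 * w = y * (y * w * y⁻¹) * y := by rw [pow_two]; group
      _ = (y * w⁻¹ * y⁻¹) * (y * y) := by rw [h4]; group
      _ = w * y ^ 2 := by rw [h6, pow_two]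
  have h8 : Commute (e * a) (b * a) := commute_of_sq hea h5
  have h9 : b * a = (b * a)⁻¹ := by
    rw [← h4, h8.eq]; group
  have h10 : (a * b) * (a * b) = 1 := by
    have : a * b = b * a := by rw [← hinv]; exact h9.symm
    calc (a * b) * (a * b) = (b * a) * (a * b) := by rw [this]
      _ = b * (a * a) * b := by group
      _ = 1 := by rw [ha, mul_one, hb]
  have h11 := eq_one_of_sq hab h10
  calc a = a * (b * b) := by rw [hb, mul_one]
    _ = (a * b) * b := by group
    _ = b := by rw [h11, one_mul]

/-- existence of midpoints: if `e f` has odd order there is a conjugate `a` of `e` with `a e a = f` -/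
theorem midpoint_exists {e f : G} (he : e * e = 1) (hf : f * f = 1) (h : Odd (orderOf (e * f))) :
    ∃ a ∈ conjugatesOf e, a * e * a = f := by
  set u := e * f with hu
  obtain ⟨k, hk⟩ := h
  have hun : u ^ (2 * k + 1) = 1 := by rw [← hk, pow_orderOf_eq_one]
  have hinv : e * u * e = u⁻¹ := by
    rw [hu, mul_inv_rev, inv_eq he, inv_eq hf]
    calc e * (e * f) * e = (e * e) * f * e := by group
      _ = f * e := by rw [he, one_mul]
  have hinvn : ∀ n : ℕ, e * u ^ n * e = (u⁻¹) ^ n := by
    intro n
    rw [← hinv]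
    have : e * u * e = e * u * e⁻¹ := by rw [inv_eq he]
    rw [this, conj_pow, inv_eq he]
  -- conj of e by u^j
  have hconj : ∀ j : ℕ, (u ^ j)⁻¹ * e * u ^ j = e * u ^ (2 * j) := by
    intro j
    have h1 := hinvn j
    have h2 : e * u ^ j = (u ^ j)⁻¹ * e := by
      calc e * u ^ j = e * u ^ j * (e * e) := by rw [he, mul_one]
        _ = (e * u ^ j * e) * e := by group
        _ = (u ^ j)⁻¹ * e := by rw [h1, inv_pow]
    rw [← h2, mul_assoc, ← pow_add]
    congr 2
    ring
  -- m = k+1, 2m = n + 1; 2 j ≡ m mod n: j = (k+1)^2 since 2(k+1) = n+1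
  refine ⟨(u ^ ((k + 1) * (k + 1)))⁻¹ * e * u ^ ((k + 1) * (k + 1)), ?_, ?_⟩
  · refine isConj_iff.2 ?_
    exact ⟨(u ^ ((k + 1) * (k + 1)))⁻¹, by group⟩
  · rw [hconj]
    have hr : u ^ (2 * ((k + 1) * (k + 1))) = u ^ (k + 1) := by
      have : 2 * ((k + 1) * (k + 1)) = (2 * k + 1) * (k + 1) + (k + 1) := by ring
      rw [this, pow_add, pow_mul, hun, one_pow, one_mul]
    rw [hr]
    have h1 : e * u ^ (k + 1) * e = (u ^ (k + 1))⁻¹ := by rw [hinvn, inv_pow]
    calc e * u ^ (k + 1) * e * (e * u ^ (k + 1)) = e * u ^ (k + 1) * (e * e) * u ^ (k + 1) := by group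
      _ = e * (u ^ (k + 1) * u ^ (k + 1)) := by rw [he]; group
      _ = e * u := by
          rw [← pow_add]
          have : k + 1 + (k + 1) = (2 * k + 1) + 1 := by ring
          rw [this, pow_add, hun, one_mul, pow_one]
      _ = f := by rw [hu, ← mul_assoc, he, one_mul]

end Cfsg.Agent.Lib.OddProducts
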