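import Cfsg.Agent.Lib.H55ThreeInv
import Cfsg.Agent.Lib.CoprimeAction
import Cfsg.Agent.Lib.Cores
import Cfsg.Agent.Lib.SubgroupTools

/-!
# Sets of involutions with pairwise products of order 1, 2 or `p` (helper69)
-/

set_option autoImplicit false

namespace Cfsg.Agent.Lib.OddTransp

open Subgroup Pointwise

universe u

section Basic

variable {G : Type u} [Group G] {p : ℕ}

/-- a normal set of involutions with products of order 1, 2 or dividing `p` -/
structure OT (p : ℕ) (D : Set G) : Prop where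
  sq : ∀ d ∈ D, d * d = 1
  ne : ∀ d ∈ D, d ≠ 1
  cj : ∀ g : G, ∀ d ∈ D, g * d * g⁻¹ ∈ D
  od : ∀ d ∈ D, ∀ e ∈ D, Commute d e ∨ (d * e) ^ p = 1

theorem root (hp : Odd p) {x y : G} (hx : x ^ p = 1) (hy : y ^ p = 1) (h : x * x = y * y) : x = y := by
  obtain ⟨k, hk⟩ := hp
  have key : ∀ z : G, z ^ p = 1 → z = (z * z) ^ (k + 1) := by
    intro z hz
    have : (z * z) ^ (k + 1) = z ^ (p + 1) := by
      rw [← pow_two, ← pow_mul]; congr 1; omega
    rw [this, pow_succ, hz, one_mul]
  rw [key x hx, key y hy, h]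

theorem eq_one_of (hp : Odd p) {x : G} (hx : x ^ p = 1) (h : x * x = 1) : x = 1 :=
  root hp hx (one_pow p) (by rw [h, one_mul])

theorem inv_of_sq {x : G} (h : x * x = 1) : x⁻¹ = x := inv_eq_of_mul_eq_one_left h

theorem mul_comm_of_comm_sq {a d : G} (ha : a * a = 1) (hd : d * d = 1) (h : Commute a d) : (a * d) * (a * d) = 1 := by
  rw [mul_assoc, ← mul_assoc d, ← h.eq, mul_assoc, hd, mul_one, ha]

/-- two commuting involutions whose product has odd order are equal -/
theorem eq_of_comm (hp : Odd p) {a d : G} (ha : a * a = 1) (hd : d * d = 1) (h : Commute a d) (h2 : (a * d) ^ p = 1) :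
    a = d := by
  have h3 := eq_one_of hp h2 (mul_comm_of_comm_sq ha hd h)
  have h4 := eq_inv_of_mul_eq_one_left h3
  rwa [inv_of_sq hd] at h4

theorem mid_unique (hp : Odd p) {a d e : G} (had : (a * d) ^ p = 1) (hae : (a * e) ^ p = 1)
    (h : d * a * d = e * a * e) : d = e := by
  have h1 : (a * d) * (a * d) = (a * e) * (a * e) := by
    have e1 : (a * d) * (a * d) = a * (d * a * d) := by group
    have e2 : (a * e) * (a * e) = a * (e * a * e) := by group
    rw [e1, e2, h]
  exact mul_left_cancel (root hp had hae h1)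

theorem inv_pow_conj {a b : G} (ha : a * a = 1) (hb : b * b = 1) (n : ℕ) : a * (a * b) ^ n * a = ((a * b) ^ n)⁻¹ := by
  have h1 : a * (a * b) * a = (a * b)⁻¹ := by
    rw [mul_inv_rev, inv_of_sq ha, inv_of_sq hb, ← mul_assoc, ha, one_mul]
  induction n with
  | zero => rw [pow_zero, inv_one, mul_one, ha]
  | succ n ih =>
    have e : a * (a * b) ^ (n + 1) * a = (a * (a * b) ^ n * a) * (a * (a * b) * a) := by
      rw [pow_succ]
      have : (a * (a * b) ^ n * a) * (a * (a * b) * a) = a * (a * b) ^ n * (a * a) * (a * b) * a := by group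
      rw [this, ha]; group
    rw [e, ih, h1, ← mul_inv_rev, ← pow_succ']

variable {D : Set G}

theorem OT.inv (h : OT p D) {d : G} (hd : d ∈ D) : d⁻¹ = d := inv_of_sq (h.sq d hd)

theorem OT.cj' (h : OT p D) {d e : G} (hd : d ∈ D) (he : e ∈ D) : d * e * d ∈ D := by
  have := h.cj d e he
  rwa [h.inv hd] at this

theorem OT.pw (h : OT p D) {d e : G} (hd : d ∈ D) (he : e ∈ D) (hn : ¬ Commute d e) : (d * e) ^ p = 1 :=
  (h.od d hd e he).resolve_left hn

/-- existence of the midpoint -/
theorem mid_exists (h : OT p D) (hp : Odd p) {a b : G} (ha : a ∈ D) (hb : b ∈ D) (hab : (a * b) ^ p = 1) :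
    ∃ m ∈ D, m * a * m = b ∧ (a * m) ^ p = 1 := by
  obtain ⟨k, hk⟩ := hp
  have hx := inv_pow_conj (h.sq a ha) (h.sq b hb)
  set x := a * b with hxdef
  refine ⟨a * x ^ (k + 1), ?_, ?_, ?_⟩
  · -- conjugate of `a`
    have h1 : a * x ^ (k + 1) = x⁻¹ ^ ((k + 1) * (k + 1)) * a * (x⁻¹ ^ ((k + 1) * (k + 1)))⁻¹ := by
      have e1 : x⁻¹ ^ ((k + 1) * (k + 1)) * a = a * x ^ ((k + 1) * (k + 1)) := by
        have := hx ((k + 1) * (k + 1))
        rw [inv_pow, ← this, mul_assoc, h.sq a ha, mul_one]
      have e2 : (k + 1) * (k + 1) + (k + 1) * (k + 1) = p * (k + 1) + (k + 1) := by rw [hk]; ring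
      have e3 : x ^ ((k + 1) * (k + 1)) * x ^ ((k + 1) * (k + 1)) = x ^ (k + 1) := by
        rw [← pow_add, e2, pow_add, pow_mul, hab, one_pow, one_mul]
      rw [e1, inv_pow, inv_inv, mul_assoc, e3]
    rw [h1]
    exact h.cj _ a ha
  · have e1 : a * x ^ (k + 1) * a * (a * x ^ (k + 1)) = a * x ^ (k + 1) * (a * a) * x ^ (k + 1) := by group
    rw [e1, h.sq a ha, mul_one, mul_assoc, ← pow_add]
    have e2 : k + 1 + (k + 1) = p + 1 := by omega
    rw [e2, pow_succ, hab, one_mul, hxdef, ← mul_assoc, h.sq a ha, one_mul]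
  · rw [← mul_assoc, h.sq a ha, one_mul, ← pow_mul, mul_comm, pow_mul, hab, one_pow]

/-- the fixed points of the product of two commuting members -/
theorem tau (h : OT p D) (hp : Odd p) {d e a : G} (hd : d ∈ D) (he : e ∈ D) (ha : a ∈ D) (hde : Commute d e)
    (hne : d ≠ e) (hc : Commute a (d * e)) : Commute a d ∧ Commute a e := by
  have h1 : d * a * d = e * a * e := by
    have h2 : a * (d * e) = (d * e) * a := hc.eq
    have h3 : d * a * d = d * (a * (d * e)) * e := by
      have : d * (a * (d * e)) * e = d * a * d * (e * e) := by group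
      rw [this, h.sq e he, mul_one]
    rw [h3, h2]
    have : d * (d * e * a) * e = (d * d) * (e * a * e) := by group
    rw [this, h.sq d hd, one_mul]
  by_cases had : Commute a d
  · refine ⟨had, ?_⟩
    have h2 : e * a * e = a := by
      rw [← h1, ← had.eq, mul_assoc, h.sq d hd, mul_one]
    have h3 : e * a = a * e := by
      have h4 : e * a * e * e = a * e := by rw [h2]
      rwa [mul_assoc, h.sq e he, mul_one] at h4
    exact h3.symm
  by_cases hae : Commute a e
  · exfalso
    apply had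
    have h2 : d * a * d = a := by
      rw [h1, ← hae.eq, mul_assoc, h.sq e he, mul_one]
    have h3 : d * a = a * d := by
      have h4 : d * a * d * d = a * d := by rw [h2]
      rwa [mul_assoc, h.sq d hd, mul_one] at h4
    exact h3.symm
  · exact absurd (mid_unique hp (h.pw ha hd had) (h.pw ha he hae) h1) hne

end Basic

section Quandle

variable {G : Type u} [Group G] [Finite G] {p : ℕ}

/-- a set of involutions closed under its own conjugations, with products of order dividing the odd prime `p`, has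
`p`-power cardinality -/
theorem quandle_card (hp : p.Prime) (hp2 : Odd p) (E : Set G) (hne : E.Nonempty) (hsq : ∀ d ∈ E, d * d = 1)
    (hn1 : ∀ d ∈ E, d ≠ 1) (hcl : ∀ d ∈ E, ∀ e ∈ E, d * e * d ∈ E) (hpw : ∀ d ∈ E, ∀ e ∈ E, (d * e) ^ p = 1) :
    ∃ n, Nat.card E = p ^ n := by
  classical
  obtain ⟨d, hd⟩ := hne
  set K : Subgroup G := closure E with hK
  have hEK : E ⊆ K := subset_closure
  -- `K` normalises `E`
  have hnorm : ∀ g ∈ K, ∀ e ∈ E, g * e * g⁻¹ ∈ E := by
    intro g hg
    induction hg using closure_induction with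
    | mem x hx =>
      intro e he
      rw [inv_of_sq (hsq x hx)]; exact hcl x hx e he
    | one => intro e he; simpa using he
    | mul x y _ _ h1 h2 =>
      intro e he
      have := h1 _ (h2 e he)
      have e1 : x * y * e * (x * y)⁻¹ = x * (y * e * y⁻¹) * x⁻¹ := by group
      rw [e1]; exact this
    | inv x hx h1 =>
      intro e he
      -- finite: the conjugation by `x` is injective on `E`, hence surjective
      let φ : E → E := fun e => ⟨x * e * x⁻¹, h1 e e.2⟩
      have hinj : Function.Injective φ := by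
        intro a b hab
        have h2 := congrArg Subtype.val hab
        apply Subtype.ext
        simpa [φ] using h2
      obtain ⟨f, hfe⟩ := Finite.surjective_of_injective hinj ⟨e, he⟩
      have h2 : x * f * x⁻¹ = e := congrArg Subtype.val hfe
      have : x⁻¹ * e * x⁻¹⁻¹ = f := by
        rw [← h2]; group
      rw [this]; exact f.2
  let u : K := ⟨d, hEK hd⟩
  have hu2 : orderOf u = 2 := by
    rw [orderOf_eq_prime_iff]
    refine ⟨Subtype.ext ?_, ?_⟩
    · show d ^ 2 = 1
      rw [pow_two, hsq d hd]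
    · intro h
      exact hn1 d hd (congrArg Subtype.val h)
  have hodd : ZStar.OddIso u := by
    intro g
    have h1 : (u * (g * u * g⁻¹)) ^ p = 1 := by
      apply Subtype.ext
      show (d * ((g : G) * d * (g : G)⁻¹)) ^ p = 1
      exact hpw d hd _ (hnorm g g.2 d hd)
    exact hp2.of_dvd_nat (orderOf_dvd_of_pow_eq_one h1)
  have hz := ZStar.inZStar_of_oddIso H55ThreeInv.bs hu2 hodd
  set O : Subgroup K := pPrimeCore 2 K with hO
  have hOodd : Odd (Nat.card O) := by
    rw [← Nat.coprime_two_right]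
    exact Cores.coprime_card_pPrimeCore 2 K
  let C : Subgroup K := centralizer {u}
  have hCmem : ∀ g : K, g ∈ C ↔ g * u * g⁻¹ = u := by
    intro g
    rw [mem_centralizer_singleton_iff]
    constructor
    · intro h; rw [h, mul_inv_cancel_right]
    · intro h
      have := congrArg (· * g) h
      simpa using this
  -- the set `E` in `K`
  have hOT : OT p {x : K | (x : G) ∈ E} :=
    ⟨fun x hx => Subtype.ext (hsq _ hx), fun x hx h => hn1 _ hx (congrArg Subtype.val h),
      fun g x hx => hnorm g g.2 _ hx, fun x hx y hy => Or.inr (Subtype.ext (hpw _ hx _ hy))⟩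
  have huE : u ∈ {x : K | (x : G) ∈ E} := hd
  -- map `O → E`
  let φ : O → E := fun o => ⟨((o : K) : G) * d * ((o : K) : G)⁻¹, hnorm _ (o : K).2 d hd⟩
  have hφ : Function.Surjective φ := by
    rintro ⟨t, ht⟩
    obtain ⟨m, hm, hm1, -⟩ := mid_exists hOT hp2 huE (b := ⟨t, hEK ht⟩) ht (Subtype.ext (hpw _ hd _ ht))
    obtain ⟨m', hm', hm2, -⟩ := mid_exists hOT hp2 huE (b := m) hm (Subtype.ext (hpw _ hd _ hm))
    have h1 : m * u ∈ O := by
      have h2 := hz m'
      rw [hOT.inv hm', hm2, hOT.inv huE] at h2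
      exact h2
    refine ⟨⟨m * u, h1⟩, Subtype.ext ?_⟩
    show ((m * u : K) : G) * d * ((m * u : K) : G)⁻¹ = t
    have h3 : (m * u) * u * (m * u)⁻¹ = m * u * m := by
      rw [mul_inv_rev, hOT.inv huE, hOT.inv hm, mul_assoc m u u, hOT.sq u huE, mul_one, ← mul_assoc]
    rw [hm1] at h3
    exact congrArg Subtype.val h3
  have hcard : Nat.card E = C.relIndex O := by
    let ψ : O ⧸ (C.subgroupOf O) → E := Quotient.lift φ (by
      intro a b hab
      rw [← Quotient.eq_iff_equiv, Quotient.eq''] at hab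
      rw [QuotientGroup.leftRel_apply, mem_subgroupOf, hCmem] at hab
      apply Subtype.ext
      show ((a : K) : G) * d * ((a : K) : G)⁻¹ = ((b : K) : G) * d * ((b : K) : G)⁻¹
      have h1 := congrArg Subtype.val hab
      have h2 : (((a : K) : G)⁻¹ * ((b : K) : G)) * d * (((a : K) : G)⁻¹ * ((b : K) : G))⁻¹ = d := h1
      calc ((a : K) : G) * d * ((a : K) : G)⁻¹
          = ((a : K) : G) * ((((a : K) : G)⁻¹ * ((b : K) : G)) * d * (((a : K) : G)⁻¹ * ((b : K) : G))⁻¹) *
              ((a : K) : G)⁻¹ := by rw [h2]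
        _ = _ := by group)
    have hψ : Function.Bijective ψ := by
      constructor
      · intro a b hab
        induction a using Quotient.inductionOn with | _ a
        induction b using Quotient.inductionOn with | _ b
        have h1 : φ a = φ b := hab
        apply Quotient.sound
        show (QuotientGroup.leftRel (C.subgroupOf O)) a b
        rw [QuotientGroup.leftRel_apply, mem_subgroupOf, hCmem]
        apply Subtype.ext
        show (((a : K) : G)⁻¹ * ((b : K) : G)) * d * (((a : K) : G)⁻¹ * ((b : K) : G))⁻¹ = d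
        have h2 : ((a : K) : G) * d * ((a : K) : G)⁻¹ = ((b : K) : G) * d * ((b : K) : G)⁻¹ := congrArg Subtype.val h1
        have h3 : (((a : K) : G)⁻¹ * ((b : K) : G)) * d * (((a : K) : G)⁻¹ * ((b : K) : G))⁻¹ =
            ((a : K) : G)⁻¹ * (((b : K) : G) * d * ((b : K) : G)⁻¹) * ((a : K) : G) := by group
        rw [h3, ← h2]; group
      · intro e
        obtain ⟨o, ho⟩ := hφ e
        exact ⟨Quotient.mk _ o, ho⟩
    rw [relIndex, index]
    exact (Nat.card_eq_of_bijective ψ hψ).symm
  have hE0 : Nat.card E ≠ 0 := by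
    rw [hcard]; exact index_ne_zero_of_finite
  refine ⟨(Nat.card E).primeFactorsList.length, ?_⟩
  apply Nat.eq_prime_pow_of_unique_prime_dvd hE0
  intro r hr hrd
  by_contra hrp
  haveI : Fact r.Prime := ⟨hr⟩
  have hA2 : Nat.card (zpowers u) = 2 := by rw [Nat.card_zpowers, hu2]
  haveI hOn : O.Normal := by rw [hO]; infer_instance
  have hsA : Group.IsSolvable (zpowers u) := Group.isSolvable_of_comm (fun a b => mul_comm' a b)
  obtain ⟨P, hPO, hPr, hPi, hPA⟩ := CoprimeAction.exists_invariant_sylow (A := zpowers u) (K := O)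
    le_normalizer_of_normal (by rw [hA2]; exact Nat.coprime_two_left.2 hOodd) (Or.inl hsA) r
  apply hPi
  rw [hcard] at hrd
  refine hrd.trans (relIndex_dvd_of_le_left O ?_)
  intro g hg
  rw [hCmem]
  have h1 : u * (g * u * g⁻¹) ∈ P := by
    have h2 : u * g * u⁻¹ ∈ P := (mem_normalizer_iff.1 (hPA (mem_zpowers u)) g).1 hg
    have h3 := mul_mem h2 (inv_mem hg)
    rw [hOT.inv huE] at h3
    have h4 : u * (g * u * g⁻¹) = u * g * u * g⁻¹ := by group
    rw [h4]; exact h3
  have h2 : (u * (g * u * g⁻¹)) ^ p = 1 := by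
    apply Subtype.ext
    show (d * ((g : G) * d * (g : G)⁻¹)) ^ p = 1
    exact hpw d hd _ (hnorm g g.2 d hd)
  obtain ⟨k, hk⟩ := (IsPGroup.iff_orderOf.1 hPr) ⟨_, h1⟩
  rw [orderOf_mk] at hk
  have h3 := orderOf_dvd_of_pow_eq_one h2
  rw [hk] at h3
  have h4 : (r ^ k).Coprime p := Nat.Coprime.pow_left _ ((Nat.coprime_primes hr hp).2 hrp)
  have h5 := Nat.Coprime.eq_one_of_dvd h4 h3
  rw [h5, orderOf_eq_one_iff] at hk
  have h6 := eq_inv_of_mul_eq_one_right hk
  rw [hOT.inv huE] at h6
  exact h6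

end Quandle

end Cfsg.Agent.Lib.OddTransp
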