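import Cfsg.Agent.Lib.OddTranspMin

/-!
# The counting argument for minimal odd transposition groups (helper69)
-/

set_option autoImplicit false

namespace Cfsg.Agent.Lib.OddTransp

open Subgroup Pointwise

universe u

theorem end_pow {α : Type*} (f : α → α) (n : ℕ) : ((show Function.End α from f) ^ n : Function.End α) = f^[n] := by
  induction n with
  | zero => rfl
  | succ n ih =>
    rw [pow_succ, ih, Function.iterate_succ]; rfl

theorem fp_mod {α : Type*} [Finite α] {p : ℕ} (hp : p.Prime) (f : α → α) (hf : ∀ a, f^[p] a = a) :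
    Nat.card α ≡ Nat.card {a // f a = a} [MOD p] := by
  classical
  haveI := Fintype.ofFinite α
  haveI : Fact p.Prime := ⟨hp⟩
  have h1 : ((show Function.End α from f) ^ p ^ 1 : Function.End α) = 1 := by
    rw [pow_one, end_pow]
    funext a
    exact hf a
  have h2 := Equiv.Perm.card_fixedPoints_modEq h1
  rw [← Nat.card_eq_fintype_card, ← Nat.card_eq_fintype_card] at h2
  exact h2

theorem card_finset {X : Type*} {D : Set X} (S : Set X) (hS : S ⊆ D) (F : Finset D)
    (hF : ∀ e : D, e ∈ F ↔ (e : X) ∈ S) : F.card = Nat.card S := by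
  classical
  have h1 : ((F.map (Function.Embedding.subtype _) : Finset X) : Set X) = S := by
    ext x
    simp only [Finset.coe_map, Set.mem_image, Finset.mem_coe, Function.Embedding.subtype_apply]
    constructor
    · rintro ⟨e, he, rfl⟩; exact (hF e).1 he
    · intro hx; exact ⟨⟨x, hS hx⟩, (hF _).2 hx, rfl⟩
  rw [← Finset.card_map (Function.Embedding.subtype _), ← Set.ncard_coe_finset, h1, Nat.card_coe_set_eq]

/-- `2 ^ s = p ^ k + 1` forces `k = 1` -/
theorem pow_eq {p s k : ℕ} (hp : Odd p) (hp1 : 1 < p) (hk : k ≠ 0) (h : 2 ^ s = p ^ k + 1) : k = 1 := by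
  obtain ⟨j, hj⟩ := hp
  rcases Nat.even_or_odd k with hke | hko
  · exfalso
    obtain ⟨i, hi⟩ := hke
    have h1 : p ^ k % 4 = 1 := by
      have h2 : p ^ k = (p * p) ^ i := by rw [← pow_two, ← pow_mul]; congr 1; omega
      have h3 : p * p % 4 = 1 := by
        have : p * p = 4 * (j * j + j) + 1 := by rw [hj]; ring
        omega
      rw [h2, Nat.pow_mod, h3]; simp
    have h2 : 2 ^ s % 4 = 2 := by rw [h]; omega
    have hpk : 1 < p ^ k := Nat.one_lt_pow hk hp1
    rcases s with _ | _ | s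
    · simp at h2
    · simp at h; omega
    · have : 2 ^ (s + 2) = 4 * 2 ^ s := by ring
      rw [this] at h2; omega
  · -- `k` odd: `p + 1 = 2 ^ r`
    have h1 : p + 1 ∣ 2 ^ s := by
      rw [h]
      have := Odd.nat_add_dvd_pow_add_pow p 1 hko
      rwa [one_pow] at this
    obtain ⟨r, hrs, hr⟩ := (Nat.dvd_prime_pow Nat.prime_two).1 h1
    obtain ⟨i, hi⟩ := hko
    have hr0 : r ≠ 0 := by rintro rfl; simp at hr; omega
    -- `p * p ≡ 1 mod 2 ^ (r + 1)`
    have h2 : p * p ≡ 1 [MOD 2 ^ (r + 1)] := by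
      have e : p * p - 1 = 2 ^ (r + 1) * ((p - 1) / 2) := by
        have e1 : p * p - 1 = (p + 1) * (p - 1) := by
          have := Nat.sq_sub_sq p 1
          rw [one_pow, pow_two] at this; exact this
        have e2 : p - 1 = 2 * ((p - 1) / 2) := by omega
        rw [e1, hr, pow_succ, mul_assoc, ← e2]
      exact ((Nat.modEq_iff_dvd' (by nlinarith)).2 ⟨_, e⟩).symm
    have h3 : p ^ k ≡ p [MOD 2 ^ (r + 1)] := by
      have e : p ^ k = (p * p) ^ i * p := by rw [hi, pow_succ, pow_mul, pow_two]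
      rw [e]
      have := (h2.pow i).mul_right p
      rwa [one_pow, one_mul] at this
    have h4 : 2 ^ s ≡ 2 ^ r [MOD 2 ^ (r + 1)] := by
      rw [h, ← hr]; exact h3.add_right 1
    have h5 : s = r := by
      by_contra hne
      have hlt : r + 1 ≤ s := by omega
      have h6 : 2 ^ s ≡ 0 [MOD 2 ^ (r + 1)] := (Nat.modEq_zero_iff_dvd).2 (Nat.pow_dvd_pow 2 hlt)
      have h7 := (h4.symm.trans h6)
      rw [Nat.modEq_zero_iff_dvd] at h7
      have := (Nat.pow_dvd_pow_iff_le_right (by norm_num)).1 h7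
      omega
    rw [h5, ← hr] at h
    have h6 : p ^ k = p ^ 1 := by rw [pow_one]; omega
    exact Nat.pow_right_injective hp1 h6

section A

variable {G : Type u} [Group G] {p : ℕ} {D : Set G}

/-- commuting is an equivalence relation on the class `D` -/
structure BlkH (p : ℕ) (D : Set G) : Prop where
  odd : Odd p
  ot : OT p D
  cls : ∀ d ∈ D, ∀ e ∈ D, ∃ g, g * d * g⁻¹ = e
  eqv : ∀ {s c t : G}, s ∈ D → c ∈ D → t ∈ D → Commute s c → Commute s t → Commute c t
  nonc : ∀ {c : G}, c ∈ D → ∃ t ∈ D, ¬ Commute t c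

variable (M : BlkH p D)

namespace BlkH

/-- the block equivalence relation -/
def std : Setoid D where
  r a b := Commute (a : G) b
  iseqv := ⟨fun a => Commute.refl _, fun h => h.symm, fun {a b c} h1 h2 => M.eqv b.2 a.2 c.2 h1.symm h2⟩

/-- blocks -/
def Blk : Type u := Quotient M.std

/-- the block of a member -/
def bk {c : G} (hc : c ∈ D) : M.Blk := Quotient.mk M.std ⟨c, hc⟩

theorem bk_eq_iff {c d : G} (hc : c ∈ D) (hd : d ∈ D) : M.bk hc = M.bk hd ↔ Commute c d :=
  ⟨fun h => Quotient.exact h, fun h => Quotient.sound h⟩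

theorem exists_bk (b : M.Blk) : ∃ (c : G) (hc : c ∈ D), M.bk hc = b := by
  induction b using Quotient.inductionOn with | _ b
  exact ⟨b, b.2, rfl⟩

instance : MulAction G M.Blk where
  smul g := Quotient.map (fun d : D => (⟨g * d * g⁻¹, M.ot.cj g d d.2⟩ : D)) (by
    intro a b h
    have := Commute.map (show Commute (a : G) b from h) (MulAut.conj g)
    exact this)
  one_smul b := by
    induction b using Quotient.inductionOn with | _ b
    apply Quotient.sound
    show Commute ((1 : G) * b * 1⁻¹) b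
    simp
  mul_smul g h b := by
    induction b using Quotient.inductionOn with | _ b
    apply Quotient.sound
    show Commute ((g * h) * (b : G) * (g * h)⁻¹) (g * (h * b * h⁻¹) * g⁻¹)
    have : (g * h) * (b : G) * (g * h)⁻¹ = g * (h * b * h⁻¹) * g⁻¹ := by group
    rw [this]

theorem smul_bk (g : G) {c : G} (hc : c ∈ D) : g • M.bk hc = M.bk (M.ot.cj g c hc) := rfl

theorem smul_bk_eq_iff {c d : G} (hc : c ∈ D) (hd : d ∈ D) : d • M.bk hc = M.bk hc ↔ Commute d c := by
  rw [smul_bk, bk_eq_iff, M.ot.inv hd]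
  constructor
  · intro h; exact (M.ot.fix M.odd hc hd h.symm).symm
  · intro h
    rw [h.eq, mul_assoc, M.ot.sq d hd, mul_one]

theorem smul_self {d : G} (hd : d ∈ D) : d • M.bk hd = M.bk hd := (M.smul_bk_eq_iff hd hd).2 (Commute.refl d)

theorem smul_smul_self {d : G} (hd : d ∈ D) (b : M.Blk) : d • d • b = b := by
  rw [smul_smul, M.ot.sq d hd, one_smul]

/-- a member fixes exactly its own block -/
theorem eq_bk_of_smul {d : G} (hd : d ∈ D) {b : M.Blk} (h : d • b = b) : b = M.bk hd := by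
  obtain ⟨c, hc, rfl⟩ := M.exists_bk b
  exact (M.bk_eq_iff hc hd).2 ((M.smul_bk_eq_iff hc hd).1 h).symm

/-- members of the block `b` -/
def N (b : M.Blk) : Set G := {d | ∃ h : d ∈ D, M.bk h = b}

theorem N_bk {c : G} (hc : c ∈ D) : M.N (M.bk hc) = Dl D c := by
  ext d
  constructor
  · rintro ⟨h, h1⟩; exact ⟨h, (M.bk_eq_iff h hc).1 h1⟩
  · rintro ⟨h, h1⟩; exact ⟨h, (M.bk_eq_iff h hc).2 h1⟩

/-- members moving the block `b` to `b'` -/
def Sw (b b' : M.Blk) : Set G := {d | d ∈ D ∧ d • b = b'}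

variable [Finite G]

instance : Finite M.Blk := Quotient.finite _

theorem card_N (b b' : M.Blk) : Nat.card (M.N b) = Nat.card (M.N b') := by
  obtain ⟨c, hc, rfl⟩ := M.exists_bk b
  obtain ⟨c', hc', rfl⟩ := M.exists_bk b'
  obtain ⟨g, hg⟩ := M.cls c hc c' hc'
  have hmem : ∀ d, d ∈ M.N (M.bk hc) ↔ g * d * g⁻¹ ∈ M.N (M.bk hc') := by
    intro d
    rw [N_bk, N_bk]
    constructor
    · rintro ⟨h1, h2⟩
      refine ⟨M.ot.cj g d h1, ?_⟩
      rw [← hg]
      exact h2.map (MulAut.conj g)
    · rintro ⟨h1, h2⟩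
      have h3 := M.ot.cj g⁻¹ _ h1
      have h4 := h2.map (MulAut.conj g⁻¹)
      simp only [MulAut.conj_apply] at h4
      rw [← hg] at h4
      have e1 : g⁻¹ * (g * d * g⁻¹) * g⁻¹⁻¹ = d := by group
      have e2 : g⁻¹ * (g * c * g⁻¹) * g⁻¹⁻¹ = c := by group
      rw [e1, e2] at h4
      rw [e1] at h3
      exact ⟨h3, h4⟩
  exact Nat.card_congr ((MulAut.conj g).toEquiv.subtypeEquiv hmem)

theorem card_Sw {b b' : M.Blk} (hne : b ≠ b') : Nat.card (M.Sw b b') = Nat.card (M.N b') := by
  obtain ⟨c, hc, rfl⟩ := M.exists_bk b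
  have h := M.ot
  have hnc : ∀ {d}, d ∈ M.Sw (M.bk hc) b' → ¬ Commute c d := by
    intro d hd hcd
    apply hne
    rw [← hd.2]
    exact ((M.smul_bk_eq_iff hc hd.1).2 hcd.symm).symm
  let φ : M.Sw (M.bk hc) b' → M.N b' := fun d => ⟨d * c * d, h.cj' d.2.1 hc, by
    have := d.2.2
    rw [M.smul_bk] at this
    refine Eq.trans ?_ this
    rw [bk_eq_iff, h.inv d.2.1]⟩
  apply Nat.card_eq_of_bijective φ
  constructor
  · rintro ⟨d, hd⟩ ⟨e, he⟩ hde
    have h1 : d * c * d = e * c * e := congrArg Subtype.val hde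
    exact Subtype.ext (mid_unique M.odd (h.pw hc hd.1 (hnc hd)) (h.pw hc he.1 (hnc he)) h1)
  · rintro ⟨t, ht, htb⟩
    have hct : ¬ Commute c t := by
      intro hh
      apply hne
      rw [← htb, bk_eq_iff]; exact hh
    obtain ⟨m, hm, hmt, -⟩ := mid_exists h M.odd hc ht (h.pw hc ht hct)
    refine ⟨⟨m, hm, ?_⟩, Subtype.ext hmt⟩
    rw [M.smul_bk, ← htb, bk_eq_iff, h.inv hm, hmt]


theorem mem_Sw_comm {b b' : M.Blk} {d : G} (hd : d ∈ M.Sw b b') : d • b' = b := by
  rw [← hd.2]; exact M.smul_smul_self hd.1 b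

theorem N_pos (b : M.Blk) : 0 < Nat.card (M.N b) := by
  obtain ⟨c, hc, rfl⟩ := M.exists_bk b
  haveI : Nonempty (M.N (M.bk hc)) := ⟨⟨c, hc, rfl⟩⟩
  exact Nat.card_pos

/-- there is a product of two noncommuting members fixing no block -/
theorem exists_fpf {d : G} (hd : d ∈ D) : ∃ e ∈ D, ¬ Commute e d ∧ ∀ b : M.Blk, (d * e) • b ≠ b := by
  classical
  by_contra hcon
  push Not at hcon
  haveI := Fintype.ofFinite G
  haveI : Fintype M.Blk := Fintype.ofFinite _
  set m := Nat.card (M.N (M.bk hd)) with hm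
  have hm0 : 0 < m := M.N_pos _
  let S : Finset D := Finset.univ.filter (fun e => ¬ Commute (e : G) d)
  let B : Finset M.Blk := Finset.univ.filter (fun b => b ≠ M.bk hd)
  let r : M.Blk → D → Prop := fun b e => (e : G) • b = d • b
  have hS : S.card = B.card * m := by
    have h1 : ∀ e ∈ S, M.bk e.2 ∈ B := by
      intro e he
      rw [Finset.mem_filter] at he ⊢
      refine ⟨Finset.mem_univ _, ?_⟩
      rw [Ne, M.bk_eq_iff]; exact he.2
    rw [Finset.card_eq_sum_card_fiberwise h1, ← smul_eq_mul, ← Finset.sum_const]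
    apply Finset.sum_congr rfl
    intro b hb
    rw [Finset.mem_filter] at hb
    rw [hm, M.card_N (M.bk hd) b]
    apply card_finset _ (fun x hx => hx.1)
    intro e
    simp only [S, Finset.mem_filter, Finset.mem_univ, true_and]
    constructor
    · rintro ⟨_, h2⟩; exact ⟨e.2, h2⟩
    · rintro ⟨h2, h3⟩
      refine ⟨?_, h3⟩
      intro h4
      apply hb.2
      rw [← h3, M.bk_eq_iff]; exact h4
  have hSne : S.Nonempty := by
    obtain ⟨t, ht, htd⟩ := M.nonc hd
    exact ⟨⟨t, ht⟩, by simp [S, htd]⟩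
  -- fixed count
  have h2 : ∀ b ∈ B, (Finset.univ.bipartiteAbove r b).card = m := by
    intro b hb
    rw [Finset.mem_filter] at hb
    have hne : b ≠ d • b := fun h => hb.2 (M.eq_bk_of_smul hd h.symm)
    rw [hm, M.card_N (M.bk hd) (d • b), ← M.card_Sw hne]
    apply card_finset _ (fun x hx => hx.1)
    intro e
    simp only [Finset.bipartiteAbove, Finset.mem_filter, Finset.mem_univ, true_and, r]
    constructor
    · intro h; exact ⟨e.2, h⟩
    · intro h; exact h.2
  have h3 : ∀ e ∈ S, 2 ≤ (B.bipartiteBelow r e).card := by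
    intro e he
    simp only [S, Finset.mem_filter, Finset.mem_univ, true_and] at he
    obtain ⟨b, hb⟩ := hcon e e.2 he
    have hb' : (e : G) • b = d • b := by
      rw [mul_smul] at hb
      have h5 : d • (d • (e : G) • b) = d • b := congrArg (d • ·) hb
      rwa [M.smul_smul_self hd] at h5
    have hne : b ≠ M.bk hd := by
      intro h
      rw [h, M.smul_self hd, M.smul_bk_eq_iff hd e.2] at hb'
      exact he hb'
    have hne2 : b ≠ d • b := fun h => hne (M.eq_bk_of_smul hd h.symm)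
    show 1 < (B.bipartiteBelow r e).card
    rw [Finset.one_lt_card]
    refine ⟨b, ?_, d • b, ?_, hne2⟩
    · simp only [Finset.bipartiteBelow, Finset.mem_filter, B, r, Finset.mem_univ, true_and]
      exact ⟨hne, hb'⟩
    · simp only [Finset.bipartiteBelow, Finset.mem_filter, B, r, Finset.mem_univ, true_and]
      constructor
      · intro h
        apply hne
        have h5 : d • (d • b) = d • M.bk hd := congrArg (d • ·) h
        rwa [M.smul_smul_self hd, M.smul_self hd] at h5
      · rw [M.smul_smul_self hd, ← hb', M.smul_smul_self e.2]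
  have h4 : ∑ b ∈ B, (Finset.univ.bipartiteAbove r b).card = S.card := by
    rw [Finset.sum_congr rfl h2, Finset.sum_const, smul_eq_mul, hS]
  rw [Finset.sum_card_bipartiteAbove_eq_sum_card_bipartiteBelow] at h4
  have h5 : ∑ e ∈ S, 2 ≤ ∑ e ∈ S, (B.bipartiteBelow r e).card := Finset.sum_le_sum h3
  have h6 : ∑ e ∈ S, (B.bipartiteBelow r e).card ≤ ∑ e, (B.bipartiteBelow r e).card :=
    Finset.sum_le_sum_of_subset (Finset.subset_univ S)
  rw [h4] at h6
  rw [Finset.sum_const, smul_eq_mul] at h5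
  have h7 := hSne.card_pos
  omega

end BlkH

variable {G : Type u} [Group G] {p : ℕ} {D : Set G} (L : MinT p D)

include L in
theorem MinT.b : BlkH p D :=
  ⟨L.odd, L.ot, L.cls, fun hs hc ht h1 h2 => L.eqv hs hc ht h1 h2, fun hc => L.exists_noncomm hc⟩

variable [Finite G]

namespace MinT

/-- distinct members of `Sw b b'` do not commute -/
theorem Sw_noncomm {b b' : L.b.Blk} (hne : b ≠ b') {d e : G} (hd : d ∈ L.b.Sw b b') (he : e ∈ L.b.Sw b b') (hde : d ≠ e) :
    ¬ Commute d e := by
  intro hc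
  have h1 := L.mul_mem hd.1 he.1 hc hde
  apply hne
  rw [L.b.eq_bk_of_smul h1 (b := b) (by rw [mul_smul, he.2, L.b.mem_Sw_comm hd]),
    L.b.eq_bk_of_smul h1 (b := b') (by rw [mul_smul, L.b.mem_Sw_comm he, hd.2])]

theorem Sw_pow {b b' : L.b.Blk} (hne : b ≠ b') {d e : G} (hd : d ∈ L.b.Sw b b') (he : e ∈ L.b.Sw b b') :
    (d * e) ^ p = 1 := by
  by_cases hde : d = e
  · rw [hde, L.b.ot.sq e he.1, one_pow]
  · exact L.b.ot.pw hd.1 he.1 (L.Sw_noncomm hne hd he hde)

/-- `p` divides the number of blocks -/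
theorem dvd_card_Blk (hp : p.Prime) : p ∣ Nat.card L.b.Blk := by
  obtain ⟨c, c', d, t⟩ := L.ex
  obtain ⟨e, he, hed, hf⟩ := L.b.exists_fpf t.he
  have hx : (d * e) ^ p = 1 := L.b.ot.pw t.he he (fun h => hed h.symm)
  have h1 := fp_mod (α := L.b.Blk) hp (fun b => (d * e) • b) (by
    intro a
    rw [smul_iterate, hx]; exact one_smul G a)
  have h2 : Nat.card {a : L.b.Blk // (d * e) • a = a} = 0 := by
    haveI : IsEmpty {a : L.b.Blk // (d * e) • a = a} := ⟨fun a => hf a a.2⟩
    exact Nat.card_of_isEmpty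
  rw [h2] at h1
  exact (Nat.modEq_zero_iff_dvd).1 h1

/-- every product of two noncommuting members has `p`-divisible number of fixed blocks -/
theorem dvd_card_fix (hp : p.Prime) {x : G} (hx : x ^ p = 1) : p ∣ Nat.card {b : L.b.Blk // x • b = b} := by
  have h1 := fp_mod (α := L.b.Blk) hp (fun b => x • b) (by
    intro a
    rw [smul_iterate, hx]; exact one_smul G a)
  exact (Nat.modEq_zero_iff_dvd).1 (h1.symm.trans ((Nat.modEq_zero_iff_dvd).2 (L.dvd_card_Blk hp)))

/-- the block size plus one is a power of two -/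
theorem card_N_add_one (b : L.b.Blk) : ∃ s, Nat.card (L.b.N b) + 1 = 2 ^ s := by
  classical
  obtain ⟨c, hc, rfl⟩ := L.b.exists_bk b
  rw [L.b.N_bk]
  haveI : Fact (Nat.Prime 2) := ⟨Nat.prime_two⟩
  have h1 : IsPGroup 2 (closure (Dl D c)) := by
    intro x
    refine ⟨1, Subtype.ext ?_⟩
    show (x : G) ^ 2 ^ 1 = 1
    rw [pow_one, pow_two, L.sq_a hc x.2]
  obtain ⟨s, hs⟩ := IsPGroup.iff_card.1 h1
  refine ⟨s, ?_⟩
  rw [← hs]
  have h2 : ((closure (Dl D c) : Subgroup G) : Set G) = insert 1 (Dl D c) := by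
    ext x
    constructor
    · intro hx
      by_cases hx1 : x = 1
      · left; exact hx1
      · right
        exact ⟨L.mem_of_mem_a hc hx hx1, L.comm_a hc hx (subset_closure (self_mem hc))⟩
    · rintro (rfl | hx)
      · exact one_mem _
      · exact subset_closure hx
  have h3 : (1 : G) ∉ Dl D c := fun h => L.b.ot.ne 1 h.1 rfl
  have h4 : Nat.card (closure (Dl D c)) = ((closure (Dl D c) : Subgroup G) : Set G).ncard := by
    rw [← Nat.card_coe_set_eq]; rfl
  rw [h4, h2, Set.ncard_insert_of_notMem h3, Nat.card_coe_set_eq]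

/-- the block size is `p` -/
theorem card_N_eq (hp : p.Prime) (b : L.b.Blk) : Nat.card (L.b.N b) = p := by
  obtain ⟨c, c', d, t⟩ := L.ex
  -- two distinct blocks
  have hne : L.b.bk t.hc ≠ L.b.bk t.he := by
    rw [Ne, L.b.bk_eq_iff]; exact fun h => t.n1 h.symm
  have h1 := L.b.card_Sw hne
  have hpos := L.b.N_pos (L.b.bk t.he)
  have hSne : (L.b.Sw (L.b.bk t.hc) (L.b.bk t.he)).Nonempty := by
    rw [← h1] at hpos
    have := (Nat.card_pos_iff.1 hpos).1
    exact Set.nonempty_coe_sort.1 this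
  obtain ⟨k, hk⟩ := quandle_card hp L.b.odd (L.b.Sw (L.b.bk t.hc) (L.b.bk t.he)) hSne
    (fun d hd => L.b.ot.sq d hd.1) (fun d hd => L.b.ot.ne d hd.1)
    (fun d hd e he => ⟨L.b.ot.cj' hd.1 he.1, by
      rw [mul_smul, mul_smul, hd.2, L.b.mem_Sw_comm he, hd.2]⟩)
    (fun d hd e he => L.Sw_pow hne hd he)
  obtain ⟨s, hs⟩ := L.card_N_add_one (L.b.bk t.he)
  rw [← h1, hk] at hs
  have hk0 : k ≠ 0 := by
    rintro rfl
    -- block has at least two elements
    rw [pow_zero, h1, L.b.card_N _ (L.b.bk t.hc)] at hk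
    have h2 : (⟨c, t.hc, rfl⟩ : L.b.N (L.b.bk t.hc)) = ⟨c', t.hc', (L.b.bk_eq_iff _ _).2 t.comm.symm⟩ := by
      haveI := (Nat.card_eq_one_iff_unique.1 hk).1
      exact Subsingleton.elim _ _
    exact t.ne (congrArg Subtype.val h2)
  have h3 := pow_eq L.b.odd hp.one_lt hk0 hs.symm
  rw [h3, pow_one, h1] at hk
  rw [L.b.card_N b (L.b.bk t.he), hk]

include L in
/-- no member centralises the product of two noncommuting members -/
theorem not_comm_prod {d e s : G} (hd : d ∈ D) (he : e ∈ D) (hde : ¬ Commute d e) (hs : s ∈ D)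
    (hsx : Commute s (d * e)) : False := by
  have h := L.b.ot
  have hx := h.pw hd he hde
  have key : ∀ {d e s : G}, d ∈ D → e ∈ D → ¬ Commute d e → s ∈ D → Commute s (d * e) → Commute s d := by
    intro d e s hd he hde hs hsx
    by_contra hn
    have hx := h.pw hd he hde
    have hsd := h.pw hs hd hn
    have h1 : (s * d) * (d * e) * (s * d)⁻¹ = (d * e)⁻¹ := by
      rw [mul_inv_rev, h.inv hs, h.inv hd, mul_inv_rev, h.inv hd, h.inv he]
      have e1 : s * d * (d * e) * (d * s) = s * ((d * d) * (e * d)) * s := by group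
      rw [e1, h.sq d hd, one_mul]
      have h2 : Commute s (e * d) := by
        have h3 := hsx.inv_right
        rwa [mul_inv_rev, h.inv hd, h.inv he] at h3
      rw [h2.eq, mul_assoc, h.sq s hs, mul_one]
    have h2 : ∀ n : ℕ, (s * d) ^ (2 * n + 1) * (d * e) * ((s * d) ^ (2 * n + 1))⁻¹ = (d * e)⁻¹ := by
      intro n
      induction n with
      | zero => rw [mul_zero, zero_add, pow_one]; exact h1
      | succ n ih =>
        have e1 : (s * d) ^ (2 * (n + 1) + 1) = (s * d) * ((s * d) * (s * d) ^ (2 * n + 1)) := by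
          rw [← pow_succ', ← pow_succ']; congr 1
        have e2 : ∀ z w v : G, z * (z * w) * v * (z * (z * w))⁻¹ = z * (z * (w * v * w⁻¹) * z⁻¹) * z⁻¹ := by
          intros; group
        rw [e1, e2, ih]
        have e3 : (s * d) * (d * e)⁻¹ * (s * d)⁻¹ = ((s * d) * (d * e) * (s * d)⁻¹)⁻¹ := by group
        rw [e3, h1, inv_inv, h1]
    obtain ⟨k, hk⟩ := L.b.odd
    have h3 := h2 k
    rw [← hk, hsd, one_mul, inv_one, mul_one] at h3
    have h4 : (d * e) * (d * e) = 1 := by
      nth_rewrite 2 [h3]; exact mul_inv_cancel _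
    have h5 := eq_one_of L.b.odd hx h4
    apply hde
    have h6 := eq_inv_of_mul_eq_one_left h5
    rw [h.inv he] at h6
    rw [h6]
  have h1 : Commute s d := key hd he hde hs hsx
  have h2 : Commute s e := by
    refine key he hd (fun hh => hde hh.symm) hs ?_
    have h3 := hsx.inv_right
    rwa [mul_inv_rev, h.inv hd, h.inv he] at h3
  exact hde (L.b.eqv hs hd he h1 h2)


theorem inv_conj_pow {t y : G} (ht : t * t = 1) (h : t * y * t = y⁻¹) (n : ℕ) : t * y ^ n * t = (y ^ n)⁻¹ := by
  induction n with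
  | zero => rw [pow_zero, mul_one, ht, inv_one]
  | succ n ih =>
    have e1 : t * y ^ (n + 1) * t = (t * y ^ n * t) * (t * y * t) := by
      have : (t * y ^ n * t) * (t * y * t) = t * y ^ n * (t * t) * y * t := by group
      rw [this, ht, mul_one, pow_succ, ← mul_assoc]
    rw [e1, ih, h, ← mul_inv_rev, ← pow_succ']

/-- the members swapping two fixed blocks of `x` invert `x` -/
theorem inverts (hp : p.Prime) {d e : G} (hd : d ∈ D) (he : e ∈ D) (hde : ¬ Commute d e) {i k : L.b.Blk}
    (hik : i ≠ k) (hi : (d * e) • i = i) (hk : (d * e) • k = k) {t : G} (ht : t ∈ L.b.Sw i k) :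
    t * (d * e) * t = (d * e)⁻¹ := by
  have h := L.b.ot
  have hxp := h.pw hd he hde
  set x := d * e with hx
  have hxinv : ∀ b : L.b.Blk, x • b = b → x⁻¹ • b = b := by
    intro b hb
    nth_rewrite 1 [← hb]
    exact inv_smul_smul x b
  -- `t' = x t x⁻¹`
  have hcj : ∀ s ∈ L.b.Sw i k, x * s * x⁻¹ ∈ L.b.Sw i k := by
    intro s hs
    refine ⟨h.cj x s hs.1, ?_⟩
    rw [mul_smul, mul_smul, hxinv i hi, hs.2, hk]
  have ht' := hcj t ht
  set t' := x * t * x⁻¹ with ht'def
  have htt' : t ≠ t' := by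
    intro hh
    refine L.not_comm_prod hd he hde ht.1 ?_
    have h1 : t * x = x * t := by
      have h2 : x * t * x⁻¹ * x = t * x := by rw [← ht'def, ← hh]
      rw [inv_mul_cancel_right] at h2
      exact h2.symm
    exact h1
  have hnc : ¬ Commute t t' := L.Sw_noncomm hik ht ht' htt'
  have hyp := h.pw ht.1 ht'.1 hnc
  have hti : t * (t * t') * t = (t * t')⁻¹ := by
    rw [mul_inv_rev, h.inv ht.1, h.inv ht'.1, ← mul_assoc t t t', h.sq t ht.1, one_mul]
  set y := t * t' with hy
  have hy1 : y ≠ 1 := by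
    intro hh
    apply htt'
    have := eq_inv_of_mul_eq_one_left hh
    rwa [h.inv ht'.1] at this
  haveI : Fact p.Prime := ⟨hp⟩
  have hyo : orderOf y = p := orderOf_eq_prime hyp hy1
  have hdbl : ∀ j : ℕ, ∃ a : ℕ, j ≡ a + a [MOD p] := by
    intro j
    obtain ⟨q, hq⟩ := L.b.odd
    refine ⟨(q + 1) * j, ?_⟩
    have h1 : (q + 1) * j + (q + 1) * j = j + p * j := by rw [hq]; ring
    rw [h1]
    simp [Nat.ModEq]
  have htyn := inv_conj_pow (h.sq t ht.1) hti
  -- `Sw i k = { t y^j }`
  have hSw : ∀ s ∈ L.b.Sw i k, ∃ j : ℕ, s = t * y ^ j := by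
    have hcard : Nat.card (L.b.Sw i k) = p := by rw [L.b.card_Sw hik, L.card_N_eq hp]
    let f : Fin p → L.b.Sw i k := fun j => ⟨t * y ^ (j : ℕ), by
      -- conj of t or t'
      refine ⟨?_, ?_⟩
      · -- member of D
        obtain ⟨a, ha⟩ := hdbl j
        have h1 : t * y ^ (j : ℕ) = (y ^ a)⁻¹ * t * ((y ^ a)⁻¹)⁻¹ := by
          have h2 : (y ^ a)⁻¹ * t = t * y ^ a := by
            rw [← htyn a, mul_assoc, h.sq t ht.1, mul_one]
          rw [h2, inv_inv, mul_assoc, ← pow_add]
          congr 1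
          rw [pow_eq_pow_iff_modEq, hyo]; exact ha
        rw [h1]
        exact h.cj _ t ht.1
      · have h1 : ∀ n : ℕ, y ^ n • i = i := by
          intro n
          induction n with
          | zero => rw [pow_zero, one_smul]
          | succ n ih =>
            rw [pow_succ, mul_smul]
            have : y • i = i := by rw [hy, mul_smul, ht'.2, L.b.mem_Sw_comm ht]
            rw [this, ih]
        rw [mul_smul, h1, ht.2]⟩
    have hinj : Function.Injective f := by
      intro a b hab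
      have h1 : t * y ^ (a : ℕ) = t * y ^ (b : ℕ) := congrArg Subtype.val hab
      have h2 := mul_left_cancel h1
      rw [pow_eq_pow_iff_modEq, hyo] at h2
      exact Fin.ext (Nat.ModEq.eq_of_lt_of_lt h2 a.2 b.2)
    have hbij : Function.Bijective f := by
      rw [Nat.bijective_iff_injective_and_card]
      exact ⟨hinj, by rw [hcard, Nat.card_eq_fintype_card, Fintype.card_fin]⟩
    intro s hs
    obtain ⟨j, hj⟩ := hbij.2 ⟨s, hs⟩
    exact ⟨j, (congrArg Subtype.val hj).symm⟩
  -- `x` commutes with `y`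
  have hxy : x * y * x⁻¹ = y := by
    obtain ⟨j, hj⟩ := hSw _ (hcj t' ht')
    have h1 : x * y * x⁻¹ = t' * (t * y ^ j) := by
      rw [← hj]
      have : x * y * x⁻¹ = (x * t * x⁻¹) * (x * t' * x⁻¹) := by rw [hy]; group
      rw [this]
    have h2 : t' * (t * y ^ j) = y⁻¹ * y ^ j := by
      rw [← mul_assoc]
      congr 1
      rw [hy, mul_inv_rev, h.inv ht.1, h.inv ht'.1]
    rw [h2] at h1
    obtain ⟨r, hr⟩ : ∃ r : ℕ, y⁻¹ * y ^ j = y ^ r := by
      refine ⟨p - 1 + j, ?_⟩
      rw [pow_add]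
      congr 1
      rw [eq_comm, ← mul_eq_one_iff_eq_inv, ← pow_succ]
      have : p - 1 + 1 = p := Nat.sub_add_cancel hp.one_le
      rw [this, hyp]
    rw [hr] at h1
    -- iterate
    have h3 : ∀ n : ℕ, x ^ n * y * (x ^ n)⁻¹ = y ^ (r ^ n) := by
      intro n
      induction n with
      | zero => simp
      | succ n ih =>
        have e1 : x ^ (n + 1) * y * (x ^ (n + 1))⁻¹ = x * (x ^ n * y * (x ^ n)⁻¹) * x⁻¹ := by
          rw [pow_succ']; group
        rw [e1, ih]
        have e2 : x * y ^ r ^ n * x⁻¹ = (x * y * x⁻¹) ^ (r ^ n) := by rw [conj_pow]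
        rw [e2, h1, ← pow_mul, pow_succ', mul_comm]
    have h4 := h3 p
    rw [hxp, one_mul, inv_one, mul_one] at h4
    have h5 : r ^ p ≡ 1 [MOD p] := by
      have : y ^ 1 = y ^ (r ^ p) := by rw [pow_one]; exact h4
      rw [pow_eq_pow_iff_modEq, hyo] at this
      exact this.symm
    have h6 : r ≡ 1 [MOD p] := by
      have h7 : ((r ^ p : ℕ) : ZMod p) = ((1 : ℕ) : ZMod p) := (ZMod.natCast_eq_natCast_iff _ _ _).2 h5
      rw [Nat.cast_pow, ZMod.pow_card] at h7
      exact (ZMod.natCast_eq_natCast_iff _ _ _).1 h7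
    rw [h1]
    have : y ^ r = y ^ 1 := by rw [pow_eq_pow_iff_modEq, hyo]; exact h6
    rw [this, pow_one]
  -- `u = y ^ s * x`
  obtain ⟨q, hq⟩ := L.b.odd
  have hxyc : Commute x y := by
    have h1 : x * y = y * x := by
      have h2 : x * y * x⁻¹ * x = y * x := by rw [hxy]
      rwa [inv_mul_cancel_right] at h2
    exact h1
  clear_value x
  set w := y ^ (q + 1) * x with hw
  clear_value w
  have hwp : w ^ p = 1 := by
    rw [hw, (hxyc.symm.pow_left (q + 1)).mul_pow, ← pow_mul, mul_comm, pow_mul, hyp, one_pow, hxp, one_mul]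
  have hwt : Commute w t := by
    have h1 : x * t = t * y * x := by
      have : t * y = x * t * x⁻¹ := by rw [hy, ← mul_assoc, h.sq t ht.1, one_mul]
      rw [this, inv_mul_cancel_right]
    have h2 : y ^ (q + 1) * t = t * (y ^ (q + 1))⁻¹ := by
      rw [← htyn, ← mul_assoc, ← mul_assoc, h.sq t ht.1, one_mul]
    have h3 : w * t = t * w := by
      rw [hw, mul_assoc, h1, ← mul_assoc, ← mul_assoc, h2]
      have h4 : (y ^ (q + 1))⁻¹ * y = y ^ (q + 1) := by
        have h5 : y ^ (q + 1) * y ^ (q + 1) = y := by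
          rw [← pow_add]
          have : q + 1 + (q + 1) = p + 1 := by omega
          rw [this, pow_succ, hyp, one_mul]
        nth_rewrite 2 [← h5]
        rw [inv_mul_cancel_left]
      rw [mul_assoc t, h4, mul_assoc]
    exact h3
  have hwy : Commute w y := by
    rw [hw]
    exact ((Commute.refl y).pow_left _).mul_left hxyc
  -- `w` centralises the block of `t`
  have hcw : ∀ s ∈ Dl D t, Commute w s := by
    have hmaps : ∀ s ∈ Dl D t, w * s * w⁻¹ ∈ Dl D t := by
      rintro s ⟨hs, hst⟩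
      refine ⟨h.cj w s hs, ?_⟩
      have h1 := hst.map (MulAut.conj w)
      simp only [MulAut.conj_apply] at h1
      rwa [hwt.eq, mul_inv_cancel_right] at h1
    let f : Dl D t → Dl D t := fun s => ⟨w * s * w⁻¹, hmaps s s.2⟩
    have hf : ∀ (n : ℕ) (s : Dl D t), ((f^[n] s : Dl D t) : G) = w ^ n * s * (w ^ n)⁻¹ := by
      intro n
      induction n with
      | zero => intro s; simp
      | succ n ih =>
        intro s
        rw [Function.iterate_succ_apply, ih]
        show w ^ n * (w * s * w⁻¹) * (w ^ n)⁻¹ = _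
        rw [pow_succ]; group
    have h1 := fp_mod (α := Dl D t) hp f (by
      intro s
      apply Subtype.ext
      rw [hf, hwp]; simp)
    have hcard : Nat.card (Dl D t) = p := by
      rw [← L.b.N_bk ht.1, L.card_N_eq hp]
    rw [hcard] at h1
    have h2 : p ∣ Nat.card {s : Dl D t // f s = s} :=
      (Nat.modEq_zero_iff_dvd).1 (h1.symm.trans ((Nat.modEq_zero_iff_dvd).2 dvd_rfl))
    haveI : Nonempty {s : Dl D t // f s = s} := ⟨⟨⟨t, self_mem ht.1⟩, by
      apply Subtype.ext
      show w * t * w⁻¹ = t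
      rw [hwt.eq, mul_inv_cancel_right]⟩⟩
    have h3 : Nat.card (Dl D t) ≤ Nat.card {s : Dl D t // f s = s} := by
      rw [hcard]; exact Nat.le_of_dvd Nat.card_pos h2
    have h4 : Function.Bijective (Subtype.val : {s : Dl D t // f s = s} → Dl D t) := by
      rw [Nat.bijective_iff_injective_and_card]
      exact ⟨Subtype.val_injective, le_antisymm (Nat.card_le_card_of_injective _ Subtype.val_injective) h3⟩
    intro s hs
    obtain ⟨⟨s', hs'⟩, hss⟩ := h4.2 ⟨s, hs⟩
    have h5 : s' = ⟨s, hs⟩ := hss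
    rw [h5] at hs'
    have h6 : w * s * w⁻¹ = s := congrArg Subtype.val hs'
    have h7 : w * s = s * w := by
      have h8 : w * s * w⁻¹ * w = s * w := by rw [h6]
      rwa [inv_mul_cancel_right] at h8
    exact h7
  have hw1 : w = 1 := by
    obtain ⟨c', hc', hne, hcc, hcm⟩ := L.exists_triple ht.1
    have htt := L.tri ht.1 hc' hcc hne.symm hcm ht'.1 (fun hh => hnc hh.symm)
    refine L.cen' htt hwt (hcw c' ⟨hc', hcc.symm⟩) ?_
    have h1 : t' = t * y := by rw [hy, ← mul_assoc, h.sq t ht.1, one_mul]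
    rw [h1]
    exact hwt.mul_right hwy
  have hxe : x = (y ^ (q + 1))⁻¹ := (inv_eq_of_mul_eq_one_right (hw.symm.trans hw1)).symm
  rw [hxe, inv_inv]
  have h1 := htyn (q + 1)
  have h2 : t * (y ^ (q + 1))⁻¹ * t = (t * y ^ (q + 1) * t)⁻¹ := by
    rw [mul_inv_rev, mul_inv_rev, h.inv ht.1, mul_assoc]
  rw [h2, h1, inv_inv]


include L in
theorem false_of_min (hp : p.Prime) : False := by
  have h := L.b.ot
  obtain ⟨c, c', d0, t0⟩ := L.ex
  set i := L.b.bk t0.hc with hi
  set k := L.b.bk t0.he with hk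
  have hik : i ≠ k := by
    rw [hi, hk, Ne, L.b.bk_eq_iff]; exact fun h => t0.n1 h.symm
  have hcard : ∀ {i k : L.b.Blk}, i ≠ k → Nat.card (L.b.Sw i k) = p := fun hne => by rw [L.b.card_Sw hne, L.card_N_eq hp]
  have h2 : 1 < Nat.card (L.b.Sw i k) := by rw [hcard hik]; exact hp.one_lt
  haveI := Finite.one_lt_card_iff_nontrivial.1 h2
  obtain ⟨⟨d, hd⟩, ⟨e, he⟩, hne⟩ := exists_pair_ne (L.b.Sw i k)
  have hde : ¬ Commute d e := L.Sw_noncomm hik hd he (fun hh => hne (Subtype.ext hh))
  have hxp := h.pw hd.1 he.1 hde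
  have hfi : (d * e) • i = i := by rw [mul_smul, he.2, L.b.mem_Sw_comm hd]
  have hfk : (d * e) • k = k := by rw [mul_smul, L.b.mem_Sw_comm he, hd.2]
  have hx1 : d * e ≠ 1 := by
    intro hh
    have := eq_inv_of_mul_eq_one_left hh
    rw [h.inv he.1] at this
    exact hde (by rw [this])
  set I : Set G := {t | t ∈ D ∧ t * (d * e) * t = (d * e)⁻¹} with hI
  have hdI : d ∈ I := ⟨hd.1, by
    rw [mul_inv_rev, h.inv hd.1, h.inv he.1, ← mul_assoc d d e, h.sq d hd.1, one_mul]⟩
  -- moves fixed blocks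
  have hmove : ∀ t ∈ I, ∀ b : L.b.Blk, (d * e) • b = b → t • b ≠ b := by
    intro t ht b hb htb
    have h3 := L.b.eq_bk_of_smul ht.1 htb
    rw [h3, L.b.smul_bk, L.b.bk_eq_iff] at hb
    -- `x t x⁻¹ = x² t`
    have htx : t * (d * e)⁻¹ = (d * e) * t := by
      rw [← ht.2, ← mul_assoc, ← mul_assoc, h.sq t ht.1, one_mul]
    have h4 : (d * e) * t * (d * e)⁻¹ = (d * e) * (d * e) * t := by
      rw [mul_assoc, htx, ← mul_assoc]
    rw [h4] at hb
    have h5 : Commute ((d * e) * (d * e)) t := by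
      have := hb.mul_left (Commute.refl t)
      rwa [mul_assoc _ t t, h.sq t ht.1, mul_one] at this
    have h6 : t * ((d * e) * (d * e)) * t = ((d * e) * (d * e))⁻¹ := by
      have h7 := inv_conj_pow (h.sq t ht.1) ht.2 2
      rwa [pow_two] at h7
    rw [← h5.eq, mul_assoc, h.sq t ht.1, mul_one] at h6
    set x := d * e
    have h8 : (x * x) * (x * x) = 1 := by
      nth_rewrite 2 [h6]; exact mul_inv_cancel _
    have h9 : (x * x) ^ p = 1 := by rw [← pow_two, ← pow_mul, mul_comm, pow_mul, hxp, one_pow]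
    exact hx1 (eq_one_of L.b.odd hxp (eq_one_of L.b.odd h9 h8))
  obtain ⟨a, ha⟩ := quandle_card hp L.b.odd I ⟨d, hdI⟩ (fun t ht => h.sq t ht.1) (fun t ht => h.ne t ht.1)
    (fun t ht t' ht' => ⟨h.cj' ht.1 ht'.1, by
      have e1 : t * t' * t * (d * e) * (t * t' * t) = t * (t' * (t * (d * e) * t) * t') * t := by group
      have e2 : t' * (d * e)⁻¹ * t' = d * e := by
        have := congrArg (·⁻¹) ht'.2
        simp only [mul_inv_rev, inv_inv] at this
        rw [h.inv ht'.1] at this
        rw [mul_inv_rev, mul_assoc]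
        exact this
      rw [e1, ht.2, e2, ht.2]⟩)
    (fun t ht t' ht' => by
      by_cases htt : t = t'
      · rw [htt, h.sq t' ht'.1, one_pow]
      refine h.pw ht.1 ht'.1 ?_
      intro hc
      refine L.not_comm_prod hd.1 he.1 hde (L.mul_mem ht.1 ht'.1 hc htt) ?_
      have e1 : (t * t') * (d * e) * (t' * t) = d * e := by
        have e2 : (t * t') * (d * e) * (t' * t) = t * (t' * (d * e) * t') * t := by group
        rw [e2, ht'.2]
        have := congrArg (·⁻¹) ht.2
        simp only [mul_inv_rev, inv_inv] at this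
        rw [h.inv ht.1] at this
        rw [mul_inv_rev, mul_assoc]
        exact this
      have e3 : (t * t') * (d * e) = (d * e) * (t * t') := by
        have e4 : (t * t') * (d * e) * (t' * t) * (t * t') = (d * e) * (t * t') := by rw [e1]
        have e5 : (t * t') * (d * e) * (t' * t) * (t * t') = (t * t') * (d * e) := by
          rw [mul_assoc _ (t' * t), mul_assoc t' t, ← mul_assoc t t t', h.sq t ht.1, one_mul, h.sq t' ht'.1, mul_one]
        rw [← e5, e4]
      exact e3)
  -- count `I`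
  classical
  haveI : Fintype L.b.Blk := Fintype.ofFinite _
  set F : Set L.b.Blk := {b | (d * e) • b = b} with hF
  have hfix : p ∣ Nat.card F := L.dvd_card_fix hp hxp
  set F' : Set L.b.Blk := {b | (d * e) • b = b ∧ b ≠ i} with hF'
  have hFF' : Nat.card F = Nat.card F' + 1 := by
    have h3 : F = insert i F' := by
      ext b
      simp only [hF, hF', Set.mem_setOf_eq, Set.mem_insert_iff]
      constructor
      · intro hb
        by_cases hbi : b = i
        · left; exact hbi
        · right; exact ⟨hb, hbi⟩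
      · rintro (rfl | hb)
        · exact hfi
        · exact hb.1
    have h4 : i ∉ F' := fun hh => hh.2 rfl
    rw [Nat.card_coe_set_eq, Nat.card_coe_set_eq, h3, Set.ncard_insert_of_notMem h4]
  have hIc : Nat.card I = Nat.card F' * p := by
    let φ : (Σ b : F', L.b.Sw i b) → I :=
      fun x => ⟨x.2, x.2.2.1, L.inverts hp hd.1 he.1 hde (fun hh => x.1.2.2 hh.symm) hfi x.1.2.1 x.2.2⟩
    have hφ : Function.Bijective φ := by
      constructor
      · rintro ⟨⟨b, hb⟩, ⟨t, ht1, ht2⟩⟩ ⟨⟨b', hb'⟩, ⟨t', ht1', ht2'⟩⟩ hh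
        have h3 : t = t' := congrArg Subtype.val hh
        subst h3
        have h4 : b = b' := ht2.symm.trans ht2'
        subst h4
        rfl
      · intro t
        refine ⟨⟨⟨(t : G) • i, ?_, hmove t t.2 i hfi⟩, ⟨t, t.2.1, rfl⟩⟩, rfl⟩
        have h3 : (d * e) * (t : G) = t * (d * e)⁻¹ := by
          rw [← t.2.2, ← mul_assoc, ← mul_assoc, h.sq _ t.2.1, one_mul]
        show (d * e) • (t : G) • i = (t : G) • i
        rw [smul_smul, h3, mul_smul]
        have h4 : (d * e)⁻¹ • i = i := by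
          nth_rewrite 1 [← hfi]; exact inv_smul_smul _ _
        rw [h4]
    rw [← Nat.card_eq_of_bijective φ hφ, Nat.card_sigma]
    rw [Finset.sum_congr rfl (fun b _ => hcard (fun hh => b.2.2 hh.symm) : ∀ b ∈ Finset.univ, Nat.card (L.b.Sw i ((b : F') : L.b.Blk)) = p)]
    rw [Finset.sum_const, smul_eq_mul, Finset.card_univ, Nat.card_eq_fintype_card]
  have hF'pos : 0 < Nat.card F' := by
    haveI : Nonempty F' := ⟨⟨k, hfk, hik.symm⟩⟩
    exact Nat.card_pos
  rw [hIc] at ha
  have hp3 := hp.two_le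
  rcases a with _ | a
  · rw [pow_zero] at ha
    have := Nat.eq_one_of_mul_eq_one_left ha
    omega
  · rw [pow_succ] at ha
    have h3 := Nat.eq_of_mul_eq_mul_right hp.pos ha
    rw [h3] at hFF'
    rcases a with _ | a
    · rw [hFF', pow_zero] at hfix
      have h4 : p = 2 := (Nat.prime_dvd_prime_iff_eq hp Nat.prime_two).1 hfix
      have := L.b.odd
      rw [h4] at this
      exact absurd this (by decide)
    · rw [hFF', Nat.dvd_add_right (dvd_pow_self p (Nat.succ_ne_zero a))] at hfix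
      exact hp.one_lt.ne' (Nat.dvd_one.1 hfix)

end MinT

end A

end Cfsg.Agent.Lib.OddTransp
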