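import Cfsg.Agent.Lib.OddTranspCount

/-!
# No type `2p` triples in odd transposition groups (helper69)
-/

set_option autoImplicit false

namespace Cfsg.Agent.Lib.OddTransp

open Subgroup Pointwise

universe u

section A

variable {G : Type u} [Group G] {p : ℕ} {D : Set G}

/-- commuting modulo `N` implies commuting -/
theorem comm_of_quot (h : OT p D) (hp : Odd p) (N : Subgroup G) [N.Normal]
    (hN : ∀ d ∈ D, ∀ e ∈ D, d * e ∈ N → Commute d e) {d e : G} (hd : d ∈ D) (he : e ∈ D)
    (hc : Commute (d : G ⧸ N) (e : G ⧸ N)) : Commute d e := by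
  by_contra hn
  apply hn
  apply hN d hd e he
  obtain ⟨k, hk⟩ := hp
  have h1 := h.pw hd he hn
  have h2 : (d * e) * (d * e) ∈ N := by
    rw [← QuotientGroup.eq_one_iff]
    have h3 : ((d * e * (d * e) : G) : G ⧸ N) = ((d : G ⧸ N) * e) * (d * e) := rfl
    rw [h3]
    apply mul_comm_of_comm_sq
    · rw [← QuotientGroup.mk_mul, h.sq d hd]; rfl
    · rw [← QuotientGroup.mk_mul, h.sq e he]; rfl
    · exact hc
  have h3 : d * e = ((d * e) * (d * e)) ^ (k + 1) := by
    rw [← pow_two, ← pow_mul]
    have : 2 * (k + 1) = p + 1 := by omega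
    rw [this, pow_succ, h1, one_mul]
  rw [h3]
  exact pow_mem h2 _

theorem quot_ot (h : OT p D) (N : Subgroup G) [N.Normal] (hne : ∀ d ∈ D, d ∉ N) :
    OT p ((fun g : G => (g : G ⧸ N)) '' D) := by
  refine ⟨?_, ?_, ?_, ?_⟩
  · rintro _ ⟨d, hd, rfl⟩
    show (d : G ⧸ N) * d = 1
    rw [← QuotientGroup.mk_mul, h.sq d hd]; rfl
  · rintro _ ⟨d, hd, rfl⟩ hh
    exact hne d hd ((QuotientGroup.eq_one_iff d).1 hh)
  · rintro g _ ⟨d, hd, rfl⟩
    induction g using QuotientGroup.induction_on with | _ g
    exact ⟨g * d * g⁻¹, h.cj g d hd, rfl⟩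
  · rintro _ ⟨d, hd, rfl⟩ _ ⟨e, he, rfl⟩
    rcases h.od d hd e he with h1 | h1
    · left; exact h1.map (QuotientGroup.mk' N)
    · right
      show ((d : G ⧸ N) * e) ^ p = 1
      rw [← QuotientGroup.mk_mul, ← QuotientGroup.mk_pow, h1]; rfl

theorem quot_t2p (h : OT p D) (hp : Odd p) (N : Subgroup G) [N.Normal]
    (hN : ∀ d ∈ D, ∀ e ∈ D, d * e ∈ N → Commute d e) {c c' e : G} (t : T2p D c c' e) :
    T2p ((fun g : G => (g : G ⧸ N)) '' D) (c : G ⧸ N) (c' : G ⧸ N) (e : G ⧸ N) := by
  refine ⟨⟨c, t.hc, rfl⟩, ⟨c', t.hc', rfl⟩, ⟨e, t.he, rfl⟩, t.comm.map (QuotientGroup.mk' N), ?_, ?_, ?_, ?_⟩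
  · intro hh
    apply t.n3
    apply comm_of_quot h hp N hN t.he (h.cj _ e t.he)
    have h1 : ((c * c' : G) : G ⧸ N) = 1 := by
      rw [QuotientGroup.mk_mul, hh, ← QuotientGroup.mk_mul, h.sq c' t.hc']; rfl
    have h2 : (((c * c') * e * (c * c')⁻¹ : G) : G ⧸ N) = (e : G ⧸ N) := by
      rw [QuotientGroup.mk_mul, QuotientGroup.mk_mul, QuotientGroup.mk_inv, h1, one_mul, inv_one, mul_one]
    rw [h2]
  · exact fun hh => t.n1 (comm_of_quot h hp N hN t.he t.hc hh)
  · exact fun hh => t.n2 (comm_of_quot h hp N hN t.he t.hc' hh)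
  · exact fun hh => t.n3 (comm_of_quot h hp N hN t.he (h.cj _ e t.he) hh)

end A

/-- no type `2p` triples -/
theorem no_t2p {p : ℕ} (hp : p.Prime) (hp2 : Odd p) : ∀ (n : ℕ) (T : Type u) [Group T] [Finite T], Nat.card T ≤ n →
    ∀ (D : Set T), OT p D → ∀ c c' e : T, T2p D c c' e → False := by
  intro n
  induction n with
  | zero =>
    intro T _ _ hT
    have := Nat.card_pos (α := T)
    omega
  | succ n IH =>
    intro T _ _ hT D0 h0 c c' e t0
    -- every triple generates
    have hgen0 : ∀ D : Set T, OT p D → ∀ c c' e : T, T2p D c c' e → closure {c, c', e} = ⊤ := by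
      intro D h c c' e t
      by_contra hne
      set H : Subgroup T := closure {c, c', e} with hH
      have hlt : Nat.card H < Nat.card T :=
        lt_of_le_of_ne (Subgroup.card_le_card_group H) (fun hh => hne (Subgroup.eq_top_of_card_eq H hh))
      have hcH : c ∈ H := subset_closure (by simp)
      have hcH' : c' ∈ H := subset_closure (by simp)
      have heH : e ∈ H := subset_closure (by simp)
      refine IH H (by omega) {x | (x : T) ∈ D} ⟨fun x hx => Subtype.ext (h.sq _ hx),
        fun x hx hh => h.ne _ hx (congrArg Subtype.val hh), fun g x hx => h.cj _ _ hx, fun x hx y hy => ?_⟩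
        ⟨c, hcH⟩ ⟨c', hcH'⟩ ⟨e, heH⟩ ⟨t.hc, t.hc', t.he, Subtype.ext t.comm.eq, fun hh => t.ne (congrArg Subtype.val hh),
        fun hh => t.n1 (congrArg Subtype.val hh.eq), fun hh => t.n2 (congrArg Subtype.val hh.eq),
        fun hh => t.n3 (congrArg Subtype.val hh.eq)⟩
      rcases h.od x hx y hy with h1 | h1
      · left; exact Subtype.ext h1.eq
      · right; exact Subtype.ext h1
    -- pass to the class of `e`
    set D : Set T := {x | ∃ g : T, g * e * g⁻¹ = x} with hD
    have hDD : D ⊆ D0 := by rintro _ ⟨g, rfl⟩; exact h0.cj g e t0.he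
    have h : OT p D := ⟨fun d hd => h0.sq d (hDD hd), fun d hd => h0.ne d (hDD hd), by
      rintro g _ ⟨k, rfl⟩
      exact ⟨g * k, by group⟩, fun d hd e he => h0.od d (hDD hd) e (hDD he)⟩
    have heD : e ∈ D := ⟨1, by simp⟩
    have hin : ∀ x ∈ D0, ¬ Commute e x → x ∈ D := by
      intro x hx hex
      obtain ⟨m, hm, hm1, -⟩ := mid_exists h0 hp2 t0.he hx (h0.pw t0.he hx hex)
      exact ⟨m, by rw [h0.inv hm]; exact hm1⟩
    have t : T2p D c c' e := ⟨hin c t0.hc t0.n1, hin c' t0.hc' t0.n2, heD, t0.comm, t0.ne, t0.n1, t0.n2, t0.n3⟩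
    have hDgen : closure D = ⊤ := by
      rw [eq_top_iff, ← hgen0 D h c c' e t]
      apply Subgroup.closure_mono
      rintro x (rfl | rfl | rfl)
      · exact t.hc
      · exact t.hc'
      · exact t.he
    -- quotient argument
    have hq : ∀ N : Subgroup T, N.Normal → (∀ d ∈ D, ∀ e ∈ D, d * e ∈ N → Commute d e) → N = ⊥ := by
      intro N hNn hN
      by_contra hne
      have hlt : Nat.card (T ⧸ N) < Nat.card T := by
        rw [N.card_eq_card_quotient_mul_card_subgroup]
        have h1 : 1 < Nat.card N := by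
          rw [Finite.one_lt_card_iff_nontrivial]
          exact (nontrivial_iff_ne_bot N).2 hne
        have h2 : 0 < Nat.card (T ⧸ N) := Nat.card_pos
        nlinarith
      refine IH (T ⧸ N) (by omega) _ (quot_ot h N ?_) _ _ _ (quot_t2p h hp2 N hN t)
      intro d hd hdN
      obtain ⟨g, hg⟩ := hd
      have heN : e ∈ N := by
        have h1 := hNn.conj_mem d hdN g⁻¹
        rw [← hg] at h1
        have e1 : g⁻¹ * (g * e * g⁻¹) * g⁻¹⁻¹ = e := by group
        rwa [e1] at h1
      obtain ⟨k, hk⟩ := t.hc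
      have hcN : c ∈ N := by rw [← hk]; exact hNn.conj_mem e heN k
      exact t.n1 (hN e heD c t.hc (N.mul_mem heN hcN))
    have M : MinT p D := by
      refine ⟨hp2, h, ?_, ?_, ⟨c, c', e, t⟩, hgen0 D h, ?_⟩
      · rintro _ ⟨g, rfl⟩ _ ⟨k, rfl⟩
        exact ⟨k * g⁻¹, by group⟩
      · intro g hg
        have h1 : g ∈ center T := by
          rw [mem_center_iff]
          intro x
          have hle : closure D ≤ centralizer {g} := by
            rw [closure_le]
            intro d hd
            exact mem_centralizer_singleton_iff.2 (hg d hd).eq.symm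
          rw [hDgen] at hle
          exact mem_centralizer_singleton_iff.1 (hle (trivial : x ∈ ⊤))
        have h2 := hq (center T) inferInstance (by
          intro d hd e he hde
          have h3 := mem_center_iff.1 hde d
          have h4 : d * (d * e) = e := by rw [← mul_assoc, h.sq d hd, one_mul]
          rw [h4] at h3
          have h5 : e * d = d * e := by
            have h6 : e * d = (d * e * d) * d := by rw [← h3]
            rw [h6, mul_assoc, h.sq d hd, mul_one]
          exact h5.symm)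
        rw [h2] at h1
        exact mem_bot.1 h1
      · intro V hVn hV
        apply hq V hVn
        intro d hd e he hde
        have h1 := eq_inv_of_mul_eq_one_left (hV _ hde)
        rw [mul_inv_rev, h.inv hd, h.inv he] at h1
        exact h1
    exact M.false_of_min hp

end Cfsg.Agent.Lib.OddTransp
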