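import Cfsg.Agent.Lib.OddTransp

/-!
# Minimal odd transposition groups with a type `2p` triple (helper69)
-/

set_option autoImplicit false

namespace Cfsg.Agent.Lib.OddTransp

open Subgroup Pointwise

universe u

section A

variable {G : Type u} [Group G] {p : ℕ} {D : Set G}

theorem comm_closure {S : Set G} (hc : ∀ x ∈ S, ∀ y ∈ S, Commute x y) :
    ∀ v ∈ closure S, ∀ w ∈ closure S, Commute v w := by
  have h1 : ∀ x ∈ S, ∀ w ∈ closure S, Commute x w := by
    intro x hx w hw
    induction hw using closure_induction with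
    | mem y hy => exact hc x hx y hy
    | one => exact Commute.one_right x
    | mul a b _ _ ha hb => exact ha.mul_right hb
    | inv a _ ha => exact ha.inv_right
  intro v hv w hw
  induction hv using closure_induction with
  | mem y hy => exact h1 y hy w hw
  | one => exact Commute.one_left w
  | mul a b _ _ ha hb => exact ha.mul_left hb
  | inv a _ ha => exact ha.inv_left

theorem sq_closure {S : Set G} (hS : ∀ x ∈ S, x * x = 1) (hc : ∀ x ∈ S, ∀ y ∈ S, Commute x y) :
    ∀ v ∈ closure S, v * v = 1 := by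
  intro v hv
  have hcc := comm_closure hc
  induction hv using closure_induction with
  | mem y hy => exact hS y hy
  | one => exact one_mul 1
  | mul a b ha hb h1 h2 => exact mul_comm_of_comm_sq h1 h2 (hcc a ha b hb)
  | inv a _ ha => rw [← mul_inv_rev, ha, inv_one]

/-- a member of `D` commuting with its conjugate by a member of `D` commutes with that member -/
theorem OT.fix (h : OT p D) (hp : Odd p) {c d : G} (hc : c ∈ D) (hd : d ∈ D) (hcd : Commute c (d * c * d)) :
    Commute c d := by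
  by_contra hn
  have h1 := h.pw hc hd hn
  have e : c * (d * c * d) = (c * d) * (c * d) := by group
  have h2 := mul_comm_of_comm_sq (h.sq c hc) (h.sq _ (h.cj' hd hc)) hcd
  rw [e] at h2
  have h3 : ((c * d) * (c * d)) ^ p = 1 := by rw [← pow_two, ← pow_mul, mul_comm 2 p, pow_mul, h1, one_pow]
  have h4 := eq_one_of hp h3 h2
  have h5 := eq_one_of hp h1 h4
  apply hn
  have h6 := eq_inv_of_mul_eq_one_left h5
  rw [h.inv hd] at h6
  rw [h6]

/-- the midpoint commutes with every involution `z` swapping the two points -/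
theorem mid_comm (h : OT p D) (hp : Odd p) {z e m : G} (hz : z * z = 1) (he : e ∈ D) (hm : m ∈ D)
    (hmb : m * e * m = z * e * z⁻¹) (hn : ¬ Commute e (z * e * z⁻¹)) : Commute m z := by
  have hzi : z⁻¹ = z := inv_of_sq hz
  have hnm : ∀ m' ∈ D, m' * e * m' = z * e * z⁻¹ → (e * m') ^ p = 1 := by
    intro m' hm' hh
    apply h.pw he hm'
    intro hc
    apply hn
    rw [← hh, ← hc.eq, mul_assoc, h.sq m' hm', mul_one]
  have h1 : z * m * z⁻¹ = m := by
    apply mid_unique hp (hnm _ (h.cj z m hm) ?_) (hnm m hm hmb)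
    · rw [hmb]
      have e1 : z * m * z⁻¹ * e * (z * m * z⁻¹) = z * (m * (z⁻¹ * e * z) * m) * z⁻¹ := by group
      rw [e1]
      have e2 : m * (z⁻¹ * e * z) * m = e := by
        have : z⁻¹ * e * z = m * e * m := by rw [hmb, hzi]
        rw [this]
        have : m * (m * e * m) * m = (m * m) * e * (m * m) := by group
        rw [this, h.sq m hm, one_mul, mul_one]
      rw [e2]
    · have e1 : z * m * z⁻¹ * e * (z * m * z⁻¹) = z * (m * (z⁻¹ * e * z) * m) * z⁻¹ := by group
      rw [e1]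
      have e2 : m * (z⁻¹ * e * z) * m = e := by
        have : z⁻¹ * e * z = m * e * m := by rw [hmb, hzi]
        rw [this]
        have : m * (m * e * m) * m = (m * m) * e * (m * m) := by group
        rw [this, h.sq m hm, one_mul, mul_one]
      rw [e2]
  have h2 : z * m = m * z := by
    have h3 : z * m * z⁻¹ * z = m * z := by rw [h1]
    rwa [inv_mul_cancel_right] at h3
  exact h2.symm

/-- type `2p` triple -/
structure T2p (D : Set G) (c c' e : G) : Prop where
  hc : c ∈ D
  hc' : c' ∈ D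
  he : e ∈ D
  comm : Commute c c'
  ne : c ≠ c'
  n1 : ¬ Commute e c
  n2 : ¬ Commute e c'
  n3 : ¬ Commute e ((c * c') * e * (c * c')⁻¹)

structure MinT (p : ℕ) (D : Set G) : Prop where
  odd : Odd p
  ot : OT p D
  cls : ∀ d ∈ D, ∀ e ∈ D, ∃ g, g * d * g⁻¹ = e
  cen : ∀ g : G, (∀ d ∈ D, Commute g d) → g = 1
  ex : ∃ c c' e, T2p D c c' e
  gen : ∀ c c' e, T2p D c c' e → closure {c, c', e} = ⊤
  nrm : ∀ V : Subgroup G, V.Normal → (∀ v ∈ V, v * v = 1) → V = ⊥

variable (M : MinT p D)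

include M

namespace MinT

theorem cen' {c c' e g : G} (t : T2p D c c' e) (h1 : Commute g c) (h2 : Commute g c') (h3 : Commute g e) : g = 1 := by
  apply M.cen
  intro d _
  have hle : closure {c, c', e} ≤ centralizer {g} := by
    rw [closure_le]
    rintro x (rfl | rfl | rfl)
    · exact mem_centralizer_singleton_iff.2 h1.eq.symm
    · exact mem_centralizer_singleton_iff.2 h2.eq.symm
    · exact mem_centralizer_singleton_iff.2 h3.eq.symm
  rw [M.gen _ _ _ t] at hle
  exact (mem_centralizer_singleton_iff.1 (hle (trivial : d ∈ ⊤))).symm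

theorem mul_mem_of_t2p {c c' e : G} (t : T2p D c c' e) : c * c' ∈ D := by
  have h := M.ot
  have hz : (c * c') * (c * c') = 1 := mul_comm_of_comm_sq (h.sq c t.hc) (h.sq c' t.hc') t.comm
  set z := c * c' with hzdef
  have hb : z * e * z⁻¹ ∈ D := h.cj z e t.he
  obtain ⟨m, hm, hme, hem⟩ := mid_exists h M.odd t.he hb (h.pw t.he hb t.n3)
  have hmz : Commute m z := mid_comm h M.odd hz t.he hm hme t.n3
  obtain ⟨hmc, hmc'⟩ := tau h M.odd t.hc t.hc' hm t.comm t.ne hmz
  have hy : z * m = 1 := by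
    apply M.cen' t
    · rw [hzdef]
      exact ((Commute.refl c).mul_left t.comm.symm).mul_left hmc
    · rw [hzdef]
      exact (t.comm.mul_left (Commute.refl c')).mul_left hmc'
    · have h1 : (z * m) * e * (z * m)⁻¹ = e := by
        rw [mul_inv_rev, h.inv hm]
        have e1 : z * m * e * (m * z⁻¹) = z * (m * e * m) * z⁻¹ := by group
        rw [e1, hme, inv_of_sq hz]
        have e2 : z * (z * e * z) * z = (z * z) * e * (z * z) := by group
        rw [e2, hz, one_mul, mul_one]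
      have h2 : (z * m) * e = e * (z * m) := by
        have h3 : (z * m) * e * (z * m)⁻¹ * (z * m) = e * (z * m) := by rw [h1]
        rwa [inv_mul_cancel_right] at h3
      exact h2
  have h2 := eq_inv_of_mul_eq_one_left hy
  rw [h.inv hm] at h2
  rw [h2]; exact hm

theorem exists_triple {c : G} (hc : c ∈ D) : ∃ c' ∈ D, c' ≠ c ∧ Commute c c' ∧ c * c' ∈ D := by
  obtain ⟨c1, c1', e, t⟩ := M.ex
  obtain ⟨g, hg⟩ := M.cls c1 t.hc c hc
  refine ⟨g * c1' * g⁻¹, M.ot.cj g _ t.hc', ?_, ?_, ?_⟩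
  · intro h
    rw [← hg] at h
    apply t.ne
    simpa using h.symm
  · rw [← hg]
    have := t.comm.map (MulAut.conj g)
    simpa using this
  · rw [← hg]
    have := M.ot.cj g _ (M.mul_mem_of_t2p t)
    have e1 : g * c1 * g⁻¹ * (g * c1' * g⁻¹) = g * (c1 * c1') * g⁻¹ := by group
    rw [e1]; exact this

/-- commuting with `c` implies commuting with `c'` -/
theorem comm_right {c c' e : G} (hc : c ∈ D) (hc' : c' ∈ D) (h1 : Commute c c') (h2 : c * c' ∈ D)
    (he : e ∈ D) (hec : Commute e c) : Commute e c' := by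
  have h := M.ot
  have e1 : c' * (c * c') = c := by rw [h1.eq, ← mul_assoc, h.sq c' hc', one_mul]
  refine (tau h M.odd (d := c') (e := c * c') hc' h2 he ?_ ?_ ?_).1
  · exact h1.symm.mul_right (Commute.refl c')
  · intro hh
    exact h.ne c hc (mul_eq_right.1 hh.symm)
  · rw [e1]; exact hec

theorem tri {c c' e : G} (hc : c ∈ D) (hc' : c' ∈ D) (h1 : Commute c c') (hne : c ≠ c') (h2 : c * c' ∈ D)
    (he : e ∈ D) (hec : ¬ Commute e c) : T2p D c c' e := by
  have h := M.ot
  refine ⟨hc, hc', he, h1, hne, hec, ?_, ?_⟩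
  · intro hh
    apply hec
    exact M.comm_right hc' hc h1.symm (by rw [← h1.eq]; exact h2) he hh
  · intro hh
    rw [h.inv h2] at hh
    have := h.fix M.odd he h2 hh
    exact hec (tau h M.odd hc hc' he h1 hne this).1

/-- commuting is an equivalence relation on `D` -/
theorem eqv {s c t : G} (hs : s ∈ D) (hc : c ∈ D) (ht : t ∈ D) (h1 : Commute s c) (h2 : Commute s t) :
    Commute c t := by
  by_contra hn
  obtain ⟨c', hc', hne, hcc, hcm⟩ := M.exists_triple hc
  have htt : T2p D c c' t := M.tri hc hc' hcc hne.symm hcm ht (fun hh => hn hh.symm)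
  have := M.cen' htt h1 (M.comm_right hc hc' hcc hcm hs h1) h2
  exact M.ot.ne s hs this

end MinT

omit M in
/-- the members of `D` commuting with `c` -/
def Dl (D : Set G) (c : G) : Set G := {d | d ∈ D ∧ Commute d c}

namespace MinT

theorem comm_dl {c : G} (hc : c ∈ D) : ∀ x ∈ Dl D c, ∀ y ∈ Dl D c, Commute x y :=
  fun _ hx _ hy => M.eqv hc hx.1 hy.1 hx.2.symm hy.2.symm

theorem comm_a {c : G} (hc : c ∈ D) {x y : G} (hx : x ∈ closure (Dl D c)) (hy : y ∈ closure (Dl D c)) : Commute x y :=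
  comm_closure (M.comm_dl hc) x hx y hy

theorem sq_a {c : G} (hc : c ∈ D) {x : G} (hx : x ∈ closure (Dl D c)) : x * x = 1 :=
  sq_closure (fun x hx => M.ot.sq x hx.1) (M.comm_dl hc) x hx

omit M in
theorem self_mem {c : G} (hc : c ∈ D) : c ∈ Dl D c := ⟨hc, Commute.refl c⟩

theorem f2 {c a t : G} (hc : c ∈ D) (ha : a ∈ closure (Dl D c)) (ht : t ∈ D) (htc : ¬ Commute t c)
    (hat : Commute a t) : a = 1 := by
  obtain ⟨c', hc', hne, hcc, hcm⟩ := M.exists_triple hc
  have htt : T2p D c c' t := M.tri hc hc' hcc hne.symm hcm ht htc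
  exact M.cen' htt (M.comm_a hc ha (subset_closure (self_mem hc)))
    (M.comm_a hc ha (subset_closure ⟨hc', hcc.symm⟩)) hat

/-- the elements of `A(c)` fixing the block of `t` -/
def W (M : MinT p D) {c t : G} (_hc : c ∈ D) (ht : t ∈ D) : Subgroup G where
  carrier := {a | a ∈ closure (Dl D c) ∧ Commute t (a * t * a⁻¹)}
  one_mem' := ⟨one_mem _, by simp⟩
  mul_mem' := by
    rintro a b ⟨ha, ha'⟩ ⟨hb, hb'⟩
    refine ⟨mul_mem ha hb, ?_⟩
    have h1 := hb'.map (MulAut.conj a)
    simp only [MulAut.conj_apply] at h1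
    have e1 : a * (b * t * b⁻¹) * a⁻¹ = a * b * t * (a * b)⁻¹ := by group
    rw [e1] at h1
    exact M.eqv (M.ot.cj a t ht) ht (M.ot.cj _ t ht) ha'.symm h1
  inv_mem' := by
    rintro a ⟨ha, ha'⟩
    refine ⟨inv_mem ha, ?_⟩
    have h1 := ha'.map (MulAut.conj a⁻¹)
    simp only [MulAut.conj_apply] at h1
    have e1 : a⁻¹ * (a * t * a⁻¹) * a⁻¹⁻¹ = t := by group
    rw [e1] at h1
    exact h1.symm

omit M in
theorem mem_W (M : MinT p D) {c t a : G} (hc : c ∈ D) (ht : t ∈ D) :
    a ∈ M.W hc ht ↔ a ∈ closure (Dl D c) ∧ Commute t (a * t * a⁻¹) := Iff.rfl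

/-- conjugates under `W` of the members of the block of `t` -/
theorem w_cj {c t a t' : G} (hc : c ∈ D) (ht : t ∈ D) (ha : a ∈ M.W hc ht) (ht' : t' ∈ Dl D t) :
    a * t' * a⁻¹ ∈ Dl D t := by
  refine ⟨M.ot.cj a t' ht'.1, ?_⟩
  have h1 := ht'.2.map (MulAut.conj a)
  simp only [MulAut.conj_apply] at h1
  exact M.eqv (M.ot.cj a t ht) (M.ot.cj a t' ht'.1) ht h1.symm ha.2.symm

theorem w_mul {c t a t' : G} (hc : c ∈ D) (ht : t ∈ D) (ha : a ∈ M.W hc ht) (ht' : t' ∈ Dl D t) :
    t' * (a * t' * a⁻¹) ∈ M.W ht hc := by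
  have h := M.ot
  have h1 := M.w_cj hc ht ha ht'
  refine ⟨mul_mem (subset_closure ht') (subset_closure h1), ?_⟩
  by_cases ha1 : a = 1
  · subst ha1
    rw [one_mul, inv_one, mul_one, h.sq t' ht'.1]
    simp
  set w := t' * (a * t' * a⁻¹) with hw
  have haa : a * a = 1 := M.sq_a hc ha.1
  have hwa : a * w = w * a := by
    have h2 : a * w = (a * t' * a⁻¹) * (a * a) * t' * a⁻¹ := by rw [hw]; group
    rw [h2, haa, mul_one]
    have h3 : w * a = t' * (a * t' * a⁻¹) * a := by rw [hw]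
    rw [h3, M.comm_dl ht t' ht' _ h1 |>.eq, inv_of_sq haa]
  by_contra hn
  apply ha1
  refine M.f2 hc ha.1 (h.cj w c hc) (fun hh => hn hh.symm) ?_
  have h4 : Commute a c := M.comm_a hc ha.1 (subset_closure (self_mem hc))
  have h5 : Commute a w := hwa
  exact (h5.mul_right h4).mul_right h5.inv_right

theorem w_comm {c t a b : G} (hc : c ∈ D) (ht : t ∈ D) (hct : ¬ Commute t c) (ha : a ∈ M.W hc ht)
    (hb : b ∈ M.W ht hc) : Commute a b := by
  have hA : ∀ {c t a : G} (hc : c ∈ D) (ht : t ∈ D) (_ : a ∈ M.W hc ht), ∀ x ∈ closure (Dl D t), a * x * a⁻¹ ∈ closure (Dl D t) := by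
    intro c t a hc ht ha x hx
    induction hx using closure_induction with
    | mem y hy => exact subset_closure (M.w_cj hc ht ha hy)
    | one => simp
    | mul x y _ _ h1 h2 =>
      have e1 : a * (x * y) * a⁻¹ = (a * x * a⁻¹) * (a * y * a⁻¹) := by group
      rw [e1]; exact mul_mem h1 h2
    | inv x _ h1 =>
      have e1 : a * x⁻¹ * a⁻¹ = (a * x * a⁻¹)⁻¹ := by group
      rw [e1]; exact inv_mem h1
  have h1 : a * b * a⁻¹ * b⁻¹ ∈ closure (Dl D t) := mul_mem (hA hc ht ha b hb.1) (inv_mem hb.1)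
  have h2 : a * b * a⁻¹ * b⁻¹ ∈ closure (Dl D c) := by
    have e1 : a * b * a⁻¹ * b⁻¹ = a * (b * a⁻¹ * b⁻¹) := by group
    rw [e1]
    exact mul_mem ha.1 (hA ht hc hb a⁻¹ (inv_mem ha.1))
  have h3 := M.f2 hc h2 ht hct (M.comm_a ht h1 (subset_closure (self_mem ht)))
  exact (commutatorElement_eq_one_iff_mul_comm.1 h3 : a * b = b * a)

theorem w_norm {c t x : G} (hc : c ∈ D) (ht : t ∈ D) (hx : x ∈ Dl D t) {v : G}
    (hv : v ∈ M.W hc ht ⊔ M.W ht hc) : x * v * x⁻¹ ∈ M.W hc ht ⊔ M.W ht hc := by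
  have hle : M.W hc ht ⊔ M.W ht hc ≤ (M.W hc ht ⊔ M.W ht hc).comap (MulAut.conj x).toMonoidHom := by
    apply sup_le
    · intro a ha
      show x * a * x⁻¹ ∈ (M.W hc ht ⊔ M.W ht hc : Subgroup G)
      have h1 := M.w_mul hc ht ha hx
      rw [M.ot.inv hx.1]
      have e1 : x * a * x = (x * (a * x * a⁻¹)) * a := by group
      rw [e1]
      exact mul_mem (mem_sup_right h1) (mem_sup_left ha)
    · intro b hb
      show x * b * x⁻¹ ∈ (M.W hc ht ⊔ M.W ht hc : Subgroup G)
      have h1 : Commute x b := M.comm_a ht (subset_closure hx) hb.1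
      rw [h1.eq, mul_inv_cancel_right]
      exact mem_sup_right hb
  exact hle hv

theorem w_bot {c t : G} (hc : c ∈ D) (ht : t ∈ D) (hct : ¬ Commute t c) : M.W hc ht ⊔ M.W ht hc = ⊥ := by
  obtain ⟨c', hc', hne, hcc, hcm⟩ := M.exists_triple hc
  have htt : T2p D c c' t := M.tri hc hc' hcc hne.symm hcm ht hct
  apply M.nrm
  · have hle : closure {c, c', t} ≤ normalizer ((M.W hc ht ⊔ M.W ht hc : Subgroup G) : Set G) := by
      rw [closure_le]
      have hinv : ∀ x : G, x * x = 1 → (∀ v ∈ M.W hc ht ⊔ M.W ht hc, x * v * x⁻¹ ∈ M.W hc ht ⊔ M.W ht hc) →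
          x ∈ normalizer ((M.W hc ht ⊔ M.W ht hc : Subgroup G) : Set G) := by
        intro x hx hh
        rw [mem_normalizer_iff]
        intro v
        refine ⟨hh v, fun hv => ?_⟩
        have h1 := hh _ hv
        have e1 : x * (x * v * x⁻¹) * x⁻¹ = (x * x) * v * (x * x)⁻¹ := by group
        rw [e1, hx, one_mul, inv_one, mul_one] at h1
        exact h1
      have hcside : ∀ x ∈ Dl D c, ∀ v ∈ M.W hc ht ⊔ M.W ht hc, x * v * x⁻¹ ∈ M.W hc ht ⊔ M.W ht hc := by
        intro x hx v hv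
        rw [sup_comm] at hv ⊢
        exact M.w_norm ht hc hx hv
      rintro x (rfl | rfl | rfl)
      · exact hinv _ (M.ot.sq _ hc) (hcside _ (self_mem hc))
      · exact hinv _ (M.ot.sq _ hc') (hcside _ ⟨hc', hcc.symm⟩)
      · exact hinv _ (M.ot.sq _ ht) (fun v hv => M.w_norm hc ht (self_mem ht) hv)
    rw [M.gen _ _ _ htt, top_le_iff] at hle
    exact normalizer_eq_top_iff.1 hle
  · rw [sup_eq_closure]
    apply sq_closure
    · rintro x (hx | hx)
      · exact M.sq_a hc hx.1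
      · exact M.sq_a ht hx.1
    · rintro x (hx | hx) y (hy | hy)
      · exact M.comm_a hc hx.1 hy.1
      · exact M.w_comm hc ht hct hx hy
      · exact (M.w_comm hc ht hct hy hx).symm
      · exact M.comm_a ht hx.1 hy.1

/-- an element of `A(c)` fixing another block is trivial -/
theorem f3 {c t a : G} (hc : c ∈ D) (ht : t ∈ D) (hct : ¬ Commute t c) (ha : a ∈ closure (Dl D c))
    (hat : Commute t (a * t * a⁻¹)) : a = 1 := by
  have h1 : a ∈ M.W hc ht ⊔ M.W ht hc := mem_sup_left ⟨ha, hat⟩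
  rw [M.w_bot hc ht hct] at h1
  exact mem_bot.1 h1

theorem exists_noncomm {c : G} (hc : c ∈ D) : ∃ t ∈ D, ¬ Commute t c := by
  obtain ⟨c1, c1', e, t⟩ := M.ex
  obtain ⟨g, hg⟩ := M.cls c1 t.hc c hc
  refine ⟨g * e * g⁻¹, M.ot.cj g _ t.he, ?_⟩
  rw [← hg]
  intro h
  apply t.n1
  have := h.map (MulAut.conj g⁻¹)
  simp only [MulAut.conj_apply] at this
  have e1 : g⁻¹ * (g * e * g⁻¹) * g⁻¹⁻¹ = e := by group
  have e2 : g⁻¹ * (g * c1 * g⁻¹) * g⁻¹⁻¹ = c1 := by group
  rwa [e1, e2] at this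

theorem mem_of_mem_a {c a : G} (hc : c ∈ D) (ha : a ∈ closure (Dl D c)) (ha1 : a ≠ 1) : a ∈ D := by
  have h := M.ot
  obtain ⟨t, ht, htc⟩ := M.exists_noncomm hc
  have haa := M.sq_a hc ha
  have hb : a * t * a⁻¹ ∈ D := h.cj a t ht
  have hn : ¬ Commute t (a * t * a⁻¹) := fun hh => ha1 (M.f3 hc ht htc ha hh)
  obtain ⟨m, hm, hmt, -⟩ := mid_exists h M.odd ht hb (h.pw ht hb hn)
  have hma : Commute m a := mid_comm h M.odd haa ht hm hmt hn
  have hmc : Commute m c := by
    by_contra hh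
    exact ha1 (M.f2 hc ha hm hh hma.symm)
  have h1 : a * m ∈ closure (Dl D c) := mul_mem ha (subset_closure ⟨hm, hmc⟩)
  have h2 : a * m = 1 := by
    apply M.f2 hc h1 ht htc
    have h3 : (a * m) * t * (a * m)⁻¹ = t := by
      rw [mul_inv_rev, h.inv hm]
      have e1 : a * m * t * (m * a⁻¹) = a * (m * t * m) * a⁻¹ := by group
      rw [e1, hmt, inv_of_sq haa]
      have e2 : a * (a * t * a) * a = (a * a) * t * (a * a) := by group
      rw [e2, haa, one_mul, mul_one]
    have h4 : (a * m) * t = t * (a * m) := by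
      have h5 : (a * m) * t * (a * m)⁻¹ * (a * m) = t * (a * m) := by rw [h3]
      rwa [inv_mul_cancel_right] at h5
    exact h4
  have h3 := eq_inv_of_mul_eq_one_left h2
  rw [h.inv hm] at h3
  rw [h3]; exact hm

/-- products of commuting distinct members are members -/
theorem mul_mem {c d : G} (hc : c ∈ D) (hd : d ∈ D) (hcd : Commute c d) (hne : c ≠ d) : c * d ∈ D := by
  apply M.mem_of_mem_a hc
  · exact Subgroup.mul_mem _ (subset_closure (self_mem hc)) (subset_closure ⟨hd, hcd.symm⟩)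
  · intro h
    apply hne
    have := eq_inv_of_mul_eq_one_left h
    rwa [M.ot.inv hd] at this

end MinT

end A

end Cfsg.Agent.Lib.OddTransp
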