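import Mathlib.GroupTheory.Sylow
import Mathlib.GroupTheory.Commutator.Basic
import Cfsg.Prelude.Def_PLocal
import Cfsg.Agent.Lib.ThompsonJ
import Cfsg.Agent.Lib.ProdCard
import Cfsg.Agent.Lib.PAction

/-! Offenders: basic facts (Kurzweil-Stellmacher 9.2). `V` abelian subgroup of `G`, `A ≤ N_G(V)`. -/

set_option autoImplicit false

namespace Cfsg.Agent.Lib.OffenderBasic

open Subgroup commutatorElement

variable {G : Type*} [Group G]

section basics

variable {V A : Subgroup G}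

theorem comm_of_mem (hVc : V ≤ centralizer (V : Set G)) {v w : G} (hv : v ∈ V) (hw : w ∈ V) :
    v * w = w * v := (mem_centralizer_iff.mp (hVc hw)) v hv

theorem conj_mem (hAV : A ≤ normalizer (V : Set G)) {a v : G} (ha : a ∈ A) (hv : v ∈ V) : a * v * a⁻¹ ∈ V :=
  (mem_normalizer_iff.mp (hAV ha) v).mp hv

theorem conj_mem' (hAV : A ≤ normalizer (V : Set G)) {a v : G} (ha : a ∈ A) (hv : v ∈ V) : a⁻¹ * v * a ∈ V := by
  have := conj_mem hAV (inv_mem ha) hv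
  rwa [inv_inv] at this

theorem comm_mem (hAV : A ≤ normalizer (V : Set G)) {a v : G} (ha : a ∈ A) (hv : v ∈ V) : ⁅v, a⁆ ∈ V := by
  have : ⁅v, a⁆ = v * (a * v * a⁻¹)⁻¹ := by rw [commutatorElement_def]; group
  rw [this]
  exact mul_mem hv (inv_mem (conj_mem hAV ha hv))

theorem comm_le (hAV : A ≤ normalizer (V : Set G)) : ⁅V, A⁆ ≤ V := by
  rw [commutator_le]
  exact fun v hv a ha => comm_mem hAV ha hv

theorem comm_le' (hAV : A ≤ normalizer (V : Set G)) {U : Subgroup G} (hU : U ≤ V) : ⁅U, A⁆ ≤ V :=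
  (commutator_mono hU le_rfl).trans (comm_le hAV)

/-- commuting action -/
theorem conj_conj_comm (hab : ⁅A, A⁆ ≤ centralizer (V : Set G)) {a b v : G}
    (ha : a ∈ A) (hb : b ∈ A) (hv : v ∈ V) :
    a * (b * v * b⁻¹) * a⁻¹ = b * (a * v * a⁻¹) * b⁻¹ := by
  have h1 : ⁅a⁻¹, b⁻¹⁆ ∈ centralizer (V : Set G) := hab (commutator_mem_commutator (inv_mem ha) (inv_mem hb))
  have h2 := mem_centralizer_iff.mp h1 v hv
  rw [commutatorElement_def, inv_inv, inv_inv] at h2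
  -- h2 : v * (a⁻¹ b⁻¹ a b) = a⁻¹ b⁻¹ a b v
  have h3 : a * (b * v * b⁻¹) * a⁻¹ = b * a * (a⁻¹ * b⁻¹ * a * b * v) * b⁻¹ * a⁻¹ := by group
  rw [h3, ← h2]
  group

/-- `[v, a]` is multiplicative in `v ∈ V`. -/
theorem comm_mul_left (hVc : V ≤ centralizer (V : Set G)) (hAV : A ≤ normalizer (V : Set G)) {a v w : G}
    (ha : a ∈ A) (hv : v ∈ V) (hw : w ∈ V) : ⁅v * w, a⁆ = ⁅v, a⁆ * ⁅w, a⁆ := by
  have h1 : ⁅v * w, a⁆ = v * ⁅w, a⁆ * (a * v * a⁻¹)⁻¹ := by
    simp only [commutatorElement_def]; group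
  rw [h1, mul_assoc, comm_of_mem hVc (comm_mem hAV ha hw) (inv_mem (conj_mem hAV ha hv)), ← mul_assoc]
  congr 1
  simp only [commutatorElement_def]; group

theorem comm_inv_left (hVc : V ≤ centralizer (V : Set G)) (hAV : A ≤ normalizer (V : Set G)) {a v : G}
    (ha : a ∈ A) (hv : v ∈ V) : ⁅v⁻¹, a⁆ = ⁅v, a⁆⁻¹ := by
  have := comm_mul_left hVc hAV ha (inv_mem hv) hv
  rw [inv_mul_cancel, commutatorElement_one_left] at this
  exact eq_inv_of_mul_eq_one_left this.symm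

/-- `[v, ab] = [v, a] * a [v, b] a⁻¹` -/
theorem comm_mul_right (a b v : G) : ⁅v, a * b⁆ = ⁅v, a⁆ * (a * ⁅v, b⁆ * a⁻¹) := by
  simp only [commutatorElement_def]; group

/-- `A` normalizes `[U, A]`. -/
theorem le_normalizer_comm (A U : Subgroup G) : A ≤ normalizer ((⁅U, A⁆ : Subgroup G) : Set G) := by
  intro a ha
  have key : ∀ a ∈ A, ∀ x ∈ ⁅U, A⁆, a * x * a⁻¹ ∈ ⁅U, A⁆ := by
    intro a ha x hx
    refine closure_induction (p := fun x _ => a * x * a⁻¹ ∈ ⁅U, A⁆) ?_ ?_ ?_ ?_ hx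
    · rintro _ ⟨u, hu, b, hb, rfl⟩
      have : a * ⁅u, b⁆ * a⁻¹ = ⁅u, a⁆⁻¹ * ⁅u, a * b⁆ := by
        rw [comm_mul_right]; group
      rw [this]
      exact mul_mem (inv_mem (commutator_mem_commutator hu ha)) (commutator_mem_commutator hu (mul_mem ha hb))
    · simp
    · intro x y _ _ hx hy
      have : a * (x * y) * a⁻¹ = (a * x * a⁻¹) * (a * y * a⁻¹) := by group
      rw [this]; exact mul_mem hx hy
    · intro x _ hx
      have : a * x⁻¹ * a⁻¹ = (a * x * a⁻¹)⁻¹ := by group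
      rw [this]; exact inv_mem hx
  rw [mem_normalizer_iff]
  intro x
  refine ⟨key a ha x, ?_⟩
  intro h
  have := key a⁻¹ (inv_mem ha) _ h
  have h2 : a⁻¹ * (a * x * a⁻¹) * a⁻¹⁻¹ = x := by group
  rwa [h2] at this

theorem normalizer_le_normalizer_centralizer (H : Subgroup G) :
    normalizer (H : Set G) ≤ normalizer ((centralizer (H : Set G) : Subgroup G) : Set G) := by
  have key : ∀ g ∈ normalizer (H : Set G), ∀ x ∈ centralizer (H : Set G), g * x * g⁻¹ ∈ centralizer (H : Set G) := by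
    intro g hg x hx
    rw [mem_centralizer_iff] at hx ⊢
    intro h hh
    have h1 := hx (g⁻¹ * h * g) (by
      have := (mem_normalizer_iff.mp (inv_mem hg) h).mp hh
      rwa [inv_inv] at this)
    have h2 : h * (g * x * g⁻¹) = g * (g⁻¹ * h * g * x) * g⁻¹ := by group
    rw [h2, h1]; group
  intro g hg
  rw [mem_normalizer_iff]
  intro x
  refine ⟨key g hg x, ?_⟩
  intro h
  have := key g⁻¹ (inv_mem hg) _ h
  have h2 : g⁻¹ * (g * x * g⁻¹) * g⁻¹⁻¹ = x := by group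
  rwa [h2] at this

/-- `C_A([U, A])` -/
def star (A U : Subgroup G) : Subgroup G := A ⊓ centralizer ((⁅U, A⁆ : Subgroup G) : Set G)

theorem star_le (A U : Subgroup G) : star A U ≤ A := inf_le_left

theorem le_normalizer_star (A U : Subgroup G) : A ≤ normalizer ((star A U : Subgroup G) : Set G) := by
  have h1 := (le_normalizer_comm A U).trans (normalizer_le_normalizer_centralizer _)
  intro a ha
  rw [mem_normalizer_iff]
  intro x
  have h2 := mem_normalizer_iff.mp (h1 ha) x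
  have h3 : x ∈ A ↔ a * x * a⁻¹ ∈ A := by
    constructor
    · intro h; exact mul_mem (mul_mem ha h) (inv_mem ha)
    · intro h
      have : a⁻¹ * (a * x * a⁻¹) * a ∈ A := mul_mem (mul_mem (inv_mem ha) h) ha
      have h4 : a⁻¹ * (a * x * a⁻¹) * a = x := by group
      rwa [h4] at this
  simp only [star, mem_inf]
  rw [h2, h3]

/-- additivity of `[U, A]` in `U ≤ V`. -/
theorem comm_sup_left (hVc : V ≤ centralizer (V : Set G)) (hAV : A ≤ normalizer (V : Set G)) {U₁ U₂ : Subgroup G}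
    (h1 : U₁ ≤ V) (h2 : U₂ ≤ V) : ⁅U₁ ⊔ U₂, A⁆ = ⁅U₁, A⁆ ⊔ ⁅U₂, A⁆ := by
  apply le_antisymm
  · rw [commutator_le]
    intro u hu a ha
    have hn : U₁ ≤ normalizer (U₂ : Set G) := (h1.trans (hVc.trans (centralizer_le h2))).trans (centralizer_le_normalizer _)
    rw [← SetLike.mem_coe, coe_mul_of_left_le_normalizer_right _ _ hn] at hu
    obtain ⟨u1, hu1, u2, hu2, rfl⟩ := hu
    change ⁅u1 * u2, a⁆ ∈ _
    rw [comm_mul_left hVc hAV ha (h1 hu1) (h2 hu2)]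
    exact mul_mem (mem_sup_left (commutator_mem_commutator hu1 ha)) (mem_sup_right (commutator_mem_commutator hu2 ha))
  · exact sup_le (commutator_mono le_sup_left le_rfl) (commutator_mono le_sup_right le_rfl)

theorem mem_centralizer_of_le {H : Subgroup G} {x : G} (h : H ≤ centralizer ({x} : Set G)) :
    x ∈ centralizer (H : Set G) := by
  rw [mem_centralizer_iff]
  intro y hy
  exact mem_centralizer_singleton_iff.mp (h hy)

theorem le_centralizer_singleton {H : Subgroup G} {x : G} (h : x ∈ centralizer (H : Set G)) :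
    H ≤ centralizer ({x} : Set G) := by
  intro y hy
  rw [mem_centralizer_singleton_iff]
  exact mem_centralizer_iff.mp h y hy

theorem centralizer_sup (H K : Subgroup G) :
    centralizer ((H ⊔ K : Subgroup G) : Set G) = centralizer (H : Set G) ⊓ centralizer (K : Set G) := by
  apply le_antisymm
  · apply le_inf
    · exact centralizer_le (SetLike.coe_subset_coe.mpr le_sup_left)
    · exact centralizer_le (SetLike.coe_subset_coe.mpr le_sup_right)
  · intro x hx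
    apply mem_centralizer_of_le
    exact sup_le (le_centralizer_singleton hx.1) (le_centralizer_singleton hx.2)

theorem star_sup (hVc : V ≤ centralizer (V : Set G)) (hAV : A ≤ normalizer (V : Set G)) {U₁ U₂ : Subgroup G}
    (h1 : U₁ ≤ V) (h2 : U₂ ≤ V) : star A (U₁ ⊔ U₂) = star A U₁ ⊓ star A U₂ := by
  unfold star
  rw [comm_sup_left hVc hAV h1 h2, centralizer_sup, inf_inf_distrib_left]

/-- `[U, A] C_V(A) ≤ C_V(C_A([U, A]))` -/
theorem sup_le_fix_star (hAV : A ≤ normalizer (V : Set G)) {U : Subgroup G} (hU : U ≤ V) :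
    ⁅U, A⁆ ⊔ (V ⊓ centralizer (A : Set G)) ≤ V ⊓ centralizer ((star A U : Subgroup G) : Set G) := by
  apply sup_le
  · apply le_inf (comm_le' hAV hU)
    rw [le_centralizer_iff]
    exact inf_le_right
  · exact inf_le_inf_left _ (centralizer_le (star_le A U))

/-- cyclic case -/
theorem card_cyclic [Finite G] (hVc : V ≤ centralizer (V : Set G)) (hAV : A ≤ normalizer (V : Set G))
    (hab : ⁅A, A⁆ ≤ centralizer (V : Set G)) {u : G} (hu : u ∈ V) :
    Nat.card A * Nat.card ↥(V ⊓ centralizer (A : Set G)) ≤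
      Nat.card ↥(star A (zpowers u)) * Nat.card ↥(⁅zpowers u, A⁆ ⊔ (V ⊓ centralizer (A : Set G))) := by
  set Z := V ⊓ centralizer (A : Set G) with hZ
  set U := zpowers u with hUdef
  have hUV : U ≤ V := by rw [hUdef, zpowers_le]; exact hu
  have key : ∀ a ∈ A, ∀ a' ∈ A, ⁅u, a⁆⁻¹ * ⁅u, a'⁆ ∈ Z → a⁻¹ * a' ∈ star A U := by
    intro a ha a' ha' hz
    have hmem : a⁻¹ * a' ∈ A := mul_mem (inv_mem ha) ha'
    refine mem_inf.mpr ⟨hmem, ?_⟩
    -- y = σ_a(u) σ_a'(u)⁻¹ is fixed by A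
    have hy : (a * u * a⁻¹) * (a' * u * a'⁻¹)⁻¹ ∈ Z := by
      have : ⁅u, a⁆⁻¹ * ⁅u, a'⁆ = (a * u * a⁻¹) * (a' * u * a'⁻¹)⁻¹ := by
        simp only [commutatorElement_def]; group
      rwa [← this]
    -- for all w ∈ U
    have hw : ∀ w ∈ U, (a * w * a⁻¹) * (a' * w * a'⁻¹)⁻¹ ∈ Z := by
      intro w hw
      obtain ⟨k, rfl⟩ := mem_zpowers_iff.mp hw
      have h1 : a * u ^ k * a⁻¹ = (a * u * a⁻¹) ^ k := conj_zpow.symm
      have h2 : a' * u ^ k * a'⁻¹ = (a' * u * a'⁻¹) ^ k := conj_zpow.symm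
      have h3 : Commute (a * u * a⁻¹) (a' * u * a'⁻¹)⁻¹ :=
        comm_of_mem hVc (conj_mem hAV ha hu) (inv_mem (conj_mem hAV ha' hu))
      rw [h1, h2, ← inv_zpow, ← h3.mul_zpow]
      exact zpow_mem hy k
    apply mem_centralizer_of_le
    rw [commutator_le]
    intro w hwU b hb
    have hwV : w ∈ V := hUV hwU
    rw [mem_centralizer_singleton_iff]
    have hz1 := hw w hwU
    obtain ⟨hz1V, hz1c⟩ := mem_inf.mp hz1
    have hz2 := mem_centralizer_iff.mp hz1c b hb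
    -- a c a⁻¹ = a' c a'⁻¹ for c = [w,b]
    have h4 : a * ⁅w, b⁆ * a⁻¹ = a' * ⁅w, b⁆ * a'⁻¹ := by
      have e1 : ∀ x ∈ A, x * ⁅w, b⁆ * x⁻¹ = (x * w * x⁻¹) * (b * (x * w * x⁻¹) * b⁻¹)⁻¹ := by
        intro x hx
        rw [← conj_conj_comm hab hx hb hwV]
        simp only [commutatorElement_def]; group
      rw [e1 a ha, e1 a' ha']
      generalize hY : (a * w * a⁻¹) * (a' * w * a'⁻¹)⁻¹ = Y at hz1V hz2
      have hYV : Y ∈ V := hz1V
      have e2 : a * w * a⁻¹ = Y * (a' * w * a'⁻¹) := by rw [← hY]; group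
      generalize hW : a' * w * a'⁻¹ = W at e2
      have hWV : W ∈ V := by rw [← hW]; exact conj_mem hAV ha' hwV
      rw [e2]
      have e3 : b * (Y * W) * b⁻¹ = Y * (b * W * b⁻¹) := by
        rw [← mul_assoc, hz2]; group
      rw [e3]
      have e4 : Commute Y (W * (b * W * b⁻¹)⁻¹) := comm_of_mem hVc hYV (mul_mem hWV (inv_mem (conj_mem hAV hb hWV)))
      rw [mul_inv_rev, mul_assoc Y, ← mul_assoc W, ← mul_assoc Y, e4.eq, mul_assoc, mul_inv_cancel, mul_one]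
    -- conclude
    have h5 : (a⁻¹ * a') * ⁅w, b⁆ * (a⁻¹ * a')⁻¹ = ⁅w, b⁆ := by
      have : (a⁻¹ * a') * ⁅w, b⁆ * (a⁻¹ * a')⁻¹ = a⁻¹ * (a' * ⁅w, b⁆ * a'⁻¹) * a := by group
      rw [this, ← h4]; group
    calc ⁅w, b⁆ * (a⁻¹ * a') = (a⁻¹ * a' * ⁅w, b⁆ * (a⁻¹ * a')⁻¹) * (a⁻¹ * a') := by rw [h5]
      _ = a⁻¹ * a' * ⁅w, b⁆ := by group
  -- the injection
  have hinj : (star A U).relIndex A ≤ Z.relIndex (⁅U, A⁆ ⊔ Z) := by
    unfold relIndex index
    let f : (A ⧸ (star A U).subgroupOf A) → (↥(⁅U, A⁆ ⊔ Z) ⧸ Z.subgroupOf (⁅U, A⁆ ⊔ Z)) := fun q =>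
      QuotientGroup.mk ⟨⁅u, (q.out : G)⁆, mem_sup_left (commutator_mem_commutator (mem_zpowers u) q.out.2)⟩
    apply Nat.card_le_card_of_injective f
    intro q q' hqq
    have h1 := QuotientGroup.eq.mp hqq
    rw [mem_subgroupOf] at h1
    have h2 := key _ q.out.2 _ q'.out.2 h1
    have h3 : QuotientGroup.mk q.out = (QuotientGroup.mk q'.out : A ⧸ (star A U).subgroupOf A) := by
      rw [QuotientGroup.eq, mem_subgroupOf]
      exact h2
    rwa [QuotientGroup.out_eq', QuotientGroup.out_eq'] at h3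
  have h1 : Nat.card ↥(star A U) * (star A U).relIndex A = Nat.card A := ProdCard.card_mul_relIndex (star_le A U)
  have h2 : Nat.card ↥Z * Z.relIndex (⁅U, A⁆ ⊔ Z) = Nat.card ↥(⁅U, A⁆ ⊔ Z) := ProdCard.card_mul_relIndex le_sup_right
  rw [← h1, ← h2]
  calc Nat.card ↥(star A U) * (star A U).relIndex A * Nat.card ↥Z
      ≤ Nat.card ↥(star A U) * Z.relIndex (⁅U, A⁆ ⊔ Z) * Nat.card ↥Z := by gcongr
    _ = Nat.card ↥(star A U) * (Nat.card ↥Z * Z.relIndex (⁅U, A⁆ ⊔ Z)) := by ring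

/-- the general case -/
theorem card_general [Finite G] (hVc : V ≤ centralizer (V : Set G)) (hAV : A ≤ normalizer (V : Set G))
    (hab : ⁅A, A⁆ ≤ centralizer (V : Set G))
    (hmax : ∀ B : Subgroup G, B ≤ A → Nat.card B * Nat.card ↥(V ⊓ centralizer (B : Set G)) ≤
      Nat.card A * Nat.card ↥(V ⊓ centralizer (A : Set G))) {U : Subgroup G} (hU : U ≤ V) :
    Nat.card A * Nat.card ↥(V ⊓ centralizer (A : Set G)) ≤
      Nat.card ↥(star A U) * Nat.card ↥(⁅U, A⁆ ⊔ (V ⊓ centralizer (A : Set G))) := by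
  set Z := V ⊓ centralizer (A : Set G) with hZ
  -- consequences for such U
  have hcons : ∀ W : Subgroup G, W ≤ V → Nat.card A * Nat.card ↥Z ≤
      Nat.card ↥(star A W) * Nat.card ↥(⁅W, A⁆ ⊔ Z) →
      (V ⊓ centralizer ((star A W : Subgroup G) : Set G)) = ⁅W, A⁆ ⊔ Z ∧
      Nat.card A * Nat.card ↥Z = Nat.card ↥(star A W) * Nat.card ↥(⁅W, A⁆ ⊔ Z) := by
    intro W hW h
    have h1 := hmax _ (star_le A W)
    have h2 : ⁅W, A⁆ ⊔ Z ≤ V ⊓ centralizer ((star A W : Subgroup G) : Set G) := sup_le_fix_star hAV hW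
    have h3 := Subgroup.card_le_of_le h2
    have hpos : 0 < Nat.card ↥(star A W) := Nat.card_pos
    have h4 : Nat.card ↥(star A W) * Nat.card ↥(V ⊓ centralizer ((star A W : Subgroup G) : Set G)) ≤
        Nat.card ↥(star A W) * Nat.card ↥(⁅W, A⁆ ⊔ Z) := h1.trans h
    have h5 := Nat.le_of_mul_le_mul_left h4 hpos
    refine ⟨(Subgroup.eq_of_le_of_card_ge h2 h5).symm, le_antisymm h ?_⟩
    calc Nat.card ↥(star A W) * Nat.card ↥(⁅W, A⁆ ⊔ Z) ≤
        Nat.card ↥(star A W) * Nat.card ↥(V ⊓ centralizer ((star A W : Subgroup G) : Set G)) := by gcongr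
      _ ≤ _ := h1
  -- joins
  have hjoin : ∀ W₁ W₂ : Subgroup G, W₁ ≤ V → W₂ ≤ V →
      Nat.card A * Nat.card ↥Z ≤ Nat.card ↥(star A W₁) * Nat.card ↥(⁅W₁, A⁆ ⊔ Z) →
      Nat.card A * Nat.card ↥Z ≤ Nat.card ↥(star A W₂) * Nat.card ↥(⁅W₂, A⁆ ⊔ Z) →
      Nat.card A * Nat.card ↥Z ≤ Nat.card ↥(star A (W₁ ⊔ W₂)) * Nat.card ↥(⁅W₁ ⊔ W₂, A⁆ ⊔ Z) := by
    intro W₁ W₂ hW₁ hW₂ h₁ h₂
    obtain ⟨e₁, c₁⟩ := hcons W₁ hW₁ h₁
    obtain ⟨e₂, c₂⟩ := hcons W₂ hW₂ h₂
    have hs : star A (W₁ ⊔ W₂) = star A W₁ ⊓ star A W₂ := star_sup hVc hAV hW₁ hW₂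
    have hc : (⁅W₁ ⊔ W₂, A⁆ ⊔ Z : Subgroup G) = (⁅W₁, A⁆ ⊔ Z) ⊔ (⁅W₂, A⁆ ⊔ Z) := by
      rw [comm_sup_left hVc hAV hW₁ hW₂, sup_sup_distrib_right]
    rw [hs, hc]
    have hm := hmax (star A W₁ ⊔ star A W₂) (sup_le (star_le _ _) (star_le _ _))
    rw [centralizer_sup, inf_inf_distrib_left, e₁, e₂] at hm
    have p1 := ProdCard.card_sup_mul_card_inf (A := star A W₁) (H := star A W₂)
      ((star_le A W₁).trans (le_normalizer_star A W₂))
    have hC2 : (⁅W₁, A⁆ ⊔ Z : Subgroup G) ≤ normalizer ((⁅W₂, A⁆ ⊔ Z : Subgroup G) : Set G) := by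
      have a1 : (⁅W₁, A⁆ ⊔ Z : Subgroup G) ≤ V := sup_le (comm_le' hAV hW₁) inf_le_left
      have a2 : (⁅W₂, A⁆ ⊔ Z : Subgroup G) ≤ V := sup_le (comm_le' hAV hW₂) inf_le_left
      exact (a1.trans (hVc.trans (centralizer_le a2))).trans (centralizer_le_normalizer _)
    have p2 := ProdCard.card_sup_mul_card_inf hC2
    set S₁ := Nat.card ↥(star A W₁)
    set S₂ := Nat.card ↥(star A W₂)
    set C₁ := Nat.card ↥(⁅W₁, A⁆ ⊔ Z)
    set C₂ := Nat.card ↥(⁅W₂, A⁆ ⊔ Z)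
    set M := Nat.card A * Nat.card ↥Z with hM
    have hMpos : 0 < M := Nat.mul_pos Nat.card_pos Nat.card_pos
    set a := Nat.card ↥(star A W₁ ⊔ star A W₂)
    set b := Nat.card ↥(star A W₁ ⊓ star A W₂ : Subgroup G)
    set c := Nat.card ↥((⁅W₁, A⁆ ⊔ Z) ⊔ (⁅W₂, A⁆ ⊔ Z))
    set d := Nat.card ↥((⁅W₁, A⁆ ⊔ Z) ⊓ (⁅W₂, A⁆ ⊔ Z) : Subgroup G)
    -- p1 : a * b = S₁ * S₂ ; p2 : c * d = C₁ * C₂ ; hm : a * d ≤ M ; M = S₁ C₁ = S₂ C₂
    have h3 : M * M = (a * d) * (b * c) := by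
      calc M * M = (S₁ * C₁) * (S₂ * C₂) := by rw [← c₁, ← c₂]
        _ = (S₁ * S₂) * (C₁ * C₂) := by ring
        _ = (a * b) * (c * d) := by rw [← p1, ← p2]
        _ = _ := by ring
    have h4 : M * M ≤ M * (b * c) := by
      rw [h3]
      exact Nat.mul_le_mul_right _ hm
    exact Nat.le_of_mul_le_mul_left h4 hMpos
  -- a maximal good subgroup of U
  have hbot : Nat.card A * Nat.card ↥Z ≤ Nat.card ↥(star A (⊥ : Subgroup G)) * Nat.card ↥(⁅(⊥ : Subgroup G), A⁆ ⊔ Z) := by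
    have h1 : ⁅(⊥ : Subgroup G), A⁆ = ⊥ := commutator_bot_left A
    have h2 : star A (⊥ : Subgroup G) = A := by
      unfold star
      rw [h1, inf_eq_left]
      intro x _
      rw [mem_centralizer_iff]
      intro y hy
      rw [SetLike.mem_coe, mem_bot] at hy
      rw [hy, one_mul, mul_one]
    rw [h1, h2, bot_sup_eq]
  obtain ⟨W, hW, hWmax⟩ := Set.exists_max_image
    {W : Subgroup G | W ≤ U ∧ Nat.card A * Nat.card ↥Z ≤ Nat.card ↥(star A W) * Nat.card ↥(⁅W, A⁆ ⊔ Z)}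
    (fun W => Nat.card W) (Set.toFinite _) ⟨⊥, bot_le, hbot⟩
  have hWU : W = U := by
    apply le_antisymm hW.1
    intro u hu
    have h1 := hjoin W (zpowers u) (hW.1.trans hU) (by rw [zpowers_le]; exact hU hu) hW.2
      (card_cyclic hVc hAV hab (hU hu))
    have h2 := hWmax (W ⊔ zpowers u) ⟨sup_le hW.1 (by rw [zpowers_le]; exact hu), h1⟩
    have h3 : W = W ⊔ zpowers u := Subgroup.eq_of_le_of_card_ge le_sup_left h2
    rw [h3]
    exact mem_sup_right (mem_zpowers u)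
  rw [← hWU]
  exact hW.2

theorem card_general_eq [Finite G] (hVc : V ≤ centralizer (V : Set G)) (hAV : A ≤ normalizer (V : Set G))
    (hab : ⁅A, A⁆ ≤ centralizer (V : Set G))
    (hmax : ∀ B : Subgroup G, B ≤ A → Nat.card B * Nat.card ↥(V ⊓ centralizer (B : Set G)) ≤
      Nat.card A * Nat.card ↥(V ⊓ centralizer (A : Set G))) {U : Subgroup G} (hU : U ≤ V) :
    (V ⊓ centralizer ((star A U : Subgroup G) : Set G)) = ⁅U, A⁆ ⊔ (V ⊓ centralizer (A : Set G)) ∧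
      Nat.card A * Nat.card ↥(V ⊓ centralizer (A : Set G)) =
        Nat.card ↥(star A U) * Nat.card ↥(V ⊓ centralizer ((star A U : Subgroup G) : Set G)) := by
  have h := card_general hVc hAV hab hmax hU
  have h1 := hmax _ (star_le A U)
  have h2 := sup_le_fix_star hAV hU
  have h3 := Subgroup.card_le_of_le h2
  have hpos : 0 < Nat.card ↥(star A U) := Nat.card_pos
  have h5 := Nat.le_of_mul_le_mul_left (h1.trans h) hpos
  refine ⟨(Subgroup.eq_of_le_of_card_ge h2 h5).symm, le_antisymm (h.trans ?_) h1⟩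
  gcongr

end basics

section offender

variable {V A : Subgroup G} {p : ℕ}

theorem star_isBestOffender [Finite G] (hVc : V ≤ centralizer (V : Set G)) (hAV : A ≤ normalizer (V : Set G))
    (hA : Cfsg.IsBestOffenderOn p V A) {U : Subgroup G} (hU : U ≤ V) : Cfsg.IsBestOffenderOn p V (star A U) := by
  obtain ⟨h1, h2⟩ := card_general_eq hVc hAV hA.2.1 hA.1 hU
  refine ⟨?_, (commutator_mono (star_le A U) (star_le A U)).trans hA.2.1, fun a ha => hA.2.2 a (star_le A U ha)⟩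
  intro B hB
  rw [← h2]
  exact hA.1 B (hB.trans (star_le A U))

theorem star_nontrivial [Finite G] [Fact p.Prime] (hVp : IsPGroup p V) (hVc : V ≤ centralizer (V : Set G))
    (hAV : A ≤ normalizer (V : Set G))
    (hA : Cfsg.IsBestOffenderOn p V A) {U : Subgroup G} (hU : U ≤ V) (hne : ⁅V, A⁆ ≠ ⊥) : ⁅V, star A U⁆ ≠ ⊥ := by
  intro h
  apply hne
  obtain ⟨h1, h2⟩ := card_general_eq hVc hAV hA.2.1 hA.1 hU
  rw [commutator_eq_bot_iff_le_centralizer] at h
  have h3 : V ≤ ⁅U, A⁆ ⊔ (V ⊓ centralizer (A : Set G)) := by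
    rw [← h1]
    exact le_inf le_rfl h
  -- [V, A] ≤ [[V, A], A]
  have h4 : ⁅V, A⁆ ≤ ⁅⁅V, A⁆, A⁆ := by
    have h5 : ⁅V, A⁆ ≤ ⁅⁅V, A⁆ ⊔ (V ⊓ centralizer (A : Set G)), A⁆ :=
      commutator_mono (h3.trans (sup_le_sup_right (commutator_mono hU le_rfl) _)) le_rfl
    rw [comm_sup_left hVc hAV (comm_le hAV) inf_le_left] at h5
    have h6 : ⁅V ⊓ centralizer (A : Set G), A⁆ = ⊥ := by
      rw [commutator_eq_bot_iff_le_centralizer]
      exact inf_le_right
    rwa [h6, sup_bot_eq] at h5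
  exact PAction.eq_bot_of_comm_eq hVp hAV (fun a ha => ⟨1, by rw [pow_one]; exact hA.2.2 a ha⟩) (comm_le hAV) h4

end offender

end Cfsg.Agent.Lib.OffenderBasic
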