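import Cfsg.Agent.Lib.OmLower

/-!
# Root elements as commutators in the stabiliser of a weight (helper83)
-/

set_option autoImplicit false
set_option linter.all false

namespace Cfsg.Agent.Lib.OmComm

open Cfsg.Agent.Lib.Quad Cfsg.Agent.Lib.ClOrthSiegel QuadraticMap Module AvgTrace OmHyp OmWt OmFix OmTr OmSL OmER OmTB OmPos
  OmSchur OmLower

section one

variable {F W : Type*} [Field F] [Fintype F] [AddCommGroup W] [Module F W] [Fintype W] [FiniteDimensional F W]
  {Q' : QuadraticForm F W} (hQ : Nd Q')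

/-- the Levi root element -/
noncomputable def lv (z y : W) : G hQ := el hQ (0, z) (0, y)

omit [Fintype F] [Fintype W] [FiniteDimensional F W] in
theorem polar_00 (z y : W) : polar (hyp Q') ((0 : F × F), z) ((0 : F × F), y) = polar Q' z y := by simp [polar_hyp]

/-- the commutator formula -/
theorem comm_formula {w s t : W} (hw : Q' w = 0) (hs : polar Q' w s = 0) (ht : polar Q' w t = 0) (hst : polar Q' s t = 1) :
    u hQ s * lv hQ w t * (u hQ s)⁻¹ * (lv hQ w t)⁻¹ = u hQ w := by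
  have hw' : hyp Q' ((0 : F × F), w) = 0 := by simp [hyp_apply, hw]
  have h1 : (u hQ s).1 (0, w) = (0, w) := by
    rw [u_apply hQ]
    simp only [polar_comm Q' s w, hs]
    simp
  have h2 : (u hQ s).1 (0, t) = (0, t) + (-1 : F) • e0 := by
    rw [u_apply hQ]
    simp only [hst]
    simp [sub_eq_add_neg]
  unfold lv u
  rw [conj_el]
  change el hQ ((u hQ s).1 (0, w)) ((u hQ s).1 (0, t)) * _ = _
  rw [h1, h2]
  have p1 : polar (hyp Q') ((0 : F × F), w) ((0 : F × F), t) = 0 := by rw [polar_00, ht]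
  have p2 : polar (hyp Q') ((0 : F × F), w) ((-1 : F) • e0) = 0 := by
    rw [polar_smul_right, polar_comm, polar_e0j, smul_zero]
  have h3 : el hQ ((0 : F × F), w) ((0, t) + (-1 : F) • e0) = el hQ ((0 : F × F), w) ((-1 : F) • e0) * el hQ (0, w) (0, t) := by
    rw [el_add hQ p2 p1, add_comm]
  rw [h3, mul_inv_cancel_right]
  apply Subtype.ext
  show E (nd_hyp hQ) ((0 : F × F), w) ((-1 : F) • e0) = E (nd_hyp hQ) e0 (0, w)
  have h4 := E_swap (nd_hyp hQ) (z := ((0 : F × F), w)) (y := (-1 : F) • e0) hw' (by rw [Q_smul, Q_e0, mul_zero]) p2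
  rw [h4, E_smul _ (neg_ne_zero.2 one_ne_zero)]
  congr 1
  simp

include hQ in
/-- enough room -/
theorem exists_st {U : Submodule F W} (hU : 2 * finrank F U < finrank F W) :
    ∃ s ∈ perp Q' U, ∃ t ∈ perp Q' U, polar Q' s t = 1 := by
  by_contra hcon
  push Not at hcon
  have h1 : perp Q' U ≤ U := by
    intro s hs
    rw [← hQ.perp_perp U, mem_perp']
    intro t ht
    by_contra hne
    apply hcon s hs ((polar Q' s t)⁻¹ • t) (Submodule.smul_mem _ _ ht)
    rw [polar_smul_right, smul_eq_mul, inv_mul_cancel₀ hne]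
  have h2 := Submodule.finrank_mono h1
  rw [hQ.finrank_perp] at h2
  omega

omit [Fintype F] [Fintype W] [FiniteDimensional F W] in
/-- decomposition in singular vectors -/
theorem decomp {e f : W} (he : Q' e = 0) (hf : Q' f = 0) (hef : polar Q' e f = 1) (w : W) :
    ∃ a b : F, Q' (w + a • e + b • f) = 0 := by
  set α := polar Q' e w with hα
  set β := polar Q' f w with hβ
  refine ⟨α * β - Q' w - β, 1 - α, ?_⟩
  rw [Q_add, Q_add, Q_smul, Q_smul, he, hf, polar_add_left, polar_smul_left, polar_smul_right, polar_smul_right,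
    polar_smul_right, hef, polar_comm Q' w, polar_comm Q' w, ← hα, ← hβ]
  simp only [smul_eq_mul]
  ring

end one

section ext

variable {F W : Type*} [Field F] [Fintype F] [AddCommGroup W] [Module F W] [Fintype W] [FiniteDimensional F W]
  {Q₂ : QuadraticForm F W} (hQ : Nd Q₂)

/-- the Levi subgroup -/
noncomputable def ext : G hQ →* G (nd_hyp hQ) where
  toFun g := ⟨extE g.1, extE_mem (nd_hyp hQ) g.2⟩
  map_one' := rfl
  map_mul' g h := rfl

theorem ext_apply (g : G hQ) (v : (F × F) × ((F × F) × W)) : (ext hQ g).1 v = (v.1, g.1 v.2) := rfl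

theorem ext_u (w : W) : ext hQ (u hQ w) = a1 hQ w := by
  apply Subtype.ext
  show extE (E (nd_hyp hQ) e0 (0, w)) = E (nd_hyp (nd_hyp hQ)) e1 (0, (0, w))
  rw [extE_E]
  rfl

theorem ext_e0 (g : G hQ) : (ext hQ g).1 e0 = e0 := by
  rw [ext_apply]
  simp [e0]

variable {V : Type*} [AddCommGroup V] [Module ℂ V] [FiniteDimensional ℂ V]
  (ρ : Representation ℂ (G (nd_hyp hQ)) V) (ψ : AddChar F ℂ)

theorem wt_comm_ext (g : G hQ) {x : (F × F) × W} (hx : g.1 x = x) :
    ρ (ext hQ g) * wt (hQ := nd_hyp hQ) ρ ψ x = wt (hQ := nd_hyp hQ) ρ ψ x * ρ (ext hQ g) :=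
  wt_comm (hQ := nd_hyp hQ) ρ ψ (ext_e0 hQ g) (by rw [ext_apply]; exact hx)

/-- the fixing lemma for singular vectors -/
theorem fix_sing {x : (F × F) × W} (h1 : LinearMap.trace ℂ V (wt (hQ := nd_hyp hQ) ρ ψ x) = 1) (hx1 : x.1.2 = 0)
    {w : W} (hw0 : Q₂ w = 0) (hw : polar Q₂ w x.2 = 0) {s t : W} (hs : polar Q₂ w s = 0) (hs' : polar Q₂ x.2 s = 0)
    (ht : polar Q₂ w t = 0) (ht' : polar Q₂ x.2 t = 0) (hst : polar Q₂ s t = 1) :
    ρ (a1 hQ w) * wt (hQ := nd_hyp hQ) ρ ψ x = wt (hQ := nd_hyp hQ) ρ ψ x := by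
  rw [← ext_u, ← comm_formula hQ hw0 hs ht hst, map_mul (ext hQ), map_mul (ext hQ), map_mul (ext hQ), map_inv (ext hQ), map_inv (ext hQ)]
  apply fix_of_comm ρ (wt_idem (hQ := nd_hyp hQ) ρ ψ x) h1
  · apply wt_comm_ext
    rw [u_apply, hx1, polar_comm Q₂ s, hs']
    simp
  · apply wt_comm_ext
    show E (nd_hyp hQ) (0, w) (0, t) x = x
    rw [E_apply _ (by simp [hyp_apply, hw0]) (by rw [polar_00, ht])]
    have e1 : polar (hyp Q₂) ((0 : F × F), w) x = 0 := by simp [polar_hyp, hw]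
    have e2 : polar (hyp Q₂) ((0 : F × F), t) x = 0 := by simp [polar_hyp, polar_comm Q₂ t, ht']
    rw [e1, e2]
    simp

/-- enough vectors perpendicular to `y` -/
structure Room (Q₂ : QuadraticForm F W) (y : W) : Prop where
  st : ∀ w, Q₂ w = 0 → polar Q₂ w y = 0 → ∃ s t : W, polar Q₂ w s = 0 ∧ polar Q₂ y s = 0 ∧ polar Q₂ w t = 0 ∧ polar Q₂ y t = 0 ∧
    polar Q₂ s t = 1
  ef : ∃ e f : W, Q₂ e = 0 ∧ Q₂ f = 0 ∧ polar Q₂ e f = 1 ∧ polar Q₂ e y = 0 ∧ polar Q₂ f y = 0

theorem fix_room {x : (F × F) × W} (h1 : LinearMap.trace ℂ V (wt (hQ := nd_hyp hQ) ρ ψ x) = 1) (hx1 : x.1.2 = 0)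
    (hr : Room Q₂ x.2) {w : W} (hw : polar Q₂ w x.2 = 0) :
    ρ (a1 hQ w) * wt (hQ := nd_hyp hQ) ρ ψ x = wt (hQ := nd_hyp hQ) ρ ψ x := by
  have hsing : ∀ w : W, Q₂ w = 0 → polar Q₂ w x.2 = 0 → ρ (a1 hQ w) * wt (hQ := nd_hyp hQ) ρ ψ x = wt (hQ := nd_hyp hQ) ρ ψ x := by
    intro w hw0 hw
    obtain ⟨s, t, h3, h4, h5, h6, h7⟩ := hr.st w hw0 hw
    exact fix_sing hQ ρ ψ h1 hx1 hw0 hw h3 h4 h5 h6 h7
  obtain ⟨e, f, he, hf, hef, hey, hfy⟩ := hr.ef
  obtain ⟨a, b, hab⟩ := decomp he hf hef w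
  have hsum : w = (w + a • e + b • f) + (-a • e) + (-b • f) := by
    rw [neg_smul, neg_smul]; abel
  rw [hsum, a1_add, a1_add, map_mul, map_mul, mul_assoc,
    hsing (-b • f) (by rw [Q_smul, hf, mul_zero]) (by rw [polar_smul_left, hfy, smul_zero]), mul_assoc,
    hsing (-a • e) (by rw [Q_smul, he, mul_zero]) (by rw [polar_smul_left, hey, smul_zero]),
    hsing _ hab (by rw [polar_add_left, polar_add_left, polar_smul_left, polar_smul_left, hw, hey, hfy]; simp)]

end ext

section room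

variable {F W : Type*} [Field F] [Fintype F] [AddCommGroup W] [Module F W] [Fintype W] [FiniteDimensional F W]
  {Q₃ : QuadraticForm F W} (hQ : Nd Q₃)

include hQ in
theorem room_zero (hW : 0 < finrank F W) : Room (hyp Q₃) 0 where
  st := by
    intro w _ _
    have h1 : finrank F (F ∙ w) ≤ 1 := by
      have := finrank_span_finset_le_card (R := F) ({w} : Finset ((F × F) × W))
      rw [Finset.coe_singleton, Finset.card_singleton] at this
      exact this
    obtain ⟨s, hs, t, ht, hst⟩ := exists_st (nd_hyp hQ) (U := F ∙ w) (by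
      rw [Module.finrank_prod, Module.finrank_prod, Module.finrank_self]
      omega)
    rw [mem_perp_singleton] at hs ht
    exact ⟨s, t, hs, polar_zero_left _ _, ht, polar_zero_left _ _, hst⟩
  ef := ⟨e0, f0, Q_e0, by simp [hyp_apply, f0], by rw [polar_e0]; rfl, polar_zero_right _ _, polar_zero_right _ _⟩

include hQ in
theorem room_two (hW : 0 < finrank F W) (y : (F × F) × ((F × F) × W)) : Room (hyp (hyp Q₃)) y := by
  classical
  by_cases hy : y = 0
  · rw [hy]
    apply room_zero (nd_hyp hQ)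
    rw [Module.finrank_prod, Module.finrank_prod, Module.finrank_self]
    omega
  refine ⟨?_, ?_⟩
  · intro w _ _
    have h1 : finrank F (Submodule.span F {w, y}) ≤ 2 := by
      have := finrank_span_finset_le_card (R := F) ({w, y} : Finset ((F × F) × ((F × F) × W)))
      rw [Finset.coe_pair] at this
      exact this.trans Finset.card_le_two
    obtain ⟨s, hs, t, ht, hst⟩ := exists_st (nd_hyp (nd_hyp hQ)) (U := Submodule.span F {w, y}) (by
      rw [Module.finrank_prod, Module.finrank_prod (M' := W), Module.finrank_prod, Module.finrank_self]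
      omega)
    rw [mem_perp_span] at hs ht
    exact ⟨s, t, hs w (by simp), hs y (by simp), ht w (by simp), ht y (by simp), hst⟩
  · let v : (F × F) × ((F × F) × W) := ((1, hyp (hyp Q₃) y), 0)
    have hv : hyp (hyp Q₃) v = hyp (hyp Q₃) y := by
      rw [hyp_apply (hyp Q₃) v]
      simp [v]
    have hv0 : v ≠ 0 := by
      intro h
      have := congrArg (fun v : (F × F) × ((F × F) × W) => v.1.1) h
      simp [v] at this
    obtain ⟨g, hg, hgv⟩ := (nd_hyp (nd_hyp hQ)).exists_map_eq hv0 hy hv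
    refine ⟨g (0, e0), g (0, f0), ?_, ?_, ?_, ?_, ?_⟩
    · rw [hg]; simp [hyp_apply, e0]
    · rw [hg]; simp [hyp_apply, f0]
    · rw [O_polar hg, polar_00, polar_e0]; rfl
    · rw [← hgv, O_polar hg]; simp [polar_hyp, v]
    · rw [← hgv, O_polar hg]; simp [polar_hyp, v]

end room

end Cfsg.Agent.Lib.OmComm
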