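import Cfsg.Agent.Lib.OmSL

/-!
# The projection `eR` commutes with `SL₂`; trace identities (helper83)
-/

set_option autoImplicit false
set_option linter.all false

namespace Cfsg.Agent.Lib.OmER

open Cfsg.Agent.Lib.Quad Cfsg.Agent.Lib.ClOrthSiegel QuadraticMap Module AvgTrace OmHyp OmWt OmFix OmTr OmSL

variable {F W : Type*} [Field F] [Fintype F] [AddCommGroup W] [Module F W] [Fintype W] [FiniteDimensional F W]
  {Q₂ : QuadraticForm F W} (hQ : Nd Q₂)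

theorem uU_a1 (s : F) (w : W) : u (nd_hyp hQ) (iU F W s) * a1 hQ w =
    u (nd_hyp hQ) ((s * Q₂ w, 0), -s • w) * a1 hQ w * u (nd_hyp hQ) (iU F W s) := by
  apply Subtype.ext
  apply LinearEquiv.ext
  intro v
  show (u (nd_hyp hQ) (iU F W s)).1 ((a1 hQ w).1 v) =
    (u (nd_hyp hQ) ((s * Q₂ w, 0), -s • w)).1 ((a1 hQ w).1 ((u (nd_hyp hQ) (iU F W s)).1 v))
  rw [u_apply, a1_apply, u_apply, a1_apply, u_apply, iU_apply]
  refine Prod.ext (Prod.ext ?_ ?_) (Prod.ext (Prod.ext ?_ ?_) ?_)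
  · simp [polar_hyp, hyp_apply, e0, e1, polar_smul_left, polar_smul_right, polar_add_right, polar_self', Q_smul, polar_comm Q₂]
    ring
  · simp [polar_hyp, hyp_apply, e0, e1]
  · simp [polar_hyp, hyp_apply, e0, e1, polar_smul_left, polar_smul_right, polar_add_right, polar_self', Q_smul, polar_comm Q₂]
    ring
  · simp [polar_hyp, hyp_apply, e0, e1]
  · simp [polar_hyp, hyp_apply, e0, e1]
    module

variable {V : Type*} [AddCommGroup V] [Module ℂ V] (ρ : Representation ℂ (G (nd_hyp hQ)) V)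

theorem conj_comm {G' V' : Type*} [Group G'] [AddCommGroup V'] [Module ℂ V'] (ρ : Representation ℂ G' V') {g : G'} {T : V' →ₗ[ℂ] V'}
    (h : ρ g * T * ρ g⁻¹ = T) : ρ g * T = T * ρ g := by
  conv_rhs => rw [← h]
  rw [mul_assoc, rho_inv_mul, mul_one]

theorem comm_conj {G' V' : Type*} [Group G'] [AddCommGroup V'] [Module ℂ V'] (ρ : Representation ℂ G' V') {g : G'} {T : V' →ₗ[ℂ] V'}
    (h : ρ g * T = T * ρ g) : ρ g⁻¹ * T = T * ρ g⁻¹ := by
  calc ρ g⁻¹ * T = ρ g⁻¹ * (T * ρ g) * ρ g⁻¹ := by rw [mul_assoc, mul_assoc, rho_mul_inv, mul_one]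
    _ = ρ g⁻¹ * (ρ g * T) * ρ g⁻¹ := by rw [h]
    _ = T * ρ g⁻¹ := by rw [← mul_assoc (ρ g⁻¹) (ρ g) T, rho_inv_mul, one_mul]

theorem rho_u_comm {A : Type*} [Fintype A] (x : (F × F) × W) (f : A → (F × F) × W) :
    ρ (u (nd_hyp hQ) x) * av ρ (fun a => u (nd_hyp hQ) (f a)) =
      av ρ (fun a => u (nd_hyp hQ) (f a)) * ρ (u (nd_hyp hQ) x) := by
  unfold av
  rw [mul_smul_comm, smul_mul_assoc, Finset.mul_sum, Finset.sum_mul]
  congr 1
  refine Finset.sum_congr rfl fun a _ => ?_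
  rw [← map_mul, ← map_mul, ← u_add, ← u_add, add_comm]

theorem ZA0_uU (s : F) : ρ (u (nd_hyp hQ) (iU F W s)) * (Z hQ ρ * A0 hQ ρ) = Z hQ ρ * A0 hQ ρ * ρ (u (nd_hyp hQ) (iU F W s)) := by
  have h1 := rho_u_comm hQ ρ (iU F W s) (fun c : F => iZ F W c)
  have h2 := rho_u_comm hQ ρ (iU F W s) (fun w : W => iA F W w)
  change _ * Z hQ ρ = Z hQ ρ * _ at h1
  change _ * A0 hQ ρ = A0 hQ ρ * _ at h2
  rw [← mul_assoc, h1, mul_assoc, h2, mul_assoc]

theorem eR_uU (s : F) : ρ (u (nd_hyp hQ) (iU F W s)) * eR hQ ρ = eR hQ ρ * ρ (u (nd_hyp hQ) (iU F W s)) := by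
  unfold eR
  rw [← mul_assoc, ZA0_uU, mul_assoc (Z hQ ρ * A0 hQ ρ), mul_assoc (Z hQ ρ * A0 hQ ρ)]
  unfold A1
  conv_lhs => enter [2, 2]; unfold av
  conv_rhs => enter [2, 1]; unfold av
  rw [mul_smul_comm, smul_mul_assoc, mul_smul_comm, mul_smul_comm, Finset.mul_sum, Finset.sum_mul, Finset.mul_sum, Finset.mul_sum]
  congr 1
  refine Finset.sum_congr rfl fun w _ => ?_
  rw [← map_mul, uU_a1, map_mul, map_mul, ← mul_assoc, ← mul_assoc, ZA0_absorb, mul_assoc]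

theorem eR_w0 : ρ (embG hQ (w0 F)) * eR hQ ρ = eR hQ ρ * ρ (embG hQ (w0 F)) := by
  apply conj_comm
  have h : ρ (embG hQ (w0 F)) * eR hQ ρ * ρ (embG hQ (w0 F))⁻¹ =
      (ρ (embG hQ (w0 F)) * Z hQ ρ * ρ (embG hQ (w0 F))⁻¹) * (ρ (embG hQ (w0 F)) * A0 hQ ρ * ρ (embG hQ (w0 F))⁻¹) *
        (ρ (embG hQ (w0 F)) * A1 hQ ρ * ρ (embG hQ (w0 F))⁻¹) := by
    unfold eR
    calc _ = ρ (embG hQ (w0 F)) * Z hQ ρ * 1 * A0 hQ ρ * 1 * A1 hQ ρ * ρ (embG hQ (w0 F))⁻¹ := by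
          simp only [mul_one, mul_assoc]
      _ = ρ (embG hQ (w0 F)) * Z hQ ρ * (ρ (embG hQ (w0 F))⁻¹ * ρ (embG hQ (w0 F))) * A0 hQ ρ *
          (ρ (embG hQ (w0 F))⁻¹ * ρ (embG hQ (w0 F))) * A1 hQ ρ * ρ (embG hQ (w0 F))⁻¹ := by rw [rho_inv_mul]
      _ = _ := by simp only [mul_assoc]
  rw [h, w0_Z, w0_A0, w0_A1, Z_A1, mul_assoc, ← ZA0_A1]
  rfl

theorem eR_emb (g : Matrix.SpecialLinearGroup (Fin 2) F) : ρ (embG hQ g) * eR hQ ρ = eR hQ ρ * ρ (embG hQ g) := by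
  have hg : g ∈ Subgroup.closure (Set.range (SL2Pres.E : F → _) ∪ Set.range SL2Pres.E') := by
    rw [SL2Pres.closure_SL2]; exact Subgroup.mem_top g
  have hm : ∀ {a b : G (nd_hyp hQ)}, ρ a * eR hQ ρ = eR hQ ρ * ρ a → ρ b * eR hQ ρ = eR hQ ρ * ρ b →
      ρ (a * b) * eR hQ ρ = eR hQ ρ * ρ (a * b) := by
    intro a b ha hb
    rw [map_mul, mul_assoc, hb, ← mul_assoc, ha, mul_assoc]
  induction hg using Subgroup.closure_induction with
  | mem x hx =>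
    rcases hx with ⟨t, rfl⟩ | ⟨t, rfl⟩
    · rw [embG_E]; exact eR_uU hQ ρ _
    · have e : embG hQ (SL2Pres.E' t) = embG hQ (w0 F) * embG hQ (SL2Pres.E (-t)) * (embG hQ (w0 F))⁻¹ := by
        rw [← w0_conj, map_mul, map_mul, map_inv]
      rw [e]
      have e2 : ρ (embG hQ (SL2Pres.E (-t))) * eR hQ ρ = eR hQ ρ * ρ (embG hQ (SL2Pres.E (-t))) := by
        rw [embG_E]; exact eR_uU hQ ρ _
      exact hm (hm (eR_w0 hQ ρ) e2) (comm_conj ρ (eR_w0 hQ ρ))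
  | one => rw [map_one, map_one, one_mul, mul_one]
  | mul a b _ _ ha hb => rw [map_mul]; exact hm ha hb
  | inv a _ ha => rw [map_inv]; exact comm_conj ρ ha

variable [FiniteDimensional ℂ V] {ψ : AddChar F ℂ} (hψ : ψ ≠ 0)

theorem trace_ZA : LinearMap.trace ℂ V (Z hQ ρ * A1 hQ ρ) = LinearMap.trace ℂ V (Z hQ ρ * A0 hQ ρ) := by
  rw [← trace_conj ρ (embG hQ (w0 F)) (Z hQ ρ * A0 hQ ρ)]
  have h : ρ (embG hQ (w0 F)) * (Z hQ ρ * A0 hQ ρ) * ρ (embG hQ (w0 F))⁻¹ =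
      (ρ (embG hQ (w0 F)) * Z hQ ρ * ρ (embG hQ (w0 F))⁻¹) * (ρ (embG hQ (w0 F)) * A0 hQ ρ * ρ (embG hQ (w0 F))⁻¹) := by
    calc _ = ρ (embG hQ (w0 F)) * Z hQ ρ * 1 * A0 hQ ρ * ρ (embG hQ (w0 F))⁻¹ := by
          simp only [mul_one, mul_assoc]
      _ = ρ (embG hQ (w0 F)) * Z hQ ρ * (ρ (embG hQ (w0 F))⁻¹ * ρ (embG hQ (w0 F))) * A0 hQ ρ *
          ρ (embG hQ (w0 F))⁻¹ := by rw [rho_inv_mul]
      _ = _ := by simp only [mul_assoc]
  rw [h, w0_Z, w0_A0]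

/-- the hypotheses on the weights -/
structure Wts (ψ : AddChar F ℂ) : Prop where
  h1 : ∀ x : (F × F) × W, hyp Q₂ x ≠ 0 → wt (hQ := nd_hyp hQ) ρ ψ x = 0
  h2 : ∀ x : (F × F) × W, x ≠ 0 → hyp Q₂ x = 0 → LinearMap.trace ℂ V (wt (hQ := nd_hyp hQ) ρ ψ x) = 1
  h3 : ∀ x : (F × F) × W, x ≠ 0 → hyp Q₂ x = 0 → x.1.2 = 0 → ∀ w, polar Q₂ w x.2 = 0 →
    ρ (a1 hQ w) * wt (hQ := nd_hyp hQ) ρ ψ x = wt (hQ := nd_hyp hQ) ρ ψ x

variable {ρ} (H : Wts hQ ρ ψ)

include hψ in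
theorem trace_sum (T : V →ₗ[ℂ] V) : LinearMap.trace ℂ V T = ∑ a : F, ∑ b : F, ∑ w : W, LinearMap.trace ℂ V (T * wt (hQ := nd_hyp hQ) ρ ψ ((a, b), w)) := by
  conv_lhs => rw [mul_sum_wt (hQ := nd_hyp hQ) ρ hψ T]
  rw [map_sum, Fintype.sum_prod_type, Fintype.sum_prod_type]

include hψ H in
/-- the dimension -/
theorem finrank_eq : (Module.finrank ℂ V : ℂ) = LinearMap.trace ℂ V (wt (hQ := nd_hyp hQ) ρ ψ 0) + (ClOrthOrd.Z (hyp Q₂) - 1) := by
  classical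
  have h := mul_sum_wt (hQ := nd_hyp hQ) ρ hψ 1
  have h2 := congrArg (LinearMap.trace ℂ V) h
  rw [LinearMap.trace_one, map_sum] at h2
  rw [h2]
  have h3 : ∀ x : (F × F) × W, LinearMap.trace ℂ V (1 * wt (hQ := nd_hyp hQ) ρ ψ x) =
      (if hyp Q₂ x = 0 then 1 else 0) + (if x = 0 then LinearMap.trace ℂ V (wt (hQ := nd_hyp hQ) ρ ψ 0) - 1 else 0) := by
    intro x
    rw [one_mul]
    by_cases hx : hyp Q₂ x = 0
    · rw [if_pos hx]
      by_cases hx0 : x = 0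
      · rw [if_pos hx0, hx0]; ring
      · rw [if_neg hx0, add_zero, H.h2 x hx0 hx]
    · rw [if_neg hx, H.h1 x hx, map_zero, if_neg (fun h => hx (by rw [h, QuadraticMap.map_zero])), add_zero]
  rw [Finset.sum_congr rfl (fun x _ => h3 x), Finset.sum_add_distrib, Finset.sum_boole,
    Finset.sum_ite_eq' Finset.univ (0 : (F × F) × W), if_pos (Finset.mem_univ _), ClOrthOrd.Z, Nat.card_eq_fintype_card,
    Fintype.card_subtype]
  ring

include hψ H in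
theorem trace_ZA0 : LinearMap.trace ℂ V (Z hQ ρ * A0 hQ ρ) =
    LinearMap.trace ℂ V (wt (hQ := nd_hyp hQ) ρ ψ 0) + (Fintype.card F - 1) := by
  classical
  rw [trace_sum hQ hψ]
  have h1 : ∀ (a b : F) (w : W), LinearMap.trace ℂ V (Z hQ ρ * A0 hQ ρ * wt (hQ := nd_hyp hQ) ρ ψ ((a, b), w)) =
      if w = 0 then (if b = 0 then (1 + if a = 0 then LinearMap.trace ℂ V (wt (hQ := nd_hyp hQ) ρ ψ 0) - 1 else 0) else 0) else 0 := by
    intro a b w
    rw [mul_assoc, A0_wt hQ ρ hψ]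
    by_cases hw : w = 0
    · subst hw
      rw [if_pos rfl, if_pos rfl, Z_wt hQ ρ hψ]
      by_cases hb : b = 0
      · subst hb
        rw [if_pos rfl, if_pos rfl]
        by_cases ha : a = 0
        · subst ha
          rw [if_pos rfl]
          have : ((((0 : F), (0 : F)), (0 : W)) : (F × F) × W) = 0 := rfl
          rw [this]; ring
        · rw [if_neg ha, add_zero, H.h2]
          · intro h
            exact ha (congrArg (fun v : (F × F) × W => v.1.1) h)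
          · simp [hyp_apply]
      · rw [if_neg hb, if_neg hb, map_zero]
    · rw [if_neg hw, if_neg hw, mul_zero, map_zero]
  rw [Finset.sum_congr rfl (fun a _ => Finset.sum_congr rfl (fun b _ => Finset.sum_congr rfl (fun w _ => h1 a b w)))]
  simp only [Finset.sum_ite_eq', Finset.mem_univ, if_true, Finset.sum_add_distrib, Finset.sum_const, Finset.card_univ,
    nsmul_eq_mul, mul_one]
  ring

include hψ H in
theorem trace_Z : LinearMap.trace ℂ V (Z hQ ρ) =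
    LinearMap.trace ℂ V (wt (hQ := nd_hyp hQ) ρ ψ 0) + (Fintype.card F * ClOrthOrd.Z Q₂ - 1) := by
  classical
  rw [trace_sum hQ hψ]
  have h1 : ∀ (a b : F) (w : W), LinearMap.trace ℂ V (Z hQ ρ * wt (hQ := nd_hyp hQ) ρ ψ ((a, b), w)) =
      if b = 0 then ((if Q₂ w = 0 then 1 else 0) +
        (if w = 0 then (if a = 0 then LinearMap.trace ℂ V (wt (hQ := nd_hyp hQ) ρ ψ 0) - 1 else 0) else 0)) else 0 := by
    intro a b w
    rw [Z_wt hQ ρ hψ]
    by_cases hb : b = 0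
    · subst hb
      simp only [if_true]
      by_cases hw : Q₂ w = 0
      · rw [if_pos hw]
        by_cases h0 : (((a, (0 : F)), w) : (F × F) × W) = 0
        · have ha : a = 0 := congrArg (fun v : (F × F) × W => v.1.1) h0
          have hw0 : w = 0 := congrArg (fun v : (F × F) × W => v.2) h0
          rw [if_pos ha, if_pos hw0, h0]; ring
        · rw [H.h2 _ h0 (by simp [hyp_apply, hw])]
          by_cases hw0 : w = 0
          · rw [if_pos hw0, if_neg, add_zero]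
            intro ha
            exact h0 (Prod.ext (Prod.ext ha rfl) hw0)
          · rw [if_neg hw0, add_zero]
      · rw [if_neg hw, H.h1 _ (by simp [hyp_apply, hw]), map_zero, if_neg, add_zero]
        intro h
        apply hw
        rw [h, QuadraticMap.map_zero]
    · rw [if_neg hb, if_neg hb, map_zero]
  have h2 : ∀ a : F, ∑ b : F, ∑ w : W, LinearMap.trace ℂ V (Z hQ ρ * wt (hQ := nd_hyp hQ) ρ ψ ((a, b), w)) =
      ClOrthOrd.Z Q₂ + if a = 0 then LinearMap.trace ℂ V (wt (hQ := nd_hyp hQ) ρ ψ 0) - 1 else 0 := by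
    intro a
    rw [Finset.sum_comm, Finset.sum_congr rfl (fun w _ => Finset.sum_congr rfl (fun b _ => h1 a b w))]
    simp only [Finset.sum_ite_eq', Finset.mem_univ, if_true, Finset.sum_add_distrib, Finset.sum_boole]
    rw [ClOrthOrd.Z, Nat.card_eq_fintype_card, Fintype.card_subtype]
  rw [Finset.sum_congr rfl (fun a _ => h2 a), Finset.sum_add_distrib, Finset.sum_ite_eq' Finset.univ (0 : F),
    if_pos (Finset.mem_univ _), Finset.sum_const, Finset.card_univ, nsmul_eq_mul]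
  ring

end Cfsg.Agent.Lib.OmER
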