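import Cfsg.Agent.Lib.OmWt

/-!
# Weights of multiplicity one are fixed by the root elements fixing them (helper83)
-/

set_option autoImplicit false
set_option linter.all false

namespace Cfsg.Agent.Lib.OmFix

open Cfsg.Agent.Lib.Quad Cfsg.Agent.Lib.ClOrthSiegel QuadraticMap Module AvgTrace OmHyp OmWt

theorem exists_torus {F V : Type*} [Field F] [AddCommGroup V] [Module F V] [FiniteDimensional F V] {Q : QuadraticForm F V}
    (hQ : Nd Q) (hR : R Q = O Q) (U : Submodule F V) {z : V} (hz : Q z = 0) (hzU : z ∉ U)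
    (hp : ∀ x ∈ U, polar Q z x = 0) {μ : F} (hμ : μ ≠ 0) :
    ∃ h ∈ Om Q, h z = (μ * μ) • z ∧ ∀ x ∈ U, h x = x := by
  obtain ⟨y, hy, hzy⟩ := hQ.exists_polar_one U hzU
  obtain ⟨hf, hzf⟩ := adjust_singular hz hzy
  set f := y - Q y • z with hfd
  have hfU : ∀ x ∈ U, polar Q f x = 0 := by
    intro x hx
    rw [hfd, polar_sub_left, polar_smul_left, hp x hx, mem_perp'.1 hy x hx]; simp
  have hg := ofMap_mem hQ (torMap Q z f μ) (torMap_Q hμ hz hf hzf)
  set g := ofMap hQ (torMap Q z f μ) (torMap_Q hμ hz hf hzf) with hgd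
  have hgz : g z = μ • z := by
    rw [hgd, ofMap_apply, torMap_apply, polar_comm Q f z, hzf, polar_self', hz]
    simp only [mul_one, mul_zero, zero_smul, add_zero]
    rw [sub_smul, one_smul, add_sub_cancel]
  have hgx : ∀ x ∈ U, g x = x := by
    intro x hx
    rw [hgd, ofMap_apply, torMap_apply, hfU x hx, hp x hx]
    simp
  refine ⟨g * g, sq_mem_Om hR hg, ?_, ?_⟩
  · show g (g z) = _
    rw [hgz, map_smul, hgz, smul_smul]
  · intro x hx
    show g (g x) = _
    rw [hgx x hx, hgx x hx]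

/-- from multiplicity one -/
theorem fix_of_comm {G V : Type*} [Group G] [AddCommGroup V] [Module ℂ V] [FiniteDimensional ℂ V] (ρ : Representation ℂ G V)
    {e : V →ₗ[ℂ] V} (he : e * e = e) (h : LinearMap.trace ℂ V e = 1) {g k : G}
    (hg : ρ g * e = e * ρ g) (hk : ρ k * e = e * ρ k) : ρ (g * k * g⁻¹ * k⁻¹) * e = e := by
  have h1 := comm_fix ρ he h hg hk
  have hc : ∀ {g k : G}, ρ g * e = e * ρ g → ρ k * e = e * ρ k → ρ (g * k) * e = e * ρ (g * k) := by
    intro g k hg hk
    rw [map_mul, mul_assoc, hk, ← mul_assoc, hg, mul_assoc]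
  have hi : ∀ {g : G}, ρ g * e = e * ρ g → ρ g⁻¹ * e = e * ρ g⁻¹ := by
    intro g hg
    calc ρ g⁻¹ * e = ρ g⁻¹ * (e * ρ g) * ρ g⁻¹ := by rw [mul_assoc, mul_assoc, rho_mul_inv, mul_one]
      _ = ρ g⁻¹ * (ρ g * e) * ρ g⁻¹ := by rw [hg]
      _ = e * ρ g⁻¹ := by rw [← mul_assoc (ρ g⁻¹) (ρ g) e, rho_inv_mul, one_mul]
  have h2 := hc (hc (hc hg hk) (hi hg)) (hi hk)
  calc _ = ρ (g * k * g⁻¹ * k⁻¹) * e * e := by rw [mul_assoc _ e e, he]
    _ = e * ρ (g * k * g⁻¹ * k⁻¹) * e := by rw [h2]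
    _ = e := by rw [compress he h, h1, one_smul]

section

variable {F W : Type*} [Field F] [Fintype F] [AddCommGroup W] [Module F W] [Fintype W] [FiniteDimensional F W]
  {Q' : QuadraticForm F W} {hQ : Nd Q'} {V : Type*} [AddCommGroup V] [Module ℂ V] [FiniteDimensional ℂ V]
  (ρ : Representation ℂ (G hQ) V) {ψ : AddChar F ℂ}

theorem fix_tor {x : W} (h1 : LinearMap.trace ℂ V (wt ρ ψ x) = 1) {z y : (F × F) × W} (hzy : polar (hyp Q') z y = 0)
    {h : G hQ} {α β : F} (hα : α ≠ 0) (hz : h.1 z = α • z) (hy : h.1 y = β • y) (hab : α * β ≠ 1) (he : h.1 e0 = e0)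
    (hx : (h.1 (0, x)).2 = x) (hc : ∀ c : F, ρ (el hQ z (c • y)) * wt ρ ψ x = wt ρ ψ x * ρ (el hQ z (c • y))) :
    ρ (el hQ z y) * wt ρ ψ x = wt ρ ψ x := by
  have hab' : α * β - 1 ≠ 0 := sub_ne_zero.2 hab
  set s : F := (α * β - 1)⁻¹ with hs
  have e : el hQ z y = h * el hQ z (s • y) * h⁻¹ * (el hQ z (s • y))⁻¹ := by
    have h2 : (el hQ z (s • y))⁻¹ = el hQ z ((-s) • y) := by
      rw [inv_eq_iff_mul_eq_one, el_add hQ (by rw [polar_smul_right, hzy, smul_zero]) (by rw [polar_smul_right, hzy, smul_zero]),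
        ← add_smul, add_neg_cancel, zero_smul, el_zero]
    have h3 : el hQ (α • z) ((s * β) • y) = el hQ z ((α * (s * β)) • y) := by
      apply Subtype.ext
      show E (nd_hyp hQ) (α • z) ((s * β) • y) = E (nd_hyp hQ) z ((α * (s * β)) • y)
      rw [E_smul _ hα, smul_smul]
    rw [conj_el, hz, map_smul, hy, smul_smul, h3, h2,
      el_add hQ (by rw [polar_smul_right, hzy, smul_zero]) (by rw [polar_smul_right, hzy, smul_zero]), ← add_smul]
    have h4 : α * (s * β) + -s = 1 := by
      have : α * (s * β) + -s = s * (α * β - 1) := by ring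
      rw [this, hs, inv_mul_cancel₀ hab']
    rw [h4, one_smul]
  rw [e]
  exact fix_of_comm ρ (wt_idem ρ ψ x) h1 (wt_comm ρ ψ he hx) (hc s)

end

/-! ### two hyperbolic planes -/

variable {F W : Type*} [Field F] [Fintype F] [AddCommGroup W] [Module F W] [Fintype W] [FiniteDimensional F W]
  {Q₂ : QuadraticForm F W} (hQ : Nd Q₂)

/-- the second basis vector -/
def e1 : (F × F) × ((F × F) × W) := (0, e0)

/-- the elements of the second root groups -/
noncomputable def a1 (w : W) : G (nd_hyp hQ) := el (nd_hyp hQ) e1 (0, (0, w))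

omit [Fintype F] [Fintype W] [FiniteDimensional F W] in
theorem Q_e1 : hyp (hyp Q₂) (e1 : (F × F) × ((F × F) × W)) = 0 := by simp [hyp_apply, e1, e0]

omit [Fintype F] [Fintype W] [FiniteDimensional F W] in
theorem polar_e1 (v : (F × F) × ((F × F) × W)) : polar (hyp (hyp Q₂)) e1 v = v.2.1.2 := by simp [polar_hyp, e1, e0]

omit [Fintype F] [Fintype W] [FiniteDimensional F W] in
theorem polar_e1j (w : W) : polar (hyp (hyp Q₂)) e1 ((0 : F × F), ((0 : F × F), w)) = 0 := by rw [polar_e1]; rfl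

theorem a1_apply (w : W) (v : (F × F) × ((F × F) × W)) :
    (a1 hQ w).1 v = v + v.2.1.2 • ((0 : F × F), ((0 : F × F), w)) - (polar Q₂ w v.2.2 + Q₂ w * v.2.1.2) • e1 := by
  show E (nd_hyp (nd_hyp hQ)) e1 (0, (0, w)) v = _
  rw [E_apply _ Q_e1 (polar_e1j w), polar_e1, add_smul]
  have h1 : polar (hyp (hyp Q₂)) ((0 : F × F), ((0 : F × F), w)) v = polar Q₂ w v.2.2 := by simp [polar_hyp]
  have h2 : hyp (hyp Q₂) ((0 : F × F), ((0 : F × F), w)) = Q₂ w := by simp [hyp_apply]
  rw [h1, h2]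
  abel

theorem a1_e0 (w : W) : (a1 hQ w).1 e0 = e0 := by
  rw [a1_apply]
  simp [e0]

theorem a1_snd (w : W) (x : (F × F) × W) : ((a1 hQ w).1 (0, x)).2 =
    x + x.1.2 • ((0 : F × F), w) - (polar Q₂ w x.2 + Q₂ w * x.1.2) • e0 := by
  rw [a1_apply]
  rfl

theorem a1_add (w w' : W) : a1 hQ (w + w') = a1 hQ w * a1 hQ w' := by
  unfold a1
  rw [el_add _ (polar_e1j w) (polar_e1j w')]
  congr 1
  simp

theorem a1_zero : a1 hQ (0 : W) = 1 := el_zero _ e1

/-- the weights fixed by `a1 w` -/
theorem a1_fix (w : W) {x : (F × F) × W} (h1 : x.1.2 = 0) (h2 : polar Q₂ w x.2 = 0) : ((a1 hQ w).1 (0, x)).2 = x := by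
  rw [a1_snd, h1, h2]
  simp

theorem a1_move {w : W} (hw : w ≠ 0) {x : (F × F) × W} (h : x.1.2 ≠ 0 ∨ polar Q₂ w x.2 ≠ 0) :
    ((a1 hQ w).1 (0, x)).2 ≠ x := by
  rw [a1_snd]
  intro h1
  by_cases h2 : x.1.2 = 0
  · rw [h2] at h1
    have h3 := congrArg (fun v : (F × F) × W => v.1.1) h1
    simp [e0] at h3
    rcases h with h | h
    · exact h h2
    · exact h h3
  · have h3 := congrArg (fun v : (F × F) × W => v.2) h1
    simp [e0] at h3
    rcases h3 with h3 | h3
    · exact h2 h3
    · exact hw h3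

variable {V : Type*} [AddCommGroup V] [Module ℂ V] [FiniteDimensional ℂ V]
  (ρ : Representation ℂ (G (nd_hyp hQ)) V) {ψ : AddChar F ℂ}

/-- the fixing lemma -/
theorem fix_main (hR : R (hyp (hyp Q₂)) = O (hyp (hyp Q₂))) (hT : T (nd_hyp (nd_hyp hQ)) = Om (hyp (hyp Q₂)))
    {e₂ f₂ : W} (he : Q₂ e₂ = 0) (hf : Q₂ f₂ = 0) (hef : polar Q₂ e₂ f₂ = 1) {μ : F} (hμ0 : μ ≠ 0) (hμ : μ * μ ≠ 1)
    {x : (F × F) × W} (hx0 : x ≠ 0) (hx : hyp Q₂ x = 0) (h1 : LinearMap.trace ℂ V (wt ρ ψ x) = 1) (hx1 : x.1.2 = 0)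
    {w : W} (hw : polar Q₂ w x.2 = 0) : ρ (a1 hQ w) * wt ρ ψ x = wt ρ ψ x := by
  have hμμ : μ * μ ≠ 0 := mul_ne_zero hμ0 hμ0
  have hQx2 : Q₂ x.2 = 0 := by
    rw [hyp_apply, hx1, mul_zero, zero_add] at hx
    exact hx
  -- `e1` and multiples of the vector `x`
  have hcomm : ∀ c : F, ∀ y : W, polar Q₂ y x.2 = 0 →
      ρ (el (nd_hyp hQ) e1 (c • ((0 : F × F), ((0 : F × F), y)))) * wt ρ ψ x =
        wt ρ ψ x * ρ (el (nd_hyp hQ) e1 (c • ((0 : F × F), ((0 : F × F), y)))) := by
    intro c y hy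
    have e : el (nd_hyp hQ) e1 (c • ((0 : F × F), ((0 : F × F), y))) = a1 hQ (c • y) := by
      unfold a1
      congr 1
      simp
    rw [e]
    exact wt_comm ρ ψ (a1_e0 hQ _) (a1_fix hQ _ hx1 (by rw [polar_smul_left, hy, smul_zero]))
  by_cases hx2 : x.2 = 0
  · -- `x` is a multiple of `e1`
    have hx11 : x.1.1 ≠ 0 := by
      intro h
      apply hx0
      exact Prod.ext (Prod.ext h hx1) hx2
    have hxe : ((0 : F × F), x) = x.1.1 • (e1 : (F × F) × ((F × F) × W)) := by
      refine Prod.ext ?_ (Prod.ext (Prod.ext ?_ ?_) ?_)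
      · simp [e1]
      · simp [e1, e0]
      · simp [e1, e0, hx1]
      · simp [e1, e0, hx2]
    -- singular vectors first
    have hsing : ∀ w : W, Q₂ w = 0 → ρ (a1 hQ w) * wt ρ ψ x = wt ρ ψ x := by
      intro w hw
      by_cases hw0 : w = 0
      · rw [hw0, a1_zero, map_one, one_mul]
      let U : Submodule F ((F × F) × ((F × F) × W)) := Submodule.span F {e0, e1}
      obtain ⟨h, hh, hz, hU⟩ := exists_torus (nd_hyp (nd_hyp hQ)) hR U (z := ((0 : F × F), ((0 : F × F), w)))
        (by simp [hyp_apply, hw]) (by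
          intro h
          obtain ⟨s, t, hst⟩ := Submodule.mem_span_pair.1 h
          have := congrArg (fun v : (F × F) × ((F × F) × W) => v.2.2) hst
          simp [e0, e1] at this
          exact hw0 this.symm) (by
          intro v hv
          obtain ⟨s, t, rfl⟩ := Submodule.mem_span_pair.1 hv
          simp [polar_hyp, e0, e1]) hμ0
      rw [← hT] at hh
      have he0 : h e0 = e0 := hU _ (Submodule.subset_span (by simp))
      have he1 : h e1 = e1 := hU _ (Submodule.subset_span (by simp))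
      exact fix_tor (hQ := nd_hyp hQ) ρ h1 (polar_e1j w) (h := ⟨h, hh⟩) (α := 1) (β := μ * μ) one_ne_zero
        (by rw [one_smul]; exact he1) hz (by rw [one_mul]; exact hμ) he0
        (by
          show (h (0, x)).2 = x
          rw [hxe, map_smul, he1, ← hxe])
        (fun c => hcomm c w (by rw [hx2, polar_zero_right]))
    -- decomposition
    set α := polar Q₂ e₂ w with hα
    set β := polar Q₂ f₂ w with hβ
    let s := α * β - Q₂ w - β
    let t := 1 - α
    have hfe : polar Q₂ f₂ e₂ = 1 := by rw [polar_comm]; exact hef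
    have hw1 : Q₂ (w + s • e₂ + t • f₂) = 0 := by
      rw [Q_add, Q_add, Q_smul, Q_smul, he, hf, polar_add_left, polar_smul_left, polar_smul_right, polar_smul_right,
        polar_smul_right, hef, polar_comm Q₂ w, polar_comm Q₂ w, ← hα, ← hβ]
      simp only [smul_eq_mul, s, t]
      ring
    have hsum : w = (w + s • e₂ + t • f₂) + (-s • e₂) + (-t • f₂) := by
      rw [neg_smul, neg_smul]; abel
    rw [hsum, a1_add, a1_add, map_mul, map_mul, mul_assoc, hsing (-t • f₂) (by rw [Q_smul, hf, mul_zero]), mul_assoc,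
      hsing (-s • e₂) (by rw [Q_smul, he, mul_zero]), hsing _ hw1]
  · -- the torus of `e1`
    by_cases hwx : w ∈ Submodule.span F {x.2}
    · -- replace `w` by a multiple of `x`
      obtain ⟨c, rfl⟩ := Submodule.mem_span_singleton.1 hwx
      have e : a1 hQ (c • x.2) = el (nd_hyp hQ) e1 (c • ((0 : F × F), x)) := by
        apply Subtype.ext
        show E (nd_hyp (nd_hyp hQ)) e1 (0, (0, c • x.2)) = E (nd_hyp (nd_hyp hQ)) e1 (c • ((0 : F × F), x))
        have h2 : c • ((0 : F × F), x) = (0, (0, c • x.2)) + (c * x.1.1) • e1 := by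
          refine Prod.ext ?_ (Prod.ext (Prod.ext ?_ ?_) ?_)
          · simp [e1]
          · simp [e1, e0]
          · simp [e1, e0, hx1]
          · simp [e1, e0]
        rw [h2, E_add_smul _ Q_e1 (polar_e1j _)]
      let U : Submodule F ((F × F) × ((F × F) × W)) := Submodule.span F {e0, (0, x)}
      obtain ⟨h, hh, hz, hU⟩ := exists_torus (nd_hyp (nd_hyp hQ)) hR U (z := e1) Q_e1 (by
          intro h
          obtain ⟨s, t, hst⟩ := Submodule.mem_span_pair.1 h
          have h2 := congrArg (fun v : (F × F) × ((F × F) × W) => v.2.2) hst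
          have h3 := congrArg (fun v : (F × F) × ((F × F) × W) => v.2.1.1) hst
          simp [e0, e1] at h2 h3
          rcases h2 with h2 | h2
          · rw [h2, zero_mul] at h3
            exact zero_ne_one h3
          · exact hx2 h2) (by
          intro v hv
          obtain ⟨s, t, rfl⟩ := Submodule.mem_span_pair.1 hv
          rw [polar_e1]
          simp [e0, hx1]) hμ0
      rw [← hT] at hh
      have he0 : h e0 = e0 := hU _ (Submodule.subset_span (by simp))
      have hex : h (0, x) = (0, x) := hU _ (Submodule.subset_span (by simp))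
      have hpx : polar (hyp (hyp Q₂)) e1 ((0 : F × F), x) = 0 := by rw [polar_e1]; exact hx1
      rw [e]
      refine fix_tor (hQ := nd_hyp hQ) ρ h1 (by rw [polar_smul_right, hpx, smul_zero]) (h := ⟨h, hh⟩) (α := μ * μ) (β := 1)
        hμμ hz (by
          rw [one_smul]
          show h (c • ((0 : F × F), x)) = _
          rw [map_smul, hex]) (by rw [mul_one]; exact hμ) he0 (by
          show (h (0, x)).2 = x
          rw [hex]) ?_
      intro d
      have e' : el (nd_hyp hQ) e1 (d • c • ((0 : F × F), x)) = a1 hQ ((d * c) • x.2) := by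
        apply Subtype.ext
        show E (nd_hyp (nd_hyp hQ)) e1 (d • c • ((0 : F × F), x)) = E (nd_hyp (nd_hyp hQ)) e1 (0, (0, (d * c) • x.2))
        have h2 : d • c • ((0 : F × F), x) = (0, (0, (d * c) • x.2)) + (d * c * x.1.1) • e1 := by
          rw [smul_smul]
          refine Prod.ext ?_ (Prod.ext (Prod.ext ?_ ?_) ?_)
          · simp [e1]
          · simp [e1, e0]
          · simp [e1, e0, hx1]
          · simp [e1, e0]
        rw [h2, E_add_smul _ Q_e1 (polar_e1j _)]
      rw [e']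
      exact wt_comm ρ ψ (a1_e0 hQ _) (a1_fix hQ _ hx1 (by rw [polar_smul_left, polar_self', hQx2, mul_zero, smul_zero]))
    · let U : Submodule F ((F × F) × ((F × F) × W)) := Submodule.span F {e0, (0, x), (0, (0, w))}
      obtain ⟨h, hh, hz, hU⟩ := exists_torus (nd_hyp (nd_hyp hQ)) hR U (z := e1) Q_e1 (by
          intro h
          obtain ⟨s, v, hv, hst⟩ := Submodule.mem_span_insert.1 h
          obtain ⟨t, r, rfl⟩ := Submodule.mem_span_pair.1 hv
          have h2 := congrArg (fun v : (F × F) × ((F × F) × W) => v.2.2) hst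
          have h3 := congrArg (fun v : (F × F) × ((F × F) × W) => v.2.1.1) hst
          simp [e0, e1] at h2 h3
          -- `0 = t x₂ + r w`
          by_cases hr : r = 0
          · rw [hr, zero_smul, add_zero] at h2
            rcases smul_eq_zero.1 h2.symm with h4 | h4
            · rw [h4, zero_mul] at h3
              exact one_ne_zero h3
            · exact hx2 h4
          · apply hwx
            rw [Submodule.mem_span_singleton]
            refine ⟨-(r⁻¹ * t), ?_⟩
            have h4 : r • w = -(t • x.2) := by rw [eq_neg_iff_add_eq_zero, add_comm]; exact h2.symm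
            have h5 : w = r⁻¹ • (r • w) := by rw [smul_smul, inv_mul_cancel₀ hr, one_smul]
            rw [h5, h4, smul_neg, smul_smul, neg_smul]) (by
          intro v hv
          obtain ⟨s, v', hv', rfl⟩ := Submodule.mem_span_insert.1 hv
          obtain ⟨t, r, rfl⟩ := Submodule.mem_span_pair.1 hv'
          rw [polar_e1]
          simp [e0, hx1]) hμ0
      rw [← hT] at hh
      have he0 : h e0 = e0 := hU _ (Submodule.subset_span (by simp))
      have hex : h (0, x) = (0, x) := hU _ (Submodule.subset_span (by simp))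
      have hew : h (0, (0, w)) = (0, (0, w)) := hU _ (Submodule.subset_span (by simp))
      exact fix_tor (hQ := nd_hyp hQ) ρ h1 (polar_e1j w) (h := ⟨h, hh⟩) (α := μ * μ) (β := 1)
        hμμ hz (by rw [one_smul]; exact hew) (by rw [mul_one]; exact hμ) he0 (by
          show (h (0, x)).2 = x
          rw [hex]) (fun c => hcomm c w hw)

end Cfsg.Agent.Lib.OmFix
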