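import Cfsg.Agent.Lib.ClOmega
import Cfsg.Agent.Lib.QuadSum
import Cfsg.Agent.Lib.AvgTrace

/-!
# Orthogonal sums of a hyperbolic plane and a quadratic space as product types (helper83)
-/

set_option autoImplicit false
set_option linter.all false

namespace Cfsg.Agent.Lib.OmHyp

open Cfsg.Agent.Lib.Quad Cfsg.Agent.Lib.ClOrthSiegel QuadraticMap Module

variable {F W : Type*} [Field F] [AddCommGroup W] [Module F W]

/-- hyperbolic plane plus `Q'` -/
def hyp (Q' : QuadraticForm F W) : QuadraticForm F ((F × F) × W) :=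
  linMulLin ((LinearMap.fst F F F).comp (LinearMap.fst F (F × F) W)) ((LinearMap.snd F F F).comp (LinearMap.fst F (F × F) W)) +
    Q'.comp (LinearMap.snd F (F × F) W)

variable (Q' : QuadraticForm F W)

theorem hyp_apply (v : (F × F) × W) : hyp Q' v = v.1.1 * v.1.2 + Q' v.2 := rfl

theorem polar_hyp (u v : (F × F) × W) : polar (hyp Q') u v = u.1.1 * v.1.2 + u.1.2 * v.1.1 + polar Q' u.2 v.2 := by
  unfold polar
  simp only [hyp_apply, Prod.fst_add, Prod.snd_add]
  ring

theorem split_hyp : ClOrthOrd.Split (LinearEquiv.refl F ((F × F) × W)) (hyp Q') Q' := fun v => hyp_apply Q' v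

theorem nd_hyp {Q' : QuadraticForm F W} (hQ : Nd Q') : Nd (hyp Q') := by
  apply nd_of
  intro x hx
  have h1 := hx ((1, 0), 0)
  have h2 := hx ((0, 1), 0)
  rw [polar_hyp, polar_zero_right] at h1 h2
  simp only [mul_zero, mul_one, zero_add, add_zero] at h1 h2
  refine Prod.ext (Prod.ext h2 h1) ?_
  apply hQ.eq_zero
  intro y
  have h3 := hx ((0, 0), y)
  rw [polar_hyp] at h3
  simpa using h3

/-- the first basis vector -/
def e0 : (F × F) × W := ((1, 0), 0)
/-- the second basis vector -/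
def f0 : (F × F) × W := ((0, 1), 0)

/-- extension of an isometry -/
def extE (g : W ≃ₗ[F] W) : ((F × F) × W) ≃ₗ[F] ((F × F) × W) := LinearEquiv.prodCongr (LinearEquiv.refl F (F × F)) g

theorem extE_apply (g : W ≃ₗ[F] W) (v : (F × F) × W) : extE g v = (v.1, g v.2) := rfl

theorem extE_one : extE (1 : W ≃ₗ[F] W) = 1 := rfl

theorem extE_mul (g h : W ≃ₗ[F] W) : extE (g * h) = extE g * extE h := rfl

theorem extE_inv (g : W ≃ₗ[F] W) : extE g⁻¹ = (extE g)⁻¹ := rfl

variable [FiniteDimensional F W] {Q'}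

theorem extE_E (hQ : Nd Q') (z y : W) : extE (E hQ z y) = E (nd_hyp hQ) (0, z) (0, y) := by
  by_cases h : Q' z = 0 ∧ polar Q' z y = 0
  · have h' : hyp Q' ((0, z) : (F × F) × W) = 0 ∧ polar (hyp Q') ((0, z) : (F × F) × W) (0, y) = 0 := by
      rw [hyp_apply, polar_hyp]
      simpa using h
    ext x
    all_goals
      rw [E_apply (nd_hyp hQ) h'.1 h'.2, extE_apply, E_apply hQ h.1 h.2]
      simp [polar_hyp, hyp_apply]
  · have h' : ¬ (hyp Q' ((0, z) : (F × F) × W) = 0 ∧ polar (hyp Q') ((0, z) : (F × F) × W) (0, y) = 0) := by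
      rw [hyp_apply, polar_hyp]
      simpa using h
    rw [E_of_ne hQ h, E_of_ne _ h', extE_one]

theorem extE_mem (hQ : Nd Q') {g : W ≃ₗ[F] W} (hg : g ∈ T hQ) : extE g ∈ T (nd_hyp hQ) := by
  induction hg using Subgroup.closure_induction with
  | mem x hx =>
    obtain ⟨z, y, rfl⟩ := hx
    rw [extE_E]
    exact E_mem_T _ _ _
  | one => exact one_mem _
  | mul a b _ _ ha hb => rw [extE_mul]; exact mul_mem ha hb
  | inv a _ ha => rw [extE_inv]; exact inv_mem ha

/-- a frame of `hyp Q'` from a frame of `Q'` -/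
theorem frame_cons {k : ℕ} {e f : Fin k → W} (h : Frame Q' k e f) :
    Frame (hyp Q') (k + 1) (Fin.cons e0 (fun i => (0, e i))) (Fin.cons f0 (fun i => (0, f i))) where
  e0 := by
    intro i
    refine Fin.cases ?_ (fun j => ?_) i
    · simp [hyp_apply, OmHyp.e0]
    · simp [hyp_apply, h.e0]
  f0 := by
    intro i
    refine Fin.cases ?_ (fun j => ?_) i
    · simp [hyp_apply, OmHyp.f0]
    · simp [hyp_apply, h.f0]
  ee := by
    intro i j
    refine Fin.cases ?_ (fun i => ?_) i <;> refine Fin.cases ?_ (fun j => ?_) j <;>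
      simp [polar_hyp, hyp_apply, OmHyp.e0, h.ee]
  ff := by
    intro i j
    refine Fin.cases ?_ (fun i => ?_) i <;> refine Fin.cases ?_ (fun j => ?_) j <;>
      simp [polar_hyp, hyp_apply, OmHyp.f0, h.ff]
  ef := by
    intro i j
    refine Fin.cases ?_ (fun i => ?_) i <;> refine Fin.cases ?_ (fun j => ?_) j <;>
      simp [polar_hyp, OmHyp.e0, OmHyp.f0, h.ef, Fin.succ_ne_zero, Fin.succ_ne_zero _ |>.symm]

theorem frame_zero (Q' : QuadraticForm F W) : Frame Q' 0 Fin.elim0 Fin.elim0 where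
  e0 := fun i => i.elim0
  f0 := fun i => i.elim0
  ee := fun i => i.elim0
  ff := fun i => i.elim0
  ef := fun i => i.elim0

end Cfsg.Agent.Lib.OmHyp
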