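import Cfsg.Agent.Lib.OmSchur

/-!
# Lower bounds for the degrees of representations of orthogonal groups (helper83)
-/

set_option autoImplicit false
set_option linter.all false

namespace Cfsg.Agent.Lib.OmLower

open Cfsg.Agent.Lib.Quad Cfsg.Agent.Lib.ClOrthSiegel QuadraticMap Module AvgTrace OmHyp OmWt OmFix OmTr OmSL OmER OmTB OmPos
  OmSchur

variable {F W : Type*} [Field F] [Fintype F] [AddCommGroup W] [Module F W] [Fintype W] [FiniteDimensional F W]
  {Q₂ : QuadraticForm F W} (hQ : Nd Q₂) {V : Type*} [AddCommGroup V] [Module ℂ V] [FiniteDimensional ℂ V]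
  (ρ : Representation ℂ (G (nd_hyp hQ)) V) {ψ : AddChar F ℂ} (hψ : ψ ≠ 0)
  {k : ℕ} {e f : Fin (k + 1) → W} (HG : Hyp hQ k e f)

/-- multiplicities -/
noncomputable def m (ψ : AddChar F ℂ) (x : (F × F) × W) : ℕ := Module.finrank ℂ (LinearMap.range (wt (hQ := nd_hyp hQ) ρ ψ x))

theorem trace_m (ψ : AddChar F ℂ) (x : (F × F) × W) : LinearMap.trace ℂ V (wt (hQ := nd_hyp hQ) ρ ψ x) = m hQ ρ ψ x :=
  trace_idem (wt_idem (hQ := nd_hyp hQ) ρ ψ x)

include hψ in
theorem sum_m : ∑ x : (F × F) × W, m hQ ρ ψ x = Module.finrank ℂ V := by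
  have h := congrArg (LinearMap.trace ℂ V) (sum_wt (hQ := nd_hyp hQ) ρ hψ)
  rw [map_sum, LinearMap.trace_one, Finset.sum_congr rfl (fun x _ => trace_m hQ ρ ψ x)] at h
  exact_mod_cast h

include HG in
theorem m_eq (ψ : AddChar F ℂ) {x x' : (F × F) × W} (hx : x ≠ 0) (hx' : x' ≠ 0) (h : hyp Q₂ x = hyp Q₂ x') :
    m hQ ρ ψ x = m hQ ρ ψ x' := by
  obtain ⟨t, ht, h1⟩ := eqv_of_Q_eq (nd_hyp hQ) (frame_cons HG.fr) (i := 0) (j := Fin.succ 0) (Fin.succ_ne_zero _).symm hx hx' h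
  have ht' := extE_mem (nd_hyp hQ) ht
  have h2 := trace_wt_conj (hQ := nd_hyp hQ) ρ ψ (g := ⟨extE t, ht'⟩) (c := 1) one_ne_zero (by
    show extE t e0 = (1 : F) • e0
    rw [one_smul, extE_apply, e0]
    simp) x
  have h3 : (1 : F)⁻¹ • ((⟨extE t, ht'⟩ : G (nd_hyp hQ)).1 (0, x)).2 = x' := by
    rw [inv_one, one_smul]
    exact h1
  rw [h3, trace_m hQ, trace_m hQ] at h2
  exact_mod_cast h2.symm

/-- the torus element scales the values of the form -/
theorem m_scale (ψ : AddChar F ℂ) {a : F} (ha : a ≠ 0) (x : (F × F) × W) : ∃ x' : (F × F) × W,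
    m hQ ρ ψ x' = m hQ ρ ψ x ∧ a * a * hyp Q₂ x' = hyp Q₂ x := by
  let g : Matrix.SpecialLinearGroup (Fin 2) F := ⟨!![a, 0; 0, a⁻¹], by simp [Matrix.det_fin_two, ha]⟩
  have h1 : (embG hQ g).1 e0 = a • e0 := by
    rw [embG_apply]
    refine Prod.ext (Prod.ext ?_ ?_) (Prod.ext (Prod.ext ?_ ?_) ?_) <;> simp [embM, g, e0]
  have h2 := trace_wt_conj (hQ := nd_hyp hQ) ρ ψ ha h1 x
  refine ⟨a⁻¹ • ((embG hQ g).1 (0, x)).2, ?_, ?_⟩
  rotate_left
  · have h3 := g_Q (nd_hyp hQ) (embG hQ g) (0, x)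
    have h4 : ((embG hQ g).1 (0, x)).1.2 = 0 := by
      rw [embG_apply]
      simp [embM, g]
    rw [hyp_apply (hyp Q₂) ((embG hQ g).1 (0, x)), h4, mul_zero, zero_add, hyp_apply (hyp Q₂) (0, x)] at h3
    rw [Q_smul, h3]
    show a * a * (a⁻¹ * a⁻¹ * ((0 : F) * 0 + hyp Q₂ x)) = hyp Q₂ x
    rw [mul_zero, zero_add]
    field_simp
  · rw [trace_m hQ, trace_m hQ] at h2
    exact_mod_cast h2

omit [FiniteDimensional F W] in
open Classical in
theorem card_value (Q₂ : QuadraticForm F W) (a : F) :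
    (Fintype.card F - 1) * Fintype.card W ≤ Fintype.card {x : (F × F) × W // hyp Q₂ x = a} := by
  have h1 : (Fintype.card F - 1) * Fintype.card W = Fintype.card (Fˣ × W) := by
    rw [Fintype.card_prod, Fintype.card_units]
  rw [h1]
  apply Fintype.card_le_of_injective (fun p : Fˣ × W => (⟨(((p.1 : F), ((p.1⁻¹ : Fˣ) : F) * (a - Q₂ p.2)), p.2), by
    rw [hyp_apply]
    show (p.1 : F) * (((p.1⁻¹ : Fˣ) : F) * (a - Q₂ p.2)) + Q₂ p.2 = a
    rw [← mul_assoc, Units.mul_inv, one_mul, sub_add_cancel]⟩ : {x : (F × F) × W // hyp Q₂ x = a}))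
  intro p p' h
  have h2 := congrArg (fun v : {x : (F × F) × W // hyp Q₂ x = a} => v.1.1.1) h
  have h3 := congrArg (fun v : {x : (F × F) × W // hyp Q₂ x = a} => v.1.2) h
  exact Prod.ext (Units.ext h2) h3

include hψ HG in
/-- non-singular weights give a large degree -/
theorem nonsing {a : F} (ha : a ≠ 0) (ha1 : a * a ≠ 1) {x : (F × F) × W} (hx : hyp Q₂ x ≠ 0) (hm : m hQ ρ ψ x ≠ 0) :
    2 * ((Fintype.card F - 1) * Fintype.card W) ≤ Module.finrank ℂ V := by
  classical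
  obtain ⟨x', hx', h1⟩ := m_scale hQ ρ ψ ha x
  have hx'0 : hyp Q₂ x' ≠ 0 := by
    intro h
    rw [h, mul_zero] at h1
    exact hx h1.symm
  have hne : hyp Q₂ x' ≠ hyp Q₂ x := by
    intro h
    rw [h] at h1
    apply ha1
    have : (a * a - 1) * hyp Q₂ x = 0 := by linear_combination h1
    rcases mul_eq_zero.1 this with h2 | h2
    · exact sub_eq_zero.1 h2
    · exact absurd h2 hx
  have key : ∀ y : (F × F) × W, hyp Q₂ y ≠ 0 → m hQ ρ ψ y ≠ 0 → ∀ z, hyp Q₂ z = hyp Q₂ y → 1 ≤ m hQ ρ ψ z := by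
    intro y hy hmy z hz
    have hy0 : y ≠ 0 := by rintro rfl; exact hy (QuadraticMap.map_zero _)
    have hz0 : z ≠ 0 := by rintro rfl; exact hy (hz.symm.trans (QuadraticMap.map_zero _))
    rw [m_eq hQ ρ HG ψ hz0 hy0 hz]
    exact Nat.one_le_iff_ne_zero.2 hmy
  have h2 := key x hx hm
  have h3 := key x' hx'0 (by rw [hx']; exact hm)
  rw [← sum_m hQ ρ hψ]
  have h4 := card_value Q₂ (hyp Q₂ x)
  have h5 := card_value Q₂ (hyp Q₂ x')
  rw [Fintype.card_subtype] at h4 h5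
  have hdis : Disjoint (Finset.univ.filter (fun z : (F × F) × W => hyp Q₂ z = hyp Q₂ x))
      (Finset.univ.filter (fun z : (F × F) × W => hyp Q₂ z = hyp Q₂ x')) := by
    rw [Finset.disjoint_filter]
    intro z _ h6 h7
    exact hne (h7.symm.trans h6)
  calc 2 * ((Fintype.card F - 1) * Fintype.card W) ≤
      (Finset.univ.filter (fun z : (F × F) × W => hyp Q₂ z = hyp Q₂ x)).card +
        (Finset.univ.filter (fun z : (F × F) × W => hyp Q₂ z = hyp Q₂ x')).card := by omega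
    _ = ∑ z ∈ (Finset.univ.filter (fun z : (F × F) × W => hyp Q₂ z = hyp Q₂ x)) ∪
        (Finset.univ.filter (fun z : (F × F) × W => hyp Q₂ z = hyp Q₂ x')), 1 := by
      rw [Finset.sum_const, smul_eq_mul, mul_one, Finset.card_union_of_disjoint hdis]
    _ ≤ ∑ z ∈ (Finset.univ.filter (fun z : (F × F) × W => hyp Q₂ z = hyp Q₂ x)) ∪
        (Finset.univ.filter (fun z : (F × F) × W => hyp Q₂ z = hyp Q₂ x')), m hQ ρ ψ z := by
      apply Finset.sum_le_sum
      intro z hz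
      rcases Finset.mem_union.1 hz with hz | hz
      · exact h2 z (Finset.mem_filter.1 hz).2
      · exact h3 z (Finset.mem_filter.1 hz).2
    _ ≤ _ := Finset.sum_le_sum_of_subset (Finset.subset_univ _)

include hψ HG in
/-- singular weights of multiplicity at least two -/
theorem sing_two {x : (F × F) × W} (hx0 : x ≠ 0) (hx : hyp Q₂ x = 0) (hm : 2 ≤ m hQ ρ ψ x) :
    2 * (ClOrthOrd.Z (hyp Q₂) - 1) ≤ Module.finrank ℂ V := by
  classical
  rw [← sum_m hQ ρ hψ]
  have h1 : ClOrthOrd.Z (hyp Q₂) - 1 = (Finset.univ.filter (fun z : (F × F) × W => z ≠ 0 ∧ hyp Q₂ z = 0)).card := by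
    rw [ClOrthOrd.Z, Nat.card_eq_fintype_card, Fintype.card_subtype]
    have h2 : (Finset.univ.filter (fun v : (F × F) × W => v ≠ 0 ∧ hyp Q₂ v = 0)) =
        (Finset.univ.filter (fun v : (F × F) × W => hyp Q₂ v = 0)).erase 0 := by
      ext v
      simp
    rw [h2, Finset.card_erase_of_mem (by simp)]
  rw [h1, mul_comm, ← smul_eq_mul, ← Finset.sum_const]
  refine (Finset.sum_le_sum ?_).trans (Finset.sum_le_sum_of_subset (Finset.subset_univ _))
  intro z hz
  obtain ⟨-, hz0, hz1⟩ := Finset.mem_filter.1 hz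
  rw [m_eq hQ ρ HG ψ hz0 hx0 (hz1.trans hx.symm)]
  exact hm

include hψ HG in
/-- a representation without non-trivial weights is trivial -/
theorem trivial_of (h : ∀ x : (F × F) × W, x ≠ 0 → m hQ ρ ψ x = 0) (g : G (nd_hyp hQ)) : ρ g = 1 := by
  have h0 : wt (hQ := nd_hyp hQ) ρ ψ 0 = 1 := by
    rw [← sum_wt (hQ := nd_hyp hQ) ρ hψ]
    symm
    apply Finset.sum_eq_single
    · intro x _ hx
      have := h x hx
      unfold m at this
      rwa [Submodule.finrank_eq_zero, LinearMap.range_eq_bot] at this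
    · intro h
      exact absurd (Finset.mem_univ _) h
  have h1 : ∀ w, ρ (u (nd_hyp hQ) w) = 1 := by
    intro w
    have := rho_mul_wt_zero (hQ := nd_hyp hQ) ρ ψ w
    rwa [h0, mul_one] at this
  have h2 : ∀ z y : (F × F) × ((F × F) × W), ρ (el (nd_hyp hQ) z y) = 1 := by
    intro z y
    by_cases hzy : hyp (hyp Q₂) z = 0 ∧ polar (hyp (hyp Q₂)) z y = 0
    · by_cases hz : z = 0
      · have e2 : el (nd_hyp hQ) z y = 1 := by
          apply Subtype.ext
          apply LinearEquiv.ext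
          intro x
          show E (nd_hyp (nd_hyp hQ)) z y x = x
          rw [E_apply _ hzy.1 hzy.2, hz]
          simp
        rw [e2, map_one]
      · obtain ⟨g, hg, hg1⟩ := Om_map_one (nd_hyp (nd_hyp hQ)) HG.hR (frame_cons (frame_cons HG.fr))
          (i := 0) (j := Fin.succ 0) (l := Fin.succ (Fin.succ 0)) (Fin.succ_ne_zero _).symm (Fin.succ_ne_zero _).symm
          (fun h => (Fin.succ_ne_zero (0 : Fin (k + 1))).symm (Fin.succ_injective _ h)) e0_ne hz (Q_e0.trans hzy.1.symm)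
        rw [← HG.hT] at hg
        let g' : G (nd_hyp hQ) := ⟨g, hg⟩
        set y' := g.symm y with hy'
        have hy : g y' = y := g.apply_symm_apply y
        have hp : polar (hyp (hyp Q₂)) e0 y' = 0 := by
          have h3 := g_polar (nd_hyp hQ) g' e0 y'
          change polar (hyp (hyp Q₂)) (g e0) (g y') = _ at h3
          rw [hg1, hy, hzy.2] at h3
          exact h3.symm
        have e3 : el (nd_hyp hQ) z y = g' * u (nd_hyp hQ) y'.2 * g'⁻¹ := by
          unfold u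
          rw [conj_el]
          show el (nd_hyp hQ) z y = el (nd_hyp hQ) (g e0) (g (0, y'.2))
          rw [hg1]
          have e4 : y' = (0, y'.2) + y'.1.1 • e0 := by
            rw [polar_e0] at hp
            refine Prod.ext (Prod.ext ?_ ?_) ?_
            · simp [e0]
            · simp [e0, hp]
            · simp [e0]
          have e5 : y = g (0, y'.2) + y'.1.1 • z := by
            rw [← hy, ← hg1, ← map_smul, ← map_add, ← e4]
          apply Subtype.ext
          show E (nd_hyp (nd_hyp hQ)) z y = E (nd_hyp (nd_hyp hQ)) z (g (0, y'.2))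
          conv_lhs => rw [e5]
          rw [E_add_smul _ hzy.1]
          rw [← hg1]
          have h3 := g_polar (nd_hyp hQ) g' e0 (0, y'.2)
          change polar (hyp (hyp Q₂)) (g e0) (g (0, y'.2)) = _ at h3
          rw [h3]
          exact polar_e0j _
        rw [e3, map_mul, map_mul, h1, mul_one, rho_mul_inv]
    · have e2 : el (nd_hyp hQ) z y = 1 := Subtype.ext (E_of_ne _ hzy)
      rw [e2, map_one]
  obtain ⟨g, hg⟩ := g
  have key : ∀ (g : ((F × F) × ((F × F) × W)) ≃ₗ[F] ((F × F) × ((F × F) × W))) (hg : g ∈ T (nd_hyp (nd_hyp hQ))),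
      ρ ⟨g, hg⟩ = 1 := by
    intro g hg
    induction hg using Subgroup.closure_induction with
    | mem x hx =>
      obtain ⟨z, y, rfl⟩ := hx
      exact h2 z y
    | one => exact map_one ρ
    | mul a b ha hb iha ihb =>
      have : (⟨a * b, mul_mem ha hb⟩ : G (nd_hyp hQ)) = ⟨a, ha⟩ * ⟨b, hb⟩ := rfl
      rw [this, map_mul, iha, ihb, mul_one]
    | inv a ha iha =>
      have : (⟨a⁻¹, inv_mem ha⟩ : G (nd_hyp hQ)) = (⟨a, ha⟩)⁻¹ := rfl
      rw [this]
      have h3 := rho_inv_mul ρ (⟨a, ha⟩ : G (nd_hyp hQ))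
      rw [iha, mul_one] at h3
      exact h3
  exact key g hg

/-- the number of singular vectors perpendicular to a singular vector -/
theorem card_K {W₃ : Type*} [AddCommGroup W₃] [Module F W₃] [Fintype W₃] [FiniteDimensional F W₃] {Q₃ : QuadraticForm F W₃}
    (hQ₃ : Nd Q₃) {y : (F × F) × W₃} (hy : y ≠ 0) (hy0 : hyp Q₃ y = 0) :
    Nat.card {w : (F × F) × W₃ // hyp Q₃ w = 0 ∧ polar (hyp Q₃) y w = 0} = Fintype.card F * ClOrthOrd.Z Q₃ := by
  have he : (e0 : (F × F) × W₃) ≠ 0 := by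
    intro h
    have := congrArg (fun v : (F × F) × W₃ => v.1.1) h
    simp [e0] at this
  obtain ⟨g, hg, hge⟩ := (nd_hyp hQ₃).exists_map_eq he hy (Q_e0.trans hy0.symm)
  have key : ∀ w : (F × F) × W₃, polar (hyp Q₃) y w = (g.symm w).1.2 := by
    intro w
    have h1 : g (g.symm w) = w := g.apply_symm_apply _
    rw [← polar_e0, ← O_polar hg e0 (g.symm w), hge, h1]
  have key2 : ∀ w : (F × F) × W₃, hyp Q₃ w = hyp Q₃ (g.symm w) := by
    intro w
    have h1 : g (g.symm w) = w := g.apply_symm_apply _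
    rw [← hg (g.symm w), h1]
  rw [← Nat.card_eq_fintype_card, ClOrthOrd.Z, ← Nat.card_prod]
  symm
  exact Nat.card_congr
    { toFun := fun p => ⟨g ((p.1, 0), p.2.1), by
        rw [hg, hyp_apply, p.2.2]; simp, by
        rw [← hge, O_polar hg, polar_e0]⟩
      invFun := fun w => ((g.symm w.1).1.1, ⟨(g.symm w.1).2, by
        have h2 := w.2.2
        rw [key] at h2
        have h3 := w.2.1
        rw [key2, hyp_apply, h2, mul_zero, zero_add] at h3
        exact h3⟩)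
      left_inv := fun p => by
        refine Prod.ext ?_ (Subtype.ext ?_)
        · show (g.symm (g ((p.1, 0), p.2.1))).1.1 = p.1
          rw [LinearEquiv.symm_apply_apply]
        · show (g.symm (g ((p.1, 0), p.2.1))).2 = p.2.1
          rw [LinearEquiv.symm_apply_apply]
      right_inv := fun w => by
        apply Subtype.ext
        show g (((g.symm w.1).1.1, 0), (g.symm w.1).2) = w.1
        have h1 : g (g.symm w.1) = w.1 := g.apply_symm_apply _
        have h2 := w.2.2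
        rw [key] at h2
        have h3 : (((g.symm w.1).1.1, (0 : F)), (g.symm w.1).2) = g.symm w.1 := Prod.ext (Prod.ext rfl h2.symm) rfl
        rw [h3, h1] }

/-- the trichotomy -/
theorem lower {W₃ : Type*} [AddCommGroup W₃] [Module F W₃] [Fintype W₃] [FiniteDimensional F W₃] {Q₃ : QuadraticForm F W₃}
    (hQ₃ : Nd Q₃) (hR : R (hyp (hyp (hyp Q₃))) = O (hyp (hyp (hyp Q₃)))) (hq : 3 < Fintype.card F)
    (ρ : Representation ℂ (G (nd_hyp (nd_hyp hQ₃))) V) (hρ : ρ.IsIrreducible) (hV : 2 ≤ Module.finrank ℂ V) :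
    2 * ((Fintype.card F - 1) * (Fintype.card F ^ 2 * Fintype.card W₃)) ≤ Module.finrank ℂ V ∨
    2 * (ClOrthOrd.Z (hyp (hyp Q₃)) - 1) ≤ Module.finrank ℂ V ∨
    ∃ r : ℝ, SL2GapB.Kset (Fintype.card F) r ∧
      (Module.finrank ℂ V : ℝ) * (((Fintype.card F : ℝ) ^ 3 * Fintype.card W₃ + 1) * (Fintype.card F - 1) - Fintype.card F * r) *
        ((Fintype.card F : ℝ) ^ 2 - 1) =
      (Fintype.card F - 1) * (ClOrthOrd.Z (hyp (hyp (hyp Q₃))) - 1) * (ClOrthOrd.Z (hyp (hyp Q₃)) - 1) := by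
  classical
  have hfr := frame_cons (frame_zero Q₃)
  have hN := frame_cons (frame_cons hfr)
  have HG : Hyp (nd_hyp hQ₃) 0 _ _ :=
    { hR := hR
      hT := T_eq_Om (nd_hyp (nd_hyp (nd_hyp hQ₃))) hR hN (i := 0) (j := Fin.succ 0) (l := Fin.succ (Fin.succ 0))
        (Fin.succ_ne_zero _).symm (Fin.succ_ne_zero _).symm
        (fun h => (Fin.succ_ne_zero (0 : Fin (0 + 1))).symm (Fin.succ_injective _ h))
      fr := hfr }
  obtain ⟨ψ, hψ⟩ := exists_char F
  -- a scalar whose square is not one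
  obtain ⟨μ, hμ0, hμ⟩ : ∃ μ : F, μ ≠ 0 ∧ μ * μ ≠ 1 := by
    by_contra hcon
    push Not at hcon
    have h1 : (Finset.univ : Finset F) ⊆ {0, 1, -1} := by
      intro a _
      by_cases ha : a = 0
      · simp [ha]
      · have h2 : (a - 1) * (a + 1) = 0 := by linear_combination hcon a ha
        rcases mul_eq_zero.1 h2 with h3 | h3
        · simp [sub_eq_zero.1 h3]
        · simp [eq_neg_of_add_eq_zero_left h3]
    have h2 := Finset.card_le_card h1
    rw [Finset.card_univ] at h2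
    have h3 : ({0, 1, -1} : Finset F).card ≤ 3 := Finset.card_le_three
    omega
  by_cases hns : ∃ x : (F × F) × ((F × F) × W₃), hyp (hyp Q₃) x ≠ 0 ∧ m (nd_hyp hQ₃) ρ ψ x ≠ 0
  · left
    obtain ⟨x, hx, hm⟩ := hns
    have h1 := nonsing (nd_hyp hQ₃) ρ hψ HG hμ0 hμ hx hm
    rwa [Fintype.card_prod, Fintype.card_prod, ← _root_.sq] at h1
  right
  push Not at hns
  by_cases htwo : ∃ x : (F × F) × ((F × F) × W₃), x ≠ 0 ∧ hyp (hyp Q₃) x = 0 ∧ 2 ≤ m (nd_hyp hQ₃) ρ ψ x
  · left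
    obtain ⟨x, hx0, hx, hm⟩ := htwo
    exact sing_two (nd_hyp hQ₃) ρ hψ HG hx0 hx hm
  right
  push Not at htwo
  -- multiplicity one
  have hone : ∀ x : (F × F) × ((F × F) × W₃), x ≠ 0 → hyp (hyp Q₃) x = 0 → m (nd_hyp hQ₃) ρ ψ x = 1 := by
    by_contra hcon
    push Not at hcon
    obtain ⟨x, hx0, hx, hm⟩ := hcon
    have h0 : m (nd_hyp hQ₃) ρ ψ x = 0 := by
      have := htwo x hx0 hx
      omega
    have htriv := trivial_of (nd_hyp hQ₃) ρ hψ HG (fun z hz => by
      by_cases hz1 : hyp (hyp Q₃) z = 0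
      · rw [m_eq (nd_hyp hQ₃) ρ HG ψ hz hx0 (hz1.trans hx.symm), h0]
      · exact hns z hz1)
    have h1 := RepSchur.finrank_le_one_of_comm hρ (fun g h => by rw [htriv g, htriv h])
    omega
  have H : Wts (nd_hyp hQ₃) ρ ψ :=
    { h1 := fun x hx => by
        have := hns x hx
        unfold m at this
        rwa [Submodule.finrank_eq_zero, LinearMap.range_eq_bot] at this
      h2 := fun x hx0 hx => by rw [trace_m (nd_hyp hQ₃), hone x hx0 hx, Nat.cast_one]
      h3 := fun x hx0 hx hx1 w hw => fix_main (nd_hyp hQ₃) ρ HG.hR HG.hT (e₂ := e0) (f₂ := f0) Q_e0 (by simp [hyp_apply, f0])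
        (by simp [polar_hyp, e0, f0]) hμ0 hμ hx0 hx (by rw [trace_m (nd_hyp hQ₃), hone x hx0 hx, Nat.cast_one]) hx1 hw }
  obtain ⟨r, hr, c, β, γ, h1, h2, h3, h4⟩ := main_identity (nd_hyp hQ₃) hψ H HG hρ (by omega)
    (K := Fintype.card F * ClOrthOrd.Z Q₃) (fun y hy hy0 => card_K hQ₃ hy hy0)
  refine ⟨r, hr, ?_⟩
  have hq1 : 1 < Fintype.card F := by omega
  have hZ1 := ClOrthOrd.Z_split (split_hyp Q₃)
  have hZ2 := ClOrthOrd.Z_split (split_hyp (hyp Q₃))
  have hZ3 := ClOrthOrd.Z_split (split_hyp (hyp (hyp Q₃)))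
  rw [Nat.card_prod, Nat.card_prod] at hZ2
  rw [Nat.card_prod, Nat.card_prod, Nat.card_prod, Nat.card_prod] at hZ3
  simp only [Nat.card_eq_fintype_card] at hZ1 hZ2 hZ3
  set q := Fintype.card F with hqd
  set X := Fintype.card W₃ with hXd
  set σ := ClOrthOrd.Z Q₃ with hσ
  set s₂ := ClOrthOrd.Z (hyp Q₃) with hs₂
  set S := ClOrthOrd.Z (hyp (hyp Q₃)) with hS
  set N := ClOrthOrd.Z (hyp (hyp (hyp Q₃))) with hN
  set D := Module.finrank ℂ V with hD
  have hX0 : (X : ℂ) ≠ 0 := Nat.cast_ne_zero.2 Fintype.card_ne_zero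
  have hq0 : (q : ℂ) ≠ 0 := Nat.cast_ne_zero.2 (by omega)
  have hq1' : (q : ℂ) - 1 ≠ 0 := by
    rw [sub_ne_zero]
    exact_mod_cast hq1.ne'
  have hD0 : (D : ℂ) ≠ 0 := Nat.cast_ne_zero.2 (by omega)
  have z1 : (s₂ : ℂ) = q * σ + (q - 1) * X := by
    rw [hZ1]; push_cast [Nat.cast_sub hq1.le]; ring
  have z2 : (S : ℂ) = q * s₂ + (q - 1) * (q ^ 2 * X) := by
    rw [hZ2]; push_cast [Nat.cast_sub hq1.le]; ring
  have z3 : (N : ℂ) = q * S + (q - 1) * (q ^ 4 * X) := by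
    rw [hZ3]; push_cast [Nat.cast_sub hq1.le]; ring
  have hmain : (D : ℂ) * (((q : ℂ) ^ 3 * X + 1) * (q - 1) - q * r) * ((q : ℂ) ^ 2 - 1) = (q - 1) * (N - 1) * (S - 1) := by
    have e1 : q * β = q * (c + (q * s₂ - 1)) - S - q * (q - 1) * (q * σ) + q := by
      rw [h2]
      push_cast
      field_simp
    have e2 : ((N : ℂ) - 1) * c * (c + (q * s₂ - 1)) =
        D * (γ * (N - 1) + (β - γ) * ((q : ℂ) ^ 2 * s₂ - 1) + (c - β) * ((q : ℂ) ^ 2 - 1)) := by
      rw [← h4]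
      field_simp
    have e3 : (q : ℂ) * (((N : ℂ) - 1) * c * (c + (q * s₂ - 1))) =
        D * ((q * (c - (s₂ - 1) - r) + (s₂ - 1)) * (N - 1 - ((q : ℂ) ^ 2 * s₂ - 1)) +
          (q * (c + (q * s₂ - 1)) - S - q * (q - 1) * (q * σ) + q) * ((q : ℂ) ^ 2 * s₂ - 1 - ((q : ℂ) ^ 2 - 1)) +
            q * c * ((q : ℂ) ^ 2 - 1)) := by
      rw [e2, ← h3, ← e1]
      ring
    have hc : c = D - (S - 1) := by rw [h1]; ring
    rw [hc] at e3
    have e4 : ((q : ℂ) ^ 3 * X) * (((D : ℂ) * (((q : ℂ) ^ 3 * X + 1) * (q - 1) - q * r) * ((q : ℂ) ^ 2 - 1)) -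
        (q - 1) * (N - 1) * (S - 1)) = 0 := by
      rw [z3, z2, z1] at e3 ⊢
      linear_combination (-1) * e3
    have e5 : ((q : ℂ) ^ 3 * X) ≠ 0 := mul_ne_zero (pow_ne_zero 3 hq0) hX0
    exact sub_eq_zero.1 ((mul_eq_zero.1 e4).resolve_left e5)
  exact_mod_cast hmain

end Cfsg.Agent.Lib.OmLower
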