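import Cfsg.Agent.Lib.OmLower
import Cfsg.Agent.Lib.QuadNorm

/-!
# Transfer to the standard groups, arithmetic (helper83)
-/

set_option autoImplicit false
set_option linter.all false

namespace Cfsg.Agent.Lib.OmTransfer

open Cfsg.Agent.Lib.Quad Cfsg.Agent.Lib.ClOrthSiegel QuadraticMap Module OmHyp OmWt OmLower

variable {F : Type*} [Field F] [Fintype F]

theorem tri {V W₁ W₂ W₃ : Type*} [AddCommGroup V] [Module F V] [AddCommGroup W₁] [Module F W₁] [AddCommGroup W₂] [Module F W₂]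
    [AddCommGroup W₃] [Module F W₃] {Q : QuadraticForm F V} {Q₁ : QuadraticForm F W₁} {Q₂ : QuadraticForm F W₂}
    {Q₃ : QuadraticForm F W₃} {e₁ : V ≃ₗ[F] (F × F) × W₁} {e₂ : W₁ ≃ₗ[F] (F × F) × W₂} {e₃ : W₂ ≃ₗ[F] (F × F) × W₃}
    (h₁ : ClOrthOrd.Split e₁ Q Q₁) (h₂ : ClOrthOrd.Split e₂ Q₁ Q₂) (h₃ : ClOrthOrd.Split e₃ Q₂ Q₃) :
    ∃ Φ : V ≃ₗ[F] (F × F) × ((F × F) × ((F × F) × W₃)), ∀ v, hyp (hyp (hyp Q₃)) (Φ v) = Q v := by
  refine ⟨e₁.trans (LinearEquiv.prodCongr (LinearEquiv.refl F (F × F))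
    (e₂.trans (LinearEquiv.prodCongr (LinearEquiv.refl F (F × F)) e₃))), fun v => ?_⟩
  rw [h₁ v, h₂, h₃]
  rfl

variable {V : Type*} [AddCommGroup V] [Module ℂ V] [FiniteDimensional ℂ V]

theorem lower_transfer {ι : Type} [Fintype ι] [DecidableEq ι] {Q : QuadraticForm F (ι → F)} {W₃ : Type*} [AddCommGroup W₃] [Module F W₃]
    [Fintype W₃] [FiniteDimensional F W₃] {Q₃ : QuadraticForm F W₃}
    (hQ₃ : Nd Q₃) (hq : 3 < Fintype.card F) (Φ : (ι → F) ≃ₗ[F] (F × F) × ((F × F) × ((F × F) × W₃)))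
    (hΦ : ∀ v, hyp (hyp (hyp Q₃)) (Φ v) = Q v) (ρ : Representation ℂ (Cfsg.Omega F ⇑Q) V) (hρ : ρ.IsIrreducible)
    (hV : 2 ≤ Module.finrank ℂ V) :
    2 * ((Fintype.card F - 1) * (Fintype.card F ^ 2 * Fintype.card W₃)) ≤ Module.finrank ℂ V ∨
    2 * (ClOrthOrd.Z (hyp (hyp Q₃)) - 1) ≤ Module.finrank ℂ V ∨
    ∃ r : ℝ, SL2GapB.Kset (Fintype.card F) r ∧
      (Module.finrank ℂ V : ℝ) * (((Fintype.card F : ℝ) ^ 3 * Fintype.card W₃ + 1) * (Fintype.card F - 1) - Fintype.card F * r) *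
        ((Fintype.card F : ℝ) ^ 2 - 1) =
      (Fintype.card F - 1) * (ClOrthOrd.Z (hyp (hyp (hyp Q₃))) - 1) * (ClOrthOrd.Z (hyp (hyp Q₃)) - 1) := by
  have hN := nd_hyp (nd_hyp (nd_hyp hQ₃))
  have hR : R (hyp (hyp (hyp Q₃))) = O (hyp (hyp (hyp Q₃))) :=
    hN.R_eq_O (genHyp_of_card (Or.inl (by omega)))
  have hT : T hN = Om (hyp (hyp (hyp Q₃))) :=
    T_eq_Om hN hR (frame_cons (frame_cons (frame_cons (frame_zero Q₃)))) (i := 0) (j := Fin.succ 0) (l := Fin.succ (Fin.succ 0))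
      (Fin.succ_ne_zero _).symm (Fin.succ_ne_zero _).symm
      (fun h => (Fin.succ_ne_zero (0 : Fin (0 + 1))).symm (Fin.succ_injective _ h))
  let i1 : ↥(T hN) ≃* ↥(Om (hyp (hyp (hyp Q₃)))) := MulEquiv.subgroupCongr hT
  let i2 : ↥(Om Q) ≃* ↥(Om (hyp (hyp (hyp Q₃)))) :=
    ((QuadNorm.conjLE Φ).subgroupMap (Om Q)).trans (MulEquiv.subgroupCongr (QuadNorm.map_Om_conjLE Φ hΦ))
  let i3 := ClOmega.omEquiv Q
  let i : ↥(T hN) ≃* ↥(Cfsg.Omega F ⇑Q) := (i1.trans i2.symm).trans i3.symm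
  have h1 : Representation.IsIrreducible (ρ.comp i.toMonoidHom : Representation ℂ (↥(T hN)) V) :=
    CharBasic.isIrreducible_comp_of_surjective ρ i.toMonoidHom i.surjective hρ
  exact lower hQ₃ hR hq (ρ.comp i.toMonoidHom) h1 hV

/-- arithmetic in the odd case -/
theorem arith_odd {q P D T : ℕ} {r : ℝ} (hq : 4 ≤ q) (hP : q ^ 4 ≤ P) (hT : (T : ℝ) * ((q : ℝ) ^ 2 - 1) = (q : ℝ) ^ 2 * P - 1)
    (hr : SL2GapB.Kset q r)
    (h : (D : ℝ) * (((P : ℝ) + 1) * (q - 1) - q * r) * ((q : ℝ) ^ 2 - 1) = (q - 1) * ((q : ℝ) ^ 2 * P - 1) * (P - 1)) : T ≤ D := by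
  by_contra hcon
  push Not at hcon
  obtain ⟨d, hd⟩ : ∃ d, T = D + d := ⟨T - D, by omega⟩
  have hd1 : 1 ≤ d := by omega
  have hq' : (4 : ℝ) ≤ q := by exact_mod_cast hq
  have hP' : (q : ℝ) ^ 4 ≤ P := by exact_mod_cast hP
  have hq2 : (16 : ℝ) ≤ (q : ℝ) ^ 2 := by nlinarith
  have hP2 : (256 : ℝ) ≤ P := by nlinarith
  have hPq : (q : ℝ) ^ 2 * 16 ≤ P := by nlinarith
  have hD' : (T : ℝ) = D + d := by rw [hd]; push_cast; ring
  have hd1' : (1 : ℝ) ≤ d := by exact_mod_cast hd1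
  have hqq : (0 : ℝ) < (q : ℝ) ^ 2 - 1 := by linarith
  have h1 : (D : ℝ) * (((P : ℝ) + 1) * (q - 1) - q * r) = (q - 1) * T * (P - 1) := by
    apply mul_right_cancel₀ hqq.ne'
    rw [h]
    linear_combination (-((q : ℝ) - 1) * (P - 1)) * hT
  have hTP : (P : ℝ) + 1 < T := by
    by_contra hc
    push Not at hc
    nlinarith
  have hTP2 : 2 * (T : ℝ) < 3 * (P + 1) := by
    by_contra hc
    push Not at hc
    nlinarith
  rcases hr with rfl | hr | hr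
  · -- `(T - D)(P + 1) = 2 T`
    have h2 : (d : ℝ) * (P + 1) = 2 * T := by
      have h3 : (D : ℝ) * (P + 1) = T * (P - 1) := by
        apply mul_right_cancel₀ (by linarith : (q : ℝ) - 1 ≠ 0)
        linear_combination h1
      linear_combination (-1 : ℝ) * h3 - (P + 1) * hD'
    have h3 : (2 : ℝ) < d := by
      by_contra hc
      push Not at hc
      nlinarith
    have h4 : (d : ℝ) < 3 := by
      by_contra hc
      push Not at hc
      nlinarith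
    have h5 : 2 < d := by exact_mod_cast h3
    have h6 : d < 3 := by exact_mod_cast h4
    omega
  · have hqr : (q : ℝ) * r = q - 1 := by
      rw [hr, mul_div_cancel₀ _ (by linarith : (q : ℝ) ≠ 0)]
    rw [hqr] at h1
    have h2 : (d : ℝ) * P = T := by
      have h3 : (D : ℝ) * P = T * (P - 1) := by
        apply mul_right_cancel₀ (by linarith : (q : ℝ) - 1 ≠ 0)
        linear_combination h1
      linear_combination (-1 : ℝ) * h3 - P * hD'
    have h3 : (1 : ℝ) < d := by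
      by_contra hc
      push Not at hc
      nlinarith
    have h4 : (d : ℝ) < 2 := by
      by_contra hc
      push Not at hc
      nlinarith
    have h5 : 1 < d := by exact_mod_cast h3
    have h6 : d < 2 := by exact_mod_cast h4
    omega
  · have hqr : (q : ℝ) ^ 2 - 1 ≤ q * (q * r) := by
      rw [div_le_iff₀ (by positivity)] at hr
      have e0 : (q : ℝ) * (q * r) = r * (q : ℝ) ^ 2 := by ring
      rw [e0]
      exact hr
    -- `D (q P - 1) ≥ q T (P - 1)`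
    have h2 : (q : ℝ) * T * (P - 1) ≤ D * (q * P - 1) := by
      have h3 : (q : ℝ) * ((q - 1) * T * (P - 1)) ≤ D * ((q - 1) * (q * P - 1)) := by
        rw [← h1]
        have h4 : (0 : ℝ) ≤ D := Nat.cast_nonneg D
        nlinarith
      have h5 : 0 < (q : ℝ) - 1 := by linarith
      have h6 : ((q : ℝ) - 1) * (q * T * (P - 1)) ≤ (q - 1) * (D * (q * P - 1)) := by linarith
      exact le_of_mul_le_mul_left h6 h5
    have h3 : (T : ℝ) * (q - 1) * (q + 1) = (q : ℝ) ^ 2 * P - 1 := by rw [← hT]; ring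
    have h7 : (D : ℝ) ≤ T - 1 := by linarith
    have h8 : (0 : ℝ) < q * P - 1 := by nlinarith
    have h9 : (D : ℝ) * (q * P - 1) ≤ (T - 1) * (q * P - 1) := mul_le_mul_of_nonneg_right h7 h8.le
    have h10 : (q : ℝ) * P - 1 ≤ T * (q - 1) := by nlinarith
    have h11 : ((q : ℝ) * P - 1) * (q + 1) ≤ T * (q - 1) * (q + 1) := mul_le_mul_of_nonneg_right h10 (by linarith)
    rw [h3] at h11
    have h12 : (q : ℝ) * 256 ≤ q * P := mul_le_mul_of_nonneg_left hP2 (by linarith)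
    have h13 : ((q : ℝ) * P - 1) * (q + 1) = (q : ℝ) ^ 2 * P + q * P - q - 1 := by ring
    rw [h13] at h11
    linarith

set_option maxHeartbeats 800000 in
/-- arithmetic in the plus case -/
theorem arith_plus {q a D T : ℕ} {r : ℝ} (hq : 4 ≤ q) (ha : q ^ 2 ≤ a)
    (hT : (T : ℝ) * ((q : ℝ) ^ 2 - 1) = q * ((q : ℝ) ^ 2 * a - 1) * (a + 1))
    (hr : SL2GapB.Kset q r)
    (h : (D : ℝ) * (((q : ℝ) * a ^ 2 + 1) * (q - 1) - q * r) * ((q : ℝ) ^ 2 - 1) =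
      (q - 1) * (((q : ℝ) ^ 2 * a - 1) * (q * a + 1)) * ((q * a - 1) * (a + 1))) : T ≤ D := by
  by_contra hcon
  push Not at hcon
  obtain ⟨d, hd⟩ : ∃ d, T = D + d := ⟨T - D, by omega⟩
  have hd1 : 1 ≤ d := by omega
  have hq' : (4 : ℝ) ≤ q := by exact_mod_cast hq
  have ha' : (q : ℝ) ^ 2 ≤ a := by exact_mod_cast ha
  have hq2 : (16 : ℝ) ≤ (q : ℝ) ^ 2 := by nlinarith
  have ha2 : (16 : ℝ) ≤ a := by linarith
  have haq : (q : ℝ) * 4 ≤ a := by nlinarith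
  have hD' : (T : ℝ) = D + d := by rw [hd]; push_cast; ring
  have hd1' : (1 : ℝ) ≤ d := by exact_mod_cast hd1
  have hqq : (0 : ℝ) < (q : ℝ) ^ 2 - 1 := by linarith
  have h1 : (q : ℝ) * (D * (((q : ℝ) * a ^ 2 + 1) * (q - 1) - q * r)) = (q - 1) * (q ^ 2 * a ^ 2 - 1) * T := by
    apply mul_right_cancel₀ hqq.ne'
    linear_combination q * h - (q - 1) * ((q : ℝ) ^ 2 * a ^ 2 - 1) * hT
  have hqa : (0 : ℝ) < q * a := by positivity
  have hT3 : (T : ℝ) * (q + 1) * (q - 1) = q * (((q : ℝ) ^ 2 * a - 1) * (a + 1)) := by linear_combination hT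
  rcases hr with rfl | hr | hr
  · have h2 : (T : ℝ) * (q + 1) = d * q * (q * a ^ 2 + 1) := by
      have h3 : (q : ℝ) * (D * ((q : ℝ) * a ^ 2 + 1)) = (q ^ 2 * a ^ 2 - 1) * T := by
        apply mul_right_cancel₀ (by linarith : (q : ℝ) - 1 ≠ 0)
        linear_combination h1
      linear_combination (1 : ℝ) * h3 + q * (q * a ^ 2 + 1) * hD'
    have h4 : (d : ℝ) * (q * a ^ 2 + 1) * (q - 1) = ((q : ℝ) ^ 2 * a - 1) * (a + 1) := by
      apply mul_left_cancel₀ (by linarith : (q : ℝ) ≠ 0)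
      rw [← hT3, h2]
      ring
    have h5 : (1 : ℝ) < d := by
      by_contra hc
      push Not at hc
      have : (d : ℝ) = 1 := le_antisymm hc hd1'
      rw [this] at h4
      nlinarith
    have h6 : (d : ℝ) < 2 := by
      by_contra hc
      push Not at hc
      have h7 : 2 * (((q : ℝ) * a ^ 2 + 1) * (q - 1)) ≤ d * (((q : ℝ) * a ^ 2 + 1) * (q - 1)) :=
        mul_le_mul_of_nonneg_right hc (mul_nonneg (by positivity) (by linarith))
      have h8 : (q : ℝ) * (q * 4) * a ≤ (q * a) * a := by nlinarith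
      nlinarith [mul_nonneg (by linarith : (0:ℝ) ≤ (q:ℝ) - 4) (by positivity : (0:ℝ) ≤ (q:ℝ) * a * a)]
    have h7 : 1 < d := by exact_mod_cast h5
    have h8 : d < 2 := by exact_mod_cast h6
    omega
  · have hqr : (q : ℝ) * r = q - 1 := by
      rw [hr, mul_div_cancel₀ _ (by linarith : (q : ℝ) ≠ 0)]
    rw [hqr] at h1
    have h2 : (d : ℝ) * (q ^ 2 * a ^ 2) = T := by
      have h3 : (q : ℝ) * (D * (q * a ^ 2)) = (q ^ 2 * a ^ 2 - 1) * T := by
        apply mul_right_cancel₀ (by linarith : (q : ℝ) - 1 ≠ 0)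
        linear_combination h1
      linear_combination (-1 : ℝ) * h3 - (q ^ 2 * a ^ 2) * hD'
    have h3 : (q : ℝ) ^ 2 * a ^ 2 ≤ T := by
      rw [← h2]
      have : (0 : ℝ) ≤ q ^ 2 * a ^ 2 := by positivity
      nlinarith
    have h4 : (q : ℝ) ^ 2 * a ^ 2 * (q ^ 2 - 1) ≤ q * ((q : ℝ) ^ 2 * a - 1) * (a + 1) := by
      rw [← hT]
      exact mul_le_mul_of_nonneg_right h3 hqq.le
    have h5 : q * ((q : ℝ) ^ 2 * a - 1) * (a + 1) ≤ (q : ℝ) ^ 2 * a ^ 2 * (2 * q) := by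
      have h8 : ((q : ℝ) ^ 2 * a - 1) * (a + 1) ≤ (q ^ 2 * a) * (2 * a) := by
        apply mul_le_mul
        · linarith
        · linarith
        · linarith
        · positivity
      have h9 := mul_le_mul_of_nonneg_left h8 (by linarith : (0 : ℝ) ≤ q)
      calc q * ((q : ℝ) ^ 2 * a - 1) * (a + 1) = q * (((q : ℝ) ^ 2 * a - 1) * (a + 1)) := by ring
        _ ≤ _ := h9
        _ = _ := by ring
    have h6 : (q : ℝ) ^ 2 * a ^ 2 * (q ^ 2 - 1) ≤ (q : ℝ) ^ 2 * a ^ 2 * (2 * q) := h4.trans h5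
    have h7 : (q : ℝ) ^ 2 - 1 ≤ 2 * q := le_of_mul_le_mul_left h6 (by positivity)
    nlinarith
  · have hqr : (q : ℝ) ^ 2 - 1 ≤ q * (q * r) := by
      rw [div_le_iff₀ (by positivity)] at hr
      have e0 : (q : ℝ) * (q * r) = r * (q : ℝ) ^ 2 := by ring
      rw [e0]
      exact hr
    have h5 : (q : ℝ) * (((q : ℝ) * a ^ 2 + 1) * (q - 1) - q * r) ≤ (q - 1) * (q ^ 2 * a ^ 2 - 1) := by
      have e1 : (q : ℝ) * (((q : ℝ) * a ^ 2 + 1) * (q - 1) - q * r) = (q - 1) * (q ^ 2 * a ^ 2 + q) - q * (q * r) := by ring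
      have e2 : ((q : ℝ) - 1) * (q ^ 2 * a ^ 2 - 1) = (q - 1) * (q ^ 2 * a ^ 2 + q) - (q ^ 2 - 1) := by ring
      rw [e1, e2]
      linarith
    have h2 : ((q : ℝ) - 1) * (q ^ 2 * a ^ 2 - 1) * T ≤ (q - 1) * (q ^ 2 * a ^ 2 - 1) * D := by
      rw [← h1]
      have h4 : (0 : ℝ) ≤ D := Nat.cast_nonneg D
      have e3 : (q : ℝ) * ((D : ℝ) * (((q : ℝ) * (a : ℝ) ^ 2 + 1) * ((q : ℝ) - 1) - (q : ℝ) * r)) =
          (D : ℝ) * ((q : ℝ) * (((q : ℝ) * (a : ℝ) ^ 2 + 1) * ((q : ℝ) - 1) - (q : ℝ) * r)) := by ring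
      have e4 : ((q : ℝ) - 1) * ((q : ℝ) ^ 2 * (a : ℝ) ^ 2 - 1) * (D : ℝ) =
          (D : ℝ) * (((q : ℝ) - 1) * ((q : ℝ) ^ 2 * (a : ℝ) ^ 2 - 1)) := by ring
      rw [e3, e4]
      exact mul_le_mul_of_nonneg_left h5 h4
    have h3 : (0 : ℝ) < ((q : ℝ) - 1) * (q ^ 2 * a ^ 2 - 1) := by
      apply mul_pos (by linarith)
      have h7 : (1 : ℝ) ≤ (a : ℝ) ^ 2 := by nlinarith
      have h8 : (16 : ℝ) * 1 ≤ (q : ℝ) ^ 2 * a ^ 2 := mul_le_mul hq2 h7 (by norm_num) (by positivity)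
      linarith
    have h4 := le_of_mul_le_mul_left h2 h3
    linarith

end Cfsg.Agent.Lib.OmTransfer
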