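import Cfsg.Agent.Lib.OmNonsB
import Cfsg.Agent.Lib.OmTransfer

/-!
# The minimal degree of `Ω⁻` (helper83)
-/

set_option autoImplicit false
set_option linter.all false

namespace Cfsg.Agent.Lib.OmMinus

open Cfsg.Agent.Lib.Quad Cfsg.Agent.Lib.ClOrthSiegel QuadraticMap Module OmHyp OmWt OmLower

universe v

variable {F : Type*} [Field F] [Fintype F]

theorem hR3 {W₃ : Type*} [AddCommGroup W₃] [Module F W₃] [FiniteDimensional F W₃] {Q₃ : QuadraticForm F W₃}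
    (hQ₃ : Nd Q₃) : R (hyp (hyp (hyp Q₃))) = O (hyp (hyp (hyp Q₃))) := by
  apply (nd_hyp (nd_hyp (nd_hyp hQ₃))).R_eq_O
  apply genHyp_of_card
  right
  rw [Module.finrank_prod, Module.finrank_prod (M' := (F × F) × W₃), Module.finrank_prod (M' := W₃), Module.finrank_prod,
    Module.finrank_self]
  omega

/-- transfer to the standard group -/
noncomputable def isoT {ι : Type} [Fintype ι] [DecidableEq ι] {Q : QuadraticForm F (ι → F)} {W₃ : Type*} [AddCommGroup W₃] [Module F W₃]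
    [Fintype W₃] [FiniteDimensional F W₃] {Q₃ : QuadraticForm F W₃}
    (hQ₃ : Nd Q₃) (Φ : (ι → F) ≃ₗ[F] (F × F) × ((F × F) × ((F × F) × W₃)))
    (hΦ : ∀ v, hyp (hyp (hyp Q₃)) (Φ v) = Q v) : ↥(T (nd_hyp (nd_hyp (nd_hyp hQ₃)))) ≃* ↥(Cfsg.Omega F ⇑Q) :=
  have hT : T (nd_hyp (nd_hyp (nd_hyp hQ₃))) = Om (hyp (hyp (hyp Q₃))) :=
    T_eq_Om (nd_hyp (nd_hyp (nd_hyp hQ₃))) (hR3 hQ₃) (frame_cons (frame_cons (frame_cons (frame_zero Q₃)))) (i := 0) (j := Fin.succ 0)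
      (l := Fin.succ (Fin.succ 0))
      (Fin.succ_ne_zero _).symm (Fin.succ_ne_zero _).symm
      (fun h => (Fin.succ_ne_zero (0 : Fin (0 + 1))).symm (Fin.succ_injective _ h))
  ((MulEquiv.subgroupCongr hT).trans (((QuadNorm.conjLE Φ).subgroupMap (Om Q)).trans
    (MulEquiv.subgroupCongr (QuadNorm.map_Om_conjLE Φ hΦ))).symm).trans (ClOmega.omEquiv Q).symm

set_option maxHeartbeats 800000 in
/-- arithmetic in the minus case -/
theorem arith_minus {q a D T : ℕ} {r : ℝ} (hq : 2 ≤ q) (ha : q ^ 2 ≤ a)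
    (hT : (T : ℝ) * ((q : ℝ) ^ 2 - 1) = q * ((q : ℝ) ^ 2 * a + 1) * (a - 1))
    (hr : SL2GapB.Kset q r)
    (h : (D : ℝ) * (((q : ℝ) * a ^ 2 + 1) * (q - 1) - q * r) * ((q : ℝ) ^ 2 - 1) =
      (q - 1) * (((q : ℝ) ^ 2 * a + 1) * (q * a - 1)) * ((q * a + 1) * (a - 1))) : T ≤ D := by
  by_contra hcon
  push Not at hcon
  obtain ⟨d, hd⟩ : ∃ d, T = D + d := ⟨T - D, by omega⟩
  have hd1 : 1 ≤ d := by omega
  have hq' : (2 : ℝ) ≤ q := by exact_mod_cast hq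
  have ha' : (q : ℝ) ^ 2 ≤ a := by exact_mod_cast ha
  have hq2 : (4 : ℝ) ≤ (q : ℝ) ^ 2 := by nlinarith
  have ha2 : (4 : ℝ) ≤ a := by linarith
  have haq : (q : ℝ) * 2 ≤ a := by nlinarith
  have hD' : (T : ℝ) = D + d := by rw [hd]; push_cast; ring
  have hd1' : (1 : ℝ) ≤ d := by exact_mod_cast hd1
  have hqq : (0 : ℝ) < (q : ℝ) ^ 2 - 1 := by linarith
  have h1 : (q : ℝ) * (D * (((q : ℝ) * a ^ 2 + 1) * (q - 1) - q * r)) = (q - 1) * (q ^ 2 * a ^ 2 - 1) * T := by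
    apply mul_right_cancel₀ hqq.ne'
    linear_combination q * h - (q - 1) * ((q : ℝ) ^ 2 * a ^ 2 - 1) * hT
  have hqa : (0 : ℝ) < q * a := by positivity
  have hT3 : (T : ℝ) * (q + 1) * (q - 1) = q * (((q : ℝ) ^ 2 * a + 1) * (a - 1)) := by linear_combination hT
  have hsmall : ((q : ℝ) ^ 2 * a + 1) * (a - 1) < (q : ℝ) ^ 2 * a ^ 2 := by
    have e : ((q : ℝ) ^ 2 * a + 1) * (a - 1) = (q : ℝ) ^ 2 * a ^ 2 - (q ^ 2 - 1) * a - 1 := by ring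
    have : 0 < ((q : ℝ) ^ 2 - 1) * a := mul_pos hqq (by linarith)
    rw [e]
    linarith
  rcases hr with rfl | hr | hr
  · have h2 : (T : ℝ) * (q + 1) = d * q * (q * a ^ 2 + 1) := by
      have h3 : (q : ℝ) * (D * ((q : ℝ) * a ^ 2 + 1)) = (q ^ 2 * a ^ 2 - 1) * T := by
        apply mul_right_cancel₀ (by linarith : (q : ℝ) - 1 ≠ 0)
        linear_combination h1
      linear_combination (1 : ℝ) * h3 + q * (q * a ^ 2 + 1) * hD'
    have h4 : (d : ℝ) * (q * a ^ 2 + 1) * (q - 1) = ((q : ℝ) ^ 2 * a + 1) * (a - 1) := by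
      apply mul_left_cancel₀ (by linarith : (q : ℝ) ≠ 0)
      rw [← hT3, h2]
      ring
    have h5 : (1 : ℝ) < d := by
      by_contra hc
      push Not at hc
      have : (d : ℝ) = 1 := le_antisymm hc hd1'
      rw [this] at h4
      have h6 : ((q : ℝ) * a + 1) * (a - q) = 0 := by linear_combination -h4
      have h7 : (0 : ℝ) < ((q : ℝ) * a + 1) * (a - q) := mul_pos (by linarith) (by linarith)
      linarith
    have h6 : (d : ℝ) < 2 := by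
      by_contra hc
      push Not at hc
      have h7 : 2 * (((q : ℝ) * a ^ 2 + 1) * (q - 1)) ≤ d * (((q : ℝ) * a ^ 2 + 1) * (q - 1)) :=
        mul_le_mul_of_nonneg_right hc (mul_nonneg (by positivity) (by linarith))
      have h8 : (q : ℝ) ^ 2 * a ^ 2 ≤ 2 * (((q : ℝ) * a ^ 2 + 1) * (q - 1)) := by
        have e : 2 * (((q : ℝ) * a ^ 2 + 1) * (q - 1)) = (q : ℝ) ^ 2 * a ^ 2 + (q - 2) * (q * a ^ 2) + 2 * (q - 1) := by ring
        have : 0 ≤ ((q : ℝ) - 2) * (q * a ^ 2) := mul_nonneg (by linarith) (by positivity)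
        rw [e]
        linarith
      have h9 : (d : ℝ) * (((q : ℝ) * a ^ 2 + 1) * (q - 1)) = ((q : ℝ) ^ 2 * a + 1) * (a - 1) := by rw [← h4]; ring
      linarith
    have h7 : 1 < d := by exact_mod_cast h5
    have h8 : d < 2 := by exact_mod_cast h6
    omega
  · have hqr : (q : ℝ) * r = q - 1 := by
      rw [hr, mul_div_cancel₀ _ (by linarith : (q : ℝ) ≠ 0)]
    rw [hqr] at h1
    have h2 : (d : ℝ) * (q ^ 2 * a ^ 2) = T := by
      have h3 : (q : ℝ) * (D * (q * a ^ 2)) = (q ^ 2 * a ^ 2 - 1) * T := by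
        apply mul_right_cancel₀ (by linarith : (q : ℝ) - 1 ≠ 0)
        linear_combination h1
      linear_combination (-1 : ℝ) * h3 - (q ^ 2 * a ^ 2) * hD'
    have h3 : (q : ℝ) ^ 2 * a ^ 2 ≤ T := by
      rw [← h2]
      have : (0 : ℝ) ≤ q ^ 2 * a ^ 2 := by positivity
      nlinarith
    have h4 : (q : ℝ) ^ 2 * a ^ 2 * (q ^ 2 - 1) ≤ q * ((q : ℝ) ^ 2 * a + 1) * (a - 1) := by
      rw [← hT]
      exact mul_le_mul_of_nonneg_right h3 hqq.le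
    have h5 : q * ((q : ℝ) ^ 2 * a + 1) * (a - 1) ≤ (q : ℝ) ^ 2 * a ^ 2 * q := by
      have h9 := mul_le_mul_of_nonneg_left hsmall.le (by linarith : (0 : ℝ) ≤ q)
      calc q * ((q : ℝ) ^ 2 * a + 1) * (a - 1) = q * (((q : ℝ) ^ 2 * a + 1) * (a - 1)) := by ring
        _ ≤ _ := h9
        _ = _ := by ring
    have h6 : (q : ℝ) ^ 2 * a ^ 2 * (q ^ 2 - 1) ≤ (q : ℝ) ^ 2 * a ^ 2 * q := h4.trans h5
    have h7 : (q : ℝ) ^ 2 - 1 ≤ q := le_of_mul_le_mul_left h6 (by positivity)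
    nlinarith
  · have hqr : (q : ℝ) ^ 2 - 1 ≤ q * (q * r) := by
      rw [div_le_iff₀ (by positivity)] at hr
      have e0 : (q : ℝ) * (q * r) = r * (q : ℝ) ^ 2 := by ring
      rw [e0]
      exact hr
    have h5 : (q : ℝ) * (((q : ℝ) * a ^ 2 + 1) * (q - 1) - q * r) ≤ (q - 1) * (q ^ 2 * a ^ 2 - 1) := by
      have e1 : (q : ℝ) * (((q : ℝ) * a ^ 2 + 1) * (q - 1) - q * r) = (q - 1) * (q ^ 2 * a ^ 2 + q) - q * (q * r) := by ring
      have e2 : ((q : ℝ) - 1) * (q ^ 2 * a ^ 2 - 1) = (q - 1) * (q ^ 2 * a ^ 2 + q) - (q ^ 2 - 1) := by ring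
      rw [e1, e2]
      linarith
    have h2 : ((q : ℝ) - 1) * (q ^ 2 * a ^ 2 - 1) * T ≤ (q - 1) * (q ^ 2 * a ^ 2 - 1) * D := by
      rw [← h1]
      have h4 : (0 : ℝ) ≤ D := Nat.cast_nonneg D
      have e3 : (q : ℝ) * ((D : ℝ) * (((q : ℝ) * (a : ℝ) ^ 2 + 1) * ((q : ℝ) - 1) - (q : ℝ) * r)) =
          (D : ℝ) * ((q : ℝ) * (((q : ℝ) * (a : ℝ) ^ 2 + 1) * ((q : ℝ) - 1) - (q : ℝ) * r)) := by ring
      have e4 : ((q : ℝ) - 1) * ((q : ℝ) ^ 2 * (a : ℝ) ^ 2 - 1) * (D : ℝ) =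
          (D : ℝ) * (((q : ℝ) - 1) * ((q : ℝ) ^ 2 * (a : ℝ) ^ 2 - 1)) := by ring
      rw [e3, e4]
      exact mul_le_mul_of_nonneg_left h5 h4
    have h3 : (0 : ℝ) < ((q : ℝ) - 1) * (q ^ 2 * a ^ 2 - 1) := by
      apply mul_pos (by linarith)
      have h7 : (1 : ℝ) ≤ (a : ℝ) ^ 2 := by nlinarith
      have h8 : (4 : ℝ) * 1 ≤ (q : ℝ) ^ 2 * a ^ 2 := mul_le_mul hq2 h7 (by norm_num) (by positivity)
      linarith
    have h4 := le_of_mul_le_mul_left h2 h3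
    linarith

/-- the other alternatives -/
theorem alt_b {q a T k : ℝ} (hq' : 2 ≤ q) (ha' : q ^ 2 ≤ a) (hTr : T * (q ^ 2 - 1) = q * (q ^ 2 * a + 1) * (a - 1))
    (h' : 2 * ((q * a + 1) * (a - 1)) ≤ k) : T ≤ k := by
  have hq2r : (4 : ℝ) ≤ (q : ℝ) ^ 2 := by nlinarith
  have hqq : (0 : ℝ) < (q : ℝ) ^ 2 - 1 := by linarith
  have ha4 : (4 : ℝ) ≤ a := by linarith
  refine le_trans ?_ h'
  refine le_of_mul_le_mul_right ?_ hqq
  rw [hTr]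
  have h6 : q * (q ^ 2 * a + 1) ≤ 2 * (q * a + 1) * (q ^ 2 - 1) := by
    have e : 2 * (q * a + 1) * (q ^ 2 - 1) - q * (q ^ 2 * a + 1) = (q ^ 2 - 2) * (q * a) + 2 * q ^ 2 - 2 - q := by ring
    have h8 : 0 ≤ (q ^ 2 - 2) * (q * a) := mul_nonneg (by linarith) (by positivity)
    nlinarith
  have h7 := mul_le_mul_of_nonneg_right h6 (by linarith : (0 : ℝ) ≤ a - 1)
  linarith [h7]

theorem alt_c {q a T k : ℝ} (hq' : 2 ≤ q) (ha' : q ^ 2 ≤ a) (hTr : T * (q ^ 2 - 1) = q * (q ^ 2 * a + 1) * (a - 1))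
    (h' : 2 * (q * a ^ 2 + a) ≤ k) : T ≤ k := by
  have hq2r : (4 : ℝ) ≤ (q : ℝ) ^ 2 := by nlinarith
  have hqq : (0 : ℝ) < (q : ℝ) ^ 2 - 1 := by linarith
  have ha4 : (4 : ℝ) ≤ a := by linarith
  refine le_trans ?_ h'
  refine le_of_mul_le_mul_right ?_ hqq
  rw [hTr]
  have e : 2 * (q * a ^ 2 + a) * (q ^ 2 - 1) - q * (q ^ 2 * a + 1) * (a - 1) =
      (q ^ 2 - 2) * (q * a ^ 2) + 2 * a * (q ^ 2 - 1) + (q ^ 2 - 1) * q * a + q := by ring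
  have h1 : 0 ≤ (q ^ 2 - 2) * (q * a ^ 2) := mul_nonneg (by linarith) (by positivity)
  have h2 : 0 ≤ 2 * a * (q ^ 2 - 1) := mul_nonneg (by linarith) hqq.le
  have h3 : 0 ≤ (q ^ 2 - 1) * q * a := mul_nonneg (mul_nonneg hqq.le (by linarith)) (by linarith)
  linarith

theorem alt_d {q a T k : ℝ} (hq' : 2 ≤ q) (ha' : q ^ 2 ≤ a) (hTr : T * (q ^ 2 - 1) = q * (q ^ 2 * a + 1) * (a - 1))
    (h' : (q * a ^ 2 + a) + (q * a + 1) * (a - 1) ≤ k) : T ≤ k := by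
  have hq2r : (4 : ℝ) ≤ (q : ℝ) ^ 2 := by nlinarith
  have hqq : (0 : ℝ) < (q : ℝ) ^ 2 - 1 := by linarith
  have ha4 : (4 : ℝ) ≤ a := by linarith
  refine le_trans ?_ h'
  refine le_of_mul_le_mul_right ?_ hqq
  rw [hTr]
  have e : ((q * a ^ 2 + a) + (q * a + 1) * (a - 1)) * (q ^ 2 - 1) - q * (q ^ 2 * a + 1) * (a - 1) =
      (q ^ 2 - 2) * (q * a ^ 2) + (2 * q ^ 2 - 2) * a - q ^ 2 + 1 + q := by ring
  have h1 : 0 ≤ (q ^ 2 - 2) * (q * a ^ 2) := mul_nonneg (by linarith) (by positivity)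
  have h2 : (2 * q ^ 2 - 2) * 4 ≤ (2 * q ^ 2 - 2) * a := mul_le_mul_of_nonneg_left ha4 (by linarith)
  nlinarith

theorem alt_e {q a T T' k : ℝ} (hq' : 2 ≤ q) (ha' : q ^ 2 ≤ a) (hTr : T * (q ^ 2 - 1) = q * (q ^ 2 * a + 1) * (a - 1))
    (hTr' : T' * (q ^ 2 - 1) = (q * a + 1) * (a - q)) (h' : (q * a ^ 2 + a) + T' ≤ k) : T ≤ k := by
  have hq2r : (4 : ℝ) ≤ (q : ℝ) ^ 2 := by nlinarith
  have hqq : (0 : ℝ) < (q : ℝ) ^ 2 - 1 := by linarith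
  refine le_trans ?_ h'
  refine le_of_mul_le_mul_right ?_ hqq
  have e : ((q * a ^ 2 + a) + T') * (q ^ 2 - 1) = T * (q ^ 2 - 1) + q * a * (q ^ 2 - 1) := by
    rw [add_mul, hTr', hTr]; ring
  rw [e]
  have : 0 ≤ q * a * (q ^ 2 - 1) := mul_nonneg (mul_nonneg (by linarith) (by linarith)) hqq.le
  linarith

theorem alt_f {q T k : ℝ} (hq' : 2 ≤ q) (hTr : T * (q ^ 2 - 1) = q * (q ^ 2 * q ^ 2 + 1) * (q ^ 2 - 1))
    (h' : q * (q ^ 2) ^ 2 + q ^ 2 ≤ k) : T ≤ k := by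
  have hq2r : (4 : ℝ) ≤ (q : ℝ) ^ 2 := by nlinarith
  have hqq : (0 : ℝ) < (q : ℝ) ^ 2 - 1 := by linarith
  have h1 : T = q * (q ^ 2 * q ^ 2 + 1) := mul_right_cancel₀ hqq.ne' hTr
  rw [h1]
  refine le_trans ?_ h'
  nlinarith

end Cfsg.Agent.Lib.OmMinus
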