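import Cfsg.Agent.Lib.OmMinus

/-!
# The minimal degree of `Ω⁻`: induction (helper83)
-/

set_option autoImplicit false
set_option linter.all false

namespace Cfsg.Agent.Lib.OmMinusB

open Cfsg.Agent.Lib.Quad Cfsg.Agent.Lib.ClOrthSiegel QuadraticMap Module OmHyp OmWt OmFix OmLower OmMinus OmComm OmRot OmNonsB
  OmNorm OmLowerB

universe v

variable {F : Type*} [Field F] [Fintype F]

/-- the bound -/
def Tm (q m : ℕ) : ℕ := (q ^ (m + 4) + 1) * (q ^ (m + 3) - q) / (q ^ 2 - 1)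

theorem dvd_Tm (q m : ℕ) (hq : 1 ≤ q) : q ^ 2 - 1 ∣ (q ^ (m + 4) + 1) * (q ^ (m + 3) - q) := by
  have e0 : q ^ (m + 3) - q = q * (q ^ (m + 2) - 1) := by
    rw [Nat.mul_sub, mul_one]
    congr 1
    ring
  rw [e0]
  rcases Nat.even_or_odd m with ⟨j, hj⟩ | hodd
  · apply Dvd.dvd.mul_left
    apply Dvd.dvd.mul_left
    have e : m + 2 = 2 * (j + 1) := by omega
    rw [e, pow_mul]
    exact Nat.sub_one_dvd_pow_sub_one _ _
  · have e1 : q ^ 2 - 1 = (q + 1) * (q - 1) := by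
      obtain ⟨s, rfl⟩ : ∃ s, q = s + 1 := ⟨q - 1, by omega⟩
      have : (s + 1) ^ 2 = (s + 2) * s + 1 := by ring
      rw [this]
      simp
    rw [e1]
    have hodd' : Odd (m + 4) := by
      obtain ⟨j, rfl⟩ := hodd
      exact ⟨j + 2, by ring⟩
    apply Nat.mul_dvd_mul
    · have := Odd.nat_add_dvd_pow_add_pow q 1 hodd'
      rwa [one_pow] at this
    · exact (Nat.sub_one_dvd_pow_sub_one _ _).mul_left _

theorem Tm_spec (q m : ℕ) (hq : 2 ≤ q) : (Tm q m : ℝ) * ((q : ℝ) ^ 2 - 1) =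
    q * ((q : ℝ) ^ 2 * ((q ^ (m + 2) : ℕ) : ℝ) + 1) * (((q ^ (m + 2) : ℕ) : ℝ) - 1) := by
  have h1 := Nat.div_mul_cancel (dvd_Tm q m (by omega))
  have hq2 : 1 ≤ q ^ 2 := Nat.one_le_pow _ _ (by omega)
  have hqm : q ≤ q ^ (m + 3) := by
    calc q = q ^ 1 := (pow_one q).symm
      _ ≤ q ^ (m + 3) := Nat.pow_le_pow_right (by omega) (by omega)
  have h2 : ((Tm q m * (q ^ 2 - 1) : ℕ) : ℝ) = (((q ^ (m + 4) + 1) * (q ^ (m + 3) - q) : ℕ) : ℝ) := by
    rw [← h1]; rfl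
  rw [Nat.cast_mul, Nat.cast_mul, Nat.cast_sub hq2, Nat.cast_sub hqm] at h2
  push_cast at h2 ⊢
  rw [h2]
  ring

theorem Z_step {W : Type*} [AddCommGroup W] [Module F W] [Fintype W] (Q' : QuadraticForm F W) :
    (ClOrthOrd.Z (hyp Q') : ℝ) = Fintype.card F * ClOrthOrd.Z Q' + (Fintype.card F - 1) * Fintype.card W := by
  have h := ClOrthOrd.Z_split (split_hyp Q')
  have h1 : 1 ≤ Fintype.card F := Fintype.card_pos
  rw [h, Nat.card_eq_fintype_card]
  push_cast [Nat.cast_sub h1]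
  ring

theorem N_step {W : Type*} [AddCommGroup W] [Module F W] [Fintype W] (Q' : QuadraticForm F W) (c : F) :
    (Nat.card {v : (F × F) × W // hyp Q' v = c} : ℝ) = Fintype.card F * Nat.card {w : W // Q' w = c} +
      (Fintype.card F - 1) * Fintype.card W := by
  have h := card_value_hyp Q' c
  have h1 : 1 ≤ Fintype.card F := Fintype.card_pos
  rw [h, Nat.card_eq_fintype_card (α := W)]
  push_cast [Nat.cast_sub h1]
  ring

/-- numerical data of a space of minus type -/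
structure Data {W : Type*} [AddCommGroup W] [Module F W] [Fintype W] (Q' : QuadraticForm F W) (m : ℕ) : Prop where
  hW : Fintype.card W = Fintype.card F ^ (2 * m + 2)
  hZ : (ClOrthOrd.Z Q' : ℝ) = (Fintype.card F : ℝ) ^ (2 * m + 1) + (Fintype.card F : ℝ) ^ m - (Fintype.card F : ℝ) ^ (m + 1)
  hN : ∀ c : F, c ≠ 0 → (Nat.card {w : W // Q' w = c} : ℝ) = (Fintype.card F : ℝ) ^ (2 * m + 1) + (Fintype.card F : ℝ) ^ m

theorem Data.step {W : Type*} [AddCommGroup W] [Module F W] [Fintype W] {Q' : QuadraticForm F W} {m : ℕ} (h : Data Q' m) :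
    Data (hyp Q') (m + 1) where
  hW := by
    rw [Fintype.card_prod, Fintype.card_prod, h.hW]
    ring
  hZ := by
    rw [Z_step, h.hZ, h.hW]
    push_cast
    ring
  hN := by
    intro c hc
    rw [N_step, h.hN c hc, h.hW]
    push_cast
    ring

theorem Data.zero {a b : F} (hab : ∀ z₁ z₂ : F, z₁ ^ 2 + a * z₁ * z₂ + b * z₂ ^ 2 = 0 → z₁ = 0 ∧ z₂ = 0) :
    Data (quadMinus 0 F a b) 0 where
  hW := by
    rw [← Nat.card_eq_fintype_card, ClOrthOrd.card_minus_space]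
  hZ := by
    have h := ClOrthOrd.Z_minus hab 0
    have h' : ((ClOrthOrd.Z (quadMinus 0 F a b) : ℤ) : ℝ) = _ := congrArg (Int.cast (R := ℝ)) h
    push_cast at h'
    exact h'
  hN := by
    intro c hc
    rw [card_value_zero hab hc]
    push_cast
    ring

theorem Data.congr {V W : Type*} [AddCommGroup V] [Module F V] [Fintype V] [AddCommGroup W] [Module F W] [Fintype W]
    {Q : QuadraticForm F V} {Q' : QuadraticForm F W} {m : ℕ} (h : Data Q' m) (e : V ≃ₗ[F] W) (he : ∀ v, Q' (e v) = Q v) : Data Q m where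
  hW := by rw [Fintype.card_congr e.toEquiv, h.hW]
  hZ := by
    rw [← h.hZ, ClOrthOrd.Z, ClOrthOrd.Z]
    congr 1
    exact Nat.card_congr (e.toEquiv.subtypeEquiv (fun v => by
      show Q v = 0 ↔ Q' (e v) = 0
      rw [he]))
  hN := by
    intro c hc
    rw [← h.hN c hc]
    congr 1
    exact Nat.card_congr (e.toEquiv.subtypeEquiv (fun v => by
      show Q v = c ↔ Q' (e v) = c
      rw [he]))

theorem Data.minus {a b : F} (hab : ∀ z₁ z₂ : F, z₁ ^ 2 + a * z₁ * z₂ + b * z₂ ^ 2 = 0 → z₁ = 0 ∧ z₂ = 0) (m : ℕ) :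
    Data (quadMinus m F a b) m := by
  induction m with
  | zero => exact Data.zero hab
  | succ m ih => exact ih.step.congr (ClOrthOrd.splitMinus m F) (fun v => ((ClOrthOrd.split_minus m F a b) v).symm)

variable {V : Type v} [AddCommGroup V] [Module ℂ V] [FiniteDimensional ℂ V]

/-- the singular case -/
theorem core {W₃ : Type*} [AddCommGroup W₃] [Module F W₃] [Fintype W₃] [FiniteDimensional F W₃] {Q₃ : QuadraticForm F W₃}
    (hQ₃ : Nd Q₃) {m' : ℕ} (hD : Data Q₃ m')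
    (ρ : Representation ℂ (G (nd_hyp (nd_hyp hQ₃))) V) (hρ : ρ.IsIrreducible) (hV : 2 ≤ Module.finrank ℂ V)
    {ψ : AddChar F ℂ} (hψ : ψ ≠ 0)
    (hns : ∀ x : (F × F) × ((F × F) × W₃), hyp (hyp Q₃) x ≠ 0 → m (nd_hyp hQ₃) ρ ψ x ≠ 0 → Tm (Fintype.card F) m' ≤ finrank ℂ V)
    (h3 : ∀ x : (F × F) × ((F × F) × W₃), hyp (hyp Q₃) x = 0 → LinearMap.trace ℂ V (wt (hQ := nd_hyp (nd_hyp hQ₃)) ρ ψ x) = 1 →
      x.1.2 = 0 → ∀ w, polar (hyp Q₃) w x.2 = 0 →
        ρ (a1 (nd_hyp hQ₃) w) * wt (hQ := nd_hyp (nd_hyp hQ₃)) ρ ψ x = wt (hQ := nd_hyp (nd_hyp hQ₃)) ρ ψ x) :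
    Tm (Fintype.card F) m' ≤ finrank ℂ V := by
  by_cases h : ∃ x : (F × F) × ((F × F) × W₃), hyp (hyp Q₃) x ≠ 0 ∧ m (nd_hyp hQ₃) ρ ψ x ≠ 0
  · obtain ⟨x, hx, hm⟩ := h
    exact hns x hx hm
  push Not at h
  have hl := lowerB hQ₃ (hR3 hQ₃) ρ hρ hV hψ h h3
  have hspec := Tm_spec (Fintype.card F) m' Fintype.one_lt_card
  have hZ2 := hD.step.step.hZ
  have hZ3 := hD.step.step.step.hZ
  have hW := hD.hW
  have hq1 : 1 < Fintype.card F := Fintype.one_lt_card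
  set q := Fintype.card F with hq
  set a : ℕ := q ^ (m' + 2) with ha
  have hq' : (2 : ℝ) ≤ q := by exact_mod_cast hq1
  have haq : q ^ 2 ≤ a := Nat.pow_le_pow_right (by omega) (by omega)
  have haq' : (q : ℝ) ^ 2 ≤ a := by exact_mod_cast haq
  have hZ2' : (ClOrthOrd.Z (hyp (hyp Q₃)) : ℝ) - 1 = (q * a + 1) * (a - 1) := by
    rw [hZ2, ha]; push_cast; ring
  have hZ3' : (ClOrthOrd.Z (hyp (hyp (hyp Q₃))) : ℝ) - 1 = ((q : ℝ) ^ 2 * a + 1) * (q * a - 1) := by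
    rw [hZ3, ha]; push_cast; ring
  rcases hl with hl | ⟨r, hr, hl⟩
  · have hZ1' : 1 ≤ ClOrthOrd.Z (hyp (hyp Q₃)) := by
      have h4 : (4 : ℝ) ≤ (q : ℝ) ^ 2 := by nlinarith
      have h5 : (0 : ℝ) ≤ (q * a + 1) * (a - 1) := mul_nonneg (by positivity) (by linarith)
      have : (1 : ℝ) ≤ ClOrthOrd.Z (hyp (hyp Q₃)) := by linarith
      exact_mod_cast this
    have h' : 2 * (((q : ℝ) * a + 1) * (a - 1)) ≤ (finrank ℂ V : ℝ) := by
      have := (Nat.cast_le (α := ℝ)).mpr hl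
      rw [Nat.cast_mul, Nat.cast_sub hZ1'] at this
      push_cast at this
      rw [← hZ2']
      exact this
    have := alt_b hq' haq' hspec h'
    exact_mod_cast this
  · apply arith_minus hq1 haq hspec hr
    rw [hZ2', hZ3', hW] at hl
    have hx : (q : ℝ) ^ 3 * ((q ^ (2 * m' + 2) : ℕ) : ℝ) = q * (a : ℝ) ^ 2 := by
      rw [ha]
      push_cast
      ring
    rw [hx] at hl
    exact hl

theorem combine {q m' k Zn : ℕ} (hq1 : 1 < q)
    (hZ2 : (Zn : ℝ) = (q : ℝ) ^ (2 * (m' + 1 + 1 + 1) + 1) + (q : ℝ) ^ (m' + 1 + 1 + 1) - (q : ℝ) ^ (m' + 1 + 1 + 1 + 1))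
    (h2 : 2 * (q ^ (2 * (m' + 3) + 1) + q ^ (m' + 3)) ≤ k ∨ (q ^ (2 * (m' + 3) + 1) + q ^ (m' + 3)) + (Zn - 1) ≤ k ∨
      (q ^ (2 * (m' + 3) + 1) + q ^ (m' + 3)) + Tm q m' ≤ k) : Tm q (m' + 1) ≤ k := by
  have hspec := Tm_spec q (m' + 1) hq1
  have hspec' := Tm_spec q m' hq1
  have hq' : (2 : ℝ) ≤ q := by exact_mod_cast hq1
  set c : ℕ := q ^ (m' + 1 + 2) with hc
  have haq : q ^ 2 ≤ c := Nat.pow_le_pow_right (by omega) (by omega)
  have haq' : (q : ℝ) ^ 2 ≤ c := by exact_mod_cast haq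
  have hNc : ((q ^ (2 * (m' + 3) + 1) + q ^ (m' + 3) : ℕ) : ℝ) = q * (c : ℝ) ^ 2 + c := by
    rw [hc]; push_cast; ring
  have hZ2' : (Zn : ℝ) - 1 = (q * c + 1) * (c - 1) := by
    rw [hZ2, hc]; push_cast; ring
  rcases h2 with h2 | h2 | h2
  · have h' := (Nat.cast_le (α := ℝ)).mpr h2
    rw [Nat.cast_mul, hNc, Nat.cast_ofNat] at h'
    have := alt_c hq' haq' hspec h'
    exact_mod_cast this
  · have hZ1' : 1 ≤ Zn := by
      have h4 : (4 : ℝ) ≤ (q : ℝ) ^ 2 := by nlinarith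
      have h5 : (0 : ℝ) ≤ (q * c + 1) * (c - 1) := mul_nonneg (by positivity) (by linarith)
      have : (1 : ℝ) ≤ Zn := by linarith
      exact_mod_cast this
    have h' := (Nat.cast_le (α := ℝ)).mpr h2
    rw [Nat.cast_add, hNc, Nat.cast_sub hZ1', Nat.cast_one, hZ2'] at h'
    have := alt_d hq' haq' hspec h'
    exact_mod_cast this
  · have h' := (Nat.cast_le (α := ℝ)).mpr h2
    rw [Nat.cast_add, hNc] at h'
    have := alt_e hq' haq' hspec (by
      rw [hspec', hc]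
      push_cast
      ring) h'
    exact_mod_cast this

theorem main {a b : F} (hab : ∀ z₁ z₂ : F, z₁ ^ 2 + a * z₁ * z₂ + b * z₂ ^ 2 = 0 → z₁ = 0 ∧ z₂ = 0) (m' : ℕ) :
    ∀ (V : Type v) [AddCommGroup V] [Module ℂ V] [FiniteDimensional ℂ V]
      (ρ : Representation ℂ (Cfsg.Omega F ⇑(quadMinus (m' + 3) F a b)) V), ρ.IsIrreducible → 2 ≤ finrank ℂ V →
      Tm (Fintype.card F) m' ≤ finrank ℂ V := by
  classical
  obtain ⟨ψ, hψ⟩ := exists_char F
  have hD := disc_ne_zero_of_anisotropic hab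
  have hq1 : 1 < Fintype.card F := Fintype.one_lt_card
  have hq' : (2 : ℝ) ≤ Fintype.card F := by exact_mod_cast hq1
  induction m' with
  | zero =>
    intro V _ _ _ ρ hρ hV
    have hQ₃ : Nd (quadMinus 0 F a b) := nd_quadMinus hD
    obtain ⟨Φ, hΦ⟩ := OmTransfer.tri (ClOrthOrd.split_minus 2 F a b) (ClOrthOrd.split_minus 1 F a b) (ClOrthOrd.split_minus 0 F a b)
    let i := isoT hQ₃ Φ hΦ
    have h1 : Representation.IsIrreducible (ρ.comp i.toMonoidHom : Representation ℂ (G (nd_hyp (nd_hyp hQ₃))) V) :=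
      CharBasic.isIrreducible_comp_of_surjective ρ i.toMonoidHom i.surjective hρ
    have HG := hypG hQ₃ (hR3 hQ₃)
    have hDa := Data.zero hab
    refine core hQ₃ hDa (ρ.comp i.toMonoidHom) h1 hV hψ ?_ ?_
    · intro x hx hm
      have h2 := bound_zero (nd_hyp hQ₃) (ρ.comp i.toMonoidHom) hψ HG hx hm
      have h3 : (Nat.card {v : (F × F) × ((F × F) × ((Fin 0 ⊕ Fin 0) ⊕ Fin 2 → F)) // hyp (hyp (quadMinus 0 F a b)) v =
        hyp (hyp (quadMinus 0 F a b)) x} : ℝ) ≤ finrank ℂ V := by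
        have : (Nat.card {v : (F × F) × ((F × F) × ((Fin 0 ⊕ Fin 0) ⊕ Fin 2 → F)) // hyp (hyp (quadMinus 0 F a b)) v =
          hyp (hyp (quadMinus 0 F a b)) x}) ≤ finrank ℂ V := by omega
        exact_mod_cast this
      rw [hDa.step.step.hN _ hx] at h3
      have hspec := Tm_spec (Fintype.card F) 0 hq1
      have := alt_f (k := (finrank ℂ V : ℝ)) (T := (Tm (Fintype.card F) 0 : ℝ)) hq' (by rw [hspec]; push_cast; ring) (by
        refine le_trans (le_of_eq ?_) h3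
        ring)
      exact_mod_cast this
    · obtain ⟨r, hr, hr2⟩ := exists_rot hab
      intro x hx htr hx1 w hw
      refine fix_rot hQ₃ (ρ.comp i.toMonoidHom) ψ (hR3 hQ₃) HG.hT ?_ hr hr2 htr hx1 ?_ hw
      · rw [Module.finrank_pi]
        simp
      · rw [hyp_apply, hx1, mul_zero, zero_add] at hx
        exact hx
  | succ m' ih =>
    intro V _ _ _ ρ hρ hV
    have hQ₄ : Nd (quadMinus m' F a b) := nd_quadMinus hD
    have hQ₃ : Nd (hyp (quadMinus m' F a b)) := nd_hyp hQ₄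
    obtain ⟨Φ, hΦ⟩ := OmTransfer.tri (ClOrthOrd.split_minus (m' + 2) F a b) (ClOrthOrd.split_minus (m' + 1) F a b)
      (ClOrthOrd.split_minus m' F a b)
    obtain ⟨Φ', hΦ'⟩ := OmTransfer.tri (ClOrthOrd.split_minus (m' + 3) F a b) (ClOrthOrd.split_minus (m' + 2) F a b)
      (ClOrthOrd.split_minus (m' + 1) F a b)
    -- one more plane
    let Φ₄ : ((Fin (m' + 4) ⊕ Fin (m' + 4)) ⊕ Fin 2 → F) ≃ₗ[F] (F × F) × ((F × F) × ((F × F) × ((F × F) × ((Fin m' ⊕ Fin m') ⊕ Fin 2 → F)))) :=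
      Φ'.trans (LinearEquiv.prodCongr (LinearEquiv.refl F (F × F)) (LinearEquiv.prodCongr (LinearEquiv.refl F (F × F))
        (LinearEquiv.prodCongr (LinearEquiv.refl F (F × F)) (ClOrthOrd.splitMinus m' F))))
    have hΦ₄ : ∀ v, hyp (hyp (hyp (hyp (quadMinus m' F a b)))) (Φ₄ v) = quadMinus (m' + 4) F a b v := by
      intro v
      rw [← hΦ' v]
      show hyp (hyp (hyp (hyp (quadMinus m' F a b)))) ((Φ' v).1, ((Φ' v).2.1, ((Φ' v).2.2.1, ClOrthOrd.splitMinus m' F (Φ' v).2.2.2))) = _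
      rw [hyp_apply, hyp_apply, hyp_apply, hyp_apply (hyp (hyp (quadMinus (m' + 1) F a b))), hyp_apply (hyp (quadMinus (m' + 1) F a b)),
        hyp_apply (quadMinus (m' + 1) F a b)]
      simp only
      rw [(ClOrthOrd.split_minus m' F a b) (Φ' v).2.2.2]
      rfl
    let i' := isoT hQ₄ Φ hΦ
    let i := isoT hQ₃ Φ₄ hΦ₄
    have h1 : Representation.IsIrreducible (ρ.comp i.toMonoidHom : Representation ℂ (G (nd_hyp (nd_hyp hQ₃))) V) :=
      CharBasic.isIrreducible_comp_of_surjective ρ i.toMonoidHom i.surjective hρ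
    have HG := hypG hQ₃ (hR3 hQ₃)
    have hDa : Data (hyp (quadMinus m' F a b)) (m' + 1) := (Data.minus hab m').step
    have hfr : 0 < finrank F ((Fin m' ⊕ Fin m') ⊕ Fin 2 → F) := by
      rw [Module.finrank_pi]
      simp
    have hroom : ∀ y, Room (hyp (hyp (quadMinus m' F a b))) y := room_two hQ₄ hfr
    refine core hQ₃ hDa (ρ.comp i.toMonoidHom) h1 hV hψ ?_ ?_
    · intro x hx hm
      have hT' : ∀ (V : Type v) [AddCommGroup V] [Module ℂ V] [FiniteDimensional ℂ V] (σ : Representation ℂ (G (nd_hyp hQ₃)) V),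
          σ.IsIrreducible → 2 ≤ finrank ℂ V → Tm (Fintype.card F) m' ≤ finrank ℂ V := by
        intro V _ _ _ σ hσ hV
        exact ih V (σ.comp i'.symm.toMonoidHom : Representation ℂ (Cfsg.Omega F ⇑(quadMinus (m' + 3) F a b)) V)
          (CharBasic.isIrreducible_comp_of_surjective σ i'.symm.toMonoidHom i'.symm.surjective hσ) hV
      have hNN := hDa.step.step.hN
      have hN : ∀ c : F, c ≠ 0 → Nat.card {v : (F × F) × ((F × F) × ((F × F) × ((Fin m' ⊕ Fin m') ⊕ Fin 2 → F))) //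
          hyp (hyp (hyp (quadMinus m' F a b))) v = c} = Fintype.card F ^ (2 * (m' + 3) + 1) + Fintype.card F ^ (m' + 3) := by
        intro c hc
        have := hNN c hc
        exact_mod_cast this
      have h2 := nons_main (nd_hyp hQ₃) (ρ.comp i.toMonoidHom) hψ HG hroom hT' hN hx hm
      exact combine hq1 hDa.step.step.hZ h2
    · intro x hx htr hx1 w hw
      exact fix_room (nd_hyp hQ₃) (ρ.comp i.toMonoidHom) ψ htr hx1 (hroom _) hw

end Cfsg.Agent.Lib.OmMinusB
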