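import Cfsg.Agent.Lib.OmNorm

/-!
# Non-singular weights of multiplicity one (helper83)
-/

set_option autoImplicit false
set_option linter.all false

namespace Cfsg.Agent.Lib.OmNons

open Cfsg.Agent.Lib.Quad Cfsg.Agent.Lib.ClOrthSiegel QuadraticMap Module AvgTrace OmHyp OmWt OmFix OmTr OmSL OmER OmTB OmPos
  OmSchur OmLower OmComm OmRot

universe v

/-- representations killing commutators kill the root elements -/
theorem kill_u {F W : Type*} [Field F] [Fintype F] [AddCommGroup W] [Module F W] [Fintype W] [FiniteDimensional F W]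
    {Q' : QuadraticForm F W} (hQ : Nd Q') (hr : Room Q' 0) {V : Type*} [AddCommGroup V] [Module ℂ V]
    (σ : Representation ℂ (G hQ) V) (h : ∀ g k : G hQ, σ (g * k * g⁻¹ * k⁻¹) = 1) (w : W) : σ (u hQ w) = 1 := by
  have hs : ∀ w : W, Q' w = 0 → σ (u hQ w) = 1 := by
    intro w hw
    obtain ⟨s, t, h1, -, h3, -, h5⟩ := hr.st w hw (polar_zero_right _ _)
    rw [← comm_formula hQ hw h1 h3 h5]
    exact h _ _
  obtain ⟨e, f, he, hf, hef, -, -⟩ := hr.ef
  obtain ⟨a, b, hab⟩ := decomp he hf hef w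
  have hsum : w = (w + a • e + b • f) + (-a • e) + (-b • f) := by
    rw [neg_smul, neg_smul]; abel
  rw [hsum, u_add, u_add, map_mul, map_mul, hs _ hab, hs (-a • e) (by rw [Q_smul, he, mul_zero]),
    hs (-b • f) (by rw [Q_smul, hf, mul_zero]), mul_one, mul_one]

/-- the alternative for all representations -/
theorem alt {H : Type*} [Group H] [Finite H] {T' : ℕ}
    (hT' : ∀ (V : Type v) [AddCommGroup V] [Module ℂ V] [FiniteDimensional ℂ V] (σ : Representation ℂ H V),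
      σ.IsIrreducible → 2 ≤ finrank ℂ V → T' ≤ finrank ℂ V)
    (V : Type v) [AddCommGroup V] [Module ℂ V] [FiniteDimensional ℂ V] (σ : Representation ℂ H V) :
    T' ≤ finrank ℂ V ∨ ∀ g k : H, σ (g * k * g⁻¹ * k⁻¹) = 1 := by
  refine CharBasic.rep_induction (G := H) (P := fun V _ _ _ σ => T' ≤ finrank ℂ V ∨ ∀ g k : H, σ (g * k * g⁻¹ * k⁻¹) = 1) ?_ ?_ ?_ V σ
  · intro V _ _ _ σ hV
    right
    intro g k
    exact LinearMap.ext fun x => Subsingleton.elim _ _
  · intro V _ _ _ σ hσ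
    by_cases h : 2 ≤ finrank ℂ V
    · exact Or.inl (hT' V σ hσ h)
    · right
      intro g k
      have hcomm : ∀ g k : H, σ g * σ k = σ k * σ g := by
        intro g k
        have hnt : Nontrivial V := CharBasic.nontrivial_of_isIrreducible hσ
        have h1 : finrank ℂ V = 1 := by
          have : 0 < finrank ℂ V := Module.finrank_pos
          omega
        obtain ⟨x, hx0, hx⟩ := finrank_eq_one_iff'.1 h1
        have hs : ∀ T : V →ₗ[ℂ] V, ∃ c : ℂ, T = c • (1 : V →ₗ[ℂ] V) := by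
          intro T
          obtain ⟨c, hc⟩ := hx (T x)
          refine ⟨c, LinearMap.ext fun y => ?_⟩
          obtain ⟨d, rfl⟩ := hx y
          rw [map_smul, ← hc]
          show d • c • x = c • d • x
          rw [smul_comm]
        obtain ⟨c, hc⟩ := hs (σ g)
        obtain ⟨d, hd⟩ := hs (σ k)
        rw [hc, hd, smul_mul_smul_comm, smul_mul_smul_comm, mul_comm]
      rw [map_mul, map_mul, map_mul, hcomm g k, mul_assoc (σ k), rho_mul_inv, mul_one, rho_mul_inv]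
  · intro V _ _ _ σ S T hST _ _ h1 h2
    rcases h1 with h1 | h1
    · left
      exact h1.trans (Submodule.finrank_le _)
    · rcases h2 with h2 | h2
      · left
        exact h2.trans (Submodule.finrank_le _)
      · right
        intro g k
        apply LinearMap.ext
        intro x
        have hx : x ∈ S.toSubmodule ⊔ T.toSubmodule := by rw [hST.sup_eq_top]; exact Submodule.mem_top
        obtain ⟨y, hy, z, hz, rfl⟩ := Submodule.mem_sup.1 hx
        have h3 := congrArg (fun f : S.toSubmodule →ₗ[ℂ] S.toSubmodule => ((f ⟨y, hy⟩ : S.toSubmodule) : V)) (h1 g k)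
        have h4 := congrArg (fun f : T.toSubmodule →ₗ[ℂ] T.toSubmodule => ((f ⟨z, hz⟩ : T.toSubmodule) : V)) (h2 g k)
        rw [map_add]
        exact congrArg₂ (· + ·) h3 h4

section

variable {F W : Type*} [Field F] [Fintype F] [AddCommGroup W] [Module F W] [Fintype W] [FiniteDimensional F W]
  {Q₂ : QuadraticForm F W} (hQ : Nd Q₂) {V : Type*} [AddCommGroup V] [Module ℂ V] [FiniteDimensional ℂ V]
  (ρ : Representation ℂ (G (nd_hyp hQ)) V) {ψ : AddChar F ℂ} (hψ : ψ ≠ 0)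

/-- the trace of `A1` on a weight space fixed by the stabiliser -/
theorem trace_A1_wt' {x : (F × F) × W} (hx1 : x.1.2 = 0) (hx2 : x.2 ≠ 0) (hψ : ψ ≠ 0)
    (hfix : ∀ w, polar Q₂ w x.2 = 0 → ρ (a1 hQ w) * wt (hQ := nd_hyp hQ) ρ ψ x = wt (hQ := nd_hyp hQ) ρ ψ x) :
    LinearMap.trace ℂ V (A1 hQ ρ * wt (hQ := nd_hyp hQ) ρ ψ x) = (Fintype.card F : ℂ)⁻¹ * m hQ ρ ψ x := by
  classical
  have hq : (Fintype.card F : ℂ) ≠ 0 := Nat.cast_ne_zero.2 Fintype.card_ne_zero
  have hW : (Fintype.card W : ℂ) ≠ 0 := Nat.cast_ne_zero.2 Fintype.card_ne_zero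
  have h0 : ∀ w, LinearMap.trace ℂ V (ρ (a1 hQ w) * wt (hQ := nd_hyp hQ) ρ ψ x) = if polar Q₂ w x.2 = 0 then (m hQ ρ ψ x : ℂ) else 0 := by
    intro w
    split_ifs with h
    · rw [hfix w h, trace_m]
    · have hw : w ≠ 0 := by
        intro h0
        apply h
        rw [h0, polar_zero_left]
      exact trace_move (hQ := nd_hyp hQ) ρ hψ (a1_e0 hQ w) (a1_move hQ hw (Or.inr h))
  unfold A1 av
  rw [smul_mul_assoc, Finset.sum_mul, map_smul, map_sum, smul_eq_mul, Finset.sum_congr rfl (fun w' _ => h0 w'), ← Finset.sum_filter,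
    Finset.sum_const, nsmul_eq_mul, ← Fintype.card_subtype]
  have h2 := card_perp hQ hx2
  rw [Nat.card_eq_fintype_card] at h2
  have h3 : (Fintype.card F : ℂ) * Fintype.card {w' : W // polar Q₂ w' x.2 = 0} = Fintype.card W := by exact_mod_cast h2
  rw [← h3, mul_inv_rev]
  have h4 : (Fintype.card {w' : W // polar Q₂ w' x.2 = 0} : ℂ) ≠ 0 := by
    intro h5
    rw [h5, mul_zero] at h3
    exact hW h3.symm
  field_simp

include hψ in
/-- the comparison of traces -/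
theorem compare (hsing : ∀ x : (F × F) × W, x ≠ 0 → hyp Q₂ x = 0 → m hQ ρ ψ x = 0)
    (hA : LinearMap.trace ℂ V (A1 hQ ρ * wt (hQ := nd_hyp hQ) ρ ψ 0) = m hQ ρ ψ 0)
    (hfix : ∀ x : (F × F) × W, hyp Q₂ x ≠ 0 → x.1.2 = 0 → ∀ w, polar Q₂ w x.2 = 0 →
      ρ (a1 hQ w) * wt (hQ := nd_hyp hQ) ρ ψ x = wt (hQ := nd_hyp hQ) ρ ψ x)
    {x : (F × F) × W} (hx0 : x ≠ 0) (hx : x.1.2 = 0) : m hQ ρ ψ x = 0 := by
  classical
  have hq : (Fintype.card F : ℂ) ≠ 0 := Nat.cast_ne_zero.2 Fintype.card_ne_zero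
  have hzero : ∀ x : (F × F) × W, m hQ ρ ψ x = 0 → wt (hQ := nd_hyp hQ) ρ ψ x = 0 := by
    intro x h
    unfold m at h
    rwa [Submodule.finrank_eq_zero, LinearMap.range_eq_bot] at h
  have h1 := trace_ZA hQ ρ
  have h2 : LinearMap.trace ℂ V (Z hQ ρ * A1 hQ ρ) = ∑ x : (F × F) × W,
      if x.1.2 = 0 then (if x = 0 then (m hQ ρ ψ 0 : ℂ) else (Fintype.card F : ℂ)⁻¹ * m hQ ρ ψ x) else 0 := by
    rw [Z_A1, mul_sum_wt (hQ := nd_hyp hQ) ρ hψ (A1 hQ ρ * Z hQ ρ), map_sum]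
    refine Finset.sum_congr rfl fun x _ => ?_
    rw [mul_assoc, Z_wt hQ ρ hψ]
    split_ifs with h3 h4
    · rw [h4, hA]
    · by_cases h5 : hyp Q₂ x = 0
      · rw [hsing x h4 h5, hzero x (hsing x h4 h5), mul_zero, map_zero, Nat.cast_zero, mul_zero]
      · apply trace_A1_wt' hQ ρ h3 _ hψ (hfix x h5 h3)
        intro h6
        apply h5
        rw [hyp_apply, h3, h6, mul_zero, QuadraticMap.map_zero, zero_add]
    · rw [mul_zero, map_zero]
  have h3 : LinearMap.trace ℂ V (Z hQ ρ * A0 hQ ρ) = ∑ x : (F × F) × W,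
      if x.1.2 = 0 then (if x = 0 then (m hQ ρ ψ 0 : ℂ) else 0) else 0 := by
    rw [mul_sum_wt (hQ := nd_hyp hQ) ρ hψ (Z hQ ρ * A0 hQ ρ), map_sum]
    refine Finset.sum_congr rfl fun x _ => ?_
    rw [mul_assoc, A0_wt hQ ρ hψ]
    by_cases h4 : x = 0
    · subst h4
      have e2 : (0 : (F × F) × W).2 = 0 := rfl
      have e1' : (0 : (F × F) × W).1.2 = 0 := rfl
      rw [if_pos e2, if_pos e1', if_pos rfl, Z_wt hQ ρ hψ, if_pos e1', trace_m]
    · rw [if_neg h4]
      have h7 : (if x.1.2 = 0 then (0 : ℂ) else 0) = 0 := by split_ifs <;> rfl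
      rw [h7]
      split_ifs with h5
      · rw [Z_wt hQ ρ hψ]
        split_ifs with h6
        · rw [hzero x (hsing x h4 (by rw [hyp_apply, h5, h6, mul_zero, QuadraticMap.map_zero, zero_add])), map_zero]
        · rw [map_zero]
      · rw [mul_zero, map_zero]
  rw [h2, h3, ← sub_eq_zero, ← Finset.sum_sub_distrib] at h1
  have h4 : ∀ x : (F × F) × W, ((if x.1.2 = 0 then (if x = 0 then (m hQ ρ ψ 0 : ℂ) else (Fintype.card F : ℂ)⁻¹ * m hQ ρ ψ x) else 0) -
      if x.1.2 = 0 then (if x = 0 then (m hQ ρ ψ 0 : ℂ) else 0) else 0) =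
      (Fintype.card F : ℂ)⁻¹ * ((if x.1.2 = 0 ∧ x ≠ 0 then m hQ ρ ψ x else 0 : ℕ) : ℂ) := by
    intro x
    by_cases h5 : x.1.2 = 0
    · by_cases h6 : x = 0
      · simp [h5, h6]
      · simp [h5, h6]
    · simp [h5]
  rw [Finset.sum_congr rfl (fun x _ => h4 x), ← Finset.mul_sum, ← Nat.cast_sum] at h1
  have h5 := (mul_eq_zero.1 h1).resolve_left (inv_ne_zero hq)
  have h6 : ∑ x : (F × F) × W, (if x.1.2 = 0 ∧ x ≠ 0 then m hQ ρ ψ x else 0) = 0 := by exact_mod_cast h5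
  have h7 := (Finset.sum_eq_zero_iff.1 h6) x (Finset.mem_univ _)
  rwa [if_pos ⟨hx, hx0⟩] at h7

end

end Cfsg.Agent.Lib.OmNons
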