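import Cfsg.Agent.Lib.OmNons

/-!
# Lower bounds in the presence of non-singular weights (helper83)
-/

set_option autoImplicit false
set_option linter.all false

namespace Cfsg.Agent.Lib.OmNonsB

open Cfsg.Agent.Lib.Quad Cfsg.Agent.Lib.ClOrthSiegel QuadraticMap Module AvgTrace OmHyp OmWt OmFix OmTr OmSL OmER OmTB OmPos
  OmSchur OmLower OmComm OmRot OmNons

universe v

variable {F W : Type*} [Field F] [Fintype F] [AddCommGroup W] [Module F W] [Fintype W] [FiniteDimensional F W]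
  {Q₂ : QuadraticForm F W} (hQ : Nd Q₂) {V : Type v} [AddCommGroup V] [Module ℂ V] [FiniteDimensional ℂ V]
  (ρ : Representation ℂ (G (nd_hyp hQ)) V) {ψ : AddChar F ℂ} (hψ : ψ ≠ 0)
  {k : ℕ} {e f : Fin (k + 1) → W} (HG : Hyp hQ k e f)

omit [FiniteDimensional F W] in
open Classical in
theorem card_eq_sum (c : F) (n : ℕ) : (Nat.card {v : (F × F) × W // hyp Q₂ v = c}) * n = ∑ v : (F × F) × W, if hyp Q₂ v = c then n else 0 := by
  rw [← Finset.sum_filter, Finset.sum_const, smul_eq_mul, Nat.card_eq_fintype_card, Fintype.card_subtype]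

omit [FiniteDimensional F W] in
open Classical in
theorem card_sing : ClOrthOrd.Z (hyp Q₂) - 1 = ∑ v : (F × F) × W, if v ≠ 0 ∧ hyp Q₂ v = 0 then 1 else 0 := by
  rw [← Finset.sum_filter, Finset.sum_const, smul_eq_mul, mul_one]
  rw [ClOrthOrd.Z, Nat.card_eq_fintype_card, Fintype.card_subtype]
  have h2 : (Finset.univ.filter (fun v : (F × F) × W => v ≠ 0 ∧ hyp Q₂ v = 0)) =
      (Finset.univ.filter (fun v : (F × F) × W => hyp Q₂ v = 0)).erase 0 := by
    ext v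
    simp
  rw [h2, Finset.card_erase_of_mem (by simp)]

include hψ HG in
theorem bound_two {x : (F × F) × W} (hx : hyp Q₂ x ≠ 0) (hm : 2 ≤ m hQ ρ ψ x) :
    (Nat.card {v : (F × F) × W // hyp Q₂ v = hyp Q₂ x}) * 2 ≤ finrank ℂ V := by
  classical
  rw [← sum_m hQ ρ hψ, card_eq_sum]
  apply Finset.sum_le_sum
  intro v _
  split_ifs with h
  · have hv0 : v ≠ 0 := by rintro rfl; exact hx (h.symm.trans (QuadraticMap.map_zero _))
    have hx0 : x ≠ 0 := by rintro rfl; exact hx (QuadraticMap.map_zero _)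
    rw [m_eq hQ ρ HG ψ hv0 hx0 h]
    exact hm
  · exact Nat.zero_le _

include hψ HG in
theorem bound_sing {x y : (F × F) × W} (hx : hyp Q₂ x ≠ 0) (hm : m hQ ρ ψ x ≠ 0) (hy0 : y ≠ 0) (hy : hyp Q₂ y = 0)
    (hmy : m hQ ρ ψ y ≠ 0) :
    (Nat.card {v : (F × F) × W // hyp Q₂ v = hyp Q₂ x}) * 1 + (ClOrthOrd.Z (hyp Q₂) - 1) ≤ finrank ℂ V := by
  classical
  rw [← sum_m hQ ρ hψ, card_eq_sum, card_sing, ← Finset.sum_add_distrib]
  apply Finset.sum_le_sum
  intro v _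
  by_cases h : hyp Q₂ v = hyp Q₂ x
  · have hv0 : v ≠ 0 := by rintro rfl; exact hx (h.symm.trans (QuadraticMap.map_zero _))
    have hx0 : x ≠ 0 := by rintro rfl; exact hx (QuadraticMap.map_zero _)
    rw [if_pos h, if_neg (fun h' => hx (h.symm.trans h'.2)), m_eq hQ ρ HG ψ hv0 hx0 h]
    omega
  · rw [if_neg h]
    split_ifs with h1
    · rw [m_eq hQ ρ HG ψ h1.1 hy0 (h1.2.trans hy.symm)]
      omega
    · exact Nat.zero_le _

include hψ HG in
theorem bound_zero {x : (F × F) × W} (hx : hyp Q₂ x ≠ 0) (hm : m hQ ρ ψ x ≠ 0) :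
    (Nat.card {v : (F × F) × W // hyp Q₂ v = hyp Q₂ x}) * 1 + m hQ ρ ψ 0 ≤ finrank ℂ V := by
  classical
  have h0 : m hQ ρ ψ 0 = ∑ v : (F × F) × W, if v = 0 then m hQ ρ ψ 0 else 0 := by
    rw [Finset.sum_ite_eq' Finset.univ (0 : (F × F) × W), if_pos (Finset.mem_univ _)]
  rw [← sum_m hQ ρ hψ, card_eq_sum, h0, ← Finset.sum_add_distrib]
  apply Finset.sum_le_sum
  intro v _
  by_cases h : hyp Q₂ v = hyp Q₂ x
  · have hv0 : v ≠ 0 := by rintro rfl; exact hx (h.symm.trans (QuadraticMap.map_zero _))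
    have hx0 : x ≠ 0 := by rintro rfl; exact hx (QuadraticMap.map_zero _)
    rw [if_pos h, if_neg hv0, m_eq hQ ρ HG ψ hv0 hx0 h]
    omega
  · rw [if_neg h]
    split_ifs with h1
    · rw [h1]; omega
    · exact Nat.zero_le _

include hψ HG in
/-- the Levi subgroup acts with an irreducible constituent of degree at least two on the fixed space -/
theorem levi {T' : ℕ} (hroom : ∀ y, Room Q₂ y)
    (hT' : ∀ (V : Type v) [AddCommGroup V] [Module ℂ V] [FiniteDimensional ℂ V] (σ : Representation ℂ (G hQ) V),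
      σ.IsIrreducible → 2 ≤ finrank ℂ V → T' ≤ finrank ℂ V)
    (hsing : ∀ x : (F × F) × W, x ≠ 0 → hyp Q₂ x = 0 → m hQ ρ ψ x = 0)
    (hone : ∀ x : (F × F) × W, hyp Q₂ x ≠ 0 → m hQ ρ ψ x ≤ 1)
    {x : (F × F) × W} (hx : hyp Q₂ x ≠ 0) (hm : m hQ ρ ψ x ≠ 0) : T' ≤ m hQ ρ ψ 0 := by
  classical
  haveI : Finite (G hQ) := by
    haveI : Finite (((F × F) × W) ≃ₗ[F] ((F × F) × W)) := Finite.of_injective (fun g => (g : ((F × F) × W) → ((F × F) × W))) DFunLike.coe_injective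
    infer_instance
  obtain ⟨σ', hσ'⟩ := SLGap.sub_char (ρ.comp (ext hQ)) (wt_idem (hQ := nd_hyp hQ) ρ ψ 0)
    (fun g => wt_comm_ext hQ ρ ψ g (map_zero _))
  rcases alt hT' _ σ' with h | h
  · exact h
  exfalso
  have hA : LinearMap.trace ℂ V (A1 hQ ρ * wt (hQ := nd_hyp hQ) ρ ψ 0) = m hQ ρ ψ 0 := by
    have h1 : ∀ w : W, LinearMap.trace ℂ V (ρ (a1 hQ w) * wt (hQ := nd_hyp hQ) ρ ψ 0) = m hQ ρ ψ 0 := by
      intro w
      have h2 := hσ' (u hQ w)
      change _ = LinearMap.trace ℂ V (ρ (ext hQ (u hQ w)) * wt (hQ := nd_hyp hQ) ρ ψ 0) at h2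
      rw [ext_u] at h2
      rw [← h2]
      show LinearMap.trace ℂ _ (σ' (u hQ w)) = _
      rw [kill_u hQ (hroom 0) σ' h, LinearMap.trace_one]
      rfl
    unfold A1 av
    rw [smul_mul_assoc, Finset.sum_mul, map_smul, map_sum, smul_eq_mul, Finset.sum_congr rfl (fun w' _ => h1 w'), Finset.sum_const,
      Finset.card_univ, nsmul_eq_mul, inv_mul_cancel_left₀ (Nat.cast_ne_zero.2 Fintype.card_ne_zero)]
  -- a vector of the same value
  have hx0 : x ≠ 0 := by rintro rfl; exact hx (QuadraticMap.map_zero _)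
  let x' : (F × F) × W := ((0, 0), e 0 + (hyp Q₂ x) • f 0)
  have hx' : hyp Q₂ x' = hyp Q₂ x := by
    rw [hyp_apply Q₂ x']
    show (0 : F) * 0 + Q₂ (e 0 + (hyp Q₂ x) • f 0) = _
    rw [Q_add, Q_smul, HG.fr.e0, HG.fr.f0, polar_smul_right, HG.fr.ef]
    simp
  have hx'0 : x' ≠ 0 := by
    intro h
    rw [h, QuadraticMap.map_zero] at hx'
    exact hx hx'.symm
  apply hm
  rw [← m_eq hQ ρ HG ψ hx'0 hx0 hx']
  refine compare hQ ρ hψ hsing hA ?_ hx'0 rfl
  intro z hz hz1 w hw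
  by_cases h0 : m hQ ρ ψ z = 0
  · have h2 : wt (hQ := nd_hyp hQ) ρ ψ z = 0 := by
      unfold m at h0
      rwa [Submodule.finrank_eq_zero, LinearMap.range_eq_bot] at h0
    rw [h2, mul_zero]
  · apply fix_room hQ ρ ψ _ hz1 (hroom _) hw
    rw [trace_m hQ]
    have := hone z hz
    have h2 : m hQ ρ ψ z = 1 := by omega
    rw [h2, Nat.cast_one]

include hψ HG in
/-- the three alternatives -/
theorem nons_main {T' N : ℕ} (hroom : ∀ y, Room Q₂ y)
    (hT' : ∀ (V : Type v) [AddCommGroup V] [Module ℂ V] [FiniteDimensional ℂ V] (σ : Representation ℂ (G hQ) V),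
      σ.IsIrreducible → 2 ≤ finrank ℂ V → T' ≤ finrank ℂ V)
    (hN : ∀ c : F, c ≠ 0 → Nat.card {v : (F × F) × W // hyp Q₂ v = c} = N)
    {x : (F × F) × W} (hx : hyp Q₂ x ≠ 0) (hm : m hQ ρ ψ x ≠ 0) :
    2 * N ≤ finrank ℂ V ∨ N + (ClOrthOrd.Z (hyp Q₂) - 1) ≤ finrank ℂ V ∨ N + T' ≤ finrank ℂ V := by
  by_cases h2 : ∃ z, hyp Q₂ z ≠ 0 ∧ 2 ≤ m hQ ρ ψ z
  · obtain ⟨z, hz, hz2⟩ := h2
    left
    have := bound_two hQ ρ hψ HG hz hz2
    rw [hN _ hz] at this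
    omega
  right
  push Not at h2
  by_cases h3 : ∃ y, y ≠ 0 ∧ hyp Q₂ y = 0 ∧ m hQ ρ ψ y ≠ 0
  · obtain ⟨y, hy0, hy, hmy⟩ := h3
    left
    have := bound_sing hQ ρ hψ HG hx hm hy0 hy hmy
    rw [hN _ hx] at this
    omega
  right
  push Not at h3
  have h4 := levi hQ ρ hψ HG hroom hT' h3 (fun z hz => by have := h2 z hz; omega) hx hm
  have h5 := bound_zero hQ ρ hψ HG hx hm
  rw [hN _ hx] at h5
  omega

end Cfsg.Agent.Lib.OmNonsB
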