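import Cfsg.Agent.Lib.OmLowerB
import Cfsg.Agent.Lib.QuadNorm
import Cfsg.Agent.Lib.ClOrthOrd2

/-!
# Rotations of the anisotropic plane, numbers of vectors of given value (helper83)
-/

set_option autoImplicit false
set_option linter.all false

namespace Cfsg.Agent.Lib.OmNorm

open Cfsg.Agent.Lib.Quad QuadraticMap Module OmHyp QuadNorm QuadExt

variable {F : Type*} [Field F] [Fintype F]

theorem exists_rot {a b : F} (hab : ∀ z₁ z₂ : F, z₁ ^ 2 + a * z₁ * z₂ + b * z₂ ^ 2 = 0 → z₁ = 0 ∧ z₂ = 0) :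
    ∃ r ∈ O (quadMinus 0 F a b), ∀ p, ∃ p', p = r (r p') - p' := by
  classical
  haveI := fact_irred hab
  have hQ : Nd (quadMinus 0 F a b) := nd_quadMinus (disc_ne_zero_of_anisotropic hab)
  -- an element of norm one
  obtain ⟨z, hz1, hz2⟩ : ∃ z : L F a b, z.norm = 1 ∧ z ^ 2 ≠ 1 := by
    by_contra hcon
    push Not at hcon
    have h1 := ClOrthOrd.card_norm_one hab
    have h2 : ∀ p : {p : F × F // p.1 ^ 2 + a * p.1 * p.2 + b * p.2 ^ 2 = 1}, (p : F × F) ∈ ({(1, 0), (-1, 0)} : Finset (F × F)) := by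
      rintro ⟨⟨x, y⟩, h⟩
      have h3 := hcon ⟨x, y⟩ (by rw [norm_eq]; exact h)
      have h4 : (⟨x, y⟩ : L F a b) = 1 ∨ (⟨x, y⟩ : L F a b) = -1 := by
        have h5 : ((⟨x, y⟩ : L F a b) - 1) * ((⟨x, y⟩ : L F a b) + 1) = 0 := by linear_combination h3
        rcases mul_eq_zero.1 h5 with h6 | h6
        · exact Or.inl (sub_eq_zero.1 h6)
        · exact Or.inr (eq_neg_of_add_eq_zero_left h6)
      rw [Finset.mem_insert, Finset.mem_singleton]
      rcases h4 with h4 | h4
      · left
        exact Prod.ext (congrArg QuadraticAlgebra.re h4) (congrArg QuadraticAlgebra.im h4)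
      · right
        refine Prod.ext (congrArg QuadraticAlgebra.re h4) ?_
        have := congrArg QuadraticAlgebra.im h4
        rw [QuadraticAlgebra.im_neg, QuadraticAlgebra.im_one, neg_zero] at this
        exact this
    have h5 : Nat.card {p : F × F // p.1 ^ 2 + a * p.1 * p.2 + b * p.2 ^ 2 = 1} ≤ 2 := by
      have h6 : Function.Injective (fun p : {p : F × F // p.1 ^ 2 + a * p.1 * p.2 + b * p.2 ^ 2 = 1} =>
        (⟨p.1, h2 p⟩ : {x // x ∈ ({(1, 0), (-1, 0)} : Finset (F × F))})) := by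
        intro p p' h
        exact Subtype.ext (congrArg (fun x : {x // x ∈ ({(1, 0), (-1, 0)} : Finset (F × F))} => (x : F × F)) h)
      have h7 := Nat.card_le_card_of_injective _ h6
      refine h7.trans ?_
      rw [Nat.card_eq_fintype_card, Fintype.card_coe]
      exact Finset.card_le_two
    rw [h1] at h5
    have : 1 < Fintype.card F := Fintype.one_lt_card
    omega
  let e := coordL F a b
  let g : (((Fin 0 ⊕ Fin 0) ⊕ Fin 2) → F) →ₗ[F] (((Fin 0 ⊕ Fin 0) ⊕ Fin 2) → F) :=
    e.symm.toLinearMap.comp ((LinearMap.mulLeft F z).comp e.toLinearMap)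
  have hg : ∀ v, g v = e.symm (z * e v) := fun v => rfl
  have hge : ∀ v, e (g v) = z * e v := fun v => by rw [hg, LinearEquiv.apply_symm_apply]
  have hgQ : ∀ v, quadMinus 0 F a b (g v) = quadMinus 0 F a b v := by
    intro v
    rw [← normForm_coordL, ← normForm_coordL, normForm_apply, normForm_apply]
    change (e (g v)).norm = (e v).norm
    rw [hge, map_mul, hz1, one_mul]
  refine ⟨ofMap hQ g hgQ, ofMap_mem hQ g hgQ, fun p => ?_⟩
  have hz3 : z ^ 2 - 1 ≠ 0 := sub_ne_zero.2 hz2
  refine ⟨e.symm ((z ^ 2 - 1)⁻¹ * e p), ?_⟩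
  rw [ofMap_apply, ofMap_apply]
  apply e.injective
  rw [map_sub, hge, hge, LinearEquiv.apply_symm_apply]
  field_simp

theorem card_value_zero {a b : F} (hab : ∀ z₁ z₂ : F, z₁ ^ 2 + a * z₁ * z₂ + b * z₂ ^ 2 = 0 → z₁ = 0 ∧ z₂ = 0) {c : F} (hc : c ≠ 0) :
    Nat.card {v // quadMinus 0 F a b v = c} = Fintype.card F + 1 := by
  haveI := fact_irred hab
  rw [← ClOrthOrd.card_norm_one hab]
  obtain ⟨z, hz⟩ := exists_norm_eq (a := a) (b := b) c
  have hz0 : z ≠ 0 := by
    rintro rfl
    rw [QuadraticAlgebra.norm_zero] at hz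
    exact hc hz.symm
  let e := coordL F a b
  have hQ : ∀ v, quadMinus 0 F a b v = (e v).norm := fun v => by rw [← normForm_coordL, normForm_apply]
  symm
  have hzi : (z⁻¹).norm = c⁻¹ := by
    apply eq_inv_of_mul_eq_one_left
    rw [← hz, ← map_mul, inv_mul_cancel₀ hz0, map_one]
  exact Nat.card_congr
    { toFun := fun p => ⟨e.symm (z * ⟨p.1.1, p.1.2⟩), by
        rw [hQ, LinearEquiv.apply_symm_apply, map_mul, hz, norm_eq, p.2, mul_one]⟩
      invFun := fun v => ⟨((z⁻¹ * e v.1).re, (z⁻¹ * e v.1).im), by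
        have h := norm_eq (z⁻¹ * e v.1)
        rw [map_mul, hzi, ← hQ, v.2, inv_mul_cancel₀ hc] at h
        exact h.symm⟩
      left_inv := fun p => by
        apply Subtype.ext
        show ((z⁻¹ * e (e.symm (z * ⟨p.1.1, p.1.2⟩))).re, (z⁻¹ * e (e.symm (z * ⟨p.1.1, p.1.2⟩))).im) = p.1
        rw [LinearEquiv.apply_symm_apply, inv_mul_cancel_left₀ hz0]
      right_inv := fun v => by
        apply Subtype.ext
        show e.symm (z * (z⁻¹ * e v.1)) = v.1
        rw [mul_inv_cancel_left₀ hz0, LinearEquiv.symm_apply_apply] }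

section

variable {W : Type*} [AddCommGroup W] [Module F W] [Finite W] {Q' : QuadraticForm F W}

/-- number of vectors with a given value -/
theorem card_value_hyp (Q' : QuadraticForm F W) (c : F) : Nat.card {v : (F × F) × W // hyp Q' v = c} =
    Fintype.card F * Nat.card {w : W // Q' w = c} + (Fintype.card F - 1) * Nat.card W := by
  classical
  have hq : 1 < Fintype.card F := Fintype.one_lt_card
  haveI : Fintype W := Fintype.ofFinite W
  have e1 : {v : (F × F) × W // hyp Q' v = c} ≃ Σ w : W, {p : F × F // p.1 * p.2 = c - Q' w} :=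
    { toFun := fun v => ⟨v.1.2, v.1.1, by
        have := v.2
        rw [hyp_apply] at this
        exact eq_sub_of_add_eq this⟩
      invFun := fun s => ⟨(s.2.1, s.1), by
        rw [hyp_apply, s.2.2]
        exact sub_add_cancel _ _⟩
      left_inv := fun v => rfl
      right_inv := fun s => rfl }
  rw [Nat.card_congr e1, Nat.card_sigma]
  have h1 : ∀ w : W, Nat.card {p : F × F // p.1 * p.2 = c - Q' w} =
      (Fintype.card F - 1) + if Q' w = c then Fintype.card F else 0 := by
    intro w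
    rw [ClOrthOrd.card_mul_eq]
    by_cases hw : Q' w = c
    · rw [if_pos (by rw [hw, sub_self]), if_pos hw]; omega
    · rw [if_neg (by rw [sub_eq_zero]; exact fun h => hw h.symm), if_neg hw]; omega
  rw [Finset.sum_congr rfl (fun w _ => h1 w), Finset.sum_add_distrib, Finset.sum_const, Finset.card_univ,
    ← Finset.sum_filter, Finset.sum_const, smul_eq_mul, smul_eq_mul, Nat.card_eq_fintype_card,
    Nat.card_eq_fintype_card, Fintype.card_subtype]
  ring

end

end Cfsg.Agent.Lib.OmNorm
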