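import Cfsg.Agent.Lib.OmTB

/-!
# The traces in the relative positions (helper83)
-/

set_option autoImplicit false
set_option linter.all false

namespace Cfsg.Agent.Lib.OmPos

open Cfsg.Agent.Lib.Quad Cfsg.Agent.Lib.ClOrthSiegel QuadraticMap Module AvgTrace OmHyp OmWt OmFix OmTr OmSL OmER OmTB

variable {F W : Type*} [Field F] [Fintype F] [AddCommGroup W] [Module F W] [Fintype W] [FiniteDimensional F W]
  {Q₂ : QuadraticForm F W} (hQ : Nd Q₂) {V : Type*} [AddCommGroup V] [Module ℂ V] [FiniteDimensional ℂ V]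
  {ρ : Representation ℂ (G (nd_hyp hQ)) V} {ψ : AddChar F ℂ} (hψ : ψ ≠ 0) (H : Wts hQ ρ ψ)

theorem t1_inv (t : F) : (t1 hQ t)⁻¹ = t1 hQ (-t) := by
  rw [inv_eq_iff_mul_eq_one]
  apply Subtype.ext
  apply LinearEquiv.ext
  intro v
  show (t1 hQ t).1 ((t1 hQ (-t)).1 v) = v
  rw [t1_apply, t1_apply]
  refine Prod.ext (Prod.ext ?_ ?_) (Prod.ext (Prod.ext ?_ ?_) ?_) <;> simp

/-- the conjugate of `A0` times `Z A0` -/
theorem conjA0 {t : F} (ht : t ≠ 0) (ρ : Representation ℂ (G (nd_hyp hQ)) V) :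
    ρ (t1 hQ t)⁻¹ * A0 hQ ρ * ρ (t1 hQ t) * (Z hQ ρ * A0 hQ ρ) = eR hQ ρ := by
  have ht' : -t ≠ 0 := neg_ne_zero.2 ht
  have h0 : ρ (t1 hQ t)⁻¹ * A0 hQ ρ * ρ (t1 hQ t) = av ρ (fun w : W => u (nd_hyp hQ) ((-(-t * Q₂ w), 0), w) * a1 hQ (-t • w)) := by
    have h1 := av_conj ρ (fun w : W => u (nd_hyp hQ) (iA F W w)) (t1 hQ t)⁻¹
    rw [inv_inv] at h1
    unfold A0
    rw [h1]
    congr 1
    funext w
    rw [t1_inv, t1_u, mul_assoc, ← t1_inv, inv_mul_cancel, mul_one]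
  have h1 : A1 hQ ρ = av ρ (fun w : W => a1 hQ (-t • w)) :=
    (av_equiv ρ (LinearEquiv.smulOfNeZero F W (-t) ht').toEquiv (a1 hQ)).symm
  rw [h0]
  unfold eR
  rw [h1]
  conv_lhs => enter [1]; unfold av
  conv_rhs => enter [2]; unfold av
  rw [smul_mul_assoc, mul_smul_comm, Finset.sum_mul, Finset.mul_sum]
  congr 1
  refine Finset.sum_congr rfl fun w _ => ?_
  rw [map_mul, mul_assoc, a1_ZA0, ← mul_assoc, absorb_ZA0]

include hψ in
theorem trace_t1 {t : F} (ht : t ≠ 0) : LinearMap.trace ℂ V (wt (hQ := nd_hyp hQ) ρ ψ 0 * ρ (t1 hQ t)) =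
    LinearMap.trace ℂ V (eR hQ ρ * U0 hQ ρ * ρ (t1 hQ t)) := by
  set g := t1 hQ t with hg
  set e := wt (hQ := nd_hyp hQ) ρ ψ 0 with he
  have hee : e * e = e := wt_idem (hQ := nd_hyp hQ) ρ ψ 0
  set e' := ρ g⁻¹ * e * ρ g with he'
  have h1 : e * ρ g = ρ g * e' := by
    rw [he', ← mul_assoc, ← mul_assoc, rho_mul_inv, one_mul]
  have hZA : Z hQ ρ * A0 hQ ρ * e = e := by
    rw [he, mul_assoc, A0_mul_wt_zero hQ ρ hψ, Z_mul_wt_zero hQ ρ hψ]
  have hA : e * A0 hQ ρ = e := by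
    rw [he, ← eV_eq hQ ρ hψ, mul_assoc, ← A0_U0, mul_assoc (Z hQ ρ), ← mul_assoc (A0 hQ ρ), A0_idem, mul_assoc]
  have h2 : e' = e' * (ρ g⁻¹ * A0 hQ ρ * ρ g) := by
    rw [he']
    calc ρ g⁻¹ * e * ρ g = ρ g⁻¹ * (e * A0 hQ ρ) * ρ g := by rw [hA]
      _ = ρ g⁻¹ * e * 1 * A0 hQ ρ * ρ g := by simp only [mul_assoc, one_mul]
      _ = ρ g⁻¹ * e * (ρ g * ρ g⁻¹) * A0 hQ ρ * ρ g := by rw [rho_mul_inv]
      _ = _ := by simp only [mul_assoc]
  have h3 : e' * e = e' * (eR hQ ρ * e) := by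
    calc e' * e = e' * (ρ g⁻¹ * A0 hQ ρ * ρ g) * (Z hQ ρ * A0 hQ ρ * e) := by rw [← h2, hZA]
      _ = e' * ((ρ g⁻¹ * A0 hQ ρ * ρ g) * (Z hQ ρ * A0 hQ ρ)) * e := by simp only [mul_assoc]
      _ = _ := by rw [hg, conjA0 hQ ht ρ, mul_assoc]
  clear_value e'
  calc LinearMap.trace ℂ V (e * ρ g) = LinearMap.trace ℂ V (e * (e * ρ g)) := by rw [← mul_assoc, hee]
    _ = LinearMap.trace ℂ V (e * (ρ g * e')) := by rw [h1]
    _ = LinearMap.trace ℂ V (e' * e * ρ g) := by rw [← mul_assoc, LinearMap.trace_mul_comm, mul_assoc]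
    _ = LinearMap.trace ℂ V (e' * (eR hQ ρ * e * ρ g)) := by rw [h3]; simp only [mul_assoc]
    _ = LinearMap.trace ℂ V (eR hQ ρ * e * (ρ g * e')) := by rw [LinearMap.trace_mul_comm]; simp only [mul_assoc]
    _ = LinearMap.trace ℂ V (eR hQ ρ * (e * e) * ρ g) := by rw [← h1]; simp only [mul_assoc]
    _ = _ := by rw [hee, he, eR_wt_zero hQ hψ]

include hψ H in
theorem trace_U1 : ∃ r : ℝ, SL2GapB.Kset (Fintype.card F) r ∧
    (Fintype.card F : ℂ) * LinearMap.trace ℂ V (wt (hQ := nd_hyp hQ) ρ ψ 0 * U1 hQ ρ) =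
      Fintype.card F * (LinearMap.trace ℂ V (wt (hQ := nd_hyp hQ) ρ ψ 0) - (ClOrthOrd.Z Q₂ - 1) - r) + (ClOrthOrd.Z Q₂ - 1) := by
  classical
  have hq : (Fintype.card F : ℂ) ≠ 0 := Nat.cast_ne_zero.2 Fintype.card_ne_zero
  obtain ⟨r, hr, h1⟩ := gap_eR hQ hψ H
  refine ⟨r, hr, ?_⟩
  rw [f1_eq hQ hψ H] at h1
  rw [← h1]
  have h2 : ∀ T : V →ₗ[ℂ] V, (Fintype.card F : ℂ) * LinearMap.trace ℂ V (T * U1 hQ ρ) =
      ∑ t : F, LinearMap.trace ℂ V (T * ρ (t1 hQ t)) := by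
    intro T
    unfold U1 av
    rw [mul_smul_comm, map_smul, smul_eq_mul, mul_inv_cancel_left₀ hq, Finset.mul_sum, map_sum]
  have hcomm : eR hQ ρ * U0 hQ ρ = U0 hQ ρ * eR hQ ρ := by
    unfold U0 av
    rw [mul_smul_comm, smul_mul_assoc, Finset.mul_sum, Finset.sum_mul]
    congr 1
    exact Finset.sum_congr rfl fun s _ => (eR_uU hQ ρ s).symm
  have h3 : LinearMap.trace ℂ V (U1 hQ ρ * U0 hQ ρ * eR hQ ρ) = LinearMap.trace ℂ V (eR hQ ρ * U0 hQ ρ * U1 hQ ρ) := by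
    rw [mul_assoc, ← hcomm, LinearMap.trace_mul_comm]
  rw [h3, h2, h2]
  have h4 : t1 hQ (0 : F) = 1 := by
    apply Subtype.ext
    apply LinearEquiv.ext
    intro v
    show (t1 hQ 0).1 v = v
    rw [t1_apply]
    refine Prod.ext (Prod.ext ?_ ?_) (Prod.ext (Prod.ext ?_ ?_) ?_) <;> simp
  have h5 : ∀ t : F, LinearMap.trace ℂ V (wt (hQ := nd_hyp hQ) ρ ψ 0 * ρ (t1 hQ t)) =
      LinearMap.trace ℂ V (eR hQ ρ * U0 hQ ρ * ρ (t1 hQ t)) +
        if t = 0 then ((ClOrthOrd.Z Q₂ : ℂ) - 1) else 0 := by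
    intro t
    by_cases ht : t = 0
    · rw [if_pos ht, ht, h4, map_one, mul_one, mul_one, trace_eR_U0 hQ hψ, f1_eq hQ hψ H]
      ring
    · rw [if_neg ht, add_zero, trace_t1 hQ hψ ht]
  rw [Finset.sum_congr rfl (fun t _ => h5 t), Finset.sum_add_distrib, Finset.sum_ite_eq' Finset.univ (0 : F),
    if_pos (Finset.mem_univ _)]

/-- averages over root groups -/
noncomputable def XX (ρ : Representation ℂ (G (nd_hyp hQ)) V) (z y : (F × F) × ((F × F) × W)) : V →ₗ[ℂ] V :=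
  av ρ (fun c : F => el (nd_hyp hQ) z (c • y))

theorem XX_conj (ρ : Representation ℂ (G (nd_hyp hQ)) V) (g : G (nd_hyp hQ)) (z y : (F × F) × ((F × F) × W)) :
    ρ g * XX hQ ρ z y * ρ g⁻¹ = XX hQ ρ (g.1 z) (g.1 y) := by
  unfold XX
  rw [av_conj]
  congr 1
  funext c
  rw [conj_el, map_smul]

theorem Z_eq (ρ : Representation ℂ (G (nd_hyp hQ)) V) : Z hQ ρ = XX hQ ρ e0 e1 := by
  unfold Z XX
  congr 1
  funext c
  unfold u
  rw [iZ_apply]
  congr 1
  simp [e1, e0]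

include hψ H in
/-- the second position -/
theorem trace_XX {y : W} (hy : y ≠ 0) (hy0 : Q₂ y = 0) :
    LinearMap.trace ℂ V (wt (hQ := nd_hyp hQ) ρ ψ 0 * XX hQ ρ e1 (0, (0, y))) =
      LinearMap.trace ℂ V (XX hQ ρ e1 (0, (0, y))) - (Fintype.card F : ℂ)⁻¹ * ClOrthOrd.Z (hyp Q₂) -
        (Fintype.card F - 1) * Nat.card {w : W // Q₂ w = 0 ∧ polar Q₂ y w = 0} + 1 := by
  classical
  have hq : (Fintype.card F : ℂ) ≠ 0 := Nat.cast_ne_zero.2 Fintype.card_ne_zero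
  have hX : XX hQ ρ e1 (0, (0, y)) = av ρ (fun c : F => a1 hQ (c • y)) := by
    unfold XX
    congr 1
    funext c
    unfold a1
    congr 1
    simp
  rw [hX]
  set X := av ρ (fun c : F => a1 hQ (c • y)) with hXd
  have h1 : ∀ x : (F × F) × W, LinearMap.trace ℂ V (X * wt (hQ := nd_hyp hQ) ρ ψ x) =
      (if hyp Q₂ x = 0 then (Fintype.card F : ℂ)⁻¹ else 0) +
      (if x.1.2 = 0 ∧ (Q₂ x.2 = 0 ∧ polar Q₂ y x.2 = 0) then (1 - (Fintype.card F : ℂ)⁻¹) else 0) +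
      (if x = 0 then LinearMap.trace ℂ V (X * wt (hQ := nd_hyp hQ) ρ ψ 0) - 1 else 0) := by
    intro x
    by_cases hx : hyp Q₂ x = 0
    · rw [if_pos hx]
      by_cases hx0 : x = 0
      · subst hx0
        rw [if_pos rfl, if_pos ⟨rfl, by simp, by simp⟩]; ring
      · rw [if_neg hx0, add_zero]
        have h2 : ∀ T : V →ₗ[ℂ] V, LinearMap.trace ℂ V (X * T) =
            (Fintype.card F : ℂ)⁻¹ * ∑ c : F, LinearMap.trace ℂ V (ρ (a1 hQ (c • y)) * T) := by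
          intro T
          rw [hXd]
          unfold av
          rw [smul_mul_assoc, Finset.sum_mul, map_smul, map_sum, smul_eq_mul]
        rw [h2]
        by_cases hf : x.1.2 = 0 ∧ (Q₂ x.2 = 0 ∧ polar Q₂ y x.2 = 0)
        · rw [if_pos hf]
          have h3 : ∀ c : F, LinearMap.trace ℂ V (ρ (a1 hQ (c • y)) * wt (hQ := nd_hyp hQ) ρ ψ x) = 1 := by
            intro c
            rw [H.h3 x hx0 hx hf.1 _ (by rw [polar_smul_left, hf.2.2, smul_zero]), H.h2 x hx0 hx]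
          rw [Finset.sum_congr rfl (fun c _ => h3 c), Finset.sum_const, Finset.card_univ, nsmul_eq_mul, mul_one,
            inv_mul_cancel₀ hq]
          ring
        · rw [if_neg hf, add_zero]
          have h4 : x.1.2 ≠ 0 ∨ polar Q₂ y x.2 ≠ 0 := by
            by_contra hcon
            push Not at hcon
            apply hf
            refine ⟨hcon.1, ?_, hcon.2⟩
            rw [hyp_apply, hcon.1, mul_zero, zero_add] at hx
            exact hx
          have h3 : ∀ c : F, LinearMap.trace ℂ V (ρ (a1 hQ (c • y)) * wt (hQ := nd_hyp hQ) ρ ψ x) = if c = 0 then 1 else 0 := by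
            intro c
            split_ifs with hc
            · rw [hc, zero_smul, a1_zero, map_one, one_mul, H.h2 x hx0 hx]
            · apply trace_move (hQ := nd_hyp hQ) ρ hψ (a1_e0 hQ _)
              apply a1_move hQ (smul_ne_zero hc hy)
              rcases h4 with h4 | h4
              · exact Or.inl h4
              · right
                rw [polar_smul_left, smul_eq_mul]
                exact mul_ne_zero hc h4
          rw [Finset.sum_congr rfl (fun c _ => h3 c), Finset.sum_ite_eq' Finset.univ (0 : F), if_pos (Finset.mem_univ _), mul_one]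
    · rw [if_neg hx, H.h1 x hx, mul_zero, map_zero, if_neg, if_neg, add_zero, add_zero]
      · rintro rfl
        exact hx (QuadraticMap.map_zero _)
      · rintro ⟨h2, h3, -⟩
        apply hx
        rw [hyp_apply, h2, h3]; simp
  have h2 : LinearMap.trace ℂ V X = ∑ x : (F × F) × W, LinearMap.trace ℂ V (X * wt (hQ := nd_hyp hQ) ρ ψ x) := by
    conv_lhs => rw [mul_sum_wt (hQ := nd_hyp hQ) ρ hψ X]
    rw [map_sum]
  have h3 : (Finset.univ.filter (fun x : (F × F) × W => x.1.2 = 0 ∧ (Q₂ x.2 = 0 ∧ polar Q₂ y x.2 = 0))).card =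
      Fintype.card F * Nat.card {w : W // Q₂ w = 0 ∧ polar Q₂ y w = 0} := by
    rw [← Fintype.card_subtype, ← Nat.card_eq_fintype_card, ← Nat.card_eq_fintype_card (α := F), ← Nat.card_prod]
    exact Nat.card_congr
      { toFun := fun x => (x.1.1.1, ⟨x.1.2, x.2.2⟩)
        invFun := fun p => ⟨((p.1, 0), p.2.1), rfl, p.2.2⟩
        left_inv := fun x => Subtype.ext (Prod.ext (Prod.ext rfl x.2.1.symm) rfl)
        right_inv := fun p => rfl }
  rw [Finset.sum_congr rfl (fun x _ => h1 x), Finset.sum_add_distrib, Finset.sum_add_distrib,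
    Finset.sum_ite_eq' Finset.univ (0 : (F × F) × W), if_pos (Finset.mem_univ _), ← Finset.sum_filter, ← Finset.sum_filter,
    Finset.sum_const, Finset.sum_const, nsmul_eq_mul, nsmul_eq_mul, h3, ← Fintype.card_subtype, ← Nat.card_eq_fintype_card] at h2
  rw [LinearMap.trace_mul_comm, h2]
  unfold ClOrthOrd.Z
  push_cast
  field_simp
  ring

end Cfsg.Agent.Lib.OmPos
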