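import Cfsg.Agent.Lib.OmComm

/-!
# The fixing lemma over an anisotropic plane (helper83)
-/

set_option autoImplicit false
set_option linter.all false

namespace Cfsg.Agent.Lib.OmRot

open Cfsg.Agent.Lib.Quad Cfsg.Agent.Lib.ClOrthSiegel QuadraticMap Module AvgTrace OmHyp OmWt OmFix OmTr OmSL OmER OmTB OmPos
  OmSchur OmLower OmComm

variable {F W : Type*} [Field F] [Fintype F] [AddCommGroup W] [Module F W] [Fintype W] [FiniteDimensional F W]
  {Q₃ : QuadraticForm F W} (hQ : Nd Q₃) {V : Type*} [AddCommGroup V] [Module ℂ V] [FiniteDimensional ℂ V]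
  (ρ : Representation ℂ (G (nd_hyp (nd_hyp hQ))) V) (ψ : AddChar F ℂ)

omit [Fintype F] [Fintype W] [FiniteDimensional F W] in
theorem extE_O {g : W ≃ₗ[F] W} (hg : g ∈ O Q₃) : extE g ∈ O (hyp Q₃) := by
  intro v
  rw [extE_apply, hyp_apply, hyp_apply, hg]

theorem fix_rot (hR : R (hyp (hyp (hyp Q₃))) = O (hyp (hyp (hyp Q₃))))
    (hT : T (nd_hyp (nd_hyp (nd_hyp hQ))) = Om (hyp (hyp (hyp Q₃))))
    (hW : 0 < finrank F W) {r : W ≃ₗ[F] W} (hr : r ∈ O Q₃) (hr2 : ∀ p : W, ∃ p', p = r (r p') - p')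
    {x : (F × F) × ((F × F) × W)} (h1 : LinearMap.trace ℂ V (wt (hQ := nd_hyp (nd_hyp hQ)) ρ ψ x) = 1) (hx1 : x.1.2 = 0)
    (hx0 : hyp Q₃ x.2 = 0)
    {w : (F × F) × W} (hw : polar (hyp Q₃) w x.2 = 0) :
    ρ (a1 (nd_hyp hQ) w) * wt (hQ := nd_hyp (nd_hyp hQ)) ρ ψ x = wt (hQ := nd_hyp (nd_hyp hQ)) ρ ψ x := by
  by_cases hx2 : x.2 = 0
  · apply fix_room (nd_hyp hQ) ρ ψ h1 hx1 _ hw
    rw [hx2]
    exact room_zero hQ hW
  have he : (e0 : (F × F) × W) ≠ 0 := by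
    intro h
    have := congrArg (fun v : (F × F) × W => v.1.1) h
    simp [e0] at this
  obtain ⟨g, hg, hge⟩ := (nd_hyp hQ).exists_map_eq he hx2 (Q_e0.trans hx0.symm)
  -- the vector
  obtain ⟨w', rfl⟩ : ∃ w', w = g w' := ⟨g.symm w, (g.apply_symm_apply w).symm⟩
  have hw1 : w'.1.2 = 0 := by
    rw [← hge, O_polar hg, polar_comm, polar_e0] at hw
    exact hw
  have hsum : g w' = w'.1.1 • x.2 + g (0, w'.2) := by
    rw [← hge, ← map_smul, ← map_add]
    congr 1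
    refine Prod.ext (Prod.ext ?_ ?_) ?_
    · simp [e0]
    · simp [e0, hw1]
    · simp [e0]
  rw [hsum, a1_add, map_mul, mul_assoc]
  have hA : ρ (a1 (nd_hyp hQ) (w'.1.1 • x.2)) * wt (hQ := nd_hyp (nd_hyp hQ)) ρ ψ x = wt (hQ := nd_hyp (nd_hyp hQ)) ρ ψ x := by
    have h2 : finrank F (F ∙ x.2) ≤ 1 := by
      have := finrank_span_finset_le_card (R := F) ({x.2} : Finset ((F × F) × W))
      rw [Finset.coe_singleton, Finset.card_singleton] at this
      exact this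
    obtain ⟨s, hs, t, ht, hst⟩ := exists_st (nd_hyp hQ) (U := F ∙ x.2) (by
      rw [Module.finrank_prod, Module.finrank_prod, Module.finrank_self]
      omega)
    rw [mem_perp_singleton] at hs ht
    exact fix_sing (nd_hyp hQ) ρ ψ h1 hx1 (by rw [Q_smul, hx0, mul_zero]) (by rw [polar_smul_left, polar_self', hx0, mul_zero, smul_zero])
      (by rw [polar_smul_left, hs, smul_zero]) hs (by rw [polar_smul_left, ht, smul_zero]) ht hst
  have hB : ρ (a1 (nd_hyp hQ) (g (0, w'.2))) * wt (hQ := nd_hyp (nd_hyp hQ)) ρ ψ x = wt (hQ := nd_hyp (nd_hyp hQ)) ρ ψ x := by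
    obtain ⟨p', hp'⟩ := hr2 w'.2
    let k : ((F × F) × ((F × F) × ((F × F) × W))) ≃ₗ[F] ((F × F) × ((F × F) × ((F × F) × W))) :=
      extE (extE (g * extE r * g⁻¹))
    have hk : k ∈ O (hyp (hyp (hyp Q₃))) := extE_O (extE_O (mul_mem (mul_mem hg (extE_O hr)) (inv_mem hg)))
    have hkk : k * k ∈ T (nd_hyp (nd_hyp (nd_hyp hQ))) := by rw [hT]; exact sq_mem_Om hR hk
    let h : G (nd_hyp (nd_hyp hQ)) := ⟨k * k, hkk⟩
    have hgi : g⁻¹ x.2 = e0 := by
      rw [← hge]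
      exact g.symm_apply_apply _
    have hg2 : ∀ v, g⁻¹ (g v) = v := fun v => g.symm_apply_apply v
    have hkv : ∀ (a b : F × F) (v : (F × F) × W), k (a, (b, v)) = (a, (b, g ((extE r) (g⁻¹ v)))) := fun _ _ _ => rfl
    have hke : g ((extE r) (g⁻¹ x.2)) = x.2 := by
      rw [hgi, extE_apply]
      have : (((e0 : (F × F) × W).1, r (e0 : (F × F) × W).2) : (F × F) × W) = e0 := by simp [e0]
      rw [this, hge]
    have hhx : (h.1 (0, x)).2 = x := by
      show (k (k (0, (x.1, x.2)))).2 = x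
      rw [hkv, hkv, hke, hke]
    have hh0 : h.1 e0 = e0 := by
      show k (k e0) = e0
      have e : (e0 : (F × F) × ((F × F) × ((F × F) × W))) = ((1, 0), ((0, 0), 0)) := rfl
      rw [e, hkv, hkv]
      simp
    have hh1 : h.1 e1 = e1 := by
      show k (k e1) = e1
      have e : (e1 : (F × F) × ((F × F) × ((F × F) × W))) = (0, ((1, 0), 0)) := rfl
      rw [e, hkv, hkv]
      simp
    have hhp : h.1 (0, (0, g (0, p'))) = (0, (0, g (0, r (r p')))) := by
      have hk1 : ∀ v : W, k ((0 : F × F), ((0 : F × F), g (0, v))) = (0, (0, g (0, r v))) := by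
        intro v
        rw [hkv, hg2, extE_apply]
      show k (k (0, (0, g (0, p')))) = _
      rw [hk1, hk1]
    have e : a1 (nd_hyp hQ) (g (0, w'.2)) = h * a1 (nd_hyp hQ) (g (0, p')) * h⁻¹ * (a1 (nd_hyp hQ) (g (0, p')))⁻¹ := by
      have e1' : h * a1 (nd_hyp hQ) (g (0, p')) * h⁻¹ = a1 (nd_hyp hQ) (g (0, r (r p'))) := by
        unfold a1
        rw [conj_el, hh1, hhp]
      rw [e1', eq_mul_inv_iff_mul_eq, ← a1_add, ← map_add]
      congr 2
      refine Prod.ext (by simp) ?_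
      show w'.2 + p' = _
      rw [hp']
      abel
    rw [e]
    apply fix_of_comm ρ (wt_idem (hQ := nd_hyp (nd_hyp hQ)) ρ ψ x) h1
    · exact wt_comm (hQ := nd_hyp (nd_hyp hQ)) ρ ψ hh0 hhx
    · apply wt_comm (hQ := nd_hyp (nd_hyp hQ)) ρ ψ (a1_e0 (nd_hyp hQ) _)
      apply a1_fix (nd_hyp hQ) _ hx1
      rw [← hge, O_polar hg, polar_comm, polar_e0j]
  rw [hB, hA]

end Cfsg.Agent.Lib.OmRot
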