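import Cfsg.Agent.Lib.OmTr
import Cfsg.Agent.Lib.SL2Pres

/-!
# `SL₂` acting on a totally singular line (helper83)
-/

set_option autoImplicit false
set_option linter.all false

namespace Cfsg.Agent.Lib.OmSL

open Cfsg.Agent.Lib.Quad Cfsg.Agent.Lib.ClOrthSiegel QuadraticMap Module AvgTrace OmHyp OmWt OmFix OmTr

theorem u_apply {F W : Type*} [Field F] [Fintype F] [AddCommGroup W] [Module F W] [Fintype W] [FiniteDimensional F W]
    {Q' : QuadraticForm F W} (hQ : Nd Q') (x : W) (v : (F × F) × W) :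
    (u hQ x).1 v = v + v.1.2 • ((0 : F × F), x) - (polar Q' x v.2 + Q' x * v.1.2) • e0 := by
  show E (nd_hyp hQ) e0 (0, x) v = _
  rw [E_apply _ Q_e0 (polar_e0j x), polar_e0, add_smul]
  have h1 : polar (hyp Q') ((0 : F × F), x) v = polar Q' x v.2 := by simp [polar_hyp]
  have h2 : hyp Q' ((0 : F × F), x) = Q' x := by simp [hyp_apply]
  rw [h1, h2]
  abel

variable {F W : Type*} [Field F] [Fintype F] [AddCommGroup W] [Module F W] [Fintype W] [FiniteDimensional F W]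
  {Q₂ : QuadraticForm F W} (hQ : Nd Q₂)

/-- action of matrices -/
def embM (M : Matrix (Fin 2) (Fin 2) F) : ((F × F) × ((F × F) × W)) →ₗ[F] ((F × F) × ((F × F) × W)) where
  toFun v := ((M 0 0 * v.1.1 + M 0 1 * v.2.1.1, M 1 1 * v.1.2 - M 1 0 * v.2.1.2),
    ((M 1 0 * v.1.1 + M 1 1 * v.2.1.1, -M 0 1 * v.1.2 + M 0 0 * v.2.1.2), v.2.2))
  map_add' v w := by
    refine Prod.ext (Prod.ext ?_ ?_) (Prod.ext (Prod.ext ?_ ?_) ?_) <;> simp <;> ring
  map_smul' c v := by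
    refine Prod.ext (Prod.ext ?_ ?_) (Prod.ext (Prod.ext ?_ ?_) ?_) <;> simp <;> ring

omit [Fintype F] [Fintype W] [FiniteDimensional F W] in
theorem embM_mul (M M' : Matrix (Fin 2) (Fin 2) F) (v : (F × F) × ((F × F) × W)) : embM (M * M') v = embM M (embM M' v) := by
  refine Prod.ext (Prod.ext ?_ ?_) (Prod.ext (Prod.ext ?_ ?_) ?_) <;>
    simp [embM, Matrix.mul_apply, Fin.sum_univ_two] <;> ring

omit [Fintype F] [Fintype W] [FiniteDimensional F W] in
theorem embM_one (v : (F × F) × ((F × F) × W)) : embM (1 : Matrix (Fin 2) (Fin 2) F) v = v := by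
  refine Prod.ext (Prod.ext ?_ ?_) (Prod.ext (Prod.ext ?_ ?_) ?_) <;> simp [embM]

/-- the homomorphism from `SL₂` -/
def embH : Matrix.SpecialLinearGroup (Fin 2) F →* (((F × F) × ((F × F) × W)) ≃ₗ[F] ((F × F) × ((F × F) × W))) where
  toFun g := LinearEquiv.ofLinear (embM (g : Matrix (Fin 2) (Fin 2) F))
    (embM ((g⁻¹ : Matrix.SpecialLinearGroup (Fin 2) F) : Matrix (Fin 2) (Fin 2) F))
    (by
      apply LinearMap.ext
      intro v
      show embM _ (embM _ v) = v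
      rw [← embM_mul, ← Matrix.SpecialLinearGroup.coe_mul, mul_inv_cancel, Matrix.SpecialLinearGroup.coe_one, embM_one])
    (by
      apply LinearMap.ext
      intro v
      show embM _ (embM _ v) = v
      rw [← embM_mul, ← Matrix.SpecialLinearGroup.coe_mul, inv_mul_cancel, Matrix.SpecialLinearGroup.coe_one, embM_one])
  map_one' := by
    apply LinearEquiv.ext
    intro v
    exact embM_one v
  map_mul' g h := by
    apply LinearEquiv.ext
    intro v
    show embM _ v = embM _ (embM _ v)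
    rw [Matrix.SpecialLinearGroup.coe_mul, embM_mul]

omit [Fintype F] [Fintype W] [FiniteDimensional F W] in
theorem embH_apply (g : Matrix.SpecialLinearGroup (Fin 2) F) (v : (F × F) × ((F × F) × W)) : embH g v = embM g.1 v := rfl

/-- opposite root elements -/
noncomputable def t1 (t : F) : G (nd_hyp hQ) := el (nd_hyp hQ) e1 ((0, -t), 0)

theorem t1_apply (t : F) (v : (F × F) × ((F × F) × W)) :
    (t1 hQ t).1 v = ((v.1.1, v.1.2 - t * v.2.1.2), ((v.2.1.1 + t * v.1.1, v.2.1.2), v.2.2)) := by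
  have h1 : polar (hyp (hyp Q₂)) e1 ((((0 : F), -t), 0) : (F × F) × ((F × F) × W)) = 0 := by rw [polar_e1]; rfl
  show E (nd_hyp (nd_hyp hQ)) e1 ((0, -t), 0) v = _
  rw [E_apply _ Q_e1 h1, polar_e1]
  refine Prod.ext (Prod.ext ?_ ?_) (Prod.ext (Prod.ext ?_ ?_) ?_) <;>
    simp [polar_hyp, hyp_apply, e1, e0] <;> ring

theorem embH_E (t : F) : embH (SL2Pres.E t) = (u (nd_hyp hQ) (iU F W (-t))).1 := by
  apply LinearEquiv.ext
  intro v
  rw [embH_apply, u_apply, iU_apply]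
  refine Prod.ext (Prod.ext ?_ ?_) (Prod.ext (Prod.ext ?_ ?_) ?_) <;>
    simp [embM, SL2Pres.E, polar_hyp, hyp_apply, e0] <;> ring

theorem embH_E' (t : F) : embH (SL2Pres.E' t) = (t1 hQ t).1 := by
  apply LinearEquiv.ext
  intro v
  rw [embH_apply, t1_apply]
  refine Prod.ext (Prod.ext ?_ ?_) (Prod.ext (Prod.ext ?_ ?_) ?_) <;>
    simp [embM, SL2Pres.E'] <;> ring

theorem embH_mem (g : Matrix.SpecialLinearGroup (Fin 2) F) : embH (W := W) g ∈ T (nd_hyp (nd_hyp hQ)) := by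
  have hg : g ∈ Subgroup.closure (Set.range (SL2Pres.E : F → _) ∪ Set.range SL2Pres.E') := by
    rw [SL2Pres.closure_SL2]; exact Subgroup.mem_top g
  induction hg using Subgroup.closure_induction with
  | mem x hx =>
    rcases hx with ⟨t, rfl⟩ | ⟨t, rfl⟩
    · rw [embH_E hQ]; exact (u (nd_hyp hQ) _).2
    · rw [embH_E' hQ]; exact (t1 hQ _).2
  | one => rw [map_one]; exact one_mem _
  | mul a b _ _ ha hb => rw [map_mul]; exact mul_mem ha hb
  | inv a _ ha => rw [map_inv]; exact inv_mem ha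

/-- the embedding in the group -/
def embG : Matrix.SpecialLinearGroup (Fin 2) F →* G (nd_hyp hQ) := embH.codRestrict _ (embH_mem hQ)

theorem embG_apply (g : Matrix.SpecialLinearGroup (Fin 2) F) (v : (F × F) × ((F × F) × W)) : (embG hQ g).1 v = embM g.1 v := rfl

theorem embG_E (t : F) : embG hQ (SL2Pres.E t) = u (nd_hyp hQ) (iU F W (-t)) := Subtype.ext (embH_E hQ t)
theorem embG_E' (t : F) : embG hQ (SL2Pres.E' t) = t1 hQ t := Subtype.ext (embH_E' hQ t)

/-- the Weyl element -/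
def w0 (F : Type*) [Field F] : Matrix.SpecialLinearGroup (Fin 2) F := ⟨!![0, 1; -1, 0], by simp [Matrix.det_fin_two]⟩

theorem w0_conj (t : F) : w0 F * SL2Pres.E (-t) * (w0 F)⁻¹ = SL2Pres.E' t := by
  rw [mul_inv_eq_iff_eq_mul]
  apply Subtype.ext
  rw [Matrix.SpecialLinearGroup.coe_mul, Matrix.SpecialLinearGroup.coe_mul]
  ext i j
  fin_cases i <;> fin_cases j <;> simp [w0, Matrix.mul_apply, Fin.sum_univ_two]

variable {V : Type*} [AddCommGroup V] [Module ℂ V] (ρ : Representation ℂ (G (nd_hyp hQ)) V)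

theorem w0_apply (v : (F × F) × ((F × F) × W)) : (embG hQ (w0 F)).1 v = ((v.2.1.1, v.2.1.2), ((-v.1.1, -v.1.2), v.2.2)) := by
  rw [embG_apply]
  refine Prod.ext (Prod.ext ?_ ?_) (Prod.ext (Prod.ext ?_ ?_) ?_) <;> simp [embM, w0]

theorem w0_Z : ρ (embG hQ (w0 F)) * Z hQ ρ * ρ (embG hQ (w0 F))⁻¹ = Z hQ ρ := by
  unfold Z
  rw [av_conj]
  congr 1
  funext c
  unfold u
  rw [conj_el, w0_apply, w0_apply, iZ_apply]
  apply Subtype.ext
  by_cases hc : c = 0
  · subst hc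
    show E (nd_hyp (nd_hyp hQ)) _ _ = E (nd_hyp (nd_hyp hQ)) _ _
    have e1' : ((((0 : F), (0 : F)), (0 : W)) : (F × F) × W) = 0 := rfl
    rw [e1']
    simp only [Prod.snd_zero, Prod.fst_zero, neg_zero]
    have e2 : (((0 : F), (0 : F)), (((0 : F), (0 : F)), (0 : W))) = 0 := rfl
    have e3 : ((0 : F × F), (0 : (F × F) × W)) = 0 := rfl
    rw [e2, e3, E_zero, E_zero]
  · have h1 := E_swap (nd_hyp (nd_hyp hQ)) (z := (-1 : F) • (e1 : (F × F) × ((F × F) × W))) (y := c • e0) (by rw [Q_smul, Q_e1, mul_zero])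
      (by rw [Q_smul, Q_e0, mul_zero]) (by rw [polar_smul_left, polar_smul_right, polar_e1]; simp [e0])
    rw [E_smul _ hc] at h1
    have e2 : ((((e0 : (F × F) × ((F × F) × W)).2.1.1, (e0 : (F × F) × ((F × F) × W)).2.1.2),
      ((-(e0 : (F × F) × ((F × F) × W)).1.1, -(e0 : (F × F) × ((F × F) × W)).1.2), (e0 : (F × F) × ((F × F) × W)).2.2)) :
        (F × F) × ((F × F) × W)) = (-1 : F) • e1 := by
      simp [e0, e1]
    have e3 : ((((c : F), (0 : F)), (((-0 : F), (-0 : F)), (0 : W))) : (F × F) × ((F × F) × W)) = c • e0 := by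
      simp [e0]
    have e4 : c • -((-1 : F) • (e1 : (F × F) × ((F × F) × W))) = (0, ((c, 0), 0)) := by
      simp [e0, e1]
    rw [e4] at h1
    show E (nd_hyp (nd_hyp hQ)) _ _ = E (nd_hyp (nd_hyp hQ)) _ _
    rw [← h1]
    exact congrArg₂ (E (nd_hyp (nd_hyp hQ))) e2 e3

theorem w0_A0 : ρ (embG hQ (w0 F)) * A0 hQ ρ * ρ (embG hQ (w0 F))⁻¹ = A1 hQ ρ := by
  unfold A0 A1
  rw [av_conj, ← av_equiv ρ (Equiv.neg W) (a1 hQ)]
  congr 1
  funext w
  unfold u a1
  rw [conj_el, w0_apply, w0_apply, iA_apply]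
  apply Subtype.ext
  have h1 := E_smul (nd_hyp (nd_hyp hQ)) (c := (-1 : F)) (neg_ne_zero.2 one_ne_zero) (e1 : (F × F) × ((F × F) × W))
    ((0 : F × F), ((0 : F × F), w))
  have e2 : ((((e0 : (F × F) × ((F × F) × W)).2.1.1, (e0 : (F × F) × ((F × F) × W)).2.1.2),
      ((-(e0 : (F × F) × ((F × F) × W)).1.1, -(e0 : (F × F) × ((F × F) × W)).1.2), (e0 : (F × F) × ((F × F) × W)).2.2)) :
        (F × F) × ((F × F) × W)) = (-1 : F) • e1 := by
    simp [e0, e1]
  have e3 : (-1 : F) • ((0 : F × F), ((0 : F × F), w)) = (0, (0, -w)) := by simp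
  rw [e3] at h1
  show E (nd_hyp (nd_hyp hQ)) _ _ = E (nd_hyp (nd_hyp hQ)) _ _
  show _ = E (nd_hyp (nd_hyp hQ)) e1 (0, (0, -w))
  rw [← h1]
  refine congrArg₂ (E (nd_hyp (nd_hyp hQ))) e2 ?_
  simp

theorem w0_A1 : ρ (embG hQ (w0 F)) * A1 hQ ρ * ρ (embG hQ (w0 F))⁻¹ = A0 hQ ρ := by
  unfold A0 A1
  rw [av_conj]
  congr 1
  funext w
  unfold u a1
  rw [conj_el, w0_apply, w0_apply, iA_apply]
  apply Subtype.ext
  show E (nd_hyp (nd_hyp hQ)) _ _ = E (nd_hyp (nd_hyp hQ)) _ _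
  refine congrArg₂ (E (nd_hyp (nd_hyp hQ))) ?_ ?_
  · simp [e0, e1]
  · simp

end Cfsg.Agent.Lib.OmSL
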