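import Cfsg.Agent.Lib.OmPos

/-!
# The Schur average over the singular vectors (helper83)
-/

set_option autoImplicit false
set_option linter.all false

namespace Cfsg.Agent.Lib.OmSchur

open Cfsg.Agent.Lib.Quad Cfsg.Agent.Lib.ClOrthSiegel QuadraticMap Module AvgTrace OmHyp OmWt OmFix OmTr OmSL OmER OmTB OmPos

variable {F W : Type*} [Field F] [Fintype F] [AddCommGroup W] [Module F W] [Fintype W] [FiniteDimensional F W]
  {Q₂ : QuadraticForm F W} (hQ : Nd Q₂) {V : Type*} [AddCommGroup V] [Module ℂ V] [FiniteDimensional ℂ V]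
  {ρ : Representation ℂ (G (nd_hyp hQ)) V} {ψ : AddChar F ℂ} (hψ : ψ ≠ 0) (H : Wts hQ ρ ψ)

/-- finiteness of the group -/
@[reducible] noncomputable def fG : Fintype (G (nd_hyp hQ)) := by
  haveI : Finite (((F × F) × ((F × F) × W)) ≃ₗ[F] ((F × F) × ((F × F) × W))) :=
    Finite.of_injective (fun g => (g : _ → _)) DFunLike.coe_injective
  exact Fintype.ofFinite _

noncomputable instance (v : (F × F) × ((F × F) × W)) : Fintype {y // polar (hyp (hyp Q₂)) v y = 0} := Fintype.ofFinite _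

/-- point projections -/
noncomputable def pe (ρ : Representation ℂ (G (nd_hyp hQ)) V) (v : (F × F) × ((F × F) × W)) : V →ₗ[ℂ] V :=
  av ρ (fun y : {y // polar (hyp (hyp Q₂)) v y = 0} => el (nd_hyp hQ) v y.1)

theorem pe_conj (ρ : Representation ℂ (G (nd_hyp hQ)) V) (g : G (nd_hyp hQ)) (v : (F × F) × ((F × F) × W)) :
    ρ g * pe hQ ρ v * ρ g⁻¹ = pe hQ ρ (g.1 v) := by
  unfold pe
  rw [av_conj]
  let σ : {y // polar (hyp (hyp Q₂)) v y = 0} ≃ {y // polar (hyp (hyp Q₂)) (g.1 v) y = 0} :=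
    { toFun := fun y => ⟨g.1 y.1, by rw [g_polar]; exact y.2⟩
      invFun := fun y => ⟨g.1.symm y.1, by
        have h := g_polar (nd_hyp hQ) g v (g.1.symm y.1)
        rw [LinearEquiv.apply_symm_apply] at h
        rw [← h]; exact y.2⟩
      left_inv := fun y => Subtype.ext (g.1.symm_apply_apply _)
      right_inv := fun y => Subtype.ext (g.1.apply_symm_apply _) }
  rw [← av_equiv ρ σ]
  congr 1
  funext y
  rw [conj_el]
  rfl

theorem pe_e0 (ρ : Representation ℂ (G (nd_hyp hQ)) V) (ψ : AddChar F ℂ) : pe hQ ρ e0 = wt (hQ := nd_hyp hQ) ρ ψ 0 := by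
  rw [wt_zero]
  let σ : F × ((F × F) × W) ≃ {y // polar (hyp (hyp Q₂)) (e0 : (F × F) × ((F × F) × W)) y = 0} :=
    { toFun := fun p => ⟨((p.1, 0), p.2), by rw [polar_e0]⟩
      invFun := fun y => (y.1.1.1, y.1.2)
      left_inv := fun p => rfl
      right_inv := fun y => Subtype.ext (Prod.ext (Prod.ext rfl (by
        have := y.2
        rw [polar_e0] at this
        exact this.symm)) rfl) }
  unfold pe
  rw [← av_equiv ρ σ]
  have h1 : ∀ p : F × ((F × F) × W), el (nd_hyp hQ) e0 (σ p).1 = u (nd_hyp hQ) p.2 := by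
    intro p
    apply Subtype.ext
    show E (nd_hyp (nd_hyp hQ)) e0 ((p.1, 0), p.2) = E (nd_hyp (nd_hyp hQ)) e0 (0, p.2)
    have h2 : (((p.1, (0 : F)), p.2) : (F × F) × ((F × F) × W)) = (0, p.2) + p.1 • e0 := by
      simp [e0]
    rw [h2, E_add_smul _ Q_e0 (polar_e0j _)]
  simp only [h1]
  unfold av
  rw [Fintype.sum_prod_type]
  simp only [Finset.sum_const, Finset.card_univ]
  rw [← Nat.cast_smul_eq_nsmul ℂ, smul_smul, Fintype.card_prod]
  congr 1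
  have hF : (Fintype.card F : ℂ) ≠ 0 := Nat.cast_ne_zero.2 Fintype.card_ne_zero
  push_cast
  field_simp

theorem tr_pe_XX (ρ : Representation ℂ (G (nd_hyp hQ)) V) (g : G (nd_hyp hQ)) (v z y : (F × F) × ((F × F) × W)) :
    LinearMap.trace ℂ V (pe hQ ρ (g.1 v) * XX hQ ρ (g.1 z) (g.1 y)) = LinearMap.trace ℂ V (pe hQ ρ v * XX hQ ρ z y) := by
  rw [← pe_conj, ← XX_conj, ← trace_conj ρ g (pe hQ ρ v * XX hQ ρ z y)]
  congr 1
  calc _ = ρ g * pe hQ ρ v * (ρ g⁻¹ * ρ g) * XX hQ ρ z y * ρ g⁻¹ := by simp only [mul_assoc]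
    _ = _ := by rw [rho_inv_mul, mul_one]; simp only [mul_assoc]

/-- ordered bases of the same line -/
theorem XX_line (ρ : Representation ℂ (G (nd_hyp hQ)) V) {z y : (F × F) × ((F × F) × W)} (a b a' b' : F) (hz : z = a • e0 + b • e1)
    (hy : y = a' • e0 + b' • e1) (hd : a * b' - b * a' = 1) : XX hQ ρ z y = XX hQ ρ e0 e1 := by
  unfold XX
  congr 1
  funext c
  apply Subtype.ext
  apply LinearEquiv.ext
  intro x
  show E (nd_hyp (nd_hyp hQ)) z (c • y) x = E (nd_hyp (nd_hyp hQ)) e0 (c • e1) x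
  have p1 : hyp (hyp Q₂) z = 0 := by rw [hz]; simp [hyp_apply, e0, e1]
  have p2 : polar (hyp (hyp Q₂)) z (c • y) = 0 := by rw [hz, hy]; simp [polar_hyp, e0, e1]
  have p3 : polar (hyp (hyp Q₂)) e0 (c • e1 : (F × F) × ((F × F) × W)) = 0 := by simp [polar_hyp, e0, e1]
  have p4 : hyp (hyp Q₂) (c • y) = 0 := by rw [hy]; simp [hyp_apply, e0, e1]
  have p5 : hyp (hyp Q₂) (c • e1 : (F × F) × ((F × F) × W)) = 0 := by simp [hyp_apply, e0, e1]
  rw [E_apply _ p1 p2, E_apply _ Q_e0 p3, p4, p5, hz, hy]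
  simp only [polar_add_left, polar_smul_left, polar_e0, polar_e1, zero_mul, zero_smul, sub_zero, smul_eq_mul]
  have h : (c * b') * a - (c * a') * b = c := by linear_combination c * hd
  have h2 : ∀ B0 B1 : F, x + (a * B0 + b * B1) • c • (a' • (e0 : (F × F) × ((F × F) × W)) + b' • e1) -
      (c * (a' * B0 + b' * B1)) • (a • e0 + b • e1) = x + ((a * b' - b * a') * c * B0) • e1 - ((a * b' - b * a') * c * B1) • e0 := by
    intro B0 B1
    module
  rw [h2, hd, one_mul]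
  module

theorem li3 {v s r : (F × F) × ((F × F) × W)} (hv : hyp (hyp Q₂) v = 0) (hs : hyp (hyp Q₂) s = 0) (hr : r ≠ 0)
    (hvs : polar (hyp (hyp Q₂)) v s = 1) (hvr : polar (hyp (hyp Q₂)) v r = 0) (hsr : polar (hyp (hyp Q₂)) s r = 0) :
    LinearIndependent F ![v, s, r] := by
  rw [Fintype.linearIndependent_iff]
  intro g hg
  rw [Fin.sum_univ_three] at hg
  change g 0 • v + g 1 • s + g 2 • r = 0 at hg
  have h1 := congrArg (fun x => polar (hyp (hyp Q₂)) s x) hg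
  have h2 := congrArg (fun x => polar (hyp (hyp Q₂)) v x) hg
  simp only [polar_add_right, polar_smul_right, polar_self', hv, hs, hvs, hvr, hsr, polar_zero_right,
    polar_comm _ s v, smul_eq_mul, mul_zero, mul_one, add_zero, zero_add] at h1 h2
  rw [h1, h2, zero_smul, zero_smul, zero_add, zero_add] at hg
  have h3 := (smul_eq_zero.1 hg).resolve_right hr
  intro i
  fin_cases i
  · exact h1
  · exact h2
  · exact h3

/-- the hypotheses on the group -/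
structure Hyp (hQ : Nd Q₂) (k : ℕ) (e f : Fin (k + 1) → W) : Prop where
  hR : R (hyp (hyp Q₂)) = O (hyp (hyp Q₂))
  hT : T (nd_hyp (nd_hyp hQ)) = Om (hyp (hyp Q₂))
  fr : Frame Q₂ (k + 1) e f

variable {k : ℕ} {e f : Fin (k + 1) → W} (HG : Hyp hQ k e f)

include HG in
theorem line_map {z y z' y' : (F × F) × ((F × F) × W)} (hzy : LinearIndependent F ![z, y]) (hz'y' : LinearIndependent F ![z', y'])
    (hz : hyp (hyp Q₂) z = 0) (hy : hyp (hyp Q₂) y = 0) (hp : polar (hyp (hyp Q₂)) z y = 0) (hz' : hyp (hyp Q₂) z' = 0)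
    (hy' : hyp (hyp Q₂) y' = 0) (hp' : polar (hyp (hyp Q₂)) z' y' = 0) :
    ∃ g : G (nd_hyp hQ), g.1 z = z' ∧ g.1 y = y' := by
  obtain ⟨g, hg, h1, h2⟩ := Om_map_line (nd_hyp (nd_hyp hQ)) HG.hR (frame_cons (frame_cons HG.fr))
    (i := 0) (j := Fin.succ 0) (l := Fin.succ (Fin.succ 0)) (Fin.succ_ne_zero _).symm (Fin.succ_ne_zero _).symm
    (fun h => (Fin.succ_ne_zero (0 : Fin (k + 1))).symm (Fin.succ_injective _ h)) hzy hz'y' hz hy hp hz' hy' hp'
  rw [← HG.hT] at hg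
  exact ⟨⟨g, hg⟩, h1, h2⟩

theorem li01 : LinearIndependent F ![(e0 : (F × F) × ((F × F) × W)), e1] := by
  rw [LinearIndependent.pair_iff]
  intro s t hst
  have h1 := congrArg (fun v : (F × F) × ((F × F) × W) => v.1.1) hst
  have h2 := congrArg (fun v : (F × F) × ((F × F) × W) => v.2.1.1) hst
  simp [e0, e1] at h1 h2
  exact ⟨h1, h2⟩

include hψ HG in
theorem posA {v : (F × F) × ((F × F) × W)} (hv : v ≠ 0) (h1 : v.1.2 = 0) (h2 : v.2.1.2 = 0) (h3 : v.2.2 = 0) :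
    LinearMap.trace ℂ V (pe hQ ρ v * Z hQ ρ) = LinearMap.trace ℂ V (wt (hQ := nd_hyp hQ) ρ ψ 0) := by
  have hv' : v = v.1.1 • e0 + v.2.1.1 • e1 := by
    refine Prod.ext (Prod.ext ?_ ?_) (Prod.ext (Prod.ext ?_ ?_) ?_) <;> simp [e0, e1, h1, h2, h3]
  obtain ⟨a', b', hd⟩ : ∃ a' b' : F, v.1.1 * b' - v.2.1.1 * a' = 1 := by
    by_cases ha : v.1.1 = 0
    · have hb : v.2.1.1 ≠ 0 := by
        intro hb
        apply hv
        rw [hv', ha, hb]; simp
      exact ⟨-(v.2.1.1)⁻¹, 0, by rw [mul_zero, zero_sub, mul_neg, neg_neg, mul_inv_cancel₀ hb]⟩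
    · exact ⟨0, (v.1.1)⁻¹, by rw [mul_zero, sub_zero, mul_inv_cancel₀ ha]⟩
  set r : (F × F) × ((F × F) × W) := a' • e0 + b' • e1 with hr
  have hli : LinearIndependent F ![v, r] := by
    rw [LinearIndependent.pair_iff]
    intro s t hst
    have g1 := congrArg (fun v : (F × F) × ((F × F) × W) => v.1.1) hst
    have g2 := congrArg (fun v : (F × F) × ((F × F) × W) => v.2.1.1) hst
    rw [hr] at g1 g2
    simp [e0, e1] at g1 g2
    constructor
    · linear_combination (-s) * hd + b' * g1 - a' * g2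
    · linear_combination (-t) * hd + v.1.1 * g2 - v.2.1.1 * g1
  obtain ⟨g, hg1, hg2⟩ := line_map hQ HG li01 hli Q_e0 Q_e1 (by simp [polar_hyp, e0, e1])
    (by rw [hv']; simp [hyp_apply, e0, e1]) (by rw [hr]; simp [hyp_apply, e0, e1]) (by rw [hv', hr]; simp [polar_hyp, e0, e1])
  rw [Z_eq, ← XX_line hQ ρ v.1.1 v.2.1.1 a' b' hv' hr hd, ← hg1, ← hg2, tr_pe_XX, pe_e0 hQ ρ ψ, ← Z_eq,
    LinearMap.trace_mul_comm, Z_mul_wt_zero hQ ρ hψ]

theorem el_e1_e0 (κ : F) : el (nd_hyp hQ) e1 (κ • e0) = u (nd_hyp hQ) (iZ F W (-κ)) := by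
  apply Subtype.ext
  apply LinearEquiv.ext
  intro x
  show E (nd_hyp (nd_hyp hQ)) e1 (κ • e0) x = (u (nd_hyp hQ) (iZ F W (-κ))).1 x
  rw [E_apply _ Q_e1 (by simp [polar_hyp, e0, e1]), u_apply, iZ_apply]
  refine Prod.ext (Prod.ext ?_ ?_) (Prod.ext (Prod.ext ?_ ?_) ?_) <;>
    simp [polar_hyp, hyp_apply, e0, e1] <;> ring

include hψ HG in
theorem posB {v : (F × F) × ((F × F) × W)} (h0 : hyp (hyp Q₂) v = 0) (h1 : v.1.2 = 0) (h2 : v.2.1.2 = 0) (h3 : v.2.2 ≠ 0) :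
    ∃ w : W, w ≠ 0 ∧ Q₂ w = 0 ∧
    LinearMap.trace ℂ V (pe hQ ρ v * Z hQ ρ) =
      LinearMap.trace ℂ V (wt (hQ := nd_hyp hQ) ρ ψ 0 * XX hQ ρ e1 (0, (0, w))) := by
  have hli : LinearIndependent F ![v, e0] := by
    rw [LinearIndependent.pair_iff]
    intro s t hst
    have g1 := congrArg (fun v : (F × F) × ((F × F) × W) => v.2.2) hst
    simp [e0] at g1
    have hs := g1.resolve_right h3
    rw [hs, zero_smul, zero_add] at hst
    have g2 := congrArg (fun v : (F × F) × ((F × F) × W) => v.1.1) hst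
    simp [e0] at g2
    exact ⟨hs, g2⟩
  have hp : polar (hyp (hyp Q₂)) v e0 = 0 := by rw [polar_comm, polar_e0, h1]
  obtain ⟨g, hg1, hg2⟩ := line_map hQ HG hli li01 h0 Q_e0 hp Q_e0 Q_e1 (by simp [polar_hyp, e0, e1])
  set y := g.1 e1 with hy
  have y1 : y.1.2 = 0 := by
    have h := g_polar (nd_hyp hQ) g v e1
    rw [hg1, polar_e0, polar_comm, polar_e1, h2] at h
    exact h
  have y2 : y.2.1.2 = 0 := by
    have h := g_polar (nd_hyp hQ) g e0 e1
    rw [hg2, polar_e1, polar_e0] at h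
    rw [hy, h]; rfl
  have yQ : hyp (hyp Q₂) y = 0 := by rw [hy, g_Q]; exact Q_e1
  have y3 : Q₂ y.2.2 = 0 := by
    rw [hyp_apply, hyp_apply, y1, y2] at yQ
    simpa using yQ
  have y4 : y.2.2 ≠ 0 := by
    intro h
    have hy' : y = g.1 (y.1.1 • v + y.2.1.1 • e0) := by
      rw [map_add, map_smul, map_smul, hg1, hg2]
      refine Prod.ext (Prod.ext ?_ ?_) (Prod.ext (Prod.ext ?_ ?_) ?_) <;> simp [e0, e1, y1, y2, h]
    have h5 := g.1.injective (hy.symm.trans hy')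
    have g1 := congrArg (fun v : (F × F) × ((F × F) × W) => v.2.2) h5
    simp [e0, e1] at g1
    have g2 := congrArg (fun v : (F × F) × ((F × F) × W) => v.2.1.1) h5
    rcases smul_eq_zero.1 g1.symm with g1 | g1
    · rw [g1] at g2
      simp [e0, e1] at g2
    · exact h3 g1
  refine ⟨y.2.2, y4, y3, ?_⟩
  rw [Z_eq, ← tr_pe_XX hQ ρ g v e0 e1, hg1, hg2, pe_e0 hQ ρ ψ, ← hy]
  congr 1
  unfold XX av
  rw [mul_smul_comm, mul_smul_comm, Finset.mul_sum, Finset.mul_sum]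
  congr 1
  refine Finset.sum_congr rfl fun c _ => ?_
  have e5 : el (nd_hyp hQ) e1 (c • y) = el (nd_hyp hQ) e1 ((c * y.1.1) • e0) * el (nd_hyp hQ) e1 (c • ((0 : F × F), ((0 : F × F), y.2.2))) := by
    rw [el_add _ (by simp [polar_hyp, e0, e1]) (by rw [polar_smul_right, polar_e1j, smul_zero])]
    apply Subtype.ext
    show E (nd_hyp (nd_hyp hQ)) e1 (c • y) = E (nd_hyp (nd_hyp hQ)) e1 _
    have e6 : c • y = ((c * y.1.1) • e0 + c • ((0 : F × F), ((0 : F × F), y.2.2))) + (c * y.2.1.1) • e1 := by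
      refine Prod.ext (Prod.ext ?_ ?_) (Prod.ext (Prod.ext ?_ ?_) ?_) <;> simp [e0, e1, y1, y2]
    conv_lhs => rw [e6]
    rw [E_add_smul _ Q_e1]
    rw [polar_e1]
    simp [e0]
  beta_reduce
  rw [e5, el_e1_e0 hQ, map_mul, ← mul_assoc, wt_zero_mul_rho (hQ := nd_hyp hQ)]

include HG in
theorem posC {v : (F × F) × ((F × F) × W)} (h0 : hyp (hyp Q₂) v = 0) (h1 : ¬ (v.1.2 = 0 ∧ v.2.1.2 = 0)) (ψ : AddChar F ℂ) :
    LinearMap.trace ℂ V (pe hQ ρ v * Z hQ ρ) =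
      LinearMap.trace ℂ V (wt (hQ := nd_hyp hQ) ρ ψ 0 * U1 hQ ρ) := by
  set r : (F × F) × ((F × F) × W) := v.2.1.2 • e0 + (-v.1.2) • e1 with hr
  obtain ⟨a', b', hs1, hs2⟩ : ∃ a' b' : F, v.2.1.2 * b' - (-v.1.2) * a' = 1 ∧ a' * v.1.2 + b' * v.2.1.2 = 1 := by
    by_cases ha : v.1.2 = 0
    · have hb : v.2.1.2 ≠ 0 := fun hb => h1 ⟨ha, hb⟩
      exact ⟨0, (v.2.1.2)⁻¹, by rw [mul_inv_cancel₀ hb]; ring, by rw [inv_mul_cancel₀ hb]; ring⟩
    · exact ⟨(v.1.2)⁻¹, 0, by rw [neg_mul, mul_inv_cancel₀ ha]; ring, by rw [inv_mul_cancel₀ ha]; ring⟩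
  set s : (F × F) × ((F × F) × W) := a' • e0 + b' • e1 with hs
  have hr0 : r ≠ 0 := by
    intro h
    apply h1
    have g1 := congrArg (fun v : (F × F) × ((F × F) × W) => v.1.1) h
    have g2 := congrArg (fun v : (F × F) × ((F × F) × W) => v.2.1.1) h
    rw [hr] at g1 g2
    simp [e0, e1] at g1 g2
    exact ⟨g2, g1⟩
  have q1 : hyp (hyp Q₂) s = 0 := by rw [hs]; simp [hyp_apply, e0, e1]
  have q2 : hyp (hyp Q₂) r = 0 := by rw [hr]; simp [hyp_apply, e0, e1]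
  have q3 : polar (hyp (hyp Q₂)) v s = 1 := by
    rw [hs, polar_add_right, polar_smul_right, polar_smul_right, polar_comm _ v, polar_comm _ v, polar_e0, polar_e1]
    exact hs2
  have q4 : polar (hyp (hyp Q₂)) v r = 0 := by
    rw [hr, polar_add_right, polar_smul_right, polar_smul_right, polar_comm _ v, polar_comm _ v, polar_e0, polar_e1]
    simp only [smul_eq_mul]
    ring
  have q5 : polar (hyp (hyp Q₂)) s r = 0 := by rw [hs, hr]; simp [polar_hyp, e0, e1]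
  have p1 : hyp (hyp Q₂) (f0 : (F × F) × ((F × F) × W)) = 0 := by simp [hyp_apply, f0]
  have p2 : polar (hyp (hyp Q₂)) e0 (f0 : (F × F) × ((F × F) × W)) = 1 := by simp [polar_hyp, e0, f0]
  have p3 : polar (hyp (hyp Q₂)) e0 (e1 : (F × F) × ((F × F) × W)) = 0 := by simp [polar_hyp, e0, e1]
  have p4 : polar (hyp (hyp Q₂)) f0 (e1 : (F × F) × ((F × F) × W)) = 0 := by simp [polar_hyp, f0, e0, e1]
  have p5 : (e1 : (F × F) × ((F × F) × W)) ≠ 0 := by
    intro h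
    have := congrArg (fun v : (F × F) × ((F × F) × W) => v.2.1.1) h
    simp [e1, e0] at this
  obtain ⟨g, hg, hge⟩ := (nd_hyp (nd_hyp hQ)).witt_family ![e0, f0, e1] ![v, s, r]
    (li3 Q_e0 p1 p5 p2 p3 p4) (li3 h0 q1 hr0 q3 q4 q5)
    (fun i => by fin_cases i <;> simp [h0, q1, q2, p1, Q_e0, Q_e1])
    (fun i j => by
      fin_cases i <;> fin_cases j <;>
        simp [h0, q1, q2, q3, q4, q5, p1, p2, p3, p4, Q_e0, Q_e1, polar_comm _ s v, polar_comm _ r v, polar_comm _ r s,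
          polar_comm _ (f0 : (F × F) × ((F × F) × W)) e0, polar_comm _ (e1 : (F × F) × ((F × F) × W)) e0,
          polar_comm _ (e1 : (F × F) × ((F × F) × W)) f0])
  obtain ⟨t, ht, htg⟩ := Om_of_O (nd_hyp (nd_hyp hQ)) HG.hR (frame_cons (frame_cons HG.fr))
    (i := 0) (j := Fin.succ 0) (l := Fin.succ (Fin.succ 0)) (Fin.succ_ne_zero _).symm (Fin.succ_ne_zero _).symm
    (fun h => (Fin.succ_ne_zero (0 : Fin (k + 1))).symm (Fin.succ_injective _ h)) hg
  rw [← HG.hT] at ht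
  have htg' : ∀ x : (F × F) × ((F × F) × W), polar (hyp (hyp Q₂)) ((0 : F × F), ((0 : F × F), e 0)) x = 0 →
    polar (hyp (hyp Q₂)) ((0 : F × F), ((0 : F × F), f 0)) x = 0 → t x = g x := htg
  have t0 : t e0 = v := by
    rw [htg' e0 (by simp [polar_hyp, e0]) (by simp [polar_hyp, e0])]
    exact hge 0
  have t1' : t f0 = s := by
    rw [htg' f0 (by simp [polar_hyp, f0]) (by simp [polar_hyp, f0])]
    exact hge 1
  have t2 : t e1 = r := by
    rw [htg' e1 (by simp [polar_hyp, e0, e1]) (by simp [polar_hyp, e0, e1])]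
    exact hge 2
  have h := tr_pe_XX hQ ρ ⟨t, ht⟩ e0 e1 f0
  change LinearMap.trace ℂ V (pe hQ ρ (t e0) * XX hQ ρ (t e1) (t f0)) = _ at h
  rw [t0, t1', t2, XX_line hQ ρ v.2.1.2 (-v.1.2) a' b' hr hs hs1, pe_e0 hQ ρ ψ] at h
  rw [Z_eq, h]
  congr 2
  unfold XX U1
  rw [← av_equiv ρ (Equiv.neg F) (t1 hQ)]
  congr 1
  funext c
  unfold t1
  congr 1
  simp [f0]

/-- nonzero singular vectors -/
abbrev Sg (Q₂ : QuadraticForm F W) : Type _ := {v : (F × F) × ((F × F) × W) // v ≠ 0 ∧ hyp (hyp Q₂) v = 0}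

/-- the action on singular vectors -/
@[reducible] def sgAction : MulAction (G (nd_hyp hQ)) (Sg Q₂) where
  smul g v := ⟨g.1 v.1, by
    refine ⟨fun h => v.2.1 ?_, ?_⟩
    · exact (LinearEquiv.map_eq_zero_iff g.1).1 h
    · rw [g_Q]; exact v.2.2⟩
  one_smul v := Subtype.ext rfl
  mul_smul g h v := Subtype.ext rfl

noncomputable instance : Fintype (Sg Q₂) := Fintype.ofFinite _

theorem e0_ne : (e0 : (F × F) × ((F × F) × W)) ≠ 0 := by
  intro h
  have := congrArg (fun v : (F × F) × ((F × F) × W) => v.1.1) h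
  simp [e0] at this

include HG in
theorem schur_sum_sg (hρ : ρ.IsIrreducible) (hV : Module.finrank ℂ V ≠ 0) (S : V →ₗ[ℂ] V) :
    ∑ v : Sg Q₂, LinearMap.trace ℂ V (pe hQ ρ v.1 * S) =
      Fintype.card (Sg Q₂) * LinearMap.trace ℂ V (pe hQ ρ e0) * LinearMap.trace ℂ V S / Module.finrank ℂ V := by
  letI := sgAction (hQ := hQ) (Q₂ := Q₂)
  letI := fG hQ
  have htr : MulAction.IsPretransitive (G (nd_hyp hQ)) (Sg Q₂) := by
    constructor
    intro v w
    obtain ⟨g, hg, h1⟩ := Om_map_one (nd_hyp (nd_hyp hQ)) HG.hR (frame_cons (frame_cons HG.fr))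
      (i := 0) (j := Fin.succ 0) (l := Fin.succ (Fin.succ 0)) (Fin.succ_ne_zero _).symm (Fin.succ_ne_zero _).symm
      (fun h => (Fin.succ_ne_zero (0 : Fin (k + 1))).symm (Fin.succ_injective _ h)) v.2.1 w.2.1 (v.2.2.trans w.2.2.symm)
    rw [← HG.hT] at hg
    exact ⟨⟨g, hg⟩, Subtype.ext h1⟩
  have h1 := sum_orbit htr (⟨e0, e0_ne, Q_e0⟩ : Sg Q₂) (fun v => LinearMap.trace ℂ V (pe hQ ρ v.1 * S))
  have h2 := schur_trace hρ hV (pe hQ ρ e0) S
  have h3 : ∀ g : G (nd_hyp hQ), LinearMap.trace ℂ V (pe hQ ρ (g • (⟨e0, e0_ne, Q_e0⟩ : Sg Q₂)).1 * S) =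
      LinearMap.trace ℂ V (ρ g * pe hQ ρ e0 * ρ g⁻¹ * S) := by
    intro g
    rw [pe_conj]
    rfl
  rw [Finset.sum_congr rfl (fun g _ => h3 g), h2] at h1
  have hG : (Fintype.card (G (nd_hyp hQ)) : ℂ) ≠ 0 := Nat.cast_ne_zero.2 Fintype.card_ne_zero
  apply mul_left_cancel₀ hG
  rw [← h1]
  ring

theorem card_Sg : (Fintype.card (Sg Q₂) : ℂ) = ClOrthOrd.Z (hyp (hyp Q₂)) - 1 := by
  classical
  have h1 : Fintype.card (Sg Q₂) + 1 = ClOrthOrd.Z (hyp (hyp Q₂)) := by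
    rw [ClOrthOrd.Z, Nat.card_eq_fintype_card, Fintype.card_subtype, Fintype.card_subtype]
    have h2 : (Finset.univ.filter (fun v : (F × F) × ((F × F) × W) => v ≠ 0 ∧ hyp (hyp Q₂) v = 0)) =
        (Finset.univ.filter (fun v : (F × F) × ((F × F) × W) => hyp (hyp Q₂) v = 0)).erase 0 := by
      ext v
      simp
    rw [h2, Finset.card_erase_of_mem (by simp)]
    have h3 : 0 < (Finset.univ.filter (fun v : (F × F) × ((F × F) × W) => hyp (hyp Q₂) v = 0)).card :=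
      Finset.card_pos.2 ⟨0, by simp⟩
    omega
  rw [← h1]
  push_cast
  ring

theorem card_filter_Sg (P : (F × F) × ((F × F) × W) → Prop) [DecidablePred P] (h0 : P 0) :
    (Finset.univ.filter (fun v : Sg Q₂ => P v.1)).card + 1 = Nat.card {v : (F × F) × ((F × F) × W) // hyp (hyp Q₂) v = 0 ∧ P v} := by
  classical
  have h1 : (Finset.univ.filter (fun v : Sg Q₂ => P v.1)).card =
      (Finset.univ.filter (fun v : (F × F) × ((F × F) × W) => v ≠ 0 ∧ (hyp (hyp Q₂) v = 0 ∧ P v))).card := by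
    rw [← Finset.card_map (Function.Embedding.subtype _)]
    congr 1
    ext v
    simp only [Finset.mem_map, Finset.mem_filter, Finset.mem_univ, true_and, Function.Embedding.coe_subtype]
    constructor
    · rintro ⟨x, hx, rfl⟩
      exact ⟨x.2.1, x.2.2, hx⟩
    · rintro ⟨h2, h3, h4⟩
      exact ⟨⟨v, h2, h3⟩, h4, rfl⟩
  rw [h1, Nat.card_eq_fintype_card, Fintype.card_subtype]
  have h2 : (Finset.univ.filter (fun v : (F × F) × ((F × F) × W) => v ≠ 0 ∧ (hyp (hyp Q₂) v = 0 ∧ P v))) =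
      (Finset.univ.filter (fun v : (F × F) × ((F × F) × W) => hyp (hyp Q₂) v = 0 ∧ P v)).erase 0 := by
    ext v
    simp
  rw [h2, Finset.card_erase_of_mem (by simp [h0])]
  have h3 : 0 < (Finset.univ.filter (fun v : (F × F) × ((F × F) × W) => hyp (hyp Q₂) v = 0 ∧ P v)).card :=
    Finset.card_pos.2 ⟨0, by simp [h0]⟩
  omega

include hψ H HG in
/-- the main identity -/
theorem main_identity (hρ : ρ.IsIrreducible) (hV : Module.finrank ℂ V ≠ 0) {K : ℕ}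
    (hK : ∀ y : W, y ≠ 0 → Q₂ y = 0 → Nat.card {w : W // Q₂ w = 0 ∧ polar Q₂ y w = 0} = K) :
    ∃ r : ℝ, SL2GapB.Kset (Fintype.card F) r ∧ ∃ c β γ : ℂ,
      (Module.finrank ℂ V : ℂ) = c + (ClOrthOrd.Z (hyp Q₂) - 1) ∧
      (β = c + (Fintype.card F * ClOrthOrd.Z Q₂ - 1) - (Fintype.card F : ℂ)⁻¹ * ClOrthOrd.Z (hyp Q₂) - (Fintype.card F - 1) * K + 1) ∧
      (Fintype.card F * γ = Fintype.card F * (c - (ClOrthOrd.Z Q₂ - 1) - r) + (ClOrthOrd.Z Q₂ - 1)) ∧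
      ((ClOrthOrd.Z (hyp (hyp Q₂)) - 1) * c * (c + (Fintype.card F * ClOrthOrd.Z Q₂ - 1)) / Module.finrank ℂ V : ℂ) =
        γ * (ClOrthOrd.Z (hyp (hyp Q₂)) - 1) + (β - γ) * ((Fintype.card F : ℂ) ^ 2 * ClOrthOrd.Z Q₂ - 1) +
          (c - β) * ((Fintype.card F : ℂ) ^ 2 - 1) := by
  classical
  obtain ⟨r, hr, hγ⟩ := trace_U1 hQ hψ H
  set c := LinearMap.trace ℂ V (wt (hQ := nd_hyp hQ) ρ ψ 0) with hc
  set γ := LinearMap.trace ℂ V (wt (hQ := nd_hyp hQ) ρ ψ 0 * U1 hQ ρ) with hγd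
  set β := c + (Fintype.card F * ClOrthOrd.Z Q₂ - 1) - (Fintype.card F : ℂ)⁻¹ * ClOrthOrd.Z (hyp Q₂) - (Fintype.card F - 1) * K + 1 with hβ
  refine ⟨r, hr, c, β, γ, finrank_eq hQ hψ H, rfl, hγ, ?_⟩
  have hsum := schur_sum_sg hQ HG hρ hV (Z hQ ρ)
  rw [pe_e0 hQ ρ ψ, ← hc, trace_Z hQ hψ H, ← hc, card_Sg] at hsum
  rw [← hsum]
  have h1 : ∀ v : Sg Q₂, LinearMap.trace ℂ V (pe hQ ρ v.1 * Z hQ ρ) =
      γ + (if v.1.1.2 = 0 ∧ v.1.2.1.2 = 0 then β - γ else 0) +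
        (if v.1.1.2 = 0 ∧ v.1.2.1.2 = 0 ∧ v.1.2.2 = 0 then c - β else 0) := by
    intro v
    by_cases h2 : v.1.1.2 = 0 ∧ v.1.2.1.2 = 0
    · rw [if_pos h2]
      by_cases h3 : v.1.2.2 = 0
      · rw [if_pos ⟨h2.1, h2.2, h3⟩, posA hQ hψ HG v.2.1 h2.1 h2.2 h3, ← hc]
        ring
      · rw [if_neg (fun h => h3 h.2.2)]
        obtain ⟨w, hw, hw0, h4⟩ := posB (ρ := ρ) hQ hψ HG v.2.2 h2.1 h2.2 h3
        rw [h4, trace_XX hQ hψ H hw hw0, hK w hw hw0]
        have h5 : LinearMap.trace ℂ V (XX hQ ρ e1 (0, (0, w))) = LinearMap.trace ℂ V (Z hQ ρ) := by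
          have hli : LinearIndependent F ![(e1 : (F × F) × ((F × F) × W)), (0, (0, w))] := by
            rw [LinearIndependent.pair_iff]
            intro s t hst
            have g1 := congrArg (fun v : (F × F) × ((F × F) × W) => v.2.2) hst
            have g2 := congrArg (fun v : (F × F) × ((F × F) × W) => v.2.1.1) hst
            simp [e0, e1] at g1 g2
            exact ⟨g2, g1.resolve_right hw⟩
          obtain ⟨g, hg1, hg2⟩ := line_map hQ HG li01 hli Q_e0 Q_e1 (by simp [polar_hyp, e0, e1]) Q_e1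
            (by simp [hyp_apply, hw0]) (polar_e1j w)
          rw [← hg1, ← hg2, ← XX_conj, trace_conj ρ g, Z_eq]
        rw [h5, trace_Z hQ hψ H, ← hc]
        ring
    · rw [if_neg h2, if_neg (fun h => h2 ⟨h.1, h.2.1⟩), add_zero, add_zero, posC hQ HG v.2.2 h2 ψ]
  rw [Finset.sum_congr rfl (fun v _ => h1 v), Finset.sum_add_distrib, Finset.sum_add_distrib, ← Finset.sum_filter,
    ← Finset.sum_filter, Finset.sum_const, Finset.sum_const, Finset.sum_const, Finset.card_univ, nsmul_eq_mul, nsmul_eq_mul,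
    nsmul_eq_mul, card_Sg]
  have hq1 : 1 < Fintype.card F := Fintype.one_lt_card
  have c1 : ((Finset.univ.filter (fun v : Sg Q₂ => v.1.1.2 = 0 ∧ v.1.2.1.2 = 0)).card : ℂ) =
      (Fintype.card F : ℂ) ^ 2 * ClOrthOrd.Z Q₂ - 1 := by
    have e1' := card_filter_Sg (Q₂ := Q₂) (fun v => v.1.2 = 0 ∧ v.2.1.2 = 0) ⟨rfl, rfl⟩
    have e2 : Nat.card {v : (F × F) × ((F × F) × W) // hyp (hyp Q₂) v = 0 ∧ (v.1.2 = 0 ∧ v.2.1.2 = 0)} =
        Fintype.card F ^ 2 * ClOrthOrd.Z Q₂ := by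
      rw [ClOrthOrd.Z, _root_.sq, ← Nat.card_eq_fintype_card, ← Nat.card_prod, ← Nat.card_prod]
      exact Nat.card_congr
        { toFun := fun v => ((v.1.1.1, v.1.2.1.1), ⟨v.1.2.2, by
            have h := v.2.1
            rw [hyp_apply, hyp_apply, v.2.2.1, v.2.2.2] at h
            simpa using h⟩)
          invFun := fun p => ⟨((p.1.1, 0), ((p.1.2, 0), p.2.1)), by
            rw [hyp_apply, hyp_apply, p.2.2]; simp, rfl, rfl⟩
          left_inv := fun v => Subtype.ext (Prod.ext (Prod.ext rfl v.2.2.1.symm) (Prod.ext (Prod.ext rfl v.2.2.2.symm) rfl))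
          right_inv := fun p => rfl }
    rw [e2] at e1'
    have e3 : (((Finset.univ.filter (fun v : Sg Q₂ => v.1.1.2 = 0 ∧ v.1.2.1.2 = 0)).card : ℂ)) + 1 =
        (Fintype.card F : ℂ) ^ 2 * ClOrthOrd.Z Q₂ := by exact_mod_cast e1'
    rw [← e3]; ring
  have c2 : ((Finset.univ.filter (fun v : Sg Q₂ => v.1.1.2 = 0 ∧ v.1.2.1.2 = 0 ∧ v.1.2.2 = 0)).card : ℂ) =
      (Fintype.card F : ℂ) ^ 2 - 1 := by
    have e1' := card_filter_Sg (Q₂ := Q₂) (fun v => v.1.2 = 0 ∧ v.2.1.2 = 0 ∧ v.2.2 = 0) ⟨rfl, rfl, rfl⟩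
    have e2 : Nat.card {v : (F × F) × ((F × F) × W) // hyp (hyp Q₂) v = 0 ∧ (v.1.2 = 0 ∧ v.2.1.2 = 0 ∧ v.2.2 = 0)} =
        Fintype.card F ^ 2 := by
      rw [_root_.sq, ← Nat.card_eq_fintype_card, ← Nat.card_prod]
      exact Nat.card_congr
        { toFun := fun v => (v.1.1.1, v.1.2.1.1)
          invFun := fun p => ⟨((p.1, 0), ((p.2, 0), 0)), by
            rw [hyp_apply, hyp_apply]; simp, rfl, rfl, rfl⟩
          left_inv := fun v => Subtype.ext (Prod.ext (Prod.ext rfl v.2.2.1.symm)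
            (Prod.ext (Prod.ext rfl v.2.2.2.1.symm) v.2.2.2.2.symm))
          right_inv := fun p => rfl }
    rw [e2] at e1'
    have e3 : (((Finset.univ.filter (fun v : Sg Q₂ => v.1.1.2 = 0 ∧ v.1.2.1.2 = 0 ∧ v.1.2.2 = 0)).card : ℂ)) + 1 =
        (Fintype.card F : ℂ) ^ 2 := by exact_mod_cast e1'
    rw [← e3]; ring
  rw [c1, c2]
  ring

end Cfsg.Agent.Lib.OmSchur
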