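import Cfsg.Agent.Lib.SL2Gap

/-!
# The exact gap for representations of `SL₂(q)` whose non-trivial weights have multiplicity one (helper83)
-/

set_option autoImplicit false
set_option linter.all false

namespace Cfsg.Agent.Lib.SL2GapB

open Matrix MinIdxTv MinIdxFour MinIdxAct AvgTrace SLPoint SL2Gap

variable {F : Type*} [Field F] [Fintype F] {V : Type*} [AddCommGroup V] [Module ℂ V] [FiniteDimensional ℂ V]
  (ρ : Representation ℂ (SpecialLinearGroup (Fin 2) F) V)

theorem gap_formula (hρ : ρ.IsIrreducible) :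
    LinearMap.trace ℂ V (av ρ (u0 (F := F))) - LinearMap.trace ℂ V (av ρ (u1 (F := F)) * av ρ (u0 (F := F))) =
      ((Fintype.card F : ℂ) + 1) * Module.finrank ℂ (LinearMap.range (av ρ (u0 (F := F)))) *
        (Module.finrank ℂ V - Module.finrank ℂ (LinearMap.range (av ρ (u0 (F := F))))) /
          (Fintype.card F * Module.finrank ℂ V) := by
  have hnt : Nontrivial V := CharBasic.nontrivial_of_isIrreducible hρ
  have hV : Module.finrank ℂ V ≠ 0 := Module.finrank_pos.ne'
  have hid := points_identity ρ hρ hV le_rfl (c := Pi.single 0 1) (by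
    intro h
    have := congrFun h 0
    simp at this) _ (trace_E ρ)
  rw [E0_eq, E1_eq] at hid
  set q := Fintype.card F with hq
  have hidem : av ρ (u0 (F := F)) * av ρ (u0 (F := F)) = av ρ (u0 (F := F)) := av_idem ρ u0_add
  have htr := trace_idem hidem
  set f := Module.finrank ℂ (LinearMap.range (av ρ (u0 (F := F)))) with hf
  set D := Module.finrank ℂ V with hD
  rw [htr] at hid ⊢
  set τ := LinearMap.trace ℂ V (av ρ (u1 (F := F)) * av ρ (u0 (F := F))) with hτ
  have hq1 : 1 < q := Fintype.one_lt_card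
  have hD0 : (D : ℂ) ≠ 0 := Nat.cast_ne_zero.2 hV
  have hq0 : (q : ℂ) ≠ 0 := Nat.cast_ne_zero.2 (by omega)
  have hq1' : (q : ℂ) - 1 ≠ 0 := by
    rw [sub_ne_zero]
    exact_mod_cast hq1.ne'
  have h1 : ((q : ℂ) - 1) * (f + q * τ) = ((q : ℂ) - 1) * ((q + 1) * f ^ 2 / D) := by
    have : ((q : ℂ) - 1) * f + ((q : ℂ) ^ 2 - q) * τ = ((q : ℂ) - 1) * (f + q * τ) := by ring
    rw [← this, hid]
    field_simp
    ring
  have h2 := mul_left_cancel₀ hq1' h1
  have h3 : τ = ((q + 1) * f ^ 2 / D - f) / q := by
    rw [eq_div_iff hq0]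
    linear_combination h2
  rw [h3]
  field_simp
  ring

/-- the fixed dimension in terms of the character -/
noncomputable def fc (χ : SpecialLinearGroup (Fin 2) F → ℂ) : ℂ := (Fintype.card F : ℂ)⁻¹ * ∑ x : F, χ (u0 x)

theorem fc_eq : fc ρ.character = Module.finrank ℂ (LinearMap.range (av ρ (u0 (F := F)))) := by
  rw [← trace_idem (av_idem ρ u0_add)]
  unfold av fc
  rw [map_smul, map_sum]
  rfl

/-- possible gaps with `(q-1)/2` weights -/
def Hset (q : ℕ) (r : ℝ) : Prop := r = 0 ∨ r = ((q : ℝ) - 1) / q ∨ 2 * ((q : ℝ) ^ 2 - 1) / (q * (q + 3)) ≤ r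

/-- possible gaps with `q - 1` weights -/
def Kset (q : ℕ) (r : ℝ) : Prop := r = 0 ∨ r = ((q : ℝ) - 1) / q ∨ ((q : ℝ) ^ 2 - 1) / q ^ 2 ≤ r

theorem H_add_H {q : ℕ} (hq : 3 ≤ q) {r s : ℝ} (hr : Hset q r) (hs : Hset q s) : Kset q (r + s) := by
  have hq' : (3 : ℝ) ≤ q := by exact_mod_cast hq
  have h0 : 0 < ((q : ℝ) - 1) / q := by
    apply div_pos
    · linarith
    · linarith
  have h1 : ((q : ℝ) ^ 2 - 1) / q ^ 2 ≤ 2 * ((q : ℝ) ^ 2 - 1) / (q * (q + 3)) := by
    rw [div_le_div_iff₀ (by positivity) (by positivity)]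
    have : 0 ≤ ((q : ℝ) ^ 2 - 1) * q * (q - 3) := by
      apply mul_nonneg
      · apply mul_nonneg
        · nlinarith
        · linarith
      · linarith
    nlinarith
  have h2 : ((q : ℝ) ^ 2 - 1) / q ^ 2 ≤ ((q : ℝ) - 1) / q + ((q : ℝ) - 1) / q := by
    rw [← add_div, div_le_div_iff₀ (by positivity) (by linarith)]
    nlinarith [mul_nonneg (mul_nonneg (by linarith : (0:ℝ) ≤ q) (by linarith : (0:ℝ) ≤ (q:ℝ) - 1)) (by linarith : (0:ℝ) ≤ (q:ℝ) - 1)]
  rcases hr with rfl | rfl | hr
  · rcases hs with rfl | rfl | hs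
    · left; simp
    · right; left; simp
    · right; right; linarith
  · rcases hs with rfl | rfl | hs
    · right; left; simp
    · right; right; exact h2
    · right; right; linarith
  · have hr0 : 0 ≤ s := by
      rcases hs with rfl | rfl | hs
      · exact le_rfl
      · exact h0.le
      · refine le_trans ?_ hs
        apply div_nonneg
        · nlinarith
        · positivity
    right; right; linarith

/-- the inductive statement -/
def P (χ : SpecialLinearGroup (Fin 2) F → ℂ) : Prop := ∃ M : ℕ, ∃ r : ℝ, χ 1 - fc χ = M ∧ gapc χ = r ∧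
  (M = 0 → r = 0) ∧ (M ≠ 0 → Fintype.card F ≤ 2 * M + 1) ∧ (2 * M + 1 = Fintype.card F → Hset (Fintype.card F) r) ∧
  (M + 1 = Fintype.card F → Kset (Fintype.card F) r)

theorem P_irr (hρ : ρ.IsIrreducible) : P ρ.character := by
  have hnt : Nontrivial V := CharBasic.nontrivial_of_isIrreducible hρ
  have hV : Module.finrank ℂ V ≠ 0 := Module.finrank_pos.ne'
  have hg := gap_formula ρ hρ
  rw [gapc_eq] at hg
  have hfc := fc_eq ρ
  have hw := weights ρ
  set q := Fintype.card F with hq
  set f := Module.finrank ℂ (LinearMap.range (av ρ (u0 (F := F)))) with hf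
  set D := Module.finrank ℂ V with hD
  have hfD : f ≤ D := Submodule.finrank_le _
  obtain ⟨M, hM⟩ : ∃ M, D = f + M := ⟨D - f, by omega⟩
  have hχ1 : ρ.character 1 = D := by
    show LinearMap.trace ℂ V (ρ 1) = _
    rw [map_one, LinearMap.trace_one]
  have hq1 : 1 < q := Fintype.one_lt_card
  have hq1' : (1 : ℝ) < q := by exact_mod_cast hq1
  have hfM : (0 : ℝ) < (f : ℝ) + M := by
    have : 0 < f + M := by omega
    exact_mod_cast this
  refine ⟨M, ((q : ℝ) + 1) * f * M / (q * (f + M)), ?_, ?_, ?_, ?_, ?_, ?_⟩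
  · rw [hχ1, hfc, hM]; push_cast; ring
  · rw [hg, hM]
    push_cast
    congr 1
    ring
  · intro h
    rw [h]; simp
  · intro h
    have h1 : av ρ (u0 (F := F)) ≠ 1 := by
      intro h1
      apply h
      have h2 : f = D := by
        rw [hf, hD, h1]
        have : LinearMap.range (1 : V →ₗ[ℂ] V) = ⊤ := LinearMap.range_id
        rw [this, finrank_top]
      omega
    have h2 := hw h1
    omega
  · intro h
    have hMR : (2 : ℝ) * M + 1 = q := by exact_mod_cast h
    rcases (by omega : f = 0 ∨ f = 1 ∨ 2 ≤ f) with h0 | h0 | h0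
    · left; rw [h0]; simp
    · right; left
      rw [h0]
      push_cast
      rw [div_eq_div_iff (by rw [h0] at hfM; push_cast at hfM; positivity) (by positivity)]
      have : (M : ℝ) = ((q : ℝ) - 1) / 2 := by linarith
      rw [this]; ring
    · right; right
      have hf2 : (2 : ℝ) ≤ f := by exact_mod_cast h0
      rw [div_le_div_iff₀ (by positivity) (by positivity)]
      have hM' : (M : ℝ) = ((q : ℝ) - 1) / 2 := by linarith
      rw [hM']
      have key : 0 ≤ ((q : ℝ) ^ 2 - 1) * q * ((q : ℝ) - 1) * (f - 2) := by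
        apply mul_nonneg
        · apply mul_nonneg
          · apply mul_nonneg
            · nlinarith
            · linarith
          · linarith
        · linarith
      nlinarith
  · intro h
    have hMR : (M : ℝ) + 1 = q := by exact_mod_cast h
    rcases (by omega : f = 0 ∨ 1 ≤ f) with h0 | h0
    · left; rw [h0]; simp
    · right; right
      have hf1 : (1 : ℝ) ≤ f := by exact_mod_cast h0
      rw [div_le_div_iff₀ (by positivity) (by positivity)]
      have hM' : (M : ℝ) = (q : ℝ) - 1 := by linarith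
      rw [hM']
      have key : 0 ≤ ((q : ℝ) ^ 2 - 1) * q * ((q : ℝ) - 1) * (f - 1) := by
        apply mul_nonneg
        · apply mul_nonneg
          · apply mul_nonneg
            · nlinarith
            · linarith
          · linarith
        · linarith
      nlinarith

theorem P_all : P ρ.character := by
  refine CharBasic.rep_induction (G := SpecialLinearGroup (Fin 2) F) (P := fun V _ _ _ ρ => P ρ.character) ?_ ?_ ?_ V ρ
  · intro V _ _ _ ρ hV
    have h : ρ.character = 0 := by
      funext g
      show LinearMap.trace ℂ V (ρ g) = 0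
      rw [Subsingleton.elim (ρ g) 0, map_zero]
    rw [h]
    refine ⟨0, 0, by simp [fc], by simp [gapc], fun _ => rfl, fun h => absurd rfl h, fun h => Or.inl rfl, fun h => Or.inl rfl⟩
  · intro V _ _ _ ρ hρ
    exact P_irr ρ hρ
  · intro V _ _ _ ρ S T hST _ _ h1 h2
    rw [CharBasic.char_eq_add_of_isCompl ρ S T hST]
    obtain ⟨M, r, a1, a2, a3, a4, a5, a6⟩ := h1
    obtain ⟨M', r', b1, b2, b3, b4, b5, b6⟩ := h2
    have hq1 : 1 < Fintype.card F := Fintype.one_lt_card
    refine ⟨M + M', r + r', ?_, ?_, ?_, ?_, ?_, ?_⟩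
    · push_cast
      rw [← a1, ← b1]
      simp only [fc, Pi.add_apply, Finset.sum_add_distrib]
      ring
    · push_cast
      rw [← a2, ← b2]
      simp only [gapc, Pi.add_apply, Finset.sum_add_distrib]
      ring
    · intro h
      rw [a3 (by omega), b3 (by omega), add_zero]
    · intro h
      by_cases hM : M = 0
      · have := b4 (by omega)
        omega
      · have := a4 hM
        omega
    · intro h
      by_cases hM : M = 0
      · rw [a3 hM, zero_add]
        exact b5 (by omega)
      · by_cases hM' : M' = 0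
        · rw [b3 hM', add_zero]
          exact a5 (by omega)
        · have := a4 hM
          have := b4 hM'
          omega
    · intro h
      by_cases hM : M = 0
      · rw [a3 hM, zero_add]
        exact b6 (by omega)
      · by_cases hM' : M' = 0
        · rw [b3 hM', add_zero]
          exact a6 (by omega)
        · have h1 := a4 hM
          have h2 := b4 hM'
          exact H_add_H (by omega) (a5 (by omega)) (b5 (by omega))

end Cfsg.Agent.Lib.SL2GapB
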