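import Cfsg.Agent.Lib.SL2Gap

/-!
# The gap for representations of `SL_n(q)`, traces of products of point projections (helper83)
-/

set_option autoImplicit false
set_option linter.all false

namespace Cfsg.Agent.Lib.SLGap

open Matrix MinIdxTv MinIdxFour MinIdxAct AvgTrace SLPoint SL2Gap

variable {V : Type*} [AddCommGroup V] [Module ℂ V] [FiniteDimensional ℂ V]

/-- the representation on the range of a commuting idempotent -/
theorem sub_char {H : Type*} [Group H] (σ : Representation ℂ H V) {e : V →ₗ[ℂ] V} (he : e * e = e)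
    (hc : ∀ g, σ g * e = e * σ g) :
    ∃ σ' : Representation ℂ H (LinearMap.range e), ∀ g, σ'.character g = LinearMap.trace ℂ V (σ g * e) := by
  have hm : ∀ g, ∀ x ∈ LinearMap.range e, σ g x ∈ LinearMap.range e := by
    rintro g _ ⟨y, rfl⟩
    exact ⟨σ g y, (congrArg (fun f : V →ₗ[ℂ] V => f y) (hc g)).symm⟩
  let σ' : Representation ℂ H (LinearMap.range e) :=
    { toFun := fun g => (σ g).restrict (hm g)
      map_one' := by
        ext x
        show σ 1 x.1 = x.1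
        rw [map_one]; rfl
      map_mul' := by
        intro g h
        ext x
        show σ (g * h) x.1 = σ g (σ h x.1)
        rw [map_mul]; rfl }
  refine ⟨σ', fun g => ?_⟩
  have hm2 : ∀ x, (σ g * e) x ∈ LinearMap.range e := fun x => hm g _ ⟨x, rfl⟩
  have h1 := LinearMap.trace_restrict_eq_of_forall_mem (LinearMap.range e) (σ g * e) hm2
  rw [← h1]
  show LinearMap.trace ℂ _ ((σ g).restrict (hm g)) = _
  congr 1
  ext x
  obtain ⟨y, hy⟩ := x.2
  show σ g x.1 = σ g (e x.1)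
  rw [← hy]
  congr 1
  exact (congrArg (fun f : V →ₗ[ℂ] V => f y) he).symm

variable {F : Type*} [Field F] [Fintype F] {n : ℕ} {c₀ c₁ f₀ f₁ : Fin n → F}
  (ρ : Representation ℂ (SpecialLinearGroup (Fin n) F) V)

theorem gap_SL (h : Dual c₀ c₁ f₀ f₁) :
    Gap (Fintype.card F) (LinearMap.trace ℂ V (X ρ c₀ f₁ * eU ρ c₀ c₁) -
      LinearMap.trace ℂ V (X ρ c₁ f₀ * X ρ c₀ f₁ * eU ρ c₀ c₁)) := by
  have hU : eU ρ c₀ c₁ * eU ρ c₀ c₁ = eU ρ c₀ c₁ := by
    unfold eU
    apply av_idem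
    intro p p'
    apply sl_ext
    have h1 : p.1.1 ⬝ᵥ c₀ = 0 := p.1.2.1
    have h2 : p.1.1 ⬝ᵥ c₁ = 0 := p.1.2.2
    have h3 : p.2.1 ⬝ᵥ c₁ = 0 := p.2.2.2
    have h4 : p.2.1 ⬝ᵥ c₀ = 0 := p.2.2.1
    rw [Matrix.SpecialLinearGroup.coe_mul, U_coe, U_coe, U_coe]
    have e1 : ((p + p').1 : Fin n → F) = p.1.1 + p'.1.1 := rfl
    have e2 : ((p + p').2 : Fin n → F) = p.2.1 + p'.2.1 := rfl
    rw [e1, e2, vv_add_right, vv_add_right]
    simp only [add_mul, mul_add, one_mul, mul_one, vv_mul, h1, h2, h3, h4, zero_smul, add_zero]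
    abel
  obtain ⟨σ', hσ'⟩ := sub_char (ρ.comp h.emb) hU (fun g => h.emb_comm ρ g)
  have h1 := gap_rep σ'
  have h2 : gapc σ'.character = LinearMap.trace ℂ V (X ρ c₀ f₁ * eU ρ c₀ c₁) -
      LinearMap.trace ℂ V (X ρ c₁ f₀ * X ρ c₀ f₁ * eU ρ c₀ c₁) := by
    unfold gapc X
    rw [← av_prod]
    unfold av
    rw [smul_mul_assoc, Finset.sum_mul, map_smul, map_sum, smul_mul_assoc, Finset.sum_mul, map_smul, map_sum]
    congr 1
    · rw [smul_eq_mul]
      congr 1
      refine Finset.sum_congr rfl fun x _ => ?_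
      rw [hσ']
      show LinearMap.trace ℂ V (ρ (h.emb (u0 x)) * _) = _
      rw [u0, h.emb_01]
    · rw [smul_eq_mul]
      congr 1
      refine Finset.sum_congr rfl fun p _ => ?_
      rw [hσ']
      show LinearMap.trace ℂ V (ρ (h.emb (u1 p.1 * u0 p.2)) * _) = _
      rw [map_mul h.emb, u0, u1, h.emb_01, h.emb_10]
  rw [← h2]
  exact h1

/-- the gap in terms of the point projections -/
theorem gap_E (h : Dual c₀ c₁ f₀ f₁) :
    Gap (Fintype.card F) (LinearMap.trace ℂ V (A ρ c₀ c₁ c₁ * E ρ c₀) - LinearMap.trace ℂ V (E ρ c₁ * E ρ c₀)) := by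
  rw [LinearMap.trace_mul_comm ℂ (E ρ c₁), trace_AE ρ h, trace_EE ρ h]
  exact gap_SL ρ h

/-- all pairs of distinct points look alike -/
theorem trace_EE_const (hn : 3 ≤ n) {c v v' : Fin n → F} (hv : v ∉ Submodule.span F {c}) (hv' : v' ∉ Submodule.span F {c}) :
    LinearMap.trace ℂ V (E ρ v * E ρ c) = LinearMap.trace ℂ V (E ρ v' * E ρ c) := by
  have key : ∀ {v v' : Fin n → F}, v ∉ Submodule.span F {c} → v' ∉ Submodule.span F {c, v} →
      LinearMap.trace ℂ V (E ρ v * E ρ c) = LinearMap.trace ℂ V (E ρ v' * E ρ c) := by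
    intro v v' h h'
    obtain ⟨g, hg, hgv⟩ := exists_fix_move h h'
    have h1 := E_conj ρ g v
    have h2 := E_conj ρ g c
    rw [hgv] at h1
    rw [hg] at h2
    rw [← h1]
    have h3 : ρ g * E ρ v * ρ g⁻¹ * E ρ c = ρ g * (E ρ v * E ρ c) * ρ g⁻¹ := by
      conv_lhs => rw [← h2]
      calc _ = ρ g * E ρ v * (ρ g⁻¹ * ρ g) * E ρ c * ρ g⁻¹ := by simp only [mul_assoc]
        _ = _ := by rw [rho_inv_mul, mul_one]; simp only [mul_assoc]
    rw [h3, LinearMap.trace_mul_comm ℂ (ρ g * (E ρ v * E ρ c)), ← mul_assoc, rho_inv_mul, one_mul]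
  by_cases h : v' ∈ Submodule.span F {c, v}
  · obtain ⟨w, hw⟩ := exists_notMem_span_pair hn c v
    rw [key hv hw, key hv' (fun h2 => hw (span_pair_le h h2))]
  · exact key hv h

end Cfsg.Agent.Lib.SLGap
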