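import Cfsg.Agent.Lib.OmER
import Cfsg.Agent.Lib.SL2GapB
import Cfsg.Agent.Lib.SLGap

/-!
# The three relative positions (helper83)
-/

set_option autoImplicit false
set_option linter.all false

namespace Cfsg.Agent.Lib.OmTB

open Cfsg.Agent.Lib.Quad Cfsg.Agent.Lib.ClOrthSiegel QuadraticMap Module AvgTrace OmHyp OmWt OmFix OmTr OmSL OmER

variable {F W : Type*} [Field F] [Fintype F] [AddCommGroup W] [Module F W] [Fintype W] [FiniteDimensional F W]
  {Q₂ : QuadraticForm F W} (hQ : Nd Q₂) {V : Type*} [AddCommGroup V] [Module ℂ V] [FiniteDimensional ℂ V]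
  {ρ : Representation ℂ (G (nd_hyp hQ)) V} {ψ : AddChar F ℂ} (hψ : ψ ≠ 0) (H : Wts hQ ρ ψ)

include hψ H in
open Classical in
theorem trace_a1_wt {x : (F × F) × W} (hx : x ≠ 0) (hx0 : hyp Q₂ x = 0) (hx1 : x.1.2 = 0) (w : W) :
    LinearMap.trace ℂ V (ρ (a1 hQ w) * wt (hQ := nd_hyp hQ) ρ ψ x) = if polar Q₂ w x.2 = 0 then 1 else 0 := by
  split_ifs with h
  · rw [H.h3 x hx hx0 hx1 w h, H.h2 x hx hx0]
  · have hw : w ≠ 0 := by
      intro h0
      apply h
      rw [h0, polar_zero_left]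
    exact trace_move (hQ := nd_hyp hQ) ρ hψ (a1_e0 hQ w) (a1_move hQ hw (Or.inr h))

include hQ in
theorem card_perp {y : W} (hy : y ≠ 0) : Fintype.card F * Nat.card {w : W // polar Q₂ w y = 0} = Fintype.card W := by
  have h := ClStab.card_fibre (polarBilin Q₂ y) (fun h => hy (hQ.eq_zero (fun z => by
    have := congrArg (fun φ : W →ₗ[F] F => φ z) h
    exact this))) 0
  rw [← Nat.card_eq_fintype_card (α := W), h]
  congr 1
  apply Nat.card_congr
  apply Equiv.subtypeEquivRight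
  intro w
  rw [polar_comm]
  rfl

include hψ H in
open Classical in
theorem trace_A1_wt (a : F) (w : W) :
    LinearMap.trace ℂ V (A1 hQ ρ * wt (hQ := nd_hyp hQ) ρ ψ ((a, 0), w)) =
      (if Q₂ w = 0 then (Fintype.card F : ℂ)⁻¹ else 0) + (if w = 0 then ((1 - (Fintype.card F : ℂ)⁻¹) +
        (if a = 0 then LinearMap.trace ℂ V (A1 hQ ρ * wt (hQ := nd_hyp hQ) ρ ψ 0) - 1 else 0)) else 0) := by
  have hq : (Fintype.card F : ℂ) ≠ 0 := Nat.cast_ne_zero.2 Fintype.card_ne_zero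
  have hW : (Fintype.card W : ℂ) ≠ 0 := Nat.cast_ne_zero.2 Fintype.card_ne_zero
  by_cases hw : Q₂ w = 0
  · rw [if_pos hw]
    by_cases h0 : (((a, (0 : F)), w) : (F × F) × W) = 0
    · have ha : a = 0 := congrArg (fun v : (F × F) × W => v.1.1) h0
      have hw0 : w = 0 := congrArg (fun v : (F × F) × W => v.2) h0
      rw [if_pos hw0, if_pos ha, h0]; ring
    · have hs : hyp Q₂ ((a, 0), w) = 0 := by simp [hyp_apply, hw]
      have h1 : LinearMap.trace ℂ V (A1 hQ ρ * wt (hQ := nd_hyp hQ) ρ ψ ((a, 0), w)) =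
          (Fintype.card W : ℂ)⁻¹ * Nat.card {w' : W // polar Q₂ w' w = 0} := by
        unfold A1 av
        rw [smul_mul_assoc, Finset.sum_mul, map_smul, map_sum, smul_eq_mul,
          Finset.sum_congr rfl (fun w' _ => trace_a1_wt hQ hψ H h0 hs rfl w'), Finset.sum_boole, Nat.card_eq_fintype_card,
          Fintype.card_subtype]
      rw [h1]
      by_cases hw0 : w = 0
      · have ha : a ≠ 0 := by
          intro ha
          exact h0 (Prod.ext (Prod.ext ha rfl) hw0)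
        rw [if_pos hw0, if_neg ha, hw0]
        have h2 : Nat.card {w' : W // polar Q₂ w' 0 = 0} = Fintype.card W := by
          rw [← Nat.card_eq_fintype_card]
          apply Nat.card_congr
          exact Equiv.subtypeUnivEquiv (fun w' => polar_zero_right Q₂ w')
        rw [h2, inv_mul_cancel₀ hW]; ring
      · rw [if_neg hw0, add_zero]
        have h2 := card_perp hQ hw0
        have h3 : (Fintype.card F : ℂ) * Nat.card {w' : W // polar Q₂ w' w = 0} = Fintype.card W := by exact_mod_cast h2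
        rw [← h3, mul_inv_rev]
        have h4 : (Nat.card {w' : W // polar Q₂ w' w = 0} : ℂ) ≠ 0 := by
          intro h5
          rw [h5, mul_zero] at h3
          exact hW h3.symm
        field_simp
  · rw [if_neg hw, H.h1 _ (by simp [hyp_apply, hw]), mul_zero, map_zero, if_neg, add_zero]
    intro h
    apply hw
    rw [h, QuadraticMap.map_zero]

/-- the dimension of the fixed points of the Borel subgroup's radical -/
noncomputable def f1 (ρ : Representation ℂ (G (nd_hyp hQ)) V) (ψ : AddChar F ℂ) : ℂ :=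
  LinearMap.trace ℂ V (A1 hQ ρ * wt (hQ := nd_hyp hQ) ρ ψ 0)

include hψ H in
theorem trace_ZA1 : LinearMap.trace ℂ V (Z hQ ρ * A1 hQ ρ) = f1 hQ ρ ψ + (Fintype.card F - 1) + (ClOrthOrd.Z Q₂ - 1) := by
  classical
  have hq : (Fintype.card F : ℂ) ≠ 0 := Nat.cast_ne_zero.2 Fintype.card_ne_zero
  rw [Z_A1, trace_sum hQ hψ]
  have h2 : ∀ a : F, ∑ b : F, ∑ w : W, LinearMap.trace ℂ V (A1 hQ ρ * Z hQ ρ * wt (hQ := nd_hyp hQ) ρ ψ ((a, b), w)) =
      (Fintype.card F : ℂ)⁻¹ * ClOrthOrd.Z Q₂ + (1 - (Fintype.card F : ℂ)⁻¹) + if a = 0 then f1 hQ ρ ψ - 1 else 0 := by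
    intro a
    have h1 : ∀ (b : F) (w : W), LinearMap.trace ℂ V (A1 hQ ρ * Z hQ ρ * wt (hQ := nd_hyp hQ) ρ ψ ((a, b), w)) =
        if b = 0 then ((if Q₂ w = 0 then (Fintype.card F : ℂ)⁻¹ else 0) + (if w = 0 then ((1 - (Fintype.card F : ℂ)⁻¹) +
        (if a = 0 then f1 hQ ρ ψ - 1 else 0)) else 0)) else 0 := by
      intro b w
      rw [mul_assoc, Z_wt hQ ρ hψ]
      by_cases hb : b = 0
      · subst hb
        rw [if_pos rfl, if_pos rfl, trace_A1_wt hQ hψ H]
        rfl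
      · rw [if_neg hb, if_neg hb, mul_zero, map_zero]
    rw [Finset.sum_comm, Finset.sum_congr rfl (fun w _ => Finset.sum_congr rfl (fun b _ => h1 b w))]
    simp only [Finset.sum_ite_eq', Finset.mem_univ, if_true, Finset.sum_add_distrib]
    rw [← Finset.sum_filter, Finset.sum_const, nsmul_eq_mul, ClOrthOrd.Z, Nat.card_eq_fintype_card, Fintype.card_subtype]
    ring
  rw [Finset.sum_congr rfl (fun a _ => h2 a), Finset.sum_add_distrib, Finset.sum_ite_eq' Finset.univ (0 : F),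
    if_pos (Finset.mem_univ _), Finset.sum_const, Finset.card_univ, nsmul_eq_mul]
  field_simp
  ring

include hψ H in
theorem f1_eq : f1 hQ ρ ψ = LinearMap.trace ℂ V (wt (hQ := nd_hyp hQ) ρ ψ 0) - (ClOrthOrd.Z Q₂ - 1) := by
  have h1 := trace_ZA1 hQ hψ H
  rw [trace_ZA, trace_ZA0 hQ hψ H] at h1
  linear_combination -h1

include hψ H in
theorem trace_eR : LinearMap.trace ℂ V (eR hQ ρ) = f1 hQ ρ ψ + (Fintype.card F - 1) := by
  classical
  have hq : (Fintype.card F : ℂ) ≠ 0 := Nat.cast_ne_zero.2 Fintype.card_ne_zero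
  unfold eR
  rw [ZA0_A1, trace_sum hQ hψ]
  have h1 : ∀ (a b : F) (w : W), LinearMap.trace ℂ V (A1 hQ ρ * (Z hQ ρ * A0 hQ ρ) * wt (hQ := nd_hyp hQ) ρ ψ ((a, b), w)) =
      if w = 0 then (if b = 0 then (1 + if a = 0 then f1 hQ ρ ψ - 1 else 0) else 0) else 0 := by
    intro a b w
    rw [mul_assoc, mul_assoc (Z hQ ρ), A0_wt hQ ρ hψ]
    by_cases hw : w = 0
    · subst hw
      rw [if_pos rfl, if_pos rfl, Z_wt hQ ρ hψ]
      by_cases hb : b = 0
      · subst hb
        rw [if_pos rfl, if_pos rfl, trace_A1_wt hQ hψ H, if_pos (QuadraticMap.map_zero Q₂), if_pos rfl]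
        unfold f1
        ring
      · rw [if_neg hb, if_neg hb, mul_zero, map_zero]
    · rw [if_neg hw, if_neg hw, mul_zero, mul_zero, map_zero]
  rw [Finset.sum_congr rfl (fun a _ => Finset.sum_congr rfl (fun b _ => Finset.sum_congr rfl (fun w _ => h1 a b w)))]
  simp only [Finset.sum_ite_eq', Finset.mem_univ, if_true, Finset.sum_add_distrib, Finset.sum_const, Finset.card_univ,
    nsmul_eq_mul, mul_one]
  ring

include hψ in
theorem eR_U0_eq : eR hQ ρ * U0 hQ ρ = A1 hQ ρ * wt (hQ := nd_hyp hQ) ρ ψ 0 := by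
  unfold eR
  rw [ZA0_A1, mul_assoc, eV_eq hQ ρ hψ]

include hψ in
theorem eR_wt_zero : eR hQ ρ * wt (hQ := nd_hyp hQ) ρ ψ 0 = eR hQ ρ * U0 hQ ρ := by
  rw [← eV_eq hQ ρ hψ, ← mul_assoc, eR_ZA0]

include hψ in
theorem trace_eR_U0 : LinearMap.trace ℂ V (eR hQ ρ * U0 hQ ρ) = f1 hQ ρ ψ := by
  rw [eR_U0_eq hQ hψ]; rfl

/-- the opposite root group -/
noncomputable def U1 (ρ : Representation ℂ (G (nd_hyp hQ)) V) : V →ₗ[ℂ] V := av ρ (t1 hQ)

theorem u0_eq (t : F) : SL2Gap.u0 t = SL2Pres.E t := by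
  apply Subtype.ext
  show ((MinIdxTv.tv (Pi.single 0 1) (t • Pi.single 1 1) : Matrix.SpecialLinearGroup (Fin 2) F) : Matrix (Fin 2) (Fin 2) F) = _
  rw [MinIdxTv.tv_coe _ _ (by simp)]
  ext i j
  fin_cases i <;> fin_cases j <;> simp [SL2Pres.E, Matrix.vecMulVec_apply]

theorem u1_eq (t : F) : SL2Gap.u1 t = SL2Pres.E' t := by
  apply Subtype.ext
  show ((MinIdxTv.tv (Pi.single 1 1) (t • Pi.single 0 1) : Matrix.SpecialLinearGroup (Fin 2) F) : Matrix (Fin 2) (Fin 2) F) = _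
  rw [MinIdxTv.tv_coe _ _ (by simp)]
  ext i j
  fin_cases i <;> fin_cases j <;> simp [SL2Pres.E', Matrix.vecMulVec_apply]

include hψ H in
theorem gap_eR : ∃ r : ℝ, SL2GapB.Kset (Fintype.card F) r ∧
    LinearMap.trace ℂ V (U1 hQ ρ * U0 hQ ρ * eR hQ ρ) = f1 hQ ρ ψ - r := by
  obtain ⟨σ', hσ'⟩ := SLGap.sub_char (ρ.comp (embG hQ)) (eR_idem hQ ρ) (fun g => eR_emb hQ ρ g)
  obtain ⟨M, r, h1, h2, -, -, -, h6⟩ := SL2GapB.P_all σ'
  have hq1 : 1 < Fintype.card F := Fintype.one_lt_card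
  -- the fixed part
  have hU0 : (Fintype.card F : ℂ)⁻¹ * ∑ x : F, σ'.character (SL2Gap.u0 x) = f1 hQ ρ ψ := by
    rw [← trace_eR_U0 hQ hψ]
    have e : eR hQ ρ * U0 hQ ρ = (Fintype.card F : ℂ)⁻¹ • ∑ x : F, ρ (embG hQ (SL2Gap.u0 x)) * eR hQ ρ := by
      unfold U0 av
      rw [mul_smul_comm, Finset.mul_sum]
      congr 1
      rw [← Equiv.sum_comp (Equiv.neg F)]
      refine Finset.sum_congr rfl fun x _ => ?_
      rw [u0_eq, embG_E, eR_uU]
      rfl
    rw [e, map_smul, map_sum, smul_eq_mul]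
    congr 1
    exact Finset.sum_congr rfl fun x _ => hσ' _
  have hfc : SL2GapB.fc σ'.character = f1 hQ ρ ψ := hU0
  have h1' : σ'.character 1 = f1 hQ ρ ψ + (Fintype.card F - 1) := by
    rw [hσ', ← trace_eR hQ hψ H]
    show LinearMap.trace ℂ V (ρ (embG hQ 1) * eR hQ ρ) = _
    rw [map_one, map_one, one_mul]
  have hM : M + 1 = Fintype.card F := by
    rw [h1', hfc, add_sub_cancel_left] at h1
    have : (M : ℂ) + 1 = Fintype.card F := by rw [← h1]; ring
    exact_mod_cast this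
  refine ⟨r, h6 hM, ?_⟩
  have e2 : LinearMap.trace ℂ V (U1 hQ ρ * U0 hQ ρ * eR hQ ρ) =
      (Fintype.card (F × F) : ℂ)⁻¹ * ∑ p : F × F, σ'.character (SL2Gap.u1 p.1 * SL2Gap.u0 p.2) := by
    have e3 : U1 hQ ρ * U0 hQ ρ = av ρ (fun p : F × F => embG hQ (SL2Gap.u1 p.1 * SL2Gap.u0 p.2)) := by
      unfold U1 U0
      rw [← av_prod, ← av_equiv ρ (Equiv.prodCongr (Equiv.refl F) (Equiv.neg F))
        (fun p : F × F => t1 hQ p.1 * u (nd_hyp hQ) (iU F W p.2))]
      congr 1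
      funext p
      rw [map_mul, u0_eq, u1_eq, embG_E, embG_E']
      rfl
    rw [e3]
    unfold av
    rw [smul_mul_assoc, Finset.sum_mul, map_smul, map_sum, smul_eq_mul]
    congr 1
    exact Finset.sum_congr rfl fun p _ => (hσ' _).symm
  rw [e2, ← h2]
  unfold SL2Gap.gapc
  rw [hU0]
  ring

theorem t1_u (s : F) (w : W) : t1 hQ s * u (nd_hyp hQ) (iA F W w) =
    u (nd_hyp hQ) ((-(s * Q₂ w), 0), w) * a1 hQ (s • w) * t1 hQ s := by
  apply Subtype.ext
  apply LinearEquiv.ext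
  intro v
  show (t1 hQ s).1 ((u (nd_hyp hQ) (iA F W w)).1 v) =
    (u (nd_hyp hQ) ((-(s * Q₂ w), 0), w)).1 ((a1 hQ (s • w)).1 ((t1 hQ s).1 v))
  rw [t1_apply, u_apply, u_apply, a1_apply, t1_apply, iA_apply]
  refine Prod.ext (Prod.ext ?_ ?_) (Prod.ext (Prod.ext ?_ ?_) ?_)
  · simp [polar_hyp, hyp_apply, e0, e1, polar_smul_left, polar_smul_right, polar_add_right, polar_self', Q_smul, polar_comm Q₂]
    ring
  · simp [polar_hyp, hyp_apply, e0, e1]
  · simp [polar_hyp, hyp_apply, e0, e1, polar_smul_left, polar_smul_right, polar_add_right, polar_self', Q_smul, polar_comm Q₂]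
    ring
  · simp [polar_hyp, hyp_apply, e0, e1]
  · simp [polar_hyp, hyp_apply, e0, e1]
    module

end Cfsg.Agent.Lib.OmTB
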