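import Cfsg.Agent.Lib.OmFix

/-!
# Traces of averages over root groups (helper83)
-/

set_option autoImplicit false
set_option linter.all false

namespace Cfsg.Agent.Lib.OmTr

open Cfsg.Agent.Lib.Quad Cfsg.Agent.Lib.ClOrthSiegel QuadraticMap Module AvgTrace OmHyp OmWt OmFix

section gen

variable {F W : Type*} [Field F] [Fintype F] [AddCommGroup W] [Module F W] [Fintype W] [FiniteDimensional F W]
  {Q' : QuadraticForm F W} {hQ : Nd Q'} {V : Type*} [AddCommGroup V] [Module ℂ V]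
  (ρ : Representation ℂ (G hQ) V) {ψ : AddChar F ℂ} (hψ : ψ ≠ 0)

include hψ in
open Classical in
theorem av_wt {B : Type*} [AddCommGroup B] [Module F B] [Fintype B] (β : B →ₗ[F] W) (x : W) :
    av ρ (fun b => u hQ (β b)) * wt ρ ψ x = if ∀ b, polar Q' x (β b) = 0 then wt ρ ψ x else 0 := by
  unfold av
  rw [smul_mul_assoc, Finset.sum_mul, Finset.sum_congr rfl (fun b _ => rho_wt ρ ψ x (β b)), ← Finset.sum_smul]
  have h1 := AddChar.sum_eq_ite ((chi ψ Q' x).compAddMonoidHom β.toAddMonoidHom)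
  have h2 : ((chi ψ Q' x).compAddMonoidHom β.toAddMonoidHom = 0) ↔ ∀ b, polar Q' x (β b) = 0 := by
    constructor
    · intro h b
      apply prim hψ
      intro c
      have := DFunLike.congr_fun h (c • b)
      change ψ (polar Q' x (β (c • b))) = 1 at this
      rwa [map_smul, polar_smul_right, smul_eq_mul] at this
    · intro h
      ext b
      show ψ (polar Q' x (β b)) = 1
      rw [h, AddChar.map_zero_eq_one]
  have h3 : ∑ b, ψ (polar Q' x (β b)) = ∑ b, ((chi ψ Q' x).compAddMonoidHom β.toAddMonoidHom) b := rfl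
  rw [h3, h1]
  simp only [h2]
  split_ifs with h
  · rw [smul_smul, inv_mul_cancel₀ (Nat.cast_ne_zero.2 Fintype.card_ne_zero), one_smul]
  · rw [zero_smul, smul_zero]

include hψ in
theorem mul_sum_wt (T : V →ₗ[ℂ] V) : T = ∑ x : W, T * wt ρ ψ x := by
  rw [← Finset.mul_sum, sum_wt ρ hψ, mul_one]

include hψ in
/-- operators agreeing on all weights -/
theorem ext_wt {T S : V →ₗ[ℂ] V} (h : ∀ x, T * wt ρ ψ x = S * wt ρ ψ x) : T = S := by
  rw [mul_sum_wt ρ hψ T, mul_sum_wt ρ hψ S]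
  exact Finset.sum_congr rfl fun x _ => h x

theorem wt_zero_mul_rho (ψ : AddChar F ℂ) (w : W) : wt ρ ψ 0 * ρ (u hQ w) = wt ρ ψ 0 := by
  rw [wt_zero, av_mul_rho ρ (u_add hQ)]

theorem rho_mul_wt_zero (ψ : AddChar F ℂ) (w : W) : ρ (u hQ w) * wt ρ ψ 0 = wt ρ ψ 0 := by
  rw [wt_zero, rho_mul_av ρ (u_add hQ)]

end gen

/-! ### two planes -/

variable {F W : Type*} [Field F] [Fintype F] [AddCommGroup W] [Module F W] [Fintype W] [FiniteDimensional F W]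
  {Q₂ : QuadraticForm F W} (hQ : Nd Q₂) {V : Type*} [AddCommGroup V] [Module ℂ V]
  (ρ : Representation ℂ (G (nd_hyp hQ)) V) {ψ : AddChar F ℂ} (hψ : ψ ≠ 0)

/-- inclusions -/
noncomputable def iZ (F W : Type*) [Field F] [AddCommGroup W] [Module F W] : F →ₗ[F] (F × F) × W :=
  (LinearMap.inl F (F × F) W).comp (LinearMap.inl F F F)

noncomputable def iU (F W : Type*) [Field F] [AddCommGroup W] [Module F W] : F →ₗ[F] (F × F) × W :=
  (LinearMap.inl F (F × F) W).comp (LinearMap.inr F F F)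

noncomputable def iA (F W : Type*) [Field F] [AddCommGroup W] [Module F W] : W →ₗ[F] (F × F) × W :=
  LinearMap.inr F (F × F) W

omit [Fintype F] [Fintype W] [FiniteDimensional F W] in
theorem iZ_apply (c : F) : iZ F W c = ((c, 0), 0) := rfl
omit [Fintype F] [Fintype W] [FiniteDimensional F W] in
theorem iU_apply (c : F) : iU F W c = ((0, c), 0) := rfl
omit [Fintype F] [Fintype W] [FiniteDimensional F W] in
theorem iA_apply (w : W) : iA F W w = (0, w) := rfl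

/-- the long root group of the line -/
noncomputable def Z : V →ₗ[ℂ] V := av ρ (fun c : F => u (nd_hyp hQ) (iZ F W c))
noncomputable def A0 : V →ₗ[ℂ] V := av ρ (fun w : W => u (nd_hyp hQ) (iA F W w))
noncomputable def U0 : V →ₗ[ℂ] V := av ρ (fun c : F => u (nd_hyp hQ) (iU F W c))
noncomputable def A1 : V →ₗ[ℂ] V := av ρ (a1 hQ)

include hψ in
open Classical in
theorem Z_wt (x : (F × F) × W) : Z hQ ρ * wt ρ ψ x = if x.1.2 = 0 then wt ρ ψ x else 0 := by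
  rw [Z, av_wt ρ hψ (iZ F W) x]
  congr 1
  rw [eq_iff_iff]
  constructor
  · intro h
    have := h 1
    rw [iZ_apply, polar_hyp] at this
    simpa using this
  · intro h b
    rw [iZ_apply, polar_hyp, h]
    simp

include hψ in
open Classical in
theorem U0_wt (x : (F × F) × W) : U0 hQ ρ * wt ρ ψ x = if x.1.1 = 0 then wt ρ ψ x else 0 := by
  rw [U0, av_wt ρ hψ (iU F W) x]
  congr 1
  rw [eq_iff_iff]
  constructor
  · intro h
    have := h 1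
    rw [iU_apply, polar_hyp] at this
    simpa using this
  · intro h b
    rw [iU_apply, polar_hyp, h]
    simp

include hψ in
open Classical in
theorem A0_wt (x : (F × F) × W) : A0 hQ ρ * wt ρ ψ x = if x.2 = 0 then wt ρ ψ x else 0 := by
  rw [A0, av_wt ρ hψ (iA F W) x]
  congr 1
  rw [eq_iff_iff]
  constructor
  · intro h
    apply hQ.eq_zero
    intro y
    have := h y
    rw [iA_apply, polar_hyp] at this
    simpa using this
  · intro h b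
    rw [iA_apply, polar_hyp, h]
    simp

include hψ in
/-- the average over the unipotent radical -/
theorem eV_eq : Z hQ ρ * A0 hQ ρ * U0 hQ ρ = wt ρ ψ 0 := by
  classical
  apply ext_wt ρ hψ
  intro x
  rw [mul_assoc, U0_wt hQ ρ hψ]
  by_cases h0 : x = 0
  · subst h0
    rw [if_pos (by rfl), mul_assoc, A0_wt hQ ρ hψ, if_pos (by rfl), Z_wt hQ ρ hψ, if_pos (by rfl), wt_idem]
  · rw [wt_orth ρ hψ (Ne.symm h0)]
    split_ifs with h1
    · rw [mul_assoc, A0_wt hQ ρ hψ]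
      split_ifs with h2
      · rw [Z_wt hQ ρ hψ, if_neg]
        intro h3
        exact h0 (Prod.ext (Prod.ext h1 h3) h2)
      · rw [mul_zero]
    · rw [mul_zero]

include hψ in
theorem Z_mul_wt_zero : Z hQ ρ * wt ρ ψ 0 = wt ρ ψ 0 := by
  rw [Z_wt hQ ρ hψ, if_pos (by rfl)]

include hψ in
theorem A0_mul_wt_zero : A0 hQ ρ * wt ρ ψ 0 = wt ρ ψ 0 := by
  rw [A0_wt hQ ρ hψ, if_pos (by rfl)]

theorem av_u_comm {A B : Type*} [Fintype A] [Fintype B] (f : A → (F × F) × W) (g : B → (F × F) × W) :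
    av ρ (fun a => u (nd_hyp hQ) (f a)) * av ρ (fun b => u (nd_hyp hQ) (g b)) =
      av ρ (fun b => u (nd_hyp hQ) (g b)) * av ρ (fun a => u (nd_hyp hQ) (f a)) := by
  rw [← av_prod, ← av_prod, ← av_equiv ρ (Equiv.prodComm A B) (fun p : B × A => u (nd_hyp hQ) (g p.1) * u (nd_hyp hQ) (f p.2))]
  congr 1
  funext p
  show _ = u (nd_hyp hQ) (g p.2) * u (nd_hyp hQ) (f p.1)
  rw [← u_add, ← u_add, add_comm]

theorem Z_A0 : Z hQ ρ * A0 hQ ρ = A0 hQ ρ * Z hQ ρ := av_u_comm hQ ρ _ _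
theorem Z_U0 : Z hQ ρ * U0 hQ ρ = U0 hQ ρ * Z hQ ρ := av_u_comm hQ ρ _ _
theorem A0_U0 : A0 hQ ρ * U0 hQ ρ = U0 hQ ρ * A0 hQ ρ := av_u_comm hQ ρ _ _

theorem iZ_hadd (a b : F) : u (nd_hyp hQ) (iZ F W (a + b)) = u (nd_hyp hQ) (iZ F W a) * u (nd_hyp hQ) (iZ F W b) := by
  rw [map_add, u_add]
theorem iA_hadd (a b : W) : u (nd_hyp hQ) (iA F W (a + b)) = u (nd_hyp hQ) (iA F W a) * u (nd_hyp hQ) (iA F W b) := by
  rw [map_add, u_add]
theorem iU_hadd (a b : F) : u (nd_hyp hQ) (iU F W (a + b)) = u (nd_hyp hQ) (iU F W a) * u (nd_hyp hQ) (iU F W b) := by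
  rw [map_add, u_add]

theorem Z_idem : Z hQ ρ * Z hQ ρ = Z hQ ρ := av_idem ρ (iZ_hadd hQ)
theorem A0_idem : A0 hQ ρ * A0 hQ ρ = A0 hQ ρ := av_idem ρ (iA_hadd hQ)
theorem U0_idem : U0 hQ ρ * U0 hQ ρ = U0 hQ ρ := av_idem ρ (iU_hadd hQ)
theorem A1_idem : A1 hQ ρ * A1 hQ ρ = A1 hQ ρ := av_idem ρ (a1_add hQ)

/-- `Z A0` absorbs the elements of its group -/
theorem ZA0_absorb (c : F) (w : W) : Z hQ ρ * A0 hQ ρ * ρ (u (nd_hyp hQ) ((c, 0), w)) = Z hQ ρ * A0 hQ ρ := by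
  have e : (((c, 0), w) : (F × F) × W) = iZ F W c + iA F W w := by
    rw [iZ_apply, iA_apply]; simp
  rw [e, u_add, map_mul, Z_A0]
  rw [mul_assoc (A0 hQ ρ), ← mul_assoc (Z hQ ρ)]
  have h1 : Z hQ ρ * ρ (u (nd_hyp hQ) (iZ F W c)) = Z hQ ρ := av_mul_rho ρ (iZ_hadd hQ) c
  rw [h1, ← mul_assoc, ← Z_A0, mul_assoc]
  have h2 : A0 hQ ρ * ρ (u (nd_hyp hQ) (iA F W w)) = A0 hQ ρ := av_mul_rho ρ (iA_hadd hQ) w
  rw [h2]

theorem absorb_ZA0 (c : F) (w : W) : ρ (u (nd_hyp hQ) ((c, 0), w)) * (Z hQ ρ * A0 hQ ρ) = Z hQ ρ * A0 hQ ρ := by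
  have e : (((c, 0), w) : (F × F) × W) = iA F W w + iZ F W c := by
    rw [iZ_apply, iA_apply]; simp
  rw [e, u_add, map_mul, mul_assoc, ← mul_assoc (ρ (u (nd_hyp hQ) (iZ F W c)))]
  have h1 : ρ (u (nd_hyp hQ) (iZ F W c)) * Z hQ ρ = Z hQ ρ :=
    rho_mul_av (u := fun c : F => u (nd_hyp hQ) (iZ F W c)) ρ (iZ_hadd hQ) c
  rw [h1, Z_A0, ← mul_assoc]
  have h2 : ρ (u (nd_hyp hQ) (iA F W w)) * A0 hQ ρ = A0 hQ ρ :=
    rho_mul_av (u := fun w : W => u (nd_hyp hQ) (iA F W w)) ρ (iA_hadd hQ) w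
  rw [h2]

/-- conjugating `u` by `a1` -/
theorem a1_conj_u (w : W) (x : (F × F) × W) :
    a1 hQ w * u (nd_hyp hQ) x * (a1 hQ w)⁻¹ =
      u (nd_hyp hQ) (x + x.1.2 • ((0 : F × F), w) - (polar Q₂ w x.2 + Q₂ w * x.1.2) • e0) := by
  have h := conj_u (nd_hyp hQ) (g := a1 hQ w) (c := 1) one_ne_zero (by rw [one_smul]; exact a1_e0 hQ w) x
  rw [one_smul, a1_snd] at h
  exact h

theorem a1_Z (w : W) : ρ (a1 hQ w) * Z hQ ρ = Z hQ ρ * ρ (a1 hQ w) := by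
  have h1 := av_conj ρ (fun c : F => u (nd_hyp hQ) (iZ F W c)) (a1 hQ w)
  have h2 : (fun c : F => a1 hQ w * u (nd_hyp hQ) (iZ F W c) * (a1 hQ w)⁻¹) = fun c : F => u (nd_hyp hQ) (iZ F W c) := by
    funext c
    rw [a1_conj_u, iZ_apply]
    congr 1
    simp
  rw [h2] at h1
  calc ρ (a1 hQ w) * Z hQ ρ = ρ (a1 hQ w) * Z hQ ρ * (ρ (a1 hQ w)⁻¹ * ρ (a1 hQ w)) := by rw [rho_inv_mul, mul_one]
    _ = (ρ (a1 hQ w) * Z hQ ρ * ρ (a1 hQ w)⁻¹) * ρ (a1 hQ w) := by simp only [mul_assoc]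
    _ = _ := by unfold Z; rw [h1]

theorem Z_A1 : Z hQ ρ * A1 hQ ρ = A1 hQ ρ * Z hQ ρ := by
  unfold A1
  conv_lhs => unfold av
  conv_rhs => enter [1]; unfold av
  rw [mul_smul_comm, smul_mul_assoc, Finset.mul_sum, Finset.sum_mul]
  congr 1
  exact Finset.sum_congr rfl fun w _ => (a1_Z hQ ρ w).symm

/-- `a1` normalises `Z A0` -/
theorem a1_ZA0 (w : W) : ρ (a1 hQ w) * (Z hQ ρ * A0 hQ ρ) = Z hQ ρ * A0 hQ ρ * ρ (a1 hQ w) := by
  have h0 : Z hQ ρ * A0 hQ ρ = Z hQ ρ * A0 hQ ρ := rfl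
  have key : ρ (a1 hQ w) * A0 hQ ρ * ρ (a1 hQ w)⁻¹ = av ρ (fun y : W => u (nd_hyp hQ) (iZ F W (- polar Q₂ w y)) * u (nd_hyp hQ) (iA F W y)) := by
    unfold A0
    rw [av_conj]
    congr 1
    funext y
    rw [a1_conj_u, ← u_add, iA_apply, iZ_apply]
    congr 1
    simp [e0]
  have h1 : Z hQ ρ * (ρ (a1 hQ w) * A0 hQ ρ * ρ (a1 hQ w)⁻¹) = Z hQ ρ * A0 hQ ρ := by
    rw [key]
    conv_lhs => enter [2]; unfold av
    conv_rhs => enter [2]; unfold A0 av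
    rw [mul_smul_comm, mul_smul_comm, Finset.mul_sum, Finset.mul_sum]
    congr 1
    refine Finset.sum_congr rfl fun y _ => ?_
    rw [map_mul, ← mul_assoc]
    have h2 : Z hQ ρ * ρ (u (nd_hyp hQ) (iZ F W (- polar Q₂ w y))) = Z hQ ρ := av_mul_rho ρ (iZ_hadd hQ) _
    rw [h2]
  calc ρ (a1 hQ w) * (Z hQ ρ * A0 hQ ρ) = Z hQ ρ * (ρ (a1 hQ w) * A0 hQ ρ) := by rw [← mul_assoc, a1_Z, mul_assoc]
    _ = Z hQ ρ * (ρ (a1 hQ w) * A0 hQ ρ * ρ (a1 hQ w)⁻¹) * ρ (a1 hQ w) := by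
      rw [mul_assoc (Z hQ ρ), mul_assoc (ρ (a1 hQ w) * A0 hQ ρ), rho_inv_mul, mul_one]
    _ = _ := by rw [h1]

theorem ZA0_A1 : Z hQ ρ * A0 hQ ρ * A1 hQ ρ = A1 hQ ρ * (Z hQ ρ * A0 hQ ρ) := by
  unfold A1
  conv_lhs => enter [2]; unfold av
  conv_rhs => enter [1]; unfold av
  rw [mul_smul_comm, smul_mul_assoc, Finset.mul_sum, Finset.sum_mul]
  congr 1
  exact Finset.sum_congr rfl fun w _ => (a1_ZA0 hQ ρ w).symm

/-- the projection on the fixed points of the unipotent radical of the line stabiliser -/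
noncomputable def eR : V →ₗ[ℂ] V := Z hQ ρ * A0 hQ ρ * A1 hQ ρ

theorem ZA0_idem : Z hQ ρ * A0 hQ ρ * (Z hQ ρ * A0 hQ ρ) = Z hQ ρ * A0 hQ ρ := by
  rw [Z_A0, mul_assoc, ← mul_assoc (Z hQ ρ), Z_A0, mul_assoc, Z_idem, ← mul_assoc, A0_idem]

theorem eR_idem : eR hQ ρ * eR hQ ρ = eR hQ ρ := by
  unfold eR
  conv_lhs => enter [1]; rw [ZA0_A1]
  rw [mul_assoc, ← mul_assoc (Z hQ ρ * A0 hQ ρ), ZA0_idem, ZA0_A1, ← mul_assoc, A1_idem]

/-- `ZA0` absorbed by `eR` -/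
theorem eR_ZA0 : eR hQ ρ * (Z hQ ρ * A0 hQ ρ) = eR hQ ρ := by
  unfold eR
  rw [mul_assoc, ← ZA0_A1, ← mul_assoc, ZA0_idem]

end Cfsg.Agent.Lib.OmTr
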