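import Cfsg.Agent.Lib.OmHyp

/-!
# Weights of the point unipotent radical of an orthogonal group (helper83)
-/

set_option autoImplicit false
set_option linter.all false

namespace Cfsg.Agent.Lib.OmWt

open Cfsg.Agent.Lib.Quad Cfsg.Agent.Lib.ClOrthSiegel QuadraticMap Module AvgTrace OmHyp

section gen

variable {G V A : Type*} [Group G] [AddCommGroup V] [Module ℂ V] [Fintype A] [AddCommGroup A] {u : A → G}

theorem ew_conj' (ρ : Representation ℂ G V) (hinj : Function.Injective u) {g : G} {ψ φ : AddChar A ℂ}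
    (h : ∀ a, ∃ b, g * u a * g⁻¹ = u b ∧ φ b = ψ a) : ρ g * ew ρ u ψ * ρ g⁻¹ = ew ρ u φ := by
  choose σ hσ1 hσ2 using h
  have h1 : Function.Injective σ := by
    intro a b hab
    have h2 : g * u a * g⁻¹ = g * u b * g⁻¹ := by rw [hσ1, hσ1, hab]
    exact hinj (mul_left_cancel (mul_right_cancel h2))
  unfold ew
  rw [mul_smul_comm, smul_mul_assoc, Finset.mul_sum, Finset.sum_mul]
  congr 1
  rw [← Equiv.sum_comp (Equiv.ofBijective σ (Finite.injective_iff_bijective.1 h1)) (fun b => φ (-b) • ρ (u b))]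
  refine Finset.sum_congr rfl fun b _ => ?_
  rw [mul_smul_comm, smul_mul_assoc, ← map_mul, ← map_mul, hσ1]
  congr 1
  show ψ (-b) = φ (-(σ b))
  rw [AddChar.map_neg_eq_inv, AddChar.map_neg_eq_inv, hσ2]

end gen

variable {F W : Type*} [Field F] [Fintype F] [AddCommGroup W] [Module F W] [Fintype W] [FiniteDimensional F W]
  {Q' : QuadraticForm F W}

section grp

variable (hQ : Nd Q')

/-- the group -/
abbrev G : Type _ := ↥(T (nd_hyp hQ))

/-- Siegel elements -/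
noncomputable def el (z y : (F × F) × W) : G hQ := ⟨E (nd_hyp hQ) z y, E_mem_T _ _ _⟩

/-- the point unipotent radical -/
noncomputable def u (w : W) : G hQ := el hQ e0 (0, w)

theorem g_mem (g : G hQ) : g.1 ∈ O (hyp Q') := T_le _ g.2

theorem g_Q (g : G hQ) (v : (F × F) × W) : hyp Q' (g.1 v) = hyp Q' v := g_mem hQ g v

theorem g_polar (g : G hQ) (v w : (F × F) × W) : polar (hyp Q') (g.1 v) (g.1 w) = polar (hyp Q') v w :=
  O_polar (g_mem hQ g) v w

theorem conj_el (g : G hQ) (z y : (F × F) × W) : g * el hQ z y * g⁻¹ = el hQ (g.1 z) (g.1 y) :=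
  Subtype.ext (E_conj _ (g_mem hQ g) z y)

omit [Fintype F] [Fintype W] [FiniteDimensional F W] in
theorem Q_e0 : hyp Q' (e0 : (F × F) × W) = 0 := by simp [hyp_apply, e0]

omit [Fintype F] [Fintype W] [FiniteDimensional F W] in
theorem polar_e0 (v : (F × F) × W) : polar (hyp Q') e0 v = v.1.2 := by simp [polar_hyp, e0]

omit [Fintype F] [Fintype W] [FiniteDimensional F W] in
theorem polar_e0j (w : W) : polar (hyp Q') e0 ((0 : F × F), w) = 0 := by rw [polar_e0]; rfl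

theorem el_add {z y y' : (F × F) × W} (hy : polar (hyp Q') z y = 0) (hy' : polar (hyp Q') z y' = 0) :
    el hQ z y * el hQ z y' = el hQ z (y + y') := Subtype.ext (E_add _ hy hy')

theorem el_zero (z : (F × F) × W) : el hQ z 0 = 1 := Subtype.ext (E_zero _ z)

theorem u_add (w w' : W) : u hQ (w + w') = u hQ w * u hQ w' := by
  unfold u
  rw [el_add hQ (polar_e0j w) (polar_e0j w')]
  congr 1
  simp

theorem u_zero : u hQ (0 : W) = 1 := el_zero hQ e0

theorem u_inj : Function.Injective (u hQ) := by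
  intro w w' h
  have h1 := congrArg (fun g : G hQ => (g.1 f0).2) h
  have key : ∀ w : W, ((u hQ w).1 f0).2 = w := by
    intro w
    show (E (nd_hyp hQ) e0 (0, w) f0).2 = w
    rw [E_apply (nd_hyp hQ) Q_e0 (polar_e0j w), polar_e0]
    simp [f0, e0]
  simpa only [key] using h1

theorem conj_u {g : G hQ} {c : F} (hc : c ≠ 0) (hg : g.1 e0 = c • e0) (w : W) :
    g * u hQ w * g⁻¹ = u hQ (c • (g.1 (0, w)).2) := by
  have h1 : (g.1 (0, w)).1.2 = 0 := by
    have h2 := g_polar hQ g e0 (0, w)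
    rw [hg, polar_smul_left, polar_e0, polar_e0, smul_eq_mul] at h2
    exact (mul_eq_zero.1 h2).resolve_left hc
  unfold u
  rw [conj_el, hg]
  apply Subtype.ext
  show E (nd_hyp hQ) (c • e0) (g.1 (0, w)) = E (nd_hyp hQ) e0 (0, c • (g.1 (0, w)).2)
  rw [E_smul _ hc]
  have h3 : c • g.1 (0, w) = (0, c • (g.1 (0, w)).2) + (c * (g.1 (0, w)).1.1) • e0 := by
    refine Prod.ext (Prod.ext ?_ ?_) ?_
    · simp [e0]
    · simp [e0, h1]
    · simp [e0]
  rw [h3, E_add_smul _ Q_e0 (polar_e0j _)]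

end grp

/-! ### characters -/

/-- the character of `W` attached to a vector -/
noncomputable def chi (ψ : AddChar F ℂ) (Q' : QuadraticForm F W) (x : W) : AddChar W ℂ :=
  ψ.compAddMonoidHom (polarBilin Q' x).toAddMonoidHom

theorem chi_apply (ψ : AddChar F ℂ) (x w : W) : chi ψ Q' x w = ψ (polar Q' x w) := rfl

theorem prim {ψ : AddChar F ℂ} (hψ : ψ ≠ 0) {c : F} (hc : ∀ x, ψ (x * c) = 1) : c = 0 := by
  by_contra hc0
  apply hψ
  ext x
  have := hc (x * c⁻¹)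
  rw [inv_mul_cancel_right₀ hc0] at this
  exact this

theorem exists_char (F : Type*) [Field F] [Fintype F] : ∃ ψ : AddChar F ℂ, ψ ≠ 0 := by
  have h1 : Fintype.card (AddChar F ℂ) = Fintype.card F := AddChar.card_eq
  have h2 : 1 < Fintype.card F := Fintype.one_lt_card
  rw [← h1] at h2
  haveI := Fintype.one_lt_card_iff_nontrivial.1 h2
  exact exists_ne 0

theorem eq_zero_of_chi (hQ : Nd Q') {ψ : AddChar F ℂ} (hψ : ψ ≠ 0) {x : W} (h : ∀ w, ψ (polar Q' x w) = 1) : x = 0 := by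
  apply hQ.eq_zero
  intro y
  apply prim hψ
  intro c
  have := h (c • y)
  rwa [polar_smul_right, smul_eq_mul] at this

theorem chi_zero (ψ : AddChar F ℂ) : chi ψ Q' 0 = 0 := by
  ext w
  rw [chi_apply, polar_zero_left, AddChar.map_zero_eq_one]
  rfl

theorem chi_inj (hQ : Nd Q') {ψ : AddChar F ℂ} (hψ : ψ ≠ 0) : Function.Injective (chi ψ Q') := by
  intro x y h
  rw [← sub_eq_zero]
  apply eq_zero_of_chi hQ hψ
  intro w
  have h1 : ψ (polar Q' x w) = ψ (polar Q' y w) := DFunLike.congr_fun h w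
  rw [polar_sub_left, AddChar.map_sub_eq_div, h1, div_self]
  intro h2
  have h3 := AddChar.map_add_eq_mul ψ (polar Q' y w) (-(polar Q' y w))
  rw [add_neg_cancel, AddChar.map_zero_eq_one, h2, zero_mul] at h3
  exact one_ne_zero h3

/-- characters are vectors -/
noncomputable def chiE (hQ : Nd Q') {ψ : AddChar F ℂ} (hψ : ψ ≠ 0) : W ≃ AddChar W ℂ :=
  Equiv.ofBijective (chi ψ Q') ((Fintype.bijective_iff_injective_and_card _).2 ⟨chi_inj hQ hψ, AddChar.card_eq.symm⟩)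

theorem chiE_apply (hQ : Nd Q') {ψ : AddChar F ℂ} (hψ : ψ ≠ 0) (x : W) : chiE hQ hψ x = chi ψ Q' x := rfl

section rep

variable {V : Type*} [AddCommGroup V] [Module ℂ V] {hQ : Nd Q'} (ρ : Representation ℂ (G hQ) V) {ψ : AddChar F ℂ} (hψ : ψ ≠ 0)

/-- the weight idempotent -/
noncomputable def wt (ψ : AddChar F ℂ) (x : W) : V →ₗ[ℂ] V := ew ρ (u hQ) (chi ψ Q' x)

theorem wt_zero (ψ : AddChar F ℂ) : wt ρ ψ 0 = av ρ (u hQ) := by rw [wt, chi_zero, ew_zero]

theorem wt_idem (ψ : AddChar F ℂ) (x : W) : wt ρ ψ x * wt ρ ψ x = wt ρ ψ x := ew_mul_self ρ (u_add hQ) _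

include hψ in
theorem wt_orth {x y : W} (h : x ≠ y) : wt ρ ψ x * wt ρ ψ y = 0 :=
  ew_mul_ne ρ (u_add hQ) (fun e => h (chi_inj hQ hψ e))

include hψ in
theorem sum_wt : ∑ x : W, wt ρ ψ x = 1 := by
  rw [← sum_ew ρ (u_zero hQ), ← Equiv.sum_comp (chiE hQ hψ)]
  rfl

theorem rho_wt (ψ : AddChar F ℂ) (x w : W) : ρ (u hQ w) * wt ρ ψ x = ψ (polar Q' x w) • wt ρ ψ x :=
  rho_mul_ew ρ (u_add hQ) _ w

/-- conjugation of weights -/
theorem wt_conj (ψ : AddChar F ℂ) {g : G hQ} {c : F} (hc : c ≠ 0) (hg : g.1 e0 = c • e0) (x : W) :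
    ρ g * wt ρ ψ x * ρ g⁻¹ = wt ρ ψ (c⁻¹ • (g.1 (0, x)).2) := by
  apply ew_conj' ρ (u_inj hQ)
  intro w
  refine ⟨c • (g.1 (0, w)).2, conj_u hQ hc hg w, ?_⟩
  rw [chi_apply, chi_apply, polar_smul_left, polar_smul_right, smul_eq_mul, smul_eq_mul, inv_mul_cancel_left₀ hc]
  have h1 : ∀ w, (g.1 (0, w)).1.2 = 0 := by
    intro w
    have h2 := g_polar hQ g e0 (0, w)
    rw [hg, polar_smul_left, polar_e0, polar_e0, smul_eq_mul] at h2
    exact (mul_eq_zero.1 h2).resolve_left hc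
  have h2 := g_polar hQ g (0, x) (0, w)
  rw [polar_hyp, polar_hyp, h1, h1] at h2
  congr 1
  simpa using h2

theorem wt_conj_one (ψ : AddChar F ℂ) {g : G hQ} (hg : g.1 e0 = e0) (x : W) :
    ρ g * wt ρ ψ x * ρ g⁻¹ = wt ρ ψ (g.1 (0, x)).2 := by
  have h := wt_conj ρ ψ (g := g) (c := 1) one_ne_zero (by rw [one_smul, hg]) x
  rwa [inv_one, one_smul] at h

theorem wt_comm (ψ : AddChar F ℂ) {g : G hQ} (hg : g.1 e0 = e0) {x : W} (hx : (g.1 (0, x)).2 = x) :
    ρ g * wt ρ ψ x = wt ρ ψ x * ρ g := by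
  have h := wt_conj_one ρ ψ hg x
  rw [hx] at h
  conv_rhs => rw [← h]
  rw [mul_assoc, rho_inv_mul, mul_one]

variable [FiniteDimensional ℂ V]

theorem trace_conj {G' V' : Type*} [Group G'] [AddCommGroup V'] [Module ℂ V'] [FiniteDimensional ℂ V']
    (ρ : Representation ℂ G' V') (g : G') (T : V' →ₗ[ℂ] V') :
    LinearMap.trace ℂ V' (ρ g * T * ρ g⁻¹) = LinearMap.trace ℂ V' T := by
  rw [LinearMap.trace_mul_comm, ← mul_assoc, rho_inv_mul, one_mul]

theorem trace_wt_conj (ψ : AddChar F ℂ) {g : G hQ} {c : F} (hc : c ≠ 0) (hg : g.1 e0 = c • e0) (x : W) :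
    LinearMap.trace ℂ V (wt ρ ψ (c⁻¹ • (g.1 (0, x)).2)) = LinearMap.trace ℂ V (wt ρ ψ x) := by
  rw [← wt_conj ρ ψ hc hg, trace_conj]

include hψ in
/-- elements moving a weight have trace zero on it -/
theorem trace_move {g : G hQ} (hg : g.1 e0 = e0) {x : W} (hx : (g.1 (0, x)).2 ≠ x) :
    LinearMap.trace ℂ V (ρ g * wt ρ ψ x) = 0 := by
  have h := wt_conj_one ρ ψ hg x
  have h1 : ρ g * wt ρ ψ x = wt ρ ψ (g.1 (0, x)).2 * ρ g := by
    rw [← h, mul_assoc, rho_inv_mul, mul_one]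
  rw [← wt_idem, ← mul_assoc, LinearMap.trace_mul_comm, ← mul_assoc]
  rw [mul_assoc, h1, ← mul_assoc, wt_orth ρ hψ (Ne.symm hx), zero_mul, map_zero]

end rep

end Cfsg.Agent.Lib.OmWt
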