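import Mathlib
import Cfsg.Agent.Lib.LocBase

/-!
# Groups of order 320 (helper51)
-/

set_option autoImplicit false

namespace Cfsg.Agent.Lib.Ord320

open Subgroup
open scoped commutatorElement
open Cfsg.Agent.Lib

theorem card_closure_insert {G : Type*} [Group G] [Finite G] (S : Set G) (y : G) (m : ℕ) (hm : 0 < m)
    (h1 : ∀ s ∈ S, y * s * y⁻¹ ∈ closure S) (h2 : y ^ m ∈ closure S) :
    Nat.card (closure (insert y S)) ≤ m * Nat.card (closure S) := by
  have hn : y ∈ normalizer (closure S : Set G) := by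
    apply LocBase.mem_normalizer_of_map_conj_le
    rw [MonoidHom.map_closure, closure_le]
    rintro _ ⟨s, hs, rfl⟩
    exact h1 s hs
  have hsub : ∀ z ∈ closure (insert y S), ∃ (i : Fin m) (k : closure S), y ^ (i : ℕ) * k = z := by
    intro z hz
    have hz' : z ∈ zpowers y ⊔ closure S := by
      have : closure (insert y S) = zpowers y ⊔ closure S := by
        rw [zpowers_eq_closure, ← Subgroup.closure_union]; rfl
      rwa [this] at hz
    rw [← SetLike.mem_coe, coe_mul_of_left_le_normalizer_right _ _ (zpowers_le.mpr hn)] at hz'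
    obtain ⟨_, ⟨n, rfl⟩, k, hk, rfl⟩ := hz'
    have hm' : (m : ℤ) ≠ 0 := by exact_mod_cast hm.ne'
    have e1 : y ^ n = y ^ (n % m).toNat * (y ^ m) ^ (n / m) := by
      have h3 := Int.emod_nonneg n hm'
      rw [← zpow_natCast y (n % m).toNat, Int.toNat_of_nonneg h3, ← zpow_natCast y m, ← zpow_mul, ← zpow_add,
        Int.emod_add_mul_ediv]
    have hlt : (n % m).toNat < m := by
      have h3 := Int.emod_lt_of_pos n (by exact_mod_cast hm : (0 : ℤ) < m)
      have h4 := Int.emod_nonneg n hm'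
      omega
    refine ⟨⟨(n % m).toNat, hlt⟩, ⟨(y ^ m) ^ (n / m) * k, mul_mem (zpow_mem h2 _) hk⟩, ?_⟩
    show y ^ (n % m).toNat * ((y ^ m) ^ (n / m) * k) = y ^ n * k
    rw [e1]; group
  let f : Fin m × closure S → G := fun p => y ^ (p.1 : ℕ) * p.2
  have hr : (closure (insert y S) : Set G) ⊆ Set.range f := by
    intro z hz
    obtain ⟨i, k, h⟩ := hsub z hz
    exact ⟨(i, k), h⟩
  calc Nat.card (closure (insert y S)) = (closure (insert y S) : Set G).ncard := rfl
    _ ≤ (Set.range f).ncard := Set.ncard_le_ncard hr (Set.toFinite _)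
    _ ≤ Nat.card (Fin m × closure S) := by
        rw [← Set.image_univ]
        exact (Set.ncard_image_le (Set.toFinite _)).trans (by rw [Set.ncard_univ])
    _ = m * Nat.card (closure S) := by rw [Nat.card_prod, Nat.card_fin]

/-- the relations -/
structure Dt {G : Type*} [Group G] (x g b c : G) : Prop where
  g5 : g ^ 5 = 1
  bb : b * b = 1
  cc : c * c = 1
  bx : b * x = x * b
  bg : b * g = g * b
  cx : c * x = x * c
  cg : c * g = g * c
  bc : b * c = c * b
  xx : x * x = b * c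
  k1 : ⁅g * x * g⁻¹, x⁆ = b
  k2 : ⁅g ^ 2 * x * (g ^ 2)⁻¹, x⁆ = c
  pr : x * (g * x * g⁻¹) * (g ^ 2 * x * (g ^ 2)⁻¹) * (g ^ 3 * x * (g ^ 3)⁻¹) * (g ^ 4 * x * (g ^ 4)⁻¹) = 1

variable {G : Type*} [Group G] {x g b c : G}

theorem Dt.comm_pow (h : Dt x g b c) (n : ℕ) : b * g ^ n = g ^ n * b ∧ c * g ^ n = g ^ n * c :=
  ⟨(Commute.pow_right (h.bg : Commute b g) n), (Commute.pow_right (h.cg : Commute c g) n)⟩

theorem Dt.comm_X (h : Dt x g b c) (n : ℕ) :
    b * (g ^ n * x * (g ^ n)⁻¹) = (g ^ n * x * (g ^ n)⁻¹) * b ∧ c * (g ^ n * x * (g ^ n)⁻¹) = (g ^ n * x * (g ^ n)⁻¹) * c := by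
  have h1 : Commute b (g ^ n) := (h.comm_pow n).1
  have h2 : Commute c (g ^ n) := (h.comm_pow n).2
  exact ⟨(h1.mul_right h.bx).mul_right h1.inv_right, (h2.mul_right h.cx).mul_right h2.inv_right⟩

theorem Dt.kX1 (h : Dt x g b c) (n : ℕ) :
    ⁅g ^ (n + 1) * x * (g ^ (n + 1))⁻¹, g ^ n * x * (g ^ n)⁻¹⁆ = b := by
  have h1 : ⁅g ^ (n + 1) * x * (g ^ (n + 1))⁻¹, g ^ n * x * (g ^ n)⁻¹⁆ = g ^ n * ⁅g * x * g⁻¹, x⁆ * (g ^ n)⁻¹ := by
    simp only [commutatorElement_def, pow_succ]; group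
  rw [h1, h.k1, ← (h.comm_pow n).1]; group

theorem Dt.kX2 (h : Dt x g b c) (n : ℕ) :
    ⁅g ^ (n + 2) * x * (g ^ (n + 2))⁻¹, g ^ n * x * (g ^ n)⁻¹⁆ = c := by
  have h1 : ⁅g ^ (n + 2) * x * (g ^ (n + 2))⁻¹, g ^ n * x * (g ^ n)⁻¹⁆ = g ^ n * ⁅g ^ 2 * x * (g ^ 2)⁻¹, x⁆ * (g ^ n)⁻¹ := by
    simp only [commutatorElement_def, pow_add]; group
  rw [h1, h.k2, ← (h.comm_pow n).2]; group

theorem Dt.kX3 (h : Dt x g b c) : ⁅g ^ 3 * x * (g ^ 3)⁻¹, x⁆ = c := by
  have h1 := h.kX2 3
  have h2 : g ^ (3 + 2) * x * (g ^ (3 + 2))⁻¹ = x := by rw [show 3 + 2 = 5 from rfl, h.g5]; group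
  rw [h2] at h1
  rw [← commutatorElement_inv, h1]
  exact inv_eq_of_mul_eq_one_left h.cc

theorem conj_of_comm {u v k : G} (h : ⁅u, v⁆ = k) : u * v * u⁻¹ = k * v := by
  rw [← h, commutatorElement_def]; group

theorem Dt.card_le [Finite G] (h : Dt x g b c) : Nat.card (closure ({x, g} : Set G)) ≤ 320 := by
  set X1 := g * x * g⁻¹ with hX1
  set X2 := g ^ 2 * x * (g ^ 2)⁻¹ with hX2
  set X3 := g ^ 3 * x * (g ^ 3)⁻¹ with hX3
  set X4 := g ^ 4 * x * (g ^ 4)⁻¹ with hX4
  have hsq : ∀ n : ℕ, (g ^ n * x * (g ^ n)⁻¹) ^ 2 = b * c := by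
    intro n
    have h1 : (g ^ n * x * (g ^ n)⁻¹) ^ 2 = g ^ n * (x * x) * (g ^ n)⁻¹ := by rw [pow_two]; group
    rw [h1, h.xx, ← mul_assoc, ← (h.comm_pow n).1, mul_assoc b, ← (h.comm_pow n).2]; group
  have hX1' : X1 = g ^ 1 * x * (g ^ 1)⁻¹ := by rw [hX1, pow_one]
  have h10 : ⁅X1, x⁆ = b := h.k1
  have h20 : ⁅X2, x⁆ = c := h.k2
  have h30 : ⁅X3, x⁆ = c := h.kX3
  have h21 : ⁅X2, X1⁆ = b := by rw [hX1']; exact h.kX1 1
  have h31 : ⁅X3, X1⁆ = c := by rw [hX1']; exact h.kX2 1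
  have h32 : ⁅X3, X2⁆ = b := h.kX1 2
  have cb1 : ∀ n, (g ^ n * x * (g ^ n)⁻¹) * b * (g ^ n * x * (g ^ n)⁻¹)⁻¹ = b := by
    intro n; rw [← (h.comm_X n).1]; group
  have cc1 : ∀ n, (g ^ n * x * (g ^ n)⁻¹) * c * (g ^ n * x * (g ^ n)⁻¹)⁻¹ = c := by
    intro n; rw [← (h.comm_X n).2]; group
  let S0 : Set G := insert b ∅
  let S1 : Set G := insert c S0
  let S2 : Set G := insert x S1
  let S3 : Set G := insert X1 S2
  let S4 : Set G := insert X2 S3
  let S5 : Set G := insert X3 S4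
  let S6 : Set G := insert g S5
  have m01 : S0 ⊆ S1 := Set.subset_insert _ _
  have m12 : S1 ⊆ S2 := Set.subset_insert _ _
  have m23 : S2 ⊆ S3 := Set.subset_insert _ _
  have m34 : S3 ⊆ S4 := Set.subset_insert _ _
  have m45 : S4 ⊆ S5 := Set.subset_insert _ _
  have hb1 : b ∈ S1 := m01 (Set.mem_insert _ _)
  have hc1 : c ∈ S1 := Set.mem_insert _ _
  have c0 : Nat.card (closure S0) ≤ 2 := by
    have h0 := card_closure_insert (∅ : Set G) b 2 (by norm_num) (by simp) (by rw [pow_two, h.bb]; exact one_mem _)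
    have h1 : Nat.card (closure (∅ : Set G)) = 1 := by rw [Subgroup.closure_empty]; exact card_bot
    rw [h1] at h0
    exact h0
  have c1 : Nat.card (closure S1) ≤ 4 := by
    have h0 := card_closure_insert S0 c 2 (by norm_num) (by
      intro s hs
      rcases hs with rfl | hs
      · rw [← h.bc]
        have : s * c * c⁻¹ = s := by group
        rw [this]; exact Subgroup.subset_closure (Set.mem_insert _ _)
      · exact absurd hs (Set.notMem_empty _)) (by rw [pow_two, h.cc]; exact one_mem _)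
    exact h0.trans (by omega)
  have hbc1 : b * c ∈ closure S1 := mul_mem (Subgroup.subset_closure hb1) (Subgroup.subset_closure hc1)
  have c2 : Nat.card (closure S2) ≤ 8 := by
    have h0 := card_closure_insert S1 x 2 (by norm_num) (by
      intro s hs
      rcases hs with rfl | rfl | hs
      · rw [← h.cx]
        have : s * x * x⁻¹ = s := by group
        rw [this]; exact Subgroup.subset_closure hc1
      · rw [← h.bx]
        have : s * x * x⁻¹ = s := by group
        rw [this]; exact Subgroup.subset_closure hb1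
      · exact absurd hs (Set.notMem_empty _)) (by rw [pow_two, h.xx]; exact hbc1)
    exact h0.trans (by omega)
  have hb2 : b ∈ closure S2 := Subgroup.subset_closure (m12 hb1)
  have hc2 : c ∈ closure S2 := Subgroup.subset_closure (m12 hc1)
  have hx2 : x ∈ closure S2 := Subgroup.subset_closure (Set.mem_insert _ _)
  have c3 : Nat.card (closure S3) ≤ 16 := by
    have h0 := card_closure_insert S2 X1 2 (by norm_num) (by
      intro s hs
      rcases hs with rfl | rfl | rfl | hs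
      · rw [conj_of_comm h10]; exact mul_mem hb2 hx2
      · rw [hX1', cc1 1]; exact hc2
      · rw [hX1', cb1 1]; exact hb2
      · exact absurd hs (Set.notMem_empty _)) (by rw [hX1', hsq 1]; exact mul_mem hb2 hc2)
    exact h0.trans (by omega)
  have hb3 : b ∈ closure S3 := Subgroup.subset_closure (m23 (m12 hb1))
  have hc3 : c ∈ closure S3 := Subgroup.subset_closure (m23 (m12 hc1))
  have hx3 : x ∈ closure S3 := Subgroup.subset_closure (m23 (Set.mem_insert _ _))
  have hX13 : X1 ∈ closure S3 := Subgroup.subset_closure (Set.mem_insert _ _)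
  have c4 : Nat.card (closure S4) ≤ 32 := by
    have h0 := card_closure_insert S3 X2 2 (by norm_num) (by
      intro s hs
      rcases hs with rfl | rfl | rfl | rfl | hs
      · rw [conj_of_comm h21]; exact mul_mem hb3 hX13
      · rw [conj_of_comm h20]; exact mul_mem hc3 hx3
      · rw [cc1 2]; exact hc3
      · rw [cb1 2]; exact hb3
      · exact absurd hs (Set.notMem_empty _)) (by rw [hsq 2]; exact mul_mem hb3 hc3)
    exact h0.trans (by omega)
  have hb4 : b ∈ closure S4 := Subgroup.subset_closure (m34 (m23 (m12 hb1)))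
  have hc4 : c ∈ closure S4 := Subgroup.subset_closure (m34 (m23 (m12 hc1)))
  have hx4 : x ∈ closure S4 := Subgroup.subset_closure (m34 (m23 (Set.mem_insert _ _)))
  have hX14 : X1 ∈ closure S4 := Subgroup.subset_closure (m34 (Set.mem_insert _ _))
  have hX24 : X2 ∈ closure S4 := Subgroup.subset_closure (Set.mem_insert _ _)
  have c5 : Nat.card (closure S5) ≤ 64 := by
    have h0 := card_closure_insert S4 X3 2 (by norm_num) (by
      intro s hs
      rcases hs with rfl | rfl | rfl | rfl | rfl | hs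
      · rw [conj_of_comm h32]; exact mul_mem hb4 hX24
      · rw [conj_of_comm h31]; exact mul_mem hc4 hX14
      · rw [conj_of_comm h30]; exact mul_mem hc4 hx4
      · rw [cc1 3]; exact hc4
      · rw [cb1 3]; exact hb4
      · exact absurd hs (Set.notMem_empty _)) (by rw [hsq 3]; exact mul_mem hb4 hc4)
    exact h0.trans (by omega)
  have hb5 : b ∈ closure S5 := Subgroup.subset_closure (m45 (m34 (m23 (m12 hb1))))
  have hc5 : c ∈ closure S5 := Subgroup.subset_closure (m45 (m34 (m23 (m12 hc1))))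
  have hx5 : x ∈ closure S5 := Subgroup.subset_closure (m45 (m34 (m23 (Set.mem_insert _ _))))
  have hX15 : X1 ∈ closure S5 := Subgroup.subset_closure (m45 (m34 (Set.mem_insert _ _)))
  have hX25 : X2 ∈ closure S5 := Subgroup.subset_closure (m45 (Set.mem_insert _ _))
  have hX35 : X3 ∈ closure S5 := Subgroup.subset_closure (Set.mem_insert _ _)
  have hX45 : X4 ∈ closure S5 := by
    have h1 : X4 = (x * X1 * X2 * X3)⁻¹ := by
      rw [eq_inv_iff_mul_eq_one]
      have h2 := h.pr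
      have h3 : X4 * (x * X1 * X2 * X3) = X4 * (x * X1 * X2 * X3 * X4) * X4⁻¹ := by group
      rw [h3, h2]; group
    rw [h1]
    exact inv_mem (mul_mem (mul_mem (mul_mem hx5 hX15) hX25) hX35)
  have c6 : Nat.card (closure S6) ≤ 320 := by
    have h0 := card_closure_insert S5 g 5 (by norm_num) (by
      intro s hs
      rcases hs with rfl | rfl | rfl | rfl | rfl | rfl | hs
      · have : g * X3 * g⁻¹ = X4 := by rw [hX3, hX4, pow_succ' g 3]; group
        rw [this]; exact hX45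
      · have : g * X2 * g⁻¹ = X3 := by rw [hX3, hX2, pow_succ' g 2]; group
        rw [this]; exact hX35
      · have : g * X1 * g⁻¹ = X2 := by rw [hX1, hX2, pow_two]; group
        rw [this]; exact hX25
      · exact hX15
      · rw [← h.cg]
        have : s * g * g⁻¹ = s := by group
        rw [this]; exact hc5
      · rw [← h.bg]
        have : s * g * g⁻¹ = s := by group
        rw [this]; exact hb5
      · exact absurd hs (Set.notMem_empty _)) (by rw [h.g5]; exact one_mem _)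
    exact h0.trans (by omega)
  refine (Subgroup.card_le_of_le ?_).trans c6
  rw [closure_le]
  rintro s (rfl | rfl)
  · exact closure_mono (Set.subset_insert _ _) hx5
  · exact Subgroup.subset_closure (Set.mem_insert _ _)

/-- uniqueness -/
theorem unique {G₁ G₂ : Type*} [Group G₁] [Group G₂] [Finite G₁] [Finite G₂] {x g b c : G₁} {x' g' b' c' : G₂}
    (h₁ : Dt x g b c) (h₂ : Dt x' g' b' c') (c₁ : Nat.card G₁ = 320) (c₂ : Nat.card G₂ = 320)
    (g₁ : closure ({x, g} : Set G₁) = ⊤) (g₂ : closure ({x', g'} : Set G₂) = ⊤) : Nonempty (G₁ ≃* G₂) := by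
  have h : Dt ((x, x') : G₁ × G₂) (g, g') (b, b') (c, c') :=
    ⟨Prod.ext h₁.g5 h₂.g5, Prod.ext h₁.bb h₂.bb, Prod.ext h₁.cc h₂.cc, Prod.ext h₁.bx h₂.bx, Prod.ext h₁.bg h₂.bg,
      Prod.ext h₁.cx h₂.cx, Prod.ext h₁.cg h₂.cg, Prod.ext h₁.bc h₂.bc, Prod.ext h₁.xx h₂.xx,
      Prod.ext h₁.k1 h₂.k1, Prod.ext h₁.k2 h₂.k2, Prod.ext h₁.pr h₂.pr⟩
  set Γ := closure ({((x, x') : G₁ × G₂), (g, g')} : Set (G₁ × G₂)) with hΓ
  have hle : Nat.card Γ ≤ 320 := h.card_le
  let f₁ : Γ →* G₁ := (MonoidHom.fst G₁ G₂).comp Γ.subtype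
  let f₂ : Γ →* G₂ := (MonoidHom.snd G₁ G₂).comp Γ.subtype
  have hxΓ : ((x, x') : G₁ × G₂) ∈ Γ := Subgroup.subset_closure (Or.inl rfl)
  have hgΓ : ((g, g') : G₁ × G₂) ∈ Γ := Subgroup.subset_closure (Or.inr rfl)
  have s₁ : Function.Surjective f₁ := by
    rw [← MonoidHom.range_eq_top, eq_top_iff, ← g₁, closure_le]
    rintro s (rfl | rfl)
    · exact ⟨⟨_, hxΓ⟩, rfl⟩
    · exact ⟨⟨_, hgΓ⟩, rfl⟩
  have s₂ : Function.Surjective f₂ := by
    rw [← MonoidHom.range_eq_top, eq_top_iff, ← g₂, closure_le]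
    rintro s (rfl | rfl)
    · exact ⟨⟨_, hxΓ⟩, rfl⟩
    · exact ⟨⟨_, hgΓ⟩, rfl⟩
  have hge : 320 ≤ Nat.card Γ := by rw [← c₁]; exact Nat.card_le_card_of_surjective f₁ s₁
  have hc : Nat.card Γ = 320 := le_antisymm hle hge
  have b₁ : Function.Bijective f₁ := (Nat.bijective_iff_surjective_and_card f₁).mpr ⟨s₁, by rw [hc, c₁]⟩
  have b₂ : Function.Bijective f₂ := (Nat.bijective_iff_surjective_and_card f₂).mpr ⟨s₂, by rw [hc, c₂]⟩
  exact ⟨(MulEquiv.ofBijective f₁ b₁).symm.trans (MulEquiv.ofBijective f₂ b₂)⟩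

end Cfsg.Agent.Lib.Ord320
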