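import Mathlib
import Cfsg.Agent.Lib.Ord320

/-!
# Groups of order 320, part 2 (helper51)
-/

set_option autoImplicit false

namespace Cfsg.Agent.Lib.Ord320

open Subgroup
open scoped commutatorElement
open Cfsg.Agent.Lib

variable {G : Type*} [Group G] [Finite G]

theorem fixmod {K : Subgroup G} {g : G} (hg : g ∈ normalizer (K : Set G)) (h5 : g ^ 5 = 1) :
    Nat.card ↥(K ⊓ centralizer ({g} : Set G)) ≡ Nat.card K [MOD 5] := by
  classical
  haveI : Fintype K := Fintype.ofFinite K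
  haveI : Fact (Nat.Prime 5) := ⟨by norm_num⟩
  let σ : Equiv.Perm K := (K.normalizerMonoidHom ⟨g, hg⟩).toEquiv
  have hσ : ∀ y : K, ((σ y : K) : G) = g * y * g⁻¹ := fun y => rfl
  have hpow : ∀ (n : ℕ) (y : K), (((σ ^ n) y : K) : G) = g ^ n * y * (g ^ n)⁻¹ := by
    intro n
    induction n with
    | zero => intro y; simp
    | succ n ih =>
      intro y
      rw [pow_succ', Equiv.Perm.mul_apply, hσ, ih, pow_succ' g]; group
  have hσ5 : σ ^ 5 ^ 1 = 1 := by
    rw [pow_one]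
    ext y
    rw [hpow, h5]; simp
  have h1 := Equiv.Perm.card_compl_support_modEq (p := 5) (n := 1) hσ5
  have h2 : (σ.supportᶜ).card = Nat.card ↥(K ⊓ centralizer ({g} : Set G)) := by
    have hmem : ∀ y : K, y ∈ σ.supportᶜ ↔ g * (y : G) * g⁻¹ = y := by
      intro y
      rw [Finset.mem_compl, Equiv.Perm.mem_support, not_not]
      exact ⟨fun h => by rw [← hσ, h], fun h => Subtype.ext (by rw [hσ, h])⟩
    have hc : ∀ y : G, y ∈ centralizer ({g} : Set G) ↔ g * y * g⁻¹ = y := by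
      intro y
      rw [mem_centralizer_singleton_iff, mul_inv_eq_iff_eq_mul, eq_comm]
    let e : ↥(K ⊓ centralizer ({g} : Set G)) ≃ {y : K // y ∈ σ.supportᶜ} :=
      { toFun := fun z => ⟨⟨z, z.2.1⟩, (hmem _).mpr ((hc _).mp z.2.2)⟩
        invFun := fun z => ⟨z.1, z.1.2, (hc _).mpr ((hmem _).mp z.2)⟩
        left_inv := fun z => rfl
        right_inv := fun z => rfl }
    rw [Nat.card_congr e, Nat.card_eq_fintype_card, Fintype.card_coe]
  rw [h2] at h1
  rw [Nat.card_eq_fintype_card (α := K)]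
  exact h1

theorem big {Z T K : Subgroup G} {g : G} (h5 : g ^ 5 = 1) (hT : Nat.card T = 64) (hZ : Nat.card Z = 4)
    (hTZ : T ⊓ centralizer ({g} : Set G) = Z) (hZK : Z ≤ K) (hne : Z ≠ K) (hKT : K ≤ T)
    (hg : g ∈ normalizer (K : Set G)) : K = T := by
  have h1 := fixmod hg h5
  have h2 : K ⊓ centralizer ({g} : Set G) = Z := by
    apply le_antisymm
    · rw [← hTZ]; exact inf_le_inf_right _ hKT
    · exact le_inf hZK (by rw [← hTZ]; exact inf_le_right)
  rw [h2, hZ] at h1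
  have h3 : Nat.card K ∣ 2 ^ 6 := by
    have := card_dvd_of_le hKT
    rw [hT] at this
    exact this
  obtain ⟨k, hk, hk'⟩ := (Nat.dvd_prime_pow Nat.prime_two).mp h3
  have h4 : Nat.card Z < Nat.card K := by
    refine lt_of_le_of_ne (Subgroup.card_le_of_le hZK) ?_
    intro h
    exact hne (Subgroup.eq_of_le_of_card_ge hZK h.ge)
  rw [hZ, hk'] at h4
  rw [hk'] at h1
  apply Subgroup.eq_of_le_of_card_ge hKT
  rw [hT, hk']
  unfold Nat.ModEq at h1
  interval_cases k <;> simp_all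

theorem top_of {T M : Subgroup G} {g : G} (hG : Nat.card G = 320) (hT : Nat.card T = 64) (hg : orderOf g = 5)
    (hTM : T ≤ M) (hgM : g ∈ M) : M = ⊤ := by
  apply Subgroup.eq_top_of_card_eq
  have h1 : 64 ∣ Nat.card M := by rw [← hT]; exact card_dvd_of_le hTM
  have h2 : 5 ∣ Nat.card M := by rw [← hg]; exact Subgroup.orderOf_dvd_natCard M hgM
  have h3 : 64 * 5 ∣ Nat.card M := Nat.Coprime.mul_dvd_of_dvd_of_dvd (by norm_num) h1 h2
  have h4 : Nat.card M ∣ 320 := by rw [← hG]; exact card_subgroup_dvd_card M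
  rw [hG]
  exact Nat.dvd_antisymm h4 h3

theorem conj5 {g t z : G} (hz : z * g = g * z) (h : g * t * g⁻¹ = z * t) (n : ℕ) :
    g ^ n * t * (g ^ n)⁻¹ = z ^ n * t := by
  induction n with
  | zero => simp
  | succ n ih =>
    have h1 : g ^ (n + 1) * t * (g ^ (n + 1))⁻¹ = g * (g ^ n * t * (g ^ n)⁻¹) * g⁻¹ := by
      rw [pow_succ']; group
    have hz' : Commute z g := hz
    have h2 : Commute g (z ^ n) := hz'.symm.pow_right n
    rw [h1, ih]
    calc g * (z ^ n * t) * g⁻¹ = (g * z ^ n) * t * g⁻¹ := by group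
      _ = z ^ n * (g * t * g⁻¹) := by rw [h2.eq]; group
      _ = z ^ (n + 1) * t := by rw [h, pow_succ]; group

/-- generation from a noncentral element -/
theorem gen {Z T : Subgroup G} {g x : G} (hG : Nat.card G = 320) (hg : orderOf g = 5) (hT : Nat.card T = 64)
    (hZ : Nat.card Z = 4) (hTZ : T ⊓ centralizer ({g} : Set G) = Z) (hgT : g ∈ normalizer (T : Set G)) (hx : x ∈ T)
    (hxZ : x ∉ Z) {H : Subgroup G} (hxH : x ∈ H) (hgH : g ∈ H) (hZH : Z ≤ H) : H = ⊤ := by
  have h5 : g ^ 5 = 1 := by rw [← hg]; exact pow_orderOf_eq_one g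
  have h1 : H ⊓ T = T := by
    refine big h5 hT hZ hTZ (le_inf hZH (by rw [← hTZ]; exact inf_le_left)) ?_ inf_le_right ?_
    · intro h
      apply hxZ
      rw [h]
      exact ⟨hxH, hx⟩
    · rw [mem_normalizer_iff] at hgT ⊢
      intro y
      rw [mem_inf, mem_inf, ← hgT y, ← mem_normalizer_iff.mp (le_normalizer hgH) y]
  exact top_of hG hT hg (inf_eq_right.mp h1) hgH

omit [Finite G] in
theorem cen5 {P A0 A1 A2 A3 A4 : G} (h : ∀ y, P * y = y * P) :
    P * A0 * (P * A1) * (P * A2) * (P * A3) * (P * A4) = P ^ 5 * (A0 * A1 * A2 * A3 * A4) := by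
  have h1 : ∀ (n : ℕ) (A B : G), P ^ n * A * (P * B) = P ^ (n + 1) * (A * B) := by
    intro n A B
    calc P ^ n * A * (P * B) = P ^ n * (A * P) * B := by group
      _ = P ^ (n + 1) * (A * B) := by rw [← h A, pow_succ]; group
  have h2 : P * A0 = P ^ 1 * A0 := by rw [pow_one]
  rw [h2, h1, h1, h1, h1]

omit [Finite G] in
theorem sq4 {x X1 X2 X3 b c : G} (hb : ∀ y, b * y = y * b) (hc : ∀ y, c * y = y * c) (hbb : b * b = 1)
    (hcc : c * c = 1) (hs : ∀ y, (x * x) * y = y * (x * x)) (hss : (x * x) * (x * x) = 1)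
    (s1 : X1 * X1 = x * x) (s2 : X2 * X2 = x * x) (s3 : X3 * X3 = x * x)
    (e10 : X1 * x = b * (x * X1)) (e20 : X2 * x = c * (x * X2)) (e21 : X2 * X1 = b * (X1 * X2))
    (e32 : X3 * X2 = b * (X2 * X3)) (e31 : X3 * X1 = c * (X1 * X3)) (e30 : X3 * x = c * (x * X3)) :
    (x * X1 * X2 * X3) * (x * X1 * X2 * X3) = b * c := by
  have a1 : (x * X1) * (x * X1) = b := by
    calc (x * X1) * (x * X1) = x * (X1 * x) * X1 := by group
      _ = (x * b) * x * X1 * X1 := by rw [e10]; group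
      _ = b * ((x * x) * (X1 * X1)) := by rw [← hb]; group
      _ = b := by rw [s1, hss, mul_one]
  have a2 : (X2 * X3) * (X2 * X3) = b := by
    calc (X2 * X3) * (X2 * X3) = X2 * (X3 * X2) * X3 := by group
      _ = (X2 * b) * X2 * X3 * X3 := by rw [e32]; group
      _ = b * ((X2 * X2) * (X3 * X3)) := by rw [← hb]; group
      _ = b := by rw [s2, s3, hss, mul_one]
  have a3 : (X2 * X3) * (x * X1) = c * b * ((x * X1) * (X2 * X3)) := by
    calc (X2 * X3) * (x * X1) = X2 * (X3 * x) * X1 := by group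
      _ = (X2 * c) * x * (X3 * X1) := by rw [e30]; group
      _ = c * (X2 * x) * (X3 * X1) := by rw [← hc]; group
      _ = c * c * x * (X2 * c) * (X1 * X3) := by rw [e20, e31]; group
      _ = c * c * (x * c) * (X2 * X1) * X3 := by rw [← hc X2]; group
      _ = (c * c) * c * (x * b) * X1 * X2 * X3 := by rw [← hc x, e21]; group
      _ = c * b * ((x * X1) * (X2 * X3)) := by rw [hcc, ← hb x]; group
  calc (x * X1 * X2 * X3) * (x * X1 * X2 * X3) = (x * X1) * ((X2 * X3) * (x * X1)) * (X2 * X3) := by group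
    _ = ((x * X1) * c) * b * (x * X1) * (X2 * X3) * (X2 * X3) := by rw [a3]; group
    _ = c * ((x * X1) * b) * (x * X1) * (X2 * X3) * (X2 * X3) := by rw [← hc]; group
    _ = c * b * ((x * X1) * (x * X1)) * ((X2 * X3) * (X2 * X3)) := by rw [← hb]; group
    _ = c * (b * b) * b := by rw [a1, a2]; group
    _ = b * c := by rw [hbb, mul_one, hc]

/-- the structure of the groups of order 320 -/
theorem star (hG : Nat.card G = 320) (hD : Nat.card (commutator G) = 64)
    (hZ : IsKleinFour (center (commutator G))) :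
    ∃ x g b c : G, Dt x g b c ∧ closure ({x, g} : Set G) = ⊤ := by
  haveI : Fact (Nat.Prime 5) := ⟨by norm_num⟩
  haveI : Fact (Nat.Prime 2) := ⟨Nat.prime_two⟩
  set T := commutator G with hTd
  have hTn : T.Normal := by rw [hTd]; infer_instance
  set Z : Subgroup G := (center T).map T.subtype with hZd
  have hZ4 : Nat.card Z = 4 := by
    rw [hZd, card_map_of_injective T.subtype_injective]; exact hZ.card_four
  have hZT : Z ≤ T := map_subtype_le _
  have hZn : Z.Normal := by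
    constructor
    rintro _ ⟨z, hz, rfl⟩ y
    refine ⟨⟨y * z * y⁻¹, hTn.conj_mem _ z.2 y⟩, ?_, rfl⟩
    show _ ∈ center T
    rw [mem_center_iff]
    intro t
    apply Subtype.ext
    have h1 := congrArg Subtype.val (mem_center_iff.mp hz ⟨y⁻¹ * t * y, by
      have := hTn.conj_mem _ t.2 y⁻¹
      simpa using this⟩)
    have h2 : y⁻¹ * t * y * z = z * (y⁻¹ * t * y) := h1
    show (t : G) * (y * z * y⁻¹) = y * z * y⁻¹ * t
    calc (t : G) * (y * z * y⁻¹) = y * (y⁻¹ * t * y * z) * y⁻¹ := by group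
      _ = y * z * y⁻¹ * t := by rw [h2]; group
  have hZsq : ∀ z ∈ Z, z * z = 1 := by
    rintro _ ⟨z, hz, rfl⟩
    have h1 : (⟨z, hz⟩ : center T) ^ 2 = 1 := by
      rw [← hZ.exponent_two]; exact Monoid.pow_exponent_eq_one _
    have h2 : z ^ 2 = 1 := congrArg Subtype.val h1
    rw [← map_mul, ← pow_two, h2, map_one]
  have hZTc : ∀ z ∈ Z, ∀ t ∈ T, z * t = t * z := by
    rintro _ ⟨z, hz, rfl⟩ t ht
    exact (congrArg Subtype.val (mem_center_iff.mp hz ⟨t, ht⟩)).symm
  obtain ⟨g, hg⟩ := exists_prime_orderOf_dvd_card' (G := G) 5 (by rw [hG]; norm_num)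
  have h5 : g ^ 5 = 1 := by rw [← hg]; exact pow_orderOf_eq_one g
  have hgZ : Z ≤ centralizer ({g} : Set G) := by
    have h1 := fixmod (K := Z) (g := g) (by rw [normalizer_eq_top]; exact mem_top _) h5
    rw [hZ4] at h1
    have h2 : Nat.card ↥(Z ⊓ centralizer ({g} : Set G)) ≤ 4 := by
      rw [← hZ4]; exact Subgroup.card_le_of_le inf_le_left
    have h3 : Nat.card ↥(Z ⊓ centralizer ({g} : Set G)) = 4 := by
      unfold Nat.ModEq at h1; omega
    have h4 := Subgroup.eq_of_le_of_card_ge (inf_le_left : Z ⊓ centralizer ({g} : Set G) ≤ Z) (by rw [h3, hZ4])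
    exact inf_eq_left.mp h4
  have hZg : ∀ z ∈ Z, z * g = g * z := fun z hz => (mem_centralizer_singleton_iff.mp (hgZ hz))
  have hZc : ∀ z ∈ Z, ∀ y : G, z * y = y * z := by
    intro z hz y
    have h1 : centralizer ({z} : Set G) = ⊤ := by
      refine top_of hG hD hg ?_ ?_
      · intro t ht
        rw [mem_centralizer_singleton_iff]; exact (hZTc z hz t ht).symm
      · rw [mem_centralizer_singleton_iff]; exact (hZg z hz).symm
    have h2 : y ∈ centralizer ({z} : Set G) := by rw [h1]; exact mem_top _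
    exact (mem_centralizer_singleton_iff.mp h2).symm
  have hTp : IsPGroup 2 T := IsPGroup.of_card (n := 6) (by rw [hD]; norm_num)
  -- C_T(g) = Z
  have hTne : ¬ T ≤ centralizer ({g} : Set G) := by
    intro hle
    have hgc : ∀ y : G, g * y = y * g := by
      have h1 : centralizer ({g} : Set G) = ⊤ :=
        top_of hG hD hg hle (by rw [mem_centralizer_singleton_iff])
      intro y
      have h2 : y ∈ centralizer ({g} : Set G) := by rw [h1]; exact mem_top _
      exact (mem_centralizer_singleton_iff.mp h2).symm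
    have hN : (⁅T, T⁆ : Subgroup G).Normal := inferInstance
    have h1 : ∀ t ∈ T, ∀ y : G, ⁅t, y⁆ ∈ ⁅T, T⁆ := by
      intro t ht y
      have h2 : (centralizer ({QuotientGroup.mk' ⁅T, T⁆ t} : Set (G ⧸ ⁅T, T⁆))).comap (QuotientGroup.mk' ⁅T, T⁆) = ⊤ := by
        refine top_of hG hD hg ?_ ?_
        · intro s hs
          rw [mem_comap, mem_centralizer_singleton_iff, ← commutatorElement_eq_one_iff_mul_comm, ← map_commutatorElement]
          exact (QuotientGroup.eq_one_iff _).mpr (commutator_mem_commutator hs ht)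
        · rw [mem_comap, mem_centralizer_singleton_iff, ← map_mul, hgc t, map_mul]
      have h3 : y ∈ (centralizer ({QuotientGroup.mk' ⁅T, T⁆ t} : Set (G ⧸ ⁅T, T⁆))).comap (QuotientGroup.mk' ⁅T, T⁆) := by
        rw [h2]; exact mem_top _
      rw [mem_comap, mem_centralizer_singleton_iff, eq_comm, ← commutatorElement_eq_one_iff_mul_comm,
        ← map_commutatorElement] at h3
      exact (QuotientGroup.eq_one_iff _).mp h3
    have h2 : ∀ y w : G, ⁅y, w⁆ ∈ ⁅T, T⁆ := by
      intro y w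
      have h2 : (centralizer ({QuotientGroup.mk' ⁅T, T⁆ w} : Set (G ⧸ ⁅T, T⁆))).comap (QuotientGroup.mk' ⁅T, T⁆) = ⊤ := by
        refine top_of hG hD hg ?_ ?_
        · intro s hs
          rw [mem_comap, mem_centralizer_singleton_iff, ← commutatorElement_eq_one_iff_mul_comm, ← map_commutatorElement]
          exact (QuotientGroup.eq_one_iff _).mpr (h1 s hs w)
        · rw [mem_comap, mem_centralizer_singleton_iff, ← map_mul, hgc w, map_mul]
      have h3 : y ∈ (centralizer ({QuotientGroup.mk' ⁅T, T⁆ w} : Set (G ⧸ ⁅T, T⁆))).comap (QuotientGroup.mk' ⁅T, T⁆) := by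
        rw [h2]; exact mem_top _
      rw [mem_comap, mem_centralizer_singleton_iff, ← commutatorElement_eq_one_iff_mul_comm,
        ← map_commutatorElement] at h3
      exact (QuotientGroup.eq_one_iff _).mp h3
    have h3 : T ≤ ⁅T, T⁆ := by
      conv_lhs => rw [hTd, _root_.commutator_def]
      rw [commutator_le]
      intro y _ w _
      exact h2 y w
    have hsol : Group.IsSolvable T := by
      have := hTp.isNilpotent
      infer_instance
    have hnt : Nontrivial T := by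
      rw [← Finite.one_lt_card_iff_nontrivial, hD]; norm_num
    have h4 := Group.IsSolvable.commutator_lt_top_of_nontrivial T
    apply h4.ne
    rw [eq_top_iff]
    intro t _
    have h5 := h3 t.2
    rw [← map_subtype_commutator] at h5
    obtain ⟨s, hs, hst⟩ := h5
    have : s = t := Subtype.ext hst
    rw [← this]; exact hs
  have hnT : ∀ y : G, y ∈ normalizer (T : Set G) := fun y => by rw [normalizer_eq_top]; exact mem_top _
  have hTZ : T ⊓ centralizer ({g} : Set G) = Z := by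
    have h1 := fixmod (K := T) (hnT g) h5
    have h2 : Z ≤ T ⊓ centralizer ({g} : Set G) := le_inf hZT hgZ
    have h3 : Nat.card ↥(T ⊓ centralizer ({g} : Set G)) ∣ 2 ^ 6 := by
      have := card_dvd_of_le (inf_le_left : T ⊓ centralizer ({g} : Set G) ≤ T)
      rw [hD] at this
      exact this
    obtain ⟨k, hk, hk'⟩ := (Nat.dvd_prime_pow Nat.prime_two).mp h3
    have h4 := Subgroup.card_le_of_le h2
    rw [hZ4, hk'] at h4
    rw [hk', hD] at h1
    unfold Nat.ModEq at h1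
    have h6 : k = 2 ∨ k = 6 := by interval_cases k <;> simp_all
    rcases h6 with rfl | rfl
    · exact (Subgroup.eq_of_le_of_card_ge h2 (by rw [hk', hZ4]; norm_num)).symm
    · exfalso
      apply hTne
      have h7 := Subgroup.eq_of_le_of_card_ge (inf_le_left : T ⊓ centralizer ({g} : Set G) ≤ T) (by rw [hk', hD]; norm_num)
      exact inf_eq_left.mp h7
  -- the quotient by Z
  let π : G →* G ⧸ Z := QuotientGroup.mk' Z
  have hπ : ∀ y, π y = 1 ↔ y ∈ Z := fun y => QuotientGroup.eq_one_iff y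
  have hπs : Function.Surjective π := QuotientGroup.mk'_surjective _
  have hTbn : (T.map π).Normal := hTn.map π hπs
  have hTbp : IsPGroup 2 (T.map π) := hTp.map π
  have hTbnt : Nontrivial (T.map π) := by
    obtain ⟨t, htT, htZ⟩ : ∃ t ∈ T, t ∉ Z := by
      by_contra hcon
      push Not at hcon
      have := Subgroup.card_le_of_le (hcon : T ≤ Z)
      rw [hD, hZ4] at this; omega
    refine ⟨⟨⟨π t, t, htT, rfl⟩, 1, ?_⟩⟩
    intro h
    exact htZ ((hπ t).mp (congrArg Subtype.val h))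
  have hbig : ∀ K : Subgroup G, Z ≤ K → K ≤ T → (∃ t ∈ K, t ∉ Z) → g ∈ normalizer (K : Set G) → K = T := by
    intro K h1 h2 ⟨t, ht, htZ⟩ h3
    exact big h5 hD hZ4 hTZ h1 (fun h => htZ (h ▸ ht)) h2 h3
  have hinvK : ∀ N : Subgroup (G ⧸ Z), π g ∈ normalizer (N : Set (G ⧸ Z)) → g ∈ normalizer ((T ⊓ N.comap π : Subgroup G) : Set G) := by
    intro N hN
    rw [mem_normalizer_iff] at hN ⊢
    intro y
    rw [mem_inf, mem_inf, ← mem_normalizer_iff.mp (hnT g) y, mem_comap, mem_comap, hN (π y), map_mul, map_mul, map_inv]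
  -- (A)
  have hA : ∀ s ∈ T, ∀ t ∈ T, ⁅s, t⁆ ∈ Z := by
    have hcn : (centralizer ((T.map π : Subgroup (G ⧸ Z)) : Set (G ⧸ Z))).Normal := inferInstance
    have hK : T ⊓ (centralizer ((T.map π : Subgroup (G ⧸ Z)) : Set (G ⧸ Z))).comap π = T := by
      refine hbig _ ?_ inf_le_left ?_ ?_
      · intro z hz
        refine mem_inf.mpr ⟨hZT hz, mem_comap.mpr ?_⟩
        rw [(hπ z).mpr hz]; exact one_mem _
      · have hcnt := hTbp.center_nontrivial
        obtain ⟨⟨⟨w, hw⟩, hwc⟩, hwne⟩ := exists_ne (1 : center (T.map π))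
        obtain ⟨t, ht, rfl⟩ := id hw
        refine ⟨t, mem_inf.mpr ⟨ht, mem_comap.mpr (mem_centralizer_iff.mpr ?_)⟩, ?_⟩
        · intro y hy
          exact congrArg Subtype.val (mem_center_iff.mp hwc ⟨y, hy⟩)
        · intro htZ
          apply hwne
          apply Subtype.ext
          apply Subtype.ext
          exact (hπ t).mpr htZ
      · apply hinvK
        rw [normalizer_eq_top]; exact mem_top _
    intro s hs t ht
    have h1 : s ∈ T ⊓ (centralizer ((T.map π : Subgroup (G ⧸ Z)) : Set (G ⧸ Z))).comap π := by rw [hK]; exact hs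
    have h2 := mem_centralizer_iff.mp (mem_inf.mp h1).2 (π t) ⟨t, ht, rfl⟩
    rw [← hπ, map_commutatorElement, commutatorElement_eq_one_iff_mul_comm]
    exact h2.symm
  -- (B)
  have hB : ∀ t ∈ T, t * t ∈ Z := by
    let K2 : Subgroup G :=
      { carrier := {t | t ∈ T ∧ t * t ∈ Z}
        mul_mem' := by
          rintro s t ⟨hs, hs2⟩ ⟨ht, ht2⟩
          refine ⟨mul_mem hs ht, ?_⟩
          have h1 := hA t ht s hs
          have h2 : s * t * (s * t) = ⁅t, s⁆ * ((s * s) * (t * t)) := by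
            have h3 := hZc _ h1 s
            calc s * t * (s * t) = s * (⁅t, s⁆ * (s * t)) * t := by rw [commutatorElement_def]; group
              _ = (s * ⁅t, s⁆) * s * t * t := by group
              _ = ⁅t, s⁆ * ((s * s) * (t * t)) := by rw [← h3]; group
          rw [h2]
          exact mul_mem h1 (mul_mem hs2 ht2)
        one_mem' := ⟨one_mem _, by rw [mul_one]; exact one_mem _⟩
        inv_mem' := by
          rintro s ⟨hs, hs2⟩
          refine ⟨inv_mem hs, ?_⟩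
          rw [← mul_inv_rev]; exact inv_mem hs2 }
    have hK : K2 = T := by
      refine hbig _ ?_ (fun t ht => ht.1) ?_ ?_
      · intro z hz
        exact ⟨hZT hz, by rw [hZsq z hz]; exact one_mem _⟩
      · have h2 : 2 ∣ Nat.card (T.map π) := by
          obtain ⟨k, hk⟩ := IsPGroup.iff_card.mp hTbp
          have h3 : 1 < Nat.card (T.map π) := Finite.one_lt_card
          rw [hk] at h3 ⊢
          exact dvd_pow_self 2 (by rintro rfl; simp at h3)
        obtain ⟨⟨w, hw⟩, hwo⟩ := exists_prime_orderOf_dvd_card' (G := T.map π) 2 h2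
        obtain ⟨t, ht, rfl⟩ := id hw
        have h3 : π t * π t = 1 := by
          have := pow_orderOf_eq_one (⟨π t, hw⟩ : T.map π)
          rw [hwo, pow_two] at this
          exact congrArg Subtype.val this
        refine ⟨t, ⟨ht, ?_⟩, ?_⟩
        · rw [← hπ, map_mul]; exact h3
        · intro htZ
          have h4 : (⟨π t, hw⟩ : T.map π) = 1 := Subtype.ext ((hπ t).mpr htZ)
          rw [h4, orderOf_one] at hwo
          omega
      · rw [mem_normalizer_iff]
        intro y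
        have e1 : g * y * g⁻¹ * (g * y * g⁻¹) = g * (y * y) * g⁻¹ := by group
        constructor
        · rintro ⟨h1, h2⟩
          exact ⟨hTn.conj_mem _ h1 g, by rw [e1]; exact hZn.conj_mem _ h2 g⟩
        · rintro ⟨h1, h2⟩
          rw [e1] at h2
          refine ⟨?_, ?_⟩
          · have := hTn.conj_mem _ h1 g⁻¹
            simpa [mul_assoc] using this
          · have := hZn.conj_mem _ h2 g⁻¹
            simpa [mul_assoc] using this
    intro t ht
    have h1 : t ∈ K2 := by rw [hK]; exact ht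
    exact h1.2
  -- (C)
  have hC : ∀ t ∈ T, ∀ z ∈ Z, g * t * g⁻¹ = z * t → t ∈ Z := by
    intro t ht z hz h
    have h1 := conj5 (hZg z hz) h 5
    rw [h5] at h1
    have h2 : z ^ 5 = 1 := by
      have : t = z ^ 5 * t := by rw [← h1]; group
      exact (mul_eq_right.mp this.symm)
    have h3 : z = 1 := by
      have h4 := hZsq z hz
      calc z = z ^ 5 * (z * z)⁻¹ * (z * z)⁻¹ := by group
        _ = 1 := by rw [h2, h4]; group
    rw [h3, one_mul] at h
    rw [← hTZ]
    refine mem_inf.mpr ⟨ht, ?_⟩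
    rw [mem_centralizer_singleton_iff]
    rw [mul_inv_eq_iff_eq_mul] at h
    exact h.symm
  -- (D)
  obtain ⟨x0, hx0T, hx0Z⟩ : ∃ t ∈ T, t ∉ Z := by
    by_contra hcon
    push Not at hcon
    have := Subgroup.card_le_of_le (hcon : T ≤ Z)
    rw [hD, hZ4] at this; omega
  have hconT : ∀ t ∈ T, ∀ n : ℕ, g ^ n * t * (g ^ n)⁻¹ ∈ T := fun t ht n => hTn.conj_mem _ ht _
  obtain ⟨P, hP⟩ : ∃ P, P = x0 * (g * x0 * g⁻¹) * (g ^ 2 * x0 * (g ^ 2)⁻¹) * (g ^ 3 * x0 * (g ^ 3)⁻¹) * (g ^ 4 * x0 * (g ^ 4)⁻¹) := ⟨_, rfl⟩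
  have hPT : P ∈ T := by
    rw [hP]
    exact mul_mem (mul_mem (mul_mem (mul_mem hx0T (hTn.conj_mem _ hx0T _)) (hconT _ hx0T _)) (hconT _ hx0T _)) (hconT _ hx0T _)
  have hPZ : P ∈ Z := by
    refine hC P hPT _ (hA x0⁻¹ (inv_mem hx0T) P hPT) ?_
    have e5 : g ^ 5 * x0 * (g ^ 5)⁻¹ = x0 := by rw [h5]; group
    have e1 : g * P * g⁻¹ = (g * x0 * g⁻¹) * (g ^ 2 * x0 * (g ^ 2)⁻¹) * (g ^ 3 * x0 * (g ^ 3)⁻¹) * (g ^ 4 * x0 * (g ^ 4)⁻¹) * (g ^ 5 * x0 * (g ^ 5)⁻¹) := by
      rw [hP]; group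
    rw [e1, e5, commutatorElement_def, hP]; group
  have hPc := hZc P hPZ
  have hPP := hZsq P hPZ
  obtain ⟨x, hx⟩ : ∃ x, x = x0 * P := ⟨_, rfl⟩
  have hxT : x ∈ T := by rw [hx]; exact mul_mem hx0T hPT
  have hxZ : x ∉ Z := by
    intro h
    apply hx0Z
    rw [hx] at h
    exact (mul_mem_cancel_right hPZ).mp h
  have hxn : ∀ n : ℕ, g ^ n * x * (g ^ n)⁻¹ = P * (g ^ n * x0 * (g ^ n)⁻¹) := by
    intro n
    rw [hx, ← hPc x0, ← mul_assoc (g ^ n), ← hPc (g ^ n)]; group
  have hpr : x * (g * x * g⁻¹) * (g ^ 2 * x * (g ^ 2)⁻¹) * (g ^ 3 * x * (g ^ 3)⁻¹) * (g ^ 4 * x * (g ^ 4)⁻¹) = 1 := by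
    have h0 := hxn 0
    have h1 := hxn 1
    simp only [pow_zero, pow_one, one_mul, inv_one, mul_one] at h0 h1
    have h1' : g * x * g⁻¹ = P * (g * x0 * g⁻¹) := h1
    calc x * (g * x * g⁻¹) * (g ^ 2 * x * (g ^ 2)⁻¹) * (g ^ 3 * x * (g ^ 3)⁻¹) * (g ^ 4 * x * (g ^ 4)⁻¹)
        = P * x0 * (P * (g * x0 * g⁻¹)) * (P * (g ^ 2 * x0 * (g ^ 2)⁻¹)) * (P * (g ^ 3 * x0 * (g ^ 3)⁻¹)) * (P * (g ^ 4 * x0 * (g ^ 4)⁻¹)) := by
          rw [hxn 2, hxn 3, hxn 4, h1', ← h0]
      _ = P ^ 5 * P := by rw [cen5 hPc, ← hP]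
      _ = (P * P) * (P * P) * (P * P) := by simp only [pow_succ, pow_zero, one_mul, mul_assoc]
      _ = 1 := by rw [hPP]; simp
  obtain ⟨b, hb⟩ : ∃ b, b = ⁅g * x * g⁻¹, x⁆ := ⟨_, rfl⟩
  obtain ⟨c, hc⟩ : ∃ c, c = ⁅g ^ 2 * x * (g ^ 2)⁻¹, x⁆ := ⟨_, rfl⟩
  have hbZ : b ∈ Z := by rw [hb]; exact hA _ (hTn.conj_mem _ hxT _) _ hxT
  have hcZ : c ∈ Z := by rw [hc]; exact hA _ (hTn.conj_mem _ hxT _) _ hxT
  have hbc := hZc b hbZ
  have hcc := hZc c hcZ
  have hbb := hZsq b hbZ
  have hcc2 := hZsq c hcZ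
  have hsZ := hB x hxT
  have hsc := hZc _ hsZ
  have hss := hZsq _ hsZ
  -- the closure
  have htop : closure ({x, g} : Set G) = ⊤ := by
    set H := closure ({x, g} : Set G) with hH
    have hxH : x ∈ H := Subgroup.subset_closure (by simp)
    have hgH : g ∈ H := Subgroup.subset_closure (by simp)
    have h1 : H ⊔ Z = ⊤ := gen hG hg hD hZ4 hTZ (hnT g) hxT hxZ
      ((le_sup_left : H ≤ H ⊔ Z) hxH) ((le_sup_left : H ≤ H ⊔ Z) hgH) le_sup_right
    refine top_of hG hD hg ?_ hgH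
    have h2 : ∀ y : G, ∃ h ∈ H, ∃ z ∈ Z, h * z = y := by
      intro y
      have h3 : y ∈ ((H ⊔ Z : Subgroup G) : Set G) := by rw [h1]; exact mem_top _
      rw [mul_normal] at h3
      obtain ⟨h, hh, z, hz, e⟩ := h3
      exact ⟨h, hh, z, hz, e⟩
    conv_lhs => rw [hTd, _root_.commutator_def]
    rw [commutator_le]
    intro y _ w _
    obtain ⟨h, hh, z, hz, rfl⟩ := h2 y
    obtain ⟨h', hh', z', hz', rfl⟩ := h2 w
    have e : ⁅h * z, h' * z'⁆ = ⁅h, h'⁆ := by
      rw [commutatorElement_def, commutatorElement_def, ← hZc z hz h, ← hZc z' hz' h', mul_inv_rev, mul_inv_rev]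
      have e1 := hZc z' hz' (z * h)
      calc z * h * (z' * h') * (h⁻¹ * z⁻¹) * (h'⁻¹ * z'⁻¹) = (z * h * z') * h' * (h⁻¹ * z⁻¹) * (h'⁻¹ * z'⁻¹) := by group
        _ = z' * (z * (h * h' * h⁻¹)) * z⁻¹ * h'⁻¹ * z'⁻¹ := by rw [← e1]; group
        _ = z' * (h * h' * h⁻¹ * h'⁻¹) * z'⁻¹ := by rw [hZc z hz]; group
        _ = h * h' * h⁻¹ * h'⁻¹ := by rw [hZc z' hz']; group
    rw [e, commutatorElement_def]
    exact mul_mem (mul_mem (mul_mem hh hh') (inv_mem hh)) (inv_mem hh')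
  have hpow : ∀ n : ℕ, b * g ^ n = g ^ n * b := fun n => hbc _
  -- the square
  have hxx : x * x = b * c := by
    obtain ⟨X1, hX1⟩ : ∃ X1, X1 = g * x * g⁻¹ := ⟨_, rfl⟩
    obtain ⟨X2, hX2⟩ : ∃ X2, X2 = g ^ 2 * x * (g ^ 2)⁻¹ := ⟨_, rfl⟩
    obtain ⟨X3, hX3⟩ : ∃ X3, X3 = g ^ 3 * x * (g ^ 3)⁻¹ := ⟨_, rfl⟩
    obtain ⟨X4, hX4⟩ : ∃ X4, X4 = g ^ 4 * x * (g ^ 4)⁻¹ := ⟨_, rfl⟩
    have sq : ∀ n : ℕ, (g ^ n * x * (g ^ n)⁻¹) * (g ^ n * x * (g ^ n)⁻¹) = x * x := by
      intro n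
      calc (g ^ n * x * (g ^ n)⁻¹) * (g ^ n * x * (g ^ n)⁻¹) = g ^ n * (x * x) * (g ^ n)⁻¹ := by group
        _ = x * x := by rw [← hsc]; group
    have s1 : X1 * X1 = x * x := by have := sq 1; rw [pow_one] at this; rw [hX1]; exact this
    have s2 : X2 * X2 = x * x := by rw [hX2]; exact sq 2
    have s3 : X3 * X3 = x * x := by rw [hX3]; exact sq 3
    have s4 : X4 * X4 = x * x := by rw [hX4]; exact sq 4
    rw [← hX1, ← hX2, ← hX3, ← hX4] at hpr
    rw [← hX1] at hb
    rw [← hX2] at hc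
    have cj : ∀ (n : ℕ) (u v k : G), k ∈ Z → ⁅u, v⁆ = k → ⁅g ^ n * u * (g ^ n)⁻¹, g ^ n * v * (g ^ n)⁻¹⁆ = k := by
      intro n u v k hk h
      calc ⁅g ^ n * u * (g ^ n)⁻¹, g ^ n * v * (g ^ n)⁻¹⁆ = g ^ n * ⁅u, v⁆ * (g ^ n)⁻¹ := by
            simp only [commutatorElement_def]; group
        _ = k := by rw [h, ← hZc k hk]; group
    have e10 : X1 * x = b * (x * X1) := by rw [hb, commutatorElement_def]; group
    have e20 : X2 * x = c * (x * X2) := by rw [hc, commutatorElement_def]; group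
    have e21 : X2 * X1 = b * (X1 * X2) := by
      have h1 := cj 1 X1 x b hbZ hb.symm
      have h2 : g ^ 1 * X1 * (g ^ 1)⁻¹ = X2 := by rw [hX1, hX2]; group
      have h3 : g ^ 1 * x * (g ^ 1)⁻¹ = X1 := by rw [hX1]; group
      rw [h2, h3] at h1
      rw [← h1, commutatorElement_def]; group
    have e32 : X3 * X2 = b * (X2 * X3) := by
      have h1 := cj 2 X1 x b hbZ hb.symm
      have h2 : g ^ 2 * X1 * (g ^ 2)⁻¹ = X3 := by rw [hX1, hX3]; group
      have h3 : g ^ 2 * x * (g ^ 2)⁻¹ = X2 := by rw [hX2]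
      rw [h2, h3] at h1
      rw [← h1, commutatorElement_def]; group
    have e31 : X3 * X1 = c * (X1 * X3) := by
      have h1 := cj 1 X2 x c hcZ hc.symm
      have h2 : g ^ 1 * X2 * (g ^ 1)⁻¹ = X3 := by rw [hX2, hX3]; group
      have h3 : g ^ 1 * x * (g ^ 1)⁻¹ = X1 := by rw [hX1]; group
      rw [h2, h3] at h1
      rw [← h1, commutatorElement_def]; group
    have e30 : X3 * x = c * (x * X3) := by
      have h1 := cj 3 X2 x c hcZ hc.symm
      have h2 : g ^ 3 * X2 * (g ^ 3)⁻¹ = x := by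
        rw [hX2]
        calc g ^ 3 * (g ^ 2 * x * (g ^ 2)⁻¹) * (g ^ 3)⁻¹ = g ^ 5 * x * (g ^ 5)⁻¹ := by group
          _ = x := by rw [h5]; group
      have h3 : g ^ 3 * x * (g ^ 3)⁻¹ = X3 := by rw [hX3]
      rw [h2, h3] at h1
      have h4 : x * X3 = c * (X3 * x) := by rw [← h1, commutatorElement_def]; group
      rw [h4, ← mul_assoc, hcc2, one_mul]
    have E := sq4 hbc hcc hbb hcc2 hsc hss s1 s2 s3 e10 e20 e21 e32 e31 e30
    have h1 : x * X1 * X2 * X3 = X4⁻¹ := by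
      rw [eq_inv_iff_mul_eq_one]; exact hpr
    rw [h1, ← mul_inv_rev, s4] at E
    rw [← E]
    exact (inv_eq_of_mul_eq_one_left hss).symm
  exact ⟨x, g, b, c, ⟨h5, hbb, hcc2, hbc x, hbc g, hcc x, hcc g, hbc c, hxx, hb.symm, hc.symm, hpr⟩, htop⟩

end Cfsg.Agent.Lib.Ord320
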