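import Mathlib
import Cfsg.Agent.Lib.SylU3b
import Cfsg.Agent.Lib.Ord320b

/-!
# The centralizer of an involution in PSU(3,4) (helper51)
-/

set_option autoImplicit false

namespace Cfsg.Agent.Lib.Ord320

open Matrix Cfsg Cfsg.Agent.Lib.ClUnitary Cfsg.Agent.Lib.HermMat Cfsg.Agent.Lib.SylU3
open scoped commutatorElement

section SUJ
variable {F : Type*} [Field F]

/-- the split hermitian form -/
def J (q : ℕ) (u v : Fin 3 → F) : F := u 0 * v 2 ^ q + u 1 * v 1 ^ q + u 2 * v 0 ^ q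

/-- the special unitary group of the split form -/
def SUJ (F : Type*) [Field F] (q : ℕ) : Subgroup (GL (Fin 3) F) where
  carrier := {M | (M : Matrix (Fin 3) (Fin 3) F).det = 1 ∧
    ∀ u v, J q ((M : Matrix (Fin 3) (Fin 3) F) *ᵥ u) ((M : Matrix (Fin 3) (Fin 3) F) *ᵥ v) = J q u v}
  one_mem' := ⟨by simp, by intro u v; simp⟩
  mul_mem' := by
    rintro M N ⟨h1, h2⟩ ⟨h3, h4⟩
    refine ⟨by rw [Units.val_mul, det_mul, h1, h3, one_mul], ?_⟩
    intro u v
    rw [Units.val_mul, ← mulVec_mulVec, ← mulVec_mulVec, h2, h4]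
  inv_mem' := by
    rintro M ⟨h1, h2⟩
    have h3 : (M : Matrix (Fin 3) (Fin 3) F) * ((M⁻¹ : GL (Fin 3) F) : Matrix (Fin 3) (Fin 3) F) = 1 := by
      rw [← Units.val_mul, mul_inv_cancel, Units.val_one]
    refine ⟨?_, ?_⟩
    · have := congrArg Matrix.det h3
      rwa [det_mul, h1, one_mul, det_one] at this
    · intro u v
      rw [← h2, mulVec_mulVec, mulVec_mulVec, h3, one_mulVec, one_mulVec]

variable [Fintype F] {q : ℕ}

theorem exists_equiv (hF : Fintype.card F = q ^ 2) : Nonempty (SUJ F q ≃* SU 3 F q) := by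
  have hq := two_le_q hF
  obtain ⟨c, hc'⟩ := exists_norm hF (c := (-1 : F)) (by rw [neg_pow_q hF, one_pow])
  have hc : c * c ^ q = -1 := by rw [← pow_succ', hc']
  obtain ⟨t, ht⟩ := exists_trace hF (c := (-1 : F)) (by rw [neg_pow_q hF, one_pow])
  have hc0 : c ≠ 0 := by
    rintro rfl; rw [zero_mul] at hc
    exact one_ne_zero (neg_eq_zero.mp hc.symm)
  let A : GL (Fin 3) F := GeneralLinearGroup.mkOfDetNeZero (am c t) (by rw [am_det]; exact hc0)
  have hA : (A : Matrix (Fin 3) (Fin 3) F) = am c t := rfl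
  have hAi : ∀ w, am c t *ᵥ (((A⁻¹ : GL (Fin 3) F) : Matrix (Fin 3) (Fin 3) F) *ᵥ w) = w := by
    intro w
    rw [mulVec_mulVec, ← hA, ← Units.val_mul, mul_inv_cancel, Units.val_one, one_mulVec]
  have hherm : ∀ u v, hermForm 3 F q (am c t *ᵥ u) (am c t *ᵥ v) = J q u v := fun u v => am_herm hF c t hc ht u v
  have hdetc : ∀ (B M : GL (Fin 3) F), ((B * M * B⁻¹ : GL (Fin 3) F) : Matrix (Fin 3) (Fin 3) F).det =
      (M : Matrix (Fin 3) (Fin 3) F).det := by
    intro B M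
    rw [Units.val_mul, Units.val_mul, det_mul, det_mul, mul_right_comm, ← det_mul, ← Units.val_mul,
      mul_inv_cancel, Units.val_one, det_one, one_mul]
  have hdet : ∀ g : SUJ F q, ((A * (g : GL (Fin 3) F) * A⁻¹ : GL (Fin 3) F) : Matrix (Fin 3) (Fin 3) F).det = 1 := by
    intro g
    rw [hdetc]; exact g.2.1
  have hmem : ∀ g : SUJ F q, (⟨_, hdet g⟩ : Matrix.SpecialLinearGroup (Fin 3) F) ∈ SU 3 F q := by
    intro g u v
    change hermForm 3 F q (((A * (g : GL (Fin 3) F) * A⁻¹ : GL (Fin 3) F) : Matrix (Fin 3) (Fin 3) F) *ᵥ u)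
      (((A * (g : GL (Fin 3) F) * A⁻¹ : GL (Fin 3) F) : Matrix (Fin 3) (Fin 3) F) *ᵥ v) = hermForm 3 F q u v
    rw [Units.val_mul, Units.val_mul, ← mulVec_mulVec, ← mulVec_mulVec, ← mulVec_mulVec, ← mulVec_mulVec, hA,
      hherm, g.2.2, ← hherm, hAi, hAi]
  let f : SUJ F q →* SU 3 F q :=
    { toFun := fun g => ⟨⟨_, hdet g⟩, hmem g⟩
      map_one' := by
        apply Subtype.ext; apply Subtype.ext
        change ((A * 1 * A⁻¹ : GL (Fin 3) F) : Matrix (Fin 3) (Fin 3) F) = 1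
        rw [mul_one, mul_inv_cancel, Units.val_one]
      map_mul' := by
        intro g h
        apply Subtype.ext; apply Subtype.ext
        change ((A * ((g : GL (Fin 3) F) * (h : GL (Fin 3) F)) * A⁻¹ : GL (Fin 3) F) : Matrix (Fin 3) (Fin 3) F) =
          ((A * (g : GL (Fin 3) F) * A⁻¹ : GL (Fin 3) F) : Matrix (Fin 3) (Fin 3) F) *
          ((A * (h : GL (Fin 3) F) * A⁻¹ : GL (Fin 3) F) : Matrix (Fin 3) (Fin 3) F)
        rw [← Units.val_mul]
        congr 1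
        group }
  have hf : ∀ g : SUJ F q, (((f g : SU 3 F q) : Matrix.SpecialLinearGroup (Fin 3) F) : Matrix (Fin 3) (Fin 3) F) =
    ((A * (g : GL (Fin 3) F) * A⁻¹ : GL (Fin 3) F) : Matrix (Fin 3) (Fin 3) F) := fun g => rfl
  refine ⟨MulEquiv.ofBijective f ⟨?_, ?_⟩⟩
  · intro g h he
    have h1 : ((A * (g : GL (Fin 3) F) * A⁻¹ : GL (Fin 3) F) : Matrix (Fin 3) (Fin 3) F) =
      ((A * (h : GL (Fin 3) F) * A⁻¹ : GL (Fin 3) F) : Matrix (Fin 3) (Fin 3) F) :=
      congrArg (fun x : SU 3 F q => ((x : Matrix.SpecialLinearGroup (Fin 3) F) : Matrix (Fin 3) (Fin 3) F)) he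
    have h2 := mul_right_cancel (Units.ext h1)
    exact Subtype.ext (mul_left_cancel h2)
  · intro N
    let N' : GL (Fin 3) F := Matrix.SpecialLinearGroup.toGL (N : Matrix.SpecialLinearGroup (Fin 3) F)
    have hN' : (N' : Matrix (Fin 3) (Fin 3) F) = ((N : Matrix.SpecialLinearGroup (Fin 3) F) : Matrix (Fin 3) (Fin 3) F) := rfl
    have hNf : ∀ u v, hermForm 3 F q ((N' : Matrix (Fin 3) (Fin 3) F) *ᵥ u) ((N' : Matrix (Fin 3) (Fin 3) F) *ᵥ v) =
      hermForm 3 F q u v := fun u v => N.2 u v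
    have hM : A⁻¹ * N' * A ∈ SUJ F q := by
      refine ⟨?_, ?_⟩
      · have := hdetc A⁻¹ N'
        rw [inv_inv] at this
        rw [this, hN']
        exact (N : Matrix.SpecialLinearGroup (Fin 3) F).2
      · intro u v
        rw [← hherm, Units.val_mul, Units.val_mul, ← mulVec_mulVec, ← mulVec_mulVec, ← mulVec_mulVec, ← mulVec_mulVec,
          hAi, hAi, hNf, hA, hherm]
    refine ⟨⟨_, hM⟩, ?_⟩
    apply Subtype.ext; apply Subtype.ext
    rw [hf, ← hN']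
    congr 1
    show A * (A⁻¹ * N' * A) * A⁻¹ = N'
    group

theorem exists_equiv_PSU (hF : Fintype.card F = q ^ 2) (h3 : Nat.gcd 3 (q + 1) = 1) :
    Nonempty (SUJ F q ≃* PSU 3 F q) := by
  obtain ⟨e⟩ := exists_equiv hF
  have h1 : Subgroup.center (SU 3 F q) = ⊥ := by
    rw [← Subgroup.card_eq_one]
    rw [card_center_SU hF (n := 3) (by norm_num), h3]
  let f : SU 3 F q →* PSU 3 F q := QuotientGroup.mk' _
  have hf : Function.Bijective f := by
    refine ⟨?_, QuotientGroup.mk'_surjective _⟩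
    rw [← MonoidHom.ker_eq_bot_iff, QuotientGroup.ker_mk', h1]
  exact ⟨e.trans (MulEquiv.ofBijective f hf)⟩

end SUJ

section C1
variable {F : Type*} [Field F]

def dm (x y : F) : Matrix (Fin 3) (Fin 3) F := !![x, 0, 0; 0, y, 0; 0, 0, x]

theorem dm_mul (x y x' y' : F) : dm x y * dm x' y' = dm (x * x') (y * y') := by
  unfold dm
  ext i j; fin_cases i <;> fin_cases j <;> simp [Matrix.mul_apply, Fin.sum_univ_three]

theorem dm_one : dm (1 : F) 1 = 1 := by
  unfold dm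
  ext i j; fin_cases i <;> fin_cases j <;> simp

/-- diagonal elements -/
def dg (l : Fˣ) : GL (Fin 3) F :=
  ⟨dm (l : F) (((l⁻¹ : Fˣ) : F) ^ 2), dm ((l⁻¹ : Fˣ) : F) ((l : F) ^ 2), by
    rw [dm_mul, ← dm_one, ← mul_pow]; simp, by
    rw [dm_mul, ← dm_one, ← mul_pow]; simp⟩

theorem dg_val (l : Fˣ) : ((dg l : GL (Fin 3) F) : Matrix (Fin 3) (Fin 3) F) = dm (l : F) (((l⁻¹ : Fˣ) : F) ^ 2) := rfl

theorem dg_mul (l m : Fˣ) : dg l * dg m = dg (l * m) := by
  apply Units.ext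
  rw [Units.val_mul, dg_val, dg_val, dg_val, dm_mul]
  congr 1
  rw [mul_inv, Units.val_mul, mul_pow]

theorem dg_one : dg (1 : Fˣ) = 1 := by
  apply Units.ext
  rw [dg_val]
  show dm _ _ = (1 : Matrix (Fin 3) (Fin 3) F)
  rw [← dm_one]; simp

theorem dg_inv (l : Fˣ) : (dg l)⁻¹ = dg l⁻¹ := by
  rw [inv_eq_iff_mul_eq_one, dg_mul, mul_inv_cancel, dg_one]

theorem conj_ug (l : Fˣ) (a b c : F) :
    dg l * ug a b c * (dg l)⁻¹ = ug ((l : F) ^ 3 * a) b (((l⁻¹ : Fˣ) : F) ^ 3 * c) := by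
  rw [mul_inv_eq_iff_eq_mul]
  apply Units.ext
  rw [Units.val_mul, Units.val_mul, dg_val, ug_val, ug_val]
  have h : (l : F) * ((l⁻¹ : Fˣ) : F) = 1 := by rw [← Units.val_mul, mul_inv_cancel, Units.val_one]
  unfold dm um
  ext i j
  fin_cases i <;> fin_cases j <;> simp [Matrix.mul_apply, Fin.sum_univ_three]
  all_goals
    have hl : (l : F) ≠ 0 := l.ne_zero
    field_simp

variable [Fintype F]

/-- the centralizer of a transvection -/
def C1 (F : Type*) [Field F] : Subgroup (GL (Fin 3) F) := SUJ F 4 ⊓ Subgroup.centralizer {ug 0 1 0}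

theorem U3_le_SUJ {q : ℕ} (hF : Fintype.card F = q ^ 2) : U3 hF ≤ SUJ F q := by
  rintro _ ⟨a, b, h, rfl⟩
  exact ⟨um_det _ _ _, fun u v => um_herm hF h u v⟩

omit [Fintype F] in
theorem dg_mem_SUJ {l : Fˣ} (hl : l ^ 5 = 1) : dg l ∈ SUJ F 4 := by
  have hl0 : (l : F) ≠ 0 := l.ne_zero
  have hl5 : (l : F) ^ 5 = 1 := by rw [← Units.val_pow_eq_pow_val, hl, Units.val_one]
  refine ⟨?_, ?_⟩
  · rw [dg_val, dm, Matrix.det_fin_three]
    simp
    field_simp
  · intro u v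
    have e : ∀ w : Fin 3 → F, ((dg l : GL (Fin 3) F) : Matrix (Fin 3) (Fin 3) F) *ᵥ w =
        ![(l : F) * w 0, ((l⁻¹ : Fˣ) : F) ^ 2 * w 1, (l : F) * w 2] := by
      intro w
      rw [dg_val]; unfold dm
      ext i; fin_cases i <;> simp [Matrix.mulVec, dotProduct, Fin.sum_univ_three]
    rw [e, e]
    unfold J
    simp only [Matrix.cons_val_zero, Matrix.cons_val_one, Matrix.cons_val]
    have hi5 : (((l⁻¹ : Fˣ) : F)) ^ 5 = 1 := by
      rw [← Units.val_pow_eq_pow_val, inv_pow, hl, inv_one, Units.val_one]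
    generalize (((l⁻¹ : Fˣ) : F)) = m at hi5
    generalize (l : F) = k at hl5
    have h1 : k * u 0 * (k * v 2) ^ 4 = k ^ 5 * (u 0 * v 2 ^ 4) := by ring
    have h2 : k * u 2 * (k * v 0) ^ 4 = k ^ 5 * (u 2 * v 0 ^ 4) := by ring
    have h3 : m ^ 2 * u 1 * (m ^ 2 * v 1) ^ 4 = (m ^ 5) ^ 2 * (u 1 * v 1 ^ 4) := by ring
    rw [h1, h2, h3, hl5, hi5]; ring

theorem U3_le_C1 (hF : Fintype.card F = 4 ^ 2) : U3 hF ≤ C1 F := by
  refine le_inf (U3_le_SUJ hF) ?_
  rintro _ ⟨a, b, h, rfl⟩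
  rw [Subgroup.mem_centralizer_singleton_iff, ug_mul, ug_mul]
  congr 1 <;> ring

omit [Fintype F] in
theorem dg_mem_C1 {l : Fˣ} (hl : l ^ 5 = 1) : dg l ∈ C1 F := by
  refine Subgroup.mem_inf.mpr ⟨dg_mem_SUJ hl, ?_⟩
  rw [Subgroup.mem_centralizer_singleton_iff, ← mul_inv_eq_iff_eq_mul, conj_ug, mul_zero, mul_zero]

theorem form_C1 (hF : Fintype.card F = 4 ^ 2) {M : GL (Fin 3) F} (hM : M ∈ C1 F) :
    ∃ l : Fˣ, l ^ 5 = 1 ∧ ∃ u ∈ U3 hF, M = u * dg l := by
  obtain ⟨hM1, hM2⟩ := Subgroup.mem_inf.mp hM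
  rw [Subgroup.mem_centralizer_singleton_iff] at hM2
  have hM3 : (M : Matrix (Fin 3) (Fin 3) F) * um 0 1 0 = um 0 1 0 * (M : Matrix (Fin 3) (Fin 3) F) := by
    have := congrArg (fun g : GL (Fin 3) F => (g : Matrix (Fin 3) (Fin 3) F)) hM2
    simpa only [Units.val_mul, ug_val] using this
  obtain ⟨m, hm⟩ : ∃ m : Matrix (Fin 3) (Fin 3) F, m = (M : Matrix (Fin 3) (Fin 3) F) := ⟨_, rfl⟩
  rw [← hm] at hM3
  have e00 := congrFun (congrFun hM3 0) 0
  have e01 := congrFun (congrFun hM3 0) 1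
  have e02 := congrFun (congrFun hM3 0) 2
  have e12 := congrFun (congrFun hM3 1) 2
  simp only [Matrix.mul_apply, Fin.sum_univ_three, um] at e00 e01 e02 e12
  simp at e00 e01 e02 e12
  have e3 : m 0 0 = m 2 2 := by linear_combination e02
  have hdet : m 2 2 * m 1 1 * m 2 2 = 1 := by
    have h := hM1.1
    rw [← hm, Matrix.det_fin_three, e00, e01, e12, e3] at h
    linear_combination h
  have hJ : m 2 2 * m 2 2 ^ 4 = 1 := by
    have h := hM1.2 ![1, 0, 0] ![0, 0, 1]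
    rw [← hm] at h
    unfold J at h
    simp [Matrix.mulVec, dotProduct, Fin.sum_univ_three, e00, e01, e12, e3] at h
    exact h
  have hne : m 2 2 ≠ 0 := by
    intro h; rw [h] at hdet; simp at hdet
  let l : Fˣ := Units.mk0 (m 2 2) hne
  have hl : (l : F) = m 2 2 := rfl
  have hl5 : l ^ 5 = 1 := by
    apply Units.ext
    rw [Units.val_pow_eq_pow_val, hl, Units.val_one, ← hJ]; ring
  refine ⟨l, hl5, M * (dg l)⁻¹, ?_, by group⟩
  have hN : M * (dg l)⁻¹ ∈ SUJ F 4 := mul_mem hM1 (inv_mem (dg_mem_SUJ hl5))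
  have hNv : ((M * (dg l)⁻¹ : GL (Fin 3) F) : Matrix (Fin 3) (Fin 3) F) =
      um (m 0 1 * m 2 2 ^ 2) (m 0 2 * (m 2 2)⁻¹) (m 1 2 * (m 2 2)⁻¹) := by
    rw [dg_inv, Units.val_mul, dg_val, ← hm, inv_inv, hl, Units.val_inv_eq_inv_val, hl]
    unfold dm um
    ext i j
    fin_cases i <;> fin_cases j <;> simp [Matrix.mul_apply, Fin.sum_univ_three, e00, e01, e12, e3, hne]
    linear_combination hdet
  have hN2 : M * (dg l)⁻¹ = ug (m 0 1 * m 2 2 ^ 2) (m 0 2 * (m 2 2)⁻¹) (m 1 2 * (m 2 2)⁻¹) := Units.ext hNv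
  rw [hN2] at hN ⊢
  generalize m 0 1 * m 2 2 ^ 2 = a at hN
  generalize m 0 2 * (m 2 2)⁻¹ = b at hN
  generalize m 1 2 * (m 2 2)⁻¹ = c at hN
  have h1 := hN.2 ![0, 1, 0] ![0, 0, 1]
  have h2 := hN.2 ![0, 0, 1] ![0, 0, 1]
  rw [ug_val] at h1 h2
  unfold J um at h1 h2
  simp [Matrix.mulVec, dotProduct, Fin.sum_univ_three] at h1 h2
  have h3 : c = -a ^ 4 := by
    have h4 : c ^ 4 = -a := by linear_combination h1
    have h5 := pow_q_pow_q hF c
    rw [h4, neg_pow_q hF] at h5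
    exact h5.symm
  refine ⟨a, b, ?_, by rw [h3]⟩
  unfold Cd
  rw [h3, neg_pow_q hF, pow_q_pow_q hF] at h2
  linear_combination h2

omit [Fintype F] in
theorem ent {a b c : F} (l : Fˣ) :
    ((ug a b c * dg l : GL (Fin 3) F) : Matrix (Fin 3) (Fin 3) F) 2 2 = l ∧
    ((ug a b c * dg l : GL (Fin 3) F) : Matrix (Fin 3) (Fin 3) F) 2 0 = 0 ∧
    ((ug a b c * dg l : GL (Fin 3) F) : Matrix (Fin 3) (Fin 3) F) 2 1 = 0 := by
  rw [Units.val_mul, ug_val, dg_val]
  unfold um dm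
  simp [Matrix.mul_apply, Fin.sum_univ_three]

theorem card_C1 (hF : Fintype.card F = 4 ^ 2) : Nat.card (C1 F) = 320 := by
  let f : (U3 hF) × {l : Fˣ // l ^ (4 + 1) = 1} → C1 F := fun p =>
    ⟨(p.1 : GL (Fin 3) F) * dg p.2.1, mul_mem (U3_le_C1 hF p.1.2) (dg_mem_C1 p.2.2)⟩
  have hf : Function.Bijective f := by
    refine ⟨?_, ?_⟩
    · rintro ⟨⟨_, a, b, h, rfl⟩, l, hl⟩ ⟨⟨_, a', b', h', rfl⟩, l', hl'⟩ he
      have h1 : ug a b (-a ^ 4) * dg l = ug a' b' (-a' ^ 4) * dg l' := congrArg Subtype.val he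
      have h2 : l = l' := by
        apply Units.ext
        have := congrArg (fun g : GL (Fin 3) F => (g : Matrix (Fin 3) (Fin 3) F) 2 2) h1
        rw [(ent l).1, (ent l').1] at this
        exact this
      subst h2
      have h3 := mul_right_cancel h1
      simp only [h3]
    · rintro ⟨M, hM⟩
      obtain ⟨l, hl, u, hu, rfl⟩ := form_C1 hF hM
      exact ⟨(⟨u, hu⟩, ⟨l, hl⟩), rfl⟩
  rw [← Nat.card_congr (Equiv.ofBijective f hf), Nat.card_prod, card_U3, card_norm_one_units hF]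
  norm_num

/-- the character -/
def psi (hF : Fintype.card F = 4 ^ 2) : C1 F →* F where
  toFun M := ((M : GL (Fin 3) F) : Matrix (Fin 3) (Fin 3) F) 2 2
  map_one' := by simp
  map_mul' := by
    rintro ⟨M, hM⟩ ⟨N, hN⟩
    obtain ⟨l, hl, _, ⟨a, b, h, rfl⟩, rfl⟩ := form_C1 hF hM
    change (((ug a b (-a ^ 4) * dg l) * N : GL (Fin 3) F) : Matrix (Fin 3) (Fin 3) F) 2 2 =
      ((ug a b (-a ^ 4) * dg l : GL (Fin 3) F) : Matrix (Fin 3) (Fin 3) F) 2 2 * (N : Matrix (Fin 3) (Fin 3) F) 2 2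
    rw [Units.val_mul (ug a b (-a ^ 4) * dg l) N, Matrix.mul_apply, Fin.sum_univ_three, (ent l).2.1, (ent l).2.2]
    ring

theorem mem_U3_of_psi (hF : Fintype.card F = 4 ^ 2) {M : C1 F} (h : psi hF M = 1) : (M : GL (Fin 3) F) ∈ U3 hF := by
  obtain ⟨M, hM⟩ := M
  obtain ⟨l, hl, u, hu, rfl⟩ := form_C1 hF hM
  obtain ⟨a, b, hh, rfl⟩ := id hu
  have h1 : ((ug a b (-a ^ 4) * dg l : GL (Fin 3) F) : Matrix (Fin 3) (Fin 3) F) 2 2 = 1 := h
  rw [(ent l).1] at h1
  have h2 : l = 1 := Units.ext h1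
  show ug a b (-a ^ 4) * dg l ∈ U3 hF
  rw [h2, dg_one, mul_one]; exact hu

omit [Fintype F] in
theorem comm_ug (a b c a' b' c' : F) : ⁅ug a b c, ug a' b' c'⁆ = ug 0 (a * c' - a' * c) 0 := by
  rw [commutatorElement_def, ug_inv, ug_inv, ug_mul, ug_mul, ug_mul]
  congr 1 <;> ring

theorem charP_two (hF : Fintype.card F = 4 ^ 2) : CharP F 2 := by
  obtain ⟨p, f, hp, hc, hq, hf⟩ := exists_char hF
  have h2 : p ∣ 4 := by rw [hq]; exact dvd_pow_self p (by omega)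
  have h3 : p = 2 := by
    have : p ∣ 2 ^ 2 := h2
    exact (Nat.prime_dvd_prime_iff_eq hp Nat.prime_two).mp (hp.dvd_of_dvd_pow this)
  subst h3
  exact hc

theorem map_commutator_C1 (hF : Fintype.card F = 4 ^ 2) :
    (commutator (C1 F)).map (C1 F).subtype = U3 hF := by
  have hc2 : (2 : F) = 0 := by
    haveI := charP_two hF
    exact CharTwo.two_eq_zero
  have hle : (commutator (C1 F)).map (C1 F).subtype ≤ U3 hF := by
    rw [Subgroup.map_le_iff_le_comap, _root_.commutator_def, Subgroup.commutator_le]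
    intro y _ w _
    refine mem_U3_of_psi hF (M := ⁅y, w⁆) ?_
    have h1 : psi hF y * psi hF y⁻¹ = 1 := by rw [← map_mul, mul_inv_cancel, map_one]
    have h2 : psi hF w * psi hF w⁻¹ = 1 := by rw [← map_mul, mul_inv_cancel, map_one]
    rw [commutatorElement_def, map_mul, map_mul, map_mul]
    linear_combination psi hF w * psi hF w⁻¹ * h1 + h2
  have hcm : ∀ y w : GL (Fin 3) F, y ∈ C1 F → w ∈ C1 F → ⁅y, w⁆ ∈ (commutator (C1 F)).map (C1 F).subtype := by
    intro y w hy hw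
    refine ⟨⁅(⟨y, hy⟩ : C1 F), ⟨w, hw⟩⁆, ?_, rfl⟩
    rw [_root_.commutator_def]
    exact Subgroup.commutator_mem_commutator (Subgroup.mem_top _) (Subgroup.mem_top _)
  refine le_antisymm hle ?_
  have hz : ∀ b : F, b + b ^ 4 = 0 → ug 0 b 0 ∈ (commutator (C1 F)).map (C1 F).subtype := by
    intro b hb
    obtain ⟨a', ha'⟩ := exists_trace hF (c := b) (by linear_combination hb - b * hc2)
    obtain ⟨β, hβ⟩ := exists_Cd hF (1 : F)
    obtain ⟨β', hβ'⟩ := exists_Cd hF a'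
    have h1 := hcm (ug 1 β (-1 ^ 4)) (ug a' β' (-a' ^ 4)) (U3_le_C1 hF ⟨1, β, hβ, rfl⟩)
      (U3_le_C1 hF ⟨a', β', hβ', rfl⟩)
    rw [comm_ug] at h1
    have h2 : (1 : F) * (-a' ^ 4) - a' * (-1 ^ 4) = b := by linear_combination ha' - a' ^ 4 * hc2
    rwa [h2] at h1
  rintro _ ⟨a, b, h, rfl⟩
  obtain ⟨l, hl5, hl1⟩ : ∃ l : Fˣ, l ^ 5 = 1 ∧ l ^ 3 ≠ 1 := by
    obtain ⟨l, hl5, hl2⟩ := exists_norm_one_ne hF
    refine ⟨l, hl5, ?_⟩
    intro h3
    apply hl2
    have : l ^ 5 = 1 := hl5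
    rw [show 5 = 3 + 2 from rfl, pow_add, h3, one_mul] at this
    exact this
  have hl3 : (l : F) ^ 3 - 1 ≠ 0 := by
    intro h3
    apply hl1
    apply Units.ext
    rw [Units.val_pow_eq_pow_val, Units.val_one]
    linear_combination h3
  obtain ⟨β, hβ⟩ := exists_Cd hF (((l : F) ^ 3 - 1)⁻¹ * a)
  have h1 := hcm (dg l) (ug (((l : F) ^ 3 - 1)⁻¹ * a) β (-(((l : F) ^ 3 - 1)⁻¹ * a) ^ 4)) (dg_mem_C1 hl5)
    (U3_le_C1 hF ⟨_, β, hβ, rfl⟩)
  rw [commutatorElement_def, conj_ug, ug_inv, ug_mul] at h1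
  obtain ⟨a1, b1, hc1, he⟩ := hle h1
  have h2 := (ug_inj he).1
  have h3 : a1 = a := by
    rw [← h2]
    field_simp
    ring
  subst h3
  rw [he] at h1
  have h4 : ug a1 b (-a1 ^ 4) = ug a1 b1 (-a1 ^ 4) * ug 0 (b - b1) 0 := by
    rw [ug_mul]; congr 1 <;> ring
  rw [h4]
  refine mul_mem h1 (hz _ ?_)
  rw [sub_pow_q hF]
  unfold Cd at h hc1
  linear_combination h - hc1

theorem klein_U3 (hF : Fintype.card F = 4 ^ 2) : IsKleinFour (Subgroup.center (U3 hF)) := by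
  haveI := charP_two hF
  have h4 := card_center_U3 hF
  refine ⟨h4, ?_⟩
  have h1 : Monoid.exponent (Subgroup.center (U3 hF)) ∣ 2 := by
    apply Monoid.exponent_dvd_of_forall_pow_eq_one
    intro g
    apply Subtype.ext
    have h2 : (g : U3 hF) ∈ (al hF).ker := center_U3 hF ▸ g.2
    have h3 := sq_of_mem_ker hF h2
    rw [Subgroup.coe_pow, pow_two]; exact h3
  rcases (Nat.dvd_prime Nat.prime_two).mp h1 with h2 | h2
  · exfalso
    have h5 : Subsingleton (Subgroup.center (U3 hF)) := Monoid.exp_eq_one_iff.mp h2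
    have h6 : Nat.card (Subgroup.center (U3 hF)) ≤ 1 := Finite.card_le_one_iff_subsingleton.mpr h5
    omega
  · exact h2

theorem klein_congr {A B : Type*} [Group A] [Group B] (e : A ≃* B) (h : IsKleinFour (Subgroup.center A)) :
    IsKleinFour (Subgroup.center B) := by
  have e' := Subgroup.centerCongr e
  refine ⟨?_, ?_⟩
  · rw [← Nat.card_congr e'.toEquiv]; exact h.card_four
  · rw [← Monoid.exponent_eq_of_mulEquiv e']; exact h.exponent_two

/-- the involution centralizer satisfies the hypotheses -/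
theorem hyp_C1 (hF : Fintype.card F = 4 ^ 2) : Nat.card (C1 F) = 320 ∧ Nat.card (commutator (C1 F)) = 64 ∧
    IsKleinFour (Subgroup.center (commutator (C1 F))) := by
  have e : commutator (C1 F) ≃* U3 hF :=
    ((commutator (C1 F)).equivMapOfInjective (C1 F).subtype (Subgroup.subtype_injective _)).trans
      (MulEquiv.subgroupCongr (map_commutator_C1 hF))
  refine ⟨card_C1 hF, ?_, klein_congr e.symm (klein_U3 hF)⟩
  rw [Nat.card_congr e.toEquiv, card_U3]; norm_num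

theorem main {G : Type*} [Group G] [Finite G] (hG : Nat.card G = 320) (hD : Nat.card (commutator G) = 64)
    (hZ : IsKleinFour (Subgroup.center (commutator G))) (hF : Fintype.card F = 16) :
    ∃ t : Cfsg.PSU 3 F 4, orderOf t = 2 ∧ Nonempty (G ≃* Subgroup.centralizer ({t} : Set (Cfsg.PSU 3 F 4))) := by
  have hF' : Fintype.card F = 4 ^ 2 := hF
  obtain ⟨E⟩ := exists_equiv_PSU (F := F) (q := 4) hF' (by norm_num)
  obtain ⟨h1, h2, h3⟩ := hyp_C1 hF'
  obtain ⟨x, g, b, c, hd, hcl⟩ := star hG hD hZ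
  obtain ⟨x', g', b', c', hd', hcl'⟩ := star h1 h2 h3
  obtain ⟨e⟩ := unique hd hd' hG h1 hcl hcl'
  have hc2 : (2 : F) = 0 := by
    haveI := charP_two hF'
    exact CharTwo.two_eq_zero
  have ht0 : ug (0 : F) 1 0 ∈ SUJ F 4 := U3_le_SUJ hF' ⟨0, 1, by
    unfold Cd; linear_combination hc2, by rw [zero_pow (by norm_num), neg_zero]⟩
  let t0 : SUJ F 4 := ⟨ug 0 1 0, ht0⟩
  have ho : orderOf t0 = 2 := by
    rw [orderOf_eq_prime_iff]
    refine ⟨?_, ?_⟩
    · apply Subtype.ext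
      show ug (0 : F) 1 0 ^ 2 = 1
      rw [pow_two, ug_mul, ← ug_one]
      congr 1
      · ring
      · linear_combination hc2
      · ring
    · intro h
      have h4 : ug (0 : F) 1 0 = ug 0 0 0 := by rw [ug_one]; exact congrArg Subtype.val h
      exact one_ne_zero (ug_inj h4).2.1
  refine ⟨E t0, (orderOf_injective E.toMonoidHom E.injective t0).trans ho, ?_⟩
  let f : C1 F →* Subgroup.centralizer ({E t0} : Set (Cfsg.PSU 3 F 4)) :=
    { toFun := fun c => ⟨E ⟨c.1, (Subgroup.mem_inf.mp c.2).1⟩, by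
        rw [Subgroup.mem_centralizer_singleton_iff, ← map_mul, ← map_mul]
        congr 1
        apply Subtype.ext
        exact Subgroup.mem_centralizer_singleton_iff.mp (Subgroup.mem_inf.mp c.2).2⟩
      map_one' := by
        apply Subtype.ext
        show E _ = 1
        rw [← map_one E]; rfl
      map_mul' := by
        intro c d
        apply Subtype.ext
        show E _ = E _ * E _
        rw [← map_mul]; rfl }
  have hf : Function.Bijective f := by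
    refine ⟨?_, ?_⟩
    · intro c d h
      have h4 : E ⟨c.1, (Subgroup.mem_inf.mp c.2).1⟩ = E ⟨d.1, (Subgroup.mem_inf.mp d.2).1⟩ := congrArg Subtype.val h
      have h5 := congrArg (fun m : SUJ F 4 => (m : GL (Fin 3) F)) (E.injective h4)
      exact Subtype.ext h5
    · rintro ⟨y, hy⟩
      obtain ⟨m, rfl⟩ := E.surjective y
      rw [Subgroup.mem_centralizer_singleton_iff, ← map_mul, ← map_mul] at hy
      have h4 := congrArg Subtype.val (E.injective hy)
      exact ⟨⟨m.1, Subgroup.mem_inf.mpr ⟨m.2, Subgroup.mem_centralizer_singleton_iff.mpr h4⟩⟩, rfl⟩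
  exact ⟨e.trans (MulEquiv.ofBijective f hf)⟩

end C1

end Cfsg.Agent.Lib.Ord320
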