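import Cfsg.Agent.Lib.SympSpec
import Cfsg.Agent.Lib.UnSpec2
import Cfsg.Agent.Lib.PSLTypes
import Cfsg.Agent.Lib.PSL2Orders
import Cfsg.Agent.Lib.ClSL2Syl

/-!
# Elements of order 65 in some classical groups (helper36)
-/

set_option autoImplicit false

namespace Cfsg.Agent.Lib.Ord65

open Module Cfsg Cfsg.Agent.Lib.HermAlg Cfsg.Agent.Lib.PSLTypes

theorem ord_of {Γ : Type*} [Group Γ] {g : Γ} {F K : Type*} [Field F] [Fintype F] [Field K] [Algebra F K] {u : K} {m : ℕ}
    (hu : orderOf u = m) (hm : m ≠ 0) (hq : (Fintype.card F - 1).Coprime m) (h : ∀ k, g ^ k = 1 → ∃ c : F, u ^ k = algebraMap F K c)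
    (hgm : g ^ m = 1) : orderOf g = m := by
  apply Nat.dvd_antisymm (orderOf_dvd_of_pow_eq_one hgm)
  obtain ⟨c, hc⟩ := h _ (pow_orderOf_eq_one g)
  have hu0 : u ≠ 0 := by
    rintro rfl
    have := pow_orderOf_eq_one (0 : K)
    rw [hu, zero_pow hm] at this
    exact zero_ne_one this
  have hc0 : c ≠ 0 := by
    rintro rfl
    rw [map_zero] at hc
    exact pow_ne_zero _ hu0 hc
  have h1 : u ^ (orderOf g * (Fintype.card F - 1)) = 1 := by
    rw [pow_mul, hc, ← map_pow, FiniteField.pow_card_sub_one_eq_one c hc0, map_one]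
  have h2 := orderOf_dvd_of_pow_eq_one h1
  rw [hu] at h2
  exact Nat.Coprime.dvd_of_dvd_mul_right hq.symm h2

/-- an element of order 65 in an extension -/
theorem exists_u {F : Type*} [Field F] [Fintype F] (d : ℕ) (hd : 1 ≤ d) (h : Fintype.card F ^ d = 4096) :
    ∃ (K : Type) (_ : Field K) (_ : Algebra F K) (_ : Finite K), finrank F K = d ∧ ∃ u : K, orderOf u = 65 := by
  obtain ⟨K, _, _, _, hK, z, hz, hzo, -⟩ := exists_ext F d hd
  refine ⟨K, inferInstance, inferInstance, inferInstance, hK, ((z ^ 63 : Kˣ) : K), ?_⟩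
  rw [orderOf_units, orderOf_pow, hzo, Nat.card_eq_fintype_card, h]
  norm_num

/-- the trace form -/
theorem isHerm_trace {F K : Type*} [Field F] [Fintype F] [CharP F 2] [Field K] [Algebra F K] [Finite K] (θ : K ≃ₐ[F] K)
    (hθ : ∀ x, θ (θ x) = x) : IsHerm (RingHom.id F) (-1) (fun x y => Algebra.trace F K (x * θ y)) where
  add_left x y z := by rw [add_mul, map_add]
  smul_left c x y := by rw [Algebra.smul_mul_assoc, map_smul, smul_eq_mul]
  symm x y := by
    have h1 : (-1 : F) = 1 := by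
      have : CharP F 2 := inferInstance
      exact CharTwo.neg_eq 1
    rw [h1, one_mul, RingHom.id_apply, ← Algebra.trace_eq_of_algEquiv θ (x * θ y)]
    congr 1
    rw [map_mul θ, hθ, mul_comm]
  nondeg x hx := by
    have : FiniteDimensional F K := Module.Finite.of_finite
    apply (traceForm_nondegenerate F K).1 x
    intro y
    have := hx (θ.symm y)
    rw [AlgEquiv.apply_symm_apply] at this
    exact this

theorem alt_trace {F K : Type*} [Field F] [Fintype F] [CharP F 2] [Field K] [Algebra F K] [Fintype K] (θ : K ≃ₐ[F] K)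
    {Q : ℕ} (hK : Fintype.card K = Q ^ 2) (hθ : ∀ x, θ x = x ^ Q) (x : K) : Algebra.trace F K (x * θ x) = 0 := by
  have h1 : (x * θ x) ^ Q = x * θ x := by
    rw [hθ, mul_pow, ← pow_mul, ← sq, ← hK, FiniteField.pow_card, mul_comm]
  obtain ⟨a, ha⟩ := Cfsg.Agent.Lib.ClUnitary.exists_trace hK h1
  rw [← ha, ← hθ, map_add, Algebra.trace_eq_of_algEquiv]
  exact CharTwo.add_self_eq_zero _

/-- the Frobenius powers -/
theorem exists_theta {F K : Type*} [Field F] [Fintype F] [Field K] [Algebra F K] [Finite K] (m : ℕ) :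
    ∃ θ : K ≃ₐ[F] K, ∀ x, θ x = x ^ (Fintype.card F ^ m) := by
  refine ⟨(FiniteField.frobeniusAlgEquivOfAlgebraic F K) ^ m, fun x => ?_⟩
  induction m generalizing x with
  | zero => simp
  | succ m ih =>
    rw [pow_succ, AlgEquiv.mul_apply, ih, FiniteField.coe_frobeniusAlgEquivOfAlgebraic, ← pow_mul, pow_succ, mul_comm]

theorem charTwo {F : Type*} [Field F] [Fintype F] {m : ℕ} (h : Fintype.card F = 2 ^ m) : CharP F 2 := by
  obtain ⟨p, hp⟩ := CharP.exists F
  obtain ⟨n, hpp, hn⟩ := FiniteField.card F p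
  have h1 : p ∣ 2 ^ m := by
    rw [← h, hn]
    exact dvd_pow_self p n.ne_zero
  have h2 := (Nat.prime_dvd_prime_iff_eq hpp Nat.prime_two).mp (hpp.dvd_of_dvd_pow h1)
  rw [← h2]
  exact hp

theorem lmul_pow {F K : Type*} [Field F] [Field K] [Algebra F K] (u : K) (k : ℕ) (c : F) :
    (Algebra.lmul F K u) ^ k = c • (1 : Module.End F K) ↔ u ^ k = algebraMap F K c := by
  rw [← map_pow]
  constructor
  · intro h
    have := LinearMap.congr_fun h 1
    simpa [Algebra.smul_def] using this
  · intro h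
    apply LinearMap.ext
    intro x
    simp [h, Algebra.smul_def]

/-- `PSp₄(8)` -/
theorem psp2 {F : Type*} [Field F] [Fintype F] (h8 : Fintype.card F = 8) : ∃ g : PSp 2 F, orderOf g = 65 := by
  have hch : CharP F 2 := charTwo (m := 3) h8
  obtain ⟨K, _, _, _, hd, u, hu⟩ := exists_u (F := F) 4 (by norm_num) (by rw [h8]; norm_num)
  have := Fintype.ofFinite K
  have hK : Fintype.card K = 64 ^ 2 := by
    rw [Module.card_eq_pow_finrank (K := F) (V := K), hd, h8]; norm_num
  obtain ⟨θ, hθ⟩ := exists_theta (F := F) (K := K) 2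
  rw [h8] at hθ
  norm_num at hθ
  have hθθ : ∀ x, θ (θ x) = x := by
    intro x
    rw [hθ, hθ, ← pow_mul]
    norm_num
    have := FiniteField.pow_card x
    rw [hK] at this
    norm_num at this
    exact this
  have hu65 : u ^ 65 = 1 := by rw [← hu]; exact pow_orderOf_eq_one u
  obtain ⟨g, hg⟩ := Cfsg.Agent.Lib.SympSpec.exists_psp (n := 2) (by rw [hd]) (isHerm_trace θ hθθ)
    (alt_trace θ hK hθ) (Algebra.lmul F K u) (by
      intro x y
      show Algebra.trace F K (u * x * θ (u * y)) = Algebra.trace F K (x * θ y)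
      congr 1
      rw [map_mul, hθ u]
      calc u * x * (u ^ 64 * θ y) = u ^ 65 * (x * θ y) := by ring
        _ = _ := by rw [hu65, one_mul])
  refine ⟨g, ord_of hu (by norm_num) (by rw [h8]; norm_num) (fun k hk => ?_) ?_⟩
  · obtain ⟨c, hc⟩ := (hg k).mp hk
    exact ⟨c, (lmul_pow u k c).mp hc⟩
  · rw [hg]
    exact ⟨1, (lmul_pow u 65 1).mpr (by rw [hu65, map_one])⟩

/-- `PSp₆(8)` -/
theorem psp3 {F : Type*} [Field F] [Fintype F] (h8 : Fintype.card F = 8) : ∃ g : PSp 3 F, orderOf g = 65 := by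
  have hch : CharP F 2 := charTwo (m := 3) h8
  obtain ⟨K, _, _, _, hd, u, hu⟩ := exists_u (F := F) 4 (by norm_num) (by rw [h8]; norm_num)
  obtain ⟨K', _, _, _, hd', -⟩ := exists_ext F 2 (by norm_num)
  have := Fintype.ofFinite K
  have := Fintype.ofFinite K'
  have hK : Fintype.card K = 64 ^ 2 := by
    rw [Module.card_eq_pow_finrank (K := F) (V := K), hd, h8]; norm_num
  have hK' : Fintype.card K' = 8 ^ 2 := by
    rw [Module.card_eq_pow_finrank (K := F) (V := K'), hd', h8]
  obtain ⟨θ, hθ⟩ := exists_theta (F := F) (K := K) 2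
  obtain ⟨θ', hθ'⟩ := exists_theta (F := F) (K := K') 1
  rw [h8] at hθ hθ'
  norm_num at hθ hθ'
  have hθθ : ∀ x, θ (θ x) = x := by
    intro x
    rw [hθ, hθ, ← pow_mul]
    norm_num
    have := FiniteField.pow_card x
    rw [hK] at this
    norm_num at this
    exact this
  have hθθ' : ∀ x, θ' (θ' x) = x := by
    intro x
    rw [hθ', hθ', ← pow_mul]
    norm_num
    have := FiniteField.pow_card x
    rw [hK'] at this
    norm_num at this
    exact this
  have hu65 : u ^ 65 = 1 := by rw [← hu]; exact pow_orderOf_eq_one u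
  have h1 := isHerm_trace θ hθθ
  have h2 := isHerm_trace θ' hθθ'
  have h3 : IsHerm (RingHom.id F) (-1) (fun x y : K × K' => Algebra.trace F K (x.1 * θ y.1) + Algebra.trace F K' (x.2 * θ' y.2)) := by
    refine ⟨fun x y z => ?_, fun c x y => ?_, fun x y => ?_, fun x hx => ?_⟩
    · have a := h1.add_left x.1 y.1 z.1
      have b := h2.add_left x.2 y.2 z.2
      show Algebra.trace F K ((x.1 + y.1) * θ z.1) + Algebra.trace F K' ((x.2 + y.2) * θ' z.2) = _
      rw [a, b]; ring
    · have a := h1.smul_left c x.1 y.1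
      have b := h2.smul_left c x.2 y.2
      show Algebra.trace F K ((c • x.1) * θ y.1) + Algebra.trace F K' ((c • x.2) * θ' y.2) = _
      rw [a, b]; ring
    · have a := h1.symm x.1 y.1
      have b := h2.symm x.2 y.2
      simp only [RingHom.id_apply] at a b ⊢
      rw [a, b]; ring
    · have a := h1.nondeg x.1 fun y => by
        have := hx (y, 0)
        simpa using this
      have b := h2.nondeg x.2 fun y => by
        have := hx (0, y)
        simpa using this
      exact Prod.ext a b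
  have : FiniteDimensional F K := Module.Finite.of_finite
  have : FiniteDimensional F K' := Module.Finite.of_finite
  obtain ⟨g, hg⟩ := Cfsg.Agent.Lib.SympSpec.exists_psp (n := 3) (V := K × K') (by rw [finrank_prod, hd, hd']) h3
    (fun x => by
      show Algebra.trace F K (x.1 * θ x.1) + Algebra.trace F K' (x.2 * θ' x.2) = 0
      rw [alt_trace θ hK hθ, alt_trace θ' hK' hθ', add_zero]) ((Algebra.lmul F K u).prodMap LinearMap.id) (by
      intro x y
      show Algebra.trace F K (u * x.1 * θ (u * y.1)) + Algebra.trace F K' (x.2 * θ' y.2) =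
        Algebra.trace F K (x.1 * θ y.1) + Algebra.trace F K' (x.2 * θ' y.2)
      congr 2
      rw [map_mul, hθ u]
      calc u * x.1 * (u ^ 64 * θ y.1) = u ^ 65 * (x.1 * θ y.1) := by ring
        _ = _ := by rw [hu65, one_mul])
  have hpow : ∀ k : ℕ, ((Algebra.lmul F K u).prodMap (LinearMap.id : K' →ₗ[F] K') : Module.End F (K × K')) ^ k =
      ((Algebra.lmul F K u) ^ k).prodMap (LinearMap.id : K' →ₗ[F] K') := by
    intro k
    induction k with
    | zero => rw [pow_zero, pow_zero]; rfl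
    | succ k ih => rw [pow_succ, ih, pow_succ]; rfl
  refine ⟨g, ord_of hu (by norm_num) (by rw [h8]; norm_num) (fun k hk => ?_) ?_⟩
  · obtain ⟨c, hc⟩ := (hg k).mp hk
    rw [hpow] at hc
    refine ⟨c, (lmul_pow u k c).mp ?_⟩
    apply LinearMap.ext
    intro x
    have := congrArg Prod.fst (LinearMap.congr_fun hc (x, 0))
    exact this
  · rw [hg, hpow, (lmul_pow u 65 1).mpr (by rw [hu65, map_one])]
    exact ⟨1, by rw [one_smul, one_smul]; rfl⟩

/-- `PSL₄(8)` -/
theorem psl4 {F : Type*} [Field F] [Fintype F] (h8 : Fintype.card F = 8) :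
    ∃ g : Matrix.ProjectiveSpecialLinearGroup (Fin 4) F, orderOf g = 65 := by
  obtain ⟨K, _, _, _, hd, u, hu⟩ := exists_u (F := F) 4 (by norm_num) (by rw [h8]; norm_num)
  have hu65 : u ^ 65 = 1 := by rw [← hu]; exact pow_orderOf_eq_one u
  have hdet : LinearMap.det (Algebra.lmul F K u : Module.End F K) = 1 := by
    have h1 : (Algebra.norm F u) ^ 65 = 1 := by rw [← map_pow, hu65, map_one]
    have h2 : Algebra.norm F u ≠ 0 := by
      intro h0
      rw [h0, zero_pow (by norm_num)] at h1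
      exact zero_ne_one h1
    have h3 : (Algebra.norm F u) ^ 7 = 1 := by
      have := FiniteField.pow_card_sub_one_eq_one _ h2
      rw [h8] at this
      exact this
    have h4 : orderOf (Algebra.norm F u) = 1 := by
      have h5 := orderOf_dvd_of_pow_eq_one h1
      have h6 := orderOf_dvd_of_pow_eq_one h3
      exact Nat.eq_one_of_dvd_coprimes (by norm_num : Nat.Coprime 65 7) h5 h6
    exact orderOf_eq_one_iff.mp h4
  have : FiniteDimensional F K := Module.Finite.of_finite
  obtain ⟨g, hg⟩ := Cfsg.Agent.Lib.PSLSpectrum.exists_psl (n := 4) hd _ hdet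
  refine ⟨g, ord_of hu (by norm_num) (by rw [h8]; norm_num) (fun k hk => ?_) ?_⟩
  · obtain ⟨c, hc⟩ := (hg k).mp hk
    exact ⟨c, (lmul_pow u k c).mp hc⟩
  · rw [hg]
    exact ⟨1, (lmul_pow u 65 1).mpr (by rw [hu65, map_one])⟩

/-- `PSL₂(64)` -/
theorem psl2 {F : Type*} [Field F] [Fintype F] (h64 : Fintype.card F = 64) :
    ∃ g : Matrix.ProjectiveSpecialLinearGroup (Fin 2) F, orderOf g = 65 := by
  obtain ⟨K, _, _, _, hd, u, hu⟩ := exists_u (F := F) 2 (by norm_num) (by rw [h64]; norm_num)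
  have hu65 : u ^ 65 = 1 := by rw [← hu]; exact pow_orderOf_eq_one u
  have hdet : LinearMap.det (Algebra.lmul F K u : Module.End F K) = 1 := by
    have h1 : (Algebra.norm F u) ^ 65 = 1 := by rw [← map_pow, hu65, map_one]
    have h2 : Algebra.norm F u ≠ 0 := by
      intro h0
      rw [h0, zero_pow (by norm_num)] at h1
      exact zero_ne_one h1
    have h3 : (Algebra.norm F u) ^ 63 = 1 := by
      have := FiniteField.pow_card_sub_one_eq_one _ h2
      rw [h64] at this
      exact this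
    have h4 : orderOf (Algebra.norm F u) = 1 := by
      have h5 := orderOf_dvd_of_pow_eq_one h1
      have h6 := orderOf_dvd_of_pow_eq_one h3
      exact Nat.eq_one_of_dvd_coprimes (by norm_num : Nat.Coprime 65 63) h5 h6
    exact orderOf_eq_one_iff.mp h4
  have : FiniteDimensional F K := Module.Finite.of_finite
  obtain ⟨g, hg⟩ := Cfsg.Agent.Lib.PSLSpectrum.exists_psl (n := 2) hd _ hdet
  refine ⟨g, ord_of hu (by norm_num) (by rw [h64]; norm_num) (fun k hk => ?_) ?_⟩
  · obtain ⟨c, hc⟩ := (hg k).mp hk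
    exact ⟨c, (lmul_pow u k c).mp hc⟩
  · rw [hg]
    exact ⟨1, (lmul_pow u 65 1).mpr (by rw [hu65, map_one])⟩

/-- `PSU₄(8)` -/
theorem psu4 {F : Type*} [Field F] [Fintype F] (h64 : Fintype.card F = 64) : ∃ g : PSU 4 F 8, orderOf g = 65 := by
  have hF : Fintype.card F = 8 ^ 2 := h64
  have hch : CharP F 2 := charTwo (m := 6) h64
  have : Fact (Nat.Prime 2) := ⟨Nat.prime_two⟩
  obtain ⟨K, _, _, _, hd, u, hu⟩ := exists_u (F := F) 2 (by norm_num) (by rw [h64]; norm_num)
  have hu65 : u ^ 65 = 1 := by rw [← hu]; exact pow_orderOf_eq_one u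
  have hu0 : u ≠ 0 := by
    rintro rfl
    rw [zero_pow (by norm_num)] at hu65
    exact zero_ne_one hu65
  have hdet : Algebra.norm F u = 1 := by
    have h1 : (Algebra.norm F u) ^ 65 = 1 := by rw [← map_pow, hu65, map_one]
    have h2 : Algebra.norm F u ≠ 0 := by
      intro h0
      rw [h0, zero_pow (by norm_num)] at h1
      exact zero_ne_one h1
    have h3 : (Algebra.norm F u) ^ 63 = 1 := by
      have := FiniteField.pow_card_sub_one_eq_one _ h2
      rw [h64] at this
      exact this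
    have h4 : orderOf (Algebra.norm F u) = 1 := by
      have h5 := orderOf_dvd_of_pow_eq_one h1
      have h6 := orderOf_dvd_of_pow_eq_one h3
      exact Nat.eq_one_of_dvd_coprimes (by norm_num : Nat.Coprime 65 63) h5 h6
    exact orderOf_eq_one_iff.mp h4
  have : FiniteDimensional F K := Module.Finite.of_finite
  obtain ⟨θ, hθq, hθ, hθ'⟩ := Cfsg.Agent.Lib.UnSpec.exists_theta 2 hF (K := K)
  obtain ⟨star', l', hSA', hstar'⟩ := isSA_swap (F := F) (K := K) (σ := Cfsg.Agent.Lib.ClUnitary.frob hF) (ε := 1)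
    (Cfsg.Agent.Lib.ClUnitary.frob_frob hF) (by simp)
    (θ : K →+* K) (θ.symm : K →+* K) hθ hθ' (fun x => θ.apply_symm_apply x) (fun x => θ.symm_apply_apply x)
  have hθz0 : θ u ≠ 0 := by
    rw [hθq]; exact pow_ne_zero _ hu0
  obtain ⟨g, hg⟩ := Cfsg.Agent.Lib.UnSpec.exists_of_sa hF (n := 4) (by norm_num) hSA' (by rw [finrank_prod, hd])
    (u, (θ u)⁻¹) (by
      rw [hstar']
      apply Prod.ext
      · show u * θ.symm ((θ u)⁻¹) = 1
        rw [map_inv₀, RingEquiv.symm_apply_apply, mul_inv_cancel₀ hu0]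
      · show (θ u)⁻¹ * θ u = 1
        exact inv_mul_cancel₀ hθz0) (by
      have h5 : Algebra.norm F ((θ u)⁻¹) = 1 := by
        have h6 : Algebra.norm F (θ u) * Algebra.norm F ((θ u)⁻¹) = 1 := by
          rw [← map_mul, mul_inv_cancel₀ hθz0, map_one]
        rw [hθq, map_pow, hdet, one_pow, one_mul] at h6
        rw [hθq]
        exact h6
      rw [Cfsg.Agent.Lib.UnSpec.norm_prod', hdet, h5, one_mul])
  refine ⟨g, ord_of hu (by norm_num) (by rw [h64]; norm_num) (fun k hk => ?_) ?_⟩
  · obtain ⟨c, hc⟩ := (hg k).mp hk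
    exact ⟨c, congrArg Prod.fst hc⟩
  · rw [hg]
    refine ⟨1, ?_⟩
    rw [map_one]
    apply Prod.ext
    · exact hu65
    · show ((θ u)⁻¹) ^ 65 = 1
      rw [inv_pow, ← map_pow, hu65, map_one, inv_one]

end Cfsg.Agent.Lib.Ord65
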