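import Mathlib
import Cfsg.Agent.Lib.OrdDisc2

set_option autoImplicit false

/-! Groups of order 7920 with a disconnected prime graph: normal `p`-subgroups (helper42). -/

namespace Cfsg.Agent.Lib.OrdDisc

open scoped Pointwise

theorem normal_of_normalizer_le {H : Type*} [Group H] [Finite H] (hH : Nat.card H ∣ 7920)
    (h11 : 11 ∣ Nat.card H) [Fact (Nat.Prime 11)] (P : Sylow 11 H)
    (h : Subgroup.normalizer (P : Set H) ≤ Subgroup.centralizer (P : Set H)) : (P : Subgroup H).Normal := by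
  have hc := MonoidHom.ker_transferSylow_isComplement' P h
  have hK : ¬ 11 ∣ Nat.card (MonoidHom.transferSylow P h).ker :=
    MonoidHom.not_dvd_card_ker_transferSylow P h
  have h1 := centralizes hH (MonoidHom.transferSylow P h).ker hK (P : Subgroup H) (sylow_card hH h11 P)
  have h2 : (P : Subgroup H) ≤ Subgroup.centralizer (P : Set H) := Subgroup.le_normalizer.trans h
  have h3 : (⊤ : Subgroup H) ≤ Subgroup.normalizer ((P : Subgroup H) : Set H) := by
    rw [← hc.sup_eq_top]
    exact (sup_le h1 h2).trans (Subgroup.centralizer_le_normalizer _)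
  exact Subgroup.normalizer_eq_top_iff.mp (top_le_iff.mp h3)

/-- the prime graph of a group of order `7920` is disconnected -/
def Disc (G : Type*) [Group G] : Prop :=
  ∃ a2 a3 a5 a11 : Prop, (Ed G 2 3 → (a2 ↔ a3)) ∧ (Ed G 2 5 → (a2 ↔ a5)) ∧ (Ed G 2 11 → (a2 ↔ a11)) ∧
    (Ed G 3 5 → (a3 ↔ a5)) ∧ (Ed G 3 11 → (a3 ↔ a11)) ∧ (Ed G 5 11 → (a5 ↔ a11)) ∧
    ¬ ((a2 ↔ a3) ∧ (a3 ↔ a5) ∧ (a5 ↔ a11))

section

variable {G : Type*} [Group G] [Finite G]

omit [Finite G] in
theorem iso5 (hd : Disc G) (h : (Ed G 2 11 ∧ Ed G 3 11) ∨ (Ed G 2 3 ∧ Ed G 2 11)) :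
    ¬ Ed G 2 5 ∧ ¬ Ed G 3 5 ∧ ¬ Ed G 5 11 := by
  obtain ⟨a2, a3, a5, a11, h1, h2, h3, h4, h5, h6, h7⟩ := hd
  tauto

omit [Finite G] in
theorem conn3 (hd : Disc G) (h1 : Ed G 2 3) (h2 : Ed G 3 5) (h3 : Ed G 3 11) : False := by
  obtain ⟨a2, a3, a5, a11, h1, h2, h3, h4, h5, h6, h7⟩ := hd
  tauto

omit [Finite G] in
theorem conn5 (hd : Disc G) (h1 : Ed G 2 5) (h2 : Ed G 3 5) (h3 : Ed G 5 11) : False := by
  obtain ⟨a2, a3, a5, a11, h1, h2, h3, h4, h5, h6, h7⟩ := hd
  tauto

theorem exists_sub {r k : ℕ} (hr : r.Prime) (h : r ^ k ∣ Nat.card G) : ∃ R : Subgroup G, Nat.card R = r ^ k := by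
  have : Fact r.Prime := ⟨hr⟩
  exact Sylow.exists_subgroup_card_pow_prime r h

theorem step {r k : ℕ} (hr : r.Prime) (hdvd : r ^ k ∣ Nat.card G) (L : Subgroup G) [hLn : L.Normal]
    (hL : ¬ r ∣ Nat.card L) (hE : ∀ p, p.Prime → p ∣ Nat.card L → ¬ Ed G r p) : r ^ k ∣ Nat.card L - 1 := by
  obtain ⟨R, hR⟩ := exists_sub hr hdvd
  rw [← hR]
  exact card_dvd_pred' hr R L (IsPGroup.of_card hR) (fun r _ x hx => hLn.conj_mem x hx r) hL hE

theorem prime_cases {p : ℕ} (hp : p.Prime) (h : p ∣ 7920) : p = 2 ∨ p = 3 ∨ p = 5 ∨ p = 11 := by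
  have h2 : p ∣ 2 ^ 4 * 3 ^ 2 * 5 * 11 := by norm_num; exact h
  rw [hp.dvd_mul, hp.dvd_mul, hp.dvd_mul] at h2
  rcases h2 with ((h2 | h2) | h2) | h2
  · exact Or.inl ((Nat.prime_dvd_prime_iff_eq hp Nat.prime_two).mp (hp.dvd_of_dvd_pow h2))
  · exact Or.inr (Or.inl ((Nat.prime_dvd_prime_iff_eq hp Nat.prime_three).mp (hp.dvd_of_dvd_pow h2)))
  · exact Or.inr (Or.inr (Or.inl ((Nat.prime_dvd_prime_iff_eq hp Nat.prime_five).mp h2)))
  · exact Or.inr (Or.inr (Or.inr ((Nat.prime_dvd_prime_iff_eq hp (by norm_num)).mp h2)))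

theorem five_dvd (hG : Nat.card G = 7920) (h : ¬ Ed G 2 5 ∧ ¬ Ed G 3 5 ∧ ¬ Ed G 5 11) (R L : Subgroup G)
    (hR : Nat.card R = 5) (hnorm : ∀ r ∈ R, ∀ x ∈ L, r * x * r⁻¹ ∈ L) (hL : ¬ 5 ∣ Nat.card L) :
    5 ∣ Nat.card L - 1 := by
  rw [← hR]
  have hRp : IsPGroup 5 R := IsPGroup.of_card (n := 1) (by rw [hR, pow_one])
  apply card_dvd_pred' (by norm_num : Nat.Prime 5) R L hRp hnorm hL
  intro p hp hpL hE
  have h1 : p ∣ 7920 := hG ▸ hpL.trans (Subgroup.card_subgroup_dvd_card L)
  rcases prime_cases hp h1 with rfl | rfl | rfl | rfl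
  · exact h.1 hE.symm
  · exact h.2.1 hE.symm
  · exact hL hpL
  · exact h.2.2 hE

theorem Z11 (hG : Nat.card G = 7920) (hd : Disc G) (P : Subgroup G) [hPn : P.Normal] (hP : Nat.card P = 11) : False := by
  have e3 : Ed G 3 11 := by
    by_contra hcon
    have := step (r := 3) (k := 2) (by norm_num) (by rw [hG]; norm_num) P (by rw [hP]; norm_num) (by
      intro p hp hpL
      rw [hP] at hpL
      rw [(Nat.prime_dvd_prime_iff_eq hp (by norm_num)).mp hpL]; exact hcon)
    rw [hP] at this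
    revert this; decide
  have e2 : Ed G 2 11 := by
    by_contra hcon
    have := step (r := 2) (k := 4) (by norm_num) (by rw [hG]; norm_num) P (by rw [hP]; norm_num) (by
      intro p hp hpL
      rw [hP] at hpL
      rw [(Nat.prime_dvd_prime_iff_eq hp (by norm_num)).mp hpL]; exact hcon)
    rw [hP] at this
    revert this; decide
  have h5 := iso5 hd (Or.inl ⟨e2, e3⟩)
  obtain ⟨k, hk, hkC⟩ := normalizer_centralizer P hP
  have hN : Subgroup.normalizer (P : Set G) = ⊤ := Subgroup.normalizer_eq_top_iff.mpr hPn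
  rw [hN, Subgroup.card_top, hG] at hkC
  have h5C : ¬ 5 ∣ Nat.card (Subgroup.centralizer (P : Set G)) := by
    intro hcon
    exact h5.2.2 (ed_of_centralizer (by norm_num) (by norm_num) (by norm_num) P _
      (fun c hc x hx => ((Subgroup.mem_centralizer_iff.mp hc) x hx).symm) (by rw [hP]) hcon).symm
  obtain ⟨R, hR⟩ := exists_sub (G := G) (r := 5) (k := 1) (by norm_num) (by rw [hG]; norm_num)
  rw [pow_one] at hR
  have h6 := five_dvd hG h5 R (Subgroup.centralizer (P : Set G)) hR (fun r _ x hx =>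
    (inferInstance : (Subgroup.centralizer (P : Set G)).Normal).conj_mem x hx r) h5C
  have hk10 : k ≤ 10 := Nat.le_of_dvd (by norm_num) hk
  generalize Nat.card (Subgroup.centralizer (P : Set G)) = c at *
  interval_cases k <;> revert hk <;> first | decide | (intro _; omega)

theorem pred_of_pow {p : ℕ} (hp : p.Prime) (hG : Nat.card G = 7920) (L : Subgroup G) [hLn : L.Normal]
    (hLp : IsPGroup p L) (r k : ℕ) (hr : r.Prime) (hrp : r ≠ p) (hrk : r ^ k ∣ 7920) (hE : ¬ Ed G r p) :
    r ^ k ∣ Nat.card L - 1 := by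
  have : Fact p.Prime := ⟨hp⟩
  obtain ⟨j, hj⟩ := IsPGroup.iff_card.mp hLp
  apply step hr (by rw [hG]; exact hrk) L
  · rw [hj]
    intro h
    exact hrp ((Nat.prime_dvd_prime_iff_eq hr hp).mp (hr.dvd_of_dvd_pow h))
  · intro s hs hsL
    rw [hj] at hsL
    rw [(Nat.prime_dvd_prime_iff_eq hs hp).mp (hs.dvd_of_dvd_pow hsL)]
    exact hE

theorem Z3 (hG : Nat.card G = 7920) (hd : Disc G) (L : Subgroup G) [hLn : L.Normal]
    (hL : Nat.card L = 3 ∨ Nat.card L = 9) : False := by
  have hLp : IsPGroup 3 L := by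
    rcases hL with h | h
    · exact IsPGroup.of_card (n := 1) (by rw [h, pow_one])
    · exact IsPGroup.of_card (n := 2) (by rw [h]; norm_num)
  have key := pred_of_pow (by norm_num) hG L hLp
  apply conn3 hd
  · by_contra hcon
    have := key 2 4 (by norm_num) (by norm_num) (by norm_num) hcon
    rcases hL with h | h <;> rw [h] at this <;> revert this <;> decide
  · by_contra hcon
    have := key 5 1 (by norm_num) (by norm_num) (by norm_num) (fun h => hcon h.symm)
    rcases hL with h | h <;> rw [h] at this <;> revert this <;> decide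
  · by_contra hcon
    have := key 11 1 (by norm_num) (by norm_num) (by norm_num) (fun h => hcon h.symm)
    rcases hL with h | h <;> rw [h] at this <;> revert this <;> decide

theorem Z5 (hG : Nat.card G = 7920) (hd : Disc G) (L : Subgroup G) [hLn : L.Normal]
    (hL : Nat.card L = 5) : False := by
  have hLp : IsPGroup 5 L := IsPGroup.of_card (n := 1) (by rw [hL, pow_one])
  have key := pred_of_pow (by norm_num) hG L hLp
  apply conn5 hd
  · by_contra hcon
    have := key 2 4 (by norm_num) (by norm_num) (by norm_num) hcon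
    rw [hL] at this; revert this; decide
  · by_contra hcon
    have := key 3 2 (by norm_num) (by norm_num) (by norm_num) hcon
    rw [hL] at this; revert this; decide
  · by_contra hcon
    have := key 11 1 (by norm_num) (by norm_num) (by norm_num) (fun h => hcon h.symm)
    rw [hL] at this; revert this; decide

theorem Z2_pre (hG : Nat.card G = 7920) (hd : Disc G) (L : Subgroup G) [hLn : L.Normal]
    (hLp : IsPGroup 2 L) (hne : L ≠ ⊥) : Nat.card L = 16 ∧ ¬ Ed G 2 5 ∧ ¬ Ed G 3 5 ∧ ¬ Ed G 5 11 := by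
  have key := pred_of_pow (by norm_num) hG L hLp
  have hf : Fact (Nat.Prime 2) := ⟨by norm_num⟩
  obtain ⟨j, hj⟩ := IsPGroup.iff_card.mp hLp
  have hj4 : j ≤ 4 := by
    by_contra hcon
    push Not at hcon
    have h1 : 2 ^ j ∣ 7920 := by rw [← hj, ← hG]; exact Subgroup.card_subgroup_dvd_card L
    have h2 : 2 ^ 5 ∣ 7920 := (pow_dvd_pow 2 hcon).trans h1
    revert h2; decide
  have hj0 : j ≠ 0 := by
    rintro rfl
    rw [pow_zero] at hj
    exact hne (Subgroup.card_eq_one.mp hj)
  have hj1 : 1 ≤ j := Nat.one_le_iff_ne_zero.mpr hj0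
  clear hj0
  have e3 : Ed G 2 3 := by
    by_contra hcon
    have := key 3 2 (by norm_num) (by norm_num) (by norm_num) (fun h => hcon h.symm)
    rw [hj] at this
    interval_cases j <;> revert this <;> decide +revert
  have e11 : Ed G 2 11 := by
    by_contra hcon
    have := key 11 1 (by norm_num) (by norm_num) (by norm_num) (fun h => hcon h.symm)
    rw [hj] at this
    interval_cases j <;> revert this <;> decide +revert
  have h5 := iso5 hd (Or.inr ⟨e3, e11⟩)
  refine ⟨?_, h5⟩
  have := key 5 1 (by norm_num) (by norm_num) (by norm_num) (fun h => h5.1 h.symm)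
  rw [hj] at this ⊢
  interval_cases j <;> revert this <;> decide +revert

/-- No nontrivial normal 2-subgroup. -/
theorem Z2 (hG : Nat.card G = 7920) (hd : Disc G) (L : Subgroup G) [hLn : L.Normal]
    (hLp : IsPGroup 2 L) (hne : L ≠ ⊥) : False := by
  have hf : Fact (Nat.Prime 2) := ⟨by norm_num⟩
  have hf11 : Fact (Nat.Prime 11) := ⟨by norm_num⟩
  obtain ⟨hL16, h25, h35, h511⟩ := Z2_pre hG hd L hLp hne
  -- `L` is abelian
  have hLcomm : L ≤ Subgroup.centralizer (L : Set G) := by
    set Z : Subgroup G := (Subgroup.center L).map L.subtype with hZ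
    have hZn : Z.Normal := by rw [hZ]; infer_instance
    have hZcard : Nat.card Z = Nat.card (Subgroup.center L) :=
      Subgroup.card_map_of_injective (Subgroup.subtype_injective L)
    have hZL : Z ≤ L := Subgroup.map_subtype_le _
    have hnt : Nontrivial L := by
      rw [← Finite.one_lt_card_iff_nontrivial, hL16]; norm_num
    have hZne : Z ≠ ⊥ := by
      have := hLp.center_nontrivial
      intro h
      have h2 : Nat.card (Subgroup.center L) = 1 := by rw [← hZcard, h, Subgroup.card_bot]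
      have h3 := Finite.one_lt_card_iff_nontrivial.mpr this
      omega
    have hZ16 := (Z2_pre hG hd Z (hLp.to_le hZL) hZne).1
    have hZeq : Z = L := Subgroup.eq_of_le_of_card_ge hZL (by rw [hZ16, hL16])
    intro x hx
    rw [Subgroup.mem_centralizer_iff]
    intro y hy
    rw [← hZeq] at hx
    obtain ⟨z, hz, rfl⟩ := hx
    exact congrArg Subtype.val ((Subgroup.mem_center_iff.mp hz) ⟨y, hy⟩)
  obtain ⟨P, hP⟩ := exists_sub (G := G) (r := 11) (k := 1) (by norm_num) (by rw [hG]; norm_num)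
  rw [pow_one] at hP
  have h1 := centralizes (dvd_of_eq hG) L (by rw [hL16]; norm_num) P hP
  have hPC : P ≤ Subgroup.centralizer (L : Set G) := Subgroup.le_centralizer_iff.mp h1
  set C : Subgroup G := Subgroup.centralizer (L : Set G) with hC
  have hCn : C.Normal := by rw [hC]; infer_instance
  have h16 : 16 ∣ Nat.card C := hL16 ▸ Subgroup.card_dvd_of_le hLcomm
  have h11 : 11 ∣ Nat.card C := hP ▸ Subgroup.card_dvd_of_le hPC
  have h5C : ¬ 5 ∣ Nat.card C := by
    intro hcon
    exact h25 (ed_of_centralizer (by norm_num) (by norm_num) (by norm_num) L C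
      (fun c hc x hx => ((Subgroup.mem_centralizer_iff.mp hc) x hx).symm) (by rw [hL16]; norm_num) hcon)
  obtain ⟨R, hR⟩ := exists_sub (G := G) (r := 5) (k := 1) (by norm_num) (by rw [hG]; norm_num)
  rw [pow_one] at hR
  have h6 := five_dvd hG ⟨h25, h35, h511⟩ R C hR (fun r _ x hx => hCn.conj_mem x hx r) h5C
  have hC176 : Nat.card C = 176 := by
    have h176 : 176 ∣ Nat.card C := by
      have : Nat.Coprime 16 11 := by norm_num
      exact this.mul_dvd_of_dvd_of_dvd h16 h11
    obtain ⟨j, hj⟩ := h176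
    have h7 : Nat.card C ∣ 7920 := hG ▸ Subgroup.card_subgroup_dvd_card C
    rw [hj] at h7
    have h8 : j ∣ 45 := by
      have : 176 * j ∣ 176 * 45 := h7
      exact Nat.dvd_of_mul_dvd_mul_left (by norm_num) this
    have h9 : j ≤ 45 := Nat.le_of_dvd (by norm_num) h8
    rw [hj] at h6 h5C ⊢
    interval_cases j <;> first | rfl | (exfalso; revert h8 h6 h5C; decide)
  -- `C = L P`
  have hLP : L ⊔ P = C := by
    apply Subgroup.eq_of_le_of_card_ge (sup_le hLcomm hPC)
    rw [hC176]
    have d1 : 16 ∣ Nat.card (L ⊔ P : Subgroup G) := hL16 ▸ Subgroup.card_dvd_of_le le_sup_left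
    have d2 : 11 ∣ Nat.card (L ⊔ P : Subgroup G) := hP ▸ Subgroup.card_dvd_of_le le_sup_right
    have : Nat.Coprime 16 11 := by norm_num
    exact Nat.le_of_dvd Nat.card_pos (this.mul_dvd_of_dvd_of_dvd d1 d2)
  have hPcomm : P ≤ Subgroup.centralizer (P : Set G) := by
    have hcyc : IsCyclic P := isCyclic_of_prime_card hP
    have : IsMulCommutative P := hcyc.isMulCommutative
    exact Subgroup.le_centralizer P
  have hCP : C ≤ Subgroup.centralizer (P : Set G) := by
    rw [← hLP]
    exact sup_le h1 hPcomm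
  -- `P` is normal in `C`
  have hPn : (P.subgroupOf C).Normal := by
    constructor
    intro x hx g
    have h2 : (x : G) ∈ P := hx
    have h3 : (g : G) * (x : G) * (g : G)⁻¹ = x := by
      have := (Subgroup.mem_centralizer_iff.mp (hCP g.2)) x.1 h2
      rw [← this]; group
    show (g : G) * (x : G) * (g : G)⁻¹ ∈ P
    rw [h3]; exact h2
  have hPcard : Nat.card (P.subgroupOf C) = 11 := by
    rw [Nat.card_congr (Subgroup.subgroupOfEquivOfLe hPC).toEquiv, hP]
  obtain ⟨S, hS⟩ := (IsPGroup.of_card (p := 11) (n := 1) (by rw [hPcard, pow_one]) :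
    IsPGroup 11 (P.subgroupOf C)).exists_le_sylow
  have hCd : Nat.card C ∣ 7920 := hG ▸ Subgroup.card_subgroup_dvd_card C
  have hPS : P.subgroupOf C = (S : Subgroup C) := Subgroup.eq_of_le_of_card_ge hS
    (by rw [hPcard, sylow_card hCd h11])
  have hSn : (S : Subgroup C).Normal := hPS ▸ hPn
  have hSc : (S : Subgroup C).Characteristic := S.characteristic_of_normal hSn
  have hnorm : ((S : Subgroup C).map C.subtype).Normal := inferInstance
  rw [← hPS, Subgroup.subgroupOf_map_subtype, inf_eq_left.mpr hPC] at hnorm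
  exact Z11 hG hd P hP

end

end Cfsg.Agent.Lib.OrdDisc
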