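import Mathlib
import Cfsg.Agent.Lib.OrdDisc3

set_option autoImplicit false

/-! Groups of order 7920 with a disconnected prime graph: the number of Sylow 11-subgroups
(helper42). -/

namespace Cfsg.Agent.Lib.OrdDisc

open scoped Pointwise

theorem n_cases (n : ℕ) (h1 : n ∣ 720) (h2 : n ≡ 1 [MOD 11]) : n = 1 ∨ n = 12 ∨ n = 45 ∨ n = 144 := by
  have h3 : n ∈ Nat.divisors 720 := Nat.mem_divisors.mpr ⟨h1, by norm_num⟩
  have h4 : ∀ n ∈ Nat.divisors 720, n % 11 = 1 → n = 1 ∨ n = 12 ∨ n = 45 ∨ n = 144 := by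
    decide +kernel
  exact h4 n h3 h2

section

variable {G : Type*} [Group G] [Finite G]

theorem normalizer_ne_660 (hG : Nat.card G = 7920) (hd : Disc G) (P : Subgroup G) (hP : Nat.card P = 11)
    (hN : Nat.card (Subgroup.normalizer (P : Set G)) = 660) : False := by
  have hf3 : Fact (Nat.Prime 3) := ⟨by norm_num⟩
  obtain ⟨k, hk, hkC⟩ := normalizer_centralizer P hP
  rw [hN] at hkC
  have hk10 : k ≤ 10 := Nat.le_of_dvd (by norm_num) hk
  set C : Subgroup G := Subgroup.centralizer (P : Set G) with hC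
  have h66 : 66 ∣ Nat.card C := by
    generalize Nat.card C = c at *
    interval_cases k <;> revert hk <;> first | decide | (intro _; omega)
  have hmem : ∀ c ∈ C, ∀ x ∈ P, c * x = x * c := fun c hc x hx => ((Subgroup.mem_centralizer_iff.mp hc) x hx).symm
  have e2 : Ed G 2 11 := (ed_of_centralizer (by norm_num) (by norm_num) (by norm_num) P C hmem (by rw [hP])
    ((by norm_num : 2 ∣ 66).trans h66)).symm
  have e3 : Ed G 3 11 := (ed_of_centralizer (by norm_num) (by norm_num) (by norm_num) P C hmem (by rw [hP])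
    ((by norm_num : 3 ∣ 66).trans h66)).symm
  have h5 := iso5 hd (Or.inl ⟨e2, e3⟩)
  have h5C : ¬ 5 ∣ Nat.card C := by
    intro hcon
    exact h5.2.2 (ed_of_centralizer (by norm_num) (by norm_num) (by norm_num) P C hmem (by rw [hP]) hcon).symm
  -- an element of order 5 in the normalizer
  have hf5 : Fact (Nat.Prime 5) := ⟨by norm_num⟩
  obtain ⟨z, hz⟩ := exists_prime_orderOf_dvd_card' (G := Subgroup.normalizer (P : Set G)) 5 (by rw [hN]; norm_num)
  set R : Subgroup G := Subgroup.zpowers (z : G) with hR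
  have hRcard : Nat.card R = 5 := by rw [hR, Nat.card_zpowers, Subgroup.orderOf_coe, hz]
  have hRN : R ≤ Subgroup.normalizer (P : Set G) := by rw [hR, Subgroup.zpowers_le]; exact z.2
  have hRC : ∀ r ∈ R, ∀ x ∈ C, r * x * r⁻¹ ∈ C := by
    intro r hr x hx
    have hr' := Subgroup.mem_normalizer_iff.mp (hRN hr)
    rw [hC, Subgroup.mem_centralizer_iff] at hx ⊢
    intro y hy
    have h1 : r⁻¹ * y * r ∈ P := by
      have := hr' (r⁻¹ * y * r)
      rw [this]
      have e : r * (r⁻¹ * y * r) * r⁻¹ = y := by group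
      rw [e]; exact hy
    have h2 := hx _ h1
    calc y * (r * x * r⁻¹) = r * ((r⁻¹ * y * r) * x) * r⁻¹ := by group
      _ = r * (x * (r⁻¹ * y * r)) * r⁻¹ := by rw [h2]
      _ = (r * x * r⁻¹) * y := by group
  have h6 := five_dvd hG h5 R C hRcard hRC h5C
  have hC66 : Nat.card C = 66 := by
    generalize Nat.card C = c at *
    interval_cases k <;> revert hk <;> first | decide | (intro _; omega)
  -- the Sylow 3-subgroup of `C`
  have hf11 : Fact (Nat.Prime 11) := ⟨by norm_num⟩
  have hPC : P ≤ C := by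
    have hcyc : IsCyclic P := isCyclic_of_prime_card hP
    have : IsMulCommutative P := hcyc.isMulCommutative
    exact Subgroup.le_centralizer P
  let T : Sylow 3 C := default
  have hTcard : Nat.card (T : Subgroup C) = 3 := by
    have h1 : 3 ∣ Nat.card (T : Subgroup C) := T.dvd_card_of_dvd_card (by rw [hC66]; norm_num)
    obtain ⟨j, hj⟩ := IsPGroup.iff_card.mp T.isPGroup'
    have h2 : Nat.card (T : Subgroup C) ∣ 66 := hC66 ▸ Subgroup.card_subgroup_dvd_card _
    rw [hj] at h1 h2 ⊢
    have h3 : j < 2 := by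
      by_contra hcon
      push Not at hcon
      have : 3 ^ 2 ∣ 66 := (pow_dvd_pow 3 hcon).trans h2
      revert this; decide
    interval_cases j
    · norm_num at h1
    · norm_num
  have hsub : Nat.card (Sylow 3 C) = 1 := by
    have h1 : Nat.card (Sylow 3 C) ∣ (T : Subgroup C).index := T.card_dvd_index
    have h2 : (T : Subgroup C).index = 22 := by
      have := Subgroup.card_mul_index (T : Subgroup C)
      rw [hTcard, hC66] at this
      omega
    rw [h2] at h1
    have h3 : Nat.card (Sylow 3 C) ≡ 1 [MOD 3] := card_sylow_modEq_one 3 C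
    have h4 : Nat.card (Sylow 3 C) = (Subgroup.normalizer ((T : Subgroup C) : Set C)).index := T.card_eq_index_normalizer
    have h5 : 11 ∣ Nat.card (Subgroup.normalizer ((T : Subgroup C) : Set C)) := by
      have hle : P.subgroupOf C ≤ Subgroup.normalizer ((T : Subgroup C) : Set C) := by
        refine le_trans ?_ (Subgroup.centralizer_le_normalizer _)
        intro x hx
        rw [Subgroup.mem_centralizer_iff]
        intro y _
        apply Subtype.ext
        exact hmem y.1 y.2 x.1 hx
      have := Subgroup.card_dvd_of_le hle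
      rwa [Nat.card_congr (Subgroup.subgroupOfEquivOfLe hPC).toEquiv, hP] at this
    have h6 := Subgroup.card_mul_index (Subgroup.normalizer ((T : Subgroup C) : Set C))
    rw [← h4, hC66] at h6
    generalize Nat.card (Sylow 3 C) = n at *
    have h7 : n ≤ 22 := Nat.le_of_dvd (by norm_num) h1
    unfold Nat.ModEq at h3
    obtain ⟨c, hc⟩ := h5
    rw [hc] at h6
    interval_cases n <;> first | rfl | omega
  have hTu : ∀ S : Sylow 3 C, S = T := by
    intro S
    have := (Nat.card_eq_one_iff_unique.mp hsub).1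
    exact Subsingleton.elim _ _
  set T' : Subgroup G := (T : Subgroup C).map C.subtype with hT'
  have hT'card : Nat.card T' = 3 := by
    rw [hT', Subgroup.card_map_of_injective (Subgroup.subtype_injective C), hTcard]
  have hTmem : ∀ x, x ∈ T' ↔ x ∈ C ∧ x ^ 3 = 1 := by
    intro x
    constructor
    · rintro ⟨y, hy, rfl⟩
      refine ⟨y.2, ?_⟩
      have h1 : (⟨y, hy⟩ : (T : Subgroup C)) ^ 3 = 1 := by
        have e := pow_card_eq_one' (x := (⟨y, hy⟩ : (T : Subgroup C)))
        rwa [hTcard] at e
      have h2 : y ^ 3 = 1 := congrArg Subtype.val h1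
      show (y : G) ^ 3 = 1
      have h3 := congrArg Subtype.val h2
      exact h3
    · rintro ⟨hx, hx3⟩
      have h1 : IsPGroup 3 (Subgroup.zpowers (⟨x, hx⟩ : C)) := by
        have : orderOf (⟨x, hx⟩ : C) ∣ 3 ^ 1 := orderOf_dvd_of_pow_eq_one (Subtype.ext (by rw [pow_one]; exact hx3))
        obtain ⟨k, _, hk⟩ := (Nat.dvd_prime_pow (by norm_num)).mp this
        exact IsPGroup.of_card (n := k) (by rw [Nat.card_zpowers, hk])
      obtain ⟨S, hS⟩ := h1.exists_le_sylow
      rw [hTu S] at hS
      exact ⟨⟨x, hx⟩, hS (Subgroup.mem_zpowers _), rfl⟩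
  have h7 := five_dvd hG h5 R T' hRcard (by
    intro r hr x hx
    rw [hTmem] at hx ⊢
    refine ⟨hRC r hr x hx.1, ?_⟩
    rw [conj_pow, hx.2]
    group) (by rw [hT'card]; norm_num)
  rw [hT'card] at h7
  revert h7; decide

end

end Cfsg.Agent.Lib.OrdDisc
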