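import Mathlib
import Cfsg.Agent.Lib.OrdDisc5

set_option autoImplicit false

/-! There is no faithful transitive action of degree 45 of a group of order 7920 with the properties
of a conjugation action on Sylow 11-subgroups, II (helper42). -/

namespace Cfsg.Agent.Lib.OrdDisc

open scoped Pointwise

variable {G Ω : Type*} [Group G] [Finite G] [Finite Ω] [MulAction G Ω]

theorem no_45 [MulAction.IsPretransitive G Ω] (hG : Nat.card G = 7920) (hΩ : Nat.card Ω = 45) (α : Ω)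
    (P C : Subgroup G) (hP : Nat.card P = 11) (hPα : ∀ g ∈ P, g • α = α)
    (hfix : ∀ β, β ≠ α → ∀ g ∈ P, g • β = β → g = 1) (hC8 : 8 ∣ Nat.card C) (hCα : ∀ g ∈ C, g • α = α)
    (hcomm : ∀ c ∈ C, ∀ y ∈ P, c * y = y * c) (hfaith : ∀ g : G, (∀ β : Ω, g • β = β) → g = 1) : False := by
  classical
  have := Fintype.ofFinite Ω
  obtain ⟨s, hsC, hs2, hs1, hF, hF1, hF2⟩ :=
    exists_involution hΩ α P C hP hPα hfix hC8 hCα hcomm hfaith
  have hsα : s • α = α := hCα s hsC
  set m := Nat.card {g : G // IsConj s g ∧ g • α = α} with hm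
  -- fixed point counts of conjugates
  have hfixg : ∀ g : G, IsConj s g → Nat.card {γ : Ω // g • γ = γ} = 23 := by
    intro g hg
    obtain ⟨c, rfl⟩ := isConj_iff.mp hg
    rw [← hF]
    refine Nat.card_congr ⟨fun γ => ⟨c⁻¹ • γ.1, ?_⟩, fun γ => ⟨c • γ.1, ?_⟩, ?_, ?_⟩
    · have h1 := γ.2
      rw [mul_smul, mul_smul] at h1
      calc s • (c⁻¹ • γ.1) = c⁻¹ • (c • (s • (c⁻¹ • γ.1))) := by rw [inv_smul_smul]
        _ = _ := by rw [h1]
    · rw [mul_smul, mul_smul, inv_smul_smul, γ.2]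
    · intro γ; apply Subtype.ext; exact smul_inv_smul c γ.1
    · intro γ; apply Subtype.ext; exact inv_smul_smul c γ.1
  -- first count
  have h1 : 23 * Nat.card {g : G // IsConj s g} = m * 45 := by
    have e1 : Nat.card {p : G × Ω // IsConj s p.1 ∧ p.1 • p.2 = p.2} = 23 * Nat.card {g : G // IsConj s g} := by
      apply MobKlein.card_of_fibers (fun p : {p : G × Ω // IsConj s p.1 ∧ p.1 • p.2 = p.2} =>
        (⟨p.1.1, p.2.1⟩ : {g : G // IsConj s g})) 23
      rintro ⟨g, hg⟩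
      rw [← hfixg g hg]
      refine Nat.card_congr ⟨fun p => ⟨p.1.1.2, ?_⟩, fun γ => ⟨⟨(g, γ.1), hg, γ.2⟩, rfl⟩, ?_, fun γ => rfl⟩
      · have h1 : p.1.1.1 = g := congrArg Subtype.val p.2
        have h2 := p.1.2.2
        rw [h1] at h2; exact h2
      · rintro ⟨⟨⟨a, b⟩, h⟩, hp⟩
        have h1 : a = g := congrArg Subtype.val hp
        subst h1; rfl
    have e2 : Nat.card {p : G × Ω // IsConj s p.1 ∧ p.1 • p.2 = p.2} = m * Nat.card Ω := by
      apply MobKlein.card_of_fibers (fun p : {p : G × Ω // IsConj s p.1 ∧ p.1 • p.2 = p.2} => p.1.2) m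
      intro γ
      obtain ⟨c, hc⟩ := MulAction.exists_smul_eq G α γ
      rw [hm]
      refine Nat.card_congr ⟨fun p => ⟨c⁻¹ * p.1.1.1 * c, ?_, ?_⟩,
        fun g => ⟨⟨(c * g.1 * c⁻¹, γ), ?_, ?_⟩, rfl⟩, ?_, ?_⟩
      · obtain ⟨d, hd⟩ := isConj_iff.mp p.1.2.1
        exact isConj_iff.mpr ⟨c⁻¹ * d, by rw [← hd]; group⟩
      · have h1 : p.1.1.2 = γ := p.2
        have h2 := p.1.2.2
        rw [h1] at h2
        rw [mul_smul, mul_smul, hc, h2, ← hc, inv_smul_smul]
      · obtain ⟨d, hd⟩ := isConj_iff.mp g.2.1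
        exact isConj_iff.mpr ⟨c * d, by rw [← hd]; group⟩
      · show (c * g.1 * c⁻¹) • γ = γ
        rw [mul_smul, mul_smul]
        have h2 : c⁻¹ • γ = α := by rw [← hc, inv_smul_smul]
        rw [h2, g.2.2, hc]
      · rintro ⟨⟨⟨a, b⟩, h⟩, hp⟩
        have h1 : b = γ := hp
        subst h1
        apply Subtype.ext; apply Subtype.ext
        show (c * (c⁻¹ * a * c) * c⁻¹, b) = (a, b)
        congr 1; group
      · rintro ⟨g, hg⟩
        apply Subtype.ext
        show c⁻¹ * (c * g * c⁻¹) * c = g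
        group
    rw [← e1, e2, hΩ]
  have hm0 : m ≠ 0 := by
    have : Nonempty {g : G // IsConj s g ∧ g • α = α} := ⟨⟨s, IsConj.refl s, hsα⟩⟩
    exact Nat.card_pos.ne'
  have hm23 : 23 ≤ m := by
    have h2 : 23 ∣ m * 45 := ⟨_, h1.symm⟩
    have h3 : 23 ∣ m := (by norm_num : Nat.Coprime 23 45).dvd_of_dvd_mul_right h2
    exact Nat.le_of_dvd (Nat.pos_of_ne_zero hm0) h3
  -- second count
  have h2 : Nat.card {p : G × Ω // (IsConj s p.1 ∧ p.1 • α = α) ∧ p.2 ≠ α ∧ p.1 • p.2 = p.2} = 22 * m := by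
    apply MobKlein.card_of_fibers (fun p : {p : G × Ω // (IsConj s p.1 ∧ p.1 • α = α) ∧ p.2 ≠ α ∧ p.1 • p.2 = p.2} =>
      (⟨p.1.1, p.2.1⟩ : {g : G // IsConj s g ∧ g • α = α})) 22
    rintro ⟨g, hg, hgα⟩
    have h3 : Nat.card {γ : Ω // γ ≠ α ∧ g • γ = γ} = 22 := by
      have h4 := hfixg g hg
      have h1 := Nat.card_congr (Equiv.sumCompl (fun γ : {γ : Ω // g • γ = γ} => γ.1 = α)).symm
      rw [Nat.card_sum] at h1
      have h2 : Nat.card {γ : {γ : Ω // g • γ = γ} // γ.1 = α} = 1 := by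
        rw [Nat.card_eq_one_iff_unique]
        exact ⟨⟨fun a b => Subtype.ext (Subtype.ext (a.2.trans b.2.symm))⟩, ⟨⟨⟨α, hgα⟩, rfl⟩⟩⟩
      have h3 : Nat.card {γ : {γ : Ω // g • γ = γ} // ¬ γ.1 = α} = Nat.card {γ : Ω // γ ≠ α ∧ g • γ = γ} :=
        Nat.card_congr ⟨fun x => ⟨x.1.1, x.2, x.1.2⟩, fun x => ⟨⟨x.1, x.2.2⟩, x.2.1⟩, fun x => rfl, fun x => rfl⟩
      omega
    rw [← h3]
    refine Nat.card_congr ⟨fun p => ⟨p.1.1.2, p.1.2.2.1, ?_⟩, fun γ => ⟨⟨(g, γ.1), ⟨hg, hgα⟩, γ.2⟩, rfl⟩, ?_, fun γ => rfl⟩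
    · have h1 : p.1.1.1 = g := congrArg Subtype.val p.2
      have h2 := p.1.2.2.2
      rw [h1] at h2; exact h2
    · rintro ⟨⟨⟨a, b⟩, h⟩, hp⟩
      have h1 : a = g := congrArg Subtype.val hp
      subst h1; rfl
  have h3 : Nat.card {p : G × Ω // (IsConj s p.1 ∧ p.1 • α = α) ∧ p.2 ≠ α ∧ p.1 • p.2 = p.2} =
      ∑ γ : {γ : Ω // γ ≠ α}, Nat.card {g : G // IsConj s g ∧ g • α = α ∧ g • γ.1 = γ.1} := by
    rw [← Nat.card_sigma]
    refine Nat.card_congr ⟨fun p => ⟨⟨p.1.2, p.2.2.1⟩, ⟨p.1.1, p.2.1.1, p.2.1.2, p.2.2.2⟩⟩,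
      fun x => ⟨(x.2.1, x.1.1), ⟨x.2.2.1, x.2.2.2.1⟩, x.1.2, x.2.2.2.2⟩, fun p => rfl, fun x => rfl⟩
  -- two-point stabilizers
  set N : Subgroup G := MulAction.stabilizer G α with hN
  have hNcard : Nat.card N = 176 := by
    have h4 := MulAction.index_stabilizer_of_transitive G α
    have h5 := Subgroup.card_mul_index (MulAction.stabilizer G α)
    rw [h4, hΩ, hG] at h5
    rw [hN]; omega
  have hbound : ∀ γ : {γ : Ω // γ ≠ α}, Nat.card {g : G // IsConj s g ∧ g • α = α ∧ g • γ.1 = γ.1} ≤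
      if s • γ.1 = γ.1 then 15 else 7 := by
    rintro ⟨γ, hγ⟩
    show Nat.card {g : G // IsConj s g ∧ g • α = α ∧ g • γ = γ} ≤ if s • γ = γ then 15 else 7
    set D : Subgroup N := MulAction.stabilizer N γ with hD
    have hc : Nat.card {g : G // IsConj s g ∧ g • α = α ∧ g • γ = γ} + 1 ≤ Nat.card D := by
      rw [← Finite.card_option]
      apply Nat.card_le_card_of_injective (fun o : Option {g : G // IsConj s g ∧ g • α = α ∧ g • γ = γ} =>
        o.elim (1 : D) (fun g => ⟨⟨g.1, g.2.2.1⟩, g.2.2.2⟩))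
      intro x y hxy
      have hne : ∀ z : {g : G // IsConj s g ∧ g • α = α ∧ g • γ = γ}, z.1 ≠ 1 := by
        intro z hz
        have := z.2.1
        rw [hz] at this
        exact hs1 (isConj_one_left.mp this)
      cases x with
      | none =>
        cases y with
        | none => rfl
        | some y =>
          exact absurd (congrArg (fun d : D => ((d : N) : G)) hxy).symm (hne y)
      | some x =>
        cases y with
        | none => exact absurd (congrArg (fun d : D => ((d : N) : G)) hxy) (hne x)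
        | some y =>
          congr 1
          exact Subtype.ext (congrArg (fun d : D => ((d : N) : G)) hxy)
    have horb := Subgroup.card_mul_index D
    rw [hD, MulAction.index_stabilizer, ← hD, hNcard] at horb
    -- P acts freely on the orbit
    have hγorb : ∀ δ ∈ MulAction.orbit N γ, δ ≠ α := by
      rintro δ ⟨n, rfl⟩ h
      have hn : (n : G) • α = α := n.2
      have h' : (n : G) • γ = (n : G) • α := by rw [hn]; exact h
      exact hγ (smul_left_cancel _ h')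
    have h11 : 11 ∣ (MulAction.orbit N γ).ncard := by
      have := card_dvd_of_free_set P (MulAction.orbit N γ) (by
        rintro g hg t ⟨n, rfl⟩
        exact ⟨⟨g, hPα g hg⟩ * n, mul_smul _ _ _⟩) (fun g hg t ht h => hfix t (hγorb t ht) g hg h)
      rwa [hP, Nat.card_coe_set_eq] at this
    obtain ⟨w, hw⟩ := h11
    have hDw : Nat.card D * w = 16 := by
      rw [hw] at horb
      have : 11 * (Nat.card D * w) = 11 * 16 := by
        rw [← mul_assoc, mul_comm 11, mul_assoc]; exact horb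
      exact Nat.eq_of_mul_eq_mul_left (by norm_num) this
    have hD16 : Nat.card D ≤ 16 := Nat.le_of_dvd (by norm_num) ⟨w, hDw.symm⟩
    split_ifs with hsγ
    · omega
    · by_contra hcon
      push Not at hcon
      have hD9 : 9 ≤ Nat.card D := by omega
      have hw1 : w = 1 := by
        have : w ≠ 0 := by rintro rfl; omega
        by_contra hw1
        have : 2 ≤ w := by omega
        have := Nat.mul_le_mul hD9 this
        omega
      have hcardorb : Nat.card (MulAction.orbit N γ) = 11 := by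
        rw [Nat.card_coe_set_eq, hw, hw1]
      let φ : P → MulAction.orbit N γ := fun y => ⟨y.1 • γ, ⟨⟨y.1, hPα y.1 y.2⟩, rfl⟩⟩
      have hφ : Function.Injective φ := by
        intro a b hab
        have h4 : a.1 • γ = b.1 • γ := congrArg Subtype.val hab
        have h5 : (b.1⁻¹ * a.1) • γ = γ := by rw [mul_smul, h4, inv_smul_smul]
        have h6 := hfix γ hγ _ (P.mul_mem (P.inv_mem b.2) a.2) h5
        apply Subtype.ext
        exact (inv_mul_eq_one.mp h6).symm
      have hφs := (hφ.bijective_of_nat_card_le (by rw [hcardorb, hP])).2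
      obtain ⟨y, hy⟩ := hφs ⟨s • γ, ⟨⟨s, hsα⟩, rfl⟩⟩
      have hy1 : y.1 • γ = s • γ := congrArg Subtype.val hy
      have hcomm' : s * y.1 = y.1 * s := hcomm s hsC y.1 y.2
      have h7 : (y.1⁻¹ * s) • γ = γ := by rw [mul_smul, ← hy1, inv_smul_smul]
      have h8 : (y.1⁻¹ * y.1⁻¹) • γ = γ := by
        have e : y.1⁻¹ * y.1⁻¹ = (y.1⁻¹ * s) * (y.1⁻¹ * s) := by
          have e2 : s * y.1⁻¹ = y.1⁻¹ * s := by
            rw [mul_inv_eq_iff_eq_mul, mul_assoc, hcomm', inv_mul_cancel_left]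
          calc y.1⁻¹ * y.1⁻¹ = y.1⁻¹ * y.1⁻¹ * s ^ 2 := by rw [hs2, mul_one]
            _ = y.1⁻¹ * (y.1⁻¹ * s) * s := by rw [pow_two]; simp only [mul_assoc]
            _ = y.1⁻¹ * (s * y.1⁻¹) * s := by rw [e2]
            _ = _ := by simp only [mul_assoc]
        rw [e, mul_smul, h7, h7]
      have h9 := hfix γ hγ _ (P.mul_mem (P.inv_mem y.2) (P.inv_mem y.2)) h8
      have h10 : y.1 ^ 2 = 1 := by
        rw [← mul_inv_rev, inv_eq_one] at h9
        rw [pow_two]; exact h9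
      have h11 : y.1 = 1 := by
        have d1 := orderOf_dvd_of_pow_eq_one h10
        have d2 : orderOf y.1 ∣ 11 := hP ▸ Subgroup.orderOf_dvd_natCard P y.2
        have d3 := Nat.dvd_gcd d1 d2
        have d4 : orderOf y.1 = 1 := Nat.dvd_one.mp (by simpa using d3)
        exact orderOf_eq_one_iff.mp d4
      rw [h11, one_smul] at hy1
      exact hsγ hy1.symm
  have h4 : ∑ γ : {γ : Ω // γ ≠ α}, Nat.card {g : G // IsConj s g ∧ g • α = α ∧ g • γ.1 = γ.1} ≤ 484 := by
    refine (Finset.sum_le_sum fun γ _ => hbound γ).trans ?_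
    rw [Finset.sum_ite, Finset.sum_const, Finset.sum_const, smul_eq_mul, smul_eq_mul]
    have e1 : (Finset.univ.filter (fun γ : {γ : Ω // γ ≠ α} => s • γ.1 = γ.1)).card = 22 := by
      rw [← Fintype.card_subtype, ← Nat.card_eq_fintype_card, ← hF1]
      exact Nat.card_congr ⟨fun x => ⟨x.1.1, x.1.2, x.2⟩, fun x => ⟨⟨x.1, x.2.1⟩, x.2.2⟩, fun x => rfl, fun x => rfl⟩
    have e2 : (Finset.univ.filter (fun γ : {γ : Ω // γ ≠ α} => ¬ s • γ.1 = γ.1)).card = 22 := by
      rw [← Fintype.card_subtype, ← Nat.card_eq_fintype_card, ← hF2]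
      exact Nat.card_congr ⟨fun x => ⟨x.1.1, x.1.2, x.2⟩, fun x => ⟨⟨x.1, x.2.1⟩, x.2.2⟩, fun x => rfl, fun x => rfl⟩
    rw [e1, e2]
  rw [← h3, h2] at h4
  omega

end Cfsg.Agent.Lib.OrdDisc
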