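import Mathlib
import Cfsg.Agent.Lib.OrdDisc4
import Cfsg.Agent.Lib.OrdDisc6

set_option autoImplicit false

/-! Groups of order 7920 with a disconnected prime graph are simple (helper42). -/

namespace Cfsg.Agent.Lib.OrdDisc

open scoped Pointwise

variable {G : Type*} [Group G] [Finite G]

theorem simple_of_disc (hG : Nat.card G = 7920) (hd : Disc G) : IsSimpleGroup G := by
  classical
  have hf2 : Fact (Nat.Prime 2) := ⟨by norm_num⟩
  have hf11 : Fact (Nat.Prime 11) := ⟨by norm_num⟩
  have hGd : Nat.card G ∣ 7920 := dvd_of_eq hG
  have h11G : 11 ∣ Nat.card G := by rw [hG]; norm_num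
  let P : Sylow 11 G := default
  have hP : Nat.card (P : Subgroup G) = 11 := sylow_card hGd h11G P
  have hallcard : ∀ Q : Sylow 11 G, Nat.card (Q : Subgroup G) = 11 := fun Q => sylow_card hGd h11G Q
  have hn : Nat.card (Sylow 11 G) ≡ 1 [MOD 11] := card_sylow_modEq_one 11 G
  have hidx : Nat.card (Sylow 11 G) = (Subgroup.normalizer ((P : Subgroup G) : Set G)).index :=
    P.card_eq_index_normalizer
  have hmul := Subgroup.card_mul_index (Subgroup.normalizer ((P : Subgroup G) : Set G))
  rw [← hidx, hG] at hmul
  have hN11 : 11 ∣ Nat.card (Subgroup.normalizer ((P : Subgroup G) : Set G)) := by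
    have := Subgroup.card_dvd_of_le (Subgroup.le_normalizer (H := (P : Subgroup G)))
    rwa [hP] at this
  have hn720 : Nat.card (Sylow 11 G) ∣ 720 := by
    obtain ⟨c, hc⟩ := hN11
    rw [hc] at hmul
    have : 11 * (c * Nat.card (Sylow 11 G)) = 11 * 720 := by rw [← mul_assoc]; exact hmul
    exact ⟨c, by rw [mul_comm]; exact (Nat.eq_of_mul_eq_mul_left (by norm_num) this).symm⟩
  -- a Sylow subgroup normalizing another one is equal to it
  have hself : ∀ (R : Subgroup G) (Q : Sylow 11 G), Nat.card R = 11 →
      R ≤ Subgroup.normalizer ((Q : Subgroup G) : Set G) → R = Q := by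
    intro R Q hR hle
    have hRp : IsPGroup 11 R := IsPGroup.of_card (n := 1) (by rw [hR, pow_one])
    have h1 : R ⊓ Subgroup.normalizer ((Q : Subgroup G) : Set G) = R ⊓ (Q : Subgroup G) :=
      hRp.inf_normalizer_sylow Q
    rw [inf_eq_left.mpr hle] at h1
    have h2 : R ≤ (Q : Subgroup G) := by rw [h1]; exact inf_le_right
    exact Subgroup.eq_of_le_of_card_ge h2 (by rw [hR, hallcard])
  rcases n_cases _ hn720 hn with hc | hc | hc | hc
  · -- one Sylow subgroup
    exfalso
    rw [hidx, Subgroup.index_eq_one] at hc
    have : (P : Subgroup G).Normal := Subgroup.normalizer_eq_top_iff.mp hc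
    exact Z11 hG hd (P : Subgroup G) hP
  · exfalso
    rw [hc] at hmul
    exact normalizer_ne_660 hG hd (P : Subgroup G) hP (by omega)
  · exfalso
    rw [hc] at hmul
    have hN : Nat.card (Subgroup.normalizer ((P : Subgroup G) : Set G)) = 176 := by omega
    obtain ⟨k, hk, hkC⟩ := normalizer_centralizer (P : Subgroup G) hP
    rw [hN] at hkC
    have hCN : Subgroup.centralizer ((P : Subgroup G) : Set G) ≤ Subgroup.normalizer ((P : Subgroup G) : Set G) :=
      Subgroup.centralizer_le_normalizer _
    have hk10 : k ≤ 10 := Nat.le_of_dvd (by norm_num) hk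
    have hk2 : k = 1 ∨ k = 2 := by
      interval_cases k <;> revert hk <;> first | decide | (intro _; omega)
    rcases hk2 with rfl | rfl
    · rw [one_mul, ← hN] at hkC
      have heq := Subgroup.eq_of_le_of_card_ge hCN hkC.le
      have hnor := normal_of_normalizer_le hGd h11G P heq.ge
      exact Z11 hG hd (P : Subgroup G) hP
    · -- the main case
      have hC88 : Nat.card (Subgroup.centralizer ((P : Subgroup G) : Set G)) = 88 := by omega
      refine no_45 (Ω := Sylow 11 G) hG hc P (P : Subgroup G) (Subgroup.centralizer ((P : Subgroup G) : Set G)) hP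
        ?_ ?_ ?_ ?_ ?_ ?_
      · intro g hg
        exact Sylow.smul_eq_iff_mem_normalizer.mpr (Subgroup.le_normalizer hg)
      · intro Q hQ g hg hgQ
        by_contra hg1
        apply hQ
        have h1 : Nat.card (Subgroup.zpowers g) = 11 := by
          have h2 : orderOf g ∣ 11 := hP ▸ Subgroup.orderOf_dvd_natCard _ hg
          rcases (Nat.dvd_prime (by norm_num)).mp h2 with h3 | h3
          · exact absurd (orderOf_eq_one_iff.mp h3) hg1
          · rw [Nat.card_zpowers, h3]
        have h2 : Subgroup.zpowers g ≤ Subgroup.normalizer ((Q : Subgroup G) : Set G) := by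
          rw [Subgroup.zpowers_le]
          exact Sylow.smul_eq_iff_mem_normalizer.mp hgQ
        have h3 : Subgroup.zpowers g ≤ Subgroup.normalizer ((P : Subgroup G) : Set G) := by
          rw [Subgroup.zpowers_le]
          exact Subgroup.le_normalizer hg
        have h4 := hself _ Q h1 h2
        have h5 := hself _ P h1 h3
        exact Sylow.ext (h4.symm.trans h5)
      · rw [hC88]; norm_num
      · intro g hg
        exact Sylow.smul_eq_iff_mem_normalizer.mpr (hCN hg)
      · intro c hc y hy
        exact ((Subgroup.mem_centralizer_iff.mp hc) y hy).symm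
      · -- faithfulness
        intro g hg
        set L : Subgroup G := (MulAction.toPermHom G (Sylow 11 G)).ker with hL
        have hLmem : ∀ x, x ∈ L → ∀ Q : Sylow 11 G, x ∈ Subgroup.normalizer ((Q : Subgroup G) : Set G) := by
          intro x hx Q
          apply Sylow.smul_eq_iff_mem_normalizer.mp
          have h1 : MulAction.toPermHom G (Sylow 11 G) x = 1 := hx
          have h2 := congrArg (fun e : Equiv.Perm (Sylow 11 G) => e Q) h1
          exact h2
        have hLN : L ≤ Subgroup.normalizer ((P : Subgroup G) : Set G) := fun x hx => hLmem x hx P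
        have hL176 : Nat.card L ∣ 176 := hN ▸ Subgroup.card_dvd_of_le hLN
        have hL11 : ¬ 11 ∣ Nat.card L := by
          intro h11
          obtain ⟨R, hR⟩ := Sylow.exists_subgroup_card_pow_prime (G := L) 11 (n := 1) (by rw [pow_one]; exact h11)
          have hR' : Nat.card (R.map L.subtype) = 11 := by
            rw [Subgroup.card_map_of_injective (Subgroup.subtype_injective L), hR, pow_one]
          have hall : ∀ Q : Sylow 11 G, R.map L.subtype = Q := fun Q => hself _ Q hR' (by
            rintro _ ⟨x, _, rfl⟩
            exact hLmem _ x.2 Q)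
          have hss : Subsingleton (Sylow 11 G) := ⟨fun Q1 Q2 => Sylow.ext ((hall Q1).symm.trans (hall Q2))⟩
          have := Finite.card_le_one_iff_subsingleton.mpr hss
          omega
        have hL2 : IsPGroup 2 L := by
          have h1 : Nat.card L ∣ 2 ^ 4 := by
            have h2 : Nat.Coprime (Nat.card L) 11 := ((Nat.Prime.coprime_iff_not_dvd (by norm_num)).mpr hL11).symm
            exact h2.dvd_of_dvd_mul_right (by norm_num; exact hL176)
          obtain ⟨j, _, hj⟩ := (Nat.dvd_prime_pow Nat.prime_two).mp h1
          exact IsPGroup.of_card hj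
        have hgL : g ∈ L := by
          show MulAction.toPermHom G (Sylow 11 G) g = 1
          ext Q : 1
          exact hg Q
        by_contra hg1
        apply Z2 hG hd L hL2
        intro hbot
        rw [hbot, Subgroup.mem_bot] at hgL
        exact hg1 hgL
  · -- 144 Sylow subgroups
    rw [hc] at hmul
    have hN : Nat.card (Subgroup.normalizer ((P : Subgroup G) : Set G)) = 55 := by omega
    have hNall : ∀ Q : Sylow 11 G, Nat.card (Subgroup.normalizer ((Q : Subgroup G) : Set G)) = 55 := by
      intro Q
      have h1 : Nat.card (Sylow 11 G) = (Subgroup.normalizer ((Q : Subgroup G) : Set G)).index :=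
        Q.card_eq_index_normalizer
      have h2 := Subgroup.card_mul_index (Subgroup.normalizer ((Q : Subgroup G) : Set G))
      rw [← h1, hc, hG] at h2
      omega
    have hnt : Nontrivial G := by
      rw [← Finite.one_lt_card_iff_nontrivial, hG]; norm_num
    refine ⟨fun M hM => ?_⟩
    by_cases h11 : 11 ∣ Nat.card M
    · right
      let S : Sylow 11 M := default
      have hMd : Nat.card M ∣ 7920 := hG ▸ Subgroup.card_subgroup_dvd_card M
      have hS : Nat.card (S : Subgroup M) = 11 := sylow_card hMd h11 S
      set S' : Subgroup G := (S : Subgroup M).map M.subtype with hS'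
      have hS'c : Nat.card S' = 11 := by
        rw [hS', Subgroup.card_map_of_injective (Subgroup.subtype_injective M), hS]
      obtain ⟨Q, hQ⟩ := (IsPGroup.of_card (p := 11) (n := 1) (by rw [hS'c, pow_one]) : IsPGroup 11 S').exists_le_sylow
      have hSQ : S' = (Q : Subgroup G) := Subgroup.eq_of_le_of_card_ge hQ (by rw [hS'c, hallcard])
      have hfrat : Subgroup.normalizer (S' : Set G) ⊔ M = ⊤ := Sylow.normalizer_sup_eq_top S
      have hN55 : Nat.card (Subgroup.normalizer (S' : Set G)) = 55 := by rw [hSQ]; exact hNall Q
      have h3 := Subgroup.relIndex_sup_right (Subgroup.normalizer (S' : Set G)) M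
      rw [hfrat, Subgroup.relIndex_top_right] at h3
      have h4 := Subgroup.card_mul_index (M.subgroupOf (Subgroup.normalizer (S' : Set G)))
      have h4' : Nat.card (M.subgroupOf (Subgroup.normalizer (S' : Set G))) * M.index = 55 := by
        rw [h3, ← hN55]; exact h4
      have h5 := Subgroup.card_mul_index M
      rw [hG] at h5
      have h6 : M.index ∣ 55 := ⟨_, by rw [mul_comm]; exact h4'.symm⟩
      have h7 : ¬ 11 ∣ M.index := by
        intro h
        have : 11 * 11 ∣ 7920 := h5 ▸ mul_dvd_mul h11 h
        revert this; decide
      have h8 : M.index = 1 ∨ M.index = 5 := by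
        have h9 : Nat.Coprime M.index 11 := ((Nat.Prime.coprime_iff_not_dvd (by norm_num)).mpr h7).symm
        have h10 : M.index ∣ 5 := h9.dvd_of_dvd_mul_right (by norm_num; exact h6)
        exact (Nat.dvd_prime (by norm_num)).mp h10
      rcases h8 with h8 | h8
      · exact Subgroup.index_eq_one.mp h8
      · exfalso
        rw [h8] at h4' h5
        have hM : Nat.card M = 1584 := by omega
        have hle : (Subgroup.normalizer ((S : Subgroup M) : Set M)).map M.subtype ≤
            M ⊓ Subgroup.normalizer (S' : Set G) :=
          le_inf (Subgroup.map_subtype_le _) (Subgroup.le_normalizer_map M.subtype)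
        have hc1 : Nat.card (M ⊓ Subgroup.normalizer (S' : Set G) : Subgroup G) = 11 := by
          have h9 : (M.subgroupOf (Subgroup.normalizer (S' : Set G))).map (Subgroup.normalizer (S' : Set G)).subtype =
            M ⊓ Subgroup.normalizer (S' : Set G) := Subgroup.subgroupOf_map_subtype _ _
          rw [← h9, Subgroup.card_map_of_injective (Subgroup.subtype_injective _)]
          omega
        have hc2 : Nat.card (Subgroup.normalizer ((S : Subgroup M) : Set M)) ∣ 11 := by
          have h9 := Subgroup.card_dvd_of_le hle
          rwa [hc1, Subgroup.card_map_of_injective (Subgroup.subtype_injective M)] at h9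
        have heq : (S : Subgroup M) = Subgroup.normalizer ((S : Subgroup M) : Set M) := by
          apply Subgroup.eq_of_le_of_card_ge Subgroup.le_normalizer
          rw [hS]
          exact Nat.le_of_dvd (by norm_num) hc2
        have hcyc : IsCyclic (S : Subgroup M) := isCyclic_of_prime_card hS
        have hcommS : IsMulCommutative (S : Subgroup M) := hcyc.isMulCommutative
        have hnorm := normal_of_normalizer_le hMd h11 S (by
          have h9 : (S : Subgroup M) ≤ Subgroup.centralizer ((S : Subgroup M) : Set M) := Subgroup.le_centralizer _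
          exact heq.ge.trans h9)
        have htop : Subgroup.normalizer ((S : Subgroup M) : Set M) = ⊤ := Subgroup.normalizer_eq_top_iff.mpr hnorm
        rw [htop, Subgroup.card_top, hM] at hc2
        revert hc2; decide
    · left
      have h1 := centralizes hGd M h11 (P : Subgroup G) hP
      have h2 : M ≤ Subgroup.normalizer ((P : Subgroup G) : Set G) := h1.trans (Subgroup.centralizer_le_normalizer _)
      have h3 : Nat.card M ∣ 55 := hN ▸ Subgroup.card_dvd_of_le h2
      have h9 : Nat.Coprime (Nat.card M) 11 := ((Nat.Prime.coprime_iff_not_dvd (by norm_num)).mpr h11).symm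
      have h10 : Nat.card M ∣ 5 := h9.dvd_of_dvd_mul_right (by norm_num; exact h3)
      rcases (Nat.dvd_prime (by norm_num)).mp h10 with h8 | h8
      · exact Subgroup.card_eq_one.mp h8
      · exact (Z5 hG hd M h8).elim

end Cfsg.Agent.Lib.OrdDisc
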