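import Mathlib
import Cfsg.Agent.Lib.Ord5400

/-!
# No simple groups of orders 1800, 2400, 2700, 3600 (helper19)
-/

set_option autoImplicit false
set_option linter.all false

namespace Cfsg.Agent.Lib.OrdTwoFive

open Subgroup MulAction Cfsg.Agent.Lib.SmallSimple Cfsg.Agent.Lib.SmallSieve Cfsg.Agent.Lib.Ord5400

variable {G : Type*} [Group G] [Finite G] [IsSimpleGroup G]

theorem step (hG : ¬ IsMulCommutative G) (m : ℕ) (h' : Nat.card G = 5 ^ 2 * m) (hm : ¬ 5 ∣ m)
    (hd : ∀ d ∈ m.divisors, d % 5 = 1 → d % 25 = 1 → d = 1)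
    (hb : ¬ 2 * (5 ^ 2 * m) ∣ (9).factorial)
    (hc : ∀ t ∈ m.divisors, 10 ≤ m / t → (∃ d ∈ t.divisors, d % 5 = 1 ∧ d ≠ 1) → t = 6 ∨ t = 12) :
    (∀ H : Subgroup G, H ≠ ⊤ → 10 ≤ H.index) ∧ (m = 12 * (m / 12) ∧ ∃ N : Subgroup G, N.index = m / 12) := by
  classical
  have hm0 : m ≠ 0 := by rintro rfl; simp at hm
  obtain ⟨P, R, hPR, hD, hPN, hRN, hNt, t, d, hNc, ht, hdt, hd5, hd1⟩ := exists_pair hG h' hm (by norm_num) (by
    have h1 := nsyl_ne_one hG (p := 5) (by rw [h']; exact ⟨5 * m, by ring⟩)
    intro h2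
    have h3 : Nat.card (Sylow 5 G) ∣ m := nsyl_dvd h' hm
    have h4 := nsyl_mod 5 G
    exact h1 (hd _ (Nat.mem_divisors.2 ⟨h3, hm0⟩) h4 h2))
  set D : Subgroup G := (P : Subgroup G) ⊓ (R : Subgroup G) with hDdef
  set N := normalizer (D : Set G) with hNdef
  have hidx := N.card_mul_index
  have hge : ∀ H : Subgroup G, H ≠ ⊤ → 10 ≤ H.index := by
    intro H hH
    by_contra hcon
    push Not at hcon
    have h1 := two_mul_card_dvd_factorial_index hG H hH
    have h2 : H.index.factorial ∣ (9).factorial := Nat.factorial_dvd_factorial (by omega)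
    have h3 := h1.trans h2
    rw [h'] at h3
    exact hb h3
  have hN10 := hge N hNt
  have ht0 : 0 < t := Nat.pos_of_dvd_of_pos ht (Nat.pos_of_ne_zero hm0)
  have htidx : t * N.index = m := by
    rw [hNc, h'] at hidx
    have : 5 ^ 2 * (t * N.index) = 5 ^ 2 * m := by rw [← mul_assoc, hidx]
    omega
  have hmt : m / t = N.index := by rw [← htidx]; exact Nat.mul_div_cancel_left _ ht0
  have hne5 : P.subtype hPN ≠ R.subtype hRN := by
    intro h1; exact hPR (Sylow.subtype_injective h1)
  rcases hc t (Nat.mem_divisors.2 ⟨ht, hm0⟩) (by rw [hmt]; exact hN10)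
    ⟨d, Nat.mem_divisors.2 ⟨hdt, ht0.ne'⟩, hd5, hd1⟩ with h1 | h1
  · exfalso
    exact hne5 (uniq5 (Or.inl (by rw [hNc, h1]; norm_num)) _ _)
  · subst h1
    refine ⟨hge, ?_, N, hmt.symm⟩
    rw [hmt, htidx]

/-- a subgroup of index 12 -/
theorem idx12 (hG : ¬ IsMulCommutative G) (m : ℕ) (h' : Nat.card G = 5 ^ 2 * m) (hm : ¬ 5 ∣ m)
    (hge : ∀ H : Subgroup G, H ≠ ⊤ → 10 ≤ H.index) (hlt : 5 ^ 2 * m < 239500800) (N : Subgroup G) (hN : N.index = 12) : False := by
  classical
  have hcoat : IsCoatom N := by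
    refine ⟨fun h => by rw [h, index_top] at hN; norm_num at hN, fun M hM => ?_⟩
    by_contra hne
    have h1 := hge M hne
    have h2 : M.index ∣ N.index := index_dvd_of_le hM.le
    rw [hN] at h2
    have h3 : M.index = 12 := by
      have h4 := Nat.le_of_dvd (by norm_num) h2
      interval_cases h5 : M.index <;> simp_all
    have h4 := M.card_mul_index
    have h5 := N.card_mul_index
    rw [h3] at h4
    rw [hN] at h5
    have h6 : Nat.card M = Nat.card N := by omega
    exact hM.ne (Subgroup.eq_of_le_of_card_ge hM.le h6.le)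
  set X := G ⧸ N with hX
  have hXc : Nat.card X = 12 := hN
  have : Finite X := Nat.finite_of_card_ne_zero (by rw [hXc]; norm_num)
  have : Fintype X := Fintype.ofFinite X
  have hXf : Fintype.card X = 12 := by rw [← Nat.card_eq_fintype_card]; exact hXc
  let base : X := ((1 : G) : G ⧸ N)
  obtain ⟨P⟩ : Nonempty (Sylow 5 G) := inferInstance
  have hPc : Nat.card (P : Subgroup G) = 5 ^ 2 := sylow_card_of h' hm P
  -- faithful
  have hinj : Function.Injective (MulAction.toPermHom G X) := by
    rw [← MonoidHom.ker_eq_bot_iff]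
    rcases IsSimpleGroup.eq_bot_or_eq_top_of_normal (MulAction.toPermHom G X).ker inferInstance with h1 | h1
    · exact h1
    · exfalso
      apply hcoat.1
      rw [eq_top_iff]
      intro g _
      have h2 : g ∈ (MulAction.toPermHom G X).ker := by rw [h1]; exact mem_top g
      rw [MonoidHom.mem_ker] at h2
      have h3 : (MulAction.toPermHom G X g) base = base := by rw [h2]; rfl
      change ((g * 1 : G) : G ⧸ N) = ((1 : G) : G ⧸ N) at h3
      rw [eq_comm, QuotientGroup.eq] at h3
      simpa using h3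
  -- an orbit of size 5 of P
  have horb : ∀ x : X, Nat.card (orbit (P : Subgroup G) x) = 1 ∨ Nat.card (orbit (P : Subgroup G) x) = 5 := by
    intro x
    have h1 : Nat.card (orbit (P : Subgroup G) x) ∣ 5 ^ 2 := by
      rw [← hPc, Nat.card_congr (MulAction.orbitEquivQuotientStabilizer (P : Subgroup G) x)]
      exact Subgroup.card_quotient_dvd_card _
    have h2 : Nat.card (orbit (P : Subgroup G) x) ≤ 12 := by
      rw [← hXc]
      exact Nat.card_le_card_of_injective _ Subtype.val_injective
    obtain ⟨k, hk, hk'⟩ := (Nat.dvd_prime_pow (by norm_num)).1 h1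
    interval_cases k
    · left; exact hk'
    · right; exact hk'
    · exfalso; rw [hk'] at h2; norm_num at h2
  -- the fixed points of P
  have hfixne : ∃ x : X, Nat.card (orbit (P : Subgroup G) x) = 5 := by
    by_contra hcon
    push Not at hcon
    have h1 : ∀ x : X, Nat.card (orbit (P : Subgroup G) x) = 1 := fun x => (horb x).resolve_right (hcon x)
    have h2 : ∀ g ∈ (P : Subgroup G), g = 1 := by
      intro g hg
      apply hinj
      rw [map_one]
      ext x
      have h3 : (MulAction.toPermHom G X g) x = x := by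
        have h4 := h1 x
        rw [Nat.card_eq_one_iff_unique] at h4
        have h5 : (⟨g • x, ⟨⟨g, hg⟩, rfl⟩⟩ : orbit (P : Subgroup G) x) = ⟨x, mem_orbit_self x⟩ := h4.1.elim _ _
        exact congrArg Subtype.val h5
      rw [h3]; rfl
    have h3 : (P : Subgroup G) = ⊥ := by rw [eq_bot_iff]; intro g hg; exact mem_bot.2 (h2 g hg)
    rw [h3] at hPc
    norm_num at hPc
  obtain ⟨x₀, hx₀⟩ := hfixne
  set O := orbit (P : Subgroup G) x₀ with hO
  -- the kernel on O
  set φ : (P : Subgroup G) →* Equiv.Perm O := MulAction.toPermHom (P : Subgroup G) O with hφ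
  have hker : φ.ker ≠ ⊥ := by
    intro h1
    have h2 : Function.Injective φ := (MonoidHom.ker_eq_bot_iff φ).1 h1
    have h3 : Nat.card (P : Subgroup G) ∣ Nat.card (Equiv.Perm O) := Subgroup.card_dvd_of_injective φ h2
    rw [Nat.card_perm, hx₀, hPc] at h3
    revert h3; decide +kernel
  obtain ⟨⟨⟨g, hgP⟩, hgk⟩, hg1'⟩ := Subgroup.ne_bot_iff_exists_ne_one.1 hker
  have hg1 : (⟨g, hgP⟩ : (P : Subgroup G)) ≠ 1 := fun h => hg1' (Subtype.ext h)
  have hg1'' : g ≠ 1 := fun h => hg1 (Subtype.ext h)
  have hfixO : ∀ x ∈ O, g • x = x := by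
    intro x hx
    rw [MonoidHom.mem_ker] at hgk
    have h2 : (φ ⟨g, hgP⟩) ⟨x, hx⟩ = ⟨x, hx⟩ := by rw [hgk]; rfl
    exact congrArg Subtype.val h2
  -- the number of fixed points of P
  have hfix : 2 ≤ Nat.card (fixedPoints (P : Subgroup G) X) := by
    have h1 := P.2.card_modEq_card_fixedPoints X
    rw [hXc] at h1
    have h2 : Nat.card (fixedPoints (P : Subgroup G) X) % 5 = 2 := by
      have h3 : 12 % 5 = Nat.card (fixedPoints (P : Subgroup G) X) % 5 := h1
      omega
    omega
  have hgord : ∃ k, orderOf g = 5 ^ k := by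
    obtain ⟨k, hk⟩ := (IsPGroup.iff_orderOf.1 P.2) ⟨g, hgP⟩
    exact ⟨k, by rw [← Subgroup.orderOf_coe] at hk; exact hk⟩
  set τ := MulAction.toPermHom G X g with hτ
  -- support
  have hsub : τ.support ⊆ Finset.univ \ ((Finset.univ.filter (fun x => x ∈ O)) ∪
      (Finset.univ.filter (fun x => x ∈ fixedPoints (P : Subgroup G) X))) := by
    intro x hx
    rw [Equiv.Perm.mem_support] at hx
    rw [Finset.mem_sdiff, Finset.mem_union, not_or]
    refine ⟨Finset.mem_univ _, ?_, ?_⟩
    · intro h1
      exact hx (hfixO x (Finset.mem_filter.1 h1).2)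
    · intro h1
      exact hx ((Finset.mem_filter.1 h1).2 ⟨g, hgP⟩)
  have hdisj : Disjoint (Finset.univ.filter (fun x => x ∈ O))
      (Finset.univ.filter (fun x => x ∈ fixedPoints (P : Subgroup G) X)) := by
    rw [Finset.disjoint_left]
    intro x hx hx'
    have h1 := (Finset.mem_filter.1 hx).2
    have h2 := (Finset.mem_filter.1 hx').2
    have h3 : orbit (P : Subgroup G) x = O := by
      rw [hO]; exact MulAction.orbit_eq_iff.2 h1
    have h4 : Nat.card (orbit (P : Subgroup G) x) = 5 := by rw [h3]; exact hx₀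
    rw [MulAction.mem_fixedPoints_iff_card_orbit_eq_one.1 h2 |> fun h => (Nat.card_eq_fintype_card.trans h)] at h4
    norm_num at h4
  have hcO : (Finset.univ.filter (fun x => x ∈ O)).card = 5 := by
    rw [← hx₀, Nat.card_eq_fintype_card, Fintype.card_subtype]
  have hcF : 2 ≤ (Finset.univ.filter (fun x => x ∈ fixedPoints (P : Subgroup G) X)).card := by
    rw [Nat.card_eq_fintype_card, Fintype.card_subtype] at hfix
    exact hfix
  have hsup5 : τ.support.card ≤ 5 := by
    refine (Finset.card_le_card hsub).trans ?_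
    rw [Finset.card_sdiff_of_subset (Finset.subset_univ _), Finset.card_union_of_disjoint hdisj, hcO, Finset.card_univ, hXf]
    omega
  have hτ1 : τ ≠ 1 := by
    intro h1; exact hg1'' (hinj (by rw [map_one]; exact h1))
  have hgo : orderOf τ = orderOf g := orderOf_injective _ hinj g
  -- the order of τ divides 5!
  have hτ5 : orderOf τ = 5 := by
    obtain ⟨k, hk⟩ := hgord
    rw [hk] at hgo
    have h1 : orderOf τ ∣ 5 := by
      rw [← Equiv.Perm.lcm_cycleType]
      apply Multiset.lcm_dvd.2
      intro n hn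
      have h2 : n ∣ 5 ^ k := by rw [← hgo]; exact Equiv.Perm.dvd_of_mem_cycleType hn
      have h3 := Equiv.Perm.two_le_of_mem_cycleType hn
      have h4 : n ≤ 5 := by
        refine le_trans ?_ hsup5
        rw [← Equiv.Perm.sum_cycleType]
        exact Multiset.le_sum_of_mem hn
      obtain ⟨i, hi, rfl⟩ := (Nat.dvd_prime_pow (by norm_num)).1 h2
      have hi1 : i < 2 := by
        by_contra hc
        push Not at hc
        have := Nat.pow_le_pow_right (n := 5) (by norm_num) hc
        omega
      interval_cases i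
      · norm_num at h3
      · norm_num
    rcases (Nat.dvd_prime (by norm_num)).1 h1 with h2 | h2
    · exact absurd (orderOf_eq_one_iff.1 h2) hτ1
    · exact h2
  have hcyc : τ.IsCycle := by
    apply Equiv.Perm.isCycle_of_prime_order
    · rw [hτ5]; norm_num
    · rw [hτ5]; omega
  have hsupp : τ.support.card = 5 := by rw [← hcyc.orderOf, hτ5]
  have hnt : Nontrivial X := by
    rw [← Fintype.one_lt_card_iff_nontrivial, hXf]; norm_num
  have hprim : IsPreprimitive G X := by
    rw [← isCoatom_stabilizer_iff_preprimitive G base]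
    have : stabilizer G base = N := MulAction.stabilizer_quotient N
    rw [this]; exact hcoat
  have hprim2 : IsPreprimitive (MulAction.toPermHom G X).range X := by
    let f : X →ₑ[(MulAction.toPermHom G X).rangeRestrict] X :=
      { toFun := id
        map_smul' := fun g x => rfl }
    exact IsPreprimitive.of_surjective (f := f) Function.surjective_id
  have hj := JordanCycle.jordan (MulAction.toPermHom G X).range hprim2 (p := 5) (by norm_num) (by rw [hXf]; norm_num)
    hcyc hsupp ⟨g, rfl⟩
  have h1 := Subgroup.card_dvd_of_le hj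
  have h2 : Nat.card (MulAction.toPermHom G X).range = 5 ^ 2 * m := by
    rw [← h']
    exact Nat.card_congr (MonoidHom.ofInjective hinj).symm.toEquiv
  rw [h2] at h1
  have h3 := two_mul_nat_card_alternatingGroup (α := X)
  rw [Nat.card_perm, hXc] at h3
  have h4 := Nat.le_of_dvd (by rw [← h2]; exact Nat.card_pos) h1
  have h5 : (12).factorial = 479001600 := by decide +kernel
  omega

theorem ne_1800 (hG : ¬ IsMulCommutative G) : Nat.card G ≠ 1800 := by
  intro h
  obtain ⟨-, h1, N, h2⟩ := step hG 72 (by rw [h]; norm_num) (by norm_num) (by decide +kernel) (by decide +kernel) (by decide +kernel)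
  obtain ⟨hge, -⟩ := step hG 72 (by rw [h]; norm_num) (by norm_num) (by decide +kernel) (by decide +kernel) (by decide +kernel)
  have := hge N (by rintro rfl; norm_num at h2)
  rw [h2] at this
  norm_num at this

theorem ne_2400 (hG : ¬ IsMulCommutative G) : Nat.card G ≠ 2400 := by
  intro h
  obtain ⟨hge, h1, N, h2⟩ := step hG 96 (by rw [h]; norm_num) (by norm_num) (by decide +kernel) (by decide +kernel) (by decide +kernel)
  have := hge N (by rintro rfl; norm_num at h2)
  rw [h2] at this
  norm_num at this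

theorem ne_2700 (hG : ¬ IsMulCommutative G) : Nat.card G ≠ 2700 := by
  intro h
  obtain ⟨hge, h1, N, h2⟩ := step hG 108 (by rw [h]; norm_num) (by norm_num) (by decide +kernel) (by decide +kernel) (by decide +kernel)
  have := hge N (by rintro rfl; norm_num at h2)
  rw [h2] at this
  norm_num at this

theorem ne_3600 (hG : ¬ IsMulCommutative G) : Nat.card G ≠ 3600 := by
  intro h
  obtain ⟨hge, h1, N, h2⟩ := step hG 144 (by rw [h]; norm_num) (by norm_num) (by decide +kernel) (by decide +kernel) (by decide +kernel)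
  exact idx12 hG 144 (by rw [h]; norm_num) (by norm_num) hge (by norm_num) N (by rw [h2])

end Cfsg.Agent.Lib.OrdTwoFive
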