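import Mathlib
import Cfsg.Agent.Lib.OPiecesB67
import Cfsg.Agent.Lib.QuadStd
import Cfsg.Agent.Lib.QuadMTS
import Cfsg.Agent.Lib.ClOrthOrd

/-!
(helper67) The sign of even dimensional quadratic spaces over finite fields of arbitrary characteristic,
through the invariant `D Q = #{Q = 0} - #{Q = 1}`.
-/

set_option autoImplicit false
set_option linter.unusedSectionVars false

namespace Cfsg.Agent.Lib.QuadD67

open QuadraticMap Module Cfsg.Agent.Lib.Quad Cfsg.Agent.Lib.OReal67

universe u v w

variable {F : Type u} [Field F]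

section defs
variable {V : Type v} [AddCommGroup V] [Module F V] {W : Type w} [AddCommGroup W] [Module F W]

/-- number of vectors of norm `c` -/
noncomputable def NN (Q : QuadraticForm F V) (c : F) : ℕ := Nat.card {v : V // Q v = c}

noncomputable def D (Q : QuadraticForm F V) : ℤ := (NN Q 0 : ℤ) - NN Q 1

def Bal (Q : QuadraticForm F V) : Prop := ∀ c : F, c ≠ 0 → NN Q c = NN Q 1

/-- plus type -/
def Plus (Q : QuadraticForm F V) : Prop := ∃ U : Submodule F V, (∀ u ∈ U, Q u = 0) ∧ 2 * finrank F U = finrank F V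

variable {Q : QuadraticForm F V} {Q' : QuadraticForm F W}

theorem NN_congr (e : V ≃ₗ[F] W) (he : ∀ v, Q' (e v) = Q v) (c : F) : NN Q' c = NN Q c := by
  symm
  exact Nat.card_congr (Equiv.subtypeEquiv e.toEquiv fun v => by show Q v = c ↔ Q' (e v) = c; rw [he])

theorem D_congr (e : V ≃ₗ[F] W) (he : ∀ v, Q' (e v) = Q v) : D Q' = D Q := by
  rw [D, D, NN_congr e he, NN_congr e he]

theorem Bal_congr (e : V ≃ₗ[F] W) (he : ∀ v, Q' (e v) = Q v) (h : Bal Q') : Bal Q := by
  intro c hc
  rw [← NN_congr e he, ← NN_congr e he]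
  exact h c hc

theorem Plus_congr (e : V ≃ₗ[F] W) (he : ∀ v, Q' (e v) = Q v) (h : Plus Q) : Plus Q' := by
  obtain ⟨U, hU, hd⟩ := h
  refine ⟨U.map e.toLinearMap, ?_, ?_⟩
  · rintro _ ⟨u, hu, rfl⟩
    show Q' (e u) = 0
    rw [he, hU u hu]
  · rw [LinearEquiv.finrank_map_eq e U, hd, LinearEquiv.finrank_eq e]

variable [Finite F]

theorem NN_prod [Finite V] [Finite W] (c : F) : (NN (Q.prod Q') c : ℤ) = ∑ᶠ a : F, (NN Q a : ℤ) * NN Q' (c - a) := by
  classical
  have := Fintype.ofFinite F
  rw [finsum_eq_sum_of_fintype]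
  have h : NN (Q.prod Q') c = ∑ a : F, NN Q a * NN Q' (c - a) := by
    have e : {x : V × W // (Q.prod Q') x = c} ≃ (Σ a : F, {v : V // Q v = a} × {w : W // Q' w = c - a}) :=
      { toFun := fun x => ⟨Q x.1.1, ⟨x.1.1, rfl⟩, ⟨x.1.2, by
          have h := x.2
          rw [QuadraticMap.prod_apply] at h
          exact eq_sub_of_add_eq' h⟩⟩
        invFun := fun y => ⟨(y.2.1.1, y.2.2.1), by
          rw [QuadraticMap.prod_apply, y.2.1.2, y.2.2.2]; ring⟩
        left_inv := fun x => rfl
        right_inv := fun y => by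
          obtain ⟨a, ⟨v, hv⟩, ⟨w, hw⟩⟩ := y
          subst hv
          rfl }
    rw [NN, Nat.card_congr e, Nat.card_sigma]
    exact Finset.sum_congr rfl fun a _ => by rw [Nat.card_prod]; rfl
  rw [h]
  push_cast
  rfl

open Classical in
theorem NN_prod_bal [Finite V] [Finite W] (h : Bal Q) (h' : Bal Q') (c : F) :
    (NN (Q.prod Q') c : ℤ) = (Nat.card F : ℤ) * NN Q 1 * NN Q' 1 + D Q * NN Q' 1 + NN Q 1 * D Q' + (if c = 0 then D Q * D Q' else 0) := by
  classical
  have := Fintype.ofFinite F
  rw [NN_prod, finsum_eq_sum_of_fintype]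
  have h1 : ∀ a : F, (NN Q a : ℤ) = NN Q 1 + (if a = 0 then D Q else 0) := by
    intro a
    split_ifs with ha
    · rw [ha, D]; ring
    · rw [h a ha]; ring
  have h2 : ∀ a : F, (NN Q' (c - a) : ℤ) = NN Q' 1 + (if a = c then D Q' else 0) := by
    intro a
    split_ifs with ha
    · rw [ha, sub_self, D]; ring
    · rw [h' (c - a) (fun h0 => ha (sub_eq_zero.1 h0).symm)]; ring
  have h3 : ∀ a : F, (NN Q a : ℤ) * NN Q' (c - a) = (NN Q 1 : ℤ) * NN Q' 1 + (if a = 0 then D Q * NN Q' 1 else 0) +
      (if a = c then (NN Q 1 : ℤ) * D Q' else 0) + (if a = 0 then (if a = c then D Q * D Q' else 0) else 0) := by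
    intro a
    rw [h1, h2]
    split_ifs <;> ring
  rw [Finset.sum_congr rfl fun a _ => h3 a, Finset.sum_add_distrib, Finset.sum_add_distrib, Finset.sum_add_distrib,
    Finset.sum_const, Finset.card_univ, Finset.sum_ite_eq' Finset.univ (0 : F), Finset.sum_ite_eq' Finset.univ c,
    Finset.sum_ite_eq' Finset.univ (0 : F)]
  simp only [Finset.mem_univ, if_true, nsmul_eq_mul, Nat.card_eq_fintype_card, eq_comm (a := (0 : F)) (b := c)]
  ring

theorem D_prod [Finite V] [Finite W] (h : Bal Q) (h' : Bal Q') : D (Q.prod Q') = D Q * D Q' := by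
  rw [D, NN_prod_bal h h', NN_prod_bal h h', if_pos rfl, if_neg one_ne_zero]
  ring

theorem Bal_prod [Finite V] [Finite W] (h : Bal Q) (h' : Bal Q') : Bal (Q.prod Q') := by
  intro c hc
  have h1 := NN_prod_bal h h' c
  have h2 := NN_prod_bal h h' (1 : F)
  rw [if_neg hc] at h1
  rw [if_neg one_ne_zero] at h2
  have h3 : (NN (Q.prod Q') c : ℤ) = NN (Q.prod Q') 1 := by rw [h1, h2]
  exact_mod_cast h3

theorem sum_NN [Finite V] : ∑ᶠ c : F, NN Q c = Nat.card V := by
  have := Fintype.ofFinite F
  rw [finsum_eq_sum_of_fintype, ← Nat.card_congr (Equiv.sigmaFiberEquiv (fun v : V => Q v)), Nat.card_sigma]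
  rfl

theorem card_bal [Finite V] (h : Bal Q) : (NN Q 0 : ℤ) + ((Nat.card F : ℤ) - 1) * NN Q 1 = Nat.card V := by
  classical
  have := Fintype.ofFinite F
  have hq : 1 ≤ Nat.card F := Nat.card_pos
  rw [← sum_NN (Q := Q), finsum_eq_sum_of_fintype, ← Finset.add_sum_erase _ _ (Finset.mem_univ (0 : F)),
    Finset.sum_congr rfl (fun c hc => h c (Finset.ne_of_mem_erase hc)), Finset.sum_const,
    Finset.card_erase_of_mem (Finset.mem_univ _), Finset.card_univ, smul_eq_mul]
  push_cast [Nat.cast_sub (by rw [← Nat.card_eq_fintype_card]; exact hq : 1 ≤ Fintype.card F)]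
  rw [Nat.card_eq_fintype_card]

theorem hy_bal : Bal (hy F) := by
  classical
  have := Fintype.ofFinite F
  intro c hc
  have h : ∀ c : F, NN (hy F) c = Nat.card {p : F × F // p.1 * p.2 = c} := fun c => rfl
  rw [h, h, ClOrthOrd.card_mul_eq, ClOrthOrd.card_mul_eq, if_neg hc, if_neg one_ne_zero]

theorem hy_D : D (hy F) = Nat.card F := by
  classical
  have := Fintype.ofFinite F
  have hq : 1 < Fintype.card F := Fintype.one_lt_card
  have h : ∀ c : F, NN (hy F) c = Nat.card {p : F × F // p.1 * p.2 = c} := fun c => rfl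
  rw [D, h, h, ClOrthOrd.card_mul_eq, ClOrthOrd.card_mul_eq, if_pos rfl, if_neg one_ne_zero, Nat.card_eq_fintype_card]
  push_cast [Nat.cast_sub (by omega : 1 ≤ 2 * Fintype.card F), Nat.cast_sub hq.le]
  ring

end defs

section split
variable {V : Type v} [AddCommGroup V] [Module F V] [FiniteDimensional F V] {Q : QuadraticForm F V}

/-- splitting off a hyperbolic plane -/
theorem exists_split (hQ : Nd Q) {z : V} (hz0 : z ≠ 0) (hz : Q z = 0) :
    ∃ (V2 : Submodule F V) (e : V ≃ₗ[F] (F × F) × V2), Nd (res Q V2) ∧ finrank F V = 2 + finrank F V2 ∧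
      ∀ v, ((hy F).prod (res Q V2)) (e v) = Q v := by
  obtain ⟨y0, hy0⟩ := hQ.exists_polar_one' hz0
  obtain ⟨hyQ, hzy⟩ := adjust_singular hz hy0
  set y := y0 - Q y0 • z with hy
  clear_value y
  have hyz : polar Q y z = 1 := by rw [polar_comm]; exact hzy
  have hzz : polar Q z z = 0 := by rw [polar_self', hz, mul_zero]
  have hyy : polar Q y y = 0 := by rw [polar_self', hyQ, mul_zero]
  let V2 : Submodule F V := perp Q (Submodule.span F {z, y})
  have hV2 : ∀ x, x ∈ V2 ↔ polar Q z x = 0 ∧ polar Q y x = 0 := by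
    intro x
    show x ∈ perp Q (Submodule.span F {z, y}) ↔ _
    rw [mem_perp_span]
    constructor
    · intro h
      exact ⟨h z (Or.inl rfl), h y (Or.inr rfl)⟩
    · rintro ⟨h1, h2⟩ w hw
      rcases hw with rfl | hw
      · exact h1
      · rw [Set.mem_singleton_iff] at hw
        rw [hw]; exact h2
  let e : V ≃ₗ[F] (F × F) × V2 :=
    { toFun := fun v => ((polar Q y v, polar Q z v), ⟨v - polar Q y v • z - polar Q z v • y, (hV2 _).2 ⟨by
        rw [polar_sub_right, polar_sub_right, polar_smul_right, polar_smul_right, hzz, hzy]; simp, by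
        rw [polar_sub_right, polar_sub_right, polar_smul_right, polar_smul_right, hyy, hyz]; simp⟩⟩)
      map_add' := by
        intro u v
        refine Prod.ext (Prod.ext ?_ ?_) (Subtype.ext ?_)
        · exact polar_add_right Q y u v
        · exact polar_add_right Q z u v
        · show u + v - polar Q y (u + v) • z - polar Q z (u + v) • y = (u - polar Q y u • z - polar Q z u • y) + (v - polar Q y v • z - polar Q z v • y)
          rw [polar_add_right, polar_add_right, add_smul, add_smul]; abel
      map_smul' := by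
        intro c v
        refine Prod.ext (Prod.ext ?_ ?_) (Subtype.ext ?_)
        · exact polar_smul_right Q c y v
        · exact polar_smul_right Q c z v
        · show c • v - polar Q y (c • v) • z - polar Q z (c • v) • y = c • (v - polar Q y v • z - polar Q z v • y)
          rw [polar_smul_right, polar_smul_right, smul_sub, smul_sub, smul_smul, smul_smul]; rfl
      invFun := fun p => p.1.1 • z + p.1.2 • y + p.2
      left_inv := fun v => by
        show polar Q y v • z + polar Q z v • y + (v - polar Q y v • z - polar Q z v • y) = v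
        abel
      right_inv := fun p => by
        obtain ⟨⟨a, b⟩, ⟨x, hx⟩⟩ := p
        obtain ⟨hx1, hx2⟩ := (hV2 x).1 hx
        have h1 : polar Q y (a • z + b • y + x) = a := by
          rw [polar_add_right, polar_add_right, polar_smul_right, polar_smul_right, hyz, hyy, hx2]; simp
        have h2 : polar Q z (a • z + b • y + x) = b := by
          rw [polar_add_right, polar_add_right, polar_smul_right, polar_smul_right, hzy, hzz, hx1]; simp
        refine Prod.ext (Prod.ext h1 h2) (Subtype.ext ?_)
        show (a • z + b • y + x) - polar Q y (a • z + b • y + x) • z - polar Q z (a • z + b • y + x) • y = x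
        rw [h1, h2]; abel }
  have he : ∀ v, ((OReal67.hy F).prod (res Q V2)) (e v) = Q v := by
    intro v
    have h1 : ((OReal67.hy F).prod (res Q V2)) (e v) = polar Q y v * polar Q z v + Q (v - polar Q y v • z - polar Q z v • y) := by
      rw [QuadraticMap.prod_apply]; rfl
    rw [h1, Q_sub, Q_sub, Q_smul, Q_smul, hz, hyQ, polar_sub_left, polar_smul_left, polar_smul_right, polar_smul_right,
      polar_smul_right, polar_comm Q v z, polar_comm Q v y, hzy]
    simp only [smul_eq_mul]
    ring
  refine ⟨V2, e, ?_, ?_, he⟩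
  · apply nd_of
    intro x hx
    apply Subtype.ext
    apply hQ.eq_zero
    intro v
    have h1 := hx (e v).2
    rw [polar_res] at h1
    obtain ⟨hx1, hx2⟩ := (hV2 x).1 x.2
    have h2 : ((e v).2 : V) = v - polar Q y v • z - polar Q z v • y := rfl
    rw [h2, polar_sub_right, polar_sub_right, polar_smul_right, polar_smul_right, polar_comm Q (x : V) z, polar_comm Q (x : V) y, hx1, hx2] at h1
    simpa using h1
  · rw [LinearEquiv.finrank_eq e, finrank_prod, finrank_prod, finrank_self]

end split

section plusD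
variable [Finite F] {V : Type v} [AddCommGroup V] [Module F V] [FiniteDimensional F V] {Q : QuadraticForm F V}

theorem D_of_ts (hQ : Nd Q) {W : Submodule F V} (hW : ∀ w ∈ W, Q w = 0) (hdim : 2 * finrank F W = finrank F V) :
    D Q = (Nat.card F : ℤ) ^ (finrank F W) := by
  classical
  have hfin : Finite V := Module.finite_of_finite F
  have := Fintype.ofFinite V
  have := Fintype.ofFinite W
  have hWW : ∀ x ∈ W, ∀ y ∈ W, polar Q x y = 0 := fun x hx y hy => polar_of_ts hW hx hy
  have hperp : perp Q W = W := by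
    symm
    apply Submodule.eq_of_le_of_finrank_eq
    · exact le_perp_of_ts hW
    · have := hQ.finrank_add_finrank_perp W
      omega
  have hcard : (Fintype.card W : ℤ) = (Nat.card F : ℤ) ^ (finrank F W) := by
    rw [← Nat.card_eq_fintype_card, Module.natCard_eq_pow_finrank (K := F) (V := W)]
    push_cast; rfl
  have hcount : ∀ c : F, (Fintype.card W : ℤ) * NN Q c = ∑ v : V, (Nat.card {w : W // Q (v + w) = c} : ℤ) := by
    intro c
    have e1 : (W × {v : V // Q v = c}) ≃ (Σ v : V, {w : W // Q (v + w) = c}) :=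
      { toFun := fun x => ⟨x.2.1 - x.1, x.1, by rw [sub_add_cancel]; exact x.2.2⟩
        invFun := fun y => (y.2.1, ⟨y.1 + y.2.1, y.2.2⟩)
        left_inv := fun x => by
          refine Prod.ext rfl (Subtype.ext ?_)
          show (x.2 : V) - x.1 + x.1 = x.2
          rw [sub_add_cancel]
        right_inv := fun y => by
          obtain ⟨v, w, h⟩ := y
          have h1 : v + (w : V) - w = v := add_sub_cancel_right _ _
          refine Sigma.ext h1 ?_
          refine (Subtype.heq_iff_coe_eq ?_).2 rfl
          intro x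
          show Q ((v + (w : V) - w) + x) = c ↔ Q (v + x) = c
          rw [h1] }
    have h1 := Nat.card_congr e1
    rw [Nat.card_prod, Nat.card_sigma, Nat.card_eq_fintype_card (α := W)] at h1
    have h2 : (Fintype.card W) * NN Q c = ∑ v : V, Nat.card {w : W // Q (v + w) = c} := h1
    exact_mod_cast h2
  have hval : ∀ (v : V) (w : W), Q (v + w) = Q v + polar Q v w := by
    intro v w
    rw [Q_add, hW _ w.2, add_zero]
  have hdiff : ∀ v : V, (Nat.card {w : W // Q (v + w) = 0} : ℤ) - Nat.card {w : W // Q (v + w) = 1} =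
      if v ∈ W then (Fintype.card W : ℤ) else 0 := by
    intro v
    split_ifs with hv
    · have h0 : ∀ w : W, Q (v + w) = 0 := fun w => hW _ (W.add_mem hv w.2)
      have h1 : Nat.card {w : W // Q (v + w) = 0} = Fintype.card W := by
        rw [← Nat.card_eq_fintype_card]
        exact Nat.card_congr (Equiv.subtypeUnivEquiv h0)
      have h2 : Nat.card {w : W // Q (v + w) = 1} = 0 := by
        rw [Nat.card_eq_zero]
        left
        exact ⟨fun w => zero_ne_one ((h0 w.1).symm.trans w.2)⟩
      rw [h1, h2]; simp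
    · have h1 : ∃ w ∈ W, polar Q v w ≠ 0 := by
        by_contra hcon
        push Not at hcon
        apply hv
        rw [← hperp, mem_perp']
        exact hcon
      obtain ⟨w0, hw0, hne⟩ := h1
      set w1 : W := ⟨(polar Q v w0)⁻¹ • w0, W.smul_mem _ hw0⟩ with hw1
      have h3 : polar Q v w1 = 1 := by
        show polar Q v ((polar Q v w0)⁻¹ • w0) = 1
        rw [polar_smul_right, smul_eq_mul, inv_mul_cancel₀ hne]
      have h2 : Nat.card {w : W // Q (v + w) = 0} = Nat.card {w : W // Q (v + w) = 1} := by
        apply Nat.card_congr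
        refine Equiv.subtypeEquiv (Equiv.addRight w1) fun w => ?_
        show Q (v + w) = 0 ↔ Q (v + (w + w1 : W)) = 1
        rw [hval, hval, Submodule.coe_add, polar_add_right, h3]
        constructor
        · intro h
          linear_combination h
        · intro h
          linear_combination h
      rw [h2, sub_self]
  have h1 : (Fintype.card W : ℤ) * D Q = (Fintype.card W : ℤ) * (Fintype.card W : ℤ) := by
    rw [D, mul_sub, hcount, hcount, ← Finset.sum_sub_distrib, Finset.sum_congr rfl fun v _ => hdiff v, ← Finset.sum_filter,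
      Finset.sum_const, nsmul_eq_mul]
    congr 1
    rw [← Fintype.card_subtype]
  have h2 : (Fintype.card W : ℤ) ≠ 0 := by
    exact_mod_cast Fintype.card_ne_zero
  rw [mul_left_cancel₀ h2 h1, hcard]

end plusD

end Cfsg.Agent.Lib.QuadD67
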