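import Mathlib
import Cfsg.Agent.Lib.QuadD67
import Cfsg.Agent.Lib.QuadClass67

/-!
(helper67) Classification of even dimensional quadratic spaces over finite fields by the invariant `D`;
embedding of smaller nondegenerate spaces.
-/

set_option autoImplicit false
set_option linter.unusedSectionVars false

namespace Cfsg.Agent.Lib.QuadD67

open QuadraticMap Module Cfsg.Agent.Lib.Quad Cfsg.Agent.Lib.OReal67

universe u v w

section plane
variable {F : Type u} [Field F] [Finite F]
variable {V : Type v} [AddCommGroup V] [Module F V] [FiniteDimensional F V] {Q : QuadraticForm F V}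
variable {V' : Type w} [AddCommGroup V'] [Module F V'] [FiniteDimensional F V'] {Q' : QuadraticForm F V'}

/-- coordinates on an elliptic plane -/
theorem elliptic_coord (hQ : Nd Q) (hn : finrank F V = 2) (han : ∀ x, Q x = 0 → x = 0) :
    ∃ (b : F) (e : V ≃ₗ[F] F × F), (∀ t : F, t ^ 2 + t + b ≠ 0) ∧ ∀ v, pl 1 b (e v) = Q v := by
  obtain ⟨w, hw, h0, h01, ht⟩ := exists_elliptic_basis hQ hn han
  have hspan := LinearIndependent.span_eq_top_of_card_eq_finrank' hw (by rw [Fintype.card_fin, hn])
  let B := Basis.mk hw hspan.ge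
  have hB : ∀ i, B i = w i := fun i => Basis.mk_apply _ _ _
  refine ⟨Q (w 1), B.equivFun.trans (LinearEquiv.finTwoArrow F F), ht, ?_⟩
  intro v
  have h1 : v = B.equivFun v 0 • w 0 + B.equivFun v 1 • w 1 := by
    conv_lhs => rw [← B.sum_equivFun v, Fin.sum_univ_two, hB, hB]
  have h2 : Q v = (B.equivFun v 0) * (B.equivFun v 0) + (B.equivFun v 0) * (B.equivFun v 1) + (B.equivFun v 1) * (B.equivFun v 1) * Q (w 1) := by
    conv_lhs => rw [h1]
    rw [Q_add, Q_smul, Q_smul, h0, polar_smul_left, polar_smul_right, h01, smul_eq_mul, smul_eq_mul]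
    ring
  rw [h2, pl_apply]
  show (B.equivFun v 0) * (B.equivFun v 0) + 1 * ((B.equivFun v 0) * (B.equivFun v 1)) + Q (w 1) * ((B.equivFun v 1) * (B.equivFun v 1)) = _
  ring

/-- over a finite field two anisotropic nondegenerate planes are isometric -/
theorem plane_iso (hQ : Nd Q) (hn : finrank F V = 2) (han : ∀ x, Q x = 0 → x = 0) (hQ' : Nd Q') (hn' : finrank F V' = 2)
    (han' : ∀ x, Q' x = 0 → x = 0) : ∃ e : V ≃ₗ[F] V', ∀ v, Q' (e v) = Q v := by
  obtain ⟨b, e, hb, he⟩ := elliptic_coord hQ hn han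
  obtain ⟨b', e', hb', he'⟩ := elliptic_coord hQ' hn' han'
  -- `f : F × F ≃ F × F` with `pl 1 b' (f z) = pl 1 b z`
  suffices h : ∃ f : (F × F) ≃ₗ[F] (F × F), ∀ z, pl 1 b' (f z) = pl 1 b z by
    obtain ⟨f, hf⟩ := h
    refine ⟨(e.trans f).trans e'.symm, fun v => ?_⟩
    rw [← he']
    show pl 1 b' (e' (e'.symm (f (e v)))) = _
    rw [LinearEquiv.apply_symm_apply, hf, he]
  by_cases h2 : (2 : F) = 0
  · haveI : CharP F 2 := CharTwo.of_one_ne_zero_of_two_eq_zero one_ne_zero h2
    obtain ⟨t, ht⟩ := GaussSign67.exists_artin (one_ne_zero : (1 : F) ≠ 0) (b := b) (b' := b') (fun t => by rw [one_mul]; exact hb t)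
      (fun t => by rw [one_mul]; exact hb' t)
    let f : (F × F) ≃ₗ[F] (F × F) :=
      { toFun := fun z => (z.1 + t * z.2, z.2)
        map_add' := fun x y => by ext <;> simp <;> ring
        map_smul' := fun c x => by ext <;> simp <;> ring
        invFun := fun z => (z.1 - t * z.2, z.2)
        left_inv := fun z => by ext <;> simp
        right_inv := fun z => by ext <;> simp }
    refine ⟨f, fun z => ?_⟩
    rw [pl_apply, pl_apply]
    show (z.1 + t * z.2) * (z.1 + t * z.2) + 1 * ((z.1 + t * z.2) * z.2) + b' * (z.2 * z.2) = _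
    linear_combination (z.2 * z.2) * ht + (t * z.1 * z.2) * h2 + (z.2 * z.2 * b') * h2
  · have h4 : (4 : F) ≠ 0 := by
      have : (4 : F) = 2 * 2 := by norm_num
      rw [this]; exact mul_ne_zero h2 h2
    have key : ∀ b : F, (∀ t : F, t ^ 2 + t + b ≠ 0) → ¬ IsSquare (1 - 4 * b) := by
      intro b hb ⟨s, hs⟩
      apply hb ((s - 1) / 2)
      field_simp
      linear_combination - hs
    have k1 := key b hb
    have k2 := key b' hb'
    obtain ⟨s, hs⟩ := isSquare_mul_of_not_isSquare k1 k2
    have hb0 : 1 - 4 * b' ≠ 0 := by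
      intro h
      rw [h] at k2
      exact k2 ⟨0, by ring⟩
    have hb1 : 1 - 4 * b ≠ 0 := by
      intro h
      rw [h] at k1
      exact k1 ⟨0, by ring⟩
    set a := s / (1 - 4 * b') with ha
    have ha2 : a * a * (1 - 4 * b') = 1 - 4 * b := by
      rw [ha]
      field_simp
      linear_combination - hs
    have ha0 : a ≠ 0 := by
      intro h
      rw [h] at ha2
      exact hb1 (by rw [← ha2]; ring)
    -- z ↦ (z.1 + (1 - a) / 2 * z.2, a * z.2)
    let f : (F × F) ≃ₗ[F] (F × F) :=
      { toFun := fun z => (z.1 + (1 - a) / 2 * z.2, a * z.2)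
        map_add' := fun x y => by ext <;> simp <;> ring
        map_smul' := fun c x => by ext <;> simp <;> ring
        invFun := fun z => (z.1 - (1 - a) / 2 * (a⁻¹ * z.2), a⁻¹ * z.2)
        left_inv := fun z => by
          refine Prod.ext ?_ ?_
          · show z.1 + (1 - a) / 2 * z.2 - (1 - a) / 2 * (a⁻¹ * (a * z.2)) = z.1
            rw [inv_mul_cancel_left₀ ha0]; ring
          · show a⁻¹ * (a * z.2) = z.2
            rw [inv_mul_cancel_left₀ ha0]
        right_inv := fun z => by
          refine Prod.ext ?_ ?_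
          · show z.1 - (1 - a) / 2 * (a⁻¹ * z.2) + (1 - a) / 2 * (a⁻¹ * z.2) = z.1
            ring
          · show a * (a⁻¹ * z.2) = z.2
            rw [mul_inv_cancel_left₀ ha0] }
    refine ⟨f, fun z => ?_⟩
    rw [pl_apply, pl_apply]
    show (z.1 + (1 - a) / 2 * z.2) * (z.1 + (1 - a) / 2 * z.2) + 1 * ((z.1 + (1 - a) / 2 * z.2) * (a * z.2)) + b' * ((a * z.2) * (a * z.2)) = _
    have h5 : (4 : F) * ((z.1 + (1 - a) / 2 * z.2) * (z.1 + (1 - a) / 2 * z.2) + 1 * ((z.1 + (1 - a) / 2 * z.2) * (a * z.2)) + b' * ((a * z.2) * (a * z.2))) =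
        4 * (z.1 * z.1 + 1 * (z.1 * z.2) + b * (z.2 * z.2)) := by
      field_simp
      linear_combination (-(z.2 * z.2)) * ha2
    exact mul_left_cancel₀ h4 h5

theorem pl_mul (b s t x y : F) : pl 1 b (s * x - b * t * y, s * y + t * x + t * y) = pl 1 b (s, t) * pl 1 b (x, y) := by
  simp only [pl_apply]
  ring

/-- anisotropic planes are balanced with `D = - q` -/
theorem plane_D (hQ : Nd Q) (hn : finrank F V = 2) (han : ∀ x, Q x = 0 → x = 0) : Bal Q ∧ D Q = -(Nat.card F : ℤ) := by
  classical
  obtain ⟨b, e, hb, he⟩ := elliptic_coord hQ hn han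
  have hfin : Finite V := Module.finite_of_finite F
  have han' : ∀ z : F × F, pl 1 b z = 0 → z = 0 := by
    intro z hz
    have h1 : Q (e.symm z) = 0 := by rw [← he, LinearEquiv.apply_symm_apply, hz]
    have h2 := han _ h1
    rwa [LinearEquiv.map_eq_zero_iff] at h2
  have hrep : ∀ c : F, c ≠ 0 → ∃ z : F × F, pl 1 b z = c := by
    intro c hc
    by_cases h2 : (2 : F) = 0
    · haveI : CharP F 2 := CharTwo.of_one_ne_zero_of_two_eq_zero one_ne_zero h2
      obtain ⟨s, hs⟩ := isSquare_of_charTwo c
      exact ⟨(s, 0), by rw [pl_apply, hs]; simp⟩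
    · obtain ⟨v, _, hv⟩ := hQ.exists_Q_eq h2 (by omega) c
      exact ⟨e v, by rw [he, hv hc]⟩
  have hle : ∀ c c' : F, c ≠ 0 → c' ≠ 0 → NN (pl 1 b) c ≤ NN (pl 1 b) c' := by
    intro c c' hc hc'
    obtain ⟨⟨s, t⟩, hst⟩ := hrep (c' / c) (div_ne_zero hc' hc)
    apply Nat.card_le_card_of_injective (fun z : {z : F × F // pl 1 b z = c} =>
      (⟨(s * z.1.1 - b * t * z.1.2, s * z.1.2 + t * z.1.1 + t * z.1.2), by
        rw [pl_mul, hst]
        have : pl 1 b (z.1.1, z.1.2) = c := z.2
        rw [this, div_mul_cancel₀ _ hc]⟩ : {z : F × F // pl 1 b z = c'}))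
    rintro ⟨⟨x, y⟩, hz⟩ ⟨⟨x', y'⟩, hz'⟩ h
    have h1 : (s * x - b * t * y, s * y + t * x + t * y) = (s * x' - b * t * y', s * y' + t * x' + t * y') := congrArg Subtype.val h
    have h2 := congrArg Prod.fst h1
    have h3 := congrArg Prod.snd h1
    simp only at h2 h3
    have h4 : pl 1 b (s * (x - x') - b * t * (y - y'), s * (y - y') + t * (x - x') + t * (y - y')) = 0 := by
      have e1 : s * (x - x') - b * t * (y - y') = 0 := by linear_combination h2
      have e2 : s * (y - y') + t * (x - x') + t * (y - y') = 0 := by linear_combination h3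
      rw [e1, e2, pl_apply]; simp
    rw [pl_mul, hst] at h4
    have h5 := han' _ ((mul_eq_zero.1 h4).resolve_left (div_ne_zero hc' hc))
    have h6 := congrArg Prod.fst h5
    have h7 := congrArg Prod.snd h5
    apply Subtype.ext
    exact Prod.ext (sub_eq_zero.1 h6) (sub_eq_zero.1 h7)
  have hbal' : Bal (pl 1 b) := fun c hc => le_antisymm (hle _ _ hc one_ne_zero) (hle _ _ one_ne_zero hc)
  have hbal : Bal Q := Bal_congr e he hbal'
  refine ⟨hbal, ?_⟩
  have h0 : NN Q 0 = 1 := by
    rw [NN, Nat.card_eq_one_iff_unique]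
    exact ⟨⟨fun a b => Subtype.ext (by rw [han _ a.2, han _ b.2])⟩, ⟨⟨0, QuadraticMap.map_zero Q⟩⟩⟩
  have h1 := card_bal hbal
  rw [h0, Module.natCard_eq_pow_finrank (K := F) (V := V), hn] at h1
  have hq : (1 : ℤ) < Nat.card F := by exact_mod_cast Finite.one_lt_card
  have h2 : ((Nat.card F : ℤ) - 1) * NN Q 1 = ((Nat.card F : ℤ) - 1) * (Nat.card F + 1) := by
    push_cast at h1
    linear_combination h1
  have h3 := mul_left_cancel₀ (by linarith : (Nat.card F : ℤ) - 1 ≠ 0) h2
  rw [D, h0, h3]
  push_cast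
  ring

end plane

section cases
variable {F : Type u} [Field F] [Finite F]

theorem D_cases : ∀ (N : ℕ) {V : Type v} [AddCommGroup V] [Module F V] [FiniteDimensional F V] {Q : QuadraticForm F V},
    Nd Q → finrank F V = 2 * N → Bal Q ∧ ((Plus Q ∧ D Q = (Nat.card F : ℤ) ^ N) ∨ (¬ Plus Q ∧ D Q = -(Nat.card F : ℤ) ^ N)) := by
  intro N
  induction N with
  | zero =>
    intro V _ _ _ Q hQ hV
    have hsub : Subsingleton V := Module.finrank_zero_iff.1 (by omega)
    have h0 : NN Q 0 = 1 := by
      rw [NN, Nat.card_eq_one_iff_unique]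
      exact ⟨⟨fun a b => Subtype.ext (Subsingleton.elim _ _)⟩, ⟨⟨0, QuadraticMap.map_zero Q⟩⟩⟩
    have h1 : ∀ c : F, c ≠ 0 → NN Q c = 0 := by
      intro c hc
      rw [NN, Nat.card_eq_zero]
      left
      refine ⟨fun a => hc ?_⟩
      rw [← a.2, Subsingleton.elim a.1 0, QuadraticMap.map_zero]
    refine ⟨fun c hc => by rw [h1 c hc, h1 1 one_ne_zero], Or.inl ⟨⟨⊥, ?_, ?_⟩, ?_⟩⟩
    · intro u hu
      rw [(Submodule.mem_bot F).1 hu, QuadraticMap.map_zero]
    · rw [finrank_bot]; omega
    · rw [D, h0, h1 1 one_ne_zero]; simp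
  | succ N ih =>
    intro V _ _ _ Q hQ hV
    have hfin : Finite V := Module.finite_of_finite F
    by_cases hex : ∃ z : V, z ≠ 0 ∧ Q z = 0
    · obtain ⟨z, hz0, hz⟩ := hex
      obtain ⟨V2, e, hnd, hdim, he⟩ := exists_split hQ hz0 hz
      obtain ⟨hb, hcase⟩ := ih hnd (by omega)
      have hbal : Bal Q := Bal_congr e he (Bal_prod hy_bal hb)
      have hD : D Q = (Nat.card F : ℤ) * D (res Q V2) := by
        rw [← D_congr e he, D_prod hy_bal hb, hy_D]
      refine ⟨hbal, ?_⟩
      rcases hcase with ⟨⟨U, hU, hUd⟩, h2⟩ | ⟨h1, h2⟩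
      · left
        refine ⟨?_, by rw [hD, h2]; ring⟩
        -- t.s. subspace
        let U' : Submodule F ((F × F) × V2) := (Submodule.span F {((1 : F), (0 : F))}).prod U
        have hP : Plus ((hy F).prod (res Q V2)) := by
          refine ⟨U', ?_, ?_⟩
          · rintro ⟨p, x⟩ ⟨hp, hx⟩
            obtain ⟨c, rfl⟩ := Submodule.mem_span_singleton.1 hp
            rw [QuadraticMap.prod_apply, hU x hx]
            show (c • ((1 : F), (0 : F))).1 * (c • ((1 : F), (0 : F))).2 + 0 = 0
            simp
          · have h5 : finrank F U' = 1 + finrank F U := by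
              let e' : (Submodule.span F {((1 : F), (0 : F))} × U) ≃ₗ[F] U' :=
                { toFun := fun x => ⟨(x.1, x.2), x.1.2, x.2.2⟩
                  map_add' := fun _ _ => rfl
                  map_smul' := fun _ _ => rfl
                  invFun := fun x => (⟨x.1.1, x.2.1⟩, ⟨x.1.2, x.2.2⟩)
                  left_inv := fun _ => rfl
                  right_inv := fun _ => rfl }
              rw [← LinearEquiv.finrank_eq e', finrank_prod, finrank_span_singleton (by
                intro h
                exact one_ne_zero (congrArg Prod.fst h))]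
            rw [h5, finrank_prod, finrank_prod, finrank_self]
            omega
        exact Plus_congr e.symm (fun x => by rw [← he, LinearEquiv.apply_symm_apply]) hP
      · right
        have hDQ : D Q = -(Nat.card F : ℤ) ^ (N + 1) := by rw [hD, h2]; ring
        refine ⟨?_, hDQ⟩
        rintro ⟨U, hU, hUd⟩
        have h3 := D_of_ts hQ hU hUd
        have h4 : (0 : ℤ) < (Nat.card F : ℤ) := by exact_mod_cast Nat.card_pos
        have h5 := pow_pos h4 (finrank F U)
        have h6 := pow_pos h4 (N + 1)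
        linarith
    · push Not at hex
      have han : ∀ x, Q x = 0 → x = 0 := by
        intro x hx
        by_contra h
        exact hex x h hx
      have hN : N = 0 := by
        by_contra hN
        obtain ⟨z, hz0, hz⟩ := hQ.exists_singular (by omega)
        exact hz0 (han z hz)
      subst hN
      obtain ⟨h1, h2⟩ := plane_D hQ hV han
      refine ⟨h1, Or.inr ⟨?_, by rw [h2]; ring⟩⟩
      rintro ⟨U, hU, hUd⟩
      have h3 := D_of_ts hQ hU hUd
      have h4 : (0 : ℤ) < (Nat.card F : ℤ) := by exact_mod_cast Nat.card_pos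
      have h5 := pow_pos h4 (finrank F U)
      linarith

theorem bal {V : Type v} [AddCommGroup V] [Module F V] [FiniteDimensional F V] {Q : QuadraticForm F V} (hQ : Nd Q)
    (hV : Even (finrank F V)) : Bal Q := by
  obtain ⟨N, hN⟩ := hV
  exact (D_cases N hQ (by omega)).1

theorem plus_iff {V : Type v} [AddCommGroup V] [Module F V] [FiniteDimensional F V] {Q : QuadraticForm F V} (hQ : Nd Q)
    {N : ℕ} (hV : finrank F V = 2 * N) : Plus Q ↔ D Q = (Nat.card F : ℤ) ^ N := by
  have h4 : (0 : ℤ) < (Nat.card F : ℤ) := by exact_mod_cast Nat.card_pos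
  have h5 := pow_pos h4 N
  rcases (D_cases N hQ hV).2 with ⟨h1, h2⟩ | ⟨h1, h2⟩
  · exact ⟨fun _ => h2, fun _ => h1⟩
  · refine ⟨fun h => absurd h h1, fun h => ?_⟩
    rw [h2] at h
    linarith

/-- `D` classifies even dimensional spaces -/
theorem iso_of_D : ∀ (N : ℕ) {V : Type v} [AddCommGroup V] [Module F V] [FiniteDimensional F V] {Q : QuadraticForm F V}
    {V' : Type w} [AddCommGroup V'] [Module F V'] [FiniteDimensional F V'] {Q' : QuadraticForm F V'},
    Nd Q → finrank F V = 2 * N → Nd Q' → finrank F V' = 2 * N → D Q = D Q' → ∃ e : V ≃ₗ[F] V', ∀ v, Q' (e v) = Q v := by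
  intro N
  induction N with
  | zero =>
    intro V _ _ _ Q V' _ _ _ Q' hQ hV hQ' hV' _
    have hsub : Subsingleton V := Module.finrank_zero_iff.1 (by omega)
    refine ⟨LinearEquiv.ofFinrankEq V V' (by omega), fun v => ?_⟩
    rw [Subsingleton.elim v 0]; simp
  | succ N ih =>
    intro V _ _ _ Q V' _ _ _ Q' hQ hV hQ' hV' hD
    have hfin : Finite V := Module.finite_of_finite F
    have hfin' : Finite V' := Module.finite_of_finite F
    have hq : (1 : ℤ) < Nat.card F := by exact_mod_cast Finite.one_lt_card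
    by_cases hex : ∃ z : V, z ≠ 0 ∧ Q z = 0
    · by_cases hex' : ∃ z : V', z ≠ 0 ∧ Q' z = 0
      · obtain ⟨z, hz0, hz⟩ := hex
        obtain ⟨z', hz0', hz'⟩ := hex'
        obtain ⟨V2, e, hnd, hdim, he⟩ := exists_split hQ hz0 hz
        obtain ⟨V2', e', hnd', hdim', he'⟩ := exists_split hQ' hz0' hz'
        have hb := bal hnd ⟨N, by omega⟩
        have hb' := bal hnd' ⟨N, by omega⟩
        have hD1 : D Q = (Nat.card F : ℤ) * D (res Q V2) := by
          rw [← D_congr e he, D_prod hy_bal hb, hy_D]
        have hD2 : D Q' = (Nat.card F : ℤ) * D (res Q' V2') := by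
          rw [← D_congr e' he', D_prod hy_bal hb', hy_D]
        rw [hD1, hD2] at hD
        obtain ⟨f, hf⟩ := ih hnd (by omega) hnd' (by omega) (mul_left_cancel₀ (by linarith) hD)
        refine ⟨(e.trans ((LinearEquiv.refl F (F × F)).prodCongr f)).trans e'.symm, fun v => ?_⟩
        rw [← he', ← he]
        show ((hy F).prod (res Q' V2')) (e' (e'.symm (((e v).1, f (e v).2)))) = _
        rw [LinearEquiv.apply_symm_apply, QuadraticMap.prod_apply, QuadraticMap.prod_apply, hf]
      · exfalso
        push Not at hex'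
        have han' : ∀ x, Q' x = 0 → x = 0 := by
          intro x hx
          by_contra h
          exact hex' x h hx
        have hN : N = 0 := by
          by_contra hN
          obtain ⟨z, hz0, hz⟩ := hQ'.exists_singular (by omega)
          exact hz0 (han' z hz)
        subst hN
        obtain ⟨z, hz0, hz⟩ := hex
        have h1 := D_of_ts hQ (W := Submodule.span F {z}) (by
          intro w hw
          obtain ⟨c, rfl⟩ := Submodule.mem_span_singleton.1 hw
          rw [Q_smul, hz, mul_zero]) (by rw [finrank_span_singleton hz0, hV])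
        rw [finrank_span_singleton hz0, pow_one, hD, (plane_D hQ' hV' han').2] at h1
        linarith
    · push Not at hex
      have han : ∀ x, Q x = 0 → x = 0 := by
        intro x hx
        by_contra h
        exact hex x h hx
      have hN : N = 0 := by
        by_contra hN
        obtain ⟨z, hz0, hz⟩ := hQ.exists_singular (by omega)
        exact hz0 (han z hz)
      subst hN
      by_cases hex' : ∃ z : V', z ≠ 0 ∧ Q' z = 0
      · exfalso
        obtain ⟨z, hz0, hz⟩ := hex'
        have h1 := D_of_ts hQ' (W := Submodule.span F {z}) (by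
          intro w hw
          obtain ⟨c, rfl⟩ := Submodule.mem_span_singleton.1 hw
          rw [Q_smul, hz, mul_zero]) (by rw [finrank_span_singleton hz0, hV'])
        rw [finrank_span_singleton hz0, pow_one, ← hD, (plane_D hQ hV han).2] at h1
        linarith
      · push Not at hex'
        exact plane_iso hQ hV han hQ' hV' (fun x hx => by
          by_contra h
          exact hex' x h hx)

end cases

end Cfsg.Agent.Lib.QuadD67
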