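import Mathlib
import Cfsg.Agent.Lib.QuadDB67
import Cfsg.Agent.Lib.Sesq11

/-!
(helper67) Embeddings of nondegenerate quadratic spaces over finite fields.
-/

set_option autoImplicit false
set_option linter.unusedSectionVars false

namespace Cfsg.Agent.Lib.QuadEmb67

open QuadraticMap Module Cfsg.Agent.Lib.Quad Cfsg.Agent.Lib.OReal67 Cfsg.Agent.Lib.QuadD67

universe u v w

section ex
variable {F : Type u} [Field F] [Finite F]

theorem exists_b : ∃ b : F, ∀ t : F, t ^ 2 + t + b ≠ 0 := by
  have h1 : ¬ Function.Injective (fun t : F => t ^ 2 + t) := by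
    intro h
    have h2 : (0 : F) = -1 := h (by ring)
    exact one_ne_zero (neg_eq_zero.1 h2.symm)
  have h2 : ¬ Function.Surjective (fun t : F => t ^ 2 + t) := fun h => h1 (Finite.injective_iff_surjective.2 h)
  rw [Function.Surjective] at h2
  push Not at h2
  obtain ⟨b, hb⟩ := h2
  exact ⟨-b, fun t ht => hb t (by linear_combination ht)⟩

theorem pl_aniso {b : F} (hb : ∀ t : F, t ^ 2 + t + b ≠ 0) (z : F × F) (hz : pl 1 b z = 0) : z = 0 := by
  rw [pl_apply] at hz
  have hb0 : b ≠ 0 := by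
    intro h
    exact hb 0 (by rw [h]; ring)
  by_cases h2 : z.2 = 0
  · have h1 : z.1 * z.1 = 0 := by rw [h2] at hz; linear_combination hz
    exact Prod.ext (mul_self_eq_zero.1 h1) h2
  · exfalso
    apply hb (z.1 / z.2)
    field_simp
    linear_combination hz

theorem polar_pl' (a b : F) (u v : F × F) : polar (pl a b) u v = 2 * (u.1 * v.1) + a * (u.1 * v.2 + v.1 * u.2) + 2 * b * (u.2 * v.2) := by
  show polar (LinearMap.BilinMap.toQuadraticMap (plB a b)) u v = _
  rw [LinearMap.BilinMap.polar_toQuadraticMap]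
  show (u.1 * v.1 + a * (u.1 * v.2) + b * (u.2 * v.2)) + (v.1 * u.1 + a * (v.1 * u.2) + b * (v.2 * u.2)) = _
  ring

theorem pl_nd {b : F} (hb : ∀ t : F, t ^ 2 + t + b ≠ 0) : Nd (pl (1 : F) b) := by
  have hd : 4 * b - 1 ≠ 0 := by
    intro h
    by_cases h2 : (2 : F) = 0
    · apply (one_ne_zero : (1 : F) ≠ 0)
      linear_combination (2 * b) * h2 - h
    · apply hb (-1 / 2)
      field_simp
      linear_combination h
  apply nd_of
  intro x hx
  have h1 := hx (1, 0)
  have h2 := hx (0, 1)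
  rw [polar_pl'] at h1 h2
  simp only at h1 h2
  have e1 : (4 * b - 1) * x.1 = 0 := by linear_combination (2 * b) * h1 - h2
  have e2 : (4 * b - 1) * x.2 = 0 := by linear_combination 2 * h2 - h1
  exact Prod.ext ((mul_eq_zero.1 e1).resolve_left hd) ((mul_eq_zero.1 e2).resolve_left hd)

theorem D_subsingleton {V : Type v} [AddCommGroup V] [Module F V] [Subsingleton V] {Q : QuadraticForm F V} : D Q = 1 := by
  have h0 : NN Q 0 = 1 := by
    rw [NN, Nat.card_eq_one_iff_unique]
    exact ⟨⟨fun a b => Subtype.ext (Subsingleton.elim _ _)⟩, ⟨⟨0, QuadraticMap.map_zero _⟩⟩⟩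
  have h1 : NN Q 1 = 0 := by
    rw [NN, Nat.card_eq_zero]
    left
    refine ⟨fun a => (one_ne_zero : (1 : F) ≠ 0) ?_⟩
    rw [← a.2, Subsingleton.elim a.1 0, QuadraticMap.map_zero]
  rw [D, h0, h1]; simp

/-- the standard spaces of both types -/
theorem exists_space : ∀ (k : ℕ) (s : ℤ), (s = 1 ∨ (s = -1 ∧ 1 ≤ k)) →
    ∃ (X : Type u) (_ : AddCommGroup X) (_ : Module F X) (_ : FiniteDimensional F X) (QX : QuadraticForm F X),
      Nd QX ∧ finrank F X = 2 * k ∧ D QX = s * (Nat.card F : ℤ) ^ k := by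
  intro k
  induction k with
  | zero =>
    intro s hs
    have hs1 : s = 1 := by
      rcases hs with h | h
      · exact h
      · omega
    have hd0 : finrank F PUnit.{u+1} = 0 := by
      have : Subsingleton PUnit.{u+1} := inferInstance
      exact Module.finrank_zero_of_subsingleton
    refine ⟨PUnit.{u+1}, inferInstance, inferInstance, inferInstance, 0, nd_of fun x _ => rfl, by rw [hd0], ?_⟩
    rw [D_subsingleton, hs1]; simp
  | succ k ih =>
    intro s hs
    by_cases hk : s = -1 ∧ k = 0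
    · obtain ⟨rfl, rfl⟩ := hk
      obtain ⟨b, hb⟩ := exists_b (F := F)
      have hd : finrank F (F × F) = 2 := by rw [finrank_prod, finrank_self]
      obtain ⟨-, h⟩ := plane_D (pl_nd hb) hd (fun x hx => pl_aniso hb x hx)
      exact ⟨F × F, inferInstance, inferInstance, inferInstance, pl 1 b, pl_nd hb, hd, by rw [h]; ring⟩
    · obtain ⟨X, i1, i2, i3, QX, hnd, hdim, hD⟩ := ih s (by omega)
      have hfin : Finite X := Module.finite_of_finite F
      refine ⟨(F × F) × X, inferInstance, inferInstance, inferInstance, (hy F).prod QX, nd_prod nd_hy hnd, ?_, ?_⟩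
      · rw [finrank_prod, finrank_prod, finrank_self, hdim]; ring
      · rw [D_prod hy_bal (bal hnd ⟨k, by omega⟩), hy_D, hD]; ring

end ex

section sign
variable {F : Type u} [Field F] [Finite F]
variable {V : Type v} [AddCommGroup V] [Module F V] [FiniteDimensional F V] {Q : QuadraticForm F V}

theorem exists_sign (hQ : Nd Q) {N : ℕ} (hV : finrank F V = 2 * N) : ∃ s : ℤ, (s = 1 ∨ (s = -1 ∧ 1 ≤ N)) ∧
    D Q = s * (Nat.card F : ℤ) ^ N := by
  rcases (D_cases N hQ hV).2 with ⟨h1, h2⟩ | ⟨h1, h2⟩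
  · exact ⟨1, Or.inl rfl, by rw [h2, one_mul]⟩
  · refine ⟨-1, Or.inr ⟨rfl, ?_⟩, by rw [h2]; ring⟩
    by_contra h0
    apply h1
    refine ⟨⊥, ?_, by rw [finrank_bot]; omega⟩
    intro u hu
    rw [(Submodule.mem_bot F).1 hu, QuadraticMap.map_zero]

theorem even_finrank_two (h2 : (2 : F) = 0) (hQ : Nd Q) : Even (finrank F V) := by
  have h := Sesq.even_of_nd (B := polarBilin Q) (fun v => by
    show polar Q v v = 0
    rw [polar_self', h2, zero_mul]) (U := ⊤) (fun w _ h => hQ.eq_zero (fun y => h y trivial))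
  rwa [finrank_top] at h

/-- splitting off an anisotropic vector in odd characteristic -/
theorem nd_perp_vec (h2 : (2 : F) ≠ 0) (hQ : Nd Q) {v : V} (hv : Q v ≠ 0) : Nd (res Q (perp Q (F ∙ v))) := by
  refine nd_of fun x hx => ?_
  have hx1 : polar Q v x = 0 := mem_perp_singleton.1 x.2
  apply Subtype.ext
  apply hQ.eq_zero
  intro y
  have h4 := hx ⟨y - (polar Q v y / (2 * Q v)) • v, by
    rw [mem_perp_singleton, polar_sub_right, polar_smul_right, polar_self', smul_eq_mul,
      div_mul_cancel₀ _ (mul_ne_zero h2 hv), sub_self]⟩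
  rw [polar_res, polar_sub_right, polar_smul_right, polar_comm Q (x : V) v, hx1,
    smul_zero, sub_zero] at h4
  exact h4

end sign

section odd
variable {F : Type u} [Field F] [Finite F]

theorem exists_orth_vectors (h2 : (2 : F) ≠ 0) : ∀ (k : ℕ) (α : Fin k → F), (∀ i, α i ≠ 0) → ∀ {V : Type v} [AddCommGroup V] [Module F V]
    [FiniteDimensional F V] {Q : QuadraticForm F V}, Nd Q → k < finrank F V →
    ∃ u : Fin k → V, (∀ i, Q (u i) = α i) ∧ ∀ i j, i ≠ j → polar Q (u i) (u j) = 0 := by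
  intro k
  induction k with
  | zero =>
    intro α hα V _ _ _ Q hQ _
    exact ⟨fun i => i.elim0, fun i => i.elim0, fun i => i.elim0⟩
  | succ k ih =>
    intro α hα V _ _ _ Q hQ hk
    obtain ⟨v, hv0, hv⟩ := hQ.exists_Q_eq h2 (by omega) (α 0)
    have hv1 := hv (hα 0)
    have hvne : Q v ≠ 0 := by rw [hv1]; exact hα 0
    obtain ⟨u, hu1, hu2⟩ := ih (fun i => α i.succ) (fun i => hα _) (nd_perp_vec h2 hQ hvne) (by
      rw [hQ.finrank_perp, finrank_span_singleton hv0]; omega)
    refine ⟨Fin.cons v fun i => (u i : V), ?_, ?_⟩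
    · intro i
      refine Fin.cases ?_ (fun i => ?_) i
      · exact hv1
      · exact hu1 i
    · intro i j
      refine Fin.cases ?_ (fun i => ?_) i <;> refine Fin.cases ?_ (fun j => ?_) j
      · intro hh; exact absurd rfl hh
      · intro _; simp only [Fin.cons_zero, Fin.cons_succ]
        exact mem_perp_singleton.1 (u j).2
      · intro _; simp only [Fin.cons_zero, Fin.cons_succ]
        rw [polar_comm]; exact mem_perp_singleton.1 (u i).2
      · intro hij
        simp only [Fin.cons_succ]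
        exact hu2 i j fun h => hij (by rw [h])

end odd

section emb
variable {F : Type u} [Field F] [Finite F]
variable {V : Type v} [AddCommGroup V] [Module F V] [FiniteDimensional F V] {Q : QuadraticForm F V}
variable {V' : Type w} [AddCommGroup V'] [Module F V'] [FiniteDimensional F V'] {Q' : QuadraticForm F V'}

theorem inj_of_nd (hQ' : Nd Q') {f : V' →ₗ[F] V} (hf : ∀ x, Q (f x) = Q' x) : Function.Injective f := by
  rw [injective_iff_map_eq_zero]
  intro x hx
  apply hQ'.eq_zero
  intro y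
  rw [← polar_map f hf, hx]
  simp [polar]

theorem emb_even (hQ : Nd Q) (hQ' : Nd Q') {N k : ℕ} (hV : finrank F V = 2 * N) (hV' : finrank F V' = 2 * k) (hk : k < N) :
    ∃ f : V' →ₗ[F] V, ∀ x, Q (f x) = Q' x := by
  have hfin : Finite V := Module.finite_of_finite F
  have hfin' : Finite V' := Module.finite_of_finite F
  obtain ⟨s, hs, hD⟩ := exists_sign hQ hV
  obtain ⟨s', hs', hD'⟩ := exists_sign hQ' hV'
  obtain ⟨X, i1, i2, i3, QX, hnd, hdim, hDX⟩ := exists_space (F := F) (N - k) (s * s') (by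
    rcases hs with h | h <;> rcases hs' with h' | h'
    · left; rw [h, h']; rfl
    · right; rw [h, h'.1]; exact ⟨rfl, by omega⟩
    · right; rw [h.1, h']; exact ⟨rfl, by omega⟩
    · left; rw [h.1, h'.1]; rfl)
  have hfinX : Finite X := Module.finite_of_finite F
  have hss : s' * (s * s') = s := by
    have : s' * s' = 1 := by
      rcases hs' with h' | h'
      · rw [h']; rfl
      · rw [h'.1]; rfl
    linear_combination s * this
  obtain ⟨e, he⟩ := iso_of_D (Q := Q'.prod QX) (Q' := Q) N (nd_prod hQ' hnd) (by rw [finrank_prod, hV', hdim]; omega) hQ hV (by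
    rw [D_prod (bal hQ' ⟨k, by omega⟩) (bal hnd ⟨N - k, by omega⟩), hD', hDX, hD]
    have : (Nat.card F : ℤ) ^ N = (Nat.card F : ℤ) ^ k * (Nat.card F : ℤ) ^ (N - k) := by
      rw [← pow_add]; congr 1; omega
    rw [this]
    linear_combination ((Nat.card F : ℤ) ^ k * (Nat.card F : ℤ) ^ (N - k)) * hss)
  refine ⟨e.toLinearMap ∘ₗ LinearMap.inl F V' X, fun x => ?_⟩
  show Q (e (x, 0)) = Q' x
  rw [he, QuadraticMap.prod_apply, QuadraticMap.map_zero, add_zero]

/-- every nondegenerate space embeds in every nondegenerate space of larger dimension -/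
theorem emb_lt (hQ : Nd Q) (hQ' : Nd Q') (h : finrank F V' < finrank F V) : ∃ f : V' →ₗ[F] V, ∀ x, Q (f x) = Q' x := by
  by_cases h2 : (2 : F) = 0
  · obtain ⟨N, hN⟩ := even_finrank_two h2 hQ
    obtain ⟨k, hk⟩ := even_finrank_two h2 hQ'
    exact emb_even hQ hQ' (N := N) (k := k) (by omega) (by omega) (by omega)
  · obtain ⟨b, hb, hb0⟩ := hQ'.exists_orth_basis h2
    obtain ⟨u, hu1, hu2⟩ := exists_orth_vectors h2 (finrank F V') (fun i => Q' (b i)) hb0 hQ h
    refine ⟨b.constr F u, ?_⟩
    have h1 : Q.comp (b.constr F u) = Q' := by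
      refine ext_basis b ?_ ?_
      · intro i
        rw [QuadraticMap.comp_apply, Basis.constr_basis, hu1]
      · intro i j hij
        have e1 : polar (Q.comp (b.constr F u)) (b i) (b j) = polar Q (u i) (u j) := by
          rw [← b.constr_basis F u i, ← b.constr_basis F u j]
          simp only [polar, QuadraticMap.comp_apply, map_add]
        rw [e1, hu2 i j hij, hb i j hij]
    intro x
    rw [← h1]; rfl

theorem emb (hQ : Nd Q) (hQ' : Nd Q') (h : finrank F V' < finrank F V ∨ (finrank F V' = finrank F V ∧ Even (finrank F V) ∧ D Q' = D Q)) :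
    ∃ f : V' →ₗ[F] V, ∀ x, Q (f x) = Q' x := by
  rcases h with h | ⟨h1, ⟨N, hN⟩, h3⟩
  · exact emb_lt hQ hQ' h
  · obtain ⟨e, he⟩ := iso_of_D N hQ' (by omega) hQ (by omega) h3
    exact ⟨e.toLinearMap, he⟩

end emb

section sup
variable {F : Type u} [Field F]
variable {V : Type v} [AddCommGroup V] [Module F V] {Q : QuadraticForm F V}

/-- orthogonal sums of subspaces -/
theorem sup_iso {U W : Submodule F V} (hd : Disjoint U W) (h : ∀ u ∈ U, ∀ w ∈ W, polar Q u w = 0) :
    ∃ e : (U × W) ≃ₗ[F] ↥(U ⊔ W), (∀ x, res Q (U ⊔ W) (e x) = ((res Q U).prod (res Q W)) x) ∧ ∀ x, (e x : V) = x.1 + x.2 := by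
  let f : (U × W) →ₗ[F] ↥(U ⊔ W) :=
    { toFun := fun x => ⟨x.1 + x.2, Submodule.add_mem_sup x.1.2 x.2.2⟩
      map_add' := fun x y => Subtype.ext (by
        show ((x.1 + y.1 : U) : V) + ((x.2 + y.2 : W) : V) = (x.1 + x.2) + (y.1 + y.2)
        rw [Submodule.coe_add, Submodule.coe_add]; abel)
      map_smul' := fun c x => Subtype.ext (by
        show ((c • x.1 : U) : V) + ((c • x.2 : W) : V) = c • ((x.1 : V) + x.2)
        rw [Submodule.coe_smul, Submodule.coe_smul, smul_add]) }
  have hf : ∀ x, (f x : V) = x.1 + x.2 := fun _ => rfl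
  have hinj : Function.Injective f := by
    rw [injective_iff_map_eq_zero]
    intro x hx
    have h1 : (x.1 : V) + x.2 = 0 := congrArg Subtype.val hx
    have h2 : (x.1 : V) = 0 := by
      have h3 : (x.1 : V) = -(x.2 : V) := eq_neg_of_add_eq_zero_left h1
      exact Submodule.disjoint_def.1 hd _ x.1.2 (by rw [h3]; exact W.neg_mem x.2.2)
    have h3 : (x.2 : V) = 0 := by rwa [h2, zero_add] at h1
    exact Prod.ext (Subtype.ext h2) (Subtype.ext h3)
  have hsurj : Function.Surjective f := by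
    rintro ⟨y, hy⟩
    obtain ⟨a, ha, b, hb, rfl⟩ := Submodule.mem_sup.1 hy
    exact ⟨(⟨a, ha⟩, ⟨b, hb⟩), rfl⟩
  refine ⟨LinearEquiv.ofBijective f ⟨hinj, hsurj⟩, fun x => ?_, fun x => rfl⟩
  show Q ((x.1 : V) + x.2) = Q x.1 + Q x.2
  rw [Q_add, h _ x.1.2 _ x.2.2, add_zero]

variable [Finite F] [FiniteDimensional F V]

theorem D_sup {U W : Submodule F V} (hd : Disjoint U W) (h : ∀ u ∈ U, ∀ w ∈ W, polar Q u w = 0) (hU : Nd (res Q U)) (hW : Nd (res Q W))
    (hUe : Even (finrank F U)) (hWe : Even (finrank F W)) : D (res Q (U ⊔ W)) = D (res Q U) * D (res Q W) := by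
  have hfin : Finite V := Module.finite_of_finite F
  obtain ⟨e, he, -⟩ := sup_iso hd h
  rw [D_congr e he, D_prod (bal hU hUe) (bal hW hWe)]

theorem D_top : D (res Q ⊤) = D Q := by
  symm
  exact D_congr (Submodule.topEquiv) (fun x => rfl)

end sup

end Cfsg.Agent.Lib.QuadEmb67
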