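import Mathlib
import Cfsg.Agent.Lib.QuadEmb67
import Cfsg.Agent.Lib.QuadIndex
import Cfsg.Agent.Lib.QuadSpinor

/-!
(helper67) Isometries of odd prime order `r` of quadratic spaces over finite fields, `r` different from the
characteristic: dimensions and types of invariant nondegenerate subspaces.
-/

set_option autoImplicit false
set_option linter.unusedSectionVars false

namespace Cfsg.Agent.Lib.OrthR67

open Polynomial QuadraticMap Module Cfsg.Agent.Lib.Quad Cfsg.Agent.Lib.QuadD67 Cfsg.Agent.Lib.QuadEmb67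
open Cfsg.Agent.Lib.InvSub Cfsg.Agent.Lib.PrimeOrd

universe u v w

section basic
variable {F : Type u} [Field F] {V : Type v} [AddCommGroup V] [Module F V]

abbrev Bq (Q : QuadraticForm F V) : V →ₗ[F] V →ₗ[F] F := polarBilin Q
abbrev NDq (Q : QuadraticForm F V) (W : Submodule F V) : Prop := Sesq.ND (σ := RingHom.id F) (Bq Q) W
abbrev pp (Q : QuadraticForm F V) (W : Submodule F V) : Submodule F V := Sesq.perp (σ := RingHom.id F) (Bq Q) W

/-- isometries of odd prime order different from the characteristic -/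
structure PR (r : ℕ) (Q : QuadraticForm F V) (T : Module.End F V) : Prop where
  hr : r.Prime
  odd : Odd r
  ne : (r : F) ≠ 0
  nd : Nd Q
  iso : ∀ v, Q (T v) = Q v
  pow : T ^ r = 1

variable {Q : QuadraticForm F V} {T : Module.End F V} {r : ℕ} {W : Submodule F V}

theorem refl_bq : Sesq.Refl (σ := RingHom.id F) (Bq Q) := fun u v h => by
  show polar Q v u = 0
  rw [polar_comm]; exact h

theorem nd_top (hQ : Nd Q) : NDq Q ⊤ := fun w _ h => hQ.eq_zero fun y => h y trivial

theorem iso_bq (h : ∀ v, Q (T v) = Q v) : Sesq.Iso (σ := RingHom.id F) (Bq Q) T := fun u v => polar_map T h u v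

theorem nd_res (h : NDq Q W) : Nd (res Q W) := by
  apply nd_of
  intro x hx
  exact Subtype.ext (h x x.2 (fun w hw => hx ⟨w, hw⟩))

theorem ndq_of (h : Nd (res Q W)) : NDq Q W := by
  intro w hw h1
  have h2 := h.eq_zero (x := ⟨w, hw⟩) (fun y => h1 y y.2)
  exact congrArg Subtype.val h2

theorem mem_pp {x : V} : x ∈ pp Q W ↔ ∀ w ∈ W, polar Q w x = 0 := Iff.rfl

theorem mem_E {x : V} : x ∈ E T (1 : F) ↔ T x = x := by
  rw [Module.End.mem_eigenspace_iff, one_smul]

theorem inv_E : Inv T (E T (1 : F)) := fun x hx => by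
  rw [mem_E.1 hx]; exact hx

theorem pow_mem (hW : Inv T W) (k : ℕ) {x : V} (hx : x ∈ W) : (T ^ k) x ∈ W := by
  induction k with
  | zero => exact hx
  | succ k ih => rw [pow_succ', Module.End.mul_apply]; exact hW _ ih

end basic

section count
variable {F : Type u} [Field F] [Finite F] {V : Type v} [AddCommGroup V] [Module F V] [FiniteDimensional F V]
variable {Q : QuadraticForm F V} {T : Module.End F V} {r : ℕ} {W : Submodule F V}

theorem PR.NN_mod (h : PR r Q T) (hW : Inv T W) (hE : W ⊓ E T 1 = ⊥) (c : F) :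
    ((c = 0 → (NN (res Q W) c : ZMod r) = 1) ∧ (c ≠ 0 → (NN (res Q W) c : ZMod r) = 0)) := by
  classical
  have hrf : Fact r.Prime := ⟨h.hr⟩
  have hfin : Finite V := Module.finite_of_finite F
  let A := {w : W // res Q W w = c}
  have : Fintype A := Fintype.ofFinite A
  let f : Function.End A := fun x => ⟨⟨T x.1.1, hW _ x.1.2⟩, by
    show Q (T x.1.1) = c
    rw [h.iso]; exact x.2⟩
  have hfk : ∀ (k : ℕ) (x : A), (((f ^ k) x).1 : V) = (T ^ k) x.1.1 := by
    intro k
    induction k with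
    | zero => intro x; rfl
    | succ k ih =>
      intro x
      rw [pow_succ, pow_succ]
      show (((f ^ k) (f x)).1 : V) = (T ^ k) (T x.1.1)
      rw [ih]
  have h2 := Equiv.Perm.card_fixedPoints_modEq (α := A) (f := f) (p := r) (n := 1) (by
    rw [pow_one]
    funext x
    apply Subtype.ext
    apply Subtype.ext
    rw [hfk, h.pow]; rfl)
  have hfix : ∀ x : A, x ∈ Function.fixedPoints f → x.1 = 0 := by
    intro x hx
    have h4 : T x.1.1 = x.1.1 := congrArg (fun y : A => (y.1 : V)) hx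
    have h5 : (x.1 : V) ∈ W ⊓ E T 1 := ⟨x.1.2, mem_E.2 h4⟩
    rw [hE] at h5
    exact Subtype.ext ((Submodule.mem_bot F).1 h5)
  have h3 : (NN (res Q W) c : ZMod r) = (Fintype.card (Function.fixedPoints f) : ZMod r) := by
    have h4 : NN (res Q W) c = Fintype.card A := Nat.card_eq_fintype_card
    rw [h4]
    exact (ZMod.natCast_eq_natCast_iff _ _ _).2 h2
  rw [h3]
  constructor
  · intro hc
    have h4 : Fintype.card (Function.fixedPoints f) = 1 := by
      rw [Fintype.card_eq_one_iff]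
      refine ⟨⟨⟨0, by rw [hc, QuadraticMap.map_zero]⟩, ?_⟩, ?_⟩
      · show f _ = _
        apply Subtype.ext
        apply Subtype.ext
        show T 0 = 0
        rw [map_zero]
      · intro x
        apply Subtype.ext
        apply Subtype.ext
        exact hfix x.1 x.2
    rw [h4]; simp
  · intro hc
    have h4 : Fintype.card (Function.fixedPoints f) = 0 := by
      rw [Fintype.card_eq_zero_iff]
      refine ⟨fun x => hc ?_⟩
      have := x.1.2
      rw [hfix x.1 x.2, QuadraticMap.map_zero] at this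
      exact this.symm
    rw [h4]; simp

theorem PR.D_mod (h : PR r Q T) (hW : Inv T W) (hE : W ⊓ E T 1 = ⊥) : ((D (res Q W) : ℤ) : ZMod r) = 1 := by
  have h0 := (h.NN_mod hW hE 0).1 rfl
  have h1 := (h.NN_mod hW hE 1).2 one_ne_zero
  rw [D]
  push_cast
  rw [h0, h1, sub_zero]

theorem PR.even (h : PR r Q T) (hW : Inv T W) (hWnd : NDq Q W) (hE : W ⊓ E T 1 = ⊥) : Even (finrank F W) := by
  by_cases h2 : (2 : F) = 0
  · exact even_finrank_two h2 (nd_res hWnd)
  have hnd := nd_res hWnd
  let g : W ≃ₗ[F] W := ofMap hnd (T.restrict hW) (fun v => h.iso v)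
  have hg : g ∈ O (res Q W) := ofMap_mem _ _ _
  have hgv : ∀ v : W, (g v : V) = T v := fun v => rfl
  have hgk : ∀ (k : ℕ) (v : W), ((g ^ k) v : V) = (T ^ k) v := by
    intro k
    induction k with
    | zero => intro v; rfl
    | succ k ih =>
      intro v
      rw [pow_succ, pow_succ]
      show ((g ^ k) (g v) : V) = (T ^ k) (T v)
      rw [ih, hgv]
  have hgr : g ^ r = 1 := by
    ext v
    rw [hgk, h.pow]; rfl
  have hgen : GenHyp (res Q W) := Or.inl ⟨-1, neg_ne_zero.2 one_ne_zero, fun h1 => h2 (by linear_combination -h1)⟩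
  have hR := hnd.R_eq_O hgen
  have h3 : (parHom hnd hR ⟨g, hg⟩) ^ r = 1 := by
    rw [← map_pow]
    have : (⟨g, hg⟩ : ↥(O (res Q W))) ^ r = 1 := Subtype.ext hgr
    rw [this, map_one]
  have h4 : parHom hnd hR ⟨g, hg⟩ = 1 := by
    rcases Int.units_eq_one_or (parHom hnd hR ⟨g, hg⟩) with h5 | h5
    · exact h5
    · rw [h5, h.odd.neg_one_pow] at h3
      exact absurd h3 (by decide)
  have h5 : Even (finrank F (mov g)) := sgn_eq_one_iff.1 h4
  have h6 := finrank_mov_add_fixS g
  have h7 : fixS g = ⊥ := by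
    rw [eq_bot_iff]
    intro x hx
    rw [mem_fixS] at hx
    have h8 : (x : V) ∈ W ⊓ E T 1 := ⟨x.2, mem_E.2 (by rw [← hgv, hx])⟩
    rw [hE] at h8
    rw [Submodule.mem_bot]
    exact Subtype.ext ((Submodule.mem_bot F).1 h8)
  rw [h7, finrank_bot, add_zero] at h6
  rwa [h6] at h5

end count

section num

/-- half of the size of an atom -/
def hh (i : ℕ) : ℕ := if Even i then i / 2 else i
/-- the sign of an atom -/
def sg (i : ℕ) : ℤ := if Even i then -1 else 1

theorem csize_eq (i : ℕ) : Sesq.csize i = 2 * hh i := by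
  unfold Sesq.csize hh
  split_ifs with h
  · obtain ⟨j, hj⟩ := h
    omega
  · rfl

theorem sg_sq (i : ℕ) : sg i * sg i = 1 := by
  unfold sg; split_ifs <;> rfl

theorem sg_pow_sq (i k : ℕ) : sg i ^ k * sg i ^ k = 1 := by
  rw [← mul_pow, sg_sq, one_pow]

variable {q r i : ℕ}

theorem hh_pos (hi0 : 0 < i) : 0 < hh i := by
  unfold hh
  split_ifs with h
  · obtain ⟨j, hj⟩ := h
    omega
  · exact hi0

theorem pow_hh (hr : r.Prime) (hi : i = orderOf (q : ZMod r)) (hi0 : 0 < i) : ((q : ZMod r)) ^ hh i = ((sg i : ℤ) : ZMod r) := by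
  unfold hh sg
  split_ifs with h
  · have := Sesq.ord_half hr hi h hi0
    push_cast at this ⊢
    exact this
  · rw [hi]; push_cast; exact pow_orderOf_eq_one _

theorem int_sign_eq (hr : r.Prime) (ho : Odd r) {s t : ℤ} (hs : s = 1 ∨ s = -1) (ht : t = 1 ∨ t = -1)
    (h : ((s * t : ℤ) : ZMod r) = 1) : s = t := by
  have hrf : Fact r.Prime := ⟨hr⟩
  have h2 : ((-1 : ℤ) : ZMod r) ≠ 1 := by
    intro h
    push_cast at h
    have h3 : ((2 : ℕ) : ZMod r) = 0 := by
      push_cast
      linear_combination -h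
    rw [ZMod.natCast_eq_zero_iff] at h3
    have h4 := (Nat.prime_dvd_prime_iff_eq hr Nat.prime_two).1 h3
    rw [h4] at ho
    exact absurd ho (by decide)
  rcases hs with rfl | rfl <;> rcases ht with rfl | rfl
  · rfl
  · exact absurd h h2
  · exact absurd h h2
  · rfl

theorem key_num (hr : r.Prime) (ho : Odd r) (hi : i = orderOf (q : ZMod r)) (hi0 : 0 < i) {s : ℤ} (hs : s = 1 ∨ s = -1) {N : ℕ}
    (h : ((s * (q : ℤ) ^ N : ℤ) : ZMod r) = 1) : ∃ k, N = hh i * k ∧ s = sg i ^ k := by
  have hrf : Fact r.Prime := ⟨hr⟩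
  have hss : s * s = 1 := by rcases hs with rfl | rfl <;> rfl
  have h1 : ((q : ZMod r)) ^ (N + N) = 1 := by
    push_cast at h
    have hss' : ((s : ZMod r)) * s = 1 := by
      have := congrArg (Int.cast : ℤ → ZMod r) hss
      push_cast at this
      exact this
    rw [pow_add]
    linear_combination (1 + s * (q : ZMod r) ^ N) * h - ((q : ZMod r) ^ N * (q : ZMod r) ^ N) * hss'
  have h2 : i ∣ N + N := by rw [hi]; exact orderOf_dvd_of_pow_eq_one h1
  have h3 : hh i ∣ N := by
    unfold hh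
    split_ifs with he
    · obtain ⟨j, hj⟩ := he
      obtain ⟨k, hk⟩ := h2
      refine ⟨k, ?_⟩
      have : i / 2 = j := by omega
      rw [this]
      have : N + N = 2 * (j * k) := by rw [hk, hj]; ring
      omega
    · have h4 : i ∣ 2 * N := by rw [two_mul]; exact h2
      exact (Nat.Coprime.dvd_of_dvd_mul_left (Nat.coprime_two_right.2 (Nat.not_even_iff_odd.1 he)) h4)
  obtain ⟨k, hk⟩ := h3
  refine ⟨k, hk, ?_⟩
  apply int_sign_eq hr ho hs
  · unfold sg
    split_ifs with he
    · rcases Nat.even_or_odd k with h5 | h5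
      · left; exact h5.neg_one_pow
      · right; exact h5.neg_one_pow
    · left; exact one_pow _
  · rw [hk, pow_mul] at h
    have h6 := pow_hh hr hi hi0
    push_cast at h h6 ⊢
    rw [← h6]
    exact h

theorem num_key (hr : r.Prime) (hi : i = orderOf (q : ZMod r)) (hi0 : 0 < i) (k : ℕ) :
    ((sg i ^ k * (q : ℤ) ^ (hh i * k) : ℤ) : ZMod r) = 1 := by
  have h6 := pow_hh hr hi hi0
  push_cast
  rw [pow_mul, h6, ← mul_pow]
  have := congrArg (Int.cast : ℤ → ZMod r) (sg_sq i)
  push_cast at this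
  rw [this, one_pow]

end num

section size
variable {F : Type u} [Field F] [Fintype F] {V : Type v} [AddCommGroup V] [Module F V] [FiniteDimensional F V]
variable {Q : QuadraticForm F V} {T : Module.End F V} {r : ℕ} {W : Submodule F V}

theorem ord_pos (hr : r.Prime) (hne : (r : F) ≠ 0) : 0 < orderOf ((Fintype.card F : ℕ) : ZMod r) := by
  obtain ⟨p, hp⟩ := CharP.exists F
  haveI : Fact p.Prime := ⟨CharP.char_is_prime F p⟩
  haveI : Fact r.Prime := ⟨hr⟩
  have hrp : r ≠ p := by
    rintro rfl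
    exact hne (CharP.cast_eq_zero F r)
  exact order_pos (F := F) (p := p) hrp

theorem PR.ss (h : PR r Q T) : SS T 1 (orderOf ((Fintype.card F : ℕ) : ZMod r)) := by
  obtain ⟨p, hp⟩ := CharP.exists F
  haveI : Fact p.Prime := ⟨CharP.char_is_prime F p⟩
  haveI : Fact r.Prime := ⟨h.hr⟩
  have hrp : r ≠ p := by
    rintro rfl
    exact h.ne (CharP.cast_eq_zero F r)
  exact ssB (p := p) hrp one_ne_zero (by rw [one_pow, one_smul]; exact h.pow)

variable (F) in
/-- the half size of atoms -/
noncomputable abbrev hF (r : ℕ) : ℕ := hh (orderOf ((Fintype.card F : ℕ) : ZMod r))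
variable (F) in
/-- the sign of atoms -/
noncomputable abbrev sF (r : ℕ) : ℤ := sg (orderOf ((Fintype.card F : ℕ) : ZMod r))

/-- dimension and type of fixed point free invariant nondegenerate subspaces -/
theorem PR.type (h : PR r Q T) (hW : Inv T W) (hWnd : NDq Q W) (hE : W ⊓ E T 1 = ⊥) :
    ∃ k, finrank F W = 2 * (hF F r * k) ∧ D (res Q W) = sF F r ^ k * (Fintype.card F : ℤ) ^ (hF F r * k) := by
  obtain ⟨N, hN⟩ := h.even hW hWnd hE
  have hN2 : finrank F W = 2 * N := by omega
  obtain ⟨s, hs, hD⟩ := exists_sign (nd_res hWnd) hN2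
  have h1 := h.D_mod hW hE
  rw [Nat.card_eq_fintype_card] at hD
  rw [hD] at h1
  obtain ⟨k, hk, hsk⟩ := key_num h.hr h.odd rfl (ord_pos h.hr h.ne) (hs.imp id And.left) h1
  exact ⟨k, by rw [hN2, hk], by rw [hD, hk, hsk]⟩

theorem PR.type' (h : PR r Q T) (hW : Inv T W) (hWnd : NDq Q W) (hE : W ⊓ E T 1 = ⊥) {k : ℕ} (hk : finrank F W = 2 * (hF F r * k)) :
    D (res Q W) = sF F r ^ k * (Fintype.card F : ℤ) ^ (hF F r * k) := by
  obtain ⟨k', h1, h2⟩ := h.type hW hWnd hE
  have : k' = k := by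
    have h3 := hh_pos (ord_pos h.hr h.ne)
    rw [hk] at h1
    have h4 : hF F r * k = hF F r * k' := by omega
    exact (Nat.eq_of_mul_eq_mul_left h3 h4).symm
  rw [h2, this]

end size

end Cfsg.Agent.Lib.OrthR67
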