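import Mathlib
import Cfsg.Agent.Lib.OrthR67

/-!
(helper67) Isometries of odd prime order `r`: atoms.
-/

set_option autoImplicit false
set_option linter.unusedSectionVars false

namespace Cfsg.Agent.Lib.OrthR67

open Polynomial QuadraticMap Module Cfsg.Agent.Lib.Quad Cfsg.Agent.Lib.QuadD67 Cfsg.Agent.Lib.QuadEmb67
open Cfsg.Agent.Lib.InvSub Cfsg.Agent.Lib.PrimeOrd

universe u v w

section atom
variable {F : Type u} [Field F] [Fintype F] {V : Type v} [AddCommGroup V] [Module F V] [FiniteDimensional F V]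
variable {Q : QuadraticForm F V} {T : Module.End F V} {r : ℕ} {W : Submodule F V}

theorem PR.exists_ne_self (h : PR r Q T) {M : Submodule F V} (hM : Inv T M)
    (hMnd : NDq Q M) (hne : M ≠ ⊥) (hE : M ⊓ E T 1 = ⊥) : ∃ u ∈ M, polar Q (T u) u ≠ 0 := by
  by_contra hcon
  push Not at hcon
  have hT := iso_bq h.iso
  have h1 : ∀ u ∈ M, ∀ v ∈ M, polar Q (T u) v = - polar Q u (T v) := by
    intro u hu v hv
    have h2 := hcon (u + v) (M.add_mem hu hv)
    rw [map_add, polar_add_left, polar_add_right, polar_add_right, hcon u hu, hcon v hv, zero_add, add_zero] at h2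
    rw [polar_comm Q u (T v)]
    exact eq_neg_of_add_eq_zero_left h2
  have h2 : ∀ v ∈ M, T (T v) = -v := by
    intro v hv
    have h3 : T (T v) + v = 0 := by
      apply hMnd _ (M.add_mem (hM _ (hM v hv)) hv)
      intro w hw
      have h4 : w ∈ M.map T := by rw [hT.map_eq (nd_top h.nd) hM]; exact hw
      obtain ⟨u, hu, rfl⟩ := h4
      show polar Q (T (T v) + v) (T u) = 0
      have h5 : polar Q (T (T v)) (T u) = polar Q (T v) u := polar_map T h.iso _ _
      rw [polar_add_left, h5, h1 v hv u hu, neg_add_cancel]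
    exact eq_neg_of_add_eq_zero_left h3
  obtain ⟨v, hv, hv0⟩ := Submodule.exists_mem_ne_zero_of_ne_bot hne
  apply hv0
  have h3 : ∀ k : ℕ, (T ^ (2 * k)) v = (-1 : F) ^ k • v := by
    intro k
    induction k with
    | zero => simp
    | succ k ih =>
      rw [show 2 * (k + 1) = 2 * k + 1 + 1 from by ring, pow_succ, pow_succ, Module.End.mul_apply, Module.End.mul_apply, h2 v hv,
        map_neg, ih, pow_succ, mul_smul, ← smul_neg]
      congr 1
      rw [neg_smul, one_smul]
  have h4 : v = -v := by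
    have h5 := h3 r
    rw [mul_comm, pow_mul, h.pow, one_pow, h.odd.neg_one_pow, neg_smul, one_smul] at h5
    exact h5
  have h6 : ∀ k : ℕ, (T ^ (2 * k)) v = v := by
    intro k
    rw [h3]
    rcases Nat.even_or_odd k with h7 | h7
    · rw [h7.neg_one_pow, one_smul]
    · rw [h7.neg_one_pow, neg_smul, one_smul, ← h4]
  obtain ⟨k, hk⟩ := h.odd
  have h7 : T v = v := by
    have h5 : (T ^ r) v = v := by rw [h.pow]; rfl
    rw [hk, pow_succ', Module.End.mul_apply, h6] at h5
    exact h5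
  have : v ∈ M ⊓ E T 1 := ⟨hv, mem_E.2 h7⟩
  rw [hE] at this
  exact (Submodule.mem_bot F).mp this

theorem PR.exists_atom (h : PR r Q T) (hW : Inv T W) (hWnd : NDq Q W) (hne : W ≠ ⊥) (hE : W ⊓ E T 1 = ⊥) :
    ∃ U ≤ W, Inv T U ∧ NDq Q U ∧ finrank F U = 2 * hF F r := by
  obtain ⟨p, hp⟩ := CharP.exists F
  have hpf : Fact p.Prime := ⟨CharP.char_is_prime F p⟩
  have hr : r.Prime := h.hr
  have hrf : Fact r.Prime := ⟨hr⟩
  have hrp : r ≠ p := by
    rintro rfl
    exact h.ne (CharP.cast_eq_zero F r)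
  have hT := iso_bq h.iso
  have hnd := nd_top h.nd
  have hrF : (r : F) ≠ 0 := h.ne
  have hTr := h.pow
  set i := orderOf ((Fintype.card F : ℕ) : ZMod r) with hi
  have hi0 : 0 < i := ord_pos h.hr h.ne
  have hss : SS T 1 i := h.ss
  have hcs : 2 * hF F r = Sesq.csize i := (csize_eq i).symm
  rw [hcs]
  by_cases he : Even i
  · rw [Sesq.csize, if_pos he]
    have hX0 : (X ^ r - 1 : F[X]) ≠ 0 := X_pow_sub_C_ne_zero hr.pos 1
    have hTT : aeval T (X ^ r - 1 : F[X]) = 0 := by rw [map_sub, map_pow, aeval_X, map_one, hTr, sub_self]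
    obtain ⟨f, hf, hfd, w, hw, hw0, hfw⟩ := exists_irred_factor hX0 hTT hW hne
    have hfc : f ∣ cyclotomic r F := by
      rw [← cyclotomic_prime_mul_X_sub_one F r] at hfd
      rcases (hf.prime.dvd_or_dvd hfd) with h' | h'
      · exact h'
      · exfalso
        obtain ⟨g, hg⟩ := h'
        have h1 : aeval T (X - 1 : F[X]) w = 0 := by
          rw [hg, mul_comm, map_mul, Module.End.mul_apply, hfw, map_zero]
        rw [map_sub, aeval_X, map_one, LinearMap.sub_apply, sub_eq_zero] at h1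
        have : w ∈ W ⊓ E T 1 := ⟨hw, mem_E.2 h1⟩
        rw [hE] at this
        exact hw0 ((Submodule.mem_bot F).mp this)
    have hdeg : f.natDegree = i := natDegree_irred_cyclotomic hrp hf hfc
    let M : Submodule F V := W ⊓ LinearMap.ker (aeval T f)
    have hMinv : Inv T M := by
      apply Sesq.inv_inf hW
      intro x hx
      rw [LinearMap.mem_ker] at hx ⊢
      have : aeval T f (T x) = T (aeval T f x) := by
        have h1 : aeval T (f * X) = aeval T (X * f) := by rw [mul_comm]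
        rw [map_mul, map_mul, aeval_X] at h1
        exact congrArg (fun g : Module.End F V => g x) h1
      rw [this, hx, map_zero]
    obtain ⟨g, hg⟩ := hfd
    have hsep : (X ^ r - 1 : F[X]).Separable := by
      have := separable_X_pow_sub_C (1 : F) hrF one_ne_zero
      rwa [C_1] at this
    have hcop : IsCoprime f g := by
      rw [hg] at hsep
      exact hsep.isCoprime
    obtain ⟨a, b, hab⟩ := hcop
    have hadj := Sesq.adj_poly (B := Bq Q) (fun u v => Sesq.iso_adj hT hr.pos hTr u v) f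
    have hWpoly : ∀ (P : F[X]) (x : V), x ∈ W → aeval T P x ∈ W := by
      intro P x hx
      induction P using Polynomial.induction_on' with
      | add p q hp hq => rw [map_add]; exact W.add_mem hp hq
      | monomial k c =>
        rw [← C_mul_X_pow_eq_monomial, map_mul, aeval_C, map_pow, aeval_X]
        exact W.smul_mem c (Sesq.inv_pow hW k x hx)
    have hMnd : NDq Q M := by
      intro m hm hm'
      apply hWnd m hm.1
      intro x hx
      have hx1 : x = aeval T (b * g) x + aeval T f (aeval T a x) := by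
        have : aeval T (b * g) x + aeval T f (aeval T a x) = aeval T (a * f + b * g) x := by
          rw [mul_comm a f, map_add, map_mul (aeval T) f a, LinearMap.add_apply, Module.End.mul_apply, add_comm]
        rw [this, hab, map_one]; rfl
      have h1 : aeval T (b * g) x ∈ M := by
        refine Submodule.mem_inf.mpr ⟨hWpoly _ x hx, ?_⟩
        rw [LinearMap.mem_ker, ← Module.End.mul_apply, ← map_mul, show f * (b * g) = b * (f * g) by ring, ← hg, map_mul, hTT,
          mul_zero]
        rfl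
      rw [hx1, map_add, hm' _ h1, zero_add]
      have h2 : (Bq Q) m (aeval T f (aeval T a x)) = (Bq Q) (aeval T f (aeval T a x)) m := polar_comm Q _ _
      rw [h2, hadj, Sesq.aeval_inv hr hTr hi he hi0 (by exact hm.2), map_zero]
    have hMne : M ≠ ⊥ := by
      intro h'
      have : w ∈ M := Submodule.mem_inf.mpr ⟨hw, hfw⟩
      rw [h'] at this
      exact hw0 ((Submodule.mem_bot F).mp this)
    have hME : M ⊓ E T 1 = ⊥ := by
      rw [eq_bot_iff, ← hE]
      exact inf_le_inf_right _ inf_le_left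
    obtain ⟨u, hu, huu⟩ := h.exists_ne_self hMinv hMnd hMne hME
    have hu0 : u ≠ 0 := by
      rintro rfl
      rw [map_zero] at huu
      exact huu (by simp [polar])
    obtain ⟨U, hUM, hU, hUnd, hUf, -⟩ := Sesq.nd_cyclic (B := Bq Q) refl_bq hnd hT hf hu0 hu.2 hMinv hu (fun m hm => hm.2)
      ⟨T u, u, hMinv u hu, hu, fun W' hW' huW' => ⟨hW' u huW', huW'⟩, huu⟩
    exact ⟨U, hUM.trans inf_le_left, hU, hUnd, by rw [hUf, hdeg]⟩
  · rw [Sesq.csize, if_neg he]
    have hdisj : Disjoint (E T 1) W := by rw [disjoint_iff, inf_comm]; exact hE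
    obtain ⟨U, hUW, hU, hUf⟩ := hss.ex W hW hne hdisj
    have hti : Sesq.TI (σ := RingHom.id F) (Bq Q) U := by
      rw [Sesq.ti_iff]
      by_contra hnle
      have hR : Inv T (U ⊓ pp Q U) := Sesq.inv_inf hU (hT.inv_perp hnd hU)
      have hR0 : U ⊓ pp Q U = ⊥ := by
        by_contra hRne
        obtain ⟨U', hU'R, -, hU'f⟩ := hss.ex _ hR hRne (by
          rw [disjoint_iff, eq_bot_iff, ← hE, inf_comm]
          exact inf_le_inf_right _ (inf_le_left.trans hUW))
        have : U' = U := Submodule.eq_of_le_of_finrank_eq (hU'R.trans inf_le_left) (by rw [hU'f, hUf])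
        apply hnle
        rw [this] at hU'R
        exact hU'R.trans inf_le_right
      have := h.even hU ((Sesq.nd_iff refl_bq).mpr hR0) (by
        rw [eq_bot_iff, ← hE]
        exact inf_le_inf_right _ hUW)
      rw [hUf] at this
      exact he this
    obtain ⟨H, hHW, hH, hHnd, hHf, -⟩ := Sesq.exists_double_nd (B := Bq Q) refl_bq hnd hT hss.compl hW hWnd hU hUW hti
    exact ⟨H, hHW, hH, hHnd, by rw [hHf, hUf]⟩

theorem PR.inf_perp_inv (h : PR r Q T) {U : Submodule F V} (hW : Inv T W) (hU : Inv T U) : Inv T (W ⊓ pp Q U) :=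
  Sesq.inv_inf hW ((iso_bq h.iso).inv_perp (nd_top h.nd) hU)

theorem PR.pos (h : PR r Q T) : 0 < hF F r := hh_pos (ord_pos h.hr h.ne)

/-- fixed point free invariant subspaces of smaller dimension -/
theorem PR.exists_mult (h : PR r Q T) : ∀ (k : ℕ) (W : Submodule F V), W ⊓ E T 1 = ⊥ → Inv T W → NDq Q W → 2 * (hF F r * k) ≤ finrank F W →
      ∃ U ≤ W, Inv T U ∧ NDq Q U ∧ finrank F U = 2 * (hF F r * k) := by
  intro k
  have hc := h.pos
  induction k with
  | zero =>
    intro W _ _ _ _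
    exact ⟨⊥, bot_le, fun x hx => by rw [(Submodule.mem_bot F).mp hx, map_zero]; exact Submodule.zero_mem _,
      fun u hu _ => (Submodule.mem_bot F).mp hu, by rw [finrank_bot, Nat.mul_zero]⟩
  | succ k ih =>
    intro W hWE hW hWnd hk
    rw [Nat.mul_succ] at hk
    have hne : W ≠ ⊥ := by
      rintro rfl
      rw [finrank_bot] at hk
      omega
    obtain ⟨U, hUW, hU, hUnd, hUf⟩ := h.exists_atom hW hWnd hne hWE
    obtain ⟨h1, h2, h3, h4⟩ := Sesq.split_nd (B := Bq Q) refl_bq hWnd hUnd hUW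
    have h3' : finrank F U + finrank F ↥(W ⊓ pp Q U) = finrank F W := h3
    obtain ⟨U', hU'W, hU', hU'nd, hU'f⟩ := ih (W ⊓ pp Q U) (by
      rw [eq_bot_iff, ← hWE]; exact inf_le_inf_right _ inf_le_left) (h.inf_perp_inv hW hU) h4
      (by omega)
    refine ⟨U ⊔ U', sup_le hUW (hU'W.trans inf_le_left), Sesq.inv_sup hU hU', ?_, ?_⟩
    · exact Sesq.nd_sup refl_bq hUnd hU'nd (fun u hu v hv => (hU'W hv).2 u hu)
    · have h5 := Submodule.finrank_sup_add_finrank_inf_eq U U'
      rw [disjoint_iff.mp (h2.mono_right hU'W), finrank_bot] at h5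
      rw [Nat.mul_succ]; omega

theorem PR.nd_inf_E (h : PR r Q T) (hW : Inv T W) (hWnd : NDq Q W) : NDq Q (W ⊓ E T 1) :=
  Sesq.nd_inf_E (iso_bq h.iso) h.ne h.pow hW hWnd

theorem PR.nd_E (h : PR r Q T) : NDq Q (E T 1) := by
  have := h.nd_inf_E (W := ⊤) (fun _ _ => trivial) (nd_top h.nd)
  rwa [top_inf_eq] at this

/-- splitting off the fixed points -/
theorem PR.split_E (h : PR r Q T) (hW : Inv T W) (hWnd : NDq Q W) :
    Inv T (W ⊓ E T 1) ∧ NDq Q (W ⊓ E T 1) ∧ Inv T (W ⊓ pp Q (W ⊓ E T 1)) ∧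
    NDq Q (W ⊓ pp Q (W ⊓ E T 1)) ∧
    (W ⊓ pp Q (W ⊓ E T 1)) ⊓ E T 1 = ⊥ ∧
    finrank F ↥(W ⊓ E T 1) + finrank F ↥(W ⊓ pp Q (W ⊓ E T 1)) = finrank F W := by
  have h1 := h.nd_inf_E hW hWnd
  have h0 : Inv T (W ⊓ E T 1) := by
    intro x hx
    rw [mem_E.1 hx.2]
    exact hx
  obtain ⟨h2, h3, h4, h5⟩ := Sesq.split_nd (B := Bq Q) refl_bq hWnd h1 inf_le_left
  refine ⟨h0, h1, h.inf_perp_inv hW h0, h5, ?_, h4⟩
  rw [eq_bot_iff, ← disjoint_iff.mp h3]
  exact le_inf (le_inf (inf_le_left.trans inf_le_left) inf_le_right) inf_le_left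

end atom

section perp
variable {F : Type u} [Field F] [Finite F] {V : Type v} [AddCommGroup V] [Module F V] [FiniteDimensional F V]
variable {Q : QuadraticForm F V} {W : Submodule F V}

theorem perp_data (hQ : Nd Q) (hW : NDq Q W) : NDq Q (pp Q W) ∧ IsCompl W (pp Q W) ∧ finrank F W + finrank F (pp Q W) = finrank F V :=
  ⟨Sesq.nd_perp refl_bq (nd_top hQ) hW, Sesq.isCompl_perp refl_bq hW, Sesq.finrank_add_perp (nd_top hQ) W⟩

theorem D_perp (hQ : Nd Q) (hW : NDq Q W) (hWe : Even (finrank F W)) (hVe : Even (finrank F V)) :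
    D Q = D (res Q W) * D (res Q (pp Q W)) := by
  obtain ⟨h1, h2, h3⟩ := perp_data hQ hW
  have hev : Even (finrank F (pp Q W)) := by
    rw [← h3, Nat.even_add] at hVe
    exact hVe.1 hWe
  have h4 := D_sup h2.disjoint (fun u hu w hw => hw u hu) (nd_res hW) (nd_res h1) hWe hev
  rw [h2.sup_eq_top, D_top] at h4
  exact h4

end perp

end Cfsg.Agent.Lib.OrthR67
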