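import Mathlib
import Cfsg.Agent.Lib.OrthRB67

/-!
(helper67) Isometries of odd prime order `r`: which classes of nondegenerate subspaces have an invariant member.
-/

set_option autoImplicit false
set_option linter.unusedSectionVars false

namespace Cfsg.Agent.Lib.OrthR67

open Polynomial QuadraticMap Module Cfsg.Agent.Lib.Quad Cfsg.Agent.Lib.QuadD67 Cfsg.Agent.Lib.QuadEmb67
open Cfsg.Agent.Lib.InvSub Cfsg.Agent.Lib.PrimeOrd

universe u v w

section cl
variable {F : Type u} [Field F] {V : Type v} [AddCommGroup V] [Module F V]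
variable {V₀ : Type w} [AddCommGroup V₀] [Module F V₀]

/-- `W` is isometric to `(V₀, Q₀)` -/
def Cl (Q : QuadraticForm F V) (Q₀ : QuadraticForm F V₀) (W : Submodule F V) : Prop :=
  ∃ φ : V₀ →ₗ[F] V, (∀ x, Q (φ x) = Q₀ x) ∧ LinearMap.range φ = W

variable {Q : QuadraticForm F V} {Q₀ : QuadraticForm F V₀} {W : Submodule F V}

theorem cl_of_equiv (e : V₀ ≃ₗ[F] W) (he : ∀ x, Q (e x) = Q₀ x) : Cl Q Q₀ W := by
  refine ⟨W.subtype ∘ₗ e.toLinearMap, he, ?_⟩
  rw [LinearMap.range_comp, LinearEquiv.range, Submodule.map_top, Submodule.range_subtype]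

variable [FiniteDimensional F V₀] [FiniteDimensional F V]

theorem inj_nd (hQ₀ : Nd Q₀) {φ : V₀ →ₗ[F] V} (hφ : ∀ x, Q (φ x) = Q₀ x) : Function.Injective φ := by
  rw [injective_iff_map_eq_zero]
  intro x hx
  apply hQ₀.eq_zero
  intro y
  rw [← polar_map φ hφ, hx]
  simp [polar]

theorem Cl.equiv (hQ₀ : Nd Q₀) (h : Cl Q Q₀ W) : ∃ e : V₀ ≃ₗ[F] W, ∀ x, Q (e x) = Q₀ x := by
  obtain ⟨φ, hφ, rfl⟩ := h
  exact ⟨LinearEquiv.ofInjective φ (inj_nd hQ₀ hφ), fun x => hφ x⟩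

theorem Cl.finrank (hQ₀ : Nd Q₀) (h : Cl Q Q₀ W) : finrank F W = finrank F V₀ := by
  obtain ⟨e, -⟩ := h.equiv hQ₀
  exact (LinearEquiv.finrank_eq e).symm

theorem Cl.nd (hQ₀ : Nd Q₀) (h : Cl Q Q₀ W) : NDq Q W := by
  obtain ⟨φ, hφ, rfl⟩ := h
  rintro _ ⟨x, rfl⟩ hx
  have : x = 0 := by
    apply hQ₀.eq_zero
    intro y
    rw [← polar_map φ hφ]
    exact hx (φ y) ⟨y, rfl⟩
  rw [this, map_zero]

theorem Cl.D (hQ₀ : Nd Q₀) (h : Cl Q Q₀ W) : D (res Q W) = D Q₀ := by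
  obtain ⟨e, he⟩ := h.equiv hQ₀
  exact D_congr e he

end cl

theorem sg_ne (i : ℕ) : sg i ≠ 0 := by
  unfold sg; split_ifs <;> norm_num

/-- complementary orthogonal subspaces -/
theorem compl_iso {F : Type u} [Field F] {V : Type v} [AddCommGroup V] [Module F V] {Q : QuadraticForm F V}
    {U W : Submodule F V} (hc : IsCompl U W) (h : ∀ u ∈ U, ∀ w ∈ W, polar Q u w = 0) :
    ∃ e : (U × W) ≃ₗ[F] V, (∀ x, Q (e x) = ((res Q U).prod (res Q W)) x) ∧ ∀ x, e x = x.1 + x.2 := by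
  refine ⟨Submodule.prodEquivOfIsCompl U W hc, fun x => ?_, fun x => Submodule.coe_prodEquivOfIsCompl' _ _ _ _⟩
  rw [Submodule.coe_prodEquivOfIsCompl', Q_add, h _ x.1.2 _ x.2.2, add_zero]
  rfl

section fx

/-- numerical condition for an element with `A` atoms to fix a space of dimension `m` and sign `δ` -/
def Fx (h : ℕ) (s : ℤ) (n m : ℕ) (ε δ : ℤ) (A : ℕ) : Prop :=
  ∃ B ≤ A, 2 * (h * B) ≤ m ∧ m + 2 * (h * A) ≤ n + 2 * (h * B) ∧ (m = 2 * (h * B) → δ = s ^ B) ∧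
    (m + 2 * (h * A) = n + 2 * (h * B) → ε = δ * s ^ (A - B))

/-- the possible numbers of atoms -/
def Val (h : ℕ) (s : ℤ) (n : ℕ) (ε : ℤ) (A : ℕ) : Prop := 2 * (h * A) ≤ n ∧ (n = 2 * (h * A) → ε = s ^ A)

end fx

section main
variable {F : Type u} [Field F] [Fintype F] {V : Type v} [AddCommGroup V] [Module F V] [FiniteDimensional F V]
variable {V₀ : Type w} [AddCommGroup V₀] [Module F V₀] [FiniteDimensional F V₀]
variable {Q : QuadraticForm F V} {Q₀ : QuadraticForm F V₀} {T : Module.End F V} {r : ℕ} {W : Submodule F V}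

theorem PR.pp_E (h : PR r Q T) : NDq Q (pp Q (E T 1)) ∧ Inv T (pp Q (E T 1)) ∧ pp Q (E T 1) ⊓ E T 1 = ⊥ ∧
    finrank F (E T (1 : F)) + finrank F (pp Q (E T 1)) = finrank F V := by
  obtain ⟨h1, h2, h3⟩ := perp_data h.nd h.nd_E
  refine ⟨h1, (iso_bq h.iso).inv_perp (nd_top h.nd) inv_E, ?_, h3⟩
  rw [inf_comm]; exact h2.inf_eq_bot

theorem q_pow_ne (k : ℕ) : ((Fintype.card F : ℤ)) ^ k ≠ 0 := by
  apply pow_ne_zero
  exact_mod_cast Fintype.card_ne_zero

/-- the number of atoms -/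
theorem PR.exists_A (h : PR r Q T) {ε : ℤ} (hε : ∀ N, finrank F V = 2 * N → D Q = ε * (Fintype.card F : ℤ) ^ N) :
    ∃ A, finrank F (E T (1 : F)) + 2 * (hF F r * A) = finrank F V ∧ Val (hF F r) (sF F r) (finrank F V) ε A ∧ (T ≠ 1 → 1 ≤ A) := by
  obtain ⟨h1, h2, h3, h4⟩ := h.pp_E
  obtain ⟨k, hk1, hk2⟩ := h.type h2 h1 h3
  refine ⟨k, by rw [← hk1]; exact h4, ⟨by omega, ?_⟩, ?_⟩
  · intro hn
    have h5 : finrank F (E T (1 : F)) = 0 := by omega
    have h6 : E T (1 : F) = ⊥ := Submodule.finrank_eq_zero.1 h5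
    have h7 : pp Q (E T 1) = ⊤ := by
      apply Submodule.eq_top_of_finrank_eq
      omega
    have h8 := hε _ hn
    rw [h7, D_top] at hk2
    rw [hk2] at h8
    exact (mul_right_cancel₀ (q_pow_ne _) h8).symm
  · intro hT
    by_contra hk0
    have hk0' : k = 0 := by omega
    subst hk0'
    apply hT
    have h5 : E T (1 : F) = ⊤ := by
      apply Submodule.eq_top_of_finrank_eq
      rw [mul_zero, mul_zero] at hk1
      omega
    ext x
    have : x ∈ E T (1 : F) := by rw [h5]; trivial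
    exact mem_E.1 this

theorem PR.fix_imp (h : PR r Q T) {A : ℕ} (hA : finrank F (E T (1 : F)) + 2 * (hF F r * A) = finrank F V) (hQ₀ : Nd Q₀) {ε δ : ℤ}
    (hε : ∀ N, finrank F V = 2 * N → D Q = ε * (Fintype.card F : ℤ) ^ N)
    (hδ : ∀ N, finrank F V₀ = 2 * N → D Q₀ = δ * (Fintype.card F : ℤ) ^ N)
    (hpar : Even (finrank F V) ∨ Even (finrank F V₀)) (hW : Inv T W) (hcl : Cl Q Q₀ W) :
    Fx (hF F r) (sF F r) (finrank F V) (finrank F V₀) ε δ A := by
  have hWnd := hcl.nd hQ₀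
  have hWf := hcl.finrank hQ₀
  obtain ⟨h0, h1, h2, h3, h4, h5⟩ := h.split_E hW hWnd
  obtain ⟨B, hB1, hB2⟩ := h.type h2 h3 h4
  have hp := h.pos
  have hle : finrank F ↥(W ⊓ E T 1) ≤ finrank F (E T (1 : F)) := Submodule.finrank_mono inf_le_right
  have hdim : finrank F ↥(W ⊓ pp Q (W ⊓ E T 1)) + finrank F (E T (1 : F)) ≤ finrank F V := by
    have h6 := Submodule.finrank_sup_add_finrank_inf_eq (W ⊓ pp Q (W ⊓ E T 1)) (E T (1 : F))
    rw [h4, finrank_bot] at h6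
    have h7 := Submodule.finrank_le ((W ⊓ pp Q (W ⊓ E T 1)) ⊔ (E T (1 : F)))
    omega
  have hBA : B ≤ A := by
    have h6 : hF F r * B ≤ hF F r * A := by omega
    exact Nat.le_of_mul_le_mul_left h6 hp
  refine ⟨B, hBA, by omega, by omega, ?_, ?_⟩
  · intro hm
    have h6 : finrank F ↥(W ⊓ E T 1) = 0 := by omega
    have h7 : W ⊓ E T 1 = ⊥ := Submodule.finrank_eq_zero.1 h6
    have h8 := h.type' hW hWnd h7 (k := B) (by omega)
    rw [hcl.D hQ₀, hδ _ hm] at h8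
    exact mul_right_cancel₀ (q_pow_ne _) h8
  · intro hm
    have h6 : W ⊓ E T 1 = E T 1 := Submodule.eq_of_le_of_finrank_eq inf_le_right (by omega)
    have h7 : E T 1 ≤ W := by rw [← h6]; exact inf_le_left
    obtain ⟨g1, g2, g3⟩ := perp_data h.nd hWnd
    have g4 : Inv T (pp Q W) := (iso_bq h.iso).inv_perp (nd_top h.nd) hW
    have g5 : pp Q W ⊓ E T 1 = ⊥ := by
      rw [eq_bot_iff, ← g2.inf_eq_bot, inf_comm]
      exact inf_le_inf_right _ h7
    have hAB : hF F r * (A - B) = hF F r * A - hF F r * B := Nat.mul_sub _ _ _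
    have hBA' : hF F r * B ≤ hF F r * A := Nat.mul_le_mul_left _ hBA
    have g6 : finrank F (pp Q W) = 2 * (hF F r * (A - B)) := by omega
    have g7 := h.type' g4 g1 g5 g6
    -- parities
    have hWe : Even (finrank F W) := by
      rcases hpar with h8 | h8
      · rw [← g3, Nat.even_add, g6] at h8
        exact h8.2 (even_two_mul _)
      · rwa [hWf]
    have hVe : Even (finrank F V) := by
      rw [← g3, Nat.even_add]
      exact ⟨fun _ => by rw [g6]; exact even_two_mul _, fun _ => hWe⟩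
    obtain ⟨N, hN⟩ := hWe
    have g8 := D_perp h.nd hWnd ⟨N, hN⟩ hVe
    rw [hcl.D hQ₀, hδ N (by omega), g7, hε (N + hF F r * (A - B)) (by omega), pow_add] at g8
    have g9 : (ε - δ * sF F r ^ (A - B)) * ((Fintype.card F : ℤ) ^ N * (Fintype.card F : ℤ) ^ (hF F r * (A - B))) = 0 := by
      linear_combination g8
    exact sub_eq_zero.1 ((mul_eq_zero.1 g9).resolve_right (mul_ne_zero (q_pow_ne _) (q_pow_ne _)))

theorem PR.fix_of (h : PR r Q T) {A : ℕ} (hA : finrank F (E T (1 : F)) + 2 * (hF F r * A) = finrank F V) (hQ₀ : Nd Q₀) {ε δ : ℤ}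
    (hε : ∀ N, finrank F V = 2 * N → D Q = ε * (Fintype.card F : ℤ) ^ N)
    (hδ : ∀ N, finrank F V₀ = 2 * N → D Q₀ = δ * (Fintype.card F : ℤ) ^ N)
    (hpar : Even (finrank F V) ∨ Even (finrank F V₀))
    (hfx : Fx (hF F r) (sF F r) (finrank F V) (finrank F V₀) ε δ A) : ∃ W, Inv T W ∧ Cl Q Q₀ W := by
  obtain ⟨B, hBA, hB1, hB2, hB3, hB4⟩ := hfx
  have hp := h.pos
  obtain ⟨h1, h2, h3, h4⟩ := h.pp_E
  have hBA' : hF F r * B ≤ hF F r * A := Nat.mul_le_mul_left _ hBA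
  obtain ⟨U, hUle, hU, hUnd, hUf⟩ := h.exists_mult B (pp Q (E T 1)) h3 h2 h1 (by omega)
  have hUE : U ⊓ E T 1 = ⊥ := by rw [eq_bot_iff, ← h3]; exact inf_le_inf_right _ hUle
  have hUD := h.type' hU hUnd hUE hUf
  -- embed `U` in the reference space
  obtain ⟨f, hf⟩ : ∃ f : U →ₗ[F] V₀, ∀ x, Q₀ (f x) = res Q U x := by
    apply emb hQ₀ (nd_res hUnd)
    rcases Nat.lt_or_ge (finrank F U) (finrank F V₀) with h5 | h5
    · exact Or.inl h5
    · right
      have h6 : finrank F V₀ = 2 * (hF F r * B) := by omega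
      refine ⟨by omega, by rw [h6]; exact even_two_mul _, ?_⟩
      rw [hUD, hδ _ h6, hB3 h6]
  have hfcl : Cl Q₀ (res Q U) (LinearMap.range f) := ⟨f, hf, rfl⟩
  have hRnd := hfcl.nd (nd_res hUnd)
  have hRf := hfcl.finrank (nd_res hUnd)
  obtain ⟨g1, g2, g3⟩ := perp_data hQ₀ hRnd
  set X := pp Q₀ (LinearMap.range f) with hX
  have hXE : finrank F X + 2 * (hF F r * B) = finrank F V₀ := by omega
  -- embed `X` in the fixed space
  obtain ⟨g, hg⟩ : ∃ g : X →ₗ[F] (E T (1 : F)), ∀ x, res Q (E T 1) (g x) = res Q₀ X x := by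
    apply emb (nd_res h.nd_E) (nd_res g1)
    rcases Nat.lt_or_ge (finrank F X) (finrank F (E T (1 : F))) with h5 | h5
    · exact Or.inl h5
    · right
      have h6 : finrank F V₀ + 2 * (hF F r * A) = finrank F V + 2 * (hF F r * B) := by omega
      have h7 := hB4 h6
      have hV₀e : Even (finrank F V₀) := by
        rcases hpar with h8 | h8
        · obtain ⟨N, hN⟩ := h8
          exact ⟨N + hF F r * B - hF F r * A, by omega⟩
        · exact h8
      obtain ⟨M, hM⟩ := hV₀e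
      have hXe : finrank F X = 2 * (M - hF F r * B) := by omega
      refine ⟨by omega, ⟨M - hF F r * B, by omega⟩, ?_⟩
      have e1 := D_perp hQ₀ hRnd ⟨hF F r * B, by omega⟩ ⟨M, hM⟩
      rw [hfcl.D (nd_res hUnd), hUD, hδ M (by omega)] at e1
      have e2 := D_perp h.nd h.nd_E ⟨M - hF F r * B, by omega⟩ ⟨M + hF F r * A - hF F r * B, by omega⟩
      have e3 := h.type' h2 h1 h3 (k := A) (by omega)
      rw [e3, hε (M + hF F r * A - hF F r * B) (by omega), h7] at e2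
      have hM' : M = (M - hF F r * B) + hF F r * B := by omega
      have hN' : M + hF F r * A - hF F r * B = (M - hF F r * B) + hF F r * A := by omega
      rw [hN', pow_add] at e2
      rw [hM', pow_add] at e1
      have hAB : sF F r ^ A = sF F r ^ (A - B) * sF F r ^ B := by
        rw [← pow_add]; congr 1; omega
      have hsq := sg_pow_sq (orderOf ((Fintype.card F : ℕ) : ZMod r)) B
      have hsqA := sg_pow_sq (orderOf ((Fintype.card F : ℕ) : ZMod r)) (A - B)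
      have hXD : D (res Q₀ X) = δ * sF F r ^ B * (Fintype.card F : ℤ) ^ (M - hF F r * B) := by
        apply mul_left_cancel₀ (mul_ne_zero (pow_ne_zero B (sg_ne _ : sF F r ≠ 0)) (q_pow_ne (F := F) (hF F r * B)))
        rw [← e1]
        linear_combination -(δ * (Fintype.card F : ℤ) ^ (M - hF F r * B) * (Fintype.card F : ℤ) ^ (hF F r * B)) * hsq
      have hED : D (res Q (E T 1)) = δ * sF F r ^ B * (Fintype.card F : ℤ) ^ (M - hF F r * B) := by
        apply mul_left_cancel₀ (mul_ne_zero (pow_ne_zero A (sg_ne _ : sF F r ≠ 0)) (q_pow_ne (F := F) (hF F r * A)))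
        rw [mul_comm _ (D (res Q (E T 1))), ← e2, hAB]
        linear_combination -(δ * (Fintype.card F : ℤ) ^ (M - hF F r * B) * (Fintype.card F : ℤ) ^ (hF F r * A) * sF F r ^ (A - B)) * hsq
      rw [hXD, hED]
  let g' : X →ₗ[F] V := (E T (1 : F)).subtype ∘ₗ g
  have hg' : ∀ x, Q (g' x) = res Q₀ X x := hg
  have hgcl : Cl Q (res Q₀ X) (LinearMap.range g') := ⟨g', hg', rfl⟩
  set U₀ := LinearMap.range g' with hU₀
  have hU₀E : U₀ ≤ E T 1 := by
    rintro _ ⟨x, rfl⟩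
    exact (g x).2
  have hU₀inv : Inv T U₀ := inv_of_le_E hU₀E
  have horth : ∀ a ∈ U₀, ∀ b ∈ U, polar Q a b = 0 := fun a ha b hb => hUle hb a (hU₀E ha)
  have hdisj : Disjoint U₀ U := by
    rw [disjoint_iff, eq_bot_iff, ← hUE, inf_comm]
    exact inf_le_inf_left _ hU₀E
  refine ⟨U₀ ⊔ U, Sesq.inv_sup hU₀inv hU, ?_⟩
  obtain ⟨e1, he1, -⟩ := sup_iso hdisj horth
  obtain ⟨e2, he2⟩ := hgcl.equiv (nd_res g1)
  obtain ⟨e3, he3⟩ := hfcl.equiv (nd_res hUnd)
  obtain ⟨e4, he4, -⟩ := compl_iso g2 (fun u hu w hw => hw u hu)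
  -- V₀ ≃ range f × X ≃ U × X ≃ U₀ × U ≃ U₀ ⊔ U
  let e : V₀ ≃ₗ[F] ↥(U₀ ⊔ U) := ((e4.symm.trans ((e3.symm).prodCongr e2)).trans
    (LinearEquiv.prodComm F U U₀)).trans e1
  refine cl_of_equiv e (fun x => ?_)
  have k1 : Q (e x) = ((res Q U₀).prod (res Q U)) ((LinearEquiv.prodComm F U U₀) (((e3.symm).prodCongr e2) (e4.symm x))) :=
    he1 _
  rw [k1]
  set z := e4.symm x with hz
  have k2 : Q₀ x = ((res Q₀ (LinearMap.range f)).prod (res Q₀ X)) z := by
    rw [← he4 z, hz, LinearEquiv.apply_symm_apply]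
  rw [k2, QuadraticMap.prod_apply, QuadraticMap.prod_apply]
  show Q (e2 z.2) + Q (e3.symm z.1) = Q₀ z.1 + Q₀ z.2
  have k3 : Q₀ z.1 = Q (e3.symm z.1) := by
    have := he3 (e3.symm z.1)
    rw [LinearEquiv.apply_symm_apply] at this
    exact this
  have k4 : Q (e2 z.2) = Q₀ z.2 := he2 z.2
  rw [k3, k4, add_comm]

end main

end Cfsg.Agent.Lib.OrthR67
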