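import Mathlib
import Cfsg.Agent.Lib.OrthRC67

/-!
(helper67) Arithmetic of the number of atoms.
-/

set_option autoImplicit false

namespace Cfsg.Agent.Lib.OrthR67

/-- the closed form; `c = 2 h` -/
def GG (c : ℕ) (s : ℤ) (n m : ℕ) (ε δ : ℤ) : Prop :=
  (n % c = 0 ∧ (ε ≠ s ^ (n / c) ∨ (m % c = 0 ∧ δ = s ^ (m / c)))) ∨
  (0 < n % c ∧ m % c ≤ n % c ∧ (m % c = 0 → δ = s ^ (m / c)) ∧ (m % c = n % c → ε = δ * s ^ (n / c - m / c)))

theorem sq_pm {s : ℤ} (hs : s * s = 1) (k : ℕ) : s ^ k * s ^ k = 1 := by rw [← mul_pow, hs, one_pow]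

theorem pm_ne {a b : ℤ} (ha : a = 1 ∨ a = -1) (hb : b = 1 ∨ b = -1) (h : a ≠ b) : a = -b := by omega

theorem pm_of_sq {a : ℤ} (h : a * a = 1) : a = 1 ∨ a = -1 := by
  have : (a - 1) * (a + 1) = 0 := by linear_combination h
  rcases mul_eq_zero.1 this with h1 | h1
  · left; omega
  · right; omega

theorem gg_imp {h : ℕ} (hh0 : 0 < h) {s : ℤ} (hs : s * s = 1) {n m : ℕ} (hm1 : 1 ≤ m) (hmn : m < n) {ε δ : ℤ} (hε : ε * ε = 1) (hδ : δ * δ = 1)
    (hG : GG (2 * h) s n m ε δ) (A : ℕ) (hA1 : 1 ≤ A) (hA : Val h s n ε A) : Fx h s n m ε δ A := by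
  obtain ⟨c, hc⟩ : ∃ c, c = 2 * h := ⟨_, rfl⟩
  have hmul : ∀ x, 2 * (h * x) = c * x := fun x => by rw [hc]; ring
  rw [← hc] at hG
  unfold Val at hA
  unfold Fx
  simp only [hmul] at hA ⊢
  have hc0 : 0 < c := by omega
  obtain ⟨N, hN⟩ : ∃ N, n / c = N := ⟨_, rfl⟩
  obtain ⟨k, hk⟩ : ∃ k, n % c = k := ⟨_, rfl⟩
  obtain ⟨M, hM⟩ : ∃ M, m / c = M := ⟨_, rfl⟩
  obtain ⟨l, hl⟩ : ∃ l, m % c = l := ⟨_, rfl⟩
  have hn : c * N + k = n := by rw [← hN, ← hk]; exact Nat.div_add_mod n c
  have hm : c * M + l = m := by rw [← hM, ← hl]; exact Nat.div_add_mod m c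
  have hkc : k < c := by rw [← hk]; exact Nat.mod_lt _ hc0
  have hlc : l < c := by rw [← hl]; exact Nat.mod_lt _ hc0
  unfold GG at hG
  rw [hN, hk, hM, hl] at hG
  have hMN : M ≤ N := by
    by_contra hcon
    have : c * (N + 1) ≤ c * M := Nat.mul_le_mul_left _ (by omega)
    rw [Nat.mul_succ] at this
    omega
  have hAN : A ≤ N := by
    by_contra hcon
    have h1 : c * (N + 1) ≤ c * A := Nat.mul_le_mul_left _ (by omega)
    rw [Nat.mul_succ] at h1
    have := hA.1
    omega
  have hle : ∀ x y : ℕ, x ≤ y → c * x ≤ c * y := fun x y hxy => Nat.mul_le_mul_left _ hxy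
  have hlt : ∀ x y : ℕ, x < y → c * x + c ≤ c * y := fun x y hxy => by
    have := Nat.mul_le_mul_left c hxy
    rwa [Nat.mul_succ] at this
  have hinj : ∀ x y : ℕ, c * x = c * y → x = y := fun x y hxy => Nat.eq_of_mul_eq_mul_left hc0 hxy
  have hεc := pm_of_sq hε
  have hδc := pm_of_sq hδ
  have hpc : ∀ k, s ^ k = 1 ∨ s ^ k = -1 := fun k => pm_of_sq (sq_pm hs k)
  -- splitting powers
  have hsplit : ∀ x y : ℕ, x ≤ y → s ^ (y - x) = s ^ y * s ^ x := by
    intro x y hxy
    have h1 : s ^ y = s ^ (y - x) * s ^ x := by rw [← pow_add]; congr 1; omega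
    rw [h1]
    linear_combination -(s ^ (y - x)) * sq_pm hs x
  -- the general choice
  have choose : ∀ B : ℕ, B ≤ A → B ≤ M → M + A ≤ N + B → (M + A = N + B → l ≤ k) → (l = 0 → B = M → δ = s ^ M) →
      (k = l → M + A = N + B → ε = δ * s ^ (N - M)) →
      ∃ B ≤ A, c * B ≤ m ∧ m + c * A ≤ n + c * B ∧ (m = c * B → δ = s ^ B) ∧ (m + c * A = n + c * B → ε = δ * s ^ (A - B)) := by
    intro B hBA hBM h1 h2 h3 h4
    have hB1 := hle _ _ hBM
    refine ⟨B, hBA, by omega, ?_, ?_, ?_⟩
    · rcases Nat.lt_or_ge (M + A) (N + B) with h5 | h5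
      · have h6 := hlt _ _ h5
        rw [Nat.mul_add, Nat.mul_add] at h6
        omega
      · have h6 : M + A = N + B := by omega
        have h7 := h2 h6
        have h8 : c * (M + A) = c * (N + B) := by rw [h6]
        rw [Nat.mul_add, Nat.mul_add] at h8
        omega
    · intro h5
      have h6 : l = 0 ∧ B = M := by
        rcases Nat.lt_or_ge B M with h7 | h7
        · have := hlt _ _ h7
          omega
        · have h8 : B = M := by omega
          subst h8
          exact ⟨by omega, rfl⟩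
      rw [h6.2]
      exact h3 h6.1 h6.2
    · intro h5
      have h6 : k = l ∧ M + A = N + B := by
        rcases Nat.lt_or_ge (M + A) (N + B) with h7 | h7
        · have := hlt _ _ h7
          rw [Nat.mul_add, Nat.mul_add] at this
          omega
        · have h8 : M + A = N + B := by omega
          have h9 : c * (M + A) = c * (N + B) := by rw [h8]
          rw [Nat.mul_add, Nat.mul_add] at h9
          exact ⟨by omega, h8⟩
      have h7 := h4 h6.1 h6.2
      have h8 : A - B = N - M := by omega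
      rw [h8]; exact h7
  have hMN' : k ≤ l → M < N := by
    intro h1
    by_contra hcon
    have : M = N := by omega
    subst this
    omega
  rcases hG with ⟨hk0, hG⟩ | ⟨hk0, hlk, hG1, hG2⟩
  · subst hk0
    have hMN2 := hMN' (Nat.zero_le _)
    by_cases hεN : ε = s ^ N
    · -- then `l = 0`, `δ = s ^ M`
      rcases hG with hG | ⟨hl0, hδM⟩
      · exact absurd hεN hG
      · subst hl0
        rcases Nat.lt_or_ge A M with h1 | h1
        · refine choose A le_rfl h1.le (by omega) (fun _ => le_rfl) (fun _ h => by omega) (fun _ h => by omega)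
        · refine choose M h1 le_rfl (by omega) (fun _ => le_rfl) (fun _ _ => hδM) (fun _ h => ?_)
          rw [hsplit _ _ hMN, hεN, hδM]
          linear_combination -(s ^ N) * sq_pm hs M
    · -- `A < N`
      have hAN2 : A < N := by
        by_contra hcon
        have : A = N := by omega
        subst this
        exact hεN (hA.2 (by omega))
      rcases Nat.eq_zero_or_pos l with hl0 | hl0
      · subst hl0
        by_cases hδM : δ = s ^ M
        · rcases Nat.lt_or_ge A M with h1 | h1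
          · exact choose A le_rfl h1.le (by omega) (fun _ => le_rfl) (fun _ h => by omega) (fun _ h => by omega)
          · exact choose M h1 le_rfl (by omega) (fun _ => le_rfl) (fun _ _ => hδM) (fun _ h => by omega)
        · have hfin : ε = δ * s ^ (N - M) := by
            rw [hsplit _ _ hMN]
            rw [pm_ne hεc (hpc N) hεN, pm_ne hδc (hpc M) hδM]
            linear_combination (s ^ N) * sq_pm hs M
          rcases Nat.lt_or_ge (M + A) N with h1 | h1
          · rcases Nat.eq_zero_or_pos M with hM0 | hM0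
            · exfalso
              subst hM0
              omega
            · exact choose 0 (Nat.zero_le _) (Nat.zero_le _) (by omega) (fun _ => le_rfl) (fun _ h => by omega) (fun _ h => hfin)
          · exact choose (M + A - N) (by omega) (by omega) (by omega) (fun _ => le_rfl) (fun _ h => by omega) (fun _ h => hfin)
      · rcases Nat.lt_or_ge A M with h1 | h1
        · exact choose A le_rfl h1.le (by omega) (fun h => by omega) (fun h => by omega) (fun h => by omega)
        · exact choose M h1 le_rfl (by omega) (fun h => by omega) (fun h => by omega) (fun h => by omega)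
  · rcases Nat.lt_or_ge A M with h1 | h1
    · exact choose A le_rfl h1.le (by omega) (fun _ => hlk) (fun _ h => by omega) (fun h2 h3 => hG2 h2.symm)
    · exact choose M h1 le_rfl (by omega) (fun _ => hlk) (fun h _ => hG1 h) (fun h _ => hG2 h.symm)

theorem gg_of {h : ℕ} (hh0 : 0 < h) {s : ℤ} {n m : ℕ} {ε δ : ℤ} (hcn : 2 * h ≤ n)
    (H : ∀ A, 1 ≤ A → Val h s n ε A → Fx h s n m ε δ A) : GG (2 * h) s n m ε δ := by
  obtain ⟨c, hc⟩ : ∃ c, c = 2 * h := ⟨_, rfl⟩
  have hmul : ∀ x, 2 * (h * x) = c * x := fun x => by rw [hc]; ring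
  rw [← hc]
  unfold Val Fx at H
  simp only [hmul] at H
  have hc0 : 0 < c := by omega
  unfold GG
  obtain ⟨N, hN⟩ : ∃ N, n / c = N := ⟨_, rfl⟩
  obtain ⟨k, hk⟩ : ∃ k, n % c = k := ⟨_, rfl⟩
  obtain ⟨M, hM⟩ : ∃ M, m / c = M := ⟨_, rfl⟩
  obtain ⟨l, hl⟩ : ∃ l, m % c = l := ⟨_, rfl⟩
  have hn : c * N + k = n := by rw [← hN, ← hk]; exact Nat.div_add_mod n c
  have hm : c * M + l = m := by rw [← hM, ← hl]; exact Nat.div_add_mod m c
  have hkc : k < c := by rw [← hk]; exact Nat.mod_lt _ hc0
  have hlc : l < c := by rw [← hl]; exact Nat.mod_lt _ hc0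
  rw [hN, hk, hM, hl]
  have hN1 : 1 ≤ N := by
    by_contra hcon
    have : N = 0 := by omega
    subst this
    omega
  have hlt : ∀ x y : ℕ, x < y → c * x + c ≤ c * y := fun x y hxy => by
    have := Nat.mul_le_mul_left c hxy
    rwa [Nat.mul_succ] at this
  have key : (n = c * N → ε = s ^ N) → l ≤ k ∧ (l = 0 → δ = s ^ M) ∧ (l = k → ε = δ * s ^ (N - M)) := by
    intro hval
    obtain ⟨B, hB1, hB2, hB3, hB4, hB5⟩ := H N hN1 ⟨by omega, hval⟩
    have hBM : B = M := by
      rcases Nat.lt_trichotomy B M with h1 | h1 | h1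
      · have := hlt _ _ h1
        omega
      · exact h1
      · have := hlt _ _ h1
        omega
    subst hBM
    exact ⟨by omega, fun h1 => hB4 (by omega), fun h1 => hB5 (by omega)⟩
  rcases Nat.eq_zero_or_pos k with hk0 | hk0
  · left
    refine ⟨hk0, ?_⟩
    by_cases hεN : ε = s ^ N
    · obtain ⟨h1, h2, -⟩ := key (fun _ => hεN)
      exact Or.inr ⟨by omega, h2 (by omega)⟩
    · exact Or.inl hεN
  · right
    obtain ⟨h1, h2, h3⟩ := key (fun h => by omega)
    exact ⟨hk0, h1, h2, h3⟩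

end Cfsg.Agent.Lib.OrthR67
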