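import Mathlib
import Cfsg.Agent.Lib.OrthRC67
import Cfsg.Agent.Lib.ClStab

/-!
(helper67) Isometries of odd prime order `r`: existence with a given number of atoms; counting modulo `r`.
-/

set_option autoImplicit false
set_option linter.unusedSectionVars false

namespace Cfsg.Agent.Lib.OrthR67

open Polynomial QuadraticMap Module Cfsg.Agent.Lib.Quad Cfsg.Agent.Lib.QuadD67 Cfsg.Agent.Lib.QuadEmb67
open Cfsg.Agent.Lib.InvSub Cfsg.Agent.Lib.PrimeOrd Cfsg.Agent.Lib.OReal67

universe u v w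

section glue
variable {F : Type u} [Field F] {V : Type v} [AddCommGroup V] [Module F V] {Q : QuadraticForm F V}

theorem glue {U W : Submodule F V} (hc : IsCompl U W) (horth : ∀ u ∈ U, ∀ w ∈ W, polar Q u w = 0) (τ : Module.End F U) (σ : Module.End F W)
    (hτ : ∀ x : U, Q (τ x) = Q x) (hσ : ∀ x : W, Q (σ x) = Q x) : ∃ J : Module.End F V, (∀ v, Q (J v) = Q v) ∧
    (∀ k, (∀ u : U, (J ^ k) u = (τ ^ k) u) ∧ (∀ w : W, (J ^ k) w = (σ ^ k) w)) ∧
    ∀ v : V, ∃ (a : U) (b : W), v = a + b ∧ (J v = v ↔ τ a = a ∧ σ b = b) := by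
  obtain ⟨e, he, hev⟩ := compl_iso hc horth
  let J : Module.End F V := e.conj (τ.prodMap σ)
  have hJ : ∀ (a : U) (b : W), J (a + b) = τ a + σ b := by
    intro a b
    show e ((τ.prodMap σ) (e.symm ((a : V) + b))) = _
    rw [← hev (a, b), LinearEquiv.symm_apply_apply, hev]
    rfl
  have hJU : ∀ a : U, J a = τ a := by
    intro a
    have := hJ a 0
    rwa [map_zero, Submodule.coe_zero, add_zero, add_zero] at this
  have hJW : ∀ b : W, J b = σ b := by
    intro b
    have := hJ 0 b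
    rwa [map_zero, Submodule.coe_zero, zero_add, zero_add] at this
  have hsurj : ∀ v : V, ∃ (a : U) (b : W), v = a + b := by
    intro v
    obtain ⟨x, rfl⟩ := e.surjective v
    exact ⟨x.1, x.2, hev x⟩
  refine ⟨J, ?_, ?_, ?_⟩
  · intro v
    obtain ⟨a, b, rfl⟩ := hsurj v
    rw [hJ, Q_add, Q_add, hτ, hσ, horth _ (τ a).2 _ (σ b).2, horth _ a.2 _ b.2]
  · intro k
    induction k with
    | zero => exact ⟨fun u => rfl, fun w => rfl⟩
    | succ k ih =>
      refine ⟨fun u => ?_, fun w => ?_⟩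
      · rw [pow_succ, pow_succ, Module.End.mul_apply, hJU, ih.1]; rfl
      · rw [pow_succ, pow_succ, Module.End.mul_apply, hJW, ih.2]; rfl
  · intro v
    obtain ⟨a, b, rfl⟩ := hsurj v
    refine ⟨a, b, rfl, ?_⟩
    rw [hJ]
    constructor
    · intro h
      have h1 : e (τ a, σ b) = e (a, b) := by rw [hev, hev]; exact h
      have h2 := e.injective h1
      exact ⟨congrArg Prod.fst h2, congrArg Prod.snd h2⟩
    · rintro ⟨h1, h2⟩
      rw [h1, h2]

theorem glue_pow {U W : Submodule F V} (hc : IsCompl U W) {J : Module.End F V} {τ : Module.End F U} {σ : Module.End F W} {k : ℕ}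
    (h : (∀ u : U, (J ^ k) u = (τ ^ k) u) ∧ (∀ w : W, (J ^ k) w = (σ ^ k) w)) (h1 : τ ^ k = 1) (h2 : σ ^ k = 1) : J ^ k = 1 := by
  ext v
  have hv : v ∈ U ⊔ W := by rw [hc.sup_eq_top]; trivial
  obtain ⟨a, ha, b, hb, rfl⟩ := Submodule.mem_sup.1 hv
  rw [map_add]
  have e1 := h.1 ⟨a, ha⟩
  have e2 := h.2 ⟨b, hb⟩
  rw [h1] at e1
  rw [h2] at e2
  rw [e1, e2]; rfl

end glue

theorem finite_O {F : Type u} [Field F] {V : Type v} [AddCommGroup V] [Module F V] [Finite V] (Q : QuadraticForm F V) : Finite ↥(O Q) :=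
  Finite.of_injective (fun g : ↥(O Q) => ((g : V ≃ₗ[F] V) : V → V)) (by
    intro g g' h
    apply Subtype.ext
    ext v
    exact congrFun h v)

section exist
variable {F : Type u} [Field F] [Fintype F] {r : ℕ}

theorem exists_of_dvd {V : Type v} [AddCommGroup V] [Module F V] [FiniteDimensional F V] {Q : QuadraticForm F V} (hQ : Nd Q)
    (hr : r.Prime) (ho : Odd r) (hne : (r : F) ≠ 0) (hd : r ∣ Nat.card (O Q)) : ∃ T, PR r Q T ∧ T ≠ 1 := by
  have hrf : Fact r.Prime := ⟨hr⟩
  have hfin : Finite V := Module.finite_of_finite F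
  have hfO := finite_O Q
  obtain ⟨g, hg⟩ := exists_prime_orderOf_dvd_card' r hd
  have hgk : ∀ (k : ℕ) (v : V), ((g : V ≃ₗ[F] V).toLinearMap ^ k) v = ((g ^ k : O Q) : V ≃ₗ[F] V) v := by
    intro k
    induction k with
    | zero => intro v; rfl
    | succ k ih =>
      intro v
      rw [pow_succ, pow_succ, Module.End.mul_apply, ih]
      rfl
  refine ⟨(g : V ≃ₗ[F] V).toLinearMap, ⟨hr, ho, hne, hQ, g.2, ?_⟩, ?_⟩
  · ext v
    rw [hgk, ← hg, pow_orderOf_eq_one]; rfl
  · intro h
    have h1 : g = 1 := by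
      apply Subtype.ext
      ext v
      exact LinearMap.congr_fun h v
    rw [h1, orderOf_one] at hg
    exact hr.one_lt.ne hg

theorem q_ne_zero (hr : r.Prime) (hne : (r : F) ≠ 0) : ((Fintype.card F : ℕ) : ZMod r) ≠ 0 := by
  intro h
  have h0 := ord_pos hr hne
  rw [h] at h0
  have h1 := pow_orderOf_eq_one (0 : ZMod r)
  rw [zero_pow h0.ne'] at h1
  have hrf : Fact r.Prime := ⟨hr⟩
  exact zero_ne_one h1

/-- the order of the isometry group is divisible by `r` -/
theorem dvd_card_O {V : Type v} [AddCommGroup V] [Module F V] [FiniteDimensional F V] {Q : QuadraticForm F V} (hQ : Nd Q)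
    (hr : r.Prime) (hne : (r : F) ≠ 0) (hV : finrank F V = 2 * hF F r)
    (hD : D Q = sF F r * (Fintype.card F : ℤ) ^ hF F r) : r ∣ Nat.card (O Q) := by
  have hrf : Fact r.Prime := ⟨hr⟩
  have hfin : Finite V := Module.finite_of_finite F
  have hb := bal hQ ⟨hF F r, by omega⟩
  have h1 := card_bal hb
  have h2 : (NN Q 0 : ℤ) = sF F r * (Fintype.card F : ℤ) ^ hF F r + NN Q 1 := by
    rw [← hD, D]; ring
  rw [h2, Module.natCard_eq_pow_finrank (K := F) (V := V), hV, Nat.card_eq_fintype_card] at h1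
  have h3 : ((Fintype.card F : ℤ)) * NN Q 1 = (Fintype.card F : ℤ) ^ (2 * hF F r) - sF F r * (Fintype.card F : ℤ) ^ hF F r := by
    push_cast at h1
    linear_combination h1
  have hp : 0 < hF F r := hh_pos (ord_pos hr hne)
  have hq1 : (1 : ℤ) < Fintype.card F := by exact_mod_cast Fintype.one_lt_card
  have h4 : NN Q 1 ≠ 0 := by
    intro h0
    rw [h0, Nat.cast_zero, mul_zero] at h3
    have h5 : (Fintype.card F : ℤ) ^ hF F r * ((Fintype.card F : ℤ) ^ hF F r - sF F r) = 0 := by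
      rw [two_mul, pow_add] at h3
      linear_combination -h3
    have h6 := (mul_eq_zero.1 h5).resolve_left (q_pow_ne _)
    have h7 : (1 : ℤ) < (Fintype.card F : ℤ) ^ hF F r := one_lt_pow₀ hq1 hp.ne'
    have h8 : sF F r ≤ 1 := by unfold sF sg; split_ifs <;> norm_num
    linarith
  have h5 : r ∣ NN Q 1 := by
    rw [← ZMod.natCast_eq_zero_iff]
    have h6 := congrArg (Int.cast : ℤ → ZMod r) h3
    push_cast at h6
    have h7 := pow_hh (q := Fintype.card F) hr rfl (ord_pos hr hne)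
    have h8 := congrArg (Int.cast : ℤ → ZMod r) (sg_sq (orderOf ((Fintype.card F : ℕ) : ZMod r)))
    push_cast at h8
    rw [mul_comm 2, pow_mul] at h6
    have h9 : ((Fintype.card F : ZMod r)) ^ hF F r = ((sF F r : ℤ) : ZMod r) := h7
    rw [h9] at h6
    have h10 : ((Fintype.card F : ZMod r)) * (NN Q 1 : ZMod r) = 0 := by
      rw [h6]; ring
    exact (mul_eq_zero.1 h10).resolve_left (q_ne_zero hr hne)
  -- transitivity
  obtain ⟨v0, hv0⟩ : ∃ v : V, Q v = 1 := by
    by_contra hcon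
    push Not at hcon
    apply h4
    rw [NN, Nat.card_eq_zero]
    exact Or.inl ⟨fun x => hcon x.1 x.2⟩
  have hli : ∀ v : V, Q v = 1 → LinearIndependent F ![v] := by
    intro v hv
    rw [linearIndependent_unique_iff]
    show v ≠ 0
    rintro rfl
    rw [QuadraticMap.map_zero] at hv
    exact zero_ne_one hv
  have hfO := finite_O Q
  have h6 := ClStab.card_eq_of_transitive (G := ↥(O Q)) (X := V) v0 {v | Q v = 1} hv0 (fun g x hx => by
    show Q ((g : V ≃ₗ[F] V) x) = 1
    rw [g.2]; exact hx) (fun x hx => by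
    obtain ⟨g, hg, hgx⟩ := hQ.witt_family ![v0] ![x] (hli _ hv0) (hli _ hx) (fun i => by
      fin_cases i
      show Q v0 = Q x
      rw [hv0, hx]) (fun i j => by
      fin_cases i; fin_cases j
      show polar Q v0 v0 = polar Q x x
      rw [polar_self', polar_self', hv0, hx])
    exact ⟨⟨g, hg⟩, hgx 0⟩)
  have h7 : Nat.card ({v | Q v = 1} : Set V) = NN Q 1 := rfl
  rw [h6, h7]
  exact Dvd.dvd.mul_right h5 _

theorem PR.pos_pp {V : Type v} [AddCommGroup V] [Module F V] [FiniteDimensional F V] {Q : QuadraticForm F V} {T : Module.End F V}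
    (h : PR r Q T) (hT : T ≠ 1) (hV : finrank F V = 2 * hF F r) : E T 1 = ⊥ := by
  obtain ⟨h1, h2, h3, h4⟩ := h.pp_E
  obtain ⟨k, hk1, -⟩ := h.type h2 h1 h3
  have hp := h.pos
  have hk : k = 1 := by
    have h5 : k ≠ 0 := by
      rintro rfl
      apply hT
      have h5 : E T (1 : F) = ⊤ := by
        apply Submodule.eq_top_of_finrank_eq
        rw [mul_zero, mul_zero] at hk1
        omega
      ext x
      have : x ∈ E T (1 : F) := by rw [h5]; trivial
      exact mem_E.1 this
    have h6 : hF F r * k ≤ hF F r * 1 := by omega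
    have h7 := Nat.le_of_mul_le_mul_left h6 hp
    omega
  subst hk
  exact Submodule.finrank_eq_zero.1 (by omega)

/-- the standard space with `A` atoms -/
theorem exists_std (hr : r.Prime) (ho : Odd r) (hne : (r : F) ≠ 0) : ∀ A : ℕ,
    ∃ (X : Type u) (_ : AddCommGroup X) (_ : Module F X) (_ : FiniteDimensional F X) (QX : QuadraticForm F X) (τ : Module.End F X),
      PR r QX τ ∧ finrank F X = 2 * (hF F r * A) ∧ D QX = sF F r ^ A * (Fintype.card F : ℤ) ^ (hF F r * A) ∧ ∀ x, τ x = x → x = 0 := by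
  intro A
  induction A with
  | zero =>
    have hd0 : finrank F PUnit.{u+1} = 0 := by
      have : Subsingleton PUnit.{u+1} := inferInstance
      exact Module.finrank_zero_of_subsingleton
    refine ⟨PUnit.{u+1}, inferInstance, inferInstance, inferInstance, 0, 1, ⟨hr, ho, hne, nd_of fun x _ => rfl, fun v => rfl, one_pow r⟩,
      by rw [hd0]; simp, ?_, fun x _ => rfl⟩
    rw [D_subsingleton]; simp
  | succ A ih =>
    obtain ⟨X, i1, i2, i3, QX, τ, h1, h2, h3, h4⟩ := ih
    obtain ⟨Y, j1, j2, j3, QY, k1, k2, k3⟩ := exists_space (F := F) (hF F r) (sF F r) (by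
      unfold sF sg hF
      split_ifs
      · right
        exact ⟨rfl, hh_pos (ord_pos hr hne)⟩
      · left; rfl)
    rw [Nat.card_eq_fintype_card] at k3
    obtain ⟨σ, hσ, hσ1⟩ := exists_of_dvd k1 hr ho hne (dvd_card_O k1 hr hne k2 k3)
    have hE := hσ.pos_pp hσ1 k2
    have hfX : Finite X := Module.finite_of_finite F
    have hfY : Finite Y := Module.finite_of_finite F
    refine ⟨X × Y, inferInstance, inferInstance, inferInstance, QX.prod QY, τ.prodMap σ, ⟨hr, ho, hne, nd_prod h1.nd k1, ?_, ?_⟩, ?_, ?_, ?_⟩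
    · intro v
      rw [QuadraticMap.prod_apply, QuadraticMap.prod_apply]
      show QX (τ v.1) + QY (σ v.2) = _
      rw [h1.iso, hσ.iso]
    · have hk : ∀ (k : ℕ) (v : X × Y), ((τ.prodMap σ) ^ k : Module.End F (X × Y)) v = ((τ ^ k) v.1, (σ ^ k) v.2) := by
        intro k
        induction k with
        | zero => intro v; rfl
        | succ k ih =>
          intro v
          rw [pow_succ, Module.End.mul_apply, ih, pow_succ, pow_succ]
          rfl
      apply LinearMap.ext
      intro v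
      rw [hk, h1.pow, hσ.pow]; rfl
    · rw [finrank_prod, h2, k2, Nat.mul_succ, Nat.mul_add]
    · rw [D_prod (bal h1.nd ⟨hF F r * A, by omega⟩) (bal k1 ⟨hF F r, by omega⟩), h3, k3, Nat.mul_succ, pow_add, pow_succ]
      ring
    · intro x hx
      have e1 : τ x.1 = x.1 := congrArg Prod.fst hx
      have e2 : σ x.2 = x.2 := congrArg Prod.snd hx
      have e3 : x.2 ∈ E σ (1 : F) := mem_E.2 e2
      rw [hE] at e3
      exact Prod.ext (h4 _ e1) ((Submodule.mem_bot F).1 e3)

variable {V : Type v} [AddCommGroup V] [Module F V] [FiniteDimensional F V] {Q : QuadraticForm F V}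

/-- existence of isometries with `A` atoms -/
theorem exists_PR (hQ : Nd Q) (hr : r.Prime) (ho : Odd r) (hne : (r : F) ≠ 0) {ε : ℤ}
    (hε : ∀ N, finrank F V = 2 * N → D Q = ε * (Fintype.card F : ℤ) ^ N) {A : ℕ} (hA : Val (hF F r) (sF F r) (finrank F V) ε A) :
    ∃ T, PR r Q T ∧ finrank F (E T (1 : F)) + 2 * (hF F r * A) = finrank F V := by
  obtain ⟨X, i1, i2, i3, QX, τ, h1, h2, h3, h4⟩ := exists_std (F := F) hr ho hne A
  obtain ⟨f, hf⟩ : ∃ f : X →ₗ[F] V, ∀ x, Q (f x) = QX x := by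
    apply emb hQ h1.nd
    rcases Nat.lt_or_ge (finrank F X) (finrank F V) with h5 | h5
    · exact Or.inl h5
    · right
      have h6 : finrank F V = 2 * (hF F r * A) := by
        have := hA.1
        omega
      refine ⟨by omega, by rw [h6]; exact even_two_mul _, ?_⟩
      rw [h3, hε _ h6, hA.2 h6]
  obtain ⟨U, hU⟩ : ∃ U, LinearMap.range f = U := ⟨_, rfl⟩
  have hcl : Cl Q QX U := ⟨f, hf, hU⟩
  have hnd := hcl.nd h1.nd
  have hfr := hcl.finrank h1.nd
  obtain ⟨e, he⟩ := hcl.equiv h1.nd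
  obtain ⟨g1, g2, g3⟩ := perp_data hQ hnd
  let τ' : Module.End F U := e.conj τ
  have hτ' : ∀ x, τ' (e x) = e (τ x) := by
    intro x
    show e (τ (e.symm (e x))) = _
    rw [LinearEquiv.symm_apply_apply]
  have hτk : ∀ (k : ℕ) (x : X), (τ' ^ k) (e x) = e ((τ ^ k) x) := by
    intro k
    induction k with
    | zero => intro x; rfl
    | succ k ih =>
      intro x
      rw [pow_succ, pow_succ, Module.End.mul_apply, hτ', ih]; rfl
  obtain ⟨J, hJ1, hJ2, hJ3⟩ := glue g2 (fun u hu w hw => hw u hu) τ' (1 : Module.End F (pp Q U)) (by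
    intro x
    obtain ⟨y, rfl⟩ := e.surjective x
    rw [hτ', he, he, h1.iso]) (fun x => rfl)
  have hJr : J ^ r = 1 := by
    apply glue_pow g2 (hJ2 r)
    · ext x
      obtain ⟨y, rfl⟩ := e.surjective x
      rw [hτk, h1.pow]; rfl
    · exact one_pow r
  refine ⟨J, ⟨hr, ho, hne, hQ, hJ1, hJr⟩, ?_⟩
  have hE : E J (1 : F) = pp Q U := by
    ext v
    rw [mem_E]
    obtain ⟨a, b, hab, hiff⟩ := hJ3 v
    rw [hiff]
    constructor
    · rintro ⟨h5, -⟩
      obtain ⟨y, rfl⟩ := e.surjective a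
      rw [hτ'] at h5
      have h6 := h4 y (e.injective h5)
      rw [hab, h6, map_zero, Submodule.coe_zero, zero_add]
      exact b.2
    · intro hv
      refine ⟨?_, rfl⟩
      have h5 : (a : V) ∈ pp Q U := by
        have : (a : V) = v - b := by rw [hab]; abel
        rw [this]
        exact (pp Q U).sub_mem hv b.2
      have h6 : (a : V) = 0 := (Submodule.disjoint_def.1 g2.disjoint) _ a.2 h5
      have h7 : a = 0 := Subtype.ext h6
      rw [h7, map_zero]
  rw [hE, ← g3, hfr, h2]; ring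

end exist

section main
variable {F : Type u} [Field F] [Fintype F] {V : Type v} [AddCommGroup V] [Module F V] [FiniteDimensional F V]
variable {V₀ : Type w} [AddCommGroup V₀] [Module F V₀] [FiniteDimensional F V₀]
variable {Q : QuadraticForm F V} {Q₀ : QuadraticForm F V₀} {r : ℕ}

theorem all_iff (hQ : Nd Q) (hQ₀ : Nd Q₀) (hr : r.Prime) (ho : Odd r) (hne : (r : F) ≠ 0) {ε δ : ℤ}
    (hε : ∀ N, finrank F V = 2 * N → D Q = ε * (Fintype.card F : ℤ) ^ N)
    (hδ : ∀ N, finrank F V₀ = 2 * N → D Q₀ = δ * (Fintype.card F : ℤ) ^ N)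
    (hpar : Even (finrank F V) ∨ Even (finrank F V₀)) :
    (∀ T, PR r Q T → T ≠ 1 → ∃ W, Inv T W ∧ Cl Q Q₀ W) ↔
      ∀ A, 1 ≤ A → Val (hF F r) (sF F r) (finrank F V) ε A → Fx (hF F r) (sF F r) (finrank F V) (finrank F V₀) ε δ A := by
  constructor
  · intro H A hA1 hA
    obtain ⟨T, hT, hTA⟩ := exists_PR hQ hr ho hne hε hA
    have hT1 : T ≠ 1 := by
      rintro rfl
      have h1 : E (1 : Module.End F V) (1 : F) = ⊤ := by
        rw [eq_top_iff]
        intro x _
        exact mem_E.2 rfl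
      rw [h1, finrank_top] at hTA
      have hp := hT.pos
      have : 0 < hF F r * A := Nat.mul_pos hp hA1
      omega
    obtain ⟨W, hW, hcl⟩ := H T hT hT1
    exact hT.fix_imp hTA hQ₀ hε hδ hpar hW hcl
  · intro H T hT hT1
    obtain ⟨A, hA, hval, hA1⟩ := hT.exists_A hε
    exact hT.fix_of hA hQ₀ hε hδ hpar (H A (hA1 hT1) hval)

end main

end Cfsg.Agent.Lib.OrthR67
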