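import Mathlib
import Cfsg.Agent.Lib.OrthRD67

/-!
(helper67) Isometries of odd prime order `r`: counting modulo `r`.
-/

set_option autoImplicit false
set_option linter.unusedSectionVars false

namespace Cfsg.Agent.Lib.OrthR67

open Polynomial QuadraticMap Module Cfsg.Agent.Lib.Quad Cfsg.Agent.Lib.QuadD67 Cfsg.Agent.Lib.QuadEmb67
open Cfsg.Agent.Lib.InvSub Cfsg.Agent.Lib.PrimeOrd Cfsg.Agent.Lib.OReal67

universe u v w

section act
variable {F : Type u} [Field F] {V : Type v} [AddCommGroup V] [Module F V] [FiniteDimensional F V]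
variable {V₀ : Type w} [AddCommGroup V₀] [Module F V₀] [FiniteDimensional F V₀]
variable {Q : QuadraticForm F V} {Q₀ : QuadraticForm F V₀}

@[reducible] def actO (Q : QuadraticForm F V) : MulAction ↥(O Q) (Submodule F V) where
  smul g W := W.map (g : V ≃ₗ[F] V).toLinearMap
  one_smul W := Submodule.map_id W
  mul_smul g h W := Submodule.map_comp _ _ W

theorem cl_map {g : V ≃ₗ[F] V} (hg : g ∈ O Q) {W : Submodule F V} (h : Cl Q Q₀ W) : Cl Q Q₀ (W.map g.toLinearMap) := by
  obtain ⟨φ, hφ, rfl⟩ := h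
  refine ⟨g.toLinearMap ∘ₗ φ, fun x => ?_, LinearMap.range_comp _ _⟩
  show Q (g (φ x)) = _
  rw [hg, hφ]

theorem cl_trans (hQ : Nd Q) (hQ₀ : Nd Q₀) {W W' : Submodule F V} (h : Cl Q Q₀ W) (h' : Cl Q Q₀ W') : ∃ g ∈ O Q, W.map g.toLinearMap = W' := by
  obtain ⟨e, he⟩ := h.equiv hQ₀
  obtain ⟨φ', hφ', rfl⟩ := h'
  obtain ⟨g, hg, hgu⟩ := hQ.witt W (φ' ∘ₗ e.symm.toLinearMap) (by
    intro a b hab
    exact e.symm.injective (inj_nd hQ₀ hφ' hab)) (fun u => by
    show Q (φ' (e.symm u)) = _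
    rw [hφ', ← he, LinearEquiv.apply_symm_apply])
  refine ⟨g, hg, ?_⟩
  ext y
  constructor
  · rintro ⟨u, hu, rfl⟩
    show g u ∈ _
    rw [hgu ⟨u, hu⟩]
    exact ⟨e.symm ⟨u, hu⟩, rfl⟩
  · rintro ⟨x, rfl⟩
    refine ⟨e x, (e x).2, ?_⟩
    show g (e x) = _
    rw [hgu (e x)]
    show φ' (e.symm (e x)) = φ' x
    rw [LinearEquiv.symm_apply_apply]

theorem cl_comap {X W : Submodule F V} (hW : W ≤ X) (h : Cl Q Q₀ W) : Cl (res Q X) Q₀ (W.comap X.subtype) := by
  obtain ⟨φ, hφ, rfl⟩ := h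
  refine ⟨φ.codRestrict X (fun x => hW ⟨x, rfl⟩), fun x => hφ x, ?_⟩
  ext y
  constructor
  · rintro ⟨x, rfl⟩
    exact ⟨x, rfl⟩
  · rintro ⟨x, hx⟩
    exact ⟨x, Subtype.ext hx⟩

theorem cl_map_sub {X : Submodule F V} {W : Submodule F X} (h : Cl (res Q X) Q₀ W) : Cl Q Q₀ (W.map X.subtype) := by
  obtain ⟨φ, hφ, rfl⟩ := h
  exact ⟨X.subtype ∘ₗ φ, fun x => hφ x, LinearMap.range_comp _ _⟩

/-- the number of members of a class divides the order of the isometry group -/
theorem card_cl_dvd [Finite V] (hQ : Nd Q) (hQ₀ : Nd Q₀) {W : Submodule F V} (h : Cl Q Q₀ W) :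
    Nat.card {W : Submodule F V // Cl Q Q₀ W} ∣ Nat.card (O Q) := by
  letI := actO Q
  have hfO := finite_O Q
  have h1 := ClStab.card_eq_of_transitive (G := ↥(O Q)) (X := Submodule F V) W {W | Cl Q Q₀ W} h (fun g x hx => cl_map g.2 hx)
    (fun x hx => by
      obtain ⟨g, hg, hgx⟩ := cl_trans hQ hQ₀ h hx
      exact ⟨⟨g, hg⟩, hgx⟩)
  rw [h1]
  exact Dvd.intro _ rfl

end act

section main
variable {F : Type u} [Field F] [Fintype F] {V : Type v} [AddCommGroup V] [Module F V] [FiniteDimensional F V]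
variable {V₀ : Type w} [AddCommGroup V₀] [Module F V₀] [FiniteDimensional F V₀]
variable {Q : QuadraticForm F V} {Q₀ : QuadraticForm F V₀} {r : ℕ}

/-- the isometry group of the fixed space is prime to `r` for a minimal fixed space -/
theorem not_dvd_of_min {T : Module.End F V} (h : PR r Q T) (hmin : ∀ T', PR r Q T' → finrank F (E T (1 : F)) ≤ finrank F (E T' (1 : F))) :
    ¬ r ∣ Nat.card (O (res Q (E T (1 : F)))) := by
  intro hd
  obtain ⟨τ, hτ, hτ1⟩ := exists_of_dvd (nd_res h.nd_E) h.hr h.odd h.ne hd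
  obtain ⟨h1, h2, h3, h4⟩ := h.pp_E
  obtain ⟨g1, g2, g3⟩ := perp_data h.nd h.nd_E
  let σ : Module.End F (pp Q (E T (1 : F))) := T.restrict h2
  have hσk : ∀ (k : ℕ) (x : pp Q (E T (1 : F))), ((σ ^ k) x : V) = (T ^ k) x := by
    intro k
    induction k with
    | zero => intro x; rfl
    | succ k ih =>
      intro x
      rw [pow_succ, pow_succ, Module.End.mul_apply, ih]; rfl
  obtain ⟨J, hJ1, hJ2, hJ3⟩ := glue g2 (fun u hu w hw => hw u hu) τ σ hτ.iso (fun x => h.iso x)
  have hJr : J ^ r = 1 := by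
    apply glue_pow g2 (hJ2 r) hτ.pow
    ext x
    rw [hσk, h.pow]; rfl
  have hJ : PR r Q J := ⟨h.hr, h.odd, h.ne, h.nd, hJ1, hJr⟩
  have hle : E J (1 : F) ≤ E T (1 : F) := by
    intro v hv
    obtain ⟨a, b, hab, hiff⟩ := hJ3 v
    have h5 := (hiff.1 (mem_E.1 hv)).2
    have h6 : (b : V) ∈ pp Q (E T 1) ⊓ E T 1 := ⟨b.2, mem_E.2 (congrArg Subtype.val h5)⟩
    rw [h3] at h6
    rw [hab, (Submodule.mem_bot F).1 h6, add_zero]
    exact a.2
  have heq := Submodule.eq_of_le_of_finrank_eq hle (le_antisymm (Submodule.finrank_mono hle) (hmin J hJ))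
  apply hτ1
  ext a
  have h5 : (a : V) ∈ E J (1 : F) := by rw [heq]; exact a.2
  have h6 := (hJ2 1).1 a
  rw [pow_one, pow_one, mem_E.1 h5] at h6
  exact h6.symm

theorem exists_min (hQ : Nd Q) (hr : r.Prime) (ho : Odd r) (hne : (r : F) ≠ 0) :
    ∃ T, PR r Q T ∧ ∀ T', PR r Q T' → finrank F (E T (1 : F)) ≤ finrank F (E T' (1 : F)) := by
  classical
  have hex : ∃ n, ∃ T, PR r Q T ∧ finrank F (E T (1 : F)) = n := ⟨_, 1, ⟨hr, ho, hne, hQ, fun v => rfl, one_pow r⟩, rfl⟩
  obtain ⟨T, hT, hTn⟩ := Nat.find_spec hex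
  exact ⟨T, hT, fun T' hT' => by rw [hTn]; exact Nat.find_min' hex ⟨T', hT', rfl⟩⟩

/-- number of classes modulo `r` -/
theorem card_mod {T : Module.End F V} (h : PR r Q T) (P : Submodule F V → Prop) (hP : ∀ g ∈ O Q, ∀ W, P W → P (W.map g.toLinearMap)) :
    ((Nat.card {W : Submodule F V // P W} : ℕ) : ZMod r) = (Nat.card {W : Submodule F V // P W ∧ Inv T W} : ℕ) := by
  classical
  have hrf : Fact r.Prime := ⟨h.hr⟩
  have hfin : Finite V := Module.finite_of_finite F
  have hfs : Finite (Submodule F V) := Finite.of_injective (fun W => (W : Set V)) SetLike.coe_injective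
  have : Fintype {W : Submodule F V // P W} := Fintype.ofFinite _
  have hT := iso_bq h.iso
  have hmapT : ∀ W, P W → P (W.map T) := by
    intro W hW
    have := hP (ofMap h.nd T h.iso) (ofMap_mem _ _ _) W hW
    exact this
  let f : Function.End {W : Submodule F V // P W} := fun W => ⟨W.1.map T, hmapT _ W.2⟩
  have hfk : ∀ (k : ℕ) (W : {W : Submodule F V // P W}), ((f ^ k) W).1 = W.1.map (T ^ k) := by
    intro k
    induction k with
    | zero => intro W; exact (Submodule.map_id W.1).symm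
    | succ k ih =>
      intro W
      rw [pow_succ, pow_succ]
      show ((f ^ k) (f W)).1 = _
      rw [ih]
      exact (Submodule.map_comp T (T ^ k) W.1).symm
  have h2 := Equiv.Perm.card_fixedPoints_modEq (α := {W : Submodule F V // P W}) (f := f) (p := r) (n := 1) (by
    rw [pow_one]
    funext W
    apply Subtype.ext
    rw [hfk, h.pow]
    exact Submodule.map_id W.1)
  have h3 : Fintype.card (Function.fixedPoints f) = Nat.card {W : Submodule F V // P W ∧ Inv T W} := by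
    rw [← Nat.card_eq_fintype_card]
    apply Nat.card_congr
    exact {
      toFun := fun W => ⟨W.1.1, W.1.2, by
        rw [inv_iff_map_le]
        have : W.1.1.map T = W.1.1 := congrArg Subtype.val W.2
        exact this.le⟩
      invFun := fun W => ⟨⟨W.1, W.2.1⟩, Subtype.ext (hT.map_eq (nd_top h.nd) W.2.2)⟩
      left_inv := fun W => rfl
      right_inv := fun W => rfl }
  rw [← h3, Nat.card_eq_fintype_card]
  exact (ZMod.natCast_eq_natCast_iff _ _ _).2 h2

theorem not_of_dvd (hQ : Nd Q) (hQ₀ : Nd Q₀) (hr : r.Prime) (ho : Odd r) (hne : (r : F) ≠ 0) (hm : finrank F V₀ < 2 * hF F r)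
    (hlt : finrank F V₀ < finrank F V) (hd : r ∣ Nat.card {W : Submodule F V // Cl Q Q₀ W}) :
    ¬ ∀ T, PR r Q T → T ≠ 1 → ∃ W, Inv T W ∧ Cl Q Q₀ W := by
  intro H
  have hrf : Fact r.Prime := ⟨hr⟩
  have hfin : Finite V := Module.finite_of_finite F
  have hfs : Finite (Submodule F V) := Finite.of_injective (fun W => (W : Set V)) SetLike.coe_injective
  obtain ⟨T, hT, hmin⟩ := exists_min hQ hr ho hne
  have h1 := not_dvd_of_min hT hmin
  have h2 := card_mod hT (fun W => Cl Q Q₀ W) (fun g hg W hW => cl_map hg hW)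
  rw [(ZMod.natCast_eq_zero_iff _ _).2 hd] at h2
  have h3 : r ∣ Nat.card {W : Submodule F V // Cl Q Q₀ W ∧ Inv T W} := (ZMod.natCast_eq_zero_iff _ _).1 h2.symm
  -- fixed members lie in the fixed space
  have hle : ∀ W, Cl Q Q₀ W → Inv T W → W ≤ E T (1 : F) := by
    intro W hcl hW
    obtain ⟨k0, k1, k2, k3, k4, k5⟩ := hT.split_E hW (hcl.nd hQ₀)
    obtain ⟨k, hk1, -⟩ := hT.type k2 k3 k4
    have hWf := hcl.finrank hQ₀
    have hp := hT.pos
    have hk : k = 0 := by
      by_contra hk0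
      have : hF F r * 1 ≤ hF F r * k := Nat.mul_le_mul_left _ (by omega)
      omega
    subst hk
    have h6 : finrank F ↥(W ⊓ E T 1) = finrank F W := by omega
    have h7 := Submodule.eq_of_le_of_finrank_eq inf_le_left h6
    rw [← h7]; exact inf_le_right
  have h4 : Nat.card {W : Submodule F V // Cl Q Q₀ W ∧ Inv T W} =
      Nat.card {W : Submodule F (E T (1 : F)) // Cl (res Q (E T (1 : F))) Q₀ W} := by
    apply Nat.card_congr
    exact {
      toFun := fun W => ⟨W.1.comap (E T (1 : F)).subtype, cl_comap (hle W.1 W.2.1 W.2.2) W.2.1⟩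
      invFun := fun W => ⟨W.1.map (E T (1 : F)).subtype, cl_map_sub W.2, inv_of_le_E (by
        rintro _ ⟨x, -, rfl⟩
        exact x.2)⟩
      left_inv := fun W => by
        apply Subtype.ext
        show Submodule.map _ (Submodule.comap _ _) = _
        rw [Submodule.map_comap_subtype, inf_eq_right]
        exact hle W.1 W.2.1 W.2.2
      right_inv := fun W => by
        apply Subtype.ext
        show Submodule.comap _ (Submodule.map _ _) = _
        exact Submodule.comap_map_eq_of_injective (Submodule.injective_subtype _) _ }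
  have h5 : ∀ W : Submodule F V, Inv T W → ¬ Cl Q Q₀ W := by
    intro W hW hcl
    have hcl' := cl_comap (hle W hcl hW) hcl
    have h6 := card_cl_dvd (nd_res hT.nd_E) hQ₀ hcl'
    rw [h4] at h3
    exact h1 (h3.trans h6)
  by_cases hT1 : T = 1
  · obtain ⟨f, hf⟩ := emb_lt hQ hQ₀ hlt
    exact h5 (LinearMap.range f) (by rw [hT1]; exact fun x hx => hx) ⟨f, hf, rfl⟩
  · obtain ⟨W, hW, hcl⟩ := H T hT hT1
    exact h5 W hW hcl

end main

end Cfsg.Agent.Lib.OrthR67
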