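import Mathlib
import Cfsg.Agent.Lib.OrthRE67
import Cfsg.Agent.Lib.OrthArith67
import Cfsg.Agent.Lib.OrthBridge

/-!
(helper67) From matrices in `omegaGL Q` to isometries; classes of nondegenerate subspaces.
-/

set_option autoImplicit false
set_option linter.unusedSectionVars false

namespace Cfsg.Agent.Lib.OrthR67

open QuadraticMap Module Cfsg.Agent.Lib.Quad Cfsg.Agent.Lib.QuadD67 Cfsg.Agent.Lib.QuadEmb67
open Cfsg.Agent.Lib.InvSub Cfsg.Agent.Lib.PrimeOrd Cfsg.Agent.Lib.OReal67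
open Cfsg Cfsg.Geo Cfsg.Agent.Lib.GeoBridge Cfsg.Agent.Lib.OrthMax Cfsg.Agent.Lib.OrthBridge
open scoped MatrixGroups Matrix

universe u v w

section om
variable {F : Type u} [Field F] [Finite F] {V : Type v} [AddCommGroup V] [Module F V] [FiniteDimensional F V] {Q : QuadraticForm F V}

theorem hom_odd {G : Type*} [Group G] (f : G →* ℤˣ) {g : G} {r : ℕ} (hr : Odd r) (hgr : g ^ r = 1) : f g = 1 := by
  have h3 : (f g) ^ r = 1 := by rw [← map_pow, hgr, map_one]
  rcases Int.units_eq_one_or (f g) with h5 | h5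
  · exact h5
  · rw [h5, hr.neg_one_pow] at h3
    exact absurd h3 (by decide)

theorem mem_Om_odd (hQ : Nd Q) (hgen : GenHyp Q) {g : V ≃ₗ[F] V} (hg : g ∈ O Q) {r : ℕ} (hr : Odd r) (hgr : g ^ r = 1) : g ∈ Om Q :=
  (mem_Om_iff_homs hQ hgen ⟨g, hg⟩).2 ⟨hom_odd _ hr (Subtype.ext hgr), hom_odd _ hr (Subtype.ext hgr)⟩

theorem scal_sq (hQ : Nd Q) (hn : 0 < finrank F V) {g : V ≃ₗ[F] V} (hg : g ∈ O Q) {z : F} (h : ∀ v, g v = z • v) : z * z = 1 := by
  obtain ⟨v, hv⟩ := hQ.exists_Q_ne_zero hn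
  have h1 := mem_O.1 hg v
  rw [h, Q_smul] at h1
  exact mul_right_cancel₀ hv (by rw [one_mul]; exact h1)

end om

section mat
variable {ι : Type} [Fintype ι] [DecidableEq ι] {F : Type u} [Field F] [Finite F] {Q : QuadraticForm F (ι → F)}
variable {P : Submodule F (ι → F) → Prop} {r : ℕ}

theorem inv_iff' (x : GL ι F) (W : Submodule F (ι → F)) : W.map (Matrix.toLin' (x : Matrix ι ι F)) ≤ W ↔ Inv (le x).toLinearMap W := by
  rw [inv_iff_map_le]
  have : Matrix.toLin' (x : Matrix ι ι F) = (le x).toLinearMap := by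
    ext v : 1
    rfl
  rw [this]

theorem keyS (Q : QuadraticForm F (ι → F)) (P : Submodule F (ι → F) → Prop) (r : ℕ) :
    (∀ x : GL ι F, x ∈ omegaGL ⇑Q →
      (∃ z : F, ((x ^ r : GL ι F) : Matrix ι ι F) = z • (1 : Matrix ι ι F)) →
      (∀ z : F, (x : Matrix ι ι F) ≠ z • (1 : Matrix ι ι F)) →
      ∃ W : Submodule F (ι → F), P W ∧ W.map (Matrix.toLin' (x : Matrix ι ι F)) ≤ W) ↔
    (∀ g ∈ Om Q, (∃ z : F, ∀ v, (g ^ r) v = z • v) → (∀ z : F, ∃ v, g v ≠ z • v) → ∃ W, P W ∧ Inv g.toLinearMap W) := by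
  have hsc : ∀ (x : GL ι F) (z : F), (x : Matrix ι ι F) = z • (1 : Matrix ι ι F) ↔ ∀ v, le x v = z • v := by
    intro x z
    constructor
    · intro h v
      rw [le_apply, h, Matrix.smul_mulVec, Matrix.one_mulVec]
    · intro h
      apply Matrix.toLin'.injective
      apply LinearMap.ext
      intro v
      rw [Matrix.toLin'_apply, ← le_apply, h, map_smul, Matrix.toLin'_one]
      rfl
  constructor
  · intro H g hg ⟨z, hz⟩ hnz
    have hx : (le.symm g) ∈ omegaGL ⇑Q := by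
      rw [mem_omegaGL_iff, MulEquiv.apply_symm_apply]; exact hg
    obtain ⟨W, hP, hW⟩ := H (le.symm g) hx ⟨z, by
      rw [hsc]
      intro v
      rw [map_pow, MulEquiv.apply_symm_apply]
      exact hz v⟩ (by
      intro z' hz'
      rw [hsc] at hz'
      obtain ⟨v, hv⟩ := hnz z'
      apply hv
      have := hz' v
      rwa [MulEquiv.apply_symm_apply] at this)
    refine ⟨W, hP, ?_⟩
    rw [inv_iff', MulEquiv.apply_symm_apply] at hW
    exact hW
  · intro H x hx ⟨z, hz⟩ hxz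
    have hxO := (mem_omegaGL_iff x).1 hx
    obtain ⟨W, hP, hW⟩ := H (le x) hxO ⟨z, by
      rw [hsc] at hz
      intro v
      rw [← map_pow]
      exact hz v⟩ (by
      intro z'
      by_contra hcon
      push Not at hcon
      exact hxz z' ((hsc x z').2 hcon))
    exact ⟨W, hP, (inv_iff' x W).2 hW⟩

theorem keyO (Q : QuadraticForm F (ι → F)) (P : Submodule F (ι → F) → Prop) {r : ℕ} (hr : r.Prime) :
    (∀ x : GL ι F, x ∈ omegaGL ⇑Q → orderOf x = r →
      ∃ W : Submodule F (ι → F), P W ∧ W.map (Matrix.toLin' (x : Matrix ι ι F)) ≤ W) ↔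
    (∀ g ∈ Om Q, g ^ r = 1 → g ≠ 1 → ∃ W, P W ∧ Inv g.toLinearMap W) := by
  have hord : ∀ x : GL ι F, orderOf x = r ↔ (le x) ^ r = 1 ∧ le x ≠ 1 := by
    intro x
    have h1 : (le x) ^ r = 1 ↔ x ^ r = 1 := by
      rw [← map_pow, ← map_one (le (ι := ι) (F := F))]
      exact le.injective.eq_iff
    have h2 : le x = 1 ↔ x = 1 := by
      rw [← map_one (le (ι := ι) (F := F))]
      exact le.injective.eq_iff
    rw [h1, Ne, h2]
    constructor
    · intro h
      refine ⟨by rw [← h]; exact pow_orderOf_eq_one x, ?_⟩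
      rintro rfl
      rw [orderOf_one] at h
      exact hr.one_lt.ne h
    · rintro ⟨h3, h4⟩
      haveI : Fact r.Prime := ⟨hr⟩
      exact orderOf_eq_prime h3 h4
  constructor
  · intro H g hg h1 h2
    have hx : (le.symm g) ∈ omegaGL ⇑Q := by
      rw [mem_omegaGL_iff, MulEquiv.apply_symm_apply]; exact hg
    obtain ⟨W, hP, hW⟩ := H (le.symm g) hx (by
      rw [hord, MulEquiv.apply_symm_apply]
      exact ⟨h1, h2⟩)
    refine ⟨W, hP, ?_⟩
    rw [inv_iff', MulEquiv.apply_symm_apply] at hW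
    exact hW
  · intro H x hx hxr
    have hxO := (mem_omegaGL_iff x).1 hx
    obtain ⟨h1, h2⟩ := (hord x).1 hxr
    obtain ⟨W, hP, hW⟩ := H (le x) hxO h1 h2
    exact ⟨W, hP, (inv_iff' x W).2 hW⟩

end mat

section red
variable {F : Type u} [Field F] [Finite F] {V : Type v} [AddCommGroup V] [Module F V] [FiniteDimensional F V] {Q : QuadraticForm F V}
variable {P : Submodule F V → Prop} {r : ℕ}

theorem toEnd_pow (g : V ≃ₗ[F] V) (k : ℕ) (v : V) : (g.toLinearMap ^ k) v = (g ^ k) v := by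
  induction k generalizing v with
  | zero => rfl
  | succ k ih => rw [pow_succ, pow_succ, Module.End.mul_apply, ih]; rfl

/-- order `r` elements, `r` odd -/
theorem redO (hQ : Nd Q) (hgen : GenHyp Q) (ho : Odd r) :
    (∀ g ∈ Om Q, g ^ r = 1 → g ≠ 1 → ∃ W, P W ∧ Inv g.toLinearMap W) ↔
    (∀ T : Module.End F V, (∀ v, Q (T v) = Q v) → T ^ r = 1 → T ≠ 1 → ∃ W, P W ∧ Inv T W) := by
  constructor
  · intro H T hT hTr hT1
    have hgT : (ofMap hQ T hT).toLinearMap = T := rfl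
    obtain ⟨W, hW⟩ := H (ofMap hQ T hT) (mem_Om_odd hQ hgen (ofMap_mem _ _ _) ho (by
      ext v
      rw [← toEnd_pow, hgT, hTr]; rfl)) (by
      ext v
      rw [← toEnd_pow, hgT, hTr]; rfl) (by
      intro h
      apply hT1
      rw [← hgT, h]; rfl)
    exact ⟨W, hW⟩
  · intro H g hg hgr hg1
    apply H g.toLinearMap (Om_le hg)
    · ext v
      rw [toEnd_pow, hgr]; rfl
    · intro h
      apply hg1
      ext v
      exact LinearMap.congr_fun h v

theorem pm_scal (hQ : Nd Q) (hn : 0 < finrank F V) {g : V ≃ₗ[F] V} (hg : g ∈ O Q) {z : F} (h : ∀ v, (g ^ r) v = z • v) : z = 1 ∨ z = -1 := by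
  have h1 := scal_sq hQ hn ((O Q).pow_mem hg r) h
  exact mul_self_eq_one_iff.1 h1

/-- elements of order `r` modulo scalars, `r` odd -/
theorem redS (hQ : Nd Q) (hgen : GenHyp Q) (hn : 0 < finrank F V) (ho : Odd r) :
    (∀ g ∈ Om Q, (∃ z : F, ∀ v, (g ^ r) v = z • v) → (∀ z : F, ∃ v, g v ≠ z • v) → ∃ W, P W ∧ Inv g.toLinearMap W) ↔
    (∀ T : Module.End F V, (∀ v, Q (T v) = Q v) → T ^ r = 1 → T ≠ 1 → ∃ W, P W ∧ Inv T W) := by
  constructor
  · intro H
    apply (redO hQ hgen ho).1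
    intro g hg hgr hg1
    apply H g hg ⟨1, fun v => by rw [hgr, one_smul]; rfl⟩
    intro z
    by_contra hcon
    push Not at hcon
    have h1 := scal_sq hQ hn (Om_le hg) hcon
    obtain ⟨v, hv⟩ := hQ.exists_Q_ne_zero hn
    have h2 : ∀ k : ℕ, ∀ v, (g ^ k) v = z ^ k • v := by
      intro k
      induction k with
      | zero => intro v; simp
      | succ k ih =>
        intro v
        rw [pow_succ]
        show (g ^ k) (g v) = _
        rw [ih, hcon, smul_smul, pow_succ]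
    have h3 := h2 r v
    rw [hgr] at h3
    have h4 : z ^ r = 1 := by
      have h5 : (z ^ r - 1) • v = 0 := by rw [sub_smul, ← h3, one_smul]; exact sub_self v
      rcases smul_eq_zero.1 h5 with h6 | h6
      · exact sub_eq_zero.1 h6
      · rw [h6, QuadraticMap.map_zero] at hv
        exact absurd rfl hv
    have h5 : z = 1 := by
      obtain ⟨k, hk⟩ := ho
      rw [hk, pow_succ, pow_mul, pow_two, h1, one_pow, one_mul] at h4
      exact h4
    apply hg1
    ext v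
    rw [hcon, h5, one_smul]; rfl
  · intro H g hg ⟨z, hz⟩ hnz
    have hzc := pm_scal hQ hn (Om_le hg) hz
    have hzz : z * z = 1 := by rcases hzc with h | h <;> rw [h] <;> ring
    have hzr : z ^ r = z := by
      obtain ⟨k, hk⟩ := ho
      rw [hk, pow_succ, pow_mul, pow_two, hzz, one_pow, one_mul]
    have hz0 : z ≠ 0 := by
      rintro rfl
      rw [mul_zero] at hzz
      exact zero_ne_one hzz
    obtain ⟨W, hP, hW⟩ := H (z • g.toLinearMap) (fun v => by
      show Q (z • g v) = Q v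
      rw [Q_smul, hzz, one_mul]
      exact (Om_le hg) v) (by
      ext v
      rw [_root_.smul_pow, hzr, LinearMap.smul_apply, toEnd_pow, hz, smul_smul, hzz, one_smul]; rfl) (by
      intro h
      obtain ⟨v, hv⟩ := hnz z
      apply hv
      have h1 : z • g v = v := LinearMap.congr_fun h v
      have h2 : z • (z • g v) = z • v := by rw [h1]
      rwa [smul_smul, hzz, one_smul] at h2)
    refine ⟨W, hP, fun x hx => ?_⟩
    have h1 : z • g x ∈ W := hW x hx
    have h2 := W.smul_mem z h1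
    rwa [smul_smul, hzz, one_smul] at h2

end red

section cls
variable {F : Type u} [Field F] [Finite F] {V : Type v} [AddCommGroup V] [Module F V] [FiniteDimensional F V] {Q : QuadraticForm F V}
variable {V₀ : Type w} [AddCommGroup V₀] [Module F V₀] [FiniteDimensional F V₀] {Q₀ : QuadraticForm F V₀}

theorem cl_iff_D (hQ₀ : Nd Q₀) {M : ℕ} (hM : finrank F V₀ = 2 * M) {W : Submodule F V} :
    Cl Q Q₀ W ↔ finrank F W = 2 * M ∧ NDq Q W ∧ D (res Q W) = D Q₀ := by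
  constructor
  · intro h
    exact ⟨by rw [h.finrank hQ₀, hM], h.nd hQ₀, h.D hQ₀⟩
  · rintro ⟨h1, h2, h3⟩
    obtain ⟨e, he⟩ := iso_of_D M hQ₀ hM (nd_res h2) h1 h3.symm
    exact cl_of_equiv e he

theorem plus_res_iff {W : Submodule F V} : Plus (res Q W) ↔ ∃ U : Submodule F V, U ≤ W ∧ (∀ u ∈ U, Q u = 0) ∧ 2 * finrank F U = finrank F W := by
  constructor
  · rintro ⟨U, hU, hd⟩
    refine ⟨U.map W.subtype, ?_, ?_, ?_⟩
    · rintro _ ⟨x, -, rfl⟩
      exact x.2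
    · rintro _ ⟨x, hx, rfl⟩
      exact hU x hx
    · rw [Submodule.finrank_map_subtype_eq]; exact hd
  · rintro ⟨U, hle, hU, hd⟩
    refine ⟨U.comap W.subtype, fun u hu => hU u hu, ?_⟩
    rw [← hd]
    congr 1
    have h1 : (U.comap W.subtype).map W.subtype = U := by
      rw [Submodule.map_comap_subtype, inf_eq_right]; exact hle
    rw [← Submodule.finrank_map_subtype_eq W (U.comap W.subtype), h1]

theorem cl_plus (hQ₀ : Nd Q₀) {M : ℕ} (hM : finrank F V₀ = 2 * M) (hD : D Q₀ = (Nat.card F : ℤ) ^ M) {W : Submodule F V} :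
    Cl Q Q₀ W ↔ finrank F W = 2 * M ∧ NDq Q W ∧ ∃ U : Submodule F V, U ≤ W ∧ (∀ u ∈ U, Q u = 0) ∧ 2 * finrank F U = finrank F W := by
  rw [cl_iff_D hQ₀ hM, hD]
  constructor
  · rintro ⟨h1, h2, h3⟩
    exact ⟨h1, h2, plus_res_iff.1 ((plus_iff (nd_res h2) h1).2 h3)⟩
  · rintro ⟨h1, h2, h3⟩
    exact ⟨h1, h2, (plus_iff (nd_res h2) h1).1 (plus_res_iff.2 h3)⟩

theorem cl_minus (hQ₀ : Nd Q₀) {M : ℕ} (hM : finrank F V₀ = 2 * M) (hD : D Q₀ = -(Nat.card F : ℤ) ^ M) {W : Submodule F V} :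
    Cl Q Q₀ W ↔ finrank F W = 2 * M ∧ NDq Q W ∧ ¬ ∃ U : Submodule F V, U ≤ W ∧ (∀ u ∈ U, Q u = 0) ∧ 2 * finrank F U = finrank F W := by
  rw [cl_iff_D hQ₀ hM, hD]
  have h4 : (0 : ℤ) < (Nat.card F : ℤ) := by exact_mod_cast Nat.card_pos
  have h5 := pow_pos h4 M
  constructor
  · rintro ⟨h1, h2, h3⟩
    refine ⟨h1, h2, fun h6 => ?_⟩
    have h7 := (plus_iff (nd_res h2) h1).1 (plus_res_iff.2 h6)
    linarith
  · rintro ⟨h1, h2, h3⟩
    refine ⟨h1, h2, ?_⟩
    rcases (D_cases M (nd_res h2) h1).2 with ⟨h6, -⟩ | ⟨-, h6⟩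
    · exact absurd (plus_res_iff.1 h6) h3
    · exact h6

end cls

section cls2
variable {ι : Type} [Fintype ι] [DecidableEq ι] {F : Type u} [Field F] [Finite F] {Q : QuadraticForm F (ι → F)}

theorem ndOn_iff {W : Submodule F (ι → F)} : IsNondegenerateOn (polar ⇑Q) W ↔ NDq Q W := by
  constructor
  · intro h w hw h1
    by_contra hw0
    obtain ⟨x, hx, hx0⟩ := (h w hw hw0).2
    exact hx0 (h1 x hx)
  · intro h w hw hw0
    have h1 : ∃ x ∈ W, polar Q w x ≠ 0 := by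
      by_contra hcon
      push Not at hcon
      exact hw0 (h w hw hcon)
    obtain ⟨x, hx, hx0⟩ := h1
    exact ⟨⟨x, hx, by rw [polar_comm]; exact hx0⟩, x, hx, hx0⟩

theorem ndOn_iff' {W : Submodule F (ι → F)} : (∀ u ∈ W, u ≠ 0 → ∃ v ∈ W, polar ⇑Q u v ≠ 0) ↔ NDq Q W := by
  constructor
  · intro h w hw h1
    by_contra hw0
    obtain ⟨x, hx, hx0⟩ := h w hw hw0
    exact hx0 (h1 x hx)
  · intro h w hw hw0
    by_contra hcon
    push Not at hcon
    exact hw0 (h w hw hcon)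

theorem cl_isom {W₀ W : Submodule F (ι → F)} (hW₀ : NDq Q W₀) {m : ℕ} (hm : finrank F W₀ = m) : Cl Q (res Q W₀) W ↔
    finrank F W = m ∧ IsNondegenerateOn (polar ⇑Q) W ∧ AreIsometricFor ⇑Q W W₀ := by
  constructor
  · intro h
    refine ⟨by rw [h.finrank (nd_res hW₀), hm], ndOn_iff.2 (h.nd (nd_res hW₀)), ?_⟩
    obtain ⟨e, he⟩ := h.equiv (nd_res hW₀)
    refine ⟨e.symm, fun w => ?_⟩
    have := he (e.symm w)
    rw [LinearEquiv.apply_symm_apply] at this
    exact this.symm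
  · rintro ⟨-, -, e, he⟩
    exact cl_of_equiv e.symm (fun x => by
      have := he (e.symm x)
      rw [LinearEquiv.apply_symm_apply] at this
      exact this.symm)

end cls2

section main
variable {F : Type u} [Field F] [Fintype F] {V : Type v} [AddCommGroup V] [Module F V] [FiniteDimensional F V]
variable {V₀ : Type w} [AddCommGroup V₀] [Module F V₀] [FiniteDimensional F V₀]
variable {Q : QuadraticForm F V} {Q₀ : QuadraticForm F V₀} {r : ℕ}

/-- the answer for odd `r` different from the characteristic -/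
theorem nd_main (hQ : Nd Q) (hQ₀ : Nd Q₀) (hr : r.Prime) (ho : Odd r) (hne : (r : F) ≠ 0) {ε δ : ℤ}
    (hε1 : ε * ε = 1) (hδ1 : δ * δ = 1)
    (hε : ∀ N, finrank F V = 2 * N → D Q = ε * (Fintype.card F : ℤ) ^ N)
    (hδ : ∀ N, finrank F V₀ = 2 * N → D Q₀ = δ * (Fintype.card F : ℤ) ^ N)
    (hpar : Even (finrank F V) ∨ Even (finrank F V₀)) (hm1 : 1 ≤ finrank F V₀) (hlt : finrank F V₀ < finrank F V)
    (hd : r ∣ Nat.card {W : Submodule F V // Cl Q Q₀ W}) :
    (∀ T : Module.End F V, (∀ v, Q (T v) = Q v) → T ^ r = 1 → T ≠ 1 → ∃ W, Cl Q Q₀ W ∧ Inv T W) ↔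
      (2 * hF F r ≤ finrank F V₀ ∧ GG (2 * hF F r) (sF F r) (finrank F V) (finrank F V₀) ε δ) := by
  have h1 : (∀ T : Module.End F V, (∀ v, Q (T v) = Q v) → T ^ r = 1 → T ≠ 1 → ∃ W, Cl Q Q₀ W ∧ Inv T W) ↔
      (∀ T, PR r Q T → T ≠ 1 → ∃ W, Inv T W ∧ Cl Q Q₀ W) := by
    constructor
    · intro H T hT hT1
      obtain ⟨W, h2, h3⟩ := H T hT.iso hT.pow hT1
      exact ⟨W, h3, h2⟩
    · intro H T hT hTr hT1
      obtain ⟨W, h2, h3⟩ := H T ⟨hr, ho, hne, hQ, hT, hTr⟩ hT1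
      exact ⟨W, h3, h2⟩
  rw [h1]
  have hp : 0 < hF F r := hh_pos (ord_pos hr hne)
  constructor
  · intro H
    have h2 : 2 * hF F r ≤ finrank F V₀ := by
      by_contra hcon
      exact not_of_dvd hQ hQ₀ hr ho hne (by omega) hlt hd H
    exact ⟨h2, gg_of hp (by omega) ((all_iff hQ hQ₀ hr ho hne hε hδ hpar).1 H)⟩
  · rintro ⟨-, hG⟩
    exact (all_iff hQ hQ₀ hr ho hne hε hδ hpar).2 (gg_imp hp (sg_sq _) hm1 hlt hε1 hδ1 hG)

/-- the closed form without the size condition still implies -/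
theorem nd_main' (hQ : Nd Q) (hQ₀ : Nd Q₀) (hr : r.Prime) (ho : Odd r) (hne : (r : F) ≠ 0) {ε δ : ℤ}
    (hε1 : ε * ε = 1) (hδ1 : δ * δ = 1)
    (hε : ∀ N, finrank F V = 2 * N → D Q = ε * (Fintype.card F : ℤ) ^ N)
    (hδ : ∀ N, finrank F V₀ = 2 * N → D Q₀ = δ * (Fintype.card F : ℤ) ^ N)
    (hpar : Even (finrank F V) ∨ Even (finrank F V₀)) (hm1 : 1 ≤ finrank F V₀) (hlt : finrank F V₀ < finrank F V)
    (hG : GG (2 * hF F r) (sF F r) (finrank F V) (finrank F V₀) ε δ) :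
    ∀ T : Module.End F V, (∀ v, Q (T v) = Q v) → T ^ r = 1 → T ≠ 1 → ∃ W, Cl Q Q₀ W ∧ Inv T W := by
  have hp : 0 < hF F r := hh_pos (ord_pos hr hne)
  intro T hT hTr hT1
  obtain ⟨W, h2, h3⟩ := (all_iff hQ hQ₀ hr ho hne hε hδ hpar).2 (gg_imp hp (sg_sq _) hm1 hlt hε1 hδ1 hG) T ⟨hr, ho, hne, hQ, hT, hTr⟩ hT1
  exact ⟨W, h3, h2⟩

end main

end Cfsg.Agent.Lib.OrthR67
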