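import Mathlib
import Cfsg.Agent.Lib.OrthRF67

/-!
(helper67) Involutions and elements with square `-1` in orthogonal groups of odd characteristic; invariant
nondegenerate subspaces.
-/

set_option autoImplicit false
set_option linter.unusedSectionVars false

namespace Cfsg.Agent.Lib.OrthR67

open QuadraticMap Module Cfsg.Agent.Lib.Quad Cfsg.Agent.Lib.QuadD67 Cfsg.Agent.Lib.QuadEmb67
open Cfsg.Agent.Lib.InvSub Cfsg.Agent.Lib.PrimeOrd Cfsg.Agent.Lib.OReal67

universe u v w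

section sum
variable {F : Type u} [Field F] {V : Type v} [AddCommGroup V] [Module F V] [FiniteDimensional F V]
variable {V₀ : Type w} [AddCommGroup V₀] [Module F V₀] [FiniteDimensional F V₀]
variable {Q : QuadraticForm F V} {Q₀ : QuadraticForm F V₀}

/-- members of a class from two orthogonal pieces -/
theorem cl_sum [Finite F] {X : Submodule F V₀} (hX : NDq Q₀ X) {f : X →ₗ[F] V} {g : pp Q₀ X →ₗ[F] V}
    (hf : ∀ x, Q (f x) = Q₀ x) (hg : ∀ x, Q (g x) = Q₀ x) (horth : ∀ x y, polar Q (f x) (g y) = 0) :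
    Cl Q Q₀ (LinearMap.range f ⊔ LinearMap.range g) := by
  have hc : IsCompl X (pp Q₀ X) := Sesq.isCompl_perp refl_bq hX
  obtain ⟨e, he, -⟩ := compl_iso hc (fun u hu w hw => hw u hu)
  refine ⟨(f.coprod g) ∘ₗ e.symm.toLinearMap, fun x => ?_, ?_⟩
  · obtain ⟨y, rfl⟩ := e.surjective x
    show Q ((f.coprod g) (e.symm (e y))) = _
    rw [LinearEquiv.symm_apply_apply, LinearMap.coprod_apply, Q_add, hf, hg, horth, add_zero, he]
    rfl
  · rw [LinearMap.range_comp, LinearEquiv.range, Submodule.map_top, LinearMap.range_coprod]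

end sum

section two
variable {F : Type u} [Field F] [Finite F]

theorem exists_nd_sub (h2 : (2 : F) ≠ 0) (k : ℕ) : ∀ (n : ℕ) {V : Type v} [AddCommGroup V] [Module F V] [FiniteDimensional F V]
    {Q : QuadraticForm F V}, Nd Q → finrank F V = k + n → ∃ U : Submodule F V, NDq Q U ∧ finrank F U = k := by
  intro n
  induction n with
  | zero =>
    intro V _ _ _ Q hQ hn
    exact ⟨⊤, nd_top hQ, by rw [finrank_top]; omega⟩
  | succ n ih =>
    intro V _ _ _ Q hQ hn
    obtain ⟨v, hv⟩ := hQ.exists_Q_ne_zero (by omega)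
    have hv0 : v ≠ 0 := by
      rintro rfl
      exact hv (QuadraticMap.map_zero Q)
    obtain ⟨U, hU1, hU2⟩ := ih (nd_perp_vec h2 hQ hv) (by rw [hQ.finrank_perp, finrank_span_singleton hv0]; omega)
    refine ⟨U.map (Submodule.subtype _), ?_, by rw [Submodule.finrank_map_subtype_eq]; exact hU2⟩
    rintro _ ⟨x, hx, rfl⟩ h
    have : x = 0 := by
      apply hU1 x hx
      intro y hy
      exact h _ ⟨y, hy, rfl⟩
    rw [this, map_zero]

variable {V : Type v} [AddCommGroup V] [Module F V] [FiniteDimensional F V]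
variable {V₀ : Type w} [AddCommGroup V₀] [Module F V₀] [FiniteDimensional F V₀]
variable {Q : QuadraticForm F V} {Q₀ : QuadraticForm F V₀}

/-- every class of smaller dimension has a member adapted to an orthogonal decomposition into two parts -/
theorem two_fix (h2 : (2 : F) ≠ 0) (hQ : Nd Q) (hQ₀ : Nd Q₀) {U : Submodule F V} (hU : NDq Q U) (hU1 : 1 ≤ finrank F U)
    (hU2 : 2 ≤ finrank F (pp Q U)) (hlt : finrank F V₀ < finrank F V) :
    ∃ W₁ ≤ U, ∃ W₂ ≤ pp Q U, Cl Q Q₀ (W₁ ⊔ W₂) := by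
  obtain ⟨g1, g2, g3⟩ := perp_data hQ hU
  have fin : ∀ (X : Submodule F V₀), NDq Q₀ X → (∃ f : X →ₗ[F] U, ∀ x, res Q U (f x) = res Q₀ X x) →
      finrank F (pp Q₀ X) < finrank F (pp Q U) → ∃ W₁ ≤ U, ∃ W₂ ≤ pp Q U, Cl Q Q₀ (W₁ ⊔ W₂) := by
    intro X hX ⟨f, hf⟩ hlt2
    obtain ⟨k1, k2, k3⟩ := perp_data hQ₀ hX
    obtain ⟨g, hg⟩ := emb_lt (nd_res g1) (nd_res k1) hlt2
    refine ⟨LinearMap.range (U.subtype ∘ₗ f), ?_, LinearMap.range ((pp Q U).subtype ∘ₗ g), ?_,
      cl_sum hX (fun x => hf x) (fun x => hg x) (fun x y => (g y).2 _ (f x).2)⟩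
    · rintro _ ⟨x, rfl⟩
      exact (f x).2
    · rintro _ ⟨x, rfl⟩
      exact (g x).2
  rcases Nat.lt_or_ge (finrank F V₀ + 1) (finrank F V) with h1 | h1
  · -- both dimensions strictly smaller
    obtain ⟨m1, hm1, hm1', hm1''⟩ : ∃ m1, m1 < finrank F U ∧ m1 ≤ finrank F V₀ ∧ finrank F V₀ < m1 + finrank F (pp Q U) := by
      rcases Nat.lt_or_ge (finrank F V₀) (finrank F U) with h3 | h3
      · exact ⟨finrank F V₀, h3, le_rfl, by omega⟩
      · exact ⟨finrank F U - 1, by omega, by omega, by omega⟩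
    obtain ⟨X, hX1, hX2⟩ := exists_nd_sub h2 m1 (finrank F V₀ - m1) hQ₀ (by omega)
    obtain ⟨k1, k2, k3⟩ := perp_data hQ₀ hX1
    exact fin X hX1 (emb_lt (nd_res hU) (nd_res hX1) (by omega)) (by omega)
  · obtain ⟨f, hf⟩ := emb_lt hQ₀ (nd_res hU) (by omega)
    have hcl : Cl Q₀ (res Q U) (LinearMap.range f) := ⟨f, hf, rfl⟩
    have hnd := hcl.nd (nd_res hU)
    obtain ⟨e, he⟩ := hcl.equiv (nd_res hU)
    obtain ⟨k1, k2, k3⟩ := perp_data hQ₀ hnd
    have hfr := hcl.finrank (nd_res hU)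
    refine fin (LinearMap.range f) hnd ⟨e.symm.toLinearMap, fun x => ?_⟩ (by omega)
    show Q (e.symm x) = Q₀ x
    have := he (e.symm x)
    rw [LinearEquiv.apply_symm_apply] at this
    exact this.symm

theorem inv_fix (h2 : (2 : F) ≠ 0) (hQ : Nd Q) (hQ₀ : Nd Q₀) {g : V ≃ₗ[F] V} (hg : g ∈ O Q) (hg2 : g ^ 2 = 1)
    (hev : Even (finrank F (mov g))) (hg1 : g ≠ 1) (hfix : 1 ≤ finrank F (fixS g)) (hlt : finrank F V₀ < finrank F V) :
    ∃ W, Cl Q Q₀ W ∧ Inv g.toLinearMap W := by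
  set T := g.toLinearMap with hTg
  have hT2 : T ^ 2 = 1 := by
    ext v
    rw [toEnd_pow, hg2]; rfl
  have hTT : ∀ x, T (T x) = x := by
    intro x
    have := LinearMap.congr_fun hT2 x
    rw [pow_two] at this
    exact this
  have hiso : ∀ v, Q (T v) = Q v := hg
  have hE : NDq Q (E T (1 : F)) := by
    have := Sesq.nd_inf_E (B := Bq Q) (iso_bq hiso) (r := 2) (by exact_mod_cast h2) hT2 (W := ⊤) (fun _ _ => trivial) (nd_top hQ)
    rwa [top_inf_eq] at this
  obtain ⟨g1, g2, g3⟩ := perp_data hQ hE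
  have hinv : Inv T (pp Q (E T 1)) := (iso_bq hiso).inv_perp (nd_top hQ) inv_E
  have hneg : ∀ x ∈ pp Q (E T (1 : F)), T x = -x := by
    intro x hx
    have h3 : T x + x ∈ E T (1 : F) := by
      rw [mem_E, map_add, hTT, add_comm]
    have h4 : T x + x ∈ pp Q (E T (1 : F)) := (pp Q (E T (1 : F))).add_mem (hinv x hx) hx
    have h5 := Submodule.disjoint_def.1 g2.disjoint _ h3 h4
    exact eq_neg_of_add_eq_zero_left h5
  have hfr : finrank F (E T (1 : F)) = finrank F (fixS g) := by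
    have : E T (1 : F) = fixS g := by
      ext x
      rw [mem_E, mem_fixS]; rfl
    rw [this]
  have hmov := finrank_mov_add_fixS g
  have hmov0 : finrank F (mov g) ≠ 0 := by
    intro h
    exact hg1 (mov_eq_bot.1 (Submodule.finrank_eq_zero.1 h))
  obtain ⟨W₁, hW₁, W₂, hW₂, hcl⟩ := two_fix h2 hQ hQ₀ hE (by omega) (by
    obtain ⟨k, hk⟩ := hev
    omega) hlt
  refine ⟨W₁ ⊔ W₂, hcl, Sesq.inv_sup (inv_of_le_E hW₁) ?_⟩
  intro x hx
  rw [hneg x (hW₂ hx)]
  exact W₂.neg_mem hx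

end two

end Cfsg.Agent.Lib.OrthR67
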