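import Mathlib
import Cfsg.Agent.Lib.OrthTwo67

/-!
(helper67) Isometries with square `-1` in odd characteristic.
-/

set_option autoImplicit false
set_option linter.unusedSectionVars false

namespace Cfsg.Agent.Lib.OrthR67

open QuadraticMap Module Cfsg.Agent.Lib.Quad Cfsg.Agent.Lib.QuadD67 Cfsg.Agent.Lib.QuadEmb67
open Cfsg.Agent.Lib.InvSub Cfsg.Agent.Lib.PrimeOrd Cfsg.Agent.Lib.OReal67

universe u v w

section neg
variable {F : Type u} [Field F] [Finite F] {V : Type v} [AddCommGroup V] [Module F V] [FiniteDimensional F V]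
variable {Q : QuadraticForm F V} {T : Module.End F V} {W : Submodule F V}

open Classical in
/-- the quadratic character of `-1` -/
noncomputable def chi (F : Type u) [Field F] : ℤ := if IsSquare (-1 : F) then 1 else -1

theorem chi_sq : chi F * chi F = 1 := by
  unfold chi; split_ifs <;> rfl

theorem neg_polar (h2 : (2 : F) ≠ 0) (hT : ∀ v, Q (T v) = Q v) (hTT : ∀ v, T (T v) = -v) (v : V) : polar Q v (T v) = 0 := by
  have h1 : polar Q (T v) (T (T v)) = polar Q v (T v) := polar_map T hT _ _
  rw [hTT, polar_neg_right, polar_comm Q (T v) v] at h1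
  have h3 : 2 * polar Q v (T v) = 0 := by linear_combination -h1
  exact (mul_eq_zero.1 h3).resolve_left h2

/-- the basic planes -/
theorem neg_plane (h2 : (2 : F) ≠ 0) (hT : ∀ v, Q (T v) = Q v) (hTT : ∀ v, T (T v) = -v) {v : V} (hv : Q v ≠ 0) :
    Inv T (Submodule.span F {v, T v}) ∧ NDq Q (Submodule.span F {v, T v}) ∧ finrank F (Submodule.span F {v, T v}) = 2 ∧
      D (res Q (Submodule.span F {v, T v})) = chi F * (Nat.card F : ℤ) := by
  set P := Submodule.span F {v, T v} with hP
  have hvP : v ∈ P := Submodule.subset_span (by simp)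
  have hTP : T v ∈ P := Submodule.subset_span (by simp)
  have hpol := neg_polar h2 hT hTT v
  have hmem : ∀ x ∈ P, ∃ a b : F, x = a • v + b • T v := by
    intro x hx
    obtain ⟨a, b, h⟩ := Submodule.mem_span_pair.1 hx
    exact ⟨a, b, h.symm⟩
  have hQab : ∀ a b : F, Q (a • v + b • T v) = (a * a + b * b) * Q v := by
    intro a b
    rw [Q_add, Q_smul, Q_smul, polar_smul_left, polar_smul_right, hpol, hT]
    simp only [smul_eq_mul]
    ring
  have hli : LinearIndependent F ![v, T v] := by
    rw [LinearIndependent.pair_iff]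
    intro a b hab
    have h3 := congrArg (fun x => polar Q v x) hab
    have h4 := congrArg (fun x => polar Q (T v) x) hab
    have hpol' : polar Q (T v) v = 0 := by rw [polar_comm]; exact hpol
    have h0 : ∀ y, polar Q y 0 = 0 := fun y => by simp [polar]
    simp only [polar_add_right, polar_smul_right, polar_self', hpol, hpol', hT, h0, smul_eq_mul, mul_zero, add_zero, zero_add] at h3 h4
    exact ⟨(mul_eq_zero.1 h3).resolve_right (mul_ne_zero h2 hv), (mul_eq_zero.1 h4).resolve_right (mul_ne_zero h2 hv)⟩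
  have hfr : finrank F P = 2 := by
    have h3 : ({v, T v} : Set V) = Set.range ![v, T v] := by
      ext x
      simp only [Set.mem_insert_iff, Set.mem_singleton_iff, Set.mem_range, Fin.exists_fin_two, Matrix.cons_val_zero, Matrix.cons_val_one]
      exact ⟨fun h => h.imp Eq.symm Eq.symm, fun h => h.imp Eq.symm Eq.symm⟩
    rw [hP, h3, finrank_span_eq_card hli, Fintype.card_fin]
  have hnd : NDq Q P := by
    intro x hx h
    obtain ⟨a, b, rfl⟩ := hmem x hx
    have hpol' : polar Q (T v) v = 0 := by rw [polar_comm]; exact hpol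
    have h3 : polar Q (a • v + b • T v) v = 0 := h v hvP
    have h4 : polar Q (a • v + b • T v) (T v) = 0 := h (T v) hTP
    simp only [polar_add_left, polar_smul_left, polar_self', hpol, hpol', hT, smul_eq_mul, mul_zero, add_zero, zero_add] at h3 h4
    rw [(mul_eq_zero.1 h3).resolve_right (mul_ne_zero h2 hv), (mul_eq_zero.1 h4).resolve_right (mul_ne_zero h2 hv), zero_smul, zero_smul,
      add_zero]
  refine ⟨?_, hnd, hfr, ?_⟩
  · intro x hx
    obtain ⟨a, b, rfl⟩ := hmem x hx
    rw [map_add, map_smul, map_smul, hTT]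
    exact P.add_mem (P.smul_mem a hTP) (P.smul_mem b (P.neg_mem hvP))
  · unfold chi
    split_ifs with hs
    · obtain ⟨i, hi⟩ := hs
      have hu : v + i • T v ∈ P := P.add_mem hvP (P.smul_mem i hTP)
      have hu0 : v + i • T v ≠ 0 := by
        intro h
        have := (LinearIndependent.pair_iff.1 hli) 1 i (by rw [one_smul]; exact h)
        exact one_ne_zero this.1
      have hQu : Q (v + i • T v) = 0 := by
        have := hQab 1 i
        rw [one_smul] at this
        rw [this, ← hi]; ring
      have h3 : (⟨v + i • T v, hu⟩ : P) ≠ 0 := fun h => hu0 (congrArg Subtype.val h)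
      have h4 := D_of_ts (nd_res hnd) (W := Submodule.span F {(⟨v + i • T v, hu⟩ : P)}) (by
        intro w hw
        obtain ⟨c, rfl⟩ := Submodule.mem_span_singleton.1 hw
        show Q (c • (v + i • T v)) = 0
        rw [Q_smul, hQu, mul_zero]) (by rw [finrank_span_singleton h3, hfr])
      rw [h4, finrank_span_singleton h3, pow_one, one_mul]
    · have h3 := plane_D (nd_res hnd) hfr (by
        rintro ⟨x, hx⟩ hx0
        obtain ⟨a, b, rfl⟩ := hmem x hx
        have h4 : (a * a + b * b) * Q v = 0 := by rw [← hQab]; exact hx0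
        have h5 := (mul_eq_zero.1 h4).resolve_right hv
        have hb : b = 0 := by
          by_contra hb
          apply hs
          refine ⟨a / b, ?_⟩
          field_simp
          linear_combination -h5
        have ha : a = 0 := by
          rw [hb] at h5
          exact mul_self_eq_zero.1 (by linear_combination h5)
        apply Subtype.ext
        show a • v + b • T v = 0
        rw [ha, hb, zero_smul, zero_smul, add_zero])
      rw [h3.2]; ring

theorem exists_Q_in (hWnd : NDq Q W) (hne : W ≠ ⊥) : ∃ v ∈ W, Q v ≠ 0 := by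
  have h1 : 0 < finrank F W := by
    rw [Nat.pos_iff_ne_zero]
    intro h
    exact hne (Submodule.finrank_eq_zero.1 h)
  obtain ⟨v, hv⟩ := (nd_res hWnd).exists_Q_ne_zero h1
  exact ⟨v, v.2, hv⟩

theorem neg_D (h2 : (2 : F) ≠ 0) (hQ : Nd Q) (hT : ∀ v, Q (T v) = Q v) (hTT : ∀ v, T (T v) = -v) :
    ∀ (n : ℕ) (W : Submodule F V), finrank F W = n → Inv T W → NDq Q W →
      ∃ k, finrank F W = 2 * k ∧ D (res Q W) = chi F ^ k * (Nat.card F : ℤ) ^ k := by
  intro n
  induction n using Nat.strong_induction_on with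
  | _ n ih =>
    intro W hn hW hWnd
    by_cases hne : W = ⊥
    · refine ⟨0, by rw [hne, finrank_bot], ?_⟩
      have : Subsingleton W := by rw [hne]; infer_instance
      rw [D_subsingleton]; simp
    · obtain ⟨v, hv, hQv⟩ := exists_Q_in hWnd hne
      obtain ⟨h3, h4, h5, h6⟩ := neg_plane h2 hT hTT hQv
      set P := Submodule.span F {v, T v} with hP
      have hPW : P ≤ W := by
        rw [hP, Submodule.span_le]
        rintro x (rfl | rfl)
        · exact hv
        · exact hW v hv
      obtain ⟨k1, k2, k3, k4⟩ := Sesq.split_nd (B := Bq Q) refl_bq hWnd h4 hPW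
      have k3' : finrank F P + finrank F ↥(W ⊓ pp Q P) = finrank F W := k3
      have hinv : Inv T (W ⊓ pp Q P) := Sesq.inv_inf hW ((iso_bq hT).inv_perp (nd_top hQ) h3)
      obtain ⟨k, hk1, hk2⟩ := ih (finrank F ↥(W ⊓ pp Q P)) (by omega) (W ⊓ pp Q P) rfl hinv k4
      refine ⟨k + 1, by omega, ?_⟩
      have h7 := D_sup k2 (fun u hu w hw => hw.2 u hu) (nd_res h4) (nd_res k4) ⟨1, by omega⟩ ⟨k, by omega⟩
      have h8 : P ⊔ (W ⊓ pp Q P) = W := k1
      rw [h8] at h7
      rw [h7, h6, hk2]; ring

theorem neg_sub (h2 : (2 : F) ≠ 0) (hQ : Nd Q) (hT : ∀ v, Q (T v) = Q v) (hTT : ∀ v, T (T v) = -v) :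
    ∀ (j : ℕ) (W : Submodule F V), 2 * j ≤ finrank F W → Inv T W → NDq Q W →
      ∃ U ≤ W, Inv T U ∧ NDq Q U ∧ finrank F U = 2 * j := by
  intro j
  induction j with
  | zero =>
    intro W _ _ _
    exact ⟨⊥, bot_le, fun x hx => by rw [(Submodule.mem_bot F).mp hx, map_zero]; exact Submodule.zero_mem _,
      fun u hu _ => (Submodule.mem_bot F).mp hu, by rw [finrank_bot, Nat.mul_zero]⟩
  | succ j ih =>
    intro W hj hW hWnd
    have hne : W ≠ ⊥ := by
      rintro rfl
      rw [finrank_bot] at hj
      omega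
    obtain ⟨v, hv, hQv⟩ := exists_Q_in hWnd hne
    obtain ⟨h3, h4, h5, h6⟩ := neg_plane h2 hT hTT hQv
    set P := Submodule.span F {v, T v} with hP
    have hPW : P ≤ W := by
      rw [hP, Submodule.span_le]
      rintro x (rfl | rfl)
      · exact hv
      · exact hW v hv
    obtain ⟨k1, k2, k3, k4⟩ := Sesq.split_nd (B := Bq Q) refl_bq hWnd h4 hPW
    have k3' : finrank F P + finrank F ↥(W ⊓ pp Q P) = finrank F W := k3
    have hinv : Inv T (W ⊓ pp Q P) := Sesq.inv_inf hW ((iso_bq hT).inv_perp (nd_top hQ) h3)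
    obtain ⟨U, g1, g2, g3, g4⟩ := ih (W ⊓ pp Q P) (by omega) hinv k4
    refine ⟨P ⊔ U, sup_le hPW (g1.trans inf_le_left), Sesq.inv_sup h3 g2, ?_, ?_⟩
    · exact Sesq.nd_sup refl_bq h4 g3 (fun u hu v hv => (g1 hv).2 u hu)
    · have h7 := Submodule.finrank_sup_add_finrank_inf_eq P U
      rw [disjoint_iff.mp (k2.mono_right g1), finrank_bot] at h7
      omega

/-- spinor norm of elements with square `-1` -/
theorem neg_spin (h2 : (2 : F) ≠ 0) (hQ : Nd Q) (hgen : GenHyp Q) : ∀ (k : ℕ) (g : V ≃ₗ[F] V) (_ : g ∈ O Q) (W : Submodule F V),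
    NDq Q W → finrank F W = 2 * k → (∀ x ∈ W, g x ∈ W) → (∀ x ∈ W, g (g x) = -x) → (∀ x ∈ pp Q W, g x = x) →
      (IsSquare (wd Q g) ↔ (Even k ∨ IsSquare (2 : F))) := by
  have hR := hQ.R_eq_O hgen
  intro k
  induction k with
  | zero =>
    intro g hg W hWnd hk hinv hneg hfix
    have h1 : g = 1 := by
      have hW : W = ⊥ := Submodule.finrank_eq_zero.1 (by omega)
      ext x
      apply hfix
      intro w hw
      rw [hW, Submodule.mem_bot] at hw
      rw [hw]; simp
    rw [h1, wd_one]
    exact ⟨fun _ => Or.inl (by simp), fun _ => ⟨1, by ring⟩⟩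
  | succ k ih =>
    intro g hg W hWnd hk hinv hneg hfix
    have hne : W ≠ ⊥ := by
      rintro rfl
      rw [finrank_bot] at hk
      omega
    obtain ⟨v, hv, hQv⟩ := exists_Q_in hWnd hne
    have hgv := hinv v hv
    have hpol : polar Q v (g v) = 0 := by
      have h1 : polar Q (g v) (g (g v)) = polar Q v (g v) := O_polar hg _ _
      rw [hneg v hv, polar_neg_right, polar_comm Q (g v) v] at h1
      have h3 : 2 * polar Q v (g v) = 0 := by linear_combination -h1
      exact (mul_eq_zero.1 h3).resolve_left h2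
    have hQg : Q (g v) = Q v := hg v
    have hsub : Q (v - g v) = 2 * Q v := by rw [Q_sub, hpol, hQg]; ring
    have hsub0 : Q (v - g v) ≠ 0 := by rw [hsub]; exact mul_ne_zero h2 hQv
    set ρ : V ≃ₗ[F] V := refl Q (v - g v) * refl Q v with hρ
    have hρR : ρ ∈ R Q := (R Q).mul_mem (refl_mem_R _) (refl_mem_R _)
    have hρv : ρ v = - g v := by
      show refl Q (v - g v) (refl Q v v) = _
      rw [refl_self hQv, map_neg, refl_sub hQg.symm hsub0]
    have hρgv : ρ (g v) = v := by
      show refl Q (v - g v) (refl Q v (g v)) = _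
      rw [refl_of_perp hpol, refl_sub' hQg.symm hsub0]
    have hρx : ∀ x, polar Q v x = 0 → polar Q (g v) x = 0 → ρ x = x := by
      intro x h1 h3
      show refl Q (v - g v) (refl Q v x) = x
      rw [refl_of_perp h1, refl_of_perp (by rw [polar_sub_left, h1, h3, sub_zero])]
    -- the plane
    set P := Submodule.span F {v, g v} with hP
    have hvP : v ∈ P := Submodule.subset_span (by simp)
    have hgP : g v ∈ P := Submodule.subset_span (by simp)
    have hPW : P ≤ W := by
      rw [hP, Submodule.span_le]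
      rintro x (rfl | rfl)
      · exact hv
      · exact hgv
    have hmem : ∀ x ∈ P, ∃ a b : F, x = a • v + b • g v := by
      intro x hx
      obtain ⟨a, b, h⟩ := Submodule.mem_span_pair.1 hx
      exact ⟨a, b, h.symm⟩
    have hpol' : polar Q (g v) v = 0 := by rw [polar_comm]; exact hpol
    have hPnd : NDq Q P := by
      intro x hx h
      obtain ⟨a, b, rfl⟩ := hmem x hx
      have h3 : polar Q (a • v + b • g v) v = 0 := h v hvP
      have h4 : polar Q (a • v + b • g v) (g v) = 0 := h (g v) hgP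
      simp only [polar_add_left, polar_smul_left, polar_self', hpol, hpol', hQg, smul_eq_mul, mul_zero, add_zero, zero_add] at h3 h4
      rw [(mul_eq_zero.1 h3).resolve_right (mul_ne_zero h2 hQv), (mul_eq_zero.1 h4).resolve_right (mul_ne_zero h2 hQv), zero_smul, zero_smul,
        add_zero]
    have hPf : finrank F P = 2 := by
      have hli : LinearIndependent F ![v, g v] := by
        rw [LinearIndependent.pair_iff]
        intro a b hab
        have h3 := congrArg (fun x => polar Q v x) hab
        have h4 := congrArg (fun x => polar Q (g v) x) hab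
        have h0 : ∀ y, polar Q y 0 = 0 := fun y => by simp [polar]
        simp only [polar_add_right, polar_smul_right, polar_self', hpol, hpol', hQg, h0, smul_eq_mul, mul_zero, add_zero, zero_add] at h3 h4
        exact ⟨(mul_eq_zero.1 h3).resolve_right (mul_ne_zero h2 hQv), (mul_eq_zero.1 h4).resolve_right (mul_ne_zero h2 hQv)⟩
      have h3 : ({v, g v} : Set V) = Set.range ![v, g v] := by
        ext x
        simp only [Set.mem_insert_iff, Set.mem_singleton_iff, Set.mem_range, Fin.exists_fin_two, Matrix.cons_val_zero, Matrix.cons_val_one]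
        exact ⟨fun h => h.imp Eq.symm Eq.symm, fun h => h.imp Eq.symm Eq.symm⟩
      rw [hP, h3, finrank_span_eq_card hli, Fintype.card_fin]
    obtain ⟨k1, k2, k3, k4⟩ := Sesq.split_nd (B := Bq Q) refl_bq hWnd hPnd hPW
    have k3' : finrank F P + finrank F ↥(W ⊓ pp Q P) = finrank F W := k3
    have hperp : ∀ x ∈ pp Q P, polar Q v x = 0 ∧ polar Q (g v) x = 0 := fun x hx => ⟨hx v hvP, hx (g v) hgP⟩
    have hginvP : ∀ x ∈ P, g x ∈ P := by
      intro x hx
      obtain ⟨a, b, rfl⟩ := hmem x hx
      rw [map_add, map_smul, map_smul, hneg v hv]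
      exact P.add_mem (P.smul_mem a hgP) (P.smul_mem b (P.neg_mem hvP))
    have hginv' : ∀ x ∈ W ⊓ pp Q P, g x ∈ W ⊓ pp Q P := by
      rintro x ⟨hx1, hx2⟩
      refine ⟨hinv x hx1, ?_⟩
      obtain ⟨e1, e2⟩ := hperp x hx2
      intro y hy
      obtain ⟨a, b, rfl⟩ := hmem y hy
      show polar Q (a • v + b • g v) (g x) = 0
      have e3 : polar Q (g v) (g x) = 0 := by rw [O_polar hg]; exact e1
      have e4 : polar Q v (g x) = 0 := by
        have : v = g (-(g v)) := by rw [map_neg, hneg v hv, neg_neg]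
        rw [this, O_polar hg, polar_neg_left, e2, neg_zero]
      rw [polar_add_left, polar_smul_left, polar_smul_left, e3, e4, smul_zero, smul_zero, add_zero]
    have hgR : g ∈ R Q := by rw [hR]; exact hg
    -- `ρ g`
    have hsame : ∀ x ∈ W ⊓ pp Q P, (ρ * g) x = g x := by
      intro x hx
      show ρ (g x) = g x
      obtain ⟨e1, e2⟩ := hperp _ (hginv' x hx).2
      exact hρx _ e1 e2
    have h5 := ih (ρ * g) ((O Q).mul_mem (R_le hρR) hg) (W ⊓ pp Q P) k4 (by omega) (fun x hx => by
      rw [hsame x hx]; exact hginv' x hx) (fun x hx => by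
      rw [hsame x hx, hsame _ (hginv' x hx)]
      exact hneg x hx.1) (by
      -- trivial on the complement
      intro x hx
      have hdec : x ∈ P ⊔ pp Q P := by
        rw [(Sesq.isCompl_perp (B := Bq Q) refl_bq hPnd).sup_eq_top]; trivial
      obtain ⟨y, hy, z, hz, rfl⟩ := Submodule.mem_sup.1 hdec
      -- z is orthogonal to `W ⊓ pp Q P` and to P, hence to W
      have hzW : z ∈ pp Q W := by
        intro w hw
        rw [← k1] at hw
        obtain ⟨a, ha, b, hb, rfl⟩ := Submodule.mem_sup.1 hw
        show polar Q (a + b) z = 0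
        have e1 : polar Q a z = 0 := hz a ha
        have e2 : polar Q b (y + z) = 0 := hx b hb
        have e3 : polar Q b y = 0 := by rw [polar_comm]; exact hb.2 y hy
        rw [polar_add_right, e3, zero_add] at e2
        rw [polar_add_left, e1, e2, add_zero]
      have hgz : g z = z := hfix z hzW
      rw [map_add]
      have hz' : (ρ * g) z = z := by
        show ρ (g z) = z
        rw [hgz]
        obtain ⟨e1, e2⟩ := hperp z hz
        exact hρx _ e1 e2
      have hy' : (ρ * g) y = y := by
        obtain ⟨a, b, rfl⟩ := hmem y hy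
        show ρ (g (a • v + b • g v)) = _
        rw [map_add, map_smul, map_smul, hneg v hv, map_add, map_smul, map_smul, map_neg, hρgv, hρv, neg_neg]
      rw [hy', hz'])
    have h6 := wd_mul_isSquare_iff hQ hρR hgR
    have h7 : IsSquare (wd Q ρ) ↔ IsSquare (2 : F) := by
      have h8 := wd_list_isSquare_iff hQ [v - g v, v] (by
        intro x hx
        simp only [List.mem_cons, List.not_mem_nil, or_false] at hx
        rcases hx with rfl | rfl
        · exact hsub0
        · exact hQv)
      have e1 : (([v - g v, v] : List V).map (refl Q)).prod = ρ := by simp [hρ]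
      have e2 : (([v - g v, v] : List V).map Q).prod = 2 * (Q v * Q v) := by
        simp only [List.map_cons, List.map_nil, List.prod_cons, List.prod_nil, mul_one]
        rw [hsub]; ring
      rw [e1, e2] at h8
      rw [h8, isSquare_mul_iff h2 (mul_ne_zero hQv hQv)]
      exact ⟨fun h => h.2 ⟨Q v, rfl⟩, fun h => ⟨fun _ => ⟨Q v, rfl⟩, fun _ => h⟩⟩
    rw [h5, h7] at h6
    rw [Nat.even_add_one]
    by_cases hs : IsSquare (2 : F)
    · simp only [hs, or_true, true_iff, iff_true] at h6 ⊢
      exact h6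
    · simp only [hs, or_false, false_iff] at h6 ⊢
      tauto

end neg

section exist
variable {F : Type u} [Field F] [Finite F]

theorem exists_neg_std (h2 : (2 : F) ≠ 0) : ∀ k : ℕ, ∃ (X : Type u) (_ : AddCommGroup X) (_ : Module F X) (_ : FiniteDimensional F X)
    (QX : QuadraticForm F X) (T : Module.End F X), Nd QX ∧ finrank F X = 2 * k ∧ (∀ v, QX (T v) = QX v) ∧ ∀ v, T (T v) = -v := by
  intro k
  induction k with
  | zero =>
    have hd0 : finrank F PUnit.{u+1} = 0 := by
      have : Subsingleton PUnit.{u+1} := inferInstance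
      exact Module.finrank_zero_of_subsingleton
    exact ⟨PUnit.{u+1}, inferInstance, inferInstance, inferInstance, 0, 1, nd_of fun x _ => rfl, by rw [hd0], fun v => rfl, fun v => rfl⟩
  | succ k ih =>
    obtain ⟨X, i1, i2, i3, QX, T, h1, h3, h4, h5⟩ := ih
    have hnd : Nd (pl (0 : F) 1) := by
      apply nd_of
      intro x hx
      have e1 := hx (1, 0)
      have e2 := hx (0, 1)
      rw [polar_pl'] at e1 e2
      simp only at e1 e2
      exact Prod.ext ((mul_eq_zero.1 (by linear_combination e1 : (2 : F) * x.1 = 0)).resolve_left h2)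
        ((mul_eq_zero.1 (by linear_combination e2 : (2 : F) * x.2 = 0)).resolve_left h2)
    let τ : Module.End F (F × F) :=
      { toFun := fun v => (-v.2, v.1)
        map_add' := fun x y => Prod.ext (by show -(x.2 + y.2) = -x.2 + -y.2; ring) rfl
        map_smul' := fun c x => Prod.ext (by show -(c * x.2) = c * -x.2; ring) rfl }
    refine ⟨X × (F × F), inferInstance, inferInstance, inferInstance, QX.prod (pl (0 : F) 1), T.prodMap τ, nd_prod h1 hnd, ?_, ?_, ?_⟩
    · rw [finrank_prod, h3, finrank_prod, finrank_self]; ring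
    · intro v
      rw [QuadraticMap.prod_apply, QuadraticMap.prod_apply]
      show QX (T v.1) + pl (0 : F) 1 (-v.2.2, v.2.1) = QX v.1 + pl (0 : F) 1 v.2
      rw [h4, pl_apply, pl_apply]
      ring
    · intro v
      exact Prod.ext (h5 v.1) (Prod.ext (by show -v.2.1 = -v.2.1; rfl) (by show -v.2.2 = -v.2.2; rfl))

variable {V : Type v} [AddCommGroup V] [Module F V] [FiniteDimensional F V] {Q : QuadraticForm F V}

theorem exists_neg (h2 : (2 : F) ≠ 0) (hQ : Nd Q) {d : ℕ} (hV : finrank F V = 2 * d) (hD : D Q = chi F ^ d * (Nat.card F : ℤ) ^ d) :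
    ∃ g ∈ O Q, ∀ v, g (g v) = -v := by
  obtain ⟨X, i1, i2, i3, QX, T, h1, h3, h4, h5⟩ := exists_neg_std h2 d
  obtain ⟨k, hk1, hk2⟩ := neg_D h2 h1 h4 h5 _ ⊤ rfl (fun _ _ => trivial) (nd_top h1)
  have hkd : k = d := by rw [finrank_top] at hk1; omega
  rw [D_top, hkd] at hk2
  obtain ⟨e, he⟩ := iso_of_D d h1 h3 hQ hV (by rw [hk2, hD])
  have hj : ∀ v, (e.conj T) (e v) = e (T v) := by
    intro v
    show e (T (e.symm (e v))) = _
    rw [LinearEquiv.symm_apply_apply]
  have hiso : ∀ v, Q ((e.conj T) v) = Q v := by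
    intro v
    obtain ⟨v, rfl⟩ := e.surjective v
    rw [hj, he, he, h4]
  refine ⟨ofMap hQ (e.conj T) hiso, ofMap_mem _ _ _, fun v => ?_⟩
  obtain ⟨v, rfl⟩ := e.surjective v
  show (e.conj T) ((e.conj T) (e v)) = _
  rw [hj, hj, h5, map_neg]

variable {V₀ : Type w} [AddCommGroup V₀] [Module F V₀] [FiniteDimensional F V₀] {Q₀ : QuadraticForm F V₀}

/-- the answer for `r = 2` in odd characteristic and even dimension -/
theorem two_main (h2 : (2 : F) ≠ 0) (hQ : Nd Q) (hQ₀ : Nd Q₀) (hgen : GenHyp Q) {d : ℕ} (hd : 1 ≤ d) (hV : finrank F V = 2 * d) (hlt : finrank F V₀ < finrank F V) :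
    (∀ g ∈ Om Q, (∃ z : F, ∀ v, (g ^ 2) v = z • v) → (∀ z : F, ∃ v, g v ≠ z • v) → ∃ W, Cl Q Q₀ W ∧ Inv g.toLinearMap W) ↔
      (D Q = chi F ^ d * (Nat.card F : ℤ) ^ d → (Even d ∨ IsSquare (2 : F)) →
        ∃ j, finrank F V₀ = 2 * j ∧ D Q₀ = chi F ^ j * (Nat.card F : ℤ) ^ j) := by
  have hspin : ∀ g ∈ O Q, (∀ v, g (g v) = -v) → (g ∈ Om Q ↔ (Even d ∨ IsSquare (2 : F))) := by
    intro g hg hgg
    have h1 := neg_spin h2 hQ hgen d g hg ⊤ (nd_top hQ) (by rw [finrank_top, hV]) (fun _ _ => trivial) (fun x _ => hgg x) (by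
      intro x hx
      have : x = 0 := hQ.eq_zero (fun y => by rw [polar_comm]; exact hx y trivial)
      rw [this, map_zero])
    have hfix : fixS g = ⊥ := by
      rw [eq_bot_iff]
      intro x hx
      rw [mem_fixS] at hx
      have h3 := hgg x
      rw [hx, hx] at h3
      have h4 : (2 : F) • x = 0 := by
        rw [two_smul]
        nth_rewrite 1 [h3]
        exact neg_add_cancel x
      exact (Submodule.mem_bot F).2 ((smul_eq_zero.1 h4).resolve_left h2)
    have hmov := finrank_mov_add_fixS g
    rw [hfix, finrank_bot, add_zero, hV] at hmov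
    rw [← h1]
    have h5 := mem_Om_iff_homs hQ hgen ⟨g, hg⟩
    have h6 : (g ∈ Om Q) ↔ (Even (finrank F (mov g)) ∧ IsSquare (wd Q g)) := by
      rw [show (g ∈ Om Q) ↔ _ from h5]
      exact and_congr sgn_eq_one_iff sgn_eq_one_iff
    rw [h6, hmov]
    exact ⟨fun h => h.2, fun h => ⟨even_two_mul _, h⟩⟩
  constructor
  · intro H hD hs
    obtain ⟨g, hg, hgg⟩ := exists_neg h2 hQ hV hD
    obtain ⟨W, hcl, hW⟩ := H g ((hspin g hg hgg).2 hs) ⟨-1, fun v => by
      rw [pow_two]
      show g (g v) = _
      rw [hgg, neg_smul, one_smul]⟩ (by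
      intro z
      by_contra hcon
      push Not at hcon
      have h3 := scal_sq hQ (by omega) hg hcon
      obtain ⟨v, hv⟩ := hQ.exists_Q_ne_zero (by omega : 0 < finrank F V)
      have h4 := hgg v
      rw [hcon v, map_smul, hcon v, smul_smul, h3, one_smul] at h4
      have h5 : (2 : F) • v = 0 := by
        rw [two_smul]
        nth_rewrite 1 [h4]
        exact neg_add_cancel v
      have h6 := (smul_eq_zero.1 h5).resolve_left h2
      rw [h6, QuadraticMap.map_zero] at hv
      exact hv rfl)
    obtain ⟨j, hj1, hj2⟩ := neg_D h2 hQ (T := g.toLinearMap) hg hgg _ W rfl hW (hcl.nd hQ₀)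
    exact ⟨j, by rw [← hcl.finrank hQ₀, hj1], by rw [← hcl.D hQ₀, hj2]⟩
  · intro H g hg ⟨z, hz⟩ hnz
    have hgO := Om_le hg
    rcases pm_scal hQ (by omega) hgO hz with rfl | rfl
    · have hg2 : g ^ 2 = 1 := by
        ext v
        rw [hz, one_smul]; rfl
      have hpar := ((mem_Om_iff_homs hQ hgen ⟨g, hgO⟩).1 hg).1
      have hev : Even (finrank F (mov g)) := sgn_eq_one_iff.1 hpar
      have hgg : ∀ v, g (g v) = v := by
        intro v
        have := LinearEquiv.congr_fun hg2 v
        rw [pow_two] at this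
        exact this
      refine inv_fix h2 hQ hQ₀ hgO hg2 hev ?_ ?_ hlt
      · rintro rfl
        obtain ⟨v, hv⟩ := hnz 1
        exact hv (by rw [one_smul]; rfl)
      · by_contra hcon
        have h3 : fixS g = ⊥ := Submodule.finrank_eq_zero.1 (by omega)
        obtain ⟨v, hv⟩ := hnz (-1)
        apply hv
        have h4 : g v + v ∈ fixS g := by
          rw [mem_fixS, map_add, hgg, add_comm]
        rw [h3, Submodule.mem_bot] at h4
        rw [neg_smul, one_smul]
        exact eq_neg_of_add_eq_zero_left h4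
    · have hgg : ∀ v, g (g v) = -v := by
        intro v
        have := hz v
        rw [pow_two, neg_smul, one_smul] at this
        exact this
      obtain ⟨k, hk1, hk2⟩ := neg_D h2 hQ (T := g.toLinearMap) hgO hgg _ ⊤ rfl (fun _ _ => trivial) (nd_top hQ)
      have hkd : k = d := by rw [finrank_top] at hk1; omega
      rw [D_top, hkd] at hk2
      obtain ⟨j, hj1, hj2⟩ := H hk2 ((hspin g hgO hgg).1 hg)
      obtain ⟨U, -, g2, g3, g4⟩ := neg_sub h2 hQ (T := g.toLinearMap) hgO hgg j ⊤ (by rw [finrank_top]; omega) (fun _ _ => trivial) (nd_top hQ)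
      refine ⟨U, (cl_iff_D hQ₀ hj1).2 ⟨g4, g3, ?_⟩, g2⟩
      obtain ⟨k', hk1', hk2'⟩ := neg_D h2 hQ (T := g.toLinearMap) hgO hgg _ U rfl g2 g3
      have : k' = j := by omega
      rw [hk2', this, hj2]

end exist

end Cfsg.Agent.Lib.OrthR67
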