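import Mathlib
import Cfsg.Agent.Lib.OrthTwo67

/-!
(helper67) Unipotent isometries and invariant nondegenerate subspaces.
-/

set_option autoImplicit false
set_option linter.unusedSectionVars false

namespace Cfsg.Agent.Lib.OrthR67

open QuadraticMap Module Cfsg.Agent.Lib.Quad Cfsg.Agent.Lib.QuadD67 Cfsg.Agent.Lib.QuadEmb67
open Cfsg.Agent.Lib.InvSub Cfsg.Agent.Lib.PrimeOrd Cfsg.Agent.Lib.OReal67

universe u v w

section S
variable {F : Type u} [Field F] {V : Type v} [AddCommGroup V] [Module F V]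

/-- `im N ∩ ker N`, restricted to `W` -/
def SW (T : Module.End F V) (W : Submodule F V) : Submodule F V := W.map (T - 1) ⊓ LinearMap.ker (T - 1)

variable {Q : QuadraticForm F V} {T : Module.End F V} {W : Submodule F V}

theorem sub_app (T : Module.End F V) (x : V) : (T - 1) x = T x - x := rfl

theorem mem_SW {x : V} : x ∈ SW T W ↔ (∃ w ∈ W, T w - w = x) ∧ T x = x := by
  constructor
  · rintro ⟨⟨w, hw, h1⟩, h2⟩
    refine ⟨⟨w, hw, h1⟩, ?_⟩
    exact sub_eq_zero.1 h2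
  · rintro ⟨⟨w, hw, h1⟩, h2⟩
    exact ⟨⟨w, hw, h1⟩, sub_eq_zero.2 h2⟩

theorem SW_le (hW : Inv T W) : SW T W ≤ W := by
  intro x hx
  obtain ⟨⟨w, hw, rfl⟩, -⟩ := mem_SW.1 hx
  exact W.sub_mem (hW w hw) hw

theorem SW_le_top : SW T W ≤ SW T ⊤ := by
  intro x hx
  obtain ⟨⟨w, hw, h1⟩, h2⟩ := mem_SW.1 hx
  exact mem_SW.2 ⟨⟨w, trivial, h1⟩, h2⟩

theorem range_ker (hT : ∀ v, Q (T v) = Q v) {x y : V} (hx : ∃ w, T w - w = x) (hy : T y = y) : polar Q x y = 0 := by
  obtain ⟨w, rfl⟩ := hx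
  have h1 : polar Q (T w) (T y) = polar Q w y := polar_map T hT w y
  rw [hy] at h1
  rw [polar_sub_left, h1, sub_self]

theorem SW_ti (hT : ∀ v, Q (T v) = Q v) {x y : V} (hx : x ∈ SW T W) (hy : y ∈ SW T W) : polar Q x y = 0 := by
  obtain ⟨⟨w, hw, h1⟩, h2⟩ := mem_SW.1 hx
  exact range_ker hT ⟨w, h1⟩ (mem_SW.1 hy).2

variable [Finite F] [FiniteDimensional F V]

theorem ti_half (hW : NDq Q W) {S : Submodule F V} (hS : S ≤ W) (h : ∀ x ∈ S, ∀ y ∈ S, polar Q x y = 0) : 2 * finrank F S ≤ finrank F W := by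
  have hnd := nd_res hW
  have h1 := hnd.finrank_add_finrank_perp (S.comap W.subtype)
  have h2 : S.comap W.subtype ≤ perp (res Q W) (S.comap W.subtype) := by
    intro x hx
    rw [mem_perp]
    intro y hy
    exact h _ hy _ hx
  have h3 := Submodule.finrank_mono h2
  have h4 : finrank F (S.comap W.subtype) = finrank F S := by
    have h5 : (S.comap W.subtype).map W.subtype = S := by
      rw [Submodule.map_comap_subtype, inf_eq_right]; exact hS
    rw [← Submodule.finrank_map_subtype_eq W (S.comap W.subtype), h5]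
  omega

theorem SW_half (hT : ∀ v, Q (T v) = Q v) (hW : Inv T W) (hWnd : NDq Q W) : 2 * finrank F (SW T W) ≤ finrank F W :=
  ti_half hWnd (SW_le hW) (fun _ hx _ hy => SW_ti hT hx hy)

theorem SW_split (hT : ∀ v, Q (T v) = Q v) (hQ : Nd Q) (hW : Inv T W) (hWnd : NDq Q W) :
    finrank F (SW T W) + finrank F (SW T (pp Q W)) = finrank F (SW T ⊤) := by
  obtain ⟨g1, g2, g3⟩ := perp_data hQ hWnd
  have hW' : Inv T (pp Q W) := (iso_bq hT).inv_perp (nd_top hQ) hW
  have hd : SW T W ⊓ SW T (pp Q W) = ⊥ := by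
    rw [eq_bot_iff, ← g2.inf_eq_bot]
    exact inf_le_inf (SW_le hW) (SW_le hW')
  have hs : SW T W ⊔ SW T (pp Q W) = SW T ⊤ := by
    apply le_antisymm (sup_le SW_le_top SW_le_top)
    intro x hx
    obtain ⟨⟨v, -, h1⟩, h2⟩ := mem_SW.1 hx
    have hv : v ∈ W ⊔ pp Q W := by rw [g2.sup_eq_top]; trivial
    obtain ⟨a, ha, b, hb, rfl⟩ := Submodule.mem_sup.1 hv
    have h3 : x = (T a - a) + (T b - b) := by rw [← h1, map_add]; abel
    have ha' : T a - a ∈ W := W.sub_mem (hW a ha) ha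
    have hb' : T b - b ∈ pp Q W := (pp Q W).sub_mem (hW' b hb) hb
    have h4 : T (T a - a) - (T a - a) = -(T (T b - b) - (T b - b)) := by
      have h5 : T x - x = 0 := sub_eq_zero.2 h2
      rw [h3, map_add] at h5
      rw [eq_neg_iff_add_eq_zero, ← h5]; abel
    have h5 : T (T a - a) - (T a - a) ∈ W := W.sub_mem (hW _ ha') ha'
    have h6 : T (T a - a) - (T a - a) ∈ pp Q W := by
      rw [h4]
      exact (pp Q W).neg_mem ((pp Q W).sub_mem (hW' _ hb') hb')
    have h7 := Submodule.disjoint_def.1 g2.disjoint _ h5 h6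
    have h8 : T (T b - b) - (T b - b) = 0 := by rw [h7] at h4; exact neg_eq_zero.1 h4.symm
    rw [h3]
    exact Submodule.add_mem_sup (mem_SW.2 ⟨⟨a, ha, rfl⟩, sub_eq_zero.1 h7⟩) (mem_SW.2 ⟨⟨b, hb, rfl⟩, sub_eq_zero.1 h8⟩)
  have h9 := Submodule.finrank_sup_add_finrank_inf_eq (SW T W) (SW T (pp Q W))
  rw [hd, hs, finrank_bot] at h9
  omega

theorem D_of_SW {M : ℕ} (hts : ∀ x ∈ SW T ⊤, Q x = 0) (hW : Inv T W) (hWnd : NDq Q W) (hdim : finrank F W = 2 * M)
    (hS : finrank F (SW T W) = M) : D (res Q W) = (Nat.card F : ℤ) ^ M := by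
  have h1 : (SW T W).comap W.subtype = (SW T W).comap W.subtype := rfl
  have h4 : finrank F ((SW T W).comap W.subtype) = finrank F (SW T W) := by
    have h5 : ((SW T W).comap W.subtype).map W.subtype = SW T W := by
      rw [Submodule.map_comap_subtype, inf_eq_right]; exact SW_le hW
    rw [← Submodule.finrank_map_subtype_eq W ((SW T W).comap W.subtype), h5]
  rw [D_of_ts (nd_res hWnd) (W := (SW T W).comap W.subtype) (fun w hw => hts _ (SW_le_top hw)) (by rw [h4, hS, hdim]), h4, hS]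

/-- in a space of plus type with large `im N ∩ ker N` all invariant nondegenerate subspaces of even dimension have plus type -/
theorem uni_plus (hQ : Nd Q) {d : ℕ} (hV : finrank F V = 2 * d) (hD : D Q = (Nat.card F : ℤ) ^ d) (hT : ∀ v, Q (T v) = Q v)
    (hts : ∀ x ∈ SW T ⊤, Q x = 0) (hS : d ≤ finrank F (SW T ⊤) + 1) (hW : Inv T W) (hWnd : NDq Q W) {M : ℕ}
    (hM : finrank F W = 2 * M) : D (res Q W) = (Nat.card F : ℤ) ^ M := by
  obtain ⟨g1, g2, g3⟩ := perp_data hQ hWnd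
  have hW' : Inv T (pp Q W) := (iso_bq hT).inv_perp (nd_top hQ) hW
  have h1 := SW_split hT hQ hW hWnd
  have h2 := SW_half hT hW hWnd
  have h3 := SW_half hT hW' g1
  have h4 : finrank F (pp Q W) = 2 * (d - M) := by omega
  rcases Nat.lt_or_ge (finrank F (SW T W)) M with h5 | h5
  · have h6 : finrank F (SW T (pp Q W)) = d - M := by omega
    have h7 := D_of_SW hts hW' g1 h4 h6
    have h8 := D_perp hQ hWnd ⟨M, by omega⟩ ⟨d, by omega⟩
    rw [hD, h7] at h8
    have h9 : d = M + (d - M) := by omega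
    have hq : (Nat.card F : ℤ) ^ (d - M) ≠ 0 := by
      apply pow_ne_zero
      exact_mod_cast Nat.card_pos.ne'
    apply mul_right_cancel₀ hq
    rw [← h8, ← pow_add, ← h9]
  · exact D_of_SW hts hW hWnd hM (by omega)

/-- in odd dimension with maximal `im N ∩ ker N` -/
theorem uni_odd (hQ : Nd Q) {d : ℕ} (hV : finrank F V = 2 * d + 1) (hT : ∀ v, Q (T v) = Q v)
    (hts : ∀ x ∈ SW T ⊤, Q x = 0) (hS : d ≤ finrank F (SW T ⊤)) (hW : Inv T W) (hWnd : NDq Q W) {M : ℕ}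
    (hM : finrank F W = 2 * M) : D (res Q W) = (Nat.card F : ℤ) ^ M := by
  obtain ⟨g1, g2, g3⟩ := perp_data hQ hWnd
  have hW' : Inv T (pp Q W) := (iso_bq hT).inv_perp (nd_top hQ) hW
  have h1 := SW_split hT hQ hW hWnd
  have h2 := SW_half hT hW hWnd
  have h3 := SW_half hT hW' g1
  exact D_of_SW hts hW hWnd hM (by omega)

end S

section UP
variable {F : Type u} [Field F] {V : Type v} [AddCommGroup V] [Module F V] {V' : Type w} [AddCommGroup V'] [Module F V']

/-- isometries with `T ^ p = 1` and `im N ∩ ker N` totally singular of dimension `s` -/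
structure UP (p : ℕ) (Q : QuadraticForm F V) (s : ℕ) (T : Module.End F V) : Prop where
  iso : ∀ v, Q (T v) = Q v
  pow : T ^ p = 1
  ts : ∀ x ∈ SW T ⊤, Q x = 0
  fr : finrank F (SW T ⊤) = s

variable {Q : QuadraticForm F V} {Q' : QuadraticForm F V'} {p s s' : ℕ} {T : Module.End F V} {T' : Module.End F V'}

theorem UP.congr (h : UP p Q s T) (e : V ≃ₗ[F] V') (he : ∀ v, Q' (e v) = Q v) : UP p Q' s (e.conj T) := by
  have h1 : ∀ v, (e.conj T) (e v) = e (T v) := by
    intro v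
    show e (T (e.symm (e v))) = _
    rw [LinearEquiv.symm_apply_apply]
  have hk : ∀ (k : ℕ) (v : V), ((e.conj T) ^ k) (e v) = e ((T ^ k) v) := by
    intro k
    induction k with
    | zero => intro v; rfl
    | succ k ih => intro v; rw [pow_succ, pow_succ, Module.End.mul_apply, h1, ih]; rfl
  have hS : SW (e.conj T) ⊤ = (SW T ⊤).map e.toLinearMap := by
    ext x
    constructor
    · intro hx
      obtain ⟨⟨w, -, h2⟩, h3⟩ := mem_SW.1 hx
      obtain ⟨w, rfl⟩ := e.surjective w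
      obtain ⟨x, rfl⟩ := e.surjective x
      rw [h1, ← map_sub] at h2
      rw [h1] at h3
      exact ⟨x, mem_SW.2 ⟨⟨w, trivial, e.injective h2⟩, e.injective h3⟩, rfl⟩
    · rintro ⟨x, hx, rfl⟩
      obtain ⟨⟨w, -, h2⟩, h3⟩ := mem_SW.1 hx
      refine mem_SW.2 ⟨⟨e w, trivial, ?_⟩, ?_⟩
      · rw [h1, ← map_sub, h2]; rfl
      · show (e.conj T) (e x) = e x
        rw [h1, h3]
  refine ⟨?_, ?_, ?_, ?_⟩
  · intro v
    obtain ⟨v, rfl⟩ := e.surjective v
    rw [h1, he, he, h.iso]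
  · ext v
    obtain ⟨v, rfl⟩ := e.surjective v
    rw [hk, h.pow]; rfl
  · rw [hS]
    rintro _ ⟨x, hx, rfl⟩
    show Q' (e x) = 0
    rw [he, h.ts x hx]
  · rw [hS, LinearEquiv.finrank_map_eq e, h.fr]

theorem UP.prod [FiniteDimensional F V] [FiniteDimensional F V'] (h : UP p Q s T) (h' : UP p Q' s' T') : UP p (Q.prod Q') (s + s') (T.prodMap T') := by
  have hk : ∀ (k : ℕ) (v : V × V'), ((T.prodMap T') ^ k : Module.End F (V × V')) v = ((T ^ k) v.1, (T' ^ k) v.2) := by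
    intro k
    induction k with
    | zero => intro v; rfl
    | succ k ih =>
      intro v
      rw [pow_succ, Module.End.mul_apply, ih, pow_succ, pow_succ]
      rfl
  have hS : ∀ x : V × V', x ∈ SW (T.prodMap T') ⊤ ↔ x.1 ∈ SW T ⊤ ∧ x.2 ∈ SW T' ⊤ := by
    intro x
    rw [mem_SW, mem_SW, mem_SW]
    constructor
    · rintro ⟨⟨w, -, h2⟩, h3⟩
      exact ⟨⟨⟨w.1, trivial, congrArg Prod.fst h2⟩, congrArg Prod.fst h3⟩, ⟨⟨w.2, trivial, congrArg Prod.snd h2⟩, congrArg Prod.snd h3⟩⟩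
    · rintro ⟨⟨⟨w, -, h2⟩, h3⟩, ⟨⟨w', -, h2'⟩, h3'⟩⟩
      exact ⟨⟨(w, w'), trivial, Prod.ext h2 h2'⟩, Prod.ext h3 h3'⟩
  refine ⟨?_, ?_, ?_, ?_⟩
  · intro v
    rw [QuadraticMap.prod_apply, QuadraticMap.prod_apply]
    show Q (T v.1) + Q' (T' v.2) = _
    rw [h.iso, h'.iso]
  · apply LinearMap.ext
    intro v
    rw [hk, h.pow, h'.pow]; rfl
  · intro x hx
    rw [hS] at hx
    rw [QuadraticMap.prod_apply, h.ts _ hx.1, h'.ts _ hx.2, add_zero]
  · let e : (SW T ⊤ × SW T' ⊤) ≃ₗ[F] SW (T.prodMap T') ⊤ :=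
      { toFun := fun x => ⟨(x.1, x.2), (hS _).2 ⟨x.1.2, x.2.2⟩⟩
        map_add' := fun _ _ => rfl
        map_smul' := fun _ _ => rfl
        invFun := fun x => (⟨x.1.1, ((hS _).1 x.2).1⟩, ⟨x.1.2, ((hS _).1 x.2).2⟩)
        left_inv := fun _ => rfl
        right_inv := fun _ => rfl }
    rw [← LinearEquiv.finrank_eq e, finrank_prod, h.fr, h'.fr]

theorem UP.one (p : ℕ) (Q : QuadraticForm F V) : UP p Q 0 1 := by
  have hS : SW (1 : Module.End F V) ⊤ = ⊥ := by
    rw [eq_bot_iff]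
    intro x hx
    obtain ⟨⟨w, -, h2⟩, h3⟩ := mem_SW.1 hx
    rw [← h2]
    simp
  exact ⟨fun v => rfl, one_pow p, by
    rw [hS]
    intro x hx
    rw [(Submodule.mem_bot F).1 hx, QuadraticMap.map_zero], by rw [hS, finrank_bot]⟩

end UP

end Cfsg.Agent.Lib.OrthR67
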