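import Mathlib
import Cfsg.Agent.Lib.OrthUni67

/-!
(helper67) Existence of unipotent isometries with large `im N ∩ ker N`.
-/

set_option autoImplicit false
set_option linter.unusedSectionVars false

namespace Cfsg.Agent.Lib.OrthR67

open QuadraticMap Module Cfsg.Agent.Lib.Quad Cfsg.Agent.Lib.QuadD67 Cfsg.Agent.Lib.QuadEmb67
open Cfsg.Agent.Lib.InvSub Cfsg.Agent.Lib.PrimeOrd Cfsg.Agent.Lib.OReal67

universe u v w

section extra
variable {F : Type u} [Field F] {V : Type v} [AddCommGroup V] [Module F V] {V' : Type w} [AddCommGroup V'] [Module F V']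
variable {T : Module.End F V} {T' : Module.End F V'}

/-- `N ^ 2 = 0` -/
def SqZ (T : Module.End F V) : Prop := ∀ x, T (T x - x) = T x - x
/-- `ker N ≤ im N` -/
def KR (T : Module.End F V) : Prop := ∀ x, T x = x → ∃ w, T w - w = x

theorem SqZ.congr (h : SqZ T) (e : V ≃ₗ[F] V') : SqZ (e.conj T) := by
  intro x
  obtain ⟨x, rfl⟩ := e.surjective x
  have h1 : ∀ v, (e.conj T) (e v) = e (T v) := by
    intro v
    show e (T (e.symm (e v))) = _
    rw [LinearEquiv.symm_apply_apply]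
  rw [h1, ← map_sub, h1, h]

theorem KR.congr (h : KR T) (e : V ≃ₗ[F] V') : KR (e.conj T) := by
  intro x hx
  obtain ⟨x, rfl⟩ := e.surjective x
  have h1 : ∀ v, (e.conj T) (e v) = e (T v) := by
    intro v
    show e (T (e.symm (e v))) = _
    rw [LinearEquiv.symm_apply_apply]
  rw [h1] at hx
  obtain ⟨w, hw⟩ := h x (e.injective hx)
  exact ⟨e w, by rw [h1, ← map_sub, hw]⟩

theorem SqZ.prod (h : SqZ T) (h' : SqZ T') : SqZ (T.prodMap T') := fun x => Prod.ext (h x.1) (h' x.2)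

theorem KR.prod (h : KR T) (h' : KR T') : KR (T.prodMap T') := by
  intro x hx
  obtain ⟨w, hw⟩ := h x.1 (congrArg Prod.fst hx)
  obtain ⟨w', hw'⟩ := h' x.2 (congrArg Prod.snd hx)
  exact ⟨(w, w'), Prod.ext hw hw'⟩

theorem SqZ.one : SqZ (1 : Module.End F V) := fun x => rfl

end extra

section blocks
variable {F : Type u} [Field F] [Finite F] {p : ℕ} [CharP F p]

/-- the basic block on the sum of two hyperbolic planes -/
def blkT (F : Type u) [Field F] : Module.End F ((F × F) × (F × F)) where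
  toFun v := ((v.1.1 + v.2.2, v.1.2), (v.2.1 - v.1.2, v.2.2))
  map_add' x y := by
    refine Prod.ext (Prod.ext ?_ rfl) (Prod.ext ?_ rfl)
    · show (x.1.1 + y.1.1) + (x.2.2 + y.2.2) = (x.1.1 + x.2.2) + (y.1.1 + y.2.2)
      ring
    · show (x.2.1 + y.2.1) - (x.1.2 + y.1.2) = (x.2.1 - x.1.2) + (y.2.1 - y.1.2)
      ring
  map_smul' c x := by
    refine Prod.ext (Prod.ext ?_ rfl) (Prod.ext ?_ rfl)
    · show c * x.1.1 + c * x.2.2 = c * (x.1.1 + x.2.2)
      ring
    · show c * x.2.1 - c * x.1.2 = c * (x.2.1 - x.1.2)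
      ring

theorem blkT_apply (v : (F × F) × (F × F)) : blkT F v = ((v.1.1 + v.2.2, v.1.2), (v.2.1 - v.1.2, v.2.2)) := rfl

theorem blkT_sub (v : (F × F) × (F × F)) : blkT F v - v = ((v.2.2, 0), (- v.1.2, 0)) := by
  rw [blkT_apply]
  refine Prod.ext (Prod.ext ?_ ?_) (Prod.ext ?_ ?_)
  · show v.1.1 + v.2.2 - v.1.1 = v.2.2
    ring
  · show v.1.2 - v.1.2 = 0
    ring
  · show v.2.1 - v.1.2 - v.2.1 = - v.1.2
    ring
  · show v.2.2 - v.2.2 = 0
    ring

theorem blkT_pow (k : ℕ) (v : (F × F) × (F × F)) : ((blkT F) ^ k) v = ((v.1.1 + k * v.2.2, v.1.2), (v.2.1 - k * v.1.2, v.2.2)) := by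
  induction k generalizing v with
  | zero => simp
  | succ k ih =>
    rw [pow_succ, Module.End.mul_apply, ih, blkT_apply]
    push_cast
    refine Prod.ext (Prod.ext ?_ rfl) (Prod.ext ?_ rfl)
    · show v.1.1 + v.2.2 + k * v.2.2 = v.1.1 + (k + 1) * v.2.2
      ring
    · show v.2.1 - v.1.2 - k * v.1.2 = v.2.1 - (k + 1) * v.1.2
      ring

theorem blk_up : UP p ((hy F).prod (hy F)) 2 (blkT F) := by
  have hS : ∀ x : (F × F) × (F × F), x ∈ SW (blkT F) ⊤ ↔ x.1.2 = 0 ∧ x.2.2 = 0 := by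
    intro x
    rw [mem_SW]
    constructor
    · rintro ⟨⟨w, -, h⟩, -⟩
      rw [blkT_sub] at h
      rw [← h]
      exact ⟨rfl, rfl⟩
    · rintro ⟨h1, h2⟩
      refine ⟨⟨((0, - x.2.1), (0, x.1.1)), trivial, ?_⟩, ?_⟩
      · rw [blkT_sub]
        refine Prod.ext (Prod.ext rfl h1.symm) (Prod.ext ?_ h2.symm)
        show - - x.2.1 = x.2.1
        ring
      · rw [← sub_eq_zero, blkT_sub, h1, h2]
        simp
  refine ⟨?_, ?_, ?_, ?_⟩
  · intro v
    rw [QuadraticMap.prod_apply, QuadraticMap.prod_apply, hy_apply, hy_apply, hy_apply, hy_apply, blkT_apply]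
    show (v.1.1 + v.2.2) * v.1.2 + (v.2.1 - v.1.2) * v.2.2 = v.1.1 * v.1.2 + v.2.1 * v.2.2
    ring
  · apply LinearMap.ext
    intro v
    rw [blkT_pow, CharP.cast_eq_zero]
    simp
  · intro x hx
    obtain ⟨h1, h2⟩ := (hS x).1 hx
    rw [QuadraticMap.prod_apply, hy_apply, hy_apply, h1, h2]
    ring
  · let e : (F × F) ≃ₗ[F] SW (blkT F) ⊤ :=
      { toFun := fun x => ⟨((x.1, 0), (x.2, 0)), (hS _).2 ⟨rfl, rfl⟩⟩
        map_add' := fun x y => Subtype.ext (by
          show ((x.1 + y.1, (0 : F)), (x.2 + y.2, (0 : F))) = ((x.1 + y.1, 0 + 0), (x.2 + y.2, 0 + 0))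
          rw [add_zero])
        map_smul' := fun c x => Subtype.ext (by
          show ((c * x.1, (0 : F)), (c * x.2, (0 : F))) = ((c * x.1, c * 0), (c * x.2, c * 0))
          rw [mul_zero])
        invFun := fun x => (x.1.1.1, x.1.2.1)
        left_inv := fun _ => rfl
        right_inv := fun x => Subtype.ext (by
          obtain ⟨h1, h2⟩ := (hS x.1).1 x.2
          exact Prod.ext (Prod.ext rfl h1.symm) (Prod.ext rfl h2.symm)) }
    rw [← LinearEquiv.finrank_eq e, finrank_prod, finrank_self]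

theorem blk_sqz : SqZ (blkT F) := by
  intro x
  rw [← sub_eq_zero, blkT_sub, blkT_sub]
  simp

theorem blk_kr : KR (blkT F) := by
  intro x hx
  rw [← sub_eq_zero, blkT_sub] at hx
  have h1 : x.2.2 = 0 := congrArg (fun z : (F × F) × (F × F) => z.1.1) hx
  have h2 : - x.1.2 = 0 := congrArg (fun z : (F × F) × (F × F) => z.2.1) hx
  refine ⟨((0, - x.2.1), (0, x.1.1)), ?_⟩
  rw [blkT_sub]
  refine Prod.ext (Prod.ext rfl (neg_eq_zero.1 h2).symm) (Prod.ext ?_ h1.symm)
  show - - x.2.1 = x.2.1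
  ring

/-- the standard unipotent isometries with `N ^ 2 = 0` -/
theorem exists_uni : ∀ k : ℕ, ∃ (X : Type u) (_ : AddCommGroup X) (_ : Module F X) (_ : FiniteDimensional F X) (QX : QuadraticForm F X)
    (T : Module.End F X), Nd QX ∧ finrank F X = 4 * k ∧ D QX = (Nat.card F : ℤ) ^ (2 * k) ∧ UP p QX (2 * k) T ∧ SqZ T ∧ KR T := by
  intro k
  induction k with
  | zero =>
    have hd0 : finrank F PUnit.{u+1} = 0 := by
      have : Subsingleton PUnit.{u+1} := inferInstance
      exact Module.finrank_zero_of_subsingleton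
    refine ⟨PUnit.{u+1}, inferInstance, inferInstance, inferInstance, 0, 1, nd_of fun x _ => rfl, by rw [hd0], ?_, UP.one p _, SqZ.one,
      fun x _ => ⟨0, rfl⟩⟩
    rw [D_subsingleton]; simp
  | succ k ih =>
    obtain ⟨X, i1, i2, i3, QX, T, h1, h2, h3, h4, h5, h6⟩ := ih
    have hfX : Finite X := Module.finite_of_finite F
    have hnd : Nd ((hy F).prod (hy F)) := nd_prod nd_hy nd_hy
    have hfr : finrank F ((F × F) × (F × F)) = 4 := by simp
    have hD : D ((hy F).prod (hy F)) = (Nat.card F : ℤ) ^ 2 := by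
      rw [D_prod hy_bal hy_bal, hy_D]; ring
    refine ⟨X × ((F × F) × (F × F)), inferInstance, inferInstance, inferInstance, QX.prod ((hy F).prod (hy F)), T.prodMap (blkT F),
      nd_prod h1 hnd, ?_, ?_, ?_, h5.prod blk_sqz, h6.prod blk_kr⟩
    · rw [finrank_prod, h2, hfr]; ring
    · rw [D_prod (bal h1 ⟨2 * k, by omega⟩) (bal hnd ⟨2, by omega⟩), h3, hD, Nat.mul_succ, pow_add]
    · have := h4.prod (blk_up (F := F) (p := p))
      rwa [show 2 * k + 2 = 2 * (k + 1) by ring] at this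

end blocks

section three
variable {F : Type u} [Field F] [Finite F] {p : ℕ} [CharP F p]
variable {V : Type v} [AddCommGroup V] [Module F V] [FiniteDimensional F V] {Q : QuadraticForm F V}

/-- Siegel transformations -/
def sgT (Q : QuadraticForm F V) (y : V) (a : F) : Module.End F ((F × F) × V) where
  toFun v := ((v.1.1 - polar Q y v.2 - a * v.1.2, v.1.2), v.2 + v.1.2 • y)
  map_add' x x' := by
    refine Prod.ext (Prod.ext ?_ rfl) ?_
    · show (x.1.1 + x'.1.1) - polar Q y (x.2 + x'.2) - a * (x.1.2 + x'.1.2) = (x.1.1 - polar Q y x.2 - a * x.1.2) + (x'.1.1 - polar Q y x'.2 - a * x'.1.2)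
      rw [polar_add_right]; ring
    · show (x.2 + x'.2) + (x.1.2 + x'.1.2) • y = (x.2 + x.1.2 • y) + (x'.2 + x'.1.2 • y)
      rw [add_smul]; abel
  map_smul' c x := by
    refine Prod.ext (Prod.ext ?_ rfl) ?_
    · show c * x.1.1 - polar Q y (c • x.2) - a * (c * x.1.2) = c * (x.1.1 - polar Q y x.2 - a * x.1.2)
      rw [polar_smul_right, smul_eq_mul]; ring
    · show c • x.2 + (c * x.1.2) • y = c • (x.2 + x.1.2 • y)
      rw [smul_add, smul_smul]

theorem sgT_apply (y : V) (a : F) (v : (F × F) × V) : sgT Q y a v = ((v.1.1 - polar Q y v.2 - a * v.1.2, v.1.2), v.2 + v.1.2 • y) := rfl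

theorem sgT_pow (y : V) (k : ℕ) (v : (F × F) × V) : ((sgT Q y (Q y)) ^ k) v =
    ((v.1.1 - k * polar Q y v.2 - k * k * Q y * v.1.2, v.1.2), v.2 + (k * v.1.2) • y) := by
  induction k generalizing v with
  | zero => simp
  | succ k ih =>
    rw [pow_succ, Module.End.mul_apply, ih, sgT_apply]
    push_cast
    refine Prod.ext (Prod.ext ?_ rfl) ?_
    · show v.1.1 - polar Q y v.2 - Q y * v.1.2 - k * polar Q y (v.2 + v.1.2 • y) - k * k * Q y * v.1.2 =
        v.1.1 - (k + 1) * polar Q y v.2 - (k + 1) * (k + 1) * Q y * v.1.2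
      rw [polar_add_right, polar_smul_right, polar_self', smul_eq_mul]; ring
    · show v.2 + v.1.2 • y + (k * v.1.2) • y = v.2 + ((k + 1) * v.1.2) • y
      rw [add_mul, add_smul, one_mul]; abel

theorem sg_up (h2 : (2 : F) ≠ 0) (hV : finrank F V = 1) {y : V} (hy0 : Q y ≠ 0) : UP p ((hy F).prod Q) 1 (sgT Q y (Q y)) ∧ KR (sgT Q y (Q y)) := by
  have hyne : y ≠ 0 := by
    rintro rfl
    exact hy0 (QuadraticMap.map_zero Q)
  have hline : ∀ t : V, ∃ c : F, c • y = t := (finrank_eq_one_iff_of_nonzero' y hyne).1 hV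
  have hfix : ∀ x : (F × F) × V, sgT Q y (Q y) x = x ↔ x.1.2 = 0 ∧ x.2 = 0 := by
    intro x
    constructor
    · intro h
      rw [sgT_apply] at h
      have h1 : x.2 + x.1.2 • y = x.2 := congrArg Prod.snd h
      have h3 : x.1.2 • y = 0 := by
        have := congrArg (fun t => t - x.2) h1
        simpa using this
      have h4 : x.1.2 = 0 := (smul_eq_zero.1 h3).resolve_right hyne
      have h5 : x.1.1 - polar Q y x.2 - Q y * x.1.2 = x.1.1 := congrArg (fun z : (F × F) × V => z.1.1) h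
      rw [h4, mul_zero, sub_zero] at h5
      obtain ⟨c, hc⟩ := hline x.2
      refine ⟨h4, ?_⟩
      rw [← hc, polar_smul_right, polar_self', smul_eq_mul] at h5
      have h6 : c * (2 * Q y) = 0 := by linear_combination -h5
      have h7 : c = 0 := (mul_eq_zero.1 h6).resolve_right (mul_ne_zero h2 hy0)
      rw [← hc, h7, zero_smul]
    · rintro ⟨h1, h3⟩
      rw [sgT_apply]
      refine Prod.ext (Prod.ext ?_ rfl) ?_
      · show x.1.1 - polar Q y x.2 - Q y * x.1.2 = x.1.1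
        rw [h1, h3]
        have : polar Q y 0 = 0 := by simp [polar]
        rw [this]; ring
      · show x.2 + x.1.2 • y = x.2
        rw [h1, zero_smul, add_zero]
  have hKR : ∀ x : (F × F) × V, x.1.2 = 0 → x.2 = 0 → sgT Q y (Q y) ((0, 0), (-(x.1.1 / (2 * Q y))) • y) - ((0, 0), (-(x.1.1 / (2 * Q y))) • y) = x := by
    intro x h1 h3
    rw [sgT_apply]
    refine Prod.ext (Prod.ext ?_ ?_) ?_
    · show 0 - polar Q y ((-(x.1.1 / (2 * Q y))) • y) - Q y * 0 - 0 = x.1.1
      rw [polar_smul_right, polar_self', smul_eq_mul]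
      field_simp
      ring
    · show (0 : F) - 0 = x.1.2
      rw [h1, sub_zero]
    · show (-(x.1.1 / (2 * Q y))) • y + (0 : F) • y - (-(x.1.1 / (2 * Q y))) • y = x.2
      rw [h3, zero_smul, add_zero, sub_self]
  have hS : ∀ x : (F × F) × V, x ∈ SW (sgT Q y (Q y)) ⊤ ↔ x.1.2 = 0 ∧ x.2 = 0 := by
    intro x
    rw [mem_SW, hfix]
    constructor
    · exact fun h => h.2
    · intro h
      exact ⟨⟨_, trivial, hKR x h.1 h.2⟩, h⟩
  refine ⟨⟨?_, ?_, ?_, ?_⟩, fun x hx => ⟨_, hKR x ((hfix x).1 hx).1 ((hfix x).1 hx).2⟩⟩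
  · intro v
    rw [QuadraticMap.prod_apply, QuadraticMap.prod_apply, hy_apply, hy_apply, sgT_apply]
    show (v.1.1 - polar Q y v.2 - Q y * v.1.2) * v.1.2 + Q (v.2 + v.1.2 • y) = v.1.1 * v.1.2 + Q v.2
    rw [Q_add, Q_smul, polar_smul_right, polar_comm Q v.2 y, smul_eq_mul]
    ring
  · apply LinearMap.ext
    intro v
    rw [sgT_pow, CharP.cast_eq_zero]
    simp
  · intro x hx
    obtain ⟨h1, h3⟩ := (hS x).1 hx
    rw [QuadraticMap.prod_apply, hy_apply, h1, h3, QuadraticMap.map_zero]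
    ring
  · let e : F ≃ₗ[F] SW (sgT Q y (Q y)) ⊤ :=
      { toFun := fun x => ⟨((x, 0), 0), (hS _).2 ⟨rfl, rfl⟩⟩
        map_add' := fun x x' => Subtype.ext (by
          show ((x + x', (0 : F)), (0 : V)) = ((x + x', 0 + 0), 0 + 0)
          rw [add_zero, add_zero])
        map_smul' := fun c x => Subtype.ext (by
          show ((c * x, (0 : F)), (0 : V)) = ((c * x, c * 0), c • 0)
          rw [mul_zero, smul_zero])
        invFun := fun x => x.1.1.1
        left_inv := fun _ => rfl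
        right_inv := fun x => Subtype.ext (by
          obtain ⟨h1, h3⟩ := (hS x.1).1 x.2
          exact Prod.ext (Prod.ext rfl h1.symm) h3.symm) }
    rw [← LinearEquiv.finrank_eq e, finrank_self]

/-- regular unipotent isometries of three dimensional spaces in odd characteristic -/
theorem exists_three (h2 : (2 : F) ≠ 0) (hQ : Nd Q) (hV : finrank F V = 3) : ∃ T : Module.End F V, UP p Q 1 T ∧ KR T := by
  obtain ⟨z, hz0, hz⟩ := hQ.exists_singular (by omega)
  obtain ⟨V2, e, h1, h3, h4⟩ := exists_split hQ hz0 hz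
  obtain ⟨y, hy⟩ := h1.exists_Q_ne_zero (by omega)
  obtain ⟨h5, h6⟩ := sg_up (p := p) h2 (by omega) hy
  refine ⟨_, h5.congr e.symm (fun v => ?_), h6.congr e.symm⟩
  rw [← h4, LinearEquiv.apply_symm_apply]

end three

section ex
variable {F : Type u} [Field F] [Finite F] {p : ℕ} [CharP F p]
variable {V : Type v} [AddCommGroup V] [Module F V] [FiniteDimensional F V] {Q : QuadraticForm F V}

/-- splitting off an embedded space -/
theorem exists_split_emb {X : Type w} [AddCommGroup X] [Module F X] [FiniteDimensional F X] {QX : QuadraticForm F X} (hQ : Nd Q) (hX : Nd QX)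
    (h : finrank F X < finrank F V ∨ (finrank F X = finrank F V ∧ Even (finrank F V) ∧ D QX = D Q)) :
    ∃ (U : Submodule F V) (e : (X × U) ≃ₗ[F] V), Nd (res Q U) ∧ finrank F X + finrank F U = finrank F V ∧ ∀ v, Q (e v) = (QX.prod (res Q U)) v := by
  obtain ⟨f, hf⟩ := emb hQ hX h
  obtain ⟨R, hR⟩ : ∃ R, LinearMap.range f = R := ⟨_, rfl⟩
  have hcl : Cl Q QX R := ⟨f, hf, hR⟩
  have hnd := hcl.nd hX
  have hfr := hcl.finrank hX
  obtain ⟨e, he⟩ := hcl.equiv hX
  obtain ⟨g1, g2, g3⟩ := perp_data hQ hnd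
  obtain ⟨e', he', -⟩ := compl_iso g2 (fun u hu w hw => hw u hu)
  refine ⟨pp Q R, (e.prodCongr (LinearEquiv.refl F _)).trans e', nd_res g1, by omega, fun v => ?_⟩
  show Q (e' (e v.1, v.2)) = _
  rw [he', QuadraticMap.prod_apply, QuadraticMap.prod_apply]
  show Q (e v.1) + _ = _
  rw [he]

/-- unipotent isometries with `N ^ 2 = 0` -/
theorem exists_UP_sq (hQ : Nd Q) {k : ℕ} (hk : 4 * k < finrank F V ∨ (4 * k = finrank F V ∧ D Q = (Nat.card F : ℤ) ^ (2 * k))) :
    ∃ T : Module.End F V, UP p Q (2 * k) T ∧ SqZ T := by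
  obtain ⟨X, i1, i2, i3, QX, T, h1, h2, h3, h4, h5, -⟩ := exists_uni (F := F) (p := p) k
  obtain ⟨U, e, k1, k2, k3⟩ := exists_split_emb hQ h1 (by
    rcases hk with h | ⟨h, h'⟩
    · left; omega
    · right; exact ⟨by omega, ⟨2 * k, by omega⟩, by rw [h3, h']⟩)
  exact ⟨_, (h4.prod (UP.one p (res Q U))).congr e k3, (h5.prod SqZ.one).congr e⟩

/-- the same with one block of size three -/
theorem exists_UP_three (h2 : (2 : F) ≠ 0) (hQ : Nd Q) {k : ℕ} (hk : 4 * k + 3 = finrank F V) :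
    ∃ T : Module.End F V, UP p Q (2 * k + 1) T ∧ KR T := by
  obtain ⟨X, i1, i2, i3, QX, T, h1, h3, h4, h5, h6, h7⟩ := exists_uni (F := F) (p := p) k
  obtain ⟨U, e, k1, k2, k3⟩ := exists_split_emb hQ h1 (Or.inl (by omega))
  obtain ⟨T', h8, h9⟩ := exists_three (p := p) h2 k1 (by omega)
  exact ⟨_, (h5.prod h8).congr e k3, (h7.prod h9).congr e⟩

/-- two blocks of size three -/
theorem exists_UP_six (h2 : (2 : F) ≠ 0) (hQ : Nd Q) {k : ℕ} (hk : 4 * k + 6 = finrank F V) :
    ∃ T : Module.End F V, UP p Q (2 * k + 2) T ∧ KR T := by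
  obtain ⟨Y, hY1, hY2⟩ := exists_nd_sub h2 (4 * k + 3) 3 hQ (by omega)
  obtain ⟨g1, g2, g3⟩ := perp_data hQ hY1
  obtain ⟨e', he', -⟩ := compl_iso g2 (fun u hu w hw => hw u hu)
  obtain ⟨T, h3, h4⟩ := exists_UP_three (p := p) h2 (nd_res hY1) (k := k) (by omega)
  obtain ⟨T', h5, h6⟩ := exists_three (p := p) h2 (nd_res g1) (by omega)
  exact ⟨_, (h3.prod h5).congr e' he', (h4.prod h6).congr e'⟩

end ex

end Cfsg.Agent.Lib.OrthR67
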