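import Mathlib
import Cfsg.Agent.Lib.OrthNeg67
import Cfsg.Agent.Lib.OrthUniB67
import Cfsg.Agent.Lib.QuadForms
import Cfsg.Agent.Lib.NsMain67

/-!
(helper67) The standard forms of even dimension; bad unipotent elements.
-/

set_option autoImplicit false
set_option linter.unusedSectionVars false

namespace Cfsg.Agent.Lib.OrthR67

open QuadraticMap Module Cfsg.Agent.Lib.Quad Cfsg.Agent.Lib.QuadD67 Cfsg.Agent.Lib.QuadEmb67
open Cfsg.Agent.Lib.InvSub Cfsg.Agent.Lib.PrimeOrd Cfsg.Agent.Lib.OReal67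

universe u v w

section std
variable {F : Type u} [Field F] [Finite F]

theorem D_quadPlus (d : ℕ) : D (quadPlus d F) = (Nat.card F : ℤ) ^ d := by
  have h1 : Function.Surjective (LinearMap.funLeft F F (Sum.inr : Fin d → Fin d ⊕ Fin d)) :=
    LinearMap.funLeft_surjective_of_injective F F _ Sum.inr_injective
  have h2 := LinearMap.finrank_range_add_finrank_ker (LinearMap.funLeft F F (Sum.inr : Fin d → Fin d ⊕ Fin d))
  rw [LinearMap.range_eq_top.2 h1, finrank_top, finrank_plus, Module.finrank_fin_fun] at h2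
  have h3 := D_of_ts (Q := quadPlus d F) nd_quadPlus (W := LinearMap.ker (LinearMap.funLeft F F (Sum.inr : Fin d → Fin d ⊕ Fin d))) (by
    intro w hw
    rw [LinearMap.mem_ker] at hw
    show ∑ i : Fin d, w (.inl i) * w (.inr i) = 0
    apply Finset.sum_eq_zero
    intro i _
    have : w (.inr i) = 0 := congrFun hw i
    rw [this, mul_zero]) (by rw [finrank_plus]; omega)
  rw [h3]
  congr 1
  omega

theorem nd_pl' {a b : F} (hab : ∀ x y : F, x ^ 2 + a * x * y + b * y ^ 2 = 0 → x = 0 ∧ y = 0) : Nd (pl a b) := by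
  have hd := disc_ne_zero_of_anisotropic hab
  apply nd_of
  intro x hx
  have e1 := hx (1, 0)
  have e2 := hx (0, 1)
  rw [polar_pl'] at e1 e2
  simp only at e1 e2
  exact Prod.ext ((mul_eq_zero.1 (by linear_combination a * e2 - 2 * b * e1 : (a ^ 2 - 4 * b) * x.1 = 0)).resolve_left hd)
    ((mul_eq_zero.1 (by linear_combination a * e1 - 2 * e2 : (a ^ 2 - 4 * b) * x.2 = 0)).resolve_left hd)

theorem D_quadMinus (k : ℕ) {a b : F} (hab : ∀ x y : F, x ^ 2 + a * x * y + b * y ^ 2 = 0 → x = 0 ∧ y = 0) :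
    D (quadMinus k F a b) = -(Nat.card F : ℤ) ^ (k + 1) := by
  have hd : finrank F (F × F) = 2 := by rw [finrank_prod, finrank_self]
  obtain ⟨h1, h2⟩ := plane_D (nd_pl' hab) hd (by
    intro x hx
    rw [pl_apply] at hx
    obtain ⟨h3, h4⟩ := hab x.1 x.2 (by linear_combination hx)
    exact Prod.ext h3 h4)
  let e : ((Fin k ⊕ Fin k) ⊕ Fin 2 → F) ≃ₗ[F] (Fin k ⊕ Fin k → F) × (F × F) :=
    (LinearEquiv.sumArrowLequivProdArrow (Fin k ⊕ Fin k) (Fin 2) F F).trans
      ((LinearEquiv.refl F _).prodCongr (LinearEquiv.finTwoArrow F F))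
  have he : ∀ v, ((quadPlus k F).prod (pl a b)) (e v) = quadMinus k F a b v := by
    intro v
    rw [QuadraticMap.prod_apply, pl_apply]
    show (∑ i : Fin k, v (.inl (.inl i)) * v (.inl (.inr i))) + (v (.inr 0) * v (.inr 0) + a * (v (.inr 0) * v (.inr 1)) + b * (v (.inr 1) * v (.inr 1))) =
      (∑ i : Fin k, v (.inl (.inl i)) * v (.inl (.inr i))) + (v (.inr 0) ^ 2 + a * v (.inr 0) * v (.inr 1) + b * v (.inr 1) ^ 2)
    ring
  rw [← D_congr e he, D_prod (bal nd_quadPlus ⟨k, by rw [finrank_plus]; ring⟩) h1, D_quadPlus, h2]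
  ring

theorem chi_eq [Fintype F] : chi F = if Fintype.card F % 4 = 3 then -1 else 1 := by
  unfold chi
  have h := FiniteField.isSquare_neg_one_iff (F := F)
  by_cases h3 : Fintype.card F % 4 = 3
  · rw [if_pos h3, if_neg (by rw [h]; exact fun h' => h' h3)]
  · rw [if_neg h3, if_pos (by rw [h]; exact h3)]

end std

section bad
variable {F : Type u} [Field F] [Finite F] {p : ℕ} [Fact p.Prime] [CharP F p]
variable {V : Type v} [AddCommGroup V] [Module F V] [FiniteDimensional F V] {Q : QuadraticForm F V}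

/-- unipotent isometries of even rank with `N ^ 2 = 0` lie in `Om` and are not scalar -/
theorem om_of_UP (hQ : Nd Q) (hgen : GenHyp Q) {k : ℕ} (hk : 1 ≤ k) {T : Module.End F V} (h : UP p Q (2 * k) T) (hs : SqZ T) :
    ∃ g ∈ Om Q, g.toLinearMap = T ∧ (∃ z : F, ∀ v, (g ^ p) v = z • v) ∧ ∀ z : F, ∃ v, g v ≠ z • v := by
  have hp : p.Prime := Fact.out
  refine ⟨ofMap hQ T h.iso, ?_, rfl, ⟨1, fun v => ?_⟩, ?_⟩
  · rcases hp.eq_two_or_odd' with rfl | ho
    · apply NsPt67.mem_Om_of_even hQ hgen (ofMap_mem _ _ _)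
      have h1 : mov (ofMap hQ T h.iso) = SW T ⊤ := by
        ext x
        rw [mem_SW]
        constructor
        · rintro ⟨w, hw⟩
          have hw' : T w - w = x := hw
          exact ⟨⟨w, trivial, hw'⟩, by rw [← hw', hs w]⟩
        · rintro ⟨⟨w, -, hw⟩, -⟩
          exact ⟨w, hw⟩
      rw [h1, h.fr]
      exact even_two_mul _
    · apply mem_Om_odd hQ hgen (ofMap_mem _ _ _) ho
      ext v
      rw [← toEnd_pow]
      have : (ofMap hQ T h.iso).toLinearMap = T := rfl
      rw [this, h.pow]; rfl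
  · rw [← toEnd_pow]
    have : (ofMap hQ T h.iso).toLinearMap = T := rfl
    rw [this, h.pow, one_smul]; rfl
  · intro z
    by_contra hcon
    push Not at hcon
    have hz : ∀ v, T v = z • v := hcon
    have h1 : T = 1 := by
      ext v
      have h2 := hs v
      rw [hz (T v - v), hz v] at h2
      -- (z - 1)^2 v = 0
      have h3 : ((z - 1) * (z - 1)) • v = 0 := by
        have : ((z - 1) * (z - 1)) • v = z • (z • v - v) - (z • v - v) := by
          rw [smul_sub, smul_smul, sub_mul, mul_sub, sub_smul, sub_smul, mul_one, one_mul, sub_smul, one_smul]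
        rw [this, h2, sub_self]
      rcases smul_eq_zero.1 h3 with h4 | h4
      · have h5 : z = 1 := sub_eq_zero.1 (mul_self_eq_zero.1 h4)
        rw [hz, h5, one_smul]; rfl
      · rw [h4, map_zero, map_zero]
    have h2 := (UP.one p Q).fr
    rw [← h1, h.fr] at h2
    omega

/-- in a space of plus type there is a bad element of order `p` for minus type subspaces -/
theorem bad_plus (hQ : Nd Q) (hgen : GenHyp Q) {d : ℕ} (hd : 2 ≤ d) (hV : finrank F V = 2 * d) (hD : D Q = (Nat.card F : ℤ) ^ d) :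
    ∃ g ∈ Om Q, (∃ z : F, ∀ v, (g ^ p) v = z • v) ∧ (∀ z : F, ∃ v, g v ≠ z • v) ∧
      ∀ (W : Submodule F V) (M : ℕ), Inv g.toLinearMap W → NDq Q W → finrank F W = 2 * M → D (res Q W) = (Nat.card F : ℤ) ^ M := by
  obtain ⟨k, hk1, hk2, hk3⟩ : ∃ k, 1 ≤ k ∧ 2 * k ≤ d ∧ d ≤ 2 * k + 1 := ⟨d / 2, by omega, by omega, by omega⟩
  obtain ⟨T, hT, hs⟩ := exists_UP_sq (p := p) hQ (k := k) (by
    rcases Nat.lt_or_ge (4 * k) (finrank F V) with h | h
    · exact Or.inl h
    · right
      refine ⟨by omega, ?_⟩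
      rw [hD]; congr 1; omega)
  obtain ⟨g, hg, hgT, h1, h2⟩ := om_of_UP hQ hgen hk1 hT hs
  refine ⟨g, hg, h1, h2, fun W M hW hWnd hM => ?_⟩
  rw [hgT] at hW
  exact uni_plus hQ hV hD hT.iso hT.ts (by rw [hT.fr]; omega) hW hWnd hM

end bad

end Cfsg.Agent.Lib.OrthR67
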