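import Mathlib
import Cfsg.Agent.Lib.OrthStd67

/-!
(helper67) Unipotent isometries and invariant nondegenerate subspaces of odd dimension.
-/

set_option autoImplicit false
set_option linter.unusedSectionVars false

namespace Cfsg.Agent.Lib.OrthR67

open QuadraticMap Module Cfsg.Agent.Lib.Quad Cfsg.Agent.Lib.QuadD67 Cfsg.Agent.Lib.QuadEmb67
open Cfsg.Agent.Lib.InvSub Cfsg.Agent.Lib.PrimeOrd Cfsg.Agent.Lib.OReal67

universe u v w

section par
variable {F : Type u} [Field F] {V : Type v} [AddCommGroup V] [Module F V] [FiniteDimensional F V]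
variable {Q : QuadraticForm F V} {T : Module.End F V} {W : Submodule F V} {r : ℕ}

theorem map_of_sqz (hs : SqZ T) : W.map (T - 1) = SW T W := by
  apply le_antisymm
  · rintro _ ⟨w, hw, rfl⟩
    exact mem_SW.2 ⟨⟨w, hw, rfl⟩, hs w⟩
  · exact inf_le_left

theorem finrank_map_sub (T : Module.End F V) (W : Submodule F V) :
    finrank F (W.map (T - 1)) + finrank F (W ⊓ LinearMap.ker (T - 1) : Submodule F V) = finrank F W := by
  have h1 := LinearMap.finrank_range_add_finrank_ker ((T - 1).domRestrict W)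
  rw [LinearMap.range_domRestrict] at h1
  have h2 : (LinearMap.ker ((T - 1).domRestrict W)).map W.subtype = W ⊓ LinearMap.ker (T - 1) := by
    ext x
    constructor
    · rintro ⟨y, hy, rfl⟩
      exact ⟨y.2, hy⟩
    · rintro ⟨h3, h4⟩
      exact ⟨⟨x, h3⟩, h4, rfl⟩
  rw [← h2, Submodule.finrank_map_subtype_eq]
  exact h1

variable [Finite F]

/-- isometries of odd order move a space of even dimension -/
theorem move_even (h2 : (2 : F) ≠ 0) (ho : Odd r) (hT : ∀ v, Q (T v) = Q v) (hTr : T ^ r = 1) (hW : Inv T W) (hWnd : NDq Q W) :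
    Even (finrank F (W.map (T - 1))) := by
  have hnd := nd_res hWnd
  let g : W ≃ₗ[F] W := ofMap hnd (T.restrict hW) (fun v => hT v)
  have hg : g ∈ O (res Q W) := ofMap_mem _ _ _
  have hgv : ∀ v : W, (g v : V) = T v := fun v => rfl
  have hgk : ∀ (k : ℕ) (v : W), ((g ^ k) v : V) = (T ^ k) v := by
    intro k
    induction k with
    | zero => intro v; rfl
    | succ k ih =>
      intro v
      rw [pow_succ, pow_succ]
      show ((g ^ k) (g v) : V) = (T ^ k) (T v)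
      rw [ih, hgv]
  have hgr : g ^ r = 1 := by
    ext v
    rw [hgk, hTr]; rfl
  have hR := hnd.R_eq_O (genHyp_of_two_ne_zero h2)
  have h4 : parHom hnd hR ⟨g, hg⟩ = 1 := hom_odd _ ho (Subtype.ext hgr)
  have h5 : Even (finrank F (mov g)) := sgn_eq_one_iff.1 h4
  have h6 : (mov g).map W.subtype = W.map (T - 1) := by
    ext x
    constructor
    · rintro ⟨_, ⟨w, rfl⟩, rfl⟩
      exact ⟨w, w.2, rfl⟩
    · rintro ⟨w, hw, rfl⟩
      exact ⟨g ⟨w, hw⟩ - ⟨w, hw⟩, ⟨⟨w, hw⟩, rfl⟩, rfl⟩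
  rw [← h6, Submodule.finrank_map_subtype_eq]
  exact h5

theorem inf_SW (hT : ∀ v, Q (T v) = Q v) (hQ : Nd Q) (hW : Inv T W) (hWnd : NDq Q W) : W ⊓ SW T ⊤ = SW T W := by
  apply le_antisymm
  · rintro x ⟨hxW, hx⟩
    obtain ⟨⟨v, -, h1⟩, h2⟩ := mem_SW.1 hx
    obtain ⟨g1, g2, g3⟩ := perp_data hQ hWnd
    have hW' : Inv T (pp Q W) := (iso_bq hT).inv_perp (nd_top hQ) hW
    have hv : v ∈ W ⊔ pp Q W := by rw [g2.sup_eq_top]; trivial
    obtain ⟨a, ha, b, hb, rfl⟩ := Submodule.mem_sup.1 hv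
    have h3 : x = (T a - a) + (T b - b) := by rw [← h1, map_add]; abel
    have ha' : T a - a ∈ W := W.sub_mem (hW a ha) ha
    have hb' : T b - b ∈ pp Q W := (pp Q W).sub_mem (hW' b hb) hb
    have h4 : T b - b ∈ W := by
      have : T b - b = x - (T a - a) := by rw [h3]; abel
      rw [this]
      exact W.sub_mem hxW ha'
    have h5 := Submodule.disjoint_def.1 g2.disjoint _ h4 hb'
    rw [h5, add_zero] at h3
    exact mem_SW.2 ⟨⟨a, ha, h3.symm⟩, h2⟩
  · exact le_inf (SW_le hW) SW_le_top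

theorem kr_inf (hT : ∀ v, Q (T v) = Q v) (hQ : Nd Q) (hW : Inv T W) (hWnd : NDq Q W) (hk : KR T) :
    W ⊓ LinearMap.ker (T - 1) = SW T W := by
  rw [← inf_SW hT hQ hW hWnd]
  apply le_antisymm
  · rintro x ⟨hxW, hx⟩
    have hTx : T x = x := sub_eq_zero.1 hx
    obtain ⟨v, hv⟩ := hk x hTx
    exact ⟨hxW, mem_SW.2 ⟨⟨v, trivial, hv⟩, hTx⟩⟩
  · exact le_inf inf_le_left (fun x hx => (hx.2).2)

theorem ne_one_of_UP {p s : ℕ} (h : UP p Q s T) (hs : 1 ≤ s) : T ≠ 1 := by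
  rintro rfl
  have h3 := (UP.one p Q).fr
  rw [h.fr] at h3
  omega

theorem odd_of_two {p : ℕ} [Fact p.Prime] [CharP F p] (h2 : (2 : F) ≠ 0) : Odd p := by
  have hp : p.Prime := Fact.out
  rcases hp.eq_two_or_odd' with rfl | h
  · exact absurd (by exact_mod_cast CharP.cast_eq_zero F 2) h2
  · exact h

/-- bad unipotent isometries for odd dimensional subspaces -/
theorem bad_m_odd {p : ℕ} [Fact p.Prime] [CharP F p] (h2 : (2 : F) ≠ 0) (hQ : Nd Q) {d m : ℕ} (hd : 3 ≤ d) (hV : finrank F V = 2 * d) (hm : Odd m)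
    (hcase : Odd d ∨ D Q = (Nat.card F : ℤ) ^ d) :
    ∃ T : Module.End F V, (∀ v, Q (T v) = Q v) ∧ T ^ p = 1 ∧ T ≠ 1 ∧ ∀ W, Inv T W → NDq Q W → finrank F W ≠ m := by
  have ho : Odd p := odd_of_two h2
  have key : ∀ {s : ℕ} {T : Module.End F V}, UP p Q s T → ∀ {W : Submodule F V}, Inv T W → NDq Q W → ∃ s', finrank F (SW T W) + s' = s ∧
      2 * finrank F (SW T W) ≤ finrank F W ∧ 2 * s' + finrank F W ≤ 2 * d ∧ Even (finrank F (W.map (T - 1))) := by
    intro s T hT W hW hWnd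
    obtain ⟨g1, g2, g3⟩ := perp_data hQ hWnd
    have hW' : Inv T (pp Q W) := (iso_bq hT.iso).inv_perp (nd_top hQ) hW
    have h1 := SW_split hT.iso hQ hW hWnd
    have h3 := SW_half hT.iso hW hWnd
    have h4 := SW_half hT.iso hW' g1
    refine ⟨finrank F (SW T (pp Q W)), by rw [h1, hT.fr], h3, by omega, move_even h2 ho hT.iso hT.pow hW hWnd⟩
  rcases Nat.even_or_odd d with he | hdo
  · have hD : D Q = (Nat.card F : ℤ) ^ d := by
      rcases hcase with h | h
      · exact absurd he (Nat.not_even_iff_odd.2 h)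
      · exact h
    obtain ⟨k, hk⟩ := he
    obtain ⟨T, hT, hs⟩ := exists_UP_sq (p := p) hQ (k := k) (Or.inr ⟨by omega, by rw [hD]; congr 1; omega⟩)
    refine ⟨T, hT.iso, hT.pow, ne_one_of_UP hT (by omega), fun W hW hWnd hWm => ?_⟩
    obtain ⟨s', h3, h4, h5, -⟩ := key hT hW hWnd
    obtain ⟨j, hj⟩ := hm
    omega
  · obtain ⟨k, hk⟩ := hdo
    have hm4 : m % 4 = 1 ∨ m % 4 = 3 := by
      obtain ⟨j, hj⟩ := hm
      omega
    rcases hm4 with hm4 | hm4
    · obtain ⟨T, hT, hs⟩ := exists_UP_six (p := p) h2 hQ (k := k - 1) (by omega)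
      refine ⟨T, hT.iso, hT.pow, ne_one_of_UP hT (by omega), fun W hW hWnd hWm => ?_⟩
      obtain ⟨s', h3, h4, h5, j, hj⟩ := key hT hW hWnd
      have h6 := finrank_map_sub T W
      rw [kr_inf hT.iso hQ hW hWnd hs] at h6
      omega
    · obtain ⟨T, hT, hs⟩ := exists_UP_sq (p := p) hQ (k := k) (Or.inl (by omega))
      refine ⟨T, hT.iso, hT.pow, ne_one_of_UP hT (by omega), fun W hW hWnd hWm => ?_⟩
      obtain ⟨s', h3, h4, h5, j, hj⟩ := key hT hW hWnd
      rw [map_of_sqz hs] at hj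
      omega

end par

section one
variable {F : Type u} [Field F]

/-- the one dimensional form -/
def lf (κ : F) : QuadraticForm F F := κ • QuadraticMap.sq

theorem lf_apply (κ x : F) : lf κ x = κ * (x * x) := rfl

theorem polar_lf (κ x y : F) : polar (lf κ) x y = 2 * κ * x * y := by
  unfold polar
  rw [lf_apply, lf_apply, lf_apply]; ring

theorem nd_lf (h2 : (2 : F) ≠ 0) {κ : F} (hκ : κ ≠ 0) : Nd (lf κ) := by
  apply nd_of
  intro x hx
  have h1 := hx 1
  rw [polar_lf, mul_one] at h1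
  exact (mul_eq_zero.1 h1).resolve_left (mul_ne_zero h2 hκ)

end one

section four
variable {F : Type u} [Field F] [Finite F] {p : ℕ} [CharP F p]
variable {V : Type v} [AddCommGroup V] [Module F V] [FiniteDimensional F V] {Q : QuadraticForm F V}

/-- unipotent isometries with blocks 3, 1 and many 2 -/
theorem exists_UP_four (h2 : (2 : F) ≠ 0) (hQ : Nd Q) {k : ℕ} (hk : 4 * k + 4 = finrank F V) {κ : F} (hκ : κ ≠ 0) :
    ∃ (T : Module.End F V) (u : V), UP p Q (2 * k + 1) T ∧ Q u = κ ∧ (∀ x, T x = x → ∃ c : F, x - c • u ∈ SW T ⊤) := by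
  obtain ⟨X, i1, i2, i3, QX, T, h1, h3, h4, h5, h6, h7⟩ := exists_uni (F := F) (p := p) k
  obtain ⟨U, e, k1, k2, k3⟩ := exists_split_emb hQ (nd_prod h1 (nd_lf h2 hκ)) (Or.inl (by rw [finrank_prod, finrank_self]; omega))
  rw [finrank_prod, finrank_self] at k2
  obtain ⟨T', h8, h9⟩ := exists_three (p := p) h2 k1 (by omega)
  have hUP := ((h5.prod (UP.one p (lf κ))).prod h8).congr e k3
  rw [show 2 * k + 0 + 1 = 2 * k + 1 by omega] at hUP
  have hTe : ∀ v, (e.conj ((T.prodMap 1).prodMap T')) (e v) = e (((T.prodMap 1).prodMap T') v) := by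
    intro v
    show e (((T.prodMap 1).prodMap T') (e.symm (e v))) = _
    rw [LinearEquiv.symm_apply_apply]
  refine ⟨_, e ((0, 1), 0), hUP, ?_, ?_⟩
  · rw [k3, QuadraticMap.prod_apply, QuadraticMap.prod_apply, lf_apply]
    show QX 0 + κ * (1 * 1) + res Q U 0 = κ
    rw [QuadraticMap.map_zero, QuadraticMap.map_zero]; ring
  · intro x hx
    obtain ⟨⟨⟨x, c⟩, z⟩, rfl⟩ := e.surjective x
    rw [hTe] at hx
    have hx' := e.injective hx
    have hx1 : T x = x := congrArg (fun t : (X × F) × U => t.1.1) hx'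
    have hx2 : T' z = z := congrArg (fun t : (X × F) × U => t.2) hx'
    obtain ⟨x', hx'1⟩ := h7 x hx1
    obtain ⟨z', hz'1⟩ := h9 z hx2
    refine ⟨c, mem_SW.2 ⟨⟨e ((x', 0), z'), trivial, ?_⟩, ?_⟩⟩
    · rw [hTe, ← map_sub, ← map_smul, ← map_sub]
      congr 1
      refine Prod.ext (Prod.ext ?_ ?_) ?_
      · show T x' - x' = x - c • (0 : X)
        rw [hx'1, smul_zero, sub_zero]
      · show (0 : F) - 0 = c - c * 1
        ring
      · show T' z' - z' = z - c • (0 : U)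
        rw [hz'1, smul_zero, sub_zero]
    · rw [← map_smul, ← map_sub, hTe]
      congr 1
      refine Prod.ext (Prod.ext ?_ rfl) ?_
      · show T (x - c • (0 : X)) = x - c • (0 : X)
        rw [smul_zero, sub_zero, hx1]
      · show T' (z - c • (0 : U)) = z - c • (0 : U)
        rw [smul_zero, sub_zero, hx2]

end four

section bad
variable {F : Type u} [Field F] [Finite F] {p : ℕ} [Fact p.Prime] [CharP F p]
variable {V : Type v} [AddCommGroup V] [Module F V] [FiniteDimensional F V] {Q : QuadraticForm F V}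
variable {V₀ : Type w} [AddCommGroup V₀] [Module F V₀] [FiniteDimensional F V₀] {Q₀ : QuadraticForm F V₀}

theorem cl_perp (hQ : Nd Q) (hQ₀ : Nd Q₀) {W W' : Submodule F V} (h : Cl Q Q₀ W) (h' : Cl Q Q₀ W') : Cl Q (res Q (pp Q W)) (pp Q W') := by
  obtain ⟨g, hg, rfl⟩ := cl_trans hQ hQ₀ h h'
  refine ⟨g.toLinearMap ∘ₗ (pp Q W).subtype, fun x => hg x, ?_⟩
  rw [LinearMap.range_comp, Submodule.range_subtype]
  have hpol : ∀ x y, polar Q (g x) (g y) = polar Q x y := fun x y => polar_map g.toLinearMap hg x y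
  ext y
  constructor
  · rintro ⟨x, hx, rfl⟩ _ ⟨w, hw, rfl⟩
    show polar Q (g w) (g x) = 0
    rw [hpol]
    exact hx w hw
  · intro hy
    refine ⟨g.symm y, fun w hw => ?_, LinearEquiv.apply_symm_apply _ _⟩
    show polar Q w (g.symm y) = 0
    rw [← hpol, LinearEquiv.apply_symm_apply]
    exact hy _ ⟨w, hw, rfl⟩

theorem bad_m_one (h2 : (2 : F) ≠ 0) (hQ : Nd Q) (hQ₀ : Nd Q₀) {d : ℕ} (hd : Even d) (hd1 : 2 ≤ d) (hV : finrank F V = 2 * d) {a : ℕ}
    (ha : Even a) (hV₀ : finrank F V₀ = 2 * a + 1) (hlt : finrank F V₀ < finrank F V) :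
    ∃ T : Module.End F V, (∀ v, Q (T v) = Q v) ∧ T ^ p = 1 ∧ T ≠ 1 ∧ ∀ W, Inv T W → ¬ Cl Q Q₀ W := by
  have ho : Odd p := odd_of_two h2
  obtain ⟨X, i1, i2, i3, QX, hX1, hX2, hX3⟩ := exists_space (F := F) (a + 1) (-1) (Or.inr ⟨rfl, by omega⟩)
  obtain ⟨U, e, k1, k2, k3⟩ := exists_split_emb hX1 hQ₀ (Or.inl (by omega))
  obtain ⟨z, hz⟩ := k1.exists_Q_ne_zero (by omega)
  have hz0 : z ≠ 0 := by
    rintro rfl
    exact hz (QuadraticMap.map_zero _)
  obtain ⟨j, hj⟩ := hd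
  obtain ⟨T, u, hT, hu, hfx⟩ := exists_UP_four (p := p) h2 hQ (k := j - 1) (by omega) (κ := - res QX U z) (neg_ne_zero.2 hz)
  refine ⟨T, hT.iso, hT.pow, ne_one_of_UP hT (by omega), fun W hW hcl => ?_⟩
  have hWnd := hcl.nd hQ₀
  have hWm := hcl.finrank hQ₀
  obtain ⟨g1, g2, g3⟩ := perp_data hQ hWnd
  have hW' : Inv T (pp Q W) := (iso_bq hT.iso).inv_perp (nd_top hQ) hW
  have h1 := SW_split hT.iso hQ hW hWnd
  have h3 := SW_half hT.iso hW hWnd
  have h4 := SW_half hT.iso hW' g1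
  rw [hT.fr] at h1
  have h5 : finrank F (SW T W) = a := by omega
  obtain ⟨j1, hj1⟩ := move_even h2 ho hT.iso hT.pow hW hWnd
  have h6 := finrank_map_sub T W
  obtain ⟨j2, hj2⟩ := ha
  have hwex : ∃ w ∈ W, T w = w ∧ w ∉ SW T W := by
    by_contra hcon
    push Not at hcon
    have h7 : W ⊓ LinearMap.ker (T - 1) = SW T W := by
      apply le_antisymm
      · rintro x ⟨hx1, hx2⟩
        exact hcon x hx1 (sub_eq_zero.1 hx2)
      · exact le_inf (SW_le hW) inf_le_right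
    rw [h7] at h6
    omega
  obtain ⟨w, hwW, hTw, hwS⟩ := hwex
  obtain ⟨c, hc⟩ := hfx w hTw
  have hc0 : c ≠ 0 := by
    rintro rfl
    rw [zero_smul, sub_zero] at hc
    apply hwS
    rw [← inf_SW hT.iso hQ hW hWnd]
    exact ⟨hwW, hc⟩
  have hQw : Q w = c * c * (- res QX U z) := by
    obtain ⟨s, hs⟩ : ∃ s, w - c • u = s := ⟨_, rfl⟩
    rw [hs] at hc
    have h7 : c • u = w + (-1 : F) • s := by rw [← hs, neg_one_smul]; abel
    have h8 : Q (c • u) = Q w := by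
      rw [h7, Q_add, Q_smul, hT.ts s hc, polar_smul_right, polar_comm Q w s, range_ker hT.iso ⟨_, (mem_SW.1 hc).1.choose_spec.2⟩ hTw]
      simp
    rw [← h8, Q_smul, hu]
  -- the totally singular subspace
  let φ : (SW T W × F) →ₗ[F] (W × U) :=
    { toFun := fun x => (⟨x.1 + x.2 • w, W.add_mem (SW_le hW x.1.2) (W.smul_mem _ hwW)⟩, (x.2 * c) • z)
      map_add' := fun x y => by
        refine Prod.ext (Subtype.ext ?_) ?_
        · show ((x.1 : V) + y.1) + (x.2 + y.2) • w = (x.1 + x.2 • w) + (y.1 + y.2 • w)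
          rw [add_smul]; abel
        · show ((x.2 + y.2) * c) • z = (x.2 * c) • z + (y.2 * c) • z
          rw [add_mul, add_smul]
      map_smul' := fun t x => by
        refine Prod.ext (Subtype.ext ?_) ?_
        · show t • (x.1 : V) + (t * x.2) • w = t • (x.1 + x.2 • w)
          rw [smul_add, smul_smul]
        · show ((t * x.2) * c) • z = t • (x.2 * c) • z
          rw [smul_smul, mul_assoc] }
  have hφ1 : ∀ x, ((φ x).1 : V) = x.1 + x.2 • w := fun x => rfl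
  have hφ2 : ∀ x, (φ x).2 = (x.2 * c) • z := fun x => rfl
  have hinj : Function.Injective φ := by
    rw [← LinearMap.ker_eq_bot, eq_bot_iff]
    intro x hx
    have h7 : (φ x).2 = 0 := by rw [LinearMap.mem_ker.1 hx]; rfl
    have h8 : ((φ x).1 : V) = 0 := by rw [LinearMap.mem_ker.1 hx]; rfl
    rw [hφ2] at h7
    rw [hφ1] at h8
    have h9 : x.2 = 0 := by
      rcases smul_eq_zero.1 h7 with h | h
      · exact (mul_eq_zero.1 h).resolve_right hc0
      · exact absurd h hz0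
    rw [h9, zero_smul, add_zero] at h8
    rw [Submodule.mem_bot]
    exact Prod.ext (Subtype.ext h8) h9
  have hts : ∀ y ∈ LinearMap.range φ, ((res Q W).prod (res QX U)) y = 0 := by
    rintro _ ⟨x, rfl⟩
    rw [QuadraticMap.prod_apply, hφ2, Q_smul]
    show Q ((φ x).1 : V) + _ = 0
    rw [hφ1, Q_add, Q_smul, hT.ts _ (SW_le_top x.1.2), polar_smul_right, range_ker hT.iso ⟨_, (mem_SW.1 x.1.2).1.choose_spec.2⟩ hTw, hQw]
    simp only [smul_eq_mul]
    ring
  have hfr : finrank F (LinearMap.range φ) = a + 1 := by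
    rw [LinearMap.finrank_range_of_inj hinj, finrank_prod, finrank_self, h5]
  have hD1 := D_of_ts (nd_prod (nd_res hWnd) k1) hts (by rw [hfr, finrank_prod]; omega)
  obtain ⟨e', he'⟩ := hcl.equiv hQ₀
  have hD2 : D ((res Q W).prod (res QX U)) = D (Q₀.prod (res QX U)) :=
    D_congr (e'.prodCongr (LinearEquiv.refl F U)) (fun v => by
      rw [QuadraticMap.prod_apply, QuadraticMap.prod_apply]
      show Q (e' v.1) + _ = _
      rw [he']; rfl)
  have hD3 : D QX = D (Q₀.prod (res QX U)) := D_congr e k3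
  rw [hD2, ← hD3, hX3, hfr] at hD1
  have h10 : (0 : ℤ) < (Nat.card F : ℤ) := by exact_mod_cast Nat.card_pos
  have h11 := pow_pos h10 (a + 1)
  linarith

theorem bad_m_minus (h2 : (2 : F) ≠ 0) (hQ : Nd Q) (hQ₀ : Nd Q₀) {d : ℕ} (hd : Even d) (hd1 : 2 ≤ d) (hV : finrank F V = 2 * d)
    (hm : Odd (finrank F V₀)) (hlt : finrank F V₀ < finrank F V) :
    ∃ T : Module.End F V, (∀ v, Q (T v) = Q v) ∧ T ^ p = 1 ∧ T ≠ 1 ∧ ∀ W, Inv T W → ¬ Cl Q Q₀ W := by
  obtain ⟨m, hm'⟩ := hm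
  rcases Nat.even_or_odd m with he | ⟨j, hj⟩
  · exact bad_m_one h2 hQ hQ₀ hd hd1 hV he hm' hlt
  · obtain ⟨f, hf⟩ := emb_lt hQ hQ₀ hlt
    have hcl : Cl Q Q₀ (LinearMap.range f) := ⟨f, hf, rfl⟩
    obtain ⟨R, hR⟩ : ∃ R, LinearMap.range f = R := ⟨_, rfl⟩
    rw [hR] at hcl
    obtain ⟨g1, g2, g3⟩ := perp_data hQ (hcl.nd hQ₀)
    have hfr := hcl.finrank hQ₀
    obtain ⟨k, hk⟩ := hd
    obtain ⟨T, h3, h4, h5, h6⟩ := bad_m_one (p := p) h2 hQ (nd_res g1) (d := d) ⟨k, hk⟩ hd1 hV (a := 2 * (k - j - 1)) (even_two_mul _) (by omega) (by omega)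
    refine ⟨T, h3, h4, h5, fun W hW hclW => ?_⟩
    exact h6 (pp Q W) ((iso_bq h3).inv_perp (nd_top hQ) hW) (cl_perp hQ hQ₀ hcl hclW)

end bad

end Cfsg.Agent.Lib.OrthR67
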