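import Mathlib
import Cfsg.Agent.Lib.OrthPar67

/-!
(helper67) Involutions in orthogonal groups of characteristic two; invariant nondegenerate subspaces.
-/

set_option autoImplicit false
set_option linter.unusedSectionVars false

namespace Cfsg.Agent.Lib.OrthR67

open QuadraticMap Module Cfsg.Agent.Lib.Quad Cfsg.Agent.Lib.QuadD67 Cfsg.Agent.Lib.QuadEmb67
open Cfsg.Agent.Lib.InvSub Cfsg.Agent.Lib.PrimeOrd Cfsg.Agent.Lib.OReal67

universe u v w

section basic
variable {F : Type u} [Field F] {V : Type v} [AddCommGroup V] [Module F V] [FiniteDimensional F V]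
variable {Q : QuadraticForm F V} {T : Module.End F V} {Z W : Submodule F V}

theorem add_self_two (h2 : (2 : F) = 0) (x : V) : x + x = 0 := by
  rw [← two_smul F, h2, zero_smul]

theorem sub_two (h2 : (2 : F) = 0) (x y : V) : x - y = x + y := by
  rw [sub_eq_iff_eq_add, add_assoc, add_self_two h2, add_zero]

theorem sqz_two (h2 : (2 : F) = 0) (hTT : ∀ v, T (T v) = v) : SqZ T := by
  intro x
  rw [map_sub, hTT, sub_two h2, sub_two h2, add_comm]

theorem pN_symm (hT : ∀ v, Q (T v) = Q v) (hTT : ∀ v, T (T v) = v) (x y : V) : polar Q x (T y - y) = polar Q y (T x - x) := by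
  have h1 : polar Q (T x) (T (T y)) = polar Q x (T y) := polar_map T hT x (T y)
  rw [hTT] at h1
  rw [polar_sub_right, polar_sub_right, ← h1, polar_comm Q (T x) y, polar_comm Q x y]

theorem QN (h2 : (2 : F) = 0) (hT : ∀ v, Q (T v) = Q v) (x : V) : Q (T x - x) = polar Q x (T x - x) := by
  rw [Q_sub, hT, polar_sub_right, polar_self', polar_comm Q (T x) x]
  linear_combination (2 * Q x - polar Q x (T x)) * h2

theorem pNN (h2 : (2 : F) = 0) (hT : ∀ v, Q (T v) = Q v) (hTT : ∀ v, T (T v) = v) (x y : V) : polar Q (T x - x) (T y - y) = 0 :=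
  range_ker hT ⟨x, rfl⟩ (sqz_two h2 hTT y)

theorem beta_add (h2 : (2 : F) = 0) (hT : ∀ v, Q (T v) = Q v) (hTT : ∀ v, T (T v) = v) (x y : V) :
    Q (T (x + y) - (x + y)) = Q (T x - x) + Q (T y - y) := by
  have h1 : T (x + y) - (x + y) = (T x - x) + (T y - y) := by rw [map_add]; abel
  rw [h1, Q_add, pNN h2 hT hTT, add_zero]

theorem beta_smul (c : F) (x : V) : Q (T (c • x) - c • x) = c * c * Q (T x - x) := by
  rw [map_smul, ← smul_sub, Q_smul]

theorem SW_add (hs : SqZ T) {X Z' : Submodule F V} (hX : Inv T X) (hZ' : Inv T Z') (hd : Disjoint X Z') :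
    finrank F (SW T (X ⊔ Z')) = finrank F (SW T X) + finrank F (SW T Z') := by
  rw [← map_of_sqz hs, ← map_of_sqz hs, ← map_of_sqz hs, Submodule.map_sup]
  have h1 : X.map (T - 1) ≤ X := by rintro _ ⟨w, hw, rfl⟩; exact X.sub_mem (hX w hw) hw
  have h2 : Z'.map (T - 1) ≤ Z' := by rintro _ ⟨w, hw, rfl⟩; exact Z'.sub_mem (hZ' w hw) hw
  have h3 := Submodule.finrank_sup_add_finrank_inf_eq (X.map (T - 1)) (Z'.map (T - 1))
  rw [disjoint_iff.mp (hd.mono h1 h2), finrank_bot] at h3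
  omega

theorem D_of_SW' [Finite F] {M : ℕ} (hW : Inv T W) (hWnd : NDq Q W) (hts : ∀ x ∈ SW T W, Q x = 0) (hdim : finrank F W = 2 * M)
    (hS : finrank F (SW T W) = M) : D (res Q W) = (Nat.card F : ℤ) ^ M := by
  have h4 : finrank F ((SW T W).comap W.subtype) = finrank F (SW T W) := by
    have h5 : ((SW T W).comap W.subtype).map W.subtype = SW T W := by
      rw [Submodule.map_comap_subtype, inf_eq_right]; exact SW_le hW
    rw [← Submodule.finrank_map_subtype_eq W ((SW T W).comap W.subtype), h5]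
  rw [D_of_ts (nd_res hWnd) (W := (SW T W).comap W.subtype) (fun w hw => hts _ hw) (by rw [h4, hS, hdim]), h4, hS]

/-- the four dimensional blocks of type `a` -/
theorem X_block [Finite F] (h2 : (2 : F) = 0) (hT : ∀ v, Q (T v) = Q v) (hTT : ∀ v, T (T v) = v) (hZ : Inv T Z) {x y : V} (hx : x ∈ Z) (hy : y ∈ Z)
    (hbx : Q (T x - x) = 0) (hby : Q (T y - y) = 0) (hxy : polar Q x (T y - y) ≠ 0) :
    ∃ X ≤ Z, Inv T X ∧ NDq Q X ∧ finrank F X = 4 ∧ D (res Q X) = (Nat.card F : ℤ) ^ 2 ∧ finrank F (SW T X) = 2 ∧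
      ∀ z ∈ X, Q (T z - z) = 0 := by
  have hs := sqz_two h2 hTT
  obtain ⟨y', hy'⟩ : ∃ y', (polar Q x (T y - y))⁻¹ • y = y' := ⟨_, rfl⟩
  obtain ⟨nx, hnx⟩ : ∃ nx, T x - x = nx := ⟨_, rfl⟩
  obtain ⟨ny, hny⟩ : ∃ ny, T y' - y' = ny := ⟨_, rfl⟩
  have hyZ : y' ∈ Z := by rw [← hy']; exact Z.smul_mem _ hy
  have hnyQ : Q ny = 0 := by rw [← hny, ← hy', beta_smul, hby, mul_zero]
  have hnxQ : Q nx = 0 := by rw [← hnx, hbx]
  have hny' : ny = (polar Q x (T y - y))⁻¹ • (T y - y) := by rw [← hny, ← hy', map_smul, smul_sub]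
  have e3 : polar Q x ny = 1 := by rw [hny', polar_smul_right, smul_eq_mul, inv_mul_cancel₀ hxy]
  have e4 : polar Q y' nx = 1 := by rw [← hnx, ← pN_symm hT hTT, hny, e3]
  have e1 : polar Q x nx = 0 := by rw [← hnx, ← QN h2 hT, hbx]
  have e2 : polar Q y' ny = 0 := by rw [← hny, ← QN h2 hT, hny, hnyQ]
  have e5 : polar Q nx ny = 0 := by rw [← hnx, ← hny]; exact pNN h2 hT hTT x y'
  have e3' : polar Q ny x = 1 := by rw [polar_comm]; exact e3
  have e4' : polar Q nx y' = 1 := by rw [polar_comm]; exact e4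
  have e1' : polar Q nx x = 0 := by rw [polar_comm]; exact e1
  have e2' : polar Q ny y' = 0 := by rw [polar_comm]; exact e2
  have e5' : polar Q ny nx = 0 := by rw [polar_comm]; exact e5
  have e6 : polar Q nx nx = 0 := by rw [polar_self', hnxQ, mul_zero]
  have e7 : polar Q ny ny = 0 := by rw [polar_self', hnyQ, mul_zero]
  have e8 : polar Q x x = 0 := by rw [polar_self', h2, zero_mul]
  have e9 : polar Q y' y' = 0 := by rw [polar_self', h2, zero_mul]
  let φ : ((F × F) × (F × F)) →ₗ[F] V :=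
    ((LinearMap.toSpanSingleton F V x).coprod (LinearMap.toSpanSingleton F V ny)).coprod
      ((LinearMap.toSpanSingleton F V y').coprod (LinearMap.toSpanSingleton F V nx))
  have hφ : ∀ u, φ u = (u.1.1 • x + u.1.2 • ny) + (u.2.1 • y' + u.2.2 • nx) := fun u => rfl
  have hTx : T x = x + nx := by rw [← hnx]; abel
  have hTy : T y' = y' + ny := by rw [← hny]; abel
  have hTnx : T nx = nx := by rw [← hnx]; exact hs x
  have hTny : T ny = ny := by rw [← hny]; exact hs y'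
  have hTφ : ∀ u, T (φ u) = φ ((u.1.1, u.1.2 + u.2.1), (u.2.1, u.2.2 + u.1.1)) := by
    intro u
    rw [hφ, hφ]
    simp only [map_add, map_smul, hTx, hTy, hTnx, hTny, smul_add, add_smul]
    abel
  have hperp : ∀ u, polar Q (φ u) nx = 0 → polar Q (φ u) ny = 0 → polar Q (φ u) x = 0 → polar Q (φ u) y' = 0 → u = 0 := by
    intro u h3 h4 h5 h6
    rw [hφ] at h3 h4 h5 h6
    simp only [polar_add_left, polar_smul_left, smul_eq_mul, e1, e1', e2, e2', e3, e3', e4, e4', e5, e5', e6, e7, e8, e9, mul_zero, mul_one,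
      add_zero, zero_add] at h3 h4 h5 h6
    rw [h3, zero_mul, add_zero] at h5
    rw [h4, zero_mul, zero_add] at h6
    exact Prod.ext (Prod.ext h4 h5) (Prod.ext h3 h6)
  have h0 : ∀ y, polar Q 0 y = 0 := fun y => by simp [polar]
  have hinj : Function.Injective φ := by
    rw [← LinearMap.ker_eq_bot, eq_bot_iff]
    intro u hu
    rw [Submodule.mem_bot]
    rw [LinearMap.mem_ker] at hu
    exact hperp u (by rw [hu, h0]) (by rw [hu, h0]) (by rw [hu, h0]) (by rw [hu, h0])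
  obtain ⟨X, hX⟩ : ∃ X, LinearMap.range φ = X := ⟨_, rfl⟩
  have hxX : x ∈ X := by rw [← hX]; exact ⟨((1, 0), (0, 0)), by rw [hφ]; simp⟩
  have hyX : y' ∈ X := by rw [← hX]; exact ⟨((0, 0), (1, 0)), by rw [hφ]; simp⟩
  have hnxX : nx ∈ X := by rw [← hX]; exact ⟨((0, 0), (0, 1)), by rw [hφ]; simp⟩
  have hnyX : ny ∈ X := by rw [← hX]; exact ⟨((0, 1), (0, 0)), by rw [hφ]; simp⟩
  have hXinv : Inv T X := by
    intro z hz
    rw [← hX] at hz ⊢
    obtain ⟨u, rfl⟩ := hz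
    exact ⟨_, (hTφ u).symm⟩
  have hXnd : NDq Q X := by
    intro z hz h
    have hz' := hz
    rw [← hX] at hz'
    obtain ⟨u, rfl⟩ := hz'
    rw [hperp u (h _ hnxX) (h _ hnyX) (h _ hxX) (h _ hyX), map_zero]
  have hX4 : finrank F X = 4 := by
    rw [← hX, LinearMap.finrank_range_of_inj hinj]; simp
  have hXb : ∀ z ∈ X, Q (T z - z) = 0 := by
    intro z hz
    rw [← hX] at hz
    obtain ⟨u, rfl⟩ := hz
    have h3 : T (φ u) - φ u = u.2.1 • ny + u.1.1 • nx := by
      rw [hTφ, hφ, hφ]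
      simp only [add_smul]
      abel
    rw [h3, Q_add, Q_smul, Q_smul, hnxQ, hnyQ, polar_smul_left, polar_smul_right, e5']
    simp
  have hSW : finrank F (SW T X) = 2 := by
    let ψ : (F × F) →ₗ[F] V := (LinearMap.toSpanSingleton F V nx).coprod (LinearMap.toSpanSingleton F V ny)
    have hψ : ∀ u, ψ u = u.1 • nx + u.2 • ny := fun u => rfl
    have h3 : LinearMap.range ψ = SW T X := by
      rw [← map_of_sqz hs]
      apply le_antisymm
      · rintro _ ⟨u, rfl⟩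
        refine ⟨u.1 • x + u.2 • y', X.add_mem (X.smul_mem _ hxX) (X.smul_mem _ hyX), ?_⟩
        show T (u.1 • x + u.2 • y') - (u.1 • x + u.2 • y') = _
        rw [hψ, map_add, map_smul, map_smul, hTx, hTy, smul_add, smul_add]
        abel
      · rintro _ ⟨z, hz, rfl⟩
        have hz' : z ∈ X := hz
        rw [← hX] at hz'
        obtain ⟨u, rfl⟩ := hz'
        refine ⟨(u.1.1, u.2.1), ?_⟩
        show _ = T (φ u) - φ u
        rw [hTφ, hφ, hφ, hψ]
        simp only [add_smul]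
        abel
    rw [← h3, LinearMap.finrank_range_of_inj]
    · simp
    · rw [← LinearMap.ker_eq_bot, eq_bot_iff]
      intro u hu
      rw [LinearMap.mem_ker, hψ] at hu
      have h4 : polar Q (u.1 • nx + u.2 • ny) y' = 0 := by rw [hu, h0]
      have h5 : polar Q (u.1 • nx + u.2 • ny) x = 0 := by rw [hu, h0]
      simp only [polar_add_left, polar_smul_left, smul_eq_mul, e1', e2', e3', e4', mul_zero, mul_one, add_zero, zero_add] at h4 h5
      rw [Submodule.mem_bot]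
      exact Prod.ext h4 h5
  refine ⟨X, ?_, hXinv, hXnd, hX4, ?_, hSW, hXb⟩
  · intro z hz
    rw [← hX] at hz
    obtain ⟨u, rfl⟩ := hz
    rw [hφ]
    have hnxZ : nx ∈ Z := by rw [← hnx]; exact Z.sub_mem (hZ x hx) hx
    have hnyZ : ny ∈ Z := by rw [← hny]; exact Z.sub_mem (hZ y' hyZ) hyZ
    exact Z.add_mem (Z.add_mem (Z.smul_mem _ hx) (Z.smul_mem _ hnyZ)) (Z.add_mem (Z.smul_mem _ hyZ) (Z.smul_mem _ hnxZ))
  · exact D_of_SW' hXinv hXnd (fun z hz => by
      obtain ⟨⟨w, hw, rfl⟩, -⟩ := mem_SW.1 hz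
      exact hXb w hw) (by rw [hX4]) hSW

/-- on a space of type `a` the rank is even -/
theorem a_even [Finite F] (h2 : (2 : F) = 0) (hQ : Nd Q) (hT : ∀ v, Q (T v) = Q v) (hTT : ∀ v, T (T v) = v) :
    ∀ (n : ℕ) (Z : Submodule F V), finrank F Z = n → Inv T Z → NDq Q Z → (∀ z ∈ Z, Q (T z - z) = 0) → Even (finrank F (SW T Z)) := by
  have hs := sqz_two h2 hTT
  intro n
  induction n using Nat.strong_induction_on with
  | _ n ih =>
    intro Z hn hZ hZnd ha
    by_cases h0 : SW T Z = ⊥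
    · rw [h0, finrank_bot]; exact ⟨0, rfl⟩
    · obtain ⟨y', hy', hy0⟩ := Submodule.exists_mem_ne_zero_of_ne_bot h0
      obtain ⟨⟨y, hy, rfl⟩, -⟩ := mem_SW.1 hy'
      have hex : ∃ x ∈ Z, polar Q x (T y - y) ≠ 0 := by
        by_contra hcon
        push Not at hcon
        apply hy0
        apply hZnd _ (Z.sub_mem (hZ y hy) hy)
        intro w hw
        show polar Q (T y - y) w = 0
        rw [polar_comm]
        exact hcon w hw
      obtain ⟨x, hx, hxy⟩ := hex
      obtain ⟨X, hXZ, g1, g2, g3, g4, g5, g6⟩ := X_block h2 hT hTT hZ hx hy (ha x hx) (ha y hy) hxy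
      obtain ⟨k1, k2, k3, k4⟩ := Sesq.split_nd (B := Bq Q) refl_bq hZnd g2 hXZ
      have k3' : finrank F X + finrank F ↥(Z ⊓ pp Q X) = finrank F Z := k3
      have hinv : Inv T (Z ⊓ pp Q X) := Sesq.inv_inf hZ ((iso_bq hT).inv_perp (nd_top hQ) g1)
      have h3 := ih (finrank F ↥(Z ⊓ pp Q X)) (by omega) (Z ⊓ pp Q X) rfl hinv k4 (fun z hz => ha z hz.1)
      have h4 := SW_add hs g1 hinv k2
      have h5 : X ⊔ (Z ⊓ pp Q X) = Z := k1
      rw [h5, g5] at h4
      rw [h4, Nat.even_add]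
      exact ⟨fun _ => h3, fun _ => ⟨1, rfl⟩⟩

end basic

section pl
variable {F : Type u} [Field F]

theorem nd_pl_two [Finite F] (h2 : (2 : F) = 0) (b : F) : Nd (pl (1 : F) b) := by
  apply nd_of
  intro x hx
  have e1 := hx (1, 0)
  have e2 := hx (0, 1)
  rw [polar_pl', h2] at e1 e2
  simp only [mul_zero, mul_one, zero_mul, add_zero, zero_add, one_mul] at e1 e2
  exact Prod.ext e2 e1

theorem exists_pl [Finite F] (h2 : (2 : F) = 0) (s : ℤ) (hs : s = 1 ∨ s = -1) : ∃ b : F, D (pl (1 : F) b) = s * (Nat.card F : ℤ) := by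
  rcases hs with rfl | rfl
  · refine ⟨0, ?_⟩
    have h1 : finrank F (F ∙ ((0, 1) : F × F)) = 1 := finrank_span_singleton (by
      intro h
      exact one_ne_zero (congrArg Prod.snd h))
    rw [D_of_ts (nd_pl_two h2 0) (W := F ∙ ((0, 1) : F × F)) (by
      intro w hw
      obtain ⟨c, rfl⟩ := Submodule.mem_span_singleton.1 hw
      rw [pl_apply]
      show c * 0 * (c * 0) + 1 * (c * 0 * (c * 1)) + 0 * _ = 0
      ring) (by rw [h1]; simp), h1]
    ring
  · obtain ⟨b, hb⟩ := exists_b (F := F)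
    refine ⟨b, ?_⟩
    rw [(plane_D (nd_pl_two h2 b) (by simp) (pl_aniso hb)).2]
    ring

end pl

section ev
variable {F : Type u} [Field F] [Finite F] {V : Type v} [AddCommGroup V] [Module F V] [FiniteDimensional F V]
variable {Q : QuadraticForm F V} {T : Module.End F V} {Z W : Submodule F V}

/-- nondegenerate subspaces of plus type -/
theorem exists_plus_sub {d M : ℕ} (hZnd : NDq Q Z) (hd : finrank F Z = 2 * d) (hM : M < d ∨ (M = d ∧ D (res Q Z) = (Nat.card F : ℤ) ^ d)) :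
    ∃ W ≤ Z, NDq Q W ∧ finrank F W = 2 * M ∧ D (res Q W) = (Nat.card F : ℤ) ^ M := by
  obtain ⟨X, i1, i2, i3, QX, hX1, hX2, hX3⟩ := exists_space (F := F) M 1 (Or.inl rfl)
  rw [one_mul] at hX3
  obtain ⟨f, hf⟩ := emb (nd_res hZnd) hX1 (by
    rcases hM with h | ⟨rfl, h⟩
    · left; omega
    · right; exact ⟨by omega, ⟨M, by omega⟩, by rw [hX3, h]⟩)
  have hcl : Cl Q QX (LinearMap.range (Z.subtype ∘ₗ f)) := ⟨Z.subtype ∘ₗ f, fun x => hf x, rfl⟩
  refine ⟨LinearMap.range (Z.subtype ∘ₗ f), ?_, hcl.nd hX1, by rw [hcl.finrank hX1, hX2], by rw [hcl.D hX1, hX3]⟩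
  rintro _ ⟨x, rfl⟩
  exact (f x).2

theorem exists_sqrt (h2 : (2 : F) = 0) (a : F) : ∃ c : F, c * c = a := by
  haveI : CharP F 2 := CharTwo.of_one_ne_zero_of_two_eq_zero one_ne_zero h2
  obtain ⟨c, hc⟩ := isSquare_of_charTwo a
  exact ⟨c, hc.symm⟩

/-- two dimensional blocks -/
theorem P_block (h2 : (2 : F) = 0) (hT : ∀ v, Q (T v) = Q v) (hTT : ∀ v, T (T v) = v) {v : V} (hb : Q (T v - v) = 1) :
    ∃ P : Submodule F V, Cl Q (pl (1 : F) (Q v)) P ∧ Inv T P ∧ v ∈ P ∧ ∀ Z : Submodule F V, v ∈ Z → T v - v ∈ Z → P ≤ Z := by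
  obtain ⟨n, hn⟩ : ∃ n, T v - v = n := ⟨_, rfl⟩
  rw [hn] at hb
  have hpn : polar Q n v = 1 := by
    rw [polar_comm, ← hn, ← QN h2 hT, hn, hb]
  let φ : (F × F) →ₗ[F] V := (LinearMap.toSpanSingleton F V n).coprod (LinearMap.toSpanSingleton F V v)
  have hφ : ∀ u, φ u = u.1 • n + u.2 • v := fun u => rfl
  have hTv : T v = v + n := by rw [← hn]; abel
  have hTn : T n = n := by rw [← hn]; exact sqz_two h2 hTT v
  refine ⟨LinearMap.range φ, ⟨φ, ?_, rfl⟩, ?_, ⟨(0, 1), by rw [hφ]; simp⟩, ?_⟩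
  · intro u
    rw [hφ, Q_add, Q_smul, Q_smul, hb, polar_smul_left, polar_smul_right, hpn, pl_apply, smul_eq_mul, smul_eq_mul]
    ring
  · rintro _ ⟨u, rfl⟩
    refine ⟨(u.1 + u.2, u.2), ?_⟩
    rw [hφ, hφ, map_add, map_smul, map_smul, hTv, hTn, add_smul, smul_add]
    abel
  · rintro Z h3 h4 _ ⟨u, rfl⟩
    rw [hφ]
    rw [hn] at h4
    exact Z.add_mem (Z.smul_mem _ h4) (Z.smul_mem _ h3)

/-- scaling -/
theorem exists_one (h2 : (2 : F) = 0) {v : V} (hv : v ∈ Z) (hb : Q (T v - v) ≠ 0) : ∃ w ∈ Z, Q (T w - w) = 1 := by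
  obtain ⟨c, hc⟩ := exists_sqrt h2 (Q (T v - v))⁻¹
  exact ⟨c • v, Z.smul_mem _ hv, by rw [beta_smul, hc, inv_mul_cancel₀ hb]⟩

/-- invariant nondegenerate subspaces of plus type -/
theorem ev_fix (h2 : (2 : F) = 0) (hQ : Nd Q) (hT : ∀ v, Q (T v) = Q v) (hTT : ∀ v, T (T v) = v) :
    ∀ (k d M : ℕ) (Z : Submodule F V), Inv T Z → NDq Q Z → finrank F Z = 2 * d → finrank F (SW T Z) = 2 * k →
    (M < d ∨ (M = d ∧ D (res Q Z) = (Nat.card F : ℤ) ^ d)) →
    (Even M ∨ (∃ z ∈ Z, Q (T z - z) ≠ 0) ∨ 2 * k + 2 ≤ d ∨ (2 * k + 1 ≤ d ∧ D (res Q Z) = (Nat.card F : ℤ) ^ d)) →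
    ∃ W ≤ Z, Inv T W ∧ NDq Q W ∧ finrank F W = 2 * M ∧ D (res Q W) = (Nat.card F : ℤ) ^ M := by
  have hs := sqz_two h2 hTT
  have hcard : (0 : ℤ) < (Nat.card F : ℤ) := by exact_mod_cast Nat.card_pos
  have htriv : ∀ (Z : Submodule F V), Inv T Z → finrank F (SW T Z) = 0 → ∀ z ∈ Z, T z = z := by
    intro Z hZ h0 z hz
    have h1 : SW T Z = ⊥ := Submodule.finrank_eq_zero.1 h0
    have h3 : T z - z ∈ SW T Z := mem_SW.2 ⟨⟨z, hz, rfl⟩, hs z⟩
    rw [h1, Submodule.mem_bot] at h3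
    exact sub_eq_zero.1 h3
  intro k
  induction k with
  | zero =>
    intro d M Z hZ hZnd hd hk hM hc
    have hfix := htriv Z hZ hk
    obtain ⟨W, h3, h4, h5, h6⟩ := exists_plus_sub hZnd hd hM
    exact ⟨W, h3, fun x hx => by rw [hfix x (h3 hx)]; exact hx, h4, h5, h6⟩
  | succ k ih =>
    intro d M Z hZ hZnd hd hk hM hc
    rcases Nat.eq_zero_or_pos M with hM0 | hM0
    · subst hM0
      refine ⟨⊥, bot_le, fun x hx => by rw [(Submodule.mem_bot F).1 hx, map_zero]; exact Submodule.zero_mem _,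
        fun x hx _ => (Submodule.mem_bot F).1 hx, by rw [finrank_bot], ?_⟩
      rw [D_of_ts (nd_res (fun x hx _ => (Submodule.mem_bot F).1 hx)) (W := ⊥) (fun w hw => by
        rw [(Submodule.mem_bot F).1 hw, QuadraticMap.map_zero]) (by rw [finrank_bot, finrank_bot]), finrank_bot]
    by_cases hX : ∃ x ∈ Z, ∃ y ∈ Z, Q (T x - x) = 0 ∧ Q (T y - y) = 0 ∧ polar Q x (T y - y) ≠ 0
    · obtain ⟨x, hx, y, hy, hbx, hby, hxy⟩ := hX
      obtain ⟨X, hXZ, g1, g2, g3, g4, g5, g6⟩ := X_block h2 hT hTT hZ hx hy hbx hby hxy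
      obtain ⟨k1, k2, k3, k4⟩ := Sesq.split_nd (B := Bq Q) refl_bq hZnd g2 hXZ
      have k1' : X ⊔ (Z ⊓ pp Q X) = Z := k1
      have k3' : finrank F X + finrank F ↥(Z ⊓ pp Q X) = finrank F Z := k3
      have hinv : Inv T (Z ⊓ pp Q X) := Sesq.inv_inf hZ ((iso_bq hT).inv_perp (nd_top hQ) g1)
      have h4 := SW_add hs g1 hinv k2
      rw [k1', g5] at h4
      obtain ⟨d', rfl⟩ : ∃ d', d = d' + 2 := ⟨d - 2, by omega⟩
      have hd' : finrank F ↥(Z ⊓ pp Q X) = 2 * d' := by omega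
      have hk' : finrank F (SW T (Z ⊓ pp Q X)) = 2 * k := by omega
      have hD := D_sup k2 (fun u hu w hw => hw.2 u hu) (nd_res g2) (nd_res k4) ⟨2, by omega⟩ ⟨d', by omega⟩
      have hD' : D (res Q Z) = D (res Q X) * D (res Q (Z ⊓ pp Q X)) := by
        rw [← hD]
        exact congrArg (fun A => D (res Q A)) k1'.symm
      have hplus : D (res Q Z) = (Nat.card F : ℤ) ^ (d' + 2) → D (res Q (Z ⊓ pp Q X)) = (Nat.card F : ℤ) ^ d' := by
        intro h
        rw [h, g4, add_comm, pow_add] at hD'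
        exact (mul_left_cancel₀ (pow_pos hcard 2).ne' hD').symm
      have hflag : (∃ z ∈ Z, Q (T z - z) ≠ 0) → ∃ z ∈ Z ⊓ pp Q X, Q (T z - z) ≠ 0 := by
        rintro ⟨z, hz, hz0⟩
        rw [← k1'] at hz
        obtain ⟨a, ha, b, hb, rfl⟩ := Submodule.mem_sup.1 hz
        refine ⟨b, hb, ?_⟩
        rw [beta_add h2 hT hTT, g6 a ha, zero_add] at hz0
        exact hz0
      have hhalf := SW_half hT hinv k4
      rw [hk', hd'] at hhalf
      rcases Nat.lt_or_ge M 2 with hM2 | hM2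
      · obtain ⟨W, w1, w2, w3, w4, w5⟩ := ih d' M (Z ⊓ pp Q X) hinv k4 hd' hk' (by
          have hM1 : M = 1 := by omega
          subst hM1
          rcases hc with h | h | h | ⟨h, h'⟩
          · exact absurd h (by decide)
          · left
            rcases Nat.eq_zero_or_pos k with hk0 | hk0
            · exfalso
              subst hk0
              obtain ⟨z, hz, hz0⟩ := hflag h
              apply hz0
              rw [htriv _ hinv (by omega) z hz, sub_self, QuadraticMap.map_zero]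
            · omega
          · left; omega
          · rcases Nat.lt_or_ge 1 d' with h5 | h5
            · exact Or.inl h5
            · right
              exact ⟨by omega, hplus h'⟩) (by
          rcases hc with h | h | h | ⟨h, h'⟩
          · exact Or.inl h
          · exact Or.inr (Or.inl (hflag h))
          · exact Or.inr (Or.inr (Or.inl (by omega)))
          · exact Or.inr (Or.inr (Or.inr ⟨by omega, hplus h'⟩)))
        exact ⟨W, w1.trans inf_le_left, w2, w3, w4, w5⟩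
      · obtain ⟨M', rfl⟩ : ∃ M', M = M' + 2 := ⟨M - 2, by omega⟩
        obtain ⟨W, w1, w2, w3, w4, w5⟩ := ih d' M' (Z ⊓ pp Q X) hinv k4 hd' hk' (by
          rcases hM with h | ⟨h, h'⟩
          · left; omega
          · right; exact ⟨by omega, hplus h'⟩) (by
          rcases hc with h | h | h | ⟨h, h'⟩
          · left
            rw [Nat.even_add] at h
            exact h.2 ⟨1, rfl⟩
          · exact Or.inr (Or.inl (hflag h))
          · exact Or.inr (Or.inr (Or.inl (by omega)))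
          · exact Or.inr (Or.inr (Or.inr ⟨by omega, hplus h'⟩)))
        have hdis := k2.mono_right w1
        have horth : ∀ u ∈ X, ∀ w ∈ W, polar Q u w = 0 := fun u hu w hw => (w1 hw).2 u hu
        refine ⟨X ⊔ W, sup_le hXZ (w1.trans inf_le_left), Sesq.inv_sup g1 w2, Sesq.nd_sup refl_bq g2 w3 horth, ?_, ?_⟩
        · have h7 := Submodule.finrank_sup_add_finrank_inf_eq X W
          rw [disjoint_iff.mp hdis, finrank_bot] at h7
          omega
        · rw [D_sup hdis horth (nd_res g2) (nd_res w3) ⟨2, by omega⟩ ⟨M', by omega⟩, g4, w5, ← pow_add, add_comm]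
    · push Not at hX
      rcases hM with hMd | ⟨rfl, hpl⟩
      swap
      · exact ⟨Z, le_rfl, hZ, hZnd, hd, hpl⟩
      -- a vector with `β = 1` in any invariant nondegenerate subspace of `Z` on which `T` is not trivial
      have hvec : ∀ Y ≤ Z, Inv T Y → NDq Q Y → finrank F (SW T Y) ≠ 0 → ∃ v ∈ Y, Q (T v - v) = 1 := by
        intro Y hY1 hY2 hY3 hY4
        have h3 : ∃ v ∈ Y, Q (T v - v) ≠ 0 := by
          by_contra hcon
          push Not at hcon
          apply hY4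
          have h5 : SW T Y = ⊥ := by
            rw [eq_bot_iff]
            intro z hz
            obtain ⟨⟨w, hw, rfl⟩, -⟩ := mem_SW.1 hz
            rw [Submodule.mem_bot]
            apply hY3 _ (Y.sub_mem (hY2 w hw) hw)
            intro x hx
            show polar Q (T w - w) x = 0
            rw [polar_comm]
            exact hX x (hY1 hx) w (hY1 hw) (hcon x hx) (hcon w hw)
          rw [h5, finrank_bot]
        obtain ⟨v, hv, hv0⟩ := h3
        exact exists_one h2 hv hv0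
      obtain ⟨v₁, hv₁, hb₁⟩ := hvec Z le_rfl hZ hZnd (by omega)
      obtain ⟨P₁, hP1, hP2, hP3, hP4⟩ := P_block h2 hT hTT hb₁
      have hPnd := hP1.nd (nd_pl_two h2 _)
      have hPfr : finrank F P₁ = 2 := by rw [hP1.finrank (nd_pl_two h2 _)]; simp
      have hP₁Z : P₁ ≤ Z := hP4 Z hv₁ (Z.sub_mem (hZ v₁ hv₁) hv₁)
      obtain ⟨k1, k2, k3, k4⟩ := Sesq.split_nd (B := Bq Q) refl_bq hZnd hPnd hP₁Z
      obtain ⟨Z₁, hZ₁⟩ : ∃ Z₁, Z ⊓ pp Q P₁ = Z₁ := ⟨_, rfl⟩
      have k1' : P₁ ⊔ (Z ⊓ pp Q P₁) = Z := k1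
      have k2' : Disjoint P₁ (Z ⊓ pp Q P₁) := k2
      have k3' : finrank F P₁ + finrank F ↥(Z ⊓ pp Q P₁) = finrank F Z := k3
      have k4' : NDq Q (Z ⊓ pp Q P₁) := k4
      have hinv : Inv T (Z ⊓ pp Q P₁) := Sesq.inv_inf hZ ((iso_bq hT).inv_perp (nd_top hQ) hP2)
      have hin1 : Z₁ ≤ Z := by rw [← hZ₁]; exact inf_le_left
      have horth1 : ∀ u ∈ P₁, ∀ w ∈ Z₁, polar Q u w = 0 := by rw [← hZ₁]; exact fun u hu w hw => hw.2 u hu
      rw [hZ₁] at k1' k2' k3' k4' hinv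
      have hSP : 2 * finrank F (SW T P₁) ≤ 2 := by
        have := SW_half hT hP2 hPnd
        omega
      have h4 := SW_add hs hP2 hinv k2'
      rw [k1'] at h4
      obtain ⟨v₂, hv₂, hb₂⟩ := hvec Z₁ hin1 hinv k4' (by omega)
      obtain ⟨P₂, hR1, hR2, hR3, hR4⟩ := P_block h2 hT hTT hb₂
      have hRnd := hR1.nd (nd_pl_two h2 _)
      have hRfr : finrank F P₂ = 2 := by rw [hR1.finrank (nd_pl_two h2 _)]; simp
      have hn₂ : T v₂ - v₂ ∈ Z₁ := Z₁.sub_mem (hinv v₂ hv₂) hv₂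
      have hP₂Z : P₂ ≤ Z₁ := hR4 Z₁ hv₂ hn₂
      obtain ⟨l1, l2, l3, l4⟩ := Sesq.split_nd (B := Bq Q) refl_bq k4' hRnd hP₂Z
      obtain ⟨Z₂, hZ₂⟩ : ∃ Z₂, Z₁ ⊓ pp Q P₂ = Z₂ := ⟨_, rfl⟩
      have l1' : P₂ ⊔ (Z₁ ⊓ pp Q P₂) = Z₁ := l1
      have l3' : finrank F P₂ + finrank F ↥(Z₁ ⊓ pp Q P₂) = finrank F Z₁ := l3
      have l4' : NDq Q (Z₁ ⊓ pp Q P₂) := l4
      have hinv2 : Inv T (Z₁ ⊓ pp Q P₂) := Sesq.inv_inf hinv ((iso_bq hT).inv_perp (nd_top hQ) hR2)
      have hin2 : Z₂ ≤ Z₁ := by rw [← hZ₂]; exact inf_le_left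
      have horth2 : ∀ u ∈ P₂, ∀ w ∈ Z₂, polar Q u w = 0 := by rw [← hZ₂]; exact fun u hu w hw => hw.2 u hu
      rw [hZ₂] at l1' l3' l4' hinv2
      -- `T` is trivial on `Z₂`
      have hZ₂triv : ∀ z ∈ Z₂, T z = z := by
        apply htriv Z₂ hinv2
        by_contra hcon
        obtain ⟨z, hz, hbz⟩ := hvec Z₂ (hin2.trans hin1) hinv2 l4' hcon
        have hnz : T z - z ∈ Z₂ := Z₂.sub_mem (hinv2 z hz) hz
        have e1 : Q (T (v₁ + v₂) - (v₁ + v₂)) = 0 := by
          rw [beta_add h2 hT hTT, hb₁, hb₂]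
          linear_combination h2
        have e2 : Q (T (v₂ + z) - (v₂ + z)) = 0 := by
          rw [beta_add h2 hT hTT, hb₂, hbz]
          linear_combination h2
        have e3 := hX (v₁ + v₂) (Z.add_mem hv₁ (hin1 hv₂)) (v₂ + z) (Z.add_mem (hin1 hv₂) (hin1 (hin2 hz))) e1 e2
        have e4 : T (v₂ + z) - (v₂ + z) = (T v₂ - v₂) + (T z - z) := by rw [map_add]; abel
        rw [e4, polar_add_left, polar_add_right, polar_add_right, horth1 v₁ hP3 _ hn₂, horth1 v₁ hP3 _ (hin2 hnz), ← QN h2 hT, hb₂,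
          horth2 v₂ hR3 _ hnz, add_zero, add_zero, zero_add] at e3
        exact one_ne_zero e3
      -- the rest
      obtain ⟨R, r1, r2, r3⟩ : ∃ R ≤ Z₂, NDq Q R ∧ finrank F R = 2 * (M - 1) := by
        rcases Nat.lt_or_ge (M - 1) (d - 2) with h5 | h5
        · obtain ⟨R, r1, r2, r3, -⟩ := exists_plus_sub l4' (d := d - 2) (M := M - 1) (by omega) (Or.inl h5)
          exact ⟨R, r1, r2, r3⟩
        · exact ⟨Z₂, le_rfl, l4', by omega⟩
      obtain ⟨s, hs1, hs2⟩ := exists_sign (nd_res r2) (N := M - 1) r3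
      obtain ⟨b, hb⟩ := exists_pl (F := F) h2 s (by rcases hs1 with h | ⟨h, -⟩ <;> simp [h])
      obtain ⟨c, hc'⟩ := exists_sqrt (F := F) h2 (b - Q v₁)
      have hn2fix : T (T v₂ - v₂) = T v₂ - v₂ := hs v₂
      have hn : T (v₁ + c • (T v₂ - v₂)) - (v₁ + c • (T v₂ - v₂)) = T v₁ - v₁ := by
        rw [map_add, map_smul, hn2fix]; abel
      have hQv : Q (v₁ + c • (T v₂ - v₂)) = b := by
        rw [Q_add, Q_smul, polar_smul_right, horth1 v₁ hP3 _ hn₂, hb₂, hc', smul_zero]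
        ring
      obtain ⟨P, hp1, hp2, hp3, hp4⟩ := P_block h2 hT hTT (v := v₁ + c • (T v₂ - v₂)) (by rw [hn, hb₁])
      rw [hQv] at hp1
      rw [hn] at hp4
      have hpnd := hp1.nd (nd_pl_two h2 _)
      have hpfr : finrank F P = 2 := by rw [hp1.finrank (nd_pl_two h2 _)]; simp
      have hn1P : T v₁ - v₁ ∈ P₁ := P₁.sub_mem (hP2 v₁ hP3) hP3
      have hn2P : T v₂ - v₂ ∈ P₂ := P₂.sub_mem (hR2 v₂ hR3) hR3
      have hPP : P ≤ P₁ ⊔ P₂ := hp4 _ (Submodule.add_mem _ (Submodule.mem_sup_left hP3) (Submodule.mem_sup_right (P₂.smul_mem _ hn2P)))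
        (Submodule.mem_sup_left hn1P)
      have horth : ∀ u ∈ P, ∀ w ∈ R, polar Q u w = 0 := by
        intro u hu w hw
        obtain ⟨a, ha, b', hb', rfl⟩ := Submodule.mem_sup.1 (hPP hu)
        rw [polar_add_left, horth1 a ha w (hin2 (r1 hw)), horth2 b' hb' w (r1 hw), add_zero]
      have hdis : Disjoint P R := by
        rw [Submodule.disjoint_def]
        intro x hx hx'
        exact hpnd x hx (fun w hw => by
          show polar Q x w = 0
          rw [polar_comm]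
          exact horth w hw x hx')
      refine ⟨P ⊔ R, sup_le (hPP.trans (sup_le hP₁Z (hP₂Z.trans hin1))) (r1.trans (hin2.trans hin1)), Sesq.inv_sup hp2 ?_,
        Sesq.nd_sup refl_bq hpnd r2 horth, ?_, ?_⟩
      · intro x hx
        rw [hZ₂triv x (r1 hx)]; exact hx
      · have h7 := Submodule.finrank_sup_add_finrank_inf_eq P R
        rw [disjoint_iff.mp hdis, finrank_bot] at h7
        omega
      · rw [D_sup hdis horth (nd_res hpnd) (nd_res r2) ⟨1, by omega⟩ ⟨M - 1, by omega⟩, hs2, hp1.D (nd_pl_two h2 _), hb]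
        have h8 : s * s = 1 := by rcases hs1 with h | ⟨h, -⟩ <;> rw [h] <;> norm_num
        have h9 : (Nat.card F : ℤ) ^ M = (Nat.card F : ℤ) * (Nat.card F : ℤ) ^ (M - 1) := by
          rw [← pow_succ']; congr 1; omega
        rw [h9]
        linear_combination (Nat.card F : ℤ) * (Nat.card F : ℤ) ^ (M - 1) * h8

end ev

end Cfsg.Agent.Lib.OrthR67
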