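import Mathlib
import Cfsg.Agent.Lib.OrthSymp67
import Cfsg.Agent.Lib.FieldStructB67
import Cfsg.Agent.Lib.OddOrth67

/-!
(helper67) Passing from orthogonal to symplectic spaces, elements of odd order.
-/

set_option autoImplicit false
set_option linter.unusedSectionVars false

namespace Cfsg.Agent.Lib.OrthSymp67

open QuadraticMap Module Cfsg.Agent.Lib.Quad Cfsg.Agent.Lib Cfsg.Agent.Lib.SympOrth67 Cfsg.Agent.Lib.HermAlg

universe u v w

variable {F : Type u} [Field F] [Finite F] {V : Type v} [AddCommGroup V] [Module F V] [FiniteDimensional F V]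
  {Q : QuadraticForm F V}

theorem nd_mov (hQ : Nd Q) {y : V ≃ₗ[F] V} (hy : y ∈ O Q) {m : ℕ} (hm : y ^ m = 1) (hmF : (m : F) ≠ 0) :
    Nd (res Q (mov y)) := by
  apply nd_of
  intro x hx
  apply Subtype.ext
  have h3 : (x : V) ∈ fixS y := by
    rw [hQ.fixS_eq hy, mem_perp']
    intro z hz
    have := hx ⟨z, hz⟩
    rw [polar_res] at this
    exact this
  exact OddOrth67.fix_inf_mov hm hmF h3 x.2

theorem mov_inv (y : V ≃ₗ[F] V) : ∀ x ∈ mov y, y x ∈ mov y := fun x hx => OddOrth67.comm_mov rfl hx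

theorem fix_rst {y : V ≃ₗ[F] V} {D : Submodule F V} (h : ∀ x ∈ D, y x ∈ D) (hfx : ∀ x ∈ D, y x = x → x = 0) :
    fixS (rst y D h) = ⊥ := by
  rw [eq_bot_iff]
  intro x hx
  rw [Submodule.mem_bot]
  apply Subtype.ext
  apply hfx x x.2
  exact congrArg Subtype.val (mem_fixS.1 hx)

theorem fix_mov {y : V ≃ₗ[F] V} {m : ℕ} (hm : y ^ m = 1) (hmF : (m : F) ≠ 0) : ∀ x ∈ mov y, y x = x → x = 0 :=
  fun _ hx h => OddOrth67.fix_inf_mov hm hmF (mem_fixS.2 h) hx

theorem eq_one_of_mov {y t : V ≃ₗ[F] V} {m : ℕ} (hm : y ^ m = 1) (hmF : (m : F) ≠ 0) {k : ℕ}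
    (h1 : ∀ x ∈ mov y, (t ^ k) x = x) (h2 : ∀ x ∈ fixS y, t x = x) : t ^ k = 1 := by
  obtain ⟨hinf, hsup⟩ := OddOrth67.fix_sup_mov hm hmF
  ext x
  have hx : x ∈ fixS y ⊔ mov y := by rw [hsup]; trivial
  obtain ⟨a, ha, b, hb, rfl⟩ := Submodule.mem_sup.1 hx
  rw [map_add, h1 b hb, pow_fix (h2 a ha)]; rfl

theorem orderOf_rst_mov {y : V ≃ₗ[F] V} {m : ℕ} (hm : y ^ m = 1) (hmF : (m : F) ≠ 0) :
    orderOf (rst y (mov y) (mov_inv y)) = orderOf y := by
  apply orderOf_eq_orderOf_iff.2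
  intro k
  rw [rst_pow_eq_one_iff]
  constructor
  · intro h1
    exact eq_one_of_mov hm hmF h1 (fun x hx => mem_fixS.1 hx)
  · intro h1 x _
    rw [h1]; rfl

theorem sq_eq_one {T : V ≃ₗ[F] V} (hQ : Nd Q) (hT : T ∈ O Q) [Nontrivial V] {c : F} (hc : ∀ x, T x = c • x) : c * c = 1 := by
  obtain ⟨x, hx⟩ := exists_ne (0 : V)
  have h1 : ∃ y, polar Q x y ≠ 0 := by
    by_contra hcon
    push Not at hcon
    exact hx (hQ.eq_zero hcon)
  obtain ⟨y, hy⟩ := h1
  have h2 := O_polar hT x y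
  rw [hc, hc, polar_smul_left, polar_smul_right, smul_eq_mul, smul_eq_mul] at h2
  have h3 : (c * c - 1) * polar Q x y = 0 := by linear_combination h2
  exact sub_eq_zero.1 ((mul_eq_zero.1 h3).resolve_right hy)

theorem pow_scalar {T : V ≃ₗ[F] V} {c : F} (hc : ∀ x, T x = c • x) (k : ℕ) (x : V) : (T ^ k) x = c ^ k • x := by
  induction k generalizing x with
  | zero => rw [pow_zero, pow_zero, one_smul]; rfl
  | succ k ih =>
    rw [pow_succ]
    show (T ^ k) (T x) = _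
    rw [ih, hc, smul_smul, pow_succ]

theorem odd_scalar {T : V ≃ₗ[F] V} (hQ : Nd Q) (hT : T ∈ O Q) [Nontrivial V] {N : ℕ} (hN : Odd N) (hTN : T ^ N = 1) {k : ℕ}
    {c : F} (hc : ∀ x, (T ^ k) x = c • x) : c = 1 := by
  have h1 := sq_eq_one hQ (Subgroup.pow_mem _ hT k) hc
  obtain ⟨x, hx⟩ := exists_ne (0 : V)
  have h2 := pow_scalar hc N x
  rw [← pow_mul, mul_comm, pow_mul, hTN, one_pow] at h2
  have h3 : (c ^ N - 1) • x = 0 := by
    rw [sub_smul, one_smul, ← h2]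
    exact sub_self x
  have h4 := sub_eq_zero.1 ((smul_eq_zero.1 h3).resolve_right hx)
  obtain ⟨m, rfl⟩ := hN
  rw [pow_succ, pow_mul, pow_two, h1, one_pow, one_mul] at h4
  exact h4

theorem line_fix (hQ : Nd Q) {y t : V ≃ₗ[F] V} (hy : y ∈ O Q) (ht : t ∈ O Q) (hyt : y * t = t * y) {m : ℕ} (hm : y ^ m = 1)
    (hmF : (m : F) ≠ 0) (hline : finrank F (fixS y) = 1) {N : ℕ} (hN : Odd N) (htN : t ^ N = 1) :
    ∀ x ∈ fixS y, t x = x := by
  obtain ⟨hinf, hsup⟩ := OddOrth67.fix_sup_mov hm hmF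
  have hnt : Nontrivial (fixS y) := by
    apply Module.nontrivial_of_finrank_pos (R := F); rw [hline]; omega
  have hinv : ∀ x ∈ fixS y, t x ∈ fixS y := fun x hx => OddOrth67.comm_fix hyt hx
  have hnd : Nd (res Q (fixS y)) := by
    apply nd_of
    intro x hx
    apply Subtype.ext
    apply hQ.eq_zero
    intro z
    have hz : z ∈ fixS y ⊔ mov y := by rw [hsup]; trivial
    obtain ⟨a, ha, b, hb, rfl⟩ := Submodule.mem_sup.1 hz
    have h1 := hx ⟨a, ha⟩
    rw [polar_res] at h1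
    have h3 := (hQ.fixS_eq hy).le x.2
    rw [mem_perp'] at h3
    rw [polar_add_right]
    show polar Q (x : V) a + polar Q (x : V) b = 0
    have h1' : polar Q (x : V) a = 0 := h1
    rw [h1', h3 b hb, add_zero]
  obtain ⟨w, hw0⟩ := exists_ne (0 : fixS y)
  have hgenL := (finrank_eq_one_iff_of_nonzero' w hw0).1 hline
  let T := rst t (fixS y) hinv
  obtain ⟨e, he⟩ := hgenL (T w)
  have hT : ∀ x, T x = e • x := by
    intro x
    obtain ⟨c, rfl⟩ := hgenL x
    rw [map_smul, ← he, smul_comm]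
  have h1 : e = 1 := odd_scalar (T := T) hnd (rst_mem ht _ _) hN (by
    rw [rst_pow_eq_one_iff]
    intro x _
    rw [htN]; rfl) (k := 1) (by intro x; rw [pow_one]; exact hT x)
  intro x hx
  have h2 := congrArg Subtype.val (hT ⟨x, hx⟩)
  rw [coe_rst, h1, one_smul] at h2
  exact h2

section Cases

variable {n : ℕ} {p : ℕ} [hp : Fact p.Prime] [hchar : CharP F p]

include hp hchar in
theorem caseA (hQ : Nd Q) (h2 : (2 : F) ≠ 0) (hn : 1 ≤ n) (hV : finrank F V = 2 * n + 1) {t : V ≃ₗ[F] V} (ht : t ∈ O Q)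
    (hodd : Odd (orderOf t)) (hN : ((orderOf t : ℕ) : F) ≠ 0) : ∃ g : Cfsg.PSp n F, orderOf t ∣ orderOf g := by
  have hm := pow_orderOf_eq_one t
  have hnd := nd_mov hQ ht hm hN
  have hfix := fix_rst (mov_inv t) (fix_mov hm hN)
  have hord := orderOf_rst_mov hm hN
  have hTO : rst t (mov t) (mov_inv t) ∈ O (res Q (mov t)) := rst_mem ht _ _
  have hev := even_finrank hnd hTO (by rw [hord]; exact hodd) hfix
  have hle : finrank F (mov t) ≤ 2 * n + 1 := hV ▸ Submodule.finrank_le _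
  rcases Nat.lt_or_ge (finrank F (mov t)) (2 * n) with hlt | hge
  · obtain ⟨g, hg⟩ := psp_one (p := p) hnd hTO (by rw [hord]; exact hodd) hfix hTO rfl h2 hlt
    refine ⟨g, ?_⟩
    rw [← hord]
    apply orderOf_dvd_of_pow_eq_one
    ext1 x
    exact hg _ (pow_orderOf_eq_one g) x
  · have h3 : finrank F (mov t) = 2 * n := by
      obtain ⟨m, hm⟩ := hev
      omega
    have hnt : Nontrivial (mov t) := by
      apply Module.nontrivial_of_finrank_pos (R := F); omega
    obtain ⟨g, hg⟩ := psp1 hnd hTO (by rw [hord]; exact hodd) hfix hTO rfl h3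
    refine ⟨g, ?_⟩
    rw [← hord]
    apply orderOf_dvd_of_pow_eq_one
    obtain ⟨c, hc⟩ := (hg _).1 (pow_orderOf_eq_one g)
    have hc1 : c = 1 := odd_scalar hnd hTO hodd (by rw [← hord]; exact pow_orderOf_eq_one _) hc
    ext1 x
    rw [hc, hc1, one_smul]; rfl

theorem caseA' (hQ : Nd Q) (h2 : (2 : F) ≠ 0) (hn : 1 ≤ n) (hV : finrank F V = 2 * n + 1) {t : V ≃ₗ[F] V} (ht : t ∈ O Q)
    {s : ℕ} (hs : s.Prime) (hsp : s ≠ p) (hs2 : s ≠ 2) (ho : orderOf t = p * s) : ∃ g : Cfsg.PSp n F, p * s ∣ orderOf g := by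
  have hpodd : Odd p := by
    apply hp.out.odd_of_ne_two
    rintro rfl
    exact h2 (by exact_mod_cast CharP.cast_eq_zero F 2)
  have hsodd : Odd s := hs.odd_of_ne_two hs2
  have hcop : Nat.Coprime p s := (Nat.coprime_primes hp.out hs).2 hsp.symm
  set y := t ^ p with hy
  have hyo : orderOf y = s := by
    rw [hy, orderOf_pow_of_dvd hp.out.ne_zero ⟨s, ho⟩, ho, Nat.mul_div_cancel_left _ hp.out.pos]
  have hsF : (s : F) ≠ 0 := by
    intro h
    exact hsp ((Nat.prime_dvd_prime_iff_eq hp.out hs).1 ((CharP.cast_eq_zero_iff F p s).1 h)).symm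
  have hyO : y ∈ O Q := Subgroup.pow_mem _ ht _
  have hm : y ^ s = 1 := by rw [← hyo]; exact pow_orderOf_eq_one y
  have hyt : y * t = t * y := by rw [hy, ← pow_succ, ← pow_succ']
  have hnd := nd_mov hQ hyO hm hsF
  have hfix := fix_rst (mov_inv y) (fix_mov hm hsF)
  have hord := orderOf_rst_mov hm hsF
  have hYO : rst y (mov y) (mov_inv y) ∈ O (res Q (mov y)) := rst_mem hyO _ _
  have hev := even_finrank hnd hYO (by rw [hord, hyo]; exact hsodd) hfix
  have hle : finrank F (mov y) ≤ 2 * n + 1 := hV ▸ Submodule.finrank_le _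
  rcases Nat.lt_or_ge (finrank F (mov y)) (2 * n) with hlt | hge
  · obtain ⟨g, hg⟩ := psp_uni (p := p) hnd hYO (by rw [hord, hyo]; exact hsodd) hfix hYO rfl h2 hlt
    refine ⟨g, hcop.mul_dvd_of_dvd_of_dvd ?_ ?_⟩
    · exact (hg _ (pow_orderOf_eq_one g)).2
    · rw [← hyo, ← hord]
      apply orderOf_dvd_of_pow_eq_one
      ext1 x
      exact (hg _ (pow_orderOf_eq_one g)).1 x
  · have h3 : finrank F (mov y) = 2 * n := by
      obtain ⟨m, hm⟩ := hev
      omega
    have hnt : Nontrivial (mov y) := by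
      apply Module.nontrivial_of_finrank_pos (R := F); omega
    have hinv : ∀ x ∈ mov y, t x ∈ mov y := fun x hx => OddOrth67.comm_mov hyt hx
    have hTO : rst t (mov y) hinv ∈ O (res Q (mov y)) := rst_mem ht _ _
    obtain ⟨g, hg⟩ := psp1 hnd hYO (by rw [hord, hyo]; exact hsodd) hfix hTO (by
      ext x
      exact LinearEquiv.congr_fun hyt (x : V)) h3
    refine ⟨g, ?_⟩
    rw [← ho]
    obtain ⟨c, hc⟩ := (hg _).1 (pow_orderOf_eq_one g)
    have hc1 : c = 1 := odd_scalar hnd hTO (N := orderOf t) (by rw [ho]; exact hpodd.mul hsodd) (by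
      rw [rst_pow_eq_one_iff]
      intro x _
      rw [pow_orderOf_eq_one]; rfl) hc
    apply orderOf_dvd_of_pow_eq_one
    apply eq_one_of_mov hm hsF
    · intro x hx
      have := congrArg Subtype.val (hc ⟨x, hx⟩)
      rw [coe_rst_pow, hc1, one_smul] at this
      exact this
    · apply line_fix hQ hyO ht hyt hm hsF _ (N := orderOf t) (by rw [ho]; exact hpodd.mul hsodd) (pow_orderOf_eq_one t)
      have := finrank_mov_add_fixS y
      omega

end Cases

end Cfsg.Agent.Lib.OrthSymp67
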