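import Mathlib
import Cfsg.Agent.Lib.OrthSympB67

/-!
(helper67) Passing from orthogonal to symplectic spaces, elements of even order.
-/

set_option autoImplicit false
set_option linter.unusedSectionVars false

namespace Cfsg.Agent.Lib.OrthSymp67

open QuadraticMap Module Cfsg.Agent.Lib.Quad Cfsg.Agent.Lib Cfsg.Agent.Lib.SympOrth67 Cfsg.Agent.Lib.HermAlg

universe u v w

theorem det_swap_block {F : Type u} [Field F] (n : ℕ) :
    (Matrix.fromBlocks (0 : Matrix (Fin n) (Fin n) F) (1 : Matrix (Fin n) (Fin n) F) (1 : Matrix (Fin n) (Fin n) F)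
      (0 : Matrix (Fin n) (Fin n) F)).det = (-1) ^ n := by
  have h1 : (Matrix.fromBlocks (1 : Matrix (Fin n) (Fin n) F) (1 : Matrix (Fin n) (Fin n) F) (1 : Matrix (Fin n) (Fin n) F)
      (0 : Matrix (Fin n) (Fin n) F)).det = (-1) ^ n := by
    rw [Matrix.det_fromBlocks_one₁₁]
    simp [Matrix.det_neg]
  have h3 : Matrix.fromBlocks (1 : Matrix (Fin n) (Fin n) F) (1 : Matrix (Fin n) (Fin n) F) (1 : Matrix (Fin n) (Fin n) F)
      (0 : Matrix (Fin n) (Fin n) F) =
      Matrix.fromBlocks (1 : Matrix (Fin n) (Fin n) F) (1 : Matrix (Fin n) (Fin n) F) (0 : Matrix (Fin n) (Fin n) F)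
        (1 : Matrix (Fin n) (Fin n) F) *
      Matrix.fromBlocks (0 : Matrix (Fin n) (Fin n) F) (1 : Matrix (Fin n) (Fin n) F) (1 : Matrix (Fin n) (Fin n) F)
        (0 : Matrix (Fin n) (Fin n) F) := by
    rw [Matrix.fromBlocks_multiply]
    simp
  rw [h3, Matrix.det_mul, Matrix.det_fromBlocks_zero₂₁] at h1
  simpa using h1

theorem det_zero_block {F : Type u} [Field F] (n : ℕ) (B C D : Matrix (Fin n) (Fin n) F) :
    (Matrix.fromBlocks 0 B C D).det = B.det * C.det * (-1) ^ n := by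
  have h3 : Matrix.fromBlocks 0 B C D = Matrix.fromBlocks B 0 D C *
      Matrix.fromBlocks (0 : Matrix (Fin n) (Fin n) F) (1 : Matrix (Fin n) (Fin n) F) (1 : Matrix (Fin n) (Fin n) F)
        (0 : Matrix (Fin n) (Fin n) F) := by
    rw [Matrix.fromBlocks_multiply]
    simp
  rw [h3, Matrix.det_mul, Matrix.det_fromBlocks_zero₁₂, det_swap_block]

variable {F : Type u} [Field F] [Finite F] {V : Type v} [AddCommGroup V] [Module F V] [FiniteDimensional F V]
  {Q : QuadraticForm F V}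

theorem isSquare_neg_one_pow (hQ : Nd Q) (h2 : (2 : F) ≠ 0) {n : ℕ} (hn : 1 ≤ n) {z : V ≃ₗ[F] V} (hz : z ∈ O Q)
    {W U Y : Submodule F V} (hzW : ∀ x ∈ W, z x = -x) (hmz : finrank F (mov z) = 2 * n) (hUW : U ≤ W) (hYW : Y ≤ W)
    (hUY : U ⊓ Y = ⊥) (hU : finrank F U = n) (hY : finrank F Y = n) (hUs : ∀ x ∈ U, ∀ x' ∈ U, polar Q x x' = 0)
    (hsq : IsSquare (wd Q z)) : IsSquare ((-1 : F) ^ n) := by
  classical
  let bU := finBasisOfFinrankEq F U hU
  let bY := finBasisOfFinrankEq F Y hY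
  let e : Fin n ⊕ Fin n → V := Sum.elim (fun i => (bU i : V)) (fun i => (bY i : V))
  have hne : Nonempty (Fin n ⊕ Fin n) := ⟨Sum.inl ⟨0, hn⟩⟩
  have heW : ∀ i, e i ∈ W := by
    rintro (i | i)
    · exact hUW (bU i).2
    · exact hYW (bY i).2
  have hez : ∀ i, e i - z (e i) = (2 : F) • e i := by
    intro i
    rw [hzW _ (heW i), sub_neg_eq_add, two_smul]
  have hli0 : LinearIndependent F e := by
    apply LinearIndependent.sum_type
    · exact bU.linearIndependent.map' U.subtype U.ker_subtype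
    · exact bY.linearIndependent.map' Y.subtype Y.ker_subtype
    · apply Disjoint.mono (Submodule.span_le.2 _) (Submodule.span_le.2 _) (disjoint_iff.2 hUY)
      · rintro _ ⟨i, rfl⟩; exact (bU i).2
      · rintro _ ⟨i, rfl⟩; exact (bY i).2
  have hli : LinearIndependent F (fun i => e i - z (e i)) := by
    have h3 : (fun i => e i - z (e i)) = fun i => ((2 : F) • (LinearMap.id : V →ₗ[F] V)) (e i) := by
      funext i
      rw [hez]; rfl
    rw [h3]
    apply hli0.map'
    rw [LinearMap.ker_eq_bot]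
    intro x x' hxx
    exact smul_right_injective V h2 hxx
  have hcard : Fintype.card (Fin n ⊕ Fin n) = finrank F (mov z) := by
    rw [Fintype.card_sum, Fintype.card_fin, hmz]; ring
  have s1 := SpinTorus67.isSquare_wd_mul hz e hli hcard
  have n1 := SpinTorus67.gram_det_ne_zero hQ hz e hli hcard
  let P : Matrix (Fin n) (Fin n) F := Matrix.of fun i j => 2 * polar Q (bU i : V) (bY j : V)
  let S : Matrix (Fin n) (Fin n) F := Matrix.of fun i j => 2 * polar Q (bY i : V) (bY j : V)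
  have hM : (Matrix.of fun i j => polar Q (e i - z (e i)) (e j)) = Matrix.fromBlocks 0 P P.transpose S := by
    ext i j
    rw [Matrix.of_apply, hez, polar_smul_left, smul_eq_mul]
    rcases i with i | i <;> rcases j with j | j
    · show 2 * polar Q (bU i : V) (bU j : V) = 0
      rw [hUs _ (bU i).2 _ (bU j).2, mul_zero]
    · rfl
    · show 2 * polar Q (bY i : V) (bU j : V) = 2 * polar Q (bU j : V) (bY i : V)
      rw [polar_comm]
    · rfl
  rw [hM, det_zero_block, Matrix.det_transpose] at s1 n1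
  have hw := wd_ne_zero hQ (⟨z, hz⟩ : O Q)
  have hP : P.det ≠ 0 := by
    intro h
    rw [h, zero_mul, zero_mul] at n1
    exact n1 rfl
  have h5 : (-1 : F) ^ n = (wd Q z * (P.det * P.det * (-1) ^ n)) / wd Q z / (P.det * P.det) := by
    have hw' : wd Q z ≠ 0 := hw
    field_simp
  rw [h5]
  exact (s1.div hsq).div ⟨P.det, rfl⟩

theorem four_dvd (h2 : (2 : F) ≠ 0) {n : ℕ} (hsq : IsSquare ((-1 : F) ^ n)) : 4 ∣ Nat.card F ^ n - 1 := by
  have hf := Fintype.ofFinite F
  have hodd : Odd (Nat.card F) := by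
    rw [Nat.card_eq_fintype_card]
    rw [← Nat.not_even_iff_odd]
    intro h
    have h4 : ringChar F = 2 := FiniteField.even_card_iff_char_two.2 (Nat.even_iff.1 h)
    apply h2
    have h5 := ringChar.Nat.cast_ringChar (R := F)
    rw [h4] at h5
    exact_mod_cast h5
  have h1 : 1 ≤ Nat.card F ^ n := Nat.one_le_pow _ _ Nat.card_pos
  have hmod : Nat.card F ^ n % 4 = 1 := by
    rcases Nat.even_or_odd n with hn | hn
    · obtain ⟨m, rfl⟩ := hn
      rw [← two_mul, pow_mul, Nat.pow_mod]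
      have h3 : Nat.card F ^ 2 % 4 = 1 := by
        obtain ⟨k, hk⟩ := hodd
        rw [hk]
        have : (2 * k + 1) ^ 2 = 4 * (k * k + k) + 1 := by ring
        rw [this]; omega
      rw [h3, one_pow]; norm_num
    · rw [hn.neg_one_pow, FiniteField.isSquare_neg_one_iff, ← Nat.card_eq_fintype_card] at hsq
      have h3 : Nat.card F % 4 = 1 := by
        obtain ⟨k, hk⟩ := hodd
        omega
      rw [Nat.pow_mod, h3, one_pow]; norm_num
  omega

theorem rst_scalar_irred_dvd {n : ℕ} {p : ℕ} [hp : Fact p.Prime] [hchar : CharP F p] (h2 : (2 : F) ≠ 0) (hn : 1 ≤ n)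
    {r : ℕ} (hr : r.Prime) (hr2 : r ≠ 2) (h4 : 4 ∣ Nat.card F ^ n - 1) (hrq : r ∣ Nat.card F ^ n - 1) :
    ∃ g : Cfsg.PSp n F, 2 * r ∣ orderOf g := by
  obtain ⟨g, hg⟩ := SympSpec.exists_split (F := F) (n := n) h2 hn
  refine ⟨g, ?_⟩
  have hcop : Nat.Coprime 4 r := by
    have : Nat.Coprime (2 ^ 2) r := Nat.Coprime.pow_left 2 ((Nat.coprime_primes Nat.prime_two hr).2 hr2.symm)
    exact this
  have h5 : 4 * r ∣ 2 * orderOf g := (hcop.mul_dvd_of_dvd_of_dvd h4 hrq).trans hg
  have h6 : 2 * (2 * r) ∣ 2 * orderOf g := by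
    have : 2 * (2 * r) = 4 * r := by ring
    rw [this]; exact h5
  exact Nat.dvd_of_mul_dvd_mul_left two_pos h6

end Cfsg.Agent.Lib.OrthSymp67
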