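import Mathlib
import Cfsg.Agent.Lib.OrthSympC67

/-!
(helper67) Passing from orthogonal to symplectic spaces, elements of order `2r`.
-/

set_option autoImplicit false
set_option linter.unusedSectionVars false

namespace Cfsg.Agent.Lib.OrthSymp67

open QuadraticMap Module Cfsg.Agent.Lib.Quad Cfsg.Agent.Lib Cfsg.Agent.Lib.SympOrth67 Cfsg.Agent.Lib.HermAlg

universe u v w

variable {F : Type u} [Field F] [Finite F] {V : Type v} [AddCommGroup V] [Module F V] [FiniteDimensional F V]
  {Q : QuadraticForm F V}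

theorem sub_case {n : ℕ} {p : ℕ} [hp : Fact p.Prime] [hchar : CharP F p] (h2 : (2 : F) ≠ 0) {y : V ≃ₗ[F] V} (hy : y ∈ O Q)
    {r : ℕ} (hr : r.Prime) (hr2 : r ≠ 2)
    (hyr : y ^ r = 1) {D : Submodule F V} (hD : D ≠ ⊥) (hinv : ∀ x ∈ D, y x ∈ D) (hfx : ∀ x ∈ D, y x = x → x = 0)
    (hnd : Nd (res Q D)) (hlt : finrank F D < 2 * n) : ∃ g : Cfsg.PSp n F, 2 * r ∣ orderOf g := by
  obtain ⟨x0, hx0, hx00⟩ := Submodule.exists_mem_ne_zero_of_ne_bot hD
  have hord : orderOf (rst y D hinv) = r := by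
    have := Fact.mk hr
    apply orderOf_eq_prime
    · rw [rst_pow_eq_one_iff]
      intro x _
      rw [hyr]; rfl
    · intro h
      apply hx00
      apply hfx x0 hx0
      have := LinearEquiv.congr_fun h ⟨x0, hx0⟩
      exact congrArg Subtype.val this
  have hodd := hr.odd_of_ne_two hr2
  obtain ⟨g, hg⟩ := psp_neg (p := p) hnd (rst_mem hy D hinv) (by rw [hord]; exact hodd) (fix_rst hinv hfx) (rst_mem hy D hinv) rfl
    h2 hlt
  refine ⟨g, ?_⟩
  have hk := hg _ (pow_orderOf_eq_one g)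
  have hev : Even (orderOf g) := by
    by_contra hcon
    rw [Nat.not_even_iff_odd] at hcon
    rw [hcon.neg_one_pow] at hk
    have h3 := pow_scalar hk r ⟨x0, hx0⟩
    rw [← pow_mul, mul_comm, pow_mul, ← hord, pow_orderOf_eq_one, one_pow, hord, hodd.neg_one_pow] at h3
    have h4 : x0 = (-1 : F) • x0 := congrArg Subtype.val h3
    apply hx00
    have h5 : (2 : F) • x0 = 0 := by
      rw [two_smul]
      conv_lhs => lhs; rw [h4]
      rw [neg_one_smul, neg_add_cancel]
    exact (smul_eq_zero.1 h5).resolve_left h2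
  apply Nat.Coprime.mul_dvd_of_dvd_of_dvd
  · exact (Nat.coprime_primes Nat.prime_two hr).2 hr2.symm
  · exact hev.two_dvd
  · rw [← hord]
    apply orderOf_dvd_of_pow_eq_one
    ext1 x
    rw [hk, hev.neg_one_pow, one_smul]; rfl

theorem exists_compl {y : V ≃ₗ[F] V} {r : ℕ} (hyr : y ^ r = 1) (hrF : (r : F) ≠ 0) (U : Submodule F V)
    (hU : ∀ x ∈ U, y x ∈ U) : ∃ X : Submodule F V, (∀ x ∈ X, y x ∈ X) ∧ IsCompl U X := by
  let T : Module.End F V := (y : V →ₗ[F] V)
  have hT : T ^ r = 1 := by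
    ext x
    rw [end_pow, hyr]; rfl
  have hss : T.IsSemisimple := by
    apply Module.End.isSemisimple_of_squarefree_aeval_eq_zero (p := (Polynomial.X ^ r - 1 : Polynomial F))
    · exact (Polynomial.X_pow_sub_one_separable_iff.2 hrF).squarefree
    · rw [map_sub, map_pow, Polynomial.aeval_X, map_one, hT, sub_self]
  rw [Module.End.isSemisimple_iff] at hss
  obtain ⟨X, hX, hc⟩ := hss U (by
    intro x hx
    exact hU x hx)
  exact ⟨X, fun x hx => hX hx, hc⟩

theorem spin_transfer {K : Type w} [Field K] [Finite K] [Algebra F K] [FiniteDimensional F K] {σ : K ≃ₐ[F] K}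
    {φ : K →ₗ[F] F} {Q' : QuadraticForm F K} {d : ℕ} (hset : SpinTorus67.Setup d Q' σ φ) {j : K →ₗ[F] V}
    (hQ : Nd Q) (hQ' : ∀ x, Q' x = Q (j x)) (hjinj : Function.Injective j) {z : V ≃ₗ[F] V} (hz : z ∈ O Q) {ζ : K}
    (hζσ : ζ * σ ζ = 1) (hζ : ∀ x, z (j x) = j (ζ * x)) (hζ1 : ζ ≠ 1) (hmov : finrank F (mov z) = 2 * d)
    (hsq : IsSquare (wd Q z)) : ζ ^ ((Nat.card F ^ d + 1) / 2) = 1 := by
  classical
  by_contra hζ2
  have h2 := hset.two
  let g' : K ≃ₗ[F] K := ofMap hset.nd (LinearMap.mulLeft F ζ) (by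
    intro x
    rw [hQ', hQ']
    show Q (j (ζ * x)) = _
    rw [← hζ, hz])
  have hg' : ∀ x, g' x = ζ * x := fun x => rfl
  have hg'O : g' ∈ O Q' := ofMap_mem _ _ _
  have hns := hset.spin_ne_one (hset.nd.R_eq_O (genHyp_of_two_ne_zero h2)) hζσ hζ2 hg'
  apply hns
  let b := finBasis F K
  have hKd : finrank F K = 2 * d := hset.fr
  have hd := hset.dpos
  have hne : Nonempty (Fin (finrank F K)) := ⟨⟨0, by omega⟩⟩
  have hli' : LinearIndependent F (fun i => (b i - g' (b i) : K)) := by
    have h3 : (fun i => (b i - g' (b i) : K)) = fun i => (LinearMap.mulLeft F (1 - ζ)) (b i) := by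
      funext i
      rw [hg']
      show _ = (1 - ζ) * b i
      ring
    rw [h3]
    apply b.linearIndependent.map'
    rw [LinearMap.ker_eq_bot]
    intro x y hxy
    exact mul_left_cancel₀ (sub_ne_zero.2 (Ne.symm hζ1)) hxy
  have hli : LinearIndependent F (fun i => (j (b i) - z (j (b i)) : V)) := by
    have h3 : (fun i => (j (b i) - z (j (b i)) : V)) = fun i => j (b i - g' (b i)) := by
      funext i
      rw [hζ, map_sub, hg']
    rw [h3]
    exact hli'.map' j (LinearMap.ker_eq_bot.2 hjinj)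
  have hc1 : Fintype.card (Fin (finrank F K)) = finrank F (mov z) := by
    rw [Fintype.card_fin, hKd, hmov]
  have hc2 : Fintype.card (Fin (finrank F K)) = finrank F (mov g') := by
    rw [Fintype.card_fin]
    have h3 : fixS g' = ⊥ := by
      rw [eq_bot_iff]
      intro x hx
      rw [Submodule.mem_bot]
      have h4 : ζ * x = x := mem_fixS.1 hx
      have h5 : (ζ - 1) * x = 0 := by rw [sub_mul, h4, one_mul, sub_self]
      exact (mul_eq_zero.1 h5).resolve_left (sub_ne_zero.2 hζ1)
    have h6 := finrank_mov_add_fixS g'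
    rw [h3, finrank_bot] at h6
    omega
  have s1 := SpinTorus67.isSquare_wd_mul hz (fun i => j (b i)) hli hc1
  have s2 := SpinTorus67.isSquare_wd_mul hg'O (fun i => b i) hli' hc2
  have n2 := SpinTorus67.gram_det_ne_zero hset.nd hg'O (fun i => b i) hli' hc2
  have hmat : (Matrix.of fun i k => polar Q (j (b i) - z (j (b i))) (j (b k))) =
      (Matrix.of fun i k => polar Q' (b i - g' (b i)) (b k)) := by
    ext i k
    simp only [Matrix.of_apply]
    rw [← polar_map (Q' := Q) (Q := Q') j (fun v => (hQ' v).symm), hζ, map_sub, hg']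
  rw [hmat] at s1
  rw [isSquare_mul_iff (wd_ne_zero hQ z) n2] at s1
  rw [isSquare_mul_iff (wd_ne_zero hset.nd g') n2] at s2
  exact s2.2 (s1.1 hsq)

/-- the final case: `z = -1` on the residual space of `y`. -/
theorem final_case {n : ℕ} {p : ℕ} [hp : Fact p.Prime] [hchar : CharP F p] (hQ : Nd Q) (h2 : (2 : F) ≠ 0) (hn : 1 ≤ n)
    (hV : finrank F V = 2 * n + 1) {y z : V ≃ₗ[F] V} (hy : y ∈ O Q) (hz : z ∈ O Q) (hyz : y * z = z * y)
    {r : ℕ} (hr : r.Prime) (hr2 : r ≠ 2)
    (hyr : y ^ r = 1) (hrF : (r : F) ≠ 0) (hW : finrank F (mov y) = 2 * n) (hzW : ∀ x ∈ mov y, z x = -x)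
    (hmz : finrank F (mov z) = 2 * n) (hsq : IsSquare (wd Q z)) : ∃ g : Cfsg.PSp n F, 2 * r ∣ orderOf g := by
  classical
  have hrf : Fact r.Prime := ⟨hr⟩
  have hfW := fix_mov hyr hrF
  obtain ⟨hinf, hsup⟩ := OddOrth67.fix_sup_mov hyr hrF
  have hfr := finrank_mov_add_fixS y
  have hL : finrank F (fixS y) = 1 := by omega
  have hnt : Nontrivial (mov y) := by
    apply Module.nontrivial_of_finrank_pos (R := F); omega
  by_cases hirr : ∀ U ≤ mov y, (∀ x ∈ U, y x ∈ U) → U ≠ ⊥ → U = mov y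
  · -- irreducible
    have hmovr : r ∣ Nat.card F ^ (2 * n) - 1 := by
      rw [← hW]
      exact FieldStruct67.card_modEq (r := r) ((rst y (mov y) (mov_inv y) : mov y ≃ₗ[F] mov y) : mov y →ₗ[F] mov y) (by
        ext1 x
        rw [end_pow, (rst_pow_eq_one_iff y (mov y) (mov_inv y) r).2 (fun x _ => by rw [hyr]; rfl)]; rfl) (by
        intro x hx
        apply Subtype.ext
        exact hfW x x.2 (congrArg Subtype.val hx))
    have hord : ∀ k, 0 < k → r ∣ Nat.card F ^ k - 1 → 2 * n ∣ k := by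
      intro k _ hk
      rw [← hW]
      refine FieldStruct67.hord_of_irred (r := r) ((rst y (mov y) (mov_inv y) : mov y ≃ₗ[F] mov y) : mov y →ₗ[F] mov y) (by
        ext1 x
        rw [end_pow, (rst_pow_eq_one_iff y (mov y) (mov_inv y) r).2 (fun x _ => by rw [hyr]; rfl)]; rfl) ?_ k hk
      intro U hU hU0
      have h3 := hirr (U.map (mov y).subtype) (by
        rintro _ ⟨x, -, rfl⟩
        exact x.2) (by
        rintro _ ⟨x, hx, rfl⟩
        exact ⟨_, hU x hx, rfl⟩) (by
        intro h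
        apply hU0
        rw [Submodule.eq_bot_iff] at h ⊢
        intro x hx
        exact Subtype.ext (h _ ⟨x, hx, rfl⟩))
      rw [eq_top_iff]
      rintro ⟨x, hx⟩ -
      rw [← h3] at hx
      obtain ⟨x', hx', rfl⟩ := hx
      exact hx'
    have hrd : r ∣ Nat.card F ^ n + 1 := by
      have h3 : Nat.card F ^ (2 * n) - 1 = (Nat.card F ^ n - 1) * (Nat.card F ^ n + 1) := by
        have h4 : 1 ≤ Nat.card F ^ n := Nat.one_le_pow _ _ Nat.card_pos
        obtain ⟨t, ht⟩ := Nat.exists_eq_add_of_le h4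
        rw [mul_comm 2 n, pow_mul, ht]
        have h5 : (1 + t) ^ 2 = (t * (1 + t + 1)) + 1 := by ring
        rw [h5]
        simp
      rw [h3] at hmovr
      rcases (Nat.Prime.dvd_mul hr).1 hmovr with h4 | h4
      · have h5 := Nat.le_of_dvd (by omega) (hord n (by omega) h4)
        omega
      · exact h4
    obtain ⟨K, _, _, _, _, σ, φ, Q', j, hset, hQ', hjinj, hjr, hcent⟩ :=
      OddOrth67.structure_lemma hQ h2 (by omega) hy hyr hrF hW hord hrd
    obtain ⟨ζ, hζσ, hζ⟩ := hcent z hz hyz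
    have hζ1 : ζ = -1 := by
      have h3 := hζ 1
      rw [hzW _ (by rw [← hjr]; exact ⟨1, rfl⟩), mul_one, ← map_neg] at h3
      exact (hjinj h3).symm
    have hneg : (-1 : K) ≠ 1 := by
      intro h
      apply hset.two'
      linear_combination -h
    have h4 := spin_transfer hset hQ hQ' hjinj hz hζσ hζ (by rw [hζ1]; exact hneg) hmz hsq
    rw [hζ1, neg_one_pow_eq_one_iff_even hneg] at h4
    obtain ⟨g, hg⟩ := SympSpec.exists_nonsplit (F := F) (n := n) p h2 hn
    refine ⟨g, ?_⟩
    have h5 : 4 ∣ Nat.card F ^ n + 1 := by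
      obtain ⟨m, hm⟩ := h4
      have hodd : Odd (Nat.card F) := by
        have hf := Fintype.ofFinite F
        rw [Nat.card_eq_fintype_card, ← Nat.not_even_iff_odd]
        intro h
        have h4 : ringChar F = 2 := FiniteField.even_card_iff_char_two.2 (Nat.even_iff.1 h)
        apply h2
        have h5 := ringChar.Nat.cast_ringChar (R := F)
        rw [h4] at h5
        exact_mod_cast h5
      obtain ⟨m', hm'⟩ : Odd (Nat.card F ^ n) := hodd.pow
      omega
    have hcop : Nat.Coprime 4 r := by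
      have : Nat.Coprime (2 ^ 2) r := Nat.Coprime.pow_left 2 ((Nat.coprime_primes Nat.prime_two hr).2 hr2.symm)
      exact this
    have h6 : 4 * r ∣ 2 * orderOf g := (hcop.mul_dvd_of_dvd_of_dvd h5 hrd).trans hg
    have h7 : 2 * (2 * r) ∣ 2 * orderOf g := by
      have : 2 * (2 * r) = 4 * r := by ring
      rw [this]; exact h6
    exact Nat.dvd_of_mul_dvd_mul_left two_pos h7
  · push Not at hirr
    obtain ⟨U0, hU0W, hU0inv, hU00, hU0ne⟩ := hirr
    have hyperp : ∀ A : Submodule F V, (∀ x ∈ A, y x ∈ A) → ∀ x ∈ perp Q A, y x ∈ perp Q A := by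
      intro A hA x hx
      rw [mem_perp'] at hx ⊢
      intro w hw
      have h3 : w = y (y⁻¹ w) := (y.apply_symm_apply w).symm
      rw [h3, O_polar hy]
      exact hx _ (inv_mem_of_mem hA w hw)
    by_cases hR : U0 ⊓ perp Q U0 = ⊥
    · apply sub_case (p := p) h2 hy hr hr2 hyr hU00 hU0inv (fun x hx => hfW x (hU0W hx))
      · apply nd_of
        intro x hx
        have h3' : (x : V) ∈ perp Q U0 := by
          rw [mem_perp']
          intro w hw
          have := hx ⟨w, hw⟩
          rw [polar_res] at this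
          exact this
        have h3 : (x : V) ∈ U0 ⊓ perp Q U0 := ⟨x.2, h3'⟩
        rw [hR, Submodule.mem_bot] at h3
        exact Subtype.ext h3
      · rw [← hW]
        exact Submodule.finrank_lt_finrank_of_lt (lt_of_le_of_ne hU0W hU0ne)
    set U := U0 ⊓ perp Q U0 with hU
    have hUW : U ≤ mov y := inf_le_left.trans hU0W
    have hUinv : ∀ x ∈ U, y x ∈ U := fun x hx => ⟨hU0inv x hx.1, hyperp U0 hU0inv x hx.2⟩
    have hUs : ∀ x ∈ U, ∀ x' ∈ U, polar Q x x' = 0 := by
      intro x hx x' hx'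
      have h3 : x ∈ perp Q U0 := hx.2
      rw [mem_perp'] at h3
      exact h3 x' hx'.1
    obtain ⟨X', hX'inv, hX'c⟩ := exists_compl hyr hrF U hUinv
    have hmovL : perp Q (fixS y) = mov y := by rw [hQ.fixS_eq hy, hQ.perp_perp]
    set U1 := perp Q (U ⊔ fixS y) with hU1
    have hU1W : U1 ≤ mov y := by
      rw [← hmovL, hU1]
      intro x hx
      rw [mem_perp'] at hx ⊢
      exact fun w hw => hx w (Submodule.mem_sup_right hw)
    have hU1U : ∀ x ∈ U1, ∀ u ∈ U, polar Q x u = 0 := by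
      intro x hx u hu
      rw [hU1, mem_perp'] at hx
      exact hx u (Submodule.mem_sup_left hu)
    have hUU1 : U ≤ U1 := by
      intro x hx
      rw [hU1, mem_perp']
      intro w hw
      obtain ⟨a, ha, b, hb, rfl⟩ := Submodule.mem_sup.1 hw
      have h3 : x ∈ perp Q (fixS y) := by rw [hmovL]; exact hUW hx
      rw [mem_perp'] at h3
      rw [polar_add_right, hUs x hx a ha, h3 b hb, add_zero]
    have hU1inv : ∀ x ∈ U1, y x ∈ U1 := by
      apply hyperp
      intro x hx
      obtain ⟨a, ha, b, hb, rfl⟩ := Submodule.mem_sup.1 hx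
      rw [map_add]
      exact Submodule.add_mem_sup (hUinv a ha) (by rw [mem_fixS.1 hb]; exact hb)
    have hfU1 : finrank F U1 + finrank F U = 2 * n := by
      have h3 := hQ.finrank_add_finrank_perp (U ⊔ fixS y)
      have h4 := Submodule.finrank_sup_add_finrank_inf_eq U (fixS y)
      have h5 : U ⊓ fixS y = ⊥ := by
        rw [eq_bot_iff, ← hinf, inf_comm]
        exact inf_le_inf_left _ hUW
      rw [h5, finrank_bot, hL] at h4
      rw [hV, ← hU1] at h3
      omega
    have hmodular : U ⊔ X' ⊓ U1 = U1 := by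
      rw [← sup_inf_assoc_of_le X' hUU1, hX'c.sup_eq_top, top_inf_eq]
    by_cases hX : X' ⊓ U1 = ⊥
    · rw [hX, sup_bot_eq] at hmodular
      have hUn : finrank F U = n := by rw [← hmodular] at hfU1; omega
      have hYW : U ⊔ X' ⊓ mov y = mov y := by
        rw [← sup_inf_assoc_of_le X' hUW, hX'c.sup_eq_top, top_inf_eq]
      have hUY : U ⊓ (X' ⊓ mov y) = ⊥ := by
        rw [← inf_assoc, hX'c.inf_eq_bot, bot_inf_eq]
      have hYn : finrank F (X' ⊓ mov y : Submodule F V) = n := by
        have h3 := Submodule.finrank_sup_add_finrank_inf_eq U (X' ⊓ mov y)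
        rw [hYW, hUY, finrank_bot, hW, hUn] at h3
        omega
      have hsq' := isSquare_neg_one_pow hQ h2 hn hz hzW hmz hUW inf_le_right hUY hUn hYn hUs hsq
      refine rst_scalar_irred_dvd (p := p) h2 hn hr hr2 (four_dvd h2 hsq') ?_
      rw [← hUn]
      exact FieldStruct67.card_modEq (r := r) ((rst y U hUinv : U ≃ₗ[F] U) : U →ₗ[F] U) (by
        ext1 x
        rw [end_pow, (rst_pow_eq_one_iff y U hUinv r).2 (fun x _ => by rw [hyr]; rfl)]; rfl) (by
        intro x hx
        apply Subtype.ext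
        exact hfW x (hUW x.2) (congrArg Subtype.val hx))
    · apply sub_case (p := p) h2 hy hr hr2 hyr hX (fun x hx => ⟨hX'inv x hx.1, hU1inv x hx.2⟩)
        (fun x hx => hfW x (hU1W hx.2))
      · apply nd_of
        intro x hx
        apply Subtype.ext
        have h3 : (x : V) ∈ perp Q U1 := by
          rw [mem_perp']
          intro w hw
          obtain ⟨a, ha, b, hb, rfl⟩ := Submodule.mem_sup.1 (hmodular.ge hw)
          have h4 := hx ⟨b, hb⟩
          rw [polar_res] at h4
          have h5 : polar Q (x : V) b = 0 := h4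
          rw [polar_add_right, hU1U x x.2.2 a ha, h5, add_zero]
        have h3' : (x : V) ∈ U ⊔ fixS y := (hQ.perp_perp (U ⊔ fixS y)).le h3
        obtain ⟨a, ha, b, hb, hab⟩ := Submodule.mem_sup.1 h3'
        have h4 : b ∈ fixS y ⊓ mov y := by
          refine ⟨hb, ?_⟩
          have h5 : b = (x : V) - a := by rw [← hab]; abel
          rw [h5]
          exact Submodule.sub_mem _ (hU1W x.2.2) (hUW ha)
        rw [hinf, Submodule.mem_bot] at h4
        rw [h4, add_zero] at hab
        have h5 : (x : V) ∈ U ⊓ X' := ⟨by rw [← hab]; exact ha, x.2.1⟩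
        rw [hX'c.inf_eq_bot, Submodule.mem_bot] at h5
        exact h5
      · have h3 : 0 < finrank F U := by
          have : Nontrivial U := Submodule.nontrivial_iff_ne_bot.2 hR
          exact finrank_pos
        have h4 : finrank F (X' ⊓ U1 : Submodule F V) ≤ finrank F U1 := Submodule.finrank_mono inf_le_right
        omega

theorem caseB {n : ℕ} {p : ℕ} [hp : Fact p.Prime] [hchar : CharP F p] (hQ : Nd Q) (h2 : (2 : F) ≠ 0) (hn : 1 ≤ n)
    (hV : finrank F V = 2 * n + 1) {t : V ≃ₗ[F] V} (htOm : t ∈ Om Q) {r : ℕ} (hr : r.Prime) (hrp : r ≠ p) (hr2 : r ≠ 2)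
    (ho : orderOf t = 2 * r) : ∃ g : Cfsg.PSp n F, 2 * r ∣ orderOf g := by
  have ht : t ∈ O Q := Om_le htOm
  have hrodd := hr.odd_of_ne_two hr2
  have hrpos := hr.pos
  have hrF : (r : F) ≠ 0 := by
    intro h
    exact hrp ((Nat.prime_dvd_prime_iff_eq hp.out hr).1 ((CharP.cast_eq_zero_iff F p r).1 h)).symm
  set y := t ^ 2 with hy
  set z := t ^ r with hz
  have hyO : y ∈ O Q := Subgroup.pow_mem _ ht _
  have hzO : z ∈ O Q := Subgroup.pow_mem _ ht _
  have hzOm : z ∈ Om Q := Subgroup.pow_mem _ htOm _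
  have hyo : orderOf y = r := by
    rw [hy, orderOf_pow_of_dvd two_ne_zero ⟨r, ho⟩, ho, Nat.mul_div_cancel_left _ two_pos]
  have hyr : y ^ r = 1 := by rw [← hyo]; exact pow_orderOf_eq_one y
  have hzo : orderOf z = 2 := by
    rw [hz, orderOf_pow_of_dvd hr.ne_zero ⟨2, by rw [ho]; ring⟩, ho, Nat.mul_div_cancel _ hr.pos]
  have hz1 : z ≠ 1 := by
    intro h
    rw [h, orderOf_one] at hzo
    omega
  have hzz : z * z = 1 := by rw [← pow_two, ← hzo]; exact pow_orderOf_eq_one z
  have hyz : y * z = z * y := by rw [hy, hz]; exact pow_mul_comm t _ _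
  have hyt : y * t = t * y := by rw [hy, ← pow_succ, ← pow_succ']
  have hnd := nd_mov hQ hyO hyr hrF
  have hfix := fix_rst (mov_inv y) (fix_mov hyr hrF)
  have hord := orderOf_rst_mov hyr hrF
  have hYO : rst y (mov y) (mov_inv y) ∈ O (res Q (mov y)) := rst_mem hyO _ _
  have hev := even_finrank hnd hYO (by rw [hord, hyo]; exact hrodd) hfix
  have hle : finrank F (mov y) ≤ 2 * n + 1 := hV ▸ Submodule.finrank_le _
  have hy1 : mov y ≠ ⊥ := by
    intro h
    rw [mov_eq_bot.1 h, orderOf_one] at hyo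
    exact hr.one_lt.ne hyo
  rcases Nat.lt_or_ge (finrank F (mov y)) (2 * n) with hlt | hge
  · exact sub_case (p := p) h2 hyO hr hr2 hyr hy1 (mov_inv y) (fix_mov hyr hrF) hnd hlt
  have hW : finrank F (mov y) = 2 * n := by
    obtain ⟨m, hm⟩ := hev
    omega
  have hnt : Nontrivial (mov y) := by
    apply Module.nontrivial_of_finrank_pos (R := F); omega
  have hinv : ∀ x ∈ mov y, t x ∈ mov y := fun x hx => OddOrth67.comm_mov hyt hx
  have hinvz : ∀ x ∈ mov y, z x ∈ mov y := fun x hx => OddOrth67.comm_mov hyz hx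
  have hTO : rst t (mov y) hinv ∈ O (res Q (mov y)) := rst_mem ht _ _
  by_cases hsc : ∃ c : F, ∀ x ∈ mov y, z x = c • x
  · obtain ⟨c, hc⟩ := hsc
    have hcc : c * c = 1 := sq_eq_one (T := rst z (mov y) hinvz) hnd (rst_mem hzO _ _) (by
      intro x
      exact Subtype.ext (hc x x.2))
    have hgen : GenHyp Q := genHyp_of_two_ne_zero h2
    have hhoms := (mem_Om_iff_homs hQ hgen ⟨z, hzO⟩).1 hzOm
    have hzev : Even (finrank F (mov z)) := sgn_eq_one_iff.1 hhoms.1
    have hsq : IsSquare (wd Q z) := sgn_eq_one_iff.1 hhoms.2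
    have hfrz := finrank_mov_add_fixS z
    rcases mul_self_eq_one_iff.1 hcc with h1 | h1
    · exfalso
      have h3 : mov y ≤ fixS z := by
        intro x hx
        rw [mem_fixS, hc x hx, h1, one_smul]
      have h4 := Submodule.finrank_mono h3
      obtain ⟨m, hm⟩ := hzev
      have h5 : finrank F (mov z) = 0 := by omega
      exact hz1 (mov_eq_bot.1 (Submodule.finrank_eq_zero.1 h5))
    · have hzW : ∀ x ∈ mov y, z x = -x := by
        intro x hx
        rw [hc x hx, h1, neg_one_smul]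
      have h3 : mov y ≤ mov z := by
        intro x hx
        refine mem_mov.2 ⟨(-(2 : F)⁻¹) • x, ?_⟩
        rw [map_smul, hzW x hx, smul_neg, ← neg_smul, neg_neg, ← sub_smul, sub_neg_eq_add]
        have : (2 : F)⁻¹ + (2 : F)⁻¹ = 1 := by
          rw [← two_mul, mul_inv_cancel₀ h2]
        rw [this, one_smul]
      have h4 := Submodule.finrank_mono h3
      have hmz : finrank F (mov z) = 2 * n := by
        obtain ⟨m, hm⟩ := hzev
        omega
      exact final_case (p := p) hQ h2 hn hV hyO hzO hyz hr hr2 hyr hrF hW hzW hmz hsq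
  · obtain ⟨g, hg⟩ := psp1 hnd hYO (by rw [hord, hyo]; exact hrodd) hfix hTO (by
      ext x
      exact LinearEquiv.congr_fun hyt (x : V)) hW
    refine ⟨g, ?_⟩
    obtain ⟨c, hc⟩ := (hg _).1 (pow_orderOf_eq_one g)
    have hcc : c * c = 1 := sq_eq_one hnd (Subgroup.pow_mem _ hTO _) hc
    have hc' : ∀ x ∈ mov y, (t ^ orderOf g) x = c • x := by
      intro x hx
      have := congrArg Subtype.val (hc ⟨x, hx⟩)
      rw [coe_rst_pow] at this
      exact this
    have hrk : r ∣ orderOf g := by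
      rw [← hyo, ← hord]
      apply orderOf_dvd_of_pow_eq_one
      rw [rst_pow_eq_one_iff]
      intro x hx
      have e : y ^ orderOf g = t ^ orderOf g * t ^ orderOf g := by
        rw [hy, ← pow_mul, ← pow_add]; congr 1; ring
      rw [e]
      show (t ^ orderOf g) ((t ^ orderOf g) x) = x
      rw [hc' x hx, map_smul, hc' x hx, smul_smul, hcc, one_smul]
    apply Nat.Coprime.mul_dvd_of_dvd_of_dvd
    · exact (Nat.coprime_primes Nat.prime_two hr).2 hr2.symm
    · by_contra hcon
      rw [← even_iff_two_dvd, Nat.not_even_iff_odd] at hcon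
      apply hsc
      obtain ⟨j, hj⟩ := hrk
      have hjodd : Odd j := by
        rw [hj] at hcon
        exact (Nat.odd_mul.1 hcon).2
      refine ⟨c, fun x hx => ?_⟩
      rw [← hc' x hx, hj, pow_mul, ← hz]
      obtain ⟨i, rfl⟩ := hjodd
      rw [pow_succ, pow_mul, pow_two, hzz, one_pow, one_mul]
    · exact hrk

end Cfsg.Agent.Lib.OrthSymp67
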