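import Mathlib
import Cfsg.Agent.Lib.OrthPar67
import Cfsg.Agent.Lib.OrthEv67
import Cfsg.Agent.Lib.SpTI

/-!
(helper67) Invariant totally singular subspaces of isometries of odd prime order `r`: existence.
-/

set_option autoImplicit false
set_option linter.unusedSectionVars false

namespace Cfsg.Agent.Lib.OrthR67

open QuadraticMap Module Cfsg.Agent.Lib.Quad Cfsg.Agent.Lib.QuadD67 Cfsg.Agent.Lib.QuadEmb67
open Cfsg.Agent.Lib.InvSub Cfsg.Agent.Lib.PrimeOrd Cfsg.Agent.Lib.OReal67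

universe u v w

/-- totally isotropic for the polar form -/
abbrev TIq {F : Type u} [Field F] {V : Type v} [AddCommGroup V] [Module F V] (Q : QuadraticForm F V) (W : Submodule F V) : Prop :=
  Sesq.TI (σ := RingHom.id F) (Bq Q) W

section ts
variable {F : Type u} [Field F] [Fintype F] {V : Type v} [AddCommGroup V] [Module F V] [FiniteDimensional F V]
variable {Q : QuadraticForm F V} {T : Module.End F V} {r : ℕ} {W X : Submodule F V}

theorem ti_of_ts (h : ∀ x ∈ X, Q x = 0) : TIq Q X := by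
  intro u hu v hv
  show polar Q u v = 0
  unfold polar
  rw [h u hu, h v hv, h _ (X.add_mem hu hv)]; ring

/-- invariant totally isotropic subspaces without fixed points are totally singular -/
theorem PR.ts_of_ti (h : PR r Q T) (hX : Inv T X) (hE : X ⊓ E T 1 = ⊥) (hti : TIq Q X) : ∀ x ∈ X, Q x = 0 := by
  intro x hx
  by_contra hc
  have h1 := (h.NN_mod hX hE (Q x)).2 hc
  have h0 := (h.NN_mod hX hE 0).1 rfl
  by_cases h2 : (2 : F) = 0
  · have h3 : NN (res Q X) (Q x) = NN (res Q X) 0 := by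
      apply Nat.card_congr
      exact {
        toFun := fun y => ⟨y.1 + ⟨x, hx⟩, by
          show Q ((y.1 : V) + x) = 0
          have h4 : Q (y.1 : V) = Q x := y.2
          rw [Q_add, h4, show polar Q (y.1 : V) x = 0 from hti _ y.1.2 _ hx, add_zero]
          linear_combination (Q x) * h2⟩
        invFun := fun y => ⟨y.1 + ⟨x, hx⟩, by
          show Q ((y.1 : V) + x) = Q x
          have h4 : Q (y.1 : V) = 0 := y.2
          rw [Q_add, h4, show polar Q (y.1 : V) x = 0 from hti _ y.1.2 _ hx, add_zero, zero_add]⟩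
        left_inv := fun y => by
          apply Subtype.ext
          show y.1 + ⟨x, hx⟩ + ⟨x, hx⟩ = y.1
          rw [add_assoc, add_self_two h2, add_zero]
        right_inv := fun y => by
          apply Subtype.ext
          show y.1 + ⟨x, hx⟩ + ⟨x, hx⟩ = y.1
          rw [add_assoc, add_self_two h2, add_zero] }
    rw [h3, h0] at h1
    have hrf : Fact r.Prime := ⟨h.hr⟩
    exact one_ne_zero h1
  · have h3 : polar Q x x = 0 := hti x hx x hx
    rw [polar_self'] at h3
    exact hc ((mul_eq_zero.1 h3).resolve_left h2)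

theorem PR.sum_mem (h : PR r Q T) (hW : Inv T W) (hE : W ⊓ E T 1 = ⊥) {x : V} (hx : x ∈ W) : ∑ j ∈ Finset.range r, (T ^ j) x = 0 := by
  have h1 : ∑ j ∈ Finset.range r, (T ^ j) x ∈ W ⊓ E T 1 := by
    refine ⟨W.sum_mem fun j _ => pow_mem hW j hx, mem_E.2 ?_⟩
    rw [map_sum]
    have h2 : ∀ j, T ((T ^ j) x) = (T ^ (j + 1)) x := fun j => by rw [pow_succ', Module.End.mul_apply]
    simp only [h2]
    have h3 := Finset.sum_range_succ' (fun j => (T ^ j) x) r
    have h4 := Finset.sum_range_succ (fun j => (T ^ j) x) r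
    rw [h4] at h3
    have h5 : (T ^ r) x = (T ^ 0) x := by rw [h.pow, pow_zero]
    rw [h5] at h3
    exact (add_right_cancel h3).symm
  rw [hE] at h1
  exact (Submodule.mem_bot F).1 h1

/-- totally isotropic cyclic subspaces from Chevalley–Warning -/
theorem PR.exists_ti_cw (h : PR r Q T) (hW : Inv T W) (hE : W ⊓ E T 1 = ⊥) (hdim : r - 1 < finrank F W) :
    ∃ X ≤ W, Inv T X ∧ TIq Q X ∧ finrank F X = orderOf ((Fintype.card F : ℕ) : ZMod r) := by
  obtain ⟨k, hk⟩ := h.odd
  have hr0 := h.hr.pos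
  obtain ⟨u, hu, hu0, hQ⟩ := SpTI.exists_common_zero (n := k) (fun j => Bq Q ∘ₗ (T ^ ((j : ℕ) + 1))) W (by omega)
  have hQ' : ∀ j, 1 ≤ j → j ≤ k → polar Q ((T ^ j) u) u = 0 := by
    intro j h1 h2
    have := hQ ⟨j - 1, by omega⟩
    simp only [LinearMap.comp_apply] at this
    rwa [show j - 1 + 1 = j by omega] at this
  have hisop : ∀ (j : ℕ) (a b : V), polar Q ((T ^ j) a) ((T ^ j) b) = polar Q a b := by
    intro j
    induction j with
    | zero => intro a b; rfl
    | succ j ih =>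
      intro a b
      rw [pow_succ, Module.End.mul_apply, Module.End.mul_apply, ih]
      exact polar_map T h.iso a b
  have hall0 : ∀ j, 1 ≤ j → j < r → polar Q ((T ^ j) u) u = 0 := by
    intro j hj0 hj
    by_cases hjk : j ≤ k
    · exact hQ' j hj0 hjk
    · have h1 := hisop (r - j) ((T ^ j) u) u
      rw [← Module.End.mul_apply, ← pow_add, show r - j + j = r by omega, h.pow, Module.End.one_apply] at h1
      rw [← h1, polar_comm, hQ' (r - j) (by omega) (by omega)]
  have hself : polar Q u u = 0 := by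
    have h1 := h.sum_mem hW hE hu
    have h2 : polar Q (∑ j ∈ Finset.range r, (T ^ j) u) u = 0 := by
      rw [h1]; simp [polar]
    have h3 : polar Q (∑ j ∈ Finset.range r, (T ^ j) u) u = ∑ j ∈ Finset.range r, polar Q ((T ^ j) u) u := by
      have := map_sum ((Bq Q).flip u) (fun j => (T ^ j) u) (Finset.range r)
      exact this
    rw [h3, Finset.sum_eq_single_of_mem 0 (Finset.mem_range.2 hr0) (fun j hj hj0 => hall0 j (by omega) (Finset.mem_range.1 hj))] at h2
    exact h2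
  have hall : ∀ j, j < r → polar Q ((T ^ j) u) u = 0 := by
    intro j hj
    rcases Nat.eq_zero_or_pos j with rfl | hj0
    · exact hself
    · exact hall0 j hj0 hj
  have hall' : ∀ j, polar Q ((T ^ j) u) u = 0 := by
    intro j
    have : T ^ j = T ^ (j % r) := by
      conv_lhs => rw [← Nat.div_add_mod j r, pow_add, pow_mul, h.pow, one_pow, one_mul]
    rw [this]
    exact hall _ (Nat.mod_lt _ hr0)
  let U : Submodule F V := Submodule.span F (Set.range fun j : ℕ => (T ^ j) u)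
  have hUT : Inv T U := by
    apply Sesq.inv_span
    rintro _ ⟨j, rfl⟩
    rw [← Module.End.mul_apply, ← pow_succ']
    exact Submodule.subset_span ⟨j + 1, rfl⟩
  have hUti : TIq Q U := by
    apply Sesq.ti_span
    rintro _ ⟨a, rfl⟩ _ ⟨b, rfl⟩
    show polar Q ((T ^ a) u) ((T ^ b) u) = 0
    rcases le_total a b with hab | hab
    · obtain ⟨c, rfl⟩ := Nat.exists_eq_add_of_le hab
      rw [pow_add, Module.End.mul_apply, hisop, polar_comm]
      exact hall' c
    · obtain ⟨c, rfl⟩ := Nat.exists_eq_add_of_le hab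
      rw [pow_add, Module.End.mul_apply, hisop]
      exact hall' c
  have hUW : U ≤ W := by
    apply Submodule.span_le.mpr
    rintro _ ⟨j, rfl⟩
    exact pow_mem hW j hu
  have huU : u ∈ U := Submodule.subset_span ⟨0, rfl⟩
  obtain ⟨X, hX, hXi, hXf⟩ := h.ss.ex U hUT (by
    intro hbot
    rw [hbot, Submodule.mem_bot] at huU
    exact hu0 huU) (by
    rw [disjoint_iff, eq_bot_iff, ← hE, inf_comm]
    exact inf_le_inf_right _ hUW)
  exact ⟨X, hX.trans hUW, hXi, fun x hx y hy => hUti x (hX hx) y (hX hy), hXf⟩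

/-- for odd order of `q`, irreducible subspaces are totally isotropic -/
theorem PR.exists_ti_odd (h : PR r Q T) (ho : ¬ Even (orderOf ((Fintype.card F : ℕ) : ZMod r))) (hW : Inv T W)
    (hne : W ≠ ⊥) (hE : W ⊓ E T 1 = ⊥) :
    ∃ X ≤ W, Inv T X ∧ TIq Q X ∧ finrank F X = orderOf ((Fintype.card F : ℕ) : ZMod r) := by
  obtain ⟨U, hUW, hU, hUf⟩ := h.ss.ex W hW hne (by rw [disjoint_iff, inf_comm]; exact hE)
  refine ⟨U, hUW, hU, Sesq.ti_iff.2 ?_, hUf⟩
  by_contra hnle
  have hR : Inv T (U ⊓ pp Q U) := Sesq.inv_inf hU ((iso_bq h.iso).inv_perp (nd_top h.nd) hU)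
  have hR0 : U ⊓ pp Q U = ⊥ := by
    by_contra hRne
    obtain ⟨U', hU'R, -, hU'f⟩ := h.ss.ex _ hR hRne (by
      rw [disjoint_iff, eq_bot_iff, ← hE, inf_comm]
      exact inf_le_inf_right _ (inf_le_left.trans hUW))
    have : U' = U := Submodule.eq_of_le_of_finrank_eq (hU'R.trans inf_le_left) (by rw [hU'f, hUf])
    apply hnle
    rw [this] at hU'R
    exact hU'R.trans inf_le_right
  have := h.even hU ((Sesq.nd_iff refl_bq).mpr hR0) (by
    rw [eq_bot_iff, ← hE]
    exact inf_le_inf_right _ hUW)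
  rw [hUf] at this
  exact ho this

/-- multiple totally isotropic invariant subspaces -/
theorem PR.ti_mult (h : PR r Q T) {i b : ℕ}
    (hat : ∀ W, Inv T W → NDq Q W → W ⊓ E T 1 = ⊥ → b < finrank F W → ∃ X ≤ W, Inv T X ∧ TIq Q X ∧ finrank F X = i) :
    ∀ (s : ℕ) (W : Submodule F V), Inv T W → NDq Q W → W ⊓ E T 1 = ⊥ → (s = 0 ∨ b + 2 * i * (s - 1) < finrank F W) →
      ∃ X ≤ W, Inv T X ∧ TIq Q X ∧ finrank F X = s * i := by
  have hT := iso_bq h.iso
  have hnd := nd_top h.nd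
  intro s
  induction s with
  | zero =>
    intro W _ _ _ _
    exact ⟨⊥, bot_le, fun x hx => by rw [(Submodule.mem_bot F).mp hx, map_zero]; exact Submodule.zero_mem _,
      fun u hu v _ => by rw [(Submodule.mem_bot F).mp hu, map_zero, LinearMap.zero_apply], by rw [finrank_bot, Nat.zero_mul]⟩
  | succ s ih =>
    intro W hW hWnd hPW hs
    have hs' : b + 2 * i * s < finrank F W := by
      rcases hs with h | h
      · omega
      · simpa using h
    obtain ⟨X, hXW, hX, hXti, hXf⟩ := hat W hW hWnd hPW (by omega)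
    obtain ⟨H, hHW, hH, hHnd, hHf, hXH⟩ := Sesq.exists_double_nd (B := Bq Q) refl_bq hnd hT h.ss.compl hW hWnd hX hXW hXti
    obtain ⟨g1, g2, g3, g4⟩ := Sesq.split_nd (B := Bq Q) refl_bq hWnd hHnd hHW
    have g3' : finrank F H + finrank F ↥(W ⊓ pp Q H) = finrank F W := g3
    obtain ⟨Y, hYW, hY, hYti, hYf⟩ := ih (W ⊓ pp Q H) (h.inf_perp_inv hW hH) g4 (by
      rw [eq_bot_iff, ← hPW]; exact inf_le_inf_right _ inf_le_left) (by
      rcases Nat.eq_zero_or_pos s with h | h
      · exact Or.inl h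
      · right
        have h2 : 2 * i * s = 2 * i * (s - 1) + 2 * i := by
          obtain ⟨k, rfl⟩ := Nat.exists_eq_add_of_lt h
          simp only [zero_add, Nat.add_sub_cancel]; ring
        omega)
    have horth : ∀ x ∈ X, ∀ y ∈ Y, polar Q x y = 0 := fun x hx y hy => (hYW hy).2 x (hXH hx)
    refine ⟨X ⊔ Y, sup_le hXW (hYW.trans inf_le_left), Sesq.inv_sup hX hY, ?_, ?_⟩
    · intro u hu v hv
      obtain ⟨x, hx, y, hy, rfl⟩ := Submodule.mem_sup.mp hu
      obtain ⟨x', hx', y', hy', rfl⟩ := Submodule.mem_sup.mp hv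
      show polar Q (x + y) (x' + y') = 0
      have e1 : polar Q x x' = 0 := hXti x hx x' hx'
      have e2 : polar Q y y' = 0 := hYti y hy y' hy'
      rw [polar_add_left, polar_add_right, polar_add_right, e1, e2, horth x hx y' hy', polar_comm Q y x', horth x' hx' y hy]
      simp
    · have h5 := Submodule.finrank_sup_add_finrank_inf_eq X Y
      rw [disjoint_iff.mp (g2.mono hXH hYW), finrank_bot] at h5
      rw [Nat.succ_mul]; omega

/-- totally singular subspaces of nondegenerate spaces -/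
theorem exists_ts_sub {Z : Submodule F V} (hZnd : NDq Q Z) {e : ℕ} (he : 2 * e ≤ finrank F Z)
    (he' : 2 * e = finrank F Z → D (res Q Z) = (Nat.card F : ℤ) ^ e) : ∃ X ≤ Z, (∀ x ∈ X, Q x = 0) ∧ finrank F X = e := by
  obtain ⟨X, i1, i2, i3, QX, hX1, hX2, hX3⟩ := exists_space (F := F) e 1 (Or.inl rfl)
  rw [one_mul] at hX3
  obtain ⟨f, hf⟩ := emb (nd_res hZnd) hX1 (by
    rcases Nat.lt_or_ge (finrank F X) (finrank F Z) with h | h
    · exact Or.inl h
    · right; exact ⟨by omega, ⟨e, by omega⟩, by rw [hX3, he' (by omega)]⟩)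
  have hf' : ∀ x, Q ((Z.subtype ∘ₗ f) x) = QX x := hf
  have hinj := inj_nd hX1 hf'
  obtain ⟨U, hU1, hU2⟩ := (plus_iff hX1 hX2).2 hX3
  refine ⟨U.map (Z.subtype ∘ₗ f), ?_, ?_, ?_⟩
  · rintro _ ⟨x, -, rfl⟩
    exact (f x).2
  · rintro _ ⟨x, hx, rfl⟩
    rw [hf']; exact hU1 x hx
  · rw [LinearEquiv.finrank_eq (Submodule.equivMapOfInjective _ hinj U).symm]
    omega

/-- existence of invariant totally singular subspaces -/
theorem PR.exists_ts (h : PR r Q T) {e' s' : ℕ} (he : 2 * e' ≤ finrank F (E T (1 : F)))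
    (he' : 2 * e' = finrank F (E T (1 : F)) → D (res Q (E T (1 : F))) = (Nat.card F : ℤ) ^ e')
    (hs : s' = 0 ∨ (if Even (orderOf ((Fintype.card F : ℕ) : ZMod r)) then
        r - 1 + 2 * orderOf ((Fintype.card F : ℕ) : ZMod r) * (s' - 1) < finrank F (pp Q (E T (1 : F)))
      else 2 * orderOf ((Fintype.card F : ℕ) : ZMod r) * s' ≤ finrank F (pp Q (E T (1 : F))))) :
    ∃ X : Submodule F V, Inv T X ∧ (∀ x ∈ X, Q x = 0) ∧ finrank F X = e' + s' * orderOf ((Fintype.card F : ℕ) : ZMod r) := by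
  obtain ⟨i, hi⟩ : ∃ i, orderOf ((Fintype.card F : ℕ) : ZMod r) = i := ⟨_, rfl⟩
  have hi0 : 0 < i := by rw [← hi]; exact ord_pos h.hr h.ne
  rw [hi] at hs ⊢
  obtain ⟨h1, h2, h3, h4⟩ := h.pp_E
  obtain ⟨X, hX1, hX2, hX3⟩ := exists_ts_sub h.nd_E he he'
  obtain ⟨Y, hY1, hY2, hY3, hY4⟩ : ∃ Y ≤ pp Q (E T (1 : F)), Inv T Y ∧ TIq Q Y ∧ finrank F Y = s' * i := by
    by_cases hev : Even i
    · rw [if_pos hev] at hs
      exact h.ti_mult (i := i) (b := r - 1) (fun W hW _ hPW hb => by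
        rw [← hi]; exact h.exists_ti_cw hW hPW hb) s' _ h2 h1 h3 hs
    · rw [if_neg hev] at hs
      refine h.ti_mult (i := i) (b := 0) (fun W hW _ hPW hb => ?_) s' _ h2 h1 h3 ?_
      · rw [← hi] at hev ⊢
        exact h.exists_ti_odd hev hW (by rintro rfl; rw [finrank_bot] at hb; omega) hPW
      · rcases Nat.eq_zero_or_pos s' with h | h
        · exact Or.inl h
        · right
          have h7 : 2 * i * s' = 2 * i * (s' - 1) + 2 * i := by
            obtain ⟨k, rfl⟩ := Nat.exists_eq_add_of_lt h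
            simp only [zero_add, Nat.add_sub_cancel]; ring
          omega
  have hYE : Y ⊓ E T 1 = ⊥ := by
    rw [eq_bot_iff, ← h3]; exact inf_le_inf_right _ hY1
  have hYts := h.ts_of_ti hY2 hYE hY3
  refine ⟨X ⊔ Y, Sesq.inv_sup (inv_of_le_E hX1) hY2, ?_, ?_⟩
  · intro u hu
    obtain ⟨x, hx, y, hy, rfl⟩ := Submodule.mem_sup.mp hu
    have e1 : polar Q x y = 0 := hY1 hy x (hX1 hx)
    rw [Q_add, hX2 x hx, hYts y hy, e1]; ring
  · have h6 := Submodule.finrank_sup_add_finrank_inf_eq X Y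
    have h7 : X ⊓ Y = ⊥ := by
      rw [eq_bot_iff, ← hYE, inf_comm]
      exact inf_le_inf_left _ hX1
    rw [h7, finrank_bot] at h6
    omega

theorem two_mul_ts_le (hWnd : NDq Q W) {U : Submodule F V} (hU : U ≤ W) (hts : ∀ x ∈ U, Q x = 0) :
    2 * finrank F U ≤ finrank F W ∧ (2 * finrank F U = finrank F W → D (res Q W) = (Nat.card F : ℤ) ^ finrank F U) := by
  refine ⟨ti_half hWnd hU (fun x hx y hy => ti_of_ts hts x hx y hy), fun h => ?_⟩
  have h4 : finrank F (U.comap W.subtype) = finrank F U := by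
    have h5 : (U.comap W.subtype).map W.subtype = U := by
      rw [Submodule.map_comap_subtype, inf_eq_right]; exact hU
    rw [← Submodule.finrank_map_subtype_eq W (U.comap W.subtype), h5]
  rw [D_of_ts (nd_res hWnd) (W := U.comap W.subtype) (fun w hw => hts _ hw) (by rw [h4, h]), h4]

theorem PR.le_pp_E (h : PR r Q T) (hW : Inv T W) (hE : W ⊓ E T 1 = ⊥) : W ≤ pp Q (E T (1 : F)) := by
  have hinj : ∀ x ∈ W, T x - x = 0 → x = 0 := by
    intro x hx h0
    have h1 : x ∈ W ⊓ E T 1 := ⟨hx, mem_E.2 (sub_eq_zero.1 h0)⟩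
    rw [hE] at h1
    exact (Submodule.mem_bot F).mp h1
  have hmap : W.map (T - 1) = W := by
    apply Submodule.eq_of_le_of_finrank_eq
    · rintro _ ⟨x, hx, rfl⟩
      exact W.sub_mem (hW x hx) hx
    · have h1 := finrank_map_sub T W
      have h2 : W ⊓ LinearMap.ker (T - 1) = ⊥ := by
        rw [eq_bot_iff]
        rintro x ⟨hx, hx'⟩
        exact (Submodule.mem_bot F).2 (hinj x hx hx')
      rw [h2, finrank_bot, add_zero] at h1
      exact h1
  intro w hw u hu
  rw [← hmap] at hw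
  obtain ⟨x, -, rfl⟩ := hw
  show polar Q u (T x - x) = 0
  have hTu : T u = u := mem_E.1 hu
  have h1 : polar Q (T u) (T x) = polar Q u x := polar_map T h.iso u x
  rw [hTu] at h1
  rw [polar_sub_right, h1, sub_self]

/-- decomposition of an invariant totally singular subspace -/
theorem PR.ts_dim (h : PR r Q T) (hW : Inv T W) (hts : ∀ x ∈ W, Q x = 0) :
    ∃ W₂ ≤ W, Inv T W₂ ∧ W₂ ≤ pp Q (E T (1 : F)) ∧ ∃ e' s', 2 * e' ≤ finrank F (E T (1 : F)) ∧
      (2 * e' = finrank F (E T (1 : F)) → D (res Q (E T (1 : F))) = (Nat.card F : ℤ) ^ e') ∧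
      finrank F W₂ = s' * orderOf ((Fintype.card F : ℕ) : ZMod r) ∧ finrank F W = e' + s' * orderOf ((Fintype.card F : ℕ) : ZMod r) := by
  have hss := h.ss
  have hE : Inv T (W ⊓ E T 1) := inv_of_le_E inf_le_right
  obtain ⟨W₂', hW₂', hc⟩ := hss.compl _ hE
  have h1 : (W ⊓ E T 1) ⊔ (W ⊓ W₂') = W := by
    rw [inf_comm W W₂', ← sup_inf_assoc_of_le _ (inf_le_left : W ⊓ E T 1 ≤ W), hc.sup_eq_top, top_inf_eq]
  have h2 : (W ⊓ E T 1) ⊓ (W ⊓ W₂') = ⊥ := by
    rw [eq_bot_iff, ← hc.inf_eq_bot]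
    exact inf_le_inf_left _ inf_le_right
  have h3 : Inv T (W ⊓ W₂') := Sesq.inv_inf hW hW₂'
  have h4 : (W ⊓ W₂') ⊓ E T 1 = ⊥ := by
    rw [eq_bot_iff, ← h2]
    exact le_inf (le_inf (inf_le_left.trans inf_le_left) inf_le_right) inf_le_left
  obtain ⟨s', hs'⟩ := hss.dvd h3 (by rw [disjoint_iff, inf_comm]; exact h4)
  have h5 := Submodule.finrank_sup_add_finrank_inf_eq (W ⊓ E T 1) (W ⊓ W₂')
  rw [h1, h2, finrank_bot] at h5
  obtain ⟨h6, h7⟩ := two_mul_ts_le h.nd_E (inf_le_right : W ⊓ E T 1 ≤ E T 1) (fun x hx => hts x hx.1)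
  refine ⟨W ⊓ W₂', inf_le_left, h3, h.le_pp_E h3 h4, finrank F ↥(W ⊓ E T 1), s', h6, h7, by rw [hs', mul_comm], ?_⟩
  rw [mul_comm] at hs'
  omega

end ts

end Cfsg.Agent.Lib.OrthR67
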