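import Mathlib
import Cfsg.Agent.Lib.OrthTS67
import Cfsg.Agent.Lib.SpTI3

/-!
(helper67) Isometries of odd prime order `r` with few invariant totally singular subspaces.
-/

set_option autoImplicit false
set_option linter.unusedSectionVars false

namespace Cfsg.Agent.Lib.OrthR67

open Polynomial QuadraticMap Module Cfsg.Agent.Lib.Quad Cfsg.Agent.Lib.QuadD67 Cfsg.Agent.Lib.QuadEmb67
open Cfsg.Agent.Lib.InvSub Cfsg.Agent.Lib.PrimeOrd Cfsg.Agent.Lib.OReal67

universe u v w

section ndker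
variable {F : Type u} [Field F] [Fintype F] {V : Type v} [AddCommGroup V] [Module F V] [FiniteDimensional F V]
variable {Q : QuadraticForm F V} {T : Module.End F V} {r : ℕ} {W : Submodule F V}

theorem PR.nd_ker (h : PR r Q T) (he : Even (orderOf ((Fintype.card F : ℕ) : ZMod r))) (hW : Inv T W)
    (hWnd : NDq Q W) {f : F[X]} (hfd : f ∣ Polynomial.X ^ r - 1) : NDq Q (W ⊓ LinearMap.ker (aeval T f)) := by
  have hi0 := ord_pos (F := F) h.hr h.ne
  have hTT : aeval T (Polynomial.X ^ r - 1 : F[X]) = 0 := by rw [map_sub, map_pow, aeval_X, map_one, h.pow, sub_self]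
  obtain ⟨g, hg⟩ := hfd
  have hsep : (Polynomial.X ^ r - 1 : F[X]).Separable := by
    have := separable_X_pow_sub_C (1 : F) h.ne one_ne_zero
    rwa [C_1] at this
  have hcop : IsCoprime f g := by
    rw [hg] at hsep
    exact hsep.isCoprime
  obtain ⟨a, b, hab⟩ := hcop
  have hadj := Sesq.adj_poly (B := Bq Q) (fun u v => Sesq.iso_adj (iso_bq h.iso) h.hr.pos h.pow u v) f
  have hWpoly : ∀ (P : F[X]) (x : V), x ∈ W → aeval T P x ∈ W := by
    intro P x hx
    induction P using Polynomial.induction_on' with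
    | add p q hp hq => rw [map_add]; exact W.add_mem hp hq
    | monomial k c =>
      rw [← C_mul_X_pow_eq_monomial, map_mul, aeval_C, map_pow, aeval_X]
      exact W.smul_mem c (pow_mem hW k hx)
  intro m hm hm'
  apply hWnd m hm.1
  intro x hx
  have hx1 : x = aeval T (b * g) x + aeval T f (aeval T a x) := by
    have : aeval T (b * g) x + aeval T f (aeval T a x) = aeval T (a * f + b * g) x := by
      rw [mul_comm a f, map_add, map_mul (aeval T) f a, LinearMap.add_apply, Module.End.mul_apply, add_comm]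
    rw [this, hab, map_one]; rfl
  have h1 : aeval T (b * g) x ∈ W ⊓ LinearMap.ker (aeval T f) := by
    refine Submodule.mem_inf.mpr ⟨hWpoly _ x hx, ?_⟩
    rw [LinearMap.mem_ker, ← Module.End.mul_apply, ← map_mul, show f * (b * g) = b * (f * g) by ring, ← hg, map_mul, hTT,
      mul_zero]
    rfl
  have h2 : polar Q m (aeval T f (aeval T a x)) = 0 := by
    rw [polar_comm]
    have h3 := hadj (aeval T a x) m
    rw [Sesq.aeval_inv h.hr h.pow rfl he hi0 (by exact hm.2), map_zero] at h3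
    exact h3
  rw [hx1, map_add, hm' _ h1, zero_add]
  exact h2

/-- multiplicity-free isometries are anisotropic -/
theorem PR.aniso_of (h : PR r Q T) (he : Even (orderOf ((Fintype.card F : ℕ) : ZMod r)))
    (hker : ∀ f : F[X], Irreducible f → f ∣ Polynomial.X ^ r - 1 → finrank F (LinearMap.ker (aeval T f)) ≤ f.natDegree) {X : Submodule F V}
    (hX : Inv T X) (hti : TIq Q X) : X = ⊥ := by
  by_contra hne
  have hX0 : (Polynomial.X ^ r - 1 : F[X]) ≠ 0 := X_pow_sub_C_ne_zero h.hr.pos 1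
  have hTT : aeval T (Polynomial.X ^ r - 1 : F[X]) = 0 := by rw [map_sub, map_pow, aeval_X, map_one, h.pow, sub_self]
  obtain ⟨f, hf, hfd, w, hw, hw0, hfw⟩ := exists_irred_factor hX0 hTT hX hne
  obtain ⟨U, hU, hUf, hwU, hmin⟩ := cyclic_aux hf hw0 hfw
  have h1 : U ≤ X := hmin X hX hw
  have h2 : U ≤ LinearMap.ker (aeval T f) := hmin _ (SpTI.ker_inv f) hfw
  have h3 : U = LinearMap.ker (aeval T f) := Submodule.eq_of_le_of_finrank_le h2 (by rw [hUf]; exact hker f hf hfd)
  have h4 := h.nd_ker he (W := ⊤) (fun _ _ => trivial) (nd_top h.nd) hfd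
  rw [top_inf_eq, ← h3] at h4
  exact hw0 (h4 w hwU (fun y hy => hti w (h1 hwU) y (h1 hy)))

end ndker

section bound
variable {F : Type u} [Field F] [Fintype F] {V : Type v} [AddCommGroup V] [Module F V] [FiniteDimensional F V]
variable {Q : QuadraticForm F V} {T : Module.End F V} {r : ℕ} {W : Submodule F V}

theorem finrank_pairing (hQ : Nd Q) (U W : Submodule F V) :
    finrank F ↥(W ⊓ pp Q U) + finrank F U = finrank F ↥(U ⊓ pp Q W) + finrank F W := by
  have hnd := nd_top hQ
  have h1 := Sesq.finrank_add_perp (σ := RingHom.id F) hnd U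
  have h2 := Submodule.finrank_sup_add_finrank_inf_eq W (pp Q U)
  have h3 := Sesq.finrank_add_perp (σ := RingHom.id F) hnd (W ⊔ pp Q U)
  have h4 : pp Q (W ⊔ pp Q U) = U ⊓ pp Q W := by
    show Sesq.perp (σ := RingHom.id F) (Bq Q) (W ⊔ Sesq.perp (σ := RingHom.id F) (Bq Q) U) = _
    rw [Sesq.perp_sup, Sesq.perp_perp refl_bq hnd, inf_comm]
  have h1' : finrank F U + finrank F (pp Q U) = finrank F V := h1
  have h3' : finrank F ↥(W ⊔ pp Q U) + finrank F (pp Q (W ⊔ pp Q U)) = finrank F V := h3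
  rw [h4] at h3'
  omega

/-- bound for totally singular invariant subspaces -/
theorem ts_bound (hQ : Nd Q) (hT : ∀ v, Q (T v) = Q v) {A X : Submodule F V}
    (hA : Inv T A) (hani : ∀ Y ≤ A, Inv T Y → (∀ y ∈ Y, Q y = 0) → Y = ⊥) (hX : Inv T X) (hXts : ∀ x ∈ X, Q x = 0)
    (hAX : pp Q X ≤ A ⊔ X) (hW : Inv T W) (hWts : ∀ w ∈ W, Q w = 0) :
    finrank F W ≤ finrank F X := by
  obtain ⟨Z, hZ⟩ : ∃ Z, W ⊓ pp Q X = Z := ⟨_, rfl⟩
  have hZinv : Inv T Z := by rw [← hZ]; exact Sesq.inv_inf hW ((iso_bq hT).inv_perp (nd_top hQ) hX)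
  have hZW : ∀ z ∈ Z, z ∈ W := by rw [← hZ]; exact fun z hz => hz.1
  have hZX : ∀ z ∈ Z, ∀ x ∈ X, polar Q x z = 0 := by rw [← hZ]; exact fun z hz x hx => hz.2 x hx
  -- `Z ⊔ X` is totally singular
  have h1 : ∀ y ∈ Z ⊔ X, Q y = 0 := by
    intro u hu
    obtain ⟨a, ha, b, hb, rfl⟩ := Submodule.mem_sup.mp hu
    rw [Q_add, hWts a (hZW a ha), hXts b hb, polar_comm, hZX a ha b hb]; ring
  have h2 : (Z ⊔ X) ⊓ A = ⊥ := hani _ inf_le_right (Sesq.inv_inf (Sesq.inv_sup hZinv hX) hA) (fun u hu => h1 u hu.1)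
  have h3 : Z ≤ X := by
    intro z hz
    have h4 : z ∈ A ⊔ X := hAX (fun x hx => hZX z hz x hx)
    obtain ⟨a, ha, x, hx, hax⟩ := Submodule.mem_sup.mp h4
    have h5 : a ∈ (Z ⊔ X) ⊓ A := by
      refine ⟨?_, ha⟩
      have : a = z - x := by rw [← hax]; abel
      rw [this]
      exact Submodule.sub_mem _ (Submodule.mem_sup_left hz) (Submodule.mem_sup_right hx)
    rw [h2, Submodule.mem_bot] at h5
    rw [← hax, h5, zero_add]; exact hx
  have h4 := finrank_pairing hQ X W
  have h5 : Z ≤ X ⊓ pp Q W := le_inf h3 (fun z hz w hw => ti_of_ts hWts w hw z (hZW z hz))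
  have h6 := Submodule.finrank_mono h5
  rw [hZ] at h4
  omega

end bound

section cyc
variable {F : Type u} [Field F] {r : ℕ} [Fact r.Prime]

/-- the bilinear form of the cyclic quadratic form -/
def shb (F : Type u) [Field F] (r : ℕ) [Fact r.Prime] : (ZMod r → F) →ₗ[F] (ZMod r → F) →ₗ[F] F :=
  LinearMap.mk₂ F (fun x y => ∑ a : ZMod r, x a * y (a + 1))
    (fun x x' y => by rw [← Finset.sum_add_distrib]; exact Finset.sum_congr rfl fun a _ => by simp only [Pi.add_apply]; ring)
    (fun c x y => by rw [smul_eq_mul, Finset.mul_sum]; exact Finset.sum_congr rfl fun a _ => by simp only [Pi.smul_apply, smul_eq_mul]; ring)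
    (fun x y y' => by rw [← Finset.sum_add_distrib]; exact Finset.sum_congr rfl fun a _ => by simp only [Pi.add_apply]; ring)
    (fun c x y => by rw [smul_eq_mul, Finset.mul_sum]; exact Finset.sum_congr rfl fun a _ => by simp only [Pi.smul_apply, smul_eq_mul]; ring)

/-- the cyclic quadratic form -/
def shQ (F : Type u) [Field F] (r : ℕ) [Fact r.Prime] : QuadraticForm F (ZMod r → F) := LinearMap.BilinMap.toQuadraticMap (shb F r)

theorem shQ_apply (x : ZMod r → F) : shQ F r x = ∑ a : ZMod r, x a * x (a + 1) := rfl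

theorem polar_shQ (x y : ZMod r → F) : polar (shQ F r) x y = ∑ a : ZMod r, (x (a + 1) + x (a - 1)) * y a := by
  show polar (LinearMap.BilinMap.toQuadraticMap (shb F r)) x y = _
  rw [LinearMap.BilinMap.polar_toQuadraticMap]
  show (∑ a : ZMod r, x a * y (a + 1)) + (∑ a : ZMod r, y a * x (a + 1)) = _
  have h := Equiv.sum_comp (Equiv.subRight (1 : ZMod r)) (fun a : ZMod r => x a * y (a + 1))
  rw [← h, ← Finset.sum_add_distrib]
  apply Finset.sum_congr rfl
  intro a _
  show x (a - 1) * y (a - 1 + 1) + y a * x (a + 1) = _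
  rw [sub_add_cancel]; ring

theorem shQ_iso (x : ZMod r → F) : shQ F r (SpTI.sh F r x) = shQ F r x := by
  rw [shQ_apply, shQ_apply]
  have h := Equiv.sum_comp (Equiv.addRight (1 : ZMod r)) (fun a : ZMod r => (SpTI.sh F r) x a * (SpTI.sh F r) x (a + 1))
  rw [← h]
  apply Finset.sum_congr rfl
  intro a _
  show x (a + 1 - 1) * x (a + 1 + 1 - 1) = _
  rw [add_sub_cancel_right, add_sub_cancel_right]

theorem shQ_nd (hr : (r : F) ≠ 0) (ho : Odd r) : NDq (shQ F r) (LinearMap.ker (SpTI.sm F r)) := by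
  classical
  intro x hx hx'
  have hz : ∀ a, x (a + 1) + x (a - 1) = x (0 + 1) + x (0 - 1) := by
    intro a
    have h1 : polar (shQ F r) x (Pi.single a 1 - Pi.single 0 1) = 0 := hx' (Pi.single a 1 - Pi.single 0 1) (by
      rw [LinearMap.mem_ker, SpTI.sm_apply]
      simp [Finset.sum_sub_distrib])
    rw [polar_shQ] at h1
    simp only [Pi.sub_apply, mul_sub, Finset.sum_sub_distrib] at h1
    rw [Finset.sum_eq_single a (fun b _ hb => by rw [Pi.single_eq_of_ne hb, mul_zero]) (fun h => absurd (Finset.mem_univ _) h),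
      Finset.sum_eq_single (0 : ZMod r) (fun b _ hb => by rw [Pi.single_eq_of_ne hb, mul_zero]) (fun h => absurd (Finset.mem_univ _) h),
      Pi.single_eq_same, Pi.single_eq_same, mul_one, mul_one] at h1
    exact sub_eq_zero.mp h1
  have hxs : ∑ a : ZMod r, x a = 0 := by
    rw [LinearMap.mem_ker, SpTI.sm_apply] at hx
    exact hx
  have hsum : ∑ a : ZMod r, (x (a + 1) + x (a - 1)) = 0 := by
    rw [Finset.sum_add_distrib]
    have h1 := Equiv.sum_comp (Equiv.addRight (1 : ZMod r)) x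
    have h2 := Equiv.sum_comp (Equiv.subRight (1 : ZMod r)) x
    rw [show (∑ a : ZMod r, x (a + 1)) = ∑ a, x a from h1, show (∑ a : ZMod r, x (a - 1)) = ∑ a, x a from h2, hxs, add_zero]
  rw [Finset.sum_congr rfl (fun a _ => hz a), Finset.sum_const, Finset.card_univ, ZMod.card, nsmul_eq_mul] at hsum
  have h0 := (mul_eq_zero.mp hsum).resolve_left hr
  have hper : ∀ a, x (a - 2) = - x a := by
    intro a
    have h1 := hz (a - 1)
    rw [h0, sub_add_cancel] at h1
    rw [show a - 2 = a - 1 - 1 by ring]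
    exact (neg_eq_of_add_eq_zero_right h1).symm
  have h2 : ((SpTI.sh F r) ^ 2) x = -x := by
    funext a
    rw [SpTI.sh_pow]
    exact_mod_cast hper a
  have h4 : ∀ j : ℕ, ((SpTI.sh F r) ^ (2 * j)) x = (-1 : F) ^ j • x := by
    intro j
    induction j with
    | zero => simp
    | succ j ih => rw [Nat.mul_succ, pow_add, Module.End.mul_apply, h2, map_neg, ih, pow_succ, mul_smul, neg_one_smul, smul_neg]
  have h5 : x = -x := by
    have h6 := h4 r
    rw [mul_comm, pow_mul, SpTI.sh_pow_r, one_pow, ho.neg_one_pow, neg_one_smul] at h6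
    exact h6
  by_cases h2F : (2 : F) = 0
  · have h6 : ∀ j : ℕ, ((SpTI.sh F r) ^ (2 * j)) x = x := by
      intro j
      have hm1 : (-1 : F) = 1 := by linear_combination -h2F
      rw [h4, hm1, one_pow, one_smul]
    have h3 : SpTI.sh F r x = x := by
      obtain ⟨k, hk⟩ := ho
      have h7 : ((SpTI.sh F r) ^ (2 * (k + 1))) x = SpTI.sh F r x := by
        rw [show 2 * (k + 1) = 1 + r by omega, pow_add, Module.End.mul_apply, SpTI.sh_pow_r, pow_one]; rfl
      rw [← h7, h6]
    exact SpTI.zero_of_fix hr h3 hx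
  · have h6 : (2 : F) • x = 0 := by
      rw [two_smul]
      nth_rewrite 1 [h5]
      exact neg_add_cancel x
    exact (smul_eq_zero.1 h6).resolve_left h2F

/-- the multiplicity free anisotropic isometry -/
theorem exists_anisoQ [Fintype F] (hrF : (r : F) ≠ 0) (ho : Odd r)
    (he : Even (orderOf ((Fintype.card F : ℕ) : ZMod r))) :
    ∃ (V : Type u) (_ : AddCommGroup V) (_ : Module F V) (_ : FiniteDimensional F V) (Q : QuadraticForm F V) (T : Module.End F V),
      PR r Q T ∧ finrank F V = r - 1 ∧ E T 1 = ⊥ ∧ ∀ X : Submodule F V, Inv T X → TIq Q X → X = ⊥ := by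
  let S₀ := LinearMap.ker (SpTI.sm F r)
  let T : Module.End F S₀ := (SpTI.sh F r).restrict SpTI.sm_inv
  have hT : ∀ x : S₀, ((T x : S₀) : ZMod r → F) = SpTI.sh F r x := fun x => rfl
  have hTp : ∀ (j : ℕ) (x : S₀), (((T ^ j) x : S₀) : ZMod r → F) = ((SpTI.sh F r) ^ j) x := by
    intro j
    induction j with
    | zero => intro x; rfl
    | succ j ih => intro x; rw [pow_succ, pow_succ, Module.End.mul_apply, Module.End.mul_apply, ih, hT]
  have hPR : PR r (res (shQ F r) S₀) T := by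
    refine ⟨Fact.out, ho, hrF, nd_res (shQ_nd hrF ho), fun x => shQ_iso _, ?_⟩
    apply LinearMap.ext
    intro x
    apply Subtype.ext
    rw [hTp, SpTI.sh_pow_r]; rfl
  have hE : E T 1 = ⊥ := by
    rw [eq_bot_iff]
    intro x hx
    rw [Module.End.mem_eigenspace_iff, one_smul] at hx
    rw [Submodule.mem_bot]
    apply Subtype.ext
    exact SpTI.zero_of_fix hrF (by rw [← hT, hx]) x.2
  refine ⟨S₀, inferInstance, inferInstance, inferInstance, res (shQ F r) S₀, T, hPR, SpTI.finrank_ker_sm, hE, ?_⟩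
  intro X hX hti
  apply hPR.aniso_of he _ hX hti
  intro f _ hfd
  refine le_trans ?_ (SpTI.finrank_ker_le (F := F) (r := r) hfd)
  have hae : ∀ (P : F[X]) (x : S₀), ((aeval T P x : S₀) : ZMod r → F) = aeval (SpTI.sh F r) P (x : ZMod r → F) := by
    intro P x
    induction P using Polynomial.induction_on' with
    | add p q hp hq =>
      rw [map_add, map_add, LinearMap.add_apply, LinearMap.add_apply, Submodule.coe_add, hp, hq]
    | monomial k c =>
      rw [← C_mul_X_pow_eq_monomial, map_mul, map_mul, aeval_C, aeval_C, map_pow, map_pow, aeval_X, aeval_X]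
      change (((c • (T ^ k) x : S₀)) : ZMod r → F) = c • ((SpTI.sh F r) ^ k) (x : ZMod r → F)
      rw [Submodule.coe_smul, hTp]
  have h1 : (LinearMap.ker (aeval T f)).map S₀.subtype ≤ LinearMap.ker (aeval (SpTI.sh F r) f) := by
    rintro _ ⟨x, hx, rfl⟩
    rw [LinearMap.mem_ker]
    have h2 : aeval T f x = 0 := hx
    rw [Submodule.subtype_apply, ← hae, h2]; rfl
  have h2 := Submodule.finrank_mono h1
  rwa [Submodule.finrank_map_subtype_eq] at h2

end cyc

section special
variable {F : Type u} [Field F] [Fintype F] {r : ℕ}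

/-- anisotropic isometries with `o` atoms -/
theorem exists_aniso_subQ (hr : r.Prime) (hne : (r : F) ≠ 0) (ho : Odd r) (he : Even (orderOf ((Fintype.card F : ℕ) : ZMod r))) {o : ℕ}
    (hot : 2 * (hF F r * o) ≤ r - 1) :
    ∃ (V : Type u) (_ : AddCommGroup V) (_ : Module F V) (_ : FiniteDimensional F V) (Q : QuadraticForm F V) (T : Module.End F V),
      PR r Q T ∧ finrank F V = 2 * (hF F r * o) ∧ (∀ x, T x = x → x = 0) ∧
        ∀ X : Submodule F V, Inv T X → TIq Q X → X = ⊥ := by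
  haveI : Fact r.Prime := ⟨hr⟩
  obtain ⟨V, i1, i2, i3, Q, T, hT, hf, hE, han⟩ := exists_anisoQ (F := F) (r := r) hne ho he
  obtain ⟨W, -, hW, hWnd, hWf⟩ := hT.exists_mult o ⊤ (by rw [hE, inf_bot_eq]) (fun _ _ => trivial) (nd_top hT.nd) (by rw [finrank_top, hf]; exact hot)
  refine ⟨W, inferInstance, inferInstance, inferInstance, res Q W, T.restrict hW, ⟨hr, ho, hne, nd_res hWnd, fun x => hT.iso _, ?_⟩, hWf, ?_, ?_⟩
  · have hk : ∀ (k : ℕ) (x : W), (((T.restrict hW) ^ k) x : V) = (T ^ k) x := by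
      intro k
      induction k with
      | zero => intro x; rfl
      | succ k ih =>
        intro x
        rw [pow_succ, pow_succ, Module.End.mul_apply, ih]; rfl
    apply LinearMap.ext
    intro x
    apply Subtype.ext
    rw [hk, hT.pow]; rfl
  · intro x hx
    have h3 : (x : V) ∈ E T (1 : F) := mem_E.2 (congrArg Subtype.val hx)
    rw [hE, Submodule.mem_bot] at h3
    exact Subtype.ext h3
  · intro X hX hti
    have h3 := han (X.map W.subtype) (by
      rintro _ ⟨x, hx, rfl⟩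
      exact ⟨_, hX x hx, rfl⟩) (by
      rintro _ ⟨x, hx, rfl⟩ _ ⟨y, hy, rfl⟩
      exact hti x hx y hy)
    rw [eq_bot_iff]
    intro x hx
    have h4 : (x : V) ∈ X.map W.subtype := ⟨x, hx, rfl⟩
    rw [h3, Submodule.mem_bot] at h4
    rw [Submodule.mem_bot]
    exact Subtype.ext h4

variable {V₁ : Type v} [AddCommGroup V₁] [Module F V₁] {V₂ : Type w} [AddCommGroup V₂] [Module F V₂]
variable {Q₁ : QuadraticForm F V₁} {Q₂ : QuadraticForm F V₂} {T₁ : Module.End F V₁} {T₂ : Module.End F V₂}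

theorem prodMap_powQ (k : ℕ) : (LinearMap.prodMap T₁ T₂) ^ k = LinearMap.prodMap (T₁ ^ k) (T₂ ^ k) := by
  induction k with
  | zero => apply LinearMap.ext; intro x; rfl
  | succ k ih => rw [pow_succ, ih, pow_succ, pow_succ]; rfl

theorem PR.prod (h₁ : PR r Q₁ T₁) (h₂ : PR r Q₂ T₂) : PR r (Q₁.prod Q₂) (T₁.prodMap T₂) := by
  refine ⟨h₁.hr, h₁.odd, h₁.ne, nd_prod h₁.nd h₂.nd, ?_, ?_⟩
  · intro v
    rw [QuadraticMap.prod_apply, QuadraticMap.prod_apply]
    show Q₁ (T₁ v.1) + Q₂ (T₂ v.2) = _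
    rw [h₁.iso, h₂.iso]
  · rw [prodMap_powQ, h₁.pow, h₂.pow]; rfl

theorem PR.neg (h₁ : PR r Q₁ T₁) : PR r (-Q₁) T₁ := by
  have hpol : ∀ x y, polar (-Q₁) x y = - polar Q₁ x y := by
    intro x y
    show -Q₁ (x + y) - -Q₁ x - -Q₁ y = -(Q₁ (x + y) - Q₁ x - Q₁ y)
    ring
  refine ⟨h₁.hr, h₁.odd, h₁.ne, nd_of fun x hx => ?_, ?_, h₁.pow⟩
  · apply h₁.nd.eq_zero
    intro y
    have := hx y
    rw [hpol] at this
    exact neg_eq_zero.1 this
  · intro v
    show -Q₁ (T₁ v) = -Q₁ v
    rw [h₁.iso]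

/-- a fixed point free isometry with `o + 2 s` atoms and small invariant totally singular subspaces -/
theorem exists_special_std (hr : r.Prime) (hne : (r : F) ≠ 0) (ho : Odd r) (he : Even (orderOf ((Fintype.card F : ℕ) : ZMod r))) {o s : ℕ}
    (hot : 2 * (hF F r * o) ≤ r - 1) :
    ∃ (X : Type u) (_ : AddCommGroup X) (_ : Module F X) (_ : FiniteDimensional F X) (QX : QuadraticForm F X) (τ : Module.End F X),
      PR r QX τ ∧ finrank F X = 2 * (hF F r * (o + 2 * s)) ∧ D QX = sF F r ^ (o + 2 * s) * (Fintype.card F : ℤ) ^ (hF F r * (o + 2 * s)) ∧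
      (∀ x, τ x = x → x = 0) ∧ ∀ W : Submodule F X, Inv τ W → (∀ w ∈ W, QX w = 0) → finrank F W ≤ 2 * (hF F r * s) := by
  obtain ⟨VA, a1, a2, a3, QA, TA, hTA, hAf, hAfix, hani⟩ := exists_aniso_subQ (F := F) hr hne ho he hot
  obtain ⟨N, b1, b2, b3, QN, TN, hTN, hNf, hND, hNfix⟩ := exists_std (F := F) hr ho hne s
  have hPR : PR r (QA.prod (QN.prod (-QN))) (TA.prodMap (TN.prodMap TN)) := hTA.prod (hTN.prod hTN.neg)
  have hfix : ∀ x, (TA.prodMap (TN.prodMap TN)) x = x → x = 0 := by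
    intro x hx
    exact Prod.ext (hAfix _ (congrArg Prod.fst hx)) (Prod.ext (hNfix _ (congrArg (fun z => z.2.1) hx)) (hNfix _ (congrArg (fun z => z.2.2) hx)))
  have hdim : finrank F (VA × (N × N)) = 2 * (hF F r * (o + 2 * s)) := by
    rw [finrank_prod, finrank_prod, hAf, hNf]; ring
  have hQ : ∀ v, (QA.prod (QN.prod (-QN))) v = QA v.1 + (QN v.2.1 - QN v.2.2) := by
    intro v
    rw [QuadraticMap.prod_apply, QuadraticMap.prod_apply, sub_eq_add_neg]; rfl
  have hE : (⊤ : Submodule F (VA × (N × N))) ⊓ E (TA.prodMap (TN.prodMap TN)) 1 = ⊥ := by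
    rw [eq_bot_iff]
    rintro x ⟨-, hx⟩
    rw [Submodule.mem_bot]
    exact hfix x (mem_E.1 hx)
  refine ⟨VA × (N × N), inferInstance, inferInstance, inferInstance, _, _, hPR, hdim, ?_, hfix, ?_⟩
  · have h1 := hPR.type' (W := ⊤) (fun _ _ => trivial) (nd_top hPR.nd) hE (k := o + 2 * s) (by rw [finrank_top, hdim])
    rw [D_top] at h1
    exact h1
  · intro W hW hWts
    obtain ⟨ξ, hξ⟩ : ∃ ξ : N →ₗ[F] (VA × (N × N)), ∀ x, ξ x = (0, (x, x)) :=
      ⟨LinearMap.prod 0 (LinearMap.prod LinearMap.id LinearMap.id), fun _ => rfl⟩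
    have hξi : Function.Injective ξ := fun x y hxy => by
      rw [hξ, hξ] at hxy
      exact congrArg (fun z => z.2.1) hxy
    have h1 := ts_bound hPR.nd hPR.iso (A := Submodule.prod ⊤ ⊥) (X := LinearMap.range ξ) (by
        intro x hx
        have h2 : x.2 = 0 := hx.2
        refine ⟨trivial, ?_⟩
        change (LinearMap.prodMap TN TN) x.2 = 0
        rw [h2, map_zero]) (by
        intro Y hYA hY hYts
        have hY1 := hani (Y.map (LinearMap.fst F _ _)) (by
          rintro _ ⟨y, hy, rfl⟩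
          exact ⟨_, hY y hy, rfl⟩) (ti_of_ts (by
          rintro _ ⟨y, hy, rfl⟩
          have h2 := hYts y hy
          have h3 : y.2 = 0 := (hYA hy).2
          rw [hQ, h3] at h2
          simpa using h2))
        rw [eq_bot_iff]
        intro y hy
        have h2 : y.1 ∈ Y.map (LinearMap.fst F _ _) := ⟨y, hy, rfl⟩
        rw [hY1, Submodule.mem_bot] at h2
        rw [Submodule.mem_bot]
        exact Prod.ext h2 (hYA hy).2) (by
        rintro _ ⟨x, rfl⟩
        exact ⟨TN x, by rw [hξ, hξ]; exact Prod.ext (show (0 : VA) = TA 0 from (map_zero TA).symm) rfl⟩) (by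
        rintro _ ⟨x, rfl⟩
        rw [hξ, hQ]
        simp) (by
        intro y hy
        have h2 : y.2.1 = y.2.2 := by
          rw [← sub_eq_zero]
          apply hTN.nd.eq_zero
          intro x
          have h3 : polar (QA.prod (QN.prod (-QN))) (ξ x) y = 0 := hy (ξ x) ⟨x, rfl⟩
          rw [hξ] at h3
          unfold polar at h3
          rw [hQ, hQ, hQ] at h3
          simp only [Prod.fst_add, Prod.snd_add, zero_add, QuadraticMap.map_zero] at h3
          rw [polar_comm, polar_sub_right]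
          unfold polar
          linear_combination h3
        have h4 : y = (y.1, 0) + ξ y.2.1 := by
          rw [hξ]
          apply Prod.ext
          · simp
          · apply Prod.ext
            · simp
            · simp [h2]
        rw [h4]
        exact Submodule.add_mem_sup ⟨trivial, rfl⟩ ⟨_, rfl⟩) hW hWts
    rw [LinearMap.finrank_range_of_inj hξi, hNf] at h1
    exact h1

variable {V : Type v} [AddCommGroup V] [Module F V] [FiniteDimensional F V] {Q : QuadraticForm F V}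

/-- extension by the identity -/
theorem extend_PR {X : Type w} [AddCommGroup X] [Module F X] [FiniteDimensional F X] {QX : QuadraticForm F X} {τ : Module.End F X}
    (hQ : Nd Q) (h1 : PR r QX τ) (h4 : ∀ x, τ x = x → x = 0)
    (hemb : finrank F X < finrank F V ∨ (finrank F X = finrank F V ∧ Even (finrank F V) ∧ D QX = D Q)) :
    ∃ (T : Module.End F V) (U : Submodule F V) (e : X ≃ₗ[F] U), PR r Q T ∧ E T (1 : F) = pp Q U ∧ NDq Q U ∧
      (∀ x, Q (e x) = QX x) ∧ ∀ x, T (e x) = e (τ x) := by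
  obtain ⟨f, hf⟩ : ∃ f : X →ₗ[F] V, ∀ x, Q (f x) = QX x := emb hQ h1.nd hemb
  obtain ⟨U, hU⟩ : ∃ U, LinearMap.range f = U := ⟨_, rfl⟩
  have hcl : Cl Q QX U := ⟨f, hf, hU⟩
  have hnd := hcl.nd h1.nd
  have hfr := hcl.finrank h1.nd
  obtain ⟨e, he⟩ := hcl.equiv h1.nd
  obtain ⟨g1, g2, g3⟩ := perp_data hQ hnd
  let τ' : Module.End F U := e.conj τ
  have hτ' : ∀ x, τ' (e x) = e (τ x) := by
    intro x
    show e (τ (e.symm (e x))) = _
    rw [LinearEquiv.symm_apply_apply]
  have hτk : ∀ (k : ℕ) (x : X), (τ' ^ k) (e x) = e ((τ ^ k) x) := by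
    intro k
    induction k with
    | zero => intro x; rfl
    | succ k ih =>
      intro x
      rw [pow_succ, pow_succ, Module.End.mul_apply, hτ', ih]; rfl
  obtain ⟨J, hJ1, hJ2, hJ3⟩ := glue g2 (fun u hu w hw => hw u hu) τ' (1 : Module.End F (pp Q U)) (by
    intro x
    obtain ⟨y, rfl⟩ := e.surjective x
    rw [hτ', he, he, h1.iso]) (fun x => rfl)
  have hJr : J ^ r = 1 := by
    apply glue_pow g2 (hJ2 r)
    · ext x
      obtain ⟨y, rfl⟩ := e.surjective x
      rw [hτk, h1.pow]; rfl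
    · exact one_pow r
  have hE : E J (1 : F) = pp Q U := by
    ext v
    rw [mem_E]
    obtain ⟨a, b, hab, hiff⟩ := hJ3 v
    rw [hiff]
    constructor
    · rintro ⟨h5, -⟩
      obtain ⟨y, rfl⟩ := e.surjective a
      rw [hτ'] at h5
      have h6 := h4 y (e.injective h5)
      rw [hab, h6, map_zero, Submodule.coe_zero, zero_add]
      exact b.2
    · intro hv
      refine ⟨?_, rfl⟩
      have h5 : (a : V) ∈ pp Q U := by
        have : (a : V) = v - b := by rw [hab]; abel
        rw [this]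
        exact (pp Q U).sub_mem hv b.2
      have h6 : (a : V) = 0 := (Submodule.disjoint_def.1 g2.disjoint) _ a.2 h5
      have h7 : a = 0 := Subtype.ext h6
      rw [h7, map_zero]
  refine ⟨J, U, e, ⟨h1.hr, h1.odd, h1.ne, hQ, hJ1, hJr⟩, hE, hnd, he, fun x => ?_⟩
  have h5 := (hJ2 1).1 (e x)
  rw [pow_one, pow_one, hτ'] at h5
  exact h5

/-- special isometries -/
theorem exists_special (hQ : Nd Q) (hr : r.Prime) (hne : (r : F) ≠ 0) (ho : Odd r) (he : Even (orderOf ((Fintype.card F : ℕ) : ZMod r))) {ε : ℤ}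
    (hε : ∀ N, finrank F V = 2 * N → D Q = ε * (Fintype.card F : ℤ) ^ N) {o s : ℕ}
    (hot : 2 * (hF F r * o) ≤ r - 1) (hA : Val (hF F r) (sF F r) (finrank F V) ε (o + 2 * s)) :
    ∃ T, PR r Q T ∧ finrank F (E T (1 : F)) + 2 * (hF F r * (o + 2 * s)) = finrank F V ∧
      ∀ W : Submodule F V, Inv T W → (∀ w ∈ W, Q w = 0) → ∃ e' s', 2 * e' ≤ finrank F (E T (1 : F)) ∧
      (2 * e' = finrank F (E T (1 : F)) → D (res Q (E T (1 : F))) = (Nat.card F : ℤ) ^ e') ∧
      finrank F W = e' + s' * orderOf ((Fintype.card F : ℕ) : ZMod r) ∧ s' ≤ s := by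
  obtain ⟨X, i1, i2, i3, QX, τ, h1, h2, h3, h4, h5⟩ := exists_special_std (F := F) (s := s) hr hne ho he hot
  obtain ⟨T, U, e, hT, hE, hUnd, he1, he2⟩ := extend_PR hQ h1 h4 (by
    rcases Nat.lt_or_ge (finrank F X) (finrank F V) with h6 | h6
    · exact Or.inl h6
    · right
      have h7 : finrank F V = 2 * (hF F r * (o + 2 * s)) := by
        have := hA.1
        omega
      refine ⟨by omega, by rw [h7]; exact even_two_mul _, ?_⟩
      rw [h3, hε _ h7, hA.2 h7])
  obtain ⟨g1, g2, g3⟩ := perp_data hQ hUnd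
  have hUf : finrank F U = finrank F X := (LinearEquiv.finrank_eq e).symm
  refine ⟨T, hT, by rw [hE]; omega, fun W hW hWts => ?_⟩
  obtain ⟨W₂, hW₂W, hW₂, hW₂p, e', s', k1, k2, k3, k4⟩ := hT.ts_dim hW hWts
  refine ⟨e', s', k1, k2, k4, ?_⟩
  have hW₂U : W₂ ≤ U := by
    intro x hx
    have h6 := hW₂p hx
    rw [hE] at h6
    have h7 : pp Q (pp Q U) = U := Sesq.perp_perp refl_bq (nd_top hQ) U
    rwa [h7] at h6
  have h6 := h5 (W₂.comap (U.subtype ∘ₗ e.toLinearMap)) (by
    intro x hx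
    show ((e (τ x) : U) : V) ∈ W₂
    rw [← he2]
    exact hW₂ _ hx) (by
    intro x hx
    rw [← he1]
    exact hWts _ (hW₂W hx))
  have h7 : finrank F (W₂.comap (U.subtype ∘ₗ e.toLinearMap)) = finrank F W₂ := by
    have hinj : Function.Injective (U.subtype ∘ₗ e.toLinearMap) := U.injective_subtype.comp e.injective
    have h8 : (W₂.comap (U.subtype ∘ₗ e.toLinearMap)).map (U.subtype ∘ₗ e.toLinearMap) = W₂ := by
      apply Submodule.map_comap_eq_of_le
      intro x hx
      exact ⟨e.symm ⟨x, hW₂U hx⟩, by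
        show ((e (e.symm ⟨x, hW₂U hx⟩) : U) : V) = x
        rw [LinearEquiv.apply_symm_apply]⟩
    rw [LinearEquiv.finrank_eq (Submodule.equivMapOfInjective _ hinj (W₂.comap (U.subtype ∘ₗ e.toLinearMap))), h8]
  rw [h7, k3] at h6
  have hi : orderOf ((Fintype.card F : ℕ) : ZMod r) = 2 * hF F r := by
    obtain ⟨j, hj⟩ := he
    show _ = 2 * hh _
    unfold hh
    rw [if_pos ⟨j, hj⟩]
    omega
  rw [hi] at h6
  have hp := hT.pos
  have h8 : (2 * hF F r) * s' ≤ (2 * hF F r) * s := by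
    calc (2 * hF F r) * s' = s' * (2 * hF F r) := mul_comm _ _
      _ ≤ 2 * (hF F r * s) := h6
      _ = (2 * hF F r) * s := by ring
  exact Nat.le_of_mul_le_mul_left h8 (by omega)

end special

end Cfsg.Agent.Lib.OrthR67
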