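import Mathlib
import Cfsg.Agent.Lib.OrthTSB67

/-!
(helper67) Fixed totally singular subspaces of isometries of odd prime order `r`: the answer.
-/

set_option autoImplicit false
set_option linter.unusedSectionVars false

namespace Cfsg.Agent.Lib.OrthR67

open QuadraticMap Module Cfsg.Agent.Lib.Quad Cfsg.Agent.Lib.QuadD67 Cfsg.Agent.Lib.QuadEmb67
open Cfsg.Agent.Lib.InvSub Cfsg.Agent.Lib.PrimeOrd Cfsg.Agent.Lib.OReal67

universe u v w

/-- fixed totally singular `m`-spaces for `A` atoms of size `c` -/
def FT (i c : ℕ) (s : ℤ) (t n m : ℕ) (ε : ℤ) (A : ℕ) : Prop :=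
  ∃ B, i * B ≤ m ∧ 2 * m + c * A ≤ n + 2 * (i * B) ∧ (2 * m + c * A = n + 2 * (i * B) → ε = s ^ A) ∧
    (B = 0 ∨ if Even i then t + 2 * (B - 1) < A else B ≤ A)

section all
variable {F : Type u} [Field F] [Fintype F] {V : Type v} [AddCommGroup V] [Module F V] [FiniteDimensional F V]
variable {Q : QuadraticForm F V} {r : ℕ}

theorem ord_dvd (hr : r.Prime) (hne : (r : F) ≠ 0) : orderOf ((Fintype.card F : ℕ) : ZMod r) ∣ r - 1 := by
  haveI : Fact r.Prime := ⟨hr⟩
  exact ZMod.orderOf_dvd_card_sub_one (q_ne_zero hr hne)

theorem PR.D_E {T : Module.End F V} (h : PR r Q T) {ε : ℤ} (hε : ∀ N, finrank F V = 2 * N → D Q = ε * (Fintype.card F : ℤ) ^ N) {A e : ℕ}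
    (hA : finrank F (E T (1 : F)) + 2 * (hF F r * A) = finrank F V) (he : 2 * e = finrank F (E T (1 : F))) :
    D (res Q (E T (1 : F))) = (Nat.card F : ℤ) ^ e ↔ ε = sF F r ^ A := by
  obtain ⟨h1, h2, h3, h4⟩ := h.pp_E
  have e1 := D_perp h.nd h.nd_E ⟨e, by omega⟩ ⟨e + hF F r * A, by omega⟩
  have e2 := h.type' h2 h1 h3 (k := A) (by omega)
  rw [e2, hε (e + hF F r * A) (by omega), pow_add] at e1
  have hsq := sg_pow_sq (orderOf ((Fintype.card F : ℕ) : ZMod r)) A
  rw [Nat.card_eq_fintype_card]
  have hq := q_pow_ne (F := F) (hF F r * A)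
  have hqe := q_pow_ne (F := F) e
  constructor
  · intro h5
    rw [h5] at e1
    have h6 : (ε - sF F r ^ A) * ((Fintype.card F : ℤ) ^ e * (Fintype.card F : ℤ) ^ (hF F r * A)) = 0 := by linear_combination e1
    exact sub_eq_zero.1 ((mul_eq_zero.1 h6).resolve_right (mul_ne_zero hqe hq))
  · intro h5
    rw [h5] at e1
    have h6 : (D (res Q (E T (1 : F))) - (Fintype.card F : ℤ) ^ e) * (sF F r ^ A * (Fintype.card F : ℤ) ^ (hF F r * A)) = 0 := by
      linear_combination -e1
    exact sub_eq_zero.1 ((mul_eq_zero.1 h6).resolve_right (mul_ne_zero (pow_ne_zero A (sg_ne _)) hq))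

theorem ts_all_iff (hQ : Nd Q) (hr : r.Prime) (ho : Odd r) (hne : (r : F) ≠ 0) {ε : ℤ}
    (hε : ∀ N, finrank F V = 2 * N → D Q = ε * (Fintype.card F : ℤ) ^ N) {i c t m : ℕ} (hi : orderOf ((Fintype.card F : ℕ) : ZMod r) = i)
    (hc : c = 2 * hF F r) (ht : t = (r - 1) / i) :
    (∀ T, PR r Q T → T ≠ 1 → ∃ W, Inv T W ∧ (∀ w ∈ W, Q w = 0) ∧ finrank F W = m) ↔
      ∀ A, 1 ≤ A → Val (hF F r) (sF F r) (finrank F V) ε A → FT i c (sF F r) t (finrank F V) m ε A := by
  have hi0 : 0 < i := by rw [← hi]; exact ord_pos hr hne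
  have hit : i * t = r - 1 := by
    rw [ht, Nat.mul_div_cancel']
    rw [← hi]; exact ord_dvd hr hne
  have hmul : ∀ A, c * A = 2 * (hF F r * A) := fun A => by rw [hc]; ring
  have hp : 0 < hF F r := hh_pos (ord_pos hr hne)
  constructor
  · intro H A hA1 hA
    have hT1 : ∀ T, PR r Q T → finrank F (E T (1 : F)) + 2 * (hF F r * A) = finrank F V → T ≠ 1 := by
      rintro T hT hTA rfl
      have h1 : E (1 : Module.End F V) (1 : F) = ⊤ := by
        rw [eq_top_iff]
        intro x _
        exact mem_E.2 rfl
      rw [h1, finrank_top] at hTA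
      have : 0 < hF F r * A := Nat.mul_pos hp hA1
      omega
    by_cases he : Even i
    · have he' : Even (orderOf ((Fintype.card F : ℕ) : ZMod r)) := by rwa [hi]
      have hci : c = i := by
        rw [hc]
        unfold hF hh
        rw [hi, if_pos he]
        obtain ⟨j, hj⟩ := he
        omega
      have ht1 : 1 ≤ t := by
        by_contra h0
        have : t = 0 := by omega
        rw [this, Nat.mul_zero] at hit
        obtain ⟨k, hk⟩ := ho
        have := hr.two_le
        omega
      have hAA : A - 2 * ((A + 1 - t) / 2) + 2 * ((A + 1 - t) / 2) = A := by omega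
      obtain ⟨T, hT, hTA, hTW⟩ := exists_special hQ hr hne ho he' hε (o := A - 2 * ((A + 1 - t) / 2)) (s := (A + 1 - t) / 2) (by
        rw [← hmul, hci, ← hit]
        exact Nat.mul_le_mul_left _ (by omega)) (by
        rwa [hAA])
      rw [hAA] at hTA
      obtain ⟨W, hW, hWts, hWm⟩ := H T hT (hT1 T hT hTA)
      obtain ⟨e', s', k1, k2, k3, k4⟩ := hTW W hW hWts
      rw [hi, hWm, mul_comm] at k3
      have hcA := hmul A
      refine ⟨s', by omega, by omega, fun h5 => ?_, ?_⟩
      · exact (hT.D_E hε hTA (by omega)).1 (k2 (by omega))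
      · rw [if_pos he]
        omega
    · obtain ⟨T, hT, hTA⟩ := exists_PR hQ hr ho hne hε hA
      obtain ⟨W, hW, hWts, hWm⟩ := H T hT (hT1 T hT hTA)
      obtain ⟨W₂, k0, k1, k2, e', s', k3, k4, k5, k6⟩ := hT.ts_dim hW hWts
      obtain ⟨h1, h2, h3, h4⟩ := hT.pp_E
      have h5 := (two_mul_ts_le h1 k2 (fun x hx => hWts x (k0 hx))).1
      have hci : hF F r = i := by
        unfold hF hh
        rw [hi, if_neg he]
      rw [hi, mul_comm] at k5 k6
      rw [hWm] at k6
      have hcA := hmul A
      refine ⟨s', by omega, by omega, fun h6 => ?_, ?_⟩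
      · exact (hT.D_E hε hTA (by omega)).1 (k4 (by omega))
      · rw [if_neg he]
        right
        rw [hci] at hTA
        have h6 : i * s' ≤ i * A := by omega
        exact Nat.le_of_mul_le_mul_left h6 hi0
  · intro H T hT hT1
    obtain ⟨A, hA, hval, hA1⟩ := hT.exists_A hε
    obtain ⟨B, b1, b2, b3, b4⟩ := H A (hA1 hT1) hval
    have hcA := hmul A
    obtain ⟨h1, h2, h3, h4⟩ := hT.pp_E
    obtain ⟨X, x1, x2, x3⟩ := hT.exists_ts (e' := m - i * B) (s' := B) (by omega) (fun h5 => by
      exact (hT.D_E hε hA (by omega)).2 (b3 (by omega))) (by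
      rcases b4 with b4 | b4
      · exact Or.inl b4
      · right
        rw [hi]
        by_cases he : Even i
        · rw [if_pos he] at b4 ⊢
          have hci : c = i := by
            rw [hc]
            unfold hF hh
            rw [hi, if_pos he]
            obtain ⟨j, hj⟩ := he
            omega
          have h5 : i * (t + 2 * (B - 1) + 1) ≤ i * A := Nat.mul_le_mul_left _ b4
          have h6 : i * (t + 2 * (B - 1) + 1) = i * t + 2 * i * (B - 1) + i := by ring
          rw [← hci] at h5 h6 hit ⊢
          omega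
        · rw [if_neg he] at b4 ⊢
          have hci : hF F r = i := by
            unfold hF hh
            rw [hi, if_neg he]
          have h5 : i * B ≤ i * A := Nat.mul_le_mul_left _ b4
          have h6 : 2 * i * B = 2 * (i * B) := by ring
          rw [hci] at hA
          omega)
    refine ⟨X, x1, x2, ?_⟩
    rw [x3, hi, mul_comm B i]
    omega

end all

section arith

theorem ft_odd {i n m : ℕ} {ε : ℤ} {t : ℕ} (hi0 : 0 < i) (he : ¬ Even i) (h2m : 2 * m < n) (him : i ≤ m) :
    (∀ A, 1 ≤ A → Val i 1 n ε A → FT i (2 * i) 1 t n m ε A) ↔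
      ((n % (2 * i) = 0 ∧ ε ≠ 1) ∨ 2 * (m % i) < n % (2 * i) ∨ (2 * (m % i) = n % (2 * i) ∧ ε = 1)) := by
  obtain ⟨N, hN⟩ : ∃ N, n / (2 * i) = N := ⟨_, rfl⟩
  obtain ⟨k, hk⟩ : ∃ k, n % (2 * i) = k := ⟨_, rfl⟩
  obtain ⟨M, hM⟩ : ∃ M, m / i = M := ⟨_, rfl⟩
  obtain ⟨l, hl⟩ : ∃ l, m % i = l := ⟨_, rfl⟩
  have hn : 2 * i * N + k = n := by rw [← hN, ← hk]; exact Nat.div_add_mod n _
  have hm : i * M + l = m := by rw [← hM, ← hl]; exact Nat.div_add_mod m i
  have hkc : k < 2 * i := by rw [← hk]; exact Nat.mod_lt _ (by omega)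
  have hlc : l < i := by rw [← hl]; exact Nat.mod_lt _ hi0
  rw [hk, hl]
  have hmul : ∀ x, 2 * i * x = 2 * (i * x) := fun x => by ring
  unfold Val FT
  simp only [hmul, one_pow, if_neg he] at hn ⊢
  have hle : ∀ x y : ℕ, x ≤ y → i * x ≤ i * y := fun x y hxy => Nat.mul_le_mul_left _ hxy
  have hlt : ∀ x y : ℕ, x < y → i * x + i ≤ i * y := fun x y hxy => by
    have := Nat.mul_le_mul_left i hxy
    rwa [Nat.mul_succ] at this
  constructor
  · intro H
    by_cases hc : k = 0 ∧ ε ≠ 1
    · exact Or.inl hc
    · right
      have hN1 : 1 ≤ N := by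
        by_contra h0
        have : N = 0 := by omega
        subst this
        have h1 : 1 ≤ M := by
          by_contra h2
          have : M = 0 := by omega
          subst this
          omega
        have := hle 1 M h1
        omega
      obtain ⟨B, b1, b2, b3, b4⟩ := H N hN1 ⟨by omega, fun h => by
        by_contra hε
        exact hc ⟨by omega, hε⟩⟩
      have hBM : B = M := by
        rcases Nat.lt_trichotomy B M with h1 | h1 | h1
        · have := hlt _ _ h1
          omega
        · exact h1
        · have := hlt _ _ h1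
          omega
      subst hBM
      rcases Nat.lt_or_ge (2 * l) k with h1 | h1
      · exact Or.inl h1
      · exact Or.inr ⟨by omega, b3 (by omega)⟩
  · intro H A hA1 ⟨hA2, hA3⟩
    have hAN : A ≤ N := by
      by_contra h0
      have := hlt N A (by omega)
      omega
    rcases Nat.lt_or_ge M A with h1 | h1
    · refine ⟨M, by omega, ?_, ?_, Or.inr h1.le⟩
      · rcases H with ⟨h2, h3⟩ | h2 | ⟨h2, h3⟩
        · have h4 : A < N := by
            by_contra h5
            have : A = N := by omega
            subst this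
            exact h3 (hA3 (by omega))
          have := hlt _ _ h4
          omega
        · have := hle _ _ hAN
          omega
        · have := hle _ _ hAN
          omega
      · intro h5
        rcases H with ⟨h2, h3⟩ | h2 | ⟨h2, h3⟩
        · have h4 : A < N := by
            by_contra h5
            have : A = N := by omega
            subst this
            exact h3 (hA3 (by omega))
          have := hlt _ _ h4
          omega
        · have := hle _ _ hAN
          omega
        · exact h3
    · have := hle _ _ h1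
      exact ⟨A, by omega, by omega, fun h => by omega, Or.inr le_rfl⟩

theorem ft_even {i n m : ℕ} {ε : ℤ} {t : ℕ} (hi0 : 0 < i) (he : Even i) (h2m : 2 * m < n) (him : i ≤ m) (hε1 : ε * ε = 1) {h : ℕ} (hh2 : 2 * h = i) :
    (∀ A, 1 ≤ A → Val h (-1) n ε A → FT i i (-1) t n m ε A) ↔
      (t + 2 * (m / i) ≤ n / i ∧ ((n % i = 0 ∧ ε ≠ (-1) ^ (n / i) ∧ 2 * (m % i) ≤ i ∧ t + 2 * (m / i) < n / i) ∨ 2 * (m % i) < n % i ∨
        (2 * (m % i) = n % i ∧ ε = (-1) ^ (n / i)))) := by
  obtain ⟨N, hN⟩ : ∃ N, n / i = N := ⟨_, rfl⟩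
  obtain ⟨k, hk⟩ : ∃ k, n % i = k := ⟨_, rfl⟩
  obtain ⟨M, hM⟩ : ∃ M, m / i = M := ⟨_, rfl⟩
  obtain ⟨l, hl⟩ : ∃ l, m % i = l := ⟨_, rfl⟩
  have hn : i * N + k = n := by rw [← hN, ← hk]; exact Nat.div_add_mod n _
  have hm : i * M + l = m := by rw [← hM, ← hl]; exact Nat.div_add_mod m i
  have hkc : k < i := by rw [← hk]; exact Nat.mod_lt _ (by omega)
  have hlc : l < i := by rw [← hl]; exact Nat.mod_lt _ hi0
  rw [hk, hl, hN, hM]
  have hmul : ∀ x, 2 * (h * x) = i * x := fun x => by rw [← hh2]; ring
  unfold Val FT
  simp only [hmul, if_pos he]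
  have hle : ∀ x y : ℕ, x ≤ y → i * x ≤ i * y := fun x y hxy => Nat.mul_le_mul_left _ hxy
  have hlt : ∀ x y : ℕ, x < y → i * x + i ≤ i * y := fun x y hxy => by
    have := Nat.mul_le_mul_left i hxy
    rwa [Nat.mul_succ] at this
  have hadd : ∀ x y : ℕ, i * (x + y) = i * x + i * y := fun x y => Nat.mul_add _ _ _
  have hM1 : 1 ≤ M := by
    by_contra h2
    have : M = 0 := by omega
    subst this
    omega
  have h2MN : 2 * M ≤ N := by
    by_contra h0
    have h1 := hlt N (2 * M) (by omega)
    have h2 : i * (2 * M) = 2 * (i * M) := by ring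
    omega
  have hεc := pm_of_sq hε1
  have hpm : ∀ x : ℕ, ((-1 : ℤ)) ^ x = 1 ∨ ((-1 : ℤ)) ^ x = -1 := fun x => pm_of_sq (by rw [← mul_pow]; norm_num)
  have hpar : ∀ x y : ℕ, x % 2 = y % 2 → ((-1 : ℤ)) ^ x = (-1) ^ y := fun x y hxy => by
    rw [← Nat.div_add_mod x 2, ← Nat.div_add_mod y 2, hxy, pow_add, pow_add, pow_mul, pow_mul]
    norm_num
  constructor
  · intro H
    by_cases hc : k = 0 ∧ ε ≠ (-1) ^ N
    · obtain ⟨hk0, hεN⟩ := hc
      have h2MN' : 2 * M < N := by
        by_contra h0
        have h1 : N = 2 * M := by omega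
        have h2 : i * (2 * M) = 2 * (i * M) := by ring
        rw [h1] at hn
        omega
      have hεN1 : ε = (-1) ^ (N - 1) := by
        rw [pm_ne hεc (hpm N) hεN]
        have : N = N - 1 + 1 := by omega
        nth_rewrite 1 [this]
        rw [pow_succ]; ring
      have e1 := hlt (N - 1) N (by omega)
      have e1' : i * (N - 1) + i = i * N := by
        rw [← Nat.mul_succ]; congr 1; omega
      obtain ⟨B, b1, b2, b3, b4⟩ := H (N - 1) (by omega) ⟨by omega, fun h => by omega⟩
      have hBM : B = M := by
        rcases Nat.lt_trichotomy B M with h1 | h1 | h1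
        · have := hlt _ _ h1
          omega
        · exact h1
        · have := hlt _ _ h1
          omega
      subst hBM
      have h1 : 2 * l ≤ i := by omega
      have h2 : t + 2 * B ≤ N := by omega
      refine ⟨h2, Or.inl ⟨hk0, hεN, h1, ?_⟩⟩
      by_contra h3
      have h4 : t + 2 * B = N := by omega
      have e2' : i * (N - 2) + 2 * i = i * N := by
        have : N = (N - 2) + 2 := by omega
        nth_rewrite 2 [this]
        rw [hadd]; ring
      obtain ⟨B', c1, c2, c3, c4⟩ := H (N - 2) (by omega) ⟨by omega, fun h => by omega⟩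
      have hB' : B' < B := by omega
      have e3 := hlt _ _ hB'
      apply hεN
      rw [c3 (by omega)]
      exact hpar _ _ (by omega)
    · obtain ⟨B, b1, b2, b3, b4⟩ := H N (by omega) ⟨by omega, fun h => by
        by_contra hε
        exact hc ⟨by omega, hε⟩⟩
      have hBM : B = M := by
        rcases Nat.lt_trichotomy B M with h1 | h1 | h1
        · have := hlt _ _ h1
          omega
        · exact h1
        · have := hlt _ _ h1
          omega
      subst hBM
      have h1 : t + 2 * B ≤ N := by
        by_contra h2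
        have e1' : i * (N - 1) + i = i * N := by
          rw [← Nat.mul_succ]; congr 1; omega
        obtain ⟨B', c1, c2, c3, c4⟩ := H (N - 1) (by omega) ⟨by omega, fun h => by omega⟩
        have hB' : B' = B := by
          rcases Nat.lt_trichotomy B' B with h1 | h1 | h1
          · have := hlt _ _ h1
            omega
          · exact h1
          · have := hlt _ _ h1
            omega
        subst hB'
        omega
      refine ⟨h1, Or.inr ?_⟩
      rcases Nat.lt_or_ge (2 * l) k with h2 | h2
      · exact Or.inl h2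
      · exact Or.inr ⟨by omega, b3 (by omega)⟩
  · intro ⟨hT, H⟩ A hA1 ⟨hA2, hA3⟩
    have hAN : A ≤ N := by
      by_contra h0
      have := hlt N A (by omega)
      omega
    have hAN' : k = 0 → ε ≠ (-1) ^ N → A < N := by
      intro h1 h2
      by_contra h3
      have : A = N := by omega
      subst this
      exact h2 (hA3 (by omega))
    have hεN1 : ε ≠ (-1) ^ N → ε = (-1) ^ (N - 1) := by
      intro hεN
      rw [pm_ne hεc (hpm N) hεN]
      have : N = N - 1 + 1 := by omega
      nth_rewrite 1 [this]
      rw [pow_succ]; ring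
    rcases Nat.lt_or_ge ((A + 1 - t) / 2) M with h1 | h1
    · -- `B = (A + 1 - t) / 2`
      obtain ⟨B, hB⟩ : ∃ B, (A + 1 - t) / 2 = B := ⟨_, rfl⟩
      rw [hB] at h1
      have e1 := hle _ _ h1.le
      have e2 : i * A ≤ i * t + 2 * (i * B) := by
        have := hle A (t + 2 * B) (by omega)
        rw [hadd] at this
        have h2 : i * (2 * B) = 2 * (i * B) := by ring
        omega
      have e3 : i * t + 2 * (i * M) ≤ i * N := by
        have := hle _ _ hT
        rw [hadd] at this
        have h2 : i * (2 * M) = 2 * (i * M) := by ring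
        omega
      have hBc : B = 0 ∨ t + 2 * (B - 1) < A := by omega
      -- equality analysis
      have e4 : A < t + 2 * B → i * A + i ≤ i * t + 2 * (i * B) := by
        intro h
        have := hlt _ _ h
        rw [hadd] at this
        have h2 : i * (2 * B) = 2 * (i * B) := by ring
        omega
      have e5 : t + 2 * M < N → i * t + 2 * (i * M) + i ≤ i * N := by
        intro h
        have := hlt _ _ h
        rw [hadd] at this
        have h2 : i * (2 * M) = 2 * (i * M) := by ring
        omega
      have e6 : t + 2 * M + 1 < N → i * t + 2 * (i * M) + 2 * i ≤ i * N := by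
        intro h
        have := hlt _ _ h
        rw [hadd, hadd] at this
        have h2 : i * (2 * M) = 2 * (i * M) := by ring
        omega
      refine ⟨B, by omega, ?_, ?_, hBc⟩
      · rcases H with ⟨h2, h3, h4, h5⟩ | h2 | ⟨h2, h3⟩
        · have := e5 h5
          omega
        · omega
        · omega
      · intro heq
        rcases H with ⟨h2, h3, h4, h5⟩ | h2 | ⟨h2, h3⟩
        · have g1 := e5 h5
          have g2 : A = t + 2 * B := by
            by_contra hne
            have := e4 (by omega)
            omega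
          have g3 : N = t + 2 * M + 1 := by
            by_contra hne
            have := e6 (by omega)
            omega
          rw [hεN1 h3]
          exact hpar _ _ (by omega)
        · omega
        · have g2 : A = t + 2 * B := by
            by_contra hne
            have := e4 (by omega)
            omega
          have g3 : N = t + 2 * M := by
            by_contra hne
            have := e5 (by omega)
            omega
          rw [h3]
          exact hpar _ _ (by omega)
    · -- `B = M`
      refine ⟨M, by omega, ?_, ?_, Or.inr (by omega)⟩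
      · rcases H with ⟨h2, h3, h4, h5⟩ | h2 | ⟨h2, h3⟩
        · have := hlt _ _ (hAN' h2 h3)
          omega
        · have := hle _ _ hAN
          omega
        · have := hle _ _ hAN
          omega
      · intro heq
        rcases H with ⟨h2, h3, h4, h5⟩ | h2 | ⟨h2, h3⟩
        · have g1 := hAN' h2 h3
          have g2 : A = N - 1 := by
            by_contra hne
            have g3 := hlt A (N - 1) (by omega)
            have e1' : i * (N - 1) + i = i * N := by
              rw [← Nat.mul_succ]; congr 1; omega
            omega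
          rw [g2]
          exact hεN1 h3
        · have := hle _ _ hAN
          omega
        · have g2 : A = N := by
            by_contra hne
            have := hlt A N (by omega)
            omega
          rw [g2]
          exact h3

end arith

end Cfsg.Agent.Lib.OrthR67
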