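import Mathlib
import Cfsg.Agent.Lib.OrthTSC67
import Cfsg.Agent.Lib.OrthRF67

/-!
(helper67) Fixed totally singular subspaces of isometries of odd prime order `r`: counting and the final form.
-/

set_option autoImplicit false
set_option linter.unusedSectionVars false

namespace Cfsg.Agent.Lib.OrthR67

open QuadraticMap Module Cfsg.Agent.Lib.Quad Cfsg.Agent.Lib.QuadD67 Cfsg.Agent.Lib.QuadEmb67
open Cfsg.Agent.Lib.InvSub Cfsg.Agent.Lib.PrimeOrd Cfsg.Agent.Lib.OReal67

universe u v w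

/-- totally singular of dimension `m` -/
def Ts {F : Type u} [Field F] {V : Type v} [AddCommGroup V] [Module F V] (Q : QuadraticForm F V) (m : ℕ) (W : Submodule F V) : Prop :=
  (∀ w ∈ W, Q w = 0) ∧ finrank F W = m

section count
variable {F : Type u} [Field F] {V : Type v} [AddCommGroup V] [Module F V] [FiniteDimensional F V]
variable {Q : QuadraticForm F V} {m : ℕ}

theorem ts_map {g : V ≃ₗ[F] V} (hg : g ∈ O Q) {W : Submodule F V} (h : Ts Q m W) : Ts Q m (W.map g.toLinearMap) := by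
  refine ⟨?_, ?_⟩
  · rintro _ ⟨x, hx, rfl⟩
    show Q (g x) = 0
    rw [hg]; exact h.1 x hx
  · rw [LinearEquiv.finrank_eq (Submodule.equivMapOfInjective _ g.injective W).symm]
    exact h.2

theorem ts_comap {X W : Submodule F V} (hW : W ≤ X) (h : Ts Q m W) : Ts (res Q X) m (W.comap X.subtype) := by
  refine ⟨fun w hw => h.1 _ hw, ?_⟩
  have h5 : (W.comap X.subtype).map X.subtype = W := by
    rw [Submodule.map_comap_subtype, inf_eq_right]; exact hW
  rw [← Submodule.finrank_map_subtype_eq X (W.comap X.subtype), h5]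
  exact h.2

theorem ts_map_sub {X : Submodule F V} {W : Submodule F X} (h : Ts (res Q X) m W) : Ts Q m (W.map X.subtype) := by
  refine ⟨?_, ?_⟩
  · rintro _ ⟨x, hx, rfl⟩
    exact h.1 x hx
  · rw [Submodule.finrank_map_subtype_eq]; exact h.2

theorem card_ts_dvd [Finite F] (hQ : Nd Q) {W : Submodule F V} (h : Ts Q m W) :
    Nat.card {W : Submodule F V // Ts Q m W} ∣ Nat.card (O Q) := by
  letI := actO Q
  have : Finite V := Module.finite_of_finite F
  have hfO := finite_O Q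
  have h1 := ClStab.card_eq_of_transitive (G := ↥(O Q)) (X := Submodule F V) W {W | Ts Q m W} h (fun g x hx => ts_map g.2 hx)
    (fun x hx => by
      obtain ⟨g, hg, hgx⟩ := hQ.exists_map_ts h.1 hx.1 (by rw [h.2, hx.2])
      exact ⟨⟨g, hg⟩, hgx⟩)
  rw [h1]
  exact Dvd.intro _ rfl

end count

section main
variable {F : Type u} [Field F] [Fintype F] {V : Type v} [AddCommGroup V] [Module F V] [FiniteDimensional F V]
variable {Q : QuadraticForm F V} {r m : ℕ}

theorem ts_not_of_dvd (hQ : Nd Q) (hr : r.Prime) (ho : Odd r) (hne : (r : F) ≠ 0) (hm : m < orderOf ((Fintype.card F : ℕ) : ZMod r))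
    (hlt : 2 * m < finrank F V) (hd : r ∣ Nat.card {W : Submodule F V // Ts Q m W}) :
    ¬ ∀ T, PR r Q T → T ≠ 1 → ∃ W, Inv T W ∧ Ts Q m W := by
  intro H
  have hrf : Fact r.Prime := ⟨hr⟩
  have hfin : Finite V := Module.finite_of_finite F
  have hfs : Finite (Submodule F V) := Finite.of_injective (fun W => (W : Set V)) SetLike.coe_injective
  obtain ⟨T, hT, hmin⟩ := exists_min hQ hr ho hne
  have h1 := not_dvd_of_min hT hmin
  have h2 := card_mod hT (fun W => Ts Q m W) (fun g hg W hW => ts_map hg hW)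
  rw [(ZMod.natCast_eq_zero_iff _ _).2 hd] at h2
  have h3 : r ∣ Nat.card {W : Submodule F V // Ts Q m W ∧ Inv T W} := (ZMod.natCast_eq_zero_iff _ _).1 h2.symm
  -- fixed members lie in the fixed space
  have hle : ∀ W, Ts Q m W → Inv T W → W ≤ E T (1 : F) := by
    intro W hcl hW
    obtain ⟨W₂, k0, k1, k2, e', s', k3, k4, k5, k6⟩ := hT.ts_dim hW hcl.1
    rw [hcl.2] at k6
    have hs : s' = 0 := by
      by_contra hk0
      have : 1 * orderOf ((Fintype.card F : ℕ) : ZMod r) ≤ s' * orderOf ((Fintype.card F : ℕ) : ZMod r) := Nat.mul_le_mul_right _ (by omega)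
      omega
    -- every vector of `W` is fixed since the other part vanishes
    obtain ⟨W₃, hW₃, hc⟩ := hT.ss.compl _ (inv_of_le_E (inf_le_right : W ⊓ E T (1 : F) ≤ E T 1))
    have h1 : (W ⊓ E T 1) ⊔ (W ⊓ W₃) = W := by
      rw [inf_comm W W₃, ← sup_inf_assoc_of_le _ (inf_le_left : W ⊓ E T 1 ≤ W), hc.sup_eq_top, top_inf_eq]
    have h2 : (W ⊓ E T 1) ⊓ (W ⊓ W₃) = ⊥ := by
      rw [eq_bot_iff, ← hc.inf_eq_bot]
      exact inf_le_inf_left _ inf_le_right
    have h3 : Inv T (W ⊓ W₃) := Sesq.inv_inf hW hW₃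
    have h4 : (W ⊓ W₃) ⊓ E T 1 = ⊥ := by
      rw [eq_bot_iff, ← h2]
      exact le_inf (le_inf (inf_le_left.trans inf_le_left) inf_le_right) inf_le_left
    obtain ⟨s'', hs''⟩ := hT.ss.dvd h3 (by rw [disjoint_iff, inf_comm]; exact h4)
    have h5 : finrank F ↥(W ⊓ W₃) ≤ finrank F W := Submodule.finrank_mono inf_le_left
    have hs0 : s'' = 0 := by
      by_contra hk0
      have : orderOf ((Fintype.card F : ℕ) : ZMod r) * 1 ≤ orderOf ((Fintype.card F : ℕ) : ZMod r) * s'' := Nat.mul_le_mul_left _ (by omega)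
      have := hcl.2
      omega
    rw [hs0, mul_zero] at hs''
    have h6 := Submodule.finrank_eq_zero.1 hs''
    rw [h6, sup_bot_eq] at h1
    rw [← h1]; exact inf_le_right
  have h4 : Nat.card {W : Submodule F V // Ts Q m W ∧ Inv T W} =
      Nat.card {W : Submodule F (E T (1 : F)) // Ts (res Q (E T (1 : F))) m W} := by
    apply Nat.card_congr
    exact {
      toFun := fun W => ⟨W.1.comap (E T (1 : F)).subtype, ts_comap (hle W.1 W.2.1 W.2.2) W.2.1⟩
      invFun := fun W => ⟨W.1.map (E T (1 : F)).subtype, ts_map_sub W.2, inv_of_le_E (by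
        rintro _ ⟨x, -, rfl⟩
        exact x.2)⟩
      left_inv := fun W => by
        apply Subtype.ext
        show Submodule.map _ (Submodule.comap _ _) = _
        rw [Submodule.map_comap_subtype, inf_eq_right]
        exact hle W.1 W.2.1 W.2.2
      right_inv := fun W => by
        apply Subtype.ext
        show Submodule.comap _ (Submodule.map _ _) = _
        exact Submodule.comap_map_eq_of_injective (Submodule.injective_subtype _) _ }
  have h5 : ∀ W : Submodule F V, Inv T W → ¬ Ts Q m W := by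
    intro W hW hcl
    have hcl' := ts_comap (hle W hcl hW) hcl
    have h6 := card_ts_dvd (nd_res hT.nd_E) hcl'
    rw [h4] at h3
    exact h1 (h3.trans h6)
  by_cases hT1 : T = 1
  · obtain ⟨X, -, hX1, hX2⟩ := exists_ts_sub (Z := ⊤) (nd_top hQ) (e := m) (by rw [finrank_top]; omega) (fun h => by
      rw [finrank_top] at h; omega)
    exact h5 X (by rw [hT1]; exact fun x hx => hx) ⟨hX1, hX2⟩
  · obtain ⟨W, hW, hcl⟩ := H T hT hT1
    exact h5 W hW hcl

/-- closed form -/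
def TSok (i n m t : ℕ) (ε : ℤ) : Prop :=
  i ≤ m ∧ (if Even i then
    t + 2 * (m / i) ≤ n / i ∧ ((n % i = 0 ∧ ε ≠ (-1) ^ (n / i) ∧ 2 * (m % i) ≤ i ∧ t + 2 * (m / i) < n / i) ∨ 2 * (m % i) < n % i ∨
        (2 * (m % i) = n % i ∧ ε = (-1) ^ (n / i)))
  else ((n % (2 * i) = 0 ∧ ε ≠ 1) ∨ 2 * (m % i) < n % (2 * i) ∨ (2 * (m % i) = n % (2 * i) ∧ ε = 1)))

theorem ts_main (hQ : Nd Q) (hr : r.Prime) (ho : Odd r) (hne : (r : F) ≠ 0) {ε : ℤ} (hε1 : ε * ε = 1)
    (hε : ∀ N, finrank F V = 2 * N → D Q = ε * (Fintype.card F : ℤ) ^ N) {i t n : ℕ} (hi : orderOf ((Fintype.card F : ℕ) : ZMod r) = i)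
    (ht : t = (r - 1) / i) (hn : finrank F V = n) (hlt : 2 * m < n) (hd : r ∣ Nat.card {W : Submodule F V // Ts Q m W}) :
    (∀ T : Module.End F V, (∀ v, Q (T v) = Q v) → T ^ r = 1 → T ≠ 1 → ∃ W, Ts Q m W ∧ Inv T W) ↔ TSok i n m t ε := by
  have h1 : (∀ T : Module.End F V, (∀ v, Q (T v) = Q v) → T ^ r = 1 → T ≠ 1 → ∃ W, Ts Q m W ∧ Inv T W) ↔
      (∀ T, PR r Q T → T ≠ 1 → ∃ W, Inv T W ∧ (∀ w ∈ W, Q w = 0) ∧ finrank F W = m) := by
    constructor
    · intro H T hT hT1
      obtain ⟨W, h2, h3⟩ := H T hT.iso hT.pow hT1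
      exact ⟨W, h3, h2⟩
    · intro H T hT hTr hT1
      obtain ⟨W, h2, h3⟩ := H T ⟨hr, ho, hne, hQ, hT, hTr⟩ hT1
      exact ⟨W, h3, h2⟩
  rw [h1]
  have hi0 : 0 < i := by rw [← hi]; exact ord_pos hr hne
  unfold TSok
  have key : i ≤ m → ((∀ T, PR r Q T → T ≠ 1 → ∃ W, Inv T W ∧ (∀ w ∈ W, Q w = 0) ∧ finrank F W = m) ↔
      (if Even i then
    t + 2 * (m / i) ≤ n / i ∧ ((n % i = 0 ∧ ε ≠ (-1) ^ (n / i) ∧ 2 * (m % i) ≤ i ∧ t + 2 * (m / i) < n / i) ∨ 2 * (m % i) < n % i ∨
        (2 * (m % i) = n % i ∧ ε = (-1) ^ (n / i)))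
  else ((n % (2 * i) = 0 ∧ ε ≠ 1) ∨ 2 * (m % i) < n % (2 * i) ∨ (2 * (m % i) = n % (2 * i) ∧ ε = 1)))) := by
    intro him
    rw [ts_all_iff hQ hr ho hne hε hi rfl ht, hn]
    by_cases he : Even i
    · have hh1 : hF F r = i / 2 := by unfold hF hh; rw [hi, if_pos he]
      have hs1 : sF F r = -1 := by unfold sF sg; rw [hi, if_pos he]
      have h2h : 2 * (i / 2) = i := by obtain ⟨j, hj⟩ := he; omega
      rw [hh1, hs1, if_pos he, h2h]
      exact ft_even hi0 he hlt him hε1 h2h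
    · have hh1 : hF F r = i := by unfold hF hh; rw [hi, if_neg he]
      have hs1 : sF F r = 1 := by unfold sF sg; rw [hi, if_neg he]
      rw [hh1, hs1, if_neg he]
      exact ft_odd hi0 he hlt him
  constructor
  · intro H
    have h2 : i ≤ m := by
      by_contra hcon
      exact ts_not_of_dvd hQ hr ho hne (by omega) (by omega) hd H
    exact ⟨h2, (key h2).1 H⟩
  · rintro ⟨h2, hG⟩
    exact (key h2).2 hG

end main

end Cfsg.Agent.Lib.OrthR67
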