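import Mathlib
import Cfsg.Agent.Lib.OrthTSD67

/-!
(helper67) The number of totally singular `m`-spaces is prime to the characteristic.
-/

set_option autoImplicit false
set_option linter.unusedSectionVars false

namespace Cfsg.Agent.Lib.OrthR67

open QuadraticMap Module Cfsg.Agent.Lib.Quad Cfsg.Agent.Lib.QuadD67 Cfsg.Agent.Lib.QuadEmb67
open Cfsg.Agent.Lib.InvSub Cfsg.Agent.Lib.PrimeOrd Cfsg.Agent.Lib.OReal67

universe u v w

section iso
variable {F : Type u} [Field F] {V : Type v} [AddCommGroup V] [Module F V] {V' : Type w} [AddCommGroup V'] [Module F V']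
variable {Q : QuadraticForm F V} {Q' : QuadraticForm F V'}

theorem card_ts_equiv (e : V ≃ₗ[F] V') (he : ∀ v, Q' (e v) = Q v) (m : ℕ) :
    Nat.card {W : Submodule F V // Ts Q m W} = Nat.card {W : Submodule F V' // Ts Q' m W} := by
  have h : ∀ {W : Submodule F V}, Ts Q m W → Ts Q' m (W.map e.toLinearMap) := by
    intro W hW
    refine ⟨?_, ?_⟩
    · rintro _ ⟨x, hx, rfl⟩
      show Q' (e x) = 0
      rw [he]; exact hW.1 x hx
    · rw [LinearEquiv.finrank_eq (Submodule.equivMapOfInjective _ e.injective W).symm]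
      exact hW.2
  have h' : ∀ {W : Submodule F V'}, Ts Q' m W → Ts Q m (W.map e.symm.toLinearMap) := by
    intro W hW
    refine ⟨?_, ?_⟩
    · rintro _ ⟨x, hx, rfl⟩
      show Q (e.symm x) = 0
      rw [← he, LinearEquiv.apply_symm_apply]; exact hW.1 x hx
    · rw [LinearEquiv.finrank_eq (Submodule.equivMapOfInjective _ e.symm.injective W).symm]
      exact hW.2
  apply Nat.card_congr
  exact {
    toFun := fun W => ⟨W.1.map e.toLinearMap, h W.2⟩
    invFun := fun W => ⟨W.1.map e.symm.toLinearMap, h' W.2⟩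
    left_inv := fun W => by
      apply Subtype.ext
      show Submodule.map _ (Submodule.map _ _) = _
      rw [← Submodule.map_comp]
      have : e.symm.toLinearMap ∘ₗ e.toLinearMap = LinearMap.id := by ext x; exact e.symm_apply_apply x
      rw [this, Submodule.map_id]
    right_inv := fun W => by
      apply Subtype.ext
      show Submodule.map _ (Submodule.map _ _) = _
      rw [← Submodule.map_comp]
      have : e.toLinearMap ∘ₗ e.symm.toLinearMap = LinearMap.id := by ext x; exact e.apply_symm_apply x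
      rw [this, Submodule.map_id] }

end iso

theorem polar_of_ts {F : Type u} [Field F] {V : Type v} [AddCommGroup V] [Module F V] {Q : QuadraticForm F V} {W : Submodule F V}
    (h : ∀ x ∈ W, Q x = 0) {a b : V} (ha : a ∈ W) (hb : b ∈ W) : polar Q a b = 0 := by
  unfold polar
  rw [h a ha, h b hb, h _ (W.add_mem ha hb)]; ring

section siegel
variable {F : Type u} [Field F] [Finite F] {V : Type v} [AddCommGroup V] [Module F V] [FiniteDimensional F V]
variable {Q : QuadraticForm F V} {m : ℕ}

theorem sgT_zero : sgT Q (0 : V) (Q 0) = 1 := by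
  apply LinearMap.ext
  intro v
  rw [sgT_apply, QuadraticMap.map_zero, zero_mul, sub_zero, smul_zero, add_zero]
  have : polar Q 0 v.2 = 0 := by simp [polar]
  rw [this, sub_zero]
  rfl

theorem sgT_add (y y' : V) : sgT Q (y + y') (Q (y + y')) = sgT Q y (Q y) * sgT Q y' (Q y') := by
  apply LinearMap.ext
  intro v
  rw [Module.End.mul_apply, sgT_apply, sgT_apply, sgT_apply]
  refine Prod.ext (Prod.ext ?_ rfl) ?_
  · show v.1.1 - polar Q (y + y') v.2 - Q (y + y') * v.1.2 =
      v.1.1 - polar Q y' v.2 - Q y' * v.1.2 - polar Q y (v.2 + v.1.2 • y') - Q y * v.1.2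
    rw [polar_add_left, polar_add_right, polar_smul_right, Q_add, smul_eq_mul]; ring
  · show v.2 + v.1.2 • (y + y') = v.2 + v.1.2 • y' + v.1.2 • y
    rw [smul_add]; abel

theorem sgT_iso (y : V) (v : (F × F) × V) : ((hy F).prod Q) (sgT Q y (Q y) v) = ((hy F).prod Q) v := by
  rw [QuadraticMap.prod_apply, QuadraticMap.prod_apply, hy_apply, hy_apply, sgT_apply]
  show (v.1.1 - polar Q y v.2 - Q y * v.1.2) * v.1.2 + Q (v.2 + v.1.2 • y) = v.1.1 * v.1.2 + Q v.2
  rw [Q_add, Q_smul, polar_smul_right, polar_comm Q v.2 y, smul_eq_mul]; ring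

theorem ts_sg (hQ : Nd Q) (y : V) {W : Submodule F ((F × F) × V)} (h : Ts ((hy F).prod Q) m W) :
    Ts ((hy F).prod Q) m (W.map (sgT Q y (Q y))) := by
  have hnd : Nd ((hy F).prod Q) := nd_prod nd_hy hQ
  exact ts_map (ofMap_mem hnd _ (fun v => sgT_iso y v)) h

/-- fixed totally singular subspaces under all Siegel transformations -/
theorem sg_fixed (hQ : Nd Q) {W : Submodule F ((F × F) × V)} (hW : Ts ((hy F).prod Q) (m + 1) W) (hlt : m + 1 < finrank F V + 1) :
    (∀ y : V, W.map (sgT Q y (Q y)) = W) ↔ ((1, 0), 0) ∈ W := by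
  constructor
  · intro H
    have hfix : ∀ y, ∀ x ∈ W, sgT Q y (Q y) x - x ∈ W := by
      intro y x hx
      refine W.sub_mem ?_ hx
      rw [← H y]
      exact ⟨x, hx, rfl⟩
    have hb : ∀ x ∈ W, x.1.2 = 0 := by
      intro x hx
      by_contra hc
      -- the projection to `F × V`
      let π : ((F × F) × V) →ₗ[F] F × V := LinearMap.prodMap (LinearMap.snd F F F) LinearMap.id
      have hπ : W.map π = ⊤ := by
        rw [eq_top_iff]
        rintro ⟨b, v⟩ -
        have h1 := hfix ((x.1.2)⁻¹ • (v - (b / x.1.2) • x.2)) x hx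
        refine ⟨(b / x.1.2) • x + (sgT Q _ (Q ((x.1.2)⁻¹ • (v - (b / x.1.2) • x.2))) x - x), W.add_mem (W.smul_mem _ hx) h1, ?_⟩
        rw [sgT_apply]
        show ((b / x.1.2) * x.1.2 + (x.1.2 - x.1.2), (b / x.1.2) • x.2 + (x.2 + x.1.2 • ((x.1.2)⁻¹ • (v - (b / x.1.2) • x.2)) - x.2)) = (b, v)
        rw [smul_inv_smul₀ hc]
        refine Prod.ext ?_ ?_
        · show (b / x.1.2) * x.1.2 + (x.1.2 - x.1.2) = b
          rw [div_mul_cancel₀ _ hc]; ring
        · show (b / x.1.2) • x.2 + (x.2 + (v - (b / x.1.2) • x.2) - x.2) = v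
          abel
      have h2 := Submodule.finrank_map_le π W
      rw [hπ, finrank_top, finrank_prod, finrank_self, hW.2] at h2
      omega
    have hWne : W ≠ ⊥ := by
      rintro rfl
      have := hW.2
      rw [finrank_bot] at this
      omega
    obtain ⟨x, hx, hx0⟩ := Submodule.exists_mem_ne_zero_of_ne_bot hWne
    by_cases hx2 : x.2 = 0
    · have h3 : x.1.1 ≠ 0 := by
        intro h
        apply hx0
        exact Prod.ext (Prod.ext h (hb x hx)) hx2
      have h4 := W.smul_mem (x.1.1)⁻¹ hx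
      have h5 : (x.1.1)⁻¹ • x = ((1, 0), 0) := by
        refine Prod.ext (Prod.ext ?_ ?_) ?_
        · show (x.1.1)⁻¹ * x.1.1 = 1
          exact inv_mul_cancel₀ h3
        · show (x.1.1)⁻¹ * x.1.2 = 0
          rw [hb x hx, mul_zero]
        · show (x.1.1)⁻¹ • x.2 = 0
          rw [hx2, smul_zero]
      rwa [h5] at h4
    · obtain ⟨y, hy'⟩ : ∃ y, polar Q x.2 y ≠ 0 := by
        by_contra hcon
        push Not at hcon
        exact hx2 (hQ.eq_zero hcon)
      have h4 := W.smul_mem (-(polar Q x.2 y)⁻¹) (hfix y x hx)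
      have h5 : (-(polar Q x.2 y)⁻¹) • (sgT Q y (Q y) x - x) = ((1, 0), 0) := by
        rw [sgT_apply]
        refine Prod.ext (Prod.ext ?_ ?_) ?_
        · show (-(polar Q x.2 y)⁻¹) * (x.1.1 - polar Q y x.2 - Q y * x.1.2 - x.1.1) = 1
          rw [hb x hx, polar_comm Q y x.2]
          field_simp
          ring
        · show (-(polar Q x.2 y)⁻¹) * (x.1.2 - x.1.2) = 0
          rw [sub_self, mul_zero]
        · show (-(polar Q x.2 y)⁻¹) • (x.2 + x.1.2 • y - x.2) = 0
          rw [hb x hx, zero_smul, add_zero, sub_self, smul_zero]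
      rwa [h5] at h4
  · intro hz y
    have hb : ∀ x ∈ W, x.1.2 = 0 := by
      intro x hx
      have h1 : polar ((hy F).prod Q) ((1, 0), 0) x = 0 := polar_of_ts hW.1 hz hx
      unfold polar at h1
      simp only [QuadraticMap.prod_apply, hy_apply] at h1
      have h2 : (((1, 0), 0) + x : (F × F) × V).1.1 = 1 + x.1.1 := rfl
      have h3 : (((1, 0), 0) + x : (F × F) × V).1.2 = 0 + x.1.2 := rfl
      have h4 : (((1, 0), 0) + x : (F × F) × V).2 = 0 + x.2 := rfl
      rw [h2, h3, h4, zero_add, zero_add, QuadraticMap.map_zero] at h1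
      linear_combination h1
    apply Submodule.eq_of_le_of_finrank_eq
    · rintro _ ⟨x, hx, rfl⟩
      have h1 : sgT Q y (Q y) x = x + (-(polar Q y x.2)) • ((1, 0), 0) := by
        rw [sgT_apply, hb x hx]
        refine Prod.ext (Prod.ext ?_ ?_) ?_
        · show x.1.1 - polar Q y x.2 - Q y * 0 = x.1.1 + (-(polar Q y x.2)) * 1
          ring
        · show (0 : F) = x.1.2 + (-(polar Q y x.2)) * 0
          rw [hb x hx]; ring
        · show x.2 + (0 : F) • y = x.2 + (-(polar Q y x.2)) • 0
          rw [zero_smul, smul_zero]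
      rw [h1]
      exact W.add_mem hx (W.smul_mem _ hz)
    · rw [(ts_sg hQ y hW).2, hW.2]

/-- totally singular subspaces containing a fixed singular vector -/
theorem card_ts_cont : Nat.card {W : Submodule F ((F × F) × V) // Ts ((hy F).prod Q) (m + 1) W ∧ ((1, 0), 0) ∈ W} =
    Nat.card {W : Submodule F V // Ts Q m W} := by
  have hb : ∀ W : Submodule F ((F × F) × V), Ts ((hy F).prod Q) (m + 1) W → ((1, 0), 0) ∈ W → ∀ x ∈ W, x.1.2 = 0 := by
    intro W hW hz x hx
    have h1 : polar ((hy F).prod Q) ((1, 0), 0) x = 0 := polar_of_ts hW.1 hz hx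
    unfold polar at h1
    simp only [QuadraticMap.prod_apply, hy_apply] at h1
    have h2 : (((1, 0), 0) + x : (F × F) × V).1.1 = 1 + x.1.1 := rfl
    have h3 : (((1, 0), 0) + x : (F × F) × V).1.2 = 0 + x.1.2 := rfl
    have h4 : (((1, 0), 0) + x : (F × F) × V).2 = 0 + x.2 := rfl
    rw [h2, h3, h4, zero_add, zero_add, QuadraticMap.map_zero] at h1
    linear_combination h1
  let L : Submodule F (F × F) := Submodule.span F {((1 : F), (0 : F))}
  have hLm : ∀ z : F × F, z ∈ L ↔ z.2 = 0 := by
    intro z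
    rw [Submodule.mem_span_singleton]
    constructor
    · rintro ⟨c, rfl⟩
      show c * 0 = (0 : F)
      ring
    · intro h
      refine ⟨z.1, Prod.ext ?_ ?_⟩
      · show z.1 * 1 = z.1
        ring
      · show z.1 * 0 = z.2
        rw [h]; ring
  have hLf : finrank F L = 1 := finrank_span_singleton (by
    intro h
    have := congrArg Prod.fst h
    exact one_ne_zero this)
  have hprod : ∀ U : Submodule F V, finrank F ↥(L.prod U) = 1 + finrank F U := by
    intro U
    let e : ↥(L.prod U) ≃ₗ[F] L × U :=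
      { toFun := fun x => (⟨x.1.1, x.2.1⟩, ⟨x.1.2, x.2.2⟩)
        map_add' := fun x y => rfl
        map_smul' := fun c x => rfl
        invFun := fun y => ⟨(y.1.1, y.2.1), ⟨y.1.2, y.2.2⟩⟩
        left_inv := fun x => rfl
        right_inv := fun y => rfl }
    rw [e.finrank_eq, finrank_prod, hLf]
  have hround : ∀ W : Submodule F ((F × F) × V), Ts ((hy F).prod Q) (m + 1) W → ((1, 0), 0) ∈ W → L.prod (W.comap (LinearMap.inr F (F × F) V)) = W := by
    intro W hW hz
    ext x
    constructor
    · rintro ⟨h1, h2⟩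
      have h3 := (hLm _).1 h1
      have h4 : x = x.1.1 • ((1, 0), 0) + ((0, 0), x.2) := by
        refine Prod.ext (Prod.ext ?_ ?_) ?_
        · show x.1.1 = x.1.1 * 1 + 0
          ring
        · show x.1.2 = x.1.1 * 0 + 0
          rw [h3]; ring
        · show x.2 = x.1.1 • 0 + x.2
          rw [smul_zero, zero_add]
      rw [h4]
      exact W.add_mem (W.smul_mem _ hz) h2
    · intro hx
      have h3 := hb W hW hz x hx
      refine ⟨(hLm _).2 h3, ?_⟩
      show ((0, 0), x.2) ∈ W
      have h4 : ((0, 0), x.2) = x - x.1.1 • ((1, 0), 0) := by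
        refine Prod.ext (Prod.ext ?_ ?_) ?_
        · show 0 = x.1.1 - x.1.1 * 1
          ring
        · show 0 = x.1.2 - x.1.1 * 0
          rw [h3]; ring
        · show x.2 = x.2 - x.1.1 • 0
          rw [smul_zero, sub_zero]
      rw [h4]
      exact W.sub_mem hx (W.smul_mem _ hz)
  apply Nat.card_congr
  exact {
    toFun := fun W => ⟨W.1.comap (LinearMap.inr F (F × F) V), by
      refine ⟨fun x hx => ?_, ?_⟩
      · have h1 : ((hy F).prod Q) ((0, 0), x) = 0 := W.2.1.1 _ hx
        rw [QuadraticMap.prod_apply, hy_apply] at h1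
        simpa using h1
      · have h1 := hprod (W.1.comap (LinearMap.inr F (F × F) V))
        rw [hround W.1 W.2.1 W.2.2, W.2.1.2] at h1
        omega⟩
    invFun := fun U => ⟨L.prod U.1, ⟨fun x hx => by
        have h3 := (hLm _).1 hx.1
        rw [QuadraticMap.prod_apply, hy_apply, h3, mul_zero, zero_add]
        exact U.2.1 _ hx.2, by rw [hprod, U.2.2]; omega⟩, ⟨(hLm _).2 rfl, U.1.zero_mem⟩⟩
    left_inv := fun W => Subtype.ext (hround W.1 W.2.1 W.2.2)
    right_inv := fun U => by
      apply Subtype.ext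
      ext x
      constructor
      · intro hx
        exact hx.2
      · intro hx
        exact ⟨L.zero_mem, hx⟩ }

/-- one step of the count -/
theorem card_ts_step {p : ℕ} [hp : Fact p.Prime] [CharP F p] (hQ : Nd Q) (hlt : m < finrank F V) :
    Nat.card {W : Submodule F ((F × F) × V) // Ts ((hy F).prod Q) (m + 1) W} ≡ Nat.card {W : Submodule F V // Ts Q m W} [MOD p] := by
  have hfin : Finite V := Module.finite_of_finite F
  have hfin' : Finite ((F × F) × V) := inferInstance
  have hfs : Finite (Submodule F ((F × F) × V)) := Finite.of_injective (fun W => (W : Set ((F × F) × V))) SetLike.coe_injective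
  let α := {W : Submodule F ((F × F) × V) // Ts ((hy F).prod Q) (m + 1) W}
  let act : MulAction (Multiplicative V) α := {
    smul := fun y W => ⟨W.1.map (sgT Q y.toAdd (Q y.toAdd)), ts_sg hQ _ W.2⟩
    one_smul := fun W => by
      apply Subtype.ext
      show W.1.map (sgT Q (0 : V) (Q 0)) = W.1
      rw [sgT_zero]
      exact Submodule.map_id W.1
    mul_smul := fun y y' W => by
      apply Subtype.ext
      show W.1.map (sgT Q (y.toAdd + y'.toAdd) (Q (y.toAdd + y'.toAdd))) = (W.1.map (sgT Q y'.toAdd (Q y'.toAdd))).map (sgT Q y.toAdd (Q y.toAdd))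
      rw [sgT_add, ← Submodule.map_comp]
      rfl }
  have hG : IsPGroup p (Multiplicative V) := by
    intro y
    refine ⟨1, ?_⟩
    rw [pow_one]
    show Multiplicative.ofAdd (p • y.toAdd) = 1
    rw [← Nat.cast_smul_eq_nsmul F, CharP.cast_eq_zero, zero_smul]
    rfl
  have h1 := hG.card_modEq_card_fixedPoints α
  rw [← card_ts_cont (Q := Q) (m := m)]
  have h2 : Nat.card (MulAction.fixedPoints (Multiplicative V) α) =
      Nat.card {W : Submodule F ((F × F) × V) // Ts ((hy F).prod Q) (m + 1) W ∧ ((1, 0), 0) ∈ W} := by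
    apply Nat.card_congr
    exact {
      toFun := fun W => ⟨W.1.1, W.1.2, (sg_fixed hQ W.1.2 (by omega)).1 (fun y => congrArg Subtype.val (W.2 (Multiplicative.ofAdd y)))⟩
      invFun := fun W => ⟨⟨W.1, W.2.1⟩, fun y => Subtype.ext ((sg_fixed hQ W.2.1 (by omega)).2 W.2.2 y.toAdd)⟩
      left_inv := fun W => rfl
      right_inv := fun W => rfl }
  rw [← h2]
  exact h1

end siegel

theorem card_ts_mod {F : Type u} [Field F] [Finite F] {p : ℕ} [hp : Fact p.Prime] [CharP F p] (m : ℕ) :
    ∀ {V : Type v} [AddCommGroup V] [Module F V] [FiniteDimensional F V] {Q : QuadraticForm F V}, Nd Q → 2 * m < finrank F V →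
      Nat.card {W : Submodule F V // Ts Q m W} ≡ 1 [MOD p] := by
  induction m with
  | zero =>
    intro V _ _ _ Q hQ hlt
    have h1 : Nat.card {W : Submodule F V // Ts Q 0 W} = 1 := by
      rw [Nat.card_eq_one_iff_unique]
      refine ⟨⟨fun a b => ?_⟩, ⟨⟨⊥, ?_, finrank_bot F V⟩⟩⟩
      · apply Subtype.ext
        rw [Submodule.finrank_eq_zero.1 a.2.2, Submodule.finrank_eq_zero.1 b.2.2]
      · intro w hw
        rw [(Submodule.mem_bot F).1 hw, QuadraticMap.map_zero]
    rw [h1]
  | succ m ih =>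
    intro V _ _ _ Q hQ hlt
    obtain ⟨z, hz0, hz⟩ := hQ.exists_singular (by omega)
    obtain ⟨V2, e, h1, h2, h3⟩ := exists_split hQ hz0 hz
    rw [card_ts_equiv e h3 (m + 1)]
    exact (card_ts_step h1 (by omega)).trans (ih h1 (by omega))

theorem not_dvd_card_ts {F : Type u} [Field F] [Finite F] {p : ℕ} [hp : Fact p.Prime] [CharP F p] {m : ℕ}
    {V : Type v} [AddCommGroup V] [Module F V] [FiniteDimensional F V] {Q : QuadraticForm F V} (hQ : Nd Q) (hlt : 2 * m < finrank F V) :
    ¬ p ∣ Nat.card {W : Submodule F V // Ts Q m W} := by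
  intro h
  have h1 := card_ts_mod (p := p) m hQ hlt
  have h2 := (Nat.modEq_zero_iff_dvd.2 h).symm.trans h1
  have h3 : p ∣ 1 := (Nat.modEq_zero_iff_dvd).1 h2.symm
  have := hp.1.one_lt
  have := Nat.le_of_dvd one_pos h3
  omega

end Cfsg.Agent.Lib.OrthR67
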