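import Mathlib
import Cfsg.Agent.Lib.OrthTSE67
import Cfsg.Agent.Lib.OrthNeg67
import Cfsg.Agent.Lib.OrthStd67

/-!
(helper67) Fixed totally singular subspaces of elements of order two modulo scalars in odd characteristic.
-/

set_option autoImplicit false
set_option linter.unusedSectionVars false

namespace Cfsg.Agent.Lib.OrthR67

open QuadraticMap Module Cfsg.Agent.Lib.Quad Cfsg.Agent.Lib.QuadD67 Cfsg.Agent.Lib.QuadEmb67
open Cfsg.Agent.Lib.InvSub Cfsg.Agent.Lib.PrimeOrd Cfsg.Agent.Lib.OReal67

universe u v w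

section plane
variable {F : Type u} [Field F] [Finite F] {V : Type v} [AddCommGroup V] [Module F V] [FiniteDimensional F V]
variable {Q : QuadraticForm F V}

/-- planes with an orthogonal basis -/
theorem orth_plane (h2 : (2 : F) ≠ 0) {x y : V} (hxy : polar Q x y = 0) (hx : Q x ≠ 0) (hy : Q y ≠ 0) :
    NDq Q (Submodule.span F {x, y}) ∧ finrank F (Submodule.span F {x, y}) = 2 ∧
      (IsSquare (Q x * Q y) → D (res Q (Submodule.span F {x, y})) = chi F * (Nat.card F : ℤ)) ∧
      (¬ IsSquare (Q x * Q y) → D (res Q (Submodule.span F {x, y})) = -(chi F * (Nat.card F : ℤ))) := by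
  set P := Submodule.span F {x, y} with hP
  have hxP : x ∈ P := Submodule.subset_span (by simp)
  have hyP : y ∈ P := Submodule.subset_span (by simp)
  have hyx : polar Q y x = 0 := by rw [polar_comm]; exact hxy
  have hmem : ∀ z ∈ P, ∃ a b : F, z = a • x + b • y := by
    intro z hz
    obtain ⟨a, b, h⟩ := Submodule.mem_span_pair.1 hz
    exact ⟨a, b, h.symm⟩
  have hQab : ∀ a b : F, Q (a • x + b • y) = a * a * Q x + b * b * Q y := by
    intro a b
    rw [Q_add, Q_smul, Q_smul, polar_smul_left, polar_smul_right, hxy]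
    simp only [smul_eq_mul]
    ring
  have h0 : ∀ y, polar Q y 0 = 0 := fun y => by simp [polar]
  have hli : LinearIndependent F ![x, y] := by
    rw [LinearIndependent.pair_iff]
    intro a b hab
    have h3 := congrArg (fun z => polar Q x z) hab
    have h4 := congrArg (fun z => polar Q y z) hab
    simp only [polar_add_right, polar_smul_right, polar_self', hxy, hyx, h0, smul_eq_mul, mul_zero, add_zero, zero_add] at h3 h4
    exact ⟨(mul_eq_zero.1 h3).resolve_right (mul_ne_zero h2 hx), (mul_eq_zero.1 h4).resolve_right (mul_ne_zero h2 hy)⟩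
  have hfr : finrank F P = 2 := by
    have h3 : ({x, y} : Set V) = Set.range ![x, y] := by
      ext z
      simp only [Set.mem_insert_iff, Set.mem_singleton_iff, Set.mem_range, Fin.exists_fin_two, Matrix.cons_val_zero, Matrix.cons_val_one]
      exact ⟨fun h => h.imp Eq.symm Eq.symm, fun h => h.imp Eq.symm Eq.symm⟩
    rw [hP, h3, finrank_span_eq_card hli, Fintype.card_fin]
  have hnd : NDq Q P := by
    intro z hz h
    obtain ⟨a, b, rfl⟩ := hmem z hz
    have h3 : polar Q (a • x + b • y) x = 0 := h x hxP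
    have h4 : polar Q (a • x + b • y) y = 0 := h y hyP
    simp only [polar_add_left, polar_smul_left, polar_self', hxy, hyx, smul_eq_mul, mul_zero, add_zero, zero_add] at h3 h4
    rw [(mul_eq_zero.1 h3).resolve_right (mul_ne_zero h2 hx), (mul_eq_zero.1 h4).resolve_right (mul_ne_zero h2 hy), zero_smul, zero_smul,
      add_zero]
  have hD1 : IsSquare (-(Q x * Q y)) → D (res Q P) = Nat.card F := by
    rintro ⟨s, hs⟩
    have hu : s • x + Q x • y ∈ P := P.add_mem (P.smul_mem _ hxP) (P.smul_mem _ hyP)
    have hu0 : s • x + Q x • y ≠ 0 := by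
      intro h
      exact hx ((LinearIndependent.pair_iff.1 hli) s (Q x) h).2
    have hQu : Q (s • x + Q x • y) = 0 := by
      rw [hQab, ← hs]; ring
    have h3 : (⟨s • x + Q x • y, hu⟩ : P) ≠ 0 := fun h => hu0 (congrArg Subtype.val h)
    have h4 := D_of_ts (nd_res hnd) (W := Submodule.span F {(⟨s • x + Q x • y, hu⟩ : P)}) (by
      intro w hw
      obtain ⟨c, rfl⟩ := Submodule.mem_span_singleton.1 hw
      show Q (c • (s • x + Q x • y)) = 0
      rw [Q_smul, hQu, mul_zero]) (by rw [finrank_span_singleton h3, hfr])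
    rw [h4, finrank_span_singleton h3, pow_one]
  have hD2 : ¬ IsSquare (-(Q x * Q y)) → D (res Q P) = -(Nat.card F : ℤ) := by
    intro hs
    have h3 := plane_D (nd_res hnd) hfr (by
      rintro ⟨z, hz⟩ hz0
      obtain ⟨a, b, rfl⟩ := hmem z hz
      have h4 : a * a * Q x + b * b * Q y = 0 := by rw [← hQab]; exact hz0
      have hb : b = 0 := by
        by_contra hb
        apply hs
        refine ⟨a * Q x / b, ?_⟩
        field_simp
        linear_combination -h4
      have ha : a = 0 := by
        rw [hb] at h4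
        have h5 : a * a * Q x = 0 := by linear_combination h4
        exact mul_self_eq_zero.1 ((mul_eq_zero.1 h5).resolve_right hx)
      apply Subtype.ext
      show a • x + b • y = 0
      rw [ha, hb, zero_smul, zero_smul, add_zero])
    exact h3.2
  have hneg : IsSquare (-(Q x * Q y)) ↔ (IsSquare (-1 : F) ↔ IsSquare (Q x * Q y)) := by
    rw [← isSquare_mul_iff (neg_ne_zero.2 one_ne_zero) (mul_ne_zero hx hy)]
    rw [neg_one_mul]
  refine ⟨hnd, hfr, fun h => ?_, fun h => ?_⟩
  · unfold chi
    split_ifs with hs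
    · rw [hD1 (hneg.2 ⟨fun _ => h, fun _ => hs⟩), one_mul]
    · rw [hD2 (fun h' => hs ((hneg.1 h').2 h))]; ring
  · unfold chi
    split_ifs with hs
    · rw [hD2 (fun h' => h ((hneg.1 h').1 hs)), one_mul]
    · rw [hD1 (hneg.2 ⟨fun h' => absurd h' hs, fun h' => absurd h' h⟩)]; ring

/-- spinor norm of involutions -/
theorem inv_spin (h2 : (2 : F) ≠ 0) (hQ : Nd Q) (hgen : GenHyp Q) : ∀ (k : ℕ) (g : V ≃ₗ[F] V) (_ : g ∈ O Q) (W : Submodule F V),
    NDq Q W → finrank F W = 2 * k → (∀ x ∈ W, g x = -x) → (∀ x ∈ pp Q W, g x = x) →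
      (IsSquare (wd Q g) ↔ D (res Q W) = chi F ^ k * (Nat.card F : ℤ) ^ k) := by
  have hR := hQ.R_eq_O hgen
  have hcard : (0 : ℤ) < (Nat.card F : ℤ) := by exact_mod_cast Nat.card_pos
  intro k
  induction k with
  | zero =>
    intro g hg W hWnd hk hneg hfix
    have hW : W = ⊥ := Submodule.finrank_eq_zero.1 (by omega)
    have h1 : g = 1 := by
      ext x
      apply hfix
      intro w hw
      rw [hW, Submodule.mem_bot] at hw
      rw [hw]; simp
    have : Subsingleton W := by rw [hW]; infer_instance
    rw [h1, wd_one, D_subsingleton]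
    exact ⟨fun _ => by simp, fun _ => ⟨1, by ring⟩⟩
  | succ k ih =>
    intro g hg W hWnd hk hneg hfix
    have hne : W ≠ ⊥ := by
      rintro rfl
      rw [finrank_bot] at hk
      omega
    obtain ⟨x, hxW, hx⟩ := exists_Q_in hWnd hne
    have hx0 : x ≠ 0 := by
      rintro rfl
      exact hx (QuadraticMap.map_zero Q)
    have hLnd : NDq Q (Submodule.span F {x}) := by
      intro z hz h
      obtain ⟨c, rfl⟩ := Submodule.mem_span_singleton.1 hz
      have h3 : polar Q (c • x) x = 0 := h x (Submodule.mem_span_singleton_self x)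
      rw [polar_smul_left, polar_self', smul_eq_mul] at h3
      rw [(mul_eq_zero.1 h3).resolve_right (mul_ne_zero h2 hx), zero_smul]
    have hLW : Submodule.span F {x} ≤ W := by
      rw [Submodule.span_le]
      rintro z rfl
      exact hxW
    obtain ⟨a1, a2, a3, a4⟩ := Sesq.split_nd (B := Bq Q) refl_bq hWnd hLnd hLW
    have a3' : finrank F (Submodule.span F {x}) + finrank F ↥(W ⊓ pp Q (Submodule.span F {x})) = finrank F W := a3
    rw [finrank_span_singleton hx0] at a3'
    obtain ⟨y, hyW', hy⟩ := exists_Q_in a4 (by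
      intro h
      have h' : W ⊓ pp Q (Submodule.span F {x}) = ⊥ := h
      rw [h', finrank_bot] at a3'
      omega)
    have hyW : y ∈ W := hyW'.1
    have hxy : polar Q x y = 0 := hyW'.2 x (Submodule.mem_span_singleton_self x)
    obtain ⟨hPnd, hPf, hP1, hP2⟩ := orth_plane h2 hxy hx hy
    have hyx : polar Q y x = 0 := by rw [polar_comm]; exact hxy
    set ρ : V ≃ₗ[F] V := refl Q x * refl Q y with hρ
    have hρR : ρ ∈ R Q := (R Q).mul_mem (refl_mem_R _) (refl_mem_R _)
    have hρx : ρ x = -x := by
      show refl Q x (refl Q y x) = _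
      rw [refl_of_perp hyx, refl_self hx]
    have hρy : ρ y = -y := by
      show refl Q x (refl Q y y) = _
      rw [refl_self hy, map_neg, refl_of_perp hxy]
    have hρz : ∀ z, polar Q x z = 0 → polar Q y z = 0 → ρ z = z := by
      intro z h1 h3
      show refl Q x (refl Q y z) = z
      rw [refl_of_perp h3, refl_of_perp h1]
    set P := Submodule.span F {x, y} with hP
    have hxP : x ∈ P := Submodule.subset_span (by simp)
    have hyP : y ∈ P := Submodule.subset_span (by simp)
    have hPW : P ≤ W := by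
      rw [hP, Submodule.span_le]
      rintro z (rfl | rfl)
      · exact hxW
      · exact hyW
    have hmem : ∀ z ∈ P, ∃ a b : F, z = a • x + b • y := by
      intro z hz
      obtain ⟨a, b, h⟩ := Submodule.mem_span_pair.1 hz
      exact ⟨a, b, h.symm⟩
    obtain ⟨k1, k2, k3, k4⟩ := Sesq.split_nd (B := Bq Q) refl_bq hWnd hPnd hPW
    have k3' : finrank F P + finrank F ↥(W ⊓ pp Q P) = finrank F W := k3
    have hperp : ∀ z ∈ pp Q P, polar Q x z = 0 ∧ polar Q y z = 0 := fun z hz => ⟨hz x hxP, hz y hyP⟩
    have hgR : g ∈ R Q := by rw [hR]; exact hg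
    have h5 := ih (ρ * g) ((O Q).mul_mem (R_le hρR) hg) (W ⊓ pp Q P) k4 (by omega) (fun z hz => by
      show ρ (g z) = -z
      rw [hneg z hz.1, map_neg]
      obtain ⟨e1, e2⟩ := hperp z hz.2
      rw [hρz z e1 e2]) (by
      -- trivial on the complement
      intro z hz
      have hdec : z ∈ P ⊔ pp Q P := by
        rw [(Sesq.isCompl_perp (B := Bq Q) refl_bq hPnd).sup_eq_top]; trivial
      obtain ⟨s, hs, t, ht, rfl⟩ := Submodule.mem_sup.1 hdec
      have htW : t ∈ pp Q W := by
        intro w hw
        rw [← k1] at hw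
        obtain ⟨a, ha, b, hb, rfl⟩ := Submodule.mem_sup.1 hw
        show polar Q (a + b) t = 0
        have e1 : polar Q a t = 0 := ht a ha
        have e2 : polar Q b (s + t) = 0 := hz b hb
        have e3 : polar Q b s = 0 := by rw [polar_comm]; exact hb.2 s hs
        rw [polar_add_right, e3, zero_add] at e2
        rw [polar_add_left, e1, e2, add_zero]
      have hgt : g t = t := hfix t htW
      rw [map_add]
      have ht' : (ρ * g) t = t := by
        show ρ (g t) = t
        rw [hgt]
        obtain ⟨e1, e2⟩ := hperp t ht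
        exact hρz _ e1 e2
      have hs' : (ρ * g) s = s := by
        obtain ⟨a, b, rfl⟩ := hmem s hs
        show ρ (g (a • x + b • y)) = _
        rw [map_add, map_smul, map_smul, hneg x hxW, hneg y hyW, map_add, map_smul, map_smul, map_neg, map_neg, hρx, hρy, neg_neg, neg_neg]
      rw [hs', ht'])
    have h6 := wd_mul_isSquare_iff hQ hρR hgR
    have h7 : IsSquare (wd Q ρ) ↔ IsSquare (Q x * Q y) := by
      have h8 := wd_list_isSquare_iff hQ [x, y] (by
        intro z hz
        simp only [List.mem_cons, List.not_mem_nil, or_false] at hz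
        rcases hz with rfl | rfl
        · exact hx
        · exact hy)
      have e1 : (([x, y] : List V).map (refl Q)).prod = ρ := by simp [hρ]
      have e2 : (([x, y] : List V).map Q).prod = Q x * Q y := by
        simp only [List.map_cons, List.map_nil, List.prod_cons, List.prod_nil, mul_one]
      rw [e1, e2] at h8
      exact h8
    rw [h5, h7] at h6
    -- multiplicativity
    have h9 := D_sup k2 (fun u hu w hw => hw.2 u hu) (nd_res hPnd) (nd_res k4) ⟨1, by omega⟩ ⟨k, by omega⟩
    have h10 : P ⊔ (W ⊓ pp Q P) = W := k1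
    rw [h10] at h9
    have hDc := (D_cases k (nd_res k4) (by omega)).2
    have hck : (Nat.card F : ℤ) ^ k ≠ 0 := pow_ne_zero _ hcard.ne'
    have hc0 : (Nat.card F : ℤ) ≠ 0 := hcard.ne'
    have hχ := chi_sq (F := F)
    have hχk : chi F ^ k * chi F ^ k = 1 := by rw [← mul_pow, hχ, one_pow]
    have hχ0 : chi F ≠ 0 := by
      intro h
      rw [h] at hχ
      norm_num at hχ
    have hχk0 : chi F ^ k ≠ 0 := pow_ne_zero _ hχ0
    have hA : D (res Q (W ⊓ pp Q P)) = chi F ^ k * (Nat.card F : ℤ) ^ k ∨ D (res Q (W ⊓ pp Q P)) = -(chi F ^ k * (Nat.card F : ℤ) ^ k) := by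
      have h11 : D (res Q (W ⊓ pp Q P)) = (Nat.card F : ℤ) ^ k ∨ D (res Q (W ⊓ pp Q P)) = -(Nat.card F : ℤ) ^ k := by
        rcases hDc with ⟨-, h⟩ | ⟨-, h⟩
        · exact Or.inl h
        · exact Or.inr h
      rcases pm_of_sq hχk with h12 | h12 <;> rw [h12] <;> rcases h11 with h13 | h13 <;> rw [h13] <;> simp
    have hne2 : (chi F ^ k * (Nat.card F : ℤ) ^ k) ≠ -(chi F ^ k * (Nat.card F : ℤ) ^ k) := by
      intro h
      have : chi F ^ k * (Nat.card F : ℤ) ^ k = 0 := by omega
      exact mul_ne_zero hχk0 hck this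
    have hne3 : (chi F ^ (k + 1) * (Nat.card F : ℤ) ^ (k + 1)) ≠ 0 := mul_ne_zero (pow_ne_zero _ hχ0) (pow_ne_zero _ hc0)
    by_cases hs : IsSquare (Q x * Q y)
    · have hDP : D (res Q P) = chi F * (Nat.card F : ℤ) := hP1 hs
      simp only [hs, true_iff] at h6
      rw [← h6, h9, hDP]
      rcases hA with hA | hA
      · rw [hA]
        exact ⟨fun _ => by ring, fun _ => rfl⟩
      · rw [hA]
        refine ⟨fun h => absurd h.symm hne2, fun h => ?_⟩
        exfalso
        have : (chi F ^ (k + 1) * (Nat.card F : ℤ) ^ (k + 1)) = -(chi F ^ (k + 1) * (Nat.card F : ℤ) ^ (k + 1)) := by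
          rw [← h]
          nth_rewrite 2 [h]
          ring
        omega
    · have hDP : D (res Q P) = -(chi F * (Nat.card F : ℤ)) := hP2 hs
      simp only [hs, false_iff] at h6
      rw [h9, hDP]
      rcases hA with hA | hA
      · have h14 : ¬ IsSquare (wd Q g) := by
          intro h
          exact (h6.1 hA) h
        rw [hA]
        refine ⟨fun h => absurd h h14, fun h => ?_⟩
        exfalso
        have : (chi F ^ (k + 1) * (Nat.card F : ℤ) ^ (k + 1)) = -(chi F ^ (k + 1) * (Nat.card F : ℤ) ^ (k + 1)) := by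
          rw [← h]
          nth_rewrite 2 [h]
          ring
        omega
      · have h14 : IsSquare (wd Q g) := by
          by_contra h
          have := h6.2 h
          rw [hA] at this
          exact hne2 this.symm
        rw [hA]
        exact ⟨fun _ => by ring, fun _ => h14⟩

end plane

end Cfsg.Agent.Lib.OrthR67
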