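import Mathlib
import Cfsg.Agent.Lib.OrthTSF67

/-!
(helper67) Fixed totally singular subspaces of elements of order two modulo scalars in odd characteristic.
-/

set_option autoImplicit false
set_option linter.unusedSectionVars false

namespace Cfsg.Agent.Lib.OrthR67

open QuadraticMap Module Cfsg.Agent.Lib.Quad Cfsg.Agent.Lib.QuadD67 Cfsg.Agent.Lib.QuadEmb67
open Cfsg.Agent.Lib.InvSub Cfsg.Agent.Lib.PrimeOrd Cfsg.Agent.Lib.OReal67

universe u v w

section inv
variable {F : Type u} [Field F] [Fintype F] {V : Type v} [AddCommGroup V] [Module F V] [FiniteDimensional F V]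
variable {Q : QuadraticForm F V} {m : ℕ}

theorem inv_data (h2 : (2 : F) ≠ 0) (hQ : Nd Q) {g : V ≃ₗ[F] V} (hg : g ∈ O Q) (hgg : ∀ v, g (g v) = v) :
    NDq Q (fixS g) ∧ NDq Q (pp Q (fixS g)) ∧ IsCompl (fixS g) (pp Q (fixS g)) ∧ finrank F (fixS g) + finrank F (pp Q (fixS g)) = finrank F V ∧
      finrank F (pp Q (fixS g)) = finrank F (mov g) ∧ (∀ x, x ∈ pp Q (fixS g) ↔ g x = -x) := by
  set T := g.toLinearMap with hTg
  have hTT : ∀ x, T (T x) = x := hgg
  have hT2 : T ^ 2 = 1 := by
    ext v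
    rw [pow_two]
    exact hgg v
  have hiso : ∀ v, Q (T v) = Q v := hg
  have hEE : E T (1 : F) = fixS g := by
    ext x
    rw [mem_E, mem_fixS]; rfl
  have hE : NDq Q (E T (1 : F)) := by
    have := Sesq.nd_inf_E (B := Bq Q) (iso_bq hiso) (r := 2) (by exact_mod_cast h2) hT2 (W := ⊤) (fun _ _ => trivial) (nd_top hQ)
    rwa [top_inf_eq] at this
  obtain ⟨g1, g2, g3⟩ := perp_data hQ hE
  have hinv : Inv T (pp Q (E T 1)) := (iso_bq hiso).inv_perp (nd_top hQ) inv_E
  rw [hEE] at hE g1 g2 g3 hinv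
  have hneg : ∀ x ∈ pp Q (fixS g), T x = -x := by
    intro x hx
    have h3 : T x + x ∈ fixS g := by
      rw [← hEE, mem_E, map_add, hTT, add_comm]
    have h4 : T x + x ∈ pp Q (fixS g) := (pp Q (fixS g)).add_mem (hinv x hx) hx
    have h5 := Submodule.disjoint_def.1 g2.disjoint _ h3 h4
    exact eq_neg_of_add_eq_zero_left h5
  refine ⟨hE, g1, g2, g3, ?_, fun x => ⟨hneg x, fun hx => ?_⟩⟩
  · have hmov := finrank_mov_add_fixS g
    omega
  · have hdec : x ∈ fixS g ⊔ pp Q (fixS g) := by rw [g2.sup_eq_top]; trivial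
    obtain ⟨a, ha, b, hb, rfl⟩ := Submodule.mem_sup.1 hdec
    have h3 := hneg b hb
    have h4 : g b = -b := h3
    rw [map_add, (mem_fixS).1 ha, h4] at hx
    have h5 : (2 : F) • a = 0 := by
      rw [two_smul]
      have : a + -b = -(a + b) := hx
      have h6 : a + a = (a + -b) + (a + b) := by abel
      rw [h6, this]; abel
    rw [(smul_eq_zero.1 h5).resolve_left h2, zero_add]
    exact hb

/-- invariant totally singular subspaces of an involution -/
theorem ts_inv_iff (h2 : (2 : F) ≠ 0) (hQ : Nd Q) {g : V ≃ₗ[F] V} (hg : g ∈ O Q) (hgg : ∀ v, g (g v) = v) :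
    (∃ W, Ts Q m W ∧ Inv g.toLinearMap W) ↔ ∃ e s, e + s = m ∧
      (2 * e ≤ finrank F (fixS g) ∧ (2 * e = finrank F (fixS g) → D (res Q (fixS g)) = (Nat.card F : ℤ) ^ e)) ∧
      (2 * s ≤ finrank F (pp Q (fixS g)) ∧ (2 * s = finrank F (pp Q (fixS g)) → D (res Q (pp Q (fixS g))) = (Nat.card F : ℤ) ^ s)) := by
  obtain ⟨k1, k2, k3, k4, k5, k6⟩ := inv_data h2 hQ hg hgg
  constructor
  · rintro ⟨W, ⟨hts, hm⟩, hW⟩
    have h3 : (W ⊓ fixS g) ⊔ (W ⊓ pp Q (fixS g)) = W := by
      apply le_antisymm (sup_le inf_le_left inf_le_left)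
      intro x hx
      have hgx : g x ∈ W := hW x hx
      have h4 : x = (2 : F)⁻¹ • (x + g x) + (2 : F)⁻¹ • (x - g x) := by
        rw [← smul_add]
        have : x + g x + (x - g x) = (2 : F) • x := by rw [two_smul]; abel
        rw [this, inv_smul_smul₀ h2]
      rw [h4]
      refine Submodule.add_mem_sup ⟨W.smul_mem _ (W.add_mem hx hgx), ?_⟩ ⟨W.smul_mem _ (W.sub_mem hx hgx), ?_⟩
      · rw [SetLike.mem_coe, mem_fixS, map_smul, map_add, hgg, add_comm]
      · rw [SetLike.mem_coe, k6, map_smul, map_sub, hgg, ← smul_neg, _root_.neg_sub]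
    have h4 : (W ⊓ fixS g) ⊓ (W ⊓ pp Q (fixS g)) = ⊥ := by
      rw [eq_bot_iff, ← k3.inf_eq_bot]
      exact inf_le_inf inf_le_right inf_le_right
    have h5 := Submodule.finrank_sup_add_finrank_inf_eq (W ⊓ fixS g) (W ⊓ pp Q (fixS g))
    rw [h3, h4, finrank_bot, add_zero, hm] at h5
    exact ⟨_, _, h5.symm, two_mul_ts_le k1 inf_le_right (fun x hx => hts x hx.1), two_mul_ts_le k2 inf_le_right (fun x hx => hts x hx.1)⟩
  · rintro ⟨e, s, rfl, ⟨h3, h4⟩, h5, h6⟩
    obtain ⟨X, hX1, hX2, hX3⟩ := exists_ts_sub k1 h3 h4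
    obtain ⟨Y, hY1, hY2, hY3⟩ := exists_ts_sub k2 h5 h6
    refine ⟨X ⊔ Y, ⟨?_, ?_⟩, Sesq.inv_sup ?_ ?_⟩
    · intro u hu
      obtain ⟨x, hx, y, hy, rfl⟩ := Submodule.mem_sup.mp hu
      have e1 : polar Q x y = 0 := hY1 hy x (hX1 hx)
      rw [Q_add, hX2 x hx, hY2 y hy, e1]; ring
    · have h7 := Submodule.finrank_sup_add_finrank_inf_eq X Y
      have h8 : X ⊓ Y = ⊥ := by
        rw [eq_bot_iff, ← k3.inf_eq_bot]
        exact inf_le_inf hX1 hY1
      rw [h8, finrank_bot] at h7
      omega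
    · intro x hx
      have : g x = x := mem_fixS.1 (hX1 hx)
      show g x ∈ X
      rw [this]; exact hx
    · intro x hx
      have : g x = -x := (k6 x).1 (hY1 hx)
      show g x ∈ Y
      rw [this]; exact Y.neg_mem hx

/-- a bad involution when `-1` is not a square -/
theorem exists_bad_inv (h2 : (2 : F) ≠ 0) (hQ : Nd Q) (hgen : GenHyp Q) (hn : 3 ≤ finrank F V) (hs : ¬ IsSquare (-1 : F)) :
    ∃ g ∈ Om Q, (∀ v, g (g v) = v) ∧ finrank F (pp Q (fixS g)) = 2 ∧ D (res Q (pp Q (fixS g))) = -(Nat.card F : ℤ) := by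
  obtain ⟨u, hu1, hu2⟩ := exists_orth_vectors h2 2 (fun _ => (1 : F)) (fun _ => one_ne_zero) hQ (by omega)
  obtain ⟨x, hx⟩ : ∃ x, u 0 = x := ⟨_, rfl⟩
  obtain ⟨y, hy⟩ : ∃ y, u 1 = y := ⟨_, rfl⟩
  have hQx : Q x = 1 := by rw [← hx]; exact hu1 0
  have hQy : Q y = 1 := by rw [← hy]; exact hu1 1
  have hxy : polar Q x y = 0 := by rw [← hx, ← hy]; exact hu2 0 1 (by decide)
  have hyx : polar Q y x = 0 := by rw [polar_comm]; exact hxy
  have hx0 : Q x ≠ 0 := by rw [hQx]; exact one_ne_zero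
  have hy0 : Q y ≠ 0 := by rw [hQy]; exact one_ne_zero
  obtain ⟨hPnd, hPf, hP1, hP2⟩ := orth_plane h2 hxy hx0 hy0
  have hD : D (res Q (Submodule.span F {x, y})) = -(Nat.card F : ℤ) := by
    rw [hP1 ⟨1, by rw [hQx, hQy]⟩]
    unfold chi
    rw [if_neg hs]; ring
  set P := Submodule.span F {x, y} with hP
  have hxP : x ∈ P := Submodule.subset_span (by simp)
  have hyP : y ∈ P := Submodule.subset_span (by simp)
  set ρ : V ≃ₗ[F] V := refl Q x * refl Q y with hρ
  have hρR : ρ ∈ R Q := (R Q).mul_mem (refl_mem_R _) (refl_mem_R _)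
  have hρO : ρ ∈ O Q := R_le hρR
  have hρx : ρ x = -x := by
    show refl Q x (refl Q y x) = _
    rw [refl_of_perp hyx, refl_self hx0]
  have hρy : ρ y = -y := by
    show refl Q x (refl Q y y) = _
    rw [refl_self hy0, map_neg, refl_of_perp hxy]
  have hρz : ∀ z ∈ pp Q P, ρ z = z := by
    intro z hz
    show refl Q x (refl Q y z) = z
    have e1 : polar Q x z = 0 := hz x hxP
    have e2 : polar Q y z = 0 := hz y hyP
    rw [refl_of_perp e2, refl_of_perp e1]
  have hρP : ∀ z ∈ P, ρ z = -z := by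
    intro z hz
    obtain ⟨a, b, rfl⟩ := Submodule.mem_span_pair.1 hz
    rw [map_add, map_smul, map_smul, hρx, hρy, smul_neg, smul_neg]; abel
  obtain ⟨g1, g2, g3⟩ := perp_data hQ hPnd
  have hdec : ∀ v, ∃ a ∈ P, ∃ b ∈ pp Q P, v = a + b := by
    intro v
    have : v ∈ P ⊔ pp Q P := by rw [g2.sup_eq_top]; trivial
    obtain ⟨a, ha, b, hb, hab⟩ := Submodule.mem_sup.1 this
    exact ⟨a, ha, b, hb, hab.symm⟩
  have hgg : ∀ v, ρ (ρ v) = v := by
    intro v
    obtain ⟨a, ha, b, hb, rfl⟩ := hdec v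
    rw [map_add, map_add, hρP a ha, hρz b hb, map_neg, hρP a ha, hρz b hb, neg_neg]
  have hfix : fixS ρ = pp Q P := by
    ext z
    rw [mem_fixS]
    refine ⟨fun hz => ?_, hρz z⟩
    obtain ⟨a, ha, b, hb, rfl⟩ := hdec z
    rw [map_add, hρP a ha, hρz b hb] at hz
    have h5 : (2 : F) • a = 0 := by
      rw [two_smul]
      have h6 : -a = a := add_right_cancel hz
      nth_rewrite 1 [← h6]
      exact neg_add_cancel a
    rw [(smul_eq_zero.1 h5).resolve_left h2, zero_add]
    exact hb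
  have hpp : pp Q (fixS ρ) = P := by
    rw [hfix]
    exact Sesq.perp_perp refl_bq (nd_top hQ) P
  obtain ⟨k1, k2, k3, k4, k5, k6⟩ := inv_data h2 hQ hρO hgg
  refine ⟨ρ, ?_, hgg, by rw [hpp]; exact hPf, by rw [hpp]; exact hD⟩
  have h5 := mem_Om_iff_homs hQ hgen ⟨ρ, hρO⟩
  have h6 : (ρ ∈ Om Q) ↔ (Even (finrank F (mov ρ)) ∧ IsSquare (wd Q ρ)) := by
    rw [show (ρ ∈ Om Q) ↔ _ from h5]
    exact and_congr sgn_eq_one_iff sgn_eq_one_iff
  rw [h6, ← k5, hpp, hPf]
  refine ⟨by decide, ?_⟩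
  have h8 := wd_list_isSquare_iff hQ [x, y] (by
    intro z hz
    simp only [List.mem_cons, List.not_mem_nil, or_false] at hz
    rcases hz with rfl | rfl
    · exact hx0
    · exact hy0)
  have e1 : (([x, y] : List V).map (refl Q)).prod = ρ := by simp [hρ]
  have e2 : (([x, y] : List V).map Q).prod = 1 := by
    simp only [List.map_cons, List.map_nil, List.prod_cons, List.prod_nil, mul_one]
    rw [hQx, hQy, mul_one]
  rw [e1, e2] at h8
  exact h8.2 ⟨1, by ring⟩

end inv

section neg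
variable {F : Type u} [Field F] [Fintype F] {V : Type v} [AddCommGroup V] [Module F V] [FiniteDimensional F V]
variable {Q : QuadraticForm F V} {T : Module.End F V} {m : ℕ}

theorem neg_even (hTT : ∀ v, T (T v) = -v) (hs : ¬ IsSquare (-1 : F)) {W : Submodule F V} (hW : Inv T W) : Even (finrank F W) := by
  by_contra ho
  rw [Nat.not_even_iff_odd] at ho
  apply hs
  have h1 : (T.restrict hW) * (T.restrict hW) = (-1 : F) • (1 : Module.End F W) := by
    ext x
    show T (T (x : V)) = (-1 : F) • (x : V)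
    rw [hTT, neg_smul, one_smul]
  have h3 := congrArg LinearMap.det h1
  rw [map_mul, LinearMap.det_smul, map_one, mul_one, ho.neg_one_pow] at h3
  exact ⟨_, h3.symm⟩

theorem exists_sub_finrank {W : Submodule F V} {m : ℕ} (h : m ≤ finrank F W) : ∃ U ≤ W, finrank F U = m := by
  obtain ⟨f, hf⟩ := exists_linearIndependent_of_le_finrank h
  refine ⟨(Submodule.span F (Set.range f)).map W.subtype, ?_, ?_⟩
  · rintro _ ⟨x, -, rfl⟩
    exact x.2
  · rw [Submodule.finrank_map_subtype_eq, finrank_span_eq_card hf, Fintype.card_fin]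

/-- invariant totally singular subspaces when `-1` is a square -/
theorem neg_ts_sq (h2 : (2 : F) ≠ 0) (hQ : Nd Q) (hT : ∀ v, Q (T v) = Q v) (hTT : ∀ v, T (T v) = -v) (hs : IsSquare (-1 : F)) {d : ℕ}
    (hV : finrank F V = 2 * d) (hm : m ≤ d) : ∃ W, Ts Q m W ∧ Inv T W := by
  obtain ⟨i, hi⟩ := hs
  have hi0 : i ≠ 0 := by
    rintro rfl
    rw [mul_zero] at hi
    exact one_ne_zero (neg_eq_zero.1 hi)
  have hts : ∀ c : F, c * c = -1 → ∀ x ∈ E T c, Q x = 0 := by
    intro c hc x hx
    have h1 := hT x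
    rw [Module.End.mem_eigenspace_iff.1 hx, Q_smul, hc] at h1
    have h3 : 2 * Q x = 0 := by linear_combination -h1
    exact (mul_eq_zero.1 h3).resolve_left h2
  have hb : ∀ c : F, c * c = -1 → 2 * finrank F (E T c) ≤ 2 * d := by
    intro c hc
    have := (two_mul_ts_le (W := ⊤) (nd_top hQ) le_top (hts c hc)).1
    rwa [finrank_top, hV] at this
  have hsup : E T i ⊔ E T (-i) = ⊤ := by
    rw [eq_top_iff]
    intro x _
    have h4 : x = ((2 : F)⁻¹ * i⁻¹) • (i • x + T x) + ((2 : F)⁻¹ * i⁻¹) • (i • x - T x) := by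
      rw [← smul_add]
      have : i • x + T x + (i • x - T x) = (2 * i) • x := by rw [mul_smul, two_smul]; abel
      rw [this, smul_smul]
      have : (2 : F)⁻¹ * i⁻¹ * (2 * i) = 1 := by field_simp
      rw [this, one_smul]
    rw [h4]
    refine Submodule.add_mem_sup (Submodule.smul_mem _ _ ?_) (Submodule.smul_mem _ _ ?_)
    · rw [Module.End.mem_eigenspace_iff, map_add, map_smul, hTT, smul_add, smul_smul, ← hi, neg_smul, one_smul, add_comm]
    · rw [Module.End.mem_eigenspace_iff, map_sub, map_smul, hTT, smul_sub, smul_smul, neg_mul, ← hi, neg_neg, one_smul, neg_smul]; abel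
  have h5 := Submodule.finrank_sup_add_finrank_inf_eq (E T i) (E T (-i))
  rw [hsup, finrank_top, hV] at h5
  have h6 := hb i hi.symm
  have h7 := hb (-i) (by rw [neg_mul_neg]; exact hi.symm)
  obtain ⟨f, hf1, hf2⟩ := exists_sub_finrank (W := E T i) (m := m) (by omega)
  refine ⟨f, ⟨fun w hw => hts i hi.symm w (hf1 hw), hf2⟩, fun x hx => ?_⟩
  rw [Module.End.mem_eigenspace_iff.1 (hf1 hx)]
  exact f.smul_mem _ hx

/-- invariant totally singular subspaces when `-1` is not a square -/
theorem neg_ts_nsq (h2 : (2 : F) ≠ 0) (hQ : Nd Q) (hT : ∀ v, Q (T v) = Q v) (hTT : ∀ v, T (T v) = -v) (hs : ¬ IsSquare (-1 : F)) :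
    ∀ (j : ℕ) (W : Submodule F V), 4 * j ≤ finrank F W → Inv T W → NDq Q W →
      ∃ U ≤ W, Inv T U ∧ (∀ x ∈ U, Q x = 0) ∧ finrank F U = 2 * j := by
  intro j
  induction j with
  | zero =>
    intro W _ _ _
    refine ⟨⊥, bot_le, fun x hx => by rw [(Submodule.mem_bot F).mp hx, map_zero]; exact Submodule.zero_mem _, ?_, by rw [finrank_bot, Nat.mul_zero]⟩
    intro x hx
    rw [(Submodule.mem_bot F).mp hx, QuadraticMap.map_zero]
  | succ j ih =>
    intro W hj hW hWnd
    obtain ⟨U₀, a1, a2, a3, a4⟩ := neg_sub h2 hQ hT hTT 2 W (by omega) hW hWnd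
    obtain ⟨⟨v, hvU⟩, hv0, hv⟩ := (nd_res a3).exists_singular (by omega)
    have hv0' : v ≠ 0 := fun h => hv0 (Subtype.ext h)
    have hQv : Q v = 0 := hv
    have hpol := neg_polar h2 hT hTT v
    obtain ⟨X, hX⟩ : ∃ X, Submodule.span F {v, T v} = X := ⟨_, rfl⟩
    have hvX : v ∈ X := by rw [← hX]; exact Submodule.subset_span (by simp)
    have hTX : T v ∈ X := by rw [← hX]; exact Submodule.subset_span (by simp)
    have hmem : ∀ x ∈ X, ∃ a b : F, x = a • v + b • T v := by
      intro x hx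
      rw [← hX] at hx
      obtain ⟨a, b, h⟩ := Submodule.mem_span_pair.1 hx
      exact ⟨a, b, h.symm⟩
    have hXU : X ≤ U₀ := by
      rw [← hX, Submodule.span_le]
      rintro x (rfl | rfl)
      · exact hvU
      · exact a2 v hvU
    have hXinv : Inv T X := by
      intro x hx
      obtain ⟨a, b, rfl⟩ := hmem x hx
      rw [map_add, map_smul, map_smul, hTT]
      exact X.add_mem (X.smul_mem a hTX) (X.smul_mem b (X.neg_mem hvX))
    have hXts : ∀ x ∈ X, Q x = 0 := by
      intro x hx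
      obtain ⟨a, b, rfl⟩ := hmem x hx
      rw [Q_add, Q_smul, Q_smul, polar_smul_left, polar_smul_right, hpol, hT, hQv]
      simp
    have hXf : finrank F X = 2 := by
      have hli : LinearIndependent F ![v, T v] := by
        rw [LinearIndependent.pair_iff]
        intro a b hab
        by_cases hb : b = 0
        · rw [hb, zero_smul, add_zero] at hab
          exact ⟨(smul_eq_zero.1 hab).resolve_right hv0', hb⟩
        · exfalso
          have h3 : T v = (-(a / b)) • v := by
            have h4 : b • T v = b • ((-(a / b)) • v) := by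
              rw [smul_smul, show b * -(a / b) = -a by field_simp, neg_smul]
              exact eq_neg_of_add_eq_zero_right hab
            exact smul_right_injective V hb h4
          have h5 := hTT v
          rw [h3, map_smul, h3, smul_smul] at h5
          have h6 : (-(a / b) * -(a / b) + 1) • v = 0 := by
            rw [add_smul, h5, one_smul, neg_add_cancel]
          have h7 := (smul_eq_zero.1 h6).resolve_right hv0'
          exact hs ⟨-(a / b), by linear_combination -h7⟩
      have h3 : ({v, T v} : Set V) = Set.range ![v, T v] := by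
        ext x
        simp only [Set.mem_insert_iff, Set.mem_singleton_iff, Set.mem_range, Fin.exists_fin_two, Matrix.cons_val_zero, Matrix.cons_val_one]
        exact ⟨fun h => h.imp Eq.symm Eq.symm, fun h => h.imp Eq.symm Eq.symm⟩
      rw [← hX, h3, finrank_span_eq_card hli, Fintype.card_fin]
    obtain ⟨k1, k2, k3, k4⟩ := Sesq.split_nd (B := Bq Q) refl_bq hWnd a3 a1
    have k3' : finrank F U₀ + finrank F ↥(W ⊓ pp Q U₀) = finrank F W := k3
    have hinv : Inv T (W ⊓ pp Q U₀) := Sesq.inv_inf hW ((iso_bq hT).inv_perp (nd_top hQ) a2)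
    obtain ⟨Y, g1, g2, g3, g4⟩ := ih (W ⊓ pp Q U₀) (by omega) hinv k4
    refine ⟨X ⊔ Y, sup_le (hXU.trans a1) (g1.trans inf_le_left), Sesq.inv_sup hXinv g2, ?_, ?_⟩
    · intro u hu
      obtain ⟨x, hx, y, hy, rfl⟩ := Submodule.mem_sup.mp hu
      have e1 : polar Q x y = 0 := (g1 hy).2 x (hXU hx)
      rw [Q_add, hXts x hx, g3 y hy, e1]; ring
    · have h7 := Submodule.finrank_sup_add_finrank_inf_eq X Y
      rw [disjoint_iff.mp (k2.mono hXU g1), finrank_bot] at h7
      omega

/-- elements with square `-1` -/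
theorem neg_ts_iff (h2 : (2 : F) ≠ 0) (hQ : Nd Q) (hT : ∀ v, Q (T v) = Q v) (hTT : ∀ v, T (T v) = -v) {d : ℕ}
    (hV : finrank F V = 2 * d) (hm : m ≤ d) : (∃ W, Ts Q m W ∧ Inv T W) ↔ (¬ IsSquare (-1 : F) → Even m) := by
  constructor
  · rintro ⟨W, ⟨-, hWm⟩, hW⟩ hs
    rw [← hWm]
    exact neg_even hTT hs hW
  · intro H
    by_cases hs : IsSquare (-1 : F)
    · exact neg_ts_sq h2 hQ hT hTT hs hV hm
    · obtain ⟨j, hj⟩ := H hs
      obtain ⟨U, -, h3, h4, h5⟩ := neg_ts_nsq h2 hQ hT hTT hs j ⊤ (by rw [finrank_top]; omega) (fun _ _ => trivial) (nd_top hQ)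
      exact ⟨U, ⟨h4, by omega⟩, h3⟩

end neg

section final
variable {F : Type u} [Field F] [Fintype F] {V : Type v} [AddCommGroup V] [Module F V] [FiniteDimensional F V]
variable {Q : QuadraticForm F V} {m : ℕ}

theorem om_inv (hQ : Nd Q) (hgen : GenHyp Q) {g : V ≃ₗ[F] V} (hg : g ∈ O Q) :
    (g ∈ Om Q) ↔ (Even (finrank F (mov g)) ∧ IsSquare (wd Q g)) := by
  have h5 := mem_Om_iff_homs hQ hgen ⟨g, hg⟩
  rw [show (g ∈ Om Q) ↔ _ from h5]
  exact and_congr sgn_eq_one_iff sgn_eq_one_iff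

/-- odd dimension -/
theorem two_ts_odd (h2 : (2 : F) ≠ 0) (hQ : Nd Q) (hgen : GenHyp Q) {d : ℕ} (hd : 1 ≤ d) (hV : finrank F V = 2 * d + 1) (hm : m ≤ d) :
    (∀ g ∈ Om Q, g ^ 2 = 1 → g ≠ 1 → ∃ W, Ts Q m W ∧ Inv g.toLinearMap W) ↔ (m < d ∨ IsSquare (-1 : F)) := by
  have hcard : (0 : ℤ) < (Nat.card F : ℤ) := by exact_mod_cast Nat.card_pos
  constructor
  · intro H
    by_contra hcon
    push Not at hcon
    obtain ⟨hmd, hs⟩ := hcon
    obtain ⟨g, hg, hgg, hf, hD⟩ := exists_bad_inv h2 hQ hgen (by omega) hs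
    obtain ⟨k1, k2, k3, k4, k5, k6⟩ := inv_data h2 hQ (Om_le hg) hgg
    have hW := H g hg (by ext v; rw [pow_two]; exact hgg v) (by
      rintro rfl
      have h3 : fixS (1 : V ≃ₗ[F] V) = ⊤ := by
        rw [eq_top_iff]
        intro x _
        exact mem_fixS.2 rfl
      rw [hf, h3, finrank_top] at k4
      omega)
    obtain ⟨e, s, e1, ⟨e2, e3⟩, e4, e5⟩ := (ts_inv_iff h2 hQ (Om_le hg) hgg).1 hW
    have hs1 : s = 1 := by omega
    have := e5 (by omega)
    rw [hD, hs1, pow_one] at this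
    omega
  · intro H g hg hg2 hg1
    have hgg : ∀ v, g (g v) = v := by
      intro v
      have := LinearEquiv.congr_fun hg2 v
      rw [pow_two] at this
      exact this
    obtain ⟨k1, k2, k3, k4, k5, k6⟩ := inv_data h2 hQ (Om_le hg) hgg
    obtain ⟨⟨b, hb⟩, hsq⟩ := (om_inv hQ hgen (Om_le hg)).1 hg
    rw [ts_inv_iff h2 hQ (Om_le hg) hgg]
    have hb1 : b ≠ 0 := by
      rintro rfl
      exact hg1 (mov_eq_bot.1 (Submodule.finrank_eq_zero.1 hb))
    rcases Nat.lt_or_ge m d with h3 | h3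
    · rcases Nat.lt_or_ge (d - b) m with h4 | h4
      · exact ⟨d - b, m - (d - b), by omega, ⟨by omega, fun h => by omega⟩, by omega, fun h => by omega⟩
      · exact ⟨m, 0, by omega, ⟨by omega, fun h => by omega⟩, by omega, fun h => by omega⟩
    · have hs : IsSquare (-1 : F) := by
        rcases H with h | h
        · omega
        · exact h
      have h5 := (inv_spin h2 hQ hgen b g (Om_le hg) _ k2 (by omega) (fun x hx => (k6 x).1 hx) (fun x hx => by
        rw [show pp Q (pp Q (fixS g)) = fixS g from Sesq.perp_perp refl_bq (nd_top hQ) _] at hx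
        exact mem_fixS.1 hx)).1 hsq
      have hchi : chi F = 1 := by unfold chi; rw [if_pos hs]
      rw [hchi, one_pow, one_mul] at h5
      exact ⟨d - b, b, by omega, ⟨by omega, fun h => by omega⟩, by omega, fun _ => h5⟩

theorem neg_spin' (h2 : (2 : F) ≠ 0) (hQ : Nd Q) (hgen : GenHyp Q) {d : ℕ} (hV : finrank F V = 2 * d) {g : V ≃ₗ[F] V} (hg : g ∈ O Q)
    (hgg : ∀ v, g (g v) = -v) : g ∈ Om Q ↔ (Even d ∨ IsSquare (2 : F)) := by
  have h1 := neg_spin h2 hQ hgen d g hg ⊤ (nd_top hQ) (by rw [finrank_top, hV]) (fun _ _ => trivial) (fun x _ => hgg x) (by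
    intro x hx
    have : x = 0 := hQ.eq_zero (fun y => by rw [polar_comm]; exact hx y trivial)
    rw [this, map_zero])
  have hfix : fixS g = ⊥ := by
    rw [eq_bot_iff]
    intro x hx
    rw [mem_fixS] at hx
    have h3 := hgg x
    rw [hx, hx] at h3
    have h4 : (2 : F) • x = 0 := by
      rw [two_smul]
      nth_rewrite 1 [h3]
      exact neg_add_cancel x
    exact (Submodule.mem_bot F).2 ((smul_eq_zero.1 h4).resolve_left h2)
  have hmov := finrank_mov_add_fixS g
  rw [hfix, finrank_bot, add_zero, hV] at hmov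
  rw [← h1, om_inv hQ hgen hg, hmov]
  exact ⟨fun h => h.2, fun h => ⟨even_two_mul _, h⟩⟩

theorem nonscal_of_neg (h2 : (2 : F) ≠ 0) (hQ : Nd Q) (hn : 0 < finrank F V) {g : V ≃ₗ[F] V} (hg : g ∈ O Q) (hgg : ∀ v, g (g v) = -v)
    (z : F) : ∃ v, g v ≠ z • v := by
  by_contra hcon
  push Not at hcon
  have h3 := scal_sq hQ hn hg hcon
  obtain ⟨v, hv⟩ := hQ.exists_Q_ne_zero hn
  have h4 := hgg v
  rw [hcon v, map_smul, hcon v, smul_smul, h3, one_smul] at h4
  have h5 : (2 : F) • v = 0 := by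
    rw [two_smul]
    nth_rewrite 1 [h4]
    exact neg_add_cancel v
  have h6 := (smul_eq_zero.1 h5).resolve_left h2
  rw [h6, QuadraticMap.map_zero] at hv
  exact hv rfl

/-- even dimension -/
theorem two_ts_even (h2 : (2 : F) ≠ 0) (hQ : Nd Q) (hgen : GenHyp Q) {d : ℕ} (hd : 2 ≤ d) (hV : finrank F V = 2 * d) (hm : m < d)
    {ε : ℤ} (hε : ε = 1 ∨ ε = -1) (hD : D Q = ε * (Nat.card F : ℤ) ^ d) :
    (∀ g ∈ Om Q, (∃ z : F, ∀ v, (g ^ 2) v = z • v) → (∀ z : F, ∃ v, g v ≠ z • v) → ∃ W, Ts Q m W ∧ Inv g.toLinearMap W) ↔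
      (¬ IsSquare (-1 : F) → ((ε = 1 → m + 2 ≤ d) ∧ (ε = (-1) ^ d → (Even d ∨ IsSquare (2 : F)) → Even m))) := by
  have hcard : (0 : ℤ) < (Nat.card F : ℤ) := by exact_mod_cast Nat.card_pos
  have hpos : ∀ k : ℕ, (0 : ℤ) < (Nat.card F : ℤ) ^ k := fun k => pow_pos hcard k
  constructor
  · intro H hs
    have hchi : chi F = -1 := by unfold chi; rw [if_neg hs]
    refine ⟨fun hε1 => ?_, fun hε2 h3 => ?_⟩
    · by_contra hcon
      obtain ⟨g, hg, hgg, hf, hDg⟩ := exists_bad_inv h2 hQ hgen (by omega) hs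
      obtain ⟨k1, k2, k3, k4, k5, k6⟩ := inv_data h2 hQ (Om_le hg) hgg
      have hW := H g hg ⟨1, fun v => by rw [pow_two, one_smul]; exact hgg v⟩ (by
        intro z
        by_contra hcon2
        push Not at hcon2
        have h3 : fixS g ≠ ⊥ := by
          intro h
          rw [hf, h, finrank_bot] at k4
          omega
        have h4 : pp Q (fixS g) ≠ ⊥ := by
          intro h
          rw [h, finrank_bot] at hf
          omega
        obtain ⟨x, hx, hx0⟩ := Submodule.exists_mem_ne_zero_of_ne_bot h3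
        obtain ⟨y, hy, hy0⟩ := Submodule.exists_mem_ne_zero_of_ne_bot h4
        have e1 : (1 - z) • x = 0 := by rw [sub_smul, one_smul, ← hcon2, mem_fixS.1 hx, sub_self]
        have e2 : (1 + z) • y = 0 := by rw [add_smul, one_smul, ← hcon2, (k6 y).1 hy, add_neg_cancel]
        have e3 := (smul_eq_zero.1 e1).resolve_right hx0
        have e4 := (smul_eq_zero.1 e2).resolve_right hy0
        exact h2 (by linear_combination e3 + e4))
      obtain ⟨e, s, e1, ⟨e2, e3⟩, e4, e5⟩ := (ts_inv_iff h2 hQ (Om_le hg) hgg).1 hW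
      have hs1 : s = 0 := by
        by_contra hs0
        have hs1 : s = 1 := by omega
        have := e5 (by omega)
        rw [hDg, hs1, pow_one] at this
        omega
      have he : e = d - 1 := by omega
      have h6 := e3 (by omega)
      have h7 := D_perp hQ k1 ⟨d - 1, by omega⟩ ⟨d, by omega⟩
      rw [hD, hDg, h6, hε1, he] at h7
      have h8 : (Nat.card F : ℤ) ^ d = (Nat.card F : ℤ) ^ (d - 1) * (Nat.card F : ℤ) := by
        rw [← pow_succ]; congr 1; omega
      have h9 := hpos d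
      have h10 : 1 * (Nat.card F : ℤ) ^ d = -((Nat.card F : ℤ) ^ (d - 1) * (Nat.card F : ℤ)) := by rw [h7]; ring
      rw [← h8] at h10
      omega
    · obtain ⟨g, hg, hgg⟩ := exists_neg h2 hQ hV (by rw [hD, hchi, hε2])
      have hW := H g ((neg_spin' h2 hQ hgen hV hg hgg).2 h3) ⟨-1, fun v => by
        rw [pow_two]
        show g (g v) = _
        rw [hgg, neg_smul, one_smul]⟩ (nonscal_of_neg h2 hQ (by omega) hg hgg)
      exact (neg_ts_iff h2 hQ (T := g.toLinearMap) hg hgg hV hm.le).1 hW hs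
  · intro H g hg ⟨z, hz⟩ hnz
    have hgO := Om_le hg
    rcases pm_scal hQ (by omega) hgO hz with rfl | rfl
    · have hgg : ∀ v, g (g v) = v := by
        intro v
        have := hz v
        rw [pow_two, one_smul] at this
        exact this
      obtain ⟨k1, k2, k3, k4, k5, k6⟩ := inv_data h2 hQ hgO hgg
      obtain ⟨⟨b, hb⟩, hsq⟩ := (om_inv hQ hgen hgO).1 hg
      rw [ts_inv_iff h2 hQ hgO hgg]
      have hb1 : b ≠ 0 := by
        rintro rfl
        obtain ⟨v, hv⟩ := hnz 1
        have := mov_eq_bot.1 (Submodule.finrank_eq_zero.1 hb)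
        rw [this] at hv
        exact hv (by rw [one_smul]; rfl)
      have hbd : b ≠ d := by
        rintro rfl
        have h3 : fixS g = ⊥ := Submodule.finrank_eq_zero.1 (by omega)
        obtain ⟨v, hv⟩ := hnz (-1)
        apply hv
        have h4 : g v + v ∈ fixS g := by
          rw [mem_fixS, map_add, hgg, add_comm]
        rw [h3, Submodule.mem_bot] at h4
        rw [neg_smul, one_smul]
        exact eq_neg_of_add_eq_zero_left h4
      have h7 := D_perp hQ k1 ⟨d - b, by omega⟩ ⟨d, by omega⟩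
      have hspin := inv_spin h2 hQ hgen b g hgO _ k2 (by omega) (fun x hx => (k6 x).1 hx) (fun x hx => by
        rw [show pp Q (pp Q (fixS g)) = fixS g from Sesq.perp_perp refl_bq (nd_top hQ) _] at hx
        exact mem_fixS.1 hx)
      have hD1 : D (res Q (fixS g)) = (Nat.card F : ℤ) ^ (d - b) ∨ D (res Q (fixS g)) = -(Nat.card F : ℤ) ^ (d - b) := by
        rcases (D_cases (d - b) (nd_res k1) (by omega)).2 with ⟨-, h⟩ | ⟨-, h⟩
        · exact Or.inl h
        · exact Or.inr h
      have hD2 : D (res Q (pp Q (fixS g))) = (Nat.card F : ℤ) ^ b ∨ D (res Q (pp Q (fixS g))) = -(Nat.card F : ℤ) ^ b := by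
        rcases (D_cases b (nd_res k2) (by omega)).2 with ⟨-, h⟩ | ⟨-, h⟩
        · exact Or.inl h
        · exact Or.inr h
      have h8 : (Nat.card F : ℤ) ^ d = (Nat.card F : ℤ) ^ (d - b) * (Nat.card F : ℤ) ^ b := by
        rw [← pow_add]; congr 1; omega
      rcases hD1 with hD1 | hD1
      · -- the fixed space is of plus type
        rcases Nat.lt_or_ge (d - b) m with h4 | h4
        · exact ⟨d - b, m - (d - b), by omega, ⟨by omega, fun h => by rw [hD1]⟩, by omega, fun h => by omega⟩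
        · refine ⟨m, 0, by omega, ⟨by omega, fun h => ?_⟩, by omega, fun h => by omega⟩
          have : m = d - b := by omega
          rw [hD1, this]
      · rcases hD2 with hD2 | hD2
        · rcases Nat.lt_or_ge m (d - b) with h4 | h4
          · exact ⟨m, 0, by omega, ⟨by omega, fun h => by omega⟩, by omega, fun h => by omega⟩
          · refine ⟨d - b - 1, m - (d - b - 1), by omega, ⟨by omega, fun h => by omega⟩, by omega, fun h => ?_⟩
            have : m - (d - b - 1) = b := by omega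
            rw [hD2, this]
        · -- both are of minus type
          have hε1 : ε = 1 := by
            rw [hD1, hD2, hD] at h7
            have h9 : ε * (Nat.card F : ℤ) ^ d = (Nat.card F : ℤ) ^ d := by rw [h7, h8]; ring
            have h10 : (ε - 1) * (Nat.card F : ℤ) ^ d = 0 := by linear_combination h9
            have := (mul_eq_zero.1 h10).resolve_right (hpos d).ne'
            omega
          have hs : ¬ IsSquare (-1 : F) := by
            intro hs
            have hchi : chi F = 1 := by unfold chi; rw [if_pos hs]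
            have h11 := hspin.1 hsq
            rw [hchi, one_pow, one_mul, hD2] at h11
            have := hpos b
            omega
          have h12 := (H hs).1 hε1
          rcases Nat.lt_or_ge m (d - b) with h4 | h4
          · exact ⟨m, 0, by omega, ⟨by omega, fun h => by omega⟩, by omega, fun h => by omega⟩
          · exact ⟨d - b - 1, m - (d - b - 1), by omega, ⟨by omega, fun h => by omega⟩, by omega, fun h => by omega⟩
    · have hgg : ∀ v, g (g v) = -v := by
        intro v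
        have := hz v
        rw [pow_two, neg_smul, one_smul] at this
        exact this
      rw [neg_ts_iff h2 hQ (T := g.toLinearMap) hgO hgg hV hm.le]
      intro hs
      obtain ⟨k, hk1, hk2⟩ := neg_D h2 hQ (T := g.toLinearMap) hgO hgg _ ⊤ rfl (fun _ _ => trivial) (nd_top hQ)
      have hkd : k = d := by rw [finrank_top] at hk1; omega
      have hchi : chi F = -1 := by unfold chi; rw [if_neg hs]
      rw [D_top, hkd, hD, hchi] at hk2
      have hε2 : ε = (-1) ^ d := mul_right_cancel₀ (hpos d).ne' hk2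
      exact (H hs).2 hε2 ((neg_spin' h2 hQ hgen hV hgO hgg).1 hg)

end final

end Cfsg.Agent.Lib.OrthR67
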