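import Cfsg.Agent.Lib.RelSylow
import Cfsg.Agent.Lib.FusionNormalSubgroup
import Mathlib.GroupTheory.SpecificGroups.Alternating
import Mathlib.NumberTheory.Padics.PadicVal.Basic

/-!
# Sylow 2-subgroups of symmetric and alternating groups are self-normalizing (helper37)

`sn_perm`: every Sylow 2-subgroup of `Perm (Fin n)` is self-normalizing.
`sn_alt`: the same for `alternatingGroup (Fin n)`, `n ≥ 6`.
-/

set_option autoImplicit false

open Equiv Subgroup

namespace Cfsg.Agent.Lib.SylowTwoAlt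

section SN

/-- Every Sylow 2-subgroup is self-normalizing. -/
def SN (G : Type*) [Group G] : Prop :=
  ∀ P : Sylow 2 G, Subgroup.normalizer ((P : Subgroup G) : Set G) ≤ P

theorem SN_of_exists {G : Type*} [Group G] [Finite G] (P : Sylow 2 G)
    (h : Subgroup.normalizer ((P : Subgroup G) : Set G) ≤ P) : SN G := by
  intro Q g hg
  obtain ⟨x, hx⟩ := MulAction.exists_smul_eq G P Q
  have hQ : (Q : Subgroup G) = (P : Subgroup G).map (MulAut.conj x).toMonoidHom := by
    rw [← hx]; rfl
  rw [hQ] at hg ⊢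
  rw [← RelSylow.normalizer_conj, RelSylow.mem_conj_iff] at hg
  exact RelSylow.mem_conj_iff.mpr (h hg)

theorem SN_of_equiv {G G' : Type*} [Group G] [Group G'] [Finite G] [Finite G'] (e : G ≃* G')
    (h : SN G) : SN G' := by
  have P : Sylow 2 G' := default
  have hP : IsPGroup 2 ((P : Subgroup G').map e.symm.toMonoidHom) := P.2.map _
  have hidx : ¬ 2 ∣ ((P : Subgroup G').map e.symm.toMonoidHom).index := by
    have h1 := Subgroup.index_map_equiv (P : Subgroup G') e.symm
    intro h2
    apply P.not_dvd_index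
    rw [← h1]
    exact h2
  let P' : Sylow 2 G := hP.toSylow hidx
  apply SN_of_exists P
  intro g hg
  have h1 : e.symm g ∈ Subgroup.normalizer ((P' : Subgroup G) : Set G) := by
    rw [Subgroup.mem_normalizer_iff] at hg ⊢
    intro x
    have h2 := hg (e x)
    constructor
    · rintro ⟨y, hy, rfl⟩
      have h3 : e (e.symm.toMonoidHom y) = y := e.apply_symm_apply y
      rw [h3] at h2
      exact ⟨g * y * g⁻¹, h2.mp hy, by simp⟩
    · rintro ⟨y, hy, hyx⟩
      refine ⟨e x, h2.mpr ?_, e.symm_apply_apply x⟩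
      have h3 : y = g * e x * g⁻¹ := by
        have h4 := congrArg e hyx
        simpa using h4
      rw [← h3]
      exact hy
  obtain ⟨y, hy, hyg⟩ := h P' h1
  have : y = g := e.symm.injective hyg
  rw [← this]
  exact hy

end SN

section Model

variable {Q R : Type*}

/-- The model set `(Q × Bool) ⊕ R`. -/
abbrev Om (Q R : Type*) := (Q × Bool) ⊕ R

/-- Change coordinates by `f`. -/
def flip (f : Q → Bool) : Perm (Om Q R) where
  toFun x := Sum.elim (fun p => Sum.inl (p.1, xor (f p.1) p.2)) Sum.inr x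
  invFun x := Sum.elim (fun p => Sum.inl (p.1, xor (f p.1) p.2)) Sum.inr x
  left_inv := by rintro (⟨q, b⟩ | r) <;> simp
  right_inv := by rintro (⟨q, b⟩ | r) <;> simp

@[simp] theorem flip_inl (f : Q → Bool) (q : Q) (b : Bool) :
    (flip f : Perm (Om Q R)) (Sum.inl (q, b)) = Sum.inl (q, xor (f q) b) := rfl

@[simp] theorem flip_inr (f : Q → Bool) (r : R) :
    (flip f : Perm (Om Q R)) (Sum.inr r) = Sum.inr r := rfl

/-- The standard involution. -/
def tau : Perm (Om Q R) := flip fun _ => true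

@[simp] theorem tau_inl (q : Q) (b : Bool) : (tau : Perm (Om Q R)) (Sum.inl (q, b)) = Sum.inl (q, !b) := by
  simp [tau]

@[simp] theorem tau_inr (r : R) : (tau : Perm (Om Q R)) (Sum.inr r) = Sum.inr r := rfl

@[simp] theorem tau_tau (x : Om Q R) : tau (tau x) = x := by
  rcases x with ⟨q, b⟩ | r <;> simp

variable (Q R) in
/-- The centralizer of the standard involution. -/
def CC : Subgroup (Perm (Om Q R)) := Subgroup.centralizer {tau}

theorem mem_CC {g : Perm (Om Q R)} : g ∈ CC Q R ↔ ∀ x, g (tau x) = tau (g x) := by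
  rw [CC, Subgroup.mem_centralizer_singleton_iff]
  constructor
  · intro h x
    exact DFunLike.congr_fun h x
  · intro h
    ext x
    exact h x

theorem spec {g : Perm (Om Q R)} (hg : g ∈ CC Q R) (q : Q) (b : Bool) :
    ∃ q' b', g (Sum.inl (q, b)) = Sum.inl (q', b') ∧ g (Sum.inl (q, !b)) = Sum.inl (q', !b') := by
  rw [mem_CC] at hg
  rcases h : g (Sum.inl (q, b)) with ⟨q', b'⟩ | r
  · refine ⟨q', b', rfl, ?_⟩
    have := hg (Sum.inl (q, b))
    rw [tau_inl, h, tau_inl] at this
    exact this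
  · exfalso
    have h1 := hg (Sum.inl (q, b))
    rw [tau_inl, h, tau_inr, ← h] at h1
    have := g.injective h1
    simp at this

/-- The induced map on `Q`. -/
def pr (g : Perm (Om Q R)) (q : Q) : Q := Sum.elim Prod.fst (fun _ => q) (g (Sum.inl (q, false)))

theorem pr_spec {g : Perm (Om Q R)} (hg : g ∈ CC Q R) (q : Q) (b : Bool) :
    ∃ b', g (Sum.inl (q, b)) = Sum.inl (pr g q, b') := by
  obtain ⟨q', b', h1, h2⟩ := spec hg q false
  have h3 : pr g q = q' := by rw [pr, h1]; rfl
  cases b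
  · exact ⟨b', by rw [h3, h1]⟩
  · exact ⟨!b', by rw [h3]; exact h2⟩

theorem pr_eq {g : Perm (Om Q R)} (hg : g ∈ CC Q R) {q q' : Q} {b b' : Bool}
    (h : g (Sum.inl (q, b)) = Sum.inl (q', b')) : pr g q = q' := by
  obtain ⟨b'', h1⟩ := pr_spec hg q b
  rw [h1] at h
  have := Sum.inl_injective h
  exact congrArg Prod.fst this

variable (Q R) in
/-- The action of the centralizer on `Q`. -/
def prHom : CC Q R →* Perm Q :=
  MonoidHom.toHomPerm (G := CC Q R) (α := Q)
    { toFun := fun g => pr g.1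
      map_one' := by
        funext q
        exact pr_eq (one_mem _) (b := false) rfl
      map_mul' := fun g h => by
        funext q
        obtain ⟨b, hb⟩ := pr_spec h.2 q false
        obtain ⟨b', hb'⟩ := pr_spec g.2 (pr h.1 q) b
        refine pr_eq (mul_mem g.2 h.2) (b := false) (b' := b') ?_
        show (g.1 * h.1) (Sum.inl (q, false)) = Sum.inl (pr g.1 (pr h.1 q), b')
        rw [Perm.mul_apply, hb, hb'] }

theorem prHom_apply (g : CC Q R) (q : Q) : prHom Q R g q = pr g.1 q := rfl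

theorem prHom_surjective : Function.Surjective (prHom Q R) := by
  intro σ
  let g : Perm (Om Q R) := Equiv.sumCongr (Equiv.prodCongr σ (Equiv.refl Bool)) (Equiv.refl R)
  have hg : g ∈ CC Q R := by
    rw [mem_CC]
    rintro (⟨q, b⟩ | r) <;> simp [g]
  refine ⟨⟨g, hg⟩, ?_⟩
  ext q
  rw [prHom_apply]
  exact pr_eq hg (b := false) (b' := false) rfl

theorem flip_mem (f : Q → Bool) : (flip f : Perm (Om Q R)) ∈ CC Q R := by
  rw [mem_CC]
  rintro (⟨q, b⟩ | r) <;> simp

theorem ker_spec [Subsingleton R] {g : CC Q R} (hg : g ∈ (prHom Q R).ker) :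
    ∃ f : Q → Bool, (g : Perm (Om Q R)) = flip f := by
  have h1 : ∀ q, pr g.1 q = q := fun q => DFunLike.congr_fun (MonoidHom.mem_ker.mp hg) q
  have h2 : ∀ q, ∃ b', g.1 (Sum.inl (q, false)) = Sum.inl (q, b') := by
    intro q
    obtain ⟨b', hb⟩ := pr_spec g.2 q false
    rw [h1] at hb
    exact ⟨b', hb⟩
  choose f hf using h2
  refine ⟨f, ?_⟩
  ext x
  rcases x with ⟨q, b⟩ | r
  · cases b
    · rw [hf q]; simp
    · have := mem_CC.mp g.2 (Sum.inl (q, false))
      rw [tau_inl, hf q, tau_inl] at this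
      rw [flip_inl]
      have h3 : g.1 (Sum.inl (q, true)) = Sum.inl (q, !(f q)) := this
      rw [h3]; simp
  · rw [flip_inr]
    rcases h : g.1 (Sum.inr r) with ⟨q', b'⟩ | r'
    · exfalso
      have h3 := mem_CC.mp g.2 (Sum.inr r)
      rw [tau_inr, h, tau_inl] at h3
      simp at h3
    · rw [Subsingleton.elim r' r]

theorem flip_mem_ker (f : Q → Bool) : (⟨flip f, flip_mem f⟩ : CC Q R) ∈ (prHom Q R).ker := by
  rw [MonoidHom.mem_ker]
  ext q
  show pr (flip f : Perm (Om Q R)) q = q
  exact pr_eq (flip_mem f) (b := false) (b' := xor (f q) false) rfl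

theorem card_ker [Subsingleton R] [Finite Q] : Nat.card (prHom Q R).ker = 2 ^ Nat.card Q := by
  have e : (Q → Bool) ≃ (prHom Q R).ker := Equiv.ofBijective
    (fun f => ⟨⟨flip f, flip_mem f⟩, flip_mem_ker f⟩) ⟨by
      intro f f' h
      have h1 : (flip f : Perm (Om Q R)) = flip f' := congrArg (fun z => z.1.1) h
      funext q
      have h2 := DFunLike.congr_fun h1 (Sum.inl (q, false))
      simpa using h2, by
      rintro ⟨g, hg⟩
      obtain ⟨f, hf⟩ := ker_spec hg
      exact ⟨f, Subtype.ext (Subtype.ext hf.symm)⟩⟩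
  rw [← Nat.card_congr e, Nat.card_fun, Nat.card_eq_fintype_card (α := Bool), Fintype.card_bool]

theorem isPGroup_ker [Subsingleton R] [Finite Q] : IsPGroup 2 (prHom Q R).ker :=
  IsPGroup.of_card (n := Nat.card Q) card_ker

theorem card_CC [Subsingleton R] [Finite Q] :
    Nat.card (CC Q R) = 2 ^ Nat.card Q * (Nat.card Q).factorial := by
  rw [← Subgroup.card_mul_index (prHom Q R).ker, card_ker, Subgroup.index_ker,
    MonoidHom.range_eq_top.mpr prHom_surjective, Subgroup.card_top, Nat.card_perm]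

theorem index_CC [Subsingleton R] [Finite Q] : ¬ 2 ∣ (CC Q R).index := by
  have : Finite R := Finite.of_subsingleton
  have hR : Nat.card R < 2 := by
    have : Nat.card R ≤ 1 := Finite.card_le_one_iff_subsingleton.mpr inferInstance
    omega
  have h1 : Nat.card (Perm (Om Q R)) = (2 * Nat.card Q + Nat.card R).factorial := by
    rw [Nat.card_perm]
    congr 1
    rw [Nat.card_sum, Nat.card_prod, Nat.card_eq_fintype_card (α := Bool), Fintype.card_bool, mul_comm]
  have h2 := Subgroup.card_mul_index (CC Q R)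
  rw [h1, card_CC] at h2
  rintro ⟨k, hk⟩
  have hk0 : k ≠ 0 := by
    rintro rfl
    exact Subgroup.index_ne_zero_of_finite (H := CC Q R) (by rw [hk])
  have hfact : Fact (Nat.Prime 2) := ⟨Nat.prime_two⟩
  have h3 := congrArg (padicValNat 2) h2
  rw [padicValNat_factorial_mul_add _ hR, padicValNat_factorial_mul, hk] at h3
  rw [padicValNat.mul (mul_ne_zero (by positivity) (Nat.factorial_ne_zero _)) (by positivity),
    padicValNat.mul (by positivity) (Nat.factorial_ne_zero _), padicValNat.mul (by norm_num) hk0,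
    padicValNat.prime_pow, padicValNat.self (by norm_num)] at h3
  omega

/-- A subgroup of the centralizer separating the `tau`-orbits has its normalizer in the
centralizer. -/
theorem normalizer_le_CC {T : Subgroup (Perm (Om Q R))} (hT : T ≤ CC Q R)
    (hsep : ∀ x y : Om Q R, (∀ t ∈ T, t x = x ↔ t y = y) → y = x ∨ y = tau x) :
    Subgroup.normalizer (T : Set (Perm (Om Q R))) ≤ CC Q R := by
  intro g hg
  have hcomm : ∀ t ∈ T, ∀ x, t (tau x) = tau (t x) := fun t ht => mem_CC.mp (hT ht)
  have hfix : ∀ t ∈ T, ∀ x, t (tau x) = tau x ↔ t x = x := by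
    intro t ht x
    rw [hcomm t ht]
    exact tau.injective.eq_iff
  have hconj : ∀ t ∈ T, g⁻¹ * t * g ∈ T := by
    intro t ht
    rw [Subgroup.mem_normalizer_iff] at hg
    rw [hg]
    have : g * (g⁻¹ * t * g) * g⁻¹ = t := by group
    rwa [this]
  have key : ∀ t : Perm (Om Q R), ∀ x, (g⁻¹ * t * g) x = x ↔ t (g x) = g x := by
    intro t x
    rw [Perm.mul_apply, Perm.mul_apply, Perm.inv_eq_iff_eq]
  rw [mem_CC]
  intro x
  rcases hsep (g x) (g (tau x)) (by
    intro t ht
    rw [← key, ← key, hfix _ (hconj t ht)]) with h1 | h1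
  · -- then `tau x = x`
    have h2 : tau x = x := g.injective h1
    have h3 := hsep x (g⁻¹ (tau (g x))) (by
      intro t ht
      have h4 : g * t * g⁻¹ ∈ T := (Subgroup.mem_normalizer_iff.mp hg t).mp ht
      have h5 : (g⁻¹ * (g * t * g⁻¹) * g) = t := by group
      have h6 := key (g * t * g⁻¹) x
      have h7 := key (g * t * g⁻¹) (g⁻¹ (tau (g x)))
      rw [h5] at h6 h7
      have h8 : g (g⁻¹ (tau (g x))) = tau (g x) := g.apply_symm_apply _
      rw [h6, h7, h8, hfix _ h4])
    rw [h2, or_self, Perm.inv_eq_iff_eq] at h3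
    rw [h2, h3]
  · exact h1

/-- The transposition interchanging the two points over `q`. -/
def ee [DecidableEq Q] (q : Q) : Perm (Om Q R) := flip fun q' => decide (q' = q)

theorem ee_inl [DecidableEq Q] (q : Q) (b : Bool) :
    (ee q : Perm (Om Q R)) (Sum.inl (q, b)) = Sum.inl (q, !b) := by
  simp [ee]

theorem ee_ne [DecidableEq Q] {q q' : Q} (h : q' ≠ q) (b : Bool) :
    (ee q : Perm (Om Q R)) (Sum.inl (q', b)) = Sum.inl (q', b) := by
  simp [ee, h]

theorem ee_inr [DecidableEq Q] (q : Q) (r : R) :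
    (ee q : Perm (Om Q R)) (Sum.inr r) = Sum.inr r := rfl

theorem ee_eq_swap [DecidableEq Q] [DecidableEq R] (q : Q) :
    (ee q : Perm (Om Q R)) = Equiv.swap (Sum.inl (q, false)) (Sum.inl (q, true)) := by
  ext x
  rcases x with ⟨q', b⟩ | r
  · by_cases h : q' = q
    · subst h
      rw [ee_inl]
      cases b
      · rw [Equiv.swap_apply_left]; rfl
      · rw [Equiv.swap_apply_right]; rfl
    · rw [ee_ne h, Equiv.swap_apply_of_ne_of_ne]
      · intro h1; exact h (congrArg Prod.fst (Sum.inl_injective h1))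
      · intro h1; exact h (congrArg Prod.fst (Sum.inl_injective h1))
  · rw [ee_inr, Equiv.swap_apply_of_ne_of_ne] <;> simp

theorem sign_ee [DecidableEq Q] [DecidableEq R] [Fintype Q] [Fintype R] (q : Q) :
    Perm.sign (ee q : Perm (Om Q R)) = -1 := by
  rw [ee_eq_swap, Perm.sign_swap]
  simp

end Model

section Main

variable {Q R : Type*} [Fintype Q] [Fintype R] [DecidableEq Q] [DecidableEq R] [Subsingleton R]

/-- A Sylow 2-subgroup of the symmetric group inside the centralizer, containing the kernel. -/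
theorem exists_T : ∃ (T : Sylow 2 (Perm (Om Q R))) (T' : Sylow 2 (CC Q R)),
    (T : Subgroup (Perm (Om Q R))) = (T' : Subgroup (CC Q R)).map (CC Q R).subtype ∧
      (prHom Q R).ker ≤ T' := by
  have hfact : Fact (Nat.Prime 2) := ⟨Nat.prime_two⟩
  have T' : Sylow 2 (CC Q R) := default
  have hp : IsPGroup 2 ((T' : Subgroup (CC Q R)).map (CC Q R).subtype) := T'.2.map _
  have hidx : ¬ 2 ∣ ((T' : Subgroup (CC Q R)).map (CC Q R).subtype).index := by
    rw [Subgroup.index_map_subtype, Nat.Prime.dvd_mul Nat.prime_two, not_or]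
    exact ⟨T'.not_dvd_index, index_CC⟩
  refine ⟨hp.toSylow hidx, T', rfl, ?_⟩
  have h1 : IsPGroup 2 ((T' : Subgroup (CC Q R)) ⊔ (prHom Q R).ker : Subgroup (CC Q R)) :=
    IsPGroup.to_sup_of_normal_right T'.2 isPGroup_ker
  have h2 := T'.3 h1 le_sup_left
  rw [← h2]
  exact le_sup_right

theorem flip_mem_T {T : Subgroup (Perm (Om Q R))} {T' : Subgroup (CC Q R)}
    (hT : T = T'.map (CC Q R).subtype) (hk : (prHom Q R).ker ≤ T') (f : Q → Bool) :
    (flip f : Perm (Om Q R)) ∈ T := by
  rw [hT]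
  exact ⟨⟨flip f, flip_mem f⟩, hk (flip_mem_ker f), rfl⟩

theorem sn_step (hQ : SN (Perm Q)) : SN (Perm (Om Q R)) := by
  classical
  have hfact : Fact (Nat.Prime 2) := ⟨Nat.prime_two⟩
  obtain ⟨T, T', hT, hk⟩ := exists_T (Q := Q) (R := R)
  apply SN_of_exists T
  have hTC : (T : Subgroup (Perm (Om Q R))) ≤ CC Q R := by
    rw [hT]; exact Subgroup.map_subtype_le _
  have hee : ∀ q, (ee q : Perm (Om Q R)) ∈ (T : Subgroup (Perm (Om Q R))) := fun q =>
    flip_mem_T hT hk _
  have hsep : ∀ x y : Om Q R, (∀ t ∈ (T : Subgroup (Perm (Om Q R))), t x = x ↔ t y = y) →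
      y = x ∨ y = tau x := by
    -- if `y = inl`, use `ee`
    have h1 : ∀ (q : Q) (b : Bool) (x : Om Q R),
        ((ee q : Perm (Om Q R)) x = x ↔ (ee q : Perm (Om Q R)) (Sum.inl (q, b)) = Sum.inl (q, b)) →
        ∃ b', x = Sum.inl (q, b') := by
      intro q b x h
      rw [ee_inl] at h
      rcases x with ⟨q', b'⟩ | r
      · by_cases h2 : q' = q
        · exact ⟨b', by rw [h2]⟩
        · rw [ee_ne h2] at h
          simp at h
      · rw [ee_inr] at h
        simp at h
    have h2 : ∀ (q : Q) (b b' : Bool), (Sum.inl (q, b) : Om Q R) = Sum.inl (q, b') ∨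
        (Sum.inl (q, b) : Om Q R) = tau (Sum.inl (q, b')) := by
      intro q b b'
      rw [tau_inl]
      cases b <;> cases b' <;> simp
    intro x y hxy
    rcases y with ⟨q, b⟩ | r
    · obtain ⟨b', rfl⟩ := h1 q b x (hxy _ (hee q))
      exact h2 q b b'
    · rcases x with ⟨q, b⟩ | r'
      · obtain ⟨b', hb'⟩ := h1 q b (Sum.inr r) (hxy _ (hee q)).symm
        simp at hb'
      · left
        rw [Subsingleton.elim r r']
  have hN := normalizer_le_CC hTC hsep
  intro g hg
  have hgC := hN hg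
  have h1 : prHom Q R ⟨g, hgC⟩ ∈ Subgroup.normalizer
      (((T'.mapSurjective prHom_surjective : Sylow 2 (Perm Q)) : Subgroup (Perm Q)) : Set (Perm Q)) := by
    rw [Sylow.coe_mapSurjective]
    have h2 : (⟨g, hgC⟩ : CC Q R) ∈ Subgroup.normalizer ((T' : Subgroup (CC Q R)) : Set (CC Q R)) := by
      rw [Subgroup.mem_normalizer_iff] at hg ⊢
      intro t
      have h3 := hg t
      rw [hT] at h3
      constructor
      · intro ht
        obtain ⟨s, hs, hst⟩ := h3.mp ⟨t, ht, rfl⟩
        have : s = ⟨g, hgC⟩ * t * ⟨g, hgC⟩⁻¹ := Subtype.ext hst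
        rwa [← this]
      · intro ht
        obtain ⟨s, hs, hst⟩ := h3.mpr ⟨_, ht, rfl⟩
        have : s = t := Subtype.ext hst
        rwa [← this]
    exact Subgroup.le_normalizer_map (prHom Q R) ⟨_, h2, rfl⟩
  obtain ⟨t, ht, htg⟩ := hQ _ h1
  have h2 : t⁻¹ * ⟨g, hgC⟩ ∈ (prHom Q R).ker := by
    rw [MonoidHom.mem_ker, map_mul, map_inv, htg, inv_mul_cancel]
  have h3 := (T' : Subgroup (CC Q R)).mul_mem ht (hk h2)
  rw [mul_inv_cancel_left] at h3
  rw [hT]
  exact ⟨_, h3, rfl⟩

/-- Sylow 2-subgroups of symmetric groups are self-normalizing. -/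
theorem sn_perm (n : ℕ) : SN (Perm (Fin n)) := by
  induction n using Nat.strong_induction_on with
  | _ n ih =>
    rcases Nat.lt_or_ge n 2 with hn | hn
    · have : Subsingleton (Perm (Fin n)) := by
        have : Subsingleton (Fin n) := by
          rw [← Finite.card_le_one_iff_subsingleton, Nat.card_eq_fintype_card, Fintype.card_fin]
          omega
        infer_instance
      intro P g _
      rw [Subsingleton.elim g 1]
      exact one_mem _
    · have hsub : Subsingleton (Fin (n % 2)) := by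
        rw [← Finite.card_le_one_iff_subsingleton, Nat.card_eq_fintype_card, Fintype.card_fin]
        omega
      have h1 := sn_step (Q := Fin (n / 2)) (R := Fin (n % 2)) (ih (n / 2) (by omega))
      have e : Om (Fin (n / 2)) (Fin (n % 2)) ≃ Fin n := Fintype.equivOfCardEq (by
        simp only [Fintype.card_sum, Fintype.card_prod, Fintype.card_fin, Fintype.card_bool]
        omega)
      exact SN_of_equiv e.permCongrHom h1

theorem sn_alt_step (hc : 3 ≤ Fintype.card Q) (hQ : SN (Perm Q)) :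
    SN (alternatingGroup (Om Q R)) := by
  have hfact : Fact (Nat.Prime 2) := ⟨Nat.prime_two⟩
  obtain ⟨T, T', hT, hk⟩ := exists_T (Q := Q) (R := R)
  obtain ⟨S, hS⟩ := FusionNormalSubgroup.exists_sylow_inf T (alternatingGroup (Om Q R))
  apply SN_of_exists S
  have hTC : (T : Subgroup (Perm (Om Q R))) ≤ CC Q R := by
    rw [hT]; exact Subgroup.map_subtype_le _
  have hee : ∀ q, (ee q : Perm (Om Q R)) ∈ (T : Subgroup (Perm (Om Q R))) := fun q =>
    flip_mem_T hT hk _
  set TA : Subgroup (Perm (Om Q R)) := (T : Subgroup (Perm (Om Q R))) ⊓ alternatingGroup (Om Q R)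
    with hTA
  have hee2 : ∀ q q', (ee q * ee q' : Perm (Om Q R)) ∈ TA := by
    intro q q'
    refine ⟨mul_mem (hee q) (hee q'), Perm.mem_alternatingGroup.mpr ?_⟩
    rw [Perm.sign_mul, sign_ee, sign_ee]
    rfl
  have hthird : ∀ q q' : Q, ∃ q'' : Q, q'' ≠ q ∧ q'' ≠ q' := by
    intro q q'
    by_contra hcon
    push Not at hcon
    have h1 : (Finset.univ : Finset Q) ⊆ {q, q'} := by
      intro x _
      rw [Finset.mem_insert, Finset.mem_singleton]
      by_cases h : x = q
      · exact Or.inl h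
      · exact Or.inr (hcon x h)
    have h2 := Finset.card_le_card h1
    have h3 : ({q, q'} : Finset Q).card ≤ 2 := Finset.card_le_two
    rw [Finset.card_univ] at h2
    omega
  have hsep : ∀ x y : Om Q R, (∀ t ∈ TA, t x = x ↔ t y = y) → y = x ∨ y = tau x := by
    have h1 : ∀ (q : Q) (b : Bool) (x : Om Q R),
        (∀ t ∈ TA, t x = x ↔ t (Sum.inl (q, b)) = Sum.inl (q, b)) →
        ∃ b', x = Sum.inl (q, b') := by
      intro q b x h
      rcases x with ⟨q', b'⟩ | r
      · by_cases h2 : q' = q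
        · exact ⟨b', by rw [h2]⟩
        · obtain ⟨q'', h3, h4⟩ := hthird q q'
          have h5 := h _ (hee2 q q'')
          rw [Perm.mul_apply, Perm.mul_apply, ee_ne (Ne.symm h4), ee_ne h2, ee_ne (Ne.symm h3),
            ee_inl] at h5
          simp at h5
      · obtain ⟨q'', h3, -⟩ := hthird q q
        have h5 := h _ (hee2 q q'')
        rw [Perm.mul_apply, Perm.mul_apply, ee_inr, ee_inr, ee_ne (Ne.symm h3), ee_inl] at h5
        simp at h5
    have h2 : ∀ (q : Q) (b b' : Bool), (Sum.inl (q, b) : Om Q R) = Sum.inl (q, b') ∨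
        (Sum.inl (q, b) : Om Q R) = tau (Sum.inl (q, b')) := by
      intro q b b'
      rw [tau_inl]
      cases b <;> cases b' <;> simp
    intro x y hxy
    rcases y with ⟨q, b⟩ | r
    · obtain ⟨b', rfl⟩ := h1 q b x hxy
      exact h2 q b b'
    · rcases x with ⟨q, b⟩ | r'
      · obtain ⟨b', hb'⟩ := h1 q b (Sum.inr r) (fun t ht => (hxy t ht).symm)
        simp at hb'
      · left
        rw [Subsingleton.elim r r']
  have hN := normalizer_le_CC (T := TA) (inf_le_left.trans hTC) hsep
  intro g hg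
  have hconj : ∀ t ∈ TA, (g : Perm (Om Q R)) * t * (g : Perm (Om Q R))⁻¹ ∈ TA := by
    intro t ht
    have h1 : (⟨t, ht.2⟩ : alternatingGroup (Om Q R)) ∈ (S : Subgroup (alternatingGroup (Om Q R))) := by
      rw [hS]; exact ht
    have h2 := (Subgroup.mem_normalizer_iff.mp hg _).mp h1
    have h3 : g * ⟨t, ht.2⟩ * g⁻¹ ∈ (S : Subgroup (alternatingGroup (Om Q R))) := h2
    rw [hS] at h3
    exact h3
  have hgN : (g : Perm (Om Q R)) ∈ Subgroup.normalizer (TA : Set (Perm (Om Q R))) :=
    FusionNormalSubgroup.mem_normalizer_of_conj_mem hconj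
  have hgC := hN hgN
  have hqex : ∃ q : Q, True := by
    have : Nonempty Q := Fintype.card_pos_iff.mp (by omega)
    exact ⟨this.some, trivial⟩
  obtain ⟨q₀, -⟩ := hqex
  have h1 : prHom Q R ⟨g, hgC⟩ ∈ Subgroup.normalizer
      (((T'.mapSurjective prHom_surjective : Sylow 2 (Perm Q)) : Subgroup (Perm Q)) : Set (Perm Q)) := by
    rw [Sylow.coe_mapSurjective]
    apply FusionNormalSubgroup.mem_normalizer_of_conj_mem
    rintro _ ⟨t, ht, rfl⟩
    -- an even element with the same image
    obtain ⟨t₀, ht₀, ht₀A, heq⟩ : ∃ t₀ ∈ (T' : Subgroup (CC Q R)),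
        (t₀ : Perm (Om Q R)) ∈ alternatingGroup (Om Q R) ∧ prHom Q R t₀ = prHom Q R t := by
      rcases Int.units_eq_one_or (Perm.sign (t : Perm (Om Q R))) with h | h
      · exact ⟨t, ht, h, rfl⟩
      · have hk' := flip_mem_ker (R := R) (fun q' => decide (q' = q₀))
        refine ⟨t * ⟨flip _, flip_mem (fun q' => decide (q' = q₀))⟩, mul_mem ht (hk hk'), ?_, ?_⟩
        · rw [Perm.mem_alternatingGroup]
          show Perm.sign ((t : Perm (Om Q R)) * ee q₀) = 1
          rw [Perm.sign_mul, h, sign_ee]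
          rfl
        · rw [map_mul, MonoidHom.mem_ker.mp hk', mul_one]
    rw [← heq]
    have h2 : (t₀ : Perm (Om Q R)) ∈ TA := by
      refine ⟨?_, ht₀A⟩
      rw [SetLike.mem_coe, hT]
      exact ⟨t₀, ht₀, rfl⟩
    have h3 := (hconj _ h2).1
    rw [SetLike.mem_coe, hT] at h3
    obtain ⟨s, hs, hst⟩ := h3
    refine ⟨s, hs, ?_⟩
    have h4 : s = ⟨g, hgC⟩ * t₀ * ⟨g, hgC⟩⁻¹ := Subtype.ext hst
    rw [h4, map_mul, map_mul, map_inv]
  obtain ⟨t, ht, htg⟩ := hQ _ h1
  have h2 : t⁻¹ * ⟨g, hgC⟩ ∈ (prHom Q R).ker := by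
    rw [MonoidHom.mem_ker, map_mul, map_inv, htg, inv_mul_cancel]
  have h3 := (T' : Subgroup (CC Q R)).mul_mem ht (hk h2)
  rw [mul_inv_cancel_left] at h3
  rw [hS]
  refine ⟨?_, g.2⟩
  rw [SetLike.mem_coe, hT]
  exact ⟨_, h3, rfl⟩

/-- Sylow 2-subgroups of alternating groups of degree at least 6 are self-normalizing. -/
theorem sn_alt {n : ℕ} (hn : 6 ≤ n) : SN (alternatingGroup (Fin n)) := by
  have hsub : Subsingleton (Fin (n % 2)) := by
    rw [← Finite.card_le_one_iff_subsingleton, Nat.card_eq_fintype_card, Fintype.card_fin]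
    omega
  have h1 := sn_alt_step (Q := Fin (n / 2)) (R := Fin (n % 2)) (by rw [Fintype.card_fin]; omega)
    (sn_perm (n / 2))
  have e : Om (Fin (n / 2)) (Fin (n % 2)) ≃ Fin n := Fintype.equivOfCardEq (by
    simp only [Fintype.card_sum, Fintype.card_prod, Fintype.card_fin, Fintype.card_bool]
    omega)
  exact SN_of_equiv (Equiv.altCongrHom e) h1

end Main

end Cfsg.Agent.Lib.SylowTwoAlt
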