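import Mathlib
import Cfsg.Agent.Lib.SylowTwoAlt
import Cfsg.Agent.S2222

/-!
(helper43) self-normalizing Sylow 2-subgroups pass to quotients by 2-groups; pronormality.
-/

set_option autoImplicit false

namespace Cfsg.Agent.Lib.WrTwo

open Cfsg.Agent.Lib.RelSylow

theorem SN_quot {G : Type*} [Group G] [Finite G] (N : Subgroup G) [N.Normal] (hN : IsPGroup 2 N)
    (h : SylowTwoAlt.SN G) : SylowTwoAlt.SN (G ⧸ N) := by
  classical
  obtain ⟨P⟩ : Nonempty (Sylow 2 G) := inferInstance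
  have hNP : N ≤ P := by
    obtain ⟨R, hR⟩ := hN.exists_le_sylow
    obtain ⟨g, hg⟩ := MulAction.exists_smul_eq G R P
    intro x hx
    rw [← hg, Sylow.coe_subgroup_smul]
    have h1 : g⁻¹ * x * g⁻¹⁻¹ ∈ N := ‹N.Normal›.conj_mem x hx g⁻¹
    rw [inv_inv] at h1
    refine ⟨g⁻¹ * x * g, hR h1, ?_⟩
    show g * (g⁻¹ * x * g) * g⁻¹ = x
    group
  let π := QuotientGroup.mk' N
  have hcomap : ((P : Subgroup G).map π).comap π = P := by
    rw [Subgroup.comap_map_eq, QuotientGroup.ker_mk', sup_eq_left]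
    exact hNP
  have hp : IsPGroup 2 ((P : Subgroup G).map π) := P.2.map _
  have hidx : ¬ 2 ∣ ((P : Subgroup G).map π).index := by
    rw [← Subgroup.index_comap_of_surjective _ (QuotientGroup.mk'_surjective N), hcomap]
    exact P.not_dvd_index
  apply SylowTwoAlt.SN_of_exists (hp.toSylow hidx)
  intro y hy
  obtain ⟨x, rfl⟩ := QuotientGroup.mk'_surjective N y
  have hy' : π x ∈ Subgroup.normalizer (((P : Subgroup G).map π : Subgroup (G ⧸ N)) : Set (G ⧸ N)) := hy
  refine ⟨x, ?_, rfl⟩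
  apply h P
  rw [Subgroup.mem_normalizer_iff] at hy' ⊢
  intro z
  have h1 := hy' (π z)
  have h2 : ∀ u : G, π u ∈ (P : Subgroup G).map π ↔ u ∈ (P : Subgroup G) := by
    intro u
    rw [← Subgroup.mem_comap, hcomap]
  have h3 : π x * π z * (π x)⁻¹ = π (x * z * x⁻¹) := by simp only [map_mul, map_inv]
  rw [h3, h2, h2] at h1
  exact h1

theorem pronormal_of_SN {G : Type*} [Group G] [Finite G] (h : SylowTwoAlt.SN G) {H : Subgroup G}
    (hH : Odd H.index) : Cfsg.IsPronormal H := by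
  obtain ⟨S, hS⟩ := S2222.exists_sylow_le hH
  exact S2222.pronormal_of_le S hS ((h S).trans (hS.trans Subgroup.le_normalizer))

end Cfsg.Agent.Lib.WrTwo
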