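import Mathlib
import Cfsg.Agent.Lib.WrPN
import Cfsg.Agent.Lib.PronormalExt

/-!
(helper43) overgroups of the unipotent radical of a Borel subgroup are normalized by the torus; pronormality of
subgroups containing a Sylow subgroup in the defining characteristic 2.
-/

set_option autoImplicit false

namespace Cfsg.Agent.Lib.OverU

open Cfsg.Agent.Lib.RelSylow

variable {G : Type*} [Group G]

/-- The data: `G = U N U`, `T` normalizes `U`, and for each `n ∈ N` outside `T` a "negative root set" `Y`. -/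
structure Dat (U T : Subgroup G) (N : Set G) (ℓ : G → ℕ) : Prop where
  bruhat : ∀ g : G, ∃ u ∈ U, ∃ n ∈ N, ∃ u' ∈ U, g = u * n * u'
  norm : ∀ t ∈ T, ∀ u ∈ U, t * u * t⁻¹ ∈ U
  comm : ∀ t ∈ T, ∀ s ∈ T, t * s = s * t
  step : ∀ n ∈ N, n ∈ T ∨ ∃ Y : Set G, (∀ t ∈ T, ∀ y ∈ Y, t * y * t⁻¹ ∈ Y) ∧ (∀ y ∈ Y, n * y * n⁻¹ ∈ U) ∧
    ¬ (Y ⊆ (U : Set G)) ∧ ∃ s ∈ Subgroup.closure ((U : Set G) ∪ Y), n * s ∈ N ∧ ℓ (n * s) < ℓ n

variable {U T : Subgroup G} {N : Set G} {ℓ : G → ℕ}

theorem Dat.over (D : Dat U T N ℓ) {H : Subgroup G} (hUH : U ≤ H) : ∀ t ∈ T, ∀ h ∈ H, t * h * t⁻¹ ∈ H := by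
  -- the largest T-invariant subgroup of H
  let H0 : Subgroup G :=
    { carrier := {h | ∀ t ∈ T, t * h * t⁻¹ ∈ H}
      mul_mem' := by
        intro a b ha hb t ht
        have e : t * (a * b) * t⁻¹ = (t * a * t⁻¹) * (t * b * t⁻¹) := by group
        rw [e]; exact H.mul_mem (ha t ht) (hb t ht)
      one_mem' := by
        intro t _
        have e : t * 1 * t⁻¹ = 1 := by group
        rw [e]; exact H.one_mem
      inv_mem' := by
        intro a ha t ht
        have e : t * a⁻¹ * t⁻¹ = (t * a * t⁻¹)⁻¹ := by group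
        rw [e]; exact H.inv_mem (ha t ht) }
  have memH0 : ∀ h, h ∈ H0 ↔ ∀ t ∈ T, t * h * t⁻¹ ∈ H := fun h => Iff.rfl
  have hUH0 : U ≤ H0 := fun u hu t ht => hUH (D.norm t ht u hu)
  have key : ∀ k : ℕ, ∀ n ∈ N, ℓ n ≤ k → n ∈ H → n ∈ H0 := by
    intro k
    induction k with
    | zero =>
      intro n hn hk hnH
      rcases D.step n hn with h | ⟨Y, -, -, -, s, -, -, hlt⟩
      · intro t ht
        rw [D.comm t ht n h, mul_inv_cancel_right]; exact hnH
      · omega
    | succ k ih =>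
      intro n hn hk hnH
      rcases D.step n hn with h | ⟨Y, hY1, hY2, -, s, hs, hns, hlt⟩
      · intro t ht
        rw [D.comm t ht n h, mul_inv_cancel_right]; exact hnH
      · have hYH0 : ∀ y ∈ Y, y ∈ H0 := by
          intro y hy t ht
          have h1 := hUH (hY2 _ (hY1 t ht y hy))
          have h2 := H.mul_mem (H.mul_mem (H.inv_mem hnH) h1) hnH
          have e : n⁻¹ * (n * (t * y * t⁻¹) * n⁻¹) * n = t * y * t⁻¹ := by group
          rwa [e] at h2
        have hs0 : s ∈ H0 := by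
          have hle : Subgroup.closure ((U : Set G) ∪ Y) ≤ H0 := by
            rw [Subgroup.closure_le]
            rintro x (hx | hx)
            · exact hUH0 hx
            · exact hYH0 x hx
          exact hle hs
        have hH0H : H0 ≤ H := by
          intro x hx
          have := hx 1 T.one_mem
          rwa [one_mul, inv_one, mul_one] at this
        have h3 := ih (n * s) hns (by omega) (H.mul_mem hnH (hH0H hs0))
        have e : n = n * s * s⁻¹ := by group
        rw [e]
        exact H0.mul_mem h3 (H0.inv_mem hs0)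
  intro t ht h hh
  obtain ⟨u, hu, n, hn, u', hu', rfl⟩ := D.bruhat h
  have hnH : n ∈ H := by
    have e : n = u⁻¹ * (u * n * u') * u'⁻¹ := by group
    rw [e]
    exact H.mul_mem (H.mul_mem (H.inv_mem (hUH hu)) hh) (H.inv_mem (hUH hu'))
  have hn0 := key (ℓ n) n hn le_rfl hnH
  exact H0.mul_mem (H0.mul_mem (hUH0 hu) hn0) (hUH0 hu') t ht

theorem Dat.normalizer (D : Dat U T N ℓ) {g : G} (hg : g ∈ Subgroup.normalizer (U : Set G)) :
    ∃ u ∈ U, ∃ t ∈ T, g = u * t := by
  obtain ⟨u, hu, n, hn, u', hu', rfl⟩ := D.bruhat g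
  have hnU : n ∈ Subgroup.normalizer (U : Set G) := by
    have e : n = u⁻¹ * (u * n * u') * u'⁻¹ := by group
    rw [e]
    exact mul_mem (mul_mem (inv_mem (Subgroup.le_normalizer hu)) hg) (inv_mem (Subgroup.le_normalizer hu'))
  have hnT : n ∈ T := by
    rcases D.step n hn with h | ⟨Y, -, hY2, hY3, -⟩
    · exact h
    · exfalso
      apply hY3
      intro y hy
      rw [Subgroup.mem_normalizer_iff] at hnU
      exact (hnU y).2 (hY2 y hy)
  refine ⟨u * (n * u' * n⁻¹), U.mul_mem hu (D.norm n hnT u' hu'), n, hnT, by group⟩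

/-- `U` is a Sylow 2-subgroup when it is a 2-group and `T` has odd order. -/
theorem Dat.sylow [Finite G] (D : Dat U T N ℓ) (hU : IsPGroup 2 U) (hT : ∀ t ∈ T, Odd (orderOf t)) :
    ∃ P : Sylow 2 G, (P : Subgroup G) = U := by
  obtain ⟨P, hP⟩ := hU.exists_le_sylow
  refine ⟨P, ?_⟩
  by_contra hne
  -- normalizer growth inside P
  have hlt : U.subgroupOf P < ⊤ := by
    rw [lt_top_iff_ne_top]
    intro h
    apply hne
    rw [Subgroup.subgroupOf_eq_top] at h
    exact le_antisymm h hP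
  have hnil : Group.IsNilpotent (P : Subgroup G) := P.2.isNilpotent
  have hgrow := Group.normalizerCondition_of_isNilpotent (G := (P : Subgroup G)) _ hlt
  obtain ⟨x, hx1, hx2⟩ := SetLike.exists_of_lt hgrow
  have hxU : (x : G) ∈ Subgroup.normalizer (U : Set G) := by
    rw [mem_normalizer_iff_map]
    apply Subgroup.eq_of_le_of_card_ge
    · rintro _ ⟨u, hu, rfl⟩
      rw [Subgroup.mem_normalizer_iff] at hx1
      have h1 := (hx1 ⟨u, hP hu⟩).1 hu
      exact h1
    · rw [card_conj]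
  obtain ⟨u, hu, t, ht, hxt⟩ := D.normalizer hxU
  apply hx2
  show (x : G) ∈ U
  have htP : t ∈ (P : Subgroup G) := by
    have e : t = u⁻¹ * x := by rw [hxt]; group
    rw [e]
    exact mul_mem (inv_mem (hP hu)) x.2
  obtain ⟨k, hk⟩ := P.2 ⟨t, htP⟩
  have hk' : t ^ (2 ^ k) = 1 := congrArg Subtype.val hk
  have h1 : orderOf t ∣ 2 ^ k := orderOf_dvd_of_pow_eq_one hk'
  have h2 : orderOf t = 1 := by
    have hc : Nat.Coprime (orderOf t) (2 ^ k) := Nat.Coprime.pow_right _ (Nat.coprime_two_right.2 (hT t ht))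
    exact Nat.eq_one_of_dvd_coprimes hc dvd_rfl h1
  rw [orderOf_eq_one_iff] at h2
  rw [hxt, h2, mul_one]
  exact hu

/-- every subgroup of odd index is pronormal -/
theorem Dat.pronormal [Finite G] (D : Dat U T N ℓ) (hU : IsPGroup 2 U) (hT : ∀ t ∈ T, Odd (orderOf t))
    {H : Subgroup G} (hH : Odd H.index) : Cfsg.IsPronormal H := by
  obtain ⟨P, hP⟩ := D.sylow hU hT
  obtain ⟨S, hS⟩ := S2222.exists_sylow_le hH
  apply S2222.pronormal_of_le S hS
  obtain ⟨x, hx⟩ := MulAction.exists_smul_eq G P S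
  have hSx : (S : Subgroup G) = U.map (MulAut.conj x).toMonoidHom := by
    rw [← hx, ← hP]; rfl
  have hUH : U ≤ H.map (MulAut.conj x⁻¹).toMonoidHom := by
    have h1 : (S : Subgroup G).map (MulAut.conj x⁻¹).toMonoidHom ≤ H.map (MulAut.conj x⁻¹).toMonoidHom :=
      Subgroup.map_mono hS
    rw [hSx, conj_conj, inv_mul_cancel, conj_one] at h1
    exact h1
  intro g hg
  rw [hSx, ← normalizer_conj, mem_conj_iff] at hg
  obtain ⟨u, hu, t, ht, hut⟩ := D.normalizer hg
  have hu' : u ∈ Subgroup.normalizer ((H.map (MulAut.conj x⁻¹).toMonoidHom : Subgroup G) : Set G) :=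
    Subgroup.le_normalizer (hUH hu)
  have ht' : t ∈ Subgroup.normalizer ((H.map (MulAut.conj x⁻¹).toMonoidHom : Subgroup G) : Set G) := by
    rw [mem_normalizer_iff_map]
    apply Subgroup.eq_of_le_of_card_ge
    · rintro _ ⟨h, hh, rfl⟩
      exact D.over hUH t ht h hh
    · exact (card_conj _ _).ge
  have h1 := mul_mem hu' ht'
  rw [← hut] at h1
  have h2 : (x⁻¹ * g * x) ∈ (Subgroup.normalizer (H : Set G)).map (MulAut.conj x⁻¹).toMonoidHom := by
    rw [normalizer_conj]; exact h1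
  rw [mem_conj_iff, inv_inv] at h2
  have e : x * (x⁻¹ * g * x) * x⁻¹ = g := by group
  rwa [e] at h2

/-- pronormality passes to quotients -/
theorem pronormal_quot {K : Type*} [Group K] {f : G →* K} (hf : Function.Surjective f)
    (h : ∀ H : Subgroup G, Odd H.index → Cfsg.IsPronormal H) (H : Subgroup K) (hH : Odd H.index) :
    Cfsg.IsPronormal H := by
  have h1 := h (H.comap f) (by rwa [Subgroup.index_comap_of_surjective _ hf])
  have h2 := PronormalExt.isPronormal_map hf h1
  rwa [Subgroup.map_comap_eq_self_of_surjective hf] at h2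

end Cfsg.Agent.Lib.OverU
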