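import Mathlib
import Cfsg.Agent.Lib.OverU
import Cfsg.Agent.Lib.SLBN3

/-!
(helper43) `SL_{m+1}(F)`: the data for `OverU`.
-/

set_option autoImplicit false

namespace Cfsg.Agent.Lib.OverSL

open Cfsg.Agent.Lib.SLBN Cfsg.Agent.Lib.OverU Equiv

variable {F : Type*} [Field F] {m : ℕ}

/-- the torus -/
def Tor (F : Type*) [Field F] (m : ℕ) : Subgroup (SG F m) where
  carrier := {g | Mono 1 g}
  mul_mem' := by
    intro a b ha hb
    have := Mono.mul ha hb
    rwa [one_mul] at this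
  one_mem' := mono_one
  inv_mem' := by
    intro a ha
    have := Mono.inv ha
    rwa [inv_one] at this

theorem mem_Tor {g : SG F m} : g ∈ Tor F m ↔ Mono 1 g := Iff.rfl

/-- the permutation weight -/
def wt (σ : Perm (Fin (m + 1))) : ℕ := ∑ i : Fin (m + 1), (i : ℕ) * (σ i : ℕ)

theorem wt_swap {σ : Perm (Fin (m + 1))} {a b : Fin (m + 1)} (hab : a < b) (h : σ b < σ a) :
    wt σ < wt (σ * swap a b) := by
  have hne : a ≠ b := hab.ne
  have h1 : ∀ τ : Perm (Fin (m + 1)), wt τ = (a : ℕ) * (τ a : ℕ) + ((b : ℕ) * (τ b : ℕ) +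
      ∑ i ∈ (Finset.univ.erase a).erase b, ((i : Fin (m + 1)) : ℕ) * (τ i : ℕ)) := by
    intro τ
    rw [wt, ← Finset.add_sum_erase _ _ (Finset.mem_univ a), ← Finset.add_sum_erase _ _
      (Finset.mem_erase.2 ⟨hne.symm, Finset.mem_univ b⟩)]
  rw [h1 σ, h1 (σ * swap a b)]
  have h2 : ∑ i ∈ (Finset.univ.erase a).erase b, ((i : Fin (m + 1)) : ℕ) * ((σ * swap a b) i : ℕ) =
      ∑ i ∈ (Finset.univ.erase a).erase b, ((i : Fin (m + 1)) : ℕ) * (σ i : ℕ) := by
    refine Finset.sum_congr rfl fun i hi => ?_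
    rw [Finset.mem_erase, Finset.mem_erase] at hi
    rw [Perm.mul_apply, swap_apply_of_ne_of_ne hi.2.1 hi.1]
  rw [h2, Perm.mul_apply, Perm.mul_apply, swap_apply_left, swap_apply_right]
  have hab' : (a : ℕ) < b := hab
  have h' : (σ b : ℕ) < σ a := h
  nlinarith

theorem wt_le (σ : Perm (Fin (m + 1))) : wt σ ≤ (m + 1) * ((m + 1) * (m + 1)) := by
  calc wt σ = ∑ i : Fin (m + 1), (i : ℕ) * (σ i : ℕ) := rfl
    _ ≤ ∑ _i : Fin (m + 1), (m + 1) * (m + 1) :=
        Finset.sum_le_sum fun i _ => Nat.mul_le_mul i.2.le (σ i).2.le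
    _ = _ := by rw [Finset.sum_const, Finset.card_univ, Fintype.card_fin, smul_eq_mul]

theorem exists_descent {σ : Perm (Fin (m + 1))} (h : σ ≠ 1) : ∃ i : Fin m, σ i.succ < σ i.castSucc := by
  by_contra hcon
  push Not at hcon
  apply h
  have hmono : StrictMono σ := by
    rw [Fin.strictMono_iff_lt_succ]
    intro i
    exact lt_of_le_of_ne (hcon i) (fun e => absurd (σ.injective e) (Fin.castSucc_lt_succ (i := i)).ne)
  have h2 : StrictMono (id : Fin (m + 1) → Fin (m + 1)) := strictMono_id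
  have h3 := (StrictMono.range_inj hmono h2).1 (by
      rw [σ.surjective.range_eq, Set.range_id])
  exact Equiv.ext fun i => congrFun h3 i

/-- the length of a monomial matrix -/
noncomputable def ell (g : SG F m) : ℕ :=
  open Classical in if h : ∃ σ, Mono σ g then (m + 1) * ((m + 1) * (m + 1)) - wt h.choose else 0

theorem ell_eq {σ : Perm (Fin (m + 1))} {g : SG F m} (hg : Mono σ g) :
    ell g = (m + 1) * ((m + 1) * (m + 1)) - wt σ := by
  unfold ell
  have h : ∃ σ, Mono σ g := ⟨σ, hg⟩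
  rw [dif_pos h, h.choose_spec.unique hg]

theorem ell_lt {σ : Perm (Fin (m + 1))} {g h : SG F m} {τ : Perm (Fin (m + 1))} (hg : Mono σ g) (hh : Mono τ h)
    (hlt : wt σ < wt τ) : ell h < ell g := by
  rw [ell_eq hg, ell_eq hh]
  have := wt_le τ
  omega

/-- elements of the Borel subgroup -/
theorem B_split {b : SG F m} (hb : b ∈ Bsub F m) : ∃ u ∈ Usub F m, ∃ t ∈ Tor F m, b = u * t ∧ b = t * (t⁻¹ * u * t) := by
  have h1 := mono_dg b hb
  refine ⟨b * (dg b hb)⁻¹, ?_, dg b hb, h1, by group, by group⟩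
  intro i j hij
  rw [Mono.mul_one_apply (by simpa using h1.inv) b i j, Mono.inv_one_apply h1, dg_apply]
  by_cases h : i = j
  · subst h
    rw [if_pos rfl, mul_inv_cancel₀ (diag_ne hb i)]
  · rw [if_neg h, hb i j (lt_of_le_of_ne hij (fun e => h (Fin.ext e.symm))), zero_mul]

theorem conj_U {t u : SG F m} (ht : t ∈ Tor F m) (hu : u ∈ Usub F m) : t * u * t⁻¹ ∈ Usub F m :=
  Uni_conj (Mono.mem_B ht) hu

theorem bruhat (g : SG F m) : ∃ u ∈ Usub F m, ∃ n ∈ Nsub F m, ∃ u' ∈ Usub F m, g = u * n * u' := by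
  obtain ⟨n, hn, b, hb, b', hb', hg⟩ := BNPair.exists_N (P := bn F m) g
  obtain ⟨u, hu, t, ht, hut, -⟩ := B_split hb
  obtain ⟨u', hu', t', ht', -, hut'⟩ := B_split hb'
  refine ⟨u, hu, t * n * t', ?_, t'⁻¹ * u' * t', ?_, ?_⟩
  · exact (Nsub F m).mul_mem ((Nsub F m).mul_mem ⟨1, ht⟩ hn) ⟨1, ht'⟩
  · have := conj_U ((Tor F m).inv_mem ht') hu'
    rwa [inv_inv] at this
  · rw [hg]
    nth_rw 1 [hut]
    nth_rw 1 [hut']
    group

/-- pattern sets -/
def Pat (F : Type*) [Field F] {m : ℕ} (S : Fin (m + 1) → Fin (m + 1) → Prop) : Set (SG F m) :=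
  {y | (∀ k, y.1 k k = 1) ∧ ∀ k l, k ≠ l → ¬ S k l → y.1 k l = 0}

theorem conj_entry {σ : Perm (Fin (m + 1))} {n : SG F m} (hn : Mono σ n) (y : SG F m) (k l : Fin (m + 1)) :
    (n * y * n⁻¹).1 k l = ((n⁻¹).1 (σ⁻¹ k) k)⁻¹ * y.1 (σ⁻¹ k) (σ⁻¹ l) * (n⁻¹).1 (σ⁻¹ l) l := by
  have h := Mono.conj hn.inv y k l
  rwa [inv_inv] at h

theorem conj_Pat {S : Fin (m + 1) → Fin (m + 1) → Prop} {t y : SG F m} (ht : t ∈ Tor F m) (hy : y ∈ Pat F S) :
    t * y * t⁻¹ ∈ Pat F S := by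
  have ht' : Mono 1 t := ht
  refine ⟨fun k => ?_, fun k l hkl hS => ?_⟩
  · rw [conj_entry ht', hy.1, mul_one]
    exact inv_mul_cancel₀ (ht'.inv.ne_zero k)
  · rw [conj_entry ht', inv_one, Perm.one_apply, Perm.one_apply, hy.2 k l hkl hS, mul_zero, zero_mul]

theorem conj_Pat_U {S : Fin (m + 1) → Fin (m + 1) → Prop} {σ : Perm (Fin (m + 1))} {n y : SG F m} (hn : Mono σ n)
    (hS : ∀ k l, S k l → σ k < σ l) (hy : y ∈ Pat F S) : n * y * n⁻¹ ∈ Usub F m := by
  intro k l hlk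
  rw [conj_entry hn]
  by_cases h : k = l
  · subst h
    rw [hy.1, mul_one, if_pos rfl]
    exact inv_mul_cancel₀ (hn.inv.ne_zero k)
  · rw [if_neg h, hy.2, mul_zero, zero_mul]
    · intro e
      exact h (σ⁻¹.injective e)
    · intro hs
      have := hS _ _ hs
      rw [papp, papp] at this
      exact absurd this (not_lt.mpr hlk)

theorem Tor_comm {t s : SG F m} (ht : t ∈ Tor F m) (hs : s ∈ Tor F m) : t * s = s * t := by
  apply Subtype.ext
  ext k l
  rw [Mono.one_mul_apply ht, Mono.mul_one_apply ht]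
  by_cases h : k = l
  · subst h; rw [mul_comm]
  · have : s.1 k l = 0 := by
      by_contra h1
      exact h (hs k l h1)
    rw [this, mul_zero, zero_mul]

theorem tv_mem_Pat {S : Fin (m + 1) → Fin (m + 1) → Prop} {i j : Fin (m + 1)} (h : i ≠ j) (c : F) (hS : S i j) :
    tv h c ∈ Pat F S := by
  refine ⟨fun k => ?_, fun k l hkl hn => ?_⟩
  · rw [tv_apply, if_pos rfl, if_neg, add_zero]
    rintro ⟨rfl, rfl⟩; exact h rfl
  · rw [tv_apply, if_neg hkl, if_neg, add_zero]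
    rintro ⟨rfl, rfl⟩; exact hn hS

theorem dat (F : Type*) [Field F] (m : ℕ) : Dat (Usub F m) (Tor F m) (Nsub F m : Set (SG F m)) ell where
  bruhat := bruhat
  norm := fun t ht u hu => conj_U ht hu
  comm := fun t ht s hs => Tor_comm ht hs
  step := by
    rintro n ⟨σ, hσ⟩
    by_cases h1 : σ = 1
    · left; rw [h1] at hσ; exact hσ
    · right
      obtain ⟨i, hi⟩ := exists_descent h1
      have hne : i.succ ≠ i.castSucc := (Fin.castSucc_lt_succ (i := i)).ne'
      have hlt : i.castSucc < i.succ := Fin.castSucc_lt_succ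
      refine ⟨Pat F (fun k l => k = i.succ ∧ l = i.castSucc), fun t ht y hy => conj_Pat ht hy,
        fun y hy => conj_Pat_U hσ (by rintro k l ⟨rfl, rfl⟩; exact hi) hy, ?_, nn hne.symm, ?_, ?_, ?_⟩
      · intro hsub
        have h2 := hsub (tv_mem_Pat hne (1 : F) ⟨rfl, rfl⟩) i.succ i.castSucc hlt.le
        rw [tv_apply, if_neg hne, if_pos ⟨rfl, rfl⟩, zero_add] at h2
        exact one_ne_zero h2
      · have hx : tv hne.symm (1 : F) ∈ Subgroup.closure ((Usub F m : Set (SG F m)) ∪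
            Pat F (fun k l => k = i.succ ∧ l = i.castSucc)) :=
          Subgroup.subset_closure (Or.inl (tv_mem_U _ _ hlt))
        have hy : tv hne.symm.symm (-1 : F) ∈ Subgroup.closure ((Usub F m : Set (SG F m)) ∪
            Pat F (fun k l => k = i.succ ∧ l = i.castSucc)) :=
          Subgroup.subset_closure (Or.inr (tv_mem_Pat _ _ ⟨rfl, rfl⟩))
        exact mul_mem (mul_mem hx hy) hx
      · exact ⟨_, hσ.mul (mono_nn _)⟩
      · exact ell_lt hσ (hσ.mul (mono_nn _)) (wt_swap hlt hi)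

theorem odd_Tor [Finite F] [CharP F 2] {t : SG F m} (ht : t ∈ Tor F m) : Odd (orderOf t) := by
  have h1 := coprime_H (F := F) (m := m) 2
  have h2 : t ∈ Bsub F m ⊓ Nsub F m := mem_BN.2 ht
  have h3 : orderOf (⟨t, h2⟩ : ↥(Bsub F m ⊓ Nsub F m)) ∣ Nat.card ↥(Bsub F m ⊓ Nsub F m) := orderOf_dvd_natCard _
  rw [Subgroup.orderOf_mk] at h3
  rw [← Nat.coprime_two_right]
  exact h1.coprime_dvd_left h3

/-- `SL_{m+1}(F)`, `F` finite of characteristic 2: subgroups of odd index are pronormal. -/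
theorem pronormal_SL [Finite F] [CharP F 2] {H : Subgroup (SG F m)} (hH : Odd H.index) : Cfsg.IsPronormal H :=
  (dat F m).pronormal (isPGroup_U 2) (fun _ ht => odd_Tor ht) hH

end Cfsg.Agent.Lib.OverSL
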