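import Mathlib
import Cfsg.Agent.Lib.OverSL

/-!
(helper43) fixed points of an involutive automorphism of `SL_{m+1}(F)` (unitary groups in characteristic 2):
Bruhat decomposition and the data for `OverU`.
-/

set_option autoImplicit false

namespace Cfsg.Agent.Lib.OverSU

open Cfsg.Agent.Lib.SLBN Cfsg.Agent.Lib.OverU Cfsg.Agent.Lib.OverSL Equiv

section Refined

variable {F : Type*} [Field F] {m : ℕ}

/-- lower unitriangular -/
def Low (F : Type*) [Field F] (m : ℕ) : Set (SG F m) :=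
  {g | ∀ i j, i ≤ j → g.1 i j = if i = j then 1 else 0}

/-- pattern subsets of `U` -/
def UP (F : Type*) [Field F] {m : ℕ} (S : Fin (m + 1) → Fin (m + 1) → Prop) : Set (SG F m) :=
  {u | u ∈ Usub F m ∧ ∀ k l, k < l → ¬ S k l → u.1 k l = 0}

/-- unitriangular matrix from its entries -/
def mk (f : Fin (m + 1) → Fin (m + 1) → F) : SG F m :=
  ⟨Matrix.of fun i j => if i = j then 1 else if i < j then f i j else 0, by
    rw [Matrix.det_of_isUpperTriangular]
    · apply Finset.prod_eq_one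
      intro i _
      simp
    · intro i j hij
      have h : j < i := hij
      simp [h.ne', not_lt.mpr h.le]⟩

theorem card_UP [Fintype F] (S : Fin (m + 1) → Fin (m + 1) → Prop) :
    Nat.card (UP F S) = Fintype.card F ^ Nat.card {p : Fin (m + 1) × Fin (m + 1) // p.1 < p.2 ∧ S p.1 p.2} := by
  classical
  let e : UP F S ≃ ({p : Fin (m + 1) × Fin (m + 1) // p.1 < p.2 ∧ S p.1 p.2} → F) :=
    { toFun := fun u p => u.1.1 p.1.1 p.1.2
      invFun := fun f => ⟨mk (fun i j => if h : i < j ∧ S i j then f ⟨(i, j), h⟩ else 0), by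
        constructor
        · intro i j hij
          show (if i = j then 1 else if i < j then _ else 0) = _
          by_cases h : i = j
          · rw [if_pos h, if_pos h]
          · rw [if_neg h, if_neg h]
            exact if_neg (c := i < j) (not_lt.mpr hij)
        · intro k l hkl hS
          show (if k = l then 1 else if k < l then (if h : k < l ∧ S k l then f ⟨(k, l), h⟩ else 0) else 0) = 0
          rw [if_neg hkl.ne, if_pos hkl, dif_neg (fun h => hS h.2)]⟩
      left_inv := by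
        rintro ⟨u, hu, hS⟩
        apply Subtype.ext
        apply Subtype.ext
        ext i j
        show (if i = j then 1 else if i < j then (if h : i < j ∧ S i j then u.1 i j else 0) else 0) = u.1 i j
        by_cases h : i = j
        · rw [if_pos h, hu i j (by show (j : ℕ) ≤ i; rw [h]), if_pos h]
        · rw [if_neg h]
          by_cases h2 : i < j
          · rw [if_pos h2]
            by_cases h3 : S i j
            · rw [dif_pos ⟨h2, h3⟩]
            · rw [dif_neg (fun h4 => h3 h4.2), hS i j h2 h3]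
          · rw [if_neg h2, hu i j (not_lt.mp h2), if_neg h]
      right_inv := by
        intro f
        funext p
        show (if p.1.1 = p.1.2 then 1 else if p.1.1 < p.1.2 then
          (if h : p.1.1 < p.1.2 ∧ S p.1.1 p.1.2 then f ⟨(p.1.1, p.1.2), h⟩ else 0) else 0) = f p
        rw [if_neg p.2.1.ne, if_pos p.2.1, dif_pos p.2] }
  rw [Nat.card_congr e, Nat.card_fun, Nat.card_eq_fintype_card]

theorem inter_trivial {g : SG F m} (h1 : g ∈ Usub F m) (h2 : g ∈ Low F m) : g = 1 := by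
  apply Subtype.ext
  ext i j
  rw [Matrix.SpecialLinearGroup.coe_one, Matrix.one_apply]
  rcases le_total j i with h | h
  · exact h1 i j h
  · exact h2 i j h

/-- entries of `n⁻¹ u n` -/
theorem inv_conj_entry {σ : Perm (Fin (m + 1))} {n : SG F m} (hn : Mono σ n) (u : SG F m) (k l : Fin (m + 1)) :
    (n⁻¹ * u * n).1 k l = (n.1 (σ k) k)⁻¹ * u.1 (σ k) (σ l) * n.1 (σ l) l := Mono.conj hn u k l

theorem mem_minus {σ : Perm (Fin (m + 1))} {n u : SG F m} (hn : Mono σ n) (hu : u ∈ Usub F m) :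
    n⁻¹ * u * n ∈ Low F m ↔ u ∈ UP F (fun i j => σ⁻¹ j < σ⁻¹ i) := by
  constructor
  · intro h
    refine ⟨hu, fun k l hkl hS => ?_⟩
    have hle : σ⁻¹ k ≤ σ⁻¹ l := not_lt.mp hS
    have h1 := h (σ⁻¹ k) (σ⁻¹ l) hle
    rw [inv_conj_entry hn, papp, papp, if_neg (fun e => hkl.ne (σ⁻¹.injective e))] at h1
    have h2 := hn.ne_zero (σ⁻¹ k)
    have h3 := hn.ne_zero (σ⁻¹ l)
    rw [papp] at h2 h3
    have h4 := (mul_eq_zero.1 h1).resolve_right h3
    exact (mul_eq_zero.1 h4).resolve_left (inv_ne_zero h2)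
  · rintro ⟨-, h⟩ i j hij
    rw [inv_conj_entry hn]
    by_cases he : i = j
    · subst he
      rw [hu (σ i) (σ i) le_rfl, if_pos rfl, mul_one, if_pos rfl, inv_mul_cancel₀ (hn.ne_zero i)]
    · rw [if_neg he]
      have : u.1 (σ i) (σ j) = 0 := by
        rcases lt_trichotomy (σ i) (σ j) with h1 | h1 | h1
        · apply h _ _ h1
          show ¬ σ⁻¹ (σ j) < σ⁻¹ (σ i)
          rw [pinv, pinv]
          exact not_lt.mpr hij
        · exact absurd (σ.injective h1) he
        · rw [hu _ _ h1.le, if_neg h1.ne']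
      rw [this, mul_zero, zero_mul]

theorem mem_plus {σ : Perm (Fin (m + 1))} {n u : SG F m} (hn : Mono σ n) (hu : u ∈ Usub F m) :
    n⁻¹ * u * n ∈ Usub F m ↔ u ∈ UP F (fun i j => ¬ σ⁻¹ j < σ⁻¹ i) := by
  constructor
  · intro h
    refine ⟨hu, fun k l hkl hS => ?_⟩
    have hle : σ⁻¹ l < σ⁻¹ k := not_not.mp hS
    have h1 := h (σ⁻¹ k) (σ⁻¹ l) hle.le
    rw [inv_conj_entry hn, papp, papp, if_neg (fun e => hkl.ne (σ⁻¹.injective e))] at h1
    have h2 := hn.ne_zero (σ⁻¹ k)
    have h3 := hn.ne_zero (σ⁻¹ l)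
    rw [papp] at h2 h3
    have h4 := (mul_eq_zero.1 h1).resolve_right h3
    exact (mul_eq_zero.1 h4).resolve_left (inv_ne_zero h2)
  · rintro ⟨-, h⟩ i j hij
    rw [inv_conj_entry hn]
    by_cases he : i = j
    · subst he
      rw [hu (σ i) (σ i) le_rfl, if_pos rfl, mul_one, if_pos rfl, inv_mul_cancel₀ (hn.ne_zero i)]
    · rw [if_neg he]
      have : u.1 (σ i) (σ j) = 0 := by
        rcases lt_trichotomy (σ i) (σ j) with h1 | h1 | h1
        · apply h _ _ h1
          show ¬ ¬ σ⁻¹ (σ j) < σ⁻¹ (σ i)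
          rw [pinv, pinv, not_not]
          exact lt_of_le_of_ne hij (fun e => he e.symm)
        · exact absurd (σ.injective h1) he
        · rw [hu _ _ h1.le, if_neg h1.ne']
      rw [this, mul_zero, zero_mul]

/-- the factorization `U = U⁻_w U⁺_w` -/
theorem factor [Finite F] {σ : Perm (Fin (m + 1))} {n : SG F m} (hn : Mono σ n) {u : SG F m} (hu : u ∈ Usub F m) :
    ∃ a ∈ Usub F m, ∃ c ∈ Usub F m, n⁻¹ * a * n ∈ Low F m ∧ n⁻¹ * c * n ∈ Usub F m ∧ u = a * c := by
  classical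
  have := Fintype.ofFinite F
  let A := UP F (fun i j : Fin (m + 1) => σ⁻¹ j < σ⁻¹ i)
  let C := UP F (fun i j : Fin (m + 1) => ¬ σ⁻¹ j < σ⁻¹ i)
  let φ : A × C → (Usub F m : Set (SG F m)) := fun p => ⟨p.1.1 * p.2.1, (Usub F m).mul_mem p.1.2.1 p.2.2.1⟩
  have hinj : Function.Injective φ := by
    rintro ⟨⟨a, ha⟩, ⟨c, hc⟩⟩ ⟨⟨a', ha'⟩, ⟨c', hc'⟩⟩ h
    have h1 : a * c = a' * c' := congrArg Subtype.val h
    have h2 : a'⁻¹ * a = c' * c⁻¹ := by
      calc a'⁻¹ * a = a'⁻¹ * (a * c) * c⁻¹ := by group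
        _ = a'⁻¹ * (a' * c') * c⁻¹ := by rw [h1]
        _ = c' * c⁻¹ := by group
    have hLow : ∀ x y : SG F m, x ∈ Low F m → y ∈ Low F m → x * y ∈ Low F m := by
      intro x y hx hy i j hij
      rw [Matrix.SpecialLinearGroup.coe_mul, Matrix.mul_apply, Finset.sum_eq_single i]
      · rw [hx i i le_rfl, if_pos rfl, one_mul, hy i j hij]
      · intro k _ hk
        rcases lt_or_ge k i with h3 | h3
        · rw [hy k j (h3.le.trans hij), if_neg (h3.trans_le hij).ne, mul_zero]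
        · rw [hx i k h3, if_neg (Ne.symm hk), zero_mul]
      · intro h3; exact absurd (Finset.mem_univ _) h3
    have hLowInv : ∀ x : SG F m, x ∈ Low F m → x⁻¹ ∈ Low F m := by
      intro x hx
      have hfin : Finite (SG F m) := inferInstance
      obtain ⟨k, hk⟩ : ∃ k : ℕ, x⁻¹ = x ^ k := by
        refine ⟨orderOf x - 1, ?_⟩
        rw [inv_eq_of_mul_eq_one_right]
        rw [← pow_succ', Nat.sub_add_cancel (isOfFinOrder_of_finite x).orderOf_pos, pow_orderOf_eq_one]
      rw [hk]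
      clear hk
      induction k with
      | zero =>
        intro i j _
        rw [pow_zero, Matrix.SpecialLinearGroup.coe_one, Matrix.one_apply]
      | succ k ih =>
        rw [pow_succ]
        exact hLow _ _ ih hx
    have h3 : n⁻¹ * (a'⁻¹ * a) * n ∈ Low F m := by
      have e : n⁻¹ * (a'⁻¹ * a) * n = (n⁻¹ * a' * n)⁻¹ * (n⁻¹ * a * n) := by group
      rw [e]
      exact hLow _ _ (hLowInv _ ((mem_minus hn ha'.1).2 ha')) ((mem_minus hn ha.1).2 ha)
    have h4 : n⁻¹ * (a'⁻¹ * a) * n ∈ Usub F m := by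
      rw [h2]
      have e : n⁻¹ * (c' * c⁻¹) * n = (n⁻¹ * c' * n) * (n⁻¹ * c * n)⁻¹ := by group
      rw [e]
      exact (Usub F m).mul_mem ((mem_plus hn hc'.1).2 hc') ((Usub F m).inv_mem ((mem_plus hn hc.1).2 hc))
    have h5 := inter_trivial h4 h3
    have h6 : a'⁻¹ * a = 1 := by
      have e : a'⁻¹ * a = n * (n⁻¹ * (a'⁻¹ * a) * n) * n⁻¹ := by group
      rw [e, h5]; group
    have h7 : a = a' := (inv_mul_eq_one.1 h6).symm
    subst h7
    have h8 : c = c' := mul_left_cancel h1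
    subst h8
    rfl
  have hcard : Nat.card (A × C) = Nat.card ((Usub F m : Set (SG F m))) := by
    have hU : (Usub F m : Set (SG F m)) = UP F (fun _ _ => True) := by
      ext u
      exact ⟨fun h => ⟨h, fun _ _ _ h2 => absurd trivial h2⟩, fun h => h.1⟩
    rw [hU, Nat.card_prod, card_UP, card_UP, card_UP, ← pow_add]
    congr 1
    rw [← Nat.card_sum]
    refine Nat.card_congr ?_
    exact
      { toFun := Sum.elim (fun p => ⟨p.1, p.2.1, trivial⟩) (fun p => ⟨p.1, p.2.1, trivial⟩)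
        invFun := fun p => if h : σ⁻¹ p.1.2 < σ⁻¹ p.1.1 then Sum.inl ⟨p.1, p.2.1, h⟩ else Sum.inr ⟨p.1, p.2.1, h⟩
        left_inv := by
          rintro (⟨p, hp1, hp2⟩ | ⟨p, hp1, hp2⟩)
          · exact dif_pos (c := σ⁻¹ p.2 < σ⁻¹ p.1) hp2
          · exact dif_neg (c := σ⁻¹ p.2 < σ⁻¹ p.1) hp2
        right_inv := by
          rintro ⟨p, hp1, -⟩
          by_cases h : σ⁻¹ p.2 < σ⁻¹ p.1
          · simp only [dif_pos h, Sum.elim_inl]
          · simp only [dif_neg h, Sum.elim_inr] }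
  have hsurj : Function.Surjective φ := by
    have hfin : Finite (SG F m) := inferInstance
    exact ((Nat.bijective_iff_injective_and_card φ).2 ⟨hinj, hcard⟩).2
  obtain ⟨⟨a, c⟩, hac⟩ := hsurj ⟨u, hu⟩
  exact ⟨a.1, a.2.1, c.1, c.2.1, (mem_minus hn a.2.1).2 a.2, (mem_plus hn c.2.1).2 c.2,
    (congrArg Subtype.val hac).symm⟩

/-- uniqueness of the monomial part -/
theorem mono_unique {n n' u u' : SG F m} (hn : n ∈ Nsub F m) (hn' : n' ∈ Nsub F m) (hu : u ∈ Usub F m)
    (hu' : u' ∈ Usub F m) (h : n = u * n' * u') : n = n' := by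
  obtain ⟨σ, hσ⟩ := hn
  obtain ⟨σ', hσ'⟩ := hn'
  have h1 : n'⁻¹ * u⁻¹ * n = u' := by rw [h]; group
  have hui := (Usub F m).inv_mem hu
  -- entries
  have hent : ∀ k l, (n'⁻¹ * u⁻¹ * n).1 k l = (n'.1 (σ' k) k)⁻¹ * (u⁻¹).1 (σ' k) (σ l) * n.1 (σ l) l := by
    intro k l
    have e1 : (u⁻¹ * n).1 (σ' k) l = (u⁻¹).1 (σ' k) (σ l) * n.1 (σ l) l := by
      rw [Matrix.SpecialLinearGroup.coe_mul, Matrix.mul_apply, Finset.sum_eq_single (σ l)]
      · intro t _ ht
        have : n.1 t l = 0 := by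
          by_contra h3
          exact ht (hσ _ _ h3)
        rw [this, mul_zero]
      · intro h3; exact absurd (Finset.mem_univ _) h3
    have e2 : (n' * (n'⁻¹ * u⁻¹ * n)).1 (σ' k) l = n'.1 (σ' k) k * (n'⁻¹ * u⁻¹ * n).1 k l := by
      rw [Matrix.SpecialLinearGroup.coe_mul n', Matrix.mul_apply, Finset.sum_eq_single k]
      · intro t _ ht
        have : n'.1 (σ' k) t = 0 := by
          by_contra h3
          exact ht (σ'.injective (hσ' _ _ h3)).symm
        rw [this, zero_mul]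
      · intro h3; exact absurd (Finset.mem_univ _) h3
    have e3 : n' * (n'⁻¹ * u⁻¹ * n) = u⁻¹ * n := by group
    rw [e3, e1] at e2
    have h4 := hσ'.ne_zero k
    calc (n'⁻¹ * u⁻¹ * n).1 k l = (n'.1 (σ' k) k)⁻¹ * (n'.1 (σ' k) k * (n'⁻¹ * u⁻¹ * n).1 k l) :=
          (inv_mul_cancel_left₀ h4 _).symm
      _ = (n'.1 (σ' k) k)⁻¹ * ((u⁻¹).1 (σ' k) (σ l) * n.1 (σ l) l) := by rw [← e2]
      _ = _ := (mul_assoc _ _ _).symm
  have hle : ∀ k, k ≤ σ⁻¹ (σ' k) := by
    intro k
    by_contra hlt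
    rw [not_le] at hlt
    have h2 := hu' k (σ⁻¹ (σ' k)) hlt.le
    rw [← h1, hent, papp, hui (σ' k) (σ' k) le_rfl, if_pos rfl, mul_one, if_neg hlt.ne'] at h2
    rcases mul_eq_zero.1 h2 with h3 | h3
    · exact inv_ne_zero (hσ'.ne_zero k) h3
    · have := hσ.ne_zero (σ⁻¹ (σ' k))
      rw [papp] at this
      exact this h3
  have hperm : σ = σ' := by
    -- k ≤ σ⁻¹ σ' k for all k forces equality
    have h2 : ∀ l, (σ'⁻¹ * σ) l ≤ l := by
      intro l
      have := hle ((σ'⁻¹ * σ) l)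
      rw [Perm.mul_apply, papp, pinv] at this
      exact this
    have h3 : ∀ l, (σ'⁻¹ * σ) l = l := by
      intro l
      induction' hN : (l : ℕ) using Nat.strong_induction_on with N ih generalizing l
      subst hN
      by_contra hne
      have h3 : (σ'⁻¹ * σ) l < l := lt_of_le_of_ne (h2 l) hne
      have h4 := ih ((σ'⁻¹ * σ) l : ℕ) h3 ((σ'⁻¹ * σ) l) rfl
      exact hne ((σ'⁻¹ * σ).injective h4)
    have h4 : σ'⁻¹ * σ = 1 := Equiv.ext h3
    exact (inv_mul_eq_one.1 h4).symm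
  subst hperm
  have hdiag : ∀ k, n.1 (σ k) k = n'.1 (σ k) k := by
    intro k
    have h2 := hu' k k le_rfl
    rw [← h1, hent, hui (σ k) (σ k) le_rfl, if_pos rfl, mul_one, if_pos rfl] at h2
    exact (inv_mul_eq_one₀ (hσ'.ne_zero k)).1 h2 |>.symm
  apply Subtype.ext
  ext i j
  by_cases h2 : i = σ j
  · rw [h2, hdiag]
  · have h3 : n.1 i j = 0 := by
      by_contra h4; exact h2 (hσ _ _ h4)
    have h4 : n'.1 i j = 0 := by
      by_contra h4; exact h2 (hσ' _ _ h4)
    rw [h3, h4]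

theorem Low_mul {x y : SG F m} (hx : x ∈ Low F m) (hy : y ∈ Low F m) : x * y ∈ Low F m := by
  intro i j hij
  rw [Matrix.SpecialLinearGroup.coe_mul, Matrix.mul_apply, Finset.sum_eq_single i]
  · rw [hx i i le_rfl, if_pos rfl, one_mul, hy i j hij]
  · intro k _ hk
    rcases lt_or_ge k i with h3 | h3
    · rw [hy k j (h3.le.trans hij), if_neg (h3.trans_le hij).ne, mul_zero]
    · rw [hx i k h3, if_neg (Ne.symm hk), zero_mul]
  · intro h3; exact absurd (Finset.mem_univ _) h3

theorem Low_inv [Finite F] {x : SG F m} (hx : x ∈ Low F m) : x⁻¹ ∈ Low F m := by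
  have hfin : Finite (SG F m) := inferInstance
  obtain ⟨k, hk⟩ : ∃ k : ℕ, x⁻¹ = x ^ k := by
    refine ⟨orderOf x - 1, ?_⟩
    rw [inv_eq_of_mul_eq_one_right]
    rw [← pow_succ', Nat.sub_add_cancel (isOfFinOrder_of_finite x).orderOf_pos, pow_orderOf_eq_one]
  rw [hk]
  clear hk
  induction k with
  | zero =>
    intro i j _
    rw [pow_zero, Matrix.SpecialLinearGroup.coe_one, Matrix.one_apply]
  | succ k ih =>
    rw [pow_succ]
    exact Low_mul ih hx

/-- uniqueness in the refined decomposition -/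
theorem refined_unique [Finite F] {n a a' v v' : SG F m}
    (hv : v ∈ Usub F m) (hv' : v' ∈ Usub F m) (hl : n⁻¹ * a * n ∈ Low F m) (hl' : n⁻¹ * a' * n ∈ Low F m)
    (h : a * n * v = a' * n * v') : a = a' ∧ v = v' := by
  have e1 : n⁻¹ * (a'⁻¹ * a) * n = v' * v⁻¹ := by
    calc n⁻¹ * (a'⁻¹ * a) * n = n⁻¹ * a'⁻¹ * (a * n * v) * v⁻¹ := by group
      _ = n⁻¹ * a'⁻¹ * (a' * n * v') * v⁻¹ := by rw [h]
      _ = _ := by group
  have e2 : n⁻¹ * (a'⁻¹ * a) * n = (n⁻¹ * a' * n)⁻¹ * (n⁻¹ * a * n) := by group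
  have h1 : n⁻¹ * (a'⁻¹ * a) * n ∈ Usub F m := by
    rw [e1]; exact (Usub F m).mul_mem hv' ((Usub F m).inv_mem hv)
  have h2 : n⁻¹ * (a'⁻¹ * a) * n ∈ Low F m := by
    rw [e2]; exact Low_mul (Low_inv hl') hl
  have h3 := inter_trivial h1 h2
  have h4 : v' * v⁻¹ = 1 := by rw [← e1, h3]
  have h5 : a'⁻¹ * a = 1 := by
    have e : a'⁻¹ * a = n * (n⁻¹ * (a'⁻¹ * a) * n) * n⁻¹ := by group
    rw [e, h3]; group
  exact ⟨(inv_mul_eq_one.1 h5).symm, (mul_inv_eq_one.1 h4).symm⟩

theorem refined [Finite F] (g : SG F m) : ∃ a ∈ Usub F m, ∃ n ∈ Nsub F m, ∃ v ∈ Usub F m,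
    n⁻¹ * a * n ∈ Low F m ∧ g = a * n * v := by
  obtain ⟨u, hu, n, hn, u', hu', rfl⟩ := bruhat g
  obtain ⟨σ, hσ⟩ := hn
  obtain ⟨a, ha, c, -, h1, h2, rfl⟩ := factor hσ hu
  exact ⟨a, ha, n, ⟨σ, hσ⟩, n⁻¹ * c * n * u', (Usub F m).mul_mem h2 hu', h1, by group⟩

end Refined

section Fixed

variable {F : Type*} [Field F] {m : ℕ} (s : F →+* F)

/-- the (unsigned) unitary automorphism -/
def tau : SG F m →* SG F m where
  toFun g := ⟨Matrix.of fun i j => s ((g⁻¹).1 (Fin.rev j) (Fin.rev i)), by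
    have e : (Matrix.of fun i j => s ((g⁻¹).1 (Fin.rev j) (Fin.rev i))) =
        ((((g⁻¹).1.transpose).map s).submatrix Fin.revPerm Fin.revPerm : Matrix (Fin (m + 1)) (Fin (m + 1)) F) := by
      ext i j; rfl
    rw [e, Matrix.det_submatrix_equiv_self]
    have e2 := (RingHom.map_det s ((g⁻¹).1.transpose)).symm
    rw [Matrix.det_transpose] at e2
    have e3 : (g⁻¹).1.det = 1 := (g⁻¹).2
    rw [e3, map_one] at e2
    exact e2⟩
  map_one' := by
    apply Subtype.ext
    ext i j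
    show s (((1 : SG F m)⁻¹).1 (Fin.rev j) (Fin.rev i)) = _
    rw [inv_one, Matrix.SpecialLinearGroup.coe_one, Matrix.one_apply, Matrix.one_apply]
    by_cases h : i = j
    · subst h; simp
    · rw [if_neg h, if_neg (fun e => h (Fin.rev_injective e).symm), map_zero]
  map_mul' := by
    intro g h
    apply Subtype.ext
    ext i j
    show s (((g * h)⁻¹).1 (Fin.rev j) (Fin.rev i)) =
      ((Matrix.of fun i j => s ((g⁻¹).1 (Fin.rev j) (Fin.rev i))) *
        (Matrix.of fun i j => s ((h⁻¹).1 (Fin.rev j) (Fin.rev i))) : Matrix (Fin (m + 1)) (Fin (m + 1)) F) i j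
    rw [Matrix.mul_apply]
    show s (((g * h)⁻¹).1 (Fin.rev j) (Fin.rev i)) =
      ∑ k, s ((g⁻¹).1 (Fin.rev k) (Fin.rev i)) * s ((h⁻¹).1 (Fin.rev j) (Fin.rev k))
    have e : ((g * h)⁻¹).1 = (h⁻¹).1 * (g⁻¹).1 := by
      rw [mul_inv_rev, Matrix.SpecialLinearGroup.coe_mul]
    rw [e, Matrix.mul_apply, map_sum]
    rw [← Equiv.sum_comp (Fin.revPerm (n := m + 1))]
    refine Finset.sum_congr rfl fun k _ => ?_
    rw [map_mul, mul_comm]
    rfl

theorem tau_apply (g : SG F m) (i j : Fin (m + 1)) : (tau s g).1 i j = s ((g⁻¹).1 (Fin.rev j) (Fin.rev i)) := rfl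

theorem tau_U {u : SG F m} (hu : u ∈ Usub F m) : tau s u ∈ Usub F m := by
  intro i j hij
  have h := (Usub F m).inv_mem hu (Fin.rev j) (Fin.rev i) (by
    show (Fin.rev i : ℕ) ≤ Fin.rev j
    rw [Fin.val_rev, Fin.val_rev]
    have : (j : ℕ) ≤ i := hij
    omega)
  rw [tau_apply, h]
  by_cases h2 : i = j
  · subst h2; simp
  · rw [if_neg h2, if_neg (fun e => h2 (Fin.rev_injective e).symm), map_zero]

theorem tau_Low [Finite F] {u : SG F m} (hu : u ∈ Low F m) : tau s u ∈ Low F m := by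
  intro i j hij
  have h := (Low_inv hu) (Fin.rev j) (Fin.rev i) (Fin.rev_le_rev.2 hij)
  rw [tau_apply, h]
  by_cases h2 : i = j
  · subst h2; simp
  · rw [if_neg h2, if_neg (fun e => h2 (Fin.rev_injective e).symm), map_zero]

theorem tau_Mono {σ : Perm (Fin (m + 1))} {n : SG F m} (hn : Mono σ n) :
    Mono (Fin.revPerm * σ * Fin.revPerm) (tau s n) := by
  intro k l h
  rw [tau_apply] at h
  have h1 : (n⁻¹).1 (Fin.rev l) (Fin.rev k) ≠ 0 := fun e => h (by rw [e, map_zero])
  have h2 := hn.inv _ _ h1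
  rw [Perm.mul_apply, Perm.mul_apply]
  show k = Fin.rev (σ (Fin.rev l))
  rw [h2, papp, Fin.rev_rev]

theorem tau_tv {i j : Fin (m + 1)} (h : i ≠ j) (c : F) (h' : Fin.rev j ≠ Fin.rev i) :
    tau s (tv h c) = tv h' (- s c) := by
  apply Subtype.ext
  ext k l
  rw [tau_apply, Matrix.SpecialLinearGroup.transvection_inv, tv_apply, tv_apply, map_add, apply_ite s, apply_ite s, map_one, map_zero, map_neg]
  congr 1
  · by_cases h2 : k = l
    · subst h2; simp
    · rw [if_neg h2, if_neg (fun e => h2 (Fin.rev_injective e).symm)]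
  · by_cases h2 : i = Fin.rev l ∧ j = Fin.rev k
    · rw [if_pos h2, if_pos ⟨by rw [h2.2, Fin.rev_rev], by rw [h2.1, Fin.rev_rev]⟩]
    · rw [if_neg h2, if_neg (fun e => h2 ⟨by rw [← e.2, Fin.rev_rev], by rw [← e.1, Fin.rev_rev]⟩)]

/-- the fixed points -/
abbrev Fx : Subgroup (SG F m) := MonoidHom.eqLocus (tau s) (MonoidHom.id (SG F m))

theorem mem_Fx {g : SG F m} : g ∈ Fx (m := m) s ↔ tau s g = g := Iff.rfl

theorem fixed_refined [Finite F] {g : SG F m} (hg : tau s g = g) : ∃ a ∈ Usub F m, ∃ n ∈ Nsub F m, ∃ v ∈ Usub F m,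
    tau s a = a ∧ tau s n = n ∧ tau s v = v ∧ g = a * n * v := by
  obtain ⟨a, ha, n, hn, v, hv, hl, hgn⟩ := refined g
  have h1 : a * n * v = tau s a * tau s n * tau s v := by rw [← map_mul, ← map_mul, ← hgn, hg]
  have hn' : tau s n ∈ Nsub F m := by
    obtain ⟨σ, hσ⟩ := hn
    exact ⟨_, tau_Mono s hσ⟩
  have h2 : n = tau s n := by
    refine mono_unique hn hn' (u := a⁻¹ * tau s a) (u' := tau s v * v⁻¹)
      ((Usub F m).mul_mem ((Usub F m).inv_mem ha) (tau_U s ha))
      ((Usub F m).mul_mem (tau_U s hv) ((Usub F m).inv_mem hv)) ?_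
    calc n = a⁻¹ * (a * n * v) * v⁻¹ := by group
      _ = _ := by rw [h1]; group
  have h3 : a = tau s a ∧ v = tau s v := by
    refine refined_unique (n := n) hv (tau_U s hv) hl ?_ ?_
    · nth_rw 1 [h2]
      nth_rw 2 [h2]
      rw [← map_inv, ← map_mul, ← map_mul]
      exact tau_Low s hl
    · nth_rw 2 [h2]
      exact h1
  exact ⟨a, ha, n, hn, v, hv, h3.1.symm, h2.symm, h3.2.symm, hgn⟩

end Fixed

section DatFx

variable {F : Type*} [Field F] {m : ℕ}

theorem tv_comm {i j k l : Fin (m + 1)} (h : i ≠ j) (h' : k ≠ l) (h1 : j ≠ k) (h2 : l ≠ i) (c d : F) :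
    tv h c * tv h' d = tv h' d * tv h c := by
  apply Subtype.ext
  rw [Matrix.SpecialLinearGroup.coe_mul, Matrix.SpecialLinearGroup.coe_mul, tv_coe, tv_coe, mul_add, mul_add,
    add_mul, add_mul, add_mul, add_mul, Matrix.single_mul_single_of_ne _ _ _ _ h1 _,
    Matrix.single_mul_single_of_ne _ _ _ _ h2 _]
  simp only [one_mul, mul_one]
  abel

theorem pair_apply {i j k l : Fin (m + 1)} (h : i ≠ j) (h' : k ≠ l) (h1 : j ≠ k) (x y : Fin (m + 1)) :
    (tv h (1 : F) * tv h' 1).1 x y = (if x = y then 1 else 0) + (if i = x ∧ j = y then 1 else 0) +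
      (if k = x ∧ l = y then 1 else 0) := by
  rw [Matrix.SpecialLinearGroup.coe_mul, tv_coe, tv_coe, mul_add, mul_one, add_mul, one_mul,
    Matrix.single_mul_single_of_ne _ _ _ _ h1 _, add_zero, Matrix.add_apply, Matrix.add_apply, Matrix.one_apply,
    Matrix.single_apply, Matrix.single_apply]

theorem tv_irrel {i j i' j' : Fin (m + 1)} (h : i ≠ j) (h' : i' ≠ j') (h1 : i = i') (h2 : j = j') (c : F) :
    tv h c = tv h' c := by
  subst h1; subst h2; rfl

variable (s : F →+* F)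

/-- `U` of the fixed group -/
def FU : Subgroup (Fx (m := m) s) := (Usub F m).subgroupOf _

/-- `T` of the fixed group -/
def FT : Subgroup (Fx (m := m) s) := (Tor F m).subgroupOf _

/-- `N` of the fixed group -/
def FN : Set (Fx (m := m) s) := {n | (n : SG F m) ∈ Nsub F m}

theorem rev_ne {a b : Fin (m + 1)} (h : a ≠ b) : Fin.rev b ≠ Fin.rev a := fun e => h (Fin.rev_injective e).symm

theorem tau_tv' [CharP F 2] {i j : Fin (m + 1)} (h : i ≠ j) :
    tau s (tv h 1) = tv (rev_ne h) 1 := by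
  rw [tau_tv s h 1 (rev_ne h), map_one, CharTwo.neg_eq]

theorem tau_pair [CharP F 2] {i j : Fin (m + 1)} (h : i ≠ j) (h1 : j ≠ Fin.rev j) (h2 : Fin.rev i ≠ i) :
    tau s (tv h 1 * tv (rev_ne h) 1) = tv h 1 * tv (rev_ne h) 1 := by
  rw [map_mul, tau_tv', tau_tv', tv_irrel (rev_ne (rev_ne h)) h (Fin.rev_rev _) (Fin.rev_rev _)]
  exact (tv_comm _ _ h1 h2 _ _).symm

theorem datFx [Finite F] [CharP F 2] (hm : Odd m) : Dat (FU (m := m) s) (FT s) (FN s) (fun n => ell n.1) where
  bruhat := by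
    rintro ⟨g, hg⟩
    obtain ⟨a, ha, n, hn, v, hv, h1, h2, h3, h4⟩ := fixed_refined s hg
    exact ⟨⟨a, h1⟩, ha, ⟨n, h2⟩, hn, ⟨v, h3⟩, hv, Subtype.ext h4⟩
  norm := fun t ht u hu => OverSL.conj_U (F := F) (m := m) ht hu
  comm := fun t ht s hs => Subtype.ext (Tor_comm ht hs)
  step := by
    rintro ⟨n, hnf⟩ ⟨σ, hσ⟩
    replace hnf : tau s n = n := hnf
    replace hσ : Mono σ n := hσ
    by_cases h1 : σ = 1
    · left; rw [h1] at hσ; exact hσ
    · right
      obtain ⟨i, hi⟩ := exists_descent h1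
      obtain ⟨a, ha⟩ : ∃ a, a = i.castSucc := ⟨_, rfl⟩
      obtain ⟨b, hb⟩ : ∃ b, b = i.succ := ⟨_, rfl⟩
      have hav : (a : ℕ) = i := by rw [ha]; rfl
      have hbv : (b : ℕ) = i + 1 := by rw [hb]; rfl
      rw [← ha, ← hb] at hi
      have hlt : a < b := by show (a : ℕ) < b; omega
      have hab : a ≠ b := hlt.ne
      have hra : (Fin.rev a : ℕ) = m - i := by rw [Fin.val_rev]; omega
      have hrb : (Fin.rev b : ℕ) = m - (i + 1) := by rw [Fin.val_rev]; omega
      have him := i.2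
      obtain ⟨k, hk⟩ := hm
      have hrlt : Fin.rev b < Fin.rev a := by show (Fin.rev b : ℕ) < Fin.rev a; omega
      have haa : Fin.rev a ≠ a := fun e => by
        have := congrArg Fin.val e
        omega
      have hbb : Fin.rev b ≠ b := fun e => by
        have := congrArg Fin.val e
        omega
      -- σ commutes with rev
      have hσr : ∀ x, σ (Fin.rev x) = Fin.rev (σ x) := by
        intro x
        have h2 := tau_Mono s hσ
        rw [hnf] at h2
        have h3 := Equiv.ext_iff.1 (h2.unique hσ) (Fin.rev x)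
        rw [Perm.mul_apply, Perm.mul_apply] at h3
        change Fin.rev (σ (Fin.rev (Fin.rev x))) = σ (Fin.rev x) at h3
        rw [Fin.rev_rev] at h3
        exact h3.symm
      have hi2 : σ (Fin.rev a) < σ (Fin.rev b) := by
        rw [hσr, hσr, Fin.rev_lt_rev]; exact hi
      let S : Fin (m + 1) → Fin (m + 1) → Prop := fun k l => (k = b ∧ l = a) ∨ (k = Fin.rev a ∧ l = Fin.rev b)
      have hS1 : S b a := Or.inl ⟨rfl, rfl⟩
      have hS2 : S (Fin.rev a) (Fin.rev b) := Or.inr ⟨rfl, rfl⟩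
      refine ⟨{y | y.1 ∈ Pat F S}, fun t ht y hy => conj_Pat (F := F) (m := m) ht hy, fun y hy => ?_, ?_⟩
      · show (n * y.1 * n⁻¹) ∈ Usub F m
        refine conj_Pat_U hσ ?_ hy
        rintro k l (⟨rfl, rfl⟩ | ⟨rfl, rfl⟩)
        · exact hi
        · exact hi2
      by_cases hmid : b = Fin.rev a
      · -- middle
        have hmid' : Fin.rev b = a := by rw [hmid, Fin.rev_rev]
        have hx : tau s (tv hab 1) = tv hab (1 : F) := by
          rw [tau_tv' s hab]; exact tv_irrel _ _ hmid' hmid.symm _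
        have hy : tau s (tv hab.symm 1) = tv hab.symm (1 : F) := by
          rw [tau_tv' s hab.symm]; exact tv_irrel _ _ hmid.symm hmid' _
        refine ⟨?_, ⟨tv hab 1, hx⟩ * ⟨tv hab.symm 1, hy⟩ * ⟨tv hab 1, hx⟩, ?_, ?_, ?_⟩
        · intro hsub
          have h2 := hsub (a := ⟨tv hab.symm 1, hy⟩) (tv_mem_Pat hab.symm (1 : F) hS1)
          have h3 : tv hab.symm (1 : F) ∈ Usub F m := h2
          have h4 := h3 b a hlt.le
          rw [tv_apply, if_neg hab.symm, if_pos ⟨rfl, rfl⟩, zero_add] at h4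
          exact one_ne_zero h4
        · have hx' : (⟨tv hab 1, hx⟩ : Fx (m := m) s) ∈ Subgroup.closure ((FU (m := m) s : Set (Fx (m := m) s)) ∪
              {y | y.1 ∈ Pat F S}) := by
            refine Subgroup.subset_closure (Set.mem_union_left _ ?_)
            show tv hab (1 : F) ∈ Usub F m
            exact tv_mem_U (F := F) hab 1 hlt
          have hy' : (⟨tv hab.symm 1, hy⟩ : Fx (m := m) s) ∈ Subgroup.closure ((FU (m := m) s : Set (Fx (m := m) s)) ∪
              {y | y.1 ∈ Pat F S}) := Subgroup.subset_closure (Or.inr (tv_mem_Pat hab.symm (1 : F) hS1))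
          exact mul_mem (mul_mem hx' hy') hx'
        · have e : nn hab = tv hab (1 : F) * tv hab.symm 1 * tv hab 1 := by
            rw [nn, CharTwo.neg_eq]
          show n * (tv hab (1 : F) * tv hab.symm 1 * tv hab 1) ∈ Nsub F m
          rw [← e]
          exact ⟨_, hσ.mul (mono_nn _)⟩
        · have e : nn hab = tv hab (1 : F) * tv hab.symm 1 * tv hab 1 := by
            rw [nn, CharTwo.neg_eq]
          show ell (n * (tv hab (1 : F) * tv hab.symm 1 * tv hab 1)) < ell n
          rw [← e]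
          exact ell_lt hσ (hσ.mul (mono_nn _)) (wt_swap hlt hi)
      · have hx := tau_pair s hab hbb.symm haa
        have hy := tau_pair s hab.symm haa.symm hbb
        have harb : a ≠ Fin.rev b := fun e => hmid (by rw [e, Fin.rev_rev])
        have hw : (tv hab (1 : F) * tv (rev_ne hab) 1) * (tv hab.symm 1 * tv (rev_ne hab.symm) 1) *
            (tv hab 1 * tv (rev_ne hab) 1) = nn hab * nn (rev_ne hab) := by
          have c1 : tv (rev_ne hab) (1 : F) * tv hab.symm 1 = tv hab.symm 1 * tv (rev_ne hab) 1 :=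
            tv_comm _ _ (Ne.symm hmid) harb _ _
          have c2 : tv (rev_ne hab.symm) (1 : F) * tv hab 1 = tv hab 1 * tv (rev_ne hab.symm) 1 :=
            tv_comm _ _ (Ne.symm harb) hmid _ _
          have c3 : tv (rev_ne hab) (1 : F) * tv hab 1 = tv hab 1 * tv (rev_ne hab) 1 :=
            tv_comm _ _ haa hbb.symm _ _
          have c4 : tv (rev_ne hab) (1 : F) * tv (rev_ne hab.symm) 1 * tv (rev_ne hab) 1 = nn (rev_ne hab) := by
            rw [nn, CharTwo.neg_eq]
          have c5 : tv hab (1 : F) * tv hab.symm 1 * tv hab 1 = nn hab := by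
            rw [nn, CharTwo.neg_eq]
          generalize tv hab (1 : F) = X1 at *
          generalize tv (rev_ne hab) (1 : F) = X2 at *
          generalize tv hab.symm (1 : F) = Y1 at *
          generalize tv (rev_ne hab.symm) (1 : F) = Y2 at *
          rw [← c4, ← c5]
          calc X1 * X2 * (Y1 * Y2) * (X1 * X2) = X1 * (X2 * Y1) * (Y2 * X1) * X2 := by group
            _ = X1 * Y1 * (X2 * X1) * Y2 * X2 := by rw [c1, c2]; group
            _ = _ := by rw [c3]; group
        have hmw : Mono (σ * swap a b * swap (Fin.rev b) (Fin.rev a)) (n * (nn hab * nn (rev_ne hab))) := by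
          rw [← mul_assoc]
          exact (hσ.mul (mono_nn hab)).mul (mono_nn (rev_ne hab))
        have hmem : tv hab.symm (1 : F) * tv (rev_ne hab.symm) 1 ∈ Pat F S := by
          refine ⟨fun k => ?_, fun k l hkl hn => ?_⟩
          · rw [pair_apply _ _ haa.symm, if_pos rfl, if_neg, if_neg, add_zero, add_zero]
            · exact fun e => rev_ne hab (e.2.trans e.1.symm)
            · exact fun e => hab (e.2.trans e.1.symm)
          · rw [pair_apply _ _ haa.symm, if_neg hkl, if_neg, if_neg, add_zero, add_zero]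
            · exact fun e => hn (Or.inr ⟨e.1.symm, e.2.symm⟩)
            · exact fun e => hn (Or.inl ⟨e.1.symm, e.2.symm⟩)
        refine ⟨?_, ⟨tv hab 1 * tv (rev_ne hab) 1, hx⟩ * ⟨tv hab.symm 1 * tv (rev_ne hab.symm) 1, hy⟩ *
          ⟨tv hab 1 * tv (rev_ne hab) 1, hx⟩, ?_, ?_, ?_⟩
        · intro hsub
          have h2 := hsub (a := ⟨tv hab.symm 1 * tv (rev_ne hab.symm) 1, hy⟩) hmem
          have h3 : tv hab.symm (1 : F) * tv (rev_ne hab.symm) 1 ∈ Usub F m := h2
          have h4 := h3 b a hlt.le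
          rw [pair_apply _ _ haa.symm, if_neg hab.symm, if_pos ⟨rfl, rfl⟩,
            if_neg (fun e : Fin.rev a = b ∧ Fin.rev b = a => hmid e.1.symm), zero_add, add_zero] at h4
          exact one_ne_zero h4
        · have hx' : (⟨tv hab 1 * tv (rev_ne hab) 1, hx⟩ : Fx (m := m) s) ∈ Subgroup.closure ((FU (m := m) s : Set (Fx (m := m) s)) ∪
              {y | y.1 ∈ Pat F S}) := by
            refine Subgroup.subset_closure (Set.mem_union_left _ ?_)
            show tv hab (1 : F) * tv (rev_ne hab) 1 ∈ Usub F m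
            exact (Usub F m).mul_mem (tv_mem_U (F := F) hab 1 hlt) (tv_mem_U (F := F) (rev_ne hab) 1 hrlt)
          have hy' : (⟨tv hab.symm 1 * tv (rev_ne hab.symm) 1, hy⟩ : Fx (m := m) s) ∈
              Subgroup.closure ((FU (m := m) s : Set (Fx (m := m) s)) ∪ {y | y.1 ∈ Pat F S}) :=
            Subgroup.subset_closure (Or.inr hmem)
          exact mul_mem (mul_mem hx' hy') hx'
        · show n * ((tv hab (1 : F) * tv (rev_ne hab) 1) * (tv hab.symm 1 * tv (rev_ne hab.symm) 1) *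
            (tv hab 1 * tv (rev_ne hab) 1)) ∈ Nsub F m
          rw [hw]
          exact ⟨_, hmw⟩
        · show ell (n * ((tv hab (1 : F) * tv (rev_ne hab) 1) * (tv hab.symm 1 * tv (rev_ne hab.symm) 1) *
            (tv hab 1 * tv (rev_ne hab) 1))) < ell n
          rw [hw]
          refine ell_lt hσ hmw ((wt_swap hlt hi).trans (wt_swap hrlt ?_))
          rw [Perm.mul_apply, Perm.mul_apply, swap_apply_of_ne_of_ne haa (Ne.symm hmid),
            swap_apply_of_ne_of_ne (Ne.symm harb) hbb]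
          exact hi2

end DatFx

end Cfsg.Agent.Lib.OverSU
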