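import Mathlib
import Cfsg.Agent.Lib.OverSU
import Cfsg.Agent.Lib.HermClass
import Cfsg.Agent.Lib.ClUnitary2

/-!
(helper43) `SU_{m+1}(q)`, `q` even, `m` odd: subgroups of odd index are pronormal.
-/

set_option autoImplicit false

namespace Cfsg.Agent.Lib.OverSU

open Cfsg Cfsg.Agent.Lib.SLBN Cfsg.Agent.Lib.OverU Cfsg.Agent.Lib.OverSL Cfsg.Agent.Lib.ClUnitary Equiv

variable {F : Type*} [Field F] {m : ℕ}

/-- antidiagonal matrix -/
def J (F : Type*) [Field F] (m : ℕ) : Matrix (Fin (m + 1)) (Fin (m + 1)) F :=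
  Matrix.of fun i j => if j = Fin.rev i then 1 else 0

theorem J_mul (A : Matrix (Fin (m + 1)) (Fin (m + 1)) F) (i j : Fin (m + 1)) :
    (J F m * A) i j = A (Fin.rev i) j := by
  rw [Matrix.mul_apply, Finset.sum_eq_single (Fin.rev i)]
  · simp [J]
  · intro k _ hk
    simp [J, hk]
  · intro h; exact absurd (Finset.mem_univ _) h

theorem mul_J (A : Matrix (Fin (m + 1)) (Fin (m + 1)) F) (i j : Fin (m + 1)) :
    (A * J F m) i j = A i (Fin.rev j) := by
  rw [Matrix.mul_apply, Finset.sum_eq_single (Fin.rev j)]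
  · simp [J]
  · intro k _ hk
    have : ¬ j = Fin.rev k := fun e => hk (by rw [e, Fin.rev_rev])
    simp [J, this]
  · intro h; exact absurd (Finset.mem_univ _) h

theorem J_J : J F m * J F m = 1 := by
  ext i j
  rw [mul_J, Matrix.one_apply]
  show (if Fin.rev j = Fin.rev i then (1 : F) else 0) = _
  by_cases h : i = j
  · subst h; simp
  · rw [if_neg h, if_neg (fun e => h (Fin.rev_injective e).symm)]

theorem fixed_iff (s : F →+* F) (g : SG F m) : tau s g = g ↔ g.1 * J F m * (g.1.map s).transpose = J F m := by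
  have h1 : (tau s g).1 = J F m * ((g⁻¹).1.map s).transpose * J F m := by
    ext i j
    rw [mul_J, J_mul]; rfl
  have h2 : (g.1.map s).transpose * ((g⁻¹).1.map s).transpose = 1 := by
    rw [← Matrix.transpose_mul, ← Matrix.map_mul, ← Matrix.SpecialLinearGroup.coe_mul, inv_mul_cancel,
      Matrix.SpecialLinearGroup.coe_one, Matrix.map_one s (map_zero s) (map_one s), Matrix.transpose_one]
  have h3 : ((g⁻¹).1.map s).transpose * (g.1.map s).transpose = 1 := by
    rw [← Matrix.transpose_mul, ← Matrix.map_mul, ← Matrix.SpecialLinearGroup.coe_mul, mul_inv_cancel,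
      Matrix.SpecialLinearGroup.coe_one, Matrix.map_one s (map_zero s) (map_one s), Matrix.transpose_one]
  constructor
  · intro h
    have h4 : g.1 = J F m * ((g⁻¹).1.map s).transpose * J F m := by rw [← h1, h]
    calc g.1 * J F m * (g.1.map s).transpose
        = J F m * ((g⁻¹).1.map s).transpose * J F m * J F m * (g.1.map s).transpose := by rw [← h4]
      _ = J F m * ((g⁻¹).1.map s).transpose * (J F m * J F m) * (g.1.map s).transpose := by
          simp only [mul_assoc]
      _ = J F m * (((g⁻¹).1.map s).transpose * (g.1.map s).transpose) := by rw [J_J, mul_one, mul_assoc]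
      _ = J F m := by rw [h3, mul_one]
  · intro h
    apply Subtype.ext
    rw [h1]
    calc J F m * ((g⁻¹).1.map s).transpose * J F m
        = (g.1 * J F m * (g.1.map s).transpose) * ((g⁻¹).1.map s).transpose * J F m := by rw [h]
      _ = g.1 * J F m * ((g.1.map s).transpose * ((g⁻¹).1.map s).transpose) * J F m := by simp only [mul_assoc]
      _ = g.1 * (J F m * J F m) := by rw [h2, mul_one, mul_assoc]
      _ = g.1 := by rw [J_J, mul_one]

/-- the field involution -/
theorem exists_sigma [Fintype F] {q : ℕ} (hF : Fintype.card F = q ^ 2) :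
    ∃ σ : F ≃+* F, (∀ x, σ x = x ^ q) ∧ orderOf σ = 2 := by
  have hinv : ∀ x, frob hF (frob hF x) = x := frob_frob hF
  let σ : F ≃+* F :=
    { frob hF with
      toFun := frob hF
      invFun := frob hF
      left_inv := hinv
      right_inv := hinv }
  have hσ : ∀ x, σ x = x ^ q := fun x => rfl
  refine ⟨σ, hσ, ?_⟩
  apply orderOf_eq_prime
  · ext x
    rw [pow_two]
    exact hinv x
  · intro h
    apply frob_ne_id hF
    ext x
    exact DFunLike.congr_fun h x

theorem isUn_of_mem {n q : ℕ} (g : SU n F q) : IsUn q ((g : Matrix.SpecialLinearGroup (Fin n) F) : Matrix (Fin n) (Fin n) F) :=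
  g.2

/-- the surjection from the fixed group -/
theorem exists_surj [Fintype F] {q : ℕ} (hF : Fintype.card F = q ^ 2) :
    ∃ f : Fx (m := m) (frob hF) →* SU (m + 1) F q, Function.Surjective f := by
  obtain ⟨σ, hσ, h2⟩ := exists_sigma hF
  have hσ' : ∀ A : Matrix (Fin (m + 1)) (Fin (m + 1)) F, A.map σ = A.map (frob hF) := by
    intro A; ext i j; exact hσ _
  let Jg : GL (Fin (m + 1)) F := ⟨J F m, J F m, J_J, J_J⟩
  have hJh : Jg.1 = (Jg.1.map σ).transpose := by
    ext i j
    show (if j = Fin.rev i then (1 : F) else 0) = σ (if i = Fin.rev j then (1 : F) else 0)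
    by_cases h : j = Fin.rev i
    · rw [if_pos h, if_pos (by rw [h, Fin.rev_rev]), map_one]
    · rw [if_neg h, if_neg (fun e => h (by rw [e, Fin.rev_rev])), map_zero]
  obtain ⟨x, hx⟩ := HermClass.hermitian_eq h2 Jg hJh
  rw [hσ'] at hx
  change J F m = x.1 * (x.1.map (frob hF)).transpose at hx
  have hxi : x.1 * (x⁻¹).1 = 1 := by rw [← Units.val_mul, mul_inv_cancel, Units.val_one]
  have hix : (x⁻¹).1 * x.1 = 1 := by rw [← Units.val_mul, inv_mul_cancel, Units.val_one]
  have hmt : ∀ A B : Matrix (Fin (m + 1)) (Fin (m + 1)) F, ((A * B).map (frob hF)).transpose =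
      (B.map (frob hF)).transpose * (A.map (frob hF)).transpose := by
    intro A B; rw [Matrix.map_mul, Matrix.transpose_mul]
  have h1t : ((1 : Matrix (Fin (m + 1)) (Fin (m + 1)) F).map (frob hF)).transpose = 1 := by
    rw [Matrix.map_one _ (map_zero _) (map_one _), Matrix.transpose_one]
  have hxt : (x.1.map (frob hF)).transpose * ((x⁻¹).1.map (frob hF)).transpose = 1 := by
    rw [← hmt, hix, h1t]
  have hxt' : ((x⁻¹).1.map (frob hF)).transpose * (x.1.map (frob hF)).transpose = 1 := by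
    rw [← hmt, hxi, h1t]
  -- unitarity in the other order
  have hun : ∀ A : Matrix (Fin (m + 1)) (Fin (m + 1)) F, IsUn q A ↔ A * (A.map (frob hF)).transpose = 1 := by
    intro A
    rw [isUn_iff hF]
    constructor
    · intro h
      have h3 := congrArg Matrix.transpose h
      rw [Matrix.transpose_mul, Matrix.transpose_transpose, Matrix.transpose_one] at h3
      exact mul_eq_one_comm.1 h3
    · intro h
      have h3 := mul_eq_one_comm.1 h
      have h4 := congrArg Matrix.transpose h3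
      rw [Matrix.transpose_mul, Matrix.transpose_transpose, Matrix.transpose_one] at h4
      exact h4
  have hdet : ∀ A : Matrix (Fin (m + 1)) (Fin (m + 1)) F, A.det = 1 → ((x⁻¹).1 * A * x.1).det = 1 := by
    intro A hA
    rw [Matrix.det_mul, Matrix.det_mul, hA, mul_one, ← Matrix.det_mul, hix, Matrix.det_one]
  have hdet' : ∀ A : Matrix (Fin (m + 1)) (Fin (m + 1)) F, A.det = 1 → (x.1 * A * (x⁻¹).1).det = 1 := by
    intro A hA
    rw [Matrix.det_mul, Matrix.det_mul, hA, mul_one, ← Matrix.det_mul, hxi, Matrix.det_one]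
  have hmem : ∀ g : SG F m, g ∈ Fx (m := m) (frob hF) → IsUn q ((x⁻¹).1 * g.1 * x.1) := by
    intro g hg
    rw [hun]
    have h3 := (fixed_iff (frob hF) g).1 hg
    rw [hx] at h3
    rw [hmt, hmt]
    calc (x⁻¹).1 * g.1 * x.1 * ((x.1.map (frob hF)).transpose * ((g.1.map (frob hF)).transpose *
          ((x⁻¹).1.map (frob hF)).transpose))
        = (x⁻¹).1 * (g.1 * (x.1 * (x.1.map (frob hF)).transpose) * (g.1.map (frob hF)).transpose) *
          ((x⁻¹).1.map (frob hF)).transpose := by simp only [mul_assoc]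
      _ = ((x⁻¹).1 * x.1) * ((x.1.map (frob hF)).transpose * ((x⁻¹).1.map (frob hF)).transpose) := by
          rw [h3]; simp only [mul_assoc]
      _ = 1 := by rw [hix, hxt, one_mul]
  have hmem' : ∀ A : Matrix (Fin (m + 1)) (Fin (m + 1)) F, ∀ hA : (x.1 * A * (x⁻¹).1).det = 1, IsUn q A →
      (⟨x.1 * A * (x⁻¹).1, hA⟩ : SG F m) ∈ Fx (m := m) (frob hF) := by
    intro A hA hU
    rw [hun] at hU
    apply (fixed_iff (frob hF) _).2
    show x.1 * A * (x⁻¹).1 * J F m * ((x.1 * A * (x⁻¹).1).map (frob hF)).transpose = J F m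
    rw [hmt, hmt, hx]
    calc x.1 * A * (x⁻¹).1 * (x.1 * (x.1.map (frob hF)).transpose) * (((x⁻¹).1.map (frob hF)).transpose *
          ((A.map (frob hF)).transpose * (x.1.map (frob hF)).transpose))
        = x.1 * A * ((x⁻¹).1 * x.1) * ((x.1.map (frob hF)).transpose * ((x⁻¹).1.map (frob hF)).transpose) *
          (A.map (frob hF)).transpose * (x.1.map (frob hF)).transpose := by simp only [mul_assoc]
      _ = x.1 * (A * (A.map (frob hF)).transpose) * (x.1.map (frob hF)).transpose := by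
          rw [hix, hxt, mul_one, mul_one]; simp only [mul_assoc]
      _ = _ := by rw [hU, mul_one]
  let f : Fx (m := m) (frob hF) →* SU (m + 1) F q :=
    MonoidHom.mk' (fun g => ⟨⟨(x⁻¹).1 * g.1.1 * x.1, hdet _ g.1.2⟩, hmem g.1 g.2⟩) (by
      intro a b
      apply Subtype.ext
      apply Subtype.ext
      show (x⁻¹).1 * (a.1.1 * b.1.1) * x.1 = ((x⁻¹).1 * a.1.1 * x.1) * ((x⁻¹).1 * b.1.1 * x.1)
      calc (x⁻¹).1 * (a.1.1 * b.1.1) * x.1 = (x⁻¹).1 * a.1.1 * 1 * b.1.1 * x.1 := by
            rw [mul_one]; simp only [mul_assoc]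
        _ = _ := by rw [← hxi]; simp only [mul_assoc])
  refine ⟨f, ?_⟩
  rintro ⟨⟨u, hu1⟩, hu2⟩
  refine ⟨⟨⟨x.1 * u * (x⁻¹).1, hdet' _ hu1⟩, hmem' u _ hu2⟩, ?_⟩
  apply Subtype.ext
  apply Subtype.ext
  show (x⁻¹).1 * (x.1 * u * (x⁻¹).1) * x.1 = u
  calc (x⁻¹).1 * (x.1 * u * (x⁻¹).1) * x.1 = ((x⁻¹).1 * x.1) * u * ((x⁻¹).1 * x.1) := by
        simp only [mul_assoc]
    _ = u := by rw [hix, one_mul, mul_one]

theorem pronormal_Fx [Finite F] [CharP F 2] (hm : Odd m) (s : F →+* F) {H : Subgroup (Fx (m := m) s)}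
    (hH : Odd H.index) : Cfsg.IsPronormal H := by
  refine (datFx s hm).pronormal ?_ ?_ hH
  · have h : IsPGroup 2 (Usub F m) := isPGroup_U 2
    exact h.comap_subtype
  · intro t ht
    have := odd_Tor (F := F) (m := m) (t := t.1) ht
    rwa [Subgroup.orderOf_coe] at this

theorem pronormal_SU [Fintype F] [CharP F 2] {q : ℕ} (hF : Fintype.card F = q ^ 2) (hm : Odd m)
    (H : Subgroup (SU (m + 1) F q)) (hH : Odd H.index) : Cfsg.IsPronormal H := by
  obtain ⟨f, hf⟩ := exists_surj (m := m) hF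
  exact pronormal_quot hf (fun K hK => pronormal_Fx hm _ hK) H hH

theorem pronormal_PSU [Fintype F] [CharP F 2] {q n : ℕ} (hF : Fintype.card F = q ^ 2) (hn : Even n) (hn0 : 0 < n)
    (H : Subgroup (PSU n F q)) (hH : Odd H.index) : Cfsg.IsPronormal H := by
  obtain ⟨m, rfl⟩ : ∃ m, n = m + 1 := ⟨n - 1, by omega⟩
  have hm : Odd m := by
    rcases Nat.even_or_odd m with h | h
    · exact absurd (h.add_one) (Nat.not_odd_iff_even.2 hn)
    · exact h
  exact pronormal_quot (QuotientGroup.mk'_surjective _) (fun K hK => pronormal_SU hF hm K hK) H hH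

theorem pronormal_PSL [Finite F] [CharP F 2] {n : ℕ} (hn0 : 0 < n)
    (H : Subgroup (Matrix.ProjectiveSpecialLinearGroup (Fin n) F)) (hH : Odd H.index) : Cfsg.IsPronormal H := by
  obtain ⟨m, rfl⟩ : ∃ m, n = m + 1 := ⟨n - 1, by omega⟩
  exact pronormal_quot (QuotientGroup.mk'_surjective _) (fun K hK => pronormal_SL hK) H hH

end Cfsg.Agent.Lib.OverSU
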